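import Mathlib
import Cfsg.Statements.S3103
import Cfsg.Agent.Lib.GL42A8
import Cfsg.Agent.Lib.BurnsideAut
import Cfsg.Agent.Lib.Frat
import Cfsg.Agent.Lib.PCore

set_option autoImplicit false
open Cfsg
open scoped commutatorElement

namespace Cfsg.Agent.S3103

/-- Automorphisms of an elementary abelian `2`-group of order at most `16` embed in `GL₄(2)`. -/
theorem mulAut_embed {V : Type*} [hG : Group V] [Finite V] (hc : ∀ a b : V, a * b = b * a)
    (h2 : ∀ v : V, v ^ 2 = 1) (hcard : Nat.card V ≤ 16) :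
    ∃ f : MulAut V →* Matrix.GeneralLinearGroup (Fin 4) (ZMod 2), Function.Injective f := by
  classical
  letI : CommGroup V := { hG with mul_comm := hc }
  have h2W : ∀ x : Additive V, (2 : ℕ) • x = 0 := fun x => h2 (Additive.toMul x)
  letI : Module (ZMod 2) (Additive V) := AddCommGroup.zmodModule h2W
  have hp : Fact (Nat.Prime 2) := ⟨Nat.prime_two⟩
  have : Module.Finite (ZMod 2) (Additive V) := Module.Finite.of_finite
  set d := Module.finrank (ZMod 2) (Additive V) with hd
  have hcardW : Nat.card (Additive V) = 2 ^ d := by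
    rw [hd]
    have := Module.natCard_eq_pow_finrank (K := ZMod 2) (V := Additive V)
    simpa using this
  have hd4 : d ≤ 4 := by
    have h16 : 2 ^ d ≤ 2 ^ 4 := by
      rw [← hcardW]
      exact hcard
    exact (Nat.pow_le_pow_iff_right (by norm_num)).1 h16
  let U := Fin (4 - d) → ZMod 2
  have hfr : Module.finrank (ZMod 2) (Additive V × U) = Module.finrank (ZMod 2) (Fin 4 → ZMod 2) := by
    rw [Module.finrank_prod, ← hd]
    simp [U]
    omega
  let e : (Additive V × U) ≃ₗ[ZMod 2] (Fin 4 → ZMod 2) := LinearEquiv.ofFinrankEq _ _ hfr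
  let lin : MulAut V → (Additive V ≃ₗ[ZMod 2] Additive V) := fun α =>
    AddEquiv.toLinearEquiv (MulEquiv.toAdditive α) (fun c x => ZMod.map_smul (MulEquiv.toAdditive α) c x)
  have hlin : ∀ (α : MulAut V) (v : V), lin α (Additive.ofMul v) = Additive.ofMul (α v) := fun _ _ => rfl
  let φ : MulAut V →* ((Fin 4 → ZMod 2) ≃ₗ[ZMod 2] (Fin 4 → ZMod 2)) :=
    MonoidHom.mk' (fun α => e.symm.trans (((lin α).prodCongr (LinearEquiv.refl (ZMod 2) U)).trans e))
      (by
        intro α β
        apply LinearEquiv.ext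
        intro x
        show e (((lin (α * β)).prodCongr (LinearEquiv.refl (ZMod 2) U)) (e.symm x)) =
          e (((lin α).prodCongr (LinearEquiv.refl (ZMod 2) U))
            (e.symm (e (((lin β).prodCongr (LinearEquiv.refl (ZMod 2) U)) (e.symm x)))))
        rw [LinearEquiv.symm_apply_apply]
        rfl)
  have hφinj : Function.Injective φ := by
    rw [injective_iff_map_eq_one]
    intro α hα
    ext v
    have h1 : ∀ x, φ α x = x := fun x => by rw [hα]; rfl
    have h3 := h1 (e (Additive.ofMul v, 0))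
    have h4 : e (((lin α).prodCongr (LinearEquiv.refl (ZMod 2) U)) (e.symm (e (Additive.ofMul v, 0))))
        = e (Additive.ofMul v, 0) := h3
    rw [LinearEquiv.symm_apply_apply] at h4
    have h5 := e.injective h4
    have h6 : lin α (Additive.ofMul v) = Additive.ofMul v := congrArg Prod.fst h5
    rw [hlin] at h6
    exact h6
  let ψ : ((Fin 4 → ZMod 2) ≃ₗ[ZMod 2] (Fin 4 → ZMod 2)) ≃* Matrix.GeneralLinearGroup (Fin 4) (ZMod 2) :=
    (LinearMap.GeneralLinearGroup.generalLinearEquiv (ZMod 2) (Fin 4 → ZMod 2)).symm.trans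
      Matrix.GeneralLinearGroup.toLin.symm
  exact ⟨ψ.toMonoidHom.comp φ, ψ.injective.comp hφinj⟩

/-- The conjugation action on the Frattini quotient. -/
theorem exists_action {X : Type*} [Group X] [Finite X] (Q : Subgroup X) [hQ : Q.Normal] (hQ2 : IsPGroup 2 Q)
    (hmax : ∀ N : Subgroup X, N.Normal → IsPGroup 2 N → N ≤ Q)
    (hC : Subgroup.centralizer (Q : Set X) ≤ Q) :
    ∃ f : X ⧸ Q →* MulAut (↥Q ⧸ frattini ↥Q), Function.Injective f := by
  classical
  have hp : Fact (Nat.Prime 2) := ⟨Nat.prime_two⟩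
  set Φ := frattini ↥Q with hΦ
  have hmap : ∀ α : MulAut ↥Q, Φ.map α.toMonoidHom = Φ := fun α =>
    (Subgroup.characteristic_iff_map_eq.mp inferInstance) α
  -- the action of automorphisms
  let act : MulAut ↥Q →* MulAut (↥Q ⧸ Φ) :=
    MonoidHom.mk' (fun α => QuotientGroup.congr Φ Φ α (hmap α))
      (by
        intro α β
        ext x
        induction x using QuotientGroup.induction_on with
        | H q => rfl)
  let ρ : X →* MulAut (↥Q ⧸ Φ) := act.comp MulAut.conjNormal
  have hρ : ∀ (x : X) (q : Q), ρ x (q : ↥Q ⧸ Φ) = ((MulAut.conjNormal x q : ↥Q) : ↥Q ⧸ Φ) := fun _ _ => rfl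
  have hker : ∀ x : X, ρ x = 1 ↔ ∀ q : Q, (MulAut.conjNormal x q) * q⁻¹ ∈ Φ := by
    intro x
    constructor
    · intro h q
      have h1 := hρ x q
      rw [h] at h1
      have h2 : (q : ↥Q ⧸ Φ) = ((MulAut.conjNormal x q : ↥Q) : ↥Q ⧸ Φ) := h1
      have h3 := QuotientGroup.eq.mp h2
      have h4 : (MulAut.conjNormal x q) * q⁻¹ = q * (q⁻¹ * (MulAut.conjNormal x q)) * q⁻¹ := by group
      rw [h4]
      exact (inferInstance : Φ.Normal).conj_mem _ h3 q
    · intro h
      ext y
      induction y using QuotientGroup.induction_on with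
      | H q =>
        show ((MulAut.conjNormal x q : ↥Q) : ↥Q ⧸ Φ) = (q : ↥Q ⧸ Φ)
        apply QuotientGroup.eq.mpr
        have h1 := h q
        have h2 : (MulAut.conjNormal x q)⁻¹ * q = ((MulAut.conjNormal x q)⁻¹) * ((MulAut.conjNormal x q) * q⁻¹)⁻¹ * (MulAut.conjNormal x q) := by group
        rw [h2]
        have := (inferInstance : Φ.Normal).conj_mem _ (Φ.inv_mem h1) ((MulAut.conjNormal x q)⁻¹)
        simpa using this
  -- `Q` acts trivially
  have hQker : ∀ x ∈ Q, ρ x = 1 := by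
    intro x hx
    rw [hker]
    intro q
    have h1 : (MulAut.conjNormal x q) = (⟨x, hx⟩ : Q) * q * (⟨x, hx⟩ : Q)⁻¹ := by
      apply Subtype.ext
      simp [MulAut.conjNormal_apply]
    rw [h1]
    apply Cfsg.Agent.Lib.Frat.commutator_le_frattini hQ2
    exact Subgroup.subset_closure ⟨_, Subgroup.mem_top _, q, Subgroup.mem_top _, rfl⟩
  -- the kernel is a `2`-group
  have hker2 : IsPGroup 2 ρ.ker := by
    rw [IsPGroup.iff_orderOf]
    intro g
    have hord : orderOf g ≠ 0 := (orderOf_pos g).ne'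
    refine ⟨_, Nat.eq_prime_pow_of_unique_prime_dvd hord ?_⟩
    intro r hr hrd
    by_contra hr2
    set u : X := ((g : X)) ^ (orderOf g / r) with hu
    have hr0 : r ≠ 0 := hr.ne_zero
    have huk : ρ u = 1 := by
      rw [hu, map_pow]
      have : ρ (g : X) = 1 := g.2
      rw [this, one_pow]
    have hur : u ^ r = 1 := by
      rw [hu, ← pow_mul, Nat.div_mul_cancel hrd]
      have : orderOf (g : X) = orderOf g := Subgroup.orderOf_coe g
      rw [← this]
      exact pow_orderOf_eq_one _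
    have hu1 : u ≠ 1 := by
      intro h1
      rw [hu] at h1
      have hd := orderOf_dvd_of_pow_eq_one h1
      have : orderOf (g : X) = orderOf g := Subgroup.orderOf_coe g
      rw [this] at hd
      have hle := Nat.le_of_dvd (Nat.div_pos (Nat.le_of_dvd (orderOf_pos g) hrd) hr.pos) hd
      have hlt := Nat.div_lt_self (orderOf_pos g) hr.one_lt
      omega
    have hτ : (MulAut.conjNormal u : MulAut Q) ^ r = 1 := by
      rw [← map_pow, hur, map_one]
    have hτ1 := Cfsg.Agent.Lib.BurnsideAut.aut_eq_one_of_trivial_on_frattini hQ2 hr hr2 _ hτ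
      ((hker u).mp huk)
    have hucen : u ∈ Subgroup.centralizer (Q : Set X) := by
      rw [Subgroup.mem_centralizer_iff]
      intro q hq
      have h1 : MulAut.conjNormal u (⟨q, hq⟩ : Q) = ⟨q, hq⟩ := by rw [hτ1]; rfl
      have h2 := congrArg Subtype.val h1
      rw [MulAut.conjNormal_apply] at h2
      have h3 : u * q * u⁻¹ = q := h2
      calc q * u = (u * q * u⁻¹) * u := by rw [h3]
        _ = u * q := by group
    have huQ : u ∈ Q := hC hucen
    obtain ⟨k, hk⟩ := IsPGroup.iff_orderOf.mp hQ2 ⟨u, huQ⟩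
    have hk' : orderOf u = 2 ^ k := by
      rw [← hk]; exact (Subgroup.orderOf_mk u huQ).symm
    have hur' : orderOf u = r := orderOf_eq_prime hur hu1 (hp := ⟨hr⟩)
    rw [hur'] at hk'
    apply hr2
    have hd : r ∣ 2 ^ k := by rw [hk']
    exact (Nat.prime_dvd_prime_iff_eq hr Nat.prime_two).1 (hr.dvd_of_dvd_pow hd)
  have hkerQ : ρ.ker ≤ Q := hmax _ (MonoidHom.normal_ker ρ) hker2
  refine ⟨QuotientGroup.lift Q ρ hQker, ?_⟩
  rw [injective_iff_map_eq_one]
  intro y hy
  induction y using QuotientGroup.induction_on with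
  | H x =>
    have h1 : ρ x = 1 := hy
    exact (QuotientGroup.eq_one_iff x).mpr (hkerQ h1)

/-- Let X be a finite 2-constrained group with no nontrivial normal subgroup of odd order such that O₂(X) has sectional 2-rank at most 4. Then X/O₂(X) is isomorphic to a subgroup of the alternating group of degree 8. -/
theorem result {X : Type*} [Group X] [Finite X] (hc : Cfsg.IsPConstrained 2 X) (hO : Cfsg.oddCore X = ⊥)
    (h4 : Cfsg.SectionalPRankLE 2 4 ↥(Cfsg.pCore 2 X)) :
    ∃ f : X ⧸ Cfsg.pCore 2 X →* ↥(alternatingGroup (Fin 8)), Function.Injective f := by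
  classical
  have hp : Fact (Nat.Prime 2) := ⟨Nat.prime_two⟩
  set Q := Cfsg.pCore 2 X with hQdef
  have hQn : Q.Normal := by
    have := Cfsg.Agent.Lib.PCore.pCore_characteristic (G := X) 2
    infer_instance
  have hQ2 : IsPGroup 2 Q := Cfsg.Agent.Lib.PCore.isPGroup_pCore 2
  have hmax : ∀ N : Subgroup X, N.Normal → IsPGroup 2 N → N ≤ Q :=
    fun N hN hN2 => Cfsg.Agent.Lib.PCore.le_pCore hN hN2
  -- `O_{2',2}(X) = O_2(X)`
  have hO' : Cfsg.pPrimeCore 2 X = ⊥ := hO
  set R := Cfsg.pPrimePCore 2 X with hR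
  have hminj : Function.Injective (QuotientGroup.mk' (Cfsg.pPrimeCore 2 X)) := by
    rw [injective_iff_map_eq_one]
    intro x hx
    have := (QuotientGroup.eq_one_iff x).mp hx
    rw [hO'] at this
    exact this
  have hRchar : (Cfsg.pCore 2 (X ⧸ Cfsg.pPrimeCore 2 X)).Normal := by
    have := Cfsg.Agent.Lib.PCore.pCore_characteristic (G := X ⧸ Cfsg.pPrimeCore 2 X) 2
    infer_instance
  have hRn : R.Normal := hRchar.comap _
  have hR2 : IsPGroup 2 R :=
    (Cfsg.Agent.Lib.PCore.isPGroup_pCore (G := X ⧸ Cfsg.pPrimeCore 2 X) 2).comap_of_injective _ hminj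
  have hRQ : R ≤ Q := hmax R hRn hR2
  have hQR : Q ≤ R := by
    intro q hq
    show QuotientGroup.mk' (Cfsg.pPrimeCore 2 X) q ∈ Cfsg.pCore 2 (X ⧸ Cfsg.pPrimeCore 2 X)
    have h1 : Q.map (QuotientGroup.mk' (Cfsg.pPrimeCore 2 X)) ≤ Cfsg.pCore 2 (X ⧸ Cfsg.pPrimeCore 2 X) :=
      Cfsg.Agent.Lib.PCore.le_pCore (hQn.map _ (QuotientGroup.mk'_surjective _)) (hQ2.map _)
    exact h1 ⟨q, hq, rfl⟩
  have hRQe : R = Q := le_antisymm hRQ hQR
  have hC : Subgroup.centralizer (Q : Set X) ≤ Q := by
    obtain ⟨P₀⟩ : Nonempty (Sylow 2 ↥R) := inferInstance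
    have h1 := hc P₀
    have hP₀ : (P₀ : Subgroup ↥R) = ⊤ :=
      (P₀.is_maximal' (IsPGroup.to_subgroup hR2 ⊤) le_top).symm
    have h2 : ((P₀ : Subgroup ↥R).map R.subtype) = R := by
      rw [hP₀, ← MonoidHom.range_eq_map, Subgroup.range_subtype]
    rw [h2] at h1
    have h3 : Subgroup.centralizer (R : Set X) ≤ R := h1
    rwa [hRQe] at h3
  obtain ⟨f₁, hf₁⟩ := @exists_action X _ _ Q hQn hQ2 hmax hC
  -- the Frattini quotient
  set Φ := frattini ↥Q with hΦ
  have hcomm : ∀ a b : ↥Q ⧸ Φ, a * b = b * a := by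
    intro a b
    induction a using QuotientGroup.induction_on with
    | H u =>
      induction b using QuotientGroup.induction_on with
      | H v =>
        rw [← QuotientGroup.mk_mul, ← QuotientGroup.mk_mul]
        apply QuotientGroup.eq.mpr
        have h1 : (u * v)⁻¹ * (v * u) = ⁅v⁻¹, u⁻¹⁆ := by
          rw [commutatorElement_def]; group
        rw [h1]
        apply Cfsg.Agent.Lib.Frat.commutator_le_frattini hQ2
        exact Subgroup.subset_closure ⟨_, Subgroup.mem_top _, _, Subgroup.mem_top _, rfl⟩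
  have hsq : ∀ a : ↥Q ⧸ Φ, a ^ 2 = 1 := by
    intro a
    induction a using QuotientGroup.induction_on with
    | H u =>
      rw [← QuotientGroup.mk_pow]
      exact (QuotientGroup.eq_one_iff _).mpr (Cfsg.Agent.Lib.Frat.pow_mem_frattini hQ2 u)
  have hcard : Nat.card (↥Q ⧸ Φ) ≤ 16 := by
    let N : Subgroup (⊤ : Subgroup ↥Q) := Φ.subgroupOf ⊤
    have hN : N.Normal := inferInstance
    have h1 := h4 ⊤ N ⊤ ⟨⟨fun u v => ?_⟩⟩ ?_
    · have h2 : Nat.card (⊤ : Subgroup (↥(⊤ : Subgroup ↥Q) ⧸ N)) = N.index := by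
        rw [Subgroup.card_top, Subgroup.index_eq_card]
      rw [h2] at h1
      have h3 : N.index = Φ.index := by
        show (Φ.subgroupOf ⊤).index = _
        rw [← Subgroup.relIndex, Subgroup.relIndex_top_right]
      rw [h3, Subgroup.index_eq_card] at h1
      exact h1
    · apply Subtype.ext
      obtain ⟨a, -⟩ := u
      obtain ⟨b, -⟩ := v
      show a * b = b * a
      induction a using QuotientGroup.induction_on with
      | H a =>
        induction b using QuotientGroup.induction_on with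
        | H b =>
          rw [← QuotientGroup.mk_mul, ← QuotientGroup.mk_mul]
          apply QuotientGroup.eq.mpr
          have h5 : ((a * b)⁻¹ * (b * a) : ↥(⊤ : Subgroup ↥Q)) = ⁅b⁻¹, a⁻¹⁆ := by
            rw [commutatorElement_def]; group
          rw [h5]
          show ((⁅b⁻¹, a⁻¹⁆ : ↥(⊤ : Subgroup ↥Q)) : ↥Q) ∈ Φ
          apply Cfsg.Agent.Lib.Frat.commutator_le_frattini hQ2
          exact Subgroup.subset_closure ⟨_, Subgroup.mem_top _, _, Subgroup.mem_top _, rfl⟩
    · intro a _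
      induction a using QuotientGroup.induction_on with
      | H a =>
        rw [← QuotientGroup.mk_pow]
        apply (QuotientGroup.eq_one_iff _).mpr
        show ((a ^ 2 : ↥(⊤ : Subgroup ↥Q)) : ↥Q) ∈ Φ
        exact Cfsg.Agent.Lib.Frat.pow_mem_frattini hQ2 _
  obtain ⟨f₂, hf₂⟩ := mulAut_embed hcomm hsq hcard
  obtain ⟨f₃, hf₃⟩ := Cfsg.Agent.Lib.GL42A8.exists_embedding
  exact ⟨f₃.comp (f₂.comp f₁), hf₃.comp (hf₂.comp hf₁)⟩

end Cfsg.Agent.S3103
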