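import Mathlib
import Cfsg.Agent.S0129
import Cfsg.Agent.S0130
import Cfsg.Agent.Lib.NormalKlein
import Cfsg.Agent.Lib.ExtraBasics
import Cfsg.Statements.S0100

set_option autoImplicit false
open Cfsg

namespace Cfsg.Agent.S0100

open scoped commutatorElement

/-- For odd p, a p-group without normal elementary abelian subgroups of order p^3 has p-rank at most 2. -/
theorem result {P : Type*} [Group P] [Finite P] {p : ℕ} [Fact p.Prime] (hp : p ≠ 2) (hP : IsPGroup p P) (h : ∀ A : Subgroup P, A.Normal → IsMulCommutative A → (∀ a ∈ A, a ^ p = 1) → Nat.card A ≠ p ^ 3) (E : Subgroup P) (hE : IsMulCommutative E) (hEe : ∀ e ∈ E, e ^ p = 1) : Nat.card E ≤ p ^ 2 := by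
  classical
  have hpp : p.Prime := Fact.out
  -- a maximal normal elementary abelian subgroup
  let Cand := {A : Subgroup P // A.Normal ∧ IsMulCommutative A ∧ ∀ a ∈ A, a ^ p = 1}
  haveI : Nonempty Cand := ⟨⟨⊥, inferInstance, ⟨⟨fun a b => by
      apply Subtype.ext
      have ha : (a : P) = 1 := a.2
      have hb : (b : P) = 1 := b.2
      simp [ha, hb]⟩⟩, fun a ha => by
        have : a = 1 := ha
        simp [this]⟩⟩
  obtain ⟨⟨A, hAn, hAc, hAe⟩, hAmax⟩ := Finite.exists_max (fun A : Cand => Nat.card A.1)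
  haveI := hAn
  have hmax : ∀ B : Subgroup P, B.Normal → IsMulCommutative B → (∀ b ∈ B, b ^ p ^ 1 = 1) → A ≤ B → B = A := by
    intro B hB hBc hBe hAB
    have h1 := hAmax ⟨B, hB, hBc, fun b hb => by simpa using hBe b hb⟩
    exact (Subgroup.eq_of_le_of_card_ge hAB h1).symm
  have hA1 : ∀ x : P, x ∈ Subgroup.centralizer (A : Set P) → x ^ p = 1 → x ∈ A := by
    intro x hx hxp
    exact Cfsg.Agent.S0130.result hP 1 (by simpa using hp) A hAc (fun a ha => by simpa using hAe a ha) hmax x hx (by simpa using hxp)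
  -- `A` is small
  obtain ⟨a, ha⟩ := (hP.to_subgroup A).exists_card_eq
  have ha2 : a ≤ 2 := by
    by_contra hgt
    have hdvd : p ^ 3 ∣ Nat.card A := by
      rw [ha]
      exact pow_dvd_pow p (by omega)
    obtain ⟨A₃, hA₃, hn, hc⟩ := Cfsg.Agent.Lib.NormalKlein.exists_normal_le_of_dvd 3 P hP A hAn hdvd
    refine h A₃ hn ⟨⟨fun u v => Subtype.ext ?_⟩⟩ (fun a ha => hAe a (hA₃ ha)) hc
    have := hAc.is_comm.comm (⟨u, hA₃ u.2⟩ : A) ⟨v, hA₃ v.2⟩
    show (u : P) * v = v * u
    exact congrArg (Subtype.val : A → P) this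
  have hEC : ∀ x ∈ E, x ∈ Subgroup.centralizer (A : Set P) → x ∈ A := fun x hxE hx =>
    hA1 x hx (hEe x hxE)
  by_cases ha1 : a ≤ 1
  · -- `A` is central
    have hcen : Subgroup.centralizer (A : Set P) = ⊤ := by
      rw [eq_top_iff]
      intro x _
      rw [Subgroup.mem_centralizer_iff]
      intro u hu
      interval_cases a
      · rw [pow_zero] at ha
        have := (Subgroup.card_eq_one).1 ha
        rw [this] at hu
        have hu' : u = 1 := hu
        simp [hu']
      · rw [pow_one] at ha
        have hz : u ∈ Subgroup.center P := Cfsg.Agent.Lib.ExtraBasics.le_center_of_normal_of_card hP A ha hu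
        exact (Subgroup.mem_center_iff.1 hz x).symm
    have hEA : E ≤ A := fun x hx => hEC x hx (by rw [hcen]; trivial)
    calc Nat.card E ≤ Nat.card A := Subgroup.card_le_of_le hEA
      _ = p ^ a := ha
      _ ≤ p ^ 2 := Nat.pow_le_pow_right hpp.pos ha2
  · have ha' : a = 2 := by omega
    subst ha'
    -- index of the centralizer at most `p`
    have hdvd : p ^ 1 ∣ Nat.card A := by
      rw [ha]
      exact pow_dvd_pow p (by omega)
    obtain ⟨A₀, hA₀, hn₀, hc₀⟩ := Cfsg.Agent.Lib.NormalKlein.exists_normal_le_of_dvd 1 P hP A hAn hdvd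
    have hlt : A₀ < A := by
      refine lt_of_le_of_ne hA₀ ?_
      rintro rfl
      rw [ha] at hc₀
      exact absurd ((Nat.pow_right_injective hpp.two_le) hc₀) (by norm_num)
    obtain ⟨y, hyA, hyA₀, hyc⟩ := Cfsg.Agent.Lib.PGrp.exists_central_mod hP _ _ hlt
    have hstep := Cfsg.Agent.S0129.step A₀ y hyc
    have hcen₀ : Subgroup.centralizer (A₀ : Set P) = ⊤ := by
      rw [eq_top_iff]
      intro x _
      rw [Subgroup.mem_centralizer_iff]
      intro u hu
      have hz : u ∈ Subgroup.center P := Cfsg.Agent.Lib.ExtraBasics.le_center_of_normal_of_card hP A₀ (by simpa using hc₀) hu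
      exact (Subgroup.mem_center_iff.1 hz x).symm
    rw [hcen₀, Subgroup.index_top, mul_one, hc₀, pow_one] at hstep
    have hsup : A₀ ⊔ Subgroup.zpowers y = A := by
      have hle : A₀ ⊔ Subgroup.zpowers y ≤ A := sup_le hA₀ (by rw [Subgroup.zpowers_le]; exact hyA)
      apply Subgroup.eq_of_le_of_card_ge hle
      have hlt2 : A₀ < A₀ ⊔ Subgroup.zpowers y := by
        refine lt_of_le_of_ne le_sup_left ?_
        intro he
        apply hyA₀
        rw [he]
        exact Subgroup.mem_sup_right (Subgroup.mem_zpowers y)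
      have h1 := Cfsg.Agent.Lib.PComplement.card_lt_of_lt' hlt2
      have h2 : Nat.card ↥(A₀ ⊔ Subgroup.zpowers y) ∣ Nat.card A := Subgroup.card_dvd_of_le hle
      rw [ha, Nat.dvd_prime_pow hpp] at h2
      obtain ⟨k, hk, hk2⟩ := h2
      rw [hk2, hc₀] at h1
      have hk1 : 1 < k := (Nat.pow_lt_pow_iff_right hpp.one_lt).1 (by simpa using h1)
      have : k = 2 := by omega
      rw [hk2, this, ha]
    rw [hsup] at hstep
    -- now count
    set F : Subgroup P := Subgroup.centralizer (A : Set P) ⊓ E with hF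
    have hFA : F ≤ A := fun x hx => hEC x hx.2 hx.1
    have hrel : (Subgroup.centralizer (A : Set P)).relIndex E ≤ p := by
      have h1 := Subgroup.relIndex_dvd_index_of_normal (Subgroup.centralizer (A : Set P)) E
      exact (Nat.le_of_dvd (Nat.pos_of_ne_zero Subgroup.index_ne_zero_of_finite) h1).trans hstep
    have hcardE : Nat.card E = (Subgroup.centralizer (A : Set P)).relIndex E * Nat.card F := by
      rw [hF, ← Subgroup.inf_relIndex_right]
      exact (Cfsg.Agent.Lib.ExtraBasics.relIndex_mul_card inf_le_right).symm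
    by_cases hFe : F = A
    · -- `A ≤ E`, so `E` centralizes `A`
      have hAE : A ≤ E := by rw [← hFe]; exact inf_le_right
      have hEA : E ≤ A := by
        intro x hx
        apply hEC x hx
        rw [Subgroup.mem_centralizer_iff]
        intro u hu
        have := hE.is_comm.comm (⟨u, hAE hu⟩ : E) ⟨x, hx⟩
        exact congrArg Subtype.val this
      calc Nat.card E ≤ Nat.card A := Subgroup.card_le_of_le hEA
        _ = p ^ 2 := ha
    · have hlt3 : F < A := lt_of_le_of_ne hFA hFe
      have h1 := Cfsg.Agent.Lib.PComplement.card_lt_of_lt' hlt3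
      obtain ⟨k, hk⟩ := (hP.to_subgroup F).exists_card_eq
      rw [hk, ha] at h1
      have hk1 : k < 2 := (Nat.pow_lt_pow_iff_right hpp.one_lt).1 h1
      have hFp : Nat.card F ≤ p := by
        rw [hk]
        calc p ^ k ≤ p ^ 1 := Nat.pow_le_pow_right hpp.pos (by omega)
          _ = p := pow_one p
      rw [hcardE, sq]
      exact Nat.mul_le_mul hrel hFp

end Cfsg.Agent.S0100
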