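import Mathlib
import Cfsg.Statements.S1951
import Cfsg.Agent.Lib.SingConst
import Cfsg.Agent.Lib.BlockVal
import Cfsg.Agent.Lib.BlkOrth

set_option autoImplicit false
open Cfsg

namespace Cfsg.Agent.S1951


open Cfsg.Agent.Lib.SingConst Cfsg.Agent.Lib.BlockNormal Cfsg.Agent.Lib.CharBasic
open scoped ComplexConjugate


/-- Let p be a prime and P a nontrivial elementary abelian Sylow p-subgroup of a finite nonabelian simple group G whose nonidentity elements are all conjugate in G. Suppose that two elements of P are conjugate in G only if they are conjugate in N_G(P), that the centralizer of every element of order p of P has a normal p-complement, and that every two elements of order p of G generate a p-solvable subgroup. Then p = 2. -/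
theorem result {G : Type*} [Group G] [Finite G] [IsSimpleGroup G] (hG : ¬ IsMulCommutative G) {p : ℕ} [Fact p.Prime] (P : Sylow p G)
    (hP1 : (P : Subgroup G) ≠ ⊥) (hPe : Cfsg.IsElementaryAbelian p (P : Subgroup G))
    (hconj : ∀ x ∈ (P : Subgroup G), ∀ y ∈ (P : Subgroup G), x ≠ 1 → y ≠ 1 → ∃ g : G, g * x * g⁻¹ = y)
    (ha : ∀ x ∈ (P : Subgroup G), ∀ y ∈ (P : Subgroup G), (∃ g : G, g * x * g⁻¹ = y) →
      ∃ n ∈ Subgroup.normalizer ((P : Subgroup G) : Set G), n * x * n⁻¹ = y)
    (hb : ∀ x ∈ (P : Subgroup G), orderOf x = p → Cfsg.HasNormalPComplement p ↥(Subgroup.centralizer ({x} : Set G)))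
    (hc : ∀ x y : G, orderOf x = p → orderOf y = p → Cfsg.IsPSolvable p ↥(Subgroup.closure ({x, y} : Set G))) :
    p = 2 := by
  classical
  by_contra hp2
  letI : Fintype G := Fintype.ofFinite G
  have hpp : p.Prime := Fact.out
  have hp3 : 3 ≤ p := by
    have := hpp.two_le
    rcases Nat.lt_or_ge p 3 with h | h
    · exact absurd (by omega) hp2
    · exact h
  obtain ⟨M, hM⟩ := Cfsg.Agent.Lib.BlockVal.exists_isPModular hpp
  haveI := Cfsg.Agent.Lib.BlockLocal.isPrime_of_isPModular hM
  obtain ⟨x', hx1⟩ := Subgroup.ne_bot_iff_exists_ne_one.mp hP1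
  obtain ⟨x, hxPP⟩ := x'
  have hx1' : x ≠ 1 := fun h => hx1 (Subtype.ext h)
  clear hx1
  have hordP : ∀ a ∈ (P : Subgroup G), a ≠ 1 → orderOf a = p := fun a ha ha1 =>
    orderOf_eq_prime (hPe.2 a ha) ha1
  have hx : orderOf x = p := hordP x hxPP hx1'
  have hPc : ∀ a ∈ (P : Subgroup G), ∀ b ∈ (P : Subgroup G), a * b = b * a := fun a ha b hb =>
    congrArg Subtype.val (hPe.1.is_comm.comm (⟨a, ha⟩ : (P : Subgroup G)) ⟨b, hb⟩)
  have hab : ∀ S : Subgroup G, IsPGroup p S → ∀ a ∈ S, ∀ b ∈ S, a * b = b * a := by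
    intro S hS a ha b hb
    obtain ⟨g, hg⟩ := Cfsg.Agent.Lib.SylowConjLemmas.exists_conj_mem P S hS
    have h1 := hPc _ (hg a ha) _ (hg b hb)
    have h2 : g * (a * b) * g⁻¹ = g * (b * a) * g⁻¹ := by
      calc g * (a * b) * g⁻¹ = (g * a * g⁻¹) * (g * b * g⁻¹) := by group
        _ = (g * b * g⁻¹) * (g * a * g⁻¹) := h1
        _ = g * (b * a) * g⁻¹ := by group
    have h3 := mul_right_cancel h2
    exact mul_left_cancel h3
  have hconjx : ∀ a : G, (∃ k : ℕ, a ^ p ^ k = 1) → a ≠ 1 → (∃ h : G, h * a * h⁻¹ = x) ∧ orderOf a = p := by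
    intro a ha ha1
    obtain ⟨k, hk⟩ := ha
    have hz : IsPGroup p (Subgroup.zpowers a) :=
      Cfsg.Agent.Lib.LocalBalance2.isPGroup_zpowers_of_ppow hk
    obtain ⟨g, hg⟩ := Cfsg.Agent.Lib.SylowConjLemmas.exists_conj_mem P _ hz
    have h1 := hg a (Subgroup.mem_zpowers a)
    have h2 : g * a * g⁻¹ ≠ 1 := by
      intro h
      apply ha1
      have : a = g⁻¹ * (g * a * g⁻¹) * g := by group
      rw [this, h]
      group
    obtain ⟨g', hg'⟩ := hconj _ h1 x hxPP h2 hx1'
    refine ⟨⟨g' * g, ?_⟩, ?_⟩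
    · rw [← hg']; group
    · rw [← hordP _ h1 h2]
      exact SemiconjBy.orderOf_eq g (show g * a = g * a * g⁻¹ * g by group)
  -- the complement
  set H := Subgroup.centralizer ({x} : Set G) with hH
  have hbx : HasNormalPComplement p ↥H := hb x hxPP hx
  obtain ⟨S, N, hNn, hNc⟩ := hbx
  haveI := hNn
  have hNdvd : ¬ p ∣ Nat.card N := by
    rw [← hNc.index_eq_card]
    exact S.not_dvd_index
  have hPH : (P : Subgroup G) ≤ H := by
    intro a ha
    rw [hH, Subgroup.mem_centralizer_iff]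
    intro w hw
    rw [show w = x from hw]
    exact hPc x hxPP a ha
  have hcardS : Nat.card (S : Subgroup H) = Nat.card (P : Subgroup G) := by
    have h1 : Nat.card (S : Subgroup H) = Nat.card ((P.subtype hPH : Sylow p H) : Subgroup H) :=
      Nat.card_congr (Sylow.equiv S (P.subtype hPH)).toEquiv
    rw [h1, Sylow.coe_subtype]
    exact Nat.card_congr (Subgroup.subgroupOfEquivOfLe hPH).toEquiv
  obtain ⟨m, hm⟩ := P.isPGroup'.exists_card_eq
  have hNindex : N.index = p ^ m := by
    rw [hNc.symm.index_eq_card, hcardS, hm]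
  set n := Nat.card (P : Subgroup G) with hn
  have hn3 : 3 ≤ n := by
    have hm0 : m ≠ 0 := by
      rintro rfl
      rw [pow_zero] at hm
      have := (Subgroup.card_eq_one).mp hm
      exact hP1 this
    rw [hm]
    calc 3 ≤ p := hp3
      _ = p ^ 1 := (pow_one p).symm
      _ ≤ p ^ m := Nat.pow_le_pow_right hpp.pos (Nat.pos_of_ne_zero hm0)
  -- constant on singular elements
  have hsing : ∀ χ ∈ Cfsg.principalBlock M G, ∀ g : G, p ∣ orderOf g → (χ : G → ℂ) g = (χ : G → ℂ) x := by
    intro χ hχ g hg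
    obtain ⟨a, y, hay, hcomm, ⟨k, hk⟩, hy⟩ := Cfsg.Agent.Lib.BlkOrth.exists_isPPart (p := p) hpp g
    have ha1 : a ≠ 1 := by
      rintro rfl
      rw [one_mul] at hay
      rw [hay] at hy
      exact hy hg
    obtain ⟨⟨h, hh⟩, -⟩ := hconjx a ⟨k, by rw [← hk]; exact pow_orderOf_eq_one a⟩ ha1
    set u := h * y * h⁻¹ with hu
    have hux : u ∈ H := by
      rw [hH, Subgroup.mem_centralizer_iff]
      intro w hw
      rw [show w = x from hw, ← hh, hu]
      calc h * a * h⁻¹ * (h * y * h⁻¹) = h * (a * y) * h⁻¹ := by group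
        _ = h * (y * a) * h⁻¹ := by rw [hcomm.eq]
        _ = h * y * h⁻¹ * (h * a * h⁻¹) := by group
    have hgconj : h * g * h⁻¹ = x * u := by
      rw [← hay, ← hh, hu]; group
    have huo : ¬ p ∣ orderOf (⟨u, hux⟩ : H) := by
      rw [Subgroup.orderOf_mk]
      have : orderOf y = orderOf u := SemiconjBy.orderOf_eq h (show h * y = h * y * h⁻¹ * h by group)
      rwa [← this]
    have hucore := mem_pPrimeCore_of_coprime N hNdvd m hNindex huo
    have h1 := Cfsg.Agent.S0942.result p M hM x ⟨1, by rw [pow_one, hx]⟩ u ⟨⟨u, hux⟩, hucore, rfl⟩ χ hχ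
    rw [← h1, ← hgconj]
    exact (Cfsg.Agent.Lib.CharBasic.isClassFunction_of_isCharacter
      (IsIrrCharacter.isCharacter χ.2) g h).symm
  -- the norm
  have hnorm : ∑ χ ∈ B₀ M G, (χ : G → ℂ) x * conj ((χ : G → ℂ) x) = n := by
    letI : Fintype H := Fintype.ofFinite _
    have h1 := Cfsg.Agent.Lib.BlockSection.sum_principal_norm (G := G) (H := H) hM
      (z := x) ⟨1, by rw [pow_one, hx]⟩ rfl
    rw [finsum_B₀] at h1
    rw [h1, sum_principal_deg_sq hM N hNdvd m hNindex, hNindex, hm]
  -- integrality and degrees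
  have hsumP : ∀ χ ∈ B₀ M G, ∃ m' : ℕ, (χ : G → ℂ) 1 + ((n : ℂ) - 1) * (χ : G → ℂ) x = n * m' := by
    intro χ hχ
    letI : Fintype (P : Subgroup G) := Fintype.ofFinite _
    have hchar := IsIrrCharacter.isCharacter χ.2
    obtain ⟨m', hm'⟩ := classInner_char_char (Cfsg.Agent.Lib.CharBasic.isCharacter_restrict (P : Subgroup G) hchar)
      (isCharacter_one (G := (P : Subgroup G)))
    refine ⟨m', ?_⟩
    have hnne : (n : ℂ) ≠ 0 := by
      have : n ≠ 0 := by omega
      exact_mod_cast this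
    have h2 : ∑ a : (P : Subgroup G), (χ : G → ℂ) a = n * m' := by
      unfold classInner at hm'
      rw [← hn] at hm'
      simp only [map_one, mul_one] at hm'
      rw [← hm']
      field_simp
    have h3 : ∑ a : (P : Subgroup G), ((χ : G → ℂ) a - (χ : G → ℂ) x) = (χ : G → ℂ) 1 - (χ : G → ℂ) x := by
      rw [Finset.sum_eq_single (1 : (P : Subgroup G))]
      · rfl
      · intro b _ hb
        have hb1 : (b : G) ≠ 1 := fun h => hb (Subtype.ext h)
        rw [hsing χ (mem_B₀.mp hχ) b (by rw [hordP b b.2 hb1]), sub_self]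
      · intro h
        exact absurd (Finset.mem_univ _) h
    rw [Finset.sum_sub_distrib, h2, Finset.sum_const, Finset.card_univ, ← Nat.card_eq_fintype_card,
      ← hn, nsmul_eq_mul] at h3
    linear_combination -h3
  have hone : ∀ χ : Cfsg.IrrCharacter G, (χ : G → ℂ) 1 = Cfsg.charDegree (χ : G → ℂ) := fun χ =>
    Cfsg.Agent.Lib.CharKernel.one_eq_charDegree (IsIrrCharacter.isCharacter χ.2)
  have hint : ∀ χ ∈ B₀ M G, ∃ c : ℤ, (χ : G → ℂ) x = c := by
    intro χ hχ
    obtain ⟨m', hm'⟩ := hsumP χ hχ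
    have hchar := IsIrrCharacter.isCharacter χ.2
    have hinteg := Cfsg.Agent.Lib.BlockVal.isIntegral_char hchar x
    have hn1 : ((n : ℂ) - 1) ≠ 0 := by
      have : (n : ℂ) ≠ 1 := by
        have : n ≠ 1 := by omega
        exact_mod_cast this
      exact sub_ne_zero.mpr this
    have hq : (χ : G → ℂ) x = (((n * m' - Cfsg.charDegree (χ : G → ℂ) : ℤ) / (n - 1 : ℤ) : ℚ) : ℂ) := by
      rw [hone] at hm'
      push_cast
      rw [eq_div_iff hn1]
      linear_combination hm'
    rw [hq] at hinteg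
    have h3 := (isIntegral_algebraMap_iff (FaithfulSMul.algebraMap_injective ℚ ℂ)).1 hinteg
    obtain ⟨y, hy⟩ := IsIntegrallyClosed.isIntegral_iff.1 h3
    refine ⟨y, ?_⟩
    rw [hq, ← hy]
    simp
  have hdeg : ∀ χ ∈ B₀ M G, χ ≠ irrOne G → ∀ c : ℤ, (χ : G → ℂ) x = c → 0 < c →
      c + n ≤ Cfsg.charDegree (χ : G → ℂ) := by
    intro χ hχ hne c hc hcpos
    obtain ⟨m', hm'⟩ := hsumP χ hχ
    have hchar := IsIrrCharacter.isCharacter χ.2
    set d := Cfsg.charDegree (χ : G → ℂ) with hd
    have heq : (d : ℤ) + ((n : ℤ) - 1) * c = n * m' := by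
      rw [hone, hc] at hm'
      exact_mod_cast hm'
    have hle : c ≤ d := by
      have h1 := Cfsg.Agent.Lib.GenChar.char_norm_le hchar x
      rw [hc, hone] at h1
      have h2 : ‖(c : ℂ)‖ = ((|c| : ℤ) : ℝ) := by
        rw [Complex.norm_intCast]
        push_cast
        rfl
      rw [h2, Complex.norm_natCast] at h1
      have h3 : |c| ≤ (d : ℤ) := by exact_mod_cast h1
      exact (le_abs_self c).trans h3
    have hned : c ≠ d := by
      intro hcd
      have hker : x ∈ Cfsg.Agent.Lib.CharKernel.charKer hchar := by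
        rw [Cfsg.Agent.Lib.CharKernel.mem_charKer, hc, hone, hcd, ← hd]
        simp
      have htop : Cfsg.Agent.Lib.CharKernel.charKer hchar = ⊤ := by
        rcases IsSimpleGroup.eq_bot_or_eq_top_of_normal (Cfsg.Agent.Lib.CharKernel.charKer hchar)
          (Cfsg.Agent.Lib.CharKernel.charKer_normal hchar) with h | h
        · rw [h, Subgroup.mem_bot] at hker
          exact absurd hker hx1'
        · exact h
      have hconst : ∀ g : G, (χ : G → ℂ) g = d := by
        intro g
        have : g ∈ Cfsg.Agent.Lib.CharKernel.charKer hchar := by rw [htop]; trivial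
        rw [Cfsg.Agent.Lib.CharKernel.mem_charKer] at this
        rw [this, hone]
      have hinner := classInner_irr_self χ.2
      unfold Cfsg.classInner at hinner
      have h5 : ∑ g : G, (χ : G → ℂ) g * conj ((χ : G → ℂ) g) = (Nat.card G : ℂ) * (d : ℂ) ^ 2 := by
        simp only [hconst, map_natCast, Finset.sum_const, Finset.card_univ,
          ← Nat.card_eq_fintype_card, nsmul_eq_mul]
        ring
      rw [h5, ← mul_assoc, inv_mul_cancel₀ natCard_ne_zero', one_mul] at hinner
      have hd1 : d = 1 := by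
        have : (d : ℕ) ^ 2 = 1 := by exact_mod_cast hinner
        exact (Nat.pow_eq_one.mp this).resolve_right (by norm_num)
      apply hne
      apply Subtype.ext
      funext g
      rw [hconst, hd1]
      simp [irrOne]
    have hlt : c < d := lt_of_le_of_ne hle hned
    have hmul : (d : ℤ) - c = n * ((m' : ℤ) - c) := by linarith
    have hpos : 0 < (n : ℤ) * ((m' : ℤ) - c) := by linarith
    have hnpos : (0 : ℤ) < n := by omega
    have h1 : 0 < (m' : ℤ) - c := by
      by_contra hcon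
      have : (n : ℤ) * ((m' : ℤ) - c) ≤ 0 := mul_nonpos_of_nonneg_of_nonpos hnpos.le (not_lt.mp hcon)
      linarith
    have h2 : (n : ℤ) ≤ n * ((m' : ℤ) - c) := by nlinarith
    linarith
  -- the count
  have hcount := main_count hM x hx n hn3 hsing hnorm hint hdeg
  set K := Finset.univ.filter (IsConj x) with hK
  set K₁ := K.filter (fun l => p ∣ orderOf (x * l)) with hK₁
  set K₀ := K.filter (fun l => ¬ p ∣ orderOf (x * l)) with hK₀
  have hcard : K₁.card + K₀.card = K.card := Finset.card_filter_add_card_filter_not _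
  have hKpos : 0 < K.card := Finset.card_pos.mpr ⟨x, Finset.mem_filter.mpr ⟨Finset.mem_univ _, IsConj.refl x⟩⟩
  have hordK : ∀ l ∈ K, orderOf l = p := by
    intro l hl
    obtain ⟨a, ha⟩ := isConj_iff.1 (Finset.mem_filter.mp hl).2
    rw [← hx, ← ha]
    exact (SemiconjBy.orderOf_eq a (show a * x = a * x * a⁻¹ * a by group)).symm
  have hodd : p.Coprime 2 := by
    rw [Nat.coprime_two_right]
    exact hpp.odd_of_ne_two hp2
  have hsqord : ∀ l : G, orderOf l = p → orderOf (l ^ 2) = p := by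
    intro l hl
    rw [orderOf_pow, hl, hodd.gcd_eq_one, Nat.div_one]
  have hsqK : ∀ l ∈ K, l ^ 2 ∈ K := by
    intro l hl
    have h1 := hsqord l (hordK l hl)
    have h2 : l ^ 2 ≠ 1 := by
      intro h
      rw [h, orderOf_one] at h1
      exact hpp.one_lt.ne h1
    obtain ⟨⟨h, hh⟩, -⟩ := hconjx (l ^ 2) ⟨1, by rw [pow_one, ← h1]; exact pow_orderOf_eq_one _⟩ h2
    refine Finset.mem_filter.mpr ⟨Finset.mem_univ _, ?_⟩
    rw [← hh]
    exact (isConj_iff.2 ⟨h, rfl⟩).symm
  have hinj : Set.InjOn (fun l : G => l ^ 2) (K₀ : Set G) := by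
    intro a ha b hb hab2
    simp only at hab2
    have ha' : orderOf a = p := hordK a (Finset.mem_filter.mp ha).1
    have hb' : orderOf b = p := hordK b (Finset.mem_filter.mp hb).1
    obtain ⟨t, ht⟩ : ∃ t, p + 1 = 2 * t := by
      have := hpp.odd_of_ne_two hp2
      obtain ⟨s, hs⟩ := this
      exact ⟨s + 1, by omega⟩
    have e1 : a = (a ^ 2) ^ t := by
      rw [← pow_mul, ← ht, pow_succ, ← ha', pow_orderOf_eq_one, one_mul]
    have e2 : b = (b ^ 2) ^ t := by
      rw [← pow_mul, ← ht, pow_succ, ← hb', pow_orderOf_eq_one, one_mul]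
    rw [e1, e2, hab2]
  have hdisj : Disjoint K₀ (K₀.image (fun l : G => l ^ 2)) := by
    rw [Finset.disjoint_left]
    intro l hl hl2
    obtain ⟨y, hy, rfl⟩ := Finset.mem_image.mp hl2
    have hyK := (Finset.mem_filter.mp hy).1
    exact reg_pair x y hx (hordK y hyK) (hc x y hx (hordK y hyK)) hab
      (Finset.mem_filter.mp hy).2 (Finset.mem_filter.mp hl).2
  have hsub : K₀ ∪ K₀.image (fun l : G => l ^ 2) ⊆ K := by
    intro l hl
    rcases Finset.mem_union.mp hl with h | h
    · exact (Finset.mem_filter.mp h).1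
    · obtain ⟨y, hy, rfl⟩ := Finset.mem_image.mp h
      exact hsqK y (Finset.mem_filter.mp hy).1
  have h2K₀ : 2 * K₀.card ≤ K.card := by
    have h1 := Finset.card_le_card hsub
    rw [Finset.card_union_of_disjoint hdisj, Finset.card_image_of_injOn hinj] at h1
    omega
  have hK₁big : K.card ≤ 2 * K₁.card := by omega
  have hreal : (K.card : ℝ) ≤ 2 * K₁.card := by exact_mod_cast hK₁big
  have hKr : (0 : ℝ) < K.card := by exact_mod_cast hKpos
  have hnr : (3 : ℝ) ≤ n := by exact_mod_cast hn3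
  have h10 : (n : ℝ) * K.card ≤ 2 * ((K.card : ℝ) * (((n : ℝ) + 1) / 3)) := by
    calc (n : ℝ) * K.card ≤ n * (2 * K₁.card) := by
          exact mul_le_mul_of_nonneg_left hreal (by linarith)
      _ = 2 * (n * K₁.card) := by ring
      _ ≤ _ := by linarith
  have h11 : (K.card : ℝ) * ((n : ℝ) - 2 * (((n : ℝ) + 1) / 3)) ≤ 0 := by nlinarith
  have h12 : (0 : ℝ) < (n : ℝ) - 2 * (((n : ℝ) + 1) / 3) := by linarith
  have h13 := mul_pos hKr h12
  linarith


end Cfsg.Agent.S1951
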