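import Mathlib
import Cfsg.Statements.S0066
import Cfsg.Agent.Lib.Subnormal

set_option autoImplicit false
open Cfsg
open scoped Pointwise

namespace Cfsg.Agent.S0066

open Cfsg.Agent.Lib.Subnormal (mem_conj_smul conj_mem_conj_smul mem_normalizer_of_conj_mem sup_isSubnormal)

universe u

section Move

variable {Γ : Type*} [Group Γ]

/-- A subnormal non-normal subgroup has a different conjugate normalising it. -/
theorem exists_move {J : Subgroup Γ} (hJ : J.IsSubnormal) :
    J.Normal ∨ ∃ x : Γ, MulAut.conj x • J ≠ J ∧ MulAut.conj x • J ≤ Subgroup.normalizer (J : Set Γ) := by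
  have key : ∀ U : Subgroup Γ, U.IsSubnormal → ∀ J : Subgroup Γ, J ≤ U → (J.subgroupOf U).Normal →
      J.Normal ∨ ∃ x : Γ, MulAut.conj x • J ≠ J ∧
        MulAut.conj x • J ≤ Subgroup.normalizer (J : Set Γ) := by
    intro U hU
    induction hU with
    | top =>
      intro J _ hN
      left
      constructor
      intro n hn g
      have h1 : (⟨n, trivial⟩ : (⊤ : Subgroup Γ)) ∈ J.subgroupOf ⊤ := Subgroup.mem_subgroupOf.mpr hn
      have h2 := hN.conj_mem _ h1 ⟨g, trivial⟩
      exact Subgroup.mem_subgroupOf.mp h2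
    | step U V hUV hV hN ih =>
      intro J hJU hJn
      by_cases hJV : (J.subgroupOf V).Normal
      · exact ih J (hJU.trans hUV) hJV
      · right
        have hJVle : J ≤ V := hJU.trans hUV
        have hUN : V ≤ Subgroup.normalizer (U : Set Γ) :=
          (Subgroup.normal_subgroupOf_iff_le_normalizer hUV).mp hN
        have hJN : U ≤ Subgroup.normalizer (J : Set Γ) :=
          (Subgroup.normal_subgroupOf_iff_le_normalizer hJU).mp hJn
        rw [Subgroup.normal_subgroupOf_iff_le_normalizer hJVle] at hJV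
        rw [SetLike.not_le_iff_exists] at hJV
        obtain ⟨x, hxV, hxN⟩ := hJV
        refine ⟨x, ?_, ?_⟩
        · intro heq
          apply hxN
          rw [Subgroup.mem_normalizer_iff]
          intro h
          constructor
          · intro hh
            have : x * h * x⁻¹ ∈ MulAut.conj x • J := conj_mem_conj_smul hh
            rwa [heq] at this
          · intro hh
            rw [← heq, mem_conj_smul] at hh
            have : x⁻¹ * (x * h * x⁻¹) * x = h := by group
            rwa [this] at hh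
        · intro y hy
          rw [mem_conj_smul] at hy
          apply hJN
          have h1 := hJU hy
          have h2 := (Subgroup.mem_normalizer_iff.mp (hUN hxV) _).mp h1
          have h3 : x * (x⁻¹ * y * x) * x⁻¹ = y := by group
          rwa [h3] at h2
  apply key J hJ J le_rfl
  constructor
  intro n _ g
  exact Subgroup.mem_subgroupOf.mpr (by
    have hn' : (n : Γ) ∈ J := Subgroup.mem_subgroupOf.mp ‹_›
    exact J.mul_mem (J.mul_mem g.2 hn') (J.inv_mem g.2))

end Move

variable {G : Type*} [Group G]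

theorem sSup_subgroupOf_isSubnormal [Finite G] (P : Subgroup G) (T : Set (Subgroup G))
    (hT : ∀ X ∈ T, X ≤ P ∧ (X.subgroupOf P).IsSubnormal) :
    ((sSup T).subgroupOf P).IsSubnormal := by
  have hfin : T.Finite := Set.toFinite T
  induction T, hfin using Set.Finite.induction_on with
  | empty =>
    rw [sSup_empty, Subgroup.bot_subgroupOf]
    exact Subgroup.IsSubnormal.bot
  | @insert a s _ _ ih =>
    rw [sSup_insert]
    have ha := hT a (Set.mem_insert _ _)
    have hs : ∀ X ∈ s, X ≤ P ∧ (X.subgroupOf P).IsSubnormal :=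
      fun X hX => hT X (Set.mem_insert_of_mem _ hX)
    have hle : sSup s ≤ P := sSup_le (fun X hX => (hs X hX).1)
    rw [Subgroup.subgroupOf_sup ha.1 hle]
    exact sup_isSubnormal _ _ ha.2 (ih hs)

/-- **Zipper lemma.** -/
theorem zipper [Finite G] (F : Set (Subgroup G)) (hconj : ∀ X ∈ F, ∀ g : G, MulAut.conj g • X ∈ F)
    (hsub : ∀ X ∈ F, ∀ L : Subgroup G, X ≤ L → L ≠ ⊤ → (X.subgroupOf L).IsSubnormal)
    (hnot : ∀ X ∈ F, ¬ X.IsSubnormal) {S : Subgroup G} (hS : S ∈ F) {M K : Subgroup G}
    (hM : IsCoatom M) (hK : IsCoatom K) (hSM : S ≤ M) (hSK : S ≤ K) : M = K := by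
  by_contra hne
  let T : Set (Subgroup G) :=
    {D | ∃ M K : Subgroup G, IsCoatom M ∧ IsCoatom K ∧ M ≠ K ∧ S ≤ M ∧ S ≤ K ∧ D = M ⊓ K}
  have hTne : T.Nonempty := ⟨_, M, K, hM, hK, hne, hSM, hSK, rfl⟩
  obtain ⟨D, hD⟩ := T.toFinite.exists_maximal hTne
  obtain ⟨M, K, hM, hK, hne, hSM, hSK, hDeq⟩ := hD.1
  have hDM : D ≤ M := hDeq ▸ inf_le_left
  have hDK : D ≤ K := hDeq ▸ inf_le_right
  have hDltM : D < M := by
    refine lt_of_le_of_ne hDM ?_
    intro h
    apply hne
    have : M ≤ K := h ▸ hDK
    exact ((hM.le_iff_eq hK.1).mp this).symm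
  have hDltK : D < K := by
    refine lt_of_le_of_ne hDK ?_
    intro h
    apply hne
    have : K ≤ M := h ▸ hDM
    exact (hK.le_iff_eq hM.1).mp this
  let Fam : Set (Subgroup G) := {X | X ∈ F ∧ X ≤ D}
  let J : Subgroup G := sSup Fam
  have hJD : J ≤ D := sSup_le (fun X hX => hX.2)
  have hSD : S ≤ D := by
    rw [hDeq]; exact le_inf hSM hSK
  have hSJ : S ≤ J := le_sSup ⟨hS, hSD⟩
  -- conjugates staying inside `D` stay inside `J`
  have hJconj : ∀ x : G, MulAut.conj x • J ≤ D → MulAut.conj x • J ≤ J := by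
    intro x hx y hy
    have hy' : x⁻¹ * y * x ∈ J := mem_conj_smul.mp hy
    have key : J ≤ (J).comap (MulAut.conj x).toMonoidHom := by
      apply sSup_le
      rintro X ⟨hX, hXD⟩ u hu
      rw [Subgroup.mem_comap]
      have h1 : MulAut.conj x • X ≤ D := by
        intro w hw
        apply hx
        rw [mem_conj_smul] at hw ⊢
        exact (le_sSup ⟨hX, hXD⟩ : X ≤ J) hw
      exact (le_sSup (⟨hconj X hX x, h1⟩ : MulAut.conj x • X ∈ Fam) : MulAut.conj x • X ≤ J)
        (conj_mem_conj_smul hu)
    have h2 := key hy'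
    rw [Subgroup.mem_comap] at h2
    have h3 : (MulAut.conj x).toMonoidHom (x⁻¹ * y * x) = y := by
      simp [MulAut.conj_apply]
      group
    rwa [h3] at h2
  -- `J` is subnormal in proper subgroups containing `D`
  have hJsub : ∀ P : Subgroup G, D ≤ P → P ≠ ⊤ → (J.subgroupOf P).IsSubnormal := by
    intro P hDP hPt
    apply sSup_subgroupOf_isSubnormal
    rintro X ⟨hX, hXD⟩
    exact ⟨hXD.trans hDP, hsub X hX P (hXD.trans hDP) hPt⟩
  -- elements outside `D` normalising `J`
  have hmove : ∀ P : Subgroup G, D < P → P ≠ ⊤ → ∃ y ∈ P, y ∉ D ∧ y ∈ Subgroup.normalizer (J : Set G) := by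
    intro P hDP hPt
    have hJP : J ≤ P := hJD.trans hDP.le
    rcases exists_move (hJsub P hDP.le hPt) with hn | ⟨x, hx1, hx2⟩
    · obtain ⟨y, hyP, hyD⟩ := SetLike.exists_of_lt hDP
      exact ⟨y, hyP, hyD, (Subgroup.normal_subgroupOf_iff_le_normalizer hJP).mp hn hyP⟩
    · -- translate to `G`
      have hconjP : ∀ u : G, u ∈ J → (x : G) * u * (x : G)⁻¹ ∈ P := by
        intro u hu
        exact P.mul_mem (P.mul_mem x.2 (hJP hu)) (P.inv_mem x.2)
      have hxne : MulAut.conj (x : G) • J ≠ J := by
        intro heq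
        apply hx1
        ext w
        rw [mem_conj_smul, Subgroup.mem_subgroupOf, Subgroup.mem_subgroupOf]
        have h1 : ((w : G) ∈ MulAut.conj (x : G) • J) ↔ (w : G) ∈ J := by rw [heq]
        rw [mem_conj_smul] at h1
        simpa using h1
      by_cases hall : MulAut.conj (x : G) • J ≤ D
      · exfalso
        apply hxne
        have h1 := hJconj x hall
        apply Subgroup.eq_of_le_of_card_ge h1
        have h2 : Nat.card (MulAut.conj (x : G) • J : Subgroup G) = Nat.card J := by
          exact Nat.card_congr (MulEquiv.subgroupMap (MulAut.conj (x : G)) J).symm.toEquiv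
        rw [h2]
      · obtain ⟨y, hy, hyD⟩ := SetLike.not_le_iff_exists.mp hall
        have hy' : (x : G)⁻¹ * y * (x : G) ∈ J := mem_conj_smul.mp hy
        have hyeq : y = (x : G) * ((x : G)⁻¹ * y * (x : G)) * (x : G)⁻¹ := by group
        have hyP : y ∈ P := by
          rw [hyeq]; exact hconjP _ hy'
        refine ⟨y, hyP, hyD, ?_⟩
        have hnorm := Subgroup.subgroupOf_normalizer_eq hJP
        have h3 : (⟨y, hyP⟩ : P) ∈ MulAut.conj x • (J.subgroupOf P) := by
          rw [mem_conj_smul, Subgroup.mem_subgroupOf]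
          exact hy'
        have h4 := hx2 h3
        rw [← hnorm] at h4
        exact Subgroup.mem_subgroupOf.mp h4
  obtain ⟨y₁, hy₁P, hy₁D, hy₁N⟩ := hmove M hDltM hM.1
  obtain ⟨y₂, hy₂P, hy₂D, hy₂N⟩ := hmove K hDltK hK.1
  -- the normaliser of `J`
  have hNtop : Subgroup.normalizer (J : Set G) ≠ ⊤ := by
    intro htop
    have hJn : J.Normal := Subgroup.normalizer_eq_top_iff.mp htop
    have hJt : J ≠ ⊤ := by
      intro h
      have : M = ⊤ := by
        rw [eq_top_iff, ← h]; exact hJD.trans hDM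
      exact hM.1 this
    exact hnot S hS (Subgroup.IsSubnormal.trans hSJ (hsub S hS J hSJ hJt) hJn.isSubnormal)
  obtain ⟨L, hL, hNL⟩ : ∃ L : Subgroup G, IsCoatom L ∧ Subgroup.normalizer (J : Set G) ≤ L := by
    rcases eq_top_or_exists_le_coatom (Subgroup.normalizer (J : Set G)) with h | ⟨L, hL, h⟩
    · exact absurd h hNtop
    · exact ⟨L, hL, h⟩
  have hDN : D ≤ Subgroup.normalizer (J : Set G) := by
    intro d hd
    apply mem_normalizer_of_conj_mem
    intro j hj
    have hdj : d * j * d⁻¹ ∈ MulAut.conj d • J := conj_mem_conj_smul hj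
    refine hJconj d ?_ hdj
    intro w hw
    have h1 := hJD (mem_conj_smul.mp hw)
    have h2 : w = d * (d⁻¹ * w * d) * d⁻¹ := by group
    rw [h2]
    exact D.mul_mem (D.mul_mem hd h1) (D.inv_mem hd)
  have hSL : S ≤ L := (hSJ.trans Subgroup.le_normalizer).trans hNL
  have hDL : D ≤ L := hDN.trans hNL
  have key : ∀ P : Subgroup G, IsCoatom P → D ≤ P → S ≤ P → ∀ y ∈ P, y ∉ D →
      y ∈ Subgroup.normalizer (J : Set G) → P = L := by
    intro P hP hDP hSP y hyP hyD hyN
    by_contra hPL
    have hmem : P ⊓ L ∈ T := ⟨P, L, hP, hL, hPL, hSP, hSL, rfl⟩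
    have hle : D ≤ P ⊓ L := le_inf hDP hDL
    have := hD.2 hmem hle
    exact hyD (this (Subgroup.mem_inf.mpr ⟨hyP, hNL hyN⟩))
  have e1 := key M hM hDM hSM y₁ hy₁P hy₁D hy₁N
  have e2 := key K hK hDK hSK y₂ hy₂P hy₂D hy₂N
  exact hne (e1.trans e2.symm)

theorem comap_isSubnormal {G G' : Type*} [Group G] [Group G'] (f : G →* G') {H : Subgroup G'}
    (hS : H.IsSubnormal) : (H.comap f).IsSubnormal := by
  induction hS with
  | top => rw [Subgroup.comap_top]; exact Subgroup.IsSubnormal.top
  | step H K hle _ hN ih =>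
    refine Subgroup.IsSubnormal.step _ (K.comap f) (Subgroup.comap_mono hle) ih ?_
    constructor
    intro n hn g
    rw [Subgroup.mem_subgroupOf, Subgroup.mem_comap] at hn ⊢
    have hg : f g ∈ K := g.2
    have h1 : (⟨f n, n.2⟩ : K) ∈ H.subgroupOf K := Subgroup.mem_subgroupOf.mpr hn
    have h2 := hN.conj_mem _ h1 ⟨f g, hg⟩
    have h3 := Subgroup.mem_subgroupOf.mp h2
    simpa using h3

theorem wielandt_aux (m : ℕ) (G : Type u) [Group G] [Finite G] (hm : Nat.card G = m)
    (A : Subgroup G)
    (h : ∀ g : G, (A.subgroupOf (A ⊔ MulAut.conj g • A)).IsSubnormal) : A.IsSubnormal := by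
  induction m using Nat.strong_induction_on generalizing G with
  | _ m ih =>
  classical
  by_contra hnotA
  have hAtop : A ≠ ⊤ := by
    rintro rfl
    exact hnotA Subgroup.IsSubnormal.top
  -- (a) inside proper subgroups `A` is subnormal
  have hS : ∀ L : Subgroup G, A ≤ L → L ≠ ⊤ → (A.subgroupOf L).IsSubnormal := by
    intro L hAL hLt
    apply ih (Nat.card L) (hm ▸ Cfsg.Agent.Lib.Subnormal.card_lt_of_ne_top hLt) (↥L) rfl
    intro l
    set A' : Subgroup L := A.subgroupOf L with hA'
    set B' : Subgroup L := A' ⊔ MulAut.conj l • A' with hB'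
    set B : Subgroup G := A ⊔ MulAut.conj (l : G) • A with hB
    have hB'B : ∀ x : L, x ∈ B' → (x : G) ∈ B := by
      have : B' ≤ B.subgroupOf L := by
        apply sup_le
        · intro x hx
          exact Subgroup.mem_subgroupOf.mpr
            ((le_sup_left : A ≤ B) (Subgroup.mem_subgroupOf.mp hx))
        · intro x hx
          apply Subgroup.mem_subgroupOf.mpr
          apply (le_sup_right : MulAut.conj (l : G) • A ≤ B)
          rw [mem_conj_smul]
          rw [mem_conj_smul] at hx
          exact Subgroup.mem_subgroupOf.mp hx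
      exact fun x hx => Subgroup.mem_subgroupOf.mp (this hx)
    let f : ↥B' →* ↥B :=
      { toFun := fun x => ⟨((x : L) : G), hB'B x x.2⟩
        map_one' := rfl
        map_mul' := fun _ _ => rfl }
    have hcomap : A'.subgroupOf B' = (A.subgroupOf B).comap f := by
      ext x
      simp only [Subgroup.mem_subgroupOf, Subgroup.mem_comap, hA']
      rfl
    rw [hcomap]
    exact comap_isSubnormal f (h l)
  -- (b) the family of conjugates
  let F : Set (Subgroup G) := Set.range (fun g : G => MulAut.conj g • A)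
  have hconj : ∀ X ∈ F, ∀ g : G, MulAut.conj g • X ∈ F := by
    rintro _ ⟨x, rfl⟩ g
    refine ⟨g * x, ?_⟩
    simp only [map_mul, mul_smul]
  have hsub : ∀ X ∈ F, ∀ L : Subgroup G, X ≤ L → L ≠ ⊤ → (X.subgroupOf L).IsSubnormal := by
    rintro _ ⟨g, rfl⟩ L hXL hLt
    set L' : Subgroup G := MulAut.conj g⁻¹ • L with hL'
    have hL'mem : ∀ x, x ∈ L' ↔ g * x * g⁻¹ ∈ L := by
      intro x
      rw [hL', mem_conj_smul]
      simp
    have hAL' : A ≤ L' := by
      intro a ha
      rw [hL'mem]
      exact hXL (conj_mem_conj_smul ha)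
    have hL't : L' ≠ ⊤ := by
      intro ht
      apply hLt
      rw [eq_top_iff]
      intro x _
      have hx : g⁻¹ * x * g ∈ L' := ht ▸ Subgroup.mem_top _
      rw [hL'mem] at hx
      have : g * (g⁻¹ * x * g) * g⁻¹ = x := by group
      rwa [this] at hx
    have hconjL : ∀ x : L, g⁻¹ * (x : G) * g ∈ L' := by
      intro x
      rw [hL'mem]
      have : g * (g⁻¹ * (x : G) * g) * g⁻¹ = x := by group
      rw [this]
      exact x.2
    let f : ↥L →* ↥L' :=
      { toFun := fun x => ⟨g⁻¹ * (x : G) * g, hconjL x⟩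
        map_one' := by ext; simp
        map_mul' := fun x y => by ext; simp; group }
    have hcomap : (MulAut.conj g • A).subgroupOf L = (A.subgroupOf L').comap f := by
      ext x
      simp only [Subgroup.mem_subgroupOf, Subgroup.mem_comap, mem_conj_smul]
      rfl
    show ((MulAut.conj g • A).subgroupOf L).IsSubnormal
    rw [hcomap]
    exact comap_isSubnormal f (hS L' hAL' hL't)
  have hnot : ∀ X ∈ F, ¬ X.IsSubnormal := by
    rintro _ ⟨g, rfl⟩ hX
    apply hnotA
    have h1 := comap_isSubnormal (MulAut.conj g).toMonoidHom hX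
    have h2 : (MulAut.conj g • A).comap (MulAut.conj g).toMonoidHom = A := by
      ext x
      rw [Subgroup.mem_comap, mem_conj_smul]
      have : g⁻¹ * ((MulAut.conj g).toMonoidHom x) * g = x := by
        simp [MulAut.conj_apply]
        group
      rw [this]
    exact h2 ▸ h1
  have hAF : A ∈ F := ⟨1, by simp⟩
  obtain ⟨M, hM, hAM⟩ : ∃ M : Subgroup G, IsCoatom M ∧ A ≤ M := by
    rcases eq_top_or_exists_le_coatom A with h' | ⟨M, hM, h'⟩
    · exact absurd h' hAtop
    · exact ⟨M, hM, h'⟩
  have hconjM : ∀ g : G, MulAut.conj g • A ≤ M := by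
    intro g
    by_cases htop : A ⊔ MulAut.conj g • A = ⊤
    · exfalso
      apply hnotA
      refine Subgroup.IsSubnormal.trans (le_sup_left : A ≤ A ⊔ MulAut.conj g • A) (h g) ?_
      rw [htop]
      exact Subgroup.IsSubnormal.top
    · rcases eq_top_or_exists_le_coatom (A ⊔ MulAut.conj g • A) with h' | ⟨K, hK, h'⟩
      · exact absurd h' htop
      · have hAK : A ≤ K := le_sup_left.trans h'
        have : M = K := zipper F hconj hsub hnot hAF hM hK hAM hAK
        rw [this]
        exact le_sup_right.trans h'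
  have hNC : Subgroup.normalClosure (A : Set G) ≤ M := by
    refine (Subgroup.closure_le _).mpr ?_
    intro x hx
    obtain ⟨a, ha, hconjax⟩ := Group.mem_conjugatesOfSet_iff.mp hx
    obtain ⟨c, hc⟩ := isConj_iff.mp hconjax
    apply hconjM c
    rw [← hc]
    exact conj_mem_conj_smul ha
  have hNCt : Subgroup.normalClosure (A : Set G) ≠ ⊤ := by
    intro ht
    apply hM.1
    rw [eq_top_iff, ← ht]
    exact hNC
  have hA1 : A ≤ Subgroup.normalClosure (A : Set G) := Subgroup.le_normalClosure
  exact hnotA (Subgroup.IsSubnormal.trans hA1 (hS _ hA1 hNCt)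
    (Subgroup.normalClosure_normal).isSubnormal)

/-- Wielandt's subnormality criterion -/
theorem result {G : Type*} [Group G] [Finite G] (A : Subgroup G)
    (h : ∀ g : G, (A.subgroupOf (A ⊔ MulAut.conj g • A)).IsSubnormal) : A.IsSubnormal :=
  wielandt_aux _ G rfl A h


end Cfsg.Agent.S0066
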