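import Mathlib
import Cfsg.Statements.S3937
import Cfsg.Agent.S0066
import Cfsg.Agent.Lib.CompFitting
import Cfsg.Agent.Lib.PCore
import Cfsg.Agent.Lib.Subnormal2

set_option autoImplicit false
open Cfsg

namespace Cfsg.Agent.S3937


open Subgroup Cfsg.Agent.Lib.PCore
open scoped Pointwise

universe u

/-- The sequence of iterated commutators. -/
def engelSeq {G : Type*} [Group G] (g x : G) : ℕ → G
  | 0 => x
  | n + 1 => engelSeq g x n * g * (engelSeq g x n)⁻¹ * g⁻¹

theorem foldl_eq {G : Type*} [Group G] (g x : G) (n : ℕ) :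
    (List.replicate n g).foldl (fun a b => a * b * a⁻¹ * b⁻¹) x = engelSeq g x n := by
  induction n with
  | zero => rfl
  | succ n ih =>
    rw [List.replicate_succ', List.foldl_append, ih]
    rfl

theorem engelSeq_coe {G : Type*} [Group G] (L : Subgroup G) (g x : L) (n : ℕ) :
    ((engelSeq g x n : L) : G) = engelSeq (g : G) (x : G) n := by
  induction n with
  | zero => rfl
  | succ n ih =>
    simp only [engelSeq, Subgroup.coe_mul, Subgroup.coe_inv, ih]

theorem engelSeq_conj {G : Type*} [Group G] (c g x : G) (n : ℕ) :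
    engelSeq (c * g * c⁻¹) (c * x * c⁻¹) n = c * engelSeq g x n * c⁻¹ := by
  induction n with
  | zero => rfl
  | succ n ih =>
    simp only [engelSeq, ih]
    group

theorem engelSeq_succ' {G : Type*} [Group G] (g x : G) (n : ℕ) :
    engelSeq g x (n + 1) = engelSeq g (x * g * x⁻¹ * g⁻¹) n := by
  induction n with
  | zero => rfl
  | succ n ih =>
    rw [engelSeq, ih]
    rfl

theorem zpowers_subgroupOf_eq {G : Type*} [Group G] (K : Subgroup G) (x : G) (hx : x ∈ K) :
    (zpowers x).subgroupOf K = zpowers (⟨x, hx⟩ : K) := by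
  ext y
  simp only [Subgroup.mem_subgroupOf, Subgroup.mem_zpowers_iff]
  constructor
  · rintro ⟨k, hk⟩
    exact ⟨k, Subtype.ext (by simpa using hk)⟩
  · rintro ⟨k, hk⟩
    refine ⟨k, ?_⟩
    have := congrArg Subtype.val hk
    simpa using this

/-- Left Engel elements. -/
def IsLE {G : Type*} [Group G] (g : G) : Prop := ∀ x : G, ∃ n : ℕ, engelSeq g x n = 1

theorem IsLE.conj {G : Type*} [Group G] {g : G} (h : IsLE g) (c : G) : IsLE (c * g * c⁻¹) := by
  intro x
  obtain ⟨n, hn⟩ := h (c⁻¹ * x * c)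
  refine ⟨n, ?_⟩
  have h1 := engelSeq_conj c g (c⁻¹ * x * c) n
  rw [hn] at h1
  have h2 : c * (c⁻¹ * x * c) * c⁻¹ = x := by group
  rw [h2] at h1
  rw [h1]
  simp

theorem IsLE.restrict {G : Type*} [Group G] (L : Subgroup G) {g : L} (h : IsLE (g : G)) :
    IsLE g := by
  intro x
  obtain ⟨n, hn⟩ := h x
  refine ⟨n, Subtype.ext ?_⟩
  rw [engelSeq_coe, hn]
  rfl

theorem engel_of_mem_fitting {G : Type*} [Group G] [Finite G] {g : G}
    (hg : g ∈ fittingSubgroup G) : IsLE g := by
  intro x
  haveI hn : (fittingSubgroup G).Normal := inferInstance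
  have hx : x * g * x⁻¹ * g⁻¹ ∈ fittingSubgroup G :=
    mul_mem (hn.conj_mem g hg x) (inv_mem hg)
  haveI hnil : Group.IsNilpotent (fittingSubgroup G) := isNilpotent_fittingSubgroup
  obtain ⟨k, hk⟩ := Subgroup.nilpotent_iff_lowerCentralSeries.mp hnil
  have hmem : ∀ (u v : fittingSubgroup G) (n : ℕ),
      engelSeq v u n ∈ (⊤ : Subgroup (fittingSubgroup G)).lowerCentralSeries n := by
    intro u v n
    induction n with
    | zero => simp [Subgroup.lowerCentralSeries_zero]
    | succ n ih =>
      rw [Subgroup.lowerCentralSeries_succ]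
      exact Subgroup.commutator_mem_commutator ih (mem_top v)
  refine ⟨k + 1, ?_⟩
  rw [engelSeq_succ']
  have h1 := hmem ⟨_, hx⟩ ⟨g, hg⟩ k
  rw [hk, mem_bot] at h1
  have h2 := engelSeq_coe _ (⟨g, hg⟩ : fittingSubgroup G) ⟨_, hx⟩ k
  rw [h1] at h2
  exact h2.symm

theorem mem_fitting_of_engel (m : ℕ) (G : Type u) [Group G] [Finite G] (hm : Nat.card G = m)
    (g : G) (hg : IsLE g) : g ∈ fittingSubgroup G := by
  classical
  induction m using Nat.strong_induction_on generalizing G with
  | _ m ih =>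
  by_contra hgF
  haveI hFn : (fittingSubgroup G).Normal := inferInstance
  -- the family
  let F : Set (Subgroup G) := {X | ∃ h : G, IsLE h ∧ h ∉ fittingSubgroup G ∧ X = zpowers h}
  have hconj : ∀ X ∈ F, ∀ c : G, MulAut.conj c • X ∈ F := by
    rintro X ⟨h, hh, hhF, rfl⟩ c
    refine ⟨c * h * c⁻¹, hh.conj c, ?_, ?_⟩
    · intro hc
      apply hhF
      have := hFn.conj_mem _ hc c⁻¹
      have h2 : c⁻¹ * (c * h * c⁻¹) * c⁻¹⁻¹ = h := by group
      rwa [h2] at this
    · have := MonoidHom.map_zpowers (MulAut.conj c).toMonoidHom h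
      exact this
  have hind : ∀ (L : Subgroup G), L ≠ ⊤ → ∀ h : L, IsLE (h : G) → h ∈ fittingSubgroup L := by
    intro L hL h hh
    have hlt : Nat.card L < m := hm ▸ Cfsg.Agent.Lib.Subnormal.card_lt_of_ne_top hL
    exact ih _ hlt L rfl h (IsLE.restrict L hh)
  have hsub : ∀ X ∈ F, ∀ L : Subgroup G, X ≤ L → L ≠ ⊤ → (X.subgroupOf L).IsSubnormal := by
    rintro X ⟨h, hh, hhF, rfl⟩ L hXL hL
    have hhL : h ∈ L := hXL (mem_zpowers h)
    have h1 := hind L hL ⟨h, hhL⟩ hh
    -- `zpowers h` is subnormal in `F(L)`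
    haveI hnil : Group.IsNilpotent (fittingSubgroup L) := isNilpotent_fittingSubgroup
    have h2 := Cfsg.Agent.Lib.Subnormal2.isSubnormal_of_isNilpotent
      (zpowers (⟨⟨h, hhL⟩, h1⟩ : fittingSubgroup L))
    have hFLn : (fittingSubgroup L).Normal := inferInstance
    rw [zpowers_subgroupOf_eq L h hhL]
    have hle : zpowers (⟨h, hhL⟩ : L) ≤ fittingSubgroup L := by
      rw [zpowers_le]
      exact h1
    refine Subgroup.IsSubnormal.trans hle ?_ hFLn.isSubnormal
    rw [zpowers_subgroupOf_eq (fittingSubgroup L) ⟨h, hhL⟩ h1]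
    exact h2
  have hnot : ∀ X ∈ F, ¬ X.IsSubnormal := by
    rintro X ⟨h, hh, hhF, rfl⟩ hs
    apply hhF
    have h1 := Cfsg.Agent.Lib.CompFitting.le_fitting_of_isSubnormal hs
      (by
        letI : CommGroup (zpowers h) := { (inferInstance : Group (zpowers h)) with
          mul_comm := fun a b => by
            obtain ⟨a, i, rfl⟩ := a
            obtain ⟨b, j, rfl⟩ := b
            apply Subtype.ext
            exact zpow_mul_comm h i j }
        exact CommGroup.isNilpotent)
    exact h1 (mem_zpowers h)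
  have hS : zpowers g ∈ F := ⟨g, hg, hgF, rfl⟩
  have huniq : ∀ {M K : Subgroup G}, IsCoatom M → IsCoatom K → g ∈ M → g ∈ K → M = K := by
    intro M K hM hK hgM hgK
    refine Cfsg.Agent.S0066.zipper F hconj hsub hnot hS hM hK ?_ ?_
    · rwa [zpowers_le]
    · rwa [zpowers_le]
  -- a maximal subgroup containing `g`
  obtain ⟨M, hM, hgM⟩ : ∃ M : Subgroup G, IsCoatom M ∧ zpowers g ≤ M := by
    rcases eq_top_or_exists_le_coatom (zpowers g) with h1 | h1
    · exfalso
      apply hnot _ hS
      rw [h1]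
      exact Subgroup.IsSubnormal.top
    · exact h1
  have hgM' : g ∈ M := hgM (mem_zpowers g)
  -- `M` is normal
  have hMn : M.Normal := by
    have hx : ∃ x : G, x ∉ M := by
      by_contra hcon
      push Not at hcon
      exact hM.1 (eq_top_iff.mpr fun x _ => hcon x)
    obtain ⟨x, hx⟩ := hx
    obtain ⟨n, hn⟩ := hg x
    have hex : ∃ n, engelSeq g x n ∈ M := ⟨n, by rw [hn]; exact one_mem _⟩
    have hfind := Nat.find_spec hex
    have hpos : Nat.find hex ≠ 0 := by
      intro h0
      rw [h0] at hfind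
      exact hx hfind
    obtain ⟨k, hk⟩ := Nat.exists_eq_succ_of_ne_zero hpos
    have hyM : engelSeq g x k ∉ M := Nat.find_min hex (by omega)
    rw [hk] at hfind
    set y := engelSeq g x k with hy
    have h1 : y * g * y⁻¹ * g⁻¹ ∈ M := hfind
    have h2 : y * g * y⁻¹ ∈ M := by
      have := M.mul_mem h1 hgM'
      simpa [mul_assoc] using this
    -- `g ∈ M^(y⁻¹)`
    have hcoat : IsCoatom (M.comap (MulAut.conj y).toMonoidHom) :=
      Subgroup.isCoatom_comap_of_surjective (MulAut.conj y).surjective hM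
    have hgconj : g ∈ M.comap (MulAut.conj y).toMonoidHom := h2
    have hMeq : M.comap (MulAut.conj y).toMonoidHom = M := huniq hcoat hM hgconj hgM'
    have hynorm : y ∈ normalizer (M : Set G) := by
      rw [mem_normalizer_iff]
      intro z
      have h3 : z ∈ M.comap (MulAut.conj y).toMonoidHom ↔ y * z * y⁻¹ ∈ M := Iff.rfl
      rw [hMeq] at h3
      exact h3
    have hlt : M < normalizer (M : Set G) := by
      refine lt_of_le_of_ne le_normalizer ?_
      intro h
      apply hyM
      rw [h]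
      exact hynorm
    have htop := hM.2 _ hlt
    exact normalizer_eq_top_iff.mp htop
  -- conclusion
  have hgFM := hind M hM.1 ⟨g, hgM'⟩ hg
  have h3 := Cfsg.Agent.Lib.CompFitting.map_fitting_le_of_isSubnormal hMn.isSubnormal
  exact hgF (h3 ⟨_, hgFM, rfl⟩)

/-- Baer's characterization of the Fitting subgroup: in a finite group G, an element g lies in the Fitting subgroup if and only if g is a left Engel element, that is, for every x there is n with [x, g, g, …, g] = 1 (n entries g, [a, b] = aba⁻¹b⁻¹). -/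
theorem result {G : Type*} [Group G] [Finite G] (g : G) :
    g ∈ Cfsg.fittingSubgroup G ↔ ∀ x : G, ∃ n : ℕ, (List.replicate n g).foldl (fun a b => a * b * a⁻¹ * b⁻¹) x = 1 := by
  constructor
  · intro h x
    obtain ⟨n, hn⟩ := engel_of_mem_fitting h x
    exact ⟨n, by rw [foldl_eq]; exact hn⟩
  · intro h
    refine mem_fitting_of_engel _ G rfl g ?_
    intro x
    obtain ⟨n, hn⟩ := h x
    exact ⟨n, by rw [← foldl_eq]; exact hn⟩

end Cfsg.Agent.S3937
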