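import Mathlib
import Cfsg.Statements.S5408
import Cfsg.Agent.Lib.LeechFourForm
import Cfsg.Agent.Lib.ExtraSqForm
import Cfsg.Agent.Lib.GolayBits

set_option autoImplicit false
open Cfsg

namespace Cfsg.Agent.S5408

open Cfsg.Agent.Lib.LeechFourForm Cfsg.Agent.Lib.ExtraSqForm

section form

variable {P : Type*} [Group P]

/-- The form attached to an identification of the lattice modulo 2 with `P / Z(P)`. -/
theorem exists_form_of_iso [Finite P] (hP : IsExtraspecial 2 P)
    (ψ : leechLattice → P ⧸ Subgroup.center P)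
    (hadd : ∀ v w, ψ (v + w) = ψ v * ψ w)
    (hinv : ∀ g : Co0, ∃ α : P ≃* P, ∀ (v : leechLattice) (x : P), ψ v = QuotientGroup.mk x →
      ψ ((g : Equiv.Perm leechLattice) v) = QuotientGroup.mk (α x)) :
    ∃ (q : leechLattice → ZMod 2) (b : leechLattice → leechLattice → ZMod 2), IsInvForm q b ∧
      (∀ v x, ψ v = QuotientGroup.mk x → q v = sqv x) ∧
      (∀ v w x y, ψ v = QuotientGroup.mk x → ψ w = QuotientGroup.mk y → b v w = cmv x y) := by
  obtain ⟨c, hc, hcen⟩ := exists_ES hP
  have hl : ∀ v, ∃ x : P, ψ v = QuotientGroup.mk x := fun v =>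
    (QuotientGroup.mk_surjective (ψ v)).imp fun x hx => hx.symm
  choose l hl using hl
  have hmk : ∀ x y : P, (QuotientGroup.mk x : P ⧸ Subgroup.center P) = QuotientGroup.mk y →
      y = x ∨ y = x * c := by
    intro x y h
    rcases (hcen _).1 (QuotientGroup.eq.1 h) with h1 | h1
    · left
      exact (inv_mul_eq_one.1 h1).symm
    · right
      rw [← h1]
      group
  have hq : ∀ v x, ψ v = QuotientGroup.mk x → sqv (l v) = sqv x := by
    intro v x h
    rcases hmk (l v) x ((hl v).symm.trans h) with rfl | rfl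
    · rfl
    · rw [hc.sqv_mul_c]
  have hb : ∀ v w x y, ψ v = QuotientGroup.mk x → ψ w = QuotientGroup.mk y →
      cmv (l v) (l w) = cmv x y := by
    intro v w x y h h'
    rcases hmk (l v) x ((hl v).symm.trans h) with rfl | rfl <;>
      rcases hmk (l w) y ((hl w).symm.trans h') with rfl | rfl
    · rfl
    · rw [hc.cmv_mul_c]
    · rw [hc.cmv_c_mul]
    · rw [hc.cmv_c_mul, hc.cmv_mul_c]
  have hadd' : ∀ v w, ψ (v + w) = QuotientGroup.mk (l v * l w) := by
    intro v w
    rw [hadd, hl v, hl w]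
    rfl
  refine ⟨fun v => sqv (l v), fun v w => cmv (l v) (l w), ⟨?_, ?_, ?_, ?_, ?_⟩, hq, hb⟩
  · intro v w
    show sqv (l (v + w)) = _
    rw [hq _ _ (hadd' v w), hc.sqv_mul]
  · intro u v w
    show cmv (l u) (l (v + w)) = _
    rw [hb u (v + w) (l u) (l v * l w) (hl u) (hadd' v w), hc.cmv_mul]
  · intro v w
    exact hc.cmv_comm _ _
  · intro v
    exact hc.cmv_self _
  · intro g v
    obtain ⟨α, hα⟩ := hinv g
    show sqv (l _) = sqv (l v)
    rw [hq _ _ (hα v (l v) (hl v)), sqv_map]

end form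

/-- Bits of the code: no nonzero member of the code is contained in the first twelve points. -/
theorem eq_empty_of_subset {B : Finset GolayPt} (hB : B ∈ supports (golayCode : Set (GolayPt → ZMod 2)))
    (hsub : ∀ p ∈ B, Cfsg.Agent.Lib.GolayBits.idx p < 12) : B = ∅ := by
  open Cfsg.Agent.Lib.GolayBits in
  obtain ⟨n, hn, rfl⟩ := mem_supports_iff.1 hB
  have hn0 : n = 0 := by
    apply Nat.eq_of_testBit_eq
    intro i
    rw [Nat.zero_testBit]
    by_cases hi : i < 12
    · have h1 := word_lt_info ⟨n, hn⟩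
      have h2 : n.testBit i = (word n).testBit (12 + i) := by
        have := congrArg (fun m => Nat.testBit m i) h1
        simp only [Nat.testBit_shiftRight] at this
        exact this.symm
      rw [h2]
      by_contra h3
      have h4 : (word n).testBit (12 + i) = true := by simpa using h3
      have h5 : pt (12 + i) ∈ toSet (word n) := by
        rw [mem_toSet, idx_pt' (by omega)]
        exact h4
      have h6 := hsub _ h5
      rw [idx_pt' (by omega)] at h6
      omega
    · exact Nat.testBit_lt_two_pow (lt_of_lt_of_le (by simpa using hn) (Nat.pow_le_pow_right (by norm_num) (by omega : 12 ≤ i)))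
  subst hn0
  rw [Cfsg.Agent.Lib.GolayBits.word_zero]
  ext p
  simp [mem_toSet]


/-- The points `some 1, ..., some 11`. -/
def iota (i : Fin 11) : GolayPt := some ((i.val + 1 : ℕ) : ZMod 23)

/-- The point `some 0`. -/
def p0 : GolayPt := some 0

theorem iota_ne : ∀ j : Fin 11, iota j ≠ p0 := by decide

theorem iota_inj : ∀ i j : Fin 11, iota i = iota j → i = j := by decide

theorem idx_iota : ∀ j : Fin 11, Cfsg.Agent.Lib.GolayBits.idx (iota j) < 12 := by decide

theorem idx_p0 : Cfsg.Agent.Lib.GolayBits.idx p0 < 12 := by decide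

/-- The additive subgroup generated by all `vec i j`. -/
def U : AddSubgroup leechLattice :=
  AddSubgroup.closure (Set.range fun pr : GolayPt × GolayPt => vec pr.1 pr.2)

theorem vec_mem_U (i j : GolayPt) : vec i j ∈ U :=
  AddSubgroup.subset_closure ⟨(i, j), rfl⟩

/-- The family of `2 ^ 12` elements of `U`. -/
noncomputable def F (x : Finset (Fin 11) × Bool) : leechLattice :=
  (∑ i ∈ x.1, vec p0 (iota i)) + (if x.2 then vec p0 p0 else 0)

theorem F_mem_U (x : Finset (Fin 11) × Bool) : F x ∈ U := by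
  refine U.add_mem (U.sum_mem fun i _ => vec_mem_U _ _) ?_
  split_ifs
  · exact vec_mem_U _ _
  · exact U.zero_mem

theorem coord (x : Finset (Fin 11) × Bool) (k : GolayPt) :
    (F x : GolayPt → ℤ) k = ∑ i ∈ x.1, vf p0 (iota i) k + (if x.2 then vf p0 p0 k else 0) := by
  unfold F
  rw [AddSubgroup.coe_add, Pi.add_apply, AddSubgroup.val_finsetSum, Finset.sum_apply]
  congr 1
  split_ifs
  · rfl
  · rfl

theorem coord_out (x : Finset (Fin 11) × Bool) {k : GolayPt}
    (hk : ¬ Cfsg.Agent.Lib.GolayBits.idx k < 12) : (F x : GolayPt → ℤ) k = 0 := by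
  have h0 : k ≠ p0 := fun e => hk (e ▸ idx_p0)
  have h1 : ∀ j, k ≠ iota j := fun j e => hk (e ▸ idx_iota j)
  rw [coord]
  have : ∀ i, vf p0 (iota i) k = 0 := fun i => by
    simp [vf, h0, h1 i]
  simp only [this, Finset.sum_const_zero, zero_add]
  split_ifs
  · simp [vf, h0]
  · rfl

theorem coord_iota (x : Finset (Fin 11) × Bool) (j : Fin 11) :
    (F x : GolayPt → ℤ) (iota j) = if j ∈ x.1 then 4 else 0 := by
  rw [coord]
  have h1 : ∀ i, vf p0 (iota i) (iota j) = if i = j then 4 else 0 := fun i => by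
    have h2 : (iota j = iota i) ↔ i = j := ⟨fun e => (iota_inj _ _ e).symm, fun e => e ▸ rfl⟩
    simp [vf, iota_ne j, h2]
  have h3 : vf p0 p0 (iota j) = 0 := by simp [vf, iota_ne j]
  simp only [h1, h3, ite_self, add_zero, Finset.sum_ite_eq']

theorem sum_vec (i j : GolayPt) : ∑ k, (vec i j : GolayPt → ℤ) k = 8 := by
  show ∑ k, vf i j k = 8
  simp only [vf, Finset.sum_add_distrib, Finset.sum_ite_eq', Finset.mem_univ, if_true]
  norm_num

theorem sum_coord (x : Finset (Fin 11) × Bool) :
    ∑ k, (F x : GolayPt → ℤ) k = 8 * (x.1.card : ℤ) + (if x.2 then 8 else 0) := by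
  simp only [coord, Finset.sum_add_distrib]
  congr 1
  · rw [Finset.sum_comm]
    have : ∀ i, ∑ k, vf p0 (iota i) k = 8 := fun i => sum_vec _ _
    simp only [this, Finset.sum_const, nsmul_eq_mul]
    ring
  · split_ifs
    · exact sum_vec _ _
    · simp

theorem F_inj {x x' : Finset (Fin 11) × Bool} {y : leechLattice} (h : F x = F x' + (y + y)) :
    x = x' := by
  have hk : ∀ k, (F x : GolayPt → ℤ) k = (F x' : GolayPt → ℤ) k + ((y : GolayPt → ℤ) k + (y : GolayPt → ℤ) k) := by
    intro k
    have := congrArg (fun v : leechLattice => (v : GolayPt → ℤ) k) h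
    simpa using this
  obtain ⟨m, hm1, hm2, hm3⟩ := Cfsg.Agent.Lib.Leech.mem_leechLattice_iff_leechSet.1 y.2
  have hyo : ∀ {k : GolayPt}, ¬ Cfsg.Agent.Lib.GolayBits.idx k < 12 → (y : GolayPt → ℤ) k = 0 := by
    intro k hk'
    have := hk k
    rw [coord_out x hk', coord_out x' hk'] at this
    omega
  have hm : m % 2 = 0 := by
    have h1 := hm1 none
    rw [hyo (k := none) (by decide)] at h1
    simp only [Int.ModEq] at h1
    omega
  have hB := hm3 2
  have hB0 := eq_empty_of_subset hB (by
    intro p hp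
    by_contra hp'
    rw [Finset.mem_filter] at hp
    have := hp.2
    rw [hyo hp'] at this
    exact absurd this (by decide))
  have hyj : ∀ j, ¬ (y : GolayPt → ℤ) (iota j) ≡ 2 [ZMOD 4] := by
    intro j hj
    have : iota j ∈ Finset.univ.filter fun i => (y : GolayPt → ℤ) i ≡ 2 [ZMOD 4] := by
      rw [Finset.mem_filter]
      exact ⟨Finset.mem_univ _, hj⟩
    rw [hB0] at this
    simp at this
  have hA : x.1 = x'.1 := by
    ext j
    have h1 := hk (iota j)
    rw [coord_iota, coord_iota] at h1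
    have h2 := hyj j
    simp only [Int.ModEq] at h2
    by_cases h3 : j ∈ x.1 <;> by_cases h4 : j ∈ x'.1 <;> simp only [h3, h4, if_true, if_false] at h1 ⊢
    · omega
    · omega
  have hs : ∑ k, (F x : GolayPt → ℤ) k = ∑ k, (F x' : GolayPt → ℤ) k + (∑ k, (y : GolayPt → ℤ) k + ∑ k, (y : GolayPt → ℤ) k) := by
    rw [← Finset.sum_add_distrib, ← Finset.sum_add_distrib]
    exact Finset.sum_congr rfl fun k _ => hk k
  rw [sum_coord, sum_coord, hA] at hs
  simp only [Int.ModEq] at hm2
  refine Prod.ext hA ?_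
  generalize hS : ∑ k, (y : GolayPt → ℤ) k = S at hs hm2
  cases h1 : x.2 <;> cases h2 : x'.2
  · rfl
  · exfalso
    rw [h1, h2] at hs
    simp only [Bool.false_eq_true, if_false, if_true] at hs
    omega
  · exfalso
    rw [h1, h2] at hs
    simp only [Bool.false_eq_true, if_false, if_true] at hs
    omega
  · rfl

section forms

variable {q : leechLattice → ZMod 2} {b : leechLattice → leechLattice → ZMod 2}

theorem b_zero_left (hf : IsInvForm q b) (w : leechLattice) : b 0 w = 0 := by
  have h1 := hf.b_add_left 0 0 w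
  rw [add_zero] at h1
  have key : ∀ x : ZMod 2, x = x + x → x = 0 := by decide
  exact key _ h1

theorem b_neg_left (hf : IsInvForm q b) (u w : leechLattice) : b (-u) w = b u w := by
  have h1 := hf.b_add_left (-u) u w
  rw [neg_add_cancel, b_zero_left hf] at h1
  exact CharTwo.add_eq_zero.mp h1.symm

theorem q_zero (hf : IsInvForm q b) : q 0 = 0 := by
  have := hf.q_double 0
  rwa [add_zero] at this

theorem q_neg (hf : IsInvForm q b) (u : leechLattice) : q (-u) = q u := by
  have h1 := hf.q_add (-u) u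
  rw [neg_add_cancel, q_zero hf, b_neg_left hf, hf.b_self, add_zero] at h1
  exact CharTwo.add_eq_zero.mp h1.symm

theorem b_U_vec (hf : IsInvForm q b) {u : leechLattice} (hu : u ∈ U) (i j : GolayPt) :
    b u (vec i j) = 0 := by
  induction hu using AddSubgroup.closure_induction with
  | mem x hx =>
    obtain ⟨pr, rfl⟩ := hx
    exact hf.b_vec _ _ _ _
  | zero => exact b_zero_left hf _
  | add x y _ _ hx hy => rw [hf.b_add_left, hx, hy, add_zero]
  | neg x _ hx => rw [b_neg_left hf, hx]

theorem b_U_U (hf : IsInvForm q b) {u u' : leechLattice} (hu : u ∈ U) (hu' : u' ∈ U) :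
    b u u' = 0 := by
  rw [hf.b_comm]
  induction hu' using AddSubgroup.closure_induction with
  | mem x hx =>
    obtain ⟨pr, rfl⟩ := hx
    rw [hf.b_comm]
    exact b_U_vec hf hu _ _
  | zero => exact b_zero_left hf _
  | add x y _ _ hx hy => rw [hf.b_add_left, hx, hy, add_zero]
  | neg x _ hx => rw [b_neg_left hf, hx]

theorem q_U (hf : IsInvForm q b) {u : leechLattice} (hu : u ∈ U) : q u = 0 := by
  induction hu using AddSubgroup.closure_induction with
  | mem x hx =>
    obtain ⟨pr, rfl⟩ := hx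
    exact hf.q_vec
  | zero => exact q_zero hf
  | add x y hx' hy' hx hy => rw [hf.q_add, hx, hy, b_U_U hf hx' hy', add_zero, add_zero]
  | neg x _ hx => rw [q_neg hf, hx]

end forms

theorem exists_ea {P : Type*} [Group P] [Finite P] (hP : IsExtraspecial 2 P)
    (hcard : Nat.card P = 2 ^ 25)
    (ψ : leechLattice → P ⧸ Subgroup.center P)
    (hadd : ∀ v w, ψ (v + w) = ψ v * ψ w)
    (hker : ∀ v, ψ v = 1 ↔ ∃ w, v = w + w)
    (hinv : ∀ g : Co0, ∃ α : P ≃* P, ∀ (v : leechLattice) (x : P), ψ v = QuotientGroup.mk x →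
      ψ ((g : Equiv.Perm leechLattice) v) = QuotientGroup.mk (α x)) :
    ∃ E : Subgroup P, IsElementaryAbelian 2 E ∧ Nat.card E = 2 ^ 13 := by
  obtain ⟨q, b, hf, hq, hb⟩ := exists_form_of_iso hP ψ hadd hinv
  obtain ⟨c, hc, hcen⟩ := exists_ES hP
  have hψ0 : ψ 0 = 1 := (hker 0).2 ⟨0, by simp⟩
  have hψneg : ∀ v, ψ (-v) = (ψ v)⁻¹ := by
    intro v
    have := hadd (-v) v
    rw [neg_add_cancel, hψ0] at this
    exact eq_inv_of_mul_eq_one_left this.symm
  -- the subgroup
  let E' : Subgroup P :=
    { carrier := {x | ∃ u ∈ U, ψ u = QuotientGroup.mk x}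
      mul_mem' := by
        rintro x y ⟨u, hu, hx⟩ ⟨u', hu', hy⟩
        exact ⟨u + u', U.add_mem hu hu', by rw [hadd, hx, hy]; rfl⟩
      one_mem' := ⟨0, U.zero_mem, by rw [hψ0]; rfl⟩
      inv_mem' := by
        rintro x ⟨u, hu, hx⟩
        exact ⟨-u, U.neg_mem hu, by rw [hψneg, hx]; rfl⟩ }
  have hE1 : ∀ x ∈ E', x ^ 2 = 1 := by
    rintro x ⟨u, hu, hx⟩
    rw [← sqv_eq_zero_iff, ← hq u x hx]
    exact q_U hf hu
  have hE2 : ∀ x ∈ E', ∀ y ∈ E', x * y = y * x := by
    rintro x ⟨u, hu, hx⟩ y ⟨u', hu', hy⟩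
    rw [← cmv_eq_zero_iff, ← hb u u' x y hx hy]
    exact b_U_U hf hu hu'
  -- the lifts
  have hl : ∀ v, ∃ x : P, ψ v = QuotientGroup.mk x := fun v =>
    (QuotientGroup.mk_surjective (ψ v)).imp fun x hx => hx.symm
  choose l hl using hl
  have htc : ∀ s : Bool, (if s then c else 1) ∈ Subgroup.center P := by
    intro s
    rw [hcen]
    cases s
    · exact Or.inl rfl
    · exact Or.inr rfl
  let inj : (Finset (Fin 11) × Bool) × Bool → E' := fun x =>
    ⟨l (F x.1) * (if x.2 then c else 1), F x.1, F_mem_U x.1, by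
      rw [hl]
      refine QuotientGroup.eq.2 ?_
      simpa using htc x.2⟩
  have hinj : Function.Injective inj := by
    rintro ⟨x, s⟩ ⟨x', s'⟩ he
    have he' : l (F x) * (if s then c else 1) = l (F x') * (if s' then c else 1) :=
      congrArg Subtype.val he
    have h1 : ψ (F x) = ψ (F x') := by
      rw [hl, hl]
      have e0 : ∀ (a t : P), t ∈ Subgroup.center P →
          (QuotientGroup.mk (a * t) : P ⧸ Subgroup.center P) = QuotientGroup.mk a := by
        intro a t ht
        refine QuotientGroup.eq.2 ?_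
        rw [show (a * t)⁻¹ * a = t⁻¹ by group]
        exact inv_mem ht
      calc (QuotientGroup.mk (l (F x)) : P ⧸ Subgroup.center P)
          = QuotientGroup.mk (l (F x) * (if s then c else 1)) := (e0 _ _ (htc s)).symm
        _ = QuotientGroup.mk (l (F x') * (if s' then c else 1)) := by rw [he']
        _ = QuotientGroup.mk (l (F x')) := e0 _ _ (htc s')
    have h2 : ψ (F x + -F x') = 1 := by
      rw [hadd, hψneg, h1, mul_inv_cancel]
    obtain ⟨y, hy⟩ := (hker _).1 h2
    have h3 : F x = F x' + (y + y) := by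
      rw [← hy]
      abel
    have h4 := F_inj h3
    subst h4
    have h5 := mul_left_cancel he'
    have h6 : s = s' := by
      cases s <;> cases s'
      · rfl
      · simp only [Bool.false_eq_true, if_false, if_true] at h5
        exact absurd h5.symm hc.ne
      · simp only [Bool.false_eq_true, if_false, if_true] at h5
        exact absurd h5 hc.ne
      · rfl
    rw [h6]
  have hcardE : 2 ^ 13 ≤ Nat.card E' := by
    have h1 := Nat.card_le_card_of_injective inj hinj
    have h2 : Nat.card ((Finset (Fin 11) × Bool) × Bool) = 2 ^ 13 := by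
      rw [Nat.card_eq_fintype_card, Fintype.card_prod, Fintype.card_prod, Fintype.card_finset,
        Fintype.card_bool, Fintype.card_fin]
      norm_num
    rwa [h2] at h1
  have hdvd : Nat.card E' ∣ 2 ^ 25 := hcard ▸ Subgroup.card_subgroup_dvd_card E'
  obtain ⟨k, -, hk⟩ := (Nat.dvd_prime_pow Nat.prime_two).1 hdvd
  have hk13 : 13 ≤ k := by
    rw [hk] at hcardE
    exact (Nat.pow_le_pow_iff_right (by norm_num)).1 hcardE
  have : Fact (Nat.Prime 2) := ⟨Nat.prime_two⟩
  obtain ⟨K, hK⟩ := Sylow.exists_subgroup_card_pow_prime (G := E') 2 (n := 13) (by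
    rw [hk]
    exact pow_dvd_pow 2 hk13)
  refine ⟨K.map E'.subtype, ⟨⟨⟨?_⟩⟩, ?_⟩, ?_⟩
  · rintro ⟨_, x, _, rfl⟩ ⟨_, y, _, rfl⟩
    exact Subtype.ext (hE2 _ x.2 _ y.2)
  · rintro _ ⟨x, _, rfl⟩
    exact hE1 _ x.2
  · rw [Subgroup.card_map_of_injective E'.subtype_injective, hK]


/-- Let G be a finite group of Monster type at the involution z with Q the extraspecial normal subgroup of order 2^25 of C = C_G(z) (so C/Q is identified with the first Conway group with Q modulo its centre the Leech lattice modulo 2, and z is not weakly closed in Q). Then Q is of plus type: it contains an elementary abelian subgroup of order 2^13. -/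
theorem result {G : Type*} [Group G] [Finite G] (z : G) (Q : Subgroup (Subgroup.centralizer ({z} : Set G))) [Q.Normal] (hM : Cfsg.IsOfMonsterType z Q) : ∃ E : Subgroup Q, Cfsg.IsElementaryAbelian 2 E ∧ Nat.card E = 2 ^ 13 := by
  obtain ⟨⟨-, -, hE, hcard, -⟩, e, ψ, hadd, -, hker, hinv⟩ := hM
  refine exists_ea hE hcard ψ hadd hker ?_
  intro g
  obtain ⟨r, hr⟩ := e.surjective (QuotientGroup.mk g)
  obtain ⟨h, rfl⟩ := QuotientGroup.mk_surjective r
  refine ⟨MulAut.conjNormal h, ?_⟩
  intro v x hx
  have := hinv h g hr.symm v x hx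
  exact this

end Cfsg.Agent.S5408
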