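import Mathlib
import Cfsg.Statements.S1567
import Cfsg.Agent.Lib.Leech
import Cfsg.Agent.Lib.GolayBits

set_option autoImplicit false
open Cfsg

namespace Cfsg.Agent.S1567

open Cfsg.Agent.Lib.Leech

/-- The subgroup generated by the minimal vectors. -/
def M : AddSubgroup (GolayPt → ℤ) :=
  AddSubgroup.closure {x : GolayPt → ℤ | x ∈ leechLattice ∧ sqNorm x = 32}

theorem M_le : M ≤ leechLattice := by
  rw [M, AddSubgroup.closure_le]
  exact fun x hx => hx.1

theorem mem_M_of {x : GolayPt → ℤ} {m : ℤ} {α : Finset GolayPt} (h : IsForm x m α)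
    (hn : sqNorm x = 32) : x ∈ M :=
  AddSubgroup.subset_closure ⟨mem_leechLattice_iff.2 ⟨m, α, h⟩, hn⟩

/-- `(±4, ±4, 0^22)` is in `M`. -/
theorem pair_mem {i j : GolayPt} (hij : i ≠ j) {ε : ℤ} (hε : ε = 4 ∨ ε = -4) :
    Pi.single i (4 : ℤ) + Pi.single j ε ∈ M := by
  have hv : ∀ k, (Pi.single i (4 : ℤ) + Pi.single j ε : GolayPt → ℤ) k =
      (if k = i then 4 else 0) + (if k = j then ε else 0) := by
    intro k
    simp only [Pi.add_apply, Pi.single_apply]
  apply mem_M_of (m := 0) (α := ∅)
  · refine ⟨empty_mem_codeSets, fun k => ?_, ?_⟩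
    · rw [hv]
      simp only [br, Finset.notMem_empty, if_false, Int.ModEq]
      rcases hε with rfl | rfl <;> by_cases h1 : k = i <;> by_cases h2 : k = j <;>
        simp [h1, h2, hij, hij.symm]
    · simp only [Int.ModEq]
      simp only [hv]
      rw [Finset.sum_add_distrib, Finset.sum_ite_eq', Finset.sum_ite_eq']
      rcases hε with rfl | rfl <;> simp
  · simp only [sqNorm, hv]
    rw [Finset.sum_eq_add i j hij]
    · rcases hε with rfl | rfl <;> simp [hij, hij.symm]
    · rintro k _ ⟨h1, h2⟩
      simp [h1, h2]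
    · simp
    · simp

theorem single_eight_mem (p : GolayPt) : Pi.single p (8 : ℤ) ∈ M := by
  obtain ⟨i, hi⟩ : ∃ i : GolayPt, i ≠ p := by
    by_cases h : p = none
    · exact ⟨some 0, by simp [h]⟩
    · exact ⟨none, fun e => h e.symm⟩
  have h1 := pair_mem hi (Or.inl rfl : (4 : ℤ) = 4 ∨ (4 : ℤ) = -4)
  have h2 := pair_mem hi (Or.inr rfl : (-4 : ℤ) = 4 ∨ (-4 : ℤ) = -4)
  have h3 := sub_mem h1 h2
  have : (Pi.single i (4 : ℤ) + Pi.single p (4 : ℤ)) - (Pi.single i (4 : ℤ) + Pi.single p (-4 : ℤ)) =
      (Pi.single p (8 : ℤ) : GolayPt → ℤ) := by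
    funext k
    simp only [Pi.sub_apply, Pi.add_apply, Pi.single_apply]
    by_cases h : k = p <;> simp [h]
  rwa [this] at h3

/-- Vectors `4 y` with `∑ y` even are in `M`. -/
theorem even_sum_mem (y : GolayPt → ℤ) (hy : (2 : ℤ) ∣ ∑ i, y i) : (fun i => 4 * y i) ∈ M := by
  obtain ⟨k, hk⟩ := hy
  let p0 : GolayPt := none
  have hd : ∀ i, (Pi.single i (4 : ℤ) + Pi.single p0 (-4 : ℤ) : GolayPt → ℤ) ∈ M := by
    intro i
    by_cases h : i = p0
    · subst h
      have : (Pi.single p0 (4 : ℤ) + Pi.single p0 (-4 : ℤ) : GolayPt → ℤ) = 0 := by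
        rw [← Pi.single_add]
        simp
      rw [this]
      exact zero_mem _
    · exact pair_mem h (Or.inr rfl)
  have heq : (fun i => 4 * y i) = (∑ i, y i • (Pi.single i (4 : ℤ) + Pi.single p0 (-4 : ℤ) : GolayPt → ℤ)) +
      k • (Pi.single p0 (8 : ℤ) : GolayPt → ℤ) := by
    funext j
    simp only [Pi.add_apply, Finset.sum_apply, Pi.smul_apply, smul_eq_mul, Pi.single_apply, mul_add,
      Finset.sum_add_distrib]
    have h1 : ∑ i, y i * (if j = i then (4 : ℤ) else 0) = y j * 4 := by
      rw [Finset.sum_eq_single j]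
      · simp
      · intro b _ hb
        simp [hb.symm]
      · simp
    have h2 : ∑ i, y i * (if j = p0 then (-4 : ℤ) else 0) = (2 * k) * (if j = p0 then (-4 : ℤ) else 0) := by
      rw [← Finset.sum_mul, hk]
    rw [h1, h2]
    by_cases h : j = p0 <;> simp [h] <;> ring
  rw [heq]
  exact add_mem (sum_mem fun i _ => zsmul_mem (hd i) _) (zsmul_mem (single_eight_mem p0) _)

/-- The vector `(-3, 1^23)`. -/
theorem base_odd_mem : (fun i : GolayPt => if i = none then (-3 : ℤ) else 1) ∈ M := by
  have hsum : ∀ f : ℤ, ∑ i : GolayPt, (if i = none then f else 1) = f + 23 := by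
    intro f
    rw [← Finset.add_sum_erase Finset.univ _ (Finset.mem_univ (none : GolayPt))]
    have : ∑ x ∈ (Finset.univ : Finset GolayPt).erase none, (if x = none then f else 1) =
        ∑ _x ∈ (Finset.univ : Finset GolayPt).erase none, (1 : ℤ) :=
      Finset.sum_congr rfl fun x hx => by simp [Finset.ne_of_mem_erase hx]
    rw [this, Finset.sum_const, Finset.card_erase_of_mem (Finset.mem_univ _), Finset.card_univ,
      card_golayPt]
    simp
  apply mem_M_of (m := 1) (α := ∅)
  · refine ⟨empty_mem_codeSets, fun k => ?_, ?_⟩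
    · simp only [br, Finset.notMem_empty, if_false, Int.ModEq]
      by_cases h : k = none <;> simp [h]
    · simp only [Int.ModEq]
      rw [hsum]
      norm_num
  · simp only [sqNorm]
    have : ∀ i : GolayPt, (if i = none then (-3 : ℤ) else 1) ^ 2 = if i = none then 9 else 1 := by
      intro i
      by_cases h : i = none <;> simp [h]
    simp only [this]
    rw [hsum]
    norm_num

/-- Lifting a code word to `M` with the right residues. -/
theorem code_lift (w : GolayPt → ZMod 2) (hw : w ∈ golayCode) :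
    ∃ v ∈ M, (∀ i, v i ≡ 2 * (if w i = 0 then 0 else 1) [ZMOD 4]) ∧ ∑ i, v i ≡ 0 [ZMOD 8] := by
  rw [← Cfsg.Agent.Lib.AbstractGolay.span_octads Cfsg.Agent.Lib.GolayBits.isAbstractGolay Cfsg.Agent.Lib.GolayBits.card_golayPt] at hw
  induction hw using Submodule.span_induction with
  | mem w hw =>
    obtain ⟨hw, h8⟩ := hw
    have hc : (support₂ w).card = 8 := h8
    refine ⟨fun i => if w i = 0 then 0 else 2, ?_, fun i => ?_, ?_⟩
    · have hα : support₂ w ∈ codeSets := ⟨w, hw, rfl⟩
      have hmem : ∀ i, i ∈ support₂ w ↔ w i ≠ 0 := by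
        intro i
        simp [support₂]
      have hs : ∑ i, (if w i = 0 then (0 : ℤ) else 2) = 16 := by
        have : ∀ i, (if w i = 0 then (0 : ℤ) else 2) = if i ∈ support₂ w then 2 else 0 := by
          intro i
          by_cases h : w i = 0 <;> simp [hmem, h]
        simp only [this]
        rw [Finset.sum_ite_mem, Finset.univ_inter, Finset.sum_const, hc]
        norm_num
      apply mem_M_of (m := 0) (α := support₂ w)
      · refine ⟨hα, fun i => ?_, ?_⟩
        · simp only [br, hmem, Int.ModEq]
          by_cases h : w i = 0 <;> simp [h]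
        · simp only [Int.ModEq]
          rw [hs]
          norm_num
      · simp only [sqNorm]
        have : ∀ i, (if w i = 0 then (0 : ℤ) else 2) ^ 2 = if i ∈ support₂ w then 4 else 0 := by
          intro i
          by_cases h : w i = 0 <;> simp [hmem, h]
        simp only [this]
        rw [Finset.sum_ite_mem, Finset.univ_inter, Finset.sum_const, hc]
        norm_num
    · simp only [Int.ModEq]
      by_cases h : w i = 0 <;> simp [h]
    · have hmem : ∀ i, i ∈ support₂ w ↔ w i ≠ 0 := by
        intro i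
        simp [support₂]
      have : ∀ i, (if w i = 0 then (0 : ℤ) else 2) = if i ∈ support₂ w then 2 else 0 := by
        intro i
        by_cases h : w i = 0 <;> simp [hmem, h]
      simp only [this]
      rw [Finset.sum_ite_mem, Finset.univ_inter, Finset.sum_const, hc]
      simp [Int.ModEq]
  | zero =>
    exact ⟨0, zero_mem _, fun i => by simp [Int.ModEq], by simp [Int.ModEq]⟩
  | add a b _ _ ha hb =>
    obtain ⟨v, hv, hv1, hv2⟩ := ha
    obtain ⟨u, hu, hu1, hu2⟩ := hb
    refine ⟨v + u, add_mem hv hu, fun i => ?_, ?_⟩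
    · have h1 := hv1 i
      have h2 := hu1 i
      simp only [Int.ModEq, Pi.add_apply] at h1 h2 ⊢
      have key : ∀ p q : ZMod 2, (2 * (if p + q = 0 then (0 : ℤ) else 1)) % 4 =
          (2 * (if p = 0 then (0 : ℤ) else 1) + 2 * (if q = 0 then (0 : ℤ) else 1)) % 4 := by decide
      rw [key]
      generalize (if a i = 0 then (0 : ℤ) else 1) = A at *
      generalize (if b i = 0 then (0 : ℤ) else 1) = B at *
      omega
    · simp only [Pi.add_apply, Finset.sum_add_distrib]
      simp only [Int.ModEq] at hv2 hu2 ⊢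
      omega
  | smul c a _ ha =>
    have hc : c = 0 ∨ c = 1 := by revert c; decide
    rcases hc with rfl | rfl
    · exact ⟨0, zero_mem _, fun i => by simp [Int.ModEq], by simp [Int.ModEq]⟩
    · simpa using ha

theorem even_mem {x : GolayPt → ℤ} {α : Finset GolayPt} (h : IsForm x 0 α) : x ∈ M := by
  obtain ⟨w, hw, hα⟩ := h.1
  obtain ⟨v, hv, hv1, hv2⟩ := code_lift w hw
  have hmem : ∀ i, i ∈ α ↔ w i ≠ 0 := by
    intro i
    rw [← hα]
    simp [support₂]
  have hdiv : ∀ i, (4 : ℤ) ∣ x i - v i := by
    intro i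
    have h1 := h.2.1 i
    have h2 := hv1 i
    simp only [Int.ModEq, br, hmem] at h1 h2
    by_cases h3 : w i = 0 <;> simp only [h3, ne_eq, not_true_eq_false, not_false_eq_true, if_true, if_false] at h1 h2 <;> omega
  choose y hy using hdiv
  have hsum : (2 : ℤ) ∣ ∑ i, y i := by
    have h1 : ∑ i, x i - ∑ i, v i = 4 * ∑ i, y i := by
      rw [← Finset.sum_sub_distrib, Finset.mul_sum]
      exact Finset.sum_congr rfl fun i _ => hy i
    have h2 := h.2.2
    simp only [Int.ModEq] at h2 hv2
    omega
  have h3 := even_sum_mem y hsum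
  have h4 : x = v + fun i => 4 * y i := by
    funext i
    have := hy i
    simp only [Pi.add_apply]
    omega
  rw [h4]
  exact add_mem hv h3

theorem odd_form_mem {x : GolayPt → ℤ} {α : Finset GolayPt} (h : IsForm x 1 α) : x ∈ M := by
  have hbase : IsForm (fun i : GolayPt => if i = none then (-3 : ℤ) else 1) 1 ∅ := by
    have hsum : ∀ f : ℤ, ∑ i : GolayPt, (if i = none then f else 1) = f + 23 := by
      intro f
      rw [← Finset.add_sum_erase Finset.univ _ (Finset.mem_univ (none : GolayPt))]
      have : ∑ x ∈ (Finset.univ : Finset GolayPt).erase none, (if x = none then f else 1) =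
          ∑ _x ∈ (Finset.univ : Finset GolayPt).erase none, (1 : ℤ) :=
        Finset.sum_congr rfl fun x hx => by simp [Finset.ne_of_mem_erase hx]
      rw [this, Finset.sum_const, Finset.card_erase_of_mem (Finset.mem_univ _), Finset.card_univ,
        card_golayPt]
      simp
    refine ⟨empty_mem_codeSets, fun k => ?_, ?_⟩
    · simp only [br, Finset.notMem_empty, if_false, Int.ModEq]
      by_cases h : k = none <;> simp [h]
    · simp only [Int.ModEq]
      rw [hsum]
      norm_num
  have h1 := h.add hbase.neg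
  have h2 : (1 : ℤ) + -1 = 0 := by norm_num
  rw [h2] at h1
  have h3 := even_mem h1
  have h4 := add_mem h3 base_odd_mem
  simpa using h4

/-- The rank-24 lattice is the additive subgroup generated by its 196560 minimal vectors. -/
theorem result : AddSubgroup.closure {x : Cfsg.GolayPt → ℤ | x ∈ Cfsg.leechLattice ∧ Cfsg.sqNorm x = 32} = Cfsg.leechLattice := by
  apply le_antisymm M_le
  intro x hx
  obtain ⟨m, α, h⟩ := mem_leechLattice_iff.1 hx
  obtain ⟨β, hβ | hβ⟩ := h.normal
  · exact even_mem hβ
  · exact odd_form_mem hβ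

end Cfsg.Agent.S1567
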