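import Cfsg.Statements.S5392
import Cfsg.Agent.Lib.MonsterTrans
import Cfsg.Agent.Lib.Co0Pair
import Cfsg.Agent.S1567

set_option autoImplicit false
open Cfsg

namespace Cfsg.Agent.S5392

open Cfsg.Agent.Lib.Leech Cfsg.Agent.Lib.Co0Mono Cfsg.Agent.Lib.Co0Xi Cfsg.Agent.Lib.Co0Frame
open Cfsg.Agent.Lib.Co0Stab2 Cfsg.Agent.Lib.LeechFourForm Cfsg.Agent.S0398 Cfsg.Agent.Lib.Co0Trans

/-- An octad through two points. -/
theorem t0_mem : t0 ∈ O0 := by decide +kernel
theorem t1_mem : t1 ∈ O0 := by decide +kernel
theorem O0_card : O0.card = 8 := by decide +kernel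

theorem octad_aux {O : Finset GolayPt} (hO : O ∈ codeSets) {p q : GolayPt} (hp : p ∈ O) (hq : q ∈ O)
    (hc : O.card = 8) (hpq : p ≠ q) {a b : GolayPt} (hab : a ≠ b) :
    ∃ B ∈ codeSets, a ∈ B ∧ b ∈ B ∧ B.card = 8 := by
  obtain ⟨g, hg0, hg1⟩ := Cfsg.Agent.Lib.M24Facts.exists_two hpq hab
  refine ⟨O.image g, image_mem_codeSets g.2 hO, ?_, ?_, ?_⟩
  · rw [← show (g : Equiv.Perm GolayPt) p = a from hg0]
    exact Finset.mem_image_of_mem _ hp
  · rw [← show (g : Equiv.Perm GolayPt) q = b from hg1]
    exact Finset.mem_image_of_mem _ hq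
  · rw [Finset.card_image_of_injective _ (g : Equiv.Perm GolayPt).injective, hc]

theorem exists_octad {a b : GolayPt} (hab : a ≠ b) : ∃ B ∈ codeSets, a ∈ B ∧ b ∈ B ∧ B.card = 8 :=
  octad_aux O0_mem t0_mem t1_mem O0_card t_ne.1 hab

/-- The kernel of the action modulo twice the lattice. -/
theorem kernel_part (g : Co0) (hg : ∀ v : leechLattice, ∃ w : leechLattice,
    (((g : Equiv.Perm leechLattice) v : leechLattice) : GolayPt → ℤ) - (v : GolayPt → ℤ) = 2 • (w : GolayPt → ℤ)) :
    g = 1 ∨ g = negCo0 := by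
  classical
  have hcong : ∀ v : leechLattice, ∃ u : leechLattice, (g : Equiv.Perm leechLattice) v = v + (u + u) := by
    intro v
    obtain ⟨w, hw⟩ := hg v
    refine ⟨w, Subtype.ext ?_⟩
    have h1 : (((g : Equiv.Perm leechLattice) v : leechLattice) : GolayPt → ℤ) = (v : GolayPt → ℤ) + 2 • (w : GolayPt → ℤ) := by
      rw [← hw]
      abel
    rw [h1, two_nsmul]
    rfl
  obtain ⟨u, hu⟩ := hcong (e8 none)
  obtain ⟨c, σ, hc, hσ, rfl⟩ := exists_mono_of_cong hu
  have hσ1 : σ = 1 := by
    ext a
    have key : σ⁻¹ a = a := by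
      by_contra hk
      obtain ⟨b, hb1, hb2⟩ : ∃ b : GolayPt, b ≠ a ∧ b ≠ σ⁻¹ a := by
        by_contra hcon
        push Not at hcon
        have h2 : (Finset.univ : Finset GolayPt) ⊆ {a, σ⁻¹ a} := by
          intro i _
          by_cases h3 : i = a
          · simp [h3]
          simp [hcon i h3]
        have h3 := Finset.card_le_card h2
        rw [Finset.card_univ, card_golayPt] at h3
        have h4 : ({a, σ⁻¹ a} : Finset GolayPt).card ≤ 2 := Finset.card_le_two
        omega
      obtain ⟨u', hu'⟩ := hcong (uab a b)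
      have h5 := pm_of_cong (sqNorm_uab (Ne.symm hb1))
        (by rw [(monoCo0 hc hσ).2.2]; exact sqNorm_uab (Ne.symm hb1)) hu'
      have h6 : (((monoCo0 hc hσ : Co0) : Equiv.Perm leechLattice) (uab a b) : GolayPt → ℤ) (σ⁻¹ a) ^ 2 = 16 := by
        rw [monoCo0_apply, mono_apply]
        have h7 : σ (σ⁻¹ a) = a := by simp
        rw [h7, uab_apply, if_pos rfl, if_neg (Ne.symm hb1)]
        split_ifs <;> norm_num
      have h8 : (uab a b : GolayPt → ℤ) (σ⁻¹ a) = 0 := by
        rw [uab_apply, if_neg hk, if_neg (Ne.symm hb2)]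
        norm_num
      rcases h5 with h5 | h5
      · rw [h5, h8] at h6
        norm_num at h6
      · rw [h5] at h6
        have h9 : ((-uab a b : leechLattice) : GolayPt → ℤ) (σ⁻¹ a) = -(uab a b : GolayPt → ℤ) (σ⁻¹ a) := rfl
        rw [h9, h8] at h6
        norm_num at h6
    have h3 : σ (σ⁻¹ a) = a := by simp
    rw [key] at h3
    rw [h3]
    rfl
  subst hσ1
  have hc2 : c = ∅ ∨ c = Finset.univ := by
    by_contra hcon
    push Not at hcon
    obtain ⟨a, ha⟩ := hcon.1
    obtain ⟨b, hb⟩ : ∃ b, b ∉ c := by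
      by_contra h
      push Not at h
      exact hcon.2 (Finset.eq_univ_iff_forall.2 h)
    have hab : a ≠ b := fun e => hb (e ▸ ha)
    obtain ⟨B, hB, h1, h2, h3⟩ := exists_octad hab
    obtain ⟨w, hw⟩ := hg (twoB hB)
    have hw2 : ∀ k, (w : GolayPt → ℤ) k = if k ∈ c ∧ k ∈ B then -2 else 0 := by
      intro k
      have h4 := congrFun hw k
      rw [monoCo0_apply] at h4
      have h4' : mono c 1 (twoB hB : GolayPt → ℤ) k - (twoB hB : GolayPt → ℤ) k = 2 * (w : GolayPt → ℤ) k := by
        simp only [Pi.sub_apply, Pi.smul_apply, nsmul_eq_mul, Nat.cast_ofNat] at h4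
        exact h4
      rw [mono_apply, twoB_apply] at h4'
      simp only [Equiv.Perm.one_apply, twoB_apply] at h4'
      by_cases h5 : k ∈ c <;> by_cases h6 : k ∈ B <;> simp only [h5, h6, if_true, if_false, and_self, and_true, and_false, true_and, false_and] at h4' ⊢ <;> omega
    have hw3 := w.2
    rw [mem_leechLattice_iff_leechSet] at hw3
    obtain ⟨m, -, -, hm⟩ := hw3
    have h7 := hm 2
    have h8 : (Finset.univ.filter fun i => (w : GolayPt → ℤ) i ≡ 2 [ZMOD 4]) = c ∩ B := by
      ext k
      rw [Finset.mem_filter, Finset.mem_inter, hw2]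
      simp only [Finset.mem_univ, true_and, Int.ModEq]
      split_ifs with h9
      · simp [h9]
      · simp [h9]
    rw [h8] at h7
    have h9 := Cfsg.Agent.Lib.GolayBits.card_of_mem_supports h7
    have h10 : c ∩ B ⊂ B := by
      refine ⟨Finset.inter_subset_right, fun h => hb (Finset.mem_inter.1 (h h2)).1⟩
    have h11 := Finset.card_lt_card h10
    have h12 : (c ∩ B).card ≠ 0 := by
      apply Finset.card_ne_zero.2
      exact ⟨a, Finset.mem_inter.2 ⟨ha, h1⟩⟩
    omega
  rcases hc2 with rfl | rfl
  · left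
    exact monoCo0_one
  · right
    exact neg_eq_monoCo0.symm

/-- Auxiliary vectors. -/
def a48 : GolayPt → ℤ := fun k => w0 k - ((if k = none then 4 else 0) - (if k = some 0 then 4 else 0))

theorem a48_norm : sqNorm a48 = 48 := by decide +kernel

theorem w0_norm : sqNorm w0 = 48 := by decide +kernel

def a64 : GolayPt → ℤ := fun k => vf none (some 0) k + vf (some 1) (some 2) k
def b64 : GolayPt → ℤ := fun k => vf none (some 0) k + vf (some 1) (some 3) k

theorem a64_norm : sqNorm a64 = 64 := by decide +kernel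
theorem b64_norm : sqNorm b64 = 64 := by decide +kernel

/-- A submodule containing a short vector is everything. -/
theorem eq_of_short (M : AddSubgroup (GolayPt → ℤ)) (hM : M ≤ leechLattice)
    (hinv : ∀ g : Co0, ∀ v : leechLattice, (v : GolayPt → ℤ) ∈ M → ((g • v : leechLattice) : GolayPt → ℤ) ∈ M)
    {y : leechLattice} (hy : sqNorm (y : GolayPt → ℤ) = 32) (hyM : (y : GolayPt → ℤ) ∈ M) : M = leechLattice := by
  apply le_antisymm hM
  rw [← Cfsg.Agent.S1567.result, AddSubgroup.closure_le]
  rintro x ⟨hx, hxn⟩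
  obtain ⟨g, hg⟩ := trans32 y ⟨x, hx⟩ hy hxn
  have := hinv g y hyM
  rw [hg] at this
  exact this


/-- The Leech lattice modulo twice itself is a faithful irreducible module for the first Conway group: an automorphism of the rank-24 lattice built from the length-24 code that moves every lattice vector only by twice a lattice vector lies in the centre of the automorphism group (the centre consists of ±1, which act trivially there, so the kernel is exactly the centre), and an additive subgroup lying between twice the lattice and the lattice that is invariant under all lattice automorphisms is one of the two. -/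
theorem result : (∀ g : ↥Cfsg.Co0, (∀ v : ↥Cfsg.leechLattice, ∃ w : ↥Cfsg.leechLattice, ((g • v : ↥Cfsg.leechLattice) : Cfsg.GolayPt → ℤ) - (v : Cfsg.GolayPt → ℤ) = 2 • (w : Cfsg.GolayPt → ℤ)) → g ∈ Subgroup.center ↥Cfsg.Co0) ∧ ∀ M : AddSubgroup (Cfsg.GolayPt → ℤ), (∀ v ∈ Cfsg.leechLattice, (2 : ℤ) • v ∈ M) → M ≤ Cfsg.leechLattice → (∀ g : ↥Cfsg.Co0, ∀ v : ↥Cfsg.leechLattice, (v : Cfsg.GolayPt → ℤ) ∈ M → ((g • v : ↥Cfsg.leechLattice) : Cfsg.GolayPt → ℤ) ∈ M) → (∀ x ∈ M, ∃ w ∈ Cfsg.leechLattice, x = (2 : ℤ) • w) ∨ M = Cfsg.leechLattice := by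
  refine ⟨?_, ?_⟩
  · intro g hg
    rcases kernel_part g hg with rfl | rfl
    · exact Subgroup.one_mem _
    · exact neg_center
  · intro M h2 hM hinv
    by_cases hall : ∀ x ∈ M, ∃ w ∈ leechLattice, x = (2 : ℤ) • w
    · exact Or.inl hall
    right
    push Not at hall
    obtain ⟨x, hxM, hx⟩ := hall
    have hxL := hM hxM
    have hnd : ¬ ∃ u : leechLattice, (⟨x, hxL⟩ : leechLattice) = u + u := by
      rintro ⟨u, hu⟩
      apply hx u u.2
      have := congrArg Subtype.val hu
      simp only [AddSubgroup.coe_add] at this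
      rw [this, two_smul]
    obtain ⟨y, u, hyu, hy⟩ := Cfsg.Agent.Lib.MonsterMain.exists_short hnd
    have hyM : (y : GolayPt → ℤ) ∈ M := by
      have h3 : (y : GolayPt → ℤ) = x - (2 : ℤ) • (u : GolayPt → ℤ) := by
        have := congrArg Subtype.val hyu
        simp only [AddSubgroup.coe_add] at this
        rw [this, two_smul]
        abel
      rw [h3]
      exact M.sub_mem hxM (h2 _ u.2)
    have t := t_ne
    obtain ⟨t01, -⟩ := t
    rcases hy with hy | hy | hy
    · exact eq_of_short M hM hinv hy hyM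
    · -- two vectors of length 48 with a short difference
      have hne : (none : GolayPt) ≠ some 0 := by decide
      set a : leechLattice := w48 with ha
      set b : leechLattice := w48 - uab none (some 0) with hb
      have hbf : (b : GolayPt → ℤ) = a48 := by
        funext k
        show w0 k - (uab none (some 0) : GolayPt → ℤ) k = a48 k
        rw [uab_apply]
        rfl
      have ha2 : sqNorm (a : GolayPt → ℤ) = 48 := w0_norm
      have hb2 : sqNorm (b : GolayPt → ℤ) = 48 := by rw [hbf]; exact a48_norm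
      obtain ⟨g, hg⟩ := trans48 y a hy ha2
      obtain ⟨k, hk⟩ := trans48 y b hy hb2
      have h3 := hinv g y hyM
      have h4 := hinv k y hyM
      rw [hg] at h3
      rw [hk] at h4
      have h5 := M.sub_mem h3 h4
      have h6 : (a : GolayPt → ℤ) - (b : GolayPt → ℤ) = (uab none (some 0) : GolayPt → ℤ) := by
        rw [hb]
        simp only [AddSubgroup.coe_sub]
        abel
      rw [h6] at h5
      exact eq_of_short M hM hinv (sqNorm_uab hne) h5
    · have hne : (some 2 : GolayPt) ≠ some 3 := by decide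
      set a : leechLattice := vec none (some 0) + vec (some 1) (some 2) with ha
      set b : leechLattice := vec none (some 0) + vec (some 1) (some 3) with hb
      have ha2 : sqNorm (a : GolayPt → ℤ) = 64 := a64_norm
      have hb2 : sqNorm (b : GolayPt → ℤ) = 64 := b64_norm
      obtain ⟨g, hg⟩ := trans64 y a hy ha2
      obtain ⟨k, hk⟩ := trans64 y b hy hb2
      have h3 := hinv g y hyM
      have h4 := hinv k y hyM
      rw [hg] at h3
      rw [hk] at h4
      have h5 := M.sub_mem h3 h4
      have h6 : (a : GolayPt → ℤ) - (b : GolayPt → ℤ) = (uab (some 2) (some 3) : GolayPt → ℤ) := by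
        funext p
        rw [uab_apply]
        show (vf none (some 0) p + vf (some 1) (some 2) p) - (vf none (some 0) p + vf (some 1) (some 3) p) = _
        simp only [vf]
        ring
      rw [h6] at h5
      exact eq_of_short M hM hinv (sqNorm_uab hne) h5

end Cfsg.Agent.S5392
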