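import Cfsg.Statements.S5552
import Cfsg.Agent.Lib.MonsterTrans
import Cfsg.Agent.S5392

set_option autoImplicit false
open Cfsg

namespace Cfsg.Agent.S5552

open Cfsg.Agent.Lib.Leech Cfsg.Agent.Lib.Co0Mono Cfsg.Agent.Lib.Co0Xi Cfsg.Agent.Lib.Co0Frame
open Cfsg.Agent.Lib.Co0Stab2 Cfsg.Agent.Lib.LeechFourForm Cfsg.Agent.S0398 Cfsg.Agent.Lib.Co0Trans
open Cfsg.Agent.Lib.MonsterMain Cfsg.Agent.Lib.MonsterTrans

/-- An auxiliary vector. -/
def c32 : GolayPt → ℤ := fun k => w0 k - vf none (some 0) k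

theorem c32_norm : sqNorm c32 = 32 := by decide +kernel

/-- `2 * x = 0` in characteristic two. -/
theorem cast_eq_of_even {a b : ℤ} (h : (2 : ℤ) ∣ b - a) : (a : ZMod 2) = b :=
  (ZMod.intCast_eq_intCast_iff_dvd_sub a b 2).2 (by exact_mod_cast h)

theorem dot8 {x y : GolayPt → ℤ} (hx : x ∈ leechLattice) (hy : y ∈ leechLattice) : (8 : ℤ) ∣ dotInt x y := by
  have h1 := Cfsg.Agent.Lib.Co0Mod.sqNorm_add' x y
  obtain ⟨a, ha⟩ := sqNorm_dvd hx
  obtain ⟨b, hb⟩ := sqNorm_dvd hy
  obtain ⟨c, hc⟩ := sqNorm_dvd (leechLattice.add_mem hx hy)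
  refine ⟨c - a - b, ?_⟩
  rw [ha, hb, hc] at h1
  linarith

theorem norm_class (v u : leechLattice) :
    (((sqNorm ((v + (u + u) : leechLattice) : GolayPt → ℤ) / 16 : ℤ)) : ZMod 2) =
      ((sqNorm (v : GolayPt → ℤ) / 16 : ℤ) : ZMod 2) := by
  apply cast_eq_of_even
  have h1 : sqNorm ((v + (u + u) : leechLattice) : GolayPt → ℤ) = sqNorm (v : GolayPt → ℤ) +
      4 * sqNorm (u : GolayPt → ℤ) + 4 * dotInt (v : GolayPt → ℤ) (u : GolayPt → ℤ) := by
    have h2 := Cfsg.Agent.Lib.Co0Mod.sqNorm_add' (v : GolayPt → ℤ) ((u + u : leechLattice) : GolayPt → ℤ)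
    have h3 := Cfsg.Agent.Lib.Co0Mod.sqNorm_add' (u : GolayPt → ℤ) (u : GolayPt → ℤ)
    have h4 : dotInt (u : GolayPt → ℤ) (u : GolayPt → ℤ) = sqNorm (u : GolayPt → ℤ) :=
      Cfsg.Agent.Lib.LeechClasses.dotInt_self _
    have h5 : dotInt (v : GolayPt → ℤ) ((u + u : leechLattice) : GolayPt → ℤ) =
        2 * dotInt (v : GolayPt → ℤ) (u : GolayPt → ℤ) := by
      unfold dotInt
      rw [Finset.mul_sum]
      apply Finset.sum_congr rfl
      intro i _
      show (v : GolayPt → ℤ) i * ((u : GolayPt → ℤ) i + (u : GolayPt → ℤ) i) = _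
      ring
    have h6 : ((v + (u + u) : leechLattice) : GolayPt → ℤ) = (v : GolayPt → ℤ) + ((u + u : leechLattice) : GolayPt → ℤ) := rfl
    have h7 : ((u + u : leechLattice) : GolayPt → ℤ) = (u : GolayPt → ℤ) + (u : GolayPt → ℤ) := rfl
    rw [h6, h2, h5, h7, h3, h4]
    ring
  obtain ⟨a, ha⟩ := sqNorm_dvd v.2
  obtain ⟨b, hb⟩ := sqNorm_dvd u.2
  obtain ⟨c, hc⟩ := dot8 v.2 u.2
  rw [h1, ha, hb, hc]
  have h8 : (16 * a + 4 * (16 * b) + 4 * (8 * c)) / 16 = a + 4 * b + 2 * c := by omega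
  have h9 : 16 * a / 16 = a := by omega
  rw [h8, h9]
  exact ⟨-2 * b - c, by ring⟩


/-- On the Leech lattice of the definitions, let Q be a function to the field with two elements that is constant on cosets of twice the lattice, is a quadratic form there (Q(u+v+w) + Q(u) + Q(v) + Q(w) = Q(u+v) + Q(u+w) + Q(v+w) for all u, v, w), is invariant under every lattice automorphism, and is not identically zero. Then Q(v) is the squared length of v divided by 16, reduced modulo 2, for every lattice vector v (squared lengths of lattice vectors are multiples of 16). -/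
theorem result (Q : ↥Cfsg.leechLattice → ZMod 2) (hcoset : ∀ v w : ↥Cfsg.leechLattice, Q (v + (w + w)) = Q v) (hquad : ∀ u v w : ↥Cfsg.leechLattice, Q (u + v + w) + Q u + Q v + Q w = Q (u + v) + Q (u + w) + Q (v + w)) (hinv : ∀ (g : ↥Cfsg.Co0) (v : ↥Cfsg.leechLattice), Q (g • v) = Q v) (hne : ∃ v : ↥Cfsg.leechLattice, Q v ≠ 0) (v : ↥Cfsg.leechLattice) : Q v = ((Cfsg.sqNorm (v : Cfsg.GolayPt → ℤ) / 16 : ℤ) : ZMod 2) := by
  have char2 : ∀ a : ZMod 2, a + a = 0 := CharTwo.add_self_eq_zero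
  have h00 : Q 0 = 0 := by
    have h := hquad 0 0 0
    simp only [add_zero] at h
    have h1 := char2 (Q 0)
    linear_combination h - 2 * (Q 0) * 1 + h1 * 1 - h1
  have hself : ∀ w, Q (w + w) = 0 := by
    intro w
    have h := hcoset 0 w
    rw [zero_add] at h
    rw [h, h00]
  have hf : IsInvForm Q (fun v w => Q (v + w) + Q v + Q w) := by
    refine ⟨?_, ?_, ?_, ?_, ?_⟩
    · intro v w
      have h1 := char2 (Q v)
      have h2 := char2 (Q w)
      show Q (v + w) = Q v + Q w + (Q (v + w) + Q v + Q w)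
      linear_combination - h1 - h2
    · intro u v w
      have h := hquad u v w
      have h1 := char2 (Q u)
      have h2 := char2 (Q v)
      have h3 := char2 (Q w)
      have h4 := char2 (Q (v + w))
      show Q (u + (v + w)) + Q u + Q (v + w) = Q (u + v) + Q u + Q v + (Q (u + w) + Q u + Q w)
      rw [← add_assoc]
      linear_combination h + h4 - h1 - h2 - h3 
    · intro v w
      show Q (v + w) + Q v + Q w = Q (w + v) + Q w + Q v
      rw [add_comm v w]
      ring
    · intro v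
      show Q (v + v) + Q v + Q v = 0
      rw [hself, zero_add]
      exact char2 _
    · intro g v
      exact hinv g v
  have T := coTrans
  have hb : ∃ x y : leechLattice, Q (x + y) + Q x + Q y ≠ 0 := by
    by_contra hcon
    push Not at hcon
    have hadd : ∀ x y : leechLattice, Q (x + y) = Q x + Q y := by
      intro x y
      have h1 := hcon x y
      have h2 := char2 (Q x)
      have h3 := char2 (Q y)
      linear_combination h1 - h2 - h3
    have h48 : ∀ w : leechLattice, sqNorm (w : GolayPt → ℤ) = 48 → Q w = 0 := by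
      intro w hw
      have hne : (none : GolayPt) ≠ some 0 := by decide
      obtain ⟨g, hg⟩ := T.t48 w Cfsg.Agent.Lib.Co0Trans.w48 hw Cfsg.Agent.S5392.w0_norm
      have h1 := hinv g w
      rw [show g • w = Cfsg.Agent.Lib.Co0Trans.w48 from hg] at h1
      rw [← h1]
      have h2 : Cfsg.Agent.Lib.Co0Trans.w48 = vec none (some 0) + (Cfsg.Agent.Lib.Co0Trans.w48 - vec none (some 0)) := by abel
      rw [h2, hadd]
      have h3 : sqNorm (((Cfsg.Agent.Lib.Co0Trans.w48 - vec none (some 0) : leechLattice)) : GolayPt → ℤ) = 32 := by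
        have hbf : ((Cfsg.Agent.Lib.Co0Trans.w48 - vec none (some 0) : leechLattice) : GolayPt → ℤ) = c32 := rfl
        rw [hbf]
        exact c32_norm
      rw [q32 hf T h3, q32 hf T (sqNorm_vec hne)]
      rfl
    obtain ⟨x, hx⟩ := hne
    apply hx
    by_cases hv : ∃ u : leechLattice, x = u + u
    · obtain ⟨u, rfl⟩ := hv
      exact hself u
    · obtain ⟨w', u, rfl, h1 | h1 | h1⟩ := exists_short hv
      · rw [hcoset, q32 hf T h1]
      · rw [hcoset, h48 _ h1]
      · rw [hcoset, q64 hf T h1]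
  by_cases hv : ∃ u : leechLattice, v = u + u
  · obtain ⟨u, rfl⟩ := hv
    have h1 := norm_class 0 u
    rw [zero_add] at h1
    rw [hself, h1]
    have h2 : sqNorm ((0 : leechLattice) : GolayPt → ℤ) = 0 := by
      simp [sqNorm]
    rw [h2]
    rfl
  · obtain ⟨w', u, rfl, h1 | h1 | h1⟩ := exists_short hv
    · rw [hcoset, norm_class, q32 hf T h1, h1]
      rfl
    · rw [hcoset, norm_class, h1]
      have h2 := q48_aux hf T hb h1
      have h3 : ∀ a : ZMod 2, a ≠ 0 → a = 1 := by decide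
      rw [h3 _ h2]
      rfl
    · rw [hcoset, norm_class, q64 hf T h1, h1]
      rfl

end Cfsg.Agent.S5552
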