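import Mathlib
import Cfsg.Agent.Lib.HJCore
import Cfsg.Agent.Lib.ThompsonOrder
import Cfsg.Agent.Lib.LocalCore
import Cfsg.Agent.Lib.Frat
import Cfsg.Agent.Lib.PCore
import Cfsg.Statements.S3313

set_option autoImplicit false
set_option linter.all false

open Cfsg

namespace Cfsg.Agent.S3313

open Cfsg.Agent.Lib.HJCore Cfsg.Agent.Lib.PCore Cfsg.Agent.Lib.LocalCore

section Abstract

variable {C : Type*} [Group C] [Finite C]

/-- The structure of the core of a group with an extraspecial generalized Fitting subgroup and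
a central involution. -/
theorem core_facts {z₀ : C} (hz1 : z₀ ≠ 1) (hz2 : z₀ * z₀ = 1) (hzc : ∀ g : C, g * z₀ = z₀ * g)
    (hex : IsExtraspecial 2 ↥(generalizedFittingSubgroup C)) :
    pCore 2 C = generalizedFittingSubgroup C ∧ z₀ ∈ pCore 2 C ∧
    (∀ x ∈ pCore 2 C, x * x = 1 ∨ x * x = z₀) ∧
    (∀ x ∈ pCore 2 C, ∀ y ∈ pCore 2 C, x * y = y * x ∨ x * y = z₀ * (y * x)) ∧
    (∀ x ∈ pCore 2 C, x ≠ 1 → x ≠ z₀ → ∃ y ∈ pCore 2 C, x * y ≠ y * x) ∧
    (∀ g : C, (∀ x ∈ pCore 2 C, g * x = x * g) → g ∈ pCore 2 C) := by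
  haveI : Fact (Nat.Prime 2) := ⟨Nat.prime_two⟩
  have hle1 : generalizedFittingSubgroup C ≤ pCore 2 C :=
    le_pCore inferInstance hex.1.1
  have hle2 : pCore 2 C ≤ generalizedFittingSubgroup C :=
    (pCore_le_fittingSubgroup 2).trans fitting_le_generalizedFitting
  have heq : pCore 2 C = generalizedFittingSubgroup C := le_antisymm hle2 hle1
  have hzm : z₀ ∈ pCore 2 C := by
    have hn : (Subgroup.zpowers z₀).Normal := by
      constructor
      intro n hn g
      obtain ⟨k, rfl⟩ := Subgroup.mem_zpowers_iff.1 hn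
      have : g * z₀ ^ k * g⁻¹ = z₀ ^ k := by
        have hc : Commute g z₀ := hzc g
        rw [(hc.zpow_right k).eq]
        group
      rw [this]
      exact Subgroup.zpow_mem_zpowers z₀ k
    have hp : IsPGroup 2 (Subgroup.zpowers z₀) := by
      intro x
      refine ⟨1, ?_⟩
      obtain ⟨y, hy⟩ := x
      obtain ⟨k, rfl⟩ := Subgroup.mem_zpowers_iff.1 hy
      apply Subtype.ext
      show (z₀ ^ k) ^ (2 ^ 1) = 1
      rw [← zpow_natCast, ← zpow_mul, mul_comm, zpow_mul]
      simp [pow_two, hz2]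
    exact le_pCore hn hp (Subgroup.mem_zpowers z₀)
  rw [← heq] at hex
  obtain ⟨⟨hpg, hfr, hcomm⟩, hcard⟩ := hex
  let z' : ↥(pCore 2 C) := ⟨z₀, hzm⟩
  have hz'c : z' ∈ Subgroup.center ↥(pCore 2 C) := by
    rw [Subgroup.mem_center_iff]
    intro g
    exact Subtype.ext (hzc g.1)
  have hcen : ∀ w : ↥(pCore 2 C), w ∈ Subgroup.center ↥(pCore 2 C) → w = 1 ∨ w = z' := by
    intro w hw
    by_contra hne
    push Not at hne
    classical
    haveI : Fintype (Subgroup.center ↥(pCore 2 C)) := Fintype.ofFinite _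
    have hz'ne : z' ≠ 1 := fun e => hz1 (congrArg Subtype.val e)
    have hT : ({1, ⟨z', hz'c⟩, ⟨w, hw⟩} : Finset (Subgroup.center ↥(pCore 2 C))).card = 3 := by
      rw [Finset.card_insert_of_notMem, Finset.card_insert_of_notMem, Finset.card_singleton]
      · simp only [Finset.mem_singleton]
        intro e
        exact hne.2 (congrArg Subtype.val e).symm
      · simp only [Finset.mem_insert, Finset.mem_singleton, not_or]
        refine ⟨?_, ?_⟩
        · intro e
          exact hz'ne (congrArg Subtype.val e).symm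
        · intro e
          exact hne.1 (congrArg Subtype.val e).symm
    have := Finset.card_le_univ ({1, ⟨z', hz'c⟩, ⟨w, hw⟩} : Finset (Subgroup.center ↥(pCore 2 C)))
    rw [hT, ← Nat.card_eq_fintype_card, hcard] at this
    omega
  refine ⟨heq, hzm, ?_, ?_, ?_, ?_⟩
  · intro x hx
    have h1 : (⟨x, hx⟩ : ↥(pCore 2 C)) ^ 2 ∈ Subgroup.center ↥(pCore 2 C) := by
      rw [← hfr]
      exact Cfsg.Agent.Lib.Frat.pow_mem_frattini hpg _
    rcases hcen _ h1 with e | e
    · left
      have := congrArg Subtype.val e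
      simpa [pow_two] using this
    · right
      have := congrArg Subtype.val e
      simpa [pow_two, z'] using this
  · intro x hx y hy
    have h1 : (⟨x, hx⟩ : ↥(pCore 2 C))⁻¹ * (⟨y, hy⟩ : ↥(pCore 2 C))⁻¹ * ⟨x, hx⟩ * ⟨y, hy⟩
        ∈ Subgroup.center ↥(pCore 2 C) := by
      rw [← hcomm]
      have := Subgroup.commutator_mem_commutator (Subgroup.mem_top (⟨x, hx⟩ : ↥(pCore 2 C))⁻¹)
        (Subgroup.mem_top (⟨y, hy⟩ : ↥(pCore 2 C))⁻¹)
      simpa [commutatorElement_def, commutator_def] using this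
    have e2 : x⁻¹ * y⁻¹ * x * y = 1 ∨ x⁻¹ * y⁻¹ * x * y = z₀ := by
      rcases hcen _ h1 with e | e
      · left
        have := congrArg Subtype.val e
        simpa using this
      · right
        have := congrArg Subtype.val e
        simpa [z'] using this
    rcases e2 with e | e
    · left
      calc x * y = (y * x) * (x⁻¹ * y⁻¹ * x * y) := by group
        _ = y * x := by rw [e, mul_one]
    · right
      calc x * y = (y * x) * (x⁻¹ * y⁻¹ * x * y) := by group
        _ = (y * x) * z₀ := by rw [e]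
        _ = z₀ * (y * x) := hzc _
  · intro x hx h1 h2
    by_contra hall
    push Not at hall
    have : (⟨x, hx⟩ : ↥(pCore 2 C)) ∈ Subgroup.center ↥(pCore 2 C) := by
      rw [Subgroup.mem_center_iff]
      intro g
      exact Subtype.ext (hall g.1 g.2).symm
    rcases hcen _ this with e | e
    · exact h1 (congrArg Subtype.val e)
    · exact h2 (congrArg Subtype.val e)
  · intro g hg
    rw [heq]
    apply centralizer_generalizedFitting_le
    rw [Subgroup.mem_centralizer_iff]
    intro x hx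
    rw [← heq] at hx
    exact (hg x hx).symm

end Abstract

variable {G : Type*} [Group G]

theorem commute_of_inv {a b y : G} (ha : a * a = 1) (hb : b * b = 1) (hy : y * y = 1)
    (hmem : y ∈ Subgroup.zpowers (a * b)) : a * y = y * a ∧ b * y = y * b := by
  obtain ⟨n, rfl⟩ := Subgroup.mem_zpowers_iff.1 hmem
  have hai : a⁻¹ = a := inv_eq_of_mul_eq_one_left ha
  have hbi : b⁻¹ = b := inv_eq_of_mul_eq_one_left hb
  have hyi : ((a * b) ^ n)⁻¹ = (a * b) ^ n := inv_eq_of_mul_eq_one_left hy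
  have e1 : a * (a * b) * a⁻¹ = (a * b)⁻¹ := by
    rw [mul_inv_rev, hai, hbi, ← mul_assoc, ha, one_mul]
  have e2 : b * (a * b) * b⁻¹ = (a * b)⁻¹ := by
    calc b * (a * b) * b⁻¹ = b * a := by group
      _ = (a * b)⁻¹ := by rw [mul_inv_rev, hai, hbi]
  have e3 : a * (a * b) ^ n * a⁻¹ = (a * b) ^ n := by
    rw [← conj_zpow, e1, inv_zpow, hyi]
  have e4 : b * (a * b) ^ n * b⁻¹ = (a * b) ^ n := by
    rw [← conj_zpow, e2, inv_zpow, hyi]
  constructor
  · calc a * (a * b) ^ n = (a * (a * b) ^ n * a⁻¹) * a := by group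
      _ = (a * b) ^ n * a := by rw [e3]
  · calc b * (a * b) ^ n = (b * (a * b) ^ n * b⁻¹) * b := by group
      _ = (a * b) ^ n * b := by rw [e4]

theorem sup_decomp {V B : Subgroup G} (hc : ∀ a ∈ V, ∀ b ∈ B, a * b = b * a) {x : G}
    (hx : x ∈ V ⊔ B) : ∃ w ∈ V, ∃ b ∈ B, x = w * b := by
  rw [Subgroup.sup_eq_closure] at hx
  induction hx using Subgroup.closure_induction with
  | mem x hx =>
    rcases hx with hx | hx
    · exact ⟨x, hx, 1, B.one_mem, by simp⟩
    · exact ⟨1, V.one_mem, x, hx, by simp⟩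
  | one => exact ⟨1, V.one_mem, 1, B.one_mem, by simp⟩
  | mul x y _ _ h1 h2 =>
    obtain ⟨w, hw, b, hb, rfl⟩ := h1
    obtain ⟨w', hw', b', hb', rfl⟩ := h2
    refine ⟨w * w', V.mul_mem hw hw', b * b', B.mul_mem hb hb', ?_⟩
    have := hc w' hw' b hb
    calc w * b * (w' * b') = w * (b * w') * b' := by group
      _ = w * (w' * b) * b' := by rw [this]
      _ = w * w' * (b * b') := by group
  | inv x _ h1 =>
    obtain ⟨w, hw, b, hb, rfl⟩ := h1
    refine ⟨w⁻¹, V.inv_mem hw, b⁻¹, B.inv_mem hb, ?_⟩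
    have := hc w⁻¹ (V.inv_mem hw) b⁻¹ (B.inv_mem hb)
    rw [mul_inv_rev, this]

set_option maxRecDepth 100000 in
theorem pair_count_A5 : Nat.card {p : alternatingGroup (Fin 5) × alternatingGroup (Fin 5) //
    p.1 * p.1 = 1 ∧ p.1 ≠ 1 ∧ p.2 * p.2 = 1 ∧ (p.1 * p.2) ^ 15 = 1} = 195 := by
  rw [Nat.card_eq_fintype_card, Fintype.card_subtype]
  decide +kernel

theorem order_conj {a b : G} (h : IsConj a b) : orderOf a = orderOf b := by
  obtain ⟨c, rfl⟩ := isConj_iff.1 h
  exact (orderOf_injective (MulAut.conj c).toMonoidHom (MulEquiv.injective _) a).symm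

theorem order_two {x : G} (h1 : x * x = 1) (h2 : x ≠ 1) : orderOf x = 2 :=
  orderOf_eq_prime (by rwa [pow_two]) h2

theorem sq_of_order {x : G} (h : orderOf x = 2) : x * x = 1 := by
  rw [← pow_two, ← h]; exact pow_orderOf_eq_one x

/-- The count of pairs for the second class. -/
theorem count_t [Finite G] {z t : G} (hz : orderOf z = 2) (hzt : ¬ IsConj z t) (ht : orderOf t = 2)
    (V B : Subgroup G) (hVB : Cfsg.IsInternalDirectProduct V B (Subgroup.centralizer ({t} : Set G)))
    (hV2 : ∀ v ∈ V, v ^ 2 = 1) (htV : t ∈ V) (hB : Nonempty (↥B ≃* alternatingGroup (Fin 5)))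
    (hBz : ∀ x ∈ B, orderOf x = 2 → IsConj x z)
    (hCt : ∀ x ∈ Subgroup.centralizer ({t} : Set G), orderOf x = 2 → x ∉ B → IsConj x t) :
    Nat.card {p : G × G // IsConj z p.1 ∧ IsConj t p.2 ∧ t ∈ Subgroup.zpowers (p.1 * p.2)} = 195 := by
  obtain ⟨hVC, hBC, hcomm, hinf, hsup⟩ := hVB
  obtain ⟨eB⟩ := hB
  have htt : t * t = 1 := sq_of_order ht
  have ht1 : t ≠ 1 := by
    rintro rfl
    simp at ht
  have htB : t ∉ B := by
    intro h
    have : t ∈ V ⊓ B := ⟨htV, h⟩
    rw [hinf, Subgroup.mem_bot] at this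
    exact ht1 this
  have hcardB : Nat.card B = 60 := by rw [Nat.card_congr eB.toEquiv, card_A5]
  have hcount : Nat.card {p : B × B // p.1 * p.1 = 1 ∧ p.1 ≠ 1 ∧ p.2 * p.2 = 1 ∧ (p.1 * p.2) ^ 15 = 1}
      = 195 := by
    rw [← pair_count_A5]
    apply Nat.card_congr
    apply (eB.toEquiv.prodCongr eB.toEquiv).subtypeEquiv
    rintro ⟨a, b⟩
    simp only [Equiv.prodCongr_apply, Prod.map, MulEquiv.toEquiv_eq_coe, EquivLike.coe_coe,
      ← map_mul, ← map_pow, EmbeddingLike.map_eq_one_iff, ne_eq]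
  have htc : ∀ b ∈ B, t * b = b * t := fun b hb => hcomm t htV b hb
  have hinto : ∀ p : {p : B × B // p.1 * p.1 = 1 ∧ p.1 ≠ 1 ∧ p.2 * p.2 = 1 ∧ (p.1 * p.2) ^ 15 = 1},
      IsConj z p.1.1.1 ∧ IsConj t (t * p.1.2.1) ∧ t ∈ Subgroup.zpowers (p.1.1.1 * (t * p.1.2.1)) := by
    rintro ⟨⟨a, b⟩, h1, h2, h3, h4⟩
    simp only at h1 h2 h3 h4 ⊢
    have h1' : (a : G) * a = 1 := congrArg Subtype.val h1
    have h2' : (a : G) ≠ 1 := fun e => h2 (Subtype.ext e)
    have h3' : (b : G) * b = 1 := congrArg Subtype.val h3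
    refine ⟨(hBz a a.2 (order_two h1' h2')).symm, ?_, ?_⟩
    · have hv2 : (t * b : G) * (t * b) = 1 := by
        calc (t * b : G) * (t * b) = t * (b * t) * b := by group
          _ = t * (t * b) * b := by rw [htc b b.2]
          _ = (t * t) * (b * b) := by group
          _ = 1 := by rw [htt, h3', one_mul]
      have hvB : (t * b : G) ∉ B := by
        intro e
        apply htB
        have : t = (t * b) * (b : G)⁻¹ := by group
        rw [this]
        exact B.mul_mem e (B.inv_mem b.2)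
      have hv1 : (t * b : G) ≠ 1 := fun e => hvB (by rw [e]; exact B.one_mem)
      have hvC : (t * b : G) ∈ Subgroup.centralizer ({t} : Set G) :=
        Subgroup.mul_mem _ (hVC htV) (hBC b.2)
      exact (hCt _ hvC (order_two hv2 hv1) hvB).symm
    · have e1 : (a : G) * (t * b) = t * (a * b : B) := by
        have := htc a a.2
        show (a : G) * (t * b) = t * (a * b)
        rw [← mul_assoc, ← mul_assoc, this]
      rw [e1]
      have hcom : Commute t ((a * b : B) : G) := htc _ (a * b).2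
      have e2 : (t * ((a * b : B) : G)) ^ 15 = t := by
        rw [hcom.mul_pow]
        have e3 : ((a * b : B) : G) ^ 15 = 1 := by
          have := congrArg Subtype.val h4
          simpa using this
        rw [e3, mul_one]
        have e4 : t ^ 15 = (t ^ 2) ^ 7 * t := by group
        rw [e4, pow_two, htt, one_pow, one_mul]
      have e5 := Subgroup.npow_mem_zpowers (t * ((a * b : B) : G)) 15
      rwa [e2] at e5
  rw [← hcount]
  symm
  apply Nat.card_eq_of_bijective
    (fun p : {p : B × B // p.1 * p.1 = 1 ∧ p.1 ≠ 1 ∧ p.2 * p.2 = 1 ∧ (p.1 * p.2) ^ 15 = 1} =>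
      (⟨(p.1.1.1, t * p.1.2.1), hinto p⟩ :
        {p : G × G // IsConj z p.1 ∧ IsConj t p.2 ∧ t ∈ Subgroup.zpowers (p.1 * p.2)}))
  constructor
  · rintro ⟨⟨a, b⟩, h⟩ ⟨⟨a', b'⟩, h'⟩ e
    have e1 : (a : G) = a' := congrArg (fun q => q.1.1) e
    have e2 : t * (b : G) = t * b' := congrArg (fun q => q.1.2) e
    apply Subtype.ext
    apply Prod.ext
    · exact Subtype.ext e1
    · exact Subtype.ext (mul_left_cancel e2)
  · rintro ⟨⟨u, v⟩, hu, hv, htm⟩
    simp only at hu hv htm
    have hou : orderOf u = 2 := by rw [← order_conj hu, hz]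
    have hov : orderOf v = 2 := by rw [← order_conj hv, ht]
    have huu : u * u = 1 := sq_of_order hou
    have hvv : v * v = 1 := sq_of_order hov
    obtain ⟨h1, h2⟩ := commute_of_inv huu hvv htt htm
    have huC : u ∈ Subgroup.centralizer ({t} : Set G) := by
      rw [Subgroup.mem_centralizer_singleton_iff]; exact h1
    have hvC : v ∈ Subgroup.centralizer ({t} : Set G) := by
      rw [Subgroup.mem_centralizer_singleton_iff]; exact h2
    have huB : u ∈ B := by
      by_contra hn
      exact hzt (hu.trans (hCt u huC hou hn))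
    have hvB : v ∉ B := by
      intro hn
      exact hzt ((hv.trans (hBz v hn hov)).symm)
    rw [← hsup] at hvC
    obtain ⟨w, hw, b, hb, rfl⟩ := sup_decomp hcomm hvC
    have hww : w * w = 1 := by rw [← pow_two]; exact hV2 w hw
    have hwb := hcomm w hw b hb
    have hbb : b * b = 1 := by
      calc b * b = (w * w) * (b * b) := by rw [hww, one_mul]
        _ = w * (w * b) * b := by group
        _ = w * (b * w) * b := by rw [hwb]
        _ = (w * b) * (w * b) := by group
        _ = 1 := hvv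
    have hw1 : w ≠ 1 := by
      rintro rfl
      apply hvB
      simpa using hb
    have hcw : Commute w (u * b) := hcomm w hw _ (B.mul_mem huB hb)
    have huw : u * (w * b) = w * (u * b) := by
      have := hcomm w hw u huB
      rw [← mul_assoc, ← mul_assoc, this]
    rw [huw] at htm
    obtain ⟨n, hn⟩ := Subgroup.mem_zpowers_iff.1 htm
    rw [hcw.mul_zpow] at hn
    -- separating
    have hsep : w ^ n = t ∧ (u * b) ^ n = 1 := by
      have e1 : (u * b) ^ n = (w ^ n)⁻¹ * t := by
        rw [← hn]; group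
      have e2 : (u * b) ^ n ∈ V ⊓ B := by
        refine ⟨?_, Subgroup.zpow_mem _ (B.mul_mem huB hb) n⟩
        rw [e1]
        exact V.mul_mem (V.inv_mem (V.zpow_mem hw n)) htV
      rw [hinf, Subgroup.mem_bot] at e2
      refine ⟨?_, e2⟩
      rw [e2, mul_one] at hn
      exact hn
    obtain ⟨hs1, hs2⟩ := hsep
    have hodd : Odd n := by
      by_contra hne
      rw [Int.not_odd_iff_even] at hne
      obtain ⟨m, rfl⟩ := hne
      apply ht1
      rw [← hs1, ← two_mul, zpow_mul, zpow_two, hww, one_zpow]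
    have hwt : w = t := by
      obtain ⟨m, rfl⟩ := hodd
      rw [zpow_add, zpow_mul, zpow_two, hww, one_zpow, one_mul, zpow_one] at hs1
      exact hs1
    subst hwt
    have h15 : (u * b) ^ 15 = 1 := by
      have hd1 : ((orderOf (u * b) : ℕ) : ℤ) ∣ n := orderOf_dvd_iff_zpow_eq_one.2 hs2
      have hoddo : Odd (orderOf (u * b)) := by
        rw [← Int.odd_coe_nat]
        obtain ⟨k, hk⟩ := hd1
        rw [hk] at hodd
        exact (Int.odd_mul.1 hodd).1
      have hd2 : orderOf (u * b) ∣ 60 := by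
        have := orderOf_dvd_natCard (⟨u * b, B.mul_mem huB hb⟩ : B)
        rw [hcardB, Subgroup.orderOf_mk] at this
        exact this
      have hd3 : orderOf (u * b) ∣ 15 := by
        have hc : Nat.Coprime (orderOf (u * b)) 4 := by
          have : Nat.Coprime (orderOf (u * b)) (2 ^ 2) :=
            Nat.Coprime.pow_right 2 (Nat.coprime_two_right.2 hoddo)
          simpa using this
        exact hc.dvd_of_dvd_mul_left (by simpa using hd2)
      exact orderOf_dvd_iff_pow_eq_one.1 hd3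
    have hu1 : u ≠ 1 := by
      rintro rfl
      simp at hou
    refine ⟨⟨(⟨u, huB⟩, ⟨b, hb⟩), Subtype.ext huu, fun e => hu1 (congrArg Subtype.val e),
      Subtype.ext hbb, Subtype.ext (by simpa using h15)⟩, ?_⟩
    rfl

/-- The count of pairs for the first class. -/
theorem count_z [Finite G] {z t : G} (hz : orderOf z = 2) (hzt : ¬ IsConj z t) (ht : orderOf t = 2)
    (hex : Cfsg.IsExtraspecial 2 ↥(Cfsg.generalizedFittingSubgroup ↥(Subgroup.centralizer ({z} : Set G))))
    (hQ : Nat.card ↥(Cfsg.pCore 2 ↥(Subgroup.centralizer ({z} : Set G))) = 32)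
    (K : Subgroup G) (hK : Nonempty (↥K ≃* alternatingGroup (Fin 5)))
    (hKC : K ⊔ (Cfsg.pCore 2 ↥(Subgroup.centralizer ({z} : Set G))).map (Subgroup.centralizer ({z} : Set G)).subtype = Subgroup.centralizer ({z} : Set G))
    (hKQ : K ⊓ (Cfsg.pCore 2 ↥(Subgroup.centralizer ({z} : Set G))).map (Subgroup.centralizer ({z} : Set G)).subtype = ⊥)
    (hQz : ∀ x ∈ (Cfsg.pCore 2 ↥(Subgroup.centralizer ({z} : Set G))).map (Subgroup.centralizer ({z} : Set G)).subtype, orderOf x = 2 → IsConj x z)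
    (hCz : ∀ x ∈ Subgroup.centralizer ({z} : Set G), orderOf x = 2 →
      x ∉ (Cfsg.pCore 2 ↥(Subgroup.centralizer ({z} : Set G))).map (Subgroup.centralizer ({z} : Set G)).subtype → IsConj x t) :
    Nat.card (Subgroup.centralizer ({z} : Set G)) = 1920 ∧
    Nat.card {p : G × G // IsConj z p.1 ∧ IsConj t p.2 ∧ z ∈ Subgroup.zpowers (p.1 * p.2)} = 960 := by
  set C := Subgroup.centralizer ({z} : Set G) with hC
  have hzC : z ∈ C := by
    rw [hC, Subgroup.mem_centralizer_singleton_iff]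
  let z₀ : C := ⟨z, hzC⟩
  have hzz : z * z = 1 := sq_of_order hz
  have hz1 : z ≠ 1 := by
    rintro rfl
    simp at hz
  have hz₀1 : z₀ ≠ 1 := fun e => hz1 (congrArg Subtype.val e)
  have hz₀2 : z₀ * z₀ = 1 := Subtype.ext hzz
  have hz₀c : ∀ g : C, g * z₀ = z₀ * g := by
    intro g
    apply Subtype.ext
    have h0 : (g : G) ∈ Subgroup.centralizer ({z} : Set G) := g.2
    rw [Subgroup.mem_centralizer_singleton_iff] at h0
    exact h0
  obtain ⟨heq, hzm, hsq, hcm, hcen, hfaith⟩ := core_facts hz₀1 hz₀2 hz₀c hex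
  have hKC' : K ≤ C := by
    rw [← hKC]; exact le_sup_left
  set Qc := pCore 2 ↥C with hQc
  have hh : HJ Qc (K.subgroupOf C) z₀ := by
    refine ⟨?_, hzm, hz₀1, hz₀2, hz₀c, hsq, hcm, hcen, hQ, hfaith, ?_, ?_, ?_⟩
    · haveI := pCore_characteristic (G := ↥C) 2
      infer_instance
    · rw [eq_bot_iff]
      rintro x ⟨hx1, hx2⟩
      have h1 : (x : G) ∈ K ⊓ Qc.map C.subtype := ⟨hx1, ⟨x, hx2, rfl⟩⟩
      rw [hKQ, Subgroup.mem_bot] at h1
      rw [Subgroup.mem_bot]
      exact Subtype.ext h1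
    · apply Subgroup.map_injective C.subtype_injective
      rw [Subgroup.map_sup, Subgroup.map_subgroupOf_eq_of_le hKC', hKC]
      rw [← MonoidHom.range_eq_map, Subgroup.range_subtype]
    · obtain ⟨e⟩ := hK
      exact ⟨(Subgroup.subgroupOfEquivOfLe hKC').trans e⟩
  refine ⟨hh.card_C, ?_⟩
  rw [← hh.count]
  symm
  have hmemQ : ∀ x : C, (x : G) ∈ Qc.map C.subtype ↔ x ∈ Qc := by
    intro x
    constructor
    · rintro ⟨y, hy, e⟩
      have : y = x := Subtype.ext e
      rwa [← this]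
    · intro hx
      exact ⟨x, hx, rfl⟩
  have hinto : ∀ p : {p : C × C // p.1 ∈ Qc ∧ p.1 * p.1 = 1 ∧ p.1 ≠ 1 ∧ p.2 ∉ Qc ∧ p.2 * p.2 = 1 ∧
      z₀ ∈ Subgroup.zpowers (p.1 * p.2)},
      IsConj z p.1.1.1 ∧ IsConj t p.1.2.1 ∧ z ∈ Subgroup.zpowers ((p.1.1.1 : G) * p.1.2.1) := by
    rintro ⟨⟨a, b⟩, h1, h2, h3, h4, h5, h6⟩
    simp only at h1 h2 h3 h4 h5 h6 ⊢
    have ha1 : (a : G) ≠ 1 := fun e => h3 (Subtype.ext e)
    have haa : (a : G) * a = 1 := congrArg Subtype.val h2
    have hbb : (b : G) * b = 1 := congrArg Subtype.val h5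
    have hb1 : (b : G) ≠ 1 := by
      intro e
      apply h4
      have : b = 1 := Subtype.ext e
      rw [this]
      exact Qc.one_mem
    refine ⟨(hQz a ((hmemQ a).2 h1) (order_two haa ha1)).symm, ?_, ?_⟩
    · exact (hCz b b.2 (order_two hbb hb1) (fun e => h4 ((hmemQ b).1 e))).symm
    · obtain ⟨n, hn⟩ := Subgroup.mem_zpowers_iff.1 h6
      refine Subgroup.mem_zpowers_iff.2 ⟨n, ?_⟩
      have := congrArg Subtype.val hn
      simpa using this
  apply Nat.card_eq_of_bijective
    (fun p : {p : C × C // p.1 ∈ Qc ∧ p.1 * p.1 = 1 ∧ p.1 ≠ 1 ∧ p.2 ∉ Qc ∧ p.2 * p.2 = 1 ∧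
      z₀ ∈ Subgroup.zpowers (p.1 * p.2)} =>
      (⟨(p.1.1.1, p.1.2.1), hinto p⟩ :
        {p : G × G // IsConj z p.1 ∧ IsConj t p.2 ∧ z ∈ Subgroup.zpowers (p.1 * p.2)}))
  constructor
  · rintro ⟨⟨a, b⟩, h⟩ ⟨⟨a', b'⟩, h'⟩ e
    have e1 : (a : G) = a' := congrArg (fun q => q.1.1) e
    have e2 : (b : G) = b' := congrArg (fun q => q.1.2) e
    apply Subtype.ext
    apply Prod.ext
    · exact Subtype.ext e1
    · exact Subtype.ext e2
  · rintro ⟨⟨u, v⟩, hu, hv, hzm'⟩
    simp only at hu hv hzm'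
    have hou : orderOf u = 2 := by rw [← order_conj hu, hz]
    have hov : orderOf v = 2 := by rw [← order_conj hv, ht]
    have huu : u * u = 1 := sq_of_order hou
    have hvv : v * v = 1 := sq_of_order hov
    obtain ⟨h1, h2⟩ := commute_of_inv huu hvv hzz hzm'
    have huC : u ∈ C := by
      rw [hC, Subgroup.mem_centralizer_singleton_iff]; exact h1
    have hvC : v ∈ C := by
      rw [hC, Subgroup.mem_centralizer_singleton_iff]; exact h2
    have huQ : (⟨u, huC⟩ : C) ∈ Qc := by
      rw [← hmemQ]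
      by_contra hn
      exact hzt (hu.trans (hCz u huC hou hn))
    have hvQ : (⟨v, hvC⟩ : C) ∉ Qc := by
      rw [← hmemQ]
      intro hn
      exact hzt ((hv.trans (hQz v hn hov)).symm)
    have hu1 : u ≠ 1 := by
      rintro rfl
      simp at hou
    obtain ⟨n, hn⟩ := Subgroup.mem_zpowers_iff.1 hzm'
    refine ⟨⟨(⟨u, huC⟩, ⟨v, hvC⟩), huQ, Subtype.ext huu, fun e => hu1 (congrArg Subtype.val e), hvQ,
      Subtype.ext hvv, Subgroup.mem_zpowers_iff.2 ⟨n, Subtype.ext ?_⟩⟩, ?_⟩
    · simpa using hn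
    · rfl

/-- The order of a simple group with the involution pattern of the Hall–Janko group. Let G be a non-abelian finite simple group with exactly two conjugacy classes of involutions, represented by z and t, such that: F*(C_G(z)) is an extraspecial 2-group; Q = O₂(C_G(z)) has order 32 and C_G(z) is the semidirect product of Q by a subgroup isomorphic to A₅; every involution of Q is conjugate to z and every other involution of C_G(z) is conjugate to t; C_G(t) is an internal direct product V × B with V a four-group containing t and B ≅ A₅; every involution of B is conjugate to z and every other involution of C_G(t) is conjugate to t. Then |G| = 604800. -/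
theorem result {G : Type*} [Group G] [Finite G]
    [IsSimpleGroup G] (hna : ¬ IsMulCommutative G) (z t : G) (hz : orderOf z = 2) (ht : orderOf t = 2)
    (hzt : ¬ IsConj z t) (hcl : ∀ x : G, orderOf x = 2 → IsConj x z ∨ IsConj x t)
    (hex : Cfsg.IsExtraspecial 2 ↥(Cfsg.generalizedFittingSubgroup ↥(Subgroup.centralizer ({z} : Set G))))
    (hQ : Nat.card ↥(Cfsg.pCore 2 ↥(Subgroup.centralizer ({z} : Set G))) = 32)
    (K : Subgroup G) (hK : Nonempty (↥K ≃* alternatingGroup (Fin 5)))
    (hKC : K ⊔ (Cfsg.pCore 2 ↥(Subgroup.centralizer ({z} : Set G))).map (Subgroup.centralizer ({z} : Set G)).subtype = Subgroup.centralizer ({z} : Set G))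
    (hKQ : K ⊓ (Cfsg.pCore 2 ↥(Subgroup.centralizer ({z} : Set G))).map (Subgroup.centralizer ({z} : Set G)).subtype = ⊥)
    (hQz : ∀ x ∈ (Cfsg.pCore 2 ↥(Subgroup.centralizer ({z} : Set G))).map (Subgroup.centralizer ({z} : Set G)).subtype, orderOf x = 2 → IsConj x z)
    (hCz : ∀ x ∈ Subgroup.centralizer ({z} : Set G), orderOf x = 2 →
      x ∉ (Cfsg.pCore 2 ↥(Subgroup.centralizer ({z} : Set G))).map (Subgroup.centralizer ({z} : Set G)).subtype → IsConj x t)
    (V B : Subgroup G) (hVB : Cfsg.IsInternalDirectProduct V B (Subgroup.centralizer ({t} : Set G)))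
    (hV : Nat.card ↥V = 4) (hV2 : ∀ v ∈ V, v ^ 2 = 1) (htV : t ∈ V) (hB : Nonempty (↥B ≃* alternatingGroup (Fin 5)))
    (hBz : ∀ x ∈ B, orderOf x = 2 → IsConj x z)
    (hCt : ∀ x ∈ Subgroup.centralizer ({t} : Set G), orderOf x = 2 → x ∉ B → IsConj x t) :
    Nat.card G = 604800 := by
  obtain ⟨hcz, hn1⟩ := count_z hz hzt ht hex hQ K hK hKC hKQ hQz hCz
  have hn2 := count_t hz hzt ht V B hVB hV2 htV hB hBz hCt
  have hct : Nat.card (Subgroup.centralizer ({t} : Set G)) = 240 := by
    obtain ⟨hVC, hBC, hcomm, hinf, hsup⟩ := hVB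
    obtain ⟨eB⟩ := hB
    have hcardB : Nat.card B = 60 := by rw [Nat.card_congr eB.toEquiv, card_A5]
    have hbij : Function.Bijective (fun p : V × B =>
        (⟨p.1.1 * p.2.1, Subgroup.mul_mem _ (hVC p.1.2) (hBC p.2.2)⟩ :
          Subgroup.centralizer ({t} : Set G))) := by
      constructor
      · rintro ⟨a, b⟩ ⟨a', b'⟩ e
        have e' : (a : G) * b = a' * b' := congrArg Subtype.val e
        have e2 : (a' : G)⁻¹ * a = b' * (b : G)⁻¹ := by
          calc (a' : G)⁻¹ * a = (a' : G)⁻¹ * (a * b) * (b : G)⁻¹ := by group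
            _ = (a' : G)⁻¹ * (a' * b') * (b : G)⁻¹ := by rw [e']
            _ = b' * (b : G)⁻¹ := by group
        have e3 : (a' : G)⁻¹ * a ∈ V ⊓ B := by
          refine ⟨V.mul_mem (V.inv_mem a'.2) a.2, ?_⟩
          rw [e2]
          exact B.mul_mem b'.2 (B.inv_mem b.2)
        rw [hinf, Subgroup.mem_bot] at e3
        have haa : (a : G) = a' := (inv_mul_eq_one.1 e3).symm
        have hbb : (b : G) = b' := by
          rw [haa] at e'
          exact mul_left_cancel e'
        rw [Subtype.ext haa, Subtype.ext hbb]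
      · rintro ⟨x, hx⟩
        have hx' := hx
        rw [← hsup] at hx'
        obtain ⟨w, hw, b, hb, e⟩ := sup_decomp hcomm hx'
        exact ⟨(⟨w, hw⟩, ⟨b, hb⟩), Subtype.ext e.symm⟩
    rw [← Nat.card_eq_of_bijective _ hbij, Nat.card_prod, hV, hcardB]
  have hf := Cfsg.Agent.Lib.ThompsonOrder.thompson_order_formula z t hz ht hzt
    (fun x hx => (hcl x hx).imp IsConj.symm IsConj.symm)
  rw [hf, hct, hn1, hn2, hcz]

end Cfsg.Agent.S3313
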