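import Mathlib
import Cfsg.Statements.S0007

set_option autoImplicit false
open Cfsg

namespace Cfsg.Agent.S0007

/-- Subgroups of coprime index: the intersection has index equal to the product of the indices, and every element is a product of an element of the first subgroup and an element of the second. -/
theorem result {G : Type*} [Group G] [Finite G] (H K : Subgroup G)
    (h : H.index.Coprime K.index) :
    (H ⊓ K).index = H.index * K.index ∧ ∀ g : G, ∃ x ∈ H, ∃ y ∈ K, g = x * y := by
  have hidx : (H ⊓ K).index = H.index * K.index := by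
    have hle : (H ⊓ K).index ≤ H.index * K.index := Subgroup.index_inf_le
    have hne : (H ⊓ K).index ≠ 0 := Subgroup.index_ne_zero_of_finite
    have h1 : H.index ∣ (H ⊓ K).index := Subgroup.index_dvd_of_le inf_le_left
    have h2 : K.index ∣ (H ⊓ K).index := Subgroup.index_dvd_of_le inf_le_right
    have h3 := Nat.Coprime.mul_dvd_of_dvd_of_dvd h h1 h2
    exact le_antisymm hle (Nat.le_of_dvd (Nat.pos_of_ne_zero hne) h3)
  refine ⟨hidx, ?_⟩
  have hrel : H.relIndex K = H.index := by
    have h1 : (H ⊓ K).relIndex K * K.index = (H ⊓ K).index :=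
      Subgroup.relIndex_mul_index inf_le_right
    rw [Subgroup.inf_relIndex_right, hidx] at h1
    exact Nat.eq_of_mul_eq_mul_right (Nat.pos_of_ne_zero Subgroup.index_ne_zero_of_finite) h1
  let f : K ⧸ H.subgroupOf K → G ⧸ H :=
    Quotient.lift (fun y : K => ((y : G) : G ⧸ H)) (by
      intro a b hab
      have hab' : a⁻¹ * b ∈ H.subgroupOf K := QuotientGroup.leftRel_apply.mp hab
      apply QuotientGroup.eq.mpr
      exact hab')
  have hfinj : Function.Injective f := by
    intro a b
    induction a using QuotientGroup.induction_on with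
    | H a =>
    induction b using QuotientGroup.induction_on with
    | H b =>
    intro hab
    have hab' : ((a : G) : G ⧸ H) = ((b : G) : G ⧸ H) := hab
    apply QuotientGroup.eq.mpr
    have := QuotientGroup.eq.mp hab'
    exact this
  have hcard : Nat.card (G ⧸ H) ≤ Nat.card (K ⧸ H.subgroupOf K) := by
    have h1 : Nat.card (G ⧸ H) = H.index := rfl
    have h2 : Nat.card (K ⧸ H.subgroupOf K) = H.relIndex K := rfl
    rw [h1, h2, hrel]
  have hfbij := hfinj.bijective_of_nat_card_le hcard
  intro g
  obtain ⟨q, hq⟩ := hfbij.2 ((g⁻¹ : G) : G ⧸ H)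
  induction q using QuotientGroup.induction_on with
  | H y =>
  have hy : ((y : G) : G ⧸ H) = ((g⁻¹ : G) : G ⧸ H) := hq
  have hm : (y : G)⁻¹ * g⁻¹ ∈ H := QuotientGroup.eq.mp hy
  refine ⟨((y : G)⁻¹ * g⁻¹)⁻¹, H.inv_mem hm, (y : G)⁻¹, K.inv_mem y.2, ?_⟩
  group

end Cfsg.Agent.S0007
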