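import Mathlib
import Cfsg.Statements.S4447
import Cfsg.Agent.Lib.GlaubFix

set_option autoImplicit false
open Cfsg

namespace Cfsg.Agent.S4447

/-- Inside a finite group Γ let S normalise G and also normalise a normal subgroup N of G, with the order of S coprime to the index of N in G and S or G/N solvable. Then for every S-invariant irreducible character χ of G, the restriction of χ to N has an S-invariant irreducible constituent. -/
theorem result {Γ : Type*} [Group Γ] [Fintype Γ] (G S N : Subgroup Γ) [Fintype G] [Fintype N] (hnorm : ∀ s ∈ S, ∀ g ∈ G, s * g * s⁻¹ ∈ G) (hNG : N ≤ G) [hNn : (N.subgroupOf G).Normal] (hNS : ∀ s ∈ S, ∀ n ∈ N, s * n * s⁻¹ ∈ N) (hcop : (N.relIndex G).Coprime (Nat.card S)) (hsolv : Group.IsSolvable S ∨ Group.IsSolvable (G ⧸ N.subgroupOf G)) (χ : Cfsg.IrrCharacter G) (hinv : (∀ s ∈ S, ∀ g g' : G, (g' : Γ) = s * g * s⁻¹ → (χ : G → ℂ) g' = (χ : G →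 ℂ) g)) : ∃ θ : Cfsg.IrrCharacter N, Cfsg.classInner (fun n : N => (χ : G → ℂ) ⟨n, hNG n.2⟩) (θ : N → ℂ) ≠ 0 ∧ (∀ s ∈ S, ∀ g g' : N, (g' : Γ) = s * g * s⁻¹ → (θ : N → ℂ) g' = (θ : N → ℂ) g) := by
  classical
  let _ : Fintype (N.subgroupOf G) := Fintype.ofFinite _
  let a := Cfsg.Agent.Lib.GlaubCorr.conjHom G S hnorm
  have hNa : ∀ s, ∀ n ∈ N.subgroupOf G, a s n ∈ N.subgroupOf G := by
    intro s n hn
    exact hNS s s.2 n (Subgroup.mem_subgroupOf.mp hn)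
  obtain ⟨θ₁, h1, h2⟩ := Cfsg.Agent.Lib.GlaubFix.exists_inv_constituent a (N.subgroupOf G) hNa hcop
    hsolv χ (fun s g => hinv s s.2 g _ rfl)
  let e : N.subgroupOf G ≃* N := Subgroup.subgroupOfEquivOfLe hNG
  refine ⟨⟨(θ₁ : N.subgroupOf G → ℂ) ∘ e.symm,
    Cfsg.Agent.Lib.CharBasic.isIrrCharacter_comp_of_surjective e.symm.toMonoidHom e.symm.surjective
      θ₁.2⟩, ?_, ?_⟩
  · have h3 := Cfsg.Agent.Lib.Clifford.classInner_comp_mulEquiv e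
      (fun n : N => (χ : G → ℂ) ⟨n, hNG n.2⟩) ((θ₁ : N.subgroupOf G → ℂ) ∘ e.symm)
    show Cfsg.classInner _ ((θ₁ : N.subgroupOf G → ℂ) ∘ e.symm) ≠ 0
    rw [← h3]
    have h4 : ((θ₁ : N.subgroupOf G → ℂ) ∘ e.symm) ∘ e = (θ₁ : N.subgroupOf G → ℂ) := by
      funext n
      simp
    rw [h4]
    exact h1
  · intro s hs g g' hg'
    have hg1 : (⟨g, hNG g.2⟩ : G) ∈ N.subgroupOf G := Subgroup.mem_subgroupOf.mpr g.2
    have h5 := h2 ⟨s, hs⟩ ⟨⟨g, hNG g.2⟩, hg1⟩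
    show (θ₁ : N.subgroupOf G → ℂ) (e.symm g') = (θ₁ : N.subgroupOf G → ℂ) (e.symm g)
    have h6 : e.symm g = ⟨⟨g, hNG g.2⟩, hg1⟩ := rfl
    have h7 : e.symm g' = ⟨a ⟨s, hs⟩ ⟨g, hNG g.2⟩, hNa ⟨s, hs⟩ _ hg1⟩ := by
      apply Subtype.ext
      apply Subtype.ext
      exact hg'
    rw [h6, h7]
    exact h5

end Cfsg.Agent.S4447
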