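import Mathlib
import Cfsg.Statements.S0987
import Cfsg.Agent.Lib.SmallGroups2
import Cfsg.Agent.Lib.SmallGroups3
import Cfsg.Agent.Lib.SmallGroups4
-- import your own Cfsg.Agent.* helpers here

set_option autoImplicit false
open Cfsg

namespace Cfsg.Agent.S0987

open Cfsg.Agent.Lib.SmallGroups2
open Cfsg.Agent.Lib.SmallGroups3
open Cfsg.Agent.Lib.SmallGroups4
theorem dvd_prime_mul_prime {a p q : ℕ} (hp : p.Prime) (hq : q.Prime) (h : a ∣ p * q) :
    a = 1 ∨ a = p ∨ a = q ∨ a = p * q := by
  obtain ⟨y, z, hy, hz, rfl⟩ := (Nat.dvd_mul).1 h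
  rcases (Nat.dvd_prime hp).1 hy with rfl | rfl <;> rcases (Nat.dvd_prime hq).1 hz with rfl | rfl <;> simp


/-- If a finite group has order pqr for primes p < q < r, then its Sylow r-subgroups are normal. -/
theorem result {G : Type*} [Group G] [Finite G] (p q r : ℕ) (hp : p.Prime) (hq : q.Prime) [Fact r.Prime] (hpq : p < q) (hqr : q < r) (hG : Nat.card G = p * q * r) (R : Sylow r G) : (R : Subgroup G).Normal := by
  classical
  have hr : r.Prime := Fact.out
  haveI hfq : Fact q.Prime := ⟨hq⟩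
  haveI hfp : Fact p.Prime := ⟨hp⟩
  have hp2 := hp.two_le
  have hq2 := hq.two_le
  have hr2 := hr.two_le
  have hpr : p < r := hpq.trans hqr
  -- Sylow r has order r
  have hGr : Nat.card G = r ^ 1 * (p * q) := by rw [hG]; ring
  have hrpq : ¬ r ∣ p * q := by
    intro hd
    rcases (Nat.Prime.dvd_mul hr).1 hd with h | h
    · exact absurd (Nat.le_of_dvd hp.pos h) (by omega)
    · exact absurd (Nat.le_of_dvd hq.pos h) (by omega)
  have hRc : ∀ S : Sylow r G, Nat.card (S : Subgroup G) = r := by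
    intro S
    rw [sylow_card_of_card_eq hGr hrpq S, pow_one]
  have hnr : Nat.card (Sylow r G) ∣ p * q := card_sylow_dvd hGr hrpq
  have hnrmod : Nat.card (Sylow r G) % r = 1 % r := card_sylow_mod
  have h1r : 1 % r = 1 := Nat.mod_eq_of_lt hr.one_lt
  rw [h1r] at hnrmod
  rcases dvd_prime_mul_prime hp hq hnr with h1 | h2 | h3 | h4
  · have hs : Subsingleton (Sylow r G) := (Nat.card_eq_one_iff_unique.1 h1).1
    exact Sylow.normal_of_subsingleton R
  · rw [h2, Nat.mod_eq_of_lt hpr] at hnrmod
    omega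
  · rw [h3, Nat.mod_eq_of_lt hqr] at hnrmod
    omega
  exfalso
  -- now n_r = pq
  have hcr := card_orderOf_eq_prime hRc
  rw [h4] at hcr
  -- Sylow q
  have hGq : Nat.card G = q ^ 1 * (p * r) := by rw [hG]; ring
  have hqpr : ¬ q ∣ p * r := by
    intro hd
    rcases (Nat.Prime.dvd_mul hq).1 hd with h | h
    · exact absurd (Nat.le_of_dvd hp.pos h) (by omega)
    · have := (Nat.prime_dvd_prime_iff_eq hq hr).1 h
      omega
  have hQc : ∀ S : Sylow q G, Nat.card (S : Subgroup G) = q := by
    intro S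
    rw [sylow_card_of_card_eq hGq hqpr S, pow_one]
  have hnq : Nat.card (Sylow q G) ∣ p * r := card_sylow_dvd hGq hqpr
  have hnqmod : Nat.card (Sylow q G) % q = 1 % q := card_sylow_mod
  rw [Nat.mod_eq_of_lt hq.one_lt] at hnqmod
  have hcq := card_orderOf_eq_prime hQc
  have hsum := Cfsg.Agent.Lib.SmallGroups4.sum_card_orderOf_le (G := G) {1, q, r}
  have hne1 : (1 : ℕ) ∉ ({q, r} : Finset ℕ) := by
    simp only [Finset.mem_insert, Finset.mem_singleton, not_or]
    omega
  have hne2 : q ∉ ({r} : Finset ℕ) := by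
    simp only [Finset.mem_singleton]
    omega
  rw [Finset.sum_insert hne1, Finset.sum_insert hne2, Finset.sum_singleton,
    Cfsg.Agent.Lib.SmallGroups4.card_orderOf_one, hcq, hcr, hG] at hsum
  have hq1 : 1 ≤ q - 1 := by omega
  have hr1 : 1 ≤ r - 1 := by omega
  obtain ⟨q', hq'⟩ : ∃ q', q = q' + 1 := ⟨q - 1, by omega⟩
  obtain ⟨r', hr'⟩ : ∃ r', r = r' + 1 := ⟨r - 1, by omega⟩
  have hnq1 : Nat.card (Sylow q G) = 1 := by
    by_contra hne
    have hge : r ≤ Nat.card (Sylow q G) := by
      rcases dvd_prime_mul_prime hp hr hnq with h1 | h2 | h3 | h4'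
      · exact absurd h1 hne
      · rw [h2, Nat.mod_eq_of_lt hpq] at hnqmod
        omega
      · rw [h3]
      · rw [h4']
        exact Nat.le_mul_of_pos_left r hp.pos
    have h5 : r * (q - 1) ≤ Nat.card (Sylow q G) * (q - 1) := Nat.mul_le_mul_right _ hge
    subst hq' hr'
    simp only [Nat.add_sub_cancel] at *
    nlinarith
  -- so Q is normal
  obtain ⟨Q⟩ := (inferInstance : Nonempty (Sylow q G))
  have hQn : (Q : Subgroup G).Normal := by
    have hs : Subsingleton (Sylow q G) := (Nat.card_eq_one_iff_unique.1 hnq1).1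
    exact Sylow.normal_of_subsingleton Q
  -- R centralizes Q
  have hRcen : ∀ x ∈ (R : Subgroup G), x ∈ Subgroup.centralizer ((Q : Subgroup G) : Set G) := by
    intro x hx
    apply Cfsg.Agent.Lib.SmallGroups4.mem_centralizer_of_normal_prime_card hq (Q : Subgroup G) (hQc Q)
    have hd : orderOf x ∣ r := by
      have := Subgroup.orderOf_dvd_natCard (R : Subgroup G) hx
      rwa [hRc R] at this
    rcases (Nat.dvd_prime hr).1 hd with h | h
    · rw [h]; exact Nat.coprime_one_left _
    · rw [h]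
      apply (Nat.Prime.coprime_iff_not_dvd hr).2
      intro hd2
      have := Nat.le_of_dvd (by omega) hd2
      omega
  -- Q lies in the normalizer of R, which has order r
  have hNR := card_normalizer_mul_card_sylow R
  rw [h4, hG] at hNR
  have hNRc : Nat.card (Subgroup.normalizer ((R : Subgroup G) : Set G)) = r := by
    have h6 : (p * q) * Nat.card (Subgroup.normalizer ((R : Subgroup G) : Set G)) = (p * q) * r := by
      rw [mul_comm, hNR]
    exact Nat.eq_of_mul_eq_mul_left (Nat.mul_pos hp.pos hq.pos) h6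
  have hQle : (Q : Subgroup G) ≤ Subgroup.normalizer ((R : Subgroup G) : Set G) := by
    intro y hy
    rw [Subgroup.mem_normalizer_iff]
    intro h
    have hcomm : ∀ x ∈ (R : Subgroup G), y * x * y⁻¹ = x := by
      intro x hx
      have := (Subgroup.mem_centralizer_iff.1 (hRcen x hx)) y hy
      rw [this, mul_assoc, mul_inv_cancel, mul_one]
    constructor
    · intro hh; rwa [hcomm h hh]
    · intro hh
      have hmem : y⁻¹ * (y * h * y⁻¹) * y ∈ (R : Subgroup G) := by
        have hyinv : y⁻¹ * (y * h * y⁻¹) * y⁻¹⁻¹ = y * h * y⁻¹ := by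
          have h7 := (Subgroup.mem_centralizer_iff.1 (hRcen _ hh)) y hy
          have h8 : y⁻¹ * (y * h * y⁻¹) * y⁻¹⁻¹ = y⁻¹ * ((y * h * y⁻¹) * y) := by group
          rw [h8, ← h7]; group
        have h9 : y⁻¹ * (y * h * y⁻¹) * y = y * h * y⁻¹ := by simpa using hyinv
        rw [h9]; exact hh
      have h10 : y⁻¹ * (y * h * y⁻¹) * y = h := by group
      rwa [h10] at hmem
  have hdvd : q ∣ r := by
    rw [← hNRc, ← hQc Q]
    exact Subgroup.card_dvd_of_le hQle
  have := (Nat.prime_dvd_prime_iff_eq hq hr).1 hdvd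
  omega

end Cfsg.Agent.S0987
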