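import Mathlib
import Cfsg.Statements.S3773
import Cfsg.Agent.Lib.Frat

set_option autoImplicit false
open Cfsg

namespace Cfsg.Agent.S3773

open scoped commutatorElement
open Cfsg.Agent.Lib

/-- `F₂`-coordinates on an elementary abelian quotient. -/
theorem exists_coords {G : Type*} [Group G] [Finite G] (K : Subgroup G) [K.Normal]
    (hK : ∀ x : G, x ^ 2 ∈ K) :
    ∃ (m : ℕ) (c : Fin m → (G →* Multiplicative (ZMod 2))) (e : Fin m → G),
      (∀ x, (∀ j, c j x = 1) ↔ x ∈ K) ∧
      (∀ i j, c j (e i) = Multiplicative.ofAdd (if i = j then (1 : ZMod 2) else 0)) ∧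
      Nat.card G = Nat.card K * 2 ^ m := by
  classical
  have hq : ∀ q : G ⧸ K, q * q = 1 := by
    intro q
    obtain ⟨x, rfl⟩ := QuotientGroup.mk_surjective q
    rw [← QuotientGroup.mk_mul, QuotientGroup.eq_one_iff, ← pow_two]
    exact hK x
  letI iC : CommGroup (G ⧸ K) :=
    { (inferInstance : Group (G ⧸ K)) with
      mul_comm := by
        intro a b
        calc a * b = a * b * (b * a * (b * a)) := by rw [hq (b * a), mul_one]
          _ = (a * (b * b) * a) * (b * a) := by group
          _ = b * a := by rw [hq b, mul_one, hq a, one_mul] }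
  let V := Additive (G ⧸ K)
  haveI : Finite V := inferInstanceAs (Finite (G ⧸ K))
  letI iM : Module (ZMod 2) V := AddCommGroup.zmodModule (by
    intro v
    rw [two_nsmul]
    exact hq (Additive.toMul v))
  haveI : Module.Finite (ZMod 2) V := Module.Finite.of_finite
  let m := Module.finrank (ZMod 2) V
  let b := Module.finBasis (ZMod 2) V
  have hv : ∀ x : G, ∃ v : V, v = Additive.ofMul (x : G ⧸ K) := fun x => ⟨_, rfl⟩
  let c : Fin m → (G →* Multiplicative (ZMod 2)) := fun j =>
    { toFun := fun x => Multiplicative.ofAdd (b.coord j (Additive.ofMul (x : G ⧸ K)))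
      map_one' := by
        have : Additive.ofMul ((1 : G) : G ⧸ K) = (0 : V) := rfl
        rw [this, map_zero]
        rfl
      map_mul' := by
        intro x y
        have : Additive.ofMul ((x * y : G) : G ⧸ K)
            = (Additive.ofMul (x : G ⧸ K) + Additive.ofMul (y : G ⧸ K) : V) := rfl
        rw [this, map_add]
        rfl }
  have hc : ∀ j x, c j x = Multiplicative.ofAdd (b.coord j (Additive.ofMul (x : G ⧸ K))) :=
    fun j x => rfl
  let e : Fin m → G := fun i => Quotient.out (Additive.toMul (b i))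
  have he : ∀ i, Additive.ofMul ((e i : G) : G ⧸ K) = b i := by
    intro i
    have : ((e i : G) : G ⧸ K) = Additive.toMul (b i) := QuotientGroup.out_eq' _
    rw [this]
    rfl
  refine ⟨m, c, e, ?_, ?_, ?_⟩
  · intro x
    constructor
    · intro h
      have h0 : (Additive.ofMul (x : G ⧸ K) : V) = 0 := by
        apply b.ext_elem
        intro j
        have h1 := h j
        rw [hc] at h1
        have h2 : b.coord j (Additive.ofMul (x : G ⧸ K)) = 0 := by
          exact Multiplicative.ofAdd.injective h1
        simpa using h2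
      have h3 : (x : G ⧸ K) = 1 := h0
      exact (QuotientGroup.eq_one_iff x).mp h3
    · intro hx j
      rw [hc]
      have h3 : (x : G ⧸ K) = 1 := (QuotientGroup.eq_one_iff x).mpr hx
      rw [h3]
      have : Additive.ofMul (1 : G ⧸ K) = (0 : V) := rfl
      rw [this, map_zero]
      rfl
  · intro i j
    rw [hc, he]
    congr 1
    simp [Module.Basis.coord_apply, Finsupp.single_apply]
  · have h1 : Nat.card V = 2 ^ m := by
      have := Module.natCard_eq_pow_finrank (K := ZMod 2) (V := V)
      rw [Nat.card_zmod] at this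
      exact this
    have h2 : Nat.card V = Nat.card (G ⧸ K) := rfl
    rw [Subgroup.card_eq_card_quotient_mul_card_subgroup K, mul_comm, ← h2, h1]

section poly

variable {G : Type*} [Group G] {σ : Type*}
  (Q : G → ZMod 2) (B : G → G → ZMod 2)

/-- The word attached to a list of pairs (element, variable). -/
def word (l : List (G × σ)) (a : σ → ZMod 2) : G :=
  (l.map (fun p => p.1 ^ (a p.2).val)).prod

@[simp] theorem word_nil (a : σ → ZMod 2) : word ([] : List (G × σ)) a = 1 := rfl

theorem word_cons (x : G) (i : σ) (l : List (G × σ)) (a : σ → ZMod 2) :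
    word ((x, i) :: l) a = x ^ (a i).val * word l a := by
  simp [word]

theorem zmod2_cases (t : ZMod 2) : t = 0 ∨ t = 1 := by
  revert t
  decide

theorem exists_linear (hB : ∀ x y z, B x (y * z) = B x y + B x z) (x : G) (l : List (G × σ)) :
    ∃ L : MvPolynomial σ (ZMod 2), L.totalDegree ≤ 1 ∧
      ∀ a, MvPolynomial.eval a L = B x (word l a) := by
  have hB1 : ∀ x, B x 1 = 0 := by
    intro x
    have h1 := hB x 1 1
    rw [mul_one] at h1
    have h2 : B x 1 + B x 1 = 0 := CharTwo.add_self_eq_zero _
    rw [← h1] at h2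
    exact h2
  induction l with
  | nil => exact ⟨0, by simp, fun a => by simp [hB1]⟩
  | cons p l ih =>
    obtain ⟨y, j⟩ := p
    obtain ⟨L, hL, hLe⟩ := ih
    refine ⟨MvPolynomial.C (B x y) * MvPolynomial.X j + L, ?_, ?_⟩
    · refine (MvPolynomial.totalDegree_add _ _).trans (max_le ?_ hL)
      refine (MvPolynomial.totalDegree_mul _ _).trans ?_
      simp
    · intro a
      rw [word_cons, hB, map_add, hLe]
      congr 1
      simp only [map_mul, MvPolynomial.eval_C, MvPolynomial.eval_X]
      rcases zmod2_cases (a j) with h | h <;> rw [h]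
      · simp [hB1]
      · simp [ZMod.val_one]

theorem exists_quadratic (hB : ∀ x y z, B x (y * z) = B x y + B x z)
    (hQ : ∀ x y, Q (x * y) = Q x + Q y + B x y) (l : List (G × σ)) :
    ∃ P : MvPolynomial σ (ZMod 2), P.totalDegree ≤ 2 ∧
      ∀ a, MvPolynomial.eval a P = Q (word l a) := by
  have hB1 : ∀ x, B x 1 = 0 := by
    intro x
    have h1 := hB x 1 1
    rw [mul_one] at h1
    have h2 : B x 1 + B x 1 = 0 := CharTwo.add_self_eq_zero _
    rw [← h1] at h2
    exact h2
  have hQ1 : Q 1 = 0 := by
    have h1 := hQ 1 1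
    rw [mul_one, hB1, add_zero] at h1
    have h2 : Q 1 + Q 1 = 0 := CharTwo.add_self_eq_zero _
    rw [← h1] at h2
    exact h2
  induction l with
  | nil => exact ⟨0, by simp, fun a => by simp [hQ1]⟩
  | cons p l ih =>
    obtain ⟨x, i⟩ := p
    obtain ⟨P, hP, hPe⟩ := ih
    obtain ⟨L, hL, hLe⟩ := exists_linear B hB x l
    refine ⟨P + MvPolynomial.C (Q x) * MvPolynomial.X i + MvPolynomial.X i * L, ?_, ?_⟩
    · refine (MvPolynomial.totalDegree_add _ _).trans (max_le ?_ ?_)
      · refine (MvPolynomial.totalDegree_add _ _).trans (max_le (hP) ?_)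
        refine (MvPolynomial.totalDegree_mul _ _).trans ?_
        simp
      · refine (MvPolynomial.totalDegree_mul _ _).trans ?_
        have : (MvPolynomial.X i : MvPolynomial σ (ZMod 2)).totalDegree ≤ 1 :=
          (MvPolynomial.totalDegree_X _).le
        omega
    · intro a
      rw [word_cons]
      simp only [map_add, map_mul, MvPolynomial.eval_C, MvPolynomial.eval_X, hPe, hLe]
      rcases zmod2_cases (a i) with h | h <;> rw [h]
      · simp
      · simp only [ZMod.val_one, pow_one, one_mul, hQ, mul_one]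
        ring

end poly

/-- Class at most two, exponent dividing four, the involutions (and `1`) are a subgroup. -/
structure Setup (G : Type*) [Group G] : Prop where
  central : ∀ x y z : G, Commute ⁅x, y⁆ z
  four : ∀ x : G, x ^ 4 = 1
  closed : ∀ x y : G, x ^ 2 = 1 → y ^ 2 = 1 → (x * y) ^ 2 = 1

section setup

variable {G : Type*} [Group G]

theorem Setup.swap (S : Setup G) (x y : G) : y * x = x * y * ⁅y, x⁆ := by
  rw [← (S.central y x (x * y)).eq, commutatorElement_def]
  group

theorem Setup.sq_mul (S : Setup G) (x y : G) : (x * y) ^ 2 = x ^ 2 * y ^ 2 * ⁅y, x⁆ := by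
  have h1 := (S.central y x y).eq
  calc (x * y) ^ 2 = x * (y * x) * y := by simp only [pow_two, mul_assoc]
    _ = x * (x * y * ⁅y, x⁆) * y := by rw [S.swap x y]
    _ = x * x * y * (⁅y, x⁆ * y) := by simp only [mul_assoc]
    _ = x * x * y * (y * ⁅y, x⁆) := by rw [h1]
    _ = x ^ 2 * y ^ 2 * ⁅y, x⁆ := by simp only [pow_two, mul_assoc]

/-- The subgroup of elements of order at most two. -/
def Setup.omega (S : Setup G) : Subgroup G where
  carrier := {x | x ^ 2 = 1}
  mul_mem' := fun {a b} ha hb => S.closed a b ha hb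
  one_mem' := one_pow 2
  inv_mem' := fun {a} ha => by
    show a⁻¹ ^ 2 = 1
    rw [inv_pow, show a ^ 2 = 1 from ha, inv_one]

theorem Setup.mem_omega (S : Setup G) (x : G) : x ∈ S.omega ↔ x ^ 2 = 1 := Iff.rfl

theorem Setup.sq_mem (S : Setup G) (x : G) : x ^ 2 ∈ S.omega := by
  rw [S.mem_omega, ← pow_mul]
  exact S.four x

theorem Setup.comm_mem (S : Setup G) (x y : G) : ⁅y, x⁆ ∈ S.omega := by
  have h1 : ⁅y, x⁆ = (x ^ 2 * y ^ 2)⁻¹ * (x * y) ^ 2 := by
    rw [S.sq_mul]
    group
  rw [h1]
  exact S.omega.mul_mem (S.omega.inv_mem (S.omega.mul_mem (S.sq_mem x) (S.sq_mem y))) (S.sq_mem _)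

instance Setup.omega_normal (S : Setup G) : S.omega.Normal := by
  constructor
  intro x hx g
  rw [S.mem_omega] at hx ⊢
  rw [conj_pow, hx]
  simp

theorem Setup.omega_comm (S : Setup G) {x y : G} (hx : x ∈ S.omega) (hy : y ∈ S.omega) :
    x * y = y * x := by
  have h1 : (x * y) ^ 2 = 1 := S.closed x y hx hy
  have hx' : x * x = 1 := by rw [← pow_two]; exact hx
  have hy' : y * y = 1 := by rw [← pow_two]; exact hy
  calc x * y = x * y * (y * x * (y * x)) := by
        rw [show y * x * (y * x) = (y * x) ^ 2 from (pow_two _).symm,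
          show (y * x) ^ 2 = 1 from S.closed y x hy hx, mul_one]
    _ = (x * (y * y) * x) * (y * x) := by group
    _ = y * x := by rw [hy', mul_one, hx', one_mul]

theorem Setup.comm_mul_left (S : Setup G) (x y z : G) : ⁅y * z, x⁆ = ⁅y, x⁆ * ⁅z, x⁆ := by
  rw [commutatorElement_mul_left_eq_conj_mul]
  have h1 : y * ⁅z, x⁆ * y⁻¹ = ⁅z, x⁆ := by
    rw [← (S.central z x y).eq]
    simp
  rw [h1]
  exact (S.central z x ⁅y, x⁆).eq

/-- The word evaluated under a coordinate. -/
theorem coord_word {m : ℕ} (c : G →* Multiplicative (ZMod 2)) (e : Fin m → G) (j : Fin m)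
    (hce : ∀ i, c (e i) = Multiplicative.ofAdd (if i = j then (1 : ZMod 2) else 0))
    (a : Fin m → ZMod 2) (l : List (Fin m)) :
    Multiplicative.toAdd (c (word (l.map (fun i => (e i, i))) a))
      = (l.map (fun i => if i = j then a i else 0)).sum := by
  induction l with
  | nil => simp
  | cons i l ih =>
    rw [List.map_cons, word_cons, map_mul, toAdd_mul, ih, List.map_cons, List.sum_cons]
    congr 1
    rw [map_pow, hce, ← ofAdd_nsmul, toAdd_ofAdd]
    by_cases hij : i = j
    · rw [if_pos hij, if_pos hij]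
      simp
    · rw [if_neg hij, if_neg hij]
      simp

/-- The main inequality, in the form needed for the refinements. -/
theorem Setup.bound [Finite G] (S : Setup G) (A : Subgroup G) (hA : A ≤ S.omega)
    (hanis : ∀ x : G, x ^ 2 ∈ A → x ^ 2 = 1) :
    Nat.card G * Nat.card A ^ 2 ≤ Nat.card S.omega ^ 3 := by
  classical
  obtain ⟨m, c, e, hc, hce, hcard⟩ := exists_coords S.omega S.sq_mem
  let A' : Subgroup S.omega := A.subgroupOf S.omega
  haveI hA'n : A'.Normal := by
    constructor
    intro n hn g
    have h1 : g * n * g⁻¹ = n := by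
      apply Subtype.ext
      have h2 := S.omega_comm g.2 n.2
      simp only [Subgroup.coe_mul, Subgroup.coe_inv, h2]
      group
    rw [h1]
    exact hn
  obtain ⟨r, κ, -, hκ, -, hcardN⟩ := exists_coords A' (by
    intro x
    have h1 : x ^ 2 = 1 := Subtype.ext x.2
    rw [h1]
    exact A'.one_mem)
  have hA'card : Nat.card A' = Nat.card A := by
    exact Nat.card_congr (Subgroup.subgroupOfEquivOfLe hA).toEquiv
  rw [hA'card] at hcardN
  -- the quadratic maps
  let Q : Fin r → G → ZMod 2 := fun k x =>
    Multiplicative.toAdd (κ k ⟨x ^ 2, S.sq_mem x⟩)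
  let B : Fin r → G → G → ZMod 2 := fun k x y =>
    Multiplicative.toAdd (κ k ⟨⁅y, x⁆, S.comm_mem x y⟩)
  have hQ : ∀ k x y, Q k (x * y) = Q k x + Q k y + B k x y := by
    intro k x y
    have h1 : (⟨(x * y) ^ 2, S.sq_mem _⟩ : S.omega)
        = ⟨x ^ 2, S.sq_mem x⟩ * ⟨y ^ 2, S.sq_mem y⟩ * ⟨⁅y, x⁆, S.comm_mem x y⟩ :=
      Subtype.ext (S.sq_mul x y)
    simp only [Q, B]
    rw [h1, map_mul (κ k), map_mul (κ k)]
    rfl
  have hB : ∀ k x y z, B k x (y * z) = B k x y + B k x z := by
    intro k x y z
    have h1 : (⟨⁅y * z, x⁆, S.comm_mem x (y * z)⟩ : S.omega)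
        = ⟨⁅y, x⁆, S.comm_mem x y⟩ * ⟨⁅z, x⁆, S.comm_mem x z⟩ :=
      Subtype.ext (S.comm_mul_left x y z)
    simp only [B]
    rw [h1, map_mul (κ k)]
    rfl
  let l : List (G × Fin m) := (List.finRange m).map (fun i => (e i, i))
  have hP : ∀ k : Fin r, ∃ P : MvPolynomial (Fin m) (ZMod 2), P.totalDegree ≤ 2 ∧
      ∀ a, MvPolynomial.eval a P = Q k (word l a) :=
    fun k => exists_quadratic (Q k) (B k) (hB k) (hQ k) l
  choose P hPdeg hPeval using hP
  have hmr : m ≤ 2 * r := by
    by_contra hlt
    push Not at hlt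
    have hdeg : (∑ k ∈ (Finset.univ : Finset (Fin r)), (P k).totalDegree)
        < Fintype.card (Fin m) := by
      rw [Fintype.card_fin]
      calc (∑ k ∈ (Finset.univ : Finset (Fin r)), (P k).totalDegree)
          ≤ ∑ _k ∈ (Finset.univ : Finset (Fin r)), 2 := Finset.sum_le_sum (fun k _ => hPdeg k)
        _ = 2 * r := by simp [mul_comm]
        _ < m := hlt
    have hdvd := char_dvd_card_solutions_of_sum_lt 2 hdeg
    have hwordc : ∀ (a : Fin m → ZMod 2) (j : Fin m),
        Multiplicative.toAdd (c j (word l a)) = a j := by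
      intro a j
      have h1 := coord_word (c j) e j (fun i => hce i j) a (List.finRange m)
      rw [h1, ← Fin.sum_univ_def]
      simp
    have hword0 : word l (0 : Fin m → ZMod 2) = 1 := by
      simp only [word, l, List.map_map]
      apply List.prod_eq_one
      intro x hx
      simp only [List.mem_map] at hx
      obtain ⟨i, -, rfl⟩ := hx
      simp
    have hsol0 : ∀ k ∈ (Finset.univ : Finset (Fin r)),
        MvPolynomial.eval (0 : Fin m → ZMod 2) (P k) = 0 := by
      intro k _
      rw [hPeval, hword0]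
      simp only [Q]
      have : (⟨(1 : G) ^ 2, S.sq_mem 1⟩ : S.omega) = 1 := Subtype.ext (by simp)
      rw [this, map_one]
      rfl
    let z : { x : Fin m → ZMod 2 // ∀ k ∈ (Finset.univ : Finset (Fin r)),
        MvPolynomial.eval x (P k) = 0 } := ⟨0, hsol0⟩
    have hdvd' : 2 ∣ Nat.card { x : Fin m → ZMod 2 // ∀ k ∈ (Finset.univ : Finset (Fin r)),
        MvPolynomial.eval x (P k) = 0 } := by
      rw [Nat.card_eq_fintype_card]
      convert hdvd
    have hone : 1 < Nat.card { x : Fin m → ZMod 2 // ∀ k ∈ (Finset.univ : Finset (Fin r)),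
        MvPolynomial.eval x (P k) = 0 } := by
      have hpos : 0 < Nat.card { x : Fin m → ZMod 2 // ∀ k ∈ (Finset.univ : Finset (Fin r)),
          MvPolynomial.eval x (P k) = 0 } := Nat.card_pos_iff.mpr ⟨⟨z⟩, inferInstance⟩
      have := Nat.le_of_dvd hpos hdvd'
      omega
    haveI := (Finite.one_lt_card_iff_nontrivial).mp hone
    obtain ⟨w, hw⟩ := exists_ne z
    have hwne : (w : Fin m → ZMod 2) ≠ 0 := fun h => hw (Subtype.ext h)
    apply hwne
    set x := word l (w : Fin m → ZMod 2) with hx
    have hxA : x ^ 2 ∈ A := by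
      have h1 : (⟨x ^ 2, S.sq_mem x⟩ : S.omega) ∈ A' := by
        rw [← hκ]
        intro k
        have h2 := w.2 k (Finset.mem_univ k)
        rw [hPeval] at h2
        exact h2
      exact h1
    have hxN : x ∈ S.omega := hanis x hxA
    funext j
    have h3 := (hc x).mpr hxN j
    have h4 := hwordc w j
    rw [← hx, h3] at h4
    exact h4.symm
  -- counting
  have h1 : (2 : ℕ) ^ m ≤ 2 ^ (2 * r) := Nat.pow_le_pow_right (by norm_num) hmr
  calc Nat.card G * Nat.card A ^ 2 = Nat.card S.omega * 2 ^ m * Nat.card A ^ 2 := by rw [hcard]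
    _ ≤ Nat.card S.omega * 2 ^ (2 * r) * Nat.card A ^ 2 := by gcongr
    _ = Nat.card S.omega * (Nat.card A * 2 ^ r) ^ 2 := by ring
    _ = Nat.card S.omega ^ 3 := by rw [← hcardN]; ring

/-- Refinement: a character `χ` trivial on the involutions and an involution `u` which is not the
square of an element of `ker χ`. -/
theorem Setup.bound_two [Finite G] (S : Setup G) (χ : G →* Multiplicative (ZMod 2))
    (hχ : S.omega ≤ χ.ker) (u : G) (hu : u ∈ S.omega) (hu1 : u ≠ 1)
    (hsq : ∀ x, χ x = 1 → x ^ 2 = u → False) :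
    2 * Nat.card G ≤ Nat.card S.omega ^ 3 := by
  let H : Subgroup G := χ.ker
  have SH : Setup H := by
    refine ⟨?_, ?_, ?_⟩
    · intro x y z
      apply Subtype.ext
      exact S.central x y z
    · intro x
      apply Subtype.ext
      simpa using S.four x
    · intro x y hx hy
      apply Subtype.ext
      have hx' : (x : G) ^ 2 = 1 := by simpa using congrArg Subtype.val hx
      have hy' : (y : G) ^ 2 = 1 := by simpa using congrArg Subtype.val hy
      simpa using S.closed x y hx' hy'
  let u' : H := ⟨u, hχ hu⟩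
  have hu'2 : u' ^ 2 = 1 := by
    apply Subtype.ext
    exact hu
  have hu'1 : u' ≠ 1 := fun h => hu1 (congrArg Subtype.val h)
  have hord : orderOf u' = 2 := orderOf_eq_prime hu'2 hu'1
  let A : Subgroup H := Subgroup.zpowers u'
  have hAcard : Nat.card A = 2 := by
    rw [Nat.card_zpowers, hord]
  have hAmem : ∀ y ∈ A, y = 1 ∨ y = u' := by
    intro y hy
    obtain ⟨k, rfl⟩ := hy
    rcases Int.even_or_odd' k with ⟨j, rfl | rfl⟩
    · left
      show u' ^ (2 * j) = 1
      rw [zpow_mul]
      have : u' ^ (2 : ℤ) = 1 := by exact_mod_cast hu'2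
      simp [this]
    · right
      show u' ^ (2 * j + 1) = u'
      rw [zpow_add, zpow_mul]
      have : u' ^ (2 : ℤ) = 1 := by exact_mod_cast hu'2
      simp [this]
  have hAle : A ≤ SH.omega := by
    rw [Subgroup.zpowers_le]
    exact hu'2
  have hb := SH.bound A hAle (by
    intro x hx
    rcases hAmem _ hx with h | h
    · exact h
    · exfalso
      refine hsq x x.2 ?_
      have := congrArg Subtype.val h
      simpa using this)
  have hN : Nat.card SH.omega = Nat.card S.omega := by
    refine Nat.card_congr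
      { toFun := fun x => ⟨x.1.1, ?_⟩
        invFun := fun n => ⟨⟨n.1, hχ n.2⟩, ?_⟩
        left_inv := fun x => rfl
        right_inv := fun n => rfl }
    · have := congrArg Subtype.val (show (x.1 : H) ^ 2 = 1 from x.2)
      show ((x.1 : H) : G) ^ 2 = 1
      simpa using this
    · apply Subtype.ext
      exact n.2
  rw [hAcard, hN] at hb
  have hidx : H.index ≤ 2 := by
    have h1 : H.index = Nat.card χ.range := Subgroup.index_ker χ
    rw [h1]
    calc Nat.card χ.range ≤ Nat.card (Multiplicative (ZMod 2)) := Subgroup.card_le_card_group _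
      _ = 2 := by
        rw [Nat.card_congr Multiplicative.toAdd, Nat.card_zmod]
  have hG : Nat.card H * H.index = Nat.card G := Subgroup.card_mul_index H
  rw [← hG]
  calc 2 * (Nat.card H * H.index) ≤ 2 * (Nat.card H * 2) := by gcongr
    _ = Nat.card H * 2 ^ 2 := by ring
    _ ≤ _ := hb

end setup

/-- Let G be a finite 2-group of nilpotency class at most 2 and exponent dividing 4 in which the elements x with x² = 1 form a subgroup N. Then |G| ≤ |N|³, and |G| < |N|³ unless G is special. -/
theorem result {G : Type*} [Group G] [Finite G] (hG : IsPGroup 2 G) (hcl : (⊤ : Subgroup G).lowerCentralSeries 2 = ⊥) (hexp : ∀ x : G, x ^ 4 = 1) (hN : ∀ x y : G, x ^ 2 = 1 → y ^ 2 = 1 → (x * y) ^ 2 = 1) : Nat.card G ≤ Nat.card {x : G // x ^ 2 = 1} ^ 3 ∧ (¬ Cfsg.IsSpecial 2 G → Nat.card G < Nat.card {x : G // x ^ 2 = 1} ^ 3) := by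
  classical
  have S : Setup G := by
    refine ⟨?_, hexp, hN⟩
    intro x y z
    have h1 : ⁅⁅x, y⁆, z⁆ ∈ (⊤ : Subgroup G).lowerCentralSeries 2 := by
      rw [Subgroup.lowerCentralSeries_succ, Subgroup.lowerCentralSeries_succ,
        Subgroup.lowerCentralSeries_zero]
      exact Subgroup.commutator_mem_commutator
        (Subgroup.commutator_mem_commutator (Subgroup.mem_top x) (Subgroup.mem_top y))
        (Subgroup.mem_top z)
    rw [hcl, Subgroup.mem_bot] at h1
    exact commutatorElement_eq_one_iff_commute.mp h1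
  have hcard : Nat.card {x : G // x ^ 2 = 1} = Nat.card S.omega := rfl
  rw [hcard]
  have main : Nat.card G ≤ Nat.card S.omega ^ 3 := by
    have := S.bound ⊥ bot_le (fun x hx => Subgroup.mem_bot.mp hx)
    simpa using this
  refine ⟨main, ?_⟩
  intro hns
  by_contra hlt
  have heq : Nat.card G = Nat.card S.omega ^ 3 := le_antisymm main (not_lt.mp hlt)
  have hGpos : 0 < Nat.card G := Nat.card_pos
  apply hns
  have hcomm_le : commutator G ≤ S.omega := by
    rw [commutator_def, Subgroup.commutator_le]
    intro y _ x _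
    exact S.comm_mem x y
  -- the commutator subgroup is everything
  have hD : commutator G = S.omega := by
    by_contra hne
    have hlt' : commutator G < S.omega := lt_of_le_of_ne hcomm_le hne
    obtain ⟨u, huN, huD⟩ := SetLike.exists_of_lt hlt'
    let K : Subgroup S.omega := (commutator G).subgroupOf S.omega
    haveI : K.Normal := inferInstance
    obtain ⟨r, κ, -, hκ, -, -⟩ := exists_coords K (by
      intro x
      have h1 : x ^ 2 = 1 := Subtype.ext x.2
      rw [h1]
      exact K.one_mem)
    have hux : (⟨u, huN⟩ : S.omega) ∉ K := huD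
    rw [← hκ] at hux
    push Not at hux
    obtain ⟨j, hj⟩ := hux
    have hκD : ∀ x y : G, κ j ⟨⁅y, x⁆, S.comm_mem x y⟩ = 1 := by
      intro x y
      apply (hκ _).mpr _ j
      show ⁅y, x⁆ ∈ commutator G
      exact Subgroup.commutator_mem_commutator (Subgroup.mem_top y) (Subgroup.mem_top x)
    let χ : G →* Multiplicative (ZMod 2) :=
      { toFun := fun x => κ j ⟨x ^ 2, S.sq_mem x⟩
        map_one' := by
          have : (⟨(1 : G) ^ 2, S.sq_mem 1⟩ : S.omega) = 1 := Subtype.ext (by simp)
          rw [this, map_one]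
        map_mul' := by
          intro x y
          have h1 : (⟨(x * y) ^ 2, S.sq_mem _⟩ : S.omega)
              = ⟨x ^ 2, S.sq_mem x⟩ * ⟨y ^ 2, S.sq_mem y⟩ * ⟨⁅y, x⁆, S.comm_mem x y⟩ :=
            Subtype.ext (S.sq_mul x y)
          rw [h1, map_mul, map_mul, hκD, mul_one] }
    have hχ : ∀ x, χ x = κ j ⟨x ^ 2, S.sq_mem x⟩ := fun x => rfl
    have := S.bound_two χ (by
        intro n hn
        rw [MonoidHom.mem_ker, hχ]
        have : (⟨n ^ 2, S.sq_mem n⟩ : S.omega) = 1 := Subtype.ext hn
        rw [this, map_one]) u huN (by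
        rintro rfl
        exact huD (Subgroup.one_mem _)) (by
        intro x hx hxu
        subst hxu
        rw [hχ] at hx
        exact hj hx)
    omega
  -- the centre is the commutator subgroup
  have hZ : Subgroup.center G = S.omega := by
    apply le_antisymm
    · intro z hz
      by_contra hzN
      obtain ⟨m, c, e, hc, hce, hcard'⟩ := exists_coords S.omega S.sq_mem
      have hzc := (hc z).not.mpr hzN
      push Not at hzc
      obtain ⟨j, hj⟩ := hzc
      have hzcomm : ∀ x, Commute z x := fun x => (Subgroup.mem_center_iff.mp hz x).symm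
      have := S.bound_two (c j) (by
          intro n hn
          exact (hc n).mpr hn j) (z ^ 2) (S.sq_mem z) (by
          intro h
          exact hzN h) (by
          intro x hx hxz
          have h1 : (x * z) ^ 2 = 1 := by
            rw [S.sq_mul, hxz, commutatorElement_eq_one_iff_commute.mpr (hzcomm x), mul_one,
              ← pow_add]
            exact S.four z
          have h2 := (hc (x * z)).mpr h1 j
          rw [map_mul, hx, one_mul] at h2
          exact hj h2)
      omega
    · intro n hn
      rw [← hD] at hn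
      rw [Subgroup.mem_center_iff]
      intro g
      have h1 : commutator G ≤ Subgroup.center G := by
        rw [commutator_def, Subgroup.commutator_le]
        intro x _ y _
        rw [Subgroup.mem_center_iff]
        intro g
        exact (S.central x y g).symm.eq
      exact Subgroup.mem_center_iff.mp (h1 hn) g
  refine ⟨hG, ?_, ?_⟩
  · rw [hZ]
    apply le_antisymm
    · exact Frat.frattini_le_of_commutator_pow (p := 2) S.omega hcomm_le S.sq_mem
    · rw [← hD]
      exact Frat.commutator_le_frattini hG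
  · rw [hZ, hD]

end Cfsg.Agent.S3773
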