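import Mathlib
import Cfsg.Statements.S3738
import Cfsg.Agent.S3736
import Cfsg.Agent.S3773
import Cfsg.Agent.Lib.SelfCent
import Cfsg.Agent.Lib.NormQuot

set_option autoImplicit false
open Cfsg

namespace Cfsg.Agent.S3738

open scoped commutatorElement
open Cfsg.Agent.Lib

theorem nine_dvd_aux (m : ℕ) (h : 9 ∣ 2 ^ m - 1) (hm : m ≠ 0) : 6 ≤ m := by
  by_contra hlt
  push Not at hlt
  interval_cases m <;> omega

/-- The group of order nine acts freely; the only piece of arithmetic needed. -/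
theorem exists_pow_of_ne {G : Type*} [Group G] (f c : G) (hf : orderOf f = 9) (hc : c ∈ Subgroup.zpowers f)
    (hc1 : c ≠ 1) : ∃ j : ℕ, f ^ 3 = c ^ j := by
  classical
  have hfin : IsOfFinOrder f := by
    rw [← orderOf_pos_iff, hf]
    norm_num
  have hc' : c ∈ Submonoid.powers f := by
    rw [← hfin.mem_powers_iff_mem_zpowers] at hc
    exact hc
  rw [hfin.mem_powers_iff_mem_range_orderOf, hf] at hc'
  obtain ⟨i, hi, rfl⟩ := Finset.mem_image.mp hc'
  have hi9 : i < 9 := Finset.mem_range.mp hi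
  have hf9 : f ^ 9 = 1 := by rw [← hf, pow_orderOf_eq_one]
  have key : ∃ j : ℕ, ∃ t : ℕ, i * j = 3 + 9 * t := by
    interval_cases i
    · exact absurd (pow_zero f) hc1
    · exact ⟨3, 0, by norm_num⟩
    · exact ⟨6, 1, by norm_num⟩
    · exact ⟨1, 0, by norm_num⟩
    · exact ⟨3, 1, by norm_num⟩
    · exact ⟨6, 3, by norm_num⟩
    · exact ⟨2, 1, by norm_num⟩
    · exact ⟨3, 2, by norm_num⟩
    · exact ⟨6, 5, by norm_num⟩
  obtain ⟨j, t, hj⟩ := key
  refine ⟨j, ?_⟩
  rw [← pow_mul, hj, pow_add, pow_mul, hf9, one_pow, mul_one]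

/-- Let d be a non-identity 3-element of a finite group and P a 2-subgroup normalized by d on which ⟨d⟩ acts faithfully (no non-identity power of d centralizes P) and without non-identity fixed points (C_P(d) = 1). If every abelian subgroup of P has 2-rank at most 2, then d has order 3. -/
theorem result {X : Type*} [Group X] [Finite X] (d : X) (n : ℕ) (hn : 1 ≤ n) (hd : orderOf d = 3 ^ n) (P : Subgroup X) (hP : IsPGroup 2 P) (hdP : d ∈ Subgroup.normalizer (P : Set X)) (hfaith : Subgroup.zpowers d ⊓ Subgroup.centralizer (P : Set X) = ⊥) (hfpf : P ⊓ Subgroup.centralizer {d} = ⊥) (hrank : ∀ V : Subgroup X, V ≤ P → IsMulCommutative V → Cfsg.PRankLE 2 2 V) : orderOf d = 3 := by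
  classical
  by_contra hne3
  obtain ⟨k, rfl⟩ : ∃ k, n = k + 2 := by
    have : n ≠ 1 := by
      rintro rfl
      exact hne3 (by rw [hd, pow_one])
    exact ⟨n - 2, by omega⟩
  set f : X := d ^ (3 ^ k) with hf
  have hford : orderOf f = 9 := by
    rw [hf, orderOf_pow_of_dvd (pow_ne_zero _ (by norm_num))
      (by rw [hd]; exact pow_dvd_pow 3 (by omega)), hd, pow_add]
    have : 0 < 3 ^ k := by positivity
    exact Nat.mul_div_cancel_left _ this
  set e : X := f ^ 3 with he
  have heord : orderOf e = 3 := by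
    rw [he, orderOf_pow_of_dvd (by norm_num) (by rw [hford]; norm_num), hford]
  have he1 : e ≠ 1 := by
    intro h
    rw [h, orderOf_one] at heord
    omega
  let B : Subgroup X := Subgroup.zpowers d
  let A : Subgroup X := Subgroup.zpowers e
  have hfB : f ∈ B := Subgroup.pow_mem _ (Subgroup.mem_zpowers d) _
  have heB : e ∈ B := Subgroup.pow_mem _ hfB _
  have hAB : A ≤ B := Subgroup.zpowers_le.mpr heB
  have hBcomm : ∀ g ∈ B, ∀ y ∈ B, g * y = y * g := by
    rintro _ ⟨i, rfl⟩ _ ⟨j, rfl⟩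
    exact ((Commute.refl d).zpow_zpow i j).eq
  have hBA : B ≤ Subgroup.normalizer (A : Set X) := by
    intro g hg
    rw [Subgroup.mem_normalizer_iff]
    intro h
    constructor
    · intro hh
      have : g * h * g⁻¹ = h := by
        rw [hBcomm g hg h (hAB hh)]
        group
      rw [this]
      exact hh
    · intro hh
      have h1 : h = g * h * g⁻¹ := by
        have h2 := hBcomm g hg _ (hAB hh)
        have h3 : g * (g * h * g⁻¹) * g⁻¹ = g * h * g⁻¹ := by
          rw [h2]
          group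
        have h4 : g * h * g⁻¹ = h := by
          have := mul_left_cancel (a := g) (b := g * h * g⁻¹ * g⁻¹) (c := h * g⁻¹) (by
            rw [← mul_assoc, h3]
            group)
          exact mul_right_cancel this
        exact h4.symm
      rw [h1]
      exact hh
  have hBP : B ≤ Subgroup.normalizer (P : Set X) := Subgroup.zpowers_le.mpr hdP
  have hAcop : (Nat.card A).Coprime 2 := by
    rw [Nat.card_zpowers, heord]
    norm_num
  have hnt : ⁅P, A⁆ ≠ ⊥ := by
    intro h
    rw [Subgroup.commutator_comm, Subgroup.commutator_eq_bot_iff_le_centralizer] at h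
    have h1 : e ∈ Subgroup.zpowers d ⊓ Subgroup.centralizer (P : Set X) :=
      Subgroup.mem_inf.mpr ⟨heB, h (Subgroup.mem_zpowers e)⟩
    rw [hfaith] at h1
    exact he1 (Subgroup.mem_bot.mp h1)
  let S : Set (Subgroup X) := {U | U ≤ P ∧ B ≤ Subgroup.normalizer (U : Set X) ∧ ⁅U, A⁆ ≠ ⊥}
  obtain ⟨Q, ⟨hQP, hBQ, hQne⟩, hmin⟩ := wellFounded_lt.has_min S ⟨P, le_rfl, hBP, hnt⟩
  have hQp : IsPGroup 2 Q := hP.to_le hQP
  have hmin' : ∀ V : Subgroup X, V < Q → B ≤ Subgroup.normalizer (V : Set X) → ⁅V, A⁆ = ⊥ := by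
    intro V hVU hBV
    by_contra hVne
    exact hmin V ⟨hVU.le.trans hQP, hBV, hVne⟩ hVU
  obtain ⟨-, hC, hcomm, hPΦ, -⟩ := S3736.basic B A Q hQp hBQ hAB hBA hAcop hQne hmin'
  set Φ : Subgroup X := (frattini ↥Q).map Q.subtype with hΦ
  have hΦQ : Φ ≤ Q := by
    rw [hΦ]
    exact Subgroup.map_subtype_le _
  have hBΦ : B ≤ Subgroup.normalizer (Φ : Set X) := fun g hg =>
    S3736.mem_normalizer_map_of_characteristic Q _ (hBQ hg)
  have hxsq : ∀ x ∈ Q, x ^ 2 ∈ Φ := by
    intro x hx
    exact ⟨(⟨x, hx⟩ : Q) ^ 2, Frat.pow_mem_frattini hQp _, by simp⟩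
  have hcent : ∀ x ∈ Q, ∀ z ∈ Φ, x * z = z * x := by
    intro x hx z hz
    have h2 : ⁅x, z⁆ ∈ ⁅Q, Φ⁆ := Subgroup.commutator_mem_commutator hx hz
    rw [hPΦ] at h2
    exact (commutatorElement_eq_one_iff_commute.mp (Subgroup.mem_bot.mp h2)).eq
  have hconjQ : ∀ c ∈ B, ∀ x, x ∈ Q ↔ c * x * c⁻¹ ∈ Q := fun c hc x =>
    Subgroup.mem_normalizer_iff.mp (hBQ hc) x
  have hconjΦ : ∀ c ∈ B, ∀ x, x ∈ Φ ↔ c * x * c⁻¹ ∈ Φ := fun c hc x =>
    Subgroup.mem_normalizer_iff.mp (hBΦ hc) x
  -- the free action of the subgroup of order nine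
  let C : Subgroup X := Subgroup.zpowers f
  have hCB : C ≤ B := Subgroup.zpowers_le.mpr hfB
  let T : Set X := (Q : Set X) \ (Φ : Set X)
  letI act : MulAction C T :=
    { smul := fun c x => ⟨(c : X) * x * (c : X)⁻¹,
        (hconjQ c (hCB c.2) x).mp x.2.1, fun h => x.2.2 ((hconjΦ c (hCB c.2) x).mpr h)⟩
      one_smul := by
        intro x
        apply Subtype.ext
        show ((1 : C) : X) * x * ((1 : C) : X)⁻¹ = x
        simp
      mul_smul := by
        intro a b x
        apply Subtype.ext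
        show ((a * b : C) : X) * x * ((a * b : C) : X)⁻¹ = a * (b * x * (b : X)⁻¹) * (a : X)⁻¹
        simp only [Subgroup.coe_mul]
        group }
  have hsmul : ∀ (c : C) (x : T), ((c • x : T) : X) = (c : X) * x * (c : X)⁻¹ := fun c x => rfl
  have hfree : ∀ (x : T) (c : C), c • x = x → c = 1 := by
    intro x c hcx
    by_contra hc1
    have hc1' : (c : X) ≠ 1 := fun h => hc1 (Subtype.ext h)
    obtain ⟨j, hj⟩ := exists_pow_of_ne f c hford c.2 hc1'
    have h1 : (c : X) * x * (c : X)⁻¹ = x := by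
      rw [← hsmul, hcx]
    have h2 : Commute (c : X) x := by
      show (c : X) * x = x * c
      calc (c : X) * x = (c : X) * x * (c : X)⁻¹ * c := by group
        _ = x * c := by rw [h1]
    have h3 : Commute e x := by
      rw [he, hj]
      exact h2.pow_left j
    apply x.2.2
    rw [← hC]
    refine Subgroup.mem_inf.mpr ⟨x.2.1, ?_⟩
    rw [Subgroup.mem_centralizer_iff]
    rintro _ ⟨i, rfl⟩
    exact (h3.zpow_left i).eq
  have hdvd : Nat.card C ∣ Nat.card T := SelfCent.card_dvd_of_free hfree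
  have hCcard : Nat.card C = 9 := by
    rw [Nat.card_zpowers, hford]
  rw [hCcard] at hdvd
  have hcount : Nat.card T + Nat.card Φ = Nat.card Q := by
    have h1 := Set.ncard_sdiff_add_ncard_of_subset (s := (Φ : Set X)) (t := (Q : Set X)) hΦQ
      (Set.toFinite _)
    rw [Nat.card_coe_set_eq T]
    exact h1
  -- arithmetic
  obtain ⟨a, ha⟩ := IsPGroup.iff_card.mp hQp
  have hΦp : IsPGroup 2 Φ := hQp.to_le hΦQ
  obtain ⟨b, hb⟩ := IsPGroup.iff_card.mp hΦp
  have hrel : Φ.relIndex Q * Nat.card Φ = Nat.card Q := NormQuot.relIndex_mul_card' hΦQ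
  have htdvd : Φ.relIndex Q ∣ 2 ^ a := ⟨Nat.card Φ, by rw [← ha, hrel]⟩
  obtain ⟨m, -, hm⟩ := (Nat.dvd_prime_pow Nat.prime_two).mp htdvd
  have hΦne : Φ ≠ Q := by
    intro h
    apply hQne
    rw [Subgroup.commutator_eq_bot_iff_le_centralizer]
    have h1 : Q ≤ Q ⊓ Subgroup.centralizer (A : Set X) := by
      rw [hC, h]
    exact h1.trans inf_le_right
  have ht1 : Φ.relIndex Q ≠ 1 := by
    intro h
    have h1 : Q ≤ Φ := Subgroup.relIndex_eq_one.mp h
    exact hΦne (le_antisymm hΦQ h1)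
  have hm0 : m ≠ 0 := by
    rintro rfl
    exact ht1 (by rw [hm, pow_zero])
  have hΦpos : 0 < Nat.card Φ := Nat.card_pos
  have h9 : 9 ∣ 2 ^ m - 1 := by
    have h1 : Nat.card T = (2 ^ m - 1) * Nat.card Φ := by
      rw [Nat.sub_mul, one_mul, ← hm, hrel]
      omega
    rw [h1] at hdvd
    refine Nat.Coprime.dvd_of_dvd_mul_right ?_ hdvd
    rw [hb]
    exact Nat.Coprime.pow_right b (by norm_num)
  have hm6 : 6 ≤ m := nine_dvd_aux m h9 hm0
  have ht64 : 64 ≤ Φ.relIndex Q := by
    rw [hm]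
    calc 64 = 2 ^ 6 := by norm_num
      _ ≤ 2 ^ m := Nat.pow_le_pow_right (by norm_num) hm6
  have hQbig : 64 * Nat.card Φ ≤ Nat.card Q := by
    rw [← hrel]
    exact Nat.mul_le_mul_right _ ht64
  -- rank bound
  have hV : ∀ V : Subgroup X, V ≤ P → (∀ x ∈ V, ∀ y ∈ V, x * y = y * x) → (∀ x ∈ V, x ^ 2 = 1) →
      Nat.card V ≤ 4 := by
    intro V hVP hcm hsq
    have hc : IsMulCommutative V := ⟨⟨fun a b => Subtype.ext (hcm a a.2 b b.2)⟩⟩
    have := hrank V hVP hc ⊤ ⟨⟨fun a b => Subtype.ext (Subtype.ext (hcm _ a.1.2 _ b.1.2))⟩⟩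
      (fun a _ => Subtype.ext (by simpa using hsq a a.2))
    simpa using this
  by_cases hΦbot : Φ = ⊥
  · -- elementary abelian case
    have h1 : Nat.card Φ = 1 := by
      rw [hΦbot]
      simp
    have h2 : Nat.card Q ≤ 4 := by
      apply hV Q hQP
      · intro x hx y hy
        have h3 : ⁅x, y⁆ ∈ ⁅Q, Q⁆ := Subgroup.commutator_mem_commutator hx hy
        rw [hcomm, hΦbot, Subgroup.mem_bot] at h3
        exact (commutatorElement_eq_one_iff_commute.mp h3).eq
      · intro x hx
        have h3 := hxsq x hx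
        rw [hΦbot, Subgroup.mem_bot] at h3
        exact h3
    omega
  -- the special case
  have hΦcomm : ∀ x ∈ Φ, ∀ y ∈ Φ, x * y = y * x := fun x hx y hy => hcent x (hΦQ hx) y hy
  have hcomm2 : ∀ x ∈ Q, ∀ y ∈ Q, ⁅x, y⁆ ^ 2 = 1 := by
    intro x hx y hy
    have h1 : ⁅x, y⁆ ∈ Φ := by
      rw [← hcomm]
      exact Subgroup.commutator_mem_commutator hx hy
    have h2 : ⁅x * x, y⁆ = 1 := by
      have h3 : x * x ∈ Φ := by
        rw [← pow_two]
        exact hxsq x hx
      exact commutatorElement_eq_one_iff_commute.mpr (hcent y hy _ h3).symm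
    rw [commutatorElement_mul_left_eq_conj_mul] at h2
    have h4 : x * ⁅x, y⁆ * x⁻¹ = ⁅x, y⁆ := by
      rw [hcent x hx _ h1]
      group
    rw [h4, ← pow_two] at h2
    exact h2
  have hΦ2 : ∀ z ∈ Φ, z ^ 2 = 1 := by
    let K : Subgroup X :=
      { carrier := {z | z ∈ Φ ∧ z ^ 2 = 1}
        one_mem' := ⟨Φ.one_mem, one_pow 2⟩
        mul_mem' := by
          rintro a b ⟨ha, ha2⟩ ⟨hb, hb2⟩
          refine ⟨Φ.mul_mem ha hb, ?_⟩
          have : Commute a b := hΦcomm a ha b hb
          rw [this.mul_pow, ha2, hb2, one_mul]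
        inv_mem' := by
          rintro a ⟨ha, ha2⟩
          exact ⟨Φ.inv_mem ha, by rw [inv_pow, ha2, inv_one]⟩ }
    have h1 : ⁅Q, Q⁆ ≤ K := by
      rw [Subgroup.commutator_le]
      intro x hx y hy
      refine ⟨?_, hcomm2 x hx y hy⟩
      rw [← hcomm]
      exact Subgroup.commutator_mem_commutator hx hy
    intro z hz
    rw [← hcomm] at hz
    exact (h1 hz).2
  have hΦ4 : Nat.card Φ ≤ 4 := hV Φ (hΦQ.trans hQP) hΦcomm hΦ2
  have hΦcard : Nat.card Φ = 4 := by
    have hb3 : b ≤ 2 := by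
      by_contra hb3
      push Not at hb3
      have : 2 ^ 3 ≤ 2 ^ b := Nat.pow_le_pow_right (by norm_num) hb3
      rw [hb] at hΦ4
      omega
    have hb0 : b ≠ 0 := by
      rintro rfl
      apply hΦbot
      exact Subgroup.eq_bot_of_card_eq _ (by simpa using hb)
    have hb1 : b ≠ 1 := by
      rintro rfl
      -- a unique non-identity element would be fixed by `d`
      rw [pow_one, Nat.card_eq_two_iff' (1 : Φ)] at hb
      obtain ⟨z, hz1, hzu⟩ := hb
      have hz1' : (z : X) ≠ 1 := fun h => hz1 (Subtype.ext h)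
      have hdB : d ∈ B := Subgroup.mem_zpowers d
      have hdz : d * z * d⁻¹ ∈ Φ := (hconjΦ d hdB z).mp z.2
      have hdz1 : (⟨d * z * d⁻¹, hdz⟩ : Φ) ≠ 1 := by
        intro h
        have h1 : d * z * d⁻¹ = 1 := congrArg Subtype.val h
        apply hz1'
        have h2 : (z : X) = d⁻¹ * (d * z * d⁻¹) * d := by group
        rw [h2, h1]
        group
      have hdzz : d * z * d⁻¹ = z := congrArg Subtype.val (hzu _ hdz1)
      have hmem : (z : X) ∈ P ⊓ Subgroup.centralizer {d} := by
        refine Subgroup.mem_inf.mpr ⟨hQP (hΦQ z.2), ?_⟩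
        rw [Subgroup.mem_centralizer_singleton_iff]
        calc (z : X) * d = d * z * d⁻¹ * d := by rw [hdzz]
          _ = d * z := by group
      rw [hfpf] at hmem
      exact hz1' (Subgroup.mem_bot.mp hmem)
    have : b = 2 := by omega
    rw [hb, this]
    norm_num
  by_cases hinv : ∃ x ∈ Q, x ^ 2 = 1 ∧ x ∉ Φ
  · obtain ⟨x, hx, hx2, hxΦ⟩ := hinv
    have hxz : ∀ z ∈ Φ, x * z = z * x := hcent x hx
    have hxx : x * x = 1 := by rw [← pow_two]; exact hx2
    have hxinv : x⁻¹ = x := inv_eq_of_mul_eq_one_left hxx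
    let E : Subgroup X :=
      { carrier := {y | y ∈ Φ ∨ ∃ z ∈ Φ, y = z * x}
        one_mem' := Or.inl Φ.one_mem
        mul_mem' := by
          rintro a b (ha | ⟨z, hz, rfl⟩) (hb | ⟨w, hw, rfl⟩)
          · exact Or.inl (Φ.mul_mem ha hb)
          · exact Or.inr ⟨a * w, Φ.mul_mem ha hw, by group⟩
          · refine Or.inr ⟨z * b, Φ.mul_mem hz hb, ?_⟩
            rw [mul_assoc, hxz b hb, mul_assoc]
          · left
            have : z * x * (w * x) = z * w * (x * x) := by
              rw [mul_assoc, ← mul_assoc x, hxz w hw]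
              group
            rw [this, hxx, mul_one]
            exact Φ.mul_mem hz hw
        inv_mem' := by
          rintro a (ha | ⟨z, hz, rfl⟩)
          · exact Or.inl (Φ.inv_mem ha)
          · refine Or.inr ⟨z⁻¹, Φ.inv_mem hz, ?_⟩
            rw [mul_inv_rev, hxinv, hxz _ (Φ.inv_mem hz)] }
    have hEP : E ≤ P := by
      rintro y (hy | ⟨z, hz, rfl⟩)
      · exact hQP (hΦQ hy)
      · exact P.mul_mem (hQP (hΦQ hz)) (hQP hx)
    have hΦE : Φ ≤ E := fun y hy => Or.inl hy
    have hEcard : Nat.card E ≤ 4 := by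
      apply hV E hEP
      · rintro a (ha | ⟨z, hz, rfl⟩) b (hb | ⟨w, hw, rfl⟩)
        · exact hΦcomm a ha b hb
        · rw [← mul_assoc, hΦcomm a ha w hw, mul_assoc, ← hxz a ha, mul_assoc]
        · rw [mul_assoc, hxz b hb, ← mul_assoc, hΦcomm z hz b hb, mul_assoc]
        · calc z * x * (w * x) = z * (x * w) * x := by group
            _ = z * (w * x) * x := by rw [hxz w hw]
            _ = (z * w) * x * x := by group
            _ = (w * z) * x * x := by rw [hΦcomm z hz w hw]
            _ = w * (z * x) * x := by group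
            _ = w * (x * z) * x := by rw [hxz z hz]
            _ = w * x * (z * x) := by group
      · rintro a (ha | ⟨z, hz, rfl⟩)
        · exact hΦ2 a ha
        · have h1 : Commute z x := (hxz z hz).symm
          rw [h1.mul_pow, hΦ2 z hz, hx2, one_mul]
    have hEq : Φ = E := Subgroup.eq_of_le_of_card_ge hΦE (by omega)
    apply hxΦ
    rw [hEq]
    exact Or.inr ⟨1, Φ.one_mem, by simp⟩
  · push Not at hinv
    have hinv' : ∀ x ∈ Q, x ^ 2 = 1 → x ∈ Φ := by
      intro x hx h
      exact hinv x hx h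
    have hcl : (⊤ : Subgroup Q).lowerCentralSeries 2 = ⊥ := by
      rw [Subgroup.lowerCentralSeries_succ, Subgroup.lowerCentralSeries_succ,
        Subgroup.lowerCentralSeries_zero, eq_bot_iff, Subgroup.commutator_le]
      intro g hg h _
      have hgΦ : (g : X) ∈ Φ := by
        rw [← hcomm, ← Subgroup.map_subtype_commutator]
        exact ⟨g, hg, rfl⟩
      rw [Subgroup.mem_bot]
      apply Subtype.ext
      have h1 : (g : X) * h = h * g := (hcent h h.2 g hgΦ).symm
      show ⁅(g : X), (h : X)⁆ = 1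
      exact commutatorElement_eq_one_iff_commute.mpr h1
    have hexp : ∀ x : Q, x ^ 4 = 1 := by
      intro x
      apply Subtype.ext
      have h1 := hΦ2 _ (hxsq x x.2)
      rw [← pow_mul] at h1
      simpa using h1
    have hNc : ∀ x y : Q, x ^ 2 = 1 → y ^ 2 = 1 → (x * y) ^ 2 = 1 := by
      intro x y hx hy
      have hx' : (x : X) ^ 2 = 1 := by simpa using congrArg Subtype.val hx
      have hy' : (y : X) ^ 2 = 1 := by simpa using congrArg Subtype.val hy
      apply Subtype.ext
      have := hΦ2 _ (Φ.mul_mem (hinv' x x.2 hx') (hinv' y y.2 hy'))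
      simpa using this
    have h3773 := (S3773.result (G := Q) hQp hcl hexp hNc).1
    have hcard : Nat.card {x : Q // x ^ 2 = 1} = Nat.card Φ := by
      refine Nat.card_congr
        { toFun := fun x => ⟨x.1, hinv' x.1 x.1.2 (by simpa using congrArg Subtype.val x.2)⟩
          invFun := fun z => ⟨⟨z, hΦQ z.2⟩, Subtype.ext (by simpa using hΦ2 z z.2)⟩
          left_inv := fun x => rfl
          right_inv := fun z => rfl }
    rw [hcard, hΦcard] at h3773
    rw [hΦcard] at hQbig
    omega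

end Cfsg.Agent.S3738
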