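import Mathlib
import Cfsg.Statements.S3739
import Cfsg.Agent.S3736
import Cfsg.Agent.S3773
import Cfsg.Agent.S3738
import Cfsg.Agent.Lib.SelfCent
import Cfsg.Agent.Lib.NormQuot
import Cfsg.Agent.Lib.PCore
import Cfsg.Agent.Lib.CoprimeInv

set_option autoImplicit false
open Cfsg

namespace Cfsg.Agent.S3739

open scoped commutatorElement
open Cfsg.Agent.Lib

section aux

variable {X : Type*} [Group X] [Finite X]

/-- The fixed point congruence for a `p`-subgroup acting by conjugation on a subgroup. -/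
theorem card_modEq_inf_centralizer {p : ℕ} [Fact p.Prime] (H W : Subgroup X) (hH : IsPGroup p H)
    (hHW : H ≤ Subgroup.normalizer (W : Set X)) :
    Nat.card W ≡ Nat.card ↥(W ⊓ Subgroup.centralizer (H : Set X)) [MOD p] := by
  classical
  letI act : MulAction H W :=
    MulAction.compHom W (W.normalizerMonoidHom.comp (Subgroup.inclusion hHW))
  have hsmul : ∀ (h : H) (w : W), ((h • w : W) : X) = (h : X) * w * (h : X)⁻¹ := fun h w => rfl
  have h1 := hH.card_modEq_card_fixedPoints W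
  have h2 : Nat.card (MulAction.fixedPoints H W)
      = Nat.card ↥(W ⊓ Subgroup.centralizer (H : Set X)) := by
    refine Nat.card_congr
      { toFun := fun w => ⟨w.1, Subgroup.mem_inf.mpr ⟨w.1.2, ?_⟩⟩
        invFun := fun w => ⟨⟨w.1, (Subgroup.mem_inf.mp w.2).1⟩, ?_⟩
        left_inv := fun w => rfl
        right_inv := fun w => rfl }
    · rw [Subgroup.mem_centralizer_iff]
      intro h hh
      have h3 := congrArg Subtype.val (w.2 ⟨h, hh⟩)
      rw [hsmul] at h3
      calc h * (w.1 : X) = h * (w.1 : X) * h⁻¹ * h := by group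
        _ = w.1 * h := by rw [h3]
    · intro h
      apply Subtype.ext
      rw [hsmul]
      have h3 := (Subgroup.mem_inf.mp w.2).2
      rw [Subgroup.mem_centralizer_iff] at h3
      have h4 := h3 h h.2
      show (h : X) * w.1 * (h : X)⁻¹ = w.1
      rw [h4]
      group
  rw [h2] at h1
  exact h1

/-- Adjoining a commuting involution to an elementary abelian subgroup of order four does not
give anything new under the rank hypothesis. -/
theorem adj_mem (hE4 : ∀ E : Subgroup X, (∀ x ∈ E, ∀ y ∈ E, x * y = y * x) → (∀ x ∈ E, x ^ 2 = 1) →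
      Nat.card E ≤ 4)
    (F : Subgroup X) (hFc : ∀ x ∈ F, ∀ y ∈ F, x * y = y * x) (hF2 : ∀ x ∈ F, x ^ 2 = 1)
    (hFcard : Nat.card F = 4) (x : X) (hx2 : x ^ 2 = 1) (hxz : ∀ z ∈ F, x * z = z * x) : x ∈ F := by
  have hxx : x * x = 1 := by rw [← pow_two]; exact hx2
  have hxinv : x⁻¹ = x := inv_eq_of_mul_eq_one_left hxx
  let E : Subgroup X :=
    { carrier := {y | y ∈ F ∨ ∃ z ∈ F, y = z * x}
      one_mem' := Or.inl F.one_mem
      mul_mem' := by
        rintro a b (ha | ⟨z, hz, rfl⟩) (hb | ⟨w, hw, rfl⟩)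
        · exact Or.inl (F.mul_mem ha hb)
        · exact Or.inr ⟨a * w, F.mul_mem ha hw, by group⟩
        · refine Or.inr ⟨z * b, F.mul_mem hz hb, ?_⟩
          rw [mul_assoc, hxz b hb, mul_assoc]
        · left
          have : z * x * (w * x) = z * w * (x * x) := by
            rw [mul_assoc, ← mul_assoc x, hxz w hw]
            group
          rw [this, hxx, mul_one]
          exact F.mul_mem hz hw
      inv_mem' := by
        rintro a (ha | ⟨z, hz, rfl⟩)
        · exact Or.inl (F.inv_mem ha)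
        · refine Or.inr ⟨z⁻¹, F.inv_mem hz, ?_⟩
          rw [mul_inv_rev, hxinv, hxz _ (F.inv_mem hz)] }
  have hFE : F ≤ E := fun y hy => Or.inl hy
  have hEcard : Nat.card E ≤ 4 := by
    apply hE4 E
    · rintro a (ha | ⟨z, hz, rfl⟩) b (hb | ⟨w, hw, rfl⟩)
      · exact hFc a ha b hb
      · rw [← mul_assoc, hFc a ha w hw, mul_assoc, ← hxz a ha, mul_assoc]
      · rw [mul_assoc, hxz b hb, ← mul_assoc, hFc z hz b hb, mul_assoc]
      · calc z * x * (w * x) = z * (x * w) * x := by group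
          _ = z * (w * x) * x := by rw [hxz w hw]
          _ = (z * w) * x * x := by group
          _ = (w * z) * x * x := by rw [hFc z hz w hw]
          _ = w * (z * x) * x := by group
          _ = w * (x * z) * x := by rw [hxz z hz]
          _ = w * x * (z * x) := by group
    · rintro a (ha | ⟨z, hz, rfl⟩)
      · exact hF2 a ha
      · have h1 : Commute z x := (hxz z hz).symm
        rw [h1.mul_pow, hF2 z hz, hx2, one_mul]
  have hEq : F = E := Subgroup.eq_of_le_of_card_ge hFE (by omega)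
  rw [hEq]
  exact Or.inr ⟨1, F.one_mem, by simp⟩

theorem exists_pow_of_ne_three (c a : X) (hc : orderOf c = 3) (ha : a ∈ Subgroup.zpowers c)
    (ha1 : a ≠ 1) : ∃ j : ℕ, c = a ^ j := by
  classical
  have hfin : IsOfFinOrder c := by
    rw [← orderOf_pos_iff, hc]
    norm_num
  have ha' : a ∈ Submonoid.powers c := by
    rw [← hfin.mem_powers_iff_mem_zpowers] at ha
    exact ha
  rw [hfin.mem_powers_iff_mem_range_orderOf, hc] at ha'
  obtain ⟨i, hi, rfl⟩ := Finset.mem_image.mp ha'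
  have hi3 : i < 3 := Finset.mem_range.mp hi
  have hc3 : c ^ 3 = 1 := by rw [← hc, pow_orderOf_eq_one]
  interval_cases i
  · exact absurd (pow_zero c) ha1
  · exact ⟨1, by simp⟩
  · refine ⟨2, ?_⟩
    rw [← pow_mul]
    have : c ^ (2 * 2) = c ^ 3 * c := by rw [← pow_succ]
    rw [this, hc3, one_mul]

theorem three_cycle (σ : Equiv.Perm (Fin 3)) (hσ : ∀ i, σ i ≠ i) (n : Fin 3 → ℕ)
    (hn : ∀ i, n (σ i) = n i) (i j : Fin 3) : n i = n j := by
  have key : ∀ σ : Equiv.Perm (Fin 3), (∀ i, σ i ≠ i) → ∀ i j : Fin 3,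
      i = j ∨ σ i = j ∨ σ (σ i) = j := by decide
  rcases key σ hσ i j with h | h | h
  · rw [h]
  · rw [← h, hn]
  · rw [← h, hn, hn]

/-- An element of order `p` fixed by a `p`-group. -/
theorem exists_order_fixed {p : ℕ} [hp : Fact p.Prime] (H V : Subgroup X) (hH : IsPGroup p H)
    (hHV : H ≤ Subgroup.normalizer (V : Set X)) (hV : p ∣ Nat.card V) :
    ∃ x ∈ V ⊓ Subgroup.centralizer (H : Set X), orderOf x = p := by
  have h1 := card_modEq_inf_centralizer H V hH hHV
  have h2 : p ∣ Nat.card ↥(V ⊓ Subgroup.centralizer (H : Set X)) :=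
    (Nat.modEq_zero_iff_dvd.mp (h1.symm.trans (Nat.modEq_zero_iff_dvd.mpr hV)))
  obtain ⟨x, hx⟩ := exists_prime_orderOf_dvd_card' (G := ↥(V ⊓ Subgroup.centralizer (H : Set X))) p h2
  exact ⟨x, x.2, by rw [← hx]; exact Subgroup.orderOf_coe x⟩

/-- The main case: an element of order three centralizing `W` and commuting with `d`. -/
theorem caseB (Q W : Subgroup X) (c d : X)
    (hQ : IsPGroup 2 Q) (hcQ : c ∈ Subgroup.normalizer (Q : Set X))
    (hdQ : d ∈ Subgroup.normalizer (Q : Set X))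
    (hc : orderOf c = 3) (hcd : Commute c d)
    (hWc : ∀ x ∈ W, ∀ y ∈ W, x * y = y * x) (hW2 : ∀ x ∈ W, x ^ 2 = 1) (hWcard : Nat.card W = 4)
    (hfpf : ∀ w ∈ W, d * w * d⁻¹ = w → w = 1)
    (hWQ : ∀ x ∈ Q, ∀ w ∈ W, x * w = w * x)
    (hcW : ∀ w ∈ W, c * w = w * c)
    (hnt : ⁅Q, Subgroup.zpowers c⁆ ≠ ⊥)
    (hE4 : ∀ E : Subgroup X, (∀ x ∈ E, ∀ y ∈ E, x * y = y * x) → (∀ x ∈ E, x ^ 2 = 1) →
      Nat.card E ≤ 4) : False := by
  classical
  let A : Subgroup X := Subgroup.zpowers c
  let B : Subgroup X := A ⊔ Subgroup.zpowers d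
  have hAcop : (Nat.card A).Coprime 2 := by
    rw [Nat.card_zpowers, hc]
    norm_num
  have hdcomm : ∀ a ∈ A, Commute d a := by
    rintro _ ⟨k, rfl⟩
    exact (hcd.symm.zpow_right k)
  have hdA : d ∈ Subgroup.normalizer (A : Set X) := by
    rw [Subgroup.mem_normalizer_iff]
    intro h
    constructor
    · intro hh
      have : d * h * d⁻¹ = h := by
        rw [(hdcomm h hh).eq]
        group
      rw [this]
      exact hh
    · intro hh
      have h1 := (hdcomm _ hh).eq
      have h6 : d * (d * h * d⁻¹) = d * h := by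
        rw [h1]
        group
      have h2 : d * h * d⁻¹ = h := mul_left_cancel h6
      rw [h2] at hh
      exact hh
  have hcB : c ∈ B := Subgroup.mem_sup_left (Subgroup.mem_zpowers c)
  have hdB : d ∈ B := Subgroup.mem_sup_right (Subgroup.mem_zpowers d)
  have hAB : A ≤ B := le_sup_left
  have hBA : B ≤ Subgroup.normalizer (A : Set X) :=
    sup_le Subgroup.le_normalizer (Subgroup.zpowers_le.mpr hdA)
  have hBQ : B ≤ Subgroup.normalizer (Q : Set X) :=
    sup_le (Subgroup.zpowers_le.mpr hcQ) (Subgroup.zpowers_le.mpr hdQ)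
  let S : Set (Subgroup X) := {U | U ≤ Q ∧ B ≤ Subgroup.normalizer (U : Set X) ∧ ⁅U, A⁆ ≠ ⊥}
  obtain ⟨R, ⟨hRQ, hBR, hRne⟩, hmin⟩ := wellFounded_lt.has_min S ⟨Q, le_rfl, hBQ, hnt⟩
  have hRp : IsPGroup 2 R := hQ.to_le hRQ
  have hmin' : ∀ V : Subgroup X, V < R → B ≤ Subgroup.normalizer (V : Set X) → ⁅V, A⁆ = ⊥ := by
    intro V hVU hBV
    by_contra hVne
    exact hmin V ⟨hVU.le.trans hRQ, hBV, hVne⟩ hVU
  obtain ⟨-, hC, hcomm, hPΦ, -⟩ := S3736.basic B A R hRp hBR hAB hBA hAcop hRne hmin'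
  set Φ : Subgroup X := (frattini ↥R).map R.subtype with hΦ
  have hΦR : Φ ≤ R := by
    rw [hΦ]
    exact Subgroup.map_subtype_le _
  have hBΦ : B ≤ Subgroup.normalizer (Φ : Set X) := fun g hg =>
    S3736.mem_normalizer_map_of_characteristic R _ (hBR hg)
  have hxsq : ∀ x ∈ R, x ^ 2 ∈ Φ := by
    intro x hx
    exact ⟨(⟨x, hx⟩ : R) ^ 2, Frat.pow_mem_frattini hRp _, by simp⟩
  have hcent : ∀ x ∈ R, ∀ z ∈ Φ, x * z = z * x := by
    intro x hx z hz
    have h2 : ⁅x, z⁆ ∈ ⁅R, Φ⁆ := Subgroup.commutator_mem_commutator hx hz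
    rw [hPΦ] at h2
    exact (commutatorElement_eq_one_iff_commute.mp (Subgroup.mem_bot.mp h2)).eq
  have hconjR : ∀ g ∈ B, ∀ x, x ∈ R ↔ g * x * g⁻¹ ∈ R := fun g hg x =>
    Subgroup.mem_normalizer_iff.mp (hBR hg) x
  have hconjΦ : ∀ g ∈ B, ∀ x, x ∈ Φ ↔ g * x * g⁻¹ ∈ Φ := fun g hg x =>
    Subgroup.mem_normalizer_iff.mp (hBΦ hg) x
  have hΦcomm : ∀ x ∈ Φ, ∀ y ∈ Φ, x * y = y * x := fun x hx y hy => hcent x (hΦR hx) y hy
  have hcomm2 : ∀ x ∈ R, ∀ y ∈ R, ⁅x, y⁆ ^ 2 = 1 := by
    intro x hx y hy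
    have h1 : ⁅x, y⁆ ∈ Φ := by
      rw [← hcomm]
      exact Subgroup.commutator_mem_commutator hx hy
    have h2 : ⁅x * x, y⁆ = 1 := by
      have h3 : x * x ∈ Φ := by
        rw [← pow_two]
        exact hxsq x hx
      exact commutatorElement_eq_one_iff_commute.mpr (hcent y hy _ h3).symm
    rw [commutatorElement_mul_left_eq_conj_mul] at h2
    have h4 : x * ⁅x, y⁆ * x⁻¹ = ⁅x, y⁆ := by
      rw [hcent x hx _ h1]
      group
    rw [h4, ← pow_two] at h2
    exact h2
  have hΦ2 : ∀ z ∈ Φ, z ^ 2 = 1 := by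
    let K : Subgroup X :=
      { carrier := {z | z ∈ Φ ∧ z ^ 2 = 1}
        one_mem' := ⟨Φ.one_mem, one_pow 2⟩
        mul_mem' := by
          rintro a b ⟨ha, ha2⟩ ⟨hb, hb2⟩
          refine ⟨Φ.mul_mem ha hb, ?_⟩
          have : Commute a b := hΦcomm a ha b hb
          rw [this.mul_pow, ha2, hb2, one_mul]
        inv_mem' := by
          rintro a ⟨ha, ha2⟩
          exact ⟨Φ.inv_mem ha, by rw [inv_pow, ha2, inv_one]⟩ }
    have h1 : ⁅R, R⁆ ≤ K := by
      rw [Subgroup.commutator_le]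
      intro x hx y hy
      refine ⟨?_, hcomm2 x hx y hy⟩
      rw [← hcomm]
      exact Subgroup.commutator_mem_commutator hx hy
    intro z hz
    rw [← hcomm] at hz
    exact (h1 hz).2
  -- elements commuting with `c` are in the centralizer of `A`
  have hcC : ∀ x, Commute c x → x ∈ Subgroup.centralizer (A : Set X) := by
    intro x hx
    rw [Subgroup.mem_centralizer_iff]
    rintro _ ⟨k, rfl⟩
    exact (hx.zpow_left k).eq
  have hadj := adj_mem hE4 W hWc hW2 hWcard
  by_cases hΦbot : Φ = ⊥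
  · -- `R` is elementary abelian, hence inside `W`
    apply hRne
    rw [Subgroup.commutator_eq_bot_iff_le_centralizer]
    intro x hx
    have h1 : x ^ 2 = 1 := by
      have h3 := hxsq x hx
      rw [hΦbot, Subgroup.mem_bot] at h3
      exact h3
    have h2 : x ∈ W := hadj x h1 (hWQ x (hRQ hx))
    exact hcC x (hcW x h2)
  -- the special case
  have hΦW : Φ ≤ W := fun z hz => hadj z (hΦ2 z hz) (hWQ z (hRQ (hΦR hz)))
  have hΦcard : Nat.card Φ = 4 := by
    have h1 : Nat.card Φ ∣ Nat.card W := Subgroup.card_dvd_of_le hΦW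
    rw [hWcard] at h1
    have h2 : Nat.card Φ ≤ 4 := Nat.le_of_dvd (by norm_num) h1
    have h3 : Nat.card Φ ≠ 1 := by
      intro h
      exact hΦbot (Subgroup.eq_bot_of_card_eq _ h)
    have h4 : Nat.card Φ ≠ 2 := by
      intro h
      rw [Nat.card_eq_two_iff' (1 : Φ)] at h
      obtain ⟨z, hz1, hzu⟩ := h
      have hz1' : (z : X) ≠ 1 := fun h => hz1 (Subtype.ext h)
      have hdz : d * z * d⁻¹ ∈ Φ := (hconjΦ d hdB z).mp z.2
      have hdz1 : (⟨d * z * d⁻¹, hdz⟩ : Φ) ≠ 1 := by
        intro h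
        have h1 : d * z * d⁻¹ = 1 := congrArg Subtype.val h
        apply hz1'
        have h2 : (z : X) = d⁻¹ * (d * z * d⁻¹) * d := by group
        rw [h2, h1]
        group
      have hdzz : d * z * d⁻¹ = z := congrArg Subtype.val (hzu _ hdz1)
      exact hz1' (hfpf z (hΦW z.2) hdzz)
    have h5 : Nat.card Φ ≠ 0 := Nat.card_pos.ne'
    have h6 : Nat.card Φ ≠ 3 := by
      intro h
      rw [h] at h1
      omega
    omega
  have hΦeq : Φ = W := Subgroup.eq_of_le_of_card_ge hΦW (by omega)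
  have hinv' : ∀ x ∈ R, x ^ 2 = 1 → x ∈ Φ := by
    intro x hx h
    rw [hΦeq]
    exact hadj x h (hWQ x (hRQ hx))
  -- the order bound
  have hR64 : Nat.card R ≤ 64 := by
    have hcl : (⊤ : Subgroup R).lowerCentralSeries 2 = ⊥ := by
      rw [Subgroup.lowerCentralSeries_succ, Subgroup.lowerCentralSeries_succ,
        Subgroup.lowerCentralSeries_zero, eq_bot_iff, Subgroup.commutator_le]
      intro g hg h _
      have hgΦ : (g : X) ∈ Φ := by
        rw [← hcomm, ← Subgroup.map_subtype_commutator]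
        exact ⟨g, hg, rfl⟩
      rw [Subgroup.mem_bot]
      apply Subtype.ext
      have h1 : (g : X) * h = h * g := (hcent h h.2 g hgΦ).symm
      show ⁅(g : X), (h : X)⁆ = 1
      exact commutatorElement_eq_one_iff_commute.mpr h1
    have hexp : ∀ x : R, x ^ 4 = 1 := by
      intro x
      apply Subtype.ext
      have h1 := hΦ2 _ (hxsq x x.2)
      rw [← pow_mul] at h1
      simpa using h1
    have hNc : ∀ x y : R, x ^ 2 = 1 → y ^ 2 = 1 → (x * y) ^ 2 = 1 := by
      intro x y hx hy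
      have hx' : (x : X) ^ 2 = 1 := by simpa using congrArg Subtype.val hx
      have hy' : (y : X) ^ 2 = 1 := by simpa using congrArg Subtype.val hy
      apply Subtype.ext
      have := hΦ2 _ (Φ.mul_mem (hinv' x x.2 hx') (hinv' y y.2 hy'))
      simpa using this
    have h3773 := (S3773.result (G := R) hRp hcl hexp hNc).1
    have hcard : Nat.card {x : R // x ^ 2 = 1} = Nat.card Φ := by
      refine Nat.card_congr
        { toFun := fun x => ⟨x.1, hinv' x.1 x.1.2 (by simpa using congrArg Subtype.val x.2)⟩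
          invFun := fun z => ⟨⟨z, hΦR z.2⟩, Subtype.ext (by simpa using hΦ2 z z.2)⟩
          left_inv := fun x => rfl
          right_inv := fun z => rfl }
    rw [hcard, hΦcard] at h3773
    exact h3773
  -- the count
  let T : Set X := (R : Set X) \ (Φ : Set X)
  let Y : Type _ := {y : Φ // y ≠ 1}
  have hYcard : Nat.card Y = 3 := by
    haveI := Fintype.ofFinite Φ
    have h1 : Nat.card Φ = Fintype.card Φ := Nat.card_eq_fintype_card
    rw [Nat.card_eq_fintype_card, Fintype.card_subtype_compl, Fintype.card_subtype_eq, ← h1,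
      hΦcard]
  have hsqne : ∀ x : T, (x : X) ^ 2 ≠ 1 := fun x h => x.2.2 (hinv' x x.2.1 h)
  let f : T → Y := fun x =>
    ⟨⟨(x : X) ^ 2, hxsq x x.2.1⟩, fun h => hsqne x (congrArg Subtype.val h)⟩
  have hfval : ∀ x : T, (((f x : Y) : Φ) : X) = (x : X) ^ 2 := fun x => rfl
  -- conjugation by `d`
  let σf : Y → Y := fun y =>
    ⟨⟨d * y.1 * d⁻¹, (hconjΦ d hdB y.1).mp y.1.2⟩, by
      intro h
      have h1 : d * (y.1 : X) * d⁻¹ = 1 := congrArg Subtype.val h
      apply y.2
      apply Subtype.ext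
      have h2 : (y.1 : X) = d⁻¹ * (d * y.1 * d⁻¹) * d := by group
      rw [h2, h1]
      simp⟩
  have hσinj : Function.Injective σf := by
    intro y y' h
    have h1 : d * (y.1 : X) * d⁻¹ = d * y'.1 * d⁻¹ :=
      congrArg (fun t : Y => ((t : Φ) : X)) h
    apply Subtype.ext
    apply Subtype.ext
    simpa using h1
  let σ : Equiv.Perm Y := Equiv.ofBijective σf (Finite.injective_iff_bijective.mp hσinj)
  have hσval : ∀ y : Y, (((σ y : Y) : Φ) : X) = d * y.1 * d⁻¹ := fun y => rfl
  have hσfix : ∀ y : Y, σ y ≠ y := by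
    intro y h
    have h1 : d * (y.1 : X) * d⁻¹ = y.1 := by
      rw [← hσval, h]
    apply y.2
    apply Subtype.ext
    exact hfpf y.1 (hΦW y.1.2) h1
  have hTR : ∀ x : T, (x : X) ∈ R := fun x => x.2.1
  have hTΦ : ∀ x : T, (x : X) ∉ Φ := fun x => x.2.2
  have hTmem : ∀ y, y ∈ R → y ∉ Φ → y ∈ T := fun y h1 h2 => ⟨h1, h2⟩
  let conjT : T ≃ T :=
    { toFun := fun x => ⟨d * x * d⁻¹, hTmem _ ((hconjR d hdB _).mp (hTR x))
        (fun h => hTΦ x ((hconjΦ d hdB _).mpr h))⟩
      invFun := fun x => ⟨d⁻¹ * x * d, hTmem _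
        ((hconjR d hdB _).mpr (by
          have : d * (d⁻¹ * (x : X) * d) * d⁻¹ = x := by group
          rw [this]
          exact hTR x))
        (fun h => hTΦ x (by
          have h1 := (hconjΦ d hdB _).mp h
          have : d * (d⁻¹ * (x : X) * d) * d⁻¹ = x := by group
          rwa [this] at h1))⟩
      left_inv := by
        intro x
        apply Subtype.ext
        show d⁻¹ * (d * (x : X) * d⁻¹) * d = x
        group
      right_inv := by
        intro x
        apply Subtype.ext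
        show d * (d⁻¹ * (x : X) * d) * d⁻¹ = x
        group }
  have hconjT : ∀ x : T, ((conjT x : T) : X) = d * x * d⁻¹ := fun x => rfl
  have hfσ : ∀ x : T, f (conjT x) = σ (f x) := by
    intro x
    apply Subtype.ext
    apply Subtype.ext
    rw [hσval, hfval, hfval, hconjT, conj_pow]
  let n : Y → ℕ := fun y => Nat.card {x : T // f x = y}
  have hn : ∀ y, n (σ y) = n y := by
    intro y
    symm
    refine Nat.card_congr (Equiv.subtypeEquiv conjT (fun x => ?_))
    rw [hfσ]
    exact σ.injective.eq_iff.symm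
  -- all fibres have the same size
  let e : Y ≃ Fin 3 := Finite.equivFinOfCardEq hYcard
  have hnconst : ∀ y y', n y = n y' := by
    intro y y'
    have h1 := three_cycle (e.symm.trans (σ.trans e)) (by
        intro i h
        have h2 : e (σ (e.symm i)) = i := h
        apply hσfix (e.symm i)
        apply e.injective
        rw [h2]
        simp) (fun i => n (e.symm i)) (by
        intro i
        show n (e.symm (e (σ (e.symm i)))) = n (e.symm i)
        rw [Equiv.symm_apply_apply, hn]) (e y) (e y')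
    simpa using h1
  haveI : Nonempty Y := ⟨e.symm 0⟩
  obtain ⟨y₀⟩ := (inferInstance : Nonempty Y)
  have hsum : Nat.card T = 3 * n y₀ := by
    haveI := Fintype.ofFinite Y
    have h1 : Nat.card T = ∑ y : Y, n y := by
      rw [Nat.card_congr (Equiv.sigmaFiberEquiv f).symm, Nat.card_sigma]
    rw [h1, Finset.sum_congr rfl (fun y _ => hnconst y y₀), Finset.sum_const, Finset.card_univ,
      ← Nat.card_eq_fintype_card, hYcard]
    rfl
  -- the free action of `A` on a fibre
  have hAW : ∀ a ∈ A, ∀ w ∈ W, a * w = w * a := by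
    rintro _ ⟨k, rfl⟩ w hw
    exact (Commute.zpow_left (hcW w hw) k).eq
  have hAB' : ∀ a ∈ A, a ∈ B := fun a ha => hAB ha
  have hconjA : ∀ (a : X) (ha : a ∈ A) (x : {x : T // f x = y₀}),
      f ⟨a * x.1 * a⁻¹, hTmem _ ((hconjR a (hAB' a ha) _).mp (hTR x.1))
        (fun h => hTΦ x.1 ((hconjΦ a (hAB' a ha) _).mpr h))⟩ = y₀ := by
    intro a ha x
    refine Eq.trans ?_ x.2
    apply Subtype.ext
    apply Subtype.ext
    rw [hfval, hfval]
    show (a * ((x.1 : T) : X) * a⁻¹) ^ 2 = ((x.1 : T) : X) ^ 2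
    rw [conj_pow, hAW a ha _ (hΦW (hxsq _ (hTR x.1)))]
    group
  letI act : MulAction A {x : T // f x = y₀} :=
    { smul := fun a x => ⟨⟨(a : X) * x.1 * (a : X)⁻¹, hTmem _ ((hconjR a (hAB' a a.2) _).mp (hTR x.1))
        (fun h => hTΦ x.1 ((hconjΦ a (hAB' a a.2) _).mpr h))⟩, hconjA a a.2 x⟩
      one_smul := by
        intro x
        apply Subtype.ext
        apply Subtype.ext
        show ((1 : A) : X) * ((x.1 : T) : X) * ((1 : A) : X)⁻¹ = x.1
        simp
      mul_smul := by
        intro a b x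
        apply Subtype.ext
        apply Subtype.ext
        show ((a * b : A) : X) * ((x.1 : T) : X) * ((a * b : A) : X)⁻¹
          = a * (b * ((x.1 : T) : X) * (b : X)⁻¹) * (a : X)⁻¹
        simp only [Subgroup.coe_mul]
        group }
  have hsmulA : ∀ (a : A) (x : {x : T // f x = y₀}),
      (((a • x : {x : T // f x = y₀}) : T) : X) = (a : X) * x.1 * (a : X)⁻¹ := fun a x => rfl
  have hfree : ∀ (x : {x : T // f x = y₀}) (a : A), a • x = x → a = 1 := by
    intro x a hax
    by_contra ha1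
    have ha1' : (a : X) ≠ 1 := fun h => ha1 (Subtype.ext h)
    obtain ⟨j, hj⟩ := exists_pow_of_ne_three c a hc a.2 ha1'
    have h1 : (a : X) * x.1 * (a : X)⁻¹ = x.1 := by
      rw [← hsmulA, hax]
    have h2 : Commute (a : X) ((x.1 : T) : X) := by
      show (a : X) * x.1 = x.1 * a
      calc (a : X) * x.1 = (a : X) * x.1 * (a : X)⁻¹ * a := by group
        _ = x.1 * a := by rw [h1]
    have h3 : Commute c ((x.1 : T) : X) := by
      rw [hj]
      exact h2.pow_left j
    apply hTΦ x.1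
    rw [← hC]
    exact Subgroup.mem_inf.mpr ⟨hTR x.1, hcC _ h3⟩
  have hdvd : Nat.card A ∣ n y₀ := SelfCent.card_dvd_of_free hfree
  have hAcard : Nat.card A = 3 := by
    rw [Nat.card_zpowers, hc]
  rw [hAcard] at hdvd
  -- arithmetic
  have hcount : Nat.card T + Nat.card Φ = Nat.card R := by
    have h1 := Set.ncard_sdiff_add_ncard_of_subset (s := (Φ : Set X)) (t := (R : Set X)) hΦR
      (Set.toFinite _)
    rw [Nat.card_coe_set_eq T]
    exact h1
  obtain ⟨a, ha⟩ := IsPGroup.iff_card.mp hRp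
  have hrel : Φ.relIndex R * Nat.card Φ = Nat.card R := NormQuot.relIndex_mul_card' hΦR
  have htdvd : Φ.relIndex R ∣ 2 ^ a := ⟨Nat.card Φ, by rw [← ha, hrel]⟩
  obtain ⟨m, -, hm⟩ := (Nat.dvd_prime_pow Nat.prime_two).mp htdvd
  have hΦne : Φ ≠ R := by
    intro h
    apply hRne
    rw [Subgroup.commutator_eq_bot_iff_le_centralizer]
    have h1 : R ≤ R ⊓ Subgroup.centralizer (A : Set X) := by
      rw [hC, h]
    exact h1.trans inf_le_right
  have hm0 : m ≠ 0 := by
    rintro rfl
    have h1 : R ≤ Φ := Subgroup.relIndex_eq_one.mp (by rw [hm, pow_zero])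
    exact hΦne (le_antisymm hΦR h1)
  have h9 : 9 ∣ 2 ^ m - 1 := by
    have h1 : Nat.card T = (2 ^ m - 1) * 4 := by
      rw [Nat.sub_mul, one_mul, ← hm, ← hΦcard, hrel]
      omega
    have h2 : 9 ∣ (2 ^ m - 1) * 4 := by
      rw [← h1, hsum]
      obtain ⟨u, hu⟩ := hdvd
      exact ⟨u, by rw [hu]; ring⟩
    exact Nat.Coprime.dvd_of_dvd_mul_right (by norm_num) h2
  have hm6 : 6 ≤ m := S3738.nine_dvd_aux m h9 hm0
  have ht64 : 64 ≤ Φ.relIndex R := by
    rw [hm]
    calc 64 = 2 ^ 6 := by norm_num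
      _ ≤ 2 ^ m := Nat.pow_le_pow_right (by norm_num) hm6
  have hRbig : 64 * Nat.card Φ ≤ Nat.card R := by
    rw [← hrel]
    exact Nat.mul_le_mul_right _ ht64
  rw [hΦcard] at hRbig
  omega

end aux

/-- Let G be a finite group with C_G(O₂(G)) ≤ O₂(G) containing an element of order 6, and let d be a non-identity 3-element of G normalizing a nontrivial elementary abelian 2-subgroup W with C_W(d) = 1. Then G has an elementary abelian subgroup of order 8. -/
theorem result {G : Type*} [Group G] [Finite G] (hchar : Subgroup.centralizer (Cfsg.pCore 2 G : Set G) ≤ Cfsg.pCore 2 G) (hsix : ∃ g : G, orderOf g = 6) (d : G) (hd1 : d ≠ 1) (hd : IsPGroup 3 ↥(Subgroup.zpowers d)) (W : Subgroup G) (hW : Cfsg.IsElementaryAbelian 2 W) (hW1 : W ≠ ⊥) (hdW : d ∈ Subgroup.normalizer (W : Set G)) (hfpf : W ⊓ Subgroup.centralizer {d} = ⊥) : ∃ E : Subgroup G, Cfsg.IsElementaryAbelian 2 E ∧ Nat.card E = 8 := by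
  classical
  by_contra hno
  -- the rank bound
  have hE4 : ∀ E : Subgroup G, (∀ x ∈ E, ∀ y ∈ E, x * y = y * x) → (∀ x ∈ E, x ^ 2 = 1) →
      Nat.card E ≤ 4 := by
    intro E hc h2
    by_contra hgt
    push Not at hgt
    have hE2 : IsPGroup 2 E := fun x => ⟨1, Subtype.ext (by simpa using h2 x x.2)⟩
    obtain ⟨k, hk⟩ := IsPGroup.iff_card.mp hE2
    have hk3 : 3 ≤ k := by
      by_contra hlt
      have h1 : k ≤ 2 := by omega
      have h3 : 2 ^ k ≤ 2 ^ 2 := Nat.pow_le_pow_right (by norm_num) h1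
      omega
    have hdvd : 2 ^ 3 ∣ Nat.card E := by
      rw [hk]
      exact pow_dvd_pow 2 hk3
    obtain ⟨K, hK⟩ := Sylow.exists_subgroup_card_pow_prime 2 hdvd
    apply hno
    refine ⟨K.map E.subtype, ⟨⟨⟨?_⟩⟩, ?_⟩, ?_⟩
    · rintro ⟨_, a, ha, rfl⟩ ⟨_, b, hb, rfl⟩
      exact Subtype.ext (hc a a.2 b b.2)
    · rintro _ ⟨a, ha, rfl⟩
      exact h2 a a.2
    · rw [Nat.card_congr (K.equivMapOfInjective E.subtype E.subtype_injective).symm.toEquiv, hK]
      norm_num
  have hWc : ∀ x ∈ W, ∀ y ∈ W, x * y = y * x := by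
    intro x hx y hy
    have := hW.1.is_comm.comm ⟨x, hx⟩ ⟨y, hy⟩
    exact congrArg Subtype.val this
  have hW2 := hW.2
  have hdHW : Subgroup.zpowers d ≤ Subgroup.normalizer (W : Set G) := Subgroup.zpowers_le.mpr hdW
  have hfpf' : ∀ w ∈ W, d * w * d⁻¹ = w → w = 1 := by
    intro w hw h
    have h1 : w ∈ W ⊓ Subgroup.centralizer {d} := by
      refine Subgroup.mem_inf.mpr ⟨hw, ?_⟩
      rw [Subgroup.mem_centralizer_singleton_iff]
      calc w * d = d * w * d⁻¹ * d := by rw [h]
        _ = d * w := by group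
    rw [hfpf] at h1
    exact Subgroup.mem_bot.mp h1
  have hdfix : ∀ I : Subgroup G, I ≤ W → Subgroup.zpowers d ≤ Subgroup.normalizer (I : Set G) →
      Nat.card I ≡ 1 [MOD 3] := by
    intro I hI hdI
    have h1 := card_modEq_inf_centralizer (p := 3) (Subgroup.zpowers d) I hd hdI
    have h2 : I ⊓ Subgroup.centralizer (Subgroup.zpowers d : Set G) = ⊥ := by
      rw [eq_bot_iff, ← hfpf]
      intro x hx
      refine Subgroup.mem_inf.mpr ⟨hI (Subgroup.mem_inf.mp hx).1, ?_⟩
      rw [Subgroup.mem_centralizer_singleton_iff]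
      have h3 := (Subgroup.mem_inf.mp hx).2
      rw [Subgroup.mem_centralizer_iff] at h3
      exact (h3 d (Subgroup.mem_zpowers d)).symm
    rw [h2, Subgroup.card_bot] at h1
    exact h1
  have hWcard : Nat.card W = 4 := by
    have h1 := hE4 W hWc hW2
    have h2 := hdfix W le_rfl hdHW
    have h3 : Nat.card W ≠ 1 := fun h => hW1 (Subgroup.eq_bot_of_card_eq _ h)
    have h4 : Nat.card W ≠ 0 := Nat.card_pos.ne'
    unfold Nat.ModEq at h2
    omega
  have hWirr : ∀ I : Subgroup G, I ≤ W → Subgroup.zpowers d ≤ Subgroup.normalizer (I : Set G) →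
      I ≠ ⊥ → I = W := by
    intro I hI hdI hI1
    have h2 := hdfix I hI hdI
    have h1 : Nat.card I ∣ Nat.card W := Subgroup.card_dvd_of_le hI
    rw [hWcard] at h1
    have h5 := Nat.le_of_dvd (by norm_num) h1
    have h3 : Nat.card I ≠ 1 := fun h => hI1 (Subgroup.eq_bot_of_card_eq _ h)
    have h4 : Nat.card I ≠ 0 := Nat.card_pos.ne'
    unfold Nat.ModEq at h2
    have h6 : Nat.card I = 4 := by omega
    exact Subgroup.eq_of_le_of_card_ge hI (by omega)
  -- the core
  let Q : Subgroup G := Cfsg.pCore 2 G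
  have hQ2 : IsPGroup 2 Q := PCore.isPGroup_pCore 2
  haveI hQn : Q.Normal := PCore.pCore_normal 2
  have hQne : Q ≠ ⊥ := by
    intro h
    have h1 : Subgroup.centralizer (Q : Set G) = ⊤ := by
      rw [h]
      simp
    have h2 : (⊤ : Subgroup G) ≤ ⊥ := by
      rw [← h1, ← h]
      exact hchar
    exact hd1 (Subgroup.mem_bot.mp (h2 (Subgroup.mem_top d)))
  let Ω : Subgroup G :=
    { carrier := {x | x ∈ Q ∧ (∀ y ∈ Q, x * y = y * x) ∧ x ^ 2 = 1}
      one_mem' := ⟨Q.one_mem, by simp, one_pow 2⟩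
      mul_mem' := by
        rintro a b ⟨ha, hac, ha2⟩ ⟨hb, hbc, hb2⟩
        refine ⟨Q.mul_mem ha hb, ?_, ?_⟩
        · intro y hy
          rw [mul_assoc, hbc y hy, ← mul_assoc, hac y hy, mul_assoc]
        · have : Commute a b := hac b hb
          rw [this.mul_pow, ha2, hb2, one_mul]
      inv_mem' := by
        rintro a ⟨ha, hac, ha2⟩
        refine ⟨Q.inv_mem ha, ?_, by rw [inv_pow, ha2, inv_one]⟩
        intro y hy
        have := hac y hy
        calc a⁻¹ * y = a⁻¹ * (y * a) * a⁻¹ := by group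
          _ = a⁻¹ * (a * y) * a⁻¹ := by rw [this]
          _ = y * a⁻¹ := by group }
  have hΩn : Ω.Normal := by
    constructor
    rintro x ⟨hx, hxc, hx2⟩ g
    refine ⟨hQn.conj_mem x hx g, ?_, ?_⟩
    · intro y hy
      have h1 : g⁻¹ * y * g⁻¹⁻¹ ∈ Q := hQn.conj_mem y hy g⁻¹
      have h2 := hxc _ h1
      calc g * x * g⁻¹ * y = g * (x * (g⁻¹ * y * g⁻¹⁻¹)) * g⁻¹ := by group
        _ = g * ((g⁻¹ * y * g⁻¹⁻¹) * x) * g⁻¹ := by rw [h2]
        _ = y * (g * x * g⁻¹) := by group
    · rw [conj_pow, hx2]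
      simp
  have hΩcomm : ∀ x ∈ Ω, ∀ y ∈ Ω, x * y = y * x := fun x hx y hy => hx.2.1 y hy.1
  have hΩ2 : ∀ x ∈ Ω, x ^ 2 = 1 := fun x hx => hx.2.2
  -- an involution in `Ω`
  have hQcard : 2 ∣ Nat.card Q := by
    obtain ⟨k, hk⟩ := IsPGroup.iff_card.mp hQ2
    have hk0 : k ≠ 0 := by
      rintro rfl
      exact hQne (Subgroup.eq_bot_of_card_eq _ (by simpa using hk))
    rw [hk]
    exact dvd_pow_self 2 hk0
  obtain ⟨x₀, hx₀, hx₀o⟩ := exists_order_fixed (p := 2) Q Q hQ2 Subgroup.le_normalizer hQcard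
  have hx₀Ω : x₀ ∈ Ω := by
    obtain ⟨h1, h2⟩ := Subgroup.mem_inf.mp hx₀
    rw [Subgroup.mem_centralizer_iff] at h2
    refine ⟨h1, fun y hy => (h2 y hy).symm, ?_⟩
    rw [← hx₀o, pow_orderOf_eq_one]
  have hΩcard : 2 ∣ Nat.card Ω := by
    have h1 : orderOf (⟨x₀, hx₀Ω⟩ : Ω) = 2 := by
      rw [Subgroup.orderOf_mk, hx₀o]
    rw [← h1]
    exact orderOf_dvd_natCard _
  have hW2grp : IsPGroup 2 W := fun x => ⟨1, Subtype.ext (by simpa using hW2 x x.2)⟩
  have hΩtop : Subgroup.normalizer (Ω : Set G) = ⊤ := Subgroup.normalizer_eq_top_iff.mpr hΩn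
  have hWΩ : W ≤ Subgroup.normalizer (Ω : Set G) := by
    rw [hΩtop]
    exact le_top
  obtain ⟨z, hz, hzo⟩ := exists_order_fixed (p := 2) W Ω hW2grp hWΩ hΩcard
  obtain ⟨hzΩ, hzc⟩ := Subgroup.mem_inf.mp hz
  have hz2 : z ^ 2 = 1 := by
    rw [← hzo, pow_orderOf_eq_one]
  have hzW : z ∈ W := by
    apply adj_mem hE4 W hWc hW2 hWcard z hz2
    intro w hw
    rw [Subgroup.mem_centralizer_iff] at hzc
    exact (hzc w hw).symm
  have hz1 : z ≠ 1 := by
    rintro rfl
    rw [orderOf_one] at hzo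
    omega
  -- `W` is all of `Ω`
  have hWleΩ : W ≤ Ω := by
    have hI : W ⊓ Ω = W := by
      apply hWirr _ inf_le_left
      · refine CoprimeInv.le_normalizer_inf hdHW ?_
        rw [hΩtop]
        exact le_top
      · intro h
        have : z ∈ W ⊓ Ω := Subgroup.mem_inf.mpr ⟨hzW, hzΩ⟩
        rw [h] at this
        exact hz1 (Subgroup.mem_bot.mp this)
    rw [← hI]
    exact inf_le_right
  have hWΩeq : W = Ω := Subgroup.eq_of_le_of_card_ge hWleΩ (by
    rw [hWcard]
    exact hE4 Ω hΩcomm hΩ2)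
  have hWn : W.Normal := by
    rw [hWΩeq]
    exact hΩn
  have hWQ : ∀ x ∈ Q, ∀ w ∈ W, x * w = w * x := by
    intro x hx w hw
    rw [hWΩeq] at hw
    exact (hw.2.1 x hx).symm
  have hWtop : Subgroup.normalizer (W : Set G) = ⊤ := Subgroup.normalizer_eq_top_iff.mpr hWn
  -- the element of order six
  obtain ⟨g, hg⟩ := hsix
  have htord : orderOf (g ^ 3) = 2 := by
    rw [orderOf_pow_of_dvd (by norm_num) (by rw [hg]; norm_num), hg]
  have hcord : orderOf (g ^ 2) = 3 := by
    rw [orderOf_pow_of_dvd (by norm_num) (by rw [hg]; norm_num), hg]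
  have htc : Commute (g ^ 3) (g ^ 2) := (Commute.refl g).pow_pow 3 2
  set t := g ^ 3 with ht
  set c := g ^ 2 with hc
  have hc3grp : IsPGroup 3 (Subgroup.zpowers c) := by
    rw [IsPGroup.iff_card]
    exact ⟨1, by rw [Nat.card_zpowers, hcord, pow_one]⟩
  have ht2grp : IsPGroup 2 (Subgroup.zpowers t) := by
    rw [IsPGroup.iff_card]
    exact ⟨1, by rw [Nat.card_zpowers, htord, pow_one]⟩
  have ht2 : t ^ 2 = 1 := by
    rw [← htord, pow_orderOf_eq_one]
  by_cases hcW : ∀ w ∈ W, c * w = w * c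
  · -- an element of order three in `C(W)` commuting with `d`
    let C : Subgroup G := Subgroup.centralizer (W : Set G)
    have hCn : C.Normal := by
      constructor
      intro x hx y
      rw [Subgroup.mem_centralizer_iff] at hx ⊢
      intro w hw
      have h1 : y⁻¹ * w * y⁻¹⁻¹ ∈ W := hWn.conj_mem w hw y⁻¹
      have h2 := hx _ h1
      calc w * (y * x * y⁻¹) = y * ((y⁻¹ * w * y⁻¹⁻¹) * x) * y⁻¹ := by group
        _ = y * (x * (y⁻¹ * w * y⁻¹⁻¹)) * y⁻¹ := by rw [h2]
        _ = y * x * y⁻¹ * w := by group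
    have hcC : c ∈ C := by
      rw [Subgroup.mem_centralizer_iff]
      intro w hw
      exact (hcW w hw).symm
    haveI : Fact (Nat.Prime 3) := ⟨by norm_num⟩
    obtain ⟨T, hdT⟩ := hd.exists_le_sylow
    obtain ⟨T', hcT'⟩ := hc3grp.exists_le_sylow
    obtain ⟨g₀, hg₀⟩ := MulAction.exists_smul_eq G T' T
    have hc₀T : g₀ * c * g₀⁻¹ ∈ (T : Subgroup G) := by
      have h1 : c ∈ (T' : Subgroup G) := hcT' (Subgroup.mem_zpowers c)
      rw [← hg₀, Sylow.coe_subgroup_smul]
      exact Subgroup.smul_mem_pointwise_smul c (MulAut.conj g₀) _ h1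
    have hc₀C : g₀ * c * g₀⁻¹ ∈ C := hCn.conj_mem c hcC g₀
    have hc₀I : g₀ * c * g₀⁻¹ ∈ (T : Subgroup G) ⊓ C := Subgroup.mem_inf.mpr ⟨hc₀T, hc₀C⟩
    have hc₀o : orderOf (g₀ * c * g₀⁻¹) = 3 := by
      have h1 := MulEquiv.orderOf_eq (MulAut.conj g₀) c
      rw [MulAut.conj_apply] at h1
      rw [h1, hcord]
    have hIcard : 3 ∣ Nat.card ↥((T : Subgroup G) ⊓ C) := by
      have h1 : orderOf (⟨_, hc₀I⟩ : ↥((T : Subgroup G) ⊓ C)) = 3 := by
        rw [Subgroup.orderOf_mk, hc₀o]
      have h2 := orderOf_dvd_natCard (⟨_, hc₀I⟩ : ↥((T : Subgroup G) ⊓ C))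
      rwa [h1] at h2
    have hTN : (T : Subgroup G) ≤ Subgroup.normalizer (((T : Subgroup G) ⊓ C : Subgroup G) : Set G) := by
      refine CoprimeInv.le_normalizer_inf Subgroup.le_normalizer ?_
      rw [Subgroup.normalizer_eq_top_iff.mpr hCn]
      exact le_top
    obtain ⟨c', hc', hc'o⟩ := exists_order_fixed (p := 3) (T : Subgroup G) _ T.isPGroup' hTN hIcard
    obtain ⟨hc'I, hc'T⟩ := Subgroup.mem_inf.mp hc'
    obtain ⟨-, hc'C⟩ := Subgroup.mem_inf.mp hc'I
    have hcd' : Commute c' d := by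
      rw [Subgroup.mem_centralizer_iff] at hc'T
      exact (hc'T d (hdT (Subgroup.mem_zpowers d))).symm
    have hQtop : Subgroup.normalizer (Q : Set G) = ⊤ := Subgroup.normalizer_eq_top_iff.mpr hQn
    refine caseB Q W c' d hQ2 (by rw [hQtop]; trivial) (by rw [hQtop]; trivial) hc'o hcd' hWc hW2
      hWcard hfpf' hWQ ?_ ?_ hE4
    · intro w hw
      rw [Subgroup.mem_centralizer_iff] at hc'C
      exact (hc'C w hw).symm
    · intro h
      rw [Subgroup.commutator_comm, Subgroup.commutator_eq_bot_iff_le_centralizer] at h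
      have h1 : c' ∈ Q := hchar (h (Subgroup.mem_zpowers c'))
      obtain ⟨a, ha⟩ := IsPGroup.iff_card.mp hQ2
      have h2 : orderOf (⟨c', h1⟩ : Q) = 3 := by
        rw [Subgroup.orderOf_mk, hc'o]
      have h3 : 3 ∣ 2 ^ a := by
        rw [← ha, ← h2]
        exact orderOf_dvd_natCard _
      have h4 := Nat.Prime.dvd_of_dvd_pow (by norm_num) h3
      omega
  · -- `c` acts fixed point freely on `W`
    haveI : Fact (Nat.Prime 3) := ⟨by norm_num⟩
    have hJ : W ⊓ Subgroup.centralizer (Subgroup.zpowers c : Set G) = ⊥ := by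
      have h1 := card_modEq_inf_centralizer (p := 3) (Subgroup.zpowers c) W hc3grp
        (by rw [hWtop]; exact le_top)
      rw [hWcard] at h1
      have hle : W ⊓ Subgroup.centralizer (Subgroup.zpowers c : Set G) ≤ W := inf_le_left
      have h2 : Nat.card ↥(W ⊓ Subgroup.centralizer (Subgroup.zpowers c : Set G)) ∣ 4 := by
        rw [← hWcard]
        exact Subgroup.card_dvd_of_le hle
      have h3 := Nat.le_of_dvd (by norm_num) h2
      have h4 : Nat.card ↥(W ⊓ Subgroup.centralizer (Subgroup.zpowers c : Set G)) ≠ 4 := by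
        intro h
        apply hcW
        have h5 := Subgroup.eq_of_le_of_card_ge hle (by rw [hWcard, h])
        intro w hw
        rw [← h5] at hw
        have h6 := (Subgroup.mem_inf.mp hw).2
        rw [Subgroup.mem_centralizer_iff] at h6
        exact (h6 c (Subgroup.mem_zpowers c))
      have h5 : Nat.card ↥(W ⊓ Subgroup.centralizer (Subgroup.zpowers c : Set G)) ≠ 0 :=
        Nat.card_pos.ne'
      unfold Nat.ModEq at h1
      have h6 : Nat.card ↥(W ⊓ Subgroup.centralizer (Subgroup.zpowers c : Set G)) = 1 := by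
        omega
      exact Subgroup.eq_bot_of_card_eq _ h6
    obtain ⟨a, ha, hao⟩ := exists_order_fixed (p := 2) (Subgroup.zpowers t) W ht2grp
      (by rw [hWtop]; exact le_top) (by rw [hWcard]; norm_num)
    let I : Subgroup G := W ⊓ Subgroup.centralizer (Subgroup.zpowers t : Set G)
    have hIle : I ≤ W := inf_le_left
    have hIne : I ≠ ⊥ := by
      intro h
      have : a ∈ I := ha
      rw [h] at this
      have h1 : a = 1 := Subgroup.mem_bot.mp this
      rw [h1, orderOf_one] at hao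
      omega
    have hcI : Subgroup.zpowers c ≤ Subgroup.normalizer (I : Set G) := by
      rw [Subgroup.zpowers_le]
      rw [Subgroup.mem_normalizer_iff]
      intro h
      have hcomm : ∀ y ∈ Subgroup.zpowers t, Commute c y := by
        rintro _ ⟨k, rfl⟩
        exact htc.symm.zpow_right k
      have key : ∀ y, y ∈ Subgroup.centralizer (Subgroup.zpowers t : Set G) ↔
          c * y * c⁻¹ ∈ Subgroup.centralizer (Subgroup.zpowers t : Set G) := by
        intro y
        rw [Subgroup.mem_centralizer_iff, Subgroup.mem_centralizer_iff]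
        constructor
        · intro hy s hs
          have := hy s hs
          have h1 := (hcomm s hs).eq
          calc s * (c * y * c⁻¹) = (s * c) * y * c⁻¹ := by group
            _ = (c * s) * y * c⁻¹ := by rw [h1]
            _ = c * (s * y) * c⁻¹ := by group
            _ = c * (y * s) * c⁻¹ := by rw [this]
            _ = c * y * c⁻¹ * (c * s * c⁻¹) := by group
            _ = c * y * c⁻¹ * (s * c * c⁻¹) := by rw [h1]
            _ = c * y * c⁻¹ * s := by group
        · intro hy s hs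
          have := hy s hs
          have h1 := (hcomm s hs).eq
          have h2 : c * (s * y) * c⁻¹ = c * (y * s) * c⁻¹ := by
            calc c * (s * y) * c⁻¹ = (c * s) * y * c⁻¹ := by group
              _ = (s * c) * y * c⁻¹ := by rw [h1]
              _ = s * (c * y * c⁻¹) := by group
              _ = c * y * c⁻¹ * s := this
              _ = c * y * c⁻¹ * (s * c * c⁻¹) := by group
              _ = c * y * c⁻¹ * (c * s * c⁻¹) := by rw [h1]
              _ = c * (y * s) * c⁻¹ := by group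
          have h3 := mul_left_cancel (mul_right_cancel h2)
          exact h3
      have hWm : h ∈ W ↔ c * h * c⁻¹ ∈ W :=
        Subgroup.mem_normalizer_iff.mp (by rw [hWtop]; trivial) h
      constructor
      · intro hh
        obtain ⟨h1, h2⟩ := Subgroup.mem_inf.mp hh
        exact Subgroup.mem_inf.mpr ⟨hWm.mp h1, (key h).mp h2⟩
      · intro hh
        obtain ⟨h1, h2⟩ := Subgroup.mem_inf.mp hh
        exact Subgroup.mem_inf.mpr ⟨hWm.mpr h1, (key h).mpr h2⟩
    have hIeq : I = W := by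
      have h1 := card_modEq_inf_centralizer (p := 3) (Subgroup.zpowers c) I hc3grp hcI
      have h2 : I ⊓ Subgroup.centralizer (Subgroup.zpowers c : Set G) = ⊥ := by
        rw [eq_bot_iff, ← hJ]
        exact inf_le_inf_right _ hIle
      rw [h2, Subgroup.card_bot] at h1
      have h3 : Nat.card I ∣ Nat.card W := Subgroup.card_dvd_of_le hIle
      rw [hWcard] at h3
      have h4 := Nat.le_of_dvd (by norm_num) h3
      have h5 : Nat.card I ≠ 1 := fun h => hIne (Subgroup.eq_bot_of_card_eq _ h)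
      have h6 : Nat.card I ≠ 0 := Nat.card_pos.ne'
      unfold Nat.ModEq at h1
      have h7 : Nat.card I = 4 := by omega
      exact Subgroup.eq_of_le_of_card_ge hIle (by omega)
    have htW : t ∈ W := by
      apply adj_mem hE4 W hWc hW2 hWcard t ht2
      intro w hw
      have h1 : w ∈ I := by rw [hIeq]; exact hw
      have h2 := (Subgroup.mem_inf.mp h1).2
      rw [Subgroup.mem_centralizer_iff] at h2
      exact (h2 t (Subgroup.mem_zpowers t))
    have h1 : t ∈ W ⊓ Subgroup.centralizer (Subgroup.zpowers c : Set G) := by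
      refine Subgroup.mem_inf.mpr ⟨htW, ?_⟩
      rw [Subgroup.mem_centralizer_iff]
      rintro _ ⟨k, rfl⟩
      exact (htc.symm.zpow_left k).eq
    rw [hJ] at h1
    have h2 : t = 1 := Subgroup.mem_bot.mp h1
    rw [h2, orderOf_one] at htord
    omega

end Cfsg.Agent.S3739
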