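import Mathlib
import Cfsg.Statements.S3761
import Cfsg.Agent.S3739
import Cfsg.Agent.Lib.CyclicMax
import Cfsg.Agent.Lib.CycMax2
import Cfsg.Agent.Lib.OmegaCyc2

set_option autoImplicit false
open Cfsg

namespace Cfsg.Agent.S3761

open scoped commutatorElement
open Cfsg.Agent.Lib Subgroup

variable {G : Type*} [Group G] [Finite G] {p : ℕ} [hp : Fact p.Prime]

omit [Finite G] hp in
theorem mem_M_iff (a g : G) :
    g ∈ centralizer (Cfsg.powerClosure p 1 (zpowers a) : Set G) ↔ g * a ^ p = a ^ p * g := by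
  rw [mem_centralizer_iff]
  constructor
  · intro h
    have : a ^ p ∈ Cfsg.powerClosure p 1 (zpowers a) :=
      subset_closure ⟨a, mem_zpowers a, by simp⟩
    exact (h _ this).symm
  · intro h x hx
    have hle : Cfsg.powerClosure p 1 (zpowers a) ≤ centralizer {g} := by
      unfold Cfsg.powerClosure
      rw [closure_le]
      rintro _ ⟨y, ⟨k, rfl⟩, rfl⟩
      rw [SetLike.mem_coe, mem_centralizer_singleton_iff]
      have h1 : Commute g (a ^ p) := h
      have h2 : ((fun x => a ^ x) k) ^ p ^ 1 = (a ^ p) ^ k := by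
        simp only [pow_one]
        rw [← zpow_natCast, ← zpow_mul, mul_comm, zpow_mul, zpow_natCast]
      rw [h2]
      exact (h1.zpow_right k).eq.symm
    have := hle hx
    rw [mem_centralizer_singleton_iff] at this
    exact this

/-- A proper subgroup containing a normal subgroup of a `p`-group: elements with `p`-th power in
the normal subgroup. -/
theorem exists_not_mem_pow_mem (hG : IsPGroup p G) (U K : Subgroup G) [U.Normal] (hUK : U ≤ K)
    (hne : U ≠ K) : ∃ h ∈ K, h ∉ U ∧ h ^ p ∈ U := by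
  have hlt : U < K := lt_of_le_of_ne hUK hne
  obtain ⟨x, hxK, hxU⟩ := SetLike.exists_of_lt hlt
  -- take the largest power of `x` outside `U`
  obtain ⟨k, hk⟩ := (IsPGroup.iff_orderOf.mp hG) x
  have hpp : p.Prime := hp.out
  have key : ∀ j : ℕ, x ^ (p ^ j) ∈ U → ∃ h ∈ K, h ∉ U ∧ h ^ p ∈ U := by
    intro j
    induction j with
    | zero =>
      intro h
      exact absurd (by simpa using h) hxU
    | succ j ih =>
      intro h
      by_cases hj : x ^ (p ^ j) ∈ U
      · exact ih hj
      · refine ⟨x ^ (p ^ j), K.pow_mem hxK _, hj, ?_⟩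
        rw [← pow_mul, ← pow_succ]
        exact h
  apply key k
  rw [← hk, pow_orderOf_eq_one]
  exact U.one_mem

omit [Finite G] hp in
theorem four_subgroup (z t : G) (hzz : z * z = 1) (htt : t * t = 1) (htz : t * z = z * t) :
    ∃ A : Subgroup G, ∀ x, x ∈ A ↔ x = 1 ∨ x = z ∨ x = t ∨ x = z * t := by
  have e1 : z * (z * t) = t := by rw [← mul_assoc, hzz, one_mul]
  have e2 : t * (z * t) = z := by rw [← mul_assoc, htz, mul_assoc, htt, mul_one]
  have e3 : z * t * z = t := by rw [mul_assoc, htz, e1]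
  have e4 : z * t * t = z := by rw [mul_assoc, htt, mul_one]
  have e5 : z * t * (z * t) = 1 := by rw [mul_assoc, e2, hzz]
  exact ⟨{ carrier := {x | x = 1 ∨ x = z ∨ x = t ∨ x = z * t}
           one_mem' := Or.inl rfl
           mul_mem' := by
            rintro x y (rfl | rfl | rfl | rfl) (rfl | rfl | rfl | rfl)
            · exact Or.inl (mul_one _)
            · exact Or.inr (Or.inl (one_mul _))
            · exact Or.inr (Or.inr (Or.inl (one_mul _)))
            · exact Or.inr (Or.inr (Or.inr (one_mul _)))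
            · exact Or.inr (Or.inl (mul_one _))
            · exact Or.inl hzz
            · exact Or.inr (Or.inr (Or.inr rfl))
            · exact Or.inr (Or.inr (Or.inl e1))
            · exact Or.inr (Or.inr (Or.inl (mul_one _)))
            · exact Or.inr (Or.inr (Or.inr htz))
            · exact Or.inl htt
            · exact Or.inr (Or.inl e2)
            · exact Or.inr (Or.inr (Or.inr (mul_one _)))
            · exact Or.inr (Or.inr (Or.inl e3))
            · exact Or.inr (Or.inl e4)
            · exact Or.inl e5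
           inv_mem' := by
            rintro x (rfl | rfl | rfl | rfl)
            · exact Or.inl inv_one
            · exact Or.inr (Or.inl (inv_eq_of_mul_eq_one_left hzz))
            · exact Or.inr (Or.inr (Or.inl (inv_eq_of_mul_eq_one_left htt)))
            · exact Or.inr (Or.inr (Or.inr (inv_eq_of_mul_eq_one_left e5))) }, fun x => Iff.rfl⟩

section setup

variable {a : G} {n : ℕ}

omit hp in
theorem exists_exp (hUn : (zpowers a).Normal) (g : G) : ∃ r : ℕ, g * a * g⁻¹ = a ^ r := by
  have h1 := hUn.conj_mem a (mem_zpowers a) g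
  have hfin : IsOfFinOrder a := isOfFinOrder_of_finite a
  rw [← hfin.mem_powers_iff_mem_zpowers] at h1
  obtain ⟨r, hr⟩ := (Submonoid.mem_powers_iff _ _).1 h1
  exact ⟨r, hr.symm⟩

/-- `y = a^(p^(n-1))` is central. -/
theorem y_central (hG : IsPGroup p G) (ha : orderOf a = p ^ n) (hn : 1 ≤ n)
    (hUn : (zpowers a).Normal) (g : G) : g * a ^ (p ^ (n - 1)) = a ^ (p ^ (n - 1)) * g := by
  have hpp : p.Prime := hp.out
  set y := a ^ (p ^ (n - 1)) with hy
  have hyo : orderOf y = p := by
    rw [hy, orderOf_pow_of_dvd (pow_ne_zero _ hpp.ne_zero)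
      (by rw [ha]; exact pow_dvd_pow p (by omega)), ha]
    obtain ⟨m, rfl⟩ : ∃ m, n = m + 1 := ⟨n - 1, by omega⟩
    rw [Nat.add_sub_cancel, pow_succ]
    exact Nat.mul_div_cancel_left _ (pow_pos hpp.pos m)
  have hVn : (⊤ : Subgroup G) ≤ normalizer (zpowers y : Set G) := by
    have hyn : (zpowers y).Normal := by
      constructor
      intro x hx g
      obtain ⟨k, rfl⟩ := hx
      obtain ⟨r, hr⟩ := exists_exp hUn g
      have h1 : g * y * g⁻¹ = y ^ r := by
        rw [hy, ← conj_pow, hr, ← pow_mul, ← pow_mul, mul_comm]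
      show g * y ^ k * g⁻¹ ∈ zpowers y
      rw [← conj_zpow, h1]
      exact Subgroup.zpow_mem _ (Subgroup.pow_mem _ (mem_zpowers y) r) k
    rw [normalizer_eq_top_iff.mpr hyn]
  have hTop : IsPGroup p (⊤ : Subgroup G) := hG.to_subgroup ⊤
  have hcard : p ∣ Nat.card (zpowers y) := by
    rw [Nat.card_zpowers, hyo]
  obtain ⟨x, hx, hxo⟩ := S3739.exists_order_fixed (p := p) ⊤ (zpowers y) hTop hVn hcard
  obtain ⟨hx1, hx2⟩ := mem_inf.mp hx
  have hle : zpowers x ≤ zpowers y := zpowers_le.mpr hx1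
  have heq : zpowers x = zpowers y :=
    eq_of_le_of_card_ge hle (by rw [Nat.card_zpowers, Nat.card_zpowers, hxo, hyo])
  have hyx : y ∈ zpowers x := by
    rw [heq]
    exact mem_zpowers y
  obtain ⟨k, hk⟩ := hyx
  rw [mem_centralizer_iff] at hx2
  have hgx : Commute g x := hx2 g (mem_top g)
  have := (hgx.zpow_right k)
  simp only at hk
  rw [hk] at this
  exact this.eq

theorem y_order (ha : orderOf a = p ^ n) (hn : 1 ≤ n) : orderOf (a ^ (p ^ (n - 1))) = p := by
  have hpp : p.Prime := hp.out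
  rw [orderOf_pow_of_dvd (pow_ne_zero _ hpp.ne_zero)
    (by rw [ha]; exact pow_dvd_pow p (by omega)), ha]
  obtain ⟨m, rfl⟩ : ∃ m, n = m + 1 := ⟨n - 1, by omega⟩
  rw [Nat.add_sub_cancel, pow_succ]
  exact Nat.mul_div_cancel_left _ (pow_pos hpp.pos m)

/-- Elements of `M` act on `a` by multiplication by a power of `y`. -/
theorem conj_of_mem_M (ha : orderOf a = p ^ n) (hn : 2 ≤ n) (hUn : (zpowers a).Normal) {g : G}
    (hg : g * a ^ p = a ^ p * g) : ∃ k : ℕ, g * a * g⁻¹ = a * (a ^ (p ^ (n - 1))) ^ k := by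
  have hpp : p.Prime := hp.out
  obtain ⟨r, hr⟩ := exists_exp hUn g
  have h1 : g * a ^ p * g⁻¹ = a ^ p := by
    rw [hg]
    group
  have h2 : (a ^ r) ^ p = a ^ p := by
    rw [← hr, conj_pow, h1]
  rw [← pow_mul, pow_eq_pow_iff_modEq, ha] at h2
  obtain ⟨m, rfl⟩ : ∃ m, n = m + 1 := ⟨n - 1, by omega⟩
  have h3 : r ≡ 1 [MOD p ^ m] := by
    have h4 : p * r ≡ p * 1 [MOD p * p ^ m] := by
      rw [mul_one, ← pow_succ', mul_comm]
      exact h2
    exact Nat.ModEq.mul_left_cancel' hpp.ne_zero h4
  have hr1 : 1 ≤ r := by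
    by_contra h0
    have h00 : r = 0 := by omega
    subst h00
    have h5 : p ^ m ∣ 1 := by
      have := (Nat.modEq_iff_dvd' (by norm_num : 0 ≤ 1)).mp h3
      simpa using this
    have h6 : p ^ m = 1 := Nat.dvd_one.mp h5
    have h7 : m ≠ 0 := by omega
    have h8 := Nat.one_lt_pow h7 hpp.one_lt
    omega
  obtain ⟨k, hk⟩ : p ^ m ∣ r - 1 := (Nat.modEq_iff_dvd' hr1).mp h3.symm
  refine ⟨k, ?_⟩
  have hrk : r = 1 + p ^ m * k := by omega
  rw [hr, hrk, pow_add, pow_one, pow_mul]
  simp

/-- `|M : U|` divides `p`. -/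
theorem relIndex_dvd (hG : IsPGroup p G) (ha : orderOf a = p ^ n) (hn : 2 ≤ n)
    (hUn : (zpowers a).Normal) (hC : ∀ g, g * a = a * g → g ∈ zpowers a) (M : Subgroup G)
    (hM : ∀ g, g ∈ M ↔ g * a ^ p = a ^ p * g) : (zpowers a).relIndex M ∣ p := by
  set y := a ^ (p ^ (n - 1)) with hy
  have hn1 : 1 ≤ n := by omega
  have hyc : ∀ g, g * y = y * g := fun g => y_central hG ha hn1 hUn g
  have hyo : orderOf y = p := y_order ha hn1
  have hzc : ∀ c ∈ zpowers y, ∀ g, g * c = c * g := by
    rintro _ ⟨k, rfl⟩ g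
    exact ((show Commute g y from hyc g).zpow_right k).eq
  have hmem : ∀ x : M, (x : G) * a * (x : G)⁻¹ * a⁻¹ ∈ zpowers y := by
    intro x
    obtain ⟨k, hk⟩ := conj_of_mem_M ha hn hUn ((hM x).mp x.2)
    rw [hk]
    have h1 : a * y ^ k * a⁻¹ = y ^ k := by
      rw [((show Commute a y from hyc a).pow_right k).eq]
      group
    rw [h1]
    exact Subgroup.pow_mem _ (mem_zpowers y) k
  let φ : M →* zpowers y :=
    { toFun := fun x => ⟨x * a * (x : G)⁻¹ * a⁻¹, hmem x⟩
      map_one' := Subtype.ext (by simp)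
      map_mul' := by
        intro x x'
        apply Subtype.ext
        show ((x * x' : M) : G) * a * ((x * x' : M) : G)⁻¹ * a⁻¹
          = ((x : G) * a * (x : G)⁻¹ * a⁻¹) * ((x' : G) * a * (x' : G)⁻¹ * a⁻¹)
        set c' := (x' : G) * a * (x' : G)⁻¹ * a⁻¹ with hc'
        have h1 : (x' : G) * a * (x' : G)⁻¹ = c' * a := by
          rw [hc']
          group
        have h2 := hzc c' (hmem x') x
        simp only [Subgroup.coe_mul, mul_inv_rev]
        calc (x : G) * x' * a * ((x' : G)⁻¹ * (x : G)⁻¹) * a⁻¹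
            = x * ((x' : G) * a * (x' : G)⁻¹) * (x : G)⁻¹ * a⁻¹ := by group
          _ = x * (c' * a) * (x : G)⁻¹ * a⁻¹ := by rw [h1]
          _ = (x * c') * a * (x : G)⁻¹ * a⁻¹ := by group
          _ = (c' * x) * a * (x : G)⁻¹ * a⁻¹ := by rw [h2]
          _ = c' * ((x : G) * a * (x : G)⁻¹ * a⁻¹) := by group
          _ = ((x : G) * a * (x : G)⁻¹ * a⁻¹) * c' :=
            (hzc c' (hmem x') _).symm }
  have hφ : ∀ x : M, ((φ x : zpowers y) : G) = x * a * (x : G)⁻¹ * a⁻¹ := fun x => rfl
  have hker : φ.ker = (zpowers a).subgroupOf M := by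
    ext x
    rw [MonoidHom.mem_ker, Subgroup.mem_subgroupOf]
    constructor
    · intro h
      have h1 : (x : G) * a * (x : G)⁻¹ * a⁻¹ = 1 := by
        rw [← hφ, h]
        rfl
      apply hC
      have h2 : (x : G) * a * (x : G)⁻¹ = a := by
        rwa [mul_inv_eq_one] at h1
      calc (x : G) * a = (x : G) * a * (x : G)⁻¹ * x := by group
        _ = a * x := by rw [h2]
    · rintro ⟨k, hk⟩
      apply Subtype.ext
      rw [hφ]
      simp only at hk
      rw [← hk]
      have : a ^ k * a * (a ^ k)⁻¹ = a := by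
        rw [((Commute.refl a).zpow_left k).eq]
        group
      rw [this]
      simp
  have h1 : (zpowers a).relIndex M = Nat.card φ.range := by
    rw [Subgroup.relIndex, ← hker, Subgroup.index_ker]
  rw [h1]
  have h2 := Subgroup.card_subgroup_dvd_card φ.range
  rwa [Nat.card_zpowers, hyo] at h2

theorem le_M (M : Subgroup G) (hM : ∀ g, g ∈ M ↔ g * a ^ p = a ^ p * g) : zpowers a ≤ M := by
  rw [zpowers_le, hM]
  exact ((Commute.refl a).pow_right p).eq

theorem relIndex_eq (hG : IsPGroup p G) (ha : orderOf a = p ^ n) (hn : 2 ≤ n)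
    (hUn : (zpowers a).Normal) (hC : ∀ g, g * a = a * g → g ∈ zpowers a) (M : Subgroup G)
    (hM : ∀ g, g ∈ M ↔ g * a ^ p = a ^ p * g) (hne : zpowers a ≠ M) :
    (zpowers a).relIndex M = p := by
  have hpp : p.Prime := hp.out
  rcases (Nat.dvd_prime hpp).mp (relIndex_dvd hG ha hn hUn hC M hM) with h | h
  · exact absurd (le_antisymm (le_M M hM) (Subgroup.relIndex_eq_one.mp h)) hne
  · exact h

/-- The odd case. -/
theorem odd_case (hp2 : p ≠ 2) (hG : IsPGroup p G) (ha : orderOf a = p ^ n) (hn : 2 ≤ n)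
    (hUn : (zpowers a).Normal) (hC : ∀ g, g * a = a * g → g ∈ zpowers a)
    (hne : zpowers a ≠ ⊤) (M : Subgroup G) (hM : ∀ g, g ∈ M ↔ g * a ^ p = a ^ p * g) :
    (zpowers a).relIndex M = p ∧ Cfsg.IsElementaryAbelian p (Cfsg.omegaOne p M) ∧
      Nat.card ↥(Cfsg.omegaOne p M) = p ^ 2 ∧ (Cfsg.omegaOne p M).Characteristic := by
  have hpp : p.Prime := hp.out
  haveI : (zpowers a).Normal := hUn
  have hkey : ∀ g : G, g ^ p ∈ zpowers a → g ∈ M := by
    intro g hg
    obtain ⟨r, hr⟩ := exists_exp hUn g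
    have h1 := CyclicMax.iterate_conj hr p
    have h2 : g ^ p * a * (g ^ p)⁻¹ = a := by
      obtain ⟨k, hk⟩ := hg
      simp only at hk
      rw [← hk, ((Commute.refl a).zpow_left k).eq]
      group
    rw [h2] at h1
    have h3 : r ^ p ≡ 1 [MOD p ^ n] := by
      have h4 : a ^ (r ^ p) = a ^ 1 := by
        rw [← h1, pow_one]
      rw [pow_eq_pow_iff_modEq, ha] at h4
      exact h4
    obtain ⟨m, rfl⟩ : ∃ m, n = m + 1 := ⟨n - 1, by omega⟩
    have h5 : r ≡ 1 [MOD p ^ m] := by
      by_cases h6 : r ≡ 1 [MOD p ^ (m + 1)]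
      · exact h6.of_dvd (pow_dvd_pow p (by omega))
      · obtain ⟨j, hj, -⟩ := CyclicMax.lte_aux (p := p) hp2 (n := m + 2) (by omega)
          (k := r) (by simpa using h3) (by simpa using h6)
        have h7 : r = 1 + p ^ m * j := by simpa using hj
        rw [h7]
        have h8 : 1 + p ^ m * j ≡ 1 + 0 [MOD p ^ m] :=
          Nat.ModEq.add_left 1 ((Nat.modEq_zero_iff_dvd).mpr (dvd_mul_right _ _))
        simpa using h8
    rw [hM]
    have h9 : a ^ (r * p) = a ^ p := by
      rw [pow_eq_pow_iff_modEq, ha, pow_succ, mul_comm r p]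
      have := Nat.ModEq.mul_left' p h5
      rw [mul_one] at this
      rw [mul_comm (p ^ m) p]
      exact this
    have h10 : g * a ^ p * g⁻¹ = a ^ p := by
      rw [CyclicMax.conj_pow_pow hr, h9]
    calc g * a ^ p = g * a ^ p * g⁻¹ * g := by group
      _ = a ^ p * g := by rw [h10]
  obtain ⟨g, -, hgU, hgp⟩ := exists_not_mem_pow_mem hG (zpowers a) ⊤ le_top hne
  have hgM := hkey g hgp
  have hUM : zpowers a ≠ M := by
    rintro rfl
    exact hgU hgM
  have hi := relIndex_eq hG ha hn hUn hC M hM hUM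
  have hMnc : ¬ IsCyclic M := by
    intro hcyc
    have h1 : (⟨g, hgM⟩ : M) * ⟨a, le_M M hM (mem_zpowers a)⟩
        = ⟨a, le_M M hM (mem_zpowers a)⟩ * ⟨g, hgM⟩ := by
      letI := hcyc.commGroup
      exact mul_comm _ _
    exact hgU (hC g (congrArg Subtype.val h1))
  have hUc : IsCyclic (zpowers a) := inferInstance
  obtain ⟨A, hA1, hA2, hA3⟩ := OmegaCyc2.omega_of_relIndex hp2 hG M (zpowers a) (le_M M hM) hUc hi hMnc
  have hOm : Cfsg.omegaOne p M = A := by
    unfold Cfsg.omegaOne
    have h1 : {x : G | x ∈ M ∧ x ^ p = 1} = (A : Set G) := by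
      ext x
      exact (hA1 x).symm
    rw [h1, closure_eq]
  rw [hOm]
  refine ⟨hi, ⟨⟨⟨fun x y => Subtype.ext (hA2 x x.2 y y.2)⟩⟩, fun x hx => ((hA1 x).mp hx).2⟩, hA3, ?_⟩
  have hAmem : ∀ x, x ∈ A ↔ x ^ p = 1 := by
    intro x
    rw [hA1]
    constructor
    · exact fun h => h.2
    · intro h
      refine ⟨hkey x ?_, h⟩
      rw [h]
      exact one_mem _
  rw [characteristic_iff_comap_le]
  intro φ x hx
  have h1 : φ x ∈ A := hx
  rw [hAmem] at h1 ⊢
  have h2 : φ (x ^ p) = 1 := by
    rw [map_pow, h1]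
  exact φ.injective (by rw [h2, map_one])

omit [Finite G] hp in
theorem M_normal (hUn : (zpowers a).Normal) [Finite G] (M : Subgroup G)
    (hM : ∀ g, g ∈ M ↔ g * a ^ p = a ^ p * g) : M.Normal := by
  constructor
  intro g hg x
  rw [hM] at hg ⊢
  obtain ⟨r, hr⟩ := exists_exp hUn x⁻¹
  have h1 : x⁻¹ * a ^ p * x = (a ^ p) ^ r := by
    have h2 : x⁻¹ * a ^ p * x⁻¹⁻¹ = (a ^ p) ^ r := by
      rw [← conj_pow, hr, ← pow_mul, ← pow_mul, mul_comm]
    rwa [inv_inv] at h2
  have h3 : g * (a ^ p) ^ r = (a ^ p) ^ r * g := (Commute.pow_right hg r).eq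
  calc x * g * x⁻¹ * a ^ p = x * (g * (x⁻¹ * a ^ p * x)) * x⁻¹ := by group
    _ = x * (g * (a ^ p) ^ r) * x⁻¹ := by rw [h1]
    _ = x * ((a ^ p) ^ r * g) * x⁻¹ := by rw [h3]
    _ = x * (x⁻¹ * a ^ p * x * g) * x⁻¹ := by rw [h1]
    _ = a ^ p * (x * g * x⁻¹) := by group

/-- The modular case for `p = 2`. -/
theorem two_case [Fact (Nat.Prime 2)] (hG : IsPGroup 2 G) (ha : orderOf a = 2 ^ n) (hn : 3 ≤ n)
    (hUn : (zpowers a).Normal) (hC : ∀ g, g * a = a * g → g ∈ zpowers a)
    (M : Subgroup G) (hM : ∀ g, g ∈ M ↔ g * a ^ 2 = a ^ 2 * g) (hne : zpowers a ≠ M) :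
    (zpowers a).relIndex M = 2 ∧ Cfsg.IsElementaryAbelian 2 (Cfsg.omegaOne 2 M) ∧
      Nat.card ↥(Cfsg.omegaOne 2 M) = 2 ^ 2 ∧ (Cfsg.omegaOne 2 M).Characteristic := by
  classical
  have hn2 : 2 ≤ n := by omega
  have hn1 : 1 ≤ n := by omega
  have hi := relIndex_eq hG ha hn2 hUn hC M hM hne
  set z := a ^ (2 ^ (n - 1)) with hz
  have hzc : ∀ g, g * z = z * g := fun g => y_central hG ha hn1 hUn g
  have hzo : orderOf z = 2 := y_order ha hn1
  have hz2 : z ^ 2 = 1 := by rw [← hzo, pow_orderOf_eq_one]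
  have hzz : z * z = 1 := by rw [← pow_two]; exact hz2
  have hz1 : z ≠ 1 := by
    intro h
    rw [h, orderOf_one] at hzo
    omega
  have hzU : z ∈ zpowers a := Subgroup.pow_mem _ (mem_zpowers a) _
  -- the action of `M` outside `U`
  have hact : ∀ x ∈ M, x ∉ zpowers a → x * a * x⁻¹ = a * z := by
    intro x hx hxU
    obtain ⟨k, hk⟩ := conj_of_mem_M ha hn2 hUn ((hM x).mp hx)
    rw [hk]
    rcases Nat.even_or_odd' k with ⟨j, rfl | rfl⟩
    · exfalso
      apply hxU
      apply hC
      rw [pow_mul, hz2, one_pow, mul_one] at hk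
      calc x * a = x * a * x⁻¹ * x := by group
        _ = a * x := by rw [hk]
    · rw [pow_succ, pow_mul, hz2, one_pow, one_mul]
  have hUM := le_M M hM
  obtain ⟨h, hhM, hhU⟩ := SetLike.exists_of_lt (lt_of_le_of_ne hUM hne)
  have hconjz : ∀ (x : G) (k : ℕ), x * z ^ k * x⁻¹ = z ^ k := by
    intro x k
    rw [((show Commute x z from hzc x).pow_right k).eq]
    group
  -- `a * z` and powers
  have haz : ∀ k : ℕ, (a * z) ^ k = a ^ k * z ^ k := by
    intro k
    have : Commute a z := (hzc a)
    exact this.mul_pow k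
  have hh2 : h ^ 2 ∈ zpowers a := by
    apply hC
    have h1 := hact h hhM hhU
    have h2 : h ^ 2 * a * (h ^ 2)⁻¹ = a := by
      have e : h ^ 2 * a * (h ^ 2)⁻¹ = h * (h * a * h⁻¹) * h⁻¹ := by
        rw [pow_two]
        group
      rw [e, h1, ← mul_one (h * (a * z) * h⁻¹)]
      have e2 : h * (a * z) * h⁻¹ * 1 = (h * a * h⁻¹) * (h * z * h⁻¹) := by group
      rw [e2, h1]
      have e3 : h * z * h⁻¹ = z := by
        have := hconjz h 1
        simpa using this
      rw [e3, mul_assoc, hzz, mul_one]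
    calc h ^ 2 * a = h ^ 2 * a * (h ^ 2)⁻¹ * h ^ 2 := by group
      _ = a * h ^ 2 := by rw [h2]
  have hfin : IsOfFinOrder a := isOfFinOrder_of_finite a
  obtain ⟨s, hs⟩ : ∃ s : ℕ, h ^ 2 = a ^ s := by
    rw [← hfin.mem_powers_iff_mem_zpowers] at hh2
    obtain ⟨s, hs⟩ := (Submonoid.mem_powers_iff _ _).1 hh2
    exact ⟨s, hs.symm⟩
  -- `s` is even
  have hseven : Even s := by
    have h1 : h * a ^ s * h⁻¹ = a ^ s := by
      rw [← hs, pow_two]
      group
    rw [← conj_pow, hact h hhM hhU, haz] at h1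
    have h2 : z ^ s = 1 := by simpa using h1
    have h3 : orderOf z ∣ s := orderOf_dvd_of_pow_eq_one h2
    rw [hzo] at h3
    exact even_iff_two_dvd.mpr h3
  obtain ⟨s', hs'⟩ := hseven
  -- the involution `t`
  obtain ⟨m, rfl⟩ : ∃ m, n = m + 3 := ⟨n - 3, by omega⟩
  have hnm1 : m + 3 - 1 = m + 2 := by omega
  have hzv : z = a ^ (2 ^ (m + 2)) := by rw [hz, hnm1]
  let d : ℕ := 1 + 2 ^ (m + 1)
  have hdodd : Nat.Coprime d (2 ^ (m + 2)) := by
    apply Nat.Coprime.pow_right
    rw [Nat.coprime_two_right]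
    refine ⟨2 ^ m, ?_⟩
    simp only [d, pow_succ]
    ring
  have h2d : 2 * d = 2 + 2 ^ (m + 2) := by
    simp only [d, pow_succ]
    ring
  -- the square of an element `a ^ i * x` for `x` outside `U`
  have hsq : ∀ (x : G) (i : ℕ), x * a * x⁻¹ = a * z → (a ^ i * x) ^ 2 = a ^ (2 * (i * d)) * x ^ 2 := by
    intro x i hx
    have h1 : x * a ^ i * x⁻¹ = a ^ i * z ^ i := by
      rw [← conj_pow, hx, haz]
    have h2 : x * a ^ i = a ^ i * z ^ i * x := by
      rw [← h1]
      group
    have h3 : a ^ (2 * (i * d)) = a ^ i * (a ^ i * z ^ i) := by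
      rw [hzv, ← pow_mul, ← pow_add, ← pow_add]
      congr 1
      have : 2 * (i * d) = i * (2 * d) := by ring
      rw [this, h2d]
      ring
    calc (a ^ i * x) ^ 2 = a ^ i * (x * a ^ i) * x := by
          rw [pow_two]
          group
      _ = a ^ i * (a ^ i * z ^ i * x) * x := by rw [h2]
      _ = a ^ i * (a ^ i * z ^ i) * (x * x) := by group
      _ = a ^ (2 * (i * d)) * x ^ 2 := by rw [h3, pow_two x]
  -- solving for `i`
  haveI : NeZero (2 ^ (m + 2)) := ⟨by positivity⟩
  obtain ⟨i, hi0⟩ : ∃ i : ℕ, 2 ^ (m + 2) ∣ i * d + s' := by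
    let u : ZMod (2 ^ (m + 2)) := -(s' : ZMod (2 ^ (m + 2))) * (d : ZMod (2 ^ (m + 2)))⁻¹
    refine ⟨u.val, ?_⟩
    rw [← ZMod.natCast_eq_zero_iff]
    push_cast
    rw [ZMod.natCast_zmod_val]
    have h1 := ZMod.coe_mul_inv_eq_one d hdodd
    simp only [u]
    calc -(s' : ZMod (2 ^ (m + 2))) * (d : ZMod (2 ^ (m + 2)))⁻¹ * d + s'
        = -(s' : ZMod (2 ^ (m + 2))) * ((d : ZMod (2 ^ (m + 2))) * (d : ZMod (2 ^ (m + 2)))⁻¹) + s' := by
          ring
      _ = 0 := by rw [h1]; ring
  let t : G := a ^ i * h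
  have htM : t ∈ M := M.mul_mem (hUM (Subgroup.pow_mem _ (mem_zpowers a) i)) hhM
  have htU : t ∉ zpowers a := by
    intro h1
    apply hhU
    have h2 : h = (a ^ i)⁻¹ * t := by
      simp [t]
    rw [h2]
    exact mul_mem (inv_mem (Subgroup.pow_mem _ (mem_zpowers a) i)) h1
  have ht2 : t ^ 2 = 1 := by
    show (a ^ i * h) ^ 2 = 1
    rw [hsq h i (hact h hhM hhU), hs, hs', ← pow_add]
    rw [← orderOf_dvd_iff_pow_eq_one, ha]
    obtain ⟨v, hv⟩ := hi0
    refine ⟨v, ?_⟩
    have : 2 * (i * d) + (s' + s') = 2 * (i * d + s') := by ring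
    rw [this, hv, pow_succ (2 : ℕ) (m + 2)]
    ring
  have htt : t * t = 1 := by rw [← pow_two]; exact ht2
  have htinv : t⁻¹ = t := inv_eq_of_mul_eq_one_left htt
  have htz : t * z = z * t := hzc t
  have htact := hact t htM htU
  -- powers of `a` with trivial square-like conditions
  have hsmall : ∀ k : ℕ, a ^ (2 * (k * d)) = 1 → a ^ k = 1 ∨ a ^ k = z := by
    intro k hk
    rw [← orderOf_dvd_iff_pow_eq_one, ha] at hk
    have h1 : 2 ^ (m + 2) ∣ k * d := by
      have : 2 ^ (m + 3) = 2 * 2 ^ (m + 2) := by ring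
      rw [this] at hk
      exact Nat.dvd_of_mul_dvd_mul_left (by norm_num) hk
    have h2 : 2 ^ (m + 2) ∣ k := hdodd.symm.dvd_of_dvd_mul_right h1
    obtain ⟨j, rfl⟩ := h2
    rw [pow_mul, ← hzv]
    rcases Nat.even_or_odd' j with ⟨c, rfl | rfl⟩
    · left
      rw [pow_mul, hz2, one_pow]
    · right
      rw [pow_succ, pow_mul, hz2, one_pow, one_mul]
  -- the subgroup
  obtain ⟨A, hAmem⟩ := four_subgroup z t hzz htt htz
  have hA2 : ∀ x ∈ A, x ^ 2 = 1 := by
    intro x hx
    rcases (hAmem x).mp hx with rfl | rfl | rfl | rfl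
    · simp
    · exact hz2
    · exact ht2
    · have : Commute z t := htz.symm
      rw [this.mul_pow, hz2, ht2, one_mul]
  have hAcomm : ∀ x ∈ A, ∀ y ∈ A, x * y = y * x := by
    intro x hx y hy
    have hc1 : Commute z t := htz.symm
    rcases (hAmem x).mp hx with rfl | rfl | rfl | rfl <;>
      rcases (hAmem y).mp hy with rfl | rfl | rfl | rfl <;>
      first
      | simp
      | exact hc1
      | exact hc1.symm
      | exact (Commute.refl z).mul_right hc1
      | exact ((Commute.refl z).mul_right hc1).symm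
      | exact hc1.symm.mul_right (Commute.refl t)
      | exact (hc1.symm.mul_right (Commute.refl t)).symm
  have hAM : A ≤ M := by
    intro x hx
    rcases (hAmem x).mp hx with rfl | rfl | rfl | rfl
    · exact M.one_mem
    · exact hUM hzU
    · exact htM
    · exact M.mul_mem (hUM hzU) htM
  -- elements of `M` of order at most two
  have hAchar : ∀ x ∈ M, x ^ 2 = 1 → x ∈ A := by
    intro x hxM hx2
    by_cases hxU : x ∈ zpowers a
    · rw [← hfin.mem_powers_iff_mem_zpowers] at hxU
      obtain ⟨k, rfl⟩ := (Submonoid.mem_powers_iff _ _).1 hxU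
      have h1 : a ^ (2 * k) = 1 := by
        rw [mul_comm, pow_mul]
        exact hx2
      rw [← orderOf_dvd_iff_pow_eq_one, ha] at h1
      have h2 : a ^ (2 * (k * d)) = 1 := by
        rw [← orderOf_dvd_iff_pow_eq_one, ha]
        have : 2 * (k * d) = 2 * k * d := by ring
        rw [this]
        exact h1.mul_right d
      rcases hsmall k h2 with h3 | h3
      · exact (hAmem _).mpr (Or.inl h3)
      · exact (hAmem _).mpr (Or.inr (Or.inl h3))
    · -- `x * t` lies in `U`
      have hxact := hact x hxM hxU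
      have hxt : x * t ∈ zpowers a := by
        apply hC
        have h1 : t * a * t = a * z := by
          have := htact
          rwa [htinv] at this
        have h2 : x * z * x⁻¹ = z := by
          rw [hzc x]
          group
        have h3 : (x * t) * a * (x * t)⁻¹ = a := by
          calc (x * t) * a * (x * t)⁻¹ = x * (t * a * t⁻¹) * x⁻¹ := by group
            _ = x * (a * z) * x⁻¹ := by rw [htact]
            _ = (x * a * x⁻¹) * (x * z * x⁻¹) := by group
            _ = a * z * z := by rw [hxact, h2]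
            _ = a := by rw [mul_assoc, hzz, mul_one]
        calc (x * t) * a = (x * t) * a * (x * t)⁻¹ * (x * t) := by group
          _ = a * (x * t) := by rw [h3]
      rw [← hfin.mem_powers_iff_mem_zpowers] at hxt
      obtain ⟨k, hk⟩ := (Submonoid.mem_powers_iff _ _).1 hxt
      have hxval : x = a ^ k * t := by
        rw [hk]
        calc x = x * (t * t) := by rw [htt, mul_one]
          _ = x * t * t := by group
      have h1 := hsq t k htact
      rw [← hxval, hx2, ht2, mul_one] at h1
      rcases hsmall k h1.symm with h3 | h3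
      · rw [hxval, h3, one_mul]
        exact (hAmem t).mpr (Or.inr (Or.inr (Or.inl rfl)))
      · rw [hxval, h3]
        exact (hAmem _).mpr (Or.inr (Or.inr (Or.inr rfl)))
  have hOm : Cfsg.omegaOne 2 M = A := by
    unfold Cfsg.omegaOne
    have h1 : {x : G | x ∈ M ∧ x ^ 2 = 1} = (A : Set G) := by
      ext x
      constructor
      · rintro ⟨h1, h2⟩
        exact hAchar x h1 h2
      · intro h1
        exact ⟨hAM h1, hA2 x h1⟩
    rw [h1, closure_eq]
  rw [hOm]
  refine ⟨hi, ⟨⟨⟨fun x y => Subtype.ext (hAcomm x x.2 y y.2)⟩⟩, hA2⟩, ?_, ?_⟩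
  · -- the order
    have hzt1 : z * t ≠ 1 := by
      intro h1
      apply htU
      have h2 : t = z⁻¹ := by
        exact eq_inv_of_mul_eq_one_right h1
      rw [h2]
      exact inv_mem hzU
    have hztz : z * t ≠ z := by
      intro h1
      have h2 : t = 1 := mul_eq_left.mp h1
      apply htU
      rw [h2]
      exact one_mem _
    have hztt : z * t ≠ t := by
      intro h1
      exact hz1 (mul_eq_right.mp h1)
    have htz1 : t ≠ 1 := by
      rintro h1
      apply htU
      rw [h1]
      exact one_mem _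
    have htzz : t ≠ z := by
      intro h1
      apply htU
      rw [h1]
      exact hzU
    have h1 : (A : Set G) = ↑({1, z, t, z * t} : Finset G) := by
      ext x
      simp only [SetLike.mem_coe, hAmem, Finset.coe_insert, Finset.coe_singleton,
        Set.mem_insert_iff, Set.mem_singleton_iff]
    have h2 : Nat.card A = ({1, z, t, z * t} : Finset G).card := by
      have h3 : Nat.card A = Nat.card (A : Set G) := rfl
      rw [h3, Nat.card_coe_set_eq, h1, Set.ncard_coe_finset]
    rw [h2]
    have n3 : t ∉ ({z * t} : Finset G) := by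
      rw [Finset.mem_singleton]
      exact fun h => hztt h.symm
    have n2 : z ∉ ({t, z * t} : Finset G) := by
      rw [Finset.mem_insert, Finset.mem_singleton, not_or]
      exact ⟨htzz.symm, fun h => hztz h.symm⟩
    have n1 : (1 : G) ∉ ({z, t, z * t} : Finset G) := by
      rw [Finset.mem_insert, Finset.mem_insert, Finset.mem_singleton, not_or, not_or]
      exact ⟨hz1.symm, htz1.symm, fun h => hzt1 h.symm⟩
    rw [Finset.card_insert_of_notMem n1, Finset.card_insert_of_notMem n2,
      Finset.card_insert_of_notMem n3, Finset.card_singleton]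
    norm_num
  · -- characteristic
    haveI hMn : M.Normal := M_normal hUn M hM
    have hAiff : ∀ x : G, x ∈ A ↔ x ^ 2 = 1 ∧ ∀ g : G, ⁅g, x⁆ ∈ center G := by
      intro x
      constructor
      · intro hx
        refine ⟨hA2 x hx, ?_⟩
        intro g
        have hzcen : z ∈ center G := by
          rw [mem_center_iff]
          intro g
          exact hzc g
        have hconjA : g * x * g⁻¹ ∈ A := by
          apply hAchar _ (hMn.conj_mem x (hAM hx) g)
          rw [conj_pow, hA2 x hx]
          simp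
        -- the commutator with `t`
        have htcase : ⁅g, t⁆ ∈ center G := by
          have hgt : g * t * g⁻¹ ∈ A := by
            apply hAchar _ (hMn.conj_mem t htM g)
            rw [conj_pow, ht2]
            simp
          rw [commutatorElement_def]
          rcases (hAmem _).mp hgt with h1 | h1 | h1 | h1
          · exfalso
            apply htU
            have h2 : t = 1 := by
              have h3 := congrArg (fun w => g⁻¹ * w * g) h1
              simpa [mul_assoc] using h3
            rw [h2]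
            exact one_mem _
          · exfalso
            apply htU
            have h2 : t = z := by
              have h3 : g⁻¹ * (g * t * g⁻¹) * g = g⁻¹ * z * g := by rw [h1]
              have h4 : g⁻¹ * z * g = z := by
                rw [hzc g⁻¹]
                group
              rw [h4] at h3
              calc t = g⁻¹ * (g * t * g⁻¹) * g := by group
                _ = z := h3
            rw [h2]
            exact hzU
          · rw [h1]
            simp
          · rw [h1]
            simpa using hzcen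
        rcases (hAmem x).mp hx with rfl | rfl | rfl | rfl
        · simp
        · rw [commutatorElement_eq_one_iff_commute.mpr (hzc g)]
          exact one_mem _
        · exact htcase
        · have h1 : ⁅g, z * t⁆ = ⁅g, t⁆ := by
            rw [commutatorElement_mul_right_eq_mul_conj,
              commutatorElement_eq_one_iff_commute.mpr (hzc g), one_mul,
              ← hzc ⁅g, t⁆]
            group
          rw [h1]
          exact htcase
      · rintro ⟨hx2, hxc⟩
        apply hAchar x _ hx2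
        rw [hM]
        obtain ⟨r, hr⟩ := exists_exp hUn x
        set b' := a ^ r with hb'
        have hab : a * b' = b' * a := ((Commute.refl a).pow_right r).eq
        have hxx : x * x = 1 := by rw [← pow_two]; exact hx2
        have hxinv : x⁻¹ = x := inv_eq_of_mul_eq_one_left hxx
        have hb2 : x * b' * x⁻¹ = a := by
          rw [← hr]
          calc x * (x * a * x⁻¹) * x⁻¹ = (x * x) * a * (x⁻¹ * x⁻¹) := by group
            _ = a := by
              rw [hxinv, hxx]
              group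
        have hc := hxc a
        rw [commutatorElement_def] at hc
        have hcval : a * x * a⁻¹ * x⁻¹ = a * b'⁻¹ := by
          rw [← hr]
          group
        rw [hcval, mem_center_iff] at hc
        have h1 := hc x
        have h2 : x * (a * b'⁻¹) * x⁻¹ = b' * a⁻¹ := by
          calc x * (a * b'⁻¹) * x⁻¹ = (x * a * x⁻¹) * (x * b' * x⁻¹)⁻¹ := by group
            _ = b' * a⁻¹ := by rw [hr, hb2]
        have h3 : a * b'⁻¹ = b' * a⁻¹ := by
          rw [← h2, h1]
          group
        have h4 : b' * b' = a * a := by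
          have h5 : (a * b'⁻¹) * (a * b') = (b' * a⁻¹) * (a * b') := by rw [h3]
          have h6 : (b' * a⁻¹) * (a * b') = b' * b' := by group
          have h7 : (a * b'⁻¹) * (a * b') = a * a := by
            rw [hab]
            group
          rw [h7, h6] at h5
          exact h5.symm
        have h8 : x * a ^ 2 * x⁻¹ = a ^ 2 := by
          rw [← conj_pow, hr, pow_two, pow_two, h4]
        calc x * a ^ 2 = x * a ^ 2 * x⁻¹ * x := by group
          _ = a ^ 2 * x := by rw [h8]
    rw [characteristic_iff_comap_le]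
    intro φ x hx
    have h1 : φ x ∈ A := hx
    rw [hAiff] at h1 ⊢
    obtain ⟨h2, h3⟩ := h1
    refine ⟨φ.injective (by rw [map_pow, h2, map_one]), ?_⟩
    intro g
    have h4 := h3 (φ g)
    rw [mem_center_iff] at h4 ⊢
    intro y
    apply φ.injective
    have h5 : φ ⁅g, x⁆ = ⁅φ g, φ x⁆ := by
      simp [commutatorElement_def]
    rw [map_mul, map_mul, h5]
    exact h4 (φ y)

/-- The classification case for `p = 2`. -/
theorem two_case_A [Fact (Nat.Prime 2)] (ha : orderOf a = 2 ^ n) (hn : 2 ≤ n)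
    (hUn : (zpowers a).Normal) (hne : zpowers a ≠ ⊤)
    (hN : ∀ g, g * a ^ (2 ^ (n - 2)) = a ^ (2 ^ (n - 2)) * g → g ∈ zpowers a) :
    Nat.card G = 2 ^ (n + 1) ∧ ((∃ m : ℕ, Nonempty (G ≃* DihedralGroup m)) ∨
      (∃ m : ℕ, Nonempty (G ≃* QuaternionGroup m)) ∨ Cfsg.IsQuasiDihedral G) := by
  obtain ⟨m, rfl⟩ : ∃ m, n = m + 2 := ⟨n - 2, by omega⟩
  simp only [Nat.add_sub_cancel] at hN
  set w := a ^ (2 ^ m) with hw
  have hwo : a ^ (2 ^ m * 4) = 1 := by
    rw [← orderOf_dvd_iff_pow_eq_one, ha, pow_add]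
    norm_num
  have hcases : ∀ c, c ∉ zpowers a → ∃ r : ℕ, c * a * c⁻¹ = a ^ r ∧ r % 4 = 3 := by
    intro c hc
    obtain ⟨r, hr⟩ := exists_exp hUn c
    refine ⟨r, hr, ?_⟩
    have hodd : r % 2 = 1 := by
      by_contra h0
      have h2 : 2 ∣ r := by omega
      obtain ⟨u, rfl⟩ := h2
      have h3 : (c * a * c⁻¹) ^ (2 ^ (m + 1)) = 1 := by
        rw [hr, ← pow_mul, ← orderOf_dvd_iff_pow_eq_one, ha]
        refine ⟨u, ?_⟩
        ring
      rw [conj_pow] at h3
      have h4 : a ^ (2 ^ (m + 1)) = 1 := by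
        have h5 := congrArg (fun t => c⁻¹ * t * c) h3
        simpa [mul_assoc] using h5
      rw [← orderOf_dvd_iff_pow_eq_one, ha] at h4
      have h6 := Nat.pow_dvd_pow_iff_le_right (x := 2) (by norm_num) |>.mp h4
      omega
    by_contra h3
    have h1 : r % 4 = 1 := by omega
    apply hc
    apply hN
    have h5 : c * w * c⁻¹ = w := by
      rw [hw, CyclicMax.conj_pow_pow hr, pow_eq_pow_iff_modEq, ha]
      have h6 : r ≡ 1 [MOD 4] := h1
      have h7 := Nat.ModEq.mul_right' (2 ^ m) h6
      rw [one_mul] at h7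
      have h8 : 2 ^ (m + 2) = 4 * 2 ^ m := by ring
      rw [h8]
      exact h7
    calc c * w = c * w * c⁻¹ * c := by group
      _ = w * c := by rw [h5]
  have hwinv : ∀ c, c ∉ zpowers a → c * w * c⁻¹ = w⁻¹ := by
    intro c hc
    obtain ⟨r, hr, hr3⟩ := hcases c hc
    rw [hw, CyclicMax.conj_pow_pow hr, eq_inv_iff_mul_eq_one, ← pow_add,
      ← orderOf_dvd_iff_pow_eq_one, ha]
    obtain ⟨j, hj⟩ : ∃ j, r = 4 * j + 3 := ⟨r / 4, by omega⟩
    refine ⟨j + 1, ?_⟩
    rw [hj]
    ring
  obtain ⟨b, hb⟩ : ∃ b, b ∉ zpowers a := by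
    by_contra hall
    push Not at hall
    exact hne (eq_top_iff.mpr fun x _ => hall x)
  have hindex : ∀ c, c ∉ zpowers a → c * b⁻¹ ∈ zpowers a := by
    intro c hc
    apply hN
    have h1 := hwinv b hb
    have h2 := hwinv c hc
    have h3 : b⁻¹ * w * b = w⁻¹ := by
      have h4 : b * w⁻¹ * b⁻¹ = w := by
        calc b * w⁻¹ * b⁻¹ = (b * w * b⁻¹)⁻¹ := by group
          _ = w := by rw [h1, inv_inv]
      calc b⁻¹ * w * b = b⁻¹ * (b * w⁻¹ * b⁻¹) * b := by rw [h4]
        _ = w⁻¹ := by group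
    have h5 : (c * b⁻¹) * w * (c * b⁻¹)⁻¹ = w := by
      calc (c * b⁻¹) * w * (c * b⁻¹)⁻¹ = c * (b⁻¹ * w * b) * c⁻¹ := by group
        _ = c * w⁻¹ * c⁻¹ := by rw [h3]
        _ = (c * w * c⁻¹)⁻¹ := by group
        _ = w := by rw [h2, inv_inv]
    calc (c * b⁻¹) * w = (c * b⁻¹) * w * (c * b⁻¹)⁻¹ * (c * b⁻¹) := by group
      _ = w * (c * b⁻¹) := by rw [h5]
  have hidx : (zpowers a).index = 2 := by
    rw [Subgroup.index_eq_two_iff]
    refine ⟨b⁻¹, fun c => ?_⟩
    by_cases hc : c ∈ zpowers a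
    · right
      refine ⟨hc, fun h => hb ?_⟩
      have h1 : b⁻¹ = c⁻¹ * (c * b⁻¹) := by group
      have h2 : b⁻¹ ∈ zpowers a := by
        rw [h1]
        exact mul_mem (inv_mem hc) h
      simpa using h2
    · left
      exact ⟨hindex c hc, hc⟩
  have hcard : Nat.card G = 2 ^ (m + 2 + 1) := by
    have h1 := Subgroup.card_mul_index (zpowers a)
    rw [Nat.card_zpowers, ha, hidx] at h1
    rw [← h1]
    ring
  refine ⟨hcard, ?_⟩
  obtain ⟨r, hr, hr3⟩ := hcases b hb
  rcases CycMax2.classify (m + 2) hn a b ha hcard hb r hr3 hr with h | h | h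
  · left
    obtain ⟨k, hk⟩ := h
    exact ⟨_, hk⟩
  · right; right
    obtain ⟨k, hk, x, y, hx, hy, hxy⟩ := h
    refine ⟨k + 3, by omega, ?_, x, y, hx, hy, ?_⟩
    · rw [hk]
    · rw [hxy]
      simp
  · right; left
    obtain ⟨k, hk⟩ := h
    exact ⟨_, hk⟩

end setup

/-- Let G be a finite non-abelian p-group with a cyclic normal subgroup U of order p^n such that C_G(U) = U. Then either p = 2 and G is dihedral, generalized quaternion or semidihedral of order 2^(n+1); or, writing U₁ for the subgroup generated by the p-th powers of elements of U and M = C_G(U₁), the subgroup U has index p in M and the subgroup Ω₁(M) generated by the elements of M of order dividing p is elementary abelian of order p² and characteristic in G. -/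
theorem result {G : Type*} [Group G] [Finite G] {p : ℕ} [Fact p.Prime] (hG : IsPGroup p G) (hna : ¬ IsMulCommutative G) (U : Subgroup G) [U.Normal] (hU : IsCyclic U) (n : ℕ) (hUn : Nat.card U = p ^ n) (hC : Subgroup.centralizer (U : Set G) = U) : (p = 2 ∧ Nat.card G = 2 ^ (n + 1) ∧ ((∃ m : ℕ, Nonempty (G ≃* DihedralGroup m)) ∨ (∃ m : ℕ, Nonempty (G ≃* QuaternionGroup m)) ∨ Cfsg.IsQuasiDihedral G)) ∨ (U.relIndex (Subgroup.centralizer (Cfsg.powerClosure p 1 U : Set G)) = p ∧ Cfsg.IsElementaryAbelian p (Cfsg.omegaOne p (Subgroup.centralizer (Cfsg.powerClosure p 1 U : Set G))) ∧ Nat.card ↥(Cfsg.omegaOne p (Subgroup.centralizer (Cfsg.powerClosure p 1 U : Set G))) = p ^ 2 ∧ (Cfsg.omegaOne p (Subgroup.centralizer (Cfsg.powerClosure p 1 U : Set G))).Characteristic) := by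
  classical
  have hpp : p.Prime := Fact.out
  obtain ⟨⟨a, haU⟩, hgen⟩ := hU.exists_generator
  have hUa : U = zpowers a := by
    apply le_antisymm
    · intro x hx
      obtain ⟨k, hk⟩ := hgen ⟨x, hx⟩
      refine ⟨k, ?_⟩
      have := congrArg Subtype.val hk
      simpa using this
    · exact zpowers_le.mpr haU
  subst hUa
  have ha : orderOf a = p ^ n := by
    rw [← Nat.card_zpowers, hUn]
  have hUnorm : (zpowers a).Normal := inferInstance
  have hC' : ∀ g, g * a = a * g → g ∈ zpowers a := by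
    intro g hg
    rw [← hC, mem_centralizer_iff]
    rintro _ ⟨k, rfl⟩
    exact (((show Commute g a from hg).zpow_right k).eq).symm
  have hne : zpowers a ≠ ⊤ := by
    intro h
    apply hna
    refine ⟨⟨fun x y => ?_⟩⟩
    have hx : x ∈ zpowers a := by rw [h]; trivial
    have hy : y ∈ zpowers a := by rw [h]; trivial
    obtain ⟨i, rfl⟩ := hx
    obtain ⟨j, rfl⟩ := hy
    exact ((Commute.refl a).zpow_zpow i j).eq
  have hn2 : 2 ≤ n := by
    by_contra hlt
    have hcases : n = 0 ∨ n = 1 := by omega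
    apply hne
    rw [eq_top_iff]
    intro g _
    apply hC'
    rcases hcases with rfl | rfl
    · rw [pow_zero, orderOf_eq_one_iff] at ha
      rw [ha]
      group
    · have := y_central hG ha (by omega) hUnorm g
      simpa using this
  have hM : ∀ g, g ∈ centralizer (Cfsg.powerClosure p 1 (zpowers a) : Set G) ↔
      g * a ^ p = a ^ p * g := fun g => mem_M_iff a g
  by_cases hp2 : p = 2
  · subst hp2
    by_cases hN : ∀ g, g * a ^ (2 ^ (n - 2)) = a ^ (2 ^ (n - 2)) * g → g ∈ zpowers a
    · left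
      obtain ⟨h1, h2⟩ := two_case_A ha hn2 hUnorm hne hN
      exact ⟨rfl, h1, h2⟩
    · right
      push Not at hN
      obtain ⟨g, hgw, hgU⟩ := hN
      have hn3 : 3 ≤ n := by
        by_contra hlt
        have h2 : n = 2 := by omega
        subst h2
        exact hgU (hC' g (by simpa using hgw))
      -- a suitable element
      let N : Subgroup G := centralizer {a ^ (2 ^ (n - 2))}
      have hNmem : ∀ x, x ∈ N ↔ x * a ^ (2 ^ (n - 2)) = a ^ (2 ^ (n - 2)) * x := fun x =>
        mem_centralizer_singleton_iff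
      have hUN : zpowers a ≤ N := by
        rw [zpowers_le, hNmem]
        exact ((Commute.refl a).pow_right _).eq
      have hUNne : zpowers a ≠ N := by
        intro h
        apply hgU
        rw [h, hNmem]
        exact hgw
      obtain ⟨h, hhN, hhU, hh2⟩ := exists_not_mem_pow_mem hG (zpowers a) N hUN hUNne
      obtain ⟨r, hr⟩ := exists_exp hUnorm h
      obtain ⟨m, rfl⟩ : ∃ m, n = m + 3 := ⟨n - 3, by omega⟩
      have hnm : m + 3 - 2 = m + 1 := by omega
      rw [hnm] at hNmem
      have hr4 : r % 4 = 1 := by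
        have h1 := (hNmem h).mp hhN
        have h2 : h * a ^ (2 ^ (m + 1)) * h⁻¹ = a ^ (2 ^ (m + 1)) := by
          rw [h1]
          group
        rw [CyclicMax.conj_pow_pow hr, pow_eq_pow_iff_modEq, ha] at h2
        have h3 : r * 2 ^ (m + 1) ≡ 1 * 2 ^ (m + 1) [MOD 4 * 2 ^ (m + 1)] := by
          rw [one_mul, show 4 * 2 ^ (m + 1) = 2 ^ (m + 3) by ring]
          exact h2
        exact Nat.ModEq.mul_right_cancel' (by positivity) h3
      have hr2 : r ^ 2 ≡ 1 [MOD 2 ^ (m + 3)] := by
        have h1 := CyclicMax.iterate_conj hr 2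
        have h2 : h ^ 2 * a * (h ^ 2)⁻¹ = a := by
          obtain ⟨k, hk⟩ := hh2
          simp only at hk
          rw [← hk, ((Commute.refl a).zpow_left k).eq]
          group
        rw [h2] at h1
        have h4 : a ^ (r ^ 2) = a ^ 1 := by
          rw [← h1, pow_one]
        rw [pow_eq_pow_iff_modEq, ha] at h4
        exact h4
      have hr1 : 2 * r ≡ 2 * 1 [MOD 2 ^ (m + 3)] := by
        have h4dvd : (4 : ℕ) ∣ 2 ^ (m + 2) := ⟨2 ^ m, by ring⟩
        rcases CyclicMax.sq_roots_two (m := m + 3) (by omega) hr2 with h1 | h1 | h1 | h1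
        · exact Nat.ModEq.mul_left 2 h1
        · have h2 : 2 * r ≡ 2 * (1 + 2 ^ (m + 3 - 1)) [MOD 2 ^ (m + 3)] := Nat.ModEq.mul_left 2 h1
          refine h2.trans ?_
          have h3 : 2 * (1 + 2 ^ (m + 3 - 1)) = 2 * 1 + 2 ^ (m + 3) := by
            rw [show m + 3 - 1 = m + 2 by omega]
            ring
          rw [h3]
          simp [Nat.ModEq]
        · exfalso
          have h2 := h1.of_dvd (show 4 ∣ 2 ^ (m + 3) from ⟨2 ^ (m + 1), by ring⟩)
          unfold Nat.ModEq at h2
          omega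
        · exfalso
          have h2 := h1.of_dvd (show 4 ∣ 2 ^ (m + 3) from ⟨2 ^ (m + 1), by ring⟩)
          rw [show m + 3 - 1 = m + 2 by omega] at h2
          unfold Nat.ModEq at h2
          obtain ⟨c, hc⟩ := h4dvd
          rw [hc] at h2
          omega
      have hhM : h * a ^ 2 = a ^ 2 * h := by
        have h2 : h * a ^ 2 * h⁻¹ = a ^ 2 := by
          rw [CyclicMax.conj_pow_pow hr, pow_eq_pow_iff_modEq, ha, mul_comm]
          exact hr1
        calc h * a ^ 2 = h * a ^ 2 * h⁻¹ * h := by group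
          _ = a ^ 2 * h := by rw [h2]
      have hne' : zpowers a ≠ centralizer (Cfsg.powerClosure 2 1 (zpowers a) : Set G) := by
        intro h3
        apply hhU
        rw [h3, hM]
        exact hhM
      exact two_case hG ha (by omega) hUnorm hC' _ hM hne'
  · right
    exact odd_case hp2 hG ha hn2 hUnorm hC' hne _ hM

end Cfsg.Agent.S3761
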