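import Mathlib
import Cfsg.Statements.S4700
import Cfsg.Agent.Lib.RigT
import Cfsg.Agent.Lib.PrimeGraphSL2
-- import your own Cfsg.Agent.* helpers here

set_option autoImplicit false
open Cfsg

namespace Cfsg.Agent.S4700

open Cfsg.Agent.Lib.RigT
open Cfsg.Agent.Lib.PrimeGraphSL2

/-- Let G be a finite perfect group and p a prime such that a Sylow p-subgroup of G has order p, and write the number of Sylow p-subgroups as 1 + np. Let H = O_p'(G). Then either p > 3 and G/H is isomorphic to PSL(2, p); or p = 2^m + 1 > 3 and G/H is isomorphic to SL(2, 2^m); or n = (hup + u^2 + u + h)/(u + 1) for some positive integers h and u. -/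
theorem result {G : Type*} [Group G] [Finite G] (hperf : commutator G = ⊤) (p : ℕ) [Fact p.Prime] (P : Sylow p G) (hP : Nat.card P = p) (n : ℕ) (hn : Nat.card (Sylow p G) = 1 + n * p) : (∃ (F : Type) (_ : Field F) (_ : Fintype F), Fintype.card F = p ∧ 3 < p ∧ Nonempty (G ⧸ Cfsg.pPrimeCore p G ≃* Matrix.ProjectiveSpecialLinearGroup (Fin 2) F)) ∨ (∃ (m : ℕ) (F : Type) (_ : Field F) (_ : Fintype F), Fintype.card F = 2 ^ m ∧ p = 2 ^ m + 1 ∧ 3 < p ∧ Nonempty (G ⧸ Cfsg.pPrimeCore p G ≃* Matrix.SpecialLinearGroup (Fin 2) F)) ∨ (∃ h u : ℕ, 0 < h ∧ 0 < u ∧ n * (u + 1) = h * u * p + u ^ 2 + u + h) := by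
  classical
  have hpp : p.Prime := Fact.out
  have hcard : Nat.card (P : Subgroup G) = p := hP
  have hidx' : Nat.card (Sylow p G) = (Subgroup.normalizer ((P : Subgroup G) : Set G)).index :=
    Sylow.card_eq_index_normalizer P
  rw [hidx'] at hn
  by_cases hAlt : Cfsg.Agent.Lib.RigC.AltFail n p
  · have hstar : ∀ x ∈ (P : Subgroup G), x ≠ 1 →
        Subgroup.centralizer ({x} : Set G) = Subgroup.centralizer ((P : Subgroup G) : Set G) := by
      intro x hx hx1
      have h1 := Cfsg.Agent.Lib.SmallGroups2.zpowers_eq_of_mem_of_ne_one hpp hcard hx hx1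
      rw [← h1, Subgroup.zpowers_eq_closure, Subgroup.centralizer_closure]
    obtain ⟨r, e, H⟩ := Cfsg.Agent.Lib.TICent.exists_hyp p hpp P hstar (by rw [hcard]; exact hpp.one_lt)
    rcases Cfsg.Agent.Lib.RigT.quot_aux hperf P H rfl hcard hn hAlt with h | ⟨m, F, i1, i2, hF, hpm, hp3, ⟨e'⟩⟩
    · exact Or.inl h
    · right
      left
      refine ⟨m, F, i1, i2, hF, hpm, hp3, ?_⟩
      have hm0 : m ≠ 0 := by
        rintro rfl
        simp at hpm
        omega
      obtain ⟨r', hr⟩ := CharP.exists F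
      have hrp : r'.Prime := by
        have := CharP.char_is_prime_or_zero F r'
        rcases this with h | h
        · exact h
        · exfalso
          subst h
          haveI := CharP.charP_to_charZero F
          exact not_finite F
      haveI : Fact r'.Prime := ⟨hrp⟩
      obtain ⟨k, -, hk⟩ := FiniteField.card F r'
      have hr2 : r' = 2 := by
        have h3 : r' ∣ 2 ^ m := by
          rw [← hF, hk]
          exact dvd_pow_self r' k.2.ne'
        exact (Nat.prime_dvd_prime_iff_eq hrp Nat.prime_two).1 (hrp.dvd_of_dvd_pow h3)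
      subst hr2
      exact ⟨e'.trans Cfsg.Agent.Lib.PrimeGraphSL2.pslEquivSl⟩
  · right
    right
    unfold Cfsg.Agent.Lib.RigC.AltFail at hAlt
    push Not at hAlt
    obtain ⟨u, h, hu, hh, heq⟩ := hAlt
    exact ⟨h, u, hh, hu, heq⟩

end Cfsg.Agent.S4700
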