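import Mathlib
-- Template for statement S0910 (row 910; see /opt/grader/pristine/manifest.json for weights).
-- Copy to Cfsg/Agent/S0910.lean and replace the sorry. The statement below is byte-identical to the frozen
-- statement Cfsg.CfsgFrozen.S0910 (Cfsg/Statements/S0910.lean; the theorem Cfsg.principal_block_p_power_degree_eq_trivial);
-- the grader kernel-checks Cfsg.Agent.S0910.result against that frozen type. Keep the theorem IN THIS FILE
-- (a `result` declared elsewhere and merely imported here is not credited); helpers may live anywhere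
-- under Cfsg/Agent/.
import Cfsg.Statements.S0910
import Cfsg.Agent.Lib.BurnsidePQ
import Cfsg.Agent.Lib.BlockIdem

set_option autoImplicit false
open Cfsg

namespace Cfsg.Agent.S0910

open Cfsg Cfsg.Agent.Lib.CharBasic Cfsg.Agent.Lib.CharInd Cfsg.Agent.Lib.CharIntegrality
open Cfsg.Agent.Lib.BlockLocal Cfsg.Agent.Lib.BlockIdem Cfsg.Agent.Lib.BurnsidePQ
open Module

/-- Let G be a non-abelian finite simple group and p a prime. If an irreducible character χ lies in the principal block (relative to a maximal ideal of the algebraic integers containing p) and χ 1 is a power of p, then χ is the principal character. -/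
theorem result {G : Type*} [Group G] [Finite G] (p : ℕ) [Fact p.Prime] (M : Ideal Cfsg.AlgInt) (hM : Cfsg.IsPModular p M) [IsSimpleGroup G] (hna : ∃ a b : G, a * b ≠ b * a) (χ : Cfsg.IrrCharacter G) (hχ : χ ∈ Cfsg.principalBlock M G) (k : ℕ) (hdeg : (χ : G → ℂ) 1 = (p : ℂ) ^ k) : (χ : G → ℂ) = fun _ => 1 := by
  classical
  letI : Fintype G := Fintype.ofFinite G
  haveI hprime := hM.2.1.isPrime
  have hp : p.Prime := Fact.out
  by_contra hne
  have hχ1 : Cfsg.SameBlock M (fun _ : G => (1 : ℂ)) (χ : G → ℂ) := hχ
  let one : Cfsg.IrrCharacter G := ⟨fun _ => 1, isIrrCharacter_one⟩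
  by_cases hdvd : p ∣ Nat.card G
  · obtain ⟨a, b, hab⟩ := hna
    have hcenter : Subgroup.center G = ⊥ := by
      refine (inferInstance : (Subgroup.center G).Normal).eq_bot_or_eq_top.resolve_right fun h => ?_
      apply hab
      have : a ∈ Subgroup.center G := by rw [h]; trivial
      exact (Subgroup.mem_center_iff.mp this b).symm
    -- a central element of a Sylow subgroup
    obtain ⟨P⟩ : Nonempty (Sylow p G) := inferInstance
    haveI : Nontrivial (P : Subgroup G) := by
      have h1 := Sylow.card_eq_multiplicity P
      rw [← Finite.one_lt_card_iff_nontrivial, h1]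
      have h2 : 0 < (Nat.card G).factorization p :=
        hp.factorization_pos_of_dvd Nat.card_pos.ne' hdvd
      exact Nat.one_lt_pow h2.ne' hp.one_lt
    haveI hcn : Nontrivial (Subgroup.center (P : Subgroup G)) := P.isPGroup'.center_nontrivial
    obtain ⟨z₀, hz₁⟩ := exists_ne (1 : Subgroup.center (P : Subgroup G))
    set z : G := (((z₀ : Subgroup.center (P : Subgroup G)) : (P : Subgroup G)) : G) with hz
    have hz1 : z ≠ 1 := by
      intro h
      apply hz₁
      apply Subtype.ext
      apply Subtype.ext
      exact h
    have hle : (P : Subgroup G) ≤ Subgroup.centralizer ({z} : Set G) := by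
      intro u hu
      rw [Subgroup.mem_centralizer_singleton_iff]
      have h1 := Subgroup.mem_center_iff.mp z₀.2 ⟨u, hu⟩
      exact congrArg Subtype.val h1
    have hidx : ¬ p ∣ (Subgroup.centralizer ({z} : Set G)).index := fun h =>
      P.not_dvd_index (h.trans (Subgroup.index_dvd_of_le hle))
    have hval : (χ : G → ℂ) z ≠ 0 := by
      intro h0
      have h1 := hχ1 z
      have h2 : Cfsg.centralChar (χ : G → ℂ) z = 0 := by
        unfold Cfsg.centralChar
        rw [h0]
        simp
      have h3 : Cfsg.centralChar (fun _ : G => (1 : ℂ)) z = ((Subgroup.centralizer ({z} : Set G)).index : ℂ) := by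
        unfold Cfsg.centralChar
        simp
      rw [h2, h3, sub_zero] at h1
      exact hidx ((memLocalIdeal_natCast_iff hM).mp h1)
    obtain ⟨n, ρ, hρ, hχe⟩ := χ.2
    have hn : n = p ^ k := by
      have h1 : (n : ℂ) = (χ : G → ℂ) 1 := by
        rw [← hχe, char_one_eq_rep]
      rw [hdeg] at h1
      exact_mod_cast h1
    have hcop : Nat.Coprime (finrank ℂ (Fin n → ℂ)) (Subgroup.centralizer ({z} : Set G)).index := by
      rw [finrank_fin_fun, hn]
      exact Nat.Coprime.pow_left _ ((Nat.Prime.coprime_iff_not_dvd hp).mpr hidx)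
    have hB := character_eq_zero_or_norm_eq ρ hρ z hcop
    rw [hχe] at hB
    have hB' := hB.resolve_left hval
    rw [← hχe] at hB'
    obtain ⟨ω, hω⟩ := (Cfsg.Agent.Lib.CharValues.norm_character_eq_iff ρ z).mp hB'
    have hker := ker_eq_bot_of_simple ρ hρ (by rw [hχe]; exact hne)
    have hinj : Function.Injective ρ := (MonoidHom.ker_eq_bot_iff ρ).mp hker
    apply hz1
    have hgc : z ∈ Subgroup.center G := by
      rw [Subgroup.mem_center_iff]
      intro x
      apply hinj
      rw [map_mul, map_mul, hω]
      ext v
      simp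
    rw [hcenter] at hgc
    exact hgc
  · have hloc : ∀ x : G, MemLocalRing M (ec (one : G → ℂ) x) := by
      intro x
      unfold ec
      rw [div_eq_mul_inv]
      refine memLocalRing_mul (memLocalRing_of_isIntegral ?_) (memLocalRing_inv_natCast hM hdvd)
      simp only [one, mul_one]
      exact isIntegral_one
    have h1 := memLocalIdeal_sub_of_mem_Zc (mem_Zc_of_classFunction (M := M)
      (ec_isClassFunction one.2) hloc) (χ := one) (ψ := χ) hχ1
    beta_reduce at h1
    rw [omega_ec one.2 one.2, omega_ec one.2 χ.2, if_pos rfl] at h1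
    have h2 : ¬ ((χ : G → ℂ) = (one : G → ℂ)) := hne
    rw [if_neg h2, sub_zero] at h1
    exact not_memLocalIdeal_one h1

end Cfsg.Agent.S0910
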