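import Mathlib
-- Template for statement S0904 (row 904; see /opt/grader/pristine/manifest.json for weights).
-- Copy to Cfsg/Agent/S0904.lean and replace the sorry. The statement below is byte-identical to the frozen
-- statement Cfsg.CfsgFrozen.S0904 (Cfsg/Statements/S0904.lean; the theorem Cfsg.simple_paqbr_sylow_r_self_centralizing);
-- the grader kernel-checks Cfsg.Agent.S0904.result against that frozen type. Keep the theorem IN THIS FILE
-- (a `result` declared elsewhere and merely imported here is not credited); helpers may live anywhere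
-- under Cfsg/Agent/.
import Cfsg.Statements.S0904
import Cfsg.Agent.S0910
import Cfsg.Agent.Lib.BlkOrth
import Cfsg.Agent.Lib.DefectZero
import Cfsg.Agent.Lib.BlockVal
import Cfsg.Agent.Lib.CharKernel
import Cfsg.Agent.Lib.BlkSylow

set_option autoImplicit false
open Cfsg

namespace Cfsg.Agent.S0904

open Cfsg Cfsg.Agent.Lib.CharBasic Cfsg.Agent.Lib.CharInd Cfsg.Agent.Lib.CharIntegrality
open Cfsg.Agent.Lib.BlockLocal Cfsg.Agent.Lib.BlockIdem Cfsg.Agent.Lib.BlkBasic
open Cfsg.Agent.Lib.BlkOrth
open Module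
open scoped ComplexConjugate

theorem eq_false_aux {G : Type*} [Group G] [Finite G] [IsSimpleGroup G] (ℓ ℓ' r A B : ℕ)
    (hℓ : ℓ.Prime) (hℓ' : ℓ'.Prime) (hr : r.Prime) (hcard : Nat.card G = ℓ ^ A * ℓ' ^ B * r)
    (hne : ℓ ≠ ℓ') (hne1 : ℓ ≠ r) (hne2 : ℓ' ≠ r) (hna : ∃ a b : G, a * b ≠ b * a) {x y : G}
    (hxy : Commute x y) (hx : orderOf x = ℓ) (hy : orderOf y = r) : False := by
  classical
  letI : Fintype G := Fintype.ofFinite G
  haveI : Fact ℓ.Prime := ⟨hℓ⟩
  haveI : Fact r.Prime := ⟨hr⟩
  obtain ⟨M, hM⟩ := Cfsg.Agent.Lib.BlockVal.exists_isPModular (p := ℓ) hℓ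
  obtain ⟨M', hM'⟩ := Cfsg.Agent.Lib.BlockVal.exists_isPModular (p := ℓ') hℓ'
  haveI := hM.2.1.isPrime
  haveI := hM'.2.1.isPrime
  set g := x * y with hg
  have hordg : orderOf g = ℓ * r := by
    rw [hg, hxy.orderOf_mul_eq_mul_orderOf_of_coprime (by
      rw [hx, hy]
      exact (Nat.coprime_primes hℓ hr).mpr hne1), hx, hy]
  have hreg : ¬ ℓ ∣ orderOf (1 : G) := by
    rw [orderOf_one]
    exact fun h => hℓ.one_lt.ne' (Nat.dvd_one.mp h)
  have hsing : ℓ ∣ orderOf g := by rw [hordg]; exact dvd_mul_right _ _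
  have hB : IsPBlock M (principalBlock M G) := ⟨⟨fun _ => 1, isIrrCharacter_one⟩, rfl⟩
  have h1 := block_orth_weak hM hB hreg hsing
  rw [finsum_mem_eq_sum_blkInd] at h1
  let one : IrrCharacter G := ⟨fun _ => 1, isIrrCharacter_one⟩
  have hone : one ∈ principalBlock M G := mem_blockOf_self one
  have hterm : ∀ ψ : IrrCharacter G, ψ ≠ one →
      MemLocalIdeal M' (blkInd (principalBlock M G) ψ * ((ψ : G → ℂ) 1 * conj ((ψ : G → ℂ) g))) := by
    intro ψ hψ
    by_cases hψB : ψ ∈ principalBlock M G
    · rw [blkInd_of_mem hψB, one_mul]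
      set d := charDegree (ψ : G → ℂ) with hddef
      have hd : (ψ : G → ℂ) 1 = d := Cfsg.Agent.Lib.CharKernel.one_eq_charDegree (IsIrrCharacter.isCharacter ψ.2)
      have hdG : d ∣ Nat.card G := Cfsg.Agent.Lib.CharKernel.charDegree_dvd_card ψ.2
      have hconj : MemLocalRing M' (conj ((ψ : G → ℂ) g)) := by
        rw [char_conj_eq_inv (IsIrrCharacter.isCharacter ψ.2)]
        exact memLocalRing_of_isIntegral (Cfsg.Agent.Lib.BlockVal.isIntegral_irr ψ _)
      by_cases hd' : ℓ' ∣ d
      · rw [hd]
        exact memLocalIdeal_mul_right (memLocalIdeal_natCast_of_dvd hM' hd') hconj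
      · -- the value vanishes
        have hval : (ψ : G → ℂ) g = 0 := by
          by_cases hrd : r ∣ d
          · obtain ⟨n, ρ, hρ, hψe⟩ := ψ.2
            have hd2 : d = n := by
              have h2 : (n : ℂ) = (ψ : G → ℂ) 1 := by
                rw [← hψe, char_one_eq_rep]
              rw [hd] at h2
              exact_mod_cast h2.symm
            have h3 := Cfsg.Agent.Lib.DefectZero.character_eq_zero_of_defect_zero ρ hρ (p := r) (n := 1) hr
              (by rw [pow_one, hcard]; exact dvd_mul_left _ _)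
              (by
                rw [hcard, pow_succ, pow_one]
                intro h4
                have h5 := Nat.dvd_of_mul_dvd_mul_right hr.pos h4
                rcases (Nat.Prime.dvd_mul hr).mp h5 with h6 | h6
                · exact hne1 ((Nat.prime_dvd_prime_iff_eq hr hℓ).mp (hr.dvd_of_dvd_pow h6)).symm
                · exact hne2 ((Nat.prime_dvd_prime_iff_eq hr hℓ').mp (hr.dvd_of_dvd_pow h6)).symm)
              (by rw [pow_one, finrank_fin_fun, ← hd2]; exact hrd) g
              (by rw [hordg]; exact dvd_mul_left _ _)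
            rw [← hψe]
            exact h3
          · exfalso
            apply hψ
            have hcop : Nat.Coprime d (ℓ' ^ B * r) := by
              refine Nat.Coprime.mul_right (Nat.Coprime.pow_right _ ?_) ?_
              · exact ((Nat.Prime.coprime_iff_not_dvd hℓ').mpr hd').symm
              · exact ((Nat.Prime.coprime_iff_not_dvd hr).mpr hrd).symm
            have hdℓ : d ∣ ℓ ^ A := by
              rw [hcard, mul_assoc] at hdG
              exact hcop.dvd_of_dvd_mul_right hdG
            obtain ⟨k, -, hk⟩ := (Nat.dvd_prime_pow hℓ).mp hdℓ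
            have hdeg : (ψ : G → ℂ) 1 = (ℓ : ℂ) ^ k := by
              rw [hd, hk]
              push_cast
              rfl
            apply Subtype.ext
            exact Cfsg.Agent.S0910.result ℓ M hM hna ψ hψB k hdeg
        rw [hval]
        simp [memLocalIdeal_zero]
    · rw [blkInd_of_not_mem hψB, zero_mul]
      exact memLocalIdeal_zero
  rw [← Finset.add_sum_erase _ _ (Finset.mem_univ one)] at h1
  have h2 : blkInd (principalBlock M G) one * ((one : G → ℂ) 1 * conj ((one : G → ℂ) g)) = 1 := by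
    rw [blkInd_of_mem hone]
    simp [one]
  rw [h2] at h1
  have h3 : MemLocalIdeal M' (∑ ψ ∈ Finset.univ.erase one,
      blkInd (principalBlock M G) ψ * ((ψ : G → ℂ) 1 * conj ((ψ : G → ℂ) g))) :=
    memLocalIdeal_sum _ _ fun ψ hψ => hterm ψ (Finset.ne_of_mem_erase hψ)
  have h4 : (1 : ℂ) = - ∑ ψ ∈ Finset.univ.erase one,
      blkInd (principalBlock M G) ψ * ((ψ : G → ℂ) 1 * conj ((ψ : G → ℂ) g)) := by
    linear_combination h1
  apply not_memLocalIdeal_one (M := M')
  rw [h4]
  exact memLocalIdeal_neg h3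

/-- Let G be a finite simple group of order p ^ a * q ^ b * r with p, q, r distinct primes. Then every Sylow r-subgroup S of G satisfies C_G(S) = S. -/
theorem result {G : Type*} [Group G] [Finite G] [IsSimpleGroup G] (p q r a b : ℕ) (hp : p.Prime) (hq : q.Prime) [Fact r.Prime] (hpq : p ≠ q) (hpr : p ≠ r) (hqr : q ≠ r) (hcard : Nat.card G = p ^ a * q ^ b * r) (S : Sylow r G) : Subgroup.centralizer (S : Set G) = (S : Subgroup G) := by
  classical
  have hr : r.Prime := Fact.out
  have hnd : ¬ r ∣ p ^ a * q ^ b := by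
    intro h
    rcases (Nat.Prime.dvd_mul hr).mp h with h6 | h6
    · exact hpr ((Nat.prime_dvd_prime_iff_eq hr hp).mp (hr.dvd_of_dvd_pow h6)).symm
    · exact hqr ((Nat.prime_dvd_prime_iff_eq hr hq).mp (hr.dvd_of_dvd_pow h6)).symm
  have hm0 : p ^ a * q ^ b ≠ 0 := by
    have := hp.pos
    have := hq.pos
    positivity
  have hfact : (Nat.card G).factorization r = 1 := by
    rw [hcard, Nat.factorization_mul hm0 hr.ne_zero, Finsupp.add_apply,
      Nat.factorization_eq_zero_of_not_dvd hnd, hr.factorization_self]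
  have hScard : Nat.card (S : Subgroup G) = r := by
    rw [Sylow.card_eq_multiplicity S, hfact, pow_one]
  have hcomm : ∀ u ∈ (S : Subgroup G), ∀ v ∈ (S : Subgroup G), u * v = v * u := by
    intro u hu v hv
    haveI : Fact (Nat.card (S : Subgroup G)).Prime := ⟨by rw [hScard]; exact hr⟩
    haveI : IsCyclic (S : Subgroup G) := isCyclic_of_prime_card rfl
    have h1 : (⟨u, hu⟩ : (S : Subgroup G)) * ⟨v, hv⟩ = ⟨v, hv⟩ * ⟨u, hu⟩ :=
      (inferInstance : IsMulCommutative (S : Subgroup G)).is_comm.comm _ _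
    exact congrArg Subtype.val h1
  have hSC : (S : Subgroup G) ≤ Subgroup.centralizer ((S : Subgroup G) : Set G) := by
    intro u hu
    rw [Subgroup.mem_centralizer_iff]
    intro v hv
    exact hcomm v hv u hu
  by_cases hna : ∃ x y : G, x * y ≠ y * x
  · apply le_antisymm _ hSC
    by_contra hcon
    -- a nontrivial element of prime order
    have hdiv : Nat.card (S : Subgroup G) * (Subgroup.relIndex (S : Subgroup G)
        (Subgroup.centralizer ((S : Subgroup G) : Set G))) =
        Nat.card (Subgroup.centralizer ((S : Subgroup G) : Set G)) := by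
      rw [mul_comm]
      exact Cfsg.Agent.Lib.BlkSylow.relIndex_mul_card hSC
    have hidx1 : Subgroup.relIndex (S : Subgroup G)
        (Subgroup.centralizer ((S : Subgroup G) : Set G)) ≠ 1 := by
      intro h1
      exact hcon (Subgroup.relIndex_eq_one.mp h1)
    obtain ⟨ℓ, hℓ, hℓd⟩ := Nat.exists_prime_and_dvd hidx1
    haveI : Fact ℓ.Prime := ⟨hℓ⟩
    have hℓC : ℓ ∣ Nat.card (Subgroup.centralizer ((S : Subgroup G) : Set G)) := by
      rw [← hdiv]
      exact Dvd.dvd.mul_left hℓd _
    obtain ⟨x, hx⟩ := exists_prime_orderOf_dvd_card' (G := Subgroup.centralizer ((S : Subgroup G) : Set G)) ℓ hℓC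
    have hx' : orderOf ((x : Subgroup.centralizer ((S : Subgroup G) : Set G)) : G) = ℓ := by
      rw [Subgroup.orderOf_coe, hx]
    have hℓG : ℓ * r ∣ Nat.card G := by
      have h1 : r * ℓ ∣ Nat.card (Subgroup.centralizer ((S : Subgroup G) : Set G)) := by
        rw [← hdiv, hScard]
        exact Nat.mul_dvd_mul_left r hℓd
      rw [mul_comm]
      exact h1.trans (Subgroup.card_subgroup_dvd_card _)
    have hℓr : ℓ ≠ r := by
      rintro rfl
      rw [hcard] at hℓG
      exact hnd (Nat.dvd_of_mul_dvd_mul_right hr.pos hℓG)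
    -- a generator of the Sylow subgroup
    haveI : Nontrivial (S : Subgroup G) := by
      rw [← Finite.one_lt_card_iff_nontrivial, hScard]
      exact hr.one_lt
    obtain ⟨y₀, hy₀⟩ := exists_ne (1 : (S : Subgroup G))
    have hyord : orderOf (y₀ : G) = r := by
      rw [Subgroup.orderOf_coe]
      have h1 : orderOf y₀ ∣ Nat.card (S : Subgroup G) := orderOf_dvd_natCard y₀
      rw [hScard] at h1
      rcases (Nat.dvd_prime hr).mp h1 with h2 | h2
      · exact absurd (orderOf_eq_one_iff.mp h2) hy₀
      · exact h2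
    have hxy : Commute ((x : Subgroup.centralizer ((S : Subgroup G) : Set G)) : G) (y₀ : G) :=
      (Subgroup.mem_centralizer_iff.mp x.2 y₀ y₀.2).symm
    have hℓdvd : ℓ ∣ p ^ a * q ^ b * r := by
      rw [← hcard]
      exact (Dvd.intro _ rfl).trans hℓG
    rcases (Nat.Prime.dvd_mul hℓ).mp hℓdvd with h1 | h1
    · rcases (Nat.Prime.dvd_mul hℓ).mp h1 with h2 | h2
      · have h3 : ℓ = p := (Nat.prime_dvd_prime_iff_eq hℓ hp).mp (hℓ.dvd_of_dvd_pow h2)
        subst h3
        exact eq_false_aux ℓ q r a b hℓ hq hr hcard hpq hpr hqr hna hxy hx' hyord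
      · have h3 : ℓ = q := (Nat.prime_dvd_prime_iff_eq hℓ hq).mp (hℓ.dvd_of_dvd_pow h2)
        subst h3
        exact eq_false_aux ℓ p r b a hℓ hp hr (by rw [hcard]; ring) hpq.symm hqr hpr hna hxy hx' hyord
    · exact absurd ((Nat.prime_dvd_prime_iff_eq hℓ hr).mp h1) hℓr
  · push Not at hna
    have hN : (S : Subgroup G).Normal := by
      constructor
      intro n hn g
      rw [hna g n, mul_assoc, mul_inv_cancel, mul_one]
      exact hn
    have hSne : (S : Subgroup G) ≠ ⊥ := by
      intro h
      rw [h, Subgroup.card_bot] at hScard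
      exact hr.one_lt.ne hScard
    have hS : (S : Subgroup G) = ⊤ := hN.eq_bot_or_eq_top.resolve_left hSne
    rw [hS]
    ext g
    simp [Subgroup.mem_centralizer_iff, hna]

end Cfsg.Agent.S0904
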