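import Mathlib
import Cfsg.Statements.S1001
import Cfsg.Agent.S0904
import Cfsg.Agent.S0144

set_option autoImplicit false
open Cfsg

namespace Cfsg.Agent.S1001

theorem of_solvable {G : Type*} [Group G] [Finite G] [IsSimpleGroup G] (hs : Group.IsSolvable G) (x : G)
    (hx : x ≠ 1) : Subgroup.centralizer ({x} : Set G) = Subgroup.zpowers x := by
  have hcomm : ∀ a b : G, a * b = b * a := (IsSimpleGroup.comm_iff_isSolvable (G := G)).2 hs
  have hz : Subgroup.zpowers x = ⊤ := by
    have hnorm : (Subgroup.zpowers x).Normal := ⟨fun n hn g => by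
      have : g * n * g⁻¹ = n := by rw [hcomm g n]; group
      rwa [this]⟩
    rcases hnorm.eq_bot_or_eq_top with h | h
    · exact absurd (Subgroup.zpowers_eq_bot.1 h) hx
    · exact h
  rw [hz, eq_top_iff]
  intro y _
  rw [Subgroup.mem_centralizer_singleton_iff]
  exact hcomm y x

/-- In a finite simple group whose order has the form p * 3^a * 2^b with p prime, the centralizer of any element of order p is the cyclic group it generates. -/
theorem result {G : Type*} [Group G] [Finite G] [IsSimpleGroup G] (p a b : ℕ) (hp : p.Prime) (hG : Nat.card G = p * 3 ^ a * 2 ^ b) (x : G) (hx : orderOf x = p) : Subgroup.centralizer ({x} : Set G) = Subgroup.zpowers x := by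
  have hx1 : x ≠ 1 := by
    rintro rfl
    rw [orderOf_one] at hx
    exact hp.one_lt.ne hx
  by_cases h2 : p = 2
  · subst h2
    refine of_solvable (Cfsg.Agent.S0144.result 3 2 a (b + 1) Nat.prime_three Nat.prime_two ?_) x hx1
    rw [hG]; ring
  by_cases h3 : p = 3
  · subst h3
    refine of_solvable (Cfsg.Agent.S0144.result 3 2 (a + 1) b Nat.prime_three Nat.prime_two ?_) x hx1
    rw [hG]; ring
  haveI : Fact p.Prime := ⟨hp⟩
  have hcard : Nat.card G = 3 ^ a * 2 ^ b * p := by rw [hG]; ring
  have hpg : IsPGroup p (Subgroup.zpowers x) := by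
    rw [IsPGroup.iff_card]
    refine ⟨1, ?_⟩
    rw [Nat.card_zpowers, hx, pow_one]
  obtain ⟨S, hS⟩ := hpg.exists_le_sylow
  have hnd : ¬ p ∣ 3 ^ a * 2 ^ b := by
    intro hd
    rcases (Nat.Prime.dvd_mul hp).1 hd with hd | hd
    · have := (Nat.prime_dvd_prime_iff_eq hp Nat.prime_three).1 (hp.dvd_of_dvd_pow hd)
      exact h3 this
    · have := (Nat.prime_dvd_prime_iff_eq hp Nat.prime_two).1 (hp.dvd_of_dvd_pow hd)
      exact h2 this
  have hScard : Nat.card (S : Subgroup G) = p := by
    have h1 := S.card_eq_multiplicity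
    rw [hcard] at h1
    have h2' : (3 ^ a * 2 ^ b * p).factorization p = 1 := by
      have hne : 3 ^ a * 2 ^ b ≠ 0 := by positivity
      rw [Nat.factorization_mul hne hp.ne_zero, Finsupp.add_apply, hp.factorization_self,
        Nat.factorization_eq_zero_of_not_dvd hnd]
    rw [h2', pow_one] at h1
    exact h1
  have hSeq : (S : Subgroup G) = Subgroup.zpowers x := by
    symm
    apply Subgroup.eq_of_le_of_card_ge hS
    rw [hScard, Nat.card_zpowers, hx]
  have hmain := Cfsg.Agent.S0904.result 3 2 p a b Nat.prime_three Nat.prime_two (by decide)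
    (Ne.symm h3) (Ne.symm h2) hcard S
  apply le_antisymm
  · intro y hy
    rw [Subgroup.mem_centralizer_singleton_iff] at hy
    rw [← hSeq, ← hmain, Subgroup.mem_centralizer_iff]
    intro w hw
    have hw' : w ∈ Subgroup.zpowers x := by rw [← hSeq]; exact hw
    obtain ⟨k, rfl⟩ := Subgroup.mem_zpowers_iff.1 hw'
    have hc : Commute y x := hy
    exact (hc.zpow_right k).symm
  · intro y hy
    obtain ⟨k, rfl⟩ := Subgroup.mem_zpowers_iff.1 hy
    rw [Subgroup.mem_centralizer_singleton_iff]
    exact (Commute.refl x).zpow_left k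

end Cfsg.Agent.S1001
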