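import Cfsg.Statements.S2673
import Mathlib
import Cfsg.Agent.Lib.OrthRealize

set_option autoImplicit false
open Cfsg

namespace Cfsg.Agent.S2673

open Polynomial Module QuadraticMap
open Cfsg.Agent.Lib.PrimeFactors Cfsg.Agent.Lib.DualFactors Cfsg.Agent.Lib.SemisimpleGL Cfsg.Agent.Lib.SpRealize
open Cfsg.Agent.Lib.QuadFF Cfsg.Agent.Lib.OrthoBasic Cfsg.Agent.Lib.OrthoCount Cfsg.Agent.Lib.QuadClass Cfsg.Agent.Lib.OrthRealize

section aux

variable {F : Type*} [Field F] [Fintype F]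

theorem nd_odd (hodd : Odd (Fintype.card F)) (m : ℕ) : ND (qOdd m F) := by
  intro x hx
  by_contra hne
  obtain ⟨y, hy⟩ := Cfsg.Agent.Lib.OrthoOrder.nondeg_qOdd hodd m x hne
  exact hy (hx y)

theorem ani_of_ns (hodd : Odd (Fintype.card F)) : ∃ b : F, ∀ x y : F, x ^ 2 + 0 * x * y + b * y ^ 2 = 0 → x = 0 ∧ y = 0 := by
  have hc : ringChar F ≠ 2 := by
    intro h
    have h1 : (2 : ℕ) ∣ Fintype.card F := by
      rw [← h]
      exact (CharP.cast_eq_zero_iff F (ringChar F) _).1 (Nat.cast_card_eq_zero F)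
    obtain ⟨k, hk⟩ := hodd
    omega
  obtain ⟨ν, hν⟩ := FiniteField.exists_nonsquare hc
  refine ⟨-ν, fun x y h => ?_⟩
  have hy : y = 0 := by
    by_contra hy
    apply hν
    refine ⟨x / y, ?_⟩
    have hy2 : y ^ 2 ≠ 0 := pow_ne_zero _ hy
    field_simp
    linear_combination -h
  subst hy
  refine ⟨?_, rfl⟩
  simpa using h

theorem odd_hex {p : ℕ} [Fact p.Prime] [CharP F p] (hodd : Odd (Fintype.card F)) {m r : ℕ} [hrp : Fact r.Prime] (hr2 : r ≠ 2) (hrF : (r : F) ≠ 0) (hr0 : r ≠ 0)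
    (a : ↥(Idx F r) → ℕ) (ha : a ≠ 0)
    (hinv : a ∘ dl (σ := RingHom.id F) (fun x => rfl) rfl hrF hr0 = a)
    (hle : orderOf ((Fintype.card F : ℕ) : ZMod r) * ∑ j, a j ≤ Fintype.card (Unit ⊕ (Fin m ⊕ Fin m))) :
    ∃ g : ↥(Cfsg.isometryGroup F (Cfsg.quadFormOdd m F)),
      ((g : Matrix.GeneralLinearGroup (Unit ⊕ (Fin m ⊕ Fin m)) F) : Matrix (Unit ⊕ (Fin m ⊕ Fin m)) (Unit ⊕ (Fin m ⊕ Fin m)) F).charpoly = Pa F r (Fintype.card (Unit ⊕ (Fin m ⊕ Fin m))) a ∧ orderOf g = r := by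
  have hcard : Fintype.card (Unit ⊕ (Fin m ⊕ Fin m)) = 2 * m + 1 := by
    simp
    ring
  refine exists_elt p _ (qOdd m F) (fun v => (qOdd_apply m v).symm) hr2 hrF hr0 ha hinv hle ?_
  intro U _ _ _ QU T hN hI hTr hfree hdim
  rw [hcard] at hle
  obtain ⟨m', hm'⟩ : ∃ m', orderOf ((Fintype.card F : ℕ) : ZMod r) * ∑ j, a j = 2 * m' := by
    obtain ⟨c, hc⟩ := even_dim hr2 hrF hr0 hinv
    exact ⟨c, by omega⟩
  have hm'0 : m' ≠ 0 := by
    rintro rfl
    apply ha
    have h1 : ∑ j, a j = 0 := by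
      have h2 : orderOf ((Fintype.card F : ℕ) : ZMod r) ≠ 0 := by
        intro h3
        have := card_Idx (F := F) (r := r) hrF
        rw [h3, mul_zero] at this
        have := (Fact.out : r.Prime).two_le
        omega
      rw [mul_zero] at hm'
      exact (mul_eq_zero.1 hm').resolve_left h2
    funext j
    exact (Finset.sum_eq_zero_iff.1 h1) j (Finset.mem_univ j)
  obtain ⟨k, rfl⟩ : ∃ k, m' = k + 1 := ⟨m' - 1, by omega⟩
  have hV : finrank F U = 2 * (k + 1) := by rw [hdim, hm']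
  rcases std_cases hV QU hN with ⟨b, hb⟩ | ⟨k', hk', b, ζ, hb⟩
  · obtain ⟨e, he⟩ := iso_qPlus_of_hyp hb
    exact (show Emb QU (qPlus (k + 1) F) from ⟨e.toLinearMap, he⟩).trans (emb_plus_odd (k + 1) m (by omega))
  · obtain rfl : k = k' := by omega
    obtain ⟨c, hc⟩ := ani_of_ns hodd
    have hzc : (Nat.card {v // QU v = 0} : ℤ) ≠ (Fintype.card F : ℤ) ^ (2 * k + 1) + (Fintype.card F : ℤ) ^ (k + 1) - (Fintype.card F : ℤ) ^ k := by
      rw [Cfsg.Agent.Lib.QuadClass2.card_zeros_of_minus hN hb]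
      exact count_ne k
    obtain ⟨e, he⟩ := iso_qMinus hV QU hN hzc 0 c hc
    exact (show Emb QU (qMinus k (0 : F) c) from ⟨e.toLinearMap, he⟩).trans (emb_minus_odd c k m (by omega))

end aux

/-- Number of conjugacy classes of elements of odd prime order r ≠ p in the orthogonal group O_(2m+1)(q) of x_0² + Σ x_j y_j, q odd: with i the multiplicative order of q mod r and t = (r − 1)/i, there are C(⌊m/i⌋ + t/2, t/2) − 1 classes if i is odd (dual pairs of totally singular i-blocks) and C(⌊(2m+1)/i⌋ + t, t) − 1 if i is even (elliptic i-blocks). -/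
theorem result {F : Type*} [Field F] [Fintype F] {p q : ℕ} [Fact p.Prime] [CharP F p] (hF : Fintype.card F = q) (hq : Odd q) (m r i t : ℕ) (hr : r.Prime) (hr2 : r ≠ 2) (hrp : r ≠ p) (hi : i = orderOf (q : ZMod r)) (ht : t * i = r - 1) : Nat.card {C : ConjClasses ↥(Cfsg.isometryGroup F (Cfsg.quadFormOdd m F)) // ∃ g : ↥(Cfsg.isometryGroup F (Cfsg.quadFormOdd m F)), ConjClasses.mk g = C ∧ orderOf g = r} = if Odd i then Nat.choose (m / i + t / 2) (t / 2) - 1 else Nat.choose ((2 * m + 1) / i + t) t - 1 := by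
  classical
  subst hF
  subst hi
  haveI : Fact r.Prime := ⟨hr⟩
  have hpp : p.Prime := Fact.out
  have hr0 := hr.ne_zero
  have hrF : (r : F) ≠ 0 := by
    rw [Ne, CharP.cast_eq_zero_iff F p]
    intro hd
    exact hrp ((Nat.prime_dvd_prime_iff_eq hpp hr).1 hd).symm
  have hcard := card_Idx (F := F) (r := r) hrF
  have hq' : ((Fintype.card F : ℕ) : ZMod r) ≠ 0 := by
    rw [Ne, ZMod.natCast_eq_zero_iff]
    intro hd
    obtain ⟨f, -, hf⟩ := FiniteField.card F p
    rw [hf] at hd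
    have h3 := hr.dvd_of_dvd_pow hd
    exact hrp ((Nat.prime_dvd_prime_iff_eq hr hpp).1 h3)
  have hr2' := hr.two_le
  have hQ : (polarBilin (qOdd m F)).Nondegenerate := nondegenerate_of_ND (nd_odd hq m)
  have hfix : ∀ j : ↥(Idx F r), dl (σ := RingHom.id F) (fun x => rfl) rfl hrF hr0 j = j ↔ Even (orderOf ((Fintype.card F : ℕ) : ZMod r)) := by
    intro j
    have h1 := dual_fixed_iff (σ := RingHom.id F) (fun x => rfl) hrF j.2 1 (RingHom.id _) (fun x => rfl) (by simp)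
    have hx : orderOf ((Fintype.card F : ℕ) : ZMod r) ≠ 0 := by
      intro h3
      rw [h3, mul_zero] at hcard
      omega
    rw [Nat.cast_one, exists_pow_eq_neg_one_iff hr2 hx] at h1
    rw [← h1]
    exact Subtype.ext_iff
  have key := classes_card p (Cfsg.quadFormOdd m F) (qOdd m F) (fun v => (qOdd_apply m v).symm) hQ hr2 hrF hr0
    (fun _ => True)
    (fun a ha hinv hle _ => odd_hex hq hr2 hrF hr0 a ha hinv hle)
    (fun a g hg hc _ => trivial)
  rw [key]
  have hcι : Fintype.card (Unit ⊕ (Fin m ⊕ Fin m)) = 2 * m + 1 := by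
    simp
    ring
  rw [hcι]
  obtain ⟨x, hx⟩ : ∃ x : ZMod r, x = ((Fintype.card F : ℕ) : ZMod r) := ⟨_, rfl⟩
  rw [← hx] at hfix hcard ht ⊢
  obtain ⟨i, hi⟩ : ∃ i, i = orderOf x := ⟨_, rfl⟩
  rw [← hi] at hfix hcard ht ⊢
  have hipos : 0 < i := by
    rcases Nat.eq_zero_or_pos i with h | h
    · rw [h, mul_zero] at hcard
      omega
    · exact h
  have htc : Fintype.card ↥(Idx F r) = t := Nat.eq_of_mul_eq_mul_right hipos (hcard.trans ht.symm)
  split_ifs with hodd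
  · have hne : ¬ Even i := Nat.not_even_iff_odd.2 hodd
    have h1 : (2 * m + 1) / (2 * i) = m / i := by
      rw [← Nat.div_div_eq_div_mul, show (2 * m + 1) / 2 = m by omega]
    rw [← h1, ← htc, ← card_inv_fpf _ (dl_dl (σ := RingHom.id F) (fun x => rfl) rfl hrF hr0) (fun j h => hne ((hfix j).1 h)) i (2 * m + 1) hipos]
    refine Nat.card_congr (Equiv.subtypeEquivRight fun a => ?_)
    constructor
    · rintro ⟨h2, h3, h4, -⟩
      exact ⟨h2, h3, h4⟩
    · rintro ⟨h2, h3, h4⟩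
      exact ⟨h2, h3, h4, trivial⟩
  · rw [Nat.not_odd_iff_even] at hodd
    have hid : dl (σ := RingHom.id F) (fun x => rfl) rfl hrF hr0 = id := funext fun j => (hfix j).2 hodd
    rw [← htc, ← card_inv_id i (2 * m + 1) hipos]
    refine Nat.card_congr (Equiv.subtypeEquivRight fun a => ?_)
    constructor
    · rintro ⟨h2, -, h4, -⟩
      exact ⟨h2, h4⟩
    · rintro ⟨h2, h4⟩
      exact ⟨h2, by rw [hid]; rfl, h4, trivial⟩

end Cfsg.Agent.S2673
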