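import Mathlib
import Cfsg.Statements.S0805
import Cfsg.Agent.Lib.PSL2Sub

set_option autoImplicit false
open Cfsg

namespace Cfsg.Agent.S0805

open Matrix Cfsg.Agent.Lib.PSL2Sub

/-- Elements of the subfield are squares when the degree is even. -/
lemma isSquare_of_even {F K : Type*} [Field F] [Fintype F] [Field K] [Fintype K] (φ : K →+* F)
    (hodd : Odd (Fintype.card F)) {m : ℕ} (hK : Fintype.card K ^ m = Fintype.card F) (hm : Even m) (hm1 : 1 ≤ m)
    (x : K) (hx : x ≠ 0) : IsSquare (φ x) := by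
  have hchar : ringChar F ≠ 2 := by
    intro h
    have h3 := FiniteField.even_card_of_char_two h
    rw [Nat.odd_iff] at hodd
    omega
  have hx' : φ x ≠ 0 := by simpa using hx
  rw [FiniteField.isSquare_iff hchar hx']
  set r := Fintype.card K with hr
  have hrodd : Odd r := by
    rw [← hK] at hodd
    exact (Nat.odd_pow_iff (by omega)).mp hodd
  obtain ⟨t, rfl⟩ := hm
  have hxr : x ^ (r - 1) = 1 := FiniteField.pow_card_sub_one_eq_one x hx
  -- 2 (r-1) ∣ q - 1
  obtain ⟨s, hs⟩ := hrodd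
  have hr1 : r - 1 = 2 * s := by omega
  have h3 : 2 * (r - 1) ∣ Fintype.card F - 1 := by
    have h1 : r ^ 2 ≡ 1 [MOD 2 * (r - 1)] := by
      rw [hr1, hs]
      have : (2 * s + 1) ^ 2 = 2 * (2 * s) * (s + 1) + 1 := by ring
      rw [this]
      simp [Nat.ModEq]
    have h2 : (r ^ 2) ^ t ≡ 1 [MOD 2 * (r - 1)] := by
      simpa using h1.pow t
    have e : (r ^ 2) ^ t = Fintype.card F := by
      rw [← pow_mul, ← hK]; congr 1; ring
    rw [e] at h2
    have hq : 1 ≤ Fintype.card F := Fintype.card_pos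
    exact (Nat.modEq_iff_dvd' hq).mp h2.symm
  obtain ⟨c, hc⟩ := h3
  have h4 : Fintype.card F / 2 = (r - 1) * c := by
    have hq : Fintype.card F % 2 = 1 := Nat.odd_iff.mp hodd
    have hq1 : 1 ≤ Fintype.card F := by omega
    have h5 : Fintype.card F = 2 * ((r - 1) * c) + 1 := by
      have : Fintype.card F - 1 + 1 = Fintype.card F := Nat.sub_add_cancel hq1
      rw [← this, hc]; ring
    omega
  rw [h4, pow_mul, ← map_pow, hxr, map_one, one_pow]

/-- No `PGL_2(K)` in `PSL_2(F)` if the degree is odd. -/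
lemma not_dvd_of_odd {r m c : ℕ} (hr : Odd r) (hm : Odd m) (hr1 : 1 < r)
    (h : ((r ^ m) + 1) * r ^ m * (r ^ m - 1) = 2 * (((r + 1) * r * (r - 1)) * c)) : False := by
  have hS0 : Odd (∑ i ∈ Finset.range m, (r ^ 2) ^ i) := by
    rw [Finset.odd_sum_iff_odd_card_odd]
    have : (Finset.range m).filter (fun i => Odd ((r ^ 2) ^ i)) = Finset.range m := by
      apply Finset.filter_true_of_mem
      intro i _
      exact (hr.pow).pow
    rw [this, Finset.card_range]
    exact hm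
  have hS : Odd (∑ i ∈ Finset.range m, ((r : ℤ) ^ 2) ^ i) := by
    exact_mod_cast hS0
  set S := ∑ i ∈ Finset.range m, ((r : ℤ) ^ 2) ^ i with hSdef
  have hgeom : ((r : ℤ) ^ 2 - 1) * S = ((r : ℤ) ^ 2) ^ m - 1 := mul_geom_sum _ _
  have hz : ((r : ℤ) ^ m + 1) * (r : ℤ) ^ m * ((r : ℤ) ^ m - 1) = 2 * (((r : ℤ) + 1) * r * ((r : ℤ) - 1) * c) := by
    have hp : 1 ≤ r ^ m := Nat.one_le_pow _ _ (by omega)
    have h' := congrArg (Nat.cast : ℕ → ℤ) h
    push_cast [Nat.cast_sub hp, Nat.cast_sub hr1.le] at h'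
    linarith
  have hne : (r : ℤ) ^ 2 - 1 ≠ 0 := by
    have : (1 : ℤ) < r := by exact_mod_cast hr1
    nlinarith
  have hmain : (r : ℤ) ^ m * S = 2 * (r * c) := by
    apply mul_left_cancel₀ hne
    have e1 : ((r : ℤ) ^ 2) ^ m = (r : ℤ) ^ m * (r : ℤ) ^ m := by
      rw [← pow_mul, two_mul, pow_add]
    calc ((r : ℤ) ^ 2 - 1) * ((r : ℤ) ^ m * S) = (r : ℤ) ^ m * (((r : ℤ) ^ 2 - 1) * S) := by ring
      _ = (r : ℤ) ^ m * (((r : ℤ) ^ 2) ^ m - 1) := by rw [hgeom]
      _ = ((r : ℤ) ^ m + 1) * (r : ℤ) ^ m * ((r : ℤ) ^ m - 1) := by rw [e1]; ring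
      _ = 2 * (((r : ℤ) + 1) * r * ((r : ℤ) - 1) * c) := hz
      _ = ((r : ℤ) ^ 2 - 1) * (2 * (r * c)) := by ring
  have hodd : Odd ((r : ℤ) ^ m * S) := by
    have hr' : Odd (r : ℤ) := by exact_mod_cast hr
    exact hr'.pow.mul hS
  rw [hmain] at hodd
  exact (Int.not_even_iff_odd.mpr hodd) (even_two_mul _)

/-- Subfield subgroups: let F be a finite field of odd order q and K a finite field with |K|^m = q, m ≥ 1. Then PSL_2(F) has a subgroup isomorphic to PSL_2(K), and has a subgroup isomorphic to PGL_2(K) if and only if m is even. -/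
theorem result {F K : Type*} [Field F] [Fintype F] [Field K] [Fintype K] {q : ℕ} (hF : Fintype.card F = q) (hodd : Odd q) (m : ℕ) (hm : 1 ≤ m) (hK : Fintype.card K ^ m = q) : (∃ H : Subgroup (Matrix.ProjectiveSpecialLinearGroup (Fin 2) F), Nonempty (H ≃* Matrix.ProjectiveSpecialLinearGroup (Fin 2) K)) ∧ ((∃ H : Subgroup (Matrix.ProjectiveSpecialLinearGroup (Fin 2) F), Nonempty (H ≃* Matrix.ProjGenLinGroup (Fin 2) K)) ↔ Even m) := by
  subst hF
  obtain ⟨φ⟩ := exists_ringHom hm hK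
  refine ⟨⟨(pslMap φ).range, ⟨(MonoidHom.ofInjective (pslMap_injective φ)).symm⟩⟩, ?_, ?_⟩
  · rintro ⟨H, ⟨e⟩⟩
    by_contra hne
    have hmodd : Odd m := Nat.not_even_iff_odd.mp hne
    set r := Fintype.card K with hr
    have hrodd : Odd r := by
      rw [← hK] at hodd
      exact (Nat.odd_pow_iff (by omega)).mp hodd
    have hr1 : 1 < r := Fintype.one_lt_card
    have h1 : Nat.card H = (r + 1) * r * (r - 1) := by
      rw [Nat.card_congr e.toEquiv, Cfsg.Agent.Lib.ClassicalCore.card_PGL_eq_card_SL, Cfsg.Agent.Lib.ClassicalSmall.card_SL2]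
    have h2 : Nat.card H ∣ Nat.card (Matrix.ProjectiveSpecialLinearGroup (Fin 2) F) := Subgroup.card_subgroup_dvd_card H
    obtain ⟨c, hc⟩ := h2
    have h3 := Cfsg.Agent.Lib.ClassicalSmall.card_PSL2 (F := F)
    have hgcd : Nat.gcd 2 (Fintype.card F - 1) = 2 := by
      apply Nat.gcd_eq_left
      obtain ⟨s, hs⟩ := hodd
      rw [hs]; simp
    rw [hgcd, hc, h1, ← hK] at h3
    exact not_dvd_of_odd hrodd hmodd hr1 h3.symm
  · intro hmeven
    exact exists_PGL_subgroup φ (isSquare_of_even φ hodd hK hmeven hm)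

end Cfsg.Agent.S0805
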