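import Mathlib
-- Template for statement S1074 (row 1074; see /opt/grader/pristine/manifest.json for weights).
-- Copy to Cfsg/Agent/S1074.lean and replace the sorry. The statement below is byte-identical to the frozen
-- statement Cfsg.CfsgFrozen.S1074 (Cfsg/Statements/S1074.lean; the theorem Cfsg.tits_group_index_two_simple);
-- the grader kernel-checks Cfsg.Agent.S1074.result against that frozen type. Keep the theorem IN THIS FILE
-- (a `result` declared elsewhere and merely imported here is not credited); helpers may live anywhere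
-- under Cfsg/Agent/.
import Cfsg.Statements.S1074
import Cfsg.Agent.Lib.Chev.TwF4T
import Cfsg.Agent.Lib.TitsBridge

set_option autoImplicit false
open Cfsg

namespace Cfsg.Agent.S1074

/-- ²F₄(2)′ has index 2 in ²F₄(2), is simple, and has order `2¹¹ · 3³ · 5² · 13`. -/
theorem result : (commutator ↥(Cfsg.Lie.twistedF4 (ZMod 2) 1)).index = 2 ∧ IsSimpleGroup Cfsg.Lie.TitsGroup ∧ ¬ IsMulCommutative Cfsg.Lie.TitsGroup ∧
    Nat.card Cfsg.Lie.TitsGroup = 2 ^ 11 * 3 ^ 3 * 5 ^ 2 * 13 := by
  exact Cfsg.Agent.Lib.Chev.TwF4T.main Cfsg.Agent.Lib.TitsBridge.index_tits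

end Cfsg.Agent.S1074
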