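import Mathlib
import Cfsg.Statements.S2402
import Cfsg.Agent.Lib.SLGen
-- import your own Cfsg.Agent.* helpers here

set_option autoImplicit false
open Cfsg

namespace Cfsg.Agent.S2402

open Matrix

variable {ι K : Type*} [Fintype ι] [DecidableEq ι] [Field K]

lemma diagonal_mul_transvection {a b : ι} (hab : a ≠ b) (e : ι → K) (he : e b ≠ 0) (t : K) :
    diagonal e * transvection a b t = transvection a b (e a * t / e b) * diagonal e := by
  ext r c
  rw [Matrix.diagonal_mul, Matrix.mul_diagonal]
  simp only [transvection, Matrix.add_apply, Matrix.single_apply, Matrix.one_apply]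
  by_cases hra : a = r
  · subst hra
    by_cases hcb : b = c
    · subst hcb
      simp [hab]
      field_simp
    · by_cases hac : a = c
      · subst hac
        simp [hcb]
      · simp [hcb, hac]
  · have hr : ¬ (a = r ∧ b = c) := fun h => hra h.1
    simp [hr, hra]
    by_cases hrc : r = c
    · subst hrc
      simp [mul_comm]
    · simp [hrc]

lemma conj_diag {D : SpecialLinearGroup ι K} {e : ι → K}
    (hD : (D : Matrix ι ι K) = diagonal e) {a b : ι} (hab : a ≠ b) (t : K) :
    D * SpecialLinearGroup.transvection hab t * D⁻¹ =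
      SpecialLinearGroup.transvection hab (e a * t / e b) := by
  have he : e b ≠ 0 := by
    intro h0
    have h1 : (D : Matrix ι ι K).det = 1 := D.2
    rw [hD, Matrix.det_diagonal, Finset.prod_eq_zero (Finset.mem_univ b) h0] at h1
    exact zero_ne_one h1
  rw [mul_inv_eq_iff_eq_mul]
  apply Subtype.ext
  have h1 : ((D * SpecialLinearGroup.transvection hab t : SpecialLinearGroup ι K) : Matrix ι ι K) =
      (D : Matrix ι ι K) * transvection a b t := rfl
  have h2 : ((SpecialLinearGroup.transvection hab (e a * t / e b) * D : SpecialLinearGroup ι K) : Matrix ι ι K) =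
      transvection a b (e a * t / e b) * (D : Matrix ι ι K) := rfl
  refine Eq.trans h1 (Eq.trans ?_ h2.symm)
  rw [hD]
  exact diagonal_mul_transvection hab e he t

lemma sum_two_squares {F : Type*} [Field F] [Fintype F] (t : F) : ∃ a b : F, t = a ^ 2 + b ^ 2 := by
  classical
  by_cases h2 : Fintype.card F % 2 = 0
  · have hc : ringChar F = 2 := FiniteField.even_card_iff_char_two.mpr h2
    obtain ⟨c, hc'⟩ := FiniteField.isSquare_of_char_two hc t
    exact ⟨c, 0, by rw [hc']; ring⟩
  · have h2' : Fintype.card F % 2 = 1 := by omega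
    obtain ⟨a, b, hab⟩ := FiniteField.exists_root_sum_quadratic
      (f := Polynomial.X ^ 2) (g := Polynomial.X ^ 2 - Polynomial.C t)
      (Polynomial.degree_X_pow 2) (Polynomial.degree_X_pow_sub_C (by decide) t) h2'
    simp only [Polynomial.eval_pow, Polynomial.eval_X, Polynomial.eval_sub, Polynomial.eval_C] at hab
    exact ⟨a, b, by linear_combination -hab⟩


/-- Explicit two-element generation of `PSL_{n+1}(K)` for a finite field `K` with more than three elements: let `k` generate the multiplicative group of `K`, `h = diag(k, k⁻¹, 1, …, 1)`, `x = 1 + E₁₂` (the elementary transvection) and `w` the monomial matrix with entries `1` in positions `(i, i+1)` and `(−1)^n` in position `(n+1, 1)`. Then `h` and `x·w` generate `SL_{n+1}(K)` modulo its centre: the subgroup they generate together with the centre is everything. -/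
theorem result {K : Type*} [Field K] [Fintype K] (hK : 3 < Fintype.card K) (n : ℕ) (hn : 1 ≤ n)
    (k : Kˣ) (hk : ∀ u : Kˣ, u ∈ Subgroup.zpowers k)
    (h x w : Matrix.SpecialLinearGroup (Fin (n + 1)) K)
    (hh : (h : Matrix (Fin (n + 1)) (Fin (n + 1)) K) =
      Matrix.diagonal (fun i => if i.val = 0 then (k : K) else if i.val = 1 then ((k⁻¹ : Kˣ) : K) else 1))
    (hx : (x : Matrix (Fin (n + 1)) (Fin (n + 1)) K) = Matrix.transvection (0 : Fin (n + 1)) (1 : Fin (n + 1)) 1)
    (hw : (w : Matrix (Fin (n + 1)) (Fin (n + 1)) K) =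
      Matrix.of (fun i j => if j.val = i.val + 1 then 1 else if i.val = n ∧ j.val = 0 then (-1) ^ n else 0)) :
    Subgroup.closure ({h, x * w} : Set (Matrix.SpecialLinearGroup (Fin (n + 1)) K)) ⊔
      Subgroup.center (Matrix.SpecialLinearGroup (Fin (n + 1)) K) = ⊤ := by
  classical
  have h01 : (0 : Fin (n + 1)) ≠ 1 := by
    intro h
    have := congrArg Fin.val h
    rw [Fin.val_zero, Fin.val_one', Nat.mod_eq_of_lt (by omega)] at this
    omega
  have hval1 : ((1 : Fin (n + 1)) : ℕ) = 1 := by
    rw [Fin.val_one', Nat.mod_eq_of_lt (by omega)]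
  set H := Subgroup.closure ({h, x * w} : Set (Matrix.SpecialLinearGroup (Fin (n + 1)) K)) with hH
  have hhH : h ∈ H := Subgroup.subset_closure (by simp)
  have hyH : x * w ∈ H := Subgroup.subset_closure (by simp)
  -- notation
  let T : K → Matrix.SpecialLinearGroup (Fin (n + 1)) K := fun t => Matrix.SpecialLinearGroup.transvection h01 t
  have hT0 : T 0 = 1 := Matrix.SpecialLinearGroup.transvection_coeff_zero h01
  have hTadd : ∀ a b, T (a + b) = T a * T b := Matrix.SpecialLinearGroup.transvection_add h01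
  have hTinv : ∀ a, (T a)⁻¹ = T (-a) := Matrix.SpecialLinearGroup.transvection_inv h01
  have hx1 : x = T 1 := Subtype.ext hx
  -- the diagonal data
  let d : Fin (n + 1) → K := fun i => if i.val = 0 then (k : K) else if i.val = 1 then ((k⁻¹ : Kˣ) : K) else 1
  have hkne : (k : K) ≠ 0 := k.ne_zero
  have hkine : ((k⁻¹ : Kˣ) : K) ≠ 0 := (k⁻¹).ne_zero
  let d' : Fin (n + 1) → K := fun r => d (r + 1)
  let D : Matrix.SpecialLinearGroup (Fin (n + 1)) K := w * h * w⁻¹
  have hwW : (w : Matrix (Fin (n + 1)) (Fin (n + 1)) K) = Cfsg.Agent.Lib.SLGen.cycW n K := hw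
  have hWd : Cfsg.Agent.Lib.SLGen.cycW n K * diagonal d = diagonal d' * Cfsg.Agent.Lib.SLGen.cycW n K := by
    ext r c
    rw [Matrix.diagonal_mul, Matrix.mul_diagonal, Cfsg.Agent.Lib.SLGen.cycW_apply]
    by_cases hc : c = r + 1
    · subst hc
      simp only [if_true, d']
      ring
    · simp only [hc, if_false, zero_mul, mul_zero]
  have hDdiag : (D : Matrix (Fin (n + 1)) (Fin (n + 1)) K) = diagonal d' := by
    have h1 : ((D * w : Matrix.SpecialLinearGroup (Fin (n + 1)) K) : Matrix (Fin (n + 1)) (Fin (n + 1)) K) =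
        (D : Matrix (Fin (n + 1)) (Fin (n + 1)) K) * (w : Matrix (Fin (n + 1)) (Fin (n + 1)) K) := rfl
    have h2 : ((w * h : Matrix.SpecialLinearGroup (Fin (n + 1)) K) : Matrix (Fin (n + 1)) (Fin (n + 1)) K) =
        (w : Matrix (Fin (n + 1)) (Fin (n + 1)) K) * (h : Matrix (Fin (n + 1)) (Fin (n + 1)) K) := rfl
    have h3 : D * w = w * h := by simp [D]
    have h4 : (D : Matrix (Fin (n + 1)) (Fin (n + 1)) K) * (w : Matrix (Fin (n + 1)) (Fin (n + 1)) K) =
        diagonal d' * (w : Matrix (Fin (n + 1)) (Fin (n + 1)) K) := by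
      rw [← h1, h3, h2, hwW, hh]
      exact hWd
    have hdet : IsUnit (w : Matrix (Fin (n + 1)) (Fin (n + 1)) K) := by
      rw [Matrix.isUnit_iff_isUnit_det, show (w : Matrix (Fin (n + 1)) (Fin (n + 1)) K).det = 1 from w.2]
      exact isUnit_one
    exact hdet.mul_left_inj.mp h4
  have hhdiag : (h : Matrix (Fin (n + 1)) (Fin (n + 1)) K) = diagonal d := hh
  -- k^2 ≠ 1
  have hk2 : ((k : K)) ^ 2 ≠ 1 := by
    intro hk2
    have h1 : k ^ 2 = 1 := by
      apply Units.ext
      simpa using hk2
    have h2 : orderOf k ∣ 2 := orderOf_dvd_of_pow_eq_one h1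
    have h3 : orderOf k = Nat.card Kˣ := orderOf_eq_card_of_forall_mem_zpowers hk
    have h4 : Nat.card Kˣ = Fintype.card K - 1 := by
      rw [Nat.card_eq_fintype_card, Fintype.card_units]
    have h5 := Nat.le_of_dvd (by norm_num) h2
    omega
  have hkone : (k : K) ≠ 1 := by
    intro h1
    apply hk2
    rw [h1, one_pow]
  have hd0 : d 0 = k := by simp [d]
  have hd1 : d 1 = ((k⁻¹ : Kˣ) : K) := by
    show (if ((1 : Fin (n + 1)) : ℕ) = 0 then (k : K) else if ((1 : Fin (n + 1)) : ℕ) = 1 then ((k⁻¹ : Kˣ) : K) else 1) = _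
    rw [hval1]
    simp
  have hkinvval : ((k⁻¹ : Kˣ) : K) = (k : K)⁻¹ := by simp
  have hd'0 : d' 0 = (k : K)⁻¹ := by
    simp only [d', zero_add, hd1, hkinvval]
  have hd'1 : d' 1 = (k : K) ∨ d' 1 = 1 := by
    simp only [d']
    by_cases hn2 : n = 1
    · subst hn2
      left
      have : (1 + 1 : Fin (1 + 1)) = 0 := by decide
      rw [this, hd0]
    · right
      have h2n : 2 ≤ n := by omega
      have hval2 : ((1 + 1 : Fin (n + 1)) : ℕ) = 2 := by
        rw [Fin.val_add, hval1, Nat.mod_eq_of_lt (by omega)]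
      simp only [d]
      rw [if_neg (by omega), if_neg (by omega)]
  -- the scalars
  set κ : K := d 0 * 1 / d 1 with hκ
  have hκval : κ = (k : K) ^ 2 := by
    rw [hκ, hd0, hd1, hkinvval]
    field_simp
  have hTh : ∀ t, h * T t * h⁻¹ = T (κ * t) := by
    intro t
    have := conj_diag hhdiag h01 t
    have e : d 0 * t / d 1 = κ * t := by
      rw [hκ]; ring
    rw [e] at this
    exact this
  set c : K := d' 0 / d' 1 with hc
  have hTD : ∀ t, D * T t * D⁻¹ = T (c * t) := by
    intro t
    have := conj_diag hDdiag h01 t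
    have e : d' 0 * t / d' 1 = c * t := by
      rw [hc]; ring
    rw [e] at this
    exact this
  have hc1 : c ≠ 1 := by
    rw [hc, hd'0]
    rcases hd'1 with h1 | h1
    · rw [h1]
      intro h2
      apply hk2
      field_simp at h2
      linear_combination -h2
    · rw [h1]
      intro h2
      apply hkone
      field_simp at h2
      linear_combination -h2
  have hκ1 : κ ≠ 1 := by rw [hκval]; exact hk2
  -- commuting diagonals
  have hcomm : h * D = D * h := by
    apply Subtype.ext
    have h1 : ((h * D : Matrix.SpecialLinearGroup (Fin (n + 1)) K) : Matrix (Fin (n + 1)) (Fin (n + 1)) K) =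
        (h : Matrix (Fin (n + 1)) (Fin (n + 1)) K) * (D : Matrix (Fin (n + 1)) (Fin (n + 1)) K) := rfl
    have h2 : ((D * h : Matrix.SpecialLinearGroup (Fin (n + 1)) K) : Matrix (Fin (n + 1)) (Fin (n + 1)) K) =
        (D : Matrix (Fin (n + 1)) (Fin (n + 1)) K) * (h : Matrix (Fin (n + 1)) (Fin (n + 1)) K) := rfl
    refine Eq.trans h1 (Eq.trans ?_ h2.symm)
    rw [hDdiag, hhdiag, Matrix.diagonal_mul_diagonal, Matrix.diagonal_mul_diagonal]
    congr 1
    funext i
    ring
  -- the key element
  have hg : T (1 - c) * D ∈ H := by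
    have h1 : (x * w) * h * (x * w)⁻¹ ∈ H := H.mul_mem (H.mul_mem hyH hhH) (H.inv_mem hyH)
    have h2 : (x * w) * h * (x * w)⁻¹ = T (1 - c) * D := by
      have e1 : (x * w) * h * (x * w)⁻¹ = T 1 * D * (T 1)⁻¹ := by
        rw [hx1]; simp only [D]; group
      have e2 : D * (T 1)⁻¹ = T (-c) * D := by
        have := hTD (-1)
        rw [mul_inv_eq_iff_eq_mul] at this
        rw [hTinv, this]
        congr 2
        ring
      rw [e1, mul_assoc, e2, ← mul_assoc, ← hTadd, sub_eq_add_neg]
    rw [← h2]
    exact h1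
  have hTe : T ((κ - 1) * (1 - c)) ∈ H := by
    have h1 : h * (T (1 - c) * D) * h⁻¹ * (T (1 - c) * D)⁻¹ ∈ H :=
      H.mul_mem (H.mul_mem (H.mul_mem hhH hg) (H.inv_mem hhH)) (H.inv_mem hg)
    have h2 : h * (T (1 - c) * D) * h⁻¹ * (T (1 - c) * D)⁻¹ = T ((κ - 1) * (1 - c)) := by
      have e1 : h * (T (1 - c) * D) * h⁻¹ = T (κ * (1 - c)) * D := by
        have e := hTh (1 - c)
        have e2 : h * D * h⁻¹ = D := by rw [hcomm]; group
        calc h * (T (1 - c) * D) * h⁻¹ = (h * T (1 - c) * h⁻¹) * (h * D * h⁻¹) := by group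
          _ = _ := by rw [e, e2]
      rw [e1]
      have e3 : T (κ * (1 - c)) * D * (T (1 - c) * D)⁻¹ = T (κ * (1 - c)) * (T (1 - c))⁻¹ := by group
      rw [e3, hTinv, ← hTadd]
      congr 1
      ring
    rw [← h2]
    exact h1
  have he : (κ - 1) * (1 - c) ≠ 0 :=
    mul_ne_zero (sub_ne_zero.mpr hκ1) (sub_ne_zero.mpr (Ne.symm hc1))
  set e : K := (κ - 1) * (1 - c) with hedef
  -- stable under multiplication by squares
  have hκpow : ∀ (m : ℕ) (t : K), T t ∈ H → T (κ ^ m * t) ∈ H := by
    intro m
    induction m with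
    | zero => intro t ht; simpa using ht
    | succ m ih =>
      intro t ht
      have h1 := ih t ht
      have h2 := hTh (κ ^ m * t)
      have h3 : h * T (κ ^ m * t) * h⁻¹ ∈ H := H.mul_mem (H.mul_mem hhH h1) (H.inv_mem hhH)
      rw [h2] at h3
      have e2 : κ ^ (m + 1) * t = κ * (κ ^ m * t) := by ring
      rw [e2]
      exact h3
  have hsq : ∀ a : K, T (a ^ 2 * e) ∈ H := by
    intro a
    by_cases ha : a = 0
    · subst ha
      have : (0 : K) ^ 2 * e = 0 := by simp
      rw [this, hT0]
      exact H.one_mem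
    · have hu : Units.mk0 a ha ∈ Submonoid.powers k := by
        rw [mem_powers_iff_mem_zpowers]
        exact hk _
      obtain ⟨m, hm⟩ := hu
      have hm' : (k : K) ^ m = a := by
        have := congrArg Units.val hm
        simpa using this
      have h1 := hκpow m e hTe
      have e2 : κ ^ m * e = a ^ 2 * e := by
        rw [hκval, ← hm']
        ring
      rw [e2] at h1
      exact h1
  have hall : ∀ t : K, T t ∈ H := by
    intro t
    obtain ⟨a, b, hab⟩ := sum_two_squares (t / e)
    have ht : t = a ^ 2 * e + b ^ 2 * e := by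
      rw [← add_mul, ← hab]
      field_simp
    rw [ht, hTadd]
    exact H.mul_mem (hsq a) (hsq b)
  have hxH : x ∈ H := by rw [hx1]; exact hall 1
  have hwH : w ∈ H := by
    have h1 : w = x⁻¹ * (x * w) := by group
    rw [h1]
    exact H.mul_mem (H.inv_mem hxH) hyH
  have htop : H = ⊤ := Cfsg.Agent.Lib.SLGen.eq_top_of_cycW_mem hn H w hwW hwH h01 hall
  rw [htop, top_sup_eq]

end Cfsg.Agent.S2402
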