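import Mathlib
import Cfsg.Statements.S2403
import Cfsg.Agent.Lib.SLGen
-- import your own Cfsg.Agent.* helpers here

set_option autoImplicit false
open Cfsg

namespace Cfsg.Agent.S2403

/-- Explicit two-element generation of `PSL_{n+1}(K)` over the fields with two or three elements: with `x = 1 + E₁₂` and `w` the monomial matrix with entries `1` in positions `(i, i+1)` and `(−1)^n` in position `(n+1, 1)`, the elements `x` and `w` generate `SL_{n+1}(K)` modulo its centre. -/
theorem result {K : Type*} [Field K] [Fintype K] (hK : Fintype.card K ≤ 3) (n : ℕ) (hn : 1 ≤ n)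
    (x w : Matrix.SpecialLinearGroup (Fin (n + 1)) K)
    (hx : (x : Matrix (Fin (n + 1)) (Fin (n + 1)) K) = Matrix.transvection (0 : Fin (n + 1)) (1 : Fin (n + 1)) 1)
    (hw : (w : Matrix (Fin (n + 1)) (Fin (n + 1)) K) =
      Matrix.of (fun i j => if j.val = i.val + 1 then 1 else if i.val = n ∧ j.val = 0 then (-1) ^ n else 0)) :
    Subgroup.closure ({x, w} : Set (Matrix.SpecialLinearGroup (Fin (n + 1)) K)) ⊔
      Subgroup.center (Matrix.SpecialLinearGroup (Fin (n + 1)) K) = ⊤ := by
  classical
  have h01 : (0 : Fin (n + 1)) ≠ 1 := by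
    intro h
    have := congrArg Fin.val h
    rw [Fin.val_zero, Fin.val_one', Nat.mod_eq_of_lt (by omega)] at this
    omega
  -- every element of K is a natural number
  have hnat : ∀ t : K, ∃ m : ℕ, t = (m : K) := by
    obtain ⟨p, hp⟩ := CharP.exists K
    have := hp
    obtain ⟨k, hkp, hk⟩ := FiniteField.card K p
    have hpp : Fact p.Prime := ⟨hkp⟩
    have hk1 : (k : ℕ) = 1 := by
      by_contra hne
      have h2 : 2 ≤ (k : ℕ) := by have := k.pos; omega
      have hp2 : 2 ≤ p := hkp.two_le
      have : 2 ^ 2 ≤ p ^ (k : ℕ) :=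
        le_trans (Nat.pow_le_pow_left hp2 2) (Nat.pow_le_pow_right (by omega) h2)
      omega
    have hcard : Fintype.card K = p := by rw [hk, hk1, pow_one]
    let e : ZMod p ≃+* K := ZMod.ringEquivOfPrime K hkp hcard
    intro t
    refine ⟨(e.symm t).val, ?_⟩
    have h1 : (((e.symm t).val : ℕ) : ZMod p) = e.symm t := ZMod.natCast_zmod_val _
    have h2 : e (((e.symm t).val : ℕ) : ZMod p) = (((e.symm t).val : ℕ) : K) := map_natCast e _
    rw [← h2, h1, RingEquiv.apply_symm_apply]
  set H := Subgroup.closure ({x, w} : Set (Matrix.SpecialLinearGroup (Fin (n + 1)) K)) with hH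
  have hxH : x ∈ H := Subgroup.subset_closure (by simp)
  have hwH : w ∈ H := Subgroup.subset_closure (by simp)
  have hx1 : Matrix.SpecialLinearGroup.transvection h01 (1 : K) = x := Subtype.ext hx.symm
  have hpow : ∀ m : ℕ, Matrix.SpecialLinearGroup.transvection h01 (m : K) ∈ H := by
    intro m
    induction m with
    | zero =>
      simp only [Nat.cast_zero, Matrix.SpecialLinearGroup.transvection_coeff_zero]
      exact H.one_mem
    | succ m ih =>
      rw [Nat.cast_succ, Matrix.SpecialLinearGroup.transvection_add]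
      refine H.mul_mem ih ?_
      rw [hx1]
      exact hxH
  have htop : H = ⊤ := by
    apply Cfsg.Agent.Lib.SLGen.eq_top_of_cycW_mem hn H w hw hwH h01
    intro t
    obtain ⟨m, rfl⟩ := hnat t
    exact hpow m
  rw [htop, top_sup_eq]

end Cfsg.Agent.S2403
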