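import Cfsg.Statements.S0636
import Mathlib
import Cfsg.Agent.Lib.OmegaCyc2
import Cfsg.Agent.Lib.OddPGroup
import Cfsg.Agent.Lib.PSolv

set_option autoImplicit false
open Cfsg

namespace Cfsg.Agent.S0636

universe u

theorem main {R : Type u} [Group R] [Finite R] {p : ℕ} [Fact p.Prime] (hp : p ≠ 2) (hR : IsPGroup p R)
    (S : Subgroup R) [S.Normal] (hS : ¬ IsCyclic S) :
    ∃ A : Subgroup R, A ≤ S ∧ A.Normal ∧ (∀ a ∈ A, ∀ b ∈ A, a * b = b * a) ∧ (∀ a ∈ A, a ^ p = 1) ∧
      Nat.card A = p ^ 2 := by
  classical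
  have hpp : p.Prime := Fact.out
  let ℳ : Set (Subgroup R) := {M | M ≤ S ∧ M.Normal ∧ ∀ a ∈ M, ∀ b ∈ M, a * b = b * a}
  have hbot : (⊥ : Subgroup R) ∈ ℳ := by
    refine ⟨bot_le, inferInstance, ?_⟩
    intro a ha b hb
    rw [Subgroup.mem_bot] at ha hb
    simp [ha, hb]
  obtain ⟨M, hM⟩ := (Set.toFinite ℳ).exists_maximal ⟨⊥, hbot⟩
  obtain ⟨hMS, hMn, hMab⟩ := hM.prop
  by_cases hMc : IsCyclic M
  · -- cyclic case
    have hne : M ≠ S := by
      rintro rfl
      exact hS hMc
    have hlt : M < S := lt_of_le_of_ne hMS hne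
    have := hMn
    let π := QuotientGroup.mk' M
    have hπ : Function.Surjective π := QuotientGroup.mk'_surjective M
    have hQ : IsPGroup p (R ⧸ M) := hR.of_surjective π hπ
    have hSne : S.map π ≠ ⊥ := by
      intro h
      rw [Subgroup.map_eq_bot_iff, QuotientGroup.ker_mk'] at h
      exact hne (le_antisymm hMS h)
    have : (S.map π).Normal := Subgroup.Normal.map inferInstance π hπ
    obtain ⟨w, hwS, hw1, hwZ⟩ := Cfsg.Agent.Lib.OddPGroup.exists_central_of_normal hQ _ inferInstance hSne
    obtain ⟨k, hk⟩ := IsPGroup.iff_orderOf.mp hQ w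
    have hk0 : k ≠ 0 := by
      rintro rfl
      rw [pow_zero, orderOf_eq_one_iff] at hk
      exact hw1 hk
    obtain ⟨k, rfl⟩ := Nat.exists_eq_succ_of_ne_zero hk0
    let u : R ⧸ M := w ^ (p ^ k)
    have hu : orderOf u = p := by
      have := orderOf_pow_orderOf_div (x := w) (n := p) (by rw [hk]; exact (pow_pos hpp.pos _).ne') (by rw [hk]; exact dvd_pow_self p (Nat.succ_ne_zero k))
      rw [hk, Nat.pow_succ, Nat.mul_div_cancel _ hpp.pos] at this
      exact this
    have huS : u ∈ S.map π := Subgroup.pow_mem _ hwS _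
    have huZ : u ∈ Subgroup.center (R ⧸ M) := Subgroup.pow_mem _ hwZ _
    let T : Subgroup R := (Subgroup.zpowers u).comap π
    have hTn : T.Normal := by
      have : (Subgroup.zpowers u).Normal := by
        constructor
        intro x hx g
        have hxZ : x ∈ Subgroup.center (R ⧸ M) := by
          have : Subgroup.zpowers u ≤ Subgroup.center (R ⧸ M) := by
            rw [Subgroup.zpowers_le]; exact huZ
          exact this hx
        have : g * x * g⁻¹ = x := by
          rw [(Subgroup.mem_center_iff.mp hxZ g)]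
          group
        rwa [this]
      exact Subgroup.Normal.comap this π
    have hMT : M ≤ T := by
      intro x hx
      have : π x = 1 := by simpa [π] using hx
      rw [Subgroup.mem_comap, this]
      exact one_mem _
    have hTS : T ≤ S := by
      intro x hx
      have h1 : π x ∈ S.map π := by
        have : Subgroup.zpowers u ≤ S.map π := by
          rw [Subgroup.zpowers_le]; exact huS
        exact this hx
      obtain ⟨s, hs, hsx⟩ := h1
      have : s⁻¹ * x ∈ M := by
        rw [← QuotientGroup.ker_mk' M]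
        show π (s⁻¹ * x) = 1
        rw [map_mul, map_inv, hsx, inv_mul_cancel]
      have h2 := hMS this
      have h3 := S.mul_mem hs h2
      simpa using h3
    have hcardT : Nat.card T = p * Nat.card M := by
      have := Cfsg.Agent.Lib.PSolv.card_comap_of_surjective π hπ (Subgroup.zpowers u)
      rw [Nat.card_zpowers, hu, QuotientGroup.ker_mk'] at this
      exact this
    have hMne : M ≠ T := by
      intro h
      have h1 : Nat.card M = p * Nat.card M := by
        conv_lhs => rw [h]
        exact hcardT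
      have h2 : 0 < Nat.card M := Nat.card_pos
      have h3 := hpp.two_le
      nlinarith
    have hTnab : ¬ (∀ a ∈ T, ∀ b ∈ T, a * b = b * a) := by
      intro hab
      have hTm : T ∈ ℳ := ⟨hTS, hTn, hab⟩
      exact hMne (le_antisymm hMT (hM.le_of_ge hTm hMT))
    have hTnc : ¬ IsCyclic T := by
      intro hc
      apply hTnab
      intro a ha b hb
      have := hc.isMulCommutative.is_comm.comm ⟨a, ha⟩ ⟨b, hb⟩
      simpa using congrArg T.subtype this
    have hi : M.relIndex T = p := by
      have h1 := Subgroup.card_mul_index (M.subgroupOf T)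
      have h2 : Nat.card (M.subgroupOf T) = Nat.card M :=
        Nat.card_congr (Subgroup.subgroupOfEquivOfLe hMT).toEquiv
      rw [h2, hcardT, mul_comm p] at h1
      exact Nat.eq_of_mul_eq_mul_left Nat.card_pos h1
    obtain ⟨A, hA1, hA2, hA3⟩ := Cfsg.Agent.Lib.OmegaCyc2.omega_of_relIndex hp hR T M hMT hMc hi hTnc
    refine ⟨A, ?_, ?_, hA2, ?_, hA3⟩
    · intro x hx
      exact hTS ((hA1 x).1 hx).1
    · constructor
      intro x hx g
      obtain ⟨h1, h2⟩ := (hA1 x).1 hx
      refine (hA1 _).2 ⟨hTn.conj_mem x h1 g, ?_⟩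
      rw [conj_pow, h2]
      simp
    · intro a ha
      exact ((hA1 a).1 ha).2
  · obtain ⟨A, hAM, hAn, hA1, hA2, hA3⟩ :=
      Cfsg.Agent.Lib.OddPGroup.exists_normal_p2_of_abelian hp hR M hMn hMab hMc
    exact ⟨A, hAM.trans hMS, hAn, hA1, hA2, hA3⟩


/-- For odd p, every non-cyclic normal subgroup of a p-group contains a normal elementary abelian subgroup of the whole group of order p². -/
theorem result {R : Type*} [Group R] [Finite R] {p : ℕ} [Fact p.Prime] (hp : p ≠ 2) (hR : IsPGroup p R) (S : Subgroup R) [S.Normal] (hS : ¬ IsCyclic S) : ∃ A : Subgroup R, A ≤ S ∧ A.Normal ∧ Cfsg.IsElementaryAbelian p A ∧ Nat.card A = p ^ 2 := by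
  obtain ⟨A, h1, h2, h3, h4, h5⟩ := main hp hR S hS
  exact ⟨A, h1, h2, ⟨⟨⟨fun a b => Subtype.ext (h3 a a.2 b b.2)⟩⟩, h4⟩, h5⟩

end Cfsg.Agent.S0636
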