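import Mathlib
import Cfsg.Statements.S1447
import Cfsg.Agent.Lib.MetaAct
import Cfsg.Agent.Lib.Glauberman
import Cfsg.Agent.S0636
import Cfsg.Agent.S0638

set_option autoImplicit false
open Cfsg

namespace Cfsg.Agent.S1447

open Subgroup Cfsg.Agent.Lib.MetaAct Cfsg.Agent.Lib.Glauberman
open scoped commutatorElement

theorem isMetacyclic_of_injective {H K : Type*} [Group H] [Group K] (f : H →* K) (hf : Function.Injective f)
    (h : IsMetacyclic K) : IsMetacyclic H := by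
  obtain ⟨N, hN, hNc, hQc⟩ := h
  refine ⟨N.comap f, inferInstance, ?_, ?_⟩
  · exact isCyclic_of_injective (f.subgroupComap N) (by
      intro a b hab
      apply Subtype.ext
      apply hf
      exact congrArg Subtype.val hab)
  · refine isCyclic_of_injective (QuotientGroup.map (N.comap f) N f le_rfl) ?_
    rw [injective_iff_map_eq_one]
    intro x hx
    obtain ⟨x, rfl⟩ := QuotientGroup.mk_surjective x
    have h1 : ((f x : K) : K ⧸ N) = 1 := hx
    exact (QuotientGroup.eq_one_iff x).mpr (show f x ∈ N from (QuotientGroup.eq_one_iff (f x)).mp h1)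

/-- The action on a normalized subgroup. -/
def actHom {G : Type*} [Group G] (X A : Subgroup G) (h : A ≤ normalizer (X : Set G)) : A →* MulAut X :=
  X.normalizerMonoidHom.comp (Subgroup.inclusion h)

theorem actHom_apply {G : Type*} [Group G] (X A : Subgroup G) (h : A ≤ normalizer (X : Set G)) (a : A) (x : X) :
    ((actHom X A h a x : X) : G) = a * x * (a : G)⁻¹ := rfl

theorem closure_act {G : Type*} [Group G] (X A : Subgroup G) (h : A ≤ normalizer (X : Set G))
    (hXA : ⁅X, A⁆ = X) :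
    closure {x : X | ∃ g : X, ∃ a ∈ (actHom X A h).range, x = g⁻¹ * a g} = ⊤ := by
  rw [eq_top_iff]
  rintro ⟨x, hx⟩ -
  have hle : (⁅X, A⁆ : Subgroup G) ≤ (closure {x : X | ∃ g : X, ∃ a ∈ (actHom X A h).range, x = g⁻¹ * a g}).map X.subtype := by
    rw [Subgroup.commutator_le]
    intro y hy a ha
    refine ⟨⟨⁅y, a⁆, ?_⟩, ?_, rfl⟩
    · have h1 : ⁅y, a⁆ ∈ ⁅X, A⁆ := Subgroup.commutator_mem_commutator hy ha
      rwa [hXA] at h1
    · apply Subgroup.subset_closure
      refine ⟨⟨y⁻¹, inv_mem hy⟩, actHom X A h ⟨a, ha⟩, ⟨⟨a, ha⟩, rfl⟩, ?_⟩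
      apply Subtype.ext
      show ⁅y, a⁆ = y⁻¹⁻¹ * (a * y⁻¹ * a⁻¹)
      rw [commutatorElement_def]
      group
  rw [hXA] at hle
  obtain ⟨z, hz, rfl⟩ := hle hx
  exact hz

/-- `R` normalizes `[R, A]`. -/
theorem conj_mem_commutator {G : Type*} [Group G] {R A : Subgroup G} {x b : G} (hx : x ∈ R)
    (hb : b ∈ (⁅R, A⁆ : Subgroup G)) : x * b * x⁻¹ ∈ (⁅R, A⁆ : Subgroup G) := by
  rw [Subgroup.commutator_def] at hb ⊢
  induction hb using Subgroup.closure_induction with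
  | mem y hy =>
    obtain ⟨r, hr, a, ha, rfl⟩ := hy
    have e : x * ⁅r, a⁆ * x⁻¹ = ⁅x * r, a⁆ * (⁅x, a⁆)⁻¹ := by
      simp only [commutatorElement_def]
      group
    rw [e]
    refine mul_mem ?_ (inv_mem ?_)
    · exact Subgroup.subset_closure ⟨_, mul_mem hx hr, a, ha, rfl⟩
    · exact Subgroup.subset_closure ⟨_, hx, a, ha, rfl⟩
  | one => simp
  | mul y z _ _ hy hz =>
    have e : x * (y * z) * x⁻¹ = (x * y * x⁻¹) * (x * z * x⁻¹) := by group
    rw [e]
    exact mul_mem hy hz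
  | inv y _ hy =>
    have e : x * y⁻¹ * x⁻¹ = (x * y * x⁻¹)⁻¹ := by group
    rw [e]
    exact inv_mem hy

/-- A non-cyclic `p`-group contains an elementary abelian subgroup of order `p²`. -/
theorem exists_ea_of_noncyclic {X : Type*} [Group X] [Finite X] {p : ℕ} [Fact p.Prime] (hp : p ≠ 2)
    (hX : IsPGroup p X) (hnc : ¬ IsCyclic X) :
    ∃ E : Subgroup X, IsElementaryAbelian p E ∧ Nat.card E = p ^ 2 := by
  have h1 : ¬ IsCyclic (⊤ : Subgroup X) := by
    intro h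
    apply hnc
    exact isCyclic_of_surjective (Subgroup.topEquiv : (⊤ : Subgroup X) ≃* X).toMonoidHom
      (Subgroup.topEquiv : (⊤ : Subgroup X) ≃* X).surjective
  obtain ⟨A, -, -, hA, hAc⟩ := Cfsg.Agent.S0636.result hp hX ⊤ h1
  exact ⟨A, hA, hAc⟩

/-- Let G be a finite group, p an odd prime, R a metacyclic p-subgroup and A a subgroup of order coprime to p normalizing R. Then [R, A] is abelian; R is generated by [R, A] and R ∩ C_G(A), which meet trivially; and if R is non-abelian and A does not centralize R, then [R, A] and R ∩ C_G(A) are nontrivial cyclic groups and [R, R] ≤ [R, A]. -/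
theorem result {G : Type*} [Group G] [Finite G] (p : ℕ) [Fact p.Prime] (hp : p ≠ 2) (R A : Subgroup G) (hR : IsPGroup p R) (hRm : Cfsg.IsMetacyclic R)
    (hA : (A ≤ Subgroup.normalizer (R : Set G))) (hcop : (Nat.card A).Coprime p) :
    IsMulCommutative ↥⁅R, A⁆ ∧ ⁅R, A⁆ ⊔ (R ⊓ Subgroup.centralizer (A : Set G)) = R ∧ ⁅R, A⁆ ⊓ (R ⊓ Subgroup.centralizer (A : Set G)) = ⊥ ∧
      (¬ IsMulCommutative R → ¬ A ≤ Subgroup.centralizer (R : Set G) →
        ⁅R, A⁆ ≠ ⊥ ∧ IsCyclic ↥⁅R, A⁆ ∧ (R ⊓ Subgroup.centralizer (A : Set G)) ≠ ⊥ ∧ IsCyclic ↥(R ⊓ Subgroup.centralizer (A : Set G)) ∧ ⁅R, R⁆ ≤ ⁅R, A⁆) := by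
  classical
  have hpp : p.Prime := Fact.out
  have hcop' : (Nat.card A).Coprime (Nat.card R) := by
    obtain ⟨n, hn⟩ := IsPGroup.iff_card.mp hR
    rw [hn]
    exact Nat.Coprime.pow_right n hcop
  have hsolv : Group.IsSolvable A ∨ Group.IsSolvable R := by
    right
    have := hR.isNilpotent
    infer_instance
  set B : Subgroup G := ⁅R, A⁆ with hB
  set C : Subgroup G := R ⊓ centralizer (A : Set G) with hC
  have hBR : B ≤ R := commutator_le_of_le_normalizer hA
  have hBp : IsPGroup p B := hR.to_le hBR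
  have hAB : A ≤ normalizer (B : Set G) := le_normalizer_commutator hA
  have hBB : ⁅B, A⁆ = B := commutator_commutator_eq hA hcop' hsolv
  have hBm : IsMetacyclic B := isMetacyclic_of_injective (Subgroup.inclusion hBR) (Subgroup.inclusion_injective hBR) hRm
  let D := (actHom B A hAB).range
  have hD : (Nat.card D).Coprime p := by
    refine Nat.Coprime.coprime_dvd_left ?_ hcop
    exact Subgroup.card_range_dvd _
  have hBD := closure_act B A hAB hBB
  have hBab : ∀ x y : B, x * y = y * x := comm_of_metacyclic hp hBp hBm D hD hBD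
  have hBC : B ⊓ C = ⊥ := by
    rw [eq_bot_iff]
    rintro x ⟨hxB, hxC⟩
    have hfix : ∀ a ∈ D, a ⟨x, hxB⟩ = ⟨x, hxB⟩ := by
      rintro _ ⟨a, rfl⟩
      apply Subtype.ext
      show (a : G) * x * (a : G)⁻¹ = x
      have h1 := (Subgroup.mem_centralizer_iff.mp hxC.2) a a.2
      rw [h1, mul_inv_cancel_right]
    have h1 := Cfsg.Agent.Lib.CoprimeAut.fixed_mem_commutator hBp D hD hBD _ hfix
    have h2 : commutator B = ⊥ := by
      rw [_root_.commutator_def, Subgroup.commutator_eq_bot_iff_le_centralizer]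
      intro y _
      rw [Subgroup.mem_centralizer_iff]
      intro z _
      exact hBab z y
    rw [h2] at h1
    have h3 : (⟨x, hxB⟩ : B) = 1 := h1
    exact congrArg Subtype.val h3
  refine ⟨⟨⟨hBab⟩⟩, commutator_sup_inf_centralizer hA hcop' hsolv, hBC, ?_⟩
  intro hnab hnc
  have hBne : B ≠ ⊥ := by
    intro h
    apply hnc
    rw [Subgroup.le_centralizer_iff]
    exact (Subgroup.commutator_eq_bot_iff_le_centralizer).mp h
  have hBCR : B ⊔ C = R := commutator_sup_inf_centralizer hA hcop' hsolv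
  have hCne : C ≠ ⊥ := by
    intro h
    apply hnab
    rw [h, sup_bot_eq] at hBCR
    refine ⟨⟨?_⟩⟩
    rintro ⟨x, hx⟩ ⟨y, hy⟩
    have hx' : x ∈ B := by rw [hBCR]; exact hx
    have hy' : y ∈ B := by rw [hBCR]; exact hy
    apply Subtype.ext
    show x * y = y * x
    exact congrArg Subtype.val (hBab ⟨x, hx'⟩ ⟨y, hy'⟩)
  have hncR : ¬ IsCyclic R := by
    intro h
    apply hnab
    exact h.isMulCommutative
  obtain ⟨E, hEmem, -, hEcard⟩ := Cfsg.Agent.S0638.main hp hR hRm hncR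
  have key : ∀ X : Subgroup G, X ≤ R → ¬ IsCyclic X → ∀ e : R, e ^ p = 1 → (e : G) ∈ X := by
    intro X hXR hnc e he
    obtain ⟨A₁, hA₁, hA₁c⟩ := exists_ea_of_noncyclic hp (hR.to_le hXR) hnc
    let A' : Subgroup R := A₁.map (Subgroup.inclusion hXR)
    have hA'c : Nat.card A' = p ^ 2 := by
      rw [Subgroup.card_map_of_injective (Subgroup.inclusion_injective hXR), hA₁c]
    have hA'E : A' ≤ E := by
      rintro _ ⟨a, ha, rfl⟩
      rw [hEmem, ← map_pow, hA₁.2 a ha, map_one]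
    have hEA' : A' = E := Subgroup.eq_of_le_of_card_ge hA'E (by rw [hA'c, hEcard])
    have he' : e ∈ A' := by
      rw [hEA', hEmem]
      exact he
    obtain ⟨a, _, rfl⟩ := he'
    exact a.2
  have hord : ∀ X : Subgroup G, X ≤ R → X ≠ ⊥ → ∃ x ∈ X, x ≠ 1 ∧ x ^ p = 1 := by
    intro X hXR hX
    have hXp : IsPGroup p X := hR.to_le hXR
    obtain ⟨n, hn⟩ := IsPGroup.iff_card.mp hXp
    have hn0 : n ≠ 0 := by
      rintro rfl
      rw [pow_zero] at hn
      exact hX (Subgroup.card_eq_one.mp hn)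
    have hd : p ∣ Nat.card X := by
      rw [hn]
      exact dvd_pow_self p hn0
    obtain ⟨x, hx⟩ := exists_prime_orderOf_dvd_card' p hd
    refine ⟨x.1, x.2, ?_, ?_⟩
    · intro h
      have h1 : x = 1 := Subtype.ext h
      rw [h1, orderOf_one] at hx
      exact hpp.one_lt.ne hx
    · have h1 : x ^ p = 1 := by
        rw [← hx]
        exact pow_orderOf_eq_one x
      exact congrArg Subtype.val h1
  have hCR : C ≤ R := inf_le_left
  have hBc : IsCyclic B := by
    by_contra hnc'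
    obtain ⟨c, hcC, hc1, hcp⟩ := hord C hCR hCne
    have h1 := key B hBR hnc' ⟨c, hCR hcC⟩ (Subtype.ext hcp)
    have h2 : c ∈ B ⊓ C := ⟨h1, hcC⟩
    rw [hBC] at h2
    exact hc1 h2
  have hCc : IsCyclic C := by
    by_contra hnc'
    obtain ⟨b, hbB, hb1, hbp⟩ := hord B hBR hBne
    have h1 := key C hCR hnc' ⟨b, hBR hbB⟩ (Subtype.ext hbp)
    have h2 : b ∈ B ⊓ C := ⟨hbB, h1⟩
    rw [hBC] at h2
    exact hb1 h2
  refine ⟨hBne, hBc, hCne, hCc, ?_⟩
  rw [Subgroup.commutator_le]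
  intro x hx y hy
  obtain ⟨n, hn, hnx⟩ := exists_commutator_mul_centralizer hA hcop' hsolv x hx
  obtain ⟨m, hm, hmy⟩ := exists_commutator_mul_centralizer hA hcop' hsolv y hy
  have hc₁ : n * x ∈ C := ⟨mul_mem (hBR hn) hx, hnx⟩
  have hc₂ : m * y ∈ C := ⟨mul_mem (hBR hm) hy, hmy⟩
  have hcomm : (n * x) * (m * y) = (m * y) * (n * x) :=
    congrArg Subtype.val (hCc.isMulCommutative.is_comm.comm (⟨_, hc₁⟩ : C) ⟨_, hc₂⟩)
  set c₁ := n * x with hc₁d
  set c₂ := m * y with hc₂d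
  have ex : x = n⁻¹ * c₁ := by rw [hc₁d]; group
  have ey : y = m⁻¹ * c₂ := by rw [hc₂d]; group
  have hb₁ : c₁ * m⁻¹ * c₁⁻¹ ∈ B := conj_mem_commutator (hCR hc₁) (inv_mem hm)
  have hb₂ : c₂ * n⁻¹ * c₂⁻¹ ∈ B := conj_mem_commutator (hCR hc₂) (inv_mem hn)
  have e : ⁅x, y⁆ = n⁻¹ * (c₁ * m⁻¹ * c₁⁻¹) * (m⁻¹ * (c₂ * n⁻¹ * c₂⁻¹))⁻¹ := by
    have e1 : x * y = n⁻¹ * (c₁ * m⁻¹ * c₁⁻¹) * (c₁ * c₂) := by rw [ex, ey]; group
    have e2 : y * x = m⁻¹ * (c₂ * n⁻¹ * c₂⁻¹) * (c₂ * c₁) := by rw [ex, ey]; group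
    rw [commutatorElement_def]
    have e3 : x * y * x⁻¹ * y⁻¹ = (x * y) * (y * x)⁻¹ := by group
    rw [e3, e1, e2, hcomm]
    group
  rw [e]
  exact mul_mem (mul_mem (inv_mem hn) hb₁) (inv_mem (mul_mem (inv_mem hm) hb₂))

end Cfsg.Agent.S1447
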