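import Mathlib
import Cfsg.Statements.S3995
import Cfsg.Agent.Lib.FrobCount

set_option autoImplicit false
open Cfsg

namespace Cfsg.Agent.S3995

open Cfsg.Agent.Lib.FrobCount

/-- number of elements of order `m` -/
noncomputable def cnt (G : Type*) [Group G] (m : ℕ) : ℕ := Nat.card {g : G // orderOf g = m}

lemma cnt_sum {G : Type*} [Group G] [Finite G] (d : ℕ) (hd : d ≠ 0) :
    Nat.card {x : G // x ^ d = 1} = ∑ m ∈ d.divisors, cnt G m := by
  classical
  cases nonempty_fintype G
  unfold cnt
  simp only [Nat.card_eq_fintype_card, Fintype.card_subtype]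
  rw [Finset.card_eq_sum_card_fiberwise (f := fun g : G => orderOf g) (t := d.divisors)]
  · apply Finset.sum_congr rfl
    intro m hm
    congr 1
    ext g
    simp only [Finset.mem_filter, Finset.mem_univ, true_and]
    constructor
    · rintro ⟨_, h⟩; exact h
    · intro h
      refine ⟨?_, h⟩
      rw [← orderOf_dvd_iff_pow_eq_one, h]
      exact (Nat.mem_divisors.mp hm).1
  · intro g hg
    have hg' : g ^ d = 1 := by simpa using hg
    simp only [Finset.mem_coe, Nat.mem_divisors]
    exact ⟨orderOf_dvd_of_pow_eq_one hg', hd⟩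

lemma dvd_sum {G : Type*} [Group G] [Finite G] (d : ℕ) (hd : d ∣ Nat.card G) :
    d ∣ ∑ m ∈ d.divisors, cnt G m := by
  have hd0 : d ≠ 0 := by
    rintro rfl
    rw [zero_dvd_iff] at hd
    exact Nat.card_pos.ne' hd
  rw [← cnt_sum d hd0]
  exact frobenius_dvd_card_pow_eq_one G d hd

lemma cnt_one {G : Type*} [Group G] [Finite G] : cnt G 1 = 1 := by
  unfold cnt
  rw [Nat.card_eq_one_iff_unique]
  refine ⟨⟨?_⟩, ⟨⟨1, orderOf_one⟩⟩⟩
  rintro ⟨a, ha⟩ ⟨b, hb⟩
  rw [orderOf_eq_one_iff] at ha hb
  exact Subtype.ext (ha.trans hb.symm)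

lemma cnt_ne_zero_iff {G : Type*} [Group G] [Finite G] (m : ℕ) :
    cnt G m ≠ 0 ↔ ∃ g : G, orderOf g = m := by
  unfold cnt
  constructor
  · intro h
    have : Nonempty {g : G // orderOf g = m} := by
      by_contra hne
      rw [not_nonempty_iff] at hne
      exact h Nat.card_of_isEmpty
    obtain ⟨⟨g, hg⟩⟩ := this
    exact ⟨g, hg⟩
  · rintro ⟨g, hg⟩
    have : Nonempty {g : G // orderOf g = m} := ⟨⟨g, hg⟩⟩
    exact Nat.card_pos.ne'

lemma totient_dvd_cnt {G : Type*} [Group G] [Finite G] (m : ℕ) : m.totient ∣ cnt G m :=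
  totient_dvd_card_orderOf m

lemma cnt_inv_even {G : Type*} [Group G] [Finite G] (m : ℕ) (hm : 3 ≤ m) : Even (cnt G m) :=
  (Nat.totient_even hm).two_dvd.trans (totient_dvd_cnt m) |> even_iff_two_dvd.mpr

/-- abstract `Q8` recognition. -/
lemma anti {G : Type*} [Group G] {t : G} (h1 : ∀ g : G, g = 1 ∨ g = t ∨ g * g = t)
    (ht1 : t ≠ 1) (htt : t * t = 1) {u v : G} (hu : u * u = t)
    (hv1 : v ≠ 1) (hvt : v ≠ t) (hvu : v ≠ u) (hvut : v ≠ u * t)
    : v * u * v = u := by
  have huv1 : u * v ≠ 1 := by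
    intro h
    apply hvut
    have : u * (u * t) = 1 := by
      rw [← mul_assoc, hu, htt]
    exact mul_left_cancel (h.trans this.symm)
  have huvt : u * v ≠ t := by
    intro h
    apply hvu
    exact mul_left_cancel (h.trans hu.symm)
  have huv : (u * v) * (u * v) = t := by
    rcases h1 (u * v) with h | h | h
    · exact absurd h huv1
    · exact absurd h huvt
    · exact h
  have : u * (v * u * v) = u * u := by
    rw [hu, ← huv]; group
  exact mul_left_cancel this

lemma q8_cover {G : Type*} [Group G] {t : G} (h1 : ∀ g : G, g = 1 ∨ g = t ∨ g * g = t)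
    (ht1 : t ≠ 1) (htt : t * t = 1) (hc : ∀ g, g * t = t * g) {x y : G} (hx : x * x = t)
    (hy1 : y ≠ 1) (hyt : y ≠ t) (hyx : y ≠ x) (hyxt : y ≠ x * t) (z : G)
    (hz1 : z ≠ 1) (hzt : z ≠ t) (hzx : z ≠ x) (hzxt : z ≠ x * t)
    (hzy : z ≠ y) (hzyx : z ≠ y * x) (hzyt : z ≠ y * t) (hzyxt : z ≠ y * x * t) : False := by
  have hyy : y * y = t := by
    rcases h1 y with h | h | h
    · exact absurd h hy1
    · exact absurd h hyt
    · exact h
  have hzz : z * z = t := by
    rcases h1 z with h | h | h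
    · exact absurd h hz1
    · exact absurd h hzt
    · exact h
  have hyxy : y * x * y = x := anti h1 ht1 htt hx hy1 hyt hyx hyxt
  have hzxz : z * x * z = x := anti h1 ht1 htt hx hz1 hzt hzx hzxt
  have hzyz : z * y * z = y := anti h1 ht1 htt hyy hz1 hzt hzy hzyt
  have hxy_eq : x * y = y * x * t := by
    have : y * x * t = y * x * (y * y) := by rw [hyy]
    rw [this, ← mul_assoc, hyxy]
  have hxy1 : x * y ≠ 1 := by
    intro h
    apply hyxt
    have : x * (x * t) = 1 := by rw [← mul_assoc, hx, htt]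
    exact mul_left_cancel (h.trans this.symm)
  have hxyt : x * y ≠ t := by
    intro h
    apply hyx
    exact mul_left_cancel (h.trans hx.symm)
  have hxyxy : (x * y) * (x * y) = t := by
    rcases h1 (x * y) with h | h | h
    · exact absurd h hxy1
    · exact absurd h hxyt
    · exact h
  have hxytt : x * y * t = y * x := by
    rw [hxy_eq, mul_assoc, htt, mul_one]
  have hzxy : z * (x * y) * z = x * y := by
    apply anti h1 ht1 htt hxyxy hz1 hzt
    · rw [hxy_eq]; exact hzyxt
    · rw [hxytt]; exact hzyx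
  have hzinv : z⁻¹ = z * t := by
    rw [inv_eq_iff_mul_eq_one, ← mul_assoc, hzz, htt]
  have hcalc : z * (x * y) * z = (z * x * z) * (z⁻¹ * y * z) := by group
  have hy2 : z⁻¹ * y * z = t * y := by
    rw [hzinv, hc z]
    calc t * z * y * z = t * (z * y * z) := by group
      _ = t * y := by rw [hzyz]
  rw [hzxz, hy2, hzxy] at hcalc
  have h3 := mul_left_cancel hcalc
  apply ht1
  exact mul_eq_right.mp h3.symm

/-- the `Q8` map -/
def phi {G : Type*} [Group G] (x y : G) : QuaternionGroup 2 → G
  | .a i => x ^ (ZMod.val i)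
  | .xa i => y * x ^ (ZMod.val i)

lemma f_add {G : Type*} [Group G] {x : G} (h4 : x ^ 4 = 1) (i j : ZMod (2 * 2)) :
    x ^ (ZMod.val (i + j)) = x ^ (ZMod.val i) * x ^ (ZMod.val j) := by
  rw [← pow_add, ZMod.val_add]
  exact (pow_eq_pow_mod _ h4).symm

lemma f_neg {G : Type*} [Group G] {x : G} (h4 : x ^ 4 = 1) (i : ZMod (2 * 2)) :
    x ^ (ZMod.val (-i)) = (x ^ (ZMod.val i))⁻¹ := by
  rw [eq_inv_iff_mul_eq_one, ← f_add h4]
  simp

lemma f_comm {G : Type*} [Group G] {x : G} (i j : ZMod (2 * 2)) :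
    x ^ (ZMod.val i) * x ^ (ZMod.val j) = x ^ (ZMod.val j) * x ^ (ZMod.val i) := by
  rw [← pow_add, ← pow_add, add_comm]

lemma f_move {G : Type*} [Group G] {x y : G} (h4 : x ^ 4 = 1) (hs : y * x⁻¹ = x * y) (i : ZMod (2 * 2)) :
    x ^ (ZMod.val i) * y = y * x ^ (ZMod.val (-i)) := by
  have h : SemiconjBy y (x⁻¹) x := hs
  have h' := h.pow_right (ZMod.val i)
  rw [f_neg h4, ← inv_pow]
  exact h'.eq.symm

lemma phi_mul {G : Type*} [Group G] {x y : G} (h4 : x ^ 4 = 1) (hs : y * x⁻¹ = x * y)
    (hyy : y * y = x * x) (u v : QuaternionGroup 2) : phi x y (u * v) = phi x y u * phi x y v := by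
  rcases u with i | i <;> rcases v with j | j
  · simp only [QuaternionGroup.a_mul_a, phi]
    exact f_add h4 i j
  · simp only [QuaternionGroup.a_mul_xa, phi]
    rw [← mul_assoc, f_move h4 hs, mul_assoc, ← f_add h4, sub_eq_neg_add]
  · simp only [QuaternionGroup.xa_mul_a, phi]
    rw [mul_assoc, f_add h4]
  · simp only [QuaternionGroup.xa_mul_xa, phi]
    have h2 : x ^ (ZMod.val ((2 : ℕ) : ZMod (2 * 2))) = y * y := by
      have hv : ZMod.val ((2 : ℕ) : ZMod (2 * 2)) = 2 := rfl
      rw [hyy, hv, pow_two]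
    have e : (((2 : ℕ) : ZMod (2 * 2)) + j - i) = ((2 : ℕ) : ZMod (2 * 2)) + (-i + j) := by ring
    rw [e, f_add h4, f_add h4, h2, mul_assoc y (x ^ _), ← mul_assoc (x ^ (ZMod.val i)) y, f_move h4 hs]
    group

/-- recognition of `Q8` -/
lemma q8_equiv {G : Type*} [Group G] {t : G} (h1 : ∀ g : G, g = 1 ∨ g = t ∨ g * g = t)
    (ht1 : t ≠ 1) (htt : t * t = 1) (hc : ∀ g, g * t = t * g) {x y : G} (hx : x * x = t)
    (hy1 : y ≠ 1) (hyt : y ≠ t) (hyx : y ≠ x) (hyxt : y ≠ x * t) :
    Nonempty (G ≃* QuaternionGroup 2) := by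
  have hyy : y * y = t := by
    rcases h1 y with h | h | h
    · exact absurd h hy1
    · exact absurd h hyt
    · exact h
  have hyxy : y * x * y = x := anti h1 ht1 htt hx hy1 hyt hyx hyxt
  have hx4 : x ^ 4 = 1 := by
    have : x ^ 4 = (x * x) * (x * x) := by
      rw [pow_succ, pow_succ, pow_two]; group
    rw [this, hx, htt]
  have hxinv : x⁻¹ = x * t := by
    rw [inv_eq_iff_mul_eq_one, ← mul_assoc, hx, htt]
  have hs : y * x⁻¹ = x * y := by
    rw [hxinv]
    have : y * x * (y * y) = x * y := by rw [← mul_assoc, hyxy]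
    rw [← this, hyy, mul_assoc]
  have hval : ∀ i : ZMod (2 * 2), ZMod.val i = 0 ∨ ZMod.val i = 1 ∨ ZMod.val i = 2 ∨ ZMod.val i = 3 := by
    intro i
    have := ZMod.val_lt i
    have h4 : 2 * 2 = 4 := rfl
    omega
  have hf : ∀ i : ZMod (2 * 2), x ^ ZMod.val i = 1 ∨ x ^ ZMod.val i = x ∨ x ^ ZMod.val i = t ∨
      x ^ ZMod.val i = x * t := by
    intro i
    rcases hval i with h | h | h | h <;> rw [h]
    · simp
    · simp
    · right; right; left; rw [pow_two, hx]
    · right; right; right; rw [pow_succ, pow_two, hx, hc x]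
  have hx1 : x ≠ 1 := by
    rintro rfl
    apply ht1
    rw [← hx, one_mul]
  have hxt : x ≠ t := by
    intro h
    apply hx1
    have : x * x = x * 1 := by rw [mul_one, hx, h]
    exact mul_left_cancel this
  have hxtt : x * t ≠ 1 := by
    intro h
    apply hxt
    exact mul_right_cancel (h.trans htt.symm)
  have hxtx : x * t * x = 1 := by
    rw [mul_assoc, ← hc x, ← mul_assoc, hx, htt]
  have hxxt : x * (x * t) = 1 := by
    rw [← mul_assoc, hx, htt]
  have hyy' : y * y = x * x := hyy.trans hx.symm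
  let Φ : QuaternionGroup 2 →* G := MonoidHom.mk' (phi x y) (phi_mul hx4 hs hyy')
  have hΦ : ∀ u, Φ u = phi x y u := fun _ => rfl
  have hinj : Function.Injective Φ := by
    rw [injective_iff_map_eq_one]
    intro u hu
    rw [hΦ] at hu
    rcases u with i | i
    · simp only [phi] at hu
      have hi0 : ZMod.val i = 0 := by
        rcases hval i with h | h | h | h
        · exact h
        · rw [h, pow_one] at hu; exact absurd hu hx1
        · rw [h, pow_two, hx] at hu; exact absurd hu ht1
        · rw [h, pow_succ, pow_two, hx, ← hc x] at hu; exact absurd hu hxtt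
      have : i = 0 := (ZMod.val_eq_zero i).mp hi0
      rw [this]
      rfl
    · exfalso
      simp only [phi] at hu
      rcases hf i with h | h | h | h <;> rw [h] at hu
      · rw [mul_one] at hu; exact hy1 hu
      · exact hyxt (mul_right_cancel (hu.trans hxtx.symm))
      · exact hyt (mul_right_cancel (hu.trans htt.symm))
      · exact hyx (mul_right_cancel (hu.trans hxxt.symm))
  have hsurj : Function.Surjective Φ := by
    intro z
    by_contra hz
    have hne : ∀ u, phi x y u ≠ z := fun u hu => hz ⟨u, by rw [hΦ, hu]⟩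
    refine q8_cover h1 ht1 htt hc hx hy1 hyt hyx hyxt z ?_ ?_ ?_ ?_ ?_ ?_ ?_ ?_
    · intro h; exact hne (.a 0) (by simp [phi, h])
    · intro h; exact hne (.a ((2 : ℕ) : ZMod (2 * 2))) (by
        have hv : ZMod.val ((2 : ℕ) : ZMod (2 * 2)) = 2 := rfl
        simp only [phi]; rw [hv, pow_two, hx, h])
    · intro h; exact hne (.a ((1 : ℕ) : ZMod (2 * 2))) (by
        have hv : ZMod.val ((1 : ℕ) : ZMod (2 * 2)) = 1 := rfl
        simp only [phi]; rw [hv, pow_one, h])
    · intro h; exact hne (.a ((3 : ℕ) : ZMod (2 * 2))) (by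
        have hv : ZMod.val ((3 : ℕ) : ZMod (2 * 2)) = 3 := rfl
        simp only [phi]; rw [hv, pow_succ, pow_two, hx, h, hc x])
    · intro h; exact hne (.xa 0) (by simp [phi, h])
    · intro h; exact hne (.xa ((1 : ℕ) : ZMod (2 * 2))) (by
        have hv : ZMod.val ((1 : ℕ) : ZMod (2 * 2)) = 1 := rfl
        simp only [phi]; rw [hv, pow_one, h])
    · intro h; exact hne (.xa ((2 : ℕ) : ZMod (2 * 2))) (by
        have hv : ZMod.val ((2 : ℕ) : ZMod (2 * 2)) = 2 := rfl
        simp only [phi]; rw [hv, pow_two, hx, h])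
    · intro h; exact hne (.xa ((3 : ℕ) : ZMod (2 * 2))) (by
        have hv : ZMod.val ((3 : ℕ) : ZMod (2 * 2)) = 3 := rfl
        simp only [phi]; rw [hv, pow_succ, pow_two, hx, h, ← hc x, mul_assoc])
  exact ⟨(MulEquiv.ofBijective Φ ⟨hinj, hsurj⟩).symm⟩

lemma sum_div_mul (a b : ℕ) (hab : a.Coprime b) (f : ℕ → ℕ) :
    ∑ m ∈ (a * b).divisors, f m = ∑ i ∈ a.divisors, ∑ j ∈ b.divisors, f (i * j) := by
  rw [← Finset.sum_product']
  symm
  apply Finset.sum_nbij (fun x : ℕ × ℕ => x.1 * x.2)
  · rintro ⟨i, j⟩ hx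
    simp only [Finset.mem_product, Nat.mem_divisors] at hx ⊢
    exact ⟨Nat.mul_dvd_mul hx.1.1 hx.2.1, mul_ne_zero hx.1.2 hx.2.2⟩
  · rintro ⟨i, j⟩ hx ⟨i', j'⟩ hx' h
    simp only [Finset.coe_product, Set.mem_prod, Finset.mem_coe, Nat.mem_divisors] at hx hx'
    simp only at h
    have hi : i = i' := by
      have h1 : Nat.gcd (i * j) a = i := by
        have c : Nat.Coprime j a := (Nat.Coprime.coprime_dvd_left hx.2.1 hab.symm)
        rw [Nat.Coprime.gcd_mul_right_cancel i c]
        exact Nat.gcd_eq_left hx.1.1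
      have h2 : Nat.gcd (i' * j') a = i' := by
        have c : Nat.Coprime j' a := (Nat.Coprime.coprime_dvd_left hx'.2.1 hab.symm)
        rw [Nat.Coprime.gcd_mul_right_cancel i' c]
        exact Nat.gcd_eq_left hx'.1.1
      rw [← h1, ← h2, h]
    have hj : j = j' := by
      subst hi
      have hi0 : 0 < i := Nat.pos_of_ne_zero (fun h0 => by
        rw [h0] at hx; exact hx.1.2 (zero_dvd_iff.mp hx.1.1))
      exact Nat.eq_of_mul_eq_mul_left hi0 h
    rw [hi, hj]
  · intro m hm
    simp only [Finset.coe_sort_coe, Finset.mem_coe, Nat.mem_divisors] at hm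
    obtain ⟨i, j, hi, hj, rfl⟩ := (Nat.dvd_mul).mp hm.1
    have ha0 : a ≠ 0 := left_ne_zero_of_mul hm.2
    have hb0 : b ≠ 0 := right_ne_zero_of_mul hm.2
    refine ⟨(i, j), ?_, rfl⟩
    simp [hi, hj, ha0, hb0]
  · intro _ _
    rfl


section main

variable {G : Type*} [Group G] [Finite G]

lemma uniq_of_cnt_one {m : ℕ} (h : cnt G m = 1) {a b : G} (ha : orderOf a = m) (hb : orderOf b = m) :
    a = b := by
  unfold cnt at h
  rw [Nat.card_eq_one_iff_unique] at h
  have := h.1.elim ⟨a, ha⟩ ⟨b, hb⟩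
  exact congrArg Subtype.val this

lemma exists_order_of_dvd {g : G} {m : ℕ} (hm : m ∣ orderOf g) : ∃ u : G, orderOf u = m :=
  ⟨g ^ (orderOf g / m), orderOf_pow_orderOf_div (orderOf_pos g).ne' hm⟩

lemma cnt_eq_zero_of_not_dvd {m : ℕ} (hm : ¬ m ∣ Nat.card G) : cnt G m = 0 := by
  by_contra h
  obtain ⟨g, rfl⟩ := (cnt_ne_zero_iff m).mp h
  exact hm (orderOf_dvd_natCard g)

/-- a type without multiplication -/
def Carrier (k : ℕ) : Type := Fin k

/-- The transport to `Type`. -/
lemma transport {p : ℕ} (hp : p.Prime) (hp2 : p ≠ 2) {P : Type*} [Group P] [Finite P]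
    (hP : IsPGroup p P) (hexp : Monoid.exponent P = p)
    (e : G ≃* Multiplicative (ZMod 2) × P) :
    ∃ (p : ℕ) (P : Type) (_ : Group P) (_ : Finite P), p.Prime ∧ p ≠ 2 ∧ IsPGroup p P ∧
      Monoid.exponent P = p ∧ Nonempty (G ≃* Multiplicative (ZMod 2) × P) := by
  let e0 : Carrier (Nat.card P) ≃ P := (Finite.equivFin P).symm
  let inst : Group (Carrier (Nat.card P)) := e0.group
  let e1 : Carrier (Nat.card P) ≃* P := e0.mulEquiv
  have hfin : Finite (Carrier (Nat.card P)) := Finite.of_equiv _ e0.symm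
  refine ⟨p, Carrier (Nat.card P), inst, hfin, hp, hp2, hP.of_equiv e1.symm, ?_, ?_⟩
  · rw [Monoid.exponent_eq_of_mulEquiv e1, hexp]
  · exact ⟨e.trans (MulEquiv.prodCongr (MulEquiv.refl _) e1.symm)⟩

/-- the `Z₂ × P` recognition -/
lemma z2_prod {t : G} (ht : orderOf t = 2) (hc : ∀ g, g * t = t * g) (P : Subgroup G)
    (hodd : Odd (Nat.card P)) (hcard : Nat.card G = 2 * Nat.card P) :
    Nonempty (G ≃* Multiplicative (ZMod 2) × P) := by
  classical
  have hd : ∀ a : Multiplicative (ZMod 2), a = 1 ∨ a = Multiplicative.ofAdd 1 := by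
    decide
  have htt : t * t = 1 := by
    rw [← pow_two, ← ht, pow_orderOf_eq_one]
  have hne : (Multiplicative.ofAdd (1 : ZMod 2)) ≠ 1 := by decide
  have h11 : (Multiplicative.ofAdd (1 : ZMod 2)) * Multiplicative.ofAdd (1 : ZMod 2) = 1 := by decide
  let ψ : Multiplicative (ZMod 2) →* G := MonoidHom.mk' (fun a => if a = 1 then 1 else t) (by
    intro a b
    rcases hd a with rfl | rfl <;> rcases hd b with rfl | rfl
    · simp
    · simp
    · simp
    · rw [h11]; simp [hne, htt])
  have hψ : ψ (Multiplicative.ofAdd 1) = t := by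
    change (if (Multiplicative.ofAdd (1 : ZMod 2)) = 1 then 1 else t) = t
    rw [if_neg hne]
  let Φ : Multiplicative (ZMod 2) × P →* G := MonoidHom.noncommCoprod ψ P.subtype (by
    intro a b
    rcases hd a with rfl | rfl
    · simp
    · rw [hψ]; exact (hc _).symm)
  have htP : t ∉ P := by
    intro h
    have : orderOf (⟨t, h⟩ : P) ∣ Nat.card P := orderOf_dvd_natCard _
    rw [Subgroup.orderOf_mk, ht] at this
    exact (Nat.not_even_iff_odd.mpr hodd) (even_iff_two_dvd.mpr this)
  have hinj : Function.Injective Φ := by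
    rw [injective_iff_map_eq_one]
    rintro ⟨a, b⟩ hab
    have hab' : ψ a * (b : G) = 1 := hab
    rcases hd a with rfl | rfl
    · rw [map_one, one_mul] at hab'
      ext
      · rfl
      · exact hab'
    · exfalso
      rw [hψ] at hab'
      apply htP
      have : t = (b : G)⁻¹ := eq_inv_of_mul_eq_one_left hab'
      rw [this]
      exact P.inv_mem b.2
  have hcardeq : Nat.card (Multiplicative (ZMod 2) × P) = Nat.card G := by
    rw [Nat.card_prod, hcard]
    congr 1
    simp [Nat.card_eq_fintype_card, ZMod.card]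
  have hbij : Function.Bijective Φ := (Nat.bijective_iff_injective_and_card Φ).mpr ⟨hinj, hcardeq⟩
  exact ⟨(MulEquiv.ofBijective Φ hbij).symm⟩

end main

/-- Let G be a finite group such that the numbers of elements of each order that occurs in G (the numbers #{g : o(g) = m}, m ranging over the element orders of G) take exactly two values, 1 and some n ≠ 1. Then either G is a p-group of exponent p and order at least 3 for some prime p, or G is the quaternion group of order 8, or G is cyclic of order 4, or G ≅ Z₂ × P for a p-group P of exponent p with p an odd prime. -/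
theorem result {G : Type*} [Group G] [Finite G] (n : ℕ) (hn : n ≠ 1) (h : ((fun m : ℕ => Nat.card {g : G // orderOf g = m}) '' Set.range (orderOf : G → ℕ)) = {1, n}) :
    (∃ p : ℕ, p.Prime ∧ IsPGroup p G ∧ 3 ≤ Nat.card G ∧ Monoid.exponent G = p) ∨
      Nonempty (G ≃* QuaternionGroup 2) ∨ (IsCyclic G ∧ Nat.card G = 4) ∨
      (∃ (p : ℕ) (P : Type) (_ : Group P) (_ : Finite P), p.Prime ∧ p ≠ 2 ∧ IsPGroup p P ∧ Monoid.exponent P = p ∧
        Nonempty (G ≃* Multiplicative (ZMod 2) × P)) := by
  classical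
  have hc0 : ∀ g : G, cnt G (orderOf g) = 1 ∨ cnt G (orderOf g) = n := by
    intro g
    have : (cnt G (orderOf g)) ∈ ((fun m : ℕ => Nat.card {g : G // orderOf g = m}) '' Set.range (orderOf : G → ℕ)) :=
      ⟨orderOf g, ⟨g, rfl⟩, rfl⟩
    rw [h] at this
    simpa using this
  have hnex : ∃ g : G, cnt G (orderOf g) = n := by
    have : n ∈ ((fun m : ℕ => Nat.card {g : G // orderOf g = m}) '' Set.range (orderOf : G → ℕ)) := by
      rw [h]; simp
    obtain ⟨m, ⟨g, rfl⟩, hm⟩ := this
    exact ⟨g, hm⟩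
  have hn0 : n ≠ 0 := by
    obtain ⟨g, hg⟩ := hnex
    rw [← hg]
    exact (cnt_ne_zero_iff _).mpr ⟨g, rfl⟩
  have hc1 : ∀ m, cnt G m = 0 ∨ cnt G m = 1 ∨ cnt G m = n := by
    intro m
    by_cases hm : cnt G m = 0
    · exact Or.inl hm
    · obtain ⟨g, rfl⟩ := (cnt_ne_zero_iff m).mp hm
      exact Or.inr (hc0 g)
  have hc3 : ∀ m, 3 ≤ m → cnt G m = 0 ∨ cnt G m = n := by
    intro m hm
    have hE := cnt_inv_even (G := G) m hm
    rcases hc1 m with h' | h' | h'
    · exact Or.inl h'
    · rw [h'] at hE; exact absurd hE (by decide)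
    · exact Or.inr h'
  by_cases hall : ∀ g : G, orderOf g ≤ 2
  · -- elementary abelian 2-group
    left
    have hord : ∀ g : G, g ≠ 1 → orderOf g = 2 := by
      intro g hg
      have h1 := hall g
      have h2 := orderOf_pos g
      have h3 : orderOf g ≠ 1 := fun h' => hg (orderOf_eq_one_iff.mp h')
      omega
    obtain ⟨g, hg⟩ := hnex
    have hg1 : g ≠ 1 := by
      rintro rfl
      rw [orderOf_one, cnt_one] at hg
      exact hn hg.symm
    have hc2 : cnt G 2 = n := by rw [← hord g hg1]; exact hg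
    have hall2 : ∀ x : G, x ^ 2 = 1 := by
      intro x
      by_cases hx : x = 1
      · rw [hx, one_pow]
      · rw [← hord x hx]; exact pow_orderOf_eq_one x
    have hcardG : Nat.card G = n + 1 := by
      have h5 := cnt_sum (G := G) 2 (by norm_num)
      rw [Nat.Prime.sum_divisors Nat.prime_two, hc2, cnt_one] at h5
      rw [← h5]
      exact (Nat.card_congr (Equiv.subtypeUnivEquiv hall2)).symm
    have hnt : Nontrivial G := by
      rw [← Finite.one_lt_card_iff_nontrivial]
      omega
    refine ⟨2, Nat.prime_two, ?_, ?_, ?_⟩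
    · intro x
      exact ⟨1, by rw [pow_one]; exact hall2 x⟩
    · omega
    · rw [Monoid.exponent_eq_prime_iff Nat.prime_two]
      exact hord
  push Not at hall
  obtain ⟨g0, hg0⟩ := hall
  have hnE : Even n := by
    have h1 := cnt_inv_even (G := G) (orderOf g0) hg0
    rcases hc0 g0 with h' | h'
    · rw [h'] at h1; exact absurd h1 (by decide)
    · rwa [h'] at h1
  have hc2 : 2 ∣ Nat.card G → cnt G 2 = 1 := by
    intro hd
    have h1 := dvd_sum (G := G) 2 hd
    rw [Nat.Prime.sum_divisors Nat.prime_two, cnt_one] at h1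
    rcases hc1 2 with h' | h' | h'
    · rw [h'] at h1; omega
    · exact h'
    · rw [h'] at h1
      obtain ⟨k, hk⟩ := hnE
      omega
  have hpn : ∀ p : ℕ, p.Prime → p ≠ 2 → p ∣ Nat.card G → cnt G p = n ∧ p ∣ n + 1 := by
    intro p hp hp2 hd
    have hp3 : 3 ≤ p := by
      have := hp.two_le
      omega
    have hne : cnt G p ≠ 0 := by
      have : Fact p.Prime := ⟨hp⟩
      obtain ⟨u, hu⟩ := exists_prime_orderOf_dvd_card' (G := G) p hd
      exact (cnt_ne_zero_iff p).mpr ⟨u, hu⟩
    have h1 : cnt G p = n := (hc3 p hp3).resolve_left hne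
    refine ⟨h1, ?_⟩
    have h2 := dvd_sum (G := G) p hd
    rw [Nat.Prime.sum_divisors hp, cnt_one, h1] at h2
    exact h2
  -- arithmetic
  have harith : ∀ p a b : ℕ, p.Prime → p ≠ 2 → p ∣ n + 1 → p ∣ a →
      (a + 1 = b * (n + 1) ∨ a + 2 = b * (n + 1)) → False := by
    intro p a b hp hp2 h1 h2 h3
    have h4 : p ∣ b * (n + 1) := Dvd.dvd.mul_left h1 b
    rcases h3 with h3 | h3
    · rw [← h3] at h4
      have := (Nat.dvd_add_right h2).mp h4
      exact hp.one_lt.ne' (Nat.dvd_one.mp this)
    · rw [← h3] at h4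
      have := (Nat.dvd_add_right h2).mp h4
      have h5 := (Nat.prime_dvd_prime_iff_eq hp Nat.prime_two).mp this
      exact hp2 h5
  have hsq : ∀ p : ℕ, p.Prime → p ≠ 2 → p ∣ Nat.card G → cnt G (p ^ 2) = 0 := by
    intro p hp hp2 hd
    by_cases hd2 : p ^ 2 ∣ Nat.card G
    · have h1 := dvd_sum (G := G) (p ^ 2) hd2
      rw [Nat.sum_divisors_prime_pow hp] at h1
      simp only [Finset.sum_range_succ, Finset.sum_range_zero, zero_add, pow_zero, pow_one, cnt_one] at h1
      obtain ⟨hcp, hpd⟩ := hpn p hp hp2 hd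
      rw [hcp] at h1
      have h3 : p ∣ 1 + n + cnt G (p ^ 2) := (dvd_pow_self p two_ne_zero).trans h1
      have h4 : 3 ≤ p ^ 2 := by
        have := hp.two_le
        nlinarith
      rcases hc3 (p ^ 2) h4 with h' | h'
      · exact h'
      · exfalso
        rw [h'] at h3
        exact harith p _ 2 hp hp2 hpd h3 (Or.inl (by ring))
    · exact cnt_eq_zero_of_not_dvd hd2
  have htwo : ∀ p q : ℕ, p.Prime → q.Prime → p ≠ 2 → q ≠ 2 → p ∣ Nat.card G → q ∣ Nat.card G → p = q := by
    intro p q hp hq hp2 hq2 hd hd'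
    by_contra hne
    have hcop : Nat.Coprime p q := (Nat.coprime_primes hp hq).mpr hne
    have hdpq : p * q ∣ Nat.card G := hcop.mul_dvd_of_dvd_of_dvd hd hd'
    have h1 := dvd_sum (G := G) (p * q) hdpq
    rw [sum_div_mul p q hcop, Nat.Prime.sum_divisors hp, Nat.Prime.sum_divisors hq,
      Nat.Prime.sum_divisors hq] at h1
    simp only [mul_one, one_mul, cnt_one] at h1
    obtain ⟨hcp, hpd⟩ := hpn p hp hp2 hd
    obtain ⟨hcq, _⟩ := hpn q hq hq2 hd'
    rw [hcp, hcq] at h1
    have h3 : p ∣ cnt G (p * q) + n + (n + 1) := (dvd_mul_right p q).trans h1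
    have h4 : 3 ≤ p * q := by
      have := hp.two_le
      have := hq.two_le
      have : 2 * 2 ≤ p * q := Nat.mul_le_mul hp.two_le hq.two_le
      omega
    rcases hc3 (p * q) h4 with h' | h'
    · rw [h'] at h3
      exact harith p _ 2 hp hp2 hpd h3 (Or.inl (by ring))
    · rw [h'] at h3
      exact harith p _ 3 hp hp2 hpd h3 (Or.inr (by ring))
  have h4' : ∀ p : ℕ, p.Prime → p ≠ 2 → p ∣ Nat.card G → ¬ 4 ∣ Nat.card G := by
    intro p hp hp2 hd h4d
    have h2d : 2 ∣ Nat.card G := Dvd.dvd.trans (by norm_num) h4d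
    have hc2' := hc2 h2d
    obtain ⟨hcp, hpd⟩ := hpn p hp hp2 hd
    have hcop : Nat.Coprime 4 p := by
      have : Nat.Coprime 2 p := (Nat.coprime_primes Nat.prime_two hp).mpr (Ne.symm hp2)
      have h22 : (4 : ℕ) = 2 ^ 2 := by norm_num
      rw [h22]
      exact this.pow_left 2
    have hcop2 : Nat.Coprime 2 p := (Nat.coprime_primes Nat.prime_two hp).mpr (Ne.symm hp2)
    have hdd := dvd_sum (G := G) 4 h4d
    have hdiv4 : ∀ f : ℕ → ℕ, ∑ m ∈ (4 : ℕ).divisors, f m = f 1 + (f 2 + f 4) := by
      intro f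
      rw [show (4 : ℕ).divisors = {1, 2, 4} by decide]
      simp
    rw [hdiv4, cnt_one, hc2'] at hdd
    have hc4 : cnt G 4 = n := by
      rcases hc3 4 (by norm_num) with h' | h'
      · rw [h'] at hdd; omega
      · exact h'
    -- element of order `2 p`
    obtain ⟨t, ht⟩ : ∃ t : G, orderOf t = 2 := by
      have : Fact (Nat.Prime 2) := ⟨Nat.prime_two⟩
      exact exists_prime_orderOf_dvd_card' 2 h2d
    have hcent : ∀ g : G, g * t = t * g := by
      intro g
      have h3 : orderOf (g * t * g⁻¹) = 2 := by rw [orderOf_conj', ht]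
      have h5 := uniq_of_cnt_one hc2' h3 ht
      calc g * t = g * t * g⁻¹ * g := by group
        _ = t * g := by rw [h5]
    obtain ⟨u, hu⟩ : ∃ u : G, orderOf u = p := by
      have : Fact p.Prime := ⟨hp⟩
      exact exists_prime_orderOf_dvd_card' p hd
    have hc2p : cnt G (2 * p) = n := by
      have h3 : orderOf (t * u) = 2 * p := by
        have hcomm : Commute t u := (hcent u).symm
        rw [hcomm.orderOf_mul_eq_mul_orderOf_of_coprime (by rw [ht, hu]; exact hcop2), ht, hu]
      have hne : cnt G (2 * p) ≠ 0 := (cnt_ne_zero_iff _).mpr ⟨t * u, h3⟩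
      refine (hc3 (2 * p) ?_).resolve_left hne
      have := hp.two_le
      omega
    have hdd2 := dvd_sum (G := G) (4 * p) (hcop.mul_dvd_of_dvd_of_dvd h4d hd)
    rw [sum_div_mul 4 p hcop, hdiv4] at hdd2
    simp only [Nat.Prime.sum_divisors hp, one_mul, mul_one, cnt_one, hc2', hc4, hc2p, hcp] at hdd2
    have h3 : p ∣ n + 1 + (n + 1 + (cnt G (4 * p) + n)) := (dvd_mul_left p 4).trans hdd2
    have h5 : 3 ≤ 4 * p := by
      have := hp.two_le
      omega
    rcases hc3 (4 * p) h5 with h' | h'
    · rw [h'] at h3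
      exact harith p _ 3 hp hp2 hpd h3 (Or.inl (by ring))
    · rw [h'] at h3
      exact harith p _ 4 hp hp2 hpd h3 (Or.inr (by ring))
  by_cases hexp : ∃ p : ℕ, p.Prime ∧ p ≠ 2 ∧ p ∣ Nat.card G
  · obtain ⟨p, hp, hp2, hd⟩ := hexp
    have hordp : ∀ g : G, (∃ k, orderOf g = p ^ k) → g = 1 ∨ orderOf g = p := by
      rintro g ⟨k, hk⟩
      rcases k with _ | _ | k
      · left; rw [pow_zero] at hk; exact orderOf_eq_one_iff.mp hk
      · right; rw [hk]; ring
      · exfalso
        have h1 : p ^ 2 ∣ orderOf g := by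
          rw [hk]; exact pow_dvd_pow p (by omega)
        obtain ⟨u, hu⟩ := exists_order_of_dvd h1
        exact (cnt_ne_zero_iff _).mpr ⟨u, hu⟩ (hsq p hp hp2 hd)
    by_cases h2d : 2 ∣ Nat.card G
    · right; right; right
      have hnot4 := h4' p hp hp2 hd
      have hcG : Nat.card G ≠ 0 := Nat.card_pos.ne'
      have hm : (Nat.card G) / p ^ (Nat.card G).factorization p = 2 := by
        set m := (Nat.card G) / p ^ (Nat.card G).factorization p with hmdef
        have hmul : p ^ (Nat.card G).factorization p * m = Nat.card G :=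
          Nat.ordProj_mul_ordCompl_eq_self _ _
        have hm0 : m ≠ 0 := by
          intro h0
          rw [h0, mul_zero] at hmul
          exact hcG hmul.symm
        have hnp : ¬ p ∣ m := Nat.not_dvd_ordCompl hp hcG
        have hall2 : ∀ {q : ℕ}, q.Prime → q ∣ m → q = 2 := by
          intro q hq hqd
          by_contra hq2
          have hqG : q ∣ Nat.card G := hqd.trans (Dvd.intro_left _ hmul)
          have := htwo p q hp hq hp2 hq2 hd hqG
          rw [← this] at hqd
          exact hnp hqd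
        have hpow := Nat.eq_prime_pow_of_unique_prime_dvd hm0 hall2
        set j := m.primeFactorsList.length
        have h2m : 2 ∣ m := by
          have h0 : Nat.Coprime 2 (p ^ (Nat.card G).factorization p) :=
            ((Nat.coprime_primes Nat.prime_two hp).mpr (Ne.symm hp2)).pow_right _
          rw [← hmul] at h2d
          exact h0.dvd_of_dvd_mul_left h2d
        have hj : j = 1 := by
          rcases j with _ | _ | j
          · rw [pow_zero] at hpow; rw [hpow] at h2m; omega
          · rfl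
          · exfalso
            apply hnot4
            have h4m : 4 ∣ m := by
              rw [hpow]
              exact pow_dvd_pow 2 (show 2 ≤ j + 1 + 1 by omega)
            exact h4m.trans (Dvd.intro_left _ hmul)
        rw [hpow, hj, pow_one]
      obtain P : Sylow p G := Inhabited.default
      have hcardP : Nat.card P = p ^ (Nat.card G).factorization p := by
        have : Fact p.Prime := ⟨hp⟩
        exact Sylow.card_eq_multiplicity P
      have hcardG : Nat.card G = 2 * Nat.card (P : Subgroup G) := by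
        have hmul : p ^ (Nat.card G).factorization p * ((Nat.card G) / p ^ (Nat.card G).factorization p) = Nat.card G :=
          Nat.ordProj_mul_ordCompl_eq_self _ _
        rw [hm] at hmul
        have : Nat.card (P : Subgroup G) = Nat.card P := rfl
        rw [this, hcardP, mul_comm]
        exact hmul.symm
      have hodd : Odd (Nat.card (P : Subgroup G)) := by
        have : Nat.card (P : Subgroup G) = Nat.card P := rfl
        rw [this, hcardP]
        exact (hp.odd_of_ne_two hp2).pow
      have hc2' := hc2 h2d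
      obtain ⟨t, ht⟩ : ∃ t : G, orderOf t = 2 := by
        have : Fact (Nat.Prime 2) := ⟨Nat.prime_two⟩
        exact exists_prime_orderOf_dvd_card' 2 h2d
      have hcent : ∀ g : G, g * t = t * g := by
        intro g
        have h3 : orderOf (g * t * g⁻¹) = 2 := by rw [orderOf_conj', ht]
        have h5 := uniq_of_cnt_one hc2' h3 ht
        calc g * t = g * t * g⁻¹ * g := by group
          _ = t * g := by rw [h5]
      obtain ⟨e⟩ := z2_prod ht hcent (P : Subgroup G) hodd hcardG
      have hPp : IsPGroup p (P : Subgroup G) := P.isPGroup'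
      have hv : (Nat.card G).factorization p ≠ 0 := by
        have hmul := Nat.Prime.factorization_pos_of_dvd hp Nat.card_pos.ne' hd
        omega
      have hntP : Nontrivial (P : Subgroup G) := by
        rw [← Finite.one_lt_card_iff_nontrivial]
        have : Nat.card (P : Subgroup G) = Nat.card P := rfl
        rw [this, hcardP]
        exact Nat.one_lt_pow hv hp.one_lt
      refine transport hp hp2 hPp ?_ e
      rw [Monoid.exponent_eq_prime_iff hp]
      intro g hg
      have hfact : Fact p.Prime := ⟨hp⟩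
      obtain ⟨k, hk⟩ := hPp.exists_card_eq
      have h6 : orderOf g ∣ p ^ k := hk ▸ orderOf_dvd_natCard g
      obtain ⟨j, _, hj⟩ := (Nat.dvd_prime_pow hp).mp h6
      have h7 := hordp (g : G) ⟨j, by rw [Subgroup.orderOf_coe]; exact hj⟩
      rcases h7 with h7 | h7
      · exact absurd (Subtype.ext h7) hg
      · rwa [Subgroup.orderOf_coe] at h7
    · left
      have hcard := Nat.eq_prime_pow_of_unique_prime_dvd (p := p) (Nat.card_pos.ne' : Nat.card G ≠ 0)
        (fun {q} hq hqd => by
          have hq2 : q ≠ 2 := by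
            rintro rfl
            exact h2d hqd
          exact htwo q p hq hp hq2 hp2 hqd hd)
      have hnt : Nontrivial G := by
        rw [← Finite.one_lt_card_iff_nontrivial]
        have := Nat.le_of_dvd Nat.card_pos hd
        have := hp.one_lt
        omega
      refine ⟨p, hp, IsPGroup.of_card hcard, ?_, ?_⟩
      · have h1 := Nat.le_of_dvd Nat.card_pos hd
        have h2 := hp.two_le
        omega
      · rw [Monoid.exponent_eq_prime_iff hp]
        intro g hg
        have h6 : orderOf g ∣ p ^ _ := hcard ▸ orderOf_dvd_natCard g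
        obtain ⟨j, _, hj⟩ := (Nat.dvd_prime_pow hp).mp h6
        exact (hordp g ⟨j, hj⟩).resolve_left hg
  · -- 2-group
    push Not at hexp
    right
    have hall2 : ∀ {q : ℕ}, q.Prime → q ∣ Nat.card G → q = 2 := by
      intro q hq hqd
      by_contra hq2
      exact hexp q hq hq2 hqd
    have hcard := Nat.eq_prime_pow_of_unique_prime_dvd (Nat.card_pos.ne' : Nat.card G ≠ 0) hall2
    have hord2 : ∀ g : G, ∃ j, orderOf g = 2 ^ j := by
      intro g
      have h6 : orderOf g ∣ 2 ^ _ := hcard ▸ orderOf_dvd_natCard g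
      obtain ⟨j, _, hj⟩ := (Nat.dvd_prime_pow Nat.prime_two).mp h6
      exact ⟨j, hj⟩
    have h4g0 : 4 ∣ orderOf g0 := by
      obtain ⟨j, hj⟩ := hord2 g0
      rw [hj] at hg0 ⊢
      rcases j with _ | _ | j
      · omega
      · omega
      · exact pow_dvd_pow 2 (show 2 ≤ j + 1 + 1 by omega)
    obtain ⟨x, hx⟩ := exists_order_of_dvd h4g0
    have h4d : 4 ∣ Nat.card G := hx ▸ orderOf_dvd_natCard x
    have h2d : 2 ∣ Nat.card G := Dvd.dvd.trans (by norm_num) h4d
    have hc2' := hc2 h2d
    have hc4 : cnt G 4 = n := (hc3 4 (by norm_num)).resolve_left ((cnt_ne_zero_iff 4).mpr ⟨x, hx⟩)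
    have hc8 : cnt G 8 = 0 := by
      by_cases h8 : 8 ∣ Nat.card G
      · have hdd := dvd_sum (G := G) 8 h8
        have hdiv8 : ∀ f : ℕ → ℕ, ∑ m ∈ (8 : ℕ).divisors, f m = f 1 + (f 2 + (f 4 + f 8)) := by
          intro f
          rw [show (8 : ℕ).divisors = {1, 2, 4, 8} by decide]
          simp
        rw [hdiv8, cnt_one, hc2', hc4] at hdd
        rcases hc3 8 (by norm_num) with h' | h'
        · exact h'
        · exfalso
          rw [h'] at hdd
          obtain ⟨k, hk⟩ := hnE
          omega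
      · exact cnt_eq_zero_of_not_dvd h8
    have ht2 : orderOf (x ^ 2) = 2 := by
      have h3 := orderOf_pow_orderOf_div (x := x) (n := 2) (orderOf_pos x).ne' (by rw [hx]; norm_num)
      rw [hx] at h3
      exact h3
    set t := x ^ 2 with htdef
    have ht1 : t ≠ 1 := by
      intro h'
      rw [h', orderOf_one] at ht2
      omega
    have htt : t * t = 1 := by
      rw [← pow_two, ← ht2, pow_orderOf_eq_one]
    have hcent : ∀ g : G, g * t = t * g := by
      intro g
      have h3 : orderOf (g * t * g⁻¹) = 2 := by rw [orderOf_conj', ht2]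
      have h5 := uniq_of_cnt_one hc2' h3 ht2
      calc g * t = g * t * g⁻¹ * g := by group
        _ = t * g := by rw [h5]
    have hH1 : ∀ g : G, g = 1 ∨ g = t ∨ g * g = t := by
      intro g
      obtain ⟨j, hj⟩ := hord2 g
      rcases j with _ | _ | _ | j
      · left; rw [pow_zero] at hj; exact orderOf_eq_one_iff.mp hj
      · right; left
        exact uniq_of_cnt_one hc2' (by rw [hj]; norm_num) ht2
      · right; right
        have h3 := orderOf_pow_orderOf_div (x := g) (n := 2) (orderOf_pos g).ne' (by rw [hj]; norm_num)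
        rw [hj] at h3
        have h5 : orderOf (g ^ 2) = 2 := h3
        rw [← pow_two]
        exact uniq_of_cnt_one hc2' h5 ht2
      · exfalso
        have h8 : 8 ∣ orderOf g := by
          rw [hj]
          exact pow_dvd_pow 2 (show 3 ≤ j + 1 + 1 + 1 by omega)
        obtain ⟨u, hu⟩ := exists_order_of_dvd h8
        exact (cnt_ne_zero_iff _).mpr ⟨u, hu⟩ hc8
    have hxx : x * x = t := by rw [htdef, pow_two]
    by_cases hcover : ∀ y : G, y = 1 ∨ y = t ∨ y = x ∨ y = x * t
    · right; left
      have hmem : ∀ y : G, y ∈ Subgroup.zpowers x := by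
        intro y
        have ht3 : t ∈ Subgroup.zpowers x := Subgroup.npow_mem_zpowers x 2
        rcases hcover y with rfl | rfl | rfl | rfl
        · exact Subgroup.one_mem _
        · exact ht3
        · exact Subgroup.mem_zpowers _
        · exact Subgroup.mul_mem _ (Subgroup.mem_zpowers _) ht3
      have hcardx := orderOf_eq_card_of_forall_mem_zpowers hmem
      refine ⟨isCyclic_of_orderOf_eq_card x hcardx, ?_⟩
      rw [← hcardx, hx]
    · left
      push Not at hcover
      obtain ⟨y, hy1, hyt, hyx, hyxt⟩ := hcover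
      exact q8_equiv hH1 ht1 htt hcent hxx hy1 hyt hyx hyxt

end Cfsg.Agent.S3995
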