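import Mathlib
-- Template for statement S0914 (row 914; see /opt/grader/pristine/manifest.json for weights).
-- Copy to Cfsg/Agent/S0914.lean and replace the sorry. The statement below is byte-identical to the frozen
-- statement Cfsg.CfsgFrozen.S0914 (Cfsg/Statements/S0914.lean; the theorem Cfsg.defect_zero_iff_singleton_block);
-- the grader kernel-checks Cfsg.Agent.S0914.result against that frozen type. Keep the theorem IN THIS FILE
-- (a `result` declared elsewhere and merely imported here is not credited); helpers may live anywhere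
-- under Cfsg/Agent/.
import Cfsg.Statements.S0914
import Cfsg.Agent.Lib.BlockOrtho
import Cfsg.Agent.Lib.BlkOrth

set_option autoImplicit false
open Cfsg

namespace Cfsg.Agent.S0914

open Cfsg Cfsg.Agent.Lib.BlockOrtho Cfsg.Agent.Lib.CharKernel Cfsg.Agent.Lib.CharBasic

/-- Let χ be an irreducible character of the finite group G, p a prime and M a maximal ideal of the algebraic integers containing p. Then p does not divide the integer (Nat.card G) / χ(1) if and only if the block of χ relative to M consists of χ alone. -/
theorem result {G : Type*} [Group G] [Finite G] (p : ℕ) [Fact p.Prime] (M : Ideal Cfsg.AlgInt) (hM : Cfsg.IsPModular p M) (χ : Cfsg.IrrCharacter G) : ¬ p ∣ Nat.card G / Cfsg.charDegree (χ : G → ℂ) ↔ Cfsg.blockOf M (χ : G → ℂ) = {χ} := by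
  classical
  letI := Fintype.ofFinite G
  haveI := hM.2.1.isPrime
  have hp : p.Prime := hM.1
  have hdvd := charDegree_dvd_card χ.2
  have hcard : Nat.card G ≠ 0 := Nat.card_pos.ne'
  have hdeg : charDegree (χ : G → ℂ) ≠ 0 := charDegree_ne_zero χ.2
  have key : ¬ p ∣ Nat.card G / charDegree (χ : G → ℂ) ↔ p ^ (Nat.card G).factorization p ∣ charDegree (χ : G → ℂ) := by
    obtain ⟨k, hk⟩ := hdvd
    have hkne : k ≠ 0 := by
      rintro rfl
      simp at hk
    rw [hk, Nat.mul_div_cancel_left _ (Nat.pos_of_ne_zero hdeg), Nat.factorization_mul hdeg hkne]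
    simp only [Finsupp.coe_add, Pi.add_apply]
    constructor
    · intro h
      have h0 : k.factorization p = 0 := Nat.factorization_eq_zero_of_not_dvd h
      rw [h0, add_zero]
      exact Nat.ordProj_dvd _ _
    · intro h hk2
      have h1 := (hp.pow_dvd_iff_le_factorization hdeg).mp h
      have h2 : k.factorization p ≠ 0 := by
        intro h3
        rw [Nat.factorization_eq_zero_iff] at h3
        rcases h3 with h3 | h3 | h3
        · exact h3 hp
        · exact h3 hk2
        · exact hkne h3
      omega
  rw [key]
  constructor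
  · intro h
    ext ψ
    simp only [Set.mem_singleton_iff]
    constructor
    · exact fun hψ => eq_of_mem_blockOf_of_dvd hM h hψ
    · rintro rfl
      exact Cfsg.Agent.Lib.BlockIdem.mem_blockOf_self ψ
  · intro h
    refine dvd_charDegree_of_vanish hp (IsIrrCharacter.isCharacter χ.2) ?_
    intro g hg
    have hB : IsPBlock M (blockOf M (χ : G → ℂ)) := ⟨χ, rfl⟩
    have h1 := Cfsg.Agent.Lib.BlkOrth.block_orth_weak hM hB (x := 1) (y := g) (by
      rw [orderOf_one]
      exact fun h1 => hp.one_lt.ne' (Nat.dvd_one.mp h1)) hg
    rw [h, finsum_mem_singleton] at h1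
    have h2 : (χ : G → ℂ) 1 ≠ 0 := Cfsg.Agent.Lib.BlockIdem.irr_one_ne_zero' χ.2
    have h3 := (mul_eq_zero.mp h1).resolve_left h2
    simpa using h3

end Cfsg.Agent.S0914
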