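import Mathlib
-- Template for statement S0955 (row 955; see /opt/grader/pristine/manifest.json for weights).
-- Copy to Cfsg/Agent/S0955.lean and replace the sorry. The statement below is byte-identical to the frozen
-- statement Cfsg.CfsgFrozen.S0955 (Cfsg/Statements/S0955.lean; the theorem Cfsg.defect_group_eq_pcore_normalizer);
-- the grader kernel-checks Cfsg.Agent.S0955.result against that frozen type. Keep the theorem IN THIS FILE
-- (a `result` declared elsewhere and merely imported here is not credited); helpers may live anywhere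
-- under Cfsg/Agent/.
import Cfsg.Statements.S0955
import Cfsg.Agent.Lib.BlkFirst

set_option autoImplicit false
open Cfsg

namespace Cfsg.Agent.S0955

open Cfsg.Agent.Lib.BlkBrauer Cfsg.Agent.Lib.BlockLocal Cfsg.Agent.Lib.BlockDefect Cfsg.Agent.Lib.BlkSylow Cfsg.Agent.Lib.BlockIdem Cfsg.Agent.Lib.BlkFirst

/-- Let D be a defect group of a block of the finite group G relative to a maximal ideal M of the algebraic integers containing the prime p. Then D is the largest normal p-subgroup of its own normalizer: O_p(N_G(D)) = D. -/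
theorem result {G : Type*} [Group G] [Finite G] (p : ℕ) [Fact p.Prime] (M : Ideal Cfsg.AlgInt) (hM : Cfsg.IsPModular p M) (B : Set (Cfsg.IrrCharacter G)) (hB : Cfsg.IsPBlock M B) (D : Subgroup G) (hD : Cfsg.IsDefectGroup p M B D) : (Cfsg.pCore p (Subgroup.normalizer (D : Set G))).map (Subgroup.normalizer (D : Set G)).subtype = D := by
  classical
  letI := Fintype.ofFinite G
  haveI := hM.2.1.isPrime
  set N := Subgroup.normalizer (D : Set G) with hN
  letI : Fintype N := Fintype.ofFinite _
  have hDN : D ≤ N := Subgroup.le_normalizer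
  have hCN : Subgroup.centralizer (D : Set G) ≤ N := Subgroup.centralizer_le_normalizer _
  have hDp : IsPGroup p D := by
    obtain ⟨g, -, S, rfl⟩ := hD
    exact (isSylowIn_of_sylow S).1
  have hle : D ≤ (Cfsg.pCore p N).map N.subtype := by
    intro u hu
    refine ⟨⟨u, hDN hu⟩, ?_, rfl⟩
    exact Cfsg.Agent.Lib.PCore.le_pCore (normal_subgroupOf hDN le_rfl)
      (IsPGroup.comap_of_injective hDp N.subtype N.subtype_injective)
      (by simpa [Subgroup.mem_subgroupOf] using hu)
  symm
  apply Subgroup.eq_of_le_of_card_ge hle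
  obtain ⟨y, hy, S, hS⟩ := id hD
  have hSyl : IsSylowIn p D (Subgroup.centralizer ({y} : Set G)) := by
    have := isSylowIn_of_sylow S
    rwa [← hS] at this
  obtain ⟨ξ, hξ⟩ := exists_irr_of_isDefectGroup hM hDN hCN le_rfl hB hD
  obtain ⟨χ, hχB⟩ := id hB
  have hχ : χ ∈ B := mem_self_of_block hχB
  have h1 := brauer_sub_central_of_lam hM hDp hCN le_rfl ξ hB hξ hχ y
  have h2 : ¬ MemLocalIdeal M (brauerCentralChar D N (ξ : N → ℂ) y) := fun h => hy.2.2 χ hχ (by
    have := memLocalIdeal_sub h h1
    rwa [sub_sub_cancel] at this)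
  obtain ⟨u, hu, huC, hu2⟩ := exists_of_brauerCentralChar le_rfl ξ h2
  set Q := Cfsg.pCore p N with hQ
  letI : Fintype Q := Fintype.ofFinite _
  haveI hQn : Q.Normal := Cfsg.Agent.Lib.PCore.pCore_normal p
  have hQp : IsPGroup p Q := Cfsg.Agent.Lib.PCore.isPGroup_pCore p
  have huQ : u ∈ Subgroup.centralizer (Q : Set N) := by
    by_contra hcon
    exact hu2 (Cfsg.Agent.Lib.BlockNormal.memLocalIdeal_centralChar_of_not_mem Q hQp hM ξ u hcon)
  have hQC : Q.map N.subtype ≤ Subgroup.centralizer ({(u : G)} : Set G) := by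
    rintro _ ⟨w, hw, rfl⟩
    rw [Subgroup.mem_centralizer_singleton_iff]
    exact congrArg Subtype.val (Subgroup.mem_centralizer_iff.mp huQ w hw)
  obtain ⟨c, hc⟩ := isConj_iff.mp hu
  have hSyl2 := isSylowIn_centralizer_conj (u := c) hSyl
  rw [hc] at hSyl2
  obtain ⟨w, hw, h3⟩ := exists_conj_ge_of_isSylowIn hSyl2 (hQp.map N.subtype) hQC
  have h4 := Subgroup.card_dvd_of_le h3
  rw [card_map_conj, card_map_conj] at h4
  exact Nat.le_of_dvd Nat.card_pos h4

end Cfsg.Agent.S0955
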