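import Mathlib
import Cfsg.Statements.S1012
import Cfsg.Agent.Lib.SmallGroups2
-- import your own Cfsg.Agent.* helpers here

set_option autoImplicit false
open Cfsg

namespace Cfsg.Agent.S1012

theorem order_six_of_commute {G : Type*} [Group G] {x y : G} (hc : Commute x y) (hx : orderOf x = 3) (hy : orderOf y = 2) :
    orderOf (x * y) = 6 := by
  have : orderOf (x * y) = orderOf x * orderOf y := hc.orderOf_mul_eq_mul_orderOf_of_coprime (by rw [hx, hy]; norm_num)
  rw [this, hx, hy]


/-- A group of order 24 containing no element of order 6 is isomorphic to the symmetric group of degree 4. -/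
theorem result {G : Type*} [Group G] [Finite G] (h : Nat.card G = 24) (h6 : ∀ g : G, orderOf g ≠ 6) : Nonempty (G ≃* Equiv.Perm (Fin 4)) := by
  classical
  haveI hf3 : Fact (Nat.Prime 3) := ⟨by norm_num⟩
  haveI hf2 : Fact (Nat.Prime 2) := ⟨Nat.prime_two⟩
  have h' : Nat.card G = 3 ^ 1 * 8 := by rw [h]; norm_num
  obtain ⟨P⟩ := (inferInstance : Nonempty (Sylow 3 G))
  have hPc : Nat.card (P : Subgroup G) = 3 := by
    rw [Cfsg.Agent.Lib.SmallGroups2.sylow_card_of_card_eq h' (by norm_num) P]; norm_num
  -- a generator of P
  obtain ⟨x, hxP, hx⟩ : ∃ x ∈ (P : Subgroup G), orderOf x = 3 := by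
    obtain ⟨x, hx⟩ := exists_prime_orderOf_dvd_card' (G := ↥(P : Subgroup G)) 3 (by rw [hPc])
    exact ⟨x.1, x.2, by rw [← Subgroup.orderOf_coe] at hx; exact hx⟩
  -- no element commuting with x has order 2
  have hno : ∀ y : G, orderOf y = 2 → ¬ Commute x y := by
    intro y hy hc
    exact h6 _ (order_six_of_commute hc hx hy)
  have hcount : Nat.card (Sylow 3 G) ∈ (Nat.divisors 8).filter (fun n => n % 3 = 1 % 3) :=
    Cfsg.Agent.Lib.SmallGroups2.card_sylow_mem_filter h' (by norm_num) (by norm_num)
  have hfilter : (Nat.divisors 8).filter (fun n => n % 3 = 1 % 3) = {1, 4} := by decide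
  rw [hfilter] at hcount
  simp only [Finset.mem_insert, Finset.mem_singleton] at hcount
  -- the normalizer has order 24 / n
  have hN := Cfsg.Agent.Lib.SmallGroups2.card_normalizer_mul_card_sylow P
  rcases hcount with h1 | h4
  · -- P normal
    exfalso
    have hs : Subsingleton (Sylow 3 G) := (Nat.card_eq_one_iff_unique.1 h1).1
    have hnorm : (P : Subgroup G).Normal := Sylow.normal_of_subsingleton P
    have hNtop : Subgroup.normalizer ((P : Subgroup G) : Set G) = ⊤ := Subgroup.normalizer_eq_top_iff.2 hnorm
    have hrel := Cfsg.Agent.Lib.SmallGroups2.relIndex_dvd_of_prime_card P hPc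
    rw [hNtop] at hrel
    -- centralizer has index ≤ 2 so has even order
    have hidx : (Subgroup.centralizer ((P : Subgroup G) : Set G)).relIndex ⊤ ∣ 2 := hrel
    rw [Subgroup.relIndex_top_right] at hidx
    have hmul := Subgroup.card_mul_index (Subgroup.centralizer ((P : Subgroup G) : Set G))
    have h2C : 2 ∣ Nat.card (Subgroup.centralizer ((P : Subgroup G) : Set G)) := by
      rw [h] at hmul
      obtain ⟨c, hc⟩ := hidx
      have hi : (Subgroup.centralizer ((P : Subgroup G) : Set G)).index = 1 ∨ (Subgroup.centralizer ((P : Subgroup G) : Set G)).index = 2 :=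
        (Nat.dvd_prime Nat.prime_two).1 ⟨c, hc⟩
      rcases hi with hi | hi <;> rw [hi] at hmul <;> omega
    obtain ⟨y, hy⟩ := exists_prime_orderOf_dvd_card' (G := ↥(Subgroup.centralizer ((P : Subgroup G) : Set G))) 2 h2C
    have hy' : orderOf (y : G) = 2 := by rw [Subgroup.orderOf_coe]; exact hy
    apply hno y hy'
    have := (Subgroup.mem_centralizer_iff.1 y.2) x hxP
    exact this
  · -- the action on the four Sylow subgroups
    have hNc : Nat.card (Subgroup.normalizer ((P : Subgroup G) : Set G)) = 6 := by
      rw [h4, h] at hN; omega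
    let φ : G →* Equiv.Perm (Sylow 3 G) := MulAction.toPermHom G (Sylow 3 G)
    have hkerN : ∀ g, g ∈ φ.ker → ∀ Q : Sylow 3 G, g ∈ Subgroup.normalizer ((Q : Subgroup G) : Set G) := by
      intro g hg Q
      have hgQ : g • Q = Q := by
        have : φ g = 1 := hg
        exact congrArg (fun e : Equiv.Perm (Sylow 3 G) => e Q) this
      exact Sylow.smul_eq_iff_mem_normalizer.1 hgQ
    -- no nontrivial element of P lies in the kernel
    have hnoP : ∀ u ∈ (P : Subgroup G), u ∈ φ.ker → u = 1 := by
      intro u huP huK
      by_contra hne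
      have hgen : Subgroup.zpowers u = (P : Subgroup G) := by
        have hle : Subgroup.zpowers u ≤ (P : Subgroup G) := by
          rw [Subgroup.zpowers_le]; exact huP
        apply Subgroup.eq_of_le_of_card_ge hle
        rw [hPc, Nat.card_zpowers]
        have hd : orderOf u ∣ 3 := by
          have := Subgroup.orderOf_dvd_natCard (P : Subgroup G) huP
          rwa [hPc] at this
        rcases (Nat.dvd_prime (by norm_num : Nat.Prime 3)).1 hd with h5 | h5
        · exact absurd (orderOf_eq_one_iff.1 h5) hne
        · omega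
      have hPle : (P : Subgroup G) ≤ φ.ker := by
        rw [← hgen, Subgroup.zpowers_le]; exact huK
      have hall : ∀ Q : Sylow 3 G, Q = P := by
        intro Q
        apply Cfsg.Agent.Lib.SmallGroups2.sylow_eq_of_le_normalizer
        intro v hv
        exact hkerN v (Cfsg.Agent.Lib.SmallGroups2.sylow_le_of_normal hPle hv) P
      have : Subsingleton (Sylow 3 G) := ⟨fun a b => by rw [hall a, hall b]⟩
      have := Nat.card_of_subsingleton P
      omega
    have hker : φ.ker = ⊥ := by
      rw [eq_bot_iff]
      intro g hg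
      by_contra hne
      have hne' : g ≠ 1 := hne
      obtain ⟨q, hq, hqd⟩ := Nat.exists_prime_and_dvd (n := orderOf g) (by
        intro h1; exact hne' (orderOf_eq_one_iff.1 h1))
      have hgN : g ∈ Subgroup.normalizer ((P : Subgroup G) : Set G) := hkerN g hg P
      have hod : orderOf g ∣ 6 := by
        have := Subgroup.orderOf_dvd_natCard (Subgroup.normalizer ((P : Subgroup G) : Set G)) hgN
        rwa [hNc] at this
      have hq23 : q = 2 ∨ q = 3 := by
        have hq6 : q ∣ 6 := hqd.trans hod
        have : q ∣ 2 * 3 := hq6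
        rcases (Nat.Prime.dvd_mul hq).1 this with h5 | h5
        · left; exact (Nat.prime_dvd_prime_iff_eq hq Nat.prime_two).1 h5
        · right; exact (Nat.prime_dvd_prime_iff_eq hq (by norm_num)).1 h5
      set w := g ^ (orderOf g / q) with hw
      have hwker : w ∈ φ.ker := Subgroup.pow_mem _ hg _
      have hword : orderOf w = q := by
        rw [hw]
        exact orderOf_pow_orderOf_div (orderOf_pos g).ne' hqd
      rcases hq23 with rfl | rfl
      · -- w has order 2, normalizes P; [w,x] ∈ ker ∩ P = 1
        apply hno w hword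
        have h1 : w * x * w⁻¹ ∈ (P : Subgroup G) := by
          have := hkerN w hwker P
          exact (Subgroup.mem_normalizer_iff.1 this x).1 hxP
        have h2 : w * x * w⁻¹ * x⁻¹ ∈ (P : Subgroup G) := Subgroup.mul_mem _ h1 (Subgroup.inv_mem _ hxP)
        have h3 : w * (x * w⁻¹ * x⁻¹) ∈ φ.ker := by
          refine Subgroup.mul_mem _ hwker ?_
          exact (inferInstance : φ.ker.Normal).conj_mem _ (Subgroup.inv_mem _ hwker) x
        have h3' : w * x * w⁻¹ * x⁻¹ ∈ φ.ker := by
          have : w * x * w⁻¹ * x⁻¹ = w * (x * w⁻¹ * x⁻¹) := by group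
          rw [this]; exact h3
        have h4' : w * x * w⁻¹ * x⁻¹ = 1 := hnoP _ h2 h3'
        have : w * x = x * w := by
          calc w * x = (w * x * w⁻¹ * x⁻¹) * (x * w) := by group
            _ = x * w := by rw [h4', one_mul]
        exact this.symm
      · -- w has order 3 and lies in the kernel, which lies in the normalizer of P, so w ∈ P
        have hwN := hkerN w hwker P
        have hpg : IsPGroup 3 (Subgroup.zpowers w) := by
          rw [IsPGroup.iff_card, Nat.card_zpowers, hword]
          exact ⟨1, by norm_num⟩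
        have hle : Subgroup.zpowers w ≤ Subgroup.normalizer ((P : Subgroup G) : Set G) := by
          rw [Subgroup.zpowers_le]; exact hwN
        have h5 := hpg.inf_normalizer_sylow P
        have h6' : w ∈ Subgroup.zpowers w ⊓ (P : Subgroup G) := by
          rw [← h5]
          exact ⟨Subgroup.mem_zpowers w, hwN⟩
        have h7 := hnoP w h6'.2 hwker
        rw [h7, orderOf_one] at hword
        omega
    have hinj : Function.Injective φ := (MonoidHom.ker_eq_bot_iff φ).1 hker
    have hcardPerm : Nat.card (Equiv.Perm (Sylow 3 G)) = 24 := by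
      haveI : Fintype (Sylow 3 G) := Fintype.ofFinite _
      rw [Nat.card_eq_fintype_card, Fintype.card_perm, ← Nat.card_eq_fintype_card, h4]
      decide
    have hsurj : Function.Surjective φ := by
      have hb : Function.Bijective φ := (Nat.bijective_iff_injective_and_card φ).2 ⟨hinj, by rw [h, hcardPerm]⟩
      exact hb.2
    have e : Sylow 3 G ≃ Fin 4 := Finite.equivFinOfCardEq h4
    exact ⟨(MulEquiv.ofBijective φ ⟨hinj, hsurj⟩).trans (Equiv.permCongrHom e)⟩

end Cfsg.Agent.S1012
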