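import Mathlib
import Cfsg.Statements.S0055

set_option autoImplicit false
open Cfsg
open scoped IsMulCommutative commutatorElement

namespace Cfsg.Agent.S0055

/-- If A normalises an abelian subgroup V of coprime order, then V is the internal direct product of its A-fixed points and its commutator with A: the two meet trivially and generate V. -/
theorem result {G : Type*} [Group G] [Finite G] (A V : Subgroup G) [IsMulCommutative V]
    (hAV : A ≤ Subgroup.normalizer (V : Set G)) (hcop : (Nat.card A).Coprime (Nat.card V)) :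
    (V ⊓ Subgroup.centralizer (A : Set G)) ⊓ ⁅V, A⁆ = ⊥ ∧ (V ⊓ Subgroup.centralizer (A : Set G)) ⊔ ⁅V, A⁆ = V := by
  classical
  letI : Fintype A := Fintype.ofFinite A
  have hconj : ∀ a ∈ A, ∀ v ∈ V, a * v * a⁻¹ ∈ V := by
    intro a ha v hv
    have := (Subgroup.mem_normalizer_iff.mp (hAV ha) v).mp hv
    exact this
  let c : A → V → V := fun a v => ⟨a * v * (a : G)⁻¹, hconj a a.2 v v.2⟩
  have hcv : ∀ a v, ((c a v : V) : G) = a * v * (a : G)⁻¹ := fun a v => rfl
  let N : V → V := fun v => ∏ a : A, c a v
  have hNcoe : ∀ v, ((N v : V) : G) = ((∏ a : A, c a v : V) : G) := fun v => rfl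
  -- N is a hom
  have hcmul : ∀ a v w, c a (v * w) = c a v * c a w := by
    intro a v w
    apply Subtype.ext
    change (a : G) * ((v : G) * w) * (a : G)⁻¹ = _ * _
    simp only [hcv]
    group
  have hNmul : ∀ v w, N (v * w) = N v * N w := by
    intro v w
    simp only [N, hcmul, Finset.prod_mul_distrib]
  have hcc : ∀ a b v, c a (c b v) = c (a * b) v := by
    intro a b v
    apply Subtype.ext
    simp only [hcv]
    change (a : G) * ((b : G) * v * (b : G)⁻¹) * (a : G)⁻¹ = (a * b : G) * v * ((a * b : G))⁻¹
    group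
  have hNfix : ∀ b v, c b (N v) = N v := by
    intro b v
    have hmap : ∀ (s : Finset A) (w : A → V), c b (∏ a ∈ s, w a) = ∏ a ∈ s, c b (w a) := by
      intro s w
      induction s using Finset.induction_on with
      | empty =>
        apply Subtype.ext
        simp [hcv]
      | insert x s hx ih =>
        rw [Finset.prod_insert hx, Finset.prod_insert hx, hcmul, ih]
    simp only [N]
    rw [hmap]
    simp only [hcc]
    exact Fintype.prod_equiv (Equiv.mulLeft b) _ _ (fun _ => rfl)
  have hNc : ∀ b v, N (c b v) = N v := by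
    intro b v
    simp only [N, hcc]
    exact Fintype.prod_equiv (Equiv.mulRight b) _ _ (fun _ => rfl)
  -- fixed elements
  have hNC : ∀ v : V, (∀ a : A, c a v = v) → N v = v ^ Nat.card A := by
    intro v hv
    simp only [N, hv, Finset.prod_const, Finset.card_univ, Nat.card_eq_fintype_card]
  -- commutator
  have hcomm : ∀ (v : V), v ^ Nat.card A * (N v)⁻¹ = ∏ a : A, (v * (c a v)⁻¹) := by
    intro v
    rw [Finset.prod_mul_distrib, Finset.prod_inv_distrib, Finset.prod_const, Finset.card_univ,
      Nat.card_eq_fintype_card]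
  have hcommcoe : ∀ (v : V) (a : A), (((v * (c a v)⁻¹ : V) : G)) = ⁅(v : G), (a : G)⁆ := by
    intro v a
    rw [commutatorElement_def]
    change (v : G) * ((a : G) * v * (a : G)⁻¹)⁻¹ = _
    group
  have hle : ⁅V, A⁆ ≤ V := by
    rw [Subgroup.commutator_le]
    intro v hv a ha
    rw [commutatorElement_def]
    have : v * a * v⁻¹ * a⁻¹ = v * (a * v⁻¹ * a⁻¹) := by group
    rw [this]
    exact V.mul_mem hv (hconj a ha _ (V.inv_mem hv))
  let Nh : V →* V := MonoidHom.mk' N hNmul
  have hcopV : (Nat.card V).Coprime (Nat.card A) := hcop.symm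
  have hpinj : Function.Injective (powCoprime hcopV) := (powCoprime hcopV).injective
  have hpsurj : Function.Surjective (powCoprime hcopV) := (powCoprime hcopV).surjective
  constructor
  · rw [eq_bot_iff]
    intro x hx
    obtain ⟨hx1, hx2⟩ := Subgroup.mem_inf.mp hx
    obtain ⟨hxV, hxC⟩ := Subgroup.mem_inf.mp hx1
    rw [Subgroup.mem_bot]
    -- commutators are killed by N
    have hker : ⁅V, A⁆ ≤ (Nh.ker).map V.subtype := by
      rw [Subgroup.commutator_le]
      intro v hv a ha
      refine ⟨(⟨v, hv⟩ : V) * (c ⟨a, ha⟩ ⟨v, hv⟩)⁻¹, ?_, ?_⟩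
      · change Nh _ = 1
        rw [map_mul, map_inv]
        change N _ * (N _)⁻¹ = 1
        rw [hNc, mul_inv_cancel]
      · exact hcommcoe ⟨v, hv⟩ ⟨a, ha⟩
    obtain ⟨y, hy, hyx⟩ := hker hx2
    have hyx' : (y : G) = x := hyx
    have hyfix : ∀ a : A, c a y = y := by
      intro a
      apply Subtype.ext
      rw [hcv, hyx']
      have := Subgroup.mem_centralizer_iff.mp hxC a a.2
      rw [this]
      group
    have h1 := hNC y hyfix
    have h2 : N y = 1 := hy
    rw [h2] at h1
    have h3 : y = 1 := by
      apply hpinj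
      simp only [powCoprime_apply]
      rw [← h1, one_pow]
    rw [← hyx', h3]
    rfl
  · apply le_antisymm (sup_le inf_le_left hle)
    intro v hv
    obtain ⟨w, hw⟩ := hpsurj ⟨v, hv⟩
    have hv2 : v = ((w ^ Nat.card A : V) : G) := by
      have := congrArg Subtype.val hw
      simp only [powCoprime_apply] at this
      exact this.symm
    have hsplit : w ^ Nat.card A = N w * (w ^ Nat.card A * (N w)⁻¹) := by
      rw [mul_comm (w ^ Nat.card A), mul_inv_cancel_left]
    rw [hv2, hsplit]
    apply Subgroup.mul_mem_sup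
    · refine Subgroup.mem_inf.mpr ⟨(N w).2, ?_⟩
      rw [Subgroup.mem_centralizer_iff]
      intro a ha
      have h1 := congrArg Subtype.val (hNfix ⟨a, ha⟩ w)
      rw [hcv] at h1
      calc a * ((N w : V) : G) = a * ((N w : V) : G) * a⁻¹ * a := by group
        _ = ((N w : V) : G) * a := by rw [h1]
    · rw [hcomm]
      have hsub : ∏ a : A, (w * (c a w)⁻¹) ∈ (⁅V, A⁆ : Subgroup G).subgroupOf V := by
        apply Subgroup.prod_mem
        intro a _
        rw [Subgroup.mem_subgroupOf, hcommcoe]
        exact Subgroup.commutator_mem_commutator w.2 a.2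
      exact Subgroup.mem_subgroupOf.mp hsub

end Cfsg.Agent.S0055
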