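import Mathlib
import Cfsg.Statements.S3927
import Cfsg.Agent.Lib.EngelIter

set_option autoImplicit false
open Cfsg
open Cfsg.Agent.Lib.EngelIter

namespace Cfsg.Agent.S3927

/-- Let G be a finite group and α an automorphism of G with [G, α] = G, that is, the elements g·α(g)⁻¹ generate G. Then for every k ≥ 1 the iterated commutators [g, α, …, α] with k entries α — the values of the k-th iterate of the map c ↦ c·α(c)⁻¹ — also generate G. -/
theorem result {G : Type*} [Group G] [Finite G] (α : MulAut G) (hG : Subgroup.closure (Set.range (fun c : G => c * (α c)⁻¹)) = ⊤) (k : ℕ) (hk : 1 ≤ k) :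
    Subgroup.closure (Set.range ((fun c : G => c * (α c)⁻¹)^[k])) = ⊤ := by
  classical
  obtain ⟨j, rfl⟩ := Nat.exists_eq_add_of_le' hk
  set τ : G → G := fun c : G => c * (α c)⁻¹ with hτ
  let P : Subgroup (MulAut G) := Subgroup.zpowers α
  let φ : P →* MulAut G := P.subtype
  let X := SemidirectProduct G P φ
  have : Finite P := inferInstance
  have : Finite X := Finite.of_equiv _ (SemidirectProduct.equivProd (N := G) (G := P) (φ := φ)).symm
  let α' : P := ⟨α, Subgroup.mem_zpowers α⟩
  let a : X := SemidirectProduct.inr α'
  have hcomm : ∀ p : P, p * α' = α' * p := by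
    rintro ⟨_, i, rfl⟩
    apply Subtype.ext
    exact ((Commute.refl α).zpow_left i).eq
  have hinl : ∀ c : G, T a (SemidirectProduct.inl c : X) = SemidirectProduct.inl (τ c) * a := by
    intro c
    have h1 : a * (SemidirectProduct.inl c⁻¹ : X) * a⁻¹ = SemidirectProduct.inl (α c⁻¹) := by
      have := SemidirectProduct.inl_aut (φ := φ) α' c⁻¹
      show SemidirectProduct.inr α' * (SemidirectProduct.inl c⁻¹ : X) * (SemidirectProduct.inr α')⁻¹ = _
      rw [← map_inv]
      exact this.symm
    have h2 : a * (SemidirectProduct.inl c⁻¹ : X) = SemidirectProduct.inl (α c⁻¹) * a := by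
      rw [← h1, inv_mul_cancel_right]
    show (SemidirectProduct.inl c : X) * a * (SemidirectProduct.inl c)⁻¹ = SemidirectProduct.inl (c * (α c)⁻¹) * a
    rw [mul_assoc, ← map_inv, h2, map_mul, ← mul_assoc, map_inv α]
  have hmula : ∀ x : X, T a (x * a) = T a x := by
    intro x
    simp only [T]
    group
  have hiter : ∀ (i : ℕ) (c : G), (T a)^[i + 1] (SemidirectProduct.inl c : X) = SemidirectProduct.inl (τ^[i + 1] c) * a := by
    intro i
    induction i with
    | zero =>
      intro c
      simpa using hinl c
    | succ i ih =>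
      intro c
      rw [Function.iterate_succ_apply', ih, hmula, hinl]
      simp only [Function.iterate_succ_apply']
  have hx : ∀ x : X, T a x = T a (SemidirectProduct.inl x.left) := by
    intro x
    have h1 : (x : X) = SemidirectProduct.inl x.left * SemidirectProduct.inr x.right :=
      (SemidirectProduct.inl_left_mul_inr_right x).symm
    have h2 : (SemidirectProduct.inr x.right : X) * a = a * SemidirectProduct.inr x.right := by
      simp only [a, ← map_mul, hcomm]
    conv_lhs => rw [h1]
    simp only [T, mul_inv_rev]
    rw [mul_assoc (SemidirectProduct.inl x.left : X), h2]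
    simp only [mul_assoc, mul_inv_cancel_left]
  have hcl : Cfsg.Agent.Lib.GenZipper.Gen (Subgroup.zpowers a) ⊤ := by
    intro N n1 _ n3
    have hn : N.Normal := Subgroup.normalizer_eq_top_iff.1 (top_le_iff.1 n3)
    have haN : a ∈ N := n1 (Subgroup.mem_zpowers a)
    have h1 : ∀ c : G, (SemidirectProduct.inl (τ c) : X) ∈ N := by
      intro c
      have h2 : (SemidirectProduct.inl (τ c) : X) * a ∈ N := by
        rw [← hinl]
        exact hn.conj_mem a haN _
      have h3 := N.mul_mem h2 (N.inv_mem haN)
      rwa [mul_inv_cancel_right] at h3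
    have h4 : (⊤ : Subgroup G) ≤ N.comap (SemidirectProduct.inl (φ := φ)) := by
      rw [← hG, Subgroup.closure_le]
      rintro _ ⟨c, rfl⟩
      exact h1 c
    have h5 : ∀ p : P, (SemidirectProduct.inr p : X) ∈ N := by
      rintro ⟨_, i, rfl⟩
      have h6 : ((⟨(fun x => α ^ x) i, ⟨i, rfl⟩⟩ : P)) = α' ^ i := by
        apply Subtype.ext
        simp [α']
      rw [h6, map_zpow]
      exact N.zpow_mem haN i
    rw [eq_top_iff]
    intro x _
    rw [← SemidirectProduct.inl_left_mul_inr_right x]
    exact N.mul_mem (h4 (Subgroup.mem_top x.left)) (h5 x.right)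
  have hT := Cfsg.Agent.Lib.EngelIter.iter_closure (Nat.card X) X rfl a hcl j
  set H : Subgroup G := Subgroup.closure (Set.range (τ^[j + 1])) with hH
  have hinv : ∀ p : P, ∀ h ∈ H, (φ p) h ∈ H := by
    intro p
    have h1 : ∀ c : G, (φ p) (τ c) = τ ((φ p) c) := by
      intro c
      have h2 : (φ p) (α c) = α ((φ p) c) := by
        have := congrArg (fun f : P => (f : MulAut G) c) (hcomm p)
        simpa [MulAut.mul_apply, α', φ] using this
      simp [hτ, h2]
    have h3 : ∀ (i : ℕ) (c : G), (φ p) (τ^[i] c) = τ^[i] ((φ p) c) := by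
      intro i
      induction i with
      | zero => intro c; rfl
      | succ i ih =>
        intro c
        rw [Function.iterate_succ_apply', h1, ih, Function.iterate_succ_apply']
    have h4 : H ≤ H.comap (φ p).toMonoidHom := by
      rw [hH, Subgroup.closure_le]
      rintro _ ⟨c, rfl⟩
      show (φ p) (τ^[j + 1] c) ∈ Subgroup.closure (Set.range (τ^[j + 1]))
      rw [h3]
      exact Subgroup.subset_closure ⟨_, rfl⟩
    exact fun h hh => h4 hh
  let R : Subgroup X :=
    { carrier := {y | y.left ∈ H}
      mul_mem' := by
        intro y z hy hz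
        show (y * z).left ∈ H
        rw [SemidirectProduct.mul_left]
        exact H.mul_mem hy (hinv _ _ hz)
      one_mem' := by
        show (1 : X).left ∈ H
        rw [SemidirectProduct.one_left]
        exact H.one_mem
      inv_mem' := by
        intro y hy
        show (y⁻¹).left ∈ H
        rw [SemidirectProduct.inv_left]
        exact hinv _ _ (H.inv_mem hy) }
  have hR : (⊤ : Subgroup X) ≤ R := by
    rw [← hT, Subgroup.closure_le]
    rintro _ ⟨x, rfl⟩
    rw [Function.iterate_succ_apply, hx, ← Function.iterate_succ_apply (T a), hiter]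
    have h9 : (SemidirectProduct.inl (τ^[j + 1] x.left) * a : X).left = τ^[j + 1] x.left := by
      show (SemidirectProduct.inl (τ^[j + 1] x.left) * SemidirectProduct.inr α' : X).left = _
      rw [SemidirectProduct.mul_left, SemidirectProduct.left_inl, SemidirectProduct.left_inr,
        map_one, mul_one]
    show (SemidirectProduct.inl (τ^[j + 1] x.left) * a : X).left ∈ H
    rw [h9]
    exact Subgroup.subset_closure ⟨_, rfl⟩
  rw [eq_top_iff]
  intro g _
  have h1 : (SemidirectProduct.inl g : X) ∈ R := hR (Subgroup.mem_top _)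
  exact h1

end Cfsg.Agent.S3927
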