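import Mathlib
import Cfsg.Statements.S4757
import Cfsg.Agent.Lib.CharAvg
import Cfsg.Agent.Lib.PCore
import Cfsg.Agent.S0154

set_option autoImplicit false
open Cfsg

namespace Cfsg.Agent.S4757

open Cfsg.Agent.Lib.CharBasic Cfsg.Agent.Lib.CharAvg Cfsg.Agent.Lib.CharInd Cfsg.Agent.Lib.PCore
open scoped ComplexConjugate

variable {G : Type*} [Group G] [Finite G]

/-- A linear character has values of norm one. -/
theorem mul_conj_linear {χ : G → ℂ} (hχ : IsCharacter G χ)
    (h1 : χ 1 = 1) (g : G) : χ g * conj (χ g) = 1 := by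
  obtain ⟨f, hf⟩ := exists_hom_of_degree_one hχ h1
  have h2 : ((f g : ℂˣ) : ℂ) ^ Nat.card G = 1 := by
    rw [← Units.val_pow_eq_pow_val, ← map_pow, pow_card_eq_one']
    simp
  have h3 : ‖((f g : ℂˣ) : ℂ)‖ = 1 :=
    Complex.norm_eq_one_of_pow_eq_one h2 Nat.card_pos.ne'
  rw [hf g, Complex.mul_conj, Complex.normSq_eq_norm_sq, h3]
  simp

/-- The principal character. -/
noncomputable def chi0 (G : Type*) [Group G] : IrrCharacter G := ⟨fun _ => 1, isIrrCharacter_one⟩

theorem sum_deg_mul (u : G) (hu : u ≠ 1) :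
    ∑ χ : IrrCharacter G, (χ : G → ℂ) 1 * (χ : G → ℂ) u = 0 := by
  classical
  haveI := Fintype.ofFinite G
  have h := sum_irr_mul_conj u (1 : G)
  have hnc : ¬ IsConj u (1 : G) := by
    intro hc
    exact hu (isConj_one_right.mp hc.symm)
  rw [if_neg hnc] at h
  rw [← h]
  refine Finset.sum_congr rfl fun χ _ => ?_
  obtain ⟨n, _, hn⟩ := irr_one_eq χ.2
  rw [hn]
  simp [mul_comm]

theorem not_all_nonneg (u : G) (hu : u ≠ 1) :
    ¬ ∀ χ : IrrCharacter G, 0 ≤ ((χ : G → ℂ) 1 * (χ : G → ℂ) u).re := by
  intro h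
  have h1 := sum_deg_mul u hu
  have h2 : 0 < ∑ χ : IrrCharacter G, ((χ : G → ℂ) 1 * (χ : G → ℂ) u).re := by
    apply Finset.sum_pos' (fun χ _ => h χ)
    exact ⟨chi0 G, Finset.mem_univ _, by simp [chi0]⟩
  have h3 := congrArg Complex.re h1
  rw [Complex.re_sum] at h3
  simp only [Complex.zero_re] at h3
  linarith

theorem exists_linear (h : commutator G ≠ ⊤) :
    ∃ l : IrrCharacter G, (l : G → ℂ) 1 = 1 ∧ l ≠ chi0 G := by
  by_contra hno
  push Not at hno
  apply h
  have h1 := Cfsg.Agent.S0154.result (G := G)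
  have h2 : Nat.card {χ : IrrCharacter G // (χ : G → ℂ) 1 = 1} = 1 := by
    rw [Nat.card_eq_one_iff_unique]
    refine ⟨⟨fun a b => ?_⟩, ⟨⟨chi0 G, by simp [chi0]⟩⟩⟩
    apply Subtype.ext
    rw [hno a.1 a.2, hno b.1 b.2]
  rw [h2] at h1
  exact Subgroup.index_eq_one.mp h1.symm

theorem no_linear (h : commutator G = ⊤) {l : IrrCharacter G} (hl : (l : G → ℂ) 1 = 1) :
    l = chi0 G := by
  have h1 := Cfsg.Agent.S0154.result (G := G)
  rw [h, Subgroup.index_top] at h1
  have h2 : Subsingleton {χ : IrrCharacter G // (χ : G → ℂ) 1 = 1} := by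
    rw [← Finite.card_le_one_iff_subsingleton]
    exact h1.le
  have h3 := h2.elim ⟨l, hl⟩ ⟨chi0 G, by simp [chi0]⟩
  exact congrArg Subtype.val h3

theorem irr_ne_zero_of_linear {l : IrrCharacter G} (hl : (l : G → ℂ) 1 = 1) (g : G) :
    (l : G → ℂ) g ≠ 0 := by
  intro h0
  have := mul_conj_linear (IsIrrCharacter.isCharacter l.2) hl g
  rw [h0, zero_mul] at this
  exact zero_ne_one this

theorem re_term (n : ℕ) (hn : 2 ≤ n) : 0 ≤ ((n : ℂ) * ((n : ℂ) - 2)).re := by
  obtain ⟨m, rfl⟩ := Nat.exists_eq_add_of_le hn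
  have : (((2 + m : ℕ) : ℂ) * (((2 + m : ℕ) : ℂ) - 2)) = (((2 + m) * m : ℕ) : ℂ) := by
    push_cast; ring
  rw [this, Complex.natCast_re]
  positivity

theorem re_term' (n : ℕ) (hn : 3 ≤ n) : 0 < ((n : ℂ) * ((n : ℂ) - 2)).re := by
  obtain ⟨m, rfl⟩ := Nat.exists_eq_add_of_le hn
  have : (((3 + m : ℕ) : ℂ) * (((3 + m : ℕ) : ℂ) - 2)) = (((3 + m) * (1 + m) : ℕ) : ℂ) := by
    push_cast; ring
  rw [this, Complex.natCast_re]
  positivity

theorem mem_zpowers_of_sq {u x : G} (hu2 : u ^ 2 = 1) (hx : x ∈ Subgroup.zpowers u) :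
    x = 1 ∨ x = u := by
  obtain ⟨k, rfl⟩ := Subgroup.mem_zpowers_iff.mp hx
  rcases Int.even_or_odd k with ⟨j, hj⟩ | ⟨j, hj⟩
  · left
    rw [hj, ← two_mul, zpow_mul]
    norm_cast
    rw [hu2, one_zpow]
  · right
    rw [hj, zpow_add, zpow_mul, zpow_one]
    norm_cast
    rw [hu2, one_zpow, one_mul]

/-- The product of two linear characters. -/
noncomputable def linMul (f g : G →* ℂˣ) : IrrCharacter G :=
  ⟨fun x => (((f * g) x : ℂˣ) : ℂ), isIrrCharacter_of_hom _⟩

theorem linMul_apply (f g : G →* ℂˣ) (x : G) :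
    ((linMul f g : IrrCharacter G) : G → ℂ) x = ((f x : ℂˣ) : ℂ) * ((g x : ℂˣ) : ℂ) := by
  simp [linMul]

theorem linMul_one (f g : G →* ℂˣ) : ((linMul f g : IrrCharacter G) : G → ℂ) 1 = 1 := by
  simp [linMul]

/-- Let u ≠ 1 be an element of the finite group G and c a complex number such that every non-principal irreducible character χ satisfies χ(1) − χ(u) = c or χ(u) = 0. Then the following are equivalent: (a) u has order 2, G is generated by u together with O(G), the largest normal subgroup of G of odd order, and the centralizer of u is {1, u}; (b) G is not perfect; (c) c = 2. -/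
theorem result {G : Type*} [Group G] [Finite G] (u : G) (hu : u ≠ 1) (c : ℂ) (hyp : ∀ χ : Cfsg.IrrCharacter G, (χ : G → ℂ) ≠ (fun _ => (1 : ℂ)) → ((χ : G → ℂ) 1 - (χ : G → ℂ) u = c ∨ (χ : G → ℂ) u = 0)) : ((orderOf u = 2 ∧ Subgroup.zpowers u ⊔ Cfsg.oddCore G = ⊤ ∧ Subgroup.centralizer ({u} : Set G) = Subgroup.zpowers u) ↔ commutator G ≠ ⊤) ∧ (commutator G ≠ ⊤ ↔ c = 2) := by
  classical
  haveI := Fintype.ofFinite G
  have hyp' : ∀ χ : IrrCharacter G, χ ≠ chi0 G → (χ : G → ℂ) u ≠ 0 → (χ : G → ℂ) u = (χ : G → ℂ) 1 - c := by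
    intro χ hχ hne
    rcases hyp χ (fun h => hχ (Subtype.ext h)) with h | h
    · rw [← h]; ring
    · exact absurd h hne
  have hχ0 : ∀ x : G, ((chi0 G : IrrCharacter G) : G → ℂ) x = 1 := fun _ => rfl
  have hc0 : c ≠ 0 := by
    intro hc
    apply not_all_nonneg u hu
    intro χ
    by_cases h0 : χ = chi0 G
    · subst h0; simp [hχ0]
    by_cases h1 : (χ : G → ℂ) u = 0
    · simp [h1]
    rw [hyp' χ h0 h1, hc, sub_zero]
    obtain ⟨n, _, hn⟩ := irr_one_eq χ.2
    rw [hn, ← Nat.cast_mul, Complex.natCast_re]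
    positivity
  -- linear characters
  have hlin : ∀ l : IrrCharacter G, (l : G → ℂ) 1 = 1 → l ≠ chi0 G → (l : G → ℂ) u = 1 - c := by
    intro l hl hne
    have := hyp' l hne (irr_ne_zero_of_linear hl u)
    rwa [hl] at this
  have hlin2 : ∀ l : IrrCharacter G, (l : G → ℂ) 1 = 1 → l ≠ chi0 G → c = 2 := by
    intro l hl hne
    obtain ⟨f, hf⟩ := exists_hom_of_degree_one (IsIrrCharacter.isCharacter l.2) hl
    have h1 := hlin l hl hne
    by_cases h2 : linMul f f = chi0 G
    · have h3 := congrFun (congrArg Subtype.val h2) u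
      rw [linMul_apply, ← hf u, h1, hχ0] at h3
      have h4 : c * (c - 2) = 0 := by linear_combination h3
      rcases mul_eq_zero.mp h4 with h5 | h5
      · exact absurd h5 hc0
      · exact sub_eq_zero.mp h5
    · have h3 := hlin _ (linMul_one f f) h2
      rw [linMul_apply, ← hf u, h1] at h3
      exfalso
      apply hc0
      have h4 : c * (1 - c) = 0 := by linear_combination (-1 : ℂ) * h3
      rcases mul_eq_zero.mp h4 with h5 | h5
      · exact h5
      · exfalso
        have := irr_ne_zero_of_linear hl u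
        apply this
        rw [h1]
        exact h5
  have hb_c : commutator G ≠ ⊤ → c = 2 := by
    intro h
    obtain ⟨l, hl, hne⟩ := exists_linear h
    exact hlin2 l hl hne
  have hc_b : c = 2 → commutator G ≠ ⊤ := by
    intro hc htop
    apply not_all_nonneg u hu
    intro χ
    by_cases h0 : χ = chi0 G
    · subst h0; simp [hχ0]
    by_cases h1 : (χ : G → ℂ) u = 0
    · simp [h1]
    rw [hyp' χ h0 h1, hc]
    obtain ⟨n, hn0, hn⟩ := irr_one_eq χ.2
    have hn1 : n ≠ 1 := by
      intro h
      apply h0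
      apply no_linear htop
      rw [hn, h]
      simp
    have hn2 : 2 ≤ n := by omega
    rw [hn]
    exact re_term n hn2
  refine ⟨⟨?_, ?_⟩, ⟨hb_c, hc_b⟩⟩
  · -- (a) → (b)
    rintro ⟨ho, hsup, -⟩ htop
    have hcomm : IsMulCommutative (G ⧸ oddCore G) := by
      have h1 : (Subgroup.zpowers (QuotientGroup.mk' (oddCore G) u)) = ⊤ := by
        have := congrArg (Subgroup.map (QuotientGroup.mk' (oddCore G))) hsup
        rw [Subgroup.map_sup, MonoidHom.map_zpowers, QuotientGroup.map_mk'_self, sup_bot_eq,
          Subgroup.map_top_of_surjective _ (QuotientGroup.mk'_surjective _)] at this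
        exact this
      have hc : IsCyclic (G ⧸ oddCore G) :=
        isCyclic_iff_exists_zpowers_eq_top.mpr ⟨_, h1⟩
      exact IsCyclic.isMulCommutative
    have h2 : commutator G ≤ oddCore G :=
      Subgroup.Normal.quotient_commutative_iff_commutator_le.mp hcomm
    have h3 : u ∈ oddCore G := by
      apply h2
      rw [htop]
      trivial
    have h4 : orderOf u ∣ Nat.card (oddCore G) := by
      have := orderOf_dvd_natCard (⟨u, h3⟩ : oddCore G)
      rwa [Subgroup.orderOf_mk] at this
    rw [ho] at h4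
    haveI : Fact (Nat.Prime 2) := ⟨Nat.prime_two⟩
    exact not_dvd_card_pPrimeCore (G := G) 2 h4
  · -- (b) → (a)
    intro hG
    have hc := hb_c hG
    obtain ⟨l, hl, hne⟩ := exists_linear hG
    obtain ⟨f, hf⟩ := exists_hom_of_degree_one (IsIrrCharacter.isCharacter l.2) hl
    have hlu : ∀ m : IrrCharacter G, (m : G → ℂ) 1 = 1 → m ≠ chi0 G → (m : G → ℂ) u = -1 := by
      intro m hm hmne
      rw [hlin m hm hmne, hc]
      norm_num
    have hlu' := hlu l hl hne
    have hfu : ((f u : ℂˣ) : ℂ) = -1 := by rw [← hf u]; exact hlu'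
    -- `l` squares to the principal character
    have hll : linMul f f = chi0 G := by
      by_contra h
      have h1 := hlu _ (linMul_one f f) h
      rw [linMul_apply, hfu] at h1
      norm_num at h1
    have hfx : ∀ x : G, ((f x : ℂˣ) : ℂ) * ((f x : ℂˣ) : ℂ) = 1 := by
      intro x
      have := congrFun (congrArg Subtype.val hll) x
      rwa [linMul_apply] at this
    -- uniqueness of `l`
    have huniq : ∀ m : IrrCharacter G, (m : G → ℂ) 1 = 1 → m ≠ chi0 G → m = l := by
      intro m hm hmne
      obtain ⟨f', hf'⟩ := exists_hom_of_degree_one (IsIrrCharacter.isCharacter m.2) hm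
      have h1 : linMul f f' = chi0 G := by
        by_contra h
        have h2 := hlu _ (linMul_one f f') h
        rw [linMul_apply, hfu, ← hf' u, hlu m hm hmne] at h2
        norm_num at h2
      apply Subtype.ext
      funext x
      have h2 := congrFun (congrArg Subtype.val h1) x
      rw [linMul_apply] at h2
      rw [hf x, hf' x]
      have h3 := hfx x
      have h4 : ((f x : ℂˣ) : ℂ) ≠ 0 := (f x).ne_zero
      apply mul_left_cancel₀ h4
      rw [h2, h3]
      rfl
    -- all other characters vanish at `u`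
    have hsum := sum_deg_mul u hu
    have hlne : l ≠ chi0 G := hne
    rw [← Finset.add_sum_erase _ _ (Finset.mem_univ (chi0 G)),
      ← Finset.add_sum_erase _ _ (Finset.mem_erase.mpr ⟨hlne, Finset.mem_univ l⟩)] at hsum
    have ht0 : ((chi0 G : IrrCharacter G) : G → ℂ) 1 * ((chi0 G : IrrCharacter G) : G → ℂ) u = 1 := by
      simp [hχ0]
    have htl : (l : G → ℂ) 1 * (l : G → ℂ) u = -1 := by
      rw [hl, hlu', one_mul]
    rw [ht0, htl] at hsum
    have hrest : ∑ χ ∈ (Finset.univ.erase (chi0 G)).erase l, (χ : G → ℂ) 1 * (χ : G → ℂ) u = 0 := by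
      linear_combination hsum
    have hother : ∀ χ : IrrCharacter G, χ ≠ chi0 G → χ ≠ l → (χ : G → ℂ) u = 0 := by
      intro χ h0 h1
      by_contra hne0
      have hval := hyp' χ h0 hne0
      rw [hc] at hval
      obtain ⟨n, hn0, hn⟩ := irr_one_eq χ.2
      have hn1 : n ≠ 1 := by
        intro h
        apply h1
        apply huniq χ _ h0
        rw [hn, h]
        simp
      have hn2 : n ≠ 2 := by
        intro h
        apply hne0
        rw [hval, hn, h]
        norm_num
      have hnge : 3 ≤ n := by omega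
      -- the term is positive
      have hterm : ∀ ψ ∈ (Finset.univ.erase (chi0 G)).erase l,
          0 ≤ ((ψ : G → ℂ) 1 * (ψ : G → ℂ) u).re := by
        intro ψ hψ
        simp only [Finset.mem_erase, Finset.mem_univ, and_true] at hψ
        by_cases h3 : (ψ : G → ℂ) u = 0
        · simp [h3]
        rw [hyp' ψ hψ.2 h3, hc]
        obtain ⟨k, hk0, hk⟩ := irr_one_eq ψ.2
        have hk1 : k ≠ 1 := by
          intro h
          apply hψ.1
          apply huniq ψ _ hψ.2
          rw [hk, h]
          simp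
        have hk2 : 2 ≤ k := by omega
        rw [hk]
        exact re_term k hk2
      have hmem : χ ∈ (Finset.univ.erase (chi0 G)).erase l := by
        simp only [Finset.mem_erase, Finset.mem_univ, and_true]
        exact ⟨h1, h0⟩
      have hpos : 0 < ∑ ψ ∈ (Finset.univ.erase (chi0 G)).erase l, ((ψ : G → ℂ) 1 * (ψ : G → ℂ) u).re := by
        apply Finset.sum_pos' hterm
        refine ⟨χ, hmem, ?_⟩
        rw [hval, hn]
        exact re_term' n hnge
      have h3 := congrArg Complex.re hrest
      rw [Complex.re_sum] at h3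
      simp only [Complex.zero_re] at h3
      linarith
    -- the centralizer has order 2
    have hcent : Nat.card (Subgroup.centralizer ({u} : Set G)) = 2 := by
      have h1 := sum_irr_mul_conj u u
      rw [if_pos (IsConj.refl _), Finset.sum_eq_add (chi0 G) l hne.symm] at h1
      · have h2 : ((chi0 G : IrrCharacter G) : G → ℂ) u * conj (((chi0 G : IrrCharacter G) : G → ℂ) u) = 1 := by
          simp [hχ0]
        have h3 : (l : G → ℂ) u * conj ((l : G → ℂ) u) = 1 := by
          rw [hlu']; simp
        rw [h2, h3] at h1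
        have h4 : ((2 : ℕ) : ℂ) = (Nat.card (Subgroup.centralizer ({u} : Set G)) : ℂ) := by
          rw [← h1]; norm_num
        exact_mod_cast h4.symm
      · intro χ _ hχ
        rw [hother χ hχ.1 hχ.2, zero_mul]
      · intro h; exact absurd (Finset.mem_univ _) h
      · intro h; exact absurd (Finset.mem_univ _) h
    have hle : Subgroup.zpowers u ≤ Subgroup.centralizer ({u} : Set G) := by
      rw [Subgroup.zpowers_le]
      rw [Subgroup.mem_centralizer_iff]
      intro h hh
      rw [Set.mem_singleton_iff.mp hh]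
    have hou : orderOf u = 2 := by
      have h1 : orderOf u ∣ 2 := by
        rw [← hcent, ← Nat.card_zpowers]
        exact Subgroup.card_dvd_of_le hle
      rcases (Nat.dvd_prime Nat.prime_two).mp h1 with h2 | h2
      · exact absurd (orderOf_eq_one_iff.mp h2) hu
      · exact h2
    have hCu : Subgroup.centralizer ({u} : Set G) = Subgroup.zpowers u := by
      symm
      apply Subgroup.eq_of_le_of_card_ge hle
      rw [hcent, Nat.card_zpowers, hou]
    refine ⟨hou, ?_, hCu⟩
    have hu2 : u ^ 2 = 1 := by rw [← hou]; exact pow_orderOf_eq_one u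
    -- Sylow 2-subgroups have order 2
    haveI : Fact (Nat.Prime 2) := ⟨Nat.prime_two⟩
    have hzp : IsPGroup 2 (Subgroup.zpowers u) := by
      rw [IsPGroup.iff_card, Nat.card_zpowers, hou]
      exact ⟨1, by norm_num⟩
    obtain ⟨S, hS⟩ := hzp.exists_le_sylow
    have hSle : (S : Subgroup G) ≤ Subgroup.centralizer ({u} : Set G) := by
      have huS : u ∈ (S : Subgroup G) := hS (Subgroup.mem_zpowers u)
      haveI : Nontrivial (S : Subgroup G) := by
        refine ⟨⟨⟨u, huS⟩, 1, fun h => hu (congrArg Subtype.val h)⟩⟩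
      haveI : Finite (S : Subgroup G) := inferInstance
      have hcen := S.isPGroup'.center_nontrivial
      obtain ⟨⟨z, hz⟩, hz1'⟩ := exists_ne (1 : Subgroup.center (S : Subgroup G))
      have hz1 : z ≠ 1 := fun h => hz1' (Subtype.ext h)
      have hzC : (z : G) ∈ Subgroup.centralizer ({u} : Set G) := by
        rw [Subgroup.mem_centralizer_iff]
        intro h hh
        rw [Set.mem_singleton_iff.mp hh]
        have := (Subgroup.mem_center_iff.mp hz) ⟨u, huS⟩
        exact congrArg Subtype.val this
      rw [hCu] at hzC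
      have hzu : (z : G) = u := by
        rcases mem_zpowers_of_sq hu2 hzC with h | h
        · exfalso
          apply hz1
          apply Subtype.ext
          exact h
        · exact h
      intro s hs
      rw [Subgroup.mem_centralizer_iff]
      intro h hh
      rw [Set.mem_singleton_iff.mp hh, ← hzu]
      have := (Subgroup.mem_center_iff.mp hz) ⟨s, hs⟩
      exact (congrArg Subtype.val this).symm
    have hScard : Nat.card (S : Subgroup G) = 2 := by
      apply le_antisymm
      · calc Nat.card (S : Subgroup G) ≤ Nat.card (Subgroup.centralizer ({u} : Set G)) :=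
              Subgroup.card_le_of_le hSle
          _ = 2 := hcent
      · have h1 := Subgroup.card_le_of_le hS
        rwa [Nat.card_zpowers, hou] at h1
    -- the kernel of `f` has odd order
    have hSz : (S : Subgroup G) = Subgroup.zpowers u := by
      symm
      apply Subgroup.eq_of_le_of_card_ge hS
      rw [hScard, Nat.card_zpowers, hou]
    have hK : (Nat.card f.ker).Coprime 2 := by
      apply Nat.Coprime.symm
      rw [Nat.Prime.coprime_iff_not_dvd Nat.prime_two]
      intro hdvd
      obtain ⟨t, ht⟩ := exists_prime_orderOf_dvd_card' (G := f.ker) 2 hdvd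
      have ht1 : orderOf (t : G) = 2 := by rwa [Subgroup.orderOf_coe]
      have hzt : IsPGroup 2 (Subgroup.zpowers (t : G)) := by
        rw [IsPGroup.iff_card, Nat.card_zpowers, ht1]
        exact ⟨1, by norm_num⟩
      obtain ⟨T, hT⟩ := hzt.exists_le_sylow
      obtain ⟨g, hg⟩ := MulAction.exists_smul_eq G T S
      have hmem : g * (t : G) * g⁻¹ ∈ (S : Subgroup G) := by
        rw [← hg, Sylow.coe_subgroup_smul, Subgroup.mem_smul_pointwise_iff_exists]
        exact ⟨t, hT (Subgroup.mem_zpowers _), by simp [MulAut.smul_def]⟩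
      rw [hSz] at hmem
      have hne1 : g * (t : G) * g⁻¹ ≠ 1 := by
        intro h
        have h1 : (t : G) = 1 := by
          have := congrArg (fun y => g⁻¹ * y * g) h
          simpa [mul_assoc] using this
        rw [h1, orderOf_one] at ht1
        norm_num at ht1
      have hequ : g * (t : G) * g⁻¹ = u := by
        rcases mem_zpowers_of_sq hu2 hmem with h | h
        · exact absurd h hne1
        · exact h
      have huK : u ∈ f.ker := by
        rw [← hequ]
        exact f.normal_ker.conj_mem _ t.2 g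
      have h1 : f u = 1 := huK
      rw [h1] at hfu
      norm_num at hfu
    have hKO : f.ker ≤ oddCore G := le_pPrimeCore f.normal_ker hK
    rw [eq_top_iff]
    intro x _
    have h1 : ((f x : ℂˣ) : ℂ) = 1 ∨ ((f x : ℂˣ) : ℂ) = -1 := by
      have h2 := hfx x
      have h3 : (((f x : ℂˣ) : ℂ) - 1) * (((f x : ℂˣ) : ℂ) + 1) = 0 := by
        linear_combination h2
      rcases mul_eq_zero.mp h3 with h4 | h4
      · exact Or.inl (sub_eq_zero.mp h4)
      · right; linear_combination h4
    rcases h1 with h1 | h1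
    · apply Subgroup.mem_sup_right
      apply hKO
      show f x = 1
      exact Units.ext h1
    · have h2 : u * x ∈ f.ker := by
        show f (u * x) = 1
        apply Units.ext
        rw [map_mul, Units.val_mul, hfu, h1]
        norm_num
      have h3 : x = u⁻¹ * (u * x) := by group
      rw [h3]
      exact Subgroup.mul_mem _ (Subgroup.mem_sup_left (Subgroup.inv_mem _ (Subgroup.mem_zpowers u)))
        (Subgroup.mem_sup_right (hKO h2))

end Cfsg.Agent.S4757
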