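import Mathlib
import Cfsg.Agent.Lib.DihBlockMain
import Cfsg.Statements.S4481

set_option autoImplicit false
open Cfsg

namespace Cfsg.Agent.S4481

/-- The principal 2-block of a group with dihedral Sylow 2-subgroups. Let G be a finite group whose Sylow 2-subgroup P is dihedral of order 2^n ≥ 8, let σ be an element of P of order 2^(n−1), ζ a primitive 2^(n−1)-th root of unity, and M a maximal ideal of the algebraic integers containing 2. Then the principal 2-block consists of exactly 3 + 2^(n−2) irreducible characters, which can be labelled 1, χ₁, χ₂, χ₃ and χ^(j) for 1 ≤ j ≤ 2^(n−2) − 1 (all distinct), with signs δ₁, δ₂, δ₃ such that for 0 < λ < 2^(n−1): χ₁(σ^λ) = δ₁, χ₂(σ^λ) = δ₂(−1)^(λ+1), χ₃(σ^λ) = δ₃(−1)^(λ+1) and χ^(j)(σ^λ) = δ₁(ζ^(jλ) + ζ^(−jλ)); and for every element ρ of odd order and every j: 1 + δ₁χ₁(ρ) = −δ₂χ₂(ρ) − δ₃χ₃(ρ) = δ₁χ^(j)(ρ). -/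
theorem result {G : Type*} [Group G] [Finite G] (M : Ideal Cfsg.AlgInt) (hM : Cfsg.IsPModular 2 M) (n : ℕ) (hn : 3 ≤ n) (P : Sylow 2 G) (hP : Nonempty ((P : Subgroup G) ≃* DihedralGroup (2 ^ (n - 1)))) (σ : G) (hσ : σ ∈ (P : Subgroup G)) (hσo : orderOf σ = 2 ^ (n - 1)) (ζ : ℂ) (hζ : IsPrimitiveRoot ζ (2 ^ (n - 1))) : Nat.card (Cfsg.principalBlock M G) = 3 + 2 ^ (n - 2) ∧ ∃ (χ₁ χ₂ χ₃ : Cfsg.IrrCharacter G) (χ' : Fin (2 ^ (n - 2) - 1) → Cfsg.IrrCharacter G) (δ₁ δ₂ δ₃ : ℤ), (δ₁ = 1 ∨ δ₁ = -1) ∧ (δ₂ = 1 ∨ δ₂ = -1) ∧ (δ₃ = 1 ∨ δ₃ = -1) ∧ Function.Injective χ' ∧ (χ₁ : G → ℂ) ≠ (fun _ => 1) ∧ (χ₂ : G → ℂ) ≠ (fun _ => 1) ∧ (χ₃ : G → ℂ) ≠ (fun _ => 1) ∧ χ₁ ≠ χ₂ ∧ χ₁ ≠ χ₃ ∧ χ₂ ≠ χ₃ ∧ (∀ j, χ' j ≠ χ₁ ∧ χ' j ≠ χ₂ ∧ χ' j ≠ χ₃ ∧ (χ' j : G → ℂ) ≠ (fun _ => 1)) ∧ Cfsg.principalBlock M G = {χ : Cfsg.IrrCharacter G | (χ : G → ℂ) = (fun _ => 1) ∨ χ = χ₁ ∨ χ = χ₂ ∨ χ = χ₃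 ∨ ∃ j, χ = χ' j} ∧ (∀ l : ℕ, 0 < l → l < 2 ^ (n - 1) → (χ₁ : G → ℂ) (σ ^ l) = δ₁ ∧ (χ₂ : G → ℂ) (σ ^ l) = δ₂ * (-1) ^ (l + 1) ∧ (χ₃ : G → ℂ) (σ ^ l) = δ₃ * (-1) ^ (l + 1) ∧ ∀ j : Fin (2 ^ (n - 2) - 1), (χ' j : G → ℂ) (σ ^ l) = δ₁ * (ζ ^ (((j : ℕ) + 1) * l) + (ζ ^ (((j : ℕ) + 1) * l))⁻¹)) ∧ ∀ ρ : G, Odd (orderOf ρ) → ∀ j : Fin (2 ^ (n - 2) - 1), 1 + δ₁ * (χ₁ : G → ℂ) ρ = -δ₂ * (χ₂ : G → ℂ) ρ - δ₃ * (χ₃ : G → ℂ) ρ ∧ 1 + δ₁ * (χ₁ : G → ℂ) ρ = δ₁ * (χ' j : G → ℂ) ρ := by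
    classical
  letI : Fintype G := Fintype.ofFinite G
  obtain ⟨e⟩ := hP
  have hk : 2 ≤ n - 1 := by omega
  have H := Cfsg.Agent.Lib.DihBlock.DH.of_iso P (n - 1) hk e σ hσ hσo
  have hr : 2 ^ (n - 2) - 1 = 2 ^ (n - 1 - 1) - 1 := by
    rw [show n - 1 - 1 = n - 2 by omega]
  obtain ⟨χ₁, χ₂, χ₃, χ', δ₁, δ₂, δ₃, hδ₁, hδ₂, hδ₃, hinj, h1, h2, h3, h12, h13, h23, hee, hB, hval, hreg⟩ :=
    H.main hM hζ (2 ^ (n - 2) - 1) hr
  set irr1 := Cfsg.Agent.Lib.BlockNormal.irrOne G with hirr1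
  have hcoe : ∀ χ : Cfsg.IrrCharacter G, (χ : G → ℂ) = (fun _ => 1) ↔ χ = irr1 := by
    intro χ
    constructor
    · intro h
      exact Subtype.ext h
    · rintro rfl
      rfl
  have hne : ∀ χ : Cfsg.IrrCharacter G, χ ≠ irr1 → (χ : G → ℂ) ≠ (fun _ => 1) := fun χ h h' => h ((hcoe χ).1 h')
  let F : Finset (Cfsg.IrrCharacter G) := insert irr1 (insert χ₁ (insert χ₂ (insert χ₃ (Finset.univ.image χ'))))
  have hF : Cfsg.principalBlock M G = (F : Set (Cfsg.IrrCharacter G)) := by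
    ext χ
    rw [hB χ]
    simp only [F, Finset.coe_insert, Finset.coe_image, Finset.coe_univ, Set.image_univ, Set.mem_insert_iff, Set.mem_range]
    constructor
    · rintro (h | h | h | h | ⟨j, h⟩)
      · exact Or.inl h
      · exact Or.inr (Or.inl h)
      · exact Or.inr (Or.inr (Or.inl h))
      · exact Or.inr (Or.inr (Or.inr (Or.inl h)))
      · exact Or.inr (Or.inr (Or.inr (Or.inr ⟨j, h.symm⟩)))
    · rintro (h | h | h | h | ⟨j, h⟩)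
      · exact Or.inl h
      · exact Or.inr (Or.inl h)
      · exact Or.inr (Or.inr (Or.inl h))
      · exact Or.inr (Or.inr (Or.inr (Or.inl h)))
      · exact Or.inr (Or.inr (Or.inr (Or.inr ⟨j, h.symm⟩)))
  have hFc : F.card = 3 + 2 ^ (n - 2) := by
    have hpos : 1 ≤ 2 ^ (n - 2) := Nat.one_le_two_pow
    have hI : (Finset.univ.image χ').card = 2 ^ (n - 2) - 1 := by
      rw [Finset.card_image_of_injective _ hinj, Finset.card_univ, Fintype.card_fin]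
    have n3 : χ₃ ∉ Finset.univ.image χ' := by
      intro h
      obtain ⟨j, -, hj⟩ := Finset.mem_image.1 h
      exact (hee j).2.2.2 hj
    have n2 : χ₂ ∉ insert χ₃ (Finset.univ.image χ') := by
      intro h
      rcases Finset.mem_insert.1 h with h | h
      · exact h23 h
      · obtain ⟨j, -, hj⟩ := Finset.mem_image.1 h
        exact (hee j).2.2.1 hj
    have n1 : χ₁ ∉ insert χ₂ (insert χ₃ (Finset.univ.image χ')) := by
      intro h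
      rcases Finset.mem_insert.1 h with h | h
      · exact h12 h
      · rcases Finset.mem_insert.1 h with h | h
        · exact h13 h
        · obtain ⟨j, -, hj⟩ := Finset.mem_image.1 h
          exact (hee j).2.1 hj
    have n0 : irr1 ∉ insert χ₁ (insert χ₂ (insert χ₃ (Finset.univ.image χ'))) := by
      intro h
      rcases Finset.mem_insert.1 h with h | h
      · exact h1 h.symm
      · rcases Finset.mem_insert.1 h with h | h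
        · exact h2 h.symm
        · rcases Finset.mem_insert.1 h with h | h
          · exact h3 h.symm
          · obtain ⟨j, -, hj⟩ := Finset.mem_image.1 h
            exact (hee j).1 hj
    simp only [F]
    rw [Finset.card_insert_of_notMem n0, Finset.card_insert_of_notMem n1, Finset.card_insert_of_notMem n2,
      Finset.card_insert_of_notMem n3, hI]
    omega
  refine ⟨?_, χ₁, χ₂, χ₃, χ', δ₁, δ₂, δ₃, hδ₁, hδ₂, hδ₃, hinj, hne _ h1, hne _ h2, hne _ h3, h12, h13, h23,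
    fun j => ⟨(hee j).2.1, (hee j).2.2.1, (hee j).2.2.2, hne _ (hee j).1⟩, ?_, hval, ?_⟩
  · rw [hF, Nat.card_coe_set_eq, Set.ncard_coe_finset, hFc]
  · ext χ
    rw [hB χ, Set.mem_setOf_eq, hcoe χ]
  · intro ρ hρ j
    have hρ' : ¬ 2 ∣ orderOf ρ := by
      rw [← even_iff_two_dvd, Nat.not_even_iff_odd]
      exact hρ
    exact ⟨(hreg ρ hρ').1, (hreg ρ hρ').2 j⟩


end Cfsg.Agent.S4481
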