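import Mathlib
import Cfsg.Agent.Lib.DihOrder
import Cfsg.Statements.S4482

set_option autoImplicit false
open Cfsg

namespace Cfsg.Agent.S4482

/-- An order formula for groups with dihedral Sylow 2-subgroups and one class of involutions. Let G be a finite group whose Sylow 2-subgroup P = ⟨σ, τ⟩ is dihedral of order 2^n ≥ 8 (σ of order 2^(n−1), τ an involution inverting σ), let J be the central involution σ^(2^(n−2)), and suppose J, τ and στ are conjugate in G. Fix M over 2 and let χ₁ be an irreducible character in the principal 2-block taking one constant value δ₁ = ±1 at every non-identity power of σ, with χ₁ ≠ 1. Then, with x₁ = χ₁(1) and c(·) denoting orders of centralizers, x₁ ≠ δ₁ and #G · (x₁ − δ₁)² = 2·x₁(x₁ + δ₁)·c(J)³·(1/c(J, τ) + 1/c(J, στ))², where c(J, y) is the order of the joint centralizer of J and y. -/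
theorem result {G : Type*} [Group G] [Finite G] (M : Ideal Cfsg.AlgInt) (hM : Cfsg.IsPModular 2 M) (n : ℕ) (hn : 3 ≤ n) (P : Sylow 2 G) (σ τ : G) (hσ : σ ∈ (P : Subgroup G)) (hτ : τ ∈ (P : Subgroup G)) (hσo : orderOf σ = 2 ^ (n - 1)) (hτo : orderOf τ = 2) (hrel : τ * σ * τ⁻¹ = σ⁻¹) (hgen : Subgroup.closure ({σ, τ} : Set G) = (P : Subgroup G)) (hconj : IsConj (σ ^ (2 ^ (n - 2))) τ ∧ IsConj (σ ^ (2 ^ (n - 2))) (σ * τ)) (χ₁ : Cfsg.IrrCharacter G) (hχ₁ : χ₁ ∈ Cfsg.principalBlock M G) (h1 : (χ₁ : G → ℂ) ≠ (fun _ => 1)) (δ₁ : ℤ) (hδ₁ : δ₁ = 1 ∨ δ₁ = -1) (hval : ∀ l : ℕ, 0 < l → l < 2 ^ (n - 1) → (χ₁ : G → ℂ) (σ ^ l) = δ₁) : (Cfsg.charDegree (χ₁ : G → ℂ) : ℤ) ≠ δ₁ ∧ (Nat.card G : ℚ) * ((Cfsg.charDegree (χ₁ : G → ℂ) : ℚ) - δ₁) ^ 2 = 2 * (Cfsg.charDegree (χ₁ : G → ℂ) : ℚ) * ((Cfsg.charDegree (χ₁ : G → ℂ) : ℚ) + δ₁) * (Nat.card (Subgroup.centralizer ({σ ^ (2 ^ (n - 2))} : Set G)) : ℚ) ^ 3 * (1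 / (Nat.card (Subgroup.centralizer ({σ ^ (2 ^ (n - 2)), τ} : Set G)) : ℚ) + 1 / (Nat.card (Subgroup.centralizer ({σ ^ (2 ^ (n - 2)), σ * τ} : Set G)) : ℚ)) ^ 2 := by
    classical
  letI : Fintype G := Fintype.ofFinite G
  have hk : 2 ≤ n - 1 := by omega
  have H := Cfsg.Agent.Lib.DihBlock.DH.of_gens P (n - 1) hk σ τ hσ hτ hσo hτo hrel hgen
  have hz : H.z = σ ^ (2 ^ (n - 2)) := by
    unfold Cfsg.Agent.Lib.DihBlock.DH.z
    rw [show n - 1 - 1 = n - 2 by omega]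
  rw [← hz] at hconj ⊢
  have hτ2 : τ * τ = 1 := by
    rw [← pow_two, ← hτo, pow_orderOf_eq_one]
  have hτ1 : τ ≠ 1 := by
    rintro rfl
    simp at hτo
  have hτA : τ ∉ Subgroup.zpowers σ := by
    intro h
    obtain ⟨i, hi⟩ := h
    change σ ^ i = τ at hi
    have h2 : τ * σ = σ * τ := by
      rw [← hi]
      exact ((Commute.refl σ).zpow_left i).eq
    rw [h2] at hrel
    have h3 : σ * τ * τ⁻¹ = σ := by group
    rw [h3] at hrel
    have h4 : σ ^ 2 = 1 := by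
      rw [pow_two]
      nth_rewrite 1 [hrel]
      group
    have h5 := orderOf_dvd_of_pow_eq_one h4
    rw [hσo] at h5
    have h6 := Nat.le_of_dvd (by norm_num) h5
    have h7 : 2 ^ 2 ≤ 2 ^ (n - 1) := Nat.pow_le_pow_right (by norm_num) hk
    omega
  have hall := H.hall_of hτ hτA hconj.1 hconj.2
  have h1' : χ₁ ≠ Cfsg.Agent.Lib.BlockNormal.irrOne G := fun h => h1 (congrArg Subtype.val h)
  obtain ⟨hform, hpos⟩ := H.order_formula hM hτ hτA hconj.1 hconj.2 χ₁ hχ₁ h1' δ₁ hδ₁ hval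
  have hN := H.card_inv'_rat hτ hτA
  have hG := H.card_invG hall
  have hτm : τ ∈ H.inv' := by
    rw [H.mem_inv']
    refine ⟨hτ2, hτ1, H.z_comm hτ, ?_⟩
    intro h
    exact hτA (h ▸ H.z_mem)
  have hNpos : 0 < H.inv'.card := Finset.card_pos.2 ⟨τ, hτm⟩
  have hdpos : 0 < (Cfsg.charDegree (χ₁ : G → ℂ) : ℤ) := by
    exact_mod_cast Cfsg.Agent.Lib.CharKernel.charDegree_pos χ₁.2
  constructor
  · intro he
    have h4 : (0 : ℤ) < (H.inv'.card : ℤ) := by exact_mod_cast hNpos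
    have h3 := mul_pos (mul_pos (mul_pos (two_pos (α := ℤ)) hdpos) hpos) (pow_pos h4 2)
    rw [← hform, he, sub_self] at h3
    simp at h3
  · have hformQ : (((Cfsg.Agent.Lib.DihBlock.invG G).card : ℚ)) * ((Cfsg.charDegree (χ₁ : G → ℂ) : ℚ) - δ₁) ^ 2 =
        2 * (Cfsg.charDegree (χ₁ : G → ℂ) : ℚ) * ((Cfsg.charDegree (χ₁ : G → ℂ) : ℚ) + δ₁) * (H.inv'.card : ℚ) ^ 2 := by
      exact_mod_cast hform
    have hGQ : ((Cfsg.Agent.Lib.DihBlock.invG G).card : ℚ) * (Nat.card (Subgroup.centralizer ({H.z} : Set G)) : ℚ) = (Nat.card G : ℚ) := by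
      exact_mod_cast hG
    rw [← hGQ]
    rw [hN] at hformQ
    linear_combination (Nat.card (Subgroup.centralizer ({H.z} : Set G)) : ℚ) * hformQ


end Cfsg.Agent.S4482
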