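import Mathlib
import Cfsg.Statements.S0031
import Cfsg.Agent.Lib.PCore

set_option autoImplicit false
open Cfsg

namespace Cfsg.Agent.S0031

/-- A fixed-point-free automorphism of a finite group maps some Sylow p-subgroup to itself. -/
theorem result {G : Type*} [Group G] [Finite G] (φ : G ≃* G)
    (hφ : MonoidHom.FixedPointFree (φ : G →* G)) (p : ℕ) [Fact p.Prime] :
    ∃ P : Sylow p G, (P : Subgroup G).map (φ : G →* G) = P := by
  classical
  -- the map `g ↦ g⁻¹ φ(g)` is a bijection of `G`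
  have hinj : Function.Injective (fun g : G => g⁻¹ * φ g) := by
    intro a b hab
    simp only at hab
    have h2 : φ (b * a⁻¹) = b * a⁻¹ := by
      have h3 : φ a * (φ b)⁻¹ = a * b⁻¹ := by
        have : a * (a⁻¹ * φ a) * (φ b)⁻¹ = a * (b⁻¹ * φ b) * (φ b)⁻¹ := by rw [hab]
        simpa [mul_assoc] using this
      rw [map_mul, map_inv]
      have h4 := congrArg (·⁻¹) h3
      simpa using h4
    have h3 : b * a⁻¹ = 1 := hφ _ h2
    exact (mul_inv_eq_one.mp h3).symm
  have hsurj : Function.Surjective (fun g : G => g⁻¹ * φ g) := Finite.surjective_of_injective hinj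
  -- pick a Sylow subgroup `Q`; `φ(Q) = Q^x` for some `x`
  obtain ⟨Q⟩ : Nonempty (Sylow p G) := inferInstance
  let Q' : Sylow p G := Q.mapSurjective (f := (φ : G →* G)) φ.surjective
  obtain ⟨x, hx⟩ := MulAction.exists_smul_eq G Q' Q
  obtain ⟨g, hg⟩ := hsurj x
  simp only at hg
  refine ⟨g • Q, ?_⟩
  have hle : ((g • Q : Sylow p G) : Subgroup G).map (φ : G →* G) ≤ ((g • Q : Sylow p G) : Subgroup G) := by
    rintro _ ⟨z, hz, rfl⟩
    have hz0 : z ∈ ((g • Q : Sylow p G) : Subgroup G) := hz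
    rw [Sylow.coe_subgroup_smul, Cfsg.Agent.Lib.PCore.mem_conj_smul_iff] at hz0
    rw [Sylow.coe_subgroup_smul, Cfsg.Agent.Lib.PCore.mem_conj_smul_iff]
    -- set `q = g⁻¹ z g`
    set q := g⁻¹ * z * g with hq
    have hqQ' : φ q ∈ (Q' : Subgroup G) := ⟨q, hz0, rfl⟩
    have hxq : x * φ q * x⁻¹ ∈ (Q : Subgroup G) := by
      have h5 : x • Q' = Q := hx
      have h6 : x * φ q * x⁻¹ ∈ ((x • Q' : Sylow p G) : Subgroup G) := by
        rw [Sylow.coe_subgroup_smul, Cfsg.Agent.Lib.PCore.mem_conj_smul_iff]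
        simpa [mul_assoc] using hqQ'
      rw [h5] at h6
      exact h6
    have hz' : z = g * q * g⁻¹ := by rw [hq]; group
    have hφz : φ z = φ g * φ q * (φ g)⁻¹ := by rw [hz']; simp
    have hφg : φ g = g * x := by rw [← hg]; group
    have : g⁻¹ * φ z * g = x * φ q * x⁻¹ := by
      rw [hφz, hφg]; group
    show g⁻¹ * (φ : G →* G) z * g ∈ (Q : Subgroup G)
    have h7 : (φ : G →* G) z = φ z := rfl
    rw [h7, this]
    exact hxq
  apply Subgroup.eq_of_le_of_card_ge hle
  rw [Subgroup.card_map_of_injective φ.injective]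

end Cfsg.Agent.S0031
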