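import Mathlib
import Cfsg.Statements.S0046
import Cfsg.Agent.Lib.Frobenius

set_option autoImplicit false
open Cfsg
open scoped Pointwise

namespace Cfsg.Agent.S0046

open Cfsg.Agent.Lib.Frobenius

theorem isCoatom_comap {G Q : Type*} [Group G] [Group Q] (f : G →* Q)
    (hf : Function.Surjective f) {M : Subgroup Q} (hM : IsCoatom M) :
    IsCoatom (M.comap f) := by
  constructor
  · intro h
    apply hM.1
    rw [← Subgroup.map_comap_eq_self_of_surjective hf M, h, ← MonoidHom.range_eq_map]
    exact MonoidHom.range_eq_top.mpr hf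
  · intro L hL
    have hker : f.ker ≤ L := by
      refine le_trans ?_ hL.le
      exact Subgroup.ker_le_comap f M
    have hcm : Subgroup.comap f (L.map f) = L := Subgroup.comap_map_eq_self hker
    have h1 : M < L.map f := by
      refine lt_of_le_of_ne ?_ ?_
      · rw [← Subgroup.map_comap_eq_self_of_surjective hf M]
        exact Subgroup.map_mono hL.le
      · intro heq
        apply hL.ne
        rw [heq, hcm]
    have h2 := hM.2 _ h1
    rw [← hcm, h2, Subgroup.comap_top]

theorem isCoatom_conj {G : Type*} [Group G] {M : Subgroup G} (hM : IsCoatom M) (g : G) :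
    IsCoatom (MulAut.conj g • M) := by
  have : MulAut.conj g • M = (MulAut.conj g).mapSubgroup M := rfl
  rw [this]
  exact (OrderIso.isCoatom_iff _ _).mpr hM

theorem exists_norm_not_mem {G : Type*} [Group G] [Finite G] {M D : Subgroup G}
    (hn : Group.IsNilpotent M) (hDM : D < M) :
    ∃ x ∈ M, x ∉ D ∧ x ∈ Subgroup.normalizer (D : Set G) := by
  have hnc : NormalizerCondition M := Group.normalizerCondition_of_isNilpotent
  have h1 : D.subgroupOf M < ⊤ := by
    rw [lt_top_iff_ne_top]
    intro h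
    apply hDM.not_ge
    exact Subgroup.subgroupOf_eq_top.mp h
  have h2 := hnc _ h1
  obtain ⟨y, hy1, hy2⟩ := SetLike.exists_of_lt h2
  refine ⟨y, y.2, fun h => hy2 ?_, ?_⟩
  · exact Subgroup.mem_subgroupOf.mpr h
  · have h3 := Subgroup.subgroupOf_normalizer_eq hDM.le
    have h4 : y ∈ (Subgroup.normalizer (D : Set G)).subgroupOf M := by
      rw [h3]; exact hy1
    exact Subgroup.mem_subgroupOf.mp h4

/-- The simple case: contradiction by counting. -/
theorem simple_case {G : Type*} [Group G] [Finite G]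
    (h : ∀ M : Subgroup G, IsCoatom M → Group.IsNilpotent M)
    (hsimple : ∀ N : Subgroup G, N.Normal → N = ⊥ ∨ N = ⊤)
    (hncomm : ¬ ∀ a b : G, a * b = b * a) : False := by
  classical
  -- no cyclic generator
  have hzp : ∀ x : G, Subgroup.zpowers x ≠ ⊤ := by
    intro x hx
    apply hncomm
    intro a b
    have ha : a ∈ Subgroup.zpowers x := by rw [hx]; trivial
    have hb : b ∈ Subgroup.zpowers x := by rw [hx]; trivial
    obtain ⟨i, rfl⟩ := Subgroup.mem_zpowers_iff.mp ha
    obtain ⟨j, rfl⟩ := Subgroup.mem_zpowers_iff.mp hb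
    exact (Commute.refl x).zpow_zpow i j
  have hexc : ∀ x : G, ∃ M : Subgroup G, IsCoatom M ∧ x ∈ M := by
    intro x
    rcases eq_top_or_exists_le_coatom (Subgroup.zpowers x) with h1 | ⟨M, hM, hxM⟩
    · exact absurd h1 (hzp x)
    · exact ⟨M, hM, hxM (Subgroup.mem_zpowers x)⟩
  have hNT : Nontrivial G := by
    by_contra hnt
    rw [not_nontrivial_iff_subsingleton] at hnt
    exact hncomm (fun a b => Subsingleton.elim _ _)
  have hbot : ∀ M : Subgroup G, IsCoatom M → M ≠ ⊥ := by
    rintro M hM rfl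
    obtain ⟨x, hx⟩ := exists_ne (1 : G)
    have := hM.2 (Subgroup.zpowers x) (by
      rw [bot_lt_iff_ne_bot]
      simpa using hx)
    exact hzp x this
  -- pairwise trivial intersections
  have hTI : ∀ M₁ M₂ : Subgroup G, IsCoatom M₁ → IsCoatom M₂ → M₁ ≠ M₂ → M₁ ⊓ M₂ = ⊥ := by
    by_contra hcon
    push Not at hcon
    obtain ⟨A₁, A₂, hA₁, hA₂, hA, hAne⟩ := hcon
    let S : Set (Subgroup G) :=
      {D | ∃ M₁ M₂ : Subgroup G, IsCoatom M₁ ∧ IsCoatom M₂ ∧ M₁ ≠ M₂ ∧ D = M₁ ⊓ M₂ ∧ D ≠ ⊥}
    have hSne : S.Nonempty := ⟨_, A₁, A₂, hA₁, hA₂, hA, rfl, hAne⟩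
    obtain ⟨D, hD⟩ := S.toFinite.exists_maximal hSne
    obtain ⟨M₁, M₂, hM₁, hM₂, hne, hDeq, hDbot⟩ := hD.1
    have hD1 : D < M₁ := by
      refine lt_of_le_of_ne (hDeq ▸ inf_le_left) ?_
      intro h
      have : M₁ ≤ M₂ := by
        have h1 : D ≤ M₂ := hDeq ▸ inf_le_right
        rwa [h] at h1
      exact hne ((hM₁.le_iff_eq hM₂.1).mp this).symm
    have hD2 : D < M₂ := by
      refine lt_of_le_of_ne (hDeq ▸ inf_le_right) ?_
      intro h
      have : M₂ ≤ M₁ := by
        have h1 : D ≤ M₁ := hDeq ▸ inf_le_left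
        rwa [h] at h1
      exact hne ((hM₂.le_iff_eq hM₁.1).mp this)
    obtain ⟨x₁, hx₁, hx₁D, hx₁N⟩ := exists_norm_not_mem (h M₁ hM₁) hD1
    obtain ⟨x₂, hx₂, hx₂D, hx₂N⟩ := exists_norm_not_mem (h M₂ hM₂) hD2
    have hNtop : Subgroup.normalizer (D : Set G) ≠ ⊤ := by
      intro htop
      have hn : D.Normal := Subgroup.normalizer_eq_top_iff.mp htop
      rcases hsimple D hn with h0 | h0
      · exact hDbot h0
      · rw [h0] at hD1
        exact not_top_lt hD1
    rcases eq_top_or_exists_le_coatom (Subgroup.normalizer (D : Set G)) with h1 | ⟨M₃, hM₃, hNM⟩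
    · exact hNtop h1
    have hDM₃ : D ≤ M₃ := le_trans Subgroup.le_normalizer hNM
    have key : ∀ M : Subgroup G, IsCoatom M → D ≤ M → ∀ x ∈ M, x ∉ D →
        x ∈ Subgroup.normalizer (D : Set G) → M = M₃ := by
      intro M hM hDM x hxM hxD hxN
      by_contra hne'
      have hmem : M ⊓ M₃ ∈ S := by
        refine ⟨M, M₃, hM, hM₃, hne', rfl, ?_⟩
        intro h0
        apply hDbot
        rw [eq_bot_iff, ← h0]
        exact le_inf hDM hDM₃
      have hle : D ≤ M ⊓ M₃ := le_inf hDM hDM₃
      have hxin : x ∈ M ⊓ M₃ := Subgroup.mem_inf.mpr ⟨hxM, hNM hxN⟩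
      have := hD.2 hmem hle
      exact hxD (this hxin)
    have e1 := key M₁ hM₁ hD1.le x₁ hx₁ hx₁D hx₁N
    have e2 := key M₂ hM₂ hD2.le x₂ hx₂ hx₂D hx₂N
    exact hne (e1.trans e2.symm)
  -- each coatom is a Frobenius complement
  have hFr : ∀ M : Subgroup G, IsCoatom M → IsFrobeniusComplement M := by
    intro M hM
    refine ⟨hbot M hM, hM.1, ?_⟩
    intro g hg
    apply hTI M _ hM (isCoatom_conj hM g)
    intro heq
    apply hg
    have h1 : g ∈ Subgroup.normalizer (M : Set G) := by
      rw [Subgroup.mem_normalizer_iff]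
      intro x
      have h2 : g * x * g⁻¹ ∈ MulAut.conj g • M ↔ x ∈ M := by
        rw [mem_conj_iff]
        have : g⁻¹ * (g * x * g⁻¹) * g = x := by group
        rw [this]
      rw [← heq] at h2
      exact h2.symm
    have hNM : Subgroup.normalizer (M : Set G) = M := by
      by_contra hne
      have hlt : M < Subgroup.normalizer (M : Set G) :=
        lt_of_le_of_ne Subgroup.le_normalizer (Ne.symm hne)
      have htop := hM.2 _ hlt
      have hn : M.Normal := Subgroup.normalizer_eq_top_iff.mp htop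
      rcases hsimple M hn with h0 | h0
      · exact hbot M hM h0
      · exact hM.1 h0
    rwa [hNM] at h1
  -- two nonconjugate classes
  obtain ⟨M₁, hM₁⟩ : ∃ M : Subgroup G, IsCoatom M := by
    obtain ⟨M, hM, -⟩ := hexc 1
    exact ⟨M, hM⟩
  have hF₁ := hFr M₁ hM₁
  have hc₁ := card_kernel hF₁
  have hi₁ : 2 * M₁.index ≤ Nat.card G := by
    have h1 := Subgroup.index_mul_card M₁
    have h2 : 2 ≤ Nat.card M₁ := by
      have : Nontrivial M₁ := (Subgroup.nontrivial_iff_ne_bot M₁).mpr (hbot M₁ hM₁)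
      exact Finite.one_lt_card
    nlinarith [Nat.zero_le M₁.index]
  have hi₁' : 2 ≤ M₁.index := by
    have h1 : M₁.index ≠ 0 := Subgroup.index_ne_zero_of_finite
    have h2 : M₁.index ≠ 1 := fun h => hM₁.1 (Subgroup.index_eq_one.mp h)
    omega
  -- a nonidentity kernel element
  have hex : ∃ x ∈ frobeniusKernel M₁, x ≠ 1 := by
    by_contra hcon
    push Not at hcon
    have : frobeniusKernel M₁ = {1} := by
      ext x
      constructor
      · exact hcon x
      · rintro rfl; exact one_mem_kernel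
    rw [this] at hc₁
    simp at hc₁
    omega
  obtain ⟨x, hxK, hx1⟩ := hex
  obtain ⟨M₂, hM₂, hxM₂⟩ := hexc x
  have hF₂ := hFr M₂ hM₂
  have hc₂ := card_kernel hF₂
  have hi₂ : 2 * M₂.index ≤ Nat.card G := by
    have h1 := Subgroup.index_mul_card M₂
    have h2 : 2 ≤ Nat.card M₂ := by
      have : Nontrivial M₂ := (Subgroup.nontrivial_iff_ne_bot M₂).mpr (hbot M₂ hM₂)
      exact Finite.one_lt_card
    nlinarith [Nat.zero_le M₂.index]
  -- the kernels cover G
  have hcover : frobeniusKernel M₁ ∪ frobeniusKernel M₂ = Set.univ := by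
    rw [Set.eq_univ_iff_forall]
    intro y
    by_contra hy
    rw [Set.mem_union, not_or] at hy
    obtain ⟨hy1, hy2⟩ := hy
    obtain ⟨hyne, g₁, hg₁⟩ := not_mem_kernel_iff.mp hy1
    obtain ⟨-, g₂, hg₂⟩ := not_mem_kernel_iff.mp hy2
    -- conjugates of M₁ and M₂ containing y coincide
    have h1 : y ∈ (MulAut.conj g₁ • M₁) ⊓ (MulAut.conj g₂ • M₂) :=
      Subgroup.mem_inf.mpr ⟨mem_conj_iff.mpr hg₁, mem_conj_iff.mpr hg₂⟩
    have heq : MulAut.conj g₁ • M₁ = MulAut.conj g₂ • M₂ := by
      by_contra hne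
      rw [hTI _ _ (isCoatom_conj hM₁ g₁) (isCoatom_conj hM₂ g₂) hne, Subgroup.mem_bot] at h1
      exact hyne h1
    -- then `x` lies in a conjugate of `M₁`
    have hx2 : g₂ * x * g₂⁻¹ ∈ MulAut.conj g₁ • M₁ := by
      rw [heq, mem_conj_iff]
      have : g₂⁻¹ * (g₂ * x * g₂⁻¹) * g₂ = x := by group
      rw [this]; exact hxM₂
    rw [mem_conj_iff] at hx2
    rcases mem_kernel_iff.mp hxK with h3 | h3
    · exact hx1 h3
    · apply h3 (g₂⁻¹ * g₁)
      have : (g₂⁻¹ * g₁)⁻¹ * x * (g₂⁻¹ * g₁) = g₁⁻¹ * (g₂ * x * g₂⁻¹) * g₁ := by group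
      rw [this]; exact hx2
  have hcount := Set.ncard_union_add_ncard_inter (frobeniusKernel M₁) (frobeniusKernel M₂)
    (Set.toFinite _) (Set.toFinite _)
  rw [hcover, Set.ncard_univ] at hcount
  have hinter : 1 ≤ (frobeniusKernel M₁ ∩ frobeniusKernel M₂).ncard := by
    exact (Set.ncard_pos (Set.toFinite _)).mpr ⟨1, one_mem_kernel, one_mem_kernel⟩
  rw [Nat.card_coe_set_eq] at hc₁ hc₂
  omega

theorem aux (n : ℕ) : ∀ {G : Type _} [Group G] [Finite G], Nat.card G = n →
    (∀ M : Subgroup G, IsCoatom M → Group.IsNilpotent M) → Group.IsSolvable G := by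
  induction n using Nat.strong_induction_on with
  | _ n ih =>
    intro G _ _ hn h
    by_cases hs : ∃ N : Subgroup G, N.Normal ∧ N ≠ ⊥ ∧ N ≠ ⊤
    · obtain ⟨N, hNn, hNb, hNt⟩ := hs
      rcases eq_top_or_exists_le_coatom N with h1 | ⟨M, hM, hNM⟩
      · exact absurd h1 hNt
      have hMn := h M hM
      have hNnil : Group.IsNilpotent N :=
        Group.nilpotent_of_surjective (Subgroup.subgroupOfEquivOfLe hNM).toMonoidHom
          (Subgroup.subgroupOfEquivOfLe hNM).surjective
      have hNsol : Group.IsSolvable N := inferInstance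
      have hlt : Nat.card (G ⧸ N) < n := by
        have h1 := N.card_eq_card_quotient_mul_card_subgroup
        have h2 : 1 < Nat.card N := by
          have : Nontrivial N := (Subgroup.nontrivial_iff_ne_bot N).mpr hNb
          exact Finite.one_lt_card
        have h3 : 0 < Nat.card (G ⧸ N) := Nat.card_pos
        rw [← hn, h1]
        nlinarith
      have hQ : Group.IsSolvable (G ⧸ N) := by
        apply ih _ hlt rfl
        intro M' hM'
        have hc := isCoatom_comap (QuotientGroup.mk' N) (QuotientGroup.mk'_surjective N) hM'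
        have := h _ hc
        exact Group.nilpotent_of_surjective ((QuotientGroup.mk' N).subgroupComap M')
          (MonoidHom.subgroupComap_surjective_of_surjective _ _ (QuotientGroup.mk'_surjective N))
      exact Group.isSolvable_of_ker_le_range N.subtype (QuotientGroup.mk' N)
        (by rw [QuotientGroup.ker_mk', Subgroup.range_subtype])
    · push Not at hs
      by_cases hc : ∀ a b : G, a * b = b * a
      · exact Group.isSolvable_of_comm hc
      · exfalso
        exact simple_case h (fun N hN => by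
          by_cases hb : N = ⊥
          · exact Or.inl hb
          · exact Or.inr (hs N hN hb)) hc

/-- Schmidt's Theorem on minimal non-nilpotent groups: a finite group in which every maximal subgroup is nilpotent is solvable. -/
theorem result {G : Type*} [Group G] [Finite G]
    (h : ∀ M : Subgroup G, IsCoatom M → Group.IsNilpotent M) : Group.IsSolvable G :=
  aux _ rfl h

end Cfsg.Agent.S0046
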