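import Mathlib
import Cfsg.Statements.S0191
import Cfsg.Agent.Lib.CharGalois

set_option autoImplicit false
set_option linter.style.haveILetI false
open Cfsg

namespace Cfsg.Agent.S0191

open Cfsg.Agent.Lib.CharBasic
open Cfsg.Agent.Lib.CharGalois

/-- An irreducible complex representation of a finite group of degree greater than 1 has a character that vanishes somewhere. -/
theorem result {G : Type*} [Group G] [Finite G] {V : Type*} [AddCommGroup V] [Module ℂ V] [FiniteDimensional ℂ V] (ρ : Representation ℂ G V) [ρ.IsIrreducible] (hdeg : 1 < Module.finrank ℂ V) : ∃ g : G, ρ.character g = 0 := by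
  classical
  haveI : Fintype G := Fintype.ofFinite G
  have hirr : IsIrrCharacter G ρ.character := isIrrCharacter_of_rep ρ inferInstance
  apply exists_zero_of_one_lt (IsIrrCharacter.isCharacter hirr)
  · rw [finsum_eq_sum_of_fintype]
    have h1 := classInner_irr_self hirr
    unfold classInner at h1
    have hG : (Nat.card G : ℂ) ≠ 0 := natCard_ne_zero'
    have h2 : ∑ g : G, ρ.character g * (starRingEnd ℂ) (ρ.character g) = (Nat.card G : ℂ) := by
      field_simp at h1
      exact h1
    have h3 : ((∑ g : G, ‖ρ.character g‖ ^ 2 : ℝ) : ℂ) = (Nat.card G : ℂ) := by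
      rw [← h2]
      push_cast
      refine Finset.sum_congr rfl fun g _ => ?_
      rw [Complex.mul_conj']
    exact_mod_cast h3
  · rw [Representation.char_one]
    simp only [Complex.norm_natCast]
    exact_mod_cast hdeg

end Cfsg.Agent.S0191
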