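-- Statement S0228: a group of order 12 without central involutions is A₄.
import Cfsg.Statements.S0228
import Cfsg.Agent.Lib.InvolutionFusion2

set_option autoImplicit false
set_option linter.style.haveILetI false
open Cfsg

namespace Cfsg.Agent.S0228

open Cfsg.Agent.Lib.InvolutionPairs Cfsg.Agent.Lib.InvolutionFusion

/-- A group of order 12 in which no involution is central is isomorphic to the alternating group on four letters. -/
theorem result {G : Type*} [Group G] [Finite G] (hG : Nat.card G = 12) (hz : ∀ z : G, orderOf z = 2 → z ∉ Subgroup.center G) : Nonempty (G ≃* alternatingGroup (Fin 4)) := by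
  classical
  haveI : Fact (Nat.Prime 3) := ⟨Nat.prime_three⟩
  haveI : Fact (Nat.Prime 2) := ⟨Nat.prime_two⟩
  obtain ⟨Q⟩ : Nonempty (Sylow 3 G) := Sylow.nonempty
  -- cardinalities of Sylow subgroups
  have hQc : ∀ Q : Sylow 3 G, Nat.card (Q : Subgroup G) = 3 := by
    intro Q
    obtain ⟨k, hk⟩ := Q.isPGroup'.exists_card_eq
    have h1 := Subgroup.card_mul_index (Q : Subgroup G)
    have h2 := Q.not_dvd_index
    rw [hk, hG] at h1
    rcases k with _ | _ | k
    · rw [pow_zero, one_mul] at h1
      rw [h1] at h2
      exact absurd (by norm_num) h2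
    · rw [hk]; norm_num
    · exfalso
      have h4 : 3 ^ (k + 1 + 1) = 9 * 3 ^ k := by ring
      rw [h4, mul_assoc] at h1
      omega
  have hn3 : Nat.card (Sylow 3 G) = 1 ∨ Nat.card (Sylow 3 G) = 4 := by
    have h1 := card_sylow_modEq_one 3 G
    have h2 : Nat.card (Sylow 3 G) ∣ (Q : Subgroup G).index := Sylow.card_dvd_index Q
    have h3 := Subgroup.card_mul_index (Q : Subgroup G)
    rw [hQc Q, hG] at h3
    have h4 : (Q : Subgroup G).index = 4 := by omega
    rw [h4] at h2
    have h5 : Nat.card (Sylow 3 G) ≤ 4 := Nat.le_of_dvd (by norm_num) h2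
    unfold Nat.ModEq at h1
    have h6 : Nat.card (Sylow 3 G) ≠ 0 := Nat.card_pos.ne'
    interval_cases (Nat.card (Sylow 3 G)) <;> simp_all
  rcases hn3 with hn | hn
  · -- `Q` is normal: we produce a central involution
    exfalso
    haveI : Subsingleton (Sylow 3 G) := (Nat.card_eq_one_iff_unique.1 hn).1
    have hQn : (Q : Subgroup G).Normal := Sylow.normal_of_subsingleton Q
    haveI : IsCyclic (Q : Subgroup G) := isCyclic_of_prime_card (p := 3) (hQc Q)
    obtain ⟨⟨q, hqQ⟩, hq⟩ := IsCyclic.exists_generator (α := (Q : Subgroup G))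
    have hqo : orderOf q = 3 := by
      have h1 := orderOf_eq_card_of_forall_mem_zpowers hq
      rw [hQc Q, Subgroup.orderOf_mk] at h1
      exact h1
    have hq1 : q ≠ 1 := by
      rintro rfl
      simp at hqo
    have hqne : q ≠ q⁻¹ := by
      intro h
      have h2 : q ^ 2 = 1 := by
        rw [pow_two]
        nth_rewrite 2 [h]
        exact mul_inv_cancel q
      have h3 := orderOf_dvd_of_pow_eq_one h2
      rw [hqo] at h3
      omega
    -- conjugates of `q`
    have hconj : ∀ g : G, g * q * g⁻¹ = q ∨ g * q * g⁻¹ = q⁻¹ := by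
      intro g
      have h1 : g * q * g⁻¹ ∈ (Q : Subgroup G) := hQn.conj_mem q hqQ g
      obtain ⟨k, hk⟩ := Subgroup.mem_zpowers_iff.1 (hq ⟨_, h1⟩)
      have hk' : q ^ k = g * q * g⁻¹ := congrArg Subtype.val hk
      have h3 : q ^ (k % 3) = g * q * g⁻¹ := by
        rw [← hk']
        have := zpow_mod_orderOf q k
        rwa [hqo] at this
      have h4 : k % 3 = 0 ∨ k % 3 = 1 ∨ k % 3 = 2 := by omega
      rcases h4 with h4 | h4 | h4
      · exfalso
        rw [h4, zpow_zero] at h3
        apply hq1
        have h5 : g * q = g := by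
          have := (mul_inv_eq_one.1 h3.symm)
          exact this
        exact mul_eq_left.1 h5
      · left
        rw [h4, zpow_one] at h3
        exact h3.symm
      · right
        rw [h4] at h3
        rw [← h3, eq_inv_iff_mul_eq_one]
        have h5 : q ^ 3 = 1 := by rw [← hqo]; exact pow_orderOf_eq_one q
        have h6 : q ^ (2 : ℤ) * q = q ^ 3 := by
          rw [zpow_ofNat, ← pow_succ]
        rw [h6, h5]
    -- the centralizer of `q` has even order
    have hcl : Nat.card {u : G // IsConj q u} ≤ 2 := by
      have h1 : Nat.card {u : G // IsConj q u} ≤ Nat.card ({q, q⁻¹} : Finset G) := by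
        apply Nat.card_le_card_of_injective
          (fun u : {u : G // IsConj q u} => (⟨u.1, by
            obtain ⟨g, hg⟩ := isConj_iff.1 u.2
            rw [← hg]
            simpa using hconj g⟩ : ({q, q⁻¹} : Finset G)))
        rintro ⟨a, ha⟩ ⟨b, hb⟩ h
        simpa using h
      have h2 : Nat.card ({q, q⁻¹} : Finset G) ≤ 2 := by
        rw [Nat.card_eq_fintype_card, Fintype.card_coe]
        exact Finset.card_le_two
      omega
    have hcc := card_conj_mul_card_centralizer q
    rw [hG] at hcc
    have hCeven : 2 ∣ Nat.card (Subgroup.centralizer ({q} : Set G)) := by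
      have h1 : 0 < Nat.card {u : G // IsConj q u} := by
        haveI : Nonempty {u : G // IsConj q u} := ⟨⟨q, IsConj.refl q⟩⟩
        exact Nat.card_pos
      generalize Nat.card {u : G // IsConj q u} = a at *
      generalize Nat.card (Subgroup.centralizer ({q} : Set G)) = b at *
      have : a = 1 ∨ a = 2 := by omega
      rcases this with rfl | rfl <;> omega
    obtain ⟨x, hx⟩ := exists_prime_orderOf_dvd_card'
      (G := (Subgroup.centralizer ({q} : Set G))) 2 hCeven
    have hzo : orderOf (x : G) = 2 := by rw [Subgroup.orderOf_coe]; exact hx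
    have hzq : (x : G) * q = q * (x : G) := by
      have := x.2
      rw [Subgroup.mem_centralizer_singleton_iff] at this
      exact this
    set z : G := (x : G) with hz'
    apply hz z hzo
    -- a Sylow 2-subgroup containing `z`
    have hZp : IsPGroup 2 (Subgroup.zpowers z) := by
      rw [IsPGroup.iff_card]
      exact ⟨1, by rw [Nat.card_zpowers, hzo, pow_one]⟩
    obtain ⟨T, hT⟩ := hZp.exists_le_sylow
    have hTc : Nat.card (T : Subgroup G) = 2 ^ 2 := by
      obtain ⟨k, hk⟩ := T.isPGroup'.exists_card_eq
      have h1 := Subgroup.card_mul_index (T : Subgroup G)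
      have h2 := T.not_dvd_index
      rw [hk, hG] at h1
      rcases k with _ | _ | _ | k
      · rw [pow_zero, one_mul] at h1
        rw [h1] at h2
        exact absurd (by norm_num) h2
      · rw [pow_one] at h1
        have : (T : Subgroup G).index = 6 := by omega
        rw [this] at h2
        exact absurd (by norm_num) h2
      · rw [hk]
      · exfalso
        have h4 : 2 ^ (k + 1 + 1 + 1) = 8 * 2 ^ k := by ring
        rw [h4, mul_assoc] at h1
        omega
    have hTcomm := IsPGroup.isMulCommutative_of_card_eq_prime_sq (G := (T : Subgroup G)) hTc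
    have hzT : z ∈ T := hT (Subgroup.mem_zpowers z)
    have hTC : (T : Subgroup G) ≤ Subgroup.centralizer ({z} : Set G) := by
      intro t ht
      rw [Subgroup.mem_centralizer_singleton_iff]
      have : (⟨t, ht⟩ : (T : Subgroup G)) * ⟨z, hzT⟩ = ⟨z, hzT⟩ * ⟨t, ht⟩ :=
        hTcomm.is_comm.comm _ _
      exact congrArg Subtype.val this
    have hQC : (Q : Subgroup G) ≤ Subgroup.centralizer ({z} : Set G) := by
      intro y hy
      obtain ⟨k, hk⟩ := Subgroup.mem_zpowers_iff.1 (hq ⟨y, hy⟩)
      have hk' : q ^ k = y := congrArg Subtype.val hk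
      rw [← hk']
      apply Subgroup.zpow_mem
      rw [Subgroup.mem_centralizer_singleton_iff]
      exact hzq.symm
    have h12 : 12 ∣ Nat.card (Subgroup.centralizer ({z} : Set G)) := by
      have h3 := Subgroup.card_dvd_of_le hQC
      have h4 := Subgroup.card_dvd_of_le hTC
      rw [hQc Q] at h3
      rw [hTc] at h4
      have : 3 * 2 ^ 2 ∣ Nat.card (Subgroup.centralizer ({z} : Set G)) :=
        Nat.Coprime.mul_dvd_of_dvd_of_dvd (by norm_num) h3 h4
      simpa using this
    have htop : Subgroup.centralizer ({z} : Set G) = ⊤ := by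
      apply Subgroup.eq_top_of_card_eq
      have h5 := Subgroup.card_subgroup_dvd_card (Subgroup.centralizer ({z} : Set G))
      rw [hG] at h5 ⊢
      exact Nat.dvd_antisymm h5 h12
    rw [Subgroup.mem_center_iff]
    intro g
    have : g ∈ Subgroup.centralizer ({z} : Set G) := by rw [htop]; trivial
    rw [Subgroup.mem_centralizer_singleton_iff] at this
    exact this
  · -- four Sylow 3-subgroups: the permutation representation
    have hN : ∀ Q : Sylow 3 G, Subgroup.normalizer (Q : Set G) = Q := by
      intro Q
      have h1 := Sylow.card_eq_index_normalizer Q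
      rw [hn] at h1
      have h2 := Subgroup.card_mul_index (Subgroup.normalizer (Q : Set G))
      rw [← h1, hG] at h2
      have h3 : Nat.card (Subgroup.normalizer (Q : Set G)) = 3 := by omega
      symm
      have hle : (Q : Subgroup G) ≤ Subgroup.normalizer (Q : Set G) := Subgroup.le_normalizer
      apply Subgroup.eq_of_le_of_card_ge hle
      rw [h3, hQc Q]
    let e : Sylow 3 G ≃ Fin 4 := Finite.equivFinOfCardEq hn
    let ψ : G →* Equiv.Perm (Fin 4) :=
      (e.permCongrHom.toMonoidHom).comp (MulAction.toPermHom G (Sylow 3 G))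
    have hψ : Function.Injective ψ := by
      apply (e.permCongrHom.injective).comp
      rw [injective_iff_map_eq_one]
      intro g hg
      have hmem : ∀ Q : Sylow 3 G, g ∈ Q := by
        intro Q
        have h1 : g • Q = Q := by
          have := congrArg (fun σ : Equiv.Perm (Sylow 3 G) => σ Q) hg
          simpa using this
        have h2 := Sylow.smul_eq_iff_mem_normalizer.1 h1
        rw [hN Q] at h2
        exact h2
      by_contra hg1
      -- two distinct Sylow subgroups
      have hex : ∃ Q₁ Q₂ : Sylow 3 G, Q₁ ≠ Q₂ := by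
        haveI : Nontrivial (Sylow 3 G) := by
          rw [← Finite.one_lt_card_iff_nontrivial, hn]
          norm_num
        exact exists_pair_ne _
      obtain ⟨Q₁, Q₂, hQ⟩ := hex
      have key : ∀ Q : Sylow 3 G, (Q : Subgroup G) = Subgroup.zpowers g := by
        intro Q
        symm
        apply Subgroup.eq_of_le_of_card_ge
        · rw [Subgroup.zpowers_le]
          exact hmem Q
        · rw [hQc Q, Nat.card_zpowers]
          have h3 : orderOf g ∣ 3 := by
            have := Subgroup.orderOf_dvd_natCard (Q : Subgroup G) (hmem Q)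
            rwa [hQc Q] at this
          rcases (Nat.dvd_prime Nat.prime_three).1 h3 with h | h
          · exact absurd (orderOf_eq_one_iff.1 h) hg1
          · rw [h]
      exact hQ (Sylow.ext ((key Q₁).trans (key Q₂).symm))
    -- the image
    have hrange : Nat.card ψ.range = 12 := by
      rw [← hG]
      exact Nat.card_congr (MonoidHom.ofInjective hψ).toEquiv.symm
    have hperm : Nat.card (Equiv.Perm (Fin 4)) = 24 := by
      rw [Nat.card_eq_fintype_card, Fintype.card_perm, Fintype.card_fin]
      rfl
    have hidx : ψ.range.index = 2 := by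
      have := Subgroup.card_mul_index ψ.range
      rw [hrange, hperm] at this
      omega
    have hle : alternatingGroup (Fin 4) ≤ ψ.range := by
      rw [← Equiv.Perm.closure_three_cycles_eq_alternating, Subgroup.closure_le]
      intro σ hσ
      have hσ3 : σ ^ 3 = 1 := by
        have hσo : orderOf σ = 3 := Equiv.Perm.IsThreeCycle.orderOf hσ
        rw [← hσo]
        exact pow_orderOf_eq_one σ
      have e1 : σ = (σ ^ 2) ^ 2 := by
        rw [← pow_mul]
        calc σ = σ ^ 3 * σ := by rw [hσ3, one_mul]
          _ = σ ^ (2 * 2) := by rw [← pow_succ]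
      rw [e1]
      exact Subgroup.sq_mem_of_index_two hidx _
    have heq : ψ.range = alternatingGroup (Fin 4) := by
      symm
      apply Subgroup.eq_of_le_of_card_ge hle
      rw [hrange]
      have := two_mul_card_alternatingGroup (α := Fin 4)
      rw [Fintype.card_perm, Fintype.card_fin] at this
      rw [Nat.card_eq_fintype_card]
      have h24 : Nat.factorial 4 = 24 := rfl
      omega
    exact ⟨(MonoidHom.ofInjective hψ).trans (MulEquiv.subgroupCongr heq)⟩

end Cfsg.Agent.S0228
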