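import Mathlib
import Cfsg.Statements.S0276
import Cfsg.Agent.S0243
-- import your own Cfsg.Agent.* helpers here

set_option autoImplicit false
open Cfsg

namespace Cfsg.Agent.S0276

variable {F : Type*} [Field F] [Fintype F]

lemma two_by_two_ch (A : Matrix.SpecialLinearGroup (Fin 2) F) :
    (A : Matrix (Fin 2) (Fin 2) F) * (A : Matrix (Fin 2) (Fin 2) F)
      = Matrix.trace (A : Matrix (Fin 2) (Fin 2) F) • (A : Matrix (Fin 2) (Fin 2) F) - 1 := by
  have hdet := A.2
  rw [Matrix.det_fin_two] at hdet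
  ext i j
  fin_cases i <;> fin_cases j <;>
    simp [Matrix.mul_apply, Fin.sum_univ_two, Matrix.trace_fin_two] <;>
    first | ring1 | linear_combination -hdet

/-- In `SL₂` over a field of odd characteristic, `h² = 1` forces `h` to be central. -/
lemma sq_one_center (h2 : (2 : F) ≠ 0) (h : Matrix.SpecialLinearGroup (Fin 2) F) (hh : h * h = 1) :
    h ∈ Subgroup.center (Matrix.SpecialLinearGroup (Fin 2) F) := by
  have h1 := two_by_two_ch h
  have h3 : (h : Matrix (Fin 2) (Fin 2) F) * (h : Matrix (Fin 2) (Fin 2) F) = 1 := by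
    have := congrArg (fun x : Matrix.SpecialLinearGroup (Fin 2) F => (x : Matrix (Fin 2) (Fin 2) F)) hh
    simpa using this
  rw [h3] at h1
  set t := Matrix.trace (h : Matrix (Fin 2) (Fin 2) F) with ht
  have h4 : t • (h : Matrix (Fin 2) (Fin 2) F) = (2 : F) • 1 := by
    have : t • (h : Matrix (Fin 2) (Fin 2) F) = 1 + 1 := by
      rw [← sub_eq_iff_eq_add.1 h1.symm]
    rw [this, two_smul]
  have ht0 : t ≠ 0 := by
    rintro h0
    rw [h0, zero_smul] at h4
    have := congrFun (congrFun h4 0) 0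
    simp at this
    exact h2 this.symm
  have h5 : (h : Matrix (Fin 2) (Fin 2) F) = (2 / t) • 1 := by
    rw [div_eq_inv_mul, mul_smul, ← h4, smul_smul, inv_mul_cancel₀ ht0, one_smul]
  rw [Matrix.SpecialLinearGroup.mem_center_iff]
  refine ⟨2 / t, ?_, ?_⟩
  · have hdet := h.2
    rw [h5] at hdet
    simpa [Matrix.det_smul] using hdet
  · rw [h5]
    ext i j
    simp [Matrix.scalar_apply, Matrix.diagonal_apply, Matrix.one_apply]

/-- No element of order four. -/
lemma no_order_four (h2 : (2 : F) ≠ 0) (h3 : ¬ IsSquare (2 : F))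
    (x : Matrix.ProjectiveSpecialLinearGroup (Fin 2) F) (hx : x ^ 4 = 1) : x ^ 2 = 1 := by
  obtain ⟨g, rfl⟩ := QuotientGroup.mk_surjective x
  have hg4 : g ^ 4 ∈ Subgroup.center (Matrix.SpecialLinearGroup (Fin 2) F) := by
    rw [← QuotientGroup.eq_one_iff]
    exact hx
  set h := g ^ 2 with hh
  have hmain : h ∈ Subgroup.center (Matrix.SpecialLinearGroup (Fin 2) F) := by
    have hhh : h * h = g ^ 4 := by rw [hh, ← pow_add]
    rw [← hhh, Matrix.SpecialLinearGroup.mem_center_iff] at hg4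
    obtain ⟨r, hr, hr'⟩ := hg4
    simp only [Fintype.card_fin] at hr
    rcases sq_eq_one_iff.1 hr with rfl | rfl
    · apply sq_one_center h2
      have h9 : ((h * h : Matrix.SpecialLinearGroup (Fin 2) F) : Matrix (Fin 2) (Fin 2) F) = 1 := by
        rw [← hr']
        simp
      exact Subtype.ext (h9.trans Matrix.SpecialLinearGroup.coe_one.symm)
    · exfalso
      -- `h h = -1`, trace computation
      have h1 := two_by_two_ch h
      have h4 : (h : Matrix (Fin 2) (Fin 2) F) * (h : Matrix (Fin 2) (Fin 2) F) = -1 := by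
        have h9 : ((h * h : Matrix.SpecialLinearGroup (Fin 2) F) : Matrix (Fin 2) (Fin 2) F) = -1 := by
          rw [← hr']
          ext i j
          simp [Matrix.scalar_apply, Matrix.diagonal_apply, Matrix.one_apply]
          split_ifs <;> simp
        rwa [Matrix.SpecialLinearGroup.coe_mul] at h9
      rw [h4] at h1
      have h5 : Matrix.trace (h : Matrix (Fin 2) (Fin 2) F) • (h : Matrix (Fin 2) (Fin 2) F) = 0 := by
        have : Matrix.trace (h : Matrix (Fin 2) (Fin 2) F) • (h : Matrix (Fin 2) (Fin 2) F) - 1 = -1 := h1.symm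
        rw [sub_eq_iff_eq_add] at this
        simpa using this
      have h6 : Matrix.trace (h : Matrix (Fin 2) (Fin 2) F) = 0 := by
        by_contra hne
        have h7 : (h : Matrix (Fin 2) (Fin 2) F) = 0 := by
          rcases smul_eq_zero.1 h5 with h8 | h8
          · exact absurd h8 hne
          · exact h8
        have hdet := h.2
        rw [h7] at hdet
        simp at hdet
      have h7 : (h : Matrix (Fin 2) (Fin 2) F) = (g : Matrix (Fin 2) (Fin 2) F) * (g : Matrix (Fin 2) (Fin 2) F) := by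
        rw [hh, sq, Matrix.SpecialLinearGroup.coe_mul]
      rw [h7, two_by_two_ch g, Matrix.trace_sub, Matrix.trace_smul, Matrix.trace_one] at h6
      apply h3
      refine ⟨Matrix.trace (g : Matrix (Fin 2) (Fin 2) F), ?_⟩
      simp only [Fintype.card_fin, smul_eq_mul, Nat.cast_ofNat] at h6
      linear_combination -h6
  change (QuotientGroup.mk (g ^ 2) : Matrix.ProjectiveSpecialLinearGroup (Fin 2) F) = 1
  rw [QuotientGroup.eq_one_iff]
  exact hmain

theorem main {q : ℕ} (hF : Fintype.card F = q) (hq : q % 8 = 3 ∨ q % 8 = 5)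
    (P : Sylow 2 (Matrix.ProjectiveSpecialLinearGroup (Fin 2) F)) :
    IsKleinFour (P : Subgroup (Matrix.ProjectiveSpecialLinearGroup (Fin 2) F)) := by
  classical
  have h2 : (2 : F) ≠ 0 := by
    intro h
    have hc : CharP F 2 := CharTwo.of_one_ne_zero_of_two_eq_zero one_ne_zero h
    have := FiniteField.even_card_of_char_two (F := F) (by rw [ringChar.eq F 2])
    omega
  have h3 : ¬ IsSquare (2 : F) := by
    rw [FiniteField.isSquare_two_iff, hF]
    omega
  have hq2 : 2 ≤ q := by rw [← hF]; exact Fintype.one_lt_card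
  obtain ⟨r, rfl⟩ : ∃ r, q = r + 1 := ⟨q - 1, by omega⟩
  have hcard := Cfsg.Agent.S0243.result hF 2 (le_refl 2)
  -- order of PSL
  set N := Nat.card (Matrix.ProjectiveSpecialLinearGroup (Fin 2) F) with hN
  have hgcd : Nat.gcd 2 (r + 1 - 1) = 2 := by
    simp only [Nat.add_sub_cancel]
    apply Nat.gcd_eq_left
    omega
  rw [hgcd, Fin.prod_univ_two] at hcard
  simp only [Fin.val_zero, Fin.val_one, pow_zero, pow_one, Nat.add_sub_cancel] at hcard
  -- write `r + 1 = 2 s + 1`
  obtain ⟨s, hs⟩ : ∃ s, r = 2 * s := ⟨r / 2, by omega⟩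
  have hs' : s % 4 = 1 ∨ s % 4 = 2 := by omega
  subst hs
  have hq3 : ((2 * s + 1) ^ 2 - 1) = 4 * s * (s + 1) := by
    have : (2 * s + 1) ^ 2 = 4 * s * (s + 1) + 1 := by ring
    omega
  have hq4 : ((2 * s + 1) ^ 2 - (2 * s + 1)) = (2 * s + 1) * (2 * s) := by
    have : (2 * s + 1) ^ 2 = (2 * s + 1) * (2 * s) + (2 * s + 1) := by ring
    omega
  rw [hq3, hq4] at hcard
  have hs0 : 0 < s := by omega
  have hN2 : N = 2 * ((2 * s + 1) * (s * (s + 1))) := by
    have : 2 * (2 * s) * N = 2 * (2 * s) * (2 * ((2 * s + 1) * (s * (s + 1)))) := by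
      calc 2 * (2 * s) * N = 2 * (2 * s * N) := by ring
        _ = _ := hcard
        _ = _ := by ring
    exact Nat.eq_of_mul_eq_mul_left (by omega) this
  -- `s (s + 1) = 2 · odd`
  obtain ⟨u, hu, hu2⟩ : ∃ u, Odd u ∧ s * (s + 1) = 2 * u := by
    rcases hs' with h | h
    · -- `s ≡ 1 mod 4`
      obtain ⟨t, ht⟩ : ∃ t, s = 4 * t + 1 := ⟨s / 4, by omega⟩
      refine ⟨(4 * t + 1) * (2 * t + 1), Odd.mul ⟨2 * t, by ring⟩ ⟨t, by ring⟩, ?_⟩
      rw [ht]; ring
    · obtain ⟨t, ht⟩ : ∃ t, s = 4 * t + 2 := ⟨s / 4, by omega⟩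
      refine ⟨(2 * t + 1) * (4 * t + 3), Odd.mul ⟨t, by ring⟩ ⟨2 * t + 1, by ring⟩, ?_⟩
      rw [ht]; ring
  have hodd : Odd ((2 * s + 1) * u) := Odd.mul ⟨s, rfl⟩ hu
  have hN3 : N = 2 ^ 2 * ((2 * s + 1) * u) := by
    rw [hN2, hu2]; ring
  have hfac : N.factorization 2 = 2 := by
    rw [hN3, Nat.factorization_mul (by norm_num) hodd.pos.ne', Finsupp.add_apply,
      Nat.Prime.factorization_pow Nat.prime_two, Nat.factorization_eq_zero_of_not_dvd]
    · simp
    · intro hd
      exact (Nat.not_even_iff_odd.2 hodd) (even_iff_two_dvd.2 hd)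
  have hPcard : Nat.card (P : Subgroup (Matrix.ProjectiveSpecialLinearGroup (Fin 2) F)) = 4 := by
    have hfin : Finite (Matrix.ProjectiveSpecialLinearGroup (Fin 2) F) := inferInstance
    have h := Sylow.card_eq_multiplicity P
    rw [← hN, hfac] at h
    exact h
  refine ⟨hPcard, ?_⟩
  have hdvd : Monoid.exponent (P : Subgroup (Matrix.ProjectiveSpecialLinearGroup (Fin 2) F)) ∣ 2 := by
    apply Monoid.exponent_dvd_of_forall_pow_eq_one
    intro x
    apply Subtype.ext
    have h5 : x ^ 4 = 1 := by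
      rw [← hPcard]; exact pow_card_eq_one'
    have h6 := congrArg Subtype.val h5
    exact no_order_four h2 h3 x.1 h6
  rcases (Nat.dvd_prime Nat.prime_two).1 hdvd with h | h
  · exfalso
    rw [Monoid.exp_eq_one_iff] at h
    have := Nat.card_of_subsingleton (α := (P : Subgroup (Matrix.ProjectiveSpecialLinearGroup (Fin 2) F))) 1
    rw [hPcard] at this
    omega
  · exact h


/-- For q = 3 or 5 mod 8 the Sylow 2-subgroups of PSL_2(q) are elementary abelian of order 4. -/
theorem result {F : Type*} [Field F] [Fintype F] {q : ℕ} (hF : Fintype.card F = q) (hq : q % 8 = 3 ∨ q % 8 = 5) (P : Sylow 2 (Matrix.ProjectiveSpecialLinearGroup (Fin 2) F)) : IsKleinFour (P : Subgroup (Matrix.ProjectiveSpecialLinearGroup (Fin 2) F)) := by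
  exact main hF hq P

end Cfsg.Agent.S0276
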