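import Mathlib
import Cfsg.Statements.S0281
import Cfsg.Agent.Lib.UnitarySU
import Cfsg.Agent.Lib.QuadExt
import Cfsg.Agent.S0242
-- import your own Cfsg.Agent.* helpers here

set_option autoImplicit false
open Cfsg

namespace Cfsg.Agent.S0281

section Helpers

open Cfsg.Agent.Lib.HermCount Cfsg.Agent.Lib.UnitaryBasic Cfsg.Agent.Lib.UnitarySU
open scoped Matrix

/-- An embedding of the subfield. -/
theorem exists_embedding {F K : Type*} [Field F] [Fintype F] [Field K] [Fintype K] {q : ℕ}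
    (hF : Fintype.card F = q ^ 2) (hK : Fintype.card K = q) : Nonempty (K →+* F) := by
  classical
  obtain ⟨p, hp⟩ := CharP.exists K
  obtain ⟨a, hpp, ha⟩ := FiniteField.card K p
  have hfp : Fact p.Prime := ⟨hpp⟩
  obtain ⟨r, hr⟩ := CharP.exists F
  obtain ⟨b, hrp, hb⟩ := FiniteField.card F r
  have hrpeq : r = p := by
    have h1 : r ∣ q ^ 2 := by
      rw [← hF, hb]
      exact dvd_pow_self r b.ne_zero
    have h2 : r ∣ p ^ ((a : ℕ) * 2) := by
      rw [pow_mul, ← ha, hK]
      exact h1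
    exact (Nat.prime_dvd_prime_iff_eq hrp hpp).1 (hrp.dvd_of_dvd_pow h2)
  subst hrpeq
  have hb2 : (b : ℕ) = (a : ℕ) * 2 := by
    have : r ^ (b : ℕ) = r ^ ((a : ℕ) * 2) := by
      rw [← hb, hF, ← hK, ha, pow_mul]
    exact Nat.pow_right_injective hrp.two_le this
  let _ : Algebra (ZMod r) K := ZMod.algebra K r
  let _ : Algebra (ZMod r) F := ZMod.algebra F r
  have hK2 : Module.finrank (ZMod r) K = a := by
    have h1 := Module.card_eq_pow_finrank (K := ZMod r) (V := K)
    rw [ZMod.card, ha] at h1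
    exact (Nat.pow_right_injective hrp.two_le h1).symm
  have hF2 : Module.finrank (ZMod r) F = a * 2 := by
    have h1 := Module.card_eq_pow_finrank (K := ZMod r) (V := F)
    rw [ZMod.card, hb] at h1
    rw [← hb2]
    exact (Nat.pow_right_injective hrp.two_le h1).symm
  obtain ⟨f⟩ := FiniteField.nonempty_algHom_of_finrank_dvd (F := ZMod r) (K := K) (L := F)
    (by rw [hK2, hF2]; exact Dvd.intro _ rfl)
  exact ⟨f.toRingHom⟩

variable {F K : Type*} [Field F] [Fintype F] [Field K] [Fintype K] {q : ℕ}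

/-- Data for the conjugating matrix. -/
theorem exists_data (hF : Fintype.card F = q ^ 2) :
    ∃ α α' c s : F, α * α ^ q = -1 ∧ α' * α' ^ q = -1 ∧ α ≠ α' ∧ s ≠ 0 ∧ s ^ q = -s ∧ c ≠ 0 ∧
      c ^ q * (α * α' ^ q + 1) = s := by
  classical
  have hq := two_le_q hF
  have hq0 : q ≠ 0 := by omega
  have hm1 : (-1 : F) ^ q = -1 := by rw [neg_pow_q hF, one_pow]
  have hm10 : (-1 : F) ≠ 0 := neg_ne_zero.2 one_ne_zero
  have hcard := card_nrm_fibre_ne hF hm10 hm1
  obtain ⟨α, α', hα, hα', hne⟩ : ∃ a b : F, nrm q a = -1 ∧ nrm q b = -1 ∧ a ≠ b := by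
    have h1 : 1 < (Finset.univ.filter fun x : F => nrm q x = -1).card := by omega
    obtain ⟨a, ha, b, hb, hab⟩ := Finset.one_lt_card.1 h1
    simp only [Finset.mem_filter, Finset.mem_univ, true_and] at ha hb
    exact ⟨a, b, ha, hb, hab⟩
  -- a skew element
  obtain ⟨x, hx⟩ : ∃ x : F, x ^ q ≠ x := by
    by_contra hall
    push Not at hall
    -- the fixed points are too many
    have hroots := FiniteField.X_pow_card_sub_X_ne_zero F (show 1 < q by omega)
    have h1 : (Finset.univ : Finset F) ⊆ (Polynomial.X ^ q - Polynomial.X : Polynomial F).roots.toFinset := by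
      intro y _
      rw [Multiset.mem_toFinset, Polynomial.mem_roots hroots]
      simp [Polynomial.IsRoot, hall y]
    have h2 := Finset.card_le_card h1
    have h3 : (Polynomial.X ^ q - Polynomial.X : Polynomial F).roots.toFinset.card ≤ q := by
      calc _ ≤ Multiset.card (Polynomial.X ^ q - Polynomial.X : Polynomial F).roots :=
            Multiset.toFinset_card_le _
        _ ≤ (Polynomial.X ^ q - Polynomial.X : Polynomial F).natDegree := Polynomial.card_roots' _
        _ = q := FiniteField.X_pow_card_sub_X_natDegree_eq F (by omega)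
    rw [Finset.card_univ, hF] at h2
    have h4 : q ^ 2 ≤ q := h2.trans h3
    nlinarith
  set s := x - x ^ q with hs
  have hs0 : s ≠ 0 := sub_ne_zero.2 (Ne.symm hx)
  have hsq : s ^ q = -s := by
    rw [hs, sub_pow_q hF, pow_q_pow_q hF]
    ring
  have hαα : α * α ^ q = -1 := hα
  have hαα' : α' * α' ^ q = -1 := hα'
  have hα0 : α ≠ 0 := by
    rintro rfl
    rw [zero_mul] at hαα
    exact hm10 hαα.symm
  set t := α * α' ^ q + 1 with ht
  have ht0 : t ≠ 0 := by
    intro h0
    have h1 : α * α' ^ q = α * α ^ q := by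
      rw [hαα]
      linear_combination h0
    have h2 : α' ^ q = α ^ q := mul_left_cancel₀ hα0 h1
    have h3 : α' = α := by
      have := congrArg (fun y : F => y ^ q) h2
      simpa [pow_q_pow_q hF] using this
    exact hne h3.symm
  refine ⟨α, α', (s / t) ^ q, s, hαα, hαα', hne, hs0, hsq, pow_ne_zero _ (div_ne_zero hs0 ht0), ?_⟩
  rw [pow_q_pow_q hF, ← ht]
  field_simp

/-- The form in the basis given by the columns of `P`. -/
def brk (q : ℕ) (x y : Fin 2 → F) : F := x 0 * (y 1) ^ q - x 1 * (y 0) ^ q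

lemma herm_P (hF : Fintype.card F = q ^ 2) {α α' c s : F} (h1 : α * α ^ q = -1) (h2 : α' * α' ^ q = -1)
    (h3 : c ^ q * (α * α' ^ q + 1) = s) (hs : s ^ q = -s) (x y : Fin 2 → F) :
    hermForm 2 F q (!![α, c * α'; 1, c] *ᵥ x) (!![α, c * α'; 1, c] *ᵥ y) = s * brk q x y := by
  have h4 : c * (α ^ q * α' + 1) = -s := by
    have := congrArg (fun y : F => y ^ q) h3
    simp only [mul_pow, add_pow_q hF, pow_q_pow_q hF, one_pow, hs] at this
    exact this
  simp only [hermForm, Fin.sum_univ_two, Matrix.mulVec, dotProduct, Matrix.of_apply, Matrix.cons_val',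
    Matrix.cons_val_zero, Matrix.cons_val_one, Matrix.cons_val_fin_one, brk,
    add_pow_q hF, mul_pow, one_mul, one_pow]
  linear_combination (x 0 * y 0 ^ q) * h1 + (x 1 * y 1 ^ q * c * c ^ q) * h2 + (x 1 * y 0 ^ q) * h4
    + (x 0 * y 1 ^ q) * h3

lemma brk_G (hF : Fintype.card F = q ^ 2) (hK : Fintype.card K = q) (ι : K →+* F)
    (g : Matrix.SpecialLinearGroup (Fin 2) K) (x y : Fin 2 → F) :
    brk q ((g.1.map ι) *ᵥ x) ((g.1.map ι) *ᵥ y) = brk q x y := by
  have hfix : ∀ a : K, (ι a) ^ q = ι a := by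
    intro a
    rw [← map_pow, ← hK, FiniteField.pow_card]
  have hdet : ι (g.1 0 0) * ι (g.1 1 1) - ι (g.1 0 1) * ι (g.1 1 0) = 1 := by
    have := g.2
    rw [Matrix.det_fin_two] at this
    have h2 := congrArg ι this
    simpa using h2
  simp only [brk, Matrix.mulVec, dotProduct, Fin.sum_univ_two, Matrix.map_apply, add_pow_q hF, mul_pow, hfix]
  linear_combination (x 0 * y 1 ^ q - x 1 * y 0 ^ q) * hdet

/-- The conjugated matrix. -/
noncomputable def conjMat (P : Matrix (Fin 2) (Fin 2) F) (ι : K →+* F)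
    (g : Matrix.SpecialLinearGroup (Fin 2) K) : Matrix (Fin 2) (Fin 2) F :=
  P * g.1.map ι * P⁻¹

lemma conjMat_mul {P : Matrix (Fin 2) (Fin 2) F} (hP : P.det ≠ 0) (ι : K →+* F)
    (g h : Matrix.SpecialLinearGroup (Fin 2) K) :
    conjMat P ι (g * h) = conjMat P ι g * conjMat P ι h := by
  have hinv : P⁻¹ * P = 1 := Matrix.nonsing_inv_mul _ (isUnit_iff_ne_zero.2 hP)
  simp only [conjMat, Matrix.SpecialLinearGroup.coe_mul]
  rw [Matrix.map_mul]
  calc P * (g.1.map ι * h.1.map ι) * P⁻¹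
      = P * g.1.map ι * 1 * h.1.map ι * P⁻¹ := by simp [Matrix.mul_assoc]
    _ = P * g.1.map ι * (P⁻¹ * P) * h.1.map ι * P⁻¹ := by rw [hinv]
    _ = _ := by simp only [Matrix.mul_assoc]

lemma conjMat_det {P : Matrix (Fin 2) (Fin 2) F} (hP : P.det ≠ 0) (ι : K →+* F)
    (g : Matrix.SpecialLinearGroup (Fin 2) K) : (conjMat P ι g).det = 1 := by
  have hinv : P⁻¹ * P = 1 := Matrix.nonsing_inv_mul _ (isUnit_iff_ne_zero.2 hP)
  rw [conjMat, Matrix.det_mul, Matrix.det_mul, mul_comm, ← mul_assoc, ← Matrix.det_mul, hinv,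
    Matrix.det_one, one_mul]
  have h1 : (g.1.map ι).det = ι g.1.det := (RingHom.map_det ι g.1).symm
  rw [h1, g.2, map_one]

theorem main (hF : Fintype.card F = q ^ 2) (hK : Fintype.card K = q) :
    Nonempty (SU 2 F q ≃* Matrix.SpecialLinearGroup (Fin 2) K) := by
  classical
  have hq := two_le_q hF
  obtain ⟨ι⟩ := exists_embedding hF hK
  obtain ⟨α, α', c, s, h1, h2, hne, hs0, hs, hc0, h3⟩ := exists_data hF
  set P : Matrix (Fin 2) (Fin 2) F := !![α, c * α'; 1, c] with hP
  have hPdet : P.det ≠ 0 := by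
    rw [hP, Matrix.det_fin_two_of]
    have : α * c - c * α' * 1 = c * (α - α') := by ring
    rw [this]
    exact mul_ne_zero hc0 (sub_ne_zero.2 hne)
  have hPinv : P * P⁻¹ = 1 := Matrix.mul_nonsing_inv _ (isUnit_iff_ne_zero.2 hPdet)
  have hunit : ∀ g : Matrix.SpecialLinearGroup (Fin 2) K, ∀ u v : Fin 2 → F,
      hermForm 2 F q (conjMat P ι g *ᵥ u) (conjMat P ι g *ᵥ v) = hermForm 2 F q u v := by
    intro g u v
    have hu : ∀ w : Fin 2 → F, conjMat P ι g *ᵥ w = P *ᵥ ((g.1.map ι) *ᵥ (P⁻¹ *ᵥ w)) := by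
      intro w
      simp only [conjMat, Matrix.mulVec_mulVec, Matrix.mul_assoc]
    have hw : ∀ w : Fin 2 → F, w = P *ᵥ (P⁻¹ *ᵥ w) := by
      intro w
      rw [Matrix.mulVec_mulVec, hPinv, Matrix.one_mulVec]
    rw [hu, hu]
    rw [herm_P hF h1 h2 h3 hs, brk_G hF hK ι g, ← herm_P hF h1 h2 h3 hs, ← hw, ← hw]
  let Φ0 : Matrix.SpecialLinearGroup (Fin 2) K → SU 2 F q := fun g =>
    SUofMatrix (conjMat P ι g) (conjMat_det hPdet ι g) (hunit g)
  let Φ : Matrix.SpecialLinearGroup (Fin 2) K →* SU 2 F q := MonoidHom.mk' Φ0 (by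
    intro g h
    apply Subtype.ext
    apply Subtype.ext
    exact conjMat_mul hPdet ι g h)
  have hinj : Function.Injective Φ := by
    intro g h hgh
    have h4 : conjMat P ι g = conjMat P ι h := by
      have := congrArg (fun x : SU 2 F q => (x.1.1 : Matrix (Fin 2) (Fin 2) F)) hgh
      exact this
    have h5 : g.1.map ι = h.1.map ι := by
      have hinv : P⁻¹ * P = 1 := Matrix.nonsing_inv_mul _ (isUnit_iff_ne_zero.2 hPdet)
      have h6 : P⁻¹ * (P * g.1.map ι * P⁻¹) * P = P⁻¹ * (P * h.1.map ι * P⁻¹) * P := by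
        rw [show P * g.1.map ι * P⁻¹ = conjMat P ι g from rfl,
          show P * h.1.map ι * P⁻¹ = conjMat P ι h from rfl, h4]
      have h7 : ∀ A : Matrix (Fin 2) (Fin 2) F, P⁻¹ * (P * A * P⁻¹) * P = A := by
        intro A
        calc P⁻¹ * (P * A * P⁻¹) * P = (P⁻¹ * P) * A * (P⁻¹ * P) := by simp only [Matrix.mul_assoc]
          _ = A := by rw [hinv, Matrix.one_mul, Matrix.mul_one]
      rwa [h7, h7] at h6
    apply Subtype.ext
    ext a b
    have := congrFun (congrFun h5 a) b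
    exact ι.injective this
  have hcard : Nat.card (Matrix.SpecialLinearGroup (Fin 2) K) = Nat.card (SU 2 F q) := by
    have h8 := Cfsg.Agent.S0242.result hK 2 (by norm_num)
    have h9 := card_SU hF 2 (by norm_num)
    rw [Fin.prod_univ_two] at h8
    simp only [Fin.val_zero, Fin.val_one, pow_zero, pow_one] at h8
    have h9' : q ^ (2 * (2 - 1) / 2) * ∏ i ∈ Finset.range 2,
        (if Even i then q ^ (i + 1) + 1 else q ^ (i + 1) - 1) = q * ((q + 1) * (q ^ 2 - 1)) := by
      norm_num [Finset.prod_range_succ, Nat.even_iff]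
    rw [h9'] at h9
    obtain ⟨r, rfl⟩ : ∃ r, q = r + 1 := ⟨q - 1, by omega⟩
    have hr : 0 < r := by omega
    simp only [Nat.add_sub_cancel] at h8
    have h10 : (r + 1) ^ 2 - (r + 1) = (r + 1) * r := by
      have : (r + 1) ^ 2 = (r + 1) * r + (r + 1) := by ring
      omega
    rw [h10] at h8
    set Y := (r + 1) ^ 2 - 1 with hY
    have h11 : r * Nat.card (Matrix.SpecialLinearGroup (Fin 2) K) = r * ((r + 1) * Y) := by
      rw [h8]; ring
    have h12 : (r + 1 + 1) * Nat.card (SU 2 F (r + 1)) = (r + 1 + 1) * ((r + 1) * Y) := by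
      rw [h9]; ring
    rw [Nat.eq_of_mul_eq_mul_left hr h11, Nat.eq_of_mul_eq_mul_left (by omega) h12]
  have hbij : Function.Bijective Φ := by
    rw [Nat.bijective_iff_injective_and_card]
    exact ⟨hinj, hcard⟩
  exact ⟨(MulEquiv.ofBijective Φ hbij).symm⟩


end Helpers


/-- SU_2(q) is isomorphic to SL_2(q). -/
theorem result {F K : Type*} [Field F] [Fintype F] [Field K] [Fintype K] {q : ℕ} (hF : Fintype.card F = q ^ 2) (hK : Fintype.card K = q) : Nonempty (Cfsg.SU 2 F q ≃* Matrix.SpecialLinearGroup (Fin 2) K) := by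
  exact main hF hK

end Cfsg.Agent.S0281
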