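import Mathlib
import Cfsg.Statements.S0454
import Cfsg.Agent.Lib.LyDce.CarRel
import Cfsg.Agent.Lib.DoubleA11

set_option autoImplicit false
set_option linter.all false
set_option Elab.async false
set_option maxHeartbeats 0
open Cfsg

namespace Cfsg.Agent.S0454

open Cfsg.Agent.Lib.LyDce

local notation "NN" => (8835156 : ℕ)

/-- The action on the cosets, with the base point at `0`. -/
theorem exists_equiv : ∃ e : G ⧸ HB ≃ Fin 8835156, e ((1 : G) : G ⧸ HB) = 0 := by
  classical
  have h : Nat.card (G ⧸ HB) = 8835156 := index_eq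
  let e0 : G ⧸ HB ≃ Fin 8835156 := Finite.equivFinOfCardEq h
  refine ⟨e0.trans (Equiv.swap (e0 ((1 : G) : G ⧸ HB)) 0), ?_⟩
  simp

/-- The statement for an arbitrary faithful image. -/
theorem assemble (e : G ⧸ HB ≃ Fin 8835156) (he : e ((1 : G) : G ⧸ HB) = 0) :
    ∃ H : Subgroup (Equiv.Perm (Fin 8835156)), Cfsg.IsLy H ∧ MulAction.IsPretransitive H (Fin 8835156) ∧ Cfsg.IsG2 (MulAction.stabilizer H (0 : Fin 8835156)) ∧ ∃ t : H, orderOf t = 2 ∧ Cfsg.IsNonsplitDoubleCover (Subgroup.centralizer ({t} : Set H)) (alternatingGroup (Fin 11)) := by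
  classical
  haveI hsG : IsSimpleGroup G := simple_G
  let φ : G →* Equiv.Perm (Fin 8835156) :=
    (e.permCongrHom.toMonoidHom).comp (MulAction.toPermHom G (G ⧸ HB))
  have hφ : ∀ (g : G) (q : G ⧸ HB), φ g (e q) = e (g • q) := by
    intro g q
    show e ((MulAction.toPermHom G (G ⧸ HB) g) (e.symm (e q))) = _
    rw [Equiv.symm_apply_apply]
    rfl
  have hbase : ∀ g : G, φ g 0 = 0 ↔ g ∈ HB := by
    intro g
    rw [← he, hφ, e.apply_eq_iff_eq, MulAction.Quotient.smul_coe, smul_eq_mul, mul_one, QuotientGroup.eq]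
    simp
  have hHB : HB ≠ ⊤ := by
    intro h
    have h2 : HB.index = 1 := Subgroup.index_eq_one.mpr h
    rw [index_eq] at h2
    norm_num at h2
  have hinj : Function.Injective φ := by
    rw [← MonoidHom.ker_eq_bot_iff]
    rcases IsSimpleGroup.eq_bot_or_eq_top_of_normal (G := G) φ.ker inferInstance with h | h
    · exact h
    · exfalso
      apply hHB
      rw [eq_top_iff]
      intro g _
      have : g ∈ φ.ker := by rw [h]; trivial
      have h3 : φ g = 1 := this
      rw [← hbase, h3]
      rfl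
  let H : Subgroup (Equiv.Perm (Fin 8835156)) := φ.range
  let ψ : G ≃* H := MonoidHom.ofInjective hinj
  have hψ : ∀ g : G, ((ψ g : H) : Equiv.Perm (Fin 8835156)) = φ g := fun g => rfl
  have hlift : ∀ y : H, ∃ g : G, ψ g = y := fun y => ψ.surjective y
  -- the stabiliser
  let ι : HB →* MulAction.stabilizer H (0 : Fin 8835156) :=
    MonoidHom.codRestrict (ψ.toMonoidHom.comp HB.subtype) _ (fun g => by
      rw [MulAction.mem_stabilizer_iff]
      exact (hbase g).mpr g.2)
  have hι : Function.Bijective ι := by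
    constructor
    · intro a b h
      have h1 : ψ (a : G) = ψ (b : G) := congrArg Subtype.val h
      exact Subtype.ext (ψ.injective h1)
    · rintro ⟨y, hy⟩
      obtain ⟨g, rfl⟩ := hlift y
      have hg : g ∈ HB := (hbase g).mp (MulAction.mem_stabilizer_iff.mp hy)
      exact ⟨⟨g, hg⟩, rfl⟩
  let ιE : HB ≃* MulAction.stabilizer H (0 : Fin 8835156) := MulEquiv.ofBijective ι hι
  -- the relations
  obtain ⟨gh, gs, a1, a2, a3, a4, a5, a6, a7, a8⟩ := car_data
  let t : H := ψ (xT : G)
  have ht2 : t ^ 2 = 1 := by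
    have : (xT : G) ^ 2 = 1 := by
      rw [sq]
      exact congrArg Subtype.val xT_sq
    rw [← map_pow, this, map_one]
  have ht1 : t ≠ 1 := by
    intro h
    have h1 : (xT : G) = 1 := ψ.injective (by rw [map_one]; exact h)
    exact xT_ne (Subtype.ext h1)
  have hcardH : Nat.card (Subgroup.centralizer ({t} : Set H)) < 79833600 := by
    refine lt_of_le_of_lt ?_ cent_lt
    refine Nat.card_le_card_of_injective
      (fun y : Subgroup.centralizer ({t} : Set H) => (⟨ψ.symm (y : H), ?_⟩ : Subgroup.centralizer ({(xT : G)} : Set G))) ?_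
    · rw [Subgroup.mem_centralizer_singleton_iff]
      apply ψ.injective
      rw [map_mul, map_mul, MulEquiv.apply_symm_apply]
      exact Subgroup.mem_centralizer_singleton_iff.mp y.2
    · intro a b h
      have h1 : ψ.symm (a : H) = ψ.symm (b : H) := congrArg Subtype.val h
      exact Subtype.ext (ψ.symm.injective h1)
  haveI : Finite H := Finite.of_equiv _ ψ.toEquiv
  refine ⟨H, ⟨ψ.symm.isSimpleGroup, ?_⟩, ⟨?_⟩, ⟨ιE.symm.isSimpleGroup, 5, ?_, by norm_num, ?_⟩, t, orderOf_eq_prime ht2 ht1, ?_⟩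
  · rw [← Nat.card_congr ψ.toEquiv]
    exact card_G
  · intro a b
    obtain ⟨x, rfl⟩ := e.surjective a
    obtain ⟨y, rfl⟩ := e.surjective b
    obtain ⟨g, rfl⟩ := MulAction.exists_smul_eq G x y
    refine ⟨ψ g, ?_⟩
    show φ g (e x) = _
    rw [hφ]
  · exact (Nat.prime_five).isPrimePow
  · rw [← Nat.card_congr ιE.toEquiv, card_HB]
    norm_num
  · refine Cfsg.Agent.Lib.DoubleA11.main (t := t) (h := ψ gh) (s := ψ gs) ht2 ht1 ?_ ?_ ?_ ?_ ?_ ?_ ?_ ?_ hcardH
    · rw [← map_mul, a1, map_mul]
    · rw [← map_mul, a2, map_mul]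
    · rcases a3 with e3 | e3
      · left
        rw [← map_pow, e3, map_one]
      · right
        rw [← map_pow, e3]
    · rw [← map_pow, a4, map_one]
    · have := congrArg ψ a5
      simpa only [map_mul, map_pow, map_inv] using this
    · have := congrArg ψ a6
      simpa only [map_mul, map_pow, map_inv] using this
    · have := congrArg ψ a7
      simpa only [map_mul, map_pow, map_inv] using this
    · have := congrArg ψ a8
      simpa only [map_mul, map_pow, map_inv] using this

/-- Existence of the Lyons group. -/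
theorem result : ∃ H : Subgroup (Equiv.Perm (Fin 8835156)), Cfsg.IsLy H ∧ MulAction.IsPretransitive H (Fin 8835156) ∧ Cfsg.IsG2 (MulAction.stabilizer H (0 : Fin 8835156)) ∧ ∃ t : H, orderOf t = 2 ∧ Cfsg.IsNonsplitDoubleCover (Subgroup.centralizer ({t} : Set H)) (alternatingGroup (Fin 11)) := by
  obtain ⟨e, he⟩ := exists_equiv
  exact assemble e he

end Cfsg.Agent.S0454
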