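import Mathlib
import Cfsg.Statements.S0581
import Cfsg.Agent.S0046
import Cfsg.Agent.Lib.Hall
import Cfsg.Agent.Lib.MinNorm
import Cfsg.Agent.Lib.Factorized
import Cfsg.Agent.Lib.PComplement
import Cfsg.Agent.Lib.SuperSolv2

set_option autoImplicit false
set_option linter.style.haveILetI false
open Cfsg

namespace Cfsg.Agent.S0581

open Subgroup Cfsg.Agent.Lib.Factorized
open scoped Pointwise
open Cfsg.Agent.Lib.Hall (exists_conj_le_of_not_dvd_index le_of_normal_of_not_dvd_index)
open Cfsg.Agent.Lib.PComplement (commute_of_isNilpotent)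

universe u

theorem nil_of_inj {A B : Type*} [Group A] [Group B] [Group.IsNilpotent B] (f : A →* B)
    (hf : Function.Injective f) : Group.IsNilpotent A :=
  Group.nilpotent_of_mulEquiv (MonoidHom.ofInjective hf).symm

variable {G : Type*} [Group G]

theorem nil_conj (H : Subgroup G) (hH : Group.IsNilpotent H) (x : G) :
    Group.IsNilpotent ↥(MulAut.conj x • H) :=
  Group.nilpotent_of_mulEquiv (Subgroup.equivSMul (MulAut.conj x) H)

theorem card_conj (H : Subgroup G) (x : G) : Nat.card ↥(MulAut.conj x • H) = Nat.card H :=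
  (Nat.card_congr (Subgroup.equivSMul (MulAut.conj x) H).toEquiv).symm

theorem index_conj [Finite G] (H : Subgroup G) (x : G) : (MulAut.conj x • H).index = H.index := by
  have h1 := (MulAut.conj x • H).card_mul_index
  have h2 := H.card_mul_index
  rw [card_conj] at h1
  exact Nat.eq_of_mul_eq_mul_left Nat.card_pos (h1.trans h2.symm)

theorem card_subgroupOf_dvd [Finite G] (A M : Subgroup G) :
    Nat.card ↥(A.subgroupOf M) ∣ Nat.card A := by
  have h1 : Nat.card ↥(A.subgroupOf M) = Nat.card ↥((A.subgroupOf M).map M.subtype) :=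
    (Subgroup.card_map_of_injective M.subtype_injective).symm
  rw [h1, Subgroup.subgroupOf_map_subtype A M]
  exact Subgroup.card_dvd_of_le inf_le_left

/-- Wielandt's theorem, in a form suitable for the induction. -/
theorem main (n : ℕ) : ∀ (G : Type u) [Group G] [Finite G], Nat.card G = n → ∀ (m : ℕ)
    (U H : Subgroup G), Nat.card U = m → Group.IsNilpotent H → (Nat.card H).Coprime H.index →
    (Nat.card U).Coprime H.index → ∃ x : G, U ≤ MulAut.conj x • H := by
  induction n using Nat.strong_induction_on with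
  | _ n ih =>
  intro G _ _ hG m
  induction m using Nat.strong_induction_on with
  | _ m ihm =>
  intro U H hU hH hHc hUc
  by_cases hU1 : U = ⊥
  · exact ⟨1, by rw [hU1]; exact bot_le⟩
  -- proper subgroups of `U` are nilpotent
  have hprop : ∀ V : Subgroup G, V < U → Group.IsNilpotent V := by
    intro V hV
    have hdvd : Nat.card V ∣ Nat.card U := Subgroup.card_dvd_of_le hV.le
    have hlt : Nat.card V < Nat.card U := by
      refine lt_of_le_of_ne (Nat.le_of_dvd Nat.card_pos hdvd) (fun h => hV.ne ?_)
      exact Subgroup.eq_of_le_of_card_ge hV.le h.ge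
    obtain ⟨x, hx⟩ := ihm (Nat.card V) (hU ▸ hlt) V H rfl hH hHc (Nat.Coprime.coprime_dvd_left hdvd hUc)
    haveI := nil_conj H hH x
    exact nil_of_inj (Subgroup.inclusion hx) (Subgroup.inclusion_injective hx)
  have hsolv : Group.IsSolvable U := by
    refine Cfsg.Agent.S0046.result (G := U) (fun M hM => ?_)
    have hlt : M.map U.subtype < U := by
      refine lt_of_le_of_ne ?_ ?_
      · rintro _ ⟨a, -, rfl⟩
        exact a.2
      · intro h
        apply hM.1
        rw [eq_top_iff]
        intro a _
        have : (a : G) ∈ M.map U.subtype := by rw [h]; exact a.2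
        obtain ⟨b, hb, hb2⟩ := this
        have : b = a := Subtype.ext hb2
        exact this ▸ hb
    haveI := hprop _ hlt
    exact Group.nilpotent_of_mulEquiv (M.equivMapOfInjective U.subtype U.subtype_injective).symm
  have htopne : (⊤ : Subgroup U) ≠ ⊥ := by
    intro h
    apply hU1
    rw [eq_bot_iff]
    intro a ha
    have : (⟨a, ha⟩ : U) ∈ (⊤ : Subgroup U) := mem_top _
    rw [h, Subgroup.mem_bot] at this
    exact Subgroup.mem_bot.mpr (congrArg Subtype.val this)
  obtain ⟨r, M₀, hr, hM₀n, hM₀b, -, -, he⟩ :=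
    Cfsg.Agent.Lib.MinNorm.exists_abelian_exponent_normal_le (⊤ : Subgroup U) inferInstance htopne
  haveI : Fact r.Prime := ⟨hr⟩
  set Q : Subgroup G := M₀.map U.subtype with hQdef
  have hQU : Q ≤ U := by
    rintro _ ⟨a, -, rfl⟩
    exact a.2
  have hQ1 : Q ≠ ⊥ := by
    intro h
    apply hM₀b
    rw [eq_bot_iff]
    intro a ha
    have : (a : G) ∈ Q := ⟨a, ha, rfl⟩
    rw [h, Subgroup.mem_bot] at this
    exact Subgroup.mem_bot.mpr (Subtype.ext this)
  have heQ : ∀ x ∈ Q, x ^ r = 1 := by
    rintro _ ⟨a, ha, rfl⟩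
    have := he a ha
    simpa using congrArg Subtype.val this
  have hQp : IsPGroup r Q := Cfsg.Agent.Lib.MinNorm.isPGroup_of_exponent heQ
  have hUN : U ≤ Subgroup.normalizer (Q : Set G) := by
    intro u hu
    rw [Subgroup.mem_normalizer_iff]
    intro w
    constructor
    · rintro ⟨a, ha, rfl⟩
      exact ⟨⟨u, hu⟩ * a * ⟨u, hu⟩⁻¹, hM₀n.conj_mem a ha _, by simp⟩
    · rintro ⟨a, ha, hae⟩
      refine ⟨⟨u, hu⟩⁻¹ * a * ⟨u, hu⟩, ?_, ?_⟩
      · have := hM₀n.conj_mem a ha (⟨u, hu⟩⁻¹)
        simpa using this
      · simp only [Subgroup.coe_subtype, Subgroup.coe_mul, Subgroup.coe_inv]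
        simp only [Subgroup.coe_subtype] at hae
        rw [hae]
        group
  have hrU : r ∣ Nat.card U := by
    have h1 : r ∣ Nat.card Q := by
      haveI : Nontrivial Q := (Subgroup.nontrivial_iff_ne_bot Q).mpr hQ1
      obtain ⟨k, hk, hk2⟩ := hQp.nontrivial_iff_card.mp this
      rw [hk2]
      exact dvd_pow_self r hk.ne'
    exact h1.trans (Subgroup.card_dvd_of_le hQU)
  have hcopr : ∀ p : ℕ, p.Prime → p ∣ Nat.card U → ¬ p ∣ H.index := by
    intro p hp h1 h2
    exact hp.not_dvd_one (hUc ▸ Nat.dvd_gcd h1 h2)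
  have hrH : ¬ r ∣ H.index := hcopr r hr hrU
  by_cases hNtop : Subgroup.normalizer (Q : Set G) = ⊤
  · -- `Q` is normal in `G`
    haveI hQn : Q.Normal := Subgroup.normalizer_eq_top_iff.mp hNtop
    have hQH : Q ≤ H := le_of_normal_of_not_dvd_index hQp hrH
    let π := QuotientGroup.mk' Q
    have hcard : Nat.card (G ⧸ Q) < n := hG ▸ Cfsg.Agent.Lib.SuperSolv2.card_quotient_lt Q hQ1
    have hidx : (H.map π).index = H.index :=
      Subgroup.index_map_eq _ (QuotientGroup.mk'_surjective Q) (by rwa [QuotientGroup.ker_mk'])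
    have hHπ : Group.IsNilpotent (H.map π) :=
      Group.nilpotent_of_surjective (π.subgroupMap H) (π.subgroupMap_surjective H)
    obtain ⟨x', hx'⟩ := ih _ hcard (G ⧸ Q) rfl _ (U.map π) (H.map π) rfl hHπ
      (by rw [hidx]; exact Nat.Coprime.coprime_dvd_left (Subgroup.card_map_dvd _ π) hHc)
      (by rw [hidx]; exact Nat.Coprime.coprime_dvd_left (Subgroup.card_map_dvd _ π) hUc)
    obtain ⟨x, rfl⟩ := QuotientGroup.mk'_surjective Q x'
    refine ⟨x, fun u hu => ?_⟩
    have h1 := hx' (Subgroup.mem_map_of_mem π hu)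
    rw [mem_conj_iff] at h1 ⊢
    obtain ⟨h, hh, hhe⟩ := h1
    have h2 : h⁻¹ * (x⁻¹ * u * x) ∈ Q := by
      rw [← QuotientGroup.eq]
      have : π h = (π x)⁻¹ * π u * π x := hhe
      have h4 : π (x⁻¹ * u * x) = (π x)⁻¹ * π u * π x := by simp [map_mul, map_inv]
      show π h = π (x⁻¹ * u * x)
      rw [this, h4]
    have := H.mul_mem hh (hQH h2)
    simpa using this
  · -- the normalizer of `Q` is a proper subgroup
    set M : Subgroup G := Subgroup.normalizer (Q : Set G) with hMdef
    obtain ⟨S⟩ : Nonempty (Sylow r M) := inferInstance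
    set S0 : Subgroup G := (S : Subgroup M).map M.subtype with hS0
    have hS0p : IsPGroup r S0 := S.isPGroup'.map _
    obtain ⟨y, hy⟩ := exists_conj_le_of_not_dvd_index hS0p hrH
    set H' : Subgroup G := MulAut.conj y • H with hH'
    have hQS : Q ≤ S0 := by
      have hQ'n : (Q.subgroupOf M).Normal := Subgroup.normal_in_normalizer
      have hQ'p : IsPGroup r (Q.subgroupOf M) := by
        apply Cfsg.Agent.Lib.MinNorm.isPGroup_of_exponent
        intro x hx
        exact Subtype.ext (heQ x hx)
      have hle := hQ'p.le_sylow_of_normal S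
      intro q hq
      have hqM : q ∈ M := Subgroup.le_normalizer hq
      exact ⟨⟨q, hqM⟩, hle (show (⟨q, hqM⟩ : M) ∈ Q.subgroupOf M from hq), rfl⟩
    have hQH' : Q ≤ H' := hQS.trans hy
    have hH'nil : Group.IsNilpotent H' := nil_conj H hH y
    have hH'card : Nat.card H' = Nat.card H := card_conj H y
    have hH'index : H'.index = H.index := index_conj H y
    have hH'c : (Nat.card H').Coprime H'.index := by rw [hH'card, hH'index]; exact hHc
    set H2 : Subgroup M := H'.subgroupOf M with hH2
    set U2 : Subgroup M := U.subgroupOf M with hU2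
    have hX : ∀ p : ℕ, p.Prime → p ∣ Nat.card H' → ¬ p ∣ H2.index := by
      intro p hp hpd
      by_cases hpr : p = r
      · subst hpr
        have hSle : (S : Subgroup M) ≤ H2 := by
          intro a ha
          exact hy (show (a : G) ∈ S0 from ⟨a, ha, rfl⟩)
        intro hd
        exact S.not_dvd_index (hd.trans (Subgroup.index_dvd_of_le hSle))
      · haveI : Fact p.Prime := ⟨hp⟩
        obtain ⟨T⟩ : Nonempty (Sylow p H') := inferInstance
        set T0 : Subgroup G := (T : Subgroup H').map H'.subtype with hT0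
        have hT0H : T0 ≤ H' := by
          rintro _ ⟨a, -, rfl⟩
          exact a.2
        have hT0M : T0 ≤ M := by
          rintro _ ⟨t, ht, rfl⟩
          apply Subgroup.centralizer_le_normalizer
          rw [Subgroup.mem_centralizer_iff]
          intro w hw
          have hwH : w ∈ H' := hQH' hw
          have hwr : ∃ k : ℕ, (⟨w, hwH⟩ : H') ^ r ^ k = 1 := by
            refine ⟨1, Subtype.ext ?_⟩
            simpa using heQ w hw
          have htp : Nat.Coprime (orderOf t) r := by
            obtain ⟨k, hk⟩ := T.isPGroup' ⟨t, ht⟩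
            have hk' : t ^ p ^ k = 1 := by
              have := congrArg Subtype.val hk
              simpa using this
            have h1 : orderOf t ∣ p ^ k := orderOf_dvd_of_pow_eq_one hk'
            apply Nat.Coprime.coprime_dvd_left h1
            exact Nat.Coprime.pow_left k ((Nat.coprime_primes hp hr).2 hpr)
          have := commute_of_isNilpotent (G := H') (p := r) hwr htp
          exact congrArg Subtype.val this
        have hidx1 : T0.index = (T : Subgroup H').index * H'.index :=
          Subgroup.index_map_subtype _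
        have hnd : ¬ p ∣ T0.index := by
          rw [hidx1]
          intro hd
          rcases (Nat.Prime.dvd_mul hp).1 hd with h | h
          · exact T.not_dvd_index h
          · exact hp.not_dvd_one (hH'c ▸ Nat.dvd_gcd hpd h)
        intro hd
        apply hnd
        have h1 : H'.relIndex M ∣ T0.relIndex M := Subgroup.relIndex_dvd_of_le_left M hT0H
        have h2 : T0.relIndex M ∣ T0.index := Dvd.intro _ (Subgroup.relIndex_mul_index hT0M)
        exact (hd.trans h1).trans h2
    have hc1 : (Nat.card H2).Coprime H2.index := by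
      by_contra h
      obtain ⟨p, hp, h1, h2⟩ := Nat.Prime.not_coprime_iff_dvd.mp h
      exact hX p hp (h1.trans (card_subgroupOf_dvd H' M)) h2
    have hc2 : (Nat.card U2).Coprime H2.index := by
      by_contra h
      obtain ⟨p, hp, h1, h2⟩ := Nat.Prime.not_coprime_iff_dvd.mp h
      have hpU : p ∣ Nat.card U := h1.trans (card_subgroupOf_dvd U M)
      have hpG : p ∣ Nat.card G := hpU.trans (Subgroup.card_subgroup_dvd_card U)
      rw [← H.card_mul_index] at hpG
      rcases (Nat.Prime.dvd_mul hp).1 hpG with h3 | h3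
      · exact hX p hp (hH'card ▸ h3) h2
      · exact hcopr p hp hpU h3
    have hnil2 : Group.IsNilpotent H2 := by
      let f : H2 →* H' :=
        { toFun := fun a => ⟨(a : M), a.2⟩
          map_one' := rfl
          map_mul' := fun _ _ => rfl }
      refine nil_of_inj f ?_
      intro a b hab
      have h1 : ((f a : H') : G) = ((f b : H') : G) := congrArg Subtype.val hab
      exact Subtype.ext (Subtype.ext h1)
    have hcardM : Nat.card M < n := by
      rw [← hG]
      exact lt_of_le_of_ne (Subgroup.card_le_card_group M)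
        (fun h => hNtop (Subgroup.eq_top_of_card_eq _ h))
    obtain ⟨x, hx⟩ := ih _ hcardM M rfl _ U2 H2 rfl hnil2 hc1 hc2
    refine ⟨x * y, fun u hu => ?_⟩
    have h1 := hx (show (⟨u, hUN hu⟩ : M) ∈ U2 from hu)
    rw [mem_conj_iff] at h1
    have h2 : (x : G)⁻¹ * u * x ∈ H' := h1
    rw [hH', mem_conj_iff] at h2
    rw [mem_conj_iff]
    have h3 : ((x : G) * y)⁻¹ * u * ((x : G) * y) = y⁻¹ * ((x : G)⁻¹ * u * x) * y := by group
    rw [h3]
    exact h2

/-- Let H be a nilpotent subgroup of a finite group G whose order is coprime to its index, and K a subgroup every prime divisor of whose order divides the order of H. Then K lies in some conjugate of H. -/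
theorem result {G : Type*} [Group G] [Finite G] (H K : Subgroup G) (hH : Group.IsNilpotent H) (hHall : (Nat.card H).Coprime H.index) (hK : ∀ p : ℕ, p.Prime → p ∣ Nat.card K → p ∣ Nat.card H) : ∃ x : G, K ≤ MulAut.conj x • H := by
  refine main _ G rfl _ K H rfl hH hHall ?_
  by_contra h
  obtain ⟨p, hp, h1, h2⟩ := Nat.Prime.not_coprime_iff_dvd.mp h
  exact hp.not_dvd_one (hHall ▸ Nat.dvd_gcd (hK p hp h1) h2)

end Cfsg.Agent.S0581
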