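import Mathlib
import Cfsg.Agent.Lib.PSL2Solv
import Cfsg.Agent.S5939
import Cfsg.Statements.S0810

set_option autoImplicit false
open Cfsg

namespace Cfsg.Agent.S0810

/-- PSL_2(q) is minimal simple iff q is 2^r (r prime), 3^r (r an odd prime), a prime greater than 5 congruent to 2 or 3 mod 5, or 5. -/
theorem result {F : Type*} [Field F] [Fintype F] {q : ℕ} (hF : Fintype.card F = q) : Cfsg.IsMinimalSimple (Matrix.ProjectiveSpecialLinearGroup (Fin 2) F) ↔ ((∃ r : ℕ, r.Prime ∧ q = 2 ^ r) ∨ (∃ r : ℕ, r.Prime ∧ r ≠ 2 ∧ q = 3 ^ r) ∨ (q.Prime ∧ 5 < q ∧ (q % 5 = 2 ∨ q % 5 = 3)) ∨ q = 5) := by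
    classical
  open Cfsg.Agent.Lib.SL2Core Cfsg.Agent.Lib.DicksonMat Cfsg.Agent.Lib.DicksonAbs Cfsg.Agent.Lib.PSL2Coat Cfsg.Agent.Lib.PSL2Cnt Cfsg.Agent.Lib.PSL2TorMax Cfsg.Agent.Lib.PSL2Max Cfsg.Agent.Lib.PSL2Solv Cfsg.Agent.Lib.PSL2Nor Cfsg.Agent.Lib.PSL2Lat Cfsg.Agent.Lib.PSL2Excl Cfsg.Agent.Lib.PSL2Sub in
  have hq1 : 1 < Fintype.card F := Fintype.one_lt_card
  subst hF
  obtain ⟨p, hch⟩ := CharP.exists F
  haveI hpf : Fact p.Prime := ⟨CharP.char_is_prime F p⟩
  have hpp : p.Prime := hpf.out
  obtain ⟨n, -, hn⟩ := FiniteField.card F p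
  constructor
  · -- a minimal simple group
    rintro ⟨hs, hnc, hsolv⟩
    have hq4 : 4 ≤ Fintype.card F := by
      by_contra hlt
      have hq23 : Fintype.card F = 2 ∨ Fintype.card F = 3 := by omega
      have h1 : Group.IsSolvable (PSL2 F) := by
        rcases hq23 with h | h
        · exact isSolvable_PSL2_two h
        · exact isSolvable_PSL2_three h
      have h2 := (IsSimpleGroup.comm_iff_isSolvable (G := PSL2 F)).mpr h1
      exact proj_uu_vv_ne (h2 _ _)
    -- a proper subgroup is solvable, so `A₅` is excluded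
    have hA5 : ¬ ∃ H : Subgroup (PSL2 F), IsCoatom H ∧ Nonempty (H ≃* alternatingGroup (Fin 5)) := by
      rintro ⟨H, hH, ⟨e⟩⟩
      haveI := hsolv H hH.1
      exact not_isSolvable_alt5 (isSolvable_of_equiv e.symm)
    have hsub : ∀ K₀ : Subfield F, K₀ ≠ ⊤ → ¬ 4 ≤ Nat.card K₀ := by
      intro K₀ hK h4
      have h1 : (pslMap K₀.subtype).range ≠ ⊤ := fun h => hK ((range_eq_top_iff K₀).mp h)
      exact not_isSolvable_range K₀ h4 (hsolv _ h1)
    have hbot := card_bot_subfield (F := F) p
    have hcardF : Nat.card F = Nat.card (⊥ : Subfield F) ^ (n : ℕ) := by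
      rw [hbot, Nat.card_eq_fintype_card, hn]
    have hdiv : ∀ a : ℕ, a ≠ 0 → a ∣ (n : ℕ) → a ≠ (n : ℕ) → p ^ a < 4 := by
      intro a ha har hne
      obtain ⟨K₁, -, hK₁⟩ := exists_mid p (⊥ : Subfield F) hcardF ha har
      rw [hbot] at hK₁
      have h1 : K₁ ≠ ⊤ := by
        rintro rfl
        have htop : Nat.card (⊤ : Subfield F) = Fintype.card F := by
          rw [Nat.card_congr (Subfield.topEquiv (K := F)).toEquiv, Nat.card_eq_fintype_card]
        rw [htop, hn] at hK₁
        exact hne (Nat.pow_right_injective hpp.two_le hK₁).symm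
      have h2 := hsub K₁ h1
      rw [hK₁] at h2
      omega
    by_cases hn1 : (n : ℕ) = 1
    · -- the prime field
      rw [hn1, pow_one] at hn
      have hp4 : 5 ≤ p := by
        have : p ≠ 4 := by
          rintro rfl
          exact absurd hpp (by norm_num)
        omega
      by_cases hp5 : p = 5
      · right; right; right
        rw [hn, hp5]
      have h5 : ¬ 5 ∣ p := fun h => hp5 ((Nat.prime_dvd_prime_iff_eq (by norm_num) hpp).mp h).symm
      right; right; left
      refine ⟨by rw [hn]; exact hpp, by omega, ?_⟩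
      by_contra hmod
      have hodd : p % 2 = 1 := by
        rcases hpp.eq_two_or_odd with h | h <;> omega
      rw [hn] at hmod
      apply hA5
      exact Cfsg.Agent.S5939.result p (Or.inl ⟨hn, by omega⟩)
    · have hn2 : 2 ≤ (n : ℕ) := by
        have := n.pos
        omega
      by_cases hnp : (n : ℕ).Prime
      · have hp4 : p < 4 := by
          have := hdiv 1 one_ne_zero (one_dvd _) (by omega)
          rwa [pow_one] at this
        have hp23 : p = 2 ∨ p = 3 := by
          have : p ≠ 0 := hpp.ne_zero
          have : p ≠ 1 := hpp.ne_one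
          omega
        rcases hp23 with h | h
        · left
          exact ⟨n, hnp, by rw [hn, h]⟩
        · right; left
          refine ⟨n, hnp, ?_, by rw [hn, h]⟩
          intro h2
          apply hA5
          refine Cfsg.Agent.S5939.result p (Or.inr ⟨?_, by omega⟩)
          rw [hn, h2]
      · exfalso
        obtain ⟨a, hadvd, ha2, halt⟩ := Nat.exists_dvd_of_not_prime2 hn2 hnp
        have h1 := hdiv a (by omega) hadvd (by omega)
        have h2 : 2 ^ 2 ≤ p ^ a := (Nat.pow_le_pow_left hpp.two_le 2).trans (Nat.pow_le_pow_right hpp.pos ha2)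
        omega
  · intro hq
    have hq4 : 4 ≤ Fintype.card F := by
      rcases hq with ⟨r, hr, h⟩ | ⟨r, hr, -, h⟩ | ⟨-, h, -⟩ | h
      · have : 2 ^ 2 ≤ 2 ^ r := Nat.pow_le_pow_right (by norm_num) hr.two_le
        omega
      · have : 3 ^ 2 ≤ 3 ^ r := Nat.pow_le_pow_right (by norm_num) hr.two_le
        omega
      · omega
      · omega
    -- the maximal subgroups are solvable
    have hcoat : ∀ M : Subgroup (PSL2 F), IsCoatom M → Group.IsSolvable M := by
      intro M hM
      have hbor : Nat.gcd 2 (Fintype.card F - 1) * Nat.card M = Fintype.card F * (Fintype.card F - 1) → Group.IsSolvable M := by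
        intro hc
        obtain ⟨A', hA', ht', hMA⟩ := exists_parabolic_of_card p hM hc
        rw [hMA]
        exact isSolvable_normalizer_parabolic hA' ht'
      by_cases hev : Even (Fintype.card F)
      · have hd : Nat.gcd 2 (Fintype.card F - 1) = 1 := by
          rw [Nat.coprime_two_left.mpr]
          obtain ⟨z, hz⟩ := hev
          rw [hz]
          exact ⟨z - 1, by omega⟩
        rcases Cfsg.Agent.S5893.result hev hq4 M hM with h | ⟨⟨e⟩⟩ | ⟨⟨e⟩⟩ | ⟨F₀, _, _, r, hr, h2, hcard, ⟨e⟩⟩
        · exact hbor (by rw [hd, one_mul]; exact h)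
        · haveI := isSolvable_dihedral (Fintype.card F - 1)
          exact isSolvable_of_equiv e
        · haveI := isSolvable_dihedral (Fintype.card F + 1)
          exact isSolvable_of_equiv e
        · exfalso
          rcases hq with ⟨r', hr', h⟩ | ⟨r', hr', -, h⟩ | ⟨h, -, -⟩ | h
          · rw [hcard] at h
            exact h2 (pow_prime_eq Nat.prime_two hr' hr h).1
          · rw [h] at hev
            exact (Nat.not_even_iff_odd.mpr (Odd.pow (by decide))) hev
          · have h3 : Fintype.card F = 2 := by
              have := (Nat.Prime.even_iff h).mp hev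
              exact this
            omega
          · rw [h] at hev
            exact absurd hev (by decide)
      · have hodd : Odd (Fintype.card F) := Nat.not_even_iff_odd.mp hev
        have hd : Nat.gcd 2 (Fintype.card F - 1) = 2 :=
          Nat.gcd_eq_left (Nat.Odd.sub_odd hodd odd_one).two_dvd
        have h5q : 5 ≤ Fintype.card F := by
          obtain ⟨Q, hQ⟩ := id hodd
          omega
        -- the field is not a proper power, except for powers of three
        have hpw : ∀ (a s : ℕ), s.Prime → Fintype.card F = a ^ s → a = 3 ∧ s ≠ 2 := by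
          intro a s hs h
          rcases hq with ⟨r', hr', h'⟩ | ⟨r', hr', hr2, h'⟩ | ⟨h', -, -⟩ | h'
          · exfalso
            rw [h'] at hev
            exact hev (even_two.pow_of_ne_zero hr'.ne_zero)
          · rw [h] at h'
            obtain ⟨h1, h2⟩ := pow_prime_eq Nat.prime_three hr' hs h'
            exact ⟨h1, by rw [h2]; exact hr2⟩
          · exfalso
            rw [h] at h'
            exact Nat.Prime.not_prime_pow hs.two_le h'
          · exfalso
            rw [h] at h'
            have : (a ^ s).Prime := by rw [h']; norm_num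
            exact Nat.Prime.not_prime_pow hs.two_le this
        rcases Cfsg.Agent.S5892.result p hodd h5q M hM with h | ⟨-, k', hk', ⟨e⟩⟩ | ⟨-, -, k', hk', ⟨e⟩⟩ | ⟨F₀, _, _, hcard, ⟨e⟩⟩ |
          ⟨F₀, _, _, r, hr, hro, hcard, ⟨e⟩⟩ | ⟨hmod, hc, ⟨e⟩⟩ | ⟨hc, h1, h2, ⟨e⟩⟩ | ⟨hc, h1, ⟨e⟩⟩
        · exact hbor (by rw [hd]; exact h)
        · haveI := isSolvable_dihedral k'
          exact isSolvable_of_equiv e
        · haveI := isSolvable_dihedral k'
          exact isSolvable_of_equiv e
        · exfalso
          exact (hpw _ 2 Nat.prime_two hcard).2 rfl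
        · have h3 := (hpw _ r hr hcard).1
          haveI := isSolvable_PSL2_three h3
          exact isSolvable_of_equiv e
        · exfalso
          rcases hq with ⟨r', hr', h⟩ | ⟨r', hr', hr2, h⟩ | ⟨h, h', h''⟩ | h
          · rw [h] at hev
            exact hev (even_two.pow_of_ne_zero hr'.ne_zero)
          · have hp3 : p = 3 := char_eq p Nat.prime_three hr'.ne_zero h
            rcases hc with hc | ⟨hc, -⟩
            · rw [hc, hp3] at h
              have : 3 ^ 2 ≤ 3 ^ r' := Nat.pow_le_pow_right (by norm_num) hr'.two_le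
              omega
            · rw [hc, hp3] at h
              exact hr2 (Nat.pow_right_injective (by norm_num) h).symm
          · omega
          · omega
        · haveI := isSolvable_alt4
          exact isSolvable_of_equiv e
        · haveI := isSolvable_perm4
          exact isSolvable_of_equiv e
    refine ⟨Matrix.ProjectiveSpecialLinearGroup.rank_two_simple (by rw [Nat.card_eq_fintype_card]; exact hq4), ?_, ?_⟩
    · intro hc
      exact proj_uu_vv_ne (F := F) (mul_comm' _ _)
    · intro H hH
      rcases eq_top_or_exists_le_coatom H with h | ⟨M, hM, hle⟩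
      · exact absurd h hH
      · haveI := hcoat M hM
        exact Group.isSolvable_of_isSolvable_injective (Subgroup.inclusion_injective hle)


end Cfsg.Agent.S0810
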