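import Mathlib
import Cfsg.Agent.Lib.PSL2TorMax
import Cfsg.Statements.S0811

set_option autoImplicit false
open Cfsg

namespace Cfsg.Agent.S0811

/-- For q ∉ {2, 7, 9}, PSL_2(q) has a maximal subgroup isomorphic to the dihedral group of order 2(q + 1)/d, d = gcd(2, q − 1). -/
theorem result {F : Type*} [Field F] [Fintype F] {q : ℕ} (hF : Fintype.card F = q) (hq : q ∉ ({2, 7, 9} : Finset ℕ)) : ∃ H : Subgroup (Matrix.ProjectiveSpecialLinearGroup (Fin 2) F), IsCoatom H ∧ Nonempty (H ≃* DihedralGroup ((q + 1) / Nat.gcd 2 (q - 1))) := by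
    classical
  open Cfsg.Agent.Lib.SL2Core Cfsg.Agent.Lib.DicksonMat Cfsg.Agent.Lib.DicksonAbs Cfsg.Agent.Lib.PSL2Coat Cfsg.Agent.Lib.PSL2Cnt Cfsg.Agent.Lib.PSL2TorMax Cfsg.Agent.Lib.PSL2Max in
  have hq1 : 1 < Fintype.card F := Fintype.one_lt_card
  simp only [Finset.mem_insert, Finset.mem_singleton, not_or] at hq
  obtain ⟨hq2, hq7, hq9⟩ := hq
  rw [← hF] at hq2 hq7 hq9 ⊢
  obtain ⟨p, hch⟩ := CharP.exists F
  haveI hpf : Fact p.Prime := ⟨CharP.char_is_prime F p⟩
  -- a quadratic polynomial without root
  have hex : ∃ t : F, ∀ l : F, l * l - t * l + 1 ≠ 0 := by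
    by_contra hcon
    push Not at hcon
    choose l hl using hcon
    have hl0 : ∀ t, l t ≠ 0 := by
      intro t h
      have := hl t
      rw [h] at this
      simp at this
    let f : F → Fˣ := fun t => Units.mk0 (l t) (hl0 t)
    have hf : Function.Injective f := by
      intro s t hst
      have h1 : l s = l t := congrArg Units.val hst
      have h2 := hl s
      have h3 := hl t
      rw [← h1] at h3
      have h4 : (s - t) * l s = 0 := by linear_combination h3 - h2
      exact sub_eq_zero.mp ((mul_eq_zero.mp h4).resolve_right (hl0 s))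
    have h1 := Fintype.card_le_of_injective f hf
    rw [Fintype.card_units] at h1
    omega
  obtain ⟨t, ht⟩ := hex
  let A : SL2 F := comp t
  have hA : A ∉ Subgroup.center (SL2 F) := by
    rw [not_center_iff]
    left
    change (-1 : F) ≠ 0
    exact neg_ne_zero.mpr one_ne_zero
  have htr : tr A = t := by
    rw [ee_tr]
    change (0 : F) + t = t
    ring
  have ht2 : tr A * tr A ≠ 4 := by
    rw [htr]
    intro h4
    have h5 : (t - 2) * (t + 2) = 0 := by linear_combination h4
    rcases mul_eq_zero.mp h5 with h6 | h6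
    · apply ht 1
      have : t = 2 := sub_eq_zero.mp h6
      rw [this]
      ring
    · apply ht (-1)
      have : t = -2 := by linear_combination h6
      rw [this]
      ring
  have hcard : Nat.card (MM (proj A)) * Nat.gcd 2 (Fintype.card F - 1) = Fintype.card F + 1 := by
    rw [card_MM_mul]
    apply card_TT_nonsplit A hA ht2
    rw [htr]
    exact ht
  have hd : 0 < Nat.gcd 2 (Fintype.card F - 1) := Nat.gcd_pos_of_pos_left _ (by norm_num)
  have hdiv : (Fintype.card F + 1) / Nat.gcd 2 (Fintype.card F - 1) = Nat.card (MM (proj A)) := by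
    rw [← hcard]
    exact Nat.mul_div_cancel _ hd
  rw [hdiv]
  refine ⟨Subgroup.normalizer ((MM (proj A) : Subgroup (PSL2 F)) : Set (PSL2 F)), ?_, dihedral_of_eq_normalizer p hA ht2 rfl⟩
  by_cases hq3 : Fintype.card F = 3
  · -- the group of order twelve
    rw [hq3] at hcard
    have hd2 : Nat.gcd 2 (3 - 1) = 2 := by norm_num
    rw [hd2] at hcard
    have hk : Nat.card (MM (proj A)) = 2 := by omega
    have hG : Nat.card (PSL2 F) = 12 := by
      have h1 := card_PSL2_form (K := F)
      rw [hq3, hd2] at h1
      omega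
    have hN := card_normalizer_ss p hA ht2
    rw [hk] at hN
    apply coatom_of_card
    · exact normalizer_ne_top p (by omega) hA ht2
    · intro L hL
      have h1 := Subgroup.card_dvd_of_le hL
      rw [hN] at h1
      have h2 := Subgroup.card_subgroup_dvd_card L
      rw [hG] at h2
      have h3 := Nat.le_of_dvd (by norm_num) h2
      rw [hN, hG]
      generalize Nat.card L = m at *
      interval_cases m <;> omega
  · apply torus_normalizer_coatom hA ht2 (by omega) hq7 hq9
    · intro h
      omega
    · intro h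
      omega


end Cfsg.Agent.S0811
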