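import Mathlib
import Cfsg.Agent.Lib.PSL2TorMax
import Cfsg.Statements.S0812

set_option autoImplicit false
open Cfsg

namespace Cfsg.Agent.S0812

/-- For q ∉ {2, 3, 5, 7, 9, 11}, PSL_2(q) has a maximal subgroup isomorphic to the dihedral group of order 2(q − 1)/d, d = gcd(2, q − 1). -/
theorem result {F : Type*} [Field F] [Fintype F] {q : ℕ} (hF : Fintype.card F = q) (hq : q ∉ ({2, 3, 5, 7, 9, 11} : Finset ℕ)) : ∃ H : Subgroup (Matrix.ProjectiveSpecialLinearGroup (Fin 2) F), IsCoatom H ∧ Nonempty (H ≃* DihedralGroup ((q - 1) / Nat.gcd 2 (q - 1))) := by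
    classical
  open Cfsg.Agent.Lib.SL2Core Cfsg.Agent.Lib.DicksonMat Cfsg.Agent.Lib.DicksonAbs Cfsg.Agent.Lib.PSL2Coat Cfsg.Agent.Lib.PSL2Cnt Cfsg.Agent.Lib.PSL2TorMax Cfsg.Agent.Lib.PSL2Max in
  have hq1 : 1 < Fintype.card F := Fintype.one_lt_card
  simp only [Finset.mem_insert, Finset.mem_singleton, not_or] at hq
  obtain ⟨hq2, hq3, hq5, hq7, hq9, hq11⟩ := hq
  rw [← hF] at hq2 hq3 hq5 hq7 hq9 hq11 ⊢
  obtain ⟨p, hch⟩ := CharP.exists F
  haveI hpf : Fact p.Prime := ⟨CharP.char_is_prime F p⟩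
  have hex : ∃ l : F, l ∉ ({0, 1, -1} : Finset F) := by
    by_contra hcon
    push Not at hcon
    have h1 : (Finset.univ : Finset F) ⊆ {0, 1, -1} := fun x _ => hcon x
    have h2 := Finset.card_le_card h1
    rw [Finset.card_univ] at h2
    have h3 : ({0, 1, -1} : Finset F).card ≤ 3 := Finset.card_le_three
    omega
  obtain ⟨l, hl⟩ := hex
  simp only [Finset.mem_insert, Finset.mem_singleton, not_or] at hl
  obtain ⟨hl0, hl1, hl2⟩ := hl
  have hll : l⁻¹ ≠ l := by
    intro h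
    have h1 : l * l = 1 := by
      nth_rewrite 1 [← h]
      exact inv_mul_cancel₀ hl0
    rcases mul_self_eq_one_iff.mp h1 with h2 | h2
    · exact hl1 h2
    · exact hl2 h2
  let A : SL2 F := mk2 l 0 0 l⁻¹ (by field_simp; ring)
  have hA : A ∉ Subgroup.center (SL2 F) := by
    rw [not_center_iff]
    right; right
    exact fun h => hll h.symm
  have htr : tr A = l + l⁻¹ := by
    rw [ee_tr]
    rfl
  have ht2 : tr A * tr A ≠ 4 := by
    rw [htr]
    intro h4
    have h5 : (l - l⁻¹) * (l - l⁻¹) = 0 := by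
      have h6 : l * l⁻¹ = 1 := mul_inv_cancel₀ hl0
      linear_combination h4 - 4 * h6
    exact hll (sub_eq_zero.mp (mul_self_eq_zero.mp h5)).symm
  have hcard : Nat.card (MM (proj A)) * Nat.gcd 2 (Fintype.card F - 1) = Fintype.card F - 1 := by
    rw [card_MM_mul]
    apply card_TT_split A hA ht2 (l := l)
    rw [htr]
    have h6 : l * l⁻¹ = 1 := mul_inv_cancel₀ hl0
    linear_combination (-1 : F) * h6
  have hd : 0 < Nat.gcd 2 (Fintype.card F - 1) := Nat.gcd_pos_of_pos_left _ (by norm_num)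
  have hdiv : (Fintype.card F - 1) / Nat.gcd 2 (Fintype.card F - 1) = Nat.card (MM (proj A)) := by
    exact Nat.div_eq_of_eq_mul_left hd hcard.symm
  rw [hdiv]
  refine ⟨Subgroup.normalizer ((MM (proj A) : Subgroup (PSL2 F)) : Set (PSL2 F)), ?_, dihedral_of_eq_normalizer p hA ht2 rfl⟩
  apply torus_normalizer_coatom hA ht2 (by omega) hq7 hq9
  · intro _
    exact hq5
  · intro _
    exact hq11


end Cfsg.Agent.S0812
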