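import Mathlib
import Cfsg.Statements.S0976
import Cfsg.Agent.Lib.SmallGroups2
import Cfsg.Agent.Lib.TwoLocal
import Cfsg.Agent.Lib.TwoLocal2
import Cfsg.Agent.Lib.DefectTwo
-- import your own Cfsg.Agent.* helpers here

set_option autoImplicit false
open Cfsg

namespace Cfsg.Agent.S0976

open Cfsg.Agent.Lib.SmallGroups2
open Cfsg.Agent.Lib.TwoLocal
open Cfsg.Agent.Lib.TwoLocal2
open Cfsg.Agent.Lib.DefectTwo
theorem case64 {G : Type*} [Group G] [Finite G] [IsSimpleGroup G] (hG : ¬ IsMulCommutative G) (h : Nat.card G = 4032)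
    (hn : Nat.card (Sylow 7 G) = 64) : False := by
  have : Fact (Nat.Prime 7) := ⟨by norm_num⟩
  have : Fact (Nat.Prime 3) := ⟨by norm_num⟩
  have h7 : Nat.card G = 7 ^ 1 * 576 := by rw [h]; norm_num
  have hp2 : ¬ 7 ^ 2 ∣ Nat.card G := by rw [h]; norm_num
  obtain ⟨P⟩ : Nonempty (Sylow 7 G) := inferInstance
  have hP : Nat.card (P : Subgroup G) = 7 := by
    rw [sylow_card_of_card_eq h7 (by norm_num) P, pow_one]
  have hN : Nat.card (Subgroup.normalizer ((P : Subgroup G) : Set G)) = 63 := by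
    have h1 := card_normalizer_mul_card_sylow P
    rw [h, hn] at h1
    omega
  obtain ⟨S, hSN, hS⟩ := exists_subgroup_le_card (q := 3) (a := 2) (Subgroup.normalizer ((P : Subgroup G) : Set G))
    (by rw [hN]; norm_num)
  obtain ⟨c, hcS, hcP, ho⟩ := exists_commuting_in (p := 7) (q := 3) (a := 2) P hP S hSN hS (by
    intro j hj1 hj2
    have h1 : j ∈ Nat.divisors 6 := Nat.mem_divisors.2 ⟨hj1, by norm_num⟩
    have hd : ∀ j ∈ Nat.divisors 6, j ∣ 3 ^ 2 → j < 3 ^ 2 := by decide +kernel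
    exact hd j h1 hj2)
  have hc1 : c ≠ 1 := by
    intro hc
    rw [hc, orderOf_one] at ho
    omega
  obtain ⟨n', hn1, hn2, hn3, -, -, -⟩ := centralizer_data hG hp2 ⟨576, by rw [h]⟩ P hP hc1 hcP
  set u := Nat.card ↥(Subgroup.centralizer ({c} : Set G) ⊓ Subgroup.normalizer ((P : Subgroup G) : Set G)) with hu
  have hSC : S ≤ Subgroup.centralizer ({c} : Set G) := le_centralizer_of_sq S hS hcS
  have hPC : (P : Subgroup G) ≤ Subgroup.centralizer ({c} : Set G) := by
    intro x hx
    rw [Subgroup.mem_centralizer_singleton_iff]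
    exact (Subgroup.mem_centralizer_iff.1 hcP x hx)
  have hu1 : u ∣ 63 := by
    rw [← hN]
    exact Subgroup.card_dvd_of_le inf_le_right
  have hu2 : 9 ∣ u := by
    have : Nat.card S ∣ u := Subgroup.card_dvd_of_le (le_inf hSC hSN)
    rw [hS] at this
    exact this
  have hu3 : 7 ∣ u := by
    have : Nat.card (P : Subgroup G) ∣ u := Subgroup.card_dvd_of_le (le_inf hPC Subgroup.le_normalizer)
    rw [hP] at this
    exact this
  have hu4 : u = 63 := by
    have h1 : 63 ∣ u := Nat.Coprime.mul_dvd_of_dvd_of_dvd (by norm_num) hu3 hu2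
    exact Nat.dvd_antisymm hu1 h1
  rw [hu4] at hn3
  have hidx := Subgroup.card_mul_index (Subgroup.centralizer ({c} : Set G))
  rw [hn3, h] at hidx
  rw [hn] at hn2
  have hn' : n' = 1 ∨ n' = 8 := by
    have h1 : n' ∣ 64 := ⟨(Subgroup.centralizer ({c} : Set G)).index, by nlinarith⟩
    have h2 : n' ∈ Nat.divisors 64 := Nat.mem_divisors.2 ⟨h1, by norm_num⟩
    have hd : ∀ n' ∈ Nat.divisors 64, n' % 7 = 1 → n' < 64 → n' = 1 ∨ n' = 8 := by decide +kernel
    exact hd n' h2 hn1 hn2
  rcases hn' with rfl | rfl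
  · have hi : (Subgroup.centralizer ({c} : Set G)).index = 2 ^ 6 := by omega
    exact index_ne_prime_pow hG hc1 Nat.prime_two hi
  · have hi : (Subgroup.centralizer ({c} : Set G)).index = 8 := by omega
    have hNC : Subgroup.normalizer ((P : Subgroup G) : Set G) ≤ Subgroup.centralizer ({c} : Set G) := by
      have h1 : Subgroup.centralizer ({c} : Set G) ⊓ Subgroup.normalizer ((P : Subgroup G) : Set G) =
          Subgroup.normalizer ((P : Subgroup G) : Set G) := by
        apply Subgroup.eq_of_le_of_card_ge inf_le_right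
        rw [hN, ← hu, hu4]
      rw [← h1]
      exact inf_le_left
    obtain ⟨f, hf1, hf2, hf3, -⟩ := index_fix_test hG hp2 P hP _ (centralizer_singleton_ne_top hG hc1) hNC hcP ho
    rw [hi] at hf1 hf3
    omega

theorem case288 {G : Type*} [Group G] [Finite G] [IsSimpleGroup G] (hG : ¬ IsMulCommutative G) (h : Nat.card G = 4032)
    (hn : Nat.card (Sylow 7 G) = 288) : False := by
  have : Fact (Nat.Prime 7) := ⟨by norm_num⟩
  have : Fact (Nat.Prime 2) := ⟨by norm_num⟩
  obtain ⟨T⟩ : Nonempty (Sylow 2 G) := inferInstance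
  have hT : Nat.card (T : Subgroup G) = 64 := by
    rw [sylow_card_of_card_eq (p := 2) (a := 6) (m := 63) (by rw [h]; norm_num) (by norm_num) T]; norm_num
  obtain ⟨x₁, x₀, c, idx, A, w₁, σ, y₁, y₀, hw, hσ, hx₁, hx₀, hd₁, hd₀, he, hc₁, hc₀, hci, hTc, hdv₁, hdv₀, hl₁, hl₀, hy, hA,
    hmaster⟩ := s2_central_data hG (p := 7) (m := 576) (by rw [h]) (by norm_num) (by norm_num) (by rw [hn]) T (by rw [hT]; norm_num)
  rw [hT] at hTc
  rw [h] at hmaster hci
  have hc₁' : (x₁ : ℤ) % 7 = (-w₁) % 7 := hc₁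
  have hc₀' : (x₀ : ℤ) % 7 = (2 * σ) % 7 := hc₀
  obtain ⟨c', rfl⟩ := hTc
  have hidx : idx ∣ 63 := ⟨c', by nlinarith⟩
  have hodd : Nat.Coprime 8 idx := Nat.Coprime.coprime_dvd_right hidx (by norm_num)
  have hd : ∀ a ∈ Nat.divisors 576, ∀ b ∈ Nat.divisors 576, 2 ≤ a → 2 ≤ b → b = a + 1 → a % 7 = 1 → b % 7 = 2 → a = 8 ∧ b = 9 := by
    decide +kernel
  have hd' : ∀ a ∈ Nat.divisors 576, ∀ b ∈ Nat.divisors 576, 2 ≤ a → 2 ≤ b → a = b + 1 → a % 7 = 6 → b % 7 = 5 → False := by
    decide +kernel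
  have hm₁ : x₁ ∈ Nat.divisors 576 := Nat.mem_divisors.2 ⟨hd₁, by norm_num⟩
  have hm₀ : x₀ ∈ Nat.divisors 576 := Nat.mem_divisors.2 ⟨hd₀, by norm_num⟩
  rcases hw with rfl | rfl <;> rcases hσ with rfl | rfl
  · omega
  · exact hd' _ hm₁ _ hm₀ hx₁ hx₀ (by omega) (by omega) (by omega)
  · obtain ⟨rfl, rfl⟩ := hd _ hm₁ _ hm₀ hx₁ hx₀ (by omega) (by omega) (by omega)
    have h1 : 8 ∣ y₁.natAbs := hodd.dvd_of_dvd_mul_left hdv₁
    have h2 : y₁ = 0 := by
      have h3 : y₁.natAbs < 8 := by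
        have := hl₁
        rw [Int.abs_eq_natAbs] at this
        exact_mod_cast this
      have h4 := Nat.eq_zero_of_dvd_of_lt h1 h3
      omega
    subst h2
    have h5 : y₀ = 1 := by omega
    subst h5
    norm_num at hmaster
    have h6 : 64 * c' * A = 3584 := by
      have : (64 * (c' : ℤ)) * A = 3584 := by linarith
      exact_mod_cast this
    rcases hA with hA | hA
    · subst hA
      omega
    · have hc'0 : 1 ≤ c' := by
        rcases Nat.eq_zero_or_pos c' with rfl | h9
        · omega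
        · exact h9
      have : 64 * 64 ≤ 64 * c' * A := by
        have h9 : 64 ≤ A := by nlinarith
        nlinarith
      omega
  · omega

/-- No finite simple group has order 4032 = 2^6 * 3^2 * 7. -/
theorem result {G : Type*} [Group G] [Finite G] [IsSimpleGroup G] : Nat.card G ≠ 4032 := by
  intro h
  have : Fact (Nat.Prime 7) := ⟨by norm_num⟩
  have : Fact (Nat.Prime 2) := ⟨by norm_num⟩
  have h7 : Nat.card G = 7 * 576 := by rw [h]
  have hm : ¬ 7 ∣ 576 := by norm_num
  have hG : ¬ IsMulCommutative G :=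
    Cfsg.Agent.Lib.SmallGroups2.not_isMulCommutative_of_not_prime (by rw [h]; norm_num)
  have hmem := Cfsg.Agent.Lib.SmallGroups2.card_sylow_mem_candidates hG h7 hm
  have hc : Cfsg.Agent.Lib.SmallGroups2.sylowCandidates 7 576 = {8, 36, 64, 288} := by decide +kernel
  rw [hc] at hmem
  simp only [Finset.mem_insert, Finset.mem_singleton] at hmem
  rcases hmem with hn | hn | hn | hn
  · exact comm_exclude (p := 7) (q := 2) (k := 72) hG h7 hm hn (by norm_num) (by decide +kernel) (by decide +kernel)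
  · exact two_local_exclude (q := 2) (k := 16) hG (by norm_num) h7 hm hn (by norm_num) 4 36 (by norm_num) (by norm_num)
      (by norm_num) (by decide +kernel) (by norm_num) (by norm_num) (by decide +kernel)
  · exact case64 hG h hn
  · exact case288 hG h hn

end Cfsg.Agent.S0976
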