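import Mathlib
import Cfsg.Statements.S0977
import Cfsg.Agent.Lib.O4320I79c
import Cfsg.Agent.Lib.O4320S479

set_option autoImplicit false
set_option linter.style.haveILetI false
open Cfsg

namespace Cfsg.Agent.S0977

open Subgroup Cfsg.Agent.Lib.SmallGroups2 in
/-- No finite simple group has order 4320 = 2^5 * 3^3 * 5. -/
theorem result {G : Type*} [Group G] [Finite G] [IsSimpleGroup G] : Nat.card G ≠ 4320 := by
  intro h
  classical
  haveI : Fact (Nat.Prime 5) := ⟨by norm_num⟩
  haveI : Fintype G := Fintype.ofFinite G
  have hG : ¬ IsMulCommutative G := not_isMulCommutative_of_not_prime (by rw [h]; norm_num)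
  have hm := card_sylow_mem_candidates hG (p := 5) (m := 864) (by rw [h]) (by norm_num)
  have hcand : sylowCandidates 5 864 = {6, 16, 36, 216} := by decide +kernel
  rw [hcand] at hm
  simp only [Finset.mem_insert, Finset.mem_singleton] at hm
  obtain ⟨P⟩ : Nonempty (Sylow 5 G) := inferInstance
  have hP : Nat.card (P : Subgroup G) = 5 := by
    rw [sylow_card_of_card_eq (p := 5) (a := 1) (m := 864) (by rw [h]; norm_num) (by norm_num) P, pow_one]
  have hmul := card_normalizer_mul_card_sylow P
  rw [h] at hmul
  rcases hm with hn | hn | hn | hn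
  · have h1 := two_mul_card_dvd_factorial_card_sylow hG (p := 5) (by rw [h]; norm_num)
    rw [h, hn] at h1
    revert h1
    decide
  · exact Cfsg.Agent.Lib.O4320Base79.case16 h hn
  · rw [hn] at hmul
    exact Cfsg.Agent.Lib.O4320I79.case_one h P (by omega)
  · rw [hn] at hmul
    have hN : Nat.card (normalizer ((P : Subgroup G) : Set G)) = 20 := by omega
    obtain ⟨s, hs1, hs4, -, hsr⟩ := exists_relIndex_of_card_eq hG (p := 5) (m := 864) (by rw [h]) (by norm_num) P
    have hCN := Cfsg.Agent.Lib.Small168.card_mul_relIndex (Subgroup.centralizer_le_normalizer ((P : Subgroup G) : Set G))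
    rw [hsr, hN] at hCN
    have hs : s = 2 ∨ s = 4 := by
      have h4 : s ≤ 4 := Nat.le_of_dvd (by norm_num) hs4
      interval_cases s <;> omega
    rcases hs with rfl | rfl
    · exact Cfsg.Agent.Lib.O4320II79.case_two h P hN (by omega)
    · haveI hcyc : IsCyclic (P : Subgroup G) := isCyclic_of_prime_card hP
      have hPC : (P : Subgroup G) ≤ centralizer ((P : Subgroup G) : Set G) := Subgroup.le_centralizer _
      have hCP : (P : Subgroup G) = centralizer ((P : Subgroup G) : Set G) :=
        Subgroup.eq_of_le_of_card_ge hPC (by rw [hP]; omega)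
      refine Cfsg.Agent.Lib.O4320S479.case_s4 hG h P ⟨by norm_num, hP, ?_⟩ hN
      intro w hw hw1
      have hz := zpowers_eq_of_mem_of_ne_one (by norm_num) hP hw hw1
      apply le_antisymm
      · intro x hx
        have hx' : x ∈ centralizer ((P : Subgroup G) : Set G) := by
          rw [Subgroup.mem_centralizer_iff]
          intro y hy
          have hy' : y ∈ zpowers w := by rw [hz]; exact hy
          obtain ⟨k, rfl⟩ := Subgroup.mem_zpowers_iff.1 hy'
          have h2 : Commute x w := Subgroup.mem_centralizer_singleton_iff.1 hx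
          exact (h2.zpow_right k).eq.symm
        exact hCP.ge hx'
      · intro x hx
        rw [Subgroup.mem_centralizer_singleton_iff]
        exact (Subgroup.mem_centralizer_iff.1 (hPC hx) w hw).symm

end Cfsg.Agent.S0977
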