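import Mathlib
import Cfsg.Statements.S0980
import Cfsg.Agent.Lib.SmallGroups2
import Cfsg.Agent.Lib.TwoLocal
import Cfsg.Agent.Lib.TwoLocal2
import Cfsg.Agent.Lib.DefectTwo
-- import your own Cfsg.Agent.* helpers here

set_option autoImplicit false
open Cfsg

namespace Cfsg.Agent.S0980

open Cfsg.Agent.Lib.SmallGroups2
open Cfsg.Agent.Lib.TwoLocal
open Cfsg.Agent.Lib.TwoLocal2
open Cfsg.Agent.Lib.DefectTwo
theorem case36 {G : Type*} [Group G] [Finite G] [IsSimpleGroup G] (hG : ¬ IsMulCommutative G) (h : Nat.card G = 5760)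
    (hn : Nat.card (Sylow 5 G) = 36) : False := by
  have : Fact (Nat.Prime 5) := ⟨by norm_num⟩
  have : Fact (Nat.Prime 2) := ⟨by norm_num⟩
  obtain ⟨P⟩ : Nonempty (Sylow 5 G) := inferInstance
  have hN : Nat.card (Subgroup.normalizer ((P : Subgroup G) : Set G)) = 160 := by
    have h1 := card_normalizer_mul_card_sylow P
    rw [h, hn] at h1
    omega
  obtain ⟨n, u, i, d, h1, h2, h3, h4, h5, h6, -, h8, -⟩ := two_local_index (p := 5) (q := 2) (m := 1152) hG (by norm_num) (by rw [h])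
    (by norm_num) P 5 (by rw [hN]; norm_num) (by rw [hN]; norm_num) (by rw [h]; norm_num)
    (by
      intro j hj1 hj2
      have h1 : j ∈ Nat.divisors 4 := Nat.mem_divisors.2 ⟨hj1, by norm_num⟩
      have hd : ∀ j ∈ Nat.divisors 4, j ∣ 2 ^ 5 → j * j < 2 ^ 5 := by decide +kernel
      exact hd j h1 hj2)
  rw [hN] at h4
  rw [hn] at h3
  rw [h] at h6 h8
  have hu : u = 160 := Nat.dvd_antisymm h4 (by simpa using h5)
  subst hu
  have hi : n * i = 36 := by nlinarith
  have hnd : n ∈ Nat.divisors 36 := Nat.mem_divisors.2 ⟨⟨i, hi.symm⟩, by norm_num⟩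
  have hd : ∀ n ∈ Nat.divisors 36, n % 5 = 1 → n ≠ 1 → n < 36 → n = 6 := by decide +kernel
  obtain rfl := hd n hnd h1 h2 h3
  have hi6 : i = 6 := by omega
  subst hi6
  revert h8
  decide

theorem case96 {G : Type*} [Group G] [Finite G] [IsSimpleGroup G] (hG : ¬ IsMulCommutative G) (h : Nat.card G = 5760)
    (hn : Nat.card (Sylow 5 G) = 96) : False := by
  have : Fact (Nat.Prime 5) := ⟨by norm_num⟩
  have : Fact (Nat.Prime 3) := ⟨by norm_num⟩
  have h5 : Nat.card G = 5 ^ 1 * 1152 := by rw [h]; norm_num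
  have hp2 : ¬ 5 ^ 2 ∣ Nat.card G := by rw [h]; norm_num
  obtain ⟨P⟩ : Nonempty (Sylow 5 G) := inferInstance
  have hP : Nat.card (P : Subgroup G) = 5 := by
    rw [sylow_card_of_card_eq h5 (by norm_num) P, pow_one]
  have hN : Nat.card (Subgroup.normalizer ((P : Subgroup G) : Set G)) = 5 * 12 := by
    have h1 := card_normalizer_mul_card_sylow P
    rw [h, hn] at h1
    omega
  obtain ⟨c, hcP, ho⟩ := exists_commuting (q := 3) P hP hN (by
    intro e he1 he2
    have h1 : e ∈ Nat.divisors 4 := Nat.mem_divisors.2 ⟨he1, by norm_num⟩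
    have hd : ∀ e ∈ Nat.divisors 4, e ∣ 12 → 3 ∣ 12 / e := by decide +kernel
    exact hd e h1 he2)
  have hc1 : c ≠ 1 := by
    intro hc
    rw [hc, orderOf_one] at ho
    omega
  obtain ⟨n', hn1, hn2, hn3, -, -, hn6⟩ := centralizer_data hG hp2 ⟨1152, by rw [h]⟩ P hP hc1 hcP
  have hfix := hn6 (by rw [ho]; norm_num)
  have hmod := card_fixedBy_modEq_prime (X := Sylow 5 G) ho
  rw [← hfix, hn] at hmod
  have hmod3 : n' % 3 = 0 := by
    have := hmod
    unfold Nat.ModEq at this
    omega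
  rw [hn] at hn2
  set u := Nat.card ↥(Subgroup.centralizer ({c} : Set G) ⊓ Subgroup.normalizer ((P : Subgroup G) : Set G)) with hu
  have hu1 : u ∣ 60 := by
    have : u ∣ Nat.card (Subgroup.normalizer ((P : Subgroup G) : Set G)) := Subgroup.card_dvd_of_le inf_le_right
    rwa [hN] at this
  have hPC : (P : Subgroup G) ≤ Subgroup.centralizer ({c} : Set G) := by
    intro x hx
    rw [Subgroup.mem_centralizer_singleton_iff]
    exact (Subgroup.mem_centralizer_iff.1 hcP x hx)
  have hu2 : 5 ∣ u := by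
    have : Nat.card (P : Subgroup G) ∣ u := Subgroup.card_dvd_of_le (le_inf hPC Subgroup.le_normalizer)
    rwa [hP] at this
  have hu3 : 3 ∣ u := by
    have hle : Subgroup.zpowers c ≤ Subgroup.centralizer ({c} : Set G) ⊓ Subgroup.normalizer ((P : Subgroup G) : Set G) := by
      rw [Subgroup.zpowers_le]
      exact ⟨by simp [Subgroup.mem_centralizer_singleton_iff], Subgroup.centralizer_le_normalizer _ hcP⟩
    have := Subgroup.card_dvd_of_le hle
    rwa [Nat.card_zpowers, ho] at this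
  -- the Sylow 3-subgroup containing `c`
  have hz : IsPGroup 3 (Subgroup.zpowers c) := by
    apply IsPGroup.of_card (n := 1)
    rw [Nat.card_zpowers, ho, pow_one]
  obtain ⟨R, hR⟩ := hz.exists_le_sylow
  have hRc : Nat.card (R : Subgroup G) = 3 ^ 2 := sylow_card_of_card_eq (m := 640) (by rw [h]; norm_num) (by norm_num) R
  have hRC := le_centralizer_of_sq (R : Subgroup G) hRc (hR (Subgroup.mem_zpowers c))
  have h9 : 9 ∣ n' * u := by
    have := Subgroup.card_dvd_of_le hRC
    rwa [hRc, hn3] at this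
  have hidx := Subgroup.card_mul_index (Subgroup.centralizer ({c} : Set G))
  rw [hn3, h] at hidx
  have hun : n' * u ∣ 5760 := ⟨_, hidx.symm⟩
  have hm₁ : u ∈ Nat.divisors 60 := Nat.mem_divisors.2 ⟨hu1, by norm_num⟩
  have hm₂ : n' ∈ Nat.divisors 5760 := Nat.mem_divisors.2 ⟨(dvd_mul_right _ _).trans hun, by norm_num⟩
  have hd : ∀ u ∈ Nat.divisors 60, ∀ n' ∈ Nat.divisors 5760, 5 ∣ u → 3 ∣ u → n' % 5 = 1 → n' % 3 = 0 → n' < 96 → 9 ∣ n' * u →
      n' * u ∣ 5760 → ∃ k ∈ Finset.range 14, (5760 / (n' * u)) = 2 ^ k := by decide +kernel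
  obtain ⟨k, -, hk⟩ := hd u hm₁ n' hm₂ hu2 hu3 hn1 hmod3 hn2 h9 hun
  have hi : (Subgroup.centralizer ({c} : Set G)).index = 5760 / (n' * u) := by
    rw [← hidx]
    exact (Nat.mul_div_cancel_left _ (Nat.pos_of_ne_zero (by
      intro h0
      rw [h0] at hidx
      omega))).symm
  exact index_ne_prime_pow hG hc1 Nat.prime_two (hi.trans hk)

theorem case576 {G : Type*} [Group G] [Finite G] [IsSimpleGroup G] (hG : ¬ IsMulCommutative G) (h : Nat.card G = 5760)
    (hn : Nat.card (Sylow 5 G) = 576) : False := by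
  have : Fact (Nat.Prime 5) := ⟨by norm_num⟩
  have : Fact (Nat.Prime 2) := ⟨by norm_num⟩
  obtain ⟨T⟩ : Nonempty (Sylow 2 G) := inferInstance
  have hT : Nat.card (T : Subgroup G) = 128 := by
    rw [sylow_card_of_card_eq (p := 2) (a := 7) (m := 45) (by rw [h]; norm_num) (by norm_num) T]; norm_num
  obtain ⟨x₁, x₀, c, idx, A, w₁, σ, y₁, y₀, hw, hσ, hx₁, hx₀, hd₁, hd₀, he, hc₁, hc₀, hci, hTc, hdv₁, hdv₀, hl₁, hl₀, hy, hA,
    hmaster⟩ := s2_central_data hG (p := 5) (m := 1152) (by rw [h]) (by norm_num) (by norm_num) (by rw [hn]) T (by rw [hT]; norm_num)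
  rw [hT] at hTc
  rw [h] at hmaster hci
  have hc₁' : (x₁ : ℤ) % 5 = (-w₁) % 5 := hc₁
  have hc₀' : (x₀ : ℤ) % 5 = (2 * σ) % 5 := hc₀
  obtain ⟨c', rfl⟩ := hTc
  have hidx : idx ∣ 45 := ⟨c', by nlinarith⟩
  have hodd : ∀ k, Nat.Coprime (2 ^ k) idx := fun k =>
    Nat.Coprime.coprime_dvd_right hidx (Nat.Coprime.pow_left _ (by norm_num))
  have hd : ∀ a ∈ Nat.divisors 1152, ∀ b ∈ Nat.divisors 1152, 2 ≤ a → 2 ≤ b → b = a + 1 → a % 5 = 1 → b % 5 = 2 → False := by
    decide +kernel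
  have hd' : ∀ a ∈ Nat.divisors 1152, ∀ b ∈ Nat.divisors 1152, 2 ≤ a → 2 ≤ b → a = b + 1 → a % 5 = 4 → b % 5 = 3 →
      (a = 4 ∧ b = 3) ∨ (a = 9 ∧ b = 8) := by
    decide +kernel
  have hm₁ : x₁ ∈ Nat.divisors 1152 := Nat.mem_divisors.2 ⟨hd₁, by norm_num⟩
  have hm₀ : x₀ ∈ Nat.divisors 1152 := Nat.mem_divisors.2 ⟨hd₀, by norm_num⟩
  have habs : ∀ y : ℤ, ∀ a : ℕ, |y| < a → y.natAbs < a := by
    intro y a hy
    rw [Int.abs_eq_natAbs] at hy
    exact_mod_cast hy
  have hfinal : ∀ B : ℕ, 0 < B → 128 * c' * A = B → B < 128 * 128 → False := by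
    intro B hB0 hB hlt
    rcases hA with hA | hA
    · subst hA
      simp at hB
      omega
    · have hc'0 : 1 ≤ c' := by
        rcases Nat.eq_zero_or_pos c' with rfl | h9
        · omega
        · exact h9
      have : 128 * 128 ≤ 128 * c' * A := by
        have h9 : 128 ≤ A := by nlinarith
        nlinarith
      omega
  rcases hw with rfl | rfl <;> rcases hσ with rfl | rfl
  · omega
  · rcases hd' _ hm₁ _ hm₀ hx₁ hx₀ (by omega) (by omega) (by omega) with ⟨rfl, rfl⟩ | ⟨rfl, rfl⟩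
    · have h1 : 2 ^ 2 ∣ y₁.natAbs := (hodd 2).dvd_of_dvd_mul_left (by simpa using hdv₁)
      have h2 : y₁ = 0 := by
        have h3 := habs _ _ hl₁
        have h4 := Nat.eq_zero_of_dvd_of_lt h1 h3
        omega
      subst h2
      have h5 : y₀ = -1 := by omega
      subst h5
      norm_num at hmaster
      refine hfinal 7680 (by norm_num) ?_ (by norm_num)
      have : (128 * (c' : ℤ)) * A = 7680 := by linarith
      exact_mod_cast this
    · have h1 : 2 ^ 3 ∣ y₀.natAbs := (hodd 3).dvd_of_dvd_mul_left (by simpa using hdv₀)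
      have h2 : y₀ = 0 := by
        have h3 := habs _ _ hl₀
        have h4 := Nat.eq_zero_of_dvd_of_lt h1 h3
        omega
      subst h2
      have h5 : y₁ = 1 := by omega
      subst h5
      norm_num at hmaster
      refine hfinal 5120 (by norm_num) ?_ (by norm_num)
      have : (128 * (c' : ℤ)) * A = 5120 := by linarith
      exact_mod_cast this
  · exact hd _ hm₁ _ hm₀ hx₁ hx₀ (by omega) (by omega) (by omega)
  · omega

/-- No finite simple group has order 5760 = 2^7 * 3^2 * 5. -/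
theorem result {G : Type*} [Group G] [Finite G] [IsSimpleGroup G] : Nat.card G ≠ 5760 := by
  intro h
  have : Fact (Nat.Prime 5) := ⟨by norm_num⟩
  have : Fact (Nat.Prime 2) := ⟨by norm_num⟩
  have h7 : Nat.card G = 5 * 1152 := by rw [h]
  have hm : ¬ 5 ∣ 1152 := by norm_num
  have hG : ¬ IsMulCommutative G :=
    Cfsg.Agent.Lib.SmallGroups2.not_isMulCommutative_of_not_prime (by rw [h]; norm_num)
  have hmem := Cfsg.Agent.Lib.SmallGroups2.card_sylow_mem_candidates hG h7 hm
  have hc : Cfsg.Agent.Lib.SmallGroups2.sylowCandidates 5 1152 = {6, 16, 36, 96, 576} := by decide +kernel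
  rw [hc] at hmem
  simp only [Finset.mem_insert, Finset.mem_singleton] at hmem
  rcases hmem with hn | hn | hn | hn | hn
  · have := two_mul_card_dvd_factorial_card_sylow hG (p := 5) (by rw [h]; norm_num)
    rw [hn, h] at this
    revert this
    decide
  · exact comm_exclude (p := 5) (q := 2) (k := 72) hG h7 hm hn (by norm_num) (by decide +kernel) (by decide +kernel)
  · exact case36 hG h hn
  · exact case96 hG h hn
  · exact case576 hG h hn

end Cfsg.Agent.S0980
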