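import Mathlib
import Cfsg.Statements.S0981
import Cfsg.Agent.Lib.SmallGroups2
import Cfsg.Agent.Lib.Small168
import Cfsg.Agent.Lib.TwoLocal
import Cfsg.Agent.Lib.TwoLocal2
import Cfsg.Agent.Lib.DefectTwo2
import Cfsg.Agent.Lib.CITCount
import Cfsg.Agent.Lib.CITCount2
import Cfsg.Agent.Lib.DefectOne
-- import your own Cfsg.Agent.* helpers here

set_option autoImplicit false
open Cfsg

namespace Cfsg.Agent.S0981

open Cfsg.Agent.Lib.SmallGroups2
open Cfsg.Agent.Lib.Small168
open Cfsg.Agent.Lib.TwoLocal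
open Cfsg.Agent.Lib.TwoLocal2
open Cfsg.Agent.Lib.DefectTwo2
open Cfsg.Agent.Lib.CITCount
open Cfsg.Agent.Lib.CITCount2
open Cfsg.Agent.Lib.DefectOne

/-- A simple group of order 4080 is isomorphic to the projective special linear group of dimension 2 over the field with 16 elements. -/
theorem result {G : Type*} [Group G] [Finite G] [IsSimpleGroup G] (h : Nat.card G = 4080) {F : Type*} [Field F] [Fintype F] (hF : Fintype.card F = 16) : Nonempty (G ≃* Matrix.ProjectiveSpecialLinearGroup (Fin 2) F) := by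
  have : Fact (Nat.Prime 17) := ⟨by norm_num⟩
  have : Fact (Nat.Prime 5) := ⟨by norm_num⟩
  have : Fact (Nat.Prime 3) := ⟨by norm_num⟩
  have : Fact (Nat.Prime 2) := ⟨by norm_num⟩
  have h7 : Nat.card G = 17 * 240 := by rw [h]
  have hm : ¬ 17 ∣ 240 := by norm_num
  have hG : ¬ IsMulCommutative G := not_isMulCommutative_of_not_prime (by rw [h]; norm_num)
  have hn : Nat.card (Sylow 17 G) = 120 := by
    have hmem := card_sylow_mem_candidates hG h7 hm
    have hc : sylowCandidates 17 240 = {120} := by decide +kernel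
    rw [hc] at hmem
    simpa using hmem
  have hn2 : Nat.card (Sylow 17 G) * 2 = 240 := by rw [hn]
  obtain ⟨T⟩ : Nonempty (Sylow 2 G) := inferInstance
  have hT : Nat.card (T : Subgroup G) = 2 ^ 4 := sylow_card_of_card_eq (p := 2) (a := 4) (m := 255) (by rw [h]; norm_num) (by norm_num) T
  obtain ⟨P⟩ : Nonempty (Sylow 17 G) := inferInstance
  obtain ⟨x₁, x₀, w₁, σ, hw, hσ, hx₁, hx₀, hd₁, hd₀, he, hc₁, hc₀, hall⟩ := s2_global hG h7 hm (by norm_num) hn2 P
  have hc₁' : (x₁ : ℤ) % 17 = (-w₁) % 17 := hc₁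
  have hc₀' : (x₀ : ℤ) % 17 = (2 * σ) % 17 := hc₀
  have hm₁ : x₁ ∈ Nat.divisors 240 := Nat.mem_divisors.2 ⟨hd₁, by norm_num⟩
  have hm₀ : x₀ ∈ Nat.divisors 240 := Nat.mem_divisors.2 ⟨hd₀, by norm_num⟩
  have hd : ∀ a ∈ Nat.divisors 240, ∀ b ∈ Nat.divisors 240, 2 ≤ a → 2 ≤ b → b = a + 1 → a % 17 = 1 → b % 17 = 2 → False := by
    decide +kernel
  have hd' : ∀ a ∈ Nat.divisors 240, ∀ b ∈ Nat.divisors 240, 2 ≤ a → 2 ≤ b → a = b + 1 → a % 17 = 16 → b % 17 = 15 → a = 16 ∧ b = 15 := by
    decide +kernel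
  have hw' : w₁ = 1 ∧ σ = -1 ∧ x₁ = 16 ∧ x₀ = 15 := by
    rcases hw with rfl | rfl <;> rcases hσ with rfl | rfl
    · omega
    · obtain ⟨rfl, rfl⟩ := hd' _ hm₁ _ hm₀ hx₁ hx₀ (by omega) (by omega) (by omega)
      exact ⟨rfl, rfl, rfl, rfl⟩
    · exact (hd _ hm₁ _ hm₀ hx₁ hx₀ (by omega) (by omega) (by omega)).elim
    · omega
  obtain ⟨rfl, rfl, rfl, rfl⟩ := hw'
  -- the central involution
  obtain ⟨z, hz2, hz1, hTz⟩ := Cfsg.Agent.Lib.DefectTwo.exists_central_involution T (by rw [hT]; norm_num)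
  obtain ⟨A, y₁, y₀, hdv₁, -, hl₁, -, hy, hA, -, hmaster⟩ := hall z hz2 hz1
  have hci := Subgroup.card_mul_index (Subgroup.centralizer ({z} : Set G))
  set c := Nat.card (Subgroup.centralizer ({z} : Set G)) with hc
  set idx := (Subgroup.centralizer ({z} : Set G)).index with hidx
  rw [h] at hci hmaster
  have hTc : 16 ∣ c := by
    have := Subgroup.card_dvd_of_le hTz
    rwa [hT] at this
  obtain ⟨c', hc'⟩ := hTc
  have hidxd : idx ∣ 255 := ⟨c', by rw [hc'] at hci; nlinarith⟩
  have hodd : Nat.Coprime 16 idx := Nat.Coprime.coprime_dvd_right hidxd (by norm_num)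
  have h1 : 16 ∣ y₁.natAbs := hodd.dvd_of_dvd_mul_left hdv₁
  have hy1 : y₁ = 0 := by
    have h3 : y₁.natAbs < 16 := by
      have := hl₁
      rw [Int.abs_eq_natAbs] at this
      exact_mod_cast this
    have h4 := Nat.eq_zero_of_dvd_of_lt h1 h3
    omega
  subst hy1
  have hy0 : y₀ = -1 := by omega
  subst hy0
  norm_num at hmaster
  have hcA : c * A = 4352 := by
    have : (c : ℤ) * A = 4352 := by linarith
    exact_mod_cast this
  have hcle : c * c ≤ 4352 := by
    rcases hA with hA | hA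
    · subst hA
      omega
    · calc c * c ≤ c * A := Nat.mul_le_mul_left _ hA
        _ = 4352 := hcA
  have hc16 : c = 16 := by
    have hmc : c ∈ Nat.divisors 4080 := Nat.mem_divisors.2 ⟨⟨idx, hci.symm⟩, by norm_num⟩
    have hd2 : ∀ c ∈ Nat.divisors 4080, 16 ∣ c → c * c ≤ 4352 → c ∣ 4352 → c = 16 := by decide +kernel
    exact hd2 c hmc ⟨c', hc'⟩ hcle ⟨A, hcA.symm⟩
  -- all involutions
  have hC : ∀ w : G, orderOf w = 2 → Nat.card (Subgroup.centralizer ({w} : Set G)) = 2 ^ 4 := by
    intro w hw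
    have hw2 : w ^ 2 = 1 := by rw [← hw]; exact pow_orderOf_eq_one w
    have hw1 : w ≠ 1 := by
      intro h0
      rw [h0, orderOf_one] at hw
      omega
    rw [← card_centralizer_of_isConj (isConj_of_involutions hG h7 hm (by norm_num) hn2 hz2 hz1 hw2 hw1), ← hc, hc16]
    norm_num
  -- element of order 17
  have hC17 : ∀ y : G, orderOf y = 17 → ∀ r ∈ Subgroup.centralizer ({y} : Set G), orderOf r ∣ 17 := by
    intro y hy r hr
    obtain ⟨Q, hQ⟩ := exists_sylow_mem_of_orderOf hy
    obtain ⟨HQ, -⟩ := Cfsg.Agent.Lib.DefectOne.hyp_of_sylow hG Nat.prime_two h7 hm hn2 Q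
    have hy1 : y ≠ 1 := by
      intro h0
      rw [h0, orderOf_one] at hy
      omega
    rw [HQ.cent y hQ hy1] at hr
    have := Subgroup.orderOf_dvd_natCard _ hr
    rwa [HQ.card] at this
  -- centralizers of elements of order dividing `15`
  have hC15 : ∀ r : G, orderOf r ∣ 15 → r ≠ 1 → Nat.card (Subgroup.centralizer ({r} : Set G)) ∣ 15 := by
    intro r hord hr1
    have hr1' : orderOf r ≠ 1 := fun h0 => hr1 (orderOf_eq_one_iff.1 h0)
    have h2 : ¬ 2 ∣ Nat.card (Subgroup.centralizer ({r} : Set G)) := by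
      intro h2
      obtain ⟨w, hw⟩ := exists_prime_orderOf_dvd_card' (G := Subgroup.centralizer ({r} : Set G)) 2 h2
      have hw' : orderOf (w : G) = 2 := by rw [← hw]; exact Subgroup.orderOf_coe w
      have hrw : r ∈ Subgroup.centralizer ({(w : G)} : Set G) := by
        rw [Subgroup.mem_centralizer_singleton_iff]
        exact (Subgroup.mem_centralizer_singleton_iff.1 w.2).symm
      have h3 := Subgroup.orderOf_dvd_natCard _ hrw
      rw [hC _ hw'] at h3
      exact hr1' (Nat.eq_one_of_dvd_coprimes (by norm_num : Nat.Coprime 15 (2 ^ 4)) hord h3)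
    have h7' : ¬ 17 ∣ Nat.card (Subgroup.centralizer ({r} : Set G)) := by
      intro h2
      obtain ⟨w, hw⟩ := exists_prime_orderOf_dvd_card' (G := Subgroup.centralizer ({r} : Set G)) 17 h2
      have hw' : orderOf (w : G) = 17 := by rw [← hw]; exact Subgroup.orderOf_coe w
      have hrw : r ∈ Subgroup.centralizer ({(w : G)} : Set G) := by
        rw [Subgroup.mem_centralizer_singleton_iff]
        exact (Subgroup.mem_centralizer_singleton_iff.1 w.2).symm
      have h3 := hC17 _ hw' r hrw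
      exact hr1' (Nat.eq_one_of_dvd_coprimes (by norm_num : Nat.Coprime 15 17) hord h3)
    have hdG : Nat.card (Subgroup.centralizer ({r} : Set G)) ∣ 4080 := by
      rw [← h]; exact Subgroup.card_subgroup_dvd_card _
    have hmc : Nat.card (Subgroup.centralizer ({r} : Set G)) ∈ Nat.divisors 4080 := Nat.mem_divisors.2 ⟨hdG, by norm_num⟩
    have hd3 : ∀ c ∈ Nat.divisors 4080, ¬ 2 ∣ c → ¬ 17 ∣ c → c ∣ 15 := by decide +kernel
    exact hd3 _ hmc h2 h7'
  -- Sylow data
  have hQ3 : ∀ Q : Sylow 3 G, Nat.card (Q : Subgroup G) = 3 := fun Q => by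
    rw [sylow_card_of_card_eq (p := 3) (a := 1) (m := 1360) (by rw [h]; norm_num) (by norm_num) Q]; norm_num
  have hQ5 : ∀ Q : Sylow 5 G, Nat.card (Q : Subgroup G) = 5 := fun Q => by
    rw [sylow_card_of_card_eq (p := 5) (a := 1) (m := 816) (by rw [h]; norm_num) (by norm_num) Q]; norm_num
  have hQ₂ : Nat.card {x : G // orderOf x = 17} = 1920 := by
    rw [card_orderOf_eq_prime (fun Q => by
      rw [sylow_card_of_card_eq (p := 17) (a := 1) (m := 240) (by rw [h]; norm_num) (by norm_num) Q]; norm_num), hn]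
  have hQ₁ : 256 ≤ Nat.card {x : G // x ^ 2 = 1} := by
    have h1' := card_sq_eq_one_ge hz2 hz1
    have h2' := card_isConj_mul_centralizer z
    rw [← hc, hc16, h] at h2'
    omega
  have hex : ∀ (q : ℕ) [Fact q.Prime] (Q : Sylow q G), Nat.card (Q : Subgroup G) = q → ∃ r ∈ (Q : Subgroup G), r ≠ 1 ∧ orderOf r = q := by
    intro q _ Q hQq
    have hqq : q.Prime := Fact.out
    obtain ⟨r, hr⟩ := exists_prime_orderOf_dvd_card' (G := (Q : Subgroup G)) q (by rw [hQq])
    have hr' : orderOf (r : G) = q := (Subgroup.orderOf_coe r).trans hr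
    refine ⟨r, r.2, ?_, hr'⟩
    intro h0
    rw [h0, orderOf_one] at hr'
    exact hqq.one_lt.ne hr'
  obtain ⟨R⟩ : Nonempty (Sylow 3 G) := inferInstance
  obtain ⟨r₀, hr₀, hr₀1, hr₀o⟩ := hex 3 R (hQ3 R)
  have hcent3 : Nat.card (Subgroup.centralizer ((R : Subgroup G) : Set G)) = 3 ∨ Nat.card (Subgroup.centralizer ((R : Subgroup G) : Set G)) = 15 := by
    rw [← centralizer_eq_of_mem (by norm_num) (hQ3 R) hr₀ hr₀1]
    have h1' := hC15 r₀ (by rw [hr₀o]; norm_num) hr₀1
    have h2' : 3 ∣ Nat.card (Subgroup.centralizer ({r₀} : Set G)) := by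
      have := Subgroup.orderOf_dvd_natCard (Subgroup.centralizer ({r₀} : Set G)) (x := r₀)
        (by simp [Subgroup.mem_centralizer_singleton_iff])
      rwa [hr₀o] at this
    have hmc : Nat.card (Subgroup.centralizer ({r₀} : Set G)) ∈ Nat.divisors 15 := Nat.mem_divisors.2 ⟨h1', by norm_num⟩
    have hd3 : ∀ c ∈ Nat.divisors 15, 3 ∣ c → c = 3 ∨ c = 15 := by decide +kernel
    exact hd3 _ hmc h2'
  have hne3 : ∀ e, e ∣ 3 - 1 → e ≠ 1 → e = 2 := by
    intro e he1 he2
    have hmc : e ∈ Nat.divisors 2 := Nat.mem_divisors.2 ⟨he1, by norm_num⟩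
    have hd3 : ∀ e ∈ Nat.divisors 2, e ≠ 1 → e = 2 := by decide +kernel
    exact hd3 e hmc he2
  obtain ⟨e3, he3a, he3b, he3c⟩ := sylow_count_data hG R (hQ3 R)
  have he3 := hne3 e3 he3a he3b
  subst he3
  rw [h] at he3c
  rcases hcent3 with h3 | h15
  · -- no elements of order `15`
    exfalso
    rw [h3] at he3c
    have hn3 : Nat.card (Sylow 3 G) = 680 := by omega
    have ho3 : Nat.card {x : G // orderOf x = 3} = 1360 := by
      rw [card_orderOf_eq_prime hQ3, hn3]
    obtain ⟨S⟩ : Nonempty (Sylow 5 G) := inferInstance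
    obtain ⟨s₀, hs₀, hs₀1, hs₀o⟩ := hex 5 S (hQ5 S)
    have hcent5 : Nat.card (Subgroup.centralizer ((S : Subgroup G) : Set G)) = 5 := by
      rw [← centralizer_eq_of_mem (by norm_num) (hQ5 S) hs₀ hs₀1]
      have h1' := hC15 s₀ (by rw [hs₀o]; norm_num) hs₀1
      have h2' : 5 ∣ Nat.card (Subgroup.centralizer ({s₀} : Set G)) := by
        have := Subgroup.orderOf_dvd_natCard (Subgroup.centralizer ({s₀} : Set G)) (x := s₀)
          (by simp [Subgroup.mem_centralizer_singleton_iff])
        rwa [hs₀o] at this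
      have hmc : Nat.card (Subgroup.centralizer ({s₀} : Set G)) ∈ Nat.divisors 15 := Nat.mem_divisors.2 ⟨h1', by norm_num⟩
      have hd3 : ∀ c ∈ Nat.divisors 15, 5 ∣ c → c = 5 ∨ c = 15 := by decide +kernel
      rcases hd3 _ hmc h2' with h5 | h5
      · exact h5
      · exfalso
        have h3' : 3 ∣ Nat.card (Subgroup.centralizer ({s₀} : Set G)) := by rw [h5]; norm_num
        obtain ⟨w, hw⟩ := exists_prime_orderOf_dvd_card' (G := Subgroup.centralizer ({s₀} : Set G)) 3 h3'
        have hw' : orderOf (w : G) = 3 := by rw [← hw]; exact Subgroup.orderOf_coe w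
        obtain ⟨Q', hQ'⟩ := exists_sylow_mem_of_orderOf hw'
        have hw1 : (w : G) ≠ 1 := by
          intro h0
          rw [h0, orderOf_one] at hw'
          omega
        have h6 := centralizer_eq_of_mem (by norm_num) (hQ3 Q') hQ' hw1
        have h7 : Nat.card (Subgroup.centralizer ({(w : G)} : Set G)) = 3 := by
          rw [h6, card_centralizer_sylow_eq Q' R, h3]
        have hsw : s₀ ∈ Subgroup.centralizer ({(w : G)} : Set G) := by
          rw [Subgroup.mem_centralizer_singleton_iff]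
          exact (Subgroup.mem_centralizer_singleton_iff.1 w.2).symm
        have h8 := Subgroup.orderOf_dvd_natCard _ hsw
        rw [h7, hs₀o] at h8
        omega
    obtain ⟨e5, he5a, he5b, he5c⟩ := sylow_count_data hG S (hQ5 S)
    rw [hcent5, h] at he5c
    have hn5 : 204 ≤ Nat.card (Sylow 5 G) := by
      have hmc : e5 ∈ Nat.divisors 4 := Nat.mem_divisors.2 ⟨he5a, by norm_num⟩
      have hd3 : ∀ e ∈ Nat.divisors 4, e ≠ 1 → e = 2 ∨ e = 4 := by decide +kernel
      rcases hd3 e5 hmc he5b with rfl | rfl <;> omega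
    have ho5 : 816 ≤ Nat.card {x : G // orderOf x = 5} := by
      rw [card_orderOf_eq_prime hQ5]
      omega
    have hsum := sum_card_le4 (fun x : G => x ^ 2 = 1) (fun x : G => orderOf x = 17) (fun x : G => orderOf x = 3)
      (fun x : G => orderOf x = 5)
      (by
        intro x hx hx7
        have h2' := orderOf_dvd_of_pow_eq_one hx
        rw [hx7] at h2'
        omega)
      (by
        intro x hx hx7
        have h2' := orderOf_dvd_of_pow_eq_one hx
        rw [hx7] at h2'
        omega)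
      (by
        intro x hx hx7
        have h2' := orderOf_dvd_of_pow_eq_one hx
        rw [hx7] at h2'
        omega)
      (by intro x hx hx7; omega)
      (by intro x hx hx7; omega)
      (by intro x hx hx7; omega)
    rw [h] at hsum
    omega
  · -- elements of order `15`
    rw [h15] at he3c
    have hn3 : Nat.card (Sylow 3 G) = 136 := by omega
    have hW : ∀ Q : Sylow 3 G, Nat.card (Subgroup.centralizer ((Q : Subgroup G) : Set G)) = 15 := by
      intro Q
      rw [card_centralizer_sylow_eq Q R, h15]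
    have hTI : ∀ (Q₁ Q₂ : Sylow 3 G) (x : G), x ∈ Subgroup.centralizer ((Q₁ : Subgroup G) : Set G) →
        x ∈ Subgroup.centralizer ((Q₂ : Subgroup G) : Set G) → x ≠ 1 → Q₁ = Q₂ := by
      intro Q₁ Q₂ x hx1 hx2 hx
      have hord : orderOf x ∣ 15 := by
        have := Subgroup.orderOf_dvd_natCard _ hx1
        rwa [hW Q₁] at this
      have hCx := hC15 x hord hx
      -- both in `C(x)`
      set K := Subgroup.centralizer ({x} : Set G) with hK
      have hle : ∀ Q : Sylow 3 G, x ∈ Subgroup.centralizer ((Q : Subgroup G) : Set G) → (Q : Subgroup G) ≤ K := by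
        intro Q hxQ y hy
        rw [hK, Subgroup.mem_centralizer_singleton_iff]
        exact Subgroup.mem_centralizer_iff.1 hxQ y hy
      have hsub : ∀ Q : Sylow 3 G, (Q : Subgroup G) ≤ K → ∃ Q' : Sylow 3 K, (Q' : Subgroup K) = (Q : Subgroup G).subgroupOf K := by
        intro Q hQK
        apply Cfsg.Agent.Lib.TwoLocal.exists_sylow_of_card_prime
        · exact (Nat.card_congr (Subgroup.subgroupOfEquivOfLe hQK).toEquiv).trans (hQ3 Q)
        · rw [h]; norm_num
      obtain ⟨Q₁', hQ₁'⟩ := hsub Q₁ (hle Q₁ hx1)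
      obtain ⟨Q₂', hQ₂'⟩ := hsub Q₂ (hle Q₂ hx2)
      -- the number of Sylow 3-subgroups of `K`
      have hnK : Nat.card (Sylow 3 K) = 1 := by
        have h1' := card_normalizer_mul_card_sylow Q₁'
        have h2' : 3 ∣ Nat.card (Subgroup.normalizer ((Q₁' : Subgroup K) : Set K)) := by
          have h3' := Subgroup.card_dvd_of_le (Subgroup.le_normalizer (H := (Q₁' : Subgroup K)))
          have h4' : Nat.card (Q₁' : Subgroup K) = 3 := by
            rw [hQ₁']
            exact (Nat.card_congr (Subgroup.subgroupOfEquivOfLe (hle Q₁ hx1)).toEquiv).trans (hQ3 Q₁)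
          rwa [h4'] at h3'
        obtain ⟨k, hk⟩ := h2'
        rw [hk] at h1'
        have h5' : k * Nat.card (Sylow 3 K) ∣ 5 := by
          have h6' : 3 * (k * Nat.card (Sylow 3 K)) ∣ 3 * 5 := by
            rw [← mul_assoc, h1']
            exact hCx
          exact Nat.dvd_of_mul_dvd_mul_left (by norm_num) h6'
        have h6' : Nat.card (Sylow 3 K) ∣ 5 := (dvd_mul_left _ _).trans h5'
        have h7' : Nat.card (Sylow 3 K) % 3 = 1 := by rw [card_sylow_mod]
        have hmc : Nat.card (Sylow 3 K) ∈ Nat.divisors 5 := Nat.mem_divisors.2 ⟨h6', by norm_num⟩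
        have hd3 : ∀ c ∈ Nat.divisors 5, c % 3 = 1 → c = 1 := by decide +kernel
        exact hd3 _ hmc h7'
      have hsub' := (Nat.card_eq_one_iff_unique.1 hnK).1
      have hQQ : Q₁' = Q₂' := hsub'.elim _ _
      have hUU : (Q₁ : Subgroup G).subgroupOf K = (Q₂ : Subgroup G).subgroupOf K := by
        rw [← hQ₁', ← hQ₂', hQQ]
      apply Sylow.ext
      ext y
      constructor
      · intro hy
        have h8 : (⟨y, hle Q₁ hx1 hy⟩ : K) ∈ (Q₁ : Subgroup G).subgroupOf K := Subgroup.mem_subgroupOf.2 hy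
        rw [hUU] at h8
        exact Subgroup.mem_subgroupOf.1 h8
      · intro hy
        have h8 : (⟨y, hle Q₂ hx2 hy⟩ : K) ∈ (Q₂ : Subgroup G).subgroupOf K := Subgroup.mem_subgroupOf.2 hy
        rw [← hUU] at h8
        exact Subgroup.mem_subgroupOf.1 h8
    have hQ₃ : 1904 ≤ Nat.card {x : G // orderOf x ∣ 15 ∧ x ≠ 1} := by
      have := card_mul_le_of_TI (ι := Sylow 3 G) (w := 15) (fun Q => Subgroup.centralizer ((Q : Subgroup G) : Set G)) hW hTI
        (fun x => orderOf x ∣ 15 ∧ x ≠ 1)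
        (fun i x hx hx1 => ⟨by
          have := Subgroup.orderOf_dvd_natCard _ hx
          rwa [hW i] at this, hx1⟩)
      rw [hn3] at this
      simpa using this
    have hcover := cover3 (fun x : G => x ^ 2 = 1) (fun x : G => orderOf x = 17) (fun x : G => orderOf x ∣ 15 ∧ x ≠ 1)
      (by
        intro x hx hx7
        have h2' := orderOf_dvd_of_pow_eq_one hx
        rw [hx7] at h2'
        omega)
      (by
        rintro x hx ⟨hx9, hx1⟩
        have h2' := orderOf_dvd_of_pow_eq_one hx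
        apply hx1
        exact orderOf_eq_one_iff.1 (Nat.eq_one_of_dvd_coprimes (by norm_num : Nat.Coprime 15 2) hx9 h2'))
      (by
        rintro x hx ⟨hx9, -⟩
        rw [hx] at hx9
        omega)
      (by
        rw [h]
        omega)
    refine psl_of_cover hG T hT (by norm_num) hC ?_ (by rw [hF]; norm_num)
    intro x k hx
    have hxd := orderOf_dvd_of_pow_eq_one hx
    rcases hcover x with h1' | h1' | ⟨h1', h2'⟩
    · exact h1'
    · rw [h1'] at hxd
      have := (Nat.prime_dvd_prime_iff_eq (by norm_num) Nat.prime_two).1 (Nat.Prime.dvd_of_dvd_pow (by norm_num) hxd)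
      omega
    · exact absurd (orderOf_eq_one_iff.1 (Nat.eq_one_of_dvd_coprimes (Nat.Coprime.pow_right k (by norm_num : Nat.Coprime 15 2)) h1' hxd)) h2'

end Cfsg.Agent.S0981
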