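import Mathlib
import Cfsg.Statements.S0982
import Cfsg.Agent.Lib.PSL2Rec3

set_option autoImplicit false
set_option linter.style.haveILetI false
open Cfsg

namespace Cfsg.Agent.S0982

open Cfsg.Agent.Lib.PSL2Rec Cfsg.Agent.Lib.SmallGroups2

/-- Logarithm table. -/
def dl : ZMod 23 → Bool × ℕ := fun i =>
  [(false, 0), (false, 0), (false, 1), (false, 8), (false, 2), (true, 0), (false, 9), (true, 9), (false, 3), (false, 5), (true, 1), (true, 4), (false, 10), (false, 7), (true, 10), (true, 8), (false, 4), (true, 3), (false, 6), (true, 7), (true, 2), (true, 6), (true, 5)].getD i.val (false, 0)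

theorem chk : Chk 23 dl 0 := by
  unfold Chk tbl
  decide +kernel

theorem hdl : ∀ i : ZMod 23, i ≠ 0 → i = (if (dl i).1 then 5 else 1) * 2 ^ (dl i).2 := by
  decide +kernel

theorem hg0 : (5 : ZMod 23) ≠ 0 := by decide
theorem hsq : (5 : ZMod 23) ^ 2 = 2 := by decide

/-- A simple group of order 6072 is isomorphic to the projective special linear group of dimension 2 over the field with 23 elements. -/
theorem result {G : Type*} [Group G] [Finite G] [IsSimpleGroup G] (h : Nat.card G = 6072) {F : Type*} [Field F] [Fintype F] (hF : Fintype.card F = 23) : Nonempty (G ≃* Matrix.ProjectiveSpecialLinearGroup (Fin 2) F) := by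
  haveI : Fact (Nat.Prime 23) := ⟨by norm_num⟩
  have hna : ¬ IsMulCommutative G := by
    apply not_isMulCommutative_of_not_prime
    rw [h]
    norm_num
  have hc : Nat.card (Sylow 23 G) = 23 + 1 := by
    have h1 := card_sylow_mem_filter (G := G) (p := 23) (a := 1) (m := 264) (by rw [h]; norm_num) (by norm_num) (by norm_num)
    have h2 : Nat.card (Sylow 23 G) ≠ 1 := card_sylow_ne_one hna (by rw [h]; norm_num)
    have e : (Nat.divisors 264).filter (fun n => n % 23 = 1 % 23) = {1, 24} := by decide +kernel
    rw [e] at h1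
    simp only [Finset.mem_insert, Finset.mem_singleton] at h1
    omega
  refine recognize (p := 23) hna (by norm_num) (by rw [h]; norm_num) hc 5 0 (Units.mk0 5 hg0) hg0 dl ?_ chk ?_ hF
  · have e : (((Units.mk0 5 hg0) ^ 2 : (ZMod 23)ˣ) : ZMod 23) = 2 := by
      simp
      exact hsq
    rw [e]
    exact hdl
  · intro L t _ _ k' hk'
    exact absurd hk' (Units.ne_zero _)

end Cfsg.Agent.S0982
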