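import Cfsg.Statements.S1237
import Cfsg.Agent.Lib.Fpf3D
import Cfsg.Agent.Lib.T64U
import Cfsg.Agent.Lib.CritAut

set_option autoImplicit false
open Cfsg

namespace Cfsg.Agent.S1237

section

open Cfsg.Agent.Lib.T64 Cfsg.Agent.Lib.Fpf3 Cfsg.Agent.Lib.Fpf3B Cfsg.Agent.Lib.Fpf3C
  Cfsg.Agent.Lib.Fpf3D

variable {T : Type*} [Group T]

/-- The restriction of an automorphism to an invariant subgroup. -/
def resD (D : Subgroup T) (hD : ∀ α : MulAut T, ∀ x ∈ D, α x ∈ D) (α : MulAut T) : MulAut D where
  toFun x := ⟨α x, hD α x x.2⟩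
  invFun x := ⟨α⁻¹ x, hD α⁻¹ x x.2⟩
  left_inv x := Subtype.ext (by simp)
  right_inv x := Subtype.ext (by simp)
  map_mul' a b := Subtype.ext (by simp)

theorem resD_coe (D : Subgroup T) (hD : ∀ α : MulAut T, ∀ x ∈ D, α x ∈ D) (α : MulAut T) (x : D) :
    ((resD D hD α x : D) : T) = α x := rfl

theorem resD_pow (D : Subgroup T) (hD : ∀ α : MulAut T, ∀ x ∈ D, α x ∈ D) (α : MulAut T) (k : ℕ)
    (x : D) : (((resD D hD α) ^ k) x : T) = (α ^ k) x := by
  induction k with
  | zero => simp
  | succ k ih =>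
    rw [pow_succ', MulAut.mul_apply, resD_coe, ih, pow_succ', MulAut.mul_apply]

variable [Finite T]

theorem main (hT : IsPGroup 2 T) (h2 : Cfsg.PRankLE 2 2 T) (h1 : ¬ Cfsg.PRankLE 2 1 T)
    (φ : MulAut T) (htrans : ∀ s t : T, orderOf s = 2 → orderOf t = 2 → ∃ k : ℕ, (φ ^ k) s = t)
    {F : Type*} [Field F] [Fintype F] (hF : Fintype.card F = 16) (P : Sylow 2 (Cfsg.PSU 3 F 4)) :
    (∃ n : ℕ, 1 ≤ n ∧ Nonempty (T ≃* Multiplicative (ZMod (2 ^ n) × ZMod (2 ^ n)))) ∨
      Nonempty (T ≃* (P : Subgroup (Cfsg.PSU 3 F 4))) := by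
  classical
  have : Fact (Nat.Prime 2) := ⟨Nat.prime_two⟩
  -- a large elementary subgroup
  have h1' := h1
  simp only [Cfsg.PRankLE, not_forall, not_le] at h1'
  obtain ⟨A, hAc, hA2, hAcard⟩ := h1'
  have hAcard' : 2 < Nat.card A := by simpa using hAcard
  have hnt : Nontrivial T := by
    by_contra hcon
    rw [not_nontrivial_iff_subsingleton] at hcon
    have : Nat.card A ≤ 1 := Finite.card_le_one_iff_subsingleton.mpr inferInstance
    omega
  -- all involutions are central
  have hZnt : Nontrivial (Subgroup.center T) := hT.center_nontrivial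
  have hZ2 : 2 ∣ Nat.card (Subgroup.center T) := by
    obtain ⟨n, hn⟩ := IsPGroup.iff_card.mp (hT.to_subgroup (Subgroup.center T))
    have h3 : 1 < Nat.card (Subgroup.center T) := Finite.one_lt_card
    rw [hn] at h3 ⊢
    refine dvd_pow_self 2 ?_
    rintro rfl
    simp at h3
  obtain ⟨z₀, hz₀⟩ := exists_prime_orderOf_dvd_card' (G := Subgroup.center T) 2 hZ2
  have hz₀' : orderOf (z₀ : T) = 2 := by
    rw [← hz₀]
    exact Subgroup.orderOf_coe z₀
  have hmap : ∀ (k : ℕ), ∀ z ∈ Subgroup.center T, (φ ^ k) z ∈ Subgroup.center T :=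
    fun k z hz => center_map (φ ^ k) hz
  have hcent : ∀ s : T, s ^ 2 = 1 → s ∈ Subgroup.center T := by
    intro s hs
    by_cases hs1 : s = 1
    · rw [hs1]; exact Subgroup.one_mem _
    · have hs2 : orderOf s = 2 := orderOf_eq_prime hs hs1
      obtain ⟨k, hk⟩ := htrans _ _ hz₀' hs2
      rw [← hk]
      exact hmap k _ z₀.2
  let V : Subgroup T :=
    { carrier := {x | x ^ 2 = 1}
      one_mem' := one_pow 2
      mul_mem' := by
        intro a b ha hb
        have ha' : a ^ 2 = 1 := ha
        have hb' : b ^ 2 = 1 := hb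
        have hc : Commute a b := (central (hcent a ha') b).symm
        show (a * b) ^ 2 = 1
        rw [hc.mul_pow, ha', hb', one_mul]
      inv_mem' := by
        intro a ha
        have ha' : a ^ 2 = 1 := ha
        show a⁻¹ ^ 2 = 1
        rw [inv_pow, ha', inv_one] }
  have hsq : ∀ t : T, t ^ 2 = 1 ↔ t ∈ V := fun t => Iff.rfl
  have hVZ : V ≤ Subgroup.center T := fun v hv => hcent v hv
  have hV4 : Nat.card V = 4 := by
    have h3 : IsMulCommutative V := ⟨⟨fun a b => Subtype.ext (central (hVZ b.2) a)⟩⟩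
    have h4 := h2 V h3 (fun a ha => ha)
    have h5 : A ≤ V := fun a ha => hA2 a ha
    have h6 := Subgroup.card_le_of_le h5
    obtain ⟨k, hk⟩ := IsPGroup.iff_card.mp (hT.to_subgroup V)
    rw [hk] at h4 h6 ⊢
    norm_num at h4
    have hk2 : k ≤ 2 := by
      by_contra hc
      push Not at hc
      have := Nat.pow_le_pow_right (n := 2) (by norm_num) hc
      omega
    interval_cases k <;> omega
  have hVφ : ∀ (f : MulAut T), ∀ v ∈ V, f v ∈ V := by
    intro f v hv
    rw [← hsq] at hv ⊢
    rw [← map_pow, hv, map_one]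
  have hinv : ∀ v ∈ V, v ≠ 1 → orderOf v = 2 := fun v hv hv1 => orderOf_eq_prime hv hv1
  -- outside three elements
  have hout : ∀ x₁ x₂ x₃ : T, ∃ c ∈ V, c ≠ x₁ ∧ c ≠ x₂ ∧ c ≠ x₃ := by
    intro x₁ x₂ x₃
    by_contra hcon
    push Not at hcon
    have : Fintype T := Fintype.ofFinite T
    have hsub : (Finset.univ.filter (· ∈ V)) ⊆ ({x₁, x₂, x₃} : Finset T) := by
      intro c hc
      rw [Finset.mem_filter] at hc
      simp only [Finset.mem_insert, Finset.mem_singleton]
      by_cases h1 : c = x₁
      · exact Or.inl h1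
      · by_cases h2 : c = x₂
        · exact Or.inr (Or.inl h2)
        · exact Or.inr (Or.inr (hcon c hc.2 h1 h2))
    have h3 := Finset.card_le_card hsub
    have h4 : (Finset.univ.filter (· ∈ V)).card = 4 := by
      rw [← hV4, Nat.card_eq_fintype_card, Fintype.card_subtype]
    have h5 : ({x₁, x₂, x₃} : Finset T).card ≤ 3 := Finset.card_le_three
    omega
  -- the action of `φ` on the involutions
  have hφ1 : ∀ a ∈ V, a ≠ 1 → φ a ≠ a := by
    intro a ha ha1 hfix
    obtain ⟨c, hc, hc1, hc2, -⟩ := hout 1 a a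
    obtain ⟨k, hk⟩ := htrans _ _ (hinv a ha ha1) (hinv c hc hc1)
    have h3 : ∀ k : ℕ, (φ ^ k) a = a := by
      intro k
      induction k with
      | zero => simp
      | succ k ih => rw [pow_succ', MulAut.mul_apply, ih, hfix]
    rw [h3] at hk
    exact hc2 hk.symm
  have hφ2 : ∀ a ∈ V, a ≠ 1 → φ (φ a) ≠ a := by
    intro a ha ha1 hfix
    obtain ⟨c, hc, hc1, hc2, hc3⟩ := hout 1 a (φ a)
    obtain ⟨k, hk⟩ := htrans _ _ (hinv a ha ha1) (hinv c hc hc1)
    have h3 : ∀ k : ℕ, (φ ^ k) a = a ∨ (φ ^ k) a = φ a := by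
      intro k
      induction k with
      | zero => left; simp
      | succ k ih =>
        rw [pow_succ', MulAut.mul_apply]
        rcases ih with h4 | h4
        · right; rw [h4]
        · left; rw [h4, hfix]
    rcases h3 k with h4 | h4
    · exact hc2 (hk ▸ h4)
    · exact hc3 (hk ▸ h4)
  have hφne : ∀ a ∈ V, a ≠ 1 → φ a ≠ 1 := fun a _ ha1 h3 => ha1 (by simpa using h3)
  have hφ3 : ∀ a ∈ V, a ≠ 1 → φ (φ (φ a)) = a := by
    intro a ha ha1
    by_contra hne
    have hb := hVφ φ a ha
    have hb1 := hφne a ha ha1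
    have hc := hVφ φ _ hb
    have hc1 := hφne _ hb hb1
    have hd := hVφ φ _ hc
    have hd1 := hφne _ hc hc1
    have e1 := hφ1 a ha ha1
    have e2 := hφ1 _ hb hb1
    have e3 := hφ1 _ hc hc1
    have e4 := hφ2 a ha ha1
    have e5 := hφ2 _ hb hb1
    let g : Fin 5 → V := ![1, ⟨a, ha⟩, ⟨φ a, hb⟩, ⟨φ (φ a), hc⟩, ⟨φ (φ (φ a)), hd⟩]
    have hg : Function.Injective g := by
      intro i j hij
      have hij' : ((g i : V) : T) = g j := congrArg Subtype.val hij
      fin_cases i <;> fin_cases j <;> first | rfl | exfalso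
      all_goals simp [g] at hij'
      all_goals first
        | exact ha1 hij'.symm
        | exact ha1 hij'
        | exact hb1 hij'.symm
        | exact hb1 hij'
        | exact hc1 hij'.symm
        | exact hc1 hij'
        | exact hd1 hij'.symm
        | exact hd1 hij'
        | exact e1 hij'.symm
        | exact e1 hij'
        | exact e2 hij'.symm
        | exact e2 hij'
        | exact e3 hij'.symm
        | exact e3 hij'
        | exact e4 hij'.symm
        | exact e4 hij'
        | exact e5 hij'.symm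
        | exact e5 hij'
        | exact hne hij'.symm
        | exact hne hij'
    have h3 := Nat.card_le_card_of_injective g hg
    rw [hV4] at h3
    simp at h3
  -- the `3`-part of `φ`
  have hfin : orderOf φ ≠ 0 := (orderOf_pos φ).ne'
  obtain ⟨s, m, hm, hord⟩ := Nat.exists_eq_pow_mul_and_not_dvd hfin 3 (by norm_num)
  have hm0 : 0 < m := Nat.pos_of_ne_zero (by rintro rfl; exact hm (dvd_zero 3))
  obtain ⟨β, hβdef⟩ : ∃ β, β = φ ^ m := ⟨_, rfl⟩
  have hβord : orderOf β = 3 ^ s := by
    have h3 := orderOf_pow_orderOf_div (x := φ) (n := 3 ^ s) hfin ⟨m, hord⟩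
    rw [hord, Nat.mul_div_cancel_left _ (by positivity : 0 < 3 ^ s)] at h3
    rw [hβdef]
    exact h3
  have hφmod : ∀ (k : ℕ), ∀ a ∈ V, (φ ^ k) a = (φ ^ (k % 3)) a := by
    intro k a ha
    by_cases ha1 : a = 1
    · rw [ha1]; simp
    have h3 : ∀ t : ℕ, (φ ^ (3 * t)) a = a := by
      intro t
      induction t with
      | zero => simp
      | succ t ih =>
        rw [show 3 * (t + 1) = 3 * t + 3 by ring, pow_add, MulAut.mul_apply]
        have h4 : (φ ^ 3) a = a := by
          have h5 := hφ3 a ha ha1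
          simpa [pow_succ, MulAut.mul_apply] using h5
        rw [h4, ih]
    conv_lhs => rw [← Nat.div_add_mod k 3, add_comm, pow_add, MulAut.mul_apply, h3]
  have hβ1 : ∀ a ∈ V, a ≠ 1 → β a ≠ a := by
    intro a ha ha1
    rw [hβdef, hφmod m a ha]
    have h3 : m % 3 = 1 ∨ m % 3 = 2 := by omega
    rcases h3 with h3 | h3
    · rw [h3, pow_one]
      exact hφ1 a ha ha1
    · rw [h3]
      simpa [pow_succ, MulAut.mul_apply] using hφ2 a ha ha1
  have hβ3 : ∀ a ∈ V, (β ^ 3) a = a := by
    intro a ha
    rw [hβdef, ← pow_mul, hφmod _ a ha]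
    simp [Nat.mul_mod_left]
  have hβtr : ∀ v ∈ V, ∀ v' ∈ V, v ≠ 1 → v' ≠ 1 → ∃ k : ℕ, (β ^ k) v = v' := by
    intro v hv v' hv' hv1 hv'1
    obtain ⟨k, hk⟩ := htrans _ _ (hinv v hv hv1) (hinv v' hv' hv'1)
    refine ⟨m * k, ?_⟩
    rw [hβdef, ← pow_mul, hφmod _ v hv, ← hk, hφmod k v hv]
    congr 2
    have h3 : m % 3 = 1 ∨ m % 3 = 2 := by omega
    have h4 : (m * (m * k)) % 3 = k % 3 := by
      have h5 : m * (m * k) = (m * m) * k := by ring
      rw [h5, Nat.mul_mod]
      have h6 : (m * m) % 3 = 1 := by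
        rw [Nat.mul_mod]
        rcases h3 with h3 | h3 <;> rw [h3]
      rw [h6, one_mul, Nat.mod_mod]
    exact h4
  -- the automorphism `β` has no fixed points
  have hβfp : ∀ y, β y = y → y = 1 := by
    intro y hy
    by_contra hy1
    obtain ⟨t, ht⟩ : ∃ t, orderOf y = 2 ^ (t + 1) := by
      obtain ⟨k, hk⟩ := hT y
      obtain ⟨t, -, ht⟩ := (Nat.dvd_prime_pow Nat.prime_two).mp (orderOf_dvd_of_pow_eq_one hk)
      have ht0 : t ≠ 0 := by
        rintro rfl
        rw [pow_zero, orderOf_eq_one_iff] at ht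
        exact hy1 ht
      exact ⟨t - 1, by rw [ht]; congr 1; omega⟩
    have hu : (y ^ 2 ^ t) ^ 2 = 1 := by
      rw [← pow_mul, ← pow_succ, ← ht]
      exact pow_orderOf_eq_one y
    have hu1 : y ^ 2 ^ t ≠ 1 := by
      intro h3
      have h4 := orderOf_dvd_of_pow_eq_one h3
      rw [ht, pow_succ] at h4
      have h5 : 0 < 2 ^ t := by positivity
      have h6 := Nat.le_of_dvd h5 h4
      omega
    exact hβ1 _ hu hu1 (by rw [map_pow, hy])
  -- `β` has order three
  have hs1 : s = 1 := by
    rcases Nat.lt_or_ge s 2 with hs | hs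
    · interval_cases s
      · exfalso
        rw [pow_zero, orderOf_eq_one_iff] at hβord
        obtain ⟨v, hv, hv1, -⟩ := hout 1 1 1
        exact hβ1 v hv hv1 (by rw [hβord]; rfl)
      · rfl
    · exfalso
      obtain ⟨s', rfl⟩ : ∃ s', s = s' + 2 := ⟨s - 2, by omega⟩
      obtain ⟨ρ, hρdef⟩ : ∃ ρ, ρ = β ^ (3 ^ (s' + 1)) := ⟨_, rfl⟩
      have hρord : orderOf ρ = 3 := by
        have h3 := orderOf_pow_orderOf_div (x := β) (n := 3) (by rw [hβord]; positivity)
          (by rw [hβord]; exact dvd_pow_self 3 (by omega))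
        rw [hβord, show 3 ^ (s' + 2) / 3 = 3 ^ (s' + 1) by
          rw [pow_succ 3 (s' + 1), Nat.mul_div_cancel _ (by norm_num)]] at h3
        rw [hρdef]
        exact h3
      have hρ3 : ρ ^ 3 = 1 := by rw [← hρord]; exact pow_orderOf_eq_one ρ
      have hρV : ∀ v ∈ V, ρ v = v := by
        intro v hv
        have h3 : ∀ t : ℕ, (β ^ (3 * t)) v = v := by
          intro t
          induction t with
          | zero => simp
          | succ t ih =>
            rw [show 3 * (t + 1) = 3 * t + 3 by ring, pow_add, MulAut.mul_apply, hβ3 v hv, ih]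
        rw [hρdef, pow_succ', h3]
      obtain ⟨D, hDinv, -, hDexp, hDc, hDf, -⟩ := Cfsg.Agent.Lib.CritAut.exists_D hT ⊤ le_top ⊤
        (fun _ _ _ _ => Subgroup.mem_top _) (fun _ _ _ _ => Subgroup.mem_top _)
      have hDinv' : ∀ α : MulAut T, ∀ x ∈ D, α x ∈ D := fun α x hx => hDinv α (Subgroup.mem_top _) x hx
      have hD4 : ∀ x : D, x ^ 4 = 1 := by
        intro x
        apply Subtype.ext
        rcases hDexp x x.2 with h3 | ⟨-, h3⟩
        · show (x : T) ^ 4 = 1
          rw [show 4 = 2 * 2 by norm_num, pow_mul, h3, one_pow]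
        · exact h3
      have hρD : ∀ x ∈ D, ρ x = x := by
        -- the restriction to `D`
        have hDnt : ∃ a ∈ D, a ≠ 1 := by
          by_contra hcon
          push Not at hcon
          have h3 := hDf ρ (Subgroup.mem_top _) (by rw [hρord]; norm_num)
            (fun d hd => by rw [hcon d hd, map_one])
          rw [h3, orderOf_one] at hρord
          norm_num at hρord
        obtain ⟨a, haD, ha1⟩ := hDnt
        -- an involution in `D`
        obtain ⟨u, huD, hu1, hu2⟩ : ∃ u ∈ D, u ≠ 1 ∧ u ^ 2 = 1 := by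
          rcases hDexp a haD with h3 | ⟨-, h3⟩
          · exact ⟨a, haD, ha1, h3⟩
          · by_cases h4 : a ^ 2 = 1
            · exact ⟨a, haD, ha1, h4⟩
            · refine ⟨a ^ 2, D.pow_mem haD 2, h4, ?_⟩
              rw [← pow_mul]
              exact h3
        have hVD : V ≤ D := by
          intro v hv
          by_cases hv1 : v = 1
          · rw [hv1]; exact D.one_mem
          · obtain ⟨k, hk⟩ := htrans _ _ (hinv u hu2 hu1) (hinv v hv hv1)
            rw [← hk]
            exact hDinv' _ _ huD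
        refine fun x hx => ?_
        have h3 := no_rho (D := D) (V.subgroupOf D)
          (by
            intro v hv
            rw [Subgroup.mem_center_iff]
            intro g
            apply Subtype.ext
            exact central (hVZ hv) g)
          (by rw [Nat.card_congr (Subgroup.subgroupOfEquivOfLe hVD).toEquiv, hV4])
          (by
            intro d
            rw [Subgroup.mem_subgroupOf, ← hsq]
            constructor
            · intro h4
              exact congrArg Subtype.val h4
            · intro h4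
              exact Subtype.ext h4)
          hD4 (resD D hDinv' β) (resD D hDinv' ρ)
          (by
            intro d
            apply Subtype.ext
            rw [resD_coe, resD_coe, resD_coe, resD_coe]
            rw [hρdef]
            show (β * β ^ (3 ^ (s' + 1))) (d : T) = (β ^ (3 ^ (s' + 1)) * β) (d : T)
            rw [← pow_succ', pow_succ])
          (by
            intro d
            apply Subtype.ext
            rw [resD_coe, resD_coe, resD_coe]
            have h4 := congrArg (fun f : MulAut T => f (d : T)) hρ3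
            simpa [pow_succ, MulAut.mul_apply] using h4)
          (by
            intro v hv
            apply Subtype.ext
            rw [resD_coe]
            exact hρV _ hv)
          (by
            intro v hv v' hv' hv1 hv'1
            obtain ⟨k, hk⟩ := hβtr v hv v' hv' (fun h4 => hv1 (Subtype.ext h4))
              (fun h4 => hv'1 (Subtype.ext h4))
            refine ⟨k, Subtype.ext ?_⟩
            rw [resD_pow]
            exact hk)
          ⟨x, hx⟩
        exact congrArg Subtype.val h3
      have h3 := hDf ρ (Subgroup.mem_top _) (by rw [hρord]; norm_num) hρD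
      rw [h3, orderOf_one] at hρord
      norm_num at hρord
  have hβ3' : ∀ x, β (β (β x)) = x := by
    intro x
    have h3 : β ^ 3 = 1 := by
      rw [← pow_one 3, ← hs1, ← hβord]
      exact pow_orderOf_eq_one β
    have h4 := congrArg (fun f : MulAut T => f x) h3
    simpa [pow_succ, MulAut.mul_apply] using h4
  have hFp : Fpf β := ⟨hβ3', hβfp⟩
  rcases main_omega hT hFp V hsq hVZ hV4 with ⟨n, hn, ⟨e⟩⟩ | ⟨hcard, hna⟩
  · left
    refine ⟨n, hn, ⟨e.trans ?_⟩⟩
    exact
      { toFun := fun p => Multiplicative.ofAdd (Multiplicative.toAdd p.1, Multiplicative.toAdd p.2)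
        invFun := fun p => (Multiplicative.ofAdd (Multiplicative.toAdd p).1,
          Multiplicative.ofAdd (Multiplicative.toAdd p).2)
        left_inv := fun p => rfl
        right_inv := fun p => rfl
        map_mul' := fun p q => rfl }
  · right
    obtain ⟨hcl, hc4⟩ := cl_of_fpf hFp hcard hna
    exact Cfsg.Agent.Lib.T64U.psu_sylow_iso hcl hFp hcard hc4 hcent hF P

end

/-- Let T be a finite 2-group of 2-rank exactly 2 (it has a Klein four-subgroup but no elementary abelian subgroup of order 8) admitting an automorphism φ such that any two involutions of T are carried to one another by a power of φ. Then T ≅ Z_{2^n} × Z_{2^n} for some n ≥ 1, or T is isomorphic to a Sylow 2-subgroup of PSU(3) over the field with 16 elements. -/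
theorem result {T : Type*} [Group T] [Finite T] (hT : IsPGroup 2 T) (h2 : Cfsg.PRankLE 2 2 T) (h1 : ¬ Cfsg.PRankLE 2 1 T) (φ : MulAut T) (htrans : ∀ s t : T, orderOf s = 2 → orderOf t = 2 → ∃ k : ℕ, (φ ^ k) s = t) {F : Type*} [Field F] [Fintype F] (hF : Fintype.card F = 16) (P : Sylow 2 (Cfsg.PSU 3 F 4)) : (∃ n : ℕ, 1 ≤ n ∧ Nonempty (T ≃* Multiplicative (ZMod (2 ^ n) × ZMod (2 ^ n)))) ∨ Nonempty (T ≃* (P : Subgroup (Cfsg.PSU 3 F 4))) :=
  main hT h2 h1 φ htrans hF P

end Cfsg.Agent.S1237
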