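import Mathlib
import Cfsg.Statements.S1312
import Cfsg.Agent.Lib.LocalCore
import Cfsg.Agent.Lib.PCore

set_option autoImplicit false
set_option linter.style.haveILetI false
open Cfsg
open Cfsg.Agent.Lib.LocalCore
open Cfsg.Agent.Lib.PCore

namespace Cfsg.Agent.S1312

section inner
variable {H : Type*} [Group H]

theorem commute_of_normalized_disjoint {A B : Subgroup H}
    (hAB : A ≤ Subgroup.normalizer (B : Set H)) (hBA : B ≤ Subgroup.normalizer (A : Set H))
    (hd : A ⊓ B = ⊥) {a b : H} (ha : a ∈ A) (hb : b ∈ B) : a * b = b * a := by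
  have h1 : a * b * a⁻¹ ∈ B := (Subgroup.mem_normalizer_iff.1 (hAB ha) b).1 hb
  have h2 : b * a⁻¹ * b⁻¹ ∈ A := (Subgroup.mem_normalizer_iff.1 (hBA hb) a⁻¹).1 (A.inv_mem ha)
  have h3 : a * b * a⁻¹ * b⁻¹ ∈ A ⊓ B := by
    refine ⟨?_, B.mul_mem h1 (B.inv_mem hb)⟩
    have : a * b * a⁻¹ * b⁻¹ = a * (b * a⁻¹ * b⁻¹) := by group
    rw [this]
    exact A.mul_mem ha h2
  rw [hd, Subgroup.mem_bot] at h3
  have h4 : a * b * a⁻¹ = b := by
    rwa [mul_inv_eq_one] at h3
  rwa [mul_inv_eq_iff_eq_mul] at h4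

theorem eq_one_of_pow_of_dvd {q n k : ℕ} (hq : q.Prime) (hn : ¬ q ∣ n) {z : H} (h1 : z ^ (q ^ k) = 1)
    (h2 : orderOf z ∣ n) : z = 1 := by
  have hc : Nat.Coprime (q ^ k) n := Nat.Coprime.pow_left _ ((Nat.Prime.coprime_iff_not_dvd hq).2 hn)
  exact orderOf_eq_one_iff.1 (Nat.eq_one_of_dvd_coprimes hc (orderOf_dvd_of_pow_eq_one h1) h2)

theorem inf_eq_bot_of_pGroup_of_not_dvd {q : ℕ} (hq : q.Prime) [Finite H] {A B : Subgroup H} (hA : IsPGroup q A)
    (hB : ¬ q ∣ Nat.card B) : A ⊓ B = ⊥ := by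
  rw [eq_bot_iff]
  rintro z ⟨hzA, hzB⟩
  obtain ⟨k, hk⟩ := hA ⟨z, hzA⟩
  have h1 : z ^ (q ^ k) = 1 := congrArg Subtype.val hk
  have h2 : orderOf z ∣ Nat.card B := by
    have := orderOf_dvd_natCard (⟨z, hzB⟩ : ↥B)
    rwa [Subgroup.orderOf_mk] at this
  rw [Subgroup.mem_bot]
  exact eq_one_of_pow_of_dvd hq hB h1 h2

variable [Finite H]

/-- decomposition of the Fitting subgroup -/
theorem fitting_decomp (q : ℕ) [Fact q.Prime] {x : H} (hx : x ∈ Cfsg.fittingSubgroup H) :
    ∃ y ∈ Cfsg.pCore q H, ∃ b ∈ Cfsg.pPrimeCore q H ⊓ Cfsg.fittingSubgroup H, x = y * b := by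
  have h1 := fittingSubgroup_le_sup q hx
  have h2 : x ∈ ((Cfsg.pCore q H ⊔ Cfsg.pPrimeCore q H : Subgroup H) : Set H) := h1
  rw [Subgroup.mul_normal, Set.mem_mul] at h2
  obtain ⟨y, hy, b, hb, rfl⟩ := h2
  refine ⟨y, hy, b, ⟨hb, ?_⟩, rfl⟩
  have h3 : y ∈ Cfsg.fittingSubgroup H := pCore_le_fittingSubgroup q hy
  have := (Cfsg.fittingSubgroup H).mul_mem ((Cfsg.fittingSubgroup H).inv_mem h3) hx
  simpa using this

/-- The centralizer of `F` lies in `F` if the layer is trivial. -/
theorem centralizer_fitting_le (hE : Cfsg.layer H = ⊥) :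
    Subgroup.centralizer (Cfsg.fittingSubgroup H : Set H) ≤ Cfsg.fittingSubgroup H := by
  have h1 : Cfsg.generalizedFittingSubgroup H = Cfsg.fittingSubgroup H := by
    unfold Cfsg.generalizedFittingSubgroup
    rw [hE, bot_sup_eq]
  have h2 := centralizer_generalizedFitting_le (G := H)
  rwa [h1] at h2

/-- The core of the argument. -/
theorem K1 {p q : ℕ} [hp : Fact p.Prime] [hq : Fact q.Prime] (hpq : p ≠ q) (X X' : Subgroup H)
    (hX : IsPGroup p X) (hX' : IsPGroup q X') (hE : Cfsg.layer H = ⊥)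
    (h1 : ∀ x' ∈ X', ∀ b ∈ Cfsg.pPrimeCore q H ⊓ Cfsg.fittingSubgroup H, x' * b = b * x')
    (h2 : ∀ x ∈ X, ∀ y ∈ Cfsg.pCore q H, x * y = y * x) :
    ∀ x ∈ X, ∀ t ∈ Subgroup.normalClosure (X' : Set H), x * t = t * x := by
  set Y := Cfsg.pCore q H with hY
  set B := Cfsg.pPrimeCore q H ⊓ Cfsg.fittingSubgroup H with hB
  set T := Subgroup.normalClosure (X' : Set H) with hT
  have hBn : B.Normal := Subgroup.normal_inf_normal _ _
  have hYq : IsPGroup q Y := isPGroup_pCore q
  have hBq : ¬ q ∣ Nat.card ↥B := by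
    intro hd
    have h4 : q ∣ Nat.card ↥(Cfsg.pPrimeCore q H) := hd.trans (Subgroup.card_dvd_of_le inf_le_left)
    exact not_dvd_card_pPrimeCore q h4
  have hYB : Y ⊓ B = ⊥ := inf_eq_bot_of_pGroup_of_not_dvd hq.out hYq hBq
  have hYBc : ∀ y ∈ Y, ∀ b ∈ B, y * b = b * y := by
    intro y hy b hb
    refine commute_of_normalized_disjoint ?_ ?_ hYB hy hb
    · rw [Subgroup.normalizer_eq_top_iff.2 hBn]; exact le_top
    · rw [Subgroup.normalizer_eq_top_iff.2 inferInstance]; exact le_top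
  -- `T` centralizes `B`
  have hTB : T ≤ Subgroup.centralizer (B : Set H) := by
    haveI : (Subgroup.centralizer (B : Set H)).Normal := Subgroup.normal_centralizer
    refine Subgroup.normalClosure_le_normal ?_
    intro x' hx'
    rw [SetLike.mem_coe, Subgroup.mem_centralizer_iff]
    intro b hb
    exact (h1 x' hx' b hb).symm
  have hBcent : ∀ t ∈ T, ∀ b ∈ B, t * b = b * t := fun t ht b hb =>
    (Subgroup.mem_centralizer_iff.1 (hTB ht) b hb).symm
  intro x hx
  -- it suffices to treat generators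
  have hgen : T ≤ Subgroup.centralizer ({x} : Set H) := by
    refine (Subgroup.closure_le _).2 ?_
    intro t htgen
    have htT : t ∈ T := Subgroup.conjugatesOfSet_subset_normalClosure htgen
    obtain ⟨x', hx', hconj⟩ := Group.mem_conjugatesOfSet_iff.1 htgen
    obtain ⟨g, ht⟩ := isConj_iff.1 hconj
    replace ht := ht.symm
    obtain ⟨j, hj⟩ := hX' ⟨x', hx'⟩
    have hj' : x' ^ (q ^ j) = 1 := congrArg Subtype.val hj
    have htj : t ^ (q ^ j) = 1 := by
      rw [ht, conj_pow, hj']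
      group
    obtain ⟨k, hk⟩ := hX ⟨x, hx⟩
    have hk' : x ^ (p ^ k) = 1 := congrArg Subtype.val hk
    set a : H := t⁻¹ * (x * t * x⁻¹) with ha
    have hxt : x * t * x⁻¹ = t * a := by
      rw [ha]; group
    have haT : a ∈ T := T.mul_mem (T.inv_mem htT) (Subgroup.Normal.conj_mem inferInstance t htT x)
    have haY : ∀ y ∈ Y, a * y = y * a := by
      intro y hy
      have hty : t * y * t⁻¹ ∈ Y := (inferInstance : Y.Normal).conj_mem y hy t
      have h5 := h2 x hx _ hty
      have h6 := h2 x hx y hy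
      rw [ha]
      calc t⁻¹ * (x * t * x⁻¹) * y = t⁻¹ * x * t * (x⁻¹ * y) := by group
        _ = t⁻¹ * x * t * (y * x⁻¹) := by
          rw [show x⁻¹ * y = y * x⁻¹ from (show Commute x y from h6).inv_left.eq]
        _ = t⁻¹ * (x * (t * y * t⁻¹)) * t * x⁻¹ := by group
        _ = t⁻¹ * ((t * y * t⁻¹) * x) * t * x⁻¹ := by rw [h5]
        _ = y * (t⁻¹ * (x * t * x⁻¹)) := by group
    have haB : ∀ b ∈ B, a * b = b * a := hBcent a haT
    have haF : a ∈ Cfsg.fittingSubgroup H := by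
      apply centralizer_fitting_le hE
      rw [Subgroup.mem_centralizer_iff]
      intro f hf
      obtain ⟨y, hy, b, hb, rfl⟩ := fitting_decomp q hf
      calc y * b * a = y * (b * a) := by group
        _ = y * (a * b) := by rw [haB b hb]
        _ = (y * a) * b := by group
        _ = (a * y) * b := by rw [haY y hy]
        _ = a * (y * b) := by group
    obtain ⟨u, hu, v, hv, huv⟩ := fitting_decomp q haF
    -- powers
    have hpow : ∀ n : ℕ, ∃ w ∈ B, x ^ n * t * (x ^ n)⁻¹ = t * u ^ n * w := by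
      intro n
      induction n with
      | zero => exact ⟨1, B.one_mem, by simp⟩
      | succ n ih =>
        obtain ⟨w, hw, hw'⟩ := ih
        have hu' : x * u ^ n * x⁻¹ = u ^ n := by
          have := (show Commute x u from h2 x hx u hu).pow_right n
          rw [this.eq]; group
        refine ⟨v * (x * w * x⁻¹), B.mul_mem hv (hBn.conj_mem w hw x), ?_⟩
        have hvu : v * u ^ n = u ^ n * v :=
          ((show Commute u v from hYBc u hu v hv).pow_left n).eq.symm
        calc x ^ (n + 1) * t * (x ^ (n + 1))⁻¹ = x * (x ^ n * t * (x ^ n)⁻¹) * x⁻¹ := by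
              rw [pow_succ']; group
          _ = x * (t * u ^ n * w) * x⁻¹ := by rw [hw']
          _ = (x * t * x⁻¹) * (x * u ^ n * x⁻¹) * (x * w * x⁻¹) := by group
          _ = (t * (u * v)) * u ^ n * (x * w * x⁻¹) := by rw [hxt, hu', huv]
          _ = t * u * (v * u ^ n) * (x * w * x⁻¹) := by group
          _ = t * u * (u ^ n * v) * (x * w * x⁻¹) := by rw [hvu]
          _ = t * u ^ (n + 1) * (v * (x * w * x⁻¹)) := by rw [pow_succ']; group
    obtain ⟨w, hw, hw'⟩ := hpow (p ^ k)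
    rw [hk'] at hw'
    have h7 : u ^ (p ^ k) * w = 1 := by
      have h8 : t * (u ^ (p ^ k) * w) = t * 1 := by
        rw [← mul_assoc, ← hw']; group
      exact mul_left_cancel h8
    have h9 : u ^ (p ^ k) ∈ Y ⊓ B := by
      refine ⟨Y.pow_mem hu _, ?_⟩
      rw [eq_inv_of_mul_eq_one_left h7]
      exact B.inv_mem hw
    rw [hYB, Subgroup.mem_bot] at h9
    obtain ⟨l, hl⟩ := hYq ⟨u, hu⟩
    have hl' : u ^ (q ^ l) = 1 := congrArg Subtype.val hl
    have hu1 : u = 1 := by
      have hc : Nat.Coprime (p ^ k) (q ^ l) :=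
        Nat.coprime_pow_primes _ _ hp.out hq.out hpq
      exact orderOf_eq_one_iff.1 (Nat.eq_one_of_dvd_coprimes hc
        (orderOf_dvd_of_pow_eq_one h9) (orderOf_dvd_of_pow_eq_one hl'))
    have hav : a = v := by rw [huv, hu1, one_mul]
    have hav' : a ∈ B := hav ▸ hv
    have hta : t * a = a * t := hBcent t htT a hav'
    have h10 : a ^ (q ^ j) = 1 := by
      have h11 : (x * t * x⁻¹) ^ (q ^ j) = 1 := by
        rw [conj_pow, htj]; group
      rw [hxt, (show Commute t a from hta).mul_pow, htj, one_mul] at h11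
      exact h11
    have ha1 : a = 1 := by
      refine eq_one_of_pow_of_dvd hq.out hBq h10 ?_
      have := orderOf_dvd_natCard (⟨a, hav'⟩ : ↥B)
      rwa [Subgroup.orderOf_mk] at this
    refine Subgroup.mem_centralizer_singleton_iff.2 ?_
    rw [ha1, mul_one, mul_inv_eq_iff_eq_mul] at hxt
    exact hxt.symm
  intro t ht
  exact Subgroup.mem_centralizer_singleton_iff.1 (hgen ht) |>.symm

/-- A normal closure contained in a subgroup normalizing the generators' group is a `q`-group. -/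
theorem normalClosure_le_pCore {q : ℕ} [hq : Fact q.Prime] (X' Mn : Subgroup H) (hX' : IsPGroup q X')
    (hle : Subgroup.normalClosure (X' : Set H) ≤ Mn) (hn : Mn ≤ Subgroup.normalizer (X' : Set H)) :
    Subgroup.normalClosure (X' : Set H) ≤ Cfsg.pCore q H := by
  set T := Subgroup.normalClosure (X' : Set H) with hT
  have hTn : T.Normal := inferInstance
  apply le_pCore hTn
  rw [← pCore_eq_top_iff, eq_top_iff]
  -- every conjugate of `X'` lies in the `q`-core of `T`
  have hgen : T ≤ (Cfsg.pCore q ↥T).map T.subtype := by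
    refine (Subgroup.closure_le _).2 ?_
    intro t htgen
    have htT : t ∈ T := Subgroup.conjugatesOfSet_subset_normalClosure htgen
    obtain ⟨x', hx', hconj⟩ := Group.mem_conjugatesOfSet_iff.1 htgen
    obtain ⟨g, ht⟩ := isConj_iff.1 hconj
    -- the conjugate of `X'` by `g`, inside `T`
    let A : Subgroup H := X'.map (MulAut.conj g).toMonoidHom
    have hAT : A ≤ T := by
      rintro _ ⟨y, hy, rfl⟩
      exact hTn.conj_mem y (Subgroup.le_normalClosure hy) g
    have hAq : IsPGroup q ↥A := hX'.map _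
    have hAn : (A.subgroupOf T).Normal := by
      refine ⟨fun z hz s => ?_⟩
      rw [Subgroup.mem_subgroupOf] at hz ⊢
      obtain ⟨y, hy, hyz⟩ := hz
      have hs' : g⁻¹ * (s : H) * g ∈ Mn := hle (by
        have := hTn.conj_mem (s : H) s.2 g⁻¹
        simpa using this)
      have h1 := (Subgroup.mem_normalizer_iff.1 (hn hs') y).1 hy
      refine ⟨_, h1, ?_⟩
      simp only [Subgroup.coe_mul, InvMemClass.coe_inv]
      rw [← hyz]
      simp [MulAut.conj_apply]
      group
    have h2 : A.subgroupOf T ≤ Cfsg.pCore q ↥T := le_pCore hAn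
      (hAq.comap_of_injective T.subtype T.subtype_injective)
    have h3 : (⟨t, htT⟩ : ↥T) ∈ A.subgroupOf T := by
      rw [Subgroup.mem_subgroupOf]
      exact ⟨x', hx', ht⟩
    exact ⟨⟨t, htT⟩, h2 h3, rfl⟩
  intro t _
  obtain ⟨z, hz, hzt⟩ := hgen t.2
  have : z = t := Subtype.ext hzt
  rwa [← this]

end inner

section global

variable {G : Type*} [Group G] [Finite G]

/-- `O_r(M)` inside `G`. -/
abbrev XX (r : ℕ) (M : Subgroup G) : Subgroup G := (Cfsg.pCore r ↥M).map M.subtype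

omit [Finite G] in
theorem le_normalizer_map_subtype {M : Subgroup G} (A : Subgroup ↥M) (hA : A.Normal) :
    M ≤ Subgroup.normalizer ((A.map M.subtype : Subgroup G) : Set G) := by
  intro g hg
  rw [Subgroup.mem_normalizer_iff]
  intro x
  constructor
  · rintro ⟨y, hy, rfl⟩
    exact ⟨⟨g, hg⟩ * y * (⟨g, hg⟩ : ↥M)⁻¹, hA.conj_mem y hy _, rfl⟩
  · rintro ⟨y, hy, hyx⟩
    refine ⟨(⟨g, hg⟩ : ↥M)⁻¹ * y * ⟨g, hg⟩, ?_, ?_⟩
    · have := hA.conj_mem y hy (⟨g, hg⟩ : ↥M)⁻¹
      simpa using this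
    · simp only [Subgroup.subtype_apply, Subgroup.coe_mul, InvMemClass.coe_inv] at hyx ⊢
      rw [hyx]
      group

omit [Finite G] in
theorem mem_normalizer_subgroupOf {A N : Subgroup G} {g : ↥N}
    (h : (g : G) ∈ Subgroup.normalizer (A : Set G)) :
    g ∈ Subgroup.normalizer ((A.subgroupOf N : Subgroup ↥N) : Set ↥N) := by
  rw [Subgroup.mem_normalizer_iff]
  intro y
  rw [Subgroup.mem_subgroupOf, Subgroup.mem_subgroupOf]
  exact Subgroup.mem_normalizer_iff.1 h y

omit [Finite G] in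
theorem normalizer_eq_of_coatom [IsSimpleGroup G] {M X : Subgroup G} (hM : IsCoatom M) (hX : X ≠ ⊥)
    (hXM : X ≤ M) (hn : M ≤ Subgroup.normalizer (X : Set G)) :
    Subgroup.normalizer (X : Set G) = M := by
  by_contra hne
  have h1 : M < Subgroup.normalizer (X : Set G) := lt_of_le_of_ne hn (Ne.symm hne)
  have h2 := hM.2 _ h1
  have h3 : X.Normal := Subgroup.normalizer_eq_top_iff.1 h2
  rcases h3.eq_bot_or_eq_top with h4 | h4
  · exact hX h4
  · apply hM.1
    rw [eq_top_iff, ← h4]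
    exact hXM

theorem isPGroup_XX (r : ℕ) [Fact r.Prime] (M : Subgroup G) : IsPGroup r ↥(XX r M) :=
  (isPGroup_pCore r).map M.subtype

theorem key {p q : ℕ} [hp : Fact p.Prime] [hq : Fact q.Prime] (hpq : p ≠ q) [IsSimpleGroup G]
    (M N : Subgroup G) (hM : IsCoatom M) (hEN : Cfsg.layer ↥N = ⊥)
    (h1 : (Cfsg.fittingSubgroup ↥M).map M.subtype ≤ N)
    (h2 : (Cfsg.fittingSubgroup ↥N).map N.subtype ≤ M)
    (hXp : XX p M ≠ ⊥) : XX q M ≤ XX q N := by
  have hXN : ∀ (r : ℕ) [Fact r.Prime], XX r M ≤ N := fun r _ =>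
    (Subgroup.map_mono (pCore_le_fittingSubgroup r)).trans h1
  have hMn : ∀ r : ℕ, M ≤ Subgroup.normalizer ((XX r M : Subgroup G) : Set G) := fun r =>
    le_normalizer_map_subtype _ inferInstance
  set X : Subgroup ↥N := (XX p M).subgroupOf N with hXdef
  set X' : Subgroup ↥N := (XX q M).subgroupOf N with hX'def
  have hX : IsPGroup p X := (isPGroup_XX p M).comap_of_injective N.subtype N.subtype_injective
  have hX' : IsPGroup q X' := (isPGroup_XX q M).comap_of_injective N.subtype N.subtype_injective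
  have hFM : ∀ f : ↥N, f ∈ Cfsg.fittingSubgroup ↥N → (f : G) ∈ M := fun f hf =>
    h2 ⟨f, hf, rfl⟩
  have h1' : ∀ x' ∈ X', ∀ b ∈ Cfsg.pPrimeCore q ↥N ⊓ Cfsg.fittingSubgroup ↥N, x' * b = b * x' := by
    intro x' hx' b hb
    have hBn : (Cfsg.pPrimeCore q ↥N ⊓ Cfsg.fittingSubgroup ↥N).Normal :=
      Subgroup.normal_inf_normal _ _
    refine commute_of_normalized_disjoint (A := X') (B := Cfsg.pPrimeCore q ↥N ⊓ Cfsg.fittingSubgroup ↥N)
      ?_ ?_ ?_ hx' hb
    · rw [Subgroup.normalizer_eq_top_iff.2 hBn]; exact le_top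
    · intro c hc
      exact mem_normalizer_subgroupOf (hMn q (hFM c hc.2))
    · refine inf_eq_bot_of_pGroup_of_not_dvd hq.out hX' ?_
      intro hd
      exact not_dvd_card_pPrimeCore q (hd.trans (Subgroup.card_dvd_of_le inf_le_left))
  have h2' : ∀ x ∈ X, ∀ y ∈ Cfsg.pCore q ↥N, x * y = y * x := by
    intro x hx y hy
    refine commute_of_normalized_disjoint (A := X) (B := Cfsg.pCore q ↥N) ?_ ?_ ?_ hx hy
    · rw [Subgroup.normalizer_eq_top_iff.2 inferInstance]; exact le_top
    · intro c hc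
      exact mem_normalizer_subgroupOf (hMn p (hFM c (pCore_le_fittingSubgroup q hc)))
    · exact disjoint_iff.1 (IsPGroup.disjoint_of_ne p q hpq _ _ hX (isPGroup_pCore q))
  have hK1 := K1 hpq X X' hX hX' hEN h1' h2' 
  set T := Subgroup.normalClosure (X' : Set ↥N) with hT
  have hTM : T ≤ M.subgroupOf N := by
    intro t ht
    rw [Subgroup.mem_subgroupOf]
    have h3 : (t : G) ∈ Subgroup.centralizer ((XX p M : Subgroup G) : Set G) := by
      rw [Subgroup.mem_centralizer_iff]
      intro x hx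
      have := hK1 ⟨x, hXN p hx⟩ (by rw [hXdef, Subgroup.mem_subgroupOf]; exact hx) t ht
      exact congrArg Subtype.val this
    have h4 := Subgroup.centralizer_le_normalizer _ h3
    rwa [normalizer_eq_of_coatom hM hXp (Subgroup.map_subtype_le _) (hMn p)] at h4
  have hT3 : T ≤ Cfsg.pCore q ↥N := by
    refine normalClosure_le_pCore X' (M.subgroupOf N) hX' hTM ?_
    intro m hm
    exact mem_normalizer_subgroupOf (hMn q hm)
  intro x hx
  have h5 : (⟨x, hXN q hx⟩ : ↥N) ∈ X' := by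
    rw [hX'def, Subgroup.mem_subgroupOf]; exact hx
  exact ⟨⟨x, hXN q hx⟩, hT3 (Subgroup.le_normalClosure h5), rfl⟩

/-- If `O_r(M) ≠ 1` then `O_r(N) ≠ 1`. -/
theorem XX_ne_bot {r : ℕ} [hr : Fact r.Prime] (M N : Subgroup G) (hEN : Cfsg.layer ↥N = ⊥)
    (h1 : (Cfsg.fittingSubgroup ↥M).map M.subtype ≤ N)
    (h2 : (Cfsg.fittingSubgroup ↥N).map N.subtype ≤ M)
    (hX : XX r M ≠ ⊥) : XX r N ≠ ⊥ := by
  intro hbot
  apply hX
  have hXN : XX r M ≤ N := (Subgroup.map_mono (pCore_le_fittingSubgroup r)).trans h1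
  have hMn : M ≤ Subgroup.normalizer ((XX r M : Subgroup G) : Set G) :=
    le_normalizer_map_subtype _ inferInstance
  have hcore : Cfsg.pCore r ↥N = ⊥ :=
    (Subgroup.map_eq_bot_iff_of_injective _ N.subtype_injective).1 hbot
  set X : Subgroup ↥N := (XX r M).subgroupOf N with hXdef
  have hXq : IsPGroup r X := (isPGroup_XX r M).comap_of_injective N.subtype N.subtype_injective
  have hBn : (Cfsg.pPrimeCore r ↥N ⊓ Cfsg.fittingSubgroup ↥N).Normal :=
    Subgroup.normal_inf_normal _ _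
  have hdisj : X ⊓ (Cfsg.pPrimeCore r ↥N ⊓ Cfsg.fittingSubgroup ↥N) = ⊥ := by
    refine inf_eq_bot_of_pGroup_of_not_dvd hr.out hXq ?_
    intro hd
    exact not_dvd_card_pPrimeCore r (hd.trans (Subgroup.card_dvd_of_le inf_le_left))
  have hXF : X ≤ Subgroup.centralizer (Cfsg.fittingSubgroup ↥N : Set ↥N) := by
    intro x hx
    rw [Subgroup.mem_centralizer_iff]
    intro f hf
    obtain ⟨y, hy, b, hb, rfl⟩ := fitting_decomp r hf
    rw [hcore, Subgroup.mem_bot] at hy
    subst hy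
    rw [one_mul]
    refine (commute_of_normalized_disjoint (A := X)
      (B := Cfsg.pPrimeCore r ↥N ⊓ Cfsg.fittingSubgroup ↥N) ?_ ?_ hdisj hx hb).symm
    · rw [Subgroup.normalizer_eq_top_iff.2 hBn]; exact le_top
    · intro c hc
      exact mem_normalizer_subgroupOf (hMn (h2 ⟨c, hc.2, rfl⟩))
  have hXF' : X ≤ Cfsg.fittingSubgroup ↥N := hXF.trans (centralizer_fitting_le hEN)
  have hXB : X ≤ Cfsg.pPrimeCore r ↥N ⊓ Cfsg.fittingSubgroup ↥N := by
    intro x hx
    obtain ⟨y, hy, b, hb, rfl⟩ := fitting_decomp r (hXF' hx)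
    rw [hcore, Subgroup.mem_bot] at hy
    subst hy
    rwa [one_mul]
  have hXbot : X = ⊥ := by
    rw [← le_bot_iff, ← hdisj]
    exact le_inf le_rfl hXB
  rw [eq_bot_iff]
  intro x hx
  have h5 : (⟨x, hXN hx⟩ : ↥N) ∈ X := by
    rw [hXdef, Subgroup.mem_subgroupOf]; exact hx
  rw [hXbot, Subgroup.mem_bot] at h5
  have := congrArg Subtype.val h5
  rw [Subgroup.mem_bot]
  exact this

/-- Components of `M` are components of `N`. -/
theorem comp_transfer (M N : Subgroup G)
    (h1 : (Cfsg.generalizedFittingSubgroup ↥M).map M.subtype ≤ N)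
    (h2 : (Cfsg.generalizedFittingSubgroup ↥N).map N.subtype ≤ M)
    (K : Subgroup G) (hKM : K ≤ M) (hK : Cfsg.IsComponent (K.subgroupOf M)) :
    K ≤ N ∧ Cfsg.IsComponent (K.subgroupOf N) := by
  have hKN : K ≤ N := by
    intro x hx
    have h3 : (⟨x, hKM hx⟩ : ↥M) ∈ K.subgroupOf M := by
      rw [Subgroup.mem_subgroupOf]; exact hx
    exact h1 ⟨_, comp_le_generalizedFitting hK h3, rfl⟩
  refine ⟨hKN, ?_⟩
  set F₂ : Subgroup G := (Cfsg.generalizedFittingSubgroup ↥N).map N.subtype with hF₂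
  have hF₂N : F₂ ≤ N := Subgroup.map_subtype_le _
  have hNn : N ≤ Subgroup.normalizer ((F₂ : Subgroup G) : Set G) :=
    le_normalizer_map_subtype _ inferInstance
  have hKF : K ≤ F₂ := by
    rcases comp_le_or_commute_of_normalized hK (N.subgroupOf M) (F₂.subgroupOf M)
      (fun z hz => by
        rw [Subgroup.mem_subgroupOf] at hz ⊢
        exact hKN hz)
      (fun z hz => by
        rw [Subgroup.mem_subgroupOf] at hz ⊢
        exact hF₂N hz)
      (fun z hz => mem_normalizer_subgroupOf (hNn (Subgroup.mem_subgroupOf.1 hz))) with h | h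
    · intro x hx
      have h3 : (⟨x, hKM hx⟩ : ↥M) ∈ K.subgroupOf M := by
        rw [Subgroup.mem_subgroupOf]; exact hx
      have h4 := h h3
      rw [Subgroup.mem_subgroupOf] at h4
      exact h4
    · intro x hx
      have h3 : (⟨x, hKN hx⟩ : ↥N) ∈ Subgroup.centralizer
          (Cfsg.generalizedFittingSubgroup ↥N : Set ↥N) := by
        rw [Subgroup.mem_centralizer_iff]
        intro f hf
        have hfM : (f : G) ∈ M := h2 ⟨f, hf, rfl⟩
        have h5 : (⟨x, hKM hx⟩ : ↥M) ∈ K.subgroupOf M := by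
          rw [Subgroup.mem_subgroupOf]; exact hx
        have h6 : (⟨f, hfM⟩ : ↥M) ∈ F₂.subgroupOf M := by
          rw [Subgroup.mem_subgroupOf]; exact ⟨f, hf, rfl⟩
        have h7 := (commutator_eq_bot_iff_elementwise.1 h) _ h5 _ h6
        have h8 := congrArg Subtype.val h7
        apply Subtype.ext
        exact h8.symm
      exact ⟨_, centralizer_generalizedFitting_le h3, rfl⟩
  refine ⟨?_, ?_⟩
  · -- subnormal
    let f : ↥(Cfsg.generalizedFittingSubgroup ↥N) →* ↥M :=
      { toFun := fun z => ⟨z.1.1, h2 ⟨z.1, z.2, rfl⟩⟩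
        map_one' := rfl
        map_mul' := fun _ _ => rfl }
    have hle : K.subgroupOf N ≤ Cfsg.generalizedFittingSubgroup ↥N := by
      intro z hz
      rw [Subgroup.mem_subgroupOf] at hz
      obtain ⟨y, hy, hyz⟩ := hKF hz
      have : y = z := Subtype.ext hyz
      rwa [← this]
    refine Subgroup.IsSubnormal.trans hle ?_ (inferInstance : (Cfsg.generalizedFittingSubgroup ↥N).Normal).isSubnormal
    have h5 : (K.subgroupOf N).subgroupOf (Cfsg.generalizedFittingSubgroup ↥N) =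
        (K.subgroupOf M).comap f := by
      ext z
      rw [Subgroup.mem_subgroupOf, Subgroup.mem_subgroupOf, Subgroup.mem_comap, Subgroup.mem_subgroupOf]
      rfl
    rw [h5]
    exact hK.1.comap f
  · exact qs_of_mulEquiv ((Subgroup.subgroupOfEquivOfLe hKM).trans
      (Subgroup.subgroupOfEquivOfLe hKN).symm) hK.2

theorem layer_map_le (M N : Subgroup G)
    (h1 : (Cfsg.generalizedFittingSubgroup ↥M).map M.subtype ≤ N)
    (h2 : (Cfsg.generalizedFittingSubgroup ↥N).map N.subtype ≤ M) :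
    (Cfsg.layer ↥M).map M.subtype ≤ (Cfsg.layer ↥N).map N.subtype := by
  rw [Subgroup.map_le_iff_le_comap]
  refine sSup_le ?_
  intro C hC
  rw [← Subgroup.map_le_iff_le_comap]
  have hC' : Cfsg.IsComponent ((C.map M.subtype).subgroupOf M) := by
    have : (C.map M.subtype).subgroupOf M = C :=
      Subgroup.comap_map_eq_self_of_injective M.subtype_injective C
    rwa [this]
  obtain ⟨h3, h4⟩ := comp_transfer M N h1 h2 (C.map M.subtype) (Subgroup.map_subtype_le _) hC'
  intro x hx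
  exact ⟨⟨x, h3 hx⟩, comp_le_layer h4 (by rw [Subgroup.mem_subgroupOf]; exact hx), rfl⟩

end global

/-- Bender's maximal subgroup theorem. -/
theorem result {G : Type*} [Group G] [Finite G] [IsSimpleGroup G] (hna : ¬ IsMulCommutative G) (M N : Subgroup G) (hM : IsCoatom M) (hN : IsCoatom N) (hMN : M ≠ N) (h1 : (Cfsg.generalizedFittingSubgroup ↥M).map M.subtype ≤ N) (h2 : (Cfsg.generalizedFittingSubgroup ↥N).map N.subtype ≤ M) : ∃ p : ℕ, p.Prime ∧ IsPGroup p ↥(Cfsg.generalizedFittingSubgroup ↥M) ∧ IsPGroup p ↥(Cfsg.generalizedFittingSubgroup ↥N) := by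
  -- a subgroup of `M` normalized by `M` and `N` is trivial
  have hbot : ∀ X : Subgroup G, X ≤ M → M ≤ Subgroup.normalizer (X : Set G) →
      N ≤ Subgroup.normalizer (X : Set G) → X = ⊥ := by
    intro X hXM hnM hnN
    by_contra hne
    have h3 := normalizer_eq_of_coatom hM hne hXM hnM
    rw [h3] at hnN
    exact hMN ((hN.le_iff_eq hM.1).1 hnN)
  -- the layers vanish
  have hE : (Cfsg.layer ↥M).map M.subtype = (Cfsg.layer ↥N).map N.subtype :=
    le_antisymm (layer_map_le M N h1 h2) (layer_map_le N M h2 h1)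
  have hE0 : (Cfsg.layer ↥M).map M.subtype = ⊥ := by
    apply hbot _ (Subgroup.map_subtype_le _)
    · exact le_normalizer_map_subtype _ inferInstance
    · rw [hE]
      exact le_normalizer_map_subtype _ inferInstance
  have hEM : Cfsg.layer ↥M = ⊥ :=
    (Subgroup.map_eq_bot_iff_of_injective _ M.subtype_injective).1 hE0
  have hEN : Cfsg.layer ↥N = ⊥ :=
    (Subgroup.map_eq_bot_iff_of_injective _ N.subtype_injective).1 (hE ▸ hE0)
  have hFM : Cfsg.generalizedFittingSubgroup ↥M = Cfsg.fittingSubgroup ↥M := by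
    unfold Cfsg.generalizedFittingSubgroup
    rw [hEM, bot_sup_eq]
  have hFN : Cfsg.generalizedFittingSubgroup ↥N = Cfsg.fittingSubgroup ↥N := by
    unfold Cfsg.generalizedFittingSubgroup
    rw [hEN, bot_sup_eq]
  rw [hFM] at h1 ⊢
  rw [hFN] at h2 ⊢
  -- the Fitting subgroup of `M` is nontrivial
  have hFne : Cfsg.fittingSubgroup ↥M ≠ ⊥ := by
    intro hb
    have h3 := centralizer_fitting_le hEM
    rw [hb] at h3
    have h4 : M = ⊥ := by
      rw [eq_bot_iff]
      intro x hx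
      have h5 : (⟨x, hx⟩ : ↥M) ∈ Subgroup.centralizer ((⊥ : Subgroup ↥M) : Set ↥M) := by
        rw [Subgroup.mem_centralizer_iff]
        intro h hh
        have : h = 1 := hh
        simp [this]
      have h6 := h3 h5
      rw [Subgroup.mem_bot] at h6 ⊢
      exact congrArg Subtype.val h6
    apply hMN
    have h7 : M ≤ N := by rw [h4]; exact bot_le
    exact ((hM.le_iff_eq hN.1).1 h7).symm
  obtain ⟨p, hpc⟩ : ∃ p : Nat.Primes, Cfsg.pCore (p : ℕ) ↥M ≠ ⊥ := by
    by_contra hall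
    push Not at hall
    apply hFne
    rw [fittingSubgroup_eq_iSup_pCore]
    exact iSup_eq_bot.2 hall
  haveI hp : Fact (p : ℕ).Prime := ⟨p.2⟩
  have hXpM : XX (p : ℕ) M ≠ ⊥ := by
    intro h
    exact hpc ((Subgroup.map_eq_bot_iff_of_injective _ M.subtype_injective).1 h)
  have hXpN : XX (p : ℕ) N ≠ ⊥ := XX_ne_bot M N hEN h1 h2 hXpM
  -- other primes
  have hq : ∀ q : Nat.Primes, q ≠ p → XX (q : ℕ) M = ⊥ ∧ XX (q : ℕ) N = ⊥ := by
    intro q hqp
    haveI hq' : Fact (q : ℕ).Prime := ⟨q.2⟩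
    have hpq : (p : ℕ) ≠ (q : ℕ) := fun h => hqp (Subtype.ext h.symm)
    have hle1 := key hpq M N hM hEN h1 h2 hXpM
    have hle2 := key hpq N M hN hEM h2 h1 hXpN
    have heq : XX (q : ℕ) M = XX (q : ℕ) N := le_antisymm hle1 hle2
    have hb : XX (q : ℕ) M = ⊥ := by
      apply hbot _ (Subgroup.map_subtype_le _)
      · exact le_normalizer_map_subtype _ inferInstance
      · have h := le_normalizer_map_subtype (M := N) (Cfsg.pCore (q : ℕ) ↥N) inferInstance
        change N ≤ Subgroup.normalizer ((XX (q : ℕ) N : Subgroup G) : Set G) at h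
        rw [← heq] at h
        exact h
    exact ⟨hb, heq ▸ hb⟩
  refine ⟨p, p.2, ?_, ?_⟩
  · refine IsPGroup.to_le (isPGroup_pCore (p : ℕ)) ?_
    rw [fittingSubgroup_eq_iSup_pCore]
    refine iSup_le fun q => ?_
    by_cases hqp : q = p
    · rw [hqp]
    · have := (hq q hqp).1
      haveI hq' : Fact (q : ℕ).Prime := ⟨q.2⟩
      rw [(Subgroup.map_eq_bot_iff_of_injective _ M.subtype_injective).1 this]
      exact bot_le
  · refine IsPGroup.to_le (isPGroup_pCore (p : ℕ)) ?_
    rw [fittingSubgroup_eq_iSup_pCore]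
    refine iSup_le fun q => ?_
    by_cases hqp : q = p
    · rw [hqp]
    · have := (hq q hqp).2
      haveI hq' : Fact (q : ℕ).Prime := ⟨q.2⟩
      rw [(Subgroup.map_eq_bot_iff_of_injective _ N.subtype_injective).1 this]
      exact bot_le

end Cfsg.Agent.S1312
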