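import Mathlib
import Cfsg.Statements.S1313
import Cfsg.Agent.Lib.LocalCore

set_option autoImplicit false
open Cfsg
open Cfsg.Agent.Lib.LocalCore
open Cfsg.Agent.Lib.PCore

namespace Cfsg.Agent.S1313

/-- The automorphism group of a finite group of order `n` has at most `(n-1)!` elements. -/
theorem card_mulAut_le (K : Type*) [Group K] [Finite K] :
    Nat.card (MulAut K) ≤ Nat.factorial (Nat.card K - 1) := by
  classical
  have := Fintype.ofFinite K
  let φ : MulAut K → Equiv.Perm {x : K // x ≠ 1} := fun e =>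
    e.toEquiv.subtypeEquiv (by
      intro x
      simp)
  have hφ : Function.Injective φ := by
    intro e₁ e₂ h
    ext x
    by_cases hx : x = 1
    · simp [hx]
    · have := congrArg (fun p : Equiv.Perm {x : K // x ≠ 1} => ((p ⟨x, hx⟩ : {x : K // x ≠ 1}) : K)) h
      exact this
  have h1 : Nat.card (MulAut K) ≤ Nat.card (Equiv.Perm {x : K // x ≠ 1}) :=
    Nat.card_le_card_of_injective φ hφ
  have h2 : Nat.card (Equiv.Perm {x : K // x ≠ 1}) = Nat.factorial (Nat.card K - 1) := by
    have h3 : Fintype.card {x : K // x ≠ 1} = Fintype.card K - 1 := by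
      rw [Fintype.card_subtype_compl, Fintype.card_subtype_eq]
    rw [Nat.card_eq_fintype_card, Fintype.card_perm, h3, Nat.card_eq_fintype_card]
  rw [h2] at h1
  exact h1

/-- For a finite group H, |H| ≤ |F*(H)|!. -/
theorem result {H : Type*} [Group H] [Finite H] : Nat.card H ≤ Nat.factorial (Nat.card ↥(Cfsg.generalizedFittingSubgroup H)) := by
  set S := Cfsg.generalizedFittingSubgroup H with hS
  let f : H →* MulAut ↥S := MulAut.conjNormal
  have hker : f.ker ≤ S := by
    refine le_trans ?_ (centralizer_generalizedFitting_le (G := H))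
    intro g hg
    rw [Subgroup.mem_centralizer_iff]
    intro y hy
    have h1 : f g = 1 := hg
    have h2 := congrArg (fun e : MulAut ↥S => ((e ⟨y, hy⟩ : ↥S) : H)) h1
    have h3 : g * y * g⁻¹ = y := h2
    rw [mul_inv_eq_iff_eq_mul] at h3
    exact h3.symm
  have hcard : Nat.card H = Nat.card f.ker * Nat.card f.range := by
    rw [f.ker.card_eq_card_quotient_mul_card_subgroup, mul_comm,
      Nat.card_congr (QuotientGroup.quotientKerEquivRange f).toEquiv]
  have h1 : Nat.card f.ker ≤ Nat.card ↥S :=
    Nat.le_of_dvd Nat.card_pos (Subgroup.card_dvd_of_le hker)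
  have h2 : Nat.card f.range ≤ Nat.factorial (Nat.card ↥S - 1) := by
    refine le_trans ?_ (card_mulAut_le ↥S)
    exact Nat.le_of_dvd Nat.card_pos (Subgroup.card_subgroup_dvd_card _)
  have h3 : Nat.card ↥S * Nat.factorial (Nat.card ↥S - 1) = Nat.factorial (Nat.card ↥S) :=
    Nat.mul_factorial_pred (Nat.card_pos).ne'
  rw [hcard, ← h3]
  exact Nat.mul_le_mul h1 h2

end Cfsg.Agent.S1313
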