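import Mathlib
import Cfsg.Statements.S1349
import Cfsg.Agent.Lib.PCore
import Cfsg.Agent.Lib.DihedralIso

set_option autoImplicit false
open Cfsg

namespace Cfsg.Agent.S1349

open Cfsg.Agent.Lib.PCore

variable {G : Type*} [Group G]

/-- Simultaneous diagonalisation modulo `U`. -/
theorem exists_wt_mod {A Z U : Subgroup G} (hAc : ∀ a ∈ A, ∀ b ∈ A, a * b = b * a)
    (hA2 : ∀ a ∈ A, a * a = 1) (hZ : ∀ a ∈ A, ∀ z ∈ Z, a * z * a⁻¹ ∈ Z)
    (hU : ∀ a ∈ A, ∀ u ∈ U, a * u * a⁻¹ ∈ U)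
    (hn : ∀ z ∈ Z, ∀ u ∈ U, z * u * z⁻¹ ∈ U)
    (hc : ∀ z ∈ Z, ∀ w ∈ Z, z * w * z⁻¹ * w⁻¹ ∈ U) (S : Finset G) (hS : ∀ a ∈ S, a ∈ A)
    {z : G} (hz : z ∈ Z) (hzU : z ∉ U) :
    ∃ z' ∈ Z, z' ∉ U ∧ ∀ a ∈ S, a * z' * a⁻¹ * z'⁻¹ ∈ U ∨ a * z' * a⁻¹ * z' ∈ U := by
  classical
  induction S using Finset.induction_on with
  | empty => exact ⟨z, hz, hzU, by simp⟩
  | insert b S _ ih =>
    obtain ⟨z₁, hz₁, hz₁U, hw⟩ := ih (fun a ha => hS a (Finset.mem_insert_of_mem ha))
    have hb : b ∈ A := hS b (Finset.mem_insert_self b S)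
    have hbi : b⁻¹ = b := inv_eq_of_mul_eq_one_left (hA2 b hb)
    set w : G := b * z₁ * b⁻¹ with hwdef
    have hwZ : w ∈ Z := hZ b hb z₁ hz₁
    by_cases hcase : z₁ * w ∈ U
    · refine ⟨z₁, hz₁, hz₁U, ?_⟩
      intro a ha
      rcases Finset.mem_insert.1 ha with rfl | ha'
      · right
        have h1 := hn z₁⁻¹ (Z.inv_mem hz₁) _ hcase
        have e : a * z₁ * a⁻¹ * z₁ = z₁⁻¹ * (z₁ * w) * z₁⁻¹⁻¹ := by
          rw [hwdef]; group
        rw [e]
        exact h1
      · exact hw a ha'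
    · refine ⟨z₁ * w, Z.mul_mem hz₁ hwZ, hcase, ?_⟩
      intro a ha
      have hbw : b * w * b⁻¹ = z₁ := by
        rw [hwdef]
        calc b * (b * z₁ * b⁻¹) * b⁻¹ = (b * b) * z₁ * (b * b)⁻¹ := by group
          _ = z₁ := by rw [hA2 b hb]; group
      rcases Finset.mem_insert.1 ha with rfl | ha'
      · left
        have e : a * (z₁ * w) * a⁻¹ * (z₁ * w)⁻¹ = w * z₁ * w⁻¹ * z₁⁻¹ := by
          have : a * (z₁ * w) * a⁻¹ = (a * z₁ * a⁻¹) * (a * w * a⁻¹) := by group
          rw [this, hbw, ← hwdef]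
          group
        rw [e]
        exact hc w hwZ z₁ hz₁
      · have hacA : a ∈ A := hS a (Finset.mem_insert_of_mem ha')
        have hacw : a * w * a⁻¹ = b * (a * z₁ * a⁻¹) * b⁻¹ := by
          rw [hwdef]
          have h1 : a * b = b * a := hAc a hacA b hb
          calc a * (b * z₁ * b⁻¹) * a⁻¹ = (a * b) * z₁ * (a * b)⁻¹ := by group
            _ = (b * a) * z₁ * (b * a)⁻¹ := by rw [h1]
            _ = _ := by group
        rcases hw a ha' with h | h
        · left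
          set u := a * z₁ * a⁻¹ * z₁⁻¹ with hu
          have h1 : a * z₁ * a⁻¹ = u * z₁ := by rw [hu]; group
          have h2 : a * w * a⁻¹ = (b * u * b⁻¹) * w := by
            rw [hacw, h1, hwdef]; group
          have e : a * (z₁ * w) * a⁻¹ * (z₁ * w)⁻¹ = u * (z₁ * (b * u * b⁻¹) * z₁⁻¹) := by
            have : a * (z₁ * w) * a⁻¹ = (a * z₁ * a⁻¹) * (a * w * a⁻¹) := by group
            rw [this, h1, h2]
            group
          rw [e]
          exact U.mul_mem h (hn z₁ hz₁ _ (hU b hb u h))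
        · right
          set u := a * z₁ * a⁻¹ * z₁ with hu
          have h1 : a * z₁ * a⁻¹ = u * z₁⁻¹ := by rw [hu]; group
          have h2 : a * w * a⁻¹ = (b * u * b⁻¹) * w⁻¹ := by
            rw [hacw, h1, hwdef]; group
          have e : a * (z₁ * w) * a⁻¹ * (z₁ * w) =
              u * (z₁⁻¹ * (b * u * b⁻¹) * z₁⁻¹⁻¹) * (z₁⁻¹ * w⁻¹ * z₁⁻¹⁻¹ * w⁻¹⁻¹) := by
            have : a * (z₁ * w) * a⁻¹ = (a * z₁ * a⁻¹) * (a * w * a⁻¹) := by group
            rw [this, h1, h2]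
            group
          rw [e]
          exact U.mul_mem (U.mul_mem h (hn _ (Z.inv_mem hz₁) _ (hU b hb u h)))
            (hc _ (Z.inv_mem hz₁) _ (Z.inv_mem hwZ))

/-- An involution acting trivially on `N ⊴ H` with `C_H(N) ≤ N` acts trivially on `H` (`H` odd). -/
theorem centralizes_of_stable [Finite G] {H N : Subgroup G} {a : G} (hNH : ∀ h ∈ H, ∀ n ∈ N, h * n * h⁻¹ ∈ N)
    (ha2 : a * a = 1) (haH : ∀ h ∈ H, a * h * a⁻¹ ∈ H) (haN : ∀ n ∈ N, a * n * a⁻¹ = n)
    (hC : ∀ h ∈ H, (∀ n ∈ N, h * n = n * h) → h ∈ N) (hodd : Odd (Nat.card H)) :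
    ∀ h ∈ H, a * h * a⁻¹ = h := by
  intro h hh
  set m := a * h * a⁻¹ * h⁻¹ with hm
  have hmH : m ∈ H := H.mul_mem (haH h hh) (H.inv_mem hh)
  have hai : a⁻¹ = a := inv_eq_of_mul_eq_one_left ha2
  have hmN : m ∈ N := by
    apply hC m hmH
    intro n hn
    have h1 : h⁻¹ * n * h ∈ N := by
      have := hNH h⁻¹ (H.inv_mem hh) n hn
      simpa using this
    have h2 := haN _ h1
    have h3 := haN n hn
    have e1 : a * (h⁻¹ * n * h) = (h⁻¹ * n * h) * a := by
      calc a * (h⁻¹ * n * h) = (a * (h⁻¹ * n * h) * a⁻¹) * a := by group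
        _ = _ := by rw [h2]
    have e2 : a * n = n * a := by
      calc a * n = (a * n * a⁻¹) * a := by group
        _ = _ := by rw [h3]
    calc m * n = a * h * a⁻¹ * h⁻¹ * n := rfl
      _ = a * h * a * (h⁻¹ * n * h) * h⁻¹ := by rw [hai]; group
      _ = a * h * (a * (h⁻¹ * n * h)) * h⁻¹ := by group
      _ = a * h * ((h⁻¹ * n * h) * a) * h⁻¹ := by rw [e1]
      _ = a * n * h * a * h⁻¹ := by group
      _ = n * a * h * a * h⁻¹ := by rw [e2]
      _ = n * m := by rw [hm, hai]; group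
  have h1 : a * h * a⁻¹ = m * h := by rw [hm]; group
  have h2 : a * m * a⁻¹ = m := haN m hmN
  have h3 : m * m * h = h := by
    have h4 : a * (a * h * a⁻¹) * a⁻¹ = h := by
      calc a * (a * h * a⁻¹) * a⁻¹ = (a * a) * h * (a * a)⁻¹ := by group
        _ = h := by rw [ha2]; group
    rw [h1] at h4
    have h5 : a * (m * h) * a⁻¹ = (a * m * a⁻¹) * (a * h * a⁻¹) := by group
    rw [h5, h2, h1, ← mul_assoc] at h4
    exact h4
  have h4 : m * m = 1 := by simpa using h3
  have h5 : m = 1 := by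
    have h6 : orderOf m ∣ 2 := orderOf_dvd_of_pow_eq_one (by rw [pow_two]; exact h4)
    have h7 : orderOf m ∣ Nat.card H := by
      have := orderOf_dvd_natCard (⟨m, hmH⟩ : ↥H)
      rwa [Subgroup.orderOf_mk] at this
    have h8 : Nat.Coprime 2 (Nat.card H) := Nat.coprime_two_left.2 hodd
    exact orderOf_eq_one_iff.1 (Nat.eq_one_of_dvd_coprimes h8 h6 h7)
  rw [h1, h5, one_mul]

section Maximal

variable [Finite G] {A F : Subgroup G}

/-- The class of subgroups used for the maximal choice. -/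
def Adm (A F B : Subgroup G) : Prop :=
  B ≤ F ∧ (∀ x ∈ B, ∀ y ∈ B, x * y = y * x) ∧ (∀ a ∈ A, ∀ u ∈ B, a * u * a⁻¹ ∈ B) ∧
    ∀ f ∈ F, ∀ u ∈ B, f * u * f⁻¹ ∈ B

/-- The subgroup `Z`. -/
def ZZ (F B : Subgroup G) (hBn : ∀ f ∈ F, ∀ u ∈ B, f * u * f⁻¹ ∈ B) : Subgroup G where
  carrier := {z | z ∈ F ∧ (∀ u ∈ B, z * u = u * z) ∧ ∀ f ∈ F, z * f * z⁻¹ * f⁻¹ ∈ B}
  one_mem' := ⟨F.one_mem, by simp, by simp [B.one_mem]⟩
  mul_mem' := by
    rintro z w ⟨hz, hz1, hz2⟩ ⟨hw, hw1, hw2⟩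
    refine ⟨F.mul_mem hz hw, ?_, ?_⟩
    · intro u hu
      rw [mul_assoc, hw1 u hu, ← mul_assoc, hz1 u hu, mul_assoc]
    · intro f hf
      have e : z * w * f * (z * w)⁻¹ * f⁻¹ =
          z * (w * f * w⁻¹ * f⁻¹) * z⁻¹ * (z * f * z⁻¹ * f⁻¹) := by group
      rw [e]
      exact B.mul_mem (hBn z hz _ (hw2 f hf)) (hz2 f hf)
  inv_mem' := by
    rintro z ⟨hz, hz1, hz2⟩
    refine ⟨F.inv_mem hz, ?_, ?_⟩
    · intro u hu
      have := hz1 u hu
      calc z⁻¹ * u = z⁻¹ * (u * z) * z⁻¹ := by group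
        _ = z⁻¹ * (z * u) * z⁻¹ := by rw [this]
        _ = u * z⁻¹ := by group
    · intro f hf
      have e : z⁻¹ * f * z⁻¹⁻¹ * f⁻¹ = z⁻¹ * (z * f * z⁻¹ * f⁻¹)⁻¹ * z⁻¹⁻¹ := by group
      rw [e]
      exact hBn _ (F.inv_mem hz) _ (B.inv_mem (hz2 f hf))

/-- Existence of an element of `Z` outside `B` if `C_F(B) ≰ B` and `F` is nilpotent. -/
theorem exists_mem_ZZ [Group.IsNilpotent ↥F] {B : Subgroup G} (hBn : ∀ f ∈ F, ∀ u ∈ B, f * u * f⁻¹ ∈ B)
    {c : G} (hcF : c ∈ F) (hcC : ∀ u ∈ B, c * u = u * c) (hcB : c ∉ B) :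
    ∃ z ∈ ZZ F B hBn, z ∉ B := by
  classical
  let Q : ℕ → Prop := fun k => ∀ z : G, z ∈ F.lowerCentralSeries k →
    (∀ u ∈ B, z * u = u * z) → z ∈ B
  have hex : ∃ k, Q k := by
    obtain ⟨n, hn⟩ := (Subgroup.isNilpotent_iff_lowerCentralSeries (S := F)).1 inferInstance
    refine ⟨n, ?_⟩
    intro z hz _
    rw [hn, Subgroup.mem_bot] at hz
    rw [hz]
    exact B.one_mem
  have h0 : Nat.find hex ≠ 0 := by
    intro h
    have h1 := Nat.find_spec hex
    rw [h] at h1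
    exact hcB (h1 c hcF hcC)
  obtain ⟨k, hk⟩ := Nat.exists_eq_succ_of_ne_zero h0
  have h1 : Q (k + 1) := by
    have := Nat.find_spec hex
    rwa [hk] at this
  have h2 : ¬ Q k := Nat.find_min hex (by omega)
  simp only [Q, not_forall] at h2
  obtain ⟨z, hzk, hzc, hzB⟩ := h2
  have hzF : z ∈ F := F.lowerCentralSeries_antitone (Nat.zero_le k) hzk
  refine ⟨z, ⟨hzF, hzc, ?_⟩, hzB⟩
  intro f hf
  have h3 : z * f * z⁻¹ * f⁻¹ ∈ F.lowerCentralSeries (k + 1) := by
    rw [Subgroup.lowerCentralSeries_succ]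
    exact Subgroup.commutator_mem_commutator hzk hf
  refine h1 _ h3 ?_
  intro u hu
  have hu1 : f⁻¹ * u * f ∈ B := by
    have := hBn f⁻¹ (F.inv_mem hf) u hu
    simpa using this
  have h4 := hzc _ hu1
  have h5 := hzc u hu
  have h6 : (z : G)⁻¹ * (f⁻¹ * u * f) = (f⁻¹ * u * f) * (z : G)⁻¹ := by
    calc (z : G)⁻¹ * (f⁻¹ * u * f) = (z : G)⁻¹ * ((f⁻¹ * u * f) * z) * (z : G)⁻¹ := by group
      _ = (z : G)⁻¹ * (z * (f⁻¹ * u * f)) * (z : G)⁻¹ := by rw [h4]
      _ = _ := by group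
  calc (z : G) * f * (z : G)⁻¹ * f⁻¹ * u = z * f * ((z : G)⁻¹ * (f⁻¹ * u * f)) * f⁻¹ := by group
    _ = z * f * ((f⁻¹ * u * f) * (z : G)⁻¹) * f⁻¹ := by rw [h6]
    _ = (z * u) * f * (z : G)⁻¹ * f⁻¹ := by group
    _ = (u * z) * f * (z : G)⁻¹ * f⁻¹ := by rw [h5]
    _ = _ := by group

/-- A maximal admissible subgroup contains its centralizer in `F`. -/
theorem centralizer_le_of_maximal [Group.IsNilpotent ↥F] (hAc : ∀ a ∈ A, ∀ b ∈ A, a * b = b * a)
    (hA2 : ∀ a ∈ A, a * a = 1) (hAF : ∀ a ∈ A, ∀ f ∈ F, a * f * a⁻¹ ∈ F)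
    {B : Subgroup G} (hB : Maximal (Adm A F) B) :
    ∀ c ∈ F, (∀ u ∈ B, c * u = u * c) → c ∈ B := by
  classical
  obtain ⟨⟨hBF, hBc, hBA, hBn⟩, hmax⟩ := hB
  intro c hcF hcC
  by_contra hcB
  obtain ⟨z, hz, hzB⟩ := exists_mem_ZZ hBn hcF hcC hcB
  -- `Z` is `A`-invariant
  have hZA : ∀ a ∈ A, ∀ z ∈ ZZ F B hBn, a * z * a⁻¹ ∈ ZZ F B hBn := by
    rintro a ha z ⟨hz, hz1, hz2⟩
    refine ⟨hAF a ha z hz, ?_, ?_⟩
    · intro u hu
      have hu1 : a⁻¹ * u * a ∈ B := by
        have := hBA a⁻¹ (A.inv_mem ha) u hu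
        simpa using this
      have := hz1 _ hu1
      calc a * z * a⁻¹ * u = a * (z * (a⁻¹ * u * a)) * a⁻¹ := by group
        _ = a * ((a⁻¹ * u * a) * z) * a⁻¹ := by rw [this]
        _ = _ := by group
    · intro f hf
      have hf1 : a⁻¹ * f * a ∈ F := by
        have := hAF a⁻¹ (A.inv_mem ha) f hf
        simpa using this
      have h1 := hBA a ha _ (hz2 _ hf1)
      have e : a * z * a⁻¹ * f * (a * z * a⁻¹)⁻¹ * f⁻¹ =
          a * (z * (a⁻¹ * f * a) * z⁻¹ * (a⁻¹ * f * a)⁻¹) * a⁻¹ := by group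
      rw [e]
      exact h1
  obtain ⟨x, hxZ, hxB, hx⟩ := exists_wt_mod (A := A) (Z := ZZ F B hBn) (U := B) hAc hA2 hZA hBA
    (fun z hz u hu => hBn z hz.1 u hu) (fun z hz w hw => hz.2.2 w hw.1)
    (Set.toFinite (A : Set G)).toFinset (fun a ha => by simpa using ha) hz hzB
  have hx' : ∀ a ∈ A, a * x * a⁻¹ * x⁻¹ ∈ B ∨ a * x * a⁻¹ * x ∈ B := fun a ha =>
    hx a (by simpa using ha)
  set D : Subgroup G := B ⊔ Subgroup.zpowers x with hD
  have hxD : x ∈ D := Subgroup.mem_sup_right (Subgroup.mem_zpowers x)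
  have hBD : B ≤ D := le_sup_left
  have hxC := hxZ.2.1
  have hDc : ∀ p ∈ D, ∀ q ∈ D, p * q = q * p := by
    have h1 : D ≤ Subgroup.centralizer (B : Set G) := by
      refine sup_le ?_ ?_
      · intro p hp
        rw [Subgroup.mem_centralizer_iff]
        intro q hq
        exact hBc q hq p hp
      · rw [Subgroup.zpowers_le, Subgroup.mem_centralizer_iff]
        intro q hq
        exact (hxC q hq).symm
    have h2 : D ≤ Subgroup.centralizer ((Subgroup.zpowers x : Subgroup G) : Set G) := by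
      refine sup_le ?_ ?_
      · intro p hp
        rw [Subgroup.mem_centralizer_iff]
        rintro _ ⟨k, rfl⟩
        have : Commute x p := hxC p hp
        exact (this.zpow_left k)
      · rw [Subgroup.zpowers_le, Subgroup.mem_centralizer_iff]
        rintro _ ⟨k, rfl⟩
        exact ((Commute.refl x).zpow_left k)
    have h3 : D ≤ Subgroup.centralizer (D : Set G) := by
      refine sup_le ?_ ?_
      · exact Subgroup.le_centralizer_iff.1 h1
      · exact Subgroup.le_centralizer_iff.1 h2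
    intro p hp q hq
    exact (Subgroup.mem_centralizer_iff.1 (h3 hq) p hp)
  have hDadm : Adm A F D := by
    refine ⟨sup_le hBF ?_, hDc, ?_, ?_⟩
    · rw [Subgroup.zpowers_le]; exact hxZ.1
    · intro a ha u hu
      have h : D ≤ D.comap (MulAut.conj a).toMonoidHom := by
        refine sup_le ?_ ?_
        · intro v hv
          exact hBD (hBA a ha v hv)
        · rw [Subgroup.zpowers_le]
          change a * x * a⁻¹ ∈ D
          rcases hx' a ha with h | h
          · have e : a * x * a⁻¹ = (a * x * a⁻¹ * x⁻¹) * x := by group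
            rw [e]
            exact D.mul_mem (hBD h) hxD
          · have e : a * x * a⁻¹ = (a * x * a⁻¹ * x) * x⁻¹ := by group
            rw [e]
            exact D.mul_mem (hBD h) (D.inv_mem hxD)
      exact h hu
    · intro f hf u hu
      have h : D ≤ D.comap (MulAut.conj f).toMonoidHom := by
        refine sup_le ?_ ?_
        · intro v hv
          exact hBD (hBn f hf v hv)
        · rw [Subgroup.zpowers_le]
          change f * x * f⁻¹ ∈ D
          have h1 := B.inv_mem (hxZ.2.2 f hf)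
          have e : f * x * f⁻¹ = (x * f * x⁻¹ * f⁻¹)⁻¹ * x := by group
          rw [e]
          exact D.mul_mem (hBD h1) hxD
      exact h hu
  have := hmax hDadm hBD
  exact hxB (this hxD)

end Maximal

section Family

variable [Finite G]

/-- `x` is a weight element for `A`. -/
def IsWt (A : Subgroup G) (x : G) : Prop := ∀ a ∈ A, a * x * a⁻¹ = x ∨ a * x * a⁻¹ = x⁻¹

theorem mul_self_ne_one {L : Subgroup G} (hodd : Odd (Nat.card L)) {x : G} (hx : x ∈ L) (hx1 : x ≠ 1) :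
    x ≠ x⁻¹ := by
  intro h
  apply hx1
  have h1 : x * x = 1 := by
    nth_rw 2 [h]
    simp
  have h6 : orderOf x ∣ 2 := orderOf_dvd_of_pow_eq_one (by rw [pow_two]; exact h1)
  have h7 : orderOf x ∣ Nat.card L := by
    have := orderOf_dvd_natCard (⟨x, hx⟩ : ↥L)
    rwa [Subgroup.orderOf_mk] at this
  have h8 : Nat.Coprime 2 (Nat.card L) := Nat.coprime_two_left.2 hodd
  exact orderOf_eq_one_iff.1 (Nat.eq_one_of_dvd_coprimes h8 h6 h7)

/-- A weight element on which a given nontrivial `a₀` acts by inversion. -/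
theorem exists_weight {A B : Subgroup G} (hAc : ∀ a ∈ A, ∀ b ∈ A, a * b = b * a)
    (hA2 : ∀ a ∈ A, a * a = 1) (hBc : ∀ x ∈ B, ∀ y ∈ B, x * y = y * x)
    (hBA : ∀ a ∈ A, ∀ u ∈ B, a * u * a⁻¹ ∈ B)
    (hfaith : ∀ a ∈ A, (∀ u ∈ B, a * u * a⁻¹ = u) → a = 1) {a₀ : G} (ha₀ : a₀ ∈ A) (ha₀1 : a₀ ≠ 1) :
    ∃ y ∈ B, y ≠ 1 ∧ IsWt A y ∧ a₀ * y * a₀⁻¹ = y⁻¹ := by
  classical
  have ha₀i : a₀⁻¹ = a₀ := inv_eq_of_mul_eq_one_left (hA2 a₀ ha₀)
  -- the `-1`-eigenspace
  let Z : Subgroup G :=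
    { carrier := {z | z ∈ B ∧ a₀ * z * a₀⁻¹ = z⁻¹}
      one_mem' := ⟨B.one_mem, by simp⟩
      mul_mem' := by
        rintro z w ⟨hz, hz1⟩ ⟨hw, hw1⟩
        refine ⟨B.mul_mem hz hw, ?_⟩
        have e : a₀ * (z * w) * a₀⁻¹ = (a₀ * z * a₀⁻¹) * (a₀ * w * a₀⁻¹) := by group
        rw [e, hz1, hw1, mul_inv_rev]
        have := hBc z⁻¹ (B.inv_mem hz) w⁻¹ (B.inv_mem hw)
        exact this
      inv_mem' := by
        rintro z ⟨hz, hz1⟩
        refine ⟨B.inv_mem hz, ?_⟩
        have e : a₀ * z⁻¹ * a₀⁻¹ = (a₀ * z * a₀⁻¹)⁻¹ := by group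
        rw [e, hz1] }
  have hZA : ∀ a ∈ A, ∀ z ∈ Z, a * z * a⁻¹ ∈ Z := by
    rintro a ha z ⟨hz, hz1⟩
    refine ⟨hBA a ha z hz, ?_⟩
    have h1 : a₀ * a = a * a₀ := hAc a₀ ha₀ a ha
    calc a₀ * (a * z * a⁻¹) * a₀⁻¹ = (a₀ * a) * z * (a₀ * a)⁻¹ := by group
      _ = (a * a₀) * z * (a * a₀)⁻¹ := by rw [h1]
      _ = a * (a₀ * z * a₀⁻¹) * a⁻¹ := by group
      _ = a * z⁻¹ * a⁻¹ := by rw [hz1]
      _ = (a * z * a⁻¹)⁻¹ := by group
  -- a nontrivial element of `Z`
  obtain ⟨b, hb, hbne⟩ : ∃ b ∈ B, a₀ * b * a₀⁻¹ ≠ b := by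
    by_contra hcon
    push Not at hcon
    exact ha₀1 (hfaith a₀ ha₀ hcon)
  have hy₀ : b⁻¹ * (a₀ * b * a₀⁻¹) ∈ Z := by
    refine ⟨B.mul_mem (B.inv_mem hb) (hBA a₀ ha₀ b hb), ?_⟩
    calc a₀ * (b⁻¹ * (a₀ * b * a₀⁻¹)) * a₀⁻¹ = (a₀ * b⁻¹ * a₀⁻¹) * ((a₀ * a₀) * b * (a₀ * a₀)⁻¹) := by group
      _ = (a₀ * b⁻¹ * a₀⁻¹) * b := by rw [hA2 a₀ ha₀]; group
      _ = _ := by group
  have hy₀1 : b⁻¹ * (a₀ * b * a₀⁻¹) ∉ (⊥ : Subgroup G) := by
    rw [Subgroup.mem_bot]
    intro h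
    apply hbne
    calc a₀ * b * a₀⁻¹ = b * (b⁻¹ * (a₀ * b * a₀⁻¹)) := by group
      _ = b := by rw [h, mul_one]
  obtain ⟨y, hy, hy1, hw⟩ := exists_wt_mod (A := A) (Z := Z) (U := ⊥) hAc hA2 hZA
    (fun a _ u hu => by
      rw [Subgroup.mem_bot] at hu ⊢
      simp [hu])
    (fun z _ u hu => by
      rw [Subgroup.mem_bot] at hu ⊢
      simp [hu])
    (fun z hz w hw => by
      rw [Subgroup.mem_bot]
      rw [hBc z hz.1 w hw.1]
      group)
    (Set.toFinite (A : Set G)).toFinset (fun a ha => by simpa using ha) hy₀ hy₀1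
  refine ⟨y, hy.1, by simpa using hy1, ?_, hy.2⟩
  intro a ha
  rcases hw a (by simpa using ha) with h | h
  · left
    rw [Subgroup.mem_bot, mul_inv_eq_one] at h
    exact h
  · right
    rw [Subgroup.mem_bot] at h
    exact mul_eq_one_iff_eq_inv.1 h

/-- The dual families of elements. -/
theorem exists_family {A B L : Subgroup G} (hAc : ∀ a ∈ A, ∀ b ∈ A, a * b = b * a)
    (hA2 : ∀ a ∈ A, a * a = 1) (hBc : ∀ x ∈ B, ∀ y ∈ B, x * y = y * x)
    (hBA : ∀ a ∈ A, ∀ u ∈ B, a * u * a⁻¹ ∈ B) (hBL : B ≤ L) (hodd : Odd (Nat.card L))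
    (hfaith : ∀ a ∈ A, (∀ u ∈ B, a * u * a⁻¹ = u) → a = 1) :
    ∀ (k : ℕ) (A₀ : Subgroup G), A₀ ≤ A → Nat.card A₀ = 2 ^ k →
      ∃ a x : Fin k → G, (∀ i, a i ∈ A₀ ∧ x i ∈ B ∧ x i ≠ 1 ∧ IsWt A (x i) ∧
          a i * x i * (a i)⁻¹ = (x i)⁻¹) ∧
        (∀ i j, i ≠ j → a i * x j * (a i)⁻¹ = x j) ∧ (⨆ i, Subgroup.zpowers (a i)) = A₀ := by
  classical
  intro k
  induction k with
  | zero =>
    intro A₀ _ hcard
    refine ⟨Fin.elim0, Fin.elim0, fun i => i.elim0, fun i => i.elim0, ?_⟩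
    rw [iSup_of_empty]
    have : A₀ = ⊥ := Subgroup.eq_bot_of_card_eq A₀ (by simpa using hcard)
    exact this.symm
  | succ k ih =>
    intro A₀ hA₀ hcard
    -- a nontrivial element
    obtain ⟨a₀, ha₀, ha₀1⟩ : ∃ a₀ ∈ A₀, a₀ ≠ 1 := by
      by_contra hcon
      push Not at hcon
      have : A₀ = ⊥ := (Subgroup.eq_bot_iff_forall _).2 hcon
      rw [this, Subgroup.card_bot] at hcard
      have h2 : 2 ∣ 2 ^ (k + 1) := dvd_pow_self 2 (by omega)
      rw [← hcard] at h2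
      omega
    obtain ⟨y, hyB, hy1, hyw, hya⟩ := exists_weight hAc hA2 hBc hBA hfaith (hA₀ ha₀) ha₀1
    have hyne : y ≠ y⁻¹ := mul_self_ne_one hodd (hBL hyB) hy1
    -- the kernel
    set A₁ : Subgroup G := A₀ ⊓ Subgroup.centralizer ({y} : Set G) with hA₁
    have hmem : ∀ z, z ∈ A₁ ↔ z ∈ A₀ ∧ z * y * z⁻¹ = y := by
      intro z
      rw [hA₁, Subgroup.mem_inf, Subgroup.mem_centralizer_singleton_iff, mul_inv_eq_iff_eq_mul]
    have hidx : (A₁.subgroupOf A₀).index = 2 := by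
      rw [Subgroup.index_eq_two_iff]
      refine ⟨⟨a₀, ha₀⟩, fun b => ?_⟩
      rw [Subgroup.mem_subgroupOf, Subgroup.mem_subgroupOf, hmem, hmem]
      have hb0 : (b : G) * a₀ ∈ A₀ := A₀.mul_mem b.2 ha₀
      simp only [Subgroup.coe_mul, b.2, true_and, hb0]
      have hb1 : ((b : G) * a₀) * y * ((b : G) * a₀)⁻¹ = (b : G) * y⁻¹ * (b : G)⁻¹ := by
        calc ((b : G) * a₀) * y * ((b : G) * a₀)⁻¹ = (b : G) * (a₀ * y * a₀⁻¹) * (b : G)⁻¹ := by group
          _ = _ := by rw [hya]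
      have hb2 : (b : G) * y⁻¹ * (b : G)⁻¹ = ((b : G) * y * (b : G)⁻¹)⁻¹ := by group
      rw [hb1, hb2]
      rcases hyw b (hA₀ b.2) with h | h
      · rw [h]
        exact Or.inr ⟨rfl, hyne.symm⟩
      · rw [h, inv_inv]
        exact Or.inl ⟨rfl, hyne.symm⟩
    have hcard₁ : Nat.card A₁ = 2 ^ k := by
      have h1 := Subgroup.card_mul_index (A₁.subgroupOf A₀)
      rw [hidx, hcard, show Nat.card ↥(A₁.subgroupOf A₀) = Nat.card A₁ from
        Nat.card_congr (Subgroup.subgroupOfEquivOfLe inf_le_left).toEquiv] at h1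
      rw [pow_succ] at h1
      omega
    obtain ⟨a', x', h1, h2, h3⟩ := ih A₁ (inf_le_left.trans hA₀) hcard₁
    -- correct the element `a₀`
    have hfix : ∀ s : Finset (Fin k), ∃ c ∈ A₀, c * y * c⁻¹ = y⁻¹ ∧ ∀ i ∈ s, c * x' i * c⁻¹ = x' i := by
      intro s
      induction s using Finset.induction_on with
      | empty => exact ⟨a₀, ha₀, hya, by simp⟩
      | insert i s hi ih' =>
        obtain ⟨c, hc, hcy, hcs⟩ := ih'
        rcases (h1 i).2.2.2.1 c (hA₀ hc) with hci | hci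
        · refine ⟨c, hc, hcy, ?_⟩
          intro j hj
          rcases Finset.mem_insert.1 hj with rfl | hj'
          · exact hci
          · exact hcs j hj'
        · have hai := (hmem _).1 (h1 i).1
          refine ⟨c * a' i, A₀.mul_mem hc hai.1, ?_, ?_⟩
          · calc c * a' i * y * (c * a' i)⁻¹ = c * (a' i * y * (a' i)⁻¹) * c⁻¹ := by group
              _ = _ := by rw [hai.2, hcy]
          · intro j hj
            rcases Finset.mem_insert.1 hj with rfl | hj'
            · calc c * a' j * x' j * (c * a' j)⁻¹ = c * (a' j * x' j * (a' j)⁻¹) * c⁻¹ := by group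
                _ = c * (x' j)⁻¹ * c⁻¹ := by rw [(h1 j).2.2.2.2]
                _ = (c * x' j * c⁻¹)⁻¹ := by group
                _ = x' j := by rw [hci, inv_inv]
            · have hij : i ≠ j := fun h => hi (h ▸ hj')
              calc c * a' i * x' j * (c * a' i)⁻¹ = c * (a' i * x' j * (a' i)⁻¹) * c⁻¹ := by group
                _ = c * x' j * c⁻¹ := by rw [h2 i j hij]
                _ = x' j := hcs j hj'
    obtain ⟨c, hc, hcy, hcx⟩ := hfix Finset.univ
    refine ⟨Fin.cons c a', Fin.cons y x', ?_, ?_, ?_⟩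
    · intro i
      refine Fin.cases ?_ (fun i => ?_) i
      · simp only [Fin.cons_zero]
        exact ⟨hc, hyB, hy1, hyw, hcy⟩
      · simp only [Fin.cons_succ]
        have := h1 i
        exact ⟨((hmem _).1 this.1).1, this.2⟩
    · intro i j
      refine Fin.cases ?_ (fun i => ?_) i
      · refine Fin.cases ?_ (fun j => ?_) j
        · intro h; exact absurd rfl h
        · intro _
          simp only [Fin.cons_zero, Fin.cons_succ]
          exact hcx j (Finset.mem_univ j)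
      · refine Fin.cases ?_ (fun j => ?_) j
        · intro _
          simp only [Fin.cons_zero, Fin.cons_succ]
          exact ((hmem _).1 (h1 i).1).2
        · intro h
          simp only [Fin.cons_succ]
          exact h2 i j (fun h' => h (by rw [h']))
    · apply le_antisymm
      · refine iSup_le fun i => ?_
        rw [Subgroup.zpowers_le]
        refine Fin.cases ?_ (fun i => ?_) i
        · simpa using hc
        · simpa using ((hmem _).1 (h1 i).1).1
      · set S : Subgroup G := ⨆ i, Subgroup.zpowers ((Fin.cons c a' : Fin (k + 1) → G) i) with hS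
        have hcS : c ∈ S := by
          have := le_iSup (fun i => Subgroup.zpowers ((Fin.cons c a' : Fin (k + 1) → G) i)) 0
          exact this (by simp)
        have hA₁S : A₁ ≤ S := by
          rw [← h3]
          refine iSup_le fun i => ?_
          have := le_iSup (fun i => Subgroup.zpowers ((Fin.cons c a' : Fin (k + 1) → G) i)) i.succ
          simpa using this
        intro z hz
        rcases hyw z (hA₀ hz) with h | h
        · exact hA₁S ((hmem z).2 ⟨hz, h⟩)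
        · have hcz : c * z ∈ A₁ := by
            refine (hmem _).2 ⟨A₀.mul_mem hc hz, ?_⟩
            calc c * z * y * (c * z)⁻¹ = c * (z * y * z⁻¹) * c⁻¹ := by group
              _ = c * y⁻¹ * c⁻¹ := by rw [h]
              _ = (c * y * c⁻¹)⁻¹ := by group
              _ = y := by rw [hcy, inv_inv]
          have e : z = c⁻¹ * (c * z) := by group
          rw [e]
          exact S.mul_mem (S.inv_mem hcS) (hA₁S hcz)

/-- Dihedral structure. -/
theorem dihedral_of_wt {a x : G} (ha2 : a * a = 1) (hinv : a * x * a⁻¹ = x⁻¹)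
    (hne : x ≠ x⁻¹) (hoddn : Odd (orderOf x)) :
    Nonempty (↥(Subgroup.zpowers a ⊔ Subgroup.zpowers x) ≃* DihedralGroup (orderOf x)) := by
  classical
  set H := Subgroup.zpowers a ⊔ Subgroup.zpowers x with hH
  have hai : a⁻¹ = a := inv_eq_of_mul_eq_one_left ha2
  have haH : a ∈ H := Subgroup.mem_sup_left (Subgroup.mem_zpowers a)
  have hxH : x ∈ H := Subgroup.mem_sup_right (Subgroup.mem_zpowers x)
  have hn0 : orderOf x ≠ 0 := by
    rintro h
    rw [h] at hoddn
    simp at hoddn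
  have : NeZero (orderOf x) := ⟨hn0⟩
  have hconjz : ∀ k : ℤ, x ^ k * a = a * x ^ (-k) := by
    intro k
    have h1 : a * x ^ k * a⁻¹ = (x ^ k)⁻¹ := by
      rw [← conj_zpow, hinv, inv_zpow]
    rw [zpow_neg, ← h1, hai]
    calc x ^ k * a = (a * a) * x ^ k * a := by rw [ha2, one_mul]
      _ = _ := by group
  -- the explicit form of the elements
  let T : Subgroup G :=
    { carrier := {g | ∃ k : ℤ, g = x ^ k ∨ g = a * x ^ k}
      one_mem' := ⟨0, Or.inl (by simp)⟩
      mul_mem' := by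
        rintro g h ⟨k, hg⟩ ⟨l, hl⟩
        rcases hg with rfl | rfl <;> rcases hl with rfl | rfl
        · exact ⟨k + l, Or.inl (zpow_add x k l).symm⟩
        · refine ⟨-k + l, Or.inr ?_⟩
          rw [← mul_assoc, hconjz, mul_assoc, zpow_add]
        · refine ⟨k + l, Or.inr ?_⟩
          rw [mul_assoc, zpow_add]
        · refine ⟨-k + l, Or.inl ?_⟩
          calc a * x ^ k * (a * x ^ l) = a * (x ^ k * a) * x ^ l := by group
            _ = a * (a * x ^ (-k)) * x ^ l := by rw [hconjz]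
            _ = (a * a) * (x ^ (-k) * x ^ l) := by group
            _ = _ := by rw [ha2, one_mul, zpow_add]
      inv_mem' := by
        rintro g ⟨k, hg⟩
        rcases hg with rfl | rfl
        · exact ⟨-k, Or.inl (zpow_neg x k).symm⟩
        · refine ⟨k, Or.inr ?_⟩
          rw [mul_inv_rev, hai, ← zpow_neg, hconjz, neg_neg] }
  have hHT : H ≤ T := by
    refine sup_le ?_ ?_
    · rw [Subgroup.zpowers_le]
      exact ⟨0, Or.inr (by simp)⟩
    · rw [Subgroup.zpowers_le]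
      exact ⟨1, Or.inl (by simp)⟩
  have hnatz : ∀ k : ℤ, ∃ m : ℕ, x ^ k = x ^ m := by
    intro k
    have h0 : (0 : ℤ) ≤ k % (orderOf x : ℤ) := Int.emod_nonneg _ (by exact_mod_cast hn0)
    refine ⟨(k % (orderOf x : ℤ)).toNat, ?_⟩
    rw [← zpow_natCast, Int.toNat_of_nonneg h0, zpow_mod_orderOf]
  refine Cfsg.Agent.Lib.DihedralIso.nonempty_dihedral_of_surj (⟨x, hxH⟩ : ↥H) (⟨a, haH⟩ : ↥H)
    (Subtype.ext (pow_orderOf_eq_one x)) (Subtype.ext ha2) ?_ ?_ ?_ ?_
  · apply Subtype.ext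
    change a * x * a = x⁻¹
    rw [← hinv, hai]
  · rw [Subgroup.orderOf_mk]
  · intro k hk
    have h1 : x ^ k = a := congrArg Subtype.val hk
    have h2 : a * x * a⁻¹ = x := by
      rw [← h1]
      have : Commute (x ^ k) x := (Commute.refl x).pow_left k
      rw [this.eq]
      group
    exact hne (by rw [← hinv, h2])
  · rintro ⟨g, hg⟩
    obtain ⟨k, hk⟩ := hHT hg
    obtain ⟨m, hm⟩ := hnatz k
    refine ⟨m, ?_⟩
    rcases hk with rfl | rfl
    · left
      apply Subtype.ext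
      simpa using hm
    · right
      apply Subtype.ext
      simpa using congrArg (a * ·) hm

end Family

/-- Let G be finite, L ≤ G solvable of odd order, and A an elementary abelian 2-subgroup of order 2^d (d ≥ 1) normalizing L with C_A(L) = 1. Then there are subgroups A_1, …, A_d of A of order 2 generating A and subgroups L_1, …, L_d of L such that each A_i ⊔ L_i is dihedral of order 2 n_i with n_i odd and at least 3, and A_i ⊔ L_i commutes elementwise with A_j ⊔ L_j for i ≠ j. -/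
theorem result {G : Type*} [Group G] [Finite G] (L A : Subgroup G) (hLs : Group.IsSolvable ↥L) (hLodd : Odd (Nat.card ↥L)) (hA : Cfsg.IsElementaryAbelian 2 A) (d : ℕ) (hd : 1 ≤ d) (hAd : Nat.card ↥A = 2 ^ d) (hAL : A ≤ Subgroup.normalizer (L : Set G)) (hfaith : A ⊓ Subgroup.centralizer (L : Set G) = ⊥) : ∃ (Ai : Fin d → Subgroup G) (Li : Fin d → Subgroup G) (n : Fin d → ℕ), (∀ i, Ai i ≤ A ∧ Nat.card ↥(Ai i) = 2 ∧ Li i ≤ L ∧ Odd (n i) ∧ 3 ≤ n i ∧ Nonempty (↥(Ai i ⊔ Li i) ≃* DihedralGroup (n i))) ∧ (⨆ i, Ai i) = A ∧ ∀ i j, i ≠ j → ∀ x ∈ Ai i ⊔ Li i, ∀ y ∈ Ai j ⊔ Li j, x * y = y * x := by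
  classical
  have hAc : ∀ a ∈ A, ∀ b ∈ A, a * b = b * a := by
    intro a ha b hb
    have := hA.1.is_comm.comm (⟨a, ha⟩ : ↥A) ⟨b, hb⟩
    exact congrArg Subtype.val this
  have hA2 : ∀ a ∈ A, a * a = 1 := by
    intro a ha
    have := hA.2 a ha
    rwa [pow_two] at this
  have hAL' : ∀ a ∈ A, ∀ l ∈ L, a * l * a⁻¹ ∈ L := fun a ha l hl =>
    (Subgroup.mem_normalizer_iff.1 (hAL ha) l).1 hl
  -- the Fitting subgroup
  set F : Subgroup G := (fittingSubgroup ↥L).map L.subtype with hF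
  have hFL : F ≤ L := Subgroup.map_subtype_le _
  have hFmem : ∀ (l : G) (hl : l ∈ L), l ∈ F ↔ (⟨l, hl⟩ : ↥L) ∈ fittingSubgroup ↥L := by
    intro l hl
    constructor
    · rintro ⟨z, hz, rfl⟩
      exact hz
    · intro h
      exact ⟨_, h, rfl⟩
  have hLF : ∀ l ∈ L, ∀ f ∈ F, l * f * l⁻¹ ∈ F := by
    rintro l hl _ ⟨z, hz, rfl⟩
    exact ⟨⟨l, hl⟩ * z * (⟨l, hl⟩ : ↥L)⁻¹, (inferInstance : (fittingSubgroup ↥L).Normal).conj_mem z hz _, rfl⟩
  have hAF : ∀ a ∈ A, ∀ f ∈ F, a * f * a⁻¹ ∈ F := by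
    rintro a ha _ ⟨z, hz, rfl⟩
    have hainv : a⁻¹ ∈ A := A.inv_mem ha
    let α : ↥L ≃* ↥L :=
      { toFun := fun l => ⟨a * l * a⁻¹, hAL' a ha l l.2⟩
        invFun := fun l => ⟨a⁻¹ * l * a, by
          have := hAL' a⁻¹ hainv l l.2
          simpa using this⟩
        left_inv := fun l => by
          apply Subtype.ext
          simp [mul_assoc]
        right_inv := fun l => by
          apply Subtype.ext
          simp [mul_assoc]
        map_mul' := fun x y => by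
          apply Subtype.ext
          simp only [Subgroup.coe_mul]
          group }
    have hchar := (instFittingCharacteristic (G := ↥L)).fixed α.symm
    have h1 : α z ∈ fittingSubgroup ↥L := by
      rw [← hchar]
      change α.symm (α z) ∈ fittingSubgroup ↥L
      simpa using hz
    exact ⟨α z, h1, rfl⟩
  have hCF : ∀ l ∈ L, (∀ f ∈ F, l * f = f * l) → l ∈ F := by
    intro l hl hc
    have h1 : (⟨l, hl⟩ : ↥L) ∈ Subgroup.centralizer (fittingSubgroup ↥L : Set ↥L) := by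
      rw [Subgroup.mem_centralizer_iff]
      intro f hf
      apply Subtype.ext
      exact (hc f ⟨f, hf, rfl⟩).symm
    exact ⟨_, centralizer_fittingSubgroup_le h1, rfl⟩
  have hnil : Group.IsNilpotent ↥F := by
    have h := isNilpotent_fittingSubgroup (G := ↥L)
    exact (Group.isNilpotent_congr
      (Subgroup.equivMapOfInjective (fittingSubgroup ↥L) L.subtype L.subtype_injective)).1 h
  -- the maximal admissible subgroup
  have hbot : Adm A F ⊥ := by
    refine ⟨bot_le, ?_, ?_, ?_⟩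
    · intro x hx y hy
      rw [Subgroup.mem_bot] at hx hy
      rw [hx, hy]
    · intro a _ u hu
      rw [Subgroup.mem_bot] at hu ⊢
      simp [hu]
    · intro a _ u hu
      rw [Subgroup.mem_bot] at hu ⊢
      simp [hu]
  obtain ⟨B, hB⟩ := (Set.toFinite {B : Subgroup G | Adm A F B}).exists_maximal ⟨⊥, hbot⟩
  have hB' : Maximal (Adm A F) B := hB
  have hCB := centralizer_le_of_maximal hAc hA2 hAF hB'
  obtain ⟨hBF, hBc, hBA, hBn⟩ := hB'.prop
  have hFodd : Odd (Nat.card F) := by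
    refine Odd.of_dvd_nat hLodd (Subgroup.card_dvd_of_le hFL)
  have hfaith' : ∀ a ∈ A, (∀ u ∈ B, a * u * a⁻¹ = u) → a = 1 := by
    intro a ha hau
    have h1 := centralizes_of_stable (H := F) (N := B) hBn (hA2 a ha) (hAF a ha) hau hCB hFodd
    have h2 := centralizes_of_stable (H := L) (N := F) hLF (hA2 a ha) (hAL' a ha) h1 hCF hLodd
    have h3 : a ∈ A ⊓ Subgroup.centralizer (L : Set G) := by
      refine ⟨ha, ?_⟩
      change a ∈ Subgroup.centralizer (L : Set G)
      rw [Subgroup.mem_centralizer_iff]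
      intro l hl
      have := h2 l hl
      rw [mul_inv_eq_iff_eq_mul] at this
      exact this.symm
    rw [hfaith, Subgroup.mem_bot] at h3
    exact h3
  have hBL : B ≤ L := hBF.trans hFL
  obtain ⟨a, x, h1, h2, h3⟩ := exists_family hAc hA2 hBc hBA hBL hLodd hfaith' d A le_rfl hAd
  have hxne : ∀ i, x i ≠ (x i)⁻¹ := fun i => mul_self_ne_one hLodd (hBL (h1 i).2.1) (h1 i).2.2.1
  have ha1 : ∀ i, a i ≠ 1 := by
    intro i hi
    have := (h1 i).2.2.2.2
    rw [hi] at this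
    apply hxne i
    simpa using this
  have hoddn : ∀ i, Odd (orderOf (x i)) := by
    intro i
    refine Odd.of_dvd_nat hLodd ?_
    have := orderOf_dvd_natCard (⟨x i, hBL (h1 i).2.1⟩ : ↥L)
    rwa [Subgroup.orderOf_mk] at this
  refine ⟨fun i => Subgroup.zpowers (a i), fun i => Subgroup.zpowers (x i), fun i => orderOf (x i),
    ?_, h3, ?_⟩
  · intro i
    refine ⟨?_, ?_, ?_, hoddn i, ?_, ?_⟩
    · rw [Subgroup.zpowers_le]
      exact (h1 i).1
    · rw [Nat.card_zpowers]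
      have h4 := hA2 _ (h1 i).1
      exact orderOf_eq_prime (by rw [pow_two]; exact h4) (ha1 i)
    · rw [Subgroup.zpowers_le]
      exact hBL (h1 i).2.1
    · have h4 := hoddn i
      have h5 : orderOf (x i) ≠ 1 := by
        intro h
        exact (h1 i).2.2.1 (orderOf_eq_one_iff.1 h)
      obtain ⟨m, hm⟩ := h4
      change 3 ≤ orderOf (x i)
      omega
    · exact dihedral_of_wt (hA2 _ (h1 i).1) (h1 i).2.2.2.2 (hxne i) (hoddn i)
  · intro i j hij
    -- commuting on generators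
    have hcomm : ∀ i j, i ≠ j → Subgroup.zpowers (a i) ⊔ Subgroup.zpowers (x i) ≤
        Subgroup.centralizer ((Subgroup.zpowers (a j) ⊔ Subgroup.zpowers (x j) : Subgroup G) : Set G) := by
      intro i j hij
      rw [Subgroup.le_centralizer_iff]
      have hAiC : ∀ i j, i ≠ j → x j ∈ Subgroup.centralizer ({a i} : Set G) := by
        intro i j hij
        rw [Subgroup.mem_centralizer_singleton_iff]
        have := h2 i j hij
        rw [mul_inv_eq_iff_eq_mul] at this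
        exact this.symm
      refine sup_le ?_ ?_
      · rw [Subgroup.zpowers_le, Subgroup.mem_centralizer_iff]
        intro g hg
        have hg' : g ∈ Subgroup.zpowers (a i) ⊔ Subgroup.zpowers (x i) := hg
        have h5 : Subgroup.zpowers (a i) ⊔ Subgroup.zpowers (x i) ≤
            Subgroup.centralizer ({a j} : Set G) := by
          refine sup_le ?_ ?_
          · rw [Subgroup.zpowers_le, Subgroup.mem_centralizer_singleton_iff]
            exact hAc _ (h1 i).1 _ (h1 j).1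
          · rw [Subgroup.zpowers_le]
            exact hAiC j i (Ne.symm hij)
        exact (Subgroup.mem_centralizer_singleton_iff.1 (h5 hg'))
      · rw [Subgroup.zpowers_le, Subgroup.mem_centralizer_iff]
        intro g hg
        have hg' : g ∈ Subgroup.zpowers (a i) ⊔ Subgroup.zpowers (x i) := hg
        have h5 : Subgroup.zpowers (a i) ⊔ Subgroup.zpowers (x i) ≤
            Subgroup.centralizer ({x j} : Set G) := by
          refine sup_le ?_ ?_
          · rw [Subgroup.zpowers_le]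
            exact Subgroup.mem_centralizer_singleton_iff.2
              (Subgroup.mem_centralizer_singleton_iff.1 (hAiC i j hij)).symm
          · rw [Subgroup.zpowers_le, Subgroup.mem_centralizer_singleton_iff]
            exact hBc _ (h1 i).2.1 _ (h1 j).2.1
        exact (Subgroup.mem_centralizer_singleton_iff.1 (h5 hg'))
    intro p hp q hq
    exact (Subgroup.mem_centralizer_iff.1 (hcomm i j hij hp) q hq).symm

end Cfsg.Agent.S1349
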