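-- Fischer: a non-central odd core of the group generated by D_x forces the symmetric group of degree five.
import Mathlib
import Cfsg.Statements.S1615
import Cfsg.Agent.Lib.FischerFiveC19

set_option autoImplicit false
open Cfsg

namespace Cfsg.Agent.S1615

/-- If O(⟨D_x⟩) is not central in ⟨D_x⟩ for some transposition x, the 3-transposition group is the symmetric group of degree 5. -/
theorem result {G : Type*} [Group G] [Finite G] (hsol : ∀ N : Subgroup G, N.Normal → Group.IsSolvable ↥N → N = ⊥) (hperf : ⁅commutator G, commutator G⁆ = commutator G) {D : Set G} (hD : Cfsg.IsThreeTranspositionClass D) (x : G) (hx : x ∈ D) (h : ¬ Cfsg.oddCore ↥(Subgroup.closure {y : G | y ∈ D ∧ y ≠ x ∧ Commute x y}) ≤ Subgroup.center ↥(Subgroup.closure {y : G | y ∈ D ∧ y ≠ x ∧ Commute x y})) : Nonempty (G ≃* Equiv.Perm (Fin 5)) := by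
  obtain ⟨h1, h2⟩ := Cfsg.Agent.Lib.FischerDx19.fischer_simple hsol hperf hD
  obtain ⟨y, y', hW⟩ := Cfsg.Agent.Lib.FischerFiveC19.exists_wpair_of_oddCore hD hx h
  exact Cfsg.Agent.Lib.FischerFiveC19.iso_of_wpair (Cfsg.Agent.Lib.FischerDx19.Setup.of_simple hD h1 h2) hsol hx hW

end Cfsg.Agent.S1615
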