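import Mathlib
-- Template for statement S1724 (row 1724; see /opt/grader/pristine/manifest.json for weights).
-- Copy to Cfsg/Agent/S1724.lean and replace the sorry. The statement below is byte-identical to the frozen
-- statement Cfsg.CfsgFrozen.S1724 (Cfsg/Statements/S1724.lean; the theorem Cfsg.j2_type_sylow_seven_normalizer);
-- the grader kernel-checks Cfsg.Agent.S1724.result against that frozen type. Keep the theorem IN THIS FILE
-- (a `result` declared elsewhere and merely imported here is not credited); helpers may live anywhere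
-- under Cfsg/Agent/.
import Cfsg.Statements.S1724
import Cfsg.Agent.Lib.HJSevenD
-- import your own Cfsg.Agent.* helpers here

set_option autoImplicit false
open Cfsg

namespace Cfsg.Agent.S1724

/-- In a group of Hall–Janko type (large-extraspecial hypothesis with Q of order 32, quotient Ω⁻(4, 2), z not weakly closed in Q, more than one class of involutions), a Sylow 7-subgroup is its own centraliser and its normaliser is non-abelian of order 42. -/
theorem result {G : Type*} [Group G] [Finite G] (z : G) (hz : orderOf z = 2) (Q : Subgroup (Subgroup.centralizer ({z} : Set G))) [Q.Normal] (hF : Cfsg.generalizedFittingSubgroup (Subgroup.centralizer ({z} : Set G)) = Q) (hQ : Cfsg.IsExtraspecial 2 Q) (hcard : Nat.card Q = 2 ^ 5) (e : (Subgroup.centralizer ({z} : Set G)) ⧸ Q ≃* Cfsg.Omega (ZMod 2) (Cfsg.quadFormMinus 1 (ZMod 2) 1 1)) (hnwc : ∃ g : G, (∃ hq : g * z * g⁻¹ ∈ Subgroup.centralizer ({z} : Set G), (⟨g * z * g⁻¹, hq⟩ : Subgroup.centralizer ({z} : Set G)) ∈ Q) ∧ g * z * g⁻¹ ≠ z) (hcl : ∃ x y : G, orderOf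 x = 2 ∧ orderOf y = 2 ∧ ¬ IsConj x y) (D : Sylow 7 G) : Subgroup.centralizer ((D : Subgroup G) : Set G) = D ∧ Nat.card (Subgroup.normalizer ((D : Subgroup G) : Set G)) = 42 ∧ ¬ IsMulCommutative (Subgroup.normalizer ((D : Subgroup G) : Set G)) := by
  have hb := Cfsg.Agent.Lib.HJType.base z hz Q hF hQ hcard e
  obtain ⟨t₀, h⟩ := Cfsg.Agent.Lib.HJType.exists_TC hb hnwc hcl
  obtain ⟨v₀, hv₀, hn⟩ := Cfsg.Agent.Lib.CITFive.exists_anti h.ct (Cfsg.Agent.Lib.HJTypeB.TC.card15 h) h.bL_mem
  exact Cfsg.Agent.Lib.HJSevenD.main_seven h hv₀ hn D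

end Cfsg.Agent.S1724
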