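import Mathlib
import Cfsg.Statements.S1892
import Cfsg.Agent.Lib.PCore
import Cfsg.Agent.Lib.PSolv
import Cfsg.Agent.Lib.ChainStab

set_option autoImplicit false
open Cfsg

namespace Cfsg.Agent.S1892

open scoped commutatorElement
open Cfsg.Agent.Lib.PCore Cfsg.Agent.Lib.ChainStab

/-- Let S be a finite p-solvable group with no nontrivial normal subgroup of order prime to p, A a p-subgroup of S, and Q a nontrivial A-invariant subgroup of order prime to p with [A, Q] = Q. Then the commutator [O_p(S), A, Q] is nontrivial. -/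
theorem result {S : Type*} [Group S] [Finite S] {p : ℕ} [Fact p.Prime]
    (hS : Cfsg.IsPSolvable p S) (hred : Cfsg.pPrimeCore p S = ⊥)
    (A Q : Subgroup S) (hA : IsPGroup p A) (hQ : ¬ p ∣ Nat.card Q) (hQ1 : Q ≠ ⊥)
    (hinv : ∀ a ∈ A, ∀ x ∈ Q, a * x * a⁻¹ ∈ Q) (hAQ : ⁅A, Q⁆ = Q) :
    ⁅⁅Cfsg.pCore p S, A⁆, Q⁆ ≠ ⊥ := by
  intro hbot
  have hp : p.Prime := Fact.out
  obtain ⟨P, hP⟩ : ∃ P : Subgroup S, P = Cfsg.pCore p S := ⟨_, rfl⟩
  rw [← hP] at hbot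
  have hPp : IsPGroup p P := hP ▸ isPGroup_pCore (G := S) p
  have hPn : P.Normal := by
    rw [hP]
    haveI := pCore_characteristic (G := S) p
    exact Subgroup.normal_of_characteristic _
  obtain ⟨U, hU⟩ : ∃ U : Subgroup S, U = P ⊓ Subgroup.centralizer (Q : Set S) := ⟨_, rfl⟩
  have hUp : IsPGroup p U := by
    rw [hU]
    exact hPp.to_le inf_le_left
  -- basic facts
  have hcomm : ∀ v ∈ P, ∀ a ∈ A, ⁅v, a⁆ ∈ U := by
    intro v hv a ha
    rw [hU]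
    refine Subgroup.mem_inf.2 ⟨?_, ?_⟩
    · have : ⁅v, a⁆ = v * (a * v⁻¹ * a⁻¹) := by
        rw [commutatorElement_def]; group
      rw [this]
      exact P.mul_mem hv (hPn.conj_mem _ (P.inv_mem hv) _)
    · rw [Subgroup.mem_centralizer_iff]
      intro q hq
      have h1 : ⁅⁅v, a⁆, q⁆ = 1 := by
        have h2 : ⁅⁅v, a⁆, q⁆ ∈ ⁅⁅P, A⁆, Q⁆ :=
          Subgroup.commutator_mem_commutator (Subgroup.commutator_mem_commutator hv ha) hq
        rw [hbot] at h2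
        exact h2
      exact (commutatorElement_eq_one_iff_commute.1 h1).symm.eq
  have hUQ : ∀ u ∈ U, ∀ q ∈ Q, Commute u q := by
    intro u hu q hq
    rw [hU] at hu
    have := Subgroup.mem_centralizer_iff.1 (Subgroup.mem_inf.1 hu).2 q hq
    exact (Commute.symm this)
  have hUP : U ≤ P := by rw [hU]; exact inf_le_left
  -- conjugation by `a` preserves `U`
  have hUa : ∀ a ∈ A, ∀ u ∈ U, a * u * a⁻¹ ∈ U := by
    intro a ha u hu
    have h1 := hcomm u⁻¹ (P.inv_mem (hUP hu)) a ha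
    have h2 : a * u * a⁻¹ = u * ⁅u⁻¹, a⁆ := by
      rw [commutatorElement_def]; group
    rw [h2]
    exact U.mul_mem hu h1
  -- key computation
  have hkey : ∀ a ∈ A, ∀ q ∈ Q, ∀ v ∈ P, ⁅v, ⁅a, q⁆⁆ ∈ U := by
    intro a ha q hq v hv
    -- v' = v⁻¹
    obtain ⟨w, hw⟩ : ∃ w : S, w = v⁻¹ := ⟨_, rfl⟩
    have hwP : w ∈ P := hw ▸ P.inv_mem hv
    obtain ⟨v₁, hv₁⟩ : ∃ v₁ : S, v₁ = q⁻¹ * w * q := ⟨_, rfl⟩
    have hv₁P : v₁ ∈ P := by
      have := hPn.conj_mem w hwP q⁻¹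
      rw [hv₁]; simpa using this
    -- a⁻¹ v₁ a = v₁ u₁
    have hu₁ := hcomm v₁⁻¹ (P.inv_mem hv₁P) a⁻¹ (A.inv_mem ha)
    obtain ⟨u₁, hu₁def⟩ : ∃ u₁ : S, u₁ = ⁅v₁⁻¹, a⁻¹⁆ := ⟨_, rfl⟩
    rw [← hu₁def] at hu₁
    have h1 : a⁻¹ * v₁ * a = v₁ * u₁ := by
      rw [hu₁def, commutatorElement_def]; group
    -- q (v₁ u₁) q⁻¹ = w u₁
    have h2 : q * (a⁻¹ * v₁ * a) * q⁻¹ = w * u₁ := by
      rw [h1]
      have := (hUQ u₁ hu₁ q hq).eq
      calc q * (v₁ * u₁) * q⁻¹ = (q * v₁) * (u₁ * q⁻¹) := by group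
        _ = (q * v₁) * (q⁻¹ * u₁) := by
            have h3 : u₁ * q⁻¹ = q⁻¹ * u₁ := by
              rw [eq_inv_mul_iff_mul_eq, ← mul_assoc, ← this]; group
            rw [h3]
        _ = w * u₁ := by rw [hv₁]; group
    -- a (w u₁) a⁻¹ = w (w⁻¹ a w a⁻¹) (a u₁ a⁻¹)
    have hu₂ := hcomm w⁻¹ (P.inv_mem hwP) a ha
    obtain ⟨u₂, hu₂def⟩ : ∃ u₂ : S, u₂ = ⁅w⁻¹, a⁆ := ⟨_, rfl⟩
    rw [← hu₂def] at hu₂
    have h3 : a * w * a⁻¹ = w * u₂ := by
      rw [hu₂def, commutatorElement_def]; group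
    have h4 : ⁅v, ⁅a, q⁆⁆ = u₂ * (a * u₁ * a⁻¹) := by
      have h5 : ⁅v, ⁅a, q⁆⁆ = w⁻¹ * (a * (q * (a⁻¹ * (q⁻¹ * w * q) * a) * q⁻¹) * a⁻¹) := by
        rw [hw]
        simp only [commutatorElement_def]
        group
      rw [h5, ← hv₁, h2]
      calc w⁻¹ * (a * (w * u₁) * a⁻¹) = w⁻¹ * ((a * w * a⁻¹) * (a * u₁ * a⁻¹)) := by group
        _ = w⁻¹ * ((w * u₂) * (a * u₁ * a⁻¹)) := by rw [h3]
        _ = _ := by group
    rw [h4]
    exact U.mul_mem hu₂ (hUa a ha u₁ hu₁)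
  -- all of `Q` is in the stabilizer of the section
  have hQU : ∀ x ∈ Q, x ∈ Subgroup.normalizer (U : Set S) := by
    intro x hx
    rw [Subgroup.mem_normalizer_iff]
    intro u
    constructor
    · intro hu
      have : x * u * x⁻¹ = u := by
        have := (hUQ u hu x hx).eq
        rw [← this]; group
      rwa [this]
    · intro hu
      have h1 : x⁻¹ * (x * u * x⁻¹) * x⁻¹⁻¹ = x * u * x⁻¹ := by
        have := (hUQ _ hu x⁻¹ (Q.inv_mem hx)).eq
        rw [← this]; group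
      have h2 : x⁻¹ * (x * u * x⁻¹) * x⁻¹⁻¹ = u := by group
      rw [h2] at h1
      rwa [h1]
  have hQT : Q ≤ stabSub P U := by
    have : ⁅A, Q⁆ ≤ stabSub P U := by
      rw [Subgroup.commutator_le]
      intro a ha q hq
      refine ⟨?_, fun v hv => hkey a ha q hq v hv⟩
      apply hQU
      rw [← hAQ]
      exact Subgroup.commutator_mem_commutator ha hq
    rwa [hAQ] at this
  have hcQ : ∀ x ∈ Q, (orderOf x).Coprime p := by
    intro x hx
    have h1 : orderOf x ∣ Nat.card Q := by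
      have := orderOf_dvd_natCard (⟨x, hx⟩ : Q)
      rwa [Subgroup.orderOf_mk] at this
    have h2 : ¬ p ∣ orderOf x := fun h => hQ (h.trans h1)
    exact ((Nat.Prime.coprime_iff_not_dvd hp).2 h2).symm
  have hQC : Q ≤ Subgroup.centralizer (P : Set S) := by
    intro x hx
    rw [Subgroup.mem_centralizer_iff]
    intro v hv
    exact (commute_of_stab hUp (hcQ x hx) (fun u hu => hUQ u hu x hx)
      (fun v hv => (hQT hx).2 v hv) v hv).eq
  have hQP : Q ≤ P := by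
    have h1 := Cfsg.Agent.Lib.PSolv.centralizer_pCore_le_of_pSolvable hS hred
    rw [← hP] at h1
    exact hQC.trans h1
  have hQp : IsPGroup p Q := hPp.to_le hQP
  obtain ⟨k, hk⟩ := IsPGroup.iff_card.1 hQp
  have hk0 : k = 0 := by
    by_contra h
    exact hQ (hk ▸ dvd_pow_self p h)
  rw [hk0, pow_zero] at hk
  exact hQ1 (Subgroup.card_eq_one.1 hk)

end Cfsg.Agent.S1892
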