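import Mathlib
import Cfsg.Statements.S1894

set_option autoImplicit false
open Cfsg

namespace Cfsg.Agent.S1894

/-- A nontrivial normal subgroup of a finite `p`-group meets the centre nontrivially. -/
theorem exists_central_of_normal {Q : Type*} [Group Q] [Finite Q] {p : ℕ} [Fact p.Prime]
    (hQ : IsPGroup p Q) (N : Subgroup Q) [N.Normal] (hN : N ≠ ⊥) :
    ∃ z ∈ N, z ≠ 1 ∧ z ∈ Subgroup.center Q := by
  classical
  have hp : p.Prime := Fact.out
  have hconj : IsPGroup p (ConjAct Q) := by
    intro g
    obtain ⟨k, hk⟩ := hQ (ConjAct.ofConjAct g)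
    refine ⟨k, ?_⟩
    apply ConjAct.ofConjAct.injective
    simpa using hk
  have hcard : Nat.card N ≡ Nat.card (MulAction.fixedPoints (ConjAct Q) N) [MOD p] :=
    hconj.card_modEq_card_fixedPoints N
  have hNp : IsPGroup p N := hQ.to_subgroup N
  have hNnt : Nontrivial N := Subgroup.nontrivial_iff_ne_bot N |>.mpr hN
  have hdvd : p ∣ Nat.card N := by
    obtain ⟨k, hk⟩ := IsPGroup.iff_card.mp hNp
    have hk0 : k ≠ 0 := by
      rintro rfl
      rw [pow_zero] at hk
      exact (Finite.one_lt_card (α := N)).ne' hk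
    rw [hk]
    exact dvd_pow_self p hk0
  have hdvd2 : p ∣ Nat.card (MulAction.fixedPoints (ConjAct Q) N) :=
    (Nat.modEq_zero_iff_dvd.mp (hcard.symm.trans ((Nat.modEq_zero_iff_dvd).mpr hdvd)))
  have h1fix : (1 : N) ∈ MulAction.fixedPoints (ConjAct Q) N := by
    intro g
    simp
  have hpos : Finite (MulAction.fixedPoints (ConjAct Q) N) := inferInstance
  have hne : Nonempty (MulAction.fixedPoints (ConjAct Q) N) := ⟨⟨1, h1fix⟩⟩
  have hgt : 1 < Nat.card (MulAction.fixedPoints (ConjAct Q) N) := by
    have hp2 := hp.two_le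
    have : 0 < Nat.card (MulAction.fixedPoints (ConjAct Q) N) := Nat.card_pos
    have := Nat.le_of_dvd this hdvd2
    omega
  haveI := Finite.one_lt_card_iff_nontrivial.mp hgt
  obtain ⟨⟨z, hz⟩, hz1⟩ := exists_ne (⟨1, h1fix⟩ : MulAction.fixedPoints (ConjAct Q) N)
  refine ⟨z, z.2, ?_, ?_⟩
  · intro h
    apply hz1
    ext
    simpa using h
  · rw [Subgroup.mem_center_iff]
    intro g
    have := hz (ConjAct.toConjAct g)
    have h2 : (ConjAct.toConjAct g • z : N) = z := this
    have h3 := congrArg Subtype.val h2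
    rw [ConjAct.Subgroup.val_conj_smul, ConjAct.smul_def] at h3
    simp only [ConjAct.ofConjAct_toConjAct] at h3
    rw [mul_inv_eq_iff_eq_mul] at h3
    exact h3

theorem result {P : Type*} [Group P] [Finite P] {p : ℕ} [Fact p.Prime] (hP : IsPGroup p P)
    (A : Subgroup P) [A.Normal] (B : Subgroup P) [B.Normal] (hBA : B ≤ A) (hB : IsMulCommutative B) :
    ∃ C : Subgroup P, C.Normal ∧ B ≤ C ∧ Cfsg.IsSCN A C := by
  classical
  -- maximal abelian normal subgroup of P in A containing B
  let S : Set (Subgroup P) := {C | C.Normal ∧ B ≤ C ∧ C ≤ A ∧ ∀ x ∈ C, ∀ y ∈ C, x * y = y * x}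
  have hBS : B ∈ S := by
    refine ⟨inferInstance, le_rfl, hBA, ?_⟩
    intro x hx y hy
    have := hB.is_comm.comm ⟨x, hx⟩ ⟨y, hy⟩
    simpa using congrArg Subtype.val this
  obtain ⟨C, hCB, hCmax⟩ : ∃ C, B ≤ C ∧ Maximal (· ∈ S) C := by
    obtain ⟨C, hC, hCm⟩ := (Set.toFinite S).exists_le_maximal hBS
    exact ⟨C, hC, hCm⟩
  have hCS := hCmax.prop
  obtain ⟨hCn, -, hCA, hCc⟩ := hCS
  haveI := hCn
  refine ⟨C, hCn, hCB, hCA, ?_, ?_⟩
  · intro g _
    rw [Subgroup.normalizer_eq_top_iff.mpr hCn]
    trivial
  · apply le_antisymm _ _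
    · -- D = A ∩ C_P(C) is normal in P; if D ≠ C pick a central element of D / C
      by_contra hne
      let D : Subgroup P := A ⊓ Subgroup.centralizer (C : Set P)
      haveI hcn : (Subgroup.centralizer (C : Set P)).Normal := inferInstance
      haveI hDn : D.Normal := inferInstance
      -- image of D in P/C is a nontrivial normal subgroup of a p-group
      let π := QuotientGroup.mk' C
      let D' : Subgroup (P ⧸ C) := D.map π
      haveI hD'n : D'.Normal := Subgroup.Normal.map hDn π (QuotientGroup.mk'_surjective C)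
      have hD'ne : D' ≠ ⊥ := by
        intro h
        apply hne
        intro x hx
        have : π x ∈ D' := ⟨x, hx, rfl⟩
        rw [h] at this
        exact (QuotientGroup.eq_one_iff x).mp this
      have hQP : IsPGroup p (P ⧸ C) := hP.to_quotient C
      obtain ⟨z, ⟨x, hxD, rfl⟩, hz1, hzc⟩ := exists_central_of_normal hQP D' hD'ne
      let Z : Subgroup (P ⧸ C) := Subgroup.zpowers (π x)
      have hZn : Z.Normal := by
        constructor
        intro n hn g
        obtain ⟨k, rfl⟩ := Subgroup.mem_zpowers_iff.mp hn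
        have : g * (π x) ^ k * g⁻¹ = (π x) ^ k := by
          have hzc' : (π x) ^ k ∈ Subgroup.center (P ⧸ C) := Subgroup.zpow_mem _ hzc k
          rw [(Subgroup.mem_center_iff.mp hzc' g)]
          group
        rw [this]
        exact Subgroup.zpow_mem_zpowers _ _
      let E : Subgroup P := Z.comap π
      have hEn : E.Normal := Subgroup.Normal.comap hZn π
      have hEform : ∀ e ∈ E, ∃ k : ℤ, ∃ c ∈ C, e = x ^ k * c := by
        intro e he
        obtain ⟨k, hk⟩ := Subgroup.mem_zpowers_iff.mp (show π e ∈ Z from he)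
        refine ⟨k, (x ^ k)⁻¹ * e, ?_, by group⟩
        rw [← QuotientGroup.eq_one_iff]
        show π ((x ^ k)⁻¹ * e) = 1
        rw [map_mul, map_inv, map_zpow, ← hk]
        group
      have hxcomm : ∀ c ∈ C, x * c = c * x := by
        intro c hc
        have := Subgroup.mem_centralizer_iff.mp hxD.2 c hc
        exact this.symm
      have hCE : C ≤ E := by
        intro c hc
        show π c ∈ Z
        have : π c = 1 := (QuotientGroup.eq_one_iff c).mpr hc
        rw [this]
        exact one_mem _
      have hxk : ∀ k : ℤ, ∀ c ∈ C, x ^ k * c = c * x ^ k := by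
        intro k c hc
        have : Commute x c := hxcomm c hc
        exact (this.zpow_left k)
      have hES : E ∈ S := by
        refine ⟨hEn, hCB.trans hCE, ?_, ?_⟩
        · intro e he
          obtain ⟨k, c, hc, rfl⟩ := hEform e he
          exact A.mul_mem (A.zpow_mem hxD.1 k) (hCA hc)
        · intro e he f hf
          obtain ⟨k, c, hc, rfl⟩ := hEform e he
          obtain ⟨l, d, hd, rfl⟩ := hEform f hf
          have h1 := hCc c hc d hd
          have h2 := hxk l c hc
          have h3 := hxk k d hd
          have h4 : x ^ k * x ^ l = x ^ l * x ^ k := by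
            rw [← zpow_add, ← zpow_add, add_comm]
          calc x ^ k * c * (x ^ l * d) = x ^ k * (c * x ^ l) * d := by group
            _ = x ^ k * (x ^ l * c) * d := by rw [h2]
            _ = (x ^ k * x ^ l) * (c * d) := by group
            _ = (x ^ l * x ^ k) * (d * c) := by rw [h4, h1]
            _ = x ^ l * (x ^ k * d) * c := by group
            _ = x ^ l * (d * x ^ k) * c := by rw [h3]
            _ = x ^ l * d * (x ^ k * c) := by group
      have hCeqE : E = C := (hCmax.eq_of_le hES hCE).symm
      have hxE : x ∈ E := by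
        show π x ∈ Z
        exact Subgroup.mem_zpowers _
      rw [hCeqE] at hxE
      exact hz1 ((QuotientGroup.eq_one_iff x).mpr hxE)
    · intro x hx
      exact ⟨hCA hx, Subgroup.mem_centralizer_iff.mpr (fun y hy => hCc y hy x hx)⟩

end Cfsg.Agent.S1894
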