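import Cfsg.Statements.S1895
import Cfsg.Agent.H28.ChiefRank
import Cfsg.Agent.S0093
import Cfsg.Agent.S0121
import Cfsg.Agent.Lib.PSolv
import Cfsg.Agent.Lib.PCore
import Cfsg.Agent.Lib.QdSec
import Cfsg.Agent.Lib.KulakoffOdd
import Cfsg.Agent.Lib.RankTwoRep
import Cfsg.Agent.Lib.CritAut
import Cfsg.Agent.Lib.PConstr

set_option autoImplicit false
open Cfsg

namespace Cfsg.Agent.S1895

open Subgroup
open scoped commutatorElement
open Cfsg.Agent.H28.ChiefRank

universe u

variable {G : Type u} [Group G] [Finite G] {p : ℕ} [hp : Fact p.Prime]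

/-- A chief factor all of whose intermediate subgroups are normal has prime order. -/
theorem relIndex_le_of_all_normal {K H : Subgroup G} (c : ChiefF K H)
    (hpow : ∃ n : ℕ, K.relIndex H = p ^ n)
    (hnorm : ∀ T : Subgroup G, K ≤ T → T ≤ H → T.Normal) : K.relIndex H ≤ p := by
  have := c.nK
  set f := QuotientGroup.mk' K with hf
  have hcard : Nat.card (H.map f) = K.relIndex H := by
    rw [← Subgroup.relIndex_ker, QuotientGroup.ker_mk']
  have hH : IsPGroup p (H.map f) := by
    obtain ⟨n, hn⟩ := hpow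
    exact IsPGroup.of_card (hcard.trans hn)
  have hne : H.map f ≠ ⊥ := by
    intro h
    obtain ⟨y, hy, hyK⟩ := SetLike.exists_of_lt c.lt
    have : f y ∈ H.map f := Subgroup.mem_map_of_mem f hy
    rw [h, Subgroup.mem_bot] at this
    exact hyK ((QuotientGroup.eq_one_iff y).mp this)
  obtain ⟨x', hx', hx1, hxp⟩ := exists_order_p_of_ne_bot hH hne
  obtain ⟨x, hxH, rfl⟩ := hx'
  have hxK : x ∉ K := fun h => hx1 ((QuotientGroup.eq_one_iff x).mpr h)
  have hT := hnorm (K ⊔ zpowers x) le_sup_left (sup_le c.lt.le ((zpowers_le).mpr hxH))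
  rcases c.irr _ hT le_sup_left (sup_le c.lt.le ((zpowers_le).mpr hxH)) with h | h
  · exact absurd (h ▸ Subgroup.mem_sup_right (mem_zpowers x) : x ∈ K) hxK
  · rw [← hcard, ← h, Subgroup.map_sup]
    have h0 : K.map f = ⊥ := by
      rw [Subgroup.map_eq_bot_iff, QuotientGroup.ker_mk']
    rw [h0, bot_sup_eq, MonoidHom.map_zpowers, Nat.card_zpowers]
    exact (orderOf_eq_prime hxp hx1).le

/-- Conjugation on a cyclic normal subgroup is a power map. -/
theorem conj_cyclic (N : Subgroup G) [hN : N.Normal] [hc : IsCyclic N] (g : G) :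
    ∃ i : ℤ, ∀ n ∈ N, g * n * g⁻¹ = n ^ i := by
  obtain ⟨a, ha⟩ := hc.exists_generator
  obtain ⟨i, hi⟩ := ha ⟨g * a * g⁻¹, hN.conj_mem a a.2 g⟩
  have hi' : (a : G) ^ i = g * a * g⁻¹ := by
    simpa using congrArg Subtype.val hi
  refine ⟨i, fun n hn => ?_⟩
  obtain ⟨j, hj⟩ := ha ⟨n, hn⟩
  have hj' : (a : G) ^ j = n := by
    simpa using congrArg Subtype.val hj
  rw [← hj', ← zpow_mul, mul_comm j i, zpow_mul, hi']
  exact (conj_zpow).symm

theorem comm_mem_centralizer_of_cyclic (N : Subgroup G) [hN : N.Normal] [hc : IsCyclic N] (g h : G) :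
    ⁅g, h⁆ ∈ centralizer (N : Set G) := by
  have key : ∀ x y : G, ∀ n ∈ N, (x * y) * n * (x * y)⁻¹ = (y * x) * n * (y * x)⁻¹ := by
    intro x y n hn
    obtain ⟨i, hi⟩ := conj_cyclic N x
    obtain ⟨j, hj⟩ := conj_cyclic N y
    have e1 : (x * y) * n * (x * y)⁻¹ = n ^ (j * i) := by
      have : (x * y) * n * (x * y)⁻¹ = x * (y * n * y⁻¹) * x⁻¹ := by group
      rw [this, hj n hn, ← conj_zpow, hi n hn, ← zpow_mul, mul_comm]
    have e2 : (y * x) * n * (y * x)⁻¹ = n ^ (j * i) := by
      have : (y * x) * n * (y * x)⁻¹ = y * (x * n * x⁻¹) * y⁻¹ := by group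
      rw [this, hi n hn, ← conj_zpow, hj n hn, ← zpow_mul]
    exact e1.trans e2.symm
  rw [Subgroup.mem_centralizer_iff]
  intro n hn
  have e := key g⁻¹ h⁻¹ n hn
  set a := g⁻¹ * h⁻¹ with ha
  set b := h⁻¹ * g⁻¹ with hb
  have hc' : ⁅g, h⁆ = b⁻¹ * a := by
    rw [commutatorElement_def, ha, hb]
    group
  rw [hc']
  calc n * (b⁻¹ * a) = b⁻¹ * (b * n * b⁻¹) * a := by group
    _ = b⁻¹ * (a * n * a⁻¹) * a := by rw [e]
    _ = b⁻¹ * a * n := by group

/-- The case of a cyclic critical subgroup. -/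
theorem cyc_case (N : Subgroup G) [hN : N.Normal] [hc : IsCyclic N]
    (hcc : centralizer (N : Set G) ≤ N) {K H : Subgroup G} (c : ChiefF K H)
    (hpow : ∃ n : ℕ, K.relIndex H = p ^ n) : K.relIndex H ≤ p := by
  have := c.nK
  have := c.nH
  refine relIndex_le_of_all_normal c hpow ?_
  intro T hKT hTH
  constructor
  intro t ht g
  rcases c.dich N with h | h
  · have h1 : ⁅g, t⁆ ∈ N := hcc (comm_mem_centralizer_of_cyclic N g t)
    have h2 : ⁅g, t⁆ ∈ H := by
      rw [commutatorElement_def]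
      exact H.mul_mem (c.nH.conj_mem t (hTH ht) g) (H.inv_mem (hTH ht))
    have h3 : ⁅g, t⁆ ∈ K := h ⟨h2, h1⟩
    have e : g * t * g⁻¹ = ⁅g, t⁆ * t := by
      rw [commutatorElement_def]
      group
    rw [e]
    exact T.mul_mem (hKT h3) ht
  · have htH := hTH ht
    rw [← h] at htH
    obtain ⟨k, hk, u, hu, rfl⟩ := mem_sup_normal htH
    have huT : u ∈ T := by
      have e : u = k⁻¹ * (k * u) := by group
      rw [e]
      exact T.mul_mem (T.inv_mem (hKT hk)) ht
    obtain ⟨i, hi⟩ := conj_cyclic N g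
    have e : g * (k * u) * g⁻¹ = (g * k * g⁻¹) * (g * u * g⁻¹) := by group
    rw [e, hi u hu.2]
    exact T.mul_mem (hKT (c.nK.conj_mem k hk g)) (T.zpow_mem huT i)

/-- Subgroups of exponent `p`: adding a commuting element of order `p`. -/
theorem mem_of_commuting (hr : PRankLE p 2 G) (A : Subgroup G) (hA : Nat.card A = p ^ 2)
    (hAe : ∀ a ∈ A, a ^ p = 1) {x : G} (hx : x ^ p = 1) (hxA : ∀ a ∈ A, x * a = a * x) : x ∈ A := by
  have hAc : ∀ a ∈ A, ∀ b ∈ A, a * b = b * a := by
    intro a ha b hb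
    have := (IsPGroup.isMulCommutative_of_card_eq_prime_sq hA).is_comm.comm ⟨a, ha⟩ ⟨b, hb⟩
    exact congrArg Subtype.val this
  have hzc : ∀ a ∈ zpowers x, ∀ b ∈ zpowers x, a * b = b * a := by
    rintro _ ⟨i, rfl⟩ _ ⟨j, rfl⟩
    exact ((Commute.refl x).zpow_zpow i j).eq
  have hAz : ∀ a ∈ A, ∀ b ∈ zpowers x, a * b = b * a := by
    rintro a ha _ ⟨j, rfl⟩
    exact ((show Commute a x from (hxA a ha).symm).zpow_right j).eq
  have hcomm := Cfsg.Agent.Lib.CritAut.sup_isMulCommutative hAc hzc hAz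
  set B := A ⊔ zpowers x with hB
  have hpc : PCentral p B := by
    intro a ha _ g hg
    exact congrArg Subtype.val (hcomm.is_comm.comm ⟨a, ha⟩ ⟨g, hg⟩)
  have hBe : ∀ b ∈ B, b ^ p = 1 := by
    have hle : B ≤ omegaC B hpc := by
      refine sup_le ?_ ?_
      · intro a ha
        exact ⟨Subgroup.mem_sup_left ha, hAe a ha⟩
      · rw [zpowers_le]
        exact ⟨Subgroup.mem_sup_right (mem_zpowers x), hx⟩
    exact fun b hb => (hle hb).2
  have hcard := hr B hcomm (fun b hb => hBe b hb)
  have hBA : B = A := by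
    symm
    apply Subgroup.eq_of_le_of_card_ge le_sup_left
    rw [hA]
    exact hcard
  rw [← hBA]
  exact Subgroup.mem_sup_right (mem_zpowers x)

omit hp in
theorem relIndex_pos' (A B : Subgroup G) : 0 < A.relIndex B := by
  unfold Subgroup.relIndex
  exact Nat.pos_of_ne_zero Subgroup.index_ne_zero_of_finite

theorem p_le_of_ne_one {n : ℕ} (h1 : ∃ k, n = p ^ k) (hn : n ≠ 1) : p ≤ n := by
  obtain ⟨k, rfl⟩ := h1
  have hk : k ≠ 0 := by
    rintro rfl
    simp at hn
  calc p = p ^ 1 := (pow_one p).symm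
    _ ≤ p ^ k := Nat.pow_le_pow_right hp.out.pos (Nat.pos_of_ne_zero hk)

theorem exists_ne_of_nontrivial_center {W : Type*} [Group W] [Finite W] [Nontrivial W] (hW : IsPGroup p W) :
    ∃ z : W, z ≠ 1 ∧ ∀ g : W, z * g = g * z := by
  have := hW.center_nontrivial
  obtain ⟨z, hz⟩ := exists_ne (1 : center W)
  refine ⟨z, fun h => hz (Subtype.ext h), fun g => ?_⟩
  exact (Subgroup.mem_center_iff.mp z.2 g).symm

/-- The main case. -/
theorem noncyc_case (hp2 : p ≠ 2) (hr : PRankLE p 2 G) (W : Subgroup G) [hWn : W.Normal]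
    (hWp : IsPGroup p W) (hWe : ∀ w ∈ W, w ^ p = 1) (hW2 : p ^ 2 ≤ Nat.card W) (hW3 : Nat.card W ≤ p ^ 3)
    (hRp : IsPGroup p (centralizer (W : Set G))) {K H : Subgroup G} (c : ChiefF K H)
    (hpow : ∃ n : ℕ, K.relIndex H = p ^ n) : K.relIndex H ≤ p ^ 2 := by
  classical
  have hpp := hp.out
  have := c.nK
  have := c.nH
  set R := centralizer (W : Set G) with hRdef
  have hRn : R.Normal := inferInstance
  obtain ⟨j, hj⟩ := IsPGroup.iff_card.mp hWp
  have hj2 : 2 ≤ j := by
    rw [hj] at hW2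
    exact (Nat.pow_le_pow_iff_right hpp.one_lt).mp hW2
  have hj3 : j ≤ 3 := by
    rw [hj] at hW3
    exact (Nat.pow_le_pow_iff_right hpp.one_lt).mp hW3
  have hcommR : ∀ w ∈ W, ∀ r ∈ R, w * r = r * w := fun w hw r hr' =>
    (Subgroup.mem_centralizer_iff.mp hr' w hw)
  -- a subgroup of order `p²` of `W`
  obtain ⟨A', hA'⟩ := Sylow.exists_subgroup_card_pow_prime (G := W) p (n := 2) (by
    rw [hj]
    exact pow_dvd_pow p hj2)
  set A₀ := A'.map W.subtype with hA₀
  have hA₀c : Nat.card A₀ = p ^ 2 := by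
    rw [hA₀, Subgroup.card_map_of_injective W.subtype_injective, hA']
  have hA₀W : A₀ ≤ W := Subgroup.map_subtype_le _
  have hinW : ∀ x ∈ R, x ^ p = 1 → x ∈ W := fun x hx hxp =>
    hA₀W (mem_of_commuting hr A₀ hA₀c (fun a ha => hWe a (hA₀W ha)) hxp
      (fun a ha => (hcommR a (hA₀W ha) x hx).symm))
  have hpc : PCentral p R := fun x hx hxp g hg => hcommR x (hinW x hx hxp) g hg
  have hexp : ExpBd p R (p ^ 2) := by
    intro A hAR hAe
    refine hr A ⟨⟨fun a b => Subtype.ext ?_⟩⟩ (fun a ha => hAe a ha)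
    exact hcommR a (hinW a (hAR a.2) (hAe a a.2)) b (hAR b.2)
  have hRQ : R ≤ pCore p G := Cfsg.Agent.Lib.PCore.le_pCore hRn hRp
  have hWQ : W ≤ pCore p G := Cfsg.Agent.Lib.PCore.le_pCore hWn hWp
  rcases c.dich R with h1 | h1
  swap
  · obtain ⟨hc', hidx⟩ := c.restrict R h1
    rw [← hidx]
    exact pc_chief hp2 _ G R (p ^ 2) rfl hRp hpc hexp _ _ hc' inf_le_right
  -- now `H ⊓ R ≤ K`
  set A := W ⊔ R with hA
  have hAn : A.Normal := inferInstance
  have hRA : R ≤ A := le_sup_right
  rcases c.dich A with h2 | h2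
  swap
  · -- the layer `A / R`
    have h3 := c.relIndex_dvd hRA h1 h2
    have h4 : R.relIndex A = R.relIndex W := by
      rw [hA, sup_comm]
      exact Subgroup.relIndex_sup_left _ _
    have hWidx : R.relIndex W ≤ p ^ 2 := by
      have h5 := (R.subgroupOf W).index_mul_card
      have h6 : (R.subgroupOf W) ≠ ⊥ := by
        have hnt : Nontrivial W := by
          rw [← Finite.one_lt_card_iff_nontrivial, hj]
          exact Nat.one_lt_pow (by omega) hpp.one_lt
        obtain ⟨z, hz, hzc⟩ := exists_ne_of_nontrivial_center hWp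
        intro hb
        have h7 : z ∈ R.subgroupOf W := by
          rw [Subgroup.mem_subgroupOf, Subgroup.mem_centralizer_iff]
          intro w hw
          exact congrArg Subtype.val (hzc ⟨w, hw⟩).symm
        rw [hb, Subgroup.mem_bot] at h7
        exact hz h7
      have h7 : p ≤ Nat.card (R.subgroupOf W) := by
        apply p_le_of_ne_one
        · obtain ⟨k, hk⟩ := IsPGroup.iff_card.mp (hWp.to_subgroup (R.subgroupOf W))
          exact ⟨k, hk⟩
        · intro h8
          exact h6 (Subgroup.eq_bot_of_card_eq _ h8)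
      have h8 : R.relIndex W * p ≤ p ^ 2 * p := by
        calc R.relIndex W * p ≤ R.relIndex W * Nat.card (R.subgroupOf W) := Nat.mul_le_mul_left _ h7
          _ = Nat.card W := h5
          _ ≤ p ^ 3 := hW3
          _ = p ^ 2 * p := by ring
      exact Nat.le_of_mul_le_mul_right h8 hpp.pos
    refine le_trans (Nat.le_of_dvd ?_ h3) (h4 ▸ hWidx)
    rw [h4]
    exact relIndex_pos' _ _
  -- the top
  have h3 := c.relIndex_dvd (le_top : A ≤ ⊤) h2 (by rw [inf_top_eq, sup_eq_right.mpr c.lt.le])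
  rw [Subgroup.relIndex_top_right] at h3
  obtain ⟨S⟩ : Nonempty (Sylow p G) := inferInstance
  have hQS := Cfsg.Agent.Lib.PCore.pCore_le_sylow p S
  have hRS : R ≤ S := hRQ.trans hQS
  have hWS : W ≤ S := hWQ.trans hQS
  have hAS : A ≤ S := sup_le hWS hRS
  have h4 : K.relIndex H ∣ A.relIndex S := by
    have h5 := Subgroup.relIndex_mul_index hAS
    rw [← h5] at h3
    obtain ⟨n, hn⟩ := hpow
    rw [hn] at h3 ⊢
    refine Nat.Coprime.dvd_of_dvd_mul_right ?_ h3
    apply Nat.Coprime.pow_left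
    exact (Nat.Prime.coprime_iff_not_dvd hpp).mpr S.not_dvd_index
  have hSp : IsPGroup p (S : Subgroup G) := S.isPGroup'
  refine le_trans (Nat.le_of_dvd (relIndex_pos' _ _) h4) ?_
  -- the orbit bound
  have hRSidx : R.relIndex S ≤ p ^ (j.choose 2) := by
    have hW'n : (W.subgroupOf S).Normal := inferInstance
    have hW'c : Nat.card (W.subgroupOf S) = p ^ j := by
      rw [← hj]
      exact Nat.card_congr (Subgroup.subgroupOfEquivOfLe hWS).toEquiv
    have h5 := orbit_bound hSp j (W.subgroupOf S) hW'c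
    have h6 : centralizer ((W.subgroupOf S : Subgroup S) : Set S) = R.subgroupOf S := by
      ext x
      rw [Subgroup.mem_subgroupOf, Subgroup.mem_centralizer_iff, Subgroup.mem_centralizer_iff]
      constructor
      · intro hx w hw
        have := hx ⟨w, hWS hw⟩ hw
        exact congrArg Subtype.val this
      · intro hx w hw
        exact Subtype.ext (hx w hw)
    rw [h6] at h5
    exact h5
  rcases (by omega : j = 2 ∨ j = 3) with rfl | rfl
  · have hWc : ∀ a ∈ W, ∀ b ∈ W, a * b = b * a := by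
      intro a ha b hb
      have := (IsPGroup.isMulCommutative_of_card_eq_prime_sq hj).is_comm.comm ⟨a, ha⟩ ⟨b, hb⟩
      exact congrArg Subtype.val this
    have hWR : W ≤ R := by
      intro w hw
      rw [Subgroup.mem_centralizer_iff]
      intro y hy
      exact hWc y hy w hw
    have hAR : A = R := sup_eq_right.mpr hWR
    rw [hAR]
    refine hRSidx.trans ?_
    exact Nat.pow_le_pow_right hpp.pos (by decide)
  · have hne : ¬ W ≤ R := by
      intro hWR
      have h5 := hr W ⟨⟨fun a b => Subtype.ext (hcommR a a.2 b (hWR b.2))⟩⟩ (fun a ha => hWe a ha)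
      rw [hj] at h5
      have := (Nat.pow_le_pow_iff_right hpp.one_lt).mp h5
      omega
    have h5 := Subgroup.relIndex_mul_relIndex R A S hRA hAS
    have h6 : p ≤ R.relIndex A := by
      apply p_le_of_ne_one
      · have h7 : R.relIndex A ∣ Nat.card A := by
          have := (R.subgroupOf A).index_mul_card
          exact ⟨_, this.symm⟩
        have hAp : IsPGroup p A := hSp.to_le hAS
        obtain ⟨k, hk⟩ := IsPGroup.iff_card.mp hAp
        rw [hk] at h7
        obtain ⟨i, -, hi⟩ := (Nat.dvd_prime_pow hpp).mp h7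
        exact ⟨i, hi⟩
      · intro h7
        have h8 : A ≤ R := by
          have := Subgroup.relIndex_eq_one.mp h7
          exact this
        exact hne (le_sup_left.trans h8)
    have h7 : p * A.relIndex S ≤ p * p ^ 2 := by
      calc p * A.relIndex S ≤ R.relIndex A * A.relIndex S := Nat.mul_le_mul_right _ h6
        _ = R.relIndex S := h5
        _ ≤ p ^ (Nat.choose 3 2) := hRSidx
        _ = p * p ^ 2 := by
          rw [show Nat.choose 3 2 = 3 from rfl]
          ring
    exact Nat.le_of_mul_le_mul_left h7 hpp.pos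

/-- The theorem when `O_{p'}(G) = 1`. -/
theorem core (hp2 : p ≠ 2) (hsol : IsPSolvable p G) (hb : pPrimeCore p G = ⊥) (hr : PRankLE p 2 G)
    {K H : Subgroup G} (c : ChiefF K H) (hpow : ∃ n : ℕ, K.relIndex H = p ^ n) :
    K.relIndex H ≤ p ^ 2 := by
  classical
  have hpp := hp.out
  set Q := pCore p G with hQdef
  have hQn : Q.Normal := inferInstance
  have hQp : IsPGroup p Q := Cfsg.Agent.Lib.PCore.isPGroup_pCore p
  have hCQ : centralizer (Q : Set G) ≤ Q := Cfsg.Agent.Lib.PSolv.centralizer_pCore_le_of_pSolvable hsol hb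
  obtain ⟨C, hcc, hc1, hc2, hc3⟩ := Cfsg.Agent.S0093.result hQp
  -- characteristic subgroups of `Q` are normal in `G`
  have hnormal : ∀ U : Subgroup Q, U.Characteristic → (U.map Q.subtype).Normal := by
    intro U hU
    constructor
    rintro _ ⟨x, hx, rfl⟩ g
    have h1 := hU.fixed (MulAut.conjNormal g)
    have h2 : x ∈ U.comap (MulAut.conjNormal g).toMonoidHom := by
      rw [h1]
      exact hx
    exact ⟨_, h2, rfl⟩
  set Ĉ := C.map Q.subtype with hĈ
  have hĈn : Ĉ.Normal := hnormal C hcc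
  have hĈQ : Ĉ ≤ Q := Subgroup.map_subtype_le _
  have hĈp : IsPGroup p Ĉ := hQp.to_le hĈQ
  -- `p'`-elements centralizing `Ĉ`
  have hfix1 : ∀ y : G, (orderOf y).Coprime p → (∀ x ∈ Ĉ, y * x = x * y) → y = 1 := by
    intro y hy hyc
    have hco : (orderOf (MulAut.conjNormal y : MulAut Q)).Coprime p :=
      Nat.Coprime.coprime_dvd_left (orderOf_map_dvd (MulAut.conjNormal : G →* MulAut Q) y) hy
    have h1 := Cfsg.Agent.S0121.result hQp C hcc hc1 hc2 hc3 (MulAut.conjNormal y) hco (by
      intro x hx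
      apply Subtype.ext
      rw [MulAut.conjNormal_apply, hyc x ⟨x, hx, rfl⟩]
      group)
    have h2 : y ∈ centralizer (Q : Set G) := by
      rw [Subgroup.mem_centralizer_iff]
      intro q hq
      have h3 := congrArg (fun α : MulAut Q => ((α ⟨q, hq⟩ : Q) : G)) h1
      simp only [MulAut.conjNormal_apply, MulAut.one_apply] at h3
      calc q * y = (y * q * y⁻¹) * y := by rw [h3]
        _ = y * q := by group
    have h3 := hCQ h2
    obtain ⟨k, hk⟩ := hQp ⟨y, h3⟩
    have h4 : y ^ p ^ k = 1 := by simpa using congrArg Subtype.val hk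
    have h5 := orderOf_dvd_of_pow_eq_one h4
    have h6 : (orderOf y).Coprime (p ^ k) := Nat.Coprime.pow_right k hy
    exact orderOf_eq_one_iff.mp (Nat.Coprime.eq_one_of_dvd h6 h5)
  by_cases hcyc : IsCyclic C
  · -- cyclic case
    have hĈc : IsCyclic Ĉ := by
      have e := C.equivMapOfInjective Q.subtype Q.subtype_injective
      exact isCyclic_of_surjective e e.surjective
    have hDp : IsPGroup p (centralizer (Ĉ : Set G)) :=
      Cfsg.Agent.Lib.RankTwoRep.isPGroup_of_forall_coprime _ (fun g hg hgc =>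
        hfix1 g hgc (fun x hx => (Subgroup.mem_centralizer_iff.mp hg x hx).symm))
    have hDQ : centralizer (Ĉ : Set G) ≤ Q := Cfsg.Agent.Lib.PCore.le_pCore inferInstance hDp
    have hcc' : centralizer (Ĉ : Set G) ≤ Ĉ := by
      intro z hz
      have hzQ := hDQ hz
      have h1 : (⟨z, hzQ⟩ : Q) ∈ centralizer (C : Set Q) := by
        rw [Subgroup.mem_centralizer_iff]
        intro y hy
        apply Subtype.ext
        exact Subgroup.mem_centralizer_iff.mp hz y ⟨y, hy, rfl⟩
      exact ⟨_, hc3 h1, rfl⟩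
    refine (cyc_case Ĉ hcc' c hpow).trans ?_
    calc p = p ^ 1 := (pow_one p).symm
      _ ≤ p ^ 2 := Nat.pow_le_pow_right hpp.pos (by norm_num)
  -- the main case
  set X := Cfsg.Agent.Lib.RankTwoRep.omegaCrit (p := p) C hp2 hc2 with hX
  have hXc : X.Characteristic := by
    rw [Subgroup.characteristic_iff_le_comap]
    intro α x hx
    refine ⟨?_, ?_⟩
    · have h := hcc.fixed α
      have h2 : x ∈ C.comap α.toMonoidHom := by
        rw [h]
        exact hx.1
      exact h2
    · show (α x) ^ p = 1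
      rw [← map_pow, hx.2, map_one]
  set W := X.map Q.subtype with hW
  have hWn : W.Normal := hnormal X hXc
  have hWQ : W ≤ Q := Subgroup.map_subtype_le _
  have hWp : IsPGroup p W := hQp.to_le hWQ
  have hWe : ∀ w ∈ W, w ^ p = 1 := by
    rintro _ ⟨x, hx, rfl⟩
    have := hx.2
    simpa using congrArg Subtype.val this
  have hWcard : Nat.card W = Nat.card X := Subgroup.card_map_of_injective Q.subtype_injective
  have hXp : IsPGroup p X := hQp.to_subgroup X
  -- upper bound
  have hW3 : Nat.card W ≤ p ^ 3 := by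
    rw [hWcard]
    apply Cfsg.Agent.Lib.RankTwoRep.card_le_cube_of_exponent hXp
    intro A hA
    have hinj : Function.Injective (Q.subtype.comp X.subtype) :=
      Q.subtype_injective.comp X.subtype_injective
    have h := hr (A.map (Q.subtype.comp X.subtype)) ?_ ?_
    · rwa [Subgroup.card_map_of_injective hinj] at h
    · refine ⟨⟨?_⟩⟩
      rintro ⟨_, a, ha, rfl⟩ ⟨_, b, hb, rfl⟩
      apply Subtype.ext
      have h1 := hA.is_comm.comm (⟨a, ha⟩ : A) ⟨b, hb⟩
      have h2 : a * b = b * a := congrArg Subtype.val h1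
      have h3 := congrArg (Q.subtype.comp X.subtype) h2
      simpa using h3
    · rintro _ ⟨a, ha, rfl⟩
      have h1 := a.2.2
      simpa using congrArg Subtype.val h1
  -- lower bound
  have hW2 : p ^ 2 ≤ Nat.card W := by
    rw [hWcard]
    have hCp : IsPGroup p C := hQp.to_subgroup C
    obtain ⟨m, hm⟩ := IsPGroup.iff_card.mp hCp
    have hm2 : 1 < m := by
      by_contra hlt
      apply hcyc
      have h0 : m = 0 ∨ m = 1 := by omega
      rcases h0 with rfl | rfl
      · rw [pow_zero] at hm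
        have : Subsingleton C := (Nat.card_eq_one_iff_unique.mp hm).1
        exact isCyclic_of_subsingleton
      · rw [pow_one] at hm
        exact isCyclic_of_prime_card hm
    have hk := Cfsg.Agent.Lib.KulakoffOdd.kulakoff_odd hp2 m C hm hcyc 1 le_rfl hm2
    have hcnt : 1 < Cfsg.Agent.Lib.KulakoffOdd.cnt C (p ^ 1) := by
      have h3 : 3 ≤ p := by
        have := hpp.two_le
        omega
      by_contra hle
      have hle' : Cfsg.Agent.Lib.KulakoffOdd.cnt C (p ^ 1) ≤ 1 := by omega
      have h1 : (1 + p) % p ^ 2 = 1 + p := Nat.mod_eq_of_lt (by nlinarith)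
      have h2 : Cfsg.Agent.Lib.KulakoffOdd.cnt C (p ^ 1) % p ^ 2 = Cfsg.Agent.Lib.KulakoffOdd.cnt C (p ^ 1) :=
        Nat.mod_eq_of_lt (by nlinarith)
      have h4 : Cfsg.Agent.Lib.KulakoffOdd.cnt C (p ^ 1) = 1 + p := by
        rw [← h2, ← h1]
        exact hk
      omega
    have hnt : Nontrivial {H : Subgroup C // Nat.card H = p ^ 1} :=
      Finite.one_lt_card_iff_nontrivial.mp hcnt
    obtain ⟨⟨A, hA⟩, ⟨B, hB⟩, hAB⟩ := hnt.exists_pair_ne
    have hle : ∀ D : Subgroup C, Nat.card D = p ^ 1 → D.map C.subtype ≤ X := by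
      rintro D hD _ ⟨d, hd, rfl⟩
      refine ⟨d.2, ?_⟩
      have h1 : (⟨d, hd⟩ : D) ^ Nat.card D = 1 := pow_card_eq_one'
      rw [hD, pow_one] at h1
      have h2 : d ^ p = 1 := congrArg Subtype.val h1
      have h3 := congrArg Subtype.val h2
      simpa using h3
    obtain ⟨i, hi⟩ := IsPGroup.iff_card.mp hXp
    rw [hi]
    apply Nat.pow_le_pow_right hpp.pos
    by_contra hi2
    have hile : Nat.card X ≤ p ^ 1 := by
      rw [hi]
      exact Nat.pow_le_pow_right hpp.pos (by omega)
    have heq : ∀ D : Subgroup C, Nat.card D = p ^ 1 → D.map C.subtype = X := by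
      intro D hD
      apply Subgroup.eq_of_le_of_card_ge (hle D hD)
      rw [Subgroup.card_map_of_injective C.subtype_injective, hD]
      exact hile
    apply hAB
    apply Subtype.ext
    exact Subgroup.map_injective C.subtype_injective ((heq A hA).trans (heq B hB).symm)
  -- the centralizer is a `p`-group
  have hRp : IsPGroup p (centralizer (W : Set G)) := by
    apply Cfsg.Agent.Lib.RankTwoRep.isPGroup_of_forall_coprime
    intro y hy hyc
    apply hfix1 y hyc
    apply Cfsg.Agent.Lib.OddLocalA.thompson_omega hp2 y hyc Ĉ hĈp (fun x hx => hĈn.conj_mem x hx y)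
    rintro _ ⟨x, hx, rfl⟩ hxp
    have h1 : x ^ p = 1 := by
      apply Subtype.ext
      simpa using hxp
    exact (Subgroup.mem_centralizer_iff.mp hy _ ⟨x, ⟨hx, h1⟩, rfl⟩).symm
  exact noncyc_case hp2 hr W hWp hWe hW2 hW3 hRp c hpow

end Cfsg.Agent.S1895

namespace Cfsg.Agent.S1895

/-- Let p be an odd prime and G a finite p-solvable group with no elementary abelian subgroup of order p³. Then every chief factor H/K of G (H, K normal in G with no normal subgroup of G strictly between them) whose order is a power of p has order p or p². -/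
theorem result {G : Type*} [Group G] [Finite G] {p : ℕ} [Fact p.Prime] (hp : p ≠ 2)
    (hG : Cfsg.IsPSolvable p G) (hr : Cfsg.PRankLE p 2 G)
    (H K : Subgroup G) [H.Normal] [K.Normal] (hKH : K < H) (hpow : ∃ n : ℕ, K.relIndex H = p ^ n)
    (hchief : ∀ L : Subgroup G, L.Normal → K ≤ L → L ≤ H → L = K ∨ L = H) :
    K.relIndex H = p ∨ K.relIndex H = p ^ 2 := by
  have hpp : p.Prime := Fact.out
  have c : Cfsg.Agent.H28.ChiefRank.ChiefF K H := ⟨inferInstance, inferInstance, hKH, hchief⟩
  obtain ⟨n, hn⟩ := hpow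
  have hn0 : n ≠ 0 := by
    rintro rfl
    rw [pow_zero] at hn
    exact hKH.not_ge (Subgroup.relIndex_eq_one.mp hn)
  set L := pPrimeCore p G with hL
  have hLn : L.Normal := inferInstance
  have hLc : (Nat.card L).Coprime p := Cfsg.Agent.Lib.PCore.card_pPrimeCore_coprime p
  have hle : K.relIndex H ≤ p ^ 2 := by
    rcases c.dich L with h | h
    · obtain ⟨hc', hidx⟩ := c.push (QuotientGroup.mk' L) (QuotientGroup.mk'_surjective L)
        (by rwa [QuotientGroup.ker_mk'])
      rw [← hidx]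
      refine core hp (Cfsg.Agent.Lib.PSolv.isPSolvable_quotient hG L)
        Cfsg.Agent.Lib.PConstr.pPrimeCore_quotient_eq_bot
        (Cfsg.Agent.Lib.QdSec.prankLE_quot L ?_ hr) hc' ⟨n, hidx.trans hn⟩
      intro hd
      have := Nat.Coprime.eq_one_of_dvd hLc.symm hd
      exact hpp.one_lt.ne' this
    · exfalso
      have e1 : K.relIndex H = K.relIndex (H ⊓ L) := by
        conv_lhs => rw [← h]
        exact Subgroup.relIndex_sup_left _ _
      have h1 : K.relIndex (H ⊓ L) ∣ Nat.card (H ⊓ L : Subgroup G) := by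
        unfold Subgroup.relIndex
        exact ⟨_, ((K.subgroupOf (H ⊓ L)).index_mul_card).symm⟩
      have h2 : Nat.card (H ⊓ L : Subgroup G) ∣ Nat.card L := Subgroup.card_dvd_of_le inf_le_right
      have h3 : p ^ n ∣ Nat.card L := by
        rw [← hn, e1]
        exact h1.trans h2
      have h4 : p ∣ Nat.card L := (dvd_pow_self p hn0).trans h3
      have := Nat.Coprime.eq_one_of_dvd hLc.symm h4
      exact hpp.one_lt.ne' this
  rw [hn] at hle ⊢
  have hn2 : n ≤ 2 := (Nat.pow_le_pow_iff_right hpp.one_lt).mp hle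
  rcases (by omega : n = 1 ∨ n = 2) with rfl | rfl
  · left
    exact pow_one p
  · right
    rfl

end Cfsg.Agent.S1895
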