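import Mathlib
import Cfsg.Statements.S1898

set_option autoImplicit false
open Cfsg

namespace Cfsg.Agent.S1898

open scoped commutatorElement

theorem aux_sq {X : Type*} [Group X] (x y c : X) (h1 : y * x = c * (x * y))
    (h2 : ∀ z : X, c * z = z * c) (hc : c ^ 2 = 1) : y * x ^ 2 = x ^ 2 * y := by
  have hc' : c * c = 1 := by rw [← pow_two]; exact hc
  calc y * x ^ 2 = (y * x) * x := by rw [pow_two, mul_assoc]
    _ = (c * (x * y)) * x := by rw [h1]
    _ = c * (x * (y * x)) := by simp only [mul_assoc]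
    _ = c * (x * (c * (x * y))) := by rw [h1]
    _ = c * ((x * c) * (x * y)) := by simp only [mul_assoc]
    _ = c * ((c * x) * (x * y)) := by rw [h2 x]
    _ = (c * c) * (x ^ 2 * y) := by simp only [mul_assoc, pow_two]
    _ = x ^ 2 * y := by rw [hc', one_mul]

theorem aux_sq2 {X : Type*} [Group X] (x y c : X) (h1 : y * x = c * (x * y))
    (h2 : ∀ z : X, c * z = z * c) : (x * y) ^ 2 = c * (x ^ 2 * y ^ 2) := by
  calc (x * y) ^ 2 = x * (y * x) * y := by simp only [mul_assoc, pow_two]
    _ = x * (c * (x * y)) * y := by rw [h1]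
    _ = (x * c) * (x * y) * y := by simp only [mul_assoc]
    _ = (c * x) * (x * y) * y := by rw [h2 x]
    _ = c * (x ^ 2 * y ^ 2) := by simp only [mul_assoc, pow_two]

theorem aux_four {X : Type*} [Group X] (x y c : X) (h1 : y * x = c * (x * y))
    (h2 : ∀ z : X, c * z = z * c) (hc : c ^ 2 = 1)
    (hsq : y ^ 2 * x ^ 2 = x ^ 2 * y ^ 2) : (x * y) ^ 4 = x ^ 4 * y ^ 4 := by
  have hc' : c * c = 1 := by rw [← pow_two]; exact hc
  have e1 := aux_sq2 x y c h1 h2
  calc (x * y) ^ 4 = ((x * y) ^ 2) * ((x * y) ^ 2) := by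
        rw [← pow_add]
    _ = (c * (x ^ 2 * y ^ 2)) * (c * (x ^ 2 * y ^ 2)) := by rw [e1]
    _ = c * ((x ^ 2 * y ^ 2) * c) * (x ^ 2 * y ^ 2) := by simp only [mul_assoc]
    _ = c * (c * (x ^ 2 * y ^ 2)) * (x ^ 2 * y ^ 2) := by rw [h2 (x ^ 2 * y ^ 2)]
    _ = (c * c) * (x ^ 2 * (y ^ 2 * x ^ 2) * y ^ 2) := by simp only [mul_assoc]
    _ = x ^ 2 * (x ^ 2 * y ^ 2) * y ^ 2 := by rw [hc', one_mul, hsq]
    _ = x ^ 4 * y ^ 4 := by
      have e2 : x ^ 4 = x ^ 2 * x ^ 2 := by rw [← pow_add]
      have e3 : y ^ 4 = y ^ 2 * y ^ 2 := by rw [← pow_add]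
      rw [e2, e3]
      simp only [mul_assoc]

theorem result {X : Type*} [Group X] [Finite X] (hX : IsPGroup 2 X)
    (hel : Cfsg.IsElementaryAbelian 2 (commutator X)) (hcen : commutator X ≤ Subgroup.center X) :
    (∀ x ∈ Subgroup.closure {g : X | g ^ 4 = 1}, x ^ 4 = 1) ∧
      ∀ φ : MulAut X, (∀ g : X, g ^ 4 = 1 → φ g = g) → ∃ k : ℕ, φ ^ (2 ^ k) = 1 := by
  -- commutators are central involutions
  have hc : ∀ x y : X, ⁅x, y⁆ ∈ Subgroup.center X :=
    fun x y => hcen (Subgroup.commutator_mem_commutator (Subgroup.mem_top x) (Subgroup.mem_top y))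
  have hc2 : ∀ x y : X, ⁅x, y⁆ ^ 2 = 1 := fun x y =>
    hel.2 _ (Subgroup.commutator_mem_commutator (Subgroup.mem_top x) (Subgroup.mem_top y))
  have hcomm : ∀ (c : X), c ∈ Subgroup.center X → ∀ z : X, c * z = z * c := fun c hc z =>
    (Subgroup.mem_center_iff.mp hc z).symm
  -- y x = ⁅y, x⁆ x y
  have hyx : ∀ x y : X, y * x = ⁅y, x⁆ * (x * y) := by
    intro x y
    rw [commutatorElement_def]
    group
  -- squares are central
  have hsq : ∀ x y : X, y * x ^ 2 = x ^ 2 * y := fun x y =>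
    aux_sq x y _ (hyx x y) (hcomm _ (hc y x)) (hc2 y x)
  have h4 : ∀ x y : X, (x * y) ^ 4 = x ^ 4 * y ^ 4 := fun x y =>
    aux_four x y _ (hyx x y) (hcomm _ (hc y x)) (hc2 y x) (hsq x (y ^ 2))
  constructor
  · intro x hx
    induction hx using Subgroup.closure_induction with
    | mem x hx => exact hx
    | one => simp
    | mul x y _ _ hx hy => rw [h4, hx, hy, one_mul]
    | inv x _ hx => rw [inv_pow, hx, inv_one]
  · intro φ hφ
    have hm : orderOf φ ≠ 0 := (orderOf_pos φ).ne'
    obtain ⟨k, n, hn, hk⟩ := Nat.exists_eq_two_pow_mul_odd hm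
    refine ⟨k, ?_⟩
    set ψ := φ ^ (2 ^ k) with hψ
    have hψn : ψ ^ n = 1 := by
      rw [hψ, ← pow_mul, ← hk, pow_orderOf_eq_one]
    have hψfix : ∀ g : X, g ^ 4 = 1 → ψ g = g := by
      intro g hg
      rw [hψ]
      generalize 2 ^ k = r
      induction r with
      | zero => simp
      | succ r ih =>
        rw [pow_succ, MulAut.mul_apply, hφ g hg, ih]
    have main : ∀ j : ℕ, ∀ g : X, g ^ (2 ^ j) = 1 → ψ g = g := by
      intro j
      induction j with
      | zero =>
        intro g hg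
        have : g = 1 := by simpa using hg
        simp [this]
      | succ j ih =>
        intro g hg
        have hg2 : (g ^ 2) ^ (2 ^ j) = 1 := by
          rw [← pow_mul, ← pow_succ']; exact hg
        have e1 : ψ (g ^ 2) = g ^ 2 := ih _ hg2
        have e2 : ψ (g ^ 4) = g ^ 4 := by
          have : g ^ 4 = g ^ 2 * g ^ 2 := by rw [← pow_add]
          rw [this, map_mul, e1]
        obtain ⟨ω, hω⟩ : ∃ ω, ω = ψ g * g⁻¹ := ⟨_, rfl⟩
        have hω4 : ω ^ 4 = 1 := by
          rw [hω, h4, ← map_pow, e2, inv_pow, mul_inv_cancel]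
        have hωfix : ψ ω = ω := hψfix ω hω4
        have hψg : ψ g = ω * g := by rw [hω, inv_mul_cancel_right]
        have hpow : ∀ i : ℕ, (ψ ^ i) g = ω ^ i * g := by
          intro i
          induction i with
          | zero => simp
          | succ i ih2 =>
            rw [pow_succ', MulAut.mul_apply, ih2, map_mul, map_pow, hωfix, hψg, pow_succ,
              mul_assoc]
        have h5 := hpow n
        rw [hψn] at h5
        have h6 : ω ^ n = 1 := by
          have : (1 : MulAut X) g = g := rfl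
          rw [this] at h5
          have h7 : ω ^ n * g = 1 * g := by rw [one_mul]; exact h5.symm
          exact mul_right_cancel h7
        have h7 : ω = 1 := by
          have hcop : Nat.Coprime 4 n := by
            have : (4 : ℕ) = 2 ^ 2 := by norm_num
            rw [this]
            exact Nat.Coprime.pow_left 2 (Nat.coprime_two_left.mpr hn)
          have hd1 : orderOf ω ∣ 4 := orderOf_dvd_of_pow_eq_one hω4
          have hd2 : orderOf ω ∣ n := orderOf_dvd_of_pow_eq_one h6
          have : orderOf ω = 1 := Nat.eq_one_of_dvd_coprimes hcop hd1 hd2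
          exact orderOf_eq_one_iff.mp this
        rw [hψg, h7, one_mul]
    ext g
    obtain ⟨j, hj⟩ := (IsPGroup.iff_orderOf.mp hX) g
    have : g ^ (2 ^ j) = 1 := by rw [← hj]; exact pow_orderOf_eq_one g
    exact main j g this

end Cfsg.Agent.S1898
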