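import Mathlib
import Cfsg.Statements.S1899

set_option autoImplicit false
open Cfsg

namespace Cfsg.Agent.S1899

theorem result {A : Type*} [CommGroup A] [Finite A] (hA : IsPGroup 2 A)
    {n : ℕ} (hn : Odd n) (hn1 : 1 < n) (d t : MulAut A) (hd : d ^ n = 1) (ht : t ^ 2 = 1) (hdt : t * d * t⁻¹ = d⁻¹)
    (hfix : ∀ a : A, d a = a → a = 1) :
    (MulEquiv.toMonoidHom t).eqLocus (MonoidHom.id A) ⊓ ((MulEquiv.toMonoidHom t).eqLocus (MonoidHom.id A)).map d.toMonoidHom = ⊥ ∧
      (MulEquiv.toMonoidHom t).eqLocus (MonoidHom.id A) ⊔ ((MulEquiv.toMonoidHom t).eqLocus (MonoidHom.id A)).map d.toMonoidHom = ⊤ := by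
  have htd : t * d = d⁻¹ * t := by
    rw [← hdt]; group
  have h1 : ∀ x, t (d x) = d⁻¹ (t x) := fun x => by
    have := congrArg (fun f : MulAut A => f x) htd
    simpa [MulAut.mul_apply] using this
  have h2 : ∀ x, t (t x) = x := fun x => by
    have := congrArg (fun f : MulAut A => f x) ht
    simpa [pow_two, MulAut.mul_apply] using this
  have hdd : ∀ x, d (d⁻¹ x) = x := fun x => by
    have : d * d⁻¹ = 1 := mul_inv_cancel d
    have := congrArg (fun f : MulAut A => f x) this
    simpa [MulAut.mul_apply] using this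
  have hdd' : ∀ x, d⁻¹ (d x) = x := fun x => by
    have : d⁻¹ * d = 1 := inv_mul_cancel d
    have := congrArg (fun f : MulAut A => f x) this
    simpa [MulAut.mul_apply] using this
  have h3 : ∀ x, t (d⁻¹ x) = d (t x) := fun x => by
    have := h1 (d⁻¹ x)
    rw [hdd] at this
    rw [this, hdd]
  -- d² has no fixed points
  have hfix2 : ∀ y : A, d y = d⁻¹ y → y = 1 := by
    intro y hy
    have hyy : d (d y) = y := by rw [hy, hdd]
    have hpow : ∀ k : ℕ, (d ^ (2 * k)) y = y := by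
      intro k
      induction k with
      | zero => simp
      | succ k ih =>
        have : d ^ (2 * (k + 1)) = d ^ (2 * k) * (d * d) := by
          rw [Nat.mul_succ, pow_add, pow_two]
        rw [this, MulAut.mul_apply, MulAut.mul_apply, hyy, ih]
    obtain ⟨m, hm⟩ := hn
    have h4 : d ^ (2 * (m + 1)) = d := by
      have : 2 * (m + 1) = n + 1 := by omega
      rw [this, pow_succ, hd, one_mul]
    have h5 := hpow (m + 1)
    rw [h4] at h5
    exact hfix y h5
  constructor
  · rw [eq_bot_iff]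
    rintro x ⟨hx1, y, hy, rfl⟩
    have hy' : t y = y := hy
    have hx1' : t (d y) = d y := hx1
    rw [h1, hy'] at hx1'
    have : y = 1 := hfix2 y hx1'.symm
    simp [this]
  · rw [eq_top_iff]
    rintro a -
    -- the map y ↦ d y * (d⁻¹ y)⁻¹
    let φ : A →* A :=
      (d.toMonoidHom).comp (MonoidHom.id A) * ((d⁻¹ : MulAut A).toMonoidHom.comp (MonoidHom.id A))⁻¹
    have hφ : ∀ y, φ y = d y * (d⁻¹ y)⁻¹ := fun y => rfl
    have hinj : Function.Injective φ := by
      rw [injective_iff_map_eq_one]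
      intro y hy
      rw [hφ, mul_inv_eq_one] at hy
      exact hfix2 y hy
    have hsurj : Function.Surjective φ := Finite.surjective_of_injective hinj
    obtain ⟨y, hy⟩ := hsurj (a * (t a)⁻¹)
    have hty : t y = y := by
      apply hinj
      rw [hy, hφ]
      have e1 : d (t y) = t (d⁻¹ y) := (h3 y).symm
      have e2 : d⁻¹ (t y) = t (d y) := (h1 y).symm
      rw [e1, e2]
      have e3 : d y * (d⁻¹ y)⁻¹ = a * (t a)⁻¹ := by rw [← hφ, hy]
      have e4 : t (d y * (d⁻¹ y)⁻¹) = t (a * (t a)⁻¹) := by rw [e3]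
      rw [map_mul, map_inv, map_mul, map_inv, h2] at e4
      -- t(dy) * (t(d⁻¹y))⁻¹ = t a * a⁻¹
      have e5 : t (d⁻¹ y) * (t (d y))⁻¹ = (t (d y) * (t (d⁻¹ y))⁻¹)⁻¹ := by
        simp
      rw [e5, e4]
      simp
    have hmem1 : d y ∈ ((MulEquiv.toMonoidHom t).eqLocus (MonoidHom.id A)).map d.toMonoidHom :=
      ⟨y, hty, rfl⟩
    have hmem2 : a * (d y)⁻¹ ∈ (MulEquiv.toMonoidHom t).eqLocus (MonoidHom.id A) := by
      show t (a * (d y)⁻¹) = a * (d y)⁻¹
      rw [map_mul, map_inv, h1, hty]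
      have e3 : d y * (d⁻¹ y)⁻¹ = a * (t a)⁻¹ := by rw [← hφ, hy]
      have e6 : t a * (d⁻¹ y)⁻¹ = a * (d y)⁻¹ := by
        rw [mul_inv_eq_iff_eq_mul] at e3
        rw [e3]
        simp [mul_comm, mul_left_comm]
      exact e6
    have : a = (a * (d y)⁻¹) * d y := by group
    rw [this]
    exact Subgroup.mul_mem_sup hmem2 hmem1

end Cfsg.Agent.S1899
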