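import Mathlib
import Cfsg.Statements.S1900
import Cfsg.Agent.Lib.CoprimeHyper
import Cfsg.Agent.Lib.PResid
import Cfsg.Agent.Lib.PCore
import Cfsg.Agent.Lib.FStarAct
import Cfsg.Agent.Lib.CharTwoLocal
-- import your own Cfsg.Agent.* helpers here

set_option autoImplicit false
open Cfsg

namespace Cfsg.Agent.S1900

open scoped commutatorElement

section Abs

variable {G : Type*} [Group G] [Finite G]

/-- The abstract key lemma. -/
theorem key_abs (U V : Subgroup G) (a : G)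
    (hcU : ∀ d ∈ ⁅U, V⁆, ∀ y ∈ U, y * d = d * y)
    (hcV : ∀ d ∈ ⁅U, V⁆, ∀ y ∈ V, y * d = d * y)
    (haU : ∀ u ∈ U, a * u = u * a)
    (haV : ∀ v ∈ V, a * v * a⁻¹ ∈ V)
    (hsurj : ∀ v ∈ V, ∃ g ∈ V, v = g⁻¹ * (a * g * a⁻¹))
    {d : G} (hd : d ∈ ⁅U, V⁆) (hda : d * a = a * d) : d = 1 := by
  obtain ⟨D, hD⟩ : ∃ D, D = ⁅U, V⁆ := ⟨_, rfl⟩
  rw [← hD] at hd hcU hcV
  have hDle : D ≤ U ⊔ V := by
    rw [hD, Subgroup.commutator_le]
    intro u hu v hv
    rw [commutatorElement_def]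
    have h1 : u ∈ U ⊔ V := Subgroup.mem_sup_left hu
    have h2 : v ∈ U ⊔ V := Subgroup.mem_sup_right hv
    exact (U ⊔ V).mul_mem ((U ⊔ V).mul_mem ((U ⊔ V).mul_mem h1 h2) ((U ⊔ V).inv_mem h1))
      ((U ⊔ V).inv_mem h2)
  have hab : ∀ e ∈ D, ∀ f ∈ D, e * f = f * e := by
    intro e he f hf
    have h1 : U ⊔ V ≤ Subgroup.centralizer ({e} : Set G) := by
      refine sup_le ?_ ?_
      · intro y hy
        rw [Subgroup.mem_centralizer_singleton_iff]
        exact hcU e he y hy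
      · intro y hy
        rw [Subgroup.mem_centralizer_singleton_iff]
        exact hcV e he y hy
    have h2 := h1 (hDle hf)
    rw [Subgroup.mem_centralizer_singleton_iff] at h2
    exact h2.symm
  have haD : ∀ e ∈ D, a * e * a⁻¹ ∈ D := by
    have h1 : D ≤ D.comap (MulAut.conj a).toMonoidHom := by
      conv_lhs => rw [hD]
      rw [Subgroup.commutator_le]
      intro u hu v hv
      show a * ⁅u, v⁆ * a⁻¹ ∈ D
      have e : a * ⁅u, v⁆ * a⁻¹ = ⁅a * u * a⁻¹, a * v * a⁻¹⁆ := by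
        simp only [commutatorElement_def]
        group
      rw [e, hD]
      apply Subgroup.commutator_mem_commutator _ (haV v hv)
      rw [haU u hu]
      simpa using hu
    exact fun e he => h1 he
  -- the image
  let R : Subgroup G :=
    { carrier := {x | ∃ e ∈ D, x = e⁻¹ * (a * e * a⁻¹)}
      one_mem' := ⟨1, D.one_mem, by simp⟩
      mul_mem' := by
        rintro _ _ ⟨e, he, rfl⟩ ⟨f, hf, rfl⟩
        refine ⟨e * f, D.mul_mem he hf, ?_⟩
        have h1 := hab _ (D.inv_mem hf) _ (D.mul_mem (D.inv_mem he) (haD e he))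
        have e1 : (e * f)⁻¹ * (a * (e * f) * a⁻¹) =
            f⁻¹ * (e⁻¹ * (a * e * a⁻¹)) * (a * f * a⁻¹) := by group
        rw [e1, h1]
        group
      inv_mem' := by
        rintro _ ⟨e, he, rfl⟩
        refine ⟨e⁻¹, D.inv_mem he, ?_⟩
        have h1 := hab e he _ (D.inv_mem (haD e he))
        have e1 : (e⁻¹ * (a * e * a⁻¹))⁻¹ = (a * e * a⁻¹)⁻¹ * e := by group
        have e2 : e⁻¹⁻¹ * (a * e⁻¹ * a⁻¹) = e * (a * e * a⁻¹)⁻¹ := by group
        rw [e1, e2, h1] }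
  have hDR : D ≤ R := by
    conv_lhs => rw [hD]
    rw [Subgroup.commutator_le]
    intro u hu v hv
    obtain ⟨g, hg, e⟩ := hsurj v hv
    have hcm : ⁅u, g⁆ ∈ D := by
      rw [hD]
      exact Subgroup.commutator_mem_commutator hu hg
    have hvm : ⁅u, v⁆ ∈ D := by
      rw [hD]
      exact Subgroup.commutator_mem_commutator hu hv
    refine ⟨⁅u, g⁆, hcm, ?_⟩
    have h1 := hcV _ hvm g hg
    have e1 : a * ⁅u, g⁆ * a⁻¹ = ⁅u, a * g * a⁻¹⁆ := by
      have e2 : a * ⁅u, g⁆ * a⁻¹ = ⁅a * u * a⁻¹, a * g * a⁻¹⁆ := by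
        simp only [commutatorElement_def]
        group
      rw [e2, haU u hu]
      simp
    rw [e1]
    have e3 : ⁅u, g⁆⁻¹ * ⁅u, a * g * a⁻¹⁆ = g * ⁅u, v⁆ * g⁻¹ := by
      rw [e]
      simp only [commutatorElement_def]
      group
    rw [e3, h1]
    group
  let m : ↥D → ↥D := fun e => ⟨e⁻¹ * (a * e * a⁻¹), D.mul_mem (D.inv_mem e.2) (haD e e.2)⟩
  have hm : Function.Surjective m := by
    rintro ⟨y, hy⟩
    obtain ⟨e, he, h⟩ := hDR hy
    exact ⟨⟨e, he⟩, Subtype.ext h.symm⟩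
  have hm' : Function.Injective m := Finite.injective_iff_surjective.mpr hm
  have h1 : m ⟨d, hd⟩ = m ⟨1, D.one_mem⟩ := by
    apply Subtype.ext
    show d⁻¹ * (a * d * a⁻¹) = 1⁻¹ * (a * 1 * a⁻¹)
    rw [← hda]
    group
  have h2 := hm' h1
  exact congrArg Subtype.val h2

end Abs

variable {S : Type*} [Group S] [Finite S]

theorem exists_of_free {V : Subgroup S} {x : S} (hxV : ∀ v ∈ V, x * v * x⁻¹ ∈ V)
    (hfree : ∀ y ∈ V, y * x = x * y → y = 1) :
    ∀ v ∈ V, ∃ g ∈ V, v = g⁻¹ * (x * g * x⁻¹) := by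
  let m : ↥V → ↥V := fun e => ⟨e⁻¹ * (x * e * x⁻¹), V.mul_mem (V.inv_mem e.2) (hxV e e.2)⟩
  have hm : Function.Injective m := by
    rintro ⟨e, he⟩ ⟨f, hf⟩ h
    have h1 : e⁻¹ * (x * e * x⁻¹) = f⁻¹ * (x * f * x⁻¹) := congrArg Subtype.val h
    have h2 : f * e⁻¹ ∈ V := V.mul_mem hf (V.inv_mem he)
    have h3 : (f * e⁻¹) * x = x * (f * e⁻¹) := by
      have h4 : f * e⁻¹ = x * f * x⁻¹ * (x * e * x⁻¹)⁻¹ := by
        have : x * f * x⁻¹ = f * (e⁻¹ * (x * e * x⁻¹)) := by
          rw [h1]; group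
        rw [this]; group
      calc (f * e⁻¹) * x = (x * f * x⁻¹ * (x * e * x⁻¹)⁻¹) * x := by rw [← h4]
        _ = x * (f * e⁻¹) := by group
    have h5 := hfree _ h2 h3
    apply Subtype.ext
    have h6 : f = e := by
      have := mul_inv_eq_one.mp h5
      exact this
    exact h6.symm
  have hm' : Function.Surjective m := Finite.surjective_of_injective hm
  intro v hv
  obtain ⟨⟨g, hg⟩, h⟩ := hm' ⟨v, hv⟩
  exact ⟨g, hg, (congrArg Subtype.val h).symm⟩

/-- The modular step. -/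
theorem fix_mem {L L' U V P : Subgroup S} [hL' : L'.Normal] {x : S}
    (hUV : ⁅U, V⁆ ≤ L) (hLP : ⁅L, P⁆ ≤ L') (hUP : U ≤ P) (hVP : V ≤ P)
    (hxU : ∀ u ∈ U, x * u = u * x) (hxV : ∀ v ∈ V, x * v * x⁻¹ ∈ V)
    (hfree : ∀ y ∈ V, y * x = x * y → y = 1)
    {w : S} (hw : w ∈ ⁅U, V⁆ ⊔ L') (hwx : w * x = x * w) : w ∈ L' := by
  let π := QuotientGroup.mk' L'
  have hker : ∀ z, π z = 1 ↔ z ∈ L' := by
    intro z
    rw [← MonoidHom.mem_ker, QuotientGroup.ker_mk']
  have hsurj := exists_of_free hxV hfree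
  have hcomm : ∀ c ∈ L, ∀ y ∈ P, π y * π c = π c * π y := by
    intro c hc y hy
    have h1 : ⁅c, y⁆ ∈ L' := hLP (Subgroup.commutator_mem_commutator hc hy)
    have h2 := (hker _).mpr h1
    rw [map_commutatorElement, commutatorElement_eq_one_iff_mul_comm] at h2
    exact h2.symm
  have hmem : π w ∈ ⁅U.map π, V.map π⁆ := by
    rw [← Subgroup.map_commutator]
    have h1 : π w ∈ (⁅U, V⁆ ⊔ L').map π := ⟨w, hw, rfl⟩
    rw [Subgroup.map_sup] at h1
    have h2 : L'.map π = ⊥ := by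
      rw [eq_bot_iff]
      rintro _ ⟨z, hz, rfl⟩
      exact (hker z).mpr hz
    rwa [h2, sup_bot_eq] at h1
  have h := key_abs (U.map π) (V.map π) (π x) ?_ ?_ ?_ ?_ ?_ hmem ?_
  · exact (hker w).mp h
  · intro d hd y hy
    rw [← Subgroup.map_commutator] at hd
    obtain ⟨c, hc, rfl⟩ := hd
    obtain ⟨u, hu, rfl⟩ := hy
    exact hcomm c (hUV hc) u (hUP hu)
  · intro d hd y hy
    rw [← Subgroup.map_commutator] at hd
    obtain ⟨c, hc, rfl⟩ := hd
    obtain ⟨u, hu, rfl⟩ := hy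
    exact hcomm c (hUV hc) u (hVP hu)
  · rintro _ ⟨u, hu, rfl⟩
    rw [← map_mul, ← map_mul, hxU u hu]
  · rintro _ ⟨v, hv, rfl⟩
    exact ⟨x * v * x⁻¹, hxV v hv, by simp⟩
  · rintro _ ⟨v, hv, rfl⟩
    obtain ⟨g, hg, e⟩ := hsurj v hv
    refine ⟨π g, ⟨g, hg, rfl⟩, ?_⟩
    rw [e]
    simp
  · rw [← map_mul, ← map_mul, hwx]

theorem main {p q : ℕ} [Fact p.Prime] [Fact q.Prime] (hpq : p ≠ q)
    (P : Subgroup S) [hPn : P.Normal] (hPp : IsPGroup p ↥P) (Q : Subgroup S)
    (hQ : Cfsg.IsElementaryAbelian q Q) (hQc : Nat.card Q = q ^ 2)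
    (X₁ X₂ : Subgroup S) (h₁ : X₁ ≤ Q) (h₂ : X₂ ≤ Q) (h₁₂ : X₁ ≠ X₂) (hc₁ : Nat.card X₁ = q)
    (hc₂ : Nat.card X₂ = q)
    (honly : ∀ X : Subgroup S, X ≤ Q → Nat.card X = q →
      P ⊓ Subgroup.centralizer (X : Set S) ≠ ⊥ → X = X₁ ∨ X = X₂) :
    ⁅P ⊓ Subgroup.centralizer (X₁ : Set S), P ⊓ Subgroup.centralizer (X₂ : Set S)⁆ = ⊥ ∧
      (P ⊓ Subgroup.centralizer (X₁ : Set S)) ⊓ (P ⊓ Subgroup.centralizer (X₂ : Set S)) = ⊥ ∧
      (P ⊓ Subgroup.centralizer (X₁ : Set S)) ⊔ (P ⊓ Subgroup.centralizer (X₂ : Set S)) = P := by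
  have hq := (Fact.out : q.Prime)
  obtain ⟨U, hU⟩ : ∃ U, U = P ⊓ Subgroup.centralizer (X₁ : Set S) := ⟨_, rfl⟩
  obtain ⟨V, hV⟩ : ∃ V, V = P ⊓ Subgroup.centralizer (X₂ : Set S) := ⟨_, rfl⟩
  rw [← hU, ← hV]
  have hUP : U ≤ P := by rw [hU]; exact inf_le_left
  have hVP : V ≤ P := by rw [hV]; exact inf_le_left
  have hQcomm : ∀ a ∈ Q, ∀ b ∈ Q, a * b = b * a := by
    intro a ha b hb
    have := hQ.1.is_comm.comm (⟨a, ha⟩ : Q) ⟨b, hb⟩
    exact congrArg Subtype.val this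
  -- commuting with an element generates commuting with the cyclic group
  have hfree : ∀ x ∈ Q, x ≠ 1 → x ∉ X₁ → x ∉ X₂ → ∀ y ∈ P, y * x = x * y → y = 1 := by
    intro x hx hx1 hx₁ hx₂ y hy hyx
    have hord : orderOf x = q := orderOf_eq_prime (hQ.2 x hx) hx1
    have hle : Subgroup.zpowers x ≤ Q := Subgroup.zpowers_le.mpr hx
    have hc : Nat.card (Subgroup.zpowers x) = q := by rw [Nat.card_zpowers, hord]
    have h1 : P ⊓ Subgroup.centralizer ((Subgroup.zpowers x : Subgroup S) : Set S) = ⊥ := by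
      by_contra hne
      rcases honly _ hle hc hne with h | h
      · exact hx₁ (h ▸ Subgroup.mem_zpowers x)
      · exact hx₂ (h ▸ Subgroup.mem_zpowers x)
    have h2 : y ∈ P ⊓ Subgroup.centralizer ((Subgroup.zpowers x : Subgroup S) : Set S) := by
      refine Subgroup.mem_inf.2 ⟨hy, ?_⟩
      rw [Subgroup.mem_centralizer_iff]
      rintro _ ⟨k, rfl⟩
      exact ((show Commute y x from hyx).zpow_right k).eq.symm
    rw [h1] at h2
    exact h2
  have hdisj : ∀ {A B : Subgroup S}, Nat.card A = q → Nat.card B = q → A ≠ B → ∀ z ∈ A, z ∈ B → z = 1 := by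
    intro A B hA hB hAB z hzA hzB
    by_contra hz
    have hzord : Subgroup.zpowers z ≤ A := Subgroup.zpowers_le.mpr hzA
    have hzB' : Subgroup.zpowers z ≤ B := Subgroup.zpowers_le.mpr hzB
    have h1 : Subgroup.zpowers z = A := by
      apply Subgroup.eq_of_le_of_card_ge hzord
      rw [hA]
      have h2 : orderOf z ∣ q := by
        rw [← hA]
        have := orderOf_dvd_natCard (⟨z, hzA⟩ : A)
        rwa [Subgroup.orderOf_mk] at this
      rw [Nat.card_zpowers]
      rcases (Nat.dvd_prime hq).mp h2 with h3 | h3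
      · exact absurd (orderOf_eq_one_iff.mp h3) hz
      · omega
    have h2 : Subgroup.zpowers z = B := by
      apply Subgroup.eq_of_le_of_card_ge hzB'
      rw [hB]
      have h2 : orderOf z ∣ q := by
        rw [← hB]
        have := orderOf_dvd_natCard (⟨z, hzB⟩ : B)
        rwa [Subgroup.orderOf_mk] at this
      rw [Nat.card_zpowers]
      rcases (Nat.dvd_prime hq).mp h2 with h3 | h3
      · exact absurd (orderOf_eq_one_iff.mp h3) hz
      · omega
    exact hAB (h1.symm.trans h2)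
  have hexists : ∀ {A : Subgroup S}, Nat.card A = q → ∃ a ∈ A, a ≠ 1 := by
    intro A hA
    by_contra hcon
    push Not at hcon
    have h1 : A = ⊥ := by
      rw [eq_bot_iff]
      exact fun a ha => hcon a ha
    rw [h1, Subgroup.card_bot] at hA
    exact hq.one_lt.ne hA
  -- fixed-point-freeness of elements of `X₁` on `V`, in symmetric form
  have hfree₁ : ∀ {A B : Subgroup S}, A ≤ Q → B ≤ Q → Nat.card A = q → Nat.card B = q → A ≠ B →
      (∀ x ∈ Q, x ≠ 1 → x ∉ A → x ∉ B → ∀ y ∈ P, y * x = x * y → y = 1) →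
      ∀ x ∈ A, x ≠ 1 → ∀ y ∈ P ⊓ Subgroup.centralizer (B : Set S), y * x = x * y → y = 1 := by
    intro A B hAQ hBQ hA hB hAB hf x hxA hx1 y hy hyx
    obtain ⟨b, hbB, hb1⟩ := hexists hB
    have hyb : y * b = b * y := (Subgroup.mem_centralizer_iff.mp hy.2 b hbB).symm
    refine hf (x * b) (Q.mul_mem (hAQ hxA) (hBQ hbB)) ?_ ?_ ?_ y hy.1 ?_
    · intro h
      have h1 : x = b⁻¹ := eq_inv_of_mul_eq_one_left h
      have h2 : x ∈ B := h1 ▸ B.inv_mem hbB
      exact hx1 (hdisj hA hB hAB x hxA h2)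
    · intro h
      have h1 : b ∈ A := by
        have := A.mul_mem (A.inv_mem hxA) h
        simpa using this
      exact hb1 (hdisj hA hB hAB b h1 hbB)
    · intro h
      have h1 : x ∈ B := by
        have := B.mul_mem h (B.inv_mem hbB)
        simpa using this
      exact hx1 (hdisj hA hB hAB x hxA h1)
    · calc y * (x * b) = (y * x) * b := by group
        _ = x * (y * b) := by rw [hyx]; group
        _ = x * (b * y) := by rw [hyb]
        _ = (x * b) * y := by group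
  have hfree' : ∀ x ∈ Q, x ≠ 1 → x ∉ X₂ → x ∉ X₁ → ∀ y ∈ P, y * x = x * y → y = 1 :=
    fun x hx h1 h2 h3 => hfree x hx h1 h3 h2
  have hf₁ : ∀ x ∈ X₁, x ≠ 1 → ∀ y ∈ V, y * x = x * y → y = 1 := by
    rw [hV]
    exact hfree₁ h₁ h₂ hc₁ hc₂ h₁₂ hfree
  have hf₂ : ∀ x ∈ X₂, x ≠ 1 → ∀ y ∈ U, y * x = x * y → y = 1 := by
    rw [hU]
    exact hfree₁ h₂ h₁ hc₂ hc₁ h₁₂.symm hfree'
  -- `Q` normalizes `U` and `V`
  have hQinv : ∀ {A : Subgroup S}, A ≤ Q → ∀ y ∈ Q,
      ∀ u ∈ P ⊓ Subgroup.centralizer (A : Set S), y * u * y⁻¹ ∈ P ⊓ Subgroup.centralizer (A : Set S) := by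
    intro A hA y hy u hu
    refine Subgroup.mem_inf.2 ⟨hPn.conj_mem u hu.1 y, ?_⟩
    rw [Subgroup.mem_centralizer_iff]
    intro a ha
    have h1 := Subgroup.mem_centralizer_iff.mp hu.2 a ha
    have h2 := hQcomm a (hA ha) y hy
    have h3 : a * y⁻¹ = y⁻¹ * a := by
      have := (show Commute a y from h2).inv_right.eq
      exact this
    calc a * (y * u * y⁻¹) = (a * y) * u * y⁻¹ := by group
      _ = y * (a * u) * y⁻¹ := by rw [h2]; group
      _ = y * (u * a) * y⁻¹ := by rw [h1]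
      _ = y * u * (a * y⁻¹) := by group
      _ = (y * u * y⁻¹) * a := by rw [h3]; group
  have hQU : ∀ y ∈ Q, ∀ u ∈ U, y * u * y⁻¹ ∈ U := by rw [hU]; exact hQinv h₁
  have hQV : ∀ y ∈ Q, ∀ u ∈ V, y * u * y⁻¹ ∈ V := by rw [hV]; exact hQinv h₂
  have hnorm : ∀ {A : Subgroup S}, (∀ y ∈ Q, ∀ u ∈ A, y * u * y⁻¹ ∈ A) →
      Q ≤ Subgroup.normalizer (A : Set S) := by
    intro A hA y hy
    refine Cfsg.Agent.Lib.CharTwoLocal.mem_normalizer_of_forall (hA y hy) (fun u hu => ?_)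
    have := hA y⁻¹ (Q.inv_mem hy) u hu
    simpa using this
  have hUN := hnorm hQU
  have hVN := hnorm hQV
  have hcommN : Q ≤ Subgroup.normalizer ((⁅U, V⁆ : Subgroup S) : Set S) := by
    intro y hy
    apply Cfsg.Agent.Lib.PResid.mem_normalizer_of_conj_map_eq
    rw [Subgroup.map_commutator, Cfsg.Agent.Lib.PResid.conj_map_eq_of_mem_normalizer (hUN hy),
      Cfsg.Agent.Lib.PResid.conj_map_eq_of_mem_normalizer (hVN hy)]
  have hqP : ∀ {W : Subgroup S}, W ≤ P → ¬ q ∣ Nat.card W := by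
    intro W hW hdvd
    have h1 : q ∣ Nat.card P := hdvd.trans (Subgroup.card_dvd_of_le hW)
    obtain ⟨n, hn⟩ := IsPGroup.iff_card.mp hPp
    rw [hn] at h1
    have := (Nat.prime_dvd_prime_iff_eq hq (Fact.out : p.Prime)).mp (hq.dvd_of_dvd_pow h1)
    exact hpq this.symm
  have hQpow : ∀ a ∈ Q, a ^ q = 1 := hQ.2
  have hindex : ∀ B : Subgroup S, B ≤ Q → B.relIndex Q ≤ q → ∃ x ∈ B, x ≠ 1 := by
    intro B hB hi
    by_contra hcon
    push Not at hcon
    have h1 : B = ⊥ := by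
      rw [eq_bot_iff]
      exact fun a ha => hcon a ha
    rw [h1, Subgroup.relIndex_bot_left, hQc] at hi
    have : q < q ^ 2 := by
      have := hq.two_le
      nlinarith
    omega
  -- the step
  have hstep : ∀ L L' : Subgroup S, L'.Normal → L' ≤ P → ⁅L, P⁆ ≤ L' →
      Q ≤ Subgroup.normalizer (L' : Set S) → ⁅U, V⁆ ≤ L → ⁅U, V⁆ ≤ L' := by
    intro L L' hL' hL'P hLP hQL' hUVL
    obtain ⟨W, hW⟩ : ∃ W, W = ⁅U, V⁆ ⊔ L' := ⟨_, rfl⟩
    have hUVP : ⁅U, V⁆ ≤ P := by
      rw [Subgroup.commutator_le]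
      intro u hu v hv
      rw [commutatorElement_def]
      exact P.mul_mem (P.mul_mem (P.mul_mem (hUP hu) (hVP hv)) (P.inv_mem (hUP hu)))
        (P.inv_mem (hVP hv))
    have hWP : W ≤ P := by
      rw [hW]
      exact sup_le hUVP hL'P
    have hQW : Q ≤ Subgroup.normalizer (W : Set S) := by
      rw [hW]
      exact Cfsg.Agent.Lib.FStarAct.le_normalizer_sup hcommN hQL'
    have h1 := Cfsg.Agent.Lib.CoprimeHyper.eq_iSup_inf_centralizer Q W hQ.1 hQ.2 (hqP hWP) hQW
    have h2 : W ≤ L' := by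
      rw [h1]
      refine iSup_le fun B => ?_
      intro w hw
      have hwW := hw.1
      obtain ⟨x, hxB, hx1⟩ := hindex B B.2.1 B.2.2
      have hxQ : x ∈ Q := B.2.1 hxB
      have hwx : w * x = x * w := (Subgroup.mem_centralizer_iff.mp hw.2 x hxB).symm
      rw [hW] at hwW
      by_cases hx₁ : x ∈ X₁
      · refine fix_mem hUVL hLP hUP hVP ?_ (hQV x hxQ) (hf₁ x hx₁ hx1) hwW hwx
        intro u hu
        rw [hU] at hu
        exact Subgroup.mem_centralizer_iff.mp hu.2 x hx₁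
      by_cases hx₂ : x ∈ X₂
      · rw [Subgroup.commutator_comm] at hwW hUVL
        refine fix_mem hUVL hLP hVP hUP ?_ (hQU x hxQ) (hf₂ x hx₂ hx1) hwW hwx
        intro u hu
        rw [hV] at hu
        exact Subgroup.mem_centralizer_iff.mp hu.2 x hx₂
      · have := hfree x hxQ hx1 hx₁ hx₂ w (hWP hw.1) hwx
        rw [this]
        exact L'.one_mem
    rw [hW] at h2
    exact le_sup_left.trans h2
  -- the descending series
  have hcomm : ⁅U, V⁆ = ⊥ := by
    have hLn : ∀ n, (P.lowerCentralSeries n).Normal := by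
      intro n
      induction n with
      | zero => exact hPn
      | succ n ih => rw [Subgroup.lowerCentralSeries_succ]; exact Subgroup.commutator_normal _ _
    have hLP : ∀ n, P.lowerCentralSeries n ≤ P := fun n =>
      P.lowerCentralSeries_antitone (Nat.zero_le n)
    have hseries : ∀ n, ⁅U, V⁆ ≤ P.lowerCentralSeries n := by
      intro n
      induction n with
      | zero =>
        rw [Subgroup.lowerCentralSeries_zero, Subgroup.commutator_le]
        intro u hu v hv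
        rw [commutatorElement_def]
        exact P.mul_mem (P.mul_mem (P.mul_mem (hUP hu) (hVP hv)) (P.inv_mem (hUP hu)))
          (P.inv_mem (hVP hv))
      | succ n ih =>
        refine hstep (P.lowerCentralSeries n) (P.lowerCentralSeries (n + 1)) (hLn _) (hLP _) ?_ ?_ ih
        · rw [Subgroup.lowerCentralSeries_succ]
        · intro y _
          haveI := hLn (n + 1)
          rw [Subgroup.normalizer_eq_top]
          trivial
    obtain ⟨n, hn⟩ := (Subgroup.isNilpotent_iff_lowerCentralSeries P).mp hPp.isNilpotent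
    have h1 := hseries n
    rw [hn] at h1
    exact le_bot_iff.mp h1
  refine ⟨hcomm, ?_, ?_⟩
  · -- trivial intersection
    rw [eq_bot_iff]
    intro y hy
    obtain ⟨a, ha, ha1⟩ := hexists hc₁
    have hy2 : y ∈ V := hy.2
    have hy1 : y ∈ U := hy.1
    refine hf₁ a ha ha1 y hy2 ?_
    rw [hU] at hy1
    exact (Subgroup.mem_centralizer_iff.mp hy1.2 a ha).symm
  · -- generation
    refine le_antisymm (sup_le hUP hVP) ?_
    have h1 := Cfsg.Agent.Lib.CoprimeHyper.eq_iSup_inf_centralizer Q P hQ.1 hQ.2 (hqP le_rfl)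
      (fun y _ => by
        rw [Subgroup.normalizer_eq_top]
        trivial)
    conv_lhs => rw [h1]
    refine iSup_le fun B => ?_
    intro w hw
    obtain ⟨x, hxB, hx1⟩ := hindex B B.2.1 B.2.2
    have hxQ : x ∈ Q := B.2.1 hxB
    -- the subgroup `B` has order `q` or `q^2`
    have hcard : Nat.card B ≠ 1 := by
      intro h
      have := Subgroup.eq_bot_of_card_eq _ h
      rw [this] at hxB
      exact hx1 hxB
    by_cases hBQ : (B : Subgroup S) = Q
    · -- then `w` centralizes `Q`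
      have h2 : w ∈ U := by
        rw [hU]
        refine Subgroup.mem_inf.2 ⟨hw.1, ?_⟩
        rw [Subgroup.mem_centralizer_iff]
        intro a ha
        have : a ∈ (B : Subgroup S) := by rw [hBQ]; exact h₁ ha
        exact Subgroup.mem_centralizer_iff.mp hw.2 a this
      exact Subgroup.mem_sup_left h2
    · have hBc : Nat.card B = q := by
        have h2 : Nat.card B ∣ q ^ 2 := by
          rw [← hQc]
          exact Subgroup.card_dvd_of_le B.2.1
        obtain ⟨i, hi, hie⟩ := (Nat.dvd_prime_pow hq).mp h2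
        interval_cases i
        · rw [pow_zero] at hie; exact absurd hie hcard
        · simpa using hie
        · have : (B : Subgroup S) = Q := by
            apply Subgroup.eq_of_le_of_card_ge B.2.1
            rw [hQc, hie]
          exact absurd this hBQ
      by_cases hne : P ⊓ Subgroup.centralizer ((B : Subgroup S) : Set S) = ⊥
      · rw [hne] at hw
        rw [Subgroup.mem_bot.mp hw]
        exact Subgroup.one_mem _
      rcases honly _ B.2.1 hBc hne with h | h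
      · have h2 : w ∈ U := by
          rw [hU, ← h]
          exact hw
        exact Subgroup.mem_sup_left h2
      · have h2 : w ∈ V := by
          rw [hV, ← h]
          exact hw
        exact Subgroup.mem_sup_right h2

/-- Let S = PQ be a finite group with P a normal Sylow p-subgroup and Q elementary abelian of order q², q a prime different from p. If exactly two subgroups X₁, X₂ of order q in Q have a nontrivial centralizer in P, then P is the internal direct product of C_P(X₁) and C_P(X₂): they commute elementwise, meet trivially and generate P. -/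
theorem result {S : Type*} [Group S] [Finite S] {p q : ℕ} [Fact p.Prime] [Fact q.Prime] (hpq : p ≠ q)
    (P : Sylow p S) [(P : Subgroup S).Normal] (Q : Subgroup S) (hQ : Cfsg.IsElementaryAbelian q Q) (hQc : Nat.card Q = q ^ 2)
    (hS : (P : Subgroup S) ⊔ Q = ⊤)
    (X₁ X₂ : Subgroup S) (h₁ : X₁ ≤ Q) (h₂ : X₂ ≤ Q) (h₁₂ : X₁ ≠ X₂) (hc₁ : Nat.card X₁ = q) (hc₂ : Nat.card X₂ = q)
    (hf₁ : (P : Subgroup S) ⊓ Subgroup.centralizer (X₁ : Set S) ≠ ⊥)
    (hf₂ : (P : Subgroup S) ⊓ Subgroup.centralizer (X₂ : Set S) ≠ ⊥)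
    (honly : ∀ X : Subgroup S, X ≤ Q → Nat.card X = q →
      (P : Subgroup S) ⊓ Subgroup.centralizer (X : Set S) ≠ ⊥ → X = X₁ ∨ X = X₂) :
    ⁅(P : Subgroup S) ⊓ Subgroup.centralizer (X₁ : Set S), (P : Subgroup S) ⊓ Subgroup.centralizer (X₂ : Set S)⁆ = ⊥ ∧
      ((P : Subgroup S) ⊓ Subgroup.centralizer (X₁ : Set S)) ⊓ ((P : Subgroup S) ⊓ Subgroup.centralizer (X₂ : Set S)) = ⊥ ∧
      ((P : Subgroup S) ⊓ Subgroup.centralizer (X₁ : Set S)) ⊔ ((P : Subgroup S) ⊓ Subgroup.centralizer (X₂ : Set S)) = P := by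
  exact main hpq (P : Subgroup S) P.isPGroup' Q hQ hQc X₁ X₂ h₁ h₂ h₁₂ hc₁ hc₂ honly


end Cfsg.Agent.S1900
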