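import Mathlib
import Cfsg.Statements.S1901
import Cfsg.Agent.Lib.PCore
import Cfsg.Agent.Lib.PSolv
import Cfsg.Agent.Lib.PResid

set_option autoImplicit false
open Cfsg

universe u

namespace Cfsg.Agent.S1901

open Cfsg.Agent.Lib.PCore Cfsg.Agent.Lib.PSolv Cfsg.Agent.Lib.PResid

lemma eq_bot_of_pgroup_of_not_dvd {G : Type*} [Group G] [Finite G] {p : ℕ} [Fact p.Prime]
    {X : Subgroup G} (h1 : IsPGroup p X) (h2 : ¬ p ∣ Nat.card X) : X = ⊥ := by
  obtain ⟨k, hk⟩ := IsPGroup.iff_card.1 h1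
  have hk0 : k = 0 := by
    by_contra h
    exact h2 (hk ▸ dvd_pow_self p h)
  rw [hk0, pow_zero] at hk
  exact Subgroup.card_eq_one.1 hk

lemma mem_of_pow_mem_coprime {G : Type*} [Group G] {H : Subgroup G} {t : G} {m n : ℕ}
    (h1 : t ^ m ∈ H) (h2 : t ^ n ∈ H) (hc : m.Coprime n) : t ∈ H := by
  have h := Nat.gcd_eq_gcd_ab m n
  rw [hc.gcd_eq_one] at h
  have : t = (t ^ m) ^ (Nat.gcdA m n) * (t ^ n) ^ (Nat.gcdB m n) := by
    rw [← zpow_natCast, ← zpow_natCast, ← zpow_mul, ← zpow_mul, ← zpow_add, ← h]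
    simp
  rw [this]
  exact H.mul_mem (H.zpow_mem h1 _) (H.zpow_mem h2 _)

lemma conj_pow_eq {G : Type*} [Group G] {x r c : G} (hcx : Commute c x)
    (h : x * r * x⁻¹ = r * c) (k : ℕ) : x ^ k * r * (x ^ k)⁻¹ = r * c ^ k := by
  induction k with
  | zero => simp
  | succ k ih =>
    have e : x ^ (k + 1) * r * (x ^ (k + 1))⁻¹ = x * (x ^ k * r * (x ^ k)⁻¹) * x⁻¹ := by
      rw [pow_succ']; group
    rw [e, ih]
    have h3 : x * (r * c ^ k) * x⁻¹ = (x * r * x⁻¹) * (x * c ^ k * x⁻¹) := by group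
    rw [h3, h]
    have h4 : x * c ^ k * x⁻¹ = c ^ k := by
      have : Commute x (c ^ k) := (hcx.symm).pow_right k
      rw [this.eq]; group
    rw [h4, pow_succ', mul_assoc]

theorem key {p : ℕ} [Fact p.Prime] : ∀ (n : ℕ) (G : Type u) [Group G] [Finite G], Nat.card G = n →
    IsPSolvable p G → ∀ Q P T : Subgroup G, ¬ p ∣ Nat.card Q → IsPGroup p P → ¬ p ∣ P.index →
    Q ≤ Subgroup.normalizer (P : Set G) → IsPGroup p T → T ≤ Subgroup.normalizer (Q : Set G) →
    T ≤ Subgroup.centralizer (Q : Set G) := by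
  intro n
  induction n using Nat.strong_induction_on with
  | _ n ih =>
  intro G _ _ hn hsol Q P T hQ hPp hPi hQP hTp hTQ
  have hp : p.Prime := Fact.out
  have hcases : (∃ N : Subgroup G, N.Normal ∧ N ≠ ⊥ ∧ (IsPGroup p N ∨ ¬ p ∣ Nat.card N)) ∨
      Subsingleton G := by
    by_cases h1 : pPrimeCore p G = ⊥
    · by_cases h2 : pCore p G = ⊥
      · right
        have h3 := centralizer_pCore_le_of_pSolvable hsol h1
        rw [h2] at h3
        have h4 : (⊤ : Subgroup G) ≤ ⊥ := by
          intro x _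
          apply h3
          rw [Subgroup.mem_centralizer_iff]
          intro y hy
          have : y = 1 := by simpa using hy
          rw [this]; simp
        refine ⟨fun x y => ?_⟩
        have hx : x = 1 := by simpa using h4 (Subgroup.mem_top x)
        have hy : y = 1 := by simpa using h4 (Subgroup.mem_top y)
        rw [hx, hy]
      · left
        refine ⟨pCore p G, ?_, h2, Or.inl (isPGroup_pCore p)⟩
        haveI := pCore_characteristic (G := G) p
        exact Subgroup.normal_of_characteristic _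
    · left
      refine ⟨pPrimeCore p G, ?_, h1, Or.inr (not_dvd_card_pPrimeCore p)⟩
      exact pPrimeCore_normal p G
  rcases hcases with ⟨N, hNn, hNb, hNc⟩ | hsub
  swap
  · intro x _
    rw [Subsingleton.elim x 1]
    exact Subgroup.one_mem _
  haveI := hNn
  obtain ⟨π, hπ⟩ : ∃ π : G →* G ⧸ N, π = QuotientGroup.mk' N := ⟨_, rfl⟩
  have hπs : Function.Surjective π := by
    rw [hπ]; exact QuotientGroup.mk'_surjective N
  have hπk : ∀ x : G, π x = 1 ↔ x ∈ N := by
    intro x
    rw [hπ, QuotientGroup.mk'_apply, QuotientGroup.eq_one_iff]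
  have hcard : Nat.card (G ⧸ N) < n := by
    rw [← hn, ← Subgroup.index_eq_card]
    have h1 := Subgroup.card_mul_index N
    have h2 : 1 < Nat.card N := by
      have : Nontrivial N := (Subgroup.nontrivial_iff_ne_bot N).2 hNb
      exact Finite.one_lt_card
    have h3 : 0 < N.index := Nat.pos_of_ne_zero Subgroup.index_ne_zero_of_finite
    nlinarith
  have IH := ih _ hcard (G ⧸ N) rfl (isPSolvable_quotient hsol N) (Q.map π) (P.map π) (T.map π)
    (fun h => hQ (h.trans (Subgroup.card_map_dvd Q π)))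
    (hPp.map π)
    (fun h => hPi (h.trans (Subgroup.index_map_dvd P hπs)))
    ((Subgroup.map_mono hQP).trans (Subgroup.le_normalizer_map π))
    (hTp.map π)
    ((Subgroup.map_mono hTQ).trans (Subgroup.le_normalizer_map π))
  -- the commutators
  have hcN : ∀ t ∈ T, ∀ q ∈ Q, q⁻¹ * (t * q * t⁻¹) ∈ N := by
    intro t ht q hq
    have h1 := Subgroup.mem_centralizer_iff.1 (IH (Subgroup.mem_map_of_mem π ht)) (π q)
      (Subgroup.mem_map_of_mem π hq)
    rw [← hπk]
    simp only [map_mul, map_inv]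
    have h2 : (π q)⁻¹ * (π t * π q * (π t)⁻¹) = (π q)⁻¹ * (π q * π t * (π t)⁻¹) := by rw [h1]
    rw [h2]
    group
  have hcQ : ∀ t ∈ T, ∀ q ∈ Q, q⁻¹ * (t * q * t⁻¹) ∈ Q := by
    intro t ht q hq
    exact Q.mul_mem (Q.inv_mem hq) ((Subgroup.mem_normalizer_iff.1 (hTQ ht) q).1 hq)
  obtain ⟨Q₀, hQ₀⟩ : ∃ Q₀ : Subgroup G, Q₀ = N ⊓ Q := ⟨_, rfl⟩
  have hQ₀le : Q₀ ≤ Q := by rw [hQ₀]; exact inf_le_right
  have hQ₀N : Q₀ ≤ N := by rw [hQ₀]; exact inf_le_left
  have hQ₀c : ¬ p ∣ Nat.card Q₀ := fun h => hQ (h.trans (Subgroup.card_dvd_of_le hQ₀le))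
  have hc₀ : ∀ t ∈ T, ∀ q ∈ Q, q⁻¹ * (t * q * t⁻¹) ∈ Q₀ := by
    intro t ht q hq
    rw [hQ₀]
    exact Subgroup.mem_inf.2 ⟨hcN t ht q hq, hcQ t ht q hq⟩
  -- it suffices that `T` centralizes `Q₀`
  have hfinish : (∀ t ∈ T, ∀ x ∈ Q₀, Commute x t) → T ≤ Subgroup.centralizer (Q : Set G) := by
    intro hT t ht
    rw [Subgroup.mem_centralizer_iff]
    intro q hq
    obtain ⟨c, hc⟩ : ∃ c : G, c = q⁻¹ * (t * q * t⁻¹) := ⟨_, rfl⟩
    have hcm : c ∈ Q₀ := hc ▸ hc₀ t ht q hq
    have h1 : t * q * t⁻¹ = q * c := by rw [hc]; group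
    obtain ⟨k, hk⟩ := exists_pow_eq_one_of_isPGroup hTp ht
    have h2 := conj_pow_eq (hT t ht c hcm) h1 (p ^ k)
    rw [hk] at h2
    simp only [one_mul, inv_one, mul_one] at h2
    have h3 : c ^ p ^ k = 1 := by
      have : q * c ^ p ^ k = q * 1 := by rw [← h2, mul_one]
      exact mul_left_cancel this
    have h4 : c ^ Nat.card Q₀ = 1 := by
      have h6 : (⟨c, hcm⟩ : Q₀) ^ Nat.card Q₀ = 1 := pow_card_eq_one'
      have h5 := congrArg Subtype.val h6
      rw [Subgroup.coe_pow] at h5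
      exact h5
    have h5 : (Nat.card Q₀).Coprime p := ((Nat.Prime.coprime_iff_not_dvd hp).2 hQ₀c).symm
    have h6 : c = 1 := eq_one_of_pow_eq_one_of_coprime h3 h4 h5
    rw [h6, mul_one] at h1
    calc q * t = (t * q * t⁻¹) * t := by rw [h1]
      _ = t * q := by group
  rcases hNc with hNp | hNc
  · -- `N` is a `p`-group
    apply hfinish
    have hb : Q₀ = ⊥ := eq_bot_of_pgroup_of_not_dvd (hNp.to_le hQ₀N) hQ₀c
    intro t _ x hx
    rw [hb] at hx
    have : x = 1 := by simpa using hx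
    rw [this]
    exact Commute.one_left t
  · -- `N` has order prime to `p`
    apply hfinish
    have hNP : N ⊓ P = ⊥ := eq_bot_of_pgroup_of_not_dvd (hPp.to_le inf_le_right)
      (fun h => hNc (h.trans (Subgroup.card_dvd_of_le inf_le_left)))
    have hPC : P ≤ Subgroup.centralizer (Q₀ : Set G) := by
      intro y hy
      rw [Subgroup.mem_centralizer_iff]
      intro x hx
      have h1 : x * y * x⁻¹ * y⁻¹ ∈ N ⊓ P := by
        refine Subgroup.mem_inf.2 ⟨?_, ?_⟩
        · have : x * y * x⁻¹ * y⁻¹ = x * (y * x⁻¹ * y⁻¹) := by group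
          rw [this]
          exact N.mul_mem (hQ₀N hx) (hNn.conj_mem _ (N.inv_mem (hQ₀N hx)) _)
        · exact P.mul_mem ((Subgroup.mem_normalizer_iff.1 (hQP (hQ₀le hx)) y).1 hy) (P.inv_mem hy)
      rw [hNP] at h1
      have h2 : x * y * x⁻¹ * y⁻¹ = 1 := by simpa using h1
      have h3 : x * y * x⁻¹ = y := mul_inv_eq_one.1 h2
      exact (mul_inv_eq_iff_eq_mul.1 h3).symm ▸ rfl
    obtain ⟨C, hC⟩ : ∃ C : Subgroup G, C = Subgroup.centralizer (Q₀ : Set G) := ⟨_, rfl⟩
    obtain ⟨L, hL⟩ : ∃ L : Subgroup G, L = Subgroup.normalizer (Q₀ : Set G) := ⟨_, rfl⟩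
    have hCL : C ≤ L := by
      rw [hC, hL]
      intro c hc
      rw [Subgroup.mem_normalizer_iff]
      intro x
      have hcx : ∀ x ∈ Q₀, c * x * c⁻¹ = x := by
        intro x hx
        have := Subgroup.mem_centralizer_iff.1 hc x hx
        rw [← this]; group
      constructor
      · intro hx
        rwa [hcx x hx]
      · intro hx
        have h1 := hcx _ hx
        have h2 : c * x * c⁻¹ = x := by
          have h3 := mul_left_cancel (a := c) (b := x * c⁻¹) (c := (c * x * c⁻¹) * c⁻¹)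
            (by
              have h4 := h1
              calc c * (x * c⁻¹) = c * x * c⁻¹ := by group
                _ = c * (c * x * c⁻¹) * c⁻¹ := h4.symm
                _ = c * ((c * x * c⁻¹) * c⁻¹) := by group)
          exact (mul_right_cancel h3).symm
        rwa [h2] at hx
    have hTL : T ≤ L := by
      rw [hL]
      intro t ht
      rw [Subgroup.mem_normalizer_iff]
      intro x
      rw [hQ₀]
      simp only [Subgroup.mem_inf]
      have h1 := Subgroup.mem_normalizer_iff.1 (hTQ ht) x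
      constructor
      · rintro ⟨h2, h3⟩
        exact ⟨hNn.conj_mem _ h2 _, h1.1 h3⟩
      · rintro ⟨h2, h3⟩
        refine ⟨?_, h1.2 h3⟩
        have := hNn.conj_mem _ h2 t⁻¹
        simpa [mul_assoc] using this
    have hCi : ¬ p ∣ C.index := by
      intro h
      apply hPi
      exact h.trans (Subgroup.index_dvd_of_le (hC ▸ hPC))
    have hCrel : ¬ p ∣ C.relIndex L := by
      intro h
      apply hCi
      rw [← Subgroup.relIndex_mul_index hCL]
      exact h.trans (dvd_mul_right _ _)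
    haveI hCn : (C.subgroupOf L).Normal := by
      constructor
      intro c hc l
      rw [Subgroup.mem_subgroupOf] at hc ⊢
      rw [hC] at hc ⊢
      rw [Subgroup.mem_centralizer_iff] at hc ⊢
      intro x hx
      have hl : (l : G) ∈ Subgroup.normalizer (Q₀ : Set G) := hL ▸ l.2
      have h1 : (l : G)⁻¹ * x * l ∈ Q₀ := by
        have := (Subgroup.mem_normalizer_iff.1 (Subgroup.inv_mem _ hl) x).1 hx
        simpa using this
      have h2 := hc _ h1
      simp only [Subgroup.coe_mul, InvMemClass.coe_inv]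
      calc x * ((l : G) * c * (l : G)⁻¹)
          = (l : G) * ((l : G)⁻¹ * x * l * c) * (l : G)⁻¹ := by group
        _ = (l : G) * (c * ((l : G)⁻¹ * x * l)) * (l : G)⁻¹ := by rw [h2]
        _ = _ := by group
    intro t ht x hx
    have htC : t ∈ C := by
      obtain ⟨k, hk⟩ := exists_pow_eq_one_of_isPGroup hTp ht
      have h1 : t ^ p ^ k ∈ C := by rw [hk]; exact C.one_mem
      have h2 := Subgroup.pow_index_mem (C.subgroupOf L) (⟨t, hTL ht⟩ : L)
      rw [Subgroup.mem_subgroupOf] at h2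
      have h3 : t ^ (C.subgroupOf L).index ∈ C := by simpa using h2
      refine mem_of_pow_mem_coprime h3 h1 ?_
      apply Nat.Coprime.pow_right
      exact ((Nat.Prime.coprime_iff_not_dvd hp).2 hCrel).symm
    rw [hC] at htC
    exact (Subgroup.mem_centralizer_iff.1 htC x hx)

/-- Let G be a finite p-solvable group and Q a subgroup of order prime to p such that p divides the index of C_G(Q) in N_G(Q). Then Q normalizes no Sylow p-subgroup of G. -/
theorem result {G : Type*} [Group G] [Finite G] {p : ℕ} [Fact p.Prime]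
    (hG : Cfsg.IsPSolvable p G) (Q : Subgroup G) (hQ : ¬ p ∣ Nat.card Q)
    (hA : p ∣ (Subgroup.centralizer (Q : Set G)).relIndex (Subgroup.normalizer (Q : Set G)))
    (P : Sylow p G) : ¬ Q ≤ Subgroup.normalizer ((P : Subgroup G) : Set G) := by
  intro hQP
  obtain ⟨L, hL⟩ : ∃ L : Subgroup G, L = Subgroup.normalizer (Q : Set G) := ⟨_, rfl⟩
  rw [← hL] at hA
  obtain ⟨R⟩ : Nonempty (Sylow p L) := inferInstance
  have hT := key _ G rfl hG Q P ((R : Subgroup L).map L.subtype) hQ P.isPGroup' P.not_dvd_index hQP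
    (R.isPGroup'.map L.subtype) (by
      rw [← hL]
      rintro _ ⟨x, _, rfl⟩
      exact x.2)
  have h1 : (R : Subgroup L) ≤ (Subgroup.centralizer (Q : Set G)).subgroupOf L := by
    intro x hx
    rw [Subgroup.mem_subgroupOf]
    exact hT ⟨x, hx, rfl⟩
  have h2 := Subgroup.index_dvd_of_le h1
  exact R.not_dvd_index (hA.trans h2)

end Cfsg.Agent.S1901
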