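import Mathlib
import Cfsg.Statements.S1902
import Cfsg.Agent.Lib.FixedLie
import Cfsg.Agent.Lib.PSolv
import Cfsg.Agent.Lib.PCore
import Cfsg.Agent.Lib.CharTwoLocal
-- import your own Cfsg.Agent.* helpers here

set_option autoImplicit false
open Cfsg

namespace Cfsg.Agent.S1902


open Subgroup
open scoped commutatorElement

theorem main_reduced {G : Type*} [Group G] [Finite G] {p : ℕ} [hp : Fact p.Prime] (hp2 : p ≠ 2)
    (hsol : IsPSolvable p G) (hO : pPrimeCore p G = ⊥) {B Q : Subgroup G} (b₀ : G) (hb₀ : b₀ ∈ B)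
    (hb₀p : b₀ ^ p = 1) (H : ∀ x ∈ pCore p G, x ^ p = 1 → x * b₀ = b₀ * x → x ∈ B)
    (hQ : ¬ p ∣ Nat.card Q) (hinv : ∀ b ∈ B, ∀ x ∈ Q, b * x * b⁻¹ ∈ Q) : Q = ⊥ := by
  have hcop : (Nat.card Q).Coprime p := ((Nat.Prime.coprime_iff_not_dvd hp.out).mpr hQ).symm
  have hRp : IsPGroup p (pCore p G) := Cfsg.Agent.Lib.PCore.isPGroup_pCore p
  haveI hRn : (pCore p G).Normal := inferInstance
  -- elements of `B ∩ R` centralize `Q`
  have hm : ∀ m ∈ pCore p G, m ^ p = 1 → m * b₀ = b₀ * m → ∀ q ∈ Q, q * m = m * q := by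
    intro m hmR hmp hmb q hq
    have hmB := H m hmR hmp hmb
    have h1 : q * m * q⁻¹ * m⁻¹ ∈ Q := by
      have h2 := hinv m hmB q⁻¹ (inv_mem hq)
      have e : q * m * q⁻¹ * m⁻¹ = q * (m * q⁻¹ * m⁻¹) := by group
      rw [e]
      exact mul_mem hq h2
    have h3 : q * m * q⁻¹ * m⁻¹ ∈ pCore p G :=
      mul_mem (hRn.conj_mem m hmR q) (inv_mem hmR)
    have hbot : Q ⊓ pCore p G = ⊥ := by
      refine Cfsg.Agent.Lib.PCore.eq_bot_of_isPGroup_of_coprime (p := p) ?_ ?_
      · exact hRp.to_le inf_le_right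
      · exact Nat.Coprime.coprime_dvd_left
          (Subgroup.card_dvd_of_le inf_le_left) hcop
    have h4 : q * m * q⁻¹ * m⁻¹ ∈ Q ⊓ pCore p G := Subgroup.mem_inf.2 ⟨h1, h3⟩
    rw [hbot] at h4
    have h5 : q * m * q⁻¹ * m⁻¹ = 1 := h4
    have h6 : ⁅q, m⁆ = 1 := h5
    exact commutatorElement_eq_one_iff_mul_comm.mp h6
  have hbQ : b₀ ∈ normalizer (Q : Set G) := by
    apply Cfsg.Agent.Lib.CharTwoLocal.mem_normalizer_of_forall (hinv b₀ hb₀)
    intro a ha
    have := hinv b₀⁻¹ (inv_mem hb₀) a ha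
    simpa using this
  have hRtop : normalizer ((pCore p G : Subgroup G) : Set G) = ⊤ :=
    Subgroup.normalizer_eq_top _
  have hcomm : ⁅pCore p G, Q⁆ = ⊥ :=
    Cfsg.Agent.Lib.FixedLie.comm_eq_bot hp2 Q hQ b₀ hb₀p hbQ _ hRp hm
      (by rw [hRtop]; exact le_top) (by rw [hRtop]; trivial)
  have hQC : Q ≤ centralizer (pCore p G : Set G) := by
    rw [commutator_comm, commutator_eq_bot_iff_le_centralizer] at hcomm
    exact hcomm
  have hQR : Q ≤ pCore p G := hQC.trans (Cfsg.Agent.Lib.PSolv.centralizer_pCore_le_of_pSolvable hsol hO)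
  exact Cfsg.Agent.Lib.PCore.eq_bot_of_isPGroup_of_coprime (hRp.to_le hQR) hcop

/-- Let p be an odd prime, G a finite p-solvable group, and B an elementary abelian subgroup of order p² such that B is the subgroup generated by the elements of order p of some Sylow p-subgroup of C_G(b₀), for some nontrivial b₀ ∈ B. Then every B-invariant subgroup of G of order prime to p lies in O_{p'}(G). -/
theorem result {G : Type*} [Group G] [Finite G] {p : ℕ} [Fact p.Prime] (hp : p ≠ 2)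
    (hG : Cfsg.IsPSolvable p G) (B : Subgroup G) (hB : Cfsg.IsElementaryAbelian p B) (hBc : Nat.card B = p ^ 2)
    (b₀ : G) (hb₀ : b₀ ∈ B) (hb₁ : b₀ ≠ 1) (P : Sylow p ↥(Subgroup.centralizer ({b₀} : Set G)))
    (hBP : B = Subgroup.closure {x : G | x ∈ ((P : Subgroup ↥(Subgroup.centralizer ({b₀} : Set G))).map
      (Subgroup.centralizer ({b₀} : Set G)).subtype : Subgroup G) ∧ orderOf x = p})
    (Q : Subgroup G) (hQ : ¬ p ∣ Nat.card Q) (hinv : ∀ b ∈ B, ∀ x ∈ Q, b * x * b⁻¹ ∈ Q) :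
    Q ≤ Cfsg.pPrimeCore p G := by
  classical
  obtain ⟨hBc', hBexp⟩ := hB
  have hb₀p : b₀ ^ p = 1 := hBexp b₀ hb₀
  have hcop : (Nat.card Q).Coprime p := ((Nat.Prime.coprime_iff_not_dvd (Fact.out)).mpr hQ).symm
  obtain ⟨N, hN⟩ : ∃ N, N = pPrimeCore p G := ⟨_, rfl⟩
  haveI hNn : N.Normal := by rw [hN]; infer_instance
  have hNc : (Nat.card N).Coprime p := by
    rw [hN]
    exact Cfsg.Agent.Lib.PCore.card_pPrimeCore_coprime p
  obtain ⟨π, hπ⟩ : ∃ π : G →* G ⧸ N, π = QuotientGroup.mk' N := ⟨_, rfl⟩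
  have hπs : Function.Surjective π := by
    rw [hπ]
    exact QuotientGroup.mk'_surjective N
  have hπk : π.ker = N := by
    rw [hπ]
    exact QuotientGroup.ker_mk' N
  -- `B` in the Sylow subgroup of the centralizer
  obtain ⟨P', hP'⟩ : ∃ P', P' = ((P : Subgroup ↥(Subgroup.centralizer ({b₀} : Set G))).map
      (Subgroup.centralizer ({b₀} : Set G)).subtype : Subgroup G) := ⟨_, rfl⟩
  have hP'p : IsPGroup p P' := by
    rw [hP']
    exact P.isPGroup'.map _
  have hP'C : P' ≤ Subgroup.centralizer ({b₀} : Set G) := by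
    rw [hP']
    exact map_subtype_le _
  have hBP' : B ≤ P' := by
    rw [hBP, closure_le, ← hP']
    intro x hx
    exact hx.1
  obtain ⟨T, hT⟩ := hP'p.exists_le_sylow
  have hTN : ∀ x ∈ (T : Subgroup G), x ∈ N → x = 1 := by
    intro x hxT hxN
    have hbot : (T : Subgroup G) ⊓ N = ⊥ := by
      refine Cfsg.Agent.Lib.PCore.eq_bot_of_isPGroup_of_coprime (p := p) ?_ ?_
      · exact T.isPGroup'.to_le inf_le_left
      · exact Nat.Coprime.coprime_dvd_left (Subgroup.card_dvd_of_le inf_le_right) hNc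
    have h4 : x ∈ (T : Subgroup G) ⊓ N := Subgroup.mem_inf.2 ⟨hxT, hxN⟩
    rw [hbot] at h4
    exact h4
  -- maximality
  have hTC : ∀ x ∈ (T : Subgroup G), x ∈ Subgroup.centralizer ({b₀} : Set G) → x ∈ P' := by
    intro x hxT hxC
    have h1 : IsPGroup p ((T : Subgroup G).comap (Subgroup.centralizer ({b₀} : Set G)).subtype) :=
      T.isPGroup'.comap_of_injective _ (Subgroup.subtype_injective _)
    have h2 : (P : Subgroup ↥(Subgroup.centralizer ({b₀} : Set G))) ≤
        (T : Subgroup G).comap (Subgroup.centralizer ({b₀} : Set G)).subtype := by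
      intro y hy
      apply hT
      rw [hP']
      exact Subgroup.mem_map_of_mem _ hy
    have h3 := P.is_maximal' h1 h2
    have h4 : (⟨x, hxC⟩ : ↥(Subgroup.centralizer ({b₀} : Set G))) ∈
        (T : Subgroup G).comap (Subgroup.centralizer ({b₀} : Set G)).subtype := hxT
    rw [h3] at h4
    rw [hP']
    exact ⟨_, h4, rfl⟩
  have hbT : b₀ ∈ (T : Subgroup G) := hT (hBP' hb₀)
  have hmain : Q.map π = ⊥ := by
    refine main_reduced hp (Cfsg.Agent.Lib.PSolv.isPSolvable_quotient hG N) ?_ (B := B.map π) (π b₀)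
      (Subgroup.mem_map_of_mem _ hb₀) ?_ ?_ ?_ ?_
    · subst hN
      exact Cfsg.Agent.Lib.PCore.pPrimeCore_quotient_pPrimeCore p
    · rw [← map_pow, hb₀p, map_one]
    · intro x' hx' hx'p hx'b
      have h1 : x' ∈ (T : Subgroup G).map π :=
        Cfsg.Agent.Lib.PCore.pCore_le_sylow p (T.mapSurjective hπs) hx'
      obtain ⟨x, hxT, rfl⟩ := h1
      have hxp : x ^ p ∈ N := by
        rw [← hπk, MonoidHom.mem_ker, map_pow, hx'p]
      have hxp1 : x ^ p = 1 := hTN _ (pow_mem hxT p) hxp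
      have hc : x * b₀ * x⁻¹ * b₀⁻¹ ∈ N := by
        rw [← hπk, MonoidHom.mem_ker, map_mul, map_mul, map_mul, map_inv, map_inv, hx'b]
        group
      have hc1 : x * b₀ * x⁻¹ * b₀⁻¹ = 1 :=
        hTN _ (mul_mem (mul_mem (mul_mem hxT hbT) (inv_mem hxT)) (inv_mem hbT)) hc
      have hxC : x ∈ Subgroup.centralizer ({b₀} : Set G) := by
        rw [Subgroup.mem_centralizer_singleton_iff]
        have h5 : ⁅x, b₀⁆ = 1 := hc1
        exact commutatorElement_eq_one_iff_mul_comm.mp h5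
      have hxP' := hTC x hxT hxC
      by_cases hx1 : x = 1
      · rw [hx1, map_one]
        exact one_mem _
      · apply Subgroup.mem_map_of_mem
        rw [hBP]
        apply Subgroup.subset_closure
        exact ⟨hP' ▸ hxP', orderOf_eq_prime hxp1 hx1⟩
    · intro h
      exact hQ (h.trans (Subgroup.card_map_dvd Q π))
    · rintro _ ⟨b, hb, rfl⟩ _ ⟨x, hx, rfl⟩
      exact ⟨b * x * b⁻¹, hinv b hb x hx, by simp⟩
  intro x hx
  rw [← hN, ← hπk, MonoidHom.mem_ker]
  have h1 : π x ∈ Q.map π := Subgroup.mem_map_of_mem _ hx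
  rw [hmain] at h1
  exact h1

end Cfsg.Agent.S1902
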