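import Mathlib
import Cfsg.Statements.S1904
import Cfsg.Agent.Lib.SCN3Two
-- import your own Cfsg.Agent.* helpers here

set_option autoImplicit false
open Cfsg

namespace Cfsg.Agent.S1904

/-- Let X be a finite nonabelian 2-group with no normal abelian subgroup that is self-centralizing and contains an elementary abelian subgroup of order 8. Suppose a group A of automorphisms of X of odd order satisfies [X, A] = X. Then X is the quaternion group of order 8, or X is special of order 64 with exactly three involutions, all central, or X is extraspecial of order 32 with exactly eleven involutions (the central product of a quaternion group and a dihedral group of order 8). -/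
theorem result {X : Type*} [Group X] [Finite X] (hX : IsPGroup 2 X) (hna : ¬ IsMulCommutative X)
    (hscn : ¬ ∃ A : Subgroup X, A.Normal ∧ Subgroup.centralizer (A : Set X) = A ∧
      ∃ E : Subgroup X, E ≤ A ∧ Cfsg.IsElementaryAbelian 2 E ∧ Nat.card E = 8)
    (A : Subgroup (MulAut X)) (hA : Odd (Nat.card A))
    (hXA : Subgroup.closure {g : X | ∃ φ ∈ A, ∃ x : X, g = x⁻¹ * φ x} = ⊤) :
    Nonempty (X ≃* QuaternionGroup 2) ∨
      (Cfsg.IsSpecial 2 X ∧ Nat.card X = 64 ∧ Nat.card {x : X // orderOf x = 2} = 3 ∧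
        ∀ x : X, orderOf x = 2 → x ∈ Subgroup.center X) ∨
      (Cfsg.IsExtraspecial 2 X ∧ Nat.card X = 32 ∧ Nat.card {x : X // orderOf x = 2} = 11) := by
  classical
  haveI : Fact (Nat.Prime 2) := ⟨Nat.prime_two⟩
  have hna' : ∃ a b : X, a * b ≠ b * a := by
    by_contra hc
    push Not at hc
    exact hna ⟨⟨hc⟩⟩
  have hE8 := Cfsg.Agent.Lib.SCN3Base.noE8_of_hscn hX hscn
  have hN := Cfsg.Agent.Lib.SCN3Red.reduce_nf hX hna' hE8 hA hXA
  obtain ⟨hZD, hel⟩ := Cfsg.Agent.Lib.SCN3NF.center_structure hN hX hna' hE8 hA hXA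
  -- special
  have hspecial : Cfsg.IsSpecial 2 X := by
    refine ⟨hX, ?_, hZD.symm⟩
    apply le_antisymm
    · refine Cfsg.Agent.Lib.Frat.frattini_le_of_commutator_pow (p := 2) _ ?_ hN.2
      rw [← hZD]
    · rw [hZD]
      exact Cfsg.Agent.Lib.Frat.commutator_le_frattini hX
  -- the order of the center
  have hZle : Nat.card (Subgroup.center X) ≤ 4 :=
    hE8 _ inferInstance (fun a ha b hb => Subgroup.mem_center_iff.1 hb a) _ le_rfl hel
  obtain ⟨k, hk⟩ := IsPGroup.iff_card.1 (hX.to_subgroup (Subgroup.center X))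
  have hk0 : k ≠ 0 := by
    rintro rfl
    obtain ⟨a, b, hab⟩ := hna'
    rw [pow_zero, Subgroup.card_eq_one] at hk
    have h1 := hN.1 a b
    rw [hk, Subgroup.mem_bot] at h1
    apply hab
    have h2 : a * b * a⁻¹ = b := eq_of_mul_inv_eq_one h1
    calc a * b = (a * b * a⁻¹) * a := by group
      _ = b * a := by rw [h2]
  have hk3 : k ≤ 2 := by
    by_contra hlt
    have h1 : 2 ^ 3 ≤ 2 ^ k := Nat.pow_le_pow_right (by norm_num) (by omega)
    omega
  have hk12 : k = 1 ∨ k = 2 := by omega
  rcases hk12 with rfl | rfl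
  · have h2 : Nat.card (Subgroup.center X) = 2 := by rw [hk]; norm_num
    rcases Cfsg.Agent.Lib.SCN3Two.case_two hN hX hna' hE8 hXA hel h2 with h | ⟨h1, h3⟩
    · exact Or.inl h
    · exact Or.inr (Or.inr ⟨⟨hspecial, h2⟩, h1, h3⟩)
  · have h4 : Nat.card (Subgroup.center X) = 4 := by rw [hk]; norm_num
    obtain ⟨h1, h3, h5⟩ := Cfsg.Agent.Lib.SCN3Four.case_four hN hX hna' hE8 hXA hZD hel h4
    exact Or.inr (Or.inl ⟨hspecial, h1, h3, h5⟩)

end Cfsg.Agent.S1904
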