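import Mathlib
import Cfsg.Statements.S1905
import Cfsg.Agent.Lib.InvolutionPairs

set_option autoImplicit false
open Cfsg

namespace Cfsg.Agent.S1905

open Cfsg.Agent.Lib.InvolutionPairs
open scoped Pointwise

/-- An involution conjugating `x` to `y` when `xy` has odd order. -/
lemma exists_invol_conj {G : Type*} [Group G] (x y : G) (hx : x * x = 1) (hy : y * y = 1)
    (hodd : Odd (orderOf (x * y))) :
    ∃ s : G, s * s = 1 ∧ s * x * s⁻¹ = y := by
  obtain ⟨m, hm⟩ := hodd
  have hxi : x⁻¹ = x := inv_eq_of_mul_eq_one_left hx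
  have hw : (x * y) ^ ((2 : ℤ) * m + 1) = 1 := by
    have := pow_orderOf_eq_one (x * y)
    rw [hm] at this
    exact_mod_cast this
  obtain ⟨a, ha⟩ : ∃ a : ℤ, a = (m : ℤ) + 1 := ⟨_, rfl⟩
  have hconj := conj_zpow x y hx hy a
  rw [hxi] at hconj
  have hss : (x * (x * y) ^ a) * (x * (x * y) ^ a) = 1 := by
    calc (x * (x * y) ^ a) * (x * (x * y) ^ a)
        = (x * (x * y) ^ a * x) * (x * y) ^ a := by group
      _ = (x * y) ^ (-a) * (x * y) ^ a := by rw [hconj]
      _ = 1 := by rw [← zpow_add]; simp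
  refine ⟨x * (x * y) ^ a, hss, ?_⟩
  rw [inv_eq_of_mul_eq_one_left hss]
  have h2 : (x * y) ^ a * (x * y) ^ a = x * y := by
    rw [← zpow_add]
    have : a + a = ((2 : ℤ) * m + 1) + 1 := by omega
    rw [this, zpow_add, hw, one_mul, zpow_one]
  calc x * (x * y) ^ a * x * (x * (x * y) ^ a)
      = x * (x * y) ^ a * (x * x) * (x * y) ^ a := by group
    _ = x * ((x * y) ^ a * (x * y) ^ a) := by rw [hx]; group
    _ = y := by rw [h2, ← mul_assoc, hx, one_mul]

variable {S : Type*} [Group S] [Finite S] (M : Subgroup S)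

lemma odd_mul (hC : ∀ i ∈ M, orderOf i = 2 → Subgroup.centralizer ({i} : Set S) ≤ M)
    {i j : S} (hi : i ∈ M) (hi2 : orderOf i = 2) (hj2 : orderOf j = 2) (hj : j ∉ M) :
    Odd (orderOf (i * j)) := by
  by_contra h
  rw [Nat.not_odd_iff_even] at h
  have hi' := mul_self_of_orderOf hi2
  have hj' := mul_self_of_orderOf hj2
  have h0 : 0 < orderOf (i * j) := orderOf_pos _
  have hz := orderOf_half_pow (i * j) h h0
  have h1 := half_pow_commute_left i j hi' hj' h
  have h2 := half_pow_commute_right i j hi' hj' h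
  have hzM : (i * j) ^ (orderOf (i * j) / 2) ∈ M := by
    apply hC i hi hi2
    rw [Subgroup.mem_centralizer_singleton_iff]
    exact h1
  apply hj
  apply hC _ hzM hz
  rw [Subgroup.mem_centralizer_singleton_iff]
  exact h2.symm

lemma exists_invol_of_even {G : Type*} [Group G] [Finite G] (h : Even (Nat.card G)) :
    ∃ x : G, orderOf x = 2 := by
  have : Fact (Nat.Prime 2) := ⟨Nat.prime_two⟩
  exact exists_prime_orderOf_dvd_card' 2 h.two_dvd

lemma exists_invol_notMem (hM : Even (Nat.card M)) (hcore : Odd (Nat.card M.normalCore)) :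
    ∃ j : S, orderOf j = 2 ∧ j ∉ M := by
  by_contra hcon
  push Not at hcon
  obtain ⟨i, hi⟩ := exists_invol_of_even hM
  have hi' : orderOf (i : S) = 2 := by rw [Subgroup.orderOf_coe]; exact hi
  have hmem : (i : S) ∈ M.normalCore := by
    intro g
    apply hcon
    have : g * (i : S) * g⁻¹ = (MulAut.conj g) (i : S) := by simp [MulAut.conj_apply]
    rw [this, MulEquiv.orderOf_eq]
    exact hi'
  have h2 : orderOf (⟨i, hmem⟩ : M.normalCore) = 2 := by
    rw [← Subgroup.orderOf_coe]; exact hi'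
  have h3 := orderOf_dvd_natCard (⟨i, hmem⟩ : M.normalCore)
  rw [h2] at h3
  exact (Nat.not_even_iff_odd.2 hcore) (even_iff_two_dvd.2 h3)

theorem result {S : Type*} [Group S] [Finite S] (M : Subgroup S) (hM : Even (Nat.card M))
    (hC : ∀ i ∈ M, orderOf i = 2 → Subgroup.centralizer ({i} : Set S) ≤ M) (hcore : Odd (Nat.card M.normalCore)) :
    (∀ x y : S, orderOf x = 2 → orderOf y = 2 → IsConj x y) ∧
      ∀ (X : Sylow 2 M) (I : M), I ∈ (Subgroup.center ↥(X : Subgroup ↥M)).map (X : Subgroup ↥M).subtype → orderOf I = 2 →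
        Subgroup.normalizer (((X : Subgroup M).map M.subtype : Subgroup S) : Set S) ≤ M →
        (∀ x y : M, orderOf x = 2 → orderOf y = 2 → IsConj x y) ∧
          ∃ M₀ : Subgroup M, Odd (Nat.card M₀) ∧
            ∀ m : M, ∃ a ∈ M₀, ∃ c ∈ Subgroup.centralizer ({I} : Set M), m = a * c := by
  obtain ⟨t, ht2, htM⟩ := exists_invol_notMem M hM hcore
  obtain ⟨i₀, hi₀⟩ := exists_invol_of_even hM
  have hi₀' : orderOf (i₀ : S) = 2 := by rw [Subgroup.orderOf_coe]; exact hi₀
  have hconj1 : ∀ i j : S, i ∈ M → orderOf i = 2 → orderOf j = 2 → j ∉ M → IsConj i j := by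
    intro i j hi hi2 hj2 hj
    obtain ⟨d, -, hd⟩ := exists_conj_of_odd i j (mul_self_of_orderOf hi2) (mul_self_of_orderOf hj2)
      (odd_mul M hC hi hi2 hj2 hj)
    exact isConj_iff.2 ⟨d, hd⟩
  have hto : ∀ x : S, orderOf x = 2 → IsConj x t := by
    intro x hx
    by_cases hxM : x ∈ M
    · exact hconj1 x t hxM hx ht2 htM
    · exact ((hconj1 _ x i₀.2 hi₀' hx hxM).symm).trans (hconj1 _ t i₀.2 hi₀' ht2 htM)
  have hall : ∀ x y : S, orderOf x = 2 → orderOf y = 2 → IsConj x y := fun x y hx hy =>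
    (hto x hx).trans (hto y hy).symm
  refine ⟨hall, ?_⟩
  intro X I hI hIord hN
  have hI' : orderOf (I : S) = 2 := by rw [Subgroup.orderOf_coe]; exact hIord
  -- Sylow subgroup centralizes `I`
  obtain ⟨XS, hXS⟩ : ∃ XS : Subgroup S, XS = (X : Subgroup M).map M.subtype := ⟨_, rfl⟩
  rw [← hXS] at hN
  have hXcent : ∀ y ∈ XS, y * (I : S) = (I : S) * y := by
    intro y hy
    rw [hXS] at hy
    obtain ⟨y', hy', rfl⟩ := hy
    obtain ⟨c, hc, rfl⟩ := hI
    have hc' := Subgroup.mem_center_iff.1 hc ⟨y', hy'⟩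
    have := congrArg (fun u : (X : Subgroup M) => ((u : M) : S)) hc'
    simpa using this
  -- every involution in `M` is an `M`-conjugate of `I`
  have hconjM : ∀ z ∈ M, orderOf z = 2 → ∃ h ∈ M, h * (I : S) * h⁻¹ = z := by
    intro z hz hz2
    obtain ⟨h, hh⟩ := isConj_iff.1 (hall (I : S) z hI' hz2)
    refine ⟨h, ?_, hh⟩
    obtain ⟨Xc, hXc⟩ : ∃ Xc : Subgroup S, Xc = XS.map (MulAut.conj h).toMonoidHom := ⟨_, rfl⟩
    have hXcM : Xc ≤ M := by
      rw [hXc]
      rintro _ ⟨y, hy, rfl⟩
      apply hC z hz hz2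
      rw [Subgroup.mem_centralizer_singleton_iff]
      have := hXcent y hy
      simp only [MulEquiv.toMonoidHom_eq_coe, MonoidHom.coe_coe, MulAut.conj_apply]
      rw [← hh]
      calc h * y * h⁻¹ * (h * (I : S) * h⁻¹) = h * (y * (I : S)) * h⁻¹ := by group
        _ = h * ((I : S) * y) * h⁻¹ := by rw [this]
        _ = _ := by group
    have hcardXS : Nat.card XS = Nat.card (X : Subgroup M) := by
      rw [hXS]
      exact Subgroup.card_map_of_injective M.subtype_injective
    have hcardXc : Nat.card Xc = Nat.card XS := by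
      rw [hXc]
      exact Subgroup.card_map_of_injective (MulAut.conj h).injective
    have hcard2 : Nat.card (Xc.subgroupOf M) = Nat.card Xc :=
      Nat.card_congr (Subgroup.subgroupOfEquivOfLe hXcM).toEquiv
    have hcard3 : Nat.card (Xc.subgroupOf M) = 2 ^ (Nat.card M).factorization 2 := by
      rw [hcard2, hcardXc, hcardXS]
      exact Sylow.card_eq_multiplicity X
    have : Fact (Nat.Prime 2) := ⟨Nat.prime_two⟩
    obtain ⟨m, hm⟩ := MulAction.exists_smul_eq M X (Sylow.ofCard (Xc.subgroupOf M) hcard3)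
    have hm2 : ((m • X : Sylow 2 M) : Subgroup M) = Xc.subgroupOf M := by
      rw [hm]; rfl
    rw [Sylow.coe_subgroup_smul] at hm2
    have hm3 : ∀ y : S, y ∈ Xc ↔ (m : S)⁻¹ * y * m ∈ XS := by
      intro y
      constructor
      · intro hy
        have hyM := hXcM hy
        have h1 : (⟨y, hyM⟩ : M) ∈ Xc.subgroupOf M := by
          rw [Subgroup.mem_subgroupOf]; exact hy
        rw [← hm2, Subgroup.mem_pointwise_smul_iff_inv_smul_mem] at h1
        rw [hXS]
        refine ⟨_, h1, ?_⟩
        simp [MulAut.smul_def, MulAut.conj_apply]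
      · intro hy
        rw [hXS] at hy
        obtain ⟨y', hy', hyy⟩ := hy
        have hyM : y ∈ M := by
          have h1 : y = m * (y' : S) * (m : S)⁻¹ := by
            rw [Subgroup.coe_subtype] at hyy
            rw [hyy]; group
          rw [h1]
          exact M.mul_mem (M.mul_mem m.2 y'.2) (M.inv_mem m.2)
        have h1 : (⟨y, hyM⟩ : M) ∈ MulAut.conj m • (X : Subgroup M) := by
          rw [Subgroup.mem_pointwise_smul_iff_inv_smul_mem]
          have hyy2 : (MulAut.conj m)⁻¹ • (⟨y, hyM⟩ : M) = y' := by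
            apply Subtype.ext
            rw [Subgroup.coe_subtype] at hyy
            simp [MulAut.smul_def, MulAut.conj_apply, hyy]
          rw [hyy2]
          exact hy'
        rw [hm2, Subgroup.mem_subgroupOf] at h1
        exact h1
    have hnorm : (m : S)⁻¹ * h ∈ Subgroup.normalizer (XS : Set S) := by
      rw [Subgroup.mem_normalizer_iff]
      intro y
      have hy1 : ∀ u : S, u ∈ XS ↔ h * u * h⁻¹ ∈ Xc := by
        intro u
        rw [hXc]
        constructor
        · intro hu
          exact ⟨u, hu, by simp [MulAut.conj_apply]⟩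
        · rintro ⟨v, hv, hvu⟩
          simp only [MulEquiv.toMonoidHom_eq_coe, MonoidHom.coe_coe, MulAut.conj_apply] at hvu
          have : v = u := by
            have := hvu
            simpa using this
          rwa [← this]
      show y ∈ XS ↔ (m : S)⁻¹ * h * y * ((m : S)⁻¹ * h)⁻¹ ∈ XS
      rw [hy1 y, hm3]
      have : (m : S)⁻¹ * (h * y * h⁻¹) * m = (m : S)⁻¹ * h * y * ((m : S)⁻¹ * h)⁻¹ := by group
      rw [this]
    have hm4 := hN hnorm
    have : h = m * ((m : S)⁻¹ * h) := by group
    rw [this]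
    exact M.mul_mem m.2 hm4
  -- strong embedding
  have hstrong : ∀ g z : S, z ∈ M → orderOf z = 2 → g⁻¹ * z * g ∈ M → g ∈ M := by
    intro g z hz hz2 hgz
    have hgz2 : orderOf (g⁻¹ * z * g) = 2 := by
      have : g⁻¹ * z * g = (MulAut.conj g⁻¹) z := by simp [MulAut.conj_apply]
      rw [this, MulEquiv.orderOf_eq]
      exact hz2
    obtain ⟨h, hh, hhz⟩ := hconjM z hz hz2
    obtain ⟨h', hh', hhz'⟩ := hconjM _ hgz hgz2
    have hmem : h⁻¹ * g * h' ∈ M := by
      apply hC (I : S) I.2 hI'
      rw [Subgroup.mem_centralizer_singleton_iff]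
      have h1 : g * (h' * (I : S) * h'⁻¹) * g⁻¹ = z := by
        rw [hhz']; group
      rw [← hhz] at h1
      have h2 : g * h' * (I : S) = h * (I : S) * h⁻¹ * (g * h') := by
        calc g * h' * (I : S) = (g * (h' * (I : S) * h'⁻¹) * g⁻¹) * (g * h') := by group
          _ = _ := by rw [h1]
      calc h⁻¹ * g * h' * (I : S) = h⁻¹ * (g * h' * (I : S)) := by group
        _ = h⁻¹ * (h * (I : S) * h⁻¹ * (g * h')) := by rw [h2]
        _ = _ := by group
    have : g = h * (h⁻¹ * g * h') * h'⁻¹ := by group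
    rw [this]
    exact M.mul_mem (M.mul_mem hh hmem) (M.inv_mem hh')
  have ht' := mul_self_of_orderOf ht2
  have hti : t⁻¹ = t := inv_eq_of_mul_eq_one_left ht'
  refine ⟨?_, ?_⟩
  · intro x y hx hy
    have hx' : orderOf (x : S) = 2 := by rw [Subgroup.orderOf_coe]; exact hx
    have hy' : orderOf (y : S) = 2 := by rw [Subgroup.orderOf_coe]; exact hy
    obtain ⟨h, hh, hhx⟩ := hconjM x x.2 hx'
    obtain ⟨h', hh', hhy⟩ := hconjM y y.2 hy'
    rw [isConj_iff]
    refine ⟨⟨h', hh'⟩ * ⟨h, hh⟩⁻¹, ?_⟩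
    apply Subtype.ext
    simp only [Subgroup.coe_mul, Subgroup.coe_inv, InvMemClass.coe_inv, MulMemClass.coe_mul]
    rw [← hhx, ← hhy]
    group
  · refine ⟨(M.comap (MulAut.conj t).toMonoidHom).subgroupOf M, ?_, ?_⟩
    · rw [← Nat.not_even_iff_odd]
      intro he
      obtain ⟨e, he2⟩ := exists_invol_of_even he
      have he3 : orderOf (((e : M) : S)) = 2 := by
        rw [Subgroup.orderOf_coe, Subgroup.orderOf_coe]; exact he2
      have he4 : t * ((e : M) : S) * t⁻¹ ∈ M := by
        have := e.2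
        rw [Subgroup.mem_subgroupOf, Subgroup.mem_comap] at this
        simpa [MulAut.conj_apply] using this
      have h1 := hstrong t⁻¹ ((e : M) : S) (e : M).2 he3 (by simpa using he4)
      rw [hti] at h1
      exact htM h1
    · intro m
      obtain ⟨i, hi⟩ : ∃ i : S, i = m * (I : S) * (m : S)⁻¹ := ⟨_, rfl⟩
      have hiM : i ∈ M := by
        rw [hi]; exact M.mul_mem (M.mul_mem m.2 I.2) (M.inv_mem m.2)
      have hi2 : orderOf i = 2 := by
        have : i = (MulAut.conj (m : S)) (I : S) := by simp [MulAut.conj_apply, hi]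
        rw [this, MulEquiv.orderOf_eq]
        exact hI'
      obtain ⟨u, hu⟩ : ∃ u : S, u = t * i * t⁻¹ := ⟨_, rfl⟩
      have hu2 : orderOf u = 2 := by
        have : u = (MulAut.conj t) i := by simp [MulAut.conj_apply, hu]
        rw [this, MulEquiv.orderOf_eq]
        exact hi2
      have huM : u ∉ M := by
        intro huM
        apply htM
        apply hstrong t u huM hu2
        have : t⁻¹ * u * t = i := by rw [hu]; group
        rw [this]
        exact hiM
      obtain ⟨s, hs, hsI⟩ := exists_invol_conj (I : S) u (mul_self_of_orderOf hI')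
        (mul_self_of_orderOf hu2) (odd_mul M hC I.2 hI' hu2 huM)
      have hsi : s⁻¹ = s := inv_eq_of_mul_eq_one_left hs
      obtain ⟨d, hd⟩ : ∃ d : S, d = t⁻¹ * s := ⟨_, rfl⟩
      have hdI : d * (I : S) * d⁻¹ = i := by
        have h1 : t⁻¹ * u * t = i := by rw [hu]; group
        rw [← h1, ← hsI, hd]
        group
      have hdM : d ∈ M := by
        apply hstrong d i hiM hi2
        have : d⁻¹ * i * d = (I : S) := by rw [← hdI]; group
        rw [this]
        exact I.2
      have hdt : t * d * t⁻¹ ∈ M := by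
        have : t * d * t⁻¹ = d⁻¹ := by
          rw [hd, mul_inv_rev, hsi, inv_inv, hti]
          calc t * (t * s) * t = (t * t) * s * t := by group
            _ = s * t := by rw [ht']; group
        rw [this]
        exact M.inv_mem hdM
      refine ⟨⟨d, hdM⟩, ?_, ⟨d, hdM⟩⁻¹ * m, ?_, by group⟩
      · rw [Subgroup.mem_subgroupOf, Subgroup.mem_comap]
        simpa [MulAut.conj_apply] using hdt
      · rw [Subgroup.mem_centralizer_singleton_iff]
        apply Subtype.ext
        simp only [Subgroup.coe_mul, Subgroup.coe_inv, InvMemClass.coe_inv, MulMemClass.coe_mul]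
        have h3 : (m : S) * (I : S) = i * m := by rw [hi]; group
        have h4 : d * (I : S) = i * d := by rw [← hdI]; group
        calc d⁻¹ * (m : S) * (I : S) = d⁻¹ * ((m : S) * (I : S)) := by group
          _ = d⁻¹ * (i * m) := by rw [h3]
          _ = (d⁻¹ * i) * m := by group
          _ = ((I : S) * d⁻¹) * m := by
            have : d⁻¹ * i = (I : S) * d⁻¹ := by rw [← hdI]; group
            rw [this]
          _ = _ := by group

end Cfsg.Agent.S1905
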