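import Mathlib
import Cfsg.Statements.S1906
import Mathlib
import Cfsg.Agent.Lib.CentInvTransfer
import Cfsg.Agent.Lib.BrolineGT

set_option autoImplicit false
open Cfsg

namespace Cfsg.Agent.S1906

open Subgroup

section LemmaB

variable {F V : Type*} [Field F] [AddCommGroup V] [Module F V]

theorem span_common_eigen (h2 : (2 : F) ≠ 0) (S : Finset (Module.End F V))
    (hc : ∀ T ∈ S, ∀ T' ∈ S, T * T' = T' * T) (hi : ∀ T ∈ S, T * T = 1) :
    Submodule.span F {v : V | ∀ T ∈ S, T v = v ∨ T v = -v} = ⊤ := by
  classical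
  have key : ∀ A : Finset (Module.End F V), A ⊆ S →
      Submodule.span F {v : V | ∀ T ∈ A, T v = v ∨ T v = -v} = ⊤ := by
    intro A
    induction A using Finset.induction_on with
    | empty => intro _; simp
    | insert e A he ih =>
      intro hA
      have hA' := ih (subset_trans (Finset.subset_insert e A) hA)
      rw [eq_top_iff, ← hA', Submodule.span_le]
      intro w hw
      have heS : e ∈ S := hA (Finset.mem_insert_self _ _)
      have hee : ∀ x, e (e x) = x := fun x => by
        have := LinearMap.congr_fun (hi e heS) x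
        simpa using this
      have hcom : ∀ T ∈ A, ∀ x, T (e x) = e (T x) := fun T hT x => by
        have := LinearMap.congr_fun (hc T (hA (Finset.mem_insert_of_mem hT)) e heS) x
        simpa using this
      have hp : w + e w ∈ Submodule.span F {v : V | ∀ T ∈ insert e A, T v = v ∨ T v = -v} := by
        apply Submodule.subset_span
        intro T hT
        rcases Finset.mem_insert.mp hT with rfl | hT
        · left; rw [map_add, hee, add_comm]
        · rcases hw T hT with h | h
          · left; rw [map_add, hcom T hT, h]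
          · right; rw [map_add, hcom T hT, h, map_neg]; abel
      have hm : w - e w ∈ Submodule.span F {v : V | ∀ T ∈ insert e A, T v = v ∨ T v = -v} := by
        apply Submodule.subset_span
        intro T hT
        rcases Finset.mem_insert.mp hT with rfl | hT
        · right; rw [map_sub, hee]; abel
        · rcases hw T hT with h | h
          · left; rw [map_sub, hcom T hT, h]
          · right; rw [map_sub, hcom T hT, h, map_neg]; abel
      have hw' : w = (2 : F)⁻¹ • ((w + e w) + (w - e w)) := by
        have : (w + e w) + (w - e w) = (2 : F) • w := by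
          rw [two_smul]; abel
        rw [this, smul_smul, inv_mul_cancel₀ h2, one_smul]
      show w ∈ _
      rw [hw']
      exact Submodule.smul_mem _ _ (Submodule.add_mem _ hp hm)
  exact key S (subset_refl S)

/-- Eight commuting involutions on a 3-space: `-1` is among them, and the centralizer is
commutative. -/
theorem lemmaB [Module.Finite F V] (h2 : (2 : F) ≠ 0) (hdim : Module.finrank F V = 3)
    (S : Finset (Module.End F V))
    (hc : ∀ T ∈ S, ∀ T' ∈ S, T * T' = T' * T) (hi : ∀ T ∈ S, T * T = 1) (h8 : 8 ≤ S.card) :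
    (-1 ∈ S) ∧ ∀ g g' : Module.End F V, (∀ T ∈ S, g * T = T * g) → (∀ T ∈ S, g' * T = T * g') →
      g * g' = g' * g := by
  classical
  have hspan := span_common_eigen h2 S hc hi
  obtain ⟨b, hbJ, hbspan, hbli⟩ := exists_linearIndependent F {v : V | ∀ T ∈ S, T v = v ∨ T v = -v}
  have htop : ⊤ ≤ Submodule.span F (Set.range (Subtype.val : b → V)) := by
    rw [Subtype.range_coe, hbspan, hspan]
  let B := Module.Basis.mk hbli htop
  have hBv : ∀ v : b, B v = (v : V) := fun v => by simp [B]
  haveI : Finite b := Module.Finite.finite_basis B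
  haveI : Fintype b := Fintype.ofFinite b
  have hcardb : Fintype.card b = 3 := by
    rw [← Module.finrank_eq_card_basis B, hdim]
  let Φ : S → (b → Bool) := fun T v => decide ((T : Module.End F V) v = v)
  have hΦinj : Function.Injective Φ := by
    intro T T' hTT
    apply Subtype.ext
    apply B.ext
    intro v
    rw [hBv]
    have h1 := congrFun hTT v
    simp only [Φ, decide_eq_decide] at h1
    rcases hbJ v.2 T T.2 with h | h
    · rw [h]; exact (h1.mp h).symm
    · by_cases hT : (T : Module.End F V) v = v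
      · rw [hT]; exact (h1.mp hT).symm
      · have hT' : ¬ (T' : Module.End F V) v = v := fun h3 => hT (h1.mpr h3)
        rw [h, (hbJ v.2 T' T'.2).resolve_left hT']
  have hΦsurj : Function.Surjective Φ := by
    have hcard : Fintype.card S = Fintype.card (b → Bool) := by
      have h1 := Fintype.card_le_of_injective Φ hΦinj
      have h3 : Fintype.card (b → Bool) = 8 := by
        simp [hcardb]
      have h4 : Fintype.card S = S.card := Fintype.card_coe S
      omega
    exact ((Fintype.bijective_iff_injective_and_card Φ).mpr ⟨hΦinj, hcard⟩).2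
  constructor
  · obtain ⟨T, hT⟩ := hΦsurj (fun _ => false)
    have : (T : Module.End F V) = -1 := by
      apply B.ext
      intro v
      rw [hBv]
      have h1 := congrFun hT v
      simp only [Φ, decide_eq_false_iff_not] at h1
      have := (hbJ v.2 T T.2).resolve_left h1
      simpa using this
    rw [← this]; exact T.2
  · have hdiag : ∀ g : Module.End F V, (∀ T ∈ S, g * T = T * g) → ∀ v : b, ∃ c : F, g v = c • (v : V) := by
      intro g hg v
      refine ⟨B.repr (g v) v, ?_⟩
      have hzero : ∀ w : b, w ≠ v → B.repr (g v) w = 0 := by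
        intro w hwv
        obtain ⟨T, hT⟩ := hΦsurj (fun x => decide (x = v))
        have hTv : (T : Module.End F V) v = v := by
          have h1 := congrFun hT v
          simpa [Φ] using h1
        have hTx : ∀ x : b, x ≠ v → (T : Module.End F V) x = -(x : V) := by
          intro x hx
          have h1 := congrFun hT x
          simp only [Φ, decide_eq_decide] at h1
          have h3 : ¬ (T : Module.End F V) x = x := fun h => hx (h1.mp h)
          exact (hbJ x.2 T T.2).resolve_left h3
        have hlam : (B.coord w) ∘ₗ (T : Module.End F V) = -(B.coord w) := by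
          apply B.ext
          intro x
          rw [hBv]
          by_cases hx : x = v
          · subst hx
            have h0 : B.coord w (x : V) = 0 := by
              rw [← hBv]; simp [Module.Basis.coord_apply, Finsupp.single_apply, hwv.symm]
            simp [hTv, h0]
          · simp [hTx x hx]
        have hgT : (T : Module.End F V) (g v) = g v := by
          have h1 := LinearMap.congr_fun (hg T T.2) (v : V)
          simp only [Module.End.mul_apply, hTv] at h1
          exact h1.symm
        have h3 := LinearMap.congr_fun hlam (g v)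
        simp only [LinearMap.comp_apply, hgT, LinearMap.neg_apply] at h3
        have h4 : (2 : F) * (B.coord w) (g v) = 0 := by
          rw [two_mul]; nth_rw 1 [h3]; simp
        have h5 := (mul_eq_zero.mp h4).resolve_left h2
        simpa [Module.Basis.coord_apply] using h5
      have h6 := B.sum_repr (g v)
      rw [Finset.sum_eq_single v (fun w _ hw => by rw [hzero w hw, zero_smul]) (by simp), hBv] at h6
      exact h6.symm
    intro g g' hg hg'
    apply B.ext
    intro v
    rw [hBv]
    obtain ⟨c, hcg⟩ := hdiag g hg v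
    obtain ⟨c', hcg'⟩ := hdiag g' hg' v
    simp only [Module.End.mul_apply, hcg, hcg', map_smul, smul_smul, mul_comm]

end LemmaB

section Group

variable {F V P : Type*} [Field F] [AddCommGroup V] [Module F V] [Group P]

theorem lemmaC [Module.Finite F V] (ρ : P →* Module.End F V) (hρ : Function.Injective ρ)
    (h2 : (2 : F) ≠ 0) (hdim : Module.finrank F V = 3) (Ω : Subgroup P) [Finite Ω]
    (hcomm : ∀ x ∈ Ω, ∀ y ∈ Ω, x * y = y * x) (hsq : ∀ x ∈ Ω, x * x = 1) (h8 : 8 ≤ Nat.card Ω) :
    (∃ u ∈ Ω, ρ u = -1) ∧
      ∀ p q : P, (∀ x ∈ Ω, p * x = x * p) → (∀ x ∈ Ω, q * x = x * q) → p * q = q * p := by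
  classical
  haveI : Fintype Ω := Fintype.ofFinite Ω
  let S : Finset (Module.End F V) := Finset.univ.image (fun x : Ω => ρ x)
  have hS : ∀ T, T ∈ S ↔ ∃ x ∈ Ω, ρ x = T := by
    intro T
    simp only [S, Finset.mem_image, Finset.mem_univ, true_and, Subtype.exists, exists_prop]
  have hcard : S.card = Nat.card Ω := by
    rw [Finset.card_image_of_injective, Finset.card_univ, Nat.card_eq_fintype_card]
    intro x y hxy
    exact Subtype.ext (hρ hxy)
  obtain ⟨h1, h3⟩ := lemmaB h2 hdim S
    (by
      intro T hT T' hT'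
      obtain ⟨x, hx, rfl⟩ := (hS T).1 hT
      obtain ⟨y, hy, rfl⟩ := (hS T').1 hT'
      rw [← map_mul, ← map_mul, hcomm x hx y hy])
    (by
      intro T hT
      obtain ⟨x, hx, rfl⟩ := (hS T).1 hT
      rw [← map_mul, hsq x hx, map_one])
    (by omega)
  refine ⟨(hS _).1 h1, ?_⟩
  intro p q hp hq
  apply hρ
  rw [map_mul, map_mul]
  apply h3
  · intro T hT
    obtain ⟨x, hx, rfl⟩ := (hS T).1 hT
    rw [← map_mul, ← map_mul, hp x hx]
  · intro T hT
    obtain ⟨x, hx, rfl⟩ := (hS T).1 hT
    rw [← map_mul, ← map_mul, hq x hx]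

theorem lemmaD [Finite P] [Module.Finite F V] (hP : IsPGroup 2 P) (ρ : P →* Module.End F V)
    (hρ : Function.Injective ρ) (h2 : (2 : F) ≠ 0) (hdim : Module.finrank F V = 3)
    (hnP : ∀ u : P, ρ u = -1 → u ∉ commutator P)
    (E : Subgroup P) (hEc : ∀ x ∈ E, ∀ y ∈ E, x * y = y * x) (hEs : ∀ x ∈ E, x * x = 1)
    (hE8 : Nat.card E = 8) (hnc : ¬ ∀ p q : P, p * q = q * p) :
    ∃ u : P, (∀ x, x * u = u * x) ∧ u ^ 2 = 1 ∧ u ∉ commutator P ∧
      ∀ t : P, (∀ x, x * t = t * x) → t ^ 2 = 1 → t ∉ commutator P →
        Abelianization.of t = Abelianization.of u := by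
  classical
  haveI : Fact (Nat.Prime 2) := ⟨Nat.prime_two⟩
  obtain ⟨⟨u, huE, hu⟩, -⟩ := lemmaC ρ hρ h2 hdim E hEc hEs (by omega)
  have huc : ∀ x, x * u = u * x := by
    intro x
    apply hρ
    rw [map_mul, map_mul, hu]
    simp
  have hun := hnP u hu
  refine ⟨u, huc, by rw [pow_two]; exact hEs u huE, hun, ?_⟩
  intro t htc ht2 htn
  by_contra hne
  have hcne : commutator P ≠ ⊥ := by
    intro hbot
    apply hnc
    intro p q
    have h1 : p * q * p⁻¹ * q⁻¹ ∈ commutator P := by
      have h0 := Subgroup.commutator_mem_commutator (mem_top p) (mem_top q)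
      rwa [commutatorElement_def] at h0
    rw [hbot, Subgroup.mem_bot] at h1
    have h3 : p * q * p⁻¹ = q := mul_inv_eq_one.mp h1
    exact mul_inv_eq_iff_eq_mul.mp h3
  haveI : Group.IsNilpotent P := hP.isNilpotent
  have hZ := Cfsg.Agent.Lib.BrolineGT.inf_center_ne_bot (commutator P) hcne
  -- an involution in `P' ∩ Z(P)`
  have hZp : IsPGroup 2 ((commutator P ⊓ Subgroup.center P : Subgroup P)) := hP.to_subgroup _
  obtain ⟨n, hn⟩ := (IsPGroup.iff_card).1 hZp
  have hn0 : n ≠ 0 := by
    rintro rfl
    rw [pow_zero] at hn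
    exact hZ (Subgroup.card_eq_one.mp hn)
  have hdvd : 2 ∣ Nat.card ((commutator P ⊓ Subgroup.center P : Subgroup P)) := by
    rw [hn]; exact dvd_pow_self 2 hn0
  obtain ⟨z', hz'⟩ := exists_prime_orderOf_dvd_card' 2 hdvd
  let z : P := z'
  have hzmem : z ∈ commutator P ∧ z ∈ Subgroup.center P := z'.2
  have hzord : orderOf z = 2 := by
    rw [← hz']; exact Subgroup.orderOf_coe z'
  have hz1 : z ≠ 1 := by
    intro h; rw [h, orderOf_one] at hzord; omega
  have hz2 : z * z = 1 := by
    rw [← pow_two, ← hzord]; exact pow_orderOf_eq_one z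
  have hzc : ∀ x, x * z = z * x := fun x => (Subgroup.mem_center_iff.mp hzmem.2 x)
  have hofz : Abelianization.of z = 1 := by
    have : z ∈ (Abelianization.of (G := P)).ker := by
      rw [Abelianization.ker_of]; exact hzmem.1
    exact this
  -- `Ω₁(Z(P))`
  let Ω : Subgroup P :=
    { carrier := {x | (∀ y, y * x = x * y) ∧ x * x = 1}
      mul_mem' := by
        intro a b ha hb
        refine ⟨fun y => ?_, ?_⟩
        · rw [← mul_assoc, ha.1 y, mul_assoc, hb.1 y, mul_assoc]
        · calc a * b * (a * b) = a * (b * a) * b := by group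
            _ = a * (a * b) * b := by rw [ha.1 b]
            _ = (a * a) * (b * b) := by group
            _ = 1 := by rw [ha.2, hb.2, one_mul]
      one_mem' := ⟨by simp, by simp⟩
      inv_mem' := by
        intro a ha
        refine ⟨fun y => ?_, ?_⟩
        · have := ha.1 y
          calc y * a⁻¹ = a⁻¹ * (a * y) * a⁻¹ := by group
            _ = a⁻¹ * (y * a) * a⁻¹ := by rw [ha.1 y]
            _ = a⁻¹ * y := by group
        · have h3 : a⁻¹ = a := inv_eq_of_mul_eq_one_left ha.2
          rw [h3]; exact ha.2 }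
  have hΩmem : ∀ x, x ∈ Ω ↔ (∀ y, y * x = x * y) ∧ x * x = 1 := fun x => Iff.rfl
  have hu1 : u ≠ 1 := fun h => hun (h ▸ one_mem _)
  have hu2' : u * u = 1 := hEs u huE
  have ht1 : t ≠ 1 := fun h => htn (h ▸ one_mem _)
  have huz : Abelianization.of (u * z) = Abelianization.of u := by
    rw [map_mul, hofz, mul_one]
  let F5 : Finset P := {1, u, z, u * z, t}
  have h5 : F5.card = 5 := by
    have a1 : (1 : P) ≠ u := hu1.symm
    have a2 : (1 : P) ≠ z := hz1.symm
    have a3 : (1 : P) ≠ u * z := fun h => hun (by
      have : u = z⁻¹ := eq_inv_of_mul_eq_one_left h.symm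
      rw [this]; exact inv_mem hzmem.1)
    have a4 : (1 : P) ≠ t := ht1.symm
    have a5 : u ≠ z := fun h => hun (h ▸ hzmem.1)
    have a6 : u ≠ u * z := fun h => hz1 (by simpa using h.symm)
    have a7 : u ≠ t := fun h => hne (by rw [h])
    have a8 : z ≠ u * z := fun h => hu1 (by simpa using h.symm)
    have a9 : z ≠ t := fun h => htn (h ▸ hzmem.1)
    have a10 : u * z ≠ t := fun h => hne (by rw [← h, huz])
    simp [F5, Finset.card_insert_of_notMem, a1, a2, a3, a4, a5, a6, a7, a8, a9, a10]
  have hF5 : (F5 : Set P) ⊆ (Ω : Set P) := by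
    intro x hx
    simp only [F5, Finset.coe_insert, Finset.coe_singleton, Set.mem_insert_iff,
      Set.mem_singleton_iff] at hx
    rcases hx with rfl | rfl | rfl | rfl | rfl
    · exact one_mem Ω
    · exact ⟨huc, hu2'⟩
    · exact ⟨hzc, hz2⟩
    · exact mul_mem (show u ∈ Ω from ⟨huc, hu2'⟩) (show z ∈ Ω from ⟨hzc, hz2⟩)
    · exact ⟨htc, by rw [← pow_two]; exact ht2⟩
  have hΩ5 : 5 ≤ Nat.card Ω := by
    have h1 := Set.ncard_le_ncard hF5 (Set.toFinite _)
    rw [Set.ncard_coe_finset, h5] at h1
    have h6 : Nat.card Ω = (Ω : Set P).ncard := Nat.card_coe_set_eq (Ω : Set P)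
    rw [h6]
    exact h1
  have hΩ8 : 8 ≤ Nat.card Ω := by
    have hpg : IsPGroup 2 Ω := hP.to_subgroup Ω
    obtain ⟨k, hk⟩ := (IsPGroup.iff_card).1 hpg
    rw [hk] at hΩ5 ⊢
    have hk3 : 3 ≤ k := by
      by_contra hlt
      have : 2 ^ k ≤ 2 ^ 2 := Nat.pow_le_pow_right (by norm_num) (by omega)
      omega
    calc 8 = 2 ^ 3 := by norm_num
      _ ≤ 2 ^ k := Nat.pow_le_pow_right (by norm_num) hk3
  apply hnc
  intro p q
  refine (lemmaC ρ hρ h2 hdim Ω (fun x hx y hy => ?_) (fun x hx => hx.2) hΩ8).2 p q
    (fun x hx => hx.1 p) (fun x hx => hx.1 q)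
  exact (hy.1 x)

end Group


/-- Let G be a finite group with no subgroup of index 2 whose Sylow 2-subgroup X embeds in GL₃(F) for a finite field F of odd order. If X contains an elementary abelian subgroup of order 8, then X is abelian. -/
theorem result {G : Type*} [Group G] [Finite G] (hG : ∀ H : Subgroup G, H.index ≠ 2) (X : Sylow 2 G)
    {F : Type*} [Field F] [Fintype F] (hF : Odd (Fintype.card F))
    (f : ↥(X : Subgroup G) →* GL (Fin 3) F) (hf : Function.Injective f)
    (E : Subgroup G) (hE : E ≤ (X : Subgroup G)) (hEa : Cfsg.IsElementaryAbelian 2 E) (hE8 : Nat.card E = 8) :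
    IsMulCommutative (X : Subgroup G) := by
  classical
  haveI : Fact (Nat.Prime 2) := ⟨Nat.prime_two⟩
  have hP : IsPGroup 2 (X : Subgroup G) := X.isPGroup'
  by_contra hnc
  have hnc' : ¬ ∀ p q : (X : Subgroup G), p * q = q * p := fun h => hnc ⟨⟨h⟩⟩
  have h2 : (2 : F) ≠ 0 := by
    apply Ring.two_ne_zero
    intro hch
    have := FiniteField.even_card_iff_char_two.mp hch
    rw [Nat.odd_iff] at hF
    omega
  let ψ : Matrix (Fin 3) (Fin 3) F ≃ₐ[F] Module.End F (Fin 3 → F) := Matrix.toLinAlgEquiv'
  let φ : GL (Fin 3) F →* Module.End F (Fin 3 → F) :=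
    (MonoidHomClass.toMonoidHom ψ).comp (Units.coeHom _)
  have hφ : Function.Injective φ := by
    intro a b hab
    exact Units.ext (ψ.injective hab)
  let ρ : (X : Subgroup G) →* Module.End F (Fin 3 → F) := φ.comp f
  have hρ : Function.Injective ρ := hφ.comp hf
  have hdim : Module.finrank F (Fin 3 → F) = 3 := by simp
  have hnP : ∀ u : (X : Subgroup G), ρ u = -1 → u ∉ commutator (X : Subgroup G) := by
    intro u hu hmem
    let d : (X : Subgroup G) →* Fˣ := Matrix.GeneralLinearGroup.det.comp f
    have h1 : d u = 1 := Abelianization.commutator_subset_ker d hmem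
    have h3 : ((f u : GL (Fin 3) F) : Matrix (Fin 3) (Fin 3) F) = -1 := by
      apply ψ.injective
      rw [map_neg, map_one]
      exact hu
    have h4 : ((d u : Fˣ) : F) = -1 := by
      show Matrix.det ((f u : GL (Fin 3) F) : Matrix (Fin 3) (Fin 3) F) = -1
      rw [h3, Matrix.det_neg]
      simp
      ring
    rw [h1, Units.val_one] at h4
    apply h2
    have : (2 : F) = 1 - (-1) := by ring
    rw [this, ← h4]; ring
  have hE8' : Nat.card (E.subgroupOf (X : Subgroup G)) = 8 := by
    rw [← hE8]
    exact Nat.card_congr (Subgroup.subgroupOfEquivOfLe hE).toEquiv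
  obtain ⟨u, huc, hu2, hun, huniq⟩ := lemmaD hP ρ hρ h2 hdim hnP (E.subgroupOf (X : Subgroup G))
    (by
      intro x hx y hy
      have h1 := hEa.1.is_comm.comm (⟨x, hx⟩ : E) ⟨y, hy⟩
      exact Subtype.ext (congrArg (fun z : E => (z : G)) h1))
    (by
      intro x hx
      have h1 := hEa.2 x hx
      apply Subtype.ext
      simpa [pow_two] using h1)
    hE8' hnc'
  have hN : ∀ g ∈ normalizer ((X : Subgroup G) : Set G), ∀ h : g⁻¹ * u * g ∈ (X : Subgroup G),
      (Abelianization.of (G := (X : Subgroup G))) ⟨g⁻¹ * u * g, h⟩ = Abelianization.of u := by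
    intro g hg h
    let α : MulAut (X : Subgroup G) :=
      (X : Subgroup G).normalizerMonoidHom ⟨g⁻¹, inv_mem hg⟩
    have hαv : ∀ x : (X : Subgroup G), ((α x : (X : Subgroup G)) : G) = g⁻¹ * x * g := by
      intro x
      show g⁻¹ * (x : G) * g⁻¹⁻¹ = _
      rw [inv_inv]
    have htu : (⟨g⁻¹ * u * g, h⟩ : (X : Subgroup G)) = α u := Subtype.ext (hαv u).symm
    rw [htu]
    apply huniq
    · intro x
      obtain ⟨x', rfl⟩ := α.surjective x
      rw [← map_mul, ← map_mul, huc]
    · rw [← map_pow, hu2, map_one]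
    · intro hmem
      apply hun
      have hch : (commutator (X : Subgroup G)).Characteristic := inferInstance
      have h1 := (Subgroup.characteristic_iff_comap_eq.mp hch) α
      rw [← h1]
      exact hmem
  have hT := Cfsg.Agent.Lib.CentInvTransfer.transfer_central_involution X
    (Abelianization.of (G := (X : Subgroup G))) u huc hu2 hN
  have hA : IsPGroup 2 (Abelianization (X : Subgroup G)) :=
    hP.of_surjective Abelianization.of (QuotientGroup.mk'_surjective _)
  have h1 := Cfsg.Agent.Lib.CentInvTransfer.hom_trivial_of_no_index_two hG hA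
    ((Abelianization.of (G := (X : Subgroup G))).transfer) (u : G)
  rw [hT] at h1
  apply hun
  rw [← Abelianization.ker_of]
  exact h1

end Cfsg.Agent.S1906
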