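import Mathlib
import Cfsg.Statements.S1907
import Cfsg.Agent.Lib.PPrimeP

set_option autoImplicit false
open Cfsg

namespace Cfsg.Agent.S1907

open Cfsg.Agent.Lib.PPrimeP Cfsg.Agent.Lib.PCore Cfsg.Agent.Lib.SylowConjLemmas

variable {G : Type*} [Group G] [Finite G] {p : ℕ} [Fact p.Prime]

theorem conj_orderOf (g x : G) : orderOf (g * x * g⁻¹) = orderOf x := by
  simpa using MulEquiv.orderOf_eq (MulAut.conj g) x

/-- In `⟨y⟩ M` (with `y` a `p`-element normalizing the `p'`-group `M`), a `p`-element `x ∈ y M` is `M`-conjugate to `y`. -/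
theorem exists_conj_of_mem_coset (x y : G) (M : Subgroup G)
    (hyN : y ∈ Subgroup.normalizer (M : Set G)) (hyp : ∃ k : ℕ, orderOf y = p ^ k)
    (hxp : ∃ k : ℕ, orderOf x = p ^ k) (hM : (Nat.card M).Coprime p) (m : G) (hm : m ∈ M)
    (hx : x = y * m) : ∃ m' ∈ M, m' * x * m'⁻¹ = y := by
  set L : Subgroup G := Subgroup.zpowers y ⊔ M with hL
  have hyL : y ∈ L := (le_sup_left : Subgroup.zpowers y ≤ L) (Subgroup.mem_zpowers y)
  have hML : M ≤ L := le_sup_right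
  have hxL : x ∈ L := by rw [hx]; exact L.mul_mem hyL (hML hm)
  have hLN : L ≤ Subgroup.normalizer (M : Set G) :=
    sup_le ((Subgroup.zpowers_le).mpr hyN) Subgroup.le_normalizer
  let ML : Subgroup L := M.subgroupOf L
  haveI hMLn : ML.Normal := (Subgroup.normal_subgroupOf_iff_le_normalizer hML).mpr hLN
  let Z : Subgroup L := (Subgroup.zpowers y).subgroupOf L
  have hyZp : IsPGroup p (Subgroup.zpowers y) := by
    obtain ⟨k, hk⟩ := hyp
    rw [IsPGroup.iff_card, Nat.card_zpowers]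
    exact ⟨k, hk⟩
  have hZp : IsPGroup p Z := hyZp.comap_of_injective L.subtype L.subtype_injective
  obtain ⟨Q, hZQ⟩ := hZp.exists_le_sylow
  have hsup : Z ⊔ ML = ⊤ := by
    apply Subgroup.map_injective L.subtype_injective
    rw [Subgroup.map_sup, Subgroup.map_subgroupOf_eq_of_le le_sup_left,
      Subgroup.map_subgroupOf_eq_of_le hML]
    simp [← MonoidHom.range_eq_map, hL]
  have hQM : (Q : Subgroup L) ⊓ ML = ⊥ := by
    apply eq_bot_of_isPGroup_of_coprime (p := p) (Q.isPGroup'.to_le inf_le_left)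
    have h1 : Nat.card ↥((Q : Subgroup L) ⊓ ML) ∣ Nat.card ML :=
      Subgroup.card_dvd_of_le inf_le_right
    have h2 : Nat.card ML ∣ Nat.card M := by
      have : Nat.card ML = Nat.card (ML.map L.subtype) :=
        (Subgroup.card_map_of_injective L.subtype_injective).symm
      rw [this, Subgroup.map_subgroupOf_eq_of_le hML]
    exact Nat.Coprime.coprime_dvd_left (h1.trans h2) hM
  let T : Subgroup L := (Subgroup.zpowers x).subgroupOf L
  have hxZp : IsPGroup p (Subgroup.zpowers x) := by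
    obtain ⟨k, hk⟩ := hxp
    rw [IsPGroup.iff_card, Nat.card_zpowers]
    exact ⟨k, hk⟩
  have hTp : IsPGroup p T := hxZp.comap_of_injective L.subtype L.subtype_injective
  have hTsup : T ≤ (Q : Subgroup L) ⊔ ML := by
    have : (⊤ : Subgroup L) ≤ (Q : Subgroup L) ⊔ ML := by
      rw [← hsup]
      exact sup_le_sup_right hZQ _
    exact le_top.trans this
  obtain ⟨h, hh, hconj⟩ := exists_conj_mem_of_le_sup Q ML T hTp hTsup
  have hx1 : (⟨x, hxL⟩ : L) ∈ T := by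
    rw [Subgroup.mem_subgroupOf]
    exact Subgroup.mem_zpowers x
  have hq := hconj _ hx1
  set q : L := h * ⟨x, hxL⟩ * h⁻¹ with hqdef
  -- `q ∈ Z`
  have hqZ : q ∈ Z := by
    have hq2 : q ∈ Z ⊔ ML := by rw [hsup]; exact Subgroup.mem_top q
    obtain ⟨z, hz, m0, hm0, hzm⟩ := Subgroup.mem_sup_of_normal_right.mp hq2
    have hm0Q : m0 ∈ (Q : Subgroup L) ⊓ ML := by
      refine ⟨?_, hm0⟩
      have : m0 = z⁻¹ * q := by rw [← hzm]; group
      rw [this]
      exact (Q : Subgroup L).mul_mem ((Q : Subgroup L).inv_mem (hZQ hz)) hq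
    rw [hQM, Subgroup.mem_bot] at hm0Q
    rw [← hzm, hm0Q, mul_one]
    exact hz
  have hqG : (q : G) = (h : G) * x * (h : G)⁻¹ := by simp [hqdef]
  have hhM : (h : G) ∈ M := hh
  have hqZ' : (q : G) ∈ Subgroup.zpowers y := hqZ
  -- `q ∈ y M`
  have hyi : y⁻¹ ∈ Subgroup.normalizer (M : Set G) := Subgroup.inv_mem _ hyN
  have hm1 : y⁻¹ * (q : G) ∈ M := by
    have e : y⁻¹ * (q : G) = (y⁻¹ * (h : G) * y⁻¹⁻¹) * m * (h : G)⁻¹ := by
      rw [hqG, hx]; group
    rw [e]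
    refine M.mul_mem (M.mul_mem ?_ hm) (M.inv_mem hhM)
    exact (Subgroup.mem_normalizer_iff.mp hyi _).mp hhM
  have hm2 : y⁻¹ * (q : G) ∈ Subgroup.zpowers y :=
    (Subgroup.zpowers y).mul_mem ((Subgroup.zpowers y).inv_mem (Subgroup.mem_zpowers y)) hqZ'
  have hbot : Subgroup.zpowers y ⊓ M = ⊥ := by
    apply eq_bot_of_isPGroup_of_coprime (p := p) (hyZp.to_le inf_le_left)
    exact Nat.Coprime.coprime_dvd_left (Subgroup.card_dvd_of_le inf_le_right) hM
  have hm3 : y⁻¹ * (q : G) ∈ Subgroup.zpowers y ⊓ M := ⟨hm2, hm1⟩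
  rw [hbot, Subgroup.mem_bot] at hm3
  have hqy : (q : G) = y := by
    have := eq_of_inv_mul_eq_one hm3
    exact this.symm
  exact ⟨h, hhM, by rw [← hqG, hqy]⟩

/-- Let P be a Sylow p-subgroup of a finite group G, H = P ∩ O_{p',p}(G), N = N_G(H) and D = O_{p'}(G). (a) If y is an element of p-power order of N and d ∈ D with d⁻¹ y d ∈ N, then d = d₁ d₂ with d₁ ∈ C_D(y) and d₂ ∈ C_D(H). (b) Two elements of P that are conjugate in G are conjugate in N. -/
theorem result {G : Type*} [Group G] [Finite G] {p : ℕ} [Fact p.Prime] (P : Sylow p G) :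
    (∀ y ∈ Subgroup.normalizer (((P : Subgroup G) ⊓ Cfsg.pPrimePCore p G : Subgroup G) : Set G), (∃ k : ℕ, orderOf y = p ^ k) →
      ∀ d ∈ Cfsg.pPrimeCore p G, d⁻¹ * y * d ∈ Subgroup.normalizer (((P : Subgroup G) ⊓ Cfsg.pPrimePCore p G : Subgroup G) : Set G) →
        ∃ d₁ ∈ Cfsg.pPrimeCore p G ⊓ Subgroup.centralizer ({y} : Set G),
          ∃ d₂ ∈ Cfsg.pPrimeCore p G ⊓ Subgroup.centralizer (((P : Subgroup G) ⊓ Cfsg.pPrimePCore p G : Subgroup G) : Set G), d = d₁ * d₂) ∧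
    ∀ x y : G, x ∈ (P : Subgroup G) → y ∈ (P : Subgroup G) → IsConj x y →
      ∃ n ∈ Subgroup.normalizer (((P : Subgroup G) ⊓ Cfsg.pPrimePCore p G : Subgroup G) : Set G), n * x * n⁻¹ = y := by
  set H : Subgroup G := (P : Subgroup G) ⊓ pPrimePCore p G with hH
  set D := pPrimeCore p G with hD
  have hHp : IsPGroup p H := P.isPGroup'.to_le inf_le_left
  have hHD : H ⊓ D = ⊥ := inf_pPrimeCore_eq_bot hHp
  have partA : ∀ y ∈ Subgroup.normalizer (H : Set G), (∃ k : ℕ, orderOf y = p ^ k) →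
      ∀ d ∈ D, d⁻¹ * y * d ∈ Subgroup.normalizer (H : Set G) →
        ∃ d₁ ∈ D ⊓ Subgroup.centralizer ({y} : Set G),
          ∃ d₂ ∈ D ⊓ Subgroup.centralizer (H : Set G), d = d₁ * d₂ := by
    intro y hyN hyp d hd hxN
    set x := d⁻¹ * y * d with hx
    set M : Subgroup G := D ⊓ Subgroup.centralizer (H : Set G) with hM
    -- `D ∩ N(H) ≤ C(H)`
    have hDN : ∀ m ∈ D, m ∈ Subgroup.normalizer (H : Set G) → m ∈ Subgroup.centralizer (H : Set G) := by
      intro m hmD hmN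
      rw [Subgroup.mem_centralizer_iff]
      intro h hh
      have h1 : m * h * m⁻¹ * h⁻¹ ∈ H :=
        H.mul_mem ((Subgroup.mem_normalizer_iff.mp hmN h).mp hh) (H.inv_mem hh)
      have h2 : m * h * m⁻¹ * h⁻¹ ∈ D := by
        have e : m * h * m⁻¹ * h⁻¹ = m * (h * m⁻¹ * h⁻¹) := by group
        rw [e]
        exact D.mul_mem hmD ((inferInstance : D.Normal).conj_mem _ (D.inv_mem hmD) h)
      have h3 : m * h * m⁻¹ * h⁻¹ ∈ H ⊓ D := ⟨h1, h2⟩
      rw [hHD, Subgroup.mem_bot] at h3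
      have h4 := eq_of_mul_inv_eq_one h3
      calc h * m = (m * h * m⁻¹) * m := by rw [h4]
        _ = m * h := by group
    have hmM : y⁻¹ * x ∈ M := by
      have h1 : y⁻¹ * x ∈ D := by
        have e : y⁻¹ * x = (y⁻¹ * d⁻¹ * y⁻¹⁻¹) * d := by rw [hx]; group
        rw [e]
        exact D.mul_mem ((inferInstance : D.Normal).conj_mem _ (D.inv_mem hd) _) hd
      have h2 : y⁻¹ * x ∈ Subgroup.normalizer (H : Set G) :=
        Subgroup.mul_mem _ (Subgroup.inv_mem _ hyN) hxN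
      exact ⟨h1, hDN _ h1 h2⟩
    have hyNM : y ∈ Subgroup.normalizer (M : Set G) := by
      apply Cfsg.Agent.Lib.Replacement.mem_normalizer_of_forall
      intro m hm
      refine Subgroup.mem_inf.mpr ⟨(inferInstance : D.Normal).conj_mem _ hm.1 y, ?_⟩
      rw [Subgroup.mem_centralizer_iff]
      intro h hh
      have hh' : y⁻¹ * h * y ∈ H := by
        have := (Subgroup.mem_normalizer_iff.mp (Subgroup.inv_mem _ hyN) h).mp hh
        simpa using this
      have h1 := (Subgroup.mem_centralizer_iff.mp hm.2) _ hh'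
      calc h * (y * m * y⁻¹) = y * ((y⁻¹ * h * y) * m) * y⁻¹ := by group
        _ = y * (m * (y⁻¹ * h * y)) * y⁻¹ := by rw [h1]
        _ = y * m * y⁻¹ * h := by group
    have hMcop : (Nat.card M).Coprime p :=
      Nat.Coprime.coprime_dvd_left (Subgroup.card_dvd_of_le inf_le_left) (card_pPrimeCore_coprime p)
    have hxp : ∃ k : ℕ, orderOf x = p ^ k := by
      obtain ⟨k, hk⟩ := hyp
      refine ⟨k, ?_⟩
      rw [hx, ← hk]
      have : d⁻¹ * y * d = d⁻¹ * y * d⁻¹⁻¹ := by group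
      rw [this, conj_orderOf]
    obtain ⟨m', hm', hconj⟩ := exists_conj_of_mem_coset (p := p) x y M hyNM hyp hxp hMcop
      (y⁻¹ * x) hmM (by group)
    refine ⟨d * m'⁻¹, Subgroup.mem_inf.mpr ⟨D.mul_mem hd (D.inv_mem hm'.1), ?_⟩, m', hm', by group⟩
    rw [Subgroup.mem_centralizer_singleton_iff]
    have h1 : m' * d⁻¹ * y = y * (m' * d⁻¹) := by
      have e : m' * d⁻¹ * y = (m' * x * m'⁻¹) * (m' * d⁻¹) := by rw [hx]; group
      rw [e, hconj]
    calc d * m'⁻¹ * y = (m' * d⁻¹)⁻¹ * y := by group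
      _ = (m' * d⁻¹)⁻¹ * (y * (m' * d⁻¹)) * (m' * d⁻¹)⁻¹ := by group
      _ = (m' * d⁻¹)⁻¹ * (m' * d⁻¹ * y) * (m' * d⁻¹)⁻¹ := by rw [h1]
      _ = y * (d * m'⁻¹) := by group
  refine ⟨partA, ?_⟩
  intro x y hxP hyP hxy
  obtain ⟨g, hg⟩ := isConj_iff.mp hxy
  obtain ⟨d, hd, hdg⟩ := exists_mul_mem_normalizer P g
  set n₁ := d * g with hn₁
  have hPN : (P : Subgroup G) ≤ Subgroup.normalizer (H : Set G) := by
    intro s hs
    apply Cfsg.Agent.Lib.Replacement.mem_normalizer_of_forall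
    intro h hh
    exact ⟨(P : Subgroup G).mul_mem ((P : Subgroup G).mul_mem hs hh.1) ((P : Subgroup G).inv_mem hs),
      (inferInstance : (pPrimePCore p G).Normal).conj_mem _ hh.2 s⟩
  set x' := n₁ * x * n₁⁻¹ with hx'
  have hx'N : x' ∈ Subgroup.normalizer (H : Set G) :=
    Subgroup.mul_mem _ (Subgroup.mul_mem _ hdg (hPN hxP)) (Subgroup.inv_mem _ hdg)
  have hx'p : ∃ k : ℕ, orderOf x' = p ^ k := by
    obtain ⟨k, hk⟩ := IsPGroup.iff_orderOf.mp P.isPGroup' ⟨x, hxP⟩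
    refine ⟨k, ?_⟩
    rw [hx', conj_orderOf]
    simpa [Subgroup.orderOf_mk] using hk
  have hyd : d⁻¹ * x' * d = y := by
    rw [hx', hn₁, ← hg]; group
  obtain ⟨d₁, hd₁, d₂, hd₂, hdd⟩ := partA x' hx'N hx'p d hd (by rw [hyd]; exact hPN hyP)
  have hd₂N : d₂ ∈ Subgroup.normalizer (H : Set G) := by
    apply Cfsg.Agent.Lib.Replacement.mem_normalizer_of_forall
    intro h hh
    have := (Subgroup.mem_centralizer_iff.mp hd₂.2) h hh
    rw [← this]
    simpa using hh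
  refine ⟨d₂⁻¹ * n₁, Subgroup.mul_mem _ (Subgroup.inv_mem _ hd₂N) hdg, ?_⟩
  have hd1c : d₁ * x' = x' * d₁ :=
    Subgroup.mem_centralizer_singleton_iff.mp hd₁.2
  calc d₂⁻¹ * n₁ * x * (d₂⁻¹ * n₁)⁻¹ = d₂⁻¹ * x' * d₂ := by rw [hx']; group
    _ = d₂⁻¹ * (d₁⁻¹ * (d₁ * x')) * d₂ := by group
    _ = d₂⁻¹ * (d₁⁻¹ * (x' * d₁)) * d₂ := by rw [hd1c]
    _ = d⁻¹ * x' * d := by rw [hdd]; group
    _ = y := hyd

end Cfsg.Agent.S1907
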