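import Cfsg.Statements.S1924
import Cfsg.Agent.Lib.PResid

set_option autoImplicit false
open Cfsg
open Equiv (Perm)

namespace Cfsg.Agent.S1924

open Cfsg.Agent.Lib.PResid

universe u

/-- The sign of a semiregular permutation of `2`-power order with an odd number of cycles. -/
theorem sign_semireg {Ω : Type*} [Fintype Ω] [DecidableEq Ω] (σ : Perm Ω) (k m : ℕ)
    (h1 : σ ^ (2 ^ (k + 1)) = 1) (hfree : ∀ x, (σ ^ (2 ^ k)) x ≠ x)
    (hcard : Fintype.card Ω = m * 2 ^ (k + 1)) (hm : Odd m) : Perm.sign σ = -1 := by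
  classical
  have hall : ∀ n ∈ σ.cycleType, n = 2 ^ (k + 1) := by
    intro n hn
    have hdvd : n ∣ 2 ^ (k + 1) :=
      (Perm.dvd_of_mem_cycleType hn).trans (orderOf_dvd_of_pow_eq_one h1)
    obtain ⟨j, hj, rfl⟩ := (Nat.dvd_prime_pow Nat.prime_two).1 hdvd
    by_cases hjk : j = k + 1
    · rw [hjk]
    · exfalso
      have hj' : j ≤ k := by omega
      obtain ⟨c, τ, rfl, hd, hc, hsupp⟩ := (Perm.mem_cycleType_iff).1 hn
      have h2 : (2 : ℕ) ≤ c.support.card := hc.two_le_card_support
      obtain ⟨x, hx⟩ := Finset.card_pos.1 (show 0 < c.support.card by omega)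
      have h3 : c ^ (2 ^ j) = 1 := by
        rw [← hsupp, ← hc.orderOf]; exact pow_orderOf_eq_one c
      have h4 : c ^ (2 ^ k) = 1 := by
        have : (2 : ℕ) ^ k = 2 ^ j * 2 ^ (k - j) := by
          rw [← pow_add]; congr 1; omega
        rw [this, pow_mul, h3, one_pow]
      have h5 : (c * τ) ^ (2 ^ k) = c ^ (2 ^ k) * τ ^ (2 ^ k) := hd.commute.mul_pow _
      apply hfree x
      rw [h5, h4, one_mul]
      have hτ : τ x = x := by
        have := hd x
        rcases this with h | h
        · exact absurd h (Perm.mem_support.1 hx)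
        · exact h
      exact (Function.IsFixedPt.iterate hτ _ : _) |> fun h => by
        rw [← Perm.iterate_eq_pow]; exact h
  have hrep : σ.cycleType = Multiset.replicate (Multiset.card σ.cycleType) (2 ^ (k + 1)) :=
    Multiset.eq_replicate_card.2 hall
  have hsum := Perm.sum_cycleType σ
  have hsupp : σ.support = Finset.univ := by
    ext x
    simp only [Perm.mem_support, Finset.mem_univ, iff_true]
    intro hx
    apply hfree x
    have : Function.IsFixedPt σ x := hx
    rw [← Perm.iterate_eq_pow]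
    exact this.iterate _
  rw [hsupp, Finset.card_univ, hcard] at hsum
  have hsum2 : σ.cycleType.sum = Multiset.card σ.cycleType * 2 ^ (k + 1) := by
    conv_lhs => rw [hrep]
    rw [Multiset.sum_replicate, smul_eq_mul]
  have hcd : Multiset.card σ.cycleType = m := by
    have hp : 0 < 2 ^ (k + 1) := by positivity
    rw [hsum2] at hsum
    exact Nat.eq_of_mul_eq_mul_right hp hsum
  rw [Perm.sign_of_cycleType, hsum, hcd]
  have hodd : Odd (m * 2 ^ (k + 1) + m) := by
    rw [pow_succ]
    apply Even.add_odd _ hm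
    exact ⟨m * 2 ^ k, by ring⟩
  exact hodd.neg_one_pow

lemma sign_pos_of_odd {X : Type*} [Group X] [Finite X] (f : X →* ℤˣ) {g : X}
    (hg : Nat.Coprime (orderOf g) 2) : f g = 1 := by
  have h1 : (f g) ^ orderOf g = 1 := by rw [← map_pow, pow_orderOf_eq_one, map_one]
  have hodd : Odd (orderOf g) := Nat.Coprime.odd_of_right hg
  rcases Int.units_eq_one_or (f g) with h | h
  · exact h
  · rw [h, hodd.neg_one_pow] at h1
    exact absurd h1 (by decide)

lemma pResidual_le_ker {X : Type*} [Group X] [Finite X] (f : X →* ℤˣ) : pResidual 2 X ≤ f.ker := by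
  unfold pResidual
  rw [Subgroup.closure_le]
  intro g hg
  exact sign_pos_of_odd f hg

lemma ker_index_two {X : Type*} [Group X] [Finite X] (f : X →* ℤˣ) {c : X} (hc : f c = -1) :
    f.ker.index = 2 := by
  rw [Subgroup.index_ker]
  have hle : Nat.card f.range ≤ 2 := by
    calc Nat.card f.range ≤ Nat.card ℤˣ :=
          Nat.card_le_card_of_injective (fun a => (a : ℤˣ)) Subtype.val_injective
      _ = 2 := by simp [Nat.card_eq_fintype_card]
  have hrange : 2 ≤ Nat.card f.range := by
    have h1 : (1 : f.range) ≠ ⟨f c, ⟨c, rfl⟩⟩ := by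
      intro h
      have h2 : (1 : ℤˣ) = f c := congrArg Subtype.val h
      rw [hc] at h2
      exact absurd h2 (by decide)
    haveI : Nontrivial f.range := ⟨⟨_, _, h1⟩⟩
    exact Nat.succ_le_of_lt (Finite.one_lt_card (α := f.range))
  omega

lemma pResidual_map_ker {X : Type*} [Group X] [Finite X] (f : X →* ℤˣ) :
    (pResidual 2 f.ker).map f.ker.subtype = pResidual 2 X := by
  apply le_antisymm (map_pResidual_le 2 _)
  show Subgroup.closure {g : X | Nat.Coprime (orderOf g) 2} ≤ _
  rw [Subgroup.closure_le]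
  intro g hg
  have hg2 : g ∈ f.ker := sign_pos_of_odd f hg
  refine ⟨⟨g, hg2⟩, ?_, rfl⟩
  apply Subgroup.subset_closure
  show Nat.Coprime (orderOf (⟨g, hg2⟩ : f.ker)) 2
  rw [Subgroup.orderOf_mk]
  exact hg

/-- The descent along the cyclic part. -/
theorem chain : ∀ (m : ℕ) {X : Type u} [Group X] [Finite X] (T : Subgroup X) (c : X) (d : ℕ),
    orderOf c = 2 ^ m → Odd d → Nat.card X = Nat.card T * 2 ^ m * d → T ≤ pResidual 2 X →
    (∀ g : X, 1 ≤ m → g⁻¹ * c ^ (2 ^ (m - 1)) * g ∉ T) →
    ∃ d' : ℕ, Odd d' ∧ Nat.card (pResidual 2 X) = Nat.card T * d' := by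
  intro m
  induction m with
  | zero =>
    intro X _ _ T c d _ hd hcard hT _
    obtain ⟨d₁, hd₁⟩ := Subgroup.card_dvd_of_le hT
    obtain ⟨e, he⟩ := Subgroup.card_dvd_of_le (le_top : pResidual 2 X ≤ ⊤)
    rw [Subgroup.card_top] at he
    refine ⟨d₁, ?_, hd₁⟩
    have hpos : 0 < Nat.card T := Nat.card_pos
    have h1 : d₁ * e = d := by
      have h2 : Nat.card T * (d₁ * e) = Nat.card T * d := by
        rw [← mul_assoc, ← hd₁, ← he, hcard]; simp
      exact Nat.eq_of_mul_eq_mul_left hpos h2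
    rw [← h1] at hd
    exact (Nat.odd_mul.1 hd).1
  | succ m IH =>
    intro X _ _ T c d hc hd hcard hT hconj
    classical
    haveI : Fintype (X ⧸ T) := Fintype.ofFinite _
    let τ : X →* Perm (X ⧸ T) := MulAction.toPermHom X (X ⧸ T)
    let f : X →* ℤˣ := Perm.sign.comp τ
    have hindex : T.index = d * 2 ^ (m + 1) := by
      have h1 := Subgroup.card_mul_index T
      have hpos : 0 < Nat.card T := Nat.card_pos
      apply Nat.eq_of_mul_eq_mul_left hpos
      rw [h1, hcard]; ring
    have hfc : f c = -1 := by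
      apply sign_semireg (τ c) m d
      · rw [← map_pow, ← hc, pow_orderOf_eq_one, map_one]
      · intro x
        induction x using QuotientGroup.induction_on with
        | H g =>
          intro h
          rw [← map_pow] at h
          have h1 : c ^ 2 ^ m • (g : X ⧸ T) = (g : X ⧸ T) := h
          rw [MulAction.Quotient.smul_coe, smul_eq_mul] at h1 
          have h2 := QuotientGroup.eq.1 h1
          apply hconj g (by omega)
          simp only [Nat.add_sub_cancel]
          have h3 := T.inv_mem h2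
          simpa [mul_assoc] using h3
      · rw [← Nat.card_eq_fintype_card]; exact hindex
      · exact hd
    set X₁ : Subgroup X := f.ker with hX₁
    have hidx : X₁.index = 2 := ker_index_two f hfc
    have hcardX₁ : Nat.card X = Nat.card X₁ * 2 := by
      rw [← Subgroup.card_mul_index X₁, hidx]
    have hK : pResidual 2 X ≤ X₁ := pResidual_le_ker f
    have hTX₁ : T ≤ X₁ := hT.trans hK
    have hc2 : c ^ 2 ∈ X₁ := by
      show f (c ^ 2) = 1
      rw [map_pow, hfc]; rfl
    let c₁ : X₁ := ⟨c ^ 2, hc2⟩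
    have hc₁ : orderOf c₁ = 2 ^ m := by
      rw [← Subgroup.orderOf_coe]
      show orderOf (c ^ 2) = 2 ^ m
      rw [orderOf_pow_of_dvd (by norm_num) (by rw [hc, pow_succ]; exact Dvd.intro_left _ rfl), hc, pow_succ]
      simp
    have hT₁card : Nat.card (T.subgroupOf X₁) = Nat.card T :=
      Nat.card_congr (Subgroup.subgroupOfEquivOfLe hTX₁).toEquiv
    have hmap : (pResidual 2 X₁).map X₁.subtype = pResidual 2 X := pResidual_map_ker f
    have hT₁ : T.subgroupOf X₁ ≤ pResidual 2 X₁ := by
      intro t ht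
      have h1 : (t : X) ∈ pResidual 2 X := hT (Subgroup.mem_subgroupOf.1 ht)
      rw [← hmap] at h1
      obtain ⟨y, hy, hyt⟩ := h1
      have : y = t := Subtype.ext hyt
      rwa [← this]
    obtain ⟨d', hd', hcard'⟩ := IH (X := X₁) (T.subgroupOf X₁) c₁ d hc₁ hd
      (by
        have hpos : 0 < 2 := by norm_num
        apply Nat.eq_of_mul_eq_mul_right hpos
        rw [← hcardX₁, hcard, hT₁card]; ring)
      hT₁
      (by
        intro g hm hmem
        have h1 : ((g⁻¹ * c₁ ^ 2 ^ (m - 1) * g : X₁) : X) ∈ T := Subgroup.mem_subgroupOf.1 hmem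
        apply hconj (g : X) (by omega)
        simp only [Nat.add_sub_cancel]
        have e1 : ((g⁻¹ * c₁ ^ 2 ^ (m - 1) * g : X₁) : X) = (g : X)⁻¹ * c ^ 2 ^ m * g := by
          push_cast
          have : ((c₁ : X)) = c ^ 2 := rfl
          have hpow : 2 * 2 ^ (m - 1) = 2 ^ m := by
            rw [← pow_succ']; congr 1; omega
          rw [this, ← pow_mul, hpow]
        rwa [e1] at h1)
    refine ⟨d', hd', ?_⟩
    rw [← hT₁card, ← hcard', ← hmap]
    exact Subgroup.card_map_of_injective X₁.subtype_injective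

/-- Rotations. -/
def rotSub (n : ℕ) : Subgroup (DihedralGroup n) where
  carrier := Set.range DihedralGroup.r
  mul_mem' := by
    rintro _ _ ⟨a, rfl⟩ ⟨b, rfl⟩
    exact ⟨a + b, by simp⟩
  one_mem' := ⟨0, rfl⟩
  inv_mem' := by
    rintro _ ⟨a, rfl⟩
    exact ⟨-a, by simp⟩

lemma dih_outside {n : ℕ} (hn : 2 ≤ n) (C' : Subgroup (DihedralGroup n)) (hC : IsCyclic C')
    (hidx : C'.index = 2) {y : DihedralGroup n} (hy : y ∉ C') : orderOf y = 2 := by
  classical
  haveI : NeZero n := ⟨by omega⟩
  have hcard : Nat.card C' = n := by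
    have h1 := Subgroup.card_mul_index C'
    rw [hidx, DihedralGroup.nat_card] at h1
    omega
  rcases y with i | i
  · obtain ⟨g, hg⟩ := hC.exists_generator
    have hgord : orderOf g = n := by
      rw [orderOf_eq_card_of_forall_mem_zpowers hg, hcard]
    rcases hgg : (g : DihedralGroup n) with j | j
    · exfalso
      have hle : C' ≤ rotSub n := by
        intro x hx
        obtain ⟨k, hk⟩ := hg ⟨x, hx⟩
        have h2 : ((g ^ k : C') : DihedralGroup n) = x := congrArg Subtype.val hk
        rw [← h2]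
        push_cast
        rw [hgg]
        exact (rotSub n).zpow_mem (show DihedralGroup.r j ∈ rotSub n from ⟨j, rfl⟩) k
      have hR : Nat.card (rotSub n) = n := by
        have h3 : Function.Injective (DihedralGroup.r : ZMod n → DihedralGroup n) :=
          fun a b h => DihedralGroup.r.inj h
        have h4 : Nat.card (rotSub n) = Nat.card (Set.range (DihedralGroup.r : ZMod n → DihedralGroup n)) := rfl
        rw [h4, Nat.card_range_of_injective h3, Nat.card_zmod]
      have heq : C' = rotSub n := Subgroup.eq_of_le_of_card_ge hle (by rw [hR, hcard])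
      apply hy
      rw [heq]
      exact ⟨i, rfl⟩
    · have h2 : orderOf (g : DihedralGroup n) = 2 := by
        rw [hgg]; exact DihedralGroup.orderOf_sr j
      rw [Subgroup.orderOf_coe, hgord] at h2
      subst h2
      apply orderOf_eq_prime
      · rw [sq, DihedralGroup.r_mul_r]
        have : i + i = 0 := CharTwo.add_self_eq_zero i
        rw [this]
        rfl
      · intro h
        apply hy
        rw [h]
        exact C'.one_mem
  · exact DihedralGroup.orderOf_sr i

lemma relIndex_card {G : Type*} [Group G] [Finite G] {H K : Subgroup G} (h : H ≤ K) :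
    Nat.card H * H.relIndex K = Nat.card K := by
  have h1 := Subgroup.card_mul_index (H.subgroupOf K)
  have h2 : Nat.card (H.subgroupOf K) = Nat.card H :=
    Nat.card_congr (Subgroup.subgroupOfEquivOfLe h).toEquiv
  rw [h2] at h1
  exact h1

lemma two_pow_unique {a b o o' : ℕ} (ho : Odd o) (ho' : Odd o') (h : 2 ^ a * o = 2 ^ b * o') : a = b := by
  have key : ∀ {a b o o' : ℕ}, Odd o → Odd o' → 2 ^ a * o = 2 ^ b * o' → a ≤ b := by
    intro a b o o' ho ho' h
    by_contra hlt
    push Not at hlt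
    obtain ⟨k, rfl⟩ : ∃ k, a = b + 1 + k := ⟨a - b - 1, by omega⟩
    have hpos : 0 < 2 ^ b := by positivity
    have h2 : 2 * (2 ^ k * o) = o' := by
      apply Nat.eq_of_mul_eq_mul_left hpos
      rw [← h]; ring
    rw [← h2] at ho'
    rw [Nat.odd_iff] at ho'
    omega
  exact le_antisymm (key ho ho' h) (key ho' ho h.symm)

theorem result {G : Type*} [Group G] [Finite G] (L T S D C : Subgroup G) (hL : Cfsg.pResidual 2 ↥L = ⊤)
    (hTL : T ≤ L) (hT2 : IsPGroup 2 T) (hTsyl : ¬ 2 ∣ T.relIndex L)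
    (hS2 : IsPGroup 2 S) (hSsyl : ¬ 2 ∣ S.index) (hTS : T ≤ S)
    (hDS : D ≤ S) (hDih : ∃ n : ℕ, 2 ≤ n ∧ Nonempty (↥D ≃* DihedralGroup n)) (hDT : D ⊓ T = ⊥) (hTD : T ⊔ D = S) (hTDc : Nat.card T * Nat.card D = Nat.card S)
    (hCD : C ≤ D) (hC : IsCyclic ↥C) (hCi : C.relIndex D = 2)
    (h1 : ∀ x ∈ D, x ∉ C → orderOf x = 2 → ∀ g : G, g * x * g⁻¹ ∈ T ⊔ C → False)
    (h2 : ∀ c ∈ C, orderOf c = 2 → ∀ g : G, g * c * g⁻¹ ∈ T → False) :
    ∃ K : Subgroup G, K.Normal ∧ K ⊔ D = ⊤ ∧
      ∀ T' : Subgroup G, T' ≤ L → IsPGroup 2 T' → ¬ 2 ∣ T'.relIndex L → T' ≤ K ∧ ¬ 2 ∣ T'.relIndex K := by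
  classical
  haveI hp2 : Fact (Nat.Prime 2) := ⟨Nat.prime_two⟩
  obtain ⟨n, hn, ⟨e⟩⟩ := hDih
  haveI : NeZero n := ⟨by omega⟩
  have hDcard : Nat.card D = 2 * n := by
    rw [Nat.card_congr e.toEquiv, DihedralGroup.nat_card]
  have hCcard2 : Nat.card C * 2 = Nat.card D := by
    have := relIndex_card hCD
    rwa [hCi] at this
  have hCcard : Nat.card C = n := by omega
  -- elements outside `C`
  have houtside : ∀ x ∈ D, x ∉ C → orderOf x = 2 := by
    intro x hx hxC
    let C' : Subgroup (DihedralGroup n) := (C.subgroupOf D).map e.toMonoidHom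
    have hC'cyc : IsCyclic C' := by
      have i1 : C.subgroupOf D ≃* C := Subgroup.subgroupOfEquivOfLe hCD
      have i2 : C.subgroupOf D ≃* C' := MulEquiv.subgroupMap e _
      exact isCyclic_of_surjective (i1.symm.trans i2).toMonoidHom (i1.symm.trans i2).surjective
    have hidx : C'.index = 2 := by
      have h3 := Subgroup.card_mul_index C'
      have h4 : Nat.card C' = n := by
        have i2 : C.subgroupOf D ≃* C' := MulEquiv.subgroupMap e _
        have i1 : C.subgroupOf D ≃* C := Subgroup.subgroupOfEquivOfLe hCD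
        rw [← Nat.card_congr i2.toEquiv, Nat.card_congr i1.toEquiv, hCcard]
      rw [h4, DihedralGroup.nat_card] at h3
      have hpos : 0 < n := by omega
      apply Nat.eq_of_mul_eq_mul_left hpos
      omega
    have hy : e ⟨x, hx⟩ ∉ C' := by
      rintro ⟨u, hu, hue⟩
      have h3 : u = ⟨x, hx⟩ := e.injective hue
      apply hxC
      rw [h3] at hu
      exact Subgroup.mem_subgroupOf.1 hu
    have h3 := dih_outside hn C' hC'cyc hidx hy
    rw [MulEquiv.orderOf_eq, Subgroup.orderOf_mk] at h3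
    exact h3
  obtain ⟨x₀, hx₀, hx₀C⟩ : ∃ x ∈ D, x ∉ C := by
    by_contra hno
    push Not at hno
    have h3 : C.relIndex D = 1 := Subgroup.relIndex_eq_one.2 hno
    omega
  -- the subgroup `M`
  set M : Subgroup G := T ⊔ C with hM
  have hMS : M ≤ S := sup_le hTS (hCD.trans hDS)
  have hx₀M : x₀ ∉ M := by
    intro h
    apply h1 x₀ hx₀ hx₀C (houtside x₀ hx₀ hx₀C) 1
    simpa using h
  have hSpos : 0 < Nat.card S := Nat.card_pos
  have hMcard : Nat.card M * 2 = Nat.card S := by
    have h3 : Nat.card T * Nat.card C ≤ Nat.card M := by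
      rw [← Nat.card_prod]
      let g : T × C → M := fun p => ⟨p.1.1 * p.2.1, M.mul_mem
        ((le_sup_left : T ≤ M) p.1.2) ((le_sup_right : C ≤ M) p.2.2)⟩
      apply Nat.card_le_card_of_injective g
      rintro ⟨⟨t, ht⟩, ⟨c, hc⟩⟩ ⟨⟨t', ht'⟩, ⟨c', hc'⟩⟩ h
      have h4 : t * c = t' * c' := congrArg Subtype.val h
      have h5 : t'⁻¹ * t = c' * c⁻¹ := by
        calc t'⁻¹ * t = t'⁻¹ * (t * c) * c⁻¹ := by group
          _ = t'⁻¹ * (t' * c') * c⁻¹ := by rw [h4]
          _ = c' * c⁻¹ := by group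
      have h6 : c' * c⁻¹ ∈ D ⊓ T := by
        refine ⟨D.mul_mem (hCD hc') (D.inv_mem (hCD hc)), ?_⟩
        rw [← h5]
        exact T.mul_mem (T.inv_mem ht') ht
      rw [hDT, Subgroup.mem_bot] at h6
      have h7 : c' = c := by rwa [mul_inv_eq_one] at h6
      subst h7
      have h8 : t = t' := mul_right_cancel h4
      subst h8
      rfl
    have h4 : M ≠ S := by
      intro h
      apply hx₀M
      rw [h]
      exact hDS hx₀
    obtain ⟨a, ha⟩ := Subgroup.card_dvd_of_le hMS
    have ha2 : a ≠ 1 := by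
      rintro rfl
      rw [mul_one] at ha
      exact h4 (Subgroup.eq_of_le_of_card_ge hMS ha.le)
    have ha0 : a ≠ 0 := by
      rintro rfl
      omega
    have ha3 : 2 ≤ a := by omega
    have h5 : Nat.card T * Nat.card C * 2 = Nat.card S := by
      rw [mul_assoc, hCcard2, hTDc]
    have h6 : Nat.card M * 2 ≤ Nat.card S := by
      rw [ha]; exact Nat.mul_le_mul_left _ ha3
    omega
  set d : ℕ := S.index with hd
  have hdodd : Odd d := by
    rw [Nat.odd_iff]; omega
  have hGcard : Nat.card G = Nat.card S * d := (Subgroup.card_mul_index S).symm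
  have hMindex : M.index = d * 2 ^ 1 := by
    have h3 := Subgroup.card_mul_index M
    have hMpos : 0 < Nat.card M := Nat.card_pos
    apply Nat.eq_of_mul_eq_mul_left hMpos
    rw [h3, hGcard, ← hMcard]; ring
  -- sign
  haveI : Fintype (G ⧸ M) := Fintype.ofFinite _
  let τ : G →* Perm (G ⧸ M) := MulAction.toPermHom G (G ⧸ M)
  let f : G →* ℤˣ := Perm.sign.comp τ
  have hfx : ∀ x ∈ D, x ∉ C → f x = -1 := by
    intro x hx hxC
    have hox := houtside x hx hxC
    apply sign_semireg (τ x) 0 d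
    · rw [← map_pow, zero_add, pow_one, ← hox, pow_orderOf_eq_one, map_one]
    · intro y
      induction y using QuotientGroup.induction_on with
      | H g =>
        intro h
        rw [pow_zero, pow_one] at h
        have h3 : x • (g : G ⧸ M) = (g : G ⧸ M) := h
        rw [MulAction.Quotient.smul_coe, smul_eq_mul] at h3
        have h4 := QuotientGroup.eq.1 h3
        apply h1 x hx hxC hox g⁻¹
        have h5 := M.inv_mem h4
        simpa [mul_assoc] using h5
    · rw [← Nat.card_eq_fintype_card]; exact hMindex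
    · exact hdodd
  set G₁ : Subgroup G := f.ker with hG₁
  have hidx1 : G₁.index = 2 := ker_index_two f (hfx x₀ hx₀ hx₀C)
  have hG₁card : Nat.card G = Nat.card G₁ * 2 := by
    rw [← Subgroup.card_mul_index G₁, hidx1]
  have hKG₁ : pResidual 2 G ≤ G₁ := pResidual_le_ker f
  have hLK : L ≤ pResidual 2 G := by
    intro l hl
    have h3 := map_pResidual_le (G := G) 2 L
    apply h3
    refine ⟨⟨l, hl⟩, ?_, rfl⟩
    rw [hL]; trivial
  have hTK : T ≤ pResidual 2 G := hTL.trans hLK
  have hCG₁ : C ≤ G₁ := by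
    intro c hc
    show f c = 1
    have h3 : x₀⁻¹ * c ∉ C := by
      intro h4
      apply hx₀C
      have h5 := C.mul_mem hc (C.inv_mem h4)
      simpa using h5
    have h4 : f (x₀⁻¹ * c) = -1 := hfx _ (D.mul_mem (D.inv_mem hx₀) (hCD hc)) h3
    have h5 : f c = f x₀ * f (x₀⁻¹ * c) := by rw [← map_mul]; congr 1; group
    rw [h5, h4, hfx x₀ hx₀ hx₀C]; rfl
  -- the cyclic generator
  obtain ⟨c₀', hc₀'⟩ := hC.exists_generator
  set c₀ : G := (c₀' : G) with hc₀def
  have hc₀C : c₀ ∈ C := c₀'.2
  have hC2 : IsPGroup 2 C := hS2.to_le (hCD.trans hDS)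
  obtain ⟨m, hm⟩ := (IsPGroup.iff_card).1 hC2
  have hc₀ord : orderOf c₀ = 2 ^ m := by
    rw [hc₀def, Subgroup.orderOf_coe, orderOf_eq_card_of_forall_mem_zpowers hc₀', hm]
  have hm1 : 1 ≤ m := by
    by_contra h3
    have h4 : m = 0 := by omega
    rw [h4, pow_zero] at hm
    omega
  let c₁ : G₁ := ⟨c₀, hCG₁ hc₀C⟩
  have hc₁ord : orderOf c₁ = 2 ^ m := by
    rw [Subgroup.orderOf_mk, hc₀ord]
  have hT₁card : Nat.card (T.subgroupOf G₁) = Nat.card T :=
    Nat.card_congr (Subgroup.subgroupOfEquivOfLe (hTK.trans hKG₁)).toEquiv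
  have hmap : (pResidual 2 G₁).map G₁.subtype = pResidual 2 G := pResidual_map_ker f
  have hT₁ : T.subgroupOf G₁ ≤ pResidual 2 G₁ := by
    intro t ht
    have h3 : (t : G) ∈ pResidual 2 G := hTK (Subgroup.mem_subgroupOf.1 ht)
    rw [← hmap] at h3
    obtain ⟨y, hy, hyt⟩ := h3
    have : y = t := Subtype.ext hyt
    rwa [← this]
  obtain ⟨d', hd', hcard'⟩ := chain m (X := G₁) (T.subgroupOf G₁) c₁ d hc₁ord hdodd
    (by
      have hpos : 0 < 2 := by norm_num
      apply Nat.eq_of_mul_eq_mul_right hpos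
      rw [← hG₁card, hGcard, hT₁card, ← hm, ← hTDc, ← hCcard2]
      ring)
    hT₁
    (by
      intro g _ hmem
      have h3 : ((g⁻¹ * c₁ ^ 2 ^ (m - 1) * g : G₁) : G) ∈ T := Subgroup.mem_subgroupOf.1 hmem
      have e1 : ((g⁻¹ * c₁ ^ 2 ^ (m - 1) * g : G₁) : G) = (g : G)⁻¹ * c₀ ^ 2 ^ (m - 1) * g := by
        push_cast
        rfl
      rw [e1] at h3
      have ho : orderOf (c₀ ^ 2 ^ (m - 1)) = 2 := by
        rw [orderOf_pow_of_dvd (by positivity) (by rw [hc₀ord]; exact pow_dvd_pow 2 (by omega)), hc₀ord]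
        have : (2 : ℕ) ^ m = 2 ^ (m - 1) * 2 := by
          rw [← pow_succ]; congr 1; omega
        rw [this, Nat.mul_div_cancel_left _ (by positivity)]
      apply h2 _ (C.pow_mem hc₀C _) ho (g : G)⁻¹
      simpa using h3)
  have hKcard : Nat.card (pResidual 2 G) = Nat.card T * d' := by
    rw [← hT₁card, ← hcard', ← hmap]
    exact Subgroup.card_map_of_injective G₁.subtype_injective
  refine ⟨pResidual 2 G, pResidual_normal 2, ?_, ?_⟩
  · have hSle : S ≤ pResidual 2 G ⊔ D := by
      rw [← hTD]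
      exact sup_le_sup_right hTK D
    have htop : pResidual 2 G ⊔ S = ⊤ := by
      have h3 : (pResidual 2 G ⊔ S).index ∣ S.index := Subgroup.index_dvd_of_le le_sup_right
      have h4 : (pResidual 2 G ⊔ S).index ∣ (pResidual 2 G).index := Subgroup.index_dvd_of_le le_sup_left
      obtain ⟨a, ha⟩ := (IsPGroup.iff_card).1 (isPGroup_quotient_pResidual (G := G) 2)
      have h5 : (pResidual 2 G).index = 2 ^ a := ha
      rw [h5] at h4
      obtain ⟨b, _, hb⟩ := (Nat.dvd_prime_pow Nat.prime_two).1 h4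
      rw [← Subgroup.index_eq_one, hb]
      cases b with
      | zero => simp
      | succ b =>
        exfalso
        apply hSsyl
        rw [hb, pow_succ] at h3
        exact (Dvd.intro_left _ rfl).trans h3
    rw [eq_top_iff, ← htop]
    exact sup_le le_sup_left hSle
  · intro T' hT'L hT'2 hT'syl
    refine ⟨hT'L.trans hLK, ?_⟩
    have hle : T' ≤ pResidual 2 G := hT'L.trans hLK
    obtain ⟨a, ha⟩ := (IsPGroup.iff_card).1 hT2
    obtain ⟨b, hb⟩ := (IsPGroup.iff_card).1 hT'2
    have h3 := relIndex_card hTL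
    have h4 := relIndex_card hT'L
    have h5 : a = b := by
      apply two_pow_unique (o := T.relIndex L) (o' := T'.relIndex L)
      · rw [Nat.odd_iff]; omega
      · rw [Nat.odd_iff]; omega
      · rw [← ha, ← hb, h3, h4]
    have h6 : Nat.card T = Nat.card T' := by rw [ha, hb, h5]
    have h7 := relIndex_card hle
    rw [hKcard, h6] at h7
    have hpos : 0 < Nat.card T' := Nat.card_pos
    have h8 : T'.relIndex (pResidual 2 G) = d' := Nat.eq_of_mul_eq_mul_left hpos h7
    rw [h8]
    rw [Nat.odd_iff] at hd'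
    omega

end Cfsg.Agent.S1924
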