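import Mathlib
import Cfsg.Prelude.Def_Transfer
import Cfsg.Agent.Lib.QuadFlowT
import Cfsg.Agent.Lib.BestOffT
import Cfsg.Agent.Lib.FFBridge

set_option autoImplicit false
open Cfsg
open scoped commutatorElement

namespace Cfsg.Agent.S1935

open Cfsg.Agent.Lib.FFMod Cfsg.Agent.Lib.FFBridge Cfsg.Agent.Lib.BestOffT Cfsg.Agent.Lib.QuadFlow

/-- Let p ≥ 5 be a prime and, inside an ambient finite group, let G be a p-subgroup acting faithfully by conjugation on an elementary abelian p-subgroup V that it normalizes (only the identity of G centralizes V). Suppose V is an F-module for G: some nontrivial elementary abelian subgroup E of G satisfies #E · #C_V(E) ≥ #V. Then G contains such an offender A that moreover acts quadratically on V ([V, A, A] = 1) and is normal in its normal closure in G. -/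
theorem result {Ω : Type*} [Group Ω] [Finite Ω] (p : ℕ) [Fact p.Prime] (hp : 5 ≤ p) (V G : Subgroup Ω) (hV : Cfsg.IsElementaryAbelian p V) (hG : IsPGroup p ↥G) (hGV : G ≤ Subgroup.normalizer (V : Set Ω)) (hfaith : G ⊓ Subgroup.centralizer (V : Set Ω) = ⊥) (hF : ∃ E : Subgroup Ω, E ≤ G ∧ E ≠ ⊥ ∧ Cfsg.IsElementaryAbelian p E ∧ Nat.card ↥V ≤ Nat.card ↥E * Nat.card ↥(V ⊓ Subgroup.centralizer (E : Set Ω))) : ∃ A : Subgroup Ω, A ≤ G ∧ A ≠ ⊥ ∧ Cfsg.IsElementaryAbelian p A ∧ Nat.card ↥V ≤ Nat.card ↥A * Nat.card ↥(V ⊓ Subgroup.centralizer (A : Set Ω)) ∧ ⁅⁅V, A⁆, A⁆ = ⊥ ∧ ∀ g ∈ Subgroup.closure {x : Ω | ∃ h ∈ G, ∃ a ∈ A, x = h * a * h⁻¹}, ∀ a ∈ A, g * a * g⁻¹ ∈ A := by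
  classical
  obtain ⟨E₀, hE₀G, hE₀ne, hE₀el, hE₀f⟩ := hF
  obtain ⟨E, i1, i2, i3, ρ, ι, hm⟩ := exists_model (p := p) hV hGV
  have hρ : Function.Injective ρ := hm.inj_rho hfaith
  have hcardE : Nat.card E = Nat.card V := hm.card_E
  -- `E` is nontrivial
  haveI hEnt : Nontrivial E := by
    by_contra hnt
    rw [not_nontrivial_iff_subsingleton] at hnt
    apply hE₀ne
    rw [eq_bot_iff]
    intro g hg
    have h1 : (⟨g, hE₀G hg⟩ : G) = 1 := by
      apply hρ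
      rw [map_one]
      ext v
      exact Subsingleton.elim _ _
    exact congrArg Subtype.val h1
  haveI hGfin : Finite G := inferInstance
  -- the offender in the model
  set D₀ : Subgroup G := E₀.subgroupOf G with hD₀
  have hD₀ne : D₀ ≠ ⊥ := by
    intro h
    apply hE₀ne
    rw [eq_bot_iff]
    intro g hg
    have h1 : (⟨g, hE₀G hg⟩ : G) ∈ D₀ := hg
    rw [h] at h1
    exact congrArg Subtype.val (Subgroup.mem_bot.mp h1)
  have hD₀f : Nat.card E ≤ fF ρ D₀ := by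
    rw [hm.fF_eq, Subgroup.map_subgroupOf_eq_of_le hE₀G, hcardE]
    exact hE₀f
  obtain ⟨X₁, ⟨hX₁le, hX₁ne⟩, hX₁max⟩ := Set.exists_max_image
    {X : Subgroup G | X ≤ D₀ ∧ X ≠ ⊥} (fF ρ) (Set.toFinite _) ⟨D₀, le_rfl, hD₀ne⟩
  have hD₀comm : ∀ a ∈ D₀, ∀ b ∈ D₀, a * b = b * a := by
    intro a ha b hb
    apply Subtype.ext
    haveI := hE₀el.1
    have h1 := mul_comm' (⟨a, ha⟩ : E₀) (⟨b, hb⟩ : E₀)
    have h2 := congrArg (fun z : E₀ => (z : Ω)) h1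
    simpa using h2
  have hX₁BO : IsBO (p := p) ρ X₁ := by
    refine ⟨?_, fun a ha b hb => hD₀comm a (hX₁le ha) b (hX₁le hb), ?_⟩
    · intro B hB
      by_cases hBb : B = ⊥
      · rw [hBb, fF_bot]
        exact hD₀f.trans (hX₁max D₀ ⟨le_rfl, hD₀ne⟩)
      · exact hX₁max B ⟨hB.trans hX₁le, hBb⟩
    · intro a ha
      apply Subtype.ext
      exact hE₀el.2 _ (hX₁le ha)
  have hX₁nt : ∃ a ∈ X₁, ρ a ≠ 1 := by
    by_contra hcon
    push Not at hcon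
    apply hX₁ne
    rw [eq_bot_iff]
    intro a ha
    exact hρ (by rw [hcon a ha, map_one])
  obtain ⟨Q, hQle, hQf, ⟨q, hq, hqρ⟩, hQq⟩ := timmesfeld hX₁BO hX₁nt
  have hQne : Q ≠ ⊥ := by
    intro h
    rw [h] at hq
    rw [Subgroup.mem_bot.mp hq, map_one] at hqρ
    exact hqρ rfl
  have hQq' : IsQ ρ Q := fun a ha b hb => (hQq b hb a (hQle ha)).1
  have hfQ : Nat.card E ≤ fF ρ Q := by
    rw [hQf]
    exact hD₀f.trans (hX₁max D₀ ⟨le_rfl, hD₀ne⟩)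
  -- the main theorem
  obtain ⟨A, hA, hAn⟩ := exists_best_normalized hp hG hρ _ (⊤ : Subgroup G) rfl
    ⟨Q, le_top, hQne, hQq'⟩
  have hfA : Nat.card E ≤ fF ρ A := hfQ.trans (hA.max Q le_top hQne hQq')
  have hqa : ∀ a ∈ A, ∀ b ∈ A, (ρ a - 1) * (ρ b - 1) = 0 := hA.q
  set A' : Subgroup Ω := A.map G.subtype with hA'
  have hA'G : A' ≤ G := by
    rintro _ ⟨a, _, rfl⟩
    exact a.2
  have hcommA : ∀ a ∈ A, ∀ b ∈ A, a * b = b * a := by
    intro a ha b hb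
    apply hρ
    have h1 := hqa a ha b hb
    have h2 := hqa b hb a ha
    rw [map_mul, map_mul]
    have e1 : ρ a * ρ b = (ρ a - 1) * (ρ b - 1) + ρ a + ρ b - 1 := by noncomm_ring
    have e2 : ρ b * ρ a = (ρ b - 1) * (ρ a - 1) + ρ b + ρ a - 1 := by noncomm_ring
    rw [e1, e2, h1, h2]
    abel
  have hpR : ∀ r : Module.End (ZMod p) E, p • r = 0 := fun r => by
    rw [← Nat.cast_smul_eq_nsmul (ZMod p) p r, ZMod.natCast_self, zero_smul]
  have hpowA : ∀ a ∈ A, a ^ p = 1 := by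
    intro a ha
    apply hρ
    have h1 : ρ a = 1 + (ρ a - 1) := by abel
    rw [rho_pow_eq h1 (hqa a ha a ha) p, hpR, add_zero, map_one]
  refine ⟨A', hA'G, ?_, ?_, ?_, ?_, ?_⟩
  · intro h
    apply hA.ne
    rw [eq_bot_iff]
    intro a ha
    have h1 : (a : Ω) ∈ A' := ⟨a, ha, rfl⟩
    rw [h] at h1
    exact Subtype.ext (Subgroup.mem_bot.mp h1)
  · refine ⟨⟨⟨?_⟩⟩, ?_⟩
    · rintro ⟨_, a, ha, rfl⟩ ⟨_, b, hb, rfl⟩
      apply Subtype.ext
      have h2 := congrArg (fun z : G => (z : Ω)) (hcommA a ha b hb)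
      simpa using h2
    · rintro _ ⟨a, ha, rfl⟩
      exact congrArg Subtype.val (hpowA a ha)
  · rw [← hcardE]
    have h1 := hm.fF_eq A
    rw [h1] at hfA
    exact hfA
  · -- quadratic action
    rw [eq_bot_iff, Subgroup.commutator_le]
    intro g hg a ha
    obtain ⟨b, hb, rfl⟩ := ha
    rw [← hm.toS_comS A] at hg
    obtain ⟨w, hw, rfl⟩ := mem_toS.mp hg
    have hzero : (ρ b - 1) w = 0 := by
      have hle : comS ρ A ≤ LinearMap.ker (ρ b - 1) := by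
        rw [comS, Submodule.span_le]
        rintro _ ⟨c, hc, v, rfl⟩
        have h2 := hqa b hb c hc
        have h3 := congrArg (fun f => f v) h2
        simpa [Module.End.mul_apply] using h3
      exact hle hw
    have hfix : ρ b w = w := by
      have h2 : ρ b w - w = 0 := by simpa using hzero
      exact sub_eq_zero.mp h2
    have h4 := hm.act b w
    rw [hfix] at h4
    rw [Subgroup.mem_bot, commutatorElement_def]
    show ι (Multiplicative.ofAdd w) * (b : Ω) * (ι (Multiplicative.ofAdd w))⁻¹ * (b : Ω)⁻¹ = 1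
    have h5 : (b : Ω) * ι (Multiplicative.ofAdd w) * (b : Ω)⁻¹ = ι (Multiplicative.ofAdd w) := h4.symm
    nth_rewrite 1 [← h5]
    group
  · -- normal in the normal closure
    have hgen : ∀ x : G, (∃ h : G, ∃ a ∈ A, x = h * a * h⁻¹) → ∀ c ∈ A', (x : Ω) * c * (x : Ω)⁻¹ ∈ A' := by
      rintro x ⟨h, a, ha, rfl⟩ _ ⟨c, hc, rfl⟩
      have hquad : (ρ (h * a * h⁻¹) - 1) * (ρ (h * a * h⁻¹) - 1) = 0 := by
        have e1 : ρ h * ρ h⁻¹ = 1 := by rw [← map_mul, mul_inv_cancel, map_one]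
        have e2 : ρ h⁻¹ * ρ h = 1 := by rw [← map_mul, inv_mul_cancel, map_one]
        have e3 : ρ (h * a * h⁻¹) - 1 = ρ h * (ρ a - 1) * ρ h⁻¹ := by
          rw [map_mul, map_mul]
          calc ρ h * ρ a * ρ h⁻¹ - 1 = ρ h * ρ a * ρ h⁻¹ - ρ h * ρ h⁻¹ := by rw [e1]
            _ = _ := by noncomm_ring
        rw [e3]
        calc ρ h * (ρ a - 1) * ρ h⁻¹ * (ρ h * (ρ a - 1) * ρ h⁻¹)
            = ρ h * (ρ a - 1) * (ρ h⁻¹ * ρ h) * (ρ a - 1) * ρ h⁻¹ := by noncomm_ring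
          _ = ρ h * ((ρ a - 1) * (ρ a - 1)) * ρ h⁻¹ := by rw [e2]; noncomm_ring
          _ = 0 := by rw [hqa a ha a ha]; simp
      exact ⟨_, hAn _ (Subgroup.mem_top _) hquad c hc, rfl⟩
    have hle : Subgroup.closure {x : Ω | ∃ h ∈ G, ∃ a ∈ A', x = h * a * h⁻¹} ≤
        Subgroup.normalizer (A' : Set Ω) := by
      rw [Subgroup.closure_le]
      rintro _ ⟨h, hh, _, ⟨a, ha, rfl⟩, rfl⟩
      have hxG : ∀ b ∈ A, (h : Ω) * (b : Ω) * (h : Ω)⁻¹ ∈ G := fun b _ =>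
        G.mul_mem (G.mul_mem hh b.2) (G.inv_mem hh)
      rw [SetLike.mem_coe, Subgroup.mem_normalizer_iff]
      intro c
      constructor
      · intro hc
        exact hgen ⟨_, hxG a ha⟩ ⟨⟨h, hh⟩, a, ha, rfl⟩ c hc
      · intro hc
        have h1 := hgen ⟨_, hxG a⁻¹ (A.inv_mem ha)⟩ ⟨⟨h, hh⟩, a⁻¹, A.inv_mem ha, rfl⟩ _ hc
        have e : ((⟨_, hxG a⁻¹ (A.inv_mem ha)⟩ : G) : Ω) *
            ((h : Ω) * (a : Ω) * (h : Ω)⁻¹ * c * ((h : Ω) * (a : Ω) * (h : Ω)⁻¹)⁻¹) *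
            ((⟨_, hxG a⁻¹ (A.inv_mem ha)⟩ : G) : Ω)⁻¹ = c := by
          simp only [Subgroup.coe_inv]
          group
        have h1' : ((⟨_, hxG a⁻¹ (A.inv_mem ha)⟩ : G) : Ω) *
            ((h : Ω) * (a : Ω) * (h : Ω)⁻¹ * c * ((h : Ω) * (a : Ω) * (h : Ω)⁻¹)⁻¹) *
            ((⟨_, hxG a⁻¹ (A.inv_mem ha)⟩ : G) : Ω)⁻¹ ∈ A' := h1
        rwa [e] at h1'
    intro g hg a ha
    exact (Subgroup.mem_normalizer_iff.mp (hle hg) a).mp ha

end Cfsg.Agent.S1935
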