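import Mathlib
import Cfsg.Statements.S1939
import Cfsg.Agent.Lib.SylowConjLemmas
import Cfsg.Agent.Lib.TransferCore

set_option autoImplicit false
open Cfsg

namespace Cfsg.Agent.S1939

open Cfsg.Agent.Lib.SylowConjLemmas

/-- Let S be a Sylow p-subgroup of the finite group G and a an element of S that is the only G-conjugate of a lying in S. Then every power of a has the same property: for every n, the only G-conjugate of a^n lying in S is a^n. -/
theorem result {G : Type*} [Group G] [Finite G] {p : ℕ} [Fact p.Prime] (S : Sylow p G) (a : G)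
    (haS : a ∈ (S : Subgroup G)) (hwc : ∀ g : G, g * a * g⁻¹ ∈ (S : Subgroup G) → g * a * g⁻¹ = a) (n : ℕ) :
    ∀ g : G, g * a ^ n * g⁻¹ ∈ (S : Subgroup G) → g * a ^ n * g⁻¹ = a ^ n := by
  intro g hg
  have hac : ∀ y ∈ (S : Subgroup G), y * a = a * y := by
    intro y hy
    have h1 : y * a * y⁻¹ ∈ (S : Subgroup G) :=
      (S : Subgroup G).mul_mem ((S : Subgroup G).mul_mem hy haS) ((S : Subgroup G).inv_mem hy)
    have h2 := hwc y h1
    calc y * a = y * a * y⁻¹ * y := by group
      _ = a * y := by rw [h2]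
  set b := g * a ^ n * g⁻¹ with hb
  -- `a` lies in `K = C(b)`; so does the Sylow subgroup `g • S`.
  let K : Subgroup G := Subgroup.centralizer ({b} : Set G)
  have haK : a ∈ K := by
    rw [Subgroup.mem_centralizer_singleton_iff]
    exact (hac b hg).symm
  have hgS : ∀ x ∈ (S : Subgroup G), g * x * g⁻¹ ∈ K := by
    intro x hx
    rw [Subgroup.mem_centralizer_singleton_iff]
    have hx1 : x * a ^ n = a ^ n * x := by
      have := (hac x hx)
      exact (Commute.pow_right (show Commute x a from this) n)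
    rw [hb]
    calc g * x * g⁻¹ * (g * a ^ n * g⁻¹) = g * (x * a ^ n) * g⁻¹ := by group
      _ = g * (a ^ n * x) * g⁻¹ := by rw [hx1]
      _ = g * a ^ n * g⁻¹ * (g * x * g⁻¹) := by group
  let S' : Sylow p G := g • S
  have hS'mem : ∀ y, y ∈ (S' : Subgroup G) ↔ g⁻¹ * y * g ∈ (S : Subgroup G) := by
    intro y
    exact Cfsg.Agent.Lib.TransferCore.mem_smul_sylow
  have hS'K : (S' : Subgroup G) ≤ K := by
    intro y hy
    have := hgS _ ((hS'mem y).mp hy)
    have e : g * (g⁻¹ * y * g) * g⁻¹ = y := by group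
    rwa [e] at this
  have hTp : IsPGroup p (Subgroup.zpowers a) := by
    apply S.isPGroup'.to_le
    exact (Subgroup.zpowers_le).mpr haS
  have hTK : Subgroup.zpowers a ≤ K := (Subgroup.zpowers_le).mpr haK
  obtain ⟨h, hh, hconj⟩ := exists_conj_mem_of_le S' K hS'K _ hTp hTK
  have h1 := hconj a (Subgroup.mem_zpowers a)
  have h2 : g⁻¹ * (h * a * h⁻¹) * g ∈ (S : Subgroup G) := (hS'mem _).mp h1
  have e : g⁻¹ * (h * a * h⁻¹) * g = (g⁻¹ * h) * a * (g⁻¹ * h)⁻¹ := by group
  rw [e] at h2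
  have h3 := hwc _ h2
  have h4 : (g⁻¹ * h) * a ^ n * (g⁻¹ * h)⁻¹ = a ^ n := by
    rw [← conj_pow, h3]
  have h5 : h * a ^ n * h⁻¹ = b := by
    rw [hb]
    calc h * a ^ n * h⁻¹ = g * ((g⁻¹ * h) * a ^ n * (g⁻¹ * h)⁻¹) * g⁻¹ := by group
      _ = g * a ^ n * g⁻¹ := by rw [h4]
  have hhb : h * b = b * h := (Subgroup.mem_centralizer_singleton_iff.mp hh)
  have h6 : a ^ n = h⁻¹ * b * h := by
    rw [← h5]; group
  have h7 : h⁻¹ * b * h = b := by
    calc h⁻¹ * b * h = h⁻¹ * (b * h) := by group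
      _ = h⁻¹ * (h * b) := by rw [hhb]
      _ = b := by group
  rw [h6, h7]

end Cfsg.Agent.S1939
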