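import Mathlib
import Cfsg.Statements.S1940

set_option autoImplicit false
open Cfsg

namespace Cfsg.Agent.S1940

/-- Let the finite group L act by automorphisms on the finite abelian group M, and let N be an L-invariant subgroup of M such that M/N is a p-group on which L acts trivially (every l • m lies in the coset mN). If every element of M is a product of an element of N and an element fixed by a Sylow p-subgroup T of L, then every element of M is a product of an element of N and an element fixed by all of L. -/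
theorem result {L : Type*} [Group L] [Finite L] {M : Type*} [CommGroup M] [Finite M] [MulDistribMulAction L M]
    {p : ℕ} [Fact p.Prime] (N : Subgroup M) (hN : ∀ (l : L) (m : M), m ∈ N → l • m ∈ N)
    (hquot : IsPGroup p (M ⧸ N)) (htriv : ∀ (l : L) (m : M), (l • m) * m⁻¹ ∈ N) (T : Sylow p L)
    (hT : ∀ m : M, ∃ n ∈ N, ∃ c : M, (∀ t ∈ (T : Subgroup L), t • c = c) ∧ m = n * c) :
    ∀ m : M, ∃ n ∈ N, ∃ c : M, (∀ l : L, l • c = c) ∧ m = n * c := by
  classical
  intro m
  letI : Fintype (L ⧸ (T : Subgroup L)) := Fintype.ofFinite _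
  have hp : p.Prime := Fact.out
  have hcop : (Nat.card (M ⧸ N)).Coprime (T : Subgroup L).index := by
    obtain ⟨e, he⟩ := IsPGroup.iff_card.mp hquot
    rw [he]
    exact Nat.Coprime.pow_left e ((Nat.Prime.coprime_iff_not_dvd hp).mpr T.not_dvd_index)
  obtain ⟨x, hx⟩ := (powCoprime hcop).surjective (QuotientGroup.mk m : M ⧸ N)
  obtain ⟨y, rfl⟩ := QuotientGroup.mk_surjective x
  obtain ⟨n1, hn1, c, hc, hyc⟩ := hT y
  -- the norm of `c`
  let τ : M := ∏ r : L ⧸ (T : Subgroup L), (Quotient.out r : L) • c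
  have hτfix : ∀ l : L, l • τ = τ := by
    intro l
    have h1 : l • τ = ∏ r : L ⧸ (T : Subgroup L), (l * Quotient.out r) • c := by
      show MulDistribMulAction.toMonoidHom M l τ = _
      rw [map_prod]
      refine Finset.prod_congr rfl fun r _ => ?_
      simp [mul_smul]
    have h2 : ∀ r : L ⧸ (T : Subgroup L),
        (l * Quotient.out r) • c = (Quotient.out (l • r) : L) • c := by
      intro r
      have hmk : ((l * Quotient.out r : L) : L ⧸ (T : Subgroup L)) = ((Quotient.out (l • r) : L) : L ⧸ (T : Subgroup L)) := by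
        rw [QuotientGroup.out_eq']
        have : ((l * Quotient.out r : L) : L ⧸ (T : Subgroup L)) = l • ((Quotient.out r : L) : L ⧸ (T : Subgroup L)) := rfl
        rw [this, QuotientGroup.out_eq']
      have hmem : (Quotient.out (l • r) : L)⁻¹ * (l * Quotient.out r) ∈ (T : Subgroup L) := by
        rw [← QuotientGroup.eq]
        exact hmk.symm
      have := hc _ hmem
      calc (l * Quotient.out r) • c
          = (Quotient.out (l • r) : L) • (((Quotient.out (l • r) : L)⁻¹ * (l * Quotient.out r)) • c) := by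
            rw [← mul_smul]; simp
        _ = (Quotient.out (l • r) : L) • c := by rw [this]
    rw [h1, Finset.prod_congr rfl (fun r _ => h2 r)]
    exact Equiv.prod_comp (MulAction.toPerm l) (fun r : L ⧸ (T : Subgroup L) => (Quotient.out r : L) • c)
  -- `τ ≡ c ^ k` mod `N`
  have hτ : τ * (c ^ (T : Subgroup L).index)⁻¹ ∈ N := by
    have hidx : (T : Subgroup L).index = Fintype.card (L ⧸ (T : Subgroup L)) := by
      rw [Subgroup.index, Nat.card_eq_fintype_card]
    have hcp : c ^ (T : Subgroup L).index = ∏ _r : L ⧸ (T : Subgroup L), c := by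
      rw [Finset.prod_const, hidx, Finset.card_univ]
    rw [hcp, ← Finset.prod_inv_distrib, ← Finset.prod_mul_distrib]
    exact N.prod_mem fun r _ => htriv _ _
  refine ⟨m * τ⁻¹, ?_, τ, hτfix, by simp⟩
  -- `m ≡ y ^ k = (n1 c) ^ k ≡ c ^ k ≡ τ`.
  have hxk : (QuotientGroup.mk (y ^ (T : Subgroup L).index) : M ⧸ N) = QuotientGroup.mk m := by
    rw [QuotientGroup.mk_pow]; exact hx
  have h3 : (y ^ (T : Subgroup L).index)⁻¹ * m ∈ N := QuotientGroup.eq.mp hxk
  have h4 : y ^ (T : Subgroup L).index = n1 ^ (T : Subgroup L).index * c ^ (T : Subgroup L).index := by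
    rw [hyc, mul_pow]
  have e : m * τ⁻¹ = ((y ^ (T : Subgroup L).index)⁻¹ * m) * n1 ^ (T : Subgroup L).index * (τ * (c ^ (T : Subgroup L).index)⁻¹)⁻¹ := by
    rw [h4]
    generalize n1 ^ (T : Subgroup L).index = A
    generalize c ^ (T : Subgroup L).index = C
    have h5 : ((A * C)⁻¹ * m) * A * (τ * C⁻¹)⁻¹ = m * τ⁻¹ * (A⁻¹ * A) * (C⁻¹ * C) := by
      simp only [mul_inv, inv_inv]
      ac_rfl
    rw [h5]
    simp
  rw [e]
  exact N.mul_mem (N.mul_mem h3 (N.pow_mem hn1 _)) (N.inv_mem hτ)

end Cfsg.Agent.S1940
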