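import Mathlib
import Cfsg.Statements.S1941
import Cfsg.Agent.Lib.LocalCore
import Cfsg.Agent.Lib.PCore
import Cfsg.Agent.Lib.CocycleAvg

set_option autoImplicit false
open Cfsg

namespace Cfsg.Agent.S1941

/-- Let G be a finite group with no nontrivial normal subgroup of order prime to p, T a Sylow p-subgroup of G and E(G) the layer of G (the subgroup generated by its components). An automorphism of G of p-power order that fixes T and E(G) elementwise is inner. -/
theorem result {G : Type*} [Group G] [Finite G] {p : ℕ} [Fact p.Prime] (hcore : Cfsg.pPrimeCore p G = ⊥)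
    (T : Sylow p G) (α : MulAut G) (hα : ∃ j : ℕ, orderOf α = p ^ j) (hfixT : ∀ x ∈ (T : Subgroup G), α x = x)
    (hfixE : ∀ x ∈ Cfsg.layer G, α x = x) : ∃ g : G, ∀ x : G, α x = g * x * g⁻¹ := by
  classical
  have hF : Cfsg.fittingSubgroup G = Cfsg.pCore p G :=
    Cfsg.Agent.Lib.PCore.fittingSubgroup_eq_pCore_of_pPrimeCore_eq_bot p hcore
  -- α fixes F*
  have hfixS : Cfsg.generalizedFittingSubgroup G ≤ (MonoidHom.eqLocus α.toMonoidHom (MonoidHom.id G)) := by
    refine sup_le ?_ ?_
    · intro x hx
      exact hfixE x hx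
    · intro x hx
      rw [hF] at hx
      exact hfixT x (Cfsg.Agent.Lib.PCore.pCore_le_sylow p T hx)
  have hfix : ∀ x ∈ Cfsg.generalizedFittingSubgroup G, α x = x := fun x hx => hfixS hx
  set A : Subgroup G := Subgroup.centralizer (Cfsg.generalizedFittingSubgroup G : Set G) with hA
  haveI hAn : A.Normal := Subgroup.normal_centralizer (H := Cfsg.generalizedFittingSubgroup G)
  have hAF : A ≤ Cfsg.generalizedFittingSubgroup G :=
    Cfsg.Agent.Lib.LocalCore.centralizer_generalizedFitting_le
  have hAc : ∀ a ∈ A, ∀ b ∈ A, a * b = b * a := by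
    intro a ha b hb
    exact (Subgroup.mem_centralizer_iff.mp ha b (hAF hb)).symm
  -- A is a `p`-group: abelian normal so inside the Fitting subgroup
  have hAnil : Group.IsNilpotent A := by
    letI : CommGroup A :=
      { (inferInstance : Group A) with mul_comm := fun a b => Subtype.ext (hAc a a.2 b b.2) }
    infer_instance
  have hAFit : A ≤ Cfsg.pCore p G := hF ▸ Cfsg.Agent.Lib.PCore.le_fittingSubgroup hAn hAnil
  have hAp : IsPGroup p A := (Cfsg.Agent.Lib.PCore.isPGroup_pCore (G := G) p).to_le hAFit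
  have hcop : (T : Subgroup G).index.Coprime (Nat.card A) := by
    obtain ⟨k, hk⟩ := IsPGroup.iff_card.mp hAp
    rw [hk]
    apply Nat.Coprime.pow_right
    exact ((Nat.Prime.coprime_iff_not_dvd (Fact.out : p.Prime)).mpr T.not_dvd_index).symm
  obtain ⟨b, hb, hbe⟩ := Cfsg.Agent.Lib.CocycleAvg.exists_coboundary (T : Subgroup G) A hAc hcop
    (fun g => α g * g⁻¹) (by
      intro g
      rw [hA, Subgroup.mem_centralizer_iff]
      intro x hx
      have h1 : g⁻¹ * x * g ∈ Cfsg.generalizedFittingSubgroup G := by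
        have := (inferInstance : (Cfsg.generalizedFittingSubgroup G).Normal).conj_mem x hx g⁻¹
        simpa using this
      have h2 : α (g⁻¹ * x * g) = g⁻¹ * x * g := hfix _ h1
      have h3 : α g⁻¹ * x * α g = g⁻¹ * x * g := by
        rw [← h2, map_mul, map_mul, hfix x hx]
      have h4 : α g⁻¹ = (α g)⁻¹ := map_inv α g
      rw [h4] at h3
      have h5 : x = α g * (g⁻¹ * x * g) * (α g)⁻¹ := by
        rw [← h3]; group
      calc x * (α g * g⁻¹) = (α g * (g⁻¹ * x * g) * (α g)⁻¹) * (α g * g⁻¹) := by rw [← h5]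
        _ = α g * g⁻¹ * x := by group)
    (by
      intro g h
      simp only [map_mul]
      group)
    (by
      intro t ht
      simp [hfixT t ht])
  refine ⟨b, fun x => ?_⟩
  have := hbe x
  have h6 : α x = b * (x * b⁻¹ * x⁻¹) * x := by
    rw [← this]; group
  rw [h6]; group

end Cfsg.Agent.S1941
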