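import Mathlib
import Cfsg.Statements.S1944
import Cfsg.Agent.Lib.PPrimeP
import Cfsg.Agent.Lib.PCore

set_option autoImplicit false
open Cfsg

namespace Cfsg.Agent.S1944

section Aux

/-- The norm argument. -/
theorem norm_split {V H : Type*} [CommGroup V] [Group H] [Finite V] [Finite H] {p : ℕ} [hp : Fact p.Prime]
    (hV : IsPGroup p V) (ρ : H →* MulAut V) (S : Subgroup H) (hS : ¬ p ∣ S.index) :
    ∃ K : Subgroup V, (∀ k ∈ K, ∀ s ∈ S, ρ s k = k) ∧ (∀ k ∈ K, (∀ h, ρ h k = k) → k = 1) ∧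
      ∀ z : V, (∀ s ∈ S, ρ s z = z) → ∃ w k : V, (∀ h, ρ h w = w) ∧ k ∈ K ∧ z = w * k := by
  classical
  have hpp : p.Prime := hp.out
  haveI : Fintype (H ⧸ S) := Fintype.ofFinite _
  let τ : V →* V := ∏ q : H ⧸ S, (ρ q.out).toMonoidHom
  have hτ : ∀ a : V, τ a = ∏ q : H ⧸ S, ρ q.out a := by
    intro a
    simp only [τ, MonoidHom.finsetProd_apply]
    rfl
  have hrep : ∀ z : V, (∀ s ∈ S, ρ s z = z) → ∀ (h : H) (q : H ⧸ S), ρ h (ρ q.out z) = ρ (h • q).out z := by
    intro z hz h q
    have hmem : ((h • q).out)⁻¹ * (h * q.out) ∈ S := by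
      rw [← QuotientGroup.eq]
      have e1 : (QuotientGroup.mk (h * q.out) : H ⧸ S) = h • q := by
        conv_rhs => rw [← q.out_eq']
        rfl
      rw [e1]
      exact (h • q).out_eq'
    set s := ((h • q).out)⁻¹ * (h * q.out) with hs
    have e2 : h * q.out = (h • q).out * s := by
      rw [hs]
      group
    have e3 : ρ h (ρ q.out z) = ρ (h * q.out) z := by
      rw [map_mul]
      rfl
    rw [e3, e2, map_mul, MulAut.mul_apply, hz s hmem]
  have himage : ∀ z : V, (∀ s ∈ S, ρ s z = z) → ∀ h, ρ h (τ z) = τ z := by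
    intro z hz h
    rw [hτ, map_prod]
    simp_rw [hrep z hz h]
    exact Equiv.prod_comp (MulAction.toPerm h) (fun q : H ⧸ S => ρ q.out z)
  have hWτ : ∀ w : V, (∀ h, ρ h w = w) → τ w = w ^ S.index := by
    intro w hw
    rw [hτ]
    simp only [hw, Finset.prod_const, Finset.card_univ]
    rw [Subgroup.index, Nat.card_eq_fintype_card]
  let Zs : Subgroup V :=
    { carrier := {z | ∀ s ∈ S, ρ s z = z}
      mul_mem' := by
        intro a b ha hb s hs
        rw [map_mul, ha s hs, hb s hs]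
      one_mem' := fun s _ => map_one _
      inv_mem' := by
        intro a ha s hs
        rw [map_inv, ha s hs] }
  let Ws : Subgroup V :=
    { carrier := {z | ∀ h, ρ h z = z}
      mul_mem' := by
        intro a b ha hb s
        rw [map_mul, ha s, hb s]
      one_mem' := fun s => map_one _
      inv_mem' := by
        intro a ha s
        rw [map_inv, ha s] }
  have hco : (Nat.card Ws).Coprime S.index := by
    obtain ⟨a, ha⟩ := IsPGroup.iff_card.mp (hV.to_subgroup Ws)
    rw [ha]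
    exact Nat.Coprime.pow_left a ((Nat.Prime.coprime_iff_not_dvd hpp).mpr hS)
  refine ⟨Zs ⊓ τ.ker, fun k hk => hk.1, ?_, ?_⟩
  · intro k hk hfix
    have h1 : k ^ S.index = 1 := by
      rw [← hWτ k hfix]
      exact hk.2
    have h2 : orderOf k ∣ S.index := orderOf_dvd_of_pow_eq_one h1
    obtain ⟨a, ha⟩ := (IsPGroup.iff_orderOf.mp hV) k
    rw [ha] at h2
    have h3 : a = 0 := by
      by_contra hne
      exact hS ((dvd_pow_self p hne).trans h2)
    rw [h3, pow_zero, orderOf_eq_one_iff] at ha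
    exact ha
  · intro z hz
    have hu : τ z ∈ Ws := himage z hz
    obtain ⟨⟨w, hwW⟩, hw⟩ := (powCoprime hco).surjective ⟨τ z, hu⟩
    have hw2 : w ^ S.index = τ z := congrArg Subtype.val hw
    refine ⟨w, w⁻¹ * z, hwW, ⟨?_, ?_⟩, by group⟩
    · intro s hs
      rw [map_mul, map_inv, hz s hs, hwW s]
    · show τ (w⁻¹ * z) = 1
      rw [map_mul, map_inv, hWτ w hwW, hw2, inv_mul_cancel]

end Aux


/-- Let S be a Sylow p-subgroup of the finite group G and suppose that the centre Z(S) lies in O_{p',p}(G). The elements of S each of which is its only G-conjugate in S form a subgroup W of Z(S); W is then a direct factor of Z(S): there is a subgroup K of Z(S) with W ∩ K = 1 and WK = Z(S). -/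
theorem result {G : Type*} [Group G] [Finite G] {p : ℕ} [Fact p.Prime] (S : Sylow p G)
    (hZ : ((S : Subgroup G) ⊓ Subgroup.centralizer ((S : Subgroup G) : Set G)) ≤ Cfsg.pPrimePCore p G) :
    ∃ W K : Subgroup G, (∀ x : G, x ∈ W ↔ (x ∈ (S : Subgroup G) ∧ ∀ g : G, g * x * g⁻¹ ∈ (S : Subgroup G) → g * x * g⁻¹ = x)) ∧
      K ≤ ((S : Subgroup G) ⊓ Subgroup.centralizer ((S : Subgroup G) : Set G)) ∧ W ⊓ K = ⊥ ∧ W ⊔ K = ((S : Subgroup G) ⊓ Subgroup.centralizer ((S : Subgroup G) : Set G)) := by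
  classical
  have hpp : p.Prime := Fact.out
  set O := Cfsg.pPrimeCore p G with hO
  set K₁ := Cfsg.pPrimePCore p G with hK₁
  set R : Subgroup G := (S : Subgroup G) ⊓ K₁ with hR
  set H := Subgroup.normalizer (R : Set G) with hH
  haveI hK₁n : K₁.Normal := Cfsg.Agent.Lib.PPrimeP.instPPrimePCoreNormal p
  haveI hOn : O.Normal := Cfsg.Agent.Lib.PCore.pPrimeCore_normal p
  have hconjH : ∀ h ∈ H, ∀ r ∈ R, h * r * h⁻¹ ∈ R := fun h hh r hr =>
    (Subgroup.mem_normalizer_iff.mp hh r).mp hr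
  have hRp : IsPGroup p R := S.isPGroup'.to_le inf_le_left
  have hROb : ∀ a ∈ R, a ∈ O → a = 1 := by
    intro a ha hO'
    have h1 := Cfsg.Agent.Lib.PPrimeP.inf_pPrimeCore_eq_bot hRp
    have h2 : a ∈ R ⊓ O := ⟨ha, hO'⟩
    rw [h1] at h2
    exact Subgroup.mem_bot.mp h2
  have hfus : ∀ a ∈ R, ∀ g : G, g * a * g⁻¹ ∈ R → ∃ h ∈ H, g * a * g⁻¹ = h * a * h⁻¹ := by
    intro a ha g hg
    obtain ⟨d, hd, hdg⟩ := Cfsg.Agent.Lib.PPrimeP.exists_mul_mem_normalizer S g
    refine ⟨d * g, hdg, ?_⟩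
    set b := (d * g) * a * (d * g)⁻¹ with hb'
    have hb : b ∈ R := hconjH _ hdg a ha
    have e : g * a * g⁻¹ = d⁻¹ * b * d := by
      rw [hb']
      group
    have hc1 : (g * a * g⁻¹) * b⁻¹ ∈ R := mul_mem hg (inv_mem hb)
    have hc2 : (g * a * g⁻¹) * b⁻¹ ∈ O := by
      rw [e]
      have h3 := O.mul_mem (O.inv_mem hd) (hOn.conj_mem d hd b)
      convert h3 using 1
      group
    exact mul_inv_eq_one.mp (hROb _ hc1 hc2)
  set A : Subgroup G := R ⊓ Subgroup.centralizer (R : Set G) with hA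
  have hAconj : ∀ h ∈ H, ∀ a ∈ A, h * a * h⁻¹ ∈ A := by
    intro h hh a ha
    refine Subgroup.mem_inf.mpr ⟨hconjH h hh a ha.1, ?_⟩
    rw [Subgroup.mem_centralizer_iff]
    intro r hr
    have hr' : h⁻¹ * r * h ∈ R := by
      have := hconjH h⁻¹ (inv_mem hh) r hr
      simpa using this
    have h1 : (h⁻¹ * r * h) * a = a * (h⁻¹ * r * h) := Subgroup.mem_centralizer_iff.mp ha.2 _ hr'
    calc r * (h * a * h⁻¹) = h * ((h⁻¹ * r * h) * a) * h⁻¹ := by group
      _ = h * (a * (h⁻¹ * r * h)) * h⁻¹ := by rw [h1]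
      _ = h * a * h⁻¹ * r := by group
  have hAcomm : ∀ a ∈ A, ∀ b ∈ A, a * b = b * a := fun a ha b hb =>
    (Subgroup.mem_centralizer_iff.mp ha.2 b hb.1).symm
  letI instA : CommGroup A := { (inferInstance : Group A) with
    mul_comm := fun a b => Subtype.ext (hAcomm a a.2 b b.2) }
  let ρ : H →* MulAut A :=
    { toFun := fun h =>
        { toFun := fun a => ⟨h * a * (h : G)⁻¹, hAconj h h.2 a a.2⟩
          invFun := fun a => ⟨(h : G)⁻¹ * a * h, by
            have := hAconj h⁻¹ (inv_mem h.2) a a.2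
            simpa using this⟩
          left_inv := fun a => by
            apply Subtype.ext
            show (h : G)⁻¹ * (h * a * (h : G)⁻¹) * h = a
            group
          right_inv := fun a => by
            apply Subtype.ext
            show (h : G) * ((h : G)⁻¹ * a * h) * (h : G)⁻¹ = a
            group
          map_mul' := fun a b => by
            apply Subtype.ext
            show (h : G) * (a * b) * (h : G)⁻¹ = (h * a * (h : G)⁻¹) * (h * b * (h : G)⁻¹)
            group }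
      map_one' := by
        ext a
        show (1 : G) * a * (1 : G)⁻¹ = a
        group
      map_mul' := fun h₁ h₂ => by
        ext a
        show ((h₁ : G) * h₂) * a * ((h₁ : G) * h₂)⁻¹ = h₁ * (h₂ * a * (h₂ : G)⁻¹) * (h₁ : G)⁻¹
        group }
  have hρ : ∀ (h : H) (a : A), ((ρ h a : A) : G) = h * a * (h : G)⁻¹ := fun h a => rfl
  have hSH : (S : Subgroup G) ≤ H := by
    intro s hs
    rw [hH, Subgroup.mem_normalizer_iff]
    intro r
    constructor
    · intro hr
      obtain ⟨h1, h2⟩ := Subgroup.mem_inf.mp hr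
      exact Subgroup.mem_inf.mpr ⟨(S : Subgroup G).mul_mem ((S : Subgroup G).mul_mem hs h1) ((S : Subgroup G).inv_mem hs),
        hK₁n.conj_mem r h2 s⟩
    · intro hr
      obtain ⟨h3, h2⟩ := Subgroup.mem_inf.mp hr
      refine Subgroup.mem_inf.mpr ⟨?_, ?_⟩
      · have h1 := (S : Subgroup G).mul_mem ((S : Subgroup G).mul_mem ((S : Subgroup G).inv_mem hs) h3) hs
        convert h1 using 1
        group
      · have h1 := hK₁n.conj_mem _ h2 s⁻¹
        convert h1 using 1
        group
  have hS' : ¬ p ∣ ((S : Subgroup G).subgroupOf H).index := by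
    intro hd
    apply S.not_dvd_index
    rw [← Subgroup.relIndex_mul_index hSH]
    exact hd.trans (dvd_mul_right _ _)
  have hAp : IsPGroup p A := hRp.to_le inf_le_left
  obtain ⟨K', hK1, hK2, hK3⟩ := norm_split hAp ρ ((S : Subgroup G).subgroupOf H) hS'
  let W : Subgroup G := A ⊓ Subgroup.centralizer (H : Set G)
  have hAS : A ≤ (S : Subgroup G) := inf_le_left.trans inf_le_left
  refine ⟨W, K'.map A.subtype, ?_, ?_, ?_, ?_⟩
  · intro x
    constructor
    · rintro ⟨hxA, hxH⟩
      refine ⟨hAS hxA, ?_⟩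
      intro g hg
      have hgR : g * x * g⁻¹ ∈ R := ⟨hg, hK₁n.conj_mem x hxA.1.2 g⟩
      obtain ⟨h, hh, e⟩ := hfus x hxA.1 g hgR
      rw [e]
      have h1 : h * x = x * h := Subgroup.mem_centralizer_iff.mp hxH h hh
      rw [h1]
      group
    · rintro ⟨hxS, hiso⟩
      have hxZ : x ∈ (S : Subgroup G) ⊓ Subgroup.centralizer ((S : Subgroup G) : Set G) := by
        refine Subgroup.mem_inf.mpr ⟨hxS, ?_⟩
        rw [Subgroup.mem_centralizer_iff]
        intro s hs
        have h1 := hiso s (mul_mem (mul_mem hs hxS) (inv_mem hs))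
        calc s * x = (s * x * s⁻¹) * s := by group
          _ = x * s := by rw [h1]
      have hxR : x ∈ R := ⟨hxS, hZ hxZ⟩
      refine Subgroup.mem_inf.mpr ⟨Subgroup.mem_inf.mpr ⟨hxR, ?_⟩, ?_⟩
      · rw [Subgroup.mem_centralizer_iff]
        intro r hr
        exact Subgroup.mem_centralizer_iff.mp hxZ.2 r hr.1
      · rw [Subgroup.mem_centralizer_iff]
        intro h hh
        have h2 := hconjH h hh x hxR
        have h1 := hiso h h2.1
        calc h * x = (h * x * h⁻¹) * h := by group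
          _ = x * h := by rw [h1]
  · rintro _ ⟨k, hk, rfl⟩
    refine Subgroup.mem_inf.mpr ⟨hAS k.2, ?_⟩
    rw [Subgroup.mem_centralizer_iff]
    intro s hs
    have h1 := hK1 k hk ⟨s, hSH hs⟩ hs
    have h2 : s * (k : G) * s⁻¹ = k := congrArg Subtype.val h1
    calc s * (k : G) = (s * k * s⁻¹) * s := by group
      _ = k * s := by rw [h2]
  · rw [eq_bot_iff]
    rintro x ⟨hxW, k, hk, rfl⟩
    have h1 := hK2 k hk (fun h => by
      apply Subtype.ext
      rw [hρ]
      have h2 : (h : G) * k = k * h := Subgroup.mem_centralizer_iff.mp hxW.2 h h.2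
      rw [h2]
      group)
    rw [h1]
    exact Subgroup.one_mem _
  · refine le_antisymm (sup_le ?_ ?_) ?_
    · rintro x ⟨hxA, hxH⟩
      refine Subgroup.mem_inf.mpr ⟨hAS hxA, ?_⟩
      rw [Subgroup.mem_centralizer_iff]
      intro s hs
      exact Subgroup.mem_centralizer_iff.mp hxH s (hSH hs)
    · rintro _ ⟨k, hk, rfl⟩
      refine Subgroup.mem_inf.mpr ⟨hAS k.2, ?_⟩
      rw [Subgroup.mem_centralizer_iff]
      intro s hs
      have h1 := hK1 k hk ⟨s, hSH hs⟩ hs
      have h2 : s * (k : G) * s⁻¹ = k := congrArg Subtype.val h1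
      calc s * (k : G) = (s * k * s⁻¹) * s := by group
        _ = k * s := by rw [h2]
    · intro z hz
      have hzR : z ∈ R := ⟨hz.1, hZ hz⟩
      have hzA : z ∈ A := by
        refine Subgroup.mem_inf.mpr ⟨hzR, ?_⟩
        rw [Subgroup.mem_centralizer_iff]
        intro r hr
        exact Subgroup.mem_centralizer_iff.mp hz.2 r hr.1
      obtain ⟨w, k, hw, hk, e⟩ := hK3 ⟨z, hzA⟩ (by
        intro s hs
        apply Subtype.ext
        rw [hρ]
        have h1 : (s : G) * z = z * s := Subgroup.mem_centralizer_iff.mp hz.2 s hs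
        show (s : G) * z * (s : G)⁻¹ = z
        rw [h1]
        group)
      have e' : z = (w : G) * (k : G) := congrArg Subtype.val e
      rw [e']
      refine Subgroup.mul_mem_sup (Subgroup.mem_inf.mpr ⟨w.2, ?_⟩) ⟨k, hk, rfl⟩
      rw [Subgroup.mem_centralizer_iff]
      intro h hh
      have h1 := hw ⟨h, hh⟩
      have h2 : h * (w : G) * h⁻¹ = w := congrArg Subtype.val h1
      calc h * (w : G) = (h * w * h⁻¹) * h := by group
        _ = w * h := by rw [h2]

end Cfsg.Agent.S1944
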