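import Mathlib
import Cfsg.Statements.S1946
import Cfsg.Agent.Lib.Ito

set_option autoImplicit false
open Cfsg

namespace Cfsg.Agent.S1946

open scoped commutatorElement

/-- Let P be a Sylow p-subgroup of the finite group G. Then G has a normal p-complement if and only if P controls the fusion of its elements of order dividing p (dividing 4 when p = 2): whenever such an element a of P has a G-conjugate g a g⁻¹ in P, that conjugate is already x a x⁻¹ for some x in P. -/
theorem result {G : Type*} [Group G] [Finite G] {p : ℕ} [Fact p.Prime] (P : Sylow p G) :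
    Cfsg.HasNormalPComplement p G ↔
      ∀ a ∈ (P : Subgroup G), (a ^ p = 1 ∨ (p = 2 ∧ a ^ 4 = 1)) → ∀ g : G, g * a * g⁻¹ ∈ (P : Subgroup G) →
        ∃ x ∈ (P : Subgroup G), g * a * g⁻¹ = x * a * x⁻¹ := by
  constructor
  · intro h a ha _ g hg
    rw [Cfsg.Agent.Lib.TransferEval.hasNormalPComplement_iff P] at h
    obtain ⟨N, hN, hc⟩ := h
    obtain ⟨⟨n, x⟩, hnx⟩ := hc.2 g
    have hg' : g = (n : G) * (x : G) := hnx.symm
    refine ⟨x, x.2, ?_⟩
    have h1 : g * a * g⁻¹ * ((x : G) * a * (x : G)⁻¹)⁻¹ ∈ N := by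
      have h2 := hN.conj_mem ((n : G)⁻¹) (inv_mem n.2) ((x : G) * a * (x : G)⁻¹)
      have h3 := mul_mem n.2 h2
      convert h3 using 1
      rw [hg']
      group
    have h2 : g * a * g⁻¹ * ((x : G) * a * (x : G)⁻¹)⁻¹ ∈ (P : Subgroup G) :=
      mul_mem hg (inv_mem (mul_mem (mul_mem x.2 ha) (inv_mem x.2)))
    have h3 := Subgroup.disjoint_def.mp hc.disjoint h1 h2
    exact mul_inv_eq_one.mp h3
  · intro h
    by_contra hN
    obtain ⟨Q, hQP, y, hy, ⟨x, hx, hx2⟩, hsmall, hQc⟩ := Cfsg.Agent.Lib.Ito.exists_pair_of_not_npc P hN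
    have hall : ∀ i : ℕ, Q ≤ Subgroup.lowerCentralSeries (P : Subgroup G) i := by
      intro i
      induction i with
      | zero => exact hQP
      | succ i ih =>
        rw [hQc, Cfsg.Agent.Lib.Ito.commY, Subgroup.closure_le]
        rintro _ ⟨a, ha, rfl⟩
        obtain ⟨u, hu, hua⟩ := h a (hQP ha) (hsmall a ha) y (hQP (hy a ha))
        rw [hua, Subgroup.lowerCentralSeries_succ]
        have h2 := Subgroup.commutator_mem_commutator (inv_mem (ih ha)) hu
        have e : a⁻¹ * (u * a * u⁻¹) = ⁅a⁻¹, u⁆ := by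
          rw [commutatorElement_def]
          group
        rw [e]
        exact h2
    obtain ⟨m, hm⟩ := (Subgroup.isNilpotent_iff_lowerCentralSeries (P : Subgroup G)).mp P.isPGroup'.isNilpotent
    have h0 := hall m hx
    rw [hm] at h0
    have hx1 : x = 1 := by simpa using h0
    apply hx2
    rw [hx1]
    simp

end Cfsg.Agent.S1946
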