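import Mathlib
import Cfsg.Statements.S1947
import Cfsg.Agent.Lib.Ito

set_option autoImplicit false
open Cfsg

namespace Cfsg.Agent.S1947

open scoped commutatorElement

/-- Let G be a finite group and p a prime. If every element of G of order dividing p (dividing 4 when p = 2) lies in some fixed term Z_n(G) of the upper central series, then G has a normal p-complement. -/
theorem result {G : Type*} [Group G] [Finite G] {p : ℕ} [Fact p.Prime] (n : ℕ)
    (h : ∀ a : G, (a ^ p = 1 ∨ (p = 2 ∧ a ^ 4 = 1)) → a ∈ Subgroup.upperCentralSeries G n) : Cfsg.HasNormalPComplement p G := by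
  by_contra hN
  obtain ⟨P⟩ : Nonempty (Sylow p G) := inferInstance
  obtain ⟨Q, -, y, hy, ⟨x, hx, hx2⟩, hsmall, hQc⟩ := Cfsg.Agent.Lib.Ito.exists_pair_of_not_npc P hN
  have hstep : ∀ m : ℕ, Q ≤ Subgroup.upperCentralSeries G m → Q ≤ Subgroup.upperCentralSeries G (m - 1) := by
    intro m hm
    cases m with
    | zero => exact hm
    | succ m =>
      show Q ≤ Subgroup.upperCentralSeries G m
      rw [hQc, Cfsg.Agent.Lib.Ito.commY, Subgroup.closure_le]
      rintro _ ⟨a, ha, rfl⟩
      have h1 := (Subgroup.mem_upperCentralSeries_succ_iff (n := m)).mp (hm (inv_mem ha)) y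
      have e : a⁻¹ * (y * a * y⁻¹) = ⁅a⁻¹, y⁆ := by
        rw [commutatorElement_def]
        group
      rw [SetLike.mem_coe, e]
      exact h1
  have hall : ∀ m : ℕ, Q ≤ Subgroup.upperCentralSeries G (n - m) := by
    intro m
    induction m with
    | zero =>
      intro a ha
      exact h a (hsmall a ha)
    | succ m ih =>
      have := hstep _ ih
      rwa [Nat.sub_sub] at this
  have h0 : Q ≤ Subgroup.upperCentralSeries G 0 := by
    have := hall n
    rwa [Nat.sub_self] at this
  have hx1 : x = 1 := by
    have := h0 hx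
    simpa using this
  apply hx2
  rw [hx1]
  simp

end Cfsg.Agent.S1947
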