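import Mathlib
import Cfsg.Statements.S1948
import Cfsg.Agent.Lib.PPrimeP
import Cfsg.Agent.Lib.PResid

set_option autoImplicit false
open Cfsg

namespace Cfsg.Agent.S1948

open Cfsg.Agent.Lib.PPrimeP Cfsg.Agent.Lib.PCore Cfsg.Agent.Lib.SylowConjLemmas

/-- If `Q` is a normal Sylow `p`-subgroup of `Γ` and `O_{p'}(Γ) = 1`, then `C(Q) ≤ Q`. -/
theorem centralizer_le_of_normal_sylow {Γ : Type*} [Group Γ] [Finite Γ] {p : ℕ} [Fact p.Prime]
    (Q : Subgroup Γ) [hQn : Q.Normal] (hQ : IsPGroup p Q) (hidx : ¬ p ∣ Q.index)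
    (hcore : pPrimeCore p Γ = ⊥) : Subgroup.centralizer (Q : Set Γ) ≤ Q := by
  have hp : p.Prime := Fact.out
  set C : Subgroup Γ := Subgroup.centralizer (Q : Set Γ) with hC
  let N : Subgroup C := Q.subgroupOf C
  have hNp : IsPGroup p N := hQ.comap_of_injective C.subtype C.subtype_injective
  haveI hNn : N.Normal := by infer_instance
  have hNidx : ¬ p ∣ N.index := by
    intro h
    apply hidx
    refine h.trans ?_
    have : N.index = Q.relIndex C := rfl
    rw [this]
    exact Subgroup.relIndex_dvd_index_of_normal Q C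
  have hcop : (Nat.card N).Coprime N.index := by
    obtain ⟨k, hk⟩ := IsPGroup.iff_card.mp hNp
    rw [hk]
    exact Nat.Coprime.pow_left k ((Nat.Prime.coprime_iff_not_dvd hp).mpr hNidx)
  obtain ⟨Y, hY⟩ := Subgroup.exists_right_complement'_of_coprime hcop
  -- every element of `C` is `n * y`.
  have hdec : ∀ c : C, ∃ n ∈ N, ∃ y ∈ Y, c = n * y := by
    intro c
    obtain ⟨⟨n, y⟩, h⟩ := hY.2 c
    exact ⟨n, n.2, y, y.2, h.symm⟩
  have hNC : ∀ n ∈ N, ∀ c : C, n * c = c * n := by
    intro n hn c
    apply Subtype.ext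
    have h1 : ((n : C) : Γ) ∈ Q := hn
    have h2 := (Subgroup.mem_centralizer_iff.mp c.2) _ h1
    simpa using h2
  have hYcard : (Nat.card Y).Coprime p := by
    have h1 : Nat.card Y = N.index := by
      rw [hY.symm.index_eq_card]
    rw [h1]
    exact ((Nat.Prime.coprime_iff_not_dvd hp).mpr hNidx).symm
  let Y' : Subgroup Γ := Y.map C.subtype
  have hY'card : (Nat.card Y').Coprime p := by
    rw [Subgroup.card_map_of_injective C.subtype_injective]
    exact hYcard
  have hY'n : Y'.Normal := by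
    constructor
    rintro _ ⟨y, hy, rfl⟩ g
    -- the conjugate lies in `C`
    have hCn : ∀ c ∈ C, g * c * g⁻¹ ∈ C := by
      intro c hc
      rw [hC, Subgroup.mem_centralizer_iff] at hc ⊢
      intro q hq
      have hq' : g⁻¹ * q * g ∈ Q := by
        have := hQn.conj_mem q hq g⁻¹
        simpa using this
      have := hc _ hq'
      calc q * (g * c * g⁻¹) = g * ((g⁻¹ * q * g) * c) * g⁻¹ := by group
        _ = g * (c * (g⁻¹ * q * g)) * g⁻¹ := by rw [this]
        _ = g * c * g⁻¹ * q := by group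
    set c : C := ⟨g * (y : Γ) * g⁻¹, hCn _ y.2⟩ with hc
    obtain ⟨n, hn, y₁, hy₁, hcn⟩ := hdec c
    have hm : orderOf c = orderOf y := by
      have h1 : orderOf c = orderOf (c : Γ) := (Subgroup.orderOf_coe c).symm
      have h2 : orderOf y = orderOf (y : Γ) := (Subgroup.orderOf_coe y).symm
      rw [h1, h2, hc]
      simpa using MulEquiv.orderOf_eq (MulAut.conj g) (y : Γ)
    have hYY : (orderOf y).Coprime p := by
      have h3 : orderOf (⟨y, hy⟩ : Y) ∣ Nat.card Y := orderOf_dvd_natCard _
      have h4 : orderOf (⟨y, hy⟩ : Y) = orderOf y := Subgroup.orderOf_mk y hy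
      rw [h4] at h3
      exact Nat.Coprime.coprime_dvd_left h3 hYcard
    set m := orderOf y with hmdef
    have hcm : c ^ m = 1 := by rw [← hm]; exact pow_orderOf_eq_one c
    have hnm : n ^ m * y₁ ^ m = 1 := by
      have hcomm : Commute n y₁ := hNC n hn y₁
      rw [← hcomm.mul_pow, ← hcn, hcm]
    have hn1 : n ^ m = 1 := by
      have h5 : n ^ m ∈ N := N.pow_mem hn m
      have h6 : n ^ m ∈ Y := by
        have : n ^ m = (y₁ ^ m)⁻¹ := eq_inv_of_mul_eq_one_left hnm
        rw [this]
        exact Y.inv_mem (Y.pow_mem hy₁ m)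
      exact Subgroup.disjoint_def.mp hY.disjoint h5 h6
    have hn2 : n = 1 := by
      obtain ⟨k, hk⟩ := IsPGroup.iff_orderOf.mp hNp ⟨n, hn⟩
      have h7 : orderOf n = p ^ k := by
        rw [← hk]; exact (Subgroup.orderOf_mk n hn).symm
      have h8 : orderOf n ∣ m := orderOf_dvd_of_pow_eq_one hn1
      have h9 : (orderOf n).Coprime m := by
        rw [h7]
        exact Nat.Coprime.pow_left k hYY.symm
      have h10 : orderOf n = 1 := Nat.Coprime.eq_one_of_dvd h9 h8
      exact orderOf_eq_one_iff.mp h10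
    rw [hn2, one_mul] at hcn
    refine ⟨y₁, hy₁, ?_⟩
    have := congrArg Subtype.val hcn
    simpa [hc] using this.symm
  have hY'le : Y' ≤ pPrimeCore p Γ := le_pPrimeCore hY'n hY'card
  rw [hcore] at hY'le
  intro x hx
  obtain ⟨n, hn, y, hy, hxy⟩ := hdec ⟨x, hx⟩
  have hy1 : ((y : C) : Γ) ∈ Y' := ⟨y, hy, rfl⟩
  have hy2 := hY'le hy1
  rw [Subgroup.mem_bot] at hy2
  have hy3 : y = 1 := Subtype.ext hy2
  rw [hy3, mul_one] at hxy
  have := congrArg Subtype.val hxy
  simp only at this
  rw [this]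
  exact hn

/-- Let S be a Sylow p-subgroup of the finite group G. Then G = N_G(S)·O_{p'}(G) if and only if G is p-constrained and N_G(S) controls fusion in S, in the sense that whenever a subgroup Q of S has a conjugate g Q g⁻¹ inside S, the element g is a product n c with n normalizing S and c centralizing Q. -/
theorem result {G : Type*} [Group G] [Finite G] {p : ℕ} [Fact p.Prime] (S : Sylow p G) :
    Subgroup.normalizer ((S : Subgroup G) : Set G) ⊔ Cfsg.pPrimeCore p G = ⊤ ↔
      (Cfsg.IsPConstrained p G ∧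
        ∀ Q : Subgroup G, Q ≤ (S : Subgroup G) → ∀ g : G, Q.map (MulAut.conj g).toMonoidHom ≤ (S : Subgroup G) →
          ∃ n ∈ Subgroup.normalizer ((S : Subgroup G) : Set G), ∃ c ∈ Subgroup.centralizer (Q : Set G), g = n * c) := by
  set D := pPrimeCore p G with hD
  set K := pPrimePCore p G with hK
  have hSD : (S : Subgroup G) ⊓ D = ⊥ := inf_pPrimeCore_eq_bot S.isPGroup'
  constructor
  · intro hG
    constructor
    · -- `p`-constraint
      intro P
      set P' : Subgroup G := (P : Subgroup K).map K.subtype with hP'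
      have hP'p : IsPGroup p P' := P.isPGroup'.map _
      obtain ⟨T, hT⟩ := hP'p.exists_le_sylow
      have hP'K : P' ≤ K := Subgroup.map_subtype_le _
      have hTK : (T : Subgroup G) ⊓ K = P' := by
        apply le_antisymm _ (le_inf hT hP'K)
        have h1 : IsPGroup p (((T : Subgroup G) ⊓ K).subgroupOf K) :=
          (T.isPGroup'.to_le inf_le_left).comap_of_injective K.subtype K.subtype_injective
        have h2 : (P : Subgroup K) ≤ ((T : Subgroup G) ⊓ K).subgroupOf K := by
          intro x hx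
          rw [Subgroup.mem_subgroupOf]
          refine ⟨hT ?_, x.2⟩
          exact ⟨x, hx, rfl⟩
        have h3 := P.3 h1 h2
        intro y hy
        have hy' : (⟨y, hy.2⟩ : K) ∈ (P : Subgroup K) := by
          rw [← h3, Subgroup.mem_subgroupOf]
          exact hy
        exact ⟨_, hy', rfl⟩
      -- in the quotient
      let π := QuotientGroup.mk' D
      have hπ : Function.Surjective π := QuotientGroup.mk'_surjective D
      -- `S̄` is normal
      let Sb : Sylow p (G ⧸ D) := S.mapSurjective hπ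
      have hSbN : (Sb : Subgroup (G ⧸ D)).Normal := by
        constructor
        intro n hn g
        obtain ⟨g', rfl⟩ := hπ g
        have hg' : g' ∈ Subgroup.normalizer ((S : Subgroup G) : Set G) ⊔ D := by rw [hG]; trivial
        obtain ⟨u, hu, d, hd, rfl⟩ := Subgroup.mem_sup_of_normal_right.mp hg'
        have : Sb = (S : Subgroup G).map π := rfl
        rw [this] at hn ⊢
        obtain ⟨s, hs, rfl⟩ := hn
        have hd1 : π d = 1 := (QuotientGroup.eq_one_iff d).mpr hd
        refine ⟨u * s * u⁻¹, (Subgroup.mem_normalizer_iff.mp hu s).mp hs, ?_⟩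
        simp [hd1]
      have hO : pCore p (G ⧸ D) = (Sb : Subgroup (G ⧸ D)) := by
        apply le_antisymm (pCore_le_sylow p Sb)
        exact le_pCore hSbN Sb.isPGroup'
      have hCore : pPrimeCore p (G ⧸ D) = ⊥ := pPrimeCore_quotient_pPrimeCore p
      have hcent := centralizer_le_of_normal_sylow (p := p) (Sb : Subgroup (G ⧸ D)) Sb.isPGroup'
        Sb.not_dvd_index hCore
      intro x hx
      show π x ∈ pCore p (G ⧸ D)
      rw [hO]
      apply hcent
      rw [Subgroup.mem_centralizer_iff]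
      intro q hq
      have hq' : q ∈ pCore p (G ⧸ D) := by rw [hO]; exact hq
      obtain ⟨k, rfl⟩ := hπ q
      have hkK : k ∈ K := hq'
      obtain ⟨s, hs, d, hd, rfl⟩ := exists_mul_of_mem T hkK
      have hsP : s ∈ P' := by rw [← hTK]; exact hs
      have hc := (Subgroup.mem_centralizer_iff.mp hx) s hsP
      have hd1 : π d = 1 := (QuotientGroup.eq_one_iff d).mpr hd
      have h5 : π (s * d) = π s := by simp [hd1]
      rw [h5]
      show π s * π x = π x * π s
      rw [← map_mul, ← map_mul, hc]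
    · -- fusion
      intro Q hQS g hg
      have hg' : g ∈ Subgroup.normalizer ((S : Subgroup G) : Set G) ⊔ D := by rw [hG]; trivial
      obtain ⟨n, hn, d, hd, rfl⟩ := Subgroup.mem_sup_of_normal_right.mp hg'
      refine ⟨n, hn, d, ?_, rfl⟩
      rw [Subgroup.mem_centralizer_iff]
      intro q hq
      have h1 : (n * d) * q * (n * d)⁻¹ ∈ (S : Subgroup G) := hg ⟨q, hq, rfl⟩
      have h2 : d * q * d⁻¹ ∈ (S : Subgroup G) := by
        have := (Subgroup.mem_normalizer_iff.mp (Subgroup.inv_mem _ hn) _).mp h1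
        have e : n⁻¹ * ((n * d) * q * (n * d)⁻¹) * n⁻¹⁻¹ = d * q * d⁻¹ := by group
        rwa [e] at this
      have h3 : d * q * d⁻¹ * q⁻¹ ∈ (S : Subgroup G) :=
        (S : Subgroup G).mul_mem h2 ((S : Subgroup G).inv_mem (hQS hq))
      have h4 : d * q * d⁻¹ * q⁻¹ ∈ D := by
        have e : d * q * d⁻¹ * q⁻¹ = d * (q * d⁻¹ * q⁻¹) := by group
        rw [e]
        exact D.mul_mem hd ((inferInstance : D.Normal).conj_mem _ (D.inv_mem hd) q)
      have h5 : d * q * d⁻¹ * q⁻¹ ∈ (S : Subgroup G) ⊓ D := ⟨h3, h4⟩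
      rw [hSD, Subgroup.mem_bot] at h5
      have h6 := eq_of_mul_inv_eq_one h5
      calc q * d = (d * q * d⁻¹) * d := by rw [h6]
        _ = d * q := by group
  · rintro ⟨hcon, hfus⟩
    rw [eq_top_iff]
    rintro g -
    set H : Subgroup G := (S : Subgroup G) ⊓ K with hH
    obtain ⟨d, hd, hdg⟩ := exists_mul_mem_normalizer S g
    set g₁ := d * g with hg₁
    have hHS : H ≤ (S : Subgroup G) := inf_le_left
    have h1 : H.map (MulAut.conj g₁).toMonoidHom ≤ (S : Subgroup G) := by
      rintro _ ⟨x, hx, rfl⟩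
      exact hHS ((Subgroup.mem_normalizer_iff.mp hdg x).mp hx)
    obtain ⟨n, hn, c, hc, hgnc⟩ := hfus H hHS g₁ h1
    -- `c ∈ K` by `p`-constraint
    obtain ⟨P, hP⟩ := Cfsg.Agent.Lib.PResid.exists_sylow_inf_of_normal S K
    have hcK : c ∈ K := by
      apply hcon P
      rw [hP]
      exact hc
    obtain ⟨s, hs, d', hd', hsd⟩ := exists_mul_of_mem S hcK
    have hgg : g = d⁻¹ * (n * s) * d' := by
      have : d * g = n * (s * d') := by rw [← hsd, ← hgnc]
      calc g = d⁻¹ * (d * g) := by group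
        _ = d⁻¹ * (n * (s * d')) := by rw [this]
        _ = d⁻¹ * (n * s) * d' := by group
    have hSN : (S : Subgroup G) ≤ Subgroup.normalizer ((S : Subgroup G) : Set G) := Subgroup.le_normalizer
    set u := n * s with hu
    have huN : u ∈ Subgroup.normalizer ((S : Subgroup G) : Set G) := Subgroup.mul_mem _ hn (hSN hs.1)
    have e : g = u * ((u⁻¹ * d⁻¹ * u⁻¹⁻¹) * d') * 1 * 1 := by
      rw [hgg]; group
    have hmem : g ∈ Subgroup.normalizer ((S : Subgroup G) : Set G) ⊔ D := by
      rw [e, mul_one, mul_one]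
      apply Subgroup.mul_mem_sup huN
      exact D.mul_mem ((inferInstance : D.Normal).conj_mem _ (D.inv_mem hd) _) hd'
    exact hmem

end Cfsg.Agent.S1948
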