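import Mathlib
import Cfsg.Statements.S1949
import Cfsg.Agent.Lib.CritAut
import Cfsg.Agent.Lib.PResid

set_option autoImplicit false
open Cfsg

namespace Cfsg.Agent.S1949

/-- Let P be a finite p-group and G a group of automorphisms of P containing the inner automorphisms. Then there is a G-invariant subgroup D of P, contained in the subgroup generated by the elements x⁻¹α(x) with x in P and α in O^p(G), of exponent dividing p when p is odd and dividing 4 when p = 2, with [D, P] ≤ Z(D), such that every automorphism in G of order prime to p that fixes D elementwise is the identity; moreover every maximal abelian subgroup A of D is normal in P and every automorphism in G fixing A elementwise has p-power order. -/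
theorem result {P : Type*} [Group P] [Finite P] {p : ℕ} [Fact p.Prime] (hP : IsPGroup p P)
    (G : Subgroup (MulAut P)) (hG : Cfsg.Inn P ≤ G) :
    ∃ D : Subgroup P,
      (∀ α ∈ G, D.map α.toMonoidHom = D) ∧
      D ≤ Subgroup.closure {y : P | ∃ α ∈ Cfsg.pResidual p ↥G, ∃ x : P, y = x⁻¹ * (α : MulAut P) x} ∧
      (∀ d ∈ D, d ^ p = 1 ∨ (p = 2 ∧ d ^ 4 = 1)) ∧
      ⁅D, (⊤ : Subgroup P)⁆ ≤ D ⊓ Subgroup.centralizer (D : Set P) ∧
      (∀ α ∈ G, (orderOf α).Coprime p → (∀ d ∈ D, α d = d) → α = 1) ∧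
      ∀ A : Subgroup P, A ≤ D → IsMulCommutative ↥A →
        (∀ B : Subgroup P, A ≤ B → B ≤ D → IsMulCommutative ↥B → B = A) →
        A.Normal ∧ ∀ α ∈ G, (∀ a ∈ A, α a = a) → ∃ k : ℕ, orderOf α = p ^ k := by
  classical
  set R : Subgroup P := Subgroup.closure
    {y : P | ∃ α ∈ Cfsg.pResidual p ↥G, ∃ x : P, y = x⁻¹ * (α : MulAut P) x} with hRdef
  have hR : Cfsg.Agent.Lib.CritAut.Inv G R := by
    intro β hβ x hx
    have h1 : R ≤ R.comap β.toMonoidHom := by
      rw [hRdef, Subgroup.closure_le]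
      rintro _ ⟨α, hα, x, rfl⟩
      apply Subgroup.subset_closure
      have hn := (Cfsg.Agent.Lib.PResid.pResidual_normal (G := ↥G) p).conj_mem α hα ⟨β, hβ⟩
      refine ⟨_, hn, β x, ?_⟩
      simp
    exact h1 hx
  have hRfull : ∀ α ∈ G, (orderOf α).Coprime p → ∀ x, x⁻¹ * α x ∈ R := by
    intro α hα hcop x
    apply Subgroup.subset_closure
    refine ⟨⟨α, hα⟩, Cfsg.Agent.Lib.PResid.mem_pResidual_of_coprime ?_, x, rfl⟩
    rwa [Subgroup.orderOf_mk]
  obtain ⟨D, hD1, hD2, hD3, hD4, hD5, hD6⟩ :=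
    Cfsg.Agent.Lib.CritAut.exists_D hP G hG R hR hRfull
  exact ⟨D, fun α hα => hD1.map_eq hα, hD2, hD3, hD4, hD5, hD6⟩


end Cfsg.Agent.S1949
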