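import Mathlib
import Cfsg.Statements.S1952
import Cfsg.Agent.Lib.QdCore

set_option autoImplicit false
open Cfsg

namespace Cfsg.Agent.S1952

section Aux
open Polynomial Finset

variable {p : ℕ} [hp : Fact p.Prime]

theorem poly_identity : ((X : (ZMod p)[X]) - 1) ^ (p - 1) = ∑ i ∈ range p, X ^ i := by
  have hne : (X : (ZMod p)[X]) - 1 ≠ 0 := by
    have := Polynomial.X_sub_C_ne_zero (1 : ZMod p)
    simpa using this
  apply mul_right_cancel₀ hne
  rw [← pow_succ, Nat.sub_add_cancel hp.out.one_le, geom_sum_mul, sub_pow_char, one_pow]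

/-- The operator `v ↦ v⁻¹ * Y v`. -/
def opT {V : Type*} [CommGroup V] (Y : V →* V) : V →* V where
  toFun v := v⁻¹ * Y v
  map_one' := by simp
  map_mul' a b := by simp [mul_comm, mul_left_comm, mul_assoc]

theorem opT_apply {V : Type*} [CommGroup V] (Y : V →* V) (v : V) : opT Y v = v⁻¹ * Y v := rfl

/-- The two identities for the operator `T = Y - 1`. -/
theorem op_identities_aux {V : Type*} [CommGroup V] [Module (ZMod p) (Additive V)] (Y : V →* V) (hY : ∀ v, Y^[p] v = v) (v : V) :
    (opT Y)^[p] v = 1 ∧ (opT Y)^[p - 1] v = ∏ i ∈ range p, Y^[i] v := by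
  classical
  let Y₀ : Additive V →+ Additive V := MonoidHom.toAdditive Y
  let Y' : Additive V →ₗ[ZMod p] Additive V := Y₀.toZModLinearMap p
  have hY' : ∀ w : V, Y' (Additive.ofMul w) = Additive.ofMul (Y w) := fun w => rfl
  have hT' : ∀ w : V, (Y' - 1) (Additive.ofMul w) = Additive.ofMul (opT Y w) := by
    intro w
    rw [opT_apply, LinearMap.sub_apply, hY']
    show Additive.ofMul (Y w) - Additive.ofMul w = _
    rw [← ofMul_div, div_eq_mul_inv, mul_comm]
  have hTi : ∀ (k : ℕ) (w : V), ((Y' - 1) ^ k) (Additive.ofMul w) = Additive.ofMul ((opT Y)^[k] w) := by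
    intro k
    induction k with
    | zero =>
      intro w
      simp
    | succ k ih =>
      intro w
      rw [pow_succ, Module.End.mul_apply, hT', ih, Function.iterate_succ_apply]
  have hYi : ∀ (k : ℕ) (w : V), (Y' ^ k) (Additive.ofMul w) = Additive.ofMul (Y^[k] w) := by
    intro k
    induction k with
    | zero =>
      intro w
      simp
    | succ k ih =>
      intro w
      rw [pow_succ, Module.End.mul_apply, hY', ih, Function.iterate_succ_apply]
  have h1 : (Y' - 1) ^ (p - 1) = ∑ i ∈ range p, Y' ^ i := by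
    have := congrArg (aeval Y') (poly_identity (p := p))
    simpa using this
  have h2 : (Y' - 1) ^ p = Y' ^ p - 1 := by
    have := congrArg (aeval Y') (sub_pow_char (X : (ZMod p)[X]) 1 (p := p))
    simpa using this
  have h3 : Y' ^ p = 1 := by
    apply LinearMap.ext
    intro x
    have := hYi p x.toMul
    rw [hY] at this
    exact this
  constructor
  · have h4 := hTi p v
    rw [h2, h3, sub_self] at h4
    exact (Additive.ofMul.injective (by simpa using h4.symm))
  · have h4 := hTi (p - 1) v
    rw [h1, LinearMap.sum_apply] at h4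
    apply Additive.ofMul.injective
    rw [← h4, ofMul_prod]
    apply Finset.sum_congr rfl
    intro i _
    rw [hYi]

theorem op_identities {V : Type*} [CommGroup V] (hV : ∀ v : V, v ^ p = 1) (Y : V →* V) (hY : ∀ v, Y^[p] v = v) (v : V) :
    (opT Y)^[p] v = 1 ∧ (opT Y)^[p - 1] v = ∏ i ∈ range p, Y^[i] v := by
  have hadd : ∀ x : Additive V, p • x = 0 := fun x => by
    show Additive.ofMul (x.toMul ^ p) = 0
    rw [hV]
    rfl
  letI : Module (ZMod p) (Additive V) := AddCommGroup.zmodModule hadd
  exact op_identities_aux Y hY v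

/-- Iterates as homomorphisms. -/
def iterHom {V : Type*} [Group V] (T : V →* V) : ℕ → (V →* V)
  | 0 => MonoidHom.id V
  | j + 1 => T.comp (iterHom T j)

theorem iterHom_apply {V : Type*} [Group V] (T : V →* V) (j : ℕ) (a : V) : iterHom T j a = T^[j] a := by
  induction j with
  | zero => rfl
  | succ j ih =>
    rw [Function.iterate_succ_apply', ← ih]
    rfl

/-- The chain of kernels gives the lower bound. -/
theorem card_lower {V : Type*} [CommGroup V] [Finite V] (hV : ∀ v : V, v ^ p = 1) (Y : V →* V)
    (hY : ∀ v, Y^[p] v = v) (v : V) (B : Subgroup V) (hB : ∀ b ∈ B, Y b ∈ B)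
    (hn : ∏ i ∈ range p, Y^[i] v ∉ B) : p ^ p * Nat.card B ≤ Nat.card V := by
  classical
  have hpp : p.Prime := hp.out
  set T := opT Y with hT
  obtain ⟨h1, h2⟩ := op_identities hV Y hY v
  rw [← h2] at hn
  have hTB : ∀ b ∈ B, T b ∈ B := fun b hb => B.mul_mem (B.inv_mem hb) (hB b hb)
  have hTiB : ∀ (j : ℕ), ∀ b ∈ B, T^[j] b ∈ B := by
    intro j
    induction j with
    | zero => exact fun b hb => hb
    | succ j ih =>
      intro b hb
      rw [Function.iterate_succ_apply']
      exact hTB _ (ih b hb)
  -- the chain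
  let K : ℕ → Subgroup V := fun j => B.comap (iterHom T j)
  have hKmem : ∀ (j : ℕ) (a : V), a ∈ K j ↔ T^[j] a ∈ B := by
    intro j a
    show iterHom T j a ∈ B ↔ _
    rw [iterHom_apply]
  have hPG : ∀ S : Subgroup V, IsPGroup p S := fun S a => ⟨1, by
    apply Subtype.ext
    simpa using hV a.1⟩
  have hchain : ∀ j : ℕ, j ≤ p → p ^ j * Nat.card B ≤ Nat.card (K j) := by
    intro j
    induction j with
    | zero =>
      intro _
      have hK0 : K 0 = B := by
        ext a
        rw [hKmem]
        rfl
      rw [hK0, pow_zero, one_mul]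
    | succ j ih =>
      intro hj
      have hlt : K j < K (j + 1) := by
        rw [lt_iff_le_and_ne]
        constructor
        · intro a ha
          rw [hKmem] at ha ⊢
          rw [Function.iterate_succ_apply']
          exact hTB _ ha
        · intro hEq
          have hw : T^[p - (j + 1)] v ∈ K (j + 1) := by
            rw [hKmem, ← Function.iterate_add_apply]
            have : j + 1 + (p - (j + 1)) = p := by omega
            rw [this, h1]
            exact B.one_mem
          rw [← hEq, hKmem, ← Function.iterate_add_apply] at hw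
          have : j + (p - (j + 1)) = p - 1 := by omega
          rw [this] at hw
          exact hn hw
      have := Cfsg.Agent.Lib.QdCore.mul_card_le_of_lt (hPG _) hlt
      calc p ^ (j + 1) * Nat.card B = p * (p ^ j * Nat.card B) := by ring
        _ ≤ p * Nat.card (K j) := Nat.mul_le_mul_left _ (ih (by omega))
        _ ≤ _ := this
  calc p ^ p * Nat.card B ≤ Nat.card (K p) := hchain p le_rfl
    _ ≤ Nat.card V := Subgroup.card_le_card_group _

/-- A subgroup of index `p` missing a given non-trivial element. -/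
theorem exists_hyperplane_aux {V : Type*} [CommGroup V] [Finite V] [Module (ZMod p) (Additive V)] (n : V) (hn : n ≠ 1) :
    ∃ H : Subgroup V, n ∉ H ∧ H.index = p := by
  classical
  have hn' : Additive.ofMul n ≠ 0 := fun h => hn (by simpa using h)
  obtain ⟨φ, hφ⟩ : ∃ φ : Module.Dual (ZMod p) (Additive V), φ (Additive.ofMul n) ≠ 0 := by
    by_contra hcon
    push_neg at hcon
    exact hn' ((Module.forall_dual_apply_eq_zero_iff (ZMod p) _).mp hcon)
  let l : V →* Multiplicative (ZMod p) := AddMonoidHom.toMultiplicativeRight φ.toAddMonoidHom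
  have hl : l n ≠ 1 := hφ
  refine ⟨l.ker, hl, ?_⟩
  rw [Subgroup.index_ker]
  have hcard : Nat.card (Multiplicative (ZMod p)) = p := by
    rw [Nat.card_congr Multiplicative.toAdd, Nat.card_zmod]
  haveI : Fact (Nat.card (Multiplicative (ZMod p))).Prime := ⟨by rw [hcard]; exact hp.out⟩
  rcases Subgroup.eq_bot_or_eq_top_of_prime_card l.range with h | h
  · exfalso
    have : l n ∈ l.range := ⟨n, rfl⟩
    rw [h] at this
    exact hl (Subgroup.mem_bot.mp this)
  · rw [h, Subgroup.card_top, hcard]

theorem exists_hyperplane {V : Type*} [CommGroup V] [Finite V] (hV : ∀ v : V, v ^ p = 1) (n : V) (hn : n ≠ 1) :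
    ∃ H : Subgroup V, n ∉ H ∧ H.index = p := by
  have hadd : ∀ x : Additive V, p • x = 0 := fun x => by
    show Additive.ofMul (x.toMul ^ p) = 0
    rw [hV]
    rfl
  letI : Module (ZMod p) (Additive V) := AddCommGroup.zmodModule hadd
  exact exists_hyperplane_aux n hn

theorem factorization_factorial : (Nat.factorial (p ^ 2)).factorization p = p + 1 := by
  have hpp : p.Prime := hp.out
  rw [Nat.factorization_def _ hpp, padicValNat_factorial (b := 3)]
  · have h1 : p ^ 2 / p = p := by
      rw [pow_two]
      exact Nat.mul_div_cancel _ hpp.pos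
    have h2 : p ^ 2 / p ^ 2 = 1 := Nat.div_self (pow_pos hpp.pos 2)
    simp [Finset.sum_Ico_succ_top, h1, h2]
  · rw [Nat.log_pow hpp.one_lt]
    norm_num

end Aux


/-- Let P be a finite p-group with a normal elementary abelian subgroup A of index p, and let x ∈ A and y ∈ P with y outside A. If the product of the p conjugates y^(-i) x y^i (i = 0, …, p−1) is not the identity, then the wreath product Z_p ≀ Z_p, realised as a Sylow p-subgroup of the symmetric group of degree p², is a homomorphic image of P. -/
theorem result {P : Type*} [Group P] [Finite P] {p : ℕ} [Fact p.Prime] (hP : IsPGroup p P) (A : Subgroup P) [A.Normal]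
    (hA : Cfsg.IsElementaryAbelian p A) (hidx : A.index = p) (x y : P) (hx : x ∈ A) (hy : y ∉ A)
    (hprod : ((List.range p).map (fun i => (y ^ i)⁻¹ * x * y ^ i)).prod ≠ 1) :
    ∃ (Q : Sylow p (Equiv.Perm (Fin (p ^ 2)))) (f : P →* ↥(Q : Subgroup (Equiv.Perm (Fin (p ^ 2))))), Function.Surjective f := by
  classical
  have hpp : p.Prime := Fact.out
  letI instA : CommGroup A := { (inferInstance : Group A) with mul_comm := hA.1.is_comm.comm }
  let Y : A →* A := (MulAut.conjNormal y⁻¹ : MulAut A).toMonoidHom
  have hYv : ∀ a : A, ((Y a : A) : P) = y⁻¹ * a * y := by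
    intro a
    simp [Y, MulAut.conjNormal_apply]
  have hYi : ∀ (i : ℕ) (a : A), ((Y^[i] a : A) : P) = (y ^ i)⁻¹ * a * y ^ i := by
    intro i a
    induction i with
    | zero => simp
    | succ i ih =>
      rw [Function.iterate_succ_apply', hYv, ih, pow_succ]
      group
  have hypow : y ^ p ∈ A := by
    have := Subgroup.pow_index_mem A y
    rwa [hidx] at this
  have hYp : ∀ v, Y^[p] v = v := by
    intro v
    apply Subtype.ext
    rw [hYi]
    have h2 : (v : P) * y ^ p = y ^ p * v := congrArg Subtype.val (hA.1.is_comm.comm v ⟨y ^ p, hypow⟩)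
    rw [mul_assoc, h2]
    group
  have hVexp : ∀ v : A, v ^ p = 1 := fun v => Subtype.ext (by simpa using hA.2 v v.2)
  set a₀ : A := ⟨x, hx⟩ with ha₀
  set n : A := ∏ i ∈ Finset.range p, Y^[i] a₀ with hn
  have hnval : ∀ m : ℕ, ((∏ i ∈ Finset.range m, Y^[i] a₀ : A) : P) = ((List.range m).map (fun i => (y ^ i)⁻¹ * x * y ^ i)).prod := by
    intro m
    induction m with
    | zero => simp
    | succ m ih =>
      rw [Finset.prod_range_succ, List.range_succ, List.map_append, List.prod_append, ← ih]
      simp [hYi, ha₀]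
  have hn1 : n ≠ 1 := by
    intro h
    apply hprod
    rw [← hnval p, ← hn, h]
    rfl
  obtain ⟨H₀, hnH, hidx₀⟩ := exists_hyperplane hVexp n hn1
  set H : Subgroup P := H₀.map A.subtype with hH
  have hHidx : H.index = p ^ 2 := by
    rw [hH, Subgroup.index_map_subtype, hidx₀, hidx, sq]
  set B := H.normalCore with hB
  have hBn : B.Normal := Subgroup.normalCore_normal H
  have hBH : B ≤ H := Subgroup.normalCore_le H
  have hHA : H ≤ A := Subgroup.map_subtype_le _
  have hB' : ∀ b ∈ B.subgroupOf A, Y b ∈ B.subgroupOf A := by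
    intro b hb
    rw [Subgroup.mem_subgroupOf] at hb ⊢
    rw [hYv]
    have := hBn.conj_mem _ hb y⁻¹
    simpa using this
  have hnB' : n ∉ B.subgroupOf A := by
    intro h
    rw [Subgroup.mem_subgroupOf] at h
    obtain ⟨m, hm, hm2⟩ := hBH h
    have hmn : m = n := Subtype.ext hm2
    exact hnH (hmn ▸ hm)
  have hcard := card_lower hVexp Y hYp a₀ (B.subgroupOf A) hB' hnB'
  have hcardB : Nat.card (B.subgroupOf A) = Nat.card B :=
    Nat.card_congr (Subgroup.subgroupOfEquivOfLe (hBH.trans hHA)).toEquiv
  rw [hcardB] at hcard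
  have hQcard : Nat.card (P ⧸ H) = p ^ 2 := hHidx
  let e := Finite.equivFinOfCardEq hQcard
  let f₀ : P →* Equiv.Perm (Fin (p ^ 2)) := e.permCongrHom.toMonoidHom.comp (MulAction.toPermHom P (P ⧸ H))
  have hker : f₀.ker = B := by
    rw [hB, Subgroup.normalCore_eq_ker]
    ext g
    simp [MonoidHom.mem_ker, f₀]
  have hrange : IsPGroup p f₀.range := IsPGroup.of_surjective hP f₀.rangeRestrict f₀.rangeRestrict_surjective
  obtain ⟨k, hk⟩ := IsPGroup.iff_card.mp hrange
  have hidxB : B.index = p ^ k := by
    rw [← hker, Subgroup.index_ker, hk]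
  have h1 : Nat.card P = Nat.card B * p ^ k := by
    rw [← Subgroup.card_mul_index B, hidxB]
  have h2 : Nat.card P = Nat.card A * p := by
    rw [← Subgroup.card_mul_index A, hidx]
  have hge : p + 1 ≤ k := by
    have h3 : p ^ (p + 1) * Nat.card B ≤ p ^ k * Nat.card B := by
      calc p ^ (p + 1) * Nat.card B = p ^ p * Nat.card B * p := by ring
        _ ≤ Nat.card A * p := Nat.mul_le_mul_right _ hcard
        _ = Nat.card P := h2.symm
        _ = p ^ k * Nat.card B := by rw [h1, mul_comm]
    have h4 := Nat.le_of_mul_le_mul_right h3 Nat.card_pos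
    exact (Nat.pow_le_pow_iff_right hpp.one_lt).mp h4
  have hcardPerm : Nat.card (Equiv.Perm (Fin (p ^ 2))) = Nat.factorial (p ^ 2) := by
    rw [Nat.card_eq_fintype_card, Fintype.card_perm, Fintype.card_fin]
  have hle : k ≤ p + 1 := by
    have h3 : p ^ k ∣ Nat.factorial (p ^ 2) := by
      rw [← hk, ← hcardPerm]
      exact Subgroup.card_subgroup_dvd_card _
    have h4 := (hpp.pow_dvd_iff_le_factorization (Nat.factorial_ne_zero _)).mp h3
    rwa [factorization_factorial] at h4
  have hk' : k = p + 1 := le_antisymm hle hge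
  have hcardSyl : Nat.card f₀.range = p ^ (Nat.card (Equiv.Perm (Fin (p ^ 2)))).factorization p := by
    rw [hk, hcardPerm, factorization_factorial, hk']
  let Q := Sylow.ofCard f₀.range hcardSyl
  have hQ : (Q : Subgroup (Equiv.Perm (Fin (p ^ 2)))) = f₀.range := Sylow.coe_ofCard _ _
  refine ⟨Q, f₀.codRestrict (Q : Subgroup _) (fun g => ?_), ?_⟩
  · rw [hQ]
    exact ⟨g, rfl⟩
  · rintro ⟨q, hq⟩
    rw [hQ] at hq
    obtain ⟨g, hg⟩ := hq
    exact ⟨g, Subtype.ext hg⟩

end Cfsg.Agent.S1952
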