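import Mathlib
import Cfsg.Agent.Lib.FusionExt

set_option autoImplicit false
open Cfsg

namespace Cfsg.Agent.S1954

open Cfsg.Agent.Lib.AlperinControl Cfsg.Agent.Lib.FusionExt

/-- Let N be a normal subgroup of the finite group G, P a Sylow p-subgroup of G, and V a subgroup of P ∩ N normal in P ∩ N such that N_N(V) controls strong fusion in P ∩ N with respect to N (whenever a subgroup A of P ∩ N has n A n⁻¹ ≤ P ∩ N for some n in N, then n = h c with h in N_N(V) and c in C_N(A)). Let W be the subgroup generated by the conjugates of V under N_G(P ∩ N). Then N_G(W) controls strong fusion in P with respect to G. -/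
theorem result {G : Type*} [Group G] [Finite G] {p : ℕ} [Fact p.Prime] (N : Subgroup G) [N.Normal] (P : Sylow p G) (V : Subgroup G)
    (hV : V ≤ (P : Subgroup G) ⊓ N) (hVn : ∀ x ∈ (P : Subgroup G) ⊓ N, V.map (MulAut.conj x).toMonoidHom = V)
    (hctrl : ∀ A : Subgroup G, A ≤ (P : Subgroup G) ⊓ N → ∀ n ∈ N, A.map (MulAut.conj n).toMonoidHom ≤ (P : Subgroup G) ⊓ N →
      ∃ h ∈ N ⊓ Subgroup.normalizer (V : Set G), ∃ c ∈ N ⊓ Subgroup.centralizer (A : Set G), n = h * c)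
    (W : Subgroup G) (hW : W = Subgroup.closure (⋃ x ∈ Subgroup.normalizer (((P : Subgroup G) ⊓ N : Subgroup G) : Set G),
      ((V.map (MulAut.conj x).toMonoidHom : Subgroup G) : Set G))) :
    ∀ A : Subgroup G, A ≤ (P : Subgroup G) → ∀ g : G, A.map (MulAut.conj g).toMonoidHom ≤ (P : Subgroup G) →
        ∃ h ∈ Subgroup.normalizer (W : Set G), ∃ c ∈ Subgroup.centralizer (A : Set G), g = h * c := by
  classical
  obtain ⟨PP, hPP⟩ : ∃ PP : Subgroup G, PP = (P : Subgroup G) := ⟨_, rfl⟩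
  rw [← hPP] at hV hVn hctrl hW ⊢
  have hPPp : IsPGroup p PP := hPP ▸ P.isPGroup'
  obtain ⟨Q, hQ⟩ : ∃ Q : Subgroup G, Q = PP ⊓ N := ⟨_, rfl⟩
  rw [← hQ] at hV hVn hctrl hW
  obtain ⟨K, hK⟩ : ∃ K : Subgroup G, K = NN Q := ⟨_, rfl⟩
  have hKmem : ∀ {x : G}, x ∈ Subgroup.normalizer ((Q : Subgroup G) : Set G) ↔ x ∈ K := by
    intro x; rw [hK]
  have hNnorm : ∀ x : G, x ∈ NN N := by
    intro x
    apply mem_NN_of_forall
    intro y hy
    exact Subgroup.Normal.conj_mem inferInstance y hy x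
  have hPK : PP ≤ K := by
    intro u hu
    rw [hK]
    apply mem_NN_of_forall
    intro y hy
    rw [hQ] at hy ⊢
    exact ⟨PP.mul_mem (PP.mul_mem hu hy.1) (PP.inv_mem hu), conj_mem_of_mem_NN (hNnorm u) hy.2⟩
  have hVxQ : ∀ x ∈ K, cj x V ≤ Q := by
    intro x hx
    rw [hK] at hx
    exact cj_le_iff.mpr fun v hv => conj_mem_of_mem_NN hx (hV hv)
  -- step 1: `K` normalizes `W`
  have hVW : ∀ x ∈ K, cj x V ≤ W := by
    intro x hx v hv
    rw [hW]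
    apply Subgroup.subset_closure
    simp only [Set.mem_iUnion]
    exact ⟨x, hKmem.mpr hx, hv⟩
  have hKW : K ≤ NN W := by
    intro k hk
    apply mem_NN_of_forall
    intro w hw
    rw [hW] at hw ⊢
    induction hw using Subgroup.closure_induction with
    | mem w hw =>
      simp only [Set.mem_iUnion] at hw
      obtain ⟨x, hx, hw⟩ := hw
      apply Subgroup.subset_closure
      simp only [Set.mem_iUnion]
      refine ⟨k * x, hKmem.mpr (K.mul_mem hk (hKmem.mp hx)), ?_⟩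
      have : k * w * k⁻¹ ∈ cj (k * x) V := by
        rw [cj_mul]
        exact conj_mem_cj hw
      exact this
    | one => simp
    | mul a b _ _ ha hb =>
      have : k * (a * b) * k⁻¹ = (k * a * k⁻¹) * (k * b * k⁻¹) := by group
      rw [this]
      exact Subgroup.mul_mem _ ha hb
    | inv a _ ha =>
      have : k * a⁻¹ * k⁻¹ = (k * a * k⁻¹)⁻¹ := by group
      rw [this]
      exact Subgroup.inv_mem _ ha
  -- step 2: conjugated control
  have hctrlx : ∀ x ∈ K, ∀ B : Subgroup G, B ≤ Q → ∀ n ∈ N, (∀ b ∈ B, n * b * n⁻¹ ∈ Q) →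
      ∃ h ∈ N, h ∈ NN (cj x V) ∧ ∀ b ∈ B, h * b * h⁻¹ = n * b * n⁻¹ := by
    intro x hx B hB n hn hm
    have hxQ : x ∈ NN Q := hK ▸ hx
    have hxi : x⁻¹ ∈ NN Q := (NN Q).inv_mem hxQ
    have hB' : cj x⁻¹ B ≤ Q := cj_le_iff.mpr fun b hb => conj_mem_of_mem_NN hxi (hB hb)
    have hn' : x⁻¹ * n * x⁻¹⁻¹ ∈ N := conj_mem_of_mem_NN (hNnorm _) hn
    have hm' : (cj x⁻¹ B).map (MulAut.conj (x⁻¹ * n * x⁻¹⁻¹)).toMonoidHom ≤ Q := by
      rintro _ ⟨_, ⟨b, hb, rfl⟩, rfl⟩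
      have h1 := conj_mem_of_mem_NN hxi (hm b hb)
      have e : (MulAut.conj (x⁻¹ * n * x⁻¹⁻¹)).toMonoidHom ((MulAut.conj x⁻¹).toMonoidHom b) =
          x⁻¹ * (n * b * n⁻¹) * x⁻¹⁻¹ := by
        show (x⁻¹ * n * x⁻¹⁻¹) * (x⁻¹ * b * x⁻¹⁻¹) * (x⁻¹ * n * x⁻¹⁻¹)⁻¹ = _
        group
      rw [e]; exact h1
    obtain ⟨h', hh', c', hc', e'⟩ := hctrl _ hB' _ hn' hm'
    refine ⟨x * h' * x⁻¹, conj_mem_of_mem_NN (hNnorm _) hh'.1, ?_, ?_⟩
    · rw [← cj_NN]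
      exact conj_mem_cj hh'.2
    · intro b hb
      have hb' : x⁻¹ * b * x⁻¹⁻¹ ∈ cj x⁻¹ B := conj_mem_cj hb
      have hcc := Subgroup.mem_centralizer_iff.mp hc'.2 _ hb'
      have h1 : h'⁻¹ * (x⁻¹ * n * x⁻¹⁻¹) = c' := by rw [e']; group
      have h2 : x⁻¹ * n * x⁻¹⁻¹ = h' * c' := e'
      calc x * h' * x⁻¹ * b * (x * h' * x⁻¹)⁻¹ = x * (h' * (x⁻¹ * b * x⁻¹⁻¹) * h'⁻¹) * x⁻¹ := by group
        _ = x * (h' * ((x⁻¹ * b * x⁻¹⁻¹) * c') * c'⁻¹ * h'⁻¹) * x⁻¹ := by group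
        _ = x * (h' * (c' * (x⁻¹ * b * x⁻¹⁻¹)) * c'⁻¹ * h'⁻¹) * x⁻¹ := by rw [hcc]
        _ = x * ((h' * c') * (x⁻¹ * b * x⁻¹⁻¹) * (h' * c')⁻¹) * x⁻¹ := by group
        _ = x * ((x⁻¹ * n * x⁻¹⁻¹) * (x⁻¹ * b * x⁻¹⁻¹) * (x⁻¹ * n * x⁻¹⁻¹)⁻¹) * x⁻¹ := by rw [h2]
        _ = n * b * n⁻¹ := by group
  -- step 3: finite induction
  have hfin : ∀ F : Finset G, (∀ x ∈ F, x ∈ K) → ∀ B : Subgroup G, B ≤ Q → ∀ n ∈ N,
      (∀ b ∈ B, n * b * n⁻¹ ∈ Q) →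
      ∃ h ∈ N, (∀ x ∈ F, h ∈ NN (cj x V)) ∧ ∀ b ∈ B, h * b * h⁻¹ = n * b * n⁻¹ := by
    intro F
    induction F using Finset.induction_on with
    | empty =>
      intro _ B _ n hn _
      exact ⟨n, hn, by simp, fun _ _ => rfl⟩
    | insert x F hx ih =>
      intro hF B hB n hn hm
      have hFK : ∀ y ∈ F, y ∈ K := fun y hy => hF y (Finset.mem_insert_of_mem hy)
      obtain ⟨h₁, hh₁, hh₁F, hh₁a⟩ := ih hFK B hB n hn hm
      obtain ⟨B₂, hB₂⟩ : ∃ B₂ : Subgroup G, B₂ = B ⊔ ⨆ y ∈ F, cj y V := ⟨_, rfl⟩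
      have hBB₂ : B ≤ B₂ := hB₂ ▸ le_sup_left
      have hyB₂ : ∀ y ∈ F, cj y V ≤ B₂ := by
        intro y hy
        rw [hB₂]
        exact le_sup_of_le_right (le_iSup₂_of_le y hy le_rfl)
      have hB₂Q : B₂ ≤ Q := by
        rw [hB₂]
        exact sup_le hB (iSup₂_le fun y hy => hVxQ y (hFK y hy))
      have hmap : ∀ b ∈ B₂, h₁ * b * h₁⁻¹ ∈ Q := by
        have : B₂ ≤ Q.comap (MulAut.conj h₁).toMonoidHom := by
          rw [hB₂]
          apply sup_le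
          · intro b hb
            show h₁ * b * h₁⁻¹ ∈ Q
            rw [hh₁a b hb]
            exact hm b hb
          · apply iSup₂_le
            intro y hy v hv
            show h₁ * v * h₁⁻¹ ∈ Q
            exact hVxQ y (hFK y hy) (conj_mem_of_mem_NN (hh₁F y hy) hv)
        exact fun b hb => this hb
      obtain ⟨h₂, hh₂, hh₂x, hh₂a⟩ := hctrlx x (hF x (Finset.mem_insert_self _ _)) B₂ hB₂Q h₁ hh₁ hmap
      refine ⟨h₂, hh₂, ?_, fun b hb => by rw [hh₂a b (hBB₂ hb), hh₁a b hb]⟩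
      intro y hy
      rcases Finset.mem_insert.mp hy with rfl | hy
      · exact hh₂x
      · apply mem_NN_of_forall
        intro v hv
        rw [hh₂a v (hyB₂ y hy hv)]
        exact conj_mem_of_mem_NN (hh₁F y hy) hv
  -- the subgroup `M`
  obtain ⟨M, hM⟩ : ∃ M : Subgroup G, M = N ⊓ ⨅ x ∈ K, NN (cj x V) := ⟨_, rfl⟩
  have hmemM : ∀ {y : G}, y ∈ M ↔ y ∈ N ∧ ∀ x ∈ K, y ∈ NN (cj x V) := by
    intro y
    rw [hM, Subgroup.mem_inf]
    simp only [Subgroup.mem_iInf]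
  have hctrlM : ∀ B : Subgroup G, B ≤ Q → ∀ n ∈ N, (∀ b ∈ B, n * b * n⁻¹ ∈ Q) → Agrees M B n := by
    intro B hB n hn hm
    obtain ⟨h, hh, hhF, hha⟩ := hfin (Set.toFinite (K : Set G)).toFinset
      (fun x hx => by simpa using hx) B hB n hn hm
    exact ⟨h, hmemM.mpr ⟨hh, fun x hx => hhF x (by simpa using hx)⟩, hha⟩
  -- the system
  have hQsyl : IsSyl p Q N := by
    refine isSyl_of_card_le (hQ ▸ inf_le_right) (hPPp.to_le (hQ ▸ inf_le_left)) ?_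
    intro R hR hRp
    obtain ⟨c, hc⟩ := Cfsg.Agent.Lib.SylowConjLemmas.exists_conj_mem P R hRp
    have : cj c R ≤ Q := by
      apply cj_le_iff.mpr
      intro r hr
      rw [hQ, hPP]
      exact ⟨hc r hr, conj_mem_of_mem_NN (hNnorm c) (hR hr)⟩
    calc Nat.card R = Nat.card (cj c R) := (card_cj c R).symm
      _ ≤ _ := Subgroup.card_le_of_le this
  have hQM : Q ≤ M := by
    intro q hq
    apply hmemM.mpr
    refine ⟨(hQ ▸ hq : q ∈ PP ⊓ N).2, fun x hx => ?_⟩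
    have hxQ : x ∈ NN Q := hK ▸ hx
    have h1 : x⁻¹ * q * x⁻¹⁻¹ ∈ Q := conj_mem_of_mem_NN ((NN Q).inv_mem hxQ) hq
    have h2 : x⁻¹ * q * x⁻¹⁻¹ ∈ NN V := by
      apply mem_NN_of_forall
      intro v hv
      have e := hVn _ h1
      have : (x⁻¹ * q * x⁻¹⁻¹) * v * (x⁻¹ * q * x⁻¹⁻¹)⁻¹ ∈ V.map (MulAut.conj (x⁻¹ * q * x⁻¹⁻¹)).toMonoidHom :=
        ⟨v, hv, rfl⟩
      rwa [e] at this
    rw [← cj_NN]
    have e : q = x * (x⁻¹ * q * x⁻¹⁻¹) * x⁻¹ := by group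
    rw [e]
    exact conj_mem_cj h2
  have hPM : PP ≤ NN M := by
    intro u hu
    apply mem_NN_of_forall
    intro y hy
    have hy' := hmemM.mp hy
    apply hmemM.mpr
    refine ⟨conj_mem_of_mem_NN (hNnorm u) hy'.1, fun x hx => ?_⟩
    have hux : u⁻¹ * x ∈ K := K.mul_mem (K.inv_mem (hPK hu)) hx
    have h1 := hy'.2 _ hux
    have e : cj x V = cj u (cj (u⁻¹ * x) V) := by
      rw [← cj_mul]; congr 1; group
    rw [e, ← cj_NN]
    exact conj_mem_cj h1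
  have S : Sys p N PP M := by
    refine ⟨hPPp, fun u _ => hNnorm u, by rw [← hQ]; exact hQsyl, ?_, by rw [← hQ]; exact hQM, hPM, ?_⟩
    · intro y hy; exact (hmemM.mp hy).1
    · rw [← hQ]; exact hctrlM
  have hXW : M ⊔ PP ≤ NN W := by
    apply sup_le
    · intro y hy
      apply mem_NN_of_forall
      intro w hw
      have hy' := hmemM.mp hy
      rw [hW] at hw ⊢
      induction hw using Subgroup.closure_induction with
      | mem w hw =>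
        simp only [Set.mem_iUnion] at hw
        obtain ⟨x, hx, hw⟩ := hw
        apply Subgroup.subset_closure
        simp only [Set.mem_iUnion]
        exact ⟨x, hx, conj_mem_of_mem_NN (hy'.2 x (hKmem.mp hx)) hw⟩
      | one => simp
      | mul a b _ _ ha hb =>
        have : y * (a * b) * y⁻¹ = (y * a * y⁻¹) * (y * b * y⁻¹) := by group
        rw [this]
        exact Subgroup.mul_mem _ ha hb
      | inv a _ ha =>
        have : y * a⁻¹ * y⁻¹ = (y * a * y⁻¹)⁻¹ := by group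
        rw [this]
        exact Subgroup.inv_mem _ ha
    · exact hPK.trans hKW
  -- the reduction to `N`
  intro A hA g hg
  have hg' : cj g A ≤ PP := hg
  obtain ⟨A₁, hA₁⟩ : ∃ A₁, A₁ = cj g A := ⟨_, rfl⟩
  rw [← hA₁] at hg'
  have hA₁p : IsPGroup p A₁ := hPPp.to_le hg'
  have hA₁Q : A₁ ≤ NN Q := (hg'.trans hPK).trans (by rw [hK])
  obtain ⟨Q₂, hQ₂⟩ : ∃ Q₂, Q₂ = cj g Q := ⟨_, rfl⟩
  have hA₁Q₂ : A₁ ≤ NN Q₂ := by
    intro a ha
    rw [hA₁] at ha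
    obtain ⟨b, hb, rfl⟩ := ha
    rw [hQ₂, ← cj_NN]
    have hb' : b ∈ NN Q := by
      have := hPK (hA hb); rwa [hK] at this
    exact conj_mem_cj hb'
  have hQp : IsPGroup p Q := hPPp.to_le (hQ ▸ inf_le_left)
  have hQ₂p : IsPGroup p Q₂ := hQ₂ ▸ isPGroup_cj hQp g
  have hQ₂N : Q₂ ≤ N := by
    rw [hQ₂]
    exact cj_le_iff.mpr fun q hq => conj_mem_of_mem_NN (hNnorm g) (hQ ▸ hq : q ∈ PP ⊓ N).2
  have hsup : IsPGroup p ↥(A₁ ⊔ Q₂) := IsPGroup.to_sup_of_normal_right' hA₁p hQ₂p hA₁Q₂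
  obtain ⟨n, hn, hnc⟩ := exists_conj_ext hA₁p (fun u _ => hNnorm u) hA₁Q hQsyl hsup (sup_le_sup_left hQ₂N A₁)
  have hsupP : A₁ ⊔ Q ≤ PP := sup_le hg' (hQ ▸ inf_le_left)
  have hkQ : cj (n * g) Q = Q := by
    have hle : cj (n * g) Q ≤ Q := by
      apply cj_le_iff.mpr
      intro q hq
      have hq₂ : g * q * g⁻¹ ∈ Q₂ := by rw [hQ₂]; exact conj_mem_cj hq
      have h1 := hnc _ (Subgroup.mem_sup_right hq₂)
      have e : n * g * q * (n * g)⁻¹ = n * (g * q * g⁻¹) * n⁻¹ := by group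
      rw [e, hQ]
      exact ⟨hsupP h1, conj_mem_of_mem_NN (hNnorm n) (hQ₂N hq₂)⟩
    exact Subgroup.eq_of_le_of_card_ge hle (by rw [card_cj])
  have hkK : n * g ∈ K := by
    rw [hK]
    apply mem_NN_of_forall
    intro q hq
    have := conj_mem_cj (g := n * g) hq
    rwa [hkQ] at this
  have hA' : cj (n * g) A ≤ PP := by
    apply cj_le_iff.mpr
    intro a ha
    have ha₁ : g * a * g⁻¹ ∈ A₁ := by rw [hA₁]; exact conj_mem_cj ha
    have h1 := hnc _ (Subgroup.mem_sup_left ha₁)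
    have e : n * g * a * (n * g)⁻¹ = n * (g * a * g⁻¹) * n⁻¹ := by group
    rw [e]
    exact hsupP h1
  have hagr : Agrees (M ⊔ PP) (cj (n * g) A) n⁻¹ := by
    refine Sys.main _ N PP M rfl S _ hA' n⁻¹ (N.inv_mem hn) ?_
    rintro _ ⟨a, ha, rfl⟩
    have e : n⁻¹ * (MulAut.conj (n * g)).toMonoidHom a * n⁻¹⁻¹ = g * a * g⁻¹ := by
      show n⁻¹ * (n * g * a * (n * g)⁻¹) * n⁻¹⁻¹ = _
      group
    rw [e]
    apply hg'
    rw [hA₁]
    exact conj_mem_cj ha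
  obtain ⟨x, hx, hxa⟩ := hagr
  refine ⟨x * (n * g), (NN W).mul_mem (hXW hx) (hKW hkK), (x * (n * g))⁻¹ * g, ?_, by group⟩
  rw [Subgroup.mem_centralizer_iff]
  intro a ha
  have h1 := hxa _ (conj_mem_cj (g := n * g) ha)
  have h1' : x * (n * g * a * (n * g)⁻¹) * x⁻¹ = n⁻¹ * (n * g * a * (n * g)⁻¹) * n⁻¹⁻¹ := h1
  have h2 : (x * (n * g)) * a * (x * (n * g))⁻¹ = g * a * g⁻¹ := by
    calc (x * (n * g)) * a * (x * (n * g))⁻¹ = x * (n * g * a * (n * g)⁻¹) * x⁻¹ := by group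
      _ = n⁻¹ * (n * g * a * (n * g)⁻¹) * n⁻¹⁻¹ := h1'
      _ = g * a * g⁻¹ := by group
  have h3 : ((x * (n * g))⁻¹ * g) * a * ((x * (n * g))⁻¹ * g)⁻¹ = a := by
    calc ((x * (n * g))⁻¹ * g) * a * ((x * (n * g))⁻¹ * g)⁻¹
        = (x * (n * g))⁻¹ * (g * a * g⁻¹) * (x * (n * g)) := by group
      _ = (x * (n * g))⁻¹ * ((x * (n * g)) * a * (x * (n * g))⁻¹) * (x * (n * g)) := by rw [h2]
      _ = a := by group
  calc a * ((x * (n * g))⁻¹ * g) = ((x * (n * g))⁻¹ * g) * a * ((x * (n * g))⁻¹ * g)⁻¹ * ((x * (n * g))⁻¹ * g) := by rw [h3]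
    _ = ((x * (n * g))⁻¹ * g) * a := by group

end Cfsg.Agent.S1954
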