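import Mathlib
import Cfsg.Statements.S1956
import Cfsg.Agent.Lib.SylowConjLemmas
import Cfsg.Agent.Lib.Replacement

set_option autoImplicit false
open Cfsg

namespace Cfsg.Agent.S1956

open Cfsg.Agent.Lib.SylowConjLemmas

/-- Let P be a Sylow p-subgroup of the finite group G such that every element of P of order dividing p (dividing 4 when p = 2) is central in P. Then the fusion of these elements is controlled by N_G(P): if such an element a of P has g a g⁻¹ in P, then g = n c with n normalizing P and c commuting with a. -/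
theorem result {G : Type*} [Group G] [Finite G] {p : ℕ} [Fact p.Prime] (P : Sylow p G)
    (hcen : ∀ a ∈ (P : Subgroup G), (a ^ p = 1 ∨ (p = 2 ∧ a ^ 4 = 1)) → ∀ y ∈ (P : Subgroup G), a * y = y * a) :
    ∀ a ∈ (P : Subgroup G), (a ^ p = 1 ∨ (p = 2 ∧ a ^ 4 = 1)) → ∀ g : G, g * a * g⁻¹ ∈ (P : Subgroup G) →
      ∃ n ∈ Subgroup.normalizer ((P : Subgroup G) : Set G), ∃ c : G, c * a = a * c ∧ g = n * c := by
  intro a ha hapow g hg
  set b := g * a * g⁻¹ with hb
  have hbpow : b ^ p = 1 ∨ (p = 2 ∧ b ^ 4 = 1) := by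
    have hpow : ∀ n : ℕ, b ^ n = g * a ^ n * g⁻¹ := by
      intro n
      rw [hb, conj_pow]
    rcases hapow with h | ⟨h2, h⟩
    · left; rw [hpow, h]; group
    · right; refine ⟨h2, ?_⟩; rw [hpow, h]; group
  have hbc := hcen b hg hbpow
  have hac := hcen a ha hapow
  -- Both `P` and `gPg⁻¹` lie in the centralizer of `b`.
  let K : Subgroup G := Subgroup.centralizer ({b} : Set G)
  have hPK : (P : Subgroup G) ≤ K := by
    intro y hy
    rw [Subgroup.mem_centralizer_singleton_iff]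
    exact (hbc y hy).symm
  let T : Subgroup G := (P : Subgroup G).map (MulAut.conj g).toMonoidHom
  have hTp : IsPGroup p T := P.isPGroup'.map _
  have hTK : T ≤ K := by
    rintro _ ⟨x, hx, rfl⟩
    rw [Subgroup.mem_centralizer_singleton_iff]
    have hxa := hac x hx
    show g * x * g⁻¹ * b = b * (g * x * g⁻¹)
    rw [hb]
    calc g * x * g⁻¹ * (g * a * g⁻¹) = g * (x * a) * g⁻¹ := by group
      _ = g * (a * x) * g⁻¹ := by rw [hxa]
      _ = g * a * g⁻¹ * (g * x * g⁻¹) := by group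
  obtain ⟨k, hk, hkT⟩ := exists_conj_mem_of_le P K hPK T hTp hTK
  have hkb : k * b = b * k := by
    have := Subgroup.mem_centralizer_singleton_iff.mp hk
    exact this
  refine ⟨k * g, ?_, g⁻¹ * k⁻¹ * g, ?_, by group⟩
  · apply Cfsg.Agent.Lib.Replacement.mem_normalizer_of_forall
    intro x hx
    have h1 := hkT (g * x * g⁻¹) ⟨x, hx, rfl⟩
    have e : k * (g * x * g⁻¹) * k⁻¹ = k * g * x * (k * g)⁻¹ := by group
    rw [e] at h1
    exact h1
  · -- `k⁻¹` commutes with `b`
    have hkb' : k⁻¹ * b = b * k⁻¹ := by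
      have : k⁻¹ * (b * k) * k⁻¹ = k⁻¹ * (k * b) * k⁻¹ := by rw [hkb]
      calc k⁻¹ * b = k⁻¹ * (b * k) * k⁻¹ := by group
        _ = k⁻¹ * (k * b) * k⁻¹ := this
        _ = b * k⁻¹ := by group
    have : g⁻¹ * k⁻¹ * g * a = g⁻¹ * (k⁻¹ * b) * g := by rw [hb]; group
    rw [this, hkb', hb]
    group

end Cfsg.Agent.S1956
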