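import Mathlib
import Cfsg.Statements.S2001
import Cfsg.Agent.Lib.CentralFunctor
import Cfsg.Agent.Lib.TransferRed

set_option autoImplicit false
universe u
open Cfsg

namespace Cfsg.Agent.S2001

open Cfsg.Agent.Lib.WellPlaced Cfsg.Agent.Lib.ConjFam Cfsg.Agent.Lib.SylowConjLemmas
open Cfsg.Agent.Lib.CtrlStrong Cfsg.Agent.Lib.CtrlChainMain Cfsg.Agent.Lib.CentralFunctor
open Cfsg.Agent.Lib.TransferRed (inf_commutator_le inv_mul_conj_mem_commutator)

section

variable {G : Type*} [Group G] [Finite G] {p : ℕ} [Fact p.Prime]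

/-- Focal criterion inside a subgroup. -/
theorem inf_commutator_le_of_focal {M R 𝔗 : Subgroup G} (hRM : R ≤ M) (hRp : IsPGroup p R)
    (hR : ¬ p ∣ R.relIndex M)
    (h : ∀ x ∈ R, ∀ g ∈ M, g * x * g⁻¹ ∈ R → x⁻¹ * (g * x * g⁻¹) ∈ 𝔗) : R ⊓ ⁅M, M⁆ ≤ 𝔗 := by
  have hRp' : IsPGroup p (R.subgroupOf M) := hRp.comap_of_injective M.subtype M.subtype_injective
  let S₁ : Sylow p M := hRp'.toSylow hR
  have hS₁ : (S₁ : Subgroup M) = R.subgroupOf M := rfl
  have h1 := inf_commutator_le S₁ (𝔗.subgroupOf M) (by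
    intro x hx g hg
    rw [hS₁] at hx hg
    exact h x hx g g.2 hg)
  rintro x ⟨hx1, hx2⟩
  rw [← Subgroup.map_subtype_commutator] at hx2
  obtain ⟨y, hy, rfl⟩ := hx2
  have h2 : y ∈ (S₁ : Subgroup M) ⊓ commutator M := ⟨by rw [hS₁]; exact hx1, hy⟩
  exact h1 h2

/-- The goal. -/
def Gl (𝔗 : Subgroup G) (A : Set G) (g : G) : Prop := ∀ x ∈ A, x⁻¹ * (g⁻¹ * x * g) ∈ 𝔗

theorem goalData (P : Sylow p G) (W : Subgroup G → Subgroup G) (hW : IsConjugacyFunctor p W)
    (𝔗 : Subgroup G)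
    (hT : (P : Subgroup G) ⊓ ⁅Subgroup.normalizer ((W (P : Subgroup G) : Subgroup G) : Set G),
      Subgroup.normalizer ((W (P : Subgroup G) : Subgroup G) : Set G)⁆ ≤ 𝔗) :
    GoalData (P : Subgroup G) W (Gl 𝔗) where
  mono := by
    intro A B g h hBA x hx
    exact h x (hBA hx)
  trans := by
    intro A B g h h1 hAB h2 x hx
    have h3 := h1 x hx
    have h4 := h2 _ (hAB ⟨x, hx, rfl⟩)
    have e : x⁻¹ * ((g * h)⁻¹ * x * (g * h)) =
        (x⁻¹ * (g⁻¹ * x * g)) * ((g⁻¹ * x * g)⁻¹ * (h⁻¹ * (g⁻¹ * x * g) * h)) := by group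
    rw [e]
    exact Subgroup.mul_mem _ h3 h4
  central := by
    intro A c hc x hx
    have h3 := Subgroup.mem_centralizer_iff.mp hc x hx
    have e : x⁻¹ * (c⁻¹ * x * c) = 1 := by
      calc x⁻¹ * (c⁻¹ * x * c) = x⁻¹ * c⁻¹ * (x * c) := by group
        _ = x⁻¹ * c⁻¹ * (c * x) := by rw [h3]
        _ = 1 := by group
    rw [e]
    exact Subgroup.one_mem _
  gen := by
    intro A s hA hs hsA x hx
    apply hT
    refine ⟨Subgroup.mul_mem _ (Subgroup.inv_mem _ (hA hx)) (hsA ⟨x, hx, rfl⟩), ?_⟩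
    have hPN : (P : Subgroup G) ≤ Subgroup.normalizer ((W (P : Subgroup G) : Subgroup G) : Set G) :=
      Subgroup.le_normalizer.trans (normalizer_le_normalizer_W hW P.isPGroup')
    have h1 := inv_mul_conj_mem_commutator (hPN (hA hx)) (Subgroup.inv_mem _ hs)
    simpa using h1

end

/-- Let p be a prime dividing the order of the finite group G, P a Sylow p-subgroup, W a conjugacy functor for p on G with Z(H) ≤ W(H) for every nontrivial p-subgroup H, and V a central functor: a conjugacy functor with V(H) ≤ Z(H), and V(H) ≤ V(K) whenever Z(H) ≤ Z(K), for nontrivial p-subgroups H, K. Say that W with V controls transfer in a subgroup L when some Sylow p-subgroup Q of L satisfies Q ∩ L' = (Q ∩ (N_L(W(Q)))')·(Q ∩ (C_L(V(Q)))') as a product of two subgroups. If W with V controls transfer in N_G(H) for every subgroup H with Z(P) ≤ H ≤ P, then W with V controls transfer in G. -/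
theorem result {G : Type*} [Group G] [Finite G] {p : ℕ} [Fact p.Prime] (hdiv : p ∣ Nat.card G) (P : Sylow p G) (W V : Subgroup G → Subgroup G) (hW : Cfsg.IsConjugacyFunctor p W) (hV : Cfsg.IsConjugacyFunctor p V) (hWZ : ∀ H : Subgroup G, IsPGroup p ↥H → H ⊓ Subgroup.centralizer ((H : Subgroup G) : Set G) ≤ W H) (hVZ : ∀ H : Subgroup G, IsPGroup p ↥H → V H ≤ H ⊓ Subgroup.centralizer ((H : Subgroup G) : Set G)) (hVmono : ∀ H K : Subgroup G, IsPGroup p ↥H → IsPGroup p ↥K → H ≠ ⊥ → K ≠ ⊥ → H ⊓ Subgroup.centralizer ((H : Subgroup G) : Set G) ≤ K ⊓ Subgroup.centralizer ((K : Subgroup G) : Set G) → V H ≤ V K) (hloc : ∀ H : Subgroup G, (P : Subgroup G) ⊓ Subgroup.centralizer (((P : Subgroup G) : Subgroup G) : Set G) ≤ H → H ≤ (P : Subgroup G) → ∃ Q : Subgroup G, Q ≤ Subgroup.normalizer ((H : Subgroup G) : Set G) ∧ IsPGroup p ↥Q ∧ ¬ p ∣ (Q).relIndex (Subgroup.normalizer ((H : Subgroup G) : Set G)) ∧ ∀ x : G, x ∈ Q ⊓ ⁅Subgroup.normalizer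 ((H : Subgroup G) : Set G), Subgroup.normalizer ((H : Subgroup G) : Set G)⁆ ↔ ∃ a ∈ Q ⊓ ⁅Subgroup.normalizer ((H : Subgroup G) : Set G) ⊓ Subgroup.normalizer ((W Q : Subgroup G) : Set G), Subgroup.normalizer ((H : Subgroup G) : Set G) ⊓ Subgroup.normalizer ((W Q : Subgroup G) : Set G)⁆, ∃ b ∈ Q ⊓ ⁅Subgroup.normalizer ((H : Subgroup G) : Set G) ⊓ Subgroup.centralizer ((V Q : Subgroup G) : Set G), Subgroup.normalizer ((H : Subgroup G) : Set G) ⊓ Subgroup.centralizer ((V Q : Subgroup G) : Set G)⁆, x = a * b) : ∃ Q : Subgroup G, IsPGroup p ↥Q ∧ ¬ p ∣ Q.index ∧ ∀ x : G, x ∈ Q ⊓ commutator G ↔ ∃ a ∈ Q ⊓ ⁅Subgroup.normalizer ((W Q : Subgroup G) : Set G), Subgroup.normalizer ((W Q : Subgroup G) : Set G)⁆, ∃ b ∈ Q ⊓ ⁅Subgroup.centralizer ((V Q : Subgroup G) : Set G), Subgroup.centralizer ((V Q : Subgroup G) : Set G)⁆, x = a * b := by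
    classical
  set N₁ := Subgroup.normalizer ((W (P : Subgroup G) : Subgroup G) : Set G) with hN₁
  set C₁ := Subgroup.centralizer ((V (P : Subgroup G) : Subgroup G) : Set G) with hC₁
  set A₁ : Subgroup G := (P : Subgroup G) ⊓ ⁅N₁, N₁⁆ with hA₁
  set B₁ : Subgroup G := (P : Subgroup G) ⊓ ⁅C₁, C₁⁆ with hB₁
  set 𝔗 : Subgroup G := A₁ ⊔ B₁ with h𝔗
  have hPp : IsPGroup p (P : Subgroup G) := P.isPGroup'
  have hPN : (P : Subgroup G) ≤ N₁ :=
    Subgroup.le_normalizer.trans (normalizer_le_normalizer_W hW hPp)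
  have hG : GoalData (P : Subgroup G) W (Gl 𝔗) := goalData P W hW 𝔗 le_sup_left
  have hPne : (P : Subgroup G) ≠ ⊥ := P.ne_bot_of_dvd_card hdiv
  have hZne : (P : Subgroup G) ⊓ Subgroup.centralizer (((P : Subgroup G) : Subgroup G) : Set G) ≠ ⊥ := by
    have : Nontrivial (P : Subgroup G) := (Subgroup.nontrivial_iff_ne_bot _).mpr hPne
    have h1 := IsPGroup.center_nontrivial hPp
    obtain ⟨z, hz⟩ := exists_ne (1 : Subgroup.center (P : Subgroup G))
    intro hb
    have hz2 : ((z : (P : Subgroup G)) : G) ∈ (P : Subgroup G) ⊓ Subgroup.centralizer (((P : Subgroup G) : Subgroup G) : Set G) := by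
      refine ⟨(z : (P : Subgroup G)).2, ?_⟩
      show ((z : (P : Subgroup G)) : G) ∈ Subgroup.centralizer _
      rw [Subgroup.mem_centralizer_iff]
      intro q hq
      have := Subgroup.mem_center_iff.mp z.2 ⟨q, hq⟩
      exact congrArg Subtype.val this
    rw [hb] at hz2
    apply hz
    apply Subtype.ext
    apply Subtype.ext
    exact hz2
  have main : ∀ x ∈ (P : Subgroup G), ∀ g : G, g * x * g⁻¹ ∈ (P : Subgroup G) → x⁻¹ * (g * x * g⁻¹) ∈ 𝔗 := by
    intro x hx g hg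
    have hgoal : Gl 𝔗 {x} g⁻¹ := by
      refine goal_main P hW hWZ hG ?_ (by rintro _ rfl; exact hx) (by
        rintro y ⟨z, hz, rfl⟩
        rw [Set.mem_singleton_iff] at hz
        subst hz
        show (g⁻¹)⁻¹ * z * g⁻¹ ∈ (P : Subgroup G)
        rw [inv_inv]; exact hg)
      rintro Y ⟨hYP, hFN, H, k, hZH, hHP, hkY⟩ claim y hy A hA hAy a ha
      obtain ⟨Q₀, hQ₀, hQ₀p, hQ₀S, hctrl⟩ := hloc H hZH hHP
      obtain ⟨K, hKH, hKQ⟩ := exists_transport P hkY hFN hQ₀ hQ₀p hQ₀S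
      set R : Subgroup G := (P : Subgroup G) ⊓ Subgroup.normalizer (Y : Set G) with hR
      have hRP : R ≤ P := inf_le_left
      have hRp : IsPGroup p R := hPp.to_le hRP
      have hZR : (P : Subgroup G) ⊓ Subgroup.centralizer (((P : Subgroup G) : Subgroup G) : Set G) ≤ R :=
        center_le_inf hYP
      have hRne : R ≠ ⊥ := by
        intro hb
        rw [hb] at hZR
        exact hZne (le_bot_iff.mp hZR)
      have hVR : V (P : Subgroup G) ≤ V R :=
        hVmono _ _ hPp hRp hPne hRne (center_le_center hZR hRP)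
      have hNm : (Subgroup.normalizer (H : Set G)).map (MulAut.conj K).toMonoidHom =
          Subgroup.normalizer (Y : Set G) := by
        rw [← hKH, normalizer_map_conj]
      have hRN : R ≤ Subgroup.normalizer (Y : Set G) := inf_le_right
      have hmemQ : ∀ x ∈ R, K⁻¹ * x * K ∈ Q₀ := by
        intro x hx
        rw [← hKQ] at hx
        obtain ⟨t, ht, rfl⟩ := hx
        have e : K⁻¹ * (MulAut.conj K).toMonoidHom t * K = t := by
          simp [MulAut.conj_apply]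
          group
        rw [e]
        exact ht
      have hmemR : ∀ x ∈ Q₀, K * x * K⁻¹ ∈ R := by
        intro x hx
        rw [← hKQ]
        exact ⟨x, hx, rfl⟩
      -- the element
      set r : G := a⁻¹ * (y⁻¹ * a * y) with hr
      have hrR : r ∈ R := Subgroup.mul_mem _ (Subgroup.inv_mem _ (hA ha)) (hAy ⟨a, ha, rfl⟩)
      have hrc : r ∈ ⁅Subgroup.normalizer (Y : Set G), Subgroup.normalizer (Y : Set G)⁆ := by
        have h1 := inv_mul_conj_mem_commutator (hRN (hA ha)) (Subgroup.inv_mem _ hy)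
        simpa using h1
      have hr₀ : K⁻¹ * r * K ∈ Q₀ ⊓ ⁅Subgroup.normalizer (H : Set G), Subgroup.normalizer (H : Set G)⁆ := by
        refine ⟨hmemQ r hrR, ?_⟩
        rw [← hNm, ← Subgroup.map_commutator] at hrc
        obtain ⟨t, ht, hte⟩ := hrc
        have e : K⁻¹ * r * K = t := by
          rw [← hte]
          simp [MulAut.conj_apply]
          group
        rw [e]
        exact ht
      obtain ⟨a₀, ha₀, b₀, hb₀, hab⟩ := (hctrl _).mp hr₀
      set M₀ := Subgroup.normalizer (H : Set G) ⊓ Subgroup.normalizer ((W Q₀ : Subgroup G) : Set G) with hM₀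
      set M₁ := Subgroup.normalizer (H : Set G) ⊓ Subgroup.centralizer ((V Q₀ : Subgroup G) : Set G) with hM₁
      have hreq : r = (K * a₀ * K⁻¹) * (K * b₀ * K⁻¹) := by
        have e : (K * a₀ * K⁻¹) * (K * b₀ * K⁻¹) = K * (a₀ * b₀) * K⁻¹ := by group
        rw [e, ← hab]
        group
      show r ∈ 𝔗
      rw [hreq]
      refine Subgroup.mul_mem _ ?_ ?_
      · -- the `W`-part
        set M := Subgroup.normalizer (Y : Set G) ⊓ Subgroup.normalizer ((W R : Subgroup G) : Set G) with hM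
        have hWR : W R = (W Q₀).map (MulAut.conj K).toMonoidHom := by
          rw [← hKQ, (hW Q₀ hQ₀p).2.2 K]
        have hMm : M₀.map (MulAut.conj K).toMonoidHom = M := by
          rw [hM₀, hM, hWR, normalizer_map_conj, ← hNm]
          ext z
          constructor
          · rintro ⟨t, ⟨ht1, ht2⟩, rfl⟩
            exact ⟨⟨t, ht1, rfl⟩, ⟨t, ht2, rfl⟩⟩
          · rintro ⟨⟨t, ht1, rfl⟩, ⟨t', ht2, hte⟩⟩
            have : t' = t := (MulAut.conj K).injective hte
            subst this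
            exact ⟨t', ⟨ht1, ht2⟩, rfl⟩
        have hRM : R ≤ M := le_inf hRN (Subgroup.le_normalizer.trans (normalizer_le_normalizer_W hW hRp))
        have hRS : ¬ p ∣ R.relIndex M := by
          intro hd
          apply hFN
          rw [← Subgroup.relIndex_mul_relIndex R M _ hRM inf_le_left]
          exact Dvd.dvd.mul_right hd _
        have h1 := inf_commutator_le_of_focal hRM hRp hRS (𝔗 := 𝔗) (by
          intro t ht s hs hts
          have h2 := claim {t} s⁻¹ (Subgroup.inv_mem _ hs.2) (by rintro _ rfl; exact ht) (by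
            rintro _ ⟨_, rfl, rfl⟩
            simpa using hts) t rfl
          simpa using h2)
        apply h1
        refine ⟨hmemR _ ha₀.1, ?_⟩
        rw [← hMm, ← Subgroup.map_commutator]
        exact ⟨a₀, ha₀.2, rfl⟩
      · -- the `V`-part
        refine Subgroup.mem_sup_right ⟨hRP (hmemR _ hb₀.1), ?_⟩
        have hle : M₁.map (MulAut.conj K).toMonoidHom ≤ C₁ := by
          rintro _ ⟨t, ⟨_, ht⟩, rfl⟩
          rw [hC₁, Subgroup.mem_centralizer_iff]
          intro v hv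
          have hv2 : v ∈ V R := hVR hv
          rw [← hKQ, (hV Q₀ hQ₀p).2.2 K] at hv2
          obtain ⟨v₀, hv₀, rfl⟩ := hv2
          have h3 := Subgroup.mem_centralizer_iff.mp ht v₀ hv₀
          show K * v₀ * K⁻¹ * (K * t * K⁻¹) = (K * t * K⁻¹) * (K * v₀ * K⁻¹)
          calc K * v₀ * K⁻¹ * (K * t * K⁻¹) = K * (v₀ * t) * K⁻¹ := by group
            _ = K * (t * v₀) * K⁻¹ := by rw [h3]
            _ = (K * t * K⁻¹) * (K * v₀ * K⁻¹) := by group
        have h4 : K * b₀ * K⁻¹ ∈ ⁅M₁.map (MulAut.conj K).toMonoidHom, M₁.map (MulAut.conj K).toMonoidHom⁆ := by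
          rw [← Subgroup.map_commutator]
          exact ⟨b₀, hb₀.2, rfl⟩
        exact Subgroup.commutator_mono hle hle h4
    have h5 := hgoal x rfl
    simpa using h5
  -- products
  have hconj : ∀ q ∈ (P : Subgroup G), ∀ a ∈ A₁, q * a * q⁻¹ ∈ A₁ := by
    rintro q hq a ⟨ha1, ha2⟩
    refine ⟨Subgroup.mul_mem _ (Subgroup.mul_mem _ hq ha1) (Subgroup.inv_mem _ hq), ?_⟩
    have hnorm : (⁅N₁, N₁⁆ : Subgroup G).subgroupOf N₁ = commutator N₁ ∨ True := Or.inr trivial
    have h1 : ∀ n ∈ N₁, ∀ z ∈ ⁅N₁, N₁⁆, n * z * n⁻¹ ∈ ⁅N₁, N₁⁆ := by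
      intro n hn z hz
      rw [← Subgroup.map_subtype_commutator] at hz ⊢
      obtain ⟨w, hw, rfl⟩ := hz
      refine ⟨⟨n, hn⟩ * w * (⟨n, hn⟩ : N₁)⁻¹, ?_, by simp⟩
      exact (inferInstance : (commutator N₁).Normal).conj_mem w hw _
    exact h1 q (hPN hq) a ha2
  have hdec : ∀ y ∈ 𝔗, ∃ a ∈ A₁, ∃ b ∈ B₁, y = a * b := by
    intro y hy
    rw [h𝔗, Subgroup.sup_eq_closure] at hy
    induction hy using Subgroup.closure_induction with
    | mem z hz =>
      rcases hz with hz | hz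
      · exact ⟨z, hz, 1, Subgroup.one_mem _, by simp⟩
      · exact ⟨1, Subgroup.one_mem _, z, hz, by simp⟩
    | one => exact ⟨1, Subgroup.one_mem _, 1, Subgroup.one_mem _, by simp⟩
    | mul u v _ _ hu hv =>
      obtain ⟨a₁, ha₁, b₁, hb₁, rfl⟩ := hu
      obtain ⟨a₂, ha₂, b₂, hb₂, rfl⟩ := hv
      refine ⟨a₁ * (b₁ * a₂ * b₁⁻¹), Subgroup.mul_mem _ ha₁ (hconj b₁ hb₁.1 a₂ ha₂), b₁ * b₂, Subgroup.mul_mem _ hb₁ hb₂, ?_⟩
      group
    | inv u _ hu =>
      obtain ⟨a₁, ha₁, b₁, hb₁, rfl⟩ := hu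
      refine ⟨b₁⁻¹ * a₁⁻¹ * b₁⁻¹⁻¹, hconj b₁⁻¹ (Subgroup.inv_mem _ hb₁.1) _ (Subgroup.inv_mem _ ha₁), b₁⁻¹, Subgroup.inv_mem _ hb₁, ?_⟩
      group
  refine ⟨P, hPp, P.not_dvd_index, fun x => ⟨fun hx => ?_, ?_⟩⟩
  · exact hdec x (inf_commutator_le P 𝔗 main hx)
  · rintro ⟨a, ha, b, hb, rfl⟩
    refine ⟨Subgroup.mul_mem _ ha.1 hb.1, Subgroup.mul_mem _ ?_ ?_⟩
    · exact Subgroup.commutator_mono le_top le_top ha.2
    · exact Subgroup.commutator_mono le_top le_top hb.2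

end Cfsg.Agent.S2001
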