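import Mathlib
import Cfsg.Statements.S2002
import Cfsg.Agent.Lib.CentralFunctor

set_option autoImplicit false
universe u
open Cfsg

namespace Cfsg.Agent.S2002

open Cfsg.Agent.Lib.WellPlaced Cfsg.Agent.Lib.ConjFam Cfsg.Agent.Lib.SylowConjLemmas
open Cfsg.Agent.Lib.CtrlStrong Cfsg.Agent.Lib.CtrlChainMain Cfsg.Agent.Lib.CentralFunctor

section

variable {G : Type*} [Group G]

/-- Chains of allowed conjugations. -/
inductive Ct (P N₁ C₁ : Subgroup G) : Set G → G → Prop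
  | nil (A : Set G) : Ct P N₁ C₁ A 1
  | cons {A : Set G} {g : G} (x : G) (hx : x ∈ N₁ ∨ x ∈ C₁) (hA : A ⊆ P) (hxA : cj x A ⊆ P)
      (h : Ct P N₁ C₁ (cj x A) g) : Ct P N₁ C₁ A (x * g)

variable {P N₁ C₁ : Subgroup G}

theorem Ct.mono {A B : Set G} {g : G} (h : Ct P N₁ C₁ A g) (hBA : B ⊆ A) : Ct P N₁ C₁ B g := by
  induction h generalizing B with
  | nil A => exact Ct.nil B
  | cons x hx hA hxA _ ih =>
    exact Ct.cons x hx (hBA.trans hA) ((cj_mono hBA).trans hxA) (ih (cj_mono hBA))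

theorem Ct.trans {A B : Set G} {g h : G} (h1 : Ct P N₁ C₁ A g) (hAB : cj g A ⊆ B)
    (h2 : Ct P N₁ C₁ B h) : Ct P N₁ C₁ A (g * h) := by
  induction h1 generalizing B with
  | nil A =>
    rw [one_mul]
    rw [cj_one] at hAB
    exact h2.mono hAB
  | cons x hx hA hxA _ ih =>
    rw [mul_assoc]
    refine Ct.cons x hx hA hxA (ih ?_ h2)
    rwa [cj_mul] at hAB

/-- Conversion to the list form. -/
theorem Ct.exists_list {A : Set G} {g : G} (h : Ct P N₁ C₁ A g) (hA : A ⊆ P) :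
    ∃ (n : ℕ) (b : Fin n → G), (∀ i, b i ∈ ⊤ ⊓ N₁ ∨ b i ∈ ⊤ ⊓ C₁) ∧ g = (List.ofFn b).prod ∧
      ∀ k : ℕ, k ≤ n → (fun x => (((List.ofFn b).take k).prod)⁻¹ * x * ((List.ofFn b).take k).prod) '' A ⊆ P := by
  induction h with
  | nil A =>
    refine ⟨0, Fin.elim0, fun i => i.elim0, by simp, fun k hk => ?_⟩
    rintro _ ⟨x, hx, rfl⟩
    simpa using hA hx
  | @cons A g x₀ hx₀ hA₀ hxA₀ _ ih =>
    obtain ⟨n, b, hb, hprod, hk⟩ := ih hxA₀
    have hl : List.ofFn (Fin.cons x₀ b : Fin (n + 1) → G) = x₀ :: List.ofFn b := by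
      rw [List.ofFn_succ]
      simp
    have htake : ∀ i : ℕ, ((List.ofFn (Fin.cons x₀ b : Fin (n + 1) → G)).take (i + 1)).prod
        = x₀ * ((List.ofFn b).take i).prod := by
      intro i
      rw [hl, List.take_succ_cons, List.prod_cons]
    refine ⟨n + 1, Fin.cons x₀ b, ?_, ?_, ?_⟩
    · intro i
      refine Fin.cases ?_ (fun j => ?_) i
      · simp only [Fin.cons_zero]
        rcases hx₀ with h | h
        · exact Or.inl ⟨Subgroup.mem_top _, h⟩
        · exact Or.inr ⟨Subgroup.mem_top _, h⟩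
      · simpa using hb j
    · rw [hl, List.prod_cons, hprod]
    · intro k hkn
      cases k with
      | zero =>
        rintro _ ⟨x, hx, rfl⟩
        simpa using hA₀ hx
      | succ j =>
        simp only [htake]
        rintro _ ⟨a, ha, rfl⟩
        have h1 : x₀⁻¹ * a * x₀ ∈ cj x₀ A := mem_cj ha
        have h2 := hk j (by omega) ⟨_, h1, rfl⟩
        have e : (x₀ * ((List.ofFn b).take j).prod)⁻¹ * a * (x₀ * ((List.ofFn b).take j).prod)
            = ((List.take j (List.ofFn b)).prod)⁻¹ * (x₀⁻¹ * a * x₀) * (List.take j (List.ofFn b)).prod := by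
          group
        simp only [e]
        exact h2

/-- The goal. -/
def Gl (P N₁ C₁ : Subgroup G) (A : Set G) (a : G) : Prop :=
  ∃ c ∈ Subgroup.centralizer A, ∃ b, a = c * b ∧ Ct P N₁ C₁ A b

theorem gl_trans {A B : Set G} {g h : G} (h1 : Gl P N₁ C₁ A g) (hAB : cj g A ⊆ B)
    (h2 : Gl P N₁ C₁ B h) : Gl P N₁ C₁ A (g * h) := by
  obtain ⟨c, hc, b, rfl, hb⟩ := h1
  obtain ⟨c', hc', b', rfl, hb'⟩ := h2
  have hcj : ∀ x ∈ A, c * x = x * c := fun x hx => (Subgroup.mem_centralizer_iff.mp hc x hx).symm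
  have hb_B : ∀ x ∈ A, b⁻¹ * x * b ∈ B := by
    intro x hx
    apply hAB
    refine ⟨x, hx, ?_⟩
    have e : c⁻¹ * x * c = x := by
      calc c⁻¹ * x * c = c⁻¹ * (x * c) := by group
        _ = c⁻¹ * (c * x) := by rw [hcj x hx]
        _ = x := by group
    calc (c * b)⁻¹ * x * (c * b) = b⁻¹ * (c⁻¹ * x * c) * b := by group
      _ = b⁻¹ * x * b := by rw [e]
  refine ⟨c * (b * c' * b⁻¹), ?_, b * b', ?_, hb.trans ?_ hb'⟩
  · refine Subgroup.mul_mem _ hc ?_
    rw [Subgroup.mem_centralizer_iff]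
    intro x hx
    have h3 := Subgroup.mem_centralizer_iff.mp hc' _ (hb_B x hx)
    calc x * (b * c' * b⁻¹) = b * ((b⁻¹ * x * b) * c') * b⁻¹ := by group
      _ = b * (c' * (b⁻¹ * x * b)) * b⁻¹ := by rw [h3]
      _ = b * c' * b⁻¹ * x := by group
  · group
  · rintro _ ⟨x, hx, rfl⟩
    exact hb_B x hx

end

section

variable {G : Type*} [Group G] [Finite G] {p : ℕ} [Fact p.Prime]

theorem goalData (P : Subgroup G) (W : Subgroup G → Subgroup G) (C₁ : Subgroup G) :
    GoalData P W (Gl P (Subgroup.normalizer ((W P : Subgroup G) : Set G)) C₁) where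
  mono := by
    rintro A B g ⟨c, hc, b, e, hb⟩ hBA
    exact ⟨c, Subgroup.centralizer_le hBA hc, b, e, hb.mono hBA⟩
  trans := gl_trans
  central := by
    intro A c hc
    exact ⟨c, hc, 1, by simp, Ct.nil A⟩
  gen := by
    intro A s hA hs hsA
    exact ⟨1, Subgroup.one_mem _, s * 1, by simp, Ct.cons s (Or.inl hs) hA hsA (Ct.nil _)⟩

end

/-- Let p be a prime dividing the order of the finite group G, P a Sylow p-subgroup, W a conjugacy functor for p on G with Z(H) ≤ W(H) for every nontrivial p-subgroup H, and V a central functor (a conjugacy functor with V(H) ≤ Z(H), and V(H) ≤ V(K) whenever Z(H) ≤ Z(K)). Say that W with V controls strong fusion in a subgroup L when some Sylow p-subgroup Q of L has the property: whenever X ⊆ Q and a ∈ L with a⁻¹Xa ⊆ Q, then a = c b with c ∈ C_L(X) and b = b₁ ⋯ bₙ a product of elements each in N_L(W(Q)) or in C_L(V(Q)) such that every partial conjugate (b₁ ⋯ bₖ)⁻¹ X (b₁ ⋯ bₖ) lies in Q. If W with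 V controls strong fusion in N_G(H) for every subgroup H with Z(P) ≤ H ≤ P, then W with V controls strong fusion in G. -/
theorem result {G : Type*} [Group G] [Finite G] {p : ℕ} [Fact p.Prime] (hdiv : p ∣ Nat.card G) (P : Sylow p G) (W V : Subgroup G → Subgroup G) (hW : Cfsg.IsConjugacyFunctor p W) (hV : Cfsg.IsConjugacyFunctor p V) (hWZ : ∀ H : Subgroup G, IsPGroup p ↥H → H ⊓ Subgroup.centralizer ((H : Subgroup G) : Set G) ≤ W H) (hVZ : ∀ H : Subgroup G, IsPGroup p ↥H → V H ≤ H ⊓ Subgroup.centralizer ((H : Subgroup G) : Set G)) (hVmono : ∀ H K : Subgroup G, IsPGroup p ↥H → IsPGroup p ↥K → H ≠ ⊥ → K ≠ ⊥ → H ⊓ Subgroup.centralizer ((H : Subgroup G) : Set G) ≤ K ⊓ Subgroup.centralizer ((K : Subgroup G) : Set G) → V H ≤ V K) (hloc : ∀ H : Subgroup G, (P : Subgroup G) ⊓ Subgroup.centralizer (((P : Subgroup G) : Subgroup G) : Set G) ≤ H → H ≤ (P : Subgroup G) → ∃ Q : Subgroup G, Q ≤ Subgroup.normalizer ((H : Subgroup G) : Set G) ∧ IsPGroup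 p ↥Q ∧ ¬ p ∣ (Q).relIndex (Subgroup.normalizer ((H : Subgroup G) : Set G)) ∧ ∀ (X : Set G) (a : G), X ⊆ Q → a ∈ Subgroup.normalizer ((H : Subgroup G) : Set G) → (fun x => a⁻¹ * x * a) '' X ⊆ Q → ∃ c ∈ Subgroup.normalizer ((H : Subgroup G) : Set G) ⊓ Subgroup.centralizer X, ∃ (n : ℕ) (b : Fin n → G), (∀ i, b i ∈ Subgroup.normalizer ((H : Subgroup G) : Set G) ⊓ Subgroup.normalizer ((W Q : Subgroup G) : Set G) ∨ b i ∈ Subgroup.normalizer ((H : Subgroup G) : Set G) ⊓ Subgroup.centralizer ((V Q : Subgroup G) : Set G)) ∧ a = c * (List.ofFn b).prod ∧ ∀ k : ℕ, k ≤ n → (fun x => (((List.ofFn b).take k).prod)⁻¹ * x * ((List.ofFn b).take k).prod) '' ((fun x => c⁻¹ * x * c) '' X) ⊆ Q) : ∃ Q : Subgroup G, IsPGroup p ↥Q ∧ ¬ p ∣ Q.index ∧ ∀ (X : Set G) (a : G), X ⊆ Q → (fun x => a⁻¹ * x * a) '' X ⊆ Q → ∃ c ∈ Subgroup.centralizer X, ∃ (n : ℕ) (b : Fin n → G), (∀ i, b i ∈ ⊤ ⊓ Subgroup.normalizer ((W Q : Subgroup G) : Set G) ∨ b i ∈ ⊤ ⊓ Subgroup.centralizer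 ((V Q : Subgroup G) : Set G)) ∧ a = c * (List.ofFn b).prod ∧ ∀ k : ℕ, k ≤ n → (fun x => (((List.ofFn b).take k).prod)⁻¹ * x * ((List.ofFn b).take k).prod) '' ((fun x => c⁻¹ * x * c) '' X) ⊆ Q := by
    classical
  set C₁ := Subgroup.centralizer ((V (P : Subgroup G) : Subgroup G) : Set G) with hC₁
  have hPp : IsPGroup p (P : Subgroup G) := P.isPGroup'
  have hG := goalData (P : Subgroup G) W C₁
  set N₁ := Subgroup.normalizer ((W (P : Subgroup G) : Subgroup G) : Set G) with hN₁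
  -- `P ≠ 1` and `Z(P) ≠ 1`
  have hPne : (P : Subgroup G) ≠ ⊥ := P.ne_bot_of_dvd_card hdiv
  have hZne : (P : Subgroup G) ⊓ Subgroup.centralizer (((P : Subgroup G) : Subgroup G) : Set G) ≠ ⊥ := by
    have : Nontrivial (P : Subgroup G) := (Subgroup.nontrivial_iff_ne_bot _).mpr hPne
    have h1 := IsPGroup.center_nontrivial hPp
    obtain ⟨z, hz⟩ := exists_ne (1 : Subgroup.center (P : Subgroup G))
    intro hb
    have hz2 : ((z : (P : Subgroup G)) : G) ∈ (P : Subgroup G) ⊓ Subgroup.centralizer (((P : Subgroup G) : Subgroup G) : Set G) := by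
      refine ⟨(z : (P : Subgroup G)).2, ?_⟩
      show ((z : (P : Subgroup G)) : G) ∈ Subgroup.centralizer _
      rw [Subgroup.mem_centralizer_iff]
      intro q hq
      have := Subgroup.mem_center_iff.mp z.2 ⟨q, hq⟩
      exact congrArg Subtype.val this
    rw [hb] at hz2
    apply hz
    apply Subtype.ext
    apply Subtype.ext
    exact hz2
  have hZP : (P : Subgroup G) ⊓ Subgroup.centralizer (((P : Subgroup G) : Subgroup G) : Set G) ≤ P := inf_le_left
  refine ⟨P, hPp, P.not_dvd_index, fun X a hX hXa => ?_⟩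
  have main : Gl (P : Subgroup G) N₁ C₁ X a := by
    refine goal_main P hW hWZ hG ?_ hX hXa
    rintro Y ⟨hYP, hFN, H, k, hZH, hHP, hkY⟩ claim y hy A hA hAy
    obtain ⟨Q₀, hQ₀, hQ₀p, hQ₀S, hctrl⟩ := hloc H hZH hHP
    obtain ⟨K, hKH, hKQ⟩ := exists_transport P hkY hFN hQ₀ hQ₀p hQ₀S
    set R : Subgroup G := (P : Subgroup G) ⊓ Subgroup.normalizer (Y : Set G) with hR
    have hRP : R ≤ P := inf_le_left
    have hRp : IsPGroup p R := hPp.to_le hRP
    have hZR : (P : Subgroup G) ⊓ Subgroup.centralizer (((P : Subgroup G) : Subgroup G) : Set G) ≤ R :=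
      center_le_inf hYP
    have hRne : R ≠ ⊥ := by
      intro hb
      rw [hb] at hZR
      exact hZne (le_bot_iff.mp hZR)
    have hVR : V (P : Subgroup G) ≤ V R :=
      hVmono _ _ hPp hRp hPne hRne (center_le_center hZR hRP)
    have hNm : (Subgroup.normalizer (H : Set G)).map (MulAut.conj K).toMonoidHom =
        Subgroup.normalizer (Y : Set G) := by
      rw [← hKH, normalizer_map_conj]
    have hmemR : ∀ x ∈ Q₀, K * x * K⁻¹ ∈ R := by
      intro x hx
      rw [← hKQ]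
      exact ⟨x, hx, rfl⟩
    have hmemQ : ∀ x ∈ R, K⁻¹ * x * K ∈ Q₀ := by
      intro x hx
      rw [← hKQ] at hx
      obtain ⟨t, ht, rfl⟩ := hx
      have e : K⁻¹ * (MulAut.conj K).toMonoidHom t * K = t := by
        simp [MulAut.conj_apply]
        group
      rw [e]
      exact ht
    set A₀ : Set G := (fun a => K⁻¹ * a * K) '' A with hA₀
    set a₀ : G := K⁻¹ * y * K with ha₀
    have ha₀N : a₀ ∈ Subgroup.normalizer (H : Set G) := by
      rw [← hNm] at hy
      obtain ⟨t, ht, rfl⟩ := hy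
      have e : a₀ = t := by
        rw [ha₀]
        simp [MulAut.conj_apply]
        group
      rw [e]
      exact ht
    obtain ⟨c₀, hc₀, n, b, hb, hprod, hpart⟩ := hctrl A₀ a₀ (by
        rintro _ ⟨a, ha, rfl⟩
        exact hmemQ a (hA ha)) ha₀N (by
        rintro _ ⟨_, ⟨a, ha, rfl⟩, rfl⟩
        have e : a₀⁻¹ * (K⁻¹ * a * K) * a₀ = K⁻¹ * (y⁻¹ * a * y) * K := by
          rw [ha₀]
          group
        show a₀⁻¹ * (K⁻¹ * a * K) * a₀ ∈ Q₀
        rw [e]
        exact hmemQ _ (hAy ⟨a, ha, rfl⟩))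
    have hc₀A : ∀ x ∈ A₀, c₀⁻¹ * x * c₀ = x := by
      intro x hx
      have h1 := Subgroup.mem_centralizer_iff.mp hc₀.2 x hx
      calc c₀⁻¹ * x * c₀ = c₀⁻¹ * (x * c₀) := by group
        _ = c₀⁻¹ * (c₀ * x) := by rw [h1]
        _ = x := by group
    set c : G := K * c₀ * K⁻¹ with hc
    have hcA : c ∈ Subgroup.centralizer A := by
      rw [Subgroup.mem_centralizer_iff]
      intro x hx
      have h1 := Subgroup.mem_centralizer_iff.mp hc₀.2 _ (⟨x, hx, rfl⟩ : K⁻¹ * x * K ∈ A₀)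
      rw [hc]
      calc x * (K * c₀ * K⁻¹) = K * ((K⁻¹ * x * K) * c₀) * K⁻¹ := by group
        _ = K * (c₀ * (K⁻¹ * x * K)) * K⁻¹ := by rw [h1]
        _ = K * c₀ * K⁻¹ * x := by group
    set t : ℕ → G := fun k => ((List.ofFn b).take k).prod with ht
    set u : ℕ → G := fun k => K * t k * K⁻¹ with hu
    have hD : ∀ k, k ≤ n → cj (u k) A ⊆ R := by
      intro k hk
      rintro _ ⟨x, hx, rfl⟩
      have h1 := hpart k hk ⟨_, ⟨K⁻¹ * x * K, ⟨x, hx, rfl⟩, rfl⟩, rfl⟩
      have h2 := hmemR _ h1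
      have e1 : c₀⁻¹ * (K⁻¹ * x * K) * c₀ = K⁻¹ * x * K := hc₀A _ ⟨x, hx, rfl⟩
      simp only [e1] at h2
      have e : (u k)⁻¹ * x * u k = K * ((t k)⁻¹ * (K⁻¹ * x * K) * t k) * K⁻¹ := by
        simp only [hu]
        group
      show (u k)⁻¹ * x * u k ∈ R
      rw [e]
      exact h2
    have hlen : (List.ofFn b).length = n := by simp
    have hus : ∀ k (hk : k < n), u (k + 1) = u k * (K * b ⟨k, hk⟩ * K⁻¹) := by
      intro k hk
      have hlk : k < (List.ofFn b).length := by omega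
      have e : t (k + 1) = t k * b ⟨k, hk⟩ := by
        simp only [ht]
        rw [List.prod_take_succ (List.ofFn b) k hlk]
        simp
      simp only [hu]
      rw [e]
      group
    have hstep : ∀ k (hk : k < n), Gl (P : Subgroup G) N₁ C₁ (cj (u k) A) (K * b ⟨k, hk⟩ * K⁻¹) := by
      intro k hk
      have hD1 := hD k hk.le
      have hD2 : cj (K * b ⟨k, hk⟩ * K⁻¹) (cj (u k) A) ⊆ R := by
        rw [← cj_mul, ← hus k hk]
        exact hD (k + 1) hk
      rcases hb ⟨k, hk⟩ with hb1 | hb1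
      · apply claim _ _ _ hD1 hD2
        rw [← hKQ, (hW Q₀ hQ₀p).2.2 K, normalizer_map_conj]
        exact ⟨_, hb1.2, rfl⟩
      · refine ⟨1, Subgroup.one_mem _, (K * b ⟨k, hk⟩ * K⁻¹) * 1, by simp, ?_⟩
        refine Ct.cons _ (Or.inr ?_) (hD1.trans inf_le_left) (hD2.trans inf_le_left) (Ct.nil _)
        rw [hC₁, Subgroup.mem_centralizer_iff]
        intro v hv
        have hv2 : v ∈ V R := hVR hv
        rw [← hKQ, (hV Q₀ hQ₀p).2.2 K] at hv2
        obtain ⟨v₀, hv₀, rfl⟩ := hv2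
        have h3 := Subgroup.mem_centralizer_iff.mp hb1.2 v₀ hv₀
        show K * v₀ * K⁻¹ * (K * b ⟨k, hk⟩ * K⁻¹) = (K * b ⟨k, hk⟩ * K⁻¹) * (K * v₀ * K⁻¹)
        calc K * v₀ * K⁻¹ * (K * b ⟨k, hk⟩ * K⁻¹) = K * (v₀ * b ⟨k, hk⟩) * K⁻¹ := by group
          _ = K * (b ⟨k, hk⟩ * v₀) * K⁻¹ := by rw [h3]
          _ = (K * b ⟨k, hk⟩ * K⁻¹) * (K * v₀ * K⁻¹) := by group
    have hgoal : ∀ k, k ≤ n → Gl (P : Subgroup G) N₁ C₁ A (u k) := by
      intro k
      induction k with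
      | zero =>
        intro _
        have : u 0 = 1 := by simp [hu, ht]
        rw [this]
        exact ⟨1, Subgroup.one_mem _, 1, by simp, Ct.nil _⟩
      | succ k ih =>
        intro hk
        have hk' : k < n := by omega
        rw [hus k hk']
        exact gl_trans (ih hk'.le) subset_rfl (hstep k hk')
    have h1 := hgoal n le_rfl
    have hcGoal : Gl (P : Subgroup G) N₁ C₁ A c := ⟨c, hcA, 1, by simp, Ct.nil _⟩
    have h2 := gl_trans hcGoal (B := A) (by
      rintro _ ⟨x, hx, rfl⟩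
      have h3 := Subgroup.mem_centralizer_iff.mp hcA x hx
      have e : c⁻¹ * x * c = x := by
        calc c⁻¹ * x * c = c⁻¹ * (x * c) := by group
          _ = c⁻¹ * (c * x) := by rw [h3]
          _ = x := by group
      show c⁻¹ * x * c ∈ A
      rw [e]
      exact hx) h1
    have e : c * u n = y := by
      have h3 : t n = (List.ofFn b).prod := by
        simp only [ht]
        rw [List.take_of_length_le (by simp)]
      have h4 : y = K * a₀ * K⁻¹ := by
        rw [ha₀]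
        group
      rw [h4, hprod, hc]
      simp only [hu]
      rw [h3]
      group
    rwa [e] at h2
  obtain ⟨c, hc, b, rfl, hb⟩ := main
  obtain ⟨n, f, hf, hprod, hk⟩ := hb.exists_list hX
  refine ⟨c, hc, n, f, hf, by rw [hprod], fun k hkn => ?_⟩
  rintro _ ⟨_, ⟨x, hx, rfl⟩, rfl⟩
  have h3 := Subgroup.mem_centralizer_iff.mp hc x hx
  have e : c⁻¹ * x * c = x := by
    calc c⁻¹ * x * c = c⁻¹ * (x * c) := by group
      _ = c⁻¹ * (c * x) := by rw [h3]
      _ = x := by group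
  show (((List.ofFn f).take k).prod)⁻¹ * (c⁻¹ * x * c) * ((List.ofFn f).take k).prod ∈ _
  rw [e]
  exact hk k hkn ⟨x, hx, rfl⟩

end Cfsg.Agent.S2002
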