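import Mathlib
import Cfsg.Statements.S2007
import Cfsg.Agent.Lib.PResid
import Cfsg.Agent.Lib.PComplement

set_option autoImplicit false
open Cfsg

namespace Cfsg.Agent.S2007

open Cfsg.Agent.Lib.PResid

/-- Let p be a prime, G a finite group with Sylow p-subgroup S, and T a normal subgroup of S containing C_S(T). If N_G(T)/C_G(T) is a p-group (every element of N_G(T) of order prime to p centralizes T), then N_G(T) has a normal p-complement. -/
theorem result {G : Type*} [Group G] [Finite G] {p : ℕ} [Fact p.Prime] (S : Sylow p G) (T : Subgroup G) (hTS : T ≤ (S : Subgroup G)) (hTn : (S : Subgroup G) ≤ Subgroup.normalizer ((T : Subgroup G) : Set G)) (hC : (S : Subgroup G) ⊓ Subgroup.centralizer ((T : Subgroup G) : Set G) ≤ T) (hN : ∀ g ∈ Subgroup.normalizer ((T : Subgroup G) : Set G), (orderOf g).Coprime p → g ∈ Subgroup.centralizer ((T : Subgroup G) : Set G)) : Cfsg.HasNormalPComplement p ↥(Subgroup.normalizer ((T : Subgroup G) : Set G)) := by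
  classical
  set N := Subgroup.normalizer ((T : Subgroup G) : Set G) with hNdef
  set C := Subgroup.centralizer ((T : Subgroup G) : Set G) with hCdef
  rw [Cfsg.Agent.Lib.PComplement.hasNormalPComplement_iff_forall]
  intro Q hQ g hg hgc
  have hg1 : (g : G) ∈ C := hN g g.2 (by simpa [Subgroup.orderOf_coe] using hgc)
  -- `C` is normalized by `N`
  have hCN : ∀ n ∈ N, ∀ x ∈ C, n * x * n⁻¹ ∈ C := by
    intro n hn x hx
    rw [hCdef, Subgroup.mem_centralizer_iff]
    intro t ht
    have h1 : n⁻¹ * t * n ∈ T := by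
      have := (Subgroup.mem_normalizer_iff.mp (N.inv_mem hn) t).mp ht
      simpa using this
    have h2 := (Subgroup.mem_centralizer_iff.mp hx) _ h1
    have : t * (n * x * n⁻¹) = n * ((n⁻¹ * t * n) * x) * n⁻¹ := by group
    rw [this, h2]; group
  -- Sylow of `N` and conjugation into it
  let S' : Sylow p N := S.subtype hTn
  have hS' : ∀ x : N, x ∈ (S' : Subgroup N) ↔ (x : G) ∈ (S : Subgroup G) := by
    intro x
    rw [S.coe_subtype hTn, Subgroup.mem_subgroupOf]
  obtain ⟨U, hU⟩ := hQ.exists_le_sylow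
  obtain ⟨n, hn⟩ := exists_conj_sylow S' U
  rw [Subgroup.mem_centralizer_iff]
  intro q hq
  -- the commutator
  set c : N := q⁻¹ * (g * q * g⁻¹) with hc
  have hcQ : c ∈ Q := by
    refine Q.mul_mem (Q.inv_mem hq) ?_
    exact (Subgroup.mem_normalizer_iff.mp hg q).mp hq
  have hcC : (c : G) ∈ C := by
    have e : (c : G) = ((q : G)⁻¹ * g * (q : G)) * (g : G)⁻¹ := by
      simp only [hc, Subgroup.coe_mul, Subgroup.coe_inv]; group
    rw [e]
    refine C.mul_mem ?_ (C.inv_mem hg1)
    have := hCN _ (N.inv_mem q.2) _ hg1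
    simpa using this
  have hcU : c ∈ (U : Subgroup N) := hU hcQ
  rw [hn, mem_conj_map] at hcU
  have hc2 : ((n⁻¹ * c * n : N) : G) ∈ (S : Subgroup G) := (hS' _).mp hcU
  have hc3 : ((n⁻¹ * c * n : N) : G) ∈ C := by
    have := hCN _ (N.inv_mem n.2) _ hcC
    simpa using this
  have hc4 : ((n⁻¹ * c * n : N) : G) ∈ T := hC ⟨hc2, hc3⟩
  have hcT : (c : G) ∈ T := by
    have := (Subgroup.mem_normalizer_iff.mp n.2 _).mp hc4
    have e : (n : G) * ((n⁻¹ * c * n : N) : G) * (n : G)⁻¹ = c := by
      simp only [Subgroup.coe_mul, Subgroup.coe_inv]; group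
    rwa [e] at this
  have hcomm : Commute c g := by
    apply Subtype.ext
    exact (Subgroup.mem_centralizer_iff.mp hg1) _ hcT
  have hcp : ∃ m : ℕ, c ^ p ^ m = 1 := exists_pow_eq_one_of_isPGroup hQ hcQ
  have h1 := eq_one_of_conj_eq_mul hgc hcp hcomm (r := q) (by rw [hc]; group)
  have h2 : g * q * g⁻¹ = q := by
    have : q * c = g * q * g⁻¹ := by rw [hc]; group
    rw [← this, h1, mul_one]
  calc q * g = (g * q * g⁻¹) * g := by rw [h2]
    _ = g * q := by group

end Cfsg.Agent.S2007
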