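import Mathlib
import Cfsg.Statements.S2015
import Cfsg.Agent.Lib.KInfLocal

set_option autoImplicit false
universe u
open Cfsg

namespace Cfsg.Agent.S2015

open Cfsg.Agent.Lib.SecFunctor Cfsg.Agent.Lib.TransferRed Cfsg.Agent.Lib.PCore Cfsg.Agent.Lib.TransferLocal Cfsg.Agent.Lib.KInf Cfsg.Agent.Lib.KInfLocal

/-- For p ≥ 5, every finite p-group P has a characteristic subgroup K containing Z(P), depending only on P, whose normalizer controls transfer wherever P is a Sylow subgroup: for every finite group G and every embedding ι of P onto a Sylow p-subgroup of G, the intersection of ι(P) with the derived subgroup of G equals its intersection with the derived subgroup of N_G(ι(K)). -/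
theorem result (p : ℕ) [Fact p.Prime] (hp : 5 ≤ p) (P : Type u) [Group P] [Finite P] (hP : IsPGroup p P) : ∃ K : Subgroup P, K.Characteristic ∧ Subgroup.center P ≤ K ∧ ∀ (G : Type u) [Group G] [Finite G] (ι : P →* G), Function.Injective ι → (∃ T : Sylow p G, (T : Subgroup G) = ι.range) → ι.range ⊓ commutator G = ι.range ⊓ (commutator ↥(Subgroup.normalizer ((K.map ι : Subgroup G) : Set G))).map (Subgroup.normalizer ((K.map ι : Subgroup G) : Set G)).subtype := by
  refine ⟨kInfLower P, ?_, center_le_kInfLower hP, ?_⟩
  · rw [Subgroup.characteristic_iff_map_eq]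
    intro φ
    exact kInfLower_map_equiv φ
  · intro G _ _ ι hι ⟨T, hT⟩
    let e : P ≃* (T : Subgroup G) := (MonoidHom.ofInjective hι).trans (MulEquiv.subgroupCongr hT.symm)
    have he : ∀ x, ((e x : (T : Subgroup G)) : G) = ι x := fun x => rfl
    have h1 : (kInfLower P).map ι = inducedFunctor kInfLower (T : Subgroup G) := by
      show _ = (kInfLower (T : Subgroup G)).map (T : Subgroup G).subtype
      rw [← kInfLower_map_equiv e]
      ext y
      constructor
      · rintro ⟨x, hx, rfl⟩
        exact ⟨e x, ⟨x, hx, rfl⟩, he x⟩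
      · rintro ⟨_, ⟨x, hx, rfl⟩, rfl⟩
        exact ⟨x, hx, (he x).symm⟩
    have h2 := ft_of_five hp kInfLower (Or.inl rfl) G T
    rw [TT_singleton, ← h1, hT] at h2
    rw [Subgroup.map_subtype_commutator]
    apply le_antisymm
    · exact h2
    · exact inf_le_inf_left _ (Subgroup.commutator_mono le_top le_top)

end Cfsg.Agent.S2015
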