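import Mathlib
import Cfsg.Statements.S2135
import Cfsg.Agent.Lib.J3Cent
import Cfsg.Agent.Lib.CentShape
import Cfsg.Agent.Lib.J3TransportU
-- import your own Cfsg.Agent.* helpers here

set_option autoImplicit false
open Cfsg

namespace Cfsg.Agent.S2135

/-- For any field with 4 elements and any element ω of it with ω² + ω + 1 = 0: in the Janko group J₃ (the group generated by explicit 9 × 9 matrices over that field built from ω, taken modulo its centre) all involutions are conjugate, and the centraliser C of an involution has a normal extraspecial subgroup Q of order 32 containing no elementary abelian subgroup of order 8, complemented in C, with C / Q isomorphic to the alternating group of degree 5 (shape 2^{1+4}_-:A₅). -/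
theorem result {F : Type*} [Field F] [Fintype F] (hF : Fintype.card F = 4) (ω : F) (hω : ω ^ 2 + ω + 1 = 0) : (∀ x y : Cfsg.Spor.J3 F ω, orderOf x = 2 → orderOf y = 2 → IsConj x y) ∧ ∃ t : Cfsg.Spor.J3 F ω, orderOf t = 2 ∧ ∃ (Q : Subgroup ↥(Subgroup.centralizer ({t} : Set (Cfsg.Spor.J3 F ω)))) (_ : Q.Normal), Cfsg.IsExtraspecial 2 Q ∧ Nat.card Q = 32 ∧ (∀ E : Subgroup Q, Cfsg.IsElementaryAbelian 2 E → Nat.card E ≤ 2 ^ 2) ∧ (∃ H : Subgroup ↥(Subgroup.centralizer ({t} : Set (Cfsg.Spor.J3 F ω))), Q.IsComplement' H) ∧ Nonempty (↥(Subgroup.centralizer ({t} : Set (Cfsg.Spor.J3 F ω))) ⧸ Q ≃* ↥(alternatingGroup (Fin 5))) := by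
  classical
  let e : Cfsg.Spor.J3 F ω ≃* Cfsg.Agent.Lib.J3Out.J := (Cfsg.Agent.Lib.J3TransportU.quotEquiv
    (Cfsg.Agent.Lib.J3TransportU.coverEquiv (Cfsg.Agent.Lib.J3TransportU.fEquiv hF ω hω) ω
      (Cfsg.Agent.Lib.J3TransportU.fEquiv_w hF ω hω))).symm
  obtain ⟨h1, t, ht, Q, hQ, hex, hc, hel, ⟨H, hH⟩, ⟨iso⟩⟩ := Cfsg.Agent.Lib.J3Cent.main
  haveI := hQ
  let ψ := Cfsg.Agent.Lib.CentShape.centEquiv e t
  refine ⟨?_, e.symm t, ?_, Q.comap ψ.toMonoidHom, Subgroup.Normal.comap hQ _, ?_, ?_, ?_,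
    ⟨H.comap ψ.toMonoidHom, Cfsg.Agent.Lib.CentShape.isComplement'_comap ψ hH⟩,
    ⟨(Cfsg.Agent.Lib.CentShape.quotComapEquiv ψ Q).trans iso⟩⟩
  · intro x y hx hy
    have h2 := h1 (e x) (e y) (by rw [MulEquiv.orderOf_eq]; exact hx) (by rw [MulEquiv.orderOf_eq]; exact hy)
    rw [isConj_iff] at h2 ⊢
    obtain ⟨c, hc'⟩ := h2
    refine ⟨e.symm c, ?_⟩
    apply e.injective
    simpa using hc'
  · rw [MulEquiv.orderOf_eq]
    exact ht
  · exact Cfsg.Agent.Lib.CentShape.isExtraspecial_of_equiv (Cfsg.Agent.Lib.CentShape.comapEquiv ψ Q) hex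
  · rw [← hc]
    exact Nat.card_congr (Cfsg.Agent.Lib.CentShape.comapEquiv ψ Q).toEquiv
  · exact Cfsg.Agent.Lib.CentShape.elem_comap (Cfsg.Agent.Lib.CentShape.comapEquiv ψ Q) hel

end Cfsg.Agent.S2135
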