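import Mathlib
import Cfsg.Statements.S2162

set_option autoImplicit false
open Cfsg

namespace Cfsg.Agent.S2162

section Basis

variable {F : Type*} [Field F] {V : Type*} [AddCommGroup V] [Module F V] [FiniteDimensional F V]

/-- A square-zero endomorphism has a basis adapted to it: `w_i ↦ N w_i` and the rest killed. -/
theorem exists_adapted_basis (N : V →ₗ[F] V) (hN : N ∘ₗ N = 0) (ℓ n : ℕ) (hpos : 0 < ℓ)
    (hℓ : Module.finrank F (LinearMap.range N) = ℓ) (hn : Module.finrank F V = n) :
    ∃ b : Module.Basis (Fin ℓ ⊕ Fin (n - 2 * ℓ) ⊕ Fin ℓ) F V,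
      (∀ i, N (b (Sum.inl i)) = b (Sum.inr (Sum.inr i))) ∧
      (∀ k, N (b (Sum.inr (Sum.inl k))) = 0) ∧
      (∀ i, N (b (Sum.inr (Sum.inr i))) = 0) := by
  classical
  have hRK : LinearMap.range N ≤ LinearMap.ker N := by
    rintro _ ⟨x, rfl⟩
    have := LinearMap.congr_fun hN x
    simpa using this
  have hrk := LinearMap.finrank_range_add_finrank_ker N
  have hker : Module.finrank F (LinearMap.ker N) = n - ℓ := by omega
  have hle := Submodule.finrank_mono hRK
  have h2l : 2 * ℓ ≤ n := by omega
  -- basis of the range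
  let r : Module.Basis (Fin ℓ) F (LinearMap.range N) := Module.finBasisOfFinrankEq F _ hℓ
  have hsurj : ∀ i, ∃ w : V, N w = r i := fun i => (r i).2
  choose w hw using hsurj
  -- complement of the range in the kernel
  let K := LinearMap.ker N
  let R' : Submodule F K := (LinearMap.range N).comap K.subtype
  obtain ⟨C, hC⟩ := Submodule.exists_isCompl R'
  have hR' : Module.finrank F R' = ℓ := by
    rw [← hℓ]
    exact (Submodule.comapSubtypeEquivOfLe hRK).finrank_eq
  have hCfin : Module.finrank F C = n - 2 * ℓ := by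
    have := Submodule.finrank_add_eq_of_isCompl hC
    have hK : Module.finrank F K = n - ℓ := hker
    omega
  let c : Module.Basis (Fin (n - 2 * ℓ)) F C := Module.finBasisOfFinrankEq F _ hCfin
  let f : (Fin ℓ ⊕ Fin (n - 2 * ℓ) ⊕ Fin ℓ) → V :=
    Sum.elim w (Sum.elim (fun k => ((c k : K) : V)) (fun i => (r i : V)))
  have hNc : ∀ k, N ((c k : K) : V) = 0 := fun k => ((c k : K)).2
  have hNr : ∀ i, N (r i : V) = 0 := fun i => hRK (r i).2
  have hf : LinearIndependent F f := by
    rw [Fintype.linearIndependent_iff]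
    intro g hg
    rw [Fintype.sum_sum_type, Fintype.sum_sum_type] at hg
    simp only [f, Sum.elim_inl, Sum.elim_inr] at hg
    -- apply N
    have h1 : ∑ i, g (Sum.inl i) • (r i : LinearMap.range N) = 0 := by
      apply Subtype.ext
      have := congrArg N hg
      simp only [map_add, map_sum, map_smul, hw, hNc, hNr, smul_zero, Finset.sum_const_zero,
        add_zero, map_zero] at this
      simpa using this
    have hα : ∀ i, g (Sum.inl i) = 0 := by
      have := Fintype.linearIndependent_iff.mp r.linearIndependent _ h1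
      exact this
    simp only [hα, zero_smul, Finset.sum_const_zero, zero_add] at hg
    -- split by complement
    set xC : C := ∑ k, g (Sum.inr (Sum.inl k)) • c k with hxC
    let xR : K := ∑ i, g (Sum.inr (Sum.inr i)) • (⟨(r i : V), hRK (r i).2⟩ : K)
    have hxRmem : xR ∈ R' := by
      apply Submodule.sum_mem
      intro i _
      apply Submodule.smul_mem
      exact (r i).2
    have hsum : (xC : K) + xR = 0 := by
      apply Subtype.ext
      simpa [xR, hxC] using hg
    have hxCR : (xC : K) ∈ R' := by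
      have : (xC : K) = -xR := eq_neg_of_add_eq_zero_left hsum
      rw [this]
      exact R'.neg_mem hxRmem
    have hx0 : (xC : K) = 0 := by
      have := (Submodule.disjoint_def.mp hC.disjoint) _ hxCR xC.2
      exact this
    have hxC0 : xC = 0 := Subtype.ext hx0
    have hβ : ∀ k, g (Sum.inr (Sum.inl k)) = 0 :=
      Fintype.linearIndependent_iff.mp c.linearIndependent _ hxC0
    have hγ0 : ∑ i, g (Sum.inr (Sum.inr i)) • (r i : LinearMap.range N) = 0 := by
      apply Subtype.ext
      have hxR0 : xR = 0 := by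
        have := hsum
        rw [hx0, zero_add] at this
        exact this
      have := congrArg (fun x : K => (x : V)) hxR0
      simpa [xR] using this
    have hγ : ∀ i, g (Sum.inr (Sum.inr i)) = 0 :=
      Fintype.linearIndependent_iff.mp r.linearIndependent _ hγ0
    rintro (i | k | i)
    · exact hα i
    · exact hβ k
    · exact hγ i
  have hcard : Fintype.card (Fin ℓ ⊕ Fin (n - 2 * ℓ) ⊕ Fin ℓ) = Module.finrank F V := by
    simp only [Fintype.card_sum, Fintype.card_fin]
    omega
  haveI : Nonempty (Fin ℓ ⊕ Fin (n - 2 * ℓ) ⊕ Fin ℓ) := ⟨Sum.inl ⟨0, hpos⟩⟩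
  let b := basisOfLinearIndependentOfCardEqFinrank hf hcard
  refine ⟨b, ?_, ?_, ?_⟩
  · intro i
    simp [b, coe_basisOfLinearIndependentOfCardEqFinrank, f, hw]
  · intro k
    simp [b, coe_basisOfLinearIndependentOfCardEqFinrank, f, hNc]
  · intro i
    simp [b, coe_basisOfLinearIndependentOfCardEqFinrank, f, hNr]

end Basis

variable {F : Type*} [Field F] [Fintype F] [CharP F 2] {n : ℕ}

theorem sq_sub_one_eq_zero (a : Matrix (Fin n) (Fin n) F) (ha : a * a = 1) :
    (a - 1) * (a - 1) = 0 := by
  have h2F : (2 : F) = 0 := by exact_mod_cast CharP.cast_eq_zero F 2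
  have : (a - 1) * (a - 1) = a * a - (2 : F) • a + 1 := by
    rw [two_smul]; noncomm_ring
  rw [this, ha, h2F, zero_smul, sub_zero]
  have h1 : (1 : Matrix (Fin n) (Fin n) F) + 1 = (2 : F) • 1 := by rw [two_smul]
  rw [h1, h2F, zero_smul]

/-- The key existence: two square-zero matrices of the same positive rank are conjugate by a
determinant-one matrix. -/
theorem exists_conj_det_one (A B : Matrix (Fin n) (Fin n) F)
    (hA : A * A = 0) (hB : B * B = 0) (hr : A.rank = B.rank) (hpos : 0 < A.rank) :
    ∃ G : Matrix (Fin n) (Fin n) F, G.det = 1 ∧ G * A = B * G := by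
  classical
  set ℓ := A.rank with hℓ
  have hAA : A.mulVecLin ∘ₗ A.mulVecLin = 0 := by
    rw [← Matrix.mulVecLin_mul, hA, Matrix.mulVecLin_zero]
  have hBB : B.mulVecLin ∘ₗ B.mulVecLin = 0 := by
    rw [← Matrix.mulVecLin_mul, hB, Matrix.mulVecLin_zero]
  have hfin : Module.finrank F (Fin n → F) = n := by simp
  obtain ⟨ba, ha1, ha2, ha3⟩ := exists_adapted_basis A.mulVecLin hAA ℓ n hpos rfl hfin
  obtain ⟨bb, hb1, hb2, hb3⟩ := exists_adapted_basis B.mulVecLin hBB ℓ n hpos hr.symm hfin
  let i0 : Fin ℓ := ⟨0, hpos⟩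
  -- the first equivalence
  let g₀ : (Fin n → F) ≃ₗ[F] (Fin n → F) := ba.equiv bb (Equiv.refl _)
  have hg₀ : ∀ t, g₀ (ba t) = bb t := fun t => by simp [g₀]
  have hδ : LinearMap.det (g₀ : (Fin n → F) →ₗ[F] (Fin n → F)) ≠ 0 := by
    exact (LinearEquiv.isUnit_det' g₀).ne_zero
  obtain ⟨c, hc⟩ := isSquare_of_charTwo' (LinearMap.det (g₀ : (Fin n → F) →ₗ[F] (Fin n → F)))⁻¹
  have hc0 : c ≠ 0 := by
    intro h
    rw [h, mul_zero] at hc
    exact (inv_ne_zero hδ) hc
  -- scaling
  let e : (Fin ℓ ⊕ Fin (n - 2 * ℓ) ⊕ Fin ℓ) → F :=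
    Sum.elim (fun i => if i = i0 then c else 1)
      (Sum.elim (fun _ => 1) (fun i => if i = i0 then c else 1))
  let z : (Fin n → F) →ₗ[F] (Fin n → F) := ba.constr F (fun t => e t • ba t)
  have hz : ∀ t, z (ba t) = e t • ba t := fun t => by simp [z, Module.Basis.constr_basis]
  have hzdet : LinearMap.det z = c * c := by
    rw [← LinearMap.det_toMatrix ba z]
    have : LinearMap.toMatrix ba ba z = Matrix.diagonal e := by
      ext i j
      rw [LinearMap.toMatrix_apply, hz, Matrix.diagonal_apply]
      simp only [map_smul, Module.Basis.repr_self, Finsupp.smul_single, smul_eq_mul, mul_one]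
      by_cases hij : i = j
      · subst hij; simp
      · rw [if_neg hij, Finsupp.single_apply, if_neg (fun h => hij h.symm)]
    rw [this, Matrix.det_diagonal, Fintype.prod_sum_type, Fintype.prod_sum_type]
    simp [e, Finset.prod_ite_eq']
  -- z commutes with A
  have hzA : ∀ v, z (A.mulVecLin v) = A.mulVecLin (z v) := by
    intro v
    have h : z ∘ₗ A.mulVecLin = A.mulVecLin ∘ₗ z := by
      apply ba.ext
      rintro (i | k | i)
      · simp only [LinearMap.comp_apply, ha1, hz, map_smul]
        simp [e]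
      · simp only [LinearMap.comp_apply, ha2, hz, map_smul, map_zero, smul_zero]
      · simp only [LinearMap.comp_apply, ha3, hz, map_smul, map_zero, smul_zero]
    exact LinearMap.congr_fun h v
  -- g₀ intertwines
  have hgA : ∀ v, g₀ (A.mulVecLin v) = B.mulVecLin (g₀ v) := by
    intro v
    have h : (g₀ : (Fin n → F) →ₗ[F] (Fin n → F)) ∘ₗ A.mulVecLin =
        B.mulVecLin ∘ₗ (g₀ : (Fin n → F) →ₗ[F] (Fin n → F)) := by
      apply ba.ext
      rintro (i | k | i)
      · simp only [LinearMap.comp_apply, ha1, LinearEquiv.coe_coe, hg₀, hb1]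
      · simp only [LinearMap.comp_apply, ha2, LinearEquiv.coe_coe, hg₀, hb2, map_zero]
      · simp only [LinearMap.comp_apply, ha3, LinearEquiv.coe_coe, hg₀, hb3, map_zero]
    exact LinearMap.congr_fun h v
  let G' : (Fin n → F) →ₗ[F] (Fin n → F) := (g₀ : (Fin n → F) →ₗ[F] (Fin n → F)) ∘ₗ z
  refine ⟨LinearMap.toMatrix' G', ?_, ?_⟩
  · rw [LinearMap.det_toMatrix', LinearMap.det_comp, hzdet, ← hc, mul_inv_cancel₀ hδ]
  · apply Matrix.toLin'.injective
    apply LinearMap.ext
    intro v
    simp only [Matrix.toLin'_mul, LinearMap.comp_apply, Matrix.toLin'_toMatrix']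
    show G' (A.mulVecLin v) = B.mulVecLin (G' v)
    simp only [G', LinearMap.comp_apply, LinearEquiv.coe_coe, hzA, hgA]

/-- Conjugacy of involutions in the special linear group over a finite field of characteristic two, in dimension at least 3: two elements of order 2 of SL_n(F) are conjugate in SL_n(F) exactly when the matrices a − 1 and b − 1 have the same rank (the rank of a − 1 is the dimension of the commutator space [V, a]). -/
theorem result {F : Type*} [Field F] [Fintype F] [CharP F 2] {n : ℕ} (hn : 3 ≤ n) (a b : Matrix.SpecialLinearGroup (Fin n) F) (ha : orderOf a = 2) (hb : orderOf b = 2) :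
    IsConj a b ↔ ((a : Matrix (Fin n) (Fin n) F) - 1).rank = ((b : Matrix (Fin n) (Fin n) F) - 1).rank := by
  constructor
  · intro h
    obtain ⟨c, rfl⟩ := isConj_iff.mp h
    have hdet : IsUnit (c : Matrix (Fin n) (Fin n) F).det := by simp
    have hdet' : IsUnit ((c⁻¹ : Matrix.SpecialLinearGroup (Fin n) F) : Matrix (Fin n) (Fin n) F).det := by
      rw [Matrix.SpecialLinearGroup.det_coe]; exact isUnit_one
    have : (((c * a * c⁻¹ : Matrix.SpecialLinearGroup (Fin n) F) : Matrix (Fin n) (Fin n) F) - 1) =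
        (c : Matrix (Fin n) (Fin n) F) * ((a : Matrix (Fin n) (Fin n) F) - 1) *
          ((c⁻¹ : Matrix.SpecialLinearGroup (Fin n) F) : Matrix (Fin n) (Fin n) F) := by
      have hcc : (c : Matrix (Fin n) (Fin n) F) * ((c⁻¹ : Matrix.SpecialLinearGroup (Fin n) F) : Matrix (Fin n) (Fin n) F) = 1 := by
        rw [← Matrix.SpecialLinearGroup.coe_mul, mul_inv_cancel, Matrix.SpecialLinearGroup.coe_one]
      rw [Matrix.SpecialLinearGroup.coe_mul, Matrix.SpecialLinearGroup.coe_mul, mul_sub, sub_mul, mul_one, hcc]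
    rw [this, Matrix.rank_mul_eq_left_of_isUnit_det _ _ hdet', Matrix.rank_mul_eq_right_of_isUnit_det _ _ hdet]
  · intro hr
    have ha2 : (a : Matrix (Fin n) (Fin n) F) * a = 1 := by
      have := pow_orderOf_eq_one a
      rw [ha, pow_two] at this
      rw [← Matrix.SpecialLinearGroup.coe_mul, this, Matrix.SpecialLinearGroup.coe_one]
    have hb2 : (b : Matrix (Fin n) (Fin n) F) * b = 1 := by
      have := pow_orderOf_eq_one b
      rw [hb, pow_two] at this
      rw [← Matrix.SpecialLinearGroup.coe_mul, this, Matrix.SpecialLinearGroup.coe_one]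
    have hpos : 0 < ((a : Matrix (Fin n) (Fin n) F) - 1).rank := by
      rw [Nat.pos_iff_ne_zero]
      intro h0
      have h1 : ((a : Matrix (Fin n) (Fin n) F) - 1) = 0 := by
        rw [Matrix.rank, Submodule.finrank_eq_zero, LinearMap.range_eq_bot] at h0
        apply Matrix.toLin'.injective
        rw [Matrix.toLin'_apply', h0, map_zero]
      have h2 : a = 1 := by
        apply Subtype.ext
        rw [Matrix.SpecialLinearGroup.coe_one]
        exact sub_eq_zero.mp h1
      rw [h2, orderOf_one] at ha
      omega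
    obtain ⟨G, hGdet, hG⟩ := exists_conj_det_one _ _ (sq_sub_one_eq_zero _ ha2)
      (sq_sub_one_eq_zero _ hb2) hr hpos
    let g : Matrix.SpecialLinearGroup (Fin n) F := ⟨G, hGdet⟩
    have hg : (g : Matrix (Fin n) (Fin n) F) = G := rfl
    rw [isConj_iff]
    refine ⟨g, ?_⟩
    rw [mul_inv_eq_iff_eq_mul]
    apply Subtype.ext
    rw [Matrix.SpecialLinearGroup.coe_mul, Matrix.SpecialLinearGroup.coe_mul, hg]
    have : G * (a : Matrix (Fin n) (Fin n) F) - G = (b : Matrix (Fin n) (Fin n) F) * G - G := by
      have := hG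
      rw [mul_sub, sub_mul, mul_one, one_mul] at this
      exact this
    exact sub_left_injective this

end Cfsg.Agent.S2162
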