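import Mathlib
import Cfsg.Statements.S2163

set_option autoImplicit false
open Cfsg

namespace Cfsg.Agent.S2163

/-- The lower left block matrix. -/
def blockB (F : Type*) [Field F] (n ℓ : ℕ) : Matrix (Fin n) (Fin n) F :=
  Matrix.of (fun i j : Fin n => if j.val < ℓ ∧ i.val = j.val + (n - ℓ) then (1 : F) else 0)

theorem blockB_sq {F : Type*} [Field F] {n ℓ : ℕ} (h2 : 2 * ℓ ≤ n) :
    blockB F n ℓ * blockB F n ℓ = 0 := by
  ext i j
  simp only [Matrix.mul_apply, blockB, Matrix.of_apply, Matrix.zero_apply]
  apply Finset.sum_eq_zero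
  intro k _
  by_cases h1 : k.val < ℓ ∧ i.val = k.val + (n - ℓ)
  · by_cases h3 : j.val < ℓ ∧ k.val = j.val + (n - ℓ)
    · exfalso
      omega
    · simp [h3]
  · simp [h1]

theorem det_one_add_blockB {F : Type*} [Field F] {n ℓ : ℕ} (h1 : 1 ≤ ℓ) (h2 : 2 * ℓ ≤ n) :
    (1 + blockB F n ℓ).det = 1 := by
  rw [Matrix.det_of_isLowerTriangular]
  · apply Finset.prod_eq_one
    intro i _
    simp only [Matrix.add_apply, Matrix.one_apply_eq, blockB, Matrix.of_apply]
    have : ¬ (i.val < ℓ ∧ i.val = i.val + (n - ℓ)) := by omega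
    rw [if_neg this, add_zero]
  · intro i j hij
    simp only [Matrix.add_apply, blockB, Matrix.of_apply]
    have hne : i ≠ j := ne_of_lt hij
    have : ¬ (j.val < ℓ ∧ i.val = j.val + (n - ℓ)) := by
      have : i.val < j.val := hij
      omega
    simp [this, Matrix.one_apply_ne hne]

theorem rank_blockB {F : Type*} [Field F] {n ℓ : ℕ} (h1 : 1 ≤ ℓ) (h2 : 2 * ℓ ≤ n) :
    (blockB F n ℓ).rank = ℓ := by
  classical
  have hcol : ∀ j : Fin n, (blockB F n ℓ).col j =
      if h : j.val < ℓ then Pi.single ⟨j.val + (n - ℓ), by omega⟩ 1 else 0 := by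
    intro j
    ext i
    simp only [Matrix.col, blockB, Matrix.of_apply, Matrix.transpose_apply]
    split_ifs with h3 h4 h4
    · simp only [Pi.single_apply]
      rw [if_pos]
      exact Fin.ext h3.2
    · exact absurd h3.1 h4
    · simp only [Pi.single_apply]
      rw [if_neg]
      intro h5
      apply h3
      refine ⟨h4, ?_⟩
      rw [h5]
    · simp
  rw [Matrix.rank_eq_finrank_span_cols]
  let emb : Fin ℓ → Fin n := fun j => ⟨j.val + (n - ℓ), by omega⟩
  let v : Fin ℓ → (Fin n → F) := fun j => Pi.single (emb j) 1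
  have hv : LinearIndependent F v := by
    have hinj : Function.Injective emb := by
      intro a b hab
      simp only [emb, Fin.mk.injEq] at hab
      apply Fin.ext
      omega
    have := (Pi.basisFun F (Fin n)).linearIndependent.comp emb hinj
    convert this using 1
    ext j i
    simp [v, Pi.basisFun_apply]
  have hspan : Submodule.span F (Set.range (blockB F n ℓ).col) = Submodule.span F (Set.range v) := by
    apply le_antisymm
    · apply Submodule.span_le.mpr
      rintro _ ⟨j, rfl⟩
      rw [hcol]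
      split_ifs with h
      · exact Submodule.subset_span ⟨⟨j.val, h⟩, rfl⟩
      · exact Submodule.zero_mem _
    · apply Submodule.span_le.mpr
      rintro _ ⟨j, rfl⟩
      apply Submodule.subset_span
      refine ⟨⟨j.val, by omega⟩, ?_⟩
      rw [hcol]
      simp [j.isLt, v, emb]
  rw [hspan, finrank_span_eq_card hv]
  simp

/-- Over a finite field of characteristic two and for n ≥ 3: for every ℓ with 1 ≤ ℓ and 2ℓ ≤ n, the matrix j_ℓ that is the identity plus the entries 1 in positions (n − ℓ + i, i) for i < ℓ (an identity block of size ℓ in the lower left corner) lies in SL_n(F), has order 2, and j_ℓ − 1 has rank ℓ. Together with the conjugacy criterion by rank, these matrices represent the conjugacy classes of involutions of SL_n(F). -/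
theorem result {F : Type*} [Field F] [Fintype F] [CharP F 2] {n : ℕ} (hn : 3 ≤ n) (ℓ : ℕ) (h1 : 1 ≤ ℓ) (h2 : 2 * ℓ ≤ n) :
    ∃ a : Matrix.SpecialLinearGroup (Fin n) F, (a : Matrix (Fin n) (Fin n) F) = 1 + Matrix.of (fun i j : Fin n => if j.val < ℓ ∧ i.val = j.val + (n - ℓ) then (1 : F) else 0) ∧ orderOf a = 2 ∧ ((a : Matrix (Fin n) (Fin n) F) - 1).rank = ℓ := by
  let a : Matrix.SpecialLinearGroup (Fin n) F := ⟨1 + blockB F n ℓ, det_one_add_blockB h1 h2⟩
  have hacoe : (a : Matrix (Fin n) (Fin n) F) = 1 + blockB F n ℓ := rfl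
  refine ⟨a, rfl, ?_, ?_⟩
  · apply orderOf_eq_prime
    · rw [pow_two]
      apply Subtype.ext
      rw [Matrix.SpecialLinearGroup.coe_mul, Matrix.SpecialLinearGroup.coe_one, hacoe]
      have h2F : (2 : F) = 0 := by exact_mod_cast CharP.cast_eq_zero F 2
      rw [mul_add, add_mul, add_mul, blockB_sq h2, one_mul, mul_one, one_mul, add_zero, add_assoc,
          ← two_smul F (blockB F n ℓ), h2F, zero_smul, add_zero]
    · intro h
      have h3 : (1 + blockB F n ℓ : Matrix (Fin n) (Fin n) F) = 1 := by
        rw [← hacoe, h, Matrix.SpecialLinearGroup.coe_one]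
      have h4 : blockB F n ℓ = 0 := by simpa using h3
      have hlt : 0 < n - ℓ := by omega
      have := congrFun (congrFun h4 ⟨n - ℓ, by omega⟩) ⟨0, by omega⟩
      simp [blockB] at this
      omega
  · rw [hacoe, add_sub_cancel_left]
    exact rank_blockB h1 h2

end Cfsg.Agent.S2163
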