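import Mathlib
import Cfsg.Statements.S2164
import Cfsg.Agent.Lib.GUParab

set_option autoImplicit false
open Cfsg

namespace Cfsg.Agent.S2164

open Matrix Module
open Cfsg.Agent.Lib.UnitaryBasic Cfsg.Agent.Lib.UnitarySU Cfsg.Agent.Lib.HermFrame
  Cfsg.Agent.Lib.GUParab Cfsg.Agent.Lib.UnitaryE

variable {F : Type*} [Field F] [Fintype F] {n q : ℕ}

theorem two_v [CharP F 2] (x : Fin n → F) : x + x = 0 := by
  funext i
  exact CharTwo.add_self_eq_zero (x i)

section nf

variable [CharP F 2] (hF : Fintype.card F = q ^ 2) {A : Matrix (Fin n) (Fin n) F}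
  (hiso : ∀ u v, hermForm n F q (A *ᵥ u) (A *ᵥ v) = hermForm n F q u v) (hsq : A * A = 1)

include hF hiso hsq in
theorem adj (u v : Fin n → F) :
    hermForm n F q ((A - 1) *ᵥ u) v = hermForm n F q u ((A - 1) *ᵥ v) := by
  have h1 : A *ᵥ (A *ᵥ v) = v := by rw [mulVec_mulVec, hsq, one_mulVec]
  have h2 : hermForm n F q (A *ᵥ u) v = hermForm n F q u (A *ᵥ v) := by
    conv_lhs => rw [← h1]
    exact hiso u (A *ᵥ v)
  rw [sub_mulVec, sub_mulVec, one_mulVec, one_mulVec, herm_sub_left, herm_sub_right hF, h2]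

include hsq in
theorem NN (v : Fin n → F) : (A - 1) *ᵥ ((A - 1) *ᵥ v) = 0 := by
  have h1 : A *ᵥ (A *ᵥ v) = v := by rw [mulVec_mulVec, hsq, one_mulVec]
  simp only [sub_mulVec, one_mulVec, mulVec_sub, h1]
  have h2 : v - A *ᵥ v - (A *ᵥ v - v) = (v + v) - (A *ᵥ v + A *ᵥ v) := by abel
  rw [h2, two_v, two_v, sub_zero]

include hF hiso hsq in
/-- **Normal form of a unitary involution in characteristic two.** -/
theorem exists_nf {d : ℕ} (hd : (A - 1).rank = d) :
    ∃ e f : Fin d → Fin n → F, LinearIndependent F e ∧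
      (∀ i j, hermForm n F q (e i) (e j) = 0) ∧
      (∀ i j, hermForm n F q (e i) (f j) = if i = j then 1 else 0) ∧
      ∀ v, A *ᵥ v = v + ∑ i, hermForm n F q v (e i) • e i := by
  classical
  have hq : q ≠ 0 := by
    have := Cfsg.Agent.Lib.HermCount.two_le_q hF
    omega
  let N := A - 1
  let R : Submodule F (Fin n → F) := LinearMap.range N.mulVecLin
  have hR : finrank F R = d := hd
  let pre : R → (Fin n → F) := fun y => y.2.choose
  have hpre : ∀ y : R, N *ᵥ pre y = y := fun y => y.2.choose_spec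
  have H1 : ∀ x y : R, hermForm n F q x (pre y) = hermForm n F q (pre x) y := by
    intro x y
    conv_lhs => rw [← hpre x]
    rw [adj hF hiso hsq, ← show N *ᵥ pre y = y from hpre y]
  let G : R → R → F := fun x y => hermForm n F q x (pre y)
  have hG : IsHerm q G := by
    refine ⟨?_, ?_, ?_, ?_⟩
    · intro u u' v
      exact herm_add_left _ _ _
    · intro c u v
      exact herm_smul_left _ _ _
    · intro u v
      show (hermForm n F q u (pre v)) ^ q = hermForm n F q v (pre u)
      rw [herm_conj hF, H1]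
    · intro x hx
      apply Subtype.ext
      apply herm_nondeg hF
      intro w
      have hmem : N *ᵥ w ∈ R := ⟨w, rfl⟩
      have h1 := hx ⟨N *ᵥ w, hmem⟩
      have h2 : G x ⟨N *ᵥ w, hmem⟩ = hermForm n F q (pre x) (N *ᵥ w) := H1 x ⟨N *ᵥ w, hmem⟩
      rw [h2] at h1
      conv_lhs => rw [← hpre x]
      rw [adj hF hiso hsq]
      exact h1
  obtain ⟨E, hE⟩ := exists_equiv hF hR hG
  let b : Fin d → R := fun i => E.symm (Pi.single i 1)
  have hGb : ∀ i j, G (b i) (b j) = if i = j then 1 else 0 := by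
    intro i j
    rw [hE]
    simp only [b, LinearEquiv.apply_symm_apply]
    by_cases hij : i = j
    · subst hij
      simp [hermForm, Pi.single_apply, ite_pow, hq]
    · simp [hij, hermForm, Pi.single_apply, ite_pow, hq]
      intro h2
      exact hij h2.symm
  refine ⟨fun i => (b i : Fin n → F), fun i => pre (b i), ?_, ?_, hGb, ?_⟩
  · rw [Fintype.linearIndependent_iff]
    intro g hg i
    have h1 : ∑ j, g j • b j = 0 := by
      apply Subtype.ext
      simpa using hg
    have h2 := congrArg E h1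
    simp only [map_sum, map_smul, b, LinearEquiv.apply_symm_apply, map_zero] at h2
    have h3 := congrFun h2 i
    simpa [Finset.sum_apply, Pi.single_apply] using h3
  · intro i j
    show hermForm n F q (b i : Fin n → F) (b j : Fin n → F) = 0
    rw [← hpre (b i), ← hpre (b j), adj hF hiso hsq]
    show hermForm n F q (pre (b i)) (N *ᵥ (N *ᵥ pre (b j))) = 0
    rw [show N *ᵥ (N *ᵥ pre (b j)) = 0 from NN hsq _]
    simp [hermForm, hq]
  · intro v
    have hAv : A *ᵥ v = v + N *ᵥ v := by
      simp [N, sub_mulVec]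
    rw [hAv]
    congr 1
    let w : R := ⟨N *ᵥ v, ⟨v, rfl⟩⟩
    have hc : ∀ i, (E w) i = hermForm n F q v (b i) := by
      intro i
      have h1 : hermForm d F q (E w) (E (b i)) = (E w) i := by
        simp [b, hermForm, Pi.single_apply, ite_pow, hq]
      rw [← h1, ← hE]
      show hermForm n F q (N *ᵥ v) (pre (b i)) = _
      rw [adj hF hiso hsq]
      congr 1
      exact hpre (b i)
    have h3 : E w = ∑ i, (E w) i • Pi.single i (1 : F) := by
      funext j
      simp [Finset.sum_apply, Pi.single_apply]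
    have h4 : w = ∑ i, (E w) i • b i := by
      apply E.injective
      rw [map_sum]
      simp only [map_smul, b, LinearEquiv.apply_symm_apply]
      exact h3
    have h5 := congrArg (Subtype.val) h4
    simp only [Submodule.coe_sum, Submodule.coe_smul, hc] at h5
    exact h5

end nf

/-- The conjugation computation. -/
theorem mul_eq_of_nf {d : ℕ} {A B X : Matrix (Fin n) (Fin n) F} {e e' : Fin d → Fin n → F}
    (hX : ∀ u v, hermForm n F q (X *ᵥ u) (X *ᵥ v) = hermForm n F q u v)
    (hXe : ∀ i, X *ᵥ e i = e' i)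
    (hA : ∀ v, A *ᵥ v = v + ∑ i, hermForm n F q v (e i) • e i)
    (hB : ∀ v, B *ᵥ v = v + ∑ i, hermForm n F q v (e' i) • e' i) : X * A = B * X := by
  apply Matrix.toLin'.injective
  apply LinearMap.ext
  intro v
  rw [Matrix.toLin'_apply, Matrix.toLin'_apply, ← mulVec_mulVec, ← mulVec_mulVec, hA, hB, mulVec_add,
    mulVec_sum]
  congr 1
  apply Finset.sum_congr rfl
  intro i _
  rw [mulVec_smul, hXe, ← hXe i, hX, hXe]

/-- Same rank gives conjugacy in `SU`. -/
theorem conj_of_rank [CharP F 2] (hF : Fintype.card F = q ^ 2) (a b : ↥(Cfsg.SU n F q))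
    (ha : orderOf a = 2) (hb : orderOf b = 2)
    (hr : (((a : Matrix.SpecialLinearGroup (Fin n) F) : Matrix (Fin n) (Fin n) F) - 1).rank =
      (((b : Matrix.SpecialLinearGroup (Fin n) F) : Matrix (Fin n) (Fin n) F) - 1).rank) :
    IsConj a b := by
  classical
  let A : Matrix (Fin n) (Fin n) F := ((a : Matrix.SpecialLinearGroup (Fin n) F) : Matrix (Fin n) (Fin n) F)
  let B : Matrix (Fin n) (Fin n) F := ((b : Matrix.SpecialLinearGroup (Fin n) F) : Matrix (Fin n) (Fin n) F)
  have hAi : ∀ u v, hermForm n F q (A *ᵥ u) (A *ᵥ v) = hermForm n F q u v := fun u v => a.2 u v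
  have hBi : ∀ u v, hermForm n F q (B *ᵥ u) (B *ᵥ v) = hermForm n F q u v := fun u v => b.2 u v
  have hA2 : A * A = 1 := by
    have h1 : a ^ 2 = 1 := by rw [← ha]; exact pow_orderOf_eq_one a
    have h2 := congrArg (fun x : ↥(Cfsg.SU n F q) => ((x : Matrix.SpecialLinearGroup (Fin n) F) : Matrix (Fin n) (Fin n) F)) h1
    simpa [pow_two] using h2
  have hB2 : B * B = 1 := by
    have h1 : b ^ 2 = 1 := by rw [← hb]; exact pow_orderOf_eq_one b
    have h2 := congrArg (fun x : ↥(Cfsg.SU n F q) => ((x : Matrix.SpecialLinearGroup (Fin n) F) : Matrix (Fin n) (Fin n) F)) h1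
    simpa [pow_two] using h2
  obtain ⟨e, f, he, hee, hef, hnf⟩ := exists_nf hF hAi hA2 (d := (A - 1).rank) rfl
  obtain ⟨e', f', he', hee', hef', hnf'⟩ := exists_nf hF hBi hB2 (d := (A - 1).rank) hr.symm
  -- the rank is positive
  have hpos : 0 < (A - 1).rank := by
    by_contra h0
    have h1 : (A - 1).rank = 0 := by omega
    have h2 : A - 1 = 0 := by
      have h5 : LinearMap.range (A - 1).mulVecLin = ⊥ := Submodule.finrank_eq_zero.1 h1
      apply Matrix.toLin'.injective
      apply LinearMap.ext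
      intro v
      have h6 : (A - 1).mulVecLin v ∈ LinearMap.range (A - 1).mulVecLin := ⟨v, rfl⟩
      rw [h5, Submodule.mem_bot] at h6
      rw [Matrix.toLin'_apply, Matrix.toLin'_apply, zero_mulVec]
      exact h6
    have h3 : A = 1 := sub_eq_zero.1 h2
    have h4 : a = 1 := by
      apply Subtype.ext
      apply Subtype.ext
      exact h3
    rw [h4, orderOf_one] at ha
    omega
  let i₀ : Fin (A - 1).rank := ⟨0, hpos⟩
  obtain ⟨x, hx⟩ := exists_GU_tuple hF e e' he he' (fun i j => by rw [hee, hee'])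
  let μ : F := (x.1 : Matrix (Fin n) (Fin n) F).det
  have hμn : μ * μ ^ q = 1 := nrm_det hF (fun u v => x.2 u v)
  have hμ0 : μ ≠ 0 := by
    intro h0
    rw [h0] at hμn
    simp at hμn
  -- `q` is even
  obtain ⟨t, ht⟩ : ∃ t, q = 2 * t := by
    have hc : ringChar F = 2 := ringChar.eq F 2
    have h1 := FiniteField.even_card_of_char_two hc
    rw [hF] at h1
    have h2 : Even (q ^ 2) := Nat.even_iff.2 h1
    have h3 : Even q := (Nat.even_pow.1 h2).1
    obtain ⟨t, ht⟩ := h3
    exact ⟨t, by omega⟩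
  let m : F := (μ⁻¹) ^ (t + 1)
  have hμ1 : (μ⁻¹) ^ (q + 1) = 1 := by
    have : (μ⁻¹) * (μ⁻¹) ^ q = 1 := by
      rw [inv_pow, ← mul_inv, hμn, inv_one]
    rw [pow_succ, mul_comm]
    exact this
  have hm0 : m ≠ 0 := pow_ne_zero _ (inv_ne_zero hμ0)
  have hmm : m * m ^ q = 1 := by
    have h1 : m * m ^ q = ((μ⁻¹) ^ (q + 1)) ^ (t + 1) := by
      calc m * m ^ q = m ^ (q + 1) := by ring
        _ = _ := by
          simp only [m]
          rw [← pow_mul, ← pow_mul, mul_comm]
    rw [h1, hμ1, one_pow]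
  have hm2 : m * m = μ⁻¹ := by
    have h1 : m * m = (μ⁻¹) ^ (q + 1) * μ⁻¹ := by
      simp only [m]
      rw [← pow_add, ← pow_succ]
      congr 1
      omega
    rw [h1, hμ1, one_mul]
  have hminv : (m ^ q)⁻¹ = m := by
    apply inv_eq_of_mul_eq_one_right
    rw [mul_comm]
    exact hmm
  -- the hyperbolic partner
  let e₀ := e' i₀
  have he₀ : hermForm n F q e₀ e₀ = 0 := hee' i₀ i₀
  have hef₀ : hermForm n F q e₀ (f' i₀) = 1 := by
    rw [hef', if_pos rfl]
  have hfe₀ : hermForm n F q (f' i₀) e₀ = 1 := by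
    rw [← herm_conj hF, hef₀, one_pow]
  have htr : (-hermForm n F q (f' i₀) (f' i₀)) ^ q = -hermForm n F q (f' i₀) (f' i₀) := by
    rw [neg_pow_q hF, herm_conj hF]
  obtain ⟨c, hc⟩ := exists_trace_eq hF htr
  obtain ⟨g, hg⟩ : ∃ g, g = f' i₀ + c • e₀ := ⟨_, rfl⟩
  have hge : hermForm n F q g e₀ = 1 := by
    rw [hg, herm_add_left, herm_smul_left, hfe₀, he₀]
    ring
  have hgg : hermForm n F q g g = 0 := by
    rw [hg, herm_add_left, herm_add_right hF, herm_add_right hF, herm_smul_left,
      herm_smul_left, herm_smul_right, herm_smul_right, hfe₀, hef₀, he₀]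
    linear_combination hc
  have heg : ∀ i, hermForm n F q (e' i) g = if i = i₀ then 1 else 0 := by
    intro i
    rw [hg, herm_add_right hF, herm_smul_right, hef', hee']
    simp
  obtain ⟨y, hy, hdet⟩ := exists_torus_elt hF he₀ hgg hge hm0
  -- the new tuple
  let e'' : Fin (A - 1).rank → Fin n → F := fun i => (y.1 : Matrix (Fin n) (Fin n) F) *ᵥ e' i
  have he'' : ∀ i, e'' i = if i = i₀ then m • e₀ else e' i := by
    intro i
    show (y.1 : Matrix (Fin n) (Fin n) F) *ᵥ e' i = _
    rw [hy, heg, show hermForm n F q (e' i) e₀ = 0 from hee' _ _]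
    by_cases hi : i = i₀
    · subst hi
      simp only [if_true, mul_one, mul_zero, zero_smul, add_zero]
      rw [sub_smul, one_smul]
      show e₀ + (m • e₀ - e₀) = m • e₀
      abel
    · simp [hi]
  have hnf'' : ∀ v, B *ᵥ v = v + ∑ i, hermForm n F q v (e'' i) • e'' i := by
    intro v
    rw [hnf']
    congr 1
    apply Finset.sum_congr rfl
    intro i _
    rw [he'']
    by_cases hi : i = i₀
    · subst hi
      simp only [if_true]
      rw [herm_smul_right, smul_smul]
      have : m ^ q * hermForm n F q v e₀ * m = hermForm n F q v e₀ := by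
        linear_combination (hermForm n F q v e₀) * hmm
      rw [this]
    · simp [hi]
  let Z : Matrix (Fin n) (Fin n) F := (y.1 : Matrix (Fin n) (Fin n) F) * (x.1 : Matrix (Fin n) (Fin n) F)
  have hZi : ∀ u v, hermForm n F q (Z *ᵥ u) (Z *ᵥ v) = hermForm n F q u v := by
    intro u v
    simp only [Z]
    rw [← mulVec_mulVec, ← mulVec_mulVec]
    rw [show hermForm n F q ((y.1 : Matrix (Fin n) (Fin n) F) *ᵥ ((x.1 : Matrix (Fin n) (Fin n) F) *ᵥ u))
      ((y.1 : Matrix (Fin n) (Fin n) F) *ᵥ ((x.1 : Matrix (Fin n) (Fin n) F) *ᵥ v)) = _ from y.2 _ _]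
    exact x.2 u v
  have hZe : ∀ i, Z *ᵥ e i = e'' i := by
    intro i
    simp only [Z]
    rw [← mulVec_mulVec, hx]
  have hZdet : Z.det = 1 := by
    simp only [Z]
    rw [Matrix.det_mul, hdet, hminv, hm2]
    exact inv_mul_cancel₀ hμ0
  have hcomm : Z * A = B * Z := mul_eq_of_nf hZi hZe hnf hnf''
  let s : Matrix.SpecialLinearGroup (Fin n) F := ⟨Z, hZdet⟩
  let g₁ : ↥(Cfsg.SU n F q) := ⟨s, fun u v => hZi u v⟩
  rw [isConj_iff]
  refine ⟨g₁, ?_⟩
  have h1 : g₁ * a = b * g₁ := by
    apply Subtype.ext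
    apply Subtype.ext
    exact hcomm
  rw [h1]
  group

/-- Conjugacy of involutions in the special unitary group SU_n(q), q even, n ≥ 3, realised over the field F with q² elements as the matrices of determinant 1 preserving the form Σ u_i v_i^q: for two elements of order 2 of SU_n(q) the following are equivalent — they are conjugate in SU_n(q); they are conjugate in SL_n(F); the matrices a − 1 and b − 1 have the same rank. -/
theorem result {F : Type*} [Field F] [Fintype F] [CharP F 2] {n q : ℕ} (hF : Fintype.card F = q ^ 2) (hn : 3 ≤ n) (a b : ↥(Cfsg.SU n F q)) (ha : orderOf a = 2) (hb : orderOf b = 2) :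
    (IsConj a b ↔ IsConj (a : Matrix.SpecialLinearGroup (Fin n) F) (b : Matrix.SpecialLinearGroup (Fin n) F)) ∧
    (IsConj a b ↔ (((a : Matrix.SpecialLinearGroup (Fin n) F) : Matrix (Fin n) (Fin n) F) - 1).rank = (((b : Matrix.SpecialLinearGroup (Fin n) F) : Matrix (Fin n) (Fin n) F) - 1).rank) := by
  have h1 : IsConj a b → IsConj (a : Matrix.SpecialLinearGroup (Fin n) F) (b : Matrix.SpecialLinearGroup (Fin n) F) := by
    intro h
    obtain ⟨c, hc⟩ := isConj_iff.1 h
    exact isConj_iff.2 ⟨c.1, congrArg Subtype.val hc⟩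
  have h2 : IsConj (a : Matrix.SpecialLinearGroup (Fin n) F) (b : Matrix.SpecialLinearGroup (Fin n) F) →
      (((a : Matrix.SpecialLinearGroup (Fin n) F) : Matrix (Fin n) (Fin n) F) - 1).rank = (((b : Matrix.SpecialLinearGroup (Fin n) F) : Matrix (Fin n) (Fin n) F) - 1).rank := by
    intro h
    obtain ⟨c, hc⟩ := isConj_iff.1 h
    have h3 : (((b : Matrix.SpecialLinearGroup (Fin n) F) : Matrix (Fin n) (Fin n) F) - 1) =
        (c : Matrix (Fin n) (Fin n) F) * (((a : Matrix.SpecialLinearGroup (Fin n) F) : Matrix (Fin n) (Fin n) F) - 1) *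
          ((c⁻¹ : Matrix.SpecialLinearGroup (Fin n) F) : Matrix (Fin n) (Fin n) F) := by
      rw [← hc]
      simp only [Matrix.SpecialLinearGroup.coe_mul, mul_sub, sub_mul, mul_one]
      congr 1
      rw [← Matrix.SpecialLinearGroup.coe_mul, mul_inv_cancel]
      rfl
    rw [h3, Matrix.rank_mul_eq_left_of_isUnit_det _ _ (by rw [Matrix.SpecialLinearGroup.det_coe]; exact isUnit_one),
      Matrix.rank_mul_eq_right_of_isUnit_det _ _ (by rw [Matrix.SpecialLinearGroup.det_coe]; exact isUnit_one)]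
  have h3 := conj_of_rank hF a b ha hb
  exact ⟨⟨h1, fun h => h3 (h2 h)⟩, ⟨fun h => h2 (h1 h), h3⟩⟩

end Cfsg.Agent.S2164
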