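import Mathlib
-- Template for statement S2165 (row 2165; see /opt/grader/pristine/manifest.json for weights).
-- Copy to Cfsg/Agent/S2165.lean and replace the sorry. The statement below is byte-identical to the frozen
-- statement Cfsg.CfsgFrozen.S2165 (Cfsg/Statements/S2165.lean; the theorem Cfsg.lie2_su_char_two_involution_of_each_rank);
-- the grader kernel-checks Cfsg.Agent.S2165.result against that frozen type. Keep the theorem IN THIS FILE
-- (a `result` declared elsewhere and merely imported here is not credited); helpers may live anywhere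
-- under Cfsg/Agent/.
import Cfsg.Statements.S2165
-- import your own Cfsg.Agent.* helpers here

set_option autoImplicit false
open Cfsg

namespace Cfsg.Agent.S2165

/-- The involution of `Fin n`. -/
def sig (n l : ℕ) (h2 : 2 * l ≤ n) (i : Fin n) : Fin n :=
  if h : i.val < l then ⟨i.val + (n - l), by omega⟩
  else if h' : n - l ≤ i.val then ⟨i.val - (n - l), by omega⟩ else i

theorem sig_invol (n l : ℕ) (h2 : 2 * l ≤ n) (i : Fin n) : sig n l h2 (sig n l h2 i) = i := by
  unfold sig
  apply Fin.ext
  by_cases h : i.val < l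
  · have h3 : ¬ (i.val + (n - l) < l) := by omega
    have h4 : n - l ≤ i.val + (n - l) := by omega
    simp [h, h3, h4]
  · by_cases h' : n - l ≤ i.val
    · have h3 : i.val - (n - l) < l := by omega
      simp only [h, h', h3, dite_true, dite_false]
      omega
    · simp [h, h']

theorem cond_iff (n l : ℕ) (h2 : 2 * l ≤ n) (i j : Fin n) :
    ((j.val < l ∧ i.val = j.val + (n - l)) ∨ (i.val < l ∧ j.val = i.val + (n - l)) ∨
      (i = j ∧ l ≤ i.val ∧ i.val < n - l)) ↔ j = sig n l h2 i := by
  unfold sig
  have hi := i.isLt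
  have hj := j.isLt
  by_cases h : i.val < l
  · simp only [h, dite_true, Fin.ext_iff]
    constructor
    · rintro (⟨h3, h4⟩ | ⟨_, h4⟩ | ⟨h3, h4, _⟩)
      · omega
      · exact h4
      · omega
    · intro h3
      exact Or.inr (Or.inl ⟨trivial, h3⟩)
  · by_cases h' : n - l ≤ i.val
    · simp only [h, h', dite_true, dite_false, Fin.ext_iff]
      constructor
      · rintro (⟨h3, h4⟩ | ⟨h3, h4⟩ | ⟨h3, h4, h5⟩)
        · omega
        · omega
        · omega
      · intro h3
        left; omega
    · simp only [h, h', dite_false, Fin.ext_iff]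
      constructor
      · rintro (⟨h3, h4⟩ | ⟨h3, h4⟩ | ⟨h3, h4, h5⟩)
        · omega
        · omega
        · omega
      · intro h3
        right; right; omega

/-- The permutation matrix. -/
def matA (F : Type*) [Field F] (n l : ℕ) (h2 : 2 * l ≤ n) : Matrix (Fin n) (Fin n) F :=
  Matrix.of fun i j => if j = sig n l h2 i then (1 : F) else 0

theorem matA_eq (F : Type*) [Field F] (n l : ℕ) (h2 : 2 * l ≤ n) :
    Matrix.of (fun i j : Fin n => if (j.val < l ∧ i.val = j.val + (n - l)) ∨ (i.val < l ∧ j.val = i.val + (n - l)) ∨ (i = j ∧ l ≤ i.val ∧ i.val < n - l) then (1 : F) else 0) = matA F n l h2 := by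
  ext i j
  simp only [matA, Matrix.of_apply]
  by_cases h : j = sig n l h2 i
  · rw [if_pos h, if_pos ((cond_iff n l h2 i j).2 h)]
  · rw [if_neg h, if_neg (fun h' => h ((cond_iff n l h2 i j).1 h'))]

theorem matA_mulVec (F : Type*) [Field F] (n l : ℕ) (h2 : 2 * l ≤ n) (v : Fin n → F) (i : Fin n) :
    (matA F n l h2).mulVec v i = v (sig n l h2 i) := by
  simp [Matrix.mulVec, dotProduct, matA, ite_mul]

theorem matA_sq (F : Type*) [Field F] (n l : ℕ) (h2 : 2 * l ≤ n) :
    matA F n l h2 * matA F n l h2 = 1 := by
  ext i j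
  rw [Matrix.mul_apply]
  simp only [matA, Matrix.of_apply, ite_mul, one_mul, zero_mul, Finset.sum_ite_eq', Finset.mem_univ, if_true]
  rw [sig_invol, Matrix.one_apply]
  simp only [eq_comm]

/-- The permutation. -/
def sigPerm (n l : ℕ) (h2 : 2 * l ≤ n) : Equiv.Perm (Fin n) :=
  Function.Involutive.toPerm (sig n l h2) (sig_invol n l h2)

theorem matA_eq_perm (F : Type*) [Field F] (n l : ℕ) (h2 : 2 * l ≤ n) :
    matA F n l h2 = (sigPerm n l h2).permMatrix F := by
  ext i j
  have h : ∀ i, sigPerm n l h2 i = sig n l h2 i := fun _ => rfl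
  simp [matA, Equiv.Perm.permMatrix, PEquiv.toMatrix_apply, eq_comm, h]

theorem matA_det (F : Type*) [Field F] [CharP F 2] (n l : ℕ) (h2 : 2 * l ≤ n) :
    (matA F n l h2).det = 1 := by
  rw [matA_eq_perm, Matrix.det_permutation]
  rcases Int.units_eq_one_or (Equiv.Perm.sign (sigPerm n l h2)) with h | h
  · simp [h]
  · simp [h, CharTwo.neg_eq]

theorem matA_rank (F : Type*) [Field F] [CharP F 2] (n l : ℕ) (h1 : 1 ≤ l) (h2 : 2 * l ≤ n) :
    (matA F n l h2 - 1).rank = l := by
  have hl : ∀ k : Fin l, k.val < n := fun k => by have := k.isLt; omega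
  have hl2 : ∀ k : Fin l, k.val + (n - l) < n := fun k => by have := k.isLt; omega
  -- factorisation
  let B : Matrix (Fin n) (Fin l) F := Matrix.of fun i k =>
    (if i.val = k.val then 1 else 0) + (if i.val = k.val + (n - l) then 1 else 0)
  let C : Matrix (Fin l) (Fin n) F := Matrix.of fun k j =>
    (if j.val = k.val then 1 else 0) + (if j.val = k.val + (n - l) then 1 else 0)
  have hfac : matA F n l h2 - 1 = B * C := by
    ext i j
    have hi := i.isLt
    have hj := j.isLt
    rw [Matrix.mul_apply, Matrix.sub_apply]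
    by_cases h : i.val < l
    · rw [Finset.sum_eq_single (⟨i.val, h⟩ : Fin l)]
      · have h5 : ¬ (i.val = i.val + (n - l)) := by omega
        simp only [B, C, Matrix.of_apply, if_true, h5, if_false, add_zero, one_mul, matA, Matrix.one_apply]
        have h6 : sig n l h2 i = ⟨i.val + (n - l), hl2 ⟨i.val, h⟩⟩ := by
          simp [sig, h]
        rw [h6]
        have e1 : (j = (⟨i.val + (n - l), hl2 ⟨i.val, h⟩⟩ : Fin n)) ↔ j.val = i.val + (n - l) := Fin.ext_iff
        have e2 : (i = j) ↔ j.val = i.val := by rw [Fin.ext_iff, eq_comm]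
        simp only [e1, e2]
        rw [sub_eq_add_neg, CharTwo.neg_eq, add_comm]
      · intro k _ hk
        have h7 : ¬ (i.val = k.val) := fun h' => hk (Fin.ext h'.symm)
        have h8 : ¬ (i.val = k.val + (n - l)) := by have := k.isLt; omega
        simp [B, h7, h8]
      · simp
    · by_cases h' : n - l ≤ i.val
      · have hlt : i.val - (n - l) < l := by omega
        rw [Finset.sum_eq_single (⟨i.val - (n - l), hlt⟩ : Fin l)]
        · have h5 : ¬ (i.val = i.val - (n - l)) := by omega
          have h5' : i.val = i.val - (n - l) + (n - l) := by omega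
          simp only [B, C, Matrix.of_apply, h5, if_false, zero_add, matA, Matrix.one_apply]
          have h6 : sig n l h2 i = ⟨i.val - (n - l), by omega⟩ := by
            simp [sig, h, h']
          rw [h6]
          have e1 : (j = (⟨i.val - (n - l), by omega⟩ : Fin n)) ↔ j.val = i.val - (n - l) := Fin.ext_iff
          have e2 : (i = j) ↔ j.val = i.val - (n - l) + (n - l) := by rw [Fin.ext_iff, ← h5', eq_comm]
          simp only [e1, e2]
          rw [if_pos h5', one_mul, sub_eq_add_neg, CharTwo.neg_eq]
        · intro k _ hk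
          have h7 : ¬ (i.val = k.val) := by have := k.isLt; omega
          have h8 : ¬ (i.val = k.val + (n - l)) := by
            intro h''
            apply hk
            apply Fin.ext
            simp only
            omega
          simp [B, h7, h8]
        · simp
      · have h6 : sig n l h2 i = i := by simp [sig, h, h']
        have hz : ∀ k : Fin l, B i k = 0 := by
          intro k
          have h7 : ¬ (i.val = k.val) := by have := k.isLt; omega
          have h8 : ¬ (i.val = k.val + (n - l)) := by have := k.isLt; omega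
          simp [B, h7, h8]
        simp only [hz, zero_mul, Finset.sum_const_zero, matA, Matrix.of_apply, h6, Matrix.one_apply]
        by_cases hij : i = j
        · simp [hij]
        · have hji : ¬ j = i := fun h => hij h.symm
          simp [hij, hji]
  apply le_antisymm
  · rw [hfac]
    refine (Matrix.rank_mul_le_left _ _).trans ?_
    simpa using Matrix.rank_le_width B
  · have hsub : (matA F n l h2 - 1).submatrix (fun k : Fin l => (⟨k.val, hl k⟩ : Fin n))
        (fun k : Fin l => (⟨k.val, hl k⟩ : Fin n)) = 1 := by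
      ext k k'
      have hk := k.isLt
      have hk' := k'.isLt
      have h3 : ¬ ((⟨k'.val, hl k'⟩ : Fin n) = sig n l h2 ⟨k.val, hl k⟩) := by
        intro h
        have := congrArg Fin.val h
        simp [sig, hk] at this
        omega
      show (matA F n l h2 - 1) ⟨k.val, hl k⟩ ⟨k'.val, hl k'⟩ = (1 : Matrix (Fin l) (Fin l) F) k k'
      rw [Matrix.sub_apply]
      have h0 : matA F n l h2 ⟨k.val, hl k⟩ ⟨k'.val, hl k'⟩ = 0 := by
        simp only [matA, Matrix.of_apply]
        exact if_neg h3
      rw [h0, zero_sub, Matrix.one_apply, Matrix.one_apply]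
      by_cases h : k = k'
      · subst h
        simp [CharTwo.neg_eq]
      · have h4 : ¬ ((⟨k.val, hl k⟩ : Fin n) = ⟨k'.val, hl k'⟩) := by
          intro h'
          apply h
          exact Fin.ext (by simpa using h')
        simp [h, h4]
    calc l = (1 : Matrix (Fin l) (Fin l) F).rank := by simp
      _ = _ := by rw [hsub]
      _ ≤ _ := Matrix.rank_submatrix_le _ _ _

/-- In SU_n(q), q even, n ≥ 3 (matrices of determinant 1 over the field with q² elements preserving Σ u_i v_i^q): for every ℓ with 1 ≤ ℓ and 2ℓ ≤ n, the permutation matrix of the involution of {0, …, n−1} exchanging i and n − ℓ + i for each i < ℓ lies in SU_n(q), has order 2, and differs from the identity by a matrix of rank ℓ. So every rank between 1 and n/2 occurs for involutions of SU_n(q). -/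
theorem result {F : Type*} [Field F] [Fintype F] [CharP F 2] {n q : ℕ} (hF : Fintype.card F = q ^ 2) (hn : 3 ≤ n) (ℓ : ℕ) (h1 : 1 ≤ ℓ) (h2 : 2 * ℓ ≤ n) :
    ∃ a : ↥(Cfsg.SU n F q), (((a : Matrix.SpecialLinearGroup (Fin n) F) : Matrix (Fin n) (Fin n) F) = Matrix.of (fun i j : Fin n => if (j.val < ℓ ∧ i.val = j.val + (n - ℓ)) ∨ (i.val < ℓ ∧ j.val = i.val + (n - ℓ)) ∨ (i = j ∧ ℓ ≤ i.val ∧ i.val < n - ℓ) then (1 : F) else 0)) ∧ orderOf a = 2 ∧ ((((a : Matrix.SpecialLinearGroup (Fin n) F) : Matrix (Fin n) (Fin n) F)) - 1).rank = ℓ := by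
  classical
  have hdet := matA_det F n ℓ h2
  let s : Matrix.SpecialLinearGroup (Fin n) F := ⟨matA F n ℓ h2, hdet⟩
  have hs : s ∈ Cfsg.SU n F q := by
    intro u v
    show hermForm n F q ((matA F n ℓ h2).mulVec u) ((matA F n ℓ h2).mulVec v) = hermForm n F q u v
    simp only [hermForm, matA_mulVec]
    exact Equiv.sum_comp (sigPerm n ℓ h2) (fun i => u i * v i ^ q)
  refine ⟨⟨s, hs⟩, (matA_eq F n ℓ h2).symm, ?_, matA_rank F n ℓ h1 h2⟩
  apply orderOf_eq_prime
  · apply Subtype.ext
    apply Subtype.ext
    simp only [pow_two]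
    exact matA_sq F n ℓ h2
  · intro h
    have h' : matA F n ℓ h2 = 1 := by
      have := congrArg (fun a : ↥(Cfsg.SU n F q) => ((a : Matrix.SpecialLinearGroup (Fin n) F) : Matrix (Fin n) (Fin n) F)) h
      simpa using this
    have h3 := matA_rank F n ℓ h1 h2
    rw [h', sub_self, Matrix.rank_zero] at h3
    omega

end Cfsg.Agent.S2165
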