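import Mathlib
import Cfsg.Agent.Lib.AltRank
-- Template for statement S2167 (row 2167; see /opt/grader/pristine/manifest.json for weights).
-- Copy to Cfsg/Agent/S2167.lean and replace the sorry. The statement below is byte-identical to the frozen
-- statement Cfsg.CfsgFrozen.S2167 (Cfsg/Statements/S2167.lean; the theorem Cfsg.lie2_sp_char_two_involution_isotropic_set);
-- the grader kernel-checks Cfsg.Agent.S2167.result against that frozen type. Keep the theorem IN THIS FILE
-- (a `result` declared elsewhere and merely imported here is not credited); helpers may live anywhere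
-- under Cfsg/Agent/.
import Cfsg.Statements.S2167
-- import your own Cfsg.Agent.* helpers here

set_option autoImplicit false
open Cfsg

namespace Cfsg.Agent.S2167

section aux

variable {F : Type*} [Field F] {m : ℕ}

theorem form_smul_left (c : F) (u v : Fin m ⊕ Fin m → F) :
    sympForm m F (c • u) v = c * sympForm m F u v := by
  simp [sympForm, smul_dotProduct]

theorem form_smul_right (c : F) (u v : Fin m ⊕ Fin m → F) :
    sympForm m F u (c • v) = c * sympForm m F u v := by
  simp [sympForm, Matrix.mulVec_smul, dotProduct_smul]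

theorem form_add_left (u u' v : Fin m ⊕ Fin m → F) :
    sympForm m F (u + u') v = sympForm m F u v + sympForm m F u' v := by
  simp [sympForm, add_dotProduct]

theorem form_add_right (u v v' : Fin m ⊕ Fin m → F) :
    sympForm m F u (v + v') = sympForm m F u v + sympForm m F u v' := by
  simp [sympForm, Matrix.mulVec_add, dotProduct_add]

theorem form_eq (u v : Fin m ⊕ Fin m → F) :
    sympForm m F u v = ∑ i : Fin m, (u (Sum.inr i) * v (Sum.inl i) - u (Sum.inl i) * v (Sum.inr i)) := by
  simp only [sympForm, Matrix.J, dotProduct, Matrix.mulVec, Fintype.sum_sum_type, Matrix.fromBlocks_apply₁₁,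
    Matrix.fromBlocks_apply₁₂, Matrix.fromBlocks_apply₂₁, Matrix.fromBlocks_apply₂₂, Matrix.zero_apply, zero_mul,
    Finset.sum_const_zero, zero_add, add_zero, Matrix.neg_apply, Matrix.one_apply, neg_mul, Finset.sum_neg_distrib,
    ite_mul, one_mul, Finset.sum_ite_eq, Finset.mem_univ, if_true, mul_neg]
  rw [Finset.sum_sub_distrib, add_comm, sub_eq_add_neg]

theorem form_self (u : Fin m ⊕ Fin m → F) : sympForm m F u u = 0 := by
  rw [form_eq]
  apply Finset.sum_eq_zero
  intro i _
  ring

theorem form_symm [CharP F 2] (u v : Fin m ⊕ Fin m → F) : sympForm m F u v = sympForm m F v u := by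
  rw [form_eq, form_eq]
  apply Finset.sum_congr rfl
  intro i _
  have h2 : (2 : F) = 0 := CharTwo.two_eq_zero
  linear_combination (u (Sum.inr i) * v (Sum.inl i) - u (Sum.inl i) * v (Sum.inr i)) * h2

theorem form_preserved (A : Matrix (Fin m ⊕ Fin m) (Fin m ⊕ Fin m) F) (hA : A ∈ Matrix.symplecticGroup (Fin m) F)
    (u v : Fin m ⊕ Fin m → F) : sympForm m F (A.mulVec u) (A.mulVec v) = sympForm m F u v := by
  have h := (SymplecticGroup.mem_iff' (A := A)).1 hA
  simp only [sympForm]
  rw [← Matrix.vecMul_transpose, ← Matrix.dotProduct_mulVec, Matrix.mulVec_mulVec, Matrix.mulVec_mulVec,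
    h]

end aux

/-- For an involution t of the symplectic group Sp_{2m}(F), m ≥ 2, F a finite field of characteristic two (matrices A with A J Aᵀ = J acting on column vectors, alternating form f(u, v) = u ⬝ (J v)): the set V(t) of vectors v with f(v, t v) = 0 has either q^{2m} or q^{2m−1} elements, q the order of F (it is a subspace of codimension at most 1), and if it is the whole space then t − 1 has even rank. -/
theorem result {F : Type*} [Field F] [Fintype F] [CharP F 2] {m : ℕ} (hm : 2 ≤ m) (a : ↥(Matrix.symplecticGroup (Fin m) F)) (ha : orderOf a = 2) :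
    (Nat.card {v : Fin m ⊕ Fin m → F // Cfsg.sympForm m F v (Matrix.mulVec ((a : ↥(Matrix.symplecticGroup (Fin m) F)) : Matrix (Fin m ⊕ Fin m) (Fin m ⊕ Fin m) F) v) = 0} = Fintype.card F ^ (2 * m) ∨ Nat.card {v : Fin m ⊕ Fin m → F // Cfsg.sympForm m F v (Matrix.mulVec ((a : ↥(Matrix.symplecticGroup (Fin m) F)) : Matrix (Fin m ⊕ Fin m) (Fin m ⊕ Fin m) F) v) = 0} * Fintype.card F = Fintype.card F ^ (2 * m)) ∧
    ((∀ v : Fin m ⊕ Fin m → F, Cfsg.sympForm m F v (Matrix.mulVec ((a : ↥(Matrix.symplecticGroup (Fin m) F)) : Matrix (Fin m ⊕ Fin m) (Fin m ⊕ Fin m) F) v) = 0) → Even (((a : ↥(Matrix.symplecticGroup (Fin m) F)) : Matrix (Fin m ⊕ Fin m) (Fin m ⊕ Fin m) F) - 1).rank) := by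
  classical
  have hmem := a.2
  set A : Matrix (Fin m ⊕ Fin m) (Fin m ⊕ Fin m) F := (a : Matrix (Fin m ⊕ Fin m) (Fin m ⊕ Fin m) F) with hAdef
  have hA2 : A * A = 1 := by
    have := pow_orderOf_eq_one a
    rw [ha, pow_two] at this
    exact congrArg Subtype.val this
  have hmv : ∀ u, A.mulVec (A.mulVec u) = u := by
    intro u
    rw [Matrix.mulVec_mulVec, hA2, Matrix.one_mulVec]
  -- the cross terms cancel
  have hcross : ∀ u v, sympForm m F v (A.mulVec u) = sympForm m F u (A.mulVec v) := by
    intro u v
    have h1 := form_preserved A hmem v (A.mulVec u)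
    rw [hmv] at h1
    rw [← h1, form_symm]
  let g : (Fin m ⊕ Fin m → F) → F := fun v => sympForm m F v (A.mulVec v)
  have gadd : ∀ u v, g (u + v) = g u + g v := by
    intro u v
    simp only [g, Matrix.mulVec_add, form_add_left, form_add_right]
    rw [hcross u v]
    have h2 : (2 : F) = 0 := CharTwo.two_eq_zero
    linear_combination (sympForm m F u (A.mulVec v)) * h2
  have gsmul : ∀ (c : F) v, g (c • v) = c ^ 2 * g v := by
    intro c v
    simp only [g, Matrix.mulVec_smul, form_smul_left, form_smul_right]
    ring
  haveI : Fact (Nat.Prime 2) := ⟨Nat.prime_two⟩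
  let e : F ≃+* F := frobeniusEquiv F 2
  have he : ∀ c : F, e c = c ^ 2 := fun c => rfl
  let L : (Fin m ⊕ Fin m → F) →ₗ[F] F :=
    { toFun := fun v => e.symm (g v)
      map_add' := by
        intro u v
        simp only [gadd, map_add]
      map_smul' := by
        intro c v
        simp only [gsmul, RingHom.id_apply, smul_eq_mul]
        rw [← he, map_mul, RingEquiv.symm_apply_apply] }
  have hL : ∀ v, L v = 0 ↔ g v = 0 := by
    intro v
    show e.symm (g v) = 0 ↔ _
    simp
  have hker : Nat.card {v : Fin m ⊕ Fin m → F // sympForm m F v (A.mulVec v) = 0} = Nat.card (LinearMap.ker L) := by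
    apply Nat.card_congr
    apply Equiv.subtypeEquivRight
    intro v
    rw [LinearMap.mem_ker, hL]
  have hrk := LinearMap.finrank_range_add_finrank_ker L
  have hV : Module.finrank F (Fin m ⊕ Fin m → F) = 2 * m := by
    simp [Module.finrank_fintype_fun_eq_card, two_mul]
  have hr1 : Module.finrank F (LinearMap.range L) ≤ 1 := by
    have := Submodule.finrank_le (LinearMap.range L)
    simpa using this
  have hcard : Nat.card (LinearMap.ker L) = Fintype.card F ^ Module.finrank F (LinearMap.ker L) := by
    rw [← Nat.card_eq_fintype_card]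
    exact Module.natCard_eq_pow_finrank
  constructor
  · rw [hker, hcard]
    interval_cases hr : Module.finrank F (LinearMap.range L)
    · left
      congr 1
      omega
    · right
      rw [← pow_succ]
      congr 1
      omega
  · intro hv
    let J := Matrix.J (Fin m) F
    have halt : ∀ v, v ⬝ᵥ ((J * (A - 1)).mulVec v) = 0 := by
      intro v
      rw [← Matrix.mulVec_mulVec, Matrix.sub_mulVec, Matrix.one_mulVec]
      have h1 : sympForm m F v (A.mulVec v - v) = 0 := by
        have h2 := form_add_right v (A.mulVec v - v) v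
        rw [sub_add_cancel, form_self, add_zero] at h2
        rw [← h2]
        exact hv v
      exact h1
    have := Cfsg.Agent.Lib.AltRank.even_rank_of_alt (J * (A - 1)) halt
    rwa [Matrix.rank_mul_eq_right_of_isUnit_det _ _ (Matrix.isUnit_det_J (Fin m) F)] at this

end Cfsg.Agent.S2167
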