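import Cfsg.Statements.S2171
import Mathlib
import Cfsg.Agent.Lib.Inv2Conv

set_option autoImplicit false
open Cfsg

namespace Cfsg.Agent.S2171

/-- For the quadratic form Σ x_i y_i + (z₁² + c z₁ z₂ + d z₂²) in dimension 2m with anisotropic binary part over a finite field F of characteristic two, m ≥ 4 (minus type): an element of order 2 of the full isometry group O lies in the commutator subgroup Ω of O exactly when t − 1 has even rank. -/
theorem result {F : Type*} [Field F] [Fintype F] [CharP F 2] {m : ℕ} (hm : 4 ≤ m) (c d : F) (hcd : ∀ z₁ z₂ : F, z₁ ^ 2 + c * z₁ * z₂ + d * z₂ ^ 2 = 0 → z₁ = 0 ∧ z₂ = 0) (t : ↥(Cfsg.isometryGroup F (Cfsg.quadFormMinus (m - 1) F c d))) (ht : orderOf t = 2) :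
    t ∈ Cfsg.Omega F (Cfsg.quadFormMinus (m - 1) F c d) ↔ Even ((((t : ↥(Cfsg.isometryGroup F (Cfsg.quadFormMinus (m - 1) F c d))) : GL ((Fin (m - 1) ⊕ Fin (m - 1)) ⊕ Fin 2) F) : Matrix ((Fin (m - 1) ⊕ Fin (m - 1)) ⊕ Fin 2) ((Fin (m - 1) ⊕ Fin (m - 1)) ⊕ Fin 2) F) - 1).rank := by
  have hq : Cfsg.quadFormMinus (m - 1) F c d = ⇑(Cfsg.Agent.Lib.OrthoCount.qMinus (m - 1) c d) :=
    funext fun v => (Cfsg.Agent.Lib.OrthoCount.qMinus_apply (m - 1) c d v).symm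
  have hnd : (QuadraticMap.polarBilin (Cfsg.Agent.Lib.OrthoCount.qMinus (m - 1) c d)).Nondegenerate :=
    Cfsg.Agent.Lib.HypNeg.nondegenerate_of_nondeg (Cfsg.Agent.Lib.OrthoOrder.nondeg_qMinus c d hcd (m - 1))
  have hV : Module.finrank F ((Fin (m - 1) ⊕ Fin (m - 1)) ⊕ Fin 2 → F) = 2 * m := by
    simp
    omega
  refine Cfsg.Agent.Lib.Inv2Conv.omega_iff_rank' _ hq hnd (Cfsg.Agent.Lib.Inv2Omega.O_le_G' hnd (Or.inr (Or.inl ?_))) t
  omega

end Cfsg.Agent.S2171
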