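import Mathlib
-- Template for statement S2178 (row 2178; see /opt/grader/pristine/manifest.json for weights).
-- Copy to Cfsg/Agent/S2178.lean and replace the sorry. The statement below is byte-identical to the frozen
-- statement Cfsg.CfsgFrozen.S2178 (Cfsg/Statements/S2178.lean; the theorem Cfsg.lie2_f4_char_two_root_involution_centralizers);
-- the grader kernel-checks Cfsg.Agent.S2178.result against that frozen type. Keep the theorem IN THIS FILE
-- (a `result` declared elsewhere and merely imported here is not credited); helpers may live anywhere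
-- under Cfsg/Agent/.
import Cfsg.Statements.S2178
import Cfsg.Agent.Lib.ChevAut.RootCent
import Cfsg.Agent.Lib.ChevAut.ExoTabs
-- import your own Cfsg.Agent.* helpers here

set_option autoImplicit false
open Cfsg

namespace Cfsg.Agent.S2178

open Cfsg.Lie Cfsg.Agent.Lib.Chev Cfsg.Agent.Lib.ChevAut.RootCent Cfsg.Agent.Lib.ChevAut.Exotic

/-- Centralizers of the long and the short root involutions in the Chevalley group G of type F₄ over a finite field F of characteristic two (this problem's root numbering for type F₄, from the Chevalley data module: fundamental roots p₁, p₂ short, p₃, p₄ long, with indices 33, 27, 25, 24, their negatives 14, 20, 22, 23; highest root 47, highest short root 44; U the subgroup generated by the positive root subgroups). For an element t of G with matrix x_47(1): the centralizer of t in G is the subgroup generated by U and the root subgroups X_{−p₁}, X_{−p₂}, X_{−p₃} (the unipotent radical of the maximal parabolic subgroup whose Levi factor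 has fundamental roots p₁, p₂, p₃, together with that Levi factor's root subgroups; the Levi factor is of type C₃). For an element u of G with matrix x_44(1): the centralizer of u in G is generated by U and X_{−p₂}, X_{−p₃}, X_{−p₄} (the same construction for the Levi factor with fundamental roots p₂, p₃, p₄, of type B₃). -/
theorem result {F : Type*} [Field F] [Fintype F] [CharP F 2] (t u : GL Cfsg.Lie.chevF4.Idx F) (ht : (t : Matrix Cfsg.Lie.chevF4.Idx Cfsg.Lie.chevF4.Idx F) = Cfsg.Lie.chevF4.x F 47 1) (hu : (u : Matrix Cfsg.Lie.chevF4.Idx Cfsg.Lie.chevF4.Idx F) = Cfsg.Lie.chevF4.x F 44 1) :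
    Cfsg.Lie.chevF4.group F ⊓ Subgroup.centralizer {t} = Cfsg.Lie.chevF4.posUnipotent F ⊔ Cfsg.Lie.chevF4.rootSubgroup F 14 ⊔ Cfsg.Lie.chevF4.rootSubgroup F 20 ⊔ Cfsg.Lie.chevF4.rootSubgroup F 22 ∧
    Cfsg.Lie.chevF4.group F ⊓ Subgroup.centralizer {u} = Cfsg.Lie.chevF4.posUnipotent F ⊔ Cfsg.Lie.chevF4.rootSubgroup F 20 ⊔ Cfsg.Lie.chevF4.rootSubgroup F 22 ⊔ Cfsg.Lie.chevF4.rootSubgroup F 23 := by
  haveI : Fact (Nat.Prime 2) := ⟨Nat.prime_two⟩
  have hF : Full _ _ _ chevF4 := ⟨RelF4.checks, RootF4.checks⟩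
  have hperf : ∀ x : F, ∃ y : F, y ^ 2 = x := fun x => by
    obtain ⟨y, hy⟩ := Finite.surjective_of_injective (frobenius F 2).injective x
    exact ⟨y, by rwa [frobenius_def] at hy⟩
  obtain ⟨α, hα⟩ := exists_autF4 (K := F) hperf
  have hL3 : Yg chevF4 F 3 = chevF4.posUnipotent F ⊔ chevF4.rootSubgroup F 14 ⊔ chevF4.rootSubgroup F 20 ⊔ chevF4.rootSubgroup F 22 := by
    rw [Yg_eq (L := [14, 20, 22]) (by decide +kernel) (by decide +kernel)]
    simp only [Cfsg.Agent.Lib.ChevAut.RootCent.closure_cons hF, Cfsg.Agent.Lib.ChevAut.RootCent.closure_nil, sup_bot_eq, sup_assoc]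
  have hL0 : Yg chevF4 F 0 = chevF4.posUnipotent F ⊔ chevF4.rootSubgroup F 20 ⊔ chevF4.rootSubgroup F 22 ⊔ chevF4.rootSubgroup F 23 := by
    rw [Yg_eq (L := [20, 22, 23]) (by decide +kernel) (by decide +kernel)]
    simp only [Cfsg.Agent.Lib.ChevAut.RootCent.closure_cons hF, Cfsg.Agent.Lib.ChevAut.RootCent.closure_nil, sup_bot_eq, sup_assoc]
  have ht' : t = hF.c.xG 47 1 := hF.c.eq_xG ht
  have hu' : u = hF.c.xG 44 1 := hF.c.eq_xG hu
  have h47 : chevF4.group F ⊓ Subgroup.centralizer {t} = Yg chevF4 F 3 :=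
    centralizer_eq hF (top := 47) (by decide +kernel) (by decide +kernel) (by decide +kernel) (by decide +kernel)
      (by decide +kernel) (by decide +kernel) (by decide +kernel) (by decide +kernel) (by decide +kernel) ht
  rw [← hL3, ← hL0]
  refine ⟨h47, ?_⟩
  have htG : t ∈ chevF4.group F := by
    rw [ht']
    exact hF.c.xG_mem_group (by decide +kernel) _
  have huG : u ∈ chevF4.group F := by
    rw [hu']
    exact hF.c.xG_mem_group (by decide +kernel) _
  have hpos : ∀ r < chevF4.nroots, RootF4T.R.N ≤ r → RootF4T.R.N ≤ rbarF4 r ∧ rbarF4 r < chevF4.nroots := by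
    decide +kernel
  have hrbar1 : ∀ r, QY chevF4 3 r → QY chevF4 0 (rbarF4 r) := by
    rintro r (hr | ⟨j, hj, hne, rfl⟩)
    · obtain ⟨h1, h2⟩ := (hF.isPos_iff).1 hr
      obtain ⟨h3, h4⟩ := hpos r h1 h2
      exact Or.inl ((hF.isPos_iff).2 ⟨h4, h3⟩)
    · have : ∀ j < chevF4.rank, j ≠ 3 → 3 - j < chevF4.rank ∧ 3 - j ≠ 0 ∧ rbarF4 (chevF4.neg (chevF4.simple j)) = chevF4.neg (chevF4.simple (3 - j)) := by
        decide +kernel
      obtain ⟨h1, h2, h3⟩ := this j hj hne
      exact Or.inr ⟨3 - j, h1, h2, h3⟩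
  have hrbar2 : ∀ r, QY chevF4 0 r → QY chevF4 3 (rbarF4 r) := by
    rintro r (hr | ⟨j, hj, hne, rfl⟩)
    · obtain ⟨h1, h2⟩ := (hF.isPos_iff).1 hr
      obtain ⟨h3, h4⟩ := hpos r h1 h2
      exact Or.inl ((hF.isPos_iff).2 ⟨h4, h3⟩)
    · have : ∀ j < chevF4.rank, j ≠ 0 → 3 - j < chevF4.rank ∧ 3 - j ≠ 3 ∧ rbarF4 (chevF4.neg (chevF4.simple j)) = chevF4.neg (chevF4.simple (3 - j)) := by
        decide +kernel
      obtain ⟨h1, h2, h3⟩ := this j hj hne
      exact Or.inr ⟨3 - j, h1, h2, h3⟩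
  refine centralizer_transport hF (t := ⟨t, htG⟩) (u := ⟨u, huG⟩) (Q := QY chevF4 3) (Q' := QY chevF4 0) (fun r hr => QY_lt hF hr) (fun r hr => QY_lt hF hr) α ?_ ?_ ?_ h47
  · intro r hr s
    have h1 := hα ⟨hF.c.xG r s, hF.c.xG_mem_group (QY_lt hF hr) s⟩ r s (QY_lt hF hr) rfl
    rw [hF.c.eq_xG h1]
    exact hF.xG_mem_rootClosure (hrbar1 r hr) _
  · intro r hr s
    have hrl := QY_lt hF hr
    have hlam : ∀ r < chevF4.nroots, lamF4 r = 1 ∨ lamF4 r = 2 := by decide +kernel
    have hrb : rbarF4 r < chevF4.nroots := rbar_ltF4 r hrl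
    obtain ⟨y, hy⟩ : ∃ y : F, y ^ lamF4 (rbarF4 r) = s := by
      rcases hlam _ hrb with h | h
      · exact ⟨s, by rw [h, pow_one]⟩
      · rw [h]
        exact hperf s
    have h1 := hα ⟨hF.c.xG (rbarF4 r) y, hF.c.xG_mem_group hrb y⟩ (rbarF4 r) y hrb rfl
    rw [rbar_rbarF4 r hrl, hy] at h1
    have h2 : α ⟨hF.c.xG (rbarF4 r) y, hF.c.xG_mem_group hrb y⟩ = ⟨hF.c.xG r s, hF.c.xG_mem_group hrl s⟩ :=
      Subtype.ext (Units.ext h1)
    rw [← h2, MulEquiv.symm_apply_apply]
    exact hF.xG_mem_rootClosure (hrbar2 r hr) _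
  · apply Subtype.ext
    apply Units.ext
    have h1 := hα ⟨t, htG⟩ 47 1 (by decide +kernel) ht
    rw [one_pow, show rbarF4 47 = 44 by decide +kernel] at h1
    rw [h1]
    exact hu.symm

end Cfsg.Agent.S2178
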