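import Mathlib
import Cfsg.Statements.S2179
import Cfsg.Agent.Lib.ChevInv.CentTabF4a
import Cfsg.Agent.Lib.ChevInv.CentTabF4b
-- import your own Cfsg.Agent.* helpers here

set_option autoImplicit false
open Cfsg

namespace Cfsg.Agent.S2179

/-- Centralizers of the two remaining classes of involutions in the Chevalley group G of type F₄ over a finite field F of characteristic two (this problem's root numbering for type F₄, from the Chevalley data module: p₁, p₂ short, p₃, p₄ long with indices 33, 27, 25, 24 and negatives 14, 20, 22, 23; U generated by the positive root subgroups). For an element of G with matrix x_47(1)x_44(1) (highest root times highest short root): its centralizer in G is generated by U, X_{−p₂} and X_{−p₃}. For an element of G with matrix x_39(1)x_45(1) (roots (1,2,2,1) and (2,4,2,1), an orthogonal short/long pair): its centralizer in G is generated by X_{p₁}, X_{−p₁}, X_{p₄},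 X_{−p₄} and the root subgroups of all positive roots other than p₂ (27), p₃ (25), p₁ + p₂ (34) and p₃ + p₄ (26). -/
theorem result {F : Type*} [Field F] [Fintype F] [CharP F 2] (w v : GL Cfsg.Lie.chevF4.Idx F) (hw : (w : Matrix Cfsg.Lie.chevF4.Idx Cfsg.Lie.chevF4.Idx F) = Cfsg.Lie.chevF4.x F 47 1 * Cfsg.Lie.chevF4.x F 44 1) (hv : (v : Matrix Cfsg.Lie.chevF4.Idx Cfsg.Lie.chevF4.Idx F) = Cfsg.Lie.chevF4.x F 39 1 * Cfsg.Lie.chevF4.x F 45 1) :
    Cfsg.Lie.chevF4.group F ⊓ Subgroup.centralizer {w} = Cfsg.Lie.chevF4.posUnipotent F ⊔ Cfsg.Lie.chevF4.rootSubgroup F 20 ⊔ Cfsg.Lie.chevF4.rootSubgroup F 22 ∧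
    Cfsg.Lie.chevF4.group F ⊓ Subgroup.centralizer {v} = Cfsg.Lie.chevF4.rootSubgroup F 33 ⊔ Cfsg.Lie.chevF4.rootSubgroup F 14 ⊔ Cfsg.Lie.chevF4.rootSubgroup F 24 ⊔ Cfsg.Lie.chevF4.rootSubgroup F 23 ⊔
      Subgroup.closure {g : GL Cfsg.Lie.chevF4.Idx F | ∃ (r : ℕ) (c : F), Cfsg.Lie.chevF4.IsPosRoot r ∧ r ∉ [27, 25, 34, 26] ∧ (g : Matrix Cfsg.Lie.chevF4.Idx Cfsg.Lie.chevF4.Idx F) = Cfsg.Lie.chevF4.x F r c} := by
  classical
  have hG := Cfsg.Agent.Lib.ChevInv.CentG.TabF4a.hF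
  have hw' : w = Cfsg.Agent.Lib.ChevInv.xL Cfsg.Agent.Lib.ChevInv.CentG.TabF4a.hF F Cfsg.Agent.Lib.ChevInv.CentG.TabF4a.Va := by
    apply Units.ext
    rw [hw, Cfsg.Agent.Lib.ChevInv.coe_xL]
    simp [Cfsg.Agent.Lib.ChevInv.CentG.TabF4a.Va]
  have hv' : v = Cfsg.Agent.Lib.ChevInv.xL Cfsg.Agent.Lib.ChevInv.CentG.TabF4b.hF F Cfsg.Agent.Lib.ChevInv.CentG.TabF4b.Vb := by
    apply Units.ext
    rw [hv, Cfsg.Agent.Lib.ChevInv.coe_xL]
    simp [Cfsg.Agent.Lib.ChevInv.CentG.TabF4b.Vb]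
  have hs0 : Cfsg.Lie.chevF4.neg (Cfsg.Lie.chevF4.simple 0) = 14 := by decide +kernel
  have hs1 : Cfsg.Lie.chevF4.neg (Cfsg.Lie.chevF4.simple 1) = 20 := by decide +kernel
  have hs2 : Cfsg.Lie.chevF4.neg (Cfsg.Lie.chevF4.simple 2) = 22 := by decide +kernel
  have hs3 : Cfsg.Lie.chevF4.neg (Cfsg.Lie.chevF4.simple 3) = 23 := by decide +kernel
  have hs00 : Cfsg.Lie.chevF4.simple 0 = 33 := by decide +kernel
  have hs30 : Cfsg.Lie.chevF4.simple 3 = 24 := by decide +kernel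
  have hN : Cfsg.Agent.Lib.Chev.RootF4T.R.N = 24 := by decide +kernel
  have hn : Cfsg.Lie.chevF4.nroots = 48 := by decide +kernel
  have hmem : ∀ (Q : ℕ → Prop) (a : ℕ), Q a → Cfsg.Lie.chevF4.rootSubgroup F a ≤ Cfsg.Agent.Lib.Chev.Full.rootClosure Cfsg.Lie.chevF4 F Q := by
    intro Q a ha
    unfold Cfsg.Lie.ChevalleyDatum.rootSubgroup Cfsg.Agent.Lib.Chev.Full.rootClosure
    apply Subgroup.closure_mono
    rintro g ⟨c, hc⟩
    exact ⟨a, c, ha, hc⟩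
  have hgen : ∀ (a : ℕ) (c : F) (g : GL Cfsg.Lie.chevF4.Idx F), (g : Matrix Cfsg.Lie.chevF4.Idx Cfsg.Lie.chevF4.Idx F) = Cfsg.Lie.chevF4.x F a c →
      g ∈ Cfsg.Lie.chevF4.rootSubgroup F a := fun a c g hg => Subgroup.subset_closure ⟨c, hg⟩
  constructor
  · rw [hw', Cfsg.Agent.Lib.ChevInv.CentG.cent_eq Cfsg.Agent.Lib.ChevInv.CentG.TabF4a.hF Cfsg.Agent.Lib.ChevInv.CentG.TabF4a.taba]
    apply le_antisymm
    · unfold Cfsg.Agent.Lib.Chev.Full.rootClosure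
      rw [Subgroup.closure_le]
      rintro g ⟨s, c, hs, hg⟩
      rcases hs with ⟨⟨h1, h2⟩, -⟩ | ⟨j, hj, rfl⟩
      · refine Subgroup.mem_sup_left (Subgroup.mem_sup_left (Subgroup.subset_closure ⟨s, c, ?_, hg⟩))
        exact (hG.isPos_iff).2 ⟨h2, h1⟩
      · have hj0 : j = 1 ∨ j = 2 := by simpa [Cfsg.Agent.Lib.ChevInv.CentG.TabF4a.Ja] using hj
        rcases hj0 with rfl | rfl
        · rw [hs1] at hg
          exact Subgroup.mem_sup_left (Subgroup.mem_sup_right (hgen 20 c g hg))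
        · rw [hs2] at hg
          exact Subgroup.mem_sup_right (hgen 22 c g hg)
    · refine sup_le (sup_le ?_ ?_) ?_
      · unfold Cfsg.Lie.ChevalleyDatum.posUnipotent Cfsg.Agent.Lib.Chev.Full.rootClosure
        apply Subgroup.closure_mono
        rintro g ⟨s, c, hs, hg⟩
        refine ⟨s, c, Or.inl ⟨?_, by simp [Cfsg.Agent.Lib.ChevInv.CentG.TabF4a.KLa]⟩, hg⟩
        have := (hG.isPos_iff).1 hs
        exact ⟨this.2, this.1⟩
      · exact hmem _ 20 (Or.inr ⟨1, by simp [Cfsg.Agent.Lib.ChevInv.CentG.TabF4a.Ja], hs1.symm⟩)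
      · exact hmem _ 22 (Or.inr ⟨2, by simp [Cfsg.Agent.Lib.ChevInv.CentG.TabF4a.Ja], hs2.symm⟩)
  · rw [hv', Cfsg.Agent.Lib.ChevInv.CentG.cent_eq Cfsg.Agent.Lib.ChevInv.CentG.TabF4b.hF Cfsg.Agent.Lib.ChevInv.CentG.TabF4b.tabb]
    apply le_antisymm
    · unfold Cfsg.Agent.Lib.Chev.Full.rootClosure
      rw [Subgroup.closure_le]
      rintro g ⟨s, c, hs, hg⟩
      rcases hs with ⟨⟨h1, h2⟩, h3⟩ | ⟨j, hj, rfl⟩
      · refine Subgroup.mem_sup_right (Subgroup.subset_closure ⟨s, c, (hG.isPos_iff).2 ⟨h2, h1⟩, ?_, hg⟩)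
        have h3' : s ≠ 27 ∧ s ≠ 34 ∧ s ≠ 25 ∧ s ≠ 26 := by
          simpa [Cfsg.Agent.Lib.ChevInv.CentG.TabF4b.KLb] using h3
        simp [h3'.1, h3'.2.1, h3'.2.2.1, h3'.2.2.2]
      · have hj0 : j = 0 ∨ j = 3 := by simpa [Cfsg.Agent.Lib.ChevInv.CentG.TabF4b.Jb] using hj
        rcases hj0 with rfl | rfl
        · rw [hs0] at hg
          exact Subgroup.mem_sup_left (Subgroup.mem_sup_left (Subgroup.mem_sup_left (Subgroup.mem_sup_right (hgen 14 c g hg))))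
        · rw [hs3] at hg
          exact Subgroup.mem_sup_left (Subgroup.mem_sup_right (hgen 23 c g hg))
    · have hpos : ∀ a : ℕ, 24 ≤ a → a < 48 → a ≠ 27 → a ≠ 25 → a ≠ 34 → a ≠ 26 → Cfsg.Lie.chevF4.rootSubgroup F a ≤
          Cfsg.Agent.Lib.Chev.Full.rootClosure Cfsg.Lie.chevF4 F (Cfsg.Agent.Lib.ChevInv.CentG.QC Cfsg.Agent.Lib.Chev.RootF4T.R Cfsg.Lie.chevF4 Cfsg.Agent.Lib.ChevInv.CentG.TabF4b.Jb (Cfsg.Agent.Lib.ChevInv.CentG.TabF4b.KLb.map Prod.fst)) := by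
        intro a h1 h2 h3 h4 h5 h6
        apply hmem
        refine Or.inl ⟨⟨by rw [hN]; exact h1, by rw [hn]; exact h2⟩, ?_⟩
        simp [Cfsg.Agent.Lib.ChevInv.CentG.TabF4b.KLb, h3, h4, h5, h6]
      refine sup_le (sup_le (sup_le (sup_le ?_ ?_) ?_) ?_) ?_
      · exact hpos 33 (by omega) (by omega) (by omega) (by omega) (by omega) (by omega)
      · exact hmem _ 14 (Or.inr ⟨0, by simp [Cfsg.Agent.Lib.ChevInv.CentG.TabF4b.Jb], hs0.symm⟩)
      · exact hpos 24 (by omega) (by omega) (by omega) (by omega) (by omega) (by omega)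
      · exact hmem _ 23 (Or.inr ⟨3, by simp [Cfsg.Agent.Lib.ChevInv.CentG.TabF4b.Jb], hs3.symm⟩)
      · unfold Cfsg.Agent.Lib.Chev.Full.rootClosure
        rw [Subgroup.closure_le]
        rintro g ⟨s, c, hs, h7, hg⟩
        have hs' := (hG.isPos_iff).1 hs
        rw [hN, hn] at *
        have h8 : s ≠ 27 ∧ s ≠ 25 ∧ s ≠ 34 ∧ s ≠ 26 := by
          simpa using h7
        exact hpos s hs'.2 hs'.1 h8.1 h8.2.1 h8.2.2.1 h8.2.2.2 (hgen s c g hg)

end Cfsg.Agent.S2179
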