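import Mathlib
import Cfsg.Statements.S2180
import Cfsg.Agent.Lib.ChevInv.CentTabG2
-- import your own Cfsg.Agent.* helpers here

set_option autoImplicit false
open Cfsg

namespace Cfsg.Agent.S2180

/-- Centralizers of involutions in the Chevalley group G of type G₂ over a finite field F of characteristic two with at least four elements (this problem's root numbering for type G₂, from the Chevalley data module: a = p₁ short with index 7, b = p₂ long with index 6, −a = 4, −b = 5, 2a + b = 9, 3a + b = 10, 3a + 2b = 11; U generated by the positive root subgroups). For an element z of G with matrix x_{3a+2b}(1): the centralizer of z in G is generated by U and X_{−a}. For an element t of G with matrix x_{2a+b}(1): the centralizer of t in G is generated by X_{2a+b}, X_{3a+b}, X_{3a+2b}, X_b and X_{−b}. -/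
theorem result {F : Type*} [Field F] [Fintype F] [CharP F 2] (hF : 4 ≤ Fintype.card F) (z t : GL Cfsg.Lie.chevG2.Idx F) (hz : (z : Matrix Cfsg.Lie.chevG2.Idx Cfsg.Lie.chevG2.Idx F) = Cfsg.Lie.chevG2.x F 11 1) (ht : (t : Matrix Cfsg.Lie.chevG2.Idx Cfsg.Lie.chevG2.Idx F) = Cfsg.Lie.chevG2.x F 9 1) :
    Cfsg.Lie.chevG2.group F ⊓ Subgroup.centralizer {z} = Cfsg.Lie.chevG2.posUnipotent F ⊔ Cfsg.Lie.chevG2.rootSubgroup F 4 ∧
    Cfsg.Lie.chevG2.group F ⊓ Subgroup.centralizer {t} = Cfsg.Lie.chevG2.rootSubgroup F 9 ⊔ Cfsg.Lie.chevG2.rootSubgroup F 10 ⊔ Cfsg.Lie.chevG2.rootSubgroup F 11 ⊔ Cfsg.Lie.chevG2.rootSubgroup F 6 ⊔ Cfsg.Lie.chevG2.rootSubgroup F 5 := by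
  classical
  have hG := Cfsg.Agent.Lib.ChevInv.CentG.TabG2.hF
  have hz' : z = Cfsg.Agent.Lib.ChevInv.xL Cfsg.Agent.Lib.ChevInv.CentG.TabG2.hF F Cfsg.Agent.Lib.ChevInv.CentG.TabG2.Va := by
    apply Units.ext
    rw [hz, Cfsg.Agent.Lib.ChevInv.coe_xL]
    simp [Cfsg.Agent.Lib.ChevInv.CentG.TabG2.Va]
  have ht' : t = Cfsg.Agent.Lib.ChevInv.xL Cfsg.Agent.Lib.ChevInv.CentG.TabG2.hF F Cfsg.Agent.Lib.ChevInv.CentG.TabG2.Vb := by
    apply Units.ext
    rw [ht, Cfsg.Agent.Lib.ChevInv.coe_xL]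
    simp [Cfsg.Agent.Lib.ChevInv.CentG.TabG2.Vb]
  have hN : Cfsg.Agent.Lib.Chev.RootG2T.R.N = 6 := by decide +kernel
  have hn : Cfsg.Lie.chevG2.nroots = 12 := by decide +kernel
  have hs0 : Cfsg.Lie.chevG2.neg (Cfsg.Lie.chevG2.simple 0) = 4 := by decide +kernel
  have hs1 : Cfsg.Lie.chevG2.neg (Cfsg.Lie.chevG2.simple 1) = 5 := by decide +kernel
  have hmem : ∀ (Q : ℕ → Prop) (a : ℕ), Q a → Cfsg.Lie.chevG2.rootSubgroup F a ≤ Cfsg.Agent.Lib.Chev.Full.rootClosure Cfsg.Lie.chevG2 F Q := by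
    intro Q a ha
    unfold Cfsg.Lie.ChevalleyDatum.rootSubgroup Cfsg.Agent.Lib.Chev.Full.rootClosure
    apply Subgroup.closure_mono
    rintro g ⟨c, hc⟩
    exact ⟨a, c, ha, hc⟩
  have hgen : ∀ (a : ℕ) (c : F) (g : GL Cfsg.Lie.chevG2.Idx F), (g : Matrix Cfsg.Lie.chevG2.Idx Cfsg.Lie.chevG2.Idx F) = Cfsg.Lie.chevG2.x F a c →
      g ∈ Cfsg.Lie.chevG2.rootSubgroup F a := fun a c g hg => Subgroup.subset_closure ⟨c, hg⟩
  constructor
  · rw [hz', Cfsg.Agent.Lib.ChevInv.CentG.cent_eq Cfsg.Agent.Lib.ChevInv.CentG.TabG2.hF Cfsg.Agent.Lib.ChevInv.CentG.TabG2.taba]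
    apply le_antisymm
    · unfold Cfsg.Agent.Lib.Chev.Full.rootClosure
      rw [Subgroup.closure_le]
      rintro g ⟨s, c, hs, hg⟩
      rcases hs with ⟨⟨h1, h2⟩, -⟩ | ⟨j, hj, rfl⟩
      · refine Subgroup.mem_sup_left (Subgroup.subset_closure ⟨s, c, ?_, hg⟩)
        exact (hG.isPos_iff).2 ⟨h2, h1⟩
      · have hj0 : j = 0 := by simpa [Cfsg.Agent.Lib.ChevInv.CentG.TabG2.Ja] using hj
        subst hj0
        rw [hs0] at hg
        exact Subgroup.mem_sup_right (hgen 4 c g hg)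
    · apply sup_le
      · unfold Cfsg.Lie.ChevalleyDatum.posUnipotent Cfsg.Agent.Lib.Chev.Full.rootClosure
        apply Subgroup.closure_mono
        rintro g ⟨s, c, hs, hg⟩
        refine ⟨s, c, Or.inl ⟨?_, by simp [Cfsg.Agent.Lib.ChevInv.CentG.TabG2.KLa]⟩, hg⟩
        have := (hG.isPos_iff).1 hs
        exact ⟨this.2, this.1⟩
      · exact hmem _ 4 (Or.inr ⟨0, by simp [Cfsg.Agent.Lib.ChevInv.CentG.TabG2.Ja], hs0.symm⟩)
  · rw [ht', Cfsg.Agent.Lib.ChevInv.CentG.cent_eq Cfsg.Agent.Lib.ChevInv.CentG.TabG2.hF Cfsg.Agent.Lib.ChevInv.CentG.TabG2.tabb]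
    apply le_antisymm
    · unfold Cfsg.Agent.Lib.Chev.Full.rootClosure
      rw [Subgroup.closure_le]
      rintro g ⟨s, c, hs, hg⟩
      rcases hs with ⟨⟨h1, h2⟩, h3⟩ | ⟨j, hj, rfl⟩
      · rw [hN] at h1
        rw [hn] at h2
        have h3' : s ≠ 7 ∧ s ≠ 8 := by
          simpa [Cfsg.Agent.Lib.ChevInv.CentG.TabG2.KLb] using h3
        have h4 : s = 6 ∨ s = 9 ∨ s = 10 ∨ s = 11 := by omega
        rcases h4 with rfl | rfl | rfl | rfl
        · exact Subgroup.mem_sup_left (Subgroup.mem_sup_right (hgen 6 c g hg))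
        · exact Subgroup.mem_sup_left (Subgroup.mem_sup_left (Subgroup.mem_sup_left (Subgroup.mem_sup_left (hgen 9 c g hg))))
        · exact Subgroup.mem_sup_left (Subgroup.mem_sup_left (Subgroup.mem_sup_left (Subgroup.mem_sup_right (hgen 10 c g hg))))
        · exact Subgroup.mem_sup_left (Subgroup.mem_sup_left (Subgroup.mem_sup_right (hgen 11 c g hg)))
      · have hj0 : j = 1 := by simpa [Cfsg.Agent.Lib.ChevInv.CentG.TabG2.Jb] using hj
        subst hj0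
        rw [hs1] at hg
        exact Subgroup.mem_sup_right (hgen 5 c g hg)
    · have hpos : ∀ a : ℕ, 6 ≤ a → a < 12 → a ≠ 7 → a ≠ 8 → Cfsg.Lie.chevG2.rootSubgroup F a ≤
          Cfsg.Agent.Lib.Chev.Full.rootClosure Cfsg.Lie.chevG2 F (Cfsg.Agent.Lib.ChevInv.CentG.QC Cfsg.Agent.Lib.Chev.RootG2T.R Cfsg.Lie.chevG2 Cfsg.Agent.Lib.ChevInv.CentG.TabG2.Jb (Cfsg.Agent.Lib.ChevInv.CentG.TabG2.KLb.map Prod.fst)) := by
        intro a h1 h2 h3 h4
        apply hmem
        refine Or.inl ⟨⟨by rw [hN]; exact h1, by rw [hn]; exact h2⟩, ?_⟩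
        simp [Cfsg.Agent.Lib.ChevInv.CentG.TabG2.KLb, h3, h4]
      refine sup_le (sup_le (sup_le (sup_le ?_ ?_) ?_) ?_) ?_
      · exact hpos 9 (by omega) (by omega) (by omega) (by omega)
      · exact hpos 10 (by omega) (by omega) (by omega) (by omega)
      · exact hpos 11 (by omega) (by omega) (by omega) (by omega)
      · exact hpos 6 (by omega) (by omega) (by omega) (by omega)
      · exact hmem _ 5 (Or.inr ⟨1, by simp [Cfsg.Agent.Lib.ChevInv.CentG.TabG2.Jb], hs1.symm⟩)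

end Cfsg.Agent.S2180
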