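import Mathlib
-- Template for statement S2186 (row 2186; see /opt/grader/pristine/manifest.json for weights).
-- Copy to Cfsg/Agent/S2186.lean and replace the sorry. The statement below is byte-identical to the frozen
-- statement Cfsg.CfsgFrozen.S2186 (Cfsg/Statements/S2186.lean; the theorem Cfsg.lie2_highest_root_subgroup_pairs_char_two);
-- the grader kernel-checks Cfsg.Agent.S2186.result against that frozen type. Keep the theorem IN THIS FILE
-- (a `result` declared elsewhere and merely imported here is not credited); helpers may live anywhere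
-- under Cfsg/Agent/.
import Cfsg.Statements.S2186
import Cfsg.Agent.Lib.ChevAut.LongRoot
import Cfsg.Agent.Lib.Chev.RelG2
import Cfsg.Agent.Lib.Chev.RootG2
import Cfsg.Agent.Lib.Chev.RelD4
import Cfsg.Agent.Lib.Chev.RootD4
import Cfsg.Agent.Lib.Chev.RelE6
import Cfsg.Agent.Lib.Chev.RootE6
import Cfsg.Agent.Lib.Chev.RelE7
import Cfsg.Agent.Lib.Chev.RootE7
import Cfsg.Agent.Lib.Chev.RelE8
import Cfsg.Agent.Lib.Chev.RootE8
-- import your own Cfsg.Agent.* helpers here

set_option autoImplicit false
open Cfsg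

namespace Cfsg.Agent.S2186

open Cfsg.Lie Cfsg.Agent.Lib.Chev Cfsg.Agent.Lib.ChevAut.LongRoot

/-- Let G be the Chevalley group of type G₂ (over a field with at least four elements), D₄, E₆, E₇ or E₈ over a finite field F of characteristic two, and let X be the root subgroup of the highest root (the last root index) — a long root subgroup, of order |F|. For every g in G, the subgroup generated by X and its conjugate g X g⁻¹ is either a 2-group or is conjugate by an element of G to the subgroup generated by X and the root subgroup of the lowest root (index 0, the negative of the highest root), which is a copy of SL₂(F). -/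
theorem result {F : Type*} [Field F] [Fintype F] [CharP F 2] (D : Cfsg.Lie.ChevalleyDatum) (hD : D ∈ [Cfsg.Lie.chevG2, Cfsg.Lie.chevD4, Cfsg.Lie.chevE6, Cfsg.Lie.chevE7, Cfsg.Lie.chevE8]) (hF : D = Cfsg.Lie.chevG2 → 4 ≤ Fintype.card F) (g : GL D.Idx F) (hg : g ∈ D.group F) :
    IsPGroup 2 ↥(D.rootSubgroup F (D.nroots - 1) ⊔ (D.rootSubgroup F (D.nroots - 1)).map (MulAut.conj g).toMonoidHom) ∨
    ∃ h ∈ D.group F, (D.rootSubgroup F (D.nroots - 1) ⊔ (D.rootSubgroup F (D.nroots - 1)).map (MulAut.conj g).toMonoidHom).map (MulAut.conj h).toMonoidHom = D.rootSubgroup F (D.nroots - 1) ⊔ D.rootSubgroup F 0 := by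
  haveI : Fact (Nat.Prime 2) := ⟨Nat.prime_two⟩
  simp only [List.mem_cons, List.not_mem_nil, or_false] at hD
  have key : ∀ {T : Tabs} {X : Extra} {R : RootTab} {D : ChevalleyDatum} (hFl : Full T X R D) (g : GL D.Idx F) (hg : g ∈ D.group F),
      (0 < D.nroots ∧ R.N ≤ D.nroots - 1 ∧ D.neg (D.nroots - 1) = 0 ∧
        ∀ s < D.nroots, s = D.nroots - 1 ∨ s = D.neg (D.nroots - 1) ∨ ∃ i < D.rank, ∃ j < D.rank,
          R.rcAt (D.nroots - 1) i * R.rcAt s j - R.rcAt (D.nroots - 1) j * R.rcAt s i ≠ 0) →
      IsPGroup 2 ↥(D.rootSubgroup F (D.nroots - 1) ⊔ (D.rootSubgroup F (D.nroots - 1)).map (MulAut.conj g).toMonoidHom) ∨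
      ∃ h ∈ D.group F, (D.rootSubgroup F (D.nroots - 1) ⊔ (D.rootSubgroup F (D.nroots - 1)).map (MulAut.conj g).toMonoidHom).map (MulAut.conj h).toMonoidHom = D.rootSubgroup F (D.nroots - 1) ⊔ D.rootSubgroup F 0 := by
    rintro T X R D hFl g hg ⟨h0, h1, h2, h3⟩
    have := pair_dichotomy hFl 2 (top := D.nroots - 1) (by omega) (fun s hs => by omega) h1 h3 hg
    rwa [h2] at this
  rcases hD with rfl | rfl | rfl | rfl | rfl
  · exact key (⟨RelG2.checks, RootG2.checks⟩ : Full _ _ _ chevG2) g hg (by decide +kernel)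
  · exact key (⟨RelD4.checks, RootD4.checks⟩ : Full _ _ _ chevD4) g hg (by decide +kernel)
  · exact key (⟨RelE6.checks, RootE6.checks⟩ : Full _ _ _ chevE6) g hg (by decide +kernel)
  · exact key (⟨RelE7.checks, RootE7.checks⟩ : Full _ _ _ chevE7) g hg (by decide +kernel)
  · exact key (⟨RelE8.checks, RootE8.checks⟩ : Full _ _ _ chevE8) g hg (by decide +kernel)

end Cfsg.Agent.S2186
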