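import Cfsg.Statements.S2214
import Cfsg.Agent.Lib.ChevFrob50
import Cfsg.Agent.Lib.Chev.Core

set_option autoImplicit false
open Cfsg

namespace Cfsg.Agent.S2214

/-- Let k be an algebraically closed field of prime characteristic p, G the adjoint Chevalley group of type G₂, B₂, D₄, F₄, E₆, E₇ or E₈ over k (the matrix group generated by the root elements x_s(t), t ∈ k, acting on the Lie algebra), q = p^a with a ≥ 1, and K a subgroup of G containing every root element x_s(t) with t^q = t and consisting of matrices all of whose entries c satisfy c^q = c. Then the centralizer of K in G is trivial, and the normalizer of K in G is exactly the set of elements of G all of whose entries c satisfy c^q = c. -/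
theorem result {k : Type*} [Field k] [IsAlgClosed k] (p : ℕ) [Fact p.Prime] [CharP k p] (D : Cfsg.Lie.ChevalleyDatum) (hD : D ∈ [Cfsg.Lie.chevG2, Cfsg.Lie.chevB2, Cfsg.Lie.chevD4, Cfsg.Lie.chevF4, Cfsg.Lie.chevE6, Cfsg.Lie.chevE7, Cfsg.Lie.chevE8]) (a : ℕ) (ha : 1 ≤ a) (K : Subgroup (GL D.Idx k)) (hKG : K ≤ D.group k)
    (hLK : Subgroup.closure {g : GL D.Idx k | ∃ (s : ℕ) (t : k), t ^ (p ^ a) = t ∧ (g : Matrix D.Idx D.Idx k) = D.x k s t} ≤ K)
    (hKfix : ∀ g ∈ K, ∀ i j : D.Idx, ((g : Matrix D.Idx D.Idx k) i j) ^ (p ^ a) = (g : Matrix D.Idx D.Idx k) i j) :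
    D.group k ⊓ Subgroup.centralizer (K : Set (GL D.Idx k)) = ⊥ ∧
    ∀ g : GL D.Idx k, g ∈ D.group k → (g ∈ Subgroup.normalizer (K : Set (GL D.Idx k)) ↔ ∀ i j : D.Idx, ((g : Matrix D.Idx D.Idx k) i j) ^ (p ^ a) = (g : Matrix D.Idx D.Idx k) i j) := by
  obtain ⟨T, X, R, hF⟩ := Cfsg.Agent.Lib.Chev.exists_full D hD
  set σ : k ≃+* k := iterateFrobeniusEquiv k p a with hσ
  have hσv : ∀ x : k, σ x = x ^ p ^ a := fun x => iterateFrobeniusEquiv_def k p a x
  have hL : Cfsg.Agent.Lib.ChevFrob50.Ls D σ ≤ K := by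
    refine le_trans ?_ hLK
    apply Subgroup.closure_mono
    rintro g ⟨s, t, ht, hg⟩
    exact ⟨s, t, by rw [← hσv]; exact ht, hg⟩
  have hfixK : ∀ x ∈ K, Cfsg.Agent.Lib.ChevFix.glM D (σ : k →+* k) x = x := by
    intro x hx
    apply Units.ext
    ext i j
    rw [Cfsg.Agent.Lib.ChevFix.glM_val, Matrix.map_apply]
    show σ _ = _
    rw [hσv]
    exact hKfix x hx i j
  refine ⟨Cfsg.Agent.Lib.ChevFrob50.centralizer_eq_bot σ hF hL, fun g hg => ?_⟩
  rw [Cfsg.Agent.Lib.ChevFrob50.mem_normalizer_iff σ hF hL hKG hfixK hg]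
  constructor
  · intro h i j
    have h1 := congrArg (fun z : GL D.Idx k => (z : Matrix D.Idx D.Idx k) i j) h
    simp only [Cfsg.Agent.Lib.ChevFix.glM_val, Matrix.map_apply] at h1
    rw [← hσv]
    exact h1
  · intro h
    apply Units.ext
    ext i j
    rw [Cfsg.Agent.Lib.ChevFix.glM_val, Matrix.map_apply]
    show σ _ = _
    rw [hσv]
    exact h i j

end Cfsg.Agent.S2214
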