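import Mathlib
import Cfsg.Statements.S2221
import Cfsg.Agent.Lib.AltSylDecC

set_option autoImplicit false
open Cfsg

namespace Cfsg.Agent.S2221

open Equiv Cfsg.Agent.Lib.NilpPerm Cfsg.Agent.Lib.AltSylDec

set_option linter.unusedSectionVars false
set_option linter.unusedVariables false

section prod

variable {I : Type} [Fintype I] [DecidableEq I] (a : I → ℕ)

/-- The factors of the product. -/
noncomputable def twF (i : I) : Tw (a i) := Classical.choice (nonempty_tw (a i))

/-- The signs of the factors. -/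
noncomputable def sgF : ∀ i, (twF a i).K →* ℤˣ := fun i => (twF a i).sg

theorem signFactors (ha : ∀ i, 2 ≤ a i) : SignFactors (sgF a) where
  even_center i z hz := (twF a i).central_even (ha i) z hz
  ci i := (twF a i).ci (ha i)
  comm i := (twF a i).comm (ha i)
  odd i := by
    obtain ⟨o, ho, hs⟩ := (twF a i).odd (by have := ha i; omega)
    exact ⟨⟨o, ho⟩, hs⟩

/-- The permutation representation of the product. -/
noncomputable def phiF : (Π i, (twF a i).K) →* Perm (Σ i, (twF a i).Y) where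
  toFun w := Perm.sigmaCongrRight (fun i => (w i).1)
  map_one' := Perm.sigmaCongrRight_one
  map_mul' u v := (Perm.sigmaCongrRight_mul _ _).symm

theorem phiF_injective : Function.Injective (phiF a) := by
  intro u v huv
  funext i
  apply Subtype.ext
  have h1 : (phiF a) u = (phiF a) v := huv
  exact congrFun (Perm.sigmaCongrRightHom_injective h1) i

theorem sign_phiF (w : Π i, (twF a i).K) : Perm.sign (phiF a w) = psgn (sgF a) Finset.univ w := by
  change Perm.sign (Perm.sigmaCongrRight (fun i => (w i).1)) = _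
  rw [sign_sigma]
  rfl

theorem finite_pi : Finite (Π i, (twF a i).K) := by
  haveI : ∀ i, Finite (twF a i).K := fun i => (twF a i).finiteK
  infer_instance

theorem card_pi : Nat.card (Π i, (twF a i).K) = 2 ^ (∑ i, (2 ^ a i - 1)) := by
  rw [Nat.card_pi, ← Finset.prod_pow_eq_pow_sum]
  exact Finset.prod_congr rfl (fun i _ => (twF a i).cardK)

theorem card_sigma : Fintype.card (Σ i, (twF a i).Y) = ∑ i, 2 ^ a i := by
  rw [Fintype.card_sigma]
  exact Finset.sum_congr rfl (fun i _ => (twF a i).cardY)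

end prod

section coe

variable (D : Finset ℕ)

/-- The shifted index function. -/
def shift (i : D) : ℕ := i.1 + 2

theorem sum_shift {x : ℕ} (hD : ∑ i ∈ D, 2 ^ i = x) : ∑ i : D, 2 ^ shift D i = 4 * x := by
  rw [← hD, Finset.mul_sum]
  have h1 : ∑ i : D, 2 ^ shift D i = ∑ i ∈ D.attach, 2 ^ (i.1 + 2) := rfl
  rw [h1, Finset.sum_attach D (fun i => 2 ^ (i + 2))]
  exact Finset.sum_congr rfl (fun i _ => by ring)

theorem sum_shift_sub {x : ℕ} (hD : ∑ i ∈ D, 2 ^ i = x) :
    ∑ i : D, (2 ^ shift D i - 1) + D.card = 4 * x := by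
  rw [← sum_shift D hD]
  have h1 : ∀ i : D, 1 ≤ 2 ^ shift D i := fun i => Nat.one_le_two_pow
  have h2 : ∑ i : D, 2 ^ shift D i = ∑ i : D, ((2 ^ shift D i - 1) + 1) :=
    Finset.sum_congr rfl (fun i _ => by have := h1 i; omega)
  rw [h2, Finset.sum_add_distrib]
  simp

end coe

/-- The even case with a single factor. -/
theorem not_dec_single_even {n ε b : ℕ} (P : Sylow 2 (alternatingGroup (Fin n)))
    (hb : 1 ≤ b) (hn : n = 4 * 2 ^ b + ε) (hε : ε < 2) :
    ¬ Dec (P : Subgroup (alternatingGroup (Fin n))) := by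
  classical
  let t : Tw (b + 2) := Classical.choice (nonempty_tw (b + 2))
  haveI := t.finiteK
  obtain ⟨o, ho, hso⟩ := t.odd (by omega)
  have hp : (2 : ℕ) ^ (b + 2) = 4 * 2 ^ b := by ring
  have h2 : 2 * Nat.card t.sg.ker = Nat.card t.K := two_mul_card_ker t.sg (o := ⟨o, ho⟩) hso
  have h4 : 4 ≤ 4 * 2 ^ b := by
    have : 1 ≤ 2 ^ b := Nat.one_le_two_pow
    omega
  have hs2 : s2 n - 1 = 4 * 2 ^ b - 2 := by
    rw [s2_eq_sub, hn, ds_four _ _ (by omega), ds_two_pow]
    omega
  have hcard : Nat.card (Evn t.K) = 2 ^ (s2 n - 1) := by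
    have h3 : Nat.card (Evn t.K) = Nat.card t.sg.ker := rfl
    rw [h3, hs2]
    rw [t.cardK, hp] at h2
    have e : 4 * 2 ^ b - 1 = (4 * 2 ^ b - 2) + 1 := by omega
    rw [e, pow_succ] at h2
    omega
  obtain ⟨e⟩ := model_even (ε := ε) P (X := t.Y)
    (by rw [t.cardY, hp, hn]) (G := Evn t.K)
    (t.K.subtype.comp (Evn t.K).subtype)
    (t.K.subtype_injective.comp (Evn t.K).subtype_injective)
    (fun g => g.2) hcard
  intro hdec
  obtain ⟨z, hz⟩ := t.ev (by omega)
  exact not_dec_of_center (t.isP.to_subgroup (Evn t.K)) z hz (Dec.of_mulEquiv e hdec)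

/-- The even case with several factors. -/
theorem not_dec_many_even {n ε x : ℕ} (P : Sylow 2 (alternatingGroup (Fin n))) {D : Finset ℕ}
    (hD : ∑ i ∈ D, 2 ^ i = x) (hc : D.card = ds x) (h2 : 2 ≤ D.card)
    (hn : n = 4 * x + ε) (hε : ε < 2) :
    ¬ Dec (P : Subgroup (alternatingGroup (Fin n))) := by
  classical
  obtain ⟨i, hi, j, hj, hij⟩ := Finset.one_lt_card.1 (by omega : 1 < D.card)
  have hij' : (⟨i, hi⟩ : D) ≠ ⟨j, hj⟩ := fun h => hij (congrArg Subtype.val h)
  have hF := signFactors (shift D) (fun i => by simp [shift])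
  haveI := finite_pi (shift D)
  obtain ⟨o, ho⟩ := hF.odd ⟨i, hi⟩
  have hk := two_mul_card_ker (psgn (sgF (shift D)) Finset.univ) (o := Pi.mulSingle ⟨i, hi⟩ o)
    (by rw [psgn_single, if_pos (Finset.mem_univ _), ho])
  have hsum := sum_shift_sub D hD
  have hs2 : s2 n - 1 = ∑ i : D, (2 ^ shift D i - 1) - 1 := by
    rw [s2_eq_sub, hn, ds_four _ _ (by omega), ← hc]
    have : ε % 2 + ε / 2 = ε := by omega
    omega
  have hcard : Nat.card (evenPart (sgF (shift D))) = 2 ^ (s2 n - 1) := by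
    have hdl : D.card ≤ x := by rw [hc]; exact ds_le x
    have hpos : 1 ≤ ∑ i : D, (2 ^ shift D i - 1) := by omega
    rw [card_pi] at hk
    rw [hs2]
    have e : ∑ i : D, (2 ^ shift D i - 1) = (∑ i : D, (2 ^ shift D i - 1) - 1) + 1 := by omega
    rw [e, pow_succ] at hk
    have h3 : Nat.card (evenPart (sgF (shift D))) = Nat.card (psgn (sgF (shift D)) Finset.univ).ker :=
      rfl
    rw [h3]
    omega
  obtain ⟨e⟩ := model_even (ε := ε) P (X := Σ i : D, (twF (shift D) i).Y)
    (by rw [card_sigma, sum_shift D hD, hn]) (G := evenPart (sgF (shift D)))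
    ((phiF (shift D)).comp (evenPart (sgF (shift D))).subtype)
    ((phiF_injective _).comp (evenPart (sgF (shift D))).subtype_injective)
    (fun g => by
      rw [MonoidHom.comp_apply, sign_phiF]
      exact g.2) hcard
  intro hdec
  exact not_dec_evenPart hF hij' (Dec.of_mulEquiv e hdec)

/-- The odd rest with a single factor. -/
theorem not_dec_single_comp {n ε b : ℕ} (P : Sylow 2 (alternatingGroup (Fin n)))
    (hn : n = 4 * 2 ^ b + ε) (hε : 2 ≤ ε) (hε4 : ε < 4) :
    ¬ Dec (P : Subgroup (alternatingGroup (Fin n))) := by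
  classical
  let t : Tw (b + 2) := Classical.choice (nonempty_tw (b + 2))
  haveI := t.finiteK
  have hp : (2 : ℕ) ^ (b + 2) = 4 * 2 ^ b := by ring
  have h4 : 4 ≤ 4 * 2 ^ b := by
    have : 1 ≤ 2 ^ b := Nat.one_le_two_pow
    omega
  have hs2 : s2 n - 1 = 4 * 2 ^ b - 1 := by
    rw [s2_eq_sub, hn, ds_four _ _ hε4, ds_two_pow]
    have : ε % 2 + ε / 2 = ε - 1 := by omega
    omega
  have hcard : Nat.card t.K = 2 ^ (s2 n - 1) := by
    rw [hs2, t.cardK, hp]
  obtain ⟨e⟩ := model_comp hε P (X := t.Y) (by rw [t.cardY, hp, hn]) t.K.subtype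
    t.K.subtype_injective hcard
  intro hdec
  obtain ⟨ζ, hζ, -⟩ := t.ct (by omega)
  refine not_dec_of_center t.isP ⟨ζ, hζ.mem⟩ ?_ (Dec.of_mulEquiv e hdec)
  intro c hcen
  rcases hζ.uniq c.1 c.2 (fun g hg => congrArg Subtype.val (hcen ⟨g, hg⟩)) with h | h
  · exact Or.inl (Subtype.ext h)
  · exact Or.inr (Subtype.ext h)

/-- The odd rest with several factors. -/
theorem dec_many_comp {n ε x : ℕ} (P : Sylow 2 (alternatingGroup (Fin n))) {D : Finset ℕ}
    (hD : ∑ i ∈ D, 2 ^ i = x) (hc : D.card = ds x) (h2 : 2 ≤ D.card)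
    (hn : n = 4 * x + ε) (hε : 2 ≤ ε) (hε4 : ε < 4) :
    Dec (P : Subgroup (alternatingGroup (Fin n))) := by
  classical
  obtain ⟨i, hi, j, hj, hij⟩ := Finset.one_lt_card.1 (by omega : 1 < D.card)
  have hij' : (⟨i, hi⟩ : D) ≠ ⟨j, hj⟩ := fun h => hij (congrArg Subtype.val h)
  have hF := signFactors (shift D) (fun i => by simp [shift])
  haveI := finite_pi (shift D)
  have hsum := sum_shift_sub D hD
  have hs2 : s2 n - 1 = ∑ i : D, (2 ^ shift D i - 1) := by
    rw [s2_eq_sub, hn, ds_four _ _ hε4, ← hc]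
    have : ε % 2 + ε / 2 = ε - 1 := by omega
    have hdl : D.card ≤ x := by rw [hc]; exact ds_le x
    omega
  have hcard : Nat.card (Π k : D, (twF (shift D) k).K) = 2 ^ (s2 n - 1) := by
    rw [hs2, card_pi]
  obtain ⟨e⟩ := model_comp hε P (X := Σ i : D, (twF (shift D) i).Y)
    (by rw [card_sigma, sum_shift D hD, hn]) (phiF (shift D)) (phiF_injective _) hcard
  have hnt : ∀ k : D, Nontrivial (twF (shift D) k).K := by
    intro k
    obtain ⟨o, ho⟩ := hF.odd k
    refine ⟨⟨o, 1, ?_⟩⟩
    rintro rfl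
    have h1 : sgF (shift D) k 1 = 1 := map_one _
    rw [h1] at ho
    exact absurd ho (by decide)
  exact Dec.of_mulEquiv e.symm (dec_pi hij' (hnt _) (hnt _))

/-- The case of four or five points. -/
theorem dec_small {n : ℕ} (P : Sylow 2 (alternatingGroup (Fin n))) (h : n = 4 ∨ n = 5) :
    Dec (P : Subgroup (alternatingGroup (Fin n))) := by
  have hcard : Nat.card (P : Subgroup (alternatingGroup (Fin n))) = 4 := by
    have := card_sylow_alt P
    rw [this]
    rcases h with rfl | rfl
    · decide +kernel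
    · decide +kernel
  apply dec_of_card_four hcard
  intro y
  have hy4 : y ^ 4 = 1 := by
    have := pow_card_eq_one' (x := y)
    rwa [hcard] at this
  apply Subtype.ext
  apply Subtype.ext
  have hs : Perm.sign y.1.1 = 1 := y.1.2
  have h4 : y.1.1 ^ 4 = 1 := by
    have := congrArg (fun u : (P : Subgroup (alternatingGroup (Fin n))) => u.1.1) hy4
    simpa using this
  rcases h with rfl | rfl
  · exact sq_of_A4 _ hs h4
  · exact sq_of_A5 _ hs h4

/-- The main equivalence. -/
theorem main (n : ℕ) (hn : 4 ≤ n) (P : Sylow 2 (alternatingGroup (Fin n))) :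
    Dec (P : Subgroup (alternatingGroup (Fin n))) ↔
      (n = 4 ∨ n = 5 ∨ ((n % 4 = 2 ∨ n % 4 = 3) ∧ ∀ r : ℕ, 4 * (n / 4) ≠ 2 ^ r)) := by
  obtain ⟨D, hD, hc⟩ := exists_rep (n / 4)
  have hx1 : 1 ≤ n / 4 := by omega
  have hnx : n = 4 * (n / 4) + n % 4 := by omega
  have hε4 : n % 4 < 4 := Nat.mod_lt _ (by norm_num)
  by_cases hε : n % 4 < 2
  · by_cases hx : n / 4 = 1
    · have h45 : n = 4 ∨ n = 5 := by omega
      exact ⟨fun _ => by tauto, fun _ => dec_small P h45⟩
    · have h2 : 2 ≤ n / 4 := by omega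
      constructor
      · intro hdec
        exfalso
        rcases rep_cases hx1 hD with ⟨b, hb⟩ | h2'
        · have hb1 : 1 ≤ b := by
            rcases Nat.eq_zero_or_pos b with rfl | h
            · simp at hb
              omega
            · exact h
          rw [hb] at hnx
          exact not_dec_single_even P hb1 hnx hε hdec
        · exact not_dec_many_even P hD hc h2' hnx hε hdec
      · rintro (h | h | ⟨h | h, -⟩) <;> omega
  · have hε2 : 2 ≤ n % 4 := by omega
    by_cases hp : ∃ b, n / 4 = 2 ^ b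
    · obtain ⟨b, hb⟩ := hp
      constructor
      · intro hdec
        exfalso
        rw [hb] at hnx
        exact not_dec_single_comp P hnx hε2 hε4 hdec
      · rintro (h | h | ⟨-, h⟩)
        · omega
        · omega
        · exact absurd (by rw [hb, pow_add]; ring) (h (b + 2))
    · have h2' : 2 ≤ D.card := (rep_cases hx1 hD).resolve_left hp
      refine ⟨fun _ => Or.inr (Or.inr ⟨by omega, ?_⟩), fun _ => dec_many_comp P hD hc h2' hnx hε2 hε4⟩
      intro r hr
      apply hp
      have hr2 : 2 ≤ r := by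
        rcases r with _ | _ | r
        · omega
        · omega
        · omega
      obtain ⟨s, rfl⟩ : ∃ s, r = s + 2 := ⟨r - 2, by omega⟩
      refine ⟨s, ?_⟩
      rw [pow_add] at hr
      omega

/-- Direct decomposability of the Sylow 2-subgroups of the alternating groups. Let n ≥ 4 and let P be a Sylow 2-subgroup of the alternating group of degree n. Then P is the internal direct product of two nontrivial subgroups if and only if n = 4, n = 5, or n ≡ 2, 3 (mod 4) with 4⌊n/4⌋ not a power of 2. In the remaining cases (n ≡ 0, 1 (mod 4) with n ≥ 8, or n ≡ 2, 3 (mod 4) with 4⌊n/4⌋ a power of 2) P is directly indecomposable. -/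
theorem result (n : ℕ) (hn : 4 ≤ n)
    (P : Sylow 2 (alternatingGroup (Fin n))) :
    (∃ S₁ S₂ : Subgroup (alternatingGroup (Fin n)), S₁ ≠ ⊥ ∧ S₂ ≠ ⊥ ∧
        Cfsg.IsInternalDirectProduct S₁ S₂ (P : Subgroup (alternatingGroup (Fin n)))) ↔
      (n = 4 ∨ n = 5 ∨ ((n % 4 = 2 ∨ n % 4 = 3) ∧ ∀ r : ℕ, 4 * (n / 4) ≠ 2 ^ r)) :=
  (exists_decomp_iff (P : Subgroup (alternatingGroup (Fin n)))).trans (main n hn P)

end Cfsg.Agent.S2221
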