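import Mathlib
import Cfsg.Statements.S2222
import Cfsg.Agent.Lib.SymSylow2

set_option autoImplicit false
open Cfsg

namespace Cfsg.Agent.S2222

theorem mem_map_conj {G : Type*} [Group G] (H : Subgroup G) (g x : G) :
    x ∈ H.map (MulAut.conj g).toMonoidHom ↔ g⁻¹ * x * g ∈ H := by
  constructor
  · rintro ⟨y, hy, rfl⟩
    have : g⁻¹ * ((MulAut.conj g).toMonoidHom y) * g = y := by
      simp [MulAut.conj_apply, mul_assoc]
    rw [this]
    exact hy
  · intro h
    refine ⟨_, h, ?_⟩
    simp [MulAut.conj_apply, mul_assoc]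

theorem mem_smul_sylow {G : Type*} [Group G] {p : ℕ} (S : Sylow p G) (g x : G) :
    x ∈ (g • S : Sylow p G) ↔ g⁻¹ * x * g ∈ S := by
  rw [← SetLike.mem_coe, Sylow.coe_smul]
  constructor
  · rintro ⟨z, hz, rfl⟩
    have : g⁻¹ * (MulAut.conj g • z) * g = z := by
      simp [MulAut.conj_apply, MulAut.smul_def, mul_assoc]
    rw [this]
    exact hz
  · intro h
    refine ⟨_, h, ?_⟩
    simp [MulAut.conj_apply, MulAut.smul_def, mul_assoc]

theorem pronormal_of_sylow_normalizer {G : Type*} [Group G] [Finite G] {p : ℕ} [Fact p.Prime]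
    (H : Subgroup G) (S : Sylow p G) (hSH : (S : Subgroup G) ≤ H)
    (hN : Subgroup.normalizer ((S : Subgroup G) : Set G) ≤ H) : Cfsg.IsPronormal H := by
  intro g
  have h1 : (S : Subgroup G) ≤ H ⊔ H.map (MulAut.conj g).toMonoidHom := hSH.trans le_sup_left
  have h2 : (g • S : Sylow p G) ≤ H ⊔ H.map (MulAut.conj g).toMonoidHom := by
    intro x hx
    have hx' := (mem_smul_sylow S g x).1 hx
    exact (le_sup_right : _ ≤ H ⊔ H.map (MulAut.conj g).toMonoidHom)
      ((mem_map_conj H g x).2 (hSH hx'))
  obtain ⟨j, hj, hjS⟩ := Cfsg.Agent.Lib.SymSylow2.exists_conj_in_join S _ h1 g h2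
  refine ⟨j, hj, ?_⟩
  have hn : g⁻¹ * j ∈ Subgroup.normalizer ((S : Subgroup G) : Set G) := by
    exact Sylow.smul_eq_iff_mem_normalizer.1 (by rw [mul_smul, hjS, inv_smul_smul])
  have hh := hN hn
  ext x
  rw [mem_map_conj, mem_map_conj]
  have e : j⁻¹ * x * j = (g⁻¹ * j)⁻¹ * (g⁻¹ * x * g) * (g⁻¹ * j) := by group
  rw [e]
  constructor
  · intro h
    exact mul_mem (mul_mem (inv_mem hh) h) hh
  · intro h
    have e2 : g⁻¹ * x * g = (g⁻¹ * j) * ((g⁻¹ * j)⁻¹ * (g⁻¹ * x * g) * (g⁻¹ * j)) * (g⁻¹ * j)⁻¹ := by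
      group
    rw [e2]
    exact mul_mem (mul_mem hh h) (inv_mem hh)

theorem pronormal_of_sylow {G : Type*} [Group G] [Finite G] {p : ℕ} [Fact p.Prime]
    (S : Sylow p G) : Cfsg.IsPronormal (S : Subgroup G) := by
  intro g
  have h1 : (S : Subgroup G) ≤ (S : Subgroup G) ⊔ (S : Subgroup G).map (MulAut.conj g).toMonoidHom :=
    le_sup_left
  have h2 : (g • S : Sylow p G) ≤ (S : Subgroup G) ⊔ (S : Subgroup G).map (MulAut.conj g).toMonoidHom := by
    intro x hx
    have hx' := (mem_smul_sylow S g x).1 hx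
    exact (le_sup_right : _ ≤ (S : Subgroup G) ⊔ (S : Subgroup G).map (MulAut.conj g).toMonoidHom)
      ((mem_map_conj _ g x).2 hx')
  obtain ⟨j, hj, hjS⟩ := Cfsg.Agent.Lib.SymSylow2.exists_conj_in_join S _ h1 g h2
  refine ⟨j, hj, ?_⟩
  ext x
  rw [mem_map_conj, mem_map_conj]
  have h3 := mem_smul_sylow S g x
  have h4 := mem_smul_sylow S j x
  rw [hjS] at h4
  exact h3.symm.trans h4

theorem pronormal_of_prime_index {G : Type*} [Group G] [Finite G] (H : Subgroup G)
    (hp : H.index.Prime) : Cfsg.IsPronormal H := by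
  intro g
  have hdvd : (H ⊔ H.map (MulAut.conj g).toMonoidHom).index ∣ H.index :=
    Subgroup.index_dvd_of_le le_sup_left
  rcases (Nat.dvd_prime hp).1 hdvd with h1 | h1
  · rw [Subgroup.index_eq_one] at h1
    refine ⟨g, ?_, rfl⟩
    rw [h1]
    exact Subgroup.mem_top g
  · have hJ : H ⊔ H.map (MulAut.conj g).toMonoidHom = H := by
      symm
      apply Subgroup.eq_of_le_of_card_ge le_sup_left
      have e1 := (H ⊔ H.map (MulAut.conj g).toMonoidHom).card_mul_index
      have e2 := H.card_mul_index
      rw [h1] at e1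
      have : 0 < H.index := Nat.pos_of_ne_zero Subgroup.index_ne_zero_of_finite
      have := Nat.eq_of_mul_eq_mul_right this (e1.trans e2.symm)
      exact this.le
    have hle : H.map (MulAut.conj g).toMonoidHom ≤ H :=
      (le_sup_right : _ ≤ H ⊔ H.map (MulAut.conj g).toMonoidHom).trans hJ.le
    have heq : H.map (MulAut.conj g).toMonoidHom = H := by
      apply Subgroup.eq_of_le_of_card_ge hle
      have : Nat.card H = Nat.card (H.map (MulAut.conj g).toMonoidHom) :=
        Nat.card_congr (H.equivMapOfInjective _ (MulAut.conj g).injective).toEquiv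
      exact this.le
    refine ⟨1, one_mem _, ?_⟩
    rw [heq]
    ext x
    rw [mem_map_conj]
    simp

/-- In the alternating group of degree n ≥ 5 every subgroup H of odd index is pronormal: for every element g, the subgroups H and gHg⁻¹ are conjugate by an element of the subgroup they generate. -/
theorem result (n : ℕ) (hn : 5 ≤ n)
    (H : Subgroup (alternatingGroup (Fin n))) (hH : Odd H.index) : Cfsg.IsPronormal H := by
  classical
  by_cases h6 : 6 ≤ n
  · obtain ⟨S, hS⟩ := Cfsg.Agent.Lib.SymSylow2.exists_sylow_le_of_not_dvd_index (p := 2) H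
      (by
        intro hd
        rcases hH with ⟨t, ht⟩
        omega)
    exact pronormal_of_sylow_normalizer H S hS
      ((Cfsg.Agent.Lib.SymSylow2.alt_sylow_normalizer_le h6 S).trans hS)
  · obtain rfl : n = 5 := by omega
    have hcard : Nat.card (alternatingGroup (Fin 5)) = 60 := by
      rw [nat_card_alternatingGroup]
      simp [Nat.factorial]
    have hmul := H.card_mul_index
    rw [hcard] at hmul
    have hI : H.index ∣ 60 := ⟨_, by rw [← hmul, mul_comm]⟩
    have hI' : H.index ∈ Nat.divisors 60 := Nat.mem_divisors.2 ⟨hI, by norm_num⟩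
    have hdiv : Nat.divisors 60 = {1, 2, 3, 4, 5, 6, 10, 12, 15, 20, 30, 60} := by decide +kernel
    rw [hdiv] at hI'
    simp only [Finset.mem_insert, Finset.mem_singleton] at hI'
    rcases hH with ⟨t, ht⟩
    have hcases : H.index = 1 ∨ H.index = 3 ∨ H.index = 5 ∨ H.index = 15 := by omega
    rcases hcases with h | h | h | h
    · rw [Subgroup.index_eq_one] at h
      intro g
      exact ⟨g, (le_sup_left : H ≤ _) (by rw [h]; exact Subgroup.mem_top g), rfl⟩
    · exact pronormal_of_prime_index H (by rw [h]; norm_num)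
    · exact pronormal_of_prime_index H (by rw [h]; norm_num)
    · have h4 : Nat.card H = 4 := by
        rw [h] at hmul
        omega
      have hf : (Nat.card (alternatingGroup (Fin 5))).factorization 2 = 2 := by
        rw [hcard]
        have : (60 : ℕ) = 2 ^ 2 * 15 := by norm_num
        rw [this, Nat.factorization_mul (by norm_num) (by norm_num),
          Nat.Prime.factorization_pow Nat.prime_two]
        have h15 : (15 : ℕ).factorization 2 = 0 :=
          Nat.factorization_eq_zero_of_not_dvd (by norm_num)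
        simp [h15]
      have := pronormal_of_sylow (Sylow.ofCard (p := 2) H (by rw [hf, h4]; norm_num))
      simpa using this

end Cfsg.Agent.S2222
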