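import Mathlib
import Cfsg.Agent.Lib.QdFacts
import Cfsg.Agent.Lib.FixedVec
-- Template for statement S2231 (row 2231; see /opt/grader/pristine/manifest.json for weights).
-- Copy to Cfsg/Agent/S2231.lean and replace the sorry. The statement below is byte-identical to the frozen
-- statement Cfsg.CfsgFrozen.S2231 (Cfsg/Statements/S2231.lean; the theorem Cfsg.kfact3_psl_two_defining_characteristic_qd_free);
-- the grader kernel-checks Cfsg.Agent.S2231.result against that frozen type. Keep the theorem IN THIS FILE
-- (a `result` declared elsewhere and merely imported here is not credited); helpers may live anywhere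
-- under Cfsg/Agent/.
import Cfsg.Statements.S2231
-- import your own Cfsg.Agent.* helpers here

set_option autoImplicit false
open Cfsg

namespace Cfsg.Agent.S2231

section aux

open Matrix

variable {p : ℕ} [hp : Fact p.Prime] {K : Type*} [Field K] [CharP K p]

/-- The stabilizer of a vector in `SL₂`. -/
def stabVec (v : Fin 2 → K) : Subgroup (Matrix.SpecialLinearGroup (Fin 2) K) where
  carrier := {g | (g : Matrix (Fin 2) (Fin 2) K).mulVec v = v}
  mul_mem' := by
    intro a b ha hb
    simp only [Set.mem_ofPred_eq] at *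
    rw [Matrix.SpecialLinearGroup.coe_mul, ← Matrix.mulVec_mulVec, hb, ha]
  one_mem' := by
    show ((1 : Matrix.SpecialLinearGroup (Fin 2) K) : Matrix (Fin 2) (Fin 2) K).mulVec v = v
    rw [Matrix.SpecialLinearGroup.coe_one, Matrix.one_mulVec]
  inv_mem' := by
    intro a ha
    simp only [Set.mem_ofPred_eq] at *
    have h : ((a⁻¹ * a : Matrix.SpecialLinearGroup (Fin 2) K) : Matrix (Fin 2) (Fin 2) K).mulVec v = v := by simp
    rw [Matrix.SpecialLinearGroup.coe_mul, ← Matrix.mulVec_mulVec, ha] at h
    exact h

theorem stabVec_isPGroup (v : Fin 2 → K) (hv : v ≠ 0) : IsPGroup p (stabVec v) := by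
  rintro ⟨g, hg⟩
  refine ⟨1, ?_⟩
  apply Subtype.ext
  apply Subtype.ext
  simp only [pow_one, Subgroup.coe_pow, Matrix.SpecialLinearGroup.coe_pow, Subgroup.coe_one,
    Matrix.SpecialLinearGroup.coe_one]
  have hg' : (g : Matrix (Fin 2) (Fin 2) K).mulVec v = v := hg
  have hdet : (g : Matrix (Fin 2) (Fin 2) K).det = 1 := g.2
  set M : Matrix (Fin 2) (Fin 2) K := (g : Matrix (Fin 2) (Fin 2) K) with hM
  rw [Matrix.det_fin_two] at hdet
  have e0 := congrFun hg' 0
  have e1 := congrFun hg' 1
  simp only [Matrix.mulVec, dotProduct, Fin.sum_univ_two] at e0 e1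
  have htr : M 0 0 + M 1 1 = 2 := by
    by_cases h0 : v 0 = 0
    · have h1 : v 1 ≠ 0 := by
        intro h1
        apply hv
        funext i
        fin_cases i
        · exact h0
        · exact h1
      apply mul_right_cancel₀ h1
      rw [h0] at e0 e1
      linear_combination (v 1) * hdet + (M 1 0) * e0 - (M 0 0) * e1 + e1
    · apply mul_right_cancel₀ h0
      linear_combination -(M 1 1 - 1) * e0 + (M 0 1) * e1 + (v 0) * hdet
  have hN : (M - 1) * (M - 1) = 0 := by
    ext i j
    fin_cases i <;> fin_cases j <;>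
      simp only [Matrix.mul_apply, Fin.sum_univ_two, Matrix.sub_apply, Matrix.one_apply, Matrix.zero_apply] <;>
      simp
    · linear_combination (M 0 0) * htr - hdet
    · linear_combination (M 0 1) * htr
    · linear_combination (M 1 0) * htr
    · linear_combination (M 1 1) * htr - hdet
  have hp2 : 2 ≤ p := hp.out.two_le
  have h1 : (M - 1) ^ p = 0 := by
    apply pow_eq_zero_of_le hp2
    rw [pow_two, hN]
  rw [sub_pow_char_of_commute _ (Commute.one_right M), one_pow, sub_eq_zero] at h1
  exact h1

theorem eq_one_of_fix (x : Matrix.SpecialLinearGroup (Fin 2) K) (v w : Fin 2 → K)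
    (hv : (x : Matrix (Fin 2) (Fin 2) K).mulVec v = v) (hw : (x : Matrix (Fin 2) (Fin 2) K).mulVec w = w)
    (hd : v 0 * w 1 - v 1 * w 0 ≠ 0) : x = 1 := by
  apply Subtype.ext
  set M : Matrix (Fin 2) (Fin 2) K := (x : Matrix (Fin 2) (Fin 2) K) with hM
  have e0 := congrFun hv 0
  have e1 := congrFun hv 1
  have f0 := congrFun hw 0
  have f1 := congrFun hw 1
  simp only [Matrix.mulVec, dotProduct, Fin.sum_univ_two] at e0 e1 f0 f1
  show M = 1
  have h00 : M 0 0 = 1 := by
    apply mul_right_cancel₀ hd
    linear_combination (w 1) * e0 - (v 1) * f0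
  have h01 : M 0 1 = 0 := by
    apply mul_right_cancel₀ hd
    linear_combination (- w 0) * e0 + (v 0) * f0
  have h10 : M 1 0 = 0 := by
    apply mul_right_cancel₀ hd
    linear_combination (w 1) * e1 - (v 1) * f1
  have h11 : M 1 1 = 1 := by
    apply mul_right_cancel₀ hd
    linear_combination (- w 0) * e1 + (v 0) * f1
  ext i j
  fin_cases i <;> fin_cases j <;> simp [h00, h01, h10, h11]

/-- The Sylow `p`-subgroups of `SL₂(K)`, `K` of characteristic `p`, have trivial intersections. -/
theorem TI_SL2 [Finite K] : Cfsg.Agent.Lib.TISylow.TIp p (Matrix.SpecialLinearGroup (Fin 2) K) := by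
  classical
  intro P Q hPQ
  haveI := (Subgroup.nontrivial_iff_ne_bot _).2 hPQ
  obtain ⟨x, hx, hx1⟩ := Subgroup.exists_ne_one_of_nontrivial ((P : Subgroup (Matrix.SpecialLinearGroup (Fin 2) K)) ⊓ Q)
  let ρ : Matrix.SpecialLinearGroup (Fin 2) K →* Matrix (Fin 2) (Fin 2) K := Cfsg.slToMat 2 K
  obtain ⟨v, -, hv0, hvfix⟩ := Cfsg.Agent.Lib.FixedVec.exists_fixed_vector P.isPGroup'
    (ρ.comp (P : Subgroup (Matrix.SpecialLinearGroup (Fin 2) K)).subtype) ⊤ (fun _ _ _ => Submodule.mem_top) (by simp)
  obtain ⟨w, -, hw0, hwfix⟩ := Cfsg.Agent.Lib.FixedVec.exists_fixed_vector Q.isPGroup'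
    (ρ.comp (Q : Subgroup (Matrix.SpecialLinearGroup (Fin 2) K)).subtype) ⊤ (fun _ _ _ => Submodule.mem_top) (by simp)
  have hxv : (x : Matrix (Fin 2) (Fin 2) K).mulVec v = v := hvfix ⟨x, hx.1⟩
  have hxw : (x : Matrix (Fin 2) (Fin 2) K).mulVec w = w := hwfix ⟨x, hx.2⟩
  have hd : v 0 * w 1 - v 1 * w 0 = 0 := by
    by_contra hd
    exact hx1 (eq_one_of_fix x v w hxv hxw hd)
  -- `v` and `w` are proportional
  have hprop : ∃ c : K, c ≠ 0 ∧ v = c • w := by
    by_cases h0 : w 0 = 0
    · have h1 : w 1 ≠ 0 := by
        intro h1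
        apply hw0
        funext i
        fin_cases i
        · exact h0
        · exact h1
      have hv00 : v 0 = 0 := by
        rw [h0] at hd
        have : v 0 * w 1 = 0 := by linear_combination hd
        exact (mul_eq_zero.1 this).resolve_right h1
      refine ⟨v 1 / w 1, ?_, ?_⟩
      · apply div_ne_zero _ h1
        intro h
        apply hv0
        funext i
        fin_cases i
        · exact hv00
        · exact h
      · funext i
        fin_cases i
        · simp [hv00, h0]
        · simp [h1]
    · refine ⟨v 0 / w 0, ?_, ?_⟩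
      · apply div_ne_zero _ h0
        intro h
        apply hv0
        have hv1 : v 1 = 0 := by
          rw [h] at hd
          have : v 1 * w 0 = 0 := by linear_combination -hd
          exact (mul_eq_zero.1 this).resolve_right h0
        funext i
        fin_cases i
        · exact h
        · exact hv1
      · funext i
        fin_cases i
        · simp [h0]
        · simp only [Fin.mk_one, Pi.smul_apply, smul_eq_mul]
          field_simp
          linear_combination -hd
  obtain ⟨c, hc, rfl⟩ := hprop
  have hPle : (P : Subgroup (Matrix.SpecialLinearGroup (Fin 2) K)) ≤ stabVec w := by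
    intro g hg
    have h := hvfix ⟨g, hg⟩
    have h' : (g : Matrix (Fin 2) (Fin 2) K).mulVec (c • w) = c • w := h
    rw [Matrix.mulVec_smul] at h'
    exact smul_right_injective _ hc h'
  have hQle : (Q : Subgroup (Matrix.SpecialLinearGroup (Fin 2) K)) ≤ stabVec w := by
    intro g hg
    exact hwfix ⟨g, hg⟩
  have hS := stabVec_isPGroup (p := p) w hw0
  apply Sylow.ext
  exact (P.is_maximal' hS hPle).symm.trans (Q.is_maximal' hS hQle)

end aux

/-- Let p be an odd prime and K a finite field of characteristic p. Then Qd(p) (the natural semidirect product of an elementary abelian group of order p² by SL₂(p)) is not involved in the projective special linear group PSL₂(K). -/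
theorem result {p : ℕ} [Fact p.Prime] (hp : p ≠ 2) {K : Type*} [Field K] [Fintype K] [CharP K p] : ¬ Cfsg.Involves ↥(Cfsg.qd p) (Matrix.ProjectiveSpecialLinearGroup (Fin 2) K) := by
  classical
  exact Cfsg.Agent.Lib.QdFacts.not_involves_qd hp (QuotientGroup.mk' _) (QuotientGroup.mk'_surjective _)
    (TI_SL2 (K := K))

end Cfsg.Agent.S2231
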