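import Mathlib
import Cfsg.Agent.Lib.QdFacts
import Cfsg.Agent.Lib.SU3Sylow
-- Template for statement S2232 (row 2232; see /opt/grader/pristine/manifest.json for weights).
-- Copy to Cfsg/Agent/S2232.lean and replace the sorry. The statement below is byte-identical to the frozen
-- statement Cfsg.CfsgFrozen.S2232 (Cfsg/Statements/S2232.lean; the theorem Cfsg.kfact3_psu_three_defining_characteristic_qd_free);
-- the grader kernel-checks Cfsg.Agent.S2232.result against that frozen type. Keep the theorem IN THIS FILE
-- (a `result` declared elsewhere and merely imported here is not credited); helpers may live anywhere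
-- under Cfsg/Agent/.
import Cfsg.Statements.S2232
-- import your own Cfsg.Agent.* helpers here

set_option autoImplicit false
open Cfsg

namespace Cfsg.Agent.S2232

/-- Let p be an odd prime, q a power of p and K a finite field with q² elements. Then Qd(p) (the natural semidirect product of an elementary abelian group of order p² by SL₂(p)) is not involved in the projective special unitary group PSU₃(q) realised over K. -/
theorem result {p : ℕ} [Fact p.Prime] (hp : p ≠ 2) {K : Type*} [Field K] [Fintype K] [CharP K p] (n : ℕ) (hn : 1 ≤ n) (hK : Fintype.card K = (p ^ n) ^ 2) : ¬ Cfsg.Involves ↥(Cfsg.qd p) (Cfsg.PSU 3 K (p ^ n)) := by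
  exact Cfsg.Agent.Lib.QdFacts.not_involves_qd hp (QuotientGroup.mk' _) (QuotientGroup.mk'_surjective _)
    (Cfsg.Agent.Lib.SU3Sylow.TI_SU3 hK)

end Cfsg.Agent.S2232
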