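import Mathlib
import Cfsg.Statements.S2240
import Cfsg.Agent.Lib.SuzukiMax

set_option autoImplicit false
open Cfsg

namespace Cfsg.Agent.S2240

open Cfsg.Agent.Lib.SuzukiMax Cfsg.Agent.Lib.Suzuki4 Cfsg.Agent.Lib.Suzuki Cfsg.Agent.Lib.SuzukiBasic
  Cfsg.Agent.Lib.Suzuki2

/-- The subfield of order `2 ^ n`. -/
theorem exists_subfield {F : Type*} [Field F] [Fintype F] [CharP F 2] {N n : ℕ} (hn : 1 ≤ n)
    (hF : Fintype.card F = 2 ^ N) (hd : n ∣ N) :
    ∃ K : Subfield F, Nat.card K = 2 ^ n ∧ ∀ x : F, x ∈ K ↔ x ^ 2 ^ n = x := by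
  classical
  have : Fact (Nat.Prime 2) := ⟨Nat.prime_two⟩
  let K : Subfield F :=
    { carrier := {x | x ^ 2 ^ n = x}
      mul_mem' := by
        intro a b ha hb
        simp only [Set.mem_ofPred_eq] at *
        rw [mul_pow, ha, hb]
      one_mem' := by simp
      add_mem' := by
        intro a b ha hb
        simp only [Set.mem_ofPred_eq] at *
        rw [add_pow_char_pow, ha, hb]
      zero_mem' := by
        simp only [Set.mem_ofPred_eq]
        exact zero_pow (by positivity)
      neg_mem' := by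
        intro a ha
        simp only [Set.mem_ofPred_eq] at *
        rw [CharTwo.neg_eq, ha]
      inv_mem' := by
        intro a ha
        simp only [Set.mem_ofPred_eq] at *
        rw [inv_pow, ha] }
  have hmem : ∀ x : F, x ∈ K ↔ x ^ 2 ^ n = x := fun _ => Iff.rfl
  refine ⟨K, ?_, hmem⟩
  -- cardinality via the cyclic group of units
  have hs : 1 ≤ 2 ^ n := Nat.one_le_two_pow
  have hker := IsCyclic.card_powMonoidHom_ker Fˣ (2 ^ n - 1)
  have hcardU : Nat.card Fˣ = 2 ^ N - 1 := by
    rw [Nat.card_eq_fintype_card, Fintype.card_units, hF]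
  have hdvd : 2 ^ n - 1 ∣ 2 ^ N - 1 := by
    obtain ⟨d, rfl⟩ := hd
    rw [pow_mul]
    simpa using Nat.sub_dvd_pow_sub_pow (2 ^ n) 1 d
  rw [hcardU, Nat.gcd_eq_right hdvd] at hker
  let f : Option (powMonoidHom (2 ^ n - 1) : Fˣ →* Fˣ).ker → K := fun o =>
    match o with
    | none => 0
    | some u => ⟨(u.1 : F), by
        rw [hmem]
        have h1 : (u.1 : Fˣ) ^ (2 ^ n - 1) = 1 := u.2
        have h2 : (u.1 : F) ^ (2 ^ n - 1) = 1 := by
          have := congrArg Units.val h1
          simpa using this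
        calc (u.1 : F) ^ 2 ^ n = (u.1 : F) ^ (2 ^ n - 1 + 1) := by rw [Nat.sub_add_cancel hs]
          _ = (u.1 : F) := by rw [pow_succ, h2, one_mul]⟩
  have hf : Function.Bijective f := by
    constructor
    · rintro (_ | u) (_ | v) h
      · rfl
      · exfalso
        have h1 := congrArg Subtype.val h
        exact v.1.ne_zero h1.symm
      · exfalso
        have h1 := congrArg Subtype.val h
        exact u.1.ne_zero h1
      · have h1 : (u.1 : F) = v.1 := congrArg Subtype.val h
        congr 1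
        exact Subtype.ext (Units.ext h1)
    · rintro ⟨x, hx⟩
      by_cases hx0 : x = 0
      · subst hx0
        exact ⟨none, rfl⟩
      · refine ⟨some ⟨Units.mk0 x hx0, ?_⟩, rfl⟩
        show (Units.mk0 x hx0) ^ (2 ^ n - 1) = 1
        apply Units.ext
        simp only [Units.val_pow_eq_pow_val, Units.val_mk0, Units.val_one]
        have h3 : x ^ (2 ^ n - 1 + 1) = x := by rw [Nat.sub_add_cancel hs]; exact hx
        rw [pow_succ] at h3
        exact mul_right_cancel₀ hx0 (h3.trans (one_mul x).symm)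
  rw [← Nat.card_congr (Equiv.ofBijective f hf), Finite.card_option, hker]
  omega

section main

variable {F : Type*} [Field F] [Fintype F] {m : ℕ} [CharP F 2] [SzHyp F m]

/-- The general formula for conjugation of central translations. -/
theorem conj_central (c d e : F) (α : Fˣ) :
    (tt c d * hh α * tt 0 e * (tt c d * hh α)⁻¹ : Cfsg.Sz F m) = tt 0 (phi m (α : F) * α * e) := by
  have h1 : (tt c d * hh α * tt 0 e * (tt c d * hh α)⁻¹ : Cfsg.Sz F m) =
      tt c d * (hh α * tt 0 e) * (hh α)⁻¹ * (tt c d)⁻¹ := by group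
  rw [h1, hh_mul_tt, mul_zero]
  have h2 : (tt c d * (tt 0 (phi m (α : F) * α * e) * hh α) * (hh α)⁻¹ * (tt c d)⁻¹ : Cfsg.Sz F m) =
      tt c d * tt 0 (phi m (α : F) * α * e) * (tt c d)⁻¹ := by group
  rw [h2, conj_tt_zero]

theorem lambda_surj {c : F} (hc : c ≠ 0) : ∃ α : Fˣ, phi m (α : F) * α = c := by
  have hφ : phi m c ≠ 0 := phi_ne_zero hc
  refine ⟨Units.mk0 (phi m c / c) (div_ne_zero hφ hc), ?_⟩
  simp only [Units.val_mk0]
  have h1 : phi m (phi m c / c) = phi m (phi m c) / phi m c := by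
    simp [phi, div_pow]
  rw [h1, phi_phi]
  field_simp

/-- Fixed point argument: a conjugating element must fix infinity. -/
theorem fix_inf_of_conj {b b' : F} (hb : b ≠ 0) {x : Cfsg.Sz F m}
    (h : (tt 0 b : Cfsg.Sz F m) = x * tt 0 b' * x⁻¹) :
    (x : SL4 F) • suzukiPointInfinity F = suzukiPointInfinity F := by
  by_contra hne
  obtain ⟨c, d, hcd⟩ := exists_pt_of_ne x.2 inf_mem_ovoid hne
  have h3 : ((x * tt 0 b' * x⁻¹ : Cfsg.Sz F m) : SL4 F) • ((x : SL4 F) • suzukiPointInfinity F) =
      (x : SL4 F) • suzukiPointInfinity F := by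
    show ((x : SL4 F) * T m 0 b' * ((x : SL4 F))⁻¹) • ((x : SL4 F) • suzukiPointInfinity F) = _
    rw [mul_smul, inv_smul_smul, mul_smul, T_smul_pInf]
  rw [← h, hcd] at h3
  exact hb (T_fix h3).2

/-- The subgroup of central translations attached to a subset closed under addition. -/
def central (A : AddSubgroup F) : Subgroup (Cfsg.Sz F m) where
  carrier := {g | ∃ b ∈ A, g = tt 0 b}
  one_mem' := ⟨0, A.zero_mem, tt_zero.symm⟩
  mul_mem' := by
    rintro _ _ ⟨b, hb, rfl⟩ ⟨b', hb', rfl⟩
    refine ⟨b + b', A.add_mem hb hb', ?_⟩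
    rw [tt_mul, phi_zero]
    simp
  inv_mem' := by
    rintro _ ⟨b, hb, rfl⟩
    refine ⟨b, hb, ?_⟩
    rw [tt_inv, phi_zero]
    simp

theorem mem_central {A : AddSubgroup F} {g : Cfsg.Sz F m} :
    g ∈ central A ↔ ∃ b ∈ A, g = tt 0 b := Iff.rfl

theorem card_central (A : AddSubgroup F) : Nat.card (central A : Subgroup (Cfsg.Sz F m)) = Nat.card A := by
  symm
  refine Nat.card_congr (Equiv.ofBijective
    (fun b : A => (⟨tt 0 b.1, b.1, b.2, rfl⟩ : central A)) ⟨?_, ?_⟩)
  · intro b b' h
    have h1 := congrArg Subtype.val h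
    exact Subtype.ext (tt_inj h1).2
  · rintro ⟨_, b, hb, rfl⟩
    exact ⟨⟨b, hb⟩, rfl⟩

theorem central_elem (A : AddSubgroup F) : Cfsg.IsElementaryAbelian 2 (central A : Subgroup (Cfsg.Sz F m)) := by
  have e := two_zero (F := F)
  refine ⟨⟨⟨?_⟩⟩, ?_⟩
  · rintro ⟨_, b, hb, rfl⟩ ⟨_, b', hb', rfl⟩
    apply Subtype.ext
    show (tt 0 b * tt 0 b' : Cfsg.Sz F m) = tt 0 b' * tt 0 b
    rw [tt_mul, tt_mul, phi_zero, add_comm b b']
  · rintro _ ⟨b, hb, rfl⟩
    rw [pow_two, tt_mul, ← tt_zero, phi_zero]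
    congr 1
    · ring
    · linear_combination b * e

end main

section forward

variable {F : Type*} [Field F] [Fintype F] {m : ℕ} [CharP F 2] [SzHyp F m]

theorem forward (E : Subgroup (Cfsg.Sz F m)) (hE : Cfsg.IsElementaryAbelian 2 E)
    {n : ℕ} (hcard : Nat.card E = 2 ^ n)
    (hTI : ∀ x : Cfsg.Sz F m, E ⊓ E.map (MulAut.conj x).toMonoidHom ≠ ⊥ →
      x ∈ Subgroup.normalizer (E : Set (Cfsg.Sz F m))) (hn : 2 ≤ n) : n ∣ 2 * m + 1 := by
  classical
  have e2 := two_zero (F := F)
  -- `E` lies in a conjugate of the translations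
  have hp : IsPGroup 2 E := by
    rintro ⟨g, hg⟩
    refine ⟨1, Subtype.ext ?_⟩
    simpa using hE.2 g hg
  obtain ⟨T0, hT0⟩ := hp.exists_le_sylow
  obtain ⟨a, ha⟩ := exists_conj_sylow T0
  have hmemT : ∀ g ∈ E, a⁻¹ * g * a ∈ Tsub F m := by
    intro g hg
    have h1 := hT0 hg
    rw [ha] at h1
    obtain ⟨y, hy, rfl⟩ := h1
    have : a⁻¹ * (MulAut.conj a).toMonoidHom y * a = y := by
      simp [MulAut.conj_apply, mul_assoc]
    rw [this]
    exact hy
  -- the additive group
  have hconjE : ∀ g ∈ E, ∃ b : F, g = a * tt 0 b * a⁻¹ := by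
    intro g hg
    obtain ⟨c, d, hcd⟩ := hmemT g hg
    have h1 : (tt c d : Cfsg.Sz F m) * tt c d = 1 := by
      rw [← hcd]
      have h2 := hE.2 g hg
      have h3 : a⁻¹ * g * a * (a⁻¹ * g * a) = a⁻¹ * (g ^ 2) * a := by
        rw [pow_two]; group
      rw [h3, h2]
      group
    rw [tt_mul, ← tt_zero] at h1
    have h4 := (tt_inj h1).2
    have h5 : phi m c * c = 0 := by linear_combination h4 - d * e2
    have hc0 : c = 0 := by
      rcases mul_eq_zero.1 h5 with h6 | h6
      · exact phi_eq_zero h6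
      · exact h6
    subst hc0
    refine ⟨d, ?_⟩
    rw [← hcd]
    group
  let A : AddSubgroup F :=
    { carrier := {b | a * tt 0 b * a⁻¹ ∈ E}
      add_mem' := by
        intro b b' hb hb'
        simp only [Set.mem_ofPred_eq] at *
        have h1 : a * tt 0 (b + b') * a⁻¹ = (a * tt 0 b * a⁻¹) * (a * tt 0 b' * a⁻¹) := by
          have : (tt 0 (b + b') : Cfsg.Sz F m) = tt 0 b * tt 0 b' := by
            rw [tt_mul, phi_zero]
            simp
          rw [this]
          group
        rw [h1]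
        exact mul_mem hb hb'
      zero_mem' := by
        simp only [Set.mem_ofPred_eq]
        rw [tt_zero]
        simp [one_mem]
      neg_mem' := by
        intro b hb
        simp only [Set.mem_ofPred_eq] at *
        rw [CharTwo.neg_eq]
        exact hb }
  have hAmem : ∀ b : F, b ∈ A ↔ a * tt 0 b * a⁻¹ ∈ E := fun _ => Iff.rfl
  have hcardA : Nat.card A = 2 ^ n := by
    rw [← hcard]
    refine Nat.card_congr (Equiv.ofBijective (fun b : A => (⟨a * tt 0 b.1 * a⁻¹, b.2⟩ : E)) ⟨?_, ?_⟩)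
    · intro b b' h
      have h1 : a * (tt 0 b.1 : Cfsg.Sz F m) * a⁻¹ = a * tt 0 b'.1 * a⁻¹ := congrArg Subtype.val h
      have h2 : (tt 0 b.1 : Cfsg.Sz F m) = tt 0 b'.1 := by
        have := congrArg (fun g => a⁻¹ * g * a) h1
        simpa [mul_assoc] using this
      exact Subtype.ext (tt_inj h2).2
    · rintro ⟨g, hg⟩
      obtain ⟨b, rfl⟩ := hconjE g hg
      exact ⟨⟨b, hg⟩, rfl⟩
  have hconjH : ∀ (α : Fˣ) (c : F),
      (a * hh α * a⁻¹) * (a * tt 0 c * a⁻¹) * (a * hh α * a⁻¹)⁻¹ =
        a * tt 0 (phi m (α : F) * α * c) * a⁻¹ := by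
    intro α c
    have h1 : (hh α * tt 0 c * (hh α)⁻¹ : Cfsg.Sz F m) = tt 0 (phi m (α : F) * α * c) := by
      rw [hh_mul_tt, mul_zero, mul_assoc, mul_inv_cancel, mul_one]
    rw [← h1]
    group
  -- the multiplicative property
  have hmul : ∀ l : F, l ≠ 0 → ∀ b' ∈ A, b' ≠ 0 → l * b' ∈ A → ∀ c ∈ A, l * c ∈ A := by
    intro l hl b' hb' hb'0 hlb c hc
    obtain ⟨α, hα⟩ := lambda_surj (m := m) hl
    have hx : a * hh α * a⁻¹ ∈ Subgroup.normalizer (E : Set (Cfsg.Sz F m)) := by
      apply hTI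
      intro hbot
      have hz : a * tt 0 (l * b') * a⁻¹ ∈ E ⊓ E.map (MulAut.conj (a * hh α * a⁻¹)).toMonoidHom := by
        refine ⟨hlb, ⟨_, hb', ?_⟩⟩
        show (a * hh α * a⁻¹) * (a * tt 0 b' * a⁻¹) * (a * hh α * a⁻¹)⁻¹ = _
        rw [hconjH, hα]
      rw [hbot, Subgroup.mem_bot] at hz
      have h1 : (tt 0 (l * b') : Cfsg.Sz F m) = 1 := by
        have := congrArg (fun g => a⁻¹ * g * a) hz
        simpa [mul_assoc] using this
      rw [← tt_zero] at h1
      exact (mul_ne_zero hl hb'0) (tt_inj h1).2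
    have h2 := (Subgroup.mem_normalizer_iff.1 hx (a * tt 0 c * a⁻¹)).1 hc
    rw [hconjH, hα] at h2
    exact h2
  -- pick a non-zero element
  obtain ⟨a0, ha0, ha00⟩ : ∃ a0 ∈ A, a0 ≠ 0 := by
    rcases A.bot_or_exists_ne_zero with h | h
    · exfalso
      rw [h] at hcardA
      simp only [AddSubgroup.card_bot] at hcardA
      have : 2 ^ 2 ≤ 2 ^ n := Nat.pow_le_pow_right (by norm_num) hn
      omega
    · exact h
  have hAfin : Finite A := inferInstance
  let K : Subfield F :=
    { carrier := {c | c * a0 ∈ A}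
      mul_mem' := by
        intro c c' hc hc'
        simp only [Set.mem_ofPred_eq] at *
        by_cases hc0 : c = 0
        · subst hc0
          simp [A.zero_mem]
        · have := hmul c hc0 a0 ha0 ha00 hc (c' * a0) hc'
          rwa [← mul_assoc] at this
      one_mem' := by simpa using ha0
      add_mem' := by
        intro c c' hc hc'
        simp only [Set.mem_ofPred_eq] at *
        rw [add_mul]
        exact A.add_mem hc hc'
      zero_mem' := by simp [A.zero_mem]
      neg_mem' := by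
        intro c hc
        simp only [Set.mem_ofPred_eq] at *
        rw [neg_mul]
        exact A.neg_mem hc
      inv_mem' := by
        intro c hc
        simp only [Set.mem_ofPred_eq] at *
        by_cases hc0 : c = 0
        · subst hc0
          simp [A.zero_mem]
        · have hinj : Function.Injective (fun y : A => (⟨c * y.1, hmul c hc0 a0 ha0 ha00 hc y.1 y.2⟩ : A)) := by
            intro y y' h
            have h1 := congrArg Subtype.val h
            exact Subtype.ext (mul_left_cancel₀ hc0 h1)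
          obtain ⟨y, hy⟩ := (Finite.injective_iff_surjective.1 hinj) ⟨a0, ha0⟩
          have h1 : c * y.1 = a0 := congrArg Subtype.val hy
          have h2 : c⁻¹ * a0 = y.1 := by
            rw [← h1]
            field_simp
          rw [h2]
          exact y.2 }
  have hKmem : ∀ c : F, c ∈ K ↔ c * a0 ∈ A := fun _ => Iff.rfl
  have hcardK : Nat.card K = 2 ^ n := by
    rw [← hcardA]
    refine Nat.card_congr (Equiv.ofBijective (fun c : K => (⟨c.1 * a0, c.2⟩ : A)) ⟨?_, ?_⟩)
    · intro c c' h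
      have h1 : c.1 * a0 = c'.1 * a0 := congrArg Subtype.val h
      exact Subtype.ext (mul_right_cancel₀ ha00 h1)
    · rintro ⟨y, hy⟩
      refine ⟨⟨y / a0, ?_⟩, ?_⟩
      · rw [hKmem]
        have : y / a0 * a0 = y := by field_simp
        rw [this]
        exact hy
      · apply Subtype.ext
        show y / a0 * a0 = y
        field_simp
  have h1 : Nat.card F = Nat.card K ^ Module.finrank K F := Module.natCard_eq_pow_finrank
  rw [hcardK, Nat.card_eq_fintype_card, SzHyp.hF (F := F) (m := m), ← pow_mul] at h1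
  exact ⟨_, Nat.pow_right_injective le_rfl h1⟩

end forward

/-- Elementary abelian TI-subgroups of the Suzuki group: let q = 2^(2m+1) with m ≥ 1, the group realised as the stabiliser in SL₄ of the Suzuki–Tits ovoid, and n ≥ 2. There is an elementary abelian 2-subgroup E of order 2^n that is a TI-subgroup (every conjugate of E meeting E nontrivially is E itself) if and only if n divides 2m + 1. -/
theorem result {F : Type*} [Field F] [Fintype F] {m : ℕ} (hm : 1 ≤ m) (hF : Fintype.card F = 2 ^ (2 * m + 1)) (n : ℕ) (hn : 2 ≤ n) :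
    (∃ E : Subgroup ↥(Cfsg.Sz F m), Cfsg.IsElementaryAbelian 2 E ∧ Nat.card ↥E = 2 ^ n ∧
      ∀ x : ↥(Cfsg.Sz F m), E ⊓ E.map (MulAut.conj x).toMonoidHom ≠ ⊥ → x ∈ Subgroup.normalizer (E : Set ↥(Cfsg.Sz F m))) ↔ n ∣ 2 * m + 1 := by
  have hS : Cfsg.Agent.Lib.Suzuki.SzHyp F m := ⟨hm, hF⟩
  have hch := Cfsg.Agent.Lib.Suzuki.charP_two F m
  have e2 := two_zero (F := F)
  constructor
  · rintro ⟨E, hE, hcard, hTI⟩
    exact forward E hE hcard hTI hn
  · intro hd
    obtain ⟨K, hK, hmem⟩ := exists_subfield (by omega) hF hd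
    refine ⟨central K.toAddSubgroup, central_elem _, ?_, ?_⟩
    · rw [card_central]
      exact hK
    · intro x hx
      rcases (central K.toAddSubgroup ⊓ (central K.toAddSubgroup).map (MulAut.conj x).toMonoidHom).bot_or_exists_ne_one
        with h | ⟨z, hz, hz1⟩
      · exact absurd h hx
      obtain ⟨⟨b, hb, rfl⟩, ⟨_, ⟨b', hb', rfl⟩, hzb⟩⟩ := hz
      have hb0 : b ≠ 0 := by
        rintro rfl
        exact hz1 tt_zero
      have hb'0 : b' ≠ 0 := by
        rintro rfl
        apply hz1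
        rw [← hzb, tt_zero, map_one]
      have hzb' : (tt 0 b : Cfsg.Sz F m) = x * tt 0 b' * x⁻¹ := hzb.symm
      have hfix := fix_inf_of_conj hb0 hzb'
      obtain ⟨c, d, α, rfl⟩ := mem_stab_inf_iff.1 hfix
      rw [conj_central] at hzb'
      have hlam := (tt_inj hzb').2
      have hl : phi m (α : F) * α = b / b' := by
        rw [hlam]
        field_simp
      have hlK : phi m (α : F) * α ∈ K := by
        rw [hl]
        exact K.div_mem hb hb'
      apply Subgroup.mem_normalizer_fintype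
      rintro _ ⟨e, he, rfl⟩
      rw [conj_central]
      exact ⟨_, K.mul_mem hlK he, rfl⟩

end Cfsg.Agent.S2240
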