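import Mathlib
import Cfsg.Statements.S2239
import Cfsg.Agent.Lib.SzSubE
import Cfsg.Agent.S2240

set_option autoImplicit false
open Cfsg

namespace Cfsg.Agent.S2239

/-- Subfield subgroups of the Suzuki group: let q = 2^(2m+1) and s = 2^(2k+1) with m, k ≥ 1 and 2k+1 dividing 2m+1 (so q is a power of s), both groups realised as stabilisers in SL₄ of the Suzuki–Tits ovoid. Then Sz(q) has a subgroup isomorphic to Sz(s), and any two subgroups of Sz(q) isomorphic to Sz(s) are conjugate. -/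
theorem result {F : Type*} [Field F] [Fintype F] {m : ℕ} (hm : 1 ≤ m) (hF : Fintype.card F = 2 ^ (2 * m + 1)) {K : Type*} [Field K] [Fintype K] {k : ℕ} (hk : 1 ≤ k) (hK : Fintype.card K = 2 ^ (2 * k + 1)) (hdiv : 2 * k + 1 ∣ 2 * m + 1) :
    (∃ S : Subgroup ↥(Cfsg.Sz F m), Nonempty (↥S ≃* ↥(Cfsg.Sz K k))) ∧
    ∀ S₁ S₂ : Subgroup ↥(Cfsg.Sz F m), Nonempty (↥S₁ ≃* ↥(Cfsg.Sz K k)) → Nonempty (↥S₂ ≃* ↥(Cfsg.Sz K k)) →
      ∃ g : ↥(Cfsg.Sz F m), S₂ = S₁.map (MulAut.conj g).toMonoidHom := by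
  classical
  haveI : Cfsg.Agent.Lib.Suzuki.SzHyp F m := ⟨hm, hF⟩
  haveI : Cfsg.Agent.Lib.Suzuki.SzHyp K k := ⟨hk, hK⟩
  haveI : CharP F 2 := Cfsg.Agent.Lib.Suzuki.charP_two F m
  haveI : CharP K 2 := Cfsg.Agent.Lib.Suzuki.charP_two K k
  obtain ⟨S₀, hS₀, -⟩ := Cfsg.Agent.S2240.exists_subfield (F := F) (n := 2 * k + 1) (N := 2 * m + 1)
    (by omega) hF hdiv
  haveI : Fintype S₀ := Fintype.ofFinite _
  have hc : Fintype.card K = Fintype.card S₀ := by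
    rw [hK, ← Nat.card_eq_fintype_card, hS₀]
  let e : K ≃+* S₀ := FiniteField.ringEquivOfCardEq hc
  let j₀ : K →+* F := S₀.subtype.comp e.toRingHom
  refine ⟨⟨_, ⟨(Cfsg.Agent.Lib.SzSub.embEquiv j₀ hdiv).symm⟩⟩, ?_⟩
  rintro S₁ S₂ ⟨e₁⟩ ⟨e₂⟩
  have hr : ∀ (T : Subgroup ↥(Cfsg.Sz F m)) (eT : ↥T ≃* ↥(Cfsg.Sz K k)),
      ∃ g : ↥(Cfsg.Sz F m), T = (Cfsg.Agent.Lib.SzSub.emb j₀ hdiv).range.map
        (MulAut.conj g).toMonoidHom := by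
    intro T eT
    obtain ⟨g, hg⟩ := Cfsg.Agent.Lib.SzSub.exists_conj_range j₀ hdiv
      (T.subtype.comp eT.symm.toMonoidHom) (T.subtype_injective.comp eT.symm.injective)
    refine ⟨g, ?_⟩
    rw [← hg]
    ext y
    constructor
    · intro hy
      exact ⟨eT ⟨y, hy⟩, by simp⟩
    · rintro ⟨t, rfl⟩
      exact (eT.symm t).2
  obtain ⟨g₁, hg₁⟩ := hr S₁ e₁
  obtain ⟨g₂, hg₂⟩ := hr S₂ e₂
  refine ⟨g₂ * g₁⁻¹, ?_⟩
  rw [hg₁, hg₂, Subgroup.map_map]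
  congr 1
  ext y
  simp [MulAut.conj_apply, mul_assoc]

end Cfsg.Agent.S2239
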