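import Mathlib
import Cfsg.Statements.S2241
import Cfsg.Agent.Lib.SuzukiMax

set_option autoImplicit false
open Cfsg

namespace Cfsg.Agent.S2241

open Cfsg.Agent.Lib.SuzukiMax Cfsg.Agent.Lib.Suzuki4 Cfsg.Agent.Lib.Suzuki Cfsg.Agent.Lib.SuzukiBasic
  Cfsg.Agent.Lib.Suzuki2 in
/-- The main computation: an element `t(a,b)` with `a ≠ 0` is not conjugate to its inverse. -/
theorem not_conj {F : Type*} [Field F] [Fintype F] {m : ℕ} [CharP F 2] [SzHyp F m] {a b : F}
    (ha : a ≠ 0) : ¬ IsConj (tt a b : Cfsg.Sz F m) (tt a b)⁻¹ := by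
  intro hc
  obtain ⟨c, hc⟩ := isConj_iff.1 hc
  have e2 := two_zero (F := F)
  -- `c` fixes infinity
  have hfix : (c : SL4 F) • suzukiPointInfinity F = suzukiPointInfinity F := by
    by_contra hne
    obtain ⟨x, y, hxy⟩ := exists_pt_of_ne c.2 Cfsg.Agent.Lib.SuzukiBasic.inf_mem_ovoid hne
    have h1 : ((tt a b : Cfsg.Sz F m)⁻¹ : Cfsg.Sz F m).1 • ((c : SL4 F) • suzukiPointInfinity F) =
        (c : SL4 F) • suzukiPointInfinity F := by
      rw [← hc]
      show ((c : SL4 F) * T m a b * ((c : SL4 F))⁻¹) • ((c : SL4 F) • suzukiPointInfinity F) = _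
      rw [mul_smul, inv_smul_smul, mul_smul, T_smul_pInf]
    rw [hxy, tt_inv] at h1
    have h2 := T_fix h1
    exact ha h2.1
  obtain ⟨x, y, α, rfl⟩ := mem_stab_inf_iff.1 hfix
  rw [tt_inv] at hc
  have h3 : (tt x y * hh α * tt a b * (tt x y * hh α)⁻¹ : Cfsg.Sz F m) =
      tt x y * tt ((α : F) * a) (phi m (α : F) * α * b) * (tt x y)⁻¹ := by
    have : (tt x y * hh α * tt a b * (tt x y * hh α)⁻¹ : Cfsg.Sz F m) =
        tt x y * (hh α * tt a b) * (hh α)⁻¹ * (tt x y)⁻¹ := by group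
    rw [this, hh_mul_tt]
    group
  rw [h3, tt_inv, tt_mul, tt_mul] at hc
  obtain ⟨h4, h5⟩ := tt_inj hc
  have hα : (α : F) = 1 := by
    have h6 : (α : F) * a = a := by linear_combination h4 - x * e2
    exact mul_right_cancel₀ ha (h6.trans (one_mul a).symm)
  rw [hα] at h5
  simp only [phi_one, one_mul, mul_one, phi_add] at h5
  -- so `phi x * a + phi a * x = phi a * a`
  have h7 : phi m x * a + phi m a * x = phi m a * a := by
    linear_combination h5 - (y + phi m x * x) * e2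
  -- put `t = x / a`
  have hφ : phi m a ≠ 0 := phi_ne_zero ha
  set t := x / a with ht
  have hx : x = t * a := by rw [ht]; field_simp
  have h8 : phi m t + t = 1 := by
    rw [hx, phi_mul] at h7
    have h9 : (phi m t + t) * (phi m a * a) = 1 * (phi m a * a) := by
      linear_combination h7
    exact mul_right_cancel₀ (mul_ne_zero hφ ha) h9
  have h10 : phi m t = t + 1 := by linear_combination h8 - t * e2
  have h11 : phi m (phi m t) = t ^ 2 := phi_phi t
  rw [h10, phi_add, phi_one, h10] at h11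
  have h12 : t * t = t := by linear_combination -h11 + e2 * 1 
  have h13 : t = 0 ∨ t = 1 := by
    by_cases h0 : t = 0
    · exact Or.inl h0
    · exact Or.inr (mul_left_cancel₀ h0 (h12.trans (mul_one t).symm))
  rcases h13 with h0 | h0
  · rw [h0, phi_zero] at h8
    simp at h8
  · rw [h0, phi_one] at h8
    have : (1 : F) + 1 = 0 := by linear_combination e2
    rw [this] at h8
    exact zero_ne_one h8

/-- Real 2-elements of the Suzuki group: with q = 2^(2m+1), m ≥ 1, and the group realised as the stabiliser in SL₄ of the Suzuki–Tits ovoid, a non-identity element of a Sylow 2-subgroup is conjugate to its inverse if and only if it is an involution; in particular no element of order 4 is conjugate to its inverse. -/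
theorem result {F : Type*} [Field F] [Fintype F] {m : ℕ} (hm : 1 ≤ m) (hF : Fintype.card F = 2 ^ (2 * m + 1)) (P : Sylow 2 ↥(Cfsg.Sz F m)) (g : ↥(Cfsg.Sz F m)) (hg : g ∈ (P : Subgroup ↥(Cfsg.Sz F m))) (h1 : g ≠ 1) :
    IsConj g g⁻¹ ↔ orderOf g = 2 := by
  have : Cfsg.Agent.Lib.Suzuki.SzHyp F m := ⟨hm, hF⟩
  have := Cfsg.Agent.Lib.Suzuki.charP_two F m
  obtain ⟨a, ha⟩ := Cfsg.Agent.Lib.SuzukiMax.exists_conj_sylow P
  rw [ha] at hg
  obtain ⟨g0, hg0, rfl⟩ := hg
  obtain ⟨x, y, rfl⟩ := hg0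
  have e2 := Cfsg.Agent.Lib.Suzuki.two_zero (F := F)
  have hord : orderOf ((MulAut.conj a).toMonoidHom (Cfsg.Agent.Lib.Suzuki4.tt x y)) =
      orderOf (Cfsg.Agent.Lib.Suzuki4.tt x y : Cfsg.Sz F m) :=
    orderOf_injective _ (MulAut.conj a).injective _
  have h0 : (Cfsg.Agent.Lib.Suzuki4.tt x y : Cfsg.Sz F m) ≠ 1 := by
    rintro h
    apply h1
    rw [h, map_one]
  have hconj : IsConj ((MulAut.conj a).toMonoidHom (Cfsg.Agent.Lib.Suzuki4.tt x y))
      ((MulAut.conj a).toMonoidHom (Cfsg.Agent.Lib.Suzuki4.tt x y))⁻¹ ↔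
      IsConj (Cfsg.Agent.Lib.Suzuki4.tt x y : Cfsg.Sz F m) (Cfsg.Agent.Lib.Suzuki4.tt x y)⁻¹ := by
    rw [← map_inv]
    exact (isConj_comm.trans (isConj_comm.trans
      ⟨fun h => by
        have e1 : IsConj ((MulAut.conj a).toMonoidHom (Cfsg.Agent.Lib.Suzuki4.tt x y))
            (Cfsg.Agent.Lib.Suzuki4.tt x y) := by
          rw [isConj_iff]
          exact ⟨a⁻¹, by simp [MulAut.conj_apply]; group⟩
        have e3 : IsConj ((MulAut.conj a).toMonoidHom (Cfsg.Agent.Lib.Suzuki4.tt x y)⁻¹)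
            (Cfsg.Agent.Lib.Suzuki4.tt x y)⁻¹ := by
          rw [isConj_iff]
          exact ⟨a⁻¹, by simp [MulAut.conj_apply]; group⟩
        exact e1.symm.trans (h.trans e3),
       fun h => by
        have e1 : IsConj ((MulAut.conj a).toMonoidHom (Cfsg.Agent.Lib.Suzuki4.tt x y))
            (Cfsg.Agent.Lib.Suzuki4.tt x y) := by
          rw [isConj_iff]
          exact ⟨a⁻¹, by simp [MulAut.conj_apply]; group⟩
        have e3 : IsConj ((MulAut.conj a).toMonoidHom (Cfsg.Agent.Lib.Suzuki4.tt x y)⁻¹)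
            (Cfsg.Agent.Lib.Suzuki4.tt x y)⁻¹ := by
          rw [isConj_iff]
          exact ⟨a⁻¹, by simp [MulAut.conj_apply]; group⟩
        exact e1.trans (h.trans e3.symm)⟩))
  rw [hconj, hord]
  by_cases hx : x = 0
  · subst hx
    have hinv : (Cfsg.Agent.Lib.Suzuki4.tt 0 y : Cfsg.Sz F m) * Cfsg.Agent.Lib.Suzuki4.tt 0 y = 1 := by
      rw [Cfsg.Agent.Lib.Suzuki4.tt_mul, ← Cfsg.Agent.Lib.Suzuki4.tt_zero]
      congr 1
      · ring_nf
      · simp only [Cfsg.Agent.Lib.Suzuki.phi_zero, zero_mul, add_zero]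
        linear_combination y * e2
    have h2 : orderOf (Cfsg.Agent.Lib.Suzuki4.tt 0 y : Cfsg.Sz F m) = 2 := by
      apply orderOf_eq_prime (by rw [pow_two]; exact hinv) h0
    rw [h2]
    rw [inv_eq_of_mul_eq_one_left hinv]
    exact ⟨fun _ => rfl, fun _ => IsConj.refl _⟩
  · have h2 : orderOf (Cfsg.Agent.Lib.Suzuki4.tt x y : Cfsg.Sz F m) ≠ 2 := by
      intro h3
      have h4 := pow_orderOf_eq_one (Cfsg.Agent.Lib.Suzuki4.tt x y : Cfsg.Sz F m)
      rw [h3, pow_two, Cfsg.Agent.Lib.Suzuki4.tt_mul, ← Cfsg.Agent.Lib.Suzuki4.tt_zero] at h4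
      obtain ⟨-, h5⟩ := Cfsg.Agent.Lib.Suzuki4.tt_inj h4
      have h6 : Cfsg.Agent.Lib.Suzuki.phi m x * x = 0 := by linear_combination h5 - y * e2
      rcases mul_eq_zero.1 h6 with h7 | h7
      · exact hx (Cfsg.Agent.Lib.Suzuki.phi_eq_zero h7)
      · exact hx h7
    exact ⟨fun h => absurd h (not_conj hx), fun h => absurd h h2⟩

end Cfsg.Agent.S2241
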