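import Mathlib
-- Template for statement S2244 (row 2244; see /opt/grader/pristine/manifest.json for weights).
-- Copy to Cfsg/Agent/S2244.lean and replace the sorry. The statement below is byte-identical to the frozen
-- statement Cfsg.CfsgFrozen.S2244 (Cfsg/Statements/S2244.lean; the theorem Cfsg.kfact3_weakly_closed_unipotent_subgroup_is_unipotent_radical);
-- the grader kernel-checks Cfsg.Agent.S2244.result against that frozen type. Keep the theorem IN THIS FILE
-- (a `result` declared elsewhere and merely imported here is not credited); helpers may live anywhere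
-- under Cfsg/Agent/.
import Cfsg.Statements.S2244
import Cfsg.Agent.Lib.ChevAut.WClosedT
import Cfsg.Agent.Lib.Chev.RelG2
import Cfsg.Agent.Lib.Chev.RootG2
import Cfsg.Agent.Lib.Chev.RelB2
import Cfsg.Agent.Lib.Chev.RootB2
import Cfsg.Agent.Lib.Chev.RelD4
import Cfsg.Agent.Lib.Chev.RootD4
import Cfsg.Agent.Lib.Chev.RelF4
import Cfsg.Agent.Lib.Chev.RootF4
import Cfsg.Agent.Lib.Chev.RelE6
import Cfsg.Agent.Lib.Chev.RootE6
import Cfsg.Agent.Lib.Chev.RelE7
import Cfsg.Agent.Lib.Chev.RootE7
import Cfsg.Agent.Lib.Chev.RelE8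
import Cfsg.Agent.Lib.Chev.RootE8
-- import your own Cfsg.Agent.* helpers here

set_option autoImplicit false
open Cfsg

namespace Cfsg.Agent.S2244

open Cfsg.Lie Cfsg.Agent.Lib.Chev Cfsg.Agent.Lib.ChevAut.WClosed
open scoped commutatorElement

/-- Weakly closed unipotent subgroups of Chevalley groups: let G be the Chevalley group of type G₂, B₂, D₄, F₄, E₆, E₇ or E₈ over a finite field F (the matrix group generated by the root elements), with |F| ≠ 2, and |F| ≠ 3 as well for the types G₂, B₂, D₄, F₄. Let U be the subgroup generated by the positive root subgroups. If X ≤ U is weakly closed in U with respect to G (every G-conjugate of X lying in U equals X), then X is the unipotent radical U_J of a standard parabolic subgroup for some set J of fundamental roots. -/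
theorem result {F : Type*} [Field F] [Fintype F] (D : Cfsg.Lie.ChevalleyDatum) (hD : D ∈ [Cfsg.Lie.chevG2, Cfsg.Lie.chevB2, Cfsg.Lie.chevD4, Cfsg.Lie.chevF4, Cfsg.Lie.chevE6, Cfsg.Lie.chevE7, Cfsg.Lie.chevE8])
    (h2 : Fintype.card F ≠ 2) (h3 : D ∈ [Cfsg.Lie.chevG2, Cfsg.Lie.chevB2, Cfsg.Lie.chevD4, Cfsg.Lie.chevF4] → Fintype.card F ≠ 3)
    (X : Subgroup (GL D.Idx F)) (hXU : X ≤ D.posUnipotent F)
    (hwc : ∀ g ∈ D.group F, X.map (MulAut.conj g).toMonoidHom ≤ D.posUnipotent F → X.map (MulAut.conj g).toMonoidHom = X) :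
    ∃ J : Set ℕ, (∀ j ∈ J, j < D.rank) ∧ X = D.unipotentRadical F J := by
  classical
  obtain ⟨p, hp⟩ := CharP.exists F
  haveI : Fact p.Prime := ⟨CharP.char_is_prime F p⟩
  have h1lt := Fintype.one_lt_card (α := F)
  have hq4 : Fintype.card F ≠ 3 → 4 ≤ Fintype.card F := by omega
  simp only [List.mem_cons, List.not_mem_nil, or_false] at hD h3
  rcases hD with rfl | rfl | rfl | rfl | rfl | rfl | rfl
  · have hF : Full _ _ _ chevG2 := ⟨RelG2.checks, RootG2.checks⟩
    have hq := hq4 (h3 (Or.inl rfl))
    have hsep : ∀ i j : Fin chevG2.rank, i ≠ j → ∃ c : Fin chevG2.rank → Fˣ, chiT chevG2 c (chevG2.simple i) = 1 ∧ chiT chevG2 c (chevG2.simple j) ≠ 1 :=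
      hsep_of_table hF (fun m h => hP12 hq m h) (by decide +kernel)
    have hd1 : ∀ d, 1 ≤ d → d ≤ 1 → ∃ τ : F, τ ≠ 0 ∧ τ ^ d ≠ 1 := by
      intro d h1' h2'
      have : d = 1 := by omega
      subst this
      obtain ⟨τ, h3', h4'⟩ := exists_ne_zero_one (F := F) h2
      exact ⟨τ, h3', by simpa using h4'⟩
    have hd2 : ∀ d, 1 ≤ d → d ≤ 2 → ∃ τ : F, τ ≠ 0 ∧ τ ^ d ≠ 1 := by
      intro d h1 h2
      rcases (by omega : d = 1 ∨ d = 2) with rfl | rfl
      · exact hd1 1 le_rfl le_rfl
      · exact exists_sq_ne_one hq
    have hcomm : ∀ r, RootG2T.R.N ≤ r → r < chevG2.nroots → (∀ i < chevG2.rank, r ≠ chevG2.simple i) → ∀ t : F,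
        hF.c.xG r t ∈ ⁅chevG2.posUnipotent F, chevG2.posUnipotent F⁆ := by
      by_cases hp2 : p = 2
      · subst hp2
        refine hcomm_of_run hF (van := fun c => c % 2 == 0) (uni := fun c => c % 2 == 1) (dmax := 1) stepsG2 ?_ ?_ hd1 (by decide +kernel)
        · intro c hc
          simp only [beq_iff_eq] at hc
          exact (CharP.intCast_eq_zero_iff F 2 c).2 (by exact_mod_cast Int.dvd_of_emod_eq_zero hc)
        · intro c hc h0
          simp only [beq_iff_eq] at hc
          have h1 := (CharP.intCast_eq_zero_iff F 2 c).1 h0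
          have h2 : (2 : ℤ) ∣ c := by exact_mod_cast h1
          omega
      · by_cases hp3 : p = 3
        · subst hp3
          refine hcomm_of_run hF (van := fun c => c % 3 == 0) (uni := fun c => c % 3 != 0) (dmax := 2) stepsG2 ?_ ?_ hd2 (by decide +kernel)
          · intro c hc
            simp only [beq_iff_eq] at hc
            exact (CharP.intCast_eq_zero_iff F 3 c).2 (by exact_mod_cast Int.dvd_of_emod_eq_zero hc)
          · intro c hc h0
            simp only [bne_iff_ne, ne_eq] at hc
            have h1 := (CharP.intCast_eq_zero_iff F 3 c).1 h0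
            have h2 : (3 : ℤ) ∣ c := by exact_mod_cast h1
            omega
        · have hp5 : 5 ≤ p := by
            have h1 : p.Prime := Fact.out
            have h4 : p ≠ 4 := by
              rintro rfl
              exact absurd h1 (by norm_num)
            have h2 := h1.two_le
            omega
          refine hcomm_of_run hF (van := vanFree) (uni := fun c => decide (c.natAbs ≤ 3) && c != 0) (dmax := 1) stepsG2 ?_ ?_ hd1 (by decide +kernel)
          · intro c hc
            unfold vanFree at hc
            simp only [beq_iff_eq] at hc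
            simp [hc]
          · intro c hc h0
            simp only [Bool.and_eq_true, decide_eq_true_eq, bne_iff_ne, ne_eq] at hc
            have h1 := (CharP.intCast_eq_zero_iff F p c).1 h0
            have h2 := Int.natCast_dvd.1 h1
            have h3 := Nat.le_of_dvd (by omega) h2
            omega
    exact main hF p (by decide +kernel) (by decide +kernel) hsep hcomm X hXU hwc
  · have hF : Full _ _ _ chevB2 := ⟨RelB2.checks, RootB2.checks⟩
    have hq := hq4 (h3 (Or.inr (Or.inl rfl)))
    exact main_free hF p h2 (hsep_of_table hF (fun m h => hP12 hq m h) (by decide +kernel)) stepsB2 (by decide +kernel)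
      (by decide +kernel) (by decide +kernel) X hXU hwc
  · have hF : Full _ _ _ chevD4 := ⟨RelD4.checks, RootD4.checks⟩
    have hq := hq4 (h3 (Or.inr (Or.inr (Or.inl rfl))))
    exact main_free hF p h2 (hsep_of_table hF (fun m h => hP12 hq m h) (by decide +kernel)) stepsD4 (by decide +kernel)
      (by decide +kernel) (by decide +kernel) X hXU hwc
  · have hF : Full _ _ _ chevF4 := ⟨RelF4.checks, RootF4.checks⟩
    have hq := hq4 (h3 (Or.inr (Or.inr (Or.inr rfl))))
    exact main_free hF p h2 (hsep_of_table hF (fun m h => hP12 hq m h) (by decide +kernel)) stepsF4 (by decide +kernel)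
      (by decide +kernel) (by decide +kernel) X hXU hwc
  · have hF : Full _ _ _ chevE6 := ⟨RelE6.checks, RootE6.checks⟩
    have hsep : ∀ i j : Fin chevE6.rank, i ≠ j → ∃ c : Fin chevE6.rank → Fˣ, chiT chevE6 c (chevE6.simple i) = 1 ∧ chiT chevE6 c (chevE6.simple j) ≠ 1 := by
      by_cases h33 : Fintype.card F = 3
      · exact hsep_of_table hF (fun m h => hPodd h33 m h) (by decide +kernel)
      · exact hsep_of_table hF (fun m h => hP12 (hq4 h33) m h) (by decide +kernel)
    exact main_free hF p h2 hsep stepsE6 (by decide +kernel) (by decide +kernel) (by decide +kernel) X hXU hwc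
  · have hF : Full _ _ _ chevE7 := ⟨RelE7.checks, RootE7.checks⟩
    have hsep : ∀ i j : Fin chevE7.rank, i ≠ j → ∃ c : Fin chevE7.rank → Fˣ, chiT chevE7 c (chevE7.simple i) = 1 ∧ chiT chevE7 c (chevE7.simple j) ≠ 1 := by
      by_cases h33 : Fintype.card F = 3
      · exact hsep_of_table hF (fun m h => hPodd h33 m h) (by decide +kernel)
      · exact hsep_of_table hF (fun m h => hP12 (hq4 h33) m h) (by decide +kernel)
    exact main_free hF p h2 hsep stepsE7 (by decide +kernel) (by decide +kernel) (by decide +kernel) X hXU hwc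
  · have hF : Full _ _ _ chevE8 := ⟨RelE8.checks, RootE8.checks⟩
    have hsep : ∀ i j : Fin chevE8.rank, i ≠ j → ∃ c : Fin chevE8.rank → Fˣ, chiT chevE8 c (chevE8.simple i) = 1 ∧ chiT chevE8 c (chevE8.simple j) ≠ 1 := by
      by_cases h33 : Fintype.card F = 3
      · exact hsep_of_table hF (fun m h => hPodd h33 m h) (by decide +kernel)
      · exact hsep_of_table hF (fun m h => hP12 (hq4 h33) m h) (by decide +kernel)
    exact main_free hF p h2 hsep stepsE8 (by decide +kernel) (by decide +kernel) (by decide +kernel) X hXU hwc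

end Cfsg.Agent.S2244
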