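import Mathlib
import Cfsg.Statements.S2253
import Cfsg.Agent.Lib.NilpPermArith

set_option autoImplicit false
open Cfsg

namespace Cfsg.Agent.S2253

/-- Let n be a natural number not congruent to 3 modulo 4. Then every nilpotent subgroup of the symmetric group on n letters has order at most the order of a Sylow 2-subgroup (so the nilpotent subgroups of largest order are exactly the Sylow 2-subgroups). -/
theorem result  (n : ℕ) (hn : n % 4 ≠ 3)
    (N : Subgroup (Equiv.Perm (Fin n))) (hN : Group.IsNilpotent N)
    (P : Sylow 2 (Equiv.Perm (Fin n))) :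
    Nat.card N ≤ Nat.card P := by
  have h1 := Cfsg.Agent.Lib.NilpPerm.card_nilpotent_le N hN
  rw [Nat.card_fin, Cfsg.Agent.Lib.NilpPerm.T_of_not hn] at h1
  rw [Cfsg.Agent.Lib.NilpPerm.card_sylow_perm P]
  exact h1

end Cfsg.Agent.S2253
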