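import Mathlib
import Cfsg.Statements.S2254
import Cfsg.Agent.Lib.NilpPermAlt

set_option autoImplicit false
open Cfsg

namespace Cfsg.Agent.S2254

open Equiv Cfsg.Agent.Lib.NilpPerm

set_option linter.unusedSectionVars false
set_option linter.unusedVariables false

section orbits

variable {X : Type} [Fintype X] [DecidableEq X]

theorem two_elt_fix {u c : Perm X} (hc3 : c ^ 3 = 1) (hcomm : Commute u c) {e : ℕ}
    (hu : u ^ 2 ^ e = 1) {a : X} {i : ℕ} (h : u a = (c ^ i) a) : u a = a := by
  have hc : Commute ((c ^ i)⁻¹) u := ((hcomm.pow_right i).inv_right).symm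
  have h3 : ((c ^ i)⁻¹) ^ 3 = 1 := by
    rw [inv_pow, ← pow_mul, mul_comm, pow_mul, hc3, one_pow, inv_one]
  have hfix : ((c ^ i)⁻¹ * u) • a = a := by
    change ((c ^ i)⁻¹) (u a) = a
    rw [h]
    simp
  exact (fix_of_mul_fix (X := X) hc (Nat.Coprime.pow_right e (by norm_num)) h3 hu (by norm_num)
    (by positivity) hfix).2

/-- The orbit relation of `c`. -/
def rel (c : Perm X) (hc3 : c ^ 3 = 1) : Setoid X where
  r a b := ∃ i : ℕ, (c ^ i) a = b
  iseqv := by
    refine ⟨fun a => ⟨0, rfl⟩, ?_, ?_⟩
    · rintro a b ⟨i, rfl⟩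
      refine ⟨2 * i, ?_⟩
      have : (c ^ (2 * i)) * c ^ i = 1 := by
        rw [← pow_add, show 2 * i + i = 3 * i by ring, pow_mul, hc3, one_pow]
      exact congrArg (fun σ : Perm X => σ a) this
    · rintro a b d ⟨i, rfl⟩ ⟨j, rfl⟩
      exact ⟨j + i, by rw [pow_add]; rfl⟩

theorem card_le_of_two_orbits (P : Subgroup (Perm X)) (hP : IsPGroup 2 P) (c : Perm X)
    (hc3 : c ^ 3 = 1) (hcomm : ∀ u ∈ P, Commute u c) (x y : X) (hx : c x ≠ x) (hy : c y ≠ y)
    (h0 : ∀ i : ℕ, (c ^ i) x ≠ y) :
    (∃ e, Nat.card P = 2 ^ e ∧ e ≤ s2 (Fintype.card X - 4)) ∧ 6 ≤ Fintype.card X := by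
  classical
  let R := rel c hc3
  let Ω := Quotient R
  have hmk : ∀ a b : X, (Quotient.mk R a = Quotient.mk R b) ↔ ∃ i : ℕ, (c ^ i) a = b := by
    intro a b
    exact Quotient.eq (r := R)
  have hcomm' : ∀ (u : P) (i : ℕ) (a : X), (c ^ i) ((u : Perm X) a) = (u : Perm X) ((c ^ i) a) := by
    intro u i a
    exact congrArg (fun σ : Perm X => σ a) ((hcomm u u.2).pow_right i).eq.symm
  let act : P → Ω → Ω := fun u => Quotient.map (sa := R) (sb := R) (u : Perm X) (by
    rintro a b ⟨i, rfl⟩
    exact ⟨i, hcomm' u i a⟩)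
  letI : MulAction P Ω :=
    { smul := act
      one_smul := by
        intro ω
        induction ω using Quotient.ind with
        | _ a => rfl
      mul_smul := by
        intro u v ω
        induction ω using Quotient.ind with
        | _ a => rfl }
  have hsmul : ∀ (u : P) (a : X), u • (Quotient.mk R a : Ω) = Quotient.mk R ((u : Perm X) a) :=
    fun u a => rfl
  have hfaith : ∀ u : P, (∀ ω : Ω, u • ω = ω) → u = 1 := by
    intro u hu
    apply Subtype.ext
    apply Equiv.ext
    intro a
    have h1 := hu (Quotient.mk R a)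
    rw [hsmul] at h1
    obtain ⟨i, hi⟩ := (hmk _ _).1 h1
    -- `c ^ i (u a) = a`, that is `u a = c ^ (2 i) a`
    have h2 : (u : Perm X) a = (c ^ (2 * i)) a := by
      have h3 : (c ^ (2 * i)) * c ^ i = 1 := by
        rw [← pow_add, show 2 * i + i = 3 * i by ring, pow_mul, hc3, one_pow]
      have h4 : (c ^ (2 * i)) ((c ^ i) ((u : Perm X) a)) = (u : Perm X) a :=
        congrArg (fun σ : Perm X => σ ((u : Perm X) a)) h3
      rw [hi] at h4
      exact h4.symm
    obtain ⟨e, he⟩ := hP u
    have he' : (u : Perm X) ^ 2 ^ e = 1 := by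
      have := congrArg Subtype.val he
      simpa using this
    exact two_elt_fix hc3 (hcomm u u.2) he' h2
  have hdvd := card_dvd_factorial hfaith
  -- the representative function
  have hxy : (Quotient.mk R x : Ω) ≠ Quotient.mk R y := fun h => by
    obtain ⟨i, hi⟩ := (hmk _ _).1 h
    exact h0 i hi
  let r : Ω → X := fun ω =>
    if ω = Quotient.mk R x then x else if ω = Quotient.mk R y then y else ω.out
  have hr : ∀ ω, (Quotient.mk R (r ω) : Ω) = ω := by
    intro ω
    by_cases h1 : ω = Quotient.mk R x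
    · simp [r, h1]
    · by_cases h2 : ω = Quotient.mk R y
      · simp only [r, if_neg h1, if_pos h2]
        exact h2.symm
      · simp only [r, if_neg h1, if_neg h2]
        exact Quotient.out_eq ω
  have hrinj : Function.Injective r := fun a b hab => by
    rw [← hr a, ← hr b, hab]
  have hcx : c (c x) ≠ x := by
    intro h
    have : c (c (c x)) = c x := by rw [h]
    have h3 : c (c (c x)) = x := by
      have := congrArg (fun σ : Perm X => σ x) hc3
      simpa [pow_succ] using this
    exact hx (h3.symm.trans this).symm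
  have hcy : c (c y) ≠ y := by
    intro h
    have : c (c (c y)) = c y := by rw [h]
    have h3 : c (c (c y)) = y := by
      have := congrArg (fun σ : Perm X => σ y) hc3
      simpa [pow_succ] using this
    exact hy (h3.symm.trans this).symm
  have hx1 : (Quotient.mk R (c x) : Ω) = Quotient.mk R x := ((hmk _ _).2 ⟨1, by simp⟩).symm
  have hx2 : (Quotient.mk R (c (c x)) : Ω) = Quotient.mk R x :=
    ((hmk _ _).2 ⟨2, by simp [pow_two]⟩).symm
  have hy1 : (Quotient.mk R (c y) : Ω) = Quotient.mk R y := ((hmk _ _).2 ⟨1, by simp⟩).symm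
  have hy2 : (Quotient.mk R (c (c y)) : Ω) = Quotient.mk R y :=
    ((hmk _ _).2 ⟨2, by simp [pow_two]⟩).symm
  have hrx : r (Quotient.mk R x) = x := by simp [r]
  have hry : r (Quotient.mk R y) = y := by simp [r, hxy.symm]
  let F : Finset X := {c x, c (c x), c y, c (c y)}
  have hFcard : F.card = 4 := by
    have e1 : c x ≠ c (c x) := fun h => hx (c.injective h).symm
    have e2 : c x ≠ c y := fun h => hxy (by rw [← hx1, h, hy1])
    have e3 : c x ≠ c (c y) := fun h => hxy (by rw [← hx1, h, hy2])
    have e4 : c (c x) ≠ c y := fun h => hxy (by rw [← hx2, h, hy1])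
    have e5 : c (c x) ≠ c (c y) := fun h => hxy (by rw [← hx2, h, hy2])
    have e6 : c y ≠ c (c y) := fun h => hy (c.injective h).symm
    simp only [F]
    rw [Finset.card_insert_of_notMem (by simp [e1, e2, e3]),
      Finset.card_insert_of_notMem (by simp [e4, e5]),
      Finset.card_insert_of_notMem (by simp [e6]), Finset.card_singleton]
  have himg : ∀ ω, r ω ∉ F := by
    intro ω hω
    simp only [F, Finset.mem_insert, Finset.mem_singleton] at hω
    rcases hω with h | h | h | h
    · have h1 := hr ω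
      rw [h, hx1] at h1
      rw [← h1, hrx] at h
      exact hx h.symm
    · have h1 := hr ω
      rw [h, hx2] at h1
      rw [← h1, hrx] at h
      exact hcx h.symm
    · have h1 := hr ω
      rw [h, hy1] at h1
      rw [← h1, hry] at h
      exact hy h.symm
    · have h1 := hr ω
      rw [h, hy2] at h1
      rw [← h1, hry] at h
      exact hcy h.symm
  have hcardΩ : Nat.card Ω + 4 ≤ Fintype.card X := by
    haveI : Fintype Ω := Fintype.ofFinite Ω
    rw [Nat.card_eq_fintype_card]
    have h1 : (Finset.univ.image r).card = Fintype.card Ω := by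
      rw [Finset.card_image_of_injective _ hrinj]
      rfl
    have hd : Disjoint (Finset.univ.image r) F := by
      rw [Finset.disjoint_left]
      intro z hz
      obtain ⟨ω, -, rfl⟩ := Finset.mem_image.1 hz
      exact himg ω
    have h2 := Finset.card_le_univ (Finset.univ.image r ∪ F)
    rw [Finset.card_union_of_disjoint hd, h1, hFcard] at h2
    exact h2
  have hΩ2 : 2 ≤ Nat.card Ω := by
    haveI : Nontrivial Ω := ⟨⟨_, _, hxy⟩⟩
    exact Finite.one_lt_card
  refine ⟨?_, by omega⟩
  obtain ⟨e, he⟩ := IsPGroup.iff_card.1 hP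
  refine ⟨e, he, ?_⟩
  rw [he] at hdvd
  exact (le_s2 hdvd).trans (s2_mono (by omega))

/-- A nilpotent group attaining the bound: its structure. -/
theorem attain_structure {n : ℕ} (hn : n % 4 = 3) (N : Subgroup (Perm (Fin n)))
    (hN : Group.IsNilpotent N) (hc : Nat.card N = 3 * 2 ^ s2 (n - 3)) :
    ∃ (P : Subgroup (Perm (Fin n))) (c : Perm (Fin n)), IsPGroup 2 P ∧ P ≤ N ∧ c ∈ N ∧
      c.IsThreeCycle ∧ Nat.card P = 2 ^ s2 (n - 3) ∧ ∀ u ∈ P, Commute u c := by
  classical
  obtain ⟨P, Q, hP, hQ, hmul, hcomm, -⟩ := exists_decomp (G := N) 2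
  let P' := P.map N.subtype
  have hP'c : Nat.card P' = Nat.card P :=
    Nat.card_congr (P.equivMapOfInjective _ N.subtype_injective).toEquiv.symm
  have hP'g : IsPGroup 2 P' := hP.map N.subtype
  obtain ⟨e, he⟩ := IsPGroup.iff_card.1 hP
  rw [hc, he] at hmul
  -- the order of `Q`
  have hQd : Nat.card Q ∣ 3 := by
    have h1 : Nat.card Q ∣ 3 * 2 ^ s2 (n - 3) := ⟨2 ^ e, by rw [← hmul, mul_comm]⟩
    have h2 : Nat.Coprime (Nat.card Q) (2 ^ s2 (n - 3)) :=
      Nat.Coprime.pow_right _ ((Nat.Prime.coprime_iff_not_dvd Nat.prime_two).2 hQ).symm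
    exact h2.dvd_of_dvd_mul_right h1
  have hQ3 : Nat.card Q = 3 := by
    rcases (Nat.dvd_prime Nat.prime_three).1 hQd with h1 | h3
    · exfalso
      rw [h1, mul_one] at hmul
      have h3 : 3 ∣ 2 ^ e := ⟨_, hmul⟩
      have := Nat.Prime.dvd_of_dvd_pow Nat.prime_three h3
      omega
    · exact h3
  have hek : e = s2 (n - 3) := by
    rw [hQ3, mul_comm] at hmul
    have := Nat.eq_of_mul_eq_mul_left (by norm_num) hmul
    exact Nat.pow_right_injective (le_refl 2) this
  -- an element of order three
  obtain ⟨c₀, hc₀⟩ := exists_prime_orderOf_dvd_card' (G := Q) 3 (by rw [hQ3])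
  let c : Perm (Fin n) := ((c₀ : Q) : N)
  have hc3 : c ^ 3 = 1 := by
    have : c₀ ^ 3 = 1 := by rw [← hc₀, pow_orderOf_eq_one]
    have h1 := congrArg (fun q : Q => (((q : N)) : Perm (Fin n))) this
    simpa using h1
  have hc1 : c ≠ 1 := by
    intro h
    have : c₀ = 1 := Subtype.ext (Subtype.ext h)
    rw [this, orderOf_one] at hc₀
    omega
  have hcommP : ∀ u ∈ P', Commute u c := by
    rintro _ ⟨u, hu, rfl⟩
    exact congrArg Subtype.val (hcomm u hu c₀ c₀.2)
  obtain ⟨x, hx⟩ : ∃ x, c x ≠ x := by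
    by_contra hall
    push Not at hall
    exact hc1 (Equiv.ext hall)
  refine ⟨P', c, hP'g, ?_, (c₀ : N).2, ?_, by rw [hP'c, he, hek], hcommP⟩
  · rintro _ ⟨u, -, rfl⟩
    exact u.2
  -- `c` has just one nontrivial orbit
  have hsupp : c.support ⊆ {x, c x, c (c x)} := by
    intro y hy
    rw [Perm.mem_support] at hy
    by_contra hmem
    have h0 : ∀ i : ℕ, (c ^ i) x ≠ y := by
      intro i hi
      apply hmem
      have : i % 3 = 0 ∨ i % 3 = 1 ∨ i % 3 = 2 := by omega
      have hpow : c ^ i = c ^ (i % 3) := pow_eq_pow_mod i hc3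
      rw [← hi, hpow]
      rcases this with h | h | h <;> rw [h] <;> simp [pow_two]
    obtain ⟨⟨e', he', hle⟩, h6⟩ :=
      card_le_of_two_orbits P' hP'g c hc3 hcommP x y hx hy h0
    rw [Fintype.card_fin] at hle h6
    have hfour := s2_succ_four (n := n - 4) (by omega)
    rw [show n - 4 + 1 = n - 3 by omega] at hfour
    rw [hP'c, he] at he'
    have : e = e' := Nat.pow_right_injective (le_refl 2) he'
    omega
  have hcard : c.support.card = 3 := by
    have hcx : c (c x) ≠ x := by
      intro h
      have : c (c (c x)) = c x := by rw [h]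
      have h3 : c (c (c x)) = x := by
        have := congrArg (fun σ : Perm (Fin n) => σ x) hc3
        simpa [pow_succ] using this
      exact hx (h3.symm.trans this).symm
    have e1 : ({x, c x, c (c x)} : Finset (Fin n)).card = 3 := by
      rw [Finset.card_insert_of_notMem (by simp [hx.symm, hcx.symm]),
        Finset.card_insert_of_notMem (by simpa using (fun h => hx (c.injective h).symm)),
        Finset.card_singleton]
    have hsub : ({x, c x, c (c x)} : Finset (Fin n)) ⊆ c.support := by
      intro z hz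
      simp only [Finset.mem_insert, Finset.mem_singleton] at hz
      rw [Perm.mem_support]
      rcases hz with rfl | rfl | rfl
      · exact hx
      · exact fun h => hx (c.injective h)
      · exact fun h => hx (c.injective (c.injective h))
    rw [Finset.Subset.antisymm hsupp hsub, e1]
  exact card_support_eq_three_iff.1 hcard

/-- A `2`-element commuting with a three-cycle fixes its support. -/
theorem fix_support {c u : Perm X} (hc : c.IsThreeCycle) (hcomm : Commute u c) {e : ℕ}
    (hu : u ^ 2 ^ e = 1) {a : X} (ha : c a ≠ a) : u a = a := by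
  classical
  have hc3 : c ^ 3 = 1 := by
    rw [← hc.orderOf, pow_orderOf_eq_one]
  have hcx : c (c a) ≠ a := by
    intro h
    have : c (c (c a)) = c a := by rw [h]
    have h3 : c (c (c a)) = a := by
      have := congrArg (fun σ : Perm X => σ a) hc3
      simpa [pow_succ] using this
    exact ha (h3.symm.trans this).symm
  have e1 : ({a, c a, c (c a)} : Finset X).card = 3 := by
    rw [Finset.card_insert_of_notMem (by simp [ha.symm, hcx.symm]),
      Finset.card_insert_of_notMem (by simpa using (fun h => ha (c.injective h).symm)),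
      Finset.card_singleton]
  have hsub : ({a, c a, c (c a)} : Finset X) ⊆ c.support := by
    intro z hz
    simp only [Finset.mem_insert, Finset.mem_singleton] at hz
    rw [Perm.mem_support]
    rcases hz with rfl | rfl | rfl
    · exact ha
    · exact fun h => ha (c.injective h)
    · exact fun h => ha (c.injective (c.injective h))
  have heq : ({a, c a, c (c a)} : Finset X) = c.support :=
    Finset.eq_of_subset_of_card_le hsub (by rw [hc.card_support, e1])
  have hua : u a ∈ c.support := by
    rw [Perm.mem_support]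
    intro h
    apply ha
    have : u (c a) = c (u a) := congrArg (fun σ : Perm X => σ a) hcomm.eq
    rw [h] at this
    exact u.injective this
  rw [← heq] at hua
  simp only [Finset.mem_insert, Finset.mem_singleton] at hua
  rcases hua with h | h | h
  · exact h
  · exact two_elt_fix hc3 hcomm hu (i := 1) (by simpa using h)
  · exact two_elt_fix hc3 hcomm hu (i := 2) (by simpa [pow_two] using h)

end orbits

section std

variable {n : ℕ}

/-- The splitting of the points. -/
def eqv (h : 3 ≤ n) : Fin (n - 3) ⊕ Fin 3 ≃ Fin n :=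
  finSumFinEquiv.trans (finCongr (by omega))

/-- The block embedding. -/
def iota (h : 3 ≤ n) : Perm (Fin (n - 3)) × Perm (Fin 3) →* Perm (Fin n) :=
  ((eqv h).permCongrHom.toMonoidHom).comp (Equiv.Perm.sumCongrHom _ _)

theorem iota_injective (h : 3 ≤ n) : Function.Injective (iota h) :=
  (eqv h).permCongrHom.injective.comp Equiv.Perm.sumCongrHom_injective

theorem iota_inl (h : 3 ≤ n) (a : Perm (Fin (n - 3))) (b : Perm (Fin 3)) (i : Fin (n - 3)) :
    iota h (a, b) (eqv h (Sum.inl i)) = eqv h (Sum.inl (a i)) := by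
  simp [iota, Equiv.permCongrHom, Equiv.permCongr]

theorem iota_inr (h : 3 ≤ n) (a : Perm (Fin (n - 3))) (b : Perm (Fin 3)) (i : Fin 3) :
    iota h (a, b) (eqv h (Sum.inr i)) = eqv h (Sum.inr (b i)) := by
  simp [iota, Equiv.permCongrHom, Equiv.permCongr]

/-- The standard three-cycle. -/
def c3 : Perm (Fin 3) := finRotate 3

theorem c3_isThreeCycle : c3.IsThreeCycle := card_support_eq_three_iff.1 (by decide)

theorem c3_ne (i : Fin 3) : c3 i ≠ i := by
  revert i
  decide

theorem card_zp3 : Nat.card (Subgroup.zpowers c3) = 3 := by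
  rw [Nat.card_zpowers, c3_isThreeCycle.orderOf]

/-- The standard nilpotent group. -/
def stdGroup (h : 3 ≤ n) (P : Subgroup (Perm (Fin (n - 3)))) : Subgroup (Perm (Fin n)) :=
  (P.prod (Subgroup.zpowers c3)).map (iota h)

/-- It is isomorphic to a direct product. -/
noncomputable def stdEquiv (h : 3 ≤ n) (P : Subgroup (Perm (Fin (n - 3)))) :
    stdGroup h P ≃* (P × Multiplicative (ZMod 3)) :=
  haveI : Fact (Nat.Prime 3) := ⟨Nat.prime_three⟩
  ((P.prod (Subgroup.zpowers c3)).equivMapOfInjective _ (iota_injective h)).symm.trans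
    ((Subgroup.prodEquiv P (Subgroup.zpowers c3)).trans
      (MulEquiv.prodCongr (MulEquiv.refl _)
        (mulEquivOfPrimeCardEq (p := 3) card_zp3 (by simp))))

theorem card_stdGroup (h : 3 ≤ n) (P : Subgroup (Perm (Fin (n - 3)))) :
    Nat.card (stdGroup h P) = 3 * Nat.card P := by
  rw [Nat.card_congr (stdEquiv h P).toEquiv, Nat.card_prod, mul_comm]
  congr 1
  rw [Nat.card_congr Multiplicative.toAdd]
  simp

/-- Any group attaining the bound is conjugate to the standard group. -/
theorem conj_std {hn : n % 4 = 3} (h : 3 ≤ n) (P₀ : Sylow 2 (Perm (Fin (n - 3))))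
    (N : Subgroup (Perm (Fin n))) (hN : Group.IsNilpotent N)
    (hc : Nat.card N = 3 * Nat.card P₀) :
    ∃ g : Perm (Fin n), N = (stdGroup h (P₀ : Subgroup _)).map (MulAut.conj g).toMonoidHom := by
  classical
  have hP₀ := card_sylow_perm P₀
  rw [hP₀] at hc
  obtain ⟨P, c, hPg, hPN, hcN, hc3, hPc, hcomm⟩ := attain_structure hn N hN hc
  -- conjugate `c` to the standard one
  have hmoved : ∀ i : Fin 3, iota h (1, c3) (eqv h (Sum.inr i)) ≠ eqv h (Sum.inr i) := by
    intro i hi
    rw [iota_inr] at hi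
    have := (eqv h).injective hi
    exact c3_ne i (Sum.inr_injective this)
  have hstd : (iota h (1, c3)).IsThreeCycle := by
    apply card_support_eq_three_iff.1
    have : (iota h (1, c3)).support = Finset.univ.image (fun i : Fin 3 => eqv h (Sum.inr i)) := by
      ext z
      rw [Perm.mem_support, Finset.mem_image]
      constructor
      · intro hz
        obtain ⟨w, rfl⟩ := (eqv h).surjective z
        rcases w with i | j
        · exfalso
          apply hz
          rw [iota_inl]
          rfl
        · exact ⟨j, Finset.mem_univ _, rfl⟩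
      · rintro ⟨i, -, rfl⟩
        exact hmoved i
    rw [this, Finset.card_image_of_injective]
    · rfl
    · intro i j hij
      exact Sum.inr_injective ((eqv h).injective hij)
  obtain ⟨g, hg⟩ : ∃ g, g * iota h (1, c3) * g⁻¹ = c :=
    isConj_iff.1 (Perm.isConj_of_cycleType_eq (hstd.trans hc3.symm))
  have hgc : ∀ z, c (g z) = g (iota h (1, c3) z) := by
    intro z
    rw [← hg]
    simp
  -- `P` lies in the image of the first factor
  let j : Perm (Fin (n - 3)) →* Perm (Fin n) :=
    (MulAut.conj g).toMonoidHom.comp ((iota h).comp (MonoidHom.inl _ _))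
  have hj : ∀ a, j a = g * iota h (a, 1) * g⁻¹ := fun a => rfl
  have hjinj : Function.Injective j := by
    intro a b hab
    rw [hj, hj] at hab
    have h1 : iota h (a, 1) = iota h (b, 1) := by
      have := hab
      simpa using this
    exact congrArg Prod.fst (iota_injective h h1)
  have hrange : P ≤ j.range := by
    intro u hu
    obtain ⟨e, he⟩ := hPg ⟨u, hu⟩
    have he' : u ^ 2 ^ e = 1 := by
      have := congrArg Subtype.val he
      simpa using this
    have hfix : ∀ k : Fin 3, u (g (eqv h (Sum.inr k))) = g (eqv h (Sum.inr k)) := by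
      intro k
      apply fix_support hc3 (hcomm u hu) he'
      rw [hgc]
      intro h0
      exact hmoved k (g.injective h0)
    let σ : Perm (Fin (n - 3) ⊕ Fin 3) := (eqv h).symm.permCongrHom (g⁻¹ * u * g)
    have hσ : ∀ k : Fin 3, σ (Sum.inr k) = Sum.inr k := by
      intro k
      change (eqv h).symm ((g⁻¹ * u * g) ((eqv h).symm.symm (Sum.inr k))) = Sum.inr k
      have : (eqv h).symm.symm (Sum.inr k) = eqv h (Sum.inr k) := rfl
      rw [this]
      simp only [Perm.coe_mul, Function.comp_apply]
      rw [hfix]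
      simp
    have hmaps : Set.MapsTo σ (Set.range Sum.inl) (Set.range Sum.inl) := by
      rw [Perm.perm_mapsTo_inl_iff_mapsTo_inr]
      rintro _ ⟨k, rfl⟩
      exact ⟨k, (hσ k).symm⟩
    obtain ⟨⟨a, b⟩, hab⟩ := Perm.mem_sumCongrHom_range_of_perm_mapsTo_inl hmaps
    have hb : b = 1 := by
      ext k
      have h1 := hσ k
      rw [← hab] at h1
      have h2 : (Sum.inr (b k) : Fin (n - 3) ⊕ Fin 3) = Sum.inr k := h1
      rw [Sum.inr_injective h2]
      rfl
    subst hb
    refine ⟨a, ?_⟩
    rw [hj]
    have h3 : iota h (a, 1) = g⁻¹ * u * g := by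
      have h4 : iota h (a, 1) = (eqv h).permCongrHom (Perm.sumCongrHom _ _ (a, 1)) := rfl
      rw [h4, hab]
      simp only [σ]
      rw [← Equiv.permCongrHom_symm, MulEquiv.apply_symm_apply]
    rw [h3]
    group
  -- the Sylow subgroup
  let P'' := P.comap j
  have hmap : P''.map j = P := Subgroup.map_comap_eq_self hrange
  have hP''c : Nat.card P'' = Nat.card P := by
    rw [← hmap]
    exact Nat.card_congr (P''.equivMapOfInjective _ hjinj).toEquiv
  have hfact : Nat.card P'' = 2 ^ (Nat.card (Perm (Fin (n - 3)))).factorization 2 := by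
    rw [hP''c, hPc, ← hP₀]
    exact Sylow.card_eq_multiplicity P₀
  let S'' : Sylow 2 (Perm (Fin (n - 3))) := Sylow.ofCard P'' hfact
  have hS'' : (S'' : Subgroup _) = P'' := Sylow.coe_ofCard _ hfact
  obtain ⟨k, hk⟩ := MulAction.exists_smul_eq (Perm (Fin (n - 3))) S'' P₀
  have hkmem : ∀ a ∈ (P₀ : Subgroup (Perm (Fin (n - 3)))), k⁻¹ * a * k ∈ P'' := by
    intro a ha
    rw [← hk, Sylow.coe_subgroup_smul, Subgroup.mem_pointwise_smul_iff_inv_smul_mem, hS''] at ha
    simpa [MulAut.smul_def, MulAut.conj_apply, mul_assoc] using ha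
  -- the conjugating element
  let g' : Perm (Fin n) := g * iota h (k⁻¹, 1)
  refine ⟨g', ?_⟩
  symm
  apply Subgroup.eq_of_le_of_card_ge
  · rintro _ ⟨y, ⟨⟨a, b⟩, ⟨ha, hb⟩, rfl⟩, rfl⟩
    obtain ⟨i, rfl⟩ := Subgroup.mem_zpowers_iff.1 hb
    have e1 : iota h (a, c3 ^ i) = iota h (a, 1) * (iota h (1, c3)) ^ i := by
      rw [← map_zpow, ← map_mul]
      simp
    have e2 : g' * iota h (a, 1) * g'⁻¹ = j (k⁻¹ * a * k) := by
      rw [hj]
      simp only [g', mul_inv_rev]
      have : iota h (k⁻¹ * a * k, 1) = iota h (k⁻¹, 1) * iota h (a, 1) * iota h (k, 1) := by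
        rw [← map_mul, ← map_mul]
        simp
      rw [this, ← map_inv]
      simp [mul_assoc]
    have e3 : g' * (iota h (1, c3)) ^ i * g'⁻¹ = c ^ i := by
      have e4 : iota h (k⁻¹, 1) * (iota h (1, c3)) ^ i = (iota h (1, c3)) ^ i * iota h (k⁻¹, 1) := by
        rw [← map_zpow, ← map_mul, ← map_mul]
        simp
      rw [← hg]
      rw [conj_zpow]
      simp only [g', mul_inv_rev]
      calc g * iota h (k⁻¹, 1) * iota h (1, c3) ^ i * ((iota h (k⁻¹, 1))⁻¹ * g⁻¹)
          = g * (iota h (k⁻¹, 1) * iota h (1, c3) ^ i) * ((iota h (k⁻¹, 1))⁻¹ * g⁻¹) := by group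
        _ = g * (iota h (1, c3) ^ i * iota h (k⁻¹, 1)) * ((iota h (k⁻¹, 1))⁻¹ * g⁻¹) := by rw [e4]
        _ = g * iota h (1, c3) ^ i * g⁻¹ := by group
    have e5 : (MulAut.conj g').toMonoidHom (iota h (a, c3 ^ i)) =
        j (k⁻¹ * a * k) * c ^ i := by
      change g' * iota h (a, c3 ^ i) * g'⁻¹ = _
      rw [e1, ← e2, ← e3]
      group
    rw [e5]
    refine N.mul_mem (hPN ?_) (N.zpow_mem hcN i)
    exact hkmem a ha
  · have h1 : Nat.card ((stdGroup h (P₀ : Subgroup _)).map (MulAut.conj g').toMonoidHom) =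
        Nat.card (stdGroup h (P₀ : Subgroup _)) :=
      Nat.card_congr ((stdGroup h (P₀ : Subgroup _)).equivMapOfInjective _
        (MulAut.conj g').injective).toEquiv.symm
    rw [h1, card_stdGroup, hc, hP₀]

end std

/-- Let n ≡ 3 (mod 4). Then every nilpotent subgroup of the symmetric group on n letters has order at most 3 times the order of a Sylow 2-subgroup of the symmetric group on n − 3 letters; the bound is attained by a nilpotent subgroup isomorphic to the direct product of such a Sylow 2-subgroup with a cyclic group of order 3; and any two nilpotent subgroups attaining the bound are conjugate. -/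
theorem result  (n : ℕ) (hn : n % 4 = 3)
    (P : Sylow 2 (Equiv.Perm (Fin (n - 3)))) :
    (∀ N : Subgroup (Equiv.Perm (Fin n)), Group.IsNilpotent N → Nat.card N ≤ 3 * Nat.card P) ∧
    (∃ M : Subgroup (Equiv.Perm (Fin n)), Group.IsNilpotent M ∧ Nat.card M = 3 * Nat.card P ∧
      Nonempty (M ≃* (↥(P : Subgroup (Equiv.Perm (Fin (n - 3)))) × Multiplicative (ZMod 3)))) ∧
    (∀ N₁ N₂ : Subgroup (Equiv.Perm (Fin n)), Group.IsNilpotent N₁ → Group.IsNilpotent N₂ →
      Nat.card N₁ = 3 * Nat.card P → Nat.card N₂ = 3 * Nat.card P →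
      ∃ g : Equiv.Perm (Fin n), N₂ = N₁.map (MulAut.conj g).toMonoidHom) := by
  have h3 : 3 ≤ n := by omega
  refine ⟨?_, ⟨stdGroup h3 (P : Subgroup _), ?_, card_stdGroup h3 _, ⟨stdEquiv h3 _⟩⟩, ?_⟩
  · intro N hN
    have := card_nilpotent_le N hN
    rwa [Nat.card_fin, T_of_three hn, ← card_sylow_perm P] at this
  · haveI : Group.IsNilpotent (P : Subgroup (Perm (Fin (n - 3)))) := P.isPGroup'.isNilpotent
    exact Group.nilpotent_of_mulEquiv (stdEquiv h3 _).symm
  · intro N₁ N₂ h1 h2 hc1 hc2
    obtain ⟨g₁, hg₁⟩ := conj_std (hn := hn) h3 P N₁ h1 hc1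
    obtain ⟨g₂, hg₂⟩ := conj_std (hn := hn) h3 P N₂ h2 hc2
    refine ⟨g₂ * g₁⁻¹, ?_⟩
    rw [hg₁, hg₂, Subgroup.map_map]
    congr 1
    ext y z
    simp [MulAut.conj_apply, mul_assoc]

end Cfsg.Agent.S2254
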