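import Mathlib
import Cfsg.Statements.S2255
import Cfsg.Agent.Lib.NilpPermAlt

set_option autoImplicit false
open Cfsg

namespace Cfsg.Agent.S2255

/-- Let n be a natural number not congruent to 3 modulo 4, with n ∉ {5, 6, 9}. Then every nilpotent subgroup of the alternating group on n letters has order at most the order of a Sylow 2-subgroup of the alternating group (so the nilpotent subgroups of largest order are exactly the Sylow 2-subgroups). -/
theorem result  (n : ℕ) (hn : n % 4 ≠ 3)
    (h5 : n ≠ 5) (h6 : n ≠ 6) (h9 : n ≠ 9)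
    (N : Subgroup (alternatingGroup (Fin n))) (hN : Group.IsNilpotent N)
    (P : Sylow 2 (alternatingGroup (Fin n))) :
    Nat.card N ≤ Nat.card P := by
  open Cfsg.Agent.Lib.NilpPerm in
  have hmain : ∀ (N' : Subgroup (Equiv.Perm (Fin n))), Group.IsNilpotent N' →
      N' ≤ alternatingGroup (Fin n) → Nat.card N' ≤ 2 ^ (s2 n - 1) := by
    intro N' hN' he
    have := card_le_alt N' hN' he (by rwa [Nat.card_fin]) (by rwa [Nat.card_fin])
      (by rwa [Nat.card_fin]) (by rwa [Nat.card_fin])
    rwa [Nat.card_fin] at this
  rw [Cfsg.Agent.Lib.NilpPerm.card_sylow_alt P]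
  let e := N.equivMapOfInjective _ (alternatingGroup (Fin n)).subtype_injective
  have hc : Nat.card N = Nat.card (N.map (alternatingGroup (Fin n)).subtype) := Nat.card_congr e.toEquiv
  rw [hc]
  apply hmain
  · exact Group.nilpotent_of_mulEquiv e
  · rintro _ ⟨u, -, rfl⟩
    exact u.2

end Cfsg.Agent.S2255
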