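import Mathlib
import Cfsg.Statements.S2256
import Cfsg.Agent.S2254

set_option autoImplicit false
open Cfsg

namespace Cfsg.Agent.S2256

open Equiv Cfsg.Agent.Lib.NilpPerm Cfsg.Agent.S2254

set_option linter.unusedSectionVars false
set_option linter.unusedVariables false

/-- The exact maximum for odd groups, for few points. -/
def tab15 (n : ℕ) : ℕ := [1, 1, 1, 3, 3, 5, 9, 9, 15, 81, 81, 81, 243, 243, 405, 729].getD n 1

theorem tab15_prime_table : ∀ n < 16, ∀ p ∈ [3, 5, 7, 11, 13], ∀ k < 16,
    p ^ k ∣ n.factorial → p ^ k ≤ tab15 n := by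
  decide +kernel

theorem tab15_bound : Bound tab15 (· ≠ 2) 15 where
  pos := by decide +kernel
  mono := by
    have : ∀ b < 16, ∀ a < 16, a ≤ b → tab15 a ≤ tab15 b := by decide +kernel
    intro a b hab hb
    exact this b (by omega) a (by omega) hab
  sup := by
    have : ∀ a < 16, ∀ b < 16, 1 ≤ a → 1 ≤ b → a + b ≤ 15 → tab15 a * tab15 b ≤ tab15 (a + b) := by
      decide +kernel
    intro a b ha hb hab
    exact this a (by omega) b (by omega) ha hb hab
  prime := by
    intro n hn p k hp h2 hd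
    have hnl : n < 16 := by omega
    rcases Nat.eq_zero_or_pos k with rfl | hk
    · have : ∀ n < 16, 1 ≤ tab15 n := by decide +kernel
      simpa using this n hnl
    have hpn : p ≤ n := (Nat.Prime.dvd_factorial hp).1 ((dvd_pow_self p hk.ne').trans hd)
    have hk' : k < 16 := by
      have h3 : 3 ≤ p := by
        have := hp.two_le
        omega
      have hsq := sq_prime_pow_le hp h2 hd
      have hk2 : 3 ^ (2 * k) ≤ 3 ^ (n - 1) := by
        calc 3 ^ (2 * k) = (3 ^ k) ^ 2 := by ring
          _ ≤ (p ^ k) ^ 2 := Nat.pow_le_pow_left (Nat.pow_le_pow_left h3 k) 2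
          _ ≤ _ := hsq
      have := (Nat.pow_le_pow_iff_right (by norm_num : 1 < 3)).1 hk2
      omega
    have hmem : p ∈ [3, 5, 7, 11, 13] := by
      have hlt : p < 16 := by omega
      interval_cases p <;> first | decide | exact absurd rfl h2 | exact absurd hp (by norm_num)
    exact tab15_prime_table n hnl p hmem k hk' hd

theorem tab15_le : ∀ n < 16, n % 4 = 3 → 7 ≤ n → tab15 n ≤ 3 * 2 ^ (s2 (n - 3) - 1) := by
  decide +kernel

theorem mid_le3 : ∀ n < 30, 16 ≤ n → n % 4 = 3 → 3 ^ (n - 1) ≤ (3 * 2 ^ (s2 (n - 3) - 1)) ^ 2 := by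
  decide +kernel

theorem s2_pos_of {n : ℕ} (h : 2 ≤ n) : 1 ≤ s2 n := by
  apply le_s2
  rw [pow_one]
  exact Nat.dvd_factorial (by norm_num) h

/-- Odd nilpotent permutation groups. -/
theorem card_le_of_odd3 {X : Type} [Finite X] (N : Subgroup (Perm X)) (hN : Group.IsNilpotent N)
    (h2 : ¬ 2 ∣ Nat.card N) (hn : Nat.card X % 4 = 3) (h7 : 7 ≤ Nat.card X) :
    Nat.card N ≤ 3 * 2 ^ (s2 (Nat.card X - 3) - 1) := by
  have hπ : ∀ p, p.Prime → p ∣ Nat.card N → p ≠ 2 := by
    rintro p hp hd rfl
    exact h2 hd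
  rcases Nat.lt_or_ge (Nat.card X) 16 with h15 | h15
  · exact (card_subgroup_le tab15_bound (by omega) N hN hπ).trans (tab15_le _ h15 hn h7)
  · have hb := card_subgroup_le (sqrt_bound (Nat.card X)) le_rfl N hN hπ
    refine hb.trans ?_
    have hsq : 3 ^ (Nat.card X - 1) ≤ (3 * 2 ^ (s2 (Nat.card X - 3) - 1)) ^ 2 := by
      rcases Nat.lt_or_ge (Nat.card X) 30 with h30 | h30
      · exact mid_le3 _ h30 h15 hn
      · have hl := three_pow_large h30
        have h3 : s2 (Nat.card X) = s2 (Nat.card X - 3) + 1 := by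
          have := s2_three (x := Nat.card X - 3) (by omega)
          rwa [show Nat.card X - 3 + 3 = Nat.card X by omega] at this
        have hs : 1 ≤ s2 (Nat.card X - 3) := s2_pos_of (by omega)
        obtain ⟨m, hm⟩ : ∃ m, s2 (Nat.card X - 3) = m + 1 := ⟨_, (Nat.sub_add_cancel hs).symm⟩
        rw [h3, hm] at hl
        rw [hm, Nat.add_sub_cancel]
        have e : (2 ^ (m + 1 + 1)) ^ 2 = 16 * (2 ^ m) ^ 2 := by ring
        rw [e] at hl
        have e2 : (3 * 2 ^ m) ^ 2 = 9 * (2 ^ m) ^ 2 := by ring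
        rw [e2]
        omega
    calc Nat.sqrt (3 ^ (Nat.card X - 1)) ≤ Nat.sqrt ((3 * 2 ^ (s2 (Nat.card X - 3) - 1)) ^ 2) :=
          Nat.sqrt_le_sqrt hsq
      _ = 3 * 2 ^ (s2 (Nat.card X - 3) - 1) := Nat.sqrt_eq' _

/-- The upper bound in the alternating group. -/
theorem card_le_alt3 {n : ℕ} (hn : n % 4 = 3) (h7 : 7 ≤ n) (N : Subgroup (Perm (Fin n)))
    (hN : Group.IsNilpotent N) (heven : N ≤ alternatingGroup (Fin n)) :
    Nat.card N ≤ 3 * 2 ^ (s2 (n - 3) - 1) := by
  by_cases h2 : 2 ∣ Nat.card N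
  · have h := two_mul_card_le_of_even N hN heven h2
    rw [Nat.card_fin, T_of_three hn] at h
    have hs : 1 ≤ s2 (n - 3) := s2_pos_of (by omega)
    obtain ⟨m, hm⟩ : ∃ m, s2 (n - 3) = m + 1 := ⟨_, (Nat.sub_add_cancel hs).symm⟩
    rw [hm, pow_succ] at h
    rw [hm, Nat.add_sub_cancel]
    omega
  · have := card_le_of_odd3 N hN h2 (by rwa [Nat.card_fin]) (by rwa [Nat.card_fin])
    rwa [Nat.card_fin] at this

/-- A nilpotent group of even permutations attaining the bound: its structure. -/
theorem attain_structure3 {n : ℕ} (hn : n % 4 = 3) (h7 : 7 ≤ n) (N : Subgroup (Perm (Fin n)))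
    (hN : Group.IsNilpotent N) (hc : Nat.card N = 3 * 2 ^ (s2 (n - 3) - 1)) :
    ∃ (P : Subgroup (Perm (Fin n))) (c : Perm (Fin n)), IsPGroup 2 P ∧ P ≤ N ∧ c ∈ N ∧
      c.IsThreeCycle ∧ Nat.card P = 2 ^ (s2 (n - 3) - 1) ∧ ∀ u ∈ P, Commute u c := by
  classical
  obtain ⟨P, Q, hP, hQ, hmul, hcomm, -⟩ := exists_decomp (G := N) 2
  let P' := P.map N.subtype
  have hP'c : Nat.card P' = Nat.card P :=
    Nat.card_congr (P.equivMapOfInjective _ N.subtype_injective).toEquiv.symm
  have hP'g : IsPGroup 2 P' := hP.map N.subtype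
  obtain ⟨e, he⟩ := IsPGroup.iff_card.1 hP
  rw [hc, he] at hmul
  -- the order of `Q`
  have hQd : Nat.card Q ∣ 3 := by
    have h1 : Nat.card Q ∣ 3 * 2 ^ (s2 (n - 3) - 1) := ⟨2 ^ e, by rw [← hmul, mul_comm]⟩
    have h2 : Nat.Coprime (Nat.card Q) (2 ^ (s2 (n - 3) - 1)) :=
      Nat.Coprime.pow_right _ ((Nat.Prime.coprime_iff_not_dvd Nat.prime_two).2 hQ).symm
    exact h2.dvd_of_dvd_mul_right h1
  have hQ3 : Nat.card Q = 3 := by
    rcases (Nat.dvd_prime Nat.prime_three).1 hQd with h1 | h3
    · exfalso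
      rw [h1, mul_one] at hmul
      have h3 : 3 ∣ 2 ^ e := ⟨_, hmul⟩
      have := Nat.Prime.dvd_of_dvd_pow Nat.prime_three h3
      omega
    · exact h3
  have hek : e = s2 (n - 3) - 1 := by
    rw [hQ3, mul_comm] at hmul
    have := Nat.eq_of_mul_eq_mul_left (by norm_num) hmul
    exact Nat.pow_right_injective (le_refl 2) this
  -- an element of order three
  obtain ⟨c₀, hc₀⟩ := exists_prime_orderOf_dvd_card' (G := Q) 3 (by rw [hQ3])
  let c : Perm (Fin n) := ((c₀ : Q) : N)
  have hc3 : c ^ 3 = 1 := by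
    have : c₀ ^ 3 = 1 := by rw [← hc₀, pow_orderOf_eq_one]
    have h1 := congrArg (fun q : Q => (((q : N)) : Perm (Fin n))) this
    simpa using h1
  have hc1 : c ≠ 1 := by
    intro h
    have : c₀ = 1 := Subtype.ext (Subtype.ext h)
    rw [this, orderOf_one] at hc₀
    omega
  have hcommP : ∀ u ∈ P', Commute u c := by
    rintro _ ⟨u, hu, rfl⟩
    exact congrArg Subtype.val (hcomm u hu c₀ c₀.2)
  obtain ⟨x, hx⟩ : ∃ x, c x ≠ x := by
    by_contra hall
    push Not at hall
    exact hc1 (Equiv.ext hall)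
  refine ⟨P', c, hP'g, ?_, (c₀ : N).2, ?_, by rw [hP'c, he, hek], hcommP⟩
  · rintro _ ⟨u, -, rfl⟩
    exact u.2
  -- `c` has just one nontrivial orbit
  have hsupp : c.support ⊆ {x, c x, c (c x)} := by
    intro y hy
    rw [Perm.mem_support] at hy
    by_contra hmem
    have h0 : ∀ i : ℕ, (c ^ i) x ≠ y := by
      intro i hi
      apply hmem
      have : i % 3 = 0 ∨ i % 3 = 1 ∨ i % 3 = 2 := by omega
      have hpow : c ^ i = c ^ (i % 3) := pow_eq_pow_mod i hc3
      rw [← hi, hpow]
      rcases this with h | h | h <;> rw [h] <;> simp [pow_two]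
    obtain ⟨⟨e', he', hle⟩, h6⟩ :=
      card_le_of_two_orbits P' hP'g c hc3 hcommP x y hx hy h0
    rw [Fintype.card_fin] at hle h6
    have hfour := s2_succ_four (n := n - 4) (by omega)
    rw [show n - 4 + 1 = n - 3 by omega] at hfour
    rw [hP'c, he] at he'
    have : e = e' := Nat.pow_right_injective (le_refl 2) he'
    omega
  have hcard : c.support.card = 3 := by
    have hcx : c (c x) ≠ x := by
      intro h
      have : c (c (c x)) = c x := by rw [h]
      have h3 : c (c (c x)) = x := by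
        have := congrArg (fun σ : Perm (Fin n) => σ x) hc3
        simpa [pow_succ] using this
      exact hx (h3.symm.trans this).symm
    have e1 : ({x, c x, c (c x)} : Finset (Fin n)).card = 3 := by
      rw [Finset.card_insert_of_notMem (by simp [hx.symm, hcx.symm]),
        Finset.card_insert_of_notMem (by simpa using (fun h => hx (c.injective h).symm)),
        Finset.card_singleton]
    have hsub : ({x, c x, c (c x)} : Finset (Fin n)) ⊆ c.support := by
      intro z hz
      simp only [Finset.mem_insert, Finset.mem_singleton] at hz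
      rw [Perm.mem_support]
      rcases hz with rfl | rfl | rfl
      · exact hx
      · exact fun h => hx (c.injective h)
      · exact fun h => hx (c.injective (c.injective h))
    rw [Finset.Subset.antisymm hsupp hsub, e1]
  exact card_support_eq_three_iff.1 hcard

section std

variable {n : ℕ}

theorem sign_iota (h : 3 ≤ n) (a : Perm (Fin (n - 3))) (b : Perm (Fin 3)) :
    Perm.sign (iota h (a, b)) = Perm.sign a * Perm.sign b := by
  change Perm.sign ((eqv h).permCongr (Perm.sumCongr a b)) = _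
  rw [Perm.sign_permCongr, Perm.sign_sumCongr]

theorem sign_c3 : Perm.sign c3 = 1 := c3_isThreeCycle.sign

/-- The standard nilpotent group consists of even permutations. -/
theorem std_le_alt (h : 3 ≤ n) (P : Subgroup (Perm (Fin (n - 3))))
    (hP : P ≤ alternatingGroup (Fin (n - 3))) : stdGroup h P ≤ alternatingGroup (Fin n) := by
  rintro _ ⟨⟨a, b⟩, ⟨ha, hb⟩, rfl⟩
  obtain ⟨i, rfl⟩ := Subgroup.mem_zpowers_iff.1 hb
  change Perm.sign _ = 1
  rw [sign_iota, map_zpow, sign_c3, one_zpow, mul_one]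
  exact hP ha

/-- Any group of even permutations attaining the bound is conjugate to the standard group by an
even permutation. -/
theorem conj_std3 (hn : n % 4 = 3) (h7 : 7 ≤ n) (h : 3 ≤ n)
    (P₀ : Sylow 2 (alternatingGroup (Fin (n - 3))))
    (N : Subgroup (Perm (Fin n))) (hN : Group.IsNilpotent N) (heven : N ≤ alternatingGroup (Fin n))
    (hc : Nat.card N = 3 * Nat.card P₀) :
    ∃ g : Perm (Fin n), Perm.sign g = 1 ∧
      N = (stdGroup h ((P₀ : Subgroup _).map (alternatingGroup (Fin (n - 3))).subtype)).map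
        (MulAut.conj g).toMonoidHom := by
  classical
  have hP₀ := card_sylow_alt P₀
  rw [hP₀] at hc
  obtain ⟨P, c, hPg, hPN, hcN, hc3, hPc, hcomm⟩ := attain_structure3 hn h7 N hN hc
  -- conjugate `c` to the standard one
  have hmoved : ∀ i : Fin 3, iota h (1, c3) (eqv h (Sum.inr i)) ≠ eqv h (Sum.inr i) := by
    intro i hi
    rw [iota_inr] at hi
    have := (eqv h).injective hi
    exact c3_ne i (Sum.inr_injective this)
  have hstd : (iota h (1, c3)).IsThreeCycle := by
    apply card_support_eq_three_iff.1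
    have : (iota h (1, c3)).support = Finset.univ.image (fun i : Fin 3 => eqv h (Sum.inr i)) := by
      ext z
      rw [Perm.mem_support, Finset.mem_image]
      constructor
      · intro hz
        obtain ⟨w, rfl⟩ := (eqv h).surjective z
        rcases w with i | j
        · exfalso
          apply hz
          rw [iota_inl]
          rfl
        · exact ⟨j, Finset.mem_univ _, rfl⟩
      · rintro ⟨i, -, rfl⟩
        exact hmoved i
    rw [this, Finset.card_image_of_injective]
    · rfl
    · intro i j hij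
      exact Sum.inr_injective ((eqv h).injective hij)
  obtain ⟨g₀, hg₀⟩ : ∃ g, g * iota h (1, c3) * g⁻¹ = c :=
    isConj_iff.1 (Perm.isConj_of_cycleType_eq (hstd.trans hc3.symm))
  -- make it even
  obtain ⟨g, hg, hgsign⟩ : ∃ g, g * iota h (1, c3) * g⁻¹ = c ∧ Perm.sign g = 1 := by
    rcases Int.units_eq_one_or (Perm.sign g₀) with hs | hs
    · exact ⟨g₀, hg₀, hs⟩
    · -- a transposition on the other points
      have hne : (⟨0, by omega⟩ : Fin (n - 3)) ≠ ⟨1, by omega⟩ := by
        intro h0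
        have := congrArg Fin.val h0
        simp at this
      let τ : Perm (Fin (n - 3)) := Equiv.swap ⟨0, by omega⟩ ⟨1, by omega⟩
      have hτ : Perm.sign τ = -1 := Perm.sign_swap hne
      refine ⟨g₀ * iota h (τ, 1), ?_, ?_⟩
      · have e4 : iota h (τ, 1) * iota h (1, c3) = iota h (1, c3) * iota h (τ, 1) := by
          rw [← map_mul, ← map_mul]
          simp
        calc g₀ * iota h (τ, 1) * iota h (1, c3) * (g₀ * iota h (τ, 1))⁻¹
            = g₀ * (iota h (τ, 1) * iota h (1, c3)) * (iota h (τ, 1))⁻¹ * g₀⁻¹ := by group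
          _ = g₀ * (iota h (1, c3) * iota h (τ, 1)) * (iota h (τ, 1))⁻¹ * g₀⁻¹ := by rw [e4]
          _ = g₀ * iota h (1, c3) * g₀⁻¹ := by group
          _ = c := hg₀
      · rw [map_mul, sign_iota, hs, hτ, map_one]
        decide
  have hgc : ∀ z, c (g z) = g (iota h (1, c3) z) := by
    intro z
    rw [← hg]
    simp
  -- `P` lies in the image of the first factor
  let j : Perm (Fin (n - 3)) →* Perm (Fin n) :=
    (MulAut.conj g).toMonoidHom.comp ((iota h).comp (MonoidHom.inl _ _))
  have hj : ∀ a, j a = g * iota h (a, 1) * g⁻¹ := fun a => rfl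
  have hjsign : ∀ a, Perm.sign (j a) = Perm.sign a := by
    intro a
    rw [hj, map_mul, map_mul, sign_iota, map_inv, hgsign, map_one]
    simp
  have hjinj : Function.Injective j := by
    intro a b hab
    rw [hj, hj] at hab
    have h1 : iota h (a, 1) = iota h (b, 1) := by
      have := hab
      simpa using this
    exact congrArg Prod.fst (iota_injective h h1)
  have hrange : P ≤ j.range := by
    intro u hu
    obtain ⟨e, he⟩ := hPg ⟨u, hu⟩
    have he' : u ^ 2 ^ e = 1 := by
      have := congrArg Subtype.val he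
      simpa using this
    have hfix : ∀ k : Fin 3, u (g (eqv h (Sum.inr k))) = g (eqv h (Sum.inr k)) := by
      intro k
      apply fix_support hc3 (hcomm u hu) he'
      rw [hgc]
      intro h0
      exact hmoved k (g.injective h0)
    let σ : Perm (Fin (n - 3) ⊕ Fin 3) := (eqv h).symm.permCongrHom (g⁻¹ * u * g)
    have hσ : ∀ k : Fin 3, σ (Sum.inr k) = Sum.inr k := by
      intro k
      change (eqv h).symm ((g⁻¹ * u * g) ((eqv h).symm.symm (Sum.inr k))) = Sum.inr k
      have : (eqv h).symm.symm (Sum.inr k) = eqv h (Sum.inr k) := rfl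
      rw [this]
      simp only [Perm.coe_mul, Function.comp_apply]
      rw [hfix]
      simp
    have hmaps : Set.MapsTo σ (Set.range Sum.inl) (Set.range Sum.inl) := by
      rw [Perm.perm_mapsTo_inl_iff_mapsTo_inr]
      rintro _ ⟨k, rfl⟩
      exact ⟨k, (hσ k).symm⟩
    obtain ⟨⟨a, b⟩, hab⟩ := Perm.mem_sumCongrHom_range_of_perm_mapsTo_inl hmaps
    have hb : b = 1 := by
      ext k
      have h1 := hσ k
      rw [← hab] at h1
      have h2 : (Sum.inr (b k) : Fin (n - 3) ⊕ Fin 3) = Sum.inr k := h1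
      rw [Sum.inr_injective h2]
      rfl
    subst hb
    refine ⟨a, ?_⟩
    rw [hj]
    have h3 : iota h (a, 1) = g⁻¹ * u * g := by
      have h4 : iota h (a, 1) = (eqv h).permCongrHom (Perm.sumCongrHom _ _ (a, 1)) := rfl
      rw [h4, hab]
      simp only [σ]
      rw [← Equiv.permCongrHom_symm, MulEquiv.apply_symm_apply]
    rw [h3]
    group
  -- the Sylow subgroup of the alternating group
  let A := alternatingGroup (Fin (n - 3))
  let P'' : Subgroup A := (P.comap j).comap A.subtype
  have hP''le : P.comap j ≤ A := by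
    intro a ha
    change Perm.sign a = 1
    rw [← hjsign]
    exact heven (hPN ha)
  have hmap : (P.comap j).map j = P := Subgroup.map_comap_eq_self hrange
  have hP''c1 : Nat.card (P.comap j) = Nat.card P := by
    conv_rhs => rw [← hmap]
    exact Nat.card_congr ((P.comap j).equivMapOfInjective _ hjinj).toEquiv
  have hP''map : P''.map A.subtype = P.comap j := by
    apply Subgroup.map_comap_eq_self
    rw [Subgroup.range_subtype]
    exact hP''le
  have hP''c : Nat.card P'' = Nat.card P := by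
    rw [← hP''c1, ← hP''map]
    exact Nat.card_congr (P''.equivMapOfInjective _ A.subtype_injective).toEquiv
  have hfact : Nat.card P'' = 2 ^ (Nat.card A).factorization 2 := by
    rw [hP''c, hPc, ← hP₀]
    exact Sylow.card_eq_multiplicity P₀
  let S'' : Sylow 2 A := Sylow.ofCard P'' hfact
  have hS'' : (S'' : Subgroup _) = P'' := Sylow.coe_ofCard _ hfact
  obtain ⟨k, hk⟩ := MulAction.exists_smul_eq A S'' P₀
  have hkmem : ∀ a ∈ (P₀ : Subgroup A), k⁻¹ * a * k ∈ P'' := by
    intro a ha
    rw [← hk, Sylow.coe_subgroup_smul, Subgroup.mem_pointwise_smul_iff_inv_smul_mem, hS''] at ha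
    simpa [MulAut.smul_def, MulAut.conj_apply, mul_assoc] using ha
  let k' : Perm (Fin (n - 3)) := (k : Perm (Fin (n - 3)))
  have hk'sign : Perm.sign k' = 1 := k.2
  -- the conjugating element
  let g' : Perm (Fin n) := g * iota h (k'⁻¹, 1)
  have hg'sign : Perm.sign g' = 1 := by
    simp only [g']
    rw [map_mul, sign_iota, hgsign, map_inv, hk'sign, map_one]
    simp
  refine ⟨g', hg'sign, ?_⟩
  symm
  apply Subgroup.eq_of_le_of_card_ge
  · rintro _ ⟨y, ⟨⟨a, b⟩, ⟨ha, hb⟩, rfl⟩, rfl⟩
    obtain ⟨i, rfl⟩ := Subgroup.mem_zpowers_iff.1 hb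
    obtain ⟨a₀, ha₀, rfl⟩ := ha
    set a : Perm (Fin (n - 3)) := A.subtype a₀ with ha_def
    have e1 : iota h (a, c3 ^ i) = iota h (a, 1) * (iota h (1, c3)) ^ i := by
      rw [← map_zpow, ← map_mul]
      simp
    have e2 : g' * iota h (a, 1) * g'⁻¹ = j (k'⁻¹ * a * k') := by
      rw [hj]
      simp only [g', mul_inv_rev]
      have : iota h (k'⁻¹ * a * k', 1) = iota h (k'⁻¹, 1) * iota h (a, 1) * iota h (k', 1) := by
        rw [← map_mul, ← map_mul]
        simp
      rw [this, ← map_inv]
      simp [mul_assoc]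
    have e3 : g' * (iota h (1, c3)) ^ i * g'⁻¹ = c ^ i := by
      have e4 : iota h (k'⁻¹, 1) * (iota h (1, c3)) ^ i = (iota h (1, c3)) ^ i * iota h (k'⁻¹, 1) := by
        rw [← map_zpow, ← map_mul, ← map_mul]
        simp
      rw [← hg]
      rw [conj_zpow]
      simp only [g', mul_inv_rev]
      calc g * iota h (k'⁻¹, 1) * iota h (1, c3) ^ i * ((iota h (k'⁻¹, 1))⁻¹ * g⁻¹)
          = g * (iota h (k'⁻¹, 1) * iota h (1, c3) ^ i) * ((iota h (k'⁻¹, 1))⁻¹ * g⁻¹) := by group
        _ = g * (iota h (1, c3) ^ i * iota h (k'⁻¹, 1)) * ((iota h (k'⁻¹, 1))⁻¹ * g⁻¹) := by rw [e4]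
        _ = g * iota h (1, c3) ^ i * g⁻¹ := by group
    have e5 : (MulAut.conj g').toMonoidHom (iota h (a, c3 ^ i)) =
        j (k'⁻¹ * a * k') * c ^ i := by
      change g' * iota h (a, c3 ^ i) * g'⁻¹ = _
      rw [e1, ← e2, ← e3]
      group
    rw [e5]
    refine N.mul_mem (hPN ?_) (N.zpow_mem hcN i)
    exact hkmem a₀ ha₀
  · have h1 : Nat.card ((stdGroup h ((P₀ : Subgroup _).map A.subtype)).map (MulAut.conj g').toMonoidHom) =
        Nat.card (stdGroup h ((P₀ : Subgroup _).map A.subtype)) :=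
      Nat.card_congr ((stdGroup h ((P₀ : Subgroup _).map A.subtype)).equivMapOfInjective _
        (MulAut.conj g').injective).toEquiv.symm
    rw [h1, card_stdGroup, hc]
    have h2 : Nat.card ((P₀ : Subgroup A).map A.subtype) = Nat.card P₀ :=
      Nat.card_congr ((P₀ : Subgroup A).equivMapOfInjective _ A.subtype_injective).toEquiv.symm
    rw [h2, hP₀]

end std

/-- Let n ≡ 3 (mod 4) with n ≥ 7. Then every nilpotent subgroup of the alternating group on n letters has order at most 3 times the order of a Sylow 2-subgroup of the alternating group on n − 3 letters; the bound is attained by a nilpotent subgroup isomorphic to the direct product of such a Sylow 2-subgroup with a cyclic group of order 3; and any two nilpotent subgroups of the alternating group attaining the bound are conjugate in it. -/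
theorem result  (n : ℕ) (hn : n % 4 = 3) (h7 : 7 ≤ n)
    (P : Sylow 2 (alternatingGroup (Fin (n - 3)))) :
    (∀ N : Subgroup (alternatingGroup (Fin n)), Group.IsNilpotent N → Nat.card N ≤ 3 * Nat.card P) ∧
    (∃ M : Subgroup (alternatingGroup (Fin n)), Group.IsNilpotent M ∧ Nat.card M = 3 * Nat.card P ∧
      Nonempty (M ≃* (↥(P : Subgroup (alternatingGroup (Fin (n - 3)))) × Multiplicative (ZMod 3)))) ∧
    (∀ N₁ N₂ : Subgroup (alternatingGroup (Fin n)), Group.IsNilpotent N₁ → Group.IsNilpotent N₂ →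
      Nat.card N₁ = 3 * Nat.card P → Nat.card N₂ = 3 * Nat.card P →
      ∃ g : alternatingGroup (Fin n), N₂ = N₁.map (MulAut.conj g).toMonoidHom) := by
  have h3 : 3 ≤ n := by omega
  let A := alternatingGroup (Fin (n - 3))
  let B := alternatingGroup (Fin n)
  have hcardP := card_sylow_alt P
  let P' : Subgroup (Perm (Fin (n - 3))) := (P : Subgroup A).map A.subtype
  have hP'e : (P : Subgroup A) ≃* P' := (P : Subgroup A).equivMapOfInjective _ A.subtype_injective
  have hP'c : Nat.card P' = Nat.card P :=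
    Nat.card_congr ((P : Subgroup A).equivMapOfInjective _ A.subtype_injective).toEquiv.symm
  have hP'le : P' ≤ A := by
    rintro _ ⟨u, -, rfl⟩
    exact u.2
  have hstdle : stdGroup h3 P' ≤ B := std_le_alt h3 P' hP'le
  have hmapN : ∀ N : Subgroup B, N ≃* N.map B.subtype :=
    fun N => N.equivMapOfInjective _ B.subtype_injective
  have hcardmap : ∀ N : Subgroup B, Nat.card (N.map B.subtype) = Nat.card N :=
    fun N => Nat.card_congr (hmapN N).toEquiv.symm
  have hmaple : ∀ N : Subgroup B, N.map B.subtype ≤ B := by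
    rintro N _ ⟨u, -, rfl⟩
    exact u.2
  refine ⟨?_, ?_, ?_⟩
  · intro N hN
    have := card_le_alt3 hn h7 (N.map B.subtype)
      (Group.nilpotent_of_mulEquiv (hmapN N)) (hmaple N)
    rwa [hcardmap, ← hcardP] at this
  · let M : Subgroup B := (stdGroup h3 P').comap B.subtype
    have hMmap : M.map B.subtype = stdGroup h3 P' := by
      apply Subgroup.map_comap_eq_self
      rw [Subgroup.range_subtype]
      exact hstdle
    have e1 : M ≃* stdGroup h3 P' := (hmapN M).trans (MulEquiv.subgroupCongr hMmap)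
    have e2 : M ≃* (↥(P : Subgroup A) × Multiplicative (ZMod 3)) :=
      (e1.trans (stdEquiv h3 P')).trans (MulEquiv.prodCongr hP'e.symm (MulEquiv.refl _))
    refine ⟨M, ?_, ?_, ⟨e2⟩⟩
    · haveI : Group.IsNilpotent (P : Subgroup A) := P.isPGroup'.isNilpotent
      exact Group.nilpotent_of_mulEquiv e2.symm
    · rw [Nat.card_congr e1.toEquiv, card_stdGroup, hP'c]
  · intro N₁ N₂ h1 h2 hc1 hc2
    obtain ⟨g₁, hs₁, hg₁⟩ := conj_std3 hn h7 h3 P (N₁.map B.subtype)
      (Group.nilpotent_of_mulEquiv (hmapN N₁)) (hmaple N₁) (by rw [hcardmap, hc1])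
    obtain ⟨g₂, hs₂, hg₂⟩ := conj_std3 hn h7 h3 P (N₂.map B.subtype)
      (Group.nilpotent_of_mulEquiv (hmapN N₂)) (hmaple N₂) (by rw [hcardmap, hc2])
    let g : B := ⟨g₂ * g₁⁻¹, by
      change Perm.sign _ = 1
      rw [map_mul, map_inv, hs₁, hs₂]
      simp⟩
    refine ⟨g, ?_⟩
    apply Subgroup.map_injective B.subtype_injective
    have e : ∀ x : Perm (Fin n), (MulAut.conj (g₂ * g₁⁻¹)).toMonoidHom
        ((MulAut.conj g₁).toMonoidHom x) = (MulAut.conj g₂).toMonoidHom x := by
      intro x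
      simp [MulAut.conj_apply, mul_assoc]
    have h4 : (N₁.map (MulAut.conj g).toMonoidHom).map B.subtype =
        (N₁.map B.subtype).map (MulAut.conj (g₂ * g₁⁻¹)).toMonoidHom := by
      ext x
      simp only [Subgroup.mem_map]
      constructor
      · rintro ⟨_, ⟨y, hy, rfl⟩, rfl⟩
        exact ⟨y, ⟨y, hy, rfl⟩, rfl⟩
      · rintro ⟨_, ⟨y, hy, rfl⟩, rfl⟩
        exact ⟨_, ⟨y, hy, rfl⟩, rfl⟩
    rw [h4, hg₁, hg₂, Subgroup.map_map]
    congr 1
    ext y z
    simp [MulAut.conj_apply, mul_assoc]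

end Cfsg.Agent.S2256
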