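import Mathlib
import Cfsg.Statements.S2259
import Cfsg.Agent.Lib.SzSolB
import Cfsg.Agent.Lib.SuzukiIso

set_option autoImplicit false
open Cfsg

namespace Cfsg.Agent.S2259

/-- Let G be the Suzuki group Sz(q), q = 2^(2m+1) with 2m + 1 prime and m ≥ 1, realised inside Sp_4(F) for F the field of order q, write r = 2^(m+1) (so r² = 2q), and for x ∈ G call the solubilizer of x the set of y ∈ G such that x and y generate a solvable subgroup. Then the solubilizer of an involution has q²(4q − 3) elements; that of an element of order 4 has q²(q + 3) elements; that of a non-identity element of order dividing q − 1 has 2q²(q − 1) elements; that of a non-identity element of order dividing q + r + 1 has 4(q + r + 1) elements; and that of a non-identity element of order dividing q − r + 1 has 4(q − r + 1) elements. -/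
theorem result {F : Type*} [Field F] [Fintype F] {m : ℕ} (hm : 1 ≤ m)
    (hp : (2 * m + 1).Prime) (hF : Fintype.card F = 2 ^ (2 * m + 1)) (x : ↥(Cfsg.Lie.Sz F (2 ^ (m + 1)))) :
    (orderOf x = 2 → Nat.card {y : ↥(Cfsg.Lie.Sz F (2 ^ (m + 1))) // Group.IsSolvable ↥(Subgroup.closure ({x, y} : Set (↥(Cfsg.Lie.Sz F (2 ^ (m + 1))))))} = (2 ^ (2 * m + 1)) ^ 2 * (4 * 2 ^ (2 * m + 1) - 3)) ∧
    (orderOf x = 4 → Nat.card {y : ↥(Cfsg.Lie.Sz F (2 ^ (m + 1))) // Group.IsSolvable ↥(Subgroup.closure ({x, y} : Set (↥(Cfsg.Lie.Sz F (2 ^ (m + 1))))))} = (2 ^ (2 * m + 1)) ^ 2 * (2 ^ (2 * m + 1) + 3)) ∧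
    (x ≠ 1 → orderOf x ∣ 2 ^ (2 * m + 1) - 1 →
      Nat.card {y : ↥(Cfsg.Lie.Sz F (2 ^ (m + 1))) // Group.IsSolvable ↥(Subgroup.closure ({x, y} : Set (↥(Cfsg.Lie.Sz F (2 ^ (m + 1))))))} = 2 * (2 ^ (2 * m + 1)) ^ 2 * (2 ^ (2 * m + 1) - 1)) ∧
    (x ≠ 1 → orderOf x ∣ 2 ^ (2 * m + 1) + 2 ^ (m + 1) + 1 → Nat.card {y : ↥(Cfsg.Lie.Sz F (2 ^ (m + 1))) // Group.IsSolvable ↥(Subgroup.closure ({x, y} : Set (↥(Cfsg.Lie.Sz F (2 ^ (m + 1))))))} = 4 * (2 ^ (2 * m + 1) + 2 ^ (m + 1) + 1)) ∧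
    (x ≠ 1 → orderOf x ∣ 2 ^ (2 * m + 1) - 2 ^ (m + 1) + 1 → Nat.card {y : ↥(Cfsg.Lie.Sz F (2 ^ (m + 1))) // Group.IsSolvable ↥(Subgroup.closure ({x, y} : Set (↥(Cfsg.Lie.Sz F (2 ^ (m + 1))))))} = 4 * (2 ^ (2 * m + 1) - 2 ^ (m + 1) + 1)) := by
  classical
  haveI : Cfsg.Agent.Lib.Suzuki.SzHyp F m := ⟨hm, hF⟩
  haveI : CharP F 2 := Cfsg.Agent.Lib.Suzuki.charP_two F m
  let e := Cfsg.Agent.Lib.SuzukiIso.szEquiv (F := F) (m := m)
  obtain ⟨x₀, rfl⟩ := e.surjective x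
  have hcard : Nat.card {y : ↥(Cfsg.Lie.Sz F (2 ^ (m + 1))) //
      Group.IsSolvable ↥(Subgroup.closure ({e x₀, y} : Set (↥(Cfsg.Lie.Sz F (2 ^ (m + 1))))))} =
      (Cfsg.Agent.Lib.SzTorus.SolSet x₀).ncard := by
    rw [← Nat.card_coe_set_eq]
    refine Nat.card_congr (Equiv.subtypeEquiv e.symm.toEquiv ?_)
    intro y
    obtain ⟨y₀, rfl⟩ := e.surjective y
    have h := Cfsg.Agent.Lib.SzTorus.isSolvable_closure_map e x₀ y₀
    change _ ↔ e.symm (e y₀) ∈ _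
    rw [MulEquiv.symm_apply_apply, h]
    exact Cfsg.Agent.Lib.SzTorus.solvable_closure_iff hp x₀ y₀
  have hord : orderOf (e x₀) = orderOf x₀ := MulEquiv.orderOf_eq e x₀
  have hne : e x₀ ≠ 1 → x₀ ≠ 1 := fun h h1 => h (by rw [h1, map_one])
  rw [hcard, hord]
  refine ⟨?_, ?_, ?_, ?_, ?_⟩
  · intro h
    rw [Cfsg.Agent.Lib.SzTorus.card_solSet_two h, hF]
  · intro h
    rw [Cfsg.Agent.Lib.SzTorus.card_solSet_four h, hF]
  · intro h1 h2
    rw [← hF] at h2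
    obtain ⟨p, p', hpp, h3, h4⟩ := Cfsg.Agent.Lib.SzTorus.ty2_of_dvd (hne h1) h2
    rw [Cfsg.Agent.Lib.SzTorus.card_solSet_ty2 (hne h1) hpp h3 h4, hF]
  · intro h1 h2
    exact Cfsg.Agent.Lib.SzTorus.card_solSet_plus (hne h1) h2
  · intro h1 h2
    exact Cfsg.Agent.Lib.SzTorus.card_solSet_minus (hne h1) h2

end Cfsg.Agent.S2259
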