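import Mathlib
import Cfsg.Statements.S2268

set_option autoImplicit false
open Cfsg

namespace Cfsg.Agent.S2268

open Subgroup in
open scoped Pointwise in
theorem aux_frattini {G : Type*} [Group G] [Finite G] {p : ℕ} [Fact p.Prime]
    (P : Sylow p G) (hP : IsMulCommutative (P : Subgroup G)) (Q : Subgroup G)
    (hQ : Q ≤ (P : Subgroup G)) (g : G) (hg : g ∈ normalizer (Q : Set G)) :
    ∃ c ∈ centralizer (Q : Set G), c * g ∈ normalizer ((P : Subgroup G) : Set G) := by
  have comm : ∀ x ∈ (P : Subgroup G), ∀ y ∈ (P : Subgroup G), x * y = y * x := by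
    intro x hx y hy
    have := hP.is_comm.comm ⟨x, hx⟩ ⟨y, hy⟩
    simpa using congrArg Subtype.val this
  have h1 : (P : Subgroup G) ≤ centralizer (Q : Set G) := by
    intro x hx
    rw [mem_centralizer_iff]
    intro y hy
    exact comm y (hQ hy) x hx
  have h2 : ((g • P : Sylow p G) : Subgroup G) ≤ centralizer (Q : Set G) := by
    intro x hx
    rw [mem_centralizer_iff]
    intro y hy
    have hx' : g⁻¹ * x * g ∈ (P : Subgroup G) := by
      have hx2 : x ∈ MulAut.conj g • (P : Set G) := by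
        rw [← Sylow.coe_smul]
        exact hx
      rw [Set.mem_smul_set_iff_inv_smul_mem] at hx2
      have hx3 : g⁻¹ * x * g ∈ P := by
        simpa [MulAut.smul_def, MulAut.conj_inv_apply] using hx2
      exact hx3
    have hy' : g⁻¹ * y * g ∈ (P : Subgroup G) := by
      apply hQ
      have := (mem_normalizer_iff.mp hg (g⁻¹ * y * g)).mpr (by
        simpa [mul_assoc] using hy)
      exact this
    have := comm _ hy' _ hx'
    have e : g * (g⁻¹ * y * g * (g⁻¹ * x * g)) * g⁻¹ = g * (g⁻¹ * x * g * (g⁻¹ * y * g)) * g⁻¹ := by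
      rw [this]
    simpa [mul_assoc] using e
  obtain ⟨c, hc⟩ := MulAction.exists_smul_eq (centralizer (Q : Set G))
    ((g • P).subtype h2) (P.subtype h1)
  refine ⟨c, c.2, ?_⟩
  simp_rw [Sylow.smul_subtype, Subgroup.smul_def, smul_smul] at hc
  exact Sylow.smul_eq_iff_mem_normalizer.mp (Sylow.subtype_injective hc)

/-- Let G be a finite group with an abelian Sylow p-subgroup P and let Q ≤ P. Then N_G(Q) = (N_G(Q) ∩ N_G(P))·C_G(Q), so that N_G(Q)/C_G(Q) is a homomorphic image of the subgroup (N_G(Q) ∩ N_G(P))/C_G(P) of N_G(P)/C_G(P); in particular the order of N_G(Q)/C_G(Q) divides the order of N_G(P)/C_G(P). -/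
theorem result {G : Type*} [Group G] [Finite G] {p : ℕ} [Fact p.Prime]
    (P : Sylow p G) (hP : IsMulCommutative (P : Subgroup G)) (Q : Subgroup G) (hQ : Q ≤ (P : Subgroup G)) :
    Subgroup.normalizer (Q : Set G) =
      (Subgroup.normalizer (Q : Set G) ⊓ Subgroup.normalizer ((P : Subgroup G) : Set G)) ⊔ Subgroup.centralizer (Q : Set G) ∧
    ((Subgroup.centralizer (Q : Set G)).subgroupOf (Subgroup.normalizer (Q : Set G))).index ∣ ((Subgroup.centralizer ((P : Subgroup G) : Set G)).subgroupOf (Subgroup.normalizer ((P : Subgroup G) : Set G))).index := by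
  classical
  have hfr := aux_frattini P hP Q hQ
  have hCQNQ : Subgroup.centralizer (Q : Set G) ≤ Subgroup.normalizer (Q : Set G) :=
    Subgroup.centralizer_le_normalizer _
  have hCPCQ : Subgroup.centralizer ((P : Subgroup G) : Set G) ≤ Subgroup.centralizer (Q : Set G) :=
    Subgroup.centralizer_le (by exact_mod_cast hQ)
  have hCPNP : Subgroup.centralizer ((P : Subgroup G) : Set G) ≤ Subgroup.normalizer ((P : Subgroup G) : Set G) :=
    Subgroup.centralizer_le_normalizer _
  generalize hNQ : Subgroup.normalizer (Q : Set G) = NQ at *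
  generalize hNP : Subgroup.normalizer ((P : Subgroup G) : Set G) = NP at *
  generalize hCQ : Subgroup.centralizer (Q : Set G) = CQ at *
  generalize hCP : Subgroup.centralizer ((P : Subgroup G) : Set G) = CP at *
  have key : ∀ g ∈ NQ, ∃ c ∈ CQ, c * g ∈ NP := hfr
  have hCPA : CP ≤ NQ ⊓ NP := le_inf (hCPCQ.trans hCQNQ) hCPNP
  have h1 : NQ = (NQ ⊓ NP) ⊔ CQ := by
    apply le_antisymm
    · intro g hg
      obtain ⟨c, hc, hcg⟩ := key g hg
      have hmem : c * g ∈ NQ ⊓ NP := ⟨NQ.mul_mem (hCQNQ hc) hg, hcg⟩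
      have : g = (c * g) * (g⁻¹ * c⁻¹ * g) := by group
      rw [this]
      refine Subgroup.mul_mem _ (Subgroup.mem_sup_left hmem) ?_
      -- g⁻¹ c⁻¹ g ∈ CQ because CQ is normalised by NQ
      refine Subgroup.mem_sup_right ?_
      rw [← hCQ, Subgroup.mem_centralizer_iff] at hc ⊢
      intro y hy
      have hy2 : g * y * g⁻¹ ∈ (Q : Set G) := by
        rw [← hNQ] at hg
        exact (Subgroup.mem_normalizer_iff.mp hg y).mp hy
      have := hc _ hy2
      have e : g⁻¹ * (g * y * g⁻¹ * c⁻¹) * g = g⁻¹ * (c⁻¹ * (g * y * g⁻¹)) * g := by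
        congr 2
        calc g * y * g⁻¹ * c⁻¹ = c⁻¹ * (c * (g * y * g⁻¹)) * c⁻¹ := by group
          _ = c⁻¹ * ((g * y * g⁻¹) * c) * c⁻¹ := by rw [this]
          _ = _ := by group
      simpa [mul_assoc] using e
    · exact sup_le inf_le_left hCQNQ
  refine ⟨h1, ?_⟩
  -- the index computation
  have hstep : (CQ.subgroupOf NQ).index = CQ.relIndex (NQ ⊓ NP) := by
    have : (CQ.subgroupOf NQ).Normal := by
      constructor
      rintro ⟨x, hx⟩ hxmem ⟨g, hg⟩
      rw [Subgroup.mem_subgroupOf] at hxmem ⊢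
      rw [← hCQ, Subgroup.mem_centralizer_iff] at hxmem ⊢
      intro y hy
      have hy2 : g⁻¹ * y * g⁻¹⁻¹ ∈ (Q : Set G) := by
        rw [← hNQ] at hg
        exact (Subgroup.mem_normalizer_iff.mp (Subgroup.inv_mem _ hg) y).mp hy
      have := hxmem _ hy2
      simp only [inv_inv] at this
      simp only [Subgroup.coe_mul, Subgroup.coe_inv]
      have e : g * (g⁻¹ * y * g * x) * g⁻¹ = g * (x * (g⁻¹ * y * g)) * g⁻¹ := by rw [this]
      simpa [mul_assoc] using e
    have hA : (NQ ⊓ NP).subgroupOf NQ ⊔ CQ.subgroupOf NQ = ⊤ := by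
      rw [eq_top_iff]
      rintro ⟨g, hg⟩ -
      obtain ⟨c, hc, hcg⟩ := key g hg
      have hmem : c * g ∈ NQ ⊓ NP := ⟨NQ.mul_mem (hCQNQ hc) hg, hcg⟩
      have e : (⟨g, hg⟩ : NQ) = (⟨c, hCQNQ hc⟩ : NQ)⁻¹ * ⟨c * g, hmem.1⟩ := by
        ext; simp
      rw [e]
      refine Subgroup.mul_mem _ (Subgroup.mem_sup_right ?_) (Subgroup.mem_sup_left ?_)
      · refine Subgroup.inv_mem _ ?_
        rw [Subgroup.mem_subgroupOf]
        exact hc
      · rw [Subgroup.mem_subgroupOf]
        exact hmem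
    have := Subgroup.relIndex_sup_right (H := (NQ ⊓ NP).subgroupOf NQ) (K := CQ.subgroupOf NQ)
    rw [hA, Subgroup.relIndex_top_right] at this
    rw [this, Subgroup.relIndex_subgroupOf inf_le_left]
  change (CQ.subgroupOf NQ).index ∣ CP.relIndex NP
  rw [hstep]
  have h3 : CP.relIndex (NQ ⊓ NP) * (NQ ⊓ NP).relIndex NP = CP.relIndex NP :=
    Subgroup.relIndex_mul_relIndex _ _ _ hCPA inf_le_right
  exact (Subgroup.relIndex_dvd_of_le_left _ hCPCQ).trans (h3 ▸ dvd_mul_right _ _)

end Cfsg.Agent.S2268
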