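import Mathlib
import Cfsg.Statements.S2269

set_option autoImplicit false
open Cfsg

namespace Cfsg.Agent.S2269

section Inversion

variable {X : Type*}

/-- Inversion on the orbits of an abelian permutation group. -/
theorem exists_inv_fun (Q : Subgroup (Equiv.Perm X))
    (hQ : ∀ a ∈ Q, ∀ b ∈ Q, a * b = b * a) :
    ∃ f : X → X, Function.Involutive f ∧ (∀ b ∈ Q, ∀ x, f (b x) = b⁻¹ (f x)) ∧
      (∀ x, ∃ b ∈ Q, f x = b x) := by
  classical
  let s : Setoid X := MulAction.orbitRel Q X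
  let r : X → X := fun x => Quotient.out (Quotient.mk s x)
  have hr : ∀ x, ∃ a : Q, a • r x = x := by
    intro x
    have h : s (r x) x := Quotient.exact (Quotient.out_eq (Quotient.mk s x))
    obtain ⟨c, hc⟩ := h
    refine ⟨c⁻¹, ?_⟩
    have hc' : c • x = r x := hc
    rw [← hc', inv_smul_smul]
  choose a ha using hr
  have hrsmul : ∀ (b : Q) (x : X), r (b • x) = r x := by
    intro b x
    have : Quotient.mk s (b • x) = Quotient.mk s x :=
      Quotient.sound (show s (b • x) x from ⟨b, rfl⟩)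
    simp only [r, this]
  have hcomm : ∀ c d : Q, c * d = d * c := fun c d =>
    Subtype.ext (hQ _ c.2 _ d.2)
  let f : X → X := fun x => (a x)⁻¹ • r x
  have key : ∀ (b : Q) (x : X), f (b • x) = b⁻¹ • f x := by
    intro b x
    have h1 : a (b • x) • r x = b • a x • r x := by
      have := ha (b • x)
      rw [hrsmul] at this
      rw [this, ha x]
    obtain ⟨t, htdef⟩ : ∃ t : Q, t = (a x)⁻¹ * b⁻¹ * a (b • x) := ⟨_, rfl⟩
    have ht : t • r x = r x := by
      simp only [htdef, mul_smul, h1, inv_smul_smul]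
    have ht' : t⁻¹ • r x = r x := inv_smul_eq_iff.mpr ht.symm
    have e : (a (b • x))⁻¹ = b⁻¹ * (a x)⁻¹ * t⁻¹ := by
      have : a (b • x) = b * a x * t := by rw [htdef]; group
      rw [this]
      calc (b * a x * t)⁻¹ = t⁻¹ * ((a x)⁻¹ * b⁻¹) := by group
        _ = ((a x)⁻¹ * b⁻¹) * t⁻¹ := hcomm _ _
        _ = (b⁻¹ * (a x)⁻¹) * t⁻¹ := by rw [hcomm (a x)⁻¹ b⁻¹]
    simp only [f]
    rw [hrsmul, e, mul_smul, mul_smul, ht']
  have hf0 : ∀ x, f (r x) = r x := by
    intro x
    have h1 : r (r x) = r x := by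
      have h2 := hrsmul (a x) (r x)
      rw [ha x] at h2
      exact h2.symm
    simp only [f]
    have h2 : a (r x) • r x = r x := by
      have := ha (r x)
      rwa [h1] at this
    rw [h1]
    exact inv_smul_eq_iff.mpr h2.symm
  have hff : Function.Involutive f := by
    intro x
    have : f x = (a x)⁻¹ • r x := rfl
    rw [this, key, hf0, inv_inv, ha]
  refine ⟨f, hff, ?_, ?_⟩
  · intro b hb x
    exact key ⟨b, hb⟩ x
  · intro x
    refine ⟨(((a x)⁻¹ * (a x)⁻¹ : Q) : Equiv.Perm X), Subtype.coe_prop _, ?_⟩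
    have h1 : (((a x)⁻¹ * (a x)⁻¹ : Q) : Equiv.Perm X) x = ((a x)⁻¹ * (a x)⁻¹ : Q) • x := rfl
    rw [h1]
    calc f x = (a x)⁻¹ • r x := rfl
      _ = (a x)⁻¹ • (a x)⁻¹ • (a x • r x) := by rw [inv_smul_smul]
      _ = (a x)⁻¹ • (a x)⁻¹ • x := by rw [ha x]
      _ = _ := by rw [mul_smul]

open Classical in
/-- The restriction of the inversion to an invariant subset. -/
noncomputable def restr (f : X → X) (hf : Function.Involutive f) (W : Set X)
    (hW : ∀ x, f x ∈ W ↔ x ∈ W) : Equiv.Perm X where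
  toFun x := if x ∈ W then f x else x
  invFun x := if x ∈ W then f x else x
  left_inv x := by
    by_cases hx : x ∈ W
    · simp only [hx, if_true, (hW x).mpr hx, hf x]
    · simp only [hx, if_false]
  right_inv x := by
    by_cases hx : x ∈ W
    · simp only [hx, if_true, (hW x).mpr hx, hf x]
    · simp only [hx, if_false]

theorem restr_of_mem (f : X → X) (hf : Function.Involutive f) (W : Set X)
    (hW : ∀ x, f x ∈ W ↔ x ∈ W) {x : X} (hx : x ∈ W) :
    restr f hf W hW x = f x := if_pos hx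

theorem restr_of_not_mem (f : X → X) (hf : Function.Involutive f) (W : Set X)
    (hW : ∀ x, f x ∈ W ↔ x ∈ W) {x : X} (hx : x ∉ W) :
    restr f hf W hW x = x := if_neg hx

theorem restr_mul_self (f : X → X) (hf : Function.Involutive f) (W : Set X)
    (hW : ∀ x, f x ∈ W ↔ x ∈ W) : restr f hf W hW * restr f hf W hW = 1 := by
  ext x
  simp only [Equiv.Perm.coe_mul, Function.comp_apply, Equiv.Perm.coe_one, id_eq]
  by_cases hx : x ∈ W
  · rw [restr_of_mem f hf W hW hx, restr_of_mem f hf W hW ((hW x).mpr hx), hf x]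
  · rw [restr_of_not_mem f hf W hW hx, restr_of_not_mem f hf W hW hx]

end Inversion

/-- An involution in the normaliser outside the centraliser makes the index even. -/
theorem two_dvd_index {G : Type*} [Group G] [Finite G] (P : Subgroup G) (σ : G)
    (h1 : σ * σ = 1) (hσN : σ ∈ Subgroup.normalizer (P : Set G))
    (hσC : σ ∉ Subgroup.centralizer (P : Set G)) :
    2 ∣ ((Subgroup.centralizer (P : Set G)).subgroupOf (Subgroup.normalizer (P : Set G))).index := by
  classical
  have hN : ((Subgroup.centralizer (P : Set G)).subgroupOf (Subgroup.normalizer (P : Set G))).Normal := by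
    constructor
    rintro ⟨x, hx⟩ hxmem ⟨g, hg⟩
    rw [Subgroup.mem_subgroupOf] at hxmem ⊢
    rw [Subgroup.mem_centralizer_iff] at hxmem ⊢
    intro y hy
    have hy2 : g⁻¹ * y * g⁻¹⁻¹ ∈ (P : Set G) :=
      (Subgroup.mem_normalizer_iff.mp (Subgroup.inv_mem _ hg) y).mp hy
    have := hxmem _ hy2
    simp only [inv_inv] at this
    simp only [Subgroup.coe_mul, Subgroup.coe_inv]
    have e : g * (g⁻¹ * y * g * x) * g⁻¹ = g * (x * (g⁻¹ * y * g)) * g⁻¹ := by rw [this]
    simpa [mul_assoc] using e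
  set K := (Subgroup.centralizer (P : Set G)).subgroupOf (Subgroup.normalizer (P : Set G)) with hK
  let q : Subgroup.normalizer (P : Set G) ⧸ K := QuotientGroup.mk ⟨σ, hσN⟩
  have hq1 : q ≠ 1 := by
    intro h
    rw [QuotientGroup.eq_one_iff, hK, Subgroup.mem_subgroupOf] at h
    exact hσC h
  have hq2 : q ^ 2 = 1 := by
    have : (⟨σ, hσN⟩ : Subgroup.normalizer (P : Set G)) ^ 2 = 1 := by
      ext
      simp [pow_two, h1]
    change (QuotientGroup.mk ⟨σ, hσN⟩ : Subgroup.normalizer (P : Set G) ⧸ K) ^ 2 = 1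
    rw [← QuotientGroup.mk_pow, this]
    rfl
  have hord : orderOf q = 2 := by
    haveI : Fact (Nat.Prime 2) := ⟨Nat.prime_two⟩
    exact orderOf_eq_prime hq2 hq1
  rw [Subgroup.index_eq_card, ← hord]
  exact orderOf_dvd_natCard q

section Main

variable {n : ℕ} {p : ℕ} [Fact p.Prime]

local notation "A" => alternatingGroup (Fin n)

/-- An element of odd prime-power order is even. -/
theorem even_of_pow (hp : p ≠ 2) (e : Equiv.Perm (Fin n)) (k : ℕ) (he : e ^ p ^ k = 1) :
    e ∈ alternatingGroup (Fin n) := by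
  rw [Equiv.Perm.mem_alternatingGroup]
  have h1 : Equiv.Perm.sign e ^ p ^ k = 1 := by
    rw [← map_pow, he, map_one]
  rcases Int.units_eq_one_or (Equiv.Perm.sign e) with h | h
  · exact h
  · rw [h] at h1
    have hodd : Odd (p ^ k) := ((Fact.out : p.Prime).odd_of_ne_two hp).pow
    rw [hodd.neg_one_pow] at h1
    exact absurd h1 (by decide)

/-- An element commuting with a Sylow subgroup, of `p`-power order, lies in it. -/
theorem mem_of_comm (hp : p ≠ 2) (P : Sylow p A) (e : Equiv.Perm (Fin n)) (k : ℕ)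
    (he : e ^ p ^ k = 1) (hc : ∀ a ∈ (P : Subgroup A), (a : Equiv.Perm (Fin n)) * e = e * a) :
    ∃ e' ∈ (P : Subgroup A), (e' : Equiv.Perm (Fin n)) = e := by
  have hev := even_of_pow hp e k he
  let e' : A := ⟨e, hev⟩
  have hcomm : ∀ a ∈ (P : Subgroup A), a * e' = e' * a := by
    intro a ha
    exact Subtype.ext (hc a ha)
  have he'pow : e' ^ p ^ k = 1 := Subtype.ext he
  have hpg : IsPGroup p (Subgroup.zpowers e') := by
    apply IsPGroup.of_card_dvd_pow (n := k)
    rw [Nat.card_zpowers]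
    exact orderOf_dvd_of_pow_eq_one he'pow
  have hle : (P : Subgroup A) ≤ Subgroup.normalizer (Subgroup.zpowers e' : Set A) := by
    refine le_trans ?_ (Subgroup.centralizer_le_normalizer _)
    intro a ha
    rw [Subgroup.mem_centralizer_iff]
    intro z hz
    obtain ⟨i, rfl⟩ := Subgroup.mem_zpowers_iff.mp hz
    exact (Commute.zpow_right (hcomm a ha) i).symm.eq
  have hsup := P.2.to_sup_of_normal_right' hpg hle
  have heq := P.is_maximal' hsup le_sup_left
  refine ⟨e', ?_, rfl⟩
  have h1 : e' ∈ (P : Subgroup A) ⊔ Subgroup.zpowers e' :=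
    Subgroup.mem_sup_right (Subgroup.mem_zpowers e')
  rw [heq] at h1
  exact h1

/-- The main construction: an even inversion on an invariant subset. -/
theorem index_even_of_inv (hp : p ≠ 2) (P : Sylow p A)
    (hPc : ∀ a ∈ (P : Subgroup A), ∀ b ∈ (P : Subgroup A), a * b = b * a)
    (f : Fin n → Fin n) (hf : Function.Involutive f)
    (hfb : ∀ a ∈ (P : Subgroup A), ∀ x, f ((a : Equiv.Perm (Fin n)) x) = (a : Equiv.Perm (Fin n))⁻¹ (f x))
    (W : Set (Fin n))
    (hWinv : ∀ a ∈ (P : Subgroup A), ∀ x, (a : Equiv.Perm (Fin n)) x ∈ W ↔ x ∈ W)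
    (hW : ∀ x, f x ∈ W ↔ x ∈ W) (x₀ : Fin n) (hx₀ : x₀ ∈ W) (a₀ : A) (ha₀ : a₀ ∈ (P : Subgroup A))
    (hmoved : (a₀ : Equiv.Perm (Fin n)) x₀ ≠ x₀)
    (hsign : Equiv.Perm.sign (restr f hf W hW) = 1) :
    2 ∣ ((Subgroup.centralizer ((P : Subgroup A) : Set A)).subgroupOf
      (Subgroup.normalizer ((P : Subgroup A) : Set A))).index := by
  classical
  set σ := restr f hf W hW with hσ
  have hσσ : σ * σ = 1 := restr_mul_self f hf W hW
  have hσinv : σ⁻¹ = σ := inv_eq_of_mul_eq_one_left hσσ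
  let σ' : A := ⟨σ, hsign⟩
  have hσ'σ' : σ' * σ' = 1 := Subtype.ext hσσ
  have hσ'inv : σ'⁻¹ = σ' := inv_eq_of_mul_eq_one_left hσ'σ'
  -- the formula for conjugates
  have hconj : ∀ a ∈ (P : Subgroup A), ∀ y, (σ * (a : Equiv.Perm (Fin n)) * σ⁻¹) y =
      if y ∈ W then (a : Equiv.Perm (Fin n))⁻¹ y else (a : Equiv.Perm (Fin n)) y := by
    intro a ha y
    rw [hσinv]
    simp only [Equiv.Perm.coe_mul, Function.comp_apply]
    by_cases hy : y ∈ W
    · rw [if_pos hy, hσ, restr_of_mem f hf W hW hy, restr_of_mem f hf W hW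
        ((hWinv a ha _).mpr ((hW y).mpr hy)), hfb a ha, hf y]
    · rw [if_neg hy, hσ, restr_of_not_mem f hf W hW hy, restr_of_not_mem f hf W hW
        (fun h => hy ((hWinv a ha _).mp h))]
  have hinP : ∀ a ∈ (P : Subgroup A), σ' * a * σ'⁻¹ ∈ (P : Subgroup A) := by
    intro a ha
    obtain ⟨k, hk⟩ := P.2 ⟨a, ha⟩
    have hk' : a ^ p ^ k = 1 := congrArg Subtype.val hk
    have hk'' : (a : Equiv.Perm (Fin n)) ^ p ^ k = 1 := congrArg Subtype.val hk'
    have hepow : (σ * (a : Equiv.Perm (Fin n)) * σ⁻¹) ^ p ^ k = 1 := by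
      rw [conj_pow, hk'']
      group
    have hcomm : ∀ c ∈ (P : Subgroup A), (c : Equiv.Perm (Fin n)) * (σ * (a : Equiv.Perm (Fin n)) * σ⁻¹) =
        (σ * (a : Equiv.Perm (Fin n)) * σ⁻¹) * c := by
      intro c hc
      apply Equiv.ext
      intro y
      simp only [Equiv.Perm.coe_mul, Function.comp_apply]
      have h1 := hconj a ha y
      have h2 := hconj a ha ((c : Equiv.Perm (Fin n)) y)
      simp only [Equiv.Perm.coe_mul, Function.comp_apply] at h1 h2
      rw [h1, h2]
      have hac : (a : Equiv.Perm (Fin n)) * c = c * a := congrArg Subtype.val (hPc a ha c hc)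
      have hac' : (a : Equiv.Perm (Fin n))⁻¹ * c = c * (a : Equiv.Perm (Fin n))⁻¹ :=
        (show Commute (a : Equiv.Perm (Fin n)) (c : Equiv.Perm (Fin n)) from hac).inv_left.eq
      by_cases hy : y ∈ W
      · rw [if_pos hy, if_pos ((hWinv c hc y).mpr hy)]
        exact congrFun (congrArg DFunLike.coe hac'.symm) y
      · rw [if_neg hy, if_neg (fun h => hy ((hWinv c hc y).mp h))]
        exact congrFun (congrArg DFunLike.coe hac.symm) y
    obtain ⟨e', he', hee'⟩ := mem_of_comm hp P _ k hepow hcomm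
    have : σ' * a * σ'⁻¹ = e' := Subtype.ext hee'.symm
    rw [this]
    exact he'
  apply two_dvd_index (P : Subgroup A) σ' hσ'σ'
  · rw [Subgroup.mem_normalizer_iff]
    intro h
    constructor
    · exact hinP h
    · intro hh
      have := hinP _ hh
      have e : σ' * (σ' * h * σ'⁻¹) * σ'⁻¹ = h := by
        rw [hσ'inv]
        calc σ' * (σ' * h * σ') * σ' = (σ' * σ') * h * (σ' * σ') := by group
          _ = h := by rw [hσ'σ']; group
      rwa [e] at this
  · intro hC
    rw [Subgroup.mem_centralizer_iff] at hC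
    have h1 := hC a₀ ha₀
    have h2 : σ * (a₀ : Equiv.Perm (Fin n)) * σ⁻¹ = a₀ := by
      have : (a₀ : Equiv.Perm (Fin n)) * σ = σ * a₀ := congrArg Subtype.val h1
      rw [mul_inv_eq_iff_eq_mul, this]
    have h3 := hconj a₀ ha₀ x₀
    rw [h2, if_pos hx₀] at h3
    -- a₀² fixes x₀
    have h4 : ((a₀ : Equiv.Perm (Fin n)) ^ 2) x₀ = x₀ := by
      rw [pow_two]
      simp only [Equiv.Perm.coe_mul, Function.comp_apply]
      rw [h3]
      simp
    obtain ⟨k, hk⟩ := P.2 ⟨a₀, ha₀⟩
    have hk' : a₀ ^ p ^ k = 1 := congrArg Subtype.val hk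
    have hk'' : (a₀ : Equiv.Perm (Fin n)) ^ p ^ k = 1 := congrArg Subtype.val hk'
    have hodd : Odd (p ^ k) := ((Fact.out : p.Prime).odd_of_ne_two hp).pow
    obtain ⟨m, hm⟩ := hodd
    have h5 : (((a₀ : Equiv.Perm (Fin n)) ^ 2) ^ m) x₀ = x₀ := by
      have : ∀ j : ℕ, (((a₀ : Equiv.Perm (Fin n)) ^ 2) ^ j) x₀ = x₀ := by
        intro j
        induction j with
        | zero => simp
        | succ j ih =>
          rw [pow_succ]
          simp only [Equiv.Perm.coe_mul, Function.comp_apply]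
          rw [h4, ih]
      exact this m
    apply hmoved
    have h6 : (a₀ : Equiv.Perm (Fin n)) ^ (2 * m + 1) = 1 := by rw [← hm]; exact hk''
    have h7 : (a₀ : Equiv.Perm (Fin n)) * ((a₀ : Equiv.Perm (Fin n)) ^ 2) ^ m = 1 := by
      rw [← pow_mul, ← pow_succ']
      exact h6
    have h8 := congrFun (congrArg DFunLike.coe h7) x₀
    simp only [Equiv.Perm.coe_mul, Function.comp_apply, Equiv.Perm.coe_one, id_eq] at h8
    rwa [h5] at h8

theorem no_large (hp : p ≠ 2) (P : Sylow p A) (v : ℕ) (hv : Nat.card (P : Subgroup A) = p ^ v)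
    (h2 : 2 ≤ v) (hn : p ^ v ≤ n) : False := by
  have hprime : p.Prime := Fact.out
  have hp3 : 3 ≤ p := by
    have := hprime.two_le
    omega
  have hpow : ∀ w : ℕ, w + 3 ≤ 3 ^ (w + 1) := by
    intro w
    induction w with
    | zero => norm_num
    | succ w ih =>
      rw [pow_succ]
      omega
  obtain ⟨w, rfl⟩ : ∃ w, v = w + 2 := ⟨v - 2, by omega⟩
  have h3 : w + 3 ≤ p ^ (w + 1) := (hpow w).trans (Nat.pow_le_pow_left hp3 _)
  have hdiv : p ^ (w + 1) ≤ n / p := by
    rw [Nat.le_div_iff_mul_le hprime.pos]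
    calc p ^ (w + 1) * p = p ^ (w + 2) := (pow_succ _ _).symm
      _ ≤ n := hn
  have hnp : p ≤ n := by
    calc p = p ^ 1 := (pow_one p).symm
      _ ≤ p ^ (w + 2) := Nat.pow_le_pow_right hprime.pos (by omega)
      _ ≤ n := hn
  have hfact : p ^ (w + 2 + 1) ∣ n.factorial := by
    rw [hprime.pow_dvd_factorial_iff (b := Nat.log p n + 1) (Nat.lt_succ_self _)]
    have hmem : 1 ∈ Finset.Ico 1 (Nat.log p n + 1) := by
      rw [Finset.mem_Ico]
      refine ⟨le_refl _, ?_⟩
      have : 1 ≤ Nat.log p n := Nat.log_pos hprime.one_lt hnp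
      omega
    have := Finset.single_le_sum (f := fun i => n / p ^ i) (fun _ _ => Nat.zero_le _) hmem
    simp only [pow_one] at this
    omega
  have hn2 : 2 ≤ n := hprime.two_le.trans hnp
  haveI : Nontrivial (Fin n) := Fin.nontrivial_iff_two_le.mpr hn2
  have hcard : 2 * Nat.card A = n.factorial := by
    have := two_mul_card_alternatingGroup (α := Fin n)
    rw [Fintype.card_perm, Fintype.card_fin] at this
    rw [Nat.card_eq_fintype_card]
    exact this
  have hidx : Nat.card (P : Subgroup A) * (P : Subgroup A).index = Nat.card A := Subgroup.card_mul_index _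
  have hnd := P.not_dvd_index
  rw [← hcard, ← hidx, hv] at hfact
  have e : 2 * (p ^ (w + 2) * (P : Subgroup A).index) = p ^ (w + 2) * (2 * (P : Subgroup A).index) := by ring
  rw [e, pow_succ _ (w + 2)] at hfact
  have h5 := Nat.dvd_of_mul_dvd_mul_left (pow_pos hprime.pos _) hfact
  rcases (Nat.Prime.dvd_mul hprime).mp h5 with h6 | h6
  · have := (Nat.prime_dvd_prime_iff_eq hprime Nat.prime_two).mp h6
    exact hp this
  · exact hnd h6

theorem odd_case (hp : p ≠ 2) (P : Sylow p A) (hP : IsMulCommutative (P : Subgroup A)) :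
    2 ∣ ((Subgroup.centralizer ((P : Subgroup A) : Set A)).subgroupOf
      (Subgroup.normalizer ((P : Subgroup A) : Set A))).index ∨ IsCyclic (P : Subgroup A) := by
  classical
  have hPc : ∀ a ∈ (P : Subgroup A), ∀ b ∈ (P : Subgroup A), a * b = b * a := by
    intro x hx y hy
    have := hP.is_comm.comm ⟨x, hx⟩ ⟨y, hy⟩
    simpa using congrArg Subtype.val this
  let Q : Subgroup (Equiv.Perm (Fin n)) := (P : Subgroup A).map (alternatingGroup (Fin n)).subtype
  have hQmem : ∀ a ∈ (P : Subgroup A), (a : Equiv.Perm (Fin n)) ∈ Q := fun a ha =>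
    ⟨a, ha, rfl⟩
  have hQmem' : ∀ b ∈ Q, ∃ a ∈ (P : Subgroup A), (a : Equiv.Perm (Fin n)) = b := by
    rintro b ⟨a, ha, rfl⟩
    exact ⟨a, ha, rfl⟩
  have hQc : ∀ a ∈ Q, ∀ b ∈ Q, a * b = b * a := by
    intro a ha b hb
    obtain ⟨a', ha', rfl⟩ := hQmem' a ha
    obtain ⟨b', hb', rfl⟩ := hQmem' b hb
    exact congrArg Subtype.val (hPc a' ha' b' hb')
  obtain ⟨f, hfi, hfb, hfo⟩ := exists_inv_fun Q hQc
  have hfb' : ∀ a ∈ (P : Subgroup A), ∀ x, f ((a : Equiv.Perm (Fin n)) x) = (a : Equiv.Perm (Fin n))⁻¹ (f x) :=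
    fun a ha x => hfb _ (hQmem a ha) x
  let orb : Fin n → Set (Fin n) := fun x => {z | ∃ a ∈ (P : Subgroup A), (a : Equiv.Perm (Fin n)) x = z}
  have orb_self : ∀ x, x ∈ orb x := fun x => ⟨1, P.toSubgroup.one_mem, rfl⟩
  have orb_inv : ∀ x, ∀ a ∈ (P : Subgroup A), ∀ y, (a : Equiv.Perm (Fin n)) y ∈ orb x ↔ y ∈ orb x := by
    intro x a ha y
    constructor
    · rintro ⟨d, hd, hdx⟩
      refine ⟨a⁻¹ * d, P.toSubgroup.mul_mem (P.toSubgroup.inv_mem ha) hd, ?_⟩
      show (a : Equiv.Perm (Fin n))⁻¹ ((d : Equiv.Perm (Fin n)) x) = y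
      rw [hdx]
      simp
    · rintro ⟨d, hd, rfl⟩
      exact ⟨a * d, P.toSubgroup.mul_mem ha hd, rfl⟩
  have orb_f : ∀ x y, f y ∈ orb x ↔ y ∈ orb x := by
    intro x y
    obtain ⟨b, hb, hby⟩ := hfo y
    obtain ⟨a, ha, rfl⟩ := hQmem' b hb
    rw [hby]
    exact orb_inv x a ha y
  by_cases H : ∃ (x y : Fin n) (a b : A), a ∈ (P : Subgroup A) ∧ b ∈ (P : Subgroup A) ∧
      (a : Equiv.Perm (Fin n)) x ≠ x ∧ (b : Equiv.Perm (Fin n)) y ≠ y ∧ y ∉ orb x
  · left
    obtain ⟨x, y, a, b, ha, hb, hax, hby, hyx⟩ := H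
    have hdisj : ∀ z, z ∈ orb x → z ∉ orb y := by
      rintro z ⟨d, hd, rfl⟩ ⟨e, he, hez⟩
      apply hyx
      refine ⟨e⁻¹ * d, P.toSubgroup.mul_mem (P.toSubgroup.inv_mem he) hd, ?_⟩
      show (e : Equiv.Perm (Fin n))⁻¹ ((d : Equiv.Perm (Fin n)) x) = y
      rw [← hez]
      simp
    have hW3 : ∀ z, f z ∈ orb x ∪ orb y ↔ z ∈ orb x ∪ orb y := by
      intro z
      simp only [Set.mem_union, orb_f]
    have hW3inv : ∀ d ∈ (P : Subgroup A), ∀ z, (d : Equiv.Perm (Fin n)) z ∈ orb x ∪ orb y ↔ z ∈ orb x ∪ orb y := by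
      intro d hd z
      simp only [Set.mem_union, orb_inv x d hd, orb_inv y d hd]
    have hmul : restr f hfi (orb x ∪ orb y) hW3 = restr f hfi (orb x) (orb_f x) * restr f hfi (orb y) (orb_f y) := by
      apply Equiv.ext
      intro z
      simp only [Equiv.Perm.coe_mul, Function.comp_apply]
      by_cases hz1 : z ∈ orb x
      · rw [restr_of_mem f hfi _ hW3 (Or.inl hz1), restr_of_not_mem f hfi _ (orb_f y) (hdisj z hz1),
          restr_of_mem f hfi _ (orb_f x) hz1]
      · by_cases hz2 : z ∈ orb y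
        · rw [restr_of_mem f hfi _ hW3 (Or.inr hz2), restr_of_mem f hfi _ (orb_f y) hz2,
            restr_of_not_mem f hfi _ (orb_f x) (fun h => hz1 ((orb_f x z).mp h))]
        · rw [restr_of_not_mem f hfi _ hW3 (fun h => h.elim hz1 hz2), restr_of_not_mem f hfi _ (orb_f y) hz2,
            restr_of_not_mem f hfi _ (orb_f x) hz1]
    rcases Int.units_eq_one_or (Equiv.Perm.sign (restr f hfi (orb x) (orb_f x))) with h1 | h1
    · exact index_even_of_inv hp P hPc f hfi hfb' (orb x) (orb_inv x) (orb_f x) x (orb_self x) a ha hax h1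
    · rcases Int.units_eq_one_or (Equiv.Perm.sign (restr f hfi (orb y) (orb_f y))) with h2 | h2
      · exact index_even_of_inv hp P hPc f hfi hfb' (orb y) (orb_inv y) (orb_f y) y (orb_self y) b hb hby h2
      · refine index_even_of_inv hp P hPc f hfi hfb' (orb x ∪ orb y) hW3inv hW3 x (Or.inl (orb_self x)) a ha hax ?_
        rw [hmul, map_mul, h1, h2]
        rfl
  · right
    push Not at H
    by_cases H2 : ∃ x, ∃ a ∈ (P : Subgroup A), (a : Equiv.Perm (Fin n)) x ≠ x
    · obtain ⟨x, a, ha, hax⟩ := H2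
      have hfree : ∀ d ∈ (P : Subgroup A), (d : Equiv.Perm (Fin n)) x = x → d = 1 := by
        intro d hd hdx
        apply Subtype.ext
        apply Equiv.ext
        intro y
        by_contra hy
        have hy' : (d : Equiv.Perm (Fin n)) y ≠ y := hy
        obtain ⟨g, hg, rfl⟩ := H x y a d ha hd hax hy'
        apply hy'
        have hc : (d : Equiv.Perm (Fin n)) * g = g * d := congrArg Subtype.val (hPc d hd g hg)
        calc (d : Equiv.Perm (Fin n)) ((g : Equiv.Perm (Fin n)) x)
            = ((d : Equiv.Perm (Fin n)) * g) x := rfl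
          _ = ((g : Equiv.Perm (Fin n)) * d) x := by rw [hc]
          _ = (g : Equiv.Perm (Fin n)) ((d : Equiv.Perm (Fin n)) x) := rfl
          _ = (g : Equiv.Perm (Fin n)) x := by rw [hdx]
      have hinj : Function.Injective (fun d : (P : Subgroup A) => ((d : A) : Equiv.Perm (Fin n)) x) := by
        rintro ⟨d, hd⟩ ⟨e, he⟩ hde
        simp only at hde
        have : e⁻¹ * d = 1 := by
          apply hfree _ (P.toSubgroup.mul_mem (P.toSubgroup.inv_mem he) hd)
          show (e : Equiv.Perm (Fin n))⁻¹ ((d : Equiv.Perm (Fin n)) x) = x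
          rw [hde]
          simp
        apply Subtype.ext
        exact (inv_mul_eq_one.mp this).symm
      have hcard := Nat.card_le_card_of_injective _ hinj
      rw [Nat.card_eq_fintype_card (α := Fin n), Fintype.card_fin] at hcard
      obtain ⟨v, hv⟩ := IsPGroup.iff_card.mp P.2
      rw [hv] at hcard
      by_cases hv2 : 2 ≤ v
      · exact (no_large hp P v hv hv2 hcard).elim
      · have hv1 : v = 0 ∨ v = 1 := by omega
        rcases hv1 with rfl | rfl
        · have : Nat.card (P : Subgroup A) = 1 := by simpa using hv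
          haveI : Subsingleton (P : Subgroup A) := (Nat.card_eq_one_iff_unique.mp this).1
          exact isCyclic_of_subsingleton
        · have : Nat.card (P : Subgroup A) = p := by simpa using hv
          exact isCyclic_of_prime_card this
    · push Not at H2
      have : Subsingleton (P : Subgroup A) := by
        constructor
        rintro ⟨a, ha⟩ ⟨b, hb⟩
        apply Subtype.ext
        apply Subtype.ext
        apply Equiv.ext
        intro x
        rw [H2 x a ha, H2 x b hb]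
      exact isCyclic_of_subsingleton

end Main

section Two

open scoped Pointwise

/-- The dihedral pair in `S₆`. -/
def y6 : Equiv.Perm (Fin 6) := Equiv.swap 0 1 * Equiv.swap 1 2 * Equiv.swap 2 3 * Equiv.swap 4 5
/-- The dihedral pair in `S₆`. -/
def x6 : Equiv.Perm (Fin 6) := Equiv.swap 1 3 * Equiv.swap 4 5

theorem x6_sq : x6 * x6 = 1 := by decide
theorem y6_pow : y6 ^ 4 = 1 := by decide
theorem xy6 : x6 * y6 * x6⁻¹ = y6⁻¹ := by decide
theorem y6_sq : y6 ^ 2 ≠ 1 := by decide
theorem x6_even : Equiv.Perm.sign x6 = 1 := by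
  simp [x6, Equiv.Perm.sign_swap]
theorem y6_even : Equiv.Perm.sign y6 = 1 := by
  simp [y6, Equiv.Perm.sign_swap]

theorem two_not_abelian {n : ℕ} (hn : 6 ≤ n) (P : Sylow 2 (alternatingGroup (Fin n)))
    (hP : IsMulCommutative (P : Subgroup (alternatingGroup (Fin n)))) : False := by
  classical
  let emb : Fin 6 ↪ Fin n := Fin.castLEEmb hn
  let ψ : Equiv.Perm (Fin 6) →* Equiv.Perm (Fin n) := Equiv.Perm.extendDomainHom (emb.toEquivRange)
  have hψs : ∀ e, Equiv.Perm.sign (ψ e) = Equiv.Perm.sign e := fun e =>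
    Equiv.Perm.sign_extendDomain e _
  have hψi : Function.Injective ψ := Equiv.Perm.extendDomainHom_injective _
  let x : alternatingGroup (Fin n) := ⟨ψ x6, by rw [Equiv.Perm.mem_alternatingGroup, hψs, x6_even]⟩
  let y : alternatingGroup (Fin n) := ⟨ψ y6, by rw [Equiv.Perm.mem_alternatingGroup, hψs, y6_even]⟩
  have hx2 : x ^ 2 = 1 := Subtype.ext (by
    show ψ x6 ^ 2 = 1
    rw [← map_pow, pow_two, x6_sq, map_one])
  have hy4 : y ^ 4 = 1 := Subtype.ext (by
    show ψ y6 ^ 4 = 1
    rw [← map_pow, y6_pow, map_one])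
  have hxy : x * y * x⁻¹ = y⁻¹ := Subtype.ext (by
    show ψ x6 * ψ y6 * (ψ x6)⁻¹ = (ψ y6)⁻¹
    rw [← map_inv, ← map_mul, ← map_mul, xy6, map_inv])
  have hy2 : y ^ 2 ≠ 1 := by
    intro h
    have h1 : ψ y6 ^ 2 = 1 := congrArg Subtype.val h
    rw [← map_pow] at h1
    exact y6_sq (hψi (h1.trans (map_one ψ).symm))
  haveI : Fact (Nat.Prime 2) := ⟨Nat.prime_two⟩
  have hpx : IsPGroup 2 (Subgroup.zpowers x) := by
    apply IsPGroup.of_card_dvd_pow (n := 1)
    rw [Nat.card_zpowers]
    exact orderOf_dvd_of_pow_eq_one (by simpa using hx2)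
  have hpy : IsPGroup 2 (Subgroup.zpowers y) := by
    apply IsPGroup.of_card_dvd_pow (n := 2)
    rw [Nat.card_zpowers]
    exact orderOf_dvd_of_pow_eq_one (by simpa using hy4)
  have hle : Subgroup.zpowers x ≤ Subgroup.normalizer (Subgroup.zpowers y : Set (alternatingGroup (Fin n))) := by
    rw [Subgroup.zpowers_le]
    apply Subgroup.mem_normalizer_fintype
    intro z hz
    obtain ⟨i, rfl⟩ := Subgroup.mem_zpowers_iff.mp hz
    refine Subgroup.mem_zpowers_iff.mpr ⟨-i, ?_⟩
    rw [← conj_zpow, hxy]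
    simp
  have hsup := hpx.to_sup_of_normal_right' hpy hle
  obtain ⟨R, hR⟩ := hsup.exists_le_sylow
  obtain ⟨g, hg⟩ := MulAction.exists_smul_eq (alternatingGroup (Fin n)) P R
  have hxR : x ∈ (R : Subgroup (alternatingGroup (Fin n))) :=
    hR (Subgroup.mem_sup_left (Subgroup.mem_zpowers x))
  have hyR : y ∈ (R : Subgroup (alternatingGroup (Fin n))) :=
    hR (Subgroup.mem_sup_right (Subgroup.mem_zpowers y))
  have hconj : ∀ z ∈ (R : Subgroup (alternatingGroup (Fin n))), g⁻¹ * z * g ∈ (P : Subgroup (alternatingGroup (Fin n))) := by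
    intro z hz
    rw [← hg] at hz
    have hz2 : z ∈ MulAut.conj g • (P : Set (alternatingGroup (Fin n))) := by
      rw [← Sylow.coe_smul]
      exact hz
    rw [Set.mem_smul_set_iff_inv_smul_mem] at hz2
    have hz3 : g⁻¹ * z * g ∈ P := by
      simpa [MulAut.smul_def, MulAut.conj_inv_apply] using hz2
    exact hz3
  have hcomm := hP.is_comm.comm ⟨_, hconj x hxR⟩ ⟨_, hconj y hyR⟩
  have hcomm2 : (g⁻¹ * x * g) * (g⁻¹ * y * g) = (g⁻¹ * y * g) * (g⁻¹ * x * g) := congrArg Subtype.val hcomm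
  have hcomm3 : x * y = y * x := by
    have e1 : g * ((g⁻¹ * x * g) * (g⁻¹ * y * g)) * g⁻¹ = x * y := by group
    have e2 : g * ((g⁻¹ * y * g) * (g⁻¹ * x * g)) * g⁻¹ = y * x := by group
    rw [← e1, ← e2, hcomm2]
  apply hy2
  have h1 : y = y⁻¹ := by
    rw [← hxy, hcomm3]
    group
  rw [pow_two]
  nth_rw 1 [h1]
  simp

end Two

section Five

open scoped Pointwise

/-- A double transposition. -/
def a5 : Equiv.Perm (Fin 5) := Equiv.swap 0 1 * Equiv.swap 2 3
/-- A double transposition. -/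
def b5 : Equiv.Perm (Fin 5) := Equiv.swap 0 2 * Equiv.swap 1 3
/-- The standard Klein four group as a list. -/
def V0 : Finset (Equiv.Perm (Fin 5)) := {1, a5, b5, a5 * b5}

theorem V0_even : ∀ x ∈ V0, Equiv.Perm.sign x = 1 := by decide +kernel
theorem V0_mul : ∀ x ∈ V0, ∀ y ∈ V0, x * y ∈ V0 := by decide +kernel
theorem V0_inv : ∀ x ∈ V0, x⁻¹ ∈ V0 := by decide +kernel
theorem V0_sq : ∀ x ∈ V0, x * x = 1 := by decide +kernel
theorem V0_card : V0.card = 4 := by decide +kernel

/-- The normaliser, as a list. -/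
def N5 : Finset (Equiv.Perm (Fin 5)) :=
  Finset.univ.filter (fun g => Equiv.Perm.sign g = 1 ∧ ∀ v ∈ V0, g * v * g⁻¹ ∈ V0)
/-- The centraliser, as a list. -/
def C5 : Finset (Equiv.Perm (Fin 5)) :=
  Finset.univ.filter (fun g => Equiv.Perm.sign g = 1 ∧ ∀ v ∈ V0, v * g = g * v)

theorem N5_card : N5.card = 12 := by decide +kernel
theorem C5_card : C5.card = 4 := by decide +kernel

/-- The standard Klein four group as a subgroup. -/
def V : Subgroup (alternatingGroup (Fin 5)) where
  carrier := {g | (g : Equiv.Perm (Fin 5)) ∈ V0}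
  mul_mem' := fun {x y} hx hy => V0_mul _ hx _ hy
  one_mem' := by
    show (1 : Equiv.Perm (Fin 5)) ∈ V0
    decide
  inv_mem' := fun {x} hx => V0_inv _ hx

theorem mem_V (g : alternatingGroup (Fin 5)) : g ∈ V ↔ (g : Equiv.Perm (Fin 5)) ∈ V0 := Iff.rfl

theorem card_of_list (S : Subgroup (alternatingGroup (Fin 5))) (L : Finset (Equiv.Perm (Fin 5)))
    (h1 : ∀ g : alternatingGroup (Fin 5), g ∈ S → (g : Equiv.Perm (Fin 5)) ∈ L)
    (h2 : ∀ x ∈ L, ∃ g ∈ S, (g : Equiv.Perm (Fin 5)) = x) : Nat.card S = L.card := by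
  classical
  have e : S ≃ {x // x ∈ L} :=
    { toFun := fun g => ⟨g.1.1, h1 g.1 g.2⟩
      invFun := fun x => ⟨(h2 x.1 x.2).choose, (h2 x.1 x.2).choose_spec.1⟩
      left_inv := by
        rintro ⟨g, hg⟩
        apply Subtype.ext
        apply Subtype.ext
        exact (h2 g.1 (h1 g hg)).choose_spec.2
      right_inv := by
        rintro ⟨x, hx⟩
        apply Subtype.ext
        exact (h2 x hx).choose_spec.2 }
  rw [Nat.card_congr e, Nat.card_eq_fintype_card, Fintype.card_coe]

theorem card_V : Nat.card V = 4 := by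
  rw [card_of_list V V0 (fun g hg => hg) (fun x hx => ⟨⟨x, V0_even x hx⟩, hx, rfl⟩), V0_card]

theorem card_NV : Nat.card (Subgroup.normalizer (V : Set (alternatingGroup (Fin 5)))) = 12 := by
  rw [card_of_list _ N5, N5_card]
  · intro g hg
    rw [N5, Finset.mem_filter]
    refine ⟨Finset.mem_univ _, g.2, ?_⟩
    intro v hv
    have hv' : (⟨v, V0_even v hv⟩ : alternatingGroup (Fin 5)) ∈ V := hv
    exact (Subgroup.mem_normalizer_iff.mp hg _).mp hv'
  · intro x hx
    rw [N5, Finset.mem_filter] at hx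
    obtain ⟨-, hs, hv⟩ := hx
    refine ⟨⟨x, hs⟩, ?_, rfl⟩
    apply Subgroup.mem_normalizer_fintype
    intro z hz
    exact hv _ hz

theorem card_CV : Nat.card (Subgroup.centralizer (V : Set (alternatingGroup (Fin 5)))) = 4 := by
  rw [card_of_list _ C5, C5_card]
  · intro g hg
    rw [C5, Finset.mem_filter]
    refine ⟨Finset.mem_univ _, g.2, ?_⟩
    intro v hv
    have hv' : (⟨v, V0_even v hv⟩ : alternatingGroup (Fin 5)) ∈ V := hv
    exact congrArg Subtype.val ((Subgroup.mem_centralizer_iff.mp hg) _ hv')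
  · intro x hx
    rw [C5, Finset.mem_filter] at hx
    obtain ⟨-, hs, hv⟩ := hx
    refine ⟨⟨x, hs⟩, ?_, rfl⟩
    rw [Subgroup.mem_centralizer_iff]
    intro z hz
    exact Subtype.ext (hv _ hz)

theorem card_cent_conj {G : Type*} [Group G] (H H' : Subgroup G) (g : G)
    (h : ∀ z, z ∈ H' ↔ g⁻¹ * z * g ∈ H) :
    Nat.card (Subgroup.centralizer (H' : Set G)) = Nat.card (Subgroup.centralizer (H : Set G)) := by
  refine Nat.card_congr (Equiv.subtypeEquiv (MulAut.conj g⁻¹).toEquiv ?_)
  intro z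
  simp only [MulEquiv.toEquiv_eq_coe, EquivLike.coe_coe, MulAut.conj_apply, inv_inv]
  rw [Subgroup.mem_centralizer_iff, Subgroup.mem_centralizer_iff]
  constructor
  · intro hz w hw
    have h1 : g * w * g⁻¹ ∈ (H' : Set G) := by
      show g * w * g⁻¹ ∈ H'
      rw [h]
      simpa [mul_assoc] using hw
    have h2 := hz _ h1
    calc w * (g⁻¹ * z * g) = g⁻¹ * ((g * w * g⁻¹) * z) * g := by group
      _ = g⁻¹ * (z * (g * w * g⁻¹)) * g := by rw [h2]
      _ = _ := by group
  · intro hz w hw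
    have h1 : g⁻¹ * w * g ∈ (H : Set G) := (h w).mp hw
    have h2 := hz _ h1
    calc w * z = g * ((g⁻¹ * w * g) * (g⁻¹ * z * g)) * g⁻¹ := by group
      _ = g * ((g⁻¹ * z * g) * (g⁻¹ * w * g)) * g⁻¹ := by rw [h2]
      _ = _ := by group

theorem card_norm_conj {G : Type*} [Group G] (H H' : Subgroup G) (g : G)
    (h : ∀ z, z ∈ H' ↔ g⁻¹ * z * g ∈ H) :
    Nat.card (Subgroup.normalizer (H' : Set G)) = Nat.card (Subgroup.normalizer (H : Set G)) := by
  refine Nat.card_congr (Equiv.subtypeEquiv (MulAut.conj g⁻¹).toEquiv ?_)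
  intro z
  simp only [MulEquiv.toEquiv_eq_coe, EquivLike.coe_coe, MulAut.conj_apply, inv_inv]
  rw [Subgroup.mem_normalizer_iff, Subgroup.mem_normalizer_iff]
  have h' : ∀ w, g * w * g⁻¹ ∈ H' ↔ w ∈ H := by
    intro w
    rw [h]
    have : g⁻¹ * (g * w * g⁻¹) * g = w := by group
    rw [this]
  constructor
  · intro hz w
    show w ∈ H ↔ g⁻¹ * z * g * w * (g⁻¹ * z * g)⁻¹ ∈ H
    have h1 := hz (g * w * g⁻¹)
    have h2 : (g * w * g⁻¹ ∈ H') ↔ w ∈ H := h' w
    rw [h2] at h1
    have h3 : z * (g * w * g⁻¹) * z⁻¹ = g * (g⁻¹ * z * g * w * (g⁻¹ * z * g)⁻¹) * g⁻¹ := by group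
    rw [h3] at h1
    exact h1.trans (h' _)
  · intro hz w
    show w ∈ H' ↔ z * w * z⁻¹ ∈ H'
    have h1 := hz (g⁻¹ * w * g)
    have h2 : (g⁻¹ * w * g ∈ H) ↔ w ∈ H' := (h w).symm
    rw [h2] at h1
    refine h1.trans ?_
    show g⁻¹ * z * g * (g⁻¹ * w * g) * (g⁻¹ * z * g)⁻¹ ∈ H ↔ _
    rw [h (z * w * z⁻¹)]
    have h3 : g⁻¹ * z * g * (g⁻¹ * w * g) * (g⁻¹ * z * g)⁻¹ = g⁻¹ * (z * w * z⁻¹) * g := by group
    rw [h3]

theorem five_case [Fact (Nat.Prime 2)] (P : Sylow 2 (alternatingGroup (Fin 5))) :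
    ((Subgroup.centralizer ((P : Subgroup (alternatingGroup (Fin 5))) : Set (alternatingGroup (Fin 5)))).subgroupOf
      (Subgroup.normalizer ((P : Subgroup (alternatingGroup (Fin 5))) : Set (alternatingGroup (Fin 5))))).index = 3 ∧
    IsKleinFour (P : Subgroup (alternatingGroup (Fin 5))) := by
  classical
  -- `V` is contained in a Sylow subgroup, which must be `V`
  have hVp : IsPGroup 2 V := IsPGroup.of_card (n := 2) (by rw [card_V]; norm_num)
  obtain ⟨R, hR⟩ := hVp.exists_le_sylow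
  have hA : Nat.card (alternatingGroup (Fin 5)) = 60 := by
    have := two_mul_card_alternatingGroup (α := Fin 5)
    rw [Fintype.card_perm, Fintype.card_fin] at this
    rw [Nat.card_eq_fintype_card]
    have h5 : Nat.factorial 5 = 120 := rfl
    omega
  have hRcard : Nat.card (R : Subgroup (alternatingGroup (Fin 5))) = 4 := by
    obtain ⟨k, hk⟩ := IsPGroup.iff_card.mp R.2
    have h1 : Nat.card (R : Subgroup (alternatingGroup (Fin 5))) * (R : Subgroup (alternatingGroup (Fin 5))).index = 60 := by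
      rw [Subgroup.card_mul_index, hA]
    have h2 : 4 ∣ 2 ^ k := by
      rw [← hk, ← card_V]
      exact Subgroup.card_dvd_of_le hR
    have h3 : k < 3 := by
      by_contra hk3
      have h4 : 8 ∣ 60 := by
        calc 8 = 2 ^ 3 := by norm_num
          _ ∣ 2 ^ k := pow_dvd_pow _ (by omega)
          _ = Nat.card (R : Subgroup (alternatingGroup (Fin 5))) := hk.symm
          _ ∣ 60 := ⟨_, h1.symm⟩
      omega
    interval_cases k <;> first | omega | simpa using hk
  have hRV : (R : Subgroup (alternatingGroup (Fin 5))) = V := by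
    symm
    apply Subgroup.eq_of_le_of_card_ge hR
    rw [hRcard, card_V]
  obtain ⟨g, hg⟩ := MulAction.exists_smul_eq (alternatingGroup (Fin 5)) R P
  have hmem : ∀ z, z ∈ (P : Subgroup (alternatingGroup (Fin 5))) ↔ g⁻¹ * z * g ∈ V := by
    intro z
    rw [← hRV]
    constructor
    · intro hz
      rw [← hg] at hz
      have hz2 : z ∈ MulAut.conj g • (R : Set (alternatingGroup (Fin 5))) := by
        rw [← Sylow.coe_smul]
        exact hz
      rw [Set.mem_smul_set_iff_inv_smul_mem] at hz2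
      have hz3 : g⁻¹ * z * g ∈ R := by
        simpa [MulAut.smul_def, MulAut.conj_inv_apply] using hz2
      exact hz3
    · intro hz
      have hz2 : z ∈ g • R := by
        have : z ∈ MulAut.conj g • (R : Set (alternatingGroup (Fin 5))) := by
          rw [Set.mem_smul_set_iff_inv_smul_mem]
          have hz3 : g⁻¹ * z * g ∈ R := hz
          simpa [MulAut.smul_def, MulAut.conj_inv_apply] using hz3
        rw [← Sylow.coe_smul] at this
        exact this
      rw [hg] at hz2
      exact hz2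
  have hC := card_cent_conj V (P : Subgroup (alternatingGroup (Fin 5))) g hmem
  have hN := card_norm_conj V (P : Subgroup (alternatingGroup (Fin 5))) g hmem
  rw [card_CV] at hC
  rw [card_NV] at hN
  constructor
  · have hle : Subgroup.centralizer ((P : Subgroup (alternatingGroup (Fin 5))) : Set (alternatingGroup (Fin 5))) ≤
        Subgroup.normalizer ((P : Subgroup (alternatingGroup (Fin 5))) : Set (alternatingGroup (Fin 5))) :=
      Subgroup.centralizer_le_normalizer _
    have h1 := Subgroup.index_mul_card ((Subgroup.centralizer ((P : Subgroup (alternatingGroup (Fin 5))) : Set (alternatingGroup (Fin 5)))).subgroupOf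
      (Subgroup.normalizer ((P : Subgroup (alternatingGroup (Fin 5))) : Set (alternatingGroup (Fin 5)))))
    rw [Nat.card_congr (Subgroup.subgroupOfEquivOfLe hle).toEquiv, hC, hN] at h1
    omega
  · have hcard : Nat.card (P : Subgroup (alternatingGroup (Fin 5))) = 4 := by
      rw [P.card_eq_multiplicity, ← R.card_eq_multiplicity]
      exact hRcard
    refine ⟨hcard, ?_⟩
    haveI : Fact (Nat.Prime 2) := ⟨Nat.prime_two⟩
    haveI : Nontrivial (P : Subgroup (alternatingGroup (Fin 5))) := by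
      rw [← Finite.one_lt_card_iff_nontrivial, hcard]
      norm_num
    rw [Monoid.exponent_eq_prime_iff Nat.prime_two]
    intro x hx
    apply orderOf_eq_prime _ hx
    apply Subtype.ext
    apply Subtype.ext
    have h1 : g⁻¹ * x.1 * g ∈ V := (hmem x.1).mp x.2
    have h2 := V0_sq _ h1
    have h3 : (g⁻¹ * x.1 * g) * (g⁻¹ * x.1 * g) = 1 := Subtype.ext h2
    have h4 : x.1 * x.1 = 1 := by
      have e : (g⁻¹ * x.1 * g) * (g⁻¹ * x.1 * g) = g⁻¹ * (x.1 * x.1) * g := by group
      rw [e] at h3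
      have : x.1 * x.1 = g * (g⁻¹ * (x.1 * x.1) * g) * g⁻¹ := by group
      rw [this, h3]
      group
    show ((x ^ 2 : (P : Subgroup (alternatingGroup (Fin 5)))) : alternatingGroup (Fin 5)).1 = 1
    rw [pow_two]
    exact congrArg Subtype.val h4

end Five

/-- Let n ≥ 5 and let P be an abelian Sylow p-subgroup of the alternating group A_n. Then N(P)/C(P) (taken in A_n) has even order, or P is cyclic, except when n = 5 and p = 2, where P is a four-group and N(P)/C(P) has order 3. -/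
theorem result (n : ℕ) (hn : 5 ≤ n) {p : ℕ} [Fact p.Prime]
    (P : Sylow p (alternatingGroup (Fin n))) (hP : IsMulCommutative (P : Subgroup (alternatingGroup (Fin n)))) :
    (¬ (n = 5 ∧ p = 2) → 2 ∣ ((Subgroup.centralizer ((P : Subgroup (alternatingGroup (Fin n))) : Set (alternatingGroup (Fin n)))).subgroupOf (Subgroup.normalizer ((P : Subgroup (alternatingGroup (Fin n))) : Set (alternatingGroup (Fin n))))).index ∨ IsCyclic (P : Subgroup (alternatingGroup (Fin n)))) ∧
    ((n = 5 ∧ p = 2) → ((Subgroup.centralizer ((P : Subgroup (alternatingGroup (Fin n))) : Set (alternatingGroup (Fin n)))).subgroupOf (Subgroup.normalizer ((P : Subgroup (alternatingGroup (Fin n))) : Set (alternatingGroup (Fin n))))).index = 3 ∧ IsKleinFour (P : Subgroup (alternatingGroup (Fin n)))) := by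
  constructor
  · intro hne
    by_cases hp2 : p = 2
    · subst hp2
      by_cases h6 : 6 ≤ n
      · exact (two_not_abelian h6 P hP).elim
      · exact absurd ⟨by omega, rfl⟩ hne
    · exact odd_case hp2 P hP
  · rintro ⟨rfl, rfl⟩
    exact five_case P

end Cfsg.Agent.S2269
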