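import Mathlib
import Cfsg.Statements.S2270

set_option autoImplicit false
open Cfsg

namespace Cfsg.Agent.S2270

/-- Inversion on the orbits of an abelian permutation group. -/
theorem exists_inverting {X : Type*} (P : Subgroup (Equiv.Perm X))
    (hP : ∀ a ∈ P, ∀ b ∈ P, a * b = b * a) :
    ∃ σ : Equiv.Perm X, σ * σ = 1 ∧ ∀ b ∈ P, σ * b * σ⁻¹ = b⁻¹ := by
  classical
  let s : Setoid X := MulAction.orbitRel P X
  let r : X → X := fun x => Quotient.out (Quotient.mk s x)
  have hr : ∀ x, ∃ a : P, a • r x = x := by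
    intro x
    have h : s (r x) x := Quotient.exact (Quotient.out_eq (Quotient.mk s x))
    obtain ⟨c, hc⟩ := h
    refine ⟨c⁻¹, ?_⟩
    have hc' : c • x = r x := hc
    rw [← hc', inv_smul_smul]
  choose a ha using hr
  have hrsmul : ∀ (b : P) (x : X), r (b • x) = r x := by
    intro b x
    have : Quotient.mk s (b • x) = Quotient.mk s x :=
      Quotient.sound (show s (b • x) x from ⟨b, rfl⟩)
    simp only [r, this]
  have hcomm : ∀ c d : P, c * d = d * c := fun c d =>
    Subtype.ext (hP _ c.2 _ d.2)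
  let f : X → X := fun x => (a x)⁻¹ • r x
  have key : ∀ (b : P) (x : X), f (b • x) = b⁻¹ • f x := by
    intro b x
    have h1 : a (b • x) • r x = b • a x • r x := by
      have := ha (b • x)
      rw [hrsmul] at this
      rw [this, ha x]
    -- t fixes r x
    obtain ⟨t, htdef⟩ : ∃ t : P, t = (a x)⁻¹ * b⁻¹ * a (b • x) := ⟨_, rfl⟩
    have ht : t • r x = r x := by
      simp only [htdef, mul_smul, h1, inv_smul_smul]
    have ht' : t⁻¹ • r x = r x := inv_smul_eq_iff.mpr ht.symm
    have e : (a (b • x))⁻¹ = b⁻¹ * (a x)⁻¹ * t⁻¹ := by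
      have : a (b • x) = b * a x * t := by rw [htdef]; group
      rw [this]
      calc (b * a x * t)⁻¹ = t⁻¹ * ((a x)⁻¹ * b⁻¹) := by group
        _ = ((a x)⁻¹ * b⁻¹) * t⁻¹ := hcomm _ _
        _ = (b⁻¹ * (a x)⁻¹) * t⁻¹ := by rw [hcomm (a x)⁻¹ b⁻¹]
    simp only [f]
    rw [hrsmul, e, mul_smul, mul_smul, ht']
  have hf0 : ∀ x, f (r x) = r x := by
    intro x
    have h1 : r (r x) = r x := by
      have h2 := hrsmul (a x) (r x)
      rw [ha x] at h2
      exact h2.symm
    simp only [f]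
    have h2 : a (r x) • r x = r x := by
      have := ha (r x)
      rwa [h1] at this
    rw [h1]
    exact inv_smul_eq_iff.mpr h2.symm
  have hff : Function.Involutive f := by
    intro x
    have : f x = (a x)⁻¹ • r x := rfl
    rw [this, key, hf0, inv_inv, ha]
  refine ⟨Function.Involutive.toPerm f hff, ?_, ?_⟩
  · ext x
    show ((f (f x) : X) : X) = x
    rw [hff x]
  · intro b hb
    have hinv : (Function.Involutive.toPerm f hff)⁻¹ = Function.Involutive.toPerm f hff := by
      ext x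
      rw [Equiv.Perm.inv_eq_iff_eq]
      show x = f (f x)
      rw [hff x]
    rw [hinv]
    ext x
    have := key ⟨b, hb⟩ (f x)
    rw [hff x] at this
    have e1 : ((⟨b, hb⟩ : P) • f x) = b (f x) := rfl
    have e2 : ((⟨b, hb⟩ : P)⁻¹ • x) = b⁻¹ x := rfl
    rw [e1] at this
    rw [e2] at this
    show f (b (f x)) = b⁻¹ x
    rw [this]

/-- An element of the normaliser outside the centraliser squaring into the centraliser
makes the index even. -/
theorem two_dvd_index {G : Type*} [Group G] [Finite G] (P : Subgroup G) (σ : G)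
    (h1 : σ * σ = 1) (h2 : ∀ b ∈ P, σ * b * σ⁻¹ = b⁻¹) (b : G) (hb : b ∈ P) (hb' : b⁻¹ ≠ b) :
    2 ∣ ((Subgroup.centralizer (P : Set G)).subgroupOf (Subgroup.normalizer (P : Set G))).index := by
  classical
  have hσinv : σ⁻¹ = σ := inv_eq_of_mul_eq_one_left h1
  have hσN : σ ∈ Subgroup.normalizer (P : Set G) := by
    rw [Subgroup.mem_normalizer_iff]
    intro h
    constructor
    · intro hh
      have hh : h ∈ P := hh
      show σ * h * σ⁻¹ ∈ P
      rw [h2 h hh]
      exact P.inv_mem hh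
    · intro hh
      have hh : σ * h * σ⁻¹ ∈ P := hh
      show h ∈ P
      have := h2 _ hh
      have e : σ * (σ * h * σ⁻¹) * σ⁻¹ = h := by
        rw [hσinv]
        calc σ * (σ * h * σ) * σ = (σ * σ) * h * (σ * σ) := by group
          _ = h := by rw [h1]; group
      rw [e] at this
      rw [this]
      exact P.inv_mem hh
  have hσC : σ ∉ Subgroup.centralizer (P : Set G) := by
    intro hC
    rw [Subgroup.mem_centralizer_iff] at hC
    have h3 := hC b hb
    have := h2 b hb
    apply hb'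
    rw [← this, ← h3]
    group
  have hN : ((Subgroup.centralizer (P : Set G)).subgroupOf (Subgroup.normalizer (P : Set G))).Normal := by
    constructor
    rintro ⟨x, hx⟩ hxmem ⟨g, hg⟩
    rw [Subgroup.mem_subgroupOf] at hxmem ⊢
    rw [Subgroup.mem_centralizer_iff] at hxmem ⊢
    intro y hy
    have hy2 : g⁻¹ * y * g⁻¹⁻¹ ∈ (P : Set G) :=
      (Subgroup.mem_normalizer_iff.mp (Subgroup.inv_mem _ hg) y).mp hy
    have := hxmem _ hy2
    simp only [inv_inv] at this
    simp only [Subgroup.coe_mul, Subgroup.coe_inv]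
    have e : g * (g⁻¹ * y * g * x) * g⁻¹ = g * (x * (g⁻¹ * y * g)) * g⁻¹ := by rw [this]
    simpa [mul_assoc] using e
  set K := (Subgroup.centralizer (P : Set G)).subgroupOf (Subgroup.normalizer (P : Set G)) with hK
  let q : Subgroup.normalizer (P : Set G) ⧸ K := QuotientGroup.mk ⟨σ, hσN⟩
  have hq1 : q ≠ 1 := by
    intro h
    rw [QuotientGroup.eq_one_iff, hK, Subgroup.mem_subgroupOf] at h
    exact hσC h
  have hq2 : q ^ 2 = 1 := by
    have : (⟨σ, hσN⟩ : Subgroup.normalizer (P : Set G)) ^ 2 = 1 := by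
      ext
      simp [pow_two, h1]
    change (QuotientGroup.mk ⟨σ, hσN⟩ : Subgroup.normalizer (P : Set G) ⧸ K) ^ 2 = 1
    rw [← QuotientGroup.mk_pow, this]
    rfl
  have hord : orderOf q = 2 := orderOf_eq_prime hq2 hq1
  rw [Subgroup.index_eq_card, ← hord]
  exact orderOf_dvd_natCard q

/-- Let n ≥ 3, p an odd prime, and P an abelian Sylow p-subgroup of the symmetric group S_n (with p dividing n!, so that P ≠ 1). Then N(P)/C(P) has even order. -/
theorem result (n : ℕ) (hn : 3 ≤ n) {p : ℕ} [Fact p.Prime] (hp : p ≠ 2) (hpn : p ≤ n)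
    (P : Sylow p (Equiv.Perm (Fin n))) (hP : IsMulCommutative (P : Subgroup (Equiv.Perm (Fin n)))) :
    2 ∣ ((Subgroup.centralizer ((P : Subgroup (Equiv.Perm (Fin n))) : Set (Equiv.Perm (Fin n)))).subgroupOf (Subgroup.normalizer ((P : Subgroup (Equiv.Perm (Fin n))) : Set (Equiv.Perm (Fin n))))).index := by
  classical
  have comm : ∀ x ∈ (P : Subgroup (Equiv.Perm (Fin n))), ∀ y ∈ (P : Subgroup (Equiv.Perm (Fin n))), x * y = y * x := by
    intro x hx y hy
    have := hP.is_comm.comm ⟨x, hx⟩ ⟨y, hy⟩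
    simpa using congrArg Subtype.val this
  obtain ⟨σ, h1, h2⟩ := exists_inverting (P : Subgroup (Equiv.Perm (Fin n))) comm
  -- a non-trivial element
  have hne : (P : Subgroup (Equiv.Perm (Fin n))) ≠ ⊥ := by
    intro hbot
    have h3 := P.not_dvd_index
    rw [hbot, Subgroup.index_bot] at h3
    apply h3
    rw [Nat.card_eq_fintype_card, Fintype.card_perm, Fintype.card_fin]
    exact (Fact.out : p.Prime).dvd_factorial.mpr hpn
  obtain ⟨⟨b, hb⟩, hb1⟩ := Subgroup.ne_bot_iff_exists_ne_one.mp hne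
  have hb1 : b ≠ 1 := fun h => hb1 (Subtype.ext h)
  refine two_dvd_index (P : Subgroup (Equiv.Perm (Fin n))) σ h1 h2 b hb ?_
  intro hbb
  apply hb1
  have hb2 : b ^ 2 = 1 := by
    rw [pow_two]
    nth_rw 1 [← hbb]
    simp
  obtain ⟨k, hk⟩ := P.2 ⟨b, hb⟩
  have hk' : b ^ p ^ k = 1 := by simpa using congrArg Subtype.val hk
  have hcop : Nat.Coprime 2 (p ^ k) := by
    apply Nat.Coprime.pow_right
    exact (Nat.coprime_primes Nat.prime_two Fact.out).mpr (Ne.symm hp)
  have h5 : b ^ Nat.gcd 2 (p ^ k) = 1 := pow_gcd_eq_one.mpr ⟨hb2, hk'⟩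
  rw [hcop.gcd_eq_one] at h5
  simpa using h5

end Cfsg.Agent.S2270
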