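import Mathlib
import Cfsg.Statements.S2278
import Cfsg.Agent.Lib.SLGen

set_option autoImplicit false
set_option linter.unusedSimpArgs false
set_option linter.unusedVariables false
open Cfsg

namespace Cfsg.Agent.S2278

open Matrix
open Cfsg.Agent.Lib.SLGen

variable {F : Type*} [Field F]

theorem h02 : (0 : Fin 3) ≠ 2 := by decide
theorem h10 : (1 : Fin 3) ≠ 0 := by decide
theorem h12 : (1 : Fin 3) ≠ 2 := by decide
theorem h20 : (2 : Fin 3) ≠ 0 := by decide
theorem h21 : (2 : Fin 3) ≠ 1 := by decide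
theorem h01 : (0 : Fin 3) ≠ 1 := by decide

/-- Elementary matrices. -/
noncomputable abbrev E02 (x : F) : SpecialLinearGroup (Fin 3) F := SpecialLinearGroup.transvection h02 x
noncomputable abbrev E10 (x : F) : SpecialLinearGroup (Fin 3) F := SpecialLinearGroup.transvection h10 x
noncomputable abbrev E12 (x : F) : SpecialLinearGroup (Fin 3) F := SpecialLinearGroup.transvection h12 x
noncomputable abbrev E20 (x : F) : SpecialLinearGroup (Fin 3) F := SpecialLinearGroup.transvection h20 x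
noncomputable abbrev E21 (x : F) : SpecialLinearGroup (Fin 3) F := SpecialLinearGroup.transvection h21 x
noncomputable abbrev E01 (x : F) : SpecialLinearGroup (Fin 3) F := SpecialLinearGroup.transvection h01 x

theorem E02_coe (x : F) : ((E02 x : SpecialLinearGroup (Fin 3) F) : Matrix (Fin 3) (Fin 3) F) =
    !![1,0,x;0,1,0;0,0,1] := by
  ext i j
  fin_cases i <;> fin_cases j <;> simp [E02, SpecialLinearGroup.transvection_coe, Matrix.single]

theorem E10_coe (x : F) : ((E10 x : SpecialLinearGroup (Fin 3) F) : Matrix (Fin 3) (Fin 3) F) =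
    !![1,0,0;x,1,0;0,0,1] := by
  ext i j
  fin_cases i <;> fin_cases j <;> simp [E10, SpecialLinearGroup.transvection_coe, Matrix.single]

theorem E12_coe (x : F) : ((E12 x : SpecialLinearGroup (Fin 3) F) : Matrix (Fin 3) (Fin 3) F) =
    !![1,0,0;0,1,x;0,0,1] := by
  ext i j
  fin_cases i <;> fin_cases j <;> simp [E12, SpecialLinearGroup.transvection_coe, Matrix.single]

theorem E20_coe (x : F) : ((E20 x : SpecialLinearGroup (Fin 3) F) : Matrix (Fin 3) (Fin 3) F) =
    !![1,0,0;0,1,0;x,0,1] := by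
  ext i j
  fin_cases i <;> fin_cases j <;> simp [E20, SpecialLinearGroup.transvection_coe, Matrix.single]

theorem E21_coe (x : F) : ((E21 x : SpecialLinearGroup (Fin 3) F) : Matrix (Fin 3) (Fin 3) F) =
    !![1,0,0;0,1,0;0,x,1] := by
  ext i j
  fin_cases i <;> fin_cases j <;> simp [E21, SpecialLinearGroup.transvection_coe, Matrix.single]

theorem E01_coe (x : F) : ((E01 x : SpecialLinearGroup (Fin 3) F) : Matrix (Fin 3) (Fin 3) F) =
    !![1,x,0;0,1,0;0,0,1] := by
  ext i j
  fin_cases i <;> fin_cases j <;> simp [E01, SpecialLinearGroup.transvection_coe, Matrix.single]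

theorem trans_add {i j : Fin 3} (h : i ≠ j) (x y : F) :
    SpecialLinearGroup.transvection h x * SpecialLinearGroup.transvection h y =
      SpecialLinearGroup.transvection h (x + y) := by
  apply Subtype.ext
  change (Matrix.transvection i j x * Matrix.transvection i j y : Matrix (Fin 3) (Fin 3) F) =
    Matrix.transvection i j (x + y)
  exact Matrix.transvection_mul_transvection_same i j h x y

theorem trans_zero {i j : Fin 3} (h : i ≠ j) :
    SpecialLinearGroup.transvection h (0 : F) = 1 :=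
  SpecialLinearGroup.transvection_coeff_zero h

theorem trans_neg {i j : Fin 3} (h : i ≠ j) (x : F) :
    (SpecialLinearGroup.transvection h x)⁻¹ = SpecialLinearGroup.transvection h (-x) := by
  rw [inv_eq_iff_mul_eq_one, trans_add, add_neg_cancel, trans_zero]

/-! ### Odd characteristic -/

/-- The companion matrix of `(X - 1)³`. -/
def uS : SpecialLinearGroup (Fin 3) F :=
  ⟨!![0,0,1;1,0,-3;0,1,3], by
    rw [Matrix.det_fin_three]
    simp⟩

theorem uS_coe : ((uS : SpecialLinearGroup (Fin 3) F) : Matrix (Fin 3) (Fin 3) F) =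
    !![0,0,1;1,0,-3;0,1,3] := rfl

/-- The conjugating element. -/
def gS (d : F) : SpecialLinearGroup (Fin 3) F :=
  ⟨!![1,0,0;0,-1,-d;0,0,-1], by
    rw [Matrix.det_fin_three]
    simp⟩

theorem gS_coe (d : F) : ((gS d : SpecialLinearGroup (Fin 3) F) : Matrix (Fin 3) (Fin 3) F) =
    !![1,0,0;0,-1,-d;0,0,-1] := rfl

/-- The element `u⁻¹ v`. -/
def yS (d : F) : SpecialLinearGroup (Fin 3) F :=
  ⟨!![-1,d,3*d-d^2-6;0,1,6-d;0,0,-1], by
    rw [Matrix.det_fin_three]
    simp⟩

theorem yS_coe (d : F) : ((yS d : SpecialLinearGroup (Fin 3) F) : Matrix (Fin 3) (Fin 3) F) =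
    !![-1,d,3*d-d^2-6;0,1,6-d;0,0,-1] := rfl

theorem g_u (d : F) : gS d * uS = uS * yS d * gS d := by
  apply Subtype.ext
  change (gS d).1 * (uS (F := F)).1 = (uS (F := F)).1 * (yS d).1 * (gS d).1
  rw [gS_coe, uS_coe, yS_coe, Matrix.mul_fin_three, Matrix.mul_fin_three, Matrix.mul_fin_three]
  ext i j
  fin_cases i <;> fin_cases j <;> simp <;> ring

theorem y_sq (d : F) : yS d * yS d = E02 (12 + d ^ 2) := by
  apply Subtype.ext
  change (yS d).1 * (yS d).1 = _
  rw [E02_coe, yS_coe, Matrix.mul_fin_three]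
  ext i j
  fin_cases i <;> fin_cases j <;> simp <;> ring

theorem u_E02 (x : F) : uS * E02 x = E10 x * uS := by
  apply Subtype.ext
  change (uS (F := F)).1 * (E02 x).1 = (E10 x).1 * (uS (F := F)).1
  rw [E02_coe, E10_coe, uS_coe, Matrix.mul_fin_three, Matrix.mul_fin_three]
  ext i j
  fin_cases i <;> fin_cases j <;> simp <;> ring

theorem u_E12 (x : F) : uS * E12 x = E20 x * uS := by
  apply Subtype.ext
  change (uS (F := F)).1 * (E12 x).1 = (E20 x).1 * (uS (F := F)).1
  rw [E12_coe, E20_coe, uS_coe, Matrix.mul_fin_three, Matrix.mul_fin_three]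
  ext i j
  fin_cases i <;> fin_cases j <;> simp <;> ring

theorem u_E10 (x : F) : uS * E10 x = E20 (3 * x) * E21 x * uS := by
  apply Subtype.ext
  change (uS (F := F)).1 * (E10 x).1 = (E20 (3 * x)).1 * (E21 x).1 * (uS (F := F)).1
  rw [E10_coe, E20_coe, E21_coe, uS_coe, Matrix.mul_fin_three, Matrix.mul_fin_three, Matrix.mul_fin_three]
  ext i j
  fin_cases i <;> fin_cases j <;> simp <;> ring

theorem y_E12 (d x : F) : yS d * E12 x = E02 (-(x * d)) * E12 (-x) * yS d := by
  apply Subtype.ext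
  change (yS d).1 * (E12 x).1 = (E02 (-(x * d))).1 * (E12 (-x)).1 * (yS d).1
  rw [E02_coe, E12_coe, E12_coe, yS_coe, Matrix.mul_fin_three, Matrix.mul_fin_three, Matrix.mul_fin_three]
  ext i j
  fin_cases i <;> fin_cases j <;> simp <;> ring

/-- The main generation argument in odd characteristic. -/
theorem top_of_mem [Fintype F] (H : Subgroup (SpecialLinearGroup (Fin 3) F)) {d : F}
    (hu : uS ∈ H) (hy : yS d ∈ H) (hc : 12 + d ^ 2 ≠ 0) (h2 : (2 : F) ≠ 0)
    (hgen : ∀ x : F, x ≠ 0 → ∃ k : ℕ, x = d ^ k) : H = ⊤ := by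
  classical
  set c : F := 12 + d ^ 2 with hcdef
  have hd0 : d ≠ 0 := by
    intro h0
    obtain ⟨k, hk⟩ := hgen 1 one_ne_zero
    rw [h0] at hk
    rcases Nat.eq_zero_or_pos k with rfl | hk0
    · -- `d = 0` and `k = 0` is not excluded by this element: use another one
      by_contra hne
      have h3 : ∀ x : F, x ≠ 0 → x = 1 := by
        intro x hx
        obtain ⟨k', hk'⟩ := hgen x hx
        rcases Nat.eq_zero_or_pos k' with rfl | hk'0
        · simpa [h0] using hk'
        · rw [h0, zero_pow hk'0.ne'] at hk'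
          exact absurd hk' hx
      exact h2 (by
        by_contra h4
        have := h3 2 h4
        have h5 : (1 : F) = 0 := by linear_combination this
        exact one_ne_zero h5)
    · rw [zero_pow hk0.ne'] at hk
      exact one_ne_zero hk
  -- the scale sets
  let A : F → Prop := fun x => E02 x ∈ H
  let C : F → Prop := fun x => E12 x ∈ H
  have hE10 : ∀ x, A x → E10 x ∈ H := by
    intro x hx
    have h1 : E10 x = uS * E02 x * uS⁻¹ := by rw [u_E02, mul_inv_cancel_right]
    rw [h1]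
    exact H.mul_mem (H.mul_mem hu hx) (H.inv_mem hu)
  have hA_of : ∀ x, E10 x ∈ H → A x := by
    intro x hx
    have h1 : E02 x = uS⁻¹ * E10 x * uS := by
      rw [mul_assoc, ← u_E02, inv_mul_cancel_left]
    change E02 x ∈ H
    rw [h1]
    exact H.mul_mem (H.mul_mem (H.inv_mem hu) hx) hu
  have hE20 : ∀ x, C x → E20 x ∈ H := by
    intro x hx
    have h1 : E20 x = uS * E12 x * uS⁻¹ := by rw [u_E12, mul_inv_cancel_right]
    rw [h1]
    exact H.mul_mem (H.mul_mem hu hx) (H.inv_mem hu)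
  have hAA : ∀ x y, A x → A y → C (x * y) := fun x y hx hy =>
    transvection_comm_mem H h10 h02 h12 (hE10 x hx) hy
  have hCC : ∀ x y, C x → C y → A (x * y) := fun x y hx hy =>
    hA_of _ (transvection_comm_mem H h12 h20 h10 hx (hE20 y hy))
  have hA_add : ∀ x y, A x → A y → A (x + y) := by
    intro x y hx hy
    have h0 : E02 (x + y) = E02 x * E02 y := (trans_add h02 x y).symm
    change E02 (x + y) ∈ H
    rw [h0]
    exact H.mul_mem hx hy
  have hC_add : ∀ x y, C x → C y → C (x + y) := by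
    intro x y hx hy
    have h0 : E12 (x + y) = E12 x * E12 y := (trans_add h12 x y).symm
    change E12 (x + y) ∈ H
    rw [h0]
    exact H.mul_mem hx hy
  have hA_neg : ∀ x, A x → A (-x) := by
    intro x hx
    have h0 : E02 (-x) = (E02 x)⁻¹ := (trans_neg h02 x).symm
    change E02 (-x) ∈ H
    rw [h0]
    exact H.inv_mem hx
  have hC_neg : ∀ x, C x → C (-x) := by
    intro x hx
    have h0 : E12 (-x) = (E12 x)⁻¹ := (trans_neg h12 x).symm
    change E12 (-x) ∈ H
    rw [h0]
    exact H.inv_mem hx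
  have hA_zero : A 0 := by
    have h0 : E02 (0 : F) = 1 := trans_zero h02
    change E02 0 ∈ H
    rw [h0]
    exact H.one_mem
  have hC_zero : C 0 := by
    have h0 : E12 (0 : F) = 1 := trans_zero h12
    change E12 0 ∈ H
    rw [h0]
    exact H.one_mem
  have hdC : ∀ x, C x → A (x * d) := by
    intro x hx
    have h1 : yS d * E12 x * (yS d)⁻¹ = E02 (-(x * d)) * E12 (-x) := by
      rw [y_E12, mul_inv_cancel_right]
    have h2' : E02 (-(x * d)) * E12 (-x) ∈ H := by
      rw [← h1]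
      exact H.mul_mem (H.mul_mem hy hx) (H.inv_mem hy)
    have h3 : E02 (-(x * d)) = E02 (-(x * d)) * E12 (-x) * E12 x := by
      have h0 : E12 (-x) * E12 x = 1 := by
        have h00 := trans_add h12 (-x) x
        rw [neg_add_cancel, trans_zero] at h00
        exact h00
      rw [mul_assoc, h0, mul_one]
    have h4 : A (-(x * d)) := by
      change E02 (-(x * d)) ∈ H
      rw [h3]
      exact H.mul_mem h2' hx
    have := hA_neg _ h4
    rwa [neg_neg] at this
  have hcA : A c := by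
    change E02 c ∈ H
    rw [hcdef, ← y_sq]
    exact H.mul_mem hy hy
  -- the multiplier ring
  let M : F → Prop := fun s => (∀ x, A x → A (s * x)) ∧ (∀ x, C x → C (s * x))
  have hM_one : M 1 := ⟨fun x hx => by rwa [one_mul], fun x hx => by rwa [one_mul]⟩
  have hM_mul : ∀ s t, M s → M t → M (s * t) := by
    intro s t hs ht
    refine ⟨fun x hx => ?_, fun x hx => ?_⟩
    · rw [mul_assoc]
      exact hs.1 _ (ht.1 _ hx)
    · rw [mul_assoc]
      exact hs.2 _ (ht.2 _ hx)
  have hM_add : ∀ s t, M s → M t → M (s + t) := by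
    intro s t hs ht
    refine ⟨fun x hx => ?_, fun x hx => ?_⟩
    · rw [add_mul]
      exact hA_add _ _ (hs.1 _ hx) (ht.1 _ hx)
    · rw [add_mul]
      exact hC_add _ _ (hs.2 _ hx) (ht.2 _ hx)
  have hM_neg : ∀ s, M s → M (-s) := by
    intro s hs
    refine ⟨fun x hx => ?_, fun x hx => ?_⟩
    · rw [neg_mul]
      exact hA_neg _ (hs.1 _ hx)
    · rw [neg_mul]
      exact hC_neg _ (hs.2 _ hx)
  have hM_zero : M 0 := ⟨fun x hx => by rw [zero_mul]; exact hA_zero,
    fun x hx => by rw [zero_mul]; exact hC_zero⟩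
  have hM_prod : ∀ x y, C x → A y → M (x * y) := by
    intro x y hx hy
    refine ⟨fun z hz => ?_, fun z hz => ?_⟩
    · rw [mul_assoc]
      exact hCC _ _ hx (hAA _ _ hy hz)
    · rw [mul_right_comm]
      exact hAA _ _ (hCC _ _ hx hz) hy
  have hM_pow : ∀ s, M s → ∀ k : ℕ, M (s ^ k) := by
    intro s hs k
    induction k with
    | zero => rw [pow_zero]; exact hM_one
    | succ k ih => rw [pow_succ]; exact hM_mul _ _ ih hs
  have hM_inv : ∀ s, M s → s ≠ 0 → M s⁻¹ := by
    intro s hs hs0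
    have hcard : 2 ≤ Fintype.card F := Fintype.one_lt_card
    have h1 : s⁻¹ = s ^ (Fintype.card F - 2) := by
      have h3 : s ^ (Fintype.card F - 1) = 1 := FiniteField.pow_card_sub_one_eq_one s hs0
      have h4 : Fintype.card F - 1 = (Fintype.card F - 2) + 1 := by omega
      rw [h4, pow_succ] at h3
      exact (eq_inv_of_mul_eq_one_left h3).symm
    rw [h1]
    exact hM_pow _ hs _
  -- products in the multiplier ring
  have hc2C : C (c * c) := hAA _ _ hcA hcA
  have hM1 : M (c * c * c) := hM_prod _ _ hc2C hcA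
  have hM2 : M (c * c * (c * c * d)) := hM_prod _ _ hc2C (hdC _ hc2C)
  have hc0 : c ≠ 0 := hc
  have hM3 : M (d * c) := by
    have h1 := hM_mul _ _ hM2 (hM_inv _ hM1 (by simp [hc0]))
    have h2' : c * c * (c * c * d) * (c * c * c)⁻¹ = d * c := by
      field_simp
    rwa [h2'] at h1
  have hMd3 : M (d ^ 3) := by
    have h1 := hM_mul _ _ (hM_pow _ hM3 3) (hM_inv _ hM1 (by simp [hc0]))
    have h2' : (d * c) ^ 3 * (c * c * c)⁻¹ = d ^ 3 := by
      field_simp
    rwa [h2'] at h1
  have hM12 : M (12 * d) := by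
    have h1 := hM_add _ _ hM3 (hM_neg _ hMd3)
    have h2' : d * c + -d ^ 3 = 12 * d := by
      rw [hcdef]; ring
    rwa [h2'] at h1
  have hMall : ∀ s, M s := by
    by_cases h3 : (3 : F) = 0
    · -- the cube map is bijective
      have hinj : Function.Injective (fun x : F => x ^ 3) := by
        intro x y hxy
        have h4 : (x - y) ^ 3 = 0 := by
          have hxy' : x ^ 3 = y ^ 3 := hxy
          linear_combination hxy' + (-(x ^ 2 * y) + x * y ^ 2) * h3
        exact sub_eq_zero.1 (pow_eq_zero_iff (by norm_num) |>.1 h4)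
      have hsurj := Finite.injective_iff_surjective.1 hinj
      intro s
      obtain ⟨z, rfl⟩ := hsurj s
      by_cases hz : z = 0
      · subst hz
        simpa using hM_zero
      · obtain ⟨k, rfl⟩ := hgen z hz
        have := hM_pow _ hMd3 k
        rwa [← pow_mul, mul_comm, pow_mul] at this
    · have h12 : (12 : F) ≠ 0 := by
        have : (12 : F) = 2 * 2 * 3 := by norm_num
        rw [this]
        exact mul_ne_zero (mul_ne_zero h2 h2) h3
      have hM12' : M 12 := by
        have h1 : M 2 := by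
          have := hM_add _ _ hM_one hM_one
          rwa [one_add_one_eq_two] at this
        have h4 : M 3 := by
          have := hM_add _ _ h1 hM_one
          rwa [two_add_one_eq_three] at this
        have := hM_mul _ _ (hM_mul _ _ h1 h1) h4
        have h5 : (2 : F) * 2 * 3 = 12 := by norm_num
        rwa [h5] at this
      have hMd : M d := by
        have h1 := hM_mul _ _ (hM_inv _ hM12' h12) hM12
        rwa [inv_mul_cancel_left₀ h12] at h1
      intro s
      by_cases hs : s = 0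
      · subst hs
        exact hM_zero
      · obtain ⟨k, rfl⟩ := hgen s hs
        exact hM_pow _ hMd k
  -- all the scales
  have hA_all : ∀ x, A x := by
    intro x
    have h1 := (hMall (x / c)).1 _ hcA
    rwa [div_mul_cancel₀ _ hc0] at h1
  have hC_all : ∀ x, C x := by
    intro x
    have h1 := (hMall (x / (c * c))).2 _ hc2C
    rwa [div_mul_cancel₀ _ (by simp [hc0])] at h1
  have hE21' : ∀ x, E21 x ∈ H := by
    intro x
    have h1 : E20 (3 * x) * E21 x = uS * E10 x * uS⁻¹ := by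
      rw [u_E10, mul_inv_cancel_right]
    have h4 : E20 (3 * x) * E21 x ∈ H := by
      rw [h1]
      exact H.mul_mem (H.mul_mem hu (hE10 _ (hA_all x))) (H.inv_mem hu)
    have h5 : E21 x = (E20 (3 * x))⁻¹ * (E20 (3 * x) * E21 x) := by
      rw [inv_mul_cancel_left]
    rw [h5]
    exact H.mul_mem (H.inv_mem (hE20 _ (hC_all _))) h4
  have hE01' : ∀ x, E01 x ∈ H := by
    intro x
    have h1 := transvection_comm_mem H h02 h21 h01 (hA_all x) (hE21' 1)
    rwa [mul_one] at h1
  apply eq_top_of_forall_transvection_mem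
  intro i j hij x
  fin_cases i <;> fin_cases j
  · exact absurd rfl hij
  · exact hE01' x
  · exact hA_all x
  · exact hE10 x (hA_all x)
  · exact absurd rfl hij
  · exact hC_all x
  · exact hE20 x (hC_all x)
  · exact hE21' x
  · exact absurd rfl hij

/-! ### Characteristic two -/

/-- A lower regular unipotent matrix. -/
def u₂ : SpecialLinearGroup (Fin 3) F :=
  ⟨!![1,0,0;1,1,0;0,1,1], by
    rw [Matrix.det_fin_three]
    simp⟩

theorem u₂_coe : ((u₂ : SpecialLinearGroup (Fin 3) F) : Matrix (Fin 3) (Fin 3) F) =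
    !![1,0,0;1,1,0;0,1,1] := rfl

/-- An upper regular unipotent matrix. -/
def v₂ (γ : F) : SpecialLinearGroup (Fin 3) F :=
  ⟨!![1,1,γ;0,1,1;0,0,1], by
    rw [Matrix.det_fin_three]
    simp⟩

theorem v₂_coe (γ : F) : ((v₂ γ : SpecialLinearGroup (Fin 3) F) : Matrix (Fin 3) (Fin 3) F) =
    !![1,1,γ;0,1,1;0,0,1] := rfl

/-- The upper matrix with `γ` removed. -/
def w₂ : SpecialLinearGroup (Fin 3) F :=
  ⟨!![1,1,0;0,1,1;0,0,1], by
    rw [Matrix.det_fin_three]
    simp⟩

theorem w₂_coe : ((w₂ : SpecialLinearGroup (Fin 3) F) : Matrix (Fin 3) (Fin 3) F) =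
    !![1,1,0;0,1,1;0,0,1] := rfl

/-- The conjugating element. -/
def g₂ (h2 : (2 : F) = 0) (γ : F) : SpecialLinearGroup (Fin 3) F :=
  ⟨!![0,γ,1;0,1,0;1,0,0], by
    rw [Matrix.det_fin_three]
    simp
    linear_combination -h2⟩

theorem g₂_coe (h2 : (2 : F) = 0) (γ : F) :
    ((g₂ h2 γ : SpecialLinearGroup (Fin 3) F) : Matrix (Fin 3) (Fin 3) F) =
    !![0,γ,1;0,1,0;1,0,0] := rfl

/-- The swap. -/
def S₂ (h2 : (2 : F) = 0) : SpecialLinearGroup (Fin 3) F :=
  ⟨!![0,0,1;0,1,0;1,0,0], by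
    rw [Matrix.det_fin_three]
    simp
    linear_combination -h2⟩

theorem S₂_coe (h2 : (2 : F) = 0) :
    ((S₂ h2 : SpecialLinearGroup (Fin 3) F) : Matrix (Fin 3) (Fin 3) F) =
    !![0,0,1;0,1,0;1,0,0] := rfl

/-- The transvection conjugate to `E02 x` under `u₂`. -/
def T₁ (x : F) : SpecialLinearGroup (Fin 3) F :=
  ⟨!![1+x,-x,x;x,1-x,x;0,0,1], by
    rw [Matrix.det_fin_three]
    simp
    ring⟩

theorem T₁_coe (x : F) : ((T₁ x : SpecialLinearGroup (Fin 3) F) : Matrix (Fin 3) (Fin 3) F) =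
    !![1+x,-x,x;x,1-x,x;0,0,1] := rfl

theorem g₂_u₂ (h2 : (2 : F) = 0) (γ : F) : g₂ h2 γ * u₂ = v₂ γ * g₂ h2 γ := by
  apply Subtype.ext
  change (g₂ h2 γ).1 * (u₂ (F := F)).1 = (v₂ γ).1 * (g₂ h2 γ).1
  rw [g₂_coe, u₂_coe, v₂_coe, Matrix.mul_fin_three, Matrix.mul_fin_three]
  ext i j
  fin_cases i <;> fin_cases j <;> simp <;> ring

theorem u₂_sq (h2 : (2 : F) = 0) : u₂ * u₂ = E20 (1 : F) := by
  apply Subtype.ext
  change (u₂ (F := F)).1 * (u₂ (F := F)).1 = (E20 (1 : F)).1
  rw [E20_coe, u₂_coe, Matrix.mul_fin_three]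
  ext i j
  fin_cases i <;> fin_cases j <;> simp <;> linear_combination h2

theorem v₂_sq (h2 : (2 : F) = 0) (γ : F) : v₂ γ * v₂ γ = E02 (1 : F) := by
  apply Subtype.ext
  change (v₂ γ).1 * (v₂ γ).1 = (E02 (1 : F)).1
  rw [E02_coe, v₂_coe, Matrix.mul_fin_three]
  ext i j
  fin_cases i <;> fin_cases j <;> simp <;> first | linear_combination h2 | linear_combination γ * h2

theorem S₂_eq (h2 : (2 : F) = 0) : S₂ h2 = E02 (1 : F) * E20 (1 : F) * E02 (1 : F) := by
  apply Subtype.ext
  change (S₂ h2).1 = (E02 (1 : F)).1 * (E20 (1 : F)).1 * (E02 (1 : F)).1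
  rw [E02_coe, E20_coe, S₂_coe, Matrix.mul_fin_three, Matrix.mul_fin_three]
  ext i j
  fin_cases i <;> fin_cases j <;> simp <;> first | linear_combination h2 | linear_combination -h2 | norm_num

theorem S₂_E02 (h2 : (2 : F) = 0) (x : F) : S₂ h2 * E02 x = E20 x * S₂ h2 := by
  apply Subtype.ext
  change (S₂ h2).1 * (E02 x).1 = (E20 x).1 * (S₂ h2).1
  rw [E02_coe, E20_coe, S₂_coe, Matrix.mul_fin_three, Matrix.mul_fin_three]
  ext i j
  fin_cases i <;> fin_cases j <;> simp

theorem S₂_E12 (h2 : (2 : F) = 0) (x : F) : S₂ h2 * E12 x = E10 x * S₂ h2 := by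
  apply Subtype.ext
  change (S₂ h2).1 * (E12 x).1 = (E10 x).1 * (S₂ h2).1
  rw [E12_coe, E10_coe, S₂_coe, Matrix.mul_fin_three, Matrix.mul_fin_three]
  ext i j
  fin_cases i <;> fin_cases j <;> simp

theorem S₂_u₂ (h2 : (2 : F) = 0) : S₂ h2 * u₂ = w₂ * S₂ h2 := by
  apply Subtype.ext
  change (S₂ h2).1 * (u₂ (F := F)).1 = (w₂ (F := F)).1 * (S₂ h2).1
  rw [w₂_coe, u₂_coe, S₂_coe, Matrix.mul_fin_three, Matrix.mul_fin_three]
  ext i j
  fin_cases i <;> fin_cases j <;> simp

theorem v₂_eq (γ : F) : v₂ γ = w₂ * E02 γ := by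
  apply Subtype.ext
  change (v₂ γ).1 = (w₂ (F := F)).1 * (E02 γ).1
  rw [E02_coe, w₂_coe, v₂_coe, Matrix.mul_fin_three]
  ext i j
  fin_cases i <;> fin_cases j <;> simp

theorem u₂_E02 (x : F) : u₂ * E02 x = T₁ x * u₂ := by
  apply Subtype.ext
  change (u₂ (F := F)).1 * (E02 x).1 = (T₁ x).1 * (u₂ (F := F)).1
  rw [E02_coe, T₁_coe, u₂_coe, Matrix.mul_fin_three, Matrix.mul_fin_three]
  ext i j
  fin_cases i <;> fin_cases j <;> simp <;> ring

theorem T₁_E02 (x y : F) : T₁ x * E02 y = E02 (y * x) * E12 (y * x) * E02 y * T₁ x := by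
  apply Subtype.ext
  change (T₁ x).1 * (E02 y).1 = (E02 (y * x)).1 * (E12 (y * x)).1 * (E02 y).1 * (T₁ x).1
  rw [E02_coe, E02_coe, E12_coe, T₁_coe, Matrix.mul_fin_three, Matrix.mul_fin_three,
    Matrix.mul_fin_three, Matrix.mul_fin_three]
  ext i j
  fin_cases i <;> fin_cases j <;> simp <;> ring

theorem u₂_eq : (u₂ : SpecialLinearGroup (Fin 3) F) = E10 (1 : F) * E21 (1 : F) := by
  apply Subtype.ext
  change (u₂ (F := F)).1 = (E10 (1 : F)).1 * (E21 (1 : F)).1
  rw [E10_coe, E21_coe, u₂_coe, Matrix.mul_fin_three]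
  ext i j
  fin_cases i <;> fin_cases j <;> simp

/-- The generation argument in characteristic two. -/
theorem top_char2 (H : Subgroup (SpecialLinearGroup (Fin 3) F)) {γ : F} (h2 : (2 : F) = 0)
    (hu : u₂ ∈ H) (hv : v₂ γ ∈ H)
    (hgen : ∀ x : F, x ≠ 0 → ∃ k : ℕ, x = γ ^ k) : H = ⊤ := by
  classical
  let A : F → Prop := fun x => E02 x ∈ H
  have h1A : A 1 := by
    change E02 (1 : F) ∈ H
    rw [← v₂_sq h2 γ]
    exact H.mul_mem hv hv
  have hE201 : E20 (1 : F) ∈ H := by
    rw [← u₂_sq h2]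
    exact H.mul_mem hu hu
  have hS : S₂ h2 ∈ H := by
    rw [S₂_eq]
    exact H.mul_mem (H.mul_mem h1A hE201) h1A
  have hw : (w₂ : SpecialLinearGroup (Fin 3) F) ∈ H := by
    have h1 : (w₂ : SpecialLinearGroup (Fin 3) F) = S₂ h2 * u₂ * (S₂ h2)⁻¹ := by
      rw [S₂_u₂, mul_inv_cancel_right]
    rw [h1]
    exact H.mul_mem (H.mul_mem hS hu) (H.inv_mem hS)
  have hγA : A γ := by
    have h1 : E02 γ = (w₂ : SpecialLinearGroup (Fin 3) F)⁻¹ * v₂ γ := by
      rw [v₂_eq, inv_mul_cancel_left]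
    change E02 γ ∈ H
    rw [h1]
    exact H.mul_mem (H.inv_mem hw) hv
  have hE20 : ∀ x, A x → E20 x ∈ H := by
    intro x hx
    have h1 : E20 x = S₂ h2 * E02 x * (S₂ h2)⁻¹ := by
      rw [S₂_E02, mul_inv_cancel_right]
    rw [h1]
    exact H.mul_mem (H.mul_mem hS hx) (H.inv_mem hS)
  let B : F → Prop := fun x => E12 x ∈ H
  have hE10 : ∀ x, B x → E10 x ∈ H := by
    intro x hx
    have h1 : E10 x = S₂ h2 * E12 x * (S₂ h2)⁻¹ := by
      rw [S₂_E12, mul_inv_cancel_right]
    rw [h1]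
    exact H.mul_mem (H.mul_mem hS hx) (H.inv_mem hS)
  have hB_of : ∀ x, E10 x ∈ H → B x := by
    intro x hx
    have h1 : E12 x = (S₂ h2)⁻¹ * E10 x * S₂ h2 := by
      rw [mul_assoc, ← S₂_E12, inv_mul_cancel_left]
    change E12 x ∈ H
    rw [h1]
    exact H.mul_mem (H.mul_mem (H.inv_mem hS) hx) hS
  have hT₁ : ∀ x, A x → T₁ x ∈ H := by
    intro x hx
    have h1 : T₁ x = u₂ * E02 x * u₂⁻¹ := by
      rw [u₂_E02, mul_inv_cancel_right]
    rw [h1]
    exact H.mul_mem (H.mul_mem hu hx) (H.inv_mem hu)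
  have hprod : ∀ x y, A x → A y → E02 (y * x) * E12 (y * x) ∈ H := by
    intro x y hx hy
    have h1 : E02 (y * x) * E12 (y * x) = T₁ x * E02 y * (T₁ x)⁻¹ * (E02 y)⁻¹ := by
      rw [T₁_E02, mul_inv_cancel_right, mul_inv_cancel_right]
    rw [h1]
    exact H.mul_mem (H.mul_mem (H.mul_mem (hT₁ x hx) hy) (H.inv_mem (hT₁ x hx))) (H.inv_mem hy)
  have hAB : ∀ x, A x → B x := by
    intro x hx
    have h1 := hprod 1 x h1A hx
    rw [mul_one] at h1
    have h3 : E12 x = (E02 x)⁻¹ * (E02 x * E12 x) := by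
      rw [inv_mul_cancel_left]
    change E12 x ∈ H
    rw [h3]
    exact H.mul_mem (H.inv_mem hx) h1
  have hBA : ∀ x y, B x → A y → B (x * y) := fun x y hx hy =>
    hB_of _ (transvection_comm_mem H h12 h20 h10 hx (hE20 y hy))
  have hAA : ∀ x y, A x → A y → A (x * y) := by
    intro x y hx hy
    have h1 := hprod y x hy hx
    have h3 : B (x * y) := hBA x y (hAB x hx) hy
    have h4 : E02 (x * y) = E02 (x * y) * E12 (x * y) * (E12 (x * y))⁻¹ := by
      rw [mul_inv_cancel_right]
    change E02 (x * y) ∈ H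
    rw [h4]
    exact H.mul_mem h1 (H.inv_mem h3)
  have hApow : ∀ k : ℕ, A (γ ^ k) := by
    intro k
    induction k with
    | zero => rw [pow_zero]; exact h1A
    | succ k ih => rw [pow_succ]; exact hAA _ _ ih hγA
  have hA_all : ∀ x, A x := by
    intro x
    by_cases hx : x = 0
    · subst hx
      have h0 : E02 (0 : F) = 1 := trans_zero h02
      change E02 0 ∈ H
      rw [h0]
      exact H.one_mem
    · obtain ⟨k, rfl⟩ := hgen x hx
      exact hApow k
  have hB_all : ∀ x, B x := fun x => hAB x (hA_all x)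
  have hE211 : E21 (1 : F) ∈ H := by
    have h1 : E21 (1 : F) = (E10 (1 : F))⁻¹ * u₂ := by
      rw [u₂_eq, inv_mul_cancel_left]
    rw [h1]
    exact H.mul_mem (H.inv_mem (hE10 1 (hB_all 1))) hu
  have hE01' : ∀ x, E01 x ∈ H := by
    intro x
    have h1 := transvection_comm_mem H h02 h21 h01 (hA_all x) hE211
    rwa [mul_one] at h1
  have hE21' : ∀ x, E21 x ∈ H := by
    intro x
    have h1 := transvection_comm_mem H h20 h01 h21 (hE20 x (hA_all x)) (hE01' 1)
    rwa [mul_one] at h1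
  apply eq_top_of_forall_transvection_mem
  intro i j hij x
  fin_cases i <;> fin_cases j
  · exact absurd rfl hij
  · exact hE01' x
  · exact hA_all x
  · exact hE10 x (hB_all x)
  · exact absurd rfl hij
  · exact hB_all x
  · exact hE20 x (hA_all x)
  · exact hE21' x
  · exact absurd rfl hij

/-- A generator of the multiplicative group, as powers. -/
theorem exists_gen [Fintype F] : ∃ g : F, g ≠ 0 ∧ ∀ x : F, x ≠ 0 → ∃ k : ℕ, x = g ^ k := by
  classical
  obtain ⟨g, hg⟩ := IsCyclic.exists_generator (α := Fˣ)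
  refine ⟨(g : F), g.ne_zero, fun x hx => ?_⟩
  have h1 := hg (Units.mk0 x hx)
  rw [← mem_powers_iff_mem_zpowers] at h1
  obtain ⟨k, hk⟩ := h1
  refine ⟨k, ?_⟩
  have := congrArg (Units.val) hk
  simpa using this.symm

/-- Let F be a finite field. Then SL_3(F) is generated by two conjugate regular unipotent elements: there are u with u − 1 nilpotent and (u − 1)² ≠ 0, and g, such that u and g u g⁻¹ generate SL_3(F). -/
theorem result {F : Type*} [Field F] [Fintype F] :
    ∃ u g : Matrix.SpecialLinearGroup (Fin 3) F, IsNilpotent ((u : Matrix (Fin 3) (Fin 3) F) - 1) ∧ ((u : Matrix (Fin 3) (Fin 3) F) - 1) ^ (3 - 1) ≠ 0 ∧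
      Subgroup.closure ({u, g * u * g⁻¹} : Set (Matrix.SpecialLinearGroup (Fin 3) F)) = ⊤ := by
  classical
  by_cases h2 : (2 : F) = 0
  · obtain ⟨γ, -, hgen⟩ := exists_gen (F := F)
    refine ⟨u₂, g₂ h2 γ, ?_, ?_, ?_⟩
    · refine ⟨3, ?_⟩
      rw [u₂_coe, pow_succ, pow_two]
      have h1 : (!![1,0,0;1,1,0;0,1,1] - 1 : Matrix (Fin 3) (Fin 3) F) = !![0,0,0;1,0,0;0,1,0] := by
        ext i j
        fin_cases i <;> fin_cases j <;> simp
      rw [h1, Matrix.mul_fin_three, Matrix.mul_fin_three]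
      ext i j
      fin_cases i <;> fin_cases j <;> simp
    · intro h0
      rw [u₂_coe] at h0
      have h1 : (!![1,0,0;1,1,0;0,1,1] - 1 : Matrix (Fin 3) (Fin 3) F) = !![0,0,0;1,0,0;0,1,0] := by
        ext i j
        fin_cases i <;> fin_cases j <;> simp
      rw [h1] at h0
      have h3 := congrFun (congrFun h0 2) 0
      change (!![0,0,0;1,0,0;0,1,0] ^ 2 : Matrix (Fin 3) (Fin 3) F) 2 0 = 0 at h3
      rw [pow_two, Matrix.mul_fin_three] at h3
      simp at h3
    · apply top_char2 _ h2 (γ := γ)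
      · exact Subgroup.subset_closure (by simp)
      · have h1 : v₂ γ = g₂ h2 γ * u₂ * (g₂ h2 γ)⁻¹ := by
          rw [g₂_u₂, mul_inv_cancel_right]
        rw [h1]
        exact Subgroup.subset_closure (by simp)
      · exact hgen
  · -- odd characteristic
    obtain ⟨g₀, hg₀, hgen₀⟩ := exists_gen (F := F)
    obtain ⟨d, hc, hgen⟩ : ∃ d : F, 12 + d ^ 2 ≠ 0 ∧ ∀ x : F, x ≠ 0 → ∃ k : ℕ, x = d ^ k := by
      by_cases hc : 12 + g₀ ^ 2 = 0
      · refine ⟨g₀⁻¹, ?_, ?_⟩
        · intro hc'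
          have hc'' : 12 * g₀ ^ 2 + 1 = 0 := by
            have h5 : g₀ ^ 2 * (12 + g₀⁻¹ ^ 2) = 12 * g₀ ^ 2 + 1 := by
              field_simp
            rw [← h5, hc', mul_zero]
          have h143 : (143 : F) = 0 := by linear_combination (12 : F) * hc - hc''
          have h4 : g₀ ^ 4 = 1 := by linear_combination (g₀ ^ 2 - 12) * hc + h143
          have hall : ∀ x : F, x ≠ 0 → x ^ 4 = 1 := by
            intro x hx
            obtain ⟨k, rfl⟩ := hgen₀ x hx
            rw [← pow_mul, mul_comm, pow_mul, h4, one_pow]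
          have h15 : (15 : F) = 0 := by linear_combination hall 2 h2
          have h1 : (1 : F) = 0 := by linear_combination 2 * h143 - 19 * h15
          exact one_ne_zero h1
        · intro x hx
          obtain ⟨k, hk⟩ := hgen₀ x⁻¹ (inv_ne_zero hx)
          refine ⟨k, ?_⟩
          rw [inv_pow, ← hk, inv_inv]
      · exact ⟨g₀, hc, hgen₀⟩
    refine ⟨uS, gS d, ?_, ?_, ?_⟩
    · refine ⟨3, ?_⟩
      rw [uS_coe, pow_succ, pow_two]
      have h1 : (!![0,0,1;1,0,-3;0,1,3] - 1 : Matrix (Fin 3) (Fin 3) F) = !![-1,0,1;1,-1,-3;0,1,2] := by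
        ext i j
        fin_cases i <;> fin_cases j <;> simp <;> norm_num
      rw [h1, Matrix.mul_fin_three, Matrix.mul_fin_three]
      ext i j
      fin_cases i <;> fin_cases j <;> simp <;> norm_num
    · intro h0
      rw [uS_coe] at h0
      have h1 : (!![0,0,1;1,0,-3;0,1,3] - 1 : Matrix (Fin 3) (Fin 3) F) = !![-1,0,1;1,-1,-3;0,1,2] := by
        ext i j
        fin_cases i <;> fin_cases j <;> simp <;> norm_num
      rw [h1] at h0
      have h3 := congrFun (congrFun h0 0) 0
      change (!![-1,0,1;1,-1,-3;0,1,2] ^ 2 : Matrix (Fin 3) (Fin 3) F) 0 0 = 0 at h3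
      rw [pow_two, Matrix.mul_fin_three] at h3
      simp at h3
    · apply top_of_mem _ (d := d) _ _ hc h2 hgen
      · exact Subgroup.subset_closure (by simp)
      · have h1 : yS d = uS⁻¹ * (gS d * uS * (gS d)⁻¹) := by
          rw [g_u, mul_inv_cancel_right, inv_mul_cancel_left]
        rw [h1]
        refine Subgroup.mul_mem _ (Subgroup.inv_mem _ (Subgroup.subset_closure (by simp)))
          (Subgroup.subset_closure (by simp))

end Cfsg.Agent.S2278
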