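import Mathlib
import Cfsg.Statements.S2411
import Cfsg.Agent.Lib.SpBasic

set_option autoImplicit false
open Cfsg

namespace Cfsg.Agent.S2411

open Matrix Cfsg.Agent.Lib.SpBasic

variable {F : Type*} [Field F] [Fintype F]

lemma exists_singer (m : ℕ) (hm : m ≠ 0) : ∃ A Q : Matrix (Fin m) (Fin m) F,
    IsUnit A ∧ IsUnit Q ∧ Qᵀ = Q ∧ Q * A = Aᵀ * Q ∧
      ∀ x y : Fin m → F, x ≠ 0 → y ≠ 0 → ∃ n : ℕ, (A ^ n) *ᵥ x = y := by
  classical
  obtain ⟨p, hp⟩ := CharP.exists F
  haveI := hp
  haveI : Fact p.Prime := ⟨CharP.char_is_prime F p⟩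
  haveI : NeZero m := ⟨hm⟩
  let K := FiniteField.Extension F p m
  haveI : Fintype K := Fintype.ofFinite K
  have hfr : Module.finrank F K = m := FiniteField.finrank_extension F p m
  let b : Module.Basis (Fin m) F K := Module.finBasisOfFinrankEq F K hfr
  obtain ⟨θ, hθ⟩ := IsCyclic.exists_generator (α := Kˣ)
  let ρ := Algebra.leftMulMatrix b
  refine ⟨ρ (θ : K), Algebra.traceMatrix F b, ?_, ?_, ?_, ?_, ?_⟩
  · refine IsUnit.map ρ θ.isUnit
  · rw [Matrix.isUnit_iff_isUnit_det]
    exact Algebra.discr_isUnit_of_basis F b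
  · ext i j
    simp only [Matrix.transpose_apply, Algebra.traceMatrix_apply, Algebra.traceForm_apply]
    rw [mul_comm]
  · ext i j
    simp only [Matrix.mul_apply, Matrix.transpose_apply, Algebra.traceMatrix_apply, Algebra.traceForm_apply]
    have h1 : ∀ j, (θ : K) * b j = ∑ k, ρ (θ : K) k j • b k := by
      intro j
      conv_lhs => rw [← b.sum_repr ((θ : K) * b j)]
      refine Finset.sum_congr rfl fun k _ => ?_
      rw [Algebra.leftMulMatrix_eq_repr_mul]
    have e1 : Algebra.trace F K (b i * ((θ : K) * b j)) = ∑ k, Algebra.trace F K (b i * b k) * ρ (θ : K) k j := by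
      rw [h1 j, Finset.mul_sum, map_sum]
      refine Finset.sum_congr rfl fun k _ => ?_
      rw [mul_smul_comm, map_smul, smul_eq_mul, mul_comm]
    have e2 : Algebra.trace F K (((θ : K) * b i) * b j) = ∑ k, ρ (θ : K) k i * Algebra.trace F K (b k * b j) := by
      rw [h1 i, Finset.sum_mul, map_sum]
      refine Finset.sum_congr rfl fun k _ => ?_
      rw [smul_mul_assoc, map_smul, smul_eq_mul]
    rw [← e1, ← e2]
    congr 1
    ring
  · intro x y hx hy
    let X : K := b.equivFun.symm x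
    let Y : K := b.equivFun.symm y
    have hXx : b.equivFun X = x := b.equivFun.apply_symm_apply x
    have hYy : b.equivFun Y = y := b.equivFun.apply_symm_apply y
    have hX : X ≠ 0 := by
      intro h
      apply hx
      rw [← hXx, h, map_zero]
    have hY : Y ≠ 0 := by
      intro h
      apply hy
      rw [← hYy, h, map_zero]
    have hmem : Units.mk0 Y hY * (Units.mk0 X hX)⁻¹ ∈ Submonoid.powers θ := by
      rw [mem_powers_iff_mem_zpowers]
      exact hθ _
    obtain ⟨n, hn⟩ := hmem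
    refine ⟨n, ?_⟩
    rw [← map_pow]
    have h2 := Algebra.leftMulMatrix_mulVec_repr b ((θ : K) ^ n) X
    have h3 : (b.repr X : Fin m → F) = x := hXx
    have h4 : (θ : K) ^ n * X = Y := by
      have := congrArg Units.val hn
      simp only [Units.val_pow_eq_pow_val, Units.val_mul, Units.val_mk0, Units.val_inv_eq_inv_val] at this
      rw [this]
      exact inv_mul_cancel_right₀ hX Y
    rw [h3, h4] at h2
    exact h2.trans hYy

lemma sum_coord (m : ℕ) (hc : 2 < (Fintype.card F - 1) * m) (i j : Fin m) :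
    ∑ x : Fin m → F, x i * x j = 0 := by
  classical
  have h := MvPolynomial.sum_eval_eq_zero (K := F) (σ := Fin m) (MvPolynomial.X i * MvPolynomial.X j) (by
    rw [Fintype.card_fin]
    refine lt_of_le_of_lt ?_ hc
    refine (MvPolynomial.totalDegree_mul _ _).trans ?_
    simp [MvPolynomial.totalDegree_X])
  simpa using h


/-- The vector `(x, 0)`. -/
def il {l : Type*} (x : l → F) : l ⊕ l → F := Sum.elim x 0

/-- The vector `(0, y)`. -/
def ir {l : Type*} (y : l → F) : l ⊕ l → F := Sum.elim 0 y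

section
variable {l : Type*} [Fintype l] [DecidableEq l]

lemma ω_il (x : l → F) (v : l ⊕ l → F) : ω (il x) v = - ∑ i, x i * v (Sum.inr i) := by
  rw [ω_apply, ← Finset.sum_neg_distrib]
  refine Finset.sum_congr rfl fun i _ => ?_
  simp [il]

lemma T_il_inr (x : l → F) (c : F) (v : l ⊕ l → F) (i : l) :
    (T (il x) c • v) (Sum.inr i) = v (Sum.inr i) := by
  rw [T_smul]
  simp [il]

lemma prod_formula (e : l → F) (v : l ⊕ l → F) (L : List (l → F)) :
    (L.map fun x => T (il x) (1 : F) * T (il e) (-1 : F)).prod • v =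
      v + il (L.map fun x => (-∑ i, x i * v (Sum.inr i)) • x + (∑ i, e i * v (Sum.inr i)) • e).sum := by
  induction L with
  | nil =>
    funext i
    cases i <;> simp [il]
  | cons x L ih =>
    have hinr : ∀ i, (v + il (L.map fun x => (-∑ i, x i * v (Sum.inr i)) • x + (∑ i, e i * v (Sum.inr i)) • e).sum) (Sum.inr i) = v (Sum.inr i) := by
      intro i
      simp [il]
    rw [List.map_cons, List.prod_cons, mul_smul, ih, mul_smul, List.map_cons, List.sum_cons]
    generalize (L.map fun x => (-∑ i, x i * v (Sum.inr i)) • x + (∑ i, e i * v (Sum.inr i)) • e).sum = s at hinr ⊢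
    have h1 : ∀ i, (T (il e) (-1 : F) • (v + il s)) (Sum.inr i) = v (Sum.inr i) := by
      intro i
      rw [T_il_inr, hinr]
    rw [T_smul, T_smul, ω_il, ω_il]
    simp only [h1, hinr]
    funext i
    cases i with
    | inl i => simp [il]; ring
    | inr i => simp [il]

lemma sum_two_squares (t : F) : ∃ a b : F, t = a ^ 2 + b ^ 2 := by
  classical
  by_cases h2 : Fintype.card F % 2 = 0
  · have hc : ringChar F = 2 := FiniteField.even_card_iff_char_two.mpr h2
    obtain ⟨c, hc'⟩ := FiniteField.isSquare_of_char_two hc t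
    exact ⟨c, 0, by rw [hc']; ring⟩
  · have h2' : Fintype.card F % 2 = 1 := by omega
    obtain ⟨a, b, hab⟩ := FiniteField.exists_root_sum_quadratic
      (f := Polynomial.X ^ 2) (g := Polynomial.X ^ 2 - Polynomial.C t)
      (Polynomial.degree_X_pow 2) (Polynomial.degree_X_pow_sub_C (by decide) t) h2'
    simp only [Polynomial.eval_pow, Polynomial.eval_X, Polynomial.eval_sub, Polynomial.eval_C] at hab
    exact ⟨a, b, by linear_combination -hab⟩

lemma a_mem {A : Matrix l l F} (hA : A * A⁻¹ = 1) :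
    fromBlocks A 0 0 (A⁻¹)ᵀ ∈ symplecticGroup l F := by
  have h2 : A⁻¹ * A = 1 := mul_eq_one_comm.mp hA
  rw [SymplecticGroup.mem_iff, J, fromBlocks_transpose, fromBlocks_multiply, fromBlocks_multiply]
  simp only [zero_mul, mul_zero, add_zero, zero_add, transpose_zero, transpose_transpose, mul_neg, mul_one, neg_mul, neg_zero]
  rw [hA, ← transpose_mul, hA, transpose_one]

lemma j_mem {Q : Matrix l l F} (hQ : Q * Q⁻¹ = 1) (hs : Qᵀ = Q) :
    fromBlocks 0 (-Q⁻¹) Q 0 ∈ symplecticGroup l F := by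
  have h2 : Q⁻¹ * Q = 1 := mul_eq_one_comm.mp hQ
  have h3 : (Q⁻¹)ᵀ = Q⁻¹ := by rw [Matrix.transpose_nonsing_inv, hs]
  rw [SymplecticGroup.mem_iff, J, fromBlocks_transpose, fromBlocks_multiply, fromBlocks_multiply]
  simp only [zero_mul, mul_zero, add_zero, zero_add, transpose_zero, transpose_neg, h3, hs, mul_neg, neg_mul, neg_neg, mul_one, one_mul]
  rw [h2, hQ]

lemma aja {A Q : Matrix l l F} (hA : A * A⁻¹ = 1) (hQ : Q * Q⁻¹ = 1) (hQA : Q * A = Aᵀ * Q) :
    fromBlocks A 0 0 (A⁻¹)ᵀ * fromBlocks 0 (-Q⁻¹) Q 0 * fromBlocks A 0 0 (A⁻¹)ᵀ = fromBlocks 0 (-Q⁻¹) Q 0 := by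
  have h2 : A⁻¹ * A = 1 := mul_eq_one_comm.mp hA
  have h3 : Q⁻¹ * Q = 1 := mul_eq_one_comm.mp hQ
  have h4 : (A⁻¹)ᵀ * Aᵀ = 1 := by rw [← transpose_mul, hA, transpose_one]
  have h5 : Aᵀ * (A⁻¹)ᵀ = 1 := mul_eq_one_comm.mp h4
  have h6 : A * Q⁻¹ = Q⁻¹ * Aᵀ := by
    calc A * Q⁻¹ = Q⁻¹ * (Q * A) * Q⁻¹ := by rw [← mul_assoc, h3, one_mul]
      _ = Q⁻¹ * (Aᵀ * Q) * Q⁻¹ := by rw [hQA]
      _ = Q⁻¹ * Aᵀ := by rw [mul_assoc, mul_assoc, hQ, mul_one]
  rw [fromBlocks_multiply, fromBlocks_multiply]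
  simp only [zero_mul, mul_zero, add_zero, zero_add, mul_neg, neg_mul, neg_zero]
  congr 1
  · rw [h6, mul_assoc, h5, mul_one]
  · rw [mul_assoc, hQA, ← mul_assoc, h4, one_mul]

end

theorem exists_gen (m : ℕ) (hm : 2 ≤ m) (hF : m = 2 → 2 < Fintype.card F) :
    ∃ a b : Sp (Fin m) F, Subgroup.closure ({a, b} : Set (Sp (Fin m) F)) = ⊤ := by
  classical
  obtain ⟨A, Q, hA, hQ, hQs, hQA, htr⟩ := exists_singer (F := F) m (by omega)
  have hA1 : A * A⁻¹ = 1 := Matrix.mul_nonsing_inv A ((Matrix.isUnit_iff_isUnit_det A).1 hA)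
  have hQ1 : Q * Q⁻¹ = 1 := Matrix.mul_nonsing_inv Q ((Matrix.isUnit_iff_isUnit_det Q).1 hQ)
  have hQ2 : Q⁻¹ * Q = 1 := mul_eq_one_comm.mp hQ1
  let a : Sp (Fin m) F := ⟨fromBlocks A 0 0 (A⁻¹)ᵀ, a_mem hA1⟩
  let j : Sp (Fin m) F := ⟨fromBlocks 0 (-Q⁻¹) Q 0, j_mem hQ1 hQs⟩
  have haja : a * j * a = j := Subtype.ext (aja hA1 hQ1 hQA)
  have hrel : j * a * j⁻¹ = a⁻¹ := by
    rw [mul_inv_eq_iff_eq_mul, eq_inv_mul_iff_mul_eq, ← mul_assoc]
    exact haja
  have hail : ∀ x, a • il x = il (A *ᵥ x) := by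
    intro x
    rw [Sp_smul_def]
    show fromBlocks A 0 0 (A⁻¹)ᵀ *ᵥ il x = _
    rw [il, fromBlocks_mulVec]
    simp [il]
  have hjil : ∀ x, j • il x = ir (Q *ᵥ x) := by
    intro x
    rw [Sp_smul_def]
    show fromBlocks 0 (-Q⁻¹) Q 0 *ᵥ il x = _
    rw [il, fromBlocks_mulVec]
    simp [ir]
  let e : Fin m → F := Pi.single ⟨0, by omega⟩ 1
  have he : e ≠ 0 := by
    intro h
    have := congrFun h ⟨0, by omega⟩
    simp [e] at this
  let t : Sp (Fin m) F := T (il e) (1 : F)
  refine ⟨a, t * j, ?_⟩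
  set H := Subgroup.closure ({a, t * j} : Set (Sp (Fin m) F)) with hH
  have haH : a ∈ H := Subgroup.subset_closure (by simp)
  have hbH : t * j ∈ H := Subgroup.subset_closure (by simp)
  -- the first commutator
  have hy : T (il (A *ᵥ e)) (1 : F) * T (il e) (-1 : F) ∈ H := by
    have h1 : a * ((t * j) * a * (t * j)⁻¹) ∈ H :=
      H.mul_mem haH (H.mul_mem (H.mul_mem hbH haH) (H.inv_mem hbH))
    have h2 : a * ((t * j) * a * (t * j)⁻¹) = T (il (A *ᵥ e)) (1 : F) * T (il e) (-1 : F) := by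
      have h3 : a * ((t * j) * a * (t * j)⁻¹) = a * t * (j * a * j⁻¹) * t⁻¹ := by group
      rw [h3, hrel]
      have h4 : a * t * a⁻¹ = T (il (A *ᵥ e)) (1 : F) := by
        rw [← hail]
        exact T_conj a (il e) (1 : F)
      rw [h4, T_inv]
    rwa [h2] at h1
  -- telescoping
  have hn : ∀ n : ℕ, T (il ((A ^ n) *ᵥ e)) (1 : F) * T (il e) (-1 : F) ∈ H := by
    intro n
    induction n with
    | zero =>
      rw [pow_zero, one_mulVec, T_mul, add_neg_cancel, T_zero_right]
      exact H.one_mem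
    | succ n ih =>
      have h1 : a * (T (il ((A ^ n) *ᵥ e)) (1 : F) * T (il e) (-1 : F)) * a⁻¹ * (T (il (A *ᵥ e)) (1 : F) * T (il e) (-1 : F)) ∈ H :=
        H.mul_mem (H.mul_mem (H.mul_mem haH ih) (H.inv_mem haH)) hy
      have h2 : a * (T (il ((A ^ n) *ᵥ e)) (1 : F) * T (il e) (-1 : F)) * a⁻¹ * (T (il (A *ᵥ e)) (1 : F) * T (il e) (-1 : F))
          = T (il ((A ^ (n + 1)) *ᵥ e)) (1 : F) * T (il e) (-1 : F) := by
        have h3 : a * (T (il ((A ^ n) *ᵥ e)) (1 : F) * T (il e) (-1 : F)) * a⁻¹ =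
            (a * T (il ((A ^ n) *ᵥ e)) (1 : F) * a⁻¹) * (a * T (il e) (-1 : F) * a⁻¹) := by group
        rw [h3, T_conj, T_conj, hail, hail, mulVec_mulVec, ← pow_succ', mul_assoc, ← mul_assoc (T (il (A *ᵥ e)) (-1 : F)),
          T_mul, neg_add_cancel, T_zero_right, one_mul]
      rwa [h2] at h1
  have hz : ∀ x : Fin m → F, x ≠ 0 → T (il x) (1 : F) * T (il e) (-1 : F) ∈ H := by
    intro x hx
    obtain ⟨n, hn'⟩ := htr e x he hx
    rw [← hn']
    exact hn n
  -- the product formula
  have hc : 2 < (Fintype.card F - 1) * m := by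
    have hq : 2 ≤ Fintype.card F := Fintype.one_lt_card
    rcases Nat.lt_or_ge 2 m with h3 | h2
    · have : 1 * 3 ≤ (Fintype.card F - 1) * m := Nat.mul_le_mul (by omega) h3
      omega
    · have hm2 : m = 2 := by omega
      have hq3 := hF hm2
      subst hm2
      have : 2 * 2 ≤ (Fintype.card F - 1) * 2 := Nat.mul_le_mul (by omega) le_rfl
      omega
  have htH : t ∈ H := by
    let D : Finset (Fin m → F) := Finset.univ.erase 0
    have h1 : (D.toList.map fun x => T (il x) (1 : F) * T (il e) (-1 : F)).prod ∈ H := by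
      apply Subgroup.list_prod_mem
      intro g hg
      obtain ⟨x, hx, rfl⟩ := List.mem_map.mp hg
      exact hz x (Finset.ne_of_mem_erase (Finset.mem_toList.mp hx))
    have h2 : (D.toList.map fun x => T (il x) (1 : F) * T (il e) (-1 : F)).prod = t := by
      apply Sp_ext
      intro v
      rw [prod_formula, Finset.sum_map_toList, T_smul, ω_il]
      have h3 : ∑ x ∈ D, ((-∑ i, x i * v (Sum.inr i)) • x + (∑ i, e i * v (Sum.inr i)) • e) =
          (-∑ i, e i * v (Sum.inr i)) • e := by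
        rw [Finset.sum_erase_eq_sub (Finset.mem_univ _), Finset.sum_add_distrib, Finset.sum_const, Finset.card_univ]
        have h4 : ∑ x : Fin m → F, (-∑ i, x i * v (Sum.inr i)) • x = 0 := by
          funext k
          simp only [Finset.sum_apply, Pi.smul_apply, smul_eq_mul, Pi.zero_apply, neg_mul, Finset.sum_neg_distrib, Finset.sum_mul]
          rw [Finset.sum_comm, neg_eq_zero]
          apply Finset.sum_eq_zero
          intro i _
          have h5 := sum_coord m hc i k
          calc ∑ x : Fin m → F, x i * v (Sum.inr i) * x k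
              = (∑ x : Fin m → F, x i * x k) * v (Sum.inr i) := by
                rw [Finset.sum_mul]
                exact Finset.sum_congr rfl fun x _ => by ring
            _ = 0 := by rw [h5, zero_mul]
        have h6 : (Fintype.card (Fin m → F)) • ((∑ i, e i * v (Sum.inr i)) • e) = 0 := by
          have h7 : ((Fintype.card (Fin m → F) : ℕ) : F) = 0 := by
            rw [Fintype.card_fun, Fintype.card_fin, Nat.cast_pow, Nat.cast_card_eq_zero, zero_pow (by omega)]
          rw [← Nat.cast_smul_eq_nsmul F, h7, zero_smul]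
        rw [h4, h6]
        simp
      rw [h3]
      funext i
      cases i with
      | inl i => simp [il]
      | inr i => simp [il]
    rwa [h2] at h1
  have hjH : j ∈ H := by
    have : j = t⁻¹ * (t * j) := by group
    rw [this]
    exact H.mul_mem (H.inv_mem htH) hbH
  have hT1 : ∀ x : Fin m → F, x ≠ 0 → T (il x) (1 : F) ∈ H := by
    intro x hx
    have h1 := H.mul_mem (hz x hx) htH
    rwa [mul_assoc, show T (il e) (-1 : F) * t = 1 by
      show T (il e) (-1 : F) * T (il e) (1 : F) = 1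
      rw [T_mul, neg_add_cancel, T_zero_right], mul_one] at h1
  have hTsq : ∀ (x : Fin m → F) (s : F), T (il x) (s ^ 2) ∈ H := by
    intro x s
    by_cases hs : s = 0
    · subst hs
      rw [show (0 : F) ^ 2 = 0 by ring, T_zero_right]
      exact H.one_mem
    by_cases hx : x = 0
    · subst hx
      rw [show il (0 : Fin m → F) = 0 by funext i; cases i <;> simp [il], T_zero_left]
      exact H.one_mem
    have h1 := hT1 (s • x) (smul_ne_zero hs hx)
    have h2 : il (s • x) = s • il x := by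
      funext i
      cases i <;> simp [il]
    rw [h2, T_smul_vec, mul_one] at h1
    exact h1
  have hTL : ∀ (x : Fin m → F) (c : F), T (il x) c ∈ H := by
    intro x c
    obtain ⟨s, r, rfl⟩ := sum_two_squares c
    rw [← T_mul]
    exact H.mul_mem (hTsq x s) (hTsq x r)
  have hTR : ∀ (y : Fin m → F) (c : F), T (ir y) c ∈ H := by
    intro y c
    have h1 : j • il (Q⁻¹ *ᵥ y) = ir y := by
      rw [hjil, mulVec_mulVec, hQ1, one_mulVec]
    rw [← h1, ← T_conj]
    exact H.mul_mem (H.mul_mem hjH (hTL _ c)) (H.inv_mem hjH)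
  -- all transvections
  have hω : ∀ x y : Fin m → F, ω (il x) (ir y) = -∑ i, x i * y i := by
    intro x y
    rw [ω_il]
    simp [ir]
  have hA' : ∀ (x y : Fin m → F), (∑ i, x i * y i) ≠ 0 → ∀ c : F, T (il x + ir y) c ∈ H := by
    intro x y hxy c
    have h1 : T (il x) (-(∑ i, x i * y i)⁻¹) • ir y = il x + ir y := by
      rw [T_smul, hω]
      have : -(∑ i, x i * y i)⁻¹ * -∑ i, x i * y i = 1 := by
        field_simp
      rw [this, one_smul, add_comm]
    rw [← h1, ← T_conj]
    exact H.mul_mem (H.mul_mem (hTL _ _) (hTR y c)) (H.inv_mem (hTL _ _))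
  have hall : ∀ (v : Fin (m) ⊕ Fin m → F) (c : F), T v c ∈ H := by
    intro v c
    let x : Fin m → F := fun i => v (Sum.inl i)
    let y : Fin m → F := fun i => v (Sum.inr i)
    have hv : v = il x + ir y := by
      funext i
      cases i <;> simp [il, ir, x, y]
    rw [hv]
    by_cases hy0 : y = 0
    · rw [hy0, show ir (0 : Fin m → F) = 0 by funext i; cases i <;> simp [ir], add_zero]
      exact hTL x c
    by_cases hxy : (∑ i, x i * y i) = 0
    · obtain ⟨i, hi⟩ : ∃ i, y i ≠ 0 := by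
        by_contra h
        push Not at h
        exact hy0 (funext h)
      let x₁ : Fin m → F := Pi.single i (y i)⁻¹
      have hx₁ : ∑ k, x₁ k * y k = 1 := by
        rw [Finset.sum_eq_single i]
        · simp [x₁, hi]
        · intro k _ hk
          simp [x₁, hk]
        · simp
      have hx₂ : ∑ k, (x - x₁) k * y k = -1 := by
        simp only [Pi.sub_apply, sub_mul]
        rw [Finset.sum_sub_distrib, hxy, hx₁]
        ring
      have h1 := hA' (x - x₁) y (by rw [hx₂]; simp) c
      have h2 : T (il x₁) (-1 : F) • (il (x - x₁) + ir y) = il x + ir y := by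
        rw [T_smul, ω_il]
        have h3 : ∑ k, x₁ k * (il (x - x₁) + ir y) (Sum.inr k) = 1 := by
          rw [← hx₁]
          refine Finset.sum_congr rfl fun k _ => ?_
          simp [il, ir]
        rw [h3]
        funext k
        cases k <;> simp [il, ir]
      rw [← h2, ← T_conj]
      exact H.mul_mem (H.mul_mem (hTL _ _) h1) (H.inv_mem (hTL _ _))
    · exact hA' x y hxy c
  rw [eq_top_iff, ← G_top (l := Fin m) (F := F), G]
  rw [Subgroup.closure_le]
  rintro g ⟨u, -, c, rfl⟩
  exact hall u c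

/-- The projective symplectic group `PSp_{2m}(q)` with `m ≥ 2` (and `q > 2` if `m = 2`) is generated by two of its elements. -/
theorem result {F : Type*} [Field F] [Fintype F] (m : ℕ) (hm : 2 ≤ m) (hF : m = 2 → 2 < Fintype.card F) :
    ∃ a b : Cfsg.PSp m F, Subgroup.closure ({a, b} : Set (Cfsg.PSp m F)) = ⊤ := by
  obtain ⟨a, b, hab⟩ := exists_gen (F := F) m hm hF
  refine ⟨QuotientGroup.mk a, QuotientGroup.mk b, ?_⟩
  have h := congrArg (Subgroup.map (QuotientGroup.mk' (Subgroup.center (Matrix.symplecticGroup (Fin m) F)))) hab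
  rw [MonoidHom.map_closure, Set.image_pair, Subgroup.map_top_of_surjective _ (QuotientGroup.mk'_surjective _)] at h
  exact h

end Cfsg.Agent.S2411
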