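import Cfsg.Statements.S2292
import Cfsg.Agent.Lib.PrsSpJ
import Cfsg.Agent.S2411

set_option autoImplicit false
open Cfsg

namespace Cfsg.Agent.S2292

/-- Let F be a finite field with q elements and m ≥ 2 with (m, q) ≠ (2, 2). Then the simple group PSp_2m(F) has a presentation with 2 generators and at most 80 relations. -/
theorem result {F : Type*} [Field F] [Fintype F] (m : ℕ) (hm : 2 ≤ m) (h22 : ¬ (m = 2 ∧ Fintype.card F = 2)) :
    ∃ rels : Finset (FreeGroup (Fin 2)), rels.card ≤ 80 ∧ Nonempty (PresentedGroup (↑rels : Set (FreeGroup (Fin 2))) ≃* Cfsg.PSp m F) := by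
  classical
  have hF : m = 2 → 2 < Fintype.card F := by
    intro h
    have h2 := Fintype.one_lt_card (α := F)
    have : Fintype.card F ≠ 2 := fun e => h22 ⟨h, e⟩
    omega
  obtain ⟨a, b, hab⟩ := Cfsg.Agent.S2411.result (F := F) m hm hF
  have gen : ∀ (k : ℕ) (R : Finset (FreeGroup (Fin k))), R.card ≤ 78 →
      Nonempty (PresentedGroup (R : Set (FreeGroup (Fin k))) ≃* Cfsg.PSp m F) →
      ∃ rels : Finset (FreeGroup (Fin 2)), rels.card ≤ 80 ∧
        Nonempty (PresentedGroup (↑rels : Set (FreeGroup (Fin 2))) ≃* Cfsg.PSp m F) := by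
    rintro k R hR ⟨e⟩
    obtain ⟨R', h1, h2⟩ := Cfsg.Agent.Lib.PrsPSLTwo.two_gen_pres R e a b hab
    exact ⟨R', by omega, h2⟩
  by_cases h2 : m = 2
  · subst h2
    obtain ⟨R, h, ⟨E⟩⟩ := Cfsg.Agent.Lib.PrsSp.sp_two (K := F)
    obtain ⟨R', h', hE'⟩ := Cfsg.Agent.Lib.PrsSp.psp_of_sp (by omega) R E
    exact gen _ R' (by omega) hE'
  · by_cases h3 : m = 3
    · subst h3
      obtain ⟨R, h, ⟨E⟩⟩ := Cfsg.Agent.Lib.PrsSp.sp_three (K := F)
      obtain ⟨R', h', hE'⟩ := Cfsg.Agent.Lib.PrsSp.psp_of_sp (by omega) R E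
      exact gen _ R' (by omega) hE'
    · obtain ⟨⟨RA, hA, ⟨eA⟩⟩, -⟩ := Cfsg.Agent.Lib.PrsSLn.main88 (F := F) m (by omega)
      obtain ⟨R, h, ⟨E⟩⟩ := Cfsg.Agent.Lib.PrsSp.sp_big (K := F) (n := m) (by omega) RA eA
      obtain ⟨R', h', hE'⟩ := Cfsg.Agent.Lib.PrsSp.psp_of_sp (by omega) R E
      exact gen _ R' (by omega) hE'

end Cfsg.Agent.S2292
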