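import Cfsg.Statements.S2296
import Cfsg.Agent.Lib.PrsSpJ

set_option autoImplicit false
open Cfsg

namespace Cfsg.Agent.S2296

/-- Let F be a finite field. Sp_2n(F) has a presentation with 10 generators and at most 58 relations for n ≥ 4, with 9 generators and at most 57 relations for n = 4 or 5, and with 8 generators and at most 52 relations for n = 3; in each case PSp_2n(F) has a presentation with the same number of generators and at most one more relation. -/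
theorem result {F : Type*} [Field F] [Fintype F] (n : ℕ) :
    (4 ≤ n → (∃ rels : Finset (FreeGroup (Fin 10)), rels.card ≤ 58 ∧ Nonempty (PresentedGroup (↑rels : Set (FreeGroup (Fin 10))) ≃* Matrix.symplecticGroup (Fin n) F)) ∧ (∃ rels : Finset (FreeGroup (Fin 10)), rels.card ≤ 59 ∧ Nonempty (PresentedGroup (↑rels : Set (FreeGroup (Fin 10))) ≃* Cfsg.PSp n F))) ∧
    ((n = 4 ∨ n = 5) → (∃ rels : Finset (FreeGroup (Fin 9)), rels.card ≤ 57 ∧ Nonempty (PresentedGroup (↑rels : Set (FreeGroup (Fin 9))) ≃* Matrix.symplecticGroup (Fin n) F)) ∧ (∃ rels : Finset (FreeGroup (Fin 9)), rels.card ≤ 58 ∧ Nonempty (PresentedGroup (↑rels : Set (FreeGroup (Fin 9))) ≃* Cfsg.PSp n F))) ∧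
    (n = 3 → (∃ rels : Finset (FreeGroup (Fin 8)), rels.card ≤ 52 ∧ Nonempty (PresentedGroup (↑rels : Set (FreeGroup (Fin 8))) ≃* Matrix.symplecticGroup (Fin n) F)) ∧ (∃ rels : Finset (FreeGroup (Fin 8)), rels.card ≤ 53 ∧ Nonempty (PresentedGroup (↑rels : Set (FreeGroup (Fin 8))) ≃* Cfsg.PSp n F))) := by
  refine ⟨fun hn => ?_, fun hn => ?_, fun hn => ?_⟩
  · obtain ⟨⟨RA, hA, ⟨eA⟩⟩, -⟩ := Cfsg.Agent.Lib.PrsSLn.main88 (F := F) n hn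
    obtain ⟨R, h, ⟨E⟩⟩ := Cfsg.Agent.Lib.PrsSp.sp_big (K := F) (n := n) (by omega) RA eA
    obtain ⟨R', h', hE'⟩ := Cfsg.Agent.Lib.PrsSp.psp_of_sp (by omega) R E
    exact ⟨⟨R, by omega, ⟨E⟩⟩, ⟨R', by omega, hE'⟩⟩
  · rcases hn with rfl | rfl
    · obtain ⟨-, -, ⟨RA, hA, ⟨eA⟩⟩, -⟩ := Cfsg.Agent.Lib.PrsSLn.main88 (F := F) 4 (le_refl 4)
      obtain ⟨R, h, ⟨E⟩⟩ := Cfsg.Agent.Lib.PrsSp.sp_big (K := F) (n := 4) (by omega) RA eA
      obtain ⟨R', h', hE'⟩ := Cfsg.Agent.Lib.PrsSp.psp_of_sp (by omega) R E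
      exact ⟨⟨R, by omega, ⟨E⟩⟩, ⟨R', by omega, hE'⟩⟩
    · obtain ⟨-, -, -, ⟨RA, hA, ⟨eA⟩⟩⟩ := Cfsg.Agent.Lib.PrsSLn.main88 (F := F) 4 (le_refl 4)
      obtain ⟨R, h, ⟨E⟩⟩ := Cfsg.Agent.Lib.PrsSp.sp_big (K := F) (n := 5) (by omega) RA eA
      obtain ⟨R', h', hE'⟩ := Cfsg.Agent.Lib.PrsSp.psp_of_sp (by omega) R E
      exact ⟨⟨R, by omega, ⟨E⟩⟩, ⟨R', by omega, hE'⟩⟩
  · subst hn
    obtain ⟨R, h, ⟨E⟩⟩ := Cfsg.Agent.Lib.PrsSp.sp_three (K := F)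
    obtain ⟨R', h', hE'⟩ := Cfsg.Agent.Lib.PrsSp.psp_of_sp (by omega) R E
    exact ⟨⟨R, by omega, ⟨E⟩⟩, ⟨R', by omega, hE'⟩⟩

end Cfsg.Agent.S2296
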