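import Mathlib
import Cfsg.Statements.S2333
import Cfsg.Agent.Lib.SpEvenMinDeg6

set_option autoImplicit false
open Cfsg

namespace Cfsg.Agent.S2333

/-- For a finite field F of even order q and n ≥ 2 with (n, q) ≠ (2, 2), every irreducible complex representation of the symplectic group Sp_{2n}(F) of degree at least 2 has degree at least (q^n − 1)(q^n − q)/(2(q + 1)). -/
theorem result {F : Type*} [Field F] [Fintype F] [DecidableEq F] (n : ℕ) (hn : 2 ≤ n) (heven : Even (Fintype.card F)) (hex : (n, Fintype.card F) ≠ (2, 2)) :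
    (∀ (k : ℕ) (ρ : Representation ℂ (Matrix.symplecticGroup (Fin n) F) (Fin k → ℂ)), ρ.IsIrreducible → 2 ≤ k → (Fintype.card F ^ n - 1) * (Fintype.card F ^ n - Fintype.card F) / (2 * (Fintype.card F + 1)) ≤ k) := by
  intro k ρ hρ hk
  have hchar : ringChar F = 2 := FiniteField.even_card_iff_char_two.2 (Nat.even_iff.1 heven)
  haveI : CharP F 2 := by
    rw [← hchar]
    exact ringChar.charP F
  have h1 := Cfsg.Agent.Lib.SpEvenMinDeg.sp_even_min_degree (F := F) (n := n) (by omega) k ρ hρ hk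
  obtain ⟨d, rfl⟩ : ∃ d, n = d + 1 := ⟨n - 1, by omega⟩
  have hq : 1 ≤ Fintype.card F := Fintype.card_pos
  rw [← Cfsg.Agent.Lib.SpEvenMinDeg.dbl_formula hq d]
  apply Nat.div_le_of_le_mul
  nlinarith

end Cfsg.Agent.S2333
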