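import Mathlib
import Cfsg.Statements.S2334
import Cfsg.Agent.Lib.SUMinDeg7

set_option autoImplicit false
open Cfsg

namespace Cfsg.Agent.S2334

/-- For odd n ≥ 3 and a finite field F with q² elements, (n, q) ≠ (3, 2), every irreducible complex representation of the special unitary group SU_n(q) (the determinant-one isometries of the standard Hermitian form over F) of degree at least 2 has degree at least (q^n − q)/(q + 1). -/
theorem result {F : Type*} [Field F] [Fintype F] [DecidableEq F] (n q : ℕ) (hn : 3 ≤ n) (hodd : Odd n) (hF : Fintype.card F = q ^ 2) (hex : (n, q) ≠ (3, 2)) :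
    (∀ (k : ℕ) (ρ : Representation ℂ (Cfsg.SU n F q) (Fin k → ℂ)), ρ.IsIrreducible → 2 ≤ k → (q ^ n - q) / (q + 1) ≤ k) := by
  intro k ρ hρ hk
  have hq2 : 2 ≤ q := Cfsg.Agent.Lib.FFNorm.two_le hF
  rw [Cfsg.Agent.Lib.SUMinDeg.div_eq_tgt_odd (by omega) hodd]
  refine Cfsg.Agent.Lib.SUMinDeg.su_min_degree hF hn ?_ k ρ hρ hk
  rintro ⟨rfl, rfl⟩
  exact hex rfl

end Cfsg.Agent.S2334
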