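import Mathlib
import Cfsg.Statements.S2336
import Cfsg.Agent.Lib.SLPerm

set_option autoImplicit false
open Cfsg

namespace Cfsg.Agent.S2336

open Cfsg.Agent.Lib.SLPerm

/-- Let F be a finite field with q elements and n ≥ 3. The permutation character of SL_n(F) on the non-zero vectors of F^n (the function sending a matrix to the number of non-zero vectors it fixes) is the sum of the principal character and q − 1 pairwise distinct irreducible complex characters. -/
theorem result {F : Type*} [Field F] [Fintype F] [DecidableEq F] (n : ℕ) (hn : 3 ≤ n) :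
    ∃ χ : Fin (Fintype.card F - 1) → (Matrix.SpecialLinearGroup (Fin n) F → ℂ),
      (∀ i, Cfsg.IsIrrCharacter (Matrix.SpecialLinearGroup (Fin n) F) (χ i)) ∧ Function.Injective χ ∧
      ∀ g : Matrix.SpecialLinearGroup (Fin n) F,
        (Nat.card {v : Fin n → F // v ≠ 0 ∧ (g : Matrix (Fin n) (Fin n) F).mulVec v = v} : ℂ) = 1 + ∑ i, χ i g := by
  classical
  have hcard : Fintype.card (MulChar F ℂ) = Fintype.card F - 1 := by
    rw [card_mulChar, Fintype.card_units F]
  let e : Fin (Fintype.card F - 1) ≃ MulChar F ℂ := (Fintype.equivFinOfCardEq hcard).symm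
  refine ⟨fun i => chi (e i), fun i => chi_isIrr hn _, ?_, ?_⟩
  · intro i j h
    exact e.injective (chi_injective hn h)
  · intro g
    rw [fix_one_eq, perm_eq]
    congr 1
    exact (Fintype.sum_equiv e (fun i => chi (e i) g) (fun χ => chi χ g) (fun i => rfl)).symm

end Cfsg.Agent.S2336
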