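import Mathlib
import Cfsg.Statements.S2337
import Cfsg.Agent.Lib.SzMinDeg
import Cfsg.Agent.Lib.CharBasic

set_option autoImplicit false
open Cfsg

namespace Cfsg.Agent.S2337

open Cfsg.Agent.Lib.SuzukiBasic Cfsg.Agent.Lib.Suzuki Cfsg.Agent.Lib.Suzuki2
  Cfsg.Agent.Lib.Suzuki3 Cfsg.Agent.Lib.Suzuki4 Cfsg.Agent.Lib.SuzukiMax Cfsg.Agent.Lib.SzMinDeg
  Cfsg.Agent.Lib.SuzukiIso

/-- For the Suzuki group Sz(q), q = 2^(2m+1) with m ≥ 1 (realised inside Sp₄ over the field with q elements), every irreducible complex representation of degree at least 2 has degree at least 2^m·(q − 1). -/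
theorem result {F : Type*} [Field F] [Fintype F] (m : ℕ) (hm : 1 ≤ m) (hF : Fintype.card F = 2 ^ (2 * m + 1)) :
    (∀ (k : ℕ) (ρ : Representation ℂ (Cfsg.Lie.Sz F (2 ^ (m + 1))) (Fin k → ℂ)), ρ.IsIrreducible → 2 ≤ k → 2 ^ m * (2 ^ (2 * m + 1) - 1) ≤ k) := by
  classical
  intro k ρ hρ hk
  have : SzHyp F m := ⟨hm, hF⟩
  have : CharP F 2 := charP_two F m
  let σ : Sz F m →* Module.End ℂ (Fin k → ℂ) := (ρ : _ →* _).comp (szEquiv (F := F) (m := m)).toMonoidHom
  let τ : Sz F m →* Matrix (Fin k) (Fin k) ℂ :=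
    ((Matrix.toLinAlgEquiv' (R := ℂ) (n := Fin k)).symm.toAlgHom.toRingHom.toMonoidHom).comp σ
  by_cases h : ∃ b : F, τ (tt 0 b) ≠ 1
  · exact main_bound τ h
  · exfalso
    push Not at h
    have hσ : ∀ g, τ g = 1 → σ g = 1 := by
      intro g hg
      have h1 : (Matrix.toLinAlgEquiv' (R := ℂ) (n := Fin k)).symm (σ g) =
          (Matrix.toLinAlgEquiv' (R := ℂ) (n := Fin k)).symm 1 := by
        rw [map_one]
        exact hg
      exact (Matrix.toLinAlgEquiv' (R := ℂ) (n := Fin k)).symm.injective h1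
    have hN : σ.ker = ⊤ := normal_eq_top σ.ker (fun b => hσ _ (h b))
    have htriv : ∀ g, ρ g = 1 := by
      intro g
      obtain ⟨g', rfl⟩ := (szEquiv (F := F) (m := m)).surjective g
      have h1 : g' ∈ σ.ker := by
        rw [hN]
        exact Subgroup.mem_top _
      exact h1
    obtain ⟨_, hirr⟩ := (Cfsg.Agent.Lib.CharBasic.isIrreducible_iff ρ).1 hρ
    let i0 : Fin k := ⟨0, by omega⟩
    let i1 : Fin k := ⟨1, by omega⟩
    have hi : i1 ≠ i0 := by simp [i0, i1, Fin.ext_iff]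
    let U : Submodule ℂ (Fin k → ℂ) := Submodule.span ℂ {Pi.single i0 1}
    have hU : ∀ g, ∀ v ∈ U, ρ g v ∈ U := by
      intro g v hv
      rw [htriv g]
      exact hv
    rcases hirr U hU with h1 | h1
    · have h2 : (Pi.single i0 1 : Fin k → ℂ) ∈ U := Submodule.mem_span_singleton_self _
      rw [h1, Submodule.mem_bot] at h2
      have h3 := congrFun h2 i0
      simp at h3
    · have h2 : (Pi.single i1 1 : Fin k → ℂ) ∈ U := by
        rw [h1]
        exact Submodule.mem_top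
      obtain ⟨c, hc⟩ := Submodule.mem_span_singleton.1 h2
      have h3 := congrFun hc i1
      simp [Pi.single_apply, hi] at h3

end Cfsg.Agent.S2337
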