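import Mathlib
-- Template for statement S2343 (row 2343; see /opt/grader/pristine/manifest.json for weights).
-- Copy to Cfsg/Agent/S2343.lean and replace the sorry. The statement below is byte-identical to the frozen
-- statement Cfsg.CfsgFrozen.S2343 (Cfsg/Statements/S2343.lean; the theorem Cfsg.cmax4_small_ree_group_min_irreducible_degree);
-- the grader kernel-checks Cfsg.Agent.S2343.result against that frozen type. Keep the theorem IN THIS FILE
-- (a `result` declared elsewhere and merely imported here is not credited); helpers may live anywhere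
-- under Cfsg/Agent/.
import Cfsg.Statements.S2343
import Cfsg.Agent.Lib.Chev.TwG2L

set_option autoImplicit false
open Cfsg

namespace Cfsg.Agent.S2343

/-- For the Ree group ²G₂(q), q = 3^(2m+1) with m ≥ 1 (realised over the field with q elements), every irreducible complex representation of degree at least 2 has degree at least q² − q + 1. -/
theorem result {K : Type*} [Field K] [Fintype K] (m : ℕ) (hm : 1 ≤ m) (hK : Fintype.card K = 3 ^ (2 * m + 1)) :
    (∀ (k : ℕ) (ρ : Representation ℂ (Cfsg.Lie.twistedG2 K (3 ^ m)) (Fin k → ℂ)), ρ.IsIrreducible → 2 ≤ k → (3 ^ (2 * m + 1)) ^ 2 - 3 ^ (2 * m + 1) + 1 ≤ k) := by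
  exact Cfsg.Agent.Lib.Chev.TwG2.main_S2343 m hm hK

end Cfsg.Agent.S2343
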