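import Mathlib
import Cfsg.Statements.S2345
import Cfsg.Agent.Lib.OMinI

set_option autoImplicit false
open Cfsg

namespace Cfsg.Agent.S2345

open Cfsg.Agent.Lib.OMinH Cfsg.Agent.Lib.OMinI Cfsg.Agent.Lib.OrthoCount Cfsg.Agent.Lib.OrthoSiegel
  Cfsg.Agent.Lib.OrthoBasic

/-- For a finite field F with q > 3 elements and n ≥ 4, every irreducible complex representation of degree at least 2 of Ω⁺_{2n}(F) (the commutator subgroup of the isometry group of the hyperbolic quadratic form x₁y₁ + ⋯ + x_ny_n) has degree at least (q^n − 1)(q^{n−1} + q)/(q² − 1). -/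
theorem result {F : Type*} [Field F] [Fintype F] (n : ℕ) (hn : 4 ≤ n) (h3 : 3 < Fintype.card F) :
    (∀ (k : ℕ) (ρ : Representation ℂ (Cfsg.Omega F (Cfsg.quadFormPlus n F)) (Fin k → ℂ)), ρ.IsIrreducible → 2 ≤ k → (Fintype.card F ^ n - 1) * (Fintype.card F ^ (n - 1) + Fintype.card F) / (Fintype.card F ^ 2 - 1) ≤ k) := by
  intro k ρ hρ hk
  obtain ⟨m, rfl⟩ : ∃ m, n = m + 3 := ⟨n - 3, by omega⟩
  obtain ⟨D, hD, hmd⟩ := minDeg_plus (F := F) h3 m
  let e : Cfsg.Omega F (Cfsg.quadFormPlus (m + 3) F) ≃* siegelE (qPlus (m + 3) F) :=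
    (commEquiv (isoOG (Cfsg.quadFormPlus (m + 3) F) (qPlus (m + 3) F) (fun v => (qPlus_apply _ v).symm))).trans
      (MulEquiv.subgroupCongr (hE_qPlus m))
  have hmd' := hmd.of_equiv e.symm
  have hle := hmd' k ρ hρ (Cfsg.Agent.Lib.SLMinC.nontriv_of_two_le hk ρ hρ)
  have hq : 4 ≤ Fintype.card F := h3
  set q := Fintype.card F with hqdef
  have hqq : 1 ≤ q ^ 2 := Nat.one_le_pow _ _ (by omega)
  have hqm : 1 ≤ q ^ (m + 3) := Nat.one_le_pow _ _ (by omega)
  have hpos : 0 < q ^ 2 - 1 := by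
    have : 16 ≤ q ^ 2 := by nlinarith
    omega
  have heq : (q ^ (m + 3) - 1) * (q ^ (m + 3 - 1) + q) = (q ^ 2 - 1) * D := by
    zify [hqq, hqm]
    rw [hD, show m + 3 - 1 = m + 2 by omega]
    ring
  rw [heq, Nat.mul_div_cancel_left _ hpos]
  exact hle

end Cfsg.Agent.S2345
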