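import Mathlib
import Cfsg.Statements.S2346
import Cfsg.Agent.Lib.OMinus44H

set_option autoImplicit false
open Cfsg

namespace Cfsg.Agent.S2346

open Cfsg.Agent.Lib.OMinH Cfsg.Agent.Lib.OMinus44H Cfsg.Agent.Lib.OrthoCount Cfsg.Agent.Lib.OrthoSiegel
  Cfsg.Agent.Lib.OrthoBasic

/-- For a finite field F with q elements, n ≥ 4, and a, b ∈ F with z₁² + a z₁z₂ + b z₂² anisotropic, every irreducible complex representation of degree at least 2 of Ω⁻_{2n}(F) (the commutator subgroup of the isometry group of x₁y₁ + ⋯ + x_{n−1}y_{n−1} + z₁² + a z₁z₂ + b z₂²) has degree at least (q^n + 1)(q^{n−1} − q)/(q² − 1). -/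
theorem result {F : Type*} [Field F] [Fintype F] (n : ℕ) (hn : 4 ≤ n) (a b : F) (hab : ∀ z₁ z₂ : F, z₁ ^ 2 + a * z₁ * z₂ + b * z₂ ^ 2 = 0 → z₁ = 0 ∧ z₂ = 0) :
    (∀ (k : ℕ) (ρ : Representation ℂ (Cfsg.Omega F (Cfsg.quadFormMinus (n - 1) F a b)) (Fin k → ℂ)), ρ.IsIrreducible → 2 ≤ k → (Fintype.card F ^ n + 1) * (Fintype.card F ^ (n - 1) - Fintype.card F) / (Fintype.card F ^ 2 - 1) ≤ k) := by
  intro k ρ hρ hk
  obtain ⟨m, rfl⟩ : ∃ m, n = m + 4 := ⟨n - 4, by omega⟩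
  obtain ⟨T, hT, hmd⟩ := minDeg_minus a b hab m
  let e : Cfsg.Omega F (Cfsg.quadFormMinus (m + 3) F a b) ≃* siegelE (qMinus (m + 3) a b) :=
    (commEquiv (isoOG (Cfsg.quadFormMinus (m + 3) F a b) (qMinus (m + 3) a b)
      (fun v => (qMinus_apply _ a b v).symm))).trans
      (MulEquiv.subgroupCongr (hE_minus a b hab (m + 1)))
  have hmd' := hmd.of_equiv e.symm
  have hle : T ≤ k := hmd' k ρ hρ (Cfsg.Agent.Lib.SLMinC.nontriv_of_two_le hk ρ hρ)
  have hq2 : 2 ≤ Fintype.card F := Fintype.one_lt_card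
  set q := Fintype.card F with hqdef
  have hqq : 1 ≤ q ^ 2 := Nat.one_le_pow _ _ (by omega)
  have hpos : 0 < q ^ 2 - 1 := by
    have : 4 ≤ q ^ 2 := by nlinarith
    omega
  have hqm : q ≤ q ^ (m + 3) := Nat.le_self_pow (by omega) _
  have heq : (q ^ (m + 4) + 1) * (q ^ (m + 4 - 1) - q) = (q ^ 2 - 1) * T := by
    have hn1 : m + 4 - 1 = m + 3 := by omega
    rw [hn1]
    zify [hqq, hqm]
    rw [hT]
    ring
  rw [heq, Nat.mul_div_cancel_left _ hpos]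
  exact hle

end Cfsg.Agent.S2346
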