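import Mathlib
import Cfsg.Statements.S2347
import Cfsg.Agent.Lib.SpOddLower

set_option autoImplicit false
open Cfsg

namespace Cfsg.Agent.S2347

lemma two_ne {F : Type*} [Field F] [Fintype F] (hodd : Odd (Fintype.card F)) : (2 : F) ≠ 0 := by
  intro h
  have h1 : CharP F 2 := CharTwo.of_one_ne_zero_of_two_eq_zero one_ne_zero h
  have h3 : ringChar F = 2 := ringChar.eq F 2
  have h4 := FiniteField.even_card_iff_char_two.1 h3
  obtain ⟨c, hc⟩ := hodd
  omega

/-- Smallest degree of a non-linear irreducible complex representation of the symplectic group Sp_{2n} over a finite field of odd order q, n ≥ 2: every irreducible complex representation of degree at least 2 has degree at least (q^n − 1)/2, and there is an irreducible complex representation of exactly that degree (a Weil representation). -/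
theorem result {F : Type*} [Field F] [Fintype F] [DecidableEq F] (n : ℕ) (hn : 2 ≤ n) (hodd : Odd (Fintype.card F)) :
    (∀ (k : ℕ) (ρ : Representation ℂ (Matrix.symplecticGroup (Fin n) F) (Fin k → ℂ)), ρ.IsIrreducible → 2 ≤ k → (Fintype.card F ^ n - 1) / 2 ≤ k) ∧
    (∃ ρ : Representation ℂ (Matrix.symplecticGroup (Fin n) F) (Fin ((Fintype.card F ^ n - 1) / 2) → ℂ), ρ.IsIrreducible) := by
  have h2 := two_ne (F := F) hodd
  exact ⟨fun k ρ hρ hk => Cfsg.Agent.Lib.SpOddLower.sp_odd_min_degree (by omega) h2 k ρ hρ hk,
    Cfsg.Agent.Lib.WeilOdd.exists_odd_irr hn h2⟩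

end Cfsg.Agent.S2347
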