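import Mathlib
import Cfsg.Statements.S2354

set_option autoImplicit false
open Cfsg

namespace Cfsg.Agent.S2354

open Polynomial Matrix

/-! ### Ping-pong on degrees -/

@[ext] structure V4 (R : Type*) where
  a : R
  b : R
  c : R
  d : R

/-- Coordinate reversal. -/
def rev {R : Type*} (v : V4 R) : V4 R := ⟨v.d, v.c, v.b, v.a⟩

lemma rev_rev {R : Type*} (v : V4 R) : rev (rev v) = v := rfl

section ping

variable {F : Type*} [Field F] [CharP F 2] {e : ℕ}

/-- The upper root element acting on vectors. -/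
noncomputable def uOp (e : ℕ) (h : F[X]) (v : V4 F[X]) : V4 F[X] :=
  ⟨v.a + h * v.c + h ^ e * v.d, v.b + h * v.d, v.c, v.d⟩

/-- The lower root element acting on vectors. -/
noncomputable def lOp (e : ℕ) (h : F[X]) (v : V4 F[X]) : V4 F[X] := rev (uOp e h (rev v))

/-- Coordinate `d` weakly dominates. -/
def LeU (v : V4 F[X]) : Prop :=
  v.d ≠ 0 ∧ v.a.degree ≤ v.d.degree ∧ v.b.degree ≤ v.d.degree ∧ v.c.degree ≤ v.d.degree

/-- Coordinate `a` strictly dominates. -/
def LtL (v : V4 F[X]) : Prop :=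
  v.a ≠ 0 ∧ v.d.degree < v.a.degree ∧ v.b.degree < v.a.degree ∧ v.c.degree < v.a.degree

/-- Coordinate `a` weakly dominates. -/
def LeL (v : V4 F[X]) : Prop := LeU (rev v)

/-- Coordinate `d` strictly dominates. -/
def LtU (v : V4 F[X]) : Prop := LtL (rev v)

lemma leU_of_ltU {v : V4 F[X]} (h : LtU v) : LeU v := by
  obtain ⟨h0, h1, h2, h3⟩ := h
  exact ⟨h0, h1.le, h3.le, h2.le⟩

lemma leL_of_ltL {v : V4 F[X]} (h : LtL v) : LeL v := by
  obtain ⟨h0, h1, h2, h3⟩ := h
  exact ⟨h0, h1.le, h3.le, h2.le⟩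

lemma uOp_lt (he : 2 ≤ e) {k : F[X]} (hk : 0 < k.degree) {v : V4 F[X]} (hv : LeU v) :
    LtL (uOp e k v) := by
  obtain ⟨h0, h1, h2, h3⟩ := hv
  have hk0 : k ≠ 0 := by
    rintro rfl
    simp at hk
  have hK : 1 ≤ k.natDegree := by
    rw [degree_eq_natDegree hk0] at hk
    exact_mod_cast hk
  rw [degree_eq_natDegree h0] at h1 h2 h3
  set D := v.d.natDegree with hD
  have hT : (k ^ e * v.d).degree = ((e * k.natDegree + D : ℕ) : WithBot ℕ) := by
    rw [degree_mul, degree_pow, degree_eq_natDegree hk0, degree_eq_natDegree h0]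
    simp only [nsmul_eq_mul]
    push_cast
    rfl
  have hkm : ∀ z : F[X], z.degree ≤ (D : WithBot ℕ) → (k * z).degree ≤ ((k.natDegree + D : ℕ) : WithBot ℕ) := by
    intro z hz
    rw [degree_mul, degree_eq_natDegree hk0]
    push_cast
    exact add_le_add le_rfl hz
  have hlt : k.natDegree + D < e * k.natDegree + D := by nlinarith
  have hlt' : D < e * k.natDegree + D := by nlinarith
  have cast_lt : ∀ {x y : ℕ}, x < y → (x : WithBot ℕ) < (y : WithBot ℕ) := fun h => by exact_mod_cast h
  have hR : (v.a + k * v.c).degree < (k ^ e * v.d).degree := by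
    rw [hT]
    refine lt_of_le_of_lt (degree_add_le _ _) (max_lt ?_ ?_)
    · exact lt_of_le_of_lt h1 (cast_lt hlt')
    · exact lt_of_le_of_lt (hkm _ h3) (cast_lt hlt)
  have ha : (uOp e k v).a.degree = ((e * k.natDegree + D : ℕ) : WithBot ℕ) := by
    change (v.a + k * v.c + k ^ e * v.d).degree = _
    rw [degree_add_eq_right_of_degree_lt hR, hT]
  refine ⟨?_, ?_, ?_, ?_⟩
  · intro h
    rw [h, degree_zero] at ha
    exact WithBot.bot_ne_natCast _ ha
  · rw [ha]
    change v.d.degree < _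
    rw [degree_eq_natDegree h0]
    exact cast_lt hlt'
  · rw [ha]
    change (v.b + k * v.d).degree < _
    refine lt_of_le_of_lt (degree_add_le _ _) (max_lt ?_ ?_)
    · exact lt_of_le_of_lt h2 (cast_lt hlt')
    · exact lt_of_le_of_lt (hkm _ (degree_eq_natDegree h0).le) (cast_lt hlt)
  · rw [ha]
    exact lt_of_le_of_lt h3 (cast_lt hlt')

lemma lOp_lt (he : 2 ≤ e) {k : F[X]} (hk : 0 < k.degree) {v : V4 F[X]} (hv : LeL v) :
    LtU (lOp e k v) := by
  have := uOp_lt he hk hv
  exact this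

variable (hadd : ∀ x y : F[X], (x + y) ^ e = x ^ e + y ^ e)

include hadd in
lemma uOp_uOp (h k : F[X]) (v : V4 F[X]) : uOp e h (uOp e k v) = uOp e (h + k) v := by
  simp only [uOp, hadd]
  ext1 <;> simp only <;> ring

include hadd in
lemma lOp_lOp (h k : F[X]) (v : V4 F[X]) : lOp e h (lOp e k v) = lOp e (h + k) v := by
  simp only [lOp, rev_rev]
  rw [uOp_uOp hadd]

lemma add_self' (h : F[X]) : h + h = 0 := CharTwo.add_self_eq_zero h

lemma uOp_zero (he : 2 ≤ e) (v : V4 F[X]) : uOp e 0 v = v := by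
  have h0 : (0 : F[X]) ^ e = 0 := zero_pow (by omega)
  simp [uOp, h0]

lemma lOp_zero (he : 2 ≤ e) (v : V4 F[X]) : lOp e 0 v = v := by
  simp only [lOp, uOp_zero he, rev_rev]

include hadd in
lemma uOp_self (he : 2 ≤ e) (h : F[X]) (v : V4 F[X]) : uOp e h (uOp e h v) = v := by
  rw [uOp_uOp hadd, add_self', uOp_zero he]

include hadd in
lemma lOp_self (he : 2 ≤ e) (h : F[X]) (v : V4 F[X]) : lOp e h (lOp e h v) = v := by
  rw [lOp_lOp hadd, add_self', lOp_zero he]

/-- The parameter of the `i`-th generator. -/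
noncomputable def hh (i : ℕ) : F[X] := X ^ (i + 1)

lemma hh_pos (i : ℕ) : 0 < (hh i : F[X]).degree := by
  rw [hh, degree_X_pow]
  exact_mod_cast Nat.succ_pos i

lemma hh_add_pos {i j : ℕ} (h : i ≠ j) : 0 < (hh i + hh j : F[X]).degree := by
  rcases lt_or_gt_of_ne h with h1 | h1
  · have h2 : (hh i : F[X]).degree < (hh j : F[X]).degree := by
      simp only [hh, degree_X_pow]
      norm_cast
      omega
    rw [degree_add_eq_right_of_degree_lt h2]
    exact hh_pos j
  · have h2 : (hh j : F[X]).degree < (hh i : F[X]).degree := by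
      simp only [hh, degree_X_pow]
      norm_cast
      omega
    rw [degree_add_eq_left_of_degree_lt h2]
    exact hh_pos i

/-- The action of a letter. -/
noncomputable def act (e : ℕ) (x : ℕ × Bool) (v : V4 F[X]) : V4 F[X] :=
  if x.2 then uOp e (hh x.1) (lOp e (hh x.1) v) else lOp e (hh x.1) (uOp e (hh x.1) v)

/-- The invariant attached to the last applied letter. -/
def Inv (e : ℕ) (x : ℕ × Bool) (v : V4 F[X]) : Prop :=
  if x.2 then LeU (uOp e (hh x.1) v) else LeL (lOp e (hh x.1) v)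

include hadd in
lemma inv_act_true (he : 2 ≤ e) {i : ℕ} {v : V4 F[X]} (hv : LeU (lOp e (hh i) v)) :
    Inv e (i, true) (act e (i, true) v) := by
  simp only [Inv, act, if_true]
  rw [uOp_self hadd he]
  exact hv

include hadd in
lemma inv_act_false (he : 2 ≤ e) {i : ℕ} {v : V4 F[X]} (hv : LeL (uOp e (hh i) v)) :
    Inv e (i, false) (act e (i, false) v) := by
  simp only [Inv, act, Bool.false_eq_true, if_false]
  rw [lOp_self hadd he]
  exact hv

include hadd in
lemma lt_of_inv_true (he : 2 ≤ e) {i : ℕ} {v : V4 F[X]} (h : Inv e (i, true) v) : LtL v := by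
  have h1 : LeU (uOp e (hh i) v) := by simpa [Inv] using h
  have h2 := uOp_lt he (hh_pos i) h1
  rwa [uOp_self hadd he] at h2

include hadd in
lemma lt_of_inv_false (he : 2 ≤ e) {i : ℕ} {v : V4 F[X]} (h : Inv e (i, false) v) : LtU v := by
  have h1 : LeL (lOp e (hh i) v) := by simpa [Inv] using h
  have h2 := lOp_lt he (hh_pos i) h1
  rwa [lOp_self hadd he] at h2

include hadd in
/-- The invariant goes through one more letter. -/
lemma inv_step (he : 2 ≤ e) {x y : ℕ × Bool} (hxy : x.1 = y.1 → x.2 = y.2) {v : V4 F[X]}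
    (hv : Inv e y v) : Inv e x (act e x v) := by
  obtain ⟨j, b'⟩ := x
  obtain ⟨i, b⟩ := y
  cases b' with
  | true =>
    apply inv_act_true hadd he
    cases b with
    | true => exact leU_of_ltU (lOp_lt he (hh_pos j) (leL_of_ltL (lt_of_inv_true hadd he hv)))
    | false =>
      have hne : j ≠ i := by
        intro h
        simpa using hxy h
      have h1 : LeL (lOp e (hh i) v) := by simpa [Inv] using hv
      have h2 := lOp_lt he (hh_add_pos hne) h1
      rw [← lOp_lOp hadd, lOp_self hadd he] at h2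
      exact leU_of_ltU h2
  | false =>
    apply inv_act_false hadd he
    cases b with
    | false => exact leL_of_ltL (uOp_lt he (hh_pos j) (leU_of_ltU (lt_of_inv_false hadd he hv)))
    | true =>
      have hne : j ≠ i := by
        intro h
        simpa using (hxy h).symm
      have h1 : LeU (uOp e (hh i) v) := by simpa [Inv] using hv
      have h2 := uOp_lt he (hh_add_pos hne) h1
      rw [← uOp_uOp hadd, uOp_self hadd he] at h2
      exact leL_of_ltL h2

/-- The starting vector. -/
noncomputable def v0 : V4 F[X] := ⟨1, 0, 0, 1⟩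

lemma leU_v0 : LeU (v0 : V4 F[X]) := by
  refine ⟨one_ne_zero, le_rfl, ?_, ?_⟩ <;> simp [v0]

lemma leL_v0 : LeL (v0 : V4 F[X]) := by
  refine ⟨one_ne_zero, le_rfl, ?_, ?_⟩ <;> simp [v0, rev]

/-- The vector after a whole word. -/
noncomputable def wordVec (e : ℕ) : List (ℕ × Bool) → V4 F[X]
  | [] => v0
  | x :: L => act e x (wordVec e L)

include hadd in
lemma wordVec_inv (he : 2 ≤ e) : ∀ (x : ℕ × Bool) (L : List (ℕ × Bool)), FreeGroup.IsReduced (x :: L) →
    Inv e x (wordVec e (x :: L) : V4 F[X])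
  | (i, true), [], _ => by
    apply inv_act_true hadd he
    exact leU_of_ltU (lOp_lt he (hh_pos i) leL_v0)
  | (i, false), [], _ => by
    apply inv_act_false hadd he
    exact leL_of_ltL (uOp_lt he (hh_pos i) leU_v0)
  | x, y :: L, hred => by
    rw [FreeGroup.IsReduced, List.isChain_cons_cons] at hred
    exact inv_step hadd he hred.1 (wordVec_inv he y L hred.2)

include hadd in
/-- After a non-empty reduced word, the first and last coordinates are different. -/
lemma wordVec_ne (he : 2 ≤ e) {L : List (ℕ × Bool)} (hL : FreeGroup.IsReduced L) (hne : L ≠ []) :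
    (wordVec e L : V4 F[X]).a ≠ (wordVec e L : V4 F[X]).d := by
  obtain ⟨⟨i, b⟩, L', rfl⟩ := List.exists_cons_of_ne_nil hne
  have h := wordVec_inv (F := F) hadd he (i, b) L' hL
  cases b with
  | true =>
    obtain ⟨_, h1, _, _⟩ := lt_of_inv_true hadd he h
    intro h2
    rw [h2] at h1
    exact lt_irrefl _ h1
  | false =>
    obtain ⟨_, h1, _, _⟩ := lt_of_inv_false hadd he h
    intro h2
    change (wordVec e ((i, false) :: L')).a.degree < (wordVec e ((i, false) :: L')).d.degree at h1
    rw [h2] at h1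
    exact lt_irrefl _ h1

/-! ### Degree bound -/

/-- All coordinates have degree at most `n`. -/
def Bdd (n : ℕ) (v : V4 F[X]) : Prop :=
  v.a.natDegree ≤ n ∧ v.b.natDegree ≤ n ∧ v.c.natDegree ≤ n ∧ v.d.natDegree ≤ n

lemma bdd_uOp {n k : ℕ} (he : 2 ≤ e) {h : F[X]} (hh' : h.natDegree ≤ k) {v : V4 F[X]} (hv : Bdd n v) :
    Bdd (n + e * k) (uOp e h v) := by
  obtain ⟨h1, h2, h3, h4⟩ := hv
  have hk : k ≤ e * k := by nlinarith
  have hm : ∀ z : F[X], z.natDegree ≤ n → (h * z).natDegree ≤ n + e * k := by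
    intro z hz
    refine natDegree_mul_le.trans ?_
    omega
  have hp : (h ^ e * v.d).natDegree ≤ n + e * k := by
    refine natDegree_mul_le.trans ?_
    have : (h ^ e).natDegree ≤ e * k := by
      refine natDegree_pow_le.trans ?_
      exact Nat.mul_le_mul_left _ hh'
    omega
  refine ⟨?_, ?_, by change v.c.natDegree ≤ _; omega, by change v.d.natDegree ≤ _; omega⟩
  · change (v.a + h * v.c + h ^ e * v.d).natDegree ≤ _
    refine (natDegree_add_le _ _).trans (max_le ?_ hp)
    refine (natDegree_add_le _ _).trans (max_le (by omega) (hm _ h3))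
  · change (v.b + h * v.d).natDegree ≤ _
    refine (natDegree_add_le _ _).trans (max_le (by omega) (hm _ h4))

lemma bdd_rev {n : ℕ} {v : V4 F[X]} (hv : Bdd n v) : Bdd n (rev v) := by
  obtain ⟨h1, h2, h3, h4⟩ := hv
  exact ⟨h4, h3, h2, h1⟩

lemma bdd_lOp {n k : ℕ} (he : 2 ≤ e) {h : F[X]} (hh' : h.natDegree ≤ k) {v : V4 F[X]} (hv : Bdd n v) :
    Bdd (n + e * k) (lOp e h v) :=
  bdd_rev (bdd_uOp he hh' (bdd_rev hv))

lemma natDegree_hh (i : ℕ) : (hh i : F[X]).natDegree ≤ i + 1 := by simp [hh]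

/-- The degree bound of a word, up to the factor `e`. -/
def bd (L : List (ℕ × Bool)) : ℕ := (L.map fun x => 2 * (x.1 + 1)).sum

lemma bdd_wordVec (he : 2 ≤ e) (L : List (ℕ × Bool)) : Bdd (e * bd L) (wordVec e L : V4 F[X]) := by
  induction L with
  | nil => simp [Bdd, wordVec, v0, bd]
  | cons x L ih =>
    have h1 : bd (x :: L) = 2 * (x.1 + 1) + bd L := by simp [bd]
    have h2 : e * bd (x :: L) = e * bd L + e * (x.1 + 1) + e * (x.1 + 1) := by
      rw [h1]
      ring
    rw [h2]
    change Bdd _ (act e x _)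
    unfold act
    split_ifs
    · exact bdd_uOp he (natDegree_hh _) (bdd_lOp he (natDegree_hh _) ih)
    · exact bdd_lOp he (natDegree_hh _) (bdd_uOp he (natDegree_hh _) ih)

end ping

/-! ### Matrices in the Suzuki group -/

section group

variable {F : Type*} [Field F] [CharP F 2]

/-- The upper matrix. -/
def gS (e : ℕ) (y : F) : Matrix (Fin 4) (Fin 4) F :=
  !![1, 0, y, y ^ e; 0, 1, 0, y; 0, 0, 1, 0; 0, 0, 0, 1]

/-- The lower matrix. -/
def gL (e : ℕ) (y : F) : Matrix (Fin 4) (Fin 4) F :=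
  !![1, 0, 0, 0; 0, 1, 0, 0; y, 0, 1, 0; y ^ e, y, 0, 1]

lemma two_zero : (2 : F) = 0 := CharTwo.two_eq_zero

lemma gS_mul_self (e : ℕ) (y : F) : gS e y * gS e y = 1 := by
  ext i j
  fin_cases i <;> fin_cases j <;>
    simp [gS, Matrix.mul_apply, Fin.sum_univ_four, Matrix.one_apply, CharTwo.add_self_eq_zero]

lemma gL_mul_self (e : ℕ) (y : F) : gL e y * gL e y = 1 := by
  ext i j
  fin_cases i <;> fin_cases j <;>
    simp [gL, Matrix.mul_apply, Fin.sum_univ_four, Matrix.one_apply, CharTwo.add_self_eq_zero]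

/-- As units. -/
def gSU (e : ℕ) (y : F) : GL (Fin 4) F := ⟨gS e y, gS e y, gS_mul_self e y, gS_mul_self e y⟩

/-- As units. -/
def gLU (e : ℕ) (y : F) : GL (Fin 4) F := ⟨gL e y, gL e y, gL_mul_self e y, gL_mul_self e y⟩

lemma gS_sp (e : ℕ) (y : F) : gSU e y ∈ Lie.Sp4 F := by
  intro u v
  change Lie.altForm4 (gS e y *ᵥ u) (gS e y *ᵥ v) = Lie.altForm4 u v
  simp only [Lie.altForm4, gS, Matrix.mulVec, dotProduct, Fin.sum_univ_four]
  simp
  linear_combination (y * u 2 * v 3 + y ^ e * u 3 * v 3 + y * u 3 * v 2) * (two_zero (F := F))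

lemma gL_sp (e : ℕ) (y : F) : gLU e y ∈ Lie.Sp4 F := by
  intro u v
  change Lie.altForm4 (gL e y *ᵥ u) (gL e y *ᵥ v) = Lie.altForm4 u v
  simp only [Lie.altForm4, gL, Matrix.mulVec, dotProduct, Fin.sum_univ_four]
  simp
  linear_combination (y * u 0 * v 1 + y ^ e * u 0 * v 0 + y * u 1 * v 0) * (two_zero (F := F))

lemma gS_star {e : ℕ} (he : e ≠ 0) {y : F} (hy : (y ^ e) ^ e = y ^ 2) :
    Lie.star4 (gS e y) = (gS e y).map (fun x => x ^ e) := by
  ext i j
  fin_cases i <;> fin_cases j <;>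
    simp [Lie.star4, Lie.pairOf, gS, he, hy, CharTwo.neg_eq, sq]

lemma gL_star {e : ℕ} (he : e ≠ 0) {y : F} (hy : (y ^ e) ^ e = y ^ 2) :
    Lie.star4 (gL e y) = (gL e y).map (fun x => x ^ e) := by
  ext i j
  fin_cases i <;> fin_cases j <;>
    simp [Lie.star4, Lie.pairOf, gL, he, hy, CharTwo.neg_eq, sq]

/-- Evaluation of a vector. -/
noncomputable def evalV (t : F) (v : V4 F[X]) : Fin 4 → F := ![v.a.eval t, v.b.eval t, v.c.eval t, v.d.eval t]

lemma gS_mulVec (e : ℕ) (t : F) (h : F[X]) (v : V4 F[X]) :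
    gS e (h.eval t) *ᵥ evalV t v = evalV t (uOp e h v) := by
  ext i
  fin_cases i <;>
    simp [gS, evalV, uOp, Matrix.mulVec, dotProduct, Fin.sum_univ_four, eval_pow]

lemma gL_mulVec (e : ℕ) (t : F) (h : F[X]) (v : V4 F[X]) :
    gL e (h.eval t) *ᵥ evalV t v = evalV t (lOp e h v) := by
  ext i
  fin_cases i <;>
    simp [gL, evalV, lOp, rev, uOp, Matrix.mulVec, dotProduct, Fin.sum_univ_four, eval_pow] <;> ring

end group

/-- A non-trivial law holds in only finitely many Suzuki groups: for every non-trivial element w of the free group on countably many generators there is N such that for q = 2^(2m+1) with m ≥ N some substitution of elements of the Suzuki group over the field with q elements into w is not the identity. -/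
theorem result (w : FreeGroup ℕ) (hw : w ≠ 1) :
    ∃ N : ℕ, ∀ (F : Type*) [Field F] [Fintype F] (m : ℕ), 1 ≤ m → N ≤ m →
      Fintype.card F = 2 ^ (2 * m + 1) →
      ∃ f : ℕ → ↥(Cfsg.Lie.Sz F (2 ^ (m + 1))), FreeGroup.lift f w ≠ 1 := by
  classical
  set L := w.toWord with hL
  have hred : FreeGroup.IsReduced L := FreeGroup.isReduced_toWord
  have hne : L ≠ [] := by
    rw [hL, Ne, FreeGroup.toWord_eq_nil_iff]
    exact hw
  refine ⟨bd L + 1, ?_⟩
  intro F _ _ m hm hN hF
  have hchar : CharP F 2 := by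
    have h0 : ((Fintype.card F : ℕ) : F) = 0 := Nat.cast_card_eq_zero F
    rw [hF] at h0
    push_cast at h0
    have h2 : (2 : F) = 0 := pow_eq_zero_iff (by omega) |>.1 h0
    exact CharTwo.of_one_ne_zero_of_two_eq_zero one_ne_zero h2
  set e := 2 ^ (m + 1) with he
  have he2 : 2 ≤ e := by
    rw [he, pow_succ]
    have : 0 < 2 ^ m := by positivity
    omega
  have he0 : e ≠ 0 := by omega
  have hadd : ∀ x y : F[X], (x + y) ^ e = x ^ e + y ^ e := fun x y => add_pow_char_pow x y 2 (m + 1)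
  have hee : ∀ y : F, (y ^ e) ^ e = y ^ 2 := by
    intro y
    rw [← pow_mul]
    have h1 : e * e = Fintype.card F * 2 := by
      rw [he, hF]
      ring
    rw [h1, pow_mul, FiniteField.pow_card]
  -- the generators
  have hSmem : ∀ y : F, gSU e y ∈ Lie.Sz F e := fun y =>
    Subgroup.subset_closure ⟨gS_sp e y, gS_star he0 (hee y)⟩
  have hLmem : ∀ y : F, gLU e y ∈ Lie.Sz F e := fun y =>
    Subgroup.subset_closure ⟨gL_sp e y, gL_star he0 (hee y)⟩
  set P : F[X] := (wordVec e L : V4 F[X]).a - (wordVec e L : V4 F[X]).d with hP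
  have hP0 : P ≠ 0 := sub_ne_zero.2 (wordVec_ne hadd he2 hred hne)
  have hdeg : P.natDegree < Fintype.card F := by
    obtain ⟨h1, _, _, h4⟩ := bdd_wordVec (F := F) he2 L
    have h5 : P.natDegree ≤ e * bd L := (natDegree_sub_le _ _).trans (max_le h1 h4)
    have h6 : bd L < 2 ^ m := lt_of_le_of_lt (by omega) (Nat.lt_two_pow_self)
    have h7 : e * bd L < 2 ^ (2 * m + 1) := by
      calc e * bd L < e * 2 ^ m := Nat.mul_lt_mul_of_pos_left h6 (by omega)
        _ = 2 ^ (2 * m + 1) := by rw [he]; ring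
    rw [hF]
    omega
  obtain ⟨t, ht⟩ : ∃ t : F, P.eval t ≠ 0 := by
    by_contra hcon
    push Not at hcon
    exact hP0 (Polynomial.eq_zero_of_natDegree_lt_card_of_eval_eq_zero P
      (f := (id : F → F)) Function.injective_id hcon hdeg)
  -- the substitution
  let f : ℕ → ↥(Lie.Sz F e) := fun i =>
    ⟨gSU e ((hh i : F[X]).eval t) * gLU e ((hh i : F[X]).eval t),
      mul_mem (hSmem _) (hLmem _)⟩
  refine ⟨f, ?_⟩
  have hword : ∀ K : List (ℕ × Bool),
      (((K.map fun x => cond x.2 (f x.1) (f x.1)⁻¹).prod : ↥(Lie.Sz F e)).1 : Matrix (Fin 4) (Fin 4) F) *ᵥ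
        evalV t v0 = evalV t (wordVec e K) := by
    intro K
    induction K with
    | nil =>
      simp [wordVec]
    | cons x K ih =>
      simp only [List.map_cons, List.prod_cons, Subgroup.coe_mul, Units.val_mul]
      rw [← Matrix.mulVec_mulVec, ih]
      change _ = evalV t (act e x (wordVec e K))
      unfold act
      cases hx : x.2 with
      | true =>
        simp only [cond_true, if_true]
        change (gS e _ * gL e _) *ᵥ _ = _
        rw [← Matrix.mulVec_mulVec, gL_mulVec, gS_mulVec]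
      | false =>
        simp only [cond_false, Bool.false_eq_true, if_false]
        change (gL e _ * gS e _) *ᵥ _ = _
        rw [← Matrix.mulVec_mulVec, gS_mulVec, gL_mulVec]
  intro hone
  have hlift : FreeGroup.lift f w = (L.map fun x => cond x.2 (f x.1) (f x.1)⁻¹).prod := by
    conv_lhs => rw [← FreeGroup.mk_toWord (x := w)]
    rw [FreeGroup.lift_mk]
  have h1 := hword L
  rw [← hlift, hone] at h1
  simp only [OneMemClass.coe_one, Units.val_one, Matrix.one_mulVec] at h1
  have h2 : (wordVec e L : V4 F[X]).a.eval t = 1 := by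
    have := congrFun h1 0
    simpa [evalV, v0] using this.symm
  have h3 : (wordVec e L : V4 F[X]).d.eval t = 1 := by
    have := congrFun h1 3
    simpa [evalV, v0] using this.symm
  apply ht
  rw [hP, eval_sub, h2, h3, sub_self]

end Cfsg.Agent.S2354
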