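import Mathlib
import Cfsg.Statements.S2355
import Cfsg.Agent.Lib.LawEmbed

set_option autoImplicit false
open Cfsg

namespace Cfsg.Agent.S2355

open Cfsg.Agent.Lib.FreeLaws Cfsg.Agent.Lib.LawEmbed Cfsg.Agent.Lib.PSL2Law Matrix
open scoped MatrixGroups

/-- Transport of a law along an isomorphism onto a quotient. -/
lemma law_transfer {G Q : Type*} [Group G] [Group Q] (e : G ≃* Q) {w : FreeGroup ℕ}
    (h : ∀ f : ℕ → G, FreeGroup.lift f w = 1) (f : ℕ → Q) : FreeGroup.lift f w = 1 :=
  law_of_surjective e.toMonoidHom e.surjective h f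

/-- Bounds out of an embedding of `SL_m(F)`. -/
lemma bound_of_SL {N₁ N₂ : ℕ} {w : FreeGroup ℕ}
    (h₁ : ∀ (F : Type) [Field F] [Fintype F], N₁ ≤ Fintype.card F →
      ∃ f : ℕ → Matrix.ProjectiveSpecialLinearGroup (Fin 2) F, FreeGroup.lift f w ≠ 1)
    (h₂ : ∀ n : ℕ, N₂ ≤ n → ∃ f : ℕ → alternatingGroup (Fin n), FreeGroup.lift f w ≠ 1)
    {F : Type} [Field F] [Fintype F] {m : ℕ} (hm : 2 ≤ m) {H : Type*} [Group H]
    (φ : SL(m, F) →* H) (hφ : Function.Injective φ)
    (h : ∀ f : ℕ → H ⧸ Subgroup.center H, FreeGroup.lift f w = 1) :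
    m < max N₂ 4 ∧ Fintype.card F < N₁ := by
  constructor
  · by_contra hcon
    have h3 : N₂ ≤ m ∧ 4 ≤ m := by
      rw [not_lt, max_le_iff] at hcon
      exact hcon
    obtain ⟨f, hf⟩ := h₂ m h3.1
    exact hf (alt_law_of_embed h3.2 (φ.comp (altToSL F m)) (hφ.comp (altToSL_injective m)) h f)
  · by_contra hcon
    obtain ⟨f, hf⟩ := h₁ F (not_lt.1 hcon)
    obtain ⟨k, rfl⟩ : ∃ k, m = 2 + k := ⟨m - 2, by omega⟩
    exact hf (psl2_law_of_embed (φ.comp (sl2ToSL F k)) (hφ.comp (sl2ToSL_injective k)) h f)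

lemma card_matrix_bound {ι : Type} [Fintype ι] [DecidableEq ι] {F : Type} [Field F] [Fintype F]
    {G H : Type*} [Group G] [Group H] (e : G ≃* H ⧸ Subgroup.center H)
    (j : H → Matrix ι ι F) (hj : Function.Injective j) :
    Nat.card G ≤ Fintype.card F ^ (Fintype.card ι * Fintype.card ι) := by
  have hfin : Finite H := Finite.of_injective j hj
  have h1 : Nat.card G = Nat.card (H ⧸ Subgroup.center H) := Nat.card_congr e.toEquiv
  have h2 : Nat.card (H ⧸ Subgroup.center H) ≤ Nat.card H :=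
    Nat.card_le_card_of_surjective _ (QuotientGroup.mk'_surjective _)
  have h3 : Nat.card H ≤ Nat.card (Matrix ι ι F) := Nat.card_le_card_of_injective j hj
  have h4 : Nat.card (Matrix ι ι F) = Fintype.card F ^ (Fintype.card ι * Fintype.card ι) := by
    change Nat.card (ι → ι → F) = _
    rw [Nat.card_eq_fintype_card, Fintype.card_fun, Fintype.card_fun, pow_mul]
  omega

/-- The main arithmetic. -/
lemma final_bound {a b C B : ℕ} (ha : a ≤ C) (hb : b ≤ B) (hC : 0 < C) : a ^ (b * b) ≤ C ^ (B * B) :=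
  (Nat.pow_le_pow_left ha _).trans (Nat.pow_le_pow_right hC (Nat.mul_le_mul hb hb))

/-- The orthogonal families all go the same way. -/
lemma omega_case {N₁ N₂ : ℕ} {w : FreeGroup ℕ}
    (h₁ : ∀ (F : Type) [Field F] [Fintype F], N₁ ≤ Fintype.card F →
      ∃ f : ℕ → Matrix.ProjectiveSpecialLinearGroup (Fin 2) F, FreeGroup.lift f w ≠ 1)
    (h₂ : ∀ n : ℕ, N₂ ≤ n → ∃ f : ℕ → alternatingGroup (Fin n), FreeGroup.lift f w ≠ 1)
    {F : Type} [Field F] [Fintype F] {ι κ : Type} [Fintype ι] [DecidableEq ι] [Fintype κ]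
    [DecidableEq κ] {m : ℕ} (hm : 3 ≤ m) (e : (Fin m ⊕ Fin m) ⊕ κ ≃ ι) {Q : (ι → F) → F}
    {R : (κ → F) → F} (hQ : IsHyp e Q R) {G : Type*} [Group G]
    (hG : G ≃* POmega F Q) (hlaw : ∀ f : ℕ → G, FreeGroup.lift f w = 1) :
    m < max N₂ 4 ∧ Fintype.card F < N₁ ∧
      Nat.card G ≤ Fintype.card F ^ (Fintype.card ι * Fintype.card ι) := by
  have h := bound_of_SL h₁ h₂ (by omega : 2 ≤ m) (leviOmega hm hQ) (leviOmega_injective hm hQ)
    (law_transfer hG hlaw)
  refine ⟨h.1, h.2, ?_⟩
  refine card_matrix_bound hG (fun g => ((g.1.1 : Matrix.GeneralLinearGroup ι F) : Matrix ι ι F)) ?_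
  intro a b hab
  apply Subtype.ext
  apply Subtype.ext
  exact Units.ext hab

/-- A non-trivial law is satisfied by only finitely many finite simple groups that are alternating or classical, up to isomorphism: for every non-trivial element w of the free group on countably many generators there is a bound N such that every alternating group of degree ≥ 5 and every simple classical group (linear, symplectic, unitary or orthogonal, in this problem's sense) in which w is a law has order at most N. -/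
theorem result (w : FreeGroup ℕ) (hw : w ≠ 1) :
    ∃ N : ℕ, ∀ (G : Type*) [Group G] [Finite G],
      (Cfsg.IsAlternating G ∨ Cfsg.IsPSL G ∨ Cfsg.IsPSp G ∨ Cfsg.IsPSU G ∨ Cfsg.IsPOmegaOdd G ∨
          Cfsg.IsPOmegaPlus G ∨ Cfsg.IsPOmegaMinus G) →
      (∀ f : ℕ → G, FreeGroup.lift f w = 1) → Nat.card G ≤ N := by
  obtain ⟨N₁, h₁⟩ := psl2_law.{0} hw
  obtain ⟨N₂, h₂⟩ := alt_law hw
  set B := max N₂ 4 with hB
  set C := N₁ ^ 2 + N₁ + 1 with hC
  have hC0 : 0 < C := by omega
  have hN₁C : N₁ ≤ C := by omega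
  set D := 2 * B + 2 with hD
  refine ⟨Nat.factorial B + C ^ (D * D), ?_⟩
  intro G _ _ hfam hlaw
  have hle : ∀ x, x ≤ C ^ (D * D) → x ≤ Nat.factorial B + C ^ (D * D) := fun x hx => by omega
  rcases hfam with ⟨n, hn, ⟨e⟩⟩ | ⟨F, _, _, n, hn, _, ⟨e⟩⟩ | ⟨F, _, _, m, hm, _, ⟨e⟩⟩ |
      ⟨F, _, _, n, q, hF, hn, _, ⟨e⟩⟩ | ⟨F, _, _, m, hm, _, ⟨e⟩⟩ | ⟨F, _, _, m, hm, ⟨e⟩⟩ |
      ⟨F, _, _, m, a, b, hm, _, ⟨e⟩⟩
  · -- alternating
    have hnB : n < B := by
      by_contra hcon
      have h3 : N₂ ≤ n := le_trans (le_max_left _ _) (not_lt.1 hcon)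
      obtain ⟨f, hf⟩ := h₂ n h3
      exact hf (law_of_injective e.symm.toMonoidHom e.symm.injective hlaw f)
    have h1 : Nat.card G = Nat.card (alternatingGroup (Fin n)) := Nat.card_congr e.toEquiv
    have h2 : Nat.card (alternatingGroup (Fin n)) ≤ Nat.card (Equiv.Perm (Fin n)) :=
      Nat.card_le_card_of_injective _ Subtype.val_injective
    have h3 : Nat.card (Equiv.Perm (Fin n)) = Nat.factorial n := by
      rw [Nat.card_eq_fintype_card, Fintype.card_perm, Fintype.card_fin]
    have h4 : Nat.factorial n ≤ Nat.factorial B := Nat.factorial_le hnB.le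
    omega
  · -- PSL
    have h := bound_of_SL h₁ h₂ hn (MonoidHom.id _) Function.injective_id (law_transfer e hlaw)
    have h3 : Nat.card G ≤ Fintype.card F ^ (Fintype.card (Fin n) * Fintype.card (Fin n)) :=
      card_matrix_bound e (fun g : SL(n, F) => g.1) Subtype.val_injective
    rw [Fintype.card_fin] at h3
    apply hle
    refine h3.trans (final_bound (by omega) (by omega) hC0)
  · -- PSp
    have h := bound_of_SL h₁ h₂ hm (slToSp m) (slToSp_injective m) (law_transfer e hlaw)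
    have h3 : Nat.card G ≤ Fintype.card F ^ (Fintype.card (Fin m ⊕ Fin m) * Fintype.card (Fin m ⊕ Fin m)) :=
      card_matrix_bound e (fun g : Matrix.symplecticGroup (Fin m) F => g.1) Subtype.val_injective
    rw [Fintype.card_sum, Fintype.card_fin] at h3
    apply hle
    refine h3.trans (final_bound (by omega) (by omega) hC0)
  · -- PSU
    have hlaw' := law_transfer e hlaw
    have hnB : n < B := by
      by_contra hcon
      have h3 : N₂ ≤ n ∧ 4 ≤ n := by
        rw [not_lt, max_le_iff] at hcon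
        exact hcon
      obtain ⟨f, hf⟩ := h₂ n h3.1
      exact hf (alt_law_of_embed h3.2 (altToSU n) (altToSU_injective n) hlaw' f)
    have hq : q ≤ N₁ := by
      classical
      let _ : Fintype (F0 hF) := Fintype.ofFinite _
      by_contra hcon
      have h5 := card_F0 hF
      obtain ⟨f, hf⟩ := h₁ (F0 hF) (by omega)
      obtain ⟨T, T', δ, h6, h7, _, hM⟩ := exists_T hF
      obtain ⟨k, rfl⟩ : ∃ k, n = 2 + k := ⟨n - 2, by omega⟩
      exact hf (psl2_law_of_embed (sl2ToSU hF k T T' δ h6 h7 hM) (sl2ToSU_injective hF k T T' δ h6 h7 hM)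
        hlaw' f)
    have h3 : Nat.card G ≤ Fintype.card F ^ (Fintype.card (Fin n) * Fintype.card (Fin n)) :=
      card_matrix_bound e (fun g : SU n F q => g.1.1) (fun a b hab => Subtype.ext (Subtype.ext hab))
    rw [Fintype.card_fin] at h3
    apply hle
    refine h3.trans (final_bound ?_ (by omega) hC0)
    rw [hF]
    have := Nat.pow_le_pow_left hq 2
    omega
  · -- odd
    have hQ : IsHyp (Equiv.sumComm (Fin m ⊕ Fin m) Unit) (quadFormOdd m F) (fun c => c () ^ 2) := by
      intro v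
      simp only [quadFormOdd, Equiv.sumComm_apply, Sum.swap_inl, Sum.swap_inr]
      ring
    have h := omega_case h₁ h₂ (by omega) _ hQ e hlaw
    obtain ⟨h4, h5, h3⟩ := h
    simp only [Fintype.card_sum, Fintype.card_fin, Fintype.card_unit] at h3
    apply hle
    refine h3.trans (final_bound (by omega) (by omega) hC0)
  · -- plus
    have hQ : IsHyp (Equiv.sumEmpty (Fin m ⊕ Fin m) Empty) (quadFormPlus m F) (fun _ => 0) := by
      intro v
      simp [quadFormPlus]
    have h := omega_case h₁ h₂ (by omega) _ hQ e hlaw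
    obtain ⟨h4, h5, h3⟩ := h
    simp only [Fintype.card_sum, Fintype.card_fin] at h3
    apply hle
    refine h3.trans (final_bound (by omega) (by omega) hC0)
  · -- minus
    have hQ : IsHyp (Equiv.refl ((Fin (m - 1) ⊕ Fin (m - 1)) ⊕ Fin 2)) (quadFormMinus (m - 1) F a b)
        (fun c => c 0 ^ 2 + a * c 0 * c 1 + b * c 1 ^ 2) := by
      intro v
      simp [quadFormMinus]
    have h := omega_case h₁ h₂ (by omega) _ hQ e hlaw
    obtain ⟨h4, h5, h3⟩ := h
    simp only [Fintype.card_sum, Fintype.card_fin] at h3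
    apply hle
    refine h3.trans (final_bound (by omega) (by omega) hC0)

end Cfsg.Agent.S2355
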