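import Mathlib
import Cfsg.Statements.S2360
import Cfsg.Agent.Lib.AutPSU.Siegel
import Cfsg.Agent.Lib.UnitaryTv

set_option autoImplicit false
open Cfsg

namespace Cfsg.Agent.S2360

open Matrix Module
open Cfsg.Agent.Lib.UnitaryBasic Cfsg.Agent.Lib.UnitarySU Cfsg.Agent.Lib.HermFrame
  Cfsg.Agent.Lib.GUParab Cfsg.Agent.Lib.UnitaryE Cfsg.Agent.Lib.HermCount

variable {F : Type*} [Field F] [Fintype F] {q : ℕ}

local notation "⟪" x ", " y "⟫" => hermForm 3 F q x y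

abbrev V3 (F : Type*) := Fin 3 → F

/-- The matrix of an element of `SU`. -/
abbrev mat (x : ↥(Cfsg.SU 3 F q)) : Matrix (Fin 3) (Fin 3) F :=
  ((x : Matrix.SpecialLinearGroup (Fin 3) F) : Matrix (Fin 3) (Fin 3) F)

theorem su_ext {x y : ↥(Cfsg.SU 3 F q)} (h : mat x = mat y) : x = y :=
  Subtype.ext (Subtype.ext h)

theorem su_ext' {x y : ↥(Cfsg.SU 3 F q)} (h : ∀ w, mat x *ᵥ w = mat y *ᵥ w) : x = y := by
  apply su_ext
  apply Matrix.toLin'.injective
  apply LinearMap.ext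
  intro v
  rw [Matrix.toLin'_apply, Matrix.toLin'_apply]
  exact h v

theorem su_iso (x : ↥(Cfsg.SU 3 F q)) (u v : V3 F) : ⟪mat x *ᵥ u, mat x *ᵥ v⟫ = ⟪u, v⟫ := x.2 u v

@[simp] theorem mat_mul (x y : ↥(Cfsg.SU 3 F q)) : mat (x * y) = mat x * mat y := rfl

@[simp] theorem mat_one : mat (1 : ↥(Cfsg.SU 3 F q)) = 1 := rfl

theorem mat_inv_mulVec (x : ↥(Cfsg.SU 3 F q)) (w : V3 F) : mat x *ᵥ (mat x⁻¹ *ᵥ w) = w := by
  rw [mulVec_mulVec, ← mat_mul, mul_inv_cancel, mat_one, one_mulVec]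

section refl

variable (hF : Fintype.card F = q ^ 2)

/-- The reflection `w ↦ -w + (2 h(w,v) / h(v,v)) v`. -/
noncomputable def tLin (v : V3 F) : V3 F →ₗ[F] V3 F :=
  (-1 : F) • LinearMap.transvection ((-(2 * ⟪v, v⟫⁻¹)) • hL 3 F q v) v

local notation "τ" => tLin (q := q)

theorem tLin_apply (v w : V3 F) : τ v w = -w + ((2 * ⟪v, v⟫⁻¹) * ⟪w, v⟫) • v := by
  simp only [tLin, LinearMap.smul_apply, LinearMap.transvection.apply, smul_eq_mul, hL_apply]
  module

omit hF in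
theorem tLin_det {v : V3 F} (hv : ⟪v, v⟫ ≠ 0) : LinearMap.det (τ v) = 1 := by
  have hfr : Module.finrank F (V3 F) = 3 := by simp
  rw [tLin, LinearMap.det_smul, LinearMap.transvection.det, hfr]
  simp only [LinearMap.smul_apply, hL_apply, smul_eq_mul]
  field_simp
  ring

include hF in
theorem tLin_iso (h2 : (2 : F) ^ q = 2) {v : V3 F} (hv : ⟪v, v⟫ ≠ 0) (x y : V3 F) :
    ⟪τ v x, τ v y⟫ = ⟪x, y⟫ := by
  rw [tLin_apply, tLin_apply]
  have hn : ⟪v, v⟫ ^ q = ⟪v, v⟫ := herm_self_fixed hF v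
  set n := ⟪v, v⟫ with hn'
  have hy : ⟪y, v⟫ ^ q = ⟪v, y⟫ := herm_conj hF y v
  have hneg : ∀ a b : V3 F, ⟪-a, b⟫ = -⟪a, b⟫ := by
    intro a b
    have := herm_smul_left (q := q) (-1 : F) a b
    simpa using this
  have hneg' : ∀ a b : V3 F, ⟪a, -b⟫ = -⟪a, b⟫ := by
    intro a b
    have h1 := herm_add_right hF a b (-b)
    have h0 : ⟪a, (0 : V3 F)⟫ = 0 := by
      have := herm_smul_right (q := q) (0 : F) a (0 : V3 F)
      have hq := two_le_q hF
      simpa [zero_pow (by omega : q ≠ 0)] using this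
    rw [add_neg_cancel, h0] at h1
    linear_combination -h1
  rw [herm_add_left, herm_add_right hF, herm_add_right hF, herm_smul_left, herm_smul_left, herm_smul_right, herm_smul_right,
    hneg, hneg, hneg', hneg', ← hn', mul_pow, mul_pow, inv_pow, hn, h2, hy]
  have hv' : n * n⁻¹ = 1 := mul_inv_cancel₀ hv
  have hxy : ⟪v, -y⟫ = -⟪v, y⟫ := hneg' v y
  have hv1 : ⟪x, v⟫ * ⟪v, y⟫ * (2 * n⁻¹ * (2 * n⁻¹) * n) = ⟪x, v⟫ * ⟪v, y⟫ * (2 * n⁻¹ + 2 * n⁻¹) := by
    have : 2 * n⁻¹ * (2 * n⁻¹) * n = 2 * n⁻¹ * 2 * (n * n⁻¹) := by ring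
    rw [this, hv']
    ring
  linear_combination hv1

end refl

local notation "τ" => tLin (q := q)

section main

variable (hF : Fintype.card F = q ^ 2)

include hF in
theorem two_pow : (2 : F) ^ q = 2 := by
  have := add_pow_q hF (1 : F) 1
  rwa [one_pow, one_add_one_eq_two] at this

theorem herm_neg_left (a b : V3 F) : ⟪-a, b⟫ = -⟪a, b⟫ := by
  have := herm_smul_left (q := q) (-1 : F) a b
  simpa using this

theorem herm_zero_left (b : V3 F) : ⟪(0 : V3 F), b⟫ = 0 := by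
  have := herm_smul_left (q := q) (0 : F) (0 : V3 F) b
  simpa using this

include hF in
theorem herm_zero_right (a : V3 F) : ⟪a, (0 : V3 F)⟫ = 0 := by
  have := herm_smul_right (q := q) (0 : F) a (0 : V3 F)
  have hq := two_le_q hF
  simpa [zero_pow (by omega : q ≠ 0)] using this

include hF in
theorem herm_neg_right (a b : V3 F) : ⟪a, -b⟫ = -⟪a, b⟫ := by
  have h1 := herm_add_right hF a b (-b)
  rw [add_neg_cancel, herm_zero_right hF] at h1
  linear_combination -h1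

include hF in
theorem conj_zero' {a b : V3 F} (h : ⟪a, b⟫ = 0) : ⟪b, a⟫ = 0 := by
  rw [← herm_conj hF, h]
  have hq := two_le_q hF
  exact zero_pow (by omega)

/-- The reflection as an element of `SU`. -/
noncomputable def T {v : V3 F} (hv : ⟪v, v⟫ ≠ 0) : ↥(Cfsg.SU 3 F q) :=
  SUofMatrix (LinearMap.toMatrix' (τ v))
    (by rw [LinearMap.det_toMatrix']; exact tLin_det hv)
    (fun x y => by
      rw [LinearMap.toMatrix'_mulVec, LinearMap.toMatrix'_mulVec]
      exact tLin_iso hF (two_pow hF) hv x y)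

theorem T_apply {v : V3 F} (hv : ⟪v, v⟫ ≠ 0) (w : V3 F) :
    mat (T hF hv) *ᵥ w = -w + ((2 * ⟪v, v⟫⁻¹) * ⟪w, v⟫) • v := by
  show LinearMap.toMatrix' (τ v) *ᵥ w = _
  rw [LinearMap.toMatrix'_mulVec, tLin_apply]

theorem T_self {v : V3 F} (hv : ⟪v, v⟫ ≠ 0) : mat (T hF hv) *ᵥ v = v := by
  rw [T_apply]
  have : 2 * ⟪v, v⟫⁻¹ * ⟪v, v⟫ = 2 := by
    rw [mul_assoc, inv_mul_cancel₀ hv, mul_one]
  rw [this]
  module

theorem T_mul_self {v : V3 F} (hv : ⟪v, v⟫ ≠ 0) : T hF hv * T hF hv = 1 := by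
  apply su_ext'
  intro w
  rw [mat_mul, mat_one, one_mulVec, ← mulVec_mulVec, T_apply hF hv w, T_apply]
  simp only [herm_add_left, herm_smul_left, herm_neg_left, mulVec_add]
  have h1 : 2 * ⟪v, v⟫⁻¹ * ⟪w, v⟫ * ⟪v, v⟫ = 2 * ⟪w, v⟫ := by
    field_simp
  rw [h1]
  module

include hF in
theorem exists_perp {v : V3 F} (hv : ⟪v, v⟫ ≠ 0) : ∃ z, ⟪z, z⟫ ≠ 0 ∧ ⟪z, v⟫ = 0 := by
  classical
  let W : Submodule F (V3 F) := LinearMap.ker (hL 3 F q v)
  have h1 : Module.finrank F (LinearMap.range (hL 3 F q v)) + Module.finrank F (LinearMap.ker (hL 3 F q v)) = 3 := by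
    rw [LinearMap.finrank_range_add_finrank_ker]; simp
  have h2 : Module.finrank F (LinearMap.range (hL 3 F q v)) ≤ 1 := by
    have := Submodule.finrank_le (LinearMap.range (hL 3 F q v))
    simpa using this
  have h3 : 0 < Module.finrank F W := by
    have : Module.finrank F W = Module.finrank F (LinearMap.ker (hL 3 F q v)) := rfl
    omega
  haveI : Nontrivial W := Module.nontrivial_of_finrank_pos h3
  have hW : ∀ x : W, ⟪(x : V3 F), v⟫ = 0 := fun x => x.2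
  have hh : IsHerm q (fun x y : W => ⟪(x : V3 F), (y : V3 F)⟫) := by
    refine ⟨fun u u' w => herm_add_left _ _ _, fun c u w => herm_smul_left _ _ _,
      fun u w => herm_conj hF _ _, ?_⟩
    intro x hx
    apply Subtype.ext
    apply herm_nondeg hF
    intro y
    let c := ⟪y, v⟫ * ⟪v, v⟫⁻¹
    have hy' : ⟪y - c • v, v⟫ = 0 := by
      rw [herm_sub_left, herm_smul_left]
      simp only [c]
      field_simp
      ring
    have h4 := hx ⟨y - c • v, hy'⟩
    simp only at h4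
    rw [herm_sub_right hF, herm_smul_right, hW x, mul_zero, sub_zero] at h4
    exact h4
  obtain ⟨z, hz⟩ := hh.exists_noniso hF
  exact ⟨z, hz, hW z⟩

theorem T_ne_one (h2 : (2 : F) ≠ 0) {v : V3 F} (hv : ⟪v, v⟫ ≠ 0) : T hF hv ≠ 1 := by
  intro h
  obtain ⟨z, hz, hzv⟩ := exists_perp hF hv
  have h1 := T_apply hF hv z
  rw [h, mat_one, one_mulVec, hzv] at h1
  simp only [mul_zero, zero_smul, add_zero] at h1
  have h3 : (2 : F) • z = 0 := by
    rw [two_smul]
    nth_rewrite 1 [h1]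
    simp
  have h4 : z = 0 := (smul_eq_zero.1 h3).resolve_left h2
  rw [h4, herm_zero_left] at hz
  exact hz rfl

theorem mat_ext {X Y : Matrix (Fin 3) (Fin 3) F} (h : ∀ w, X *ᵥ w = Y *ᵥ w) : X = Y := by
  apply Matrix.toLin'.injective
  apply LinearMap.ext
  intro v
  rw [Matrix.toLin'_apply, Matrix.toLin'_apply]
  exact h v

omit [Fintype F] in
theorem det_neg_three (X : Matrix (Fin 3) (Fin 3) F) : (-X).det = -X.det := by
  rw [Matrix.det_neg]
  simp only [Fintype.card_fin]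
  ring

/-- Every involution of `SU₃(q)`, `q` odd, is a reflection. -/
theorem exists_T (h2 : (2 : F) ≠ 0) (t : ↥(Cfsg.SU 3 F q)) (ht : t ≠ 1) (ht2 : t * t = 1) :
    ∃ (v : V3 F) (hv : ⟪v, v⟫ ≠ 0), t = T hF hv := by
  classical
  let A := mat t
  have hAA : ∀ w, A *ᵥ (A *ᵥ w) = w := by
    intro w
    rw [mulVec_mulVec]
    have : A * A = 1 := by
      have := congrArg mat ht2
      simpa using this
    rw [this, one_mulVec]
  have hdetA : A.det = 1 := (t : Matrix.SpecialLinearGroup (Fin 3) F).2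
  have hiso : ∀ u v, ⟪A *ᵥ u, A *ᵥ v⟫ = ⟪u, v⟫ := su_iso t
  have h2' : (-1 : F) ≠ 1 := by
    intro h
    apply h2
    linear_combination -h
  let P : V3 F →ₗ[F] V3 F := (A + 1).mulVecLin
  have hP : ∀ w, P w = A *ᵥ w + w := by
    intro w
    simp [P, add_mulVec]
  let R := LinearMap.range P
  let K := LinearMap.ker P
  have hdim : Module.finrank F R + Module.finrank F K = 3 := by
    rw [LinearMap.finrank_range_add_finrank_ker]; simp
  have hle : Module.finrank F R ≤ 3 := by omega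
  have hne : ∀ x : V3 F, (∀ w, ⟪w, x⟫ = 0) → x = 0 := by
    intro x hx
    apply herm_nondeg hF
    intro y
    exact conj_zero' hF (hx y)
  interval_cases hR : Module.finrank F R
  · -- `t = -1`
    exfalso
    have hR0 : R = ⊥ := Submodule.finrank_eq_zero.1 hR
    have h3 : ∀ w, A *ᵥ w = (-1 : Matrix (Fin 3) (Fin 3) F) *ᵥ w := by
      intro w
      have h4 : P w ∈ R := ⟨w, rfl⟩
      rw [hR0, Submodule.mem_bot, hP] at h4
      rw [neg_mulVec, one_mulVec]
      exact eq_neg_of_add_eq_zero_left h4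
    have h5 : A = -1 := mat_ext h3
    rw [h5, det_neg_three, Matrix.det_one] at hdetA
    exact h2' hdetA
  · -- the reflection
    obtain ⟨v₀, hv₀, hspan⟩ := finrank_eq_one_iff'.1 hR
    let v : V3 F := v₀
    have hv0 : v ≠ 0 := fun h => hv₀ (Subtype.ext h)
    have hAv : A *ᵥ v = v := by
      obtain ⟨y, hy⟩ := v₀.2
      show A *ᵥ (v₀ : V3 F) = v₀
      rw [← hy, hP, mulVec_add, hAA, add_comm]
    have hc : ∀ w, ∃ c : F, P w = c • v := by
      intro w
      obtain ⟨c, hc⟩ := hspan ⟨P w, ⟨w, rfl⟩⟩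
      exact ⟨c, (congrArg Subtype.val hc).symm⟩
    have hE : ∀ w c, P w = c • v → c * ⟪v, v⟫ = 2 * ⟪w, v⟫ := by
      intro w c hwc
      have h3 : ⟪P w, v⟫ = 2 * ⟪w, v⟫ := by
        rw [hP, herm_add_left]
        nth_rewrite 1 [← hAv]
        rw [hiso]
        ring
      rw [hwc, herm_smul_left] at h3
      exact h3
    have hv : ⟪v, v⟫ ≠ 0 := by
      intro h0
      apply hv0
      apply hne
      intro w
      obtain ⟨c, hc'⟩ := hc w
      have := hE w c hc'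
      rw [h0, mul_zero] at this
      exact (mul_eq_zero.1 this.symm).resolve_left h2
    refine ⟨v, hv, su_ext' ?_⟩
    intro w
    rw [T_apply]
    obtain ⟨c, hc'⟩ := hc w
    have h3 := hE w c hc'
    have h4 : c = 2 * ⟪v, v⟫⁻¹ * ⟪w, v⟫ := by
      field_simp
      linear_combination h3
    rw [← h4, ← hc', hP]
    show A *ᵥ w = _
    abel
  · -- minus a reflection: impossible
    exfalso
    have hK : Module.finrank F K = 1 := by omega
    obtain ⟨u₀, hu₀, hspan⟩ := finrank_eq_one_iff'.1 hK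
    let u : V3 F := u₀
    have hu0 : u ≠ 0 := fun h => hu₀ (Subtype.ext h)
    have hAu : A *ᵥ u = -u := by
      have h3 : P u = 0 := u₀.2
      rw [hP] at h3
      exact eq_neg_of_add_eq_zero_left h3
    have hmem : ∀ w, A *ᵥ w - w ∈ K := by
      intro w
      show P _ = 0
      rw [hP, mulVec_sub, hAA]
      abel
    have hc : ∀ w, ∃ c : F, A *ᵥ w - w = c • u := by
      intro w
      obtain ⟨c, hc⟩ := hspan ⟨_, hmem w⟩
      exact ⟨c, (congrArg Subtype.val hc).symm⟩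
    have hE : ∀ w c, A *ᵥ w - w = c • u → c * ⟪u, u⟫ = -(2 * ⟪w, u⟫) := by
      intro w c hwc
      have h3 : ⟪A *ᵥ w - w, u⟫ = -(2 * ⟪w, u⟫) := by
        have h4 : ⟪A *ᵥ w, u⟫ = -⟪w, u⟫ := by
          have h5 := hiso w u
          rw [hAu, herm_neg_right hF] at h5
          linear_combination -h5
        rw [herm_sub_left, h4]
        ring
      rw [hwc, herm_smul_left] at h3
      exact h3
    have hu : ⟪u, u⟫ ≠ 0 := by
      intro h0
      apply hu0
      apply hne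
      intro w
      obtain ⟨c, hc'⟩ := hc w
      have := hE w c hc'
      rw [h0, mul_zero] at this
      have h5 : 2 * ⟪w, u⟫ = 0 := by linear_combination this
      exact (mul_eq_zero.1 h5).resolve_left h2
    have h6 : ∀ w, A *ᵥ w = (-(mat (T hF hu))) *ᵥ w := by
      intro w
      rw [neg_mulVec, T_apply]
      obtain ⟨c, hc'⟩ := hc w
      have h3 := hE w c hc'
      have h4 : c = -(2 * ⟪u, u⟫⁻¹ * ⟪w, u⟫) := by
        field_simp
        linear_combination h3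
      have h7 : A *ᵥ w = w + c • u := by
        rw [← hc']
        abel
      rw [h7, h4, neg_smul]
      abel
    have h8 : A = -(mat (T hF hu)) := mat_ext h6
    have h9 : (mat (T hF hu)).det = 1 := (T hF hu : Matrix.SpecialLinearGroup (Fin 3) F).2
    rw [h8, det_neg_three, h9] at hdetA
    exact h2' hdetA
  · -- `t = 1`
    exfalso
    have hK : Module.finrank F K = 0 := by omega
    have hK0 : K = ⊥ := Submodule.finrank_eq_zero.1 hK
    apply ht
    apply su_ext'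
    intro w
    have hmem : A *ᵥ w - w ∈ K := by
      show P _ = 0
      rw [hP, mulVec_sub, hAA]
      abel
    rw [hK0, Submodule.mem_bot] at hmem
    rw [mat_one, one_mulVec]
    exact sub_eq_zero.1 hmem

/-- Conjugation of reflections. -/
theorem T_conj (g : ↥(Cfsg.SU 3 F q)) {v : V3 F} (hv : ⟪v, v⟫ ≠ 0) (hv' : ⟪mat g *ᵥ v, mat g *ᵥ v⟫ ≠ 0) :
    T hF hv' * g = g * T hF hv := by
  apply su_ext'
  intro w
  rw [mat_mul, mat_mul, ← mulVec_mulVec, ← mulVec_mulVec, T_apply, T_apply, su_iso, su_iso, mulVec_add,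
    mulVec_neg, mulVec_smul]

theorem T_smul {v : V3 F} (hv : ⟪v, v⟫ ≠ 0) {c : F} (hc : c ≠ 0) (hv' : ⟪c • v, c • v⟫ ≠ 0) :
    T hF hv' = T hF hv := by
  apply su_ext'
  intro w
  rw [T_apply, T_apply]
  congr 1
  simp only [herm_smul_left, herm_smul_right, smul_smul]
  congr 1
  have hq : c ^ q ≠ 0 := pow_ne_zero _ hc
  have hn : ⟪v, v⟫ ≠ 0 := hv
  field_simp

theorem T_prop (h2 : (2 : F) ≠ 0) {u v : V3 F} (hu : ⟪u, u⟫ ≠ 0) (hv : ⟪v, v⟫ ≠ 0)
    (h : T hF hu = T hF hv) : ∃ c : F, c ≠ 0 ∧ u = c • v := by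
  have h1 := T_self hF hu
  rw [h, T_apply] at h1
  have hu0 : u ≠ 0 := by
    rintro rfl
    exact hu (herm_zero_left _)
  set d := 2 * ⟪v, v⟫⁻¹ * ⟪u, v⟫ with hd
  have h3 : (2 : F) • u = d • v := by
    rw [two_smul]
    nth_rewrite 1 [← h1]
    abel
  have h4 : u = ((2 : F)⁻¹ * d) • v := by
    rw [mul_smul, ← h3, smul_smul, inv_mul_cancel₀ h2, one_smul]
  refine ⟨_, ?_, h4⟩
  intro h0
  rw [h0, zero_smul] at h4
  exact hu0 h4

theorem T_congr {u u' : V3 F} (h : u = u') (hu : ⟪u, u⟫ ≠ 0) (hu' : ⟪u', u'⟫ ≠ 0) : T hF hu = T hF hu' := by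
  subst h
  rfl

/-- Commuting distinct reflections have orthogonal centres. -/
theorem T_comm (h2 : (2 : F) ≠ 0) {u v : V3 F} (hu : ⟪u, u⟫ ≠ 0) (hv : ⟪v, v⟫ ≠ 0)
    (hc : T hF hu * T hF hv = T hF hv * T hF hu) (hne : T hF hu ≠ T hF hv) : ⟪u, v⟫ = 0 := by
  let g := T hF hu
  have hv' : ⟪mat g *ᵥ v, mat g *ᵥ v⟫ ≠ 0 := by
    rw [su_iso]
    exact hv
  have h1 := T_conj hF g hv hv'
  have h3 : T hF hv' = T hF hv := by
    have h4 : T hF hv' * g = T hF hv * g := by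
      rw [h1]
      exact hc
    exact mul_right_cancel h4
  obtain ⟨c, hc0, hcv⟩ := T_prop hF h2 hv' hv h3
  rw [T_apply] at hcv
  by_contra hne'
  have hvu : ⟪v, u⟫ ≠ 0 := fun h0 => hne' (conj_zero' hF h0)
  set d := 2 * ⟪u, u⟫⁻¹ * ⟪v, u⟫ with hd
  have hd0 : d ≠ 0 := mul_ne_zero (mul_ne_zero h2 (inv_ne_zero hu)) hvu
  have h5 : d • u = (c + 1) • v := by
    have : d • u = -v + d • u + v := by abel
    rw [this, hcv, add_smul, one_smul]
  have h6 : u = (d⁻¹ * (c + 1)) • v := by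
    rw [mul_smul, ← h5, smul_smul, inv_mul_cancel₀ hd0, one_smul]
  have hk : d⁻¹ * (c + 1) ≠ 0 := by
    intro h0
    rw [h0, zero_smul] at h6
    rw [h6, herm_zero_left] at hu
    exact hu rfl
  apply hne
  have hk' : ⟪(d⁻¹ * (c + 1)) • v, (d⁻¹ * (c + 1)) • v⟫ ≠ 0 := by
    rw [← h6]; exact hu
  rw [← T_smul hF hv hk hk']
  exact T_congr hF h6 hu hk'

include hF in
/-- The orthogonal of two orthogonal non-isotropic vectors is a line. -/
theorem perp_line {v w u u₀ : V3 F} (hv : ⟪v, v⟫ ≠ 0) (hw : ⟪w, w⟫ ≠ 0) (hvw : ⟪v, w⟫ = 0)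
    (hu : ⟪u, u⟫ ≠ 0) (hu₀ : ⟪u₀, u₀⟫ ≠ 0) (huv : ⟪u, v⟫ = 0) (huw : ⟪u, w⟫ = 0)
    (hu₀v : ⟪u₀, v⟫ = 0) (hu₀w : ⟪u₀, w⟫ = 0) : ∃ c : F, c ≠ 0 ∧ u = c • u₀ := by
  classical
  have hdep : ¬ LinearIndependent F ![v, w, u, u₀] := by
    intro hli
    have := hli.fintype_card_le_finrank
    simp at this
  rw [Fintype.not_linearIndependent_iff] at hdep
  obtain ⟨g, hg, hne⟩ := hdep
  simp only [Fin.sum_univ_four, Matrix.cons_val_zero, Matrix.cons_val_one, Matrix.cons_val] at hg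
  have hwv : ⟪w, v⟫ = 0 := conj_zero' hF hvw
  have h0 : g 0 = 0 := by
    have h1 := congrArg (fun x => ⟪x, v⟫) hg
    simp only [herm_add_left, herm_smul_left, herm_zero_left, hwv, huv, hu₀v, mul_zero, add_zero] at h1
    exact (mul_eq_zero.1 h1).resolve_right hv
  have h1 : g 1 = 0 := by
    have h1 := congrArg (fun x => ⟪x, w⟫) hg
    simp only [herm_add_left, herm_smul_left, herm_zero_left, hvw, huw, hu₀w, mul_zero, add_zero, zero_add] at h1
    exact (mul_eq_zero.1 h1).resolve_right hw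
  rw [h0, h1, zero_smul, zero_smul, zero_add, zero_add] at hg
  have hu0 : u ≠ 0 := by
    rintro rfl
    exact hu (herm_zero_left _)
  have hu₀0 : u₀ ≠ 0 := by
    rintro rfl
    exact hu₀ (herm_zero_left _)
  have h2 : g 2 ≠ 0 := by
    intro h2
    rw [h2, zero_smul, zero_add] at hg
    have h3 : g 3 = 0 := (smul_eq_zero.1 hg).resolve_right hu₀0
    obtain ⟨i, hi⟩ := hne
    fin_cases i
    · exact hi h0
    · exact hi h1
    · exact hi h2
    · exact hi h3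
  have h3 : g 3 ≠ 0 := by
    intro h3
    rw [h3, zero_smul, add_zero] at hg
    exact hu0 ((smul_eq_zero.1 hg).resolve_left h2)
  refine ⟨-(g 2)⁻¹ * g 3, mul_ne_zero (neg_ne_zero.2 (inv_ne_zero h2)) h3, ?_⟩
  have h4 : g 2 • u = -(g 3 • u₀) := eq_neg_of_add_eq_zero_left hg
  rw [mul_smul, neg_smul, ← smul_neg, ← h4, smul_smul, inv_mul_cancel₀ h2, one_smul]

/-- Transitivity. -/
theorem T_trans {u v : V3 F} (hu : ⟪u, u⟫ ≠ 0) (hv : ⟪v, v⟫ ≠ 0) :
    ∃ g : ↥(Cfsg.SU 3 F q), g * T hF hu * g⁻¹ = T hF hv := by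
  have hnu : ⟪u, u⟫ ^ q = ⟪u, u⟫ := herm_self_fixed hF u
  have hnv : ⟪v, v⟫ ^ q = ⟪v, v⟫ := herm_self_fixed hF v
  have hρ : ⟪v, v⟫ / ⟪u, u⟫ ≠ 0 := div_ne_zero hv hu
  obtain ⟨c, hc⟩ := Cfsg.Agent.Lib.UnitaryTv.exists_nrm_eq hF (ρ := ⟪v, v⟫ / ⟪u, u⟫) hρ
    (by rw [div_pow, hnu, hnv])
  have hc0 : c ≠ 0 := by
    intro h
    have hq := two_le_q hF
    rw [h] at hc
    apply hρ
    rw [← hc]
    simp [nrm]
  have hcc : c * c ^ q = ⟪v, v⟫ / ⟪u, u⟫ := hc
  let u' := c • u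
  have huu' : ⟪u', u'⟫ = ⟪v, v⟫ := by
    simp only [u', herm_smul_left, herm_smul_right]
    have : c ^ q * c = ⟪v, v⟫ / ⟪u, u⟫ := by rw [mul_comm]; exact hcc
    rw [← mul_assoc]
    have h5 : c * c ^ q * ⟪u, u⟫ = ⟪v, v⟫ := by
      rw [hcc]; field_simp
    linear_combination h5
  have hu' : ⟪u', u'⟫ ≠ 0 := by rw [huu']; exact hv
  obtain ⟨z, hz, hzv⟩ := exists_perp hF hv
  have hli : ∀ x : V3 F, ⟪x, x⟫ ≠ 0 → LinearIndependent F (fun _ : Fin 1 => x) := by
    intro x hx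
    have hx0 : x ≠ 0 := by
      rintro rfl
      exact hx (herm_zero_left _)
    exact LinearIndependent.of_subsingleton 0 hx0
  obtain ⟨A, hA⟩ := Cfsg.Agent.Lib.AutPSU.exists_SU_tuple hF (fun _ : Fin 1 => u') (fun _ => v)
    (hli _ hu') (hli _ hv) (fun _ _ => huu') hz (fun _ => conj_zero' hF hzv)
  have hA' : mat A *ᵥ u' = v := hA 0
  refine ⟨A, ?_⟩
  have hAu : ⟪mat A *ᵥ u', mat A *ᵥ u'⟫ ≠ 0 := by rw [su_iso]; exact hu'
  have h1 := T_conj hF A hu' hAu
  have h2 : T hF hAu = T hF hv := T_congr hF hA' hAu hv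
  rw [h2] at h1
  have h3 : T hF hu' = T hF hu := T_smul hF hu hc0 hu'
  rw [h3] at h1
  rw [← h1]
  group

include hF in
theorem two_ne_zero_of_odd (hq : Odd q) : (2 : F) ≠ 0 := by
  intro h
  have h1 : ringChar F = 2 := CharP.ringChar_of_prime_eq_zero Nat.prime_two (by exact_mod_cast h)
  have h3 := FiniteField.even_card_iff_char_two.1 h1
  rw [hF] at h3
  have h4 : Odd (q ^ 2) := hq.pow
  exact Nat.not_even_iff_odd.2 h4 (Nat.even_iff.2 h3)

/-- The map sending a non-isotropic vector to its reflection. -/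
noncomputable def piT (h2 : (2 : F) ≠ 0) (v : {v : V3 F // ⟪v, v⟫ ≠ 0}) :
    {x : ↥(Cfsg.SU 3 F q) // x ≠ 1 ∧ x * x = 1} :=
  ⟨T hF v.2, T_ne_one hF h2 v.2, T_mul_self hF v.2⟩

theorem card_fibre (h2 : (2 : F) ≠ 0) (y : {x : ↥(Cfsg.SU 3 F q) // x ≠ 1 ∧ x * x = 1}) :
    Nat.card {v // piT hF h2 v = y} = q ^ 2 - 1 := by
  classical
  obtain ⟨v, hv, hy⟩ := exists_T hF h2 y.1 y.2.1 y.2.2
  have hv0 : v ≠ 0 := by
    rintro rfl
    exact hv (herm_zero_left _)
  have hne : ∀ c : Fˣ, ⟪(c : F) • v, (c : F) • v⟫ ≠ 0 := by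
    intro c
    simp only [herm_smul_left, herm_smul_right]
    exact mul_ne_zero (pow_ne_zero _ c.ne_zero) (mul_ne_zero c.ne_zero hv)
  let f : Fˣ → {v // piT hF h2 v = y} := fun c =>
    ⟨⟨(c : F) • v, hne c⟩, Subtype.ext (by
      show T hF (hne c) = y.1
      rw [hy]
      exact T_smul hF hv c.ne_zero _)⟩
  have hf : Function.Bijective f := by
    constructor
    · intro c d hcd
      have h3 : (c : F) • v = (d : F) • v := congrArg (fun z => z.1.1) hcd
      exact Units.ext (smul_left_injective F hv0 h3)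
    · rintro ⟨⟨u, hu⟩, hz⟩
      have h3 : T hF hu = T hF hv := by
        rw [← hy]
        exact congrArg Subtype.val hz
      obtain ⟨c, hc, huc⟩ := T_prop hF h2 hu hv h3
      exact ⟨Units.mk0 c hc, Subtype.ext (Subtype.ext huc.symm)⟩
  rw [← Nat.card_eq_of_bijective f hf, Nat.card_eq_fintype_card, Fintype.card_units, hF]

include hF in
theorem card_NI_add :
    Nat.card {v : V3 F // ⟪v, v⟫ ≠ 0} + ((q ^ 3 + 1) * (q ^ 2 - 1) + 1) = q ^ 6 := by
  classical
  have h1 := card_isotropic hF 3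
  rw [if_neg (by decide)] at h1
  have h3 : Nat.card (V3 F) = q ^ 6 := by
    rw [Nat.card_eq_fintype_card, Fintype.card_fun, hF, Fintype.card_fin]
    ring
  have h4 := Nat.card_congr (Equiv.sumCompl (fun v : V3 F => ⟪v, v⟫ = 0))
  rw [Nat.card_sum, h3] at h4
  simp only [show 3 - 1 = 2 from rfl] at h1
  rw [← h4, ← h1, add_comm]

include hF in
theorem card_Inv_mul (h2 : (2 : F) ≠ 0) :
    Nat.card {x : ↥(Cfsg.SU 3 F q) // x ≠ 1 ∧ x * x = 1} * (q ^ 2 - 1)
      = Nat.card {v : V3 F // ⟪v, v⟫ ≠ 0} := by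
  classical
  haveI : Fintype {x : ↥(Cfsg.SU 3 F q) // x ≠ 1 ∧ x * x = 1} := Fintype.ofFinite _
  have h3 := Nat.card_congr (Equiv.sigmaFiberEquiv (piT hF h2))
  rw [Nat.card_sigma] at h3
  simp only [card_fibre] at h3
  rw [← h3, Finset.sum_const, Finset.card_univ, smul_eq_mul, Nat.card_eq_fintype_card]

include hF in
theorem card_Inv (h2 : (2 : F) ≠ 0) :
    Nat.card {x : ↥(Cfsg.SU 3 F q) // x ≠ 1 ∧ x * x = 1} = q ^ 2 * (q ^ 2 - q + 1) := by
  have hq := two_le_q hF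
  have h3 := card_Inv_mul hF h2
  have h4 := card_NI_add hF
  have hd : 1 ≤ q ^ 2 := Nat.one_le_pow _ _ (by omega)
  have hd' : 0 < q ^ 2 - 1 := by nlinarith [Nat.sub_add_cancel hd]
  have he : q ≤ q ^ 2 := by nlinarith
  apply Nat.eq_of_mul_eq_mul_right hd'
  rw [h3]
  zify [hd, he] at h4 ⊢
  linear_combination h4

include hF in
theorem card_SU3 : Nat.card ↥(Cfsg.SU 3 F q) = q ^ 3 * ((q ^ 2 - 1) * (q ^ 3 + 1)) := by
  have hq := two_le_q hF
  have h3 := card_SU hF 3 (by norm_num)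
  simp only [Finset.prod_range_succ, Finset.prod_range_zero, one_mul] at h3
  norm_num [show (3 * (3 - 1) / 2 : ℕ) = 3 from rfl] at h3
  apply Nat.eq_of_mul_eq_mul_left (by omega : 0 < q + 1)
  rw [h3]
  ring

include hF in
theorem card_cent_mul (h2 : (2 : F) ≠ 0) (t : ↥(Cfsg.SU 3 F q)) (ht : t ≠ 1) (ht2 : t * t = 1) :
    Nat.card ↥(Subgroup.centralizer ({t} : Set ↥(Cfsg.SU 3 F q)))
      * Nat.card {x : ↥(Cfsg.SU 3 F q) // x ≠ 1 ∧ x * x = 1} = Nat.card ↥(Cfsg.SU 3 F q) := by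
  classical
  set C := Subgroup.centralizer ({t} : Set ↥(Cfsg.SU 3 F q)) with hC
  have h1 := Subgroup.card_mul_index C
  rw [← h1]
  congr 1
  have hmem : ∀ g : ↥(Cfsg.SU 3 F q), g ∈ C ↔ g * t = t * g := by
    intro g
    rw [hC, Subgroup.mem_centralizer_singleton_iff]
  let f₀ : ↥(Cfsg.SU 3 F q) → {x : ↥(Cfsg.SU 3 F q) // x ≠ 1 ∧ x * x = 1} := fun g =>
    ⟨g * t * g⁻¹, by
      intro h
      apply ht
      have h3 : t = g⁻¹ * (g * t * g⁻¹) * g := by group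
      rw [h3, h]
      group, by
      have h3 : g * t * g⁻¹ * (g * t * g⁻¹) = g * (t * t) * g⁻¹ := by group
      rw [h3, ht2]
      group⟩
  have hf₀ : ∀ a b, f₀ a = f₀ b ↔ a⁻¹ * b ∈ C := by
    intro a b
    rw [hmem]
    constructor
    · intro h
      have h3 : a * t * a⁻¹ = b * t * b⁻¹ := congrArg Subtype.val h
      have h4 : b = a * (a⁻¹ * b) := by group
      have h5 : a⁻¹ * b * t = a⁻¹ * (b * t * b⁻¹) * b := by group
      rw [h5, ← h3]
      group
    · intro h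
      apply Subtype.ext
      show a * t * a⁻¹ = b * t * b⁻¹
      have h3 : b = a * (a⁻¹ * b) := by group
      have h4 : b * t = a * (a⁻¹ * b * t) := by group
      rw [h4, h]
      group
  let f : ↥(Cfsg.SU 3 F q) ⧸ C → {x : ↥(Cfsg.SU 3 F q) // x ≠ 1 ∧ x * x = 1} :=
    Quotient.lift f₀ (fun a b hab => (hf₀ a b).2 (QuotientGroup.leftRel_apply.1 hab))
  have hf : Function.Bijective f := by
    constructor
    · intro a b
      induction a using QuotientGroup.induction_on with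
      | H a =>
      induction b using QuotientGroup.induction_on with
      | H b =>
      intro hab
      exact QuotientGroup.eq.2 ((hf₀ a b).1 hab)
    · rintro ⟨x, hx1, hx2⟩
      obtain ⟨u, hu, rfl⟩ := exists_T hF h2 t ht ht2
      obtain ⟨v, hv, rfl⟩ := exists_T hF h2 x hx1 hx2
      obtain ⟨g, hg⟩ := T_trans hF hu hv
      exact ⟨(g : ↥(Cfsg.SU 3 F q) ⧸ C), Subtype.ext hg⟩
  exact (Nat.card_eq_of_bijective f hf).symm

include hF in
theorem card_cent (h2 : (2 : F) ≠ 0) (t : ↥(Cfsg.SU 3 F q)) (ht : t ≠ 1) (ht2 : t * t = 1) :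
    Nat.card ↥(Subgroup.centralizer ({t} : Set ↥(Cfsg.SU 3 F q))) = q * (q + 1) * (q ^ 2 - 1) := by
  have hq := two_le_q hF
  have h3 := card_cent_mul hF h2 t ht ht2
  rw [card_Inv hF h2, card_SU3 hF] at h3
  have hd : 1 ≤ q ^ 2 := Nat.one_le_pow _ _ (by omega)
  have he : q ≤ q ^ 2 := by nlinarith
  have hp : 0 < q ^ 2 * (q ^ 2 - q + 1) := by positivity
  apply Nat.eq_of_mul_eq_mul_right hp
  rw [h3]
  zify [hd, he]
  ring

include hF in
theorem part4 (h2 : (2 : F) ≠ 0) (t x : ↥(Cfsg.SU 3 F q)) (ht : t ≠ 1) (ht2 : t * t = 1)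
    (hx : x ≠ 1) (hx2 : x * x = 1) (hxt : x ≠ t) (hc : Commute t x) :
    Nat.card {y : ↥(Cfsg.SU 3 F q) // y ≠ 1 ∧ y * y = 1 ∧ y ≠ t ∧ y ≠ x ∧ Commute t y ∧ Commute x y} = 1 := by
  rw [Nat.card_eq_one_iff_unique]
  constructor
  · constructor
    rintro ⟨y, hy1, hy2, hy3, hy4, hy5, hy6⟩ ⟨y', hy1', hy2', hy3', hy4', hy5', hy6'⟩
    obtain ⟨u, hu, rfl⟩ := exists_T hF h2 t ht ht2
    obtain ⟨v, hv, rfl⟩ := exists_T hF h2 x hx hx2
    obtain ⟨w, hw, rfl⟩ := exists_T hF h2 y hy1 hy2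
    obtain ⟨w', hw', rfl⟩ := exists_T hF h2 y' hy1' hy2'
    have huv := T_comm hF h2 hu hv hc (Ne.symm hxt)
    have a1 : ⟪w, u⟫ = 0 := T_comm hF h2 hw hu hy5.symm hy3
    have a2 : ⟪w, v⟫ = 0 := T_comm hF h2 hw hv hy6.symm hy4
    have a3 : ⟪w', u⟫ = 0 := T_comm hF h2 hw' hu hy5'.symm hy3'
    have a4 : ⟪w', v⟫ = 0 := T_comm hF h2 hw' hv hy6'.symm hy4'
    obtain ⟨c, hc0, hcw⟩ := perp_line hF hu hv huv hw hw' a1 a2 a3 a4
    apply Subtype.ext
    have hk : ⟪c • w', c • w'⟫ ≠ 0 := by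
      rw [← hcw]
      exact hw
    show T hF hw = T hF hw'
    rw [T_congr hF hcw hw hk, T_smul hF hw' hc0 hk]
  · refine ⟨⟨t * x, ?_, ?_, ?_, ?_, ?_, ?_⟩⟩
    · intro h
      apply hxt
      have h3 : x = t⁻¹ := eq_inv_of_mul_eq_one_right h
      have h4 : t⁻¹ = t := inv_eq_of_mul_eq_one_left ht2
      rw [h3, h4]
    · have h3 : t * x * (t * x) = t * (x * t) * x := by group
      rw [h3, ← hc.eq]
      have h4 : t * (t * x) * x = t * t * (x * x) := by group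
      rw [h4, ht2, hx2, one_mul]
    · intro h
      exact hx (mul_left_cancel (a := t) (by rw [h, mul_one]))
    · intro h
      exact ht (mul_right_cancel (b := x) (by rw [h, one_mul]))
    · exact (Commute.refl t).mul_right hc
    · exact hc.symm.mul_right (Commute.refl x)

end main

/-- Let q be odd, F the field with q² elements and S = SU_3(F) (determinant-one isometries of the standard Hermitian form). Then all involutions of S are conjugate; there are exactly q²(q²−q+1) of them; the centralizer of an involution has order q(q+1)(q²−1), the order of the full unitary group of degree 2; and for two distinct commuting involutions t and x there is exactly one further involution commuting with both. -/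
theorem result {F : Type*} [Field F] [Fintype F] {q : ℕ} (hq : Odd q)
    (hF : Fintype.card F = q ^ 2) (t : ↥(Cfsg.SU 3 F q)) (ht : t ≠ 1) (ht2 : t * t = 1) :
    (∀ x : ↥(Cfsg.SU 3 F q), x ≠ 1 → x * x = 1 → ∃ g : ↥(Cfsg.SU 3 F q), g * t * g⁻¹ = x) ∧
    Nat.card {x : ↥(Cfsg.SU 3 F q) // x ≠ 1 ∧ x * x = 1} = q ^ 2 * (q ^ 2 - q + 1) ∧
    Nat.card ↥(Subgroup.centralizer ({t} : Set ↥(Cfsg.SU 3 F q))) = q * (q + 1) * (q ^ 2 - 1) ∧
    ∀ x : ↥(Cfsg.SU 3 F q), x ≠ 1 → x * x = 1 → x ≠ t → Commute t x →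
      Nat.card {y : ↥(Cfsg.SU 3 F q) // y ≠ 1 ∧ y * y = 1 ∧ y ≠ t ∧ y ≠ x ∧ Commute t y ∧ Commute x y} = 1 := by
  have h2 := two_ne_zero_of_odd hF hq
  refine ⟨?_, card_Inv hF h2, card_cent hF h2 t ht ht2, ?_⟩
  · intro x hx hx2
    obtain ⟨u, hu, rfl⟩ := exists_T hF h2 t ht ht2
    obtain ⟨v, hv, rfl⟩ := exists_T hF h2 x hx hx2
    exact T_trans hF hu hv
  · intro x hx hx2 hxt hc
    exact part4 hF h2 t x ht ht2 hx hx2 hxt hc

end Cfsg.Agent.S2360
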