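import Mathlib
import Cfsg.Statements.S2356
import Cfsg.Agent.S2360

set_option autoImplicit false
open Cfsg

namespace Cfsg.Agent.S2356

open Matrix Module
open Cfsg.Agent.Lib.UnitaryBasic Cfsg.Agent.Lib.UnitarySU Cfsg.Agent.Lib.HermFrame
  Cfsg.Agent.Lib.GUParab Cfsg.Agent.Lib.UnitaryE Cfsg.Agent.Lib.HermCount
open Cfsg.Agent.S2360

section group

variable {G : Type*} [Group G]

theorem commute_map (φ : G ≃* G) (a b : G) : Commute (φ a) (φ b) ↔ Commute a b := by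
  unfold Commute SemiconjBy
  rw [← map_mul, ← map_mul, φ.injective.eq_iff]

theorem tr1 (φ : G ≃* G) (t : G) :
    Nat.card {x : G // x ≠ 1 ∧ x * x = 1 ∧ x ≠ t ∧ Commute t x}
      = Nat.card {x : G // x ≠ 1 ∧ x * x = 1 ∧ x ≠ φ t ∧ Commute (φ t) x} := by
  apply Nat.card_congr
  refine Equiv.subtypeEquiv φ.toEquiv ?_
  intro x
  simp only [MulEquiv.toEquiv_eq_coe, EquivLike.coe_coe, ne_eq, commute_map, ← map_mul,
    φ.injective.eq_iff, map_eq_one_iff φ φ.injective]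

theorem tr2 (φ : G ≃* G) (t : G) :
    Nat.card {x : G // x ≠ 1 ∧ x * x = 1 ∧ ¬ Commute t x ∧
        ∃ y : G, y ≠ 1 ∧ y * y = 1 ∧ Commute t y ∧ Commute y x}
      = Nat.card {x : G // x ≠ 1 ∧ x * x = 1 ∧ ¬ Commute (φ t) x ∧
        ∃ y : G, y ≠ 1 ∧ y * y = 1 ∧ Commute (φ t) y ∧ Commute y x} := by
  apply Nat.card_congr
  refine Equiv.subtypeEquiv φ.toEquiv ?_
  intro x
  have hex : (∃ y : G, y ≠ 1 ∧ y * y = 1 ∧ Commute (φ t) y ∧ Commute y (φ x))
      ↔ ∃ y : G, y ≠ 1 ∧ y * y = 1 ∧ Commute t y ∧ Commute y x := by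
    refine (φ.surjective.exists (p := fun y => y ≠ 1 ∧ y * y = 1 ∧ Commute (φ t) y ∧ Commute y (φ x))).trans ?_
    simp only [ne_eq, commute_map, ← map_mul, map_eq_one_iff φ φ.injective]
  simp only [MulEquiv.toEquiv_eq_coe, EquivLike.coe_coe, hex]
  simp only [ne_eq, commute_map, ← map_mul, map_eq_one_iff φ φ.injective]

theorem tr3 (φ : G ≃* G) (t : G) :
    Nat.card {x : G // x ≠ 1 ∧ x * x = 1 ∧ ¬ Commute t x ∧
        ∀ y : G, y ≠ 1 → y * y = 1 → ¬ (Commute t y ∧ Commute y x)}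
      = Nat.card {x : G // x ≠ 1 ∧ x * x = 1 ∧ ¬ Commute (φ t) x ∧
        ∀ y : G, y ≠ 1 → y * y = 1 → ¬ (Commute (φ t) y ∧ Commute y x)} := by
  apply Nat.card_congr
  refine Equiv.subtypeEquiv φ.toEquiv ?_
  intro x
  have hex : (∀ y : G, y ≠ 1 → y * y = 1 → ¬ (Commute (φ t) y ∧ Commute y (φ x)))
      ↔ ∀ y : G, y ≠ 1 → y * y = 1 → ¬ (Commute t y ∧ Commute y x) := by
    refine (φ.surjective.forall (p := fun y => y ≠ 1 → y * y = 1 → ¬ (Commute (φ t) y ∧ Commute y (φ x)))).trans ?_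
    simp only [ne_eq, commute_map, ← map_mul, map_eq_one_iff φ φ.injective]
  simp only [MulEquiv.toEquiv_eq_coe, EquivLike.coe_coe, hex]
  simp only [ne_eq, commute_map, ← map_mul, map_eq_one_iff φ φ.injective]

theorem tr4 (φ : G ≃* G) (t : G)
    (h : ∀ x : G, x ≠ 1 → x * x = 1 → ∃ y z : G, y ≠ 1 ∧ y * y = 1 ∧ z ≠ 1 ∧ z * z = 1 ∧
        Commute (φ t) y ∧ Commute y z ∧ Commute z x) :
    ∀ x : G, x ≠ 1 → x * x = 1 → ∃ y z : G, y ≠ 1 ∧ y * y = 1 ∧ z ≠ 1 ∧ z * z = 1 ∧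
        Commute t y ∧ Commute y z ∧ Commute z x := by
  intro x hx hx2
  obtain ⟨y, z, a1, a2, a3, a4, a5, a6, a7⟩ := h (φ x)
    (by simpa [map_eq_one_iff φ φ.injective] using hx)
    (by rw [← map_mul, hx2, map_one])
  obtain ⟨y, rfl⟩ := φ.surjective y
  obtain ⟨z, rfl⟩ := φ.surjective z
  refine ⟨y, z, ?_, ?_, ?_, ?_, (commute_map φ _ _).1 a5, (commute_map φ _ _).1 a6,
    (commute_map φ _ _).1 a7⟩
  · simpa [map_eq_one_iff φ φ.injective] using a1
  · rw [← map_mul] at a2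
    exact φ.injective (a2.trans (map_one φ).symm)
  · simpa [map_eq_one_iff φ φ.injective] using a3
  · rw [← map_mul] at a4
    exact φ.injective (a4.trans (map_one φ).symm)

theorem inv_partition [Finite G] (t : G) (ht : t ≠ 1) (ht2 : t * t = 1) :
    Nat.card {x : G // x ≠ 1 ∧ x * x = 1}
      = 1 + Nat.card {x : G // x ≠ 1 ∧ x * x = 1 ∧ x ≠ t ∧ Commute t x}
        + Nat.card {x : G // x ≠ 1 ∧ x * x = 1 ∧ ¬ Commute t x ∧
            ∃ y : G, y ≠ 1 ∧ y * y = 1 ∧ Commute t y ∧ Commute y x}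
        + Nat.card {x : G // x ≠ 1 ∧ x * x = 1 ∧ ¬ Commute t x ∧
            ∀ y : G, y ≠ 1 → y * y = 1 → ¬ (Commute t y ∧ Commute y x)} := by
  classical
  haveI : Fintype G := Fintype.ofFinite G
  simp only [Nat.card_eq_fintype_card, Fintype.card_subtype, Finset.card_filter]
  have h1 : ∀ n : ℕ, 1 + n = (∑ x : G, if x = t then 1 else 0) + n := by simp
  rw [add_assoc, add_assoc, h1, ← Finset.sum_add_distrib, ← Finset.sum_add_distrib, ← Finset.sum_add_distrib]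
  apply Finset.sum_congr rfl
  intro x _
  have hiff : (∀ y : G, y ≠ 1 → y * y = 1 → ¬ (Commute t y ∧ Commute y x))
      ↔ ¬ ∃ y : G, y ≠ 1 ∧ y * y = 1 ∧ Commute t y ∧ Commute y x := by
    constructor
    · rintro h ⟨y, a1, a2, a3⟩
      exact h y a1 a2 a3
    · intro h y a1 a2 a3
      exact h ⟨y, a1, a2, a3⟩
  simp only [hiff]
  have hrefl : Commute t t := Commute.refl t
  by_cases hxt : x = t
  · subst hxt
    simp [ht, ht2]
  · rw [if_neg hxt, zero_add]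
    by_cases hA : x ≠ 1 ∧ x * x = 1
    · rw [if_pos hA]
      have a1 := hA.1
      have a2 := hA.2
      by_cases hc : Commute t x
      · simp [hxt, a1, a2, hc]
      · by_cases hy : ∃ y : G, y ≠ 1 ∧ y * y = 1 ∧ Commute t y ∧ Commute y x
        · rw [if_neg (fun h => hc h.2.2.2), if_pos ⟨a1, a2, hc, hy⟩, if_neg (fun h => h.2.2.2 hy)]
          norm_num
        · rw [if_neg (fun h => hc h.2.2.2), if_neg (fun h => hy h.2.2.2), if_pos ⟨a1, a2, hc, hy⟩]
          norm_num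
    · rw [if_neg hA, if_neg (fun h => hA ⟨h.1, h.2.1⟩), if_neg (fun h => hA ⟨h.1, h.2.1⟩),
        if_neg (fun h => hA ⟨h.1, h.2.1⟩)]
      norm_num

end group

variable {F : Type*} [Field F] [Fintype F] {q : ℕ}

local notation "⟪" x ", " y "⟫" => hermForm 3 F q x y

theorem herm_eq (x y : V3 F) : ⟪x, y⟫ = x 0 * y 0 ^ q + x 1 * y 1 ^ q + x 2 * y 2 ^ q := by
  simp [hermForm, Fin.sum_univ_three]

theorem n_eq (w : Fin 2 → F) : hermForm 2 F q w w = w 0 * w 0 ^ q + w 1 * w 1 ^ q := by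
  simp [hermForm, Fin.sum_univ_two]

/-- The third basis vector. -/
def e3 (F : Type*) [Field F] : V3 F := ![0, 0, 1]

/-- The vector `(a, b, 1)`. -/
def vc (w : Fin 2 → F) : V3 F := ![w 0, w 1, 1]

/-- A vector of the plane `z = 0` orthogonal to `(c, d, *)`. -/
def pz (q : ℕ) (c d : F) : V3 F := ![d ^ q, -c ^ q, 0]

theorem vc_self (w : Fin 2 → F) : ⟪vc w, vc w⟫ = hermForm 2 F q w w + 1 := by
  simp [herm_eq, vc, n_eq]

section main

variable (hF : Fintype.card F = q ^ 2)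

include hF in
theorem e3_right (v : V3 F) : ⟪v, e3 F⟫ = v 2 := by
  have hq0 : q ≠ 0 := by
    have := two_le_q hF
    omega
  simp [herm_eq, e3, hq0]

include hF in
theorem pz_self (hq : Odd q) (c d : F) : ⟪pz q c d, pz q c d⟫ = c * c ^ q + d * d ^ q := by
  simp only [herm_eq, pz]
  simp only [Matrix.cons_val_zero, Matrix.cons_val_one, Matrix.cons_val]
  rw [hq.neg_pow, pow_q_pow_q hF, pow_q_pow_q hF]
  have hq0 : q ≠ 0 := by
    have := two_le_q hF
    omega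
  rw [zero_pow hq0]
  ring

include hF in
theorem pz_perp (c d f : F) : ⟪pz q c d, ![c, d, f]⟫ = 0 := by
  simp only [herm_eq, pz]
  simp only [Matrix.cons_val_zero, Matrix.cons_val_one, Matrix.cons_val]
  ring

include hF in
theorem pz_e3 (c d : F) : ⟪pz q c d, e3 F⟫ = 0 := by
  rw [e3_right hF]
  simp [pz]

include hF in
theorem T_comm_of_perp {u v : V3 F} (hu : ⟪u, u⟫ ≠ 0) (hv : ⟪v, v⟫ ≠ 0) (h : ⟪u, v⟫ = 0) :
    Commute (T hF hu) (T hF hv) := by
  have hv' : ⟪mat (T hF hu) *ᵥ v, mat (T hF hu) *ᵥ v⟫ ≠ 0 := by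
    rw [su_iso]
    exact hv
  have h1 := T_conj hF (T hF hu) hv hv'
  have h2 : mat (T hF hu) *ᵥ v = (-1 : F) • v := by
    rw [T_apply, conj_zero' hF h]
    simp
  have h3 : T hF hv' = T hF hv := by
    have hk : ⟪(-1 : F) • v, (-1 : F) • v⟫ ≠ 0 := by
      rw [← h2]
      exact hv'
    rw [T_congr hF h2 hv' hk, T_smul hF hv (by norm_num) hk]
  rw [h3] at h1
  exact h1.symm

theorem T_commute_iff (h2 : (2 : F) ≠ 0) {u v : V3 F} (hu : ⟪u, u⟫ ≠ 0) (hv : ⟪v, v⟫ ≠ 0) :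
    Commute (T hF hu) (T hF hv) ↔ T hF hu = T hF hv ∨ ⟪u, v⟫ = 0 := by
  constructor
  · intro hc
    by_cases h : T hF hu = T hF hv
    · exact Or.inl h
    · exact Or.inr (T_comm hF h2 hu hv hc h)
  · rintro (h | h)
    · rw [h]
    · exact T_comm_of_perp hF hu hv h

include hF in
theorem he3 : ⟪e3 F, e3 F⟫ ≠ 0 := by
  rw [e3_right hF]
  simp [e3]

/-- The involution attached to the third basis vector. -/
noncomputable def t0 : ↥(Cfsg.SU 3 F q) := T hF (he3 hF)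

theorem vc_zero : vc (0 : Fin 2 → F) = e3 F := by
  ext i
  fin_cases i <;> simp [vc, e3]

theorem exists_vc (h2 : (2 : F) ≠ 0) (x : ↥(Cfsg.SU 3 F q)) (hx : x ≠ 1) (hx2 : x * x = 1)
    (hc : ¬ Commute (t0 hF) x) :
    ∃ (w : Fin 2 → F) (hw : ⟪vc w, vc w⟫ ≠ 0), w ≠ 0 ∧ x = T hF hw := by
  obtain ⟨v, hv, rfl⟩ := exists_T hF h2 x hx hx2
  have h3 : v 2 ≠ 0 := by
    intro h0
    apply hc
    apply T_comm_of_perp hF (he3 hF) hv
    apply conj_zero' hF
    rw [e3_right hF, h0]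
  let w : Fin 2 → F := ![(v 2)⁻¹ * v 0, (v 2)⁻¹ * v 1]
  have hvw : vc w = (v 2)⁻¹ • v := by
    ext i
    fin_cases i <;> simp [vc, w, h3]
  have hk : ⟪(v 2)⁻¹ • v, (v 2)⁻¹ • v⟫ ≠ 0 := by
    simp only [herm_smul_left, herm_smul_right]
    exact mul_ne_zero (pow_ne_zero _ (inv_ne_zero h3)) (mul_ne_zero (inv_ne_zero h3) hv)
  have hw : ⟪vc w, vc w⟫ ≠ 0 := by
    rw [hvw]
    exact hk
  have h4 : T hF hw = T hF hv := by
    rw [T_congr hF hvw hw hk, T_smul hF hv (inv_ne_zero h3) hk]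
  refine ⟨w, hw, ?_, h4.symm⟩
  intro h0
  apply hc
  rw [← h4]
  have h5 : vc w = e3 F := by rw [h0, vc_zero]
  show Commute (T hF (he3 hF)) _
  rw [T_congr hF h5 hw (he3 hF)]

theorem vc_not_commute (h2 : (2 : F) ≠ 0) {w : Fin 2 → F} (hw : ⟪vc w, vc w⟫ ≠ 0) (hw0 : w ≠ 0) :
    ¬ Commute (t0 hF) (T hF hw) := by
  intro hc
  rcases (T_commute_iff hF h2 (he3 hF) hw).1 hc with h | h
  · obtain ⟨c, hc0, hc1⟩ := T_prop hF h2 (he3 hF) hw h
    apply hw0
    have a0 := congrFun hc1 0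
    have a1 := congrFun hc1 1
    simp [e3, vc] at a0 a1
    have a0' := a0.resolve_left hc0
    have a1' := a1.resolve_left hc0
    ext i
    fin_cases i
    · exact a0'
    · exact a1'
  · have h3 := conj_zero' hF h
    rw [e3_right hF] at h3
    simp [vc] at h3

theorem vc_inj (h2 : (2 : F) ≠ 0) {w w' : Fin 2 → F} (hw : ⟪vc w, vc w⟫ ≠ 0) (hw' : ⟪vc w', vc w'⟫ ≠ 0)
    (h : T hF hw = T hF hw') : w = w' := by
  obtain ⟨c, hc0, hc1⟩ := T_prop hF h2 hw hw' h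
  have a0 := congrFun hc1 0
  have a1 := congrFun hc1 1
  have a2 := congrFun hc1 2
  simp [vc] at a0 a1 a2
  subst a2
  simp at a0 a1
  ext i
  fin_cases i
  · exact a0
  · exact a1

theorem exists_y_of_ne (hq : Odd q) (h2 : (2 : F) ≠ 0) {w : Fin 2 → F} (hw : ⟪vc w, vc w⟫ ≠ 0)
    (hn : hermForm 2 F q w w ≠ 0) :
    ∃ y : ↥(Cfsg.SU 3 F q), y ≠ 1 ∧ y * y = 1 ∧ Commute (t0 hF) y ∧ Commute y (T hF hw) := by
  have hp : ⟪pz q (w 0) (w 1), pz q (w 0) (w 1)⟫ ≠ 0 := by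
    rw [pz_self hF hq, ← n_eq]
    exact hn
  refine ⟨T hF hp, T_ne_one hF h2 hp, T_mul_self hF hp, ?_, ?_⟩
  · apply T_comm_of_perp hF (he3 hF) hp
    apply conj_zero' hF
    exact pz_e3 hF _ _
  · apply T_comm_of_perp hF hp hw
    exact pz_perp hF (w 0) (w 1) 1

theorem no_y (hq : Odd q) (h2 : (2 : F) ≠ 0) {w : Fin 2 → F} (hw : ⟪vc w, vc w⟫ ≠ 0) (hw0 : w ≠ 0)
    (hn : hermForm 2 F q w w = 0) (y : ↥(Cfsg.SU 3 F q)) (hy : y ≠ 1) (hy2 : y * y = 1) :
    ¬ (Commute (t0 hF) y ∧ Commute y (T hF hw)) := by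
  rintro ⟨a1, a2⟩
  have hnc := vc_not_commute hF h2 hw hw0
  obtain ⟨z, hz, rfl⟩ := exists_T hF h2 y hy hy2
  rcases (T_commute_iff hF h2 (he3 hF) hz).1 a1 with b1 | b1
  · apply hnc
    show Commute (T hF (he3 hF)) _
    rw [b1]
    exact a2
  rcases (T_commute_iff hF h2 hz hw).1 a2 with b2 | b2
  · apply hnc
    rw [← b2]
    exact a1
  have hz2 : z 2 = 0 := by
    have h3 := conj_zero' hF b1
    rwa [e3_right hF] at h3
  rw [herm_eq] at b2
  simp only [vc, Matrix.cons_val_zero, Matrix.cons_val_one, Matrix.cons_val, hz2, zero_mul, add_zero] at b2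
  have hzz : z 0 * z 0 ^ q + z 1 * z 1 ^ q ≠ 0 := by
    intro h0
    apply hz
    rw [herm_eq, hz2]
    have hq0 : q ≠ 0 := by
      have := two_le_q hF
      omega
    rw [zero_pow hq0, mul_zero, add_zero]
    exact h0
  rw [n_eq] at hn
  set a := w 0 with ha
  set b := w 1 with hb
  have hconj : z 0 ^ q * a + z 1 ^ q * b = 0 := by
    have h3 := congrArg (fun c => c ^ q) b2
    have hq0 : q ≠ 0 := by
      have := two_le_q hF
      omega
    simp only [add_pow_q hF, mul_pow, pow_q_pow_q hF, zero_pow hq0] at h3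
    exact h3
  have hk : (z 0 * z 0 ^ q + z 1 * z 1 ^ q) * (a * a ^ q) = 0 := by
    linear_combination (z 0 ^ q * a) * b2 - (z 1 * b ^ q) * hconj + (z 1 * z 1 ^ q) * hn
  have ha0 : a * a ^ q = 0 := (mul_eq_zero.1 hk).resolve_left hzz
  have hb0 : b * b ^ q = 0 := by
    rw [ha0, zero_add] at hn
    exact hn
  have ha1 : a = 0 := by
    rcases mul_eq_zero.1 ha0 with h | h
    · exact h
    · exact (pow_eq_zero_iff (by have := two_le_q hF; omega)).1 h
  have hb1 : b = 0 := by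
    rcases mul_eq_zero.1 hb0 with h | h
    · exact h
    · exact (pow_eq_zero_iff (by have := two_le_q hF; omega)).1 h
  apply hw0
  ext i
  fin_cases i
  · exact ha1
  · exact hb1

include hF in
theorem card_W2 :
    Nat.card {w : Fin 2 → F // hermForm 2 F q w w ≠ 0 ∧ hermForm 2 F q w w ≠ -1}
      + Nat.card {w : Fin 2 → F // hermForm 2 F q w w = 0}
      + Nat.card {w : Fin 2 → F // hermForm 2 F q w w = -1} = q ^ 4 := by
  classical
  have h3 : q ^ 4 = ∑ _w : Fin 2 → F, 1 := by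
    simp [hF, Fintype.card_fun]
    ring
  rw [h3]
  simp only [Nat.card_eq_fintype_card, Fintype.card_subtype, Finset.card_filter]
  rw [← Finset.sum_add_distrib, ← Finset.sum_add_distrib]
  apply Finset.sum_congr rfl
  intro w _
  have hne : (0 : F) ≠ -1 := by
    simp
  by_cases h0 : hermForm 2 F q w w = 0
  · rw [if_neg (fun h => h.1 h0), if_pos h0, if_neg (by rw [h0]; exact hne)]
  · by_cases h1 : hermForm 2 F q w w = -1
    · rw [if_neg (fun h => h.2 h1), if_neg h0, if_pos h1]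
    · rw [if_pos ⟨h0, h1⟩, if_neg h0, if_neg h1]

include hF in
theorem card_W0 :
    Nat.card {w : Fin 2 → F // w ≠ 0 ∧ hermForm 2 F q w w = 0} + 1
      = Nat.card {w : Fin 2 → F // hermForm 2 F q w w = 0} := by
  classical
  have h3 : (1 : ℕ) = ∑ w : Fin 2 → F, if w = 0 then 1 else 0 := by simp
  have h4 : ∀ n : ℕ, n + 1 = n + ∑ w : Fin 2 → F, if w = 0 then 1 else 0 := by simp
  simp only [Nat.card_eq_fintype_card, Fintype.card_subtype, Finset.card_filter]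
  rw [h4, ← Finset.sum_add_distrib]
  apply Finset.sum_congr rfl
  intro w _
  by_cases h0 : w = 0
  · subst h0
    have : hermForm 2 F q (0 : Fin 2 → F) 0 = 0 := by
      rw [n_eq]
      have hq0 : q ≠ 0 := by
        have := two_le_q hF
        omega
      simp [hq0]
    simp [this]
  · simp only [h0, ne_eq, not_false_eq_true, true_and, if_false, add_zero]

include hF in
theorem card_W_neg (hq : Odd q) :
    Nat.card {w : Fin 2 → F // hermForm 2 F q w w = -1} = q * (q ^ 2 - 1) := by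
  have h1 := natCard_herm hF 2 (-1 : F) (by rw [hq.neg_pow, one_pow])
  rw [if_neg (by simp)] at h1
  have hq2 := two_le_q hF
  have hd : 1 ≤ q ^ 2 := Nat.one_le_pow _ _ (by omega)
  zify [hd]
  rw [h1]
  simp [uc]

include hF in
theorem card_X2' (hq : Odd q) :
    Nat.card {w : Fin 2 → F // hermForm 2 F q w w ≠ 0 ∧ hermForm 2 F q w w ≠ -1}
      = q * (q - 2) * (q ^ 2 - 1) := by
  have h1 := card_W2 hF
  have h3 := card_W_neg hF hq
  have h4 := card_isotropic hF 2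
  rw [if_pos (by decide)] at h4
  rw [h3, h4] at h1
  have hq2 := two_le_q hF
  have hd : 1 ≤ q ^ 2 := Nat.one_le_pow _ _ (by omega)
  norm_num at h1
  zify [hd, hq2] at h1 ⊢
  linear_combination h1

include hF in
theorem card_X3' :
    Nat.card {w : Fin 2 → F // w ≠ 0 ∧ hermForm 2 F q w w = 0} = (q + 1) * (q ^ 2 - 1) := by
  have h1 := card_W0 hF
  have h4 := card_isotropic hF 2
  rw [if_pos (by decide)] at h4
  rw [h4] at h1
  norm_num at h1
  rw [h1]
  ring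

/-- The count of the second kind of involutions. -/
theorem card_X2 (hq : Odd q) (h2 : (2 : F) ≠ 0) :
    Nat.card {x : ↥(Cfsg.SU 3 F q) // x ≠ 1 ∧ x * x = 1 ∧ ¬ Commute (t0 hF) x ∧
        ∃ y : ↥(Cfsg.SU 3 F q), y ≠ 1 ∧ y * y = 1 ∧ Commute (t0 hF) y ∧ Commute y x}
      = q * (q - 2) * (q ^ 2 - 1) := by
  rw [← card_X2' hF hq]
  have hww : ∀ w : {w : Fin 2 → F // hermForm 2 F q w w ≠ 0 ∧ hermForm 2 F q w w ≠ -1},
      ⟪vc w.1, vc w.1⟫ ≠ 0 := by
    rintro ⟨w, a1, a2⟩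
    rw [vc_self]
    intro h
    exact a2 (eq_neg_of_add_eq_zero_left h)
  have hw00 : ∀ w : {w : Fin 2 → F // hermForm 2 F q w w ≠ 0 ∧ hermForm 2 F q w w ≠ -1},
      w.1 ≠ 0 := by
    rintro ⟨w, a1, a2⟩ rfl
    apply a1
    rw [n_eq]
    have hq0 : q ≠ 0 := by
      have := two_le_q hF
      omega
    simp [hq0]
  symm
  refine Nat.card_eq_of_bijective (fun w => ⟨T hF (hww w), T_ne_one hF h2 (hww w), T_mul_self hF (hww w),
    vc_not_commute hF h2 (hww w) (hw00 w), exists_y_of_ne hF hq h2 (hww w) w.2.1⟩) ⟨?_, ?_⟩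
  · intro w w' h
    exact Subtype.ext (vc_inj hF h2 (hww w) (hww w') (congrArg Subtype.val h))
  · rintro ⟨x, a1, a2, a3, y, b1, b2, b3, b4⟩
    obtain ⟨w, hw, hw0, rfl⟩ := exists_vc hF h2 x a1 a2 a3
    have hn : hermForm 2 F q w w ≠ 0 := fun h0 => no_y hF hq h2 hw hw0 h0 y b1 b2 ⟨b3, b4⟩
    have hn1 : hermForm 2 F q w w ≠ -1 := by
      intro h
      apply hw
      rw [vc_self, h]
      ring
    exact ⟨⟨w, hn, hn1⟩, rfl⟩

/-- The count of the third kind of involutions. -/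
theorem card_X3 (hq : Odd q) (h2 : (2 : F) ≠ 0) :
    Nat.card {x : ↥(Cfsg.SU 3 F q) // x ≠ 1 ∧ x * x = 1 ∧ ¬ Commute (t0 hF) x ∧
        ∀ y : ↥(Cfsg.SU 3 F q), y ≠ 1 → y * y = 1 → ¬ (Commute (t0 hF) y ∧ Commute y x)}
      = (q + 1) * (q ^ 2 - 1) := by
  rw [← card_X3' hF]
  have hww : ∀ w : {w : Fin 2 → F // w ≠ 0 ∧ hermForm 2 F q w w = 0},
      ⟪vc w.1, vc w.1⟫ ≠ 0 := by
    rintro ⟨w, a1, a2⟩
    rw [vc_self, a2]
    simp
  symm
  refine Nat.card_eq_of_bijective (fun w => ⟨T hF (hww w), T_ne_one hF h2 (hww w), T_mul_self hF (hww w),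
    vc_not_commute hF h2 (hww w) w.2.1, no_y hF hq h2 (hww w) w.2.1 w.2.2⟩) ⟨?_, ?_⟩
  · intro w w' h
    exact Subtype.ext (vc_inj hF h2 (hww w) (hww w') (congrArg Subtype.val h))
  · rintro ⟨x, a1, a2, a3, a4⟩
    obtain ⟨w, hw, hw0, rfl⟩ := exists_vc hF h2 x a1 a2 a3
    have hn : hermForm 2 F q w w = 0 := by
      by_contra hn
      obtain ⟨y, b1, b2, b3⟩ := exists_y_of_ne hF hq h2 hw hn
      exact a4 y b1 b2 b3
    exact ⟨⟨w, hw0, hn⟩, rfl⟩

/-- The count of the first kind of involutions. -/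
theorem card_X1 (hq : Odd q) (h2 : (2 : F) ≠ 0) :
    Nat.card {x : ↥(Cfsg.SU 3 F q) // x ≠ 1 ∧ x * x = 1 ∧ x ≠ t0 hF ∧ Commute (t0 hF) x}
      = q * (q - 1) := by
  have h1 := inv_partition (t0 hF) (T_ne_one hF h2 _) (T_mul_self hF _)
  rw [card_X2 hF hq h2, card_X3 hF hq h2, card_Inv hF h2] at h1
  have hq2 := two_le_q hF
  have hq1 : 1 ≤ q := by omega
  have hd : 1 ≤ q ^ 2 := Nat.one_le_pow _ _ (by omega)
  have he : q ≤ q ^ 2 := by nlinarith
  zify [hd, he, hq2, hq1] at h1 ⊢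
  linear_combination -h1

/-- Diameter three for `t0`. -/
theorem path_t0 (h2 : (2 : F) ≠ 0) (hq : Odd q) (x : ↥(Cfsg.SU 3 F q)) (hx : x ≠ 1) (hx2 : x * x = 1) :
    ∃ y z : ↥(Cfsg.SU 3 F q), y ≠ 1 ∧ y * y = 1 ∧ z ≠ 1 ∧ z * z = 1 ∧
        Commute (t0 hF) y ∧ Commute y z ∧ Commute z x := by
  have ht1 : t0 hF ≠ (1 : ↥(Cfsg.SU 3 F q)) := T_ne_one hF h2 _
  have ht2 : t0 hF * t0 hF = (1 : ↥(Cfsg.SU 3 F q)) := T_mul_self hF _
  by_cases hc : Commute (t0 hF) x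
  · exact ⟨t0 hF, t0 hF, ht1, ht2, ht1, ht2, Commute.refl _, Commute.refl _, hc⟩
  obtain ⟨w, hw, hw0, rfl⟩ := exists_vc hF h2 x hx hx2 hc
  by_cases hn : hermForm 2 F q w w = 0
  · -- the isotropic case
    have hq0 : q ≠ 0 := by
      have := two_le_q hF
      omega
    have key : ∀ (a : F) (v e : V3 F), a ≠ 0 → ⟪v, v⟫ ≠ 0 → ⟪e, e⟫ ≠ 0 → ⟪e, e3 F⟫ = 0 → ⟪e, v⟫ = 0 →
        ⟪v, vc w⟫ = 0 → ∃ y z : ↥(Cfsg.SU 3 F q), y ≠ 1 ∧ y * y = 1 ∧ z ≠ 1 ∧ z * z = 1 ∧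
        Commute (t0 hF) y ∧ Commute y z ∧ Commute z (T hF hw) := by
      intro a v e _ hv he a3 a4 a5
      refine ⟨T hF he, T hF hv, T_ne_one hF h2 he, T_mul_self hF he, T_ne_one hF h2 hv, T_mul_self hF hv,
        T_comm_of_perp hF (he3 hF) he (conj_zero' hF a3), T_comm_of_perp hF he hv a4,
        T_comm_of_perp hF hv hw a5⟩
    have hsum : (1 + w 0 * w 0 ^ q) + (1 + w 1 * w 1 ^ q) = 2 := by
      rw [n_eq] at hn
      linear_combination hn
    by_cases ha : 1 + w 0 * w 0 ^ q = 0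
    · have hb : 1 + w 1 * w 1 ^ q ≠ 0 := by
        intro hb
        apply h2
        rw [← hsum, ha, hb, add_zero]
      refine key 1 ![0, 1, -(w 1) ^ q] ![1, 0, 0] one_ne_zero ?_ ?_ ?_ ?_ ?_
      · rw [herm_eq]
        simp only [Matrix.cons_val_zero, Matrix.cons_val_one, Matrix.cons_val]
        rw [hq.neg_pow, pow_q_pow_q hF, zero_pow hq0, one_pow]
        intro h
        apply hb
        linear_combination h
      · rw [herm_eq]
        simp [hq0]
      · rw [e3_right hF]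
        simp
      · rw [herm_eq]
        simp [hq0]
      · rw [herm_eq]
        simp [vc, hq0]
    · refine key 1 ![1, 0, -(w 0) ^ q] ![0, 1, 0] one_ne_zero ?_ ?_ ?_ ?_ ?_
      · rw [herm_eq]
        simp only [Matrix.cons_val_zero, Matrix.cons_val_one, Matrix.cons_val]
        rw [hq.neg_pow, pow_q_pow_q hF, zero_pow hq0, one_pow]
        intro h
        apply ha
        linear_combination h
      · rw [herm_eq]
        simp [hq0]
      · rw [e3_right hF]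
        simp
      · rw [herm_eq]
        simp [hq0]
      · rw [herm_eq]
        simp [vc, hq0]
  · obtain ⟨y, b1, b2, b3, b4⟩ := exists_y_of_ne hF hq h2 hw hn
    exact ⟨y, y, b1, b2, b1, b2, b3, Commute.refl _, b4⟩

end main

/-- Let q be odd, F the field with q² elements, S = SU_3(F) (determinant-one isometries of the standard Hermitian form) and t an involution of S. Then: exactly q(q−1) involutions other than t commute with t; exactly q(q−2)(q²−1) involutions do not commute with t but commute with some involution commuting with t; exactly (q+1)(q²−1) involutions x do not commute with t and admit no involution commuting with both t and x; and every involution can be reached from t in at most three steps, each step going to an involution that commutes with the previous one (the commuting involution graph is connected of diameter 3). -/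
theorem result {F : Type*} [Field F] [Fintype F] {q : ℕ} (hq : Odd q)
    (hF : Fintype.card F = q ^ 2) (t : ↥(Cfsg.SU 3 F q)) (ht : t ≠ 1) (ht2 : t * t = 1) :
    Nat.card {x : ↥(Cfsg.SU 3 F q) // x ≠ 1 ∧ x * x = 1 ∧ x ≠ t ∧ Commute t x} = q * (q - 1) ∧
    Nat.card {x : ↥(Cfsg.SU 3 F q) // x ≠ 1 ∧ x * x = 1 ∧ ¬ Commute t x ∧
        ∃ y : ↥(Cfsg.SU 3 F q), y ≠ 1 ∧ y * y = 1 ∧ Commute t y ∧ Commute y x} = q * (q - 2) * (q ^ 2 - 1) ∧
    Nat.card {x : ↥(Cfsg.SU 3 F q) // x ≠ 1 ∧ x * x = 1 ∧ ¬ Commute t x ∧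
        ∀ y : ↥(Cfsg.SU 3 F q), y ≠ 1 → y * y = 1 → ¬ (Commute t y ∧ Commute y x)} = (q + 1) * (q ^ 2 - 1) ∧
    ∀ x : ↥(Cfsg.SU 3 F q), x ≠ 1 → x * x = 1 →
      ∃ y z : ↥(Cfsg.SU 3 F q), y ≠ 1 ∧ y * y = 1 ∧ z ≠ 1 ∧ z * z = 1 ∧
        Commute t y ∧ Commute y z ∧ Commute z x := by
  have h2 : (2 : F) ≠ 0 := two_ne_zero_of_odd hF hq
  obtain ⟨u, hu, hut⟩ := exists_T hF h2 t ht ht2
  obtain ⟨g, hg⟩ := T_trans hF hu (he3 hF)
  let φ : ↥(Cfsg.SU 3 F q) ≃* ↥(Cfsg.SU 3 F q) := MulAut.conj g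
  have hφ : φ t = t0 hF := by
    rw [hut]
    exact hg
  refine ⟨?_, ?_, ?_, ?_⟩
  · rw [tr1 φ t, hφ]
    exact card_X1 hF hq h2
  · rw [tr2 φ t, hφ]
    exact card_X2 hF hq h2
  · rw [tr3 φ t, hφ]
    exact card_X3 hF hq h2
  · apply tr4 φ t
    rw [hφ]
    exact path_t0 hF h2 hq

end Cfsg.Agent.S2356
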