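import Mathlib
import Cfsg.Statements.S2444
import Cfsg.Agent.Lib.SLComm.Top4

set_option autoImplicit false
open Cfsg

namespace Cfsg.Agent.S2444

/-- In the special linear group SL(n,F) over a finite field F, with n ≥ 2 and (n, |F|) not (2,2) or (2,3), every element is a commutator a·b·a⁻¹·b⁻¹ of two elements of SL(n,F). -/
theorem result {F : Type*} [Field F] [Fintype F] (n : ℕ) (hn : 2 ≤ n) (hex : n = 2 → 4 ≤ Fintype.card F) :
    ∀ g : Matrix.SpecialLinearGroup (Fin n) F, ∃ a b : Matrix.SpecialLinearGroup (Fin n) F, g = a * b * a⁻¹ * b⁻¹ := by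
  intro g
  classical
  have hE : ¬ Cfsg.Agent.SLComm.Exc (Matrix.toLin' (g : Matrix (Fin n) (Fin n) F)) := by
    rintro ⟨h1, h2, -⟩
    have h3 : n = 2 := by simpa using h1
    have := hex h3
    omega
  have hdet : LinearMap.det (Matrix.toLin' (g : Matrix (Fin n) (Fin n) F)) = 1 := by
    rw [LinearMap.det_toLin']
    exact g.2
  obtain ⟨X, Y, X', Y', hX, hX', hY, hY', hdX, hdY, hA⟩ :=
    Cfsg.Agent.SLComm.main_comm (F := F) n (Fin n → F) (by simp) _ hdet hE
  let φ : Module.End F (Fin n → F) ≃ₐ[F] Matrix (Fin n) (Fin n) F := LinearMap.toMatrixAlgEquiv'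
  have hφd : ∀ Z : Module.End F (Fin n → F), (φ Z).det = LinearMap.det Z := fun Z =>
    LinearMap.det_toMatrix' Z
  have hdX' : LinearMap.det X' = 1 := by
    have := congrArg LinearMap.det hX
    rw [map_mul, hdX, one_mul, map_one] at this
    exact this
  have hdY' : LinearMap.det Y' = 1 := by
    have := congrArg LinearMap.det hY
    rw [map_mul, hdY, one_mul, map_one] at this
    exact this
  let a : Matrix.SpecialLinearGroup (Fin n) F := ⟨φ X, by rw [hφd, hdX]⟩
  let b : Matrix.SpecialLinearGroup (Fin n) F := ⟨φ Y, by rw [hφd, hdY]⟩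
  let a' : Matrix.SpecialLinearGroup (Fin n) F := ⟨φ X', by rw [hφd, hdX']⟩
  let b' : Matrix.SpecialLinearGroup (Fin n) F := ⟨φ Y', by rw [hφd, hdY']⟩
  have haa : a * a' = 1 := by
    apply Subtype.ext
    show φ X * φ X' = 1
    rw [← map_mul, hX, map_one]
  have hbb : b * b' = 1 := by
    apply Subtype.ext
    show φ Y * φ Y' = 1
    rw [← map_mul, hY, map_one]
  have ha' : a⁻¹ = a' := inv_eq_of_mul_eq_one_right haa
  have hb' : b⁻¹ = b' := inv_eq_of_mul_eq_one_right hbb
  refine ⟨a, b, ?_⟩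
  rw [ha', hb']
  apply Subtype.ext
  show (g : Matrix (Fin n) (Fin n) F) = φ X * φ Y * φ X' * φ Y'
  rw [← map_mul, ← map_mul, ← map_mul, ← hA]
  exact (LinearMap.toMatrix'_toLin' _).symm

end Cfsg.Agent.S2444
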