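import Mathlib
import Cfsg.Agent.Lib.SL2Core
import Cfsg.Statements.S2450

set_option autoImplicit false
open Cfsg

namespace Cfsg.Agent.S2450

open Cfsg.Agent.Lib.SL2Core

variable {F : Type*} [Field F]

/-- Conjugate to get a nonzero lower left entry. -/
lemma exists_conj_lower_left (A : SL2 F) (hA : A ∉ Subgroup.center (SL2 F)) :
    ∃ U : SL2 F, ((U * A * U⁻¹ : SL2 F) : Matrix (Fin 2) (Fin 2) F) 1 0 ≠ 0 := by
  by_cases hc : (A : Matrix (Fin 2) (Fin 2) F) 1 0 = 0
  · by_cases hb : (A : Matrix (Fin 2) (Fin 2) F) 0 1 = 0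
    · have hne : (A : Matrix (Fin 2) (Fin 2) F) 0 0 ≠ (A : Matrix (Fin 2) (Fin 2) F) 1 1 := by
        intro h
        exact hA ((mem_center_iff' A).mpr ⟨hb, hc, h⟩)
      refine ⟨mk2 1 0 1 1 (by ring), ?_⟩
      simp only [Matrix.SpecialLinearGroup.coe_mul, mul2, inv00, inv01, inv10, inv11, mk00, mk01, mk10, mk11, hb, hc]
      intro h
      apply hne
      linear_combination h
    · refine ⟨mk2 0 (-1) 1 0 (by ring), ?_⟩
      simp only [Matrix.SpecialLinearGroup.coe_mul, mul2, inv00, inv01, inv10, inv11, mk00, mk01, mk10, mk11, hc]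
      intro h
      apply hb
      linear_combination -h
  · refine ⟨1, ?_⟩
    simpa using hc

/-- the root element -/
def E (x : F) : SL2 F := mk2 1 x 0 1 (by ring)

lemma tr_formula (A B : SL2 F) (x : F) :
    tr (A * (E x * B * (E x)⁻¹)) =
      ((A : Matrix (Fin 2) (Fin 2) F) 0 0 * (B : Matrix (Fin 2) (Fin 2) F) 0 0
        + (A : Matrix (Fin 2) (Fin 2) F) 0 1 * (B : Matrix (Fin 2) (Fin 2) F) 1 0
        + (A : Matrix (Fin 2) (Fin 2) F) 1 0 * (B : Matrix (Fin 2) (Fin 2) F) 0 1
        + (A : Matrix (Fin 2) (Fin 2) F) 1 1 * (B : Matrix (Fin 2) (Fin 2) F) 1 1)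
      + ((A : Matrix (Fin 2) (Fin 2) F) 0 0 * (B : Matrix (Fin 2) (Fin 2) F) 1 0
        - (A : Matrix (Fin 2) (Fin 2) F) 1 1 * (B : Matrix (Fin 2) (Fin 2) F) 1 0
        + (A : Matrix (Fin 2) (Fin 2) F) 1 0 * ((B : Matrix (Fin 2) (Fin 2) F) 1 1 - (B : Matrix (Fin 2) (Fin 2) F) 0 0)) * x
      + (-((A : Matrix (Fin 2) (Fin 2) F) 1 0 * (B : Matrix (Fin 2) (Fin 2) F) 1 0)) * (x * x) := by
  rw [tr_eq]
  simp only [E, Matrix.SpecialLinearGroup.coe_mul, mul2, inv00, inv01, inv10, inv11, mk00, mk01, mk10, mk11]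
  ring

/-- A quadratic function takes any value at most twice, expressed through polynomials. -/
lemma quad_poly_ne_zero (a b c : F) (ha : a ≠ 0) :
    (Polynomial.C a * Polynomial.X ^ 2 + Polynomial.C b * Polynomial.X + Polynomial.C c : Polynomial F) ≠ 0 := by
  intro h
  have := congrArg Polynomial.natDegree h
  rw [Polynomial.natDegree_quadratic ha] at this
  simp at this

lemma quad_const [Fintype F] (h4 : 4 ≤ Fintype.card F) (a b c : F) (ha : a ≠ 0)
    (h : ∀ x : F, (c + b * x + a * (x * x)) * (c + b * x + a * (x * x)) = c * c) : False := by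
  classical
  let P : F → F := fun x => c + b * x + a * (x * x)
  by_cases hc : ringChar F = 2
  · have hch : CharP F 2 := by
      have := ringChar.charP F
      rwa [hc] at this
    have h2 : (2 : F) = 0 := CharTwo.two_eq_zero
    have h3 : ∀ x : F, P x = c := by
      intro x
      have : (P x - c) * (P x - c) = 0 := by
        have h5 := h x
        simp only [P]
        linear_combination h5 - (c + b * x + a * (x * x)) * c * h2 + c * c * h2
      have h6 := mul_self_eq_zero.mp this
      exact sub_eq_zero.mp h6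
    let Q : Polynomial F := Polynomial.C a * Polynomial.X ^ 2 + Polynomial.C b * Polynomial.X + Polynomial.C 0
    have hQ : Q = 0 := by
      apply Polynomial.eq_zero_of_natDegree_lt_card_of_eval_eq_zero (f := (id : F → F)) Q Function.injective_id
      · intro x
        have := h3 x
        simp only [P] at this
        simp [Q]
        linear_combination this
      · rw [Polynomial.natDegree_quadratic ha]; omega
    exact quad_poly_ne_zero a b 0 ha hQ
  · have hodd := FiniteField.odd_card_of_char_ne_two hc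
    have h5 : 5 ≤ Fintype.card F := by omega
    let Q1 : Polynomial F := Polynomial.C a * Polynomial.X ^ 2 + Polynomial.C b * Polynomial.X + Polynomial.C 0
    let Q2 : Polynomial F := Polynomial.C a * Polynomial.X ^ 2 + Polynomial.C b * Polynomial.X + Polynomial.C (2 * c)
    have hQ : Q1 * Q2 = 0 := by
      apply Polynomial.eq_zero_of_natDegree_lt_card_of_eval_eq_zero (f := (id : F → F)) (Q1 * Q2) Function.injective_id
      · intro x
        have := h x
        have e1 : Q1.eval x = a * x ^ 2 + b * x := by simp [Q1]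
        have e2 : Q2.eval x = a * x ^ 2 + b * x + 2 * c := by simp [Q2]
        rw [id, Polynomial.eval_mul, e1, e2]
        linear_combination this
      · rw [Polynomial.natDegree_mul (quad_poly_ne_zero a b 0 ha) (quad_poly_ne_zero a b _ ha),
          Polynomial.natDegree_quadratic ha, Polynomial.natDegree_quadratic ha]
        omega
    rcases mul_eq_zero.mp hQ with h6 | h6
    · exact quad_poly_ne_zero a b 0 ha h6
    · exact quad_poly_ne_zero a b _ ha h6

/-- The Arad–Herzog conjecture for PSL(2,q): let F be a finite field with q ≥ 4 elements. For any two non-identity elements a, b of PSL(2,F), the set of products of a conjugate of a with a conjugate of b is not a single conjugacy class. -/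
theorem result {F : Type*} [Field F] [Fintype F] (h4 : 4 ≤ Fintype.card F)
    (a b : Matrix.ProjectiveSpecialLinearGroup (Fin 2) F) (ha : a ≠ 1) (hb : b ≠ 1) (c : Matrix.ProjectiveSpecialLinearGroup (Fin 2) F) :
    {g : Matrix.ProjectiveSpecialLinearGroup (Fin 2) F | ∃ u v : Matrix.ProjectiveSpecialLinearGroup (Fin 2) F, g = (u * a * u⁻¹) * (v * b * v⁻¹)} ≠ {g | IsConj c g} := by
  intro heq
  obtain ⟨A, rfl⟩ := proj_surjective a
  obtain ⟨B, rfl⟩ := proj_surjective b
  have hA : A ∉ Subgroup.center (SL2 F) := fun h => ha ((proj_eq_one_iff A).mpr h)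
  have hB : B ∉ Subgroup.center (SL2 F) := fun h => hb ((proj_eq_one_iff B).mpr h)
  obtain ⟨U, hU⟩ := exists_conj_lower_left A hA
  obtain ⟨V, hV⟩ := exists_conj_lower_left B hB
  set A' := U * A * U⁻¹ with hA'
  set B' := V * B * V⁻¹ with hB'
  -- all these products are conjugate to c
  have hmem : ∀ x : F, IsConj c (proj (A' * (E x * B' * (E x)⁻¹))) := by
    intro x
    have : proj (A' * (E x * B' * (E x)⁻¹)) ∈ {g : Matrix.ProjectiveSpecialLinearGroup (Fin 2) F | ∃ u v : Matrix.ProjectiveSpecialLinearGroup (Fin 2) F, g = (u * proj A * u⁻¹) * (v * proj B * v⁻¹)} := by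
      refine ⟨proj U, proj (E x * V), ?_⟩
      simp only [hA', hB', map_mul, map_inv]
      group
    rw [heq] at this
    exact this
  have hall : ∀ x : F, tr (A' * (E x * B' * (E x)⁻¹)) * tr (A' * (E x * B' * (E x)⁻¹)) =
      tr (A' * (E 0 * B' * (E 0)⁻¹)) * tr (A' * (E 0 * B' * (E 0)⁻¹)) := by
    intro x
    apply tr_sq_eq_of_isConj
    exact (hmem x).symm.trans (hmem 0)
  simp only [tr_formula] at hall
  exact quad_const h4 (-((A' : Matrix (Fin 2) (Fin 2) F) 1 0 * (B' : Matrix (Fin 2) (Fin 2) F) 1 0))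
    ((A' : Matrix (Fin 2) (Fin 2) F) 0 0 * (B' : Matrix (Fin 2) (Fin 2) F) 1 0
        - (A' : Matrix (Fin 2) (Fin 2) F) 1 1 * (B' : Matrix (Fin 2) (Fin 2) F) 1 0
        + (A' : Matrix (Fin 2) (Fin 2) F) 1 0 * ((B' : Matrix (Fin 2) (Fin 2) F) 1 1 - (B' : Matrix (Fin 2) (Fin 2) F) 0 0))
    ((A' : Matrix (Fin 2) (Fin 2) F) 0 0 * (B' : Matrix (Fin 2) (Fin 2) F) 0 0
        + (A' : Matrix (Fin 2) (Fin 2) F) 0 1 * (B' : Matrix (Fin 2) (Fin 2) F) 1 0
        + (A' : Matrix (Fin 2) (Fin 2) F) 1 0 * (B' : Matrix (Fin 2) (Fin 2) F) 0 1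
        + (A' : Matrix (Fin 2) (Fin 2) F) 1 1 * (B' : Matrix (Fin 2) (Fin 2) F) 1 1)
    (neg_ne_zero.mpr (mul_ne_zero hU hV))
    (fun x => by
      have h5 := hall x
      simp only [mul_zero, add_zero] at h5
      exact h5)

end Cfsg.Agent.S2450
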