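import Mathlib
import Cfsg.Agent.Lib.SL2Core
import Cfsg.Statements.S2455

set_option autoImplicit false
open Cfsg

namespace Cfsg.Agent.S2455

open Cfsg.Agent.Lib.SL2Core

/-- A strong covering result in the direction of Thompson's conjecture (non-identity elements) for PSL(2,q), q odd: let F be a finite field of odd characteristic p with at least 5 elements and let x ∈ PSL(2,F) have order greater than 2 and not divisible by p (so x is not unipotent). Then every non-identity element of PSL(2,F) is a product of two conjugates of x. -/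
theorem result {F : Type*} [Field F] [Fintype F] (p : ℕ) [Fact p.Prime] [CharP F p] (hp : p ≠ 2) (h5 : 5 ≤ Fintype.card F)
    (x : Matrix.ProjectiveSpecialLinearGroup (Fin 2) F) (hx2 : 2 < orderOf x) (hxp : ¬ p ∣ orderOf x) : ∀ g : Matrix.ProjectiveSpecialLinearGroup (Fin 2) F, g ≠ 1 → ∃ u v : Matrix.ProjectiveSpecialLinearGroup (Fin 2) F, g = (u * x * u⁻¹) * (v * x * v⁻¹) := by
  intro g hg
  have hpp : p.Prime := Fact.out
  have hchar : ringChar F ≠ 2 := by
    rw [ringChar.eq F p]; exact hp
  have h2 : (2 : F) ≠ 0 := Ring.two_ne_zero hchar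
  obtain ⟨X, rfl⟩ := proj_surjective x
  obtain ⟨Z, rfl⟩ := proj_surjective g
  have hZ : Z ∉ Subgroup.center (SL2 F) := fun h => hg ((proj_eq_one_iff Z).mpr h)
  -- the trace of X
  have hτ0 : tr X ≠ 0 := by
    intro h0
    have h1 : X * X = negS 1 := by
      apply Subtype.ext
      rw [Matrix.SpecialLinearGroup.coe_mul, cayley, h0]
      simp
    have h3 : (proj X) ^ 2 = 1 := by
      rw [sq, ← map_mul, h1, proj_negS, map_one]
    have h4 := orderOf_dvd_of_pow_eq_one h3
    have h5 := Nat.le_of_dvd (by norm_num) h4
    omega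
  have hτ2 : tr X * tr X ≠ 4 := by
    intro h4
    have h6 : (tr X - 2) * (tr X + 2) = 0 := by linear_combination h4
    have hpow : (proj X) ^ p = 1 := by
      rcases mul_eq_zero.mp h6 with h7 | h7
      · have h8 : tr X = 2 := sub_eq_zero.mp h7
        rw [← map_pow, pow_char_of_tr_two p X h8, map_one]
      · have h8 : tr (negS X) = 2 := by
          rw [tr_negS]; linear_combination -h7
        rw [← proj_negS X, ← map_pow, pow_char_of_tr_two p _ h8, map_one]
    have h9 := orderOf_dvd_of_pow_eq_one hpow
    rcases (Nat.dvd_prime hpp).mp h9 with h10 | h10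
    · omega
    · exact hxp (by rw [h10])
  -- adjust the sign of Z
  by_cases hs : tr Z = 2
  · have hneg : negS Z ∉ Subgroup.center (SL2 F) := by
      intro h
      exact hg ((proj_eq_one_iff Z).mpr (by
        have := (proj_eq_one_iff (negS Z)).mp
        rw [proj_negS] at this
        exact (proj_eq_one_iff Z).mp ((proj_eq_one_iff (negS Z)).mpr h ▸ (proj_negS Z).symm)))
    have hs' : tr (negS Z) ≠ 2 := by
      rw [tr_negS, hs]
      intro h
      apply h2
      have : (4 : F) = 0 := by linear_combination -h
      have h10 : (2 : F) * 2 = 0 := by linear_combination this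
      rcases mul_eq_zero.mp h10 with h11 | h11 <;> exact h11
    obtain ⟨a, c, hac⟩ := conic_point_odd hchar (tr (negS Z)) (tr X) hs' hτ0
    obtain ⟨u, v, huv⟩ := two_conj_of_conic X (negS Z) hτ2 hneg a c hac
    exact ⟨u, v, by rw [← huv, proj_negS]⟩
  · obtain ⟨a, c, hac⟩ := conic_point_odd hchar (tr Z) (tr X) hs hτ0
    exact two_conj_of_conic X Z hτ2 hZ a c hac

end Cfsg.Agent.S2455
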