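import Mathlib
import Cfsg.Agent.Lib.SL2Core
import Cfsg.Statements.S2456

set_option autoImplicit false
open Cfsg

namespace Cfsg.Agent.S2456

open Cfsg.Agent.Lib.SL2Core

/-- A strong covering result in the direction of Thompson's conjecture (non-identity elements) for PSL(2,q), q even: let F be a finite field of characteristic 2 with q ≥ 4 elements and let x ∈ PSL(2,F) have order greater than 2 and not dividing q + 1. Then every non-identity element of PSL(2,F) is a product of two conjugates of x. -/
theorem result {F : Type*} [Field F] [Fintype F] [CharP F 2] (h4 : 4 ≤ Fintype.card F)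
    (x : Matrix.ProjectiveSpecialLinearGroup (Fin 2) F) (hx2 : 2 < orderOf x) (hxq : ¬ orderOf x ∣ Fintype.card F + 1) : ∀ g : Matrix.ProjectiveSpecialLinearGroup (Fin 2) F, g ≠ 1 → ∃ u v : Matrix.ProjectiveSpecialLinearGroup (Fin 2) F, g = (u * x * u⁻¹) * (v * x * v⁻¹) := by
  intro g hg
  have hchar : ringChar F = 2 := ringChar.eq F 2
  have h2 : (2 : F) = 0 := CharTwo.two_eq_zero
  have hneg : ∀ y : F, -y = y := fun y => CharTwo.neg_eq y
  obtain ⟨X, rfl⟩ := proj_surjective x
  obtain ⟨Z, rfl⟩ := proj_surjective g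
  have hZ : Z ∉ Subgroup.center (SL2 F) := fun h => hg ((proj_eq_one_iff Z).mpr h)
  have hτ0 : tr X ≠ 0 := by
    intro h0
    have h1 : X * X = negS 1 := by
      apply Subtype.ext
      rw [Matrix.SpecialLinearGroup.coe_mul, cayley, h0]
      simp
    have h3 : (proj X) ^ 2 = 1 := by
      rw [sq, ← map_mul, h1, proj_negS, map_one]
    have h4 := orderOf_dvd_of_pow_eq_one h3
    have h5 := Nat.le_of_dvd (by norm_num) h4
    omega
  have hτ2 : tr X * tr X ≠ 4 := by
    have h40 : (4 : F) = 0 := by
      have : (4 : F) = 2 * 2 := by norm_num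
      rw [this, h2, zero_mul]
    rw [h40]
    exact mul_ne_zero hτ0 hτ0
  have hsplit : ∃ l : F, l * l - tr X * l + 1 = 0 := by
    by_contra hcon
    push Not at hcon
    apply hxq
    apply orderOf_dvd_of_pow_eq_one
    rw [← map_pow, pow_card_succ_of_nonsplit X hcon, map_one]
  by_cases hs : tr Z = 0
  · obtain ⟨l, hl⟩ := hsplit
    exact two_conj_of_conic X Z hτ2 hZ l 0 (by linear_combination hl)
  · obtain ⟨a, c, hac⟩ := conic_point_even hchar (tr Z) (tr X) hs
    exact two_conj_of_conic X Z hτ2 hZ a c hac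

end Cfsg.Agent.S2456
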