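import Mathlib
import Cfsg.Statements.S2457
import Cfsg.Agent.Lib.SzCharF
import Cfsg.Agent.Lib.SuzukiIso

set_option autoImplicit false
open Cfsg

namespace Cfsg.Agent.S2457

/-- A strong covering result in the direction of Thompson's conjecture (non-identity elements) for the Suzuki groups: let q = 2^(2m+1) ≥ 8, F the field with q elements and Sz(q) the Suzuki group over F. For every element x of Sz(q) of order greater than 2, every non-identity element of Sz(q) is a product of two conjugates of x. -/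
theorem result {F : Type*} [Field F] [Fintype F] (m : ℕ) (hm : 1 ≤ m) (hF : Fintype.card F = 2 ^ (2 * m + 1))
    (x : Cfsg.Lie.Sz F (2 ^ (m + 1))) (hx2 : 2 < orderOf x) : ∀ g : Cfsg.Lie.Sz F (2 ^ (m + 1)), g ≠ 1 → ∃ u v : Cfsg.Lie.Sz F (2 ^ (m + 1)), g = (u * x * u⁻¹) * (v * x * v⁻¹) := by
  intro g hg
  haveI : Cfsg.Agent.Lib.Suzuki.SzHyp F m := ⟨hm, hF⟩
  haveI : CharP F 2 := Cfsg.Agent.Lib.Suzuki.charP_two F m
  letI : Fintype (Cfsg.Sz F m) := Fintype.ofFinite _
  let e := (Cfsg.Agent.Lib.SuzukiIso.szEquiv (F := F) (m := m))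
  have hx' : 2 < orderOf (e.symm x) := by rwa [MulEquiv.orderOf_eq]
  have hg' : e.symm g ≠ 1 := by
    intro h
    apply hg
    have := congrArg e h
    simpa using this
  obtain ⟨u, v, h⟩ := Cfsg.Agent.Lib.SzChar.exists_prod_conj hx' hg'
  refine ⟨e u, e v, ?_⟩
  have := congrArg e h
  simpa [map_mul] using this

end Cfsg.Agent.S2457
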