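import Mathlib
import Cfsg.Statements.S2459
import Cfsg.Agent.Lib.SL3Gauss
import Cfsg.Agent.Lib.SL3Three

set_option autoImplicit false
open Cfsg

namespace Cfsg.Agent.S2459

open Matrix Cfsg.Agent.Lib.SL3Gauss Cfsg.Agent.Lib.SL3Three

/-- The projection to `PSL₃`. -/
def proj {F : Type*} [Field F] : Matrix.SpecialLinearGroup (Fin 3) F →*
    Matrix.ProjectiveSpecialLinearGroup (Fin 3) F := QuotientGroup.mk' _

lemma proj_surjective {F : Type*} [Field F] : Function.Surjective (proj (F := F)) :=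
  QuotientGroup.mk'_surjective _

/-- From matrix factorizations to factorizations in `SL₃`. -/
lemma finish {F : Type*} [Field F] (X Z U₁ U₂ : Matrix.SpecialLinearGroup (Fin 3) F)
    (A B : Matrix (Fin 3) (Fin 3) F) (hZ : (Z : Matrix (Fin 3) (Fin 3) F) = A * B)
    (h3 : A * (U₁ : Matrix (Fin 3) (Fin 3) F) = (U₁ : Matrix (Fin 3) (Fin 3) F) * (X : Matrix (Fin 3) (Fin 3) F))
    (h4 : B * (U₂ : Matrix (Fin 3) (Fin 3) F) = (U₂ : Matrix (Fin 3) (Fin 3) F) * (X : Matrix (Fin 3) (Fin 3) F)) :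
    Z = (U₁ * X * U₁⁻¹) * (U₂ * X * U₂⁻¹) := by
  have key : ∀ (C : Matrix (Fin 3) (Fin 3) F) (U : Matrix.SpecialLinearGroup (Fin 3) F),
      C * (U : Matrix (Fin 3) (Fin 3) F) = (U : Matrix (Fin 3) (Fin 3) F) * (X : Matrix (Fin 3) (Fin 3) F) →
      ((U * X * U⁻¹ : Matrix.SpecialLinearGroup (Fin 3) F) : Matrix (Fin 3) (Fin 3) F) = C := by
    intro C U h
    have h1 : (U : Matrix (Fin 3) (Fin 3) F) * ((U⁻¹ : Matrix.SpecialLinearGroup (Fin 3) F) : Matrix (Fin 3) (Fin 3) F) = 1 := by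
      rw [← Matrix.SpecialLinearGroup.coe_mul]; simp
    rw [Matrix.SpecialLinearGroup.coe_mul, Matrix.SpecialLinearGroup.coe_mul, ← h, Matrix.mul_assoc, h1,
      Matrix.mul_one]
  apply Subtype.ext
  rw [Matrix.SpecialLinearGroup.coe_mul, key A U₁ h3, key B U₂ h4]
  exact hZ

lemma conj_proj {F : Type*} [Field F] (X U : Matrix.SpecialLinearGroup (Fin 3) F) :
    proj (U * X * U⁻¹) = proj U * proj X * (proj U)⁻¹ := by
  rw [map_mul, map_mul, map_inv]

section big

variable {F : Type*} [Field F] [Fintype F]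

lemma Dm_pow (t : F) (ht : t ≠ 0) (n : ℕ) : Dm t ^ n = !![t ^ n, 0, 0; 0, (t⁻¹) ^ n, 0; 0, 0, 1] := by
  induction n with
  | zero =>
    ext i j
    fin_cases i <;> fin_cases j <;> simp
  | succ n ih =>
    rw [pow_succ, ih]
    unfold Dm
    ext i j
    fin_cases i <;> fin_cases j <;>
      simp [Matrix.mul_apply, Fin.sum_univ_three, pow_succ]

theorem main_big (p : ℕ) [Fact p.Prime] [CharP F p] (h4 : 4 ≤ Fintype.card F) :
    ∃ x : Matrix.ProjectiveSpecialLinearGroup (Fin 3) F, ¬ p ∣ orderOf x ∧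
      ∀ g : Matrix.ProjectiveSpecialLinearGroup (Fin 3) F, g ≠ 1 →
        ∃ u v : Matrix.ProjectiveSpecialLinearGroup (Fin 3) F, g = (u * x * u⁻¹) * (v * x * v⁻¹) := by
  classical
  obtain ⟨w, hw⟩ := IsCyclic.exists_ofOrder_eq_natCard (α := Fˣ)
  rw [Nat.card_eq_fintype_card, Fintype.card_units] at hw
  set t : F := (w : F) with ht_def
  have ht : t ≠ 0 := w.ne_zero
  have ht2 : t * t ≠ 1 := by
    intro h
    have h2 : w ^ 2 = 1 := Units.ext (by simpa [pow_two] using h)
    have h3 := orderOf_dvd_of_pow_eq_one h2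
    have h5 := Nat.le_of_dvd (by norm_num) h3
    omega
  have hdetD : (Dm t).det = 1 := by
    unfold Dm
    rw [Matrix.det_fin_three]
    simp [ht]
  let X : Matrix.SpecialLinearGroup (Fin 3) F := ⟨Dm t, hdetD⟩
  refine ⟨proj X, ?_, ?_⟩
  · intro hdvd
    have hpow : X ^ (Fintype.card F - 1) = 1 := by
      apply Subtype.ext
      show (Dm t) ^ (Fintype.card F - 1) = 1
      rw [Dm_pow t ht, FiniteField.pow_card_sub_one_eq_one t ht,
        FiniteField.pow_card_sub_one_eq_one t⁻¹ (inv_ne_zero ht)]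
      ext i j
      fin_cases i <;> fin_cases j <;> simp
    have h1 : (proj X) ^ (Fintype.card F - 1) = 1 := by
      rw [← map_pow, hpow, map_one]
    have h2 := hdvd.trans (orderOf_dvd_of_pow_eq_one h1)
    obtain ⟨n, -, hn⟩ := FiniteField.card F p
    have h3 : p ∣ Fintype.card F := by
      rw [hn]
      exact dvd_pow_self p n.ne_zero
    have h5 := (Nat.dvd_sub h3 h2)
    have h6 : Fintype.card F - (Fintype.card F - 1) = 1 := by omega
    rw [h6] at h5
    exact (Fact.out : p.Prime).one_lt.ne' (Nat.dvd_one.1 h5)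
  · intro g hg
    obtain ⟨Z, rfl⟩ := proj_surjective g
    have hZ : Z ∉ Subgroup.center (Matrix.SpecialLinearGroup (Fin 3) F) := by
      intro h
      apply hg
      exact (QuotientGroup.eq_one_iff Z).2 h
    have hns : ∀ r : F, (Z : Matrix (Fin 3) (Fin 3) F) ≠ Matrix.scalar (Fin 3) r := by
      intro r hr
      apply hZ
      rw [Matrix.SpecialLinearGroup.mem_center_iff]
      refine ⟨r, ?_, hr.symm⟩
      have h1 := Z.2
      rw [hr] at h1
      simpa using h1
    obtain ⟨A, B, W₁, W₂, hAB, h1, h2, h3, h5⟩ := P_of_nonscalar t ht ht2 Z Z.2 hns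
    obtain ⟨W₁', hd1, h6⟩ := fix_det t ht W₁ A h1 h3
    obtain ⟨W₂', hd2, h7⟩ := fix_det t ht W₂ B h2 h5
    let U₁ : Matrix.SpecialLinearGroup (Fin 3) F := ⟨W₁', hd1⟩
    let U₂ : Matrix.SpecialLinearGroup (Fin 3) F := ⟨W₂', hd2⟩
    refine ⟨proj U₁, proj U₂, ?_⟩
    rw [finish X Z U₁ U₂ A B hAB h6 h7, map_mul, conj_proj, conj_proj]

end big

section three

variable {F : Type*} [Field F] [Fintype F] (hF : Fintype.card F = 3)

include hF

lemma h3F : (3 : F) = 0 := by
  have := FiniteField.cast_card_eq_zero F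
  rw [hF] at this
  exact_mod_cast this

lemma cast_mod3 (n : ℕ) : ((n % 3 : ℕ) : F) = (n : F) := by
  conv_rhs => rw [← Nat.mod_add_div n 3]
  push_cast
  rw [h3F hF]
  ring

/-- Interpretation of the natural number matrices in the field. -/
def toM (F : Type*) [Field F] (x : M3) : Matrix (Fin 3) (Fin 3) F :=
  !![(x.a : F), (x.b : F), (x.c : F); (x.d : F), (x.e : F), (x.f : F); (x.g : F), (x.h : F), (x.i : F)]

lemma toM_mul (x y : M3) : toM F (mulM x y) = toM F x * toM F y := by
  have := cast_mod3 (F := F) hF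
  ext i j
  fin_cases i <;> fin_cases j <;>
    simp [toM, mulM, Matrix.mul_apply, Fin.sum_univ_three, this]

lemma det_toM (x : M3) : (toM F x).det = (detM x : F) := by
  have := cast_mod3 (F := F) hF
  have h3 := h3F (F := F) hF
  rw [Matrix.det_fin_three]
  simp only [toM, detM, this]
  simp
  linear_combination (-(x.c : F) * x.e * x.g - x.b * x.d * x.i - x.a * x.f * x.h) * h3

omit hF in
lemma toM_of_beq (x y : M3) (h : beqM x y = true) : toM F x = toM F y := by
  simp only [beqM, Bool.and_eq_true, beq_iff_eq] at h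
  obtain ⟨⟨⟨⟨⟨⟨⟨⟨h1, h2⟩, h3⟩, h4⟩, h5⟩, h6⟩, h7⟩, h8⟩, h9⟩ := h
  simp only [toM, h1, h2, h3, h4, h5, h6, h7, h8, h9]

lemma exists_digit (z : F) : ∃ n ∈ l3, (n : F) = z := by
  have h3 := h3F (F := F) hF
  have h1 : (1 : F) ≠ 0 := one_ne_zero
  have h2 : (2 : F) ≠ 0 := by
    intro h
    apply h1
    linear_combination h3 - h
  have h21 : (2 : F) ≠ 1 := by
    intro h
    apply h1
    linear_combination h
  let f : Fin 3 → F := fun i => ((i : ℕ) : F)
  have hinj : Function.Injective f := by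
    intro i j hij
    fin_cases i <;> fin_cases j <;> simp [f] at hij ⊢ <;>
      first
        | exact absurd hij.symm h1
        | exact absurd hij h1
        | exact absurd hij.symm h2
        | exact absurd hij h2
        | exact absurd hij.symm h21
        | exact absurd hij h21
  have hbij : Function.Bijective f :=
    (Fintype.bijective_iff_injective_and_card f).2 ⟨hinj, by simp [hF]⟩
  obtain ⟨i, hi⟩ := hbij.2 z
  refine ⟨i, ?_, hi⟩
  fin_cases i <;> simp [l3]

lemma eq_one_of_cast (n : ℕ) (hn : n < 3) (h : (n : F) = 1) : n = 1 := by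
  have h3 := h3F (F := F) hF
  have h1 : (1 : F) ≠ 0 := one_ne_zero
  interval_cases n
  · simp at h
  · rfl
  · exfalso
    apply h1
    push_cast at h
    linear_combination h

lemma of_isC (X : M3) (h : isC X = true) :
    (toM F (witM X)).det = 1 ∧ toM F X * toM F (witM X) = toM F (witM X) * toM F cM := by
  simp only [isC, Bool.and_eq_true, beq_iff_eq] at h
  constructor
  · rw [det_toM hF, h.1]; simp
  · rw [← toM_mul hF, ← toM_mul hF]
    exact toM_of_beq _ _ h.2

/-- The finite check, read in the field. -/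
theorem main_three_matrix (Z : Matrix (Fin 3) (Fin 3) F) (hdet : Z.det = 1) (hne : Z ≠ 1) :
    ∃ A B W₁ W₂ : Matrix (Fin 3) (Fin 3) F, Z = A * B ∧ W₁.det = 1 ∧ W₂.det = 1 ∧
      A * W₁ = W₁ * toM F cM ∧ B * W₂ = W₂ * toM F cM := by
  obtain ⟨a, ha, ea⟩ := exists_digit hF (Z 0 0)
  obtain ⟨b, hb, eb⟩ := exists_digit hF (Z 0 1)
  obtain ⟨c, hc, ec⟩ := exists_digit hF (Z 0 2)
  obtain ⟨d, hd, ed⟩ := exists_digit hF (Z 1 0)
  obtain ⟨e, he, ee⟩ := exists_digit hF (Z 1 1)
  obtain ⟨f, hf, ef⟩ := exists_digit hF (Z 1 2)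
  obtain ⟨g, hg, eg⟩ := exists_digit hF (Z 2 0)
  obtain ⟨h, hh, eh⟩ := exists_digit hF (Z 2 1)
  obtain ⟨i, hi, ei⟩ := exists_digit hF (Z 2 2)
  set m : M3 := ⟨a, b, c, d, e, f, g, h, i⟩ with hm
  have hZm : Z = toM F m := by
    rw [Matrix.eta_fin_three Z]
    simp only [toM, hm, ea, eb, ec, ed, ee, ef, eg, eh, ei]
  have htest : testM m = true := by
    have h0 := check_eq
    simp only [check, List.all_eq_true] at h0
    exact h0 a ha b hb c hc d hd e he f hf g hg h hh i hi
  have hdetm : detM m = 1 := by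
    apply eq_one_of_cast hF (detM m) (Nat.mod_lt _ (by norm_num))
    rw [← det_toM hF, ← hZm, hdet]
  simp only [testM, Bool.or_eq_true, bne_iff_ne, List.any_eq_true] at htest
  rcases htest with (h1 | h1) | ⟨A, hA, h1⟩
  · exact absurd hdetm h1
  · exfalso
    apply hne
    rw [hZm, toM_of_beq _ _ h1]
    ext x y
    fin_cases x <;> fin_cases y <;> simp [toM, idM]
  · simp only [Bool.and_eq_true] at h1
    obtain ⟨⟨-, h2⟩, h3⟩ := h1
    have hA' : isC A = true := List.all_eq_true.1 cands_eq A hA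
    obtain ⟨h4, h5⟩ := of_isC hF A hA'
    obtain ⟨h6, h7⟩ := of_isC hF _ h3
    refine ⟨toM F A, toM F (mulM (adjM A) m), _, _, ?_, h4, h6, h5, h7⟩
    rw [hZm, ← toM_mul hF]
    exact (toM_of_beq _ _ h2).symm

theorem main_three (p : ℕ) [Fact p.Prime] [CharP F p] :
    ∃ x : Matrix.ProjectiveSpecialLinearGroup (Fin 3) F, ¬ p ∣ orderOf x ∧
      ∀ g : Matrix.ProjectiveSpecialLinearGroup (Fin 3) F, g ≠ 1 →
        ∃ u v : Matrix.ProjectiveSpecialLinearGroup (Fin 3) F, g = (u * x * u⁻¹) * (v * x * v⁻¹) := by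
  classical
  have hdetC : (toM F cM).det = 1 := by
    rw [det_toM hF]
    have : detM cM = 1 := by decide +kernel
    rw [this]; simp
  let X : Matrix.SpecialLinearGroup (Fin 3) F := ⟨toM F cM, hdetC⟩
  refine ⟨proj X, ?_, ?_⟩
  · intro hdvd
    have hpow : X ^ 13 = 1 := by
      apply Subtype.ext
      show (toM F cM) ^ 13 = 1
      have h1 : toM F c13 = 1 := by
        rw [toM_of_beq _ _ c13_eq]
        ext x y
        fin_cases x <;> fin_cases y <;> simp [toM, idM]
      have h2 : toM F c13 = (toM F cM) ^ 13 := by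
        simp only [c13, toM_mul hF]
        noncomm_ring
      rw [← h2, h1]
    have h1 : (proj X) ^ 13 = 1 := by
      rw [← map_pow, hpow, map_one]
    have h2 := orderOf_dvd_of_pow_eq_one h1
    rcases (Nat.dvd_prime (by norm_num : Nat.Prime 13)).1 h2 with h3 | h3
    · rw [h3] at hdvd
      exact (Fact.out : p.Prime).one_lt.ne' (Nat.dvd_one.1 hdvd)
    · rw [h3] at hdvd
      have hp3 : p ∣ 3 := by
        have := h3F (F := F) hF
        exact (CharP.cast_eq_zero_iff F p 3).1 (by exact_mod_cast this)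
      have hp1 : p ∣ 1 := by
        have := Nat.dvd_sub hdvd (Dvd.dvd.mul_left hp3 4)
        simpa using this
      exact (Fact.out : p.Prime).one_lt.ne' (Nat.dvd_one.1 hp1)
  · intro g hg
    obtain ⟨Z, rfl⟩ := proj_surjective g
    have hZ : (Z : Matrix (Fin 3) (Fin 3) F) ≠ 1 := by
      intro h
      apply hg
      have : Z = 1 := Subtype.ext h
      rw [this, map_one]
    obtain ⟨A, B, W₁, W₂, hAB, h1, h2, h3, h5⟩ := main_three_matrix hF Z Z.2 hZ
    let U₁ : Matrix.SpecialLinearGroup (Fin 3) F := ⟨W₁, h1⟩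
    let U₂ : Matrix.SpecialLinearGroup (Fin 3) F := ⟨W₂, h2⟩
    refine ⟨proj U₁, proj U₂, ?_⟩
    rw [finish X Z U₁ U₂ A B hAB h3 h5, map_mul, conj_proj, conj_proj]

end three

/-- A form of Thompson's conjecture for PSL(3,q), q > 2 (covering the non-identity elements), with a semisimple class: for F a finite field of characteristic p with more than 2 elements there is an element x of PSL(3,F) of order prime to p such that every non-identity element of PSL(3,F) is a product of two conjugates of x. -/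
theorem result {F : Type*} [Field F] [Fintype F] (p : ℕ) [Fact p.Prime] [CharP F p] (h3 : 3 ≤ Fintype.card F) :
    ∃ x : Matrix.ProjectiveSpecialLinearGroup (Fin 3) F, ¬ p ∣ orderOf x ∧ ∀ g : Matrix.ProjectiveSpecialLinearGroup (Fin 3) F, g ≠ 1 → ∃ u v : Matrix.ProjectiveSpecialLinearGroup (Fin 3) F, g = (u * x * u⁻¹) * (v * x * v⁻¹) := by
  by_cases h : Fintype.card F = 3
  · exact main_three h p
  · exact main_big p (by omega)

end Cfsg.Agent.S2459
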