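import Cfsg.Statements.S2460
import Cfsg.Agent.Lib.ThSp4.Main

set_option autoImplicit false
open Cfsg

namespace Cfsg.Agent.S2460

open Matrix Cfsg.Agent.Lib.ThSp4
open scoped MatrixGroups

/-- Existence of an irreducible quadratic with suitable coefficients. -/
lemma exists_data {F : Type*} [Field F] [Fintype F] (h3 : 3 ≤ Fintype.card F) :
    ∃ t δ : F, δ ≠ 0 ∧ δ ≠ 1 ∧ t ≠ 0 ∧ ∀ y : F, y ^ 2 - t * y + δ ≠ 0 := by
  classical
  obtain ⟨δ, hδ⟩ : ∃ δ : F, δ ∉ ({0, 1} : Finset F) := by
    by_contra h
    push Not at h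
    have h1 : (Finset.univ : Finset F) ⊆ {0, 1} := fun y _ => h y
    have h2 := Finset.card_le_card h1
    have h4 : ({0, 1} : Finset F).card ≤ 2 := Finset.card_le_two
    rw [Finset.card_univ] at h2
    omega
  simp only [Finset.mem_insert, Finset.mem_singleton, not_or] at hδ
  obtain ⟨hδ0, hδ1⟩ := hδ
  let S : Finset F := Finset.univ.erase 0
  let φ : F → F := fun y => y + δ / y
  have hlt : (S.image φ).card < S.card := by
    apply lt_of_le_of_ne Finset.card_image_le
    intro h
    have hinj := Finset.card_image_iff.mp h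
    have h1 : (1 : F) = δ := hinj (by simp [S]) (by simp [S, hδ0]) (by
      simp only [φ]
      field_simp
      ring)
    exact hδ1 h1.symm
  obtain ⟨t, ht, ht'⟩ := Finset.exists_mem_notMem_of_card_lt_card hlt
  refine ⟨t, δ, hδ0, hδ1, by simpa [S] using ht, ?_⟩
  intro y hy
  have hy0 : y ≠ 0 := by
    rintro rfl
    apply hδ0
    simpa using hy
  apply ht'
  rw [Finset.mem_image]
  refine ⟨y, by simp [S, hy0], ?_⟩
  simp only [φ]
  field_simp
  linear_combination hy

/-- The element with the given characteristic polynomial has order prime to the characteristic. -/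
lemma exists_pow {F : Type*} [Field F] [Fintype F] (p : ℕ) [Fact p.Prime] [CharP F p] {t δ : F}
    (hP : ∀ y : F, y ^ 2 - t * y + δ ≠ 0) :
    ∃ N : ℕ, ¬ p ∣ N ∧ (comp t δ) ^ (N + 1) = comp t δ := by
  classical
  set P := (comp t δ).charpoly with hPd
  have hform : P = Polynomial.X ^ 2 - Polynomial.C t * Polynomial.X + Polynomial.C δ := by
    rw [hPd, Matrix.charpoly_fin_two, comp_trace, comp_det]
  have hmonic : P.Monic := Matrix.charpoly_monic _
  have hdeg : P.natDegree = 2 := by
    rw [hPd, Matrix.charpoly_natDegree_eq_dim]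
    simp
  have hroots : P.roots = 0 := by
    rw [Multiset.eq_zero_iff_forall_notMem]
    intro y hy
    have := (Polynomial.mem_roots hmonic.ne_zero).mp hy
    rw [Polynomial.IsRoot.def, hform] at this
    apply hP y
    simpa using this
  have hirr : Irreducible P :=
    (Polynomial.Monic.irreducible_iff_roots_eq_zero_of_degree_le_three hmonic (by omega) (by omega)).mpr
      hroots
  haveI : Fact (Irreducible P) := ⟨hirr⟩
  let K := AdjoinRoot P
  haveI : Module.Finite F K := (AdjoinRoot.powerBasis hirr.ne_zero).finite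
  haveI : Finite K := Module.finite_of_finite F
  letI : Fintype K := Fintype.ofFinite K
  haveI : CharP K p := charP_of_injective_algebraMap (algebraMap F K).injective p
  obtain ⟨n, hp, hcard⟩ := FiniteField.card K p
  have hpos : 0 < Fintype.card K := Fintype.card_pos
  refine ⟨Fintype.card K - 1, ?_, ?_⟩
  · intro hd
    have h1 : p ∣ Fintype.card K := by
      rw [hcard]
      exact dvd_pow_self p n.ne_zero
    have h2 : Fintype.card K = (Fintype.card K - 1) + 1 := by omega
    rw [h2] at h1
    have h3 := (Nat.dvd_add_right hd).mp h1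
    exact hp.one_lt.ne' (Nat.dvd_one.mp h3)
  · have h0 : (AdjoinRoot.root P) ^ Fintype.card K = AdjoinRoot.root P := FiniteField.pow_card _
    have h1 : AdjoinRoot.mk P (Polynomial.X ^ Fintype.card K - Polynomial.X) = 0 := by
      rw [map_sub, map_pow, AdjoinRoot.mk_X, sub_eq_zero]
      exact h0
    obtain ⟨R, hR⟩ := AdjoinRoot.mk_eq_zero.mp h1
    have h2 := congrArg (Polynomial.aeval (comp t δ)) hR
    rw [map_mul, hPd, Matrix.aeval_self_charpoly, zero_mul, map_sub, map_pow, Polynomial.aeval_X,
      sub_eq_zero] at h2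
    rw [show Fintype.card K - 1 + 1 = Fintype.card K by omega]
    exact h2

/-- A form of Thompson's conjecture for the simple groups PSp(4,q), q ≥ 3 (covering the non-identity elements), with a semisimple class: for F a finite field of characteristic p with at least 3 elements there is an element x of PSp(4,F) of order prime to p such that every non-identity element of PSp(4,F) is a product of two conjugates of x. -/
theorem result {F : Type*} [Field F] [Fintype F] (p : ℕ) [Fact p.Prime] [CharP F p] (h3 : 3 ≤ Fintype.card F) :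
    ∃ x : Cfsg.PSp 2 F, ¬ p ∣ orderOf x ∧ ∀ g : Cfsg.PSp 2 F, g ≠ 1 → ∃ u v : Cfsg.PSp 2 F, g = (u * x * u⁻¹) * (v * x * v⁻¹) := by
  obtain ⟨t, δ, hδ0, hδ1, ht, hP⟩ := exists_data h3
  let X₀ : GL (Fin 2) F := GeneralLinearGroup.mkOfDetNeZero (comp t δ) (by rw [comp_det]; exact hδ0)
  have hX₀ : X₀.1 = comp t δ := rfl
  obtain ⟨N, hN, hpow⟩ := exists_pow p hP
  have hpow' : X₀ ^ N = 1 := by
    apply Units.ext
    have h1 : (X₀ ^ (N + 1)).1 = X₀.1 := by
      rw [Units.val_pow_eq_pow_val, hX₀]
      exact hpow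
    have h2 : X₀ ^ (N + 1) = X₀ := Units.ext h1
    rw [pow_succ, mul_eq_right] at h2
    rw [h2]
  refine ⟨QuotientGroup.mk (Lv X₀), ?_, ?_⟩
  · intro hd
    apply hN
    apply hd.trans
    apply orderOf_dvd_of_pow_eq_one
    rw [← QuotientGroup.mk_pow, ← map_pow, hpow', map_one]
    rfl
  · intro g hg
    obtain ⟨g₀, rfl⟩ := QuotientGroup.mk_surjective g
    have hg₀ : g₀ ∉ Subgroup.center (Sp4 F) := fun h => hg ((QuotientGroup.eq_one_iff _).mpr h)
    obtain ⟨u, v, huv⟩ := exists_two_conj h3 hδ0 hδ1 ht hP X₀ hX₀ g₀ hg₀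
    refine ⟨QuotientGroup.mk u, QuotientGroup.mk v, ?_⟩
    rw [huv]
    rfl

end Cfsg.Agent.S2460
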