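import Cfsg.Statements.S2461
import Cfsg.Agent.Lib.ThG2.Main
import Cfsg.Agent.Lib.ThG2.Data

set_option autoImplicit false
open Cfsg

namespace Cfsg.Agent.S2461

open Matrix Cfsg.Agent.Lib.ThG2 Cfsg.Lie
open Cfsg.Agent.Lib.ThSp4 (comp comp_trace comp_det)

/-- The element with the given characteristic polynomial has order prime to the characteristic. -/
lemma exists_pow {F : Type*} [Field F] [Fintype F] (p : ℕ) [Fact p.Prime] [CharP F p] {t δ : F}
    (hP : ∀ y : F, y ^ 2 - t * y + δ ≠ 0) :
    ∃ N : ℕ, ¬ p ∣ N ∧ (comp t δ) ^ (N + 1) = comp t δ := by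
  classical
  set P := (comp t δ).charpoly with hPd
  have hform : P = Polynomial.X ^ 2 - Polynomial.C t * Polynomial.X + Polynomial.C δ := by
    rw [hPd, Matrix.charpoly_fin_two, comp_trace, comp_det]
  have hmonic : P.Monic := Matrix.charpoly_monic _
  have hdeg : P.natDegree = 2 := by
    rw [hPd, Matrix.charpoly_natDegree_eq_dim]
    simp
  have hroots : P.roots = 0 := by
    rw [Multiset.eq_zero_iff_forall_notMem]
    intro y hy
    have := (Polynomial.mem_roots hmonic.ne_zero).mp hy
    rw [Polynomial.IsRoot.def, hform] at this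
    apply hP y
    simpa using this
  have hirr : Irreducible P :=
    (Polynomial.Monic.irreducible_iff_roots_eq_zero_of_degree_le_three hmonic (by omega) (by omega)).mpr
      hroots
  haveI : Fact (Irreducible P) := ⟨hirr⟩
  let K := AdjoinRoot P
  haveI : Module.Finite F K := (AdjoinRoot.powerBasis hirr.ne_zero).finite
  haveI : Finite K := Module.finite_of_finite F
  letI : Fintype K := Fintype.ofFinite K
  haveI : CharP K p := charP_of_injective_algebraMap (algebraMap F K).injective p
  obtain ⟨n, hp, hcard⟩ := FiniteField.card K p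
  have hpos : 0 < Fintype.card K := Fintype.card_pos
  refine ⟨Fintype.card K - 1, ?_, ?_⟩
  · intro hd
    have h1 : p ∣ Fintype.card K := by
      rw [hcard]
      exact dvd_pow_self p n.ne_zero
    have h2 : Fintype.card K = (Fintype.card K - 1) + 1 := by omega
    rw [h2] at h1
    have h3 := (Nat.dvd_add_right hd).mp h1
    exact hp.one_lt.ne' (Nat.dvd_one.mp h3)
  · have h0 : (AdjoinRoot.root P) ^ Fintype.card K = AdjoinRoot.root P := FiniteField.pow_card _
    have h1 : AdjoinRoot.mk P (Polynomial.X ^ Fintype.card K - Polynomial.X) = 0 := by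
      rw [map_sub, map_pow, AdjoinRoot.mk_X, sub_eq_zero]
      exact h0
    obtain ⟨R, hR⟩ := AdjoinRoot.mk_eq_zero.mp h1
    have h2 := congrArg (Polynomial.aeval (comp t δ)) hR
    rw [map_mul, hPd, Matrix.aeval_self_charpoly, zero_mul, map_sub, map_pow, Polynomial.aeval_X,
      sub_eq_zero] at h2
    rw [show Fintype.card K - 1 + 1 = Fintype.card K by omega]
    exact h2

/-- A form of Thompson's conjecture for the simple Chevalley groups G₂(q), q ≥ 3 (covering the non-identity elements), with a semisimple class: for F a finite field of characteristic p with at least 3 elements there is an element x of the Chevalley group of type G₂ over F of order prime to p such that every non-identity element of that group is a product of two conjugates of x. -/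
theorem result {F : Type*} [Field F] [Fintype F] (p : ℕ) [Fact p.Prime] [CharP F p] (h3 : 3 ≤ Fintype.card F) :
    ∃ x : Cfsg.Lie.chevG2.group F, ¬ p ∣ orderOf x ∧ ∀ g : Cfsg.Lie.chevG2.group F, g ≠ 1 → ∃ u v : Cfsg.Lie.chevG2.group F, g = (u * x * u⁻¹) * (v * x * v⁻¹) := by
  classical
  obtain ⟨t, δ, hδ1, ht, hP, hD⟩ := exists_data h3
  obtain ⟨e, he⟩ : ∃ e : F, e ∉ ({0, 1} : Finset F) := by
    by_contra h
    push Not at h
    have h1 : (Finset.univ : Finset F) ⊆ {0, 1} := fun y _ => h y
    have h2 := Finset.card_le_card h1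
    have h4 : ({0, 1} : Finset F).card ≤ 2 := Finset.card_le_two
    rw [Finset.card_univ] at h2
    omega
  simp only [Finset.mem_insert, Finset.mem_singleton, not_or] at he
  obtain ⟨he0, he1⟩ := he
  obtain ⟨N, hN, hpow⟩ := exists_pow p hP
  have hpow' : (X0 t δ) ^ N = 1 := by
    apply Units.ext
    have h1 : ((X0 t δ) ^ (N + 1)).1 = (X0 t δ).1 := by
      rw [Units.val_pow_eq_pow_val, X0_val]
      exact hpow
    have h2 : (X0 t δ) ^ (N + 1) = X0 t δ := Units.ext h1
    rw [pow_succ, mul_eq_right] at h2
    rw [h2]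
  refine ⟨⟨phi (X0 t δ), phi_mem_group _⟩, ?_, ?_⟩
  · intro hd
    apply hN
    apply hd.trans
    apply orderOf_dvd_of_pow_eq_one
    apply Subtype.ext
    show (phi (X0 t δ)) ^ N = 1
    rw [← map_pow, hpow', map_one]
  · rintro ⟨g, hg⟩ hg1
    have hg1' : g ≠ 1 := fun h => hg1 (Subtype.ext h)
    obtain ⟨u, hu, v, hv, huv⟩ := two_conj he0 he1 hδ1 ht hP hD hg hg1'
    refine ⟨⟨u, hu⟩, ⟨v, hv⟩, Subtype.ext ?_⟩
    exact huv

end Cfsg.Agent.S2461
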