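import Cfsg.Statements.S2462
import Cfsg.Agent.Lib.Th3D4.Main
import Cfsg.Agent.S2461

set_option autoImplicit false
open Cfsg

namespace Cfsg.Agent.S2462

open Matrix Cfsg.Agent.Lib.Th3D4 Cfsg.Lie Cfsg.Agent.Lib.Chev
open Cfsg.Agent.Lib.ThG2 (X0 X0_val detU_X0)
open Cfsg.Agent.Lib.Chev.TwD4 (hF sc)

variable {K F : Type*} [Field K] [Field F] [Fintype K] (D : Fr K F)

/-- The data of the main theorem. -/
lemma exists_data [Fintype F] (h4 : 4 ≤ Fintype.card K) :
    ∃ (t : F) (δ : Fˣ) (c₀ : Kˣ), D.ιU δ = nmU D.f c₀ ∧ c₀ ≠ 1 ∧ t ≠ 0 ∧ ∀ y : F, y ^ 2 - t * y + (δ : F) ≠ 0 := by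
  classical
  obtain ⟨δ, c₀, hc₀, hc1, y₀, hy₀, hy₀'⟩ : ∃ (δ : Fˣ) (c₀ : Kˣ), D.ιU δ = nmU D.f c₀ ∧ c₀ ≠ 1 ∧
      ∃ y₀ : F, y₀ ≠ 0 ∧ y₀ ^ 2 = -(δ : F) := by
    by_cases h2 : (2 : F) = 0
    · have hU : Nontrivial Kˣ := by
        apply Fintype.one_lt_card_iff_nontrivial.1
        rw [Fintype.card_units]
        omega
      obtain ⟨c₀, hc₁⟩ := exists_ne (1 : Kˣ)
      obtain ⟨δ, hδ⟩ := exists_norm_root D c₀
      refine ⟨δ, c₀, hδ, hc₁, ?_⟩
      have hch : ringChar F = 2 := CharP.ringChar_of_prime_eq_zero Nat.prime_two (by exact_mod_cast h2)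
      obtain ⟨r, hr⟩ := FiniteField.isSquare_of_char_two hch (-(δ : F))
      refine ⟨r, ?_, by rw [hr]; ring⟩
      rintro rfl
      rw [mul_zero] at hr
      exact δ.ne_zero (neg_eq_zero.1 hr)
    · refine ⟨-1, -1, ?_, ?_, 1, one_ne_zero, by simp⟩
      · apply Units.ext
        rw [nmU_val]
        simp
      · intro h
        have h3 := congrArg (fun u : Kˣ => (u : K)) h
        simp only [Units.val_neg, Units.val_one] at h3
        apply h2
        apply D.ι.injective
        simp only [map_ofNat, map_zero]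
        linear_combination -h3
  let S : Finset F := Finset.univ.erase 0
  let φ : F → F := fun y => y + (δ : F) / y
  have hlt : (S.image φ).card < (Finset.univ : Finset F).card := by
    refine lt_of_le_of_lt Finset.card_image_le ?_
    exact Finset.card_erase_lt_of_mem (Finset.mem_univ _)
  obtain ⟨t, -, ht'⟩ := Finset.exists_mem_notMem_of_card_lt_card hlt
  refine ⟨t, δ, c₀, hc₀, hc1, ?_, ?_⟩
  · rintro rfl
    apply ht'
    rw [Finset.mem_image]
    refine ⟨y₀, by simp [S, hy₀], ?_⟩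
    simp only [φ]
    field_simp
    rw [hy₀']
    ring
  · intro y hy
    have hy0 : y ≠ 0 := by
      rintro rfl
      simp at hy
    apply ht'
    rw [Finset.mem_image]
    refine ⟨y, by simp [S, hy0], ?_⟩
    simp only [φ]
    field_simp
    linear_combination hy

/-- The theorem for a given fixed field. -/
theorem main_aux [Fintype F] (p : ℕ) [Fact p.Prime] [CharP K p] [CharP F p] (q : ℕ) (hq : IsPrimePow q)
    (hK : Fintype.card K = q ^ 3) (hf : ∀ t, D.f t = t ^ q) :
    ∃ x : Cfsg.Lie.twistedD4 K q, ¬ p ∣ orderOf x ∧ ∀ g : Cfsg.Lie.twistedD4 K q, g ≠ 1 →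
      ∃ u v : Cfsg.Lie.twistedD4 K q, g = (u * x * u⁻¹) * (v * x * v⁻¹) := by
  classical
  have hG : GG D = twistedD4 K q := TwD4.G1_eq D.f hf D.f3'
  have hS : IsSimpleGroup ↥(GG D) := by
    rw [hG]
    exact (TwD4.simple hq hK).1
  have h4 : 4 ≤ Fintype.card K := TwD4.card_ge hq hK
  obtain ⟨t, δ, c₀, hc₀, hc1, ht, hP⟩ := exists_data D h4
  have hPK := hPK_of D hP
  have hnorm := norm_surj D hq.two_le hK hf
  obtain ⟨N, hN, hpow⟩ := Cfsg.Agent.S2461.exists_pow p hP
  have hpow' : (X0 t δ) ^ N = 1 := by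
    apply Units.ext
    have h1 : ((X0 t δ) ^ (N + 1)).1 = (X0 t δ).1 := by
      rw [Units.val_pow_eq_pow_val, X0_val]
      exact hpow
    have h2 : (X0 t δ) ^ (N + 1) = X0 t δ := Units.ext h1
    rw [pow_succ, mul_eq_right] at h2
    rw [h2]
  have hpowc : c₀ ^ (Fintype.card K - 1) = 1 := by
    rw [← Fintype.card_units]
    exact pow_card_eq_one
  set M := N * (Fintype.card K - 1) with hM
  have hx1 : (x0L D t hc₀) ^ M = 1 := by
    apply Subtype.ext
    apply Prod.ext
    · show (X0 t δ) ^ M = 1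
      rw [hM, pow_mul, hpow', one_pow]
    · show c₀ ^ M = 1
      rw [hM, mul_comm, pow_mul, hpowc, one_pow]
  have hmem : phi D (x0L D t hc₀) ∈ twistedD4 K q := hG ▸ phi_mem D _
  refine ⟨⟨phi D (x0L D t hc₀), hmem⟩, ?_, ?_⟩
  · intro hd
    have h2 : p ∣ M := by
      apply hd.trans
      apply orderOf_dvd_of_pow_eq_one
      apply Subtype.ext
      show (phi D (x0L D t hc₀)) ^ M = 1
      rw [← map_pow, hx1, map_one]
    have hp : p.Prime := Fact.out
    rcases (Nat.Prime.dvd_mul hp).1 h2 with h3 | h3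
    · exact hN h3
    · obtain ⟨n, -, hcard⟩ := FiniteField.card K p
      have h5 : p ∣ Fintype.card K := by
        rw [hcard]
        exact dvd_pow_self p n.ne_zero
      have hpos : 0 < Fintype.card K := Fintype.card_pos
      have h6 : Fintype.card K = (Fintype.card K - 1) + 1 := by omega
      rw [h6] at h5
      have h7 := (Nat.dvd_add_right h3).mp h5
      exact hp.one_lt.ne' (Nat.dvd_one.mp h7)
  · rintro ⟨g, hg⟩ hg1
    have hg1' : g ≠ 1 := fun h => hg1 (Subtype.ext h)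
    have hg' : g ∈ GG D := hG ▸ hg
    obtain ⟨u, hu, v, hv, huv⟩ := two_conj D hS hc₀ hc1 ht hP hPK hnorm hg' hg1'
    refine ⟨⟨u, hG ▸ hu⟩, ⟨v, hG ▸ hv⟩, Subtype.ext ?_⟩
    exact huv

/-- A form of Thompson's conjecture for the triality groups ³D₄(q) (covering the non-identity elements) with a semisimple class: for q a power of the prime p and K the field with q³ elements there is an element x of ³D₄(q) (realised over K) of order prime to p such that every non-identity element of ³D₄(q) is a product of two conjugates of x. -/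
theorem result {K : Type*} [Field K] [Fintype K] (p : ℕ) [Fact p.Prime] [CharP K p] (q : ℕ) (hq : IsPrimePow q) (hK : Fintype.card K = q ^ 3) :
    ∃ x : Cfsg.Lie.twistedD4 K q, ¬ p ∣ orderOf x ∧ ∀ g : Cfsg.Lie.twistedD4 K q, g ≠ 1 → ∃ u v : Cfsg.Lie.twistedD4 K q, g = (u * x * u⁻¹) * (v * x * v⁻¹) := by
  classical
  obtain ⟨f, hf, hf3⟩ := TwD4.exists_frob3 hq hK
  let F₀ : Subfield K := (f : K →+* K).eqLocusField (RingHom.id K)
  let D : Fr K F₀ := ⟨f, F₀.subtype, hf3, fun a => a.2, fun t ht => ⟨⟨t, ht⟩, rfl⟩⟩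
  letI : Fintype F₀ := Fintype.ofFinite _
  haveI : CharP F₀ p := (RingHom.charP_iff F₀.subtype F₀.subtype.injective p).2 inferInstance
  exact main_aux D p q hq hK hf

end Cfsg.Agent.S2462
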