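import Mathlib
import Cfsg.Statements.S2466

set_option autoImplicit false
open Cfsg

namespace Cfsg.Agent.S2466

open Equiv.Perm in
lemma exists_dvd_of_prime_dvd_lcm {c : Multiset ℕ} {r : ℕ} (hr : r.Prime) (h : r ∣ c.lcm) :
    ∃ a ∈ c, r ∣ a := by
  induction c using Multiset.induction_on with
  | empty => 
    simp at h
    exact absurd h hr.one_lt.ne'
  | cons a s ih =>
    rw [Multiset.lcm_cons] at h
    rcases (Nat.Prime.dvd_lcm hr).mp h with h1 | h1
    · exact ⟨a, Multiset.mem_cons_self a s, h1⟩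
    · obtain ⟨b, hb, hb2⟩ := ih h1
      exact ⟨b, Multiset.mem_cons_of_mem hb, hb2⟩

lemma le_sum_of_mem {c : Multiset ℕ} {a : ℕ} (h : a ∈ c) : a ≤ c.sum := by
  obtain ⟨t, rfl⟩ := Multiset.exists_cons_of_mem h
  simp

lemma two_le_sum {c : Multiset ℕ} {a b : ℕ} (ha : a ∈ c) (hb : b ∈ c) (hab : a ≠ b) : a + b ≤ c.sum := by
  obtain ⟨t, rfl⟩ := Multiset.exists_cons_of_mem ha
  have hb' : b ∈ t := by
    rcases Multiset.mem_cons.mp hb with h | h
    · exact absurd h.symm hab
    · exact h
  rw [Multiset.sum_cons]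
  have := le_sum_of_mem hb'
  omega

/-- Adjacency of odd primes in the prime graph of the alternating groups: let r ≠ s be odd primes at most n. The alternating group of degree n has an element of order r·s if and only if r + s ≤ n. -/
theorem result (n r s : ℕ) (hr : r.Prime) (hs : s.Prime) (hr2 : r ≠ 2) (hs2 : s ≠ 2) (hrs : r ≠ s) (hrn : r ≤ n) (hsn : s ≤ n) :
    (r * s ∈ Set.range (orderOf : alternatingGroup (Fin n) → ℕ)) ↔ r + s ≤ n := by
  have hr3 : 3 ≤ r := by have := hr.two_le; omega
  have hs3 : 3 ≤ s := by have := hs.two_le; omega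
  have hrodd : Odd r := hr.odd_of_ne_two hr2
  have hsodd : Odd s := hs.odd_of_ne_two hs2
  constructor
  · rintro ⟨g, hg⟩
    have hg' : orderOf (g : Equiv.Perm (Fin n)) = r * s := by
      rw [← hg]; simp
    have hsum : (g : Equiv.Perm (Fin n)).cycleType.sum ≤ n := by
      simpa using Equiv.Perm.sum_cycleType_le (g : Equiv.Perm (Fin n))
    have hlcm := Equiv.Perm.lcm_cycleType (g : Equiv.Perm (Fin n))
    obtain ⟨a, ha, hra⟩ := exists_dvd_of_prime_dvd_lcm hr (c := (g : Equiv.Perm (Fin n)).cycleType)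
      (by rw [hlcm, hg']; exact dvd_mul_right _ _)
    obtain ⟨b, hb, hsb⟩ := exists_dvd_of_prime_dvd_lcm hs (c := (g : Equiv.Perm (Fin n)).cycleType)
      (by rw [hlcm, hg']; exact dvd_mul_left _ _)
    have hapos : 0 < a := lt_of_lt_of_le (by norm_num) (Equiv.Perm.two_le_of_mem_cycleType ha)
    have hbpos : 0 < b := lt_of_lt_of_le (by norm_num) (Equiv.Perm.two_le_of_mem_cycleType hb)
    by_cases hab : a = b
    · subst hab
      have hcop : Nat.Coprime r s := (Nat.coprime_primes hr hs).mpr hrs
      have h1 : r * s ∣ a := hcop.mul_dvd_of_dvd_of_dvd hra hsb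
      have h2 := Nat.le_of_dvd hapos h1
      have h3 := le_sum_of_mem ha
      have h4 : r + s ≤ r * s := by nlinarith
      omega
    · have h1 := Nat.le_of_dvd hapos hra
      have h2 := Nat.le_of_dvd hbpos hsb
      have h3 := two_le_sum ha hb hab
      omega
  · intro hle
    have hex : ∃ g : Equiv.Perm (Fin n), g.cycleType = {r, s} := by
      rw [Equiv.Perm.exists_with_cycleType_iff]
      constructor
      · simpa using hle
      · intro a ha
        simp only [Multiset.insert_eq_cons, Multiset.mem_cons, Multiset.mem_singleton] at ha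
        rcases ha with rfl | rfl
        · omega
        · omega
    obtain ⟨g, hg⟩ := hex
    have hsign : g ∈ alternatingGroup (Fin n) := by
      rw [Equiv.Perm.mem_alternatingGroup, Equiv.Perm.sign_of_cycleType, hg]
      have : ({r, s} : Multiset ℕ).sum + Multiset.card ({r, s} : Multiset ℕ) = r + s + 2 := by
        simp
      rw [this]
      apply Even.neg_one_pow
      exact (hrodd.add_odd hsodd).add even_two
    refine ⟨⟨g, hsign⟩, ?_⟩
    have h1 : orderOf (⟨g, hsign⟩ : alternatingGroup (Fin n)) = orderOf g := by simp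
    rw [h1, ← Equiv.Perm.lcm_cycleType, hg]
    have hcop : Nat.Coprime r s := (Nat.coprime_primes hr hs).mpr hrs
    simp [Multiset.lcm_cons, lcm_eq_nat_lcm, hcop.lcm_eq_mul]

end Cfsg.Agent.S2466
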