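import Mathlib
import Cfsg.Statements.S2467

set_option autoImplicit false
open Cfsg

namespace Cfsg.Agent.S2467

lemma exists_dvd_of_prime_dvd_lcm {c : Multiset ℕ} {r : ℕ} (hr : r.Prime) (h : r ∣ c.lcm) :
    ∃ a ∈ c, r ∣ a := by
  induction c using Multiset.induction_on with
  | empty => 
    simp at h
    exact absurd h hr.one_lt.ne'
  | cons a s ih =>
    rw [Multiset.lcm_cons] at h
    rcases (Nat.Prime.dvd_lcm hr).mp h with h1 | h1
    · exact ⟨a, Multiset.mem_cons_self a s, h1⟩
    · obtain ⟨b, hb, hb2⟩ := ih h1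
      exact ⟨b, Multiset.mem_cons_of_mem hb, hb2⟩

lemma le_sum_of_mem {c : Multiset ℕ} {a : ℕ} (h : a ∈ c) : a ≤ c.sum := by
  obtain ⟨t, rfl⟩ := Multiset.exists_cons_of_mem h
  simp

lemma dvd_lcm_of_mem {c : Multiset ℕ} {a : ℕ} (h : a ∈ c) : a ∣ c.lcm := Multiset.dvd_lcm h

/-- Adjacency of 2 and an odd prime in the prime graph of the alternating groups: let r be an odd prime at most n, with n ≥ 4. The alternating group of degree n has an element of order 2r if and only if r + 4 ≤ n. -/
theorem result (n r : ℕ) (hn : 4 ≤ n) (hr : r.Prime) (hr2 : r ≠ 2) (hrn : r ≤ n) :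
    (2 * r ∈ Set.range (orderOf : alternatingGroup (Fin n) → ℕ)) ↔ r + 4 ≤ n := by
  have hr3 : 3 ≤ r := by have := hr.two_le; omega
  have hrodd : Odd r := hr.odd_of_ne_two hr2
  constructor
  · rintro ⟨g, hg⟩
    have hg' : orderOf (g : Equiv.Perm (Fin n)) = 2 * r := by
      rw [← hg]; simp
    have hsum : (g : Equiv.Perm (Fin n)).cycleType.sum ≤ n := by
      simpa using Equiv.Perm.sum_cycleType_le (g : Equiv.Perm (Fin n))
    have hlcm := Equiv.Perm.lcm_cycleType (g : Equiv.Perm (Fin n))
    have hsign : (-1 : ℤˣ) ^ ((g : Equiv.Perm (Fin n)).cycleType.sum + Multiset.card (g : Equiv.Perm (Fin n)).cycleType) = 1 := by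
      rw [← Equiv.Perm.sign_of_cycleType]
      exact Equiv.Perm.mem_alternatingGroup.mp g.2
    have h2le : ∀ x ∈ (g : Equiv.Perm (Fin n)).cycleType, 2 ≤ x := fun x hx => Equiv.Perm.two_le_of_mem_cycleType hx
    set c := (g : Equiv.Perm (Fin n)).cycleType with hc
    have hdvd : ∀ x ∈ c, x ∣ 2 * r := by
      intro x hx
      rw [← hg', ← hlcm]
      exact dvd_lcm_of_mem hx
    have hdiv2r : ∀ x, x ∣ 2 * r → x = 1 ∨ x = 2 ∨ x = r ∨ x = 2 * r := by
      intro x hx
      obtain ⟨y, z, hy, hz, rfl⟩ := (Nat.dvd_mul).mp hx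
      rcases (Nat.dvd_prime Nat.prime_two).mp hy with rfl | rfl <;>
      rcases (Nat.dvd_prime hr).mp hz with rfl | rfl <;> simp
    have hcase2r : 2 * r ∈ c → r + 4 ≤ n := by
      intro hmem
      obtain ⟨t, ht⟩ := Multiset.exists_cons_of_mem hmem
      rw [ht] at hsum hsign h2le
      rw [Multiset.sum_cons] at hsum
      by_cases ht0 : t = 0
      · subst ht0
        simp only [Multiset.sum_cons, Multiset.sum_zero, Multiset.card_cons, Multiset.card_zero] at hsign
        have : Odd (2 * r + 0 + (0 + 1)) := ⟨r, by ring⟩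
        have h3 : (-1 : ℤˣ) ^ (2 * r + 0 + (0 + 1)) = -1 := this.neg_one_pow
        exact absurd (h3.symm.trans hsign) (by decide)
      · obtain ⟨x, hx⟩ := Multiset.exists_mem_of_ne_zero ht0
        have h1 := h2le x (Multiset.mem_cons_of_mem hx)
        have h2 := le_sum_of_mem hx
        omega
    obtain ⟨a, ha, hra⟩ := exists_dvd_of_prime_dvd_lcm hr (c := c)
      (by rw [hlcm, hg']; exact dvd_mul_left _ _)
    obtain ⟨b, hb, h2b⟩ := exists_dvd_of_prime_dvd_lcm Nat.prime_two (c := c)
      (by rw [hlcm, hg']; exact dvd_mul_right _ _)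
    rcases hdiv2r a (hdvd a ha) with rfl | rfl | rfl | rfl
    · have := Nat.le_of_dvd (by norm_num) hra
      omega
    · have := Nat.le_of_dvd (by norm_num) hra
      omega
    · rcases hdiv2r b (hdvd b hb) with rfl | rfl | rfl | rfl
      · omega
      · obtain ⟨t, ht⟩ := Multiset.exists_cons_of_mem ha
        have h2t : 2 ∈ t := by
          rw [ht] at hb
          rcases Multiset.mem_cons.mp hb with h | h
          · omega
          · exact h
        obtain ⟨u, hu⟩ := Multiset.exists_cons_of_mem h2t
        rw [ht, hu] at hsum hsign h2le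
        rw [Multiset.sum_cons, Multiset.sum_cons] at hsum
        by_cases hu0 : u = 0
        · subst hu0
          simp only [Multiset.sum_cons, Multiset.sum_zero, Multiset.card_cons, Multiset.card_zero] at hsign
          have : Odd (a + (2 + 0) + (0 + 1 + 1)) := by
            have : a + (2 + 0) + (0 + 1 + 1) = a + 4 := by ring
            rw [this]
            exact hrodd.add_even (by decide)
          have h3 : (-1 : ℤˣ) ^ (a + (2 + 0) + (0 + 1 + 1)) = -1 := this.neg_one_pow
          exact absurd (h3.symm.trans hsign) (by decide)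
        · obtain ⟨x, hx⟩ := Multiset.exists_mem_of_ne_zero hu0
          have h1 := h2le x (Multiset.mem_cons_of_mem (Multiset.mem_cons_of_mem hx))
          have h2 := le_sum_of_mem hx
          omega
      · exact absurd h2b (by
          intro h
          exact (Nat.not_even_iff_odd.mpr hrodd) (even_iff_two_dvd.mpr h))
      · exact hcase2r hb
    · exact hcase2r ha
  · intro hle
    have hex : ∃ g : Equiv.Perm (Fin n), g.cycleType = {r, 2, 2} := by
      rw [Equiv.Perm.exists_with_cycleType_iff]
      constructor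
      · simp
        omega
      · intro a ha
        simp only [Multiset.insert_eq_cons, Multiset.mem_cons, Multiset.mem_singleton] at ha
        rcases ha with rfl | rfl | rfl <;> omega
    obtain ⟨g, hg⟩ := hex
    have hsign : g ∈ alternatingGroup (Fin n) := by
      rw [Equiv.Perm.mem_alternatingGroup, Equiv.Perm.sign_of_cycleType, hg]
      have : ({r, 2, 2} : Multiset ℕ).sum + Multiset.card ({r, 2, 2} : Multiset ℕ) = r + 4 + 3 := by
        simp
      rw [this]
      apply Even.neg_one_pow
      have h7 : Odd (4 + 3) := by decide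
      have : r + 4 + 3 = r + (4 + 3) := by ring
      rw [this]
      exact hrodd.add_odd h7
    refine ⟨⟨g, hsign⟩, ?_⟩
    have h1 : orderOf (⟨g, hsign⟩ : alternatingGroup (Fin n)) = orderOf g := by simp
    rw [h1, ← Equiv.Perm.lcm_cycleType, hg]
    have hcop : Nat.Coprime r 2 := (Nat.coprime_primes hr Nat.prime_two).mpr hr2
    simp [Multiset.lcm_cons, lcm_eq_nat_lcm, hcop.lcm_eq_mul, mul_comm]

end Cfsg.Agent.S2467
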