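import Mathlib
import Cfsg.Agent.Lib.SL2Torus
import Cfsg.Statements.S2471

set_option autoImplicit false
open Cfsg

namespace Cfsg.Agent.S2471

open Cfsg.Agent.Lib.SL2Core Cfsg.Agent.Lib.SL2Torus

/-- In PSL(2,q) with q odd, the characteristic p is isolated from 2 in the prime graph: for F a finite field of odd characteristic p with at least 5 elements, PSL(2,F) has no element of order 2p. -/
theorem result {F : Type*} [Field F] [Fintype F] (p : ℕ) [Fact p.Prime] [CharP F p] (hp : p ≠ 2) (h5 : 5 ≤ Fintype.card F) (g : Matrix.ProjectiveSpecialLinearGroup (Fin 2) F) :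
    orderOf g ≠ 2 * p := by
  intro horder
  have hpp : p.Prime := Fact.out
  have hpq : p ∣ Fintype.card F := by
    rw [← CharP.cast_eq_zero_iff F p]
    exact Nat.cast_card_eq_zero F
  obtain ⟨A, rfl⟩ := proj_surjective g
  have hpm : p ∣ orderOf (proj A) := by
    rw [horder]; exact dvd_mul_left _ _
  have hnot1 : ¬ p ∣ Fintype.card F - 1 := by
    intro h
    have h2 : p ∣ Fintype.card F - (Fintype.card F - 1) := Nat.dvd_sub hpq h
    have h3 : Fintype.card F - (Fintype.card F - 1) = 1 := by omega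
    rw [h3] at h2
    exact hpp.one_lt.ne' (Nat.dvd_one.mp h2)
  have hnot2 : ¬ p ∣ Fintype.card F + 1 := by
    intro h
    have h2 : p ∣ (Fintype.card F + 1) - Fintype.card F := Nat.dvd_sub h hpq
    have h3 : (Fintype.card F + 1) - Fintype.card F = 1 := by omega
    rw [h3] at h2
    exact hpp.one_lt.ne' (Nat.dvd_one.mp h2)
  by_cases ht : tr A * tr A = 4
  · have h1 := orderOf_dvd_of_pow_eq_one (proj_pow_of_parabolic p A ht)
    rw [horder] at h1
    have := Nat.le_of_dvd hpp.pos h1
    have := hpp.pos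
    omega
  · by_cases hs : ∃ l : F, l * l - tr A * l + 1 = 0
    · obtain ⟨l, hl⟩ := hs
      have h1 := orderOf_dvd_of_pow_eq_one (proj_pow_of_split A l hl ht)
      have h2 : p ∣ (Fintype.card F - 1) / Nat.gcd 2 (Fintype.card F - 1) := hpm.trans h1
      exact hnot1 (h2.trans (Nat.div_dvd_of_dvd (Nat.gcd_dvd_right _ _)))
    · push Not at hs
      have h1 := orderOf_dvd_of_pow_eq_one (proj_pow_of_nonsplit A hs)
      have h2 : p ∣ (Fintype.card F + 1) / Nat.gcd 2 (Fintype.card F + 1) := hpm.trans h1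
      exact hnot2 (h2.trans (Nat.div_dvd_of_dvd (Nat.gcd_dvd_right _ _)))

end Cfsg.Agent.S2471
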