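import Cfsg.Statements.S2474
import Mathlib
import Cfsg.Agent.Lib.PGBC6
-- import your own Cfsg.Agent.* helpers here

set_option autoImplicit false
open Cfsg

namespace Cfsg.Agent.S2474

open Cfsg.Agent.Lib.PGBC5 Cfsg.Agent.Lib.PGBC6 in
theorem aux {F : Type*} [Field F] [Fintype F] (p : ℕ) [Fact p.Prime] [CharP F p] (hodd : Odd (Fintype.card F)) {n : ℕ} (hn : 3 ≤ n) {r s : ℕ} (hr : r.Prime) (hs : s.Prime) (hrs : r ≠ s) :
    (r * s ∈ Set.range (orderOf : Cfsg.POmega F (Cfsg.quadFormOdd n F) → ℕ)) ↔ (r * s ∈ Set.range (orderOf : Cfsg.PSp n F → ℕ)) := by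
  have hp2 : p ≠ 2 := by
    rintro rfl
    have h2 := h2_of_odd hodd
    apply h2
    have h3 := CharP.cast_eq_zero F 2
    exact_mod_cast h3
  have hn2 : 2 ≤ n := by omega
  by_cases hr2 : r = 2
  · subst hr2
    by_cases hsp : s = p
    · subst hsp
      rw [mul_comm]
      exact iff_of_true (caseC s hodd hp2 hn).1 (caseC s hodd hp2 hn).2
    · exact caseD p hodd hp2 hn2 hs (Ne.symm hrs) hsp
  by_cases hs2 : s = 2
  · subst hs2
    rw [mul_comm]
    by_cases hrp : r = p
    · subst hrp
      rw [mul_comm]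
      exact iff_of_true (caseC r hodd hp2 hn).1 (caseC r hodd hp2 hn).2
    · exact caseD p hodd hp2 hn2 hr hr2 hrp
  by_cases hrp : r = p
  · subst hrp
    exact caseB r hodd hp2 hn2 hs hs2 (Ne.symm hrs)
  by_cases hsp : s = p
  · subst hsp
    rw [mul_comm]
    exact caseB s hodd hp2 hn2 hr hr2 hrp
  exact caseA p hodd hn2 hr hs hr2 hs2 hrp hsp


/-- For q odd and n ≥ 3 the simple groups PΩ(2n+1,q) and PSp(2n,q) (which have the same order but different sets of element orders) have the same prime graph: for all distinct primes r, s, one of them has an element of order r·s if and only if the other does. -/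
theorem result {F : Type*} [Field F] [Fintype F] (hodd : Odd (Fintype.card F)) (n : ℕ) (hn : 3 ≤ n) (r s : ℕ) (hr : r.Prime) (hs : s.Prime) (hrs : r ≠ s) :
    (r * s ∈ Set.range (orderOf : Cfsg.POmega F (Cfsg.quadFormOdd n F) → ℕ)) ↔ (r * s ∈ Set.range (orderOf : Cfsg.PSp n F → ℕ)) := by
  classical
  haveI hF : Fact (ringChar F).Prime := ⟨CharP.char_is_prime F (ringChar F)⟩
  haveI hC : CharP F (ringChar F) := ringChar.charP F
  exact aux (ringChar F) hodd hn hr hs hrs

end Cfsg.Agent.S2474
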