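import Mathlib
import Cfsg.Statements.S2476
import Cfsg.Agent.Lib.SLDiag

set_option autoImplicit false
open Cfsg

namespace Cfsg.Agent.S2476

open Polynomial Cfsg.Agent.Lib.SLSpec Cfsg.Agent.Lib.SLOrder Cfsg.Agent.Lib.GLSpec Cfsg.Agent.Lib.SLDiag

section arith

lemma gcd_N (q : ℕ) (hq : 2 ≤ q) : Nat.gcd (q ^ 2 + q + 1) (q - 1) = Nat.gcd 3 (q - 1) := by
  obtain ⟨Q, rfl⟩ : ∃ Q, q = Q + 1 := ⟨q - 1, by omega⟩
  simp only [Nat.add_sub_cancel]
  have : (Q + 1) ^ 2 + (Q + 1) + 1 = 3 + Q * (Q + 3) := by ring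
  rw [this]
  simp

lemma singerN_three (q : ℕ) : singerN q 3 = q ^ 2 + q + 1 := by
  simp [singerN, Finset.sum_range_succ]
  ring

lemma singerOm_three (q : ℕ) (hq : 2 ≤ q) :
    singerOm q 3 = (q ^ 2 + q + 1) / Nat.gcd 3 (q - 1) := by
  unfold singerOm
  rw [singerN_three, gcd_N q hq]

lemma sq_sub_one' (Q : ℕ) (hq2 : 2 ≤ Q) : Q ^ 2 - 1 = (Q + 1) * (Q - 1) := by
  obtain ⟨Q', rfl⟩ : ∃ Q', Q = Q' + 2 := ⟨Q - 2, by omega⟩
  have h1 : (Q' + 2) ^ 2 = (Q' + 2 + 1) * (Q' + 2 - 1) + 1 := by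
    have : Q' + 2 - 1 = Q' + 1 := by omega
    rw [this]; ring
  omega

lemma gcd_split (q : ℕ) (hq : 2 ≤ q) : Nat.gcd (q ^ 2 - 1) (q + 2) = Nat.gcd 3 (q - 1) := by
  obtain ⟨Q, rfl⟩ : ∃ Q, q = Q + 2 := ⟨q - 2, by omega⟩
  simp only [show Q + 2 - 1 = Q + 1 by omega]
  have h1 : (Q + 2) ^ 2 - 1 = 3 + (Q + 2 + 2) * Q := by
    have : (Q + 2) ^ 2 = 3 + (Q + 2 + 2) * Q + 1 := by ring
    omega
  rw [h1]
  have h2 : Q + 2 + 2 = 3 + (Q + 1) := by ring
  simp [h2]

end arith


section

variable {F : Type*} [Field F] [Fintype F]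

lemma q_two_le : 2 ≤ Fintype.card F := Fintype.one_lt_card

lemma exists_gen : ∃ γ : Fˣ, orderOf γ = Fintype.card F - 1 := by
  classical
  obtain ⟨γ, hγ⟩ := IsCyclic.exists_ofOrder_eq_natCard (α := Fˣ)
  refine ⟨γ, ?_⟩
  rw [hγ, Nat.card_eq_fintype_card, Fintype.card_units]

lemma unit_pow_iff (γ : Fˣ) (hγ : orderOf γ = Fintype.card F - 1) (t : ℕ) :
    (γ : F) ^ t = 1 ↔ (Fintype.card F - 1) ∣ t := by
  rw [← hγ, orderOf_dvd_iff_pow_eq_one]
  constructor
  · intro h
    apply Units.ext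
    simpa using h
  · intro h
    have := congrArg Units.val h
    simpa using this

/-- The element of order `q - 1`. -/
theorem exists_order_q1 : ∃ x : Matrix.ProjectiveSpecialLinearGroup (Fin 3) F, orderOf x = Fintype.card F - 1 := by
  obtain ⟨γ, hγ⟩ := exists_gen (F := F)
  have h0 : (γ : F) ≠ 0 := γ.ne_zero
  apply exists_orderOf_D (n := 3) (by norm_num) ![(γ : F), (γ : F)⁻¹, 1]
  · simp [Fin.prod_univ_three, h0]
  · intro t
    rw [← unit_pow_iff γ hγ]
    constructor
    · intro h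
      have := h 2
      simpa using this.symm
    · intro h i
      fin_cases i
      · rfl
      · simp [h]
      · simp [h]

/-- The element of order `p (q - 1) / d`. -/
theorem exists_order_pw (p : ℕ) [Fact p.Prime] [CharP F p] : ∃ x : Matrix.ProjectiveSpecialLinearGroup (Fin 3) F,
    orderOf x = p * ((Fintype.card F - 1) / Nat.gcd 3 (Fintype.card F - 1)) := by
  have hp : p.Prime := Fact.out
  obtain ⟨γ, hγ⟩ := exists_gen (F := F)
  have h0 : (γ : F) ≠ 0 := γ.ne_zero
  have hq2 := q_two_le (F := F)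
  set d := Nat.gcd 3 (Fintype.card F - 1) with hd
  have hdpos : 0 < d := Nat.gcd_pos_of_pos_left _ (by norm_num)
  obtain ⟨f, hf⟩ : d ∣ 3 := Nat.gcd_dvd_left _ _
  obtain ⟨w, hw⟩ : d ∣ Fintype.card F - 1 := Nat.gcd_dvd_right _ _
  have hwdef : (Fintype.card F - 1) / d = w := by
    rw [hw, Nat.mul_div_cancel_left _ hdpos]
  rw [hwdef]
  have hcop : Nat.Coprime f w := by
    have h1 := Nat.coprime_div_gcd_div_gcd (m := 3) (n := Fintype.card F - 1) hdpos
    rw [← hd, hwdef] at h1
    have h2 : 3 / d = f := by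
      conv_lhs => rw [hf]
      rw [Nat.mul_div_cancel_left _ hdpos]
    rwa [h2] at h1
  have hpq : ¬ p ∣ Fintype.card F - 1 := by
    intro h
    obtain ⟨k, hk⟩ := FiniteField.card F p
    have h1 : p ∣ Fintype.card F := by
      rw [hk.2]; exact dvd_pow_self _ k.2.ne'
    have h2 : p ∣ Fintype.card F - (Fintype.card F - 1) := Nat.dvd_sub h1 h
    have h3 : Fintype.card F - (Fintype.card F - 1) = 1 := by omega
    rw [h3] at h2
    exact hp.one_lt.ne' (Nat.dvd_one.1 h2)
  have hcopw : Nat.Coprime p w := by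
    rw [Nat.Prime.coprime_iff_not_dvd hp]
    intro h
    exact hpq (h.trans (Dvd.intro_left _ hw.symm))
  apply exists_orderOf_DU (n := 3) p (by norm_num) ![(γ : F), (γ : F), ((γ : F) ^ 2)⁻¹] rfl
  · simp only [Fin.prod_univ_three]
    simp
    field_simp
  · intro t
    have h1 : (∀ i : Fin 3, (![(γ : F), (γ : F), ((γ : F) ^ 2)⁻¹] i) ^ t = (γ : F) ^ t) ↔ (γ : F) ^ (3 * t) = 1 := by
      constructor
      · intro h
        have h2 := h 2
        simp only [Matrix.cons_val_two, Matrix.tail_cons, Matrix.head_cons, Matrix.cons_val] at h2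
        have h3 : (((γ : F) ^ 2)⁻¹) ^ t * ((γ : F) ^ 2) ^ t = 1 := by
          rw [← mul_pow, inv_mul_cancel₀ (pow_ne_zero _ h0), one_pow]
        rw [h2] at h3
        rw [← h3]
        ring
      · intro h i
        have h3 : (((γ : F) ^ 2)⁻¹) ^ t = (γ : F) ^ t := by
          rw [inv_pow, inv_eq_iff_eq_inv, ← pow_mul]
          apply eq_inv_of_mul_eq_one_left
          rw [← h]
          ring
        fin_cases i
        · rfl
        · rfl
        · exact h3
    refine h1.trans ?_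
    rw [unit_pow_iff γ hγ, hw]
    conv_lhs => rw [hf]
    rw [mul_assoc, Nat.mul_dvd_mul_iff_left hdpos]
    exact hcop.symm.dvd_mul_left
  · exact hcopw

/-- The element of order `(q^2 - 1)/d`. -/
theorem exists_order_split (p : ℕ) [Fact p.Prime] [CharP F p] : ∃ x : Matrix.ProjectiveSpecialLinearGroup (Fin 3) F,
    orderOf x = (Fintype.card F ^ 2 - 1) / Nat.gcd 3 (Fintype.card F - 1) := by
  classical
  haveI : NeZero 2 := ⟨by norm_num⟩
  have hp : p.Prime := Fact.out
  let K := FiniteField.Extension F p 2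
  letI : Fintype K := Fintype.ofFinite K
  have hfr : Module.finrank F K = 2 := FiniteField.finrank_extension F p 2
  let b : Module.Basis (Fin 2) F K := Module.finBasisOfFinrankEq F K hfr
  set Q := Fintype.card F with hQ
  have hq2 : 2 ≤ Q := q_two_le
  have hcardK : Nat.card K = Q ^ 2 := by
    rw [FiniteField.natCard_extension, Nat.card_eq_fintype_card]
  have hcardU : Nat.card Kˣ = Q ^ 2 - 1 := by
    rw [Nat.card_eq_fintype_card, Fintype.card_units, ← Nat.card_eq_fintype_card, hcardK]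
  obtain ⟨γ, hγ⟩ := IsCyclic.exists_ofOrder_eq_natCard (α := Kˣ)
  rw [hcardU] at hγ
  have hγ0 : (γ : K) ≠ 0 := γ.ne_zero
  let φ := Algebra.leftMulMatrix b
  have hφinj : Function.Injective φ := Algebra.leftMulMatrix_injective b
  set ν := Algebra.norm F (γ : K) with hν
  have hν0 : ν ≠ 0 := by rw [hν, Algebra.norm_ne_zero_iff]; exact hγ0
  have hdetφ : (φ (γ : K)).det = ν := (Algebra.norm_eq_matrix_det b _).symm
  have hνγ : algebraMap F K ν = (γ : K) ^ (Q + 1) := by
    rw [hν, FiniteField.algebraMap_norm_eq_pow, hcardK, Nat.card_eq_fintype_card, ← hQ]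
    congr 1
    apply Nat.div_eq_of_eq_mul_left (by omega)
    exact sq_sub_one' Q hq2
  set c := ν⁻¹ with hc
  have hcν : c * ν = 1 := inv_mul_cancel₀ hν0
  set d := Nat.gcd 3 (Q - 1) with hd
  have hdpos : 0 < d := Nat.gcd_pos_of_pos_left _ (by norm_num)
  have hd1 : d ∣ Q ^ 2 - 1 := by
    rw [hd]
    rw [← gcd_split Q hq2]
    exact Nat.gcd_dvd_left _ _
  have hd2 : d ∣ Q + 2 := by
    rw [hd]
    rw [← gcd_split Q hq2]
    exact Nat.gcd_dvd_right _ _
  obtain ⟨e, he⟩ := hd1
  obtain ⟨f, hf⟩ := hd2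
  have hedef : (Q ^ 2 - 1) / d = e := by
    rw [he, Nat.mul_div_cancel_left _ hdpos]
  rw [hedef]
  have hcop : Nat.Coprime e f := by
    have h1 := Nat.coprime_div_gcd_div_gcd (m := Q ^ 2 - 1) (n := Q + 2) (by rw [gcd_split Q hq2]; exact hdpos)
    rw [gcd_split Q hq2, ← hd, hedef] at h1
    have h2 : (Q + 2) / d = f := by
      rw [hf, Nat.mul_div_cancel_left _ hdpos]
    rwa [h2] at h1
  let X₀ : Matrix (Fin 3) (Fin 3) F := blockMat 2 1 (φ (γ : K), c • 1)
  have hdet : X₀.det = 1 := by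
    show (blockMat 2 1 (φ (γ : K), c • 1)).det = 1
    rw [det_blockMat, hdetφ]
    simp [Matrix.det_smul, hc, hν0]
  let X : Matrix.SpecialLinearGroup (Fin 3) F := ⟨X₀, hdet⟩
  have hXpow : ∀ t : ℕ, ((X ^ t : Matrix.SpecialLinearGroup (Fin 3) F) : Matrix (Fin 3) (Fin 3) F) =
      blockMat 2 1 (φ ((γ : K) ^ t), (c ^ t) • 1) := by
    intro t
    rw [Matrix.SpecialLinearGroup.coe_pow]
    show (blockMat 2 1 (φ (γ : K), c • 1)) ^ t = _
    rw [← map_pow, Prod.pow_mk, map_pow, _root_.smul_pow, one_pow]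
  have hscalar : ∀ κ : F, κ • (1 : Matrix (Fin 2) (Fin 2) F) = φ (algebraMap F K κ) := by
    intro κ
    rw [AlgHom.commutes, Algebra.algebraMap_eq_smul_one]
  have hγpow : ∀ t : ℕ, (γ : K) ^ t = 1 ↔ (Q ^ 2 - 1) ∣ t := by
    intro t
    rw [← hγ, orderOf_dvd_iff_pow_eq_one]
    constructor
    · intro h
      apply Units.ext
      simpa using h
    · intro h
      have := congrArg Units.val h
      simpa using this
  refine ⟨proj X, Cfsg.Agent.Lib.SL2Torus.orderOf_eq_of_pow_iff _ _ ?_⟩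
  intro t
  rw [← map_pow, proj_eq_one_iff]
  constructor
  · intro h
    obtain ⟨κ, hκ⟩ := scalar_of_mem_center _ h
    rw [hXpow] at hκ
    have hκ' : blockMat 2 1 (φ ((γ : K) ^ t), (c ^ t) • (1 : Matrix (Fin 1) (Fin 1) F)) =
        blockMat 2 1 (κ • (1 : Matrix (Fin 2) (Fin 2) F), κ • (1 : Matrix (Fin 1) (Fin 1) F)) := by
      rw [blockMat_smul_one]; exact hκ
    have h1 := blockMat_injective 2 1 hκ'
    have h2 : φ ((γ : K) ^ t) = κ • 1 := congrArg Prod.fst h1
    have h3 : c ^ t • (1 : Matrix (Fin 1) (Fin 1) F) = κ • 1 := congrArg Prod.snd h1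
    have h4 : c ^ t = κ := by
      have := congrFun (congrFun h3 0) 0
      simpa using this
    rw [hscalar] at h2
    have h5 := hφinj h2
    have h6 : (γ : K) ^ ((Q + 2) * t) = 1 := by
      have h7 : (Q + 2) * t = t + (Q + 1) * t := by ring
      rw [h7, pow_add, pow_mul, ← hνγ, h5, ← h4, ← map_pow, ← map_mul, ← mul_pow, hcν, one_pow, map_one]
    rw [hγpow, he, hf, mul_assoc, Nat.mul_dvd_mul_iff_left hdpos] at h6
    exact hcop.dvd_of_dvd_mul_left h6
  · rintro ⟨w, rfl⟩
    rw [pow_mul]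
    apply Subgroup.pow_mem
    apply mem_center_of_scalar _ (c ^ e)
    rw [hXpow]
    show _ = ((c ^ e) • 1 : Matrix (Fin (2 + 1)) (Fin (2 + 1)) F)
    rw [← blockMat_smul_one]
    have h1 : (γ : K) ^ e = algebraMap F K (c ^ e) := by
      have h2 : (γ : K) ^ ((Q + 2) * e) = 1 := by
        rw [hγpow, he, hf]
        exact ⟨f, by ring⟩
      have h7 : (Q + 2) * e = e + (Q + 1) * e := by ring
      rw [h7, pow_add, pow_mul, ← hνγ] at h2
      have h8 : algebraMap F K (c ^ e) * algebraMap F K (ν ^ e) = 1 := by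
        rw [← map_mul, ← mul_pow, hcν, one_pow, map_one]
      rw [map_pow (algebraMap F K) ν e] at h8
      have h9 : algebraMap F K ν ^ e ≠ 0 := by
        apply pow_ne_zero
        rw [hνγ]
        exact pow_ne_zero _ hγ0
      exact mul_right_cancel₀ h9 (h2.trans h8.symm)
    rw [h1, ← hscalar]

end


section upper

variable {F : Type*} [Field F] [Fintype F]

/-- The nonsplit case. -/
lemma dvd_of_irred_quadratic (a : F) (g : F[X]) (hg : Irreducible g) (hgm : g.Monic) (hdeg : g.natDegree = 2)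
    (ha : a * g.coeff 0 = 1) :
    (X - C a) * g ∣ X ^ ((Fintype.card F ^ 2 - 1) / Nat.gcd 3 (Fintype.card F - 1)) -
      C (a ^ ((Fintype.card F ^ 2 - 1) / Nat.gcd 3 (Fintype.card F - 1))) := by
  classical
  set Q := Fintype.card F with hQ
  have hq2 : 2 ≤ Q := q_two_le
  set d := Nat.gcd 3 (Q - 1) with hd
  have hdpos : 0 < d := Nat.gcd_pos_of_pos_left _ (by norm_num)
  obtain ⟨e, he⟩ : d ∣ Q ^ 2 - 1 := by
    rw [hd, ← gcd_split Q hq2]
    exact Nat.gcd_dvd_left _ _
  obtain ⟨f, hf⟩ : d ∣ Q + 2 := by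
    rw [hd, ← gcd_split Q hq2]
    exact Nat.gcd_dvd_right _ _
  have hedef : (Q ^ 2 - 1) / d = e := by
    rw [he, Nat.mul_div_cancel_left _ hdpos]
  rw [hedef]
  haveI : Fact (Irreducible g) := ⟨hg⟩
  let K := AdjoinRoot g
  let pb := AdjoinRoot.powerBasis hg.ne_zero
  haveI : Module.Finite F K := pb.finite
  haveI : Finite K := Module.finite_of_finite F
  letI : Fintype K := Fintype.ofFinite K
  have hfr : Module.finrank F K = 2 := by
    rw [pb.finrank, AdjoinRoot.powerBasis_dim, hdeg]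
  have hcard : Nat.card K = Q ^ 2 := by
    rw [Nat.card_eq_fintype_card, Module.card_eq_pow_finrank (K := F) (V := K), hfr]
  let θ : K := AdjoinRoot.root g
  have hmk : ∀ h : F[X], AdjoinRoot.mk g h = aeval θ h := by
    intro h
    rw [AdjoinRoot.aeval_eq]
  have hnorm : Algebra.norm F θ = g.coeff 0 := by
    have h1 := Algebra.PowerBasis.norm_gen_eq_coeff_zero_minpoly pb
    have h2 : pb.gen = θ := AdjoinRoot.powerBasis_gen hg.ne_zero
    have h3 : minpoly F θ = g := by
      rw [AdjoinRoot.minpoly_root hg.ne_zero, hgm.leadingCoeff]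
      simp
    rw [h2, h3, AdjoinRoot.powerBasis_dim, hdeg] at h1
    rw [h1]
    simp
  have hv : algebraMap F K (g.coeff 0) = θ ^ (Q + 1) := by
    rw [← hnorm, FiniteField.algebraMap_norm_eq_pow, hcard, Nat.card_eq_fintype_card, ← hQ]
    congr 1
    apply Nat.div_eq_of_eq_mul_left (by omega)
    exact sq_sub_one' Q hq2
  have hθ0 : θ ≠ 0 := by
    intro h0
    have h1 : algebraMap F K (g.coeff 0) = 0 := by
      rw [hv, h0, zero_pow (by omega)]
    have h2 : g.coeff 0 = 0 := (map_eq_zero _).1 h1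
    rw [h2, mul_zero] at ha
    exact zero_ne_one ha
  have hθq : θ ^ (Q ^ 2 - 1) = 1 := by
    have := FiniteField.pow_card_sub_one_eq_one θ hθ0
    rwa [← Nat.card_eq_fintype_card, hcard] at this
  have hgdvd : g ∣ X ^ e - C (a ^ e) := by
    rw [← AdjoinRoot.mk_eq_zero, hmk]
    simp only [map_sub, map_pow, aeval_X, aeval_C]
    rw [sub_eq_zero]
    have h1 : θ ^ ((Q + 2) * e) = 1 := by
      have : (Q + 2) * e = (Q ^ 2 - 1) * f := by
        rw [he, hf]; ring
      rw [this, pow_mul, hθq, one_pow]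
    have h7 : (Q + 2) * e = e + (Q + 1) * e := by ring
    rw [h7, pow_add, pow_mul, ← hv] at h1
    have h8 : algebraMap F K a ^ e * algebraMap F K (g.coeff 0) ^ e = 1 := by
      rw [← map_pow, ← map_pow, ← map_mul, ← mul_pow, ha, one_pow, map_one]
    have h9 : algebraMap F K (g.coeff 0) ^ e ≠ 0 := by
      apply pow_ne_zero
      rw [hv]
      exact pow_ne_zero _ hθ0
    exact mul_right_cancel₀ h9 (h1.trans h8.symm)
  have hadvd : (X - C a) ∣ X ^ e - C (a ^ e) := by
    have := sub_dvd_pow_sub_pow (X : F[X]) (C a) e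
    rwa [← C_pow] at this
  have hcop : IsCoprime (X - C a) g := by
    apply IsCoprime.symm
    rw [hg.coprime_iff_not_dvd]
    intro h
    have h1 := natDegree_le_of_dvd h (X_sub_C_ne_zero a)
    rw [hdeg, natDegree_X_sub_C] at h1
    omega
  exact hcop.mul_dvd hadvd hgdvd

/-- Three distinct roots. -/
lemma dvd_of_distinct (a b e : F) (ha : a ≠ 0) (hb : b ≠ 0) (he : e ≠ 0) (hab : a ≠ b) (hae : a ≠ e) (hbe : b ≠ e) :
    (X - C a) * ((X - C b) * (X - C e)) ∣ X ^ (Fintype.card F - 1) - C (1 : F) := by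
  have hroot : ∀ s : F, s ≠ 0 → (X - C s) ∣ X ^ (Fintype.card F - 1) - C (1 : F) := by
    intro s hs
    have h1 := sub_dvd_pow_sub_pow (X : F[X]) (C s) (Fintype.card F - 1)
    rwa [← C_pow, FiniteField.pow_card_sub_one_eq_one s hs] at h1
  have hc : ∀ s t : F, s ≠ t → IsCoprime (X - C s) (X - C t) := by
    intro s t hst
    exact Polynomial.isCoprime_X_sub_C_of_isUnit_sub (sub_ne_zero.2 hst).isUnit
  have h1 : IsCoprime (X - C a) ((X - C b) * (X - C e)) := (hc a b hab).mul_right (hc a e hae)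
  exact h1.mul_dvd (hroot a ha) ((hc b e hbe).mul_dvd (hroot b hb) (hroot e he))

/-- A double root. -/
lemma dvd_of_double (p : ℕ) [Fact p.Prime] [CharP F p] (A B : F) (hA : A ≠ 0) (hAB : A ≠ B) (hprod : A * A * B = 1) :
    (X - C A) * ((X - C A) * (X - C B)) ∣
      X ^ (p * ((Fintype.card F - 1) / Nat.gcd 3 (Fintype.card F - 1))) -
      C (A ^ (p * ((Fintype.card F - 1) / Nat.gcd 3 (Fintype.card F - 1)))) := by
  have hp : p.Prime := Fact.out
  set Q := Fintype.card F with hQ
  have hq2 : 2 ≤ Q := q_two_le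
  set d := Nat.gcd 3 (Q - 1) with hd
  have hdpos : 0 < d := Nat.gcd_pos_of_pos_left _ (by norm_num)
  obtain ⟨f, hf⟩ : d ∣ 3 := Nat.gcd_dvd_left _ _
  obtain ⟨w, hw⟩ : d ∣ Q - 1 := Nat.gcd_dvd_right _ _
  have hwdef : (Q - 1) / d = w := by
    rw [hw, Nat.mul_div_cancel_left _ hdpos]
  rw [hwdef]
  have hA3 : A ^ (3 * w) = 1 := by
    have h1 : 3 * w = (Q - 1) * f := by
      rw [hw]
      conv_lhs => rw [hf]
      ring
    rw [h1, pow_mul, FiniteField.pow_card_sub_one_eq_one A hA, one_pow]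
  have hBw : B ^ w = A ^ w := by
    have h1 : (A * A * B) ^ w = 1 := by rw [hprod, one_pow]
    have h2 : A ^ w * A ^ w * B ^ w = 1 := by rw [← mul_pow, ← mul_pow]; exact h1
    have h3 : A ^ w * A ^ w * A ^ w = 1 := by
      rw [← hA3]; ring
    have h4 : A ^ w * A ^ w ≠ 0 := mul_ne_zero (pow_ne_zero _ hA) (pow_ne_zero _ hA)
    exact mul_left_cancel₀ h4 (h2.trans h3.symm)
  have hfact : X ^ (p * w) - C (A ^ (p * w)) = (X ^ w - C (A ^ w)) ^ p := by
    rw [sub_pow_char, ← pow_mul, ← C_pow, ← pow_mul, mul_comm w]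
  have h1 : (X - C A) * (X - C A) ∣ X ^ (p * w) - C (A ^ (p * w)) := by
    rw [hfact, ← pow_two]
    have h2 : (X - C A) ∣ X ^ w - C (A ^ w) := by
      have := sub_dvd_pow_sub_pow (X : F[X]) (C A) w
      rwa [← C_pow] at this
    exact (pow_dvd_pow _ hp.two_le).trans (pow_dvd_pow_of_dvd h2 p)
  have h2 : (X - C B) ∣ X ^ (p * w) - C (A ^ (p * w)) := by
    rw [mul_comm p, pow_mul A, ← hBw, ← pow_mul, mul_comm w p, ]
    have := sub_dvd_pow_sub_pow (X : F[X]) (C B) (p * w)
    rwa [← C_pow] at this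
  have hc : IsCoprime (X - C A) (X - C B) :=
    Polynomial.isCoprime_X_sub_C_of_isUnit_sub (sub_ne_zero.2 hAB).isUnit
  have hc2 : IsCoprime ((X - C A) * (X - C A)) (X - C B) := hc.mul_left hc
  rw [← mul_assoc]
  exact hc2.mul_dvd h1 h2

/-- A triple root. -/
lemma dvd_of_triple (p : ℕ) [Fact p.Prime] [CharP F p] (A : F) (hp3 : 3 ≤ p) :
    (X - C A) * ((X - C A) * (X - C A)) ∣ X ^ p - C (A ^ p) := by
  have h1 : X ^ p - C (A ^ p) = (X - C A) ^ p := by
    rw [sub_pow_char, ← C_pow]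
  have h2 : (X - C A) * ((X - C A) * (X - C A)) = (X - C A) ^ 3 := by ring
  rw [h1, h2]
  exact pow_dvd_pow _ hp3

lemma dvd_of_triple_two [CharP F 2] (A : F) :
    (X - C A) * ((X - C A) * (X - C A)) ∣ X ^ 4 - C (A ^ 4) := by
  haveI : Fact (Nat.Prime 2) := ⟨Nat.prime_two⟩
  have h1 : (X : F[X]) ^ 4 - C (A ^ 4) = (X - C A) ^ (2 ^ 2) := by
    rw [sub_pow_char_pow, ← C_pow]
    norm_num
  have h2 : (X - C A) * ((X - C A) * (X - C A)) = (X - C A) ^ 3 := by ring
  rw [h1, h2]
  exact pow_dvd_pow _ (by norm_num)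

/-- The classification of orders through the characteristic polynomial. -/
theorem order_dvd_cases (p : ℕ) [Fact p.Prime] [CharP F p] (Y : Matrix.SpecialLinearGroup (Fin 3) F) :
    orderOf (proj Y) ∣ (Fintype.card F ^ 2 + Fintype.card F + 1) / Nat.gcd 3 (Fintype.card F - 1) ∨
    orderOf (proj Y) ∣ (Fintype.card F ^ 2 - 1) / Nat.gcd 3 (Fintype.card F - 1) ∨
    orderOf (proj Y) ∣ Fintype.card F - 1 ∨
    orderOf (proj Y) ∣ p * ((Fintype.card F - 1) / Nat.gcd 3 (Fintype.card F - 1)) ∨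
    (p = 2 ∧ orderOf (proj Y) ∣ 4) := by
  classical
  have hp : p.Prime := Fact.out
  have hq2 := q_two_le (F := F)
  set c := (Y : Matrix (Fin 3) (Fin 3) F).charpoly with hc
  have hcm : c.Monic := Matrix.charpoly_monic _
  have hcdeg : c.natDegree = 3 := by
    rw [hc, Matrix.charpoly_natDegree_eq_dim, Fintype.card_fin]
  have hc0 : c.coeff 0 = -1 := by
    have := charpoly_coeff_zero_SL Y
    rw [← hc] at this
    rw [this]
    norm_num
  by_cases hroot : ∃ a, c.IsRoot a
  swap
  · -- irreducible characteristic polynomial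
    left
    have hirr : Irreducible c := by
      rw [hcm.irreducible_iff_roots_eq_zero_of_degree_le_three (by omega) (by omega)]
      rw [Multiset.eq_zero_iff_forall_notMem]
      intro a ha
      exact hroot ⟨a, (mem_roots'.1 ha).2⟩
    have hmin : c = minpoly F (Y : Matrix (Fin 3) (Fin 3) F) :=
      minpoly.eq_of_irreducible_of_monic hirr (Matrix.aeval_self_charpoly _) hcm
    obtain ⟨f, hf⟩ := scalar_of_irreducible (Y : Matrix (Fin 3) (Fin 3) F) Y.2 (hmin ▸ hirr)
    rw [← singerOm_three _ hq2]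
    apply orderOf_dvd_of_pow_eq_one
    rw [← map_pow, proj_eq_one_iff]
    apply mem_center_of_scalar _ f
    rw [Matrix.SpecialLinearGroup.coe_pow, hf]
  obtain ⟨a, ha⟩ := hroot
  obtain ⟨g, hg⟩ := dvd_iff_isRoot.2 ha
  have hgm : g.Monic := by
    apply Monic.of_mul_monic_left (monic_X_sub_C a)
    rw [← hg]; exact hcm
  have hgdeg : g.natDegree = 2 := by
    have h1 := congrArg natDegree hg
    rw [natDegree_mul (X_sub_C_ne_zero a) hgm.ne_zero, natDegree_X_sub_C, hcdeg] at h1
    omega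
  have hag : a * g.coeff 0 = 1 := by
    have h1 := congrArg (fun P => P.coeff 0) hg
    simp only [mul_coeff_zero, coeff_sub, coeff_X_zero, coeff_C_zero, hc0] at h1
    linear_combination h1
  have ha0 : a ≠ 0 := left_ne_zero_of_mul_eq_one hag
  by_cases hroot2 : ∃ b, g.IsRoot b
  swap
  · -- irreducible quadratic factor
    right; left
    have hirr : Irreducible g := by
      rw [hgm.irreducible_iff_roots_eq_zero_of_degree_le_three (by omega) (by omega)]
      rw [Multiset.eq_zero_iff_forall_notMem]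
      intro b hb
      exact hroot2 ⟨b, (mem_roots'.1 hb).2⟩
    apply orderOf_dvd_of_charpoly_dvd _ _ (a ^ ((Fintype.card F ^ 2 - 1) / Nat.gcd 3 (Fintype.card F - 1)))
    rw [← hc, hg]
    exact dvd_of_irred_quadratic a g hirr hgm hgdeg hag
  obtain ⟨b, hb⟩ := hroot2
  obtain ⟨h, hh⟩ := dvd_iff_isRoot.2 hb
  have hhm : h.Monic := by
    apply Monic.of_mul_monic_left (monic_X_sub_C b)
    rw [← hh]; exact hgm
  have hhdeg : h.natDegree = 1 := by
    have h1 := congrArg natDegree hh
    rw [natDegree_mul (X_sub_C_ne_zero b) hhm.ne_zero, natDegree_X_sub_C, hgdeg] at h1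
    omega
  obtain ⟨e, he⟩ : ∃ e : F, h = X - C e := by
    refine ⟨-h.coeff 0, ?_⟩
    have := hhm.eq_X_add_C hhdeg
    rw [C_neg, sub_neg_eq_add]
    exact this
  subst he
  have hprod : a * b * e = 1 := by
    have h1 := congrArg (fun P => P.coeff 0) hh
    simp only [mul_coeff_zero, coeff_sub, coeff_X_zero, coeff_C_zero] at h1
    rw [h1] at hag
    linear_combination hag
  have hb0 : b ≠ 0 := by
    rintro rfl
    simp at hprod
  have he0 : e ≠ 0 := by
    rintro rfl
    simp at hprod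
  have hcf : c = (X - C a) * ((X - C b) * (X - C e)) := by rw [hg, hh]
  have hcase_double : ∀ A B : F, A ≠ B → A * A * B = 1 → c = (X - C A) * ((X - C A) * (X - C B)) →
      orderOf (proj Y) ∣ p * ((Fintype.card F - 1) / Nat.gcd 3 (Fintype.card F - 1)) := by
    intro A B hAB hAprod hcA
    have hA0 : A ≠ 0 := by
      rintro rfl
      simp at hAprod
    apply orderOf_dvd_of_charpoly_dvd _ _ (A ^ (p * ((Fintype.card F - 1) / Nat.gcd 3 (Fintype.card F - 1))))
    rw [← hc, hcA]
    exact dvd_of_double p A B hA0 hAB hAprod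
  by_cases hab : a = b
  · subst hab
    by_cases hae : a = e
    · subst hae
      have hcA : c = (X - C a) * ((X - C a) * (X - C a)) := hcf
      rcases (by have := hp.two_le; omega : p = 2 ∨ 3 ≤ p) with hp2 | hp3
      · right; right; right; right
        refine ⟨hp2, ?_⟩
        subst hp2
        apply orderOf_dvd_of_charpoly_dvd _ _ (a ^ 4)
        rw [← hc, hcA]
        exact dvd_of_triple_two a
      · right; right; right; left
        have hdvd : orderOf (proj Y) ∣ p := by
          apply orderOf_dvd_of_charpoly_dvd _ _ (a ^ p)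
          rw [← hc, hcA]
          exact dvd_of_triple p a hp3
        exact hdvd.trans (Dvd.intro _ rfl)
    · right; right; right; left
      exact hcase_double a e hae (by rw [← hprod]) hcf
  · by_cases hae : a = e
    · subst hae
      right; right; right; left
      refine hcase_double a b hab (by rw [← hprod]; ring) ?_
      rw [hcf]; ring
    · by_cases hbe : b = e
      · subst hbe
        right; right; right; left
        refine hcase_double b a (Ne.symm hab) (by rw [← hprod]; ring) ?_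
        rw [hcf]; ring
      · right; right; left
        apply orderOf_dvd_of_charpoly_dvd _ _ (1 : F)
        rw [← hc, hcf]
        exact dvd_of_distinct a b e ha0 hb0 he0 hab hae hbe

end upper

/-- The set of element orders of PSL(3,q): let F be a finite field of characteristic p with q elements and d = gcd(3, q − 1). The orders of elements of PSL(3,F) are exactly the divisors of (q² + q + 1)/d, of (q² − 1)/d, of q − 1, of p(q − 1)/d, and, when p = 2, of 4. -/
theorem result {F : Type*} [Field F] [Fintype F] (p : ℕ) [Fact p.Prime] [CharP F p] :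
    Set.range (orderOf : Matrix.ProjectiveSpecialLinearGroup (Fin 3) F → ℕ) =
      {m : ℕ | m ∣ (Fintype.card F ^ 2 + Fintype.card F + 1) / Nat.gcd 3 (Fintype.card F - 1) ∨
        m ∣ (Fintype.card F ^ 2 - 1) / Nat.gcd 3 (Fintype.card F - 1) ∨ m ∣ Fintype.card F - 1 ∨
        m ∣ p * (Fintype.card F - 1) / Nat.gcd 3 (Fintype.card F - 1) ∨ (p = 2 ∧ m ∣ 4)} := by
  classical
  have hq2 := q_two_le (F := F)
  have hp : p.Prime := Fact.out
  haveI : Finite (Matrix.ProjectiveSpecialLinearGroup (Fin 3) F) :=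
    Finite.of_surjective _ (proj_surjective (F := F) (n := 3))
  have hpw : p * (Fintype.card F - 1) / Nat.gcd 3 (Fintype.card F - 1) =
      p * ((Fintype.card F - 1) / Nat.gcd 3 (Fintype.card F - 1)) :=
    Nat.mul_div_assoc _ (Nat.gcd_dvd_right _ _)
  rw [hpw]
  apply Set.Subset.antisymm
  · rintro _ ⟨x, rfl⟩
    obtain ⟨Y, rfl⟩ := proj_surjective x
    exact order_dvd_cases p Y
  · rintro m (h | h | h | h | ⟨h2, h⟩)
    · obtain ⟨y, hy⟩ := exists_singer (F := F) (n := 3) p (by norm_num)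
      rw [singerOm_three _ hq2] at hy
      rw [← hy] at h
      exact exists_order_of_dvd' y m h
    · obtain ⟨y, hy⟩ := exists_order_split (F := F) p
      rw [← hy] at h
      exact exists_order_of_dvd' y m h
    · obtain ⟨y, hy⟩ := exists_order_q1 (F := F)
      rw [← hy] at h
      exact exists_order_of_dvd' y m h
    · obtain ⟨y, hy⟩ := exists_order_pw (F := F) p
      rw [← hy] at h
      exact exists_order_of_dvd' y m h
    · subst h2
      obtain ⟨y, hy⟩ := exists_orderOf_jordan (F := F) (n := 3) 2 1 (by norm_num)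
      norm_num at hy
      rw [← hy] at h
      exact exists_order_of_dvd' y m h

end Cfsg.Agent.S2476
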