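import Mathlib
import Cfsg.Statements.S2479
import Cfsg.Agent.Lib.SLCountLower

set_option autoImplicit false
open Cfsg

namespace Cfsg.Agent.S2479

open Cfsg.Agent.Lib.SLCount

/-- The number of conjugacy classes of SL(n,q): for F a finite field with q elements, the number k of conjugacy classes of SL(n,F) satisfies q^(n−1) < k and k ≤ (5/2)·q^(n−1) for n ≥ 2, and k ≤ q^(n−1) + 3q^(n−2) for n ≥ 3. -/
theorem result {F : Type*} [Field F] [Fintype F] (n : ℕ) (hn : 2 ≤ n) :
    Fintype.card F ^ (n - 1) < Nat.card (ConjClasses (Matrix.SpecialLinearGroup (Fin n) F)) ∧ 2 * Nat.card (ConjClasses (Matrix.SpecialLinearGroup (Fin n) F)) ≤ 5 * Fintype.card F ^ (n - 1) ∧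
      (3 ≤ n → Nat.card (ConjClasses (Matrix.SpecialLinearGroup (Fin n) F)) ≤ Fintype.card F ^ (n - 1) + 3 * Fintype.card F ^ (n - 2)) := by
  have hq : 2 ≤ Fintype.card F := Fintype.one_lt_card
  refine ⟨lt_card_classes n hn, ?_, ?_⟩
  · by_cases h3 : 3 ≤ n
    · have h := sl_card_le (F := F) n h3
      have e : Fintype.card F ^ (n - 1) = Fintype.card F * Fintype.card F ^ (n - 2) := by
        rw [← pow_succ']
        congr 1
        omega
      rw [e]
      set y := Fintype.card F ^ (n - 2)
      set q := Fintype.card F
      have hy : 0 ≤ y := Nat.zero_le _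
      nlinarith
    · obtain rfl : n = 2 := by omega
      have h := sl_two_card_le (F := F)
      simp only [Nat.add_one_sub_one, Nat.reduceSub, pow_one]
      split_ifs at h with hd
      · have : 3 ≤ Fintype.card F := by
          have := Nat.le_of_dvd (by omega) hd
          omega
        omega
      · omega
  · intro h3
    have h := sl_card_le (F := F) n h3
    have e : Fintype.card F ^ (n - 1) = Fintype.card F * Fintype.card F ^ (n - 2) := by
      rw [← pow_succ']
      congr 1
      omega
    rw [e]
    calc _ ≤ _ := h
      _ = _ := by ring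

end Cfsg.Agent.S2479
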