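import Mathlib
import Cfsg.Statements.S2480
import Cfsg.Agent.Lib.GLKer
import Cfsg.Agent.Lib.CenterClasses
import Cfsg.Agent.Lib.ClassicalCore

set_option autoImplicit false
open Cfsg

namespace Cfsg.Agent.S2480

open Polynomial Finset
open Cfsg.Agent.Lib.SLCount Cfsg.Agent.Lib.GLCount Cfsg.Agent.Lib.CenterClasses

universe u

variable {F : Type u} [Field F] [Fintype F]

/-- Central elements of the special linear group are scalars. -/
lemma center_data (n : ℕ) (hn : 1 ≤ n) (z : Subgroup.center (Matrix.SpecialLinearGroup (Fin n) F)) :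
    ∃ ζ : Fˣ, ζ ^ n = 1 ∧ (∀ s : Matrix.SpecialLinearGroup (Fin n) F,
      ((z.1 * s : Matrix.SpecialLinearGroup (Fin n) F) : Matrix (Fin n) (Fin n) F) = (ζ : F) • (s : Matrix (Fin n) (Fin n) F)) ∧
      (z = 1 → ζ = 1) ∧ (ζ = 1 → z = 1) := by
  obtain ⟨r, hr, hz⟩ := Matrix.SpecialLinearGroup.mem_center_iff.mp z.2
  rw [Fintype.card_fin] at hr
  have hr0 : r ≠ 0 := by
    rintro rfl
    rw [zero_pow (by omega)] at hr
    exact zero_ne_one hr
  refine ⟨Units.mk0 r hr0, ?_, ?_, ?_, ?_⟩
  · apply Units.ext
    simpa using hr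
  · intro s
    rw [Matrix.SpecialLinearGroup.coe_mul, ← hz]
    simp [Matrix.smul_eq_diagonal_mul]
  · rintro rfl
    apply Units.ext
    have h1 := congrFun (congrFun hz ⟨0, by omega⟩) ⟨0, by omega⟩
    simpa using h1
  · intro h
    have h1 : r = 1 := by
      have := congrArg Units.val h
      simpa using this
    subst h1
    apply Subtype.ext
    apply Subtype.ext
    rw [← hz]
    simp

/-- The bound for the fixed points of a central element. -/
lemma fix_bound (n : ℕ) (hn : 1 ≤ n) (z : Subgroup.center (Matrix.SpecialLinearGroup (Fin n) F)) (ζ : Fˣ) (hpow : ζ ^ n = 1)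
    (hs : ∀ s : Matrix.SpecialLinearGroup (Fin n) F,
      ((z.1 * s : Matrix.SpecialLinearGroup (Fin n) F) : Matrix (Fin n) (Fin n) F) = (ζ : F) • (s : Matrix (Fin n) (Fin n) F)) :
    (Fintype.card F - 1) * Nat.card {C : ConjClasses (Matrix.SpecialLinearGroup (Fin n) F) // zs z C = C} ≤
      Gb (Fintype.card F) (fun m => (TT F m).card) (n / orderOf ζ) := by
  classical
  haveI : Fintype (ConjClasses (Matrix.SpecialLinearGroup (Fin n) F)) := Fintype.ofFinite _
  obtain ⟨τ, hτ, hτ'⟩ := exists_tau (F := F) n
  have hcard : Nat.card {C : ConjClasses (Matrix.SpecialLinearGroup (Fin n) F) // zs z C = C} =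
      (univ.filter fun C => zs z C = C).card := by
    rw [Nat.card_eq_fintype_card, Fintype.card_subtype]
  rw [hcard]
  refine main_bound (r := orderOf ζ) (orderOf_pos ζ) hn (orderOf_dvd_of_pow_eq_one hpow) _ τ hτ ?_
  intro c hc
  obtain ⟨s, rfl⟩ := ConjClasses.mk_surjective c
  refine ⟨s, rfl, hτ' s, ?_⟩
  have h1 : zs z (ConjClasses.mk s) = ConjClasses.mk s := (Finset.mem_filter.mp hc).2
  rw [zs_mk] at h1
  have h2 : IsConj (z.1 * s) s := ConjClasses.mk_eq_mk_iff_isConj.mp h1
  have h3 : IsConj (Matrix.SpecialLinearGroup.toGL s) (Matrix.SpecialLinearGroup.toGL (z.1 * s)) :=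
    (MonoidHom.map_isConj Matrix.SpecialLinearGroup.toGL h2).symm
  apply Pr_of_fixed _ (hτ' s).1 ζ
  intro e
  exact scale_fixed (Matrix.SpecialLinearGroup.toGL s) (Matrix.SpecialLinearGroup.toGL (z.1 * s)) ζ (hs s) h3 (τ s) (hτ s) e

/-- The number of conjugacy classes of PSL(n,q): for F a finite field with q elements, n ≥ 2 and d = gcd(n, q − 1), the number k of conjugacy classes of PSL(n,F) satisfies q^(n−1) ≤ d·k ≤ q^(n−1) + 5q^(n−2). -/
theorem result {F : Type*} [Field F] [Fintype F] (n : ℕ) (hn : 2 ≤ n) :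
    Fintype.card F ^ (n - 1) ≤ Nat.gcd n (Fintype.card F - 1) * Nat.card (ConjClasses (Matrix.ProjectiveSpecialLinearGroup (Fin n) F)) ∧
      Nat.gcd n (Fintype.card F - 1) * Nat.card (ConjClasses (Matrix.ProjectiveSpecialLinearGroup (Fin n) F)) ≤ Fintype.card F ^ (n - 1) + 5 * Fintype.card F ^ (n - 2) := by
  classical
  have hq : 2 ≤ Fintype.card F := Fintype.one_lt_card
  haveI : Nonempty (Fin n) := ⟨⟨0, by omega⟩⟩
  set G := Matrix.SpecialLinearGroup (Fin n) F with hG
  haveI : Fintype (Subgroup.center G) := Fintype.ofFinite _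
  have hZ : Nat.card (Subgroup.center G) = Nat.gcd n (Fintype.card F - 1) := by
    have := Cfsg.Agent.Lib.ClassicalCore.card_center_SL (n := Fin n) (F := F)
    rwa [Fintype.card_fin] at this
  have hB := burnside_center (G := G)
  set k := Nat.card (ConjClasses (Matrix.ProjectiveSpecialLinearGroup (Fin n) F)) with hk
  set d := Nat.gcd n (Fintype.card F - 1) with hd
  have hB' : ∑ z : Subgroup.center G, Nat.card {C : ConjClasses G // zs z C = C} = d * k := by
    rw [hB, hZ, mul_comm]
  rw [← hB']
  constructor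
  · have h1 : Fintype.card F ^ (n - 1) < Nat.card (ConjClasses G) := lt_card_classes (F := F) n hn
    have h2 : Nat.card {C : ConjClasses G // zs (1 : Subgroup.center G) C = C} ≤
        ∑ z : Subgroup.center G, Nat.card {C : ConjClasses G // zs z C = C} :=
      Finset.single_le_sum (f := fun z : Subgroup.center G => Nat.card {C : ConjClasses G // zs z C = C})
        (fun _ _ => Nat.zero_le _) (Finset.mem_univ 1)
    rw [card_classes_eq_fix_one] at h2
    omega
  · choose ζ hζ1 hζ2 hζ3 hζ4 using center_data (F := F) n (by omega)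
    set q := Fintype.card F with hqdef
    set t : ℕ → ℕ := fun m => (TT F m).card with ht
    have htb : TB q t := tb_TT
    have hfix : ∀ z : Subgroup.center G, (q - 1) * Nat.card {C : ConjClasses G // zs z C = C} ≤ Gb q t (n / orderOf (ζ z)) :=
      fun z => fix_bound n (by omega) z (ζ z) (hζ1 z) (hζ2 z)
    have hone : orderOf (ζ 1) = 1 := by
      rw [hζ3 1 rfl, orderOf_one]
    have hord : ∀ z : Subgroup.center G, z ≠ 1 → 2 ≤ orderOf (ζ z) ∧ orderOf (ζ z) ∣ n := by
      intro z hz
      refine ⟨?_, orderOf_dvd_of_pow_eq_one (hζ1 z)⟩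
      have h1 : orderOf (ζ z) ≠ 1 := by
        intro h
        exact hz (hζ4 z (orderOf_eq_one_iff.mp h))
      have h2 := orderOf_pos (ζ z)
      omega
    have hsum : (q - 1) * ∑ z : Subgroup.center G, Nat.card {C : ConjClasses G // zs z C = C} ≤
        ∑ z : Subgroup.center G, Gb q t (n / orderOf (ζ z)) := by
      rw [Finset.mul_sum]
      exact Finset.sum_le_sum fun z _ => hfix z
    have hsplit : ∑ z : Subgroup.center G, Gb q t (n / orderOf (ζ z)) =
        Gb q t n + ∑ z ∈ univ.erase (1 : Subgroup.center G), Gb q t (n / orderOf (ζ z)) := by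
      rw [← Finset.add_sum_erase _ _ (Finset.mem_univ (1 : Subgroup.center G)), hone, Nat.div_one]
    have hcard' : (univ.erase (1 : Subgroup.center G)).card = d - 1 := by
      rw [Finset.card_erase_of_mem (Finset.mem_univ _), Finset.card_univ, ← Nat.card_eq_fintype_card, hZ]
    have hdle : d ≤ q - 1 := Nat.le_of_dvd (by omega) (Nat.gcd_dvd_right _ _)
    have hdpos : 1 ≤ d := Nat.gcd_pos_of_pos_left _ (by omega)
    obtain ⟨p, hp⟩ : ∃ p, q = p + 1 := ⟨q - 1, by omega⟩
    have hp0 : 0 < p := by omega
    by_cases h3 : 3 ≤ n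
    · have hU : ∀ z ∈ univ.erase (1 : Subgroup.center G), Gb q t (n / orderOf (ζ z)) ≤ 2 * q ^ (n - 2) := by
        intro z hz
        obtain ⟨h1, h2⟩ := hord z (Finset.ne_of_mem_erase hz)
        apply Gb_central q t hq htb _ n (Nat.div_pos (Nat.le_of_dvd (by omega) h2) (by omega)) _ h3
        calc 2 * (n / orderOf (ζ z)) ≤ orderOf (ζ z) * (n / orderOf (ζ z)) := Nat.mul_le_mul_right _ h1
          _ = n := Nat.mul_div_cancel' h2
      have h4 := Finset.sum_le_card_nsmul _ _ _ hU
      rw [hcard', smul_eq_mul] at h4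
      have h5 := Gb_le q t hq htb n h3
      have h6 : (d - 1) * (2 * q ^ (n - 2)) ≤ (q - 1) * (2 * q ^ (n - 2)) :=
        Nat.mul_le_mul_right _ (by omega)
      have h7 : (q - 1) * ∑ z : Subgroup.center G, Nat.card {C : ConjClasses G // zs z C = C} ≤
          (q - 1) * (q ^ (n - 1) + 5 * q ^ (n - 2)) := by
        refine hsum.trans ?_
        rw [hsplit]
        have e : q ^ (n - 1) = q * q ^ (n - 2) := by
          rw [← pow_succ']
          congr 1
          omega
        rw [e]
        calc _ ≤ (q - 1) * ((q + 3) * q ^ (n - 2)) + (q - 1) * (2 * q ^ (n - 2)) := by omega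
          _ = _ := by ring
      exact Nat.le_of_mul_le_mul_left h7 (by omega)
    · obtain rfl : n = 2 := by omega
      simp only [Nat.add_one_sub_one, Nat.reduceSub, pow_one, pow_zero, mul_one]
      have h2' := Gb_two q t hq htb
      have h1' := Gb_one q t hq htb
      by_cases hdv : 2 ∣ q - 1
      · have hU : ∀ z ∈ univ.erase (1 : Subgroup.center G), Gb q t (2 / orderOf (ζ z)) ≤ q - 1 := by
          intro z hz
          obtain ⟨h1, h2⟩ := hord z (Finset.ne_of_mem_erase hz)
          have h3 : orderOf (ζ z) = 2 := by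
            have := Nat.le_of_dvd (by omega) h2
            omega
          rw [h3]
          show Gb q t 1 ≤ q - 1
          omega
        have h4 := Finset.sum_le_card_nsmul _ _ _ hU
        rw [hcard', smul_eq_mul] at h4
        have hd2 : d = 2 := Nat.gcd_eq_left hdv
        rw [hd2] at h4
        rw [if_pos hdv, if_pos hdv] at h2'
        have h7 : (q - 1) * ∑ z : Subgroup.center G, Nat.card {C : ConjClasses G // zs z C = C} ≤
            (q - 1) * (q + 5) := by
          refine hsum.trans ?_
          rw [hsplit]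
          rw [hp] at h2' h4 ⊢
          simp only [Nat.add_sub_cancel] at h2' h4 ⊢
          nlinarith
        exact Nat.le_of_mul_le_mul_left h7 (by omega)
      · have hd1 : d = 1 := by
          have h5 : d ∣ 2 := Nat.gcd_dvd_left _ _
          have h6 := Nat.le_of_dvd (by omega) h5
          have h7 : d ∣ q - 1 := Nat.gcd_dvd_right _ _
          have : d ≠ 2 := by
            intro h
            rw [h] at h7
            exact hdv h7
          omega
        have hemp : (univ.erase (1 : Subgroup.center G)) = ∅ := by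
          rw [← Finset.card_eq_zero, hcard', hd1]
        rw [if_neg hdv, if_neg hdv] at h2'
        have h7 : (q - 1) * ∑ z : Subgroup.center G, Nat.card {C : ConjClasses G // zs z C = C} ≤
            (q - 1) * (q + 5) := by
          refine hsum.trans ?_
          rw [hsplit, hemp, Finset.sum_empty]
          rw [hp] at h2' ⊢
          simp only [Nat.add_sub_cancel] at h2' ⊢
          nlinarith
        exact Nat.le_of_mul_le_mul_left h7 (by omega)

end Cfsg.Agent.S2480
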