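import Mathlib
import Cfsg.Statements.S2485
import Cfsg.Agent.Lib.SL2Core
import Cfsg.Agent.Lib.SylowMeet
import Cfsg.Agent.Lib.ClassicalSmall

set_option autoImplicit false
open scoped Pointwise
open Cfsg

namespace Cfsg.Agent.S2485

open Matrix Cfsg.Agent.Lib.SL2Core Cfsg.Agent.Lib.SylowMeet
open scoped MatrixGroups

section

variable {F : Type*} [Field F]

/-- `PGL₂(F)`. -/
abbrev PG (F : Type*) [Field F] := GL (Fin 2) F ⧸ Subgroup.center (GL (Fin 2) F)

/-- The projection. -/
def pi : GL (Fin 2) F →* PG F := QuotientGroup.mk' _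

lemma pi_surjective : Function.Surjective (pi : GL (Fin 2) F → PG F) :=
  QuotientGroup.mk'_surjective _

/-- The map `SL₂ → PGL₂`. -/
def toG (A : SL2 F) : PG F := pi (SpecialLinearGroup.toGL A)

lemma pi_eq_one_iff (T : GL (Fin 2) F) : pi T = 1 ↔ T ∈ Subgroup.center (GL (Fin 2) F) := by
  show (QuotientGroup.mk T : PG F) = 1 ↔ _
  exact QuotientGroup.eq_one_iff T

lemma diag_mul' (c : F) (M : Matrix (Fin 2) (Fin 2) F) :
    (Matrix.diagonal fun _ => c) * M = c • M := by
  ext i j
  simp [Matrix.diagonal_mul]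

lemma mul_diag' (c : F) (M : Matrix (Fin 2) (Fin 2) F) :
    M * (Matrix.diagonal fun _ => c) = c • M := by
  ext i j
  simp [Matrix.mul_diagonal, mul_comm]

lemma scalar_neg_one_mem : GeneralLinearGroup.scalar (Fin 2) (-1 : Fˣ) ∈
    Subgroup.center (GL (Fin 2) F) := by
  rw [GeneralLinearGroup.center_eq_range_scalar]
  exact ⟨_, rfl⟩

lemma pi_comm_of_anti (T C : GL (Fin 2) F)
    (h : (T : Matrix (Fin 2) (Fin 2) F) * (C : Matrix (Fin 2) (Fin 2) F) =
      -((C : Matrix (Fin 2) (Fin 2) F) * (T : Matrix (Fin 2) (Fin 2) F))) :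
    pi T * pi C * (pi T)⁻¹ = pi C := by
  have h1 : T * C = GeneralLinearGroup.scalar (Fin 2) (-1 : Fˣ) * (C * T) := by
    apply Units.ext
    simp [h, diag_mul']
  have h2 : pi (GeneralLinearGroup.scalar (Fin 2) (-1 : Fˣ)) = 1 :=
    (pi_eq_one_iff _).2 scalar_neg_one_mem
  rw [← map_mul, h1, map_mul, h2, one_mul, map_mul, mul_inv_cancel_right]

lemma toG_negS (A : SL2 F) : toG (negS A) = toG A := by
  unfold toG
  have h1 : SpecialLinearGroup.toGL (negS A) =
      GeneralLinearGroup.scalar (Fin 2) (-1 : Fˣ) * SpecialLinearGroup.toGL A := by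
    apply Units.ext
    simp [diag_mul']
  have h2 : pi (GeneralLinearGroup.scalar (Fin 2) (-1 : Fˣ)) = 1 :=
    (pi_eq_one_iff _).2 scalar_neg_one_mem
  rw [h1, map_mul, h2, one_mul]

lemma toG_eq_iff (A B : SL2 F) : toG A = toG B ↔ B = A ∨ B = negS A := by
  constructor
  · intro h
    have h1 : pi ((SpecialLinearGroup.toGL A)⁻¹ * SpecialLinearGroup.toGL B) = 1 := by
      rw [map_mul, map_inv]
      unfold toG at h
      rw [← h, inv_mul_cancel]
    rw [pi_eq_one_iff, GeneralLinearGroup.center_eq_range_scalar] at h1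
    obtain ⟨u, hu⟩ := h1
    have h2 : (B : Matrix (Fin 2) (Fin 2) F) = (u : F) • (A : Matrix (Fin 2) (Fin 2) F) := by
      have h3 : SpecialLinearGroup.toGL B =
          SpecialLinearGroup.toGL A * GeneralLinearGroup.scalar (Fin 2) u := by
        rw [hu, mul_inv_cancel_left]
      have h4 := congrArg (fun g : GL (Fin 2) F => (g : Matrix (Fin 2) (Fin 2) F)) h3
      simpa [mul_diag'] using h4
    have h5 : (u : F) * (u : F) = 1 := by
      have h6 := congrArg Matrix.det h2
      rw [Matrix.det_smul, A.2, B.2] at h6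
      simp at h6
      rw [h6]; ring
    rcases mul_self_eq_one_iff.mp h5 with h7 | h7
    · left
      apply Subtype.ext
      rw [h2, h7, one_smul]
    · right
      apply Subtype.ext
      rw [h2, h7, negS_coe]
      simp
  · rintro (h | h)
    · rw [h]
    · rw [h, toG_negS]

/-- conjugation is compatible -/
lemma toG_conj (M : GL (Fin 2) F) (A : SL2 F) :
    toG (conjGL M A) = pi M * toG A * (pi M)⁻¹ := by
  unfold toG
  have h1 : SpecialLinearGroup.toGL (conjGL M A) = M * SpecialLinearGroup.toGL A * M⁻¹ := by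
    apply Units.ext
    simp
  rw [h1, map_mul, map_mul, map_inv]

/-- The involutions of `PSL₂` inside `PGL₂` (when `-1` is a nonsquare). -/
abbrev J (F : Type*) [Field F] := {g : PG F // ∃ A : SL2 F, tr A = 0 ∧ toG A = g}

instance instAct : MulAction (PG F) (J F) where
  smul g a := ⟨g * a.1 * g⁻¹, by
    obtain ⟨A, hA, hA2⟩ := a.2
    obtain ⟨M, rfl⟩ := pi_surjective g
    refine ⟨conjGL M A, by rw [tr_conjGL, hA], ?_⟩
    rw [toG_conj, hA2]⟩
  one_smul a := by
    apply Subtype.ext
    show 1 * a.1 * 1⁻¹ = a.1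
    simp
  mul_smul g h a := by
    apply Subtype.ext
    show g * h * a.1 * (g * h)⁻¹ = g * (h * a.1 * h⁻¹) * g⁻¹
    group

lemma smul_val (g : PG F) (a : J F) : (g • a).1 = g * a.1 * g⁻¹ := rfl

section hnsq

variable (hnsq : ∀ a : F, a * a ≠ -1)

include hnsq

lemma two_ne_zero' : (2 : F) ≠ 0 := by
  intro h
  apply hnsq 1
  linear_combination h

lemma entry_ne (A : SL2 F) (hA : tr A = 0) : (A : Matrix (Fin 2) (Fin 2) F) 0 1 ≠ 0 := by
  intro h
  have h1 := det_entries A
  rw [tr_eq] at hA
  rw [h] at h1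
  apply hnsq ((A : Matrix (Fin 2) (Fin 2) F) 0 0)
  have : (A : Matrix (Fin 2) (Fin 2) F) 1 1 = -(A : Matrix (Fin 2) (Fin 2) F) 0 0 := by
    linear_combination hA
  rw [this] at h1
  linear_combination (-1 : F) * h1

lemma not_center (A : SL2 F) (hA : tr A = 0) : A ∉ Subgroup.center (SL2 F) := by
  intro h
  have h2 := two_ne_zero' hnsq
  rcases center_eq A h with h1 | h1
  · rw [h1, tr_eq] at hA
    simp at hA
    apply h2
    linear_combination hA
  · rw [h1, tr_negS, tr_eq] at hA
    simp at hA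
    apply h2
    linear_combination (-1 : F) * hA

variable [Fintype F]

lemma card_X : Nat.card {A : SL2 F // tr A = 0} = Fintype.card F * (Fintype.card F - 1) := by
  classical
  have e : {A : SL2 F // tr A = 0} ≃ F × Fˣ :=
    { toFun := fun A => ((A.1 : Matrix (Fin 2) (Fin 2) F) 0 0,
        Units.mk0 ((A.1 : Matrix (Fin 2) (Fin 2) F) 0 1) (entry_ne hnsq A.1 A.2))
      invFun := fun p => ⟨mk2 p.1 (p.2 : F) ((-1 - p.1 * p.1) / (p.2 : F)) (-p.1) (by
          have : (p.2 : F) ≠ 0 := p.2.ne_zero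
          field_simp
          ring), by
          rw [tr_eq]
          simp⟩
      left_inv := by
        intro A
        apply Subtype.ext
        apply Subtype.ext
        have h1 := det_entries A.1
        have h2 := A.2
        rw [tr_eq] at h2
        have h3 := entry_ne hnsq A.1 A.2
        set a := (A.1 : Matrix (Fin 2) (Fin 2) F) 0 0
        set b := (A.1 : Matrix (Fin 2) (Fin 2) F) 0 1
        set c := (A.1 : Matrix (Fin 2) (Fin 2) F) 1 0
        set d := (A.1 : Matrix (Fin 2) (Fin 2) F) 1 1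
        have hd : d = -a := by linear_combination h2
        have hc : c = (-1 - a * a) / b := by
          field_simp
          rw [hd] at h1
          linear_combination (-1 : F) * h1
        ext i j
        fin_cases i <;> fin_cases j
        · rfl
        · rfl
        · show (-1 - a * a) / b = c
          rw [hc]
        · show -a = d
          rw [hd]
      right_inv := by
        intro p
        apply Prod.ext
        · rfl
        · apply Units.ext
          rfl }
  rw [Nat.card_congr e, Nat.card_prod, Nat.card_eq_fintype_card, Nat.card_eq_fintype_card,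
    Fintype.card_units]

lemma two_mul_card_J : 2 * Nat.card (J F) = Fintype.card F * (Fintype.card F - 1) := by
  classical
  rw [← card_X hnsq]
  symm
  apply card_two_to_one (fun A : {A : SL2 F // tr A = 0} => (⟨toG A.1, A.1, A.2, rfl⟩ : J F))
    ?_ (fun A => ⟨negS A.1, by rw [tr_negS, A.2, neg_zero]⟩)
  · intro A h
    have h1 : negS A.1 = A.1 := congrArg Subtype.val h
    have h2 := congrArg (fun B : SL2 F => (B : Matrix (Fin 2) (Fin 2) F) 0 1) h1
    simp at h2
    apply entry_ne hnsq A.1 A.2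
    have h3 := two_ne_zero' hnsq
    have : 2 * (A.1 : Matrix (Fin 2) (Fin 2) F) 0 1 = 0 := by
      rw [neg_eq_iff_add_eq_zero] at h2
      linear_combination h2
    exact (mul_eq_zero.mp this).resolve_left h3
  · intro A B
    constructor
    · intro h
      have h1 : toG A.1 = toG B.1 := congrArg Subtype.val h
      rcases (toG_eq_iff _ _).1 h1 with h2 | h2
      · left; exact Subtype.ext h2
      · right; exact Subtype.ext h2
    · rintro (h | h)
      · rw [h]
      · apply Subtype.ext
        show toG A.1 = toG B.1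
        rw [h]
        show toG A.1 = toG (negS A.1)
        rw [toG_negS]
  · rintro ⟨g, A, hA, rfl⟩
    exact ⟨⟨A, hA⟩, rfl⟩

/-- transitivity. -/
lemma exists_conj_J (a b : J F) : ∃ g : PG F, g • a = b := by
  obtain ⟨g, A, hA, rfl⟩ := a
  obtain ⟨g', B, hB, rfl⟩ := b
  have h4 : tr A * tr A ≠ 4 := by
    rw [hA, mul_zero]
    have := two_ne_zero' hnsq
    intro h
    apply this
    have h5 : (2 : F) * 2 = 0 := by linear_combination -h
    exact (mul_self_eq_zero.mp h5)
  obtain ⟨U, hU⟩ := exists_conj A B (not_center hnsq A hA) (not_center hnsq B hB)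
    (by rw [hA, hB]) h4
  refine ⟨toG U, ?_⟩
  apply Subtype.ext
  rw [smul_val]
  show toG U * toG A * (toG U)⁻¹ = toG B
  rw [← hU]
  unfold toG
  simp only [map_mul, map_inv]

/-- `A₀ = [[0,-1],[1,0]]`. -/
def a0 (F : Type*) [Field F] : SL2 F := comp 0

omit hnsq [Fintype F] in
lemma tr_a0 : tr (a0 F) = 0 := by
  rw [tr_eq]
  simp [a0, Cfsg.Agent.Lib.SL2Core.comp]

lemma exists_T (B : SL2 F) (hB : tr B = 0) :
    ∃ T : GL (Fin 2) F, pi T ≠ 1 ∧ pi T * toG (a0 F) * (pi T)⁻¹ = toG (a0 F) ∧
      pi T * toG B * (pi T)⁻¹ = toG B := by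
  classical
  have hdet := det_entries B
  rw [tr_eq] at hB
  set a := (B : Matrix (Fin 2) (Fin 2) F) 0 0 with ha
  set b := (B : Matrix (Fin 2) (Fin 2) F) 0 1 with hb
  set c := (B : Matrix (Fin 2) (Fin 2) F) 1 0 with hc
  set d := (B : Matrix (Fin 2) (Fin 2) F) 1 1 with hd
  have hd' : d = -a := by linear_combination hB
  have hB' : (B : Matrix (Fin 2) (Fin 2) F) = !![a, b; c, -a] := by
    rw [← hd']
    exact Matrix.eta_fin_two _
  have hA0 : ((a0 F : SL2 F) : Matrix (Fin 2) (Fin 2) F) = !![0, -1; 1, 0] := by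
    simp [a0, Cfsg.Agent.Lib.SL2Core.comp]
  have h2 := two_ne_zero' hnsq
  by_cases hcase : (b + c) * (b + c) + (2 * a) * (2 * a) = 0
  · -- B = ± A₀
    have hbc : b + c = 0 ∧ 2 * a = 0 := by
      by_contra hh
      by_cases h0 : 2 * a = 0
      · rw [h0] at hcase
        have : b + c = 0 := by simpa using hcase
        exact hh ⟨this, h0⟩
      · apply hnsq ((b + c) / (2 * a))
        have h7 : (b + c) * (b + c) = -((2 * a) * (2 * a)) := by linear_combination hcase
        rw [div_mul_div_comm, h7, neg_div, div_self (mul_ne_zero h0 h0)]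
    have ha0 : a = 0 := (mul_eq_zero.mp hbc.2).resolve_left h2
    have hc0 : c = -b := by linear_combination hbc.1
    have hb1 : b * b = 1 := by
      rw [hd', ha0, hc0] at hdet
      linear_combination hdet
    refine ⟨SpecialLinearGroup.toGL (a0 F), ?_, ?_, ?_⟩
    · intro h
      have h1 : toG (a0 F) = toG 1 := by
        show pi _ = pi _
        rw [h]; simp
      rcases (toG_eq_iff _ _).1 h1 with h3 | h3
      · have := congrArg (fun B : SL2 F => (B : Matrix (Fin 2) (Fin 2) F) 0 0) h3
        simp [hA0] at this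
      · have := congrArg (fun B : SL2 F => (B : Matrix (Fin 2) (Fin 2) F) 0 0) h3
        simp [hA0] at this
    · show toG (a0 F) * toG (a0 F) * (toG (a0 F))⁻¹ = toG (a0 F)
      simp
    · have : toG (a0 F) = toG B := by
        rw [toG_eq_iff]
        rcases mul_self_eq_one_iff.mp hb1 with h5 | h5
        · right
          apply Subtype.ext
          rw [negS_coe, hB', hA0, ha0, hc0, h5]
          ext i j
          fin_cases i <;> fin_cases j <;> simp
        · left
          apply Subtype.ext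
          rw [hB', hA0, ha0, hc0, h5]
          ext i j
          fin_cases i <;> fin_cases j <;> simp
      show toG (a0 F) * toG B * (toG (a0 F))⁻¹ = toG B
      rw [← this]
      simp
  · -- the commutator
    set u := -(b + c) with hu
    set v := 2 * a with hv
    have hdetT : (!![u, v; v, -u] : Matrix (Fin 2) (Fin 2) F).det ≠ 0 := by
      rw [Matrix.det_fin_two_of]
      intro h
      apply hcase
      rw [hu, hv] at h
      rw [hv]
      linear_combination (-1 : F) * h
    refine ⟨GeneralLinearGroup.mkOfDetNeZero _ hdetT, ?_, ?_, ?_⟩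
    · intro h
      rw [pi_eq_one_iff, GeneralLinearGroup.center_eq_range_scalar] at h
      obtain ⟨w, hw⟩ := h
      have h1 := congrArg (fun g : GL (Fin 2) F => (g : Matrix (Fin 2) (Fin 2) F) 0 1) hw
      have h3 := congrArg (fun g : GL (Fin 2) F => (g : Matrix (Fin 2) (Fin 2) F) 0 0) hw
      have h4 := congrArg (fun g : GL (Fin 2) F => (g : Matrix (Fin 2) (Fin 2) F) 1 1) hw
      simp [GeneralLinearGroup.mkOfDetNeZero] at h1 h3 h4
      apply hcase
      have h5 : 2 * u = 0 := by
        have h6 : u = -(b + c) := hu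
        rw [h6]
        linear_combination (-1 : F) * h3 + h4
      have h6 : u = 0 := (mul_eq_zero.mp h5).resolve_left h2
      have h7 : b + c = 0 := by rw [hu] at h6; linear_combination (-1 : F) * h6
      rw [h7, ← h1]
      ring
    · apply pi_comm_of_anti
      show !![u, v; v, -u] * ((a0 F : SL2 F) : Matrix (Fin 2) (Fin 2) F) =
        -(((a0 F : SL2 F) : Matrix (Fin 2) (Fin 2) F) * !![u, v; v, -u])
      rw [hA0]
      ext i j
      fin_cases i <;> fin_cases j <;> simp [Matrix.mul_apply, Fin.sum_univ_two]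
    · apply pi_comm_of_anti
      show !![u, v; v, -u] * (B : Matrix (Fin 2) (Fin 2) F) =
        -((B : Matrix (Fin 2) (Fin 2) F) * !![u, v; v, -u])
      rw [hB']
      ext i j
      fin_cases i <;> fin_cases j <;> simp [Matrix.mul_apply, Fin.sum_univ_two] <;> ring

lemma exists_common (a b : J F) : ∃ t : PG F, t ≠ 1 ∧ t • a = a ∧ t • b = b := by
  let a₀ : J F := ⟨toG (a0 F), a0 F, tr_a0, rfl⟩
  obtain ⟨g, hg⟩ := exists_conj_J hnsq a a₀
  obtain ⟨B, hB, hB2⟩ := (g • b).2
  obtain ⟨T, hT1, hT2, hT3⟩ := exists_T hnsq B hB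
  have h1 : pi T • a₀ = a₀ := Subtype.ext hT2
  have h2 : pi T • (g • b) = g • b := by
    apply Subtype.ext
    rw [smul_val, ← hB2]
    exact hT3
  refine ⟨g⁻¹ * pi T * g, ?_, ?_, ?_⟩
  · intro h
    apply hT1
    have : pi T * g = g := by
      rw [mul_assoc, inv_mul_eq_one] at h
      exact h.symm
    simpa using this
  · rw [mul_smul, mul_smul, hg, h1, ← hg, inv_smul_smul]
  · rw [mul_smul, mul_smul, h2, inv_smul_smul]

lemma card_stab (a : J F) : Nat.card (MulAction.stabilizer (PG F) a) = 2 * (Fintype.card F + 1) := by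
  have htrans : MulAction.orbit (PG F) a = Set.univ := by
    apply Set.eq_univ_of_forall
    intro b
    exact exists_conj_J hnsq a b
  have h1 := (MulAction.stabilizer (PG F) a).card_mul_index
  rw [MulAction.index_stabilizer, ← Nat.card_coe_set_eq, htrans,
    Nat.card_congr (Equiv.Set.univ _)] at h1
  have h2 : Nat.card (PG F) = Nat.card (SpecialLinearGroup (Fin 2) F) :=
    Cfsg.Agent.Lib.ClassicalCore.card_PGL_eq_card_SL (n := Fin 2) (F := F)
  rw [h2, Cfsg.Agent.Lib.ClassicalSmall.card_SL2] at h1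
  have h3 := two_mul_card_J hnsq
  have : Nonempty (J F) := ⟨a⟩
  have hpos : 0 < Nat.card (J F) := Nat.card_pos
  apply Nat.eq_of_mul_eq_mul_right hpos
  rw [h1]
  calc (Fintype.card F + 1) * Fintype.card F * (Fintype.card F - 1)
      = (Fintype.card F + 1) * (Fintype.card F * (Fintype.card F - 1)) := by ring
    _ = _ := by rw [← h3]; ring

end hnsq

end

theorem main {q k : ℕ} [Fact q.Prime] (hk : q + 1 = 2 ^ k) (hq : 7 ≤ q)
    (H : Sylow 2 (PG (ZMod q))) (x : PG (ZMod q)) :
    (H : Subgroup (PG (ZMod q))) ⊓ MulAut.conj x • (H : Subgroup _) ≠ ⊥ := by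
  have hk3 : 3 ≤ k := by
    by_contra h
    have h1 : k ≤ 2 := by omega
    have h2 : 2 ^ k ≤ 2 ^ 2 := Nat.pow_le_pow_right (by norm_num) h1
    omega
  obtain ⟨m, rfl⟩ : ∃ m, k = m + 3 := ⟨k - 3, by omega⟩
  have hpow : 2 ^ (m + 3) = 8 * 2 ^ m := by ring
  have hmod : q % 4 = 3 := by omega
  have hnsq : ∀ a : ZMod q, a * a ≠ -1 := by
    intro a h
    have h1 : IsSquare (-1 : ZMod q) := ⟨a, h.symm⟩
    exact (ZMod.exists_sq_eq_neg_one_iff.1 h1) hmod
  have hcardF : Fintype.card (ZMod q) = q := ZMod.card q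
  have hJ := two_mul_card_J hnsq
  rw [hcardF] at hJ
  apply sylow_inter 2 (α := J (ZMod q))
  · intro hdvd
    obtain ⟨c, hc⟩ := hdvd
    have hq' : q = 2 * (4 * 2 ^ m) - 1 := by omega
    obtain ⟨r, hr⟩ : ∃ r, q = 2 * r + 1 := ⟨q / 2, by omega⟩
    obtain ⟨s, hs⟩ : ∃ s, q - 1 = 2 * (2 * s + 1) := ⟨(q - 3) / 4, by omega⟩
    rw [hc, hs] at hJ
    have h3 : 2 * (2 * c) = 2 * (q * (2 * s + 1)) := by
      rw [hJ]; ring
    have h4 : 2 * c = q * (2 * s + 1) := by omega
    have h5 : q * (2 * s + 1) % 2 = 1 := by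
      rw [Nat.mul_mod, show q % 2 = 1 by omega]
      simp [Nat.add_mod]
    omega
  · intro a
    apply IsPGroup.of_card (n := m + 4)
    rw [card_stab hnsq, hcardF]
    rw [pow_succ, ← hk]
    ring
  · exact exists_common hnsq

/-- Let q = 2^k − 1 ≥ 7 be a prime and let G = PGL(2,q), the general linear group of degree 2 over the field with q elements modulo its centre. Then any two Sylow 2-subgroups of G have a non-trivial intersection: for a Sylow 2-subgroup H and every x ∈ G, H ∩ H^x ≠ 1. -/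
theorem result {q k : ℕ} [Fact q.Prime] (hk : q + 1 = 2 ^ k) (hq : 7 ≤ q)
    (H : Sylow 2 (GL (Fin 2) (ZMod q) ⧸ Subgroup.center (GL (Fin 2) (ZMod q))))
    (x : GL (Fin 2) (ZMod q) ⧸ Subgroup.center (GL (Fin 2) (ZMod q))) :
    (H : Subgroup (GL (Fin 2) (ZMod q) ⧸ Subgroup.center (GL (Fin 2) (ZMod q)))) ⊓ MulAut.conj x • (H : Subgroup _) ≠ ⊥ :=
  main hk hq H x

end Cfsg.Agent.S2485
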