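import Mathlib
import Cfsg.Statements.S2487
import Cfsg.Agent.Lib.OPlusF2

set_option autoImplicit false
open scoped Pointwise
open Cfsg

namespace Cfsg.Agent.S2487

open Module Cfsg.Agent.Lib.OPlusF2

variable {F : Type*} [Field F]

/-- The polar form of the plus-type form. -/
noncomputable def polarB (m : ℕ) (F : Type*) [Field F] :
    LinearMap.BilinForm F (Fin m ⊕ Fin m → F) :=
  LinearMap.mk₂ F (fun u v => ∑ i : Fin m, (u (.inl i) * v (.inr i) + u (.inr i) * v (.inl i)))
    (by
      intro a b c
      rw [← Finset.sum_add_distrib]
      apply Finset.sum_congr rfl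
      intro i _
      simp only [Pi.add_apply]
      ring)
    (by
      intro c a b
      rw [smul_eq_mul, Finset.mul_sum]
      apply Finset.sum_congr rfl
      intro i _
      simp only [Pi.smul_apply, smul_eq_mul]
      ring)
    (by
      intro a b c
      rw [← Finset.sum_add_distrib]
      apply Finset.sum_congr rfl
      intro i _
      simp only [Pi.add_apply]
      ring)
    (by
      intro c a b
      rw [smul_eq_mul, Finset.mul_sum]
      apply Finset.sum_congr rfl
      intro i _
      simp only [Pi.smul_apply, smul_eq_mul]
      ring)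

theorem polarB_apply (m : ℕ) (u v : Fin m ⊕ Fin m → F) :
    polarB m F u v = ∑ i : Fin m, (u (.inl i) * v (.inr i) + u (.inr i) * v (.inl i)) := rfl

/-- The quadratic data of the plus-type form. -/
noncomputable def qdata (m : ℕ) (h01 : ∀ a : F, a = 0 ∨ a = 1) :
    QData F (Fin m ⊕ Fin m → F) where
  Q := quadFormPlus m F
  B := polarB m F
  hQ := by
    intro u v
    simp only [quadFormPlus, polarB_apply, ← Finset.sum_add_distrib]
    apply Finset.sum_congr rfl
    intro i _
    simp only [Pi.add_apply]
    ring
  hsymm := by
    intro u v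
    simp only [polarB_apply]
    apply Finset.sum_congr rfl
    intro i _
    ring
  hnd := by
    intro v hv
    funext j
    rcases j with i | i
    · have := hv (Pi.single (.inr i) 1)
      rw [polarB_apply] at this
      rw [Finset.sum_eq_single i] at this
      · simpa using this
      · intro k _ hk
        simp [Pi.single_apply, hk]
      · simp
    · have := hv (Pi.single (.inl i) 1)
      rw [polarB_apply] at this
      rw [Finset.sum_eq_single i] at this
      · simpa using this
      · intro k _ hk
        simp [Pi.single_apply, hk]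
      · simp
  h01 := h01

/-- The action on column vectors. -/
noncomputable def rho (m : ℕ) (F : Type*) [Field F] :
    isometryGroup F (quadFormPlus m F) →* Module.End F (Fin m ⊕ Fin m → F) where
  toFun g := Matrix.mulVecLin (g.1.1 : Matrix (Fin m ⊕ Fin m) (Fin m ⊕ Fin m) F)
  map_one' := by
    simp
    rfl
  map_mul' := by
    intro a b
    simp [Matrix.mulVecLin_mul]
    rfl

theorem rho_apply (m : ℕ) (g : isometryGroup F (quadFormPlus m F)) (v : Fin m ⊕ Fin m → F) :
    rho m F g v = (g.1.1 : Matrix (Fin m ⊕ Fin m) (Fin m ⊕ Fin m) F).mulVec v := rfl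

theorem result {F : Type*} [Field F] [Fintype F] (hF : Fintype.card F = 2) {m : ℕ} (hm : 4 ≤ m)
    (H : Sylow 2 (Cfsg.isometryGroup F (Cfsg.quadFormPlus m F)))
    (x : Cfsg.isometryGroup F (Cfsg.quadFormPlus m F)) :
    (H : Subgroup (Cfsg.isometryGroup F (Cfsg.quadFormPlus m F))) ⊓ MulAut.conj x • (H : Subgroup _) ≠ ⊥ := by
  classical
  have h20 : (2 : F) = 0 := by
    have := FiniteField.cast_card_eq_zero F
    rw [hF] at this
    exact_mod_cast this
  haveI : CharP F 2 := CharTwo.of_one_ne_zero_of_two_eq_zero one_ne_zero h20
  have h01 : ∀ a : F, a = 0 ∨ a = 1 := by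
    intro a
    have h1 : ({0, 1} : Finset F) = Finset.univ := by
      apply Finset.eq_univ_of_card
      rw [Finset.card_pair zero_ne_one, hF]
    have h2 : a ∈ ({0, 1} : Finset F) := by rw [h1]; exact Finset.mem_univ a
    simpa using h2
  -- the maximal totally singular subspace
  let ι : (Fin m → F) →ₗ[F] (Fin m ⊕ Fin m → F) :=
    { toFun := fun v => Sum.elim v 0
      map_add' := by
        intro a b
        funext j
        rcases j with i | i <;> simp
      map_smul' := by
        intro c a
        funext j
        rcases j with i | i <;> simp }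
  have hι : Function.Injective ι := by
    intro a b hab
    funext i
    have := congrFun hab (.inl i)
    simpa [ι] using this
  have hfinM : finrank F (LinearMap.range ι) = m := by
    rw [LinearMap.finrank_range_of_inj hι]
    simp
  refine sylow_meet (qdata m h01) (rho m F) ?_ ?_ ?_ (LinearMap.range ι) ?_ ?_ ?_ H x
  · intro a b hab
    apply Subtype.ext
    apply Units.ext
    have : (a.1.1 : Matrix (Fin m ⊕ Fin m) (Fin m ⊕ Fin m) F) = b.1.1 := by
      apply Matrix.toLin'.injective
      exact hab
    exact this
  · intro g v
    exact g.2 v v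
  · intro f hfQ hfinv
    let A : Matrix (Fin m ⊕ Fin m) (Fin m ⊕ Fin m) F := LinearMap.toMatrix' f
    have hA : ∀ v, A.mulVec v = f v := fun v => by simp [A]
    have hAA : A * A = 1 := by
      apply Matrix.toLin'.injective
      apply LinearMap.ext
      intro v
      simp [Matrix.toLin'_apply, ← Matrix.mulVec_mulVec, hA, hfinv]
    let u : Matrix.GeneralLinearGroup (Fin m ⊕ Fin m) F := ⟨A, A, hAA, hAA⟩
    have hu : u ∈ isometryGroup F (quadFormPlus m F) := by
      intro a _
      change quadFormPlus m F (A.mulVec a) = quadFormPlus m F a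
      rw [hA]
      exact hfQ a
    refine ⟨⟨u, hu⟩, ?_⟩
    apply LinearMap.ext
    intro v
    exact hA v
  · rintro _ ⟨v, rfl⟩
    change quadFormPlus m F (Sum.elim v 0) = 0
    simp [quadFormPlus]
  · rw [hfinM]
    simp
    omega
  · rw [hfinM]
    omega

end Cfsg.Agent.S2487
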