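import Mathlib
import Cfsg.Statements.S2488
import Cfsg.Agent.Lib.A6Invol

set_option autoImplicit false
set_option linter.unusedSectionVars false
open scoped Pointwise
open Cfsg

namespace Cfsg.Agent.S2488

open Equiv Cfsg.Agent.Lib.A6Invol

/-- an injective orbit map into a small invariant set is impossible -/
theorem exists_fix {T α : Type*} [Group T] [Finite T] [Finite α] [MulAction T α] (S : Set α)
    (hS : ∀ t : T, ∀ s ∈ S, t • s ∈ S) (hcard : 2 * Nat.card S ≤ Nat.card T) (b : α) (hb : b ∈ S) :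
    ∃ t : T, t ≠ 1 ∧ t • b = b := by
  by_contra hcon
  push Not at hcon
  have hinj : Function.Injective (fun t : T => (⟨t • b, hS t b hb⟩ : S)) := by
    intro t₁ t₂ h
    have h' : t₁ • b = t₂ • b := congrArg Subtype.val h
    by_contra hne
    have h1 : (t₂⁻¹ * t₁) • b = b := by
      rw [mul_smul, h', inv_smul_smul]
    have h2 : t₂⁻¹ * t₁ ≠ 1 := by
      intro h3
      apply hne
      exact (inv_mul_eq_one.mp h3).symm
    exact hcon _ h2 h1
  have h1 : Nat.card T ≤ Nat.card S := Nat.card_le_card_of_injective _ hinj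
  have h2 : 0 < Nat.card S := by
    have : Nonempty S := ⟨⟨b, hb⟩⟩
    exact Nat.card_pos
  omega

section

variable {G : Type*} [Group G] (N : Subgroup G) [N.Normal]

/-- involutions of `N`. -/
abbrev J : Type _ := {a : N // a ^ 2 = 1 ∧ a ≠ 1}

instance instActJ : MulAction G (J N) where
  smul g a := ⟨MulAut.conjNormal g a.1, by
    constructor
    · rw [← map_pow, a.2.1, map_one]
    · intro h
      apply a.2.2
      have := (MulAut.conjNormal g).injective (h.trans (map_one _).symm)
      exact this⟩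
  one_smul a := by
    apply Subtype.ext
    show MulAut.conjNormal (1 : G) a.1 = a.1
    simp
  mul_smul g h a := by
    apply Subtype.ext
    show MulAut.conjNormal (g * h) a.1 = MulAut.conjNormal g (MulAut.conjNormal h a.1)
    simp

theorem smul_val (g : G) (a : J N) : ((g • a).1 : G) = g * (a.1 : G) * g⁻¹ := by
  show ((MulAut.conjNormal g a.1 : N) : G) = _
  simp

end

section

variable {G : Type*} [Group G] {N : Subgroup G} [N.Normal] (e : N ≃* alternatingGroup (Fin 6))

/-- image in the permutation group. -/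
def phi (n : N) : Perm (Fin 6) := (e n).1

theorem phi_mul (a b : N) : phi e (a * b) = phi e a * phi e b := by
  simp [phi]

theorem phi_pow (a : N) (k : ℕ) : phi e (a ^ k) = phi e a ^ k := by
  simp [phi]

theorem phi_one : phi e 1 = 1 := by simp [phi]

theorem phi_inj : Function.Injective (phi e) := by
  intro a b h
  exact e.injective (Subtype.ext h)

theorem phi_sign (a : N) : Perm.sign (phi e a) = 1 := (e a).2

theorem phi_surj (p : Perm (Fin 6)) (hp : Perm.sign p = 1) : ∃ a : N, phi e a = p :=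
  ⟨e.symm ⟨p, hp⟩, by simp [phi]⟩

theorem phi_inv (a : N) : phi e a⁻¹ = (phi e a)⁻¹ := by
  simp [phi]

theorem card_transport (P : Perm (Fin 6) → Prop) :
    Nat.card {a : N // P (phi e a)} =
      Nat.card {p : Perm (Fin 6) // Perm.sign p = 1 ∧ P p} := by
  apply Nat.card_congr
  refine ⟨fun a => ⟨phi e a.1, phi_sign e a.1, a.2⟩, fun p => ⟨e.symm ⟨p.1, p.2.1⟩, ?_⟩, ?_, ?_⟩
  · have : phi e (e.symm ⟨p.1, p.2.1⟩) = p.1 := by simp [phi]
    rw [this]; exact p.2.2
  · intro a; apply Subtype.ext; simp [phi]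
  · intro p; apply Subtype.ext; simp [phi]

theorem phi_pow_eq_one (a : N) (k : ℕ) : a ^ k = 1 ↔ phi e a ^ k = 1 := by
  rw [← phi_pow, ← phi_one e]
  exact (phi_inj e).eq_iff.symm

theorem phi_ne_one (a : N) : a ≠ 1 ↔ phi e a ≠ 1 := by
  rw [← phi_one e]
  exact (phi_inj e).ne_iff.symm

include e in
theorem card_J [Finite G] : Nat.card (J N) = 45 := by
  have h1 : Nat.card (J N) =
      Nat.card {a : N // (fun p : Perm (Fin 6) => p ^ 2 = 1 ∧ p ≠ 1) (phi e a)} := by
    apply Nat.card_congr
    apply Equiv.subtypeEquivRight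
    intro a
    simp only [phi_pow_eq_one e, phi_ne_one e]
  refine h1.trans ((card_transport e (fun p => p ^ 2 = 1 ∧ p ≠ 1)).trans ?_)
  rw [Nat.card_eq_fintype_card, Fintype.card_subtype]
  exact fact1

/-- The image of `u0` in `J N`. -/
def a0 : J N := ⟨e.symm ⟨u0, sign_u0⟩, by
  have hphi : phi e (e.symm ⟨u0, sign_u0⟩) = u0 := by simp [phi]
  constructor
  · rw [phi_pow_eq_one e, hphi]; decide +kernel
  · rw [phi_ne_one e, hphi]; decide +kernel⟩

theorem phi_a0 : phi e (a0 e).1 = u0 := by simp [phi, a0]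

theorem phi_conj (g a : N) : phi e (g * a * g⁻¹) = phi e g * phi e a * (phi e g)⁻¹ := by
  rw [phi_mul, phi_mul, phi_inv]

theorem exists_conj_a0 (a : J N) : ∃ g : N, (g : G) • a0 e = a := by
  obtain ⟨g, hg, hgv⟩ := fact2 (phi e a.1) (phi_sign e a.1)
    ((phi_pow_eq_one e _ _).1 a.2.1) ((phi_ne_one e _).1 a.2.2)
  obtain ⟨n, hn⟩ := phi_surj e g hg
  refine ⟨n, ?_⟩
  apply Subtype.ext
  apply Subtype.ext
  rw [smul_val]
  have : ((n : G) * ((a0 e).1 : G) * (n : G)⁻¹) = ((n * (a0 e).1 * n⁻¹ : N) : G) := by simp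
  rw [this]
  congr 1
  apply phi_inj e
  rw [phi_conj, phi_a0, hn, hgv]

theorem smul_apply_val (g : G) (a : J N) : (g • a).1 = MulAut.conjNormal g a.1 := rfl

/-- The set of involutions `w ≠ a₀` with `(a₀ w)^m = 1`. -/
def S (m : ℕ) : Set (J N) := {w | w ≠ a0 e ∧ ((a0 e).1 * w.1) ^ m = 1}

theorem card_S (m : ℕ) (hm : (Finset.univ.filter (fun w : Perm (Fin 6) =>
    Perm.sign w = 1 ∧ w ^ 2 = 1 ∧ w ≠ 1 ∧ w ≠ u0 ∧ (u0 * w) ^ m = 1)).card ≤ 16) :
    Nat.card (S e m) ≤ 16 := by
  have h1 : Nat.card (S e m) = Nat.card {a : N // (fun p : Perm (Fin 6) =>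
      p ^ 2 = 1 ∧ p ≠ 1 ∧ p ≠ u0 ∧ (u0 * p) ^ m = 1) (phi e a)} := by
    apply Nat.card_congr
    refine ⟨fun w => ⟨w.1.1, ?_⟩, fun a => ⟨⟨a.1, ?_⟩, ?_⟩, ?_, ?_⟩
    · refine ⟨(phi_pow_eq_one e _ _).1 w.1.2.1, (phi_ne_one e _).1 w.1.2.2, ?_, ?_⟩
      · intro h
        apply w.2.1
        apply Subtype.ext
        apply phi_inj e
        rw [h, phi_a0]
      · have := (phi_pow_eq_one e _ _).1 w.2.2
        rwa [phi_mul, phi_a0] at this
    · exact ⟨(phi_pow_eq_one e _ _).2 a.2.1, (phi_ne_one e _).2 a.2.2.1⟩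
    · refine ⟨?_, ?_⟩
      · intro h
        apply a.2.2.2.1
        exact (congrArg (fun w : J N => phi e w.1) h).trans (phi_a0 e)
      · apply (phi_pow_eq_one e _ _).2
        rw [phi_mul, phi_a0]
        exact a.2.2.2.2
    · intro w; rfl
    · intro a; rfl
  rw [h1]
  refine le_of_eq_of_le
    (card_transport e (fun p => p ^ 2 = 1 ∧ p ≠ 1 ∧ p ≠ u0 ∧ (u0 * p) ^ m = 1)) ?_
  rw [Nat.card_eq_fintype_card, Fintype.card_subtype]
  exact hm

theorem S_invariant (m : ℕ) (t : MulAction.stabilizer G (a0 e)) (w : J N) (hw : w ∈ S e m) :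
    t • w ∈ S e m := by
  have ht : (t : G) • a0 e = a0 e := t.2
  have hsm : t • w = (t : G) • w := rfl
  constructor
  · intro h
    apply hw.1
    rw [hsm] at h
    exact MulAction.injective (t : G) (h.trans ht.symm)
  · rw [hsm]
    have : ((a0 e).1 * ((t : G) • w).1) = MulAut.conjNormal (t : G) ((a0 e).1 * w.1) := by
      rw [map_mul, smul_apply_val]
      congr 1
      rw [← smul_apply_val, ht]
    rw [this, ← map_pow, hw.2, map_one]

/-- For any two involutions `a₀`, `b` there is a nontrivial group element commuting with both,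
provided the stabilizer of `a₀` has order `32`. -/
theorem exists_common [Finite G] (hcard : Nat.card (MulAction.stabilizer G (a0 e)) = 32) (b : J N) :
    ∃ t : G, t ≠ 1 ∧ t • a0 e = a0 e ∧ t • b = b := by
  rcases fact3 (phi e b.1) (phi_sign e b.1)
    ((phi_pow_eq_one e _ _).1 b.2.1) ((phi_ne_one e _).1 b.2.2) with h | h | h
  · obtain ⟨t, hs, ht1, ht2, ht3⟩ := h
    obtain ⟨n, hn⟩ := phi_surj e t hs
    refine ⟨(n : G), ?_, ?_, ?_⟩
    · intro h
      apply (phi_ne_one e n).2 (by rwa [hn])
      exact Subtype.ext h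
    · apply Subtype.ext
      apply phi_inj e
      rw [smul_apply_val]
      have : MulAut.conjNormal (n : G) (a0 e).1 = n * (a0 e).1 * n⁻¹ := by
        apply Subtype.ext; simp
      rw [this, phi_conj, phi_a0, hn, ht2]
      group
    · apply Subtype.ext
      apply phi_inj e
      rw [smul_apply_val]
      have : MulAut.conjNormal (n : G) b.1 = n * b.1 * n⁻¹ := by
        apply Subtype.ext; simp
      rw [this, phi_conj, hn, ht3]
      group
  · have hb : b ∈ S e 3 := by
      refine ⟨?_, ?_⟩
      · intro hh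
        apply h.1
        rw [hh, phi_a0]
      · exact (phi_pow_eq_one e _ _).2 (by rw [phi_mul, phi_a0]; exact h.2)
    obtain ⟨t, ht1, ht2⟩ := exists_fix (T := MulAction.stabilizer G (a0 e)) (S e 3)
      (S_invariant e 3) (by
        rw [hcard]
        have := card_S e 3 fact4
        omega) b hb
    refine ⟨t, ?_, t.2, ht2⟩
    intro h
    exact ht1 (Subtype.ext h)
  · have hb : b ∈ S e 5 := by
      refine ⟨?_, ?_⟩
      · intro hh
        apply h.1
        rw [hh, phi_a0]
      · exact (phi_pow_eq_one e _ _).2 (by rw [phi_mul, phi_a0]; exact h.2)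
    obtain ⟨t, ht1, ht2⟩ := exists_fix (T := MulAction.stabilizer G (a0 e)) (S e 5)
      (S_invariant e 5) (by
        rw [hcard]
        have := card_S e 5 fact5
        omega) b hb
    refine ⟨t, ?_, t.2, ht2⟩
    intro h
    exact ht1 (Subtype.ext h)

end

theorem main {G : Type*} [Group G] [Finite G] (N : Subgroup G) [N.Normal]
    (e : N ≃* alternatingGroup (Fin 6)) (hidx : N.index = 4)
    (H : Sylow 2 G) (x : G) :
    (H : Subgroup G) ⊓ MulAut.conj x • (H : Subgroup G) ≠ ⊥ := by
  classical
  have hcardN : Nat.card N = 360 := by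
    rw [Nat.card_congr e.toEquiv]
    rw [Nat.card_eq_fintype_card]
    decide +kernel
  have hcardG : Nat.card G = 1440 := by
    rw [← N.card_mul_index, hcardN, hidx]
  have hfac : (1440 : ℕ).factorization 2 = 5 := by
    rw [show (1440 : ℕ) = 2 ^ 5 * 45 by norm_num,
      Nat.factorization_mul (by norm_num) (by norm_num), Nat.prime_two.factorization_pow]
    simp
    exact Nat.factorization_eq_zero_of_not_dvd (by norm_num)
  have hcardH : Nat.card H = 32 := by
    rw [H.card_eq_multiplicity, hcardG, hfac]; norm_num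
  have hJ : Nat.card (J N) = 45 := card_J e
  -- the stabilizers have order 32
  have hstab : ∀ a : J N, Nat.card (MulAction.stabilizer G a) = 32 := by
    intro a
    have htrans : MulAction.orbit G a = Set.univ := by
      apply Set.eq_univ_of_forall
      intro b
      obtain ⟨g, hg⟩ := exists_conj_a0 e a
      obtain ⟨g', hg'⟩ := exists_conj_a0 e b
      refine ⟨(g' : G) * (g : G)⁻¹, ?_⟩
      show ((g' : G) * (g : G)⁻¹) • a = b
      rw [mul_smul, ← hg, inv_smul_smul, hg']
    have horb : Nat.card (MulAction.orbit G a) = 45 := by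
      rw [htrans, Nat.card_congr (Equiv.Set.univ _), hJ]
    have h1 := (MulAction.stabilizer G a).card_mul_index
    rw [MulAction.index_stabilizer, ← Nat.card_coe_set_eq, horb, hcardG] at h1
    omega
  -- a fixed point of the Sylow subgroup
  have hodd : ¬ 2 ∣ Nat.card (J N) := by rw [hJ]; norm_num
  letI : MulAction H (J N) := inferInstance
  obtain ⟨a, ha⟩ := H.isPGroup'.nonempty_fixed_point_of_prime_not_dvd_card (J N) hodd
  have hle : (H : Subgroup G) ≤ MulAction.stabilizer G a := by
    intro h hh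
    exact ha ⟨h, hh⟩
  have hEq : (H : Subgroup G) = MulAction.stabilizer G a :=
    Subgroup.eq_of_le_of_card_ge hle (by rw [hstab a, hcardH])
  -- a nontrivial element fixing a and x • a
  obtain ⟨g, hg⟩ := exists_conj_a0 e a
  have hstab0 := hstab (a0 e)
  obtain ⟨t, ht1, ht2, ht3⟩ := exists_common e hstab0 (((g : G)⁻¹ * x) • a)
  have hta : ((g : G) * t * (g : G)⁻¹) • a = a := by
    rw [← hg, mul_smul, mul_smul, inv_smul_smul, ht2]
  have htb : ((g : G) * t * (g : G)⁻¹) • (x • a) = x • a := by
    rw [mul_smul, mul_smul, ← mul_smul (g : G)⁻¹ x a, ht3, ← mul_smul, mul_inv_cancel_left]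
  intro hbot
  set s := (g : G) * t * (g : G)⁻¹ with hs
  have hs1 : s ≠ 1 := by
    intro h
    apply ht1
    have : (g : G) * t = (g : G) := by
      have := congrArg (· * (g : G)) h
      simpa [hs] using this
    simpa using this
  have hmem : s ∈ (H : Subgroup G) ⊓ MulAut.conj x • (H : Subgroup G) := by
    constructor
    · rw [hEq]; exact hta
    · show s ∈ MulAut.conj x • (H : Subgroup G)
      rw [Subgroup.mem_pointwise_smul_iff_inv_smul_mem, hEq]
      show _ • a = a
      have : ((MulAut.conj x)⁻¹ • s) = x⁻¹ * s * x := by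
        simp [MulAut.smul_def, MulAut.conj_inv_apply]
      rw [this, mul_smul, mul_smul, htb, inv_smul_smul]
  rw [hbot] at hmem
  exact hs1 (Subgroup.mem_bot.mp hmem)

/-- Let G be a finite group with a normal subgroup N of index 4 isomorphic to the alternating group of degree 6 and with trivial centralizer in G (so G is the full automorphism group of A₆). Then any two Sylow 2-subgroups of G have a non-trivial intersection: for a Sylow 2-subgroup H and every x ∈ G, H ∩ H^x ≠ 1. -/
theorem result {G : Type*} [Group G] [Finite G] (N : Subgroup G) [N.Normal]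
    (e : N ≃* alternatingGroup (Fin 6)) (hidx : N.index = 4)
    (hC : Subgroup.centralizer (N : Set G) = ⊥)
    (H : Sylow 2 G) (x : G) :
    (H : Subgroup G) ⊓ MulAut.conj x • (H : Subgroup G) ≠ ⊥ := 
  main N e hidx H x

end Cfsg.Agent.S2488
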