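import Mathlib
import Cfsg.Statements.S2490
import Cfsg.Agent.Lib.Order7920c

set_option autoImplicit false
open Cfsg

namespace Cfsg.Agent.S2490

open Cfsg.Agent.Lib.Order7920 Subgroup

theorem prime_cases {a : ℕ} (ha : a.Prime) (hd : a ∣ 7920) : a = 2 ∨ a = 3 ∨ a = 5 ∨ a = 11 := by
  have h7920 : (7920 : ℕ) = 2 ^ 4 * (3 ^ 2 * (5 * 11)) := by norm_num
  rw [h7920] at hd
  rcases (Nat.Prime.dvd_mul ha).mp hd with h | h
  · left
    exact (Nat.prime_dvd_prime_iff_eq ha Nat.prime_two).mp (ha.dvd_of_dvd_pow h)
  rcases (Nat.Prime.dvd_mul ha).mp h with h | h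
  · right; left
    exact (Nat.prime_dvd_prime_iff_eq ha Nat.prime_three).mp (ha.dvd_of_dvd_pow h)
  rcases (Nat.Prime.dvd_mul ha).mp h with h | h
  · right; right; left
    exact (Nat.prime_dvd_prime_iff_eq ha Nat.prime_five).mp h
  · right; right; right
    exact (Nat.prime_dvd_prime_iff_eq ha (by norm_num)).mp h

/-- Let G be a finite group of order 7920 = 2⁴·3²·5·11 (the order of the smallest Mathieu group) and suppose its prime graph (vertices the prime divisors of the order, distinct p, q joined when there is an element of order pq) is disconnected: the prime divisors split into two non-empty parts with no element of order pq for p in one part and q in the other. Then G is simple. -/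
theorem result {G : Type*} [Group G] [Finite G] (hord : Nat.card G = 7920)
    (hdisc : (∃ A : Set ℕ, (∃ a ∈ A, a.Prime ∧ a ∣ Nat.card G) ∧ (∃ b ∉ A, b.Prime ∧ b ∣ Nat.card G) ∧
      ∀ a ∈ A, ∀ b ∉ A, a.Prime → b.Prime → a ∣ Nat.card G → b ∣ Nat.card G → ¬ ∃ g : G, orderOf g = a * b)) :
    IsSimpleGroup G := by
  haveI : Nontrivial G := Finite.one_lt_card_iff_nontrivial.mp (by rw [hord]; norm_num)
  refine ⟨fun N hN => ?_⟩
  by_contra hcon
  have hN1 : N ≠ ⊥ := fun h => hcon (Or.inl h)
  have hNt : N ≠ ⊤ := fun h => hcon (Or.inr h)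
  have hconn : Conn G := by
    have h1 : 11 ∣ Nat.card G := by rw [hord]; norm_num
    have h2 : ¬ 11 ^ 2 ∣ Nat.card G := by rw [hord]; norm_num
    let P : Sylow 11 G := default
    obtain ⟨hd, hm⟩ := sylow_count h1 h2 P
    rw [hord] at hd
    have hn : Nat.card (Sylow 11 G) = 1 ∨ Nat.card (Sylow 11 G) = 12 ∨
        Nat.card (Sylow 11 G) = 45 ∨ Nat.card (Sylow 11 G) = 144 := by
      have hle : Nat.card (Sylow 11 G) ≤ 720 := Nat.le_of_dvd (by norm_num) hd
      generalize Nat.card (Sylow 11 G) = n at *
      interval_cases n <;> omega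
    have h1card : 1 < Nat.card (Sylow 11 G) → ¬ 11 ∣ Nat.card (sylKer G 11) :=
      fun hlt => sylKer_not_dvd h1 h2 hlt
    rcases hn with hn | hn | hn | hn
    · -- a normal Sylow subgroup
      have hPc := sylow_card_prime h1 h2 P
      haveI := normal_of_card_sylow_one hn P
      obtain ⟨d, hd, hcard⟩ := card_normalizer_eq (by norm_num : Nat.Prime 11) hPc
      have htop : normalizer ((P : Subgroup G) : Set G) = ⊤ := normalizer_eq_top_iff.mpr inferInstance
      rw [htop, Subgroup.card_top, hord] at hcard
      have hd' : d ≤ 10 := Nat.le_of_dvd (by norm_num) hd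
      have h2C : 2 ∣ Nat.card (centralizer ((P : Subgroup G) : Set G)) := by
        generalize Nat.card (centralizer ((P : Subgroup G) : Set G)) = c at *
        interval_cases d <;> omega
      have h3C : 3 ∣ Nat.card (centralizer ((P : Subgroup G) : Set G)) := by
        generalize Nat.card (centralizer ((P : Subgroup G) : Set G)) = c at *
        interval_cases d <;> omega
      have L2 : Lk G 2 11 := lk7920 hord (by simp) (by simp)
        (edge_of_centralizer (by norm_num) hPc (by norm_num) (by norm_num) h2C)
      have L3 : Lk G 3 11 := lk7920 hord (by simp) (by simp)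
        (edge_of_centralizer (by norm_num) hPc (by norm_num) (by norm_num) h3C)
      refine ⟨L2, L3, ?_⟩
      by_cases h5 : 5 ∣ Nat.card (centralizer ((P : Subgroup G) : Set G))
      · exact lk7920 hord (by simp) (by simp)
          (edge_of_centralizer (by norm_num) hPc (by norm_num) (by norm_num) h5)
      · refine Lk.trans (q := 3) ?_ L3
        apply lk7920 hord (by simp) (by simp)
        refine lemE (centralizer ((P : Subgroup G) : Set G)) (by rw [hord]; norm_num) h5 h3C ?_
        intro k hk hdk
        have hdk' : 3 ^ k ∣ 7920 := by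
          rw [← hord]
          exact hdk.trans (Subgroup.card_subgroup_dvd_card _)
        have : k < 3 := by
          by_contra hcon
          have h27 : 3 ^ 3 ∣ 3 ^ k := pow_dvd_pow 3 (by omega)
          have := h27.trans hdk'
          norm_num at this
        interval_cases k <;> norm_num
    · exact F1 hord (sylKer G 11) (t3 hord hn) (h1card (by omega))
    · exact F1 hord (sylKer G 11) (t4 hord hn) (h1card (by omega))
    · exact t5 hord hn N hN1 hNt
  obtain ⟨A, ⟨a, haA, hap, had⟩, ⟨b, hbA, hbp, hbd⟩, hD⟩ := hdisc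
  obtain ⟨L2, L3, L5⟩ := hconn
  have h2 := L2 A hD
  have h3 := L3 A hD
  have h5 := L5 A hD
  rw [hord] at had hbd
  rcases prime_cases hap had with rfl | rfl | rfl | rfl <;>
    rcases prime_cases hbp hbd with rfl | rfl | rfl | rfl <;> tauto

end Cfsg.Agent.S2490
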