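import Mathlib
import Cfsg.Statements.S2493
import Cfsg.Agent.Lib.Pres.Carmichael
-- import your own Cfsg.Agent.* helpers here

set_option autoImplicit false
open Cfsg

namespace Cfsg.Agent.S2493

set_option linter.unusedSectionVars false
set_option linter.unusedVariables false

section Helpers
open Equiv Equiv.Perm

variable {Ω : Type*} [DecidableEq Ω] [Fintype Ω]

/-! ### Involutions -/

theorem invol_cycleType {σ : Perm Ω} (h : σ * σ = 1) :
    σ.cycleType = Multiset.replicate (σ.support.card / 2) 2 := by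
  by_cases h1 : σ = 1
  · subst h1; simp
  · have ho : orderOf σ = 2 := orderOf_eq_prime (by rw [pow_two]; exact h) h1
    obtain ⟨n, hn⟩ := cycleType_prime_order (σ := σ) (by rw [ho]; exact Nat.prime_two)
    rw [ho] at hn
    have hs := sum_cycleType σ
    rw [hn] at hs
    simp only [Multiset.sum_replicate, smul_eq_mul] at hs
    rw [hn, ← hs]
    congr 1
    omega

theorem invol_sign {σ : Perm Ω} (h : σ * σ = 1) :
    sign σ = (-1) ^ (σ.support.card / 2) := by
  rw [sign_of_cycleType, invol_cycleType h]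
  simp only [Multiset.map_replicate, Multiset.prod_replicate, Multiset.card_replicate]
  simp
  rw [pow_add, pow_mul']
  simp

theorem invol_two_points {σ : Perm Ω} (h : σ * σ = 1) (h4 : 4 ≤ σ.support.card) :
    ∃ p q u v, p ≠ q ∧ p ≠ u ∧ p ≠ v ∧ q ≠ u ∧ q ≠ v ∧ u ≠ v ∧ σ p = q ∧ σ q = p ∧ σ u = v ∧ σ v = u := by
  have hinv : ∀ y, σ (σ y) = y := fun y => by
    have := congrArg (fun f : Perm Ω => f y) h
    simpa using this
  obtain ⟨p, hp⟩ : σ.support.Nonempty := Finset.card_pos.1 (by omega)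
  have hp' : σ p ≠ p := mem_support.1 hp
  obtain ⟨u, hu⟩ : ∃ u ∈ σ.support, u ≠ p ∧ u ≠ σ p := by
    by_contra hcon
    push Not at hcon
    have : σ.support ⊆ {p, σ p} := by
      intro y hy
      by_cases hyp : y = p
      · simp [hyp]
      · simp [hcon y hy hyp]
    have h2 := Finset.card_le_card this
    have h3 : ({p, σ p} : Finset Ω).card ≤ 2 := Finset.card_le_two
    omega
  have hu' : σ u ≠ u := mem_support.1 hu.1
  refine ⟨p, σ p, u, σ u, hp'.symm, hu.2.1.symm, ?_, hu.2.2.symm, ?_, hu'.symm, rfl, hinv p, rfl, hinv u⟩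
  · intro e
    apply hu.2.2
    have := congrArg σ e
    rw [hinv] at this
    exact this.symm
  · intro e
    apply hu.2.1
    exact σ.injective e.symm

/-- the form of a modified involution -/
theorem modified_form {σ : Perm Ω} (h : σ * σ = 1) {u v : Ω} (hu : σ u ≠ u) (hv : σ v = v) :
    ∃ σ' : Perm Ω, σ' * σ' = 1 ∧ σ'.support.card + 2 = σ.support.card ∧
      (∀ y, y = u ∨ y = v ∨ y = σ u → σ' y = y) ∧
      (∀ y, σ' y ≠ y → σ y = σ' y) ∧
      (swap u v * σ).cycleType = {3} + σ'.cycleType := by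
  have hinv : ∀ y, σ (σ y) = y := fun y => by
    have := congrArg (fun f : Perm Ω => f y) h
    simpa using this
  set w := σ u with hw
  have huw : u ≠ w := hu.symm
  have huv : u ≠ v := by
    intro e
    apply hu
    have h0 : σ v = v := hv
    rw [← e] at h0
    exact h0
  have hvw : v ≠ w := by
    intro e
    apply hu
    rw [hw.symm] at *
    have h1 : σ w = w := by rw [← e]; exact hv
    have h2 : σ w = u := hinv u
    rw [h2] at h1
    exact absurd h1 huw
  have hσu : σ u = w := rfl
  have hσw : σ w = u := hinv u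
  set σ' := swap u w * σ with hσ'
  have hcomm : swap u w * σ = σ * swap u w := by
    ext y
    simp only [Perm.mul_apply]
    by_cases hyu : y = u
    · subst hyu; simp [hσu, hσw]
    · by_cases hyw : y = w
      · subst hyw; simp [hσu, hσw]
      · have h1 : σ y ≠ u := fun e => hyw (by rw [← hinv y, e, hσu])
        have h2 : σ y ≠ w := fun e => hyu (by rw [← hinv y, e, hσw])
        rw [swap_apply_of_ne_of_ne hyu hyw, swap_apply_of_ne_of_ne h1 h2]
  have hσ'sq : σ' * σ' = 1 := by
    rw [hσ']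
    calc swap u w * σ * (swap u w * σ) = swap u w * (σ * swap u w) * σ := by group
      _ = swap u w * (swap u w * σ) * σ := by rw [hcomm]
      _ = (swap u w * swap u w) * (σ * σ) := by group
      _ = 1 := by rw [swap_mul_self, h, one_mul]
  have hσ'u : σ' u = u := by simp [hσ', hσu]
  have hσ'w : σ' w = w := by simp [hσ', hσw]
  have hσ'v : σ' v = v := by
    simp only [hσ', Perm.mul_apply, hv]
    exact swap_apply_of_ne_of_ne huv.symm hvw
  have hσ'y : ∀ y, y ≠ u → y ≠ w → σ' y = σ y := by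
    intro y h1 h2
    have h3 : σ y ≠ u := fun e => h2 (by rw [← hinv y, e, hσu])
    have h4 : σ y ≠ w := fun e => h1 (by rw [← hinv y, e, hσw])
    simp only [hσ', Perm.mul_apply]
    exact swap_apply_of_ne_of_ne h3 h4
  have hsupp : σ.support = insert u (insert w σ'.support) := by
    ext y
    simp only [mem_support, Finset.mem_insert]
    constructor
    · intro hy
      by_cases h1 : y = u
      · exact Or.inl h1
      · by_cases h2 : y = w
        · exact Or.inr (Or.inl h2)
        · right; right; rw [hσ'y y h1 h2]; exact hy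
    · rintro (rfl | rfl | hy)
      · exact hu
      · rw [hσw]; exact huw
      · by_cases h1 : y = u
        · subst h1; exact absurd hσ'u hy
        · by_cases h2 : y = w
          · subst h2; exact absurd hσ'w hy
          · rw [← hσ'y y h1 h2]; exact hy
  have hcard : σ'.support.card + 2 = σ.support.card := by
    rw [hsupp, Finset.card_insert_of_notMem, Finset.card_insert_of_notMem]
    · simpa [mem_support] using hσ'w
    · simp only [Finset.mem_insert, mem_support, not_or, not_not]
      exact ⟨huw, hσ'u⟩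
  refine ⟨σ', hσ'sq, hcard, ?_, ?_, ?_⟩
  · rintro y (rfl | rfl | rfl)
    · exact hσ'u
    · exact hσ'v
    · exact hσ'w
  · intro y hy
    have h1 : y ≠ u := fun e => hy (by rw [e]; exact hσ'u)
    have h2 : y ≠ w := fun e => hy (by rw [e]; exact hσ'w)
    rw [hσ'y y h1 h2]
  · have hfac : swap u v * σ = (swap u v * swap u w) * σ' := by
      rw [hσ']
      calc swap u v * σ = swap u v * ((swap u w * swap u w) * σ) := by rw [swap_mul_self, one_mul]
        _ = _ := by group
    have h3 : IsThreeCycle (swap u v * swap u w) := isThreeCycle_swap_mul_swap_same huv huw hvw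
    have hdisj : Equiv.Perm.Disjoint (swap u v * swap u w) σ' := by
      intro y
      by_cases h1 : y = u
      · right; rw [h1]; exact hσ'u
      · by_cases h2 : y = w
        · right; rw [h2]; exact hσ'w
        · by_cases h3 : y = v
          · right; rw [h3]; exact hσ'v
          · left
            simp only [Perm.mul_apply]
            rw [swap_apply_of_ne_of_ne h1 h2, swap_apply_of_ne_of_ne h1 h3]
    rw [hfac, Equiv.Perm.Disjoint.cycleType_mul hdisj, h3.cycleType]

/-! ### Reflections of a cycle -/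

theorem zpow_eq_one_of_fix {c : Perm Ω} (hc : c.IsCycle) {a : Ω} (ha : c a ≠ a) {j : ℤ}
    (h : (c ^ j) a = a) : c ^ j = 1 := by
  ext y
  simp only [Perm.one_apply]
  by_cases hy : c y = y
  · exact (Function.IsFixedPt.perm_zpow (hy) j)
  · obtain ⟨i, rfl⟩ := hc.exists_zpow_eq ha hy
    rw [← Perm.mul_apply, ← zpow_add, add_comm, zpow_add, Perm.mul_apply, h]

theorem exists_reflect {c : Perm Ω} (hc : c.IsCycle) {a : Ω} (ha : c a ≠ a) :
    ∃ r : Perm Ω, (∀ i : ℤ, r ((c ^ i) a) = (c ^ (-i)) a) ∧ (∀ y, c y = y → r y = y) := by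
  classical
  have hmoved : ∀ i : ℤ, c ((c ^ i) a) ≠ (c ^ i) a := by
    intro i e
    apply ha
    have : (c ^ i) (c a) = (c ^ i) a := by
      rw [← Perm.mul_apply, ← zpow_add_one, add_comm, zpow_one_add, Perm.mul_apply]; exact e
    exact (c ^ i).injective this
  let f : Ω → Ω := fun y =>
    if h : c y ≠ y then (c ^ (-(Classical.choose (hc.exists_zpow_eq ha h)))) a else y
  have key : ∀ i : ℤ, f ((c ^ i) a) = (c ^ (-i)) a := by
    intro i
    have h := hmoved i
    simp only [f, dif_pos h]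
    have hj := Classical.choose_spec (hc.exists_zpow_eq ha h)
    set j := Classical.choose (hc.exists_zpow_eq ha h) with hjdef
    have h2 : (c ^ (j - i)) a = a := by
      have : (c ^ (-i)) ((c ^ j) a) = (c ^ (-i)) ((c ^ i) a) := by rw [hj]
      rw [← Perm.mul_apply, ← Perm.mul_apply, ← zpow_add, ← zpow_add] at this
      simpa [sub_eq_add_neg, add_comm] using this
    have h3 : (c ^ (-j)) a = (c ^ (-i)) a := by
      have : (c ^ (-j)) ((c ^ (j - i)) a) = (c ^ (-j)) a := by rw [h2]
      rw [← Perm.mul_apply, ← zpow_add] at this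
      rw [← this]
      congr 2
      ring
    exact h3
  have hfix : ∀ y, c y = y → f y = y := by
    intro y hy
    simp [f, hy]
  have hinv : Function.Involutive f := by
    intro y
    by_cases hy : c y = y
    · rw [hfix y hy, hfix y hy]
    · obtain ⟨i, rfl⟩ := hc.exists_zpow_eq ha hy
      rw [key, key, neg_neg]
  exact ⟨hinv.toPerm f, key, hfix⟩

def IsPair (x g : Perm Ω) : Prop := g * g = 1 ∧ (x * g) * (x * g) = 1 ∧ ∀ y, x y = y → g y = y

def CondA (x g : Perm Ω) : Prop := ∃ v, g v = v ∧ x v ≠ v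

def CondB (x g : Perm Ω) : Prop := ∃ u, g u = x u ∧ x u ≠ u

section Cycle

variable {c : Perm Ω} (hc : c.IsCycle) {a : Ω} (ha : c a ≠ a) {r : Perm Ω}
  (hr : ∀ i : ℤ, r ((c ^ i) a) = (c ^ (-i)) a) (hr' : ∀ y, c y = y → r y = y)
include hc ha hr hr'

theorem refl_step (i : ℤ) : (c * r) ((c ^ i) a) = (c ^ (1 - i)) a := by
  rw [Perm.mul_apply, hr, ← Perm.mul_apply, ← zpow_one_add]
  congr 2

theorem refl_pair : IsPair c r := by
  refine ⟨?_, ?_, hr'⟩
  · ext y
    simp only [Perm.mul_apply, Perm.one_apply]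
    by_cases hy : c y = y
    · rw [hr' y hy, hr' y hy]
    · obtain ⟨i, rfl⟩ := hc.exists_zpow_eq ha hy
      rw [hr, hr, neg_neg]
  · ext y
    simp only [Perm.one_apply]
    by_cases hy : c y = y
    · simp [Perm.mul_apply, hr' y hy, hy]
    · obtain ⟨i, rfl⟩ := hc.exists_zpow_eq ha hy
      rw [Perm.mul_apply, refl_step hc ha hr hr', refl_step hc ha hr hr']
      congr 2
      ring

theorem refl_condA : CondA c r := ⟨a, by simpa using hr 0, ha⟩

theorem moved_zpow (i : ℤ) : c ((c ^ i) a) ≠ (c ^ i) a := by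
  intro e
  apply ha
  have : (c ^ i) (c a) = (c ^ i) a := by
    rw [← Perm.mul_apply, ← zpow_add_one, add_comm, zpow_one_add, Perm.mul_apply]; exact e
  exact (c ^ i).injective this

theorem cycle_odd_card (hm : Odd c.support.card) : r.support.card = (c * r).support.card := by
  obtain ⟨k, hk⟩ := hm
  have hord : c ^ ((2 * k + 1 : ℕ) : ℤ) = 1 := by
    rw [← hk, ← hc.orderOf, zpow_natCast, pow_orderOf_eq_one]
  have hconj : c * r = c ^ ((k + 1 : ℕ) : ℤ) * r * (c ^ ((k + 1 : ℕ) : ℤ))⁻¹ := by
    ext y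
    by_cases hy : c y = y
    · have h1 : ∀ j : ℤ, (c ^ j) y = y := fun j => Function.IsFixedPt.perm_zpow hy j
      have h2 : ((c ^ ((k + 1 : ℕ) : ℤ))⁻¹) y = y := by
        rw [← zpow_neg]; exact h1 _
      have h3 := hr' y hy
      simp only [Perm.mul_apply]
      rw [h2, h3, h1, hy]
    · obtain ⟨i, rfl⟩ := hc.exists_zpow_eq ha hy
      rw [refl_step hc ha hr hr', Perm.mul_apply, Perm.mul_apply, ← zpow_neg, ← Perm.mul_apply (c ^ _) (c ^ i),
        ← zpow_add, hr, ← Perm.mul_apply, ← zpow_add]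
      have : ((k + 1 : ℕ) : ℤ) + -(-((k + 1 : ℕ) : ℤ) + i) = ((2 * k + 1 : ℕ) : ℤ) + (1 - i) := by
        push_cast; ring
      rw [this, zpow_add, hord, one_mul]
  rw [hconj, card_support_conj]

theorem cycle_odd_condB (hm : Odd c.support.card) : CondB c r := by
  obtain ⟨k, hk⟩ := hm
  have hord : c ^ ((2 * k + 1 : ℕ) : ℤ) = 1 := by
    rw [← hk, ← hc.orderOf, zpow_natCast, pow_orderOf_eq_one]
  refine ⟨(c ^ (k : ℤ)) a, ?_, moved_zpow hc ha hr hr' _⟩
  rw [hr, ← Perm.mul_apply, ← zpow_one_add]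
  have : (1 + (k : ℤ)) = ((2 * k + 1 : ℕ) : ℤ) + -(k : ℤ) := by push_cast; ring
  rw [this, zpow_add, hord, one_mul]

theorem cycle_even_card (hm : Even c.support.card) : r.support.card + 2 = (c * r).support.card := by
  obtain ⟨k, hk⟩ := hm
  have hk' : c.support.card = 2 * k := by omega
  have hordc : orderOf c = 2 * k := by rw [hc.orderOf, hk']
  have hkpos : 0 < k := by
    have := orderOf_pos c
    omega
  have hord : c ^ ((2 * k : ℕ) : ℤ) = 1 := by
    rw [← hordc, zpow_natCast, pow_orderOf_eq_one]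
  set b := (c ^ (k : ℤ)) a with hb
  have hab : a ≠ b := by
    intro e
    have h1 : (c ^ (k : ℤ)) a = a := e.symm
    have h2 := zpow_eq_one_of_fix hc ha h1
    rw [zpow_natCast] at h2
    have h3 := orderOf_le_of_pow_eq_one hkpos h2
    omega
  have hcrsupp : (c * r).support = c.support := by
    ext y
    simp only [mem_support]
    constructor
    · intro h hy
      apply h
      simp [Perm.mul_apply, hr' y hy, hy]
    · intro hy e
      obtain ⟨i, rfl⟩ := hc.exists_zpow_eq ha hy
      rw [refl_step hc ha hr hr'] at e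
      have h1 : (c ^ (1 - i - i)) a = a := by
        have : (c ^ (-i)) ((c ^ (1 - i)) a) = (c ^ (-i)) ((c ^ i) a) := by rw [e]
        rw [← Perm.mul_apply, ← Perm.mul_apply, ← zpow_add, ← zpow_add] at this
        simpa [sub_eq_add_neg, add_comm, add_left_comm] using this
      have h2 := zpow_eq_one_of_fix hc ha h1
      have h3 := orderOf_dvd_iff_zpow_eq_one.2 h2
      rw [hordc] at h3
      obtain ⟨l, hl⟩ := h3
      push_cast at hl
      have h5 : (1 : ℤ) = 2 * (i + k * l) := by linarith
      omega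
  have hrb : r b = b := by
    rw [hb, hr, show (-(k : ℤ)) = (k : ℤ) + -((2 * k : ℕ) : ℤ) by push_cast; ring, zpow_add, zpow_neg, hord]
    simp
  have hra : r a = a := by simpa using hr 0
  have hsupp : c.support = insert a (insert b r.support) := by
    ext y
    simp only [mem_support, Finset.mem_insert]
    constructor
    · intro hy
      by_cases h1 : r y = y
      · obtain ⟨i, rfl⟩ := hc.exists_zpow_eq ha hy
        rw [hr] at h1
        have h2 : (c ^ (i + i)) a = a := by
          have : (c ^ i) ((c ^ (-i)) a) = (c ^ i) ((c ^ i) a) := by rw [h1]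
          rw [← Perm.mul_apply, ← Perm.mul_apply, ← zpow_add, ← zpow_add] at this
          simpa using this.symm
        have h3 := zpow_eq_one_of_fix hc ha h2
        have h4 := orderOf_dvd_iff_zpow_eq_one.2 h3
        rw [hordc] at h4
        obtain ⟨l, hl⟩ := h4
        push_cast at hl
        have hi : i = k * l := by
          have : (2 : ℤ) * i = 2 * (k * l) := by linarith
          exact mul_left_cancel₀ (by norm_num) this
        rcases Int.even_or_odd' l with ⟨t, rfl | rfl⟩
        · left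
          have : c ^ i = 1 := by
            rw [hi, show (k : ℤ) * (2 * t) = ((2 * k : ℕ) : ℤ) * t by push_cast; ring, zpow_mul, hord, one_zpow]
          rw [this]; rfl
        · right; left
          have : c ^ i = c ^ (k : ℤ) := by
            rw [hi, show (k : ℤ) * (2 * t + 1) = ((2 * k : ℕ) : ℤ) * t + k by push_cast; ring, zpow_add,
              zpow_mul, hord, one_zpow, one_mul]
          rw [this]
      · right; right; exact h1
    · rintro (rfl | rfl | hy)
      · exact ha
      · exact moved_zpow hc ha hr hr' _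
      · intro e
        exact hy (hr' y e)
  rw [hcrsupp, hsupp, Finset.card_insert_of_notMem, Finset.card_insert_of_notMem]
  · simpa [mem_support] using hrb
  · simp only [Finset.mem_insert, mem_support, not_or, not_not]
    exact ⟨hab, hra⟩

end Cycle

theorem cycle_data {c : Perm Ω} (hc : c.IsCycle) :
    ∃ g, IsPair c g ∧ CondA c g ∧
      ((Odd c.support.card ∧ g.support.card = (c * g).support.card ∧ CondB c g) ∨
        (Even c.support.card ∧ g.support.card + 2 = (c * g).support.card)) := by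
  obtain ⟨a, ha, -⟩ := id hc
  obtain ⟨r, hr, hr'⟩ := exists_reflect hc ha
  refine ⟨r, refl_pair hc ha hr hr', refl_condA hc ha hr hr', ?_⟩
  rcases Nat.even_or_odd c.support.card with h | h
  · exact Or.inr ⟨h, cycle_even_card hc ha hr hr' h⟩
  · exact Or.inl ⟨h, cycle_odd_card hc ha hr hr' h, cycle_odd_condB hc ha hr hr' h⟩

theorem pair_swap {x g : Perm Ω} (h : IsPair x g) :
    IsPair x (x * g) ∧ (x * (x * g)).support.card = g.support.card ∧
      (CondB x g → CondA x (x * g)) ∧ (CondA x g → CondB x (x * g)) := by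
  obtain ⟨h1, h2, h3⟩ := h
  have hinv : ∀ y, g (g y) = y := fun y => by
    have := congrArg (fun f : Perm Ω => f y) h1
    simpa using this
  have e : x * (x * g) = (x * g) * g * (x * g)⁻¹ := by
    have : (x * g)⁻¹ = x * g := by
      rw [inv_eq_iff_mul_eq_one]; exact h2
    rw [this]
    calc x * (x * g) = x * (g * g) * (x * g) := by rw [h1, mul_one]
      _ = _ := by group
  refine ⟨⟨h2, ?_, ?_⟩, ?_, ?_, ?_⟩
  · rw [e]
    have : (x * g)⁻¹ = x * g := by
      rw [inv_eq_iff_mul_eq_one]; exact h2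
    rw [this]
    calc x * g * g * (x * g) * (x * g * g * (x * g)) = x * g * g * ((x * g) * (x * g)) * g * (x * g) := by group
      _ = x * g * (g * g) * (x * g) := by rw [h2]; group
      _ = (x * g) * (x * g) := by rw [h1, mul_one]
      _ = 1 := h2
  · intro y hy
    simp [Perm.mul_apply, h3 y hy, hy]
  · rw [e, card_support_conj]
  · rintro ⟨u, hu, hu'⟩
    refine ⟨x u, ?_, ?_⟩
    · simp only [Perm.mul_apply]
      rw [← hu, hinv]
      exact hu.symm
    · intro e
      exact hu' (x.injective e)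
  · rintro ⟨v, hv, hv'⟩
    exact ⟨v, by simp [Perm.mul_apply, hv], hv'⟩

section Comp
variable {f k g₁ g₂ : Perm Ω} (hd : Equiv.Perm.Disjoint f k) (h₁ : IsPair f g₁) (h₂ : IsPair k g₂)
include hd h₁ h₂

theorem pair_disj : Equiv.Perm.Disjoint g₁ g₂ := fun y => (hd y).imp (h₁.2.2 y) (h₂.2.2 y)

theorem pair_disj' : Equiv.Perm.Disjoint (f * g₁) (k * g₂) := by
  intro y
  rcases hd y with h | h
  · left; simp [Perm.mul_apply, h₁.2.2 y h, h]
  · right; simp [Perm.mul_apply, h₂.2.2 y h, h]

theorem pair_eq : f * k * (g₁ * g₂) = (f * g₁) * (k * g₂) := by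
  have h : Equiv.Perm.Disjoint g₁ k := fun y => (hd y).imp_left (h₁.2.2 y)
  have := h.commute.eq
  calc f * k * (g₁ * g₂) = f * (k * g₁) * g₂ := by group
    _ = f * (g₁ * k) * g₂ := by rw [this]
    _ = _ := by group

theorem pair_mul : IsPair (f * k) (g₁ * g₂) := by
  have hdg := pair_disj hd h₁ h₂
  have hdg' := pair_disj' hd h₁ h₂
  refine ⟨?_, ?_, ?_⟩
  · have := hdg.commute.eq
    calc g₁ * g₂ * (g₁ * g₂) = g₁ * (g₂ * g₁) * g₂ := by group
      _ = g₁ * (g₁ * g₂) * g₂ := by rw [← this]
      _ = (g₁ * g₁) * (g₂ * g₂) := by group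
      _ = 1 := by rw [h₁.1, h₂.1, one_mul]
  · rw [pair_eq hd h₁ h₂]
    have := hdg'.commute.eq
    calc f * g₁ * (k * g₂) * (f * g₁ * (k * g₂))
        = (f * g₁) * ((k * g₂) * (f * g₁)) * (k * g₂) := by group
      _ = (f * g₁) * ((f * g₁) * (k * g₂)) * (k * g₂) := by rw [← this]
      _ = ((f * g₁) * (f * g₁)) * ((k * g₂) * (k * g₂)) := by group
      _ = 1 := by rw [h₁.2.1, h₂.2.1, one_mul]
  · intro y hy
    have h1 : k y = y ∧ f y = y := by
      rcases hd y with h | h
      · rw [Perm.mul_apply] at hy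
        have h2 : f (k y) = y := hy
        rw [← h] at h2
        have := f.injective h2
        rw [h] at this
        exact ⟨this, h⟩
      · rw [Perm.mul_apply, h] at hy
        exact ⟨h, hy⟩
    simp [Perm.mul_apply, h₂.2.2 y h1.1, h₁.2.2 y h1.2]

theorem pair_condA_left (h : CondA f g₁) : CondA (f * k) (g₁ * g₂) := by
  obtain ⟨v, hv, hv'⟩ := h
  have hk : k v = v := (hd v).resolve_left hv'
  exact ⟨v, by simp [Perm.mul_apply, h₂.2.2 v hk, hv], by simpa [Perm.mul_apply, hk] using hv'⟩

theorem pair_condA_right (h : CondA k g₂) : CondA (f * k) (g₁ * g₂) := by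
  obtain ⟨v, hv, hv'⟩ := h
  have hf : f v = v := (hd v).resolve_right hv'
  have hkv : k (k v) ≠ k v := fun e => hv' (k.injective e)
  have hf' : f (k v) = k v := (hd (k v)).resolve_right hkv
  exact ⟨v, by simp [Perm.mul_apply, h₁.2.2 v hf, hv], by simpa [Perm.mul_apply, hf'] using hv'⟩

theorem pair_condB_left (h : CondB f g₁) : CondB (f * k) (g₁ * g₂) := by
  obtain ⟨u, hu, hu'⟩ := h
  have hk : k u = u := by
    rcases hd u with h | h
    · exact absurd h hu'
    · exact h
  exact ⟨u, by simp [Perm.mul_apply, h₂.2.2 u hk, hu, hk], by simpa [Perm.mul_apply, hk] using hu'⟩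

theorem pair_condB_right (h : CondB k g₂) : CondB (f * k) (g₁ * g₂) := by
  obtain ⟨u, hu, hu'⟩ := h
  have hkv : k (k u) ≠ k u := fun e => hu' (k.injective e)
  have hf' : f (k u) = k u := (hd (k u)).resolve_right hkv
  have hf : f u = u := (hd u).resolve_right hu'
  refine ⟨u, ?_, ?_⟩
  · simp only [Perm.mul_apply, hu, hf', h₁.2.2 _ hf']
  · simpa [Perm.mul_apply, hf'] using hu'

theorem pair_card : (g₁ * g₂).support.card = g₁.support.card + g₂.support.card :=
  Equiv.Perm.Disjoint.card_support_mul (pair_disj hd h₁ h₂)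

theorem pair_card' : (f * k * (g₁ * g₂)).support.card = (f * g₁).support.card + (k * g₂).support.card := by
  rw [pair_eq hd h₁ h₂]
  exact Equiv.Perm.Disjoint.card_support_mul (pair_disj' hd h₁ h₂)

end Comp

def PP (x : Perm Ω) : Prop :=
  (sign x = 1 ∧ ∃ g, IsPair x g ∧ g.support.card = (x * g).support.card ∧ (x ≠ 1 → CondA x g ∧ CondB x g)) ∨
  (sign x = -1 ∧ ∃ g, IsPair x g ∧ g.support.card + 2 = (x * g).support.card ∧ CondA x g)

theorem PP_all (x : Perm Ω) : PP x := by
  induction x using Equiv.Perm.cycle_induction_on with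
  | base_one =>
    left
    refine ⟨by simp, 1, ⟨by simp, by simp, by simp⟩, by simp, by simp⟩
  | base_cycles c hc =>
    obtain ⟨g, hg, hA, h | h⟩ := cycle_data hc
    · left
      refine ⟨?_, g, hg, h.2.1, fun _ => ⟨hA, h.2.2⟩⟩
      rw [hc.sign, h.1.neg_one_pow]
      simp
    · right
      refine ⟨?_, g, hg, h.2, hA⟩
      rw [hc.sign, h.1.neg_one_pow]
  | induction_disjoint f k hd hf Pf Pk =>
    have hf1 : f ≠ 1 := hf.ne_one
    rcases Pf with ⟨sf, g₁, h₁, c₁, A₁⟩ | ⟨sf, g₁, h₁, c₁, A₁⟩ <;>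
      rcases Pk with ⟨sk, g₂, h₂, c₂, A₂⟩ | ⟨sk, g₂, h₂, c₂, A₂⟩
    · left
      refine ⟨by rw [Perm.sign_mul, sf, sk, one_mul], g₁ * g₂, pair_mul hd h₁ h₂, ?_, fun _ =>
        ⟨pair_condA_left hd h₁ h₂ (A₁ hf1).1, pair_condB_left hd h₁ h₂ (A₁ hf1).2⟩⟩
      rw [pair_card hd h₁ h₂, pair_card' hd h₁ h₂, c₁, c₂]
    · right
      refine ⟨by rw [Perm.sign_mul, sf, sk, one_mul], g₁ * g₂, pair_mul hd h₁ h₂, ?_,
        pair_condA_right hd h₁ h₂ A₂⟩
      rw [pair_card hd h₁ h₂, pair_card' hd h₁ h₂, c₁, ← c₂]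
      omega
    · right
      refine ⟨by rw [Perm.sign_mul, sf, sk, mul_one], g₁ * g₂, pair_mul hd h₁ h₂, ?_,
        pair_condA_left hd h₁ h₂ A₁⟩
      rw [pair_card hd h₁ h₂, pair_card' hd h₁ h₂, ← c₁, c₂]
      omega
    · left
      obtain ⟨h₂', c₂', -, hBA⟩ := pair_swap h₂
      refine ⟨by rw [Perm.sign_mul, sf, sk]; simp, g₁ * (k * g₂), pair_mul hd h₁ h₂', ?_, fun _ =>
        ⟨pair_condA_left hd h₁ h₂' A₁, pair_condB_right hd h₁ h₂' (hBA A₂)⟩⟩
      rw [pair_card hd h₁ h₂', pair_card' hd h₁ h₂', c₂', ← c₁, ← c₂]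
      omega

theorem dt_cycleType {a b c d : Ω} (hab : a ≠ b) (hac : a ≠ c) (had : a ≠ d) (hbc : b ≠ c) (hbd : b ≠ d)
    (hcd : c ≠ d) : (swap a b * swap c d).cycleType = {2} + {2} := by
  have hnd : [a, b, c, d].Nodup := by simp [hab, hac, had, hbc, hbd, hcd]
  rw [Equiv.Perm.Disjoint.cycleType_mul (disjoint_swap_swap hnd),
    (isCycle_swap hab).cycleType, (isCycle_swap hcd).cycleType, card_support_swap hab,
    card_support_swap hcd]

theorem dt_good {a b c d : Ω} (hab : a ≠ b) (hac : a ≠ c) (had : a ≠ d) (hbc : b ≠ c) (hbd : b ≠ d)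
    (hcd : c ≠ d) : sign (swap a b * swap c d) = 1 ∧
      (swap a b * swap c d) a = b ∧ (swap a b * swap c d) b = a ∧ (swap a b * swap c d) c = d ∧
      (swap a b * swap c d) d = c := by
  refine ⟨by simp [Perm.sign_mul, sign_swap hab, sign_swap hcd], ?_, ?_, ?_, ?_⟩
  · simp [Perm.mul_apply, swap_apply_of_ne_of_ne hac had]
  · simp [Perm.mul_apply, swap_apply_of_ne_of_ne hbc hbd]
  · simp [Perm.mul_apply, swap_apply_of_ne_of_ne had.symm hbd.symm]
  · simp [Perm.mul_apply, swap_apply_of_ne_of_ne hac.symm hbc.symm]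

theorem exists_good (hn : 5 ≤ Fintype.card Ω) (x : Perm Ω) (hx : sign x = 1) :
    ∃ g s : Perm Ω, ∃ p q u v : Ω, sign g = 1 ∧ s * g * s⁻¹ = x * g ∧ p ≠ q ∧ p ≠ u ∧ p ≠ v ∧ q ≠ u ∧ q ≠ v ∧
      u ≠ v ∧ g p = q ∧ g q = p ∧ g u = v ∧ g v = u := by
  classical
  by_cases hx1 : x = 1
  · subst hx1
    obtain ⟨e⟩ : Nonempty (Fin 5 ↪ Ω) := Function.Embedding.nonempty_of_card_le (by simpa using hn)
    have hne : ∀ i j : Fin 5, i ≠ j → e i ≠ e j := fun i j h h' => h (e.injective h')
    have h01 := hne 0 1 (by decide)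
    have h02 := hne 0 2 (by decide)
    have h03 := hne 0 3 (by decide)
    have h12 := hne 1 2 (by decide)
    have h13 := hne 1 3 (by decide)
    have h23 := hne 2 3 (by decide)
    obtain ⟨h1, h2, h3, h4, h5⟩ := dt_good h01 h02 h03 h12 h13 h23
    exact ⟨_, 1, e 0, e 1, e 2, e 3, h1, by simp, h01, h02, h03, h12, h13, h23, h2, h3, h4, h5⟩
  rcases PP_all x with ⟨-, g₀, hp, hc, hAB⟩ | ⟨hs, -⟩
  swap
  · rw [hx] at hs; exact absurd hs (by decide)
  obtain ⟨⟨v₀, hv, hv'⟩, ⟨u₀, hu, hu'⟩⟩ := hAB hx1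
  obtain ⟨h1, h2, h3⟩ := hp
  have hinv : ∀ y, g₀ (g₀ y) = y := fun y => by
    have := congrArg (fun f : Perm Ω => f y) h1
    simpa using this
  have hinv' : ∀ y, (x * g₀) ((x * g₀) y) = y := fun y => by
    have := congrArg (fun f : Perm Ω => f y) h2
    simpa using this
  have htype : g₀.cycleType = (x * g₀).cycleType := by
    rw [invol_cycleType h1, invol_cycleType h2, hc]
  have heven : 2 ∣ g₀.support.card := two_dvd_card_support (by rw [pow_two]; exact h1)
  obtain ⟨k, hk⟩ := heven
  have hk2 : g₀.support.card / 2 = k := by omega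
  have hsign := invol_sign h1
  rw [hk2] at hsign
  rcases Nat.even_or_odd k with hke | hko
  · -- `k` even
    by_cases hk0 : k = 0
    · -- impossible
      exfalso
      apply hx1
      have a1 : g₀ = 1 := by
        rw [← card_support_eq_zero]; omega
      have a2 : x * g₀ = 1 := by
        rw [← card_support_eq_zero]; omega
      rw [a1, mul_one] at a2
      exact a2
    · obtain ⟨p, q, u, v, hpq, hpu, hpv, hqu, hqv, huv, e1, e2, e3, e4⟩ := invol_two_points h1 (by
        obtain ⟨m, hm⟩ := hke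
        omega)
      obtain ⟨s, hs⟩ := isConj_iff.1 (isConj_iff_cycleType_eq.2 htype)
      refine ⟨g₀, s, p, q, u, v, ?_, hs, hpq, hpu, hpv, hqu, hqv, huv, e1, e2, e3, e4⟩
      rw [hsign, hke.neg_one_pow]
  · -- `k` odd
    by_cases hk1 : k = 1
    · -- both are transpositions
      have c1 : g₀.support.card = 2 := by omega
      have c2 : (x * g₀).support.card = 2 := by omega
      obtain ⟨a, b, hab, ea⟩ := card_support_eq_two.1 c1
      obtain ⟨c, d, hcd, ec⟩ := card_support_eq_two.1 c2
      have hxeq : x = swap c d * swap a b := by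
        have : x = (x * g₀) * g₀ := by
          rw [mul_assoc, h1, mul_one]
        rw [this, ec, ea]
      by_cases hdisj : a ≠ c ∧ a ≠ d ∧ b ≠ c ∧ b ≠ d
      · obtain ⟨hac, had, hbc, hbd⟩ := hdisj
        -- `g = (a c)(b d)`, `s = (c d)`
        obtain ⟨s1, s2, s3, s4, s5⟩ := dt_good (a := a) (b := c) (c := b) (d := d) hac hab had hbc.symm hcd hbd
        have htarget : x * (swap a c * swap b d) = swap a d * swap b c := by
          rw [hxeq]
          ext y
          simp only [Perm.mul_apply, swap_apply_def]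
          by_cases y1 : y = a
          · subst y1; simp [*, hab.symm, hac.symm, had.symm, hbc.symm, hbd.symm, hcd.symm]
          by_cases y2 : y = b
          · subst y2; simp [*, hab.symm, hac.symm, had.symm, hbc.symm, hbd.symm, hcd.symm]
          by_cases y3 : y = c
          · subst y3; simp [*, hab.symm, hac.symm, had.symm, hbc.symm, hbd.symm, hcd.symm]
          by_cases y4 : y = d
          · subst y4; simp [*, hab.symm, hac.symm, had.symm, hbc.symm, hbd.symm, hcd.symm]
          simp [*]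
        have hty : (swap a c * swap b d).cycleType = (x * (swap a c * swap b d)).cycleType := by
          rw [htarget, dt_cycleType hac hab had hbc.symm hcd hbd, dt_cycleType had hab hac hbd.symm hcd.symm hbc]
        obtain ⟨s, hs⟩ := isConj_iff.1 (isConj_iff_cycleType_eq.2 hty)
        exact ⟨_, s, a, c, b, d, s1, hs, hac, hab, had, hbc.symm, hcd, hbd, s2, s3, s4, s5⟩
      · -- overlap: two further points
        have hcardS : (({a, b, c, d} : Finset Ω)).card ≤ 3 := by
          have hcases : a = c ∨ a = d ∨ b = c ∨ b = d := by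
            by_contra hcon
            push Not at hcon
            exact hdisj hcon
          have h3 : ∀ p q r : Ω, ({p, q, r} : Finset Ω).card ≤ 3 := fun p q r => Finset.card_le_three
          rcases hcases with rfl | rfl | rfl | rfl
          · have : ({a, b, a, d} : Finset Ω) = {a, b, d} := by ext y; simp; tauto
            rw [this]; exact h3 _ _ _
          · have : ({a, b, c, a} : Finset Ω) = {a, b, c} := by ext y; simp; tauto
            rw [this]; exact h3 _ _ _
          · have : ({a, b, b, d} : Finset Ω) = {a, b, d} := by ext y; simp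
            rw [this]; exact h3 _ _ _
          · have : ({a, b, c, b} : Finset Ω) = {a, b, c} := by ext y; simp; tauto
            rw [this]; exact h3 _ _ _
        have hcompl : 1 < (({a, b, c, d} : Finset Ω)ᶜ).card := by
          rw [Finset.card_compl]; omega
        obtain ⟨e, he, f, hf, hef⟩ := Finset.one_lt_card.1 hcompl
        simp only [Finset.mem_compl, Finset.mem_insert, Finset.mem_singleton, not_or] at he hf
        obtain ⟨he1, he2, he3, he4⟩ := he
        obtain ⟨hf1, hf2, hf3, hf4⟩ := hf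
        obtain ⟨s1, s2, s3, s4, s5⟩ := dt_good (a := a) (b := b) (c := e) (d := f) hab (Ne.symm he1)
          (Ne.symm hf1) (Ne.symm he2) (Ne.symm hf2) hef
        have htarget : x * (swap a b * swap e f) = swap c d * swap e f := by
          rw [hxeq]
          calc swap c d * swap a b * (swap a b * swap e f)
              = swap c d * (swap a b * swap a b) * swap e f := by group
            _ = _ := by rw [swap_mul_self, mul_one]
        have hty : (swap a b * swap e f).cycleType = (x * (swap a b * swap e f)).cycleType := by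
          rw [htarget, dt_cycleType hab (Ne.symm he1) (Ne.symm hf1) (Ne.symm he2) (Ne.symm hf2) hef,
            dt_cycleType hcd (Ne.symm he3) (Ne.symm hf3) (Ne.symm he4) (Ne.symm hf4) hef]
        obtain ⟨s, hs⟩ := isConj_iff.1 (isConj_iff_cycleType_eq.2 hty)
        exact ⟨_, s, a, b, e, f, s1, hs, hab, Ne.symm he1, Ne.symm hf1, Ne.symm he2, Ne.symm hf2, hef,
          s2, s3, s4, s5⟩
    · -- `k ≥ 3` odd
      have hk3 : 3 ≤ k := by
        obtain ⟨m, hm⟩ := hko
        omega
      have hu1 : g₀ u₀ ≠ u₀ := by rw [hu]; exact hu'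
      obtain ⟨σ₁, a1, a2, a3, a4, a5⟩ := modified_form h1 hu1 hv
      have hh1 : (x * g₀) (x v₀) ≠ x v₀ := by
        have : (x * g₀) v₀ = x v₀ := by simp [Perm.mul_apply, hv]
        rw [← this, hinv']
        rw [this]
        exact hv'.symm
      have hh2 : (x * g₀) (x u₀) = x u₀ := by
        simp only [Perm.mul_apply]
        rw [← hu, hinv]
        exact hu.symm
      obtain ⟨σ₂, b1, b2, b3, b4, b5⟩ := modified_form h2 hh1 hh2
      have huv : u₀ ≠ v₀ := by
        intro e
        apply hu1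
        rw [e]; exact hv
      have hxg : x * (swap u₀ v₀ * g₀) = swap (x v₀) (x u₀) * (x * g₀) := by
        rw [← mul_assoc, mul_swap_eq_swap_mul, swap_comm, mul_assoc]
      have hty : (swap u₀ v₀ * g₀).cycleType = (x * (swap u₀ v₀ * g₀)).cycleType := by
        rw [hxg, a5, b5, invol_cycleType a1, invol_cycleType b1]
        congr 3
        omega
      obtain ⟨s, hs⟩ := isConj_iff.1 (isConj_iff_cycleType_eq.2 hty)
      obtain ⟨p, q, u, v, hpq, hpu, hpv, hqu, hqv, huv', e1, e2, e3, e4⟩ := invol_two_points a1 (by omega)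
      have hmove : ∀ y z, σ₁ y = z → y ≠ z → (swap u₀ v₀ * g₀) y = z := by
        intro y z hz hyz
        have hy : σ₁ y ≠ y := by rw [hz]; exact hyz.symm
        have hz' : σ₁ z ≠ z := by
          have : σ₁ z = y := by
            rw [← hz]
            have := congrArg (fun f : Perm Ω => f y) a1
            simpa using this
          rw [this]; exact hyz
        have hne1 : z ≠ u₀ := fun e => hz' (a3 z (Or.inl e))
        have hne2 : z ≠ v₀ := fun e => hz' (a3 z (Or.inr (Or.inl e)))
        rw [Perm.mul_apply, a4 y hy, hz]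
        exact swap_apply_of_ne_of_ne hne1 hne2
      refine ⟨swap u₀ v₀ * g₀, s, p, q, u, v, ?_, hs, hpq, hpu, hpv, hqu, hqv, huv', hmove _ _ e1 hpq,
        hmove _ _ e2 hpq.symm, hmove _ _ e3 huv', hmove _ _ e4 huv'.symm⟩
      rw [Perm.sign_mul, sign_swap huv, hsign, hko.neg_one_pow]
      simp

/-! ### The covering group -/

structure Cov {G : Type*} [Group G] (π : G →* alternatingGroup Ω) (z : G) : Prop where
  surj : Function.Surjective π
  ne : z ≠ 1
  comm : ∀ g, z * g = g * z
  sq : z * z = 1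
  ker : ∀ g, π g = 1 → g = 1 ∨ g = z
  piz : π z = 1

def DT (t : alternatingGroup Ω) : Prop :=
  ∃ a b c d : Ω, a ≠ b ∧ a ≠ c ∧ a ≠ d ∧ b ≠ c ∧ b ≠ d ∧ c ≠ d ∧ (t : Perm Ω) = swap a b * swap c d

theorem DT_sq {t : alternatingGroup Ω} (h : DT t) : t * t = 1 := by
  obtain ⟨a, b, c, d, hab, hac, had, hbc, hbd, hcd, e⟩ := h
  apply Subtype.ext
  have hnd : [a, b, c, d].Nodup := by simp [hab, hac, had, hbc, hbd, hcd]
  have hcomm := (disjoint_swap_swap hnd).commute.eq
  change (t : Perm Ω) * (t : Perm Ω) = 1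
  rw [e]
  calc swap a b * swap c d * (swap a b * swap c d) = swap a b * (swap c d * swap a b) * swap c d := by group
    _ = swap a b * (swap a b * swap c d) * swap c d := by rw [hcomm]
    _ = (swap a b * swap a b) * (swap c d * swap c d) := by group
    _ = 1 := by simp

section CovLemmas

variable {G : Type*} [Group G] {π : G →* alternatingGroup Ω} {z : G} (hC : Cov π z)
include hC

theorem cov_central {g : G} (h : π g = 1) (k : G) : g * k = k * g := by
  rcases hC.ker g h with rfl | rfl
  · simp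
  · exact hC.comm k

theorem cov_lift {g h : G} (e : π g = π h) : g = h ∨ g = z * h := by
  have h1 : π (g * h⁻¹) = 1 := by simp [e]
  rcases hC.ker _ h1 with h2 | h2
  · left; exact mul_inv_eq_one.1 h2
  · right; rw [← h2]; group

theorem sq_const {T₁ T₂ : G} (h1 : DT (π T₁)) (h2 : DT (π T₂)) : T₁ * T₁ = T₂ * T₂ := by
  obtain ⟨a, b, c, d, hab, hac, had, hbc, hbd, hcd, e1⟩ := id h1
  obtain ⟨a', b', c', d', hab', hac', had', hbc', hbd', hcd', e2⟩ := id h2
  have hty : ((π T₁ : alternatingGroup Ω) : Perm Ω).cycleType = ((π T₂ : alternatingGroup Ω) : Perm Ω).cycleType := by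
    rw [e1, e2, dt_cycleType hab hac had hbc hbd hcd, dt_cycleType hab' hac' had' hbc' hbd' hcd']
  obtain ⟨s, hs⟩ := isConj_iff.1 (isConj_iff_cycleType_eq.2 hty)
  -- an even conjugator
  have hnd : [a, b, c, d].Nodup := by simp [hab, hac, had, hbc, hbd, hcd]
  have hcomm := (disjoint_swap_swap hnd).commute.eq
  have hsw : swap a b * ((π T₁ : alternatingGroup Ω) : Perm Ω) * (swap a b)⁻¹ = ((π T₁ : alternatingGroup Ω) : Perm Ω) := by
    rw [e1, swap_inv]
    calc swap a b * (swap a b * swap c d) * swap a b = swap a b * (swap a b * (swap c d * swap a b)) := by group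
      _ = swap a b * (swap a b * (swap a b * swap c d)) := by rw [hcomm]
      _ = _ := by simp
  obtain ⟨w, hw⟩ : ∃ w : alternatingGroup Ω, w * π T₁ * w⁻¹ = π T₂ := by
    rcases Int.units_eq_one_or (sign s) with h | h
    · refine ⟨⟨s, h⟩, Subtype.ext ?_⟩
      exact hs
    · refine ⟨⟨s * swap a b, ?_⟩, Subtype.ext ?_⟩
      · rw [Equiv.Perm.mem_alternatingGroup, Perm.sign_mul, h, sign_swap hab]; simp
      · change (s * swap a b) * ((π T₁ : alternatingGroup Ω) : Perm Ω) * (s * swap a b)⁻¹ = _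
        have e3 : (s * swap a b) * ((π T₁ : alternatingGroup Ω) : Perm Ω) * (s * swap a b)⁻¹
            = s * (swap a b * ((π T₁ : alternatingGroup Ω) : Perm Ω) * (swap a b)⁻¹) * s⁻¹ := by group
        rw [e3, hsw]
        exact hs
  obtain ⟨W, rfl⟩ := hC.surj w
  have hT1 : π (T₁ * T₁) = 1 := by rw [map_mul]; exact DT_sq h1
  have hconj : π (W * T₁ * W⁻¹) = π T₂ := by simpa using hw
  have hcentral : W * (T₁ * T₁) * W⁻¹ = T₁ * T₁ := by
    rw [← cov_central hC hT1 W]; group
  rcases cov_lift hC hconj with h3 | h3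
  · rw [← h3]
    calc T₁ * T₁ = W * (T₁ * T₁) * W⁻¹ := hcentral.symm
      _ = _ := by group
  · have h4 : T₂ = z * (W * T₁ * W⁻¹) := by
      have : z * (W * T₁ * W⁻¹) = z * (z * T₂) := by rw [h3]
      rw [this, ← mul_assoc, hC.sq, one_mul]
    rw [h4]
    have hc := hC.comm (W * T₁ * W⁻¹)
    calc T₁ * T₁ = W * (T₁ * T₁) * W⁻¹ := hcentral.symm
      _ = (z * z) * ((W * T₁ * W⁻¹) * (W * T₁ * W⁻¹)) := by rw [hC.sq, one_mul]; group
      _ = z * ((z * (W * T₁ * W⁻¹)) * (W * T₁ * W⁻¹)) := by group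
      _ = z * (((W * T₁ * W⁻¹) * z) * (W * T₁ * W⁻¹)) := by rw [hc]
      _ = _ := by group

end CovLemmas

section Carmichael
open Cfsg.Agent.Lib.Pres.Carmichael
open scoped commutatorElement

variable {α : Type*} [DecidableEq α] [Fintype α]

theorem cyc_mul_cyc {q r : α} (h : q ≠ r) :
    cyc q * cyc r = swap (Sum.inl r) (Sum.inr true) * swap (Sum.inl q) (Sum.inr false) := by
  ext y
  simp only [Perm.mul_apply, cyc, swap_apply_def]
  rcases y with y | y
  · by_cases h1 : y = q
    · subst h1; simp [h, h.symm]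
    · by_cases h2 : y = r
      · subst h2; simp [h, h.symm]
      · simp [h1, h2]
  · cases y <;> simp [h, h.symm]

theorem DT_cyc {q r : α} (h : q ≠ r) : DT (cycA q * cycA r) := by
  refine ⟨Sum.inl r, Sum.inr true, Sum.inl q, Sum.inr false, by simp, by simpa using h.symm, by simp, by simp,
    by simp, by simp, ?_⟩
  exact cyc_mul_cyc h

variable {G : Type*} [Group G] {π : G →* alternatingGroup (α ⊕ Bool)} {z : G}

theorem sq_eq_z (hC : Cov π z) (hperf : commutator G = ⊤) {T : G} (hT : DT (π T)) : T * T = z := by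
  classical
  have hT1 : π (T * T) = 1 := by rw [map_mul]; exact DT_sq hT
  rcases hC.ker _ hT1 with h | h
  swap
  · exact h
  exfalso
  -- all squares are trivial
  have hall : ∀ T' : G, DT (π T') → T' * T' = 1 := fun T' hT' => by
    rw [← sq_const hC hT hT', h]
  choose W hW using fun i : α => hC.surj (cycA i)
  have hcube : ∀ i : α, (cycA i : alternatingGroup (α ⊕ Bool)) ^ 3 = 1 := isCar_cycA.cube
  let xh : α → G := fun i => W i ^ 4
  have hπx : ∀ i, π (xh i) = cycA i := by
    intro i
    simp only [xh, map_pow, hW]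
    rw [pow_succ, hcube, one_mul]
  have hx : IsCar xh := by
    constructor
    · intro i
      have h3 : π (W i ^ 3) = 1 := by rw [map_pow, hW, hcube]
      have : xh i ^ 3 = (W i ^ 3) ^ 4 := by
        simp only [xh, ← pow_mul]
      rw [this]
      rcases hC.ker _ h3 with e | e
      · rw [e, one_pow]
      · rw [e]
        have e4 : z ^ 4 = (z ^ 2) ^ 2 := by rw [← pow_mul]
        rw [e4, pow_two z, hC.sq, one_pow]
    · intro i j hij
      rw [pow_two]
      apply hall
      rw [map_mul, hπx, hπx]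
      exact DT_cyc hij
  obtain ⟨θ, hθ⟩ := exists_theta xh hx
  have hsec : ∀ w, π (θ w) = w := by
    have hcl : (π.comp θ) = MonoidHom.id _ := by
      apply MonoidHom.eq_of_eqOn_dense closure_cycA
      rintro _ ⟨i, rfl⟩
      simp [hθ, hπx]
    intro w
    exact congrArg (fun f => f w) hcl
  have hfac : ∀ g : G, g = θ (π g) ∨ g = z * θ (π g) := fun g =>
    cov_lift hC (hsec (π g)).symm
  have hcomm : commutator G ≤ θ.range := by
    rw [commutator_def, Subgroup.commutator_le]
    intro g _ h _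
    have key1 : ∀ x y : G, ⁅z * x, y⁆ = ⁅x, y⁆ := by
      intro x y
      simp only [commutatorElement_def]
      calc z * x * y * (z * x)⁻¹ * y⁻¹ = z * (x * y * x⁻¹) * z⁻¹ * y⁻¹ := by group
        _ = (x * y * x⁻¹) * z * z⁻¹ * y⁻¹ := by rw [hC.comm]
        _ = _ := by group
    have key2 : ∀ x y : G, ⁅x, z * y⁆ = ⁅x, y⁆ := by
      intro x y
      simp only [commutatorElement_def]
      calc x * (z * y) * x⁻¹ * (z * y)⁻¹ = (x * z) * y * x⁻¹ * y⁻¹ * z⁻¹ := by group
        _ = (z * x) * y * x⁻¹ * y⁻¹ * z⁻¹ := by rw [hC.comm x]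
        _ = z * (x * y * x⁻¹ * y⁻¹) * z⁻¹ := by group
        _ = (x * y * x⁻¹ * y⁻¹) * z * z⁻¹ := by rw [hC.comm]
        _ = _ := by group
    have hcen : ∀ a' b' a b : G, (a = a' ∨ a = z * a') → (b = b' ∨ b = z * b') → ⁅a, b⁆ = ⁅a', b'⁆ := by
      rintro a' b' a b (rfl | rfl) (rfl | rfl)
      · rfl
      · exact key2 _ _
      · exact key1 _ _
      · rw [key1, key2]
    rw [hcen _ _ g h (hfac g) (hfac h)]
    refine ⟨⁅π g, π h⁆, ?_⟩
    simp [commutatorElement_def, map_mul, map_inv]
  rw [hperf] at hcomm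
  obtain ⟨w, hw⟩ := hcomm (Subgroup.mem_top z)
  have : w = 1 := by
    have := hsec w
    rw [hw, hC.piz] at this
    exact this.symm
  rw [this, map_one] at hw
  exact hC.ne hw.symm

end Carmichael


section Main

variable {G : Type*} [Group G] {π : G →* alternatingGroup Ω} {z : G}

theorem commutes_even (hC : Cov π z) (Y : G) (S : Finset Ω)
    (hY : ∀ ω, ((π Y : alternatingGroup Ω) : Perm Ω) ω ≠ ω → ω ∈ S)
    (w : Perm Ω) (hw : sign w = 1) (hfix : ∀ ω ∈ S, w ω = ω) :
    ∃ W : G, ((π W : alternatingGroup Ω) : Perm Ω) = w ∧ Y * W = W * Y := by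
  classical
  have key : ∀ σ' : Perm {ω // ω ∉ S}, σ' ∈ alternatingGroup {ω // ω ∉ S} →
      ∃ W : G, ((π W : alternatingGroup Ω) : Perm Ω) = ofSubtype σ' ∧ Y * W = W * Y := by
    intro σ' hσ'
    rw [← closure_three_cycles_eq_alternating] at hσ'
    induction hσ' using Subgroup.closure_induction with
    | mem σ' h3 =>
      have h3' : IsThreeCycle σ' := h3
      have hτ : IsThreeCycle (ofSubtype σ') := by
        change (ofSubtype σ').cycleType = {3}
        rw [cycleType_ofSubtype]
        exact h3'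
      have hsign : sign (ofSubtype σ') = 1 := by
        rw [sign_ofSubtype]; exact h3'.sign
      obtain ⟨W, hW⟩ := hC.surj ⟨ofSubtype σ', hsign⟩
      have hWp : ((π W : alternatingGroup Ω) : Perm Ω) = ofSubtype σ' := by rw [hW]
      refine ⟨W, hWp, ?_⟩
      have hdisj : Equiv.Perm.Disjoint ((π Y : alternatingGroup Ω) : Perm Ω) (ofSubtype σ') := by
        intro ω
        by_cases hω : ω ∈ S
        · right
          exact ofSubtype_apply_of_not_mem _ (by simpa using hω)
        · left
          by_contra hne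
          exact hω (hY ω hne)
      have hcomm : π (Y * W * Y⁻¹) = π W := by
        apply Subtype.ext
        have h1 := hdisj.commute.eq
        rw [← hWp] at h1
        rw [map_mul, map_mul, map_inv]
        change ((π Y : alternatingGroup Ω) : Perm Ω) * ((π W : alternatingGroup Ω) : Perm Ω) *
          ((π Y : alternatingGroup Ω) : Perm Ω)⁻¹ = _
        rw [h1]
        group
      rcases cov_lift hC hcomm with h | h
      · calc Y * W = Y * W * Y⁻¹ * Y := by group
          _ = W * Y := by rw [h]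
      · exfalso
        apply hC.ne
        have h3c : π (W ^ 3) = 1 := by
          rw [map_pow, hW]
          apply Subtype.ext
          have := hτ.orderOf
          change (ofSubtype σ') ^ 3 = 1
          rw [← this]
          exact pow_orderOf_eq_one _
        have hcen := cov_central hC h3c Y
        have e1 : (Y * W * Y⁻¹) ^ 3 = Y * W ^ 3 * Y⁻¹ := conj_pow
        have e2 : (z * W) ^ 3 = z * W ^ 3 := by
          have hc := hC.comm W
          have : Commute z W := hc
          have hz3 : z ^ 3 = z := by rw [pow_succ, pow_two, hC.sq, one_mul]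
          rw [this.mul_pow, hz3]
        rw [h, e2] at e1
        have e3 : Y * W ^ 3 * Y⁻¹ = W ^ 3 := by
          rw [← hcen]; group
        rw [e3] at e1
        exact mul_eq_right.1 e1
    | one => exact ⟨1, by simp, by simp⟩
    | mul a b _ _ ha hb =>
      obtain ⟨W₁, h1, h1'⟩ := ha
      obtain ⟨W₂, h2, h2'⟩ := hb
      refine ⟨W₁ * W₂, ?_, ?_⟩
      · rw [map_mul, map_mul, ← h1, ← h2]; rfl
      · rw [← mul_assoc, h1', mul_assoc, h2', mul_assoc]
    | inv a _ ha =>
      obtain ⟨W₁, h1, h1'⟩ := ha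
      refine ⟨W₁⁻¹, ?_, ?_⟩
      · rw [map_inv, map_inv, ← h1]; rfl
      · have : W₁⁻¹ * (Y * W₁) * W₁⁻¹ = W₁⁻¹ * (W₁ * Y) * W₁⁻¹ := by rw [h1']
        calc Y * W₁⁻¹ = W₁⁻¹ * (W₁ * Y) * W₁⁻¹ := by group
          _ = W₁⁻¹ * (Y * W₁) * W₁⁻¹ := by rw [h1']
          _ = _ := by group
  have hf : ∀ x, (fun ω => ω ∉ S) (w x) ↔ (fun ω => ω ∉ S) x := by
    intro x
    simp only
    constructor
    · intro h hx
      apply h
      rw [hfix x hx]
      exact hx
    · intro h hx
      apply h
      have := hfix _ hx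
      have h2 := w.injective this
      rw [← h2]
      exact hx
  have h₂ : ∀ x, w x ≠ x → (fun ω => ω ∉ S) x := fun x hx h' => hx (hfix x h')
  obtain ⟨W, h1, h2⟩ := key (subtypePerm w hf) (by
    rw [Equiv.Perm.mem_alternatingGroup, sign_subtypePerm w hf h₂]
    exact hw)
  exact ⟨W, by rw [h1, ofSubtype_subtypePerm hf h₂], h2⟩

theorem main_cov (hC : Cov π z) (hsq : ∀ T : G, DT (π T) → T * T = z) (hn : 5 ≤ Fintype.card Ω) (g : G) :
    ∃ a b : G, a * b * a⁻¹ * b⁻¹ = g := by
  classical
  obtain ⟨gp, s, p, q, u, v, hgp, hs, hpq, hpu, hpv, hqu, hqv, huv, e1, e2, e3, e4⟩ :=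
    exists_good hn ((π g : alternatingGroup Ω) : Perm Ω) (π g).2
  -- the pieces
  set t : Perm Ω := swap p q * swap u v with ht
  obtain ⟨st, t1, t2, t3, t4⟩ := dt_good hpq hpu hpv hqu hqv huv
  obtain ⟨sy, -, -, -, -⟩ := dt_good hpu hpq hpv (Ne.symm hqu) huv hqv
  have htt : t * t = 1 := by
    have hD : DT (⟨t, st⟩ : alternatingGroup Ω) := ⟨p, q, u, v, hpq, hpu, hpv, hqu, hqv, huv, rfl⟩
    have := DT_sq hD
    exact congrArg Subtype.val this
  obtain ⟨T, hT⟩ := hC.surj ⟨t, st⟩
  obtain ⟨Y, hY⟩ := hC.surj ⟨swap p u * swap q v, sy⟩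
  have hTp : ((π T : alternatingGroup Ω) : Perm Ω) = t := by rw [hT]
  have hYp : ((π Y : alternatingGroup Ω) : Perm Ω) = swap p u * swap q v := by rw [hY]
  have dT : DT (π T) := ⟨p, q, u, v, hpq, hpu, hpv, hqu, hqv, huv, hTp⟩
  have dY : DT (π Y) := ⟨p, u, q, v, hpu, hpq, hpv, hqu.symm, huv, hqv, hYp⟩
  have hYT : swap p u * swap q v * t = swap p v * swap q u := by
    rw [ht]
    ext y
    simp only [Perm.mul_apply, swap_apply_def]
    by_cases y1 : y = p
    · subst y1; simp [*, hpq.symm, hpu.symm, hpv.symm, hqu.symm, hqv.symm, huv.symm]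
    by_cases y2 : y = q
    · subst y2; simp [*, hpq.symm, hpu.symm, hpv.symm, hqu.symm, hqv.symm, huv.symm]
    by_cases y3 : y = u
    · subst y3; simp [*, hpq.symm, hpu.symm, hpv.symm, hqu.symm, hqv.symm, huv.symm]
    by_cases y4 : y = v
    · subst y4; simp [*, hpq.symm, hpu.symm, hpv.symm, hqu.symm, hqv.symm, huv.symm]
    simp [*]
  have dYT : DT (π (Y * T)) := ⟨p, v, q, u, hpv, hpq, hpu, hqv.symm, huv.symm, hqu, by
    rw [map_mul]
    change ((π Y : alternatingGroup Ω) : Perm Ω) * ((π T : alternatingGroup Ω) : Perm Ω) = _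
    rw [hYp, hTp, hYT]⟩
  have sT := hsq T dT
  have sY := hsq Y dY
  have sYT := hsq _ dYT
  have hYinv : Y⁻¹ = Y * z := by
    rw [inv_eq_iff_mul_eq_one, ← mul_assoc, sY, hC.sq]
  have hTinv : T⁻¹ = T * z := by
    rw [inv_eq_iff_mul_eq_one, ← mul_assoc, sT, hC.sq]
  have F1 : Y * T * Y⁻¹ * T⁻¹ = z := by
    rw [hYinv, hTinv]
    calc Y * T * (Y * z) * (T * z) = Y * T * Y * (z * T) * z := by group
      _ = Y * T * Y * (T * z) * z := by rw [hC.comm T]
      _ = (Y * T * (Y * T)) * (z * z) := by group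
      _ = z := by rw [sYT, hC.sq, mul_one]
  -- the rest of `gp`
  have hr : sign (t * gp) = 1 := by rw [Perm.sign_mul, st, hgp, one_mul]
  have hrfix : ∀ ω ∈ ({p, q, u, v} : Finset Ω), (t * gp) ω = ω := by
    intro ω hω
    simp only [Finset.mem_insert, Finset.mem_singleton] at hω
    rcases hω with rfl | rfl | rfl | rfl
    · rw [Perm.mul_apply, e1, t2]
    · rw [Perm.mul_apply, e2, t1]
    · rw [Perm.mul_apply, e3, t4]
    · rw [Perm.mul_apply, e4, t3]
  have hYsupp : ∀ ω, ((π Y : alternatingGroup Ω) : Perm Ω) ω ≠ ω → ω ∈ ({p, q, u, v} : Finset Ω) := by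
    intro ω hω
    by_contra hcon
    apply hω
    simp only [Finset.mem_insert, Finset.mem_singleton, not_or] at hcon
    obtain ⟨c1, c2, c3, c4⟩ := hcon
    rw [hYp, Perm.mul_apply, swap_apply_of_ne_of_ne c2 c4, swap_apply_of_ne_of_ne c1 c3]
  obtain ⟨R, hR, hYR⟩ := commutes_even hC Y _ hYsupp (t * gp) hr hrfix
  set Gt := T * R with hGt
  have hGp : ((π Gt : alternatingGroup Ω) : Perm Ω) = gp := by
    rw [hGt, map_mul]
    change ((π T : alternatingGroup Ω) : Perm Ω) * ((π R : alternatingGroup Ω) : Perm Ω) = gp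
    rw [hTp, hR, ← mul_assoc, htt, one_mul]
  have hRY : R * Y⁻¹ = Y⁻¹ * R := by
    calc R * Y⁻¹ = Y⁻¹ * (Y * R) * Y⁻¹ := by group
      _ = Y⁻¹ * (R * Y) * Y⁻¹ := by rw [hYR]
      _ = _ := by group
  have F2 : Y * Gt * Y⁻¹ = z * Gt := by
    rw [hGt]
    calc Y * (T * R) * Y⁻¹ = Y * T * (R * Y⁻¹) := by group
      _ = Y * T * (Y⁻¹ * R) := by rw [hRY]
      _ = (Y * T * Y⁻¹ * T⁻¹) * (T * R) := by group
      _ = _ := by rw [F1]
  -- the first entry of the commutator
  obtain ⟨A, hA, hAg⟩ : ∃ A : Perm Ω, sign A = 1 ∧ A * gp * A⁻¹ = ((π g : alternatingGroup Ω) : Perm Ω) * gp := by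
    rcases Int.units_eq_one_or (sign s) with h | h
    · exact ⟨s, h, hs⟩
    · refine ⟨s * swap p q, ?_, ?_⟩
      · rw [Perm.sign_mul, h, sign_swap hpq]; simp
      · have h1 : gp * swap p q = swap p q * gp := by
          rw [mul_swap_eq_swap_mul, e1, e2, swap_comm]
        have h2 : (s * swap p q) * gp * (s * swap p q)⁻¹ = s * gp * s⁻¹ := by
          calc (s * swap p q) * gp * (s * swap p q)⁻¹ = s * (swap p q * gp) * (swap p q)⁻¹ * s⁻¹ := by group
            _ = s * (gp * swap p q) * (swap p q)⁻¹ * s⁻¹ := by rw [h1]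
            _ = _ := by group
        rw [h2, hs]
  obtain ⟨At, hAt⟩ := hC.surj ⟨A, hA⟩
  have hAp : ((π At : alternatingGroup Ω) : Perm Ω) = A := by rw [hAt]
  have hc1 : π g = π (At * Gt * At⁻¹ * Gt⁻¹) := by
    apply Subtype.ext
    simp only [map_mul, map_inv]
    change _ = ((π At : alternatingGroup Ω) : Perm Ω) * ((π Gt : alternatingGroup Ω) : Perm Ω) *
      ((π At : alternatingGroup Ω) : Perm Ω)⁻¹ * ((π Gt : alternatingGroup Ω) : Perm Ω)⁻¹
    rw [hAp, hGp, hAg]
    group
  rcases cov_lift hC hc1 with h | h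
  · exact ⟨At, Gt, h.symm⟩
  · refine ⟨At * Y, Gt, ?_⟩
    rw [h]
    calc At * Y * Gt * (At * Y)⁻¹ * Gt⁻¹ = At * (Y * Gt * Y⁻¹) * At⁻¹ * Gt⁻¹ := by group
      _ = At * (z * Gt) * At⁻¹ * Gt⁻¹ := by rw [F2]
      _ = (At * z) * Gt * At⁻¹ * Gt⁻¹ := by group
      _ = (z * At) * Gt * At⁻¹ * Gt⁻¹ := by rw [hC.comm At]
      _ = _ := by group

end Main


section Final

theorem main_thm {G : Type*} [Group G] [Finite G] (hperf : commutator G = ⊤) {n : ℕ} (hn : 5 ≤ n)
    (hZ : Nat.card (Subgroup.center G) = 2) (e : G ⧸ Subgroup.center G ≃* alternatingGroup (Fin n))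
    (g : G) : ∃ a b : G, a * b * a⁻¹ * b⁻¹ = g := by
  classical
  have hcard : Fintype.card (Fin (n - 2) ⊕ Bool) = n := by
    simp
    omega
  let f : Fin n ≃ (Fin (n - 2) ⊕ Bool) := Fintype.equivOfCardEq (by rw [hcard]; simp)
  let π : G →* alternatingGroup (Fin (n - 2) ⊕ Bool) :=
    (f.altCongrHom).toMonoidHom.comp (e.toMonoidHom.comp (QuotientGroup.mk' (Subgroup.center G)))
  have hπ : ∀ x, π x = 1 ↔ x ∈ Subgroup.center G := by
    intro x
    simp only [π, MonoidHom.comp_apply, MulEquiv.toMonoidHom_eq_coe, MonoidHom.coe_coe,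
      QuotientGroup.mk'_apply, EmbeddingLike.map_eq_one_iff]
    exact QuotientGroup.eq_one_iff x
  have hsurj : Function.Surjective π := by
    intro w
    obtain ⟨q, hq⟩ := e.surjective (f.altCongrHom.symm w)
    obtain ⟨x, rfl⟩ := QuotientGroup.mk_surjective q
    refine ⟨x, ?_⟩
    simp only [π, MonoidHom.comp_apply, MulEquiv.toMonoidHom_eq_coe, MonoidHom.coe_coe,
      QuotientGroup.mk'_apply]
    rw [hq]
    simp
  obtain ⟨z', hz'⟩ := (Nat.card_eq_two_iff' (1 : Subgroup.center G)).1 hZ |>.exists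
  have huniq : ∀ c : Subgroup.center G, c ≠ 1 → c = z' := by
    intro c hc
    obtain ⟨y, hy, hy'⟩ := (Nat.card_eq_two_iff' (1 : Subgroup.center G)).1 hZ
    rw [hy' c hc, hy' z' hz']
  have hzc : ∀ x : G, (z' : G) * x = x * (z' : G) := fun x =>
    (Subgroup.mem_center_iff.1 z'.2 x).symm
  have hz2 : (z' : G) * (z' : G) = 1 := by
    have h2 : z' ^ 2 = 1 := by
      have := pow_card_eq_one' (G := Subgroup.center G) (x := z')
      rwa [hZ] at this
    have := congrArg Subtype.val h2
    simpa [pow_two] using this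
  have hC : Cov π (z' : G) := by
    refine ⟨hsurj, ?_, hzc, hz2, ?_, (hπ _).2 z'.2⟩
    · intro h
      exact hz' (Subtype.ext h)
    · intro x hx
      have hm := (hπ x).1 hx
      by_cases h1 : x = 1
      · exact Or.inl h1
      · right
        have := huniq ⟨x, hm⟩ (fun h => h1 (congrArg Subtype.val h))
        exact congrArg Subtype.val this
  exact main_cov hC (fun T hT => sq_eq_z hC hperf hT) (by rw [hcard]; exact hn) g

end Final

end Helpers


/-- Let n ≥ 5 and let G be a finite perfect group whose centre has order 2 with G/Z(G) isomorphic to the alternating group of degree n (the double cover of the alternating group). Then every element of G is a commutator. -/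
theorem result {G : Type*} [Group G] [Finite G] (hperf : commutator G = ⊤) {n : ℕ} (hn : 5 ≤ n)
    (hZ : Nat.card (Subgroup.center G) = 2) (e : G ⧸ Subgroup.center G ≃* alternatingGroup (Fin n))
    (g : G) :
    ∃ a b : G, a * b * a⁻¹ * b⁻¹ = g := by
  exact main_thm hperf hn hZ e g

end Cfsg.Agent.S2493
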