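import Mathlib
import Cfsg.Statements.S2495
import Cfsg.Agent.Lib.SLDiag
import Cfsg.Agent.Lib.SLCent
import Cfsg.Agent.Lib.Zsig

set_option autoImplicit false
open Cfsg

namespace Cfsg.Agent.S2495

open Polynomial Cfsg.Agent.Lib.SLSpec Cfsg.Agent.Lib.SLOrder Cfsg.Agent.Lib.SLDiag Cfsg.Agent.Lib.SLCent

section arith

lemma singerN_modEq (q k : ℕ) (hq : 1 ≤ q) : singerN q k ≡ k [MOD (q - 1)] := by
  have h1 : q ≡ 1 [MOD (q - 1)] := by
    have : q = (q - 1) + 1 := by omega
    conv_lhs => rw [this]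
    simp [Nat.ModEq]
  induction k with
  | zero => simp [singerN]; rfl
  | succ k ih =>
    unfold singerN at ih ⊢
    rw [Finset.sum_range_succ]
    have h2 : q ^ k ≡ 1 [MOD (q - 1)] := by
      simpa using h1.pow k
    exact ih.add h2

lemma gcd_singerN (q k : ℕ) (hq : 1 ≤ q) : Nat.gcd (singerN q k) (q - 1) = Nat.gcd k (q - 1) :=
  (singerN_modEq q k hq).gcd_eq

/-- The arithmetic condition on the two-parts. -/
lemma gcd_dvd_iff (Q m : ℕ) (hQ : Q ≠ 0) (hQ2 : 2 ∣ Q) (hm : m ≠ 0) :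
    Nat.gcd (2 * m) Q ∣ m ↔ padicValNat 2 Q < padicValNat 2 (2 * m) := by
  haveI : Fact (Nat.Prime 2) := ⟨Nat.prime_two⟩
  have h2m : padicValNat 2 (2 * m) = padicValNat 2 m + 1 := by
    rw [padicValNat.mul (by norm_num) hm, padicValNat.self (by norm_num)]
    ring
  rw [h2m]
  constructor
  · intro h
    by_contra hcon
    push Not at hcon
    have h1 : 2 ^ (padicValNat 2 m + 1) ∣ Q := by
      exact (padicValNat_dvd_iff_le hQ).2 hcon
    have h2 : 2 ^ (padicValNat 2 m + 1) ∣ 2 * m := by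
      rw [pow_succ, mul_comm]
      exact Nat.mul_dvd_mul_left 2 pow_padicValNat_dvd
    have h3 : 2 ^ (padicValNat 2 m + 1) ∣ Nat.gcd (2 * m) Q := Nat.dvd_gcd h2 h1
    have h4 := h3.trans h
    rw [padicValNat_dvd_iff_le hm] at h4
    omega
  · intro h
    have hg0 : Nat.gcd (2 * m) Q ≠ 0 := Nat.gcd_ne_zero_right hQ
    obtain ⟨c, g', hg', hg⟩ := Nat.exists_eq_pow_mul_and_not_dvd hg0 2 (by norm_num)
    have h1 : 2 ^ c ∣ Q := (Dvd.intro _ hg.symm).trans (Nat.gcd_dvd_right _ _)
    have hc : c ≤ padicValNat 2 Q := (padicValNat_dvd_iff_le hQ).1 h1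
    have h2 : 2 ^ c ∣ m := (padicValNat_dvd_iff_le hm).2 (by omega)
    have h3 : g' ∣ 2 * m := (Dvd.intro_left _ hg.symm).trans (Nat.gcd_dvd_left _ _)
    have h4 : Nat.Coprime g' 2 := by
      rw [Nat.coprime_comm, Nat.Prime.coprime_iff_not_dvd Nat.prime_two]
      exact hg'
    have h5 : g' ∣ m := h4.dvd_of_dvd_mul_left h3
    rw [hg]
    exact (Nat.Coprime.pow_left c h4.symm).mul_dvd_of_dvd_of_dvd h2 h5

/-- The divisibility criterion. -/
lemma dvd_om_iff (q m : ℕ) (hq : 2 ≤ q) (hodd : Odd q) (hm : 1 ≤ m) :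
    (q ^ m + 1) ∣ singerOm q (2 * m) ↔ padicValNat 2 (q - 1) < padicValNat 2 (2 * m) := by
  have hQ : q - 1 ≠ 0 := by omega
  have hQ2 : 2 ∣ q - 1 := by
    obtain ⟨t, ht⟩ := hodd
    exact ⟨t, by omega⟩
  rw [← gcd_dvd_iff (q - 1) m hQ hQ2 (by omega)]
  have hN : singerN q (2 * m) = singerN q m * (q ^ m + 1) := by
    rw [mul_comm 2 m, singerN_mul q m 2 hq, Finset.sum_range_succ, Finset.sum_range_one, pow_zero, pow_one,
      add_comm 1]
  have hNpos : 0 < singerN q m := by
    unfold singerN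
    apply Finset.sum_pos
    · intro i _
      positivity
    · exact ⟨0, by simp; omega⟩
  set D := Nat.gcd (2 * m) (q - 1) with hD
  have hDpos : 0 < D := Nat.gcd_pos_of_pos_right _ (by omega)
  have hgcd : Nat.gcd (singerN q (2 * m)) (q - 1) = D := gcd_singerN q (2 * m) (by omega)
  have hom : singerOm q (2 * m) = singerN q (2 * m) / D := by
    unfold singerOm; rw [hgcd]
  obtain ⟨N', hN'⟩ : D ∣ singerN q (2 * m) := by
    rw [← hgcd]; exact Nat.gcd_dvd_left _ _
  have hN'om : singerOm q (2 * m) = N' := by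
    rw [hom, hN', Nat.mul_div_cancel_left _ hDpos]
  have hDM : D ∣ singerN q m ↔ D ∣ m := by
    have h1 : singerN q m ≡ m [MOD D] :=
      (singerN_modEq q m (by omega)).of_dvd (Nat.gcd_dvd_right _ _)
    exact h1.dvd_iff dvd_rfl
  rw [hN'om, ← hDM]
  have hq1 : 0 < q ^ m + 1 := by positivity
  constructor
  · rintro ⟨c, hc⟩
    refine ⟨c, ?_⟩
    have h1 : singerN q m * (q ^ m + 1) = (D * c) * (q ^ m + 1) := by
      rw [← hN, hN', hc]; ring
    exact Nat.eq_of_mul_eq_mul_right hq1 h1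
  · rintro ⟨c, hc⟩
    refine ⟨c, ?_⟩
    have h1 : D * N' = D * ((q ^ m + 1) * c) := by
      rw [← hN', hN, hc]; ring
    exact Nat.eq_of_mul_eq_mul_left hDpos h1

end arith

section

variable {F : Type*} [Field F] [Fintype F]

/-- The key step: an element of order `q^m + 1` has irreducible minimal polynomial. -/
theorem irreducible_of_order (p : ℕ) [Fact p.Prime] [CharP F p] (n m : ℕ) (hn : n = 2 * m) (hm : 2 ≤ m) (hodd : Odd (Fintype.card F))
    (W : Matrix.SpecialLinearGroup (Fin n) F) (hW : orderOf (proj W) = Fintype.card F ^ m + 1) :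
    Irreducible (minpoly F (W : Matrix (Fin n) (Fin n) F)) := by
  classical
  have hp : p.Prime := Fact.out
  set q := Fintype.card F with hq
  have hq2 : 2 ≤ q := Fintype.one_lt_card
  have hq3 : 3 ≤ q := by
    obtain ⟨t, ht⟩ := hodd
    omega
  have hq1 : 1 ≤ q := by omega
  haveI : Nonempty (Fin n) := ⟨⟨0, by omega⟩⟩
  obtain ⟨l, hl, hl1, hl2⟩ := Cfsg.Agent.Lib.Zsig.zsigmondy q n (by omega) (by omega)
    (fun h => by omega) (fun h => by omega)
  haveI : Fact l.Prime := ⟨hl⟩
  have hlq1 : ¬ l ∣ q - 1 := by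
    intro h
    apply hl2 1 one_pos (by omega)
    rwa [pow_one]
  have hlm : l ∣ q ^ m + 1 := by
    have h1 : q ^ n - 1 = (q ^ m - 1) * (q ^ m + 1) := by
      have h2 : q ^ n = q ^ m * q ^ m := by rw [hn, two_mul, pow_add]
      have h3 : 1 ≤ q ^ m := Nat.one_le_pow _ _ (by omega)
      rw [h2]
      obtain ⟨t, ht⟩ : ∃ t, q ^ m = t + 1 := ⟨q ^ m - 1, by omega⟩
      rw [ht]
      simp only [Nat.add_sub_cancel]
      have : (t + 1) * (t + 1) = t * (t + 1 + 1) + 1 := by ring
      omega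
    rw [h1] at hl1
    rcases (Nat.Prime.dvd_mul hl).1 hl1 with h | h
    · exact absurd h (hl2 m (by omega) (by omega))
    · exact h
  have hlF : (l : F) ≠ 0 := by
    intro h0
    have h1 := (CharP.cast_eq_zero_iff F p l).1 h0
    have h2 : l = p := (Nat.prime_dvd_prime_iff_eq hp hl).1 h1 |>.symm
    obtain ⟨k, hk⟩ := FiniteField.card F p
    have h3 : l ∣ q := by
      rw [hq, hk.2, h2]; exact dvd_pow_self _ k.2.ne'
    have h4 : l ∣ q ^ n := h3.trans (dvd_pow_self _ (by omega))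
    have h5 : l ∣ q ^ n - (q ^ n - 1) := Nat.dvd_sub h4 hl1
    have h6 : q ^ n - (q ^ n - 1) = 1 := by
      have : 1 ≤ q ^ n := Nat.one_le_pow _ _ (by omega)
      omega
    rw [h6] at h5
    exact hl.one_lt.ne' (Nat.dvd_one.1 h5)
  -- the element `Y`
  obtain ⟨e, he⟩ := hlm
  have hepos : 0 < e := by
    rcases Nat.eq_zero_or_pos e with h | h
    · subst h; rw [mul_zero] at he; omega
    · exact h
  set Y := W ^ (e * (q - 1)) with hY
  have hWc : proj W ^ (q ^ m + 1) = 1 := by rw [← hW, pow_orderOf_eq_one]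
  rw [← map_pow, proj_eq_one_iff] at hWc
  obtain ⟨c, hc⟩ := scalar_of_mem_center _ hWc
  have hc0 : c ≠ 0 := by
    rintro rfl
    have h1 := (W ^ (q ^ m + 1)).2
    rw [hc, zero_smul, Matrix.det_zero] at h1
    exact zero_ne_one h1
  have hY1 : (Y : Matrix (Fin n) (Fin n) F) ^ (1 * l) = 1 := by
    rw [one_mul, hY, ← Matrix.SpecialLinearGroup.coe_pow, ← pow_mul]
    have h1 : e * (q - 1) * l = (q ^ m + 1) * (q - 1) := by rw [he]; ring
    rw [h1, pow_mul, Matrix.SpecialLinearGroup.coe_pow, hc, _root_.smul_pow, one_pow,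
      FiniteField.pow_card_sub_one_eq_one c hc0, one_smul]
  have hY2 : (Y : Matrix (Fin n) (Fin n) F) ^ 1 ≠ 1 := by
    rw [pow_one]
    intro h0
    have h1 : Y = 1 := Subtype.ext h0
    have h2 : proj W ^ (e * (q - 1)) = 1 := by
      rw [← map_pow, ← hY, h1, map_one]
    have h3 := orderOf_dvd_of_pow_eq_one h2
    rw [hW, he, mul_comm l e] at h3
    have h4 := Nat.dvd_of_mul_dvd_mul_left hepos h3
    exact hlq1 h4
  obtain ⟨π, hπ, hπm, -, hπl⟩ := exists_factor_of_pow _ l 1 hl hlF hY1 hY2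
  have hdeg1 : π.natDegree ≤ n := natDegree_le_of_dvd_minpoly _ _ hπm
  have hdeg2 : n ≤ π.natDegree := by
    by_contra hcon
    exact hl2 _ hπ.natDegree_pos (by omega) hπl
  have hdeg : π.natDegree = n := le_antisymm hdeg1 hdeg2
  set mY := minpoly F (Y : Matrix (Fin n) (Fin n) F) with hmY
  have hmYdeg : mY.natDegree ≤ n := natDegree_le_of_dvd_minpoly _ _ dvd_rfl
  have hmYirr : Irreducible mY := by
    have hint : IsIntegral F (Y : Matrix (Fin n) (Fin n) F) := Algebra.IsIntegral.isIntegral _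
    have hmon : mY.Monic := minpoly.monic hint
    obtain ⟨h, hh⟩ := hπm
    have hh0 : h ≠ 0 := by
      rintro rfl
      rw [mul_zero] at hh
      exact hmon.ne_zero hh
    have h1 := congrArg natDegree hh
    rw [natDegree_mul hπ.ne_zero hh0] at h1
    have h2 : h.natDegree = 0 := by omega
    have h3 : IsUnit h := by
      rw [natDegree_eq_zero] at h2
      obtain ⟨a, rfl⟩ := h2
      apply IsUnit.map
      apply IsUnit.mk0
      intro h0
      rw [h0] at hh0
      simp at hh0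
    rw [hh]
    exact (irreducible_mul_isUnit h3).2 hπ
  have hmYeq : mY.natDegree = n := by
    obtain ⟨h, hh⟩ := hπm
    have hint : IsIntegral F (Y : Matrix (Fin n) (Fin n) F) := Algebra.IsIntegral.isIntegral _
    have hmon : mY.Monic := minpoly.monic hint
    have hh0 : h ≠ 0 := by
      rintro rfl
      rw [mul_zero] at hh
      exact hmon.ne_zero hh
    have h1 := congrArg natDegree hh
    rw [natDegree_mul hπ.ne_zero hh0] at h1
    omega
  have hcomm : Commute (W : Matrix (Fin n) (Fin n) F) (Y : Matrix (Fin n) (Fin n) F) := by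
    rw [hY, Matrix.SpecialLinearGroup.coe_pow]
    exact (Commute.refl _).pow_right _
  exact irreducible_minpoly_of_commute _ _ (by omega) hmYirr hmYeq hcomm

end

/-- Let q be an odd prime power, n ≥ 4 even, and L = PSL(n,q). Then L has an element of order q^(n/2) + 1 if and only if the 2-part of n exceeds the 2-part of q − 1. -/
theorem result {F : Type*} [Field F] [Fintype F] {q : ℕ} (hF : Fintype.card F = q) (hodd : Odd q)
    {n : ℕ} (hn : 4 ≤ n) (heven : Even n) :
    (∃ g : Matrix.ProjectiveSpecialLinearGroup (Fin n) F, orderOf g = q ^ (n / 2) + 1) ↔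
      padicValNat 2 (q - 1) < padicValNat 2 n := by
  classical
  subst hF
  obtain ⟨p, hp⟩ := CharP.exists F
  haveI := hp
  haveI : Fact p.Prime := ⟨(CharP.char_is_prime_or_zero F p).resolve_right (fun h => by
    subst h
    exact absurd (CharP.charP_to_charZero F) (fun h0 => not_finite F))⟩
  obtain ⟨m, rfl⟩ : ∃ m, n = 2 * m := by
    obtain ⟨t, ht⟩ := heven
    exact ⟨t, by omega⟩
  have hm2 : 2 ≤ m := by omega
  have hdiv : 2 * m / 2 = m := by omega
  rw [hdiv]
  have hq2 : 2 ≤ Fintype.card F := Fintype.one_lt_card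
  rw [← dvd_om_iff _ m hq2 hodd (by omega)]
  haveI : Finite (Matrix.ProjectiveSpecialLinearGroup (Fin (2 * m)) F) :=
    Finite.of_surjective _ (proj_surjective (F := F) (n := 2 * m))
  constructor
  · rintro ⟨g, hg⟩
    obtain ⟨W, rfl⟩ := proj_surjective g
    have hirr := irreducible_of_order p _ m rfl hm2 hodd W hg
    obtain ⟨f, hf⟩ := scalar_of_irreducible (W : Matrix (Fin (2 * m)) (Fin (2 * m)) F) W.2 hirr
    rw [← hg]
    apply orderOf_dvd_of_pow_eq_one
    rw [← map_pow, proj_eq_one_iff]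
    apply mem_center_of_scalar _ f
    rw [Matrix.SpecialLinearGroup.coe_pow, hf]
  · intro h
    obtain ⟨y, hy⟩ := exists_singer (F := F) (n := 2 * m) p (by omega)
    rw [← hy] at h
    exact exists_order_of_dvd' y _ h

end Cfsg.Agent.S2495
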