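import Mathlib
import Cfsg.Statements.S2496
import Cfsg.Agent.Lib.SUSpecMain
import Cfsg.Agent.Lib.Zsig

set_option autoImplicit false
open Cfsg

namespace Cfsg.Agent.S2496

open Cfsg.Agent.Lib.SUSpec

section arith

lemma two_adic (m q : ℕ) (hm : m ≠ 0) (hodd : Odd q) :
    Nat.gcd (2 * m) (q + 1) ∣ m ↔ padicValNat 2 (q + 1) < padicValNat 2 (2 * m) := by
  haveI : Fact (Nat.Prime 2) := ⟨Nat.prime_two⟩
  have hq1 : q + 1 ≠ 0 := by omega
  have e1 : padicValNat 2 (2 * m) = 1 + padicValNat 2 m := by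
    rw [padicValNat.mul (by norm_num) hm, padicValNat.self (by norm_num)]
  constructor
  · intro h
    by_contra hcon
    push Not at hcon
    set t := padicValNat 2 (2 * m) with ht
    have h1 : 2 ^ t ∣ 2 * m := pow_padicValNat_dvd
    have h2 : 2 ^ t ∣ q + 1 := (pow_dvd_pow 2 hcon).trans pow_padicValNat_dvd
    have h3 : 2 ^ t ∣ m := (Nat.dvd_gcd h1 h2).trans h
    have h4 := (padicValNat_dvd_iff_le hm).mp h3
    omega
  · intro h
    set g := Nat.gcd (2 * m) (q + 1) with hg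
    have hg0 : g ≠ 0 := by
      intro h0
      have := Nat.gcd_dvd_right (2 * m) (q + 1)
      rw [← hg, h0, zero_dvd_iff] at this
      exact hq1 this
    obtain ⟨e, c, hc, hgc⟩ := Nat.exists_eq_two_pow_mul_odd hg0
    have h1 : 2 ^ e ∣ q + 1 := (Dvd.intro _ hgc.symm).trans (Nat.gcd_dvd_right _ _)
    have h2 := (padicValNat_dvd_iff_le hq1).mp h1
    have h3 : 2 ^ e ∣ m := (padicValNat_dvd_iff_le hm).mpr (by omega)
    have h4 : c ∣ 2 * m := (Dvd.intro_left _ hgc.symm).trans (Nat.gcd_dvd_left _ _)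
    have h5 : Nat.Coprime c 2 := by
      rw [Nat.coprime_comm, Nat.coprime_two_left]
      exact hc
    have h6 : c ∣ m := h5.dvd_of_dvd_mul_left h4
    rw [hgc]
    exact Nat.Coprime.mul_dvd_of_dvd_of_dvd (Nat.Coprime.pow_left _ h5.symm) h3 h6

lemma qQ_two_mul (q m : ℕ) (hq : 1 ≤ q) : qQ q (2 * m) = q ^ (2 * m) - 1 := by
  unfold qQ
  have h1 : (-(q : ℤ)) ^ (2 * m) = (q : ℤ) ^ (2 * m) := (even_two_mul m).neg_pow _
  rw [h1]
  have h2 : 1 ≤ q ^ (2 * m) := Nat.one_le_pow _ _ hq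
  have h3 : (1 : ℤ) - (q : ℤ) ^ (2 * m) = -(((q ^ (2 * m) - 1 : ℕ)) : ℤ) := by
    rw [Nat.cast_sub h2]
    push_cast
    ring
  rw [h3, Int.natAbs_neg, Int.natAbs_natCast]

lemma qQ_even (q m : ℕ) (hq : 1 ≤ q) (hm : Even m) : qQ q m = q ^ m - 1 := by
  obtain ⟨c, rfl⟩ := hm
  rw [← two_mul]
  exact qQ_two_mul q c hq

lemma qQ_odd (q m : ℕ) (hm : Odd m) : qQ q m = q ^ m + 1 := by
  unfold qQ
  rw [hm.neg_pow]
  have h3 : (1 : ℤ) - -(q : ℤ) ^ m = ((q ^ m + 1 : ℕ) : ℤ) := by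
    push_cast
    ring
  rw [h3, Int.natAbs_natCast]

/-- The target order as a divisor. -/
lemma tT_two_mul (q m N : ℕ) (hq : 1 ≤ q)
    (hN : N = if Even m then q ^ m + 1 else q ^ m - 1) : tT q (2 * m) = N * tT q m := by
  have h1 := qQ_eq q (2 * m)
  have h2 := qQ_eq q m
  rw [qQ_two_mul q m hq] at h1
  have h3 : 1 ≤ q ^ m := Nat.one_le_pow _ _ hq
  have h4 : q ^ (2 * m) - 1 = N * ((q + 1) * tT q m) := by
    rw [← h2]
    have h5 : q ^ (2 * m) = q ^ m * q ^ m := by rw [two_mul, pow_add]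
    rw [h5]
    by_cases hm : Even m
    · rw [if_pos hm] at hN
      rw [hN, qQ_even q m hq hm]
      obtain ⟨x, hx⟩ : ∃ x, q ^ m = x + 1 := ⟨q ^ m - 1, by omega⟩
      rw [hx]
      simp only [Nat.add_sub_cancel]
      have : (x + 1) * (x + 1) = (x + 1 + 1) * x + 1 := by ring
      omega
    · rw [if_neg hm] at hN
      rw [hN, qQ_odd q m (Nat.not_even_iff_odd.mp hm)]
      obtain ⟨x, hx⟩ : ∃ x, q ^ m = x + 1 := ⟨q ^ m - 1, by omega⟩
      rw [hx]
      simp only [Nat.add_sub_cancel]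
      have : (x + 1) * (x + 1) = x * (x + 1 + 1) + 1 := by ring
      omega
  apply Nat.eq_of_mul_eq_mul_left (by omega : 0 < q + 1)
  rw [← h1, h4]
  ring

/-- Congruence of the alternating sum. -/
lemma dvd_tT_iff {g q d : ℕ} (hg : g ∣ q + 1) : g ∣ tT q d ↔ g ∣ d := by
  have h1 : ((q : ℤ) + 1) ∣ geomS q d - d := by
    induction d with
    | zero => simp [geomS]
    | succ d ih =>
      have h2 : ((q : ℤ) + 1) ∣ (-(q : ℤ)) ^ d - 1 := by
        have h3 := sub_dvd_pow_sub_pow (-(q : ℤ)) 1 d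
        rw [one_pow, show -(q : ℤ) - 1 = -((q : ℤ) + 1) by ring, neg_dvd] at h3
        exact h3
      have h4 : geomS q (d + 1) - ((d + 1 : ℕ) : ℤ) = (geomS q d - d) + ((-(q : ℤ)) ^ d - 1) := by
        unfold geomS
        rw [Finset.sum_range_succ]
        push_cast
        ring
      rw [h4]
      exact dvd_add ih h2
  have h5 : (g : ℤ) ∣ geomS q d - d := by
    refine dvd_trans ?_ h1
    have : ((g : ℕ) : ℤ) ∣ ((q + 1 : ℕ) : ℤ) := Int.natCast_dvd_natCast.mpr hg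
    simpa using this
  unfold tT
  rw [← Int.natCast_dvd, ← Int.natCast_dvd_natCast (m := g) (n := d)]
  constructor
  · intro h
    have := dvd_sub h h5
    simpa using this
  · intro h
    have := dvd_add h5 h
    simpa using this

lemma ppd_core {q m ℓ t : ℕ} (hℓ : ℓ.Prime) (hℓ2 : ℓ ≠ 2) (ht : (t = 2 * m ∧ Even m) ∨ (t = m ∧ Odd m))
    (hm : 0 < m) (h1 : ℓ ∣ q ^ t - 1) (h2 : ∀ k, 0 < k → k < t → ¬ ℓ ∣ q ^ k - 1) (hq : 1 ≤ q) :
    ∀ d, 1 ≤ d → ℓ ∣ qQ q d → 2 * m ∣ d := by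
  haveI : Fact ℓ.Prime := ⟨hℓ⟩
  haveI : Fact (2 < ℓ) := ⟨by
    have := hℓ.two_le
    omega⟩
  set u : ZMod ℓ := (q : ZMod ℓ) with hu
  have hk : ∀ k : ℕ, ℓ ∣ q ^ k - 1 ↔ u ^ k = 1 := by
    intro k
    rw [← ZMod.natCast_eq_zero_iff, Nat.cast_sub (Nat.one_le_pow _ _ hq)]
    push_cast
    rw [sub_eq_zero]
  have htpos : 0 < t := by
    rcases ht with ⟨h, -⟩ | ⟨h, -⟩ <;> omega
  have hord : orderOf u = t := by
    rw [orderOf_eq_iff htpos]
    refine ⟨(hk t).mp h1, ?_⟩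
    intro j hj hj0 hj1
    exact h2 j hj0 hj ((hk j).mpr hj1)
  have hne : (-1 : ZMod ℓ) ≠ 1 := ZMod.neg_one_ne_one
  have hneg : ∀ c : ℕ, (-1 : ZMod ℓ) ^ c = 1 → Even c := by
    intro c hc
    by_contra hodd
    rw [Nat.not_even_iff_odd] at hodd
    rw [hodd.neg_one_pow] at hc
    exact hne hc
  intro d _ hd
  have h3 : (-u) ^ d = 1 := by
    unfold qQ at hd
    have h4 : (ℓ : ℤ) ∣ 1 - (-(q : ℤ)) ^ d := Int.natCast_dvd.mpr hd
    have h5 := (ZMod.intCast_zmod_eq_zero_iff_dvd _ ℓ).mpr h4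
    push_cast at h5
    rw [sub_eq_zero] at h5
    exact h5.symm
  have h6 : u ^ (2 * d) = 1 := by
    have h7 : (-u) ^ (2 * d) = u ^ (2 * d) := (even_two_mul d).neg_pow _
    rw [← h7, mul_comm, pow_mul, h3, one_pow]
  have h8 : t ∣ 2 * d := by
    rw [← hord]
    exact orderOf_dvd_of_pow_eq_one h6
  rcases ht with ⟨rfl, hme⟩ | ⟨rfl, hmo⟩
  · have h9 : m ∣ d := Nat.dvd_of_mul_dvd_mul_left (by norm_num) h8
    obtain ⟨c, rfl⟩ := h9
    have h10 : u ^ m = -1 := by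
      have h11 : (u ^ m) ^ 2 = 1 := by
        rw [← pow_mul, mul_comm]
        exact (hk _).mp h1
      have h12 : u ^ m ≠ 1 := by
        intro h
        exact h2 m hm (by omega) ((hk m).mpr h)
      have h13 : (u ^ m - 1) * (u ^ m + 1) = 0 := by
        linear_combination h11
      rcases mul_eq_zero.mp h13 with h14 | h14
      · exact absurd (sub_eq_zero.mp h14) h12
      · exact eq_neg_of_add_eq_zero_left h14
    rw [pow_mul, hme.neg_pow, h10] at h3
    have h15 := hneg c h3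
    obtain ⟨x, rfl⟩ := h15
    exact ⟨x, by ring⟩
  · have hcop : Nat.Coprime t 2 := by
      rw [Nat.coprime_comm, Nat.coprime_two_left]
      exact hmo
    have h9 : t ∣ d := hcop.dvd_of_dvd_mul_left h8
    obtain ⟨c, rfl⟩ := h9
    have h10 : u ^ t = 1 := (hk t).mp h1
    rw [pow_mul, hmo.neg_pow, h10] at h3
    have h15 := hneg c h3
    obtain ⟨x, rfl⟩ := h15
    exact ⟨x, by ring⟩

lemma exists_ppd (q m N : ℕ) (hq : Odd q) (hq3 : 3 ≤ q) (hm : 2 ≤ m)
    (hN : N = if Even m then q ^ m + 1 else q ^ m - 1) :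
    ∃ ℓ : ℕ, ℓ.Prime ∧ ℓ ∣ N ∧ ∀ d, 1 ≤ d → ℓ ∣ qQ q d → 2 * m ∣ d := by
  have h2dvd : 2 ∣ q ^ 1 - 1 := by
    obtain ⟨c, rfl⟩ := hq
    simp
  have hq2 : q ≠ 2 := by
    rintro rfl
    exact absurd hq (by decide)
  by_cases hme : Even m
  · rw [if_pos hme] at hN
    obtain ⟨ℓ, hℓ, h1, h2⟩ := Cfsg.Agent.Lib.Zsig.zsigmondy q (2 * m) (by omega) (by omega) (fun h => hq2 h.1)
      (fun h => by
        have := h.1
        omega)
    have hℓ2 : ℓ ≠ 2 := by
      rintro rfl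
      exact h2 1 (by norm_num) (by omega) h2dvd
    refine ⟨ℓ, hℓ, ?_, ppd_core hℓ hℓ2 (Or.inl ⟨rfl, hme⟩) (by omega) h1 h2 (by omega)⟩
    rw [hN]
    have h3 : q ^ (2 * m) - 1 = (q ^ m - 1) * (q ^ m + 1) := by
      have h5 : q ^ (2 * m) = q ^ m * q ^ m := by rw [two_mul, pow_add]
      have h6 : 1 ≤ q ^ m := Nat.one_le_pow _ _ (by omega)
      rw [h5]
      obtain ⟨x, hx⟩ : ∃ x, q ^ m = x + 1 := ⟨q ^ m - 1, by omega⟩
      rw [hx]
      simp only [Nat.add_sub_cancel]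
      have : (x + 1) * (x + 1) = x * (x + 1 + 1) + 1 := by ring
      omega
    rw [h3] at h1
    rcases (hℓ.dvd_mul).mp h1 with h4 | h4
    · exact absurd h4 (h2 m (by omega) (by omega))
    · exact h4
  · rw [if_neg hme] at hN
    have hmo : Odd m := Nat.not_even_iff_odd.mp hme
    obtain ⟨ℓ, hℓ, h1, h2⟩ := Cfsg.Agent.Lib.Zsig.zsigmondy q m (by omega) (by omega) (fun h => hq2 h.1)
      (fun h => hme (by rw [h.1]; decide))
    have hm3 : 1 < m := by omega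
    have hℓ2 : ℓ ≠ 2 := by
      rintro rfl
      exact h2 1 (by norm_num) hm3 h2dvd
    refine ⟨ℓ, hℓ, ?_, ppd_core hℓ hℓ2 (Or.inr ⟨rfl, hmo⟩) (by omega) h1 h2 (by omega)⟩
    rw [hN]
    exact h1

end arith

section main

variable {F : Type*} [Field F] [Fintype F] {q : ℕ}

local notation "K" => AlgebraicClosure F

theorem single_of_ppd [DecidableEq K] (hF : Fintype.card F = q ^ 2) {n a' ℓ : ℕ} (hn : 2 ≤ n) (hℓ : ℓ.Prime)
    (hℓa : ℓ ∣ a') (ha0 : a' ≠ 0) (hppd : ∀ d, 1 ≤ d → ℓ ∣ qQ q d → n ∣ d) (M : Multiset K)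
    (hcl : M.map (tw q) = M) (h0 : ∀ z ∈ M, z ≠ 0) (hcard : Multiset.card M = n)
    (hall : ∀ z ∈ M, ∀ z' ∈ M, z ^ a' = z' ^ a') (hmin : ∀ (k : ℕ) (d : K), (∀ z ∈ M, z ^ k = d) → a' ∣ k) :
    ∃ z ∈ M, M = orb q n z := by
  have hq2 := Cfsg.Agent.Lib.HermCount.two_le_q hF
  obtain ⟨k, rfl⟩ := hℓa
  have hk0 : k ≠ 0 := by
    rintro rfl
    exact ha0 (mul_zero _)
  obtain ⟨w₀, hw₀⟩ : ∃ z, z ∈ M := by
    apply Multiset.card_pos_iff_exists_mem.mp
    omega
  -- two eigenvalues with different `k`-th powers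
  have hex : ∃ z₁ ∈ M, ∃ z₂ ∈ M, z₁ ^ k ≠ z₂ ^ k := by
    by_contra hcon
    push Not at hcon
    have h1 := hmin k (w₀ ^ k) (fun z hz => hcon z hz w₀ hw₀)
    have h2 := Nat.le_of_dvd (Nat.pos_of_ne_zero hk0) h1
    have h3 := hℓ.two_le
    nlinarith [Nat.pos_of_ne_zero hk0]
  obtain ⟨z₁, hz₁, z₂, hz₂, hne⟩ := hex
  set c' := z₁ ^ (ℓ * k) with hc'
  have hc'0 : c' ≠ 0 := pow_ne_zero _ (h0 z₁ hz₁)
  have hc'1 : c' ^ (q + 1) = 1 := by
    rw [← tw_fix_iff hc'0, hc', tw_pow]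
    apply hall _ _ _ hz₁
    rw [← hcl]
    exact Multiset.mem_map_of_mem _ hz₁
  have hn1 : ¬ ℓ ∣ q + 1 := by
    intro h
    have h1 : qQ q 1 = q + 1 := by
      unfold qQ
      simp only [pow_one, sub_neg_eq_add]
      have : (1 : ℤ) + q = ((q + 1 : ℕ) : ℤ) := by
        push_cast
        ring
      rw [this, Int.natAbs_natCast]
    have h2 := hppd 1 le_rfl (by rw [h1]; exact h)
    have h3 := Nat.le_of_dvd one_pos h2
    omega
  have hcop : Nat.Coprime ℓ (q + 1) := (Nat.Prime.coprime_iff_not_dvd hℓ).mpr hn1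
  obtain ⟨u, hu⟩ := Nat.exists_mul_mod_eq_one_of_coprime hcop (by omega)
  set c'' := c' ^ u with hc''
  have hc''0 : c'' ≠ 0 := pow_ne_zero _ hc'0
  have hc''1 : c'' ^ (q + 1) = 1 := by
    rw [hc'', ← pow_mul, mul_comm, pow_mul, hc'1, one_pow]
  have hc''ℓ : c'' ^ ℓ = c' := by
    rw [hc'', ← pow_mul, mul_comm, pow_eq_pow_mod _ hc'1, hu.2, pow_one]
  -- one of the two works
  have hy : ∃ z ∈ M, z ^ k * c''⁻¹ ≠ 1 := by
    by_contra hcon
    push Not at hcon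
    have e1 := hcon z₁ hz₁
    have e2 := hcon z₂ hz₂
    apply hne
    have e3 : z₁ ^ k = c'' := by
      field_simp at e1
      exact e1
    have e4 : z₂ ^ k = c'' := by
      field_simp at e2
      exact e2
    rw [e3, e4]
  obtain ⟨z, hz, hy⟩ := hy
  set y := z ^ k * c''⁻¹ with hydef
  have hyℓ : y ^ ℓ = 1 := by
    rw [hydef, mul_pow, inv_pow, hc''ℓ, ← pow_mul, mul_comm k ℓ, hall z hz z₁ hz₁, ← hc']
    exact mul_inv_cancel₀ hc'0
  haveI : Fact ℓ.Prime := ⟨hℓ⟩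
  have hyord : orderOf y = ℓ := orderOf_eq_prime hyℓ hy
  set d := Function.minimalPeriod (tw q) z with hd
  have hdpos : 0 < d := period_pos hF M hcl hz
  have hz0 := h0 z hz
  have hdfix : z ^ qQ q d = 1 := (tw_iter_eq_iff hz0 d).mp (period_spec z)
  have hyQ : y ^ qQ q d = 1 := by
    rw [hydef, mul_pow, ← pow_mul, mul_comm k, pow_mul, hdfix, one_pow, one_mul, inv_pow, qQ_eq, pow_mul, hc''1, one_pow, inv_one]
  have hdvd : n ∣ d := by
    apply hppd d hdpos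
    rw [← hyord]
    exact orderOf_dvd_of_pow_eq_one hyQ
  have hnd : n ≤ d := Nat.le_of_dvd hdpos hdvd
  have hle := nsmul_orb_le hF M hcl z 1 (Multiset.one_le_count_iff_mem.mpr hz)
  rw [one_nsmul] at hle
  have hc2 := Multiset.card_le_card hle
  rw [orb_card, hcard] at hc2
  have hdn : d = n := by omega
  refine ⟨z, hz, ?_⟩
  have h5 := Multiset.eq_of_le_of_card_le hle (by rw [hcard, orb_card, ← hd, hdn])
  rw [← hd, hdn] at h5
  exact h5.symm

end main

/-- Let q be an odd prime power, n ≥ 4 even, and U = PSU(n,q) (realised over the field with q² elements). Then U has an element of order q^(n/2) + (−1)^(n/2) — that is, q^(n/2) + 1 when n/2 is even and q^(n/2) − 1 when n/2 is odd — if and only if the 2-part of n exceeds the 2-part of q + 1. -/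
theorem result {F : Type*} [Field F] [Fintype F] {q : ℕ} (hF : Fintype.card F = q ^ 2) (hodd : Odd q)
    {n : ℕ} (hn : 4 ≤ n) (heven : Even n) :
    (∃ g : Cfsg.PSU n F q, orderOf g = if Even (n / 2) then q ^ (n / 2) + 1 else q ^ (n / 2) - 1) ↔
      padicValNat 2 (q + 1) < padicValNat 2 n := by
  classical
  have hq2 := Cfsg.Agent.Lib.HermCount.two_le_q hF
  have hq3 : 3 ≤ q := by
    obtain ⟨c, rfl⟩ := hodd
    omega
  obtain ⟨p, hp⟩ := CharP.exists F
  obtain ⟨f, hpp, hf⟩ := FiniteField.card F p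
  haveI : Fact p.Prime := ⟨hpp⟩
  have hpq : p ∣ q := by
    have hdvd : q ∣ p ^ (f : ℕ) := by
      rw [← hf, hF]
      exact Dvd.intro_left _ (sq q).symm
    obtain ⟨k, -, hk⟩ := (Nat.dvd_prime_pow hpp).1 hdvd
    rw [hk]
    apply dvd_pow_self
    rintro rfl
    simp at hk
    omega
  haveI : NeZero n := ⟨by omega⟩
  obtain ⟨m, hm⟩ : ∃ m, n = 2 * m := ⟨n / 2, by
    obtain ⟨c, hc⟩ := heven
    omega⟩
  subst hm
  have hm2 : 2 * m / 2 = m := by omega
  rw [hm2]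
  have hm0 : 2 ≤ m := by omega
  set N := if Even m then q ^ m + 1 else q ^ m - 1 with hN
  have hT := tT_two_mul q m N (by omega) hN
  set g := Nat.gcd (tT q (2 * m)) (q + 1) with hg
  have hg1 : g ∣ q + 1 := Nat.gcd_dvd_right _ _
  have hg2 : g ∣ tT q (2 * m) := Nat.gcd_dvd_left _ _
  have hgpos : 0 < g := Nat.gcd_pos_of_pos_right _ (by omega)
  have hgeq : g = Nat.gcd (2 * m) (q + 1) := by
    apply Nat.dvd_antisymm
    · exact Nat.dvd_gcd ((dvd_tT_iff hg1).mp hg2) hg1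
    · exact Nat.dvd_gcd ((dvd_tT_iff (Nat.gcd_dvd_right _ _)).mpr (Nat.gcd_dvd_left _ _)) (Nat.gcd_dvd_right _ _)
  have hNpos : 0 < N := by
    rw [hN]
    split_ifs
    · omega
    · have : q ^ 1 ≤ q ^ m := Nat.pow_le_pow_right (by omega) (by omega)
      rw [pow_one] at this
      omega
  have key : N ∣ tT q (2 * m) / g ↔ padicValNat 2 (q + 1) < padicValNat 2 (2 * m) := by
    rw [← two_adic m q (by omega) hodd, ← hgeq, ← dvd_tT_iff hg1 (d := m)]
    constructor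
    · intro h
      obtain ⟨c, hc⟩ := h
      refine ⟨c, ?_⟩
      have h2 : tT q (2 * m) = g * (N * c) := by
        rw [← hc, Nat.mul_div_cancel' hg2]
      rw [hT] at h2
      have h3 : N * tT q m = N * (g * c) := by
        rw [h2]
        ring
      exact Nat.eq_of_mul_eq_mul_left hNpos h3
    · rintro ⟨c, hc⟩
      refine ⟨c, ?_⟩
      rw [hT, hc]
      have : N * (g * c) = g * (N * c) := by ring
      rw [this, Nat.mul_div_cancel_left _ hgpos]
  rw [← key]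
  constructor
  · rintro ⟨x, hx⟩
    have hN1 : N ∈ Set.range (orderOf : PSU (2 * m) F q → ℕ) := ⟨x, hx⟩
    have hNp : Nat.Coprime N p := by
      rw [Nat.coprime_comm, Nat.Prime.coprime_iff_not_dvd hpp]
      intro h
      have hqm : p ∣ q ^ m := hpq.trans (dvd_pow_self q (by omega))
      rw [hN] at h
      split_ifs at h
      · exact hpp.one_lt.ne' (Nat.dvd_one.mp ((Nat.dvd_add_right hqm).mp h))
      · have h3 : q ^ m - 1 + 1 = q ^ m := Nat.sub_add_cancel (Nat.one_le_pow _ _ (by omega))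
        have h4 : p ∣ q ^ m - 1 + 1 := by rw [h3]; exact hqm
        exact hpp.one_lt.ne' (Nat.dvd_one.mp ((Nat.dvd_add_right h).mp h4))
    obtain ⟨M, hcl, h0, hcard, hprod, hall, hmin, -⟩ := spec_setup hF p (a' := N) (α := 0) (by simpa using hN1) hNp
    obtain ⟨ℓ, hℓ, hℓN, hppd⟩ := exists_ppd q m N hodd hq3 hm0 hN
    obtain ⟨z, hz, hMz⟩ := single_of_ppd hF (by omega) hℓ hℓN hNpos.ne' hppd M hcl h0 hcard hall hmin
    subst hMz
    exact single_orbit (by omega) (h0 z hz) hprod hmin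
  · intro h
    have h1 : tT q (2 * m) / g ∈ Set.range (orderOf : PSU (2 * m) F q → ℕ) :=
      (torus_mem hF p hpq (NeZero.ne _)).mem_range
    obtain ⟨x, hx⟩ := h1
    exact ⟨x ^ (orderOf x / N), orderOf_pow_orderOf_div (orderOf_pos x).ne' (by rw [hx]; exact h)⟩

end Cfsg.Agent.S2496
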