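import Mathlib
import Cfsg.Agent.Lib.SL2Torus2
import Cfsg.Statements.S2503

set_option autoImplicit false
open Cfsg

namespace Cfsg.Agent.S2503

open Cfsg.Agent.Lib.SL2Core Cfsg.Agent.Lib.SL2Torus Cfsg.Agent.Lib.SL2Torus2

variable {F : Type*} [Field F] [Fintype F]

/-- `E` is additive. -/
lemma E_add (x y : F) : E (x + y) = E x * E y := by
  apply Subtype.ext
  simp only [E, Matrix.SpecialLinearGroup.coe_mul, mk2_coe]
  ext i j
  fin_cases i <;> fin_cases j <;> simp [mul2, add_comm]

/-- The root group in `PSL₂`. -/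
def phi : Multiplicative F →* PSL2 F where
  toFun x := proj (E (Multiplicative.toAdd x))
  map_one' := by
    rw [toAdd_one]
    have : E (0 : F) = 1 := by
      apply Subtype.ext
      simp [E, Matrix.one_fin_two]
    rw [this, map_one]
  map_mul' x y := by
    rw [toAdd_mul, E_add, map_mul]

lemma phi_injective : Function.Injective (phi (F := F)) := by
  rw [injective_iff_map_eq_one]
  intro x hx
  have h1 : proj (E (Multiplicative.toAdd x)) = 1 := hx
  rw [proj_eq_one_iff, E_mem_center_iff] at h1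
  exact h1

/-- In characteristic two, there is a norm one vector with norm one image. -/
lemma exists_common_point [CharP F 2] (t : F) (ht : ∀ l : F, l * l - t * l + 1 ≠ 0) (Z : SL2 F) :
    ∃ u0 u1 : F, u0 * u0 + t * u0 * u1 + u1 * u1 = 1 ∧
      ((Z : Matrix (Fin 2) (Fin 2) F) 0 0 * u0 + (Z : Matrix (Fin 2) (Fin 2) F) 0 1 * u1) *
        ((Z : Matrix (Fin 2) (Fin 2) F) 0 0 * u0 + (Z : Matrix (Fin 2) (Fin 2) F) 0 1 * u1) +
      t * ((Z : Matrix (Fin 2) (Fin 2) F) 0 0 * u0 + (Z : Matrix (Fin 2) (Fin 2) F) 0 1 * u1) *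
        ((Z : Matrix (Fin 2) (Fin 2) F) 1 0 * u0 + (Z : Matrix (Fin 2) (Fin 2) F) 1 1 * u1) +
      ((Z : Matrix (Fin 2) (Fin 2) F) 1 0 * u0 + (Z : Matrix (Fin 2) (Fin 2) F) 1 1 * u1) *
        ((Z : Matrix (Fin 2) (Fin 2) F) 1 0 * u0 + (Z : Matrix (Fin 2) (Fin 2) F) 1 1 * u1) = 1 := by
  have hchar : ringChar F = 2 := ringChar.eq F 2
  have h2 : (2 : F) = 0 := CharTwo.two_eq_zero
  set p := (Z : Matrix (Fin 2) (Fin 2) F) 0 0 with hp
  set r := (Z : Matrix (Fin 2) (Fin 2) F) 0 1 with hr
  set s := (Z : Matrix (Fin 2) (Fin 2) F) 1 0 with hs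
  set w := (Z : Matrix (Fin 2) (Fin 2) F) 1 1 with hw
  have hdet : p * w - r * s = 1 := det_entries Z
  obtain ⟨A, hA⟩ := FiniteField.isSquare_of_char_two hchar (p * p + t * p * s + s * s + 1)
  obtain ⟨B, hB⟩ := FiniteField.isSquare_of_char_two hchar (r * r + t * r * w + w * w + 1)
  -- a nonzero isotropic vector of the square form
  obtain ⟨x, y, hxy, hlin⟩ : ∃ x y : F, (x ≠ 0 ∨ y ≠ 0) ∧ A * x + B * y = 0 := by
    by_cases hB0 : B = 0
    · exact ⟨0, 1, Or.inr one_ne_zero, by simp [hB0]⟩
    · refine ⟨B, A, Or.inl hB0, ?_⟩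
      linear_combination A * B * h2
  have hQ : x * x + t * x * y + y * y ≠ 0 := by
    intro h
    by_cases hy : y = 0
    · rw [hy] at h hxy
      simp only [mul_zero, add_zero, mul_self_eq_zero] at h
      rcases hxy with h3 | h3
      · exact h3 h
      · exact h3 rfl
    · apply ht (x / y)
      field_simp
      linear_combination h - (t * x * y) * h2
  obtain ⟨e, he⟩ := FiniteField.isSquare_of_char_two hchar (x * x + t * x * y + y * y)⁻¹
  have he' : e * e * (x * x + t * x * y + y * y) = 1 := by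
    rw [← he]; exact inv_mul_cancel₀ hQ
  refine ⟨e * x, e * y, ?_, ?_⟩
  · linear_combination he'
  · have hsq : (A * (e * x) + B * (e * y)) * (A * (e * x) + B * (e * y)) = 0 := by
      have : A * (e * x) + B * (e * y) = e * (A * x + B * y) := by ring
      rw [this, hlin]; simp
    have hexp : (A * (e * x) + B * (e * y)) * (A * (e * x) + B * (e * y)) =
        (A * A) * (e * x) * (e * x) + (B * B) * (e * y) * (e * y) := by
      linear_combination A * B * (e * x) * (e * y) * h2
    rw [← hA, ← hB] at hexp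
    rw [hexp] at hsq
    linear_combination hsq - he' + (t * (e * x) * (e * y)) * hdet + ((e * x) * (e * y) * (p * r + s * w) + (t * (e * x) * (e * y)) * (r * s + 1) - 1) * h2

/-- Let F be a finite field with q = 2^t ≥ 4 elements and L = PSL(2,F). Then L has a cyclic subgroup A of order q + 1 and an elementary abelian 2-subgroup B of order q such that L = ABA: every element of L is a product a·b·a' with a, a' ∈ A and b ∈ B. -/
theorem result {F : Type*} [Field F] [Fintype F]
    (h2 : 2 ∣ Fintype.card F) (h4 : 4 ≤ Fintype.card F) :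
    ∃ A B : Subgroup (Matrix.ProjectiveSpecialLinearGroup (Fin 2) F),
      IsCyclic A ∧ Nat.card A = Fintype.card F + 1 ∧ IsMulCommutative B ∧ (∀ b ∈ B, b * b = 1) ∧
        Nat.card B = Fintype.card F ∧
        ∀ g : Matrix.ProjectiveSpecialLinearGroup (Fin 2) F, ∃ a ∈ A, ∃ b ∈ B, ∃ c ∈ A, g = a * b * c := by
  classical
  have hchar : ringChar F = 2 := FiniteField.even_card_iff_char_two.mpr (Nat.mod_eq_zero_of_dvd h2)
  have hch : CharP F 2 := by
    have := ringChar.charP F
    rwa [hchar] at this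
  have h20 : (2 : F) = 0 := CharTwo.two_eq_zero
  obtain ⟨D⟩ := exists_normOneData (F := F)
  set C : SL2 F := Cfsg.Agent.Lib.SL2Core.comp D.t with hC
  refine ⟨Subgroup.zpowers (proj C), (phi (F := F)).range, inferInstance, ?_, ?_, ?_, ?_, ?_⟩
  · rw [Nat.card_zpowers, orderOf_proj D C (tr_comp _)]
    have : Nat.gcd 2 (Fintype.card F + 1) = 1 := by
      have h3 : Odd (Fintype.card F + 1) := (even_iff_two_dvd.mpr h2).add_one
      exact (Nat.coprime_two_left.mpr h3)
    rw [this, Nat.div_one]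
  · exact ⟨⟨by
      rintro ⟨_, ⟨x, rfl⟩⟩ ⟨_, ⟨y, rfl⟩⟩
      apply Subtype.ext
      simp only [Subgroup.coe_mul]
      rw [← map_mul, ← map_mul, mul_comm]⟩⟩
  · rintro _ ⟨x, rfl⟩
    rw [← map_mul]
    have : x * x = 1 := by
      apply Multiplicative.toAdd.injective
      simp only [toAdd_mul, toAdd_one]
      have h5 : Multiplicative.toAdd x + Multiplicative.toAdd x = 2 * Multiplicative.toAdd x := by ring
      rw [h5, h20, zero_mul]
    rw [this, map_one]
  · rw [Nat.card_congr (MonoidHom.ofInjective phi_injective).symm.toEquiv]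
    simp
  · intro g
    obtain ⟨Z, rfl⟩ := proj_surjective g
    obtain ⟨u0, u1, hu, hZu⟩ := exists_common_point D.t D.nonsplit Z
    obtain ⟨k, hk0, hk1⟩ := exists_pow_first_col D u0 u1 hu
    obtain ⟨l, hl0, hl1⟩ := exists_pow_first_col D _ _ hZu
    -- h = C^{-l} Z C^k fixes e₁
    set M : SL2 F := C ^ l with hM
    set Nn : SL2 F := C ^ k with hNn
    have hdetM := det_entries M
    set h : SL2 F := M⁻¹ * (Z * Nn) with hh
    have h00 : (h : Matrix (Fin 2) (Fin 2) F) 0 0 = 1 := by
      simp only [hh, Matrix.SpecialLinearGroup.coe_mul, mul2, inv00, inv01, inv10, inv11]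
      rw [hk0, hk1, ← hl0, ← hl1]
      linear_combination hdetM
    have h10 : (h : Matrix (Fin 2) (Fin 2) F) 1 0 = 0 := by
      simp only [hh, Matrix.SpecialLinearGroup.coe_mul, mul2, inv00, inv01, inv10, inv11]
      rw [hk0, hk1, ← hl0, ← hl1]
      ring
    have h11 : (h : Matrix (Fin 2) (Fin 2) F) 1 1 = 1 := by
      have := det_entries h
      rw [h00, h10] at this
      simpa using this
    have hE : h = E ((h : Matrix (Fin 2) (Fin 2) F) 0 1) := by
      apply Subtype.ext
      ext i j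
      fin_cases i <;> fin_cases j <;> simp [E, mk2, h00, h10, h11]
    refine ⟨proj M, ?_, proj h, ?_, (proj Nn)⁻¹, ?_, ?_⟩
    · rw [hM, map_pow]
      exact Subgroup.npow_mem_zpowers _ _
    · rw [hE]
      exact ⟨Multiplicative.ofAdd _, rfl⟩
    · rw [hNn, map_pow]
      exact Subgroup.inv_mem _ (Subgroup.npow_mem_zpowers _ _)
    · rw [hh]
      simp only [map_mul, map_inv]
      group

end Cfsg.Agent.S2503
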