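import Mathlib
import Cfsg.Statements.S2504
import Cfsg.Agent.Lib.AbelianPerm

set_option autoImplicit false
open Cfsg

namespace Cfsg.Agent.S2504

open Cfsg.Agent.Lib.AbelianPerm

lemma mem_of_real {n c : ℕ} (h : RealA n c) :
    c ∈ {c : ℕ | ∃ A : Subgroup (alternatingGroup (Fin n)), IsMulCommutative A ∧ Nat.card A = c} := by
  obtain ⟨A, h1, h2, h3⟩ := h
  refine ⟨A.subgroupOf (alternatingGroup (Fin n)), ⟨⟨fun a b => ?_⟩⟩, ?_⟩
  · exact Subtype.ext (Subtype.ext (h1 _ a.2 _ b.2))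
  · rw [Nat.card_congr (Subgroup.subgroupOfEquivOfLe h3).toEquiv, h2]

/-- pass to the image in the symmetric group -/
lemma image_data {n : ℕ} (A : Subgroup (alternatingGroup (Fin n))) (hA : IsMulCommutative A) :
    ∃ B : Subgroup (Equiv.Perm (Fin n)), IsMulCommutative B ∧ Nat.card B = Nat.card A ∧
      ∀ g : B, Equiv.Perm.sign (MulAction.toPermHom B (Fin n) g) = 1 := by
  refine ⟨A.map (alternatingGroup (Fin n)).subtype, ⟨⟨?_⟩⟩, ?_, ?_⟩
  · rintro ⟨_, a, ha, rfl⟩ ⟨_, b, hb, rfl⟩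
    apply Subtype.ext
    show a.1 * b.1 = b.1 * a.1
    have := mul_comm' (⟨a, ha⟩ : A) ⟨b, hb⟩
    exact congrArg (fun x : A => x.1.1) this
  · exact Nat.card_congr (Subgroup.equivMapOfInjective _ _ (Subtype.val_injective)).symm.toEquiv
  · rintro ⟨_, a, ha, rfl⟩
    have h : MulAction.toPermHom (A.map (alternatingGroup (Fin n)).subtype) (Fin n)
        ⟨_, a, ha, rfl⟩ = a.1 := by
      ext x; rfl
    rw [h]
    exact a.2

lemma bound_eight (m : ℕ) (A : Subgroup (alternatingGroup (Fin (3 * (m + 2) + 2))))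
    (hA : IsMulCommutative A) : Nat.card A ≤ 16 * 3 ^ m := by
  obtain ⟨B, hB, hB2, hB3⟩ := image_data A hA
  rw [← hB2]
  exact card_le_even (G := B) (α := Fin (3 * (m + 2) + 2)) (fun a b => mul_comm' a b) hB3 m
    (by simp)

/-- general upper bound -/
lemma bound_general {n : ℕ} (A : Subgroup (alternatingGroup (Fin n)))
    (hA : IsMulCommutative A) : Nat.card A ≤ f n := by
  obtain ⟨B, hB, hB2, hB3⟩ := image_data A hA
  rw [← hB2]
  exact card_le_f_subgroup B hB

/-- The largest order of an abelian subgroup of the alternating group of degree n is 3^k when n = 3k, 4·3^(k−1) when n = 3k + 1, and 16·3^(k−2) when n = 3k + 2, for every k ≥ 2 (so for all degrees n ≥ 6). -/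
theorem result (k : ℕ) (hk : 2 ≤ k) :
    IsGreatest {c : ℕ | ∃ A : Subgroup (alternatingGroup (Fin (3 * k))), IsMulCommutative A ∧ Nat.card A = c} (3 ^ k) ∧
    IsGreatest {c : ℕ | ∃ A : Subgroup (alternatingGroup (Fin (3 * k + 1))), IsMulCommutative A ∧ Nat.card A = c}
      (4 * 3 ^ (k - 1)) ∧
    IsGreatest {c : ℕ | ∃ A : Subgroup (alternatingGroup (Fin (3 * k + 2))), IsMulCommutative A ∧ Nat.card A = c}
      (16 * 3 ^ (k - 2)) := by
  obtain ⟨m, rfl⟩ : ∃ m, k = m + 2 := ⟨k - 2, by omega⟩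
  refine ⟨⟨mem_of_real (realA_three_mul _), ?_⟩, ⟨mem_of_real ?_, ?_⟩,
    ⟨mem_of_real ?_, ?_⟩⟩
  · rintro _ ⟨A, hA, rfl⟩
    have := bound_general A hA
    rwa [f_three_mul] at this
  · exact (realA_three_mul_four (m + 1)).cast (by ring) (by simp; ring)
  · rintro _ ⟨A, hA, rfl⟩
    have := bound_general A hA
    have h2 : f (3 * (m + 2) + 1) = 4 * 3 ^ (m + 1) := f_three_mul_one (m + 1)
    rw [h2] at this
    simpa using this
  · exact (realA_three_mul_eight m).cast (by ring) (by simp; ring)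
  · rintro _ ⟨A, hA, rfl⟩
    have := bound_eight m A hA
    simpa using this

end Cfsg.Agent.S2504
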