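import Mathlib
import Cfsg.Statements.S2505
import Cfsg.Agent.Lib.AbelianPerm

set_option autoImplicit false
open Cfsg

namespace Cfsg.Agent.S2505

open Cfsg.Agent.Lib.AbelianPerm

lemma mem_of_real {n c : ℕ} (h : RealS n c) :
    c ∈ {c : ℕ | ∃ A : Subgroup (Equiv.Perm (Fin n)), IsMulCommutative A ∧ Nat.card A = c} := by
  obtain ⟨A, h1, h2⟩ := h
  refine ⟨A, ⟨⟨fun a b => ?_⟩⟩, h2⟩
  exact Subtype.ext (h1 _ a.2 _ b.2)

/-- The largest order of an abelian subgroup of the symmetric group of degree n is 3^k when n = 3k, 4·3^(k−1) when n = 3k + 1, and 2·3^k when n = 3k + 2, for every k ≥ 1. -/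
theorem result (k : ℕ) (hk : 1 ≤ k) :
    IsGreatest {c : ℕ | ∃ A : Subgroup (Equiv.Perm (Fin (3 * k))), IsMulCommutative A ∧ Nat.card A = c} (3 ^ k) ∧
    IsGreatest {c : ℕ | ∃ A : Subgroup (Equiv.Perm (Fin (3 * k + 1))), IsMulCommutative A ∧ Nat.card A = c}
      (4 * 3 ^ (k - 1)) ∧
    IsGreatest {c : ℕ | ∃ A : Subgroup (Equiv.Perm (Fin (3 * k + 2))), IsMulCommutative A ∧ Nat.card A = c}
      (2 * 3 ^ k) := by
  obtain ⟨m, rfl⟩ : ∃ m, k = m + 1 := ⟨k - 1, by omega⟩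
  refine ⟨⟨mem_of_real (realA_three_mul _).toS, ?_⟩, ⟨mem_of_real ?_, ?_⟩,
    ⟨mem_of_real ?_, ?_⟩⟩
  · rintro _ ⟨A, hA, rfl⟩
    have := card_le_f_subgroup A hA
    rwa [f_three_mul] at this
  · exact (realA_three_mul_four m).toS.cast (by ring) (by simp; ring)
  · rintro _ ⟨A, hA, rfl⟩
    have := card_le_f_subgroup A hA
    rw [f_three_mul_one] at this
    simpa using this
  · exact (realS_three_mul_two (m + 1)).cast rfl (by ring)
  · rintro _ ⟨A, hA, rfl⟩
    have := card_le_f_subgroup A hA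
    rwa [f_three_mul_two] at this

end Cfsg.Agent.S2505
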