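import Mathlib
import Cfsg.Statements.S2506
import Cfsg.Agent.Lib.AltMaxAb

set_option autoImplicit false
open scoped Pointwise
open Cfsg

namespace Cfsg.Agent.S2506

open Equiv MulAction Cfsg.Agent.Lib.AbelianPerm Cfsg.Agent.Lib.AltMaxAb

lemma mem_of_real {n c : ℕ} (h : RealA n c) :
    ∃ A : Subgroup (alternatingGroup (Fin n)), IsMulCommutative A ∧ Nat.card A = c := by
  obtain ⟨A, h1, h2, h3⟩ := h
  refine ⟨A.subgroupOf (alternatingGroup (Fin n)), ⟨⟨fun a b => ?_⟩⟩, ?_⟩
  · exact Subtype.ext (Subtype.ext (h1 _ a.2 _ b.2))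
  · rw [Nat.card_congr (Subgroup.subgroupOfEquivOfLe h3).toEquiv, h2]

/-- The image in the symmetric group. -/
abbrev img {n : ℕ} (A : Subgroup (alternatingGroup (Fin n))) : Subgroup (Perm (Fin n)) :=
  A.map (alternatingGroup (Fin n)).subtype

lemma img_comm {n : ℕ} (A : Subgroup (alternatingGroup (Fin n))) (hA : IsMulCommutative A) :
    ∀ a b : img A, a * b = b * a := by
  rintro ⟨_, a, ha, rfl⟩ ⟨_, b, hb, rfl⟩
  apply Subtype.ext
  show a.1 * b.1 = b.1 * a.1
  have := mul_comm' (⟨a, ha⟩ : A) ⟨b, hb⟩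
  exact congrArg (fun x : A => x.1.1) this

lemma img_even {n : ℕ} (A : Subgroup (alternatingGroup (Fin n))) : ∀ g ∈ img A, Perm.sign g = 1 := by
  rintro _ ⟨a, -, rfl⟩
  exact a.2

lemma img_card {n : ℕ} (A : Subgroup (alternatingGroup (Fin n))) : Nat.card (img A) = Nat.card A :=
  Nat.card_congr (Subgroup.equivMapOfInjective _ _ (Subtype.val_injective)).symm.toEquiv

theorem main_case {n j r : ℕ} (hr : r ≤ 2) (hn : n = 3 * j + 4 * r)
    (hb : Bounds n (3 ^ j * 4 ^ r)) (hreal : RealA n (3 ^ j * 4 ^ r))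
    (A B : Subgroup (alternatingGroup (Fin n))) (hA : IsMulCommutative A) (hB : IsMulCommutative B)
    (hAmax : ∀ C : Subgroup (alternatingGroup (Fin n)), IsMulCommutative C → Nat.card C ≤ Nat.card A)
    (hBmax : ∀ C : Subgroup (alternatingGroup (Fin n)), IsMulCommutative C → Nat.card C ≤ Nat.card B) :
    ∃ g : alternatingGroup (Fin n), B = MulAut.conj g • A := by
  classical
  obtain ⟨C, hC, hCc⟩ := mem_of_real hreal
  have h1 := hAmax C hC
  have h2 := hBmax C hC
  rw [hCc, ← img_card] at h1 h2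
  have hb' : Bounds (3 * j + 4 * r) (3 ^ j * 4 ^ r) := hn ▸ hb
  have hcard : Nat.card (Fin n) = 3 * j + 4 * r := by simpa using hn
  letI : Fintype (Om (img A) (Fin n)) := Fintype.ofFinite _
  letI : Fintype (Om (img B) (Fin n)) := Fintype.ofFinite _
  obtain ⟨pA, cA, ccA, cntA⟩ := main_shape (img_comm A hA) (img_even A) hr hcard hb' h1
  obtain ⟨pB, cB, ccB, cntB⟩ := main_shape (img_comm B hB) (img_even B) hr hcard hb' h2
  obtain ⟨π₀, hπ₀⟩ := exists_pi (A := img A) (B := img B) (fun c => by rw [cntA, cntB])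
  obtain ⟨π, hsgn, hπ⟩ := exists_even_pi pA hπ₀
  have hmem := conj_mem (img_comm A hA) (img_comm B hB) (img_even A) (img_even B) cA cB pB hπ
  refine ⟨⟨π, hsgn⟩, ?_⟩
  have hle : MulAut.conj (⟨π, hsgn⟩ : alternatingGroup (Fin n)) • A ≤ B := by
    intro y hy
    obtain ⟨x, hx, rfl⟩ := (Subgroup.mem_smul_pointwise_iff_exists _ _ _).1 hy
    have h3 := hmem ⟨x.1, x, hx, rfl⟩
    obtain ⟨b, hb, hbe⟩ := h3
    have h4 : b = MulAut.conj (⟨π, hsgn⟩ : alternatingGroup (Fin n)) • x := Subtype.ext hbe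
    rw [← h4]
    exact hb
  symm
  apply Subgroup.eq_of_le_of_card_ge hle
  rw [← Nat.card_congr (Subgroup.equivSMul _ A).toEquiv, ← img_card A, ← img_card B, ccA, ccB]

lemma card_five (A : Subgroup (alternatingGroup (Fin 5))) (hA : IsMulCommutative A)
    (h5 : 5 ≤ Nat.card A) : Nat.card A = 5 := by
  classical
  rw [← img_card] at h5 ⊢
  letI : Fintype (Om (img A) (Fin 5)) := Fintype.ofFinite _
  have hc := img_comm A hA
  have hsum := sum_sz (G := img A) (α := Fin 5)
  have hP := card_le_prod (G := img A) (α := Fin 5) hc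
  have hcard5 : Nat.card (Fin 5) = 5 := by simp
  rw [hcard5] at hsum
  have hdec : ∀ ω : Om (img A) (Fin 5), ∏ ω' : Om (img A) (Fin 5), sz ω' =
      sz ω * ∏ ω' ∈ Finset.univ.erase ω, sz ω' ∧ sz ω + ∑ ω' ∈ Finset.univ.erase ω, sz ω' = 5 := by
    intro ω
    exact ⟨(Finset.mul_prod_erase _ _ (Finset.mem_univ ω)).symm, by
      rw [Finset.add_sum_erase _ _ (Finset.mem_univ ω), hsum]⟩
  have hge : ∀ ω : Om (img A) (Fin 5), 3 ≤ sz ω := by
    intro ω
    obtain ⟨h1, h2⟩ := hdec ω
    have h6 := prod_le_f (Finset.univ.erase ω) (sz (G := img A) (α := Fin 5)) (fun ω' _ => sz_pos ω')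
    rw [show ∑ ω' ∈ Finset.univ.erase ω, sz ω' = 5 - sz ω by omega] at h6
    have hpos := sz_pos ω
    by_contra hlt
    have : sz ω = 1 ∨ sz ω = 2 := by omega
    rcases this with h | h
    · rw [h] at h1 h6
      have h7 : f (5 - 1) = 4 := rfl
      rw [h7] at h6
      omega
    · have h8 := card_le_of_two hc (img_even A) ω h
      rw [h] at h6
      have h7 : f (5 - 2) = 3 := rfl
      rw [h7] at h6
      omega
  obtain ⟨ω₀⟩ : Nonempty (Om (img A) (Fin 5)) := ⟨Quotient.mk'' (0 : Fin 5)⟩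
  obtain ⟨h1, h2⟩ := hdec ω₀
  have he : Finset.univ.erase ω₀ = ∅ := by
    rw [Finset.eq_empty_iff_forall_notMem]
    intro ω hω
    have h3 : sz ω ≤ ∑ ω' ∈ Finset.univ.erase ω₀, sz ω' :=
      Finset.single_le_sum (f := fun ω' => sz ω') (fun _ _ => Nat.zero_le _) hω
    have := hge ω
    have := hge ω₀
    omega
  rw [he] at h1 h2
  simp only [Finset.prod_empty, mul_one, Finset.sum_empty, add_zero] at h1 h2
  rw [h1, h2] at hP
  omega

lemma case_five (A B : Subgroup (alternatingGroup (Fin 5))) (hA : IsMulCommutative A) (hB : IsMulCommutative B)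
    (hAmax : ∀ C : Subgroup (alternatingGroup (Fin 5)), IsMulCommutative C → Nat.card C ≤ Nat.card A)
    (hBmax : ∀ C : Subgroup (alternatingGroup (Fin 5)), IsMulCommutative C → Nat.card C ≤ Nat.card B) :
    ∃ g : alternatingGroup (Fin 5), B = MulAut.conj g • A := by
  haveI : Fact (Nat.Prime 5) := ⟨by norm_num⟩
  have hG : Nat.card (alternatingGroup (Fin 5)) = 60 := by
    rw [nat_card_alternatingGroup]
    simp [Nat.factorial]
  obtain ⟨x, hx⟩ := exists_prime_orderOf_dvd_card' (G := alternatingGroup (Fin 5)) 5 (by rw [hG]; norm_num)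
  have hz : Nat.card (Subgroup.zpowers x) = 5 := by rw [Nat.card_zpowers, hx]
  have hAc := card_five A hA (by
    have := hAmax (Subgroup.zpowers x) inferInstance
    rwa [hz] at this)
  have hBc := card_five B hB (by
    have := hBmax (Subgroup.zpowers x) inferInstance
    rwa [hz] at this)
  have hfac : (Nat.card (alternatingGroup (Fin 5))).factorization 5 = 1 := by
    rw [hG, show (60 : ℕ) = 5 * 12 by norm_num, Nat.factorization_mul (by norm_num) (by norm_num),
      Nat.Prime.factorization (by norm_num : Nat.Prime 5)]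
    have : (12 : ℕ).factorization 5 = 0 :=
      Nat.factorization_eq_zero_of_not_dvd (by norm_num)
    simp [this]
  let P : Sylow 5 (alternatingGroup (Fin 5)) := Sylow.ofCard A (by rw [hfac, hAc, pow_one])
  let Q : Sylow 5 (alternatingGroup (Fin 5)) := Sylow.ofCard B (by rw [hfac, hBc, pow_one])
  obtain ⟨g, hg⟩ := MulAction.exists_smul_eq (alternatingGroup (Fin 5)) P Q
  refine ⟨g, ?_⟩
  have := congrArg (fun S : Sylow 5 (alternatingGroup (Fin 5)) => (S : Subgroup (alternatingGroup (Fin 5)))) hg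
  simpa [P, Q, Sylow.coe_ofCard, Sylow.coe_subgroup_smul] using this.symm

/-- In the alternating group of any degree, any two abelian subgroups of the largest possible order (among abelian subgroups) are conjugate. -/
theorem result (n : ℕ)
    (A B : Subgroup (alternatingGroup (Fin n))) (hA : IsMulCommutative A) (hB : IsMulCommutative B)
    (hAmax : ∀ C : Subgroup (alternatingGroup (Fin n)), IsMulCommutative C → Nat.card C ≤ Nat.card A)
    (hBmax : ∀ C : Subgroup (alternatingGroup (Fin n)), IsMulCommutative C → Nat.card C ≤ Nat.card B) :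
    ∃ g : alternatingGroup (Fin n), B = MulAut.conj g • A := by
  by_cases h2 : n ≤ 2
  · have hsub : Subsingleton (alternatingGroup (Fin n)) := by
      interval_cases n
      · exact ⟨by decide⟩
      · exact ⟨by decide⟩
      · exact ⟨by decide⟩
    exact ⟨1, Subsingleton.elim _ _⟩
  by_cases h5 : n = 5
  · subst h5
    exact case_five A B hA hB hAmax hBmax
  obtain h0 | h1 | h3 : n % 3 = 0 ∨ n % 3 = 1 ∨ n % 3 = 2 := by omega
  · obtain ⟨j, rfl⟩ : ∃ j, n = 3 * j := ⟨n / 3, by omega⟩
    exact main_case (j := j) (r := 0) (by omega) (by omega) (bounds_zero j (by omega))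
      ((realA_three_mul j).cast rfl (by simp)) A B hA hB hAmax hBmax
  · obtain ⟨j, rfl⟩ : ∃ j, n = 3 * j + 4 := ⟨(n - 4) / 3, by omega⟩
    exact main_case (j := j) (r := 1) (by omega) (by omega) (bounds_one j)
      ((realA_three_mul_four j).cast rfl (by simp)) A B hA hB hAmax hBmax
  · obtain ⟨j, rfl⟩ : ∃ j, n = 3 * j + 8 := ⟨(n - 8) / 3, by omega⟩
    exact main_case (j := j) (r := 2) (by omega) (by omega) (bounds_two j)
      ((realA_three_mul_eight j).cast (by ring) (by ring)) A B hA hB hAmax hBmax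

end Cfsg.Agent.S2506
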