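import Mathlib
import Cfsg.Statements.S2507
import Cfsg.Agent.Lib.PSL2Classes

set_option autoImplicit false
open Cfsg

namespace Cfsg.Agent.S2507

open Cfsg.Agent.Lib.SL2Core Cfsg.Agent.Lib.PSL2Classes

/-- Let F be a finite field with q = 2^f ≥ 4 elements. The conjugacy class sizes of PSL(2,F) are exactly 1, q(q − 1), q² − 1 and q(q + 1). -/
theorem result {F : Type*} [Field F] [Fintype F]
    (h2 : 2 ∣ Fintype.card F) (h4 : 4 ≤ Fintype.card F) :
    Set.range (fun g : (Matrix.ProjectiveSpecialLinearGroup (Fin 2) F) => (Subgroup.centralizer ({g} : Set (Matrix.ProjectiveSpecialLinearGroup (Fin 2) F))).index) =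
      {1, Fintype.card F * (Fintype.card F - 1), Fintype.card F ^ 2 - 1, Fintype.card F * (Fintype.card F + 1)} := by
  classical
  have h20 : (2 : F) = 0 := two_eq_zero_iff.2 h2
  have hq : 0 < Fintype.card F := by omega
  have h40 : (4 : F) = 0 := by linear_combination 2 * h20
  have hpar : ∀ A : SL2 F, A ∉ Subgroup.center (SL2 F) → tr A * tr A = 4 →
      (Subgroup.centralizer ({proj A} : Set (PSL2 F))).index = Fintype.card F ^ 2 - 1 := by
    intro A hA hτ
    have := index_parabolic A hA hτ
    rw [card_sqrt_one_even h20] at this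
    exact arith_even _ _ hq this
  ext v
  constructor
  · rintro ⟨g, rfl⟩
    obtain ⟨A, rfl⟩ := proj_surjective g
    show (Subgroup.centralizer ({proj A} : Set (PSL2 F))).index ∈ _
    simp only [Set.mem_insert_iff, Set.mem_singleton_iff]
    by_cases hc : A ∈ Subgroup.center (SL2 F)
    · left; exact index_of_center A hc
    by_cases hτ : tr A * tr A = 4
    · right; right; left; exact hpar A hc hτ
    by_cases hr : ∃ r : F, r * r - tr A * r + 1 = 0
    · obtain ⟨r, hr⟩ := hr
      right; right; right; exact index_split A hτ (Or.inr h20) r hr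
    · push Not at hr
      right; left; exact index_nonsplit A hτ (Or.inr h20) hr
  · simp only [Set.mem_insert_iff, Set.mem_singleton_iff]
    rintro (rfl | rfl | rfl | rfl)
    · exact ⟨proj 1, index_of_center 1 (Subgroup.one_mem _)⟩
    · obtain ⟨τ, hτ, hl⟩ := exists_nonsplit_even h20
      refine ⟨proj (Cfsg.Agent.Lib.SL2Core.comp τ), ?_⟩
      apply index_nonsplit _ (by rwa [tr_comp']) (Or.inr h20) (by rwa [tr_comp'])
    · refine ⟨proj (Cfsg.Agent.Lib.SL2Core.comp 0), ?_⟩
      apply hpar _ (comp_not_center _)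
      rw [tr_comp', mul_zero, h40]
    · obtain ⟨τ, hτ, r, hr⟩ := exists_split_even h20 h4
      refine ⟨proj (Cfsg.Agent.Lib.SL2Core.comp τ), ?_⟩
      apply index_split _ (by rwa [tr_comp']) (Or.inr h20) r (by rwa [tr_comp'])

end Cfsg.Agent.S2507
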