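import Mathlib
import Cfsg.Statements.S2508
import Cfsg.Agent.Lib.PSL2Classes

set_option autoImplicit false
open Cfsg

namespace Cfsg.Agent.S2508

open Cfsg.Agent.Lib.SL2Core Cfsg.Agent.Lib.PSL2Classes

/-- Let F be a finite field with q elements, q odd and q ≥ 7. If q ≡ 1 (mod 4) the conjugacy class sizes of PSL(2,F) are exactly 1, (q² − 1)/2, q(q + 1)/2, q(q − 1) and q(q + 1); if q ≡ 3 (mod 4) they are exactly 1, (q² − 1)/2, q(q − 1)/2, q(q + 1) and q(q − 1). -/
theorem result {F : Type*} [Field F] [Fintype F]
    (hodd : ¬ 2 ∣ Fintype.card F) (h7 : 7 ≤ Fintype.card F) :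
    (Fintype.card F % 4 = 1 →
      Set.range (fun g : (Matrix.ProjectiveSpecialLinearGroup (Fin 2) F) => (Subgroup.centralizer ({g} : Set (Matrix.ProjectiveSpecialLinearGroup (Fin 2) F))).index) =
        {1, (Fintype.card F ^ 2 - 1) / 2, Fintype.card F * (Fintype.card F + 1) / 2,
          Fintype.card F * (Fintype.card F - 1), Fintype.card F * (Fintype.card F + 1)}) ∧
    (Fintype.card F % 4 = 3 →
      Set.range (fun g : (Matrix.ProjectiveSpecialLinearGroup (Fin 2) F) => (Subgroup.centralizer ({g} : Set (Matrix.ProjectiveSpecialLinearGroup (Fin 2) F))).index) =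
        {1, (Fintype.card F ^ 2 - 1) / 2, Fintype.card F * (Fintype.card F - 1) / 2,
          Fintype.card F * (Fintype.card F + 1), Fintype.card F * (Fintype.card F - 1)}) := by
  classical
  have h20 : (2 : F) ≠ 0 := fun h => hodd (two_eq_zero_iff.1 h)
  have hq : 0 < Fintype.card F := by omega
  have hpar : ∀ A : SL2 F, A ∉ Subgroup.center (SL2 F) → tr A * tr A = 4 →
      (Subgroup.centralizer ({proj A} : Set (PSL2 F))).index = (Fintype.card F ^ 2 - 1) / 2 := by
    intro A hA hτ
    have := index_parabolic A hA hτ
    rw [card_sqrt_one_odd h20] at this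
    exact arith_odd _ _ hq this
  have hne : ∀ τ : F, τ ≠ 0 → τ ≠ -τ := by
    intro τ h0 h
    apply h0
    have : 2 * τ = 0 := by linear_combination h
    exact (mul_eq_zero.mp this).resolve_left h20
  have hz4 : (0 : F) * 0 ≠ 4 := by
    rw [mul_zero]
    intro h
    apply h20
    have h5 : (2 : F) * 2 = 0 := by linear_combination -h
    exact mul_self_eq_zero.mp h5
  -- the trichotomy for noncentral nonparabolic elements of nonzero trace
  have hgen : ∀ A : SL2 F, tr A ≠ 0 → tr A * tr A ≠ 4 →
      (Subgroup.centralizer ({proj A} : Set (PSL2 F))).index = Fintype.card F * (Fintype.card F + 1) ∨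
      (Subgroup.centralizer ({proj A} : Set (PSL2 F))).index = Fintype.card F * (Fintype.card F - 1) := by
    intro A h0 hτ
    by_cases hr : ∃ r : F, r * r - tr A * r + 1 = 0
    · obtain ⟨r, hr⟩ := hr
      left; exact index_split A hτ (Or.inl (hne _ h0)) r hr
    · push Not at hr
      right; exact index_nonsplit A hτ (Or.inl (hne _ h0)) hr
  have hsplit : ∃ g : PSL2 F, (Subgroup.centralizer ({g} : Set (PSL2 F))).index =
      Fintype.card F * (Fintype.card F + 1) := by
    obtain ⟨τ, h1, hτ, r, hr⟩ := exists_split_odd h20 h7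
    refine ⟨proj (Cfsg.Agent.Lib.SL2Core.comp τ), ?_⟩
    exact index_split _ (by rwa [tr_comp']) (Or.inl (by rwa [tr_comp'])) r (by rwa [tr_comp'])
  have hnonsplit : ∃ g : PSL2 F, (Subgroup.centralizer ({g} : Set (PSL2 F))).index =
      Fintype.card F * (Fintype.card F - 1) := by
    obtain ⟨τ, h1, hτ, hr⟩ := exists_nonsplit_odd h20 h7
    refine ⟨proj (Cfsg.Agent.Lib.SL2Core.comp τ), ?_⟩
    exact index_nonsplit _ (by rwa [tr_comp']) (Or.inl (by rwa [tr_comp'])) (by rwa [tr_comp'])
  have hpar' : ∃ g : PSL2 F, (Subgroup.centralizer ({g} : Set (PSL2 F))).index =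
      (Fintype.card F ^ 2 - 1) / 2 := by
    refine ⟨proj (Cfsg.Agent.Lib.SL2Core.comp 2), ?_⟩
    apply hpar _ (comp_not_center _)
    rw [tr_comp']
    norm_num
  have hone : ∃ g : PSL2 F, (Subgroup.centralizer ({g} : Set (PSL2 F))).index = 1 :=
    ⟨proj 1, index_of_center 1 (Subgroup.one_mem _)⟩
  have hbasic : ∀ A : SL2 F, tr A ≠ 0 →
      (Subgroup.centralizer ({proj A} : Set (PSL2 F))).index = 1 ∨
      (Subgroup.centralizer ({proj A} : Set (PSL2 F))).index = (Fintype.card F ^ 2 - 1) / 2 ∨
      (Subgroup.centralizer ({proj A} : Set (PSL2 F))).index = Fintype.card F * (Fintype.card F + 1) ∨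
      (Subgroup.centralizer ({proj A} : Set (PSL2 F))).index = Fintype.card F * (Fintype.card F - 1) := by
    intro A h0
    by_cases hc : A ∈ Subgroup.center (SL2 F)
    · left; exact index_of_center A hc
    by_cases hτ : tr A * tr A = 4
    · right; left; exact hpar A hc hτ
    · right; right; exact hgen A h0 hτ
  have hzero : ∀ A : SL2 F, tr A = 0 → A ∉ Subgroup.center (SL2 F) := by
    intro A hA hc
    have := central_tr A hc
    rw [hA] at this
    exact hz4 this
  refine ⟨fun hmod => ?_, fun hmod => ?_⟩
  · obtain ⟨i, hi⟩ : IsSquare (-1 : F) := FiniteField.isSquare_neg_one_iff.2 (by omega)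
    have hi' : i * i = -1 := hi.symm
    have hz : ∀ A : SL2 F, tr A = 0 →
        (Subgroup.centralizer ({proj A} : Set (PSL2 F))).index =
          Fintype.card F * (Fintype.card F + 1) / 2 := by
      intro A hA
      have := two_index_zero_split A hA h20 i hi'
      omega
    ext v
    simp only [Set.mem_range, Set.mem_insert_iff, Set.mem_singleton_iff]
    constructor
    · rintro ⟨g, rfl⟩
      obtain ⟨A, rfl⟩ := proj_surjective g
      by_cases h0 : tr A = 0
      · right; right; left; exact hz A h0
      · rcases hbasic A h0 with h | h | h | h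
        · left; exact h
        · right; left; exact h
        · right; right; right; right; exact h
        · right; right; right; left; exact h
    · rintro (rfl | rfl | rfl | rfl | rfl)
      · exact hone
      · exact hpar'
      · exact ⟨proj (Cfsg.Agent.Lib.SL2Core.comp 0), hz _ (tr_comp' _)⟩
      · exact hnonsplit
      · exact hsplit
  · have hns : ∀ r : F, r * r ≠ -1 := by
      intro r hr
      have : IsSquare (-1 : F) := ⟨r, hr.symm⟩
      exact (FiniteField.isSquare_neg_one_iff.1 this) hmod
    have hz : ∀ A : SL2 F, tr A = 0 →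
        (Subgroup.centralizer ({proj A} : Set (PSL2 F))).index =
          Fintype.card F * (Fintype.card F - 1) / 2 := by
      intro A hA
      have := two_index_zero_nonsplit A hA h20 hns
      omega
    ext v
    simp only [Set.mem_range, Set.mem_insert_iff, Set.mem_singleton_iff]
    constructor
    · rintro ⟨g, rfl⟩
      obtain ⟨A, rfl⟩ := proj_surjective g
      by_cases h0 : tr A = 0
      · right; right; left; exact hz A h0
      · rcases hbasic A h0 with h | h | h | h
        · left; exact h
        · right; left; exact h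
        · right; right; right; left; exact h
        · right; right; right; right; exact h
    · rintro (rfl | rfl | rfl | rfl | rfl)
      · exact hone
      · exact hpar'
      · exact ⟨proj (Cfsg.Agent.Lib.SL2Core.comp 0), hz _ (tr_comp' _)⟩
      · exact hsplit
      · exact hnonsplit

end Cfsg.Agent.S2508
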