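import Mathlib
import Cfsg.Statements.S2510
import Cfsg.Agent.Lib.SLSpec

set_option autoImplicit false
open Cfsg

namespace Cfsg.Agent.S2510

open Cfsg.Agent.Lib.SLSpec

lemma prime_pow_dvd_lcm {p k a b : ℕ} (hp : p.Prime) (ha : a ≠ 0) (hb : b ≠ 0) (h : p ^ k ∣ Nat.lcm a b) :
    p ^ k ∣ a ∨ p ^ k ∣ b := by
  have hl : Nat.lcm a b ≠ 0 := Nat.lcm_ne_zero ha hb
  rw [hp.pow_dvd_iff_le_factorization hl, Nat.factorization_lcm ha hb] at h
  simp only [Finsupp.sup_apply] at h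
  rcases le_sup_iff.1 h with h | h
  · left; exact (hp.pow_dvd_iff_le_factorization ha).2 h
  · right; exact (hp.pow_dvd_iff_le_factorization hb).2 h

lemma lcm_left_comm' (a b c : ℕ) : Nat.lcm a (Nat.lcm b c) = Nat.lcm b (Nat.lcm a c) := by
  rw [← Nat.lcm_assoc, Nat.lcm_comm a b, Nat.lcm_assoc]

lemma lcm_mul_prime {r a b : ℕ} (hr : r.Prime) (ha : ¬ r ∣ a) (hb : ¬ r ∣ b) :
    Nat.lcm (a * r) b = Nat.lcm a b * r := by
  have h1 : Nat.Coprime r (Nat.lcm a b) := by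
    rw [Nat.Prime.coprime_iff_not_dvd hr]
    intro h
    rcases (Nat.Prime.dvd_lcm hr).1 h with h | h
    · exact ha h
    · exact hb h
  have h2 : Nat.lcm (a * r) b = Nat.lcm (Nat.lcm a b) r := by
    have h3 : a * r = Nat.lcm a r := by
      rw [Nat.Coprime.lcm_eq_mul]
      exact ((Nat.Prime.coprime_iff_not_dvd hr).2 ha).symm
    rw [h3, Nat.lcm_assoc, Nat.lcm_comm r b, ← Nat.lcm_assoc]
  rw [h2, Nat.Coprime.lcm_eq_mul h1.symm]

section

variable {F : Type*} [Field F] [Fintype F] {n : ℕ}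

local notation "L" => Matrix.ProjectiveSpecialLinearGroup (Fin n) F

lemma finite_L : Finite (Matrix.ProjectiveSpecialLinearGroup (Fin n) F) := by
  classical
  exact Finite.of_surjective _ (proj_surjective (F := F) (n := n))

lemma exists_order_of_dvd {G : Type*} [Group G] [Finite G] (x : G) (M : ℕ) (h : M ∣ orderOf x) :
    ∃ y : G, orderOf y = M := by
  have h0 : orderOf x ≠ 0 := (orderOf_pos x).ne'
  obtain ⟨t, ht⟩ := h
  have ht0 : 0 < t := by
    rcases Nat.eq_zero_or_pos t with h | h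
    · subst h; rw [mul_zero] at ht; exact absurd ht h0
    · exact h
  refine ⟨x ^ t, ?_⟩
  rw [orderOf_pow_of_dvd ht0.ne' (by rw [ht]; exact Dvd.intro_left _ rfl), ht]
  exact Nat.mul_div_cancel _ ht0

/-- Orders dividing the Singer order. -/
lemma exists_order_dvd (p : ℕ) [Fact p.Prime] [CharP F p] (hn : 1 ≤ n) (M : ℕ)
    (h : M ∣ singerOm (Fintype.card F) n) : ∃ y : Matrix.ProjectiveSpecialLinearGroup (Fin n) F, orderOf y = M := by
  haveI := finite_L (F := F) (n := n)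
  obtain ⟨y, hy⟩ := exists_singer (F := F) p hn
  rw [← hy] at h
  exact exists_order_of_dvd y M h

lemma split_order (p M C Om : ℕ) (hp : p.Prime) (hM : M ≠ 0) (h : M ∣ p ^ C * Om) :
    ∃ k M', M = p ^ k * M' ∧ ¬ p ∣ M' ∧ M' ∣ Om := by
  obtain ⟨k, M', h1, h2⟩ := Nat.exists_eq_pow_mul_and_not_dvd hM p hp.ne_one
  refine ⟨k, M', h2, h1, ?_⟩
  have h3 : M' ∣ p ^ C * Om := (Dvd.intro_left _ h2.symm).trans h
  have h4 : Nat.Coprime M' (p ^ C) := by
    apply Nat.Coprime.pow_right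
    exact ((Nat.Prime.coprime_iff_not_dvd hp).2 h1).symm
  exact h4.dvd_of_dvd_mul_left h3

/-- The case when all the elements lie in a Singer-type situation. -/
lemma case_three (p : ℕ) [Fact p.Prime] [CharP F p] (hn : 2 ≤ n) (r : ℕ) (hr : r.Prime)
    (hrq : r ∣ Fintype.card F - 1) (hrn : ¬ r ∣ n) (hrp : r ≠ p) (M₀ C : ℕ) (hM₀ : M₀ ≠ 0)
    (hrM : ¬ r ∣ M₀) (hd : M₀ ∣ p ^ C * singerOm (Fintype.card F) n)
    (hP : ∀ k, p ^ k ∣ M₀ → ∃ u : Matrix.ProjectiveSpecialLinearGroup (Fin n) F, orderOf u = p ^ k) :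
    ∃ y₁ y₂ y₃ : Matrix.ProjectiveSpecialLinearGroup (Fin n) F,
      Nat.lcm (orderOf y₁) (Nat.lcm (orderOf y₂) (orderOf y₃)) = M₀ * r := by
  have hp : p.Prime := Fact.out
  obtain ⟨k, M', h1, h2, h3⟩ := split_order p M₀ C _ hp hM₀ hd
  obtain ⟨y₁, hy₁⟩ := hP k (Dvd.intro _ h1.symm)
  obtain ⟨y₂, hy₂⟩ := exists_order_dvd (F := F) p (by omega) M' h3
  obtain ⟨y₃, hy₃⟩ := exists_order_r (F := F) hn r hr hrq hrn
  refine ⟨y₁, y₂, y₃, ?_⟩
  rw [hy₁, hy₂, hy₃]
  have hrM' : ¬ r ∣ M' := fun h => hrM (h1 ▸ Dvd.dvd.mul_left h _)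
  have hc1 : Nat.Coprime M' r := ((Nat.Prime.coprime_iff_not_dvd hr).2 hrM').symm
  have hc2 : Nat.Coprime (p ^ k) (M' * r) := by
    apply Nat.Coprime.pow_left
    rw [Nat.Prime.coprime_iff_not_dvd hp]
    intro h
    rcases (Nat.Prime.dvd_mul hp).1 h with h | h
    · exact h2 h
    · exact hrp ((Nat.prime_dvd_prime_iff_eq hp hr).1 h).symm
  rw [hc1.lcm_eq_mul, hc2.lcm_eq_mul, h1, mul_assoc]

lemma case_two (p : ℕ) [Fact p.Prime] [CharP F p] (hn : 2 ≤ n) (r : ℕ) (hr : r.Prime)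
    (hrq : r ∣ Fintype.card F - 1) (hrn : ¬ r ∣ n) (hrp : r ≠ p) (M₀ C : ℕ) (hM₀ : M₀ ≠ 0)
    (hrM : ¬ r ∣ M₀) (hd : M₀ ∣ p ^ C * singerOm (Fintype.card F) n)
    (hP : ∀ k, p ^ k ∣ M₀ → ∃ u : Matrix.ProjectiveSpecialLinearGroup (Fin n) F, orderOf u = p ^ k)
    (hnp : ¬ ∃ j : ℕ, n - 1 = p ^ j) :
    ∃ y₁ y₂ : Matrix.ProjectiveSpecialLinearGroup (Fin n) F,
      Nat.lcm (orderOf y₁) (orderOf y₂) = M₀ * r := by
  have hp : p.Prime := Fact.out
  obtain ⟨k, M', h1, h2, h3⟩ := split_order p M₀ C _ hp hM₀ hd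
  obtain ⟨y₂, hy₂⟩ := exists_order_dvd (F := F) p (by omega) M' h3
  have hrM' : ¬ r ∣ M' := fun h => hrM (h1 ▸ Dvd.dvd.mul_left h _)
  have hy₁ : ∃ y₁ : Matrix.ProjectiveSpecialLinearGroup (Fin n) F, orderOf y₁ = p ^ k * r := by
    rcases Nat.eq_zero_or_pos k with hk | hk
    · subst hk
      rw [pow_zero, one_mul]
      exact exists_order_r (F := F) hn r hr hrq hrn
    · obtain ⟨c, rfl⟩ : ∃ c, k = c + 1 := ⟨k - 1, by omega⟩
      obtain ⟨u, hu⟩ := hP (c + 1) (Dvd.intro _ h1.symm)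
      have hlt := pow_lt_of_order (F := F) p (by omega) c u hu
      apply exists_order_pow_mul_r p r hr hrq hrn hrp c
      have hne : p ^ c + 1 ≠ n := by
        intro h
        exact hnp ⟨c, by omega⟩
      omega
  obtain ⟨y₁, hy₁⟩ := hy₁
  refine ⟨y₁, y₂, ?_⟩
  rw [hy₁, hy₂]
  have hc : Nat.Coprime (p ^ k * r) M' := by
    apply Nat.Coprime.mul_left
    · apply Nat.Coprime.pow_left
      exact (Nat.Prime.coprime_iff_not_dvd hp).2 h2
    · exact (Nat.Prime.coprime_iff_not_dvd hr).2 hrM'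
  rw [hc.lcm_eq_mul, h1]
  ring

lemma torsion_order (r m : ℕ) (hr : r.Prime) (t : Multiplicative (Fin m → ZMod r)) :
    orderOf t = 1 ∨ orderOf t = r := by
  have h1 : t ^ r = 1 := by
    apply Multiplicative.toAdd.injective
    ext i
    simp
  exact (Nat.dvd_prime hr).1 (orderOf_dvd_of_pow_eq_one h1)

end

section

variable {F : Type*} [Field F] [Fintype F]

theorem main {F : Type*} [Field F] [Fintype F] (p a n r m : ℕ) (hp : p.Prime) (ha : 1 ≤ a) (hF : Fintype.card F = p ^ a)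
    (hn : 2 ≤ n) (hr : r.Prime) (hrq : r ∣ Fintype.card F - 1) (hrn : ¬ r ∣ n) :
    Set.range (orderOf : Matrix.ProjectiveSpecialLinearGroup (Fin n) F × Matrix.ProjectiveSpecialLinearGroup (Fin n) F × Matrix.ProjectiveSpecialLinearGroup (Fin n) F × Multiplicative (Fin m → ZMod r) → ℕ) =
      Set.range (orderOf : Matrix.ProjectiveSpecialLinearGroup (Fin n) F × Matrix.ProjectiveSpecialLinearGroup (Fin n) F × Matrix.ProjectiveSpecialLinearGroup (Fin n) F → ℕ) ∧
    ((¬ ∃ j : ℕ, n - 1 = p ^ j) →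
      Set.range (orderOf : Matrix.ProjectiveSpecialLinearGroup (Fin n) F × Matrix.ProjectiveSpecialLinearGroup (Fin n) F × Multiplicative (Fin m → ZMod r) → ℕ) =
        Set.range (orderOf : Matrix.ProjectiveSpecialLinearGroup (Fin n) F × Matrix.ProjectiveSpecialLinearGroup (Fin n) F → ℕ)) := by
  classical
  haveI : Fact p.Prime := ⟨hp⟩
  haveI : Finite (Matrix.ProjectiveSpecialLinearGroup (Fin n) F) := finite_L
  haveI : CharP F p := by
    obtain ⟨p', hp'⟩ := CharP.exists F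
    haveI := hp'
    obtain ⟨k, hk1, hk2⟩ := FiniteField.card F p'
    have h1 : p ∣ p' ^ (k : ℕ) := by
      rw [← hk2, hF]
      exact dvd_pow_self _ (by omega)
    have h2 := (Nat.prime_dvd_prime_iff_eq hp hk1).1 (hp.dvd_of_dvd_pow h1)
    rw [h2]
    exact hp'
  have hq2 : 2 ≤ Fintype.card F := Fintype.one_lt_card
  have hrp : r ≠ p := by
    rintro rfl
    have h1 : r ∣ Fintype.card F := by
      rw [hF]; exact dvd_pow_self _ (by omega)
    have h2 : r ∣ Fintype.card F - (Fintype.card F - 1) := Nat.dvd_sub h1 hrq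
    have h3 : Fintype.card F - (Fintype.card F - 1) = 1 := by omega
    rw [h3] at h2
    exact hr.one_lt.ne' (Nat.dvd_one.1 h2)
  have hne : ∀ x : Matrix.ProjectiveSpecialLinearGroup (Fin n) F, orderOf x ≠ 0 := fun x => (orderOf_pos x).ne'
  constructor
  · apply Set.Subset.antisymm
    · rintro _ ⟨⟨x₁, x₂, x₃, t⟩, rfl⟩
      simp only [Prod.orderOf]
      rcases torsion_order r m hr t with ht | ht
      · rw [ht]
        exact ⟨(x₁, x₂, x₃), by simp [Prod.orderOf]⟩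
      rw [ht]
      have hlcm : Nat.lcm (orderOf x₁) (Nat.lcm (orderOf x₂) (Nat.lcm (orderOf x₃) r)) =
          Nat.lcm (Nat.lcm (orderOf x₁) (Nat.lcm (orderOf x₂) (orderOf x₃))) r := by
        simp only [Nat.lcm_assoc]
      rw [hlcm]
      set M₀ := Nat.lcm (orderOf x₁) (Nat.lcm (orderOf x₂) (orderOf x₃)) with hM₀
      by_cases hrM : r ∣ M₀
      · rw [Nat.lcm_eq_left hrM]
        exact ⟨(x₁, x₂, x₃), by simp [Prod.orderOf, hM₀]⟩
      have hcop : Nat.Coprime M₀ r := ((Nat.Prime.coprime_iff_not_dvd hr).2 hrM).symm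
      rw [hcop.lcm_eq_mul]
      have hr₁ : ¬ r ∣ orderOf x₁ := fun h => hrM (h.trans (Nat.dvd_lcm_left _ _))
      have hr₂₃ : ¬ r ∣ Nat.lcm (orderOf x₂) (orderOf x₃) := fun h => hrM (h.trans (Nat.dvd_lcm_right _ _))
      have hr₂ : ¬ r ∣ orderOf x₂ := fun h => hr₂₃ (h.trans (Nat.dvd_lcm_left _ _))
      have hr₃ : ¬ r ∣ orderOf x₃ := fun h => hr₂₃ (h.trans (Nat.dvd_lcm_right _ _))
      rcases dichotomy p hn r hr hrq hrn x₁ hr₁ with ⟨y, hy⟩ | ⟨c₁, hc₁⟩
      · refine ⟨(y, x₂, x₃), ?_⟩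
        simp only [Prod.orderOf]
        rw [hy, lcm_mul_prime hr hr₁ hr₂₃]
      rcases dichotomy p hn r hr hrq hrn x₂ hr₂ with ⟨y, hy⟩ | ⟨c₂, hc₂⟩
      · refine ⟨(y, x₁, x₃), ?_⟩
        simp only [Prod.orderOf]
        have hr₁₃ : ¬ r ∣ Nat.lcm (orderOf x₁) (orderOf x₃) := by
          intro h
          rcases (Nat.Prime.dvd_lcm hr).1 h with h | h
          · exact hr₁ h
          · exact hr₃ h
        rw [hy, lcm_mul_prime hr hr₂ hr₁₃, hM₀, lcm_left_comm']
      rcases dichotomy p hn r hr hrq hrn x₃ hr₃ with ⟨y, hy⟩ | ⟨c₃, hc₃⟩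
      · refine ⟨(y, x₁, x₂), ?_⟩
        simp only [Prod.orderOf]
        have hr₁₂ : ¬ r ∣ Nat.lcm (orderOf x₁) (orderOf x₂) := by
          intro h
          rcases (Nat.Prime.dvd_lcm hr).1 h with h | h
          · exact hr₁ h
          · exact hr₂ h
        rw [hy, lcm_mul_prime hr hr₃ hr₁₂, hM₀, Nat.lcm_comm (orderOf x₂) (orderOf x₃),
          lcm_left_comm' (orderOf x₁) (orderOf x₃)]
      have hd : M₀ ∣ p ^ (c₁ + c₂ + c₃) * singerOm (Fintype.card F) n := by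
        apply Nat.lcm_dvd
        · apply hc₁.trans
          apply Nat.mul_dvd_mul_right
          apply pow_dvd_pow; omega
        · apply Nat.lcm_dvd
          · apply hc₂.trans
            apply Nat.mul_dvd_mul_right
            apply pow_dvd_pow; omega
          · apply hc₃.trans
            apply Nat.mul_dvd_mul_right
            apply pow_dvd_pow; omega
      have hP : ∀ k, p ^ k ∣ M₀ → ∃ u : Matrix.ProjectiveSpecialLinearGroup (Fin n) F, orderOf u = p ^ k := by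
        intro k hk
        rcases prime_pow_dvd_lcm hp (hne x₁) (Nat.lcm_ne_zero (hne x₂) (hne x₃)) hk with h | h
        · exact exists_order_of_dvd x₁ _ h
        rcases prime_pow_dvd_lcm hp (hne x₂) (hne x₃) h with h | h
        · exact exists_order_of_dvd x₂ _ h
        · exact exists_order_of_dvd x₃ _ h
      have hM0 : M₀ ≠ 0 := Nat.lcm_ne_zero (hne x₁) (Nat.lcm_ne_zero (hne x₂) (hne x₃))
      obtain ⟨y₁, y₂, y₃, hy⟩ := case_three p hn r hr hrq hrn hrp M₀ _ hM0 hrM hd hP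
      exact ⟨(y₁, y₂, y₃), by simpa only [Prod.orderOf] using hy⟩
    · rintro _ ⟨⟨x₁, x₂, x₃⟩, rfl⟩
      exact ⟨(x₁, x₂, x₃, 1), by simp [Prod.orderOf]⟩
  · intro hnp
    apply Set.Subset.antisymm
    · rintro _ ⟨⟨x₁, x₂, t⟩, rfl⟩
      simp only [Prod.orderOf]
      rcases torsion_order r m hr t with ht | ht
      · rw [ht]
        exact ⟨(x₁, x₂), by simp [Prod.orderOf]⟩
      rw [ht]
      have hlcm : Nat.lcm (orderOf x₁) (Nat.lcm (orderOf x₂) r) =
          Nat.lcm (Nat.lcm (orderOf x₁) (orderOf x₂)) r := by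
        simp only [Nat.lcm_assoc]
      rw [hlcm]
      set M₀ := Nat.lcm (orderOf x₁) (orderOf x₂) with hM₀
      by_cases hrM : r ∣ M₀
      · rw [Nat.lcm_eq_left hrM]
        exact ⟨(x₁, x₂), by simp [Prod.orderOf, hM₀]⟩
      have hcop : Nat.Coprime M₀ r := ((Nat.Prime.coprime_iff_not_dvd hr).2 hrM).symm
      rw [hcop.lcm_eq_mul]
      have hr₁ : ¬ r ∣ orderOf x₁ := fun h => hrM (h.trans (Nat.dvd_lcm_left _ _))
      have hr₂ : ¬ r ∣ orderOf x₂ := fun h => hrM (h.trans (Nat.dvd_lcm_right _ _))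
      rcases dichotomy p hn r hr hrq hrn x₁ hr₁ with ⟨y, hy⟩ | ⟨c₁, hc₁⟩
      · refine ⟨(y, x₂), ?_⟩
        simp only [Prod.orderOf]
        rw [hy, lcm_mul_prime hr hr₁ hr₂]
      rcases dichotomy p hn r hr hrq hrn x₂ hr₂ with ⟨y, hy⟩ | ⟨c₂, hc₂⟩
      · refine ⟨(y, x₁), ?_⟩
        simp only [Prod.orderOf]
        rw [hy, lcm_mul_prime hr hr₂ hr₁, hM₀, Nat.lcm_comm]
      have hd : M₀ ∣ p ^ (c₁ + c₂) * singerOm (Fintype.card F) n := by
        apply Nat.lcm_dvd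
        · apply hc₁.trans
          apply Nat.mul_dvd_mul_right
          apply pow_dvd_pow; omega
        · apply hc₂.trans
          apply Nat.mul_dvd_mul_right
          apply pow_dvd_pow; omega
      have hP : ∀ k, p ^ k ∣ M₀ → ∃ u : Matrix.ProjectiveSpecialLinearGroup (Fin n) F, orderOf u = p ^ k := by
        intro k hk
        rcases prime_pow_dvd_lcm hp (hne x₁) (hne x₂) hk with h | h
        · exact exists_order_of_dvd x₁ _ h
        · exact exists_order_of_dvd x₂ _ h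
      have hM0 : M₀ ≠ 0 := Nat.lcm_ne_zero (hne x₁) (hne x₂)
      obtain ⟨y₁, y₂, hy⟩ := case_two p hn r hr hrq hrn hrp M₀ _ hM0 hrM hd hP hnp
      exact ⟨(y₁, y₂), by simpa only [Prod.orderOf] using hy⟩
    · rintro _ ⟨⟨x₁, x₂⟩, rfl⟩
      exact ⟨(x₁, x₂, 1), by simp [Prod.orderOf]⟩

/-- Let F be a finite field with q = p^a elements, n ≥ 2 (with q ≥ 4 when n = 2), L = PSL(n, F), and let r be a prime dividing q − 1 and not dividing n. Then for every m the direct product L × L × L × (ℤ/r)^m has the same set of element orders as L × L × L; and if n − 1 ≠ p^j for every j ≥ 0 (so never when n = 2, since 1 = p^0), then already L × L × (ℤ/r)^m has the same set of element orders as L × L. -/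
theorem result {F : Type*} [Field F] [Fintype F] (p a n r m : ℕ) (hp : p.Prime) (ha : 1 ≤ a) (hF : Fintype.card F = p ^ a)
    (hn : 2 ≤ n) (hn2 : n = 2 → 4 ≤ Fintype.card F) (hr : r.Prime) (hrq : r ∣ Fintype.card F - 1) (hrn : ¬ r ∣ n) :
    Set.range (orderOf : Matrix.ProjectiveSpecialLinearGroup (Fin n) F × Matrix.ProjectiveSpecialLinearGroup (Fin n) F × Matrix.ProjectiveSpecialLinearGroup (Fin n) F × Multiplicative (Fin m → ZMod r) → ℕ) =
      Set.range (orderOf : Matrix.ProjectiveSpecialLinearGroup (Fin n) F × Matrix.ProjectiveSpecialLinearGroup (Fin n) F × Matrix.ProjectiveSpecialLinearGroup (Fin n) F → ℕ) ∧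
    ((¬ ∃ j : ℕ, n - 1 = p ^ j) →
      Set.range (orderOf : Matrix.ProjectiveSpecialLinearGroup (Fin n) F × Matrix.ProjectiveSpecialLinearGroup (Fin n) F × Multiplicative (Fin m → ZMod r) → ℕ) =
        Set.range (orderOf : Matrix.ProjectiveSpecialLinearGroup (Fin n) F × Matrix.ProjectiveSpecialLinearGroup (Fin n) F → ℕ)) :=
  main p a n r m hp ha hF hn hr hrq hrn

end

end Cfsg.Agent.S2510
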