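import Mathlib
import Cfsg.Statements.S2511
import Cfsg.Agent.Lib.SUSpecMain

set_option autoImplicit false
open Cfsg

namespace Cfsg.Agent.S2511

open Cfsg.Agent.Lib.SUSpec

section arith

/-- What is needed of a set of element orders. -/
structure SpecData (Ω : Set ℕ) (p N r : ℕ) : Prop where
  dvd : ∀ a ∈ Ω, ∀ d, d ∣ a → d ∈ Ω
  rmem : r ∈ Ω
  ss : ∀ a ∈ Ω, ¬ r ∣ a → Nat.Coprime a p → r * a ∈ Ω ∨ a ∣ N
  tor : ∀ c, c ∣ N → c ∈ Ω

lemma lcm_reduce {p a b b' β : ℕ} (hb : b = p ^ β * b') (hcop : Nat.Coprime p b') (h : p ^ β ∣ a) :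
    Nat.lcm a b = Nat.lcm a b' := by
  apply Nat.dvd_antisymm
  · apply Nat.lcm_dvd (Nat.dvd_lcm_left _ _)
    rw [hb]
    apply Nat.Coprime.mul_dvd_of_dvd_of_dvd (Nat.Coprime.pow_left β hcop)
    · exact h.trans (Nat.dvd_lcm_left _ _)
    · exact Nat.dvd_lcm_right _ _
  · apply Nat.lcm_dvd (Nat.dvd_lcm_left _ _)
    exact (Dvd.intro_left _ hb.symm).trans (Nat.dvd_lcm_right _ _)

lemma lcm_left_comm' (a b c : ℕ) : Nat.lcm a (Nat.lcm b c) = Nat.lcm b (Nat.lcm a c) := by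
  rw [← Nat.lcm_assoc, Nat.lcm_comm a b, Nat.lcm_assoc]

lemma not_dvd_lcm {r a b : ℕ} (hr : r.Prime) (ha : ¬ r ∣ a) (hb : ¬ r ∣ b) : ¬ r ∣ Nat.lcm a b := by
  intro h
  rcases (hr.dvd_mul).mp (h.trans (Nat.lcm_dvd_mul a b)) with h1 | h1
  · exact ha h1
  · exact hb h1

lemma lcm_r_mul {r : ℕ} (hr : r.Prime) (b : ℕ) {c : ℕ} (hc : ¬ r ∣ c) : Nat.lcm (r * b) c = r * Nat.lcm b c := by
  have hcop : Nat.Coprime r c := (Nat.Prime.coprime_iff_not_dvd hr).mpr hc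
  have h1 : Nat.gcd (r * b) c = Nat.gcd b c := Nat.Coprime.gcd_mul_left_cancel b hcop
  have hc0 : c ≠ 0 := by
    rintro rfl
    exact hc (dvd_zero _)
  have hg : 0 < Nat.gcd b c := Nat.gcd_pos_of_pos_right _ (Nat.pos_of_ne_zero hc0)
  apply Nat.eq_of_mul_eq_mul_left hg
  calc Nat.gcd b c * Nat.lcm (r * b) c = Nat.gcd (r * b) c * Nat.lcm (r * b) c := by rw [h1]
    _ = r * b * c := Nat.gcd_mul_lcm _ _
    _ = r * (Nat.gcd b c * Nat.lcm b c) := by rw [Nat.gcd_mul_lcm]; ring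
    _ = Nat.gcd b c * (r * Nat.lcm b c) := by ring

lemma lcm_r_mul_right {r : ℕ} (hr : r.Prime) (a b : ℕ) (ha : ¬ r ∣ a) : Nat.lcm a (r * b) = r * Nat.lcm a b := by
  rw [Nat.lcm_comm, lcm_r_mul hr b ha, Nat.lcm_comm]

lemma three_aux {Ω : Set ℕ} {p N r : ℕ} (hp : p.Prime) (hr : r.Prime) (D : SpecData Ω p N r) {a b c β γ b' c' : ℕ}
    (ha : a ∈ Ω) (hb : b ∈ Ω) (hc : c ∈ Ω) (hao : ¬ r ∣ a) (hbo : ¬ r ∣ b) (hco : ¬ r ∣ c)
    (hb' : b = p ^ β * b') (hc' : c = p ^ γ * c') (hbp : ¬ p ∣ b') (hcp : ¬ p ∣ c')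
    (h1 : p ^ β ∣ a) (h2 : p ^ γ ∣ a) :
    ∃ x ∈ Ω, ∃ y ∈ Ω, ∃ z ∈ Ω, Nat.lcm x (Nat.lcm y z) = r * Nat.lcm a (Nat.lcm b c) := by
  have hcb : Nat.Coprime p b' := (Nat.Prime.coprime_iff_not_dvd hp).mpr hbp
  have hcc : Nat.Coprime p c' := (Nat.Prime.coprime_iff_not_dvd hp).mpr hcp
  have e1 : Nat.lcm a (Nat.lcm b c) = Nat.lcm a (Nat.lcm b' c') := by
    rw [← Nat.lcm_assoc, lcm_reduce hb' hcb h1, Nat.lcm_comm a b', Nat.lcm_assoc, lcm_reduce hc' hcc h2,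
      ← Nat.lcm_assoc, Nat.lcm_comm b' a, Nat.lcm_assoc]
  have hb'd : b' ∣ b := Dvd.intro_left _ hb'.symm
  have hc'd : c' ∣ c := Dvd.intro_left _ hc'.symm
  have hb'o : ¬ r ∣ b' := fun h => hbo (h.trans hb'd)
  have hc'o : ¬ r ∣ c' := fun h => hco (h.trans hc'd)
  have hb'Ω : b' ∈ Ω := D.dvd b hb b' hb'd
  have hc'Ω : c' ∈ Ω := D.dvd c hc c' hc'd
  rw [e1]
  rcases D.ss b' hb'Ω hb'o hcb.symm with h3 | h3
  · refine ⟨a, ha, r * b', h3, c', hc'Ω, ?_⟩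
    rw [lcm_r_mul hr _ hc'o, lcm_r_mul_right hr _ _ hao]
  · rcases D.ss c' hc'Ω hc'o hcc.symm with h4 | h4
    · refine ⟨a, ha, b', hb'Ω, r * c', h4, ?_⟩
      rw [lcm_r_mul_right hr _ _ hb'o, lcm_r_mul_right hr _ _ hao]
    · have h5 : ¬ r ∣ Nat.lcm b' c' := not_dvd_lcm hr hb'o hc'o
      refine ⟨a, ha, Nat.lcm b' c', D.tor _ (Nat.lcm_dvd h3 h4), r, D.rmem, ?_⟩
      have h6 : r = r * 1 := by simp
      rw [h6, lcm_r_mul_right hr _ _ h5, lcm_r_mul_right hr _ _ hao]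
      simp

lemma three_main {Ω : Set ℕ} {p N r : ℕ} (hp : p.Prime) (hr : r.Prime) (D : SpecData Ω p N r) {a b c : ℕ}
    (ha : a ∈ Ω) (hb : b ∈ Ω) (hc : c ∈ Ω) (hao : ¬ r ∣ a) (hbo : ¬ r ∣ b) (hco : ¬ r ∣ c) :
    ∃ x ∈ Ω, ∃ y ∈ Ω, ∃ z ∈ Ω, Nat.lcm x (Nat.lcm y z) = r * Nat.lcm a (Nat.lcm b c) := by
  have ha0 : a ≠ 0 := by rintro rfl; exact hao (dvd_zero _)
  have hb0 : b ≠ 0 := by rintro rfl; exact hbo (dvd_zero _)
  have hc0 : c ≠ 0 := by rintro rfl; exact hco (dvd_zero _)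
  obtain ⟨α, a', hap, ha'⟩ := Nat.exists_eq_pow_mul_and_not_dvd ha0 p hp.ne_one
  obtain ⟨β, b', hbp, hb'⟩ := Nat.exists_eq_pow_mul_and_not_dvd hb0 p hp.ne_one
  obtain ⟨γ, c', hcp, hc'⟩ := Nat.exists_eq_pow_mul_and_not_dvd hc0 p hp.ne_one
  have hdvd : ∀ {s t u : ℕ} {u' : ℕ}, s ≤ t → u = p ^ t * u' → p ^ s ∣ u := by
    intro s t u u' hst hu
    rw [hu]
    exact (pow_dvd_pow p hst).trans (Nat.dvd_mul_right _ _)
  rcases le_total β α with h1 | h1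
  · rcases le_total γ α with h2 | h2
    · exact three_aux hp hr D ha hb hc hao hbo hco hb' hc' hbp hcp (hdvd h1 ha') (hdvd h2 ha')
    · obtain ⟨x, hx, y, hy, z, hz, h⟩ := three_aux hp hr D hc ha hb hco hao hbo ha' hb' hap hbp
        (hdvd h2 hc') (hdvd (h1.trans h2) hc')
      refine ⟨x, hx, y, hy, z, hz, ?_⟩
      rw [h, lcm_left_comm' c a b, Nat.lcm_comm c b]
  · rcases le_total γ β with h2 | h2
    · obtain ⟨x, hx, y, hy, z, hz, h⟩ := three_aux hp hr D hb ha hc hbo hao hco ha' hc' hap hcp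
        (hdvd h1 hb') (hdvd h2 hb')
      refine ⟨x, hx, y, hy, z, hz, ?_⟩
      rw [h, lcm_left_comm' b a c]
    · obtain ⟨x, hx, y, hy, z, hz, h⟩ := three_aux hp hr D hc ha hb hco hao hbo ha' hb' hap hbp
        (hdvd (h1.trans h2) hc') (hdvd h2 hc')
      refine ⟨x, hx, y, hy, z, hz, ?_⟩
      rw [h, lcm_left_comm' c a b, Nat.lcm_comm c b]

lemma two_aux {Ω : Set ℕ} {p N r : ℕ} (hp : p.Prime) (hr : r.Prime) (D : SpecData Ω p N r)
    (D2 : ∀ a' α : ℕ, p ^ α * a' ∈ Ω → ¬ r ∣ p ^ α * a' → ¬ p ∣ a' → 1 ≤ α → r * (p ^ α * a') ∈ Ω) {a b α β a' b' : ℕ}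
    (ha : a ∈ Ω) (hb : b ∈ Ω) (hao : ¬ r ∣ a) (hbo : ¬ r ∣ b)
    (ha' : a = p ^ α * a') (hb' : b = p ^ β * b') (hap : ¬ p ∣ a') (hbp : ¬ p ∣ b') (h1 : β ≤ α) :
    ∃ x ∈ Ω, ∃ y ∈ Ω, Nat.lcm x y = r * Nat.lcm a b := by
  have hcb : Nat.Coprime p b' := (Nat.Prime.coprime_iff_not_dvd hp).mpr hbp
  have hca : Nat.Coprime p a' := (Nat.Prime.coprime_iff_not_dvd hp).mpr hap
  have hdv : p ^ β ∣ a := by
    rw [ha']
    exact (pow_dvd_pow p h1).trans (Nat.dvd_mul_right _ _)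
  rw [lcm_reduce hb' hcb hdv]
  have hb'd : b' ∣ b := Dvd.intro_left _ hb'.symm
  have hb'o : ¬ r ∣ b' := fun h => hbo (h.trans hb'd)
  have hb'Ω : b' ∈ Ω := D.dvd b hb b' hb'd
  rcases D.ss b' hb'Ω hb'o hcb.symm with h3 | h3
  · exact ⟨a, ha, r * b', h3, lcm_r_mul_right hr _ _ hao⟩
  · have hdouble : r * a ∈ Ω → ∃ x ∈ Ω, ∃ y ∈ Ω, Nat.lcm x y = r * Nat.lcm a b' := by
      intro h
      exact ⟨r * a, h, b', hb'Ω, lcm_r_mul hr _ hb'o⟩
    rcases Nat.eq_zero_or_pos α with rfl | hα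
    · have ha2 : a = a' := by rw [ha']; simp
      rcases D.ss a ha hao (by rw [ha2]; exact hca.symm) with h4 | h4
      · exact hdouble h4
      · have h5 : ¬ r ∣ Nat.lcm a b' := not_dvd_lcm hr hao hb'o
        refine ⟨Nat.lcm a b', D.tor _ (Nat.lcm_dvd h4 h3), r, D.rmem, ?_⟩
        have h6 : r = r * 1 := by simp
        rw [h6, lcm_r_mul_right hr _ _ h5]
        simp
    · apply hdouble
      rw [ha'] at ha hao ⊢
      exact D2 a' α ha hao hap hα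

lemma two_main {Ω : Set ℕ} {p N r : ℕ} (hp : p.Prime) (hr : r.Prime) (D : SpecData Ω p N r)
    (D2 : ∀ a' α : ℕ, p ^ α * a' ∈ Ω → ¬ r ∣ p ^ α * a' → ¬ p ∣ a' → 1 ≤ α → r * (p ^ α * a') ∈ Ω) {a b : ℕ}
    (ha : a ∈ Ω) (hb : b ∈ Ω) (hao : ¬ r ∣ a) (hbo : ¬ r ∣ b) :
    ∃ x ∈ Ω, ∃ y ∈ Ω, Nat.lcm x y = r * Nat.lcm a b := by
  have ha0 : a ≠ 0 := by rintro rfl; exact hao (dvd_zero _)
  have hb0 : b ≠ 0 := by rintro rfl; exact hbo (dvd_zero _)
  obtain ⟨α, a', hap, ha'⟩ := Nat.exists_eq_pow_mul_and_not_dvd ha0 p hp.ne_one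
  obtain ⟨β, b', hbp, hb'⟩ := Nat.exists_eq_pow_mul_and_not_dvd hb0 p hp.ne_one
  rcases le_total β α with h1 | h1
  · exact two_aux hp hr D D2 ha hb hao hbo ha' hb' hap hbp h1
  · obtain ⟨x, hx, y, hy, h⟩ := two_aux hp hr D D2 hb ha hbo hao hb' ha' hbp hap h1
    exact ⟨x, hx, y, hy, by rw [h, Nat.lcm_comm]⟩

end arith

section group

lemma dvd_mem_range {G : Type*} [Group G] [Finite G] {a d : ℕ} (ha : a ∈ Set.range (orderOf : G → ℕ)) (hd : d ∣ a) :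
    d ∈ Set.range (orderOf : G → ℕ) := by
  obtain ⟨x, rfl⟩ := ha
  exact ⟨x ^ (orderOf x / d), orderOf_pow_orderOf_div (orderOf_pos x).ne' hd⟩

lemma orderOf_w {m r : ℕ} (hr : r.Prime) (w : Multiplicative (Fin m → ZMod r)) : orderOf w ∣ r := by
  apply orderOf_dvd_of_pow_eq_one
  apply Multiplicative.toAdd.injective
  ext i
  simp only [toAdd_pow, toAdd_one, Pi.smul_apply, Pi.zero_apply]
  simp

lemma exists_w {m r : ℕ} (hr : r.Prime) (d : ℕ) (h : ∃ w : Multiplicative (Fin m → ZMod r), orderOf w = d) :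
    d = 1 ∨ d = r := by
  obtain ⟨w, rfl⟩ := h
  exact (Nat.dvd_prime hr).mp (orderOf_w hr w)

end group

/-- Let F be a finite field with q² elements, q = p^a, n ≥ 3 with (n, q) ≠ (3, 2), L = PSU(n, q) realised over F, and let r be a prime dividing q + 1 and not dividing n. Then for every m the direct product L × L × L × (ℤ/r)^m has the same set of element orders as L × L × L; and if n − 1 is not a power of p, then already L × L × (ℤ/r)^m has the same set of element orders as L × L. -/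
theorem result {F : Type*} [Field F] [Fintype F] (p a n q r m : ℕ) (hp : p.Prime) (ha : 1 ≤ a) (hq : q = p ^ a) (hF : Fintype.card F = q ^ 2)
    (hn : 3 ≤ n) (hn3 : ¬ (n = 3 ∧ q = 2)) (hr : r.Prime) (hrq : r ∣ q + 1) (hrn : ¬ r ∣ n) :
    Set.range (orderOf : Cfsg.PSU n F q × Cfsg.PSU n F q × Cfsg.PSU n F q × Multiplicative (Fin m → ZMod r) → ℕ) = Set.range (orderOf : Cfsg.PSU n F q × Cfsg.PSU n F q × Cfsg.PSU n F q → ℕ) ∧
    ((¬ ∃ j : ℕ, n - 1 = p ^ j) →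
      Set.range (orderOf : Cfsg.PSU n F q × Cfsg.PSU n F q × Multiplicative (Fin m → ZMod r) → ℕ) = Set.range (orderOf : Cfsg.PSU n F q × Cfsg.PSU n F q → ℕ)) := by
  classical
  haveI : Fact p.Prime := ⟨hp⟩
  haveI : NeZero n := ⟨by omega⟩
  have hpq : p ∣ q := by
    rw [hq]
    exact dvd_pow_self p (by omega)
  haveI : CharP F p := by
    obtain ⟨p', hp'⟩ := CharP.exists F
    obtain ⟨f, hpp, hf⟩ := FiniteField.card F p'
    rw [hF, hq] at hf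
    have h1 : p ∣ p' ^ (f : ℕ) := by
      rw [← hf]
      exact (dvd_pow_self p (by omega)).trans (dvd_pow_self _ (by norm_num))
    have h3 : p = p' := (Nat.prime_dvd_prime_iff_eq hp hpp).mp (hp.dvd_of_dvd_pow h1)
    rw [h3]
    exact hp'
  set Ω := Set.range (orderOf : Cfsg.PSU n F q → ℕ) with hΩ
  have D : SpecData Ω p (tT q n / Nat.gcd (tT q n) (q + 1)) r := by
    refine ⟨?_, ?_, ?_, ?_⟩
    · intro a ha d hd
      exact dvd_mem_range ha hd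
    · exact r_mem hF hn hrq
    · intro a ha hra hcop
      exact double_ss hF p hr hrq hrn ha hcop hra
    · intro c hc
      exact dvd_mem_range (torus_mem hF p hpq (NeZero.ne n)).mem_range hc
  constructor
  · ext t
    constructor
    · rintro ⟨⟨x, y, z, w⟩, rfl⟩
      have hd := exists_w (m := m) hr (orderOf w) ⟨w, rfl⟩
      have ht : orderOf ((x, y, z, w) : Cfsg.PSU n F q × Cfsg.PSU n F q × Cfsg.PSU n F q × Multiplicative (Fin m → ZMod r)) =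
          Nat.lcm (Nat.lcm (orderOf x) (Nat.lcm (orderOf y) (orderOf z))) (orderOf w) := by
        simp only [Prod.orderOf, Nat.lcm_assoc]
      have ht3 : orderOf ((x, y, z) : Cfsg.PSU n F q × Cfsg.PSU n F q × Cfsg.PSU n F q) =
          Nat.lcm (orderOf x) (Nat.lcm (orderOf y) (orderOf z)) := by
        simp only [Prod.orderOf]
      rw [ht]
      set L := Nat.lcm (orderOf x) (Nat.lcm (orderOf y) (orderOf z)) with hL
      by_cases hdvd : orderOf w ∣ L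
      · rw [Nat.lcm_eq_left hdvd]
        exact ⟨(x, y, z), ht3⟩
      · have hd2 : orderOf w = r := by
          rcases hd with h | h
          · rw [h] at hdvd
            exact absurd (one_dvd _) hdvd
          · exact h
        rw [hd2] at hdvd ⊢
        have hxo : ¬ r ∣ orderOf x := fun h => hdvd (h.trans (Nat.dvd_lcm_left _ _))
        have hyzo : ¬ r ∣ Nat.lcm (orderOf y) (orderOf z) := fun h => hdvd (h.trans (Nat.dvd_lcm_right _ _))
        have hyo : ¬ r ∣ orderOf y := fun h => hyzo (h.trans (Nat.dvd_lcm_left _ _))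
        have hzo : ¬ r ∣ orderOf z := fun h => hyzo (h.trans (Nat.dvd_lcm_right _ _))
        obtain ⟨a', ⟨x', rfl⟩, b', ⟨y', rfl⟩, c', ⟨z', rfl⟩, h3⟩ :=
          three_main hp hr D (a := orderOf x) (b := orderOf y) (c := orderOf z) ⟨x, rfl⟩ ⟨y, rfl⟩ ⟨z, rfl⟩ hxo hyo hzo
        refine ⟨(x', y', z'), ?_⟩
        have hcop : Nat.Coprime L r := ((Nat.Prime.coprime_iff_not_dvd hr).mpr hdvd).symm
        rw [hcop.lcm_eq_mul, mul_comm, ← hL] at *
        simp only [Prod.orderOf]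
        exact h3.trans (mul_comm _ _)
    · rintro ⟨⟨x, y, z⟩, rfl⟩
      refine ⟨(x, y, z, 1), ?_⟩
      simp [Prod.orderOf]
  · intro hnp
    have D2 : ∀ a' α : ℕ, p ^ α * a' ∈ Ω → ¬ r ∣ p ^ α * a' → ¬ p ∣ a' → 1 ≤ α → r * (p ^ α * a') ∈ Ω := by
      intro a' α h1 h2 h3 h4
      rw [mul_comm (p ^ α) a'] at h1 h2 ⊢
      apply double_mixed hF p hpq hr hrq hrn h4 h1 ((Nat.Prime.coprime_iff_not_dvd hp).mpr h3).symm
      · exact fun h => h2 (h.trans (Nat.dvd_mul_right _ _))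
      · exact fun h => hnp ⟨α - 1, h⟩
    ext t
    constructor
    · rintro ⟨⟨x, y, w⟩, rfl⟩
      have hd := exists_w (m := m) hr (orderOf w) ⟨w, rfl⟩
      have ht : orderOf ((x, y, w) : Cfsg.PSU n F q × Cfsg.PSU n F q × Multiplicative (Fin m → ZMod r)) =
          Nat.lcm (Nat.lcm (orderOf x) (orderOf y)) (orderOf w) := by
        simp only [Prod.orderOf, Nat.lcm_assoc]
      have ht3 : orderOf ((x, y) : Cfsg.PSU n F q × Cfsg.PSU n F q) =
          Nat.lcm (orderOf x) (orderOf y) := by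
        simp only [Prod.orderOf]
      rw [ht]
      set L := Nat.lcm (orderOf x) (orderOf y) with hL
      by_cases hdvd : orderOf w ∣ L
      · rw [Nat.lcm_eq_left hdvd]
        exact ⟨(x, y), ht3⟩
      · have hd2 : orderOf w = r := by
          rcases hd with h | h
          · rw [h] at hdvd
            exact absurd (one_dvd _) hdvd
          · exact h
        rw [hd2] at hdvd ⊢
        have hxo : ¬ r ∣ orderOf x := fun h => hdvd (h.trans (Nat.dvd_lcm_left _ _))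
        have hyo : ¬ r ∣ orderOf y := fun h => hdvd (h.trans (Nat.dvd_lcm_right _ _))
        obtain ⟨a', ⟨x', rfl⟩, b', ⟨y', rfl⟩, h3⟩ :=
          two_main hp hr D D2 (a := orderOf x) (b := orderOf y) ⟨x, rfl⟩ ⟨y, rfl⟩ hxo hyo
        refine ⟨(x', y'), ?_⟩
        have hcop : Nat.Coprime L r := ((Nat.Prime.coprime_iff_not_dvd hr).mpr hdvd).symm
        rw [hcop.lcm_eq_mul, mul_comm, ← hL] at *
        simp only [Prod.orderOf]
        exact h3.trans (mul_comm _ _)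
    · rintro ⟨⟨x, y⟩, rfl⟩
      refine ⟨(x, y, 1), ?_⟩
      simp [Prod.orderOf]

end Cfsg.Agent.S2511
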