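import Mathlib
import Cfsg.Statements.S2512
import Cfsg.Agent.Lib.SpSpecMain

set_option autoImplicit false
open Cfsg

namespace Cfsg.Agent.S2512

open Cfsg.Agent.Lib.SpSpec

section arith

/-- What is needed of a set of element orders. -/
structure SpecData (Ω : Set ℕ) (p N : ℕ) : Prop where
  dvd : ∀ a ∈ Ω, ∀ d, d ∣ a → d ∈ Ω
  two : 2 ∈ Ω
  ss : ∀ a ∈ Ω, Odd a → Nat.Coprime a p → 2 * a ∈ Ω ∨ a ∣ N
  tor : ∀ c, Odd c → c ∣ N → c ∈ Ω

lemma lcm_reduce {p a b b' β : ℕ} (hb : b = p ^ β * b') (hcop : Nat.Coprime p b') (h : p ^ β ∣ a) :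
    Nat.lcm a b = Nat.lcm a b' := by
  apply Nat.dvd_antisymm
  · apply Nat.lcm_dvd (Nat.dvd_lcm_left _ _)
    rw [hb]
    apply Nat.Coprime.mul_dvd_of_dvd_of_dvd (Nat.Coprime.pow_left β hcop)
    · exact h.trans (Nat.dvd_lcm_left _ _)
    · exact Nat.dvd_lcm_right _ _
  · apply Nat.lcm_dvd (Nat.dvd_lcm_left _ _)
    exact (Dvd.intro_left _ hb.symm).trans (Nat.dvd_lcm_right _ _)

lemma lcm_left_comm' (a b c : ℕ) : Nat.lcm a (Nat.lcm b c) = Nat.lcm b (Nat.lcm a c) := by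
  rw [← Nat.lcm_assoc, Nat.lcm_comm a b, Nat.lcm_assoc]

lemma odd_lcm {a b : ℕ} (ha : Odd a) (hb : Odd b) : Odd (Nat.lcm a b) :=
  (ha.mul hb).of_dvd_nat (Nat.lcm_dvd_mul a b)

lemma lcm_two_mul_right (a b : ℕ) (ha : Odd a) : Nat.lcm a (2 * b) = 2 * Nat.lcm a b := by
  rw [Nat.lcm_comm, lcm_two_mul b a ha, Nat.lcm_comm]

lemma three_aux {Ω : Set ℕ} {p N : ℕ} (hp : p.Prime) (D : SpecData Ω p N) {a b c β γ b' c' : ℕ}
    (ha : a ∈ Ω) (hb : b ∈ Ω) (hc : c ∈ Ω) (hao : Odd a) (hbo : Odd b) (hco : Odd c)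
    (hb' : b = p ^ β * b') (hc' : c = p ^ γ * c') (hbp : ¬ p ∣ b') (hcp : ¬ p ∣ c')
    (h1 : p ^ β ∣ a) (h2 : p ^ γ ∣ a) :
    ∃ x ∈ Ω, ∃ y ∈ Ω, ∃ z ∈ Ω, Nat.lcm x (Nat.lcm y z) = 2 * Nat.lcm a (Nat.lcm b c) := by
  have hcb : Nat.Coprime p b' := (Nat.Prime.coprime_iff_not_dvd hp).mpr hbp
  have hcc : Nat.Coprime p c' := (Nat.Prime.coprime_iff_not_dvd hp).mpr hcp
  have e1 : Nat.lcm a (Nat.lcm b c) = Nat.lcm a (Nat.lcm b' c') := by
    rw [← Nat.lcm_assoc, lcm_reduce hb' hcb h1, Nat.lcm_comm a b', Nat.lcm_assoc, lcm_reduce hc' hcc h2,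
      ← Nat.lcm_assoc, Nat.lcm_comm b' a, Nat.lcm_assoc]
  have hb'd : b' ∣ b := Dvd.intro_left _ hb'.symm
  have hc'd : c' ∣ c := Dvd.intro_left _ hc'.symm
  have hb'o : Odd b' := hbo.of_dvd_nat hb'd
  have hc'o : Odd c' := hco.of_dvd_nat hc'd
  have hb'Ω : b' ∈ Ω := D.dvd b hb b' hb'd
  have hc'Ω : c' ∈ Ω := D.dvd c hc c' hc'd
  rw [e1]
  rcases D.ss b' hb'Ω hb'o hcb.symm with h3 | h3
  · refine ⟨a, ha, 2 * b', h3, c', hc'Ω, ?_⟩
    rw [lcm_two_mul _ _ hc'o, lcm_two_mul_right _ _ hao]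
  · rcases D.ss c' hc'Ω hc'o hcc.symm with h4 | h4
    · refine ⟨a, ha, b', hb'Ω, 2 * c', h4, ?_⟩
      rw [lcm_two_mul_right _ _ hb'o, lcm_two_mul_right _ _ hao]
    · have h5 : Odd (Nat.lcm b' c') := odd_lcm hb'o hc'o
      refine ⟨a, ha, Nat.lcm b' c', D.tor _ h5 (Nat.lcm_dvd h3 h4), 2, D.two, ?_⟩
      rw [show (2 : ℕ) = 2 * 1 by norm_num, lcm_two_mul_right _ _ h5, lcm_two_mul_right _ _ hao]
      simp

lemma three_main {Ω : Set ℕ} {p N : ℕ} (hp : p.Prime) (D : SpecData Ω p N) {a b c : ℕ}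
    (ha : a ∈ Ω) (hb : b ∈ Ω) (hc : c ∈ Ω) (hao : Odd a) (hbo : Odd b) (hco : Odd c) :
    ∃ x ∈ Ω, ∃ y ∈ Ω, ∃ z ∈ Ω, Nat.lcm x (Nat.lcm y z) = 2 * Nat.lcm a (Nat.lcm b c) := by
  have ha0 : a ≠ 0 := by rintro rfl; simp at hao
  have hb0 : b ≠ 0 := by rintro rfl; simp at hbo
  have hc0 : c ≠ 0 := by rintro rfl; simp at hco
  obtain ⟨α, a', hap, ha'⟩ := Nat.exists_eq_pow_mul_and_not_dvd ha0 p hp.ne_one
  obtain ⟨β, b', hbp, hb'⟩ := Nat.exists_eq_pow_mul_and_not_dvd hb0 p hp.ne_one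
  obtain ⟨γ, c', hcp, hc'⟩ := Nat.exists_eq_pow_mul_and_not_dvd hc0 p hp.ne_one
  have hdvd : ∀ {s t u : ℕ} {u' : ℕ}, s ≤ t → u = p ^ t * u' → p ^ s ∣ u := by
    intro s t u u' hst hu
    rw [hu]
    exact (pow_dvd_pow p hst).trans (Nat.dvd_mul_right _ _)
  rcases le_total β α with h1 | h1
  · rcases le_total γ α with h2 | h2
    · exact three_aux hp D ha hb hc hao hbo hco hb' hc' hbp hcp (hdvd h1 ha') (hdvd h2 ha')
    · -- `γ` is the maximum
      obtain ⟨x, hx, y, hy, z, hz, h⟩ := three_aux hp D hc ha hb hco hao hbo ha' hb' hap hbp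
        (hdvd h2 hc') (hdvd (h1.trans h2) hc')
      refine ⟨x, hx, y, hy, z, hz, ?_⟩
      rw [h, lcm_left_comm' c a b, Nat.lcm_comm c b]
  · rcases le_total γ β with h2 | h2
    · -- `β` is the maximum
      obtain ⟨x, hx, y, hy, z, hz, h⟩ := three_aux hp D hb ha hc hbo hao hco ha' hc' hap hcp
        (hdvd h1 hb') (hdvd h2 hb')
      refine ⟨x, hx, y, hy, z, hz, ?_⟩
      rw [h, lcm_left_comm' b a c]
    · -- `γ` is the maximum
      obtain ⟨x, hx, y, hy, z, hz, h⟩ := three_aux hp D hc ha hb hco hao hbo ha' hb' hap hbp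
        (hdvd (h1.trans h2) hc') (hdvd h2 hc')
      refine ⟨x, hx, y, hy, z, hz, ?_⟩
      rw [h, lcm_left_comm' c a b, Nat.lcm_comm c b]

/-- Further data for two factors. -/
structure SpecData2 (Ω : Set ℕ) (p : ℕ) : Prop where
  mixed : ∀ a' α : ℕ, a' * p ^ α ∈ Ω → Odd (a' * p ^ α) → Nat.Coprime a' p → a' ≠ 1 → 1 ≤ α → 2 * (a' * p ^ α) ∈ Ω
  unip : ∀ α : ℕ, p ^ α ∈ Ω → Odd (p ^ α) → 1 ≤ α → 2 * p ^ α ∈ Ω

lemma two_aux {Ω : Set ℕ} {p N : ℕ} (hp : p.Prime) (D : SpecData Ω p N) (D2 : SpecData2 Ω p) {a b α β a' b' : ℕ}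
    (ha : a ∈ Ω) (hb : b ∈ Ω) (hao : Odd a) (hbo : Odd b)
    (ha' : a = p ^ α * a') (hb' : b = p ^ β * b') (hap : ¬ p ∣ a') (hbp : ¬ p ∣ b') (h1 : β ≤ α) :
    ∃ x ∈ Ω, ∃ y ∈ Ω, Nat.lcm x y = 2 * Nat.lcm a b := by
  have hcb : Nat.Coprime p b' := (Nat.Prime.coprime_iff_not_dvd hp).mpr hbp
  have hca : Nat.Coprime p a' := (Nat.Prime.coprime_iff_not_dvd hp).mpr hap
  have hdv : p ^ β ∣ a := by
    rw [ha']
    exact (pow_dvd_pow p h1).trans (Nat.dvd_mul_right _ _)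
  rw [lcm_reduce hb' hcb hdv]
  have hb'd : b' ∣ b := Dvd.intro_left _ hb'.symm
  have hb'o : Odd b' := hbo.of_dvd_nat hb'd
  have hb'Ω : b' ∈ Ω := D.dvd b hb b' hb'd
  rcases D.ss b' hb'Ω hb'o hcb.symm with h3 | h3
  · exact ⟨a, ha, 2 * b', h3, lcm_two_mul_right _ _ hao⟩
  · have hdouble : 2 * a ∈ Ω → ∃ x ∈ Ω, ∃ y ∈ Ω, Nat.lcm x y = 2 * Nat.lcm a b' := by
      intro h
      exact ⟨2 * a, h, b', hb'Ω, lcm_two_mul _ _ hb'o⟩
    rcases Nat.eq_zero_or_pos α with rfl | hα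
    · have ha2 : a = a' := by rw [ha']; simp
      rcases D.ss a ha hao (by rw [ha2]; exact hca.symm) with h4 | h4
      · exact hdouble h4
      · have h5 : Odd (Nat.lcm a b') := odd_lcm hao hb'o
        refine ⟨Nat.lcm a b', D.tor _ h5 (Nat.lcm_dvd h4 h3), 2, D.two, ?_⟩
        rw [show (2 : ℕ) = 2 * 1 by norm_num, lcm_two_mul_right _ _ h5]
        simp
    · by_cases ha1 : a' = 1
      · apply hdouble
        have h6 : a = p ^ α := by rw [ha', ha1, mul_one]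
        rw [h6] at ha hao ⊢
        exact D2.unip α ha hao hα
      · apply hdouble
        have h6 : a = a' * p ^ α := by rw [ha', mul_comm]
        rw [h6] at ha hao ⊢
        exact D2.mixed a' α ha hao hca.symm ha1 hα

lemma two_main {Ω : Set ℕ} {p N : ℕ} (hp : p.Prime) (D : SpecData Ω p N) (D2 : SpecData2 Ω p) {a b : ℕ}
    (ha : a ∈ Ω) (hb : b ∈ Ω) (hao : Odd a) (hbo : Odd b) :
    ∃ x ∈ Ω, ∃ y ∈ Ω, Nat.lcm x y = 2 * Nat.lcm a b := by
  have ha0 : a ≠ 0 := by rintro rfl; simp at hao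
  have hb0 : b ≠ 0 := by rintro rfl; simp at hbo
  obtain ⟨α, a', hap, ha'⟩ := Nat.exists_eq_pow_mul_and_not_dvd ha0 p hp.ne_one
  obtain ⟨β, b', hbp, hb'⟩ := Nat.exists_eq_pow_mul_and_not_dvd hb0 p hp.ne_one
  rcases le_total β α with h1 | h1
  · exact two_aux hp D D2 ha hb hao hbo ha' hb' hap hbp h1
  · obtain ⟨x, hx, y, hy, h⟩ := two_aux hp D D2 hb ha hbo hao hb' ha' hbp hap h1
    exact ⟨x, hx, y, hy, by rw [h, Nat.lcm_comm]⟩

end arith

section group

variable {F : Type*} [Field F] [Fintype F]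

lemma dvd_mem_range {G : Type*} [Group G] [Finite G] {a d : ℕ} (ha : a ∈ Set.range (orderOf : G → ℕ)) (hd : d ∣ a) :
    d ∈ Set.range (orderOf : G → ℕ) := by
  obtain ⟨x, rfl⟩ := ha
  exact ⟨x ^ (orderOf x / d), orderOf_pow_orderOf_div (orderOf_pos x).ne' hd⟩

lemma orderOf_w {m : ℕ} (w : Multiplicative (Fin m → ZMod 2)) : orderOf w ∣ 2 := by
  apply orderOf_dvd_of_pow_eq_one
  apply Multiplicative.toAdd.injective
  ext i
  simp only [toAdd_pow, toAdd_one, Pi.smul_apply, Pi.zero_apply]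
  rw [two_nsmul]
  exact CharTwo.add_self_eq_zero _

lemma exists_w {m : ℕ} (d : ℕ) (h : ∃ w : Multiplicative (Fin m → ZMod 2), orderOf w = d) : d = 1 ∨ d = 2 := by
  obtain ⟨w, rfl⟩ := h
  have := orderOf_w w
  rcases (Nat.dvd_prime Nat.prime_two).mp this with h | h
  · exact Or.inl h
  · exact Or.inr h

end group

theorem spec_data {F : Type*} [Field F] [Fintype F] (p : ℕ) [hp : Fact p.Prime] [CharP F p]
    (h2 : (2 : F) ≠ 0) (n : ℕ) (hn : 2 ≤ n) (hodd : Odd (Fintype.card F)) :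
    SpecData (Set.range (orderOf : Cfsg.PSp n F → ℕ)) p
      (if (Fintype.card F ^ n) % 4 = 1 then Fintype.card F ^ n + 1 else Fintype.card F ^ n - 1) := by
  haveI : NeZero n := ⟨by omega⟩
  have hq4 : (Fintype.card F ^ n) % 4 = 1 ∨ (Fintype.card F ^ n) % 4 = 3 := by
    have : Odd (Fintype.card F ^ n) := hodd.pow
    rw [Nat.odd_iff] at this
    omega
  refine ⟨?_, ?_, ?_, ?_⟩
  · intro a ha d hd
    exact dvd_mem_range ha hd
  · haveI : NeZero (n - 1) := ⟨by omega⟩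
    have h3 := two_lcm_mem_OmG (F := F) (A := 1) (B := n - 1) h2 (one_mem_Om _) (one_mem_Om _) odd_one odd_one
    have h4 : (1 : ℕ) + (n - 1) ≤ n := by omega
    simpa using mem_range_of_OmG (OmG_mono h2 h3 h4)
  · intro a ha hao hcop
    have hom := lift_odd ha hao
    have ha0 : a ≠ 0 := by rintro rfl; simp at hao
    have hc4 : Nat.Coprime 4 a := by
      have : Nat.Coprime (2 ^ 2) a := Nat.Coprime.pow_left 2 (Nat.coprime_two_left.mpr hao)
      simpa using this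
    rcases double_ss p h2 hn hao hcop hom with h3 | h3 | h3
    · exact Or.inl h3
    · rcases hq4 with h4 | h4
      · right
        rw [if_pos h4]
        exact h3
      · left
        apply torus_double (F := F) p h2 (Or.inl _) ha0
        exact hc4.mul_dvd_of_dvd_of_dvd (by omega) h3
    · rcases hq4 with h4 | h4
      · left
        apply torus_double (F := F) p h2 (Or.inr _) ha0
        exact hc4.mul_dvd_of_dvd_of_dvd (by omega) h3
      · right
        rw [if_neg (by omega)]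
        exact h3
  · intro c hco hcN
    have hne : n ≠ 0 := by omega
    apply mem_range_of_OmG
    apply mem_OmG_of_odd h2 _ hco
    apply torus_mem (F := F) p hne
    split_ifs at hcN with h4
    · exact Or.inl hcN
    · exact Or.inr hcN

theorem spec_data2 {F : Type*} [Field F] [Fintype F] (p : ℕ) [hp : Fact p.Prime] [CharP F p]
    (h2 : (2 : F) ≠ 0) (hpo : Odd p) (n : ℕ) (hn : 2 ≤ n) (hnp : ¬ ∃ j : ℕ, 2 * n - 1 = p ^ j) :
    SpecData2 (Set.range (orderOf : Cfsg.PSp n F → ℕ)) p := by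
  haveI : NeZero n := ⟨by omega⟩
  refine ⟨?_, ?_⟩
  · intro a' α ha hao hcop ha1 hα
    have hom := lift_odd ha hao
    have ha'o : Odd a' := hao.of_dvd_nat (Nat.dvd_mul_right _ _)
    exact double_mixed p h2 hpo ha'o hcop ha1 hα hom
  · intro α ha hao hα
    have hom := lift_odd ha hao
    apply double_unip p h2 hpo hα hom
    intro h
    exact hnp ⟨α - 1, by omega⟩

/-- Let F be a finite field of odd order q = p^a, n ≥ 2 (with q ≥ 3 automatic), and L = PSp(2n, F). Then for every m the direct product L × L × L × (ℤ/2)^m has the same set of element orders as L × L × L; and if 2n − 1 is not a power of p, then already L × L × (ℤ/2)^m has the same set of element orders as L × L. -/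
theorem result {F : Type*} [Field F] [Fintype F] (p a n m : ℕ) (hp : p.Prime) (ha : 1 ≤ a) (hF : Fintype.card F = p ^ a) (hodd : Odd (Fintype.card F))
    (hn : 2 ≤ n) :
    Set.range (orderOf : Cfsg.PSp n F × Cfsg.PSp n F × Cfsg.PSp n F × Multiplicative (Fin m → ZMod 2) → ℕ) = Set.range (orderOf : Cfsg.PSp n F × Cfsg.PSp n F × Cfsg.PSp n F → ℕ) ∧
    ((¬ ∃ j : ℕ, 2 * n - 1 = p ^ j) →
      Set.range (orderOf : Cfsg.PSp n F × Cfsg.PSp n F × Multiplicative (Fin m → ZMod 2) → ℕ) = Set.range (orderOf : Cfsg.PSp n F × Cfsg.PSp n F → ℕ)) := by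
  classical
  haveI : Fact p.Prime := ⟨hp⟩
  haveI : CharP F p := by
    obtain ⟨p', hp'⟩ := CharP.exists F
    obtain ⟨f, hpp, hf⟩ := FiniteField.card F p'
    rw [hF] at hf
    have h1 : p ∣ p' ^ (f : ℕ) := by
      rw [← hf]
      exact dvd_pow_self p (by omega)
    have h3 : p = p' := (Nat.prime_dvd_prime_iff_eq hp hpp).mp (hp.dvd_of_dvd_pow h1)
    rw [h3]
    exact hp'
  have hpo : Odd p := by
    rw [hF] at hodd
    exact (Nat.odd_pow_iff (by omega)).mp hodd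
  have h2 : (2 : F) ≠ 0 := Cfsg.Agent.Lib.RegSp.two_ne_zero_of_odd rfl hodd
  set Ω := Set.range (orderOf : Cfsg.PSp n F → ℕ) with hΩ
  have D := spec_data (F := F) p h2 n hn hodd
  rw [← hΩ] at D
  constructor
  · ext t
    constructor
    · rintro ⟨⟨x, y, z, w⟩, rfl⟩
      have hd := exists_w (m := m) (orderOf w) ⟨w, rfl⟩
      have ht : orderOf ((x, y, z, w) : Cfsg.PSp n F × Cfsg.PSp n F × Cfsg.PSp n F × Multiplicative (Fin m → ZMod 2)) =
          Nat.lcm (Nat.lcm (orderOf x) (Nat.lcm (orderOf y) (orderOf z))) (orderOf w) := by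
        simp only [Prod.orderOf, Nat.lcm_assoc]
      have ht3 : orderOf ((x, y, z) : Cfsg.PSp n F × Cfsg.PSp n F × Cfsg.PSp n F) =
          Nat.lcm (orderOf x) (Nat.lcm (orderOf y) (orderOf z)) := by
        simp only [Prod.orderOf]
      rw [ht]
      set L := Nat.lcm (orderOf x) (Nat.lcm (orderOf y) (orderOf z)) with hL
      by_cases hdvd : orderOf w ∣ L
      · rw [Nat.lcm_eq_left hdvd]
        exact ⟨(x, y, z), ht3⟩
      · have hd2 : orderOf w = 2 := by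
          rcases hd with h | h
          · rw [h] at hdvd
            exact absurd (one_dvd _) hdvd
          · exact h
        rw [hd2] at hdvd ⊢
        have hLodd : Odd L := by
          rw [← Nat.not_even_iff_odd]
          intro h
          exact hdvd h.two_dvd
        have hxo : Odd (orderOf x) := hLodd.of_dvd_nat (Nat.dvd_lcm_left _ _)
        have hyzo : Odd (Nat.lcm (orderOf y) (orderOf z)) := hLodd.of_dvd_nat (Nat.dvd_lcm_right _ _)
        have hyo : Odd (orderOf y) := hyzo.of_dvd_nat (Nat.dvd_lcm_left _ _)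
        have hzo : Odd (orderOf z) := hyzo.of_dvd_nat (Nat.dvd_lcm_right _ _)
        obtain ⟨a', ⟨x', rfl⟩, b', ⟨y', rfl⟩, c', ⟨z', rfl⟩, h3⟩ :=
          three_main hp D (a := orderOf x) (b := orderOf y) (c := orderOf z) ⟨x, rfl⟩ ⟨y, rfl⟩ ⟨z, rfl⟩ hxo hyo hzo
        refine ⟨(x', y', z'), ?_⟩
        have hcop : Nat.Coprime L 2 := by
          rw [Nat.coprime_comm, Nat.coprime_two_left]
          exact hLodd
        rw [hcop.lcm_eq_mul, mul_comm, ← hL] at *
        simp only [Prod.orderOf]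
        exact h3.trans (mul_comm _ _)
    · rintro ⟨⟨x, y, z⟩, rfl⟩
      refine ⟨(x, y, z, 1), ?_⟩
      simp [Prod.orderOf]
  · intro hnp
    have D2 := spec_data2 (F := F) p h2 hpo n hn hnp
    rw [← hΩ] at D2
    ext t
    constructor
    · rintro ⟨⟨x, y, w⟩, rfl⟩
      have hd := exists_w (m := m) (orderOf w) ⟨w, rfl⟩
      have ht : orderOf ((x, y, w) : Cfsg.PSp n F × Cfsg.PSp n F × Multiplicative (Fin m → ZMod 2)) =
          Nat.lcm (Nat.lcm (orderOf x) (orderOf y)) (orderOf w) := by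
        simp only [Prod.orderOf, Nat.lcm_assoc]
      have ht3 : orderOf ((x, y) : Cfsg.PSp n F × Cfsg.PSp n F) =
          Nat.lcm (orderOf x) (orderOf y) := by
        simp only [Prod.orderOf]
      rw [ht]
      set L := Nat.lcm (orderOf x) (orderOf y) with hL
      by_cases hdvd : orderOf w ∣ L
      · rw [Nat.lcm_eq_left hdvd]
        exact ⟨(x, y), ht3⟩
      · have hd2 : orderOf w = 2 := by
          rcases hd with h | h
          · rw [h] at hdvd
            exact absurd (one_dvd _) hdvd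
          · exact h
        rw [hd2] at hdvd ⊢
        have hLodd : Odd L := by
          rw [← Nat.not_even_iff_odd]
          intro h
          exact hdvd h.two_dvd
        have hxo : Odd (orderOf x) := hLodd.of_dvd_nat (Nat.dvd_lcm_left _ _)
        have hyo : Odd (orderOf y) := hLodd.of_dvd_nat (Nat.dvd_lcm_right _ _)
        obtain ⟨a', ⟨x', rfl⟩, b', ⟨y', rfl⟩, h3⟩ :=
          two_main hp D D2 (a := orderOf x) (b := orderOf y) ⟨x, rfl⟩ ⟨y, rfl⟩ hxo hyo
        refine ⟨(x', y'), ?_⟩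
        have hcop : Nat.Coprime L 2 := by
          rw [Nat.coprime_comm, Nat.coprime_two_left]
          exact hLodd
        rw [hcop.lcm_eq_mul, mul_comm, ← hL] at *
        simp only [Prod.orderOf]
        exact h3.trans (mul_comm _ _)
    · rintro ⟨⟨x, y⟩, rfl⟩
      refine ⟨(x, y, 1), ?_⟩
      simp [Prod.orderOf]

end Cfsg.Agent.S2512
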