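import Mathlib
import Cfsg.Statements.S2513
import Cfsg.Agent.Lib.GLSpec

set_option autoImplicit false
open Cfsg

namespace Cfsg.Agent.S2513

open Matrix Cfsg.Agent.Lib.GLSpec

section transfer

variable {F : Type*} [Field F] [Fintype F] (hF : Fintype.card F = 2) {n : ℕ}

include hF

lemma det_eq_one (g : GL (Fin n) F) : (g : Matrix (Fin n) (Fin n) F).det = 1 := by
  have h0 : (g : Matrix (Fin n) (Fin n) F).det ≠ 0 := by
    have := (Matrix.isUnit_iff_isUnit_det _).1 g.isUnit
    exact this.ne_zero
  have h1 := FiniteField.pow_card_sub_one_eq_one _ h0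
  rwa [hF, show 2 - 1 = 1 from rfl, pow_one] at h1

lemma center_trivial : Subgroup.center (Matrix.SpecialLinearGroup (Fin n) F) = ⊥ := by
  rw [eq_bot_iff]
  intro A hA
  by_cases hn : n = 0
  · subst hn
    rw [Subgroup.mem_bot]
    exact Subsingleton.elim (α := Matrix.SpecialLinearGroup (Fin 0) F) A 1
  rw [Matrix.SpecialLinearGroup.mem_center_iff] at hA
  obtain ⟨r, hr, hA⟩ := hA
  have hr0 : r ≠ 0 := by
    intro h0
    subst h0
    simp [hn] at hr
  have h1 := FiniteField.pow_card_sub_one_eq_one _ hr0
  rw [hF, show 2 - 1 = 1 from rfl, pow_one] at h1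
  rw [Subgroup.mem_bot]
  apply Subtype.ext
  rw [← hA, h1]
  simp

/-- The projection to the projective group. -/
def proj : Matrix.SpecialLinearGroup (Fin n) F →* Matrix.ProjectiveSpecialLinearGroup (Fin n) F :=
  QuotientGroup.mk' _

omit hF in
lemma proj_surjective : Function.Surjective (proj (F := F) (n := n)) :=
  QuotientGroup.mk'_surjective _

lemma proj_injective : Function.Injective (proj (F := F) (n := n)) := by
  rw [← MonoidHom.ker_eq_bot_iff]
  show (QuotientGroup.mk' _).ker = ⊥
  rw [QuotientGroup.ker_mk']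
  exact center_trivial hF

lemma exists_of_ord {s : ℕ} (h : Ord F s n) :
    ∃ x : Matrix.ProjectiveSpecialLinearGroup (Fin n) F, orderOf x = s := by
  obtain ⟨g, rfl⟩ := h
  let A : Matrix.SpecialLinearGroup (Fin n) F := ⟨g, det_eq_one hF g⟩
  refine ⟨proj A, ?_⟩
  rw [orderOf_injective _ (proj_injective hF)]
  have hAg : Matrix.SpecialLinearGroup.toGL A = g := by
    apply Units.ext
    rfl
  have hinj : Function.Injective (Matrix.SpecialLinearGroup.toGL (n := Fin n) (R := F)) := by
    intro a b hab
    apply Subtype.ext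
    exact congrArg (fun u : GL (Fin n) F => (u : Matrix (Fin n) (Fin n) F)) hab
  rw [← hAg, orderOf_injective _ hinj]

/-- The matrix lift of an element of the projective group. -/
lemma exists_matrix (x : Matrix.ProjectiveSpecialLinearGroup (Fin n) F) :
    ∃ A : Matrix.SpecialLinearGroup (Fin n) F, proj A = x ∧ orderOf A = orderOf x := by
  obtain ⟨A, rfl⟩ := proj_surjective x
  exact ⟨A, rfl, (orderOf_injective _ (proj_injective hF) A).symm⟩

end transfer

section arith

/-- If `n` divides `M` and the exact power `r^a` of `r` in `M` does not divide `n`,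
then `n` divides `M/r`. -/
lemma dvd_div_of_not (M m r : ℕ) (hM : M ≠ 0) (hr : r.Prime) (hm : m ∣ M)
    (hnot : ¬ r ^ M.factorization r ∣ m) : m ∣ M / r := by
  have hm0 : m ≠ 0 := fun h => hM (by rw [h] at hm; exact Nat.eq_zero_of_zero_dvd hm)
  have hle : m.factorization r < M.factorization r := by
    by_contra hcon
    push Not at hcon
    apply hnot
    exact (pow_dvd_pow r hcon).trans (Nat.ordProj_dvd m r)
  have hrM : r ∣ M := by
    by_contra h
    rw [Nat.factorization_eq_zero_of_not_dvd h] at hle
    omega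
  have hdiv : M / r ≠ 0 := by
    have := Nat.div_pos (Nat.le_of_dvd (Nat.pos_of_ne_zero hM) hrM) hr.pos
    omega
  rw [← Nat.factorization_prime_le_iff_dvd hm0 hdiv]
  intro p hp
  rw [Nat.factorization_div hrM]
  by_cases hpr : p = r
  · subst hpr
    simp only [Finsupp.coe_tsub, Pi.sub_apply, hp.factorization_self]
    omega
  · simp only [Finsupp.coe_tsub, Pi.sub_apply]
    rw [hr.factorization, Finsupp.single_eq_of_ne (by tauto)]
    have := (Nat.factorization_prime_le_iff_dvd hm0 hM).2 hm p hp
    omega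

end arith

/-- In a finite power, every exact prime power of the order divides the order of a coordinate. -/
lemma exists_coord {ι G : Type*} [Fintype ι] [Group G] [Finite G] (z : ι → G) (r : ℕ) (hr : r.Prime)
    (hrM : r ∣ orderOf z) :
    ∃ i, r ^ (orderOf z).factorization r ∣ orderOf (z i) := by
  by_contra hcon
  push Not at hcon
  have hM : orderOf z ≠ 0 := (orderOf_pos z).ne'
  have h1 : ∀ i, orderOf (z i) ∣ orderOf z / r := by
    intro i
    apply dvd_div_of_not _ _ _ hM hr _ (hcon i)
    apply orderOf_dvd_of_pow_eq_one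
    have := congrFun (pow_orderOf_eq_one z) i
    simpa using this
  have h2 : z ^ (orderOf z / r) = 1 := by
    ext i
    simp only [Pi.pow_apply, Pi.one_apply]
    exact orderOf_dvd_iff_pow_eq_one.1 (h1 i)
  have h3 := orderOf_dvd_of_pow_eq_one h2
  have h4 := Nat.le_of_dvd (Nat.div_pos (Nat.le_of_dvd (orderOf_pos z) hrM) hr.pos) h3
  have h5 := Nat.div_lt_self (orderOf_pos z) hr.one_lt
  omega

/-- The labels of the parts. -/
def lab (n d : ℕ) : ℕ :=
  if d = n ∨ 2 * d = n then 0 else if d + 1 = n then 1 else min d (n - d)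

lemma lab_lt (n d : ℕ) (hn : 2 ≤ n) (h2 : 2 ≤ d) (hd : d ≤ n) : lab n d < (n + 1) / 2 := by
  unfold lab
  split_ifs with h1 h3
  · omega
  · omega
  · push Not at h1
    omega

/-- The pair of dimensions for a label. -/
def dims (n ℓ : ℕ) : ℕ × ℕ :=
  if ℓ = 0 then (n, 0) else if ℓ = 1 then (n - 1, 1) else (ℓ, n - ℓ)

lemma dims_spec (n ℓ : ℕ) (hn : 2 ≤ n) (hℓ : ℓ < (n + 1) / 2) :
    (dims n ℓ).1 + (dims n ℓ).2 = n ∧ 1 ≤ (dims n ℓ).1 := by
  unfold dims
  split_ifs with h1 h3
  · simp; omega
  · simp; omega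
  · simp; omega

lemma two_pow_sub_one_dvd (a b : ℕ) (h : a ∣ b) : 2 ^ a - 1 ∣ 2 ^ b - 1 := by
  obtain ⟨c, rfl⟩ := h
  have := Nat.sub_dvd_pow_sub_pow (x := 2 ^ a) (y := 1) (n := c)
  rwa [one_pow, ← pow_mul] at this

section main

variable {F : Type*} [Field F] [Fintype F] (hF : Fintype.card F = 2)

include hF

/-- A product of pairwise coprime numbers, each dividing `2^d₁ - 1` or `2^d₂ - 1`, is an order
in degree `d₁ + d₂`. -/
lemma ord_of_split (T : Finset ℕ) (P : ℕ → ℕ)
    (hcop : ∀ r ∈ T, ∀ r' ∈ T, r ≠ r' → Nat.Coprime (P r) (P r'))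
    (d₁ d₂ : ℕ) (hd₁ : 1 ≤ d₁)
    (h : ∀ r ∈ T, P r ∣ 2 ^ d₁ - 1 ∨ (1 ≤ d₂ ∧ P r ∣ 2 ^ d₂ - 1)) :
    Ord F (∏ r ∈ T, P r) (d₁ + d₂) := by
  classical
  set T₁ := T.filter (fun r => P r ∣ 2 ^ d₁ - 1) with hT₁
  set T₂ := T.filter (fun r => ¬ P r ∣ 2 ^ d₁ - 1) with hT₂
  have hprod : ∏ r ∈ T, P r = (∏ r ∈ T₁, P r) * ∏ r ∈ T₂, P r :=
    (Finset.prod_filter_mul_prod_filter_not T _ P).symm
  have hsub1 : T₁ ⊆ T := Finset.filter_subset _ _
  have hsub2 : T₂ ⊆ T := Finset.filter_subset _ _
  have hO1 : Ord F (∏ r ∈ T₁, P r) d₁ := by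
    apply ord_of_dvd _ _ hd₁
    rw [hF]
    apply prod_dvd_of_pairwise
    · exact fun r hr r' hr' => hcop r (hsub1 hr) r' (hsub1 hr')
    · exact fun r hr => (Finset.mem_filter.1 hr).2
  have hO2 : Ord F (∏ r ∈ T₂, P r) d₂ := by
    by_cases hd₂ : 1 ≤ d₂
    · apply ord_of_dvd _ _ hd₂
      rw [hF]
      apply prod_dvd_of_pairwise
      · exact fun r hr r' hr' => hcop r (hsub2 hr) r' (hsub2 hr')
      · intro r hr
        obtain ⟨hrT, hr2⟩ := Finset.mem_filter.1 hr
        rcases h r hrT with h3 | h3
        · exact absurd h3 hr2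
        · exact h3.2
    · have : T₂ = ∅ := by
        apply Finset.filter_eq_empty_iff.2
        intro r hr hr2
        rcases h r hr with h3 | h3
        · exact hr2 h3
        · exact hd₂ h3.1
      rw [this, Finset.prod_empty]
      exact Ord.one _
  have hc : Nat.Coprime (∏ r ∈ T₁, P r) (∏ r ∈ T₂, P r) := by
    apply Nat.Coprime.prod_left
    intro r hr
    apply Nat.Coprime.prod_right
    intro r' hr'
    apply hcop r (hsub1 hr) r' (hsub2 hr')
    rintro rfl
    exact (Finset.mem_filter.1 hr').2 (Finset.mem_filter.1 hr).2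
  have := hO1.block hO2
  rw [hc.lcm_eq_mul, ← hprod] at this
  exact this

/-- The packing of prime powers into bins. -/
theorem exists_tuple (n M : ℕ) (hn : 2 ≤ n) (hM : M ≠ 0)
    (h2 : 2 ∣ M → ∃ x : Matrix.ProjectiveSpecialLinearGroup (Fin n) F,
      orderOf x = 2 ^ M.factorization 2)
    (hodd : ∀ r, r.Prime → r ∣ M → r ≠ 2 →
      ∃ d, 1 ≤ d ∧ d ≤ n ∧ r ^ M.factorization r ∣ 2 ^ d - 1) :
    ∃ y : Fin ((n + 3) / 2) → Matrix.ProjectiveSpecialLinearGroup (Fin n) F, orderOf y = M := by
  classical
  set P : ℕ → ℕ := fun r => r ^ M.factorization r with hP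
  have hcop : ∀ r ∈ M.primeFactors, ∀ r' ∈ M.primeFactors, r ≠ r' → Nat.Coprime (P r) (P r') := by
    intro r hr r' hr' hne
    apply Nat.Coprime.pow
    exact (Nat.coprime_primes (Nat.prime_of_mem_primeFactors hr)
      (Nat.prime_of_mem_primeFactors hr')).2 hne
  have hP1 : ∀ r ∈ M.primeFactors, 3 ≤ r → 1 < P r := by
    intro r hr h3
    have hr' := Nat.prime_of_mem_primeFactors hr
    have h4 : M.factorization r ≠ 0 := by
      have := hr'.factorization_pos_of_dvd hM (Nat.dvd_of_mem_primeFactors hr)
      omega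
    exact Nat.one_lt_pow h4 hr'.one_lt
  -- the degrees
  have hodd' : ∀ r, ∃ d, r ∈ M.primeFactors → r ≠ 2 →
      2 ≤ d ∧ d ≤ n ∧ P r ∣ 2 ^ d - 1 := by
    intro r
    by_cases hr : r ∈ M.primeFactors ∧ r ≠ 2
    · obtain ⟨d, hd1, hd2, hd3⟩ := hodd r (Nat.prime_of_mem_primeFactors hr.1)
        (Nat.dvd_of_mem_primeFactors hr.1) hr.2
      refine ⟨d, fun _ _ => ⟨?_, hd2, hd3⟩⟩
      by_contra hlt
      have hd : d = 1 := by omega
      subst hd
      have h3 : 3 ≤ r := by
        have := (Nat.prime_of_mem_primeFactors hr.1).two_le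
        omega
      have := hP1 r hr.1 h3
      have h4 : P r ∣ 1 := hd3
      have := Nat.le_of_dvd (by norm_num) h4
      omega
    · exact ⟨0, fun h1 h3 => absurd ⟨h1, h3⟩ hr⟩
  choose d hd using hodd'
  set L₂ := (n + 1) / 2 with hL₂
  let label : ℕ → ℕ := fun r => if r = 2 then L₂ else lab n (d r)
  let T : ℕ → Finset ℕ := fun ℓ => M.primeFactors.filter (fun r => label r = ℓ)
  have hTsub : ∀ ℓ, T ℓ ⊆ M.primeFactors := fun ℓ => Finset.filter_subset _ _
  have hlabel : ∀ r ∈ M.primeFactors, label r < (n + 3) / 2 := by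
    intro r hr
    by_cases h : r = 2
    · simp only [label, if_pos h]
      omega
    · simp only [label, if_neg h]
      obtain ⟨h3, h4, -⟩ := hd r hr h
      have := lab_lt n (d r) hn h3 h4
      omega
  -- every bin is realized
  have hreal : ∀ ℓ, ℓ < (n + 3) / 2 →
      ∃ x : Matrix.ProjectiveSpecialLinearGroup (Fin n) F, orderOf x = ∏ r ∈ T ℓ, P r := by
    intro ℓ hℓ
    by_cases hℓ2 : ℓ = L₂
    · -- the `2`-part
      by_cases h2M : 2 ∈ M.primeFactors
      · have h3 : T ℓ = {2} := by
          ext r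
          simp only [T, Finset.mem_filter, Finset.mem_singleton, label]
          constructor
          · rintro ⟨hr, hr2⟩
            by_contra hne
            rw [if_neg hne] at hr2
            obtain ⟨h3, h4, -⟩ := hd r hr hne
            have := lab_lt n (d r) hn h3 h4
            omega
          · rintro rfl
            exact ⟨h2M, by simp [hℓ2]⟩
        rw [h3, Finset.prod_singleton]
        exact h2 (Nat.dvd_of_mem_primeFactors h2M)
      · have h3 : T ℓ = ∅ := by
          apply Finset.filter_eq_empty_iff.2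
          intro r hr hr2
          simp only [label] at hr2
          by_cases hne : r = 2
          · subst hne; exact h2M hr
          rw [if_neg hne] at hr2
          obtain ⟨h3, h4, -⟩ := hd r hr hne
          have := lab_lt n (d r) hn h3 h4
          omega
        rw [h3, Finset.prod_empty]
        exact ⟨1, orderOf_one⟩
    · have hℓ' : ℓ < (n + 1) / 2 := by omega
      obtain ⟨hdims, hd1⟩ := dims_spec n ℓ hn hℓ'
      have hord := ord_of_split hF (T ℓ) P
        (fun r hr r' hr' => hcop r (hTsub ℓ hr) r' (hTsub ℓ hr'))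
        (dims n ℓ).1 (dims n ℓ).2 hd1 ?_
      · rw [hdims] at hord
        exact exists_of_ord hF hord
      · intro r hr
        obtain ⟨hrM, hrl⟩ := Finset.mem_filter.1 hr
        have hne : r ≠ 2 := by
          intro h
          simp only [label, if_pos h] at hrl
          omega
        simp only [label, if_neg hne] at hrl
        obtain ⟨h3, h4, h5⟩ := hd r hrM hne
        unfold lab at hrl
        split_ifs at hrl with h6 h7
        · -- label zero
          left
          have : dims n ℓ = (n, 0) := by simp [dims, ← hrl]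
          rw [this]
          refine h5.trans (two_pow_sub_one_dvd _ _ ?_)
          rcases h6 with h6 | h6
          · rw [h6]
          · exact ⟨2, by omega⟩
        · left
          have : dims n ℓ = (n - 1, 1) := by simp [dims, ← hrl]
          rw [this]
          have h8 : d r = n - 1 := by omega
          simp only
          rw [← h8]
          exact h5
        · push Not at h6
          have hℓ0 : ℓ ≠ 0 := by omega
          have hℓ1 : ℓ ≠ 1 := by omega
          have : dims n ℓ = (ℓ, n - ℓ) := by simp [dims, hℓ0, hℓ1]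
          rw [this]
          simp only
          rcases min_choice (d r) (n - d r) with h8 | h8
          · left
            rw [h8] at hrl
            rw [← hrl]; exact h5
          · right
            rw [h8] at hrl
            refine ⟨by omega, ?_⟩
            have h9 : n - ℓ = d r := by omega
            rw [h9]; exact h5
  choose! y hy using hreal
  refine ⟨fun i => y i.1, ?_⟩
  apply Nat.dvd_antisymm
  · apply orderOf_dvd_of_pow_eq_one
    ext i
    simp only [Pi.pow_apply, Pi.one_apply]
    apply orderOf_dvd_iff_pow_eq_one.1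
    rw [hy i.1 i.2]
    have h5 : ∏ r ∈ T i.1, P r ∣ ∏ r ∈ M.primeFactors, P r :=
      Finset.prod_dvd_prod_of_subset _ _ _ (hTsub i.1)
    have h6 : ∏ r ∈ M.primeFactors, P r = M := (Nat.prod_primeFactors_pow_factorization hM).symm
    rwa [h6] at h5
  · rw [Nat.dvd_iff_prime_pow_dvd_dvd]
    intro p k hp hpk
    have hpM : p ∣ M ∨ k = 0 := by
      by_cases hk : k = 0
      · right; exact hk
      · left; exact (dvd_pow_self p hk).trans hpk
    rcases hpM with hpM | rfl
    · have hmem : p ∈ M.primeFactors := Nat.mem_primeFactors.2 ⟨hp, hpM, hM⟩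
      have h1 : p ^ k ∣ P p := by
        apply pow_dvd_pow
        exact (hp.pow_dvd_iff_le_factorization hM).1 hpk
      have h2 : P p ∣ ∏ r ∈ T (label p), P r :=
        Finset.dvd_prod_of_mem P (Finset.mem_filter.2 ⟨hmem, rfl⟩)
      rw [← hy _ (hlabel p hmem)] at h2
      refine h1.trans (h2.trans ?_)
      apply orderOf_dvd_of_pow_eq_one
      have := congrFun (pow_orderOf_eq_one (fun i : Fin ((n + 3) / 2) => y i.1)) ⟨label p, hlabel p hmem⟩
      simpa using this
    · simp

end main

/-- Let F be the field with two elements, n ≥ 2, L = PSL(n, F) and k₀ = ⌊(n + 3)/2⌋. Then for every k ≥ k₀ the direct product of k copies of L has the same set of element orders as the direct product of k₀ copies of L. -/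
theorem result {F : Type*} [Field F] [Fintype F] (hF : Fintype.card F = 2) (n k : ℕ) (hn : 2 ≤ n) (hk : (n + 3) / 2 ≤ k) :
    Set.range (orderOf : (Fin k → Matrix.ProjectiveSpecialLinearGroup (Fin n) F) → ℕ) = Set.range (orderOf : (Fin ((n + 3) / 2) → Matrix.ProjectiveSpecialLinearGroup (Fin n) F) → ℕ) := by
  classical
  apply Set.eq_of_subset_of_subset
  · rintro _ ⟨z, rfl⟩
    have hM : orderOf z ≠ 0 := (orderOf_pos z).ne'
    suffices h : _ ∧ _ by
      obtain ⟨y, hy⟩ := exists_tuple hF n (orderOf z) hn hM h.1 h.2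
      exact ⟨y, hy⟩
    constructor
    · -- the `2`-part
      intro h2
      obtain ⟨i, hi⟩ := exists_coord z 2 Nat.prime_two h2
      obtain ⟨c, hc⟩ := hi
      refine ⟨z i ^ c, ?_⟩
      have hc0 : c ≠ 0 := by
        rintro rfl
        have := orderOf_pos (z i)
        omega
      rw [orderOf_pow_of_dvd hc0 ⟨_, by rw [hc, mul_comm]⟩, hc]
      exact Nat.mul_div_cancel _ (Nat.pos_of_ne_zero hc0)
    · intro r hr hrM hr2
      obtain ⟨i, hi⟩ := exists_coord z r hr hrM
      obtain ⟨c, hc⟩ := hi
      have hc0 : c ≠ 0 := by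
        rintro rfl
        have := orderOf_pos (z i)
        omega
      have hord : orderOf (z i ^ c) = r ^ (orderOf z).factorization r := by
        rw [orderOf_pow_of_dvd hc0 ⟨_, by rw [hc, mul_comm]⟩, hc]
        exact Nat.mul_div_cancel _ (Nat.pos_of_ne_zero hc0)
      obtain ⟨A, hA, hA2⟩ := exists_matrix hF (z i ^ c)
      rw [hord] at hA2
      have hpos : (orderOf z).factorization r ≠ 0 := by
        have := hr.factorization_pos_of_dvd hM hrM
        omega
      obtain ⟨a, ha⟩ : ∃ a, (orderOf z).factorization r = a + 1 :=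
        ⟨(orderOf z).factorization r - 1, by omega⟩
      rw [ha] at hA2 ⊢
      have hrF : (r : F) ≠ 0 := by
        intro h0
        -- characteristic two
        have h20 : (2 : F) = 0 := by
          have := FiniteField.cast_card_eq_zero F
          rw [hF] at this
          exact_mod_cast this
        obtain ⟨m, hm⟩ := hr.eq_two_or_odd'.resolve_left hr2
        rw [hm] at h0
        push_cast at h0
        rw [h20] at h0
        simp at h0
      have h1 : (A : Matrix (Fin n) (Fin n) F) ^ (r ^ (a + 1)) = 1 := by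
        have := pow_orderOf_eq_one A
        rw [hA2] at this
        have h3 := congrArg (fun B : Matrix.SpecialLinearGroup (Fin n) F => (B : Matrix (Fin n) (Fin n) F)) this
        simpa using h3
      have h2 : (A : Matrix (Fin n) (Fin n) F) ^ (r ^ a) ≠ 1 := by
        intro h3
        have h4 : A ^ (r ^ a) = 1 := by
          apply Subtype.ext
          simpa using h3
        have h5 := orderOf_dvd_of_pow_eq_one h4
        rw [hA2] at h5
        have h6 := (Nat.pow_dvd_pow_iff_le_right hr.one_lt).1 h5
        omega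
      obtain ⟨d, hd1, hd2, hd3⟩ := exists_degree_of_order _ r a hr hrF h1 h2
      rw [hF] at hd3
      exact ⟨d, hd1, hd2, hd3⟩
  · rintro _ ⟨y, rfl⟩
    -- pad with the identity
    let φ : (Fin ((n + 3) / 2) → Matrix.ProjectiveSpecialLinearGroup (Fin n) F) →*
        (Fin k → Matrix.ProjectiveSpecialLinearGroup (Fin n) F) :=
      { toFun := fun y i => if h : i.1 < (n + 3) / 2 then y ⟨i.1, h⟩ else 1
        map_one' := by
          ext i
          simp only [Pi.one_apply]
          split_ifs <;> rfl
        map_mul' := by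
          intro a b
          ext i
          simp only [Pi.mul_apply]
          split_ifs <;> simp }
    have hφ : Function.Injective φ := by
      intro a b hab
      ext i
      have := congrFun hab ⟨i.1, by omega⟩
      simpa [φ, i.2] using this
    exact ⟨φ y, orderOf_injective φ hφ y⟩

end Cfsg.Agent.S2513
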