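import Mathlib
import Cfsg.Statements.S2514

set_option autoImplicit false
open Cfsg

namespace Cfsg.Agent.S2514

section aux
variable {X : Type*} [Group X] [Finite X]

lemma order_dvd_mem (d : ℕ) (m : ℕ) (hd : d ∣ m) (hm : m ∈ Set.range (orderOf : X → ℕ)) :
    d ∈ Set.range (orderOf : X → ℕ) := by
  obtain ⟨x, rfl⟩ := hm
  exact ⟨x ^ (orderOf x / d), orderOf_pow_orderOf_div (orderOf_pos x).ne' hd⟩

lemma exists_max (d : ℕ) (hd : d ∈ Set.range (orderOf : X → ℕ)) :
    ∃ m, d ∣ m ∧ m ∈ {n : ℕ | n ∈ Set.range (orderOf : X → ℕ) ∧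
      ∀ m ∈ Set.range (orderOf : X → ℕ), n ∣ m → m = n} := by
  have hfin : (Set.range (orderOf : X → ℕ)).Finite := Set.finite_range _
  have hS : ({m | m ∈ Set.range (orderOf : X → ℕ) ∧ d ∣ m} : Set ℕ).Finite :=
    hfin.subset (fun m hm => hm.1)
  have hne : ({m | m ∈ Set.range (orderOf : X → ℕ) ∧ d ∣ m} : Set ℕ).Nonempty := ⟨d, hd, dvd_rfl⟩
  obtain ⟨m, hm⟩ := hS.exists_maximal hne
  refine ⟨m, hm.prop.2, hm.prop.1, ?_⟩
  intro m' hm' hdvd
  have hle : m ≤ m' := by
    obtain ⟨x, rfl⟩ := hm'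
    exact Nat.le_of_dvd (orderOf_pos x) hdvd
  have h2 : m' ≤ m := hm.le_of_ge ⟨hm', hm.prop.2.trans hdvd⟩ hle
  omega

end aux

variable {G H : Type*} [Group G] [Finite G] [Group H] [Finite H]

lemma core (k : ℕ)
    (hsub : {n : ℕ | n ∈ Set.range (orderOf : H → ℕ) ∧ ∀ m ∈ Set.range (orderOf : H → ℕ), n ∣ m → m = n} ⊆ {n : ℕ | n ∈ Set.range (orderOf : G → ℕ) ∧ ∀ m ∈ Set.range (orderOf : G → ℕ), n ∣ m → m = n})
    (hfew : ({n : ℕ | n ∈ Set.range (orderOf : G → ℕ) ∧ ∀ m ∈ Set.range (orderOf : G → ℕ), n ∣ m → m = n} \ {n : ℕ | n ∈ Set.range (orderOf : H → ℕ) ∧ ∀ m ∈ Set.range (orderOf : H → ℕ), n ∣ m → m = n}).ncard < k + 1) :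
    Set.range (orderOf : (Fin (k + 1) → G) → ℕ) = Set.range (orderOf : (Fin k → G) × H → ℕ) := by
  classical
  ext M
  constructor
  · rintro ⟨f, rfl⟩
    -- choose maximal elements above the orders of coordinates
    have hch : ∀ i, ∃ m, orderOf (f i) ∣ m ∧ m ∈ {n : ℕ | n ∈ Set.range (orderOf : G → ℕ) ∧
        ∀ m ∈ Set.range (orderOf : G → ℕ), n ∣ m → m = n} :=
      fun i => exists_max _ ⟨f i, rfl⟩
    choose m hm1 hm2 using hch
    by_cases hcase : ∃ i, m i ∈ {n : ℕ | n ∈ Set.range (orderOf : H → ℕ) ∧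
        ∀ m ∈ Set.range (orderOf : H → ℕ), n ∣ m → m = n}
    · obtain ⟨i, hi⟩ := hcase
      obtain ⟨h, hh⟩ := order_dvd_mem (X := H) (orderOf (f i)) (m i) (hm1 i) hi.1
      refine ⟨(fun l => f (i.succAbove l), h), ?_⟩
      rw [Prod.orderOf_mk, Pi.orderOf, Pi.orderOf, hh]
      apply Nat.dvd_antisymm
      · apply Nat.lcm_dvd
        · apply Finset.lcm_dvd
          intro l _
          exact Finset.dvd_lcm (f := fun i => orderOf (f i)) (Finset.mem_univ _)
        · exact Finset.dvd_lcm (f := fun i => orderOf (f i)) (Finset.mem_univ _)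
      · apply Finset.lcm_dvd
        intro t _
        rcases Fin.eq_self_or_eq_succAbove i t with rfl | ⟨l, rfl⟩
        · exact Nat.dvd_lcm_right _ _
        · exact (Finset.dvd_lcm (f := fun l => orderOf (f (i.succAbove l))) (Finset.mem_univ l)).trans
            (Nat.dvd_lcm_left _ _)
    · -- pigeonhole
      push Not at hcase
      set S := ({n : ℕ | n ∈ Set.range (orderOf : G → ℕ) ∧ ∀ m ∈ Set.range (orderOf : G → ℕ), n ∣ m → m = n} \ {n : ℕ | n ∈ Set.range (orderOf : H → ℕ) ∧ ∀ m ∈ Set.range (orderOf : H → ℕ), n ∣ m → m = n}) with hS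
      have hSfin : S.Finite := (Set.finite_range (orderOf : G → ℕ)).subset (fun n hn => hn.1.1)
      have hmem : ∀ i, m i ∈ S := fun i => ⟨hm2 i, fun hc => hcase i hc⟩
      have hcard : hSfin.toFinset.card < (Finset.univ : Finset (Fin (k + 1))).card := by
        rw [← Set.ncard_eq_toFinset_card S hSfin]
        simpa using hfew
      obtain ⟨i, _, j, _, hij, hmij⟩ := Finset.exists_ne_map_eq_of_card_lt_of_maps_to hcard
        (f := m) (fun i _ => by simpa using hmem i)
      -- i ≠ j, same maximal order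
      obtain ⟨i', rfl⟩ : ∃ i', i = j.succAbove i' := by
        rcases Fin.eq_self_or_eq_succAbove j i with h | h
        · exact absurd h hij
        · exact h
      set d := Nat.lcm (orderOf (f (j.succAbove i'))) (orderOf (f j)) with hd
      have hdm : d ∣ m j := Nat.lcm_dvd (hmij ▸ hm1 _) (hm1 j)
      obtain ⟨x, hx⟩ := order_dvd_mem (X := G) d (m j) hdm (hm2 j).1
      refine ⟨(fun l => if l = i' then x else f (j.succAbove l), 1), ?_⟩
      rw [Prod.orderOf_mk, orderOf_one, Nat.lcm_one_right, Pi.orderOf, Pi.orderOf]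
      apply Nat.dvd_antisymm
      · apply Finset.lcm_dvd
        intro l _
        by_cases hl : l = i'
        · simp only [hl, if_true, hx]
          apply Nat.lcm_dvd
          · exact Finset.dvd_lcm (f := fun i => orderOf (f i)) (Finset.mem_univ _)
          · exact Finset.dvd_lcm (f := fun i => orderOf (f i)) (Finset.mem_univ _)
        · simp only [hl, if_false]
          exact Finset.dvd_lcm (f := fun i => orderOf (f i)) (Finset.mem_univ _)
      · apply Finset.lcm_dvd
        intro t _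
        have hxdvd : d ∣ Finset.univ.lcm (fun l => orderOf (if l = i' then x else f (j.succAbove l))) := by
          have := Finset.dvd_lcm (f := fun l => orderOf (if l = i' then x else f (j.succAbove l))) (Finset.mem_univ i')
          simpa [hx] using this
        rcases Fin.eq_self_or_eq_succAbove j t with rfl | ⟨l, rfl⟩
        · exact (Nat.dvd_lcm_right _ _).trans hxdvd
        · by_cases hl : l = i'
          · subst hl
            exact (Nat.dvd_lcm_left _ _).trans hxdvd
          · have := Finset.dvd_lcm (f := fun l => orderOf (if l = i' then x else f (j.succAbove l))) (Finset.mem_univ l)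
            simpa [hl] using this
  · rintro ⟨⟨g, h⟩, rfl⟩
    obtain ⟨m, hm1, hm2⟩ := exists_max (X := H) (orderOf h) ⟨h, rfl⟩
    obtain ⟨x, hx⟩ := order_dvd_mem (X := G) (orderOf h) m hm1 (hsub hm2).1
    refine ⟨Fin.cons x g, ?_⟩
    rw [Prod.orderOf_mk, Pi.orderOf, Pi.orderOf, ← hx]
    apply Nat.dvd_antisymm
    · apply Finset.lcm_dvd
      intro t _
      induction t using Fin.cases with
      | zero => simpa using Nat.dvd_lcm_right _ _
      | succ l =>
        simp only [Fin.cons_succ]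
        exact (Finset.dvd_lcm (f := fun l => orderOf (g l)) (Finset.mem_univ l)).trans (Nat.dvd_lcm_left _ _)
    · apply Nat.lcm_dvd
      · apply Finset.lcm_dvd
        intro l _
        have := Finset.dvd_lcm (f := fun t : Fin (k + 1) => orderOf ((Fin.cons x g : Fin (k + 1) → G) t)) (Finset.mem_univ l.succ)
        simpa using this
      · have := Finset.dvd_lcm (f := fun t : Fin (k + 1) => orderOf ((Fin.cons x g : Fin (k + 1) → G) t)) (Finset.mem_univ 0)
        simpa using this

/-- For a finite group X write μ(X) for the set of element orders of X that are maximal under divisibility. Let G and H be finite groups and k ≥ 1 such that μ(H) ⊆ μ(G) and μ(G) has fewer than k elements outside μ(H). Then the direct product of k copies of G has the same set of element orders as the direct product of k − 1 copies of G with H. -/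
theorem result {G H : Type*} [Group G] [Finite G] [Group H] [Finite H] (k : ℕ) (hk : 1 ≤ k)
    (hsub : {n : ℕ | n ∈ Set.range (orderOf : H → ℕ) ∧ ∀ m ∈ Set.range (orderOf : H → ℕ), n ∣ m → m = n} ⊆ {n : ℕ | n ∈ Set.range (orderOf : G → ℕ) ∧ ∀ m ∈ Set.range (orderOf : G → ℕ), n ∣ m → m = n})
    (hfew : ({n : ℕ | n ∈ Set.range (orderOf : G → ℕ) ∧ ∀ m ∈ Set.range (orderOf : G → ℕ), n ∣ m → m = n} \ {n : ℕ | n ∈ Set.range (orderOf : H → ℕ) ∧ ∀ m ∈ Set.range (orderOf : H → ℕ), n ∣ m → m = n}).ncard < k) :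
    Set.range (orderOf : (Fin k → G) → ℕ) = Set.range (orderOf : (Fin (k - 1) → G) × H → ℕ) := by
  obtain ⟨k', rfl⟩ : ∃ k', k = k' + 1 := ⟨k - 1, by omega⟩
  exact core k' hsub hfew

end Cfsg.Agent.S2514
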