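import Mathlib
import Cfsg.Statements.S2515
import Cfsg.Agent.Lib.SL2Torus

set_option autoImplicit false
open Cfsg

namespace Cfsg.Agent.S2515

open Matrix Cfsg.Agent.Lib.SL2Core Cfsg.Agent.Lib.SL2Torus

section algebra

lemma key_trace {F A : Type*} [Field F] [Ring A] [Algebra F A] (g M w : A) (τ τ' s : F) (hs : s * s = 1)
    (hg : g * g = τ • g - 1) (hw : w * w = τ' • w - 1) (hM : g * M * w = s • M) :
    (τ * s - τ') • M = 0 := by
  set w' : A := τ' • 1 - w with hw'
  have h1 : w * w' = 1 := by
    rw [hw', mul_sub, mul_smul_comm, mul_one, hw]; abel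
  have h2 : w' * w = 1 := by
    rw [hw', sub_mul, smul_mul_assoc, one_mul, hw]; abel
  have h3 : g * M = s • (M * w') := by
    calc g * M = g * M * (w * w') := by rw [h1, mul_one]
      _ = (g * M * w) * w' := by rw [mul_assoc (g * M)]
      _ = s • (M * w') := by rw [hM, smul_mul_assoc]
  have h4 : g * (g * M) = M * (w' * w') := by
    calc g * (g * M) = g * (s • (M * w')) := by rw [h3]
      _ = s • ((g * M) * w') := by rw [mul_smul_comm, mul_assoc]
      _ = s • ((s • (M * w')) * w') := by rw [h3]
      _ = (s * s) • (M * (w' * w')) := by rw [smul_mul_assoc, smul_smul, mul_assoc]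
      _ = M * (w' * w') := by rw [hs, one_smul]
  have h5 : w' * w' = τ' • w' - 1 := by
    have h6 : w' * w' = w' * (τ' • 1 - w) := by rw [← hw']
    rw [h6, mul_sub, mul_smul_comm, mul_one, h2]
  have h7 : g * (g * M) = τ • (g * M) - M := by
    rw [← mul_assoc, hg, sub_mul, smul_mul_assoc, one_mul]
  have h11 : τ • (s • (M * w')) - M = τ' • (M * w') - M := by
    calc τ • (s • (M * w')) - M = τ • (g * M) - M := by rw [h3]
      _ = g * (g * M) := h7.symm
      _ = M * (w' * w') := h4
      _ = M * (τ' • w' - 1) := by rw [h5]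
      _ = τ' • (M * w') - M := by rw [mul_sub, mul_smul_comm, mul_one]
  have h8 : (τ * s) • (M * w') = τ' • (M * w') := by
    rw [← smul_smul]
    exact sub_left_inj.1 h11
  have h9 : (τ * s - τ') • (M * w') = 0 := by
    rw [sub_smul, h8, sub_self]
  have h10 := congrArg (fun x => x * w) h9
  simp only [smul_mul_assoc, zero_mul, mul_assoc, h2, mul_one] at h10
  exact h10

end algebra

section twist

variable {F : Type*} [Field F] [CharP F 3]

instance : Fact (Nat.Prime 3) := ⟨Nat.prime_three⟩

/-- The transposed Frobenius twist, as an anti-homomorphism of `SL₂`. -/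
def tw (g : SL2 F) : SL2 F :=
  ⟨((g : Matrix (Fin 2) (Fin 2) F).map (frobenius F 3))ᵀ, by
    rw [Matrix.det_transpose, ← RingHom.mapMatrix_apply, ← RingHom.map_det, g.2, map_one]⟩

@[simp] lemma tw_coe (g : SL2 F) : ((tw g : SL2 F) : Matrix (Fin 2) (Fin 2) F) =
    ((g : Matrix (Fin 2) (Fin 2) F).map (frobenius F 3))ᵀ := rfl

lemma tw_mul (g h : SL2 F) : tw (g * h) = tw h * tw g := by
  apply Subtype.ext
  show (((g * h : SL2 F) : Matrix (Fin 2) (Fin 2) F).map (frobenius F 3))ᵀ =
    ((h : Matrix (Fin 2) (Fin 2) F).map (frobenius F 3))ᵀ * ((g : Matrix (Fin 2) (Fin 2) F).map (frobenius F 3))ᵀ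
  rw [← Matrix.transpose_mul, Matrix.SpecialLinearGroup.coe_mul, Matrix.map_mul]

lemma tw_one : tw (1 : SL2 F) = 1 := by
  apply Subtype.ext
  show (((1 : SL2 F) : Matrix (Fin 2) (Fin 2) F).map (frobenius F 3))ᵀ = _
  simp

lemma tr_tw (g : SL2 F) : tr (tw g) = tr g ^ 3 := by
  rw [tr_eq, tr_eq]
  show ((g : Matrix (Fin 2) (Fin 2) F).map (frobenius F 3))ᵀ 0 0 + ((g : Matrix (Fin 2) (Fin 2) F).map (frobenius F 3))ᵀ 1 1 = _
  simp only [Matrix.transpose_apply, Matrix.map_apply]
  rw [← map_add]
  rfl

/-- The underlying action on matrices. -/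
def act (g : SL2 F) (M : Matrix (Fin 2) (Fin 2) F) : Matrix (Fin 2) (Fin 2) F :=
  (g : Matrix (Fin 2) (Fin 2) F) * M * (tw g : SL2 F)

lemma act_mul (g h : SL2 F) (M : Matrix (Fin 2) (Fin 2) F) : act (g * h) M = act g (act h M) := by
  unfold act
  rw [tw_mul]
  simp only [Matrix.SpecialLinearGroup.coe_mul, Matrix.mul_assoc]

lemma act_one (M : Matrix (Fin 2) (Fin 2) F) : act (1 : SL2 F) M = M := by
  unfold act
  rw [tw_one]
  simp

lemma act_add (g : SL2 F) (M N : Matrix (Fin 2) (Fin 2) F) : act g (M + N) = act g M + act g N := by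
  unfold act
  rw [Matrix.mul_add, Matrix.add_mul]

/-- The multiplicative version of the underlying additive group. -/
abbrev MV (F : Type*) [Field F] := Multiplicative (Matrix (Fin 2) (Fin 2) F)

/-- The automorphism attached to an element of `SL₂`. -/
def actAut (g : SL2 F) : MulAut (MV F) :=
  AddEquiv.toMultiplicative
    { toFun := act g
      invFun := act g⁻¹
      left_inv := fun M => by rw [← act_mul, inv_mul_cancel, act_one]
      right_inv := fun M => by rw [← act_mul, mul_inv_cancel, act_one]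
      map_add' := act_add g }

lemma actAut_apply (g : SL2 F) (M : MV F) : actAut g M = Multiplicative.ofAdd (act g M.toAdd) := rfl

/-- The homomorphism to automorphisms. -/
def psi0 : SL2 F →* MulAut (MV F) :=
  MonoidHom.mk' actAut (fun g h => by
    ext M
    show act (g * h) _ _ _ = act g (act h _) _ _
    rw [act_mul])

lemma act_neg (g : SL2 F) (M : Matrix (Fin 2) (Fin 2) F) : act (negS g) M = act g M := by
  have h1 : ((tw (negS g) : SL2 F) : Matrix (Fin 2) (Fin 2) F) = -((tw g : SL2 F) : Matrix (Fin 2) (Fin 2) F) := by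
    simp only [tw_coe, negS_coe]
    ext i j
    simp only [Matrix.transpose_apply, Matrix.map_apply, Matrix.neg_apply]
    rw [map_neg]
  unfold act
  rw [h1, negS_coe]
  simp [Matrix.neg_mul, Matrix.mul_neg]

lemma psi0_center (x : SL2 F) (hx : x ∈ Subgroup.center (SL2 F)) : psi0 x = 1 := by
  rcases center_eq _ hx with rfl | rfl
  · exact map_one _
  · ext M
    show act (negS 1) _ _ _ = _
    rw [act_neg, act_one]
    rfl

/-- The action of `PSL₂`. -/
def psi1 : PSL2 F →* MulAut (MV F) :=
  QuotientGroup.lift _ psi0 psi0_center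

lemma psi1_proj (g : SL2 F) : psi1 (proj g) = psi0 g := rfl

/-- The automorphism attached to a sign. -/
def sgnAut (u : ℤˣ) : MulAut (MV F) :=
  AddEquiv.toMultiplicative
    { toFun := fun M => u • M
      invFun := fun M => u⁻¹ • M
      left_inv := fun M => inv_smul_smul u M
      right_inv := fun M => smul_inv_smul u M
      map_add' := fun M N => smul_add u M N }

/-- The action of the sign group. -/
def psi2 : ℤˣ →* MulAut (MV F) :=
  MonoidHom.mk' sgnAut (fun u v => by
    ext M i j
    show ((u * v) • Multiplicative.toAdd M) i j = (u • v • Multiplicative.toAdd M) i j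
    rw [mul_smul])

lemma psi2_comm (x : PSL2 F) (u : ℤˣ) : Commute (psi1 x) (psi2 u : MulAut (MV F)) := by
  obtain ⟨g, rfl⟩ := proj_surjective x
  show _ * _ = _ * _
  ext M i j
  show act g (u • Multiplicative.toAdd M) i j = (u • act g (Multiplicative.toAdd M)) i j
  rcases Int.units_eq_one_or u with rfl | rfl
  · simp
  · simp only [Units.neg_smul, one_smul]
    unfold act
    simp [Matrix.mul_neg, Matrix.neg_mul]

/-- The full action. -/
def theta : PSL2 F × ℤˣ →* MulAut (MV F) :=
  MonoidHom.noncommCoprod psi1 psi2 psi2_comm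

lemma theta_apply (g : SL2 F) (u : ℤˣ) (M : MV F) :
    theta (proj g, u) M = Multiplicative.ofAdd (act g (u • M.toAdd)) := rfl

end twist

section semidirect

variable {F : Type*} [Field F] [CharP F 3]

/-- The group. -/
abbrev HH (F : Type*) [Field F] [CharP F 3] := MV F ⋊[theta (F := F)] (PSL2 F × ℤˣ)

lemma three_smul_zero (M : Matrix (Fin 2) (Fin 2) F) : (3 : ℕ) • M = 0 := by
  have h : ((3 : ℕ) : F) = 0 := CharP.cast_eq_zero F 3
  ext i j
  simp only [Matrix.smul_apply, Matrix.zero_apply, nsmul_eq_mul]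
  rw [h, zero_mul]

lemma right_pow (x : HH F) (k : ℕ) : (x ^ k).right = x.right ^ k :=
  map_pow (SemidirectProduct.rightHom) x k

/-- Powers of an element of the kernel. -/
lemma pow_three_of_right_one (y : HH F) (hy : y.right = 1) : y ^ 3 = 1 := by
  have h1 : y = SemidirectProduct.inl y.left := by
    ext1
    · rfl
    · exact hy
  rw [h1, ← map_pow]
  have h2 : y.left ^ 3 = 1 := by
    apply Multiplicative.toAdd.injective
    simpa using three_smul_zero (Multiplicative.toAdd y.left)
  rw [h2, map_one]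

lemma pow_mul_three (x : HH F) (k : ℕ) (h : x.right ^ k = 1) : x ^ (k * 3) = 1 := by
  rw [pow_mul]
  apply pow_three_of_right_one
  rw [right_pow, h]

/-- The telescoping: when the automorphism is fixed-point free, powers of `x` behave as powers of `x.right`. -/
lemma pow_eq_one_of_free [Finite F] (x : HH F)
    (hfree : ∀ M : Matrix (Fin 2) (Fin 2) F,
      Multiplicative.toAdd (theta x.right (Multiplicative.ofAdd M)) = M → M = 0) (k : ℕ)
    (h : x.right ^ k = 1) : x ^ k = 1 := by
  classical
  set T : Matrix (Fin 2) (Fin 2) F → Matrix (Fin 2) (Fin 2) F :=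
    fun M => Multiplicative.toAdd (theta x.right (Multiplicative.ofAdd M)) with hT
  have hTadd : ∀ M N, T (M + N) = T M + T N := by
    intro M N
    have := map_mul (theta x.right) (Multiplicative.ofAdd M) (Multiplicative.ofAdd N)
    exact congrArg Multiplicative.toAdd this
  -- `M ↦ T M - M` is bijective
  let D : Matrix (Fin 2) (Fin 2) F →+ Matrix (Fin 2) (Fin 2) F :=
    { toFun := fun M => T M - M
      map_zero' := by
        have := map_one (theta x.right)
        have h0 : T 0 = 0 := by
          have := map_one (theta x.right : MulAut (MV F))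
          exact congrArg Multiplicative.toAdd this
        simp [h0]
      map_add' := fun M N => by
        show T (M + N) - (M + N) = T M - M + (T N - N)
        rw [hTadd]; abel }
  have hDinj : Function.Injective D := by
    rw [injective_iff_map_eq_zero]
    intro M hM
    exact hfree M (sub_eq_zero.1 hM)
  haveI : Finite (Matrix (Fin 2) (Fin 2) F) := by
    unfold Matrix; infer_instance
  have hDsurj : Function.Surjective D := Finite.injective_iff_surjective.1 hDinj
  obtain ⟨w, hw⟩ := hDsurj (Multiplicative.toAdd x.left)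
  -- conjugate to the complement
  have hconj : x = (SemidirectProduct.inl (Multiplicative.ofAdd (-w))) * SemidirectProduct.inr x.right *
      (SemidirectProduct.inl (Multiplicative.ofAdd (-w)))⁻¹ := by
    ext1
    · simp only [SemidirectProduct.mul_left, SemidirectProduct.left_inl, SemidirectProduct.left_inr,
        SemidirectProduct.right_inl, SemidirectProduct.right_inr, SemidirectProduct.inv_left,
        SemidirectProduct.inv_right, map_one, mul_one, MulAut.one_apply, one_mul, inv_one]
      apply Multiplicative.toAdd.injective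
      have h1 : T w - w = Multiplicative.toAdd x.left := hw
      rw [← h1]
      simp only [SemidirectProduct.mul_right, SemidirectProduct.right_inl, SemidirectProduct.right_inr, one_mul]
      have h2 : (Multiplicative.ofAdd (-w) : MV F)⁻¹ = Multiplicative.ofAdd w := by
        rw [← ofAdd_neg, neg_neg]
      rw [h2, toAdd_mul, toAdd_ofAdd]
      show T w - w = -w + T w
      abel
    · simp
  rw [hconj, conj_pow, ← map_pow, h, map_one, mul_one, mul_inv_cancel]

/-- Fixed points force a trace condition. -/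
lemma fixed_trace (g : SL2 F) (u : ℤˣ) (M : Matrix (Fin 2) (Fin 2) F)
    (hM : act g (u • M) = M) : (tr g * (((u : ℤ) : F)) - tr g ^ 3) • M = 0 := by
  have hs : (((u : ℤ) : F)) * (((u : ℤ) : F)) = 1 := by
    rcases Int.units_eq_one_or u with rfl | rfl <;> simp
  apply key_trace (g : Matrix (Fin 2) (Fin 2) F) M ((tw g : SL2 F) : Matrix (Fin 2) (Fin 2) F)
    (tr g) (tr g ^ 3) _ hs
  · exact cayley g
  · rw [← tr_tw]; exact cayley (tw g)
  · have h1 : (g : Matrix (Fin 2) (Fin 2) F) * M * ((tw g : SL2 F) : Matrix (Fin 2) (Fin 2) F) = u • M := by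
      rcases Int.units_eq_one_or u with rfl | rfl
      · simpa [act] using hM
      · have h2 : act g (-M) = -act g M := by
          unfold act; simp [Matrix.mul_neg, Matrix.neg_mul]
        have h3 : act g (((-1 : ℤˣ)) • M) = - act g M := by
          rw [Units.neg_smul, one_smul, h2]
        rw [h3] at hM
        have h4 : act g M = -M := neg_eq_iff_eq_neg.mp hM
        simpa [act] using h4
    rw [h1]
    rcases Int.units_eq_one_or u with rfl | rfl <;> simp

lemma four_eq_one : (4 : F) = 1 := by
  have h : ((3 : ℕ) : F) = 0 := CharP.cast_eq_zero F 3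
  push_cast at h
  linear_combination h

lemma proj_sq_of_tr_zero (g : SL2 F) (h : tr g = 0) : (proj g) ^ 2 = 1 := by
  rw [← map_pow, proj_eq_one_iff]
  have h1 : g ^ 2 = negS 1 := by
    apply Subtype.ext
    rw [pow_two]
    show (g : Matrix (Fin 2) (Fin 2) F) * (g : Matrix (Fin 2) (Fin 2) F) = _
    rw [cayley, h, zero_smul, zero_sub]
    simp
  rw [h1, mem_center_iff']
  simp [negS, Matrix.neg_apply]

/-- Every element has order dividing one of the four numbers. -/
lemma order_cases [Fintype F] (h3q : Fintype.card F % 4 = 3) (x : HH F) :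
    x ^ 6 = 1 ∨ x ^ 9 = 1 ∨ x ^ (Fintype.card F - 1) = 1 ∨ x ^ ((Fintype.card F + 1) / 2) = 1 := by
  classical
  set q := Fintype.card F with hq
  have : Finite F := Finite.of_fintype F
  obtain ⟨g, hg⟩ := proj_surjective (x.right.1)
  set u := x.right.2 with hu
  have hx : x.right = (proj g, u) := Prod.ext hg.symm rfl
  have hgk : ∀ k, (proj g) ^ k = 1 → (Even k ∨ u = 1) → x.right ^ k = 1 := by
    intro k h1 h2
    rw [hx]
    apply Prod.ext
    · exact h1
    · show u ^ k = 1
      rcases h2 with h2 | h2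
      · rcases Int.units_eq_one_or u with h3 | h3
        · rw [h3, one_pow]
        · rw [h3]; exact h2.neg_one_pow
      · rw [h2, one_pow]
  have hneg : ∀ t : F, t ^ 2 ≠ -1 := by
    intro t ht
    have h1 : IsSquare (-1 : F) := ⟨t, by rw [← ht, pow_two]⟩
    rw [FiniteField.isSquare_neg_one_iff] at h1
    exact h1 h3q
  have hfree : (tr g * (((u : ℤ) : F)) - tr g ^ 3) ≠ 0 →
      ∀ M : Matrix (Fin 2) (Fin 2) F, Multiplicative.toAdd (theta x.right (Multiplicative.ofAdd M)) = M → M = 0 := by
    intro hne M hM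
    rw [hx, theta_apply] at hM
    have h1 := fixed_trace g u M hM
    exact (smul_eq_zero.mp h1).resolve_left hne
  have h3F : (3 : F) = 0 := by
    have h : ((3 : ℕ) : F) = 0 := CharP.cast_eq_zero F 3
    exact_mod_cast h
  by_cases h0 : tr g = 0
  · left
    exact pow_mul_three x 2 (hgk 2 (proj_sq_of_tr_zero g h0) (Or.inl even_two))
  by_cases h1 : tr g ^ 2 = 1
  · have h3 : proj g ^ 3 = 1 := proj_pow_of_parabolic 3 g (by rw [four_eq_one, ← pow_two, h1])
    rcases Int.units_eq_one_or u with hu1 | hu1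
    · right; left
      exact pow_mul_three x 3 (hgk 3 h3 (Or.inr hu1))
    · left
      refine pow_eq_one_of_free x (hfree ?_) 6 (hgk 6 ?_ (Or.inl (by decide)))
      · rw [hu1]
        intro hc
        apply h0
        have h5 : tr g ^ 3 = tr g := by
          rw [pow_succ, h1, one_mul]
        rw [h5] at hc
        push_cast at hc
        linear_combination hc + (tr g) * h3F
      · rw [show 6 = 3 * 2 by norm_num, pow_mul, h3, one_pow]
  · have hne : tr g * (((u : ℤ) : F)) - tr g ^ 3 ≠ 0 := by
      intro hc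
      rcases Int.units_eq_one_or u with hu1 | hu1
      · rw [hu1] at hc
        push_cast at hc
        have h6 : tr g * (1 - tr g ^ 2) = 0 := by linear_combination hc
        rcases mul_eq_zero.mp h6 with h7 | h7
        · exact h0 h7
        · exact h1 (by linear_combination (-1 : F) * h7)
      · rw [hu1] at hc
        push_cast at hc
        have h6 : tr g * (tr g ^ 2 + 1) = 0 := by linear_combination (-1 : F) * hc
        rcases mul_eq_zero.mp h6 with h7 | h7
        · exact h0 h7
        · exact hneg _ (by linear_combination h7)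
    have hodd : q % 4 = 3 := h3q
    have hgcd1 : Nat.gcd 2 (q - 1) = 2 := by
      apply Nat.gcd_eq_left
      omega
    have hgcd2 : Nat.gcd 2 (q + 1) = 2 := by
      apply Nat.gcd_eq_left
      omega
    by_cases hs : ∃ l : F, l * l - tr g * l + 1 = 0
    · right; right; left
      obtain ⟨l, hl⟩ := hs
      have h8 := proj_pow_of_split g l hl (by
        rw [four_eq_one, ← pow_two]; exact h1)
      rw [← hq, hgcd1] at h8
      refine pow_eq_one_of_free x (hfree hne) _ (hgk _ ?_ (Or.inl ?_))
      · have h9 : q - 1 = (q - 1) / 2 * 2 := by omega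
        rw [h9, pow_mul, h8, one_pow]
      · rw [Nat.even_iff]; omega
    · right; right; right
      push Not at hs
      have h8 := proj_pow_of_nonsplit g hs
      rw [← hq, hgcd2] at h8
      refine pow_eq_one_of_free x (hfree hne) _ (hgk _ h8 (Or.inl ?_))
      rw [Nat.even_iff]; omega

/-- Orders of the three complement elements. -/
lemma orderOf_inr (y : PSL2 F × ℤˣ) : orderOf (SemidirectProduct.inr y : HH F) = orderOf y :=
  orderOf_injective _ SemidirectProduct.inr_injective y

lemma orderOf_neg_one_units : orderOf (-1 : ℤˣ) = 2 := by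
  apply orderOf_eq_prime
  · decide
  · decide

lemma exists_order_six : ∃ x : HH F, orderOf x = 6 := by
  refine ⟨SemidirectProduct.inr (proj (E (1 : F)), -1), ?_⟩
  rw [orderOf_inr, Prod.orderOf, orderOf_proj_E 3, orderOf_neg_one_units]
  rfl

lemma exists_order_sub_one [Fintype F] (h3q : Fintype.card F % 4 = 3) :
    ∃ x : HH F, orderOf x = Fintype.card F - 1 := by
  classical
  obtain ⟨w, hw⟩ := IsCyclic.exists_generator (α := Fˣ)
  have hw' : orderOf w = Fintype.card F - 1 := by
    rw [orderOf_eq_card_of_forall_mem_zpowers hw, Nat.card_eq_fintype_card, Fintype.card_units]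
  refine ⟨SemidirectProduct.inr (proj (diagS w), -1), ?_⟩
  rw [orderOf_inr, Prod.orderOf]
  show Nat.lcm (orderOf (proj (diagS w))) (orderOf (-1 : ℤˣ)) = _
  rw [orderOf_proj_diagS_gen w hw', orderOf_neg_one_units]
  have hgcd1 : Nat.gcd 2 (Fintype.card F - 1) = 2 := by
    apply Nat.gcd_eq_left
    omega
  rw [hgcd1]
  have hcop : Nat.Coprime ((Fintype.card F - 1) / 2) 2 := by
    rw [Nat.coprime_two_right, Nat.odd_iff]
    omega
  rw [hcop.lcm_eq_mul]
  omega

lemma exists_order_add_one [Fintype F] (h3q : Fintype.card F % 4 = 3) :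
    ∃ x : HH F, orderOf x = (Fintype.card F + 1) / 2 := by
  classical
  obtain ⟨D⟩ := exists_normOneData (F := F)
  refine ⟨SemidirectProduct.inr (proj (comp D.t), 1), ?_⟩
  rw [orderOf_inr, Prod.orderOf]
  show Nat.lcm (orderOf (proj (comp D.t))) (orderOf (1 : ℤˣ)) = _
  rw [orderOf_proj D _ (tr_comp _), orderOf_one, Nat.lcm_one_right]
  have hgcd2 : Nat.gcd 2 (Fintype.card F + 1) = 2 := by
    apply Nat.gcd_eq_left
    omega
  rw [hgcd2]

lemma E_one_coe : ((E (1 : F) : SL2 F) : Matrix (Fin 2) (Fin 2) F) = !![1, 1; 0, 1] := by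
  ext i j
  fin_cases i <;> fin_cases j <;> rfl

lemma tw_E_one_coe : ((tw (E (1 : F)) : SL2 F) : Matrix (Fin 2) (Fin 2) F) = !![1, 0; 1, 1] := by
  rw [tw_coe, E_one_coe]
  ext i j
  fin_cases i <;> fin_cases j <;> simp

lemma act_E1 : act (E (1 : F)) !![0, 0; 0, 1] = !![1, 1; 1, 1] := by
  unfold act
  rw [tw_E_one_coe, E_one_coe]
  simp [Matrix.mul_fin_two]

lemma act_E2 : act (E (1 : F)) !![1, 1; 1, 1] = !![4, 2; 2, 1] := by
  unfold act
  rw [tw_E_one_coe, E_one_coe]
  simp [Matrix.mul_fin_two]
  norm_num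

lemma exists_order_nine : ∃ x : HH F, orderOf x = 9 := by
  let x : HH F := ⟨Multiplicative.ofAdd !![0, 0; 0, 1], (proj (E (1 : F)), 1)⟩
  refine ⟨x, ?_⟩
  have h1 : (proj (E (1 : F))) ^ 3 = 1 := by
    have := pow_orderOf_eq_one (proj (E (1 : F)))
    rwa [orderOf_proj_E 3] at this
  have h9 : x ^ (3 * 3) = 1 := by
    apply pow_mul_three
    exact Prod.ext h1 (one_pow _)
  have h3 : ¬ x ^ 3 = 1 := by
    intro hc
    have h4 : (x ^ 3).left = 1 := by rw [hc]; rfl
    rw [pow_succ, pow_two, SemidirectProduct.mul_left, SemidirectProduct.mul_left,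
      SemidirectProduct.mul_right, map_mul] at h4
    have h5 : ∀ M : MV F, theta x.right M = Multiplicative.ofAdd (act (E (1 : F)) M.toAdd) := by
      intro M
      show theta (proj (E (1 : F)), 1) M = _
      rw [theta_apply, one_smul]
    have h6 := congrArg (fun M : MV F => Multiplicative.toAdd M 0 0) h4
    simp only [MulAut.mul_apply, h5, toAdd_mul, toAdd_ofAdd] at h6
    have h7 : Multiplicative.toAdd x.left = !![0, 0; 0, 1] := rfl
    rw [h7, act_E1, act_E2] at h6
    have h8 : (3 : F) = 0 := by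
      have h : ((3 : ℕ) : F) = 0 := CharP.cast_eq_zero F 3
      exact_mod_cast h
    have h9 : (1 + 4 : F) = 0 := by
      simpa [Matrix.add_apply] using h6
    have h10 : (1 : F) = 0 := by linear_combination 2 * h8 - h9
    exact one_ne_zero h10
  have := orderOf_eq_prime_pow (p := 3) (n := 1) (x := x) (by simpa using h3) (by simpa using h9)
  simpa using this

end semidirect

section arith

lemma arith_facts (q : ℕ) (h3 : 3 ∣ q) (hq : q % 8 = 3) (h27 : 27 ≤ q) :
    ¬ 6 ∣ (q - 1) ∧ ¬ 6 ∣ ((q + 1) / 2) ∧ ¬ 9 ∣ (q - 1) ∧ ¬ 9 ∣ ((q + 1) / 2) ∧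
    ¬ (q - 1) ∣ 6 ∧ ¬ (q - 1) ∣ 9 ∧ ¬ ((q + 1) / 2) ∣ 6 ∧ ¬ ((q + 1) / 2) ∣ 9 ∧
    ¬ (q - 1) ∣ ((q + 1) / 2) ∧ ¬ ((q + 1) / 2) ∣ (q - 1) := by
  refine ⟨by omega, by omega, by omega, by omega, ?_, ?_, ?_, ?_, ?_, ?_⟩
  · intro h; have := Nat.le_of_dvd (by norm_num) h; omega
  · intro h; have := Nat.le_of_dvd (by norm_num) h; omega
  · intro h; have := Nat.le_of_dvd (by norm_num) h; omega
  · intro h; have := Nat.le_of_dvd (by norm_num) h; omega
  · intro h; have := Nat.le_of_dvd (by omega) h; omega
  · intro h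
    obtain ⟨b, hb⟩ : ∃ b, q + 1 = 2 * b := ⟨(q + 1) / 2, by omega⟩
    have hb2 : (q + 1) / 2 = b := by omega
    rw [hb2] at h
    have h1 : q - 1 = 2 * b - 2 := by omega
    rw [h1] at h
    have h2 : b ∣ 2 := by
      have h3 : b ∣ 2 * b := Dvd.intro_left 2 rfl
      have h4 := (Nat.dvd_sub h3 h)
      have h5 : 2 * b - (2 * b - 2) = 2 := by omega
      rwa [h5] at h4
    have := Nat.le_of_dvd (by norm_num) h2
    omega

lemma pow_mod_eight (α : ℕ) (h : Odd α) : 3 ^ α % 8 = 3 := by
  obtain ⟨k, rfl⟩ := h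
  rw [pow_succ, pow_mul, Nat.mul_mod, Nat.pow_mod]
  simp

end arith

/-- Let q = 3^α with α ≥ 3 odd. There is a finite group H having a non-trivial normal 3-subgroup and whose element orders maximal under divisibility are exactly 6, 9, q − 1 and (q + 1)/2. -/
theorem result (α : ℕ) (hα : 3 ≤ α) (hodd : Odd α) :
    ∃ (H : Type) (_ : Group H) (_ : Fintype H), (∃ P : Subgroup H, P.Normal ∧ P ≠ ⊥ ∧ IsPGroup 3 ↥P) ∧
      {n : ℕ | n ∈ Set.range (orderOf : H → ℕ) ∧ ∀ m ∈ Set.range (orderOf : H → ℕ), n ∣ m → m = n} = ({6, 9, 3 ^ α - 1, (3 ^ α + 1) / 2} : Set ℕ) := by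
  classical
  have hαne : α ≠ 0 := by omega
  let F := GaloisField 3 α
  haveI : CharP F 3 := inferInstance
  haveI : Finite F := by
    apply Nat.finite_of_card_ne_zero (α := F)
    rw [GaloisField.card 3 α hαne]
    positivity
  haveI : Fintype F := Fintype.ofFinite F
  have hcard : Fintype.card F = 3 ^ α := by
    rw [← Nat.card_eq_fintype_card, GaloisField.card 3 α hαne]
  have hq8 := pow_mod_eight α hodd
  have h27 : 27 ≤ 3 ^ α := by
    calc 27 = 3 ^ 3 := by norm_num
      _ ≤ 3 ^ α := Nat.pow_le_pow_right (by norm_num) hα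
  have h3 : 3 ∣ 3 ^ α := dvd_pow_self 3 hαne
  have h4 : Fintype.card F % 4 = 3 := by rw [hcard]; omega
  haveI : Finite (HH F) := Finite.of_equiv _ (SemidirectProduct.equivProd (N := MV F) (G := PSL2 F × ℤˣ) (φ := theta)).symm
  refine ⟨HH F, inferInstance, Fintype.ofFinite _, ?_, ?_⟩
  · refine ⟨SemidirectProduct.rightHom.ker, inferInstance, ?_, ?_⟩
    · intro hc
      have h5 : (SemidirectProduct.inl (Multiplicative.ofAdd (1 : Matrix (Fin 2) (Fin 2) F)) : HH F) ∈
          (SemidirectProduct.rightHom (N := MV F) (G := PSL2 F × ℤˣ) (φ := theta)).ker := by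
        rw [MonoidHom.mem_ker]
        exact SemidirectProduct.rightHom_inl _
      rw [hc, Subgroup.mem_bot] at h5
      have h6 := congrArg SemidirectProduct.left h5
      simp only [SemidirectProduct.left_inl, SemidirectProduct.one_left] at h6
      have h7 : (1 : Matrix (Fin 2) (Fin 2) F) = 0 := h6
      exact one_ne_zero h7
    · intro y
      refine ⟨1, ?_⟩
      apply Subtype.ext
      apply pow_three_of_right_one
      exact y.2
  · obtain ⟨x6, hx6⟩ := exists_order_six (F := F)
    obtain ⟨x9, hx9⟩ := exists_order_nine (F := F)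
    obtain ⟨xa, hxa⟩ := exists_order_sub_one (F := F) h4
    obtain ⟨xb, hxb⟩ := exists_order_add_one (F := F) h4
    rw [hcard] at hxa hxb
    have hcases : ∀ x : HH F, orderOf x ∣ 6 ∨ orderOf x ∣ 9 ∨ orderOf x ∣ (3 ^ α - 1) ∨ orderOf x ∣ ((3 ^ α + 1) / 2) := by
      intro x
      have := order_cases h4 x
      rw [hcard] at this
      rcases this with h | h | h | h
      · exact Or.inl (orderOf_dvd_of_pow_eq_one h)
      · exact Or.inr (Or.inl (orderOf_dvd_of_pow_eq_one h))
      · exact Or.inr (Or.inr (Or.inl (orderOf_dvd_of_pow_eq_one h)))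
      · exact Or.inr (Or.inr (Or.inr (orderOf_dvd_of_pow_eq_one h)))
    obtain ⟨a1, a2, a3, a4, a5, a6, a7, a8, a9, a10⟩ := arith_facts (3 ^ α) h3 hq8 h27
    ext n
    simp only [Set.mem_ofPred_eq, Set.mem_range, Set.mem_insert_iff, Set.mem_singleton_iff]
    constructor
    · rintro ⟨⟨y, rfl⟩, hmax⟩
      rcases hcases y with h | h | h | h
      · exact Or.inl (hmax 6 ⟨x6, hx6⟩ h).symm
      · exact Or.inr (Or.inl (hmax 9 ⟨x9, hx9⟩ h).symm)
      · exact Or.inr (Or.inr (Or.inl (hmax _ ⟨xa, hxa⟩ h).symm))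
      · exact Or.inr (Or.inr (Or.inr (hmax _ ⟨xb, hxb⟩ h).symm))
    · have h69 : ¬ (6 : ℕ) ∣ 9 := by decide
      have h96 : ¬ (9 : ℕ) ∣ 6 := by decide
      rintro (rfl | rfl | rfl | rfl)
      · refine ⟨⟨x6, hx6⟩, ?_⟩
        rintro m ⟨y, rfl⟩ hd
        rcases hcases y with h | h | h | h
        · exact Nat.dvd_antisymm h hd
        · exact absurd (hd.trans h) h69
        · exact absurd (hd.trans h) a1
        · exact absurd (hd.trans h) a2
      · refine ⟨⟨x9, hx9⟩, ?_⟩
        rintro m ⟨y, rfl⟩ hd
        rcases hcases y with h | h | h | h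
        · exact absurd (hd.trans h) h96
        · exact Nat.dvd_antisymm h hd
        · exact absurd (hd.trans h) a3
        · exact absurd (hd.trans h) a4
      · refine ⟨⟨xa, hxa⟩, ?_⟩
        rintro m ⟨y, rfl⟩ hd
        rcases hcases y with h | h | h | h
        · exact absurd (hd.trans h) a5
        · exact absurd (hd.trans h) a6
        · exact Nat.dvd_antisymm h hd
        · exact absurd (hd.trans h) a9
      · refine ⟨⟨xb, hxb⟩, ?_⟩
        rintro m ⟨y, rfl⟩ hd
        rcases hcases y with h | h | h | h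
        · exact absurd (hd.trans h) a7
        · exact absurd (hd.trans h) a8
        · exact absurd (hd.trans h) a10
        · exact Nat.dvd_antisymm h hd

end Cfsg.Agent.S2515
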