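import Mathlib
import Cfsg.Statements.S2516

set_option autoImplicit false
open Cfsg

namespace Cfsg.Agent.S2516

variable {F : Type*} [Field F] {V : Type*} [AddCommGroup V] [Module F V]
    {G : Type*} [Group G] (ρ : Representation F G V)

abbrev phi : G →* MulAut (Multiplicative V) := (MulAutMultiplicative V).symm.toMonoidHom.comp
        ((DistribMulAction.toAddAut ((V →ₗ[F] V)ˣ) V).comp ρ.asGroupHom)

lemma phi_apply (g : G) (v : Multiplicative V) :
    phi ρ g v = Multiplicative.ofAdd (ρ g (Multiplicative.toAdd v)) := by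
  rfl

lemma pow_left (x : Multiplicative V ⋊[phi ρ] G) (n : ℕ) :
    (x ^ n).left = Multiplicative.ofAdd (∑ i ∈ Finset.range n, ((ρ x.right) ^ i) (Multiplicative.toAdd x.left)) := by
  induction n with
  | zero => simp
  | succ n ih =>
    rw [pow_succ', SemidirectProduct.mul_left, ih, phi_apply, Finset.sum_range_succ']
    simp only [toAdd_ofAdd, map_sum, ← Module.End.mul_apply, pow_succ']
    rw [← ofAdd_toAdd x.left, ← ofAdd_add]
    simp [add_comm]

lemma pow_right' (x : Multiplicative V ⋊[phi ρ] G) (n : ℕ) :
    (x ^ n).right = x.right ^ n := by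
  simpa using map_pow (SemidirectProduct.rightHom (φ := phi ρ)) x n

lemma aeval_sum (A : V →ₗ[F] V) (k : ℕ) :
    Polynomial.aeval A (∑ i ∈ Finset.range k, (Polynomial.X : Polynomial F) ^ i) =
      ∑ i ∈ Finset.range k, A ^ i := by
  simp [map_sum]

/-- Let F be a field of characteristic p > 0, V a non-zero finite-dimensional F-vector space, G a finite group and ρ a representation of G on V; form the semidirect product V ⋊ G. For g ∈ G of order k, the coset Vg contains an element of order pk if and only if the minimal polynomial of ρ(g) does not divide 1 + X + ⋯ + X^(k−1). -/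
theorem result {F : Type*} [Field F] (p : ℕ) [Fact p.Prime] [CharP F p] {V : Type*} [AddCommGroup V] [Module F V] [FiniteDimensional F V] [Nontrivial V]
    {G : Type*} [Group G] [Finite G] (ρ : Representation F G V) (g : G) :
    (∃ x : Multiplicative V ⋊[(MulAutMultiplicative V).symm.toMonoidHom.comp
        ((DistribMulAction.toAddAut ((V →ₗ[F] V)ˣ) V).comp ρ.asGroupHom)] G,
        x.right = g ∧ orderOf x = p * orderOf g) ↔
      ¬ (minpoly F (ρ g) ∣ ∑ i ∈ Finset.range (orderOf g), (Polynomial.X : Polynomial F) ^ i) := by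
  have hp : p.Prime := Fact.out
  have hk : 0 < orderOf g := orderOf_pos g
  constructor
  · rintro ⟨x, rfl, hx⟩ hdvd
    have h0 : Polynomial.aeval (ρ x.right) (∑ i ∈ Finset.range (orderOf x.right), (Polynomial.X : Polynomial F) ^ i) = 0 :=
      (minpoly.dvd_iff).mp hdvd
    rw [aeval_sum] at h0
    have h1 : x ^ orderOf x.right = 1 := by
      apply SemidirectProduct.ext
      · rw [pow_left]
        have : ∑ i ∈ Finset.range (orderOf x.right), ((ρ x.right) ^ i) (Multiplicative.toAdd x.left) = 0 := by
          rw [← LinearMap.sum_apply, h0]; rfl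
        rw [this]; rfl
      · rw [pow_right']; simp [pow_orderOf_eq_one]
    have h2 : orderOf x ∣ orderOf x.right := orderOf_dvd_of_pow_eq_one h1
    rw [hx] at h2
    have h3 := Nat.le_of_dvd hk h2
    have h4 : 2 * orderOf x.right ≤ p * orderOf x.right := Nat.mul_le_mul_right _ hp.two_le
    omega
  · intro hnot
    have h0 : Polynomial.aeval (ρ g) (∑ i ∈ Finset.range (orderOf g), (Polynomial.X : Polynomial F) ^ i) ≠ 0 := by
      intro h; exact hnot ((minpoly.dvd_iff).mpr h)
    rw [aeval_sum] at h0
    obtain ⟨v, hv⟩ : ∃ v, (∑ i ∈ Finset.range (orderOf g), (ρ g) ^ i) v ≠ 0 := by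
      by_contra hcon
      push Not at hcon
      exact h0 (LinearMap.ext hcon)
    rw [LinearMap.sum_apply] at hv
    let x : Multiplicative V ⋊[phi ρ] G := ⟨Multiplicative.ofAdd v, g⟩
    refine ⟨x, rfl, ?_⟩
    have hxk_left : (x ^ orderOf g).left = Multiplicative.ofAdd (∑ i ∈ Finset.range (orderOf g), ((ρ g) ^ i) v) := by
      rw [pow_left]; rfl
    have hxk_right : (x ^ orderOf g).right = 1 := by
      rw [pow_right']; exact pow_orderOf_eq_one g
    have hne : x ^ orderOf g ≠ 1 := by
      intro h
      have := congrArg SemidirectProduct.left h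
      rw [hxk_left] at this
      exact hv (Multiplicative.ofAdd.injective this)
    -- y = x^k is in V: y^p = 1
    have hpow : x ^ (orderOf g * p) = 1 := by
      rw [pow_mul]
      apply SemidirectProduct.ext
      · rw [pow_left, hxk_right]
        have : ∑ i ∈ Finset.range p, ((ρ 1) ^ i) (Multiplicative.toAdd (x ^ orderOf g).left) =
            (p : F) • (Multiplicative.toAdd (x ^ orderOf g).left) := by
          rw [Nat.cast_smul_eq_nsmul]
          simp [map_one]
        rw [this, CharP.cast_eq_zero F p, zero_smul]; rfl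
      · rw [pow_right', hxk_right]; simp
    have hdvd1 : orderOf x ∣ orderOf g * p := orderOf_dvd_of_pow_eq_one hpow
    have hdvd2 : orderOf g ∣ orderOf x := by
      have := orderOf_map_dvd (SemidirectProduct.rightHom (φ := phi ρ)) x
      simpa [x] using this
    obtain ⟨d, hd⟩ := hdvd2
    rw [hd] at hdvd1
    have hdp : d ∣ p := Nat.dvd_of_mul_dvd_mul_left hk hdvd1
    rcases (Nat.dvd_prime hp).mp hdp with rfl | rfl
    · exfalso
      apply hne
      have : orderOf x = orderOf g := by simpa using hd
      rw [← this]; exact pow_orderOf_eq_one x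
    · rw [hd, mul_comm]

end Cfsg.Agent.S2516
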