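import Mathlib
import Cfsg.Statements.S2517
import Cfsg.Agent.Lib.Om9H

set_option autoImplicit false
open Cfsg

namespace Cfsg.Agent.S2517

/-- Let F be a finite field of odd order q, let Ω₉ be the simple orthogonal group PΩ(9, F), and let Ω₈⁻ be the commutator subgroup of the isometry group of a minus-type non-singular quadratic form on V = F⁸ (the simple group PΩ⁻(8, F), acting on its natural module V). Then Ω₉ and the semidirect product V ⋊ Ω₈⁻ have exactly the same set of element orders. -/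
theorem result {F : Type*} [Field F] [Fintype F] (hF : Odd (Fintype.card F)) (a b : F)
    (hab : ∀ z₁ z₂ : F, z₁ ^ 2 + a * z₁ * z₂ + b * z₂ ^ 2 = 0 → z₁ = 0 ∧ z₂ = 0) :
    Set.range (orderOf : Cfsg.POmega F (Cfsg.quadFormOdd 4 F) → ℕ) =
      Set.range (orderOf :
        (Multiplicative (((Fin 3 ⊕ Fin 3) ⊕ Fin 2) → F)) ⋊[
          (MulAutMultiplicative (((Fin 3 ⊕ Fin 3) ⊕ Fin 2) → F)).symm.toMonoidHom.comp
           ((DistribMulAction.toAddAut (LinearMap.GeneralLinearGroup F (((Fin 3 ⊕ Fin 3) ⊕ Fin 2) → F))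
              (((Fin 3 ⊕ Fin 3) ⊕ Fin 2) → F)).comp
            (Matrix.GeneralLinearGroup.toLin.toMonoidHom.comp
              ((Cfsg.isometryGroup F (Cfsg.quadFormMinus 3 F a b)).subtype.comp
                (Cfsg.Omega F (Cfsg.quadFormMinus 3 F a b)).subtype)))]
          ↥(Cfsg.Omega F (Cfsg.quadFormMinus 3 F a b)) → ℕ) := by
  classical
  obtain ⟨u, hqu⟩ := hF
  haveI hc : CharP F (ringChar F) := ringChar.charP F
  haveI hp : Fact (ringChar F).Prime := ⟨CharP.char_is_prime F _⟩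
  obtain ⟨n, -, hq⟩ := FiniteField.card F (ringChar F)
  have hu : 1 ≤ u := by
    have := Fintype.one_lt_card (α := F)
    omega
  have hf1 : Cfsg.quadFormOdd 4 F = ⇑(Cfsg.Agent.Lib.OrthoCount.qOdd 4 F) :=
    funext fun v => (Cfsg.Agent.Lib.OrthoCount.qOdd_apply 4 v).symm
  have hf2 : Cfsg.quadFormMinus 3 F a b = ⇑(Cfsg.Agent.Lib.OrthoCount.qMinus 3 a b) :=
    funext fun v => (Cfsg.Agent.Lib.OrthoCount.qMinus_apply 3 a b v).symm
  rw [hf1, hf2]
  exact (Cfsg.Agent.Lib.Om9.spec_odd (ringChar F) hq hqu hu).trans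
    (Cfsg.Agent.Lib.Om9.spec_minus (ringChar F) hq hqu hu a b hab).symm

end Cfsg.Agent.S2517
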