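import Mathlib
import Cfsg.Statements.S2518
import Cfsg.Agent.Lib.G2Three
import Cfsg.Agent.Lib.PSL213
import Cfsg.Agent.Lib.ChevTransfer

set_option autoImplicit false
open Cfsg

namespace Cfsg.Agent.S2518

open Cfsg.Agent.Lib

/-- If a Sylow `ℓ`-subgroup has prime order and is self-centralising, no element has order `ℓ * m`,
`m > 1`. -/
theorem no_order_mul {Γ : Type*} [Group Γ] [Finite Γ] (ℓ : ℕ) [Fact ℓ.Prime]
    (hℓ : ¬ ℓ ^ 2 ∣ Nat.card Γ) (g : Γ) (hg : orderOf g = ℓ)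
    (hC : ∀ y : Γ, y * g = g * y → ∃ k : ℕ, y = g ^ k) (x : Γ) (m : ℕ) (hm : 1 < m) :
    orderOf x ≠ ℓ * m := by
  intro hx
  have hp : ℓ.Prime := Fact.out
  have hcard : 0 < Nat.card Γ := Nat.card_pos
  have hfac : (Nat.card Γ).factorization ℓ = 1 := by
    have h1 : ℓ ∣ Nat.card Γ := hg ▸ orderOf_dvd_natCard g
    have h2 := (hp.pow_dvd_iff_le_factorization hcard.ne').not.1 hℓ
    have h3 := (hp.pow_dvd_iff_le_factorization hcard.ne').1 (by simpa using h1 : ℓ ^ 1 ∣ _)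
    omega
  have hu : orderOf (x ^ m) = ℓ := by
    rw [orderOf_pow_of_dvd (by omega) (hx ▸ Dvd.intro_left _ rfl), hx]
    exact Nat.mul_div_cancel _ (by omega)
  let P : Sylow ℓ Γ := Sylow.ofCard (Subgroup.zpowers (x ^ m))
    (by rw [Nat.card_zpowers, hu, hfac, pow_one])
  let Q : Sylow ℓ Γ := Sylow.ofCard (Subgroup.zpowers g)
    (by rw [Nat.card_zpowers, hg, hfac, pow_one])
  obtain ⟨h, hh⟩ := MulAction.exists_smul_eq Γ P Q
  have hmem : MulAut.conj h (x ^ m) ∈ Subgroup.zpowers g := by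
    have h1 : ((h • P : Sylow ℓ Γ) : Subgroup Γ) = Subgroup.zpowers g := congrArg (fun S : Sylow ℓ Γ => (S : Subgroup Γ)) hh
    rw [← h1, Sylow.coe_subgroup_smul]
    exact Subgroup.smul_mem_pointwise_smul _ _ _ (Subgroup.mem_zpowers _)
  set x' := MulAut.conj h x with hx'
  have hpow : x' ^ m = MulAut.conj h (x ^ m) := by rw [hx', map_pow]
  have hord : orderOf x' = ℓ * m := by rw [hx', MulEquiv.orderOf_eq, hx]
  have hle : Subgroup.zpowers (x' ^ m) ≤ Subgroup.zpowers g := by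
    rw [Subgroup.zpowers_le, hpow]; exact hmem
  have heq : Subgroup.zpowers (x' ^ m) = Subgroup.zpowers g := by
    apply Subgroup.eq_of_le_of_card_ge hle
    rw [Nat.card_zpowers, Nat.card_zpowers, hpow, MulEquiv.orderOf_eq, hu, hg]
  have hgm : g ∈ Subgroup.zpowers (x' ^ m) := by
    rw [heq]; exact Subgroup.mem_zpowers g
  obtain ⟨k, hk⟩ := Subgroup.mem_zpowers_iff.1 hgm
  have hcomm : x' * g = g * x' := by
    rw [← hk]
    exact ((Commute.refl x').pow_right m).zpow_right k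
  obtain ⟨j, hj⟩ := hC x' hcomm
  have hd : orderOf x' ∣ ℓ := by
    apply orderOf_dvd_of_pow_eq_one
    rw [hj, ← pow_mul, mul_comm, pow_mul, ← hg, pow_orderOf_eq_one, one_pow]
  rw [hord] at hd
  have := Nat.le_of_dvd hp.pos hd
  have h2 := hp.pos
  nlinarith

theorem subtype_lift {Γ : Type*} [Group Γ] (H : Subgroup Γ) (g : Γ) (hg : g ∈ H)
    (hC : ∀ x ∈ H, x * g = g * x → ∃ k : ℕ, x = g ^ k) (y : H)
    (hy : y * ⟨g, hg⟩ = ⟨g, hg⟩ * y) : ∃ k : ℕ, y = (⟨g, hg⟩ : H) ^ k := by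
  obtain ⟨k, hk⟩ := hC y.1 y.2 (congrArg Subtype.val hy)
  exact ⟨k, Subtype.ext (by simpa using hk)⟩

open Cfsg.Agent.Lib.G2Three in
/-- Products of two distinct primes in `G₂(3)`. -/
theorem exists_order_G2 (r s : ℕ) (hr : r.Prime) (hs : s.Prime) (hrs : r ≠ s) :
    (∃ x : ↥(Cfsg.Lie.chevG2.group K), orderOf x = r * s) ↔ r * s = 6 := by
  have hcard := card_G
  have : Fact (Nat.Prime 7) := ⟨by norm_num⟩
  have : Fact (Nat.Prime 13) := ⟨by norm_num⟩
  have n7 := no_order_mul (Γ := ↥(Cfsg.Lie.chevG2.group K)) 7 (by rw [hcard]; norm_num)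
    ⟨g7, g7_mem⟩ (by rw [Subgroup.orderOf_mk]; exact order_g7)
    (subtype_lift _ g7 g7_mem centralizer_g7)
  have n13 := no_order_mul (Γ := ↥(Cfsg.Lie.chevG2.group K)) 13 (by rw [hcard]; norm_num)
    ⟨g13, g13_mem⟩ (by rw [Subgroup.orderOf_mk]; exact order_g13)
    (subtype_lift _ g13 g13_mem centralizer_g13)
  constructor
  · rintro ⟨x, hx⟩
    have hd : r * s ∣ 4245696 := hcard ▸ (hx ▸ orderOf_dvd_natCard x)
    have hprime : ∀ q : ℕ, q.Prime → q ∣ 4245696 → q = 2 ∨ q = 3 ∨ q = 7 ∨ q = 13 := by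
      intro q hq h
      have h1 : (4245696 : ℕ) = 2 ^ 6 * 3 ^ 6 * 7 * 13 := by norm_num
      rw [h1] at h
      rcases (Nat.Prime.dvd_mul hq).1 h with h | h
      · rcases (Nat.Prime.dvd_mul hq).1 h with h | h
        · rcases (Nat.Prime.dvd_mul hq).1 h with h | h
          · exact Or.inl ((Nat.prime_dvd_prime_iff_eq hq Nat.prime_two).1 (hq.dvd_of_dvd_pow h))
          · exact Or.inr (Or.inl ((Nat.prime_dvd_prime_iff_eq hq Nat.prime_three).1 (hq.dvd_of_dvd_pow h)))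
        · exact Or.inr (Or.inr (Or.inl ((Nat.prime_dvd_prime_iff_eq hq (by norm_num)).1 h)))
      · exact Or.inr (Or.inr (Or.inr ((Nat.prime_dvd_prime_iff_eq hq (by norm_num)).1 h)))
    have hr' := hprime r hr ((Nat.dvd_mul_right r s).trans hd)
    have hs' := hprime s hs ((Nat.dvd_mul_left s r).trans hd)
    have hr1 := hr.one_lt
    have hs1 := hs.one_lt
    rcases hr' with rfl | rfl | rfl | rfl <;> rcases hs' with rfl | rfl | rfl | rfl <;>
      first
        | rfl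
        | exact absurd rfl hrs
        | exact absurd hx (n7 x _ (by norm_num))
        | exact absurd hx (n13 x _ (by norm_num))
        | exact absurd (hx.trans (Nat.mul_comm _ _)) (n7 x _ (by norm_num))
        | exact absurd (hx.trans (Nat.mul_comm _ _)) (n13 x _ (by norm_num))
  · intro h
    exact ⟨⟨g6, g6_mem⟩, by rw [Subgroup.orderOf_mk, h]; exact order_g6⟩

/-- Let F₃ be the field with 3 elements and F₁₃ the field with 13 elements. The Chevalley group G₂(F₃) and PSL(2, F₁₃) have the same prime graph: the same prime divisors of their orders, and for distinct primes r, s an element of order rs in one iff in the other. -/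
theorem result {F : Type*} [Field F] [Fintype F] (hF : Fintype.card F = 3) {E : Type*} [Field E] [Fintype E] (hE : Fintype.card E = 13) :
    ((∀ r : ℕ, r.Prime → (r ∣ Nat.card ↥(Cfsg.Lie.chevG2.group F) ↔ r ∣ Nat.card (Matrix.ProjectiveSpecialLinearGroup (Fin 2) E))) ∧
      (∀ r s : ℕ, r.Prime → s.Prime → r ≠ s → ((∃ x : ↥(Cfsg.Lie.chevG2.group F), orderOf x = r * s) ↔ (∃ y : (Matrix.ProjectiveSpecialLinearGroup (Fin 2) E), orderOf y = r * s)))) := by
  have h3 : Nat.Prime 3 := by norm_num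
  have h13 : Nat.Prime 13 := by norm_num
  let φ : F ≃+* ZMod 3 := (ZMod.ringEquivOfPrime F h3 hF).symm
  let ψ : E ≃+* ZMod 13 := (ZMod.ringEquivOfPrime E h13 hE).symm
  let eG : ↥(Cfsg.Lie.chevG2.group F) ≃* ↥(Cfsg.Lie.chevG2.group (ZMod 3)) :=
    Lib.ChevTransfer.groupEquiv Cfsg.Lie.chevG2 φ
  let eP : Matrix.ProjectiveSpecialLinearGroup (Fin 2) E ≃* Lib.PSL213.PSL13 :=
    Lib.SLTransfer.pslEquiv ψ
  have cardG : Nat.card ↥(Cfsg.Lie.chevG2.group F) = 4245696 := by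
    rw [Nat.card_congr eG.toEquiv]
    exact Lib.G2Three.card_G
  have cardP : Nat.card (Matrix.ProjectiveSpecialLinearGroup (Fin 2) E) = 1092 := by
    have h := Lib.ClassicalSmall.card_PSL2 (F := E)
    rw [hE] at h
    norm_num at h
    omega
  refine ⟨?_, ?_⟩
  · intro r hr
    rw [cardG, cardP]
    have key : ∀ a b : ℕ, a ≠ 0 → b ≠ 0 →
        (r ∣ 2 ^ a * 3 ^ b * 7 * 13 ↔ r ∣ 2 ∨ r ∣ 3 ∨ r ∣ 7 ∨ r ∣ 13) := by
      intro a b ha hb
      rw [hr.dvd_mul, hr.dvd_mul, hr.dvd_mul, hr.prime.dvd_pow_iff_dvd ha,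
        hr.prime.dvd_pow_iff_dvd hb]
      tauto
    have h1 := key 6 6 (by norm_num) (by norm_num)
    have h2 := key 2 1 (by norm_num) (by norm_num)
    norm_num at h1 h2
    exact h1.trans h2.symm
  · intro r s hr hs hrs
    have h1 : (∃ x : ↥(Cfsg.Lie.chevG2.group F), orderOf x = r * s) ↔ r * s = 6 := by
      rw [← exists_order_G2 r s hr hs hrs]
      constructor
      · rintro ⟨x, hx⟩
        exact ⟨eG x, by rw [MulEquiv.orderOf_eq, hx]⟩
      · rintro ⟨x, hx⟩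
        exact ⟨eG.symm x, by rw [MulEquiv.orderOf_eq, hx]⟩
    have h2 : (∃ y : Matrix.ProjectiveSpecialLinearGroup (Fin 2) E, orderOf y = r * s) ↔ r * s = 6 := by
      rw [← Lib.PSL213.exists_order_iff r s hr hs hrs]
      constructor
      · rintro ⟨x, hx⟩
        exact ⟨eP x, by rw [MulEquiv.orderOf_eq, hx]⟩
      · rintro ⟨x, hx⟩
        exact ⟨eP.symm x, by rw [MulEquiv.orderOf_eq, hx]⟩
    rw [h1, h2]

end Cfsg.Agent.S2518
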