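import Mathlib
import Cfsg.Statements.S2521

set_option autoImplicit false
open Cfsg

namespace Cfsg.Agent.S2521

/-- Let B be a finite group that is the semidirect product of a nilpotent normal subgroup U by an abelian subgroup T (U ∩ T = 1, UT = B), and let t ∈ T have centralizer exactly T. Then every element of the coset tU is conjugate to t in B: for each u ∈ U there is b ∈ B with b t b⁻¹ = t u. -/
theorem result {B : Type*} [Group B] [Finite B] (U T : Subgroup B) [U.Normal] (hU : Group.IsNilpotent ↥U) (hT : IsMulCommutative ↥T)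
    (hcompl : Subgroup.IsComplement' U T) (t : B) (ht : t ∈ T) (hreg : Subgroup.centralizer ({t} : Set B) = T) (u : B) (hu : u ∈ U) :
    ∃ b : B, b * t * b⁻¹ = t * u := by
  classical
  have hmem : ∀ v : U, t⁻¹ * (v : B) * t * (v : B)⁻¹ ∈ U := by
    intro v
    have h1 : t⁻¹ * (v : B) * t⁻¹⁻¹ ∈ U := Subgroup.Normal.conj_mem inferInstance _ v.2 _
    have h2 : t⁻¹ * (v : B) * t ∈ U := by simpa using h1
    exact U.mul_mem h2 (U.inv_mem v.2)
  let f : U → U := fun v => ⟨t⁻¹ * (v : B) * t * (v : B)⁻¹, hmem v⟩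
  have hinj : Function.Injective f := by
    intro v w hvw
    have h : t⁻¹ * (v : B) * t * (v : B)⁻¹ = t⁻¹ * (w : B) * t * (w : B)⁻¹ := congrArg Subtype.val hvw
    have h' : (w : B)⁻¹ * v ∈ Subgroup.centralizer ({t} : Set B) := by
      rw [Subgroup.mem_centralizer_iff]
      intro h2 h3
      rw [Set.mem_singleton_iff] at h3
      subst h3
      have h4 : (v : B) * h2 * (v : B)⁻¹ = (w : B) * h2 * (w : B)⁻¹ := by
        have := congrArg (fun x => h2 * x) h
        simpa [mul_assoc] using this
      have h5 : (w : B)⁻¹ * ((v : B) * h2 * (v : B)⁻¹) * v = (w : B)⁻¹ * ((w : B) * h2 * (w : B)⁻¹) * v := by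
        rw [h4]
      simpa [mul_assoc] using h5.symm
    rw [hreg] at h'
    have h'' : (w : B)⁻¹ * v ∈ U := U.mul_mem (U.inv_mem w.2) v.2
    have := Subgroup.disjoint_def.mp hcompl.disjoint h'' h'
    apply Subtype.ext
    have h6 : (v : B) = w := by
      have := congrArg (fun x => (w : B) * x) this
      simpa using this
    exact h6
  have hsurj : Function.Surjective f := Finite.injective_iff_surjective.mp hinj
  obtain ⟨v, hv⟩ := hsurj ⟨u, hu⟩
  refine ⟨v, ?_⟩
  have h : t⁻¹ * (v : B) * t * (v : B)⁻¹ = u := congrArg Subtype.val hv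
  rw [← h]
  group

end Cfsg.Agent.S2521
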