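import Mathlib
import Cfsg.Statements.S2522

set_option autoImplicit false
set_option linter.all false
open Cfsg

namespace Cfsg.Agent.S2522
open Module

section Cover
variable {K : Type*} [Field K] {W : Type*} [AddCommGroup W] [Module K W]

theorem avoid_finset {ι : Type*} [DecidableEq ι] (p : ι → Submodule K W) (h₁ : ∀ i, p i ≠ ⊤)
    (s : Finset ι) (h₂ : (s.card : ℕ∞) ≤ ENat.card K) : ∃ x, ∀ i ∈ s, x ∉ p i := by
  induction s using Finset.induction_on with
  | empty => exact ⟨0, by simp⟩
  | insert j s hj IH =>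
    have hcard : ((s.card : ℕ∞) + 1) ≤ ENat.card K := by
      simpa [Finset.card_insert_of_notMem hj] using h₂
    have h₂' : (s.card : ℕ∞) ≤ ENat.card K := le_trans le_self_add hcard
    obtain ⟨x₀, hx₀⟩ := IH h₂'
    by_cases hj₀ : x₀ ∈ p j
    · obtain ⟨y, hy⟩ : ∃ y, y ∉ p j := by
        by_contra hcon
        push Not at hcon
        exact h₁ j (by ext z; simp [hcon z])
      have hout : ∀ t : K, y + t • x₀ ∉ p j := by
        intro t ht
        exact hy (by simpa using sub_mem ht ((p j).smul_mem t hj₀))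
      by_contra hcon
      push Not at hcon
      have hf : ∀ t : K, ∃ i : s, y + t • x₀ ∈ p i := by
        intro t
        obtain ⟨i, hi, hm⟩ := hcon (y + t • x₀)
        rcases Finset.mem_insert.mp hi with rfl | hi
        · exact absurd hm (hout t)
        · exact ⟨⟨i, hi⟩, hm⟩
      choose f hf using hf
      have hni : ¬ Function.Injective f := by
        intro hinj
        have h3 := ENat.card_le_card_of_injective hinj
        have h4 : ENat.card s = (s.card : ℕ∞) := by simp
        rw [h4] at h3
        have h5 := le_trans hcard h3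
        have h6 : ((s.card : ℕ∞) + 1) ≤ (s.card : ℕ∞) := h5
        exact absurd h6 (by
          have : (s.card : ℕ∞) < (s.card : ℕ∞) + 1 := by
            exact_mod_cast Nat.lt_succ_self s.card
          exact not_le.mpr this)
      simp only [Function.Injective] at hni
      push Not at hni
      obtain ⟨t, t', hff, htt⟩ := hni
      have h7 := hf t
      have h8 := hf t'
      rw [← hff] at h8
      have h9 : (t - t') • x₀ ∈ p (f t) := by
        have := sub_mem h7 h8
        have e : y + t • x₀ - (y + t' • x₀) = (t - t') • x₀ := by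
          rw [sub_smul]; abel
        rwa [e] at this
      have h10 : x₀ ∈ p (f t) := by
        have hne : t - t' ≠ 0 := sub_ne_zero.mpr htt
        simpa [hne] using (p (f t)).smul_mem (t - t')⁻¹ h9
      exact hx₀ _ (f t).2 h10
    · refine ⟨x₀, ?_⟩
      intro i hi
      rcases Finset.mem_insert.mp hi with rfl | hi
      · exact hj₀
      · exact hx₀ i hi

theorem four_le_enat (hK : 4 ≤ Cardinal.mk K) : (4 : ℕ∞) ≤ ENat.card K := by
  have h := Cardinal.toENat.monotone' hK
  simpa [ENat.card] using h

theorem avoid4 (hK : 4 ≤ Cardinal.mk K) (p₁ p₂ p₃ p₄ : Submodule K W)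
    (h₁ : p₁ ≠ ⊤) (h₂ : p₂ ≠ ⊤) (h₃ : p₃ ≠ ⊤) (h₄ : p₄ ≠ ⊤) :
    ∃ x, x ∉ p₁ ∧ x ∉ p₂ ∧ x ∉ p₃ ∧ x ∉ p₄ := by
  obtain ⟨x, hx⟩ := avoid_finset (K := K) (W := W) ![p₁, p₂, p₃, p₄]
    (by intro i; fin_cases i <;> simp [*]) (Finset.univ) (by simpa using four_le_enat hK)
  exact ⟨x, hx 0 (by simp), hx 1 (by simp), hx 2 (by simp), hx 3 (by simp)⟩

theorem avoid_K (P : K → Submodule K W) (hP : ∀ c, P c ≠ ⊤) (hfin : {c | P c ≠ ⊥}.Finite) :
    ∃ x, ∀ c, x ∉ P c := by
  classical
  obtain ⟨x, hx⟩ := avoid_finset P hP (insert 0 hfin.toFinset) (by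
    rcases finite_or_infinite K with hf | hi
    · have := Fintype.ofFinite K
      rw [ENat.card_eq_coe_fintype_card]
      exact_mod_cast Finset.card_le_univ _
    · rw [ENat.card_eq_top_of_infinite]
      exact le_top)
  refine ⟨x, fun c hc => ?_⟩
  by_cases hc0 : P c = ⊥
  · rw [hc0] at hc
    have hx0 : x = 0 := by simpa using hc
    exact hx 0 (by simp) (by rw [hx0]; exact zero_mem _)
  · exact hx c (by simp [hc0]) hc

end Cover

section Core
universe u v
open Submodule
variable {K : Type u} [Field K] {W : Type v} [AddCommGroup W] [Module K W] [FiniteDimensional K W]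

def Good (A : End K W) : Prop :=
  (∀ c : K, A ≠ c • 1) ∧ finrank K (LinearMap.ker (A - 1)) + 2 ≤ finrank K W

def Bad (A : End K W) (c : K) : Prop :=
  c ≠ 0 ∧ c ≠ 1 ∧ c ^ (finrank K W - 1) = 1 ∧ finrank K (LinearMap.range (A - c • 1)) ≤ 2

theorem Good.two_le {A : End K W} (h : Good A) : 2 ≤ finrank K W := by
  have := h.2; omega

theorem Good.rank {A : End K W} (h : Good A) : 2 ≤ finrank K (LinearMap.range (A - 1)) := by
  have h1 := LinearMap.finrank_range_add_finrank_ker (A - 1)
  have := h.2; omega

theorem finrank_line_le (v : W) : finrank K (K ∙ v) ≤ 1 := by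
  by_cases hv : v = 0
  · rw [hv, Submodule.span_zero_singleton, finrank_bot]; omega
  · exact (finrank_span_singleton hv).le

theorem exists_not_mem_line {A : End K W} (h : Good A) (v : W) : ∃ z, (A - 1) z ∉ K ∙ v := by
  by_contra hcon
  push Not at hcon
  have hle : LinearMap.range (A - 1) ≤ K ∙ v := by
    rintro _ ⟨z, rfl⟩; exact hcon z
  have h1 := Submodule.finrank_mono hle
  have h2 : finrank K (K ∙ v) ≤ 1 := finrank_line_le v
  have := h.rank
  omega

theorem Bad.three_le {A : End K W} {c : K} (h : Bad A c) (h2 : 2 ≤ finrank K W) :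
    3 ≤ finrank K W := by
  by_contra hlt
  have h3 : finrank K W = 2 := by omega
  have := h.2.2.1
  rw [h3] at this
  simp at this
  exact h.2.1 this

theorem Bad.range_ne_top {A : End K W} {c : K} (h : Bad A c) (h2 : 2 ≤ finrank K W) :
    LinearMap.range (A - c • 1) ≠ ⊤ := by
  intro htop
  have h3 := h.three_le h2
  have h4 := h.2.2.2
  rw [htop, finrank_top] at h4
  omega

theorem Good.eig_ne_top {A : End K W} (h : Good A) (c : K) :
    LinearMap.ker (A - c • 1) ≠ ⊤ := by
  intro htop
  apply h.1 c
  have := LinearMap.ker_eq_top.mp htop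
  exact sub_eq_zero.mp this

theorem mem_range_of_eig {A : End K W} {c l : K} (hne : l ≠ c) {v : W} (hv : A v = l • v) :
    v ∈ LinearMap.range (A - c • 1) := by
  refine ⟨(l - c)⁻¹ • v, ?_⟩
  have hne' : l - c ≠ 0 := sub_ne_zero.mpr hne
  simp only [LinearMap.sub_apply, LinearMap.smul_apply, Module.End.one_apply, map_smul, hv]
  rw [smul_sub, smul_smul, smul_smul, ← sub_smul, ← mul_sub, inv_mul_cancel₀ hne', one_smul]

theorem bad_unique {A : End K W} (h2 : 2 ≤ finrank K W) (hT : LinearMap.ker (A - 1) ≠ ⊥)
    {c c' : K} (hc : Bad A c) (hc' : Bad A c') : c = c' := by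
  by_contra hne
  have h3 := hc.three_le h2
  obtain ⟨v₀, hv₀, hv₀0⟩ := Submodule.exists_mem_ne_zero_of_ne_bot hT
  have hAv₀ : A v₀ = (1 : K) • v₀ := by
    have : (A - 1) v₀ = 0 := hv₀
    simp only [LinearMap.sub_apply, Module.End.one_apply, sub_eq_zero] at this
    simpa using this
  have hlt : LinearMap.ker (A - c' • 1) < LinearMap.range (A - c • 1) := by
    refine lt_of_le_of_ne ?_ ?_
    · intro v hv
      have hv' : (A - c' • 1) v = 0 := hv
      simp only [LinearMap.sub_apply, LinearMap.smul_apply, Module.End.one_apply,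
        sub_eq_zero] at hv'
      exact mem_range_of_eig (Ne.symm hne) hv'
    · intro heq
      have hmem : v₀ ∈ LinearMap.range (A - c • 1) :=
        mem_range_of_eig (Ne.symm hc.2.1) hAv₀
      rw [← heq] at hmem
      have hv' : (A - c' • 1) v₀ = 0 := hmem
      simp only [LinearMap.sub_apply, LinearMap.smul_apply, Module.End.one_apply,
        sub_eq_zero, hAv₀, one_smul] at hv'
      have : (1 - c') • v₀ = 0 := by
        rw [sub_smul, one_smul, ← hv', sub_self]
      rcases smul_eq_zero.mp this with h | h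
      · exact hc'.2.1 (sub_eq_zero.mp h).symm
      · exact hv₀0 h
  have h4 := Submodule.finrank_lt_finrank_of_lt hlt
  have h5 := LinearMap.finrank_range_add_finrank_ker (A - c' • 1)
  have h6 := hc.2.2.2
  have h7 := hc'.2.2.2
  have hd : finrank K W = 3 := by omega
  have e1 := hc.2.2.1
  have e2 := hc'.2.2.1
  rw [hd] at e1 e2
  have f1 : c = -1 := by
    have : (c - 1) * (c + 1) = 0 := by
      have e1' : c ^ 2 = 1 := by simpa using e1
      ring_nf; rw [e1']; ring
    rcases mul_eq_zero.mp this with h | h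
    · exact absurd (sub_eq_zero.mp h) hc.2.1
    · exact eq_neg_of_add_eq_zero_left h
  have f2 : c' = -1 := by
    have : (c' - 1) * (c' + 1) = 0 := by
      have e2' : c' ^ 2 = 1 := by simpa using e2
      ring_nf; rw [e2']; ring
    rcases mul_eq_zero.mp this with h | h
    · exact absurd (sub_eq_zero.mp h) hc'.2.1
    · exact eq_neg_of_add_eq_zero_left h
  exact hne (f1.trans f2.symm)

theorem eig_of_mem_line {A : End K W} (hdet : LinearMap.det A = 1) {e : W} (he : e ≠ 0)
    (hm : e ∈ K ∙ ((A - 1) e)) : ∃ l : K, l ≠ 0 ∧ l ≠ 1 ∧ A e = l • e := by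
  obtain ⟨β, hβ⟩ := Submodule.mem_span_singleton.mp hm
  have hβ0 : β ≠ 0 := by
    rintro rfl
    exact he (by simpa using hβ.symm)
  have hTe : (A - 1) e = β⁻¹ • e := by
    conv_rhs => rw [← hβ]
    rw [smul_smul, inv_mul_cancel₀ hβ0, one_smul]
  have hAe : A e = (1 + β⁻¹) • e := by
    have : A e - e = β⁻¹ • e := by simpa using hTe
    rw [add_smul, one_smul, ← this]; abel
  refine ⟨1 + β⁻¹, ?_, ?_, hAe⟩
  · intro h0
    rw [h0, zero_smul] at hAe
    have hk : LinearMap.ker A ≠ ⊥ := by
      intro hb
      have : e ∈ LinearMap.ker A := hAe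
      rw [hb] at this
      exact he (by simpa using this)
    apply hk
    have hu : IsUnit (LinearMap.det A) := by rw [hdet]; exact isUnit_one
    exact (LinearMap.isUnit_iff_ker_eq_bot A).mp ((LinearMap.isUnit_iff_isUnit_det A).mpr hu)
  · intro h1
    have : β⁻¹ = 0 := by simpa using h1
    exact hβ0 (by simpa using this)

theorem pick_e (hK : 4 ≤ Cardinal.mk K) {A : End K W} (hdet : LinearMap.det A = 1) (hG : Good A)
    {u : W} (hu : u ≠ 0) {r : Dual K W} (hr : r ≠ 0) :
    ∃ e : W, r e ≠ 0 ∧ (A - 1) e ∉ K ∙ u ∧ e ∉ K ∙ ((A - 1) e) ∧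
      (LinearMap.ker (A - 1) = ⊥ ∨ e ∉ LinearMap.range (A - 1)) ∧
      ∀ c, Bad A c → e ∉ LinearMap.range (A - c • 1) := by
  classical
  have h2 := hG.two_le
  have hrtop : LinearMap.ker r ≠ ⊤ := by
    intro h
    exact hr (LinearMap.ker_eq_top.mp h)
  have hctop : Submodule.comap (A - 1) (K ∙ u) ≠ ⊤ := by
    intro h
    obtain ⟨z, hz⟩ := exists_not_mem_line hG u
    have : z ∈ Submodule.comap (A - 1) (K ∙ u) := by rw [h]; trivial
    exact hz this
  by_cases hT : LinearMap.ker (A - 1) = ⊥
  · by_cases hS : ∃ c₀, Bad A c₀ ∧ ∀ c, Bad A c → c = c₀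
    · obtain ⟨c₀, hc₀, huniq⟩ := hS
      obtain ⟨e, he1, he2, he3, he4⟩ := avoid4 hK (LinearMap.ker r)
        (Submodule.comap (A - 1) (K ∙ u)) (LinearMap.ker (A - c₀ • 1))
        (LinearMap.range (A - c₀ • 1)) hrtop hctop (hG.eig_ne_top c₀) (hc₀.range_ne_top h2)
      have he0 : e ≠ 0 := by
        rintro rfl
        exact he1 (zero_mem _)
      refine ⟨e, he1, he2, ?_, Or.inl hT, ?_⟩
      · intro hm
        obtain ⟨l, hl0, hl1, hl⟩ := eig_of_mem_line hdet he0 hm
        by_cases hlc : l = c₀
        · apply he3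
          subst hlc
          show (A - l • 1) e = 0
          simp [hl]
        · exact he4 (mem_range_of_eig hlc hl)
      · intro c hc
        rw [huniq c hc]
        exact he4
    · push Not at hS
      let P : K → Submodule K W := fun c =>
        if c = 0 then LinearMap.ker r
        else if c = 1 then Submodule.comap (A - 1) (K ∙ u)
        else if Bad A c then LinearMap.range (A - c • 1) else LinearMap.ker (A - c • 1)
      have hP : ∀ c, P c ≠ ⊤ := by
        intro c
        simp only [P]
        split_ifs with h0 h1 hb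
        · exact hrtop
        · exact hctop
        · exact hb.range_ne_top h2
        · exact hG.eig_ne_top c
      have hfin : {c | P c ≠ ⊥}.Finite := by
        refine ((Module.End.finite_hasEigenvalue A).union (Set.finite_singleton (0 : K))).union
          (Set.finite_singleton (1 : K)) |>.subset ?_
        intro c hc
        by_cases h0 : c = 0
        · left; right; exact h0
        by_cases h1 : c = 1
        · right; exact h1
        left; left
        simp only [Set.mem_setOf_eq, P, if_neg h0, if_neg h1] at hc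
        split_ifs at hc with hb
        · -- eigenvalue since range is proper
          have hne : LinearMap.ker (A - c • 1) ≠ ⊥ := by
            intro hk
            have hs := (LinearMap.injective_iff_surjective (f := A - c • 1)).mp
              (LinearMap.ker_eq_bot.mp hk)
            exact hb.range_ne_top h2 (LinearMap.range_eq_top.mpr hs)
          obtain ⟨v, hv, hv0⟩ := Submodule.exists_mem_ne_zero_of_ne_bot hne
          refine Module.End.hasEigenvalue_of_hasEigenvector (x := v) ⟨?_, hv0⟩
          rw [Module.End.mem_eigenspace_iff]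
          have : (A - c • 1) v = 0 := hv
          simpa [sub_eq_zero] using this
        · obtain ⟨v, hv, hv0⟩ := Submodule.exists_mem_ne_zero_of_ne_bot hc
          refine Module.End.hasEigenvalue_of_hasEigenvector (x := v) ⟨?_, hv0⟩
          rw [Module.End.mem_eigenspace_iff]
          have : (A - c • 1) v = 0 := hv
          simpa [sub_eq_zero] using this
      obtain ⟨e, he⟩ := avoid_K P hP hfin
      have he1 : e ∉ LinearMap.ker r := by
        have := he 0
        simpa [P] using this
      have he2 : e ∉ Submodule.comap (A - 1) (K ∙ u) := by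
        have := he 1
        simpa [P] using this
      have he3 : ∀ c, c ≠ 0 → c ≠ 1 → e ∉ (if Bad A c then LinearMap.range (A - c • 1) else
          LinearMap.ker (A - c • 1)) := by
        intro c h0 h1
        have := he c
        simpa [P, h0, h1] using this
      have he0 : e ≠ 0 := by
        rintro rfl
        exact he1 (zero_mem _)
      refine ⟨e, he1, he2, ?_, Or.inl hT, ?_⟩
      · intro hm
        obtain ⟨l, hl0, hl1, hl⟩ := eig_of_mem_line hdet he0 hm
        by_cases hb : Bad A l
        · obtain ⟨c, hc, hcl⟩ := hS l hb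
          have := he3 c hc.1 hc.2.1
          rw [if_pos hc] at this
          exact this (mem_range_of_eig (Ne.symm hcl) hl)
        · have := he3 l hl0 hl1
          rw [if_neg hb] at this
          apply this
          show (A - l • 1) e = 0
          simp [hl]
      · intro c hc
        have := he3 c hc.1 hc.2.1
        rwa [if_pos hc] at this
  · have hTr : LinearMap.range (A - 1) ≠ ⊤ := by
      intro htop
      have hs := LinearMap.range_eq_top.mp htop
      have hi := (LinearMap.injective_iff_surjective (f := A - 1)).mpr hs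
      exact hT (LinearMap.ker_eq_bot.mpr hi)
    by_cases hS : ∃ c₀, Bad A c₀
    · obtain ⟨c₀, hc₀⟩ := hS
      obtain ⟨e, he1, he2, he3, he4⟩ := avoid4 hK (LinearMap.ker r)
        (Submodule.comap (A - 1) (K ∙ u)) (LinearMap.range (A - 1))
        (LinearMap.range (A - c₀ • 1)) hrtop hctop hTr (hc₀.range_ne_top h2)
      refine ⟨e, he1, he2, ?_, Or.inr he3, ?_⟩
      · intro hm
        obtain ⟨β, hβ⟩ := Submodule.mem_span_singleton.mp hm
        exact he3 ⟨β • e, by simpa using hβ⟩
      · intro c hc
        rw [bad_unique h2 hT hc hc₀]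
        exact he4
    · push Not at hS
      obtain ⟨e, he1, he2, he3, -⟩ := avoid4 hK (LinearMap.ker r)
        (Submodule.comap (A - 1) (K ∙ u)) (LinearMap.range (A - 1))
        (LinearMap.range (A - 1)) hrtop hctop hTr hTr
      refine ⟨e, he1, he2, ?_, Or.inr he3, ?_⟩
      · intro hm
        obtain ⟨β, hβ⟩ := Submodule.mem_span_singleton.mp hm
        exact he3 ⟨β • e, by simpa using hβ⟩
      · intro c hc
        exact absurd hc (hS c)

theorem exists_dual_avoid (hK : 4 ≤ Cardinal.mk K) (t w₁ w₂ w₃ w₄ : W) (h₁ : w₁ ∉ K ∙ t)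
    (h₂ : w₂ ∉ K ∙ t) (h₃ : w₃ ∉ K ∙ t) (h₄ : w₄ ∉ K ∙ t) :
    ∃ ψ : Dual K W, ψ t = 0 ∧ ψ w₁ ≠ 0 ∧ ψ w₂ ≠ 0 ∧ ψ w₃ ≠ 0 ∧ ψ w₄ ≠ 0 := by
  classical
  let V : Submodule K (Dual K W) := (K ∙ t).dualAnnihilator
  let p : W → Submodule K V := fun w =>
    LinearMap.ker ((Module.Dual.eval K W w).domRestrict V)
  have hp : ∀ w, w ∉ K ∙ t → p w ≠ ⊤ := by
    intro w hw htop
    obtain ⟨f, hf, hf'⟩ := Submodule.exists_dual_map_eq_bot_of_notMem hw inferInstance
    have hft : f t = 0 := LinearMap.le_ker_iff_map.mpr hf' (Submodule.mem_span_singleton_self t)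
    have hfV : f ∈ V := by
      rw [Submodule.mem_dualAnnihilator]
      intro x hx
      obtain ⟨β, rfl⟩ := Submodule.mem_span_singleton.mp hx
      simp [hft]
    have : (⟨f, hfV⟩ : V) ∈ p w := by rw [htop]; trivial
    exact hf (by simpa [p] using this)
  obtain ⟨ψ, h1, h2, h3, h4⟩ := avoid4 (K := K) (W := V) hK (p w₁) (p w₂) (p w₃) (p w₄) (hp _ h₁) (hp _ h₂) (hp _ h₃)
    (hp _ h₄)
  have hψt : (ψ : Dual K W) t = 0 := by
    have := ψ.2
    rw [Submodule.mem_dualAnnihilator] at this
    exact this t (Submodule.mem_span_singleton_self t)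
  refine ⟨ψ, hψt, ?_, ?_, ?_, ?_⟩
  · simpa [p] using h1
  · simpa [p] using h2
  · simpa [p] using h3
  · simpa [p] using h4

theorem exists_schur (A : End K W) (e : W) (φ : Dual K W) (h : φ (A e) = 1) :
    ∃ A' : End K (LinearMap.ker φ), ∀ w : LinearMap.ker φ, (A' w : W) = A w - φ (A w) • A e := by
  let f : LinearMap.ker φ →ₗ[K] W :=
    (A ∘ₗ (LinearMap.ker φ).subtype) - ((φ ∘ₗ A ∘ₗ (LinearMap.ker φ).subtype).smulRight (A e))
  refine ⟨LinearMap.codRestrict (LinearMap.ker φ) f ?_, ?_⟩
  · intro w
    simp [f, h]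
  · intro w
    show f w = _
    simp [f]

theorem det_schur (A : End K W) (e : W) (φ : Dual K W) (he : φ e = 1) (h : φ (A e) = 1)
    (A' : End K (LinearMap.ker φ)) (hA' : ∀ w : LinearMap.ker φ, (A' w : W) = A w - φ (A w) • A e) :
    LinearMap.det A' = LinearMap.det A := by
  -- projection
  have hp : ∀ x, φ (x - φ x • e) = 0 := by
    intro x; simp [he]
  let p : W →ₗ[K] LinearMap.ker φ :=
    LinearMap.codRestrict (LinearMap.ker φ) (LinearMap.id - φ.smulRight e) (by
      intro x; simp [he])
  have hpc : ∀ x, (p x : W) = x - φ x • e := by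
    intro x
    show ((LinearMap.id : W →ₗ[K] W) - φ.smulRight e) x = _
    simp
  let Ψ : W ≃ₗ[K] K × LinearMap.ker φ := LinearEquiv.ofLinear
    (LinearMap.prod φ p)
    (LinearMap.coprod (LinearMap.toSpanSingleton K W e) (LinearMap.ker φ).subtype)
    (by
      ext x
      · simp [he]
      · simp [hpc, he]
      · simp
      · simp [hpc])
    (by
      ext x
      simp [hpc])
  let t : W := A e - e
  have htφ : φ t = 0 := by simp [t, h, he]
  let s : Dual K W := φ ∘ₗ A ∘ₗ (LinearMap.ker φ).subtype ∘ₗ p
  have hse : s e = 0 := by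
    have : p e = 0 := by
      apply Subtype.ext
      simp [hpc, he]
    simp [s, this]
  let D : End K W := Ψ.symm.toLinearMap ∘ₗ (LinearMap.prodMap LinearMap.id A') ∘ₗ Ψ.toLinearMap
  have hD : ∀ x, D x = φ x • e + (A' (p x) : W) := by
    intro x
    simp [D, Ψ]
  have hfac : A = (LinearMap.transvection φ t) ∘ₗ D ∘ₗ (LinearMap.transvection s e) := by
    apply LinearMap.ext
    intro x
    have hpe : p e = 0 := by
      apply Subtype.ext
      simp [hpc, he]
    have hs : s x = φ (A (p x : W)) := rfl
    have h1 : φ (x + s x • e) = φ x + s x := by simp [he]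
    have h2 : p (x + s x • e) = p x := by simp [hpe]
    have h3 : φ ((A' (p x) : W)) = 0 := (A' (p x)).2
    have h4 : A (p x : W) = A x - φ x • A e := by rw [hpc]; simp
    have h5 := hA' (p x)
    have h6 : φ ((φ x + s x) • e + (A' (p x) : W)) = φ x + s x := by simp [he, h3]
    simp only [LinearMap.comp_apply, LinearMap.transvection.apply]
    rw [hD, h1, h2, h6, h5, ← hs, h4]
    simp only [t]
    module
  have hdD : LinearMap.det D = LinearMap.det A' := by
    have := LinearMap.det_conj (LinearMap.prodMap (LinearMap.id : K →ₗ[K] K) A') Ψ.symm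
    simp only [LinearMap.det_prodMap, LinearMap.det_id, one_mul] at this
    simpa [D] using this
  rw [hfac, LinearMap.det_comp, LinearMap.det_comp, LinearMap.transvection.det,
    LinearMap.transvection.det, htφ, hse, hdD]
  simp

theorem finrank_pair_le (x y : W) : finrank K (span K ({x, y} : Set W)) ≤ 2 := by
  classical
  have h := finrank_span_finset_le_card (R := K) ({x, y} : Finset W)
  have h2 : ({x, y} : Finset W).card ≤ 2 := Finset.card_le_two
  have h3 : ((({x, y} : Finset W) : Set W)).finrank K = finrank K (span K ({x, y} : Set W)) := by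
    rw [Set.finrank, Finset.coe_pair]
  omega

theorem fix_det_two (hV : finrank K W = 2) (B : End K W) (hdet : LinearMap.det B = 1) (t : W)
    (ht : t ≠ 0) (hBt : B t = t) (w : W) : B w - w ∈ K ∙ t := by
  by_cases hw : w ∈ K ∙ t
  · obtain ⟨β, rfl⟩ := Submodule.mem_span_singleton.mp hw
    simp [hBt]
  · obtain ⟨f₀, hf₀, hf₀'⟩ := Submodule.exists_dual_map_eq_bot_of_notMem hw inferInstance
    have hf₀t : f₀ t = 0 := LinearMap.le_ker_iff_map.mpr hf₀' (Submodule.mem_span_singleton_self t)
    let f : Dual K W := (f₀ w)⁻¹ • f₀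
    have hfw : f w = 1 := by simp [f, hf₀]
    have hft : f t = 0 := by simp [f, hf₀t]
    have hf0 : f ≠ 0 := by
      intro h
      rw [h] at hfw
      simp at hfw
    have hfin := Module.Dual.finrank_ker_add_one_of_ne_zero hf0
    have hker : K ∙ t = LinearMap.ker f := by
      apply Submodule.eq_of_le_of_finrank_le
      · rw [Submodule.span_singleton_le_iff_mem]
        exact hft
      · rw [finrank_span_singleton ht]
        omega
    have hB : B = LinearMap.transvection f (B w - w) := by
      apply LinearMap.ext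
      intro x
      have hx : x - f x • w ∈ LinearMap.ker f := by
        simp [hfw]
      rw [← hker] at hx
      obtain ⟨β, hβ⟩ := Submodule.mem_span_singleton.mp hx
      rw [LinearMap.transvection.apply]
      generalize f x = y at hβ ⊢
      have hx' : x = β • t + y • w := by rw [hβ]; abel
      rw [hx']
      simp only [map_add, map_smul, hBt]
      module
    have h1 : f (B w - w) = 0 := by
      have h2 := congrArg LinearMap.det hB
      rw [hdet, LinearMap.transvection.det] at h2
      linear_combination -h2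
    rw [hker]
    exact h1

theorem good_schur {A : End K W} (hdet : LinearMap.det A = 1) (hG : Good A) (h3 : 3 ≤ finrank K W)
    {e z : W} {φ : Dual K W} (he : φ e = 1) (ht : φ ((A - 1) e) = 0)
    (hE4 : LinearMap.ker (A - 1) = ⊥ ∨ e ∉ LinearMap.range (A - 1))
    (hE5 : ∀ c, Bad A c → e ∉ LinearMap.range (A - c • 1))
    (hz : φ ((A - 1) z) ≠ 0)
    (hv : Submodule.comap (A - 1) (K ∙ A e) ≤ K ∙ ((A - 1) e) ∨
      ∃ v₀ ∈ Submodule.comap (A - 1) (K ∙ A e), φ v₀ ≠ 0)
    (A' : End K (LinearMap.ker φ))
    (hA' : ∀ w : LinearMap.ker φ, (A' w : W) = A w - φ (A w) • A e) :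
    Good A' := by
  have hTa : ∀ x, (A - 1) x = A x - x := by intro x; simp
  have hφAe : φ (A e) = 1 := by
    have h1 := ht
    rw [hTa, map_sub, he] at h1
    linear_combination h1
  have hφ0 : φ ≠ 0 := by
    intro h
    rw [h] at he
    simp at he
  have hd := Module.Dual.finrank_ker_add_one_of_ne_zero hφ0
  have hdetA' : LinearMap.det A' = 1 := by
    rw [det_schur A e φ he hφAe A' hA', hdet]
  have hB : ∀ w : LinearMap.ker φ,
      (((A' - 1) w : LinearMap.ker φ) : W) = (A - 1) w - φ ((A - 1) w) • A e := by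
    intro w
    have hw : φ (w : W) = 0 := w.2
    simp only [LinearMap.sub_apply, Module.End.one_apply, Submodule.coe_sub, hA', map_sub, hw,
      sub_zero]
    abel
  -- the rank bound
  have hrank : finrank K (LinearMap.ker (A' - 1)) + 2 ≤ finrank K (LinearMap.ker φ) := by
    set H := Submodule.comap (A - 1) (K ∙ A e) with hH
    set Y := (LinearMap.ker (A' - 1)).map (LinearMap.ker φ).subtype with hYdef
    have hY : finrank K Y = finrank K (LinearMap.ker (A' - 1)) :=
      Submodule.finrank_map_subtype_eq _ _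
    have hYH : Y ≤ H := by
      rintro _ ⟨w, hw, rfl⟩
      have h0 : (A' - 1) w = 0 := hw
      have h1 := hB w
      rw [h0] at h1
      show (A - 1) w ∈ K ∙ A e
      rw [Submodule.mem_span_singleton]
      refine ⟨φ ((A - 1) w), ?_⟩
      have h2 : (A - 1) (w : W) - φ ((A - 1) w) • A e = 0 := by
        rw [← h1]; rfl
      exact (sub_eq_zero.mp h2).symm
    have hYφ : ∀ y ∈ Y, φ y = 0 := by
      rintro _ ⟨w, _, rfl⟩
      exact w.2
    have hHrank : finrank K H + 2 ≤ finrank K W := by
      rcases hE4 with hT | hnot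
      · have hinj := LinearMap.ker_eq_bot.mp hT
        have h1 : finrank K H = finrank K (H.map (A - 1)) :=
          LinearEquiv.finrank_eq (Submodule.equivMapOfInjective (A - 1) hinj H)
        have h2 : H.map (A - 1) ≤ K ∙ A e := Submodule.map_comap_le _ _
        have h4 := Submodule.finrank_mono h2
        have h5 := finrank_line_le (K := K) (A e)
        omega
      · have h1 : H ≤ LinearMap.ker (A - 1) := by
          intro x hx
          have hx' : (A - 1) x ∈ K ∙ A e := hx
          obtain ⟨β, hβ⟩ := Submodule.mem_span_singleton.mp hx'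
          by_cases hβ0 : β = 0
          · rw [hβ0, zero_smul] at hβ
            exact hβ.symm
          · exfalso
            apply hnot
            refine ⟨β⁻¹ • x - e, ?_⟩
            rw [map_sub, map_smul, ← hβ, smul_smul, inv_mul_cancel₀ hβ0, one_smul, hTa e]
            abel
        have h2 := Submodule.finrank_mono h1
        have h4 := hG.2
        omega
    rcases hv with hle | ⟨v₀, hv₀, hφv₀⟩
    · have hYle : Y ≤ K ∙ ((A - 1) e) := hYH.trans hle
      have h1 := Submodule.finrank_mono hYle
      have h2 := finrank_line_le (K := K) ((A - 1) e)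
      by_cases h4 : 4 ≤ finrank K W
      · omega
      · have hd3 : finrank K W = 3 := by omega
        by_cases hY0 : Y = ⊥
        · rw [hY0, finrank_bot] at hY
          omega
        · exfalso
          obtain ⟨y, hyY, hy0⟩ := Submodule.exists_mem_ne_zero_of_ne_bot hY0
          obtain ⟨β, hβ⟩ := Submodule.mem_span_singleton.mp (hYle hyY)
          have hβ0 : β ≠ 0 := by
            rintro rfl
            apply hy0
            rw [← hβ, zero_smul]
          obtain ⟨w, hw, hwy⟩ := hyY
          let t₁ : LinearMap.ker φ := ⟨(A - 1) e, ht⟩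
          have ht₁w : w = β • t₁ := by
            apply Subtype.ext
            show (w : W) = β • (A - 1) e
            rw [hβ]
            exact hwy
          have ht₁0 : t₁ ≠ 0 := by
            intro h
            rw [ht₁w, h, smul_zero] at hwy
            exact hy0 (by rw [← hwy]; rfl)
          have hAt₁ : A' t₁ = t₁ := by
            have h0 : (A' - 1) w = 0 := hw
            rw [ht₁w, map_smul] at h0
            rcases smul_eq_zero.mp h0 with h | h
            · exact absurd h hβ0
            · exact sub_eq_zero.mp (by simpa using h)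
          have hfix := fix_det_two (K := K) (W := LinearMap.ker φ) (by omega) A' hdetA' t₁ ht₁0 hAt₁
          let X : Submodule K W := span K ({e, (A - 1) e} : Set W)
          have heX : e ∈ X := subset_span (by simp)
          have htX : (A - 1) e ∈ X := subset_span (by simp)
          have hXr : LinearMap.range (A - 1) ≤ X := by
            rintro _ ⟨x, rfl⟩
            have hpx : φ (x - φ x • e) = 0 := by simp [he]
            let w' : LinearMap.ker φ := ⟨x - φ x • e, hpx⟩
            have h5 := hB w'
            have h6 : (((A' - 1) w' : LinearMap.ker φ) : W) ∈ X := by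
              have h7 := hfix w'
              obtain ⟨γ, hγ⟩ := Submodule.mem_span_singleton.mp h7
              have h8 : ((A' - 1) w' : LinearMap.ker φ) = γ • t₁ := by
                rw [hγ]; simp
              rw [h8]
              exact X.smul_mem _ htX
            have hAeX : A e ∈ X := by
              have : A e = e + (A - 1) e := by rw [hTa]; abel
              rw [this]
              exact X.add_mem heX htX
            have h9 : (A - 1) (w' : W) ∈ X := by
              have : (A - 1) (w' : W) = (((A' - 1) w' : LinearMap.ker φ) : W)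
                  + φ ((A - 1) w') • A e := by
                rw [h5]; abel
              rw [this]
              exact X.add_mem h6 (X.smul_mem _ hAeX)
            have h10 : x = φ x • e + (w' : W) := by
              show x = φ x • e + (x - φ x • e)
              abel
            rw [h10, map_add, map_smul]
            exact X.add_mem (X.smul_mem _ htX) h9
          have hX2 : finrank K X ≤ 2 := finrank_pair_le _ _
          rcases hE4 with hT | hnot
          · have h11 := LinearMap.finrank_range_of_inj (LinearMap.ker_eq_bot.mp hT)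
            have h12 := Submodule.finrank_mono hXr
            omega
          · have h11 := hG.rank
            have h12 : LinearMap.range (A - 1) = X :=
              Submodule.eq_of_le_of_finrank_le hXr (by omega)
            exact hnot (h12 ▸ heX)
    · have hlt : Y < H := by
        refine lt_of_le_of_ne hYH ?_
        intro heq
        exact hφv₀ (hYφ v₀ (heq ▸ hv₀))
      have h1 := Submodule.finrank_lt_finrank_of_lt hlt
      omega
  refine ⟨?_, by omega⟩
  -- not scalar
  intro c hc
  have hc1 : c ≠ 1 := by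
    rintro rfl
    have h0 : A' - 1 = 0 := by
      rw [hc]; simp
    rw [h0, LinearMap.ker_zero, finrank_top] at hrank
    omega
  have hcpow : c ^ (finrank K W - 1) = 1 := by
    have h1 := hdetA'
    rw [hc, LinearMap.det_smul, map_one] at h1
    have h2 : finrank K (LinearMap.ker φ) = finrank K W - 1 := by omega
    rw [h2] at h1
    simpa using h1
  have hc0 : c ≠ 0 := by
    rintro rfl
    rw [zero_pow (by omega)] at hcpow
    exact zero_ne_one hcpow
  have hw : ∀ w : LinearMap.ker φ, (A - c • 1) (w : W) = φ (A w) • A e := by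
    intro w
    have h1 := hA' w
    rw [hc] at h1
    have h2 : ((c • (1 : End K (LinearMap.ker φ))) w : W) = c • (w : W) := by simp
    rw [h2] at h1
    simp only [LinearMap.sub_apply, LinearMap.smul_apply, Module.End.one_apply]
    rw [h1]
    abel
  have hdecomp : ∀ x, ∃ w : LinearMap.ker φ, x = φ x • e + (w : W) := by
    intro x
    refine ⟨⟨x - φ x • e, by simp [he]⟩, ?_⟩
    show x = φ x • e + (x - φ x • e)
    abel
  have hbad : Bad A c := by
    refine ⟨hc0, hc1, hcpow, ?_⟩
    have hle : LinearMap.range (A - c • 1) ≤ span K ({(A - c • 1) e, A e} : Set W) := by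
      rintro _ ⟨x, rfl⟩
      obtain ⟨w, hw'⟩ := hdecomp x
      rw [hw', map_add, map_smul, hw w]
      exact add_mem (Submodule.smul_mem _ _ (subset_span (by simp)))
        (Submodule.smul_mem _ _ (subset_span (by simp)))
    exact (Submodule.finrank_mono hle).trans (finrank_pair_le _ _)
  have hnote := hE5 c hbad
  have hzero : ∀ w : LinearMap.ker φ, φ (A w) = 0 := by
    intro w
    by_contra hne
    apply hnote
    have hAe : A e ∈ LinearMap.range (A - c • 1) := by
      refine ⟨(φ (A w))⁻¹ • (w : W), ?_⟩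
      rw [map_smul, hw w, smul_smul, inv_mul_cancel₀ hne, one_smul]
    have hce : c • e ∈ LinearMap.range (A - c • 1) := by
      have h1 : c • e = A e - (A - c • 1) e := by simp
      rw [h1]
      exact sub_mem hAe ⟨e, rfl⟩
    have := Submodule.smul_mem _ c⁻¹ hce
    rwa [smul_smul, inv_mul_cancel₀ hc0, one_smul] at this
  apply hz
  obtain ⟨w, hw'⟩ := hdecomp z
  rw [hw', map_add, map_smul, map_add, map_smul, ht, smul_zero, zero_add, hTa, map_sub, hzero w]
  have : φ (w : W) = 0 := w.2
  rw [this, sub_zero]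

theorem recursion (hK : 4 ≤ Cardinal.mk K) : ∀ (d : ℕ) (V : Type v) [AddCommGroup V] [Module K V]
    [FiniteDimensional K V], finrank K V = d + 1 → ∀ A : End K V, LinearMap.det A = 1 →
    (1 ≤ d → Good A) → ∀ u : V, u ≠ 0 → ∀ r : Dual K V, r ≠ 0 →
    ∃ L U : End K V, A = L * U ∧ (L - 1) ^ (d + 1) = 0 ∧ (U - 1) ^ (d + 1) = 0 ∧
      ((L - 1) ^ d) u ≠ 0 ∧ r ∘ₗ ((U - 1) ^ d) ≠ 0 := by
  intro d
  induction d with
  | zero =>
    intro V _ _ _ hfin A hdet _ u hu r hr
    have hA : A = 1 := by
      have h := (finrank_eq_one_iff_of_nonzero' u hu).mp (by simpa using hfin)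
      obtain ⟨c, hc⟩ := h (A u)
      have hAc : A = c • 1 := by
        apply LinearMap.ext
        intro x
        obtain ⟨β, rfl⟩ := h x
        simp only [map_smul, ← hc, LinearMap.smul_apply, Module.End.one_apply]
      rw [hAc, LinearMap.det_smul, map_one, hfin] at hdet
      have hc1 : c = 1 := by simpa using hdet
      rw [hAc, hc1, one_smul]
    refine ⟨1, 1, by simp [hA], by simp, by simp, by simpa using hu, by
      rw [pow_zero]
      intro h
      apply hr
      apply LinearMap.ext
      intro x
      exact LinearMap.congr_fun h x⟩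
  | succ d IH =>
    intro V _ _ _ hfin A hdet hG' u hu r hr
    have hG : Good A := hG' (by omega)
    obtain ⟨e, he1, he2, he3, he4, he5⟩ := pick_e hK hdet hG hu hr
    have hTa : ∀ x, (A - 1) x = A x - x := by intro x; simp
    set t := (A - 1) e with ht
    have ht0 : t ≠ 0 := by
      intro h
      apply he2
      rw [h]
      exact zero_mem _
    have hut : u ∉ K ∙ t := by
      intro hm
      obtain ⟨β, hβ⟩ := Submodule.mem_span_singleton.mp hm
      have hβ0 : β ≠ 0 := by
        rintro rfl
        exact hu (by simpa using hβ.symm)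
      apply he2
      rw [Submodule.mem_span_singleton]
      exact ⟨β⁻¹, by rw [← hβ, smul_smul, inv_mul_cancel₀ hβ0, one_smul]⟩
    obtain ⟨z, hz⟩ := exists_not_mem_line hG t
    obtain ⟨v₀, hv₀, hv₀'⟩ : ∃ v₀, v₀ ∉ K ∙ t ∧ (Submodule.comap (A - 1) (K ∙ A e) ≤ K ∙ t ∨
        v₀ ∈ Submodule.comap (A - 1) (K ∙ A e)) := by
      by_cases h : Submodule.comap (A - 1) (K ∙ A e) ≤ K ∙ t
      · exact ⟨e, he3, Or.inl h⟩
      · obtain ⟨v, hv, hv'⟩ := SetLike.not_le_iff_exists.mp h
        exact ⟨v, hv', Or.inr hv⟩
    obtain ⟨ψ, hψt, hψe, hψu, hψz, hψv⟩ := exists_dual_avoid hK t e u ((A - 1) z) v₀ he3 hut hz hv₀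
    let φ : Dual K V := (ψ e)⁻¹ • ψ
    have hφe : φ e = 1 := by simp [φ, hψe]
    have hφt : φ t = 0 := by simp [φ, hψt]
    have hφu : φ u ≠ 0 := mul_ne_zero (inv_ne_zero hψe) hψu
    have hφz : φ ((A - 1) z) ≠ 0 := mul_ne_zero (inv_ne_zero hψe) hψz
    have hφv : φ v₀ ≠ 0 := mul_ne_zero (inv_ne_zero hψe) hψv
    have hAe : A e = e + t := by rw [ht, hTa]; abel
    have hφAe : φ (A e) = 1 := by rw [hAe, map_add, hφe, hφt, add_zero]
    obtain ⟨A', hA'⟩ := exists_schur A e φ hφAe
    have hdet' : LinearMap.det A' = 1 := by rw [det_schur A e φ hφe hφAe A' hA', hdet]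
    have hφ0 : φ ≠ 0 := by
      intro h
      rw [h] at hφe
      simp at hφe
    have hd := Module.Dual.finrank_ker_add_one_of_ne_zero hφ0
    have hG'' : 1 ≤ d → Good A' := by
      intro h1
      refine good_schur hdet hG (by omega) hφe hφt he4 he5 hφz ?_ A' hA'
      rcases hv₀' with h | h
      · exact Or.inl h
      · exact Or.inr ⟨v₀, h, hφv⟩
    let u₁ : LinearMap.ker φ := ⟨t, hφt⟩
    let r₁ : Dual K (LinearMap.ker φ) := φ ∘ₗ A ∘ₗ (LinearMap.ker φ).subtype
    have hr₁a : ∀ w : LinearMap.ker φ, r₁ w = φ (A w) := fun w => rfl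
    have hu₁ : u₁ ≠ 0 := by
      intro h
      exact ht0 (congrArg Subtype.val h)
    have hφw : ∀ w : LinearMap.ker φ, φ (w : V) = 0 := fun w => w.2
    have hr₁ : r₁ ≠ 0 := by
      intro h
      have hzero : ∀ w : LinearMap.ker φ, φ (A w) = 0 := fun w => LinearMap.congr_fun h w
      apply hφz
      let w : LinearMap.ker φ := ⟨z - φ z • e, by simp [hφe]⟩
      have hzw : z = φ z • e + (w : V) := by
        show z = φ z • e + (z - φ z • e)
        abel
      rw [hzw, map_add, map_smul, map_add, map_smul, ← ht, hφt, smul_zero, zero_add, hTa, map_sub,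
        hzero w, hφw w, sub_zero]
    obtain ⟨L', U', hLU, hL0, hU0, hLu, hUr⟩ :=
      IH (LinearMap.ker φ) (by omega) A' hdet' hG'' u₁ hu₁ r₁ hr₁
    obtain ⟨p, hp⟩ : ∃ p : V →ₗ[K] LinearMap.ker φ, ∀ x, (p x : V) = x - φ x • e := by
      refine ⟨LinearMap.codRestrict (LinearMap.ker φ)
        ((LinearMap.id : V →ₗ[K] V) - φ.smulRight e) (by intro x; simp [hφe]), ?_⟩
      intro x
      show ((LinearMap.id : V →ₗ[K] V) - φ.smulRight e) x = _
      simp
    obtain ⟨L, hL⟩ : ∃ L : End K V, ∀ x, L x = φ x • (e + t) + (L' (p x) : V) :=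
      ⟨φ.smulRight (e + t) + (LinearMap.ker φ).subtype ∘ₗ L' ∘ₗ p, by intro x; simp⟩
    obtain ⟨U, hU⟩ : ∃ U : End K V, ∀ x, U x = (φ x + r₁ (p x)) • e + (U' (p x) : V) :=
      ⟨(φ + r₁ ∘ₗ p).smulRight e + (LinearMap.ker φ).subtype ∘ₗ U' ∘ₗ p, by intro x; simp⟩
    have hpe : p e = 0 := by
      apply Subtype.ext
      simp [hp, hφe]
    have hpw : ∀ w : LinearMap.ker φ, p (w : V) = w := by
      intro w
      apply Subtype.ext
      simp [hp, hφw]
    have hx : ∀ x, x = φ x • e + (p x : V) := by
      intro x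
      rw [hp]
      abel
    have hL1 : ∀ x, (L - 1) x = ((φ x • u₁ + (L' - 1) (p x) : LinearMap.ker φ) : V) := by
      intro x
      have h1 : (u₁ : V) = t := rfl
      simp only [LinearMap.sub_apply, Module.End.one_apply, Submodule.coe_add, Submodule.coe_sub,
        Submodule.coe_smul, h1, hL, hp x]
      module
    have hL2 : ∀ w : LinearMap.ker φ, (L - 1) (w : V) = (((L' - 1) w : LinearMap.ker φ) : V) := by
      intro w
      rw [hL1, hφw, zero_smul, zero_add, hpw]
    have hLk : ∀ (k : ℕ) (x : V), ((L - 1) ^ (k + 1)) x =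
        ((((L' - 1) ^ k) (φ x • u₁ + (L' - 1) (p x)) : LinearMap.ker φ) : V) := by
      intro k
      induction k with
      | zero =>
        intro x
        simp only [zero_add, pow_one, pow_zero, Module.End.one_apply]
        exact hL1 x
      | succ k IHk =>
        intro x
        rw [pow_succ', Module.End.mul_apply, IHk, hL2, ← Module.End.mul_apply, ← pow_succ']
    have hU1 : ∀ x, (U - 1) x = (((U' - 1) (p x) : LinearMap.ker φ) : V) + r₁ (p x) • e := by
      intro x
      have h2 : ((((U' - 1) (p x) : LinearMap.ker φ)) : V) = (U' (p x) : V) - (x - φ x • e) := by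
        rw [← hp x]
        rfl
      rw [h2]
      simp only [LinearMap.sub_apply, Module.End.one_apply, hU]
      module
    have hU2 : (U - 1) e = 0 := by
      rw [hU1, hpe]
      simp
    have hUk : ∀ (k : ℕ) (x : V), ((U - 1) ^ (k + 1)) x =
        ((((U' - 1) ^ (k + 1)) (p x) : LinearMap.ker φ) : V) + r₁ (((U' - 1) ^ k) (p x)) • e := by
      intro k
      induction k with
      | zero =>
        intro x
        simp only [zero_add, pow_one, pow_zero, Module.End.one_apply]
        exact hU1 x
      | succ k IHk =>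
        intro x
        rw [pow_succ', Module.End.mul_apply, IHk, map_add, map_smul, hU2, smul_zero, add_zero, hU1,
          hpw, ← Module.End.mul_apply, ← pow_succ']
    refine ⟨L, U, ?_, ?_, ?_, ?_, ?_⟩
    · apply LinearMap.ext
      intro x
      have hpU : p (U x) = U' (p x) := by
        rw [hU, map_add, map_smul, hpe, smul_zero, zero_add, hpw]
      have hφU : φ (U x) = φ x + r₁ (p x) := by
        rw [hU, map_add, map_smul, hφe, hφw, add_zero, smul_eq_mul, mul_one]
      rw [Module.End.mul_apply, hL, hφU, hpU, ← Module.End.mul_apply, ← hLU, hA', hr₁a, ← hAe]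
      have h1 : A (p x : V) = A x - φ x • A e := by
        rw [hp, map_sub, map_smul]
      rw [h1]
      module
    · apply LinearMap.ext
      intro x
      rw [hLk, hL0]
      simp
    · apply LinearMap.ext
      intro x
      rw [hUk, pow_succ', hU0, mul_zero]
      simp
    · rw [hLk, map_add, map_smul]
      have h1 : ((L' - 1) ^ d) ((L' - 1) (p u)) = 0 := by
        rw [← Module.End.mul_apply, ← pow_succ, hL0]
        simp
      rw [h1, add_zero]
      intro h2
      have h3 : φ u • (((L' - 1) ^ d) u₁) = 0 := Subtype.ext h2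
      rcases smul_eq_zero.mp h3 with h | h
      · exact hφu h
      · exact hLu h
    · intro h0
      apply hUr
      apply LinearMap.ext
      intro w
      have h1 := LinearMap.congr_fun h0 (w : V)
      simp only [LinearMap.comp_apply, LinearMap.zero_apply] at h1 ⊢
      rw [hUk, hpw, hU0, map_add, map_smul] at h1
      simp only [LinearMap.zero_apply, ZeroMemClass.coe_zero, map_zero, zero_add, smul_eq_mul] at h1
      rcases mul_eq_zero.mp h1 with h | h
      · exact h
      · exact absurd h he1

end Core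

section Final
open Matrix
variable {K : Type*} [Field K] {n : ℕ}

theorem chain_li (N : Matrix (Fin n) (Fin n) K) (v : Fin n → K) (hn0 : N ^ n = 0)
    (hv : (N ^ (n - 1)) *ᵥ v ≠ 0) :
    LinearIndependent K (fun i : Fin n => (N ^ (n - 1 - (i : ℕ))) *ᵥ v) := by
  classical
  rw [Fintype.linearIndependent_iff]
  intro g hg
  by_contra hcon
  push Not at hcon
  obtain ⟨i, hi⟩ := hcon
  let s := Finset.univ.filter (fun i => g i ≠ 0)
  obtain ⟨m, hm, hmax⟩ := s.exists_max_image (fun x => x) ⟨i, by simp [s, hi]⟩
  have hgm : g m ≠ 0 := by simpa [s] using hm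
  have h1 := congrArg (Matrix.mulVecLin (N ^ (m : ℕ))) hg
  rw [map_sum, map_zero, Finset.sum_eq_single m] at h1
  · rw [map_smul, Matrix.mulVecLin_apply, Matrix.mulVec_mulVec, ← pow_add] at h1
    have he : (m : ℕ) + (n - 1 - (m : ℕ)) = n - 1 := by have := m.2; omega
    rw [he] at h1
    rcases smul_eq_zero.mp h1 with h | h
    · exact hgm h
    · exact hv h
  · intro j _ hj
    by_cases hgj : g j = 0
    · simp [hgj]
    · have hjm : j ≤ m := hmax j (by simp [s, hgj])
      have hlt : (j : ℕ) < m := by
        have : j < m := lt_of_le_of_ne hjm hj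
        exact this
      rw [map_smul, Matrix.mulVecLin_apply, Matrix.mulVec_mulVec, ← pow_add,
        pow_eq_zero_of_le (by have := j.2; omega) hn0]
      simp
  · intro h
    exact absurd (Finset.mem_univ m) h

theorem sum_J {J : Matrix (Fin n) (Fin n) K}
    (hJ : ∀ i j : Fin n, J i j = if i = j then 1 else if j.val = i.val + 1 then 1 else 0)
    (f : Fin n → K) (j : Fin n) :
    ∑ k, f k * J k j = f j + if h : 0 < j.val then f ⟨j.val - 1, by have := j.2; omega⟩ else 0 := by
  classical
  by_cases h : 0 < j.val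
  · rw [dif_pos h]
    have hterm : ∀ k, f k * J k j = (if k = j then f k else 0) +
        (if k = ⟨j.val - 1, by have := j.2; omega⟩ then f k else 0) := by
      intro k
      rw [hJ]
      by_cases hkj : k = j
      · have : k ≠ ⟨j.val - 1, by have := j.2; omega⟩ := by
          intro h2
          have := congrArg Fin.val h2
          simp [hkj] at this
          omega
        simp [hkj]
        intro h3
        have := congrArg Fin.val h3
        simp at this
        omega
      · by_cases hk2 : k = ⟨j.val - 1, by have := j.2; omega⟩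
        · have hv : j.val = k.val + 1 := by
            have := congrArg Fin.val hk2
            simp at this
            omega
          simp [hkj, hv]
        · have hv : ¬ j.val = k.val + 1 := by
            intro h3
            apply hk2
            apply Fin.ext
            simp
            omega
          simp [hkj, hk2, hv]
    simp_rw [hterm]
    rw [Finset.sum_add_distrib, Finset.sum_ite_eq', Finset.sum_ite_eq']
    simp
  · rw [dif_neg h, add_zero]
    rw [Finset.sum_eq_single j]
    · rw [hJ]; simp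
    · intro k _ hk
      rw [hJ, if_neg hk, if_neg (by omega)]
      simp
    · simp

theorem reg_conj (J : GL (Fin n) K)
    (hJ : ∀ i j : Fin n, (J : Matrix (Fin n) (Fin n) K) i j =
      if i = j then 1 else if j.val = i.val + 1 then 1 else 0)
    (P : Matrix (Fin n) (Fin n) K) (h0 : (P - 1) ^ n = 0) (h1 : (P - 1) ^ (n - 1) ≠ 0) :
    ∃ x : GL (Fin n) K, P = (x : Matrix (Fin n) (Fin n) K) * (J : Matrix (Fin n) (Fin n) K) *
      ((x⁻¹ : GL (Fin n) K) : Matrix (Fin n) (Fin n) K) := by
  classical
  set N := P - 1 with hN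
  obtain ⟨v, hv⟩ : ∃ v : Fin n → K, (N ^ (n - 1)) *ᵥ v ≠ 0 := by
    by_contra hall
    push Not at hall
    apply h1
    ext i j
    have := hall (Pi.single j 1)
    rw [Matrix.mulVec_single_one] at this
    simpa using congrFun this i
  let b : Fin n → (Fin n → K) := fun i => (N ^ (n - 1 - (i : ℕ))) *ᵥ v
  have hli : LinearIndependent K b := chain_li N v h0 hv
  let x₀ : Matrix (Fin n) (Fin n) K := Matrix.of fun i j => b j i
  have hcol : x₀.col = b := by
    ext j i
    rfl
  have hunit : IsUnit x₀ := by
    rw [← Matrix.linearIndependent_cols_iff_isUnit, hcol]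
    exact hli
  obtain ⟨x, hx⟩ := hunit
  have hPx : P * x₀ = x₀ * (J : Matrix (Fin n) (Fin n) K) := by
    ext i j
    have hL : (P * x₀) i j = b j i + (N *ᵥ b j) i := by
      have hP : P = N + 1 := by rw [hN]; abel
      rw [hP, Matrix.add_mul, Matrix.one_mul, Matrix.add_apply, add_comm]
      rfl
    have hR : (x₀ * (J : Matrix (Fin n) (Fin n) K)) i j =
        b j i + if h : 0 < j.val then b ⟨j.val - 1, by have := j.2; omega⟩ i else 0 := by
      rw [Matrix.mul_apply]
      exact sum_J hJ (fun k => b k i) j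
    rw [hL, hR]
    congr 1
    have hNb : N *ᵥ b j = (N ^ (n - (j : ℕ))) *ᵥ v := by
      show N *ᵥ ((N ^ (n - 1 - (j : ℕ))) *ᵥ v) = _
      rw [Matrix.mulVec_mulVec, ← pow_succ']
      have he : n - 1 - (j : ℕ) + 1 = n - (j : ℕ) := by
        have := j.2
        omega
      rw [he]
    rw [hNb]
    by_cases hj : 0 < j.val
    · rw [dif_pos hj]
      show _ = ((N ^ (n - 1 - (j.val - 1))) *ᵥ v) i
      have he : n - 1 - (j.val - 1) = n - (j : ℕ) := by
        have := j.2
        omega
      rw [he]
    · rw [dif_neg hj]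
      have : n - (j : ℕ) = n := by omega
      rw [this, h0]
      simp
  refine ⟨x, ?_⟩
  have hxx : (x : Matrix (Fin n) (Fin n) K) * ((x⁻¹ : GL (Fin n) K) : Matrix (Fin n) (Fin n) K) = 1 := by
    rw [← Units.val_mul]; simp
  rw [hx, ← hPx, Matrix.mul_assoc, ← hx, hxx, Matrix.mul_one]

end Final

section Trans
open Matrix
variable {K : Type*} [Field K] {m : ℕ}

theorem J0_pow {n : ℕ} {J : Matrix (Fin n) (Fin n) K}
    (hJ : ∀ i j : Fin n, J i j = if i = j then 1 else if j.val = i.val + 1 then 1 else 0)
    (k : ℕ) (i j : Fin n) :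
    ((J - 1) ^ k) i j = if j.val = i.val + k then 1 else 0 := by
  classical
  have hJ0 : ∀ i j : Fin n, (J - 1) i j = if j.val = i.val + 1 then 1 else 0 := by
    intro i j
    rw [Matrix.sub_apply, hJ, Matrix.one_apply]
    by_cases h : i = j
    · subst h
      simp
    · simp [h]
  induction k generalizing j with
  | zero =>
    rw [pow_zero, Matrix.one_apply]
    simp [Fin.ext_iff, eq_comm]
  | succ k IH =>
    rw [pow_succ, Matrix.mul_apply]
    simp_rw [IH, hJ0]
    by_cases h : j.val = i.val + (k + 1)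
    · rw [if_pos h, Finset.sum_eq_single ⟨i.val + k, by have := j.2; omega⟩]
      · simp [h]
        omega
      · intro l _ hl
        have hl' : l.val ≠ i.val + k := by
          intro h2
          exact hl (Fin.ext h2)
        simp [hl']
      · simp
    · rw [if_neg h]
      apply Finset.sum_eq_zero
      intro l _
      by_cases hl : l.val = i.val + k
      · rw [if_pos hl, if_neg (by omega)]
        simp
      · rw [if_neg hl]
        simp

abbrev Mat (m : ℕ) (K : Type*) [Field K] := Matrix (Fin (m + 1 + 1 + 1)) (Fin (m + 1 + 1 + 1)) K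

abbrev EE (m : ℕ) (K : Type*) [Field K] : Mat m K := Matrix.single 0 (Fin.last (m + 1 + 1)) 1

theorem trans_factor (J : GL (Fin (m + 1 + 1 + 1)) K)
    (hJ : ∀ i j : Fin (m + 1 + 1 + 1), (J : Mat m K) i j =
      if i = j then 1 else if j.val = i.val + 1 then 1 else 0) :
    ∃ y : GL (Fin (m + 1 + 1 + 1)) K,
      (J⁻¹).val * (1 + EE m K) = y.val * J.val * (y⁻¹).val := by
  classical
  set Jm : Mat m K := (J : Mat m K) with hJm
  set Ji : Mat m K := ((J⁻¹ : GL (Fin (m + 1 + 1 + 1)) K) : Mat m K) with hJi
  have h1 : Jm * Ji = 1 := by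
    rw [hJm, hJi, ← Units.val_mul]; simp
  have h2 : Ji * Jm = 1 := by
    rw [hJm, hJi, ← Units.val_mul]; simp
  set J₀ := Jm - 1 with hJ₀
  set E : Mat m K := EE m K with hE
  set M := Ji - 1 with hM
  have hJ0e : ∀ i j, J₀ i j = if j.val = i.val + 1 then 1 else 0 := by
    intro i j
    have := J0_pow hJ 1 i j
    rw [pow_one] at this
    exact this
  have hJ0E : J₀ * E = 0 := by
    ext i j
    simp only [Matrix.mul_apply, Matrix.zero_apply, hE, EE, Matrix.single_apply, hJ0e]
    apply Finset.sum_eq_zero
    intro k _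
    by_cases hk : (0 : Fin (m + 1 + 1 + 1)) = k
    · subst hk
      simp
    · simp [hk]
  have hEJ0 : E * J₀ = 0 := by
    ext i j
    simp only [Matrix.mul_apply, Matrix.zero_apply, hE, EE, Matrix.single_apply, hJ0e]
    apply Finset.sum_eq_zero
    intro k _
    by_cases hk : Fin.last (m + 1 + 1) = k
    · subst hk
      have : ¬ (j.val = m + 1 + 1 + 1) := by
        have := j.2
        omega
      simp [this]
    · simp [hk]
  have hEE : E * E = 0 := by
    ext i j
    simp only [Matrix.mul_apply, Matrix.zero_apply, hE, EE, Matrix.single_apply]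
    apply Finset.sum_eq_zero
    intro k _
    by_cases hk : Fin.last (m + 1 + 1) = k
    · subst hk
      have : ¬ ((0 : Fin (m + 1 + 1 + 1)) = Fin.last (m + 1 + 1)) := by
        intro h
        have := congrArg Fin.val h
        simp at this
      simp [this]
    · simp [hk]
  have hM1 : M = -(J₀ * Ji) := by
    rw [hM, hJ₀, Matrix.sub_mul, h1, Matrix.one_mul]
    abel
  have hM2 : M = -(Ji * J₀) := by
    rw [hM, hJ₀, Matrix.mul_sub, h2, Matrix.mul_one]
    abel
  have hME : M * E = 0 := by
    rw [hM2, Matrix.neg_mul, Matrix.mul_assoc, hJ0E, Matrix.mul_zero, neg_zero]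
  have hEM : E * M = 0 := by
    rw [hM1, Matrix.mul_neg, ← Matrix.mul_assoc, hEJ0, Matrix.zero_mul, neg_zero]
  have hJiE : Ji * E = E := by
    have : Ji = M + 1 := by rw [hM]; abel
    rw [this, Matrix.add_mul, hME, Matrix.one_mul, zero_add]
  have hU : Ji * (1 + E) - 1 = M + E := by
    rw [Matrix.mul_add, Matrix.mul_one, hJiE, hM]
    abel
  have hpow : ∀ k : ℕ, (M + E) ^ (k + 2) = M ^ (k + 2) := by
    intro k
    induction k with
    | zero =>
      simp only [zero_add, pow_two]
      rw [Matrix.add_mul, Matrix.mul_add, Matrix.mul_add, hME, hEM, hEE]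
      simp
    | succ k IH =>
      rw [pow_succ, IH, Matrix.mul_add, pow_succ (M) (k + 2), pow_succ M (k + 1), Matrix.mul_assoc _ M E,
        hME, Matrix.mul_zero, add_zero]
  have hcomm : Commute (-J₀) Ji := by
    show (-J₀) * Ji = Ji * (-J₀)
    rw [Matrix.neg_mul, Matrix.mul_neg, ← hM1, ← hM2]
  have hMk : ∀ k : ℕ, M ^ k = (-J₀) ^ k * Ji ^ k := by
    intro k
    rw [← hcomm.mul_pow, Matrix.neg_mul, ← hM1]
  have hJ0top : J₀ ^ (m + 1 + 1 + 1) = 0 := by
    ext i j
    rw [hJ₀, J0_pow hJ]
    have := j.2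
    rw [if_neg (by omega)]
    simp
  have hJ0sub : J₀ ^ (m + 1 + 1) ≠ 0 := by
    intro h
    have h3 := congrFun (congrFun h 0) (Fin.last (m + 1 + 1))
    rw [hJ₀, J0_pow hJ] at h3
    simp at h3
  have hu : IsUnit (Ji ^ (m + 1 + 1)) := IsUnit.pow _ (Units.isUnit (J⁻¹))
  have h0 : (M + E) ^ (m + 1 + 1 + 1) = 0 := by
    have h6 : (M + E) ^ (m + 1 + 1 + 1) = M ^ (m + 1 + 1 + 1) := hpow (m + 1)
    rw [h6, hMk, neg_pow, hJ0top]
    simp
  have h3 : (M + E) ^ (m + 1 + 1 + 1 - 1) ≠ 0 := by
    show (M + E) ^ (m + 1 + 1) ≠ 0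
    have h6 : (M + E) ^ (m + 1 + 1) = M ^ (m + 1 + 1) := hpow m
    rw [h6, hMk, neg_pow]
    intro h
    apply hJ0sub
    have h4 := (hu.mul_left_eq_zero).mp h
    have h5 : IsUnit ((-1 : Mat m K) ^ (m + 1 + 1)) :=
      IsUnit.pow _ (by simp)
    exact (h5.mul_right_eq_zero).mp h4
  obtain ⟨y, hy⟩ := reg_conj J hJ (Ji * (1 + E)) (by rw [hU]; exact h0) (by rw [hU]; exact h3)
  exact ⟨y, hy⟩

end Trans

section TransBasis
open Matrix Submodule
variable {K : Type*} [Field K] {m : ℕ}

theorem exists_trans_basis (g : Mat m K) (hdet : g.det = 1) (hns : ¬ ∃ c : K, g = c • 1)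
    (hrank : finrank K (LinearMap.range (Matrix.toLin' g - 1)) ≤ 1) :
    ∃ x : GL (Fin (m + 1 + 1 + 1)) K, g * x.val = x.val * (1 + EE m K) := by
  classical
  set A : End K (Fin (m + 1 + 1 + 1) → K) := Matrix.toLin' g with hA
  have hdetA : LinearMap.det A = 1 := by rw [hA, LinearMap.det_toLin']; exact hdet
  have hTa : ∀ x, (A - 1) x = A x - x := by intro x; simp
  obtain ⟨z₀, hz₀⟩ : ∃ z₀, (A - 1) z₀ ≠ 0 := by
    by_contra hall
    push Not at hall
    apply hns
    refine ⟨1, ?_⟩
    have h1 : A = 1 := sub_eq_zero.mp (LinearMap.ext hall)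
    have h2 : Matrix.toLin' g = Matrix.toLin' (1 : Mat m K) := by
      rw [← hA, h1, Matrix.toLin'_one]; rfl
    rw [Matrix.toLin'.injective h2, one_smul]
  set v := (A - 1) z₀ with hv
  obtain ⟨g₀, hg₀⟩ : ∃ g₀ : Dual K (Fin (m + 1 + 1 + 1) → K), g₀ v = 1 := by
    have hv' : v ∉ (⊥ : Submodule K (Fin (m + 1 + 1 + 1) → K)) := by simpa using hz₀
    obtain ⟨f₀, hf₀, -⟩ := Submodule.exists_dual_map_eq_bot_of_notMem hv' inferInstance
    exact ⟨(f₀ v)⁻¹ • f₀, by simp [hf₀]⟩
  let f : Dual K (Fin (m + 1 + 1 + 1) → K) := g₀ ∘ₗ (A - 1)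
  have hT : ∀ x, (A - 1) x = f x • v := by
    intro x
    have hvr : K ∙ v ≤ LinearMap.range (A - 1) := by
      rw [Submodule.span_singleton_le_iff_mem]
      exact ⟨z₀, rfl⟩
    have heq : K ∙ v = LinearMap.range (A - 1) :=
      Submodule.eq_of_le_of_finrank_le hvr (by rw [finrank_span_singleton hz₀]; exact hrank)
    have hx : (A - 1) x ∈ K ∙ v := by
      rw [heq]
      exact ⟨x, rfl⟩
    obtain ⟨β, hβ⟩ := Submodule.mem_span_singleton.mp hx
    have : f x = β := by
      show g₀ ((A - 1) x) = β
      rw [← hβ, map_smul, hg₀, smul_eq_mul, mul_one]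
    rw [this, hβ]
  have hAf : A = LinearMap.transvection f v := by
    apply LinearMap.ext
    intro x
    rw [LinearMap.transvection.apply, ← hT, hTa]
    abel
  have hfv : f v = 0 := by
    have h2 := congrArg LinearMap.det hAf
    rw [hdetA, LinearMap.transvection.det] at h2
    linear_combination -h2
  have hfz : f z₀ = 1 := hg₀
  let g₂ : Dual K (Fin (m + 1 + 1 + 1) → K) := g₀ - (g₀ z₀) • f
  have hg₂v : g₂ v = 1 := by simp [g₂, hg₀, hfv]
  have hg₂z : g₂ z₀ = 0 := by simp [g₂, hfz]
  let Φ : (Fin (m + 1 + 1 + 1) → K) →ₗ[K] K × K := LinearMap.prod f g₂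
  have hΦ : LinearMap.range Φ = ⊤ := by
    rw [LinearMap.range_eq_top]
    rintro ⟨a, b⟩
    refine ⟨a • z₀ + b • v, ?_⟩
    simp [Φ, hfz, hfv, hg₂v, hg₂z]
  have hfY : finrank K (LinearMap.ker Φ) = m + 1 := by
    have h1 := LinearMap.finrank_range_add_finrank_ker Φ
    rw [hΦ, finrank_top, Module.finrank_prod, Module.finrank_fin_fun, Module.finrank_self] at h1
    omega
  let c := Module.finBasisOfFinrankEq K (LinearMap.ker Φ) hfY
  have hcf : ∀ l, f (c l : Fin (m + 1 + 1 + 1) → K) = 0 := by
    intro l
    have := (c l).2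
    rw [LinearMap.mem_ker] at this
    exact congrArg Prod.fst this
  have hcg : ∀ l, g₂ (c l : Fin (m + 1 + 1 + 1) → K) = 0 := by
    intro l
    have := (c l).2
    rw [LinearMap.mem_ker] at this
    exact congrArg Prod.snd this
  let c' : Fin (m + 1) → (Fin (m + 1 + 1 + 1) → K) := fun l => (c l : Fin (m + 1 + 1 + 1) → K)
  have hc'li : LinearIndependent K c' :=
    c.linearIndependent.map' (LinearMap.ker Φ).subtype (Submodule.ker_subtype _)
  let b₁ : Fin (m + 1 + 1) → (Fin (m + 1 + 1 + 1) → K) := Fin.cons v c'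
  let b : Fin (m + 1 + 1 + 1) → (Fin (m + 1 + 1 + 1) → K) := Fin.snoc b₁ z₀
  have hb₁li : LinearIndependent K b₁ := by
    rw [linearIndependent_fin_cons]
    refine ⟨hc'li, ?_⟩
    intro hm
    have hle : span K (Set.range c') ≤ LinearMap.ker g₂ := by
      rw [Submodule.span_le]
      rintro _ ⟨l, rfl⟩
      exact hcg l
    have := hle hm
    rw [LinearMap.mem_ker, hg₂v] at this
    exact one_ne_zero this
  have hbli : LinearIndependent K b := by
    rw [linearIndependent_fin_snoc]
    refine ⟨hb₁li, ?_⟩
    intro hm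
    have hle : span K (Set.range b₁) ≤ LinearMap.ker f := by
      rw [Submodule.span_le]
      rintro _ ⟨l, rfl⟩
      refine Fin.cases ?_ (fun l => ?_) l
      · simpa [b₁] using hfv
      · simpa [b₁, c'] using hcf l
    have := hle hm
    rw [LinearMap.mem_ker, hfz] at this
    exact one_ne_zero this
  have hb0 : b 0 = v := by
    have : (0 : Fin (m + 1 + 1 + 1)) = Fin.castSucc 0 := rfl
    rw [this]
    simp [b, b₁]
  have hbA : ∀ j, A (b j) = b j + if j = Fin.last (m + 1 + 1) then v else 0 := by
    intro j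
    refine Fin.lastCases ?_ (fun i => ?_) j
    · have h1 : b (Fin.last (m + 1 + 1)) = z₀ := by simp [b]
      rw [if_pos rfl, h1]
      have := hT z₀
      rw [hTa, hfz, one_smul] at this
      rw [← this]
      abel
    · have hne : Fin.castSucc i ≠ Fin.last (m + 1 + 1) := Fin.castSucc_ne_last i
      rw [if_neg hne, add_zero]
      have h1 : b (Fin.castSucc i) = b₁ i := by simp [b]
      rw [h1]
      have hfb : f (b₁ i) = 0 := by
        refine Fin.cases ?_ (fun l => ?_) i
        · simpa [b₁] using hfv
        · simpa [b₁, c'] using hcf l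
      have := hT (b₁ i)
      rw [hTa, hfb, zero_smul, sub_eq_zero] at this
      exact this
  let x₀ : Mat m K := Matrix.of fun i j => b j i
  have hcol : x₀.col = b := by
    ext j i
    rfl
  have hunit : IsUnit x₀ := by
    rw [← Matrix.linearIndependent_cols_iff_isUnit, hcol]
    exact hbli
  obtain ⟨x, hx⟩ := hunit
  refine ⟨x, ?_⟩
  rw [hx]
  ext i j
  have hL : (g * x₀) i j = (A (b j)) i := rfl
  rw [hL, hbA, Matrix.mul_add, Matrix.mul_one, Matrix.add_apply, Pi.add_apply]
  congr 1
  by_cases hj : j = Fin.last (m + 1 + 1)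
  · rw [if_pos hj, hj, Matrix.mul_single_apply_same, mul_one]
    rw [← hb0]
    rfl
  · have h9 : (x₀ * EE m K) i j = 0 := Matrix.mul_single_apply_of_ne _ _ _ _ _ hj _
    rw [if_neg hj, h9]
    rfl

end TransBasis

/-- Let K be a field with at least four elements (finite or infinite), n ≥ 3, and J ∈ GL(n, K) the regular unipotent matrix (ones on the diagonal and the superdiagonal, zeros elsewhere). Then every non-scalar g ∈ GL(n, K) with det g = 1 is a product of two GL(n, K)-conjugates of J. -/
theorem result {K : Type*} [Field K] (hK : 4 ≤ Cardinal.mk K) (n : ℕ) (hn : 3 ≤ n) (J g : GL (Fin n) K)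
    (hJ : ∀ i j : Fin n, (J : Matrix (Fin n) (Fin n) K) i j = if i = j then 1 else if j.val = i.val + 1 then 1 else 0)
    (hg : ¬ ∃ c : K, (g : Matrix (Fin n) (Fin n) K) = c • (1 : Matrix (Fin n) (Fin n) K))
    (hdet : (g : Matrix (Fin n) (Fin n) K).det = 1) :
    ∃ x y : GL (Fin n) K, g = (x * J * x⁻¹) * (y * J * y⁻¹) := by
  classical
  obtain ⟨m, rfl⟩ : ∃ m, n = m + 1 + 1 + 1 := ⟨n - 3, by omega⟩
  let Ψ := Matrix.toLinAlgEquiv' (R := K) (n := Fin (m + 1 + 1 + 1))
  let A : End K (Fin (m + 1 + 1 + 1) → K) := Ψ g.val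
  have hAl : A = Matrix.toLin' g.val := rfl
  have hdetA : LinearMap.det A = 1 := by rw [hAl, LinearMap.det_toLin']; exact hdet
  have hns : ∀ c : K, A ≠ c • 1 := by
    intro c hc
    apply hg
    refine ⟨c, ?_⟩
    apply Ψ.injective
    show A = _
    rw [hc, map_smul, map_one]
  by_cases hG : Good A
  · have hfin : finrank K (Fin (m + 1 + 1 + 1) → K) = (m + 1 + 1) + 1 := by
      rw [Module.finrank_fin_fun]
    have hu : (Pi.single 0 1 : Fin (m + 1 + 1 + 1) → K) ≠ 0 := by
      intro h
      have := congrFun h 0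
      simp at this
    have hr : (LinearMap.proj 0 : Dual K (Fin (m + 1 + 1 + 1) → K)) ≠ 0 := by
      intro h
      have := LinearMap.congr_fun h (Pi.single 0 1)
      simp at this
    obtain ⟨L, U, hLU, hL0, hU0, hLu, hUr⟩ := recursion hK (m + 1 + 1) (Fin (m + 1 + 1 + 1) → K) hfin A hdetA
      (fun _ => hG) _ hu _ hr
    let P := Ψ.symm L
    let Q := Ψ.symm U
    have hgPQ : g.val = P * Q := by
      apply Ψ.injective
      show A = _
      rw [map_mul]
      simp only [P, Q, AlgEquiv.apply_symm_apply]
      exact hLU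
    have hP0 : (P - 1) ^ (m + 1 + 1 + 1) = 0 := by
      apply Ψ.injective
      rw [map_pow, map_sub, map_one, map_zero]
      simp only [P, AlgEquiv.apply_symm_apply]
      exact hL0
    have hQ0 : (Q - 1) ^ (m + 1 + 1 + 1) = 0 := by
      apply Ψ.injective
      rw [map_pow, map_sub, map_one, map_zero]
      simp only [Q, AlgEquiv.apply_symm_apply]
      exact hU0
    have hP1 : (P - 1) ^ (m + 1 + 1 + 1 - 1) ≠ 0 := by
      intro h
      have h1 := congrArg Ψ h
      rw [map_pow, map_sub, map_one, map_zero] at h1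
      simp only [P, AlgEquiv.apply_symm_apply] at h1
      have h2 : (L - 1) ^ (m + 1 + 1) = 0 := h1
      rw [h2] at hLu
      exact hLu rfl
    have hQ1 : (Q - 1) ^ (m + 1 + 1 + 1 - 1) ≠ 0 := by
      intro h
      have h1 := congrArg Ψ h
      rw [map_pow, map_sub, map_one, map_zero] at h1
      simp only [Q, AlgEquiv.apply_symm_apply] at h1
      have h2 : (U - 1) ^ (m + 1 + 1) = 0 := h1
      rw [h2] at hUr
      exact hUr (by simp)
    obtain ⟨x, hx⟩ := reg_conj J hJ P hP0 hP1
    obtain ⟨y, hy⟩ := reg_conj J hJ Q hQ0 hQ1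
    refine ⟨x, y, Units.ext ?_⟩
    simp only [Units.val_mul]
    rw [hgPQ, hx, hy]
  · have hrank : finrank K (LinearMap.range (Matrix.toLin' g.val - 1)) ≤ 1 := by
      have h1 : ¬ (finrank K (LinearMap.ker (A - 1)) + 2 ≤ finrank K (Fin (m + 1 + 1 + 1) → K)) :=
        fun h => hG ⟨hns, h⟩
      have h2 := LinearMap.finrank_range_add_finrank_ker (A - 1)
      have h3 : LinearMap.range (Matrix.toLin' g.val - 1) = LinearMap.range (A - 1) := rfl
      rw [h3]
      omega
    obtain ⟨x, hx⟩ := exists_trans_basis g.val hdet hg hrank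
    obtain ⟨y₀, hy₀⟩ := trans_factor J hJ
    have hG₀ : (x⁻¹ * g * x).val = 1 + EE m K := by
      rw [Units.val_mul, Units.val_mul, mul_assoc, hx, ← mul_assoc, ← Units.val_mul, inv_mul_cancel,
        Units.val_one, one_mul]
    have hU : J⁻¹ * (x⁻¹ * g * x) = y₀ * J * y₀⁻¹ := by
      apply Units.ext
      rw [Units.val_mul, hG₀, hy₀, Units.val_mul, Units.val_mul]
    refine ⟨x, x * y₀, ?_⟩
    have hh : x⁻¹ * g * x = J * (y₀ * J * y₀⁻¹) := by
      rw [← hU]
      group
    calc g = x * (x⁻¹ * g * x) * x⁻¹ := by group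
      _ = _ := by
        rw [hh]
        group

end Cfsg.Agent.S2522
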