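import Mathlib
import Cfsg.Agent.Lib.PSL2Hall
import Cfsg.Statements.S2537

set_option autoImplicit false
open Cfsg

namespace Cfsg.Agent.S2537

/-- Let `F` be a finite field with `q` elements of characteristic `p ≥ 5`, and `ε = 1` if `q ≡ 1 (mod 4)`, `ε = -1` otherwise. Then `PSL(2, F)` has a Hall `{2, 3}`-subgroup if and only if `3` divides `q − ε`, or the `{2,3}`-part of `q² − 1` is 24, or the `{2,3}`-part of `q² − 1` is 48 (the `{2,3}`-part of `m` being the largest divisor of `m` with no prime factor other than 2 and 3). -/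
theorem result {F : Type*} [Field F] [Fintype F] {p : ℕ} [Fact p.Prime] [CharP F p]
    (hp : 5 ≤ p) (q : ℕ) (hq : Fintype.card F = q) :
    (∃ H : Subgroup (Matrix.ProjectiveSpecialLinearGroup (Fin 2) F), Cfsg.IsPiHall ({2, 3} : Set ℕ) H) ↔
      (3 ∣ q - 1 ∧ q % 4 = 1) ∨ (3 ∣ q + 1 ∧ q % 4 = 3) ∨
        2 ^ (q ^ 2 - 1).factorization 2 * 3 ^ (q ^ 2 - 1).factorization 3 = 24 ∨
        2 ^ (q ^ 2 - 1).factorization 2 * 3 ^ (q ^ 2 - 1).factorization 3 = 48 := by
    classical
  open Cfsg.Agent.Lib.SL2Core Cfsg.Agent.Lib.DicksonMat Cfsg.Agent.Lib.DicksonAbs Cfsg.Agent.Lib.DicksonStruct Cfsg.Agent.Lib.PSL2Coat Cfsg.Agent.Lib.PSL2Cnt Cfsg.Agent.Lib.PSL2Max Cfsg.Agent.Lib.PSL2Poly Cfsg.Agent.Lib.PSL2Hall in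
  subst hq
  have hpp : p.Prime := Fact.out
  obtain ⟨n, -, hqn⟩ := FiniteField.card F p
  have hn0 : (n : ℕ) ≠ 0 := n.ne_zero
  have hprime_q : ∀ r : ℕ, r.Prime → r ∣ Fintype.card F → r = p := by
    intro r hr h
    rw [hqn] at h
    exact (Nat.prime_dvd_prime_iff_eq hr hpp).mp (hr.dvd_of_dvd_pow h)
  have hq2 : ¬ 2 ∣ Fintype.card F := fun h => by
    have := hprime_q 2 Nat.prime_two h
    omega
  have hq3 : ¬ 3 ∣ Fintype.card F := fun h => by
    have := hprime_q 3 Nat.prime_three h
    omega
  have hq5 : 5 ≤ Fintype.card F := by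
    rw [hqn]
    exact hp.trans (Nat.le_self_pow hn0 p)
  have hodd : Odd (Fintype.card F) := by
    rw [← Nat.not_even_iff_odd]
    intro h
    exact hq2 h.two_dvd
  have hsplit : Fintype.card F ^ 2 - 1 = (Fintype.card F - 1) * (Fintype.card F + 1) := by
    have := Nat.sq_sub_sq (Fintype.card F) 1
    rw [one_pow] at this
    rw [this, mul_comm]
  have hn : Fintype.card F ^ 2 - 1 ≠ 0 := by
    rw [hsplit]
    exact mul_ne_zero (by omega) (by omega)
  have hG := card_G_odd hodd
  have hN : ∀ H : Subgroup (PSL2 F), 2 * Nat.card H * H.index = Fintype.card F * (Fintype.card F ^ 2 - 1) := by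
    intro H
    rw [mul_assoc, Subgroup.card_mul_index, hG]
  constructor
  · rintro ⟨H, h1, h2⟩
    have hprimes : ∀ r : ℕ, r.Prime → r ∣ Nat.card H → r = 2 ∨ r = 3 := by
      intro r hr hd
      simpa using h1 r hr hd
    have hA := hall_eq hq2 hq3 hn (hN H) hprimes (h2 2 Nat.prime_two (by simp)) (h2 3 Nat.prime_three (by simp))
    by_cases c1 : 3 ∣ Fintype.card F - 1 ∧ Fintype.card F % 4 = 1
    · exact Or.inl c1
    by_cases c2 : 3 ∣ Fintype.card F + 1 ∧ Fintype.card F % 4 = 3
    · exact Or.inr (Or.inl c2)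
    right; right
    have hH0 : 0 < Nat.card H := Nat.card_pos
    -- divisibility of the order by twelve
    have h3n : 3 ∣ Fintype.card F ^ 2 - 1 := by
      rw [hsplit]
      have h3mod : Fintype.card F % 3 = 1 ∨ Fintype.card F % 3 = 2 := by omega
      rcases h3mod with h | h
      · have h4 : 3 ∣ Fintype.card F - 1 := by omega
        exact Dvd.dvd.mul_right h4 _
      · have h4 : 3 ∣ Fintype.card F + 1 := by omega
        exact Dvd.dvd.mul_left h4 _
    have h8n : 2 ^ 3 ∣ Fintype.card F ^ 2 - 1 := by
      rw [hsplit]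
      have : Fintype.card F % 4 = 1 ∨ Fintype.card F % 4 = 3 := by omega
      rcases this with h | h
      · have h4 : 4 ∣ Fintype.card F - 1 := by omega
        have h5 : 2 ∣ Fintype.card F + 1 := by omega
        have h6 : (2 : ℕ) ^ 3 = 4 * 2 := by norm_num
        rw [h6]
        exact mul_dvd_mul h4 h5
      · have h4 : 2 ∣ Fintype.card F - 1 := by omega
        have h5 : 4 ∣ Fintype.card F + 1 := by omega
        have h6 : (2 : ℕ) ^ 3 = 2 * 4 := by norm_num
        rw [h6]
        exact mul_dvd_mul h4 h5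
    have hx : 3 ≤ (Fintype.card F ^ 2 - 1).factorization 2 :=
      (Nat.Prime.pow_dvd_iff_le_factorization Nat.prime_two hn).mp h8n
    have hy : 1 ≤ (Fintype.card F ^ 2 - 1).factorization 3 :=
      (Nat.Prime.dvd_iff_one_le_factorization Nat.prime_three hn).mp h3n
    have h24 : 2 ^ 3 * 3 ^ 1 ∣ 2 * Nat.card H := by
      rw [hA]
      exact mul_dvd_mul (pow_dvd_pow 2 hx) (pow_dvd_pow 3 hy)
    have h12 : 12 ∣ Nat.card H := by
      obtain ⟨c, hc⟩ := h24
      exact ⟨c, by omega⟩
    have hbad : Nat.card H ∣ Fintype.card F - 1 ∨ Nat.card H ∣ Fintype.card F + 1 → False := by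
      rintro (h | h)
      · have := h12.trans h
        omega
      · have := h12.trans h
        omega
    have hMM : ∀ x : PSL2 F, x ≠ 1 → IsSS p (MM x) →
        Nat.card (MM x) * 2 = Fintype.card F - 1 ∨ Nat.card (MM x) * 2 = Fintype.card F + 1 := by
      intro x hx1 hs
      obtain ⟨A, rfl⟩ := proj_surjective x
      have hA' := not_center_of_proj_ne_one hx1
      have ht : tr A * tr A ≠ 4 := by
        intro ht
        have hpt := ptype_parabolic p hA' ht
        have h1 : proj A ∈ MM (proj A) := mem_MM_proj.mpr rfl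
        have h3 := Cfsg.Agent.Lib.DicksonStruct.p_dvd_orderOf_of_pgroup hx1 hpt h1
        have h4 : orderOf (proj A) ∣ Nat.card (MM (proj A)) := by
          have := orderOf_dvd_natCard (⟨proj A, h1⟩ : MM (proj A))
          rwa [Subgroup.orderOf_mk] at this
        have h5 := Nat.Coprime.eq_one_of_dvd hs.coprime.symm (h3.trans h4)
        exact hpp.one_lt.ne' h5
      have hg : Nat.gcd 2 (Fintype.card F - 1) = 2 := Nat.gcd_eq_left (Nat.Odd.sub_odd hodd odd_one).two_dvd
      have := card_MM_cases A hA' ht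
      rwa [hg] at this
    rcases classify (dstruct p) H with (hb | ⟨x, hxM, hx1, hs, hle⟩) | ⟨x, hxM, hx1, hs, ⟨e⟩⟩ | ⟨P, hP⟩ | ⟨⟨e⟩⟩ | ⟨⟨e⟩⟩ | ⟨⟨e⟩⟩ | ⟨S, hb, hnS⟩
    · exfalso
      subst hb
      rw [Subgroup.card_bot] at h12
      omega
    · exfalso
      have h3 : Nat.card H ∣ Nat.card (MM x) := Subgroup.card_dvd_of_le hle
      rcases hMM x hx1 hs with h | h
      · exact hbad (Or.inl (h3.trans ⟨2, h.symm⟩))
      · exact hbad (Or.inr (h3.trans ⟨2, h.symm⟩))
    · exfalso
      have hc : Nat.card H = 2 * Nat.card (((dstruct p).M x).subgroupOf H) := by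
        rw [Nat.card_congr e.toEquiv, DihedralGroup.nat_card]
      have h3 : Nat.card (((dstruct (F := F) p).M x).subgroupOf H) ∣ Nat.card (MM x) := by
        have h4 : (((dstruct (F := F) p).M x).subgroupOf H).map H.subtype ≤ MM x := by
          rintro _ ⟨y, hy, rfl⟩
          exact Subgroup.mem_subgroupOf.mp hy
        have h5 := Subgroup.card_dvd_of_le h4
        rwa [Subgroup.card_map_of_injective H.subtype_injective] at h5
      obtain ⟨c, hc'⟩ := h3
      rcases hMM x hx1 hs with h | h
      · refine hbad (Or.inl ⟨c, ?_⟩)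
        rw [hc, ← h, hc']
        ring
      · refine hbad (Or.inr ⟨c, ?_⟩)
        rw [hc, ← h, hc']
        ring
    · exfalso
      obtain ⟨z, hz, hz1, hPz⟩ := sylow_eq_member (dstruct p) P (sylow_ne_bot P)
      obtain ⟨A, rfl⟩ := proj_surjective z
      have hA' := not_center_of_proj_ne_one hz1
      have hpt : IsPGroup p (MM (proj A)) := by
        have : (dstruct (F := F) p).M (proj A) = MM (proj A) := rfl
        rw [← this, ← hPz]
        exact P.isPGroup'
      have ht := parabolic_of_ptype p hA' hpt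
      have h3 := card_normalizer_parabolic p hA' ht
      have hg : Nat.gcd 2 (Fintype.card F - 1) = 2 := Nat.gcd_eq_left (Nat.Odd.sub_odd hodd odd_one).two_dvd
      rw [hg] at h3
      rw [hPz] at hP
      have h4 := Subgroup.card_dvd_of_le hP
      change Nat.card H ∣ Nat.card (Subgroup.normalizer ((MM (proj A) : Subgroup (PSL2 F)) : Set (PSL2 F))) at h4
      have h5 : Nat.card H ∣ Fintype.card F * (Fintype.card F - 1) := by
        rw [← h3]
        exact Dvd.dvd.mul_left h4 2
      have hco : Nat.Coprime (Nat.card H) (Fintype.card F) := by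
        apply Nat.coprime_of_dvd
        intro r hr hd hd'
        rcases hprimes r hr hd with rfl | rfl
        · exact hq2 hd'
        · exact hq3 hd'
      exact hbad (Or.inl (hco.dvd_of_dvd_mul_left h5))
    · left
      rw [Nat.card_congr e.toEquiv, card_alt4] at hA
      omega
    · right
      rw [Nat.card_congr e.toEquiv, card_perm4] at hA
      omega
    · exfalso
      have h5 : 5 ∣ Nat.card H := by
        rw [Nat.card_congr e.toEquiv, card_alt5]
        norm_num
      have := hprimes 5 (by norm_num) h5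
      omega
    · exfalso
      have h3 : p ∣ Nat.card H := by
        have h4 := Sylow.card_eq_multiplicity S
        by_contra hnd
        rw [Nat.factorization_eq_zero_of_not_dvd hnd, pow_zero] at h4
        apply hb
        exact Subgroup.eq_bot_of_card_eq _ h4
      have := hprimes p hpp h3
      omega
  · have hconv : ∀ H : Subgroup (PSL2 F), (∀ r : ℕ, r.Prime → r ∣ Nat.card H → r = 2 ∨ r = 3) → ¬ 2 ∣ H.index → ¬ 3 ∣ H.index →
        ∃ H : Subgroup (PSL2 F), Cfsg.IsPiHall ({2, 3} : Set ℕ) H := by
      intro H h1 h2 h3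
      refine ⟨H, ?_, ?_⟩
      · intro r hr hd
        simpa using h1 r hr hd
      · intro r hr hmem
        have : r = 2 ∨ r = 3 := by simpa using hmem
        rcases this with rfl | rfl
        · exact h2
        · exact h3
    have hofcard : ∀ H : Subgroup (PSL2 F), 2 * Nat.card H = 2 ^ (Fintype.card F ^ 2 - 1).factorization 2 * 3 ^ (Fintype.card F ^ 2 - 1).factorization 3 →
        ∃ H : Subgroup (PSL2 F), Cfsg.IsPiHall ({2, 3} : Set ℕ) H := by
      intro H hc
      obtain ⟨h1, h2, h3⟩ := hall_of_eq hq2 hq3 hn (hN H) hc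
      exact hconv H h1 h2 h3
    have hg : Nat.gcd 2 (Fintype.card F - 1) = 2 := Nat.gcd_eq_left (Nat.Odd.sub_odd hodd odd_one).two_dvd
    rintro (⟨h3, hm⟩ | ⟨h3, hm⟩ | hA | hA)
    · obtain ⟨A, hA', ht, hk⟩ := exists_split (F := F) (by omega)
      rw [hg] at hk
      have hcN := card_normalizer_ss p hA' ht
      have h1 := Subgroup.card_mul_index (Subgroup.normalizer ((MM (proj A) : Subgroup (PSL2 F)) : Set (PSL2 F)))
      rw [hcN] at h1
      set i := (Subgroup.normalizer ((MM (proj A) : Subgroup (PSL2 F)) : Set (PSL2 F))).index with hi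
      have h2 : (Fintype.card F - 1) * (2 * i) = (Fintype.card F - 1) * (Fintype.card F * (Fintype.card F + 1)) := by
        have h4 : 2 * Nat.card (MM (proj A)) = Fintype.card F - 1 := by omega
        rw [h4] at h1
        calc (Fintype.card F - 1) * (2 * i) = 2 * ((Fintype.card F - 1) * i) := by ring
          _ = 2 * Nat.card (PSL2 F) := by rw [h1]
          _ = _ := by rw [hG, hsplit]; ring
      have h4 := Nat.eq_of_mul_eq_mul_left (by omega) h2
      obtain ⟨H, h5, h6, h7⟩ := exists_hall_in_torus p hA' ht (by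
        rw [← hi]
        intro hd
        have h8 : 4 ∣ Fintype.card F * (Fintype.card F + 1) := by
          rw [← h4]
          obtain ⟨c, hc⟩ := hd
          exact ⟨c, by rw [hc]; ring⟩
        have hco : Nat.Coprime 4 (Fintype.card F) := by
          have : Nat.Coprime (2 ^ 2) (Fintype.card F) := Nat.Coprime.pow_left 2 ((Nat.Prime.coprime_iff_not_dvd Nat.prime_two).mpr hq2)
          simpa using this
        have := hco.dvd_of_dvd_mul_left h8
        omega) (by
        rw [← hi]
        intro hd
        have h8 : 3 ∣ Fintype.card F * (Fintype.card F + 1) := by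
          rw [← h4]
          exact Dvd.dvd.mul_left hd 2
        rcases (Nat.Prime.dvd_mul Nat.prime_three).mp h8 with h9 | h9
        · exact hq3 h9
        · omega)
      exact hconv H h5 h6 h7
    · obtain ⟨A, hA', ht, hk⟩ := exists_nonsplit (F := F)
      rw [hg] at hk
      have hcN := card_normalizer_ss p hA' ht
      have h1 := Subgroup.card_mul_index (Subgroup.normalizer ((MM (proj A) : Subgroup (PSL2 F)) : Set (PSL2 F)))
      rw [hcN] at h1
      set i := (Subgroup.normalizer ((MM (proj A) : Subgroup (PSL2 F)) : Set (PSL2 F))).index with hi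
      have h2 : (Fintype.card F + 1) * (2 * i) = (Fintype.card F + 1) * (Fintype.card F * (Fintype.card F - 1)) := by
        have h4 : 2 * Nat.card (MM (proj A)) = Fintype.card F + 1 := by omega
        rw [h4] at h1
        calc (Fintype.card F + 1) * (2 * i) = 2 * ((Fintype.card F + 1) * i) := by ring
          _ = 2 * Nat.card (PSL2 F) := by rw [h1]
          _ = _ := by rw [hG, hsplit]; ring
      have h4 := Nat.eq_of_mul_eq_mul_left (by omega) h2
      obtain ⟨H, h5, h6, h7⟩ := exists_hall_in_torus p hA' ht (by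
        rw [← hi]
        intro hd
        have h8 : 4 ∣ Fintype.card F * (Fintype.card F - 1) := by
          rw [← h4]
          obtain ⟨c, hc⟩ := hd
          exact ⟨c, by rw [hc]; ring⟩
        have hco : Nat.Coprime 4 (Fintype.card F) := by
          have : Nat.Coprime (2 ^ 2) (Fintype.card F) := Nat.Coprime.pow_left 2 ((Nat.Prime.coprime_iff_not_dvd Nat.prime_two).mpr hq2)
          simpa using this
        have := hco.dvd_of_dvd_mul_left h8
        omega) (by
        rw [← hi]
        intro hd
        have h8 : 3 ∣ Fintype.card F * (Fintype.card F - 1) := by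
          rw [← h4]
          exact Dvd.dvd.mul_left hd 2
        rcases (Nat.Prime.dvd_mul Nat.prime_three).mp h8 with h9 | h9
        · exact hq3 h9
        · omega)
      exact hconv H h5 h6 h7
    · obtain ⟨H, hH⟩ := exists_card12 (F := F) p hp
      exact hofcard H (by rw [hH, hA])
    · have h16 : 2 ^ 4 ∣ Fintype.card F ^ 2 - 1 := by
        have h1 : 2 ^ 4 ∣ 2 ^ (Fintype.card F ^ 2 - 1).factorization 2 * 3 ^ (Fintype.card F ^ 2 - 1).factorization 3 := by
          rw [hA]
          norm_num
        have hco : Nat.Coprime (2 ^ 4) (3 ^ (Fintype.card F ^ 2 - 1).factorization 3) :=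
          Nat.Coprime.pow _ _ (by norm_num)
        exact (hco.dvd_of_dvd_mul_right h1).trans (Nat.ordProj_dvd _ 2)
      have hmod : Fintype.card F % 8 ≠ 3 ∧ Fintype.card F % 8 ≠ 5 := by
        constructor
        · intro h
          obtain ⟨a, ha⟩ : ∃ a, Fintype.card F = 8 * a + 3 := ⟨Fintype.card F / 8, by omega⟩
          have h1 : Fintype.card F ^ 2 = 16 * (4 * a * a + 3 * a) + 9 := by
            rw [ha]
            ring
          omega
        · intro h
          obtain ⟨a, ha⟩ : ∃ a, Fintype.card F = 8 * a + 5 := ⟨Fintype.card F / 8, by omega⟩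
          have h1 : Fintype.card F ^ 2 = 16 * (4 * a * a + 5 * a + 1) + 9 := by
            rw [ha]
            ring
          omega
      have hs : IsSquare (2 : F) := (FiniteField.isSquare_two_iff).mpr hmod
      obtain ⟨s, hs⟩ := hs
      obtain ⟨H, hH⟩ := exists_card24 (F := F) p hp ⟨s, hs.symm⟩
      exact hofcard H (by rw [hH, hA])


end Cfsg.Agent.S2537
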