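-- Subgroups of GL(4,2) with trivial 2-core and trivial odd core.
import Mathlib
import Cfsg.Statements.S2553
import Cfsg.Agent.Lib.A8Final
import Cfsg.Agent.Lib.GL42A8
import Cfsg.Agent.Lib.BurnsidePQ
import Cfsg.Agent.Lib.PCore

set_option autoImplicit false
open Cfsg

namespace Cfsg.Agent.S2553

open Cfsg.Agent.Lib.A8Code Cfsg.Agent.Lib.PCore Equiv

section Transfer

variable {A B : Type*} [Group A] [Group B]

theorem pCore_bot_of_equiv {p : ℕ} (e : A ≃* B) (h : pCore p A = ⊥) : pCore p B = ⊥ := by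
  rw [pCore, sSup_eq_bot]
  rintro N ⟨hn, hp⟩
  have hN' : (N.map e.symm.toMonoidHom).Normal := hn.map _ e.symm.surjective
  have hp' : IsPGroup p (N.map e.symm.toMonoidHom) := hp.map _
  have h1 := le_pCore hN' hp'
  rw [h, le_bot_iff] at h1
  exact (Subgroup.map_eq_bot_iff_of_injective (f := e.symm.toMonoidHom) N e.symm.injective).1 h1

theorem pPrimeCore_bot_of_equiv {p : ℕ} (e : A ≃* B) (h : pPrimeCore p A = ⊥) :
    pPrimeCore p B = ⊥ := by
  rw [pPrimeCore, sSup_eq_bot]
  rintro N ⟨hn, hp⟩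
  have hN' : (N.map e.symm.toMonoidHom).Normal := hn.map _ e.symm.surjective
  have hp' : (Nat.card (N.map e.symm.toMonoidHom)).Coprime p := by
    rw [Subgroup.card_map_of_injective e.symm.injective]
    exact hp
  have h1 := le_pPrimeCore hN' hp'
  rw [h, le_bot_iff] at h1
  exact (Subgroup.map_eq_bot_iff_of_injective (f := e.symm.toMonoidHom) N e.symm.injective).1 h1

end Transfer

/-- An element of prime order `p ≥ 5` is conjugate to any other such element. -/
theorem cycleType_of_prime {p : ℕ} (hp : p.Prime) (h5 : 5 ≤ p) (x : S8) (hx : orderOf x = p) :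
    x.cycleType = {p} := by
  obtain ⟨n, hn⟩ := Perm.cycleType_prime_order (σ := x) (by rw [hx]; exact hp)
  have h1 := Perm.sum_cycleType_le x
  rw [hn, hx, Multiset.sum_replicate, Fintype.card_fin, smul_eq_mul] at h1
  have hn0 : n = 0 := by
    by_contra hne
    have : 2 ≤ n + 1 := by omega
    have : 2 * 5 ≤ (n + 1) * p := Nat.mul_le_mul this h5
    omega
  rw [hn, hn0, hx]
  rfl

def cy5 : S8 := swap 0 1 * swap 1 2 * swap 2 3 * swap 3 4
def cy7 : S8 := swap 0 1 * swap 1 2 * swap 2 3 * swap 3 4 * swap 4 5 * swap 5 6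

theorem cy5_order : orderOf cy5 = 5 := by
  have : Fact (Nat.Prime 5) := ⟨by norm_num⟩
  exact orderOf_eq_prime (by decide +kernel) (by decide +kernel)

theorem cy7_order : orderOf cy7 = 7 := by
  have : Fact (Nat.Prime 7) := ⟨by norm_num⟩
  exact orderOf_eq_prime (by decide +kernel) (by decide +kernel)

/-- A nonsolvable subgroup of the alternating group of degree eight has an element of order `5` or
`7`. -/
theorem exists_order (K : Subgroup S8) (hK : K ≤ alternatingGroup (Fin 8))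
    (hns : ¬ Group.IsSolvable K) : ∃ x ∈ K, orderOf x = 5 ∨ orderOf x = 7 := by
  have hd : Nat.card K ∣ 20160 := by
    have h1 : Nat.card (alternatingGroup (Fin 8)) = 20160 := by
      rw [nat_card_alternatingGroup, Nat.card_eq_fintype_card, Fintype.card_fin]
      decide +kernel
    rw [← h1]
    exact Subgroup.card_dvd_of_le hK
  by_cases h5 : 5 ∣ Nat.card K
  · have : Fact (Nat.Prime 5) := ⟨by norm_num⟩
    obtain ⟨x, hx⟩ := exists_prime_orderOf_dvd_card' 5 h5
    exact ⟨x, x.2, Or.inl (by rw [← Subgroup.orderOf_coe] at hx; exact hx)⟩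
  by_cases h7 : 7 ∣ Nat.card K
  · have : Fact (Nat.Prime 7) := ⟨by norm_num⟩
    obtain ⟨x, hx⟩ := exists_prime_orderOf_dvd_card' 7 h7
    exact ⟨x, x.2, Or.inr (by rw [← Subgroup.orderOf_coe] at hx; exact hx)⟩
  exfalso
  apply hns
  have h35 : Nat.Coprime (Nat.card K) 35 := by
    have : (35 : ℕ) = 5 * 7 := by norm_num
    rw [this]
    exact Nat.Coprime.mul_right
      ((Nat.Coprime.symm ((Nat.Prime.coprime_iff_not_dvd (by norm_num)).2 h5)))
      ((Nat.Coprime.symm ((Nat.Prime.coprime_iff_not_dvd (by norm_num)).2 h7)))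
  have hd' : Nat.card K ∣ 2 ^ 6 * 3 ^ 2 := by
    have : (20160 : ℕ) = (2 ^ 6 * 3 ^ 2) * 35 := by norm_num
    rw [this] at hd
    exact h35.dvd_of_dvd_mul_right hd
  obtain ⟨a, b, hab⟩ := Cfsg.Agent.Lib.BurnsidePQ.exists_pow_mul_pow_of_dvd Nat.prime_two
    Nat.prime_three hd'
  exact Cfsg.Agent.Lib.BurnsidePQ.isSolvable_of_card_eq 2 3 Nat.prime_two Nat.prime_three _ K rfl
    ⟨a, b, hab⟩

theorem main_perm (K : Subgroup S8) (hK : K ≤ alternatingGroup (Fin 8)) (hne : K ≠ ⊥)
    (hO : pPrimeCore 2 ↥K = ⊥) (hO2 : pCore 2 ↥K = ⊥) : Target ↥K := by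
  have : Nontrivial K := Subgroup.nontrivial_iff_ne_bot K |>.2 hne
  have hns : ¬ Group.IsSolvable K := by
    intro hs
    obtain ⟨p, hp, hpne⟩ := exists_pCore_ne_bot (G := K)
    by_cases hp2 : p = 2
    · subst hp2
      exact hpne hO2
    · have : Fact p.Prime := ⟨hp⟩
      have : Fact (Nat.Prime 2) := ⟨Nat.prime_two⟩
      apply hpne
      have := pCore_le_pPrimeCore (G := K) (p := 2) (q := p) hp2
      rw [hO, le_bot_iff] at this
      exact this
  obtain ⟨x, hxK, hx⟩ := exists_order K hK hns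
  -- conjugate `x` into one of the two standard cycles
  have hconj : ∃ σ : S8, ∃ k, k < 2 ∧ pc (σ * x * σ⁻¹) = gen k 0 ∧ gen k 1 = idC ∧ gen k 2 = idC := by
    rcases hx with hx | hx
    · have h1 := cycleType_of_prime (by norm_num) (by norm_num) x hx
      have h2 := cycleType_of_prime (by norm_num) (by norm_num) cy5 cy5_order
      obtain ⟨σ, hσ⟩ := isConj_iff.1 (Perm.isConj_iff_cycleType_eq.2 (h1.trans h2.symm))
      exact ⟨σ, 0, by norm_num, by rw [hσ]; decide +kernel, by decide +kernel, by decide +kernel⟩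
    · have h1 := cycleType_of_prime (by norm_num) (by norm_num) x hx
      have h2 := cycleType_of_prime (by norm_num) (by norm_num) cy7 cy7_order
      obtain ⟨σ, hσ⟩ := isConj_iff.1 (Perm.isConj_iff_cycleType_eq.2 (h1.trans h2.symm))
      exact ⟨σ, 1, by norm_num, by rw [hσ]; decide +kernel, by decide +kernel, by decide +kernel⟩
  obtain ⟨σ, k, hk, h0, h1, h2⟩ := hconj
  let f : S8 ≃* S8 := MulAut.conj σ
  let K₁ : Subgroup S8 := K.map f.toMonoidHom
  let e : ↥K ≃* ↥K₁ := f.subgroupMap K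
  have hK₁ : K₁ ≤ alternatingGroup (Fin 8) := by
    rintro _ ⟨y, hy, rfl⟩
    have hy' := hK hy
    have : (alternatingGroup (Fin 8)).Normal := inferInstance
    exact this.conj_mem y hy' σ
  have hcov : Cov K₁ k := by
    refine ⟨⟨σ * x * σ⁻¹, ⟨x, hxK, rfl⟩, h0⟩, ?_, ?_⟩
    · rw [h1]; exact KC_id _
    · rw [h2]; exact KC_id _
  obtain ⟨t, ht, hKt⟩ := climb hdata hA hK₁ (40 - k) k (by omega) hcov
  let e' : ↥K ≃* ↥(Lk t) := e.trans (MulEquiv.subgroupCongr hKt)
  exact Target.of_iso e' (final t ht (pPrimeCore_bot_of_equiv e' hO) (pCore_bot_of_equiv e' hO2))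

/-- Let H be a nontrivial subgroup of GL(4,2) (a group isomorphic to the alternating group of degree 8) whose largest normal 2-subgroup and largest normal subgroup of odd order are both trivial. Then H is isomorphic to an alternating group of degree n for some 5 ≤ n ≤ 8, to the symmetric group of degree 5 or 6, or to GL(3,2). -/
theorem result (H : Subgroup (GL (Fin 4) (ZMod 2))) (hH : H ≠ ⊥) (hO : Cfsg.pPrimeCore 2 ↥H = ⊥) (hO2 : Cfsg.pCore 2 ↥H = ⊥) :
    (∃ n : ℕ, 5 ≤ n ∧ n ≤ 8 ∧ Nonempty (↥H ≃* alternatingGroup (Fin n))) ∨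
    Nonempty (↥H ≃* Equiv.Perm (Fin 5)) ∨ Nonempty (↥H ≃* Equiv.Perm (Fin 6)) ∨ Nonempty (↥H ≃* GL (Fin 3) (ZMod 2)) := by
  obtain ⟨f, hf⟩ := Cfsg.Agent.Lib.GL42A8.exists_embedding
  let ι : GL (Fin 4) (ZMod 2) →* S8 := (alternatingGroup (Fin 8)).subtype.comp f
  have hι : Function.Injective ι := Subtype.val_injective.comp hf
  let e : ↥H ≃* ↥(H.map ι) := H.equivMapOfInjective ι hι
  have hK : H.map ι ≤ alternatingGroup (Fin 8) := by
    rintro _ ⟨y, -, rfl⟩
    exact (f y).2
  have hne : H.map ι ≠ ⊥ := by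
    intro h
    exact hH ((Subgroup.map_eq_bot_iff_of_injective H hι).1 h)
  exact Target.of_iso e (main_perm _ hK hne (pPrimeCore_bot_of_equiv e hO) (pCore_bot_of_equiv e hO2))

end Cfsg.Agent.S2553
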