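import Mathlib
import Cfsg.Statements.S2556
import Cfsg.Agent.Lib.AutQuad
import Cfsg.Agent.Lib.Suzuki4
import Cfsg.Agent.Lib.SuzukiIso

set_option autoImplicit false
open Cfsg

namespace Cfsg.Agent.S2556

section
open Cfsg.Agent.Lib.Suzuki Cfsg.Agent.Lib.Suzuki4 Cfsg.Agent.Lib.SuzukiIso Cfsg.Agent.Lib.AutQuad
open Cfsg.Agent.Lib.SuzukiBasic

variable {F : Type*} [Field F] [Fintype F] {m : ℕ} [CharP F 2] [SzHyp F m]

/-- The first coordinate. -/
noncomputable def dl (g : Tsub F m) : F := (exists_ttS g).choose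

/-- The second coordinate. -/
noncomputable def et (g : Tsub F m) : F := (exists_ttS g).choose_spec.choose

lemma eq_tt (g : Tsub F m) : g = ttS (dl g) (et g) := (exists_ttS g).choose_spec.choose_spec

lemma dl_tt (a b : F) : dl (ttS a b : Tsub F m) = a := (ttS_inj (eq_tt (ttS a b : Tsub F m))).1.symm

lemma et_tt (a b : F) : et (ttS a b : Tsub F m) = b := (ttS_inj (eq_tt (ttS a b : Tsub F m))).2.symm

lemma exists_root (b : F) : ∃ a : F, phi m a * a = b := by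
  by_cases hb : b = 0
  · exact ⟨0, by simp [hb, phi_zero]⟩
  · refine ⟨phi m b / b, ?_⟩
    have hp : phi m b ≠ 0 := phi_ne_zero hb
    rw [div_eq_mul_inv, phi_mul, phi_phi, phi_inv]
    field_simp

/-- Coordinates on the explicit Sylow subgroup. -/
noncomputable def coordT : Coord (Tsub F m) F (m + 1) where
  δ := dl
  η := et
  R _ _ := True
  δ_mul g h := by
    conv_lhs => rw [eq_tt g, eq_tt h, ttS_mul]
    rw [dl_tt]
  η_mul g h := by
    conv_lhs => rw [eq_tt g, eq_tt h, ttS_mul]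
    rw [et_tt]
    rfl
  ext g h h1 h3 := by
    rw [eq_tt g, eq_tt h, h1, h3]
  rel _ := trivial
  exists_mk d e _ := ⟨ttS d e, dl_tt d e, et_tt d e⟩
  R_scale _ _ _ _ _ _ := trivial
  surj _ := ⟨0, trivial⟩
  center_iff g := by
    rw [mem_center_Tsub]
    constructor
    · rintro ⟨b, rfl⟩
      exact dl_tt 0 b
    · intro h
      exact ⟨et g, by conv_lhs => rw [eq_tt g, h]⟩
  sq_surj z hz := by
    obtain ⟨b, rfl⟩ := mem_center_Tsub.1 hz
    obtain ⟨a, ha⟩ := exists_root (m := m) b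
    refine ⟨ttS a 0, ?_⟩
    rw [pow_two, ttS_mul, CharTwo.add_self_eq_zero, add_zero, zero_add, ha]

/-- `Tsub` is isomorphic to every Sylow 2-subgroup of the Suzuki group. -/
lemma sylow_equiv (P : Sylow 2 ↥(Cfsg.Lie.Sz F (2 ^ (m + 1)))) :
    Nonempty (↥(P : Subgroup ↥(Cfsg.Lie.Sz F (2 ^ (m + 1)))) ≃* Tsub F m) := by
  let e : Sz F m ≃* Lie.Sz F (2 ^ (m + 1)) := szEquiv
  haveI hfin : Finite (Lie.Sz F (2 ^ (m + 1))) := Finite.of_equiv _ e.toEquiv
  let U : Subgroup (Lie.Sz F (2 ^ (m + 1))) := (Tsub F m).map e.toMonoidHom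
  let e' : Tsub F m ≃* U := (Tsub F m).equivMapOfInjective e.toMonoidHom e.injective
  have hU : IsPGroup 2 U := isPGroup_Tsub.map (e.toMonoidHom)
  have hidx : ¬ 2 ∣ U.index := by
    have : U.index = (Tsub F m).index := Subgroup.index_map_of_bijective e.bijective _
    rw [this]
    exact odd_index_Tsub
  haveI hp : Fact (Nat.Prime 2) := ⟨Nat.prime_two⟩
  let S₀ : Sylow 2 (Lie.Sz F (2 ^ (m + 1))) := hU.toSylow hidx
  have hS₀ : (S₀ : Subgroup (Lie.Sz F (2 ^ (m + 1)))) = U := IsPGroup.toSylow_coe _ _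
  exact ⟨(Sylow.equiv P S₀).trans ((MulEquiv.subgroupCongr hS₀).trans e'.symm)⟩

omit [Field F] [Fintype F] [CharP F 2] in
lemma hs_aux (m : ℕ) (hm : 1 ≤ m) (i j : ℕ) (hi : i < 2 * m + 1) (hj : j < 2 * m + 1) (hij : i ≠ j) :
    (j + 2 * (m + 1)) % (2 * m + 1) ≠ i ∨ (i + 2 * (m + 1)) % (2 * m + 1) ≠ j := by
  have key : ∀ k, k < 2 * m + 1 → (k + 2 * (m + 1)) % (2 * m + 1) = (k + 1) % (2 * m + 1) := by
    intro k _
    rw [show k + 2 * (m + 1) = k + 1 + (2 * m + 1) by ring, Nat.add_mod_right]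
  rw [key j hj, key i hi]
  by_contra hcon
  push Not at hcon
  obtain ⟨h1, h2⟩ := hcon
  by_cases h3 : j + 1 < 2 * m + 1
  · rw [Nat.mod_eq_of_lt h3] at h1
    subst h1
    by_cases h4 : j + 1 + 1 < 2 * m + 1
    · rw [Nat.mod_eq_of_lt h4] at h2
      omega
    · have h5 : j + 1 + 1 = 2 * m + 1 := by omega
      rw [h5, Nat.mod_self] at h2
      omega
  · have h5 : j + 1 = 2 * m + 1 := by omega
    rw [h5, Nat.mod_self] at h1
    subst h1
    rw [Nat.mod_eq_of_lt (by omega)] at h2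
    omega

theorem main {S : Type*} [Group S] [Finite S] (m : ℕ) (hm : 1 ≤ m)
    {F : Type*} [Field F] [Fintype F] (hF : Fintype.card F = 2 ^ (2 * m + 1))
    (P : Sylow 2 ↥(Cfsg.Lie.Sz F (2 ^ (m + 1)))) (hS : Nonempty (S ≃* ↥(P : Subgroup ↥(Cfsg.Lie.Sz F (2 ^ (m + 1)))))) :
    Cfsg.IsElementaryAbelian 2 (Cfsg.pCore 2 (MulAut S)) ∧ Nat.card ↥(Cfsg.pCore 2 (MulAut S)) = 2 ^ ((2 * m + 1) ^ 2) ∧
      Nat.card (MulAut S) = 2 ^ ((2 * m + 1) ^ 2) * ((2 * m + 1) * (2 ^ (2 * m + 1) - 1)) := by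
  haveI : SzHyp F m := ⟨hm, hF⟩
  haveI : CharP F 2 := charP_two F m
  obtain ⟨f⟩ := hS
  obtain ⟨g⟩ := sylow_equiv (F := F) (m := m) P
  let e : S ≃* Tsub F m := f.trans g
  have hZ : Nat.card (Subgroup.center S) = 2 ^ (2 * m + 1) := by
    rw [Nat.card_congr (Subgroup.centerCongr e).toEquiv, card_center_Tsub, hF]
  have h := Coord.main (Coord.ofEquiv e (coordT (F := F) (m := m))) (N := 2 * m + 1) (r := 2 * m + 1)
    hF (by omega) (by omega) (by omega) (hs_aux m hm) hZ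
  rw [← pow_two] at h
  exact h

end

/-- Let S be a Sylow 2-subgroup of the Suzuki group Sz(q), q = 2ⁿ with n = 2m + 1 ≥ 3 (realised as 4 × 4 matrices over the field with q elements). Then the largest normal 2-subgroup of the automorphism group of S is elementary abelian of order 2^(n²), and the automorphism group of S has order 2^(n²) · n · (q − 1). -/
theorem result {S : Type*} [Group S] [Finite S] (m : ℕ) (hm : 1 ≤ m)
    {F : Type*} [Field F] [Fintype F] (hF : Fintype.card F = 2 ^ (2 * m + 1))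
    (P : Sylow 2 ↥(Cfsg.Lie.Sz F (2 ^ (m + 1)))) (hS : Nonempty (S ≃* ↥(P : Subgroup ↥(Cfsg.Lie.Sz F (2 ^ (m + 1)))))) :
    Cfsg.IsElementaryAbelian 2 (Cfsg.pCore 2 (MulAut S)) ∧ Nat.card ↥(Cfsg.pCore 2 (MulAut S)) = 2 ^ ((2 * m + 1) ^ 2) ∧
      Nat.card (MulAut S) = 2 ^ ((2 * m + 1) ^ 2) * ((2 * m + 1) * (2 ^ (2 * m + 1) - 1)) :=
  main m hm hF P hS

end Cfsg.Agent.S2556
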