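import Mathlib
import Cfsg.Statements.S4417
import Cfsg.Agent.Lib.PGroupAct
import Cfsg.Agent.Lib.Replacement

set_option autoImplicit false
open Cfsg
open Cfsg.Agent.Lib
open scoped commutatorElement

namespace Cfsg.Agent.S4417

universe u

section groupTheory

variable {p : ℕ} [hpf : Fact p.Prime]

/-- A finite abelian `p`-group whose elements of order dividing `p` all lie in `⟨z⟩` is cyclic. -/
lemma isCyclic_of_unique {A : Type*} [CommGroup A] [Finite A] (hA : IsPGroup p A) (z : A) (hz : z ≠ 1)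
    (hzp : z ^ p = 1) (huniq : ∀ y : A, y ^ p = 1 → y ∈ Subgroup.zpowers z) : IsCyclic A := by
  classical
  obtain ⟨c, hc⟩ := Monoid.exists_orderOf_eq_exponent (G := A) Monoid.ExponentExists.of_finite
  by_cases htop : Subgroup.zpowers c = ⊤
  · refine ⟨c, fun y => ?_⟩
    have : y ∈ Subgroup.zpowers c := by rw [htop]; trivial
    exact this
  exfalso
  obtain ⟨k, hk⟩ := IsPGroup.iff_orderOf.1 hA c
  have hk0 : k ≠ 0 := by
    intro h
    rw [h, pow_zero] at hk
    have h1 : Monoid.exponent A = 1 := by rw [← hc, hk]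
    have h2 := Monoid.pow_exponent_eq_one z
    rw [h1, pow_one] at h2
    exact hz h2
  obtain ⟨k', rfl⟩ : ∃ k', k = k' + 1 := ⟨k - 1, by omega⟩
  have hQp : IsPGroup p (A ⧸ Subgroup.zpowers c) := hA.to_quotient _
  obtain ⟨m, hm⟩ := IsPGroup.iff_card.1 hQp
  have hm0 : m ≠ 0 := by
    intro h
    rw [h, pow_zero] at hm
    apply htop
    exact Subgroup.index_eq_one.1 hm
  have hd : p ∣ Nat.card (A ⧸ Subgroup.zpowers c) := by rw [hm]; exact dvd_pow_self p hm0
  obtain ⟨ybar, hybar⟩ := exists_prime_orderOf_dvd_card' p hd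
  obtain ⟨y₁, rfl⟩ := QuotientGroup.mk_surjective ybar
  have h1 : y₁ ∉ Subgroup.zpowers c := by
    intro h
    have : (QuotientGroup.mk y₁ : A ⧸ Subgroup.zpowers c) = 1 := (QuotientGroup.eq_one_iff _).2 h
    rw [this, orderOf_one] at hybar
    exact hpf.out.one_lt.ne hybar
  have h2 : y₁ ^ p ∈ Subgroup.zpowers c := by
    have : ((QuotientGroup.mk y₁ : A ⧸ Subgroup.zpowers c)) ^ p = 1 := by
      rw [← hybar]; exact pow_orderOf_eq_one _
    rw [← QuotientGroup.mk_pow, QuotientGroup.eq_one_iff] at this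
    exact this
  obtain ⟨j, hj⟩ := Subgroup.mem_zpowers_iff.1 h2
  have h3 : y₁ ^ (p ^ (k' + 1)) = 1 := by
    rw [← hk, hc]; exact Monoid.pow_exponent_eq_one _
  have h4 : c ^ (j * (p ^ k' : ℕ)) = 1 := by
    rw [zpow_mul, hj, zpow_natCast, ← pow_mul, ← pow_succ']
    exact h3
  have h5 : ((p ^ (k' + 1) : ℕ) : ℤ) ∣ j * (p ^ k' : ℕ) := by
    rw [← hk]; exact orderOf_dvd_iff_zpow_eq_one.2 h4
  have h6 : (p : ℤ) ∣ j := by
    have hpos : ((p ^ k' : ℕ) : ℤ) ≠ 0 := by
      exact_mod_cast (pow_pos hpf.out.pos k').ne'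
    have : ((p ^ (k' + 1) : ℕ) : ℤ) = (p : ℤ) * ((p ^ k' : ℕ) : ℤ) := by
      push_cast; ring
    rw [this] at h5
    exact Int.dvd_of_mul_dvd_mul_right hpos h5
  obtain ⟨i, rfl⟩ := h6
  set y₂ := y₁ * c ^ (-i) with hy₂
  have h7 : y₂ ^ p = 1 := by
    rw [hy₂, mul_pow, ← hj, ← zpow_natCast (c ^ (-i)), ← zpow_mul, ← zpow_add]
    have : (p : ℤ) * i + -i * (p : ℤ) = 0 := by ring
    rw [this, zpow_zero]
  have h8 : y₂ ∉ Subgroup.zpowers c := by
    intro h
    apply h1
    have : y₁ = y₂ * c ^ i := by rw [hy₂]; simp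
    rw [this]
    exact mul_mem h (zpow_mem (Subgroup.mem_zpowers c) i)
  have h9 := huniq y₂ h7
  -- `z` lies in `⟨c⟩`
  set c₀ := c ^ (p ^ k') with hc₀
  have h10 : c₀ ^ p = 1 := by
    rw [hc₀, ← pow_mul, ← pow_succ, ← hk]; exact pow_orderOf_eq_one c
  have h11 : c₀ ≠ 1 := by
    apply pow_ne_one_of_lt_orderOf (pow_pos hpf.out.pos k').ne'
    rw [hk]
    exact Nat.pow_lt_pow_right hpf.out.one_lt (by omega)
  have h12 := huniq c₀ h10
  have h13 : orderOf c₀ = p := orderOf_eq_prime h10 h11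
  have h14 : orderOf z = p := orderOf_eq_prime hzp hz
  have h15 : Subgroup.zpowers c₀ = Subgroup.zpowers z := by
    apply Subgroup.eq_of_le_of_card_ge
    · rwa [Subgroup.zpowers_le]
    · rw [Nat.card_zpowers, Nat.card_zpowers, h13, h14]
  apply h8
  have h16 : y₂ ∈ Subgroup.zpowers c₀ := by rw [h15]; exact h9
  exact (Subgroup.zpowers_le.2 (pow_mem (Subgroup.mem_zpowers c) _)) h16

variable {G : Type u} [Group G] [Finite G]

/-- Existence of a self-centralizing normal abelian subgroup. -/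
lemma exists_selfcent (hG : IsPGroup p G) : ∃ A : Subgroup G, A.Normal ∧ IsMulCommutative A ∧
    Subgroup.centralizer (A : Set G) ≤ A := by
  classical
  let S : Set (Subgroup G) := {A | A.Normal ∧ IsMulCommutative A}
  have hbot : (⊥ : Subgroup G) ∈ S := by
    refine ⟨inferInstance, ⟨⟨fun a b => ?_⟩⟩⟩
    have h1 : a = 1 := Subsingleton.elim _ _
    have h2 : b = 1 := Subsingleton.elim _ _
    rw [h1, h2]
  obtain ⟨A, hA⟩ := (Set.toFinite S).exists_maximal ⟨⊥, hbot⟩
  obtain ⟨⟨hAn, hAc⟩, hmax⟩ := hA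
  refine ⟨A, hAn, hAc, ?_⟩
  by_contra hcon
  obtain ⟨y₀, hy₀, hy₀A⟩ := SetLike.not_le_iff_exists.1 hcon
  have hQ : IsPGroup p (G ⧸ A) := hG.to_quotient _
  let π := QuotientGroup.mk' A
  have hCn : (Subgroup.centralizer (A : Set G)).Normal := Subgroup.normal_centralizer
  have hWne : (Subgroup.centralizer (A : Set G)).map π ≠ ⊥ := by
    intro h
    have : π y₀ ∈ (Subgroup.centralizer (A : Set G)).map π := ⟨y₀, hy₀, rfl⟩
    rw [h, Subgroup.mem_bot] at this
    exact hy₀A ((QuotientGroup.eq_one_iff _).1 this)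
  obtain ⟨w, hw, hw1, hwc⟩ := PGroupAct.exists_central_elt (⊤ : Subgroup (G ⧸ A))
    ((Subgroup.centralizer (A : Set G)).map π) (hQ.to_subgroup _) le_top
    (fun a _ b hb => (Subgroup.Normal.map hCn π (QuotientGroup.mk'_surjective A)).conj_mem b hb a) hWne
  obtain ⟨y, hy, rfl⟩ := hw
  have hyA : y ∉ A := fun h => hw1 ((QuotientGroup.eq_one_iff _).2 h)
  have hzn : (Subgroup.zpowers (π y)).Normal := by
    constructor
    rintro _ ⟨k, rfl⟩ g
    refine ⟨k, ?_⟩
    have hc : Commute g ((π y) ^ k) := Commute.zpow_right (hwc g trivial) k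
    simp only
    rw [hc.eq]
    group
  let A' : Subgroup G := (Subgroup.zpowers (π y)).comap π
  have hA'n : A'.Normal := hzn.comap π
  have hle : A ≤ A' := by
    intro a ha
    show π a ∈ Subgroup.zpowers (π y)
    have : π a = 1 := (QuotientGroup.eq_one_iff a).2 ha
    rw [this]
    exact one_mem _
  have hform : ∀ x ∈ A', ∃ (k : ℤ), ∃ a ∈ A, x = y ^ k * a := by
    intro x hx
    obtain ⟨k, hk⟩ := Subgroup.mem_zpowers_iff.1 hx
    refine ⟨k, (y ^ k)⁻¹ * x, ?_, by group⟩
    apply QuotientGroup.eq.1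
    show π (y ^ k) = π x
    rw [map_zpow]
    exact hk
  have hya : ∀ a ∈ A, ∀ k : ℤ, Commute (y ^ k) a := fun a ha k =>
    Commute.zpow_left (Subgroup.mem_centralizer_iff.1 hy a ha).symm k
  have hAab : ∀ a ∈ A, ∀ b ∈ A, a * b = b * a := fun a ha b hb =>
    congrArg Subtype.val (hAc.is_comm.comm ⟨a, ha⟩ ⟨b, hb⟩)
  have hA'c : IsMulCommutative A' := by
    refine ⟨⟨fun x₁ x₂ => Subtype.ext ?_⟩⟩
    obtain ⟨k, a, ha, h1⟩ := hform x₁ x₁.2
    obtain ⟨l, b, hb, h2⟩ := hform x₂ x₂.2
    show (x₁ : G) * x₂ = x₂ * x₁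
    rw [h1, h2]
    have c1 := (hya b hb k).eq
    have c2 := (hya a ha l).eq
    have c3 : y ^ k * y ^ l = y ^ l * y ^ k := by rw [← zpow_add, ← zpow_add, add_comm]
    calc y ^ k * a * (y ^ l * b) = y ^ k * (a * y ^ l) * b := by group
      _ = y ^ k * (y ^ l * a) * b := by rw [c2]
      _ = (y ^ k * y ^ l) * (a * b) := by group
      _ = (y ^ l * y ^ k) * (b * a) := by rw [c3, hAab a ha b hb]
      _ = y ^ l * (y ^ k * b) * a := by group
      _ = y ^ l * (b * y ^ k) * a := by rw [c1]
      _ = y ^ l * b * (y ^ k * a) := by group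
  have h5 : A' ≤ A := hmax ⟨hA'n, hA'c⟩ hle
  exact hyA (h5 (Subgroup.mem_zpowers (π y)))

/-- A cyclic self-centralizing normal subgroup gives derived length at most two. -/
lemma derived_two (A : Subgroup G) (hAn : A.Normal) (hAc : IsMulCommutative A)
    (hC : Subgroup.centralizer (A : Set G) ≤ A) (hcyc : IsCyclic A) : derivedSeries G 2 = ⊥ := by
  have hcomm : commutator G ≤ A := by
    rw [commutator_def, Subgroup.commutator_le]
    intro g _ h _
    apply hC
    let φ : G →* MulAut A := MulAut.conjNormal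
    let e := IsCyclic.mulAutMulEquiv A
    have hab : φ g * φ h = φ h * φ g := by
      apply e.injective
      rw [map_mul, map_mul, mul_comm]
    have h1 : φ ⁅g, h⁆ = 1 := by
      rw [commutatorElement_def]
      simp only [map_mul, map_inv]
      rw [hab]
      group
    rw [Subgroup.mem_centralizer_iff]
    intro r hr
    have h2 : φ ⁅g, h⁆ ⟨r, hr⟩ = ⟨r, hr⟩ := by rw [h1]; rfl
    have h3 := congrArg Subtype.val h2
    have h4 : ⁅g, h⁆ * r * ⁅g, h⁆⁻¹ = r := h3
    calc r * ⁅g, h⁆ = ⁅g, h⁆ * r * ⁅g, h⁆⁻¹ * ⁅g, h⁆ := by rw [h4]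
      _ = ⁅g, h⁆ * r := by group
  rw [eq_bot_iff, show derivedSeries G 2 = ⁅derivedSeries G 1, derivedSeries G 1⁆ from rfl]
  have h1 : derivedSeries G 1 ≤ A := hcomm
  refine (Subgroup.commutator_mono h1 h1).trans ?_
  rw [Subgroup.commutator_le]
  intro a ha b hb
  rw [commutatorElement_def, Subgroup.mem_bot]
  have := congrArg Subtype.val (hAc.is_comm.comm ⟨a, ha⟩ ⟨b, hb⟩)
  have h2 : a * b = b * a := this
  rw [h2]
  group

/-- The subgroup of elements of order dividing `p` in an abelian normal subgroup. -/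
lemma exists_x (hG : IsPGroup p G) (A : Subgroup G) (hAn : A.Normal) (hAc : IsMulCommutative A)
    (hcyc : ¬ IsCyclic A) (z : G) (hzA : z ∈ A) (hz1 : z ≠ 1) (hzp : z ^ p = 1)
    (hzc : ∀ g, g * z = z * g) :
    ∃ x, x ^ p = 1 ∧ x ∉ Subgroup.zpowers z ∧ ∀ g, g * x * g⁻¹ * x⁻¹ ∈ Subgroup.zpowers z := by
  classical
  have hAab : ∀ a ∈ A, ∀ b ∈ A, a * b = b * a := fun a ha b hb =>
    congrArg Subtype.val (hAc.is_comm.comm ⟨a, ha⟩ ⟨b, hb⟩)
  -- an element outside `⟨z⟩`
  have hy : ∃ y ∈ A, y ^ p = 1 ∧ y ∉ Subgroup.zpowers z := by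
    by_contra hcon
    push Not at hcon
    apply hcyc
    let c : CommGroup A := { A.toGroup with mul_comm := fun a b => hAc.is_comm.comm a b }
    refine @isCyclic_of_unique p hpf A c _ (hG.to_subgroup A) ⟨z, hzA⟩ (fun h => hz1 (congrArg Subtype.val h))
      (Subtype.ext hzp) ?_
    intro y hy
    have h1 : (y : G) ^ p = 1 := congrArg Subtype.val hy
    obtain ⟨k, hk⟩ := Subgroup.mem_zpowers_iff.1 (hcon y y.2 h1)
    exact Subgroup.mem_zpowers_iff.2 ⟨k, Subtype.ext hk⟩
  obtain ⟨y, hyA, hyp, hyz⟩ := hy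
  let Ω : Subgroup G :=
    { carrier := {a | a ∈ A ∧ a ^ p = 1}
      mul_mem' := by
        rintro a b ⟨ha, ha'⟩ ⟨hb, hb'⟩
        refine ⟨mul_mem ha hb, ?_⟩
        have hc : Commute a b := hAab a ha b hb
        rw [hc.mul_pow, ha', hb', one_mul]
      one_mem' := ⟨one_mem _, one_pow _⟩
      inv_mem' := by
        rintro a ⟨ha, ha'⟩
        exact ⟨inv_mem ha, by rw [inv_pow, ha', inv_one]⟩ }
  have hΩn : Ω.Normal := by
    constructor
    rintro a ⟨ha, ha'⟩ g
    refine ⟨hAn.conj_mem a ha g, ?_⟩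
    rw [conj_pow, ha']
    group
  have hNn : (Subgroup.zpowers z).Normal := by
    constructor
    rintro _ ⟨k, rfl⟩ g
    refine ⟨k, ?_⟩
    have hc : Commute g (z ^ k) := Commute.zpow_right (hzc g) k
    simp only
    rw [hc.eq]
    group
  let π := QuotientGroup.mk' (Subgroup.zpowers z)
  have hQ : IsPGroup p (G ⧸ Subgroup.zpowers z) := hG.to_quotient _
  have hWne : Ω.map π ≠ ⊥ := by
    intro h
    have : π y ∈ Ω.map π := ⟨y, ⟨hyA, hyp⟩, rfl⟩
    rw [h, Subgroup.mem_bot] at this
    exact hyz ((QuotientGroup.eq_one_iff _).1 this)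
  obtain ⟨w, hw, hw1, hwc⟩ := PGroupAct.exists_central_elt (⊤ : Subgroup (G ⧸ Subgroup.zpowers z))
    (Ω.map π) (hQ.to_subgroup _) le_top
    (fun a _ b hb => (Subgroup.Normal.map hΩn π (QuotientGroup.mk'_surjective _)).conj_mem b hb a) hWne
  obtain ⟨x, hx, rfl⟩ := hw
  refine ⟨x, hx.2, fun h => hw1 ((QuotientGroup.eq_one_iff _).2 h), fun g => ?_⟩
  have h1 := hwc (π g) trivial
  apply (QuotientGroup.eq_one_iff _).1
  show π (g * x * g⁻¹ * x⁻¹) = 1
  simp only [map_mul, map_inv]
  rw [h1]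
  group

end groupTheory


/-- The bound for the derived length. -/
def L (e n : ℕ) : ℕ := if n < e then 0 else Nat.log 2 (n / e) + 1

lemma L_of_le {e n : ℕ} (hn : e ≤ n) : L e n = Nat.log 2 (n / e) + 1 := by
  unfold L
  rw [if_neg (by omega)]

lemma L_of_lt {e n : ℕ} (hn : n < e) : L e n = 0 := by
  unfold L
  rw [if_pos hn]

lemma L_mono {e a b : ℕ} (h : a ≤ b) : L e a ≤ L e b := by
  by_cases ha : a < e
  · rw [L_of_lt ha]; omega
  · rw [L_of_le (by omega), L_of_le (by omega)]
    have := Nat.log_mono_right (b := 2) (Nat.div_le_div_right (c := e) h)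
    omega

lemma L_step {e d n : ℕ} (he : 0 < e) (h2 : 2 * d ≤ n) (hn : e ≤ n) : L e d + 1 ≤ L e n := by
  by_cases hd : d < e
  · rw [L_of_lt hd, L_of_le hn]; omega
  · rw [L_of_le (by omega), L_of_le hn]
    have hdpos : 0 < d / e := Nat.div_pos (by omega) he
    have h3 : (d / e) * 2 ≤ n / e := by
      rw [Nat.le_div_iff_mul_le he]
      calc d / e * 2 * e = (d / e * e) * 2 := by ring
        _ ≤ d * 2 := Nat.mul_le_mul_right 2 (Nat.div_mul_le_self d e)
        _ ≤ n := by omega
    have h4 := Nat.log_mono_right (b := 2) h3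
    rw [Nat.log_mul_base (by norm_num) hdpos.ne'] at h4
    omega

section linear

variable {F : Type u} [Field F]
variable {V : Type u} [AddCommGroup V] [Module F V]
variable {G : Type u} [Group G]

/-- Invariant subspaces. -/
def Inv (ρ : G →* Module.End F V) (W : Submodule F V) : Prop := ∀ g, ∀ v ∈ W, ρ g v ∈ W

lemma rho_inv (ρ : G →* Module.End F V) (g : G) (v : V) : ρ g⁻¹ (ρ g v) = v := by
  rw [← Module.End.mul_apply, ← map_mul, inv_mul_cancel, map_one]; rfl

lemma rho_inv' (ρ : G →* Module.End F V) (g : G) (v : V) : ρ g (ρ g⁻¹ v) = v := by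
  rw [← Module.End.mul_apply, ← map_mul, mul_inv_cancel, map_one]; rfl

lemma rho_mul (ρ : G →* Module.End F V) (a b : G) (v : V) : ρ (a * b) v = ρ a (ρ b v) := by
  rw [map_mul]; rfl

/-- Restriction to an invariant subspace. -/
def resHom (ρ : G →* Module.End F V) (W : Submodule F V) (h : Inv ρ W) : G →* Module.End F W where
  toFun g := (ρ g).restrict (h g)
  map_one' := by
    ext v
    simp
  map_mul' a b := by
    ext v
    simp [Module.End.mul_apply, LinearMap.restrict_apply]

lemma resHom_apply (ρ : G →* Module.End F V) (W : Submodule F V) (h : Inv ρ W) (g : G) (v : W) :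
    ((resHom ρ W h g v : W) : V) = ρ g v := rfl

/-- Maschke's theorem. -/
lemma maschke [Finite G] (hG : (Nat.card G : F) ≠ 0) (ρ : G →* Module.End F V) (W : Submodule F V)
    (h : Inv ρ W) : ∃ W', Inv ρ W' ∧ IsCompl W W' := by
  classical
  have := Fintype.ofFinite G
  obtain ⟨π₀, hπ₀⟩ := LinearMap.exists_leftInverse_of_injective W.subtype
    (LinearMap.ker_eq_bot.2 W.subtype_injective)
  let π₁ : Module.End F V := W.subtype ∘ₗ π₀
  have hπ₁W : ∀ w ∈ W, π₁ w = w := by
    intro w hw
    have := LinearMap.congr_fun hπ₀ ⟨w, hw⟩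
    show ((π₀ w : W) : V) = w
    have h2 : π₀ w = ⟨w, hw⟩ := this
    rw [h2]
  have hπ₁im : ∀ v, π₁ v ∈ W := fun v => (π₀ v).2
  let A : Module.End F V := (Nat.card G : F)⁻¹ • ∑ g : G, ρ g * π₁ * ρ g⁻¹
  have hAv : ∀ v, A v = (Nat.card G : F)⁻¹ • ∑ g : G, ρ g (π₁ (ρ g⁻¹ v)) := by
    intro v
    simp only [A, LinearMap.smul_apply, LinearMap.sum_apply, Module.End.mul_apply]
  have hAW : ∀ w ∈ W, A w = w := by
    intro w hw
    rw [hAv]
    have : ∀ g : G, ρ g (π₁ (ρ g⁻¹ w)) = w := fun g => by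
      rw [hπ₁W _ (h g⁻¹ w hw), rho_inv']
    simp only [this, Finset.sum_const, Finset.card_univ]
    rw [← Nat.card_eq_fintype_card, ← Nat.cast_smul_eq_nsmul F, smul_smul, inv_mul_cancel₀ hG, one_smul]
  have hAim : ∀ v, A v ∈ W := by
    intro v
    rw [hAv]
    refine W.smul_mem _ (W.sum_mem fun g _ => h g _ (hπ₁im _))
  have hAeq : ∀ k v, A (ρ k v) = ρ k (A v) := by
    intro k v
    rw [hAv, hAv, map_smul, map_sum]
    congr 1
    refine Fintype.sum_equiv (Equiv.mulLeft k⁻¹) _ _ fun g => ?_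
    show ρ g (π₁ (ρ g⁻¹ (ρ k v))) = ρ k (ρ (k⁻¹ * g) (π₁ (ρ (k⁻¹ * g)⁻¹ v)))
    rw [← rho_mul ρ k, mul_inv_cancel_left, mul_inv_rev, inv_inv, rho_mul ρ g⁻¹ k]
  refine ⟨LinearMap.ker A, ?_, ?_⟩
  · intro g v hv
    rw [LinearMap.mem_ker] at hv ⊢
    rw [hAeq, hv, map_zero]
  · constructor
    · rw [Submodule.disjoint_def]
      intro x hx hx2
      rw [LinearMap.mem_ker] at hx2
      rw [← hAW x hx, hx2]
    · rw [codisjoint_iff, eq_top_iff]
      intro v _
      have h1 : v - A v ∈ LinearMap.ker A := by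
        rw [LinearMap.mem_ker, map_sub, hAW _ (hAim v), sub_self]
      have : v = A v + (v - A v) := by abel
      rw [this]
      exact Submodule.add_mem_sup (hAim v) h1

variable {p : ℕ} [hpf : Fact p.Prime]

lemma dvd_of_fpf [Fintype F] [FiniteDimensional F V] (T : Module.End F V) (hT : T ^ p = 1)
    (hfp : ∀ v, T v = v → v = 0) : orderOf ((Fintype.card F : ℕ) : ZMod p) ∣ Module.finrank F V := by
  classical
  have : Finite V := Module.finite_of_finite F
  have : Fintype V := Fintype.ofFinite V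
  let f : Function.End V := fun v => T v
  have hfn : ∀ (n : ℕ) (v : V), (f ^ n) v = (T ^ n) v := by
    intro n
    induction n with
    | zero => intro v; rfl
    | succ n ih =>
      intro v
      rw [pow_succ, pow_succ]
      exact ih (T v)
  have hf1 : f ^ p ^ 1 = 1 := by
    funext v
    rw [pow_one, hfn, hT]
    rfl
  have hmod := Equiv.Perm.card_fixedPoints_modEq hf1
  have hfix : f.fixedPoints = {0} := by
    ext v
    simp only [Set.mem_singleton_iff]
    constructor
    · exact fun h => hfp v h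
    · rintro rfl
      exact map_zero T
  have hcard1 : Fintype.card f.fixedPoints = 1 := by
    rw [Fintype.card_congr (Equiv.setCongr hfix)]
    simp
  rw [hcard1, Module.card_eq_pow_finrank (K := F)] at hmod
  apply orderOf_dvd_of_pow_eq_one
  have h2 := (ZMod.natCast_eq_natCast_iff _ _ p).2 hmod
  push_cast at h2
  exact h2

lemma fpf_central (ρ : G →* Module.End F V) (hinj : Function.Injective ρ)
    (hirr : ∀ W, Inv ρ W → W = ⊥ ∨ W = ⊤) (c : G) (hc : ∀ g, g * c = c * g) (hc1 : c ≠ 1) :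
    ∀ v, ρ c v = v → v = 0 := by
  intro v hv
  let W : Submodule F V := LinearMap.ker (ρ c - 1)
  have hW : ∀ w, w ∈ W ↔ ρ c w = w := fun w => by
    simp only [W, LinearMap.mem_ker, LinearMap.sub_apply, Module.End.one_apply, sub_eq_zero]
  have hinv : Inv ρ W := by
    intro g w hw
    rw [hW] at hw ⊢
    rw [← rho_mul, ← hc g, rho_mul, hw]
  rcases hirr W hinv with h | h
  · have : v ∈ W := (hW v).2 hv
    rw [h] at this
    simpa using this
  · exfalso
    apply hc1
    apply hinj
    rw [map_one]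
    ext w
    have : w ∈ W := by rw [h]; trivial
    exact (hW w).1 this

lemma commute_aeval (A T : Module.End F V) (h : Commute A T) (a : Polynomial F) :
    Commute A (Polynomial.aeval T a) := by
  induction a using Polynomial.induction_on with
  | C c =>
    simp only [Polynomial.aeval_C]
    exact (Algebra.commutes c A).symm
  | add p q hp hq => simpa using hp.add_right hq
  | monomial n c ih =>
    rw [pow_succ, ← mul_assoc, map_mul, Polynomial.aeval_X]
    exact ih.mul_right h

/-- The case of dimension `e`: commutativity. -/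
lemma comm_of_cyclic [Fintype F] [FiniteDimensional F V] (ρ : G →* Module.End F V)
    (hinj : Function.Injective ρ) (z : G) (hzc : ∀ g, g * z = z * g) (hzp : z ^ p = 1)
    (hfp : ∀ v, ρ z v = v → v = 0) (hV : Nontrivial V)
    (hn : Module.finrank F V ≤ orderOf ((Fintype.card F : ℕ) : ZMod p)) (a b : G) : a * b = b * a := by
  classical
  obtain ⟨v, hv⟩ := exists_ne (0 : V)
  set T := ρ z with hT
  have hTp : T ^ p = 1 := by rw [hT, ← map_pow, hzp, map_one]
  let φ : Polynomial F →ₗ[F] V := (LinearMap.applyₗ v) ∘ₗ (Polynomial.aeval T).toLinearMap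
  have hφ : ∀ a, φ a = Polynomial.aeval T a v := fun a => rfl
  let U : Submodule F V := LinearMap.range φ
  have hUT : ∀ w ∈ U, T w ∈ U := by
    rintro _ ⟨a, rfl⟩
    refine ⟨Polynomial.X * a, ?_⟩
    rw [hφ, hφ, map_mul, Polynomial.aeval_X]
    rfl
  let TU : Module.End F U := T.restrict hUT
  have hTUn : ∀ (n : ℕ) (w : U), (((TU ^ n) w : U) : V) = (T ^ n) w := by
    intro n
    induction n with
    | zero => intro w; rfl
    | succ n ih =>
      intro w
      rw [pow_succ, pow_succ]
      exact ih (TU w)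
  have hTUp : TU ^ p = 1 := by
    ext w
    rw [hTUn, hTp]
    rfl
  have hTUfp : ∀ w, TU w = w → w = 0 := by
    intro w hw
    apply Subtype.ext
    exact hfp w (congrArg Subtype.val hw)
  have hd := dvd_of_fpf TU hTUp hTUfp
  have hvU : v ∈ U := ⟨1, by rw [hφ, map_one]; rfl⟩
  have hUpos : 0 < Module.finrank F U := by
    have : Nontrivial U := ⟨⟨⟨v, hvU⟩, 0, fun h => hv (congrArg Subtype.val h)⟩⟩
    exact Module.finrank_pos
  have hUle := Nat.le_of_dvd hUpos hd
  have hUV : Module.finrank F U ≤ Module.finrank F V := Submodule.finrank_le U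
  have hU : U = ⊤ := Submodule.eq_top_of_finrank_eq (by omega)
  have hmem : ∀ w : V, ∃ c : Polynomial F, w = Polynomial.aeval T c v := by
    intro w
    have : w ∈ U := by rw [hU]; trivial
    obtain ⟨c, hc⟩ := this
    exact ⟨c, hc.symm⟩
  have hcomm : ∀ g (c : Polynomial F) (w : V), ρ g (Polynomial.aeval T c w) = Polynomial.aeval T c (ρ g w) := by
    intro g c w
    have h1 : Commute (ρ g) T := by
      show ρ g * ρ z = ρ z * ρ g
      rw [← map_mul, hzc, map_mul]
    have h2 := (commute_aeval (ρ g) T h1 c).eq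
    exact LinearMap.congr_fun h2 w
  apply hinj
  rw [map_mul, map_mul]
  ext w
  obtain ⟨c, rfl⟩ := hmem w
  obtain ⟨f₁, hf₁⟩ := hmem (ρ a v)
  obtain ⟨f₂, hf₂⟩ := hmem (ρ b v)
  simp only [Module.End.mul_apply]
  rw [hcomm, hcomm, hcomm, hcomm, hf₂, hf₁, hcomm, hcomm, hf₁, hf₂]
  have e1 : Polynomial.aeval T f₂ (Polynomial.aeval T f₁ v) = Polynomial.aeval T (f₂ * f₁) v := by
    rw [map_mul]; rfl
  have e2 : Polynomial.aeval T f₁ (Polynomial.aeval T f₂ v) = Polynomial.aeval T (f₁ * f₂) v := by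
    rw [map_mul]; rfl
  rw [e1, e2, mul_comm]

/-- Decomposition into eigenspaces. -/
lemma sum_decomp (X Z : Module.End F V) (hXZ : Commute X Z) (hXp : X ^ p = 1) (hZp : Z ^ p = 1)
    (hp : (p : F) ≠ 0) (hfp : ∀ k, ¬ p ∣ k → ∀ v, (Z ^ k) v = v → v = 0) (A : Module.End F V)
    (hA : ∀ i, ∀ w, X w = (Z ^ i) w → A w = w) : A = 1 := by
  classical
  have hp1 : 0 < p := hpf.out.pos
  let Y : ℕ → Module.End F V := fun i => X * Z ^ ((p - 1) * i)
  let E : ℕ → Module.End F V := fun i => ∑ j ∈ Finset.range p, Y i ^ j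
  have hZi : ∀ i, Z ^ i * Z ^ ((p - 1) * i) = 1 := by
    intro i
    rw [← pow_add]
    have : i + (p - 1) * i = p * i := by
      obtain ⟨c, rfl⟩ : ∃ c, p = c + 1 := ⟨p - 1, by omega⟩
      simp only [Nat.add_sub_cancel]
      ring
    rw [this, pow_mul, hZp, one_pow]
  have hYp : ∀ i, Y i ^ p = 1 := by
    intro i
    show (X * Z ^ ((p - 1) * i)) ^ p = 1
    rw [(hXZ.pow_right _).mul_pow, hXp, one_mul, ← pow_mul, mul_comm, pow_mul, hZp, one_pow]
  have hEim : ∀ i v, X (E i v) = (Z ^ i) (E i v) := by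
    intro i v
    have h1 : (Y i - 1) * E i = 0 := by
      show (Y i - 1) * ∑ j ∈ Finset.range p, Y i ^ j = 0
      rw [mul_geom_sum, hYp, sub_self]
    have h2 : Y i (E i v) = E i v := by
      have := LinearMap.congr_fun h1 v
      simpa [sub_eq_zero, Module.End.mul_apply] using this
    have h3 : X ((Z ^ ((p - 1) * i)) (E i v)) = E i v := h2
    have h4 : (Z ^ i) (E i v) = X (E i v) := by
      conv_lhs => rw [← h3]
      rw [← Module.End.mul_apply, ← Module.End.mul_apply]
      have e : Z ^ i * X * Z ^ ((p - 1) * i) = X := by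
        rw [← (hXZ.pow_right i).eq, mul_assoc, hZi, mul_one]
      rw [e]
    exact h4.symm
  have hE : ∑ i ∈ Finset.range p, E i = (p : Module.End F V) := by
    have h1 : ∑ i ∈ Finset.range p, E i =
        ∑ j ∈ Finset.range p, X ^ j * ∑ i ∈ Finset.range p, (Z ^ ((p - 1) * j)) ^ i := by
      simp only [E, Finset.mul_sum]
      rw [Finset.sum_comm]
      refine Finset.sum_congr rfl fun j _ => Finset.sum_congr rfl fun i _ => ?_
      show (X * Z ^ ((p - 1) * i)) ^ j = _
      rw [(hXZ.pow_right _).mul_pow, ← pow_mul, ← pow_mul]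
      congr 2
      ring
    rw [h1, Finset.sum_eq_single 0]
    · simp
    · intro j hj hj0
      have hjlt := Finset.mem_range.1 hj
      have hS : ∑ i ∈ Finset.range p, (Z ^ ((p - 1) * j)) ^ i = 0 := by
        ext v
        simp only [LinearMap.zero_apply]
        apply hfp ((p - 1) * j)
        · intro hd
          rcases (Nat.Prime.dvd_mul hpf.out).1 hd with h | h
          · have := Nat.le_of_dvd (by have := hpf.out.two_le; omega) h
            omega
          · have := Nat.le_of_dvd (by omega) h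
            omega
        · have h2 : (Z ^ ((p - 1) * j) - 1) * ∑ i ∈ Finset.range p, (Z ^ ((p - 1) * j)) ^ i = 0 := by
            rw [mul_geom_sum, ← pow_mul, mul_right_comm, mul_comm _ p, pow_mul, pow_mul, hZp, one_pow, one_pow,
              sub_self]
          have := LinearMap.congr_fun h2 v
          simpa [sub_eq_zero, Module.End.mul_apply] using this
      rw [hS, mul_zero]
    · intro h
      exact absurd (Finset.mem_range.2 hp1) h
  ext v
  have hsum : ∑ i ∈ Finset.range p, E i v = (p : F) • v := by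
    have := LinearMap.congr_fun hE v
    rw [LinearMap.sum_apply] at this
    rw [this]
    simp [Nat.cast_smul_eq_nsmul]
  have h1 : A ((p : F) • v) = (p : F) • v := by
    rw [← hsum, map_sum]
    exact Finset.sum_congr rfl fun i _ => hA i _ (hEim i v)
  rw [map_smul] at h1
  exact smul_right_injective V hp h1


/-- The inductive claim. -/
def Claim (F : Type u) [Field F] (p e m : ℕ) : Prop :=
  ∀ (V : Type u) [AddCommGroup V] [Module F V] [FiniteDimensional F V], Module.finrank F V = m →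
    ∀ (G : Type u) [Group G] [Finite G], IsPGroup p G → ∀ ρ : G →* Module.End F V,
      derivedSeries G (L e m) ≤ ρ.ker

/-- Derived series of a group with commutator subgroup in `P₀`. -/
lemma derived_le_map (P₀ : Subgroup G) (h : commutator G ≤ P₀) (k : ℕ) :
    derivedSeries G (k + 1) ≤ (derivedSeries ↥P₀ k).map P₀.subtype := by
  induction k with
  | zero =>
    simp only [derivedSeries_zero, ← MonoidHom.range_eq_map, Subgroup.range_subtype]
    exact h
  | succ k ih =>
    rw [derivedSeries_succ, derivedSeries_succ ↥P₀ k, Subgroup.map_commutator]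
    exact Subgroup.commutator_mono ih ih

/-- The case of a non-cyclic normal abelian subgroup. -/
lemma split_case [Finite G] [FiniteDimensional F V] {e n : ℕ} (he : 0 < e) (hn : Module.finrank F V = n)
    (hen : e ≤ n) (IH : ∀ m < n, Claim F p e m) (hG : IsPGroup p G) (hp : (p : F) ≠ 0)
    (ρ : G →* Module.End F V) (hinj : Function.Injective ρ) (hirr : ∀ W, Inv ρ W → W = ⊥ ∨ W = ⊤)
    (z x : G) (hzc : ∀ g, g * z = z * g) (hz1 : z ≠ 1) (hzp : z ^ p = 1) (hxp : x ^ p = 1)
    (hxz : x ∉ Subgroup.zpowers z) (hcomm : ∀ g, g * x * g⁻¹ * x⁻¹ ∈ Subgroup.zpowers z) :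
    derivedSeries G (L e n) = ⊥ := by
  classical
  have hordz : orderOf z = p := orderOf_eq_prime hzp hz1
  set X := ρ x with hX
  set Z := ρ z with hZ
  have hzcomm : ∀ g, Commute (ρ g) Z := fun g => by
    show ρ g * ρ z = ρ z * ρ g
    rw [← map_mul, hzc, map_mul]
  have hXZ : Commute X Z := hzcomm x
  have hXp : X ^ p = 1 := by rw [hX, ← map_pow, hxp, map_one]
  have hZp : Z ^ p = 1 := by rw [hZ, ← map_pow, hzp, map_one]
  have hfp : ∀ k, ¬ p ∣ k → ∀ v, (Z ^ k) v = v → v = 0 := by
    intro k hk v hv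
    refine fpf_central ρ hinj hirr (z ^ k) (fun g => ?_) ?_ v ?_
    · exact (Commute.pow_right (hzc g) k).eq
    · intro h
      apply hk
      rw [← hordz]
      exact orderOf_dvd_of_pow_eq_one h
    · rw [map_pow]; exact hv
  have hdecomp := sum_decomp X Z hXZ hXp hZp hp hfp
  -- eigenspaces
  let Vi : ℕ → Submodule F V := fun i => LinearMap.ker (X - Z ^ i)
  have hVi : ∀ i w, w ∈ Vi i ↔ X w = (Z ^ i) w := fun i w => by
    simp only [Vi, LinearMap.mem_ker, LinearMap.sub_apply, sub_eq_zero]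
  -- the case `x` central
  have hncent : ¬ ∀ g, g * x = x * g := by
    intro hcent
    have hinv : ∀ i, Inv ρ (Vi i) := by
      intro i g w hw
      rw [hVi] at hw ⊢
      have h1 : X (ρ g w) = ρ g (X w) := by
        show (ρ x * ρ g) w = (ρ g * ρ x) w
        rw [← map_mul, ← map_mul, hcent g]
      have h2 : (Z ^ i) (ρ g w) = ρ g ((Z ^ i) w) := by
        have := ((hzcomm g).pow_right i).eq
        exact (LinearMap.congr_fun this w).symm
      rw [h1, hw, h2]
    have hall : ¬ ∀ i, Vi i = ⊥ := by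
      intro hbot
      have h1 : (0 : Module.End F V) = 1 := by
        apply hdecomp
        intro i w hw
        have : w ∈ Vi i := (hVi i w).2 hw
        rw [hbot i, Submodule.mem_bot] at this
        simp [this]
      have h2 : Z = 1 := by
        have : ∀ v : V, v = 0 := fun v => by
          have := LinearMap.congr_fun h1 v
          simpa using this.symm
        ext v
        rw [this (Z v), this v]
        simp
      apply hz1
      apply hinj
      rw [map_one]
      exact h2
    push Not at hall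
    obtain ⟨i, hi⟩ := hall
    rcases hirr _ (hinv i) with h | h
    · exact hi h
    · apply hxz
      have h1 : x = z ^ i := by
        apply hinj
        rw [map_pow]
        ext w
        have : w ∈ Vi i := by rw [h]; trivial
        exact (hVi i w).1 this
      rw [h1]
      exact pow_mem (Subgroup.mem_zpowers z) i
  push Not at hncent
  obtain ⟨g₀, hg₀⟩ := hncent
  -- the conjugation cocycle
  have hconj : ∀ g, ∃ c : ℕ, g⁻¹ * x * g = x * z ^ c := by
    intro g
    have h1 := hcomm g⁻¹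
    obtain ⟨c, hc⟩ := mem_powers_iff_mem_zpowers.2 h1
    have hc' : z ^ c = g⁻¹ * x * g⁻¹⁻¹ * x⁻¹ := hc
    refine ⟨c, ?_⟩
    have hcz : x * z ^ c = z ^ c * x := (Commute.pow_right (hzc x) c).eq
    rw [hcz, hc']
    group
  have hmove : ∀ g c, g⁻¹ * x * g = x * z ^ c → ∀ i, ∀ v ∈ Vi i, ρ g v ∈ Vi (i + c) := by
    intro g c hgc i v hv
    rw [hVi] at hv ⊢
    have h1 : x * g = g * (x * z ^ c) := by rw [← hgc]; group
    have h2 : X (ρ g v) = ρ g (X ((Z ^ c) v)) := by
      show ρ x (ρ g v) = _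
      rw [← rho_mul, h1, rho_mul, rho_mul, map_pow]
    have h3 : X ((Z ^ c) v) = (Z ^ (i + c)) v := by
      have e1 : X ((Z ^ c) v) = (Z ^ c) (X v) := LinearMap.congr_fun (hXZ.pow_right c).eq v
      rw [e1, hv, add_comm, pow_add]
      rfl
    rw [h2, h3]
    exact (LinearMap.congr_fun ((hzcomm g).pow_right (i + c)).eq v)
  -- the dimension bound
  obtain ⟨c₀, hc₀⟩ := hconj g₀
  have hpc₀ : ¬ p ∣ c₀ := by
    intro hd
    obtain ⟨t, rfl⟩ := hd
    rw [pow_mul, hzp, one_pow, mul_one] at hc₀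
    apply hg₀
    calc g₀ * x = g₀ * (g₀⁻¹ * x * g₀) := by rw [hc₀]
      _ = x * g₀ := by group
  have hdim : ∀ i, 2 * Module.finrank F (Vi i) ≤ n := by
    intro i
    have hdisj : Disjoint (Vi i) (Vi (i + c₀)) := by
      rw [Submodule.disjoint_def]
      intro v h1 h2
      rw [hVi] at h1 h2
      rw [h1, pow_add] at h2
      -- `Z ^ i v = Z ^ i (Z ^ c₀ v)`
      have h3 : (Z ^ c₀) v = v := by
        have hinvZ : ∀ k (u : V), (Z ^ (p * k - k)) ((Z ^ k) u) = u ∨ k = k := fun _ _ => Or.inr rfl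
        have e1 : (Z ^ ((p - 1) * i)) ((Z ^ i) v) = v := by
          rw [← Module.End.mul_apply, ← pow_add]
          have : (p - 1) * i + i = p * i := by
            obtain ⟨c, hc⟩ : ∃ c, p = c + 1 := ⟨p - 1, by have := hpf.out.pos; omega⟩
            rw [hc]
            simp only [Nat.add_sub_cancel]
            ring
          rw [this, pow_mul, hZp, one_pow]
          rfl
        have e2 : (Z ^ ((p - 1) * i)) ((Z ^ i * Z ^ c₀) v) = (Z ^ c₀) v := by
          rw [← Module.End.mul_apply, ← mul_assoc, ← pow_add]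
          have : (p - 1) * i + i = p * i := by
            obtain ⟨c, hc⟩ : ∃ c, p = c + 1 := ⟨p - 1, by have := hpf.out.pos; omega⟩
            rw [hc]
            simp only [Nat.add_sub_cancel]
            ring
          rw [this, pow_mul, hZp, one_pow, one_mul]
        rw [← e2, ← h2, e1]
      exact hfp c₀ hpc₀ v h3
    have hle1 : Module.finrank F (Vi i) ≤ Module.finrank F (Vi (i + c₀)) := by
      let f : Vi i →ₗ[F] Vi (i + c₀) := (ρ g₀).restrict (hmove g₀ c₀ hc₀ i)
      apply LinearMap.finrank_le_finrank_of_injective (f := f)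
      intro a b hab
      apply Subtype.ext
      have := congrArg (fun t : Vi (i + c₀) => ρ g₀⁻¹ (t : V)) hab
      simp only [f, LinearMap.coe_restrict_apply, rho_inv] at this
      exact this
    have hsum := Submodule.finrank_add_finrank_le_of_disjoint hdisj
    rw [hn] at hsum
    omega
  have hnpos : 0 < n := by omega
  -- the centralizer of `x`
  let P₀ : Subgroup G := Subgroup.centralizer ({x} : Set G)
  have hP₀ : ∀ g ∈ P₀, g * x = x * g := fun g hg => by
    have := Subgroup.mem_centralizer_iff.1 hg x rfl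
    exact this.symm
  have hP₀mem : ∀ g, g * x = x * g → g ∈ P₀ := fun g hg => by
    rw [Subgroup.mem_centralizer_iff]
    rintro y rfl
    exact hg.symm
  have hcommP : commutator G ≤ P₀ := by
    rw [commutator_def, Subgroup.commutator_le]
    intro a _ b _
    apply hP₀mem
    obtain ⟨c₁, h1⟩ := hconj a
    obtain ⟨c₂, h2⟩ := hconj b
    have hcomp : ∀ (g h : G) (c c' : ℕ), g⁻¹ * x * g = x * z ^ c → h⁻¹ * x * h = x * z ^ c' →
        (g * h)⁻¹ * x * (g * h) = x * z ^ c' * z ^ c := by
      intro g h c c' hg hh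
      have e : (g * h)⁻¹ * x * (g * h) = h⁻¹ * (g⁻¹ * x * g) * h := by group
      rw [e, hg, ← hh]
      have hzh : z ^ c * h = h * z ^ c := ((Commute.pow_right (hzc h) c).eq).symm
      calc h⁻¹ * (x * z ^ c) * h = h⁻¹ * x * (z ^ c * h) := by group
        _ = h⁻¹ * x * (h * z ^ c) := by rw [hzh]
        _ = _ := by group
    have key : (a * b)⁻¹ * x * (a * b) = (b * a)⁻¹ * x * (b * a) := by
      rw [hcomp a b c₁ c₂ h1 h2, hcomp b a c₂ c₁ h2 h1, mul_assoc, mul_assoc, ← pow_add, ← pow_add,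
        add_comm]
    have e1 : ⁅a, b⁆ * x * ⁅a, b⁆⁻¹ = (a * b) * ((b * a)⁻¹ * x * (b * a)) * (a * b)⁻¹ := by
      rw [commutatorElement_def]; group
    rw [← key] at e1
    have e2 : ⁅a, b⁆ * x * ⁅a, b⁆⁻¹ = x := by
      rw [e1]; group
    calc ⁅a, b⁆ * x = ⁅a, b⁆ * x * ⁅a, b⁆⁻¹ * ⁅a, b⁆ := by group
      _ = x * ⁅a, b⁆ := by rw [e2]
  let ρ₀ : ↥P₀ →* Module.End F V := ρ.comp P₀.subtype
  have hinvi : ∀ i, Inv ρ₀ (Vi i) := by
    intro i g w hw
    rw [hVi] at hw ⊢
    show ρ x (ρ g w) = (Z ^ i) (ρ g w)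
    rw [← rho_mul, ← hP₀ g g.2, rho_mul]
    have h2 : (Z ^ i) (ρ g w) = ρ g ((Z ^ i) w) := by
      have := ((hzcomm g).pow_right i).eq
      exact (LinearMap.congr_fun this w).symm
    rw [h2, ← hw]
  have hk : L e n = Nat.log 2 (n / e) + 1 := L_of_le hen
  set k₀ := Nat.log 2 (n / e) with hk₀
  have hP₀p : IsPGroup p ↥P₀ := hG.to_subgroup P₀
  have hbot : derivedSeries ↥P₀ k₀ = ⊥ := by
    rw [eq_bot_iff]
    intro y hy
    rw [Subgroup.mem_bot]
    have hρy : ρ₀ y = 1 := by
      apply hdecomp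
      intro i w hw
      have hdi := hdim i
      have hlt : Module.finrank F (Vi i) < n := by omega
      have h1 := IH _ hlt (Vi i) rfl ↥P₀ hP₀p (resHom ρ₀ (Vi i) (hinvi i))
      have hstep := L_step he hdi hen
      rw [hk] at hstep
      have h2 : derivedSeries ↥P₀ k₀ ≤ derivedSeries ↥P₀ (L e (Module.finrank F (Vi i))) :=
        derivedSeries_antitone ↥P₀ (by omega)
      have h3 := h1 (h2 hy)
      rw [MonoidHom.mem_ker] at h3
      have h4 : resHom ρ₀ (Vi i) (hinvi i) y ⟨w, (hVi i w).2 hw⟩ = ⟨w, (hVi i w).2 hw⟩ := by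
        rw [h3]; rfl
      exact congrArg Subtype.val h4
    have h5 : (y : G) = 1 := hinj (by rw [map_one]; exact hρy)
    exact Subtype.ext h5
  rw [hk, eq_bot_iff]
  refine (derived_le_map P₀ hcommP k₀).trans ?_
  rw [hbot, Subgroup.map_bot]


/-- The irreducible faithful case. -/
lemma irred_case [Fintype F] [Finite G] [FiniteDimensional F V] {e n : ℕ}
    (he : e = orderOf ((Fintype.card F : ℕ) : ZMod p)) (hepos : 0 < e) (hn : Module.finrank F V = n)
    (IH : ∀ m < n, Claim F p e m) (hG : IsPGroup p G) (hp : (p : F) ≠ 0)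
    (ρ : G →* Module.End F V) (hinj : Function.Injective ρ) (hirr : ∀ W, Inv ρ W → W = ⊥ ∨ W = ⊤) :
    derivedSeries G (L e n) = ⊥ := by
  classical
  by_cases hG1 : Subsingleton G
  · exact Subsingleton.elim _ _
  have hnt : Nontrivial G := not_subsingleton_iff_nontrivial.1 hG1
  have hcent : Nontrivial (Subgroup.center G) := hG.center_nontrivial
  have hcp : IsPGroup p (Subgroup.center G) := hG.to_subgroup _
  obtain ⟨m, hm⟩ := IsPGroup.iff_card.1 hcp
  have hm0 : m ≠ 0 := by
    intro h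
    rw [h, pow_zero] at hm
    exact (Finite.one_lt_card (α := Subgroup.center G)).ne' hm
  have hd : p ∣ Nat.card (Subgroup.center G) := by rw [hm]; exact dvd_pow_self p hm0
  obtain ⟨z', hz'⟩ := exists_prime_orderOf_dvd_card' p hd
  have hordz : orderOf (z' : G) = p := (Subgroup.orderOf_coe z').trans hz'
  set z : G := (z' : G) with hz
  have hzc : ∀ g, g * z = z * g := fun g => Subgroup.mem_center_iff.1 z'.2 g
  have hz1 : z ≠ 1 := by
    intro h
    rw [h, orderOf_one] at hordz
    exact hpf.out.one_lt.ne hordz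
  have hzp : z ^ p = 1 := by
    have := pow_orderOf_eq_one z
    rwa [hordz] at this
  have hfp := fpf_central ρ hinj hirr z hzc hz1
  have hV : Nontrivial V := by
    by_contra hcon
    have hss : Subsingleton V := not_nontrivial_iff_subsingleton.1 hcon
    apply hz1
    apply hinj
    rw [map_one]
    ext w
    exact Subsingleton.elim _ _
  have hTp : ρ z ^ p = 1 := by rw [← map_pow, hzp, map_one]
  have hdvd : e ∣ n := by
    rw [he, ← hn]
    exact dvd_of_fpf (ρ z) hTp hfp
  have hnpos : 0 < n := by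
    rw [← hn]
    exact Module.finrank_pos
  have hen : e ≤ n := Nat.le_of_dvd hnpos hdvd
  by_cases hn2 : n < 2 * e
  · have hne : n = e := by
      obtain ⟨c, rfl⟩ := hdvd
      have hc1 : c = 1 := by
        have : c < 2 := by nlinarith
        have : c ≠ 0 := by
          rintro rfl
          simp at hnpos
        omega
      rw [hc1, mul_one]
    have hcomm := comm_of_cyclic ρ hinj z hzc hzp hfp hV (by rw [hn, hne, he])
    rw [L_of_le hen, hne, Nat.div_self hepos]
    simp only [Nat.log_one_right, zero_add]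
    rw [derivedSeries_one, commutator_def, eq_bot_iff, Subgroup.commutator_le]
    intro a _ b _
    rw [commutatorElement_def, Subgroup.mem_bot, hcomm a b]
    group
  · have hL2 : 2 ≤ L e n := by
      rw [L_of_le hen]
      have h2 : 2 ≤ n / e := (Nat.le_div_iff_mul_le hepos).2 (by omega)
      have : 0 < Nat.log 2 (n / e) := Nat.log_pos (by norm_num) h2
      omega
    obtain ⟨A, hAn, hAc, hC⟩ := exists_selfcent hG
    by_cases hcyc : IsCyclic A
    · rw [eq_bot_iff, ← derived_two A hAn hAc hC hcyc]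
      exact derivedSeries_antitone G hL2
    · have hzA : z ∈ A := by
        apply hC
        rw [Subgroup.mem_centralizer_iff]
        intro a _
        exact hzc a
      obtain ⟨x, hxp, hxz, hcomm⟩ := exists_x hG A hAn hAc hcyc z hzA hz1 hzp hzc
      exact split_case hepos hn hen IH hG hp ρ hinj hirr z x hzc hz1 hzp hxp hxz hcomm

/-- The main theorem. -/
theorem main_thm [Fintype F] {e : ℕ} (he : e = orderOf ((Fintype.card F : ℕ) : ZMod p)) (hepos : 0 < e)
    (hp : (p : F) ≠ 0) (n : ℕ) : Claim F p e n := by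
  classical
  induction n using Nat.strong_induction_on with
  | _ n IH =>
    intro V _ _ _ hn G _ _ hG ρ
    by_cases hirr : ∀ W, Inv ρ W → W = ⊥ ∨ W = ⊤
    · let ρb : G ⧸ ρ.ker →* Module.End F V := QuotientGroup.lift ρ.ker ρ (fun x hx => hx)
      have hρb : ∀ g, ρb (QuotientGroup.mk g) = ρ g := fun g => rfl
      have hinj : Function.Injective ρb := by
        intro a b hab
        obtain ⟨g, rfl⟩ := QuotientGroup.mk_surjective a
        obtain ⟨g', rfl⟩ := QuotientGroup.mk_surjective b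
        rw [hρb, hρb] at hab
        apply QuotientGroup.eq.2
        rw [MonoidHom.mem_ker, map_mul, ← hab, ← map_mul, inv_mul_cancel, map_one]
      have hirrb : ∀ W, Inv ρb W → W = ⊥ ∨ W = ⊤ := by
        intro W hW
        apply hirr
        intro g v hv
        exact hW (QuotientGroup.mk g) v hv
      have h1 := irred_case he hepos hn IH (hG.to_quotient _) hp ρb hinj hirrb
      intro x hx
      have h2 := map_derivedSeries_le_derivedSeries (QuotientGroup.mk' ρ.ker) (L e n)
        ⟨x, hx, rfl⟩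
      rw [h1, Subgroup.mem_bot] at h2
      exact (QuotientGroup.eq_one_iff x).1 h2
    · push Not at hirr
      obtain ⟨W, hW, hb, ht⟩ := hirr
      have hcard : (Nat.card G : F) ≠ 0 := by
        obtain ⟨k, hk⟩ := IsPGroup.iff_card.1 hG
        rw [hk]
        push_cast
        exact pow_ne_zero _ hp
      obtain ⟨W', hW', hc⟩ := maschke hcard ρ W hW
      have hsum := Submodule.finrank_add_eq_of_isCompl hc
      rw [hn] at hsum
      have hpos : 0 < Module.finrank F W := by
        rw [Module.finrank_pos_iff, Submodule.nontrivial_iff_ne_bot]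
        exact hb
      have hlt : Module.finrank F W < n := by
        rw [← hn]
        exact Submodule.finrank_lt ht
      have hpos' : 0 < Module.finrank F W' := by
        omega
      have hlt' : Module.finrank F W' < n := by omega
      intro g hg
      have h1 := IH _ hlt W rfl G hG (resHom ρ W hW)
      have h2 := IH _ hlt' W' rfl G hG (resHom ρ W' hW')
      have hg1 := h1 (derivedSeries_antitone G (L_mono (by omega)) hg)
      have hg2 := h2 (derivedSeries_antitone G (L_mono (by omega)) hg)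
      rw [MonoidHom.mem_ker] at hg1 hg2 ⊢
      ext v
      have hv : v ∈ W ⊔ W' := by
        rw [hc.sup_eq_top]
        trivial
      obtain ⟨w, hw, w', hw', rfl⟩ := Submodule.mem_sup.1 hv
      have e1 : ρ g w = w := by
        have := congrArg (fun f : Module.End F W => ((f ⟨w, hw⟩ : W) : V)) hg1
        exact this
      have e2 : ρ g w' = w' := by
        have := congrArg (fun f : Module.End F W' => ((f ⟨w', hw'⟩ : W') : V)) hg2
        exact this
      rw [map_add, e1, e2]
      rfl

end linear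


theorem result {F : Type*} [Field F] [Fintype F] (q : ℕ) (hF : Fintype.card F = q) (p : ℕ) [Fact p.Prime] (hpq : ¬ p ∣ q) (n e : ℕ) (he : e = orderOf (q : ZMod p)) (hen : e ≤ n) (P : Subgroup (GL (Fin n) F)) (hP : IsPGroup p P) : derivedSeries ↥P (Nat.log 2 (n / e) + 1) = ⊥ := by
  classical
  subst hF
  have hpf : Fact p.Prime := inferInstance
  have hq0 : ((Fintype.card F : ℕ) : ZMod p) ≠ 0 := fun h => hpq ((ZMod.natCast_eq_zero_iff _ _).1 h)
  have hepos : 0 < e := by
    rw [he, orderOf_pos_iff]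
    exact isOfFinOrder_iff_pow_eq_one.2 ⟨p - 1, by have := hpf.out.two_le; omega,
      ZMod.pow_card_sub_one_eq_one hq0⟩
  have hp : (p : F) ≠ 0 := by
    intro h
    obtain ⟨r, hr⟩ := CharP.exists F
    have hd : r ∣ p := (CharP.cast_eq_zero_iff F r p).1 h
    have hr1 : r ≠ 1 := CharP.char_ne_one F r
    have hrp : r = p := (Nat.dvd_prime hpf.out).1 hd |>.resolve_left hr1
    subst hrp
    have hrprime : r.Prime := hpf.out
    obtain ⟨k, -, hk⟩ := FiniteField.card F r
    exact hpq (by rw [hk]; exact dvd_pow_self r k.ne_zero)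
  have hclaim := main_thm (F := F) (p := p) he hepos hp n (Fin n → F) (by simp) ↥P hP
    (((Matrix.toLinAlgEquiv' : Matrix (Fin n) (Fin n) F ≃ₐ[F] _).toAlgHom.toRingHom.toMonoidHom.comp
      (Units.coeHom _)).comp P.subtype)
  rw [L_of_le hen] at hclaim
  rw [eq_bot_iff]
  refine hclaim.trans ?_
  intro g hg
  rw [MonoidHom.mem_ker] at hg
  rw [Subgroup.mem_bot]
  apply Subtype.ext
  apply Units.ext
  have : (Matrix.toLinAlgEquiv' : Matrix (Fin n) (Fin n) F ≃ₐ[F] _) ((g : GL (Fin n) F) : Matrix (Fin n) (Fin n) F) =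
      (Matrix.toLinAlgEquiv' : Matrix (Fin n) (Fin n) F ≃ₐ[F] _) 1 := by
    rw [map_one]
    exact hg
  exact (Matrix.toLinAlgEquiv' : Matrix (Fin n) (Fin n) F ≃ₐ[F] _).injective this

end Cfsg.Agent.S4417
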