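import Cfsg.Statements.S2648
import Cfsg.Statements.S4417
import Cfsg.Agent.S4417
import Cfsg.Agent.Lib.GLSyl99

set_option autoImplicit false
open Cfsg

namespace Cfsg.Agent.S2648

open scoped commutatorElement
open Cfsg.Agent.Lib.GLSyl99 Cfsg.Agent.Lib.OmSyl99

section abstractDer

variable {G : Type*} [Group G]

/-- Derived series of a subgroup, inside the ambient group. -/
def dser (H : Subgroup G) : ℕ → Subgroup G
  | 0 => H
  | j + 1 => ⁅dser H j, dser H j⁆

theorem map_derivedSeries (H : Subgroup G) (j : ℕ) :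
    (derivedSeries H j).map H.subtype = dser H j := by
  induction j with
  | zero =>
    rw [derivedSeries_zero, ← MonoidHom.range_eq_map, Subgroup.range_subtype]
    rfl
  | succ j ih =>
    rw [derivedSeries_succ, Subgroup.map_commutator, ih]
    rfl

theorem derivedSeries_eq_bot_iff (H : Subgroup G) (j : ℕ) :
    derivedSeries H j = ⊥ ↔ dser H j = ⊥ := by
  rw [← map_derivedSeries]
  exact (Subgroup.map_eq_bot_iff_of_injective _ (Subgroup.subtype_injective _)).symm

theorem dser_mono {H K : Subgroup G} (h : H ≤ K) (j : ℕ) : dser H j ≤ dser K j := by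
  induction j with
  | zero => exact h
  | succ j ih => exact Subgroup.commutator_mono ih ih

theorem dser_map {G' : Type*} [Group G'] (φ : G →* G') (H : Subgroup G) (j : ℕ) :
    dser (H.map φ) j = (dser H j).map φ := by
  induction j with
  | zero => rfl
  | succ j ih =>
    show ⁅dser (H.map φ) j, dser (H.map φ) j⁆ = (⁅dser H j, dser H j⁆).map φ
    rw [Subgroup.map_commutator, ih]

theorem dser_map_ne_bot {G' : Type*} [Group G'] (φ : G →* G') (hφ : Function.Injective φ)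
    {H : Subgroup G} {j : ℕ} (h : dser H j ≠ ⊥) : dser (H.map φ) j ≠ ⊥ := by
  rw [dser_map]
  intro h2
  exact h ((Subgroup.map_eq_bot_iff_of_injective _ hφ).1 h2)

theorem dser_le (H : Subgroup G) (j : ℕ) : dser H j ≤ H := by
  induction j with
  | zero => exact le_rfl
  | succ j ih =>
    refine le_trans ?_ ih
    rw [show dser H (j + 1) = ⁅dser H j, dser H j⁆ from rfl, Subgroup.commutator_le]
    intro a ha b hb
    rw [commutatorElement_def]
    exact Subgroup.mul_mem _ (Subgroup.mul_mem _ (Subgroup.mul_mem _ ha hb) (Subgroup.inv_mem _ ha)) (Subgroup.inv_mem _ hb)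

/-- The elementwise form of `dl(A ≀ C₂) ≥ dl A + 1`. -/
theorem dser_step {S A B : Subgroup G} (hAB : ∀ a ∈ A, ∀ b ∈ B, a * b = b * a)
    (h : ∀ a ∈ A, ∃ b ∈ B, a * b ∈ ⁅S, S⁆) (j : ℕ) :
    ∀ a ∈ dser A j, ∃ b ∈ B, a * b ∈ dser S (j + 1) := by
  induction j with
  | zero => exact h
  | succ j ih =>
    -- the subgroup of good elements
    let T : Subgroup G := dser S (j + 1 + 1)
    let L : Subgroup G :=
      { carrier := {a | a ∈ A ∧ ∃ b ∈ B, a * b ∈ T}
        one_mem' := ⟨A.one_mem, 1, B.one_mem, by simp [T.one_mem]⟩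
        mul_mem' := by
          rintro a a' ⟨ha, b, hb, hab⟩ ⟨ha', b', hb', hab'⟩
          refine ⟨A.mul_mem ha ha', b * b', B.mul_mem hb hb', ?_⟩
          have e : a * a' * (b * b') = (a * b) * (a' * b') := by
            have := hAB a' ha' b hb
            calc a * a' * (b * b') = a * (a' * b) * b' := by group
              _ = a * (b * a') * b' := by rw [this]
              _ = (a * b) * (a' * b') := by group
          rw [e]
          exact T.mul_mem hab hab'
        inv_mem' := by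
          rintro a ⟨ha, b, hb, hab⟩
          refine ⟨A.inv_mem ha, b⁻¹, B.inv_mem hb, ?_⟩
          have e : a⁻¹ * b⁻¹ = (a * b)⁻¹ := by
            have hc : Commute a b := hAB a ha b hb
            rw [_root_.mul_inv_rev]
            exact hc.inv_inv.eq
          rw [e]
          exact T.inv_mem hab }
    have hle : dser A (j + 1) ≤ L := by
      show ⁅dser A j, dser A j⁆ ≤ L
      rw [Subgroup.commutator_le]
      intro a₁ h₁ a₂ h₂
      obtain ⟨b₁, hb₁, hc₁⟩ := ih a₁ h₁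
      obtain ⟨b₂, hb₂, hc₂⟩ := ih a₂ h₂
      have hA₁ := dser_le A j h₁
      have hA₂ := dser_le A j h₂
      have hcA : ⁅a₁, a₂⁆ ∈ A := by
        rw [commutatorElement_def]
        exact A.mul_mem (A.mul_mem (A.mul_mem hA₁ hA₂) (A.inv_mem hA₁)) (A.inv_mem hA₂)
      have hcB : ⁅b₁, b₂⁆ ∈ B := by
        rw [commutatorElement_def]
        exact B.mul_mem (B.mul_mem (B.mul_mem hb₁ hb₂) (B.inv_mem hb₁)) (B.inv_mem hb₂)
      refine ⟨hcA, ⁅b₁, b₂⁆, hcB, ?_⟩
      · have e : ⁅a₁, a₂⁆ * ⁅b₁, b₂⁆ = ⁅a₁ * b₁, a₂ * b₂⁆ := by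
          have c21 : a₂ * b₁ = b₁ * a₂ := hAB a₂ hA₂ b₁ hb₁
          have hi1 : a₁⁻¹ * b₂⁻¹ = b₂⁻¹ * a₁⁻¹ :=
            hAB _ (A.inv_mem hA₁) _ (B.inv_mem hb₂)
          have hX₁ : a₁⁻¹ * ⁅b₁, b₂⁆ = ⁅b₁, b₂⁆ * a₁⁻¹ := hAB _ (A.inv_mem hA₁) _ hcB
          have hX₂ : a₂⁻¹ * ⁅b₁, b₂⁆ = ⁅b₁, b₂⁆ * a₂⁻¹ := hAB _ (A.inv_mem hA₂) _ hcB
          calc ⁅a₁, a₂⁆ * ⁅b₁, b₂⁆ = a₁ * a₂ * (a₁⁻¹ * (a₂⁻¹ * ⁅b₁, b₂⁆)) := by
                simp only [commutatorElement_def]; group
            _ = a₁ * a₂ * ((a₁⁻¹ * ⁅b₁, b₂⁆) * a₂⁻¹) := by rw [hX₂]; group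
            _ = a₁ * a₂ * ⁅b₁, b₂⁆ * a₁⁻¹ * a₂⁻¹ := by rw [hX₁]; group
            _ = a₁ * (a₂ * b₁) * b₂ * b₁⁻¹ * b₂⁻¹ * a₁⁻¹ * a₂⁻¹ := by
                simp only [commutatorElement_def]; group
            _ = a₁ * (b₁ * a₂) * b₂ * b₁⁻¹ * (b₂⁻¹ * a₁⁻¹) * a₂⁻¹ := by rw [c21]; group
            _ = a₁ * (b₁ * a₂) * b₂ * b₁⁻¹ * (a₁⁻¹ * b₂⁻¹) * a₂⁻¹ := by rw [← hi1]
            _ = ⁅a₁ * b₁, a₂ * b₂⁆ := by
                simp only [commutatorElement_def]; group
        rw [e]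
        exact Subgroup.commutator_mem_commutator hc₁ hc₂
    intro a ha
    exact (hle ha).2

end abstractDer


section model

variable (F : Type*) [Field F]

/-- The coordinate space. -/
abbrev VL (l : Type) := l → F × F

/-- The symplectic group of the coordinate space. -/
def SpL (l : Type) [Fintype l] : Subgroup (VL F l ≃ₗ[F] VL F l) where
  carrier := {g | ∀ x y, ∑ i, omW (g x i) (g y i) = ∑ i, omW (x i) (y i)}
  mul_mem' := by
    intro a b ha hb x y
    rw [← hb x y, ← ha (b x) (b y)]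
    rfl
  one_mem' := fun x y => rfl
  inv_mem' := by
    intro a ha x y
    have e : ∀ v, a (a⁻¹ v) = v := fun v => by
      rw [← LinearEquiv.mul_apply, mul_inv_cancel]
      rfl
    have := ha (a⁻¹ x) (a⁻¹ y)
    rw [e, e] at this
    exact this.symm

variable {F}

theorem mem_SpL {l : Type} [Fintype l] {g : VL F l ≃ₗ[F] VL F l} :
    g ∈ SpL F l ↔ ∀ x y, ∑ i, omW (g x i) (g y i) = ∑ i, omW (x i) (y i) := Iff.rfl

/-- The block homomorphism. -/
def blk {l l' : Type} : ((VL F l ≃ₗ[F] VL F l) × (VL F l' ≃ₗ[F] VL F l')) →*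
    (VL F (l ⊕ l') ≃ₗ[F] VL F (l ⊕ l')) where
  toFun p :=
    { toFun := fun x => Sum.elim (p.1 (x ∘ Sum.inl)) (p.2 (x ∘ Sum.inr))
      invFun := fun x => Sum.elim (p.1.symm (x ∘ Sum.inl)) (p.2.symm (x ∘ Sum.inr))
      map_add' := by
        intro x y
        funext s
        cases s with
        | inl i =>
          show p.1 ((x + y) ∘ Sum.inl) i = p.1 (x ∘ Sum.inl) i + p.1 (y ∘ Sum.inl) i
          rw [show (x + y) ∘ Sum.inl = x ∘ Sum.inl + y ∘ Sum.inl from rfl, map_add]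
          rfl
        | inr i =>
          show p.2 ((x + y) ∘ Sum.inr) i = p.2 (x ∘ Sum.inr) i + p.2 (y ∘ Sum.inr) i
          rw [show (x + y) ∘ Sum.inr = x ∘ Sum.inr + y ∘ Sum.inr from rfl, map_add]
          rfl
      map_smul' := by
        intro c x
        funext s
        cases s with
        | inl i =>
          show p.1 ((c • x) ∘ Sum.inl) i = c • p.1 (x ∘ Sum.inl) i
          rw [show (c • x) ∘ Sum.inl = c • (x ∘ Sum.inl) from rfl, map_smul]
          rfl
        | inr i =>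
          show p.2 ((c • x) ∘ Sum.inr) i = c • p.2 (x ∘ Sum.inr) i
          rw [show (c • x) ∘ Sum.inr = c • (x ∘ Sum.inr) from rfl, map_smul]
          rfl
      left_inv := by
        intro x
        funext s
        cases s with
        | inl i =>
          show p.1.symm (Sum.elim (p.1 (x ∘ Sum.inl)) (p.2 (x ∘ Sum.inr)) ∘ Sum.inl) i = x (Sum.inl i)
          rw [Sum.elim_comp_inl, LinearEquiv.symm_apply_apply]
          rfl
        | inr i =>
          show p.2.symm (Sum.elim (p.1 (x ∘ Sum.inl)) (p.2 (x ∘ Sum.inr)) ∘ Sum.inr) i = x (Sum.inr i)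
          rw [Sum.elim_comp_inr, LinearEquiv.symm_apply_apply]
          rfl
      right_inv := by
        intro x
        funext s
        cases s with
        | inl i =>
          show p.1 (Sum.elim (p.1.symm (x ∘ Sum.inl)) (p.2.symm (x ∘ Sum.inr)) ∘ Sum.inl) i = x (Sum.inl i)
          rw [Sum.elim_comp_inl, LinearEquiv.apply_symm_apply]
          rfl
        | inr i =>
          show p.2 (Sum.elim (p.1.symm (x ∘ Sum.inl)) (p.2.symm (x ∘ Sum.inr)) ∘ Sum.inr) i = x (Sum.inr i)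
          rw [Sum.elim_comp_inr, LinearEquiv.apply_symm_apply]
          rfl }
  map_one' := by
    apply LinearEquiv.ext
    intro x
    funext s
    cases s <;> rfl
  map_mul' := by
    intro p r
    apply LinearEquiv.ext
    intro x
    funext s
    cases s with
    | inl i =>
      show p.1 (r.1 (x ∘ Sum.inl)) i = p.1 (Sum.elim (r.1 (x ∘ Sum.inl)) (r.2 (x ∘ Sum.inr)) ∘ Sum.inl) i
      rw [Sum.elim_comp_inl]
    | inr i =>
      show p.2 (r.2 (x ∘ Sum.inr)) i = p.2 (Sum.elim (r.1 (x ∘ Sum.inl)) (r.2 (x ∘ Sum.inr)) ∘ Sum.inr) i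
      rw [Sum.elim_comp_inr]

theorem blk_inl {l l' : Type} (p : (VL F l ≃ₗ[F] VL F l) × (VL F l' ≃ₗ[F] VL F l')) (x : VL F (l ⊕ l')) (i : l) :
    blk p x (Sum.inl i) = p.1 (x ∘ Sum.inl) i := rfl

theorem blk_inr {l l' : Type} (p : (VL F l ≃ₗ[F] VL F l) × (VL F l' ≃ₗ[F] VL F l')) (x : VL F (l ⊕ l')) (i : l') :
    blk p x (Sum.inr i) = p.2 (x ∘ Sum.inr) i := rfl

theorem blk_injective {l l' : Type} : Function.Injective (blk (F := F) (l := l) (l' := l')) := by
  rw [injective_iff_map_eq_one]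
  rintro ⟨a, b⟩ h
  have h1 : ∀ x, blk (a, b) x = x := fun x => by rw [h]; rfl
  refine Prod.ext ?_ ?_
  · apply LinearEquiv.ext
    intro x
    funext i
    have := congrFun (h1 (Sum.elim x 0)) (Sum.inl i)
    rw [blk_inl] at this
    simpa using this
  · apply LinearEquiv.ext
    intro x
    funext i
    have := congrFun (h1 (Sum.elim 0 x)) (Sum.inr i)
    rw [blk_inr] at this
    simpa using this

theorem blk_mem {l l' : Type} [Fintype l] [Fintype l'] {a : VL F l ≃ₗ[F] VL F l} {b : VL F l' ≃ₗ[F] VL F l'}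
    (ha : a ∈ SpL F l) (hb : b ∈ SpL F l') : blk (a, b) ∈ SpL F (l ⊕ l') := by
  intro x y
  rw [Fintype.sum_sum_type, Fintype.sum_sum_type]
  simp only [blk_inl, blk_inr]
  rw [ha (x ∘ Sum.inl) (y ∘ Sum.inl), hb (x ∘ Sum.inr) (y ∘ Sum.inr)]
  rfl

/-- The swap of the two blocks. -/
def sw (l : Type) : VL F (l ⊕ l) ≃ₗ[F] VL F (l ⊕ l) where
  toFun x := x ∘ Sum.swap
  invFun x := x ∘ Sum.swap
  map_add' _ _ := rfl
  map_smul' _ _ := rfl
  left_inv x := by
    funext s
    simp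
  right_inv x := by
    funext s
    simp

theorem sw_apply {l : Type} (x : VL F (l ⊕ l)) (s : l ⊕ l) : sw l x s = x (Sum.swap s) := rfl

theorem sw_sq (l : Type) : (sw l : VL F (l ⊕ l) ≃ₗ[F] VL F (l ⊕ l)) * sw l = 1 := by
  apply LinearEquiv.ext
  intro x
  funext s
  show x (Sum.swap (Sum.swap s)) = x s
  simp

theorem sw_inv (l : Type) : (sw l : VL F (l ⊕ l) ≃ₗ[F] VL F (l ⊕ l))⁻¹ = sw l :=
  inv_eq_of_mul_eq_one_left (sw_sq l)

theorem sw_conj {l : Type} (a b : VL F l ≃ₗ[F] VL F l) :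
    sw l * blk (a, b) * (sw l)⁻¹ = blk (b, a) := by
  rw [sw_inv]
  apply LinearEquiv.ext
  intro x
  funext s
  cases s with
  | inl i =>
    show blk (a, b) (x ∘ Sum.swap) (Sum.inr i) = blk (b, a) x (Sum.inl i)
    rw [blk_inr, blk_inl]
    rfl
  | inr i =>
    show blk (a, b) (x ∘ Sum.swap) (Sum.inl i) = blk (b, a) x (Sum.inr i)
    rw [blk_inl, blk_inr]
    rfl

theorem sw_mem (l : Type) [Fintype l] : (sw l : VL F (l ⊕ l) ≃ₗ[F] VL F (l ⊕ l)) ∈ SpL F (l ⊕ l) := by
  intro x y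
  exact (Equiv.sumComm l l).sum_comp (fun s => omW (x s) (y s))

/-- The reindexing isomorphism. -/
noncomputable def re {l l' : Type} (e : l ≃ l') : (VL F l ≃ₗ[F] VL F l) ≃* (VL F l' ≃ₗ[F] VL F l') :=
  autC (LinearEquiv.funCongrLeft F (F × F) e.symm)

theorem re_apply {l l' : Type} (e : l ≃ l') (g : VL F l ≃ₗ[F] VL F l) (x : VL F l') (i : l') :
    re e g x i = g (x ∘ e) (e.symm i) := by
  show (LinearEquiv.funCongrLeft F (F × F) e.symm) (g ((LinearEquiv.funCongrLeft F (F × F) e.symm).symm x)) i = _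
  rw [LinearEquiv.funCongrLeft_symm]
  rfl

theorem re_mem {l l' : Type} [Fintype l] [Fintype l'] (e : l ≃ l') {g : VL F l ≃ₗ[F] VL F l} (hg : g ∈ SpL F l) :
    re e g ∈ SpL F l' := by
  intro x y
  simp only [re_apply]
  rw [← e.sum_comp]
  simp only [Equiv.symm_apply_apply]
  rw [hg (x ∘ e) (y ∘ e)]
  exact e.sum_comp (fun i => omW (x i) (y i))

/-- From coordinates to the previous model. -/
def toSpV (n : ℕ) : ↥(SpL F (Fin n)) →* ↥(SpV F n) where
  toFun g := ⟨(g.1 : VL F (Fin n) ≃ₗ[F] VL F (Fin n)).prodCongr (LinearEquiv.refl F (Fin 0 → F)), by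
    intro x y
    exact g.2 x.1 y.1⟩
  map_one' := by
    apply Subtype.ext
    apply LinearEquiv.ext
    intro x
    rfl
  map_mul' a b := by
    apply Subtype.ext
    apply LinearEquiv.ext
    intro x
    rfl

theorem toSpV_injective (n : ℕ) : Function.Injective (toSpV (F := F) n) := by
  intro a b h
  apply Subtype.ext
  apply LinearEquiv.ext
  intro x
  have h1 := congrArg (Subtype.val : ↥(SpV F n) → _) h
  have h2 := congrArg (fun g : ((Fin n → F × F) × (Fin 0 → F)) ≃ₗ[F] ((Fin n → F × F) × (Fin 0 → F)) => (g (x, 0)).1) h1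
  exact h2

/-- The embedding in matrices. -/
noncomputable def toSp (n : ℕ) : ↥(SpL F (Fin n)) →* Matrix.symplecticGroup (Fin n) F :=
  (psi n).comp (toSpV n)

theorem toSp_injective (n : ℕ) : Function.Injective (toSp (F := F) n) :=
  (psi_injective n).comp (toSpV_injective n)

end model

section base

variable {F : Type*} [Field F]

theorem invol_plane (h2 : (2 : F) ≠ 0) {d : (F × F) ≃ₗ[F] (F × F)} (hd : d ∈ SLV F (F × F)) (h : d * d = 1) :
    d = 1 ∨ d = zP F := by
  have hdet := mem_SLV_iff.1 hd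
  rw [det_plane] at hdet
  have h1 : d (d (1, 0)) = (1, 0) := by
    rw [← LinearEquiv.mul_apply, h]; rfl
  have h3 : d (d (0, 1)) = (0, 1) := by
    rw [← LinearEquiv.mul_apply, h]; rfl
  rcases hd10 : d (1, 0) with ⟨a, c⟩
  rcases hd01 : d (0, 1) with ⟨b, e⟩
  rw [hd10, hd01] at hdet
  simp only at hdet
  rw [hd10, plane_apply, hd10, hd01] at h1
  rw [hd01, plane_apply, hd10, hd01] at h3
  simp only [Prod.mk.injEq] at h1 h3
  obtain ⟨h11, h12⟩ := h1
  obtain ⟨h31, h32⟩ := h3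
  have hae : a + e ≠ 0 := by
    intro h0
    have he : e = -a := by linear_combination h0
    subst he
    apply h2
    linear_combination (-1 : F) * hdet - h11 
  have hc : c = 0 := by
    have : c * (a + e) = 0 := by linear_combination h12
    exact (mul_eq_zero.1 this).resolve_right hae
  have hb : b = 0 := by
    have : b * (a + e) = 0 := by linear_combination h31
    exact (mul_eq_zero.1 this).resolve_right hae
  subst hc hb
  have hea : e = a := by
    have e1 : a * e = 1 := by linear_combination hdet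
    have e2 : a * a = 1 := by linear_combination h11
    calc e = (a * a) * e := by rw [e2, one_mul]
      _ = a * (a * e) := by ring
      _ = a := by rw [e1, mul_one]
  subst hea
  have ha : (e - 1) * (e + 1) = 0 := by linear_combination h11
  rcases mul_eq_zero.1 ha with h5 | h5
  · left
    have he : e = 1 := by linear_combination h5
    subst he
    apply LinearEquiv.ext
    rintro ⟨x, y⟩
    rw [plane_apply, hd10, hd01]
    simp
  · right
    have he : e = -1 := by linear_combination h5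
    subst he
    apply LinearEquiv.ext
    rintro ⟨x, y⟩
    rw [plane_apply, hd10, hd01, zP_apply]
    simp

theorem base_der [Fintype F] (hodd : Odd (Fintype.card F)) :
    ∃ D : Subgroup ((F × F) ≃ₗ[F] (F × F)), D ≤ SLV F (F × F) ∧ IsPGroup 2 D ∧ ⁅D, D⁆ ≠ ⊥ := by
  have h2 : (2 : F) ≠ 0 := Cfsg.Agent.Lib.OrthNeg.two_ne_zero_of_odd rfl hodd
  obtain ⟨D, hD, hc, hg⟩ := exists_good_plane hodd
  refine ⟨D, hD, IsPGroup.of_card hc, ?_⟩
  intro hbot
  have hsub : (D : Set ((F × F) ≃ₗ[F] (F × F))) ⊆ {1, zP F} := by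
    intro x hx
    have h3 := hg x hx
    rw [hbot, Subgroup.mem_bot] at h3
    exact invol_plane h2 (hD hx) h3
  have h4 : Nat.card D ≤ 2 := by
    have h5 : Nat.card D = (D : Set ((F × F) ≃ₗ[F] (F × F))).ncard := by
      exact Nat.card_coe_set_eq (D : Set ((F × F) ≃ₗ[F] (F × F)))
    rw [h5]
    refine (Set.ncard_le_ncard hsub (Set.toFinite _)).trans ?_
    refine (Set.ncard_insert_le _ _).trans ?_
    rw [Set.ncard_singleton]
  rw [hc] at h4
  have h6 := e0_ge_three hodd (Fintype.one_lt_card (α := F))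
  have h7 : 2 ^ 3 ≤ 2 ^ e0 (Fintype.card F) := Nat.pow_le_pow_right (by norm_num) h6
  omega

end base

section recursion

variable {F : Type*} [Field F]

/-- The step. -/
theorem step_model {l : Type} [Fintype l] {S : Subgroup (VL F l ≃ₗ[F] VL F l)} (hS : S ≤ SpL F l)
    (h2S : IsPGroup 2 S) {i : ℕ} (hd : dser S (i + 1) ≠ ⊥) :
    ∃ S' : Subgroup (VL F (l ⊕ l) ≃ₗ[F] VL F (l ⊕ l)), S' ≤ SpL F (l ⊕ l) ∧ IsPGroup 2 S' ∧ dser S' (i + 1 + 1) ≠ ⊥ := by
  set A : Subgroup (VL F (l ⊕ l) ≃ₗ[F] VL F (l ⊕ l)) := (S.prod S).map blk with hA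
  set s : VL F (l ⊕ l) ≃ₗ[F] VL F (l ⊕ l) := sw l with hs
  refine ⟨Subgroup.zpowers s ⊔ A, ?_, ?_, ?_⟩
  · refine sup_le ?_ ?_
    · rw [Subgroup.zpowers_le]
      exact sw_mem l
    · rintro _ ⟨⟨a, b⟩, ⟨ha, hb⟩, rfl⟩
      exact blk_mem (hS ha) (hS hb)
  · have hz : IsPGroup 2 (Subgroup.zpowers s) := by
      rintro ⟨_, n, rfl⟩
      refine ⟨1, ?_⟩
      apply Subtype.ext
      show (s ^ n) ^ 2 ^ 1 = 1
      rw [pow_one, ← zpow_natCast, ← zpow_mul, mul_comm, zpow_mul]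
      have : s ^ ((2 : ℕ) : ℤ) = 1 := by
        rw [zpow_natCast, _root_.sq]
        exact sw_sq l
      rw [this, one_zpow]
    have hAp : IsPGroup 2 A := by
      rintro ⟨_, ⟨a, b⟩, ⟨ha, hb⟩, rfl⟩
      obtain ⟨k₁, hk₁⟩ := h2S ⟨a, ha⟩
      obtain ⟨k₂, hk₂⟩ := h2S ⟨b, hb⟩
      have e1 : a ^ 2 ^ k₁ = 1 := congrArg (Subtype.val : S → _) hk₁
      have e2 : b ^ 2 ^ k₂ = 1 := congrArg (Subtype.val : S → _) hk₂
      refine ⟨k₁ + k₂, ?_⟩
      apply Subtype.ext
      show (blk (a, b)) ^ 2 ^ (k₁ + k₂) = 1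
      rw [← map_pow, Prod.pow_mk]
      rw [pow_add]
      have e3 : a ^ (2 ^ k₁ * 2 ^ k₂) = 1 := by rw [pow_mul, e1, one_pow]
      have e4 : b ^ (2 ^ k₁ * 2 ^ k₂) = 1 := by rw [mul_comm, pow_mul, e2, one_pow]
      rw [e3, e4]
      exact map_one _
    refine IsPGroup.to_sup_of_normal_right' hz hAp ?_
    rw [Subgroup.zpowers_le, Subgroup.mem_normalizer_iff]
    have hinv : ∀ t, s * t * s⁻¹ = t → True := fun _ _ => trivial
    intro h
    constructor
    · rintro ⟨⟨a, b⟩, ⟨ha, hb⟩, rfl⟩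
      exact ⟨(b, a), ⟨hb, ha⟩, (sw_conj a b).symm⟩
    · intro hh
      obtain ⟨⟨a, b⟩, ⟨ha, hb⟩, hab⟩ := hh
      refine ⟨(b, a), ⟨hb, ha⟩, ?_⟩
      have hi : s⁻¹ = s := sw_inv l
      have hss : s * s = 1 := sw_sq l
      have hab' : blk (a, b) = s * h * s⁻¹ := hab
      rw [hi] at hab'
      have e3 : h = s * blk (a, b) * s⁻¹ := by
        rw [hi, hab']
        calc h = (s * s) * h * (s * s) := by rw [hss]; group
          _ = s * (s * h * s) * s := by group
      rw [e3]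
      exact (sw_conj a b).symm
  · let β₁ : (VL F l ≃ₗ[F] VL F l) →* (VL F (l ⊕ l) ≃ₗ[F] VL F (l ⊕ l)) := blk.comp (MonoidHom.inl _ _)
    let β₂ : (VL F l ≃ₗ[F] VL F l) →* (VL F (l ⊕ l) ≃ₗ[F] VL F (l ⊕ l)) := blk.comp (MonoidHom.inr _ _)
    have hβ₁ : ∀ g, β₁ g = blk (g, 1) := fun _ => rfl
    have hβ₂ : ∀ g, β₂ g = blk (1, g) := fun _ => rfl
    have hmul : ∀ a b, β₁ a * β₂ b = blk (a, b) := by
      intro a b
      rw [hβ₁, hβ₂, ← map_mul]
      simp
    have hmul' : ∀ a b, β₂ b * β₁ a = blk (a, b) := by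
      intro a b
      rw [hβ₁, hβ₂, ← map_mul]
      simp
    have hinj : Function.Injective β₁ := by
      intro a b h
      have := blk_injective (hβ₁ a ▸ hβ₁ b ▸ h)
      exact (Prod.ext_iff.1 this).1
    have hAB : ∀ a ∈ S.map β₁, ∀ b ∈ β₂.range, a * b = b * a := by
      rintro _ ⟨a, -, rfl⟩ _ ⟨b, rfl⟩
      rw [hmul, hmul']
    have hsmem : s ∈ Subgroup.zpowers s ⊔ A := (le_sup_left : Subgroup.zpowers s ≤ _) (Subgroup.mem_zpowers s)
    have hS1 : ∀ g ∈ S, β₁ g ∈ Subgroup.zpowers s ⊔ A := by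
      intro g hg
      exact (le_sup_right : A ≤ _) ⟨(g, 1), ⟨hg, S.one_mem⟩, rfl⟩
    have hgen : ∀ a ∈ S.map β₁, ∃ b ∈ β₂.range, a * b ∈ ⁅Subgroup.zpowers s ⊔ A, Subgroup.zpowers s ⊔ A⁆ := by
      rintro _ ⟨g, hg, rfl⟩
      refine ⟨β₂ g⁻¹, ⟨g⁻¹, rfl⟩, ?_⟩
      have e : β₁ g * β₂ g⁻¹ = ⁅β₁ g, s⁆ := by
        rw [commutatorElement_def, ← map_inv, mul_assoc, mul_assoc, ← mul_assoc s]
        congr 1
        rw [hβ₁, hβ₂]
        exact (sw_conj g⁻¹ 1).symm
      rw [e]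
      exact Subgroup.commutator_mem_commutator (hS1 g hg) hsmem
    have hst := dser_step hAB hgen (i + 1)
    intro hbot
    have hne := hd
    obtain ⟨x, hx, hx1⟩ : ∃ x, x ∈ dser S (i + 1) ∧ x ≠ 1 := by
      by_contra h
      push Not at h
      exact hne ((Subgroup.eq_bot_iff_forall _).2 h)
    have hm : β₁ x ∈ dser (S.map β₁) (i + 1) := by
      rw [dser_map]
      exact ⟨x, hx, rfl⟩
    obtain ⟨_, ⟨y, rfl⟩, h6⟩ := hst _ hm
    have h7 : dser (Subgroup.zpowers s ⊔ A) (i + 1 + 1) = ⊥ := hbot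
    rw [h7, Subgroup.mem_bot, hmul] at h6
    have h8 := blk_injective (h6.trans (map_one blk).symm)
    exact hx1 (Prod.ext_iff.1 h8).1

/-- The recursion. -/
theorem exists_model [Fintype F] (hodd : Odd (Fintype.card F)) (i : ℕ) :
    ∃ (l : Type) (_ : Fintype l), Fintype.card l = 2 ^ i ∧ ∃ S : Subgroup (VL F l ≃ₗ[F] VL F l),
      S ≤ SpL F l ∧ IsPGroup 2 S ∧ dser S (i + 1) ≠ ⊥ := by
  induction i with
  | zero =>
    obtain ⟨D, hD, h2D, hne⟩ := base_der hodd
    let φ : (F × F) ≃ₗ[F] VL F Unit := (LinearEquiv.funUnique Unit F (F × F)).symm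
    refine ⟨Unit, inferInstance, by simp, D.map (autC φ).toMonoidHom, ?_, ?_, ?_⟩
    · rintro _ ⟨d, hd, rfl⟩
      intro x y
      have e : ∀ z : VL F Unit, (autC φ) d z () = d (z ()) := fun z => rfl
      simp only [Fintype.sum_unique, MulEquiv.coe_toMonoidHom]
      show omW ((autC φ) d x ()) ((autC φ) d y ()) = omW (x ()) (y ())
      rw [e, e]
      exact omW_SL (hD hd) _ _
    · exact h2D.map _
    · exact dser_map_ne_bot _ (autC φ).injective (H := D) (j := 1) hne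
  | succ i ih =>
    obtain ⟨l, _, hl, S, hS, h2S, hd⟩ := ih
    obtain ⟨S', h1, h2, h3⟩ := step_model hS h2S hd
    refine ⟨l ⊕ l, inferInstance, ?_, S', h1, h2, h3⟩
    rw [Fintype.card_sum, hl, pow_succ]
    ring

/-- The lower bound. -/
theorem lower_bound [Fintype F] (hodd : Odd (Fintype.card F)) {n : ℕ} (hn : 1 ≤ n)
    (R : Sylow 2 (Matrix.symplecticGroup (Fin n) F)) :
    dser (R : Subgroup (Matrix.symplecticGroup (Fin n) F)) (Nat.log 2 (2 * n)) ≠ ⊥ := by
  classical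
  set K := Nat.log 2 (2 * n) with hK
  have hK1 : 1 ≤ K := by
    rw [hK]
    exact Nat.log_pos (by norm_num) (by omega)
  have hK2 : 2 ^ K ≤ 2 * n := Nat.pow_log_le_self 2 (by omega)
  obtain ⟨i, hi⟩ : ∃ i, K = i + 1 := ⟨K - 1, by omega⟩
  have hin : 2 ^ i ≤ n := by
    rw [hi, pow_succ] at hK2
    omega
  obtain ⟨l, _, hl, S, hS, h2S, hd⟩ := exists_model (F := F) hodd i
  have hcard : Fintype.card (l ⊕ Fin (n - 2 ^ i)) = Fintype.card (Fin n) := by
    rw [Fintype.card_sum, hl, Fintype.card_fin, Fintype.card_fin]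
    omega
  let e : l ⊕ Fin (n - 2 ^ i) ≃ Fin n := Fintype.equivOfCardEq hcard
  -- the composite homomorphism in the big group
  let β : (VL F l ≃ₗ[F] VL F l) →* (VL F (Fin n) ≃ₗ[F] VL F (Fin n)) :=
    (re e).toMonoidHom.comp (blk.comp (MonoidHom.inl _ _))
  have hβinj : Function.Injective β := by
    intro a b h
    have h1 : blk (a, 1) = blk (b, 1) := (re e).injective h
    exact (Prod.ext_iff.1 (blk_injective h1)).1
  set S₁ := S.map β with hS₁
  have hS₁le : S₁ ≤ SpL F (Fin n) := by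
    rintro _ ⟨a, ha, rfl⟩
    exact re_mem e (blk_mem (hS ha) (SpL F _).one_mem)
  have h2S₁ : IsPGroup 2 S₁ := h2S.map _
  have hd₁ : dser S₁ K ≠ ⊥ := by
    rw [hi]
    exact dser_map_ne_bot β hβinj hd
  set S₂ : Subgroup ↥(SpL F (Fin n)) := S₁.subgroupOf (SpL F (Fin n)) with hS₂
  have hS₂map : S₂.map (SpL F (Fin n)).subtype = S₁ := Subgroup.map_subgroupOf_eq_of_le hS₁le
  have hd₂ : dser S₂ K ≠ ⊥ := by
    intro h
    apply hd₁
    rw [← hS₂map, dser_map, h]
    simp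
  have h2S₂ : IsPGroup 2 S₂ := h2S₁.comap_of_injective _ (Subgroup.subtype_injective _)
  set S₃ : Subgroup (Matrix.symplecticGroup (Fin n) F) := S₂.map (toSp n) with hS₃
  have hd₃ : dser S₃ K ≠ ⊥ := dser_map_ne_bot _ (toSp_injective n) hd₂
  have h2S₃ : IsPGroup 2 S₃ := h2S₂.map _
  obtain ⟨R', hR'⟩ := h2S₃.exists_le_sylow
  have hd₄ : dser (R' : Subgroup (Matrix.symplecticGroup (Fin n) F)) K ≠ ⊥ := by
    intro h
    apply hd₃
    exact le_bot_iff.1 (h ▸ dser_mono hR' K)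
  obtain ⟨g, hg⟩ := MulAction.exists_smul_eq (Matrix.symplecticGroup (Fin n) F) R' R
  have hR : (R : Subgroup (Matrix.symplecticGroup (Fin n) F)) =
      (R' : Subgroup (Matrix.symplecticGroup (Fin n) F)).map (MulAut.conj g).toMonoidHom := by
    rw [← hg, Sylow.coe_subgroup_smul]
    rfl
  rw [hR]
  exact dser_map_ne_bot _ (MulAut.conj g).injective hd₄

/-- The matrix embedding. -/
noncomputable def toGL (F : Type*) [Field F] [DecidableEq F] (n : ℕ) : Matrix.symplecticGroup (Fin n) F →* GL (Fin (2 * n)) F :=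
  (Units.map ((Matrix.reindexAlgEquiv F F (finSumFinEquiv.trans (finCongr (two_mul n).symm)) : _ ≃ₐ[F] _) : _ →* _)).comp
    (MonoidHom.toHomUnits (Matrix.symplecticGroup (Fin n) F).subtype)

theorem toGL_injective (F : Type*) [Field F] [DecidableEq F] (n : ℕ) : Function.Injective (toGL F n) := by
  intro a b h
  have h1 := congrArg (Units.val) h
  have h2 := (Matrix.reindexAlgEquiv F F (finSumFinEquiv.trans (finCongr (two_mul n).symm))).injective h1
  exact Subtype.ext h2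

theorem upper_bound [Fintype F] [DecidableEq F] (hodd : Odd (Fintype.card F)) {n : ℕ} (hn : 1 ≤ n)
    (R : Sylow 2 (Matrix.symplecticGroup (Fin n) F)) :
    dser (R : Subgroup (Matrix.symplecticGroup (Fin n) F)) (Nat.log 2 (2 * n) + 1) = ⊥ := by
  haveI : Fact (Nat.Prime 2) := ⟨Nat.prime_two⟩
  have h1 : (1 : ℕ) = orderOf (((Fintype.card F : ℕ) : ZMod 2)) := by
    rw [ZMod.natCast_eq_one_iff_odd.2 hodd, orderOf_one]
  have h2 := Cfsg.Agent.S4417.result (F := F) (Fintype.card F) rfl 2 hodd.not_two_dvd_nat (2 * n) 1 h1 (by omega)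
    ((R : Subgroup (Matrix.symplecticGroup (Fin n) F)).map (toGL F n)) (R.isPGroup'.map _)
  rw [Nat.div_one, derivedSeries_eq_bot_iff, dser_map] at h2
  exact (Subgroup.map_eq_bot_iff_of_injective _ (toGL_injective F n)).1 h2

end recursion


/-- Let q be odd, F a field with q elements and n ≥ 1. A Sylow 2-subgroup R of the symplectic group Sp_{2n}(F) has derived length exactly k + 1, where 2^k ≤ 2n < 2^{k+1}: the (k+1)-st term of its derived series is trivial and the k-th is not. -/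
theorem result {F : Type*} [Field F] [Fintype F] [DecidableEq F] (q : ℕ) (hF : Fintype.card F = q) (hq : Odd q) (n : ℕ) (hn : 1 ≤ n) (R : Sylow 2 ↥(Matrix.symplecticGroup (Fin n) F)) : derivedSeries ↥(R : Subgroup ↥(Matrix.symplecticGroup (Fin n) F)) (Nat.log 2 (2 * n) + 1) = ⊥ ∧ derivedSeries ↥(R : Subgroup ↥(Matrix.symplecticGroup (Fin n) F)) (Nat.log 2 (2 * n)) ≠ ⊥ := by
  subst hF
  refine ⟨(derivedSeries_eq_bot_iff _ _).2 (upper_bound hq hn R), ?_⟩
  intro h
  exact lower_bound hq hn R ((derivedSeries_eq_bot_iff _ _).1 h)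

end Cfsg.Agent.S2648
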