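import Cfsg.Statements.S2687
import Cfsg.Agent.Lib.BalPSU.FieldMain
import Cfsg.Agent.Lib.BurnsidePQ

set_option autoImplicit false
open Cfsg

namespace Cfsg.Agent.S2687

open Cfsg.Agent.Lib.AutPSU Cfsg.Agent.Lib.AutPSU.GB Cfsg.Agent.Lib.BalPSU
open Cfsg.Agent.Lib.AutPOm (fixP mem_fixP bal_transfer core_ne_bot_iff')
open Cfsg.Agent.Lib.AutPSL (glMap scalar_coe)

local notation "sc" => Matrix.GeneralLinearGroup.scalar (Fin _)

theorem not_small {F : Type*} [Field F] [Fintype F] {q n : ℕ} (hF : Fintype.card F = q ^ 2)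
    (hK : IsSimpleGroup (Cfsg.PSU n F q)) : ¬ (n = 3 ∧ q = 2) := by
  rintro ⟨rfl, rfl⟩
  have h := Cfsg.Agent.Lib.UnitarySU.card_PSU hF 3 (by omega)
  have hcard : Nat.card (Cfsg.PSU 3 F 2) = 72 := by
    norm_num [Finset.prod_range_succ] at h
    omega
  have hs : Group.IsSolvable (Cfsg.PSU 3 F 2) := by
    haveI : Finite (Cfsg.PSU 3 F 2) := Nat.finite_of_card_ne_zero (by omega)
    exact Cfsg.Agent.Lib.BurnsidePQ.isSolvable_of_card_eq 2 3 Nat.prime_two Nat.prime_three 72 _ hcard ⟨3, 2, by norm_num⟩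
  have hc := IsSimpleGroup.comm_iff_isSolvable.mpr hs
  letI : CommGroup (Cfsg.PSU 3 F 2) := { (inferInstance : Group (Cfsg.PSU 3 F 2)) with mul_comm := hc }
  have hp := IsSimpleGroup.prime_card (α := Cfsg.PSU 3 F 2)
  rw [hcard] at hp
  norm_num at hp

/-- the shape of an automorphism of prime order with non-trivial field part. -/
theorem main {F : Type*} [Field F] [Fintype F] {r : ℕ} [Fact r.Prime] [CharP F r] {q n : ℕ} (hF : Fintype.card F = q ^ 2)
    (hn : 3 ≤ n) (h32 : ¬ (n = 3 ∧ q = 2))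
    (𝒢 : Subgroup (MulAut (Cfsg.PSU n F q))) (hinn : ∀ k : Cfsg.PSU n F q, MulAut.conj k ∈ 𝒢)
    {p : ℕ} [hp : Fact p.Prime] (hpr : p ≠ r) {g : GL (Fin n) F} (hg : g ∈ Cfsg.GU n F q) {σ : F ≃+* F}
    (hord : orderOf (semiAut hg σ) = p)
    (hnot : ¬ Cfsg.IsInnerDiagonalAutPSU (semiAut hg σ)) :
    Cfsg.pPrimeCore p ↥(𝒢 ⊓ Subgroup.centralizer {semiAut hg σ}) ≠ ⊥ ↔
      Nat.Coprime p (Nat.card (fixP (semiAut hg σ))) := by
  have hσ1 : σ ≠ 1 := by
    rintro rfl
    exact hnot (isInnerDiag_semiAut hg)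
  obtain ⟨Φ, hΦ⟩ := exists_fieldPart (p := r) hF hn h32
  have hσp : σ ^ p = 1 := by
    have h1 : (semiAut hg σ) ^ p = 1 := by rw [← hord]; exact pow_orderOf_eq_one _
    have h2 := congrArg Φ h1
    rwa [map_pow, map_one, hΦ] at h2
  have hoσ : orderOf σ = p := orderOf_eq_prime hσp hσ1
  rcases hp.out.eq_two_or_odd' with rfl | hodd
  · -- the case `p = 2`
    have h2F : (2 : F) ≠ 0 := by
      intro h
      have h3 : ((2 : ℕ) : F) = 0 := by exact_mod_cast h
      have h4 := (CharP.cast_eq_zero_iff F r 2).mp h3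
      have h5 := (Nat.prime_dvd_prime_iff_eq (Fact.out) Nat.prime_two).mp h4
      exact hpr h5.symm
    obtain rfl := eq_tauE_of_sq hF hσp hσ1
    have h1 : (semiAut hg (tauE hF)) ^ 2 = 1 := by rw [← hord]; exact pow_orderOf_eq_one _
    have h2 : semiAut (gMul_mem hg hg (tauE hF)) (tauE hF * tauE hF) = semiAut (one_mem (Cfsg.GU n F q)) (RingEquiv.refl F) := by
      rw [← semiAut_mul hg hg (tauE hF) (tauE hF), ← pow_two, h1]
      exact (inHomU n F q).map_one.symm
    obtain ⟨hσ, μ, hμ, hm⟩ := semiAut_eq_imp (p := r) hF hn (gMul_mem hg hg (tauE hF)) (one_mem (Cfsg.GU n F q)) h2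
    have hμ0 : μ ≠ 0 := left_ne_zero_of_mul_eq_one hμ
    have hsc : g * glMap (tauE hF) g = sc (Units.mk0 μ hμ0)⁻¹ := by
      apply Units.ext
      rw [scalar_coe, Units.val_inv_eq_inv_val, Units.val_mk0, eq_inv_smul_iff₀ hμ0]
      exact hm.symm
    have hcore := inv_case hF hn h32 h2F hg hsc 𝒢 hinn
    have h2fix : 2 ∣ Nat.card (fixP (semiAut hg (tauE hF))) :=
      two_dvd_card_fix _ h1 (two_dvd_card_PSU hF hn h2F)
    constructor
    · intro h
      exact absurd hcore h
    · intro h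
      have := Nat.Coprime.eq_one_of_dvd h h2fix
      omega
  · -- the case `p` odd
    have hodd' : Odd (orderOf σ) := by rw [hoσ]; exact hodd
    have hy : (semiAut hg σ) ^ orderOf σ = 1 := by
      rw [hoσ, ← hord]; exact pow_orderOf_eq_one _
    obtain ⟨h, hh⟩ := lang_U (p := r) hF hn σ hodd' hg hy
    rw [hh]
    exact bal_transfer 𝒢 hinn _ _ (fun A' hA' => field_bal (r := r) hF hn h32 σ hodd hoσ A' hA')

/-- A criterion for the failure of local balance in almost simple groups with unitary socle. Let F be a finite field of characteristic r with q² elements and K = PSU_n(q) (n ≥ 3, the central quotient of the determinant-one isometries of the standard Hermitian form) simple. Let A be a group of automorphisms of K containing all inner automorphisms, and β ∈ A an automorphism of prime order p ≠ r that is not inner-diagonal (not induced by conjugation by a matrix of the general unitary group). Then the largest normal subgroup of C_A(β) of order prime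 to p is nontrivial if and only if β is the composite of an inner-diagonal automorphism with the automorphism induced by a field automorphism of F applied entrywise and p does not divide the number of fixed points of β on K. -/
theorem result
    (F : Type*) [Field F] [Fintype F] (r : ℕ) [Fact r.Prime] [CharP F r] (q : ℕ) (hF : Fintype.card F = q ^ 2)
    (n : ℕ) (hn : 3 ≤ n) (hK : IsSimpleGroup (Cfsg.PSU n F q))
    (𝒢 : Subgroup (MulAut (Cfsg.PSU n F q))) (hinn : ∀ k : Cfsg.PSU n F q, MulAut.conj k ∈ 𝒢)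
    (p : ℕ) [Fact p.Prime] (hpr : p ≠ r) (β : MulAut (Cfsg.PSU n F q)) (hβ : β ∈ 𝒢) (hord : orderOf β = p)
    (hnot : ¬ Cfsg.IsInnerDiagonalAutPSU β) :
    Cfsg.pPrimeCore p ↥(𝒢 ⊓ Subgroup.centralizer {β}) ≠ ⊥ ↔
      ((∃ γ φ : MulAut (Cfsg.PSU n F q), Cfsg.IsInnerDiagonalAutPSU γ ∧ (∃ σ : F ≃+* F, Cfsg.IsFieldAutPSUOf σ φ) ∧ β = φ.trans γ) ∧
        Nat.Coprime p (Nat.card ↥(MonoidHom.eqLocus β.toMonoidHom (MonoidHom.id (Cfsg.PSU n F q))))) := by
  have h32 := not_small hF hK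
  obtain ⟨g, hg, σ, rfl⟩ := exists_semi' (p := r) hF hn h32 β
  have hmain := main (r := r) hF hn h32 𝒢 hinn hpr hg hord hnot
  have hcl : ∃ γ φ : MulAut (Cfsg.PSU n F q), Cfsg.IsInnerDiagonalAutPSU γ ∧ (∃ σ : F ≃+* F, Cfsg.IsFieldAutPSUOf σ φ) ∧ semiAut hg σ = φ.trans γ := by
    refine ⟨inHomU n F q ⟨g, hg⟩, faU n F q σ, isInnerDiag_semiAut hg, ⟨σ, isFieldAut_semiAut σ⟩, ?_⟩
    rw [semiAut_eq_mul]
    rfl
  rw [hmain]
  exact ⟨fun h => ⟨hcl, h⟩, fun h => h.2⟩

end Cfsg.Agent.S2687
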