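import Mathlib
import Cfsg.Statements.S2694
import Cfsg.Agent.Lib.GammaCount
import Cfsg.Agent.Lib.AutOmega.Final
import Cfsg.Agent.Lib.OrthoCardFinal

set_option autoImplicit false
set_option linter.unusedSectionVars false
open Cfsg

namespace Cfsg.Agent.S2694

open Cfsg.Agent.Lib.GammaCount Cfsg.Agent.Lib.OrthoOrder Cfsg.Agent.Lib.OrthoCount Cfsg.Agent.Lib.OrthoFinal Cfsg.Agent.Lib.OrthoBasic

variable {F : Type*} [Field F] [Fintype F]

lemma card_squares (hodd : Odd (Fintype.card F)) :
    Nat.card Fˣ = 2 * Nat.card (powMonoidHom 2 : Fˣ →* Fˣ).range := by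
  classical
  have h1 := Subgroup.card_mul_index (powMonoidHom 2 : Fˣ →* Fˣ).ker
  rw [Subgroup.index_ker] at h1
  have h2 : (2 : F) ≠ 0 := Cfsg.Agent.Lib.OrthoChar.char_ne_two_of_odd hodd
  have hk : Nat.card (powMonoidHom 2 : Fˣ →* Fˣ).ker = 2 := by
    rw [Nat.card_eq_two_iff' (⟨1, by simp⟩ : (powMonoidHom 2 : Fˣ →* Fˣ).ker)]
    refine ⟨⟨-1, by simp [MonoidHom.mem_ker]⟩, ?_, ?_⟩
    · intro h
      have h3 := congrArg (fun x : (powMonoidHom 2 : Fˣ →* Fˣ).ker => (((x : Fˣ) : F))) h
      simp only [Units.val_neg, Units.val_one] at h3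
      apply h2
      linear_combination -h3
    · rintro ⟨x, hx⟩ hne
      apply Subtype.ext
      have h3 : (x : Fˣ) ^ 2 = 1 := hx
      have h4 : ((x : Fˣ) : F) ^ 2 = 1 := by
        have := congrArg Units.val h3
        simpa using this
      have h40 : ((x : Fˣ) : F) * ((x : Fˣ) : F) = 1 := by rw [← sq]; exact h4
      rcases mul_self_eq_one_iff.1 h40 with h5 | h5
      · exfalso
        apply hne
        apply Subtype.ext
        apply Units.ext
        simpa using h5
      · apply Units.ext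
        simpa using h5
  rw [hk] at h1
  rw [← h1, mul_comm]

lemma sv_qOdd (σ : F ≃+* F) (m : ℕ) (v : Unit ⊕ (Fin m ⊕ Fin m) → F) :
    quadFormOdd m F (sv σ v) = σ (quadFormOdd m F v) := by
  simp [quadFormOdd, sv, map_sum]

lemma le_card_MP (m : ℕ) :
    Nat.card (F ≃+* F) * Nat.card (powMonoidHom 2 : Fˣ →* Fˣ).range ≤ Nat.card (MP (quadFormOdd m F)) := by
  classical
  have := finite_ringAut (F := F)
  have hfin : Finite (MP (quadFormOdd m F)) := inferInstance
  rw [← Nat.card_prod]
  apply Nat.card_le_card_of_injective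
    (fun x : (F ≃+* F) × (powMonoidHom 2 : Fˣ →* Fˣ).range =>
      (⟨(x.1, (x.2 : Fˣ)), by
        obtain ⟨σ, ⟨_, l, rfl⟩⟩ := x
        refine ⟨sc l, fun v => ?_⟩
        change quadFormOdd m F (phi (sc l) σ v) = _
        have h1 : phi (sc l) σ v = (l : F) • sv σ v := by
          rw [phi, sc_mulVec]
        have h2 := Cfsg.Agent.Lib.OrthoCount.qOdd_apply (F := F) m ((l : F) • sv σ v)
        rw [h1, ← h2, QuadraticMap.map_smul, qOdd_apply, sv_qOdd]
        simp [smul_eq_mul, pow_two]⟩ : MP (quadFormOdd m F)))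
  intro x y h
  have h1 := congrArg (fun z : MP (quadFormOdd m F) => z.1) h
  simp only at h1
  exact Prod.ext (Prod.mk.inj h1).1 (Subtype.ext (Prod.mk.inj h1).2)

/-- `|O(Q)| = 4 |PΩ(Q)|`. -/
lemma card_iso_odd (hodd : Odd (Fintype.card F)) (m : ℕ) (hm : 3 ≤ m) :
    Nat.card (isometryGroup F (quadFormOdd m F)) = 4 * Nat.card (POmega F (quadFormOdd m F)) := by
  have h1 := Nat.card_congr (isoOG _ (qOdd m F) (fun v => (qOdd_apply m v).symm)).toEquiv
  have h2 := card_OG_odd hodd m (F := F)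
  have h3 := Cfsg.Agent.Lib.OrthoCardFinal.card_POmega_odd (F := F) rfl hodd m hm
  rw [h1, h2]
  rw [show 4 * Nat.card (POmega F (quadFormOdd m F)) = 2 * (2 * Nat.card (POmega F (quadFormOdd m F))) by ring, h3]
  ring

/-- For `m ≥ 3` and a finite field F of odd order, the automorphism group of the orthogonal group Ω_{2m+1}(F) (realised as PΩ of the form x₀² + Σ xᵢ yᵢ, whose centre is trivial) is generated by the automorphisms induced by the semisimilarities v ↦ g σ(v) of the form (the image of the projective semisimilarity group); there are no graph or graph-field automorphisms. -/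
theorem result {F : Type*} [Field F] [Fintype F] (hodd : Odd (Fintype.card F)) {m : ℕ} (hm : 3 ≤ m) :
    Cfsg.gammaPOmega F (Cfsg.quadFormOdd m F) = ⊤ := by
  classical
  obtain ⟨p, hpc⟩ := CharP.exists F
  obtain ⟨f, hpp, hF⟩ := FiniteField.card F p
  have : Fact p.Prime := ⟨hpp⟩
  have hf1 : 1 ≤ (f : ℕ) := f.2
  have hoddp : Odd p := by
    rw [hF] at hodd
    exact (Nat.odd_pow_iff (by have := f.2; omega)).1 hodd
  have hAut := Cfsg.Agent.Lib.AutOmega.card_aut_pomega_odd (F := F) hf1 hF hoddp m hm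
  obtain ⟨n, rfl⟩ : ∃ n, m = n + 2 := ⟨m - 2, by omega⟩
  obtain ⟨fr⟩ := frameOdd hodd n (F := F)
  have hQ := nondeg_qOdd hodd (n + 2) (F := F)
  have hgen := Cfsg.Agent.Lib.OrthoGen.genR_qOdd hodd (n + 2) (F := F)
  have hmul := card_gamma_mul (quadFormOdd (n + 2) F) (fun v => (qOdd_apply _ v).symm) hQ hgen fr
  have hM := le_card_MP (F := F) (n + 2)
  have hsq := card_squares (F := F) hodd
  have hO := card_iso_odd hodd (n + 2) hm
  have hR := Cfsg.Agent.Lib.AutPSL.card_ringAut (F := F) hF hf1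
  set P := Nat.card (POmega F (quadFormOdd (n + 2) F)) with hP
  set G := Nat.card (gammaPOmega F (quadFormOdd (n + 2) F)) with hG
  set S := Nat.card (powMonoidHom 2 : Fˣ →* Fˣ).range with hS
  have hS0 : 0 < S := Nat.card_pos
  have h5 : 2 * (f : ℕ) * P ≤ G := by
    have h6 : (f : ℕ) * S * (4 * P) ≤ G * (2 * S) := by
      rw [← hsq, hmul, hO, hR] at *
      exact Nat.mul_le_mul_right _ hM
    have h7 : (2 * (f : ℕ) * P) * (2 * S) ≤ G * (2 * S) := by
      calc (2 * (f : ℕ) * P) * (2 * S) = (f : ℕ) * S * (4 * P) := by ring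
        _ ≤ _ := h6
    exact Nat.le_of_mul_le_mul_right h7 (by omega)
  have hfinO : Finite (POmega F (quadFormOdd (n + 2) F)) := inferInstance
  have hfinA : Finite (MulAut (POmega F (quadFormOdd (n + 2) F))) :=
    Finite.of_injective (fun g => (g : POmega F (quadFormOdd (n + 2) F) → POmega F (quadFormOdd (n + 2) F))) DFunLike.coe_injective
  apply Subgroup.eq_top_of_card_eq
  apply le_antisymm (Subgroup.card_le_card_group _)
  rw [hAut]
  exact h5

end Cfsg.Agent.S2694
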