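import Cfsg.Statements.S2731
import Cfsg.Agent.S2694
import Cfsg.Agent.Lib.AutPOm.Odd
import Cfsg.Agent.Lib.AutPOm.BalStd

set_option autoImplicit false
open Cfsg

namespace Cfsg.Agent.S2731

open Cfsg.Agent.Lib.AutPOm Cfsg.Agent.Lib.GammaCount Cfsg.Agent.Lib.PgoPsi Cfsg.Agent.Lib.Hilbert90
  Cfsg.Agent.Lib.OrthoCount Cfsg.Agent.Lib.PgoGroup Cfsg.Agent.Lib.OrthoFinal

set_option maxHeartbeats 2000000 in
/-- A criterion for the failure of local balance in almost simple groups whose socle is an odd-dimensional orthogonal group Ω_{2m+1}(F) (m ≥ 3, |F| odd; the form x₀² + Σ xᵢ yᵢ). Let F be a finite field of characteristic r and K the (simple) group in question; let A be a group of automorphisms of K containing all inner automorphisms, and x ∈ A an automorphism of prime order p ≠ r that is not inner-diagonal (not induced by a similarity of the form). Then the largest normal subgroup of C_A(x) of order prime to p is nontrivial if and only if x is a field automorphism of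 K (conjugate under Aut(K) to a non-identity standard field automorphism) and p does not divide the number of fixed points of x on K. -/
theorem result {F : Type*} [Field F] [Fintype F] {r : ℕ} [Fact r.Prime] [CharP F r] (hodd : Odd (Fintype.card F)) {m : ℕ} (hm : 3 ≤ m) (hK : IsSimpleGroup (Cfsg.POmega F (Cfsg.quadFormOdd m F))) (A : Subgroup (MulAut (Cfsg.POmega F (Cfsg.quadFormOdd m F)))) (hinn : ∀ k : Cfsg.POmega F (Cfsg.quadFormOdd m F), MulAut.conj k ∈ A) {p : ℕ} [Fact p.Prime] (hpr : p ≠ r) (x : MulAut (Cfsg.POmega F (Cfsg.quadFormOdd m F))) (hxA : x ∈ A) (hord : orderOf x = p) (hnot : ¬ Cfsg.IsInnerDiagonalAutPOmegaOdd m x) :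
    Cfsg.pPrimeCore p ↥(A ⊓ Subgroup.centralizer {x}) ≠ ⊥ ↔ (Cfsg.IsFieldAutClassPOmega (Cfsg.quadFormOdd m F) x ∧ Nat.Coprime p (Nat.card ↥(MonoidHom.eqLocus x.toMonoidHom (MonoidHom.id (Cfsg.POmega F (Cfsg.quadFormOdd m F)))))) := by
  classical
  have hp : p.Prime := Fact.out
  have hΓ := Cfsg.Agent.S2694.result hodd hm
  have S := sys_odd hodd (show 2 ≤ m by omega) (F := F)
  obtain ⟨G, τ, h, rfl⟩ := gs_range x (by rw [hΓ]; trivial)
  have hτ : τ ≠ RingEquiv.refl F := by
    rintro rfl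
    apply hnot
    exact ⟨G, mem_CO_of_semisim h, gs_induced h⟩
  have hy : (gs h) ^ p = 1 := by
    rw [← hord]
    exact pow_orderOf_eq_one _
  have hτp : τ ^ p = 1 := by
    have hy' := hy
    rw [gs_pow] at hy'
    exact gs_eq_one_right S _ hy'
  have hτo : orderOf τ = p := orderOf_eq_prime hτp hτ
  obtain ⟨H, hH⟩ := lang_odd hodd (show 2 ≤ m by omega) hp.pos hτo h hy
  rw [hH] at hord hnot ⊢
  have hI := FInv_odd (m := m) (F := F)
  set U := dl H with hU
  have hcl : Cfsg.IsFieldAutClassPOmega (Cfsg.quadFormOdd m F) (U * fa hI τ * U⁻¹) := by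
    refine ⟨U⁻¹, fa hI τ, τ, hτ, (isFieldAut_iff hI τ _).2 rfl, ?_⟩
    group
  -- the fixed field
  haveI : Fintype (fixedF τ) := Fintype.ofFinite _
  have hodd₀ : Odd (Fintype.card (fixedF τ)) := by
    have h1 := card_eq_card_fixedF_pow τ hτo
    rw [Nat.card_eq_fintype_card, Nat.card_eq_fintype_card] at h1
    rw [h1] at hodd
    by_contra hn
    rw [Nat.not_odd_iff_even] at hn
    exact (Nat.not_even_iff_odd.2 hodd) (hn.pow_of_ne_zero hp.ne_zero)
  have B : BC (fixedF τ).subtype τ (quadFormOdd m (fixedF τ)) (quadFormOdd m F) (qOdd m (fixedF τ)) (qOdd m F) := by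
    refine ⟨⟨fun v => ?_⟩, sys_odd hodd₀ (show 2 ≤ m by omega), S, fun y => y.2, fun y hy => ⟨⟨y, hy⟩, rfl⟩⟩
    rw [qOdd_apply, qOdd_apply]
    simp [quadFormOdd, mapV]
  obtain ⟨fr₀⟩ := B.S₀.fr
  have hs₀ : IsSimpleGroup (POmega (fixedF τ) (quadFormOdd m (fixedF τ))) :=
    isSimple_POmega _ _ B.S₀.hf B.S₀.hQ B.S₀.hgen fr₀
  have key := bal_transfer (p := p) A hinn U (fa hI τ) (fun A' hA' => bal_std_O B hI hΓ hs₀ hK hτo A' hA')
  constructor
  · intro hc
    exact ⟨hcl, key.1 hc⟩
  · rintro ⟨-, hc⟩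
    exact key.2 hc

end Cfsg.Agent.S2731
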