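import Cfsg.Statements.S2733
import Cfsg.Agent.Lib.BalMinus.Field

set_option autoImplicit false
open Cfsg

namespace Cfsg.Agent.S2733

open Cfsg.Agent.Lib.BalMinus Cfsg.Agent.Lib.AutPOm Cfsg.Agent.Lib.GammaCount Cfsg.Agent.Lib.PgoPsi Cfsg.Agent.Lib.Hilbert90
  Cfsg.Agent.Lib.OrthoCount Cfsg.Agent.Lib.PgoGroup Cfsg.Agent.Lib.OrthoFinal Cfsg.Agent.Lib.PgoSim Cfsg.Agent.Lib.PgoSim.Data
  Cfsg.Agent.Lib.PgoClass Cfsg.Agent.Lib.PgoInndiag Cfsg.Agent.Lib.AutOrth

set_option maxHeartbeats 2000000 in

/-- A criterion for the failure of local balance in almost simple groups whose socle is a minus-type orthogonal group PΩ⁻_{2m+2}(F) (m ≥ 3; the form Σ xᵢ yᵢ + z₁² + a z₁ z₂ + b z₂² with anisotropic binary part). Let F be a finite field of characteristic r and K the (simple) group in question; let A be a group of automorphisms of K containing all inner automorphisms, and x ∈ A an automorphism of prime order p ≠ r that is not inner-diagonal (not induced by a class-preserving similarity, classes read over a quadratic extension).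 Then the largest normal subgroup of C_A(x) of order prime to p is nontrivial if and only if x is a field automorphism of K (conjugate under Aut(K) to a non-identity standard field automorphism) and p does not divide the number of fixed points of x on K. -/
theorem result {F : Type*} [Field F] [Fintype F] {r : ℕ} [Fact r.Prime] [CharP F r] {m : ℕ} (hm : 3 ≤ m) (a b : F) (hab : (∀ z₁ z₂ : F, z₁ ^ 2 + a * z₁ * z₂ + b * z₂ ^ 2 = 0 → z₁ = 0 ∧ z₂ = 0)) (hK : IsSimpleGroup (Cfsg.POmega F (Cfsg.quadFormMinus m F a b))) (A : Subgroup (MulAut (Cfsg.POmega F (Cfsg.quadFormMinus m F a b)))) (hinn : ∀ k : Cfsg.POmega F (Cfsg.quadFormMinus m F a b), MulAut.conj k ∈ A) {p : ℕ} [Fact p.Prime] (hpr : p ≠ r) (x : MulAut (Cfsg.POmega F (Cfsg.quadFormMinus m F a b))) (hxA : x ∈ A) (hord : orderOf x = p) (hnot : ¬ Cfsg.IsInnerDiagonalAutPOmegaMinus m a b x) :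
    Cfsg.pPrimeCore p ↥(A ⊓ Subgroup.centralizer {x}) ≠ ⊥ ↔ (Cfsg.IsFieldAutClassPOmegaMinus m x ∧ Nat.Coprime p (Nat.card ↥(MonoidHom.eqLocus x.toMonoidHom (MonoidHom.id (Cfsg.POmega F (Cfsg.quadFormMinus m F a b)))))) := by
  classical
  have hp : p.Prime := Fact.out
  obtain ⟨n, rfl⟩ : ∃ n, m = n + 2 := ⟨m - 2, by omega⟩
  have hm2 : 2 ≤ n + 2 := by omega
  have hΓ := minus_top hm a b hab
  have S := sys_minus hm2 hab
  obtain ⟨G, τ, h, rfl⟩ := gs_range x (by rw [hΓ]; trivial)
  have hy : (gs h) ^ p = 1 := by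
    rw [← hord]
    exact pow_orderOf_eq_one _
  have hτp : τ ^ p = 1 := by
    have hy' := hy
    rw [gs_pow] at hy'
    exact gs_eq_one_right S _ hy'
  by_cases hτ : τ = RingEquiv.refl F
  · subst hτ
    set g : CO (quadFormMinus (n + 2) F a b) := ⟨G, mem_CO_of_semisim h⟩ with hg
    have hx : gs h = psiO _ g := gs_eq_dl' h
    rcases Nat.even_or_odd (Fintype.card F) with h2 | hodd
    · exfalso
      have hnp : ¬ psiO _ g ∈ Inn (POmega F (quadFormMinus (n + 2) F a b)) := by
        intro hI
        exact hnot ⟨G, g.2, (preservesMinus_char2 h2 hm2 hab g).2 hI, gs_induced h⟩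
      apply hnp
      obtain ⟨D, hD⟩ := Cfsg.Agent.Lib.FieldPOm.exists_D_minus h2 a b hab n
      have S' := Cfsg.Agent.Lib.FieldPOm.sys_minus a b hab n
      obtain ⟨s, c, hgs⟩ := Cfsg.Agent.Lib.FieldPOm.exists_iso_two h2 S' D hD g
      have hsq : psiO _ (g * g) ∈ Inn (POmega F (quadFormMinus (n + 2) F a b)) := by
        rw [Cfsg.Agent.Lib.FieldPOm.co_inn_iff h2 S' D hD (g * g) (s * s) (c * c) (by
          change g.1 * g.1 = _
          have hgs' : g.1 = sc c * s.1 := hgs
          rw [hgs', sc_mul]
          change _ = sc c * sc c * (s.1 * s.1)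
          calc sc c * s.1 * (sc c * s.1) = sc c * (s.1 * sc c) * s.1 := by group
            _ = sc c * (sc c * s.1) * s.1 := by rw [sc_comm c s.1]
            _ = _ := by group)]
        rw [map_mul, map_mul]
        exact Int.units_mul_self _
      have hp2 : p ≠ 2 := by
        rintro rfl
        obtain ⟨k, hrp, hk⟩ := FiniteField.card F r
        rw [hk] at h2
        have h3 : Even r := (Nat.even_pow.1 h2).1
        have h4 : r = 2 := (Fact.out : r.Prime).even_iff.1 h3
        exact hpr h4.symm
      obtain ⟨t, ht⟩ := hp.odd_of_ne_two hp2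
      have e : psiO _ g = (psiO _ (g * g)) ^ (t + 1) := by
        rw [map_mul, ← _root_.sq, ← pow_mul, show 2 * (t + 1) = p + 1 by omega, pow_succ, ← map_pow, ← hx]
        rw [hx] at hy
        rw [map_pow, hy, one_mul]
      rw [e]
      exact pow_mem hsq _
    · obtain ⟨D, -⟩ := exists_data_minus hodd a b hab n
      have hδ : D.delta g ≠ 1 := by
        intro h1
        apply hnot
        refine ⟨G, g.2, ?_, gs_induced h⟩
        have hk := preserves_minus_iff D.hodd (two_ne D.hodd) a b hab g.1 (D.multC g).ne_zero (fun v => D.multC_spec g v)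
        exact hk.2 ((delta_eq_one_iff D g).1 h1)
      have hδ' : D.delta g = -1 := (D.delta_values g).resolve_left hδ
      have h1 : psiO _ (g ^ p) = 1 := by
        rw [map_pow, ← hx, hy]
      obtain ⟨k, hk⟩ := (D.psiO_eq_one_iff _).1 h1
      have h3 : D.delta g ^ p = 1 := by
        rw [← map_pow, hk, D.delta_scalC]
      rw [hδ'] at h3
      have hp2 : p = 2 := by
        by_contra hne
        have ho := hp.odd_of_ne_two hne
        rw [ho.neg_one_pow] at h3
        have h4 := congrArg Units.val h3
        have h5 : (-1 : F) = 1 := by simpa using h4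
        have h6 : (2 : F) = 0 := by linear_combination -h5
        exact two_ne D.hodd h6
      subst hp2
      have hcent := center_POmega_bot S hK
      constructor
      · intro hc
        exfalso
        obtain ⟨N, hN1, hN2, hN3⟩ := (core_ne_bot_iff' 2).1 hc
        exact hN3 (no_odd_core D hΓ hcent (by omega) g hδ' (l := k) (by rw [← _root_.sq]; exact hk) A hinn hx N hN1 hN2)
      · rintro ⟨⟨a', b', ψ, σ, hab', hσ, ha, hb, hφ⟩, -⟩
        exfalso
        have hI : InvAt (quadFormMinus (n + 2) F a' b') σ := invAt_minus ha hb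
        have hφ' := (isFieldAut_iff' hI _).1 hφ
        have S'' := sys_minus hm2 hab'
        have hord' : orderOf σ = 2 := by
          rw [← hord, ← orderOf_fb S'' hI, ← hφ']
          exact orderOf_trA ψ _
        exact Cfsg.Agent.Lib.FieldPOm.no_aniso_of_two hord' ha hb hab'
  · have hτo : orderOf τ = p := orderOf_eq_prime hτp hτ
    rcases hp.eq_two_or_odd' with rfl | hodd
    · exfalso
      have h2 : (2 : F) ≠ 0 := by
        intro h0
        have h3 : r ∣ 2 := (CharP.cast_eq_zero_iff F r 2).1 (by exact_mod_cast h0)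
        have h4 := (Nat.prime_dvd_prime_iff_eq (Fact.out) Nat.prime_two).1 h3
        exact hpr h4.symm
      exact no_semisim_two h2 hm2 hab hτo h (by
        rw [← _root_.sq]
        exact hy)
    · exact bal_field_odd hm hab hK A hinn hodd hτo h hy

end Cfsg.Agent.S2733
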