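import Cfsg.Statements.S2752
import Cfsg.Agent.Lib.TwoFactD3

set_option autoImplicit false
universe u
open Cfsg

namespace Cfsg.Agent.S2752

open Cfsg.Agent.Lib.TwoFactD3
open scoped commutatorElement

/-- Let M be an elementary abelian 2-subgroup of a finite group L and G a subgroup of L acting faithfully on M by conjugation (G normalizes M and meets C(M) trivially). Assume O₂(G) = 1, the symmetric group of degree 3 is not involved in G, and every non-abelian composition factor of G is a Suzuki group Sz(2^(2n+1)) or a group PSL₂(3^(2n+1)). Then every elementary abelian 2-subgroup A of G satisfies |M / C_M(A)| ≥ |A|² and |[M, A]| ≥ |A|². -/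
theorem result {L : Type u} [Group L] [Finite L] (M G : Subgroup L) (hM : Cfsg.IsElementaryAbelian 2 M) (hGM : G ≤ Subgroup.normalizer (M : Set L)) (hf : G ⊓ Subgroup.centralizer (M : Set L) = ⊥) (ha : Cfsg.pCore 2 ↥G = ⊥) (hb : ¬ Cfsg.Involves (Equiv.Perm (Fin 3)) ↥G) (hc : Cfsg.IsCompositionKGroupWith Cfsg.IsSuzukiOrPSL2OddPowerThree ↥G) (A : Subgroup L) (hA : A ≤ G) (hAe : Cfsg.IsElementaryAbelian 2 A) : Nat.card A ^ 2 * Nat.card ↥(M ⊓ Subgroup.centralizer (A : Set L)) ≤ Nat.card M ∧ Nat.card A ^ 2 ≤ Nat.card ↥⁅M, A⁆ := by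
  classical
  haveI : Fact (Nat.Prime 2) := ⟨Nat.prime_two⟩
  have hMc : ∀ x y : M, x * y = y * x := by
    intro x y
    exact hM.1.is_comm.comm x y
  have hMe : ∀ x : M, x * x = 1 := by
    intro x
    apply Subtype.ext
    have := hM.2 x x.2
    simpa [pow_two] using this
  have hAe' : ∀ a ∈ A, a * a = 1 := by
    intro a ha
    have := hAe.2 a ha
    rwa [pow_two] at this
  set act := conjAct M G hGM with hact
  have hinj : Function.Injective act := by
    rw [injective_iff_map_eq_one]
    intro g hg
    have hg' : (g : L) ∈ G ⊓ Subgroup.centralizer (M : Set L) := by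
      refine ⟨g.2, ?_⟩
      show (g : L) ∈ Subgroup.centralizer (M : Set L)
      rw [Subgroup.mem_centralizer_iff]
      intro m hm
      have h1 := DFunLike.congr_fun hg ⟨m, hm⟩
      have h2 : (g : L) * m * (g : L)⁻¹ = m := congrArg Subtype.val h1
      have h3 : (g : L) * m = (g : L) * m * (g : L)⁻¹ * (g : L) := by group
      rw [h2] at h3
      exact h3.symm
    rw [hf, Subgroup.mem_bot] at hg'
    exact Subtype.ext hg'
  set A' : Subgroup G := A.subgroupOf G with hA'
  have hcardA : Nat.card A' = Nat.card A := Nat.card_congr (Subgroup.subgroupOfEquivOfLe hA).toEquiv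
  have hAp : IsPGroup 2 A := by
    intro x
    refine ⟨1, ?_⟩
    apply Subtype.ext
    simpa [pow_two] using hAe' x x.2
  obtain ⟨n, hn⟩ := IsPGroup.iff_card.mp hAp
  have hA'e : ∀ a ∈ A', a * a = 1 := by
    intro a ha
    apply Subtype.ext
    exact hAe' _ (Subgroup.mem_subgroupOf.mp ha)
  obtain ⟨h1, h2⟩ := abstract_main hMc hMe act hinj ha hb (xd_of_comp hc) A' hA'e n (by rw [hcardA, hn])
  rw [← hn] at h1 h2
  constructor
  · refine le_trans (Nat.mul_le_mul_left _ ?_) h1
    refine Nat.card_le_card_of_injective (fun x => ⟨⟨x.1, x.2.1⟩, ?_⟩) ?_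
    · intro a ha
      apply Subtype.ext
      have h3 := Subgroup.mem_centralizer_iff.mp x.2.2 (a : L) (Subgroup.mem_subgroupOf.mp ha)
      show (a : L) * x.1 * (a : L)⁻¹ = x.1
      rw [h3]
      group
    · intro x y hxy
      have h3 := congrArg (fun z => ((z.1 : M) : L)) hxy
      exact Subtype.ext h3
  · refine le_trans h2 ?_
    have hmem : ∀ x ∈ Subgroup.closure {x : M | ∃ a ∈ A', ∃ v : M, x = act a v * v⁻¹},
        (x : L) ∈ ⁅M, A⁆ := by
      intro x hx
      induction hx using Subgroup.closure_induction with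
      | mem x hx =>
        obtain ⟨a, ha, v, rfl⟩ := hx
        rw [Subgroup.commutator_comm]
        have h3 := Subgroup.commutator_mem_commutator (Subgroup.mem_subgroupOf.mp ha) v.2
        have e : ((act a v * v⁻¹ : M) : L) = ⁅(a : L), (v : L)⁆ := by
          rw [commutatorElement_def]
          show (a : L) * v * (a : L)⁻¹ * (v : L)⁻¹ = _
          rfl
        rw [e]
        exact h3
      | one => exact Subgroup.one_mem _
      | mul x y _ _ hx hy => exact Subgroup.mul_mem _ hx hy
      | inv x _ hx => exact Subgroup.inv_mem _ hx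
    refine Nat.card_le_card_of_injective (fun x => ⟨(x.1 : L), hmem x.1 x.2⟩) ?_
    intro x y hxy
    have h3 := Subtype.ext_iff.mp hxy
    exact Subtype.ext (Subtype.ext h3)

end Cfsg.Agent.S2752
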