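import Mathlib
import Cfsg.Statements.S2896
import Cfsg.Agent.Lib.LocalBalance
import Cfsg.Agent.Lib.YTheory4
import Cfsg.Agent.Lib.CharTwoLocal
-- import your own Cfsg.Agent.* helpers here

set_option autoImplicit false
open Cfsg

namespace Cfsg.Agent.S2896

open Cfsg.Agent.Lib.PCore Cfsg.Agent.Lib.LocalCore Cfsg.Agent.Lib.LocalCore2
open Cfsg.Agent.Lib.PCompBasics Cfsg.Agent.Lib.SignalizerBW
open Cfsg.Agent.Lib.LocalBalance Cfsg.Agent.Lib.CharTwoLocal Cfsg.Agent.Lib.LocalLarge
open Cfsg.Agent.Lib.YTheory4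

section
variable {G : Type*} [Group G] [Finite G] {p : ℕ} [hp : Fact p.Prime]

local notation "N[" P "]" => Subgroup.normalizer ((P : Subgroup G) : Set G)

/-- helper30's argument with a prescribed central element. -/
theorem fstar_normalizer_of_central (t : G)
    (hX : generalizedFittingSubgroup ↥(Subgroup.centralizer ({t} : Set G)) =
      pCore p ↥(Subgroup.centralizer ({t} : Set G)))
    {T : Subgroup G} (hT : IsPGroup p T) (htT : t ∈ T) (htc : ∀ x ∈ T, x * t = t * x) :
    generalizedFittingSubgroup N[T] = pCore p N[T] := by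
  let X : Subgroup G := Subgroup.centralizer ({t} : Set G)
  have hTX : T ≤ X := by
    intro x hx
    rw [Subgroup.mem_centralizer_iff]
    rintro z rfl
    exact (htc x hx).symm
  have hC : Subgroup.centralizer (pCore p X : Set X) ≤ pCore p X := by
    rw [← hX]
    exact centralizer_generalizedFitting_le
  obtain ⟨hO₁, hL₁⟩ := fstar_normalizer hC (isPGroup_subgroupOf hT X)
  set J := Subgroup.normalizer (((T.subgroupOf X) : Subgroup X) : Set X) with hJ
  have hmemJ : ∀ y : J, ((y : X) : G) ∈ N[T] := by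
    intro y
    have h1 : (y : X) ∈ (Subgroup.normalizer (T : Set G)).subgroupOf X := by
      rw [Subgroup.subgroupOf_normalizer_eq hTX]
      exact y.2
    exact h1
  let i : J →* N[T] := (X.subtype.comp J.subtype).codRestrict N[T] hmemJ
  have hi : Function.Injective i := by
    intro a b hab
    have h1 : ((a : X) : G) = ((b : X) : G) := congrArg (fun z : N[T] => (z : G)) hab
    exact Subtype.ext (Subtype.ext h1)
  have hrange : ∀ y : N[T], (y : G) ∈ X → y ∈ i.range := by
    intro y hy
    have h1 : (⟨(y : G), hy⟩ : X) ∈ (Subgroup.normalizer (T : Set G)).subgroupOf X := y.2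
    rw [Subgroup.subgroupOf_normalizer_eq hTX] at h1
    exact ⟨⟨⟨y, hy⟩, h1⟩, Subtype.ext rfl⟩
  have hTn : (T.subgroupOf N[T]).Normal := subgroupOf_normalizer_normal T
  have hTp : IsPGroup p (T.subgroupOf N[T]) := isPGroup_subgroupOf hT _
  have htW : (⟨t, Subgroup.le_normalizer htT⟩ : N[T]) ∈ T.subgroupOf N[T] := htT
  apply fstar_eq_pCore_iff.mpr
  constructor
  · rw [eq_bot_iff]
    intro s hs
    have hcomm := pPrimeCore_commute_normal hTn hTp s hs _ htW
    have hsX : (s : G) ∈ X := by
      rw [Subgroup.mem_centralizer_iff]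
      rintro z rfl
      exact (congrArg Subtype.val hcomm).symm
    obtain ⟨y, rfl⟩ := hrange s hsX
    let Ô : Subgroup J := (pPrimeCore p N[T]).comap i
    have hÔn : Ô.Normal := (inferInstance : (pPrimeCore p N[T]).Normal).comap i
    have hÔc : (Nat.card Ô).Coprime p := by
      have h1 : Ô.map i ≤ pPrimeCore p N[T] := Subgroup.map_comap_le _ _
      have h2 := Subgroup.card_dvd_of_le h1
      rw [Subgroup.card_map_of_injective hi] at h2
      exact Nat.Coprime.coprime_dvd_left h2 (card_pPrimeCore_coprime p)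
    have h3 : y ∈ pPrimeCore p J := le_pPrimeCore hÔn hÔc hs
    rw [hO₁, Subgroup.mem_bot] at h3
    rw [h3, map_one]
    exact Subgroup.one_mem _
  · rw [eq_bot_iff]
    refine sSup_le fun L hL => ?_
    exfalso
    have hr : L ≤ i.range := by
      intro s hs
      apply hrange
      have hcomm := comp_commute_normal hL hTn hTp s hs _ htW
      rw [Subgroup.mem_centralizer_iff]
      rintro z rfl
      exact (congrArg Subtype.val hcomm).symm
    have h1 := comp_comap_of_le_range i hi hL hr
    have h2 := comp_le_layer h1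
    rw [hL₁, le_bot_iff] at h2
    exact comp_ne_bot h1 h2

theorem fs_iff (H : Subgroup G) :
    generalizedFittingSubgroup ↥H = pCore p ↥H ↔ CT p H := by
  constructor
  · intro h
    rw [CT_iff, ← h]
    exact centralizer_generalizedFitting_le
  · intro h
    exact generalizedFitting_eq_pCore (CT_iff.mp h)

theorem centralizer_conj (g z : G) :
    Subgroup.centralizer ({g * z * g⁻¹} : Set G) =
      cj g (Subgroup.centralizer ({z} : Set G)) := by
  ext x
  rw [mem_cj, Subgroup.mem_centralizer_singleton_iff, Subgroup.mem_centralizer_singleton_iff]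
  constructor
  · intro h
    calc g⁻¹ * x * g * z = g⁻¹ * (x * (g * z * g⁻¹)) * g := by group
      _ = g⁻¹ * ((g * z * g⁻¹) * x) * g := by rw [h]
      _ = _ := by group
  · intro h
    calc x * (g * z * g⁻¹) = g * ((g⁻¹ * x * g) * z) * g⁻¹ := by group
      _ = g * (z * (g⁻¹ * x * g)) * g⁻¹ := by rw [h]
      _ = _ := by group

theorem fs_conj (g z : G)
    (h : generalizedFittingSubgroup ↥(Subgroup.centralizer ({z} : Set G)) =
      pCore p ↥(Subgroup.centralizer ({z} : Set G))) :
    generalizedFittingSubgroup ↥(Subgroup.centralizer ({g * z * g⁻¹} : Set G)) =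
      pCore p ↥(Subgroup.centralizer ({g * z * g⁻¹} : Set G)) := by
  rw [fs_iff, centralizer_conj]
  exact CT_cj ((fs_iff _).mp h) g

theorem omega_props (S : Subgroup G) {z : G}
    (hz : z ∈ Cfsg.omegaOne p (S ⊓ Subgroup.centralizer (S : Set G))) :
    z ∈ S ∧ (∀ x ∈ S, x * z = z * x) ∧ z ^ p = 1 := by
  unfold Cfsg.omegaOne at hz
  induction hz using Subgroup.closure_induction with
  | mem x hx =>
    obtain ⟨⟨h1, h2⟩, h3⟩ := hx
    exact ⟨h1, fun y hy => Subgroup.mem_centralizer_iff.mp h2 y hy, h3⟩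
  | one => simp
  | mul x y _ _ hx hy =>
    refine ⟨S.mul_mem hx.1 hy.1, ?_, ?_⟩
    · intro a ha
      calc a * (x * y) = (a * x) * y := by group
        _ = (x * a) * y := by rw [hx.2.1 a ha]
        _ = x * (a * y) := by group
        _ = x * (y * a) := by rw [hy.2.1 a ha]
        _ = _ := by group
    · have hc : Commute x y := hy.2.1 x hx.1
      rw [hc.mul_pow, hx.2.2, hy.2.2, one_mul]
  | inv x _ hx =>
    refine ⟨S.inv_mem hx.1, ?_, ?_⟩
    · intro a ha
      have h1 := hx.2.1 a ha
      calc a * x⁻¹ = x⁻¹ * (x * a) * x⁻¹ := by group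
        _ = x⁻¹ * (a * x) * x⁻¹ := by rw [h1]
        _ = _ := by group
    · rw [inv_pow, hx.2.2, inv_one]

end

/-- Let p be a prime dividing the order of the finite group G, S a Sylow p-subgroup of G and X a subgroup of S. (i) If some nontrivial element z of the centre of X has F*(C_G(z)) = O_p(C_G(z)), then F*(N_G(X)) = O_p(N_G(X)). (ii) G has parabolic characteristic p if and only if F*(C_G(z)) = O_p(C_G(z)) for every nontrivial z ∈ Ω₁(Z(S)). (iii) If F*(C_G(z)) = O_p(C_G(z)) for every element z of S of order p, then G has local characteristic p. -/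
theorem result {G : Type*} [Group G] [Finite G] {p : ℕ} [Fact p.Prime] (hdiv : p ∣ Nat.card G) (S : Sylow p G) (X : Subgroup G) (hX : X ≤ (S : Subgroup G)) : (∀ z : G, z ≠ 1 → z ∈ X → (∀ x ∈ X, x * z = z * x) → Cfsg.generalizedFittingSubgroup ↥(Subgroup.centralizer ({z} : Set G)) = Cfsg.pCore p ↥(Subgroup.centralizer ({z} : Set G)) → Cfsg.generalizedFittingSubgroup ↥(Subgroup.normalizer (X : Set G)) = Cfsg.pCore p ↥(Subgroup.normalizer (X : Set G))) ∧ (Cfsg.IsOfParabolicCharacteristic p G ↔ ∀ z : G, z ≠ 1 → z ∈ Cfsg.omegaOne p ((S : Subgroup G) ⊓ Subgroup.centralizer ((S : Subgroup G) : Set G)) → Cfsg.generalizedFittingSubgroup ↥(Subgroup.centralizer ({z} : Set G)) = Cfsg.pCore p ↥(Subgroup.centralizer ({z} : Set G))) ∧ ((∀ z : G, z ∈ (S : Subgroup G) → orderOf z = p → Cfsg.generalizedFittingSubgroup ↥(Subgroup.centralizer ({z} : Set G)) = Cfsg.pCore p ↥(Subgroup.centralizer ({z} : Set G))) → Cfsg.IsOfLocalCharacteristic p G) := by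
  have hXp : IsPGroup p X := S.isPGroup'.to_le hX
  have hconj : ∀ (P : Sylow p G) (x : G), x ∈ (P : Subgroup G) → ∃ g : G, g⁻¹ * x * g ∈ (S : Subgroup G) ∧
      ∀ s ∈ (S : Subgroup G), g * s * g⁻¹ ∈ (P : Subgroup G) := by
    intro P x hx
    obtain ⟨g, hg⟩ := Cfsg.Agent.Lib.PResid.exists_conj_sylow S P
    have hgP : (P : Subgroup G) = cj g (S : Subgroup G) := hg
    refine ⟨g, ?_, ?_⟩
    · rw [hgP] at hx
      exact mem_cj.mp hx
    · intro s hs
      rw [hgP]
      exact mem_cj.mpr (by simpa [mul_assoc] using hs)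
  refine ⟨?_, ⟨?_, ?_⟩, ?_⟩
  · intro z _ hzX hzc hF
    exact fstar_normalizer_of_central z hF hXp hzX hzc
  · intro hpar z hz1 hzΩ
    obtain ⟨hzS, hzc, hzp⟩ := omega_props (S : Subgroup G) hzΩ
    have hord : orderOf z = p := orderOf_eq_prime hzp hz1
    have hRp : IsPGroup p (Subgroup.zpowers z) :=
      IsPGroup.of_card (n := 1) (by rw [Nat.card_zpowers, hord, pow_one])
    have hRne : Subgroup.zpowers z ≠ ⊥ := Subgroup.zpowers_ne_bot.mpr hz1
    have hCN : Subgroup.centralizer ({z} : Set G) ≤
        Subgroup.normalizer ((Subgroup.zpowers z : Subgroup G) : Set G) := by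
      intro x hx
      rw [Subgroup.mem_centralizer_singleton_iff] at hx
      apply cj_eq_iff.mp
      show (Subgroup.zpowers z).map (MulAut.conj x).toMonoidHom = _
      rw [MonoidHom.map_zpowers]
      show Subgroup.zpowers (x * z * x⁻¹) = _
      rw [hx]
      simp
    have hSN : (S : Subgroup G) ≤ Subgroup.normalizer ((Subgroup.zpowers z : Subgroup G) : Set G) := by
      intro x hx
      apply hCN
      rw [Subgroup.mem_centralizer_singleton_iff]
      exact hzc x hx
    have hCT : CT p (Subgroup.normalizer ((Subgroup.zpowers z : Subgroup G) : Set G)) :=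
      CT_iff.mpr (hpar _ hRp hRne ⟨S, hSN⟩)
    have hCe : Subgroup.centralizer ({z} : Set G) =
        Subgroup.centralizer ((Subgroup.zpowers z : Subgroup G) : Set G) := by
      ext x
      rw [Subgroup.mem_centralizer_singleton_iff, Subgroup.mem_centralizer_iff]
      constructor
      · intro h a ha
        obtain ⟨k, rfl⟩ := Subgroup.mem_zpowers_iff.mp ha
        have hc : Commute z x := h.symm
        exact hc.zpow_left k
      · intro h
        exact (h z (Subgroup.mem_zpowers z)).symm
    have hn : Subgroup.normalizer ((Subgroup.zpowers z : Subgroup G) : Set G) ≤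
        Subgroup.normalizer ((Subgroup.centralizer ({z} : Set G) : Subgroup G) : Set G) := by
      intro x hx
      apply cj_eq_iff.mp
      rw [hCe, ← cj_centralizer, cj_eq_iff.mpr hx]
    exact (fs_iff _).mpr (CT.of_normal hCT hCN hn)
  · intro h R hRp hRne hRpar
    obtain ⟨P, hPR⟩ := hRpar
    obtain ⟨x, hxR, hxo, hxc⟩ :=
      Cfsg.Agent.Lib.SEFusion.exists_order_p_central P.isPGroup' hRp hRne hPR
    have hRP : R ≤ (P : Subgroup G) := by
      refine (le_Oc Subgroup.le_normalizer hRp ?_).trans
        (Cfsg.Agent.Lib.YTheory.Oc_le_of_isSylowIn (Cfsg.Agent.Lib.YTheory.isSylowIn_of_le P hPR))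
      intro a ha b hb
      exact (Subgroup.mem_normalizer_iff.mp ha b).mp hb
    obtain ⟨g, hg1, hg2⟩ := hconj P x (hRP hxR)
    have hx1 : x ≠ 1 := by
      rintro rfl
      rw [orderOf_one] at hxo
      exact (Fact.out : p.Prime).one_lt.ne hxo
    have hz1 : g⁻¹ * x * g ≠ 1 := by
      intro h0
      apply hx1
      have : x = g * (g⁻¹ * x * g) * g⁻¹ := by group
      rw [this, h0]; group
    have hzΩ : g⁻¹ * x * g ∈ Cfsg.omegaOne p ((S : Subgroup G) ⊓ Subgroup.centralizer ((S : Subgroup G) : Set G)) := by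
      apply Subgroup.subset_closure
      refine ⟨Subgroup.mem_inf.mpr ⟨hg1, ?_⟩, ?_⟩
      · rw [Subgroup.mem_centralizer_iff]
        intro s hs
        have h1 := hxc _ (hg2 s hs)
        calc s * (g⁻¹ * x * g) = g⁻¹ * ((g * s * g⁻¹) * x) * g := by group
          _ = g⁻¹ * (x * (g * s * g⁻¹)) * g := by rw [h1]
          _ = _ := by group
      · have h2 : (g⁻¹ * x * g) ^ p = g⁻¹ * x ^ p * g := by
          have := conj_pow (a := g⁻¹) (b := x) (i := p)
          simpa using this
        rw [h2, ← hxo, pow_orderOf_eq_one]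
        group
    have hfs := fs_conj g _ (h _ hz1 hzΩ)
    have he : g * (g⁻¹ * x * g) * g⁻¹ = x := by group
    rw [he] at hfs
    have hfN := fstar_normalizer_of_central x hfs hRp hxR (fun y hy => hxc y (hRP hy))
    exact CT_iff.mp ((fs_iff _).mp hfN)
  · intro h
    refine ⟨hdiv, ?_⟩
    intro T hT hT1
    obtain ⟨t, htT, hto, htc⟩ := exists_central_order hT hT1
    obtain ⟨P, hP⟩ := hT.exists_le_sylow
    obtain ⟨g, hg1, _⟩ := hconj P t (hP htT)
    have hzo : orderOf (g⁻¹ * t * g) = p := by
      rw [← hto]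
      have := (MulAut.conj g⁻¹).orderOf_eq t
      simpa using this
    have hfs := fs_conj g _ (h _ hg1 hzo)
    have he : g * (g⁻¹ * t * g) * g⁻¹ = t := by group
    rw [he] at hfs
    have hfN := fstar_normalizer_of_central t hfs hT htT htc
    exact CT_iff.mp ((fs_iff _).mp hfN)

end Cfsg.Agent.S2896
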