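import Mathlib
import Cfsg.Statements.S2897
import Cfsg.Agent.Lib.LocalLarge
-- import your own Cfsg.Agent.* helpers here

set_option autoImplicit false
open Cfsg

namespace Cfsg.Agent.S2897

/-- Let p be a prime dividing the order of the finite group G, suppose G has parabolic characteristic p, let S be a Sylow p-subgroup of G and G₁ a normal subgroup of G. If Ω₁(Z(S ∩ G₁)) is nontrivial and contained in Ω₁(Z(S)), then G₁ has parabolic characteristic p. -/
theorem result {G : Type*} [Group G] [Finite G] {p : ℕ} [Fact p.Prime] (hdiv : p ∣ Nat.card G) (hG : Cfsg.IsOfParabolicCharacteristic p G) (S : Sylow p G) (G₁ : Subgroup G) [G₁.Normal] (hne : Cfsg.omegaOne p (((S : Subgroup G) ⊓ G₁) ⊓ Subgroup.centralizer (((S : Subgroup G) ⊓ G₁ : Subgroup G) : Set G)) ≠ ⊥) (hle : Cfsg.omegaOne p (((S : Subgroup G) ⊓ G₁) ⊓ Subgroup.centralizer (((S : Subgroup G) ⊓ G₁ : Subgroup G) : Set G)) ≤ Cfsg.omegaOne p ((S : Subgroup G) ⊓ Subgroup.centralizer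 ((S : Subgroup G) : Set G))) : Cfsg.IsOfParabolicCharacteristic p ↥G₁ := by
  classical
  intro R₁ hR₁p hR₁1 hpar
  set N₁ := Subgroup.normalizer (R₁ : Set ↥G₁) with hN₁
  obtain ⟨T₁, hT₁⟩ := hpar
  set R : Subgroup G := R₁.map G₁.subtype with hR
  set N : Subgroup G := N₁.map G₁.subtype with hN
  set T : Subgroup G := (T₁ : Subgroup G₁).map G₁.subtype with hT
  have hTp : IsPGroup p T := T₁.isPGroup'.map _
  have hRp : IsPGroup p R := hR₁p.map _
  have hR1 : R ≠ ⊥ := by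
    intro h
    apply hR₁1
    rw [hR, Subgroup.map_eq_bot_iff_of_injective _ G₁.subtype_injective] at h
    exact h
  -- description of `N`
  have hNmem : ∀ x : G, x ∈ N ↔ x ∈ G₁ ∧ x ∈ Subgroup.normalizer (R : Set G) := by
    intro x
    constructor
    · rintro ⟨y, hy, rfl⟩
      refine ⟨y.2, ?_⟩
      rw [Subgroup.mem_normalizer_iff]
      intro w
      constructor
      · rintro ⟨r, hr, rfl⟩
        exact ⟨y * r * y⁻¹, (Subgroup.mem_normalizer_iff.mp hy r).mp hr, rfl⟩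
      · rintro ⟨r, hr, hrw⟩
        have hw : w = (y⁻¹ * r * y : G₁) := by
          have : (y : G) * w * (y : G)⁻¹ = (r : G) := hrw.symm
          simp only [Subgroup.coe_mul, Subgroup.coe_inv]
          rw [← this]; group
        rw [hw]
        refine ⟨y⁻¹ * r * y, ?_, rfl⟩
        have := (Subgroup.mem_normalizer_iff.mp (N₁.inv_mem hy) r).mp hr
        simpa using this
    · rintro ⟨hx, hxn⟩
      refine ⟨⟨x, hx⟩, ?_, rfl⟩
      show (⟨x, hx⟩ : G₁) ∈ Subgroup.normalizer (R₁ : Set ↥G₁)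
      rw [Subgroup.mem_normalizer_iff]
      intro r
      have h1 := Subgroup.mem_normalizer_iff.mp hxn (r : G)
      constructor
      · intro hr
        obtain ⟨r', hr', he⟩ := h1.mp ⟨r, hr, rfl⟩
        have : r' = (⟨x, hx⟩ : G₁) * r * (⟨x, hx⟩ : G₁)⁻¹ := Subtype.ext he
        rwa [← this]
      · intro hr
        obtain ⟨r', hr', he⟩ := h1.mpr ⟨_, hr, rfl⟩
        have : r' = r := Subtype.ext he
        rwa [← this]
  have hNG₁ : N ≤ G₁ := Subgroup.map_subtype_le _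
  have hRN : R ≤ N := fun x hx => by
    rw [hNmem]
    exact ⟨(Subgroup.map_subtype_le _) hx, Subgroup.le_normalizer hx⟩
  have hTN : T ≤ N := Subgroup.map_mono hT₁
  set Y := Cfsg.Agent.Lib.CharTwoLocal.Oc p N with hY
  have hYp : IsPGroup p Y := Cfsg.Agent.Lib.CharTwoLocal.isPGroup_Oc p N
  have hNY : N ≤ Subgroup.normalizer (Y : Set G) := Cfsg.Agent.Lib.LocalLarge.le_normalizer_Oc N
  have hRY : R ≤ Y := Cfsg.Agent.Lib.CharTwoLocal.le_Oc hRN hRp
    (fun h hh x hx => (Subgroup.mem_normalizer_iff.mp ((hNmem h).mp hh).2 x).mp hx)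
  have hY1 : Y ≠ ⊥ := fun h => hR1 (by rw [eq_bot_iff, ← h]; exact hRY)
  have hYN : Y ≤ N := Cfsg.Agent.Lib.CharTwoLocal.Oc_le p N
  -- `T` is maximal among `p`-subgroups of `G₁`
  have hTmax : ∀ A : Subgroup G, IsPGroup p A → A ≤ G₁ → T ≤ A → A ≤ T := by
    intro A hA hAG hTA
    have h1 : IsPGroup p (A.subgroupOf G₁) := hA.comap_subtype
    have h2 : (T₁ : Subgroup G₁) ≤ A.subgroupOf G₁ := by
      intro x hx
      rw [Subgroup.mem_subgroupOf]
      exact hTA ⟨x, hx, rfl⟩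
    have h3 := T₁.is_maximal' h1 h2
    intro a ha
    have h4 : (⟨a, hAG ha⟩ : G₁) ∈ A.subgroupOf G₁ := Subgroup.mem_subgroupOf.mpr ha
    rw [h3] at h4
    exact ⟨_, h4, rfl⟩
  have hYT : Y ≤ T := by
    have h1 : IsPGroup p ↥(Y ⊔ T) :=
      IsPGroup.to_sup_of_normal_left' hYp hTp (hTN.trans hNY)
    have h2 := hTmax _ h1 (sup_le (hYN.trans hNG₁) (hTN.trans hNG₁)) le_sup_right
    exact le_sup_left.trans h2
  -- the element `z`
  obtain ⟨z, hzY, hzo, hzc⟩ := Cfsg.Agent.Lib.LocalLarge.exists_zc_central hYp hTp hY1 (hTN.trans hNY)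
  have hzT : z ∈ T := hYT hzY.1
  -- a Sylow subgroup of `G` over `T`; it is `g S g⁻¹`
  obtain ⟨S', hS'⟩ := hTp.exists_le_sylow
  obtain ⟨g, hg⟩ := MulAction.exists_smul_eq G S S'
  have hS'mem : ∀ x, x ∈ (S' : Subgroup G) ↔ g⁻¹ * x * g ∈ (S : Subgroup G) := by
    intro x
    rw [← hg, Sylow.smul_def, Sylow.pointwise_smul_def]
    exact Cfsg.Agent.Lib.LocalLarge.mem_cj
  have hS'G₁ : (S' : Subgroup G) ⊓ G₁ ≤ T :=
    hTmax _ (S'.isPGroup'.to_le inf_le_left) inf_le_right (le_inf hS' (hTN.trans hNG₁))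
  -- `z` is central in `S'`
  have hzS' : ∀ s ∈ (S' : Subgroup G), s * z = z * s := by
    set z' := g⁻¹ * z * g with hz'
    have hz'1 : z' ∈ (S : Subgroup G) := (hS'mem z).mp (hS' hzT)
    have hz'2 : z' ∈ G₁ := by
      have := ‹G₁.Normal›.conj_mem z (hNG₁ (hTN hzT)) g⁻¹
      simpa [hz'] using this
    have hz'c : ∀ s ∈ (S : Subgroup G) ⊓ G₁, s * z' = z' * s := by
      intro s hs
      have h1 : g * s * g⁻¹ ∈ T := hS'G₁ ⟨(hS'mem _).mpr (by
        have e : g⁻¹ * (g * s * g⁻¹) * g = s := by group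
        rw [e]; exact hs.1), by
        have := ‹G₁.Normal›.conj_mem s hs.2 g
        simpa using this⟩
      have h2 := hzc _ h1
      have e1 : g * (s * z') * g⁻¹ = (g * s * g⁻¹) * z := by rw [hz']; group
      have e2 : g * (z' * s) * g⁻¹ = z * (g * s * g⁻¹) := by rw [hz']; group
      have h3 : g * (s * z') * g⁻¹ = g * (z' * s) * g⁻¹ := by rw [e1, e2, h2]
      exact mul_left_cancel (mul_right_cancel h3)
    have hz'pow : z' ^ p = 1 := by
      have h0 : z' = g⁻¹ * z * g⁻¹⁻¹ := by rw [hz', inv_inv]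
      rw [h0, conj_pow, ← hzo, pow_orderOf_eq_one]
      group
    have hz'Ω : z' ∈ Cfsg.omegaOne p (((S : Subgroup G) ⊓ G₁) ⊓ Subgroup.centralizer (((S : Subgroup G) ⊓ G₁ : Subgroup G) : Set G)) := by
      apply Subgroup.subset_closure
      refine ⟨⟨⟨hz'1, hz'2⟩, ?_⟩, hz'pow⟩
      show z' ∈ Subgroup.centralizer _
      rw [Subgroup.mem_centralizer_iff]
      exact hz'c
    have h5 := hle hz'Ω
    have h6 : z' ∈ (S : Subgroup G) ⊓ Subgroup.centralizer ((S : Subgroup G) : Set G) := by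
      have hle2 : Cfsg.omegaOne p ((S : Subgroup G) ⊓ Subgroup.centralizer ((S : Subgroup G) : Set G)) ≤ (S : Subgroup G) ⊓ Subgroup.centralizer ((S : Subgroup G) : Set G) := by
        apply (Subgroup.closure_le _).mpr
        rintro x ⟨hx, -⟩
        exact hx
      exact hle2 h5
    intro s hs
    have h7 := Subgroup.mem_centralizer_iff.mp h6.2 _ ((hS'mem s).mp hs)
    have e1 : g⁻¹ * (s * z) * g = (g⁻¹ * s * g) * z' := by rw [hz']; group
    have e2 : g⁻¹ * (z * s) * g = z' * (g⁻¹ * s * g) := by rw [hz']; group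
    have h8 : g⁻¹ * (s * z) * g = g⁻¹ * (z * s) * g := by rw [e1, e2, h7]
    exact mul_left_cancel (mul_right_cancel h8)
  -- `X = N(⟨z⟩)` is parabolic
  have hzord : orderOf z = p := hzo
  set Z := Subgroup.zpowers z with hZ
  have hZp : IsPGroup p Z := Cfsg.Agent.Lib.SEFusion.isPGroup_zpowers hzo
  have hZ1 : Z ≠ ⊥ := Cfsg.Agent.Lib.SEFusion.zpowers_ne_bot_of_order hzo
  set X := Subgroup.normalizer (Z : Set G) with hX
  have hCZ : Subgroup.centralizer (Z : Set G) ≤ X := Subgroup.centralizer_le_normalizer _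
  have hmemCZ : ∀ s : G, s * z = z * s → s ∈ Subgroup.centralizer (Z : Set G) := by
    intro s hs
    rw [Subgroup.mem_centralizer_iff]
    rintro _ ⟨k, rfl⟩
    exact ((show Commute s z from hs).zpow_right k).symm.eq
  have hS'X : (S' : Subgroup G) ≤ X := fun s hs => hCZ (hmemCZ s (hzS' s hs))
  have hXchar : Cfsg.Agent.Lib.CharTwoLocal.CT p X := by
    have h1 := hG Z hZp hZ1 ⟨S', hS'X⟩
    intro x hx hc
    have h2 : (⟨x, hx⟩ : X) ∈ Subgroup.centralizer (pCore p ↥X : Set ↥X) := by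
      rw [Subgroup.mem_centralizer_iff]
      intro y hy
      apply Subtype.ext
      exact (hc y ⟨y, hy, rfl⟩).symm
    exact ⟨⟨x, hx⟩, h1 h2, rfl⟩
  -- `X ∩ G₁`
  have hXG : Cfsg.Agent.Lib.CharTwoLocal.CT p (X ⊓ G₁) :=
    Cfsg.Agent.Lib.CharTwoLocal.CT.of_normal hXchar inf_le_left (by
      intro x hx
      apply Cfsg.Agent.Lib.LocalLarge.cj_eq_iff.mp
      rw [Cfsg.Agent.Lib.LocalLarge.cj_inf, Cfsg.Agent.Lib.LocalLarge.cj_normal ‹G₁.Normal›,
        Cfsg.Agent.Lib.LocalLarge.cj_eq_self hx])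
  have hRT : R ≤ T := hRY.trans hYT
  have hRXG : R ≤ X ⊓ G₁ := le_inf ((hRT.trans hS').trans hS'X) (hRN.trans hNG₁)
  have hE := Cfsg.Agent.Lib.CharTwoLocal.CT.inf_normalizer hXG hRp hRXG
  set E := (X ⊓ G₁) ⊓ Subgroup.normalizer (R : Set G) with hEdef
  set D := N ⊓ Subgroup.centralizer (Y : Set G) with hD
  have hDE : D ≤ E := by
    intro d hd
    have h1 := (hNmem d).mp hd.1
    refine ⟨⟨hCZ (hmemCZ d ?_), h1.1⟩, h1.2⟩
    exact (Subgroup.mem_centralizer_iff.mp hd.2 z hzY.1).symm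
  have hEN : E ≤ N := fun e he => (hNmem e).mpr ⟨he.1.2, he.2⟩
  have hND : N ≤ Subgroup.normalizer (D : Set G) := by
    intro n hn
    apply Cfsg.Agent.Lib.LocalLarge.cj_eq_iff.mp
    rw [hD, Cfsg.Agent.Lib.LocalLarge.cj_inf, Cfsg.Agent.Lib.LocalLarge.cj_eq_self hn,
      Cfsg.Agent.Lib.LocalLarge.cj_eq_iff.mpr
        (Cfsg.Agent.Lib.LocalLarge.normalizer_le_normalizer_centralizer Y (hNY hn))]
  have hDchar : Cfsg.Agent.Lib.CharTwoLocal.CT p D :=
    Cfsg.Agent.Lib.CharTwoLocal.CT.of_normal hE hDE (hEN.trans hND)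
  have hDY : Cfsg.Agent.Lib.CharTwoLocal.Oc p D ≤ Y :=
    Cfsg.Agent.Lib.CharTwoLocal.Oc_le_Oc_of_normal inf_le_left hND
  have hDleY : D ≤ Y := by
    intro x hx
    apply hDY
    refine hDchar x hx (fun y hy => ?_)
    exact (Subgroup.mem_centralizer_iff.mp hx.2 y (hDY hy)).symm
  have hCT : Cfsg.Agent.Lib.CharTwoLocal.CT p N := by
    intro x hx hc
    apply hDleY
    refine ⟨hx, ?_⟩
    show x ∈ Subgroup.centralizer (Y : Set G)
    rw [Subgroup.mem_centralizer_iff]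
    intro y hy
    exact (hc y hy).symm
  have h1 := Cfsg.Agent.Lib.LocalLarge.centralizer_pCore_le_of_CT hCT
  exact Cfsg.Agent.Lib.CharPLocal.charP_congr
    (N₁.equivMapOfInjective G₁.subtype G₁.subtype_injective).symm h1

end Cfsg.Agent.S2897
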