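import Mathlib
import Cfsg.Statements.S2898
import Cfsg.Agent.Lib.LocalLarge
-- import your own Cfsg.Agent.* helpers here

set_option autoImplicit false
open Cfsg

namespace Cfsg.Agent.S2898

/-- Elements of two subgroups normalizing each other of coprime orders commute. -/
theorem commute_of_coprime {G : Type*} [Group G] {D E : Subgroup G}
    (h : Nat.Coprime (Nat.card D) (Nat.card E))
    (hDE : D ≤ Subgroup.normalizer (E : Set G)) (hED : E ≤ Subgroup.normalizer (D : Set G))
    {a b : G} (ha : a ∈ D) (hb : b ∈ E) : a * b = b * a := by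
  have hbot : D ⊓ E = ⊥ := Subgroup.inf_eq_bot_of_coprime h
  have h1 : a * b * a⁻¹ * b⁻¹ ∈ D ⊓ E := by
    constructor
    · have : b * a⁻¹ * b⁻¹ ∈ D := (Subgroup.mem_normalizer_iff.mp (hED hb) a⁻¹).mp (D.inv_mem ha)
      have e : a * b * a⁻¹ * b⁻¹ = a * (b * a⁻¹ * b⁻¹) := by group
      rw [e]; exact D.mul_mem ha this
    · have : a * b * a⁻¹ ∈ E := (Subgroup.mem_normalizer_iff.mp (hDE ha) b).mp hb
      exact E.mul_mem this (E.inv_mem hb)
  rw [hbot, Subgroup.mem_bot] at h1
  have e : a * b * a⁻¹ * b⁻¹ * (b * a) = a * b := by group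
  rw [← e, h1, one_mul]

/-- Let G be a finite group of even order with parabolic characteristic 2. If the centre of G ⧸ O(G) is trivial, then O(G) = 1. -/
theorem result {G : Type*} [Group G] [Finite G] (h2 : 2 ∣ Nat.card G) (hG : Cfsg.IsOfParabolicCharacteristic 2 G) [hN : (Cfsg.oddCore G).Normal] (hZ : Subgroup.center (G ⧸ Cfsg.oddCore G) = ⊥) : Cfsg.oddCore G = ⊥ := by
  classical
  haveI : Fact (Nat.Prime 2) := ⟨Nat.prime_two⟩
  obtain S₀ : Sylow 2 G := Classical.choice inferInstance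
  set O := Cfsg.oddCore G with hO
  have hOodd : Nat.Coprime (Nat.card O) 2 := Cfsg.Agent.Lib.PCore.card_pPrimeCore_coprime 2
  have hOeq : ∀ a ∈ O, a ^ 2 = 1 → a = 1 := by
    intro a ha h2
    have h1 : orderOf a ∣ Nat.card O := Subgroup.orderOf_dvd_natCard O ha
    have h3 : orderOf a ∣ 2 := orderOf_dvd_of_pow_eq_one h2
    have h4 : orderOf a ∣ 1 := by
      have := Nat.dvd_gcd h1 h3
      rwa [hOodd] at this
    exact orderOf_eq_one_iff.mp (Nat.dvd_one.mp h4)
  -- Step 1: central involutions of Sylow subgroups invert `O`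
  have step1 : ∀ (S : Sylow 2 G) (z : G), z ∈ (S : Subgroup G) → orderOf z = 2 →
      (∀ s ∈ (S : Subgroup G), s * z = z * s) → ∀ a ∈ O, z * a * z⁻¹ = a⁻¹ := by
    intro S z hzS hzo hzc
    set R := Subgroup.zpowers z with hR
    have hRp : IsPGroup 2 R := Cfsg.Agent.Lib.SEFusion.isPGroup_zpowers hzo
    have hR1 : R ≠ ⊥ := Cfsg.Agent.Lib.SEFusion.zpowers_ne_bot_of_order hzo
    set X := Subgroup.normalizer (R : Set G) with hX
    have hCR : Subgroup.centralizer (R : Set G) ≤ X := Subgroup.centralizer_le_normalizer _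
    have hSC : (S : Subgroup G) ≤ Subgroup.centralizer (R : Set G) := by
      intro s hs
      rw [Subgroup.mem_centralizer_iff]
      rintro _ ⟨k, rfl⟩
      exact ((show Commute s z from hzc s hs).zpow_right k).symm.eq
    have hpar : Cfsg.IsParabolic 2 X := ⟨S, hSC.trans hCR⟩
    have hchar := hG R hRp hR1 hpar
    -- `D = C_O(z)` is trivial
    set D := O ⊓ Subgroup.centralizer (R : Set G) with hD
    have hDX : D ≤ X := inf_le_right.trans hCR
    have hXD : X ≤ Subgroup.normalizer (D : Set G) := by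
      intro x hx
      apply Cfsg.Agent.Lib.LocalLarge.cj_eq_iff.mp
      rw [hD, Cfsg.Agent.Lib.LocalLarge.cj_inf]
      have e1 : Cfsg.Agent.Lib.LocalLarge.cj x O = O := Cfsg.Agent.Lib.LocalLarge.cj_normal hN x
      have e2 := Cfsg.Agent.Lib.LocalLarge.cj_eq_iff.mpr
        (Cfsg.Agent.Lib.LocalLarge.normalizer_le_normalizer_centralizer R hx)
      rw [e1, e2]
    have hDcard : Nat.Coprime (Nat.card D) 2 :=
      Nat.Coprime.coprime_dvd_left (Subgroup.card_dvd_of_le inf_le_left) hOodd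
    have hDbot : ∀ a ∈ D, a = 1 := by
      intro a ha
      have hOc : IsPGroup 2 (Cfsg.Agent.Lib.CharTwoLocal.Oc 2 X) := Cfsg.Agent.Lib.CharTwoLocal.isPGroup_Oc 2 X
      have hcop : Nat.Coprime (Nat.card D) (Nat.card (Cfsg.Agent.Lib.CharTwoLocal.Oc 2 X)) := by
        obtain ⟨n, hn⟩ := IsPGroup.iff_card.mp hOc
        rw [hn]
        exact Nat.Coprime.pow_right n hDcard
      have h1 : ∀ b ∈ Cfsg.Agent.Lib.CharTwoLocal.Oc 2 X, a * b = b * a := by
        intro b hb
        exact commute_of_coprime hcop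
          (hDX.trans (Cfsg.Agent.Lib.LocalLarge.le_normalizer_Oc X))
          ((Cfsg.Agent.Lib.CharTwoLocal.Oc_le 2 X).trans hXD) ha hb
      have haX : a ∈ X := hDX ha
      have h2 : (⟨a, haX⟩ : X) ∈ Subgroup.centralizer (Cfsg.pCore 2 ↥X : Set ↥X) := by
        rw [Subgroup.mem_centralizer_iff]
        intro y hy
        apply Subtype.ext
        exact (h1 y ⟨y, hy, rfl⟩).symm
      have h3 := hchar h2
      have h4 : a ∈ Cfsg.Agent.Lib.CharTwoLocal.Oc 2 X := ⟨⟨a, haX⟩, h3, rfl⟩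
      obtain ⟨k, hk⟩ := IsPGroup.iff_orderOf.mp hOc ⟨a, h4⟩
      rw [Subgroup.orderOf_mk] at hk
      have h5 : orderOf a ∣ Nat.card D := Subgroup.orderOf_dvd_natCard D ha
      have h6 : orderOf a ∣ 2 ^ k := hk ▸ dvd_rfl
      have h7 : orderOf a ∣ 1 := by
        have := Nat.dvd_gcd h5 h6
        rwa [Nat.Coprime.pow_right k hDcard] at this
      exact orderOf_eq_one_iff.mp (Nat.dvd_one.mp h7)
    -- fixed point free action
    let φ : MulAut O := MulAut.conjNormal z
    have hφ : ∀ a : O, ((φ a : O) : G) = z * (a : G) * z⁻¹ := fun a => MulAut.conjNormal_apply z a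
    have hz2 : z * z = 1 := by
      have := pow_orderOf_eq_one z
      rw [hzo, pow_two] at this
      exact this
    have hzinv : z⁻¹ = z := inv_eq_of_mul_eq_one_left hz2
    have hfpf : MonoidHom.FixedPointFree (φ : O → O) := by
      intro a ha
      apply Subtype.ext
      apply hDbot
      refine ⟨a.2, ?_⟩
      have h1 : z * (a : G) * z⁻¹ = a := by
        rw [← hφ, ha]
      show (a : G) ∈ Subgroup.centralizer (R : Set G)
      rw [Subgroup.mem_centralizer_iff]
      rintro _ ⟨k, rfl⟩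
      have h2 : z * (a : G) = a * z := by
        calc z * (a : G) = (z * a * z⁻¹) * z := by group
          _ = a * z := by rw [h1]
      exact ((show Commute z (a : G) from h2).zpow_left k).eq
    have hinv : Function.Involutive (φ : O → O) := by
      intro a
      apply Subtype.ext
      rw [hφ, hφ, hzinv]
      calc z * (z * (a : G) * z) * z = (z * z) * a * (z * z) := by group
        _ = a := by rw [hz2]; group
    have hcoe := MonoidHom.FixedPointFree.coe_eq_inv_of_involutive hfpf hinv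
    intro a ha
    have h1 := congrFun hcoe ⟨a, ha⟩
    have h2 := congrArg Subtype.val h1
    rw [hφ] at h2
    exact h2
  -- `z` exists
  have hS₀1 : (S₀ : Subgroup G) ≠ ⊥ := S₀.ne_bot_of_dvd_card h2
  obtain ⟨z, hzS, hzo, hzc⟩ := Cfsg.Agent.Lib.SEFusion.exists_order_p_central S₀.isPGroup'
    S₀.isPGroup' hS₀1 Subgroup.le_normalizer
  have hz2 : z * z = 1 := by
    have := pow_orderOf_eq_one z
    rw [hzo, pow_two] at this
    exact this
  have hzinv : z⁻¹ = z := inv_eq_of_mul_eq_one_left hz2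
  have hzi := step1 S₀ z hzS hzo hzc
  -- `O` is abelian: `K = C(O)` contains `O`
  set K := Subgroup.centralizer (O : Set G) with hK
  have hKn : K.Normal := Subgroup.normal_centralizer
  by_cases hKd : 2 ∣ Nat.card K
  · -- an involution in `K ∩ Z(S)`
    obtain ⟨T, hT⟩ := Cfsg.Agent.Lib.ClassicalSE.exists_sylow_normal_le K S₀
    have hT1 : (T : Subgroup K) ≠ ⊥ := T.ne_bot_of_dvd_card hKd
    set A : Subgroup G := (S₀ : Subgroup G) ⊓ K with hA
    have hA1 : A ≠ ⊥ := by
      intro h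
      apply hT1
      rw [eq_bot_iff]
      intro x hx
      have hxA : (x : G) ∈ A := ⟨hT ⟨x, hx, rfl⟩, x.2⟩
      rw [h, Subgroup.mem_bot] at hxA
      exact Subtype.ext hxA
    have hAn : (S₀ : Subgroup G) ≤ Subgroup.normalizer (A : Set G) := by
      intro s hs
      apply Cfsg.Agent.Lib.LocalLarge.cj_eq_iff.mp
      rw [hA, Cfsg.Agent.Lib.LocalLarge.cj_inf, Cfsg.Agent.Lib.LocalLarge.cj_normal hKn,
        Cfsg.Agent.Lib.LocalLarge.cj_eq_self hs]
    obtain ⟨w, hwA, hwo, hwc⟩ := Cfsg.Agent.Lib.SEFusion.exists_order_p_central S₀.isPGroup'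
      (S₀.isPGroup'.to_le inf_le_left) hA1 hAn
    have hwi := step1 S₀ w hwA.1 hwo hwc
    rw [eq_bot_iff]
    intro a ha
    rw [Subgroup.mem_bot]
    apply hOeq a ha
    have h1 := hwi a ha
    have h2 : w * a = a * w := (Subgroup.mem_centralizer_iff.mp hwA.2 a ha).symm
    have h3 : a = a⁻¹ := by
      calc a = w * a * w⁻¹ := by rw [h2]; group
        _ = a⁻¹ := h1
    rw [pow_two]
    nth_rw 1 [h3]
    group
  · -- `K` has odd order, hence `K ≤ O`
    exfalso
    have hKO : K ≤ O := by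
      refine Cfsg.Agent.Lib.PCore.le_pPrimeCore hKn ?_
      rw [Nat.coprime_comm, Nat.Prime.coprime_iff_not_dvd Nat.prime_two]
      exact hKd
    have hzc' : ∀ g : G, z⁻¹ * (g * z * g⁻¹) ∈ K := by
      intro g
      rw [hK, Subgroup.mem_centralizer_iff]
      intro a ha
      have hb : g⁻¹ * a * g ∈ O := by
        have := hN.conj_mem a ha g⁻¹
        simpa using this
      have h1 := hzi _ hb
      have h2 := hzi a ha
      have h3 : (g * z * g⁻¹) * a * (g * z * g⁻¹)⁻¹ = a⁻¹ := by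
        calc (g * z * g⁻¹) * a * (g * z * g⁻¹)⁻¹ = g * (z * (g⁻¹ * a * g) * z⁻¹) * g⁻¹ := by group
          _ = g * (g⁻¹ * a * g)⁻¹ * g⁻¹ := by rw [h1]
          _ = a⁻¹ := by group
      have h4 : z⁻¹ * a⁻¹ * z = a := by
        rw [hzinv]
        have : z * a⁻¹ * z⁻¹ = a := by
          have h5 : z * a⁻¹ * z⁻¹ = (z * a * z⁻¹)⁻¹ := by group
          rw [h5, h2, inv_inv]
        rwa [hzinv] at this
      calc a * (z⁻¹ * (g * z * g⁻¹)) = (z⁻¹ * (g * z * g⁻¹)) * ((g * z * g⁻¹)⁻¹ * z * a * z⁻¹ * (g * z * g⁻¹)) := by group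
        _ = (z⁻¹ * (g * z * g⁻¹)) * ((g * z * g⁻¹)⁻¹ * (z * a * z⁻¹) * (g * z * g⁻¹)) := by group
        _ = (z⁻¹ * (g * z * g⁻¹)) * ((g * z * g⁻¹)⁻¹ * a⁻¹ * (g * z * g⁻¹)) := by rw [h2]
        _ = (z⁻¹ * (g * z * g⁻¹)) * a := by
          have h6 : (g * z * g⁻¹)⁻¹ * a⁻¹ * (g * z * g⁻¹) = a := by
            have h7 := h3
            have : a⁻¹ = (g * z * g⁻¹) * a * (g * z * g⁻¹)⁻¹ := h7.symm
            rw [this]; group
          rw [h6]
    have hcen : (z : G ⧸ O) ∈ Subgroup.center (G ⧸ O) := by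
      rw [Subgroup.mem_center_iff]
      intro q
      obtain ⟨g, rfl⟩ := QuotientGroup.mk_surjective q
      show ((g * z : G) : G ⧸ O) = ((z * g : G) : G ⧸ O)
      rw [QuotientGroup.eq]
      have h1 := hKO (hzc' g⁻¹)
      have e : (g * z)⁻¹ * (z * g) = (z⁻¹ * (g⁻¹ * z * g⁻¹⁻¹)) := by
        group
      rw [e]; exact h1
    rw [hZ, Subgroup.mem_bot] at hcen
    have hzO : z ∈ O := (QuotientGroup.eq_one_iff z).mp hcen
    have := hOeq z hzO (by rw [pow_two]; exact hz2)
    rw [this, orderOf_one] at hzo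
    exact absurd hzo (by norm_num)

end Cfsg.Agent.S2898
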