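import Mathlib
import Cfsg.Statements.S2907

set_option autoImplicit false
open Cfsg

namespace Cfsg.Agent.S2907

open scoped commutatorElement

/-- Let X be a finite semi-extraspecial p-group and x an element of X outside the centre. Then the index of C_X(x) in X equals the order of Z(X), and the commutators [x, y], y ∈ X, form exactly the centre Z(X). -/
theorem result {X : Type*} [Group X] [Finite X] {p : ℕ} [Fact p.Prime] (hX : Cfsg.IsSemiExtraspecial p X) (x : X) (hx : x ∉ Subgroup.center X) : (Subgroup.centralizer ({x} : Set X)).index = Nat.card ↥(Subgroup.center X) ∧ {z : X | ∃ y : X, z = x * y * x⁻¹ * y⁻¹} = (Subgroup.center X : Set X) := by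
  classical
  obtain ⟨⟨hp, hfrat, hcomm⟩, hYs⟩ := hX
  set Z : Subgroup X := Subgroup.center X with hZdef
  have hcZ : ∀ y : X, x * y * x⁻¹ * y⁻¹ ∈ Z := by
    intro y
    rw [← hcomm]
    exact Subgroup.commutator_mem_commutator (Subgroup.mem_top _) (Subgroup.mem_top _)
  have hcent : ∀ (z w : X), z ∈ Z → z * w = w * z := by
    intro z w hz
    exact (Subgroup.mem_center_iff.mp hz w).symm
  -- the commutator homomorphism
  let f : X →* ↥Z :=
    { toFun := fun y => ⟨x * y * x⁻¹ * y⁻¹, hcZ y⟩
      map_one' := by apply Subtype.ext; simp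
      map_mul' := by
        intro y w
        apply Subtype.ext
        show x * (y * w) * x⁻¹ * (y * w)⁻¹ = (x * y * x⁻¹ * y⁻¹) * (x * w * x⁻¹ * w⁻¹)
        have h1 := hcent _ y (hcZ w)
        have h2 : y * (x * w * x⁻¹ * w⁻¹) * y⁻¹ = x * w * x⁻¹ * w⁻¹ := by
          rw [← h1]; group
        calc x * (y * w) * x⁻¹ * (y * w)⁻¹
            = (x * y * x⁻¹ * y⁻¹) * (y * (x * w * x⁻¹ * w⁻¹) * y⁻¹) := by group
          _ = _ := by rw [h2] }
  have hfval : ∀ y, ((f y : ↥Z) : X) = x * y * x⁻¹ * y⁻¹ := fun y => rfl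
  have hker : f.ker = Subgroup.centralizer ({x} : Set X) := by
    ext y
    rw [MonoidHom.mem_ker, Subgroup.mem_centralizer_singleton_iff]
    constructor
    · intro h
      have h1 : x * y * x⁻¹ * y⁻¹ = 1 := by
        exact congrArg Subtype.val h
      have h2 : x * y * x⁻¹ = y := by rwa [mul_inv_eq_one] at h1
      rw [mul_inv_eq_iff_eq_mul] at h2
      exact h2.symm
    · intro h
      apply Subtype.ext
      show x * y * x⁻¹ * y⁻¹ = 1
      rw [← h]; group
  have hrange : f.range = ⊤ := by
    by_contra hne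
    obtain ⟨M, hM, hfM⟩ : ∃ M : Subgroup ↥Z, IsCoatom M ∧ f.range ≤ M := by
      rcases eq_top_or_exists_le_coatom f.range with h | h
      · exact absurd h hne
      · exact h
    set Y : Subgroup X := M.map Z.subtype with hYdef
    have hYZ : Y ≤ Z := Subgroup.map_subtype_le _
    have hYco : Y.subgroupOf Z = M := by
      rw [hYdef]
      exact Subgroup.comap_map_eq_self_of_injective Z.subtype_injective M
    obtain ⟨hYn, hext⟩ := hYs Y hYZ (by rw [hYco]; exact hM)
    -- `x̄` is central in `X / Y`.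
    have hxc : (QuotientGroup.mk x : X ⧸ Y) ∈ Subgroup.center (X ⧸ Y) := by
      rw [Subgroup.mem_center_iff]
      intro b
      obtain ⟨y, rfl⟩ := QuotientGroup.mk_surjective b
      have hy : x * y * x⁻¹ * y⁻¹ ∈ Y := by
        have h1 : f y ∈ M := hfM ⟨y, rfl⟩
        exact ⟨_, h1, rfl⟩
      have : (QuotientGroup.mk (x * y * x⁻¹ * y⁻¹) : X ⧸ Y) = 1 :=
        (QuotientGroup.eq_one_iff _).mpr hy
      simp only [QuotientGroup.mk_mul, QuotientGroup.mk_inv] at this
      have h3 : (QuotientGroup.mk x : X ⧸ Y) * QuotientGroup.mk y * (QuotientGroup.mk x)⁻¹ = QuotientGroup.mk y := by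
        rwa [mul_inv_eq_one] at this
      rw [mul_inv_eq_iff_eq_mul] at h3
      exact h3.symm
    -- the image of `Z` is the centre.
    have hcard : Nat.card (Subgroup.center (X ⧸ Y)) = p := hext.2
    have himg : Z.map (QuotientGroup.mk' Y) ≤ Subgroup.center (X ⧸ Y) := by
      rintro _ ⟨z, hz, rfl⟩
      rw [Subgroup.mem_center_iff]
      intro b
      obtain ⟨y, rfl⟩ := QuotientGroup.mk_surjective b
      show QuotientGroup.mk y * QuotientGroup.mk z = QuotientGroup.mk z * (QuotientGroup.mk y : X ⧸ Y)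
      rw [← QuotientGroup.mk_mul, ← QuotientGroup.mk_mul, ← hcent z y hz]
    obtain ⟨z, hz⟩ : ∃ z : ↥Z, z ∉ M := by
      by_contra hall
      push Not at hall
      exact hM.1 (by rw [eq_top_iff]; intro z _; exact hall z)
    have hzY : (z : X) ∉ Y := by
      rintro ⟨w, hw, he⟩
      have : w = z := Subtype.ext he
      exact hz (this ▸ hw)
    have himgne : Z.map (QuotientGroup.mk' Y) ≠ ⊥ := by
      intro h0
      have : (QuotientGroup.mk' Y) (z : X) ∈ Z.map (QuotientGroup.mk' Y) := ⟨z, z.2, rfl⟩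
      rw [h0, Subgroup.mem_bot] at this
      exact hzY ((QuotientGroup.eq_one_iff _).mp this)
    have hpf : Fact p.Prime := inferInstance
    have himgeq : Z.map (QuotientGroup.mk' Y) = Subgroup.center (X ⧸ Y) := by
      have hdvd : Nat.card ↥(Z.map (QuotientGroup.mk' Y)) ∣ p := by
        rw [← hcard]; exact Subgroup.card_dvd_of_le himg
      rcases (Nat.dvd_prime hpf.out).mp hdvd with h1 | h1
      · exact absurd (Subgroup.eq_bot_of_card_eq _ h1) himgne
      · apply Subgroup.eq_of_le_of_card_ge himg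
        rw [hcard, h1]
    have hxmem : (QuotientGroup.mk' Y) x ∈ Z.map (QuotientGroup.mk' Y) := by
      rw [himgeq]; exact hxc
    obtain ⟨z', hz', he⟩ := hxmem
    have h4 : z'⁻¹ * x ∈ Y := by
      have : (QuotientGroup.mk z' : X ⧸ Y) = QuotientGroup.mk x := he
      exact QuotientGroup.eq.mp this
    have h5 : x = z' * (z'⁻¹ * x) := by group
    apply hx
    rw [h5]
    exact Z.mul_mem hz' (hYZ h4)
  constructor
  · rw [← hker, Subgroup.index_ker, hrange]
    exact Nat.card_congr (Subgroup.topEquiv (G := ↥Z)).toEquiv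
  · ext z
    constructor
    · rintro ⟨y, rfl⟩
      exact hcZ y
    · intro hz
      have : (⟨z, hz⟩ : ↥Z) ∈ f.range := by rw [hrange]; trivial
      obtain ⟨y, hy⟩ := this
      exact ⟨y, (congrArg Subtype.val hy).symm⟩


end Cfsg.Agent.S2907
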