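import Mathlib
import Cfsg.Statements.S2908
import Cfsg.Agent.Lib.Frat
import Cfsg.Agent.Lib.Glauberman

set_option autoImplicit false
open Cfsg

namespace Cfsg.Agent.S2908

open scoped commutatorElement

/-- Let P be a p-subgroup of a finite group, normalized by a p-subgroup A and by a subgroup B of order prime to p that commutes elementwise with A. If [P, B] ≤ [P, A], then B centralizes P. -/
theorem result {G : Type*} [Group G] [Finite G] {p : ℕ} [Fact p.Prime] (P A B : Subgroup G) (hP : IsPGroup p ↥P) (hA : IsPGroup p ↥A) (hB : ¬ p ∣ Nat.card ↥B) (hnA : A ≤ Subgroup.normalizer (P : Set G)) (hnB : B ≤ Subgroup.normalizer (P : Set G)) (hAB : ⁅A, B⁆ = ⊥) (hcomm : ⁅P, B⁆ ≤ ⁅P, A⁆) : ⁅P, B⁆ = ⊥ := by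
  classical
  set K : Subgroup G := P ⊔ A with hK
  have hKp : IsPGroup p K := hP.to_sup_of_normal_left' hA hnA
  have hABe := Subgroup.commutator_eq_bot_iff_le_centralizer.mp hAB
  have hab : ∀ a ∈ A, ∀ b ∈ B, a * b = b * a := fun a ha b hb =>
    (Subgroup.mem_centralizer_iff.mp (hABe ha) b hb).symm
  have hPK : P ≤ K := le_sup_left
  have hAK : A ≤ K := le_sup_right
  have hmul : ∀ k ∈ K, ∃ x ∈ P, ∃ a ∈ A, k = x * a := by
    intro k hk
    have hk' : k ∈ ((P ⊔ A : Subgroup G) : Set G) := hk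
    rw [Subgroup.coe_mul_of_right_le_normalizer_left P A hnA] at hk'
    obtain ⟨x, hx, a, ha, rfl⟩ := hk'
    exact ⟨x, hx, a, ha, rfl⟩
  have hBK : B ≤ Subgroup.normalizer (K : Set G) := by
    rw [Subgroup.le_normalizer_iff]
    intro b hb k hk
    obtain ⟨x, hx, a, ha, rfl⟩ := hmul k hk
    have h1 : b * x * b⁻¹ ∈ P := (Subgroup.mem_normalizer_iff.mp (hnB hb) x).mp hx
    have e : b * (x * a) * b⁻¹ = (b * x * b⁻¹) * a := by
      have := hab a ha b hb
      calc b * (x * a) * b⁻¹ = b * x * a * b⁻¹ := by group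
        _ = b * x * (a * b⁻¹) := by group
        _ = b * x * (b⁻¹ * a) := by
            congr 1
            have h2 : a * b⁻¹ = b⁻¹ * (b * a) * b⁻¹ := by group
            rw [h2, ← this]; group
        _ = _ := by group
    rw [e]
    exact K.mul_mem (hPK h1) (hAK ha)
  -- commutators `[P, A]` lie in the Frattini subgroup of `K`.
  have hPA : ⁅P, A⁆ ≤ (frattini ↥K).map K.subtype := by
    rw [Subgroup.commutator_le]
    intro x hx a ha
    have h1 : ⁅(⟨x, hPK hx⟩ : ↥K), (⟨a, hAK ha⟩ : ↥K)⁆ ∈ frattini ↥K :=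
      Cfsg.Agent.Lib.Frat.commutator_le_frattini hKp
        (Subgroup.commutator_mem_commutator (Subgroup.mem_top _) (Subgroup.mem_top _))
    exact ⟨_, h1, rfl⟩
  have hcop : (Nat.card B).Coprime (Nat.card (frattini ↥K)) := by
    have hp' : IsPGroup p (frattini ↥K) := (hKp.to_subgroup _)
    obtain ⟨n, hn⟩ := IsPGroup.iff_card.mp hp'
    rw [hn]
    apply Nat.Coprime.pow_right
    exact ((Nat.Prime.coprime_iff_not_dvd Fact.out).mpr hB).symm
  have htriv : ∀ b ∈ B, ∀ k ∈ K, b * k * b⁻¹ * k⁻¹ ∈ (frattini ↥K).map K.subtype := by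
    intro b hb k hk
    obtain ⟨x, hx, a, ha, rfl⟩ := hmul k hk
    have h1 : x * b * x⁻¹ * b⁻¹ ∈ ⁅P, B⁆ := Subgroup.commutator_mem_commutator hx hb
    have h2 := hPA (hcomm h1)
    have e : b * (x * a) * b⁻¹ * (x * a)⁻¹ = (x * b * x⁻¹ * b⁻¹)⁻¹ := by
      have := hab a ha b hb
      have h3 : a * b⁻¹ * a⁻¹ = b⁻¹ := by
        have h4 : a * b⁻¹ = b⁻¹ * (b * a) * b⁻¹ := by group
        rw [h4, ← this]; group
      calc b * (x * a) * b⁻¹ * (x * a)⁻¹ = b * x * (a * b⁻¹ * a⁻¹) * x⁻¹ := by group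
        _ = b * x * b⁻¹ * x⁻¹ := by rw [h3]
        _ = _ := by group
    rw [e]
    exact Subgroup.inv_mem _ h2
  have hfin := Cfsg.Agent.Lib.Glauberman.le_centralizer_of_frattini hBK hcop htriv
  rw [Subgroup.commutator_eq_bot_iff_le_centralizer]
  intro x hx
  rw [Subgroup.mem_centralizer_iff]
  intro b hb
  exact (Subgroup.mem_centralizer_iff.mp (hfin hb) x (hPK hx)).symm


end Cfsg.Agent.S2908
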