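import Mathlib
import Cfsg.Statements.S2909
import Cfsg.Agent.Lib.CoprimeHyper
import Cfsg.Agent.Lib.CompFitting
import Cfsg.Agent.Lib.CharPLocal
import Cfsg.Agent.Lib.Glauberman
import Cfsg.Agent.S2908

set_option autoImplicit false
open Cfsg

namespace Cfsg.Agent.S2909

open scoped commutatorElement
open Cfsg.Agent.Lib.CharPLocal

variable {G : Type*} [Group G]

theorem normalizer_of_comm {E : Subgroup G} {r u : G} (hrE : r ∈ Subgroup.normalizer (E : Set G))
    (hru : r * u = u * r) : r ∈ Subgroup.normalizer ((⁅E, Subgroup.zpowers u⁆ : Subgroup G) : Set G) := by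
  rw [Subgroup.mem_normalizer_iff_map_conj_eq, Subgroup.map_commutator,
    Subgroup.mem_normalizer_iff_map_conj_eq.mp hrE]
  have : (Subgroup.zpowers u).map (MulAut.conj r).toMonoidHom = Subgroup.zpowers u := by
    rw [MonoidHom.map_zpowers]
    congr 1
    show r * u * r⁻¹ = u
    rw [hru]; group
  exact congrArg (fun Z => ⁅E, Z⁆) this

/-- Some member of the hyperplane family is nontrivial when `U` is not cyclic. -/
theorem exists_ne_one_of_relIndex_le [Finite G] {p : ℕ} [hp : Fact p.Prime] {U B : Subgroup G}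
    (hUp : IsPGroup p U) (hnc : ¬ IsCyclic ↥U) (hB : B.relIndex U ≤ p) : ∃ u ∈ B, u ≠ 1 := by
  by_contra hcon
  push Not at hcon
  have hBbot : B = ⊥ := by
    rw [eq_bot_iff]
    intro x hx
    simpa using hcon x hx
  rw [hBbot, Subgroup.relIndex_bot_left] at hB
  apply hnc
  obtain ⟨n, hn⟩ := IsPGroup.iff_card.mp hUp
  rcases Nat.eq_zero_or_pos n with h0 | hpos
  · have hU1 : Nat.card U = 1 := by rw [hn, h0, pow_zero]
    have : Subsingleton ↥U := (Nat.card_eq_one_iff_unique.mp hU1).1
    infer_instance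
  · have h2 : p ≤ Nat.card U := by
      rw [hn]
      exact Nat.le_self_pow hpos.ne' p
    have : Nat.card U = p := le_antisymm hB h2
    exact isCyclic_of_prime_card this

theorem order_coprime_of_mem [Finite G] {p : ℕ} [hp : Fact p.Prime] {R : Subgroup G} (hR : ¬ p ∣ Nat.card R)
    {y : G} (hy : y ∈ R) : (orderOf y).Coprime p := by
  have h1 : orderOf y ∣ Nat.card R := by
    rw [← Subgroup.orderOf_mk y hy]
    exact orderOf_dvd_natCard _
  exact ((Nat.Prime.coprime_iff_not_dvd hp.out).mpr (fun h => hR (h.trans h1))).symm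

/-- Let p be a prime, E a normal p-subgroup of the finite group G, and U a non-cyclic elementary abelian p-subgroup of G such that either C_E(U) = C_E(u) for every nontrivial u ∈ U, or [E, U] = [E, ⟨u⟩] for every nontrivial u ∈ U. If R is a subgroup of order prime to p normalized by U, then [R, U] centralizes E. -/
theorem result {G : Type*} [Group G] [Finite G] {p : ℕ} [Fact p.Prime] (E : Subgroup G) [E.Normal] (hE : IsPGroup p ↥E) (U : Subgroup G) (hU : Cfsg.IsElementaryAbelian p U) (hnc : ¬ IsCyclic ↥U) (hcond : (∀ u ∈ U, u ≠ 1 → E ⊓ Subgroup.centralizer (U : Set G) = E ⊓ Subgroup.centralizer ({u} : Set G)) ∨ (∀ u ∈ U, u ≠ 1 → ⁅E, U⁆ = ⁅E, Subgroup.zpowers u⁆)) (R : Subgroup G) (hR : ¬ p ∣ Nat.card ↥R) (hRU : U ≤ Subgroup.normalizer (R : Set G)) : ⁅R, U⁆ ≤ Subgroup.centralizer (E : Set G) := by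
  classical
  obtain ⟨hUc, hUp⟩ := hU
  have hUpg : IsPGroup p U := by
    rintro ⟨a, ha⟩
    exact ⟨1, Subtype.ext (by simpa using hUp a ha)⟩
  have hgen : ∀ X : Subgroup G, ¬ p ∣ Nat.card X → U ≤ Subgroup.normalizer (X : Set G) →
      X = ⨆ B : {B : Subgroup G // B ≤ U ∧ B.relIndex U ≤ p},
        X ⊓ Subgroup.centralizer ((B : Subgroup G) : Set G) :=
    fun X hX hUX => Cfsg.Agent.Lib.CoprimeHyper.eq_iSup_inf_centralizer U X hUc hUp hX hUX
  have hEN : ∀ g : G, g ∈ Subgroup.normalizer (E : Set G) := by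
    intro g
    rw [Subgroup.normalizer_eq_top]; trivial
  -- `R` generated by centralizers of nontrivial elements
  have hgenInd : ∀ (X W : Subgroup G), ¬ p ∣ Nat.card X → U ≤ Subgroup.normalizer (X : Set G) →
      (∀ y ∈ X, ∀ u ∈ U, u ≠ 1 → y * u = u * y → y ∈ W) → X ≤ W := by
    intro X W hX hUX hW
    rw [hgen X hX hUX]
    refine iSup_le fun B => ?_
    obtain ⟨u, hu, hu1⟩ := exists_ne_one_of_relIndex_le hUpg hnc B.2.2
    rintro y ⟨hyX, hyC⟩
    refine hW y hyX u (B.2.1 hu) hu1 ?_
    exact (Subgroup.mem_centralizer_iff.mp hyC u hu).symm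
  set R₁ : Subgroup G := ⁅R, U⁆ with hR₁
  have hR₁R : R₁ ≤ R := Cfsg.Agent.Lib.Glauberman.commutator_le_of_le_normalizer hRU
  have hR₁p : ¬ p ∣ Nat.card R₁ := fun h => hR (h.trans (Subgroup.card_dvd_of_le hR₁R))
  have hUR₁ : U ≤ Subgroup.normalizer (R₁ : Set G) := Cfsg.Agent.Lib.Glauberman.le_normalizer_commutator hRU
  -- It suffices to treat `y ∈ R₁` commuting with `u ∈ U#`.
  suffices hmain : ∀ y ∈ R₁, ∀ u ∈ U, u ≠ 1 → y * u = u * y → y ∈ Subgroup.centralizer (E : Set G) from
    hgenInd R₁ _ hR₁p hUR₁ hmain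
  have hzpUp : ∀ u ∈ U, IsPGroup p (Subgroup.zpowers u) := fun u hu =>
    hUpg.to_le (Subgroup.zpowers_le.mpr hu)
  rcases hcond with hc1 | hc2
  · -- first case
    set E₀ : Subgroup G := E ⊓ Subgroup.centralizer (U : Set G) with hE₀
    have hRE₀ : R ≤ Subgroup.normalizer (E₀ : Set G) := by
      apply hgenInd R _ hR hRU
      intro r _ u hu hu1 hru
      rw [hc1 u hu hu1]
      rw [Subgroup.mem_normalizer_iff]
      intro e
      have hEn : r * e * r⁻¹ ∈ E ↔ e ∈ E := ((Subgroup.mem_normalizer_iff.mp (hEN r) e)).symm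
      have hCn : r * e * r⁻¹ ∈ Subgroup.centralizer ({u} : Set G) ↔ e ∈ Subgroup.centralizer ({u} : Set G) := by
        rw [Subgroup.mem_centralizer_singleton_iff, Subgroup.mem_centralizer_singleton_iff]
        have hr : Commute r u := hru
        constructor
        · intro h
          have h' : Commute (r * e * r⁻¹) u := h
          have h2 : Commute (r⁻¹ * (r * e * r⁻¹) * r⁻¹⁻¹) u :=
            (hr.inv_left.mul_left h').mul_left hr.inv_left.inv_left
          have e1 : r⁻¹ * (r * e * r⁻¹) * r⁻¹⁻¹ = e := by group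
          rw [e1] at h2
          exact h2
        · intro h
          have h' : Commute e u := h
          exact ((hr.mul_left h').mul_left hr.inv_left)
      constructor
      · rintro ⟨h1, h2⟩
        exact ⟨hEn.mpr h1, hCn.mpr h2⟩
      · rintro ⟨h1, h2⟩
        exact ⟨hEn.mp h1, hCn.mp h2⟩
    have hR₁E₀ : R₁ ≤ Subgroup.centralizer (E₀ : Set G) := by
      rw [hR₁, Subgroup.commutator_le]
      intro r hr u hu
      rw [Subgroup.mem_centralizer_iff]
      intro e he
      have he' : r⁻¹ * e * r ∈ E₀ := (Subgroup.mem_normalizer_iff''.mp (hRE₀ hr) e).mp he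
      have h1 : u⁻¹ * e * u = e := by
        have := Subgroup.mem_centralizer_iff.mp he.2 u hu
        rw [mul_assoc, ← this]; group
      have h2 : u * (r⁻¹ * e * r) * u⁻¹ = r⁻¹ * e * r := by
        have := Subgroup.mem_centralizer_iff.mp he'.2 u hu
        rw [this]; group
      have h3 : ⁅r, u⁆ * e * ⁅r, u⁆⁻¹ = e := by
        simp only [commutatorElement_def]
        have e1 : r * u * r⁻¹ * u⁻¹ * e * (r * u * r⁻¹ * u⁻¹)⁻¹
            = r * (u * (r⁻¹ * (u⁻¹ * e * u) * r) * u⁻¹) * r⁻¹ := by group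
        rw [e1, h1, h2]
        group
      rw [mul_inv_eq_iff_eq_mul] at h3
      exact h3.symm
    intro y hy u hu hu1 hyu
    have hyc := order_coprime_of_mem hR (hR₁R hy)
    have hTc : ∀ t ∈ Subgroup.zpowers u, y * t = t * y := by
      intro t ht
      obtain ⟨k, rfl⟩ := Subgroup.mem_zpowers_iff.mp ht
      exact ((show Commute y u from hyu).zpow_right k).eq
    have hfin := Cfsg.Agent.Lib.CompFitting.ab_lemma E (Subgroup.zpowers u) y hE (hzpUp u hu)
      (fun v hv => (Subgroup.mem_normalizer_iff.mp (hEN y) v).mp hv)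
      (fun t _ v hv => (Subgroup.mem_normalizer_iff.mp (hEN t) v).mp hv)
      hTc hyc ?_
    · rw [Subgroup.mem_centralizer_iff]
      intro v hv
      exact (hfin v hv).symm
    · intro v hv hvT
      have hv0 : v ∈ E ⊓ Subgroup.centralizer ({u} : Set G) := by
        refine ⟨hv, ?_⟩
        show v ∈ Subgroup.centralizer ({u} : Set G)
        rw [Subgroup.mem_centralizer_singleton_iff]
        exact (hvT u (Subgroup.mem_zpowers u)).symm
      rw [← hc1 u hu hu1] at hv0
      exact (Subgroup.mem_centralizer_iff.mp (hR₁E₀ hy) v hv0).symm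
  · -- second case
    set E₁ : Subgroup G := ⁅E, U⁆ with hE₁
    have hE₁E : E₁ ≤ E := Subgroup.commutator_le_left E U
    have hRE₁ : R ≤ Subgroup.normalizer (E₁ : Set G) := by
      apply hgenInd R _ hR hRU
      intro r _ u hu hu1 hru
      rw [hc2 u hu hu1]
      exact normalizer_of_comm (hEN r) hru
    have hUB : U ≤ stabQuot E E₁ := by
      intro u hu e he
      refine ⟨?_, ?_⟩
      · exact E.mul_mem ((Subgroup.mem_normalizer_iff.mp (hEN u) e).mp he) (E.inv_mem he)
      · rw [hE₁, Subgroup.commutator_comm]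
        exact Subgroup.commutator_mem_commutator hu he
    have hR₁B : R₁ ≤ stabQuot E E₁ := by
      rw [hR₁, Subgroup.commutator_le]
      intro r hr u hu
      have hru : r * u * r⁻¹ ∈ stabQuot E E₁ := by
        intro e he
        have he' : r⁻¹ * e * r ∈ E := (Subgroup.mem_normalizer_iff''.mp (hEN r) e).mp he
        have hs := hUB hu _ he'
        have e1 : r * u * r⁻¹ * e * (r * u * r⁻¹)⁻¹ * e⁻¹
            = r * (u * (r⁻¹ * e * r) * u⁻¹ * (r⁻¹ * e * r)⁻¹) * r⁻¹ := by group
        rw [e1]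
        exact ⟨(Subgroup.mem_normalizer_iff.mp (hEN r) _).mp hs.1,
          (Subgroup.mem_normalizer_iff.mp (hRE₁ hr) _).mp hs.2⟩
      rw [commutatorElement_def]
      exact (stabQuot E E₁).mul_mem hru ((stabQuot E E₁).inv_mem (hUB hu))
    intro y hy u hu hu1 hyu
    have hyc := order_coprime_of_mem hR (hR₁R hy)
    have hzy : ¬ p ∣ Nat.card (Subgroup.zpowers y) := by
      rw [Nat.card_zpowers]
      intro hd
      have := Nat.dvd_gcd hd (dvd_refl p)
      rw [hyc] at this
      exact (Fact.out : p.Prime).one_lt.ne' (Nat.dvd_one.mp this)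
    have hzyR₁ : Subgroup.zpowers y ≤ R₁ := Subgroup.zpowers_le.mpr hy
    have hcomm' : ⁅E, Subgroup.zpowers y⁆ ≤ ⁅E, Subgroup.zpowers u⁆ := by
      rw [← hc2 u hu hu1, Subgroup.commutator_le]
      intro e he t ht
      have hs := hR₁B (hzyR₁ ht) e he
      have e1 : ⁅e, t⁆ = (t * e * t⁻¹ * e⁻¹)⁻¹ := by
        rw [commutatorElement_def]; group
      rw [e1]
      exact E₁.inv_mem hs.2
    have hAB : ⁅Subgroup.zpowers u, Subgroup.zpowers y⁆ = ⊥ := by
      rw [Subgroup.commutator_eq_bot_iff_le_centralizer]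
      intro t ht
      rw [Subgroup.mem_centralizer_iff]
      intro t' ht'
      obtain ⟨k, rfl⟩ := Subgroup.mem_zpowers_iff.mp ht
      obtain ⟨l, rfl⟩ := Subgroup.mem_zpowers_iff.mp ht'
      exact (((show Commute y u from hyu).zpow_right k).zpow_left l).eq
    have hfin := Cfsg.Agent.S2908.result E (Subgroup.zpowers u) (Subgroup.zpowers y) hE (hzpUp u hu) hzy
      (fun t _ => hEN t) (fun t _ => hEN t) hAB hcomm'
    rw [Subgroup.commutator_eq_bot_iff_le_centralizer] at hfin
    rw [Subgroup.mem_centralizer_iff]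
    intro v hv
    exact (Subgroup.mem_centralizer_iff.mp (hfin hv) y (Subgroup.mem_zpowers y)).symm


end Cfsg.Agent.S2909
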