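import Mathlib
import Cfsg.Statements.S2910
import Cfsg.Agent.Lib.FrobNPC
import Cfsg.Agent.Lib.OddLocalA

set_option autoImplicit false
open Cfsg

namespace Cfsg.Agent.S2910



/-- Let p be an odd prime dividing the order of the finite group G and P a Sylow p-subgroup of G. If Ω₁(P) (generated by the elements of order dividing p) is contained in the centre of G, then G has a normal p-complement. In particular, if G is quasisimple then Ω₁(P) is not central in G. -/
theorem result {G : Type*} [Group G] [Finite G] {p : ℕ} [Fact p.Prime] (hp : p ≠ 2) (hdiv : p ∣ Nat.card G) (P : Sylow p G) (hZ : Cfsg.omegaOne p (P : Subgroup G) ≤ Subgroup.center G) : Cfsg.HasNormalPComplement p G ∧ ¬ Cfsg.IsQuasisimple G := by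
---
  have hpp : p.Prime := Fact.out
  have hF : Cfsg.Agent.Lib.FrobNPC.FrobHyp p G := by
    refine Cfsg.Agent.Lib.FrobNPC.frobHyp_of_sylow P ?_
    intro Q hQ g hg hco
    rw [Subgroup.mem_centralizer_iff]
    intro x hx
    have hQp : IsPGroup p Q := P.2.to_le hQ
    have hinv : ∀ x ∈ Q, g * x * g⁻¹ ∈ Q := fun x hx => (Subgroup.mem_normalizer_iff.mp hg x).mp hx
    have hfix : ∀ x ∈ Q, x ^ p = 1 → g * x = x * g := by
      intro y hy hyp
      have h1 : y ∈ Cfsg.omegaOne p (P : Subgroup G) := Subgroup.subset_closure ⟨hQ hy, hyp⟩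
      have h2 := hZ h1
      rw [Subgroup.mem_center_iff] at h2
      exact (h2 g)
    have := Cfsg.Agent.Lib.OddLocalA.thompson_omega hp g hco Q hQp hinv hfix x hx
    exact this.symm
  obtain ⟨N, hNn, hNc⟩ := Cfsg.Agent.Lib.FrobNPC.exists_complement_of_sylow P hF
  refine ⟨⟨P, N, hNn, hNc⟩, ?_⟩
  rintro ⟨hperf, -⟩
  obtain ⟨M, hMn, hMc, k, hk⟩ := Cfsg.Agent.Lib.FrobNPC.exists_normal_complement hF
  have hk0 : k ≠ 0 := by
    rintro rfl
    rw [pow_zero] at hk
    have hM : M = ⊤ := Subgroup.index_eq_one.mp hk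
    subst hM
    rw [Subgroup.card_top] at hMc
    have := Nat.Coprime.eq_one_of_dvd hMc.symm hdiv
    exact hpp.one_lt.ne' this
  haveI : Finite (G ⧸ M) := inferInstance
  have hcard : Nat.card (G ⧸ M) = p ^ k := by rw [← hk]; rfl
  have hq : IsPGroup p (G ⧸ M) := IsPGroup.of_card hcard
  haveI : Nontrivial (G ⧸ M) := by
    apply Finite.one_lt_card_iff_nontrivial.mp
    rw [hcard]
    exact Nat.one_lt_pow hk0 hpp.one_lt
  haveI : Group.IsPerfect (G ⧸ M) := inferInstance
  exact Group.IsPerfect.not_isNilpotent (G ⧸ M) hq.isNilpotent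


end Cfsg.Agent.S2910
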