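import Mathlib
import Cfsg.Statements.S2911
import Cfsg.Agent.Lib.ThompsonTransfer
import Cfsg.Agent.Lib.Subnormal

set_option autoImplicit false
open Cfsg

namespace Cfsg.Agent.S2911

open Cfsg.Agent.Lib.ThompsonTransfer MulAction

abbrev ModelQ := Multiplicative (ZMod 2) × DihedralGroup 4

def t₀ : ModelQ := (Multiplicative.ofAdd 1, 1)

set_option maxRecDepth 100000 in
theorem model_central_nonsquare : ∀ y : ModelQ, (∀ x : ModelQ, x * y = y * x) → (∀ x : ModelQ, x ^ 2 ≠ y) → y.1 ≠ 1 := by
  decide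

set_option maxRecDepth 100000 in
theorem t₀_central : ∀ x : ModelQ, x * t₀ = t₀ * x := by decide

set_option maxRecDepth 100000 in
theorem t₀_nonsquare : ∀ x : ModelQ, x ^ 2 ≠ t₀ := by decide

set_option maxRecDepth 100000 in
theorem t₀_sq : t₀ ^ 2 = 1 := by decide

set_option maxRecDepth 100000 in
theorem t₀_ne : t₀.1 ≠ 1 := by decide

/-- A finite group whose Sylow 2-subgroups are isomorphic to the direct product of a group of order 2 and a dihedral group of order 8 has a subgroup of index two. -/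
theorem result {G : Type*} [Group G] [Finite G] (S : Sylow 2 G) (hS : Nonempty (↥(S : Subgroup G) ≃* Multiplicative (ZMod 2) × DihedralGroup 4)) : ∃ H : Subgroup G, H.index = 2 := by
  classical
  by_contra hG
  push Not at hG
  obtain ⟨ι⟩ := hS
  set T : (S : Subgroup G) := ι.symm t₀ with hT
  set t : G := (T : G) with ht
  have hιT : ι T = t₀ := by simp [hT]
  have htS : t ∈ (S : Subgroup G) := T.2
  have ht2 : t ^ 2 = 1 := by
    have h1 : T ^ 2 = 1 := by
      apply ι.injective
      rw [map_pow, hιT, t₀_sq, map_one]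
    have := congrArg Subtype.val h1
    simpa using this
  have htc : ∀ a ∈ (S : Subgroup G), a * t = t * a := by
    intro a ha
    have h1 : (⟨a, ha⟩ : (S : Subgroup G)) * T = T * ⟨a, ha⟩ := by
      apply ι.injective
      rw [map_mul, map_mul, hιT]
      exact t₀_central _
    exact congrArg Subtype.val h1
  have htns : ∀ a ∈ (S : Subgroup G), a ^ 2 ≠ t := by
    intro a ha h
    apply t₀_nonsquare (ι ⟨a, ha⟩)
    rw [← hιT, ← map_pow]
    congr 1
    exact Subtype.ext (by simpa using h)
  let ϕ : (S : Subgroup G) →* Multiplicative (ZMod 2) := (MonoidHom.fst _ _).comp ι.toMonoidHom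
  have hϕT : ϕ T ≠ 1 := by
    show (ι T).1 ≠ 1
    rw [hιT]
    exact t₀_ne
  let M : Subgroup G := ϕ.ker.map (S : Subgroup G).subtype
  have hMS : M ≤ (S : Subgroup G) := by
    rintro _ ⟨a, _, rfl⟩
    exact a.2
  have hMmem : ∀ a : (S : Subgroup G), (a : G) ∈ M ↔ ϕ a = 1 := by
    intro a
    constructor
    · rintro ⟨b, hb, hab⟩
      have : b = a := Subtype.ext hab
      rw [← this]
      exact hb
    · intro h
      exact ⟨a, h, rfl⟩
  have hsurj : Function.Surjective ϕ := by
    intro b
    refine ⟨ι.symm (b, 1), ?_⟩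
    show (ι (ι.symm (b, 1))).1 = b
    simp
  have hM : M.relIndex (S : Subgroup G) = 2 := by
    have h1 : M.subgroupOf (S : Subgroup G) = ϕ.ker := by
      ext a
      rw [Subgroup.mem_subgroupOf, hMmem]
      rfl
    rw [Subgroup.relIndex, h1, Subgroup.index_ker, MonoidHom.range_eq_top.mpr hsurj]
    simp [Nat.card_eq_fintype_card, ZMod.card]
  haveI : Fintype (Quotient (orbitRel (Subgroup.zpowers t) (G ⧸ (S : Subgroup G)))) := Fintype.ofFinite _
  haveI : Fintype (G ⧸ (S : Subgroup G)) := Fintype.ofFinite _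
  have hEven := even_card_not_mem hG (S : Subgroup G) M hMS hM t
  -- the predicate
  let P : G → Prop := fun g => g⁻¹ * t * g ∈ (S : Subgroup G) ∧ g⁻¹ * t * g ∉ M
  have hMn : ∀ a ∈ (S : Subgroup G), ∀ b ∈ (S : Subgroup G), a⁻¹ * b * a ∈ M ↔ b ∈ M := by
    intro a ha b hb
    have h1 : a⁻¹ * b * a ∈ (S : Subgroup G) :=
      Subgroup.mul_mem _ (Subgroup.mul_mem _ (Subgroup.inv_mem _ ha) hb) ha
    rw [hMmem ⟨_, h1⟩, hMmem ⟨b, hb⟩]
    have h2 : (⟨a⁻¹ * b * a, h1⟩ : (S : Subgroup G)) = (⟨a, ha⟩ : (S : Subgroup G))⁻¹ * ⟨b, hb⟩ * ⟨a, ha⟩ := rfl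
    rw [h2, map_mul, map_mul, map_inv, mul_comm (ϕ _)⁻¹, mul_assoc, inv_mul_cancel, mul_one]
  have hPright : ∀ (g s : G), s ∈ (S : Subgroup G) → (P (g * s) ↔ P g) := by
    intro g s hs
    have e : (g * s)⁻¹ * t * (g * s) = s⁻¹ * (g⁻¹ * t * g) * s := by group
    show ((g * s)⁻¹ * t * (g * s) ∈ (S : Subgroup G) ∧ (g * s)⁻¹ * t * (g * s) ∉ M) ↔
      (g⁻¹ * t * g ∈ (S : Subgroup G) ∧ g⁻¹ * t * g ∉ M)
    rw [e]
    constructor
    · rintro ⟨h1, h2⟩
      have h3 : g⁻¹ * t * g ∈ (S : Subgroup G) := by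
        have := Subgroup.mul_mem _ (Subgroup.mul_mem _ hs h1) (Subgroup.inv_mem _ hs)
        have e2 : s * (s⁻¹ * (g⁻¹ * t * g) * s) * s⁻¹ = g⁻¹ * t * g := by group
        rwa [e2] at this
      exact ⟨h3, fun h4 => h2 ((hMn s hs _ h3).mpr h4)⟩
    · rintro ⟨h1, h2⟩
      exact ⟨Subgroup.mul_mem _ (Subgroup.mul_mem _ (Subgroup.inv_mem _ hs) h1) hs,
        fun h4 => h2 ((hMn s hs _ h1).mp h4)⟩
  have hPleft : ∀ (g s : G), s ∈ (S : Subgroup G) → (P (s * g) ↔ P g) := by
    intro g s hs
    have e : (s * g)⁻¹ * t * (s * g) = g⁻¹ * t * g := by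
      have h1 : t * s = s * t := (htc s hs).symm
      calc (s * g)⁻¹ * t * (s * g) = g⁻¹ * s⁻¹ * (t * s) * g := by group
        _ = g⁻¹ * s⁻¹ * (s * t) * g := by rw [h1]
        _ = _ := by group
    show ((s * g)⁻¹ * t * (s * g) ∈ (S : Subgroup G) ∧ (s * g)⁻¹ * t * (s * g) ∉ M) ↔
      (g⁻¹ * t * g ∈ (S : Subgroup G) ∧ g⁻¹ * t * g ∉ M)
    rw [e]
  have hPmk : ∀ g : G, (P (QuotientGroup.mk (s := (S : Subgroup G)) g).out ↔ P g) := by
    intro g
    obtain ⟨h, hh⟩ := QuotientGroup.mk_out_eq_mul (S : Subgroup G) g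
    rw [hh]
    exact hPright g h h.2
  have hPinv : ∀ (s : (S : Subgroup G)) (x : G ⧸ (S : Subgroup G)), (P (s • x).out ↔ P x.out) := by
    intro s x
    have h1 : s • x = QuotientGroup.mk (s := (S : Subgroup G)) ((s : G) * x.out) := by
      conv_lhs => rw [← QuotientGroup.out_eq' x]
      rfl
    rw [h1, hPmk, hPleft _ _ s.2]
  -- fixed points
  have hfix : ∀ x : G ⧸ (S : Subgroup G), (∀ s : (S : Subgroup G), s • x = x) → P x.out := by
    intro x hx
    set h := x.out with hh
    have hconj : ∀ s ∈ (S : Subgroup G), h⁻¹ * s * h ∈ (S : Subgroup G) := by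
      intro s hs
      have h1 := hx ⟨s, hs⟩
      have h2 : (⟨s, hs⟩ : (S : Subgroup G)) • x = QuotientGroup.mk (s := (S : Subgroup G)) (s * h) := by
        conv_lhs => rw [← QuotientGroup.out_eq' x]
        rfl
      rw [h2] at h1
      have h3 : (QuotientGroup.mk (s := (S : Subgroup G)) (s * h)) = QuotientGroup.mk h := by
        rw [h1, hh, QuotientGroup.out_eq']
      have h4 := QuotientGroup.eq.mp h3
      have e : (s * h)⁻¹ * h = h⁻¹ * s⁻¹ * h := by group
      rw [e] at h4
      have h5 := Subgroup.inv_mem _ h4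
      have e2 : (h⁻¹ * s⁻¹ * h)⁻¹ = h⁻¹ * s * h := by group
      rwa [e2] at h5
    have hnorm : h⁻¹ ∈ Subgroup.normalizer ((S : Subgroup G) : Set G) := by
      apply Cfsg.Agent.Lib.Subnormal.mem_normalizer_of_conj_mem
      intro d hd
      simpa using hconj d hd
    have hconj' : ∀ s ∈ (S : Subgroup G), h * s * h⁻¹ ∈ (S : Subgroup G) := by
      intro s hs
      have h1 := Subgroup.mem_normalizer_iff.mp (Subgroup.inv_mem _ hnorm) s
      rw [inv_inv] at h1
      exact h1.mp hs
    have hy : h⁻¹ * t * h ∈ (S : Subgroup G) := hconj t htS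
    refine ⟨hy, ?_⟩
    rw [hMmem ⟨_, hy⟩]
    have hc := model_central_nonsquare (ι ⟨_, hy⟩) ?_ ?_
    · exact hc
    · intro x'
      obtain ⟨a, rfl⟩ := ι.surjective x'
      rw [← map_mul, ← map_mul]
      congr 1
      apply Subtype.ext
      show (a : G) * (h⁻¹ * t * h) = (h⁻¹ * t * h) * a
      have h1 := htc _ (hconj' a a.2)
      calc (a : G) * (h⁻¹ * t * h) = h⁻¹ * ((h * a * h⁻¹) * t) * h := by group
        _ = h⁻¹ * (t * (h * a * h⁻¹)) * h := by rw [h1]
        _ = _ := by group
    · intro x' hx'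
      obtain ⟨a, rfl⟩ := ι.surjective x'
      rw [← map_pow] at hx'
      have h1 := ι.injective hx'
      have h2 : (a : G) ^ 2 = h⁻¹ * t * h := by
        have := congrArg Subtype.val h1
        simpa using this
      apply htns _ (hconj' a a.2)
      calc (h * a * h⁻¹) ^ 2 = h * (a : G) ^ 2 * h⁻¹ := by
            rw [pow_two, pow_two]; group
        _ = t := by rw [h2]; group
  -- the complement of the good set is even
  let C : SubMulAction (S : Subgroup G) (G ⧸ (S : Subgroup G)) :=
    { carrier := {x | ¬ P x.out}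
      smul_mem' := by
        intro s x hx h
        exact hx ((hPinv s x).mp h) }
  have hCeven : 2 ∣ Nat.card C := by
    have h1 := (S.isPGroup').card_modEq_card_fixedPoints C
    have h2 : IsEmpty (fixedPoints (S : Subgroup G) C) := by
      constructor
      rintro ⟨⟨x, hx⟩, hfx⟩
      apply hx
      apply hfix
      intro s
      have := hfx s
      exact congrArg Subtype.val this
    have h3 : Nat.card (fixedPoints (S : Subgroup G) C) = 0 := Nat.card_of_isEmpty
    rw [h3] at h1
    exact (Nat.modEq_zero_iff_dvd).mp h1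
  have hodd : ¬ 2 ∣ Nat.card (G ⧸ (S : Subgroup G)) := by
    have := S.not_dvd_index
    rwa [Subgroup.index] at this
  have hcount : Nat.card (G ⧸ (S : Subgroup G)) =
      (Finset.univ.filter fun x : G ⧸ (S : Subgroup G) => P x.out).card + Nat.card C := by
    have h1 : Nat.card C = (Finset.univ.filter fun x : G ⧸ (S : Subgroup G) => ¬ P x.out).card := by
      rw [← Fintype.card_subtype, ← Nat.card_eq_fintype_card]
      rfl
    rw [h1, Finset.card_filter_add_card_filter_not, Nat.card_eq_fintype_card]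
    rfl
  have hbij : (Finset.univ.filter fun q : Quotient (orbitRel (Subgroup.zpowers t) (G ⧸ (S : Subgroup G))) =>
      q.out.out⁻¹ * t ^ Function.minimalPeriod (t • ·) q.out * q.out.out ∉ M).card =
      (Finset.univ.filter fun x : G ⧸ (S : Subgroup G) => P x.out).card := by
    apply Finset.card_bij (fun q _ => q.out)
    · intro q hq
      rw [Finset.mem_filter] at hq ⊢
      refine ⟨Finset.mem_univ _, ?_⟩
      have hq2 := hq.2
      have hmem := QuotientGroup.out_conj_pow_minimalPeriod_mem (S : Subgroup G) t q.out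
      have hdvd : Function.minimalPeriod (t • ·) q.out ∣ 2 := by
        rw [← MulAction.pow_smul_eq_iff_minimalPeriod_dvd, ht2, one_smul]
      rcases (Nat.dvd_prime Nat.prime_two).mp hdvd with h1 | h1
      · rw [h1, pow_one] at hq2 hmem
        exact ⟨hmem, hq2⟩
      · rw [h1, ht2] at hq2
        exfalso
        apply hq2
        simpa using M.one_mem
    · intro a _ b _ hab
      exact Quotient.out_inj.mp hab
    · intro x hx
      rw [Finset.mem_filter] at hx
      have hPx := hx.2
      have hfixt : t • x = x := by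
        have h1 : t • x = QuotientGroup.mk (s := (S : Subgroup G)) (t * x.out) := by
          conv_lhs => rw [← QuotientGroup.out_eq' x]
          rfl
        rw [h1]
        conv_rhs => rw [← QuotientGroup.out_eq' x]
        apply QuotientGroup.eq.mpr
        have h2 := Subgroup.inv_mem _ hPx.1
        have e : (t * x.out)⁻¹ * x.out = (x.out⁻¹ * t * x.out)⁻¹ := by group
        rw [e]
        exact h2
      have horb : ∀ g ∈ Subgroup.zpowers t, g • x = x := by
        intro g hg
        obtain ⟨k, rfl⟩ := Subgroup.mem_zpowers_iff.mp hg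
        exact (MulAction.mem_stabilizer_iff.mp (Subgroup.zpow_mem _ (MulAction.mem_stabilizer_iff.mpr hfixt) k))
      have hout : (Quotient.mk (orbitRel (Subgroup.zpowers t) (G ⧸ (S : Subgroup G))) x).out = x := by
        have h1 : (orbitRel (Subgroup.zpowers t) (G ⧸ (S : Subgroup G))).r
            (Quotient.mk (orbitRel (Subgroup.zpowers t) (G ⧸ (S : Subgroup G))) x).out x :=
          Quotient.mk_out x
        obtain ⟨g, hg⟩ := h1
        rw [← hg]
        exact horb g g.2
      refine ⟨Quotient.mk _ x, ?_, hout⟩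
      rw [Finset.mem_filter]
      refine ⟨Finset.mem_univ _, ?_⟩
      rw [hout]
      have hper : Function.minimalPeriod (t • ·) x = 1 := by
        rw [Function.minimalPeriod_eq_one_iff_isFixedPt]
        exact hfixt
      rw [hper, pow_one]
      exact hPx.2
  rw [hbij] at hEven
  apply hodd
  rw [hcount]
  exact Nat.dvd_add hEven.two_dvd hCeven


end Cfsg.Agent.S2911
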