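import Mathlib
import Cfsg.Statements.S2912
import Cfsg.Agent.Lib.ExtraBound2
import Cfsg.Agent.Lib.Frat
import Cfsg.Agent.Lib.Subnormal

set_option autoImplicit false
open Cfsg

namespace Cfsg.Agent.S2912

open Cfsg.Agent.Lib.ExtraBound Cfsg.Agent.Lib.CoprimeHyper
open scoped commutatorElement

theorem exists_W {W : Type*} [Group W] [Finite W] {p r : ℕ} [Fact p.Prime]
    (hc : ∀ a b : W, a * b = b * a)
    {Z : MulAut W} (hZ : Z ^ p = 1) (hne : Z ≠ 1) (hr : ∀ v : W, v ^ r = 1) (hpr : p.Coprime r) :
    ∃ U : Subgroup W, U ≠ ⊥ ∧ (∀ v ∈ U, Z v = v → v = 1) ∧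
      ∀ φ : MulAut W, Commute φ Z → ∀ v ∈ U, φ v ∈ U := by
  letI : CommGroup W := { (inferInstance : Group W) with mul_comm := hc }
  have hNmul : ∀ a b : W, normOf p Z (a * b) = normOf p Z a * normOf p Z b := by
    intro a b
    unfold normOf
    rw [← Finset.prod_mul_distrib]
    exact Finset.prod_congr rfl fun j _ => map_mul _ _ _
  have hN1 : normOf p Z 1 = 1 := by
    unfold normOf
    exact Finset.prod_eq_one fun j _ => map_one _
  have hNinv : ∀ a : W, normOf p Z a⁻¹ = (normOf p Z a)⁻¹ := by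
    intro a
    rw [eq_inv_iff_mul_eq_one, ← hNmul, inv_mul_cancel, hN1]
  have hNφ : ∀ φ : MulAut W, Commute φ Z → ∀ v, normOf p Z (φ v) = φ (normOf p Z v) := by
    intro φ hφ v
    unfold normOf
    rw [map_prod]
    refine Finset.prod_congr rfl fun j _ => ?_
    have h1 : Commute φ (Z ^ j.val) := hφ.pow_right _
    have := congrArg (fun ψ : MulAut W => ψ v) h1.eq
    exact this.symm
  have hNc : Commute Z Z := Commute.refl Z
  refine ⟨{ carrier := {v | normOf p Z v = 1}
            mul_mem' := ?_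
            one_mem' := hN1
            inv_mem' := ?_ }, ?_, ?_, ?_⟩
  · intro a b ha hb
    show normOf p Z (a * b) = 1
    rw [hNmul, show normOf p Z a = 1 from ha, show normOf p Z b = 1 from hb, one_mul]
  · intro a ha
    show normOf p Z a⁻¹ = 1
    rw [hNinv, show normOf p Z a = 1 from ha, inv_one]
  · intro hbot
    apply hne
    ext v
    have hmem : normOf p Z (Z v * v⁻¹) = 1 := by
      rw [hNmul, hNinv, hNφ Z hNc, normOf_fixed hZ, mul_inv_cancel]
    have h1 : Z v * v⁻¹ ∈ (⊥ : Subgroup W) := by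
      rw [← hbot]; exact hmem
    have h2 : Z v * v⁻¹ = 1 := Subgroup.mem_bot.mp h1
    exact mul_inv_eq_one.mp h2
  · intro v hv hfix
    have hv' : normOf p Z v = 1 := hv
    have h1 : v ^ p = 1 := by
      have h2 : normOf p Z v = v ^ p := by
        unfold normOf
        have h3 : ∀ j : ZMod p, (Z ^ j.val) v = v := by
          intro j
          generalize j.val = m
          induction m with
          | zero => simp
          | succ m ih =>
            rw [pow_succ, MulAut.mul_apply, hfix, ih]
        simp only [h3]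
        simp [ZMod.card]
      rw [← h2, hv']
    have h4 : orderOf v ∣ p := orderOf_dvd_of_pow_eq_one h1
    have h5 : orderOf v ∣ r := orderOf_dvd_of_pow_eq_one (hr v)
    have h6 : orderOf v ∣ 1 := by
      have := Nat.dvd_gcd h4 h5
      rwa [hpr] at this
    simpa using Nat.dvd_one.mp h6
  · intro φ hφ v hv
    show normOf p Z (φ v) = 1
    rw [hNφ φ hφ, show normOf p Z v = 1 from hv, map_one]

/-- Let p and r be distinct primes, let E be an extraspecial subgroup of order p^(2w+1) of a finite group, and let A be an elementary abelian r-subgroup normalized by E on which E acts faithfully (C_E(A) = 1). If n ≥ 1 is least with p dividing rⁿ − 1 (the smallest dimension of a faithful representation of a group of order p over the field with r elements), then the order of A is at least r^(n·p^w). -/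
theorem result {G : Type*} [Group G] [Finite G] {p r : ℕ} [Fact p.Prime] [hr : Fact r.Prime] (hpr : p ≠ r) (E A : Subgroup G) (w : ℕ) (hE : Cfsg.IsExtraspecial p ↥E) (hEcard : Nat.card ↥E = p ^ (2 * w + 1)) (hA : Cfsg.IsElementaryAbelian r A) (hnorm : E ≤ Subgroup.normalizer (A : Set G)) (hfaith : E ⊓ Subgroup.centralizer (A : Set G) = ⊥) (n : ℕ) (hn : 1 ≤ n) (hdiv : p ∣ r ^ n - 1) (hmin : ∀ k : ℕ, 1 ≤ k → p ∣ r ^ k - 1 → n ≤ k) : r ^ (n * p ^ w) ≤ Nat.card ↥A := by
  classical
  haveI : Finite E := inferInstance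
  obtain ⟨⟨hpg, hfr, hcomm⟩, hcard⟩ := hE
  haveI hpc : Fact (Nat.card (Subgroup.center E)).Prime := by rw [hcard]; infer_instance
  haveI : IsCyclic (Subgroup.center E) := isCyclic_of_prime_card rfl
  obtain ⟨z₀, hz₀⟩ := IsCyclic.exists_generator (α := Subgroup.center E)
  have hzm : ∀ x : E, x ∈ Subgroup.center E → ∃ k : ℤ, x = ((z₀ : E)) ^ k := by
    intro x hx
    obtain ⟨k, hk⟩ := Subgroup.mem_zpowers_iff.mp (hz₀ ⟨x, hx⟩)
    refine ⟨k, ?_⟩
    have := congrArg Subtype.val hk
    simpa using this.symm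
  set z : G := ((z₀ : E) : G) with hz_def
  have hzk : ∀ x : E, x ∈ Subgroup.center E → (x : G) ∈ Subgroup.zpowers z := by
    intro x hx
    obtain ⟨k, hk⟩ := hzm x hx
    rw [hk]
    exact Subgroup.mem_zpowers_iff.mpr ⟨k, by simp [hz_def]⟩
  have hz₀ne : z₀ ≠ 1 := by
    intro h
    have : Nat.card (Subgroup.center E) = 1 := by
      apply Nat.card_eq_one_iff_unique.mpr
      refine ⟨⟨fun a b => ?_⟩, ⟨z₀⟩⟩
      obtain ⟨i, hi⟩ := Subgroup.mem_zpowers_iff.mp (hz₀ a)
      obtain ⟨j, hj⟩ := Subgroup.mem_zpowers_iff.mp (hz₀ b)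
      rw [← hi, ← hj, h]
      simp
    have hp1 := (Fact.out : p.Prime).one_lt
    omega
  have hzne : z ≠ 1 := by
    intro h
    apply hz₀ne
    apply Subtype.ext
    apply Subtype.ext
    simpa [hz_def] using h
  have hzp : z ^ p = 1 := by
    have h1 : z₀ ^ p = 1 := by
      rw [← hcard]; exact pow_card_eq_one'
    have := congrArg (fun t : Subgroup.center E => ((t : E) : G)) h1
    simpa [hz_def] using this
  have hzE : z ∈ E := (z₀ : E).2
  have hzcE : ∀ g ∈ E, z * g = g * z := by
    intro g hg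
    have h1 : (z₀ : E) ∈ Subgroup.center E := z₀.2
    have h2 := (Subgroup.mem_center_iff.mp h1) ⟨g, hg⟩
    have := congrArg Subtype.val h2
    exact this.symm
  have hzord : orderOf z = p := orderOf_eq_prime hzp hzne
  have hbz : ((⊥ : Subgroup G) ⊔ Subgroup.zpowers z : Subgroup G) = Subgroup.zpowers z := bot_sup_eq _
  set Za : MulAut A := act A z (hnorm hzE) with hZa_def
  have hZap : Za ^ p = 1 := by
    rw [hZa_def, act_pow]
    apply act_eq_one
    intro v hv
    rw [hzp]; simp
  have hAc : ∀ a b : A, a * b = b * a := by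
    haveI := hA.1
    exact fun a b => mul_comm' a b
  have hZane : Za ≠ 1 := by
    intro h
    have hzA : z ∈ E ⊓ Subgroup.centralizer (A : Set G) := by
      refine ⟨hzE, ?_⟩
      apply Subgroup.mem_centralizer_iff.mpr
      intro v hv
      have h1 : Za ⟨v, hv⟩ = ⟨v, hv⟩ := by rw [h]; rfl
      have h2 := congrArg Subtype.val h1
      rw [hZa_def, act_apply] at h2
      simp only at h2
      have h3 : z * v = v * z := by
        conv_rhs => rw [← h2]
        group
      exact h3.symm
    rw [hfaith] at hzA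
    exact hzne (Subgroup.mem_bot.mp hzA)
  have hco : p.Coprime r := (Nat.coprime_primes Fact.out hr.out).mpr hpr
  obtain ⟨U, hUne, hUfix, hUinv⟩ := exists_W (p := p) (r := r) hAc hZap hZane
    (fun v => Subtype.ext (by simpa using hA.2 v v.2)) hco
  have hcomm' : ∀ (t : G) (ht : t ∈ E), Commute (act A t (hnorm ht)) Za := by
    intro t ht
    show act A t (hnorm ht) * act A z (hnorm hzE) = act A z (hnorm hzE) * act A t (hnorm ht)
    rw [act_mul, act_mul]
    congr 1
    exact (hzcE t ht).symm
  have hgood : Good p r E (⊥ : Subgroup G) (U.map A.subtype) z w := by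
    refine ⟨?_, hzE, hzp, ?_, bot_le, ?_, ?_, hzcE, ?_, ?_, ?_, ?_, ?_, ?_, ?_, ?_, ?_⟩
    · exact hpg
    · exact fun h => hzne (Subgroup.mem_bot.mp h)
    · intro g hg h hh
      have h1 : (⁅(⟨g, hg⟩ : E), (⟨h, hh⟩ : E)⁆ : E) ∈ Subgroup.center E := by
        rw [← hcomm]
        exact Subgroup.commutator_mem_commutator (by trivial) (by trivial)
      exact hzk _ h1
    · intro n hn g hg
      rw [Subgroup.mem_bot.mp hn]; simp
    · intro g hg hcg
      rw [hbz]
      apply hzk ⟨g, hg⟩
      rw [Subgroup.mem_center_iff]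
      intro h
      exact Subtype.ext (hcg h h.2).symm
    · intro g hg
      rw [hbz]
      have h1 := Cfsg.Agent.Lib.Frat.pow_mem_frattini hpg (⟨g, hg⟩ : E)
      rw [hfr] at h1
      exact hzk _ h1
    · rw [hbz, Nat.card_zpowers, hzord, hEcard, pow_succ, mul_comm]
    · intro t ht
      apply Cfsg.Agent.Lib.Subnormal.mem_normalizer_of_conj_mem
      rintro d ⟨v, hv, rfl⟩
      exact ⟨act A t (hnorm ht) v, hUinv _ (hcomm' t ht) v hv, rfl⟩
    · intro n hn v hv
      rw [Subgroup.mem_bot.mp hn]; simp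
    · rintro _ ⟨v, hv, rfl⟩ hc
      have h1 : Za v = v := by
        apply Subtype.ext
        rw [hZa_def, act_apply]
        show z * (v : G) * z⁻¹ = v
        have hc' : z * (v : G) = (v : G) * z := hc
        rw [hc']; group
      have := hUfix v hv h1
      simp [this]
    · intro h
      apply hUne
      rw [eq_bot_iff]
      intro v hv
      have h1 : (v : G) ∈ U.map A.subtype := ⟨v, hv, rfl⟩
      rw [h] at h1
      exact Subgroup.mem_bot.mpr (Subtype.ext (Subgroup.mem_bot.mp h1))
    · rintro _ ⟨a, _, rfl⟩ _ ⟨b, _, rfl⟩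
      exact congrArg Subtype.val (hAc a b)
    · rintro _ ⟨a, _, rfl⟩
      exact hA.2 _ a.2
  have hb := Good.bound (G := G) hpr hdiv hmin hn w _ _ _ _ hgood
  refine hb.trans ?_
  apply Nat.card_le_card_of_injective (fun x : (U.map A.subtype : Subgroup G) => (⟨x.1, by
    obtain ⟨v, _, hv⟩ := x.2
    rw [← hv]
    exact v.2⟩ : A))
  intro a b hab
  exact Subtype.ext (congrArg (fun t : A => (t : G)) hab)


end Cfsg.Agent.S2912
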