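import Mathlib
import Cfsg.Statements.S2922
import Cfsg.Agent.Lib.CharTwoLocal
import Cfsg.Agent.Lib.LocalCore

set_option autoImplicit false
open Cfsg

namespace Cfsg.Agent.S2922

open Cfsg.Agent.Lib.CharTwoLocal in
theorem ct_iff {X : Type*} [Group X] [Finite X] {p : ℕ} [Fact p.Prime] (H : Subgroup X) :
    CT p H ↔ Subgroup.centralizer (pCore p ↥H : Set ↥H) ≤ pCore p ↥H := by
  constructor
  · intro h x hx
    have h1 : (x : X) ∈ Oc p H := by
      refine h x x.2 ?_
      rintro _ ⟨y, hy, rfl⟩
      have := Subgroup.mem_centralizer_iff.mp hx y hy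
      exact (congrArg Subtype.val this).symm
    obtain ⟨_, h2⟩ := mem_Oc_iff.mp h1
    exact h2
  · intro h x hx hc
    have h1 : (⟨x, hx⟩ : H) ∈ Subgroup.centralizer (pCore p ↥H : Set ↥H) := by
      rw [Subgroup.mem_centralizer_iff]
      intro y hy
      have h2 := hc y ⟨y, hy, rfl⟩
      exact Subtype.ext h2.symm
    exact mem_Oc_iff.mpr ⟨hx, h h1⟩

/-- Let p be a prime, X a finite group, B a p-subgroup of X and C a normal subgroup of B. If N_X(C) has characteristic p (its generalized Fitting subgroup is O_p(N_X(C))), then N_X(B) and C_X(B) have characteristic p. -/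
theorem result {X : Type*} [Group X] [Finite X] {p : ℕ} [Fact p.Prime] (B C : Subgroup X) (hB : IsPGroup p ↥B) (hCB : C ≤ B) (hCn : (C.subgroupOf B).Normal) (hC : Cfsg.generalizedFittingSubgroup ↥(Subgroup.normalizer (C : Set X)) = Cfsg.pCore p ↥(Subgroup.normalizer (C : Set X))) : Cfsg.generalizedFittingSubgroup ↥(Subgroup.normalizer (B : Set X)) = Cfsg.pCore p ↥(Subgroup.normalizer (B : Set X)) ∧ Cfsg.generalizedFittingSubgroup ↥(Subgroup.centralizer (B : Set X)) = Cfsg.pCore p ↥(Subgroup.centralizer (B : Set X)) := by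
  have h0 : Cfsg.Agent.Lib.CharTwoLocal.CT p (Subgroup.normalizer (C : Set X)) := by
    rw [ct_iff, ← hC]
    exact Cfsg.Agent.Lib.LocalCore.centralizer_generalizedFitting_le
  have h1 : Cfsg.Agent.Lib.CharTwoLocal.CT p (Subgroup.normalizer (B : Set X)) :=
    Cfsg.Agent.Lib.CharTwoLocal.CT.normalizer_of_le hB hCB h0
  have h2 : Cfsg.Agent.Lib.CharTwoLocal.CT p (Subgroup.centralizer (B : Set X)) := by
    refine Cfsg.Agent.Lib.CharTwoLocal.CT.of_normal h1 ?_ ?_
    · exact Subgroup.centralizer_le_normalizer (B : Set X)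
    · intro g hg
      rw [Subgroup.mem_normalizer_iff]
      intro c
      have hgB := Subgroup.mem_normalizer_iff.mp hg
      rw [Subgroup.mem_centralizer_iff, Subgroup.mem_centralizer_iff]
      constructor
      · intro hc b hb
        have h3 := hc (g⁻¹ * b * g) (by
          have := (hgB (g⁻¹ * b * g)).mpr
          apply this
          have e : g * (g⁻¹ * b * g) * g⁻¹ = b := by group
          rwa [e])
        have e1 : b * (g * c * g⁻¹) = g * ((g⁻¹ * b * g) * c) * g⁻¹ := by group
        rw [e1, h3]; group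
      · intro hc b hb
        have h3 := hc (g * b * g⁻¹) ((hgB b).mp hb)
        have e1 : g * b * g⁻¹ * (g * c * g⁻¹) = g * (b * c) * g⁻¹ := by group
        have e2 : g * c * g⁻¹ * (g * b * g⁻¹) = g * (c * b) * g⁻¹ := by group
        rw [e1, e2] at h3
        have := mul_right_cancel h3
        exact mul_left_cancel this
  exact ⟨Cfsg.Agent.Lib.CharTwoLocal.generalizedFitting_eq_pCore ((ct_iff _).mp h1),
    Cfsg.Agent.Lib.CharTwoLocal.generalizedFitting_eq_pCore ((ct_iff _).mp h2)⟩


end Cfsg.Agent.S2922
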