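import Mathlib
import Cfsg.Statements.S2924
import Cfsg.Agent.Lib.OddInvert

set_option autoImplicit false
open Cfsg

namespace Cfsg.Agent.S2924

open Cfsg.Agent.Lib.OddInvert Cfsg.Agent.Lib.PCore Cfsg.Agent.Lib.LocalCore

/-- Conjugates of odd cores. -/
theorem Oc_conj_elem {X : Type*} [Group X] [Finite X] (g y v : X) (hv : v ∈ Oc y) :
    g * v * g⁻¹ ∈ Oc (g * y * g⁻¹) := by
  classical
  -- the conjugate of `O(C(y))` is a normal subgroup of `C(g y g⁻¹)` of odd order
  set Cy' : Subgroup X := Subgroup.centralizer ({g * y * g⁻¹} : Set X) with hCy'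
  have hconjmem : ∀ u ∈ Oc y, g * u * g⁻¹ ∈ Cy' := by
    intro u hu
    apply mem_C.mpr
    have h := Oc_commute hu
    show (g * u * g⁻¹) * (g * y * g⁻¹) = (g * y * g⁻¹) * (g * u * g⁻¹)
    have e1 : (g * u * g⁻¹) * (g * y * g⁻¹) = g * (u * y) * g⁻¹ := by group
    have e2 : (g * y * g⁻¹) * (g * u * g⁻¹) = g * (y * u) * g⁻¹ := by group
    rw [e1, e2, h.eq]
  let M : Subgroup Cy' := ((Oc y).map (MulAut.conj g).toMonoidHom).subgroupOf Cy'
  have hM : M.Normal := by
    constructor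
    intro n hn c
    rw [Subgroup.mem_subgroupOf] at hn ⊢
    obtain ⟨u, hu, hun⟩ := hn
    have hu' : (n : X) = g * u * g⁻¹ := hun.symm
    have hc : Commute (c : X) (g * y * g⁻¹) := mem_C.mp c.2
    have hc' : Commute (g⁻¹ * (c : X) * g) y := by
      show (g⁻¹ * (c : X) * g) * y = y * (g⁻¹ * (c : X) * g)
      have h1 := hc.eq
      calc (g⁻¹ * (c : X) * g) * y = g⁻¹ * ((c : X) * (g * y * g⁻¹)) * g := by group
        _ = g⁻¹ * ((g * y * g⁻¹) * (c : X)) * g := by rw [h1]
        _ = _ := by group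
    refine ⟨(g⁻¹ * (c : X) * g) * u * (g⁻¹ * (c : X) * g)⁻¹, Oc_conj hc' hu, ?_⟩
    show g * ((g⁻¹ * (c : X) * g) * u * (g⁻¹ * (c : X) * g)⁻¹) * g⁻¹ = (c : X) * n * (c : X)⁻¹
    rw [hu']
    group
  have hMc : (Nat.card M).Coprime 2 := by
    have h1 : Nat.card M ∣ Nat.card (Oc y) := by
      have h2 : Nat.card M = Nat.card (M.map Cy'.subtype) :=
        (Subgroup.card_map_of_injective (Subgroup.subtype_injective _)).symm
      have h3 : M.map Cy'.subtype ≤ (Oc y).map (MulAut.conj g).toMonoidHom := by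
        rintro _ ⟨a, ha, rfl⟩
        exact ha
      have h4 : Nat.card ((Oc y).map (MulAut.conj g).toMonoidHom) = Nat.card (Oc y) :=
        Subgroup.card_map_of_injective (MulEquiv.injective _)
      rw [h2, ← h4]
      exact Subgroup.card_dvd_of_le h3
    exact Nat.Coprime.coprime_dvd_left h1 (Oc_card y)
  have hle := le_pPrimeCore hM hMc
  have hmem : (⟨g * v * g⁻¹, hconjmem v hv⟩ : Cy') ∈ M := by
    rw [Subgroup.mem_subgroupOf]
    exact ⟨v, hv, rfl⟩
  exact ⟨_, hle hmem, rfl⟩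

/-- Let X be a finite group and Y an elementary abelian 2-subgroup of X of order at least 8 such that C_X(x) has no components (E(C_X(x)) = 1) for every nontrivial x ∈ Y, and F*(C_X(z)) = O₂(C_X(z)) for some nontrivial z ∈ Y. Then the subgroup generated by the cores O(C_X(y)), y ∈ Y nontrivial, has odd order and is normalized by N_X(Y). -/
theorem result {X : Type*} [Group X] [Finite X] (Y : Subgroup X) (hY : Cfsg.IsElementaryAbelian 2 Y) (h8 : 8 ≤ Nat.card ↥Y) (hE : ∀ x ∈ Y, x ≠ 1 → Cfsg.layer ↥(Subgroup.centralizer ({x} : Set X)) = ⊥) (hz : ∃ z ∈ Y, z ≠ 1 ∧ Cfsg.generalizedFittingSubgroup ↥(Subgroup.centralizer ({z} : Set X)) = Cfsg.pCore 2 ↥(Subgroup.centralizer ({z} : Set X))) : Odd (Nat.card ↥(⨆ y : {y : X // y ∈ Y ∧ y ≠ 1}, (Cfsg.oddCore ↥(Subgroup.centralizer ({(y : X)} : Set X))).map (Subgroup.centralizer ({(y : X)} : Set X)).subtype)) ∧ Subgroup.normalizer (Y : Set X) ≤ Subgroup.normalizer ((⨆ y : {y : X // y ∈ Y ∧ y ≠ 1}, (Cfsg.oddCore ↥(Subgroup.centralizer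 ({(y : X)} : Set X))).map (Subgroup.centralizer ({(y : X)} : Set X)).subtype : Subgroup X) : Set X) := by
  classical
  have hmain := final_theorem hY h8 hE hz
  set W : Subgroup X := ⨆ y : {y : X // y ∈ Y ∧ y ≠ 1}, Oc (y : X) with hW
  have hgen : ∀ y : {y : X // y ∈ Y ∧ y ≠ 1}, Oc (y : X) ≤ W := fun y => le_iSup (fun y : {y : X // y ∈ Y ∧ y ≠ 1} => Oc (y : X)) y
  -- each generator commutes with W
  have h1 : ∀ y : {y : X // y ∈ Y ∧ y ≠ 1}, ∀ v ∈ Oc (y : X), ∀ w ∈ W, Commute v w := by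
    intro y v hv w hw
    have hle : W ≤ Subgroup.centralizer ({v} : Set X) := by
      apply iSup_le
      intro y' u hu
      rw [Subgroup.mem_centralizer_singleton_iff]
      exact (hmain y y.2.1 y.2.2 y' y'.2.1 y'.2.2 v hv u hu).symm.eq
    exact ((mem_C.mp (hle hw))).symm
  have hcomm : ∀ a ∈ W, ∀ b ∈ W, Commute a b := by
    intro a ha b hb
    have hle : W ≤ Subgroup.centralizer ({b} : Set X) := by
      apply iSup_le
      intro y' u hu
      rw [Subgroup.mem_centralizer_singleton_iff]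
      exact (h1 y' u hu b hb).eq
    exact mem_C.mp (hle ha)
  have hodd : ∀ a ∈ W, (orderOf a).Coprime 2 := by
    intro a ha
    induction ha using Subgroup.iSup_induction' with
    | hp y v hv => exact Oc_odd hv
    | h1 => simp
    | hmul a b ha hb hao hbo =>
      have h2 : orderOf (a * b) ∣ orderOf a * orderOf b :=
        Commute.orderOf_mul_dvd_mul_orderOf (hcomm a ha b hb)
      exact Nat.Coprime.coprime_dvd_left h2 (Nat.Coprime.mul_left hao hbo)
  refine ⟨?_, ?_⟩
  · -- odd order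
    rw [Nat.odd_iff]
    by_contra hne
    have h2 : 2 ∣ Nat.card W := by omega
    obtain ⟨g, hg⟩ := exists_prime_orderOf_dvd_card' (G := W) 2 h2
    have h3 := hodd g g.2
    rw [← Subgroup.orderOf_coe, hg] at *
    simp at h3
  · -- normalizer
    intro g hg
    apply Cfsg.Agent.Lib.Subnormal.mem_normalizer_of_conj_mem
    intro d hd
    induction hd using Subgroup.iSup_induction' with
    | hp y v hv =>
      have hy : g * (y : X) * g⁻¹ ∈ Y := (Subgroup.mem_normalizer_iff.mp hg y).mp y.2.1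
      have hy1 : g * (y : X) * g⁻¹ ≠ 1 := by
        intro h
        apply y.2.2
        have := congrArg (fun t => g⁻¹ * t * g) h
        simpa [mul_assoc] using this
      exact hgen ⟨_, hy, hy1⟩ (Oc_conj_elem g y v hv)
    | h1 => simp
    | hmul a b ha hb hao hbo =>
      have e : g * (a * b) * g⁻¹ = (g * a * g⁻¹) * (g * b * g⁻¹) := by group
      rw [e]
      exact W.mul_mem hao hbo


end Cfsg.Agent.S2924
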