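import Mathlib
import Cfsg.Statements.S2925
import Cfsg.Agent.Lib.SubnormalSylow
import Cfsg.Agent.Lib.LocalCore
import Cfsg.Agent.Lib.SylowChainTools

set_option autoImplicit false
open Cfsg

namespace Cfsg.Agent.S2925

open Cfsg.Agent.Lib.SylowChainTools Cfsg.Agent.Lib.LocalCore Cfsg.Agent.Lib.SubnormalSylow
open scoped commutatorElement

/-- Let K be a component of the finite group X and T a Sylow 2-subgroup of X. If some abelian normal subgroup Y of T does not normalize K, then K ⧸ Z(K) has abelian Sylow 2-subgroups. -/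
theorem result {X : Type*} [Group X] [Finite X] (K : Subgroup X) (hK : Cfsg.IsComponent K) (T : Sylow 2 X) (Y : Subgroup X) (hYT : Y ≤ (T : Subgroup X)) (hYn : (Y.subgroupOf (T : Subgroup X)).Normal) (hYab : IsMulCommutative ↥Y) (hnot : ¬ Y ≤ Subgroup.normalizer (K : Set X)) (P : Sylow 2 (↥K ⧸ Subgroup.center ↥K)) : IsMulCommutative ↥(P : Subgroup (↥K ⧸ Subgroup.center ↥K)) := by
  classical
  have hYnot : ∃ y ∈ Y, y ∉ Subgroup.normalizer (K : Set X) := by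
    by_contra hcon
    push Not at hcon
    exact hnot hcon
  obtain ⟨y, hy, hyN⟩ := hYnot
  set K' : Subgroup X := K.map (MulAut.conj y).toMonoidHom with hK'
  have hK'c : Cfsg.IsComponent K' := comp_conj hK y
  have hne : K ≠ K' := by
    intro h
    apply hyN
    rw [Subgroup.mem_normalizer_iff_map_conj_eq]
    exact h.symm
  have hcomm := comp_commute_of_ne hK hK'c hne
  have hcommE := commutator_eq_bot_iff_elementwise.mp hcomm
  -- conjugation by `y`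
  have hconjK : ∀ t ∈ K, y * t * y⁻¹ ∈ K' := fun t ht => ⟨t, ht, rfl⟩
  -- `Y` is normal in `T`
  have hYT : ∀ t ∈ (T : Subgroup X), t⁻¹ * y * t ∈ Y := by
    intro t ht
    have h1 := hYn.conj_mem (⟨y, hYT hy⟩ : (T : Subgroup X)) hy (⟨t, ht⟩ : (T : Subgroup X))⁻¹
    have h2 := Subgroup.mem_subgroupOf.mp h1
    simpa using h2
  -- `[t, s] ∈ Z(K)` for `t, s ∈ T ∩ K`.
  have hkey : ∀ t ∈ (T : Subgroup X), t ∈ K → ∀ s ∈ (T : Subgroup X), s ∈ K →
      ∀ k ∈ K, (t * s * t⁻¹ * s⁻¹) * k = k * (t * s * t⁻¹ * s⁻¹) := by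
    intro t ht htK s hs hsK k hk
    set t' := y * t * y⁻¹ with ht'
    set s' := y * s * y⁻¹ with hs'
    have ht'K : t' ∈ K' := hconjK t htK
    have hs'K : s' ∈ K' := hconjK s hsK
    have ha : t⁻¹ * t' ∈ Y := by
      have : t⁻¹ * t' = (t⁻¹ * y * t) * y⁻¹ := by rw [ht']; group
      rw [this]
      exact Y.mul_mem (hYT t ht) (Y.inv_mem hy)
    have hb : s⁻¹ * s' ∈ Y := by
      have : s⁻¹ * s' = (s⁻¹ * y * s) * y⁻¹ := by rw [hs']; group
      rw [this]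
      exact Y.mul_mem (hYT s hs) (Y.inv_mem hy)
    have hab : (t⁻¹ * t') * (s⁻¹ * s') = (s⁻¹ * s') * (t⁻¹ * t') := by
      have := hYab.is_comm.comm (⟨_, ha⟩ : ↥Y) ⟨_, hb⟩
      exact congrArg Subtype.val this
    have c1 : t' * s⁻¹ = s⁻¹ * t' := (hcommE _ (K.inv_mem hsK) _ ht'K).symm
    have c2 : s' * t⁻¹ = t⁻¹ * s' := (hcommE _ (K.inv_mem htK) _ hs'K).symm
    -- `[t,s]` equals a commutator in `K'`
    have hc : t * s * t⁻¹ * s⁻¹ = s' * t' * s'⁻¹ * t'⁻¹ := by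
      have h1 : t⁻¹ * s⁻¹ * (t' * s') = s⁻¹ * t⁻¹ * (s' * t') := by
        calc t⁻¹ * s⁻¹ * (t' * s') = t⁻¹ * (s⁻¹ * t') * s' := by group
          _ = t⁻¹ * (t' * s⁻¹) * s' := by rw [c1]
          _ = (t⁻¹ * t') * (s⁻¹ * s') := by group
          _ = (s⁻¹ * s') * (t⁻¹ * t') := hab
          _ = s⁻¹ * (s' * t⁻¹) * t' := by group
          _ = s⁻¹ * (t⁻¹ * s') * t' := by rw [c2]
          _ = s⁻¹ * t⁻¹ * (s' * t') := by group
      calc t * s * t⁻¹ * s⁻¹ = (s⁻¹ * t⁻¹)⁻¹ * (t⁻¹ * s⁻¹) := by group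
        _ = (s⁻¹ * t⁻¹)⁻¹ * (t⁻¹ * s⁻¹ * (t' * s')) * (t' * s')⁻¹ := by group
        _ = (s⁻¹ * t⁻¹)⁻¹ * (s⁻¹ * t⁻¹ * (s' * t')) * (t' * s')⁻¹ := by rw [h1]
        _ = s' * t' * s'⁻¹ * t'⁻¹ := by group
    have hmemK' : s' * t' * s'⁻¹ * t'⁻¹ ∈ K' :=
      K'.mul_mem (K'.mul_mem (K'.mul_mem hs'K ht'K) (K'.inv_mem hs'K)) (K'.inv_mem ht'K)
    rw [hc]
    exact (hcommE k hk _ hmemK').symm
  -- Sylow in `K / Z(K)`.
  obtain ⟨S₀, hS₀⟩ := exists_sylow_inf_of_isSubnormal T K hK.1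
  let Qbar : Sylow 2 (↥K ⧸ Subgroup.center ↥K) :=
    S₀.mapSurjective (QuotientGroup.mk'_surjective (Subgroup.center ↥K))
  have hQ : IsMulCommutative ↥(Qbar : Subgroup (↥K ⧸ Subgroup.center ↥K)) := by
    constructor
    constructor
    rintro ⟨a, ha⟩ ⟨b, hb⟩
    apply Subtype.ext
    show a * b = b * a
    obtain ⟨t, ht, rfl⟩ := ha
    obtain ⟨s, hs, rfl⟩ := hb
    have ht1 : (t : X) ∈ (T : Subgroup X) ⊓ K := by
      rw [← hS₀]; exact ⟨t, ht, rfl⟩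
    have hs1 : (s : X) ∈ (T : Subgroup X) ⊓ K := by
      rw [← hS₀]; exact ⟨s, hs, rfl⟩
    have hcenter : t * s * t⁻¹ * s⁻¹ ∈ Subgroup.center ↥K := by
      rw [Subgroup.mem_center_iff]
      intro k
      apply Subtype.ext
      exact (hkey _ ht1.1 ht1.2 _ hs1.1 hs1.2 _ k.2).symm
    have h3 : (QuotientGroup.mk' (Subgroup.center ↥K)) (t * s * t⁻¹ * s⁻¹) = 1 :=
      (QuotientGroup.eq_one_iff _).mpr hcenter
    simp only [map_mul, map_inv] at h3
    have h4 := h3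
    rw [mul_inv_eq_one, mul_inv_eq_iff_eq_mul] at h4
    exact h4
  have e := (Sylow.equiv P Qbar)
  constructor
  constructor
  intro a b
  apply e.injective
  rw [map_mul, map_mul]
  exact hQ.is_comm.comm _ _


end Cfsg.Agent.S2925
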