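import Mathlib
import Cfsg.Statements.S2930
import Cfsg.Agent.Lib.LocalCore
import Cfsg.Agent.Lib.AltOdd
import Cfsg.Agent.Lib.AltBlocks

set_option autoImplicit false
open Cfsg

namespace Cfsg.Agent.S2930



/-- Let X be a finite 3-minimal group (a Sylow 3-subgroup is not normal and lies in a unique maximal subgroup) whose generalized Fitting subgroup is isomorphic to an alternating group of degree n ≥ 5. Then X = F*(X), and n = 6, n = 9, or n = 3ᵃ + 1 for some a ≥ 2. -/
theorem result {X : Type*} [Group X] [Finite X] (hX : Cfsg.IsPMinimal 3 X) (n : ℕ) (hn : 5 ≤ n) (hF : Nonempty (↥(Cfsg.generalizedFittingSubgroup X) ≃* ↥(alternatingGroup (Fin n)))) : Cfsg.generalizedFittingSubgroup X = ⊤ ∧ (n = 6 ∨ n = 9 ∨ ∃ a : ℕ, 2 ≤ a ∧ n = 3 ^ a + 1) := by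
  classical
  obtain ⟨e⟩ := hF
  haveI hN : (generalizedFittingSubgroup X).Normal := Cfsg.Agent.Lib.LocalCore.generalizedFitting_normal
  have hC := Cfsg.Agent.Lib.LocalCore.centralizer_generalizedFitting_le (G := X)
  haveI : Fact (Nat.Prime 3) := ⟨Nat.prime_three⟩
  obtain ⟨S⟩ : Nonempty (Sylow 3 X) := inferInstance
  have hSE : (S : Subgroup X) ≤ generalizedFittingSubgroup X := by
    intro y hy
    obtain ⟨k, hk⟩ := S.isPGroup' ⟨y, hy⟩
    have h1 : y ^ 3 ^ k = 1 := by simpa using congrArg Subtype.val hk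
    exact Cfsg.Agent.Lib.AltOdd.mem_of_odd_pow hC hn e (Odd.pow (by decide)) h1
  have hE : generalizedFittingSubgroup X = ⊤ := by
    by_contra hne
    obtain ⟨M₁, hM₁, hEM₁⟩ := (eq_top_or_exists_le_coatom (generalizedFittingSubgroup X)).resolve_left hne
    have hN1 : Subgroup.normalizer ((S : Subgroup X) : Set X) ≠ ⊤ := by
      intro h
      exact (hX S).1 (Subgroup.normalizer_eq_top_iff.mp h)
    obtain ⟨M₂, hM₂, hNM₂⟩ := (eq_top_or_exists_le_coatom _).resolve_left hN1
    have hSN : (S : Subgroup X) ≤ Subgroup.normalizer ((S : Subgroup X) : Set X) := Subgroup.le_normalizer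
    have heq := (hX S).2.unique ⟨hM₁, hSE.trans hEM₁⟩ ⟨hM₂, hSN.trans hNM₂⟩
    have htop := Sylow.normalizer_sup_eq_top' S hSE
    have hle : Subgroup.normalizer ((S : Subgroup X) : Set X) ⊔ generalizedFittingSubgroup X ≤ M₁ :=
      sup_le (heq ▸ hNM₂) hEM₁
    have htop' : Subgroup.normalizer ((S : Subgroup X) : Set X) ⊔ generalizedFittingSubgroup X = ⊤ := htop
    rw [htop'] at hle
    exact hM₁.1 (top_le_iff.mp hle)
  refine ⟨hE, ?_⟩
  let ε : X ≃* alternatingGroup (Fin n) :=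
    (Subgroup.topEquiv.symm.trans (MulEquiv.subgroupCongr hE.symm)).trans e
  let o := ε.mapSubgroup
  have hP3 : IsPGroup 3 (o (S : Subgroup X)) := by
    show IsPGroup 3 ((S : Subgroup X).map ε.toMonoidHom)
    exact S.isPGroup'.map _
  obtain ⟨M₀, ⟨hM₀, hSM₀⟩, huniq⟩ := (hX S).2
  have hU : ∃! M : Subgroup (alternatingGroup (Fin n)), IsCoatom M ∧ o (S : Subgroup X) ≤ M := by
    refine ⟨o M₀, ⟨(o.isCoatom_iff _).mpr hM₀, o.monotone hSM₀⟩, ?_⟩
    rintro M' ⟨h1, h2⟩
    have h3 : IsCoatom (o.symm M') := by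
      rw [← o.isCoatom_iff]
      simpa using h1
    have h4 : (S : Subgroup X) ≤ o.symm M' := by
      rw [← o.le_iff_le]
      simpa using h2
    have h5 := huniq _ ⟨h3, h4⟩
    rw [← h5]
    simp
  have hcard : Nat.card (Fin n) = n := by simp
  have := Cfsg.Agent.Lib.AltBlocks.allowed (Ω := Fin n) (by rw [hcard]; exact hn) hP3 hU
  rwa [hcard] at this


end Cfsg.Agent.S2930
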