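-- Statement S2931: Sylow 2-subgroups of A₈ and PSp₄(3), of S₈ and O⁻₆(2), by explicit Cayley tables.
import Mathlib
import Cfsg.Statements.S2931
import Cfsg.Agent.Lib.TableIso79
import Cfsg.Agent.Lib.PSp43Spec
import Cfsg.Agent.Lib.SpOrder
import Cfsg.Agent.Lib.OrthoDihedral
import Cfsg.Agent.Lib.AutPSp.Count

set_option autoImplicit false
set_option linter.unusedVariables false
set_option linter.style.haveILetI false
open Cfsg

namespace Cfsg.Agent.S2931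

open Matrix Subgroup Cfsg.Agent.Lib.TableIso79
open Cfsg.Agent.Lib.PSp43Spec (M4 S4 mk4)

abbrev I6 := (Fin 2 ⊕ Fin 2) ⊕ Fin 2
abbrev M6 := Matrix I6 I6 (ZMod 2)

def idx6 : I6 → Fin 6
  | Sum.inl (Sum.inl i) => ⟨i.val, by omega⟩
  | Sum.inl (Sum.inr i) => ⟨i.val + 2, by omega⟩
  | Sum.inr i => ⟨i.val + 4, by omega⟩

def mk6 (a : Matrix (Fin 6) (Fin 6) (ZMod 2)) : M6 := fun i j => a (idx6 i) (idx6 j)

def nextA : Fin 3 → Fin 64 → Fin 64 := ![![1, 0, 6, 8, 9, 11, 2, 14, 3, 4, 19, 5, 17, 23, 7, 26, 21, 12, 29, 10, 32, 16, 34, 13, 37, 36, 15, 40, 41, 18, 44, 43, 20, 47, 22, 50, 25, 24, 45, 53, 27, 28, 56, 31, 30, 38, 59, 33, 60, 55, 35, 57, 58, 39, 62, 49, 42, 51, 52, 46, 48, 63, 54, 61],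
  ![2, 4, 0, 7, 1, 10, 12, 3, 15, 17, 5, 20, 6, 22, 24, 8, 27, 9, 28, 30, 11, 33, 13, 35, 14, 38, 37, 16, 18, 42, 19, 45, 44, 21, 48, 23, 51, 26, 25, 52, 49, 54, 29, 57, 32, 31, 58, 55, 34, 40, 60, 36, 39, 61, 41, 47, 62, 43, 46, 63, 50, 53, 56, 59],
  ![3, 5, 7, 0, 10, 1, 13, 2, 16, 18, 4, 21, 22, 6, 25, 27, 8, 28, 9, 31, 33, 11, 12, 36, 38, 14, 39, 15, 17, 43, 45, 19, 46, 20, 49, 51, 23, 52, 24, 26, 48, 55, 57, 29, 58, 30, 32, 54, 40, 34, 61, 35, 37, 60, 47, 41, 63, 42, 44, 62, 53, 50, 59, 56]]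

def parA : Fin 64 → Fin 64 := ![0, 0, 0, 0, 1, 1, 2, 2, 3, 4, 4, 5, 6, 6, 7, 8, 8, 9, 9, 10, 11, 11, 12, 13, 14, 14, 15, 15, 17, 18, 19, 19, 20, 20, 22, 23, 23, 24, 24, 26, 27, 28, 29, 29, 30, 30, 32, 33, 34, 34, 35, 35, 37, 39, 41, 41, 42, 42, 44, 46, 48, 50, 54, 56]

def pgA : Fin 64 → Fin 3 := ![0, 0, 1, 2, 1, 2, 0, 2, 0, 0, 2, 0, 1, 2, 0, 1, 2, 1, 2, 0, 1, 2, 2, 0, 1, 2, 0, 2, 2, 0, 1, 2, 0, 2, 0, 1, 2, 0, 2, 2, 0, 0, 1, 2, 0, 2, 2, 0, 1, 2, 0, 2, 2, 0, 1, 2, 0, 2, 2, 0, 0, 2, 0, 2]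

def wordA : Fin 64 → List (Fin 3) := ![[], [0], [1], [2], [0, 1], [0, 2], [1, 0], [1, 2], [2, 0], [0, 1, 0], [0, 1, 2], [0, 2, 0], [1, 0, 1], [1, 0, 2], [1, 2, 0], [2, 0, 1], [2, 0, 2], [0, 1, 0, 1], [0, 1, 0, 2], [0, 1, 2, 0], [0, 2, 0, 1], [0, 2, 0, 2], [1, 0, 1, 2], [1, 0, 2, 0], [1, 2, 0, 1], [1, 2, 0, 2], [2, 0, 1, 0], [2, 0, 1, 2], [0, 1, 0, 1, 2], [0, 1, 0, 2, 0], [0, 1, 2, 0, 1], [0, 1, 2, 0, 2], [0, 2, 0, 1, 0], [0, 2, 0, 1, 2], [1, 0, 1, 2, 0], [1, 0, 2, 0, 1], [1, 0, 2, 0, 2], [1, 2, 0, 1, 0], [1, 2, 0, 1, 2], [2, 0, 1, 0, 2], [2, 0, 1, 2, 0], [0, 1, 0, 1, 2, 0], [0, 1, 0, 2, 0, 1], [0, 1, 0, 2, 0, 2], [0, 1, 2, 0, 1, 0], [0, 1, 2, 0, 1, 2], [0, 2, 0, 1, 0, 2], [0, 2, 0, 1, 2, 0], [1, 0, 1, 2, 0, 1], [1, 0, 1, 2, 0, 2], [1, 0, 2, 0, 1, 0], [1, 0, 2, 0, 1, 2], [1, 2, 0, 1, 0, 2], [2, 0, 1, 0, 2, 0], [0, 1, 0, 1, 2, 0, 1], [0, 1, 0, 1, 2, 0, 2],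 [0, 1, 0, 2, 0, 1, 0], [0, 1, 0, 2, 0, 1, 2], [0, 1, 2, 0, 1, 0, 2], [0, 2, 0, 1, 0, 2, 0], [1, 0, 1, 2, 0, 1, 0], [1, 0, 2, 0, 1, 0, 2], [0, 1, 0, 1, 2, 0, 1, 0], [0, 1, 0, 2, 0, 1, 0, 2]]

def nextS : Fin 3 → Fin 128 → Fin 128 := ![![1, 0, 6, 8, 10, 12, 2, 16, 3, 20, 4, 24, 5, 28, 22, 31, 7, 35, 37, 27, 9, 29, 14, 42, 11, 46, 48, 19, 13, 21, 52, 15, 56, 58, 55, 17, 57, 18, 49, 62, 51, 65, 23, 69, 71, 68, 25, 70, 26, 38, 75, 40, 30, 80, 82, 34, 32, 36, 33, 83, 86, 85, 39, 76, 77, 41, 92, 94, 45, 43, 47, 44, 95, 98, 97, 50, 63, 64, 102, 91, 53, 93, 54, 59, 106, 61, 60, 107, 108, 101, 110, 79, 66, 81, 67, 72, 114, 74, 73, 115, 116, 89, 78, 111, 118, 113, 84, 87, 88, 121, 90, 103, 122, 105, 96, 99, 100, 125, 104, 123, 124, 109, 112, 119, 120, 117, 127, 126],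
  ![2, 4, 0, 9, 1, 13, 14, 17, 18, 3, 22, 25, 26, 5, 6, 32, 33, 7, 8, 34, 39, 36, 10, 43, 44, 11, 12, 45, 50, 47, 53, 54, 15, 16, 19, 60, 21, 62, 59, 20, 61, 66, 67, 23, 24, 27, 73, 29, 75, 72, 28, 74, 78, 30, 31, 79, 84, 81, 86, 38, 35, 40, 37, 87, 88, 90, 41, 42, 91, 96, 93, 98, 49, 46, 51, 48, 99, 100, 52, 55, 104, 57, 106, 103, 56, 105, 58, 63, 64, 109, 65, 68, 112, 70, 114, 111, 69, 113, 71, 76, 77, 117, 118, 83, 80, 85, 82, 119, 120, 89, 122, 95, 92, 97, 94, 123, 124, 101, 102, 107, 108, 126, 110, 115, 116, 127, 121, 125],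
  ![3, 5, 7, 0, 11, 1, 15, 2, 19, 21, 23, 4, 27, 29, 30, 6, 34, 36, 38, 8, 40, 9, 41, 10, 45, 47, 49, 12, 51, 13, 14, 55, 57, 59, 16, 61, 17, 63, 18, 64, 20, 22, 68, 70, 72, 24, 74, 25, 76, 26, 77, 28, 79, 81, 83, 31, 85, 32, 87, 33, 88, 35, 89, 37, 39, 91, 93, 95, 42, 97, 43, 99, 44, 100, 46, 101, 48, 50, 103, 52, 105, 53, 107, 54, 108, 56, 109, 58, 60, 62, 111, 65, 113, 66, 115, 67, 116, 69, 117, 71, 73, 75, 119, 78, 120, 80, 121, 82, 84, 86, 123, 90, 124, 92, 125, 94, 96, 98, 126, 102, 104, 106, 127, 110, 112, 114, 118, 122]]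

def parS : Fin 128 → Fin 128 := ![0, 0, 0, 0, 1, 1, 2, 2, 3, 3, 4, 4, 5, 5, 6, 6, 7, 7, 8, 8, 9, 9, 10, 10, 11, 11, 12, 12, 13, 13, 14, 15, 15, 16, 16, 17, 17, 18, 18, 20, 20, 22, 23, 23, 24, 24, 25, 25, 26, 26, 28, 28, 30, 30, 31, 31, 32, 32, 33, 33, 35, 35, 37, 37, 39, 41, 41, 42, 42, 43, 43, 44, 44, 46, 46, 48, 48, 50, 52, 52, 53, 53, 54, 54, 56, 56, 58, 58, 60, 62, 65, 65, 66, 66, 67, 67, 69, 69, 71, 71, 73, 75, 78, 78, 80, 80, 82, 82, 84, 86, 90, 90, 92, 92, 94, 94, 96, 98, 102, 102, 104, 106, 110, 110, 112, 114, 118, 122]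

def pgS : Fin 128 → Fin 3 := ![0, 0, 1, 2, 1, 2, 0, 2, 0, 1, 0, 2, 0, 1, 1, 2, 0, 1, 1, 2, 0, 2, 1, 2, 0, 1, 1, 2, 0, 2, 2, 0, 1, 1, 2, 0, 2, 0, 2, 1, 2, 2, 0, 1, 1, 2, 0, 2, 0, 2, 1, 2, 0, 1, 1, 2, 0, 2, 0, 2, 1, 2, 1, 2, 2, 0, 1, 1, 2, 0, 2, 0, 2, 1, 2, 1, 2, 2, 1, 2, 0, 2, 0, 2, 1, 2, 1, 2, 2, 2, 1, 2, 0, 2, 0, 2, 1, 2, 1, 2, 2, 2, 0, 2, 1, 2, 1, 2, 2, 2, 0, 2, 1, 2, 1, 2, 2, 2, 1, 2, 2, 2, 1, 2, 2, 2, 2, 2]

def wordS : Fin 128 → List (Fin 3) := ![[], [0], [1], [2], [0, 1], [0, 2], [1, 0], [1, 2], [2, 0], [2, 1], [0, 1, 0], [0, 1, 2], [0, 2, 0], [0, 2, 1], [1, 0, 1], [1, 0, 2], [1, 2, 0], [1, 2, 1], [2, 0, 1], [2, 0, 2], [2, 1, 0], [2, 1, 2], [0, 1, 0, 1], [0, 1, 0, 2], [0, 1, 2, 0], [0, 1, 2, 1], [0, 2, 0, 1], [0, 2, 0, 2], [0, 2, 1, 0], [0, 2, 1, 2], [1, 0, 1, 2], [1, 0, 2, 0], [1, 0, 2, 1], [1, 2, 0, 1], [1, 2, 0, 2], [1, 2, 1, 0], [1, 2, 1, 2],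 [2, 0, 1, 0], [2, 0, 1, 2], [2, 1, 0, 1], [2, 1, 0, 2], [0, 1, 0, 1, 2], [0, 1, 0, 2, 0], [0, 1, 0, 2, 1], [0, 1, 2, 0, 1], [0, 1, 2, 0, 2], [0, 1, 2, 1, 0], [0, 1, 2, 1, 2], [0, 2, 0, 1, 0], [0, 2, 0, 1, 2], [0, 2, 1, 0, 1], [0, 2, 1, 0, 2], [1, 0, 1, 2, 0], [1, 0, 1, 2, 1], [1, 0, 2, 0, 1], [1, 0, 2, 0, 2], [1, 0, 2, 1, 0], [1, 0, 2, 1, 2], [1, 2, 0, 1, 0], [1, 2, 0, 1, 2], [1, 2, 1, 0, 1], [1, 2, 1, 0, 2], [2, 0, 1, 0, 1], [2, 0, 1, 0, 2], [2, 1, 0, 1, 2], [0, 1, 0, 1, 2, 0], [0, 1, 0, 1, 2, 1], [0, 1, 0, 2, 0, 1], [0, 1, 0, 2, 0, 2], [0, 1, 0, 2, 1, 0], [0, 1, 0, 2, 1, 2], [0, 1, 2, 0, 1, 0], [0, 1, 2, 0, 1, 2], [0, 1, 2, 1, 0, 1], [0, 1, 2, 1, 0, 2], [0, 2, 0, 1, 0, 1], [0, 2, 0, 1, 0, 2], [0, 2, 1, 0, 1, 2], [1, 0, 1, 2, 0, 1], [1, 0, 1, 2, 0, 2], [1, 0, 1, 2, 1, 0], [1, 0, 1, 2, 1, 2], [1, 0, 2, 0, 1, 0], [1, 0, 2, 0, 1, 2], [1, 0, 2, 1, 0, 1], [1,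 0, 2, 1, 0, 2], [1, 2, 0, 1, 0, 1], [1, 2, 0, 1, 0, 2], [1, 2, 1, 0, 1, 2], [2, 0, 1, 0, 1, 2], [0, 1, 0, 1, 2, 0, 1], [0, 1, 0, 1, 2, 0, 2], [0, 1, 0, 1, 2, 1, 0], [0, 1, 0, 1, 2, 1, 2], [0, 1, 0, 2, 0, 1, 0], [0, 1, 0, 2, 0, 1, 2], [0, 1, 0, 2, 1, 0, 1], [0, 1, 0, 2, 1, 0, 2], [0, 1, 2, 0, 1, 0, 1], [0, 1, 2, 0, 1, 0, 2], [0, 1, 2, 1, 0, 1, 2], [0, 2, 0, 1, 0, 1, 2], [1, 0, 1, 2, 0, 1, 0], [1, 0, 1, 2, 0, 1, 2], [1, 0, 1, 2, 1, 0, 1], [1, 0, 1, 2, 1, 0, 2], [1, 0, 2, 0, 1, 0, 1], [1, 0, 2, 0, 1, 0, 2], [1, 0, 2, 1, 0, 1, 2], [1, 2, 0, 1, 0, 1, 2], [0, 1, 0, 1, 2, 0, 1, 0], [0, 1, 0, 1, 2, 0, 1, 2], [0, 1, 0, 1, 2, 1, 0, 1], [0, 1, 0, 1, 2, 1, 0, 2], [0, 1, 0, 2, 0, 1, 0, 1], [0, 1, 0, 2, 0, 1, 0, 2], [0, 1, 0, 2, 1, 0, 1, 2], [0, 1, 2, 0, 1, 0, 1, 2], [1, 0, 1, 2, 0, 1, 0, 1], [1, 0, 1, 2, 0, 1, 0, 2], [1, 0, 1, 2, 1, 0, 1, 2], [1, 0, 2, 0, 1, 0, 1, 2],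 [0, 1, 0, 1, 2, 0, 1, 0, 1], [0, 1, 0, 1, 2, 0, 1, 0, 2], [0, 1, 0, 1, 2, 1, 0, 1, 2], [0, 1, 0, 2, 0, 1, 0, 1, 2], [1, 0, 1, 2, 0, 1, 0, 1, 2], [0, 1, 0, 1, 2, 0, 1, 0, 1, 2]]

def M0 : M4 := mk4 !![0,0,0,1;0,0,1,0;0,2,0,0;2,0,0,0]

def M1 : M4 := mk4 !![0,0,1,0;0,1,0,1;2,0,0,0;0,1,0,2]

def M2 : M4 := mk4 !![1,0,1,0;0,1,0,2;1,0,2,0;0,2,0,2]

def N0 : M6 := mk6 !![0,0,0,1,0,0;1,0,1,0,0,1;0,1,0,1,0,1;1,0,0,0,0,0;1,0,0,1,1,0;0,0,0,0,0,1]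

def N1 : M6 := mk6 !![1,1,0,0,0,0;0,1,0,0,0,0;1,0,1,0,1,1;0,1,1,1,1,0;1,0,0,0,0,1;1,1,0,0,1,0]

def N2 : M6 := mk6 !![1,0,0,0,0,0;0,1,0,0,0,0;0,1,1,0,0,0;1,1,0,1,1,0;0,0,0,0,1,0;0,1,0,0,0,1]

/-! ### The alternating side -/

def x0 : Equiv.Perm (Fin 8) := Equiv.swap 4 6 * Equiv.swap 5 7
def x1 : Equiv.Perm (Fin 8) := Equiv.swap 2 3 * Equiv.swap 6 7
def x2 : Equiv.Perm (Fin 8) := Equiv.swap 0 4 * Equiv.swap 1 5 * Equiv.swap 2 6 * Equiv.swap 3 7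

lemma sign_two {a b c d : Fin 8} (h1 : a ≠ b) (h2 : c ≠ d) :
    Equiv.Perm.sign (Equiv.swap a b * Equiv.swap c d) = 1 := by
  rw [map_mul, Equiv.Perm.sign_swap h1, Equiv.Perm.sign_swap h2]
  rfl

def ga : Fin 3 → alternatingGroup (Fin 8) :=
  ![⟨x0, Equiv.Perm.mem_alternatingGroup.mpr (sign_two (by decide) (by decide))⟩,
    ⟨x1, Equiv.Perm.mem_alternatingGroup.mpr (sign_two (by decide) (by decide))⟩,
    ⟨x2, Equiv.Perm.mem_alternatingGroup.mpr (by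
      unfold x2
      rw [map_mul, map_mul, map_mul, Equiv.Perm.sign_swap (by decide), Equiv.Perm.sign_swap (by decide),
        Equiv.Perm.sign_swap (by decide), Equiv.Perm.sign_swap (by decide)]
      rfl)⟩]

def eA (i : Fin 64) : alternatingGroup (Fin 8) := (wordA i).foldl (fun x j => x * ga j) 1

set_option maxRecDepth 100000 in
theorem tabA : IsTable ga nextA eA 0 where
  inv := by decide +kernel
  e0 := rfl
  ea := by decide +kernel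
  e1 := by decide +kernel
  trans := by
    have h : ∀ i : Fin 64, i ≠ 0 → parA i < i ∧ nextA (pgA i) (parA i) = i := by decide +kernel
    exact fun i hi => ⟨parA i, pgA i, h i hi⟩

/-! ### The symplectic side -/

set_option maxRecDepth 100000 in
def s0 : S4 := ⟨M0, by rw [SymplecticGroup.mem_iff]; decide +kernel⟩
set_option maxRecDepth 100000 in
def s1 : S4 := ⟨M1, by rw [SymplecticGroup.mem_iff]; decide +kernel⟩
set_option maxRecDepth 100000 in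
def s2 : S4 := ⟨M2, by rw [SymplecticGroup.mem_iff]; decide +kernel⟩

def gs : Fin 3 → S4 := ![s0, s1, s2]

def sw (i : Fin 64) : S4 := (wordA i).foldl (fun x j => x * gs j) 1

set_option maxRecDepth 100000 in
lemma sw_step : ∀ i j, ((sw i * gs j : S4) : M4) = (sw (nextA j i) : M4) ∨
    ((sw i * gs j : S4) : M4) = -(sw (nextA j i) : M4) := by decide +kernel

set_option maxRecDepth 100000 in
lemma sw_ker : ∀ i, (sw i : M4) = 1 ∨ (sw i : M4) = -1 → i = 0 := by decide +kernel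

abbrev P43 := Cfsg.PSp 2 (ZMod 3)

def gb (j : Fin 3) : P43 := QuotientGroup.mk (gs j)

def fS (i : Fin 64) : P43 := QuotientGroup.mk (sw i)

lemma mk_negOne : (QuotientGroup.mk (Cfsg.Agent.Lib.SpCenter.negOne : S4) : P43) = 1 := by
  rw [QuotientGroup.eq_one_iff]
  exact Cfsg.Agent.Lib.SpCenter.negOne_mem_center

lemma mk_eq_of (x y : S4) (h : (x : M4) = y ∨ (x : M4) = -y) :
    (QuotientGroup.mk x : P43) = QuotientGroup.mk y := by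
  rcases h with h | h
  · rw [Subtype.ext h]
  · have h1 : x = Cfsg.Agent.Lib.SpCenter.negOne * y := by
      apply Subtype.ext
      rw [h]
      change -(y : M4) = (-1 : M4) * y
      simp
    rw [h1, QuotientGroup.mk_mul, mk_negOne, one_mul]

theorem tabB : IsTable gb nextA fS 0 where
  inv := tabA.inv
  e0 := rfl
  ea := by
    intro i j
    change (QuotientGroup.mk (sw i * gs j) : P43) = QuotientGroup.mk (sw (nextA j i))
    exact mk_eq_of _ _ (sw_step i j)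
  e1 := by
    intro i h
    have h1 : sw i ∈ Subgroup.center S4 := (QuotientGroup.eq_one_iff _).mp h
    rw [Cfsg.Agent.Lib.SpCenter.mem_center_iff] at h1
    apply sw_ker
    rcases h1 with h1 | h1
    · left
      rw [h1]
      rfl
    · right
      rw [h1]
      rfl
  trans := tabA.trans

lemma syl_props {G : Type*} [Group G] [Finite G] (A : Subgroup G) {k m : ℕ} (hA : Nat.card A = 2 ^ k)
    (hG : Nat.card G = 2 ^ k * m) (hm : Odd m) : IsPGroup 2 A ∧ ¬ 2 ∣ A.index := by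
  refine ⟨IsPGroup.of_card hA, ?_⟩
  have h1 := Subgroup.card_mul_index A
  rw [hA, hG] at h1
  have h2 : A.index = m := Nat.eq_of_mul_eq_mul_left (by positivity) h1
  rw [h2]
  exact hm.not_two_dvd_nat

lemma card_P43 : Nat.card P43 = 25920 := by
  have h1 := Cfsg.Agent.Lib.AutPSp.card_Sp_eq (F := ZMod 3) (m := 2)
  have h2 := Cfsg.Agent.Lib.SpOrder.card_Sp (F := ZMod 3) 2
  rw [h2, ZMod.card] at h1
  norm_num [Finset.prod_range_succ] at h1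
  have h3 : 2 * Nat.card (Cfsg.PSp 2 (ZMod 3)) = 51840 := by
    simpa using h1.symm
  have h4 : Nat.card P43 = Nat.card (Cfsg.PSp 2 (ZMod 3)) := rfl
  omega

lemma card_A8 : Nat.card (alternatingGroup (Fin 8)) = 20160 := by
  have h := two_mul_nat_card_alternatingGroup (α := Fin 8)
  rw [Nat.card_eq_fintype_card (α := Equiv.Perm (Fin 8)), Fintype.card_perm, Fintype.card_fin] at h
  have h2 : Nat.factorial 8 = 40320 := by decide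
  omega

/-- The first isomorphism. -/
theorem part_one (F : Type) [Field F] [Fintype F] (hF : Fintype.card F = 3)
    (P : Sylow 2 (alternatingGroup (Fin 8))) (Q : Sylow 2 (Cfsg.PSp 2 F)) :
    Nonempty ((P : Subgroup (alternatingGroup (Fin 8))) ≃* (Q : Subgroup (Cfsg.PSp 2 F))) := by
  have hc : Fintype.card F = Fintype.card (ZMod 3) := by rw [hF, ZMod.card]
  have e : F ≃+* ZMod 3 := FiniteField.ringEquivOfCardEq hc
  let E : Cfsg.PSp 2 F ≃* P43 :=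
    Cfsg.Agent.Lib.SLTransfer.quotCenterEquiv (Cfsg.Agent.Lib.PSp43Spec.spEquiv e)
  obtain ⟨iso⟩ := tabA.iso tabB
  set A := Subgroup.closure (Set.range ga) with hA
  set B := Subgroup.closure (Set.range gb) with hB
  let B' : Subgroup (Cfsg.PSp 2 F) := B.map E.symm.toMonoidHom
  have hB'c : Nat.card B' = 2 ^ 6 := by
    have h0 : Nat.card B' = Nat.card B :=
      Subgroup.card_map_of_injective (f := E.symm.toMonoidHom) E.symm.injective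
    rw [h0, tabB.card]
    norm_num
  have hAc : Nat.card A = 2 ^ 6 := by
    rw [tabA.card]
    norm_num
  obtain ⟨h1, h2⟩ := syl_props A (m := 315) hAc (by rw [card_A8]; norm_num) (by decide)
  have hGc : Nat.card (Cfsg.PSp 2 F) = 2 ^ 6 * 405 := by
    rw [Nat.card_congr E.toEquiv, card_P43]; norm_num
  obtain ⟨h3, h4⟩ := syl_props B' (m := 405) hB'c hGc (by decide)
  have iso2 : A ≃* B' := iso.trans (B.equivMapOfInjective E.symm.toMonoidHom E.symm.injective)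
  exact sylow_iso A B' iso2 h1 h2 h3 h4 P Q

/-! ### The symmetric side -/

def gp : Fin 3 → Equiv.Perm (Fin 8) :=
  ![Equiv.swap 0 1, Equiv.swap 0 2 * Equiv.swap 1 3,
    Equiv.swap 0 4 * Equiv.swap 1 5 * Equiv.swap 2 6 * Equiv.swap 3 7]

def eS (i : Fin 128) : Equiv.Perm (Fin 8) := (wordS i).foldl (fun x j => x * gp j) 1

set_option maxRecDepth 100000 in
theorem tabS : IsTable gp nextS eS 0 where
  inv := by decide +kernel
  e0 := rfl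
  ea := by decide +kernel
  e1 := by decide +kernel
  trans := by
    have h : ∀ i : Fin 128, i ≠ 0 → parS i < i ∧ nextS (pgS i) (parS i) = i := by decide +kernel
    exact fun i hi => ⟨parS i, pgS i, h i hi⟩

/-! ### The orthogonal side -/

abbrev Qm : (I6 → ZMod 2) → ZMod 2 := Cfsg.quadFormMinus 2 (ZMod 2) 1 1

abbrev O6 := Cfsg.isometryGroup (ZMod 2) Qm

set_option maxRecDepth 100000 in
lemma N0_sq : N0 * N0 = 1 := by decide +kernel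
set_option maxRecDepth 100000 in
lemma N1_sq : N1 * N1 = 1 := by decide +kernel
set_option maxRecDepth 100000 in
lemma N2_sq : N2 * N2 = 1 := by decide +kernel

set_option maxRecDepth 100000 in
lemma N0_Q : ∀ u, Qm (N0 *ᵥ u) = Qm u := by decide +kernel
set_option maxRecDepth 100000 in
lemma N1_Q : ∀ u, Qm (N1 *ᵥ u) = Qm u := by decide +kernel
set_option maxRecDepth 100000 in
lemma N2_Q : ∀ u, Qm (N2 *ᵥ u) = Qm u := by decide +kernel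

def g0 : O6 := ⟨⟨N0, N0, N0_sq, N0_sq⟩, fun u _ => N0_Q u⟩
def g1 : O6 := ⟨⟨N1, N1, N1_sq, N1_sq⟩, fun u _ => N1_Q u⟩
def g2 : O6 := ⟨⟨N2, N2, N2_sq, N2_sq⟩, fun u _ => N2_Q u⟩

def gn : Fin 3 → O6 := ![g0, g1, g2]

def fO (i : Fin 128) : O6 := (wordS i).foldl (fun x j => x * gn j) 1

set_option maxRecDepth 100000 in
lemma fO_step : ∀ i j, (((fO i * gn j : O6) : GL I6 (ZMod 2)) : M6) =
    ((fO (nextS j i) : GL I6 (ZMod 2)) : M6) := by decide +kernel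

set_option maxRecDepth 100000 in
lemma fO_ker : ∀ i, ((fO i : GL I6 (ZMod 2)) : M6) = 1 → i = 0 := by decide +kernel

theorem tabO : IsTable gn nextS fO 0 where
  inv := tabS.inv
  e0 := rfl
  ea := by
    intro i j
    apply Subtype.ext
    apply Units.ext
    exact fO_step i j
  e1 := by
    intro i h
    apply fO_ker
    rw [h]
    rfl
  trans := tabS.trans

section transport

variable {K : Type} [Field K] (e : ZMod 2 ≃+* K)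

include e in
lemma eq_zero_or_one (x : K) : x = 0 ∨ x = 1 := by
  obtain ⟨y, rfl⟩ := e.surjective x
  have : ∀ y : ZMod 2, y = 0 ∨ y = 1 := by decide
  rcases this y with rfl | rfl
  · left; simp
  · right; simp

lemma quad_map (w : I6 → ZMod 2) :
    Cfsg.quadFormMinus 2 K 1 1 (fun i => e (w i)) = e (Qm w) := by
  unfold Qm Cfsg.quadFormMinus
  rw [map_add, map_sum]
  simp only [map_add, map_mul, map_pow, map_one]

/-- The comparison of matrix groups. -/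
noncomputable def thetaGL : GL I6 (ZMod 2) →* GL I6 K :=
  Matrix.GeneralLinearGroup.map (e : ZMod 2 →+* K)

lemma thetaGL_mem (x : O6) : thetaGL e (x : GL I6 (ZMod 2)) ∈ Cfsg.isometryGroup K (Cfsg.quadFormMinus 2 K 1 1) := by
  intro v _
  have hx : ∀ u, Qm (((x : GL I6 (ZMod 2)) : M6) *ᵥ u) = Qm u := fun u => x.2 u 0
  set u : I6 → ZMod 2 := fun i => e.symm (v i) with hu
  have hv : v = fun i => e (u i) := by
    funext i
    simp [hu]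
  have h1 : (((thetaGL e (x : GL I6 (ZMod 2)) : GL I6 K) : Matrix I6 I6 K)) *ᵥ v =
      fun i => e ((((x : GL I6 (ZMod 2)) : M6) *ᵥ u) i) := by
    rw [hv]
    have := RingHom.map_mulVec (e : ZMod 2 →+* K) ((x : GL I6 (ZMod 2)) : M6) u
    funext i
    exact (this i).symm
  change Cfsg.quadFormMinus 2 K 1 1 _ = Cfsg.quadFormMinus 2 K 1 1 v
  change Cfsg.quadFormMinus 2 K 1 1 (((thetaGL e (x : GL I6 (ZMod 2)) : GL I6 K) : Matrix I6 I6 K) *ᵥ v) = _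
  rw [h1, hv, quad_map, quad_map, hx]

/-- The comparison of isometry groups. -/
noncomputable def theta : O6 →* Cfsg.isometryGroup K (Cfsg.quadFormMinus 2 K 1 1) :=
  ((thetaGL e).comp (Cfsg.isometryGroup (ZMod 2) Qm).subtype).codRestrict _ (fun x => thetaGL_mem e x)

lemma theta_inj : Function.Injective (theta e) := by
  intro x y h
  have h1 : thetaGL e (x : GL I6 (ZMod 2)) = thetaGL e (y : GL I6 (ZMod 2)) := congrArg Subtype.val h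
  apply Subtype.ext
  apply Units.ext
  funext i j
  have h2 := congrArg (fun z : GL I6 K => (z : Matrix I6 I6 K) i j) h1
  exact e.injective h2

end transport

lemma card_perm8 : Nat.card (Equiv.Perm (Fin 8)) = 2 ^ 7 * 315 := by
  rw [Nat.card_eq_fintype_card, Fintype.card_perm, Fintype.card_fin]
  decide

/-- The second isomorphism. -/
theorem part_two (K : Type) [Field K] [Fintype K] (hK : Fintype.card K = 2) (a b : K)
    (hab : ∀ z₁ z₂ : K, z₁ ^ 2 + a * z₁ * z₂ + b * z₂ ^ 2 = 0 → z₁ = 0 ∧ z₂ = 0)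
    (P' : Sylow 2 (Equiv.Perm (Fin 8)))
    (Q' : Sylow 2 (Cfsg.isometryGroup K (Cfsg.quadFormMinus 2 K a b))) :
    Nonempty ((P' : Subgroup (Equiv.Perm (Fin 8))) ≃*
      (Q' : Subgroup (Cfsg.isometryGroup K (Cfsg.quadFormMinus 2 K a b)))) := by
  have hc : Fintype.card (ZMod 2) = Fintype.card K := by rw [hK, ZMod.card]
  have e : ZMod 2 ≃+* K := FiniteField.ringEquivOfCardEq hc
  have h2 : (1 : K) + 1 = 0 := by
    have := map_add e 1 1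
    rw [map_one] at this
    rw [← this]
    have h3 : (1 + 1 : ZMod 2) = 0 := by decide
    rw [h3, map_zero]
  have hb : b = 1 := by
    rcases eq_zero_or_one e b with h | h
    · exfalso
      have := (hab 0 1 (by rw [h]; ring)).2
      exact one_ne_zero this
    · exact h
  have ha : a = 1 := by
    rcases eq_zero_or_one e a with h | h
    · exfalso
      have := (hab 1 1 (by rw [h, hb]; linear_combination h2)).2
      exact one_ne_zero this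
    · exact h
  subst ha hb
  have hY : Nat.card (Cfsg.isometryGroup K (Cfsg.quadFormMinus 2 K 1 1)) = 2 ^ 7 * 405 := by
    have := Cfsg.Agent.Lib.OrthoDihedral.card_isometry_minus (q := 2) hK 3 (by norm_num) 1 1 hab
    rw [show 3 - 1 = 2 from rfl] at this
    rw [this]
    norm_num [Finset.prod_range_succ]
  obtain ⟨iso⟩ := tabS.iso tabO
  set A := Subgroup.closure (Set.range gp) with hA
  set B := Subgroup.closure (Set.range gn) with hB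
  let B' := B.map (theta e)
  have hB'c : Nat.card B' = 2 ^ 7 := by
    rw [Subgroup.card_map_of_injective (theta_inj e), tabO.card]
    norm_num
  have hAc : Nat.card A = 2 ^ 7 := by
    rw [tabS.card]
    norm_num
  obtain ⟨h1, h2⟩ := syl_props A (m := 315) hAc card_perm8 (by decide)
  obtain ⟨h3, h4⟩ := syl_props B' (m := 405) hB'c hY (by decide)
  have iso2 : A ≃* B' := iso.trans (B.equivMapOfInjective (theta e) (theta_inj e))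
  exact sylow_iso A B' iso2 h1 h2 h3 h4 P' Q'

/-- The Sylow 2-subgroups of the alternating group of degree 8 and of PSp₄(3) are isomorphic, and so are the Sylow 2-subgroups of the symmetric group of degree 8 and of the full isometry group of a non-degenerate quadratic form of minus type in dimension 6 over the field with 2 elements. -/
theorem result (F : Type) [Field F] [Fintype F] (hF : Fintype.card F = 3) (K : Type) [Field K] [Fintype K] (hK : Fintype.card K = 2) (a b : K) (hab : ∀ z₁ z₂ : K, z₁ ^ 2 + a * z₁ * z₂ + b * z₂ ^ 2 = 0 → z₁ = 0 ∧ z₂ = 0) (P : Sylow 2 ↥(alternatingGroup (Fin 8))) (Q : Sylow 2 (Cfsg.PSp 2 F)) (P' : Sylow 2 (Equiv.Perm (Fin 8))) (Q' : Sylow 2 ↥(Cfsg.isometryGroup K (Cfsg.quadFormMinus 2 K a b))) : Nonempty (↥(P : Subgroup ↥(alternatingGroup (Fin 8))) ≃* ↥(Q : Subgroup (Cfsg.PSp 2 F))) ∧ Nonempty (↥(P' : Subgroup (Equiv.Perm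 (Fin 8))) ≃* ↥(Q' : Subgroup ↥(Cfsg.isometryGroup K (Cfsg.quadFormMinus 2 K a b)))) :=
  ⟨part_one F hF P Q, part_two K hK a b hab P' Q'⟩

end Cfsg.Agent.S2931
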