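import Mathlib
import Cfsg.Statements.S2939
import Cfsg.Agent.Lib.SylowChainTools

set_option autoImplicit false
open Cfsg

namespace Cfsg.Agent.S2939

open Cfsg.Agent.Lib.SylowChainTools

theorem factor_of_chain {G : Type*} [Group G] {p : ℕ} {𝓕 : Set (Subgroup G)} (h𝓕 : Cfsg.IsNormalSet 𝓕)
    {D : Subgroup G} {S T : Sylow p G} (h : ChainRel p 𝓕 D S T) (A : Set G) (hA : A ⊆ (D : Set G)) :
    ∃ (n : ℕ) (Y : Fin n → Subgroup G) (y : Fin n → G),
      (∀ i : Fin n, Y i ∈ Cfsg.sylowMembers p 𝓕 (S : Subgroup G) ∧ y i ∈ Y i) ∧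
      Cfsg.subgroupConjRight (List.ofFn y).prod (T : Subgroup G) = S ∧
      ∀ i : Fin n, Cfsg.conjRight (((List.ofFn y).take (i.val + 1)).prod) A ⊆
        (S : Set G) ∩ (Y i : Set G) := by
  induction h with
  | refl hS => exact ⟨0, Fin.elim0, Fin.elim0, fun i => i.elim0, by simp [conjRight_one], fun i => i.elim0⟩
  | @step T U X x _ h1 h2 hx hconj hD ih =>
    obtain ⟨n, Y, y, hY, hw, hpar⟩ := ih
    set w : G := (List.ofFn y).prod with hwdef
    have hmemY : Cfsg.subgroupConjRight w X ∈ Cfsg.sylowMembers p 𝓕 (S : Subgroup G) := by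
      have := mem_sylowMembers_conjRight h𝓕 h1 w
      rwa [hw] at this
    let y' : Fin (n + 1) → G := Fin.snoc (α := fun _ => G) y (w⁻¹ * x * w)
    let Y' : Fin (n + 1) → Subgroup G := Fin.snoc (α := fun _ => Subgroup G) Y (Cfsg.subgroupConjRight w X)
    have hl : List.ofFn y' = List.ofFn y ++ [w⁻¹ * x * w] := by
      rw [List.ofFn_succ']
      simp [y', List.concat_eq_append]
    have hprod : (List.ofFn y').prod = x * w := by
      rw [hl]
      simp only [List.prod_append, List.prod_cons, List.prod_nil, mul_one, ← hwdef]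
      group
    refine ⟨n + 1, Y', y', ?_, ?_, ?_⟩
    · intro i
      induction i using Fin.lastCases with
      | last =>
        simp only [Y', y', Fin.snoc_last]
        refine ⟨hmemY, ?_⟩
        rw [mem_conjRight]
        have : w * (w⁻¹ * x * w) * w⁻¹ = x := by group
        rw [this]
        exact hx
      | cast j =>
        simp only [Y', y', Fin.snoc_castSucc]
        exact hY j
    · rw [hprod, conjRight_mul, hconj, hw]
    · intro i
      induction i using Fin.lastCases with
      | last =>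
        have htake : (List.ofFn y').take ((Fin.last n).val + 1) = List.ofFn y' := by
          apply List.take_of_length_le
          simp
        rw [htake, hprod]
        simp only [Y', Fin.snoc_last]
        rintro z ⟨a, ha, rfl⟩
        have haD := hA ha
        have haU := (hD haD).1
        have haX := (hD haD).2
        refine ⟨?_, ?_⟩
        · have hS' : Cfsg.subgroupConjRight (x * w) (U : Subgroup G) = S := by
            rw [conjRight_mul, hconj, hw]
          have : (x * w)⁻¹ * a * (x * w) ∈ Cfsg.subgroupConjRight (x * w) (U : Subgroup G) := by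
            rw [mem_conjRight]
            have e : x * w * ((x * w)⁻¹ * a * (x * w)) * (x * w)⁻¹ = a := by group
            rw [e]
            exact haU
          rw [hS'] at this
          exact this
        · show (x * w)⁻¹ * a * (x * w) ∈ Cfsg.subgroupConjRight w X
          rw [mem_conjRight]
          have e : w * ((x * w)⁻¹ * a * (x * w)) * w⁻¹ = x⁻¹ * a * x := by group
          rw [e]
          exact X.mul_mem (X.mul_mem (X.inv_mem hx) haX) hx
      | cast j =>
        have htake : (List.ofFn y').take ((Fin.castSucc j).val + 1) = (List.ofFn y).take (j.val + 1) := by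
          rw [hl, List.take_append_of_le_length]
          · simp
          · simp only [List.length_ofFn, Fin.val_castSucc]; exact j.2
        rw [htake]
        simp only [Y', Fin.snoc_castSucc]
        exact hpar j

theorem chain_of_factor {G : Type*} [Group G] {p : ℕ} {𝓕 : Set (Subgroup G)} (h𝓕 : Cfsg.IsNormalSet 𝓕)
    {D : Subgroup G} (S : Sylow p G) (hDS : D ≤ (S : Subgroup G)) {n : ℕ} (Y : Fin n → Subgroup G) (y : Fin n → G)
    (hY : ∀ i : Fin n, Y i ∈ Cfsg.sylowMembers p 𝓕 (S : Subgroup G) ∧ y i ∈ Y i)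
    (hpar : ∀ i : Fin n, Cfsg.conjRight (((List.ofFn y).take (i.val + 1)).prod) (D : Set G) ⊆
        (S : Set G) ∩ (Y i : Set G)) (k : ℕ) (hk : k ≤ n) :
    ChainRel p 𝓕 D S (sylowConjRight (((List.ofFn y).take k).prod)⁻¹ S) := by
  induction k with
  | zero =>
    have : sylowConjRight (((List.ofFn y).take 0).prod)⁻¹ S = S := by
      simp [sylowConjRight_one]
    rw [this]
    exact ChainRel.refl S hDS
  | succ k ih =>
    have hkn : k < n := hk
    have IH := ih (by omega)
    set w : G := ((List.ofFn y).take k).prod with hwdef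
    let i : Fin n := ⟨k, hkn⟩
    have hsucc : ((List.ofFn y).take (k + 1)).prod = w * y i := by
      rw [hwdef, List.prod_take_succ _ _ (by simpa using hkn)]
      simp [i]
    rw [hsucc]
    obtain ⟨hY1, hy1⟩ := hY i
    refine ChainRel.step (Cfsg.subgroupConjRight w⁻¹ (Y i)) (w * y i * w⁻¹) IH ?_ ?_ ?_ ?_ ?_
    · exact mem_sylowMembers_conjRight h𝓕 hY1 w⁻¹
    · have h1 := mem_sylowMembers_conjRight h𝓕 hY1 (w * y i)⁻¹
      have h2 : Cfsg.subgroupConjRight (w * y i)⁻¹ (Y i) = Cfsg.subgroupConjRight w⁻¹ (Y i) := by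
        rw [mul_inv_rev, conjRight_mul, conjRight_self ((Y i).inv_mem hy1)]
      rwa [h2] at h1
    · rw [mem_conjRight]
      have e : w⁻¹ * (w * y i * w⁻¹) * w⁻¹⁻¹ = y i := by group
      rw [e]
      exact hy1
    · apply Subgroup.ext
      intro z
      simp only [coe_sylowConjRight]
      rw [mem_conjRight, mem_conjRight, mem_conjRight]
      have e : (w * y i)⁻¹ * (w * y i * w⁻¹ * z * (w * y i * w⁻¹)⁻¹) * (w * y i)⁻¹⁻¹ = w⁻¹ * z * w⁻¹⁻¹ := by group
      rw [e]
    · intro a ha
      have h3 := hpar i (show ((List.ofFn y).take (k + 1)).prod⁻¹ * a * ((List.ofFn y).take (k + 1)).prod ∈ _ from ⟨a, ha, rfl⟩)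
      rw [hsucc] at h3
      refine ⟨?_, ?_⟩
      · show a ∈ Cfsg.subgroupConjRight (w * y i)⁻¹ (S : Subgroup G)
        rw [mem_conjRight]
        have e : (w * y i)⁻¹ * a * (w * y i)⁻¹⁻¹ = (w * y i)⁻¹ * a * (w * y i) := by group
        rw [e]
        exact h3.1
      · show a ∈ Cfsg.subgroupConjRight w⁻¹ (Y i)
        rw [mem_conjRight]
        have e : w⁻¹ * a * w⁻¹⁻¹ = y i * ((w * y i)⁻¹ * a * (w * y i)) * (y i)⁻¹ := by group
        rw [e]
        exact (Y i).mul_mem ((Y i).mul_mem hy1 h3.2) ((Y i).inv_mem hy1)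

/-- Let p be a prime dividing the order of the finite group G and 𝓕 a family of subgroups of G closed under conjugation, with conjugates taken as X^g = g⁻¹Xg. Then 𝓕 controls Sylow p-intersections in G (any two distinct Sylow p-subgroups S and T with S ∩ T ≠ 1 are joined by a chain S = S₀, S₁, …, Sₙ = T of Sylow p-subgroups where, for each i, some member Xᵢ of 𝓕 meets both S_{i-1} and Sᵢ in Sylow p-subgroups of Xᵢ, satisfies S ∩ T ≤ Sᵢ ∩ Xᵢ, and contains an element xᵢ with Sᵢ^{xᵢ} = S_{i-1}) if and only if 𝓕 strongly controls p-fusion in G (whenever A is a subset of a Sylow p-subgroup S, A contains an element other than 1, and A^g ⊆ S, the element g factorises as g = y₁⋯yₙy with y ∈ N_G(S) and each yᵢ in a member Yᵢ of 𝓕 that meets S in a Sylow p-subgroup of Yᵢ, with A^{y₁⋯yᵢ} ⊆ S ∩ Yᵢ for each i). -/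
theorem result {G : Type*} [Group G] [Finite G] {p : ℕ} [Fact p.Prime] (hdiv : p ∣ Nat.card G) (𝓕 : Set (Subgroup G)) (h𝓕 : Cfsg.IsNormalSet 𝓕) : Cfsg.ControlsSylowIntersections p 𝓕 ↔ Cfsg.FamilyStronglyControlsFusion p 𝓕 := by
  classical
  constructor
  · intro hc S A g hAS hne hAg
    -- `T = g S g⁻¹` contains `A`.
    set T : Sylow p G := sylowConjRight g⁻¹ S with hT
    have hAT : A ⊆ ((T : Subgroup G) : Set G) := by
      intro a ha
      show a ∈ Cfsg.subgroupConjRight g⁻¹ (S : Subgroup G)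
      rw [mem_conjRight]
      have : g⁻¹ * a * g⁻¹⁻¹ = g⁻¹ * a * g := by group
      rw [this]
      exact hAg ⟨a, ha, rfl⟩
    set D : Subgroup G := (S : Subgroup G) ⊓ (T : Subgroup G) with hD
    have hAD : A ⊆ (D : Set G) := fun a ha => ⟨hAS ha, hAT ha⟩
    have hchain : ChainRel p 𝓕 D S T := by
      by_cases hST : S = T
      · rw [← hST]; exact ChainRel.refl S inf_le_left
      · obtain ⟨a, ha, ha1⟩ := hne
        have hbot : (S : Subgroup G) ⊓ (T : Subgroup G) ≠ ⊥ := by
          intro h0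
          have : a ∈ (⊥ : Subgroup G) := by rw [← h0]; exact hAD ha
          exact ha1 (by simpa using this)
        exact (controls_iff.mp hc) S T hST hbot
    obtain ⟨n, Y, y, hY, hw, hpar⟩ := factor_of_chain h𝓕 hchain A hAD
    set w : G := (List.ofFn y).prod with hwdef
    have hnorm : w⁻¹ * g ∈ Subgroup.normalizer ((S : Subgroup G) : Set G) := by
      rw [Subgroup.mem_normalizer_iff]
      intro s
      have e0 : s ∈ (S : Subgroup G) ↔ w * w⁻¹ * s * w * w⁻¹ ∈ (S : Subgroup G) := by
        have : w * w⁻¹ * s * w * w⁻¹ = s := by group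
        rw [this]
      have hwT : ∀ z, z ∈ (S : Subgroup G) ↔ w * z * w⁻¹ ∈ (T : Subgroup G) := by
        intro z
        rw [← hw, mem_conjRight]
      have hgT : ∀ z, z ∈ (S : Subgroup G) ↔ g * z * g⁻¹ ∈ (T : Subgroup G) := by
        intro z
        have h1 : g * z * g⁻¹ ∈ (T : Subgroup G) ↔ g⁻¹ * (g * z * g⁻¹) * g⁻¹⁻¹ ∈ (S : Subgroup G) :=
          mem_conjRight
        rw [h1]
        have : g⁻¹ * (g * z * g⁻¹) * g⁻¹⁻¹ = z := by group
        rw [this]
      rw [hgT, hwT (w⁻¹ * g * s * (w⁻¹ * g)⁻¹)]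
      have : w * (w⁻¹ * g * s * (w⁻¹ * g)⁻¹) * w⁻¹ = g * s * g⁻¹ := by group
      rw [this]
    refine ⟨n, Y, y, w⁻¹ * g, hnorm, hY, ?_, hpar⟩
    rw [← hwdef]; group
  · intro hs
    rw [controls_iff]
    intro S T hne hbot
    obtain ⟨g, hg⟩ := exists_conjRight_eq T S
    set D : Subgroup G := (S : Subgroup G) ⊓ (T : Subgroup G) with hD
    obtain ⟨a, ha, ha1⟩ : ∃ a ∈ D, a ≠ 1 := by
      by_contra hcon
      push Not at hcon
      apply hbot
      rw [eq_bot_iff]
      intro a ha
      exact (Subgroup.mem_bot).mpr (hcon a ha)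
    have hgS : Cfsg.conjRight g (D : Set G) ⊆ ((S : Subgroup G) : Set G) := by
      rintro _ ⟨b, hb, rfl⟩
      have h1 : g⁻¹ * b * g ∈ Cfsg.subgroupConjRight g (T : Subgroup G) := by
        rw [mem_conjRight]
        have e : g * (g⁻¹ * b * g) * g⁻¹ = b := by group
        rw [e]
        exact hb.2
      rw [hg] at h1
      exact h1
    obtain ⟨n, Y, y, y₀, hy₀, hY, hfac, hpar⟩ := hs S (D : Set G) g (fun b hb => hb.1) ⟨a, ha, ha1⟩ hgS
    have hchain := chain_of_factor h𝓕 (D := D) S inf_le_left Y y hY hpar n (le_refl n)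
    have hfull : (List.ofFn y).take n = List.ofFn y := by
      apply List.take_of_length_le
      simp
    rw [hfull] at hchain
    have hT : sylowConjRight ((List.ofFn y).prod)⁻¹ S = T := by
      apply Sylow.ext
      simp only [coe_sylowConjRight]
      apply Subgroup.ext
      intro z
      rw [mem_conjRight]
      have hw : (List.ofFn y).prod = g * y₀⁻¹ := by rw [hfac]; group
      rw [hw]
      have hy₀' : ∀ s, s ∈ (S : Subgroup G) ↔ y₀ * s * y₀⁻¹ ∈ (S : Subgroup G) :=
        fun s => Subgroup.mem_normalizer_iff.mp hy₀ s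
      have hTS : ∀ t, t ∈ (T : Subgroup G) ↔ g⁻¹ * t * g ∈ (S : Subgroup G) := by
        intro t
        rw [← hg, mem_conjRight]
        have e : g * (g⁻¹ * t * g) * g⁻¹ = t := by group
        rw [e]
      rw [hTS]
      have e : g⁻¹ * z * g = y₀⁻¹ * ((g * y₀⁻¹)⁻¹ * z * (g * y₀⁻¹)⁻¹⁻¹) * y₀ := by group
      rw [e]
      have h5 := hy₀' (y₀⁻¹ * ((g * y₀⁻¹)⁻¹ * z * (g * y₀⁻¹)⁻¹⁻¹) * y₀)
      have e2 : y₀ * (y₀⁻¹ * ((g * y₀⁻¹)⁻¹ * z * (g * y₀⁻¹)⁻¹⁻¹) * y₀) * y₀⁻¹ = (g * y₀⁻¹)⁻¹ * z * (g * y₀⁻¹)⁻¹⁻¹ := by group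
      rw [e2] at h5
      exact h5.symm
    rw [hT] at hchain
    exact hchain


end Cfsg.Agent.S2939
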