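import Mathlib
import Cfsg.Statements.S2940
import Cfsg.Agent.Lib.SylowChainTools
import Cfsg.Agent.Lib.SylowConjLemmas

set_option autoImplicit false
open Cfsg

namespace Cfsg.Agent.S2940

open Cfsg.Agent.Lib.SylowChainTools

/-- Let S be a Sylow p-subgroup of the finite group G and G₁, G₂ subgroups containing S with G = G₁G₂. Then for every g ∈ G there is a Sylow p-subgroup U of G with S ∩ S^g ≤ U ≤ G₁ ∩ G₂^g (conjugates taken as X^g = g⁻¹Xg). -/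
theorem result {G : Type*} [Group G] [Finite G] {p : ℕ} [Fact p.Prime] (S : Sylow p G) (G₁ G₂ : Subgroup G) (h1 : (S : Subgroup G) ≤ G₁) (h2 : (S : Subgroup G) ≤ G₂) (hfact : ∀ g : G, ∃ g₁ ∈ G₁, ∃ g₂ ∈ G₂, g = g₁ * g₂) (g : G) : ∃ U : Sylow p G, (S : Subgroup G) ⊓ Cfsg.subgroupConjRight g (S : Subgroup G) ≤ (U : Subgroup G) ∧ (U : Subgroup G) ≤ G₁ ⊓ Cfsg.subgroupConjRight g G₂ := by
  classical
  obtain ⟨g₁, hg₁, g₂, hg₂, hfac⟩ := hfact g⁻¹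
  have hg : g = g₂⁻¹ * g₁⁻¹ := by
    have : g = (g₁ * g₂)⁻¹ := by rw [← hfac]; simp
    rw [this]; group
  set K : Subgroup G := G₁ ⊓ Cfsg.subgroupConjRight g G₂ with hK
  let P₀ : Sylow p G := sylowConjRight g₁⁻¹ S
  have hP₀ : ∀ y, y ∈ (P₀ : Subgroup G) ↔ g₁⁻¹ * y * g₁ ∈ (S : Subgroup G) := by
    intro y
    show y ∈ Cfsg.subgroupConjRight g₁⁻¹ (S : Subgroup G) ↔ _
    rw [mem_conjRight]
    simp
  have hP₀K : (P₀ : Subgroup G) ≤ K := by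
    intro y hy
    rw [hP₀] at hy
    refine ⟨?_, ?_⟩
    · have : y = g₁ * (g₁⁻¹ * y * g₁) * g₁⁻¹ := by group
      rw [this]
      exact G₁.mul_mem (G₁.mul_mem hg₁ (h1 hy)) (G₁.inv_mem hg₁)
    · show y ∈ Cfsg.subgroupConjRight g G₂
      rw [mem_conjRight, hg]
      have : g₂⁻¹ * g₁⁻¹ * y * (g₂⁻¹ * g₁⁻¹)⁻¹ = g₂⁻¹ * (g₁⁻¹ * y * g₁) * g₂ := by group
      rw [this]
      exact G₂.mul_mem (G₂.mul_mem (G₂.inv_mem hg₂) (h2 hy)) hg₂
  set D : Subgroup G := (S : Subgroup G) ⊓ Cfsg.subgroupConjRight g (S : Subgroup G) with hD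
  have hDp : IsPGroup p D := S.isPGroup'.to_le inf_le_left
  have hDK : D ≤ K := inf_le_inf h1 (conjRight_le h2)
  obtain ⟨k, hk, hkD⟩ := Cfsg.Agent.Lib.SylowConjLemmas.exists_conj_mem_of_le P₀ K hP₀K D hDp hDK
  refine ⟨sylowConjRight k P₀, ?_, ?_⟩
  · intro t ht
    show t ∈ Cfsg.subgroupConjRight k (P₀ : Subgroup G)
    rw [mem_conjRight]
    exact hkD t ht
  · intro y hy
    have hy' : y ∈ Cfsg.subgroupConjRight k (P₀ : Subgroup G) := hy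
    rw [mem_conjRight] at hy'
    have h3 := hP₀K hy'
    have : y = k⁻¹ * (k * y * k⁻¹) * k := by group
    rw [this]
    exact K.mul_mem (K.mul_mem (K.inv_mem hk) h3) hk


end Cfsg.Agent.S2940
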