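import Mathlib
import Cfsg.Statements.S2955
import Cfsg.Agent.Lib.SylowChainTools

set_option autoImplicit false
open Cfsg

namespace Cfsg.Agent.S2955

open Cfsg.Agent.Lib.SylowChainTools

/-- Let p be a prime dividing the order of the finite group G and 𝓕 a conjugation-closed family of subgroups that controls Sylow p-intersections in G. Suppose the Sylow p-subgroups of G are chain-connected: any two of them are joined by a chain of Sylow p-subgroups, consecutive ones distinct with nontrivial intersection, all containing the intersection of the two ends (equivalently, the graph on the Sylow p-subgroups whose edges are the distinct pairs meeting nontrivially is connected). Then for every Sylow p-subgroup S, G is generated by N_G(S) together with the members of 𝓕 that meet S in a Sylow p-subgroup of themselves. -/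
theorem result {G : Type*} [Group G] [Finite G] (p : ℕ) [Fact p.Prime] (hdiv : p ∣ Nat.card G)
    (𝓕 : Set (Subgroup G)) (h𝓕 : Cfsg.IsNormalSet 𝓕) (hc : Cfsg.ControlsSylowIntersections p 𝓕)
    (hconn : Cfsg.IsSylowChainConnected p G) (S : Sylow p G) :
    (⨆ X ∈ Cfsg.sylowMembers p 𝓕 (S : Subgroup G), X) ⊔ Subgroup.normalizer ((S : Subgroup G) : Set G) = ⊤ := by
  classical
  set H : Subgroup G := (⨆ X ∈ Cfsg.sylowMembers p 𝓕 (S : Subgroup G), X) ⊔
    Subgroup.normalizer ((S : Subgroup G) : Set G) with hH
  have hmemH : ∀ X ∈ Cfsg.sylowMembers p 𝓕 (S : Subgroup G), X ≤ H := fun X hX =>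
    (le_iSup₂_of_le (f := fun (X : Subgroup G) (_ : X ∈ Cfsg.sylowMembers p 𝓕 (S : Subgroup G)) => X)
      X hX le_rfl).trans le_sup_left
  have link : ∀ {D : Subgroup G} {A B : Sylow p G}, ChainRel p 𝓕 D A B →
      (∃ h ∈ H, (A : Subgroup G) = Cfsg.subgroupConjRight h (S : Subgroup G)) →
      ∃ h ∈ H, (B : Subgroup G) = Cfsg.subgroupConjRight h (S : Subgroup G) := by
    intro D A B hAB hA
    induction hAB with
    | refl hS => exact hA
    | @step T U X x _ h1 h2 hx hconj hD ih =>
      obtain ⟨h, hhH, hT⟩ := ih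
      have h3 : Cfsg.subgroupConjRight h⁻¹ X ∈ Cfsg.sylowMembers p 𝓕 (S : Subgroup G) := by
        have := mem_sylowMembers_conjRight h𝓕 h1 h⁻¹
        rwa [hT, conjRight_inv_conjRight] at this
      have h4 : h * x * h⁻¹ ∈ H := by
        apply hmemH _ h3
        rw [mem_conjRight]
        have : h⁻¹ * (h * x * h⁻¹) * h⁻¹⁻¹ = x := by group
        rw [this]
        exact hx
      have h5 : x ∈ H := by
        have : x = h⁻¹ * (h * x * h⁻¹) * h := by group
        rw [this]
        exact H.mul_mem (H.mul_mem (H.inv_mem hhH) h4) hhH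
      refine ⟨h * x⁻¹, H.mul_mem hhH (H.inv_mem h5), ?_⟩
      rw [conjRight_mul, ← hT, ← hconj, conjRight_inv_conjRight]
  have hall : ∀ T : Sylow p G, ∃ h ∈ H, (T : Subgroup G) = Cfsg.subgroupConjRight h (S : Subgroup G) := by
    intro T
    obtain ⟨n, c, h0, hlast, -, hi⟩ := hconn S T
    have key : ∀ k : Fin (n + 1), ∃ h ∈ H, (c k : Subgroup G) = Cfsg.subgroupConjRight h (S : Subgroup G) := by
      intro k
      induction k using Fin.induction with
      | zero => exact ⟨1, H.one_mem, by rw [h0, conjRight_one]⟩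
      | succ i ih =>
        obtain ⟨hne, hbot⟩ := hi i
        exact link ((controls_iff.mp hc) _ _ hne hbot) ih
    have := key (Fin.last n)
    rwa [hlast] at this
  rw [eq_top_iff]
  intro g _
  obtain ⟨h, hhH, hT⟩ := hall (sylowConjRight g S)
  have hT' : Cfsg.subgroupConjRight g (S : Subgroup G) = Cfsg.subgroupConjRight h (S : Subgroup G) := hT
  have hnorm : g * h⁻¹ ∈ Subgroup.normalizer ((S : Subgroup G) : Set G) := by
    rw [Subgroup.mem_normalizer_iff]
    intro s
    have e1 : h⁻¹ * s * h ∈ Cfsg.subgroupConjRight g (S : Subgroup G) ↔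
        h⁻¹ * s * h ∈ Cfsg.subgroupConjRight h (S : Subgroup G) := by rw [hT']
    rw [mem_conjRight, mem_conjRight] at e1
    have e2 : g * (h⁻¹ * s * h) * g⁻¹ = g * h⁻¹ * s * (g * h⁻¹)⁻¹ := by group
    have e3 : h * (h⁻¹ * s * h) * h⁻¹ = s := by group
    rw [e2, e3] at e1
    exact e1.symm
  have : g = (g * h⁻¹) * h := by group
  rw [this]
  exact H.mul_mem ((le_sup_right : _ ≤ H) hnorm) hhH


end Cfsg.Agent.S2955
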