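import Mathlib
import Cfsg.Statements.S2956
import Cfsg.Agent.Lib.FunctorChain
import Cfsg.Agent.Lib.CharTwoLocal

set_option autoImplicit false
open Cfsg

namespace Cfsg.Agent.S2956

open Cfsg.Agent.Lib.SylowChainTools Cfsg.Agent.Lib.FunctorChain

variable {G : Type*} [Group G] [Finite G] {p : ℕ} [Fact p.Prime] {f : Subgroup G → Set (Subgroup G)}

theorem exists_adapted (M E : Subgroup G) (hE : IsPGroup p E) (hEM : E ≤ M) :
    ∃ S : Sylow p G, E ≤ S ∧ IsSylIn p ((S : Subgroup G) ⊓ M) M := by
  have hE' : IsPGroup p (E.subgroupOf M) := hE.comap_of_injective _ M.subtype_injective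
  obtain ⟨Q, hQ⟩ := hE'.exists_le_sylow
  have hQ₀ : IsSylIn p ((Q : Subgroup M).map M.subtype) M := exists_sylow_iff.mp ⟨Q, rfl⟩
  obtain ⟨S, hS⟩ := hQ₀.2.1.exists_le_sylow
  refine ⟨S, ?_, ?_⟩
  · intro z hz
    exact hS ⟨⟨z, hEM hz⟩, hQ hz, rfl⟩
  · have : (S : Subgroup G) ⊓ M = (Q : Subgroup M).map M.subtype :=
      hQ₀.2.2 _ inf_le_right (S.isPGroup'.to_le inf_le_left) (le_inf hS hQ₀.1)
    rw [this]
    exact hQ₀

theorem exists_maximal_plocal {N : Subgroup G} (hN : IsPLocal p N) :
    ∃ M, IsMaximalPLocal p M ∧ N ≤ M := by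
  obtain ⟨M, hNM, hM⟩ := Set.Finite.exists_le_maximal (s := {N : Subgroup G | IsPLocal p N}) (Set.toFinite _) hN
  exact ⟨M, ⟨hM.1, fun K hK hle => le_antisymm (hM.2 hK hle) hle⟩, hNM⟩

theorem growth {S D : Subgroup G} (hS : IsPGroup p S) (h : D < S) :
    D < S ⊓ Subgroup.normalizer (D : Set G) := by
  obtain ⟨x, hx, hxD, hxN⟩ := Cfsg.Agent.Lib.CharTwoLocal.exists_mem_normalizer_of_lt hS h
  refine lt_of_le_of_ne (le_inf h.le Subgroup.le_normalizer) ?_
  intro e
  exact hxD (e ▸ Subgroup.mem_inf.mpr ⟨hx, hxN⟩)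

theorem card_lt_of_lt {D E : Subgroup G} (h : D < E) : Nat.card D < Nat.card E := by
  refine lt_of_le_of_ne (Subgroup.card_le_of_le h.le) ?_
  intro e
  exact h.ne (Subgroup.eq_of_le_of_card_ge h.le e.ge)

theorem exists_conj_of_isSylIn {M A B : Subgroup G} (hA : IsSylIn p A M) (hB : IsSylIn p B M) :
    ∃ x ∈ M, subgroupConjRight x B = A := by
  obtain ⟨A', rfl⟩ := exists_sylow_iff.mpr hA
  obtain ⟨B', rfl⟩ := exists_sylow_iff.mpr hB
  obtain ⟨y, hy⟩ := exists_conjRight_eq B' A'
  exact ⟨y, y.2, by rw [← map_subtype_conjRight, hy]⟩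

theorem card_conjRight (g : G) (X : Subgroup G) : Nat.card (subgroupConjRight g X) = Nat.card X :=
  Subgroup.card_map_of_injective (MulAut.conj g⁻¹).injective

theorem card_eq_of_isSylIn {M A B : Subgroup G} (hA : IsSylIn p A M) (hB : IsSylIn p B M) :
    Nat.card A = Nat.card B := by
  obtain ⟨x, -, hx⟩ := exists_conj_of_isSylIn hA hB
  rw [← hx, card_conjRight]

/-- The family of the theorem. -/
def WW (p : ℕ) (f : Subgroup G → Set (Subgroup G)) : Set (Subgroup G) :=
  functorFamily p f ⊤ ∪ {M | IsMaximalPLocal p M ∧ ¬ IsFunctorRegular p f M}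

theorem Q_step (hf : IsNormalizerFunctor p f)
    (hf1 : ∀ P : Subgroup G, IsPGroup p ↥P → P ≠ ⊥ → ∀ F ∈ f P, F ≠ ⊥) {D : Subgroup G} (hD : D ≠ ⊥)
    (hP : ∀ E : Subgroup G, D < E → ∀ S T : Sylow p G, E ≤ S → E ≤ T → ChainRel p (WW p f) D S T) :
    ∀ (n : ℕ) (M : Subgroup G) (S T : Sylow p G), IsMaximalPLocal p M →
      IsSylIn p ((S : Subgroup G) ⊓ M) M → IsSylIn p ((T : Subgroup G) ⊓ M) M →
      D < (S : Subgroup G) ⊓ M → D < (T : Subgroup G) ⊓ M →
      Nat.card G - Nat.card ((S : Subgroup G) ⊓ M : Subgroup G) = n → ChainRel p (WW p f) D S T := by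
  intro n
  induction n using Nat.strong_induction_on with
  | _ n IH =>
  intro M S T hM hS hT hDS hDT hn
  by_cases hreg : IsFunctorRegular p f M
  · -- regular
    by_cases heq : (S : Subgroup G) ⊓ M = (T : Subgroup G) ⊓ M
    · exact hP _ hDS S T inf_le_left (heq ▸ inf_le_left)
    · have hb : ((S : Subgroup G) ⊓ M) ⊓ ((T : Subgroup G) ⊓ M) ≠ ⊥ := by
        intro h
        exact hD (le_bot_iff.mp (h ▸ le_inf hDS.le hDT.le))
      have hs := (schain_of_regular hf hreg hS hT heq hb).mono_D (le_inf hDS.le hDT.le)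
      have claim : ∀ {U : Subgroup G}, SChain p f M D ((S : Subgroup G) ⊓ M) U →
          ∀ Uh : Sylow p G, U ≤ Uh → ChainRel p (WW p f) D S Uh := by
        intro U hU
        induction hU with
        | refl _ _ =>
          intro Uh hUh
          exact hP _ hDS S Uh inf_le_left hUh
        | @step B U F x hch hU hFB hFU hxM hxF hconj hDU ih =>
          intro Uh hUh
          have hBs : IsSylIn p B M := hch.isSylIn_right
          have hDB : D ≤ B := hch.le_right
          obtain ⟨Bh, hBh⟩ := hBs.2.1.exists_le_sylow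
          refine (ih Bh hBh).trans ?_
          have hUp : IsPGroup p U := hU.2.1
          have hBp : IsPGroup p B := hBs.2.1
          have hcB : Nat.card B = Nat.card ((S : Subgroup G) ⊓ M : Subgroup G) :=
            card_eq_of_isSylIn hBs hS
          have hcU : Nat.card U = Nat.card B := card_eq_of_isSylIn hU hBs
          have hcSyl : Nat.card Bh = Nat.card Uh := by
            rw [Sylow.card_eq_multiplicity, Sylow.card_eq_multiplicity]
          by_cases hBB : B = Bh
          · -- Sylow case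
            have hUUh : U = Uh := by
              apply Subgroup.eq_of_le_of_card_ge hUh
              rw [hcU, hBB, hcSyl]
            subst hBB
            subst hUUh
            have hmem : Subgroup.normalizer (F : Set G) ∈ WW p f := Or.inl (mem_family_top hFB)
            have h1 := le_normalizer_of_mem_f hf Bh.isPGroup' hFB
            have h2 := le_normalizer_of_mem_f hf Uh.isPGroup' hFU
            exact ChainRel.single (sylowMember_of_le hmem h1) (sylowMember_of_le hmem h2) hxF hconj hDB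
              (le_inf hDU (hDU.trans h2))
          · have hlt : B < Bh := lt_of_le_of_ne hBh hBB
            have hUUh : U < Uh := by
              refine lt_of_le_of_ne hUh ?_
              intro e
              have h1 : Nat.card B < Nat.card Bh := card_lt_of_lt hlt
              rw [hcSyl, ← e, hcU] at h1
              exact lt_irrefl _ h1
            have hB' := growth Bh.isPGroup' hlt
            have hU' := growth Uh.isPGroup' hUUh
            have hBne : B ≠ ⊥ := fun h => hD (le_bot_iff.mp (h ▸ hDB))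
            have hFne : F ≠ ⊥ := hf1 B hBp hBne F hFB
            have hFle : F ≤ B := ((hf B hBp).1 F hFB).1
            obtain ⟨M₁, hM₁, hle⟩ := exists_maximal_plocal (p := p) (N := Subgroup.normalizer (F : Set G))
              ⟨F, hBp.to_le hFle, hFne, rfl⟩
            have hBM₁ : (Bh : Subgroup G) ⊓ Subgroup.normalizer (B : Set G) ≤ M₁ :=
              inf_le_right.trans ((normalizer_le_of_mem_f hf hBp hFB).trans hle)
            have hUM₁ : (Uh : Subgroup G) ⊓ Subgroup.normalizer (U : Set G) ≤ M₁ :=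
              inf_le_right.trans ((normalizer_le_of_mem_f hf hUp hFU).trans hle)
            obtain ⟨B₁, hB₁, hB₁s⟩ := exists_adapted M₁ _ (Bh.isPGroup'.to_le inf_le_left) hBM₁
            obtain ⟨U₁, hU₁, hU₁s⟩ := exists_adapted M₁ _ (Uh.isPGroup'.to_le inf_le_left) hUM₁
            have hDB' : D < (Bh : Subgroup G) ⊓ Subgroup.normalizer (B : Set G) := lt_of_le_of_lt hDB hB'
            have hDU' : D < (Uh : Subgroup G) ⊓ Subgroup.normalizer (U : Set G) := lt_of_le_of_lt hDU hU'
            have c1 : ChainRel p (WW p f) D Bh B₁ := hP _ hDB' Bh B₁ inf_le_left hB₁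
            have c2 : ChainRel p (WW p f) D Uh U₁ := hP _ hDU' Uh U₁ inf_le_left hU₁
            have hlt1 : (Bh : Subgroup G) ⊓ Subgroup.normalizer (B : Set G) ≤ (B₁ : Subgroup G) ⊓ M₁ :=
              le_inf hB₁ hBM₁
            have hlt2 : (Uh : Subgroup G) ⊓ Subgroup.normalizer (U : Set G) ≤ (U₁ : Subgroup G) ⊓ M₁ :=
              le_inf hU₁ hUM₁
            have hcard : Nat.card ((S : Subgroup G) ⊓ M : Subgroup G) <
                Nat.card ((B₁ : Subgroup G) ⊓ M₁ : Subgroup G) := by
              rw [← hcB]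
              exact (card_lt_of_lt hB').trans_le (Subgroup.card_le_of_le hlt1)
            have hcardG : Nat.card ((B₁ : Subgroup G) ⊓ M₁ : Subgroup G) ≤ Nat.card G :=
              Subgroup.card_le_card_group _
            have c3 := IH _ (by omega) M₁ B₁ U₁ hM₁ hB₁s hU₁s (lt_of_lt_of_le hDB' hlt1)
              (lt_of_lt_of_le hDU' hlt2) rfl
            exact c1.trans (c3.trans c2.symm)
      exact (claim hs T inf_le_left)
  · -- singular
    obtain ⟨x, hxM, hx⟩ := exists_conj_of_isSylIn hS hT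
    let T₁ : Sylow p G := sylowConjRight x⁻¹ S
    have hT₁ : subgroupConjRight x (T₁ : Subgroup G) = S := by
      show subgroupConjRight x (subgroupConjRight x⁻¹ (S : Subgroup G)) = _
      rw [conjRight_conjRight_inv]
    have hT₁M : (T₁ : Subgroup G) ⊓ M = (T : Subgroup G) ⊓ M := by
      have e1 : subgroupConjRight x⁻¹ ((S : Subgroup G) ⊓ M) = (T : Subgroup G) ⊓ M := by
        rw [← hx, conjRight_inv_conjRight]
      rw [conjRight_inf, conjRight_self (M.inv_mem hxM)] at e1
      exact e1
    have hmem : M ∈ WW p f := Or.inr ⟨hM, hreg⟩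
    have h1 : M ∈ sylowMembers p (WW p f) (S : Subgroup G) := sylowMembers_iff.mpr ⟨hmem, hS⟩
    have h2 : M ∈ sylowMembers p (WW p f) (T₁ : Subgroup G) :=
      sylowMembers_iff.mpr ⟨hmem, by rw [hT₁M]; exact hT⟩
    have c1 : ChainRel p (WW p f) D S T₁ := ChainRel.single h1 h2 hxM hT₁ (hDS.le.trans inf_le_left)
      (by rw [hT₁M]; exact hDT.le)
    have c2 : ChainRel p (WW p f) D T₁ T := hP _ hDT T₁ T (by rw [← hT₁M]; exact inf_le_left) inf_le_left
    exact c1.trans c2

theorem P_main (hf : IsNormalizerFunctor p f)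
    (hf1 : ∀ P : Subgroup G, IsPGroup p ↥P → P ≠ ⊥ → ∀ F ∈ f P, F ≠ ⊥) :
    ∀ (n : ℕ) (D : Subgroup G), D ≠ ⊥ → Nat.card G - Nat.card D = n → ∀ S T : Sylow p G,
      D ≤ S → D ≤ T → ChainRel p (WW p f) D S T := by
  intro n
  induction n using Nat.strong_induction_on with
  | _ n IH =>
  intro D hD hn S T hDS hDT
  have hP : ∀ E : Subgroup G, D < E → ∀ S T : Sylow p G, E ≤ S → E ≤ T → ChainRel p (WW p f) D S T := by
    intro E hE S T hES hET
    have hE0 : E ≠ ⊥ := by
      rintro rfl
      exact hD (le_bot_iff.mp hE.le)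
    have h1 := card_lt_of_lt hE
    have h2 : Nat.card E ≤ Nat.card G := Subgroup.card_le_card_group _
    exact (IH _ (by omega) E hE0 rfl S T hES hET).mono_D hE.le
  have hDp : IsPGroup p D := S.isPGroup'.to_le hDS
  by_cases h1 : D = S
  · have hST : S = T := sylow_eq_of_le (h1 ▸ hDT)
    subst hST
    exact ChainRel.refl S hDS
  by_cases h2 : D = T
  · have hST : T = S := sylow_eq_of_le (h2 ▸ hDS)
    subst hST
    exact ChainRel.refl T hDT
  have hS' := growth S.isPGroup' (lt_of_le_of_ne hDS h1)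
  have hT' := growth T.isPGroup' (lt_of_le_of_ne hDT h2)
  obtain ⟨M, hM, hle⟩ := exists_maximal_plocal (p := p) (N := Subgroup.normalizer (D : Set G))
    ⟨D, hDp, hD, rfl⟩
  obtain ⟨S₁, hS₁, hS₁s⟩ := exists_adapted M _ (S.isPGroup'.to_le inf_le_left) (inf_le_right.trans hle)
  obtain ⟨T₁, hT₁, hT₁s⟩ := exists_adapted M _ (T.isPGroup'.to_le inf_le_left) (inf_le_right.trans hle)
  have c1 := hP _ hS' S S₁ inf_le_left hS₁
  have c2 := hP _ hT' T T₁ inf_le_left hT₁
  have c3 := Q_step hf hf1 hD hP _ M S₁ T₁ hM hS₁s hT₁s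
    (lt_of_lt_of_le hS' (le_inf hS₁ (inf_le_right.trans hle)))
    (lt_of_lt_of_le hT' (le_inf hT₁ (inf_le_right.trans hle))) rfl
  exact c1.trans (c3.trans c2.symm)


/-- Let p be a prime dividing the order of the finite group G, and f an assignment to every p-subgroup P of a set f(P) of subgroups of P, each normalized by N_G(P), compatible with conjugation, such that for P ≠ 1 the members of f(P) are nontrivial. Let 𝓕 be the family of the normalizers N_G(F) of the members F of f(S) over the Sylow p-subgroups S of G, and 𝓕' the family of the maximal p-local subgroups M of G that are singular for f (the corresponding family of normalizers inside M does not control Sylow p-intersections in M). Then 𝓕 ∪ 𝓕' controls Sylow p-intersections in G. -/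
theorem result {G : Type*} [Group G] [Finite G] (p : ℕ) [Fact p.Prime] (hdiv : p ∣ Nat.card G)
    (f : Subgroup G → Set (Subgroup G)) (hf : Cfsg.IsNormalizerFunctor p f)
    (hf1 : ∀ P : Subgroup G, IsPGroup p ↥P → P ≠ ⊥ → ∀ F ∈ f P, F ≠ ⊥)
    (𝓕 𝓕' : Set (Subgroup G)) (h𝓕 : 𝓕 = Cfsg.functorFamily p f ⊤)
    (h𝓕' : 𝓕' = {M | Cfsg.IsMaximalPLocal p M ∧ ¬ Cfsg.IsFunctorRegular p f M}) :
    Cfsg.ControlsSylowIntersections p (𝓕 ∪ 𝓕') := by
  subst h𝓕 h𝓕'
  refine controls_iff.mpr ?_
  intro S T _ hbot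
  exact P_main hf hf1 _ _ hbot rfl S T inf_le_left inf_le_right


end Cfsg.Agent.S2956
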