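import Mathlib
import Cfsg.Statements.S2957
import Cfsg.Agent.Lib.FunctorChain
import Cfsg.Agent.S2940

set_option autoImplicit false
open Cfsg

namespace Cfsg.Agent.S2957

open Cfsg.Agent.Lib.SylowChainTools Cfsg.Agent.Lib.FunctorChain


/-- Let p be a prime dividing the order of the finite group G, f an equivariant assignment of a set of subgroups f(P) of P to every p-subgroup P, each normalized by N_G(P), and S a Sylow p-subgroup. If G = G₁G₂ for subgroups G₁, G₂ both containing S and both regular for f (in each Gᵢ, the family of normalizers in Gᵢ of the members of f(P), P a Sylow p-subgroup of Gᵢ, controls Sylow p-intersections), then G itself is regular for f. -/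
theorem result {G : Type*} [Group G] [Finite G] (p : ℕ) [Fact p.Prime] (hdiv : p ∣ Nat.card G)
    (f : Subgroup G → Set (Subgroup G)) (hf : Cfsg.IsNormalizerFunctor p f) (S : Sylow p G)
    (G₁ G₂ : Subgroup G) (h₁ : (S : Subgroup G) ≤ G₁) (h₂ : (S : Subgroup G) ≤ G₂)
    (hprod : ∀ g : G, ∃ g₁ ∈ G₁, ∃ g₂ ∈ G₂, g = g₁ * g₂)
    (hr₁ : Cfsg.IsFunctorRegular p f G₁) (hr₂ : Cfsg.IsFunctorRegular p f G₂) :
    Cfsg.IsFunctorRegular p f ⊤ := by
  classical
  have hN := isNormalSet_family (p := p) hf
  -- the case of `S` and a conjugate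
  have key : ∀ g : G, (S : Subgroup G) ⊓ subgroupConjRight g (S : Subgroup G) ≠ ⊥ →
      ChainRel p (functorFamily p f ⊤) ((S : Subgroup G) ⊓ subgroupConjRight g (S : Subgroup G)) S
        (sylowConjRight g S) := by
    intro g hbot
    obtain ⟨U, hU1, hU2⟩ := Cfsg.Agent.S2940.result S G₁ G₂ h₁ h₂ hprod g
    set D : Subgroup G := (S : Subgroup G) ⊓ subgroupConjRight g (S : Subgroup G) with hD
    have hU₁ : (U : Subgroup G) ≤ G₁ := hU2.trans inf_le_left
    have hU₂ : (U : Subgroup G) ≤ subgroupConjRight g G₂ := hU2.trans inf_le_right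
    have hD1 : D ≤ (S : Subgroup G) ⊓ (U : Subgroup G) := le_inf inf_le_left hU1
    have hbot1 : (S : Subgroup G) ⊓ (U : Subgroup G) ≠ ⊥ := fun h => hbot (le_bot_iff.mp (h ▸ hD1))
    have c1 : ChainRel p (functorFamily p f ⊤) D S U :=
      (chainRel_of_regular hf hr₁ S U h₁ hU₁ hbot1).mono_D hD1
    -- the second chain, conjugated back
    let U' : Sylow p G := sylowConjRight g⁻¹ U
    have hU'2 : (U' : Subgroup G) ≤ G₂ := by
      have := conjRight_le (g := g⁻¹) hU₂
      rwa [conjRight_inv_conjRight] at this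
    have hinf : subgroupConjRight g ((U' : Subgroup G) ⊓ (S : Subgroup G)) =
        (U : Subgroup G) ⊓ subgroupConjRight g (S : Subgroup G) := by
      rw [conjRight_inf]
      show subgroupConjRight g (subgroupConjRight g⁻¹ (U : Subgroup G)) ⊓ _ = _
      rw [conjRight_conjRight_inv]
    have hD2 : D ≤ (U : Subgroup G) ⊓ subgroupConjRight g (S : Subgroup G) := le_inf hU1 inf_le_right
    have hbot2 : (U' : Subgroup G) ⊓ (S : Subgroup G) ≠ ⊥ := by
      intro h
      rw [h] at hinf
      have e : subgroupConjRight g (⊥ : Subgroup G) = ⊥ := by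
        unfold subgroupConjRight
        exact Subgroup.map_bot _
      rw [e] at hinf
      exact hbot (le_bot_iff.mp (hinf ▸ hD2))
    have c2 := chainRel_of_regular hf hr₂ U' S hU'2 h₂ hbot2
    have c3 := ChainRel.conj hN c2 g
    rw [hinf] at c3
    have e : sylowConjRight g U' = U := by
      apply Sylow.ext
      show subgroupConjRight g (subgroupConjRight g⁻¹ (U : Subgroup G)) = _
      rw [conjRight_conjRight_inv]
    rw [e] at c3
    exact c1.trans (c3.mono_D hD2)
  apply regular_top_of_chain
  intro A B _ hbot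
  obtain ⟨a, ha⟩ := exists_conjRight_eq S A
  obtain ⟨b, hb⟩ := exists_conjRight_eq S (sylowConjRight a⁻¹ B)
  have hA : sylowConjRight a S = A := Sylow.ext ha
  have hB : sylowConjRight b S = sylowConjRight a⁻¹ B := Sylow.ext hb
  have hBa : sylowConjRight a (sylowConjRight b S) = B := by
    rw [hB, ← sylowConjRight_mul]
    simp [sylowConjRight_one]
  have hinf : subgroupConjRight a ((S : Subgroup G) ⊓ subgroupConjRight b (S : Subgroup G)) =
      (A : Subgroup G) ⊓ (B : Subgroup G) := by
    rw [conjRight_inf, ha]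
    congr 1
    rw [← hBa]
    rfl
  have hbot' : (S : Subgroup G) ⊓ subgroupConjRight b (S : Subgroup G) ≠ ⊥ := by
    intro h
    rw [h] at hinf
    apply hbot
    rw [← hinf]
    unfold subgroupConjRight
    exact Subgroup.map_bot _
  have c := ChainRel.conj hN (key b hbot') a
  rw [hinf, hA, hBa] at c
  exact c


end Cfsg.Agent.S2957
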