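import Mathlib
import Cfsg.Statements.S2958

set_option autoImplicit false
open Cfsg

namespace Cfsg.Agent.S2958

/-- Let X, A, B be subgroups of a group G such that G is generated by the conjugates of X and every conjugate of X is contained in A or in B. Then A = G or B = G. -/
theorem result {G : Type*} [Group G] (X A B : Subgroup G) (hgen : (⨆ g : G, X.map (MulAut.conj g).toMonoidHom) = ⊤) (hcover : ∀ g : G, X.map (MulAut.conj g).toMonoidHom ≤ A ∨ X.map (MulAut.conj g).toMonoidHom ≤ B) : A = ⊤ ∨ B = ⊤ := by
  classical
  by_cases hB : ∀ g : G, X.map (MulAut.conj g).toMonoidHom ≤ B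
  · right
    rw [eq_top_iff, ← hgen]
    exact iSup_le hB
  · left
    push Not at hB
    obtain ⟨g₀, hg₀⟩ := hB
    -- `N` is generated by the conjugates of `X` not inside `B`.
    set N : Subgroup G := ⨆ g : {g : G // ¬ X.map (MulAut.conj g).toMonoidHom ≤ B},
      X.map (MulAut.conj (g : G)).toMonoidHom with hN
    have hNA : N ≤ A := by
      refine iSup_le fun g => ?_
      rcases hcover g with h | h
      · exact h
      · exact absurd h g.2
    -- conjugation of `X^g` by `h`
    have hconj : ∀ (h g : G), (X.map (MulAut.conj g).toMonoidHom).map (MulAut.conj h).toMonoidHom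
        = X.map (MulAut.conj (h * g)).toMonoidHom := by
      intro h g
      rw [Subgroup.map_map]
      congr 1
      ext x
      simp [MulAut.conj_apply, mul_assoc]
    -- `B` normalizes `N`
    have hBN : ∀ b ∈ B, N.map (MulAut.conj b).toMonoidHom ≤ N := by
      intro b hb
      rw [hN, Subgroup.map_iSup]
      refine iSup_le fun g => ?_
      rw [hconj]
      have hnot : ¬ X.map (MulAut.conj (b * (g : G))).toMonoidHom ≤ B := by
        intro hle
        apply g.2
        intro y hy
        have h1 : (MulAut.conj b).toMonoidHom y ∈ B := by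
          apply hle
          rw [← hconj]
          exact Subgroup.mem_map_of_mem _ hy
        have h2 : b * y * b⁻¹ ∈ B := by simpa [MulAut.conj_apply] using h1
        have h3 : b⁻¹ * (b * y * b⁻¹) * b ∈ B := B.mul_mem (B.mul_mem (B.inv_mem hb) h2) hb
        simpa [mul_assoc] using h3
      exact le_iSup (fun g : {g : G // ¬ X.map (MulAut.conj g).toMonoidHom ≤ B} =>
        X.map (MulAut.conj (g : G)).toMonoidHom) ⟨b * g, hnot⟩
    -- finite-free: use equality via inverse
    have hBN' : ∀ b ∈ B, ∀ x ∈ N, b * x * b⁻¹ ∈ N := by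
      intro b hb x hx
      have := hBN b hb (Subgroup.mem_map_of_mem _ hx)
      simpa [MulAut.conj_apply] using this
    -- the set of elements normalizing `N` (both directions)
    let Nm : Subgroup G :=
      { carrier := {y | (∀ x ∈ N, y * x * y⁻¹ ∈ N) ∧ (∀ x ∈ N, y⁻¹ * x * y ∈ N)}
        one_mem' := by simp
        mul_mem' := by
          intro a b ha hb
          constructor
          · intro x hx
            have := ha.1 _ (hb.1 x hx)
            simpa [mul_assoc] using this
          · intro x hx
            have := hb.2 _ (ha.2 x hx)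
            simpa [mul_assoc] using this
        inv_mem' := by
          intro a ha
          constructor
          · intro x hx
            simpa using ha.2 x hx
          · intro x hx
            simpa using ha.1 x hx }
    have hNm : ∀ g : G, X.map (MulAut.conj g).toMonoidHom ≤ Nm := by
      intro g y hy
      by_cases hg : X.map (MulAut.conj g).toMonoidHom ≤ B
      · have hyB := hg hy
        exact ⟨fun x hx => hBN' y hyB x hx, fun x hx => by
          have := hBN' y⁻¹ (B.inv_mem hyB) x hx
          simpa using this⟩
      · have hyN : y ∈ N := (le_iSup (fun g : {g : G // ¬ X.map (MulAut.conj g).toMonoidHom ≤ B} =>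
          X.map (MulAut.conj (g : G)).toMonoidHom) ⟨g, hg⟩) hy
        exact ⟨fun x hx => N.mul_mem (N.mul_mem hyN hx) (N.inv_mem hyN),
          fun x hx => N.mul_mem (N.mul_mem (N.inv_mem hyN) hx) hyN⟩
    have hNmtop : Nm = ⊤ := by
      rw [eq_top_iff, ← hgen]
      exact iSup_le hNm
    have hX₀ : X.map (MulAut.conj g₀).toMonoidHom ≤ N :=
      le_iSup (fun g : {g : G // ¬ X.map (MulAut.conj g).toMonoidHom ≤ B} =>
        X.map (MulAut.conj (g : G)).toMonoidHom) ⟨g₀, hg₀⟩
    have hall : ∀ g : G, X.map (MulAut.conj g).toMonoidHom ≤ N := by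
      intro g y hy
      obtain ⟨x, hx, rfl⟩ := hy
      have hx₀ : g₀ * x * g₀⁻¹ ∈ N := hX₀ (Subgroup.mem_map_of_mem _ hx)
      have hmem : g * g₀⁻¹ ∈ Nm := by rw [hNmtop]; trivial
      have := hmem.1 _ hx₀
      have h3 : (g * g₀⁻¹) * (g₀ * x * g₀⁻¹) * (g * g₀⁻¹)⁻¹ = g * x * g⁻¹ := by group
      rw [h3] at this
      simpa [MulAut.conj_apply] using this
    rw [eq_top_iff]
    calc (⊤ : Subgroup G) = ⨆ g : G, X.map (MulAut.conj g).toMonoidHom := hgen.symm
      _ ≤ N := iSup_le hall
      _ ≤ A := hNA

end Cfsg.Agent.S2958
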