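import Mathlib
import Cfsg.Statements.S2963

set_option autoImplicit false
open Cfsg

namespace Cfsg.Agent.S2963

open Equiv

/-- The setwise stabilizer. -/
private def setStab {Ω : Type*} (s : Set Ω) : Subgroup (Perm Ω) where
  carrier := {σ | ∀ a, σ a ∈ s ↔ a ∈ s}
  mul_mem' := by
    intro σ τ hσ hτ a
    show σ (τ a) ∈ s ↔ a ∈ s
    rw [hσ, hτ]
  one_mem' := fun a => Iff.rfl
  inv_mem' := by
    intro σ hσ a
    have := hσ (σ⁻¹ a)
    have e : σ (σ⁻¹ a) = a := by simp
    rw [e] at this
    exact this.symm

private theorem mem_setStab {Ω : Type*} {s : Set Ω} {σ : Perm Ω} :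
    σ ∈ setStab s ↔ ∀ a, σ a ∈ s ↔ a ∈ s := Iff.rfl

private theorem swap_mem_setStab {Ω : Type*} [DecidableEq Ω] {s : Set Ω} {x y : Ω}
    (h : x ∈ s ↔ y ∈ s) : Equiv.swap x y ∈ setStab s := by
  rw [mem_setStab]
  intro a
  rw [Equiv.swap_apply_def]
  split_ifs with h1 h2
  · subst h1; exact h.symm
  · subst h2; exact h
  · exact Iff.rfl

private theorem setStab_ne_top {Ω : Type*} [DecidableEq Ω] {s : Set Ω} {x y : Ω} (hx : x ∈ s)
    (hy : y ∉ s) : setStab s ≠ ⊤ := by
  intro h
  have h1 : Equiv.swap x y ∈ setStab s := by rw [h]; trivial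
  have h2 := (mem_setStab.mp h1) x
  rw [Equiv.swap_apply_left] at h2
  exact hy (h2.mpr hx)

/-- Let n be odd. If the symmetric group of degree n is a minimal parabolic group for the prime 2, that is, a Sylow 2-subgroup is not normal and lies in exactly one maximal subgroup, then n = 2^m + 1 for some natural number m. -/
theorem result (n : ℕ) (hn : Odd n) (h : Cfsg.IsPMinimal 2 (Equiv.Perm (Fin n))) : ∃ m : ℕ, n = 2 ^ m + 1 := by
  classical
  have : Fact (Nat.Prime 2) := ⟨Nat.prime_two⟩
  obtain ⟨S⟩ : Nonempty (Sylow 2 (Perm (Fin n))) := inferInstance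
  obtain ⟨hnorm, M, ⟨hM, hSM⟩, hMuniq⟩ := h S
  have hSp : IsPGroup 2 (S : Subgroup (Perm (Fin n))) := S.isPGroup'
  -- fixed point
  have hnd : ¬ 2 ∣ Nat.card (Fin n) := by
    rw [Nat.card_fin]
    exact hn.not_two_dvd_nat
  obtain ⟨pt, hpt⟩ := hSp.nonempty_fixed_point_of_prime_not_dvd_card (Fin n) hnd
  have hpt' : ∀ s ∈ (S : Subgroup (Perm (Fin n))), s pt = pt := fun s hs => hpt ⟨s, hs⟩
  -- `n ≠ 1`
  have hn1 : ∃ y : Fin n, y ≠ pt := by
    by_contra hcon
    push Not at hcon
    apply hnorm
    have : Subsingleton (Fin n) := ⟨fun a b => by rw [hcon a, hcon b]⟩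
    have h1 : (S : Subgroup (Perm (Fin n))) = ⊤ := by
      rw [eq_top_iff]
      intro σ _
      have : σ = 1 := Subsingleton.elim _ _
      rw [this]
      exact Subgroup.one_mem _
    rw [h1]
    infer_instance
  obtain ⟨y, hy⟩ := hn1
  set O : Set (Fin n) := MulAction.orbit (S : Subgroup (Perm (Fin n))) y with hO
  have hptO : pt ∉ O := by
    rintro ⟨s, hs⟩
    have h1 : (s : Perm (Fin n)) y = pt := hs
    have h2 : (s : Perm (Fin n)) pt = pt := hpt' s s.2
    exact hy ((s : Perm (Fin n)).injective (h1.trans h2.symm))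
  have hyO : y ∈ O := MulAction.mem_orbit_self y
  have hOinv : ∀ s ∈ (S : Subgroup (Perm (Fin n))), ∀ a, s a ∈ O ↔ a ∈ O := by
    intro s hs a
    constructor
    · rintro ⟨t, ht⟩
      refine ⟨(⟨s, hs⟩ : (S : Subgroup (Perm (Fin n))))⁻¹ * t, ?_⟩
      have ht' : t • y = s a := ht
      show ((⟨s, hs⟩ : (S : Subgroup (Perm (Fin n))))⁻¹ * t) • y = a
      rw [mul_smul, ht']
      show s⁻¹ (s a) = a
      simp
    · rintro ⟨t, rfl⟩
      refine ⟨(⟨s, hs⟩ : (S : Subgroup (Perm (Fin n)))) * t, ?_⟩
      show ((⟨s, hs⟩ : (S : Subgroup (Perm (Fin n)))) * t) • y = s (t • y)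
      rw [mul_smul]
      rfl
  by_cases hall : ∀ b : Fin n, b ≠ pt → b ∈ O
  · -- transitive on the rest
    obtain ⟨m, hm⟩ := hSp.card_orbit y
    refine ⟨m, ?_⟩
    have h1 : O = {pt}ᶜ := by
      ext b
      simp only [Set.mem_compl_iff, Set.mem_singleton_iff]
      constructor
      · rintro hb rfl
        exact hptO hb
      · exact hall b
    have h2 : Nat.card O = n - 1 := by
      rw [h1, Nat.card_coe_set_eq, Set.ncard_compl, Set.ncard_singleton, Nat.card_fin]
    have h3 : 0 < n := hn.pos
    rw [← hO] at hm
    have h4 : n - 1 = 2 ^ m := by rw [← h2]; exact hm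
    omega
  · exfalso
    push Not at hall
    obtain ⟨z, hz1, hz2⟩ := hall
    -- three stabilizers
    have key : ∀ X : Subgroup (Perm (Fin n)), (S : Subgroup (Perm (Fin n))) ≤ X → X ≠ ⊤ → X ≤ M := by
      intro X hX hne
      rcases IsCoatomic.eq_top_or_exists_le_coatom X with h1 | ⟨a, ha, hXa⟩
      · exact absurd h1 hne
      · have := hMuniq a ⟨ha, hX.trans hXa⟩
        rw [← this]
        exact hXa
    -- the stabilizer of pt
    have hA : setStab ({pt} : Set (Fin n)) ≤ M := by
      apply key
      · intro s hs a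
        simp only [Set.mem_singleton_iff]
        constructor
        · intro h1
          have := hpt' s hs
          exact (s.injective (h1.trans this.symm))
        · rintro rfl
          exact hpt' s hs
      · exact setStab_ne_top (x := pt) (y := y) rfl hy
    -- the stabilizer of O
    have hB : setStab O ≤ M := by
      apply key
      · intro s hs a
        exact hOinv s hs a
      · exact setStab_ne_top hyO hptO
    -- the stabilizer of the rest
    have hC : setStab ({pt} ∪ O : Set (Fin n))ᶜ ≤ M := by
      apply key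
      · intro s hs a
        simp only [Set.mem_compl_iff, Set.mem_union, Set.mem_singleton_iff, not_or, hOinv s hs a]
        constructor
        · rintro ⟨h1, h2⟩
          refine ⟨?_, h2⟩
          rintro rfl
          exact h1 (hpt' s hs)
        · rintro ⟨h1, h2⟩
          refine ⟨?_, h2⟩
          intro h3
          apply h1
          have := hpt' s hs
          exact s.injective (h3.trans this.symm)
      · apply setStab_ne_top (x := z) (y := pt)
        · simp only [Set.mem_compl_iff, Set.mem_union, Set.mem_singleton_iff, not_or]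
          exact ⟨hz1, hz2⟩
        · simp
    -- every swap lies in `M`
    have hswap : ∀ σ : Perm (Fin n), σ.IsSwap → σ ∈ M := by
      rintro σ ⟨a, b, hab, rfl⟩
      by_cases ha : a = pt
      · subst ha
        by_cases hb : b ∈ O
        · -- both `a, b` lie in `{pt} ∪ O`
          apply hC
          apply swap_mem_setStab
          simp [hb]
        · apply hB
          apply swap_mem_setStab
          simp [hb, hptO]
      · by_cases hb : b = pt
        · subst hb
          by_cases ha' : a ∈ O
          · apply hC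
            apply swap_mem_setStab
            simp [ha']
          · apply hB
            apply swap_mem_setStab
            simp [ha', hptO]
        · apply hA
          apply swap_mem_setStab
          simp [ha, hb]
    have htop : M = ⊤ := by
      rw [eq_top_iff, ← Equiv.Perm.closure_isSwap, Subgroup.closure_le]
      exact fun σ hσ => hswap σ hσ
    exact hM.1 htop

end Cfsg.Agent.S2963
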