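import Mathlib
import Cfsg.Statements.S2998
import Cfsg.Agent.Lib.SylowConjLemmas
import Cfsg.Agent.Lib.CharTwoLocal
import Cfsg.Agent.Lib.Replacement

set_option autoImplicit false
open Cfsg

namespace Cfsg.Agent.S2998

open Cfsg.Agent.Lib

private theorem conj_eq_aux {G : Type*} [Group G] [Finite G] {p : ℕ} [Fact p.Prime] (P : Sylow p G)
    (x : G)
    (hlc : ∀ R : Subgroup G, R ≤ (P : Subgroup G) → R ≠ ⊥ →
      Subgroup.normalizer (R : Set G) ≤ Subgroup.centralizer ({x} : Set G)) :
    ∀ (n : ℕ) (W : Subgroup G) (c : G), Nat.card G - Nat.card W = n → W ≠ ⊥ →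
      W ≤ (P : Subgroup G) → (∀ w ∈ W, c⁻¹ * w * c ∈ (P : Subgroup G)) → c * x * c⁻¹ = x := by
  intro n
  induction n using Nat.strong_induction_on with
  | _ n ih =>
  intro W c hn hW hWP hWc
  have hcomm : ∀ y ∈ Subgroup.centralizer ({x} : Set G), y * x * y⁻¹ = x := by
    intro y hy
    have := (Subgroup.mem_centralizer_iff.mp hy) x (Set.mem_singleton _)
    rw [← this]; group
  have hPne : (P : Subgroup G) ≠ ⊥ := fun h => hW (le_bot_iff.mp (h ▸ hWP))
  -- the conjugate
  set Pc : Subgroup G := (P : Subgroup G).map (MulAut.conj c).toMonoidHom with hPc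
  have hmemPc : ∀ y, y ∈ Pc ↔ c⁻¹ * y * c ∈ (P : Subgroup G) :=
    fun y => SylowConjLemmas.mem_map_conj (P : Subgroup G) c y
  have hPcp : IsPGroup p Pc := P.isPGroup'.map _
  by_cases h1 : (P : Subgroup G) ≤ Pc
  · have h : c⁻¹ ∈ Subgroup.normalizer ((P : Subgroup G) : Set G) := by
      apply Replacement.mem_normalizer_of_forall
      intro y hy
      have := (hmemPc y).mp (h1 hy)
      simpa using this
    have h' : c ∈ Subgroup.normalizer ((P : Subgroup G) : Set G) := by
      simpa using Subgroup.inv_mem _ h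
    exact hcomm c (hlc _ le_rfl hPne h')
  by_cases h2 : Pc ≤ (P : Subgroup G)
  · have h : c ∈ Subgroup.normalizer ((P : Subgroup G) : Set G) := by
      apply Replacement.mem_normalizer_of_forall
      intro y hy
      apply h2
      rw [hmemPc]
      have e : c⁻¹ * (c * y * c⁻¹) * c = y := by group
      rw [e]; exact hy
    exact hcomm c (hlc _ le_rfl hPne h)
  -- main case
  set D : Subgroup G := (P : Subgroup G) ⊓ Pc with hD
  have hWD : W ≤ D := le_inf hWP (fun w hw => (hmemPc w).mpr (hWc w hw))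
  have hDne : D ≠ ⊥ := fun h => hW (le_bot_iff.mp (h ▸ hWD))
  have hDP : D < (P : Subgroup G) := lt_of_le_of_ne inf_le_left
    (fun h => h1 (by rw [← h]; exact inf_le_right))
  have hDPc : D < Pc := lt_of_le_of_ne inf_le_right
    (fun h => h2 (by rw [← h]; exact inf_le_left))
  obtain ⟨y₁, hy₁P, hy₁D, hy₁N⟩ := CharTwoLocal.exists_mem_normalizer_of_lt P.isPGroup' hDP
  obtain ⟨y₂, hy₂P, hy₂D, hy₂N⟩ := CharTwoLocal.exists_mem_normalizer_of_lt hPcp hDPc
  set N : Subgroup G := Subgroup.normalizer (D : Set G) with hN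
  set T : Subgroup G := (P : Subgroup G) ⊓ N with hT
  set T' : Subgroup G := Pc ⊓ N with hT'
  have hDN : D ≤ N := Subgroup.le_normalizer
  have hDT : D ≤ T := le_inf hDP.le hDN
  have hDT' : D ≤ T' := le_inf hDPc.le hDN
  have hlt : ∀ U : Subgroup G, D < U → Nat.card W < Nat.card U := by
    intro U hU
    have h3 : Nat.card W ≤ Nat.card D := Subgroup.card_le_of_le hWD
    have h4 : Nat.card D < Nat.card U := by
      apply lt_of_le_of_ne (Subgroup.card_le_of_le hU.le)
      intro h5
      exact hU.ne (Subgroup.eq_of_le_of_card_ge hU.le h5.ge)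
    omega
  have hDTlt : D < T := lt_of_le_of_ne hDT (fun h => hy₁D (by rw [h]; exact ⟨hy₁P, hy₁N⟩))
  have hDT'lt : D < T' := lt_of_le_of_ne hDT' (fun h => hy₂D (by rw [h]; exact ⟨hy₂P, hy₂N⟩))
  have hTp : IsPGroup p T := P.isPGroup'.to_le inf_le_left
  have hT'p : IsPGroup p T' := hPcp.to_le inf_le_left
  have hNC : N ≤ Subgroup.centralizer ({x} : Set G) := hlc D inf_le_left hDne
  -- Sylow of N
  have hT0 : IsPGroup p (T.subgroupOf N) := hTp.comap_of_injective N.subtype N.subtype_injective
  have hT'0 : IsPGroup p (T'.subgroupOf N) := hT'p.comap_of_injective N.subtype N.subtype_injective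
  obtain ⟨S₁, hS₁⟩ := hT0.exists_le_sylow
  obtain ⟨u, hu⟩ := SylowConjLemmas.exists_conj_mem S₁ (T'.subgroupOf N) hT'0
  set Q : Subgroup G := (S₁ : Subgroup N).map N.subtype with hQ
  have hQp : IsPGroup p Q := S₁.isPGroup'.map _
  obtain ⟨a, ha⟩ := SylowConjLemmas.exists_conj_mem P Q hQp
  have hTQ : T ≤ Q := by
    intro t ht
    exact ⟨⟨t, ht.2⟩, hS₁ (Subgroup.mem_subgroupOf.mpr ht), rfl⟩
  have huQ : ∀ t ∈ T', (u : G) * t * (u : G)⁻¹ ∈ Q := by
    intro t ht
    have := hu ⟨t, ht.2⟩ (Subgroup.mem_subgroupOf.mpr ht)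
    exact ⟨_, this, by simp⟩
  have hW_le_G : ∀ U : Subgroup G, Nat.card U ≤ Nat.card G := fun U => Subgroup.card_le_card_group U
  -- first application
  have hax : a⁻¹ * x * a⁻¹⁻¹ = x := by
    refine ih (Nat.card G - Nat.card T) ?_ T a⁻¹ rfl ?_ inf_le_left ?_
    · have := hlt T hDTlt
      have := hW_le_G T
      have := hW_le_G W
      have : 0 < Nat.card W := Nat.card_pos
      omega
    · intro h
      apply hDne
      exact le_bot_iff.mp (h ▸ hDT)
    · intro w hw
      have := ha w (hTQ hw)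
      simpa using this
  have hax' : a⁻¹ * x * a = x := by simpa using hax
  -- second application
  set T'' : Subgroup G := T'.map (MulAut.conj c⁻¹).toMonoidHom with hT''
  have hmemT'' : ∀ y, y ∈ T'' ↔ c * y * c⁻¹ ∈ T' := by
    intro y
    have := SylowConjLemmas.mem_map_conj T' c⁻¹ y
    rw [inv_inv] at this
    exact this
  have hcardT'' : Nat.card T'' = Nat.card T' := by
    exact Subgroup.card_map_of_injective (MulAut.conj c⁻¹).injective
  have hc2 := ih (Nat.card G - Nat.card T'') ?_ T'' (c⁻¹ * (u : G)⁻¹ * a⁻¹) rfl ?_ ?_ ?_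
  · have hu' : (u : G)⁻¹ * x * (u : G) = x := by
      have := hcomm _ (Subgroup.inv_mem _ (hNC u.2))
      simpa using this
    have e : (c⁻¹ * (u : G)⁻¹ * a⁻¹) * x * (c⁻¹ * (u : G)⁻¹ * a⁻¹)⁻¹ =
        c⁻¹ * ((u : G)⁻¹ * (a⁻¹ * x * a) * (u : G)) * c := by group
    rw [e, hax', hu'] at hc2
    calc c * x * c⁻¹ = c * (c⁻¹ * x * c) * c⁻¹ := by rw [hc2]
      _ = x := by group
  · have := hlt T' hDT'lt
    have := hW_le_G T''
    have := hW_le_G W
    have : 0 < Nat.card W := Nat.card_pos
    omega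
  · intro h
    rw [h] at hcardT''
    have h6 := hlt T' hDT'lt
    have : 0 < Nat.card W := Nat.card_pos
    simp only [Subgroup.card_bot] at hcardT''
    omega
  · intro y hy
    have h7 := (hmemT'' y).mp hy
    have h8 := (hmemPc _).mp h7.1
    have e : c⁻¹ * (c * y * c⁻¹) * c = y := by group
    rwa [e] at h8
  · intro y hy
    have h7 := (hmemT'' y).mp hy
    have h8 := ha _ (huQ _ h7)
    have e : (c⁻¹ * (u : G)⁻¹ * a⁻¹)⁻¹ * y * (c⁻¹ * (u : G)⁻¹ * a⁻¹) =
        a * ((u : G) * (c * y * c⁻¹) * (u : G)⁻¹) * a⁻¹ := by group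
    rw [e]; exact h8

/-- Let G be a finite group, p a prime, P a Sylow p-subgroup of G and x ∈ P an element such that N_G(R) ≤ C_G(x) for every nontrivial subgroup R of P. Then P ≤ C_G(x); every G-conjugate of x lying in P equals x (so g ∈ C_G(x) whenever g x g⁻¹ ∈ P); and for every normal subgroup N of G, the image of x in G ⧸ N has the same property with respect to the image of P: the normalizer of every nontrivial subgroup of the image of P centralizes the image of x. -/
theorem result {G : Type*} [Group G] [Finite G] {p : ℕ} [Fact p.Prime] (P : Sylow p G) (x : G) (hxP : x ∈ (P : Subgroup G)) (hlc : ∀ R : Subgroup G, R ≤ (P : Subgroup G) → R ≠ ⊥ → Subgroup.normalizer (R : Set G) ≤ Subgroup.centralizer ({x} : Set G)) : (P : Subgroup G) ≤ Subgroup.centralizer ({x} : Set G) ∧ (∀ g : G, g * x * g⁻¹ ∈ (P : Subgroup G) → g * x * g⁻¹ = x) ∧ ∀ (N : Subgroup G) [N.Normal], ∀ R : Subgroup (G ⧸ N), R ≤ (P : Subgroup G).map (QuotientGroup.mk' N) → R ≠ ⊥ → Subgroup.normalizer (R : Set (G ⧸ N))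 ≤ Subgroup.centralizer ({(QuotientGroup.mk x : G ⧸ N)} : Set (G ⧸ N)) := by
  classical
  have h1 : (P : Subgroup G) ≤ Subgroup.centralizer ({x} : Set G) := by
    by_cases hP : (P : Subgroup G) = ⊥
    · rw [hP]; exact bot_le
    · exact le_trans Subgroup.le_normalizer (hlc _ le_rfl hP)
  refine ⟨h1, ?_, ?_⟩
  · intro g hg
    by_cases hx : x = 1
    · subst hx; simp
    set W : Subgroup G := Subgroup.zpowers (g * x * g⁻¹) with hW
    apply conj_eq_aux P x hlc _ W g rfl
    · intro h
      apply hx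
      have : g * x * g⁻¹ = 1 := by
        have h' : g * x * g⁻¹ ∈ W := Subgroup.mem_zpowers _
        rw [h] at h'
        exact Subgroup.mem_bot.mp h'
      have h2 : x = g⁻¹ * (g * x * g⁻¹) * g := by group
      rw [h2, this]; group
    · exact (Subgroup.zpowers_le).mpr hg
    · intro w hw
      obtain ⟨k, rfl⟩ := Subgroup.mem_zpowers_iff.mp hw
      have e : g⁻¹ * (g * x * g⁻¹) ^ k * g = x ^ k := by
        have := map_zpow (MulAut.conj g⁻¹).toMonoidHom (g * x * g⁻¹) k
        simp only [MulEquiv.toMonoidHom_eq_coe, MonoidHom.coe_coe, MulAut.conj_apply, inv_inv] at this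
        have e2 : g⁻¹ * (g * x * g⁻¹) * g = x := by group
        rw [e2] at this
        rw [this]
      rw [e]
      exact Subgroup.zpow_mem _ hxP k
  · intro N _ R hRP hR
    intro gbar hgbar
    obtain ⟨g, rfl⟩ := QuotientGroup.mk_surjective gbar
    rw [Subgroup.mem_centralizer_iff]
    intro y hy
    rw [Set.mem_singleton_iff] at hy
    subst hy
    -- U the preimage
    set U : Subgroup G := R.comap (QuotientGroup.mk' N) with hU
    have hNU : N ≤ U := by
      intro n hn
      have h0 : QuotientGroup.mk' N n = 1 := (QuotientGroup.eq_one_iff n).mpr hn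
      show QuotientGroup.mk' N n ∈ R
      rw [h0]
      exact R.one_mem
    have hUsup : U ≤ (P : Subgroup G) ⊔ N := by
      intro u hu
      have := hRP hu
      obtain ⟨p', hp', h3⟩ := this
      have h4 : p'⁻¹ * u ∈ N := by
        rw [← QuotientGroup.eq_one_iff]
        have : ((p'⁻¹ * u : G) : G ⧸ N) = ((p' : G) : G ⧸ N)⁻¹ * (u : G ⧸ N) := rfl
        rw [this]
        have h5 : ((p' : G) : G ⧸ N) = (u : G ⧸ N) := h3
        rw [h5]; group
      have : u = p' * (p'⁻¹ * u) := by group
      rw [this]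
      exact Subgroup.mul_mem _ (Subgroup.mem_sup_left hp') (Subgroup.mem_sup_right h4)
    have hRp : IsPGroup p R := (P.isPGroup'.map _).to_le hRP
    have hpdvd : p ∣ Nat.card U := by
      have hsurj : Function.Surjective (fun u : U => (⟨QuotientGroup.mk' N u, u.2⟩ : R)) := by
        intro r
        obtain ⟨g', hg'⟩ := QuotientGroup.mk_surjective (r : G ⧸ N)
        refine ⟨⟨g', ?_⟩, ?_⟩
        · show QuotientGroup.mk' N g' ∈ R
          have : QuotientGroup.mk' N g' = (r : G ⧸ N) := hg'
          rw [this]; exact r.2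
        · apply Subtype.ext
          exact hg'
      let f : U →* R := ((QuotientGroup.mk' N).comp U.subtype).codRestrict R (fun u => u.2)
      have hf : Function.Surjective f := hsurj
      have hdvd : Nat.card R ∣ Nat.card U := Subgroup.card_dvd_of_surjective f hf
      have hR' : Nat.card R ≠ 1 := by
        intro h
        exact hR ((Subgroup.card_eq_one).mp h)
      rcases hRp.card_eq_or_dvd with h | h
      · exact absurd h hR'
      · exact h.trans hdvd
    obtain ⟨S⟩ : Nonempty (Sylow p U) := inferInstance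
    have hSne : (S : Subgroup U) ≠ ⊥ := S.ne_bot_of_dvd_card hpdvd
    -- conjugate S into P
    set S' : Subgroup G := (S : Subgroup U).map U.subtype with hS'
    have hS'p : IsPGroup p S' := S.isPGroup'.map _
    have hS'U : S' ≤ U := by
      rintro _ ⟨s, -, rfl⟩
      exact s.2
    obtain ⟨n, hnN, hn⟩ := SylowConjLemmas.exists_conj_mem_of_le_sup P N S' hS'p (hS'U.trans hUsup)
    -- conjugate in U of S
    let n' : U := ⟨n, hNU hnN⟩
    set S₀ : Sylow p U := n' • S with hS₀
    set T : Subgroup G := (S₀ : Subgroup U).map U.subtype with hT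
    have hS₀mem : ∀ y, y ∈ (S₀ : Subgroup U) ↔ n'⁻¹ * y * n' ∈ (S : Subgroup U) := by
      intro y
      rw [hS₀, Sylow.smul_def, Sylow.pointwise_smul_def]
      constructor
      · rintro ⟨s, hs, rfl⟩
        have e : n'⁻¹ * (MulAut.conj n' s) * n' = s := by
          simp only [MulAut.conj_apply]; group
        show n'⁻¹ * (MulAut.conj n' s) * n' ∈ (S : Subgroup U)
        rw [e]
        exact hs
      · intro h
        refine ⟨_, h, ?_⟩
        show n' * (n'⁻¹ * y * n') * n'⁻¹ = y
        group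
    have hTP : T ≤ (P : Subgroup G) := by
      rintro _ ⟨s, hs, rfl⟩
      have := (hS₀mem s).mp hs
      have h2 := hn _ ⟨_, this, rfl⟩
      have e : n * ((U.subtype (n'⁻¹ * s * n'))) * n⁻¹ = U.subtype s := by
        show n * (n⁻¹ * (s : G) * n) * n⁻¹ = (s : G)
        group
      rwa [e] at h2
    have hTne : T ≠ ⊥ := by
      intro h
      have hS₀ne : (S₀ : Subgroup U) ≠ ⊥ := S₀.ne_bot_of_dvd_card hpdvd
      apply hS₀ne
      rw [eq_bot_iff]
      intro s hs
      have : (s : G) ∈ T := ⟨s, hs, rfl⟩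
      rw [h] at this
      exact Subgroup.mem_bot.mpr (Subtype.ext (Subgroup.mem_bot.mp this))
    have hTN := hlc T hTP hTne
    -- g normalizes U
    have hgU : ∀ u ∈ U, g * u * g⁻¹ ∈ U := by
      intro u hu
      have := (Subgroup.mem_normalizer_iff.mp hgbar (QuotientGroup.mk' N u)).mp hu
      exact this
    -- the conjugation by g on U
    let φ : U →* U :=
      { toFun := fun u => ⟨g * u * g⁻¹, hgU u u.2⟩
        map_one' := by apply Subtype.ext; simp
        map_mul' := by
          intro a b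
          apply Subtype.ext
          show g * ((a : G) * (b : G)) * g⁻¹ = (g * a * g⁻¹) * (g * b * g⁻¹)
          group }
    let S₁ : Subgroup U := (S₀ : Subgroup U).map φ
    have hS₁p : IsPGroup p S₁ := S₀.isPGroup'.map _
    obtain ⟨k, hk⟩ := SylowConjLemmas.exists_conj_mem S₀ S₁ hS₁p
    have hkg : (k : G) * g ∈ Subgroup.normalizer (T : Set G) := by
      apply Replacement.mem_normalizer_of_forall
      rintro _ ⟨s, hs, rfl⟩
      have := hk (φ s) ⟨s, hs, rfl⟩
      refine ⟨_, this, ?_⟩
      show (k : G) * (g * s * g⁻¹) * (k : G)⁻¹ = (k : G) * g * s * ((k : G) * g)⁻¹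
      group
    have hkgC := hTN hkg
    have hkgx : x * ((k : G) * g) = ((k : G) * g) * x :=
      (Subgroup.mem_centralizer_iff.mp hkgC) x (Set.mem_singleton _)
    -- k bar in image of P
    obtain ⟨p', hp', hp'k⟩ := hRP k.2
    have hkbar : ((k : G) : G ⧸ N) = (p' : G ⧸ N) := hp'k.symm
    have hp'x : x * p' = p' * x := (Subgroup.mem_centralizer_iff.mp (h1 hp')) x (Set.mem_singleton _)
    have h10 : (x : G ⧸ N) * (k : G) = (k : G) * (x : G ⧸ N) := by
      rw [hkbar]
      exact congrArg (QuotientGroup.mk' N) hp'x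
    have h11 : (x : G ⧸ N) * ((k : G) * (g : G ⧸ N)) = (k : G) * (g : G ⧸ N) * (x : G ⧸ N) :=
      congrArg (QuotientGroup.mk' N) hkgx
    have h12 : (k : G) * ((x : G ⧸ N) * (g : G ⧸ N)) = (k : G) * ((g : G ⧸ N) * (x : G ⧸ N)) := by
      rw [← mul_assoc, ← h10, mul_assoc, h11, mul_assoc]
    exact mul_left_cancel h12

end Cfsg.Agent.S2998
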