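import Cfsg.Statements.S2999
import Cfsg.Agent.Lib.JFMd
import Cfsg.Agent.Lib.FFBridge

set_option autoImplicit false
open Cfsg

namespace Cfsg.Agent.S2999

open Cfsg.Agent.Lib.FFMod Cfsg.Agent.Lib.FFBridge Cfsg.Agent.Lib.JFM

/-- Let p be a prime and let P and V be subgroups of a finite group with V elementary abelian, P normalizing V and acting faithfully on it (P ∩ C(V) = 1). Suppose P is p-minimal (a Sylow p-subgroup T of P is not normal and lies in a unique maximal subgroup M of P) and A ≤ T is an elementary abelian subgroup such that: |V/C_V(A)| ≤ |A| while |A₀|·|C_V(A₀)| < |A|·|C_V(A)| for every nontrivial proper subgroup A₀ of A; [C_V(T), P] ≠ 1; and P = ⟨A, xAx⁻¹⟩ for every x ∈ P outside M. Then, with q = |A|, there is a field F with q elements such that P ≅ SL₂(F), C_V(A) = [V, A]·C_V(P), and P acts on V/C_V(P) as SL₂(F) on its natural two-dimensional module. -/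
theorem result {G : Type*} [Group G] [Finite G] {p : ℕ} [Fact p.Prime] (V P : Subgroup G) (hV : Cfsg.IsElementaryAbelian p V) (hPV : P ≤ Subgroup.normalizer (V : Set G)) (hfaith : P ⊓ Subgroup.centralizer (V : Set G) = ⊥) (hmin : Cfsg.IsPMinimal p ↥P) (T : Sylow p ↥P) (M : Subgroup ↥P) (hM : IsCoatom M) (hTM : (T : Subgroup ↥P) ≤ M) (A : Subgroup G) (hAT : A ≤ ((T : Subgroup ↥P).map P.subtype)) (hAel : Cfsg.IsElementaryAbelian p A) (hi : Nat.card ↥V ≤ Nat.card ↥A * Nat.card ↥(V ⊓ Subgroup.centralizer ((A : Subgroup G) : Set G)) ∧ ∀ A₀ : Subgroup G, A₀ ≤ A → A₀ ≠ ⊥ → A₀ ≠ A → Nat.card ↥A₀ * Nat.card ↥(V ⊓ Subgroup.centralizer ((A₀ : Subgroup G) : Set G)) < Nat.card ↥A * Nat.card ↥(V ⊓ Subgroup.centralizer ((A : Subgroup G) : Set G))) (hii : ⁅(V ⊓ Subgroup.centralizer ((((T : Subgroup ↥P).map P.subtype) : Subgroup G) : Set G)), P⁆ ≠ ⊥) (hiii : ∀ x : ↥P, x ∉ M → A ⊔ A.map (MulAut.conj (x : G)).toMonoidHom = P) : ∃ (F : Type) (_ : Field F) (_ : Fintype F), Fintype.card F = Nat.card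 ↥A ∧ Nonempty (↥P ≃* Matrix.SpecialLinearGroup (Fin 2) F) ∧ (V ⊓ Subgroup.centralizer ((A : Subgroup G) : Set G)) = ⁅V, A⁆ ⊔ (V ⊓ Subgroup.centralizer ((P : Subgroup G) : Set G)) ∧ Cfsg.ActsAsSL2OnSection F ⊤ P V (V ⊓ Subgroup.centralizer ((P : Subgroup G) : Set G)) := by
  classical
  obtain ⟨E, _, _, _, ρ, ι, hm⟩ := exists_model hV hPV
  have hAP : A ≤ P := hAT.trans (Subgroup.map_subtype_le _)
  let A' : Subgroup P := A.subgroupOf P
  have hA'm : A'.map P.subtype = A := Subgroup.map_subgroupOf_eq_of_le hAP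
  have hTmap : ((⊤ : Subgroup P).map P.subtype) = P := by
    rw [← MonoidHom.range_eq_map, Subgroup.range_subtype]
  have hinj := Model.inj_rho hm hfaith
  have hfF : ∀ D : Subgroup P, fF ρ D = Nat.card (D.map P.subtype) *
      Nat.card ↥(V ⊓ Subgroup.centralizer ((D.map P.subtype : Subgroup G) : Set G)) := hm.fF_eq
  have hfFA : fF ρ A' = Nat.card ↥A * Nat.card ↥(V ⊓ Subgroup.centralizer ((A : Subgroup G) : Set G)) := by
    rw [hfF, hA'm]
  have S : Setup ρ T M A' :=
    { inj := hinj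
      nn := (hmin T).1
      uniq := by
        intro M' hM' hTM'
        obtain ⟨M₀, -, hM₀⟩ := (hmin T).2
        rw [hM₀ M' ⟨hM', hTM'⟩, hM₀ M ⟨hM, hTM⟩]
      hM := hM
      hTM := hTM
      hAT := by
        rintro ⟨a, ha⟩ ha'
        obtain ⟨t, ht, hta⟩ := hAT ha'
        have : t = ⟨a, ha⟩ := Subtype.ext hta
        rw [← this]
        exact ht
      comm := by
        rintro ⟨a, ha⟩ ha' ⟨b, hb⟩ hb'
        apply Subtype.ext
        have h : (⟨a, ha'⟩ * ⟨b, hb'⟩ : A) = ⟨b, hb'⟩ * ⟨a, ha'⟩ := hAel.1.is_comm.comm ⟨a, ha'⟩ ⟨b, hb'⟩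
        exact congrArg (fun z : A => (z : G)) h
      pow := by
        rintro ⟨a, ha⟩ ha'
        apply Subtype.ext
        exact hAel.2 a ha'
      H1 := by
        rw [hfFA, hm.card_E]
        exact hi.1
      H2 := by
        intro A₀ hA₀ h0 h1
        rw [hfFA, hfF]
        apply hi.2
        · rw [← hA'm]
          exact Subgroup.map_mono hA₀
        · intro h
          apply h0
          exact (Subgroup.map_eq_bot_iff_of_injective _ P.subtype_injective).mp h
        · intro h
          apply h1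
          apply Subgroup.map_injective P.subtype_injective
          rw [h, hA'm]
      H3 := by
        by_contra hcon
        push Not at hcon
        apply hii
        have h1 : fixS ρ (T : Subgroup P) ≤ fixS ρ (⊤ : Subgroup P) := hcon
        have h2 := toS_mono (ι := ι) h1
        rw [hm.toS_fixS, hm.toS_fixS, hTmap] at h2
        rw [eq_bot_iff, Subgroup.commutator_le]
        intro v hv g hg
        have h3 := h2 hv
        have h4 := (Subgroup.mem_centralizer_iff.mp h3.2) g hg
        rw [Subgroup.mem_bot, commutatorElement_eq_one_iff_commute]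
        exact h4.symm
      H4 := by
        intro x hx
        apply Subgroup.map_injective P.subtype_injective
        rw [Subgroup.map_sup, hA'm, hTmap]
        refine Eq.trans ?_ (hiii x hx)
        congr 1
        ext g
        constructor
        · rintro ⟨_, ⟨⟨a, ha⟩, ha', rfl⟩, rfl⟩
          exact ⟨a, ha', rfl⟩
        · rintro ⟨a, ha, rfl⟩
          exact ⟨_, ⟨⟨a, hAP ha⟩, ha, rfl⟩, rfl⟩ }
  obtain ⟨hU, F, hF, hFt, hcF, r, ψ, hr, hψs, hψ0, hψ⟩ := module_main S
  refine ⟨F, hF, hFt, ?_, ⟨MulEquiv.ofBijective r hr⟩, ?_, hPV, inf_le_left, ?_⟩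
  · rw [hcF]
    exact Nat.card_congr (Subgroup.subgroupOfEquivOfLe hAP).toEquiv
  · have h1 := congrArg (toS ι) hU
    rw [hm.toS_sup, hm.toS_comS, hm.toS_fixS, hm.toS_fixS, hA'm, hTmap] at h1
    exact h1
  · have hex : ∀ u : V, ∃ x : E, ι (Multiplicative.ofAdd x) = u := fun u => hm.exists_of_mem u.2
    choose x hx using hex
    have hxmul : ∀ u u' : V, x (u * u') = x u + x u' := by
      intro u u'
      apply hm.injE
      rw [hm.add, hx, hx, hx]
      rfl
    have hxι : ∀ w : E, x ⟨ι (Multiplicative.ofAdd w), hm.mem_V w⟩ = w := by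
      intro w
      apply hm.injE
      rw [hx]
    refine ⟨r, MonoidHom.mk' (fun u => Multiplicative.ofAdd (ψ (x u))) ?_, ?_, ?_, ?_, ?_⟩
    · intro u u'
      rw [hxmul, map_add]
      rfl
    · exact MonoidHom.range_eq_top.mpr hr.2
    · intro z
      obtain ⟨w, hw⟩ := hψs (Multiplicative.toAdd z)
      refine ⟨⟨ι (Multiplicative.ofAdd w), hm.mem_V w⟩, ?_⟩
      show Multiplicative.ofAdd (ψ (x _)) = z
      rw [hxι, hw]
      rfl
    · intro u
      have h0 : (V ⊓ Subgroup.centralizer ((P : Subgroup G) : Set G)) = toS ι (fixS ρ (⊤ : Subgroup P)) := by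
        rw [hm.toS_fixS, hTmap]
      show Multiplicative.ofAdd (ψ (x u)) = 1 ↔ _
      rw [h0]
      constructor
      · intro h
        have h2 : ψ (x u) = 0 := h
        rw [hψ0] at h2
        have h3 := toS_mem (ι := ι) h2
        rwa [hx] at h3
      · intro h
        obtain ⟨y, hy, hyu⟩ := mem_toS.mp h
        have h2 : y = x u := by
          apply hm.injE
          rw [hyu, hx]
        rw [← h2]
        have h3 : ψ y = 0 := (hψ0 y).mpr hy
        rw [h3]
        rfl
    · intro e u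
      refine ⟨⟨ι (Multiplicative.ofAdd (ρ e (x u))), hm.mem_V _⟩, ?_, ?_⟩
      · show ι (Multiplicative.ofAdd (ρ e (x u))) = _
        rw [hm.act, hx]
      · show ψ (x _) = _
        rw [hxι, hψ]
        rfl

end Cfsg.Agent.S2999
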