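import Mathlib
import Cfsg.Statements.S3003
import Cfsg.Agent.Lib.CoprimeHyper

set_option autoImplicit false
open Cfsg

namespace Cfsg.Agent.S3003

private theorem part1 {G : Type*} [Group G] [Finite G] {p : ℕ} [Fact p.Prime] (Q : Subgroup G)
    (hQp : IsPGroup p ↥Q) (hlarge : Cfsg.IsLarge Q) (G₁ : Subgroup G) (hQG : Q ≤ G₁) (R : Subgroup G)
    (hR : (Nat.card ↥R).Coprime p) (hGR : G₁ ≤ Subgroup.normalizer (R : Set G)) (U : Subgroup G) :
    (∃ x ∈ U, x ≠ 1 ∧ ∃ g ∈ G₁, g * x * g⁻¹ ∈ Q ⊓ Subgroup.centralizer (Q : Set G)) →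
      R ⊓ Subgroup.centralizer (U : Set G) = ⊥ := by
  classical
  rintro ⟨x, hxU, hx1, g, hg, hz⟩
  have hQR : Q ⊓ R = ⊥ := by
    apply Disjoint.eq_bot
    apply Subgroup.disjoint_of_coprime_natCard
    obtain ⟨n, hn⟩ := IsPGroup.iff_card.mp hQp
    rw [hn]
    exact (hR.pow_right n).symm
  rw [eq_bot_iff]
  rintro y ⟨hyR, hyC⟩
  have hxy : x * y = y * x := (Subgroup.mem_centralizer_iff.mp hyC) x hxU
  set z : G := g * x * g⁻¹ with hzdef
  set r : G := g * y * g⁻¹ with hrdef
  have hrR : r ∈ R := (Subgroup.mem_normalizer_iff.mp (hGR hg) y).mp hyR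
  have hz1 : z ≠ 1 := by
    intro h
    apply hx1
    have : x = g⁻¹ * z * g := by rw [hzdef]; group
    rw [this, h]; group
  have hzr : z * r = r * z := by
    rw [hzdef, hrdef]
    calc g * x * g⁻¹ * (g * y * g⁻¹) = g * (x * y) * g⁻¹ := by group
      _ = g * (y * x) * g⁻¹ := by rw [hxy]
      _ = _ := by group
  have hzC : Subgroup.zpowers z ≤ Subgroup.centralizer (Q : Set G) := by
    rw [Subgroup.zpowers_le]
    exact hz.2
  have hzne : Subgroup.zpowers z ≠ ⊥ := by
    intro h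
    exact hz1 (Subgroup.zpowers_eq_bot.mp h)
  have hrN : r ∈ Subgroup.normalizer ((Q : Subgroup G) : Set G) := by
    apply hlarge.2 _ hzC hzne
    apply Subgroup.centralizer_le_normalizer
    rw [Subgroup.mem_centralizer_iff]
    intro h hh
    obtain ⟨k, rfl⟩ := Subgroup.mem_zpowers_iff.mp hh
    exact (Commute.zpow_left hzr k).eq
  have hrC : r ∈ Subgroup.centralizer (Q : Set G) := by
    rw [Subgroup.mem_centralizer_iff]
    intro q hq
    have h1 : r * q * r⁻¹ ∈ Q := (Subgroup.mem_normalizer_iff.mp hrN q).mp hq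
    have h2 : q * r⁻¹ * q⁻¹ ∈ R :=
      (Subgroup.mem_normalizer_iff.mp (hGR (hQG hq)) r⁻¹).mp (R.inv_mem hrR)
    have h3 : r * q * r⁻¹ * q⁻¹ ∈ Q ⊓ R := by
      refine ⟨Q.mul_mem h1 (Q.inv_mem hq), ?_⟩
      have e : r * q * r⁻¹ * q⁻¹ = r * (q * r⁻¹ * q⁻¹) := by group
      show r * q * r⁻¹ * q⁻¹ ∈ R
      rw [e]
      exact R.mul_mem hrR h2
    rw [hQR] at h3
    have h4 : r * q * r⁻¹ * q⁻¹ = 1 := Subgroup.mem_bot.mp h3
    have h5 : r * q = q * r := by
      have : r * q * r⁻¹ = q := by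
        calc r * q * r⁻¹ = (r * q * r⁻¹ * q⁻¹) * q := by group
          _ = q := by rw [h4]; group
      calc r * q = (r * q * r⁻¹) * r := by group
        _ = q * r := by rw [this]
    exact h5.symm
  have hrQ : r ∈ Q := hlarge.1 hrC
  have h6 : r ∈ Q ⊓ R := ⟨hrQ, hrR⟩
  rw [hQR] at h6
  have h7 : r = 1 := Subgroup.mem_bot.mp h6
  have h8 : y = g⁻¹ * r * g := by rw [hrdef]; group
  rw [h8, h7]
  simp

/-- Let G be a finite group, p a prime and Q a large p-subgroup of G: C_G(Q) ≤ Q and N_G(U) ≤ N_G(Q) for every nontrivial subgroup U of C_G(Q). Let Q ≤ G₁ ≤ G, let R be a subgroup of order prime to p normalized by G₁, and let U ≤ G₁ be a p-subgroup. If U contains a nontrivial element which is G₁-conjugate to an element of Z(Q), then C_R(U) = 1. In particular, if U is elementary abelian of order at least p² and every maximal subgroup of U contains a nontrivial element G₁-conjugate into Z(Q), then R = 1. -/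
theorem result {G : Type*} [Group G] [Finite G] {p : ℕ} [Fact p.Prime] (Q : Subgroup G) (hQp : IsPGroup p ↥Q) (hlarge : Cfsg.IsLarge Q) (G₁ : Subgroup G) (hQG : Q ≤ G₁) (R : Subgroup G) (hR : (Nat.card ↥R).Coprime p) (hGR : G₁ ≤ Subgroup.normalizer (R : Set G)) (U : Subgroup G) (hUG : U ≤ G₁) (hUp : IsPGroup p ↥U) : ((∃ x ∈ U, x ≠ 1 ∧ ∃ g ∈ G₁, g * x * g⁻¹ ∈ Q ⊓ Subgroup.centralizer (Q : Set G)) → R ⊓ Subgroup.centralizer (U : Set G) = ⊥) ∧ (Cfsg.IsElementaryAbelian p U → p ^ 2 ≤ Nat.card ↥U → (∀ U₀ : Subgroup G, U₀ ≤ U → IsCoatom (U₀.subgroupOf U) → ∃ x ∈ U₀, x ≠ 1 ∧ ∃ g ∈ G₁, g * x * g⁻¹ ∈ Q ⊓ Subgroup.centralizer (Q : Set G)) → R = ⊥) := by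
  classical
  refine ⟨part1 Q hQp hlarge G₁ hQG R hR hGR U, ?_⟩
  intro hel hcard hmax
  have hp : p.Prime := Fact.out
  have hU1 : ∀ U₀ : Subgroup G, U₀ ≤ U → IsCoatom (U₀.subgroupOf U) → R ⊓ Subgroup.centralizer (U₀ : Set G) = ⊥ :=
    fun U₀ h1 h2 => part1 Q hQp hlarge G₁ hQG R hR hGR U₀ (hmax U₀ h1 h2)
  -- a coatom exists
  have hUne : U ≠ ⊥ := by
    intro h
    rw [h, Subgroup.card_bot] at hcard
    have := Nat.one_lt_pow (two_ne_zero) hp.one_lt
    omega
  obtain ⟨M, hM, -⟩ : ∃ M : Subgroup U, IsCoatom M ∧ True := by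
    have : Nontrivial U := by
      rw [Subgroup.nontrivial_iff_ne_bot]
      exact hUne
    have hbot : (⊥ : Subgroup U) ≠ ⊤ := bot_ne_top
    rcases IsCoatomic.eq_top_or_exists_le_coatom (⊥ : Subgroup U) with h | ⟨a, ha, -⟩
    · exact absurd h hbot
    · exact ⟨a, ha, trivial⟩
  have hM' : ∀ B : Subgroup G, B ≤ U → B.relIndex U ≤ p → R ⊓ Subgroup.centralizer (B : Set G) = ⊥ := by
    intro B hB hidx
    obtain ⟨n, hn⟩ := IsPGroup.iff_card.mp hUp
    have hdvd : B.relIndex U ∣ p ^ n := by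
      rw [← hn]
      exact (Subgroup.relIndex_dvd_card B U)
    obtain ⟨k, hk, hk2⟩ := (Nat.dvd_prime_pow hp).mp hdvd
    have hk1 : k ≤ 1 := by
      by_contra hcon
      have h1 : p ^ 2 ≤ p ^ k := Nat.pow_le_pow_right hp.pos (by omega)
      have h2 : p < p ^ 2 := by
        rw [pow_two]
        nlinarith [hp.two_le]
      omega
    interval_cases k
    · -- `B = U`
      have h1 : U ≤ B := by
        rw [pow_zero] at hk2
        exact (Subgroup.relIndex_eq_one.mp hk2)
      have h2 : B = U := le_antisymm hB h1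
      rw [h2]
      have hM2 : (M.map U.subtype).subgroupOf U = M := by
        exact Subgroup.comap_map_eq_self_of_injective U.subtype_injective M
      have h3 := hU1 (M.map U.subtype) (by
        rw [Subgroup.map_le_iff_le_comap]
        intro x _
        exact x.2) (by rw [hM2]; exact hM)
      rw [eq_bot_iff, ← h3]
      refine inf_le_inf_left _ (Subgroup.centralizer_le ?_)
      rintro _ ⟨x, -, rfl⟩
      exact x.2
    · -- coatom
      rw [pow_one] at hk2
      apply hU1 B hB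
      have hidx2 : (B.subgroupOf U).index = p := hk2
      constructor
      · intro h
        rw [h, Subgroup.index_top] at hidx2
        exact hp.one_lt.ne hidx2
      · intro K hK
        have h1 := Subgroup.index_dvd_of_le hK.le
        rw [hidx2] at h1
        rcases (Nat.dvd_prime hp).mp h1 with h2 | h2
        · exact Subgroup.index_eq_one.mp h2
        · exfalso
          have h3 : K ≤ B.subgroupOf U := by
            have h4 := Subgroup.relIndex_mul_index hK.le
            rw [hidx2, h2] at h4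
            have h5 : (B.subgroupOf U).relIndex K = 1 :=
              Nat.eq_of_mul_eq_mul_right hp.pos (h4.trans (one_mul p).symm)
            exact Subgroup.relIndex_eq_one.mp h5
          exact hK.ne (le_antisymm hK.le h3)
  have hnd : ¬ p ∣ Nat.card R := by
    intro h
    have := Nat.Coprime.eq_one_of_dvd hR.symm h
    exact hp.one_lt.ne' this
  have heq := Cfsg.Agent.Lib.CoprimeHyper.eq_iSup_inf_centralizer U R hel.1 hel.2 hnd (hUG.trans hGR)
  rw [heq, eq_bot_iff]
  apply iSup_le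
  rintro ⟨B, hB1, hB2⟩
  rw [hM' B hB1 hB2]

end Cfsg.Agent.S3003
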