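import Cfsg.Statements.S3008
import Cfsg.Agent.Lib.CDNormal

set_option autoImplicit false
open Cfsg

namespace Cfsg.Agent.S3008

/-- Let P be a finite p-group, with J(P) generated by its abelian subgroups of largest order and J̃(P) = C_P(Z(J(P))); call R ≤ P centrally large if |R|·|Z(R)| is as large as possible, and let P_MCL be generated by the minimal centrally large subgroups. Then: for every centrally large Q, Q·J(P) ⊇ J̃(P); some minimal centrally large subgroup of P is normalized by both J(P) and P_MCL; if P = J(P) and d(P)² = |P|·|Z(P)|, where d(P) is the largest order of an abelian subgroup, then every minimal centrally large subgroup of P is abelian; and if every minimal centrally large subgroup is abelian then J̃(P) = J(P). -/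
theorem result {p : ℕ} [Fact p.Prime] (P : Type*) [Group P] [Finite P] (hP : IsPGroup p P) : (∀ Q : Subgroup P, Cfsg.IsCentrallyLarge Q → Subgroup.centralizer ((Cfsg.thompsonSubgroupA P ⊓ Subgroup.centralizer (Cfsg.thompsonSubgroupA P : Set P) : Subgroup P) : Set P) ≤ Q ⊔ Cfsg.thompsonSubgroupA P) ∧ (∃ Q : Subgroup P, Cfsg.IsMinimalCentrallyLarge Q ∧ Cfsg.thompsonSubgroupA P ≤ Subgroup.normalizer (Q : Set P) ∧ Cfsg.minimalCentrallyLargeJoin P ≤ Subgroup.normalizer (Q : Set P)) ∧ (Cfsg.thompsonSubgroupA P = ⊤ → (∀ A ∈ Cfsg.maxAbelianSubgroups P, Nat.card ↥A ^ 2 = Nat.card P * Nat.card ↥(Subgroup.center P)) → ∀ Q : Subgroup P, Cfsg.IsMinimalCentrallyLarge Q → IsMulCommutative ↥Q) ∧ ((∀ Q : Subgroup P, Cfsg.IsMinimalCentrallyLarge Q → IsMulCommutative ↥Q) → Subgroup.centralizer ((Cfsg.thompsonSubgroupA P ⊓ Subgroup.centralizer (Cfsg.thompsonSubgroupA P : Set P) : Subgroup P) : Set P) = Cfsg.thompsonSubgroupA P) := by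
  classical
  have hA : ∀ Q : Subgroup P, Cfsg.IsCentrallyLarge Q → Subgroup.centralizer ((Cfsg.thompsonSubgroupA P ⊓ Subgroup.centralizer (Cfsg.thompsonSubgroupA P : Set P) : Subgroup P) : Set P) ≤ Q ⊔ Cfsg.thompsonSubgroupA P := by
    intro Q hQ
    exact Cfsg.Agent.Lib.ChermakDelgado.Cz_center_thompson_le
      (Cfsg.Agent.Lib.ChermakDelgado.cl_sup_thompson hQ) le_sup_right
  refine ⟨hA, ?_, ?_, ?_⟩
  · obtain ⟨Q, hQ, h⟩ := Cfsg.Agent.Lib.CDNormal.exists_mcl_normalized hP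
    refine ⟨Q, hQ, ?_, ?_⟩
    · exact sSup_le fun A hA => h A (Or.inl hA)
    · refine sSup_le fun R hR => ?_
      have hR' : Cfsg.IsMinimalCentrallyLarge R := hR
      rw [← Cfsg.Agent.Lib.ChermakDelgado.mcl_sup_eq hR' hQ.1]
      exact sup_le (inf_le_right.trans Subgroup.le_normalizer) (h _ (Or.inr ⟨R, hR', rfl⟩))
  · intro hJ hcard Q hQ
    obtain ⟨A, hAm⟩ := Cfsg.Agent.Lib.ChermakDelgado.exists_maxAb (G := P)
    obtain ⟨Q₀, hQ₀⟩ := Cfsg.Agent.Lib.ChermakDelgado.exists_isCentrallyLarge (G := P)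
    have hT := Cfsg.Agent.Lib.ChermakDelgado.cl_sup_thompson hQ₀
    rw [hJ, sup_top_eq] at hT
    have hTm := Cfsg.Agent.Lib.ChermakDelgado.cl_isMax hT
    have hAC := Cfsg.Agent.Lib.ChermakDelgado.maxAb_Cz hAm
    have hmeas : Cfsg.Agent.Lib.ChermakDelgado.meas (⊤ : Subgroup P)
        = Cfsg.Agent.Lib.ChermakDelgado.meas A := by
      have hz : Cfsg.Agent.Lib.ChermakDelgado.Cz (⊤ : Subgroup P) = Subgroup.center P := by
        show Subgroup.centralizer (((⊤ : Subgroup P)) : Set P) = _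
        rw [Subgroup.coe_top, Subgroup.centralizer_univ]
      unfold Cfsg.Agent.Lib.ChermakDelgado.meas
      rw [hAC, ← sq, hcard A hAm, Subgroup.card_top, hz]
    have hAmax : Cfsg.Agent.Lib.ChermakDelgado.IsMax A := by
      intro Y
      rw [← hmeas]
      exact hTm Y
    have hAcl : Cfsg.IsCentrallyLarge A :=
      (Cfsg.Agent.Lib.ChermakDelgado.isCentrallyLarge_iff A).mpr ⟨hAmax, hAC.le⟩
    obtain ⟨X, hX, hXA⟩ := Cfsg.Agent.Lib.ChermakDelgado.exists_minimal_le hAcl
    have hXab : IsMulCommutative ↥X := by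
      rw [Cfsg.Agent.Lib.ChermakDelgado.isMulCommutative_iff]
      exact hXA.trans (hAC.ge.trans (Cfsg.Agent.Lib.ChermakDelgado.Cz_antitone hXA))
    exact ((Cfsg.Agent.Lib.ChermakDelgado.mcl_abelian hX hXab Q).mp hQ).1
  · intro hab
    obtain ⟨Q, hQ⟩ := Cfsg.Agent.Lib.CDNormal.exists_mcl (G := P)
    have hQm := (Cfsg.Agent.Lib.ChermakDelgado.mcl_abelian hQ (hab Q hQ) Q).mp hQ
    have hQJ : Q ≤ Cfsg.thompsonSubgroupA P := le_sSup hQm
    apply le_antisymm
    · have := hA Q hQ.1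
      rwa [sup_eq_right.mpr hQJ] at this
    · exact Cfsg.Agent.Lib.ChermakDelgado.le_Cz_comm inf_le_right

end Cfsg.Agent.S3008
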