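import Mathlib
import Cfsg.Statements.S3009
import Cfsg.Agent.Lib.SL2NaturalModule

set_option autoImplicit false
open Cfsg

namespace Cfsg.Agent.S3009

open Cfsg.Agent.Lib.SL2NaturalModule

open scoped commutatorElement in
theorem comm_helper {X : Type*} [Group X] (V S' : Subgroup X) (h : ⁅⁅V, S'⁆, S'⁆ = ⊥) {v s s' : X}
    (hv : v ∈ V) (hs : s ∈ S') (hs' : s' ∈ S') :
    s' * (s * v * s⁻¹ * v⁻¹) * s'⁻¹ = s * v * s⁻¹ * v⁻¹ := by
  have hb : ⁅v, s⁆ ∈ ⁅V, S'⁆ := Subgroup.commutator_mem_commutator hv hs
  have h1 := Subgroup.commutator_mem_commutator (inv_mem hb) hs'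
  rw [h, Subgroup.mem_bot] at h1
  have h4 : (⁅v, s⁆)⁻¹ = s * v * s⁻¹ * v⁻¹ := by
    simp [commutatorElement_def, mul_assoc]
  rw [h4, commutatorElement_eq_one_iff_mul_comm] at h1
  rw [← h1]
  simp

/-- conjugation on `V` -/
def conjV {X : Type*} [Group X] {G V : Subgroup X} (hGV : G ≤ Subgroup.normalizer (V : Set X))
    (g : ↥G) (v : ↥V) : ↥V :=
  ⟨(g : X) * (v : X) * (g : X)⁻¹, (Subgroup.mem_normalizer_iff.mp (hGV g.2) (v : X)).mp v.2⟩

/-- Let p be a prime and let G and V be subgroups of a finite group with V elementary abelian and normalized by G, and G isomorphic to SL₂(F) for a finite field F with pⁿ elements. Suppose G acts irreducibly and nontrivially on V by conjugation (no G-invariant subgroups of V other than 1 and V, and [V, G] ≠ 1), and let S be a Sylow p-subgroup of G and V₀ = C_V(S). If [V, S, S] = 1 or |V| ≤ |V₀|², then G acts on V as SL₂(F) on its natural two-dimensional module; in particular |V| = |F|². -/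
theorem result {X : Type*} [Group X] [Finite X] {p : ℕ} [Fact p.Prime] (G V : Subgroup X) (hV : Cfsg.IsElementaryAbelian p V) (hGV : G ≤ Subgroup.normalizer (V : Set X)) (F : Type) [Field F] [Fintype F] (n : ℕ) (hF : Fintype.card F = p ^ n) (hG : Nonempty (↥G ≃* Matrix.SpecialLinearGroup (Fin 2) F)) (hirr : ∀ U : Subgroup X, U ≤ V → G ≤ Subgroup.normalizer (U : Set X) → U = ⊥ ∨ U = V) (hnt : ⁅V, G⁆ ≠ ⊥) (S : Sylow p ↥G) (hyp : ⁅⁅V, (S : Subgroup ↥G).map G.subtype⁆, (S : Subgroup ↥G).map G.subtype⁆ = ⊥ ∨ Nat.card ↥V ≤ Nat.card ↥(V ⊓ Subgroup.centralizer (((S : Subgroup ↥G).map G.subtype : Subgroup X) : Set X)) ^ 2) : Cfsg.ActsAsSL2OnSection F ⊤ G V ⊥ := by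
    classical
  obtain ⟨φ₀⟩ := hG
  -- conjugate so that `S` maps onto the upper unitriangular group
  have hT : IsPGroup p ((S : Subgroup ↥G).map φ₀.toMonoidHom) := S.isPGroup'.map _
  obtain ⟨g, hg⟩ := exists_conj_into_up hF _ hT
  let φ : ↥G ≃* Matrix.SpecialLinearGroup (Fin 2) F := φ₀.trans (MulAut.conj g)
  have hφapply : ∀ s : ↥G, φ s = g * φ₀ s * g⁻¹ := fun s => rfl
  have hφS : ∀ s ∈ (S : Subgroup ↥G), ∃ x : F, φ s = up x := by
    intro s hs
    rw [hφapply]
    exact hg _ ⟨s, hs, rfl⟩
  -- the preimage of the unitriangular group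
  let Q : Subgroup ↥G :=
    { carrier := {s | ∃ x : F, φ s = up x}
      mul_mem' := by
        rintro a b ⟨x, hx⟩ ⟨y, hy⟩
        exact ⟨x + y, by rw [map_mul, hx, hy, up_add]⟩
      one_mem' := ⟨0, by rw [map_one, up_zero]⟩
      inv_mem' := by
        rintro a ⟨x, hx⟩
        refine ⟨-x, ?_⟩
        rw [map_inv, hx, inv_eq_iff_mul_eq_one, up_add]
        simp [up_zero] }
  have hQp : IsPGroup p Q := isPGroup_of_up hF φ.toMonoidHom φ.injective Q (fun q hq => hq)
  have hSQ : (S : Subgroup ↥G) ≤ Q := fun s hs => hφS s hs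
  have hQS : Q = (S : Subgroup ↥G) := S.is_maximal' hQp hSQ
  have hSup : ∀ x : F, φ.symm (up x) ∈ (S : Subgroup ↥G) := by
    intro x
    rw [← hQS]
    exact ⟨x, by simp⟩
  have hcomm : ∀ a b : ↥V, a * b = b * a := fun a b => hV.1.is_comm.comm a b
  letI cg : CommGroup ↥V := { (inferInstance : Group ↥V) with mul_comm := hcomm }
  letI act : DistribMulAction (Matrix.SpecialLinearGroup (Fin 2) F) (Additive ↥V) :=
    { smul := fun m a => Additive.ofMul (conjV hGV (φ.symm m) (Additive.toMul a))
      one_smul := by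
        intro a
        apply Additive.toMul.injective
        apply Subtype.ext
        change ((φ.symm 1 : ↥G) : X) * ((Additive.toMul a : ↥V) : X) * ((φ.symm 1 : ↥G) : X)⁻¹ = _
        simp
      mul_smul := by
        intro m m' a
        apply Additive.toMul.injective
        apply Subtype.ext
        change ((φ.symm (m * m') : ↥G) : X) * ((Additive.toMul a : ↥V) : X) * ((φ.symm (m * m') : ↥G) : X)⁻¹ =
          ((φ.symm m : ↥G) : X) * (((φ.symm m' : ↥G) : X) * ((Additive.toMul a : ↥V) : X) * ((φ.symm m' : ↥G) : X)⁻¹) * ((φ.symm m : ↥G) : X)⁻¹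
        rw [map_mul]
        simp only [Subgroup.coe_mul, mul_inv_rev]
        group
      smul_zero := by
        intro m
        apply Additive.toMul.injective
        apply Subtype.ext
        change ((φ.symm m : ↥G) : X) * 1 * ((φ.symm m : ↥G) : X)⁻¹ = 1
        simp
      smul_add := by
        intro m a b
        apply Additive.toMul.injective
        apply Subtype.ext
        change ((φ.symm m : ↥G) : X) * (((Additive.toMul a : ↥V) : X) * ((Additive.toMul b : ↥V) : X)) * ((φ.symm m : ↥G) : X)⁻¹ =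
          (((φ.symm m : ↥G) : X) * ((Additive.toMul a : ↥V) : X) * ((φ.symm m : ↥G) : X)⁻¹) *
          (((φ.symm m : ↥G) : X) * ((Additive.toMul b : ↥V) : X) * ((φ.symm m : ↥G) : X)⁻¹)
        group }
  have hsmul : ∀ (m : Matrix.SpecialLinearGroup (Fin 2) F) (a : Additive ↥V),
      m • a = Additive.ofMul (conjV hGV (φ.symm m) (Additive.toMul a)) := fun _ _ => rfl
  have hsmul2 : ∀ (m : Matrix.SpecialLinearGroup (Fin 2) F) (a : Additive ↥V),
      ((Additive.toMul (m • a) : ↥V) : X) = ((φ.symm m : ↥G) : X) * ((Additive.toMul a : ↥V) : X) * ((φ.symm m : ↥G) : X)⁻¹ :=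
    fun _ _ => rfl
  have hA : ∀ a : Additive ↥V, p • a = 0 := by
    intro a
    apply Additive.toMul.injective
    apply Subtype.ext
    change ((Additive.toMul a : ↥V) : X) ^ p = 1
    exact hV.2 _ (Additive.toMul a).2
  have hirr' : ∀ B : AddSubgroup (Additive ↥V),
      (∀ m : Matrix.SpecialLinearGroup (Fin 2) F, ∀ a ∈ B, m • a ∈ B) → B = ⊥ ∨ B = ⊤ := by
    intro B hB
    let U : Subgroup X :=
      { carrier := {x | ∃ h : x ∈ V, Additive.ofMul (⟨x, h⟩ : ↥V) ∈ B}
        mul_mem' := by
          rintro a b ⟨ha, ha'⟩ ⟨hb, hb'⟩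
          exact ⟨V.mul_mem ha hb, add_mem ha' hb'⟩
        one_mem' := ⟨V.one_mem, zero_mem B⟩
        inv_mem' := by
          rintro a ⟨ha, ha'⟩
          exact ⟨V.inv_mem ha, neg_mem ha'⟩ }
    have hUV : U ≤ V := fun x hx => hx.1
    have hconj : ∀ (e : ↥G) (y : X), y ∈ U → (e : X) * y * (e : X)⁻¹ ∈ U := by
      rintro e y ⟨hy, hy'⟩
      have h1 := hB (φ e) _ hy'
      rw [hsmul] at h1
      simp only [MulEquiv.symm_apply_apply] at h1
      exact ⟨(conjV hGV e ⟨y, hy⟩).2, h1⟩
    have hUn : G ≤ Subgroup.normalizer (U : Set X) := by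
      intro e he
      rw [Subgroup.mem_normalizer_iff]
      intro y
      constructor
      · exact fun hy => hconj ⟨e, he⟩ y hy
      · intro hy
        have := hconj ⟨e⁻¹, G.inv_mem he⟩ _ hy
        simpa [mul_assoc] using this
    rcases hirr U hUV hUn with h | h
    · left
      rw [eq_bot_iff]
      intro a ha
      have h1 : ((Additive.toMul a : ↥V) : X) ∈ U := ⟨(Additive.toMul a).2, ha⟩
      rw [h, Subgroup.mem_bot] at h1
      rw [AddSubgroup.mem_bot]
      apply Additive.toMul.injective
      exact Subtype.ext h1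
    · right
      rw [eq_top_iff]
      intro a _
      have h1 : ((Additive.toMul a : ↥V) : X) ∈ U := by
        rw [h]
        exact (Additive.toMul a).2
      exact h1.2
  have hnt' : ∃ (m : Matrix.SpecialLinearGroup (Fin 2) F) (a : Additive ↥V), m • a ≠ a := by
    by_contra hcon
    push Not at hcon
    apply hnt
    rw [Subgroup.commutator_eq_bot_iff_le_centralizer]
    intro v hv
    rw [Subgroup.mem_centralizer_iff]
    intro y hy
    have h1 := hcon (φ ⟨y, hy⟩) (Additive.ofMul ⟨v, hv⟩)
    have h2 := congrArg (fun a : Additive ↥V => ((Additive.toMul a : ↥V) : X)) h1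
    simp only [hsmul2] at h2
    simp only [MulEquiv.symm_apply_apply] at h2
    change y * v * y⁻¹ = v at h2
    calc y * v = (y * v * y⁻¹) * y := by group
      _ = v * y := by rw [h2]
  have hyp' : (∀ (a : Additive ↥V) (x y : F), up y • (up x • a - a) = up x • a - a) ∨
      Nat.card (Additive ↥V) ≤ Nat.card (fixU F (Additive ↥V)) ^ 2 := by
    rcases hyp with h | h
    · left
      intro a x y
      set s : X := ((φ.symm (up x) : ↥G) : X) with hs
      set s' : X := ((φ.symm (up y) : ↥G) : X) with hs'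
      have hsS : s ∈ (S : Subgroup ↥G).map G.subtype := ⟨_, hSup x, rfl⟩
      have hs'S : s' ∈ (S : Subgroup ↥G).map G.subtype := ⟨_, hSup y, rfl⟩
      set v : X := ((Additive.toMul a : ↥V) : X) with hv
      have hvV : v ∈ V := (Additive.toMul a).2
      have hb2 := comm_helper V _ h hvV hsS hs'S
      apply Additive.toMul.injective
      apply Subtype.ext
      have hval : ((Additive.toMul (up x • a - a) : ↥V) : X) = s * v * s⁻¹ * v⁻¹ := by
        rw [toMul_sub, Subgroup.coe_div, hsmul2, div_eq_mul_inv]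
      rw [hsmul2, hval]
      exact hb2
    · right
      refine h.trans (Nat.pow_le_pow_left ?_ 2)
      apply Nat.card_le_card_of_injective
        (fun y : ↥(V ⊓ Subgroup.centralizer (((S : Subgroup ↥G).map G.subtype : Subgroup X) : Set X)) =>
          (⟨Additive.ofMul (⟨(y : X), y.2.1⟩ : ↥V), by
            intro x
            apply Additive.toMul.injective
            apply Subtype.ext
            rw [hsmul2]
            change ((φ.symm (up x) : ↥G) : X) * (y : X) * ((φ.symm (up x) : ↥G) : X)⁻¹ = (y : X)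
            have h1 := (Subgroup.mem_centralizer_iff.mp y.2.2) ((φ.symm (up x) : ↥G) : X) ⟨_, hSup x, rfl⟩
            rw [h1]
            simp⟩ : fixU F (Additive ↥V)))
      intro y y' hyy
      have h1 := congrArg (fun a : fixU F (Additive ↥V) => ((Additive.toMul (a : Additive ↥V) : ↥V) : X)) hyy
      exact Subtype.ext h1
  obtain ⟨Φ, hΦ⟩ := natural_module hF hA hirr' hnt' hyp'
  let ψ : ↥V →* Multiplicative (Fin 2 → F) :=
    { toFun := fun v => Multiplicative.ofAdd (Φ.symm (Additive.ofMul v))
      map_one' := by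
        apply Multiplicative.toAdd.injective
        exact map_zero Φ.symm
      map_mul' := by
        intro a b
        apply Multiplicative.toAdd.injective
        exact map_add Φ.symm (Additive.ofMul a) (Additive.ofMul b) }
  refine ⟨hGV, bot_le, φ.toMonoidHom, ψ, ?_, ?_, ?_, ?_⟩
  · exact MonoidHom.range_eq_top.mpr φ.surjective
  · intro y
    refine ⟨Additive.toMul (Φ (Multiplicative.toAdd y)), ?_⟩
    apply Multiplicative.toAdd.injective
    change Φ.symm (Φ (Multiplicative.toAdd y)) = _
    simp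
  · intro u
    rw [Subgroup.mem_bot]
    constructor
    · intro h
      have h1 : Φ.symm (Additive.ofMul u) = 0 := h
      have h2 : Additive.ofMul u = 0 := by
        simpa using h1
      have h3 : u = 1 := Additive.ofMul.injective h2
      rw [h3]
      rfl
    · intro h
      have h3 : u = 1 := Subtype.ext h
      rw [h3]
      exact map_one ψ
  · intro e u
    refine ⟨conjV hGV e u, rfl, ?_⟩
    have h1 := hΦ (φ e) (Φ.symm (Additive.ofMul u))
    simp only [AddEquiv.apply_symm_apply] at h1
    have h2 : φ e • Additive.ofMul u = Additive.ofMul (conjV hGV e u) := by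
      rw [hsmul]
      simp
    rw [h2] at h1
    change Φ.symm (Additive.ofMul (conjV hGV e u)) = (ent (φ e)).mulVec (Φ.symm (Additive.ofMul u))
    rw [← h1]
    simp

end Cfsg.Agent.S3009
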