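import Mathlib
import Cfsg.Statements.S3012

set_option autoImplicit false
open Cfsg

namespace Cfsg.Agent.S3012

/-- Let G be a finite group, V a nontrivial elementary abelian 2-subgroup of G satisfying the Sidki pair condition (every odd-order element inverted by an element of V commutes with a nontrivial element of V), and K a normal subgroup of G with V ∩ K = 1. Then the image of V in G/K satisfies the Sidki pair condition in G/K. -/
theorem result {G : Type*} [Group G] [Finite G] (V K : Subgroup G) [K.Normal] (hV : Cfsg.IsElementaryAbelian 2 V) (hV1 : V ≠ ⊥) (hS : Cfsg.IsSidkiPair V) (hVK : V ⊓ K = ⊥) : Cfsg.IsSidkiPair (V.map (QuotientGroup.mk' K)) := by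
  classical
  intro hb vb hvb hodd hinv
  obtain ⟨v, hvV, rfl⟩ := hvb
  set vq : G ⧸ K := QuotientGroup.mk' K v with hvq
  obtain ⟨k, hk⟩ := hodd
  have hb1 : hb ^ (2 * k + 1) = 1 := by
    rw [← hk]; exact pow_orderOf_eq_one hb
  set ab : G ⧸ K := hb ^ (k + 1) with hab
  obtain ⟨a, ha⟩ := QuotientGroup.mk_surjective ab
  have hv2 : v ^ 2 = 1 := hV.2 v hvV
  have hvinv : v⁻¹ = v := by
    rw [inv_eq_iff_mul_eq_one, ← pow_two, hv2]
  have hvqinv : vq⁻¹ = vq := by
    rw [hvq, ← map_inv, hvinv]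
  set t : G := v * (a⁻¹ * v * a) with ht
  have hinvt : v * t * v⁻¹ = t⁻¹ := by
    rw [ht, hvinv]
    have hv' : v * v = 1 := by rw [← pow_two, hv2]
    have : (v * (a⁻¹ * v * a))⁻¹ = a⁻¹ * v * a * v := by
      rw [mul_inv_rev, hvinv]
      simp only [mul_inv_rev, inv_inv, hvinv, mul_assoc]
    rw [this]
    calc v * (v * (a⁻¹ * v * a)) * v = (v * v) * (a⁻¹ * v * a) * v := by group
      _ = a⁻¹ * v * a * v := by rw [hv']; group
  have htb : (QuotientGroup.mk' K t) = hb := by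
    have h1 : QuotientGroup.mk' K t = vq * (ab⁻¹ * vq * ab) := by
      rw [ht, map_mul, map_mul, map_mul, map_inv]
      have ha' : QuotientGroup.mk' K a = ab := ha
      rw [ha']
    have hinvb : vq * ab * vq⁻¹ = ab⁻¹ := by
      rw [hab, ← conj_pow, hinv, inv_pow]
    have h2 : vq * ab⁻¹ * vq⁻¹ = ab := by
      have := congrArg (·⁻¹) hinvb
      simpa [mul_assoc] using this
    have h3 : vq * (ab⁻¹ * vq * ab) = (vq * ab⁻¹ * vq⁻¹) * ab := by
      rw [hvqinv]; group
    rw [h1, h3, h2, ← pow_two, hab, ← pow_mul]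
    have e : (k + 1) * 2 = (2 * k + 1) + 1 := by ring
    rw [e, pow_succ, hb1, one_mul]
  obtain ⟨e, s, hs, hos⟩ := Nat.exists_eq_two_pow_mul_odd (n := orderOf t) (orderOf_pos t).ne'
  have hcop : (2 ^ e).Coprime (orderOf hb) := by
    apply Nat.Coprime.pow_left
    rw [hk]
    simp
  obtain ⟨m, hm⟩ := exists_pow_eq_self_of_coprime hcop
  set t₁ : G := (t ^ (2 ^ e)) ^ m with ht₁
  have ht₁b : QuotientGroup.mk' K t₁ = hb := by
    rw [ht₁, map_pow, map_pow, htb, hm]
  have ht₁odd : Odd (orderOf t₁) := by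
    apply Odd.of_dvd_nat hs
    apply orderOf_dvd_of_pow_eq_one
    rw [ht₁, ← pow_mul, ← pow_mul]
    have e2 : 2 ^ e * (m * s) = (2 ^ e * s) * m := by ring
    rw [e2, pow_mul, ← hos, pow_orderOf_eq_one, one_pow]
  have ht₁inv : v * t₁ * v⁻¹ = t₁⁻¹ := by
    rw [ht₁, ← conj_pow, ← conj_pow, hinvt, inv_pow, inv_pow]
  obtain ⟨w, hwV, hw1, hwc⟩ := hS t₁ v hvV ht₁odd ht₁inv
  refine ⟨QuotientGroup.mk' K w, ⟨w, hwV, rfl⟩, ?_, ?_⟩
  · intro h
    apply hw1
    have hwK : w ∈ K := (QuotientGroup.eq_one_iff w).mp h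
    have : w ∈ V ⊓ K := ⟨hwV, hwK⟩
    rw [hVK] at this
    exact Subgroup.mem_bot.mp this
  · rw [← ht₁b, ← map_mul, ← map_mul, hwc]

end Cfsg.Agent.S3012
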