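import Mathlib
import Cfsg.Statements.S3013

set_option autoImplicit false
open Cfsg

namespace Cfsg.Agent.S3013

private theorem eq_of_sq_eq {G : Type*} [Group G] {a b : G} {n : ℕ} (hn : Odd n) (ha : a ^ n = 1)
    (hb : b ^ n = 1) (h : a ^ 2 = b ^ 2) : a = b := by
  obtain ⟨k, rfl⟩ := hn
  have ha' : a = (a ^ 2) ^ (k + 1) := by
    rw [← pow_mul]
    have e : 2 * (k + 1) = (2 * k + 1) + 1 := by ring
    rw [e, pow_succ, ha, one_mul]
  have hb' : b = (b ^ 2) ^ (k + 1) := by
    rw [← pow_mul]
    have e : 2 * (k + 1) = (2 * k + 1) + 1 := by ring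
    rw [e, pow_succ, hb, one_mul]
  rw [ha', hb', h]

/-- Let G be a finite group and V a nontrivial elementary abelian 2-subgroup of G satisfying the Sidki pair condition. Let v ∈ V and let x be an element of odd order inverted by v, and put C = C_G(v) ∩ C_G(x), the centralizer of the dihedral subgroup generated by v and x. Then C ∩ V is nontrivial and satisfies the Sidki pair condition inside C: every odd-order element of C inverted by an element of C ∩ V commutes with a nontrivial element of C ∩ V. -/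
theorem result {G : Type*} [Group G] [Finite G] (V : Subgroup G) (hV : Cfsg.IsElementaryAbelian 2 V) (hV1 : V ≠ ⊥) (hS : Cfsg.IsSidkiPair V) (v x : G) (hv : v ∈ V) (hx : Odd (orderOf x)) (hinv : v * x * v⁻¹ = x⁻¹) (C : Subgroup G) (hC : C = Subgroup.centralizer ({v} : Set G) ⊓ Subgroup.centralizer ({x} : Set G)) : C ⊓ V ≠ ⊥ ∧ Cfsg.IsSidkiPair ((C ⊓ V).subgroupOf C) := by
  classical
  have hVcomm : ∀ a ∈ V, ∀ b ∈ V, a * b = b * a := by
    intro a ha b hb
    have := hV.1.is_comm.comm (⟨a, ha⟩ : V) ⟨b, hb⟩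
    exact congrArg Subtype.val this
  have hCmem : ∀ w : G, w * v = v * w → w * x = x * w → w ∈ C := by
    intro w h1 h2
    rw [hC]
    refine Subgroup.mem_inf.mpr ⟨?_, ?_⟩
    · rw [Subgroup.mem_centralizer_iff]
      intro z hz
      rw [Set.mem_singleton_iff] at hz
      subst hz
      exact h1.symm
    · rw [Subgroup.mem_centralizer_iff]
      intro z hz
      rw [Set.mem_singleton_iff] at hz
      subst hz
      exact h2.symm
  have hCv : ∀ w ∈ C, w * v = v * w := by
    intro w hw
    rw [hC] at hw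
    exact ((Subgroup.mem_centralizer_iff.mp hw.1) v (Set.mem_singleton _)).symm
  have hCx : ∀ w ∈ C, w * x = x * w := by
    intro w hw
    rw [hC] at hw
    exact ((Subgroup.mem_centralizer_iff.mp hw.2) x (Set.mem_singleton _)).symm
  refine ⟨?_, ?_⟩
  · obtain ⟨w, hwV, hw1, hwc⟩ := hS x v hv hx hinv
    intro hbot
    have : w ∈ C ⊓ V := ⟨hCmem w (hVcomm w hwV v hv) hwc, hwV⟩
    rw [hbot] at this
    exact hw1 (Subgroup.mem_bot.mp this)
  · rintro ⟨h, hhC⟩ ⟨u, huC⟩ hu hhodd hhinv
    have hu' : u ∈ C ⊓ V := Subgroup.mem_subgroupOf.mp hu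
    have hhodd' : Odd (orderOf h) := by
      have : orderOf (⟨h, hhC⟩ : C) = orderOf h := Subgroup.orderOf_mk h hhC
      rwa [this] at hhodd
    have hhinv' : u * h * u⁻¹ = h⁻¹ := by
      have := congrArg Subtype.val hhinv
      simpa using this
    have hxh : x * h = h * x := (hCx h hhC).symm
    obtain ⟨y, hy⟩ : ∃ y : G, y = x * h := ⟨_, rfl⟩
    set n : ℕ := orderOf x * orderOf h with hn
    have hnodd : Odd n := hx.mul hhodd'
    have hxn : x ^ n = 1 := by
      rw [hn, pow_mul, pow_orderOf_eq_one, one_pow]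
    have hhn : h ^ n = 1 := by
      rw [hn, mul_comm, pow_mul, pow_orderOf_eq_one, one_pow]
    have hyn : y ^ n = 1 := by
      rw [hy, (show Commute x h from hxh).mul_pow, hxn, hhn, one_mul]
    have hyodd : Odd (orderOf y) := hnodd.of_dvd_nat (orderOf_dvd_of_pow_eq_one hyn)
    have huv : u * v ∈ V := V.mul_mem hu'.2 hv
    have huvx : u * x = x * u := hCx u hu'.1
    have hvh : v * h = h * v := (hCv h hhC).symm
    have hyinv : (u * v) * y * (u * v)⁻¹ = y⁻¹ := by
      have e1 : (u * v) * x * (u * v)⁻¹ = x⁻¹ := by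
        calc (u * v) * x * (u * v)⁻¹ = u * (v * x * v⁻¹) * u⁻¹ := by group
          _ = u * x⁻¹ * u⁻¹ := by rw [hinv]
          _ = x⁻¹ := by
            have : u * x⁻¹ = x⁻¹ * u := by
              exact (Commute.inv_right huvx)
            rw [this]; group
      have e2 : (u * v) * h * (u * v)⁻¹ = h⁻¹ := by
        calc (u * v) * h * (u * v)⁻¹ = u * (v * h * v⁻¹) * u⁻¹ := by group
          _ = u * h * u⁻¹ := by rw [hvh]; group
          _ = h⁻¹ := hhinv'
      have e3 : (u * v) * y * (u * v)⁻¹ = ((u * v) * x * (u * v)⁻¹) * ((u * v) * h * (u * v)⁻¹) := by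
        rw [hy]; group
      rw [e3, e1, e2, hy, mul_inv_rev]
      exact ((show Commute x h from hxh).inv_inv).eq
    obtain ⟨w, hwV, hw1, hwc⟩ := hS y (u * v) huv hyodd hyinv
    have hwv : w * v = v * w := hVcomm w hwV v hv
    set x' : G := w * x * w⁻¹ with hx'
    set h' : G := w * h * w⁻¹ with hh'
    have hy1 : x' * h' = x * h := by
      calc x' * h' = w * (x * h) * w⁻¹ := by rw [hx', hh']; group
        _ = y * w * w⁻¹ := by rw [← hy, hwc]
        _ = x * h := by rw [hy]; group
    have hvw : v * w * v⁻¹ = w := by rw [← hwv]; group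
    have hcomm' : x' * h' = h' * x' := by
      calc x' * h' = w * (x * h) * w⁻¹ := by rw [hx', hh']; group
        _ = w * (h * x) * w⁻¹ := by rw [hxh]
        _ = h' * x' := by rw [hx', hh']; group
    have hvx' : v * x' * v⁻¹ = x'⁻¹ := by
      calc v * x' * v⁻¹ = (v * w * v⁻¹) * (v * x * v⁻¹) * (v * w * v⁻¹)⁻¹ := by rw [hx']; group
        _ = w * x⁻¹ * w⁻¹ := by rw [hvw, hinv]
        _ = x'⁻¹ := by rw [hx']; group
    have hvh' : v * h' * v⁻¹ = h' := by
      calc v * h' * v⁻¹ = (v * w * v⁻¹) * (v * h * v⁻¹) * (v * w * v⁻¹)⁻¹ := by rw [hh']; group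
        _ = w * h * w⁻¹ := by rw [hvw, hvh]; group
    have hy2 : x'⁻¹ * h' = x⁻¹ * h := by
      have h1 : v * (x' * h') * v⁻¹ = v * (x * h) * v⁻¹ := by rw [hy1]
      have e1 : v * (x' * h') * v⁻¹ = (v * x' * v⁻¹) * (v * h' * v⁻¹) := by group
      have e2 : v * (x * h) * v⁻¹ = (v * x * v⁻¹) * (v * h * v⁻¹) := by group
      rw [e1, e2, hvx', hvh', hinv, hvh] at h1
      simpa using h1
    have hh2 : h' ^ 2 = h ^ 2 := by
      have hc1 : Commute x' h' := hcomm'
      have hc2 : Commute x h := hxh
      calc h' ^ 2 = (x' * h') * (x'⁻¹ * h') := by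
            rw [pow_two]
            have := hc1.inv_left.eq
            calc h' * h' = x' * x'⁻¹ * (h' * h') := by group
              _ = x' * (x'⁻¹ * h') * h' := by group
              _ = x' * (h' * x'⁻¹) * h' := by rw [this]
              _ = (x' * h') * (x'⁻¹ * h') := by group
        _ = (x * h) * (x⁻¹ * h) := by rw [hy1, hy2]
        _ = h ^ 2 := by
            rw [pow_two]
            have := hc2.inv_left.eq
            calc (x * h) * (x⁻¹ * h) = x * (h * x⁻¹) * h := by group
              _ = x * (x⁻¹ * h) * h := by rw [this]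
              _ = h * h := by group
    have hh'n : h' ^ n = 1 := by
      rw [hh', conj_pow, hhn]; group
    have hheq : h' = h := eq_of_sq_eq hnodd hh'n hhn hh2
    have hxeq : x' = x := by
      have := hy1
      rw [hheq] at this
      exact mul_right_cancel this
    have hwh : w * h = h * w := by
      calc w * h = (w * h * w⁻¹) * w := by group
        _ = h * w := by rw [← hh', hheq]
    have hwx : w * x = x * w := by
      calc w * x = (w * x * w⁻¹) * w := by group
        _ = x * w := by rw [← hx', hxeq]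
    have hwC : w ∈ C := hCmem w hwv hwx
    refine ⟨⟨w, hwC⟩, Subgroup.mem_subgroupOf.mpr ⟨hwC, hwV⟩, ?_, ?_⟩
    · intro h0
      exact hw1 (congrArg Subtype.val h0)
    · apply Subtype.ext
      exact hwh

end Cfsg.Agent.S3013
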