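import Mathlib
import Cfsg.Statements.S3014
import Cfsg.Agent.Lib.ExtClosed

set_option autoImplicit false
open Cfsg

namespace Cfsg.Agent.S3014

/-- Let G be a finite group and H ≤ M ≤ G subgroups such that for every g ∈ G the subgroup generated by H and g H g⁻¹ meets M exactly in H. If H is a maximal subgroup of M and M is a maximal subgroup of G, then the normal closure of H in G meets M exactly in H. -/
theorem result {G : Type*} [Group G] [Finite G] (H M : Subgroup G) (hHM : H ≤ M) (hcl : ∀ g : G, (H ⊔ H.map (MulAut.conj g).toMonoidHom) ⊓ M = H) (hmaxH : IsCoatom (H.subgroupOf M)) (hmaxM : IsCoatom M) : Subgroup.normalClosure (H : Set G) ⊓ M = H := by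
  
  classical
  apply le_antisymm _ (le_inf (fun x hx => Subgroup.subset_normalClosure hx) hHM)
  have hMN : M ≤ Subgroup.normalizer (H : Set G) := by
    intro g hg
    apply Cfsg.Agent.Lib.Replacement.mem_normalizer_of_forall
    intro x hx
    rw [← hcl g]
    refine ⟨Subgroup.mem_sup_right ⟨x, hx, rfl⟩, ?_⟩
    exact M.mul_mem (M.mul_mem hg (hHM hx)) (M.inv_mem hg)
  by_cases hn : H.Normal
  · rw [Subgroup.normalClosure_eq_self]
    exact inf_le_left
  have hNH : Subgroup.normalizer (H : Set G) = M := by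
    by_contra hne
    apply hn
    rw [← Subgroup.normalizer_eq_top_iff]
    exact hmaxM.2 _ (lt_of_le_of_ne hMN (Ne.symm hne))
  have hKn : (H.subgroupOf M).Normal := (Subgroup.normal_subgroupOf_iff_le_normalizer hHM).2 hMN
  have hpr := Cfsg.Agent.Lib.ExtClosed.index_prime_of_isCoatom hKn hmaxH
  have : Fact (H.subgroupOf M).index.Prime := ⟨hpr⟩
  obtain ⟨f, hf⟩ := Cfsg.Agent.Lib.ExtClosed.exists_hom_ker hKn rfl
  have hfH : ∀ x : M, (x : G) ∈ H → f x = 1 := by
    intro x hx
    rw [← MonoidHom.mem_ker, hf, Subgroup.mem_subgroupOf]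
    exact hx
  by_cases hTI : ∀ g : G, g ∉ M → ∀ z ∈ M, g⁻¹ * z * g ∈ M → z ∈ H
  · have hV := Cfsg.Agent.Lib.ExtClosed.transfer_eq_of_TI f hfH hTI
    have hle : Subgroup.normalClosure (H : Set G) ≤ f.transfer.ker := by
      apply Subgroup.normalClosure_le_normal
      intro x hx
      rw [SetLike.mem_coe, MonoidHom.mem_ker]
      have h1 := hV ⟨x, hHM hx⟩
      rw [hfH _ hx] at h1
      exact h1
    rintro x ⟨hx1, hx2⟩
    have h1 := hle hx1
    rw [MonoidHom.mem_ker] at h1
    have h2 := hV ⟨x, hx2⟩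
    have h3 : (⟨x, hx2⟩ : M) ∈ f.ker := by
      rw [MonoidHom.mem_ker, ← h2]
      exact h1
    rw [hf, Subgroup.mem_subgroupOf] at h3
    exact h3
  · push Not at hTI
    obtain ⟨g, hg, z, hz, hgz, hzH⟩ := hTI
    have hJnot : ¬ H ⊔ H.map (MulAut.conj g).toMonoidHom ≤ M := by
      intro hle
      apply hg
      rw [← hNH]
      have h1 := hcl g
      rw [inf_eq_left.2 hle] at h1
      apply Cfsg.Agent.Lib.Replacement.mem_normalizer_of_forall
      intro x hx
      rw [← h1]
      exact Subgroup.mem_sup_right ⟨x, hx, rfl⟩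
    have hJn := Cfsg.Agent.Lib.ExtClosed.normal_sup_conj hHM hMN hmaxH hmaxM hz hgz hzH hJnot
    have hle : Subgroup.normalClosure (H : Set G) ≤ H ⊔ H.map (MulAut.conj g).toMonoidHom :=
      Subgroup.normalClosure_le_normal (fun x hx => Subgroup.mem_sup_left hx)
    calc Subgroup.normalClosure (H : Set G) ⊓ M ≤ (H ⊔ H.map (MulAut.conj g).toMonoidHom) ⊓ M :=
          inf_le_inf_right _ hle
      _ = H := hcl g

end Cfsg.Agent.S3014
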