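import Mathlib
import Cfsg.Statements.S3015
import Cfsg.Agent.Lib.ExtClosed

set_option autoImplicit false
open Cfsg

namespace Cfsg.Agent.S3015

/-- Let G be a finite non-abelian simple group, M a maximal subgroup of G and H a normal subgroup of M of prime index in M. Then G is generated by H together with one of its conjugates. -/
theorem result {G : Type*} [Group G] [Finite G] [IsSimpleGroup G] (hG : ¬ IsMulCommutative G) (M H : Subgroup G) (hmaxM : IsCoatom M) (hHM : H ≤ M) (hHn : (H.subgroupOf M).Normal) (hidx : (H.relIndex M).Prime) : ∃ g : G, H ⊔ H.map (MulAut.conj g).toMonoidHom = ⊤ := by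
  
  classical
  by_contra hcon
  push Not at hcon
  have hMt : M ≠ ⊤ := hmaxM.1
  have hMb : M ≠ ⊥ := by
    rintro rfl
    have hH : H = ⊥ := le_bot_iff.1 hHM
    subst hH
    simp at hidx
    exact Nat.not_prime_one hidx
  have hMnn : ¬ M.Normal := by
    intro h
    rcases h.eq_bot_or_eq_top with h1 | h1
    · exact hMb h1
    · exact hMt h1
  have hNM : ∀ g : G, g ∈ Subgroup.normalizer (M : Set G) → g ∈ M := by
    have h1 : Subgroup.normalizer (M : Set G) = M := by
      by_contra hne
      apply hMnn
      rw [← Subgroup.normalizer_eq_top_iff]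
      exact hmaxM.2 _ (lt_of_le_of_ne Subgroup.le_normalizer (Ne.symm hne))
    intro g hg
    rwa [h1] at hg
  have hMN : M ≤ Subgroup.normalizer (H : Set G) :=
    (Subgroup.normal_subgroupOf_iff_le_normalizer hHM).1 hHn
  have hidx' : (H.subgroupOf M).index.Prime := hidx
  have hco : IsCoatom (H.subgroupOf M) := Cfsg.Agent.Lib.ExtClosed.isCoatom_of_index_prime hidx'
  have : Fact (H.subgroupOf M).index.Prime := ⟨hidx'⟩
  obtain ⟨f, hf⟩ := Cfsg.Agent.Lib.ExtClosed.exists_hom_ker hHn rfl
  have hfH : ∀ x : M, (x : G) ∈ H → f x = 1 := by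
    intro x hx
    rw [← MonoidHom.mem_ker, hf, Subgroup.mem_subgroupOf]
    exact hx
  by_cases hTI : ∀ g : G, g ∉ M → ∀ z ∈ M, g⁻¹ * z * g ∈ M → z ∈ H
  · have hV := Cfsg.Agent.Lib.ExtClosed.transfer_eq_of_TI f hfH hTI
    rcases (inferInstance : f.transfer.ker.Normal).eq_bot_or_eq_top with h1 | h1
    · -- `G` embeds in a commutative group
      apply hG
      refine ⟨⟨fun a b => ?_⟩⟩
      apply (MonoidHom.ker_eq_bot_iff _).1 h1
      rw [map_mul, map_mul, mul_comm]
    · -- `f` is trivial
      have h2 : H.subgroupOf M = ⊤ := by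
        rw [← hf, eq_top_iff]
        intro x _
        rw [MonoidHom.mem_ker, ← hV x, ← MonoidHom.mem_ker, h1]
        trivial
      exact hco.1 h2
  · push Not at hTI
    obtain ⟨g, hg, z, hz, hgz, hzH⟩ := hTI
    by_cases hHb : H = ⊥
    · -- `M` has prime order
      subst hHb
      have hz1 : z ≠ 1 := fun h => hzH (by rw [h]; exact one_mem _)
      have hle : M ≤ Subgroup.zpowers z := by
        have := Cfsg.Agent.Lib.ExtClosed.le_sup_zpowers bot_le hco hz hzH
        rwa [bot_sup_eq] at this
      apply hg
      apply hNM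
      rw [← Subgroup.inv_mem_iff]
      apply Cfsg.Agent.Lib.Replacement.mem_normalizer_of_forall
      intro x hx
      obtain ⟨k, rfl⟩ := Subgroup.mem_zpowers_iff.1 (hle hx)
      have h1 : g⁻¹ * z ^ k * g⁻¹⁻¹ = (g⁻¹ * z * g) ^ k := by
        rw [inv_inv]
        have := (MulAut.conj g⁻¹).toMonoidHom.map_zpow z k
        simpa [MulAut.conj_apply] using this
      rw [h1]
      exact M.zpow_mem hgz k
    · have hHn' : ¬ H.Normal := by
        intro h
        rcases h.eq_bot_or_eq_top with h1 | h1
        · exact hHb h1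
        · apply hMt
          rw [eq_top_iff, ← h1]
          exact hHM
      have hNH : Subgroup.normalizer (H : Set G) = M := by
        by_contra hne
        apply hHn'
        rw [← Subgroup.normalizer_eq_top_iff]
        exact hmaxM.2 _ (lt_of_le_of_ne hMN (Ne.symm hne))
      by_cases hle : H.map (MulAut.conj g).toMonoidHom ≤ M
      · have e : H.subgroupOf M ≃* (H.map (MulAut.conj g).toMonoidHom).subgroupOf M :=
          (Subgroup.subgroupOfEquivOfLe hHM).trans (((MulAut.conj g).subgroupMap H).trans
            (Subgroup.subgroupOfEquivOfLe hle).symm)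
        have hK' := Cfsg.Agent.Lib.ExtClosed.normal_of_equiv_prime_index hHn rfl e
        have hMN' := (Subgroup.normal_subgroupOf_iff_le_normalizer hle).1 hK'
        apply hg
        apply hNM
        rw [← Subgroup.inv_mem_iff]
        apply Cfsg.Agent.Lib.Replacement.mem_normalizer_of_forall
        intro x hx
        rw [inv_inv, ← hNH]
        apply Cfsg.Agent.Lib.Replacement.mem_normalizer_of_forall
        intro h hh
        have h1 := (Subgroup.mem_normalizer_iff.1 (hMN' hx) (g * h * g⁻¹)).1 ⟨h, hh, by simp [MulAut.conj_apply]⟩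
        obtain ⟨h', hh', he⟩ := h1
        have h2 : g⁻¹ * x * g * h * (g⁻¹ * x * g)⁻¹ = h' := by
          have h3 : MulAut.conj g h' = x * (g * h * g⁻¹) * x⁻¹ := he
          rw [MulAut.conj_apply] at h3
          have h4 : h' = g⁻¹ * (x * (g * h * g⁻¹) * x⁻¹) * g := by
            rw [← h3]; group
          rw [h4]; group
        rw [h2]
        exact hh'
      · have hJnot : ¬ H ⊔ H.map (MulAut.conj g).toMonoidHom ≤ M := fun h => hle (le_sup_right.trans h)
        have hJn := Cfsg.Agent.Lib.ExtClosed.normal_sup_conj hHM hMN hco hmaxM hz hgz hzH hJnot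
        rcases hJn.eq_bot_or_eq_top with h1 | h1
        · apply hHb
          rw [eq_bot_iff, ← h1]
          exact le_sup_left
        · exact hcon g h1

end Cfsg.Agent.S3015
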