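import Cfsg.Statements.S3016
import Cfsg.Agent.Lib.XcoMain
import Cfsg.Agent.Lib.XcoFix2

set_option autoImplicit false
open Cfsg

namespace Cfsg.Agent.S3016

/-- Let G be a finite group, p an odd prime, and H an abelian p-subgroup of G that is extremely closed (for every g, the subgroup generated by H and g H g⁻¹ meets N_G(H) exactly in H). Then the normal closure of H meets N_G(H) exactly in H, and G = N_G(H) O_{p'}(G). -/
theorem result {G : Type*} [Group G] [Finite G] {p : ℕ} [Fact p.Prime] (hp : p ≠ 2) (H : Subgroup G) (hHp : IsPGroup p H) (hHab : IsMulCommutative H) (hcl : Cfsg.IsExtremelyClosed H) : Subgroup.normalClosure (H : Set G) ⊓ Subgroup.normalizer (H : Set G) = H ∧ Subgroup.normalizer (H : Set G) ⊔ Cfsg.pPrimeCore p G = ⊤ := by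
  classical
  have hpp : p.Prime := Fact.out
  have hHc : ∀ a ∈ H, ∀ b ∈ H, a * b = b * a := by
    intro a ha b hb
    have := hHab.is_comm.comm ⟨a, ha⟩ ⟨b, hb⟩
    exact congrArg Subtype.val this
  have hC := Cfsg.Agent.Lib.XcoMain.concl_of_extremelyClosed hp hHp hHab hcl
  have hfac := Cfsg.Agent.Lib.XcoMain.factorization_of_concl hHp hC
  refine ⟨?_, hfac⟩
  apply le_antisymm
  swap
  · exact le_inf (fun x hx => Subgroup.subset_normalClosure hx) Subgroup.le_normalizer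
  set R := Cfsg.pPrimeCore p G with hRd
  haveI hRn : R.Normal := inferInstance
  have hRc : ¬ p ∣ Nat.card R := Cfsg.Agent.Lib.PCore.not_dvd_card_pPrimeCore p
  have hRs : ∀ a ∈ H, ∀ r ∈ R, a * r * a⁻¹ ∈ R := fun a _ r hr => hRn.conj_mem r hr a
  set K₁ := Cfsg.Agent.Lib.XcoFix2.cmm R H with hK₁d
  have hK₁R : K₁ ≤ R := Cfsg.Agent.Lib.XcoFix2.cmm_le hRs
  have hK₁s := Cfsg.Agent.Lib.XcoFix2.cmm_stable hHc hRs
  have hK₁c : ¬ p ∣ Nat.card K₁ := fun h => hRc (h.trans (Subgroup.card_dvd_of_le hK₁R))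
  have hM : Subgroup.normalClosure (H : Set G) ≤ Cfsg.Agent.Lib.XcoGroup.HO H K₁ hK₁s := by
    show Subgroup.closure _ ≤ _
    rw [Subgroup.closure_le]
    intro x hx
    obtain ⟨b, hb, hc⟩ := Group.mem_conjugatesOfSet_iff.1 hx
    obtain ⟨g, rfl⟩ := isConj_iff.1 hc
    have hgs : g ∈ Subgroup.normalizer (H : Set G) ⊔ R := by
      rw [hfac]
      exact Subgroup.mem_top g
    obtain ⟨n, hn, r, hr, rfl⟩ := Subgroup.mem_sup_of_normal_right.1 hgs
    set h' := n * b * n⁻¹ with hh'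
    have hh'H : h' ∈ H := (Subgroup.mem_normalizer_iff.1 hn _).1 hb
    set r' := n * r * n⁻¹ with hr'
    have hr'R : r' ∈ R := hRn.conj_mem r hr n
    have hcR : h'⁻¹ * r'⁻¹ * h' ∈ R := by
      have := hRs h'⁻¹ (H.inv_mem hh'H) _ (R.inv_mem hr'R)
      simpa using this
    have hgen := Cfsg.Agent.Lib.XcoFix2.gen_mem (H := H) hcR hh'H
    refine ⟨h', hh'H, _, hgen, ?_⟩
    rw [hh', hr']
    group
  intro x hx
  obtain ⟨a, ha, k, hk, e⟩ := hM hx.1
  have hkN : k ∈ Subgroup.normalizer (H : Set G) := by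
    have e1 : k = a⁻¹ * x := by rw [e]; group
    rw [e1]
    exact Subgroup.mul_mem _ (Subgroup.inv_mem _ (Subgroup.le_normalizer ha)) hx.2
  have hkc : ∀ b ∈ H, k * b = b * k := by
    intro b hb
    have h1 : k * b * k⁻¹ ∈ H := (Subgroup.mem_normalizer_iff.1 hkN _).1 hb
    have h2 : k * b * k⁻¹ * b⁻¹ ∈ H := H.mul_mem h1 (H.inv_mem hb)
    have h3 : k * b * k⁻¹ * b⁻¹ ∈ R := by
      have e1 : k * b * k⁻¹ * b⁻¹ = k * (b * k⁻¹ * b⁻¹) := by group
      rw [e1]
      exact R.mul_mem (hK₁R hk) (hRs b hb _ (R.inv_mem (hK₁R hk)))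
    have h4 := Cfsg.Agent.Lib.XcoGroup.eq_one_of_mem_mem hpp hHp hRc h2 h3
    rw [mul_inv_eq_one, mul_inv_eq_iff_eq_mul] at h4
    exact h4
  have hk1 : k = 1 := by
    apply Cfsg.Agent.Lib.XcoFix2.fix_trivial_aux hp hHp hHc _ K₁ rfl hK₁c hK₁s
      (Cfsg.Agent.Lib.XcoFix2.cmm_le_closure hHp hHc hRc hRs) _ k hk hkc
    intro e he y hy hL hyc
    have hyN : y ∈ Subgroup.normalizer (H : Set G) := by
      apply Cfsg.Agent.Lib.XcoGroup.mem_normalizer_of_forall
      intro b hb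
      rw [hyc b hb]
      simpa using hb
    have hyH : y ∈ H := by
      rw [← hcl e]
      exact ⟨hL, hyN⟩
    exact Cfsg.Agent.Lib.XcoGroup.eq_one_of_mem_mem hpp hHp hRc hyH (hK₁R hy)
  rw [e, hk1, mul_one]
  exact ha

end Cfsg.Agent.S3016
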