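import Mathlib
import Cfsg.Statements.S3020
import Cfsg.Agent.Lib.CharTwoLocal
import Cfsg.Agent.Lib.PCore

set_option autoImplicit false
open Cfsg

namespace Cfsg.Agent.S3020

open Cfsg.Agent.Lib

/-- Let G be a finite group, p a prime and H an abelian p-subgroup of G that is extremely closed (for every g, the subgroup generated by H and g H g⁻¹ meets N_G(H) exactly in H). Then for every g ∈ G, the subgroup T generated by H and g H g⁻¹ is the product of H with O_{p'}(T), and H meets O_{p'}(T) trivially; that is, O_{p'}(T) is a normal p-complement of H in T. -/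
theorem result {G : Type*} [Group G] [Finite G] {p : ℕ} [Fact p.Prime] (H : Subgroup G) (hHp : IsPGroup p H) (hHab : IsMulCommutative H) (hcl : Cfsg.IsExtremelyClosed H) (g : G) (T : Subgroup G) (hT : T = H ⊔ H.map (MulAut.conj g).toMonoidHom) : H ⊔ (Cfsg.pPrimeCore p ↥T).map T.subtype = T ∧ H ⊓ (Cfsg.pPrimeCore p ↥T).map T.subtype = ⊥ := by
  classical
  have hHT : H ≤ T := hT ▸ le_sup_left
  have hTN : T ⊓ Subgroup.normalizer (H : Set G) = H := hT ▸ hcl g
  set H' : Subgroup T := H.subgroupOf T with hH'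
  have hH'p : IsPGroup p H' := hHp.comap_of_injective _ (Subgroup.subtype_injective T)
  have hself : ∀ y : T, y ∈ Subgroup.normalizer (H' : Set T) → y ∈ H' := by
    intro y hy
    rw [hH', Subgroup.mem_subgroupOf, ← hTN]
    refine Subgroup.mem_inf.mpr ⟨y.2, ?_⟩
    rw [Subgroup.mem_normalizer_iff]
    intro z
    constructor
    · intro hz
      have h0 := (Subgroup.mem_normalizer_iff.mp hy ⟨z, hHT hz⟩).mp (Subgroup.mem_subgroupOf.mpr hz)
      exact Subgroup.mem_subgroupOf.mp h0
    · intro hz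
      have hzT : z ∈ T := by
        have h0 : ((y : G)⁻¹ * ((y : G) * z * (y : G)⁻¹) * (y : G)) ∈ T :=
          T.mul_mem (T.mul_mem (T.inv_mem y.2) (hHT hz)) y.2
        have e : (y : G)⁻¹ * ((y : G) * z * (y : G)⁻¹) * (y : G) = z := by group
        rwa [e] at h0
      have h0 := (Subgroup.mem_normalizer_iff.mp hy ⟨z, hzT⟩).mpr (Subgroup.mem_subgroupOf.mpr hz)
      exact Subgroup.mem_subgroupOf.mp h0
  obtain ⟨S, hS⟩ := hH'p.exists_le_sylow
  have hSeq : H' = (S : Subgroup T) := by
    by_contra hne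
    have hlt : H' < (S : Subgroup T) := lt_of_le_of_ne hS hne
    obtain ⟨y, hyS, hyH, hyN⟩ := CharTwoLocal.exists_mem_normalizer_of_lt S.isPGroup' hlt
    exact hyH (hself y hyN)
  have hN : Subgroup.normalizer ((S : Subgroup T) : Set T) ≤ Subgroup.centralizer ((S : Subgroup T) : Set T) := by
    intro y hy
    rw [← hSeq] at hy ⊢
    have hyH' := hself y hy
    rw [Subgroup.mem_centralizer_iff]
    intro z hz
    have h1 : ∀ a b : H, (a : G) * b = b * a := by
      intro a b
      have := hHab.is_comm.comm a b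
      exact congrArg Subtype.val this
    apply Subtype.ext
    exact h1 ⟨z, Subgroup.mem_subgroupOf.mp hz⟩ ⟨y, Subgroup.mem_subgroupOf.mp hyH'⟩
  have hcompl := MonoidHom.ker_transferSylow_isComplement' S hN
  set K : Subgroup T := (MonoidHom.transferSylow S hN).ker with hK
  have hKcop : (Nat.card K).Coprime p := by
    have h3 : ¬ p ∣ Nat.card K := by
      rw [← hcompl.index_eq_card]
      exact S.not_dvd_index
    exact ((Nat.Prime.coprime_iff_not_dvd (Fact.out)).mpr h3).symm
  have hKle : K ≤ pPrimeCore p T := PCore.le_pPrimeCore inferInstance hKcop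
  have hcop : (Nat.card (pPrimeCore p T)).Coprime p := PCore.card_pPrimeCore_coprime (G := T) p
  have hSO : (S : Subgroup T) ⊔ pPrimeCore p T = ⊤ := by
    rw [eq_top_iff, ← hcompl.symm.sup_eq_top]
    exact sup_le_sup_left hKle _
  have hSOinf : (S : Subgroup T) ⊓ pPrimeCore p T = ⊥ := by
    rw [eq_bot_iff]
    intro z hz
    have h1 : orderOf z ∣ Nat.card (pPrimeCore p T) := by
      have := Subgroup.orderOf_dvd_natCard (pPrimeCore p T) hz.2
      exact this
    obtain ⟨k, hk⟩ := S.isPGroup' ⟨z, hz.1⟩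
    have h2 : z ^ p ^ k = 1 := by
      simpa using congrArg Subtype.val hk
    have h3 : orderOf z ∣ p ^ k := orderOf_dvd_of_pow_eq_one h2
    have h4 : Nat.Coprime (Nat.card (pPrimeCore p T)) (p ^ k) := hcop.pow_right k
    have h5 : orderOf z = 1 := Nat.eq_one_of_dvd_coprimes h4 h1 h3
    exact Subgroup.mem_bot.mpr (orderOf_eq_one_iff.mp h5)
  rw [← hSeq] at hSO hSOinf
  constructor
  · apply le_antisymm
    · apply sup_le hHT
      rintro _ ⟨z, -, rfl⟩
      exact z.2
    · intro y hy
      have h1 : (⟨y, hy⟩ : T) ∈ H' ⊔ pPrimeCore p T := by rw [hSO]; trivial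
      have hnorm : (pPrimeCore p T).Normal := inferInstance
      obtain ⟨a, ha, b, hb, hab⟩ := Subgroup.mem_sup_of_normal_right.mp h1
      have h2 : y = (a : G) * (b : G) := by
        have := congrArg Subtype.val hab
        simpa using this.symm
      rw [h2]
      have h3 : (a : G) ∈ H := Subgroup.mem_subgroupOf.mp ha
      have h4 : (b : G) ∈ (pPrimeCore p T).map T.subtype := ⟨b, hb, rfl⟩
      exact Subgroup.mul_mem _ (Subgroup.mem_sup_left h3) (Subgroup.mem_sup_right h4)
  · rw [eq_bot_iff]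
    rintro y ⟨hy1, ⟨z, hz, rfl⟩⟩
    have h1 : z ∈ H' ⊓ pPrimeCore p T := ⟨Subgroup.mem_subgroupOf.mpr hy1, hz⟩
    rw [hSOinf] at h1
    have h2 : z = 1 := Subgroup.mem_bot.mp h1
    rw [h2]
    simp

end Cfsg.Agent.S3020
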