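import Mathlib
import Cfsg.Statements.S3021
import Cfsg.Agent.Lib.SylowConjLemmas
import Cfsg.Agent.Lib.CharTwoLocal
import Cfsg.Agent.Lib.Replacement

set_option autoImplicit false
open Cfsg

namespace Cfsg.Agent.S3021

open Cfsg.Agent.Lib

/-- Let G be a finite group, p a prime and H a p-subgroup of G that is extremely closed (for every g, the subgroup generated by H and g H g⁻¹ meets N_G(H) exactly in H). Then every p-subgroup Q of G containing H has N_G(Q) ≤ N_G(H); in particular every Sylow p-subgroup P of G containing H normalizes H, and H is strongly closed in P with respect to G. -/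
theorem result {G : Type*} [Group G] [Finite G] {p : ℕ} [Fact p.Prime] (H : Subgroup G) (hHp : IsPGroup p H) (hcl : Cfsg.IsExtremelyClosed H) : (∀ Q : Subgroup G, IsPGroup p Q → H ≤ Q → Subgroup.normalizer (Q : Set G) ≤ Subgroup.normalizer (H : Set G)) ∧ ∀ P : Sylow p G, H ≤ (P : Subgroup G) → (P : Subgroup G) ≤ Subgroup.normalizer (H : Set G) ∧ Cfsg.IsStronglyClosed H (P : Subgroup G) := by
  have h1 : ∀ Q : Subgroup G, IsPGroup p Q → H ≤ Q → Subgroup.normalizer (Q : Set G) ≤ Subgroup.normalizer (H : Set G) := by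
    intro Q hQ hHQ g hg
    set T : Subgroup G := H ⊔ H.map (MulAut.conj g).toMonoidHom with hT
    have hTQ : T ≤ Q := by
      apply sup_le hHQ
      rintro _ ⟨y, hy, rfl⟩
      exact (Subgroup.mem_normalizer_iff.mp hg y).mp (hHQ hy)
    have hTeq : T = H := by
      by_contra hne
      have hlt : H < T := lt_of_le_of_ne le_sup_left (Ne.symm hne)
      obtain ⟨y, hyT, hyH, hyN⟩ := CharTwoLocal.exists_mem_normalizer_of_lt (hQ.to_le hTQ) hlt
      apply hyH
      have := hcl g
      rw [← this]
      exact ⟨hyT, hyN⟩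
    apply Replacement.mem_normalizer_of_forall
    intro y hy
    have : g * y * g⁻¹ ∈ T := Subgroup.mem_sup_right ⟨y, hy, rfl⟩
    rwa [hTeq] at this
  refine ⟨h1, fun P hHP => ?_⟩
  have h2 : (P : Subgroup G) ≤ Subgroup.normalizer (H : Set G) :=
    le_trans Subgroup.le_normalizer (h1 P P.isPGroup' hHP)
  refine ⟨h2, hHP, fun x hx g hg => ?_⟩
  have := hcl g
  rw [← this]
  exact ⟨Subgroup.mem_sup_right ⟨x, hx, rfl⟩, h2 hg⟩

end Cfsg.Agent.S3021
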