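import Mathlib
import Cfsg.Statements.S3025
import Cfsg.Agent.Lib.UniqueSub
import Cfsg.Agent.Lib.Replacement

set_option autoImplicit false
open Cfsg
open Subgroup

namespace Cfsg.Agent.S3025

/-- Let F be a finite group and H a nontrivial subgroup of F that is contained in every nontrivial subgroup of F which H normalizes. Then F has a nontrivial normal subgroup N contained in every nontrivial normal subgroup of F (a unique minimal normal subgroup), N is simple, and one of the following holds: C_F(N) = 1; or H = N has prime order p, C_F(N) is cyclic of order a power of p, and F/C_F(N) is cyclic of order dividing p − 1; or H = N has order 2, N is central in F, and F is a generalized quaternion group. -/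
theorem result {F : Type*} [Group F] [Finite F] (H : Subgroup F) (hH : H ≠ ⊥)
    (hmin : ∀ R : Subgroup F, R ≠ ⊥ → H ≤ Subgroup.normalizer (R : Set F) → H ≤ R) :
    ∃ N : Subgroup F, N.Normal ∧ N ≠ ⊥ ∧ (∀ M : Subgroup F, M.Normal → M ≠ ⊥ → N ≤ M) ∧ IsSimpleGroup ↥N ∧
      (Subgroup.centralizer (N : Set F) = ⊥ ∨
       (H = N ∧ (Nat.card N).Prime ∧ IsCyclic ↥(Subgroup.centralizer (N : Set F)) ∧
          (∃ k : ℕ, 1 ≤ k ∧ Nat.card ↥(Subgroup.centralizer (N : Set F)) = Nat.card N ^ k) ∧
          (∃ g : F, Subgroup.centralizer (N : Set F) ⊔ Subgroup.zpowers g = ⊤) ∧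
          (Subgroup.centralizer (N : Set F)).index ∣ Nat.card N - 1) ∨
       (H = N ∧ Nat.card N = 2 ∧ Subgroup.centralizer (N : Set F) = ⊤ ∧
          ∃ k : ℕ, 1 ≤ k ∧ Nonempty (F ≃* QuaternionGroup (2 ^ k)))) := by
  
  classical
  set N : Subgroup F := normalClosure (H : Set F) with hNdef
  have hNn : N.Normal := normalClosure_normal
  have hHN : H ≤ N := fun x hx => subset_normalClosure hx
  have hNbot : N ≠ ⊥ := by
    intro h
    apply hH
    rw [eq_bot_iff, ← h]
    exact hHN
  have hNmin : ∀ M : Subgroup F, M.Normal → M ≠ ⊥ → N ≤ M := by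
    intro M hM hne
    apply normalClosure_le_normal
    apply hmin M hne
    rw [Subgroup.normalizer_eq_top_iff.2 hM]
    exact le_top
  -- conjugates
  have hnormN : ∀ (g : F), ∀ x ∈ N, g * x * g⁻¹ ∈ N := fun g x hx => hNn.conj_mem x hx g
  have hsimple : IsSimpleGroup N := by
    have hnt : Nontrivial N := by
      by_contra hcon
      rw [not_nontrivial_iff_subsingleton] at hcon
      apply hNbot
      rw [eq_bot_iff]
      intro x hx
      have : x = 1 := congrArg Subtype.val (Subsingleton.elim (⟨x, hx⟩ : N) 1)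
      rw [mem_bot]; exact this
    refine ⟨fun K hK => ?_⟩
    by_cases hKb : K = ⊥
    · exact Or.inl hKb
    right
    set K' : Subgroup F := K.map N.subtype with hK'
    have hK'N : K' ≤ N := map_subtype_le _
    have hK'bot : K' ≠ ⊥ := by
      intro h
      apply hKb
      rw [eq_bot_iff]
      intro x hx
      have : (x : F) ∈ K' := mem_map_of_mem _ hx
      rw [h, mem_bot] at this
      rw [mem_bot]
      exact Subtype.ext this
    have hK'norm : ∀ n ∈ N, ∀ k ∈ K', n * k * n⁻¹ ∈ K' := by
      intro n hn k hk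
      obtain ⟨k₀, hk₀, rfl⟩ := hk
      have := hK.conj_mem k₀ hk₀ ⟨n, hn⟩
      exact ⟨_, this, by simp⟩
    have hconj : ∀ (g : F), ∀ h ∈ H, g⁻¹ * h * g ∈ K' := by
      intro g h hh
      let R : Subgroup F := K'.map (MulAut.conj g).toMonoidHom
      have hRb : R ≠ ⊥ := by
        intro hR
        apply hK'bot
        exact (Subgroup.map_eq_bot_iff_of_injective _ (MulAut.conj g).injective).1 hR
      have hRn : H ≤ normalizer (R : Set F) := by
        intro h' hh'
        apply Cfsg.Agent.Lib.Replacement.mem_normalizer_of_forall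
        rintro _ ⟨k, hk, rfl⟩
        have h1 : g⁻¹ * h' * g ∈ N := by
          have := hnormN g⁻¹ h' (hHN hh')
          simpa using this
        have h2 := hK'norm _ h1 k hk
        refine ⟨_, h2, ?_⟩
        simp [MulAut.conj_apply]
        group
      have hmem := hmin R hRb hRn hh
      obtain ⟨k, hk, hke⟩ := hmem
      have : g⁻¹ * h * g = k := by
        rw [← hke]
        simp [MulAut.conj_apply]
        group
      rw [this]; exact hk
    have hNK : N ≤ K' := by
      rw [hNdef, normalClosure, closure_le]
      intro w hw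
      obtain ⟨b, hb, hc⟩ := Group.mem_conjugatesOfSet_iff.1 hw
      obtain ⟨g, rfl⟩ := isConj_iff.1 hc
      have := hconj g⁻¹ b hb
      simpa using this
    rw [eq_top_iff]
    rintro ⟨x, hx⟩ -
    obtain ⟨k, hk, hke⟩ := hNK hx
    have : k = ⟨x, hx⟩ := Subtype.ext hke
    rwa [← this]
  refine ⟨N, hNn, hNbot, hNmin, hsimple, ?_⟩
  by_cases hC : centralizer (N : Set F) = ⊥
  · exact Or.inl hC
  right
  have := hNn
  have hCn : (centralizer (N : Set F)).Normal := inferInstance
  set C : Subgroup F := centralizer (N : Set F) with hCdef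
  have hNC : N ≤ C := hNmin C hCn hC
  have hNcomm : ∀ a b : N, a * b = b * a := by
    intro a b
    apply Subtype.ext
    exact (mem_centralizer_iff.1 (hNC a.2) b b.2).symm
  have : IsMulCommutative N := ⟨⟨hNcomm⟩⟩
  have hprime : (Nat.card N).Prime := Group.is_simple_iff_prime_card.1 hsimple
  have hpf : Fact (Nat.card N).Prime := ⟨hprime⟩
  have hHeqN : H = N := by
    have hd : Nat.card H ∣ Nat.card N := Subgroup.card_dvd_of_le hHN
    rcases (Nat.dvd_prime hprime).1 hd with h1 | h1
    · exfalso
      apply hH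
      exact Subgroup.card_eq_one.1 h1
    · exact Subgroup.eq_of_le_of_card_ge hHN h1.ge
  have hRC : ∀ R : Subgroup F, R ≤ C → R ≠ ⊥ → N ≤ R := by
    intro R hRC hR
    rw [← hHeqN]
    apply hmin R hR
    intro h hh
    apply Cfsg.Agent.Lib.Replacement.mem_normalizer_of_forall
    intro x hx
    have h1 : h * x = x * h := (mem_centralizer_iff.1 (hRC hx) h (hHN hh))
    have h2 : h * x * h⁻¹ = x := by rw [h1]; group
    rw [h2]; exact hx
  have hCpow : Nat.card C = Nat.card N ^ (Nat.card C).primeFactorsList.length := by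
    apply Nat.eq_prime_pow_of_unique_prime_dvd Nat.card_pos.ne'
    intro d hd hdv
    have : Fact d.Prime := ⟨hd⟩
    obtain ⟨x, hx⟩ := exists_prime_orderOf_dvd_card' d hdv
    have hxo : orderOf (x : F) = d := by rwa [Subgroup.orderOf_coe]
    have hle : zpowers (x : F) ≤ C := (zpowers_le (H := C)).2 x.2
    have hne : zpowers (x : F) ≠ ⊥ := by
      rw [Subgroup.zpowers_ne_bot]
      intro h1
      rw [h1, orderOf_one] at hxo
      exact hd.one_lt.ne hxo
    have hN1 := hRC _ hle hne
    have hdvd : Nat.card N ∣ d := by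
      have := Subgroup.card_dvd_of_le hN1
      rwa [Nat.card_zpowers, hxo] at this
    exact ((Nat.prime_dvd_prime_iff_eq hprime hd).1 hdvd).symm
  set k := (Nat.card C).primeFactorsList.length with hk
  have hCp : IsPGroup (Nat.card N) C := IsPGroup.of_card hCpow
  have hk1 : 1 ≤ k := by
    rcases Nat.eq_zero_or_pos k with h0 | h0
    · exfalso
      rw [h0, pow_zero] at hCpow
      have := Subgroup.card_le_of_le hNC
      rw [hCpow] at this
      have := hprime.one_lt
      omega
    · exact h0
  have hU : ∀ A : Subgroup C, Nat.card A = Nat.card N → A.map C.subtype = N := by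
    intro A hA
    have h1 : Nat.card (A.map C.subtype) = Nat.card N := by
      rw [← hA]
      exact Nat.card_congr (A.equivMapOfInjective C.subtype C.subtype_injective).symm.toEquiv
    have hne : A.map C.subtype ≠ ⊥ := by
      intro h2
      rw [h2, Subgroup.card_bot] at h1
      exact hprime.one_lt.ne h1
    have h3 := hRC _ (map_subtype_le A) hne
    exact (Subgroup.eq_of_le_of_card_ge h3 h1.le).symm
  have huniq : ∀ A B : Subgroup C, Nat.card A = Nat.card N → Nat.card B = Nat.card N → A = B := by
    intro A B hA hB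
    apply Subgroup.map_injective C.subtype_injective
    rw [hU A hA, hU B hB]
  -- the action on `N`
  let φ : F →* MulAut N := MulAut.conjNormal
  have hker : φ.ker = C := by
    ext g
    rw [MonoidHom.mem_ker, hCdef, mem_centralizer_iff]
    constructor
    · intro h1 x hx
      have h2 : (φ g ⟨x, hx⟩ : F) = x := by rw [h1]; rfl
      have h3 : g * x * g⁻¹ = x := h2
      calc x * g = g * x * g⁻¹ * g := by rw [h3]
        _ = g * x := by group
    · intro h1
      ext x
      have h2 := h1 x x.2
      show g * (x : F) * g⁻¹ = x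
      rw [← h2]; group
  have hNcyc : IsCyclic N := isCyclic_of_prime_card rfl
  have hcardA : Nat.card (MulAut N) = Nat.card N - 1 := by
    rw [IsCyclic.card_mulAut, Nat.totient_prime hprime]
  have hAcyc : IsCyclic (MulAut N) :=
    isCyclic_of_injective (IsCyclic.mulAutMulEquiv N).toMonoidHom (IsCyclic.mulAutMulEquiv N).injective
  have hidx : C.index ∣ Nat.card N - 1 := by
    rw [← hker, Subgroup.index_ker, ← hcardA]
    exact Subgroup.card_subgroup_dvd_card _
  have hgen : ∃ g : F, C ⊔ zpowers g = ⊤ := by
    obtain ⟨y, hy⟩ := IsCyclic.exists_generator (α := φ.range)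
    obtain ⟨g, hg⟩ := y.2
    refine ⟨g, ?_⟩
    rw [eq_top_iff]
    intro f _
    obtain ⟨m, hm⟩ := mem_zpowers_iff.1 (hy ⟨φ f, MonoidHom.mem_range.2 ⟨f, rfl⟩⟩)
    have h1 : φ f = (φ g) ^ m := by
      have := congrArg Subtype.val hm
      simp only [SubgroupClass.coe_zpow] at this
      rw [← this, hg]
    have h2 : f * (g ^ m)⁻¹ ∈ C := by
      rw [← hker, MonoidHom.mem_ker, map_mul, map_inv, map_zpow, h1]
      group
    have h3 : f = f * (g ^ m)⁻¹ * g ^ m := by group
    rw [h3]
    exact mul_mem (mem_sup_left h2) (mem_sup_right (zpow_mem (mem_zpowers g) m))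
  by_cases hcyc : IsCyclic C
  · exact Or.inl ⟨hHeqN, hprime, hcyc, ⟨k, hk1, hCpow⟩, hgen, hidx⟩
  · rcases Cfsg.Agent.Lib.UniqueSub.main (Nat.card N) hCp huniq with h1 | ⟨hp2, n, ⟨e⟩⟩
    · exact absurd h1 hcyc
    · right
      have hCtop : C = ⊤ := by
        rw [hp2] at hidx
        have h3 : C.index = 1 := Nat.dvd_one.1 hidx
        exact Subgroup.index_eq_one.1 h3
      refine ⟨hHeqN, hp2, hCtop, n, ?_, ?_⟩
      · rcases Nat.eq_zero_or_pos n with h0 | h0
        · exfalso
          subst h0
          apply hcyc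
          have : IsCyclic (QuaternionGroup (2 ^ 0)) := QuaternionGroup.quaternionGroup_one_isCyclic
          exact isCyclic_of_injective e.toMonoidHom e.injective
        · exact h0
      · exact ⟨Subgroup.topEquiv.symm.trans ((MulEquiv.subgroupCongr hCtop.symm).trans e)⟩

end Cfsg.Agent.S3025
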