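import Mathlib
import Cfsg.Statements.S3027

set_option autoImplicit false
open Cfsg

namespace Cfsg.Agent.S3027

variable {G : Type*} [Group G]

private theorem sup_eq_top_iff_map (D H : Subgroup G) [D.Normal] :
    H ⊔ D = ⊤ ↔ H.map (QuotientGroup.mk' D) = ⊤ := by
  have h1 : Subgroup.comap (QuotientGroup.mk' D) (H.map (QuotientGroup.mk' D)) = H ⊔ D := by
    rw [Subgroup.comap_map_eq, QuotientGroup.ker_mk']
  constructor
  · intro h
    rw [h] at h1
    have h2 := congrArg (Subgroup.map (QuotientGroup.mk' D)) h1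
    rw [Subgroup.map_comap_eq_self_of_surjective (QuotientGroup.mk'_surjective D)] at h2
    rw [h2, ← MonoidHom.range_eq_map, MonoidHom.range_eq_top]
    exact QuotientGroup.mk'_surjective D
  · intro h
    rw [← h1, h, Subgroup.comap_top]

private theorem commutator_sup_eq_top (D : Subgroup G) [D.Normal]
    (hperf : ⁅(⊤ : Subgroup G), (⊤ : Subgroup G)⁆ ⊔ D = ⊤) {Y₁ Y₂ : Subgroup G}
    (h₁ : Y₁ ⊔ D = ⊤) (h₂ : Y₂ ⊔ D = ⊤) : ⁅Y₁, Y₂⁆ ⊔ D = ⊤ := by
  rw [sup_eq_top_iff_map] at hperf h₁ h₂ ⊢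
  rw [Subgroup.map_commutator] at hperf ⊢
  rw [h₁, h₂]
  have h : Subgroup.map (QuotientGroup.mk' D) (⊤ : Subgroup G) = ⊤ := by
    rw [← MonoidHom.range_eq_map, MonoidHom.range_eq_top]
    exact QuotientGroup.mk'_surjective D
  rwa [h] at hperf

private theorem normalizes_mem {M Y : Subgroup G} (h : M ≤ Subgroup.normalizer (Y : Set G)) {m y : G}
    (hm : m ∈ M) (hy : y ∈ Y) : m * y * m⁻¹ ∈ Y :=
  (Subgroup.mem_normalizer_iff.mp (h hm) y).mp hy

private theorem exists_least [Finite G] (D : Subgroup G) [D.Normal]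
    (hperf : ⁅(⊤ : Subgroup G), (⊤ : Subgroup G)⁆ ⊔ D = ⊤) (M : Subgroup G) (hM : M ⊔ D = ⊤) :
    ∃ Y : Subgroup G, Y ≤ M ∧ M ≤ Subgroup.normalizer (Y : Set G) ∧ Y ⊔ D = ⊤ ∧
      ∀ Y' : Subgroup G, Y' ≤ M → M ≤ Subgroup.normalizer (Y' : Set G) → Y' ⊔ D = ⊤ → Y ≤ Y' := by
  let T : Set (Subgroup G) := {Y | Y ≤ M ∧ M ≤ Subgroup.normalizer (Y : Set G) ∧ Y ⊔ D = ⊤}
  have : Nonempty T := ⟨⟨M, le_rfl, Subgroup.le_normalizer, hM⟩⟩
  obtain ⟨⟨Y, hY1, hY2, hY3⟩, hmin⟩ := Finite.exists_min (fun Z : T => Nat.card (Z.1))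
  refine ⟨Y, hY1, hY2, hY3, fun Y' h1 h2 h3 => ?_⟩
  have hinf : (Y ⊓ Y') ⊔ D = ⊤ := by
    have hc : ⁅Y, Y'⁆ ≤ Y ⊓ Y' := by
      rw [Subgroup.commutator_le]
      intro a ha b hb
      constructor
      · have h4 : b * a⁻¹ * b⁻¹ ∈ Y := normalizes_mem hY2 (h1 hb) (Y.inv_mem ha)
        rw [commutatorElement_def]
        have e : a * b * a⁻¹ * b⁻¹ = a * (b * a⁻¹ * b⁻¹) := by group
        rw [e]
        exact Y.mul_mem ha h4
      · have h4 : a * b * a⁻¹ ∈ Y' := normalizes_mem h2 (hY1 ha) hb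
        rw [commutatorElement_def]
        exact Y'.mul_mem h4 (Y'.inv_mem hb)
    rw [eq_top_iff, ← commutator_sup_eq_top D hperf hY3 h3]
    exact sup_le_sup_right hc _
  have hmem : Y ⊓ Y' ∈ T := by
    refine ⟨inf_le_left.trans hY1, ?_, hinf⟩
    intro m hm
    rw [Subgroup.mem_normalizer_iff]
    intro z
    constructor
    · intro hz
      exact ⟨normalizes_mem hY2 hm hz.1, normalizes_mem h2 hm hz.2⟩
    · intro hz
      have h5 := normalizes_mem hY2 (M.inv_mem hm) hz.1
      have h6 := normalizes_mem h2 (M.inv_mem hm) hz.2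
      have e : m⁻¹ * (m * z * m⁻¹) * m⁻¹⁻¹ = z := by group
      rw [e] at h5 h6
      exact ⟨h5, h6⟩
  have h7 := hmin ⟨Y ⊓ Y', hmem⟩
  have h8 := Subgroup.eq_of_le_of_card_ge (inf_le_left : Y ⊓ Y' ≤ Y) h7
  rw [← h8]
  exact inf_le_right

/-- Let G be a finite group and D a normal subgroup of G such that G/D is perfect (that is, G = G′D). Then among the subnormal subgroups B of G with BD = G there is a least one, and it is normal in G. -/
theorem result {G : Type*} [Group G] [Finite G] (D : Subgroup G) [D.Normal] (hperf : ⁅(⊤ : Subgroup G), (⊤ : Subgroup G)⁆ ⊔ D = ⊤) :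
    ∃ B : Subgroup G, B.Normal ∧ B ⊔ D = ⊤ ∧ ∀ B' : Subgroup G, B'.IsSubnormal → B' ⊔ D = ⊤ → B ≤ B' := by
  classical
  have htop : (⊤ : Subgroup G) ⊔ D = ⊤ := top_sup_eq _
  obtain ⟨B, -, hB2, hB3, hB4⟩ := exists_least D hperf ⊤ htop
  have hBn : B.Normal := by
    constructor
    intro x hx g
    exact normalizes_mem hB2 (Subgroup.mem_top g) hx
  refine ⟨B, hBn, hB3, ?_⟩
  intro B' hsub
  induction hsub with
  | top => intro _; exact le_top
  | step H K hHK hK hHn ih =>
    intro hH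
    have hKD : K ⊔ D = ⊤ := by
      rw [eq_top_iff, ← hH]
      exact sup_le_sup_right hHK _
    have hBK := ih hKD
    -- least element for `B`
    obtain ⟨Y, hY1, hY2, hY3, hY4⟩ := exists_least D hperf B hB3
    -- it is normal in `G`
    have hYmin : ∀ g : G, Y ≤ Y.map (MulAut.conj g).toMonoidHom := by
      intro g
      apply hY4
      · rintro _ ⟨y, hy, rfl⟩
        exact hBn.conj_mem y (hY1 hy) g
      · intro b hb
        rw [Subgroup.mem_normalizer_iff]
        intro z
        have hmem : ∀ w, w ∈ Y.map (MulAut.conj g).toMonoidHom ↔ g⁻¹ * w * g ∈ Y := by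
          intro w
          constructor
          · rintro ⟨y, hy, rfl⟩
            have e : g⁻¹ * (MulAut.conj g).toMonoidHom y * g = y := by
              show g⁻¹ * (g * y * g⁻¹) * g = y
              group
            rw [e]; exact hy
          · intro hw
            refine ⟨_, hw, ?_⟩
            show g * (g⁻¹ * w * g) * g⁻¹ = w
            group
        rw [hmem, hmem]
        have hb' : g⁻¹ * b * g ∈ B := by
          have := hBn.conj_mem b hb g⁻¹
          simpa using this
        have h1 := Subgroup.mem_normalizer_iff.mp (hY2 hb') (g⁻¹ * z * g)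
        have e : g⁻¹ * b * g * (g⁻¹ * z * g) * (g⁻¹ * b * g)⁻¹ = g⁻¹ * (b * z * b⁻¹) * g := by group
        rw [e] at h1
        exact h1
      · rw [eq_top_iff]
        intro w _
        have hw : g⁻¹ * w * g ∈ Y ⊔ D := by rw [hY3]; trivial
        obtain ⟨a, ha, d, hd, had⟩ := Subgroup.mem_sup_of_normal_right.mp hw
        have e : w = (g * a * g⁻¹) * (g * d * g⁻¹) := by
          have : g * (g⁻¹ * w * g) * g⁻¹ = g * (a * d) * g⁻¹ := by rw [had]
          calc w = g * (g⁻¹ * w * g) * g⁻¹ := by group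
            _ = g * (a * d) * g⁻¹ := this
            _ = (g * a * g⁻¹) * (g * d * g⁻¹) := by group
        rw [e]
        refine Subgroup.mul_mem _ (Subgroup.mem_sup_left ⟨a, ha, rfl⟩) (Subgroup.mem_sup_right ?_)
        exact (inferInstance : D.Normal).conj_mem d hd g
    have hYn : Y.Normal := by
      constructor
      intro y hy g
      have h2 := hYmin g⁻¹ hy
      obtain ⟨z, hz, e⟩ := h2
      have e' : g⁻¹ * z * g⁻¹⁻¹ = y := e
      have : g * y * g⁻¹ = z := by
        rw [← e']; group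
      rw [this]
      exact hz
    have hBY : B ≤ Y := hB4 Y le_top (fun g _ => by
      rw [Subgroup.mem_normalizer_iff]
      intro z
      constructor
      · exact fun hz => hYn.conj_mem z hz g
      · intro hz
        have h9 := hYn.conj_mem _ hz g⁻¹
        have e : g⁻¹ * (g * z * g⁻¹) * g⁻¹⁻¹ = z := by group
        rwa [e] at h9) hY3
    -- `B ∩ H`
    have hX : Y ≤ B ⊓ H := by
      apply hY4
      · exact inf_le_left
      · intro b hb
        rw [Subgroup.mem_normalizer_iff]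
        intro z
        have hbK : (⟨b, hBK hb⟩ : K) ∈ (⊤ : Subgroup K) := trivial
        have hHconj : ∀ (k : G), k ∈ K → ∀ w ∈ H, k * w * k⁻¹ ∈ H := by
          intro k hk w hw
          have h3 := hHn.conj_mem ⟨w, hHK hw⟩ (Subgroup.mem_subgroupOf.mpr hw) ⟨k, hk⟩
          exact Subgroup.mem_subgroupOf.mp h3
        constructor
        · intro hz
          exact ⟨hBn.conj_mem z hz.1 b, hHconj b (hBK hb) z hz.2⟩
        · intro hz
          have h5 := hBn.conj_mem _ hz.1 b⁻¹
          have h6 := hHconj b⁻¹ (K.inv_mem (hBK hb)) _ hz.2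
          have e : b⁻¹ * (b * z * b⁻¹) * b⁻¹⁻¹ = z := by group
          rw [e] at h5 h6
          exact ⟨h5, h6⟩
      · have hc : ⁅B, H⁆ ≤ B ⊓ H := by
          rw [Subgroup.commutator_le]
          intro a ha b hb
          constructor
          · have h4 : b * a⁻¹ * b⁻¹ ∈ B := hBn.conj_mem _ (B.inv_mem ha) b
            rw [commutatorElement_def]
            have e : a * b * a⁻¹ * b⁻¹ = a * (b * a⁻¹ * b⁻¹) := by group
            rw [e]
            exact B.mul_mem ha h4
          · have h3 := hHn.conj_mem ⟨b, hHK hb⟩ (Subgroup.mem_subgroupOf.mpr hb) ⟨a, hBK ha⟩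
            have h4 := Subgroup.mem_subgroupOf.mp h3
            rw [commutatorElement_def]
            exact H.mul_mem h4 (H.inv_mem hb)
        rw [eq_top_iff, ← commutator_sup_eq_top D hperf hB3 hH]
        exact sup_le_sup_right hc _
    exact hBY.trans (hX.trans inf_le_right)

end Cfsg.Agent.S3027
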