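import Mathlib
import Cfsg.Statements.S3028
import Cfsg.Agent.Lib.Subnormal
import Cfsg.Agent.Lib.Subnormal2
import Cfsg.Agent.Lib.PResid
import Cfsg.Agent.Lib.LocalCore
import Cfsg.Agent.Lib.Replacement

set_option autoImplicit false
open Cfsg

namespace Cfsg.Agent.S3028

open Subgroup
open scoped commutatorElement

universe u

/-- The case of a normal subgroup, by counting. -/
private theorem le_of_normal {G : Type u} [Group G] [Finite G] {p : ℕ} [Fact p.Prime]
    (S : Sylow p G) (A B : Subgroup G) (hA : A.Normal) (hB : B.IsSubnormal) (hAB : A ⊔ B = ⊤) :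
    (S : Subgroup G) ≤ (A ⊓ (S : Subgroup G)) ⊔ (B ⊓ (S : Subgroup G)) := by
  classical
  let π : G →* G ⧸ A := QuotientGroup.mk' A
  have hπ : Function.Surjective π := QuotientGroup.mk'_surjective A
  have hπB : Function.Surjective (π.comp B.subtype) := by
    intro y
    obtain ⟨g, rfl⟩ := hπ y
    have hg : g ∈ ((A ⊔ B : Subgroup G) : Set G) := by rw [hAB]; trivial
    rw [Subgroup.normal_mul] at hg
    obtain ⟨a, ha, b, hb, rfl⟩ := hg
    refine ⟨⟨b, hb⟩, ?_⟩
    have h1 : π a = 1 := (QuotientGroup.eq_one_iff a).2 ha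
    simp [h1]
  obtain ⟨Q, hQ⟩ := Cfsg.Agent.Lib.Subnormal2.exists_sylow_of_subnormal p B hB S
  have hQS : ∀ x : B, x ∈ (Q : Subgroup B) → (x : G) ∈ (S : Subgroup G) := by
    intro x hx
    rw [hQ, mem_subgroupOf] at hx
    exact hx
  let Qb : Sylow p (G ⧸ A) := Q.mapSurjective hπB
  let Sb : Sylow p (G ⧸ A) := S.mapSurjective hπ
  have hle : (Qb : Subgroup (G ⧸ A)) ≤ Sb := by
    rintro _ ⟨x, hx, rfl⟩
    exact ⟨x, hQS x hx, rfl⟩
  have heq : (Sb : Subgroup (G ⧸ A)) = Qb := Qb.is_maximal' Sb.isPGroup' hle
  intro s hs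
  have h1 : π s ∈ (Qb : Subgroup (G ⧸ A)) := by
    rw [← heq]
    exact ⟨s, hs, rfl⟩
  obtain ⟨q, hq, hqs⟩ := h1
  have hqs' : π (q : G) = π s := hqs
  have h2 : (q : G)⁻¹ * s ∈ A := by
    rw [← QuotientGroup.eq_one_iff]
    change π ((q : G)⁻¹ * s) = 1
    rw [map_mul, map_inv, hqs']
    group
  have hq2 : (q : G) ∈ (S : Subgroup G) := hQS q hq
  have h3 : (q : G) ∈ B ⊓ (S : Subgroup G) := ⟨q.2, hq2⟩
  have h4 : (q : G)⁻¹ * s ∈ A ⊓ (S : Subgroup G) := ⟨h2, (S : Subgroup G).mul_mem ((S : Subgroup G).inv_mem hq2) hs⟩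
  have h6 : s = (q : G) * ((q : G)⁻¹ * s) := by group
  rw [h6]
  exact mul_mem (mem_sup_right h3) (mem_sup_left h4)

/-- A simple nonabelian group is quasisimple. -/
private theorem qs_of_simple {X : Type*} [Group X] (h : IsSimpleGroup X)
    (hnc : ¬ IsMulCommutative X) : Cfsg.IsQuasisimple X := by
  have hcomm : commutator X = ⊤ := by
    rcases h.eq_bot_or_eq_top_of_normal (commutator X) inferInstance with h1 | h1
    · exfalso
      apply hnc
      refine ⟨⟨fun a b => ?_⟩⟩
      have h2 : ⁅a, b⁆ = 1 := by
        have : ⁅a, b⁆ ∈ commutator X := commutator_mem_commutator (mem_top a) (mem_top b)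
        rw [h1, mem_bot] at this
        exact this
      exact commutatorElement_eq_one_iff_mul_comm.1 h2
    · exact h1
  refine ⟨⟨hcomm⟩, ?_⟩
  have hcen : center X ≠ ⊤ := by
    intro h1
    apply hnc
    refine ⟨⟨fun a b => ?_⟩⟩
    have : a ∈ center X := by rw [h1]; trivial
    exact (mem_center_iff.1 this b).symm
  have hnt : Nontrivial (X ⧸ center X) := by
    rwa [QuotientGroup.nontrivial_iff]
  exact h.isSimpleGroup_of_surjective (QuotientGroup.mk' (center X)) (QuotientGroup.mk'_surjective _)

/-- Commuting generators: one of them is normal. -/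
private theorem normal_of_comm {G : Type*} [Group G] {A B : Subgroup G} (hAB : A ⊔ B = ⊤)
    (hc : ⁅A, B⁆ = ⊥) : A.Normal := by
  rw [← normalizer_eq_top_iff, eq_top_iff, ← hAB]
  refine sup_le le_normalizer ?_
  intro b hb
  have hbc : b ∈ centralizer (A : Set G) := by
    rw [Subgroup.commutator_comm] at hc
    exact (Subgroup.commutator_eq_bot_iff_le_centralizer.1 hc) hb
  exact centralizer_le_normalizer _ hbc

/-- Simplicity from the reduction. -/
private theorem simple_of {G : Type*} [Group G] [Finite G] {A B M₁ : Subgroup G} (hAB : A ⊔ B = ⊤)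
    (hAM : A ≤ M₁) (hMn : M₁.Normal) (hMt : M₁ ≠ ⊤) (hBb : B ≠ ⊥)
    (h : ∀ M : Subgroup G, M.Normal → M ≠ ⊤ → A ≤ M → B ⊓ M = ⊥) : IsSimpleGroup B := by
  have hnt : Nontrivial B := by
    by_contra hcon
    rw [not_nontrivial_iff_subsingleton] at hcon
    apply hBb
    rw [eq_bot_iff]
    intro x hx
    have : x = 1 := congrArg Subtype.val (Subsingleton.elim (⟨x, hx⟩ : B) 1)
    rw [mem_bot]; exact this
  refine ⟨fun L hL => ?_⟩
  by_cases hLb : L = ⊥
  · exact Or.inl hLb
  right
  set L' : Subgroup G := L.map B.subtype with hL'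
  have hL'B : L' ≤ B := map_subtype_le _
  have hL'bot : L' ≠ ⊥ := by
    intro h1
    apply hLb
    exact (map_eq_bot_iff_of_injective _ B.subtype_injective).1 h1
  set M : Subgroup G := M₁ ⊔ L' with hM
  have hM1B : M₁ ⊔ B = ⊤ := by
    rw [eq_top_iff, ← hAB]
    exact sup_le_sup_right hAM B
  have hMn' : M.Normal := by
    rw [← normalizer_eq_top_iff, eq_top_iff, ← hM1B]
    refine sup_le ?_ ?_
    · exact (le_sup_left : M₁ ≤ M).trans le_normalizer
    · intro b hb
      apply Cfsg.Agent.Lib.Replacement.mem_normalizer_of_forall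
      intro x hx
      have hle : M ≤ M.comap (MulAut.conj b).toMonoidHom := by
        refine sup_le ?_ ?_
        · intro y hy
          exact (le_sup_left : M₁ ≤ M) (hMn.conj_mem y hy b)
        · rintro _ ⟨l, hl, rfl⟩
          have h1 := hL.conj_mem l hl ⟨b, hb⟩
          exact (le_sup_right : L' ≤ M) ⟨_, h1, rfl⟩
      exact hle hx
  by_cases hMt' : M = ⊤
  · rw [eq_top_iff]
    rintro ⟨b, hb⟩ -
    have hbM : b ∈ ((M₁ ⊔ L' : Subgroup G) : Set G) := by
      rw [← hM, hMt']; trivial
    rw [Subgroup.normal_mul] at hbM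
    obtain ⟨m, hm, l, hl, rfl⟩ := hbM
    have hlB : l ∈ B := hL'B hl
    have hmB : m ∈ B := by
      have : m = (m * l) * l⁻¹ := by group
      rw [this]
      exact B.mul_mem hb (B.inv_mem hlB)
    have hm1 : m ∈ B ⊓ M₁ := ⟨hmB, hm⟩
    rw [h M₁ hMn hMt hAM, mem_bot] at hm1
    subst hm1
    obtain ⟨l₀, hl₀, rfl⟩ := hl
    have : (⟨1 * B.subtype l₀, hb⟩ : B) = l₀ := by
      apply Subtype.ext
      simp
    rw [this]
    exact hl₀
  · exfalso
    have h1 := h M hMn' hMt' (hAM.trans le_sup_left)
    apply hL'bot
    rw [eq_bot_iff, ← h1]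
    exact le_inf hL'B le_sup_right

/-- The induction. -/
private theorem main_ind {p : ℕ} [hp : Fact p.Prime] : ∀ (n : ℕ) (G : Type u) [Group G] [Finite G],
    Nat.card G = n → ∀ (S : Sylow p G) (A B : Subgroup G), A.IsSubnormal → B.IsSubnormal →
    (A ⊔ B) ⊓ (S : Subgroup G) ≤ (A ⊓ (S : Subgroup G)) ⊔ (B ⊓ (S : Subgroup G)) := by
  intro n
  induction n using Nat.strong_induction_on with
  | _ n ih₁ =>
    intro G _ _ hn S
    classical
    -- the induction hypothesis inside a proper subnormal subgroup
    have hJ : ∀ J : Subgroup G, J ≠ ⊤ → J.IsSubnormal → ∀ A B : Subgroup G, A.IsSubnormal →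
        B.IsSubnormal → A ≤ J → B ≤ J →
        (A ⊔ B) ⊓ (S : Subgroup G) ≤ (A ⊓ (S : Subgroup G)) ⊔ (B ⊓ (S : Subgroup G)) := by
      intro J hJt hJs A B hA hB hAJ hBJ
      obtain ⟨Q, hQ⟩ := Cfsg.Agent.Lib.Subnormal2.exists_sylow_of_subnormal p J hJs S
      have hcard : Nat.card J < n := hn ▸ Cfsg.Agent.Lib.Subnormal.card_lt_of_ne_top hJt
      have h1 := ih₁ _ hcard J rfl Q (A.subgroupOf J) (B.subgroupOf J) hA.subgroupOf hB.subgroupOf
      have hAm : (A.subgroupOf J).map J.subtype = A := by
        rw [subgroupOf_map_subtype]; exact inf_eq_left.2 hAJ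
      have hBm : (B.subgroupOf J).map J.subtype = B := by
        rw [subgroupOf_map_subtype]; exact inf_eq_left.2 hBJ
      rintro x ⟨hxAB, hxS⟩
      have hxJ : x ∈ J := (sup_le hAJ hBJ) hxAB
      have h2 : (⟨x, hxJ⟩ : J) ∈ (A.subgroupOf J ⊔ B.subgroupOf J) := by
        have h3 : x ∈ (A.subgroupOf J ⊔ B.subgroupOf J).map J.subtype := by
          rw [Subgroup.map_sup, hAm, hBm]; exact hxAB
        obtain ⟨y, hy, hyx⟩ := h3
        have : y = ⟨x, hxJ⟩ := Subtype.ext hyx
        rwa [← this]
      have h4 : (⟨x, hxJ⟩ : J) ∈ (Q : Subgroup J) := by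
        rw [hQ, mem_subgroupOf]; exact hxS
      have h5 := h1 ⟨h2, h4⟩
      have h6 : x ∈ ((A.subgroupOf J ⊓ (Q : Subgroup J)) ⊔ (B.subgroupOf J ⊓ (Q : Subgroup J))).map J.subtype :=
        ⟨_, h5, rfl⟩
      rw [Subgroup.map_sup] at h6
      have hle : (A.subgroupOf J ⊓ (Q : Subgroup J)).map J.subtype ⊔
          (B.subgroupOf J ⊓ (Q : Subgroup J)).map J.subtype ≤
          (A ⊓ (S : Subgroup G)) ⊔ (B ⊓ (S : Subgroup G)) := by
        refine sup_le_sup ?_ ?_
        · rintro _ ⟨y, hy, rfl⟩
          refine ⟨hy.1, ?_⟩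
          have h9 : y ∈ (Q : Subgroup J) := hy.2
          rw [hQ, mem_subgroupOf] at h9
          exact h9
        · rintro _ ⟨y, hy, rfl⟩
          refine ⟨hy.1, ?_⟩
          have h9 : y ∈ (Q : Subgroup J) := hy.2
          rw [hQ, mem_subgroupOf] at h9
          exact h9
      exact hle h6
    -- second induction
    have hL2 : ∀ m : ℕ, ∀ A B : Subgroup G, A.IsSubnormal → B.IsSubnormal → A ⊔ B = ⊤ →
        (Nat.card G - Nat.card A) + (Nat.card G - Nat.card B) = m →
        (S : Subgroup G) ≤ (A ⊓ (S : Subgroup G)) ⊔ (B ⊓ (S : Subgroup G)) := by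
      intro m
      induction m using Nat.strong_induction_on with
      | _ m ih₂ =>
        intro A B hA hB hAB hm
        by_contra hS
        have hAt : A ≠ ⊤ := by
          rintro rfl
          apply hS
          rw [top_inf_eq]
          exact le_sup_left
        have hBt : B ≠ ⊤ := by
          rintro rfl
          apply hS
          rw [top_inf_eq]
          exact le_sup_right
        obtain ⟨M₁, hM₁n, hAM₁, hM₁t⟩ := hA.lt_normal.resolve_left hAt
        obtain ⟨M₂, hM₂n, hBM₂, hM₂t⟩ := hB.lt_normal.resolve_left hBt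
        have key : ∀ A B : Subgroup G, A.IsSubnormal → B.IsSubnormal → A ⊔ B = ⊤ →
            (Nat.card G - Nat.card A) + (Nat.card G - Nat.card B) = m →
            ¬ (S : Subgroup G) ≤ (A ⊓ (S : Subgroup G)) ⊔ (B ⊓ (S : Subgroup G)) →
            ∀ M : Subgroup G, M.Normal → M ≠ ⊤ → A ≤ M → B ⊓ M ≤ A := by
          intro A B hA hB hAB hm hS M hMn hMt hAM
          by_contra hnot
          set A' : Subgroup G := A ⊔ (B ⊓ M) with hA'
          have hA's : A'.IsSubnormal :=
            Cfsg.Agent.Lib.Subnormal.sup_isSubnormal A (B ⊓ M) hA (hB.inf hMn.isSubnormal)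
          have hlt : A < A' := lt_of_le_of_ne le_sup_left (fun h => hnot (by
            rw [h]
            exact le_sup_right))
          have hcardlt : Nat.card A < Nat.card A' := by
            have h0 := Subgroup.card_le_of_le hlt.le
            refine lt_of_le_of_ne h0 fun h1 => hlt.ne ?_
            exact Subgroup.eq_of_le_of_card_ge hlt.le h1.ge
          have hA'B : A' ⊔ B = ⊤ := by
            rw [eq_top_iff, ← hAB]
            exact sup_le_sup_right le_sup_left B
          have hle : Nat.card A' ≤ Nat.card G := Subgroup.card_le_card_group _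
          have h1 := ih₂ _ (by omega) A' B hA's hB hA'B rfl
          apply hS
          refine h1.trans (sup_le ?_ le_sup_right)
          refine (hJ M hMt hMn.isSubnormal A (B ⊓ M) hA (hB.inf hMn.isSubnormal) hAM inf_le_right).trans ?_
          exact sup_le_sup_left (inf_le_inf_right _ inf_le_left) _
        have h1 := key A B hA hB hAB hm hS
        have h2 := key B A hB hA (by rwa [sup_comm]) (by omega) (by rwa [sup_comm])
        set E : Subgroup G := A ⊓ B with hE
        have hEA : E ≤ A := inf_le_left
        have hEB : E ≤ B := inf_le_right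
        have hE1 : E = B ⊓ M₁ :=
          le_antisymm (le_inf inf_le_right (inf_le_left.trans hAM₁))
            (le_inf (h1 M₁ hM₁n hM₁t.ne hAM₁) inf_le_left)
        have hE2 : E = A ⊓ M₂ :=
          le_antisymm (le_inf inf_le_left (inf_le_right.trans hBM₂))
            (le_inf inf_le_left (h2 M₂ hM₂n hM₂t.ne hBM₂))
        have hEn : E.Normal := by
          rw [← normalizer_eq_top_iff, eq_top_iff, ← hAB]
          refine sup_le ?_ ?_
          · intro a ha
            apply Cfsg.Agent.Lib.Replacement.mem_normalizer_of_forall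
            intro x hx
            rw [hE2] at hx ⊢
            exact ⟨A.mul_mem (A.mul_mem ha hx.1) (A.inv_mem ha), hM₂n.conj_mem x hx.2 a⟩
          · intro a ha
            apply Cfsg.Agent.Lib.Replacement.mem_normalizer_of_forall
            intro x hx
            rw [hE1] at hx ⊢
            exact ⟨B.mul_mem (B.mul_mem ha hx.1) (B.inv_mem ha), hM₁n.conj_mem x hx.2 a⟩
        by_cases hEb : E = ⊥
        · -- simple factors
          have hB0 : ∀ M : Subgroup G, M.Normal → M ≠ ⊤ → A ≤ M → B ⊓ M = ⊥ := by
            intro M hMn hMt hAM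
            rw [eq_bot_iff, ← hEb]
            exact le_inf (h1 M hMn hMt hAM) inf_le_left
          have hA0 : ∀ M : Subgroup G, M.Normal → M ≠ ⊤ → B ≤ M → A ⊓ M = ⊥ := by
            intro M hMn hMt hAM
            rw [eq_bot_iff, ← hEb]
            exact le_inf inf_le_left (h2 M hMn hMt hAM)
          have hAb : A ≠ ⊥ := by
            rintro rfl
            apply hBt
            rwa [bot_sup_eq] at hAB
          have hBb : B ≠ ⊥ := by
            rintro rfl
            apply hAt
            rwa [sup_bot_eq] at hAB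
          have hsA : IsSimpleGroup A :=
            simple_of (by rwa [sup_comm]) hBM₂ hM₂n hM₂t.ne hAb hA0
          have hsB : IsSimpleGroup B := simple_of hAB hAM₁ hM₁n hM₁t.ne hBb hB0
          by_cases hcA : IsMulCommutative A
          · by_cases hcB : IsMulCommutative B
            · have hq₁ : (Nat.card A).Prime := Group.is_simple_iff_prime_card.1 hsA
              have hq₂ : (Nat.card B).Prime := Group.is_simple_iff_prime_card.1 hsB
              have : Fact (Nat.card A).Prime := ⟨hq₁⟩
              have : Fact (Nat.card B).Prime := ⟨hq₂⟩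
              have hAp : IsPGroup (Nat.card A) A := IsPGroup.of_card (n := 1) (by rw [pow_one])
              have hBp : IsPGroup (Nat.card B) B := IsPGroup.of_card (n := 1) (by rw [pow_one])
              have hAO := Cfsg.Agent.Lib.PResid.le_pCore_of_isSubnormal hA hAp
              have hBO := Cfsg.Agent.Lib.PResid.le_pCore_of_isSubnormal hB hBp
              by_cases hq : Nat.card A = Nat.card B
              · rw [← hq] at hBO
                have hOt : Cfsg.pCore (Nat.card A) G = ⊤ := by
                  rw [eq_top_iff, ← hAB]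
                  exact sup_le hAO hBO
                by_cases hqp : Nat.card A = p
                · have h3 : IsPGroup p (⊤ : Subgroup G) := by
                    rw [← hOt, ← hqp]
                    exact Cfsg.Agent.Lib.PCore.isPGroup_pCore _
                  have h4 : (⊤ : Subgroup G) = S := S.is_maximal' h3 le_top
                  apply hS
                  rw [← h4, inf_top_eq, inf_top_eq, hAB]
                · have hd : Disjoint (Cfsg.pCore (Nat.card A) G) (S : Subgroup G) :=
                    IsPGroup.disjoint_of_ne _ _ hqp _ _ (Cfsg.Agent.Lib.PCore.isPGroup_pCore _) S.isPGroup'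
                  rw [hOt, top_disjoint] at hd
                  apply hS
                  rw [hd]
                  exact bot_le
              · have hd : Disjoint (Cfsg.pCore (Nat.card A) G) (Cfsg.pCore (Nat.card B) G) :=
                  IsPGroup.disjoint_of_ne _ _ hq _ _ (Cfsg.Agent.Lib.PCore.isPGroup_pCore _)
                    (Cfsg.Agent.Lib.PCore.isPGroup_pCore _)
                have hcb : ⁅A, B⁆ = ⊥ := by
                  rw [eq_bot_iff]
                  refine (Subgroup.commutator_mono hAO hBO).trans ?_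
                  refine (Subgroup.commutator_le_inf _ _).trans ?_
                  rw [hd.eq_bot]
                exact hS (le_of_normal S A B (normal_of_comm hAB hcb) hB hAB)
            · rcases Cfsg.Agent.Lib.LocalCore.comp_le_or_commute
                (⟨hB, qs_of_simple hsB hcB⟩ : Cfsg.IsComponent B) hA with h3 | h3
              · apply hBb
                rw [eq_bot_iff, ← hEb]
                exact le_inf h3 le_rfl
              · have h4 := le_of_normal S B A (normal_of_comm (by rwa [sup_comm]) h3) hA (by rwa [sup_comm])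
                rw [sup_comm] at h4
                exact hS h4
          · rcases Cfsg.Agent.Lib.LocalCore.comp_le_or_commute
                (⟨hA, qs_of_simple hsA hcA⟩ : Cfsg.IsComponent A) hB with h3 | h3
            · apply hAb
              rw [eq_bot_iff, ← hEb]
              exact le_inf le_rfl h3
            · exact hS (le_of_normal S A B (normal_of_comm hAB h3) hB hAB)
        · -- quotient
          apply hS
          let π : G →* G ⧸ E := QuotientGroup.mk' E
          have hπ : Function.Surjective π := QuotientGroup.mk'_surjective E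
          have hcard : Nat.card (G ⧸ E) < n := by
            have h3 := card_mul_index E
            rw [hn] at h3
            have h4 : Nat.card (G ⧸ E) = E.index := rfl
            rw [h4]
            have h5 : 1 < Nat.card E := by
              have hne : Nat.card E ≠ 1 := fun h => hEb (Subgroup.card_eq_one.1 h)
              have hpos : 0 < Nat.card E := Nat.card_pos
              omega
            have h6 : 0 < E.index := Nat.pos_of_ne_zero Subgroup.FiniteIndex.index_ne_zero
            nlinarith
          have h3 := ih₁ _ hcard (G ⧸ E) rfl (S.mapSurjective hπ) (A.map π) (B.map π) (hA.map hπ) (hB.map hπ)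
          have hgen : ∀ X : Subgroup G, E ≤ X →
              (X.map π) ⊓ ((S.mapSurjective hπ : Sylow p (G ⧸ E)) : Subgroup (G ⧸ E)) ≤
                (X ⊓ (S : Subgroup G)).map π := by
            intro X hX
            rintro y ⟨⟨a, ha, rfl⟩, ⟨s', hs', hs'e⟩⟩
            have h4 : a⁻¹ * s' ∈ E := by
              rw [← QuotientGroup.eq_one_iff]
              change π (a⁻¹ * s') = 1
              rw [map_mul, map_inv, hs'e]
              group
            have h5 : s' ∈ X := by
              have : s' = a * (a⁻¹ * s') := by group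
              rw [this]
              exact X.mul_mem ha (hX h4)
            exact ⟨s', ⟨h5, hs'⟩, hs'e⟩
          set T : Subgroup G := (A ⊓ (S : Subgroup G)) ⊔ (B ⊓ (S : Subgroup G)) with hT
          have hTS : T ≤ (S : Subgroup G) := sup_le inf_le_right inf_le_right
          intro s hs
          have h4 : π s ∈ ((A.map π) ⊔ (B.map π)) ⊓ ((S.mapSurjective hπ : Sylow p (G ⧸ E)) : Subgroup (G ⧸ E)) := by
            refine ⟨?_, ⟨s, hs, rfl⟩⟩
            rw [← Subgroup.map_sup, hAB, map_top_of_surjective π hπ]
            trivial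
          have h5 := h3 h4
          have h6 : π s ∈ T.map π := by
            have hle : ((A.map π) ⊓ ((S.mapSurjective hπ : Sylow p (G ⧸ E)) : Subgroup (G ⧸ E))) ⊔
                ((B.map π) ⊓ ((S.mapSurjective hπ : Sylow p (G ⧸ E)) : Subgroup (G ⧸ E))) ≤ T.map π := by
              refine sup_le ((hgen A hEA).trans (map_mono le_sup_left)) ((hgen B hEB).trans (map_mono le_sup_right))
            exact hle h5
          obtain ⟨t, ht, hts⟩ := h6
          have h7 : t⁻¹ * s ∈ E := by
            rw [← QuotientGroup.eq_one_iff]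
            change π (t⁻¹ * s) = 1
            rw [map_mul, map_inv, hts]
            group
          have h8 : t⁻¹ * s ∈ A ⊓ (S : Subgroup G) :=
            ⟨hEA h7, (S : Subgroup G).mul_mem ((S : Subgroup G).inv_mem (hTS ht)) hs⟩
          have h9 : s = t * (t⁻¹ * s) := by group
          rw [h9]
          exact T.mul_mem ht (le_sup_left (a := A ⊓ (S : Subgroup G)) h8)
    intro A B hA hB
    by_cases hAB : A ⊔ B = ⊤
    · exact inf_le_right.trans (hL2 _ A B hA hB hAB rfl)
    · exact hJ (A ⊔ B) hAB (Cfsg.Agent.Lib.Subnormal.sup_isSubnormal A B hA hB) A B hA hB le_sup_left le_sup_right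

/-- Let G be a finite group, p a prime, S a Sylow p-subgroup of G and A₁, A₂ subnormal subgroups of G. Then the join of S ∩ A₁ and S ∩ A₂ is a Sylow p-subgroup of the join of A₁ and A₂; equivalently ⟨A₁, A₂⟩ ∩ S = ⟨A₁ ∩ S, A₂ ∩ S⟩. -/
theorem result {G : Type*} [Group G] [Finite G] {p : ℕ} [Fact p.Prime] (S : Sylow p G) (A₁ A₂ : Subgroup G)
    (h₁ : A₁.IsSubnormal) (h₂ : A₂.IsSubnormal) :
    (A₁ ⊔ A₂) ⊓ (S : Subgroup G) = (A₁ ⊓ (S : Subgroup G)) ⊔ (A₂ ⊓ (S : Subgroup G)) := by
  apply le_antisymm
  · exact main_ind _ G rfl S A₁ A₂ h₁ h₂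
  · exact sup_le (inf_le_inf_right _ le_sup_left) (inf_le_inf_right _ le_sup_right)

end Cfsg.Agent.S3028
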