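import Mathlib
import Cfsg.Statements.S3043
import Cfsg.Agent.Lib.TIInvE
import Cfsg.Agent.Lib.TIInvI

set_option autoImplicit false
open Cfsg

namespace Cfsg.Agent.S3043

/-- Let M be a nontrivial subgroup of a finite group G meeting each of its other conjugates trivially, with N_G(M) = M · C_{N_G(M)}(z) for some involution z ∈ N_G(M), and with C_G(x) of odd order for every nontrivial x ∈ M. Then one of the following holds: M is normal in G; the number of involutions of G is at most |G : M|; G is isomorphic to PGL₂(F) or to PSL₂(F) for a finite field F with |F| = |M|, M is an elementary abelian p-group for the characteristic p of F, and |F| ≡ 1 (mod 4) in the PSL₂ case; G is isomorphic to PSL₂(F) with |F| = 2^e, e > 1, and M is cyclic of order 2^e + 1; or for some d ≥ 1, G has an elementary abelian normal subgroup of order 2^{2d} complemented by N_G(M), and N_G(M) is dihedral of order 2(2^d + 1). -/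
theorem result {G : Type*} [Group G] [Finite G] (M : Subgroup G) (hM1 : M ≠ ⊥)
    (hTI : ∀ g : G, M ⊓ M.map (MulAut.conj g).toMonoidHom ≠ ⊥ → M.map (MulAut.conj g).toMonoidHom = M)
    (z : G) (hz : orderOf z = 2) (hzN : z ∈ Subgroup.normalizer (M : Set G))
    (hfac : M ⊔ (Subgroup.normalizer (M : Set G) ⊓ Subgroup.centralizer ({z} : Set G)) = Subgroup.normalizer (M : Set G))
    (hodd : ∀ x ∈ M, x ≠ 1 → Odd (Nat.card ↥(Subgroup.centralizer ({x} : Set G)))) :
    M.Normal ∨
    Nat.card {g : G // orderOf g = 2} ≤ M.index ∨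
    (∃ (F : Type) (_ : Field F) (_ : Fintype F) (p : ℕ) (_ : Fact p.Prime) (_ : CharP F p), Fintype.card F = Nat.card M ∧ Cfsg.IsElementaryAbelian p M ∧
        (Nonempty (G ≃* (GL (Fin 2) F ⧸ Subgroup.center (GL (Fin 2) F))) ∨
         (Fintype.card F % 4 = 1 ∧ Nonempty (G ≃* Matrix.ProjectiveSpecialLinearGroup (Fin 2) F)))) ∨
    (∃ (F : Type) (_ : Field F) (_ : Fintype F) (e : ℕ), 1 < e ∧ Fintype.card F = 2 ^ e ∧ IsCyclic ↥M ∧ Nat.card M = 2 ^ e + 1 ∧
        Nonempty (G ≃* Matrix.ProjectiveSpecialLinearGroup (Fin 2) F)) ∨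
    (∃ (d : ℕ) (E : Subgroup G), 1 ≤ d ∧ E.Normal ∧ Cfsg.IsElementaryAbelian 2 E ∧ Nat.card E = 2 ^ (2 * d) ∧
        E ⊓ Subgroup.normalizer (M : Set G) = ⊥ ∧ E ⊔ Subgroup.normalizer (M : Set G) = ⊤ ∧
        Nonempty (↥(Subgroup.normalizer (M : Set G)) ≃* DihedralGroup (2 ^ d + 1))) := by
  
  classical
  by_cases hN : M.Normal
  · exact Or.inl hN
  by_cases hc : Nat.card {g : G // orderOf g = 2} ≤ M.index
  · exact Or.inr (Or.inl hc)
  push Not at hc
  have hzz : z * z = 1 := by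
    have := pow_orderOf_eq_one z
    rwa [hz, pow_two] at this
  have hz1 : z ≠ 1 := by
    rintro rfl
    rw [orderOf_one] at hz
    omega
  have hti : ∀ g x : G, x ∈ M → x ≠ 1 → g⁻¹ * x * g ∈ M →
      g ∈ Cfsg.Agent.Lib.TIInv.Nm M := by
    intro g x hx hx1 hgx
    have hmem : x ∈ M.map (MulAut.conj g).toMonoidHom :=
      ⟨g⁻¹ * x * g, hgx, by
        change g * (g⁻¹ * x * g) * g⁻¹ = x
        group⟩
    have hne : M ⊓ M.map (MulAut.conj g).toMonoidHom ≠ ⊥ := by
      intro hb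
      have h2 : x ∈ M ⊓ M.map (MulAut.conj g).toMonoidHom := ⟨hx, hmem⟩
      rw [hb, Subgroup.mem_bot] at h2
      exact hx1 h2
    have he := hTI g hne
    rw [Subgroup.mem_normalizer_iff]
    intro k
    constructor
    · intro hk
      have h2 : g * k * g⁻¹ ∈ M.map (MulAut.conj g).toMonoidHom := ⟨k, hk, rfl⟩
      rwa [he] at h2
    · intro hk
      rw [← he] at hk
      obtain ⟨k', hk', hk2⟩ := hk
      have h2 : g * k' * g⁻¹ = g * k * g⁻¹ := hk2
      have h3 : k' = k := mul_left_cancel (mul_right_cancel h2)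
      rwa [h3] at hk'
  have hfac' : ∀ g ∈ Cfsg.Agent.Lib.TIInv.Nm M, ∃ m ∈ M, ∃ c ∈ Cfsg.Agent.Lib.TIInv.Nm M,
      c * z = z * c ∧ g = m * c := by
    intro g hg
    have hle : Subgroup.normalizer (M : Set G) ⊓ Subgroup.centralizer ({z} : Set G) ≤
        Subgroup.normalizer (M : Set G) := inf_le_left
    have h2 := Subgroup.coe_mul_of_right_le_normalizer_left M _ hle
    have h3 : g ∈ ((M ⊔ (Subgroup.normalizer (M : Set G) ⊓ Subgroup.centralizer ({z} : Set G)) :
        Subgroup G) : Set G) := by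
      rw [hfac]
      exact hg
    rw [h2] at h3
    obtain ⟨m, hm, c, hc', hgc⟩ := Set.mem_mul.mp h3
    exact ⟨m, hm, c, hc'.1, Subgroup.mem_centralizer_singleton_iff.mp hc'.2, hgc.symm⟩
  have hH : Cfsg.Agent.Lib.TIInv.Hyp M z :=
    { ne_bot := hM1
      ti := hti
      hz := hzz
      hz1 := hz1
      hzN := hzN
      fac := hfac'
      odd := hodd }
  have hD : Cfsg.Agent.Lib.TIInv.Dn M z :=
    { hH with dense := fun g hg => hH.dense_of_card hc hg }
  obtain ⟨y, hy, hyz⟩ := hD.exists_out hN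
  rcases hD.dichotomy hy hyz with hA | ⟨hC, hW⟩
  · exact Or.inr (Or.inr (Or.inl (Cfsg.Agent.Lib.TIInv.AA.main
      { hD with hy := hy, hyz := hyz, hA := hA })))
  · have hB : Cfsg.Agent.Lib.TIInv.BB M z y :=
      { hD with hy := hy, hyz := hyz, hC := hC, hW := hW }
    obtain ⟨h2, h3, h4⟩ := hB.numbers
    rcases h4 with ⟨h5, h6⟩ | ⟨h5, h6⟩
    · exact Or.inr (Or.inr (Or.inr (Or.inl (hB.large_case h2 h3 h5 h6))))
    · exact Or.inr (Or.inr (Or.inr (Or.inr (hB.small_case h2 h5 h6 h3))))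


end Cfsg.Agent.S3043
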