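import Mathlib
import Cfsg.Statements.S3048
import Cfsg.Agent.S3012
import Cfsg.Agent.Lib.LocalCore2
import Cfsg.Agent.Lib.FStarAct
import Cfsg.Agent.Lib.FischerPrim
-- import your own Cfsg.Agent.* helpers here

set_option autoImplicit false
universe u
open Cfsg

namespace Cfsg.Agent.S3048

open Cfsg.Agent.Lib Cfsg.Agent.Lib.PCore Cfsg.Agent.Lib.LocalCore
open scoped commutatorElement

section Basics

variable {G : Type*} [Group G]

theorem ea_comm {V : Subgroup G} (hV : IsElementaryAbelian 2 V) {a b : G} (ha : a ∈ V) (hb : b ∈ V) :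
    a * b = b * a := by
  have := hV.1.is_comm.comm ⟨a, ha⟩ ⟨b, hb⟩
  exact congrArg Subtype.val this

theorem ea_sq {V : Subgroup G} (hV : IsElementaryAbelian 2 V) {a : G} (ha : a ∈ V) : a * a = 1 := by
  rw [← pow_two]; exact hV.2 a ha

theorem ea_inv {V : Subgroup G} (hV : IsElementaryAbelian 2 V) {a : G} (ha : a ∈ V) : a⁻¹ = a :=
  inv_eq_of_mul_eq_one_left (ea_sq hV ha)

theorem ea_mono {V W : Subgroup G} (hV : IsElementaryAbelian 2 V) (h : W ≤ V) : IsElementaryAbelian 2 W :=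
  ⟨⟨⟨fun a b => Subtype.ext (ea_comm hV (h a.2) (h b.2))⟩⟩, fun a ha => hV.2 a (h ha)⟩

theorem ea_subgroupOf {V : Subgroup G} (hV : IsElementaryAbelian 2 V) (C : Subgroup G) :
    IsElementaryAbelian 2 (V.subgroupOf C) :=
  ⟨⟨⟨fun a b => Subtype.ext (Subtype.ext (ea_comm hV a.2 b.2))⟩⟩, fun a ha =>
    Subtype.ext (hV.2 a ha)⟩

theorem ne_bot_subgroupOf {V C : Subgroup G} (hVC : V ≤ C) (hV1 : V ≠ ⊥) : V.subgroupOf C ≠ ⊥ := by
  intro h
  apply hV1
  rw [eq_bot_iff]
  intro a ha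
  have h1 : (⟨a, hVC ha⟩ : C) ∈ V.subgroupOf C := ha
  rw [h] at h1
  have h2 := Subgroup.mem_bot.1 h1
  exact Subgroup.mem_bot.2 (congrArg Subtype.val h2)

theorem sidki_subgroupOf {V C : Subgroup G} (hVC : V ≤ C) (hS : IsSidkiPair V) :
    IsSidkiPair (V.subgroupOf C) := by
  intro h v hv ho hi
  obtain ⟨w, hw, hw1, hwh⟩ := hS h v hv (by rwa [Subgroup.orderOf_coe]) (by
    have := congrArg Subtype.val hi
    simpa using this)
  refine ⟨⟨w, hVC hw⟩, hw, ?_, Subtype.ext hwh⟩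
  intro h1
  exact hw1 (congrArg Subtype.val h1)

theorem odd_mem {M : Subgroup G} {x : G} (hx : Odd (orderOf x)) (h2 : x * x ∈ M) : x ∈ M := by
  obtain ⟨k, hk⟩ := hx
  have h1 : x ^ (2 * k + 1) = 1 := by rw [← hk]; exact pow_orderOf_eq_one x
  have h3 : x = ((x * x) ^ k)⁻¹ := by
    rw [eq_inv_iff_mul_eq_one, ← pow_two, ← pow_mul, ← pow_succ']
    exact h1
  rw [h3]
  exact inv_mem (pow_mem h2 k)

theorem mem_mul_of_sup {M W : Subgroup G} (hWM : W ≤ Subgroup.normalizer (M : Set G)) {x : G}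
    (hx : x ∈ M ⊔ W) : ∃ m ∈ M, ∃ w ∈ W, x = m * w := by
  rw [Subgroup.sup_eq_closure] at hx
  induction hx using Subgroup.closure_induction with
  | mem x hx =>
    rcases hx with hx | hx
    · exact ⟨x, hx, 1, one_mem _, by simp⟩
    · exact ⟨1, one_mem _, x, hx, by simp⟩
  | one => exact ⟨1, one_mem _, 1, one_mem _, by simp⟩
  | mul x y _ _ hx hy =>
    obtain ⟨m₁, hm₁, w₁, hw₁, rfl⟩ := hx
    obtain ⟨m₂, hm₂, w₂, hw₂, rfl⟩ := hy
    refine ⟨m₁ * (w₁ * m₂ * w₁⁻¹), mul_mem hm₁ ((Subgroup.mem_normalizer_iff.1 (hWM hw₁) m₂).1 hm₂),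
      w₁ * w₂, mul_mem hw₁ hw₂, by group⟩
  | inv x _ hx =>
    obtain ⟨m, hm, w, hw, rfl⟩ := hx
    refine ⟨w⁻¹ * m⁻¹ * w⁻¹⁻¹, (Subgroup.mem_normalizer_iff.1 (hWM (inv_mem hw)) m⁻¹).1 (inv_mem hm),
      w⁻¹, inv_mem hw, by group⟩

theorem odd_mem_of_sup {M W : Subgroup G} (hWM : W ≤ Subgroup.normalizer (M : Set G))
    (hW2 : ∀ w ∈ W, w * w = 1) {x : G} (hx : x ∈ M ⊔ W) (ho : Odd (orderOf x)) : x ∈ M := by
  obtain ⟨m, hm, w, hw, rfl⟩ := mem_mul_of_sup hWM hx
  apply odd_mem ho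
  have h1 : m * w * (m * w) = m * (w * m * w⁻¹) * (w * w) := by group
  rw [h1, hW2 w hw, mul_one]
  exact mul_mem hm ((Subgroup.mem_normalizer_iff.1 (hWM hw) m).1 hm)

theorem le_normalizer_of_normal {M : Subgroup G} (hM : M.Normal) (W : Subgroup G) :
    W ≤ Subgroup.normalizer (M : Set G) := by
  intro g _
  rw [Subgroup.mem_normalizer_iff]
  intro h
  refine ⟨fun hh => hM.conj_mem h hh g, fun hh => ?_⟩
  have := hM.conj_mem _ hh g⁻¹
  simpa [mul_assoc] using this

theorem mem_normalizer_of_commute {K : Subgroup G} {l : G} (h : ∀ k ∈ K, l * k = k * l) :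
    l ∈ Subgroup.normalizer (K : Set G) := by
  rw [Subgroup.mem_normalizer_iff]
  intro y
  constructor
  · intro hy
    rw [h y hy]
    simpa using hy
  · intro hy
    have h1 := h _ hy
    have h2 : l * y = (l * y * l⁻¹) * l * l⁻¹ * l := by group
    have h3 : y = l * y * l⁻¹ := by
      have h4 : l * (l * y * l⁻¹) = (l * y * l⁻¹) * l := h1
      have h5 : l * y * l⁻¹ * l = l * y := by group
      rw [h5] at h4
      exact (mul_left_cancel h4).symm
    rw [h3]
    exact hy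

end Basics

section Faith

variable {G : Type*} [Group G] [Finite G]

/-- The basis trick: an elementary abelian `2`-group acting faithfully on an abelian group of odd order inverts an
element which has no nontrivial fixing element. -/
theorem faith_abelian {M V : Subgroup G} (hV : IsElementaryAbelian 2 V)
    (hMab : ∀ a ∈ M, ∀ b ∈ M, a * b = b * a) (hModd : ∀ m ∈ M, Odd (orderOf m))
    (hVM : V ≤ Subgroup.normalizer (M : Set G)) (hf : ∀ v ∈ V, v ≠ 1 → ∃ m ∈ M, v * m ≠ m * v) :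
    ∃ h ∈ M, ∃ v ∈ V, v * h * v⁻¹ = h⁻¹ ∧ ∀ t ∈ V, t ≠ 1 → t * h ≠ h * t := by
  classical
  set 𝓢 : Set (Subgroup G) := {W | W ≤ V ∧ ∃ h ∈ M, ∃ v ∈ W, v * h * v⁻¹ = h⁻¹ ∧ ∀ t ∈ W, t ≠ 1 → t * h ≠ h * t}
    with h𝓢
  have hne : 𝓢.Nonempty := ⟨⊥, bot_le, 1, one_mem _, 1, one_mem _, by simp, fun t ht ht1 =>
    absurd (Subgroup.mem_bot.1 ht) ht1⟩
  obtain ⟨W, hWmax⟩ := (Set.toFinite 𝓢).exists_maximal hne
  obtain ⟨hWV, n, hn, w, hw, hinv, hfix⟩ := hWmax.1
  by_cases hdone : ∀ t ∈ V, t ≠ 1 → t * n ≠ n * t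
  · exact ⟨n, hn, w, hWV hw, hinv, hdone⟩
  exfalso
  push Not at hdone
  obtain ⟨u, hu, hu1, hun⟩ := hdone
  have hwV := hWV hw
  have huW : u ∉ W := fun h => hfix u h hu1 hun
  have huu := ea_sq hV hu
  have hww := ea_sq hV hwV
  have huw : u * w = w * u := ea_comm hV hu hwV
  have hconjM : ∀ g ∈ V, ∀ x ∈ M, g * x * g⁻¹ ∈ M := fun g hg x hx =>
    (Subgroup.mem_normalizer_iff.1 (hVM hg) x).1 hx
  obtain ⟨m, hm, hmne⟩ := hf u hu hu1
  let U := MulAut.conj u
  let C := MulAut.conj w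
  have hUa : ∀ x, U x = u * x * u⁻¹ := fun x => rfl
  have hCa : ∀ x, C x = w * x * w⁻¹ := fun x => rfl
  have hui : u⁻¹ = u := ea_inv hV hu
  have hwi : w⁻¹ = w := ea_inv hV hwV
  have hUU : ∀ x, U (U x) = x := by
    intro x
    rw [hUa, hUa, hui]
    calc u * (u * x * u) * u = (u * u) * x * (u * u) := by group
      _ = x := by rw [huu]; group
  have hCC : ∀ x, C (C x) = x := by
    intro x
    rw [hCa, hCa, hwi]
    calc w * (w * x * w) * w = (w * w) * x * (w * w) := by group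
      _ = x := by rw [hww]; group
  have hUC : ∀ x, U (C x) = C (U x) := by
    intro x
    rw [hUa, hCa, hUa, hCa, hui, hwi]
    calc u * (w * x * w) * u = (u * w) * x * (w * u) := by group
      _ = (w * u) * x * (u * w) := by rw [huw]
      _ = w * (u * x * u) * w := by group
  have hUM : ∀ x ∈ M, U x ∈ M := fun x hx => hconjM u hu x hx
  have hCM : ∀ x ∈ M, C x ∈ M := fun x hx => hconjM w hwV x hx
  obtain ⟨m₁, hm₁M, hUm₁, hm₁1⟩ : ∃ m₁ ∈ M, U m₁ = m₁⁻¹ ∧ m₁ ≠ 1 := by
    refine ⟨m * (U m)⁻¹, mul_mem hm (inv_mem (hUM m hm)), ?_, ?_⟩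
    · rw [map_mul, map_inv, hUU, mul_inv_rev, inv_inv]
    · intro h1
      apply hmne
      have h2 : m = U m := mul_inv_eq_one.1 h1
      rw [hUa] at h2
      calc u * m = (u * m * u⁻¹) * u := by group
        _ = m * u := by rw [← h2]
  have hodd₁ := hModd _ hm₁M
  have hm₁m₁ : m₁ * m₁ ≠ 1 := by
    intro h1
    apply hm₁1
    have h2 : m₁ ∈ (⊥ : Subgroup G) := odd_mem hodd₁ (by rw [h1]; exact one_mem _)
    exact Subgroup.mem_bot.1 h2
  have hcomm₁ : m₁ * C m₁ = C m₁ * m₁ := hMab _ hm₁M _ (hCM _ hm₁M)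
  have hCn : C n = n⁻¹ := hinv
  have hUn : U n = n := by
    rw [hUa, hun]
    group
  have hW₂V : W ⊔ Subgroup.zpowers u ≤ V := by
    refine sup_le hWV ?_
    rw [Subgroup.zpowers_le]; exact hu
  -- the second element
  obtain ⟨m₂, hm₂M, hm₂1, hUm₂, v', hv', hv'm₂, hv'n⟩ : ∃ m₂ ∈ M, m₂ ≠ 1 ∧ U m₂ = m₂⁻¹ ∧
      ∃ v' ∈ W ⊔ Subgroup.zpowers u, v' * m₂ * v'⁻¹ = m₂⁻¹ ∧ v' * n * v'⁻¹ = n⁻¹ := by
    by_cases hminus : m₁ * (C m₁)⁻¹ = 1
    · -- use the plus part
      have hCm₁ : C m₁ = m₁ := (mul_inv_eq_one.1 hminus).symm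
      refine ⟨m₁ * C m₁, mul_mem hm₁M (hCM _ hm₁M), ?_, ?_, w * u, ?_, ?_, ?_⟩
      · rw [hCm₁]; exact hm₁m₁
      · rw [map_mul, hUC, hUm₁, map_inv, hCm₁, mul_inv_rev]
      · exact mul_mem (Subgroup.mem_sup_left hw) (Subgroup.mem_sup_right (Subgroup.mem_zpowers u))
      · rw [hCm₁]
        have h1 : (w * u) * (m₁ * m₁) * (w * u)⁻¹ = C (U (m₁ * m₁)) := by
          rw [hCa, hUa]; group
        rw [h1, map_mul, hUm₁, map_mul, map_inv, hCm₁, mul_inv_rev]
      · have h1 : (w * u) * n * (w * u)⁻¹ = C (U n) := by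
          rw [hCa, hUa]; group
        rw [h1, hUn, hCn]
    · refine ⟨m₁ * (C m₁)⁻¹, mul_mem hm₁M (inv_mem (hCM _ hm₁M)), hminus, ?_, w, ?_, ?_, hCn⟩
      · rw [map_mul, map_inv, hUC, hUm₁, map_inv, mul_inv_rev, inv_inv]
        exact (hMab _ (inv_mem hm₁M) _ (hCM _ hm₁M))
      · exact Subgroup.mem_sup_left hw
      · show C (m₁ * (C m₁)⁻¹) = _
        rw [map_mul, map_inv, hCC, mul_inv_rev, inv_inv]
  have hodd₂ := hModd _ hm₂M
  have hWle : W ≤ W ⊔ Subgroup.zpowers u := le_sup_left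
  have hW₂mem : W ⊔ Subgroup.zpowers u ∈ 𝓢 := by
    refine ⟨hW₂V, n * m₂, mul_mem hn hm₂M, v', hv', ?_, ?_⟩
    · have h1 : v' * (n * m₂) * v'⁻¹ = (v' * n * v'⁻¹) * (v' * m₂ * v'⁻¹) := by group
      rw [h1, hv'm₂, hv'n, mul_inv_rev]
      exact hMab _ (inv_mem hn) _ (inv_mem hm₂M)
    · intro t ht ht1 htc
      have htV := hW₂V ht
      have htu : Commute t u := ea_comm hV htV hu
      have hth : Commute t (n * m₂) := htc
      have hth' : Commute t (U (n * m₂)) := by
        rw [hUa]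
        exact (htu.mul_right hth).mul_right htu.inv_right
      have heq : (n * m₂) * (U (n * m₂))⁻¹ = m₂ * m₂ := by
        rw [map_mul, hUn, hUm₂, mul_inv_rev, inv_inv]
        have h1 : n * m₂ * (m₂ * n⁻¹) = n * (m₂ * m₂) * n⁻¹ := by group
        rw [h1, hMab n hn _ (mul_mem hm₂M hm₂M)]
        group
      have htm₂₂ : Commute t (m₂ * m₂) := by
        rw [← heq]
        exact hth.mul_right hth'.inv_right
      have htm₂ : Commute t m₂ := by
        have h1 : m₂ ∈ Subgroup.centralizer ({t} : Set G) := by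
          apply odd_mem hodd₂
          rw [Subgroup.mem_centralizer_iff]
          intro y hy
          rw [Set.mem_singleton_iff.1 hy]
          exact htm₂₂
        exact (Subgroup.mem_centralizer_iff.1 h1 t rfl)
      have htn : Commute t n := by
        have h1 : n = (n * m₂) * m₂⁻¹ := by group
        rw [h1]
        exact hth.mul_right htm₂.inv_right
      have hcomm : ⁅W, Subgroup.zpowers u⁆ = ⊥ := by
        rw [commutator_eq_bot_iff_elementwise]
        rintro a ha b ⟨j, rfl⟩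
        exact (Commute.zpow_right (show Commute a u from ea_comm hV (hWV ha) hu) j)
      obtain ⟨t₁, ht₁, y, hy, rfl⟩ := mem_sup_of_commute hcomm ht
      have hy2 : y = 1 ∨ y = u := by
        obtain ⟨k, rfl⟩ := Subgroup.mem_zpowers_iff.1 hy
        rcases Int.even_or_odd' k with ⟨j, rfl | rfl⟩
        · left
          rw [zpow_mul, zpow_two, huu, one_zpow]
        · right
          rw [zpow_add_one, zpow_mul, zpow_two, huu, one_zpow, one_mul]
      have hyn : Commute y n := by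
        rcases hy2 with rfl | rfl
        · exact Commute.one_left n
        · exact hun
      have ht₁n : t₁ * n = n * t₁ := by
        have h1 : t₁ = (t₁ * y) * y⁻¹ := by group
        have h2 : Commute ((t₁ * y) * y⁻¹) n := htn.mul_left hyn.inv_left
        rw [← h1] at h2
        exact h2
      have ht₁1 : t₁ = 1 := by
        by_contra hne
        exact hfix t₁ ht₁ hne ht₁n
      rw [ht₁1, one_mul] at ht1 htm₂
      rcases hy2 with rfl | rfl
      · exact ht1 rfl
      · apply hm₂1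
        have h1 : y * m₂ * y⁻¹ = m₂ := by
          rw [htm₂.eq]; group
        have h2 : m₂ = m₂⁻¹ := by
          rw [← hUm₂, hUa]
          exact h1.symm
        have h3 : m₂ * m₂ = 1 := by
          nth_rewrite 2 [h2]
          group
        have h4 : m₂ ∈ (⊥ : Subgroup G) := odd_mem hodd₂ (by rw [h3]; exact one_mem _)
        exact Subgroup.mem_bot.1 h4
  have hle := hWmax.2 hW₂mem hWle
  exact huW (hle (Subgroup.mem_sup_right (Subgroup.mem_zpowers u)))

end Faith

section Main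

variable {G : Type u} [Group G] [Finite G]

/-- The hypotheses of the reduction. -/
structure Setting (V : Subgroup G) : Prop where
  hV : IsElementaryAbelian 2 V
  hV1 : V ≠ ⊥
  hS : IsSidkiPair V
  hO : pCore 2 G = ⊥
  hminG : ∀ (H : Type u) [Group H] [Finite H] (W : Subgroup H), Nat.card H < Nat.card G →
    IsElementaryAbelian 2 W → W ≠ ⊥ → IsSidkiPair W → W ⊓ pCore 2 H ≠ ⊥
  hminV : ∀ W : Subgroup G, Nat.card W < Nat.card V → IsElementaryAbelian 2 W → W ≠ ⊥ →
    IsSidkiPair W → W ⊓ pCore 2 G ≠ ⊥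

variable {V : Subgroup G}

theorem card_lt_of_ne_top {H : Subgroup G} (h : H ≠ ⊤) : Nat.card H < Nat.card G :=
  lt_of_le_of_ne (Subgroup.card_le_card_group H) (fun e => h (Subgroup.eq_top_of_card_eq H e))

theorem card_lt_of_not_mem {A B : Subgroup G} (hAB : A ≤ B) {x : G} (hxB : x ∈ B) (hxA : x ∉ A) :
    Nat.card A < Nat.card B := by
  refine lt_of_le_of_ne (Subgroup.card_le_of_le hAB) ?_
  intro e
  have h1 : A = B := Subgroup.eq_of_le_of_card_ge hAB e.ge
  rw [h1] at hxA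
  exact hxA hxB

theorem pCore_normal_eq_bot (hO : pCore 2 G = ⊥) {M : Subgroup G} (hM : M.Normal) : pCore 2 ↥M = ⊥ := by
  haveI := hM
  have h1 := map_pCore_of_normal (G := G) 2 M
  rw [hO, inf_bot_eq] at h1
  exact (Subgroup.map_eq_bot_iff_of_injective _ M.subtype_injective).1 h1

theorem false_of_local (S : Setting V) {M W : Subgroup G} (hWM : W ≤ Subgroup.normalizer (M : Set G))
    (hW : IsElementaryAbelian 2 W) (hW1 : W ≠ ⊥) (hMO : pCore 2 ↥M = ⊥)
    (hfaith : ∀ a ∈ W, a ≠ 1 → ∃ m ∈ M, a * m ≠ m * a)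
    (hcon : ∀ n ∈ M, ∀ w ∈ W, Odd (orderOf n) → w * n * w⁻¹ = n⁻¹ → ∃ u ∈ W, u ≠ 1 ∧ u * n = n * u)
    (hcase : M ⊔ W ≠ ⊤ ∨ Nat.card W < Nat.card V) : False := by
  classical
  have hodd : ∀ x ∈ M ⊔ W, Odd (orderOf x) → x ∈ M := fun x hx ho =>
    odd_mem_of_sup hWM (fun w hw => ea_sq hW hw) hx ho
  by_cases hH : M ⊔ W = ⊤
  · have hlt := hcase.resolve_left (not_not.2 hH)
    have hSW : IsSidkiPair W := fun h v hv ho hi =>
      hcon h (hodd h (by rw [hH]; trivial) ho) v hv ho hi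
    have := S.hminV W hlt hW hW1 hSW
    rw [S.hO, inf_bot_eq] at this
    exact this rfl
  · set H := M ⊔ W with hHdef
    have hWH : W ≤ H := le_sup_right
    have hMH : M ≤ H := le_sup_left
    have hSW : IsSidkiPair (W.subgroupOf H) := by
      intro h v hv ho hi
      have ho' : Odd (orderOf (h : G)) := by rwa [Subgroup.orderOf_coe]
      have hi' : (v : G) * (h : G) * (v : G)⁻¹ = (h : G)⁻¹ := by
        have := congrArg Subtype.val hi
        simpa using this
      obtain ⟨u, hu, hu1, huh⟩ := hcon h (hodd h h.2 ho') v hv ho' hi'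
      refine ⟨⟨u, hWH hu⟩, hu, ?_, Subtype.ext huh⟩
      intro h1
      exact hu1 (congrArg Subtype.val h1)
    have hne := S.hminG H (W.subgroupOf H) (card_lt_of_ne_top hH) (ea_subgroupOf hW H)
      (ne_bot_subgroupOf hWH hW1) hSW
    obtain ⟨a, ⟨ha₁, ha₂⟩, ha1⟩ := (Subgroup.bot_or_exists_ne_one _).resolve_left hne
    have ha₁' : (a : G) ∈ W := ha₁
    have ha1' : (a : G) ≠ 1 := fun h => ha1 (Subtype.ext h)
    obtain ⟨m, hm, hmne⟩ := hfaith a ha₁' ha1'
    let m' : H := ⟨m, hMH hm⟩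
    have hcO : a * m' * a⁻¹ * m'⁻¹ ∈ pCore 2 ↥H := by
      have h1 : a * m' * a⁻¹ * m'⁻¹ = a * (m' * a⁻¹ * m'⁻¹) := by group
      rw [h1]
      exact mul_mem ha₂ ((pCore_normal (G := H) 2).conj_mem _ (inv_mem ha₂) m')
    have hcM : ((a * m' * a⁻¹ * m'⁻¹ : H) : G) ∈ M :=
      mul_mem ((Subgroup.mem_normalizer_iff.1 (hWM ha₁') m).1 hm) (inv_mem hm)
    let Ym : Subgroup M := ((pCore 2 ↥H).map H.subtype).subgroupOf M
    have hYn : Ym.Normal := by
      constructor
      intro y hy g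
      obtain ⟨z, hz, hzy⟩ := hy
      refine ⟨(⟨g, hMH g.2⟩ : H) * z * (⟨g, hMH g.2⟩ : H)⁻¹,
        (pCore_normal (G := H) 2).conj_mem z hz _, ?_⟩
      show (g : G) * (z : G) * (g : G)⁻¹ = (g : G) * ((y : M) : G) * (g : G)⁻¹
      have e : (z : G) = ((y : M) : G) := hzy
      rw [e]
    have hYp : IsPGroup 2 Ym := by
      intro y
      obtain ⟨z, hz, hzy⟩ := y.2
      obtain ⟨k, hk⟩ := isPGroup_pCore (G := H) 2 ⟨z, hz⟩
      refine ⟨k, Subtype.ext (Subtype.ext ?_)⟩
      have h1 : z ^ (2 ^ k) = 1 := congrArg Subtype.val hk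
      have h2 : ((z ^ (2 ^ k) : H) : G) = 1 := by rw [h1]; rfl
      rw [Subgroup.coe_pow] at h2
      have e : (z : G) = ((y : Ym) : M) := hzy
      rw [e] at h2
      simpa using h2
    have hYle : Ym ≤ pCore 2 ↥M := le_pCore hYn hYp
    rw [hMO] at hYle
    have hc1 : (⟨_, hcM⟩ : M) ∈ Ym := ⟨_, hcO, rfl⟩
    have hc2 := Subgroup.mem_bot.1 (hYle hc1)
    have hc3 : (a : G) * m * (a : G)⁻¹ * m⁻¹ = 1 := congrArg Subtype.val hc2
    apply hmne
    calc (a : G) * m = ((a : G) * m * (a : G)⁻¹ * m⁻¹) * (m * a) := by group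
      _ = m * a := by rw [hc3, one_mul]

theorem exists_inverted (S : Setting V) {M W : Subgroup G} (hWM : W ≤ Subgroup.normalizer (M : Set G))
    (hW : IsElementaryAbelian 2 W) (hW1 : W ≠ ⊥) (hMO : pCore 2 ↥M = ⊥)
    (hfaith : ∀ a ∈ W, a ≠ 1 → ∃ m ∈ M, a * m ≠ m * a)
    (hcase : M ⊔ W ≠ ⊤ ∨ Nat.card W < Nat.card V) :
    ∃ n ∈ M, ∃ w ∈ W, Odd (orderOf n) ∧ w * n * w⁻¹ = n⁻¹ ∧ ∀ u ∈ W, u ≠ 1 → u * n ≠ n * u := by
  by_contra hc
  push Not at hc
  exact false_of_local S hWM hW hW1 hMO hfaith hc hcase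

theorem quot_data (hV : IsElementaryAbelian 2 V) (hV1 : V ≠ ⊥) {K : Subgroup G} [K.Normal]
    (hVK : V ⊓ K = ⊥) :
    IsElementaryAbelian 2 (V.map (QuotientGroup.mk' K)) ∧ V.map (QuotientGroup.mk' K) ≠ ⊥ := by
  constructor
  · refine ⟨⟨⟨?_⟩⟩, ?_⟩
    · rintro ⟨_, a, ha, rfl⟩ ⟨_, b, hb, rfl⟩
      apply Subtype.ext
      show QuotientGroup.mk' K a * QuotientGroup.mk' K b = QuotientGroup.mk' K b * QuotientGroup.mk' K a
      rw [← map_mul, ← map_mul, ea_comm hV ha hb]
    · rintro _ ⟨a, ha, rfl⟩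
      rw [← map_pow, hV.2 a ha, map_one]
  · intro h
    obtain ⟨a, ha, ha1⟩ := (Subgroup.bot_or_exists_ne_one _).resolve_left hV1
    have h1 : QuotientGroup.mk' K a ∈ V.map (QuotientGroup.mk' K) := ⟨a, ha, rfl⟩
    rw [h] at h1
    have h2 : a ∈ K := (QuotientGroup.eq_one_iff a).1 (Subgroup.mem_bot.1 h1)
    have h3 : a ∈ V ⊓ K := ⟨ha, h2⟩
    rw [hVK] at h3
    exact ha1 (Subgroup.mem_bot.1 h3)

theorem card_quot_lt {K : Subgroup G} [K.Normal] (hK : K ≠ ⊥) : Nat.card (G ⧸ K) < Nat.card G := by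
  have h1 : 1 < Nat.card K := (Subgroup.one_lt_card_iff_ne_bot K).2 hK
  have h2 := Subgroup.card_mul_index K
  have h3 : 0 < K.index := Nat.pos_of_ne_zero Subgroup.index_ne_zero_of_finite
  rw [← Subgroup.index_eq_card, ← h2]
  nlinarith

theorem false_of_central (S : Setting V) {M : Subgroup G} (hM : M.Normal) (hM1 : M ≠ ⊥)
    (hc : ∀ m ∈ M, ∀ g : G, g * m = m * g) : False := by
  classical
  haveI := hM
  have hInv : ∀ a : G, a ∈ M → a * a = 1 → a = 1 := by
    intro a haM haa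
    have hN : (Subgroup.zpowers a).Normal := by
      constructor
      rintro _ ⟨k, rfl⟩ g
      refine ⟨k, ?_⟩
      have h1 : Commute g (a ^ k) := (show Commute g a from hc a haM g).zpow_right k
      show a ^ k = g * a ^ k * g⁻¹
      rw [h1.eq]
      group
    have hP : IsPGroup 2 (Subgroup.zpowers a) := by
      rintro ⟨y, hy⟩
      obtain ⟨k, rfl⟩ := Subgroup.mem_zpowers_iff.1 hy
      refine ⟨1, Subtype.ext ?_⟩
      show (a ^ k) ^ 2 ^ 1 = 1
      rw [pow_one, ← zpow_natCast, ← zpow_mul, mul_comm, zpow_mul]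
      have : a ^ ((2 : ℕ) : ℤ) = 1 := by
        rw [zpow_natCast, pow_two]; exact haa
      rw [this, one_zpow]
    have h2 := le_pCore hN hP
    rw [S.hO] at h2
    exact Subgroup.mem_bot.1 (h2 (Subgroup.mem_zpowers a))
  have hVM : V ⊓ M = ⊥ := by
    rw [eq_bot_iff]
    rintro a ⟨haV, haM⟩
    exact Subgroup.mem_bot.2 (hInv a haM (ea_sq S.hV haV))
  have hSq := Cfsg.Agent.S3012.result V M S.hV S.hV1 S.hS hVM
  obtain ⟨hea, hne⟩ := quot_data S.hV S.hV1 hVM
  have hne₂ := S.hminG (G ⧸ M) _ (card_quot_lt hM1) hea hne hSq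
  obtain ⟨x, ⟨⟨a, ha, rfl⟩, hxO⟩, hx1⟩ := (Subgroup.bot_or_exists_ne_one _).resolve_left hne₂
  set L := (pCore 2 (G ⧸ M)).comap (QuotientGroup.mk' M) with hL
  have hLn : L.Normal := Subgroup.Normal.comap inferInstance _
  have hLnil : Group.IsNilpotent L := by
    let f : L →* pCore 2 (G ⧸ M) := ((QuotientGroup.mk' M).comp L.subtype).codRestrict _ (fun y => y.2)
    have hP : Group.IsNilpotent (pCore 2 (G ⧸ M)) := (isPGroup_pCore 2).isNilpotent
    refine Subgroup.isNilpotent_of_ker_le_center f ?_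
    intro y hy
    have h1 : QuotientGroup.mk' M (y : G) = 1 := congrArg Subtype.val hy
    have h2 : (y : G) ∈ M := (QuotientGroup.eq_one_iff _).1 h1
    rw [Subgroup.mem_center_iff]
    intro g
    exact Subtype.ext (hc y h2 g)
  have hLF := le_fittingSubgroup hLn hLnil
  have hFO := fittingSubgroup_le_sup (G := G) 2
  rw [S.hO, bot_sup_eq] at hFO
  have haO : a ∈ pPrimeCore 2 G := hFO (hLF hxO)
  have ha1 : a ≠ 1 := by
    rintro rfl
    exact hx1 (map_one _)
  have ho : orderOf a = 2 := orderOf_eq_prime (by rw [pow_two]; exact ea_sq S.hV ha) ha1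
  apply not_dvd_card_pPrimeCore (G := G) 2
  have h3 := orderOf_dvd_natCard (⟨a, haO⟩ : pPrimeCore 2 G)
  rw [Subgroup.orderOf_mk, ho] at h3
  exact h3

theorem faithful (S : Setting V) {M : Subgroup G} (hM : M.Normal) (hM1 : M ≠ ⊥) :
    ∀ v ∈ V, v ≠ 1 → ∃ m ∈ M, v * m ≠ m * v := by
  classical
  intro v₁ hv₁ hv₁1
  by_contra hcon
  push Not at hcon
  haveI := hM
  set C := Subgroup.centralizer (M : Set G) with hC
  have hCn : C.Normal := Subgroup.normal_centralizer (H := M)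
  have hmemC : ∀ x, x ∈ C ↔ ∀ m ∈ M, x * m = m * x := by
    intro x
    rw [hC, Subgroup.mem_centralizer_iff]
    exact ⟨fun h m hm => (h m hm).symm, fun h m hm => (h m hm).symm⟩
  have hv₁C : v₁ ∈ C := (hmemC _).2 hcon
  set V₀ := V ⊓ C with hV₀
  have hV₀ea := ea_mono S.hV (inf_le_left : V₀ ≤ V)
  have hV₀1 : V₀ ≠ ⊥ := by
    intro h
    have h1 : v₁ ∈ V₀ := ⟨hv₁, hv₁C⟩
    rw [h] at h1
    exact hv₁1 (Subgroup.mem_bot.1 h1)
  have hMO := pCore_normal_eq_bot S.hO hM
  have hSV₀ : IsSidkiPair V₀ := by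
    intro h v₀ hv₀ hodd hinv
    by_contra hno
    push Not at hno
    have hh1 : h ≠ 1 := by
      rintro rfl
      exact hno v₁ ⟨hv₁, hv₁C⟩ hv₁1 (by simp)
    have hv₀V := hv₀.1
    have hv₀C := hv₀.2
    have hhC : h ∈ C := by
      apply odd_mem hodd
      have h1 : h * h = (h * v₀ * h⁻¹) * v₀⁻¹ := by
        have h2 : v₀ * h⁻¹ * v₀⁻¹ = h := by
          have h3 : v₀ * h⁻¹ * v₀⁻¹ = (v₀ * h * v₀⁻¹)⁻¹ := by group
          rw [h3, hinv, inv_inv]
        calc h * h = h * (v₀ * h⁻¹ * v₀⁻¹) := by rw [h2]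
          _ = _ := by group
      rw [h1]
      exact mul_mem (hCn.conj_mem _ hv₀C h) (inv_mem hv₀C)
    obtain ⟨u₀, hu₀, hu₀1, hu₀h⟩ := S.hS h v₀ hv₀V hodd hinv
    set W := V ⊓ Subgroup.centralizer ({h} : Set G) with hW
    have hmemW : ∀ x, x ∈ W ↔ x ∈ V ∧ x * h = h * x := by
      intro x
      rw [hW, Subgroup.mem_inf, Subgroup.mem_centralizer_iff]
      constructor
      · rintro ⟨h1, h2⟩
        exact ⟨h1, (h2 h rfl).symm⟩
      · rintro ⟨h1, h2⟩
        refine ⟨h1, fun y hy => ?_⟩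
        rw [Set.mem_singleton_iff.1 hy]
        exact h2.symm
    have hWea := ea_mono S.hV (inf_le_left : W ≤ V)
    have hW1 : W ≠ ⊥ := by
      intro h'
      have h1 : u₀ ∈ W := (hmemW _).2 ⟨hu₀, hu₀h⟩
      rw [h'] at h1
      exact hu₀1 (Subgroup.mem_bot.1 h1)
    have hv₀W : v₀ ∉ W := by
      intro h1
      have h2 := ((hmemW _).1 h1).2
      have h3 : v₀ * h * v₀⁻¹ = h := by rw [h2]; group
      rw [h3] at hinv
      apply hh1
      have h4 : h * h = 1 := by
        nth_rewrite 2 [hinv]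
        group
      have h5 : h ∈ (⊥ : Subgroup G) := odd_mem hodd (by rw [h4]; exact one_mem _)
      exact Subgroup.mem_bot.1 h5
    have hlt : Nat.card W < Nat.card V := card_lt_of_not_mem inf_le_left hv₀V hv₀W
    have hfaithW : ∀ a ∈ W, a ≠ 1 → ∃ m ∈ M, a * m ≠ m * a := by
      intro a ha ha1
      by_contra hc
      push Not at hc
      have haW := (hmemW a).1 ha
      exact hno a ⟨haW.1, (hmemC a).2 hc⟩ ha1 haW.2
    obtain ⟨n, hn, w, hw, hno₂, hinv₂, hC₂⟩ := exists_inverted S (le_normalizer_of_normal hM W) hWea hW1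
      hMO hfaithW (Or.inr hlt)
    have hwW := (hmemW w).1 hw
    have hhn : Commute h n := (hmemC h).1 hhC n hn
    have hodd₃ : Odd (orderOf (h * n)) := by
      apply Odd.of_dvd_nat _ hhn.orderOf_mul_dvd_lcm
      apply Odd.of_dvd_nat (Nat.odd_mul.2 ⟨hodd, hno₂⟩)
      exact Nat.lcm_dvd_mul _ _
    have hvinv : (v₀ * w) * (h * n) * (v₀ * w)⁻¹ = (h * n)⁻¹ := by
      have e1 : w * h * w⁻¹ = h := by rw [hwW.2]; group
      have e2 : v₀ * n⁻¹ * v₀⁻¹ = n⁻¹ := by rw [(hmemC _).1 hv₀C _ (inv_mem hn)]; group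
      calc (v₀ * w) * (h * n) * (v₀ * w)⁻¹ = v₀ * ((w * h * w⁻¹) * (w * n * w⁻¹)) * v₀⁻¹ := by group
        _ = (v₀ * h * v₀⁻¹) * (v₀ * n⁻¹ * v₀⁻¹) := by rw [e1, hinv₂]; group
        _ = h⁻¹ * n⁻¹ := by rw [hinv, e2]
        _ = (h * n)⁻¹ := by rw [mul_inv_rev]; exact hhn.inv_inv.eq
    obtain ⟨t, ht, ht1, htH⟩ := S.hS (h * n) (v₀ * w) (mul_mem hv₀V hwW.1) hodd₃ hvinv
    have htv : Commute t v₀ := ea_comm S.hV ht hv₀V
    have htH' : Commute t (h * n) := htH
    have hA : Commute t (v₀ * (h * n) * v₀⁻¹) := (htv.mul_right htH').mul_right htv.inv_right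
    have heq : (h * n) * (v₀ * (h * n) * v₀⁻¹)⁻¹ = h * h := by
      have e3 : v₀ * (h * n) * v₀⁻¹ = h⁻¹ * n := by
        have e4 : v₀ * n * v₀⁻¹ = n := by rw [(hmemC _).1 hv₀C _ hn]; group
        calc v₀ * (h * n) * v₀⁻¹ = (v₀ * h * v₀⁻¹) * (v₀ * n * v₀⁻¹) := by group
          _ = _ := by rw [hinv, e4]
      rw [e3, mul_inv_rev, inv_inv]
      group
    have hthh : Commute t (h * h) := by
      rw [← heq]
      exact htH'.mul_right hA.inv_right
    have hth : Commute t h := by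
      have h1 : h ∈ Subgroup.centralizer ({t} : Set G) := by
        apply odd_mem hodd
        rw [Subgroup.mem_centralizer_iff]
        intro y hy
        rw [Set.mem_singleton_iff.1 hy]
        exact hthh
      exact (Subgroup.mem_centralizer_iff.1 h1 t rfl)
    have htn : Commute t n := by
      have h1 : n = h⁻¹ * (h * n) := by group
      rw [h1]
      exact hth.inv_right.mul_right htH'
    exact hC₂ t ((hmemW t).2 ⟨ht, hth⟩) ht1 htn
  by_cases hcard : Nat.card V₀ < Nat.card V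
  · have := S.hminV V₀ hcard hV₀ea hV₀1 hSV₀
    rw [S.hO, inf_bot_eq] at this
    exact this rfl
  · have hVC : V ≤ C := by
      have h1 : V₀ = V := Subgroup.eq_of_le_of_card_ge inf_le_left (not_lt.1 hcard)
      rw [← h1]
      exact inf_le_right
    by_cases hCt : C = ⊤
    · refine false_of_central S hM hM1 (fun m hm g => ?_)
      have h1 : g ∈ C := by rw [hCt]; trivial
      exact (hmemC g).1 h1 m hm
    · have := S.hminG C (V.subgroupOf C) (card_lt_of_ne_top hCt) (ea_subgroupOf S.hV C)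
        (ne_bot_subgroupOf hVC S.hV1) (sidki_subgroupOf hVC S.hS)
      rw [pCore_normal_eq_bot S.hO hCn, inf_bot_eq] at this
      exact this rfl

theorem sup_eq_top (S : Setting V) {M : Subgroup G} (hM : M.Normal) (hM1 : M ≠ ⊥) : M ⊔ V = ⊤ := by
  by_contra h
  exact false_of_local S (le_normalizer_of_normal hM V) S.hV S.hV1 (pCore_normal_eq_bot S.hO hM)
    (faithful S hM hM1) (fun n _ w hw ho hi => S.hS n w hw ho hi) (Or.inl h)

theorem no_abelian (S : Setting V) {M : Subgroup G} (hM : M.Normal) (hM1 : M ≠ ⊥)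
    (hab : ∀ a ∈ M, ∀ b ∈ M, a * b = b * a) (hodd : ∀ m ∈ M, Odd (orderOf m)) : False := by
  obtain ⟨h, hh, v, hv, hi, hfix⟩ := faith_abelian S.hV hab hodd (le_normalizer_of_normal hM V)
    (faithful S hM hM1)
  obtain ⟨u, hu, hu1, huh⟩ := S.hS h v hv (hodd h hh) hi
  exact hfix u hu hu1 huh

theorem fitting_bot (S : Setting V) : fittingSubgroup G = ⊥ := by
  classical
  by_contra hne
  rw [fittingSubgroup_eq_iSup_pCore] at hne
  obtain ⟨q, hq⟩ : ∃ q : Nat.Primes, pCore (q : ℕ) G ≠ ⊥ := by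
    by_contra h
    push Not at h
    apply hne
    simp [h]
  haveI : Fact (q : ℕ).Prime := ⟨q.2⟩
  have hq2 : (q : ℕ) ≠ 2 := by
    intro e
    apply hq
    rw [e]
    exact S.hO
  have hqodd : Odd (q : ℕ) := q.2.odd_of_ne_two hq2
  set Q := pCore (q : ℕ) G with hQ
  have hQp : IsPGroup (q : ℕ) Q := isPGroup_pCore _
  have hQn : Q.Normal := by
    rw [hQ]
    infer_instance
  haveI := hQn
  set M := Q ⊓ Subgroup.centralizer (Q : Set G) with hMdef
  have hCn : (Subgroup.centralizer (Q : Set G)).Normal := Subgroup.normal_centralizer (H := Q)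
  have hMn : M.Normal := Subgroup.normal_inf_normal _ _
  have hM1 : M ≠ ⊥ := by
    have hnt : Nontrivial Q := (Subgroup.nontrivial_iff_ne_bot _).2 hq
    have hc := hQp.center_nontrivial
    obtain ⟨y, hy⟩ := exists_ne (1 : Subgroup.center Q)
    intro h
    have h1 : ((y : Q) : G) ∈ M := by
      refine ⟨(y : Q).2, ?_⟩
      show ((y : Q) : G) ∈ Subgroup.centralizer (Q : Set G)
      rw [Subgroup.mem_centralizer_iff]
      intro z hz
      exact congrArg Subtype.val (Subgroup.mem_center_iff.1 y.2 ⟨z, hz⟩)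
    rw [h] at h1
    apply hy
    exact Subtype.ext (Subtype.ext (Subgroup.mem_bot.1 h1))
  refine no_abelian S hMn hM1 ?_ ?_
  · rintro a ⟨ha, -⟩ b ⟨-, hb⟩
    exact (Subgroup.mem_centralizer_iff.1 hb a ha)
  · rintro m ⟨hm, -⟩
    obtain ⟨k, hk⟩ := hQp ⟨m, hm⟩
    have h1 : m ^ ((q : ℕ) ^ k) = 1 := congrArg Subtype.val hk
    exact Odd.of_dvd_nat (hqodd.pow) (orderOf_dvd_of_pow_eq_one h1)


theorem layer_le_normalizer {K : Subgroup G} (hK : IsComponent K) :
    layer G ≤ Subgroup.normalizer (K : Set G) := by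
  refine sSup_le fun L hL => ?_
  by_cases h : L = K
  · rw [h]; exact Subgroup.le_normalizer
  · intro l hl
    have hc := commutator_eq_bot_iff_elementwise.1 (comp_commute_of_ne hL hK h)
    exact mem_normalizer_of_commute (fun k hk => hc l hl k hk)

theorem central_comp_eq_one (hfit : fittingSubgroup G = ⊥) {K : Subgroup G} (hK : IsComponent K) {z : G}
    (hz : z ∈ K) (hc : ∀ k ∈ K, k * z = z * k) : z = 1 := by
  have h1 : z ∈ generalizedFittingSubgroup G ⊓ Subgroup.centralizer (generalizedFittingSubgroup G : Set G) := by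
    refine ⟨comp_le_generalizedFitting hK hz, ?_⟩
    have h2 : generalizedFittingSubgroup G ≤ Subgroup.centralizer ({z} : Set G) := by
      unfold generalizedFittingSubgroup
      rw [hfit, sup_bot_eq]
      refine sSup_le fun L hL => ?_
      intro l hl
      rw [Subgroup.mem_centralizer_iff]
      intro t ht
      rw [Set.mem_singleton_iff.1 ht]
      by_cases h : L = K
      · subst h
        exact (hc l hl).symm
      · have hcm := commutator_eq_bot_iff_elementwise.1 (comp_commute_of_ne hL hK h)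
        exact (hcm l hl z hz).symm
    show z ∈ Subgroup.centralizer (generalizedFittingSubgroup G : Set G)
    rw [Subgroup.mem_centralizer_iff]
    intro y hy
    exact (Subgroup.mem_centralizer_iff.1 (h2 hy) z rfl).symm
  have h3 := Cfsg.Agent.Lib.FStarAct.inf_centralizer_le_fitting h1
  rw [hfit] at h3
  exact Subgroup.mem_bot.1 h3

theorem fstar_ne_bot (S : Setting V) : generalizedFittingSubgroup G ≠ ⊥ := by
  intro h
  obtain ⟨a, ha, ha1⟩ := (Subgroup.bot_or_exists_ne_one _).resolve_left S.hV1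
  apply ha1
  have h1 : a ∈ Subgroup.centralizer (generalizedFittingSubgroup G : Set G) := by
    rw [h, Subgroup.mem_centralizer_iff]
    intro y hy
    have : y = 1 := Subgroup.mem_bot.1 hy
    rw [this]
    simp
  have h2 := centralizer_generalizedFitting_le h1
  rw [h] at h2
  exact Subgroup.mem_bot.1 h2

theorem decomp (S : Setting V) (g : G) :
    ∃ e ∈ generalizedFittingSubgroup G, ∃ v ∈ V, g = e * v := by
  have h1 := sup_eq_top S (inferInstance : (generalizedFittingSubgroup G).Normal) (fstar_ne_bot S)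
  apply mem_mul_of_sup (le_normalizer_of_normal inferInstance V)
  rw [h1]
  trivial

theorem fstar_eq_layer (hfit : fittingSubgroup G = ⊥) : generalizedFittingSubgroup G = layer G := by
  unfold generalizedFittingSubgroup
  rw [hfit, sup_bot_eq]

/-- An element of `V` centralizing a component is trivial. -/
theorem faithful_comp (S : Setting V) (hfit : fittingSubgroup G = ⊥) {K : Subgroup G} (hK : IsComponent K)
    {a : G} (ha : a ∈ V) (ha1 : a ≠ 1) : ∃ k ∈ K, a * k ≠ k * a := by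
  by_contra hcon
  push Not at hcon
  have hT : (Subgroup.normalClosure (K : Set G)).Normal := Subgroup.normalClosure_normal
  have hT1 : Subgroup.normalClosure (K : Set G) ≠ ⊥ := by
    intro h
    apply comp_ne_bot hK
    rw [eq_bot_iff, ← h]
    exact Subgroup.subset_normalClosure
  obtain ⟨m, hm, hmne⟩ := faithful S hT hT1 a ha ha1
  apply hmne
  have h1 : Subgroup.normalClosure (K : Set G) ≤ Subgroup.centralizer ({a} : Set G) := by
    unfold Subgroup.normalClosure
    rw [Subgroup.closure_le]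
    intro y hy
    obtain ⟨b, hb, hby⟩ := Group.mem_conjugatesOfSet_iff.1 hy
    obtain ⟨g, rfl⟩ := isConj_iff.1 hby
    obtain ⟨e, he, v, hv, rfl⟩ := decomp S g
    rw [SetLike.mem_coe, Subgroup.mem_centralizer_iff]
    intro t ht
    rw [Set.mem_singleton_iff.1 ht]
    -- `e` normalizes the conjugate of `K` by `v`
    have hKv := comp_conj hK v
    have hvb : v * b * v⁻¹ ∈ K.map (MulAut.conj v).toMonoidHom := ⟨b, hb, rfl⟩
    rw [fstar_eq_layer hfit] at he
    have h2 := (Subgroup.mem_normalizer_iff.1 (layer_le_normalizer hKv he) _).1 hvb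
    obtain ⟨c, hc, hce⟩ := h2
    have hce' : v * c * v⁻¹ = e * (v * b * v⁻¹) * e⁻¹ := hce
    have e1 : e * v * b * (e * v)⁻¹ = v * c * v⁻¹ := by
      rw [hce']; group
    rw [e1]
    have hav : a * v = v * a := ea_comm S.hV ha hv
    have hac := hcon c hc
    calc a * (v * c * v⁻¹) = (a * v) * c * v⁻¹ := by group
      _ = v * (a * c) * v⁻¹ := by rw [hav]; group
      _ = v * (c * a) * v⁻¹ := by rw [hac]
      _ = (v * c) * (a * v⁻¹) := by group
      _ = (v * c) * (v⁻¹ * a) := by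
        have : a * v⁻¹ = v⁻¹ * a := (show Commute a v from hav).inv_right
        rw [this]
      _ = v * c * v⁻¹ * a := by group
  exact (Subgroup.mem_centralizer_iff.1 (h1 hm) a rfl)

theorem pCore_comp_eq_bot (hfit : fittingSubgroup G = ⊥) {K : Subgroup G} (hK : IsComponent K) :
    pCore 2 ↥K = ⊥ := by
  rcases qs_normal hK.2 (pCore 2 ↥K) with h | h
  · exfalso
    have hP : IsPGroup 2 ↥K := by
      intro y
      have h1 : y ∈ pCore 2 ↥K := by rw [h]; trivial
      obtain ⟨k, hk⟩ := isPGroup_pCore (G := K) 2 ⟨y, h1⟩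
      exact ⟨k, congrArg Subtype.val hk⟩
    have := hP.isNilpotent
    exact qs_not_solvable hK.2 inferInstance
  · rw [eq_bot_iff]
    intro y hy
    have h1 := Subgroup.mem_center_iff.1 (h hy)
    have h2 : (y : G) = 1 := central_comp_eq_one hfit hK y.2 (fun k hk => by
      exact congrArg Subtype.val (h1 ⟨k, hk⟩))
    exact Subgroup.mem_bot.2 (Subtype.ext h2)

theorem comp_fixed (S : Setting V) (hfit : fittingSubgroup G = ⊥) {K : Subgroup G} (hK : IsComponent K)
    {v₁ : G} (hv₁ : v₁ ∈ V) : v₁ ∈ Subgroup.normalizer (K : Set G) := by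
  classical
  by_contra hnorm
  -- distinct conjugates
  have hconj : ∀ t : G, t ∉ Subgroup.normalizer (K : Set G) → K.map (MulAut.conj t).toMonoidHom ≠ K := by
    intro t ht he
    apply ht
    rw [Subgroup.mem_normalizer_iff]
    intro y
    constructor
    · intro hy
      have h1 : t * y * t⁻¹ ∈ K.map (MulAut.conj t).toMonoidHom := ⟨y, hy, rfl⟩
      rwa [he] at h1
    · intro hy
      rw [← he] at hy
      obtain ⟨c, hc, hce⟩ := hy
      have hce' : t * c * t⁻¹ = t * y * t⁻¹ := hce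
      have : c = y := by
        have h2 := mul_right_cancel hce'
        exact mul_left_cancel h2
      rwa [← this]
  have hcommute : ∀ t : G, t ∉ Subgroup.normalizer (K : Set G) → ∀ k ∈ K, ∀ x ∈ K, k * (t * x * t⁻¹) = (t * x * t⁻¹) * k := by
    intro t ht k hk x hx
    have h1 := commutator_eq_bot_iff_elementwise.1 (comp_commute_of_ne hK (comp_conj hK t) (hconj t ht).symm)
    exact h1 k hk _ ⟨x, hx, rfl⟩
  set Vs := V ⊓ Subgroup.normalizer (K : Set G) with hVs
  by_cases hVs1 : Vs = ⊥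
  · -- regular action
    have hreg : ∀ t ∈ V, t ≠ 1 → t ∉ Subgroup.normalizer (K : Set G) := by
      intro t ht ht1 htn
      have h1 : t ∈ Vs := ⟨ht, htn⟩
      rw [hVs1] at h1
      exact ht1 (Subgroup.mem_bot.1 h1)
    have hv₁1 : v₁ ≠ 1 := by
      rintro rfl
      exact hnorm (one_mem _)
    -- an element of odd order
    obtain ⟨x, hxK, hxo, hx1⟩ : ∃ x ∈ K, Odd (orderOf x) ∧ x ≠ 1 := by
      rcases (Nat.card K).eq_two_pow_or_exists_odd_prime_and_dvd with ⟨k, hk⟩ | ⟨q, hq, hdvd, hodd⟩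
      · exfalso
        have hP : IsPGroup 2 ↥K := IsPGroup.of_card hk
        have := hP.isNilpotent
        exact qs_not_solvable hK.2 inferInstance
      · haveI : Fact q.Prime := ⟨hq⟩
        obtain ⟨y, hy⟩ := exists_prime_orderOf_dvd_card' q hdvd
        refine ⟨y, y.2, ?_, ?_⟩
        · rw [Subgroup.orderOf_coe, hy]; exact hodd
        · intro h1
          have h2 : y = 1 := Subtype.ext h1
          rw [h2, orderOf_one] at hy
          exact hq.one_lt.ne hy
    set v := v₁ with hv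
    set y := v * x * v⁻¹ with hy
    have hxy : Commute x y := hcommute v hnorm x hxK x hxK
    have hvi : v⁻¹ = v := ea_inv S.hV hv₁
    have hvv : v * v = 1 := ea_sq S.hV hv₁
    have hvy : v * y * v⁻¹ = x := by
      rw [hy, hvi]
      calc v * (v * x * v) * v = (v * v) * x * (v * v) := by group
        _ = x := by rw [hvv]; group
    have hoy : orderOf y = orderOf x := MulEquiv.orderOf_eq (MulAut.conj v) x
    have hodd_h : Odd (orderOf (x * y⁻¹)) := by
      apply Odd.of_dvd_nat _ (hxy.inv_right).orderOf_mul_dvd_lcm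
      rw [orderOf_inv, hoy, Nat.lcm_self]
      exact hxo
    have hinv : v * (x * y⁻¹) * v⁻¹ = (x * y⁻¹)⁻¹ := by
      have h1 : v * (x * y⁻¹) * v⁻¹ = (v * x * v⁻¹) * (v * y * v⁻¹)⁻¹ := by group
      rw [h1, hvy, mul_inv_rev, inv_inv]
    obtain ⟨t, ht, ht1, htH⟩ := S.hS _ v hv₁ hodd_h hinv
    have hxcentral : (∀ k ∈ K, k * x = x * k) → False := fun h => hx1 (central_comp_eq_one hfit hK hxK h)
    by_cases htv : t = v
    · rw [htv] at htH
      have h1 : v * (x * y⁻¹) * v⁻¹ = x * y⁻¹ := by rw [htH]; group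
      rw [hinv] at h1
      have h2 : (x * y⁻¹) * (x * y⁻¹) = 1 := by
        nth_rewrite 1 [← h1]
        group
      have h3 : x * y⁻¹ ∈ (⊥ : Subgroup G) := odd_mem hodd_h (by rw [h2]; exact one_mem _)
      have h4 : x = y := mul_inv_eq_one.1 (Subgroup.mem_bot.1 h3)
      apply hxcentral
      intro k hk
      rw [h4]
      exact hcommute v hnorm k hk x hxK
    · have htv1 : t * v ≠ 1 := by
        intro h1
        apply htv
        have h2 : t = v⁻¹ := eq_inv_of_mul_eq_one_left h1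
        rw [h2, hvi]
      have hyt := hcommute t (hreg t ht ht1)
      have hytv := hcommute (t * v) (hreg _ (mul_mem ht hv₁) htv1)
      have hyv := hcommute v hnorm
      apply hxcentral
      intro k hk
      have e1 : t * (x * y⁻¹) * t⁻¹ = x * y⁻¹ := by rw [htH]; group
      have e2 : t * (x * y⁻¹) * t⁻¹ = (t * x * t⁻¹) * ((t * v) * x * (t * v)⁻¹)⁻¹ := by
        rw [hy]; group
      have e3 : x = (t * x * t⁻¹) * ((t * v) * x * (t * v)⁻¹)⁻¹ * y := by
        rw [← e2, e1]; group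
      have c1 : Commute k (t * x * t⁻¹) := hyt k hk x hxK
      have c2 : Commute k ((t * v) * x * (t * v)⁻¹) := hytv k hk x hxK
      have c3 : Commute k y := hyv k hk x hxK
      have c4 : Commute k ((t * x * t⁻¹) * ((t * v) * x * (t * v)⁻¹)⁻¹ * y) :=
        (c1.mul_right c2.inv_right).mul_right c3
      rw [← e3] at c4
      exact c4
  · have hVsea := ea_mono S.hV (inf_le_left : Vs ≤ V)
    have hfaith : ∀ a ∈ Vs, a ≠ 1 → ∃ k ∈ K, a * k ≠ k * a := fun a ha ha1 =>
      faithful_comp S hfit hK ha.1 ha1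
    have hcase : K ⊔ Vs ≠ ⊤ := by
      intro h
      apply hnorm
      have h1 : K ⊔ Vs ≤ Subgroup.normalizer (K : Set G) := sup_le Subgroup.le_normalizer inf_le_right
      rw [h] at h1
      exact h1 trivial
    obtain ⟨n, hn, w, hw, ho, hi, hC⟩ := exists_inverted S (M := K) (W := Vs) inf_le_right hVsea hVs1
      (pCore_comp_eq_bot hfit hK) hfaith (Or.inl hcase)
    obtain ⟨t, ht, ht1, htn⟩ := S.hS n w hw.1 ho hi
    by_cases htN : t ∈ Subgroup.normalizer (K : Set G)
    · exact hC t ⟨ht, htN⟩ ht1 htn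
    · have hn1 : n = 1 := by
        apply central_comp_eq_one hfit hK hn
        intro k hk
        have h1 := hcommute t htN k hk n hn
        have h2 : t * n * t⁻¹ = n := by rw [htn]; group
        rwa [h2] at h1
      obtain ⟨a, ha, ha1⟩ := (Subgroup.bot_or_exists_ne_one _).resolve_left hVs1
      exact hC a ha ha1 (by rw [hn1]; simp)

end Main

/-- Minimal counterexample reduction for the Sidki pair problem. Let G be a finite group and V a nontrivial elementary abelian 2-subgroup satisfying the Sidki pair condition with V ∩ O₂(G) = 1. Suppose that for every finite group H of smaller order, every nontrivial elementary abelian 2-subgroup W of H satisfying the Sidki pair condition meets O₂(H) nontrivially, and that the same holds in G for every such subgroup W of order smaller than that of V. Then the generalized Fitting subgroup F*(G) is a non-abelian simple group and G = V F*(G). -/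
theorem result {G : Type u} [Group G] [Finite G] (V : Subgroup G) (hV : Cfsg.IsElementaryAbelian 2 V) (hV1 : V ≠ ⊥) (hS : Cfsg.IsSidkiPair V) (hVO : V ⊓ Cfsg.pCore 2 G = ⊥) (hminG : ∀ (H : Type u) [Group H] [Finite H] (W : Subgroup H), Nat.card H < Nat.card G → Cfsg.IsElementaryAbelian 2 W → W ≠ ⊥ → Cfsg.IsSidkiPair W → W ⊓ Cfsg.pCore 2 H ≠ ⊥) (hminV : ∀ W : Subgroup G, Nat.card W < Nat.card V → Cfsg.IsElementaryAbelian 2 W → W ≠ ⊥ → Cfsg.IsSidkiPair W → W ⊓ Cfsg.pCore 2 G ≠ ⊥) : IsSimpleGroup ↥(Cfsg.generalizedFittingSubgroup G) ∧ ¬ IsMulCommutative ↥(Cfsg.generalizedFittingSubgroup G) ∧ V ⊔ Cfsg.generalizedFittingSubgroup G = ⊤ := by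
  classical
  have hO : pCore 2 G = ⊥ := by
    by_contra hne
    have hSq := Cfsg.Agent.S3012.result V (pCore 2 G) hV hV1 hS hVO
    obtain ⟨hea, hne'⟩ := quot_data hV hV1 hVO
    have h1 := hminG (G ⧸ pCore 2 G) _ (card_quot_lt hne) hea hne' hSq
    rw [pCore_quotient_pCore, inf_bot_eq] at h1
    exact h1 rfl
  have S : Setting V := ⟨hV, hV1, hS, hO, hminG, hminV⟩
  have hfit := fitting_bot S
  have hFne := fstar_ne_bot S
  have hlayer : layer G ≠ ⊥ := by
    rw [← fstar_eq_layer hfit]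
    exact hFne
  obtain ⟨K, hK⟩ : ∃ K : Subgroup G, IsComponent K := by
    by_contra h
    push Not at h
    apply hlayer
    unfold layer
    rw [sSup_eq_bot]
    intro x hx
    exact absurd hx (h x)
  have hKn : K.Normal := by
    constructor
    intro k hk g
    obtain ⟨e, he, v, hv, rfl⟩ := decomp S g
    rw [fstar_eq_layer hfit] at he
    have h1 := (Subgroup.mem_normalizer_iff.1 (comp_fixed S hfit hK hv) k).1 hk
    have h2 := (Subgroup.mem_normalizer_iff.1 (layer_le_normalizer hK he) _).1 h1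
    have e1 : e * v * k * (e * v)⁻¹ = e * (v * k * v⁻¹) * e⁻¹ := by group
    rw [e1]
    exact h2
  have htop := sup_eq_top S hKn (comp_ne_bot hK)
  have hcomm : commutator G ≤ K := by
    rw [commutator_def, Subgroup.commutator_le]
    intro a _ b _
    obtain ⟨k₁, hk₁, v₁, hv₁, rfl⟩ := mem_mul_of_sup (le_normalizer_of_normal hKn V)
      (show a ∈ K ⊔ V by rw [htop]; trivial)
    obtain ⟨k₂, hk₂, v₂, hv₂, rfl⟩ := mem_mul_of_sup (le_normalizer_of_normal hKn V)
      (show b ∈ K ⊔ V by rw [htop]; trivial)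
    haveI := hKn
    rw [← QuotientGroup.eq_one_iff]
    have e1 : (QuotientGroup.mk k₁ : G ⧸ K) = 1 := (QuotientGroup.eq_one_iff k₁).2 hk₁
    have e2 : (QuotientGroup.mk k₂ : G ⧸ K) = 1 := (QuotientGroup.eq_one_iff k₂).2 hk₂
    have e3 : (QuotientGroup.mk (k₁ * v₁) : G ⧸ K) = QuotientGroup.mk v₁ := by
      rw [QuotientGroup.mk_mul, e1, one_mul]
    have e4 : (QuotientGroup.mk (k₂ * v₂) : G ⧸ K) = QuotientGroup.mk v₂ := by
      rw [QuotientGroup.mk_mul, e2, one_mul]
    have e5 : ((⁅k₁ * v₁, k₂ * v₂⁆ : G) : G ⧸ K) = ⁅(QuotientGroup.mk (k₁ * v₁) : G ⧸ K), (QuotientGroup.mk (k₂ * v₂) : G ⧸ K)⁆ := by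
      simp [commutatorElement_def]
    rw [e5, e3, e4, commutatorElement_eq_one_iff_commute]
    show (QuotientGroup.mk v₁ : G ⧸ K) * QuotientGroup.mk v₂ = QuotientGroup.mk v₂ * QuotientGroup.mk v₁
    rw [← QuotientGroup.mk_mul, ← QuotientGroup.mk_mul, ea_comm hV hv₁ hv₂]
  have huniq : ∀ L : Subgroup G, IsComponent L → L = K := by
    intro L hL
    apply comp_eq_of_le hL hK
    rw [← comp_perfect hL]
    exact (Subgroup.commutator_mono le_top le_top).trans hcomm
  have hF : generalizedFittingSubgroup G = K := by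
    rw [fstar_eq_layer hfit]
    exact le_antisymm (sSup_le fun L hL => (huniq L hL).le) (comp_le_layer hK)
  have hcen : Subgroup.center K = ⊥ := by
    rw [eq_bot_iff]
    intro y hy
    have h1 := Subgroup.mem_center_iff.1 hy
    have h2 : (y : G) = 1 := central_comp_eq_one hfit hK y.2 (fun k hk => by
      exact congrArg Subtype.val (h1 ⟨k, hk⟩))
    exact Subgroup.mem_bot.2 (Subtype.ext h2)
  rw [hF, sup_comm]
  haveI := hKn
  exact ⟨Cfsg.Agent.Lib.FischerPrim.simple_of_qs hK hcen, comp_not_comm hK, htop⟩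

end Cfsg.Agent.S3048
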