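import Mathlib
import Cfsg.Statements.S3049
import Cfsg.Agent.Lib.LocalCore2
import Cfsg.Agent.Lib.SubnormalSylow
import Cfsg.Agent.Lib.PComplement
import Cfsg.Agent.Lib.CritAut
import Cfsg.Agent.Lib.Isolated
import Cfsg.Agent.Lib.FischerPrim
-- import your own Cfsg.Agent.* helpers here

set_option autoImplicit false
open Cfsg

namespace Cfsg.Agent.S3049

open Cfsg.Agent.Lib Cfsg.Agent.Lib.PCore Cfsg.Agent.Lib.LocalCore Cfsg.Agent.Lib.LocalCore2
open scoped commutatorElement

section Aux

theorem aut_eq_one {U : Type*} [Group U] [Finite U] {p : ℕ} [Fact p.Prime] (hU : IsPGroup p U)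
    (hodd : p ≠ 2) (α : MulAut U) (hcop : (orderOf α).Coprime p) (hfix : ∀ d : U, d ^ p = 1 → α d = d) :
    α = 1 := by
  obtain ⟨D, -, -, hD, -, hfaith, -⟩ := CritAut.exists_D hU ⊤ le_top ⊤
    (fun _ _ _ _ => trivial) (fun _ _ _ _ => trivial)
  apply hfaith α trivial hcop
  intro d hd
  rcases hD d hd with h | ⟨h, -⟩
  · exact hfix d h
  · exact absurd h hodd

/-- An element normalizing a `p`-subgroup with order prime to `p` and fixing its elements of order `p` centralizes it. -/
theorem mem_centralizer_of_fix {K : Type*} [Group K] [Finite K] {p : ℕ} [Fact p.Prime] (hodd : p ≠ 2)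
    {Q : Subgroup K} (hQ : IsPGroup p Q) {g : K} (hg : g ∈ Subgroup.normalizer (Q : Set K))
    (hgc : Nat.Coprime (orderOf g) p) (hfix : ∀ d ∈ Q, d ^ p = 1 → g * d * g⁻¹ = d) :
    g ∈ Subgroup.centralizer (Q : Set K) := by
  have hmem : ∀ d : K, d ∈ Q → g * d * g⁻¹ ∈ Q := fun d hd => (Subgroup.mem_normalizer_iff.1 hg d).1 hd
  have hmem' : ∀ d : K, d ∈ Q → g⁻¹ * d * g ∈ Q := fun d hd => by
    have h1 := (Subgroup.mem_normalizer_iff.1 hg (g⁻¹ * d * g))
    apply h1.2
    have e : g * (g⁻¹ * d * g) * g⁻¹ = d := by group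
    rw [e]; exact hd
  let α : MulAut Q :=
    { toFun := fun q => ⟨g * q * g⁻¹, hmem q q.2⟩
      invFun := fun q => ⟨g⁻¹ * q * g, hmem' q q.2⟩
      left_inv := fun q => Subtype.ext (by
        show g⁻¹ * (g * (q : K) * g⁻¹) * g = q
        group)
      right_inv := fun q => Subtype.ext (by
        show g * (g⁻¹ * (q : K) * g) * g⁻¹ = q
        group)
      map_mul' := fun a b => Subtype.ext (by
        show g * ((a : K) * (b : K)) * g⁻¹ = (g * (a : K) * g⁻¹) * (g * (b : K) * g⁻¹)
        group) }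
  have hα : ∀ q : Q, ((α q : Q) : K) = g * q * g⁻¹ := fun q => rfl
  have hpow : ∀ (n : ℕ) (q : Q), (((α ^ n) q : Q) : K) = g ^ n * q * (g ^ n)⁻¹ := by
    intro n
    induction n with
    | zero => intro q; simp
    | succ n ih =>
      intro q
      rw [pow_succ, MulAut.mul_apply, ih, hα, pow_succ]
      group
  have hord : orderOf α ∣ orderOf g := by
    apply orderOf_dvd_of_pow_eq_one
    ext q
    rw [hpow, pow_orderOf_eq_one]
    simp
  have hcop : (orderOf α).Coprime p := Nat.Coprime.coprime_dvd_left hord hgc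
  have h1 : α = 1 := aut_eq_one hQ hodd α hcop (fun d hd => Subtype.ext (by
    rw [hα]
    exact hfix d d.2 (by exact_mod_cast congrArg Subtype.val hd)))
  rw [Subgroup.mem_centralizer_iff]
  intro d hd
  have h2 : ((α ⟨d, hd⟩ : Q) : K) = d := by rw [h1]; rfl
  rw [hα] at h2
  have h3 : g * d * g⁻¹ = d := h2
  calc d * g = (g * d * g⁻¹) * g := by rw [h3]
    _ = g * d := by group

/-- A Sylow `p`-subgroup (`p` odd) whose elements of order `p` are central in it, and are fixed by its
normalizer, has a normal complement. -/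
theorem complement_of_omega {K : Type*} [Group K] [Finite K] {p : ℕ} [Fact p.Prime] (hodd : p ≠ 2)
    (P : Sylow p K) (hcent : ∀ v ∈ (P : Subgroup K), v ^ p = 1 → ∀ w ∈ (P : Subgroup K), v * w = w * v)
    (hN : ∀ n ∈ Subgroup.normalizer ((P : Subgroup K) : Set K), ∀ v ∈ (P : Subgroup K), v ^ p = 1 →
      n * v * n⁻¹ = v) : Cfsg.HasNormalPComplement p K := by
  rw [Cfsg.Agent.Lib.PComplement.hasNormalPComplement_iff_forall]
  intro Q hQ g hg hgc
  apply mem_centralizer_of_fix hodd hQ hg hgc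
  intro d hd hdp
  -- conjugate into `P`
  obtain ⟨P', hP'⟩ := hQ.exists_le_sylow
  obtain ⟨c, hc⟩ := MulAction.exists_smul_eq K P' P
  have hmem : ∀ y ∈ Q, c * y * c⁻¹ ∈ (P : Subgroup K) := by
    intro y hy
    rw [← hc, Sylow.coe_subgroup_smul, Cfsg.Agent.Lib.PCore.mem_conj_smul_iff]
    have e : c⁻¹ * (c * y * c⁻¹) * c = y := by group
    rw [e]
    exact hP' hy
  have hgd : g * d * g⁻¹ ∈ Q := (Subgroup.mem_normalizer_iff.1 hg d).1 hd
  set a := c * d * c⁻¹ with ha
  set b := c * (g * d * g⁻¹) * c⁻¹ with hb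
  have haP : a ∈ (P : Subgroup K) := hmem d hd
  have hbP : b ∈ (P : Subgroup K) := hmem _ hgd
  have hap : a ^ p = 1 := by
    rw [ha, show c * d * c⁻¹ = MulAut.conj c d from rfl, ← map_pow, hdp, map_one]
  have hgdp : (g * d * g⁻¹) ^ p = 1 := by
    rw [show g * d * g⁻¹ = MulAut.conj g d from rfl, ← map_pow, hdp, map_one]
  have hbp : b ^ p = 1 := by
    rw [hb, show c * (g * d * g⁻¹) * c⁻¹ = MulAut.conj c (g * d * g⁻¹) from rfl, ← map_pow, hgdp, map_one]
  have hac : a ∈ Subgroup.centralizer ((P : Subgroup K) : Set K) := by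
    rw [Subgroup.mem_centralizer_iff]
    intro w hw
    exact (hcent a haP hap w hw).symm
  have e1 : (c * g⁻¹ * c⁻¹) * b * (c * g⁻¹ * c⁻¹)⁻¹ = a := by
    rw [hb, ha]; group
  have hbc : (c * g⁻¹ * c⁻¹)⁻¹ * a * (c * g⁻¹ * c⁻¹) ∈ Subgroup.centralizer ((P : Subgroup K) : Set K) := by
    have e2 : (c * g⁻¹ * c⁻¹)⁻¹ * a * (c * g⁻¹ * c⁻¹) = b := by
      rw [← e1]; group
    rw [e2, Subgroup.mem_centralizer_iff]
    intro w hw
    exact (hcent b hbP hbp w hw).symm
  obtain ⟨n, hn, hn2⟩ := Sylow.conj_eq_normalizer_conj_of_mem_centralizer P a (c * g⁻¹ * c⁻¹) hac hbc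
  have e3 : (c * g⁻¹ * c⁻¹)⁻¹ * a * (c * g⁻¹ * c⁻¹) = b := by
    rw [← e1]; group
  have hn' : n⁻¹ ∈ Subgroup.normalizer ((P : Subgroup K) : Set K) := inv_mem hn
  have h3 := hN n⁻¹ hn' a haP hap
  have h4 : b = a := by
    rw [← e3, hn2]
    simpa using h3
  have h5 : c * (g * d * g⁻¹) * c⁻¹ = c * d * c⁻¹ := h4
  have h6 := mul_right_cancel (mul_left_cancel (a := c) (by
    simpa [mul_assoc] using h5 : c * (g * d * g⁻¹ * c⁻¹) = c * (d * c⁻¹)))
  exact h6

theorem not_complement_of_qs {X : Type*} [Group X] [Finite X] (hq : IsQuasisimple X) {p : ℕ}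
    [hp : Fact p.Prime] (hd : p ∣ Nat.card X) : ¬ Cfsg.HasNormalPComplement p X := by
  rintro ⟨P, N, hN, hc⟩
  have hcard : Nat.card P = p ^ (Nat.card X).factorization p := P.card_eq_multiplicity
  set f := (Nat.card X).factorization p with hf
  have hne : Nat.card N * Nat.card P = Nat.card X := hc.card_mul_card
  have hcop : ¬ p ∣ Nat.card N := by
    intro h
    have h2 : p ^ (f + 1) ∣ Nat.card X := by
      have h3 : p * Nat.card P ∣ Nat.card N * Nat.card P := Nat.mul_dvd_mul h dvd_rfl
      rw [hne, hcard, ← pow_succ'] at h3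
      exact h3
    have hX : Nat.card X ≠ 0 := Nat.card_pos.ne'
    exact Nat.pow_succ_factorization_not_dvd hX hp.out h2
  have hsolv : Group.IsSolvable (X ⧸ N) := by
    have hPg : IsPGroup p (X ⧸ N) := by
      rw [IsPGroup.iff_card]
      have : Nat.card (X ⧸ N) = Nat.card P := by
        rw [← Subgroup.index_eq_card]
        exact hc.symm.index_eq_card
      exact ⟨_, this.trans hcard⟩
    have := hPg.isNilpotent
    infer_instance
  rcases qs_normal hq N with h | h
  · -- the complement is trivial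
    have h2 : Nat.card N = Nat.card X := by
      rw [h]; simp
    apply hcop
    rw [h2]; exact hd
  · apply qs_not_solvable hq
    have hNs : Group.IsSolvable N := by
      exact Group.isSolvable_of_comm (fun a b => Subtype.ext (by
        have h1 := Subgroup.mem_center_iff.1 (h a.2) (b : X)
        exact h1.symm))
    exact Group.isSolvable_of_ker_le_range N.subtype (QuotientGroup.mk' N) (by simp)

end Aux

section Main

variable {G : Type*} [Group G] [Finite G] {p : ℕ} [hp : Fact p.Prime]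

theorem exists_move (hodd : p ≠ 2) (hcore : Cfsg.pPrimeCore p G = ⊥) {K : Subgroup G} (hK : IsComponent K)
    (R : Sylow p G)
    (hcent : ∀ v ∈ (R : Subgroup G) ⊓ K, v ^ p = 1 → ∀ w ∈ (R : Subgroup G) ⊓ K, v * w = w * v) :
    ∃ n ∈ K, (∀ y ∈ (R : Subgroup G) ⊓ K, n * y * n⁻¹ ∈ (R : Subgroup G) ⊓ K) ∧
      ∃ v ∈ (R : Subgroup G) ⊓ K, v ^ p = 1 ∧ n * v * n⁻¹ ≠ v := by
  classical
  by_contra hcon
  push Not at hcon
  obtain ⟨S, hS⟩ := Cfsg.Agent.Lib.SubnormalSylow.exists_sylow_inf_of_isSubnormal R K hK.1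
  have hmap : ∀ y : K, y ∈ (S : Subgroup K) ↔ (y : G) ∈ (R : Subgroup G) ⊓ K := by
    intro y
    rw [← hS]
    constructor
    · intro h
      exact ⟨y, h, rfl⟩
    · rintro ⟨z, hz, hzy⟩
      have : z = y := Subtype.ext hzy
      rwa [← this]
  apply not_complement_of_qs hK.2 (comp_dvd_card hcore hK)
  apply complement_of_omega hodd S
  · intro v hv hvp w hw
    apply Subtype.ext
    exact hcent v ((hmap v).1 hv) (by exact_mod_cast congrArg Subtype.val hvp) w ((hmap w).1 hw)
  · intro n hn v hv hvp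
    apply Subtype.ext
    refine hcon n n.2 (fun y hy => ?_) v ((hmap v).1 hv) (by exact_mod_cast congrArg Subtype.val hvp)
    have hy' : (⟨y, hy.2⟩ : K) ∈ (S : Subgroup K) := (hmap _).2 hy
    have h1 := (Subgroup.mem_normalizer_iff.1 hn _).1 hy'
    exact (hmap _).1 h1

theorem exists_noncentral (hodd : p ≠ 2) (hcore : Cfsg.pPrimeCore p G = ⊥) {K : Subgroup G}
    (hK : IsComponent K) (R : Sylow p G) :
    ∃ v ∈ (R : Subgroup G) ⊓ K, v ^ p = 1 ∧ ∃ k ∈ K, k * v ≠ v * k := by
  by_contra hcon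
  push Not at hcon
  obtain ⟨n, hn, -, v, hv, hvp, hne⟩ := exists_move hodd hcore hK R (fun v hv hvp w hw =>
    (hcon v hv hvp w hw.2).symm)
  apply hne
  rw [hcon v hv hvp n hn]
  group

theorem rank_three (hrank : Cfsg.PRankLE p 2 G) {a b c : G} (ha : a ^ p = 1) (hb : b ^ p = 1)
    (hc : c ^ p = 1) (hab : a * b = b * a) (hac : a * c = c * a) (hbc : b * c = c * b) (ha1 : a ≠ 1)
    (hb2 : b ∉ Subgroup.zpowers a) (hc3 : c ∉ Subgroup.zpowers a ⊔ Subgroup.zpowers b) : False := by
  classical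
  have hpp := hp.out
  set B₁ := Subgroup.zpowers a with hB₁
  set B₂ := B₁ ⊔ Subgroup.zpowers b with hB₂
  set B₃ := B₂ ⊔ Subgroup.zpowers c with hB₃
  -- the centralizing set
  have hcomm : ∀ x ∈ ({a, b, c} : Set G), ∀ y ∈ ({a, b, c} : Set G), x * y = y * x := by
    rintro x (rfl | rfl | hx) y (rfl | rfl | hy)
    · rfl
    · exact hab
    · rw [Set.mem_singleton_iff.1 hy]; exact hac
    · exact hab.symm
    · rfl
    · rw [Set.mem_singleton_iff.1 hy]; exact hbc
    · rw [Set.mem_singleton_iff.1 hx]; exact hac.symm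
    · rw [Set.mem_singleton_iff.1 hx]; exact hbc.symm
    · rw [Set.mem_singleton_iff.1 hx, Set.mem_singleton_iff.1 hy]
  set A := Subgroup.closure ({a, b, c} : Set G) with hA
  have hAab : ∀ x ∈ A, ∀ y ∈ A, x * y = y * x := by
    have h1 : A ≤ Subgroup.centralizer (A : Set G) := by
      rw [hA, Subgroup.closure_le]
      intro x hx
      rw [SetLike.mem_coe, Subgroup.mem_centralizer_iff]
      intro y hy
      have h2 : ({a, b, c} : Set G) ⊆ Subgroup.centralizer ({x} : Set G) := by
        intro z hz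
        rw [SetLike.mem_coe, Subgroup.mem_centralizer_iff]
        intro t ht
        rw [Set.mem_singleton_iff.1 ht]
        exact hcomm x hx z hz
      have h3 : A ≤ Subgroup.centralizer ({x} : Set G) := (Subgroup.closure_le _).2 h2
      have h4 := Subgroup.mem_centralizer_iff.1 (h3 hy) x rfl
      exact h4.symm
    intro x hx y hy
    exact (Subgroup.mem_centralizer_iff.1 (h1 hy) x hx)
  have hApow : ∀ x ∈ A, x ^ p = 1 := by
    intro x hx
    induction hx using Subgroup.closure_induction with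
    | mem x hx =>
      rcases hx with rfl | rfl | hx
      · exact ha
      · exact hb
      · rw [Set.mem_singleton_iff.1 hx]; exact hc
    | one => simp
    | mul x y hx hy h1 h2 =>
      rw [(show Commute x y from hAab x hx y hy).mul_pow, h1, h2, one_mul]
    | inv x hx h1 => rw [inv_pow, h1, inv_one]
  have hAcomm : IsMulCommutative A := ⟨⟨fun u v => Subtype.ext (hAab u u.2 v v.2)⟩⟩
  have hAle := hrank A hAcomm hApow
  have hAp : IsPGroup p A := fun x => ⟨1, by
    rw [pow_one]
    exact Subtype.ext (hApow x x.2)⟩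
  have hB₃A : B₃ ≤ A := by
    refine sup_le (sup_le ?_ ?_) ?_
    · rw [hB₁, Subgroup.zpowers_le]; exact Subgroup.subset_closure (by simp)
    · rw [Subgroup.zpowers_le]; exact Subgroup.subset_closure (by simp)
    · rw [Subgroup.zpowers_le]; exact Subgroup.subset_closure (by simp)
  -- a step lemma
  have hstep : ∀ H H' : Subgroup G, H < H' → H' ≤ A → p * Nat.card H ≤ Nat.card H' := by
    intro H H' hlt hle
    have h1 : H.relIndex H' * Nat.card H = Nat.card H' := by
      have h0 := Subgroup.card_mul_index (H.subgroupOf H')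
      have h00 : Nat.card (H.subgroupOf H') = Nat.card H :=
        Nat.card_congr (Subgroup.subgroupOfEquivOfLe hlt.le).toEquiv
      rw [h00] at h0
      rw [mul_comm]
      exact h0
    have hH'p : IsPGroup p H' := by
      intro x
      exact ⟨1, by
        rw [pow_one]
        exact Subtype.ext (hApow x (hle x.2))⟩
    obtain ⟨k, hk⟩ := IsPGroup.iff_card.1 hH'p
    have h2 : H.relIndex H' ∣ p ^ k := by
      rw [← hk, ← h1]
      exact dvd_mul_right _ _
    have h3 : H.relIndex H' ≠ 1 := by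
      intro h4
      have h5 := Subgroup.relIndex_eq_one.1 h4
      exact absurd h5 (not_le_of_gt hlt)
    obtain ⟨j, -, hj⟩ := (Nat.dvd_prime_pow hpp).1 h2
    have h4 : j ≠ 0 := by
      rintro rfl
      exact h3 (by simpa using hj)
    have h5 : p ≤ H.relIndex H' := by
      rw [hj]
      calc p = p ^ 1 := (pow_one p).symm
        _ ≤ p ^ j := Nat.pow_le_pow_right hpp.pos (Nat.one_le_iff_ne_zero.2 h4)
    rw [← h1]
    exact Nat.mul_le_mul_right _ h5
  have h1 : p ≤ Nat.card B₁ := by
    have h2 : orderOf a = p := orderOf_eq_prime ha ha1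
    rw [hB₁, Nat.card_zpowers, h2]
  have h2 : B₁ < B₂ := by
    refine lt_of_le_of_ne le_sup_left ?_
    intro h
    apply hb2
    have : b ∈ B₂ := Subgroup.mem_sup_right (Subgroup.mem_zpowers b)
    rw [← h] at this
    exact this
  have h3 : B₂ < B₃ := by
    refine lt_of_le_of_ne le_sup_left ?_
    intro h
    apply hc3
    have : c ∈ B₃ := Subgroup.mem_sup_right (Subgroup.mem_zpowers c)
    rw [← h] at this
    exact this
  have h4 := hstep _ _ h2 (le_sup_left.trans hB₃A)
  have h5 := hstep _ _ h3 hB₃A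
  have h6 : Nat.card B₃ ≤ Nat.card A := Subgroup.card_le_of_le hB₃A
  have h7 : p ^ 3 ≤ p ^ 2 := by
    calc p ^ 3 = p * (p * p) := by ring
      _ ≤ p * (p * Nat.card B₁) := by gcongr
      _ ≤ p * Nat.card B₂ := by gcongr
      _ ≤ Nat.card B₃ := h5
      _ ≤ Nat.card A := h6
      _ ≤ p ^ 2 := hAle
  have h8 := (Nat.pow_le_pow_iff_right hpp.one_lt).1 h7
  omega

theorem exists_central_order_p (hcore : Cfsg.pPrimeCore p G = ⊥) {K : Subgroup G} (hK : IsComponent K)
    (R : Sylow p G) : ∃ z ∈ (R : Subgroup G) ⊓ K, z ^ p = 1 ∧ z ≠ 1 ∧ ∀ w ∈ (R : Subgroup G) ⊓ K, z * w = w * z := by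
  classical
  obtain ⟨S, hS⟩ := Cfsg.Agent.Lib.SubnormalSylow.exists_sylow_inf_of_isSubnormal R K hK.1
  have hS1 : (S : Subgroup K) ≠ ⊥ := S.ne_bot_of_dvd_card (comp_dvd_card hcore hK)
  have hnt : Nontrivial (S : Subgroup K) := Subgroup.nontrivial_iff_ne_bot _ |>.2 hS1
  have hSp : IsPGroup p (S : Subgroup K) := S.isPGroup'
  have hc := hSp.center_nontrivial
  have hcp : IsPGroup p (Subgroup.center (S : Subgroup K)) := hSp.to_subgroup _
  obtain ⟨n, hn0, hn⟩ := hcp.nontrivial_iff_card.1 hc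
  have hdvd : p ∣ Nat.card (Subgroup.center (S : Subgroup K)) := by
    rw [hn]; exact dvd_pow_self p hn0.ne'
  obtain ⟨y, hy⟩ := exists_prime_orderOf_dvd_card' p hdvd
  have hmap : ∀ u : (S : Subgroup K), ((u : K) : G) ∈ (R : Subgroup G) ⊓ K := by
    intro u
    rw [← hS]
    exact ⟨u, u.2, rfl⟩
  refine ⟨(((y : (S : Subgroup K)) : K) : G), hmap _, ?_, ?_, ?_⟩
  · have h1 : y ^ p = 1 := by
      have := pow_orderOf_eq_one y
      rwa [hy] at this
    have h2 := congrArg (fun t : Subgroup.center (S : Subgroup K) => (((t : (S : Subgroup K)) : K) : G)) h1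
    simpa using h2
  · intro h1
    have h2 : y = 1 := Subtype.ext (Subtype.ext (Subtype.ext h1))
    rw [h2, orderOf_one] at hy
    exact hp.out.one_lt.ne hy
  · intro w hw
    rw [← hS] at hw
    obtain ⟨w', hw', rfl⟩ := hw
    have h1 := Subgroup.mem_center_iff.1 y.2 ⟨w', hw'⟩
    have h2 := congrArg (fun t : (S : Subgroup K) => ((t : K) : G)) h1
    exact h2.symm

theorem lemma_U (hodd : p ≠ 2) (hcore : Cfsg.pPrimeCore p G = ⊥) (hrank : Cfsg.PRankLE p 2 G) {x : G}
    (hxp : x ^ p = 1) (hiso : Cfsg.IsIsolated x) (R : Sylow p G) (hxR : x ∈ (R : Subgroup G))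
    {K : Subgroup G} (hK : IsComponent K) (hKx : ∃ k ∈ K, k * x ≠ x * k) {w : G} (hwp : w ^ p = 1)
    (hwK : w ∉ K) (hwc : ∀ k ∈ K, k * w = w * k) (hwx : w * x = x * w) : False := by
  classical
  have hRx : ∀ r ∈ (R : Subgroup G), r * x = x * r := by
    intro r hr
    have h1 := Cfsg.Agent.Lib.Isolated.conj_eq_of_mem_pgroup (p := p) hiso R.isPGroup' hxR hr
    calc r * x = (r * x * r⁻¹) * r := by group
      _ = x * r := by rw [h1]
  obtain ⟨z, hzP, hzp, hz1, hzc⟩ := exists_central_order_p hcore hK R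
  have hzw : z * w = w * z := hwc z hzP.2
  have hzsub : Subgroup.zpowers z ≤ K := by
    rw [Subgroup.zpowers_le]; exact hzP.2
  have hall : ∀ v ∈ (R : Subgroup G) ⊓ K, v ^ p = 1 → v ∈ Subgroup.zpowers z := by
    intro v hv hvp
    by_contra hvz
    refine rank_three hrank hzp hvp hwp (hzc v hv) hzw (hwc v hv.2) hz1 hvz ?_
    intro h
    have h1 : Subgroup.zpowers z ⊔ Subgroup.zpowers v ≤ K := by
      refine sup_le hzsub ?_
      rw [Subgroup.zpowers_le]; exact hv.2
    exact hwK (h1 h)
  have hzCent : Subgroup.zpowers z ≤ Subgroup.centralizer (((R : Subgroup G) ⊓ K : Subgroup G) : Set G) := by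
    rw [Subgroup.zpowers_le, Subgroup.mem_centralizer_iff]
    intro t ht
    exact (hzc t ht).symm
  obtain ⟨n, hnK, hnP, v, hv, hvp, hne⟩ := exists_move hodd hcore hK R (fun v hv hvp t ht =>
    ((Subgroup.mem_centralizer_iff.1 (hzCent (hall v hv hvp)) t ht)).symm)
  have hnz : n * z * n⁻¹ ≠ z := by
    intro e
    apply hne
    obtain ⟨k, rfl⟩ := Subgroup.mem_zpowers_iff.1 (hall v hv hvp)
    rw [← conj_zpow, e]
  have hzx : z * x = x * z := (hRx z hzP.1)
  have hwz : w ∉ Subgroup.zpowers z := fun h => hwK (hzsub h)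
  have hxsup : x ∈ Subgroup.zpowers z ⊔ Subgroup.zpowers w := by
    by_contra h
    exact rank_three hrank hzp hwp hxp hzw hzx hwx hz1 hwz h
  have hcomm : ⁅Subgroup.zpowers z, Subgroup.zpowers w⁆ = ⊥ := by
    rw [commutator_eq_bot_iff_elementwise]
    rintro a ⟨i, rfl⟩ b ⟨j, rfl⟩
    exact (Commute.zpow_zpow (show Commute z w from hzw) i j)
  obtain ⟨y, hy, u, hu, hxe⟩ := mem_sup_of_commute hcomm hxsup
  have huK : ∀ k ∈ K, k * u = u * k := by
    intro k hk
    obtain ⟨j, rfl⟩ := Subgroup.mem_zpowers_iff.1 hu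
    exact (Commute.zpow_right (show Commute k w from hwc k hk) j)
  by_cases hy1 : y = 1
  · obtain ⟨k, hk, hkne⟩ := hKx
    apply hkne
    rw [hxe, hy1, one_mul]
    exact huK k hk
  · -- `y` generates
    have hyo : orderOf y = p := by
      refine orderOf_eq_prime ?_ hy1
      obtain ⟨k, rfl⟩ := Subgroup.mem_zpowers_iff.1 hy
      rw [← zpow_natCast, ← zpow_mul, mul_comm, zpow_mul, zpow_natCast, hzp, one_zpow]
    have hzo : orderOf z = p := orderOf_eq_prime hzp hz1
    have hzy : z ∈ Subgroup.zpowers y := by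
      have h1 : Subgroup.zpowers y ≤ Subgroup.zpowers z := by
        rw [Subgroup.zpowers_le]; exact hy
      have h2 : Subgroup.zpowers y = Subgroup.zpowers z := by
        apply Subgroup.eq_of_le_of_card_ge h1
        rw [Nat.card_zpowers, Nat.card_zpowers, hyo, hzo]
      rw [h2]
      exact Subgroup.mem_zpowers z
    have hnyne : n * y * n⁻¹ ≠ y := by
      intro e
      apply hnz
      obtain ⟨k, rfl⟩ := Subgroup.mem_zpowers_iff.1 hzy
      rw [← conj_zpow, e]
    have hyP : y ∈ (R : Subgroup G) ⊓ K := by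
      obtain ⟨k, rfl⟩ := Subgroup.mem_zpowers_iff.1 hy
      exact zpow_mem hzP k
    have hy'P := hnP y hyP
    have hy'p : (n * y * n⁻¹) ^ p = 1 := by
      have h1 : y ^ p = 1 := by
        have := pow_orderOf_eq_one y
        rwa [hyo] at this
      rw [conj_pow, h1]
      group
    have hy' := hall _ hy'P hy'p
    have hcm : ∀ a ∈ Subgroup.zpowers z, ∀ b ∈ Subgroup.zpowers z, a * b = b * a := by
      rintro a ⟨i, rfl⟩ b ⟨j, rfl⟩
      exact (Commute.zpow_zpow_self z i j)
    have hyy' : y * (n * y * n⁻¹) = (n * y * n⁻¹) * y := hcm _ hy _ hy'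
    have hconj : n * x * n⁻¹ = (n * y * n⁻¹) * u := by
      have h1 := huK n hnK
      rw [hxe]
      calc n * (y * u) * n⁻¹ = (n * y * n⁻¹) * (n * u * n⁻¹) := by group
        _ = (n * y * n⁻¹) * u := by rw [h1]; group
    have hyu : y * u = u * y := (huK y hyP.2)
    have hy'u : (n * y * n⁻¹) * u = u * (n * y * n⁻¹) := huK _ hy'P.2
    have hC : Commute x (n * x * n⁻¹) := by
      rw [hconj, hxe]
      show y * u * ((n * y * n⁻¹) * u) = (n * y * n⁻¹) * u * (y * u)
      calc y * u * ((n * y * n⁻¹) * u) = y * (u * (n * y * n⁻¹)) * u := by group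
        _ = y * ((n * y * n⁻¹) * u) * u := by rw [hy'u]
        _ = (y * (n * y * n⁻¹)) * (u * u) := by group
        _ = ((n * y * n⁻¹) * y) * (u * u) := by rw [hyy']
        _ = (n * y * n⁻¹) * (y * u) * u := by group
        _ = (n * y * n⁻¹) * (u * y) * u := by rw [hyu]
        _ = (n * y * n⁻¹) * u * (y * u) := by group
    have h2 := hiso n hC
    apply hnyne
    have h3 : (n * y * n⁻¹) * u = y * u := by rw [← hconj, h2, hxe]
    exact mul_right_cancel h3

theorem lemma_V (hodd : p ≠ 2) (hcore : Cfsg.pPrimeCore p G = ⊥) (hrank : Cfsg.PRankLE p 2 G) {x : G}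
    (hxp : x ^ p = 1) (hiso : Cfsg.IsIsolated x) (R : Sylow p G) (hxR : x ∈ (R : Subgroup G))
    {K : Subgroup G} (hK : IsComponent K) (hKx : ∃ k ∈ K, k * x ≠ x * k) {z : G} (hzp : z ^ p = 1)
    (hz1 : z ≠ 1) (hzK : z ∈ K) (hzR : z ∈ (R : Subgroup G)) (hzc : ∀ k ∈ K, k * z = z * k) : False := by
  classical
  have hRx : ∀ r ∈ (R : Subgroup G), r * x = x * r := by
    intro r hr
    have h1 := Cfsg.Agent.Lib.Isolated.conj_eq_of_mem_pgroup (p := p) hiso R.isPGroup' hxR hr
    calc r * x = (r * x * r⁻¹) * r := by group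
      _ = x * r := by rw [h1]
  have hzpK : ∀ t ∈ Subgroup.zpowers z, ∀ k ∈ K, k * t = t * k := by
    intro t ht k hk
    obtain ⟨j, rfl⟩ := Subgroup.mem_zpowers_iff.1 ht
    exact (Commute.zpow_right (show Commute k z from hzc k hk) j)
  obtain ⟨v₀, hv₀, hv₀p, k₀, hk₀, hk₀ne⟩ := exists_noncentral hodd hcore hK R
  have hv₀z : v₀ ∉ Subgroup.zpowers z := fun h => hk₀ne (hzpK _ h k₀ hk₀)
  have hzsub : Subgroup.zpowers z ≤ K := by
    rw [Subgroup.zpowers_le]; exact hzK
  have hxsup : x ∈ Subgroup.zpowers z ⊔ Subgroup.zpowers v₀ := by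
    by_contra h
    exact rank_three hrank hzp hv₀p hxp (hzc v₀ hv₀.2).symm (hRx z hzR) (hRx v₀ hv₀.1) hz1 hv₀z h
  have hxK : x ∈ K := by
    have h1 : Subgroup.zpowers z ⊔ Subgroup.zpowers v₀ ≤ K := by
      refine sup_le hzsub ?_
      rw [Subgroup.zpowers_le]; exact hv₀.2
    exact h1 hxsup
  have hxP : x ∈ (R : Subgroup G) ⊓ K := ⟨hxR, hxK⟩
  have hxz : x ∉ Subgroup.zpowers z := by
    intro h
    obtain ⟨k, hk, hkne⟩ := hKx
    exact hkne (hzpK _ h k hk)
  have hall : ∀ v ∈ (R : Subgroup G) ⊓ K, v ^ p = 1 → v ∈ Subgroup.zpowers z ⊔ Subgroup.zpowers x := by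
    intro v hv hvp
    by_contra h
    exact rank_three hrank hzp hxp hvp (hRx z hzR) (hzc v hv.2).symm (hRx v hv.1).symm hz1 hxz h
  have hsubCent : Subgroup.zpowers z ⊔ Subgroup.zpowers x ≤
      Subgroup.centralizer (((R : Subgroup G) ⊓ K : Subgroup G) : Set G) := by
    refine sup_le ?_ ?_
    · rw [Subgroup.zpowers_le, Subgroup.mem_centralizer_iff]
      intro t ht
      exact hzc t ht.2
    · rw [Subgroup.zpowers_le, Subgroup.mem_centralizer_iff]
      intro t ht
      exact hRx t ht.1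
  obtain ⟨n, hnK, hnP, v, hv, hvp, hne⟩ := exists_move hodd hcore hK R (fun v hv hvp t ht =>
    ((Subgroup.mem_centralizer_iff.1 (hsubCent (hall v hv hvp)) t ht)).symm)
  apply hne
  have hnz : n * z * n⁻¹ = z := by
    rw [hzc n hnK]; group
  have hnx : n * x * n⁻¹ = x := by
    apply hiso n
    have h1 := hnP x hxP
    exact (hRx _ h1.1).symm
  have h1 : Subgroup.zpowers z ⊔ Subgroup.zpowers x ≤ Subgroup.centralizer ({n} : Set G) := by
    refine sup_le ?_ ?_
    · rw [Subgroup.zpowers_le, Subgroup.mem_centralizer_iff]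
      intro t ht
      rw [Set.mem_singleton_iff.1 ht]
      calc n * z = (n * z * n⁻¹) * n := by group
        _ = z * n := by rw [hnz]
    · rw [Subgroup.zpowers_le, Subgroup.mem_centralizer_iff]
      intro t ht
      rw [Set.mem_singleton_iff.1 ht]
      calc n * x = (n * x * n⁻¹) * n := by group
        _ = x * n := by rw [hnx]
  have h2 := Subgroup.mem_centralizer_iff.1 (h1 (hall v hv hvp)) n rfl
  rw [h2]
  group

end Main

/-- Let G be a finite group and p an odd prime with O_{p'}(G) = 1. Suppose that G has p-rank at most 2 (no elementary abelian subgroup of order p³) and that some element x of order p is isolated in G (no G-conjugate of x other than x commutes with x) and not central. Then the generalized Fitting subgroup F*(G) is a non-abelian simple group. Since O_{p'}(G) = 1, such an x is not central modulo O_{p'}(G): the hypotheses describe a counterexample to the Z*_p statement in p-rank at most 2. -/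
theorem result {G : Type*} [Group G] [Finite G] {p : ℕ} [Fact p.Prime] (hp : p ≠ 2) (hcore : Cfsg.pPrimeCore p G = ⊥)
    (hrank : Cfsg.PRankLE p 2 G) (x : G) (hx : orderOf x = p) (hiso : Cfsg.IsIsolated x) (hnc : x ∉ Subgroup.center G) :
    IsSimpleGroup ↥(Cfsg.generalizedFittingSubgroup G) ∧ ¬ IsMulCommutative ↥(Cfsg.generalizedFittingSubgroup G) := by
  have hodd' := hp
  classical
  have hxp : x ^ p = 1 := by rw [← hx]; exact pow_orderOf_eq_one x
  have hxpg : IsPGroup p (Subgroup.zpowers x) := by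
    rintro ⟨y, hy⟩
    refine ⟨1, Subtype.ext ?_⟩
    obtain ⟨k, rfl⟩ := Subgroup.mem_zpowers_iff.1 hy
    show (x ^ k) ^ p ^ 1 = 1
    rw [pow_one, ← zpow_natCast, ← zpow_mul, mul_comm, zpow_mul, zpow_natCast, hxp, one_zpow]
  obtain ⟨R, hRle⟩ := hxpg.exists_le_sylow
  have hxR : x ∈ (R : Subgroup G) := hRle (Subgroup.mem_zpowers x)
  have hRx : ∀ r ∈ (R : Subgroup G), r * x = x * r := by
    intro r hr
    have h1 := Cfsg.Agent.Lib.Isolated.conj_eq_of_mem_pgroup (p := p) hiso R.isPGroup' hxR hr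
    calc r * x = (r * x * r⁻¹) * r := by group
      _ = x * r := by rw [h1]
  have hfit : fittingSubgroup G = pCore p G :=
    fittingSubgroup_eq_pCore_of_pPrimeCore_eq_bot p hcore
  -- a component on which `x` acts nontrivially
  obtain ⟨K, hK, hKx⟩ : ∃ K : Subgroup G, IsComponent K ∧ ∃ k ∈ K, k * x ≠ x * k := by
    by_contra hcon
    push Not at hcon
    have hc : x ∈ Subgroup.centralizer (generalizedFittingSubgroup G : Set G) := by
      have h1 : generalizedFittingSubgroup G ≤ Subgroup.centralizer ({x} : Set G) := by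
        unfold generalizedFittingSubgroup
        refine sup_le (sSup_le fun L hL => ?_) ?_
        · intro k hk
          rw [Subgroup.mem_centralizer_iff]
          intro t ht
          rw [Set.mem_singleton_iff.1 ht]
          exact (hcon L hL k hk).symm
        · rw [hfit]
          intro k hk
          rw [Subgroup.mem_centralizer_iff]
          intro t ht
          rw [Set.mem_singleton_iff.1 ht]
          exact (hRx k (pCore_le_sylow p R hk)).symm
      rw [Subgroup.mem_centralizer_iff]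
      intro y hy
      exact (Subgroup.mem_centralizer_iff.1 (h1 hy) x rfl).symm
    have hxF := centralizer_generalizedFitting_le hc
    apply hnc
    rw [Subgroup.mem_center_iff]
    intro g
    have hC : Commute x (g * x * g⁻¹) := by
      have h2 : g * x * g⁻¹ ∈ Subgroup.centralizer (generalizedFittingSubgroup G : Set G) :=
        (Subgroup.normal_centralizer (H := generalizedFittingSubgroup G)).conj_mem x hc g
      exact (Subgroup.mem_centralizer_iff.1 h2 x hxF)
    have h3 := hiso g hC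
    calc g * x = (g * x * g⁻¹) * g := by group
      _ = x * g := by rw [h3]
  -- uniqueness of the component
  have huniq : ∀ L : Subgroup G, IsComponent L → L = K := by
    intro L hL
    by_contra hne
    have hcomm := commutator_eq_bot_iff_elementwise.1 (comp_commute_of_ne hK hL (Ne.symm hne))
    obtain ⟨v, hv, hvp, k, hk, hkv⟩ := exists_noncentral hodd' hcore hL R
    refine lemma_U hodd' hcore hrank hxp hiso R hxR hK hKx hvp ?_ (fun k hk => hcomm k hk v hv.2)
      (hRx v hv.1)
    intro hvK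
    exact hkv (hcomm v hvK k hk).symm
  -- trivial `p`-core
  have hQ : pCore p G = ⊥ := by
    by_contra hne
    have hnt : Nontrivial (pCore p G) := Subgroup.nontrivial_iff_ne_bot _ |>.2 hne
    have hQp : IsPGroup p (pCore p G) := isPGroup_pCore p
    obtain ⟨n, hn0, hn⟩ := hQp.nontrivial_iff_card.1 hnt
    have hdvd : p ∣ Nat.card (pCore p G) := by
      rw [hn]; exact dvd_pow_self p hn0.ne'
    obtain ⟨y, hy⟩ := exists_prime_orderOf_dvd_card' p hdvd
    have hyp : ((y : G)) ^ p = 1 := by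
      have h1 := pow_orderOf_eq_one y
      rw [hy] at h1
      exact_mod_cast congrArg Subtype.val h1
    have hy1 : (y : G) ≠ 1 := by
      intro h
      have h2 : y = 1 := Subtype.ext h
      rw [h2, orderOf_one] at hy
      exact (Fact.out : p.Prime).one_lt.ne hy
    have hyR : (y : G) ∈ (R : Subgroup G) := pCore_le_sylow p R y.2
    have hcomm := commutator_eq_bot_iff_elementwise.1 (comp_commute_pCore p hK)
    by_cases hyK : (y : G) ∈ K
    · exact lemma_V hodd' hcore hrank hxp hiso R hxR hK hKx hyp hy1 hyK hyR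
        (fun k hk => hcomm k hk y y.2)
    · exact lemma_U hodd' hcore hrank hxp hiso R hxR hK hKx hyp hyK (fun k hk => hcomm k hk y y.2)
        (hRx y hyR)
  have hlayer : layer G = K := by
    apply le_antisymm
    · exact sSup_le fun L hL => (huniq L hL).le
    · exact comp_le_layer hK
  have hF : generalizedFittingSubgroup G = K := by
    unfold generalizedFittingSubgroup
    rw [hlayer, hfit, hQ, sup_bot_eq]
  have hKn : K.Normal := by
    rw [← hlayer]
    infer_instance
  have hcen : Subgroup.center K = ⊥ := by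
    rw [eq_bot_iff]
    intro c hc
    have hN : ((Subgroup.center K).map K.subtype).Normal := by
      constructor
      rintro _ ⟨c', hc', rfl⟩ g
      have hg : g * (c' : G) * g⁻¹ ∈ K := hKn.conj_mem _ c'.2 g
      refine ⟨⟨_, hg⟩, Subgroup.mem_center_iff.2 ?_, rfl⟩
      rintro ⟨t, ht⟩
      apply Subtype.ext
      show t * (g * (c' : G) * g⁻¹) = (g * (c' : G) * g⁻¹) * t
      have h1 : g⁻¹ * t * g ∈ K := by
        have := hKn.conj_mem t ht g⁻¹
        simpa using this
      have h2 := congrArg Subtype.val (Subgroup.mem_center_iff.1 hc' ⟨_, h1⟩)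
      have h3 : (g⁻¹ * t * g) * (c' : G) = (c' : G) * (g⁻¹ * t * g) := h2
      calc t * (g * (c' : G) * g⁻¹) = g * ((g⁻¹ * t * g) * (c' : G)) * g⁻¹ := by group
        _ = g * ((c' : G) * (g⁻¹ * t * g)) * g⁻¹ := by rw [h3]
        _ = (g * (c' : G) * g⁻¹) * t := by group
    have hNil : Group.IsNilpotent ((Subgroup.center K).map K.subtype) := by
      apply nilpotent_of_commutator_central
      have hcb : commutator ((Subgroup.center K).map K.subtype) = ⊥ := ?_
      · rw [hcb, Subgroup.commutator_bot_left]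
      rw [commutator_def, ← le_bot_iff, Subgroup.commutator_le]
      rintro ⟨_, a, ha, rfl⟩ _ ⟨_, b, hb, rfl⟩ _
      have h1 : (⁅(⟨K.subtype a, ⟨a, ha, rfl⟩⟩ : (Subgroup.center K).map K.subtype),
          (⟨K.subtype b, ⟨b, hb, rfl⟩⟩ : (Subgroup.center K).map K.subtype)⁆ :
            (Subgroup.center K).map K.subtype) = 1 := by
        rw [commutatorElement_eq_one_iff_commute]
        apply Subtype.ext
        have := congrArg Subtype.val (Subgroup.mem_center_iff.1 ha b)
        exact this.symm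
      rw [h1]
      exact Subgroup.one_mem _
    have h1 := le_fittingSubgroup hN hNil
    rw [hfit, hQ] at h1
    have h2 : (c : G) ∈ (⊥ : Subgroup G) := h1 ⟨c, hc, rfl⟩
    exact Subgroup.mem_bot.2 (Subtype.ext (Subgroup.mem_bot.1 h2))
  rw [hF]
  exact ⟨Cfsg.Agent.Lib.FischerPrim.simple_of_qs hK hcen, comp_not_comm hK⟩

end Cfsg.Agent.S3049
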