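import Mathlib
import Cfsg.Statements.S3054
import Cfsg.Agent.Lib.ExtraP3Local

set_option autoImplicit false
set_option linter.all false

open Cfsg

namespace Cfsg.Agent.S3054

open Cfsg.Agent.Lib.ExtraP3Local Cfsg.Agent.Lib.ExtraP3

/-- The data on one of the lines. -/
theorem one_line {G : Type*} [Group G] [Finite G] {p : ℕ} [Fact p.Prime] (P : Sylow p G)
    (X : XP p (P : Subgroup G)) (A : Subgroup G) (hAP : A ≤ (P : Subgroup G)) (hAcard : Nat.card A = p ^ 2)
    (hSL : ∀ φ : MulAut A, orderOf φ = p → ∃ g : G, ∀ a : A, (φ a : G) = g * (a : G) * g⁻¹)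
    {t : ZMod p} (ht : t ≠ 0) :
    ∃ (x : (P : Subgroup G)) (w : Subgroup.normalizer ((P : Subgroup G) : Set G)),
      x ∉ Subgroup.center (P : Subgroup G) ∧ (∀ v : (P : Subgroup G), (v : G) ∈ A ↔ Commute x v) ∧
      (∀ ζ ∈ Subgroup.center (P : Subgroup G), (w : G) * (ζ : G) * (w : G)⁻¹ = ((ζ ^ t.val : (P : Subgroup G)) : G)) ∧
      (w : G) * (x : G) * (w : G)⁻¹ = ((x ^ (t⁻¹).val : (P : Subgroup G)) : G) := by
  have hpp : p.Prime := Fact.out
  have hcardT : Nat.card (A.subgroupOf (P : Subgroup G)) = p ^ 2 := by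
    rw [← hAcard]
    exact Nat.card_congr (Subgroup.subgroupOfEquivOfLe hAP).toEquiv
  obtain ⟨x, hxA, hxc⟩ : ∃ x : (P : Subgroup G), (x : G) ∈ A ∧ x ∉ Subgroup.center (P : Subgroup G) := by
    by_contra hc
    push Not at hc
    have h1 : A.subgroupOf (P : Subgroup G) ≤ Subgroup.center (P : Subgroup G) :=
      fun u hu => hc u (Subgroup.mem_subgroupOf.mp hu)
    have h2 := Subgroup.card_le_of_le h1
    rw [hcardT, X.hE.2] at h2
    have h3 : p * 2 ≤ p * p := Nat.mul_le_mul_left p hpp.two_le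
    have h4 := hpp.pos
    nlinarith
  have hcomm : ∀ v : (P : Subgroup G), (v : G) ∈ A → Commute x v := by
    intro v hv
    by_contra hc
    have h1 := X.eq_top (A.subgroupOf (P : Subgroup G)) (Subgroup.mem_subgroupOf.mpr hxA)
      (Subgroup.mem_subgroupOf.mpr hv) hc
    rw [h1] at hcardT
    have h2 : Nat.card (⊤ : Subgroup (P : Subgroup G)) = p ^ 3 := by
      rw [Subgroup.card_top, X.hcard]
    rw [h2] at hcardT
    exact absurd (Nat.pow_right_injective hpp.two_le hcardT) (by norm_num)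
  obtain ⟨y, hy⟩ := XP.exists_not_comm hxc
  set z : (P : Subgroup G) := com y x with hzdef
  have hzc : z ∈ Subgroup.center (P : Subgroup G) := X.com_mem y x
  have hzne : z ≠ 1 := fun h' => hy ((com_eq_one_iff' y x).mp h')
  -- the parametrization
  let f : ZMod p × ZMod p → (P : Subgroup G) := fun v => z ^ v.1.val * x ^ v.2.val
  have hfinj : Function.Injective f := by
    rintro ⟨b, a⟩ ⟨b', a'⟩ h1
    obtain ⟨h2, h3⟩ := X.tau_inj hxc hzc hzne h1
    exact Prod.ext h3 h2
  have hfT : ∀ v : A.subgroupOf (P : Subgroup G), ∃ w, f w = v := by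
    intro v
    obtain ⟨a, b, h1⟩ := X.cen_form hxc hzc hzne (hcomm v (Subgroup.mem_subgroupOf.mp v.2))
    exact ⟨(b, a), h1.symm⟩
  choose g hg using hfT
  have hginj : Function.Injective g := by
    intro u v huv
    apply Subtype.ext
    rw [← hg u, ← hg v, huv]
  have hgbij : Function.Bijective g := by
    apply hginj.bijective_of_nat_card_le
    rw [hcardT, Nat.card_prod, Nat.card_zmod, pow_two]
  have hfmem : ∀ w, ((f w : (P : Subgroup G)) : G) ∈ A := by
    intro w
    obtain ⟨u, rfl⟩ := hgbij.surjective w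
    rw [hg]
    exact Subgroup.mem_subgroupOf.mp u.2
  let e : ZMod p × ZMod p → A := fun w => ⟨(f w : (P : Subgroup G)), hfmem w⟩
  have hebij : Function.Bijective e := by
    constructor
    · intro v w hvw
      apply hfinj
      apply Subtype.ext
      have := congrArg (Subtype.val) hvw
      exact this
    · intro u
      have hu : (⟨(u : G), hAP u.2⟩ : (P : Subgroup G)) ∈ A.subgroupOf (P : Subgroup G) :=
        Subgroup.mem_subgroupOf.mpr u.2
      refine ⟨g ⟨_, hu⟩, ?_⟩
      apply Subtype.ext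
      have := congrArg (fun q : (P : Subgroup G) => (q : G)) (hg ⟨_, hu⟩)
      exact this
  have hzcomm : ∀ (m : ℕ) (w : (P : Subgroup G)), z ^ m * w = w * z ^ m := fun m w =>
    (Subgroup.mem_center_iff.mp ((Subgroup.center (P : Subgroup G)).pow_mem hzc m) w).symm
  have hfmul : ∀ v w, f (v + w) = f v * f w := by
    rintro ⟨b, a⟩ ⟨b', a'⟩
    simp only [f, Prod.mk_add_mk]
    rw [Cfsg.Agent.Lib.SL2Frattini.pow_val_add' (X.hexp z), Cfsg.Agent.Lib.SL2Frattini.pow_val_add' (X.hexp x)]
    calc z ^ b.val * z ^ b'.val * (x ^ a.val * x ^ a'.val)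
        = z ^ b.val * (z ^ b'.val * x ^ a.val) * x ^ a'.val := by simp only [mul_assoc]
      _ = z ^ b.val * (x ^ a.val * z ^ b'.val) * x ^ a'.val := by rw [hzcomm b'.val (x ^ a.val)]
      _ = _ := by simp only [mul_assoc]
  have hemul : ∀ v w, e (v + w) = e v * e w := by
    intro v w
    apply Subtype.ext
    show ((f (v + w) : (P : Subgroup G)) : G) = (f v : G) * (f w : G)
    rw [hfmul]
    rfl
  obtain ⟨φ, hφo, hφ⟩ := exists_aut_order_p e hebij hemul
  obtain ⟨c, hc⟩ := hSL φ hφo
  have hval1 : (1 : ZMod p).val = 1 := ZMod.val_one p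
  have hf01 : f (0, 1) = x := by simp [f, hval1]
  have hf10 : f (1, 0) = z := by simp [f, hval1]
  have hf11 : f (1, 1) = z * x := by simp [f, hval1]
  have hcx : c * (x : G) * c⁻¹ = x := by
    have h1 := hc (e (0, 1))
    rw [hφ] at h1
    have h2 : ((e (0, 1 + 0) : A) : G) = (f (0, 1) : (P : Subgroup G)) := by simp [e]
    have h3 : ((e (0, 1) : A) : G) = (f (0, 1) : (P : Subgroup G)) := rfl
    rw [h2, h3, hf01] at h1
    exact h1.symm
  have hcz : c * (z : G) * c⁻¹ = (z : G) * (x : G) ^ (1 : ZMod p).val := by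
    have h1 := hc (e (1, 0))
    rw [hφ] at h1
    have h2 : ((e (1, 0 + 1) : A) : G) = (f (1, 1) : (P : Subgroup G)) := by simp [e]
    have h3 : ((e (1, 0) : A) : G) = (f (1, 0) : (P : Subgroup G)) := rfl
    rw [h2, h3, hf10, hf11] at h1
    rw [hval1, pow_one, ← h1]
    rfl
  obtain ⟨w, hw1, hw2⟩ := torus_of_h P X hxc hy (c := 1) one_ne_zero hcx hcz ht
  refine ⟨x, w, hxc, fun v => ⟨hcomm v, fun hv => ?_⟩, hw1, hw2⟩
  obtain ⟨a, b, h1⟩ := X.cen_form hxc hzc hzne hv
  have := hfmem (b, a)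
  rw [h1]
  exact this

/-- Let p be an odd prime and G a finite group with a Sylow p-subgroup P that is extraspecial of order p³ and exponent p. Suppose P contains three distinct subgroups A of order p² (each is elementary abelian of rank 2) such that every automorphism of A of order p is induced by conjugation by an element of G; equivalently the automorphism group induced on A by its normalizer contains the special linear group of A. Then p ≤ 13. -/
theorem result {G : Type*} [Group G] [Finite G]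
    {p : ℕ} [Fact p.Prime] (hp : p ≠ 2) (P : Sylow p G) (hE : Cfsg.IsExtraspecial p ↥P)
    (hcard : Nat.card P = p ^ 3) (hexp : Monoid.exponent ↥P = p)
    (A : Fin 3 → Subgroup G) (hA : Function.Injective A) (hAP : ∀ i, A i ≤ (P : Subgroup G))
    (hAcard : ∀ i, Nat.card ↥(A i) = p ^ 2)
    (hSL : ∀ i, ∀ φ : MulAut ↥(A i), orderOf φ = p → ∃ g : G, ∀ a : ↥(A i), (φ a : G) = g * (a : G) * g⁻¹) :
    p ≤ 13 := by
  by_contra hcon
  push Not at hcon
  have hpp : p.Prime := Fact.out
  have hp17 : 17 ≤ p := by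
    by_contra h
    push Not at h
    interval_cases p <;> norm_num at hpp
  have hE' : Cfsg.IsExtraspecial p (P : Subgroup G) := hE
  have hexp' : ∀ u : (P : Subgroup G), u ^ p = 1 := exp_of_exponent hexp
  have X : XP p (P : Subgroup G) := ⟨hE', hcard, hexp'⟩
  obtain ⟨t, ht, htp⟩ := exists_primitive (p := p)
  have key := fun i => one_line P X (A i) (hAP i) (hAcard i) (hSL i) ht
  choose x w hxc hmem hw1 hw2 using key
  have hsub : ∀ i j, Commute (x i) (x j) → A j ≤ A i := by
    intro i j hij v hv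
    have hvP := hAP j hv
    have h1 : Commute (x j) ⟨v, hvP⟩ := (hmem j ⟨v, hvP⟩).mp hv
    have h2 : Commute (x i) ⟨v, hvP⟩ := X.comm_of_comm (hxc j) hij.symm h1
    exact (hmem i ⟨v, hvP⟩).mpr h2
  have hnc : ∀ i j, i ≠ j → ¬ Commute (x i) (x j) := by
    intro i j hij hc
    exact hij (hA (le_antisymm (hsub j i hc.symm) (hsub i j hc)))
  refine lines3 P hE' hcard hexp' hp w x hnc (s := t⁻¹) (t := t) (inv_mul_cancel₀ ht) hw1 hw2 ?_
  intro k hk0 hk6 hk
  have h1 := htp _ hk
  have h2 := Nat.le_of_dvd (by omega) h1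
  omega

end Cfsg.Agent.S3054
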