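import Mathlib
import Cfsg.Statements.S3055
import Cfsg.Agent.Lib.ExtraP3Local
import Cfsg.Agent.Lib.ConjFam

set_option autoImplicit false
set_option linter.all false

open Cfsg

namespace Cfsg.Agent.S3055

open Cfsg.Agent.Lib.ExtraP3Local Cfsg.Agent.Lib.ExtraP3 Cfsg.Agent.Lib.ConjFam Cfsg.Agent.Lib.SylowConjLemmas

variable {G : Type*} [Group G] [Finite G] {p : ℕ} [hp : Fact p.Prime]

/-- The centre, in `G`. -/
def ZG (P : Subgroup G) : Set G := {ζ | ζ ∈ P ∧ ∀ v ∈ P, ζ * v = v * ζ}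

/-- The centralizer of `u` in `P`. -/
def CP (P : Subgroup G) (u : G) : Subgroup G := P ⊓ Subgroup.centralizer {u}

theorem mem_CP {P : Subgroup G} {u v : G} : v ∈ CP P u ↔ v ∈ P ∧ u * v = v * u := by
  simp [CP, Subgroup.mem_inf, Subgroup.mem_centralizer_singleton_iff, eq_comm]

theorem mem_ZG_iff {P : Subgroup G} (u : P) : (u : G) ∈ ZG P ↔ u ∈ Subgroup.center P := by
  rw [Subgroup.mem_center_iff]
  constructor
  · rintro ⟨-, h⟩ g
    exact Subtype.ext (h g g.2).symm
  · intro h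
    exact ⟨u.2, fun v hv => (congrArg Subtype.val (h ⟨v, hv⟩)).symm⟩

/-- The invariant along chains of conjugations. -/
def EE (P : Subgroup G) (u : G) : Prop :=
  u ∈ P ∧ u ∉ ZG P ∧ ∀ g ∈ Subgroup.normalizer (CP P u : Set G), ∀ ζ ∈ ZG P, g * ζ * g⁻¹ ∈ ZG P

theorem ZG_conj {P : Subgroup G} {n : G} (hn : n ∈ Subgroup.normalizer (P : Set G)) {ζ : G} (hζ : ζ ∈ ZG P) :
    n * ζ * n⁻¹ ∈ ZG P := by
  refine ⟨(Subgroup.mem_normalizer_iff.mp hn ζ).mp hζ.1, fun v hv => ?_⟩
  have h1 : n⁻¹ * v * n ∈ P := by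
    have := (Subgroup.mem_normalizer_iff.mp (Subgroup.inv_mem _ hn) v).mp hv
    simpa using this
  have h2 := hζ.2 _ h1
  calc n * ζ * n⁻¹ * v = n * (ζ * (n⁻¹ * v * n)) * n⁻¹ := by group
    _ = n * ((n⁻¹ * v * n) * ζ) * n⁻¹ := by rw [h2]
    _ = v * (n * ζ * n⁻¹) := by group

theorem step_P {P : Subgroup G} {x' u : G} (hx' : x' ∈ Subgroup.normalizer (P : Set G)) (hE : EE P u) :
    EE P (x'⁻¹ * u * x') := by
  obtain ⟨h1, h2, h3⟩ := hE
  have hi : x'⁻¹ ∈ Subgroup.normalizer (P : Set G) := Subgroup.inv_mem _ hx'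
  refine ⟨?_, ?_, ?_⟩
  · have := (Subgroup.mem_normalizer_iff.mp hi u).mp h1
    simpa using this
  · intro h4
    apply h2
    have := ZG_conj hx' h4
    have e : x' * (x'⁻¹ * u * x') * x'⁻¹ = u := by group
    rwa [e] at this
  · intro g hg ζ hζ
    have hg' : x' * g * x'⁻¹ ∈ Subgroup.normalizer (CP P u : Set G) := by
      apply Cfsg.Agent.Lib.Replacement.mem_normalizer_of_forall
      intro k hk
      obtain ⟨hk1, hk2⟩ := mem_CP.mp hk
      have h5 : x'⁻¹ * k * x' ∈ CP P (x'⁻¹ * u * x') := by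
        refine mem_CP.mpr ⟨?_, ?_⟩
        · have := (Subgroup.mem_normalizer_iff.mp hi k).mp hk1
          simpa using this
        · calc x'⁻¹ * u * x' * (x'⁻¹ * k * x') = x'⁻¹ * (u * k) * x' := by group
            _ = x'⁻¹ * (k * u) * x' := by rw [hk2]
            _ = _ := by group
      have h6 := (Subgroup.mem_normalizer_iff.mp hg _).mp h5
      obtain ⟨h7, h8⟩ := mem_CP.mp h6
      set m := g * (x'⁻¹ * k * x') * g⁻¹ with hm
      have e : x' * g * x'⁻¹ * k * (x' * g * x'⁻¹)⁻¹ = x' * m * x'⁻¹ := by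
        rw [hm]
        group
      rw [e]
      refine mem_CP.mpr ⟨(Subgroup.mem_normalizer_iff.mp hx' _).mp h7, ?_⟩
      calc u * (x' * m * x'⁻¹) = x' * ((x'⁻¹ * u * x') * m) * x'⁻¹ := by group
        _ = x' * (m * (x'⁻¹ * u * x')) * x'⁻¹ := by rw [h8]
        _ = _ := by group
    have h4 := h3 _ hg' _ (ZG_conj hx' hζ)
    have h5 := ZG_conj hi h4
    have e : x'⁻¹ * (x' * g * x'⁻¹ * (x' * ζ * x'⁻¹) * (x' * g * x'⁻¹)⁻¹) * x'⁻¹⁻¹ = g * ζ * g⁻¹ := by group
    rwa [e] at h5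

theorem step_T (P : Sylow p G) (X : XP p (P : Subgroup G)) {T : Subgroup G} (hTP : T ≤ (P : Subgroup G))
    (hne : T ≠ (P : Subgroup G)) {u x' : G} (huT : u ∈ T) (hx' : x' ∈ Subgroup.normalizer (T : Set G))
    (hE : EE (P : Subgroup G) u) : EE (P : Subgroup G) (x'⁻¹ * u * x') := by
  obtain ⟨h1, h2, h3⟩ := hE
  have hi : x'⁻¹ ∈ Subgroup.normalizer (T : Set G) := Subgroup.inv_mem _ hx'
  have hu'T : x'⁻¹ * u * x' ∈ T := by
    have := (Subgroup.mem_normalizer_iff.mp hi u).mp huT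
    simpa using this
  have hu'P := hTP hu'T
  set u' := x'⁻¹ * u * x' with hu'
  have hcommT : ∀ a b : (P : Subgroup G), (a : G) ∈ T → (b : G) ∈ T → Commute a b := by
    intro a b ha hb
    by_contra hc
    have h4 := X.eq_top (T.subgroupOf (P : Subgroup G)) (Subgroup.mem_subgroupOf.mpr ha) (Subgroup.mem_subgroupOf.mpr hb) hc
    apply hne
    rw [Subgroup.subgroupOf_eq_top] at h4
    exact le_antisymm hTP h4
  let û : (P : Subgroup G) := ⟨u, h1⟩
  let û' : (P : Subgroup G) := ⟨u', hu'P⟩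
  have huc : û ∉ Subgroup.center (P : Subgroup G) := fun h => h2 ((mem_ZG_iff û).mpr h)
  have hcuu : Commute û û' := hcommT _ _ huT hu'T
  have hu'Z : u' ∉ ZG (P : Subgroup G) := by
    intro hZ
    have hc' : û' ∈ Subgroup.center (P : Subgroup G) := (mem_ZG_iff û').mp hZ
    have hne1 : û' ≠ 1 := by
      intro h
      have h5 : u' = 1 := congrArg Subtype.val h
      have h6 : u = 1 := by
        have : x' * u' * x'⁻¹ = u := by rw [hu']; group
        rw [← this, h5]
        group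
      apply huc
      have : û = 1 := Subtype.ext h6
      rw [this]
      exact Subgroup.one_mem _
    have hEq : T = CP (P : Subgroup G) u := by
      apply le_antisymm
      · intro v hv
        refine mem_CP.mpr ⟨hTP hv, ?_⟩
        have := hcommT û ⟨v, hTP hv⟩ huT hv
        exact congrArg Subtype.val this.eq
      · intro v hv
        obtain ⟨hv1, hv2⟩ := mem_CP.mp hv
        have hc : Commute û ⟨v, hv1⟩ := Subtype.ext hv2
        obtain ⟨a, b, hab⟩ := X.cen_form huc hc' hne1 hc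
        have h7 : v = u' ^ b.val * u ^ a.val := congrArg Subtype.val hab
        rw [h7]
        exact T.mul_mem (T.pow_mem hu'T _) (T.pow_mem huT _)
    rw [hEq] at hx'
    have h8 := h3 x' hx' u' hZ
    have e : x' * u' * x'⁻¹ = u := by rw [hu']; group
    rw [e] at h8
    exact h2 h8
  have hCP : CP (P : Subgroup G) u' = CP (P : Subgroup G) u := by
    have huc' : û' ∉ Subgroup.center (P : Subgroup G) := fun h => hu'Z ((mem_ZG_iff û').mpr h)
    ext v
    rw [mem_CP, mem_CP]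
    constructor
    · rintro ⟨hv1, hv2⟩
      refine ⟨hv1, ?_⟩
      have hc : Commute û' ⟨v, hv1⟩ := Subtype.ext hv2
      have := X.comm_of_comm huc' hcuu.symm hc
      exact congrArg Subtype.val this.eq
    · rintro ⟨hv1, hv2⟩
      refine ⟨hv1, ?_⟩
      have hc : Commute û ⟨v, hv1⟩ := Subtype.ext hv2
      have := X.comm_of_comm huc hcuu hc
      exact congrArg Subtype.val this.eq
  refine ⟨hu'P, hu'Z, ?_⟩
  rw [hCP]
  exact h3

theorem EE_chain (P : Sylow p G) (X : XP p (P : Subgroup G)) {A : Set G} {g : G}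
    (h : Dec {U : Subgroup G | U ≤ (P : Subgroup G)} A g) :
    ∀ u ∈ A, EE (P : Subgroup G) u → EE (P : Subgroup G) (g⁻¹ * u * g) := by
  induction h with
  | nil A =>
    intro u _ hE
    simpa using hE
  | @cons A g T x hT hA hx _ ih =>
    intro u hu hE
    have h1 : EE (P : Subgroup G) (x⁻¹ * u * x) := by
      by_cases hTP : T = (P : Subgroup G)
      · subst hTP
        exact step_P hx hE
      · exact step_T P X hT hTP (hA hu) hx hE
    have h2 := ih _ (mem_cj hu) h1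
    have e : (x * g)⁻¹ * u * (x * g) = g⁻¹ * (x⁻¹ * u * x) * g := by group
    rw [e]
    exact h2

/-- All conjugations into `P` decompose. -/
theorem dec_all (P : Sylow p G) (A : Set G) (hA : A ⊆ (P : Subgroup G)) (g : G)
    (hg : (fun a => g⁻¹ * a * g) '' A ⊆ (P : Subgroup G)) :
    Dec {U : Subgroup G | U ≤ (P : Subgroup G)} A g := by
  refine dec_of_conj_family_set P (fun U hU => hU) ?_ A hA g hg
  intro T hT
  obtain ⟨g, hg⟩ := exists_fully_normalized P T
  refine ⟨T.map (MulAut.conj g).toMonoidHom, ?_, ⟨g, rfl⟩, hg⟩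
  set U := T.map (MulAut.conj g).toMonoidHom with hU
  have hUp : IsPGroup p U := (P.isPGroup'.to_le hT).map _
  obtain ⟨k, hk, hkU⟩ := exists_conj_into (P.isPGroup'.to_le inf_le_left) hg
    (Subgroup.le_normalizer (H := U)) hUp
  intro t ht
  have h1 : k⁻¹ * t * k ∈ U := by
    have := (Subgroup.mem_normalizer_iff.mp (Subgroup.inv_mem _ hk) t).mp ht
    simpa using this
  have h2 := hkU _ h1
  have e : k * (k⁻¹ * t * k) * k⁻¹ = t := by group
  rw [e] at h2
  exact h2.1

/-- Each noncentral element has, on its line, an element with a torus. -/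
theorem line_of (P : Sylow p G) (X : XP p (P : Subgroup G))
    (hconj : ∀ x y : (P : Subgroup G), x ≠ 1 → y ≠ 1 → ∃ g : G, g * (x : G) * g⁻¹ = (y : G))
    (a : (P : Subgroup G)) (ha : a ∉ Subgroup.center (P : Subgroup G)) {t : ZMod p} (ht : t ≠ 0) :
    ∃ (x : (P : Subgroup G)) (w : Subgroup.normalizer ((P : Subgroup G) : Set G)),
      x ∉ Subgroup.center (P : Subgroup G) ∧ Commute a x ∧
      (∀ ζ ∈ Subgroup.center (P : Subgroup G), (w : G) * (ζ : G) * (w : G)⁻¹ = ((ζ ^ t.val : (P : Subgroup G)) : G)) ∧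
      (w : G) * (x : G) * (w : G)⁻¹ = ((x ^ (t⁻¹).val : (P : Subgroup G)) : G) := by
  have hnE : ¬ EE (P : Subgroup G) (a : G) := by
    intro hE
    obtain ⟨z₀, hz₀, hz₀ne⟩ := X.exists_ne_one
    have ha1 : a ≠ 1 := fun h => ha (h ▸ Subgroup.one_mem _)
    obtain ⟨g, hg⟩ := hconj a z₀ ha1 hz₀ne
    have hD := dec_all P ({(a : G)} : Set G) (by simpa using a.2) g⁻¹ (by
      rintro _ ⟨_, rfl, rfl⟩
      simp only [inv_inv]
      rw [hg]
      exact z₀.2)
    have h1 := EE_chain P X hD _ rfl hE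
    rw [inv_inv, hg] at h1
    exact h1.2.1 ((mem_ZG_iff z₀).mpr hz₀)
  have haZ : (a : G) ∉ ZG (P : Subgroup G) := fun h => ha ((mem_ZG_iff a).mp h)
  have hcon : ∃ g ∈ Subgroup.normalizer (CP (P : Subgroup G) (a : G) : Set G), ∃ ζ ∈ ZG (P : Subgroup G),
      g * ζ * g⁻¹ ∉ ZG (P : Subgroup G) := by
    by_contra h
    push Not at h
    exact hnE ⟨a.2, haZ, h⟩
  obtain ⟨g, hg, ζ, hζ, hgζ⟩ := hcon
  have hgi : g⁻¹ ∈ Subgroup.normalizer (CP (P : Subgroup G) (a : G) : Set G) := Subgroup.inv_mem _ hg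
  let ζ₀ : (P : Subgroup G) := ⟨ζ, hζ.1⟩
  have hζ₀ : ζ₀ ∈ Subgroup.center (P : Subgroup G) := (mem_ZG_iff ζ₀).mp hζ
  have hcenCP : ∀ c : (P : Subgroup G), c ∈ Subgroup.center (P : Subgroup G) → (c : G) ∈ CP (P : Subgroup G) (a : G) := by
    intro c hc
    refine mem_CP.mpr ⟨c.2, ?_⟩
    exact congrArg Subtype.val (Subgroup.mem_center_iff.mp hc a)
  have hx₁ : g * ζ * g⁻¹ ∈ CP (P : Subgroup G) (a : G) :=
    (Subgroup.mem_normalizer_iff.mp hg _).mp (hcenCP ζ₀ hζ₀)
  obtain ⟨hx₁P, hx₁a⟩ := mem_CP.mp hx₁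
  let x₁ : (P : Subgroup G) := ⟨g * ζ * g⁻¹, hx₁P⟩
  have hx₁c : x₁ ∉ Subgroup.center (P : Subgroup G) := fun h => hgζ ((mem_ZG_iff x₁).mpr h)
  have hax₁ : Commute a x₁ := Subtype.ext hx₁a
  have hCPabs : ∀ c : (P : Subgroup G), (c : G) ∈ CP (P : Subgroup G) (a : G) → Commute a c := by
    intro c hc
    exact Subtype.ext (mem_CP.mp hc).2
  obtain ⟨y, hy⟩ := XP.exists_not_comm hx₁c
  set z' : (P : Subgroup G) := com y x₁ with hz'
  have hz'c : z' ∈ Subgroup.center (P : Subgroup G) := X.com_mem y x₁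
  have hz'ne : z' ≠ 1 := fun h' => hy ((com_eq_one_iff' y x₁).mp h')
  have hv : g⁻¹ * (z' : G) * g ∈ CP (P : Subgroup G) (a : G) := by
    have := (Subgroup.mem_normalizer_iff.mp hgi _).mp (hcenCP z' hz'c)
    simpa using this
  let v : (P : Subgroup G) := ⟨g⁻¹ * (z' : G) * g, (mem_CP.mp hv).1⟩
  have hgv : g * (v : G) * g⁻¹ = z' := by
    show g * (g⁻¹ * (z' : G) * g) * g⁻¹ = z'
    group
  have hvne : v ≠ 1 := by
    intro h
    apply hz'ne
    apply Subtype.ext
    rw [← hgv, h]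
    simp
  have hvc : v ∉ Subgroup.center (P : Subgroup G) := by
    intro hc
    obtain ⟨j, hj⟩ := X.cen_pow hc hvne hζ₀
    apply hx₁c
    have h1 : x₁ = z' ^ j.val := by
      apply Subtype.ext
      have h2 : ζ = (v : G) ^ j.val := congrArg Subtype.val hj
      show g * ζ * g⁻¹ = _
      rw [h2, ← conj_pow, hgv]
      rfl
    rw [h1]
    exact Subgroup.pow_mem _ hz'c _
  have hvx₁ : Commute v x₁ := X.comm_of_comm ha (hCPabs v hv) hax₁
  have hyv : ¬ Commute y v := by
    intro h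
    exact hy (X.comm_of_comm hvc h.symm hvx₁)
  have hζ₁c := X.com_mem y v
  have hζ₁ne : com y v ≠ 1 := fun h' => hyv ((com_eq_one_iff' y v).mp h')
  have hζ₀ne : ζ₀ ≠ 1 := by
    intro h
    apply hgζ
    have h1 : ζ = 1 := congrArg Subtype.val h
    rw [h1]
    simp only [mul_one, mul_inv_cancel]
    exact (mem_ZG_iff (1 : (P : Subgroup G))).mpr (Subgroup.one_mem _)
  obtain ⟨j, hj⟩ := X.cen_pow hζ₀ hζ₀ne hζ₁c
  have hjne : j ≠ 0 := by
    intro h0
    apply hζ₁ne
    rw [hj, h0, ZMod.val_zero, pow_zero]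
  have hyζ : (y : G) * ζ * (y : G)⁻¹ = ζ := by
    have h1 : ((y * ζ₀ : (P : Subgroup G)) : G) = ((ζ₀ * y : (P : Subgroup G)) : G) :=
      congrArg Subtype.val (Subgroup.mem_center_iff.mp hζ₀ y)
    have h2 : (y : G) * ζ = ζ * y := h1
    rw [h2]
    group
  have hhx : (g * y * g⁻¹) * (x₁ : G) * (g * y * g⁻¹)⁻¹ = x₁ := by
    show (g * y * g⁻¹) * (g * ζ * g⁻¹) * (g * y * g⁻¹)⁻¹ = g * ζ * g⁻¹
    calc (g * y * g⁻¹) * (g * ζ * g⁻¹) * (g * y * g⁻¹)⁻¹ = g * ((y : G) * ζ * (y : G)⁻¹) * g⁻¹ := by group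
      _ = _ := by rw [hyζ]
  have hhz : (g * y * g⁻¹) * (z' : G) * (g * y * g⁻¹)⁻¹ = (z' : G) * (x₁ : G) ^ j.val := by
    have h1 : (g * y * g⁻¹) * (z' : G) * (g * y * g⁻¹)⁻¹ = g * ((y : G) * (v : G) * (y : G)⁻¹) * g⁻¹ := by
      show _ = g * ((y : G) * (g⁻¹ * (z' : G) * g) * (y : G)⁻¹) * g⁻¹
      group
    have h2 : (y : G) * (v : G) * (y : G)⁻¹ = ((com y v : (P : Subgroup G)) : G) * (v : G) := by
      simp only [com, Subgroup.coe_mul, Subgroup.coe_inv]
      group
    have h3 : ((com y v : (P : Subgroup G)) : G) = ζ ^ j.val := by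
      rw [hj]
      rfl
    have h4 : g * (ζ ^ j.val) * g⁻¹ = (x₁ : G) ^ j.val := by
      rw [← conj_pow]
    have h5 : (x₁ : G) ^ j.val * (z' : G) = (z' : G) * (x₁ : G) ^ j.val := by
      have := congrArg Subtype.val (Subgroup.mem_center_iff.mp hz'c (x₁ ^ j.val))
      simpa using this
    rw [h1, h2, h3, ← h5, ← h4, ← hgv]
    group
  obtain ⟨w, hw1, hw2⟩ := torus_of_h P X hx₁c hy hjne hhx hhz ht
  exact ⟨x₁, w, hx₁c, hax₁, hw1, hw2⟩

/-- Let p be an odd prime and G a finite group with a Sylow p-subgroup P that is extraspecial of order p³ and exponent p. If all nonidentity elements of P are conjugate in G, then p ≤ 7. -/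
theorem result {G : Type*} [Group G] [Finite G]
    {p : ℕ} [Fact p.Prime] (hp : p ≠ 2) (P : Sylow p G) (hE : Cfsg.IsExtraspecial p ↥P)
    (hcard : Nat.card P = p ^ 3) (hexp : Monoid.exponent ↥P = p)
    (hconj : ∀ x y : ↥P, x ≠ 1 → y ≠ 1 → ∃ g : G, g * (x : G) * g⁻¹ = (y : G)) :
    p ≤ 7 := by
  by_contra hcon
  push Not at hcon
  have hpp : p.Prime := Fact.out
  have hp11 : 11 ≤ p := by
    by_contra h
    push Not at h
    interval_cases p <;> norm_num at hpp
  have hE' : Cfsg.IsExtraspecial p (P : Subgroup G) := hE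
  have hexp' : ∀ u : (P : Subgroup G), u ^ p = 1 := exp_of_exponent hexp
  have X : XP p (P : Subgroup G) := ⟨hE', hcard, hexp'⟩
  obtain ⟨t, ht, htp⟩ := exists_primitive (p := p)
  -- two noncommuting elements
  obtain ⟨a, ha⟩ : ∃ a : (P : Subgroup G), a ∉ Subgroup.center (P : Subgroup G) := by
    by_contra h
    push Not at h
    have h1 : Subgroup.center (P : Subgroup G) = ⊤ := (Subgroup.eq_top_iff' _).mpr h
    have h2 := X.hE.2
    rw [h1, Subgroup.card_top, X.hcard] at h2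
    have : p ^ 3 = p ^ 1 := by simpa using h2
    exact absurd (Nat.pow_right_injective hpp.two_le this) (by norm_num)
  obtain ⟨y, hy⟩ := XP.exists_not_comm ha
  have hay : ¬ Commute a y := fun h => hy h.symm
  obtain ⟨V, _, _, π, hpl⟩ := X.plane
  have hpow : ∀ k, 0 < k → k < p → ¬ Commute a (y ^ k) := by
    intro k hk0 hkp hc
    have h1 : com a (y ^ k) = 1 := (com_eq_one_iff' a _).mpr hc
    rw [com_pow_right hpl] at h1
    have h2 := orderOf_dvd_of_pow_eq_one h1
    rw [X.orderOf_com hay] at h2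
    exact absurd (Nat.le_of_dvd hk0 h2) (by omega)
  let b : Fin 7 → (P : Subgroup G) := fun i => a * y ^ (i : ℕ)
  have hb : ∀ i j : Fin 7, i < j → ¬ Commute (b i) (b j) := by
    intro i j hij hc
    have hk : (i : ℕ) < j := hij
    have e1 : b j = b i * y ^ ((j : ℕ) - i) := by
      simp only [b]
      rw [mul_assoc, ← pow_add]
      congr 2
      omega
    rw [e1] at hc
    have h1 : Commute (b i) (y ^ ((j : ℕ) - i)) := by
      have := (Commute.refl (b i)).inv_right.mul_right hc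
      simpa using this
    have h2 : Commute (y ^ ((j : ℕ) - i)) (y ^ (i : ℕ))⁻¹ := (Commute.refl y).pow_pow _ _ |>.inv_right
    have h3 : Commute a (y ^ ((j : ℕ) - i)) := by
      have := h1.symm.mul_right h2
      simp only [b, mul_inv_cancel_right] at this
      exact this.symm
    exact hpow _ (by omega) (by have := j.2; omega) h3
  have hb' : ∀ i j : Fin 7, i ≠ j → ¬ Commute (b i) (b j) := by
    intro i j hij hc
    rcases lt_or_gt_of_ne hij with h | h
    · exact hb i j h hc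
    · exact hb j i h hc.symm
  have hbc : ∀ i, b i ∉ Subgroup.center (P : Subgroup G) := by
    intro i hi
    obtain ⟨j, hj⟩ : ∃ j : Fin 7, i ≠ j := by
      by_cases h : i = 0
      · exact ⟨1, by rw [h]; decide⟩
      · exact ⟨0, h⟩
    exact hb' i j hj ((Subgroup.mem_center_iff.mp hi (b j)).symm)
  have key := fun i => line_of P X hconj (b i) (hbc i) ht
  choose x w hxc hbx hw1 hw2 using key
  have hnc : ∀ i j, i ≠ j → ¬ Commute (x i) (x j) := by
    intro i j hij hc
    have h1 : Commute (b i) (x j) := X.comm_of_comm (hxc i) (hbx i).symm hc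
    have h2 : Commute (b i) (b j) := X.comm_of_comm (hxc j) h1.symm (hbx j).symm
    exact hb' i j hij h2
  by_cases h13 : p = 13
  · refine lines7 P hE' hcard hexp' hp w x hnc (s := t⁻¹) (t := t) (inv_mul_cancel₀ ht) hw1 hw2 ?_
    intro k hk0 hk
    have h1 := htp _ hk
    rw [h13] at h1
    omega
  · let ι : Fin 3 → Fin 7 := Fin.castLE (by norm_num)
    have hι : Function.Injective ι := Fin.castLE_injective _
    refine lines3 P hE' hcard hexp' hp (w ∘ ι) (x ∘ ι) (fun i j hij => hnc _ _ (fun h => hij (hι h)))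
      (s := t⁻¹) (t := t) (inv_mul_cancel₀ ht) (fun i => hw1 (ι i)) (fun i => hw2 (ι i)) ?_
    intro k hk0 hk6 hk
    have h1 := htp _ hk
    have h2 := Nat.le_of_dvd (by omega) h1
    have h17 : p = 11 ∨ 17 ≤ p := by
      by_contra hc
      push Not at hc
      have hle : p < 17 := hc.2
      have hne : p ≠ 11 := hc.1
      interval_cases p <;> first | omega | (norm_num at hpp)
    rcases h17 with h | h
    · rw [h] at h1
      omega
    · omega

end Cfsg.Agent.S3055
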