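-- Statement S3056
import Mathlib
import Cfsg.Agent.Lib.ClassicalSE
import Cfsg.Statements.S3056

set_option autoImplicit false
open Cfsg

namespace Cfsg.Agent.S3056

open Cfsg.Agent.Lib.ClassicalSE

variable {G : Type*} [Group G]

/-- Adjacency in the Sylow graph. -/
def Adj (p : ℕ) (G : Type*) [Group G] (S T : Sylow p G) : Prop :=
  S ≠ T ∧ (S : Subgroup G) ⊓ (T : Subgroup G) ≠ ⊥

/-- Connected in the Sylow graph. -/
abbrev Linked (p : ℕ) (G : Type*) [Group G] (S T : Sylow p G) : Prop :=
  Relation.ReflTransGen (Adj p G) S T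

theorem linked_symm {p : ℕ} {S T : Sylow p G} (h : Linked p G S T) : Linked p G T S := by
  induction h with
  | refl => exact Relation.ReflTransGen.refl
  | tail _ hUV ih =>
    exact Relation.ReflTransGen.head ⟨hUV.1.symm, by rw [inf_comm]; exact hUV.2⟩ ih

/-- Chains from links. -/
theorem exists_chain_of_linked {p : ℕ} {S T : Sylow p G} (h : Linked p G S T) :
    ∃ (n : ℕ) (f : ℕ → Sylow p G), f 0 = S ∧ f n = T ∧ ∀ i < n, Adj p G (f i) (f (i + 1)) := by
  induction h with
  | refl => exact ⟨0, fun _ => S, rfl, rfl, fun i hi => absurd hi (Nat.not_lt_zero _)⟩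
  | @tail U V _ hUV ih =>
    obtain ⟨n, f, h0, hn, hf⟩ := ih
    refine ⟨n + 1, fun i => if i ≤ n then f i else V, ?_, ?_, ?_⟩
    · simp [h0]
    · simp
    · intro i hi
      by_cases hin : i < n
      · have h1 : i ≤ n := hin.le
        have h2 : i + 1 ≤ n := hin
        simp only [h1, h2, if_true]
        exact hf i hin
      · have hieq : i = n := by omega
        subst hieq
        simp only [le_refl, if_true, Nat.not_succ_le_self, if_false]
        rw [hn]; exact hUV

theorem mem_smul_iff {p : ℕ} (g x : G) (S : Sylow p G) :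
    x ∈ (g • S) ↔ g⁻¹ * x * g ∈ S := by
  show x ∈ ((g • S : Sylow p G) : Subgroup G) ↔ g⁻¹ * x * g ∈ (S : Subgroup G)
  rw [Sylow.coe_subgroup_smul, Subgroup.mem_pointwise_smul_iff_inv_smul_mem]
  simp [MulAut.smul_def]

theorem adj_smul {p : ℕ} (g : G) {S T : Sylow p G} (h : Adj p G S T) :
    Adj p G (g • S) (g • T) := by
  refine ⟨fun he => h.1 (smul_left_cancel g he), ?_⟩
  intro hbot
  apply h.2
  rw [eq_bot_iff]
  rintro x ⟨hxS, hxT⟩
  have h1 : g * x * g⁻¹ ∈ (g • S : Sylow p G) := by
    rw [mem_smul_iff]; simpa [mul_assoc] using hxS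
  have h2 : g * x * g⁻¹ ∈ (g • T : Sylow p G) := by
    rw [mem_smul_iff]; simpa [mul_assoc] using hxT
  have h3 : g * x * g⁻¹ ∈ ((g • S : Sylow p G) : Subgroup G) ⊓ ((g • T : Sylow p G) : Subgroup G) :=
    ⟨h1, h2⟩
  rw [hbot, Subgroup.mem_bot] at h3
  rw [Subgroup.mem_bot]
  simpa using h3

theorem linked_smul {p : ℕ} (g : G) {S T : Sylow p G} (h : Linked p G S T) :
    Linked p G (g • S) (g • T) := by
  induction h with
  | refl => exact Relation.ReflTransGen.refl
  | tail _ hUV ih => exact ih.tail (adj_smul g hUV)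

/-- The stabilizer of the connected component of `S`. -/
def stabC {p : ℕ} (S : Sylow p G) : Subgroup G where
  carrier := {g | Linked p G S (g • S)}
  mul_mem' := by
    intro a b ha hb
    show Linked p G S ((a * b) • S)
    rw [mul_smul]
    exact Relation.ReflTransGen.trans ha (linked_smul a hb)
  one_mem' := by
    show Linked p G S ((1 : G) • S)
    rw [one_smul]
  inv_mem' := by
    intro a ha
    show Linked p G S (a⁻¹ • S)
    have h1 := linked_smul a⁻¹ ha
    rw [inv_smul_smul] at h1
    exact linked_symm h1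

theorem mem_stabC {p : ℕ} (S : Sylow p G) (g : G) : g ∈ stabC S ↔ Linked p G S (g • S) := Iff.rfl

theorem le_stabC {p : ℕ} (S : Sylow p G) : (S : Subgroup G) ≤ stabC S := by
  intro g hg
  rw [mem_stabC]
  have : g • S = S := by
    apply Sylow.smul_eq_iff_mem_normalizer.2
    exact Subgroup.le_normalizer hg
  rw [this]

variable [Finite G] {p : ℕ} [Fact p.Prime]

/-- Sylow subgroups containing a nontrivial `p`-element of the stabilizer lie in the component. -/
theorem linked_of_mem {S Q : Sylow p G} {x : G} (hx : x ∈ stabC S) (hx1 : x ≠ 1)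
    (hxp : IsPGroup p (Subgroup.zpowers x)) (hxQ : x ∈ Q) : Linked p G S Q := by
  have hSH := le_stabC S
  let H := stabC S
  let S₀ : Sylow p H := S.subtype hSH
  have hz : IsPGroup p (Subgroup.zpowers (⟨x, hx⟩ : H)) := by
    have h1 : Function.Injective (H.subtype) := H.subtype_injective
    refine hxp.of_equiv ?_ |>.to_le le_rfl
    have h2 : Subgroup.zpowers (⟨x, hx⟩ : H) ≃* Subgroup.zpowers x := by
      have h3 : (Subgroup.zpowers (⟨x, hx⟩ : H)).map H.subtype = Subgroup.zpowers x := by
        rw [MonoidHom.map_zpowers]; rfl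
      rw [← h3]
      exact (Subgroup.zpowers (⟨x, hx⟩ : H)).equivMapOfInjective _ h1
    exact h2.symm
  obtain ⟨S', hS'⟩ := hz.exists_le_sylow
  obtain ⟨h, hh⟩ := MulAction.exists_smul_eq H S₀ S'
  have hxS' : (⟨x, hx⟩ : H) ∈ S' := hS' (Subgroup.mem_zpowers _)
  have hxh : x ∈ ((h : G) • S : Sylow p G) := by
    rw [mem_smul_iff]
    rw [← hh, mem_smul_iff] at hxS'
    have h3 : ((h⁻¹ * (⟨x, hx⟩ : H) * h : H) : G) ∈ (S : Subgroup G) := by
      have := hxS'
      exact this
    exact (by simpa using h3 : (h : G)⁻¹ * x * h ∈ (S : Subgroup G))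
  have h4 : Linked p G S ((h : G) • S) := h.2
  refine h4.trans ?_
  by_cases heq : (h : G) • S = Q
  · rw [heq]
  · apply Relation.ReflTransGen.single
    refine ⟨heq, ?_⟩
    intro hbot
    have : x ∈ (((h : G) • S : Sylow p G) : Subgroup G) ⊓ (Q : Subgroup G) := ⟨hxh, hxQ⟩
    rw [hbot, Subgroup.mem_bot] at this
    exact hx1 this

/-- Existence of a strongly embedded subgroup from two unlinked Sylow subgroups. -/
theorem exists_se_of_not_linked {S T : Sylow p G} (h : ¬ Linked p G S T) :
    ∃ H : Subgroup G, H ≠ ⊤ ∧ p ∣ Nat.card H ∧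
      ∀ g : G, g ∉ H → ¬ p ∣ Nat.card ↥(H ⊓ H.map (MulAut.conj g).toMonoidHom) := by
  have hST : S ≠ T := fun he => h (he ▸ Relation.ReflTransGen.refl)
  have hS1 : (S : Subgroup G) ≠ ⊥ := by
    intro hbot
    apply hST
    obtain ⟨g, hg⟩ := MulAction.exists_smul_eq G S T
    rw [← hg]
    symm
    apply Sylow.smul_eq_iff_mem_normalizer.2
    show g ∈ Subgroup.normalizer (((S : Subgroup G) : Set G))
    rw [Subgroup.mem_normalizer_iff]
    intro y
    have e3 : y ∈ (S : Subgroup G) ↔ y = 1 := by rw [hbot, Subgroup.mem_bot]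
    have e4 : g * y * g⁻¹ ∈ (S : Subgroup G) ↔ g * y * g⁻¹ = 1 := by rw [hbot, Subgroup.mem_bot]
    rw [e3, e4]
    constructor
    · rintro rfl; simp
    · intro hy
      have : g⁻¹ * (g * y * g⁻¹) * g = y := by group
      rw [← this, hy]; simp
  refine ⟨stabC S, ?_, ?_, ?_⟩
  · intro htop
    obtain ⟨g, hg⟩ := MulAction.exists_smul_eq G S T
    have : g ∈ stabC S := by rw [htop]; trivial
    rw [mem_stabC, hg] at this
    exact h this
  · exact (dvd_card_of_ne_bot S.isPGroup' hS1).trans (Subgroup.card_dvd_of_le (le_stabC S))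
  · intro g hg hdvd
    obtain ⟨x, hx⟩ := exists_prime_orderOf_dvd_card' p hdvd
    have hxord : orderOf (x : G) = p := by
      have := Subgroup.orderOf_coe x
      rw [hx] at this; exact this
    have hx1 : (x : G) ≠ 1 := by
      intro h1
      rw [h1, orderOf_one] at hxord
      exact (Fact.out : p.Prime).one_lt.ne hxord
    obtain ⟨hxH, hxH'⟩ := x.2
    obtain ⟨y, hyH, hyx⟩ := hxH'
    have hy : g * y * g⁻¹ = (x : G) := hyx
    have hyord : orderOf y = p := by
      rw [← hxord, ← hy, ← MulAut.conj_apply]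
      exact (MulEquiv.orderOf_eq (MulAut.conj g) y).symm
    have hy1 : y ≠ 1 := by
      intro h1
      rw [h1, orderOf_one] at hyord
      exact (Fact.out : p.Prime).one_lt.ne hyord
    have hzx : IsPGroup p (Subgroup.zpowers (x : G)) := by
      rw [IsPGroup.iff_card]
      exact ⟨1, by rw [Nat.card_zpowers, hxord, pow_one]⟩
    have hzy : IsPGroup p (Subgroup.zpowers y) := by
      rw [IsPGroup.iff_card]
      exact ⟨1, by rw [Nat.card_zpowers, hyord, pow_one]⟩
    obtain ⟨Q, hQ⟩ := hzx.exists_le_sylow
    have hxQ : (x : G) ∈ Q := hQ (Subgroup.mem_zpowers _)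
    have hyQ : y ∈ (g⁻¹ • Q : Sylow p G) := by
      rw [mem_smul_iff, inv_inv, hy]
      have : g * y * g⁻¹ = g⁻¹⁻¹ * y * g⁻¹ := by simp
      simpa [hy] using hxQ
    have h1 : Linked p G S Q := linked_of_mem hxH hx1 hzx hxQ
    have h2 : Linked p G S (g⁻¹ • Q) := linked_of_mem hyH hy1 hzy hyQ
    have h3 := linked_smul g h2
    rw [smul_inv_smul] at h3
    apply hg
    rw [mem_stabC]
    exact h1.trans (linked_symm h3)

/-- Connectivity from links. -/
theorem chainConnected_of_linked (h : ∀ S T : Sylow p G, Linked p G S T) :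
    Cfsg.IsSylowChainConnected p G := by
  intro S T
  by_cases hne : (S : Subgroup G) ⊓ (T : Subgroup G) = ⊥
  · obtain ⟨n, f, h0, hn, hf⟩ := exists_chain_of_linked (h S T)
    refine ⟨n, fun i => f i.val, ?_, ?_, ?_, ?_⟩
    · exact h0
    · exact hn
    · intro i; rw [hne]; exact bot_le
    · intro i
      exact hf i.val i.isLt
  · by_cases hST : S = T
    · subst hST
      refine ⟨0, fun _ => S, rfl, rfl, fun _ => inf_le_left, fun i => absurd i.isLt (Nat.not_lt_zero _)⟩
    · refine ⟨1, fun i => if i.val = 0 then S else T, by simp, by simp, ?_, ?_⟩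
      · intro i
        by_cases hi : i.val = 0
        · simp [hi]
        · simp [hi]
      · intro i
        have hi : i.val = 0 := by omega
        have h1 : (i.castSucc).val = 0 := by simpa using hi
        have h2 : (i.succ).val ≠ 0 := by simp
        simp only [h1, h2, if_true, if_false]
        exact ⟨hST, hne⟩

/-- Let G be a finite group and p a prime. Join two Sylow p-subgroups when they are distinct and meet nontrivially. This graph on the Sylow p-subgroups is disconnected (the Sylow p-subgroups are not chain-connected through nontrivial intersections) if and only if G has a strongly p-embedded subgroup in the classical sense: a proper subgroup H of order divisible by p such that H ∩ gHg⁻¹ has order prime to p for every g outside H. -/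
theorem result {G : Type*} [Group G] [Finite G]
    (p : ℕ) [Fact p.Prime] :
    ¬ Cfsg.IsSylowChainConnected p G ↔
      ∃ H : Subgroup G, H ≠ ⊤ ∧ p ∣ Nat.card H ∧
        ∀ g : G, g ∉ H → ¬ p ∣ Nat.card ↥(H ⊓ H.map (MulAut.conj g).toMonoidHom) := by
  classical
  constructor
  · intro hnc
    have : ∃ S T : Sylow p G, ¬ Linked p G S T := by
      by_contra hall
      push Not at hall
      exact hnc (chainConnected_of_linked hall)
    obtain ⟨S, T, hST⟩ := this
    exact exists_se_of_not_linked hST
  · rintro ⟨H, hH, hp, hse⟩ hconn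
    obtain ⟨P, hP⟩ := exists_sylow_le hp hse
    have hall : ∀ T : Sylow p G, (T : Subgroup G) ≤ H := by
      intro T
      obtain ⟨n, c, h0, hn, -, hc⟩ := hconn P T
      have hind : ∀ i : ℕ, ∀ hi : i ≤ n, (c ⟨i, by omega⟩ : Subgroup G) ≤ H := by
        intro i
        induction i with
        | zero =>
          intro hi
          have : (⟨0, by omega⟩ : Fin (n + 1)) = 0 := rfl
          rw [this, h0]
          exact hP
        | succ i ih =>
          intro hi
          have hi' : i < n := hi
          have h1 := ih (by omega)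
          obtain ⟨_, h2⟩ := hc ⟨i, hi'⟩
          apply le_of_inf_ne_bot hse (c _).isPGroup'
          intro hbot
          apply h2
          rw [eq_bot_iff]
          intro x hx
          have h3 : x ∈ (c (⟨i, hi'⟩ : Fin n).succ : Subgroup G) ⊓ H := ⟨hx.2, h1 hx.1⟩
          have h4 : (⟨i, hi'⟩ : Fin n).succ = ⟨i + 1, by omega⟩ := rfl
          rw [h4, hbot] at h3
          exact h3
      have := hind n le_rfl
      have h5 : (⟨n, by omega⟩ : Fin (n + 1)) = Fin.last n := rfl
      rw [h5, hn] at this
      exact this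
    apply hH
    rw [eq_top_iff]
    intro g _
    have hdvdG : p ∣ Nat.card G := hp.trans (Subgroup.card_subgroup_dvd_card H)
    have hP1 : (P : Subgroup G) ≠ ⊥ := P.ne_bot_of_dvd_card hdvdG
    apply mem_of_conj_le hse P.isPGroup' hP1 hP
    have h6 := hall (g • P)
    intro y hy
    apply h6
    obtain ⟨x, hx, rfl⟩ := hy
    show g * x * g⁻¹ ∈ (g • P : Sylow p G)
    rw [mem_smul_iff]
    simpa [mul_assoc] using hx

end Cfsg.Agent.S3056
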