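import Mathlib
import Cfsg.Statements.S3057
import Cfsg.Agent.Lib.UniqueSub
import Cfsg.Agent.Lib.CoprimeHyper
import Cfsg.Agent.Lib.PCore
import Cfsg.Agent.Lib.OddPGroup

set_option autoImplicit false
set_option linter.all false

open Cfsg
open scoped Pointwise

namespace Cfsg.Agent.S3057

universe u

variable {G : Type u} [Group G] [Finite G] {p : ℕ} [hp : Fact p.Prime]

/-- adjacency of Sylow subgroups -/
def Adj (S T : Sylow p G) : Prop := S ≠ T ∧ (S : Subgroup G) ⊓ (T : Subgroup G) ≠ ⊥

/-- reachability -/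
abbrev Conn (S T : Sylow p G) : Prop := Relation.ReflTransGen Adj S T

theorem chain_of_reach {α : Type*} (r : α → α → Prop) {a b : α} (h : Relation.ReflTransGen r a b) :
    ∃ (n : ℕ) (c : Fin (n + 1) → α), c 0 = a ∧ c (Fin.last n) = b ∧
      ∀ i : Fin n, r (c i.castSucc) (c i.succ) := by
  induction h with
  | refl => exact ⟨0, fun _ => a, rfl, rfl, fun i => i.elim0⟩
  | @tail b d _ hbd ih =>
    obtain ⟨n, c, h0, hl, hc⟩ := ih
    refine ⟨n + 1, Fin.snoc c d, ?_, ?_, ?_⟩
    · have : (0 : Fin (n + 2)) = Fin.castSucc (0 : Fin (n + 1)) := rfl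
      rw [this, Fin.snoc_castSucc, h0]
    · rw [Fin.snoc_last]
    · intro i
      induction i using Fin.lastCases with
      | last =>
        rw [Fin.succ_last, Fin.snoc_last, Fin.snoc_castSucc, hl]
        exact hbd
      | cast j =>
        rw [Fin.succ_castSucc, Fin.snoc_castSucc, Fin.snoc_castSucc]
        exact hc j

theorem adj_symm {S T : Sylow p G} (h : Adj S T) : Adj T S :=
  ⟨h.1.symm, by rw [inf_comm]; exact h.2⟩

theorem conn_symm {S T : Sylow p G} (h : Conn S T) : Conn T S := by
  induction h with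
  | refl => exact Relation.ReflTransGen.refl
  | tail _ hbd ih => exact Relation.ReflTransGen.head (adj_symm hbd) ih

theorem adj_smul (g : G) {S T : Sylow p G} (h : Adj S T) : Adj (g • S) (g • T) := by
  refine ⟨fun he => h.1 (smul_left_cancel g he), ?_⟩
  intro hbot
  apply h.2
  rw [Subgroup.eq_bot_iff_forall]
  rintro x ⟨hx₁, hx₂⟩
  have hmem : g * x * g⁻¹ ∈ (((g • S : Sylow p G) : Subgroup G) ⊓ ((g • T : Sylow p G) : Subgroup G)) := by
    constructor
    · show g * x * g⁻¹ ∈ ((g • S : Sylow p G) : Subgroup G)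
      rw [Sylow.coe_subgroup_smul, Subgroup.mem_pointwise_smul_iff_inv_smul_mem, MulAut.smul_def,
        MulAut.conj_inv_apply]
      have e : g⁻¹ * (g * x * g⁻¹) * g = x := by group
      rw [e]
      exact hx₁
    · show g * x * g⁻¹ ∈ ((g • T : Sylow p G) : Subgroup G)
      rw [Sylow.coe_subgroup_smul, Subgroup.mem_pointwise_smul_iff_inv_smul_mem, MulAut.smul_def,
        MulAut.conj_inv_apply]
      have e : g⁻¹ * (g * x * g⁻¹) * g = x := by group
      rw [e]
      exact hx₂
  rw [hbot, Subgroup.mem_bot] at hmem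
  have : x = g⁻¹ * (g * x * g⁻¹) * g := by group
  rw [this, hmem]
  group

theorem conn_smul (g : G) {S T : Sylow p G} (h : Conn S T) : Conn (g • S) (g • T) := by
  induction h with
  | refl => exact Relation.ReflTransGen.refl
  | tail _ hbd ih => exact ih.tail (adj_smul g hbd)

/-- the stabilizer of the component of `S` -/
def compStab (S : Sylow p G) : Subgroup G where
  carrier := {g | Conn (g • S) S}
  one_mem' := by
    show Conn ((1 : G) • S) S
    rw [one_smul]
  mul_mem' := by
    intro a b ha hb
    show Conn ((a * b) • S) S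
    rw [mul_smul]
    exact (conn_smul a hb).trans ha
  inv_mem' := by
    intro a ha
    show Conn (a⁻¹ • S) S
    have h1 := conn_smul a⁻¹ (show Conn (a • S) S from ha)
    rw [inv_smul_smul] at h1
    exact conn_symm h1

theorem mem_compStab_of_inf {S : Sylow p G} {c : G}
    (h : (S : Subgroup G) ⊓ ((c • S : Sylow p G) : Subgroup G) ≠ ⊥) : c ∈ compStab S := by
  show Conn (c • S) S
  by_cases he : S = c • S
  · rw [← he]
  · exact Relation.ReflTransGen.single (adj_symm ⟨he, h⟩)

theorem connected_of_conn (hc : ∀ S T : Sylow p G, Conn S T) : Cfsg.IsSylowChainConnected p G := by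
  intro S T
  by_cases hb : (S : Subgroup G) ⊓ (T : Subgroup G) = ⊥
  · obtain ⟨n, c, h0, hl, hcc⟩ := chain_of_reach _ (hc S T)
    refine ⟨n, c, h0, hl, ?_, hcc⟩
    intro i
    rw [hb]
    exact bot_le
  · by_cases he : S = T
    · subst he
      exact ⟨0, fun _ => S, rfl, rfl, fun _ => inf_le_left, fun i => i.elim0⟩
    · refine ⟨1, ![S, T], rfl, rfl, ?_, ?_⟩
      · intro i
        fin_cases i
        · exact inf_le_left
        · exact inf_le_right
      · intro i
        fin_cases i
        exact ⟨he, hb⟩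

/-- the coprime-generation step: an elementary abelian subgroup of rank two in `S`. -/
theorem le_compStab_of_rank_two (S : Sylow p G) (z e : G) (hzS : z ∈ S) (heS : e ∈ S)
    (hz : z ^ p = 1) (he : e ^ p = 1) (hz1 : z ≠ 1) (hcomm : z * e = e * z)
    (hne : e ∉ Subgroup.zpowers z) (L : Subgroup G) [hL : L.Normal] (hLp : ¬ p ∣ Nat.card L) :
    L ≤ compStab S := by
  classical
  have hpp := hp.out
  -- the rank two subgroup
  let A : Subgroup G := Subgroup.closure {z, e}
  have hkcomm : ∀ x ∈ ({z, e} : Set G), ∀ y ∈ ({z, e} : Set G), x * y = y * x := by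
    rintro x (rfl | rfl) y (rfl | rfl)
    · rfl
    · exact hcomm
    · exact hcomm.symm
    · rfl
  have hAc : IsMulCommutative ↥A := ⟨⟨fun a b => by
    letI := Subgroup.closureCommGroupOfComm hkcomm
    exact mul_comm a b⟩⟩
  have hAcomm : ∀ a ∈ A, ∀ b ∈ A, a * b = b * a := by
    intro a ha b hb
    have := hAc.is_comm.comm ⟨a, ha⟩ ⟨b, hb⟩
    exact congrArg Subtype.val this
  have hAp : ∀ a ∈ A, a ^ p = 1 := by
    intro a ha
    induction ha using Subgroup.closure_induction with
    | mem x hx =>
      rcases hx with rfl | hx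
      · exact hz
      · rw [Set.mem_singleton_iff] at hx
        rw [hx]; exact he
    | one => exact one_pow p
    | mul x y hx hy ihx ihy =>
      have hc : Commute x y := hAcomm x hx y hy
      rw [hc.mul_pow, ihx, ihy, one_mul]
    | inv x hx ih =>
      rw [inv_pow, ih, inv_one]
  have hAS : A ≤ (S : Subgroup G) := by
    rw [Subgroup.closure_le]
    rintro x (rfl | hx)
    · exact hzS
    · rw [Set.mem_singleton_iff] at hx
      rw [hx]; exact heS
  have hzA : z ∈ A := Subgroup.subset_closure (by simp)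
  have heA : e ∈ A := Subgroup.subset_closure (by simp)
  have hcardz : Nat.card (Subgroup.zpowers z) = p := by
    rw [Nat.card_zpowers]
    exact orderOf_eq_prime hz hz1
  have hcardA : p < Nat.card A := by
    have hle : Subgroup.zpowers z ≤ A := (Subgroup.zpowers_le).2 hzA
    by_contra hcon
    have h2 : Nat.card A ≤ Nat.card (Subgroup.zpowers z) := by rw [hcardz]; omega
    have h3 := Subgroup.eq_of_le_of_card_ge hle h2
    exact hne (by rw [h3]; exact heA)
  have hAX : A ≤ Subgroup.normalizer (L : Set G) := by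
    intro a _
    rw [Subgroup.mem_normalizer_iff]
    intro y
    constructor
    · exact fun h => hL.conj_mem y h a
    · intro h
      have := hL.conj_mem _ h a⁻¹
      simpa [mul_assoc] using this
  have key := Cfsg.Agent.Lib.CoprimeHyper.eq_iSup_inf_centralizer A L hAc hAp hLp hAX
  rw [key]
  refine iSup_le ?_
  rintro ⟨B, hBA, hBi⟩ c ⟨_, hc⟩
  -- `B` is nontrivial
  have hBne : B ≠ ⊥ := by
    rintro rfl
    have h1 : (⊥ : Subgroup G).relIndex A = Nat.card A := by
      rw [Subgroup.relIndex_bot_left]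
    rw [h1] at hBi
    omega
  obtain ⟨⟨b, hb⟩, hb1'⟩ := Subgroup.ne_bot_iff_exists_ne_one.1 hBne
  have hb1 : b ≠ 1 := fun h => hb1' (Subtype.ext h)
  apply mem_compStab_of_inf (S := S)
  intro hbot
  have hbS : b ∈ (S : Subgroup G) := hAS (hBA hb)
  have hbc : c * b = b * c := (Subgroup.mem_centralizer_iff.1 hc b hb).symm
  have hmem : b ∈ (S : Subgroup G) ⊓ ((c • S : Sylow p G) : Subgroup G) := by
 
    refine ⟨hbS, ?_⟩
    show b ∈ ((c • S : Sylow p G) : Subgroup G)
    rw [Sylow.coe_subgroup_smul, Subgroup.mem_pointwise_smul_iff_inv_smul_mem, MulAut.smul_def,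
      MulAut.conj_inv_apply]
    have e' : c⁻¹ * b * c = b := by
      rw [mul_assoc, ← hbc, inv_mul_cancel_left]
    rw [e']
    exact hbS
  rw [hbot, Subgroup.mem_bot] at hmem
  exact hb1 hmem

/-- existence of the critical chief section from `p`-solvability -/
theorem exists_section (hsol : Cfsg.IsPSolvable p G) (hdiv : p ∣ Nat.card G) :
    ∃ (L R : Subgroup G), L.Normal ∧ R.Normal ∧ L ≤ R ∧ ¬ p ∣ Nat.card L ∧ p ∣ Nat.card R ∧
      ∃ m : ℕ, L.relIndex R = p ^ m := by
  have hpp := hp.out
  obtain ⟨n, H, h0, hl, hmono, hnorm, hstep⟩ := hsol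
  have hex : ∃ i : Fin n, ¬ p ∣ Nat.card (H i.castSucc) ∧ p ∣ Nat.card (H i.succ) := by
    by_contra hno
    push Not at hno
    have key : ∀ i : Fin (n + 1), ¬ p ∣ Nat.card (H i) := by
      intro i
      induction i using Fin.induction with
      | zero =>
        rw [h0, Subgroup.card_bot]
        exact hpp.one_lt.not_ge ∘ Nat.le_of_dvd one_pos
      | succ j ih => exact hno j ih
    have := key (Fin.last n)
    rw [hl, Subgroup.card_top] at this
    exact this hdiv
  obtain ⟨i, hi1, hi2⟩ := hex
  have hle : H i.castSucc ≤ H i.succ := hmono (Fin.castSucc_lt_succ).le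
  refine ⟨H i.castSucc, H i.succ, hnorm _, hnorm _, hle, hi1, hi2, ?_⟩
  rcases hstep i with h | h
  · exact h
  · exfalso
    have hc : Nat.card (H i.castSucc) * (H i.castSucc).relIndex (H i.succ) = Nat.card (H i.succ) := by
      have := Subgroup.relIndex_mul_relIndex (⊥ : Subgroup G) (H i.castSucc) (H i.succ) bot_le hle
      rwa [Subgroup.relIndex_bot_left, Subgroup.relIndex_bot_left] at this
    rw [← hc] at hi2
    rcases (Nat.Prime.dvd_mul hpp).1 hi2 with h3 | h3
    · exact hi1 h3
    · have := Nat.dvd_gcd h3 (dvd_refl p)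
      rw [h.gcd_eq_one] at this
      exact hpp.one_lt.ne' (Nat.dvd_one.1 this)

/-- Conjugates of a rank-two configuration -/
theorem conn_of_rank_two (hsol : Cfsg.IsPSolvable p G) (hdiv : p ∣ Nat.card G)
    (P : Sylow p G) (z e : G) (hzS : z ∈ P) (heS : e ∈ P)
    (hz : z ^ p = 1) (he : e ^ p = 1) (hz1 : z ≠ 1) (hcomm : z * e = e * z)
    (hne : e ∉ Subgroup.zpowers z) : Cfsg.IsSylowChainConnected p G := by
  classical
  have hpp := hp.out
  obtain ⟨L, R, hLn, hRn, hLR, hLp, hRp, m, hm⟩ := exists_section hsol hdiv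
  haveI := hLn
  haveI := hRn
  -- a Sylow of `R` and a Sylow of `G` above it
  obtain ⟨T₀⟩ : Nonempty (Sylow p R) := inferInstance
  have hTp : IsPGroup p (((T₀ : Subgroup R)).map R.subtype) :=
    T₀.isPGroup'.map R.subtype
  obtain ⟨S, hS⟩ := hTp.exists_le_sylow
  obtain ⟨g, rfl⟩ := MulAction.exists_smul_eq G P S
  -- the configuration in `g • P`
  have hconj : ∀ x ∈ P, g * x * g⁻¹ ∈ ((g • P : Sylow p G) : Subgroup G) := by
    intro x hx
    rw [Sylow.coe_subgroup_smul, Subgroup.mem_pointwise_smul_iff_inv_smul_mem, MulAut.smul_def,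
      MulAut.conj_inv_apply]
    have e' : g⁻¹ * (g * x * g⁻¹) * g = x := by group
    rw [e']
    exact hx
  set S := g • P with hSdef
  have hLM : L ≤ compStab S := by
    apply le_compStab_of_rank_two S (g * z * g⁻¹) (g * e * g⁻¹) (hconj z hzS) (hconj e heS)
      ?_ ?_ ?_ ?_ ?_ L hLp
    · rw [conj_pow, hz]; group
    · rw [conj_pow, he]; group
    · intro h
      apply hz1
      have : z = g⁻¹ * (g * z * g⁻¹) * g := by group
      rw [this, h]; group
    · calc g * z * g⁻¹ * (g * e * g⁻¹) = g * (z * e) * g⁻¹ := by group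
        _ = g * (e * z) * g⁻¹ := by rw [hcomm]
        _ = g * e * g⁻¹ * (g * z * g⁻¹) := by group
    · intro h
      apply hne
      obtain ⟨k, hk⟩ := h
      refine ⟨k, ?_⟩
      have h5 : (g * z * g⁻¹) ^ k = g * z ^ k * g⁻¹ := by
        rw [conj_zpow]
      simp only at hk
      rw [h5] at hk
      have h6 : g * z ^ k * g⁻¹ = g * e * g⁻¹ := hk
      have h7 := mul_right_cancel h6
      exact mul_left_cancel h7
  have hTle : ((T₀ : Subgroup R)).map R.subtype ≤ (S : Subgroup G) := hS
  have hSM : (S : Subgroup G) ≤ compStab S := by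
    intro x hx
    show Conn (x • S) S
    rw [Sylow.smul_eq_iff_mem_normalizer.2 (Subgroup.le_normalizer hx)]
  have hTne : ((T₀ : Subgroup R)).map R.subtype ≠ ⊥ := by
    intro hb
    have h1 : (T₀ : Subgroup R) = ⊥ := by
      rw [eq_bot_iff]
      intro x hx
      have : (x : G) ∈ ((T₀ : Subgroup R)).map R.subtype := ⟨x, hx, rfl⟩
      rw [hb, Subgroup.mem_bot] at this
      exact Subtype.ext this
    have h2 := T₀.not_dvd_index
    rw [h1, Subgroup.index_bot] at h2
    exact h2 hRp
  have hNM : Subgroup.normalizer (((T₀ : Subgroup R)).map R.subtype : Set G) ≤ compStab S := by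
    intro c hc
    apply mem_compStab_of_inf
    intro hbot
    apply hTne
    rw [eq_bot_iff, ← hbot]
    intro x hx
    refine ⟨hTle hx, ?_⟩
    show x ∈ ((c • S : Sylow p G) : Subgroup G)
    rw [Sylow.coe_subgroup_smul, Subgroup.mem_pointwise_smul_iff_inv_smul_mem, MulAut.smul_def,
      MulAut.conj_inv_apply]
    have h1 : c⁻¹ * x * c⁻¹⁻¹ ∈ ((T₀ : Subgroup R)).map R.subtype :=
      (Subgroup.mem_normalizer_iff.1 (Subgroup.inv_mem _ hc) x).1 hx
    rw [inv_inv] at h1
    exact hTle h1
  have hRM : R ≤ compStab S := by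
    let K : Subgroup G := compStab S ⊓ R
    have h1 : K.relIndex R ∣ L.relIndex R :=
      Subgroup.relIndex_dvd_of_le_left R (le_inf hLM hLR)
    have h2 : K.relIndex R ∣ (((T₀ : Subgroup R)).map R.subtype).relIndex R := by
      apply Subgroup.relIndex_dvd_of_le_left R
      refine le_inf (hTle.trans hSM) ?_
      rintro _ ⟨x, _, rfl⟩
      exact x.2
    have h3 : (((T₀ : Subgroup R)).map R.subtype).relIndex R = (T₀ : Subgroup R).index := by
      have h4 : (((T₀ : Subgroup R)).map R.subtype).subgroupOf R = (T₀ : Subgroup R) := by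
        rw [← Subgroup.comap_subtype]
        exact Subgroup.comap_map_eq_self_of_injective R.subtype_injective _
      rw [Subgroup.relIndex, h4]
    rw [h3] at h2
    rw [hm] at h1
    obtain ⟨j, -, hj⟩ := (Nat.dvd_prime_pow hpp).1 h1
    have hj0 : j = 0 := by
      by_contra hne0
      apply T₀.not_dvd_index
      refine dvd_trans ?_ h2
      rw [hj]
      exact dvd_pow_self p hne0
    rw [hj0, pow_zero, Subgroup.relIndex_eq_one] at hj
    exact hj.trans inf_le_left
  have htop : compStab S = ⊤ := by
    rw [eq_top_iff, ← Sylow.normalizer_sup_eq_top T₀]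
    exact sup_le hNM hRM
  apply connected_of_conn
  intro S₁ S₂
  obtain ⟨a, rfl⟩ := MulAction.exists_smul_eq G S S₁
  obtain ⟨b, rfl⟩ := MulAction.exists_smul_eq G S S₂
  have ha : a ∈ compStab S := by rw [htop]; trivial
  have hb : b ∈ compStab S := by rw [htop]; trivial
  exact (show Conn (a • S) S from ha).trans (conn_symm (show Conn (b • S) S from hb))

/-- The unique involution of a generalized quaternion group. -/
theorem quat_unique (n : ℕ) (x y : QuaternionGroup (2 ^ n)) (hx : x ^ 2 = 1) (hy : y ^ 2 = 1)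
    (hx1 : x ≠ 1) (hy1 : y ≠ 1) : x = y := by
  have hm : (2 ^ n : ℕ) ≠ 0 := by positivity
  haveI : NeZero (2 * 2 ^ n) := ⟨by positivity⟩
  have key : ∀ z : QuaternionGroup (2 ^ n), z ^ 2 = 1 → z ≠ 1 → z = QuaternionGroup.a ((2 ^ n : ℕ) : ZMod (2 * 2 ^ n)) := by
    intro z hz hz1
    cases z with
    | a i =>
      rw [pow_two, QuaternionGroup.a_mul_a] at hz
      have h0 : i + i = 0 := by
        have := congrArg (fun w => w) hz
        exact QuaternionGroup.a.inj hz
      have hv : ((2 * i.val : ℕ) : ZMod (2 * 2 ^ n)) = 0 := by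
        rw [Nat.cast_mul, ZMod.natCast_zmod_val, Nat.cast_two, two_mul i]
        exact h0
      rw [ZMod.natCast_eq_zero_iff] at hv
      have hdvd : 2 ^ n ∣ i.val := Nat.dvd_of_mul_dvd_mul_left (by norm_num) hv
      have hlt : i.val < 2 * 2 ^ n := ZMod.val_lt i
      obtain ⟨k, hk⟩ := hdvd
      have hk2 : k < 2 := by
        rw [hk] at hlt
        have h2 : 2 ^ n * k < 2 ^ n * 2 := by linarith
        exact Nat.lt_of_mul_lt_mul_left h2
      interval_cases k
      · exfalso
        apply hz1
        have : i = 0 := by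
          have h3 : i.val = 0 := by omega
          exact (ZMod.val_eq_zero i).1 h3
        rw [this]
        rfl
      · congr 1
        have h3 : i.val = 2 ^ n := by omega
        have h4 : (i.val : ZMod (2 * 2 ^ n)) = i := ZMod.natCast_zmod_val i
        rw [h3] at h4
        exact h4.symm
    | xa i =>
      exfalso
      rw [pow_two, QuaternionGroup.xa_mul_xa] at hz
      have h0 : ((2 ^ n : ℕ) : ZMod (2 * 2 ^ n)) + i - i = 0 := QuaternionGroup.a.inj hz
      rw [add_sub_cancel_right, ZMod.natCast_eq_zero_iff] at h0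
      have := Nat.le_of_dvd (by positivity) h0
      have h2 : 0 < 2 ^ n := by positivity
      omega
  rw [key x hx hx1, key y hy hy1]

theorem result {G : Type*} [Group G] [Finite G]
    (p : ℕ) [Fact p.Prime] (hdiv : p ∣ Nat.card G) (hsol : Cfsg.IsPSolvable p G) (P : Sylow p G) :
    ¬ Cfsg.IsSylowChainConnected p G ↔
      Cfsg.pCore p G = ⊥ ∧ (IsCyclic ↥P ∨ (p = 2 ∧ ∃ n : ℕ, Nonempty (↥P ≃* QuaternionGroup (2 ^ n)))) := by
  have hpp : p.Prime := Fact.out
  constructor
  · intro hnc
    refine ⟨?_, ?_⟩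
    · -- the core is trivial
      by_contra hne
      apply hnc
      apply connected_of_conn
      intro S T
      by_cases he : S = T
      · rw [he]
      · apply Relation.ReflTransGen.single
        refine ⟨he, ?_⟩
        intro hb
        apply hne
        rw [eq_bot_iff, ← hb]
        exact le_inf (Cfsg.Agent.Lib.PCore.pCore_le_sylow p S) (Cfsg.Agent.Lib.PCore.pCore_le_sylow p T)
    · apply Cfsg.Agent.Lib.UniqueSub.main p P.isPGroup'
      intro H K hH hK
      by_contra hne
      exfalso
      apply hnc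
      -- a central element of order `p`
      have hPnt : Nontrivial ↥P := by
        rw [← Finite.one_lt_card_iff_nontrivial]
        have h1 : Nat.card H ≤ Nat.card ↥P := by
          have := Subgroup.card_le_of_le (le_top : H ≤ ⊤)
          rwa [Subgroup.card_top] at this
        have := hpp.one_lt
        omega
      have hcn : Nontrivial (Subgroup.center ↥P) := P.isPGroup'.center_nontrivial
      have hcp : IsPGroup p (Subgroup.center ↥P) := P.isPGroup'.to_subgroup _
      obtain ⟨k, hk0, hk⟩ := hcp.nontrivial_iff_card.1 hcn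
      have hdvdc : p ∣ Nat.card (Subgroup.center ↥P) := by
        rw [hk]
        exact dvd_pow_self p (ne_of_gt hk0)
      obtain ⟨z, hz⟩ := exists_prime_orderOf_dvd_card' p hdvdc
      -- a subgroup of order `p` different from `⟨z⟩`
      have hex : ∃ A : Subgroup ↥P, Nat.card A = p ∧ A ≠ Subgroup.zpowers (z : ↥P) := by
        by_cases hHz : H = Subgroup.zpowers (z : ↥P)
        · refine ⟨K, hK, ?_⟩
          intro hKz
          exact hne (hHz.trans hKz.symm)
        · exact ⟨H, hH, hHz⟩
      obtain ⟨A, hAc, hAz⟩ := hex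
      haveI : Fact p.Prime := ⟨hpp⟩
      haveI hcyc : IsCyclic A := isCyclic_of_prime_card hAc
      obtain ⟨e₀, he₀⟩ := IsCyclic.exists_generator (α := A)
      have hordz : orderOf (z : ↥P) = p := by rw [Subgroup.orderOf_coe]; exact hz
      have horde : orderOf (e₀ : ↥P) = p := by
        rw [Subgroup.orderOf_coe, orderOf_eq_card_of_forall_mem_zpowers he₀, hAc]
      have hzG : orderOf ((z : ↥P) : G) = p := by rw [Subgroup.orderOf_coe]; exact hordz
      have heG : orderOf ((e₀ : ↥P) : G) = p := by rw [Subgroup.orderOf_coe]; exact horde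
      apply conn_of_rank_two hsol hdiv P ((z : ↥P) : G) ((e₀ : ↥P) : G) (z : ↥P).2 (e₀ : ↥P).2
      · exact orderOf_dvd_iff_pow_eq_one.1 (dvd_of_eq hzG)
      · exact orderOf_dvd_iff_pow_eq_one.1 (dvd_of_eq heG)
      · intro h
        rw [h, orderOf_one] at hzG
        exact hpp.one_lt.ne hzG
      · have := Subgroup.mem_center_iff.1 z.2 (e₀ : ↥P)
        exact (congrArg Subtype.val this).symm
      · intro hmem
        obtain ⟨m, hm⟩ := hmem
        have h1 : (e₀ : ↥P) = (z : ↥P) ^ m := by
          apply Subtype.ext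
          simpa using hm.symm
        have h2 : (e₀ : ↥P) ∈ Subgroup.zpowers (z : ↥P) := ⟨m, h1.symm⟩
        have hle : A ≤ Subgroup.zpowers (z : ↥P) := by
          intro a ha
          obtain ⟨j, hj⟩ := he₀ ⟨a, ha⟩
          have hj' : (e₀ : ↥P) ^ j = a := congrArg Subtype.val hj
          rw [← hj']
          exact Subgroup.zpow_mem _ h2 j
        apply hAz
        apply Subgroup.eq_of_le_of_card_ge hle
        rw [hAc, Nat.card_zpowers, hordz]
  · rintro ⟨hcore, hcq⟩ hconn
    haveI : Fact p.Prime := ⟨hpp⟩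
    -- uniqueness in `P`
    have huP : ∀ x y : ↥P, x ^ p = 1 → y ^ p = 1 → x ≠ 1 → y ≠ 1 → x ∈ Subgroup.zpowers y := by
      intro x y hx hy hx1 hy1
      have hox : orderOf x = p := orderOf_eq_prime hx hx1
      have hoy : orderOf y = p := orderOf_eq_prime hy hy1
      rcases hcq with hc | ⟨hp2, n, ⟨φ⟩⟩
      · have : Subgroup.zpowers x = Subgroup.zpowers y :=
          Cfsg.Agent.Lib.OddPGroup.eq_of_card_of_isCyclic (by rw [Nat.card_zpowers, Nat.card_zpowers, hox, hoy])
        rw [← this]
        exact Subgroup.mem_zpowers x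
      · subst hp2
        have h1 := quat_unique n (φ x) (φ y) (by rw [← map_pow, hx, map_one]) (by rw [← map_pow, hy, map_one])
          (fun h => hx1 (φ.injective (by rw [h, map_one]))) (fun h => hy1 (φ.injective (by rw [h, map_one])))
        rw [φ.injective h1]
        exact Subgroup.mem_zpowers y
    -- uniqueness in every Sylow
    have huS : ∀ S : Sylow p G, ∀ x y : G, x ∈ S → y ∈ S → x ^ p = 1 → y ^ p = 1 → x ≠ 1 → y ≠ 1 →
        x ∈ Subgroup.zpowers y := by
      intro S x y hx hy hxp hyp hx1 hy1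
      obtain ⟨g, rfl⟩ := MulAction.exists_smul_eq G P S
      have hm : ∀ w : G, w ∈ ((g • P : Sylow p G) : Subgroup G) → g⁻¹ * w * g ∈ P := by
        intro w hw
        rw [Sylow.coe_subgroup_smul, Subgroup.mem_pointwise_smul_iff_inv_smul_mem, MulAut.smul_def,
          MulAut.conj_inv_apply] at hw
        exact hw
      have hcp : ∀ w : G, w ^ p = 1 → (g⁻¹ * w * g) ^ p = 1 := by
        intro w hw
        have e : g⁻¹ * w * g = g⁻¹ * w * (g⁻¹)⁻¹ := by rw [inv_inv]
        rw [e, conj_pow, hw]
        group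
      have hc1 : ∀ w : G, w ≠ 1 → g⁻¹ * w * g ≠ 1 := by
        intro w hw h
        apply hw
        have e : w = g * (g⁻¹ * w * g) * g⁻¹ := by group
        rw [e, h]
        group
      have := huP ⟨_, hm x hx⟩ ⟨_, hm y hy⟩ (Subtype.ext (hcp x hxp)) (Subtype.ext (hcp y hyp))
        (fun h => hc1 x hx1 (congrArg Subtype.val h)) (fun h => hc1 y hy1 (congrArg Subtype.val h))
      obtain ⟨k, hk⟩ := this
      have hk' : (g⁻¹ * y * g) ^ k = g⁻¹ * x * g := by
        have := congrArg Subtype.val hk
        simpa using this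
      refine ⟨k, ?_⟩
      show y ^ k = x
      have e : g⁻¹ * y * g = g⁻¹ * y * (g⁻¹)⁻¹ := by rw [inv_inv]
      rw [e, conj_zpow, inv_inv] at hk'
      exact mul_left_cancel (mul_right_cancel hk')
    -- an element of order `p` in `P`
    have hdP : p ∣ Nat.card ↥P := P.dvd_card_of_dvd_card hdiv
    obtain ⟨u, hu⟩ := exists_prime_orderOf_dvd_card' p hdP
    have huG : orderOf (u : G) = p := by rw [Subgroup.orderOf_coe]; exact hu
    have hu1 : (u : G) ≠ 1 := by
      intro h
      rw [h, orderOf_one] at huG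
      exact hpp.one_lt.ne huG
    have hup : (u : G) ^ p = 1 := orderOf_dvd_iff_pow_eq_one.1 (dvd_of_eq huG)
    -- `u` lies in all Sylows
    have hall : ∀ S : Sylow p G, (u : G) ∈ S := by
      intro S
      obtain ⟨n, c, h0, hl, -, hc⟩ := hconn P S
      have key : ∀ i : Fin (n + 1), (u : G) ∈ c i := by
        intro i
        induction i using Fin.induction with
        | zero => rw [h0]; exact u.2
        | succ j ih =>
          have hne := (hc j).2
          -- an element of order `p` in the intersection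
          have hip : IsPGroup p ↥((c j.castSucc : Subgroup G) ⊓ (c j.succ : Subgroup G)) :=
            (c j.castSucc).isPGroup'.to_le inf_le_left
          have hnt : Nontrivial ↥((c j.castSucc : Subgroup G) ⊓ (c j.succ : Subgroup G)) :=
            (Subgroup.nontrivial_iff_ne_bot _).2 hne
          obtain ⟨k, hk0, hk⟩ := hip.nontrivial_iff_card.1 hnt
          have hdvdc : p ∣ Nat.card ↥((c j.castSucc : Subgroup G) ⊓ (c j.succ : Subgroup G)) := by
            rw [hk]
            exact dvd_pow_self p (ne_of_gt hk0)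
          obtain ⟨w, hw⟩ := exists_prime_orderOf_dvd_card' p hdvdc
          have hwG : orderOf (w : G) = p := by rw [Subgroup.orderOf_coe]; exact hw
          have hw1 : (w : G) ≠ 1 := by
            intro h
            rw [h, orderOf_one] at hwG
            exact hpp.one_lt.ne hwG
          have hwp : (w : G) ^ p = 1 := orderOf_dvd_iff_pow_eq_one.1 (dvd_of_eq hwG)
          have h1 := huS (c j.castSucc) (u : G) (w : G) ih w.2.1 hup hwp hu1 hw1
          obtain ⟨m, hm⟩ := h1
          rw [← hm]
          exact Subgroup.zpow_mem _ w.2.2 m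
      have := key (Fin.last n)
      rwa [hl] at this
    have : (u : G) ∈ Cfsg.pCore p G := by
      rw [Cfsg.Agent.Lib.PCore.pCore_eq_iInf_sylow]
      rw [Subgroup.mem_iInf]
      intro S
      exact hall S
    rw [hcore, Subgroup.mem_bot] at this
    exact hu1 this

end Cfsg.Agent.S3057
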