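-- Statement S3058
import Mathlib
import Cfsg.Agent.S3056
import Cfsg.Agent.Lib.CoprimeHyper
import Cfsg.Agent.Lib.ClassicalSE
import Cfsg.Statements.S3058

set_option autoImplicit false
open Cfsg

namespace Cfsg.Agent.S3058

open Cfsg.Agent.Lib.ClassicalSE

/-- Let p be a prime and G a finite group whose Sylow p-subgroups are not chain-connected through nontrivial intersections (so G has a strongly p-embedded subgroup). If N and M are normal subgroups of G whose orders are both divisible by p, then the order of N ∩ M is divisible by p. Consequently, among the normal subgroups of G whose order is divisible by p there is a smallest one (the intersection of all of them). -/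
theorem result {G : Type*} [Group G] [Finite G]
    (p : ℕ) [Fact p.Prime] (hG : ¬ Cfsg.IsSylowChainConnected p G)
    (N M : Subgroup G) [N.Normal] [M.Normal] (hN : p ∣ Nat.card N) (hM : p ∣ Nat.card M) :
    p ∣ Nat.card ↥(N ⊓ M) := by
  classical
  have hpp : p.Prime := Fact.out
  obtain ⟨H, hH, hp, hse⟩ := (Cfsg.Agent.S3056.result (G := G) p).1 hG
  by_contra hD
  obtain ⟨P, hP⟩ := exists_sylow_le hp hse
  -- a nontrivial `p`-element of `N` in `P`
  have key : ∀ (K : Subgroup G) [K.Normal], p ∣ Nat.card K →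
      ∃ x : G, x ∈ K ∧ x ∈ (P : Subgroup G) ∧ orderOf x = p := by
    intro K _ hK
    obtain ⟨S, hS⟩ := exists_sylow_normal_le K P
    have hS1 : (S : Subgroup K) ≠ ⊥ := S.ne_bot_of_dvd_card hK
    have hdvd : p ∣ Nat.card (S : Subgroup K) := dvd_card_of_ne_bot S.2 hS1
    obtain ⟨x, hx⟩ := exists_prime_orderOf_dvd_card' p hdvd
    refine ⟨((x : K) : G), (x : K).2, hS ⟨_, x.2, rfl⟩, ?_⟩
    have h1 : orderOf ((x : K) : G) = orderOf (x : K) := Subgroup.orderOf_coe _
    have h2 : orderOf (x : K) = orderOf x := Subgroup.orderOf_coe _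
    rw [h1, h2, hx]
  obtain ⟨x, hxN, hxP, hxo⟩ := key N hN
  obtain ⟨y, hyM, hyP, hyo⟩ := key M hM
  -- elements of `N ⊓ M ⊓ P` are trivial
  have hDP : ∀ z, z ∈ N → z ∈ M → z ∈ (P : Subgroup G) → z = 1 := by
    intro z hzN hzM hzP
    by_contra hz
    have hzD : z ∈ N ⊓ M := ⟨hzN, hzM⟩
    obtain ⟨k, hk⟩ := (P.isPGroup' ⟨z, hzP⟩)
    have hk' : z ^ p ^ k = 1 := congrArg Subtype.val hk
    have hord : orderOf z ∣ p ^ k := orderOf_dvd_of_pow_eq_one hk'
    obtain ⟨j, _, hj⟩ := (Nat.dvd_prime_pow hpp).1 hord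
    have hj0 : j ≠ 0 := by
      rintro rfl
      rw [pow_zero, orderOf_eq_one_iff] at hj
      exact hz hj
    apply hD
    have h1 : orderOf (⟨z, hzD⟩ : ↥(N ⊓ M)) = orderOf z :=
      (Subgroup.orderOf_coe (⟨z, hzD⟩ : ↥(N ⊓ M))).symm
    have h2 : orderOf (⟨z, hzD⟩ : ↥(N ⊓ M)) ∣ Nat.card ↥(N ⊓ M) := orderOf_dvd_natCard _
    rw [h1, hj] at h2
    exact (dvd_pow_self p hj0).trans h2
  -- `x`, `y` commute
  have hcomm : x * y = y * x := by
    have h1 : x * y * x⁻¹ * y⁻¹ = 1 := by
      apply hDP
      · have : y * x⁻¹ * y⁻¹ ∈ N := Subgroup.Normal.conj_mem inferInstance _ (N.inv_mem hxN) y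
        have e : x * y * x⁻¹ * y⁻¹ = x * (y * x⁻¹ * y⁻¹) := by group
        rw [e]; exact N.mul_mem hxN this
      · have : x * y * x⁻¹ ∈ M := Subgroup.Normal.conj_mem inferInstance _ hyM x
        exact M.mul_mem this (M.inv_mem hyM)
      · exact Subgroup.mul_mem _ (Subgroup.mul_mem _ (Subgroup.mul_mem _ hxP hyP) (Subgroup.inv_mem _ hxP))
          (Subgroup.inv_mem _ hyP)
    have h2 : x * y * x⁻¹ = y := by
      rwa [mul_inv_eq_one] at h1
    calc x * y = x * y * x⁻¹ * x := by group
      _ = y * x := by rw [h2]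
  -- the rank two group
  set A := Subgroup.closure ({x, y} : Set G) with hA
  have hAle : A ≤ Subgroup.centralizer ((A : Subgroup G) : Set G) := by
    have h1 : A ≤ Subgroup.centralizer ({x, y} : Set G) := by
      rw [hA, Subgroup.closure_le]
      rintro s hs
      rw [SetLike.mem_coe, Subgroup.mem_centralizer_iff]
      rintro t ht
      rcases hs with rfl | hs
      · rcases ht with rfl | ht
        · rfl
        · have : t = y := ht
          rw [this]; exact hcomm.symm
      · have : s = y := hs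
        rw [this]
        rcases ht with rfl | ht
        · exact hcomm
        · have : t = y := ht
          rw [this]
    rw [hA, Subgroup.closure_le]
    rintro s hs
    rw [SetLike.mem_coe, Subgroup.mem_centralizer_iff]
    intro t ht
    have h2 := Subgroup.mem_centralizer_iff.1 (h1 ht) s hs
    exact h2.symm
  have hAc : IsMulCommutative ↥A := by
    constructor
    constructor
    rintro ⟨a, ha⟩ ⟨b, hb⟩
    apply Subtype.ext
    have := Subgroup.mem_centralizer_iff.1 (hAle ha) b hb
    exact this.symm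
  have hxA : x ∈ A := Subgroup.subset_closure (by simp)
  have hyA : y ∈ A := Subgroup.subset_closure (by simp)
  have hAP : A ≤ (P : Subgroup G) := by
    rw [hA, Subgroup.closure_le]
    rintro s hs
    rcases hs with rfl | hs
    · exact hxP
    · have : s = y := hs
      rw [this]; exact hyP
  have hApow : ∀ a ∈ A, a ^ p = 1 := by
    intro a ha
    induction ha using Subgroup.closure_induction with
    | mem s hs =>
      rcases hs with rfl | hs
      · rw [← hxo]; exact pow_orderOf_eq_one _
      · have : s = y := hs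
        rw [this, ← hyo]; exact pow_orderOf_eq_one _
    | one => simp
    | mul a b ha hb iha ihb =>
      have hc : Commute a b := (Subgroup.mem_centralizer_iff.1 (hAle hb) a ha)
      rw [hc.mul_pow, iha, ihb, one_mul]
    | inv a _ iha => rw [inv_pow, iha, inv_one]
  -- `D` is generated by centralizers
  have hAX : A ≤ Subgroup.normalizer (((N ⊓ M : Subgroup G)) : Set G) := by
    intro a _
    rw [Subgroup.mem_normalizer_iff]
    intro n
    have : (N ⊓ M).Normal := inferInstance
    exact ⟨fun h => this.conj_mem n h a, fun h => by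
      have := this.conj_mem _ h a⁻¹
      simpa [mul_assoc] using this⟩
  have hgen := Cfsg.Agent.Lib.CoprimeHyper.eq_iSup_inf_centralizer A (N ⊓ M) hAc hApow hD hAX
  have hyzx : y ∉ Subgroup.zpowers x := by
    intro h
    have hyN : y ∈ N := (Subgroup.zpowers_le.2 hxN) h
    have := hDP y hyN hyM hyP
    rw [this, orderOf_one] at hyo
    exact hpp.one_lt.ne hyo
  have hAcard : p < Nat.card A := by
    have h1 : Subgroup.zpowers x < A := by
      refine lt_of_le_of_ne (Subgroup.zpowers_le.2 hxA) ?_
      intro h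
      exact hyzx (h ▸ hyA)
    have h2 : Nat.card (Subgroup.zpowers x) = p := by rw [Nat.card_zpowers, hxo]
    rw [← h2]
    exact lt_of_le_of_ne (Subgroup.card_le_of_le h1.le) (fun h => h1.ne (Subgroup.eq_of_le_of_card_ge h1.le h.ge))
  -- hence `D ≤ H`
  have hDH : N ⊓ M ≤ H := by
    rw [hgen]
    refine iSup_le ?_
    rintro ⟨B, hBA, hBi⟩
    have hB1 : B ≠ ⊥ := by
      rintro rfl
      have h1 : (⊥ : Subgroup G).relIndex A = Nat.card A := by
        rw [Subgroup.relIndex_bot_left]
      rw [h1] at hBi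
      omega
    obtain ⟨b, hbB, hb1⟩ : ∃ b ∈ B, b ≠ 1 := by
      obtain ⟨b, hb⟩ := Subgroup.ne_bot_iff_exists_ne_one.1 hB1
      exact ⟨b, b.2, fun h => hb (Subtype.ext h)⟩
    rintro z ⟨_, hz⟩
    have hzb : z * b = b * z := (Subgroup.mem_centralizer_iff.1 hz b hbB).symm
    have hbord : orderOf b = p := orderOf_eq_prime (hApow b (hBA hbB)) hb1
    have hzp : IsPGroup p (Subgroup.zpowers b) := by
      rw [IsPGroup.iff_card]
      exact ⟨1, by rw [Nat.card_zpowers, hbord, pow_one]⟩
    have hzne : Subgroup.zpowers b ≠ ⊥ := by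
      rw [Ne, Subgroup.zpowers_eq_bot]; exact hb1
    have hbH : b ∈ H := hP (hAP (hBA hbB))
    apply mem_of_conj_le hse hzp hzne (Subgroup.zpowers_le.2 hbH)
    rintro _ ⟨w, hw, rfl⟩
    obtain ⟨k, rfl⟩ := hw
    have e : (MulAut.conj z).toMonoidHom (b ^ k) = b ^ k := by
      show z * b ^ k * z⁻¹ = b ^ k
      have hc : Commute z (b ^ k) := (show Commute z b from hzb).zpow_right k
      rw [hc.eq]; group
    show (MulAut.conj z).toMonoidHom (b ^ k) ∈ H
    rw [e]
    exact H.zpow_mem hbH k
  -- `M ≤ H`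
  have hMH : M ≤ H := by
    intro m hm
    have hxH : x ∈ H := hP hxP
    have hxne : Subgroup.zpowers x ≠ ⊥ := by
      rw [Ne, Subgroup.zpowers_eq_bot]
      rintro rfl
      rw [orderOf_one] at hxo
      exact hpp.one_lt.ne hxo
    have hzp : IsPGroup p (Subgroup.zpowers x) := by
      rw [IsPGroup.iff_card]
      exact ⟨1, by rw [Nat.card_zpowers, hxo, pow_one]⟩
    apply mem_of_conj_le hse hzp hxne (Subgroup.zpowers_le.2 hxH)
    rw [MonoidHom.map_zpowers, Subgroup.zpowers_le]
    show m * x * m⁻¹ ∈ H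
    have hd : m * x * m⁻¹ * x⁻¹ ∈ N ⊓ M := by
      constructor
      · have : m * x * m⁻¹ ∈ N := Subgroup.Normal.conj_mem inferInstance _ hxN m
        exact N.mul_mem this (N.inv_mem hxN)
      · have : x * m⁻¹ * x⁻¹ ∈ M := Subgroup.Normal.conj_mem inferInstance _ (M.inv_mem hm) x
        have e : m * x * m⁻¹ * x⁻¹ = m * (x * m⁻¹ * x⁻¹) := by group
        rw [e]; exact M.mul_mem hm this
    have e : m * x * m⁻¹ = (m * x * m⁻¹ * x⁻¹) * x := by group
    rw [e]
    exact H.mul_mem (hDH hd) hxH
  -- conclusion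
  apply hH
  have h := sup_normal_eq_top hp hse M hM
  rw [eq_top_iff, ← h]
  refine sup_le le_rfl ?_
  rw [Subgroup.closure_le]
  rintro z ⟨hz, _⟩
  exact hMH hz

end Cfsg.Agent.S3058
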