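-- Statement S3061
import Mathlib
import Cfsg.Agent.Lib.DStarCore
import Cfsg.Statements.S3061

set_option autoImplicit false
open Cfsg

namespace Cfsg.Agent.S3061

/-- Let S be a finite p-group. Then D*(S) itself belongs to the family that generates it: D*(S) is abelian, and every x ∈ S with ⟨D*(S), x⟩ of class at most two centralizes D*(S). Hence D*(S) is the unique maximal member of that family. -/
theorem result {S : Type*} [Group S] [Finite S] {p : ℕ} [Fact p.Prime] (hS : IsPGroup p S) :
    Cfsg.dStar S ∈ Cfsg.dStarFamily S := by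
  have hT : IsPGroup p (⊤ : Subgroup S) := hS.to_subgroup ⊤
  have h := Cfsg.Agent.Lib.DStarCore.dS_mem hT
  rw [Cfsg.Agent.Lib.DStarCore.dStar_eq]
  refine ⟨⟨⟨fun x y => ?_⟩⟩, ?_⟩
  · apply Subtype.ext
    exact h.2.1 _ x.2 _ y.2
  · intro x hc a ha
    exact h.2.2 x trivial hc a ha

end Cfsg.Agent.S3061
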