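import Mathlib
import Cfsg.Statements.S3064
import Cfsg.Agent.Lib.FrobeniusThm
import Cfsg.Agent.Lib.FpfGeneral

set_option autoImplicit false
set_option linter.all false

open Cfsg
open scoped Pointwise

namespace Cfsg.Agent.S3064

universe u

theorem core (p : ℕ) [hp : Fact p.Prime] : ∀ (n : ℕ) (G : Type u) [Group G] [Finite G] (x : G),
    Nat.card G ≤ n → (∃ k : ℕ, x ^ (p ^ k) = 1) →
    (∀ g : G, x * (g⁻¹ * x * g) = (g⁻¹ * x * g) * x → g⁻¹ * x * g = x) →
    (∀ H : Subgroup G, (Nat.card H).Coprime p → (∀ h ∈ H, x * h * x⁻¹ ∈ H) → ∀ h ∈ H, x * h = h * x) →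
    x ∈ Subgroup.center G := by
  intro n
  induction n with
  | zero =>
    intro G _ _ x hc
    have := Nat.card_pos (α := G)
    omega
  | succ n ih =>
    intro G _ _ x hc hpx hA hb
    by_contra hxZ
    -- generation
    have gen : ∀ g : G, g⁻¹ * x * g ≠ x → Subgroup.closure {x, g⁻¹ * x * g} = ⊤ := by
      intro g hg
      by_contra hne
      set L := Subgroup.closure {x, g⁻¹ * x * g} with hL
      have hxL : x ∈ L := Subgroup.subset_closure (by simp)
      have hyL : g⁻¹ * x * g ∈ L := Subgroup.subset_closure (by simp)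
      have hcard : Nat.card L ≤ n := by
        have : Nat.card L < Nat.card G := by
          have h1 := Subgroup.card_le_of_le (le_top : L ≤ ⊤)
          rw [Subgroup.card_top] at h1
          refine lt_of_le_of_ne h1 ?_
          intro h2
          apply hne
          exact Subgroup.eq_top_of_card_eq L h2
        omega
      have := ih L ⟨x, hxL⟩ hcard ?_ ?_ ?_
      · rw [Subgroup.mem_center_iff] at this
        have h3 := this ⟨_, hyL⟩
        have h4 : (g⁻¹ * x * g) * x = x * (g⁻¹ * x * g) := congrArg Subtype.val h3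
        exact hg (hA g h4.symm)
      · obtain ⟨k, hk⟩ := hpx
        exact ⟨k, Subtype.ext hk⟩
      · intro l hl
        exact Subtype.ext (hA l (congrArg Subtype.val hl))
      · intro H hcop hnorm h hh
        have hc' : (Nat.card (H.map L.subtype)).Coprime p := by
          rw [Subgroup.card_map_of_injective L.subtype_injective]
          exact hcop
        have := hb (H.map L.subtype) hc' ?_ h.1 ⟨h, hh, rfl⟩
        · exact Subtype.ext this
        · rintro _ ⟨h', hh', rfl⟩
          exact ⟨_, hnorm h' hh', rfl⟩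
    have cen : ∀ g : G, g⁻¹ * x * g ≠ x → ∀ h : G, h * x = x * h →
        h * (g⁻¹ * x * g) = (g⁻¹ * x * g) * h → h ∈ Subgroup.center G := by
      intro g hg h h1 h2
      have hle : Subgroup.closure {x, g⁻¹ * x * g} ≤ Subgroup.centralizer {h} := by
        rw [Subgroup.closure_le]
        rintro w (rfl | hw)
        · rw [SetLike.mem_coe, Subgroup.mem_centralizer_singleton_iff]
          exact h1.symm
        · rw [Set.mem_singleton_iff] at hw
          rw [SetLike.mem_coe, Subgroup.mem_centralizer_singleton_iff, hw]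
          exact h2.symm
      rw [gen g hg] at hle
      rw [Subgroup.mem_center_iff]
      intro w
      have := hle (Subgroup.mem_top w)
      rw [Subgroup.mem_centralizer_singleton_iff] at this
      exact this
    -- the quotient by the centre
    let Z : Subgroup G := Subgroup.center G
    let mk : G →* G ⧸ Z := QuotientGroup.mk' Z
    have hmkker : ∀ g : G, mk g = 1 ↔ g ∈ Z := fun g => QuotientGroup.eq_one_iff g
    have hmksurj : Function.Surjective mk := QuotientGroup.mk'_surjective Z
    let C : Subgroup G := Subgroup.centralizer {x}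
    have hCmem : ∀ g : G, g ∈ C ↔ g * x = x * g := fun g => Subgroup.mem_centralizer_singleton_iff
    have hZC : ∀ z ∈ Z, ∀ g : G, z * g = g * z := by
      intro z hz g
      exact (Subgroup.mem_center_iff.1 hz g).symm
    have hmkmem : ∀ g : G, mk g ∈ C.map mk → g ∈ C := by
      rintro g ⟨c, hc, he⟩
      have hz : c⁻¹ * g ∈ Z := by
        rw [← hmkker, map_mul, map_inv, he, inv_mul_cancel]
      have : g = c * (c⁻¹ * g) := by group
      rw [this, hCmem]
      have h1 := hZC _ hz x
      have h2 := (hCmem c).1 hc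
      calc c * (c⁻¹ * g) * x = c * ((c⁻¹ * g) * x) := by group
        _ = c * (x * (c⁻¹ * g)) := by rw [h1]
        _ = (c * x) * (c⁻¹ * g) := by group
        _ = (x * c) * (c⁻¹ * g) := by rw [h2]
        _ = x * (c * (c⁻¹ * g)) := by group
    let Hb : Subgroup (G ⧸ Z) := C.map mk
    have hxC : x ∈ C := (hCmem x).2 rfl
    have hFrob : IsFrobeniusComplement Hb := by
      refine ⟨?_, ?_, ?_⟩
      · intro hbot
        have : mk x ∈ Hb := ⟨x, hxC, rfl⟩
        rw [hbot, Subgroup.mem_bot, hmkker] at this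
        exact hxZ this
      · intro htop
        apply hxZ
        rw [Subgroup.mem_center_iff]
        intro g
        have : mk g ∈ Hb := by rw [htop]; exact Subgroup.mem_top _
        exact (hCmem g).1 (hmkmem g this)
      · intro gb hgb
        obtain ⟨g, rfl⟩ := hmksurj gb
        have hgC : g ∉ C := fun h => hgb ⟨g, h, rfl⟩
        rw [Subgroup.eq_bot_iff_forall]
        rintro w ⟨hw1, hw2⟩
        obtain ⟨h, hh, rfl⟩ := hw1
        have hw3 : mk (g⁻¹ * h * g) ∈ C.map mk := by
          have hw2' : mk h ∈ (MulAut.conj (mk g) • (C.map mk)) := hw2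
          rw [Subgroup.mem_pointwise_smul_iff_inv_smul_mem] at hw2'
          have e : (MulAut.conj (mk g))⁻¹ • mk h = mk (g⁻¹ * h * g) := by
            rw [MulAut.smul_def, MulAut.conj_inv_apply]
            simp only [map_mul, map_inv]
          rw [e] at hw2'
          exact hw2'
        have hw4 := (hCmem _).1 (hmkmem _ hw3)
        have hy : (g⁻¹)⁻¹ * x * g⁻¹ ≠ x := by
          intro he
          apply hgC
          rw [hCmem]
          calc g * x = ((g⁻¹)⁻¹ * x * g⁻¹) * g := by group
            _ = x * g := by rw [he]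
        rw [hmkker]
        apply cen g⁻¹ hy h ((hCmem h).1 hh)
        calc h * ((g⁻¹)⁻¹ * x * g⁻¹) = g * ((g⁻¹ * h * g) * x) * g⁻¹ := by group
          _ = g * (x * (g⁻¹ * h * g)) * g⁻¹ := by rw [hw4]
          _ = ((g⁻¹)⁻¹ * x * g⁻¹) * h := by group
    -- Frobenius' theorem
    obtain ⟨Nb, -, hNnorm, hcompl⟩ := Cfsg.Agent.Lib.FrobeniusThm.exists_kernel_subgroup hFrob
    have hdisj : ∀ w : G ⧸ Z, w ∈ Nb → w ∈ Hb → w = 1 := by
      intro w h1 h2
      have := Subgroup.disjoint_def.1 hcompl.disjoint h1 h2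
      exact this
    have hcop : (Nat.card Hb).Coprime (Nat.card Nb) := by
      apply Cfsg.Agent.Lib.FpfGeneral.coprime_of_fpf Hb Nb
      · intro a _
        rw [Subgroup.mem_normalizer_iff]
        intro y
        constructor
        · exact fun h => hNnorm.conj_mem y h a
        · intro h
          have := hNnorm.conj_mem _ h a⁻¹
          simpa [mul_assoc] using this
      · intro a ha hane
        rw [Subgroup.eq_bot_iff_forall]
        rintro k ⟨hkN, hkc⟩
        by_contra hk1
        have hkH : k ∉ Hb := fun h => hk1 (hdisj k hkN h)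
        have hbot := hFrob.2.2 k hkH
        have hkc' : k * a = a * k := Subgroup.mem_centralizer_singleton_iff.1 hkc
        have : a ∈ Hb ⊓ (MulAut.conj k • Hb) := by
          refine ⟨ha, ?_⟩
          show a ∈ MulAut.conj k • Hb
          rw [Subgroup.mem_pointwise_smul_iff_inv_smul_mem, MulAut.smul_def, MulAut.conj_inv_apply]
          have e : k⁻¹ * a * k = a := by
            rw [mul_assoc, ← hkc', inv_mul_cancel_left]
          rw [e]
          exact ha
        rw [hbot, Subgroup.mem_bot] at this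
        exact hane this
    have hp' := hp.out
    have hpN : ¬ p ∣ Nat.card Nb := by
      intro hdvd
      obtain ⟨k, hk⟩ := hpx
      let xb : Hb := ⟨mk x, x, hxC, rfl⟩
      have h1 : xb ^ (p ^ k) = 1 := by
        apply Subtype.ext
        show (mk x) ^ (p ^ k) = 1
        rw [← map_pow, hk, map_one]
      have h2 : xb ≠ 1 := by
        intro h
        have : mk x = 1 := congrArg Subtype.val h
        rw [hmkker] at this
        exact hxZ this
      obtain ⟨j, -, hj⟩ := (Nat.dvd_prime_pow hp').1 (orderOf_dvd_of_pow_eq_one h1)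
      have hj0 : j ≠ 0 := by
        rintro rfl
        rw [pow_zero, orderOf_eq_one_iff] at hj
        exact h2 hj
      have h3 : p ∣ orderOf xb := by
        rw [hj]
        exact dvd_pow_self p hj0
      have h4 : p ∣ Nat.card Hb := h3.trans (orderOf_dvd_natCard xb)
      have := Nat.dvd_gcd h4 hdvd
      rw [hcop] at this
      exact hp'.one_lt.ne' (Nat.dvd_one.1 this)
    let N : Subgroup G := Nb.comap mk
    haveI hNn : N.Normal := hNnorm.comap mk
    have pcen : ∀ u ∈ N, ∀ j : ℕ, u ^ (p ^ j) = 1 → u ∈ Z := by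
      intro u hu j huj
      let ub : Nb := ⟨mk u, hu⟩
      have h1 : ub ^ (p ^ j) = 1 := by
        apply Subtype.ext
        show (mk u) ^ (p ^ j) = 1
        rw [← map_pow, huj, map_one]
      have h2 : (orderOf ub).Coprime (Nat.card Nb) :=
        Nat.Coprime.coprime_dvd_left (orderOf_dvd_of_pow_eq_one h1)
          (Nat.Coprime.pow_left j ((Nat.Prime.coprime_iff_not_dvd hp').2 hpN))
      have h3 := Nat.Coprime.eq_one_of_dvd h2 (orderOf_dvd_natCard ub)
      rw [orderOf_eq_one_iff] at h3
      rw [← hmkker]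
      exact congrArg Subtype.val h3
    obtain ⟨T⟩ : Nonempty (Sylow p N) := inferInstance
    have hTcen : ∀ t : N, t ∈ T → (t : G) ∈ Z := by
      intro t ht
      obtain ⟨j, hj⟩ := T.isPGroup' ⟨t, ht⟩
      apply pcen t t.2 j
      have := congrArg (fun w : T => ((w : N) : G)) hj
      simpa using this
    have hle : Subgroup.normalizer ((T : Subgroup N) : Set N) ≤ Subgroup.centralizer (T : Set N) := by
      intro n _
      rw [Subgroup.mem_centralizer_iff]
      intro t ht
      apply Subtype.ext
      exact hZC _ (hTcen t ht) _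
    have hK := MonoidHom.ker_transferSylow_isComplement' T hle
    have hKcard := MonoidHom.not_dvd_card_ker_transferSylow T hle
    obtain ⟨K₀, hK₀⟩ : ∃ K₀ : Subgroup N, K₀ = (MonoidHom.transferSylow T hle).ker := ⟨_, rfl⟩
    rw [← hK₀] at hK hKcard
    let M : Subgroup G := K₀.map N.subtype
    have hMcard : Nat.card M = Nat.card K₀ := Subgroup.card_map_of_injective N.subtype_injective
    have hcopK : (Nat.card K₀).Coprime p := ((Nat.Prime.coprime_iff_not_dvd hp').2 hKcard).symm
    have hMnorm : ∀ h ∈ M, x * h * x⁻¹ ∈ M := by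
      rintro _ ⟨c, hc, rfl⟩
      have hc' : x * (c : G) * x⁻¹ ∈ N := hNn.conj_mem _ c.2 x
      obtain ⟨⟨k, t⟩, he⟩ := hK.2 (⟨_, hc'⟩ : N)
      have he' : ((k : N) : G) * ((t : N) : G) = x * (c : G) * x⁻¹ := congrArg Subtype.val he
      have htc := hTcen t t.2
      have hkm : ((k : N) : G) ^ Nat.card K₀ = 1 := by
        have := pow_card_eq_one' (G := K₀) (x := k)
        exact congrArg (fun w : K₀ => ((w : N) : G)) this
      have hcm : (c : G) ^ Nat.card K₀ = 1 := by
        have := pow_card_eq_one' (G := K₀) (x := ⟨c, hc⟩)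
        exact congrArg (fun w : K₀ => ((w : N) : G)) this
      have hcomm : Commute ((k : N) : G) ((t : N) : G) := (hZC _ htc _).symm
      have htm : ((t : N) : G) ^ Nat.card K₀ = 1 := by
        have h1 : (((k : N) : G) * ((t : N) : G)) ^ Nat.card K₀ = 1 := by
          rw [he', conj_pow, hcm, mul_one, mul_inv_cancel]
        rw [hcomm.mul_pow, hkm, one_mul] at h1
        exact h1
      obtain ⟨j, hj⟩ := T.isPGroup' t
      have hj' : ((t : N) : G) ^ (p ^ j) = 1 := by
        have := congrArg (fun w : T => ((w : N) : G)) hj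
        simpa using this
      have h2 : (orderOf ((t : N) : G)).Coprime (Nat.card K₀) :=
        Nat.Coprime.coprime_dvd_left (orderOf_dvd_of_pow_eq_one hj') (Nat.Coprime.pow_left j hcopK.symm)
      have h3 := Nat.Coprime.eq_one_of_dvd h2 (orderOf_dvd_of_pow_eq_one htm)
      rw [orderOf_eq_one_iff] at h3
      rw [h3, mul_one] at he'
      show x * (c : G) * x⁻¹ ∈ M
      rw [← he']
      exact ⟨k, k.2, rfl⟩
    have hxM := hb M (by rw [hMcard]; exact hcopK) hMnorm
    have hxN : ∀ n ∈ N, x * n = n * x := by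
      intro n hn
      obtain ⟨⟨k, t⟩, he⟩ := hK.2 (⟨n, hn⟩ : N)
      have he' : ((k : N) : G) * ((t : N) : G) = n := congrArg Subtype.val he
      have h1 := hxM _ (⟨k, k.2, rfl⟩ : ((k : N) : G) ∈ M)
      have h2 := hZC _ (hTcen t t.2) x
      rw [← he']
      calc x * (((k : N) : G) * ((t : N) : G)) = (x * ((k : N) : G)) * ((t : N) : G) := by group
        _ = (((k : N) : G) * x) * ((t : N) : G) := by rw [h1]
        _ = ((k : N) : G) * (x * ((t : N) : G)) := by group
        _ = ((k : N) : G) * (((t : N) : G) * x) := by rw [h2]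
        _ = ((k : N) : G) * ((t : N) : G) * x := by group
    apply hxZ
    rw [Subgroup.mem_center_iff]
    intro g
    obtain ⟨⟨nb, hb'⟩, he⟩ := hcompl.2 (mk g)
    obtain ⟨h, hh, hhe⟩ := hb'.2
    obtain ⟨n, hn⟩ := hmksurj nb.1
    have hnN : n ∈ N := by
      show mk n ∈ Nb
      rw [hn]
      exact nb.2
    have hz : (n * h)⁻¹ * g ∈ Z := by
      rw [← hmkker, map_mul, map_inv, map_mul, hn, hhe]
      have he' : (nb : G ⧸ Z) * (hb' : G ⧸ Z) = mk g := he
      rw [← he', inv_mul_cancel]
    have e : g = n * h * ((n * h)⁻¹ * g) := by group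
    have h1 := hxN n hnN
    have h2 := (hCmem h).1 hh
    have h3 := hZC _ hz x
    rw [e]
    calc n * h * ((n * h)⁻¹ * g) * x = n * h * (x * ((n * h)⁻¹ * g)) := by rw [mul_assoc, h3]
      _ = n * (h * x) * ((n * h)⁻¹ * g) := by group
      _ = n * (x * h) * ((n * h)⁻¹ * g) := by rw [h2]
      _ = (n * x) * h * ((n * h)⁻¹ * g) := by group
      _ = (x * n) * h * ((n * h)⁻¹ * g) := by rw [h1]
      _ = x * (n * h * ((n * h)⁻¹ * g)) := by group

theorem result {G : Type*} [Group G] [Finite G] {p : ℕ} [Fact p.Prime]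
    (S : Sylow p G) (x : G) (hx : x ∈ S)
    (hU : ∀ g : G, g⁻¹ * x * g ∈ S → g⁻¹ * x * g = x)
    (hb : ∀ H : Subgroup G, (Nat.card H).Coprime p → (∀ h ∈ H, x * h * x⁻¹ ∈ H) → ∀ h ∈ H, x * h = h * x) :
    x ∈ Subgroup.center G := by
  have hpx : ∃ k : ℕ, x ^ (p ^ k) = 1 := by
    obtain ⟨k, hk⟩ := S.isPGroup' ⟨x, hx⟩
    exact ⟨k, congrArg Subtype.val hk⟩
  refine core p _ G x le_rfl hpx ?_ hb
  intro g hcomm
  set y := g⁻¹ * x * g with hy
  -- `⟨x, y⟩` is a `p`-group
  have hpg : ∀ w : G, (∃ k : ℕ, w ^ (p ^ k) = 1) → IsPGroup p (Subgroup.zpowers w) := by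
    rintro w ⟨k, hk⟩
    apply IsPGroup.of_card (n := (Nat.log p (orderOf w)))
    rw [Nat.card_zpowers]
    obtain ⟨j, -, hj⟩ := (Nat.dvd_prime_pow (Fact.out : p.Prime)).1 (orderOf_dvd_of_pow_eq_one hk)
    rw [hj, Nat.log_pow (Fact.out : p.Prime).one_lt]
  have hpy : ∃ k : ℕ, y ^ (p ^ k) = 1 := by
    obtain ⟨k, hk⟩ := hpx
    refine ⟨k, ?_⟩
    have e : y = g⁻¹ * x * (g⁻¹)⁻¹ := by rw [hy, inv_inv]
    rw [e, conj_pow, hk, mul_one, mul_inv_cancel]
  have hcent : y ∈ Subgroup.normalizer ((Subgroup.zpowers x : Subgroup G) : Set G) := by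
    apply Subgroup.centralizer_le_normalizer
    rw [Subgroup.mem_centralizer_iff]
    rintro h ⟨m, rfl⟩
    exact (Commute.zpow_left hcomm m)
  have hsup := IsPGroup.to_sup_of_normal_left' (hpg x hpx) (hpg y hpy)
    (Subgroup.zpowers_le.2 hcent)
  obtain ⟨T, hT⟩ := hsup.exists_le_sylow
  obtain ⟨h, rfl⟩ := MulAction.exists_smul_eq G S T
  have hconj : ∀ w ∈ Subgroup.zpowers x ⊔ Subgroup.zpowers y, h⁻¹ * w * h ∈ S := by
    intro w hw
    have h1 := hT hw
    have h2 : w ∈ MulAut.conj h • (S : Subgroup G) := by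
      rw [← Sylow.coe_subgroup_smul]
      exact h1
    rw [Subgroup.mem_pointwise_smul_iff_inv_smul_mem, MulAut.smul_def, MulAut.conj_inv_apply] at h2
    exact h2
  have hxx := hU h (hconj x (Subgroup.mem_sup_left (Subgroup.mem_zpowers x)))
  have hyy := hconj y (Subgroup.mem_sup_right (Subgroup.mem_zpowers y))
  have e : h⁻¹ * y * h = (g * h)⁻¹ * x * (g * h) := by
    rw [hy]
    group
  rw [e] at hyy
  have hyy' := hU (g * h) hyy
  rw [← e] at hyy'
  have : h⁻¹ * y * h = h⁻¹ * x * h := hyy'.trans hxx.symm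
  have h3 := mul_right_cancel this
  exact mul_left_cancel h3

end Cfsg.Agent.S3064
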