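import Mathlib
import Cfsg.Agent.S1991
import Cfsg.Agent.Lib.KInfStable
import Cfsg.Statements.S3069

set_option autoImplicit false
open Cfsg

namespace Cfsg.Agent.S3069

/-- Let p ≥ 7 be a prime and S a nontrivial Sylow p-subgroup of the finite group G. If N_G(S)/C_G(S) is a p-group (every element of N_G(S) of order prime to p centralizes S), then O^p(G) < G, i.e. G has a nontrivial p-factor group. -/
theorem result {G : Type*} [Group G] [Finite G] {p : ℕ} [Fact p.Prime]
    (hp : 7 ≤ p) (S : Sylow p G) (hS : (S : Subgroup G) ≠ ⊥)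
    (hN : ∀ g ∈ Subgroup.normalizer ((S : Subgroup G) : Set G), (orderOf g).Coprime p →
      g ∈ Subgroup.centralizer ((S : Subgroup G) : Set G)) :
    Cfsg.pResidual p G ≠ ⊤ := by
  classical
  obtain ⟨N, hN, hi⟩ := Cfsg.Agent.S1991.result (G := G) (p := p) (by omega) S hS hN
  intro htop
  have hp' : p.Prime := Fact.out
  have hle : Cfsg.pResidual p G ≤ N := by
    refine (Subgroup.closure_le _).mpr ?_
    intro g hg
    haveI := hN
    have hg' : (orderOf g).Coprime p := hg
    have h1 : (QuotientGroup.mk g : G ⧸ N) ^ Nat.card (G ⧸ N) = 1 := pow_card_eq_one'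
    have h2 : Nat.card (G ⧸ N) = p := hi
    rw [h2] at h1
    have h3 : (QuotientGroup.mk (g ^ p) : G ⧸ N) = 1 := by rw [QuotientGroup.mk_pow]; exact h1
    have h4 : g ^ p ∈ N := (QuotientGroup.eq_one_iff _).mp h3
    have := Cfsg.Agent.Lib.KInfStable.mem_of_pow_mem_of_coprime (p := p) hg' (H := N) (n := 1) (by simpa using h4)
    exact this
  rw [htop] at hle
  have h5 : N = ⊤ := top_le_iff.mp hle
  rw [h5, Subgroup.index_top] at hi
  exact hp'.one_lt.ne hi


end Cfsg.Agent.S3069
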