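-- Statement S3074
import Mathlib
import Cfsg.Agent.Lib.QdFacts
import Cfsg.Agent.Lib.Frat
import Cfsg.Agent.Lib.ClassicalSmall
import Cfsg.Statements.S3074

set_option autoImplicit false
open Cfsg
open scoped commutatorElement

set_option linter.style.haveILetI false
set_option linter.deprecated false

namespace Cfsg.Agent.S3074

open Matrix

section General

variable {X : Type*} [Group X] [Finite X] {p : ℕ} [hp : Fact p.Prime]

/-- A nonabelian group of order `p³` and exponent `p` is extraspecial. -/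
theorem extraspecial_of_card (hcard : Nat.card X = p ^ 3) (hexp : ∀ x : X, x ^ p = 1)
    (hna : ∃ x y : X, x * y ≠ y * x) : Cfsg.IsExtraspecial p X := by
  classical
  have hpr : p.Prime := hp.out
  have hX : IsPGroup p X := IsPGroup.of_card hcard
  have hcentercomm : Subgroup.center X ≠ ⊤ := by
    intro h
    obtain ⟨x, y, hxy⟩ := hna
    have : x ∈ Subgroup.center X := by rw [h]; trivial
    exact hxy ((Subgroup.mem_center_iff.mp this y).symm)
  haveI : Nontrivial X := by
    obtain ⟨x, y, hxy⟩ := hna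
    refine ⟨⟨x, 1, fun h => hxy ?_⟩⟩
    rw [h]; simp
  haveI : Nontrivial (Subgroup.center X) := hX.center_nontrivial
  obtain ⟨k, hkle, hk⟩ := (Nat.dvd_prime_pow hpr).mp
    (show Nat.card (Subgroup.center X) ∣ p ^ 3 from hcard ▸ Subgroup.card_subgroup_dvd_card _)
  have hk0 : k ≠ 0 := by
    rintro rfl
    rw [pow_zero] at hk
    have := Finite.one_lt_card (α := Subgroup.center X)
    omega
  have hk3 : k ≠ 3 := by
    rintro rfl
    apply hcentercomm
    apply Subgroup.eq_top_of_card_eq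
    rw [hk, hcard]
  have hquot : Nat.card (X ⧸ Subgroup.center X) = p ^ (3 - k) := by
    have h1 := Subgroup.card_eq_card_quotient_mul_card_subgroup (Subgroup.center X)
    rw [hcard, hk] at h1
    have h2 : p ^ 3 = p ^ (3 - k) * p ^ k := by rw [← pow_add]; congr 1; omega
    rw [h2] at h1
    exact (Nat.eq_of_mul_eq_mul_right (pow_pos hpr.pos k) h1).symm
  have hk2 : k ≠ 2 := by
    rintro rfl
    have hc : IsCyclic (X ⧸ Subgroup.center X) := by
      rw [show 3 - 2 = 1 from rfl, pow_one] at hquot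
      haveI : Fact p.Prime := hp
      exact isCyclic_of_prime_card hquot
    apply hcentercomm
    have hcomm := commutative_of_cyclic_center_quotient (QuotientGroup.mk' (Subgroup.center X))
      (by rw [QuotientGroup.ker_mk'])
    rw [eq_top_iff]
    intro x _
    rw [Subgroup.mem_center_iff]
    exact fun g => hcomm g x
  have hk1 : k = 1 := by omega
  subst hk1
  have hZcard : Nat.card (Subgroup.center X) = p := by rw [hk, pow_one]
  have hcommle : commutator X ≤ Subgroup.center X := by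
    have h1 : Nat.card (X ⧸ Subgroup.center X) = p ^ 2 := hquot
    have hcomm := IsPGroup.commutative_of_card_eq_prime_sq h1
    rw [commutator_def, Subgroup.commutator_le]
    intro a _ b _
    have h2 : (QuotientGroup.mk ⁅a, b⁆ : X ⧸ Subgroup.center X) = 1 := by
      have : (QuotientGroup.mk ⁅a, b⁆ : X ⧸ Subgroup.center X) =
          ⁅(QuotientGroup.mk a : X ⧸ Subgroup.center X), QuotientGroup.mk b⁆ := by
        simp [commutatorElement_def]
      rw [this, commutatorElement_eq_one_iff_mul_comm]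
      exact hcomm _ _
    exact (QuotientGroup.eq_one_iff _).mp h2
  have hcommne : commutator X ≠ ⊥ := by
    intro h
    obtain ⟨x, y, hxy⟩ := hna
    have h1 : ⁅x, y⁆ ∈ commutator X := by
      rw [commutator_def]
      exact Subgroup.commutator_mem_commutator (Subgroup.mem_top x) (Subgroup.mem_top y)
    rw [h, Subgroup.mem_bot, commutatorElement_eq_one_iff_mul_comm] at h1
    exact hxy h1
  have hcommeq : commutator X = Subgroup.center X := by
    apply Subgroup.eq_of_le_of_card_ge hcommle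
    rw [hZcard]
    have h1 : Nat.card (commutator X) ∣ p := by
      rw [← hZcard]; exact Subgroup.card_dvd_of_le hcommle
    rcases (Nat.dvd_prime hpr).mp h1 with h2 | h2
    · exfalso
      apply hcommne
      exact Subgroup.card_eq_one.mp h2
    · exact h2.ge
  refine ⟨⟨hX, ?_, hcommeq⟩, hZcard⟩
  rw [← hcommeq]
  apply le_antisymm
  · apply Cfsg.Agent.Lib.Frat.frattini_le_of_commutator_pow (p := p) _ le_rfl
    intro x
    rw [hexp x]
    exact Subgroup.one_mem _
  · exact Cfsg.Agent.Lib.Frat.commutator_le_frattini hX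

end General

section Matrices

variable {p : ℕ} [hp : Fact p.Prime]

abbrev Q (p : ℕ) := ↥(Cfsg.qd p)

/-- Upper unitriangular matrix. -/
def heis (a b c : ZMod p) : Matrix (Fin 3) (Fin 3) (ZMod p) := !![1, a, c; 0, 1, b; 0, 0, 1]

theorem heis_det (a b c : ZMod p) : (heis a b c).det = 1 := by
  simp [heis, Matrix.det_fin_three]

theorem heis_mul (a b c a' b' c' : ZMod p) :
    heis a b c * heis a' b' c' = heis (a + a') (b + b') (c' + a * b' + c) := by
  ext i j
  fin_cases i <;> fin_cases j <;> simp [heis, Matrix.mul_apply, Fin.sum_univ_three] <;> ring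

def mkH (a b c : ZMod p) : Q p :=
  ⟨⟨heis a b c, heis_det a b c⟩, Subgroup.subset_closure ⟨by simp [heis], by simp [heis], by simp [heis]⟩⟩

theorem mkH_mul (a b c a' b' c' : ZMod p) :
    mkH a b c * mkH a' b' c' = mkH (a + a') (b + b') (c' + a * b' + c) := by
  apply Subtype.ext
  apply Subtype.ext
  exact heis_mul a b c a' b' c'

theorem mkH_zero : mkH (0 : ZMod p) 0 0 = 1 := by
  apply Subtype.ext
  apply Subtype.ext
  ext i j
  fin_cases i <;> fin_cases j <;> simp [mkH, heis]

theorem mkH_inj {a b c a' b' c' : ZMod p} (h : mkH a b c = mkH a' b' c') : a = a' ∧ b = b' ∧ c = c' := by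
  have h1 : heis a b c = heis a' b' c' := congrArg (fun x : Q p => ((x : Matrix.SpecialLinearGroup (Fin 3) (ZMod p)) : Matrix (Fin 3) (Fin 3) (ZMod p))) h
  have e1 := congrFun (congrFun h1 0) 1
  have e2 := congrFun (congrFun h1 1) 2
  have e3 := congrFun (congrFun h1 0) 2
  simp [heis] at e1 e2 e3
  exact ⟨e1, e2, e3⟩

/-- The unitriangular subgroup. -/
def U (p : ℕ) [Fact p.Prime] : Subgroup (Q p) where
  carrier := Set.range (fun t : ZMod p × ZMod p × ZMod p => mkH t.1 t.2.1 t.2.2)
  one_mem' := ⟨(0, 0, 0), mkH_zero⟩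
  mul_mem' := by
    rintro _ _ ⟨⟨a, b, c⟩, rfl⟩ ⟨⟨a', b', c'⟩, rfl⟩
    exact ⟨(_, _, _), (mkH_mul a b c a' b' c').symm⟩
  inv_mem' := by
    rintro _ ⟨⟨a, b, c⟩, rfl⟩
    refine ⟨(-a, -b, a * b - c), ?_⟩
    symm
    apply inv_eq_of_mul_eq_one_right
    show mkH a b c * mkH (-a) (-b) (a * b - c) = 1
    rw [mkH_mul, ← mkH_zero]
    congr 1
    · ring
    · ring
    · ring

theorem card_U : Nat.card (U p) = p ^ 3 := by
  have h : Function.Injective (fun t : ZMod p × ZMod p × ZMod p => mkH t.1 t.2.1 t.2.2) := by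
    rintro ⟨a, b, c⟩ ⟨a', b', c'⟩ h
    obtain ⟨h1, h2, h3⟩ := mkH_inj h
    exact Prod.ext h1 (Prod.ext h2 h3)
  have h2 := Nat.card_range_of_injective h
  have h3 : Nat.card (U p) = Nat.card (Set.range (fun t : ZMod p × ZMod p × ZMod p => mkH t.1 t.2.1 t.2.2)) := rfl
  rw [h3, h2, Nat.card_prod, Nat.card_prod, Nat.card_zmod]
  ring

theorem heis_pow (a b c : ZMod p) (n : ℕ) :
    mkH a b c ^ n = mkH ((n : ZMod p) * a) ((n : ZMod p) * b)
      ((n : ZMod p) * c + ((n.choose 2 : ℕ) : ZMod p) * (a * b)) := by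
  induction n with
  | zero =>
    simp [mkH_zero]
  | succ n ih =>
    rw [pow_succ, ih, mkH_mul]
    congr 1
    · push_cast; ring
    · push_cast; ring
    · have : (n + 1).choose 2 = n.choose 1 + n.choose 2 := Nat.choose_succ_succ n 1
      rw [this]
      simp only [Nat.choose_one_right]
      push_cast
      ring

theorem U_pow (hp2 : p ≠ 2) (x : U p) : x ^ p = 1 := by
  obtain ⟨x, ⟨a, b, c⟩, rfl⟩ := x
  apply Subtype.ext
  show mkH a b c ^ p = 1
  rw [heis_pow, ← mkH_zero]
  have hpr : p.Prime := hp.out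
  have h2 : 2 < p := lt_of_le_of_ne hpr.two_le (Ne.symm hp2)
  have hch : ((p.choose 2 : ℕ) : ZMod p) = 0 := by
    rw [ZMod.natCast_eq_zero_iff]
    exact hpr.dvd_choose_self (by norm_num) h2
  rw [hch, ZMod.natCast_self]
  congr 1
  · ring
  · ring
  · ring

theorem U_noncomm : ∃ x y : U p, x * y ≠ y * x := by
  refine ⟨⟨mkH 1 0 0, ⟨(1, 0, 0), rfl⟩⟩, ⟨mkH 0 1 0, ⟨(0, 1, 0), rfl⟩⟩, ?_⟩
  intro h
  have h1 : mkH (1 : ZMod p) 0 0 * mkH 0 1 0 = mkH 0 1 0 * mkH 1 0 0 := congrArg Subtype.val h
  rw [mkH_mul, mkH_mul] at h1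
  obtain ⟨-, -, h3⟩ := mkH_inj h1
  simp at h3

/-- The block decomposition of `Q`. -/
theorem card_Q : Nat.card (Q p) = Nat.card (Matrix.SpecialLinearGroup (Fin 2) (ZMod p)) * p ^ 2 := by
  classical
  let toFun : Q p → Matrix.SpecialLinearGroup (Fin 2) (ZMod p) × ZMod p × ZMod p := fun M =>
    (⟨!![((M : Matrix.SpecialLinearGroup (Fin 3) (ZMod p)) : Matrix (Fin 3) (Fin 3) (ZMod p)) 0 0,
          ((M : Matrix.SpecialLinearGroup (Fin 3) (ZMod p)) : Matrix (Fin 3) (Fin 3) (ZMod p)) 0 1;
          ((M : Matrix.SpecialLinearGroup (Fin 3) (ZMod p)) : Matrix (Fin 3) (Fin 3) (ZMod p)) 1 0,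
          ((M : Matrix.SpecialLinearGroup (Fin 3) (ZMod p)) : Matrix (Fin 3) (Fin 3) (ZMod p)) 1 1], by
        have hd := (M : Matrix.SpecialLinearGroup (Fin 3) (ZMod p)).2
        obtain ⟨h0, h1, h2⟩ := Cfsg.Agent.Lib.QdFacts.lastRow (M : Matrix.SpecialLinearGroup (Fin 3) (ZMod p)) M.2
        rw [Matrix.det_fin_three] at hd
        rw [Matrix.det_fin_two]
        simp only [Matrix.of_apply, Matrix.cons_val', Matrix.cons_val_zero, Matrix.cons_val_one,
          Matrix.cons_val_fin_one]
        rw [h0, h1, h2] at hd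
        linear_combination hd⟩,
      ((M : Matrix.SpecialLinearGroup (Fin 3) (ZMod p)) : Matrix (Fin 3) (Fin 3) (ZMod p)) 0 2,
      ((M : Matrix.SpecialLinearGroup (Fin 3) (ZMod p)) : Matrix (Fin 3) (Fin 3) (ZMod p)) 1 2)
  let invFun : Matrix.SpecialLinearGroup (Fin 2) (ZMod p) × ZMod p × ZMod p → Q p := fun t =>
    ⟨⟨!![(t.1 : Matrix (Fin 2) (Fin 2) (ZMod p)) 0 0, (t.1 : Matrix (Fin 2) (Fin 2) (ZMod p)) 0 1, t.2.1;
         (t.1 : Matrix (Fin 2) (Fin 2) (ZMod p)) 1 0, (t.1 : Matrix (Fin 2) (Fin 2) (ZMod p)) 1 1, t.2.2;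
         0, 0, 1], by
        have hd := t.1.2
        rw [Matrix.det_fin_two] at hd
        rw [Matrix.det_fin_three]
        simp
        linear_combination hd⟩,
      Subgroup.subset_closure ⟨by simp, by simp, by simp⟩⟩
  let e : Q p ≃ Matrix.SpecialLinearGroup (Fin 2) (ZMod p) × ZMod p × ZMod p :=
    { toFun := toFun
      invFun := invFun
      left_inv := by
        intro M
        obtain ⟨h0, h1, h2⟩ := Cfsg.Agent.Lib.QdFacts.lastRow (M : Matrix.SpecialLinearGroup (Fin 3) (ZMod p)) M.2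
        apply Subtype.ext
        apply Subtype.ext
        ext i j
        fin_cases i <;> fin_cases j <;> simp [toFun, invFun, h0, h1, h2]
      right_inv := by
        rintro ⟨A, a, b⟩
        simp only [toFun, invFun]
        refine Prod.ext ?_ (Prod.ext ?_ ?_)
        · apply Subtype.ext
          ext i j
          fin_cases i <;> fin_cases j <;> simp
        · simp
        · simp }
  rw [Nat.card_congr e, Nat.card_prod, Nat.card_prod, Nat.card_zmod]
  ring

theorem not_dvd_index_U (hp2 : p ≠ 2) : ¬ p ∣ (U p).index := by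
  have hpr : p.Prime := hp.out
  haveI : NeZero p := ⟨hpr.ne_zero⟩
  have h1 := (U p).index_mul_card
  have h2 := card_Q (p := p)
  have h3 := Cfsg.Agent.Lib.ClassicalSmall.card_SL2 (F := ZMod p)
  rw [ZMod.card] at h3
  rw [card_U, h2, h3] at h1
  have hp3 : 0 < p ^ 3 := pow_pos hpr.pos 3
  have h4 : (U p).index = (p + 1) * (p - 1) := by
    apply Nat.eq_of_mul_eq_mul_right hp3
    rw [h1]; ring
  rw [h4]
  intro hd
  rcases (Nat.Prime.dvd_mul hpr).mp hd with h5 | h5
  · have := (Nat.dvd_add_right (dvd_refl p)).mp h5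
    exact hpr.one_lt.ne' (Nat.dvd_one.mp this)
  · have h6 : p - 1 < p := Nat.sub_lt hpr.pos (by norm_num)
    have h7 : 0 < p - 1 := by have := hpr.two_le; omega
    exact absurd (Nat.le_of_dvd h7 h5) (by omega)

end Matrices

/-- Let p be an odd prime. A Sylow p-subgroup of Qd(p), the split extension of an elementary abelian group of order p² by SL₂(p) acting naturally, is extraspecial of order p³ and exponent p. -/
theorem result (p : ℕ) [Fact p.Prime] (hp : p ≠ 2) (P : Sylow p ↥(Cfsg.qd p)) :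
    Cfsg.IsExtraspecial p ↥P ∧ Nat.card P = p ^ 3 ∧ Monoid.exponent ↥P = p := by
  have hpr : p.Prime := (inferInstance : Fact p.Prime).out
  have hUp : IsPGroup p (U p) := IsPGroup.of_card card_U
  let S : Sylow p (Q p) := hUp.toSylow (not_dvd_index_U hp)
  let φ : ↥(P : Subgroup (Q p)) ≃* ↥(S : Subgroup (Q p)) := Sylow.equiv P S
  have hS : (S : Subgroup (Q p)) = U p := rfl
  have hcard : Nat.card ↥P = p ^ 3 := by
    have h1 : Nat.card ↥P = Nat.card ↥(S : Subgroup (Q p)) := Nat.card_congr φ.toEquiv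
    rw [h1]
    exact card_U
  have hexp : ∀ x : ↥P, x ^ p = 1 := by
    intro x
    apply φ.injective
    rw [map_pow, map_one]
    exact U_pow hp (φ x)
  have hna : ∃ x y : ↥P, x * y ≠ y * x := by
    obtain ⟨x, y, hxy⟩ : ∃ x y : ↥(S : Subgroup (Q p)), x * y ≠ y * x := U_noncomm (p := p)
    refine ⟨φ.symm x, φ.symm y, fun h => hxy ?_⟩
    have := congrArg φ h
    simpa using this
  refine ⟨extraspecial_of_card hcard hexp hna, hcard, ?_⟩
  have hd : Monoid.exponent ↥P ∣ p := Monoid.exponent_dvd_of_forall_pow_eq_one hexp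
  rcases (Nat.dvd_prime hpr).mp hd with h1 | h1
  · exfalso
    have h2 := Monoid.exp_eq_one_iff.mp h1
    have h3 : Nat.card ↥P = 1 := Nat.card_of_subsingleton (1 : ↥P)
    rw [hcard] at h3
    have := Nat.one_lt_pow (n := 3) (by norm_num) hpr.one_lt
    omega
  · exact h1

end Cfsg.Agent.S3074
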