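-- Statement S3075
import Mathlib
import Cfsg.Statements.S3075

set_option autoImplicit false
open Cfsg

namespace Cfsg.Agent.S3075

/-- A group element of finite `p`-power-one type acting on a small subgroup of an abelian group
centralizes that subgroup. -/
theorem centralize_small {N : Type*} [Group N] [Finite N] {p : ℕ} [Fact p.Prime]
    (A : Subgroup N) (hcm : ∀ a ∈ A, ∀ b ∈ A, a * b = b * a) (hpow : ∀ a ∈ A, a ^ p = 1)
    (hcard : Nat.card A = p ^ 2)
    (H : Subgroup N) (hHA : H ≤ A) (hne : H ≠ A) (n : N) (hn : n ^ p ∈ A)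
    (hinv : ∀ x ∈ H, n * x * n⁻¹ ∈ H) : ∀ x ∈ H, n * x * n⁻¹ = x := by
  classical
  have hp : p.Prime := Fact.out
  intro x hx
  by_cases hx1 : x = 1
  · simp [hx1]
  have hord : orderOf x = p := orderOf_eq_prime (hpow x (hHA hx)) hx1
  -- `H = ⟨x⟩`
  have hzle : Subgroup.zpowers x ≤ H := by
    rwa [Subgroup.zpowers_le]
  have hHdvd : Nat.card H ∣ p ^ 2 := by
    rw [← hcard]; exact Subgroup.card_dvd_of_le hHA
  have hHlt : Nat.card H < p ^ 2 := by
    rw [← hcard]
    exact lt_of_le_of_ne (Subgroup.card_le_of_le hHA) (fun h => hne (Subgroup.eq_of_le_of_card_ge hHA h.ge))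
  have hHcard : Nat.card H ≤ p := by
    obtain ⟨k, hk, hk2⟩ := (Nat.dvd_prime_pow hp).1 hHdvd
    rw [hk2] at hHlt ⊢
    have : k < 2 := (Nat.pow_lt_pow_iff_right hp.one_lt).1 hHlt
    interval_cases k <;> simp [hp.one_lt.le]
  have hzcard : Nat.card (Subgroup.zpowers x) = p := by
    rw [Nat.card_zpowers, hord]
  have hHz : H = Subgroup.zpowers x := by
    symm
    apply Subgroup.eq_of_le_of_card_ge hzle
    rw [hzcard]; exact hHcard
  have hy := hinv x hx
  rw [hHz] at hy
  obtain ⟨k, hk⟩ := (mem_powers_iff_mem_zpowers).2 hy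
  have hk' : n * x * n⁻¹ = x ^ k := hk.symm
  -- iterate
  have hiter : ∀ m : ℕ, n ^ m * x * (n ^ m)⁻¹ = x ^ (k ^ m) := by
    intro m
    induction m with
    | zero => simp
    | succ m ih =>
      have h1 : n ^ (m + 1) * x * (n ^ (m + 1))⁻¹ = n * (n ^ m * x * (n ^ m)⁻¹) * n⁻¹ := by
        rw [pow_succ']; group
      rw [h1, ih]
      have h2 : n * x ^ (k ^ m) * n⁻¹ = (n * x * n⁻¹) ^ (k ^ m) := by
        rw [conj_pow]
      rw [h2, hk', ← pow_mul, pow_succ']
  have hfix : x ^ (k ^ p) = x := by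
    rw [← hiter p]
    have := hcm (n ^ p) hn x (hHA hx)
    rw [this]; group
  have hmod : k ^ p ≡ 1 [MOD p] := by
    have : x ^ (k ^ p) = x ^ 1 := by rw [hfix, pow_one]
    have h3 := (pow_eq_pow_iff_modEq).1 this
    rwa [hord] at h3
  have hfermat : k ^ p ≡ k [MOD p] := by
    have : ((k ^ p : ℕ) : ZMod p) = (k : ZMod p) := by
      push_cast
      exact ZMod.pow_card _
    exact (ZMod.natCast_eq_natCast_iff _ _ _).1 this
  have hk1 : k ≡ 1 [MOD p] := hfermat.symm.trans hmod
  rw [hk']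
  have : x ^ k = x ^ 1 := by
    apply (pow_eq_pow_iff_modEq).2
    rwa [hord]
  rw [this, pow_one]

/-- Let p be an odd prime and N a finite group with a normal elementary abelian subgroup A of order p² that is its own centralizer in N, such that N/A is isomorphic to SL₂(p) (over any field F with p elements). Then N splits over A: some subgroup U of N satisfies A ∩ U = 1 and AU = N. -/
theorem result {N : Type*} [Group N] [Finite N] {p : ℕ} [Fact p.Prime] (hp : p ≠ 2)
    (A : Subgroup N) [A.Normal] (hAcomm : IsMulCommutative A) (hAcard : Nat.card A = p ^ 2) (hAexp : Monoid.exponent ↥A = p)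
    (hAself : Subgroup.centralizer (A : Set N) = A)
    {F : Type*} [Field F] [Fintype F] (hF : Fintype.card F = p) (e : N ⧸ A ≃* Matrix.SpecialLinearGroup (Fin 2) F) :
    ∃ U : Subgroup N, A ⊓ U = ⊥ ∧ A ⊔ U = ⊤ := by
  classical
  have hpp : p.Prime := Fact.out
  have hodd : Odd p := hpp.odd_of_ne_two hp
  obtain ⟨k, hk⟩ := hodd
  have hcm : ∀ a ∈ A, ∀ b ∈ A, a * b = b * a := by
    intro a ha b hb
    have := hAcomm.is_comm.comm ⟨a, ha⟩ ⟨b, hb⟩
    exact congrArg Subtype.val this
  have hpow : ∀ a ∈ A, a ^ p = 1 := by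
    intro a ha
    have := Monoid.pow_exponent_eq_one (⟨a, ha⟩ : A)
    rw [hAexp] at this
    exact congrArg Subtype.val this
  have hsq1 : ∀ a ∈ A, a ^ 2 = 1 → a = 1 := by
    intro a ha h2
    have h1 : a ^ p = 1 := hpow a ha
    have h3 : a ^ (2 * k + 1) = 1 := by rw [← hk]; exact h1
    have h4 : a ^ (2 * k) = 1 := by rw [pow_mul, h2, one_pow]
    rw [pow_succ, h4, one_mul] at h3
    exact h3
  -- the two matrices
  have hF2 : (2 : F) ≠ 0 := by
    intro h2
    have h20 : ((2 : ℕ) : F) = 0 := by exact_mod_cast h2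
    haveI : CharP F (ringChar F) := ringChar.charP F
    have hdvd := (CharP.cast_eq_zero_iff F (ringChar F) 2).1 h20
    have hcard : ringChar F ∣ Fintype.card F := by
      apply (CharP.cast_eq_zero_iff F (ringChar F) _).1
      exact FiniteField.cast_card_eq_zero F
    rw [hF] at hcard
    have hr1 : ringChar F ≠ 1 := CharP.ringChar_ne_one
    have hr2 : ringChar F = p := by
      rcases (Nat.dvd_prime hpp).1 hcard with h | h
      · exact absurd h hr1
      · exact h
    rw [hr2] at hdvd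
    rcases (Nat.dvd_prime Nat.prime_two).1 hdvd with h | h
    · exact hpp.one_lt.ne' h
    · exact hp h
  let m1 : Matrix.SpecialLinearGroup (Fin 2) F :=
    ⟨!![-1, 0; 0, -1], by simp [Matrix.det_fin_two]⟩
  have hm1sq : m1 ^ 2 = 1 := by
    rw [pow_two]
    apply Subtype.ext
    rw [Matrix.SpecialLinearGroup.coe_mul]
    ext i j
    fin_cases i <;> fin_cases j <;> simp [m1, Matrix.mul_apply, Fin.sum_univ_two]
  have hm1ne : m1 ≠ 1 := by
    intro h
    have h2 := congrArg (fun M : Matrix.SpecialLinearGroup (Fin 2) F => (M : Matrix (Fin 2) (Fin 2) F) 0 0) h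
    simp only [m1] at h2
    simp at h2
    apply hF2
    have : (-1 : F) + 1 = 1 + 1 := by rw [h2]
    simp only [neg_add_cancel] at this
    rw [show (2 : F) = 1 + 1 by norm_num]
    exact this.symm
  have hm1central : ∀ g : Matrix.SpecialLinearGroup (Fin 2) F, g * m1 = m1 * g := by
    intro g
    apply Subtype.ext
    rw [Matrix.SpecialLinearGroup.coe_mul, Matrix.SpecialLinearGroup.coe_mul]
    ext i j
    fin_cases i <;> fin_cases j <;> simp [m1, Matrix.mul_apply, Fin.sum_univ_two]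
  let s : Matrix.SpecialLinearGroup (Fin 2) F :=
    ⟨!![1, 1; 0, 1], by simp [Matrix.det_fin_two]⟩
  have hspow : ∀ m : ℕ, ((s ^ m : Matrix.SpecialLinearGroup (Fin 2) F) : Matrix (Fin 2) (Fin 2) F) =
      !![1, (m : F); 0, 1] := by
    intro m
    induction m with
    | zero =>
      ext i j
      fin_cases i <;> fin_cases j <;> simp
    | succ m ih =>
      rw [pow_succ, Matrix.SpecialLinearGroup.coe_mul, ih]
      ext i j
      fin_cases i <;> fin_cases j <;> simp [s, Matrix.mul_apply, Fin.sum_univ_two, add_comm]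
  have hsp : s ^ p = 1 := by
    apply Subtype.ext
    rw [hspow p]
    have hc : (p : F) = 0 := by
      rw [← hF]; exact FiniteField.cast_card_eq_zero F
    rw [hc]
    ext i j
    fin_cases i <;> fin_cases j <;> simp
  have hsne : s ≠ 1 := by
    intro h
    have h2 := congrArg (fun M : Matrix.SpecialLinearGroup (Fin 2) F => (M : Matrix (Fin 2) (Fin 2) F) 0 1) h
    simp [s] at h2
  -- lift `m1`
  obtain ⟨n₀, hn₀⟩ := QuotientGroup.mk_surjective (e.symm m1)
  have hemk : e (n₀ : N ⧸ A) = m1 := by rw [hn₀]; simp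
  have hn₀sq : n₀ ^ 2 ∈ A := by
    rw [← QuotientGroup.eq_one_iff]
    apply e.injective
    rw [QuotientGroup.mk_pow, map_pow, hemk, hm1sq, map_one]
  set t : N := n₀ ^ p with ht
  have het : e (t : N ⧸ A) = m1 := by
    rw [ht, QuotientGroup.mk_pow, map_pow, hemk, hk, pow_succ, pow_mul, hm1sq, one_pow, one_mul]
  have htsq : t * t = 1 := by
    have h1 : t * t = (n₀ ^ 2) ^ p := by
      rw [ht, ← pow_add, ← pow_mul, two_mul]
    rw [h1]; exact hpow _ hn₀sq
  have htinv : t⁻¹ = t := by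
    rw [inv_eq_iff_mul_eq_one]; exact htsq
  have htnotA : t ∉ A := by
    intro h
    have h2 : (t : N ⧸ A) = 1 := (QuotientGroup.eq_one_iff t).2 h
    rw [h2, map_one] at het
    exact hm1ne het.symm
  have hcentral : ∀ n : N, n * t * n⁻¹ * t⁻¹ ∈ A := by
    intro n
    rw [← QuotientGroup.eq_one_iff]
    apply e.injective
    simp only [QuotientGroup.mk_mul, QuotientGroup.mk_inv, map_mul, map_inv, het, map_one]
    rw [hm1central (e (n : N ⧸ A))]
    simp
  -- the conjugate of an element by `t * a`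
  have hconjmul : ∀ n : N, ∀ x ∈ A, t * (n * x * n⁻¹) * t⁻¹ = n * ((n⁻¹ * t * n) * x * (n⁻¹ * t * n)⁻¹) * n⁻¹ := by
    intro n x _
    group
  have hconjA : ∀ n : N, ∀ x ∈ A, (n⁻¹ * t * n) * x * (n⁻¹ * t * n)⁻¹ = t * x * t⁻¹ := by
    intro n x hx
    obtain ha : n⁻¹ * t * n⁻¹⁻¹ * t⁻¹ ∈ A := hcentral n⁻¹
    set a := n⁻¹ * t * n⁻¹⁻¹ * t⁻¹ with ha_def
    have hnt : n⁻¹ * t * n = a * t := by
      rw [ha_def]; group
    rw [hnt]
    have h1 : a * t * x * (a * t)⁻¹ = a * (t * x * t⁻¹) * a⁻¹ := by group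
    rw [h1, hcm a ha (t * x * t⁻¹) (Subgroup.Normal.conj_mem inferInstance x hx t)]
    group
  -- the `+` and `-` parts
  let Aplus : Subgroup N := A ⊓ Subgroup.centralizer {t}
  let Aminus : Subgroup N :=
    { carrier := {a | a ∈ A ∧ t * a * t⁻¹ = a⁻¹}
      mul_mem' := by
        rintro a b ⟨ha, ha'⟩ ⟨hb, hb'⟩
        refine ⟨A.mul_mem ha hb, ?_⟩
        have : t * (a * b) * t⁻¹ = (t * a * t⁻¹) * (t * b * t⁻¹) := by group
        rw [this, ha', hb', ← mul_inv_rev, hcm a ha b hb]
      one_mem' := ⟨A.one_mem, by simp⟩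
      inv_mem' := by
        rintro a ⟨ha, ha'⟩
        refine ⟨A.inv_mem ha, ?_⟩
        have : t * a⁻¹ * t⁻¹ = (t * a * t⁻¹)⁻¹ := by group
        rw [this, ha'] }
  have hmemPlus : ∀ x, x ∈ Aplus ↔ x ∈ A ∧ t * x * t⁻¹ = x := by
    intro x
    simp only [Aplus, Subgroup.mem_inf, Subgroup.mem_centralizer_singleton_iff]
    constructor
    · rintro ⟨h1, h2⟩
      refine ⟨h1, ?_⟩
      rw [← h2]; group
    · rintro ⟨h1, h2⟩
      refine ⟨h1, ?_⟩
      rw [← h2]
      simp [h2]
      nth_rw 1 [← h2]; group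
  have hmemMinus : ∀ x, x ∈ Aminus ↔ x ∈ A ∧ t * x * t⁻¹ = x⁻¹ := fun x => Iff.rfl
  -- `t` inverts `A`
  have hAminus : Aminus = A := by
    by_contra hne
    have hPlusne : Aplus ≠ A := by
      intro h
      apply htnotA
      rw [← hAself, Subgroup.mem_centralizer_iff]
      intro a ha
      have : a ∈ Aplus := by rw [h]; exact ha
      have h2 := ((hmemPlus a).1 this).2
      rw [← h2]
      simp [h2]
      nth_rw 1 [← h2]
      group
    -- take the preimage of `s`
    obtain ⟨n, hn⟩ := QuotientGroup.mk_surjective (e.symm s)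
    have hens : e (n : N ⧸ A) = s := by rw [hn]; simp
    have hnp : n ^ p ∈ A := by
      rw [← QuotientGroup.eq_one_iff]
      apply e.injective
      rw [QuotientGroup.mk_pow, map_pow, hens, hsp, map_one]
    have hplusinv : ∀ x ∈ Aplus, n * x * n⁻¹ ∈ Aplus := by
      intro x hx
      obtain ⟨hxA, hxf⟩ := (hmemPlus x).1 hx
      rw [hmemPlus]
      refine ⟨Subgroup.Normal.conj_mem inferInstance x hxA n, ?_⟩
      rw [hconjmul n x hxA, hconjA n x hxA, hxf]
    have hminusinv : ∀ x ∈ Aminus, n * x * n⁻¹ ∈ Aminus := by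
      intro x hx
      obtain ⟨hxA, hxf⟩ := (hmemMinus x).1 hx
      rw [hmemMinus]
      refine ⟨Subgroup.Normal.conj_mem inferInstance x hxA n, ?_⟩
      rw [hconjmul n x hxA, hconjA n x hxA, hxf]
      group
    have hplusle : Aplus ≤ A := inf_le_left
    have hminusle : Aminus ≤ A := fun x hx => hx.1
    have h1 := centralize_small A hcm hpow hAcard Aplus hplusle hPlusne n hnp hplusinv
    have h2 := centralize_small A hcm hpow hAcard Aminus hminusle hne n hnp hminusinv
    -- hence `n` centralizes `A`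
    have hnA : n ∈ A := by
      rw [← hAself, Subgroup.mem_centralizer_iff]
      intro a ha
      have hta : t * a * t⁻¹ ∈ A := Subgroup.Normal.conj_mem inferInstance a ha t
      have htta : t * (t * a * t⁻¹) * t⁻¹ = a := by
        have : t * (t * a * t⁻¹) * t⁻¹ = (t * t) * a * (t⁻¹ * t⁻¹) := by group
        rw [this, htsq, htinv, htsq]; simp
      have hc : a * (t * a * t⁻¹) ∈ Aplus := by
        rw [hmemPlus]
        refine ⟨A.mul_mem ha hta, ?_⟩
        have : t * (a * (t * a * t⁻¹)) * t⁻¹ = (t * a * t⁻¹) * (t * (t * a * t⁻¹) * t⁻¹) := by group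
        rw [this, htta, hcm _ hta _ ha]
      have hd : a * (t * a * t⁻¹)⁻¹ ∈ Aminus := by
        rw [hmemMinus]
        refine ⟨A.mul_mem ha (A.inv_mem hta), ?_⟩
        have : t * (a * (t * a * t⁻¹)⁻¹) * t⁻¹ = (t * a * t⁻¹) * (t * (t * a * t⁻¹) * t⁻¹)⁻¹ := by group
        rw [this, htta, mul_inv_rev, inv_inv, hcm _ hta _ (A.inv_mem ha)]
      have hsq : a ^ 2 = (a * (t * a * t⁻¹)) * (a * (t * a * t⁻¹)⁻¹) := by
        rw [pow_two]
        have : (a * (t * a * t⁻¹)) * (a * (t * a * t⁻¹)⁻¹) = a * ((t * a * t⁻¹) * a) * (t * a * t⁻¹)⁻¹ := by group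
        rw [this, hcm _ hta _ ha]
        group
      have hfix : n * a ^ 2 * n⁻¹ = a ^ 2 := by
        rw [hsq]
        have h3 := h1 _ hc
        have h4 := h2 _ hd
        have : n * ((a * (t * a * t⁻¹)) * (a * (t * a * t⁻¹)⁻¹)) * n⁻¹ =
            (n * (a * (t * a * t⁻¹)) * n⁻¹) * (n * (a * (t * a * t⁻¹)⁻¹) * n⁻¹) := by group
        rw [this, h3, h4]
      have hna : n * a * n⁻¹ ∈ A := Subgroup.Normal.conj_mem inferInstance a ha n
      have h5 : (n * a * n⁻¹) ^ 2 = a ^ 2 := by
        rw [conj_pow, hfix]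
      have h6 : ((n * a * n⁻¹) * a⁻¹) ^ 2 = 1 := by
        rw [pow_two]
        have : (n * a * n⁻¹) * a⁻¹ * ((n * a * n⁻¹) * a⁻¹) =
            (n * a * n⁻¹) * (a⁻¹ * (n * a * n⁻¹)) * a⁻¹ := by group
        rw [this, hcm _ (A.inv_mem ha) _ hna]
        have : n * a * n⁻¹ * (n * a * n⁻¹ * a⁻¹) * a⁻¹ = (n * a * n⁻¹) ^ 2 * (a ^ 2)⁻¹ := by
          rw [pow_two, pow_two]; group
        rw [this, h5]; simp
      have h7 := hsq1 _ (A.mul_mem hna (A.inv_mem ha)) h6
      have h8 : n * a * n⁻¹ = a := by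
        rwa [mul_inv_eq_one] at h7
      have h9 : a * n = n * a := by
        calc a * n = (n * a * n⁻¹) * n := by rw [h8]
          _ = n * a := by group
      exact h9
    have h10 : (n : N ⧸ A) = 1 := (QuotientGroup.eq_one_iff n).2 hnA
    rw [h10, map_one] at hens
    exact hsne hens.symm
  have hinvert : ∀ a ∈ A, t * a * t⁻¹ = a⁻¹ := by
    intro a ha
    rw [← hAminus] at ha
    exact ((hmemMinus a).1 ha).2
  -- the complement
  refine ⟨Subgroup.centralizer {t}, ?_, ?_⟩
  · rw [eq_bot_iff]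
    rintro a ⟨haA, hac⟩
    have hac : a ∈ Subgroup.centralizer ({t} : Set N) := hac
    rw [Subgroup.mem_centralizer_singleton_iff] at hac
    have h1 := hinvert a haA
    rw [← hac] at h1
    have h2 : a = a⁻¹ := by
      have : a * t * t⁻¹ = a := by group
      rw [this] at h1; exact h1
    have h3 : a ^ 2 = 1 := by
      rw [pow_two]; nth_rw 1 [h2]; simp
    rw [Subgroup.mem_bot]
    exact hsq1 a haA h3
  · rw [eq_top_iff]
    intro n _
    have ha := hcentral n
    set a := n * t * n⁻¹ * t⁻¹ with ha_def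
    set b := a ^ (k + 1) with hb_def
    have hbA : b ∈ A := A.pow_mem ha _
    have hb2 : b * b = a := by
      rw [hb_def, ← pow_add]
      have : k + 1 + (k + 1) = p + 1 := by omega
      rw [this, pow_succ, hpow a ha, one_mul]
    have htb : t * b * t⁻¹ = b⁻¹ := hinvert b hbA
    have hc : b⁻¹ * n ∈ Subgroup.centralizer ({t} : Set N) := by
      rw [Subgroup.mem_centralizer_singleton_iff]
      have h1 : n * t = a * t * n := by
        rw [ha_def]; group
      have h2 : t * b = b⁻¹ * t := by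
        calc t * b = (t * b * t⁻¹) * t := by group
          _ = b⁻¹ * t := by rw [htb]
      calc b⁻¹ * n * t = b⁻¹ * (n * t) := by group
        _ = b⁻¹ * (a * t * n) := by rw [h1]
        _ = b⁻¹ * ((b * b) * t * n) := by rw [hb2]
        _ = (b * t) * n := by group
        _ = (b * t * b) * (b⁻¹ * n) := by group
        _ = (b * (t * b)) * (b⁻¹ * n) := by group
        _ = (b * (b⁻¹ * t)) * (b⁻¹ * n) := by rw [h2]
        _ = t * (b⁻¹ * n) := by group
    have : n = b * (b⁻¹ * n) := by group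
    rw [this]
    exact Subgroup.mul_mem_sup hbA hc

end Cfsg.Agent.S3075
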