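-- Statement S3076
import Mathlib
import Cfsg.Agent.Lib.CentralSylow
import Cfsg.Statements.S3076

set_option autoImplicit false
open Cfsg

namespace Cfsg.Agent.S3076

open Cfsg.Agent.Lib.PCore Cfsg.Agent.Lib.PPrimeP Cfsg.Agent.Lib.CentralSylow

section Core

variable {X : Type*} [Group X] [Finite X] {p : ℕ} [Fact p.Prime]

theorem core (T : Sylow p X) (H : Subgroup X) [hHn : H.Normal] (hHT : H ≤ (T : Subgroup X))
    (C : Subgroup X) [hCn : C.Normal] (hCH : ∀ c ∈ C, ∀ h ∈ H, c * h = h * c)
    (hCmax : ∀ x, (∀ h ∈ H, x * h = h * x) → x ∈ C) :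
    (H ≤ (pCore p (X ⧸ C)).comap (QuotientGroup.mk' C) ∧
        ¬ p ∣ H.relIndex ((pCore p (X ⧸ C)).comap (QuotientGroup.mk' C))) ↔
      ((T : Subgroup X) ⊓ C ≤ H ∧ pPrimePCore p X = H ⊔ C) := by
  classical
  have hp : p.Prime := Fact.out
  have hHp : IsPGroup p H := T.isPGroup'.to_le hHT
  set O := pPrimeCore p X with hO
  set W := pPrimePCore p X with hW
  set L := (pCore p (X ⧸ C)).comap (QuotientGroup.mk' C) with hL
  have hLn : L.Normal := Subgroup.Normal.comap inferInstance _
  have hWn : W.Normal := instPPrimePCoreNormal p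
  have hHL : H ≤ L := by
    have h1 : (H.map (QuotientGroup.mk' C)).Normal :=
      Subgroup.Normal.map hHn _ (QuotientGroup.mk'_surjective C)
    have h2 := le_pCore h1 (hHp.map (QuotientGroup.mk' C))
    intro h hh
    exact h2 ⟨h, hh, rfl⟩
  have hCL : C ≤ L := by
    intro c hc
    have : (QuotientGroup.mk' C) c = 1 := (QuotientGroup.eq_one_iff c).mpr hc
    show (QuotientGroup.mk' C) c ∈ pCore p (X ⧸ C)
    rw [this]; exact one_mem _
  have hOC : O ≤ C := by
    intro d hd
    apply hCmax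
    intro h hh
    have hdis : Disjoint O H := by
      rw [disjoint_iff, inf_comm]
      exact inf_pPrimeCore_eq_bot hHp
    exact Subgroup.commute_of_normal_of_disjoint O H inferInstance hHn hdis d h hd hh
  have hOW : O ≤ W := pPrimeCore_le_pPrimePCore p
  have hHW : H ≤ W := by
    have h1 : (H.map (QuotientGroup.mk' O)).Normal :=
      Subgroup.Normal.map hHn _ (QuotientGroup.mk'_surjective O)
    have h2 := le_pCore h1 (hHp.map (QuotientGroup.mk' O))
    intro h hh
    exact h2 ⟨h, hh, rfl⟩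
  have hWL : W ≤ L := by
    have h1 : (W.map (QuotientGroup.mk' C)).Normal :=
      Subgroup.Normal.map hWn _ (QuotientGroup.mk'_surjective C)
    have h2 : IsPGroup p (W.map (QuotientGroup.mk' C)) := by
      rintro ⟨_, w, hw, rfl⟩
      obtain ⟨k, hk⟩ := isPGroup_pCore (G := X ⧸ O) p ⟨QuotientGroup.mk w, hw⟩
      have h3 : (QuotientGroup.mk (w ^ p ^ k) : X ⧸ O) = 1 := by
        have := congrArg Subtype.val hk
        simpa using this
      have h4 : w ^ p ^ k ∈ C := hOC ((QuotientGroup.eq_one_iff _).mp h3)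
      refine ⟨k, Subtype.ext ?_⟩
      have h5 : (QuotientGroup.mk' C) (w ^ p ^ k) = 1 := (QuotientGroup.eq_one_iff _).mpr h4
      simpa using h5
    have h3 := le_pCore h1 h2
    intro w hw
    exact h3 ⟨w, hw, rfl⟩
  -- elements of `L` have a `p`-power in `C`
  have hLp : ∀ x ∈ L, ∃ k : ℕ, x ^ p ^ k ∈ C := by
    intro x hx
    obtain ⟨k, hk⟩ := isPGroup_pCore (G := X ⧸ C) p ⟨QuotientGroup.mk' C x, hx⟩
    refine ⟨k, ?_⟩
    have h3 : (QuotientGroup.mk (x ^ p ^ k) : X ⧸ C) = 1 := by
      have := congrArg Subtype.val hk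
      simpa using this
    exact (QuotientGroup.eq_one_iff _).mp h3
  have hCsplit : (T : Subgroup X) ⊓ C ≤ H → C ≤ H ⊔ O := by
    intro h
    refine (central_sylow_le T C ?_).trans (sup_le_sup_right h _)
    intro z hz c hc
    exact (hCH c hc z (h hz)).symm
  constructor
  · rintro ⟨-, hnd⟩
    have hInf : (T : Subgroup X) ⊓ L ≤ H := by
      have hle : H ≤ (T : Subgroup X) ⊓ L := le_inf hHT hHL
      have h1 := Subgroup.relIndex_mul_relIndex H _ L hle inf_le_right
      have hTLp : IsPGroup p ↥((T : Subgroup X) ⊓ L) := T.isPGroup'.to_le inf_le_left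
      obtain ⟨n, hn⟩ := hTLp.index (H.subgroupOf ((T : Subgroup X) ⊓ L))
      have h2 : H.relIndex ((T : Subgroup X) ⊓ L) = p ^ n := hn
      rw [h2] at h1
      have h3 : n = 0 := by
        by_contra hne
        apply hnd
        rw [← h1]
        exact Dvd.dvd.mul_right (dvd_pow_self p hne) _
      rw [h3, pow_zero] at h2
      exact Subgroup.relIndex_eq_one.mp h2
    have hTC : (T : Subgroup X) ⊓ C ≤ H := (inf_le_inf_left _ hCL).trans hInf
    refine ⟨hTC, ?_⟩
    have hCle := hCsplit hTC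
    have h3 : H ⊔ C ≤ W := sup_le hHW (hCle.trans (sup_le hHW hOW))
    have h4 : L ≤ H ⊔ C := by
      rw [← Subgroup.relIndex_eq_one]
      have hle1 : H ≤ H ⊔ C := le_sup_left
      have hle2 : H ⊔ C ≤ L := sup_le hHL hCL
      have h5 := Subgroup.relIndex_mul_relIndex H _ L hle1 hle2
      have h6 := Subgroup.relIndex_mul_relIndex C _ L (le_sup_right : C ≤ H ⊔ C) hle2
      have h7 : IsPGroup p (↥L ⧸ C.subgroupOf L) := by
        intro q
        obtain ⟨x, rfl⟩ := QuotientGroup.mk_surjective q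
        obtain ⟨k, hk⟩ := hLp x x.2
        refine ⟨k, ?_⟩
        rw [← QuotientGroup.mk_pow]
        exact (QuotientGroup.eq_one_iff _).mpr hk
      obtain ⟨m, hm⟩ := IsPGroup.iff_card.mp h7
      have h8 : C.relIndex L = p ^ m := hm
      rw [h8] at h6
      have h9 : (H ⊔ C).relIndex L ∣ p ^ m := Dvd.intro_left _ h6
      obtain ⟨j, -, hj⟩ := (Nat.dvd_prime_pow hp).mp h9
      rw [hj] at h5 h9 ⊢
      by_contra hne
      have hj0 : j ≠ 0 := by
        rintro rfl
        exact hne (pow_zero p)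
      apply hnd
      rw [← h5]
      exact Dvd.dvd.mul_left (dvd_pow_self p hj0) _
    exact le_antisymm (hWL.trans h4) h3
  · rintro ⟨hTC, hWeq⟩
    refine ⟨hHL, ?_⟩
    have hCle := hCsplit hTC
    have hLW : L ≤ W := by
      have h1 : (L.map (QuotientGroup.mk' O)).Normal :=
        Subgroup.Normal.map hLn _ (QuotientGroup.mk'_surjective O)
      have h2 : IsPGroup p (L.map (QuotientGroup.mk' O)) := by
        rintro ⟨_, x, hx, rfl⟩
        obtain ⟨k, hk⟩ := hLp x hx
        obtain ⟨h, hh, d, hd, e⟩ := Subgroup.mem_sup_of_normal_right.mp (hCle hk)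
        obtain ⟨l, hl⟩ := hHp ⟨h, hh⟩
        have hl' : h ^ p ^ l = 1 := by
          have := congrArg Subtype.val hl
          simpa using this
        refine ⟨k + l, Subtype.ext ?_⟩
        have h3 : (QuotientGroup.mk d : X ⧸ O) = 1 := (QuotientGroup.eq_one_iff _).mpr hd
        have h4 : (QuotientGroup.mk (x ^ p ^ k) : X ⧸ O) = QuotientGroup.mk h := by
          rw [← e, QuotientGroup.mk_mul, h3, mul_one]
        have h5 : (QuotientGroup.mk' O x) ^ p ^ (k + l) = 1 := by
          rw [pow_add, pow_mul]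
          have : (QuotientGroup.mk' O x) ^ p ^ k = QuotientGroup.mk h := by
            rw [← h4]; simp
          rw [this, ← QuotientGroup.mk_pow, hl']
          rfl
        simpa using h5
      have h3 := le_pCore h1 h2
      intro x hx
      exact h3 ⟨x, hx, rfl⟩
    have hLeq : L = H ⊔ C := le_antisymm (hLW.trans hWeq.le) (sup_le hHL hCL)
    rw [hLeq, Subgroup.relIndex_sup_left, ← Subgroup.inf_relIndex_right]
    intro hd
    apply not_dvd_relIndex T C
    have h1 : (T : Subgroup X) ⊓ C ≤ H ⊓ C := le_inf hTC inf_le_right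
    have h2 := Subgroup.relIndex_dvd_of_le_left C h1
    rw [Subgroup.inf_relIndex_right (T : Subgroup X) C] at h2
    exact hd.trans h2

end Core

/-- Let P be a Sylow p-subgroup of the finite group G and H ≤ P a subgroup with N_P(H) a Sylow p-subgroup of N_G(H). Let N be the preimage in N_G(H) of O_p(N_G(H)/C_G(H)). Then H is a Sylow p-subgroup of N if and only if C_P(H) ≤ H and O_{p',p}(N_G(H)) = H·C_G(H). -/
theorem result {G : Type*} [Group G] [Finite G] {p : ℕ} [Fact p.Prime]
    (P : Sylow p G) (H : Subgroup G) (hHP : H ≤ (P : Subgroup G))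
    (hSyl : ¬ p ∣ ((P : Subgroup G) ⊓ Subgroup.normalizer (H : Set G)).relIndex (Subgroup.normalizer (H : Set G)))
    [hC : ((Subgroup.centralizer (H : Set G)).subgroupOf (Subgroup.normalizer (H : Set G))).Normal] :
    (H ≤ ((Cfsg.pCore p (↥(Subgroup.normalizer (H : Set G)) ⧸
              (Subgroup.centralizer (H : Set G)).subgroupOf (Subgroup.normalizer (H : Set G)))).comap
            (QuotientGroup.mk' _)).map (Subgroup.normalizer (H : Set G)).subtype ∧
      ¬ p ∣ H.relIndex (((Cfsg.pCore p (↥(Subgroup.normalizer (H : Set G)) ⧸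
              (Subgroup.centralizer (H : Set G)).subgroupOf (Subgroup.normalizer (H : Set G)))).comap
            (QuotientGroup.mk' _)).map (Subgroup.normalizer (H : Set G)).subtype)) ↔
    ((P : Subgroup G) ⊓ Subgroup.centralizer (H : Set G) ≤ H ∧
      (Cfsg.pPrimePCore p ↥(Subgroup.normalizer (H : Set G))).map (Subgroup.normalizer (H : Set G)).subtype =
        H ⊔ Subgroup.centralizer (H : Set G)) := by
  classical
  set N : Subgroup G := Subgroup.normalizer (H : Set G) with hN
  set CC : Subgroup G := Subgroup.centralizer (H : Set G) with hCC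
  have hCN : CC ≤ N := by
    intro c hc
    rw [hN, Subgroup.mem_normalizer_iff]
    intro h
    have hc' := Subgroup.mem_centralizer_iff.mp hc
    constructor
    · intro hh
      rw [← hc' h hh]
      simpa using hh
    · intro hh
      have h1 : c * h * c⁻¹ * c = c * h := by group
      have h2 := hc' _ hh
      rw [h1] at h2
      have h3 : c * h * c⁻¹ = h := mul_left_cancel h2.symm
      rwa [h3] at hh
  have hHN : H ≤ N := Subgroup.le_normalizer
  let Ĥ : Subgroup N := H.subgroupOf N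
  have hĤn : Ĥ.Normal := Subgroup.normal_in_normalizer
  let Ĉ : Subgroup N := CC.subgroupOf N
  have hTp : IsPGroup p ↥(((P : Subgroup G) ⊓ N).subgroupOf N) :=
    (P.isPGroup'.to_le inf_le_left).comap_of_injective N.subtype N.subtype_injective
  let T : Sylow p N := hTp.toSylow hSyl
  have hTmem : ∀ x : N, x ∈ (T : Subgroup N) ↔ (x : G) ∈ (P : Subgroup G) := by
    intro x
    constructor
    · intro h; exact h.1
    · intro h; exact ⟨h, x.2⟩
  have hĤT : Ĥ ≤ (T : Subgroup N) := by
    intro x hx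
    exact (hTmem x).mpr (hHP hx)
  have hCH : ∀ c ∈ Ĉ, ∀ h ∈ Ĥ, c * h = h * c := by
    intro c hc h hh
    exact Subtype.ext ((Subgroup.mem_centralizer_iff.mp hc _ hh).symm)
  have hCmax : ∀ x : N, (∀ h ∈ Ĥ, x * h = h * x) → x ∈ Ĉ := by
    intro x hx
    show (x : G) ∈ CC
    rw [hCC, Subgroup.mem_centralizer_iff]
    intro h hh
    exact (congrArg Subtype.val (hx ⟨h, hHN hh⟩ hh)).symm
  have key := core T Ĥ hĤT Ĉ hCH hCmax
  set LL := (Cfsg.pCore p (↥N ⧸ Ĉ)).comap (QuotientGroup.mk' Ĉ) with hLL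
  have hL1 : H ≤ LL.map N.subtype ↔ Ĥ ≤ LL := by
    constructor
    · intro h x hx
      obtain ⟨y, hy, hye⟩ := h hx
      have : y = x := Subtype.ext hye
      rwa [← this]
    · intro h x hx
      exact ⟨⟨x, hHN hx⟩, h hx, rfl⟩
  have hL2 : H.relIndex (LL.map N.subtype) = Ĥ.relIndex LL := by
    exact (Subgroup.relIndex_comap H N.subtype LL).symm
  have hR1 : (P : Subgroup G) ⊓ CC ≤ H ↔ (T : Subgroup N) ⊓ Ĉ ≤ Ĥ := by
    constructor
    · intro h x hx
      exact h ⟨(hTmem x).mp hx.1, hx.2⟩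
    · intro h x hx
      have hxN := hCN hx.2
      exact h (show (⟨x, hxN⟩ : N) ∈ (T : Subgroup N) ⊓ Ĉ from ⟨(hTmem _).mpr hx.1, hx.2⟩)
  have hR2 : (Cfsg.pPrimePCore p N).map N.subtype = H ⊔ CC ↔ Cfsg.pPrimePCore p N = Ĥ ⊔ Ĉ := by
    have h1 : (Ĥ ⊔ Ĉ).map N.subtype = H ⊔ CC := by
      rw [Subgroup.map_sup, Subgroup.map_subgroupOf_eq_of_le hHN, Subgroup.map_subgroupOf_eq_of_le hCN]
    rw [← h1]
    exact (Subgroup.map_injective N.subtype_injective).eq_iff
  rw [hL1, hL2, hR1, hR2]
  exact key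

end Cfsg.Agent.S3076
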