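import Mathlib
-- Template for statement S3086 (row 3086; see /opt/grader/pristine/manifest.json for weights).
-- Copy to Cfsg/Agent/S3086.lean and replace the sorry. The statement below is byte-identical to the frozen
-- statement Cfsg.CfsgFrozen.S3086 (Cfsg/Statements/S3086.lean; the theorem Cfsg.loc65_best_offender_on_faithful_module_normalizes_every_component);
-- the grader kernel-checks Cfsg.Agent.S3086.result against that frozen type. Keep the theorem IN THIS FILE
-- (a `result` declared elsewhere and merely imported here is not credited); helpers may live anywhere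
-- under Cfsg/Agent/.
import Cfsg.Statements.S3086
import Cfsg.Agent.Lib.BestOffMain
import Cfsg.Agent.Lib.LocalCore
import Cfsg.Agent.Lib.Replacement

set_option autoImplicit false
open Cfsg
open scoped commutatorElement

namespace Cfsg.Agent.S3086

open Cfsg.Agent.Lib.BestOffR

/-- The P(G,V)-theorem. Let p be a prime, G a finite group acting faithfully and linearly on a finite vector space V over the field with p elements, and A a nontrivial elementary abelian p-subgroup of G such that |A|·|C_V(A)| ≥ |B|·|C_V(B)| for every subgroup B of A. Then A normalizes every component (subnormal quasisimple subgroup) of G. -/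
theorem result {G V : Type*} [Group G] [Finite G] [AddCommGroup V] [Finite V] (p : ℕ) [Fact p.Prime] [Module (ZMod p) V]
    (ρ : Representation (ZMod p) G V) (hρ : Function.Injective ρ)
    (A : Subgroup G) (hA : A ≠ ⊥) (hAel : Cfsg.IsElementaryAbelian p A)
    (hP : ∀ B : Subgroup G, B ≤ A →
      Nat.card ↥B * Nat.card {v : V // ∀ b ∈ B, ρ b v = v} ≤ Nat.card ↥A * Nat.card {v : V // ∀ a ∈ A, ρ a v = v}) :
    ∀ K : Subgroup G, Cfsg.IsComponent K → A ≤ Subgroup.normalizer (K : Set G) := by
  intro K hK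
  classical
  let φ : G →* UE p V := (ρ : G →* Module.End (ZMod p) V).toHomUnits
  have hφv : ∀ g v, ((φ g : Module.End (ZMod p) V)) v = ρ g v := fun g v => rfl
  have hφinj : Function.Injective φ := by
    intro x y h
    apply hρ
    have := congrArg Units.val h
    exact this
  have hcommA : ∀ a ∈ A, ∀ b ∈ A, a * b = b * a := by
    intro a ha b hb
    have h1 := hAel.1.is_comm.comm (⟨a, ha⟩ : A) ⟨b, hb⟩
    exact congrArg Subtype.val h1
  have hfF : ∀ C : Subgroup G, Cfsg.Agent.Lib.FFMod.fF (rh p V) (C.map φ)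
      = Nat.card C * Nat.card {v : V // ∀ c ∈ C, ρ c v = v} := by
    intro C
    unfold Cfsg.Agent.Lib.FFMod.fF
    rw [Subgroup.card_map_of_injective hφinj]
    congr 1
    apply Nat.card_congr
    exact
      { toFun := fun v => ⟨v.1, fun c hc => v.2 (φ c) ⟨c, hc, rfl⟩⟩
        invFun := fun v => ⟨v.1, by
          rintro _ ⟨c, hc, rfl⟩
          exact v.2 c hc⟩
        left_inv := fun v => rfl
        right_inv := fun v => rfl }
  have hbo : Cfsg.Agent.Lib.FFMod.IsBO (p := p) (rh p V) (A.map φ) := by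
    refine ⟨?_, ?_, ?_⟩
    · intro B' hB'
      set B : Subgroup G := B'.comap φ ⊓ A with hB
      have hBmap : B.map φ = B' := by
        apply le_antisymm
        · rintro _ ⟨b, hb, rfl⟩
          exact hb.1
        · intro b' hb'
          obtain ⟨a, ha, rfl⟩ := hB' hb'
          exact ⟨a, ⟨hb', ha⟩, rfl⟩
      rw [← hBmap, hfF B, hfF A]
      exact hP B inf_le_right
    · rintro _ ⟨a, ha, rfl⟩ _ ⟨b, hb, rfl⟩
      rw [← map_mul, ← map_mul, hcommA a ha b hb]
    · rintro _ ⟨a, ha, rfl⟩
      rw [← map_pow, hAel.2 a ha, map_one]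
  have hqs : Cfsg.Agent.Lib.BestOffQ.QSL K := Cfsg.Agent.Lib.BestOffQ.QSL.of_isQuasisimple hK.2
  have hqs' : Cfsg.Agent.Lib.BestOffQ.QSL (K.map φ) := by
    have h1 := hqs.range (φ.comp K.subtype) (by
      obtain ⟨x, hx, y, hy, hne⟩ := hqs.noncomm
      refine ⟨⟨x, hx⟩, fun h => hne ?_⟩
      have h2 : x = 1 := hφinj (by simpa using h)
      simp [h2])
    rwa [MonoidHom.range_comp, Subgroup.range_subtype] at h1
  have hSetup : Setup (p := p) (A.map φ) (K.map φ) := by
    refine ⟨hbo, hqs', ?_⟩
    rintro _ ⟨b, hb, rfl⟩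
    set K₁ := K.map (MulAut.conj b).toMonoidHom with hK₁
    have hcK₁ : Cfsg.IsComponent K₁ := Cfsg.Agent.Lib.LocalCore.comp_map_equiv (MulAut.conj b) hK
    have hmem : ∀ x ∈ K, b * x * b⁻¹ ∈ K₁ := fun x hx => ⟨x, hx, rfl⟩
    by_cases hKK : K₁ = K
    · left
      rintro _ ⟨x, hx, rfl⟩
      refine ⟨b * x * b⁻¹, hKK ▸ hmem x hx, ?_⟩
      simp only [map_mul, map_inv]
    · right
      have hc := Cfsg.Agent.Lib.LocalCore.comp_le_centralizer_of_ne hcK₁ hK hKK
      rintro _ ⟨x, hx, rfl⟩ _ ⟨y, hy, rfl⟩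
      have h1 : y * (b * x * b⁻¹) = (b * x * b⁻¹) * y :=
        Subgroup.mem_centralizer_iff.mp (hc (hmem x hx)) y hy
      have h2 := congrArg φ h1
      simp only [map_mul, map_inv] at h2 ⊢
      exact h2.symm
  have hmain := Cfsg.Agent.Lib.BestOffMain.main_T (p := p) _ V rfl _ _ _ rfl hSetup
  intro b hb
  apply Cfsg.Agent.Lib.Replacement.mem_normalizer_of_forall
  intro x hx
  obtain ⟨y, hy, e⟩ := hmain (φ b) ⟨b, hb, rfl⟩ (φ x) ⟨x, hx, rfl⟩
  have e2 : y = b * x * b⁻¹ := hφinj (by rw [e]; simp only [map_mul, map_inv])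
  rwa [← e2]

end Cfsg.Agent.S3086
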