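-- Statement S3087
import Mathlib
import Cfsg.Statements.S3087

set_option autoImplicit false
open Cfsg

namespace Cfsg.Agent.S3087

theorem key1 {V : Type*} [AddCommGroup V] [Finite V] (X Y Z : AddSubgroup V) (hYX : Y ≤ X) (hZX : Z ≤ X) :
    Nat.card Z * Nat.card Y ≤ Nat.card X * Nat.card (Z ⊓ Y : AddSubgroup V) := by
  have h1 : ∀ (H K : AddSubgroup V), H ≤ K → Nat.card H * H.relIndex K = Nat.card K := by
    intro H K hHK
    have := AddSubgroup.card_mul_index (H.addSubgroupOf K)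
    rw [AddSubgroup.relIndex]
    rw [← this]
    congr 1
    exact Nat.card_congr (AddSubgroup.addSubgroupOfEquivOfLe hHK).toEquiv.symm
  have h2 := h1 Y X hYX
  have h3 := h1 (Z ⊓ Y) Z inf_le_left
  have h4 : Y.relIndex Z ≤ Y.relIndex X := AddSubgroup.relIndex_le_of_le_right hZX (by
    intro h
    have : Nat.card Y * Y.relIndex X ≠ 0 := by
      rw [h2]; exact Nat.card_pos.ne'
    exact this (by simp [h]))
  have h5 : (Z ⊓ Y).relIndex Z = Y.relIndex Z := by
    rw [inf_comm]; exact AddSubgroup.inf_relIndex_right Y Z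
  rw [h5] at h3
  calc Nat.card Z * Nat.card Y = Nat.card (Z ⊓ Y : AddSubgroup V) * Y.relIndex Z * Nat.card Y := by rw [h3]
    _ ≤ Nat.card (Z ⊓ Y : AddSubgroup V) * Y.relIndex X * Nat.card Y := by gcongr
    _ = Nat.card X * Nat.card (Z ⊓ Y : AddSubgroup V) := by rw [← h2]; ring

/-- Fixed points of a subgroup as an additive subgroup. -/
def fixA {G V : Type*} [Group G] [AddCommGroup V] {p : ℕ} [Module (ZMod p) V]
    (ρ : Representation (ZMod p) G V) (B : Subgroup G) : AddSubgroup V where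
  carrier := {v | ∀ b ∈ B, ρ b v = v}
  add_mem' := by
    intro a c ha hc b hb
    simp only [Set.mem_setOf_eq] at ha hc
    rw [map_add, ha b hb, hc b hb]
  zero_mem' := by
    intro b _
    simp
  neg_mem' := by
    intro a ha b hb
    simp only [Set.mem_setOf_eq] at ha
    rw [map_neg, ha b hb]

/-- Let p be a prime, G a finite group acting linearly on a finite vector space V over the field with p elements, W a G-invariant subspace, and A a subgroup of G with |A|·|C_V(A)| ≥ |B|·|C_V(B)| for every subgroup B of A. Then |A|·|C_W(A)| ≥ |B|·|C_W(B)| for every subgroup B of A that contains C_A(W); that is, the image of A in the group induced on W satisfies the same maximality condition. -/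
theorem result {G V : Type*} [Group G] [Finite G] [AddCommGroup V] [Finite V] (p : ℕ) [Fact p.Prime] [Module (ZMod p) V]
    (ρ : Representation (ZMod p) G V) (W : Submodule (ZMod p) V) (hW : ∀ g : G, ∀ w ∈ W, ρ g w ∈ W)
    (A : Subgroup G)
    (hP : ∀ B : Subgroup G, B ≤ A →
      Nat.card ↥B * Nat.card {v : V // ∀ b ∈ B, ρ b v = v} ≤ Nat.card ↥A * Nat.card {v : V // ∀ a ∈ A, ρ a v = v})
    (B : Subgroup G) (hBA : B ≤ A) (hCB : ∀ a ∈ A, (∀ w ∈ W, ρ a w = w) → a ∈ B) :
    Nat.card ↥B * Nat.card {w : W // ∀ b ∈ B, ρ b w = w} ≤ Nat.card ↥A * Nat.card {w : W // ∀ a ∈ A, ρ a w = w} := by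
  classical
  set X := fixA ρ B with hX
  set Y := fixA ρ A with hY
  set Z := W.toAddSubgroup ⊓ X with hZ
  have hYX : Y ≤ X := fun v hv b hb => hv b (hBA hb)
  have hZX : Z ≤ X := inf_le_right
  have e1 : Nat.card {v : V // ∀ b ∈ B, ρ b v = v} = Nat.card X := rfl
  have e2 : Nat.card {v : V // ∀ a ∈ A, ρ a v = v} = Nat.card Y := rfl
  have e3 : Nat.card {w : W // ∀ b ∈ B, ρ b w = w} = Nat.card Z := by
    refine Nat.card_congr ⟨fun w => ⟨w.1.1, ⟨w.1.2, w.2⟩⟩, fun z => ⟨⟨z.1, z.2.1⟩, z.2.2⟩, ?_, ?_⟩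
    · intro w; rfl
    · intro z; rfl
  have e4 : Nat.card {w : W // ∀ a ∈ A, ρ a w = w} = Nat.card (Z ⊓ Y : AddSubgroup V) := by
    refine Nat.card_congr ⟨fun w => ⟨w.1.1, ⟨⟨w.1.2, fun b hb => w.2 b (hBA hb)⟩, w.2⟩⟩,
      fun z => ⟨⟨z.1, z.2.1.1⟩, z.2.2⟩, ?_, ?_⟩
    · intro w; rfl
    · intro z; rfl
  have h := hP B hBA
  rw [e1, e2] at h
  rw [e3, e4]
  have k := key1 X Y Z hYX hZX
  have hYpos : 0 < Nat.card Y := Nat.card_pos
  refine Nat.le_of_mul_le_mul_right ?_ hYpos
  calc Nat.card B * Nat.card Z * Nat.card Y = Nat.card B * (Nat.card Z * Nat.card Y) := by ring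
    _ ≤ Nat.card B * (Nat.card X * Nat.card (Z ⊓ Y : AddSubgroup V)) := by gcongr
    _ = (Nat.card B * Nat.card X) * Nat.card (Z ⊓ Y : AddSubgroup V) := by ring
    _ ≤ (Nat.card A * Nat.card Y) * Nat.card (Z ⊓ Y : AddSubgroup V) := by gcongr
    _ = Nat.card A * Nat.card (Z ⊓ Y : AddSubgroup V) * Nat.card Y := by ring

end Cfsg.Agent.S3087
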