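-- Statement S3154
import Mathlib
import Cfsg.Agent.Lib.L34CovGood
import Cfsg.Statements.S3154

set_option autoImplicit false
set_option linter.unusedVariables false
set_option linter.style.haveILetI false
open Cfsg

namespace Cfsg.Agent.S3154


open scoped Pointwise
open Cfsg.Agent.Lib.L34CovAbs Cfsg.Agent.Lib.L34CovCon Cfsg.Agent.Lib.L34CovGood Cfsg.Agent.Lib.SLSpec

theorem isEA {X : Type*} [Group X] (H : Subgroup X) (h : ∀ x ∈ H, x * x = 1) : Cfsg.IsElementaryAbelian 2 H := by
  refine ⟨⟨⟨fun a b => Subtype.ext (comm_of_sq H h a.2 b.2)⟩⟩, fun a ha => ?_⟩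
  rw [pow_two]
  exact h a ha

/-- The configuration with `H` over the point radical and `K` over the line radical. -/
theorem core {X : Type*} [Group X] [Finite X] {F : Type*} [Field F] [Fintype F] [CharP F 2] (hF : Fintype.card F = 4)
    (π : X →* Matrix.ProjectiveSpecialLinearGroup (Fin 3) F) (hs : Function.Surjective π)
    (hk : π.ker = Subgroup.center X) (hZ : ∀ z ∈ Subgroup.center X, z * z = 1)
    (T : Subgroup X) (hT : ∀ t ∈ T, π t ∈ Cfsg.Agent.Lib.PSLFusion.Ubar F 3)
    (H K : Subgroup X) (hHT : H ≤ T) (hKT : K ≤ T) (hZH : Subgroup.center X ≤ H) (hZK : Subgroup.center X ≤ K)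
    (hHA : H.map π = Abar) (hKB : K.map π = Bbar) :
    Cfsg.IsElementaryAbelian 2 H ∧ Cfsg.IsElementaryAbelian 2 K ∧
      H ⊓ K = (Subgroup.center ↥(H ⊔ K)).map (H ⊔ K).subtype ∧
      (∃ C : Subgroup X, C ≤ Subgroup.normalizer (H : Set X) ∧ C ⊓ H = ⊥ ∧ H ⊔ C = Subgroup.normalizer (H : Set X) ∧
        Nonempty (↥C ≃* Matrix.ProjectiveSpecialLinearGroup (Fin 2) F)) ∧
      (∃ C : Subgroup X, C ≤ Subgroup.normalizer (K : Set X) ∧ C ⊓ K = ⊥ ∧ K ⊔ C = Subgroup.normalizer (K : Set X) ∧
        Nonempty (↥C ≃* Matrix.ProjectiveSpecialLinearGroup (Fin 2) F)) := by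
  obtain ⟨h1, D, d1, d2, d3, ⟨d4⟩⟩ := main π hs hk hZ (goodA hF) H hZH hHA
  obtain ⟨k1, D', d1', d2', d3', ⟨d4'⟩⟩ := main π hs hk hZ (goodB hF) K hZK hKB
  obtain ⟨e⟩ := range_equiv (iA_inj (F := F))
  obtain ⟨e'⟩ := range_equiv (iB_inj (F := F))
  have mem_of : ∀ {M : Subgroup X}, Subgroup.center X ≤ M → ∀ {x : X} , π x ∈ M.map π → x ∈ M := by
    intro M hM x hx
    obtain ⟨y, hy, hxy⟩ := hx
    have h2 : y⁻¹ * x ∈ Subgroup.center X := by
      rw [← hk, MonoidHom.mem_ker, map_mul, map_inv, hxy, inv_mul_cancel]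
    have h3 := M.mul_mem hy (hM h2)
    simpa using h3
  refine ⟨isEA H h1, isEA K k1, ?_, ⟨D, d1, d2, d3, ⟨d4.trans e⟩⟩, ⟨D', d1', d2', d3', ⟨d4'.trans e'⟩⟩⟩
  apply le_antisymm
  · rintro x ⟨hxH, hxK⟩
    have hxS : x ∈ H ⊔ K := Subgroup.mem_sup_left hxH
    refine ⟨⟨x, hxS⟩, ?_, rfl⟩
    rw [SetLike.mem_coe, Subgroup.mem_center_iff]
    rintro ⟨y, hy⟩
    apply Subtype.ext
    show y * x = x * y
    have hle : H ⊔ K ≤ Subgroup.centralizer ({x} : Set X) := by
      refine sup_le ?_ ?_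
      · intro z hz
        rw [Subgroup.mem_centralizer_singleton_iff]
        exact comm_of_sq H h1 hz hxH
      · intro z hz
        rw [Subgroup.mem_centralizer_singleton_iff]
        exact comm_of_sq K k1 hz hxK
    exact Subgroup.mem_centralizer_singleton_iff.mp (hle hy)
  · rintro _ ⟨⟨x, hx⟩, hxc, rfl⟩
    have hxT : x ∈ T := sup_le hHT hKT hx
    have hU := hT x hxT
    have hxc' : ∀ y ∈ H ⊔ K, y * x = x * y := by
      intro y hy
      have := Subgroup.mem_center_iff.mp hxc ⟨y, hy⟩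
      exact congrArg Subtype.val this
    obtain ⟨h0, hh0, e0⟩ : proj (uG 1 0 0) ∈ H.map π := by rw [hHA]; exact ⟨1, 0, rfl⟩
    obtain ⟨k0, hk0, e1⟩ : proj (uG 0 1 0) ∈ K.map π := by rw [hKB]; exact ⟨1, 0, rfl⟩
    have c1 := hxc' h0 (Subgroup.mem_sup_left hh0)
    have c2 := hxc' k0 (Subgroup.mem_sup_right hk0)
    have c1' := congrArg π c1
    have c2' := congrArg π c2
    rw [map_mul, map_mul] at c1' c2'
    rw [e0] at c1'
    rw [e1] at c2'
    obtain ⟨m1, m2⟩ := center_mem hU c2'.symm c1'.symm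
    refine ⟨mem_of hZH ?_, mem_of hZK ?_⟩
    · rw [hHA]; exact m1
    · rw [hKB]; exact m2

/-- Let X be a finite quasisimple group whose centre is an elementary abelian 2-group and whose central quotient is isomorphic to the projective special linear group of dimension 3 over the field with 4 elements. Let T be a Sylow 2-subgroup of X and H ≠ K subgroups of T containing the centre Z(X) whose images in X/Z(X) are elementary abelian of order 16 (the two such subgroups of a Sylow 2-subgroup of the quotient). Then H and K are elementary abelian, H ∩ K is the centre of the subgroup they generate, and each of N_X(H), N_X(K) is a split extension of H, respectively K, by the projective special linear group of dimension 2 over the field with 4 elements (there is a complement isomorphic to that group). -/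
theorem result {X : Type*} [Group X] [Finite X] (hq : Cfsg.IsQuasisimple X) (hZ : Cfsg.IsElementaryAbelian 2 (Subgroup.center X))
    {F : Type*} [Field F] [Fintype F] (hF : Fintype.card F = 4) (hXL : Nonempty ((X ⧸ Subgroup.center X) ≃* Matrix.ProjectiveSpecialLinearGroup (Fin 3) F))
    (T : Sylow 2 X) (H K : Subgroup X) (hHK : H ≠ K) (hHT : H ≤ T) (hKT : K ≤ T) (hZH : Subgroup.center X ≤ H) (hZK : Subgroup.center X ≤ K)
    (hH : Cfsg.IsElementaryAbelian 2 (H.map (QuotientGroup.mk' (Subgroup.center X))) ∧ Nat.card ↥(H.map (QuotientGroup.mk' (Subgroup.center X))) = 16)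
    (hK : Cfsg.IsElementaryAbelian 2 (K.map (QuotientGroup.mk' (Subgroup.center X))) ∧ Nat.card ↥(K.map (QuotientGroup.mk' (Subgroup.center X))) = 16) :
    Cfsg.IsElementaryAbelian 2 H ∧ Cfsg.IsElementaryAbelian 2 K ∧
      H ⊓ K = (Subgroup.center ↥(H ⊔ K)).map (H ⊔ K).subtype ∧
      (∃ C : Subgroup X, C ≤ Subgroup.normalizer (H : Set X) ∧ C ⊓ H = ⊥ ∧ H ⊔ C = Subgroup.normalizer (H : Set X) ∧
        Nonempty (↥C ≃* Matrix.ProjectiveSpecialLinearGroup (Fin 2) F)) ∧
      (∃ C : Subgroup X, C ≤ Subgroup.normalizer (K : Set X) ∧ C ⊓ K = ⊥ ∧ K ⊔ C = Subgroup.normalizer (K : Set X) ∧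
        Nonempty (↥C ≃* Matrix.ProjectiveSpecialLinearGroup (Fin 2) F)) := by
  classical
  haveI : Fact (Nat.Prime 2) := ⟨Nat.prime_two⟩
  obtain ⟨p, hp⟩ := CharP.exists F
  haveI := hp
  obtain ⟨n, hpp, hn⟩ := FiniteField.card F p
  have hp2 : p = 2 := by
    have h1 : p ∣ 2 ^ 2 := by
      have h2 : p ∣ p ^ (n : ℕ) := dvd_pow_self p n.ne_zero
      rw [← hn, hF] at h2
      exact h2
    have h3 := hpp.dvd_of_dvd_pow h1
    exact (Nat.prime_dvd_prime_iff_eq hpp Nat.prime_two).mp h3
  subst hp2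
  obtain ⟨φ⟩ := hXL
  let π0 : X →* Matrix.ProjectiveSpecialLinearGroup (Fin 3) F :=
    φ.toMonoidHom.comp (QuotientGroup.mk' (Subgroup.center X))
  have hs0 : Function.Surjective π0 := φ.surjective.comp (QuotientGroup.mk'_surjective _)
  haveI : Finite (Matrix.ProjectiveSpecialLinearGroup (Fin 3) F) := Finite.of_surjective π0 hs0
  let Tb : Sylow 2 (Matrix.ProjectiveSpecialLinearGroup (Fin 3) F) := T.mapSurjective hs0
  obtain ⟨g, hg⟩ := MulAction.exists_smul_eq (Matrix.ProjectiveSpecialLinearGroup (Fin 3) F) Tb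
    (Cfsg.Agent.Lib.PSLFusion.sylowUbar (K := F) (n := 3) 2 (by norm_num))
  let ε : (X ⧸ Subgroup.center X) ≃* Matrix.ProjectiveSpecialLinearGroup (Fin 3) F := φ.trans (MulAut.conj g)
  let π : X →* Matrix.ProjectiveSpecialLinearGroup (Fin 3) F :=
    ε.toMonoidHom.comp (QuotientGroup.mk' (Subgroup.center X))
  have hs : Function.Surjective π := ε.surjective.comp (QuotientGroup.mk'_surjective _)
  have hk : π.ker = Subgroup.center X := by
    ext x
    rw [MonoidHom.mem_ker]
    constructor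
    · intro h
      have h1 : QuotientGroup.mk' (Subgroup.center X) x = 1 := ε.injective (by rw [map_one]; exact h)
      exact (QuotientGroup.eq_one_iff x).mp h1
    · intro h
      have h1 : QuotientGroup.mk' (Subgroup.center X) x = 1 := (QuotientGroup.eq_one_iff x).mpr h
      show ε _ = 1
      rw [h1, map_one]
  have hZ' : ∀ z ∈ Subgroup.center X, z * z = 1 := by
    intro z hz
    rw [← pow_two]
    exact hZ.2 z hz
  have hTU : ∀ t ∈ (T : Subgroup X), π t ∈ Cfsg.Agent.Lib.PSLFusion.Ubar F 3 := by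
    intro t ht
    have h1 : π0 t ∈ (Tb : Subgroup (Matrix.ProjectiveSpecialLinearGroup (Fin 3) F)) := ⟨t, ht, rfl⟩
    have h3 : MulAut.conj g • π0 t ∈ MulAut.conj g • (Tb : Subgroup (Matrix.ProjectiveSpecialLinearGroup (Fin 3) F)) :=
      Subgroup.smul_mem_pointwise_smul _ _ _ h1
    have h4 : MulAut.conj g • (Tb : Subgroup (Matrix.ProjectiveSpecialLinearGroup (Fin 3) F)) =
        Cfsg.Agent.Lib.PSLFusion.Ubar F 3 := by
      rw [← Sylow.coe_subgroup_smul, hg]
      rfl
    rw [h4] at h3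
    exact h3
  have hM : ∀ M : Subgroup X, M ≤ T → Cfsg.IsElementaryAbelian 2 (M.map (QuotientGroup.mk' (Subgroup.center X))) →
      Nat.card ↥(M.map (QuotientGroup.mk' (Subgroup.center X))) = 16 → M.map π = Abar ∨ M.map π = Bbar := by
    intro M hMT h1 h2
    refine elem_classify hF _ ?_ ?_ ?_
    · rintro _ ⟨x, hx, rfl⟩
      exact hTU x (hMT hx)
    · rintro _ ⟨x, hx, rfl⟩
      have h3 := h1.2 _ (Subgroup.mem_map_of_mem (QuotientGroup.mk' (Subgroup.center X)) hx)
      rw [pow_two] at h3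
      show ε _ * ε _ = 1
      rw [← map_mul, h3, map_one]
    · have h4 : M.map π = (M.map (QuotientGroup.mk' (Subgroup.center X))).map ε.toMonoidHom := by
        rw [Subgroup.map_map]
      rw [h4, Subgroup.card_map_of_injective ε.injective, h2]
  have hinj : ∀ {M N : Subgroup X}, Subgroup.center X ≤ M → Subgroup.center X ≤ N → M.map π = N.map π → M = N := by
    intro M N hM hN h
    have aux : ∀ {M N : Subgroup X}, Subgroup.center X ≤ N → M.map π = N.map π → M ≤ N := by
      intro M N hN h x hx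
      have h1 : π x ∈ N.map π := by rw [← h]; exact ⟨x, hx, rfl⟩
      obtain ⟨y, hy, hxy⟩ := h1
      have h2 : y⁻¹ * x ∈ Subgroup.center X := by
        rw [← hk, MonoidHom.mem_ker, map_mul, map_inv, hxy, inv_mul_cancel]
      have h3 := N.mul_mem hy (hN h2)
      simpa using h3
    exact le_antisymm (aux hN h) (aux hM h.symm)
  rcases hM H hHT hH.1 hH.2 with h1 | h1 <;> rcases hM K hKT hK.1 hK.2 with h2 | h2
  · exact absurd (hinj hZH hZK (h1.trans h2.symm)) hHK
  · exact core hF π hs hk hZ' T hTU H K hHT hKT hZH hZK h1 h2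
  · have := core hF π hs hk hZ' T hTU K H hKT hHT hZK hZH h2 h1
    obtain ⟨a, b, c, d, e⟩ := this
    refine ⟨b, a, ?_, e, d⟩
    rw [inf_comm, sup_comm]
    exact c
  · exact absurd (hinj hZH hZK (h1.trans h2.symm)) hHK

end Cfsg.Agent.S3154
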