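import Mathlib
import Cfsg.Statements.S3155

 
set_option autoImplicit false
open Cfsg

namespace Cfsg.Agent.S3155

abbrev V := ZMod 4 × ZMod 4 × ZMod 4

theorem no_linear_sq (f : V →ₗ[ZMod 4] V) (h : f.comp f = -LinearMap.id) : False := by
  have h1 : LinearMap.det (f.comp f) = LinearMap.det f * LinearMap.det f := by
    rw [LinearMap.det_comp]
  have h2 : LinearMap.det (-LinearMap.id : V →ₗ[ZMod 4] V) = -1 := by
    have : (-LinearMap.id : V →ₗ[ZMod 4] V) = (-1 : ZMod 4) • LinearMap.id := by
      ext <;> simp
    rw [this, LinearMap.det_smul]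
    have hr : Module.finrank (ZMod 4) V = 3 := by
      haveI : Fact (1 < 4) := ⟨by norm_num⟩
      haveI : Nontrivial (ZMod 4) := ZMod.nontrivial 4
      rw [Module.finrank_prod, Module.finrank_prod]
      simp
    rw [hr]
    simp
    decide
  rw [h, h2] at h1
  have key : ∀ x : ZMod 4, x * x ≠ -1 := by decide
  exact key _ h1.symm

/-- Let B be the direct product of three cyclic groups of order 4. Then the automorphism of B inverting every element is not the square of any automorphism of B. -/
theorem result {B : Type*} [CommGroup B] [Finite B] (hB : Nonempty (B ≃* Multiplicative (ZMod 4 × ZMod 4 × ZMod 4)))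
    (τ : B ≃* B) : τ.trans τ ≠ MulEquiv.inv B := by
  obtain ⟨e⟩ := hB
  intro h
  -- the additive map on V
  let g : V →+ V :=
    { toFun := fun a => Multiplicative.toAdd (e (τ (e.symm (Multiplicative.ofAdd a))))
      map_zero' := by simp
      map_add' := by
        intro a b
        simp [ofAdd_add] }
  have hg : ∀ a, g (g a) = -a := by
    intro a
    have h1 := congrArg (fun φ : B ≃* B => φ (e.symm (Multiplicative.ofAdd a))) h
    simp only [MulEquiv.trans_apply] at h1
    show Multiplicative.toAdd (e (τ (e.symm (Multiplicative.ofAdd (Multiplicative.toAdd (e (τ (e.symm (Multiplicative.ofAdd a))))))))) = -a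
    simp only [ofAdd_toAdd, MulEquiv.symm_apply_apply]
    rw [h1]
    simp
  apply no_linear_sq (g.toZModLinearMap 4)
  refine LinearMap.ext fun a => ?_
  exact hg a

end Cfsg.Agent.S3155
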