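import Cfsg.Statements.S3175
import Cfsg.Agent.Lib.T14D

set_option autoImplicit false
open Cfsg

namespace Cfsg.Agent.S3175

section
open Cfsg.Agent.Lib.T14A Cfsg.Agent.Lib.T14B Cfsg.Agent.Lib.T14C Cfsg.Agent.Lib.T14D

theorem main {G : Type*} [Group G] [Finite G]
    (T : Sylow 2 G) (ha : 2 ^ 14 ≤ Nat.card ↥(T : Subgroup G))
    (hb : Nat.card ↥(Subgroup.upperCentralSeries ↥(T : Subgroup G) 4) = 16)
    (W : Subgroup ↥(T : Subgroup G))
    (hW : W = Subgroup.centralizer ((Subgroup.upperCentralSeries ↥(T : Subgroup G) 3 : Subgroup ↥(T : Subgroup G)) : Set ↥(T : Subgroup G)))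
    (hc : Nat.card ↥(frattini ↥W) ≤ 8)
    (hd : ∀ U : Subgroup ↥W, U.index ≤ 16 → frattini ↥W ≤ U) :
    Cfsg.HasNormalPComplement 2 ↥(Subgroup.normalizer ((T : Subgroup G) : Set G)) ∧
      Cfsg.IsWeaklyClosed (W.map (T : Subgroup G).subtype) (T : Subgroup G) := by
  have : Fact (Nat.Prime 2) := ⟨Nat.prime_two⟩
  have hTp : IsPGroup 2 ↥(T : Subgroup G) := T.isPGroup'
  have h := stage1 hTp ha hb W hW hc hd
  constructor
  · -- the normal complement
    let N := Subgroup.normalizer ((T : Subgroup G) : Set G)
    let P : Sylow 2 ↥N := T.subtype Subgroup.le_normalizer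
    have hPc : (P : Subgroup ↥N) = (T : Subgroup G).subgroupOf N := T.coe_subtype _
    have hPn : (P : Subgroup ↥N).Normal := by
      rw [hPc]
      exact Subgroup.normal_in_normalizer
    have hcop := P.card_coprime_index
    obtain ⟨K, hK⟩ := Subgroup.exists_right_complement'_of_coprime hcop
    have hcardP : Nat.card (P : Subgroup ↥N) = Nat.card ↥(T : Subgroup G) := by
      rw [hPc]
      exact Nat.card_congr (Subgroup.subgroupOfEquivOfLe Subgroup.le_normalizer).toEquiv
    have hPi : Odd (P : Subgroup ↥N).index := by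
      rw [← Nat.not_even_iff_odd, even_iff_two_dvd]
      intro h2
      have h3 : 2 ∣ Nat.card (P : Subgroup ↥N) := by
        rw [h.card] at hcardP
        rw [hcardP]
        exact dvd_pow_self 2 (by norm_num)
      have := Nat.dvd_gcd h3 h2
      rw [hcop] at this
      omega
    -- the elements of `K` centralize `T`
    have hKc : ∀ k ∈ K, ∀ p ∈ (P : Subgroup ↥N), p * k = k * p := by
      intro k hk p hp
      have hord : Odd (orderOf k) := by
        have h1 : orderOf k ∣ Nat.card K := by
          have := orderOf_dvd_natCard (⟨k, hk⟩ : K)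
          rwa [Subgroup.orderOf_mk] at this
        rw [← hK.symm.index_eq_card] at h1
        exact hPi.of_dvd_nat h1
      have h1 : (T : Subgroup G).normalizerMonoidHom k = 1 := by
        apply aut_trivial h _ hord
        rw [← map_pow, pow_orderOf_eq_one, map_one]
      have h2 : k ∈ (T : Subgroup G).normalizerMonoidHom.ker := h1
      rw [Subgroup.normalizerMonoidHom_ker, Subgroup.mem_subgroupOf,
        Subgroup.mem_centralizer_iff] at h2
      have hp' : ((p : ↥N) : G) ∈ (T : Subgroup G) := by
        rw [hPc] at hp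
        exact Subgroup.mem_subgroupOf.mp hp
      apply Subtype.ext
      exact h2 _ hp'
    have hKn : K.Normal := by
      constructor
      intro k hk g
      obtain ⟨⟨⟨p, hp⟩, ⟨k', hk'⟩⟩, hpk, -⟩ := hK.existsUnique g
      have hpk' : p * k' = g := hpk
      rw [← hpk']
      have hu : k' * k * k'⁻¹ ∈ K := K.mul_mem (K.mul_mem hk' hk) (K.inv_mem hk')
      have h3 := hKc _ hu p hp
      have h4 : p * k' * k * (p * k')⁻¹ = k' * k * k'⁻¹ := by
        calc p * k' * k * (p * k')⁻¹ = p * (k' * k * k'⁻¹) * p⁻¹ := by group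
          _ = (k' * k * k'⁻¹) * p * p⁻¹ := by rw [h3]
          _ = _ := by group
      rw [h4]
      exact hu
    exact ⟨P, K, hKn, hK.symm⟩
  · -- weak closure
    refine ⟨Subgroup.map_subtype_le W, ?_⟩
    intro g hg
    have hmem : ∀ w : ↥W, g * ((w : ↥(T : Subgroup G)) : G) * g⁻¹ ∈ (T : Subgroup G) := by
      intro w
      apply hg
      exact ⟨_, ⟨w, w.2, rfl⟩, rfl⟩
    let φ : ↥W →* ↥(T : Subgroup G) :=
      { toFun := fun w => ⟨g * ((w : ↥(T : Subgroup G)) : G) * g⁻¹, hmem w⟩
        map_one' := by
          apply Subtype.ext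
          simp
        map_mul' := by
          intro a b
          apply Subtype.ext
          simp only [Subgroup.coe_mul]
          group }
    have hφ : Function.Injective φ := by
      intro a b hab
      have h1 : g * ((a : ↥(T : Subgroup G)) : G) * g⁻¹ = g * ((b : ↥(T : Subgroup G)) : G) * g⁻¹ :=
        congrArg Subtype.val hab
      have h2 : ((a : ↥(T : Subgroup G)) : G) = b := by
        have := mul_left_cancel (mul_right_cancel h1)
        exact this
      exact Subtype.ext (Subtype.ext h2)
    have h1 := range_eq h φ hφ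
    ext x
    constructor
    · rintro ⟨_, ⟨w, hw, rfl⟩, rfl⟩
      have h2 : φ ⟨w, hw⟩ ∈ φ.range := ⟨_, rfl⟩
      rw [h1] at h2
      exact ⟨_, h2, rfl⟩
    · rintro ⟨_, hw, rfl⟩
      rw [← h1] at hw
      obtain ⟨w, rfl⟩ := hw
      exact ⟨_, ⟨w, w.2, rfl⟩, rfl⟩

end

/-- Let G be a finite group whose Sylow 2-subgroup T has order at least 2^14 and whose upper central series has fourth term of order 16; let W be the centralizer in T of the third term, and suppose the Frattini subgroup of W has order at most 8 and lies in every subgroup of W of index at most 16. Then the normalizer of T in G has a normal 2-complement, and W is weakly closed in T with respect to G. -/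
theorem result {G : Type*} [Group G] [Finite G]
    (T : Sylow 2 G) (ha : 2 ^ 14 ≤ Nat.card ↥(T : Subgroup G))
    (hb : Nat.card ↥(Subgroup.upperCentralSeries ↥(T : Subgroup G) 4) = 16)
    (W : Subgroup ↥(T : Subgroup G))
    (hW : W = Subgroup.centralizer ((Subgroup.upperCentralSeries ↥(T : Subgroup G) 3 : Subgroup ↥(T : Subgroup G)) : Set ↥(T : Subgroup G)))
    (hc : Nat.card ↥(frattini ↥W) ≤ 8)
    (hd : ∀ U : Subgroup ↥W, U.index ≤ 16 → frattini ↥W ≤ U) :
    Cfsg.HasNormalPComplement 2 ↥(Subgroup.normalizer ((T : Subgroup G) : Set G)) ∧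
      Cfsg.IsWeaklyClosed (W.map (T : Subgroup G).subtype) (T : Subgroup G) :=
  main T ha hb W hW hc hd

end Cfsg.Agent.S3175
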