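import Mathlib
import Cfsg.Statements.S3178
import Cfsg.Agent.Lib.NPCBasic
import Cfsg.Agent.Lib.NormalKlein2
import Cfsg.Agent.Lib.SylowConjLemmas

set_option autoImplicit false
open Cfsg

namespace Cfsg.Agent.S3178

/-- A normal complement lifts through a normal subgroup of `p`-power index. -/
theorem hasNPC_of_normal_index {G : Type*} [Group G] [Finite G] {p : ℕ} [hp : Fact p.Prime]
    (K : Subgroup G) [hK : K.Normal] (j : ℕ) (hj : K.index = p ^ j)
    (h : HasNormalPComplement p K) : HasNormalPComplement p G := by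
  rw [Cfsg.Agent.Lib.NPCBasic.hasNPC_iff] at h ⊢
  obtain ⟨N, hN, hc, i, hi⟩ := h
  have hcard : Nat.card (N.map K.subtype) = Nat.card N :=
    Subgroup.card_map_of_injective K.subtype_injective
  refine ⟨N.map K.subtype, ?_, by rw [hcard]; exact hc, i + j, ?_⟩
  · constructor
    rintro _ ⟨n, hn, rfl⟩ g
    have hgK : g * (n : G) * g⁻¹ ∈ K := hK.conj_mem _ n.2 g
    refine ⟨⟨_, hgK⟩, ?_, rfl⟩
    -- image in the quotient is trivial
    set y : K := ⟨_, hgK⟩ with hy
    have hy1 : y ^ Nat.card N = 1 := by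
      apply Subtype.ext
      show (g * (n : G) * g⁻¹) ^ Nat.card N = 1
      rw [conj_pow]
      have : n ^ Nat.card N = 1 := by
        have : (⟨n, hn⟩ : N) ^ Nat.card N = 1 := pow_card_eq_one'
        exact congrArg Subtype.val this
      have h2 : (n : G) ^ Nat.card N = 1 := by
        have := congrArg Subtype.val this
        simpa using this
      rw [h2]; group
    have h3 : (QuotientGroup.mk y : K ⧸ N) ^ Nat.card N = 1 := by
      rw [← QuotientGroup.mk_pow, hy1]; rfl
    have h4 : (QuotientGroup.mk y : K ⧸ N) ^ p ^ i = 1 := by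
      have : (QuotientGroup.mk y : K ⧸ N) ^ Nat.card (K ⧸ N) = 1 := pow_card_eq_one'
      rwa [← Subgroup.index_eq_card, hi] at this
    have h5 : orderOf (QuotientGroup.mk y : K ⧸ N) = 1 := by
      apply Nat.eq_one_of_dvd_coprimes (hc.pow_right i) (orderOf_dvd_of_pow_eq_one h3)
        (orderOf_dvd_of_pow_eq_one h4)
    rw [orderOf_eq_one_iff] at h5
    exact (QuotientGroup.eq_one_iff y).mp h5
  · rw [Subgroup.index_map_subtype, hi, hj, pow_add]

/-- Cyclic Sylow `2`-subgroups give a normal `2`-complement. -/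
theorem hasNPC_of_cyclic {K : Type*} [Group K] [Finite K] (h2 : 2 ∣ Nat.card K) (P : Sylow 2 K)
    (hP : IsCyclic (P : Subgroup K)) : HasNormalPComplement 2 K := by
  have hmin : (Nat.card K).minFac = 2 := (Nat.minFac_eq_two_iff _).2 h2
  exact ⟨P, _, MonoidHom.normal_ker _, IsCyclic.isComplement' hmin hP⟩

/-- Groups with a modular Sylow 2-subgroup have a normal 2-complement. Let S, of order 2^(n+1) with n ≥ 3, be a Sylow 2-subgroup of a finite group G, and suppose S contains an element a of order 2^n and an involution b with b a b⁻¹ = a^(2^(n-1) + 1); so S is the non-abelian 2-group with a cyclic subgroup of index 2 that is neither dihedral, semidihedral nor generalized quaternion. Then G has a normal 2-complement. -/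
theorem result {G : Type*} [Group G] [Finite G]
    (S : Sylow 2 G) (n : ℕ) (hn : 3 ≤ n) (hS : Nat.card ↥(S : Subgroup G) = 2 ^ (n + 1))
    (a b : G) (ha : a ∈ (S : Subgroup G)) (hb : b ∈ (S : Subgroup G))
    (hao : orderOf a = 2 ^ n) (hbo : orderOf b = 2) (hrel : b * a * b⁻¹ = a ^ (2 ^ (n - 1) + 1)) :
    Cfsg.HasNormalPComplement 2 G := by
  classical
  have hp : Fact (Nat.Prime 2) := ⟨Nat.prime_two⟩
  obtain ⟨m, rfl⟩ : ∃ m, n = m + 3 := ⟨n - 3, by omega⟩
  have hrel' : b * a * b⁻¹ = a ^ (2 ^ (m + 2) + 1) := hrel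
  set S' : Subgroup G := (S : Subgroup G) with hS'
  have hb2 : b ^ 2 = 1 := by rw [← hbo]; exact pow_orderOf_eq_one b
  have hb1 : b ≠ 1 := by
    rintro rfl
    simp at hbo
  have ha2n : a ^ 2 ^ (m + 3) = 1 := by rw [← hao]; exact pow_orderOf_eq_one a
  set c := a ^ 2 ^ (m + 2) with hc
  have hc2 : c * c = 1 := by
    rw [hc, ← pow_add, ← ha2n]; congr 1; ring
  have hc1 : c ≠ 1 := by
    intro h
    have := orderOf_dvd_of_pow_eq_one h
    rw [hao] at this
    have h2 := (Nat.pow_dvd_pow_iff_le_right (by norm_num : 1 < 2)).1 this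
    omega
  -- `b` inverts nothing: relation on powers
  have hbc : b * c * b⁻¹ = c := by
    rw [hc, ← conj_pow, hrel', ← pow_mul]
    have : (2 ^ (m + 2) + 1) * 2 ^ (m + 2) = 2 ^ (m + 3) * 2 ^ (m + 1) + 2 ^ (m + 2) := by ring
    rw [this, pow_add, pow_mul, ha2n, one_pow, one_mul]
  have hba2 : b * a ^ 2 * b⁻¹ = a ^ 2 := by
    rw [← conj_pow, hrel', ← pow_mul]
    have : (2 ^ (m + 2) + 1) * 2 = 2 ^ (m + 3) + 2 := by ring
    rw [this, pow_add, ha2n, one_mul]
  have hbnotcomm : b * a * b⁻¹ ≠ a := by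
    rw [hrel', pow_succ, hc.symm]
    intro h
    exact hc1 (by simpa using h)
  -- index two facts
  have hidx : ∀ a' ∈ S', orderOf a' = 2 ^ (m + 3) →
      ((Subgroup.zpowers a').subgroupOf S').index = 2 := by
    intro a' ha' hord
    have hle : Subgroup.zpowers a' ≤ S' := (Subgroup.zpowers_le).2 ha'
    have h1 := Subgroup.card_mul_index ((Subgroup.zpowers a').subgroupOf S')
    have h2 : Nat.card ((Subgroup.zpowers a').subgroupOf S') = 2 ^ (m + 3) := by
      rw [Nat.card_congr (Subgroup.subgroupOfEquivOfLe hle).toEquiv, Nat.card_zpowers, hord]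
    rw [h2, hS] at h1
    have h3 : 2 ^ (m + 3) * ((Subgroup.zpowers a').subgroupOf S').index = 2 ^ (m + 3) * 2 := by
      rw [h1]; ring
    exact Nat.eq_of_mul_eq_mul_left (by positivity) h3
  have hmul_mem : ∀ a' ∈ S', orderOf a' = 2 ^ (m + 3) → ∀ s ∈ S', ∀ t ∈ S', s ∉ Subgroup.zpowers a' →
      t ∉ Subgroup.zpowers a' → s * t ∈ Subgroup.zpowers a' := by
    intro a' ha' hord s hs t ht hs' ht'
    have := (Subgroup.mul_mem_iff_of_index_two (hidx a' ha' hord) (a := ⟨s, hs⟩) (b := ⟨t, ht⟩)).2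
      (iff_of_false hs' ht')
    exact this
  set M := Subgroup.zpowers a with hM
  have hsqM : ∀ s ∈ S', s ^ 2 ∈ M := by
    intro s hs
    exact Subgroup.sq_mem_of_index_two (hidx a ha hao) ⟨s, hs⟩
  -- unique involution of `M`
  have hinv : ∀ x ∈ M, x ^ 2 = 1 → x ≠ 1 → x = c := by
    intro x hx hx2 hx1
    obtain ⟨i, rfl⟩ := (Submonoid.mem_powers_iff _ _).1 (mem_powers_iff_mem_zpowers.2 hx : x ∈ Submonoid.powers a)
    rw [← pow_mul] at hx2
    have h1 := orderOf_dvd_of_pow_eq_one hx2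
    rw [hao] at h1
    have h2 : 2 ^ (m + 2) ∣ i := by
      have : 2 * 2 ^ (m + 2) ∣ 2 * i := by
        have e : 2 * 2 ^ (m + 2) = 2 ^ (m + 3) := by ring
        rw [e, mul_comm 2 i]; exact h1
      exact Nat.dvd_of_mul_dvd_mul_left (by norm_num) this
    obtain ⟨j, rfl⟩ := h2
    rw [pow_mul] at hx1 ⊢
    have hc2' : (a ^ 2 ^ (m + 2)) ^ 2 = 1 := by rw [sq]; exact hc2
    rcases Nat.even_or_odd' j with ⟨r, rfl | rfl⟩
    · exfalso
      apply hx1
      rw [pow_mul, hc2', one_pow]
    · rw [pow_succ, pow_mul, hc2', one_pow, one_mul]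
  have hbM : b ∉ M := by
    intro h
    apply hbnotcomm
    obtain ⟨k, rfl⟩ := h
    have : a ^ k * a = a * a ^ k := (Commute.refl a).zpow_left k |>.eq
    rw [this]
    group
  -- `c` commutes with `S`
  have hcS : ∀ s ∈ S', s * c = c * s := by
    have hcM : ∀ s ∈ M, s * c = c * s := by
      rintro _ ⟨k, rfl⟩
      exact ((Commute.refl a).pow_right _).zpow_left k
    have hcb : b * c = c * b := by
      calc b * c = (b * c * b⁻¹) * b := by group
        _ = c * b := by rw [hbc]
    intro s hs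
    by_cases h : s ∈ M
    · exact hcM s h
    · have h1 := hmul_mem a ha hao s hs b hb h hbM
      have h2 := hcM _ h1
      have h3 : s = (s * b) * b⁻¹ := by group
      have hcb' : b⁻¹ * c = c * b⁻¹ := by
        calc b⁻¹ * c = b⁻¹ * (c * b) * b⁻¹ := by group
          _ = b⁻¹ * (b * c) * b⁻¹ := by rw [hcb]
          _ = c * b⁻¹ := by group
      rw [h3]
      calc (s * b) * b⁻¹ * c = (s * b) * (b⁻¹ * c) := by group
        _ = (s * b) * (c * b⁻¹) := by rw [hcb']
        _ = ((s * b) * c) * b⁻¹ := by group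
        _ = (c * (s * b)) * b⁻¹ := by rw [h2]
        _ = c * (s * b * b⁻¹) := by group
  -- no conjugate of `b` lies in `M`
  have hno : ∀ g : G, g⁻¹ * b * g ∉ M := by
    intro g hg
    have hg2 : (g⁻¹ * b * g) ^ 2 = 1 := by
      have := conj_pow (a := g⁻¹) (b := b) (i := 2)
      rw [inv_inv] at this
      rw [this, hb2]; group
    have hg1 : g⁻¹ * b * g ≠ 1 := by
      intro h
      apply hb1
      have h2 : b = g * (g⁻¹ * b * g) * g⁻¹ := by group
      rw [h2, h]; group
    have hgc : g⁻¹ * b * g = c := hinv _ hg hg2 hg1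
    -- conjugation into `S`
    set h := g⁻¹ with hh
    have hhb : h * b * h⁻¹ = c := by rw [hh, inv_inv]; exact hgc
    let T : Subgroup G := (Subgroup.zpowers (a ^ 2)).map (MulAut.conj h).toMonoidHom
    let C : Subgroup G := Subgroup.centralizer {c}
    have hSC : S' ≤ C := by
      intro s hs
      rw [Subgroup.mem_centralizer_singleton_iff]
      exact hcS s hs
    have hTp : IsPGroup 2 T := by
      apply IsPGroup.map
      have hle : Subgroup.zpowers (a ^ 2) ≤ S' :=
        (Subgroup.zpowers_le).2 (Subgroup.pow_mem _ ha 2)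
      exact S.isPGroup'.to_le hle
    have hTC : T ≤ C := by
      rintro _ ⟨y, ⟨k, rfl⟩, rfl⟩
      rw [Subgroup.mem_centralizer_singleton_iff]
      show h * (a ^ 2) ^ k * h⁻¹ * c = c * (h * (a ^ 2) ^ k * h⁻¹)
      have h1 : b * (a ^ 2) ^ k * b⁻¹ = (a ^ 2) ^ k := by
        rw [← conj_zpow, hba2]
      have h2 : (a ^ 2) ^ k * b = b * (a ^ 2) ^ k := by
        calc (a ^ 2) ^ k * b = (b * (a ^ 2) ^ k * b⁻¹) * b := by rw [h1]
          _ = b * (a ^ 2) ^ k := by group
      rw [← hhb]
      calc h * (a ^ 2) ^ k * h⁻¹ * (h * b * h⁻¹) = h * ((a ^ 2) ^ k * b) * h⁻¹ := by group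
        _ = h * (b * (a ^ 2) ^ k) * h⁻¹ := by rw [h2]
        _ = h * b * h⁻¹ * (h * (a ^ 2) ^ k * h⁻¹) := by group
    obtain ⟨k, hkC, hkT⟩ := Cfsg.Agent.Lib.SylowConjLemmas.exists_conj_mem_of_le S C hSC T hTp hTC
    have hkc : k * c * k⁻¹ = c := by
      rw [Subgroup.mem_centralizer_singleton_iff] at hkC
      rw [hkC]; group
    set g' := k * h with hg'
    have hg'b : g' * b * g'⁻¹ = c := by
      rw [hg', ← hkc, ← hhb]; group
    have hv : g' * a ^ 2 * g'⁻¹ ∈ S' := by
      have h1 : h * a ^ 2 * h⁻¹ ∈ T := ⟨a ^ 2, Subgroup.mem_zpowers _, rfl⟩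
      have h2 := hkT _ h1
      have h3 : g' * a ^ 2 * g'⁻¹ = k * (h * a ^ 2 * h⁻¹) * k⁻¹ := by rw [hg']; group
      rw [h3]; exact h2
    set v := g' * a ^ 2 * g'⁻¹ with hv_def
    have hg'c : g' * c * g'⁻¹ = (v ^ 2 ^ m) ^ 2 := by
      have e : c = ((a ^ 2) ^ 2 ^ m) ^ 2 := by
        rw [hc, ← pow_mul, ← pow_mul]; congr 1; ring
      rw [e, ← conj_pow, ← conj_pow]
    have hmem : g' * c * g'⁻¹ ∈ M := by
      rw [hg'c]; exact hsqM _ (Subgroup.pow_mem _ hv _)
    have hne : g' * c * g'⁻¹ ≠ 1 := by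
      intro h0
      apply hc1
      have e : c = g'⁻¹ * (g' * c * g'⁻¹) * g' := by group
      rw [e, h0]; group
    have hsq : (g' * c * g'⁻¹) ^ 2 = 1 := by
      rw [conj_pow, sq c, hc2]; group
    have heq : g' * c * g'⁻¹ = c := hinv _ hmem hsq hne
    have hbc' : b = c := by
      have h3 : g' * c * g'⁻¹ = g' * b * g'⁻¹ := by rw [heq, hg'b]
      exact (mul_left_cancel (mul_right_cancel h3)).symm
    apply hbM
    rw [hbc', hc]
    exact Subgroup.npow_mem_zpowers _ _
  -- sign of the action on `G ⧸ M`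
  have hMle : M ≤ S' := (Subgroup.zpowers_le).2 ha
  obtain ⟨r, hr⟩ : ∃ r : ℕ, M.index = 2 * (2 * r + 1) := by
    have h1 := Subgroup.relIndex_mul_index hMle
    have h2 : M.relIndex S' = 2 := hidx a ha hao
    have h3 : ¬ 2 ∣ S'.index := S.not_dvd_index
    obtain ⟨r, hr⟩ := Nat.odd_iff.2 (Nat.two_dvd_ne_zero.1 h3)
    exact ⟨r, by rw [← h1, h2, hr]⟩
  have : Fintype (G ⧸ M) := Fintype.ofFinite _
  let σ : Equiv.Perm (G ⧸ M) := MulAction.toPermHom G (G ⧸ M) b
  have hfree : ∀ q, σ q ≠ q := by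
    intro q
    induction q using QuotientGroup.induction_on with
    | H g =>
      intro h
      exact hno g ((Cfsg.Agent.Lib.StronglyEmbedded.smul_coe_eq_iff M b g).1 h)
  have hσ2 : σ * σ = 1 := by
    have : σ * σ = MulAction.toPermHom G (G ⧸ M) (b * b) := by
      rw [map_mul]
    rw [this, ← pow_two, hb2, map_one]
  have hcard : Fintype.card (G ⧸ M) = 2 * (2 * r + 1) := by
    rw [← Nat.card_eq_fintype_card]
    exact hr
  have hsign := Cfsg.Agent.Lib.NormalKlein2.sign_of_fpf_involution σ hσ2 hfree r hcard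
  let f : G →* ℤˣ := (Equiv.Perm.sign).comp (MulAction.toPermHom G (G ⧸ M))
  have hfb : f b = -1 := hsign
  have hfs : Function.Surjective f := by
    intro u
    rcases Int.units_eq_one_or u with rfl | rfl
    · exact ⟨1, map_one f⟩
    · exact ⟨b, hsign⟩
  set K := f.ker with hK
  have hKidx : K.index = 2 := by
    rw [hK, Subgroup.index_ker, MonoidHom.range_eq_top.2 hfs]
    simp
  have hKn : K.Normal := MonoidHom.normal_ker f
  have hbK : b ∉ K := by
    intro h
    have h1 : f b = 1 := h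
    rw [hfb] at h1
    exact absurd h1 (by decide)
  -- a cyclic subgroup of index two in `S` inside `K`
  obtain ⟨a₁, ha₁S, ha₁K, ha₁o, hba₁⟩ : ∃ a₁ ∈ S', a₁ ∈ K ∧ orderOf a₁ = 2 ^ (m + 3) ∧
      b ∉ Subgroup.zpowers a₁ := by
    by_cases haK : a ∈ K
    · exact ⟨a, ha, haK, hao, hbM⟩
    · refine ⟨a * b, Subgroup.mul_mem _ ha hb, ?_, ?_, ?_⟩
      · exact (Subgroup.mul_mem_iff_of_index_two hKidx).2 (iff_of_false haK hbK)
      · have hsq : (a * b) ^ 2 = a ^ (2 ^ (m + 2) + 2) := by
          rw [sq]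
          calc a * b * (a * b) = a * (b * a * b⁻¹) * (b * b) := by group
            _ = a * a ^ (2 ^ (m + 2) + 1) * 1 := by rw [hrel', ← sq, hb2]
            _ = a ^ (2 ^ (m + 2) + 2) := by rw [mul_one, ← pow_succ']
        have hpow : (a * b) ^ 2 ^ (m + 2) = c := by
          have e : 2 ^ (m + 2) = 2 * 2 ^ (m + 1) := by ring
          rw [e, pow_mul, hsq, ← pow_mul]
          have e2 : (2 ^ (m + 2) + 2) * 2 ^ (m + 1) = 2 ^ (m + 3) * 2 ^ m + 2 ^ (m + 2) := by ring
          rw [e2, pow_add, pow_mul, ha2n, one_pow, one_mul]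
        apply orderOf_eq_prime_pow (p := 2)
        · rw [hpow]; exact hc1
        · rw [pow_succ, pow_mul, hpow, sq]; exact hc2
      · intro h
        apply hbnotcomm
        obtain ⟨k, hk⟩ := h
        have hcomm : b * (a * b) = (a * b) * b := by
          have hk' : (a * b) ^ k = b := hk
          have : (a * b) ^ k * (a * b) = (a * b) * (a * b) ^ k := (Commute.refl (a * b)).zpow_left k |>.eq
          rw [hk'] at this
          exact this
        have h2 : b * a = a * b := by
          have h3 : (b * a) * b = (a * b) * b := by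
            rw [mul_assoc b a b]; exact hcomm
          exact mul_right_cancel h3
        rw [h2]; group
  have hK_le : ∀ s ∈ S', s ∈ K → s ∈ Subgroup.zpowers a₁ := by
    intro s hs hsK
    by_contra hcon
    have h1 := hmul_mem a₁ ha₁S ha₁o s hs b hb hcon hba₁
    have h2 : Subgroup.zpowers a₁ ≤ K := (Subgroup.zpowers_le).2 ha₁K
    have h3 := h2 h1
    have h4 := (Subgroup.mul_mem_cancel_left K hsK).1 h3
    exact hbK h4
  -- apply Burnside to `K`
  obtain ⟨P₀⟩ : Nonempty (Sylow 2 K) := inferInstance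
  let T : Subgroup G := (P₀ : Subgroup K).map K.subtype
  have hTp : IsPGroup 2 T := P₀.isPGroup'.map K.subtype
  obtain ⟨k, -, hkT⟩ := Cfsg.Agent.Lib.SylowConjLemmas.exists_conj_mem_of_le S ⊤ le_top T hTp le_top
  let φ : (P₀ : Subgroup K) →* G := (MulAut.conj k).toMonoidHom.comp (K.subtype.comp (P₀ : Subgroup K).subtype)
  have hφinj : Function.Injective φ := by
    apply (MulAut.conj k).injective.comp
    exact K.subtype_injective.comp (P₀ : Subgroup K).subtype_injective
  have hφmem : ∀ x, φ x ∈ Subgroup.zpowers a₁ := by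
    intro x
    apply hK_le
    · exact hkT _ ⟨x, x.2, rfl⟩
    · exact hKn.conj_mem _ x.1.2 k
  let φ' : (P₀ : Subgroup K) →* Subgroup.zpowers a₁ := φ.codRestrict _ hφmem
  have hφ'inj : Function.Injective φ' := by
    intro x y hxy
    apply hφinj
    exact congrArg Subtype.val hxy
  have hcyc : IsCyclic (P₀ : Subgroup K) := isCyclic_of_injective φ' hφ'inj
  have h2K : 2 ∣ Nat.card K := by
    have h1 : orderOf a₁ ∣ Nat.card K := Subgroup.orderOf_dvd_natCard K ha₁K
    rw [ha₁o] at h1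
    exact (dvd_pow_self 2 (by omega)).trans h1
  have hKNPC := hasNPC_of_cyclic h2K P₀ hcyc
  exact hasNPC_of_normal_index K 1 (by rw [hKidx, pow_one]) hKNPC

end Cfsg.Agent.S3178
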