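import Mathlib
import Cfsg.Statements.S3179
import Cfsg.Agent.S0280
import Cfsg.Agent.S1163
import Cfsg.Agent.Lib.ClassicalSmall
import Cfsg.Agent.Lib.SelfCent

set_option autoImplicit false
open Cfsg

namespace Cfsg.Agent.S3179

abbrev GL5 : Type := GL (Fin 5) (ZMod 2)
abbrev V5 : Type := Fin 5 → ZMod 2

theorem card_GL5 : Nat.card GL5 = 9999360 := by
  rw [Matrix.card_GL_field]
  simp [ZMod.card, Fin.prod_univ_succ]

instance actGL5 : MulAction GL5 V5 where
  smul g v := (g : Matrix (Fin 5) (Fin 5) (ZMod 2)).mulVec v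
  one_smul v := by
    change ((1 : GL5) : Matrix (Fin 5) (Fin 5) (ZMod 2)).mulVec v = v
    simp
  mul_smul g h v := by
    change ((g * h : GL5) : Matrix (Fin 5) (Fin 5) (ZMod 2)).mulVec v =
      (g : Matrix (Fin 5) (Fin 5) (ZMod 2)).mulVec ((h : Matrix (Fin 5) (Fin 5) (ZMod 2)).mulVec v)
    rw [Matrix.mulVec_mulVec]
    rfl

theorem smul_def (g : GL5) (v : V5) : g • v = (g : Matrix (Fin 5) (Fin 5) (ZMod 2)).mulVec v := rfl

theorem smul_add' (g : GL5) (v w : V5) : g • (v + w) = g • v + g • w := by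
  simp only [smul_def, Matrix.mulVec_add]

theorem smul_zero' (g : GL5) : g • (0 : V5) = 0 := by
  simp only [smul_def, Matrix.mulVec_zero]

theorem no_order_nine (g : GL5) : orderOf g ≠ 9 := by
  classical
  intro h9
  have h3 : g ^ 3 ≠ 1 := pow_ne_one_of_lt_orderOf (by norm_num) (by omega)
  have h9' : g ^ 9 = 1 := by rw [← h9]; exact pow_orderOf_eq_one g
  let Y : SubMulAction (Subgroup.zpowers g) V5 :=
    { carrier := {v | g ^ 3 • v ≠ v}
      smul_mem' := by
        rintro ⟨s, hs⟩ v hv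
        obtain ⟨k, rfl⟩ := Subgroup.mem_zpowers_iff.mp hs
        intro hc
        apply hv
        change g ^ 3 • (g ^ k • v) = g ^ k • v at hc
        rw [← mul_smul, (show Commute (g ^ 3) (g ^ k) from
          (Commute.refl g).pow_left 3 |>.zpow_right k).eq, mul_smul] at hc
        exact (MulAction.injective (g ^ k)) hc }
  have hfree : ∀ y : Y, ∀ s : Subgroup.zpowers g, s • y = y → s = 1 := by
    rintro ⟨v, hv⟩ ⟨s, hs⟩ hsv
    have hsv' : s • v = v := congrArg Subtype.val hsv
    obtain ⟨k, hk⟩ := (mem_powers_iff_mem_zpowers).mpr hs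
    -- reduce the exponent modulo 9
    have hk9 : s = g ^ (k % 9) := by
      have hk' : g ^ k = s := hk
      rw [← hk']
      exact pow_eq_pow_mod k h9'
    have hlt : k % 9 < 9 := Nat.mod_lt _ (by norm_num)
    apply Subtype.ext
    change s = 1
    by_contra hne
    apply hv
    generalize k % 9 = r at hk9 hlt
    have key : ∀ j : ℕ, g ^ (r * j) • v = v := by
      intro j
      rw [pow_mul, ← hk9]
      induction j with
      | zero => simp
      | succ j ih => rw [pow_succ, mul_smul, hsv', ih]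
    have hred : ∀ j : ℕ, (r * j) % 9 = 3 → g ^ 3 • v = v := by
      intro j hj
      have := key j
      rw [← Nat.div_add_mod (r * j) 9, pow_add, pow_mul, h9', one_pow, one_mul, hj] at this
      exact this
    interval_cases r
    · exact absurd (by simpa using hk9) hne
    · exact hred 3 (by norm_num)
    · exact hred 6 (by norm_num)
    · exact hred 1 (by norm_num)
    · exact hred 3 (by norm_num)
    · exact hred 6 (by norm_num)
    · exact hred 2 (by norm_num)
    · exact hred 3 (by norm_num)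
    · exact hred 6 (by norm_num)
  have hdvd := Cfsg.Agent.Lib.SelfCent.card_dvd_of_free hfree
  have hcz : Nat.card (Subgroup.zpowers g) = 9 := by rw [Nat.card_zpowers, h9]
  rw [hcz] at hdvd
  let A : AddSubgroup V5 :=
    { carrier := {v | g ^ 3 • v = v}
      add_mem' := by
        intro a b ha hb
        change g ^ 3 • (a + b) = a + b
        rw [smul_add']
        rw [show g ^ 3 • a = a from ha, show g ^ 3 • b = b from hb]
      zero_mem' := smul_zero' _
      neg_mem' := by
        intro a ha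
        have hneg : ∀ w : V5, -w = w := fun w => by
          funext i
          exact ZMod.neg_eq_self_mod_two (w i)
        rw [hneg]
        exact ha }
  have hV : Nat.card V5 = 32 := by
    simp [Nat.card_eq_fintype_card, ZMod.card]
  have hAdvd : Nat.card A ∣ 32 := by
    rw [← hV]
    exact AddSubgroup.card_addSubgroup_dvd_card A
  have hsum : Nat.card A + Nat.card Y = 32 := by
    have h := Set.ncard_add_ncard_compl (A : Set V5)
    rw [hV] at h
    rw [← h, ← Nat.card_coe_set_eq, ← Nat.card_coe_set_eq]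
    rfl
  have hY : 0 < Nat.card Y := by
    have hne : ∃ v : V5, g ^ 3 • v ≠ v := by
      by_contra hall
      push Not at hall
      apply h3
      apply Units.ext
      apply Matrix.mulVec_injective
      funext v
      simpa [smul_def] using hall v
    obtain ⟨v, hv⟩ := hne
    have : Nonempty Y := ⟨⟨v, hv⟩⟩
    exact Nat.card_pos
  have hA32 : Nat.card A ≤ 32 := Nat.le_of_dvd (by norm_num) hAdvd
  obtain ⟨c, hc⟩ := hdvd
  generalize Nat.card A = a at *
  generalize Nat.card Y = y at *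
  have : a ∣ 32 := hAdvd
  interval_cases a <;> first | omega | (revert this; decide)


theorem card_section_dvd {H : Subgroup GL5} {K : Subgroup ↥H} [K.Normal] :
    Nat.card (↥H ⧸ K) ∣ 9999360 := by
  rw [← card_GL5]
  exact (Subgroup.card_quotient_dvd_card K).trans (Subgroup.card_subgroup_dvd_card H)

theorem no_section_order_nine {H : Subgroup GL5} {K : Subgroup ↥H} [K.Normal] (x : ↥H ⧸ K) :
    orderOf x ≠ 9 := by
  intro hx
  obtain ⟨h, rfl⟩ := QuotientGroup.mk'_surjective K x
  have hd : 9 ∣ orderOf h := by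
    rw [← hx]
    exact orderOf_map_dvd _ h
  have hpos : 0 < orderOf h := orderOf_pos h
  have h9 : orderOf (h ^ (orderOf h / 9)) = 9 := orderOf_pow_orderOf_div hpos.ne' hd
  apply no_order_nine ((h ^ (orderOf h / 9) : ↥H) : GL5)
  rw [Subgroup.orderOf_coe]
  exact h9

section PSL8

open Matrix

theorem exists_root {F : Type*} [Field F] [Fintype F] (hF : Fintype.card F = 8) :
    ∃ t : F, t ^ 3 + t + 1 = 0 ∧ (2 : F) = 0 := by
  classical
  obtain ⟨p, hp⟩ := CharP.exists F
  have := hp
  obtain ⟨n, hnp, hcard⟩ := FiniteField.card F p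
  have hp2 : p = 2 := by
    have h8 : p ^ (n : ℕ) = 2 ^ 3 := by rw [← hcard, hF]; norm_num
    have := (Nat.prime_dvd_prime_iff_eq hnp Nat.prime_two).mp
      (hnp.dvd_of_dvd_pow (show p ∣ 2 ^ 3 from h8 ▸ dvd_pow_self p n.ne_zero))
    exact this
  subst hp2
  have h2 : (2 : F) = 0 := CharTwo.two_eq_zero
  have hex : ∃ a : F, a ≠ 0 ∧ a ≠ 1 := by
    by_contra hall
    push Not at hall
    have hle : Fintype.card F ≤ 2 := by
      have : (Finset.univ : Finset F) ⊆ {0, 1} := by
        intro a _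
        by_cases h0 : a = 0
        · simp [h0]
        · simp [hall a h0]
      calc Fintype.card F = (Finset.univ : Finset F).card := rfl
        _ ≤ ({0, 1} : Finset F).card := Finset.card_le_card this
        _ ≤ 2 := Finset.card_le_two
    omega
  obtain ⟨a, ha0, ha1⟩ := hex
  have h7 : a ^ 7 = 1 := by
    have := FiniteField.pow_card_sub_one_eq_one a ha0
    rwa [hF] at this
  have hprod : (a + 1) * ((a ^ 3 + a + 1) * (a ^ 3 + a ^ 2 + 1)) = 0 := by
    linear_combination h7 + (a ^ 6 + a ^ 5 + 2 * a ^ 4 + 2 * a ^ 3 + a ^ 2 + a + 1) * h2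
  have ha1' : a + 1 ≠ 0 := by
    intro h
    apply ha1
    linear_combination h - h2
  rcases mul_eq_zero.mp ((mul_eq_zero.mp hprod).resolve_left ha1') with h | h
  · exact ⟨a, h, h2⟩
  · refine ⟨a⁻¹, ?_, h2⟩
    field_simp
    linear_combination h

def matM {F : Type*} [Field F] (t : F) : Matrix (Fin 2) (Fin 2) F := !![0, 1; 1, t]

theorem matM_det {F : Type*} [Field F] (t : F) (h2 : (2 : F) = 0) : (matM t).det = 1 := by
  rw [matM, Matrix.det_fin_two_of]
  linear_combination (-1) * h2

def slM {F : Type*} [Field F] (t : F) (h2 : (2 : F) = 0) : SpecialLinearGroup (Fin 2) F :=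
  ⟨matM t, matM_det t h2⟩

theorem matM3 {F : Type*} [Field F] (t : F) (ht : t ^ 3 + t + 1 = 0) (h2 : (2 : F) = 0) :
    matM t ^ 3 = !![t, 1 + t ^ 2; 1 + t ^ 2, t + 1] := by
  rw [pow_succ, pow_two, matM, Matrix.mul_fin_two, Matrix.mul_fin_two]
  ext i j
  fin_cases i <;> fin_cases j <;> simp
  · ring
  · ring
  · linear_combination ht - h2

theorem matM9 {F : Type*} [Field F] (t : F) (ht : t ^ 3 + t + 1 = 0) (h2 : (2 : F) = 0) :
    matM t ^ 9 = 1 := by
  rw [show (9 : ℕ) = 3 + 3 + 3 by norm_num, pow_add, pow_add, matM3 t ht h2, Matrix.mul_fin_two,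
    Matrix.mul_fin_two]
  ext i j
  fin_cases i <;> fin_cases j <;> simp
  · linear_combination (4 + t + 3 * t ^ 2) * ht + (-2 - t - t ^ 2) * h2
  · linear_combination (2 + 5 * t + t ^ 3) * ht + (-2 * t + t ^ 2) * h2
  · linear_combination (2 + 5 * t + t ^ 3) * ht + (-2 * t + t ^ 2) * h2
  · linear_combination (4 + 2 * t + 3 * t ^ 2) * ht + (-1 + t ^ 2) * h2

theorem psl8_order_nine {F : Type*} [Field F] [Fintype F] (hF : Fintype.card F = 8) :
    ∃ x : ProjectiveSpecialLinearGroup (Fin 2) F, orderOf x = 9 := by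
  classical
  obtain ⟨t, ht, h2⟩ := exists_root hF
  let M := slM t h2
  refine ⟨QuotientGroup.mk M, ?_⟩
  have : Fact (Nat.Prime 3) := ⟨by norm_num⟩
  have hcoe : ∀ n : ℕ, ((M ^ n : SpecialLinearGroup (Fin 2) F) : Matrix (Fin 2) (Fin 2) F) =
      matM t ^ n := fun n => by
    rw [Matrix.SpecialLinearGroup.coe_pow]
    rfl
  have key := orderOf_eq_prime_pow (x := (QuotientGroup.mk M : ProjectiveSpecialLinearGroup (Fin 2) F))
    (p := 3) (n := 1) ?_ ?_
  · simpa using key
  · rw [pow_one, ← QuotientGroup.mk_pow, QuotientGroup.eq_one_iff,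
      Matrix.SpecialLinearGroup.mem_center_iff]
    rintro ⟨r, -, hr⟩
    have h := hcoe 3
    rw [matM3 t ht h2, ← hr] at h
    have h01 := congrFun (congrFun h 0) 1
    simp at h01
    have ht1 : t = 1 := by
      have hsq : (t + 1) ^ 2 = 0 := by
        linear_combination -h01 + (t) * h2
      have := pow_eq_zero_iff (n := 2) (by norm_num) |>.mp hsq
      linear_combination this - h2
    rw [ht1] at ht
    have : (1 : F) = 0 := by linear_combination ht - h2
    exact one_ne_zero this
  · rw [← QuotientGroup.mk_pow, QuotientGroup.eq_one_iff]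
    have : M ^ 3 ^ 2 = 1 := by
      apply Subtype.ext
      have := hcoe 9
      rw [matM9 t ht h2] at this
      simpa using this
    rw [show (3 : ℕ) ^ (1 + 1) = 3 ^ 2 by norm_num, this]
    exact one_mem _

end PSL8

theorem gcd_two_one {q : ℕ} (n : ℕ) (hn : 1 ≤ n) (hq : q = 2 ^ n) : Nat.gcd 2 (q - 1) = 1 := by
  have h1 : q % 2 = 0 := by
    subst hq
    obtain ⟨k, rfl⟩ : ∃ k, n = k + 1 := ⟨n - 1, by omega⟩
    rw [pow_succ]
    omega
  have h2 : 0 < q := by subst hq; positivity
  have : (q - 1) % 2 = 1 := by omega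
  rw [Nat.gcd_rec]
  simp [this]

theorem result {H : Subgroup (GL (Fin 5) (ZMod 2))}
    {K : Subgroup ↥H} [K.Normal]
    (hX : (∃ (n : ℕ) (F : Type) (_ : Field F) (_ : Fintype F), 2 ≤ n ∧ Fintype.card F = 2 ^ n ∧
        Nonempty (↥H ⧸ K ≃* Matrix.ProjectiveSpecialLinearGroup (Fin 2) F)) ∨
      (∃ (m : ℕ) (F : Type) (_ : Field F) (_ : Fintype F), 1 ≤ m ∧ Fintype.card F = 2 ^ (2 * m + 1) ∧
        Nonempty (↥H ⧸ K ≃* ↥(Cfsg.Lie.Sz F (2 ^ (m + 1))))) ∨
      (∃ (n : ℕ) (F : Type) (_ : Field F) (_ : Fintype F), 2 ≤ n ∧ Fintype.card F = 4 ^ n ∧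
        Nonempty (↥H ⧸ K ≃* Cfsg.PSU 3 F (2 ^ n)))) :
    ∃ (F : Type) (_ : Field F) (_ : Fintype F), Fintype.card F = 4 ∧
      Nonempty (↥H ⧸ K ≃* Matrix.ProjectiveSpecialLinearGroup (Fin 2) F) := by
  have hdvd : Nat.card (↥H ⧸ K) ∣ 9999360 := card_section_dvd
  have hbig : ¬ (2 ^ 11 ∣ 9999360) := by norm_num
  rcases hX with ⟨n, F, _, _, hn, hF, ⟨e⟩⟩ | ⟨m, F, _, _, hm, hF, ⟨e⟩⟩ | ⟨n, F, _, _, hn, hF, ⟨e⟩⟩
  · -- PSL
    by_cases hn2 : n = 2
    · subst hn2
      exact ⟨F, inferInstance, inferInstance, by rw [hF]; norm_num, ⟨e⟩⟩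
    exfalso
    have hcard := Cfsg.Agent.Lib.ClassicalSmall.card_PSL2 (F := F)
    rw [gcd_two_one n (by omega) hF, one_mul, Nat.card_congr e.symm.toEquiv, hF] at hcard
    rw [hcard] at hdvd
    by_cases hn3 : n = 3
    · subst hn3
      obtain ⟨x, hx⟩ := psl8_order_nine (F := F) (by rw [hF]; norm_num)
      apply no_section_order_nine (H := H) (K := K) (e.symm x)
      rw [MulEquiv.orderOf_eq, hx]
    by_cases hn10 : n ≤ 10
    · interval_cases n <;> omega
    · apply hbig
      refine dvd_trans ?_ hdvd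
      exact Dvd.dvd.mul_right (Dvd.dvd.mul_left (pow_dvd_pow 2 (by omega)) _) _
  · -- Suzuki
    exfalso
    have hcard := (Cfsg.Agent.S1163.result (F := F) hm hF).1
    have hc := (Nat.card_congr e.toEquiv).trans hcard
    rw [hc] at hdvd
    by_cases hm2 : m ≤ 2
    · interval_cases m <;> (revert hdvd; norm_num)
    · apply hbig
      refine dvd_trans ?_ hdvd
      refine Dvd.dvd.mul_right (Dvd.dvd.mul_right ?_ _) _
      rw [← pow_mul]
      exact pow_dvd_pow 2 (by omega)
  · -- PSU
    exfalso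
    have hF' : Fintype.card F = (2 ^ n) ^ 2 := by
      rw [hF, ← pow_mul, mul_comm, pow_mul]
      norm_num
    have hcard := Cfsg.Agent.S0280.result (F := F) hF' 3 (by norm_num)
    have hc := Nat.card_congr e.toEquiv
    rw [← hc] at hcard
    simp only [Finset.prod_range_succ, Finset.prod_range_zero] at hcard
    norm_num [Nat.even_iff] at hcard
    have hq1 : 0 < 2 ^ n + 1 := by positivity
    have hc' : Nat.gcd 3 (2 ^ n + 1) * Nat.card (↥H ⧸ K) =
        (2 ^ n) ^ 3 * (((2 ^ n) ^ 2 - 1) * ((2 ^ n) ^ 3 + 1)) := by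
      apply Nat.eq_of_mul_eq_mul_left hq1
      rw [mul_left_comm, hcard]
      ring
    have hd3 : Nat.gcd 3 (2 ^ n + 1) * Nat.card (↥H ⧸ K) ∣ 3 * 9999360 :=
      Nat.mul_dvd_mul (Nat.gcd_dvd_left _ _) hdvd
    rw [hc'] at hd3
    by_cases hn3 : n ≤ 3
    · interval_cases n <;> (revert hd3; norm_num)
    · have h12 : (2 : ℕ) ^ 12 ∣ 3 * 9999360 := by
        refine dvd_trans ?_ hd3
        refine Dvd.dvd.mul_right ?_ _
        rw [← pow_mul]
        exact pow_dvd_pow 2 (by omega)
      revert h12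
      norm_num

end Cfsg.Agent.S3179
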