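import Mathlib
import Cfsg.Statements.S3180

set_option autoImplicit false
open Cfsg

namespace Cfsg.Agent.S3180

theorem map_conj_map_conj {J : Type*} [Group J] (W : Subgroup J) (a b : J) :
    (W.map (MulAut.conj b).toMonoidHom).map (MulAut.conj a).toMonoidHom
      = W.map (MulAut.conj (a * b)).toMonoidHom := by
  rw [Subgroup.map_map]
  congr 1
  ext x
  simp [mul_assoc]

theorem map_conj_one {J : Type*} [Group J] (W : Subgroup J) :
    W.map (MulAut.conj (1 : J)).toMonoidHom = W := by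
  ext x
  simp

theorem wc_any {J : Type*} [Group J] [Finite J] {p : ℕ} [Fact p.Prime] (P : Sylow p J)
    (W : Subgroup J) (hW : IsWeaklyClosed W (P : Subgroup J)) (Q : Sylow p J)
    (hWQ : W ≤ (Q : Subgroup J)) (h : J) (hh : W.map (MulAut.conj h).toMonoidHom ≤ (Q : Subgroup J)) :
    W.map (MulAut.conj h).toMonoidHom = W := by
  obtain ⟨a, rfl⟩ := MulAction.exists_smul_eq J P Q
  have key : ∀ (V : Subgroup J), V ≤ ((a • P : Sylow p J) : Subgroup J) →
      V.map (MulAut.conj a⁻¹).toMonoidHom ≤ (P : Subgroup J) := by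
    intro V hV
    rintro _ ⟨v, hv, rfl⟩
    have := hV hv
    rw [Sylow.coe_subgroup_smul, Subgroup.mem_pointwise_smul_iff_inv_smul_mem] at this
    simpa [MulAut.smul_def] using this
  have h1 := hW.2 a⁻¹ (key W hWQ)
  have h2 := hW.2 (a⁻¹ * h) (by
    rw [← map_conj_map_conj]
    exact key _ hh)
  have h3 : W.map (MulAut.conj a).toMonoidHom = W := by
    conv_lhs => rw [← h1]
    rw [map_conj_map_conj, mul_inv_cancel, map_conj_one]
  calc W.map (MulAut.conj h).toMonoidHom
      = W.map (MulAut.conj (a * (a⁻¹ * h))).toMonoidHom := by simp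
    _ = (W.map (MulAut.conj (a⁻¹ * h)).toMonoidHom).map (MulAut.conj a).toMonoidHom := by
        rw [map_conj_map_conj]
    _ = W := by rw [h2, h3]

theorem conj_into_common {J : Type*} [Group J] [Finite J] {p : ℕ} [Fact p.Prime]
    (S A B : Subgroup J) (hA : IsPGroup p A) (hB : IsPGroup p B) (hAS : A ≤ S) (hBS : B ≤ S) :
    ∃ (Q : Sylow p J) (s : J), s ∈ S ∧ A ≤ (Q : Subgroup J) ∧
      B.map (MulAut.conj s).toMonoidHom ≤ (Q : Subgroup J) := by
  have hA' : IsPGroup p (A.subgroupOf S) := hA.comap_subtype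
  have hB' : IsPGroup p (B.subgroupOf S) := hB.comap_subtype
  obtain ⟨R₁, hR₁⟩ := hA'.exists_le_sylow
  obtain ⟨R₂, hR₂⟩ := hB'.exists_le_sylow
  obtain ⟨s, hs⟩ := MulAction.exists_smul_eq (↥S) R₂ R₁
  have hR : IsPGroup p ((R₁ : Subgroup S).map S.subtype) := R₁.isPGroup'.map _
  obtain ⟨Q, hQ⟩ := hR.exists_le_sylow
  refine ⟨Q, s, s.2, ?_, ?_⟩
  · intro a ha
    apply hQ
    exact ⟨⟨a, hAS ha⟩, hR₁ (by simpa [Subgroup.mem_subgroupOf] using ha), rfl⟩
  · rintro _ ⟨b, hb, rfl⟩
    apply hQ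
    refine ⟨s * ⟨b, hBS hb⟩ * s⁻¹, ?_, by simp⟩
    rw [← hs, Sylow.coe_subgroup_smul, SetLike.mem_coe, Subgroup.mem_pointwise_smul_iff_inv_smul_mem]
    have : ((⟨b, hBS hb⟩ : S)) ∈ (R₂ : Subgroup S) := hR₂ (by simpa [Subgroup.mem_subgroupOf] using hb)
    simpa [MulAut.smul_def, mul_assoc] using this

/-- Let P be a Sylow p-subgroup of a finite group J and P₁ a subgroup of P that is weakly closed in P with respect to J. If J acts on a set and two points, each fixed by every element of P₁, lie in one J-orbit, then they lie in one orbit of the normalizer of P₁ in J. -/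
theorem result {J : Type*} [Group J] [Finite J]
    {p : ℕ} [Fact p.Prime] (P : Sylow p J) (P₁ : Subgroup J) (hW : Cfsg.IsWeaklyClosed P₁ (P : Subgroup J))
    {Ω : Type*} [MulAction J Ω] (x y : Ω) (hx : ∀ g ∈ P₁, g • x = x) (hy : ∀ g ∈ P₁, g • y = y)
    (hc : ∃ g : J, g • x = y) :
    ∃ g ∈ Subgroup.normalizer (P₁ : Set J), g • x = y := by
  obtain ⟨g, hg⟩ := hc
  have hP₁p : IsPGroup p P₁ := P.isPGroup'.to_le hW.1
  set S : Subgroup J := MulAction.stabilizer J y with hS
  set P₂ : Subgroup J := P₁.map (MulAut.conj g).toMonoidHom with hP₂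
  have hP₂p : IsPGroup p P₂ := hP₁p.map _
  have h1S : P₁ ≤ S := fun a ha => hy a ha
  have h2S : P₂ ≤ S := by
    rintro _ ⟨a, ha, rfl⟩
    show _ • y = y
    simp only [MulEquiv.toMonoidHom_eq_coe, MonoidHom.coe_coe, MulAut.conj_apply]
    rw [← hg, ← mul_smul]
    have : g * a * g⁻¹ * g = g * a := by group
    rw [this, mul_smul, hx a ha]
  obtain ⟨Q, s, hsS, hQ1, hQ2⟩ := conj_into_common S P₁ P₂ hP₁p hP₂p h1S h2S
  have hcomp : P₂.map (MulAut.conj s).toMonoidHom = P₁.map (MulAut.conj (s * g)).toMonoidHom := by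
    rw [hP₂, map_conj_map_conj]
  rw [hcomp] at hQ2
  have hfix := wc_any P P₁ hW Q hQ1 (s * g) hQ2
  refine ⟨s * g, ?_, ?_⟩
  · rw [Subgroup.mem_normalizer_iff]
    intro a
    constructor
    · intro ha
      rw [← SetLike.mem_coe, ← hfix]
      exact ⟨a, ha, rfl⟩
    · intro ha
      have : (s * g) * a * (s * g)⁻¹ ∈ P₁.map (MulAut.conj (s * g)).toMonoidHom := by
        rw [hfix]; exact ha
      obtain ⟨b, hb, hab⟩ := this
      have hab' : b = a := by
        simp only [MulEquiv.toMonoidHom_eq_coe, MonoidHom.coe_coe, MulAut.conj_apply] at hab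
        exact mul_left_cancel (mul_right_cancel hab)
      rw [← hab']; exact hb
  · rw [mul_smul, hg]
    exact hsS

end Cfsg.Agent.S3180
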