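import Mathlib
import Cfsg.Statements.S3183
import Cfsg.Agent.Lib.SylowConjLemmas

set_option autoImplicit false
open Cfsg

namespace Cfsg.Agent.S3183

open Cfsg.Agent.Lib.SylowConjLemmas

variable {G : Type*} [Group G] [Finite G]

theorem mem_smul_sylow {p : ℕ} [Fact p.Prime] (U : Sylow p G) (g y : G) :
    y ∈ ((g • U : Sylow p G) : Subgroup G) ↔ g⁻¹ * y * g ∈ (U : Subgroup G) := by
  rw [Sylow.coe_subgroup_smul, Subgroup.mem_pointwise_smul_iff_inv_smul_mem]
  simp [MulAut.smul_def]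

/-- `S⊓T ≤ Z(S)` -/
theorem key (hCI : ∀ S T : Sylow 2 G, S ≠ T → ∃ U : Sylow 2 G,
      (S : Subgroup G) ⊓ (T : Subgroup G) ≤ (Subgroup.center ↥(U : Subgroup G)).map (U : Subgroup G).subtype)
    (S T : Sylow 2 G) (hne : S ≠ T) (x : G) (hxS : x ∈ (S : Subgroup G)) (hxT : x ∈ (T : Subgroup G)) :
    ∀ s ∈ (S : Subgroup G), s * x = x * s := by
  have central_of : ∀ (U : Sylow 2 G) (z : G),
      z ∈ (Subgroup.center ↥(U : Subgroup G)).map (U : Subgroup G).subtype →
      z ∈ (U : Subgroup G) ∧ ∀ u ∈ (U : Subgroup G), u * z = z * u := by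
    rintro U z ⟨w, hw, rfl⟩
    refine ⟨w.2, fun u hu => ?_⟩
    have := (Subgroup.mem_center_iff.mp hw) ⟨u, hu⟩
    exact congrArg Subtype.val this
  obtain ⟨U, hU⟩ := hCI S T hne
  obtain ⟨-, hxU⟩ := central_of U x (hU ⟨hxS, hxT⟩)
  set Cx : Subgroup G := Subgroup.centralizer ({x} : Set G) with hCx
  have memCx : ∀ y, y ∈ Cx ↔ y * x = x * y := by
    intro y
    rw [hCx, Subgroup.mem_centralizer_iff]
    simp [eq_comm]
  have hUCx : (U : Subgroup G) ≤ Cx := fun u hu => (memCx u).mpr (hxU u hu)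
  set C : Subgroup G := (S : Subgroup G) ⊓ Cx with hC
  have hCp : IsPGroup 2 C := S.isPGroup'.to_le inf_le_left
  obtain ⟨k₁, hk₁, hk₁C⟩ := exists_conj_mem_of_le U Cx hUCx C hCp inf_le_right
  set R : Sylow 2 G := k₁⁻¹ • U with hR
  have hCR : C ≤ (R : Subgroup G) := by
    intro t ht
    rw [hR, mem_smul_sylow]
    simpa using hk₁C t ht
  have hRCx : (R : Subgroup G) ≤ Cx := by
    intro t ht
    rw [hR, mem_smul_sylow] at ht
    have h1 : k₁⁻¹⁻¹ * t * k₁⁻¹ ∈ Cx := hUCx ht
    have h2 : t = k₁⁻¹ * (k₁⁻¹⁻¹ * t * k₁⁻¹) * k₁ := by group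
    rw [h2]
    exact Cx.mul_mem (Cx.mul_mem (Cx.inv_mem hk₁) h1) hk₁
  by_cases hRS : S = R
  · intro s hs
    have : s ∈ (R : Subgroup G) := hRS ▸ hs
    exact (memCx s).mp (hRCx this)
  obtain ⟨U', hU'⟩ := hCI S R hRS
  have hxC : x ∈ C := ⟨hxS, (memCx x).mpr rfl⟩
  have hCU' : ∀ c ∈ C, c ∈ (U' : Subgroup G) ∧ ∀ u ∈ (U' : Subgroup G), u * c = c * u := by
    intro c hc
    exact central_of U' c (hU' ⟨hc.1, hCR hc⟩)
  -- the centralizer of C
  set K₂ : Subgroup G := Subgroup.centralizer (C : Set G) with hK₂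
  have memK₂ : ∀ y, y ∈ K₂ ↔ ∀ c ∈ C, c * y = y * c := by
    intro y
    rw [hK₂, Subgroup.mem_centralizer_iff]
    rfl
  have hU'K₂ : (U' : Subgroup G) ≤ K₂ := fun u hu => (memK₂ u).mpr (fun c hc => ((hCU' c hc).2 u hu).symm)
  set A : Subgroup G := (S : Subgroup G) ⊓ K₂ with hA
  have hAC : A ≤ C := by
    rintro y ⟨hyS, hyK⟩
    exact ⟨hyS, (memCx y).mpr ((memK₂ y).mp hyK x hxC).symm⟩
  have hCA : C ≤ A := by
    intro c hc
    refine ⟨hc.1, (memK₂ c).mpr fun d hd => ?_⟩
    exact ((hCU' d hd).2 c (hCU' c hc).1).symm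
  have hAp : IsPGroup 2 A := S.isPGroup'.to_le inf_le_left
  obtain ⟨k₂, hk₂, hk₂A⟩ := exists_conj_mem_of_le U' K₂ hU'K₂ A hAp inf_le_right
  set R' : Sylow 2 G := k₂⁻¹ • U' with hR'
  have hR'K : (R' : Subgroup G) ≤ K₂ := by
    intro t ht
    rw [hR', mem_smul_sylow] at ht
    have h1 : k₂⁻¹⁻¹ * t * k₂⁻¹ ∈ K₂ := hU'K₂ ht
    have h2 : t = k₂⁻¹ * (k₂⁻¹⁻¹ * t * k₂⁻¹) * k₂ := by group
    rw [h2]
    exact K₂.mul_mem (K₂.mul_mem (K₂.inv_mem hk₂) h1) hk₂
  -- normalizer of C in S centralizes C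
  set K₃ : Subgroup G := Subgroup.normalizer (C : Set G) with hK₃
  have hK₂K₃ : K₂ ≤ K₃ := by
    intro y hy
    rw [hK₃, Subgroup.mem_normalizer_iff]
    intro c
    have hyc : ∀ c ∈ C, y * c * y⁻¹ = c := by
      intro c hc
      rw [← (memK₂ y).mp hy c hc]; group
    constructor
    · intro hc
      rw [hyc c hc]; exact hc
    · intro hc
      have h1 := (memK₂ y⁻¹).mp (K₂.inv_mem hy) _ hc
      have h2 : c = y⁻¹ * (y * c * y⁻¹) * y := by group
      rw [h2]
      have h3 : y⁻¹ * (y * c * y⁻¹) * y = y * c * y⁻¹ := by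
        rw [← h1]; group
      rw [h3]; exact hc
  have hR'K₃ : (R' : Subgroup G) ≤ K₃ := hR'K.trans hK₂K₃
  set N : Subgroup G := (S : Subgroup G) ⊓ K₃ with hN
  have hNp : IsPGroup 2 N := S.isPGroup'.to_le inf_le_left
  obtain ⟨k₃, hk₃, hk₃N⟩ := exists_conj_mem_of_le R' K₃ hR'K₃ N hNp inf_le_right
  have hNC : N ≤ C := by
    intro t ht
    apply hAC
    refine ⟨ht.1, (memK₂ t).mpr fun c hc => ?_⟩
    have h1 : k₃ * t * k₃⁻¹ ∈ K₂ := hR'K (hk₃N t ht)
    have h2 : k₃ * c * k₃⁻¹ ∈ C := (Subgroup.mem_normalizer_iff.mp hk₃ c).mp hc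
    have h3 := (memK₂ _).mp h1 _ h2
    have h4 : k₃ * (c * t) * k₃⁻¹ = k₃ * (t * c) * k₃⁻¹ := by
      calc k₃ * (c * t) * k₃⁻¹ = (k₃ * c * k₃⁻¹) * (k₃ * t * k₃⁻¹) := by group
        _ = (k₃ * t * k₃⁻¹) * (k₃ * c * k₃⁻¹) := h3
        _ = k₃ * (t * c) * k₃⁻¹ := by group
    exact mul_left_cancel (mul_right_cancel h4)
  -- normalizer condition in S
  have hCS : C = (S : Subgroup G) := by
    by_contra hne'
    have : Group.IsNilpotent ↥(S : Subgroup G) := S.isPGroup'.isNilpotent
    have hlt : C.subgroupOf (S : Subgroup G) < ⊤ := by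
      rw [lt_top_iff_ne_top]
      intro htop
      apply hne'
      apply le_antisymm inf_le_left
      intro s hs
      have : (⟨s, hs⟩ : ↥(S : Subgroup G)) ∈ C.subgroupOf (S : Subgroup G) := by rw [htop]; trivial
      exact Subgroup.mem_subgroupOf.mp this
    have h5 := Group.normalizerCondition_of_isNilpotent (G := ↥(S : Subgroup G)) _ hlt
    obtain ⟨⟨s, hs⟩, hsN, hsC⟩ := SetLike.exists_of_lt h5
    apply hsC
    apply Subgroup.mem_subgroupOf.mpr
    apply hNC
    refine ⟨hs, Subgroup.mem_normalizer_iff.mpr ?_⟩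
    intro c
    by_cases hcS : c ∈ (S : Subgroup G)
    · have := (Subgroup.mem_normalizer_iff.mp hsN) ⟨c, hcS⟩
      simpa [Subgroup.mem_subgroupOf] using this
    · constructor
      · intro hc
        exact absurd (inf_le_left (a := (S : Subgroup G)) hc) hcS
      · intro hc
        exfalso
        apply hcS
        have h6 : s * c * s⁻¹ ∈ (S : Subgroup G) := inf_le_left (a := (S : Subgroup G)) hc
        have h7 : c = s⁻¹ * (s * c * s⁻¹) * s := by group
        rw [h7]
        exact (S : Subgroup G).mul_mem ((S : Subgroup G).mul_mem ((S : Subgroup G).inv_mem hs) h6) hs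
  intro s hs
  have : s ∈ C := by rw [hCS]; exact hs
  exact (memCx s).mp this.2

/-- Let G be a finite group in which the intersection of any two distinct Sylow 2-subgroups is contained in the centre of some Sylow 2-subgroup, and let S be a Sylow 2-subgroup. Then for every x in S the centralizer of x in S is a Sylow 2-subgroup of the centralizer of x in G (no 2-subgroup centralizing x is larger), and for every other Sylow 2-subgroup T the intersection S ∩ T lies in both the centre of S and the centre of T. -/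
theorem result {G : Type*} [Group G] [Finite G]
    (hCI : ∀ S T : Sylow 2 G, S ≠ T → ∃ U : Sylow 2 G,
      (S : Subgroup G) ⊓ (T : Subgroup G) ≤ (Subgroup.center ↥(U : Subgroup G)).map (U : Subgroup G).subtype)
    (S : Sylow 2 G) :
    (∀ x ∈ (S : Subgroup G), ∀ P : Subgroup G, IsPGroup 2 ↥P → P ≤ Subgroup.centralizer ({x} : Set G) →
        Nat.card ↥P ≤ Nat.card ↥((S : Subgroup G) ⊓ Subgroup.centralizer ({x} : Set G))) ∧
    (∀ T : Sylow 2 G, T ≠ S →
        (S : Subgroup G) ⊓ (T : Subgroup G) ≤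
          (Subgroup.center ↥(S : Subgroup G)).map (S : Subgroup G).subtype ⊓
            (Subgroup.center ↥(T : Subgroup G)).map (T : Subgroup G).subtype) := by
  have center_mem : ∀ (U : Sylow 2 G) (z : G), z ∈ (U : Subgroup G) →
      (∀ u ∈ (U : Subgroup G), u * z = z * u) →
      z ∈ (Subgroup.center ↥(U : Subgroup G)).map (U : Subgroup G).subtype := by
    intro U z hz h
    refine ⟨⟨z, hz⟩, ?_, rfl⟩
    rw [SetLike.mem_coe, Subgroup.mem_center_iff]
    intro g
    exact Subtype.ext (h g g.2)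
  constructor
  · intro x hx P hP hPC
    have memC : ∀ y, y ∈ Subgroup.centralizer ({x} : Set G) ↔ y * x = x * y := by
      intro y
      rw [Subgroup.mem_centralizer_iff]
      simp [eq_comm]
    by_cases hcent : ∀ s ∈ (S : Subgroup G), s * x = x * s
    · have hle : (S : Subgroup G) ≤ Subgroup.centralizer ({x} : Set G) :=
        fun s hs => (memC s).mpr (hcent s hs)
      rw [inf_eq_left.mpr hle]
      obtain ⟨Q, hQ⟩ := hP.exists_le_sylow
      have h1 : Nat.card P ≤ Nat.card Q := Subgroup.card_le_of_le hQ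
      have h2 : Nat.card (Q : Subgroup G) = Nat.card (S : Subgroup G) := by
        obtain ⟨g, rfl⟩ := MulAction.exists_smul_eq G S Q
        rw [Sylow.coe_subgroup_smul]
        exact Nat.card_congr (Subgroup.equivSMul _ _).symm.toEquiv
      exact h1.trans (le_of_eq h2)
    · -- x not central in S: S is the unique Sylow containing x
      have huniq : ∀ T : Sylow 2 G, x ∈ (T : Subgroup G) → T = S := by
        intro T hT
        by_contra hne
        exact hcent (key hCI S T (Ne.symm hne) x hx hT)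
      -- P ⊔ ⟨x⟩ is a 2-group
      have hxp : IsPGroup 2 (Subgroup.zpowers x) :=
        S.isPGroup'.to_le (Subgroup.zpowers_le.mpr hx)
      have hfix : ∀ g ∈ P, ∀ h ∈ Subgroup.zpowers x, g * h * g⁻¹ = h := by
        intro g hg h hh
        obtain ⟨k, rfl⟩ := Subgroup.mem_zpowers_iff.mp hh
        have h1 : Commute g x := (memC g).mp (hPC hg)
        have h2 : Commute g (x ^ k) := h1.zpow_right k
        rw [h2.eq]; group
      have hPN : P ≤ Subgroup.normalizer ((Subgroup.zpowers x : Subgroup G) : Set G) := by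
        intro g hg
        rw [Subgroup.mem_normalizer_iff]
        intro h
        constructor
        · intro hh
          rw [hfix g hg h hh]; exact hh
        · intro hh
          have := hfix g⁻¹ (P.inv_mem hg) _ hh
          have e : g⁻¹ * (g * h * g⁻¹) * g⁻¹⁻¹ = h := by group
          rw [e] at this
          rw [this]; exact hh
      have hsup : IsPGroup 2 (P ⊔ Subgroup.zpowers x : Subgroup G) := hP.to_sup_of_normal_right' hxp hPN
      obtain ⟨T, hT⟩ := hsup.exists_le_sylow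
      have hxT : x ∈ (T : Subgroup G) := hT (Subgroup.mem_sup_right (Subgroup.mem_zpowers x))
      have hTS := huniq T hxT
      have hPS : P ≤ (S : Subgroup G) := by
        intro g hg
        rw [← hTS]
        exact hT (Subgroup.mem_sup_left hg)
      exact Subgroup.card_le_of_le (le_inf hPS hPC)
  · intro T hTS
    rintro x ⟨hxS, hxT⟩
    exact ⟨center_mem S x hxS (key hCI S T (Ne.symm hTS) x hxS hxT),
      center_mem T x hxT (key hCI T S hTS x hxT hxS)⟩

end Cfsg.Agent.S3183
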