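import Mathlib
import Cfsg.Statements.S3190
import Cfsg.Agent.Lib.PGroupAct

set_option autoImplicit false
open Cfsg

namespace Cfsg.Agent.S3190

theorem conj_mem_zr {X : Type*} [Group X] (R : Subgroup X) (g : X)
    (hg : g ∈ Subgroup.normalizer (R : Set X)) (z : X) (hz : z ∈ R ⊓ Subgroup.centralizer (R : Set X)) :
    g * z * g⁻¹ ∈ R ⊓ Subgroup.centralizer (R : Set X) := by
  rw [Subgroup.mem_normalizer_iff] at hg
  refine ⟨(hg z).mp hz.1, Subgroup.mem_centralizer_iff.mpr ?_⟩
  intro r hr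
  have hr' : r ∈ R := hr
  have h1 : g⁻¹ * r * g ∈ R := by
    have := (hg (g⁻¹ * r * g))
    apply this.mpr
    have e : g * (g⁻¹ * r * g) * g⁻¹ = r := by group
    rw [e]; exact hr'
  have h2 := Subgroup.mem_centralizer_iff.mp hz.2 _ h1
  calc r * (g * z * g⁻¹) = g * ((g⁻¹ * r * g) * z) * g⁻¹ := by group
    _ = g * (z * (g⁻¹ * r * g)) * g⁻¹ := by rw [h2]
    _ = g * z * g⁻¹ * r := by group

/-- Let p be an odd prime and, inside a finite group, let P be a p-subgroup normalized by a Klein four-group T. Let R be a subgroup of P, normal in P and normalized by T, such that P is the product of R with the centralizer of T in P. If T centralizes the centre of P, then T centralizes the centre of R. -/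
theorem result {X : Type*} [Group X] [Finite X]
    {p : ℕ} (hp : p.Prime) (hodd : Odd p) (P T R : Subgroup X) (hP : IsPGroup p ↥P) (hT : IsKleinFour ↥T)
    (hTP : T ≤ Subgroup.normalizer (P : Set X)) (hRP : R ≤ P) (hRn : (R.subgroupOf P).Normal)
    (hTR : T ≤ Subgroup.normalizer (R : Set X)) (hfac : R ⊔ (P ⊓ Subgroup.centralizer (T : Set X)) = P)
    (hZ : T ≤ Subgroup.centralizer (((Subgroup.center ↥P).map P.subtype : Subgroup X) : Set X)) :
    T ≤ Subgroup.centralizer (((Subgroup.center ↥R).map R.subtype : Subgroup X) : Set X) := by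
  have : Fact p.Prime := ⟨hp⟩
  intro t ht
  have ht2 : t ^ 2 = 1 := by
    have h := Monoid.pow_exponent_eq_one (⟨t, ht⟩ : T)
    rw [IsKleinFour.exponent_two] at h
    exact congrArg Subtype.val h
  have htinv : t⁻¹ = t := by
    rw [inv_eq_iff_mul_eq_one, ← pow_two]; exact ht2
  set Z : Subgroup X := R ⊓ Subgroup.centralizer (R : Set X) with hZdef
  have hZcomm : ∀ a ∈ Z, ∀ b ∈ Z, a * b = b * a := by
    intro a ha b hb
    exact (Subgroup.mem_centralizer_iff.mp hb.2 a ha.1).symm ▸ rfl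
  -- the inverted part
  let W : Subgroup X :=
    { carrier := {w | w ∈ Z ∧ t * w * t⁻¹ = w⁻¹}
      one_mem' := ⟨Z.one_mem, by simp⟩
      mul_mem' := by
        rintro a b ⟨ha, ha'⟩ ⟨hb, hb'⟩
        refine ⟨Z.mul_mem ha hb, ?_⟩
        calc t * (a * b) * t⁻¹ = (t * a * t⁻¹) * (t * b * t⁻¹) := by group
          _ = a⁻¹ * b⁻¹ := by rw [ha', hb']
          _ = (a * b)⁻¹ := by rw [mul_inv_rev, hZcomm b⁻¹ (Z.inv_mem hb) a⁻¹ (Z.inv_mem ha)]
      inv_mem' := by
        rintro a ⟨ha, ha'⟩
        refine ⟨Z.inv_mem ha, ?_⟩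
        calc t * a⁻¹ * t⁻¹ = (t * a * t⁻¹)⁻¹ := by group
          _ = a⁻¹⁻¹ := by rw [ha'] }
  have hWmem : ∀ w, w ∈ W ↔ (w ∈ Z ∧ t * w * t⁻¹ = w⁻¹) := fun w => Iff.rfl
  have hWP : W ≤ P := fun w hw => hRP hw.1.1
  -- normalized by P
  have hnR : ∀ c ∈ P, c ∈ Subgroup.normalizer (R : Set X) := by
    intro c hc
    rw [Subgroup.mem_normalizer_iff]
    intro r
    constructor
    · intro hr
      have := hRn.conj_mem ⟨r, hRP hr⟩ (by simpa [Subgroup.mem_subgroupOf] using hr) ⟨c, hc⟩
      simpa [Subgroup.mem_subgroupOf] using this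
    · intro hr
      have h3 : c * r * c⁻¹ ∈ P := by
        have := hRP hr
        exact this
      have := hRn.conj_mem ⟨c * r * c⁻¹, h3⟩ (by simpa [Subgroup.mem_subgroupOf] using hr) ⟨c⁻¹, P.inv_mem hc⟩
      have h4 : c⁻¹ * (c * r * c⁻¹) * c⁻¹⁻¹ = r := by group
      simpa [Subgroup.mem_subgroupOf, h4, mul_assoc] using this
  have hNorm : P ≤ Subgroup.normalizer (W : Set X) := by
    have key : ∀ a ∈ R ⊔ (P ⊓ Subgroup.centralizer (T : Set X)), a ∈ Subgroup.normalizer (W : Set X) := by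
      have hle : R ⊔ (P ⊓ Subgroup.centralizer (T : Set X)) ≤ Subgroup.normalizer (W : Set X) := by
        apply sup_le
        · intro r hr
          rw [Subgroup.mem_normalizer_iff]
          intro w
          constructor
          · intro hw
            have h5 : r * w * r⁻¹ = w := by
              have := Subgroup.mem_centralizer_iff.mp hw.1.2 r hr
              rw [this]; group
            rw [h5]; exact hw
          · intro hw
            have h6 : w = r⁻¹ * (r * w * r⁻¹) * r := by group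
            have hrw : (r * w * r⁻¹) ∈ Z := hw.1
            have h7 := Subgroup.mem_centralizer_iff.mp hrw.2 r⁻¹ (R.inv_mem hr)
            have h8 : r⁻¹ * (r * w * r⁻¹) * r = r * w * r⁻¹ := by
              rw [h7]; group
            rw [h6, h8]; exact hw
        · rintro c ⟨hcP, hcT⟩
          have hct : c * t = t * c := (Subgroup.mem_centralizer_iff.mp hcT t ht).symm
          have hsup : ∀ d : X, d ∈ P → d * t = t * d → ∀ w ∈ W, d * w * d⁻¹ ∈ W := by
            intro d hd hdt w hw
            refine ⟨conj_mem_zr R d (hnR d hd) w hw.1, ?_⟩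
            have hw2 : t * w * t⁻¹ = w⁻¹ := hw.2
            have hdt' : t * d = d * t := hdt.symm
            calc t * (d * w * d⁻¹) * t⁻¹ = (t * d) * w * (t * d)⁻¹ := by group
              _ = (d * t) * w * (d * t)⁻¹ := by rw [hdt']
              _ = d * (t * w * t⁻¹) * d⁻¹ := by group
              _ = d * w⁻¹ * d⁻¹ := by rw [hw2]
              _ = (d * w * d⁻¹)⁻¹ := by group
          rw [Subgroup.mem_normalizer_iff]
          intro w
          constructor
          · exact hsup c hcP hct w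
          · intro hw
            have h9 := hsup c⁻¹ (P.inv_mem hcP) (by
              have : c⁻¹ * (c * t) * c⁻¹ = c⁻¹ * (t * c) * c⁻¹ := by rw [hct]
              calc c⁻¹ * t = c⁻¹ * (t * c) * c⁻¹ := by group
                _ = c⁻¹ * (c * t) * c⁻¹ := by rw [hct]
                _ = t * c⁻¹ := by group) _ hw
            have e : c⁻¹ * (c * w * c⁻¹) * c⁻¹⁻¹ = w := by group
            rwa [e] at h9
      exact fun a ha => hle ha
    intro a ha
    apply key
    rw [hfac]; exact ha
  -- W is trivial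
  have hWbot : W = ⊥ := by
    by_contra hne
    obtain ⟨w, hwW, hw1, hwc⟩ := Cfsg.Agent.Lib.PGroupAct.exists_central_elt (p := p) P W hP hWP
      (fun a ha w hw => (Subgroup.mem_normalizer_iff.mp (hNorm ha) w).mp hw) hne
    have hwZP : w ∈ ((Subgroup.center ↥P).map P.subtype : Subgroup X) := by
      refine ⟨⟨w, hWP hwW⟩, ?_, rfl⟩
      rw [SetLike.mem_coe, Subgroup.mem_center_iff]
      intro g
      exact Subtype.ext (hwc g g.2)
    have h1 := Subgroup.mem_centralizer_iff.mp (hZ ht) w hwZP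
    -- t centralizes w, and inverts it
    have h2 : t * w * t⁻¹ = w⁻¹ := hwW.2
    have h3 : t * w * t⁻¹ = w := by rw [← h1]; group
    have h4 : w = w⁻¹ := h3.symm.trans h2
    have h5 : w ^ 2 = 1 := by
      rw [pow_two]
      nth_rw 1 [h4]
      group
    -- w has odd order
    have hwp : IsPGroup p P := hP
    obtain ⟨k, hk⟩ := hP ⟨w, hWP hwW⟩
    have hk' : w ^ p ^ k = 1 := congrArg Subtype.val hk
    have hord : orderOf w ∣ 2 := orderOf_dvd_of_pow_eq_one h5
    have hord2 : orderOf w ∣ p ^ k := orderOf_dvd_of_pow_eq_one hk'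
    have hcop : Nat.Coprime 2 (p ^ k) := Nat.Coprime.pow_right k (Nat.coprime_two_left.mpr hodd)
    have : orderOf w = 1 := Nat.eq_one_of_dvd_coprimes hcop hord hord2
    exact hw1 (orderOf_eq_one_iff.mp this)
  -- conclude
  rw [Subgroup.mem_centralizer_iff]
  rintro z ⟨⟨z', hz'⟩, hzc, rfl⟩
  have hzZ : (z' : X) ∈ Z := by
    refine ⟨hz', Subgroup.mem_centralizer_iff.mpr ?_⟩
    intro r hr
    have := Subgroup.mem_center_iff.mp hzc ⟨r, hr⟩
    exact congrArg Subtype.val this
  have hconj : t * z' * t⁻¹ ∈ Z := conj_mem_zr R t (hTR ht) z' hzZ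
  have hyW : z' * (t * z' * t⁻¹)⁻¹ ∈ W := by
    refine ⟨Z.mul_mem hzZ (Z.inv_mem hconj), ?_⟩
    have e : t * (z' * (t * z' * t⁻¹)⁻¹) * t⁻¹ = (t * z' * t⁻¹) * z'⁻¹ := by
      have htt : t * t = 1 := by rw [← pow_two]; exact ht2
      have e2 : t * (t * z' * t⁻¹) * t⁻¹ = z' := by
        have : t * (t * z' * t⁻¹) * t⁻¹ = (t * t) * z' * (t * t)⁻¹ := by group
        rw [this, htt]; group
      calc t * (z' * (t * z' * t⁻¹)⁻¹) * t⁻¹
          = (t * z' * t⁻¹) * (t * (t * z' * t⁻¹) * t⁻¹)⁻¹ := by group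
        _ = (t * z' * t⁻¹) * z'⁻¹ := by rw [e2]
    rw [e, mul_inv_rev, inv_inv]
  rw [hWbot] at hyW
  have hy1 : z' * (t * z' * t⁻¹)⁻¹ = 1 := hyW
  have hz2 : z' = t * z' * t⁻¹ := by
    rwa [mul_inv_eq_one] at hy1
  calc (z' : X) * t = (t * z' * t⁻¹) * t := by rw [← hz2]
    _ = t * z' := by group

end Cfsg.Agent.S3190
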