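import Mathlib
import Cfsg.Statements.S3196
import Cfsg.Agent.Lib.PCore

set_option autoImplicit false
open Cfsg

namespace Cfsg.Agent.S3196

variable {G : Type*} [Group G]

/-- Elementwise commuting subgroups. -/
def Cm (X Y : Subgroup G) : Prop := ∀ x ∈ X, ∀ y ∈ Y, x * y = y * x

theorem Cm.symm {X Y : Subgroup G} (h : Cm X Y) : Cm Y X := fun y hy x hx => (h x hx y hy).symm

theorem Cm.mono_left {X X' Y : Subgroup G} (h : Cm X Y) (hX : X' ≤ X) : Cm X' Y :=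
  fun x hx y hy => h x (hX hx) y hy

theorem Cm.sup_left {X X' Y : Subgroup G} (h : Cm X Y) (h' : Cm X' Y) : Cm (X ⊔ X') Y := by
  have hle : X ⊔ X' ≤ Subgroup.centralizer (Y : Set G) := by
    apply sup_le
    · intro x hx
      rw [Subgroup.mem_centralizer_iff]
      exact fun y hy => (h x hx y hy).symm
    · intro x hx
      rw [Subgroup.mem_centralizer_iff]
      exact fun y hy => (h' x hx y hy).symm
  intro x hx y hy
  exact ((Subgroup.mem_centralizer_iff.mp (hle hx)) y hy).symm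

section card

variable {p : ℕ} (hp : p.Prime)
include hp

/-- A subgroup of prime order is generated by any nontrivial element. -/
theorem eq_zpowers {X : Subgroup G} (hX : Nat.card X = p) {x : G} (hx : x ∈ X) (hx1 : x ≠ 1) :
    X = Subgroup.zpowers x := by
  have hFin : Finite X := Nat.finite_of_card_ne_zero (by rw [hX]; exact hp.ne_zero)
  symm
  apply Subgroup.eq_of_le_of_card_ge
  · rw [Subgroup.zpowers_le]; exact hx
  · rw [hX, Nat.card_zpowers]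
    have h1 : orderOf x ∣ p := by
      rw [← hX]
      exact Subgroup.orderOf_dvd_natCard X hx
    rcases (Nat.dvd_prime hp).1 h1 with h | h
    · exact absurd (orderOf_eq_one_iff.mp h) hx1
    · exact h.ge

theorem pow_eq_one_of_mem {X : Subgroup G} (hX : Nat.card X = p) {x : G} (hx : x ∈ X) : x ^ p = 1 := by
  have h1 : (⟨x, hx⟩ : X) ^ Nat.card X = 1 := pow_card_eq_one'
  rw [hX] at h1
  exact congrArg Subtype.val h1

theorem exists_ne_one {X : Subgroup G} (hX : Nat.card X = p) : ∃ x ∈ X, x ≠ 1 := by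
  by_contra hcon
  push Not at hcon
  have : X = ⊥ := eq_bot_iff.mpr (fun x hx => hcon x hx)
  rw [this] at hX
  simp at hX
  exact hp.one_lt.ne hX

theorem cm_self {X : Subgroup G} (hX : Nat.card X = p) : Cm X X := by
  obtain ⟨x, hx, hx1⟩ := exists_ne_one hp hX
  rw [eq_zpowers hp hX hx hx1]
  rintro _ ⟨i, rfl⟩ _ ⟨j, rfl⟩
  exact (Commute.refl x).zpow_zpow i j

theorem cm_of_gen {X Y : Subgroup G} (hX : Nat.card X = p) (hY : Nat.card Y = p) {x y : G} (hx : x ∈ X)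
    (hx1 : x ≠ 1) (hy : y ∈ Y) (hy1 : y ≠ 1) (hc : x * y = y * x) : Cm X Y := by
  rw [eq_zpowers hp hX hx hx1, eq_zpowers hp hY hy hy1]
  rintro _ ⟨i, rfl⟩ _ ⟨j, rfl⟩
  exact (show Commute x y from hc).zpow_zpow i j

end card

/-- Elements of a join of commuting subgroups. -/
theorem mem_sup_of_cm {X Y : Subgroup G} (h : Cm X Y) {e : G} (he : e ∈ X ⊔ Y) :
    ∃ x ∈ X, ∃ y ∈ Y, e = x * y := by
  have hc : ∀ a b, Commute (X.subtype a) (Y.subtype b) := fun a b => h a a.2 b b.2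
  have hr : (MonoidHom.noncommCoprod X.subtype Y.subtype hc).range = X ⊔ Y := by
    rw [MonoidHom.noncommCoprod_range, Subgroup.range_subtype, Subgroup.range_subtype]
  rw [← hr] at he
  obtain ⟨⟨a, b⟩, rfl⟩ := he
  exact ⟨a, a.2, b, b.2, rfl⟩

/-- The hypotheses. -/
structure Polar (p : ℕ) (K : Set (Subgroup G)) : Prop where
  hp : p.Prime
  hK : ∀ X ∈ K, Nat.card ↥X = p
  hKc : ∀ X ∈ K, ∀ g : G, X.map (MulAut.conj g).toMonoidHom ∈ K
  hex : ∃ X ∈ K, ∃ Y ∈ K, X ≠ Y ∧ Cm X Y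
  ha : ∀ X ∈ K, ∀ Y ∈ K, X ≠ Y → Cm X Y → ∀ Z : Subgroup G, Z ≤ X ⊔ Y → Nat.card ↥Z = p → Z ∈ K
  hb : ∀ X ∈ K, ∀ Y ∈ K, X ≠ Y → Cm X Y → ∀ W ∈ K, (X ⊔ Y) ⊓ Subgroup.centralizer (W : Set G) ≠ ⊥

namespace Polar

variable {p : ℕ} {K : Set (Subgroup G)} (H : Polar p K)
include H

theorem cm_sup_of_le {X Y Z : Subgroup G} (hX : X ∈ K) (hY : Y ∈ K) (hc : Cm X Y) (hZ : Z ≤ X ⊔ Y) :
    Cm Z X := by
  apply Cm.mono_left _ hZ
  exact (cm_self H.hp (H.hK X hX)).sup_left hc.symm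

theorem line_le {X Y Z : Subgroup G} (hX : X ∈ K) (hY : Y ∈ K) (hc : Cm X Y) (hZ : Z ≤ X ⊔ Y)
    (hZc : Nat.card Z = p) (hne : Z ≠ X) : Y ≤ X ⊔ Z := by
  obtain ⟨z, hz, hz1⟩ := exists_ne_one H.hp hZc
  obtain ⟨x, hx, y, hy, rfl⟩ := mem_sup_of_cm hc (hZ hz)
  have hy1 : y ≠ 1 := by
    rintro rfl
    apply hne
    rw [mul_one] at hz hz1
    rw [eq_zpowers H.hp hZc hz hz1, eq_zpowers H.hp (H.hK X hX) hx hz1]
  rw [eq_zpowers H.hp (H.hK Y hY) hy hy1, Subgroup.zpowers_le]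
  have h1 : y = x⁻¹ * (x * y) := by group
  rw [h1]
  exact Subgroup.mul_mem _ (Subgroup.mem_sup_left (X.inv_mem hx)) (Subgroup.mem_sup_right hz)

theorem pow_of_mem_sup {X Y : Subgroup G} (hX : X ∈ K) (hY : Y ∈ K) (hc : Cm X Y) {e : G} (he : e ∈ X ⊔ Y) :
    e ^ p = 1 := by
  obtain ⟨x, hx, y, hy, rfl⟩ := mem_sup_of_cm hc he
  have hcomm : Commute x y := hc x hx y hy
  rw [hcomm.mul_pow, pow_eq_one_of_mem H.hp (H.hK X hX) hx, pow_eq_one_of_mem H.hp (H.hK Y hY) hy, one_mul]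

theorem card_zpowers_of {e : G} (he : e ^ p = 1) (he1 : e ≠ 1) : Nat.card (Subgroup.zpowers e) = p := by
  have : Fact p.Prime := ⟨H.hp⟩
  rw [Nat.card_zpowers]
  exact orderOf_eq_prime he he1

theorem third {X Y : Subgroup G} (hX : X ∈ K) (hY : Y ∈ K) (hne : X ≠ Y) (hc : Cm X Y) :
    ∃ Z ∈ K, Z ≤ X ⊔ Y ∧ Z ≠ X ∧ Z ≠ Y := by
  obtain ⟨x, hx, hx1⟩ := exists_ne_one H.hp (H.hK X hX)
  obtain ⟨y, hy, hy1⟩ := exists_ne_one H.hp (H.hK Y hY)
  have hmem : x * y ∈ X ⊔ Y := Subgroup.mul_mem _ (Subgroup.mem_sup_left hx) (Subgroup.mem_sup_right hy)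
  have hyX : y ∉ X := by
    intro h
    apply hne
    rw [eq_zpowers H.hp (H.hK X hX) h hy1, eq_zpowers H.hp (H.hK Y hY) hy hy1]
  have hxY : x ∉ Y := by
    intro h
    apply hne
    rw [eq_zpowers H.hp (H.hK X hX) hx hx1, eq_zpowers H.hp (H.hK Y hY) h hx1]
  have he1 : x * y ≠ 1 := by
    intro h
    apply hyX
    have : y = x⁻¹ := eq_inv_of_mul_eq_one_right h
    rw [this]
    exact X.inv_mem hx
  have hp1 := H.pow_of_mem_sup hX hY hc hmem
  have hcz := H.card_zpowers_of hp1 he1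
  refine ⟨Subgroup.zpowers (x * y), H.ha X hX Y hY hne hc _ ((Subgroup.zpowers_le).2 hmem) hcz, ?_, ?_, ?_⟩
  · exact (Subgroup.zpowers_le).2 hmem
  · intro h
    apply hyX
    have h2 : x * y ∈ X := by rw [← h]; exact Subgroup.mem_zpowers _
    exact (Subgroup.mul_mem_cancel_left X hx).1 h2
  · intro h
    apply hxY
    have h2 : x * y ∈ Y := by rw [← h]; exact Subgroup.mem_zpowers _
    exact (Subgroup.mul_mem_cancel_right Y hy).1 h2

theorem p3 {X Y W : Subgroup G} (hX : X ∈ K) (hY : Y ∈ K) (hne : X ≠ Y) (hc : Cm X Y) (hW : W ∈ K) :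
    ∃ Z ∈ K, Z ≤ X ⊔ Y ∧ Cm Z W := by
  obtain ⟨e, he⟩ := (Subgroup.ne_bot_iff_exists_ne_one.mp (H.hb X hX Y hY hne hc W hW) :
    ∃ e : ↥((X ⊔ Y) ⊓ Subgroup.centralizer (W : Set G)), e ≠ 1)
  have he1 : (e : G) ≠ 1 := fun h => he (Subtype.ext h)
  have hmem : (e : G) ∈ X ⊔ Y := e.2.1
  have hcen : (e : G) ∈ Subgroup.centralizer (W : Set G) := e.2.2
  have hp1 := H.pow_of_mem_sup hX hY hc hmem
  have hcz := H.card_zpowers_of hp1 he1
  refine ⟨Subgroup.zpowers (e : G), H.ha X hX Y hY hne hc _ ((Subgroup.zpowers_le).2 hmem) hcz,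
    (Subgroup.zpowers_le).2 hmem, ?_⟩
  rintro _ ⟨i, rfl⟩ w hw
  have h1 : (w : G) * e = e * w := (Subgroup.mem_centralizer_iff.mp hcen) w hw
  exact ((show Commute (e : G) w from h1.symm).zpow_left i).eq

/-- A point not commuting with `W`, on a line through a point commuting with `W`. -/
theorem line_not_cm {c z Z W : Subgroup G} (hc : c ∈ K) (hz : z ∈ K) (hcz : Cm c z)
    (hZ : Z ≤ c ⊔ z) (hZc : Nat.card Z = p) (hne : Z ≠ z) (hcW : ¬ Cm c W) (hzW : Cm z W) :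
    ¬ Cm Z W := by
  intro hZW
  apply hcW
  have h1 : c ≤ z ⊔ Z := H.line_le hz hc hcz.symm (by rwa [sup_comm]) hZc hne
  exact (hzW.sup_left hZW).mono_left h1

end Polar

/-- Adjacency outside `W^⊥`. -/
def Adj (K : Set (Subgroup G)) (W c d : Subgroup G) : Prop :=
  c ∈ K ∧ ¬ Cm c W ∧ d ∈ K ∧ ¬ Cm d W ∧ Cm c d

namespace Polar

variable {p : ℕ} {K : Set (Subgroup G)} (H : Polar p K)
include H

/-- The complement of `W^⊥` is connected, or there is a radical point. -/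
theorem connected_or_radical {W a b : Subgroup G} (hW : W ∈ K) (ha : a ∈ K) (haW : ¬ Cm a W)
    (hb : b ∈ K) (hbW : ¬ Cm b W) :
    Relation.ReflTransGen (Adj K W) a b ∨ ∃ z ∈ K, ∀ u ∈ K, Cm z u := by
  classical
  by_cases hreach : Relation.ReflTransGen (Adj K W) a b
  · exact Or.inl hreach
  right
  -- reachable points
  have hCT : ∀ c, Relation.ReflTransGen (Adj K W) a c → c ∈ K ∧ ¬ Cm c W := by
    intro c hc
    induction hc with
    | refl => exact ⟨ha, haW⟩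
    | tail _ hstep _ => exact ⟨hstep.2.2.1, hstep.2.2.2.1⟩
  have hneW : ∀ {c z : Subgroup G}, ¬ Cm c W → Cm z W → c ≠ z := by
    rintro c z hc hz rfl
    exact hc hz
  -- (A1)
  have hA1 : ∀ c, Relation.ReflTransGen (Adj K W) a c → ∀ z ∈ K, Cm c z → Cm z W → Cm b z := by
    intro c hc z hz hcz hzW
    obtain ⟨hcK, hcW⟩ := hCT c hc
    obtain ⟨Z', hZ'K, hZ'le, hZ'b⟩ := H.p3 hcK hz (hneW hcW hzW) hcz hb
    by_cases hZ'z : Z' = z
    · subst hZ'z; exact hZ'b.symm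
    · exfalso
      have hZ'W := H.line_not_cm hcK hz hcz hZ'le (H.hK _ hZ'K) hZ'z hcW hzW
      have h1 : Cm c Z' := (H.cm_sup_of_le hcK hz hcz hZ'le).symm
      have h2 := hc.tail (⟨hcK, hcW, hZ'K, hZ'W, h1⟩ : Adj K W c Z')
      exact hreach (h2.tail (⟨hZ'K, hZ'W, hb, hbW, hZ'b⟩ : Adj K W Z' b))
  -- (A2)
  have hA2 : ∀ c, Relation.ReflTransGen (Adj K W) a c → ∀ z ∈ K, Cm b z → Cm z W → Cm c z := by
    intro c hc z hz hbz hzW
    obtain ⟨hcK, hcW⟩ := hCT c hc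
    obtain ⟨Z', hZ'K, hZ'le, hZ'c⟩ := H.p3 hb hz (hneW hbW hzW) hbz hcK
    by_cases hZ'z : Z' = z
    · subst hZ'z; exact hZ'c.symm
    · exfalso
      have hZ'W := H.line_not_cm hb hz hbz hZ'le (H.hK _ hZ'K) hZ'z hbW hzW
      have h1 : Cm b Z' := (H.cm_sup_of_le hb hz hbz hZ'le).symm
      have h2 := hc.tail (⟨hcK, hcW, hZ'K, hZ'W, hZ'c.symm⟩ : Adj K W c Z')
      exact hreach (h2.tail (⟨hZ'K, hZ'W, hb, hbW, h1.symm⟩ : Adj K W Z' b))
  -- (A3) a point on a line through `a`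
  obtain ⟨d, hdK, hda, hdc⟩ : ∃ d ∈ K, d ≠ a ∧ Cm a d := by
    obtain ⟨X, hX, Y, hY, hXY, hc⟩ := H.hex
    obtain ⟨Z', hZ'K, hZ'le, hZ'a⟩ := H.p3 hX hY hXY hc ha
    by_cases hZ'eq : Z' = a
    · subst hZ'eq
      by_cases hXa : X = Z'
      · refine ⟨Y, hY, ?_, ?_⟩
        · rw [← hXa]; exact hXY.symm
        · rw [← hXa]; exact hc
      · exact ⟨X, hX, hXa, H.cm_sup_of_le hX hY hc hZ'le⟩
    · exact ⟨Z', hZ'K, hZ'eq, hZ'a.symm⟩
  obtain ⟨z₀, hz₀K, hz₀le, hz₀W⟩ := H.p3 ha hdK hda.symm hdc hW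
  have haz₀ : Cm a z₀ := (H.cm_sup_of_le ha hdK hdc hz₀le).symm
  -- (A4) clique
  have hclique : ∀ z ∈ K, ∀ z' ∈ K, Cm a z → Cm z W → Cm a z' → Cm z' W → Cm z z' := by
    intro z hz z' hz' haz hzW haz' hz'W
    obtain ⟨a₁, ha₁K, ha₁le, ha₁a, ha₁z⟩ := H.third ha hz (hneW haW hzW) haz
    have ha₁W := H.line_not_cm ha hz haz ha₁le (H.hK _ ha₁K) ha₁z haW hzW
    have haa₁ : Cm a a₁ := (H.cm_sup_of_le ha hz haz ha₁le).symm
    have hCa₁ : Relation.ReflTransGen (Adj K W) a a₁ :=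
      Relation.ReflTransGen.single (⟨ha, haW, ha₁K, ha₁W, haa₁⟩ : Adj K W a a₁)
    have h1 : Cm b z' := hA1 a Relation.ReflTransGen.refl z' hz' haz' hz'W
    have h2 : Cm a₁ z' := hA2 a₁ hCa₁ z' hz' h1 hz'W
    have h3 : Cm (a ⊔ a₁) z' := haz'.sup_left h2
    have h4 : z ≤ a ⊔ a₁ := H.line_le ha hz haz ha₁le (H.hK _ ha₁K) ha₁a
    exact h3.mono_left h4
  -- (A5)
  refine ⟨z₀, hz₀K, ?_⟩
  intro u hu
  obtain ⟨Z', hZ'K, hZ'le, hZ'u⟩ := H.p3 ha hz₀K (hneW haW hz₀W) haz₀ hu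
  by_cases hZ'z : Z' = z₀
  · subst hZ'z; exact hZ'u
  have hZ'W := H.line_not_cm ha hz₀K haz₀ hZ'le (H.hK _ hZ'K) hZ'z haW hz₀W
  have haZ' : Cm a Z' := (H.cm_sup_of_le ha hz₀K haz₀ hZ'le).symm
  have hCZ' : Relation.ReflTransGen (Adj K W) a Z' :=
    Relation.ReflTransGen.single (⟨ha, haW, hZ'K, hZ'W, haZ'⟩ : Adj K W a Z')
  by_cases huW : Cm u W
  · have h1 : Cm b u := hA1 Z' hCZ' u hu hZ'u huW
    have h2 : Cm a u := hA2 a Relation.ReflTransGen.refl u hu h1 huW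
    exact hclique z₀ hz₀K u hu haz₀ hz₀W h2 huW
  · have hCu : Relation.ReflTransGen (Adj K W) a u :=
      hCZ'.tail (⟨hZ'K, hZ'W, hu, huW, hZ'u⟩ : Adj K W Z' u)
    have h1 : Cm b z₀ := hA1 a Relation.ReflTransGen.refl z₀ hz₀K haz₀ hz₀W
    exact (hA2 u hCu z₀ hz₀K h1 hz₀W).symm

end Polar

theorem conj_mul_inv (t a b : G) : t * (a * b⁻¹) * t⁻¹ = (t * a * t⁻¹) * (t * b * t⁻¹)⁻¹ := by
  group

/-- An element of order `p` normalizing a subgroup of order `p` centralizes it. -/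
theorem norm_lemma {p : ℕ} [hp : Fact p.Prime] {τ v : G} (hτ : τ ^ p = 1) (hv : v ^ p = 1) (m : ℕ)
    (h : τ * v * τ⁻¹ = v ^ m) : τ * v * τ⁻¹ = v := by
  have hpow : ∀ n : ℕ, τ ^ n * v * (τ ^ n)⁻¹ = v ^ (m ^ n) := by
    intro n
    induction n with
    | zero => simp
    | succ n ih =>
      have h1 : τ ^ (n + 1) * v * (τ ^ (n + 1))⁻¹ = τ ^ n * (τ * v * τ⁻¹) * (τ ^ n)⁻¹ := by
        rw [pow_succ]; group
      rw [h1, h, ← conj_pow, ih, ← pow_mul, pow_succ, mul_comm]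
  have h1 := hpow p
  rw [hτ] at h1
  simp only [one_mul, inv_one, mul_one] at h1
  have hfermat : m ^ p % p = m % p := by
    have h2 : ((m ^ p : ℕ) : ZMod p) = ((m : ℕ) : ZMod p) := by
      push_cast
      exact ZMod.pow_card _
    exact (ZMod.natCast_eq_natCast_iff _ _ _).1 h2
  have h3 : v ^ (m ^ p) = v ^ m := by
    rw [pow_eq_pow_mod (m ^ p) hv, pow_eq_pow_mod m hv, hfermat]
  rw [h, ← h3, ← h1]

namespace Polar

variable {p : ℕ} {K : Set (Subgroup G)} (H : Polar p K)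
include H

/-- The main theorem: a radical point exists. -/
theorem exists_radical [Finite G] : ∃ V ∈ K, ∀ U ∈ K, Cm V U := by
  classical
  by_contra hno
  push Not at hno
  have hfact : Fact p.Prime := ⟨H.hp⟩
  obtain ⟨W, hW, Y₀, hY₀, -, -⟩ := H.hex
  obtain ⟨t₀, ht₀, hWt₀⟩ := hno W hW
  have ht₀W : ¬ Cm t₀ W := fun h => hWt₀ h.symm
  have hconn : ∀ a ∈ K, ¬ Cm a W → ∀ b ∈ K, ¬ Cm b W → Relation.ReflTransGen (Adj K W) a b := by
    intro a ha haW b hb hbW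
    rcases H.connected_or_radical hW ha haW hb hbW with h | ⟨z, hz, hz2⟩
    · exact h
    · obtain ⟨U, hU, hU2⟩ := hno z hz
      exact absurd (hz2 U hU) hU2
  obtain ⟨w, hwW, hw1⟩ := exists_ne_one H.hp (H.hK W hW)
  obtain ⟨τ, hτt, hτ1⟩ := exists_ne_one H.hp (H.hK t₀ ht₀)
  have hwp : w ^ p = 1 := pow_eq_one_of_mem H.hp (H.hK W hW) hwW
  have hτp : τ ^ p = 1 := pow_eq_one_of_mem H.hp (H.hK t₀ ht₀) hτt
  have hnc : τ * w ≠ w * τ := fun hc =>
    ht₀W (cm_of_gen H.hp (H.hK t₀ ht₀) (H.hK W hW) hτt hτ1 hwW hw1 hc)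
  set F : ℕ → G := fun i => τ ^ i * w * (τ ^ i)⁻¹ with hF
  have hF0 : F 0 = w := by simp [hF]
  have hF1 : F 1 = τ * w * τ⁻¹ := by simp [hF]
  have hFadd : ∀ a i, τ ^ a * F i * (τ ^ a)⁻¹ = F (a + i) := by
    intro a i
    simp only [hF]
    rw [pow_add]
    group
  have hFeq : ∀ a b : ℕ, a % p = b % p → F a = F b := by
    intro a b hab
    simp only [hF]
    rw [pow_eq_pow_mod a hτp, pow_eq_pow_mod b hτp, hab]
  have hFpow : ∀ i, F i ^ p = 1 := by
    intro i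
    simp only [hF]
    rw [conj_pow, hwp]
    group
  -- B1
  have hB1 : ∀ t, Relation.ReflTransGen (Adj K W) t₀ t → ∀ s ∈ t, ∃ k : ℕ, ∀ i : ℕ,
      s ^ i * w * (s ^ i)⁻¹ = F (k * i) := by
    intro t ht
    induction ht with
    | refl =>
      intro s hs
      rw [eq_zpowers H.hp (H.hK t₀ ht₀) hτt hτ1] at hs
      obtain ⟨j, rfl⟩ := (Submonoid.mem_powers_iff _ _).1 (mem_powers_iff_mem_zpowers.2 hs)
      refine ⟨j, fun i => ?_⟩
      simp only [hF]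
      rw [pow_mul]
    | @tail c d _ hstep ih =>
      obtain ⟨hcK, hcW, hdK, hdW, hcd⟩ := hstep
      intro s hs
      by_cases hcdeq : c = d
      · subst hcdeq; exact ih s hs
      obtain ⟨Z, hZK, hZle, hZW⟩ := H.p3 hcK hdK hcdeq hcd hW
      have hZc : Z ≠ c := by
        rintro rfl
        exact hcW hZW
      have hle : d ≤ c ⊔ Z := H.line_le hcK hdK hcd hZle (H.hK Z hZK) hZc
      have hcZ : Cm c Z := (H.cm_sup_of_le hcK hdK hcd hZle).symm
      obtain ⟨x, hx, z, hz, rfl⟩ := mem_sup_of_cm hcZ (hle hs)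
      obtain ⟨k, hk⟩ := ih x hx
      refine ⟨k, fun i => ?_⟩
      have hxz : Commute x z := hcZ x hx z hz
      have hzw : Commute z w := hZW z hz w hwW
      have hzi : z ^ i * w * (z ^ i)⁻¹ = w := by
        rw [(hzw.pow_left i).eq]; group
      rw [hxz.mul_pow, ← hk i]
      calc x ^ i * z ^ i * w * (x ^ i * z ^ i)⁻¹ = x ^ i * (z ^ i * w * (z ^ i)⁻¹) * (x ^ i)⁻¹ := by group
        _ = x ^ i * w * (x ^ i)⁻¹ := by rw [hzi]
  -- B2
  have hB2 : ∀ X ∈ K, ¬ Cm X W → ∀ s ∈ X, ∃ k : ℕ, ∀ i : ℕ, s * F i * s⁻¹ = F (i + k) := by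
    intro X hX hXW s hs
    by_cases hs1 : s = 1
    · refine ⟨0, fun i => ?_⟩
      subst hs1
      simp
    obtain ⟨k, hk⟩ := hB1 X (hconn t₀ ht₀ ht₀W X hX hXW) s hs
    have hkp : ¬ p ∣ k := by
      intro hd
      apply hXW
      apply cm_of_gen H.hp (H.hK X hX) (H.hK W hW) hs hs1 hwW hw1
      have h1 := hk 1
      rw [pow_one, mul_one] at h1
      have h2 : F k = F 0 := hFeq _ _ (by rw [Nat.zero_mod]; exact Nat.mod_eq_zero_of_dvd hd)
      rw [h2, hF0] at h1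
      calc s * w = (s * w * s⁻¹) * s := by group
        _ = w * s := by rw [h1]
    have hcop : Nat.Coprime k p := ((Nat.Prime.coprime_iff_not_dvd H.hp).2 hkp).symm
    obtain ⟨j, -, hj⟩ := Nat.exists_mul_mod_eq_one_of_coprime hcop H.hp.one_lt
    refine ⟨k, fun i => ?_⟩
    have hm : (k * (j * i)) % p = i % p := by
      rw [← mul_assoc, Nat.mul_mod, hj, one_mul, Nat.mod_mod]
    have h1 : F i = s ^ (j * i) * w * (s ^ (j * i))⁻¹ := by
      rw [hk, hFeq _ _ hm]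
    rw [h1]
    have h2 : s * (s ^ (j * i) * w * (s ^ (j * i))⁻¹) * s⁻¹ = s ^ (j * i + 1) * w * (s ^ (j * i + 1))⁻¹ := by
      rw [pow_succ']; group
    rw [h2, hk]
    apply hFeq
    have h3 : k * (j * i + 1) = k * (j * i) + k := by ring
    rw [h3, Nat.add_mod (k * (j * i)) k, hm, ← Nat.add_mod]
  -- B3
  have hB3 : ∀ X ∈ K, Cm X W → ∀ s ∈ X, ∀ i : ℕ, s * F i * s⁻¹ = F i := by
    intro X hX hXW s hs i
    have hsw : Commute s w := hXW s hs w hwW
    set X' := t₀.map (MulAut.conj s).toMonoidHom with hX'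
    have hX'K : X' ∈ K := H.hKc t₀ ht₀ s
    have hτ' : s * τ * s⁻¹ ∈ X' := ⟨τ, hτt, rfl⟩
    have hX'W : ¬ Cm X' W := by
      intro hc
      apply hnc
      have h1 : (s * τ * s⁻¹) * w = w * (s * τ * s⁻¹) := hc _ hτ' w hwW
      have h2 : s⁻¹ * w * s = w := by
        rw [mul_assoc, ← hsw.eq]; group
      calc τ * w = s⁻¹ * ((s * τ * s⁻¹) * (s * w * s⁻¹)) * s := by group
        _ = s⁻¹ * ((s * τ * s⁻¹) * w) * s := by rw [hsw.eq]; group
        _ = s⁻¹ * (w * (s * τ * s⁻¹)) * s := by rw [h1]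
        _ = (s⁻¹ * w * s) * τ := by group
        _ = w * τ := by rw [h2]
    obtain ⟨k, hk⟩ := hB1 X' (hconn t₀ ht₀ ht₀W X' hX'K hX'W) _ hτ'
    have hk2 : ∀ i : ℕ, s * F i * s⁻¹ = F (k * i) := by
      intro i
      rw [← hk i, conj_pow]
      simp only [hF]
      have h2 : s⁻¹ * w * s = w := by
        rw [mul_assoc, ← hsw.eq]; group
      calc s * (τ ^ i * w * (τ ^ i)⁻¹) * s⁻¹
          = (s * τ ^ i * s⁻¹) * (s * w * s⁻¹) * (s * τ ^ i * s⁻¹)⁻¹ := by group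
        _ = (s * τ ^ i * s⁻¹) * w * (s * τ ^ i * s⁻¹)⁻¹ := by
          rw [hsw.eq]; group
    have hk3 : ∀ (n i : ℕ), s ^ n * F i * (s ^ n)⁻¹ = F (k ^ n * i) := by
      intro n
      induction n with
      | zero => intro i; simp
      | succ n ih =>
        intro i
        have h1 : s ^ (n + 1) * F i * (s ^ (n + 1))⁻¹ = s ^ n * (s * F i * s⁻¹) * (s ^ n)⁻¹ := by
          rw [pow_succ]; group
        rw [h1, hk2, ih]
        congr 1
        ring
    have hsp : s ^ p = 1 := pow_eq_one_of_mem H.hp (H.hK X hX) hs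
    have h1 := hk3 p i
    rw [hsp] at h1
    simp only [one_mul, inv_one, mul_one] at h1
    have hfermat : (k ^ p * i) % p = (k * i) % p := by
      have h2 : ((k ^ p * i : ℕ) : ZMod p) = ((k * i : ℕ) : ZMod p) := by
        push_cast
        rw [ZMod.pow_card]
      exact (ZMod.natCast_eq_natCast_iff _ _ _).1 h2
    rw [hk2, ← hFeq _ _ hfermat, ← h1]
  -- B4
  have hwF : ∀ i, w * F i = F i * w := by
    intro i
    have h1 := hB3 W hW (cm_self H.hp (H.hK W hW)) w hwW i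
    calc w * F i = (w * F i * w⁻¹) * w := by group
      _ = F i * w := by rw [h1]
  have hFcomm : ∀ a b, F a * F b = F b * F a := by
    intro a b
    have h1 : F b = τ ^ a * F (b + (p - 1) * a) * (τ ^ a)⁻¹ := by
      rw [hFadd]
      apply hFeq
      have hpp := H.hp.one_lt
      have h2 : a + (b + (p - 1) * a) = b + p * a := by
        obtain ⟨q, rfl⟩ : ∃ q, p = q + 1 := ⟨p - 1, by omega⟩
        simp only [Nat.add_sub_cancel]
        ring
      rw [h2, Nat.add_mul_mod_self_left]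
    have h3 : F a = τ ^ a * w * (τ ^ a)⁻¹ := rfl
    set i := b + (p - 1) * a
    rw [h1, h3]
    calc τ ^ a * w * (τ ^ a)⁻¹ * (τ ^ a * F i * (τ ^ a)⁻¹) = τ ^ a * (w * F i) * (τ ^ a)⁻¹ := by group
      _ = τ ^ a * (F i * w) * (τ ^ a)⁻¹ := by rw [hwF]
      _ = τ ^ a * F i * (τ ^ a)⁻¹ * (τ ^ a * w * (τ ^ a)⁻¹) := by group
  -- B5
  set w₁ := F 1 with hw₁
  set w₂ := F 2 with hw₂
  have hw₁w : w * w₁ = w₁ * w := hwF 1
  have hτw : τ * w * τ⁻¹ = w₁ := hF1.symm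
  have hτw₁ : τ * w₁ * τ⁻¹ = w₂ := by
    have := hFadd 1 1
    rw [pow_one] at this
    exact this
  have hw₁ne : w₁ ≠ w := by
    intro h
    apply hnc
    rw [← hτw] at h
    calc τ * w = (τ * w * τ⁻¹) * τ := by group
      _ = w * τ := by rw [h]
  have hw₁1 : w₁ ≠ 1 := by
    intro h
    rw [← hτw] at h
    apply hw1
    have h2 : w = τ⁻¹ * (τ * w * τ⁻¹) * τ := by group
    rw [h2, h]
    group
  have hw₁p : w₁ ^ p = 1 := hFpow 1
  have hw₂p : w₂ ^ p = 1 := hFpow 2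
  set W₁ := W.map (MulAut.conj τ).toMonoidHom with hW₁
  have hW₁K : W₁ ∈ K := H.hKc W hW τ
  have hw₁W₁ : w₁ ∈ W₁ := ⟨w, hwW, by simp [hw₁, hF]⟩
  have hWW₁ : W ≠ W₁ := by
    intro h
    have h1 : w₁ ∈ W := by rw [h]; exact hw₁W₁
    rw [eq_zpowers H.hp (H.hK W hW) hwW hw1] at h1
    obtain ⟨m, hm⟩ := (Submonoid.mem_powers_iff _ _).1 (mem_powers_iff_mem_zpowers.2 h1)
    have h2 : τ * w * τ⁻¹ = w ^ m := by rw [hτw, hm]
    have h3 := norm_lemma hτp hwp m h2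
    rw [hτw] at h3
    exact hw₁ne h3
  have hCmW₁ : Cm W W₁ :=
    cm_of_gen H.hp (H.hK W hW) (H.hK W₁ hW₁K) hwW hw1 hw₁W₁ hw₁1 hw₁w
  obtain ⟨e, he⟩ := (Subgroup.ne_bot_iff_exists_ne_one.mp (H.hb W hW W₁ hW₁K hWW₁ hCmW₁ t₀ ht₀) :
    ∃ e : ↥((W ⊔ W₁) ⊓ Subgroup.centralizer (t₀ : Set G)), e ≠ 1)
  have he1 : (e : G) ≠ 1 := fun h => he (Subtype.ext h)
  have hemem : (e : G) ∈ W ⊔ W₁ := e.2.1
  have hτe : τ * e = e * τ := (Subgroup.mem_centralizer_iff.mp e.2.2) τ hτt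
  obtain ⟨x, hx, y, hy, hexy⟩ := mem_sup_of_cm hCmW₁ hemem
  rw [eq_zpowers H.hp (H.hK W hW) hwW hw1] at hx
  rw [eq_zpowers H.hp (H.hK W₁ hW₁K) hw₁W₁ hw₁1] at hy
  obtain ⟨a, rfl⟩ := (Submonoid.mem_powers_iff _ _).1 (mem_powers_iff_mem_zpowers.2 hx)
  obtain ⟨b, rfl⟩ := (Submonoid.mem_powers_iff _ _).1 (mem_powers_iff_mem_zpowers.2 hy)
  have hτee : τ * ((e : G)) * τ⁻¹ = e := by
    rw [hτe]; group
  rw [hexy] at hτee
  have hconjee : τ * (w ^ a * w₁ ^ b) * τ⁻¹ = w₁ ^ a * w₂ ^ b := by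
    calc τ * (w ^ a * w₁ ^ b) * τ⁻¹ = (τ * w ^ a * τ⁻¹) * (τ * w₁ ^ b * τ⁻¹) := by group
      _ = (τ * w * τ⁻¹) ^ a * (τ * w₁ * τ⁻¹) ^ b := by
        rw [conj_pow (a := τ) (b := w), conj_pow (a := τ) (b := w₁)]
      _ = w₁ ^ a * w₂ ^ b := by rw [hτw, hτw₁]
  have hww₁ : Commute w w₁ := hw₁w
  set v := w₁ * w⁻¹ with hv
  have hvp : v ^ p = 1 := by
    rw [hv, (hww₁.symm.inv_right).mul_pow, hw₁p, inv_pow, hwp]
    simp
  have hτv : τ * v * τ⁻¹ = v := by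
    by_cases hpb : p ∣ b
    · exfalso
      have hb1 : w₁ ^ b = 1 := by
        obtain ⟨q, rfl⟩ := hpb
        rw [pow_mul, hw₁p, one_pow]
      have hb2 : w₂ ^ b = 1 := by
        obtain ⟨q, rfl⟩ := hpb
        rw [pow_mul, hw₂p, one_pow]
      rw [hconjee, hb1, hb2, mul_one, mul_one] at hτee
      have ha1 : w ^ a = 1 := by
        by_contra hne
        apply hWW₁
        have h1 : w ^ a ∈ W₁ := by
          rw [← hτee]
          exact Subgroup.pow_mem _ hw₁W₁ a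
        rw [eq_zpowers H.hp (H.hK W hW) (Subgroup.pow_mem _ hwW a) hne,
          eq_zpowers H.hp (H.hK W₁ hW₁K) h1 hne]
      apply he1
      rw [hexy, ha1, hb1, one_mul]
    · have hcop : Nat.Coprime b p := ((Nat.Prime.coprime_iff_not_dvd H.hp).2 hpb).symm
      obtain ⟨b', -, hb'⟩ := Nat.exists_mul_mod_eq_one_of_coprime hcop H.hp.one_lt
      set c := a * b' with hc
      have hw₁b : (w₁ ^ b) ^ b' = w₁ := by
        rw [← pow_mul, pow_eq_pow_mod (b * b') hw₁p, hb', pow_one]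
      have hw₂b : (w₂ ^ b) ^ b' = w₂ := by
        rw [← pow_mul, pow_eq_pow_mod (b * b') hw₂p, hb', pow_one]
      have hcomm1 : Commute (w ^ a) (w₁ ^ b) := hww₁.pow_pow a b
      have hcomm2 : Commute (w₁ ^ a) (w₂ ^ b) :=
        (show Commute w₁ w₂ from hFcomm 1 2).pow_pow a b
      have hrel : w₁ ^ c * w₂ = w ^ c * w₁ := by
        have h1 : (τ * (w ^ a * w₁ ^ b) * τ⁻¹) ^ b' = (w ^ a * w₁ ^ b) ^ b' := by rw [hτee]
        rw [hconjee, hcomm1.mul_pow, hcomm2.mul_pow, hw₁b, hw₂b, ← pow_mul, ← pow_mul] at h1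
        exact h1
      have hw₂eq : w₂ * w₁⁻¹ = (w₁ ^ c)⁻¹ * w ^ c := by
        calc w₂ * w₁⁻¹ = (w₁ ^ c)⁻¹ * (w₁ ^ c * w₂) * w₁⁻¹ := by group
          _ = (w₁ ^ c)⁻¹ * (w ^ c * w₁) * w₁⁻¹ := by rw [hrel]
          _ = (w₁ ^ c)⁻¹ * w ^ c := by group
      have hτv1 : τ * v * τ⁻¹ = w₂ * w₁⁻¹ := by
        rw [hv, ← hτw₁, ← hτw]; group
      have hvinv : v⁻¹ = v ^ (p - 1) := by
        have hpp := H.hp.one_lt
        apply inv_eq_of_mul_eq_one_right
        rw [← pow_succ', Nat.sub_add_cancel hpp.le, hvp]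
      have hvpow : v ^ ((p - 1) * c) = (w₁ ^ c)⁻¹ * w ^ c := by
        rw [pow_mul, ← hvinv, hv, mul_inv_rev, inv_inv, (hww₁.inv_right).mul_pow, inv_pow]
        exact ((hww₁.pow_pow c c).inv_right).eq
      apply norm_lemma (p := p) hτp hvp ((p - 1) * c)
      rw [hτv1, hw₂eq, hvpow]
  -- B6
  have hB6 : ∀ X ∈ K, ∀ s ∈ X, s * v * s⁻¹ = v := by
    intro X hX s hs
    by_cases hXW : Cm X W
    · have h1 := hB3 X hX hXW s hs 1
      have h0 := hB3 X hX hXW s hs 0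
      rw [hF0] at h0
      rw [hv]
      calc s * (w₁ * w⁻¹) * s⁻¹ = (s * w₁ * s⁻¹) * (s * w * s⁻¹)⁻¹ := by group
        _ = w₁ * w⁻¹ := by rw [h1, h0]
    · obtain ⟨k, hk⟩ := hB2 X hX hXW s hs
      have h1 := hk 1
      have h0 := hk 0
      rw [hF0] at h0
      have hτk : τ ^ k * v * (τ ^ k)⁻¹ = v := by
        have hc : Commute (τ ^ k) v := by
          apply Commute.pow_left
          show τ * v = v * τ
          calc τ * v = (τ * v * τ⁻¹) * τ := by group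
            _ = v * τ := by rw [hτv]
        rw [hc.eq]; group
      have h3 : s * v * s⁻¹ = F (1 + k) * (F (0 + k))⁻¹ := by
        rw [hv, conj_mul_inv, h1, h0]
      have h4 : F (1 + k) * (F (0 + k))⁻¹ = τ ^ k * v * (τ ^ k)⁻¹ := by
        have h5 : τ ^ k * w * (τ ^ k)⁻¹ = F (0 + k) := by
          have := hFadd k 0
          rw [hF0, add_zero] at this
          rw [this, zero_add]
        rw [hv, conj_mul_inv, h5, hFadd, add_comm k 1]
      rw [h3, h4, hτk]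
  -- B7
  have hvmem : v ∈ W ⊔ W₁ :=
    Subgroup.mul_mem _ (Subgroup.mem_sup_right hw₁W₁) (Subgroup.mem_sup_left (W.inv_mem hwW))
  have hv1 : v ≠ 1 := by
    intro h
    exact hw₁ne (mul_inv_eq_one.mp h)
  have hVc := H.card_zpowers_of hvp hv1
  have hVK : Subgroup.zpowers v ∈ K :=
    H.ha W hW W₁ hW₁K hWW₁ hCmW₁ _ ((Subgroup.zpowers_le).2 hvmem) hVc
  obtain ⟨U, hU, hU2⟩ := hno _ hVK
  apply hU2
  obtain ⟨u, hu, hu1⟩ := exists_ne_one H.hp (H.hK U hU)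
  apply cm_of_gen H.hp hVc (H.hK U hU) (Subgroup.mem_zpowers v) hv1 hu hu1
  have h6 := hB6 U hU u hu
  calc v * u = (u * v * u⁻¹) * u := by rw [h6]
    _ = u * v := by group

end Polar

/-- Let p be a prime and K a set of subgroups of order p of a finite group G, closed under conjugation, such that at least two distinct members of K commute elementwise, and whenever two distinct members X, Y of K commute: every subgroup of order p of the group XY they generate belongs to K, and every member W of K has centralizer meeting XY nontrivially. Then some member V of K commutes elementwise with every member of K and lies in O_p(G); in particular G is not simple. -/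
theorem result {G : Type*} [Group G] [Finite G]
    {p : ℕ} (hp : p.Prime) (K : Set (Subgroup G)) (hK : ∀ X ∈ K, Nat.card ↥X = p)
    (hKc : ∀ X ∈ K, ∀ g : G, X.map (MulAut.conj g).toMonoidHom ∈ K)
    (hex : ∃ X ∈ K, ∃ Y ∈ K, X ≠ Y ∧ ∀ x ∈ X, ∀ y ∈ Y, x * y = y * x)
    (ha : ∀ X ∈ K, ∀ Y ∈ K, X ≠ Y → (∀ x ∈ X, ∀ y ∈ Y, x * y = y * x) →
      ∀ Z : Subgroup G, Z ≤ X ⊔ Y → Nat.card ↥Z = p → Z ∈ K)
    (hb : ∀ X ∈ K, ∀ Y ∈ K, X ≠ Y → (∀ x ∈ X, ∀ y ∈ Y, x * y = y * x) →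
      ∀ W ∈ K, (X ⊔ Y) ⊓ Subgroup.centralizer (W : Set G) ≠ ⊥) :
    (∃ V ∈ K, (∀ W ∈ K, ∀ v ∈ V, ∀ w ∈ W, v * w = w * v) ∧ V ≤ Cfsg.pCore p G) ∧ ¬ IsSimpleGroup G := by
  classical
  have H : Polar p K := ⟨hp, hK, hKc, hex, ha, hb⟩
  obtain ⟨V, hV, hVr⟩ := H.exists_radical
  -- the subgroup generated by the radical
  let S : Set G := {x | ∃ V' ∈ K, (∀ U ∈ K, Cm V' U) ∧ x ∈ V'}
  let R : Subgroup G := Subgroup.closure S
  have hScomm : ∀ x ∈ S, ∀ y ∈ S, x * y = y * x := by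
    rintro x ⟨V₁, hV₁, hr₁, hx⟩ y ⟨V₂, hV₂, hr₂, hy⟩
    exact hr₁ V₂ hV₂ x hx y hy
  have hRcomm : IsMulCommutative R := Subgroup.isMulCommutative_closure hScomm
  have hRn : R.Normal := by
    constructor
    intro x hx g
    induction hx using Subgroup.closure_induction with
    | mem x hx =>
      apply Subgroup.subset_closure
      obtain ⟨V', hV', hr, hxV⟩ := hx
      refine ⟨V'.map (MulAut.conj g).toMonoidHom, hKc V' hV' g, ?_, ⟨x, hxV, rfl⟩⟩
      intro U hU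
      rintro _ ⟨a, haV, rfl⟩ u hu
      have hU' := hKc U hU g⁻¹
      have h1 := hr _ hU' a haV (g⁻¹ * u * g) ⟨u, hu, by simp [MulAut.conj_apply]⟩
      show g * a * g⁻¹ * u = u * (g * a * g⁻¹)
      calc g * a * g⁻¹ * u = g * (a * (g⁻¹ * u * g)) * g⁻¹ := by group
        _ = g * ((g⁻¹ * u * g) * a) * g⁻¹ := by rw [h1]
        _ = u * (g * a * g⁻¹) := by group
    | one => simp [Subgroup.one_mem]
    | mul x y _ _ hx hy =>
      have : g * (x * y) * g⁻¹ = (g * x * g⁻¹) * (g * y * g⁻¹) := by group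
      rw [this]
      exact Subgroup.mul_mem _ hx hy
    | inv x _ hx =>
      have : g * x⁻¹ * g⁻¹ = (g * x * g⁻¹)⁻¹ := by group
      rw [this]
      exact Subgroup.inv_mem _ hx
  have hRp : ∀ x ∈ R, x ^ p = 1 := by
    intro x hx
    induction hx using Subgroup.closure_induction with
    | mem x hx =>
      obtain ⟨V', hV', _, hxV⟩ := hx
      exact pow_eq_one_of_mem hp (hK V' hV') hxV
    | one => simp
    | mul x y hx' hy' hx hy =>
      have hc : Commute x y := by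
        have := hRcomm.is_comm.comm ⟨x, hx'⟩ ⟨y, hy'⟩
        exact congrArg Subtype.val this
      rw [hc.mul_pow, hx, hy, one_mul]
    | inv x _ hx => rw [inv_pow, hx, inv_one]
  have hRpg : IsPGroup p R := by
    intro g
    refine ⟨1, ?_⟩
    rw [pow_one]
    exact Subtype.ext (hRp g g.2)
  have hVR : V ≤ R := fun x hx => Subgroup.subset_closure ⟨V, hV, hVr, hx⟩
  have hRO : R ≤ Cfsg.pCore p G := Cfsg.Agent.Lib.PCore.le_pCore hRn hRpg
  refine ⟨⟨V, hV, ?_, hVR.trans hRO⟩, ?_⟩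
  · intro W hW v hv w hw
    exact hVr W hW v hv w hw
  · intro hs
    have hRne : R ≠ ⊥ := by
      intro h0
      obtain ⟨v, hv, hv1⟩ := exists_ne_one hp (hK V hV)
      have := hVR hv
      rw [h0] at this
      exact hv1 this
    have hRtop : R = ⊤ := (hs.eq_bot_or_eq_top_of_normal R hRn).resolve_left hRne
    have hGcomm : ∀ a b : G, a * b = b * a := by
      intro a b
      have hcomm := hRcomm.is_comm.comm ⟨a, by rw [hRtop]; exact Subgroup.mem_top _⟩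
        ⟨b, by rw [hRtop]; exact Subgroup.mem_top _⟩
      exact congrArg Subtype.val hcomm
    obtain ⟨X, hX, Y, hY, hXY, -⟩ := hex
    have htop : ∀ X ∈ K, X = ⊤ := by
      intro X hX
      have hn : X.Normal := by
        constructor
        intro x hx g
        rw [hGcomm g x]
        simpa using hx
      refine (hs.eq_bot_or_eq_top_of_normal X hn).resolve_left ?_
      intro h0
      obtain ⟨v, hv, hv1⟩ := exists_ne_one hp (hK X hX)
      rw [h0] at hv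
      exact hv1 hv
    exact hXY ((htop X hX).trans (htop Y hY).symm)

end Cfsg.Agent.S3196
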