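import Mathlib
import Cfsg.Statements.S3200
import Cfsg.Agent.Lib.BurnsidePQ
import Cfsg.Agent.Lib.Hall

set_option autoImplicit false
open Cfsg

namespace Cfsg.Agent.S3200

universe u

/-- A group with an abelian subgroup of odd order and `2`-power index. -/
def HP (G : Type*) [Group G] : Prop :=
  ∃ C : Subgroup G, IsMulCommutative C ∧ Odd (Nat.card C) ∧ ∃ k : ℕ, C.index = 2 ^ k

theorem relIndex_dvd_index {G : Type*} [Group G] [Finite G] (C N : Subgroup G) [N.Normal] :
    C.relIndex N ∣ C.index := by
  have hx1 : N.relIndex (C ⊔ N) = N.relIndex C := Subgroup.relIndex_sup_right C N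
  have hcard : ∀ A B : Subgroup G, A.relIndex B * Nat.card (A ⊓ B : Subgroup G) = Nat.card B := by
    intro A B
    have h3 : (A.subgroupOf B).index * Nat.card (A.subgroupOf B) = Nat.card B :=
      Subgroup.index_mul_card _
    have h4 : Nat.card (A.subgroupOf B) = Nat.card (A ⊓ B : Subgroup G) := by
      rw [← Subgroup.inf_subgroupOf_right]
      exact Nat.card_congr (Subgroup.subgroupOfEquivOfLe inf_le_right).toEquiv
    rw [h4] at h3
    exact h3
  have h1 := hcard N C
  have h2 := hcard N (C ⊔ N)
  have h3 := hcard C (C ⊔ N)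
  have h4 := hcard C N
  rw [inf_eq_left.mpr (le_sup_right : N ≤ C ⊔ N)] at h2
  rw [inf_eq_left.mpr (le_sup_left : C ≤ C ⊔ N)] at h3
  rw [hx1] at h2
  set x := N.relIndex C
  set y := C.relIndex (C ⊔ N)
  set z := C.relIndex N
  have hpos1 : 0 < x := by
    by_contra h
    have h0 : x = 0 := by omega
    rw [h0, zero_mul] at h1
    exact Nat.card_pos.ne h1
  have hpos2 : 0 < Nat.card (C ⊓ N : Subgroup G) := Nat.card_pos
  have hyz : y = z := by
    have h5 : y * (x * Nat.card (N ⊓ C : Subgroup G)) = x * (z * Nat.card (C ⊓ N : Subgroup G)) := by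
      rw [h1, h4, h3, h2]
    rw [inf_comm] at h5
    have h6 : y * (x * Nat.card (C ⊓ N : Subgroup G)) = z * (x * Nat.card (C ⊓ N : Subgroup G)) := by
      rw [h5]; ring
    exact Nat.eq_of_mul_eq_mul_right (by positivity) h6
  rw [← show y = z from hyz]
  exact Subgroup.relIndex_dvd_index_of_le le_sup_left

theorem hp_quot {G : Type*} [Group G] [Finite G] (h : HP G) (N : Subgroup G) [N.Normal] : HP (G ⧸ N) := by
  obtain ⟨C, hC, hodd, k, hk⟩ := h
  refine ⟨C.map (QuotientGroup.mk' N), ?_, ?_, ?_⟩
  · refine ⟨⟨?_⟩⟩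
    rintro ⟨_, a, ha, rfl⟩ ⟨_, b, hb, rfl⟩
    apply Subtype.ext
    have := hC.is_comm.comm ⟨a, ha⟩ ⟨b, hb⟩
    have h2 : a * b = b * a := congrArg Subtype.val this
    show (QuotientGroup.mk' N a) * (QuotientGroup.mk' N b) = (QuotientGroup.mk' N b) * (QuotientGroup.mk' N a)
    rw [← map_mul, ← map_mul, h2]
  · apply Odd.of_dvd_nat hodd
    exact Subgroup.card_map_dvd _ _
  · have h1 : (C.map (QuotientGroup.mk' N)).index ∣ 2 ^ k := by
      rw [← hk]
      exact Subgroup.index_map_dvd C (QuotientGroup.mk'_surjective N)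
    obtain ⟨j, -, hj⟩ := (Nat.dvd_prime_pow Nat.prime_two).mp h1
    exact ⟨j, hj⟩

theorem hp_normal {G : Type*} [Group G] [Finite G] (h : HP G) (N : Subgroup G) [N.Normal] : HP N := by
  obtain ⟨C, hC, hodd, k, hk⟩ := h
  refine ⟨C.subgroupOf N, ?_, ?_, ?_⟩
  · refine ⟨⟨?_⟩⟩
    rintro ⟨a, ha⟩ ⟨b, hb⟩
    apply Subtype.ext
    apply Subtype.ext
    have := hC.is_comm.comm ⟨a.1, ha⟩ ⟨b.1, hb⟩
    show (a : G) * (b : G) = (b : G) * (a : G)
    exact congrArg Subtype.val this
  · apply Odd.of_dvd_nat hodd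
    have h1 : Nat.card (C.subgroupOf N) = Nat.card (C ⊓ N : Subgroup G) := by
      rw [← Subgroup.inf_subgroupOf_right]
      exact Nat.card_congr (Subgroup.subgroupOfEquivOfLe inf_le_right).toEquiv
    rw [h1]
    exact Subgroup.card_dvd_of_le inf_le_left
  · have h1 : (C.subgroupOf N).index ∣ 2 ^ k := by
      rw [← hk]
      exact relIndex_dvd_index C N
    obtain ⟨j, -, hj⟩ := (Nat.dvd_prime_pow Nat.prime_two).mp h1
    exact ⟨j, hj⟩

theorem solvable_of_hp : ∀ (n : ℕ) (G : Type u) [Group G] [Finite G], Nat.card G = n → HP G →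
    Group.IsSolvable G := by
  intro n
  induction n using Nat.strong_induction_on with
  | _ n ih =>
    intro G _ _ hn hH
    by_cases htriv : Subsingleton G
    · infer_instance
    rw [not_subsingleton_iff_nontrivial] at htriv
    by_cases hsimple : IsSimpleGroup G
    · obtain ⟨C, hC, hodd, k, hk⟩ := hH
      by_cases hCb : C = ⊥
      · have hcard : Nat.card G = 2 ^ k := by
          rw [← hk, hCb, Subgroup.index_bot]
        have hfact : Fact (Nat.Prime 2) := ⟨Nat.prime_two⟩
        have hP : IsPGroup 2 G := IsPGroup.of_card hcard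
        have := hP.isNilpotent
        infer_instance
      · obtain ⟨g, hg⟩ := (Subgroup.ne_bot_iff_exists_ne_one.mp hCb : ∃ g : C, g ≠ 1)
        have hg1 : (g : G) ≠ 1 := fun h => hg (Subtype.ext h)
        have hle : C ≤ Subgroup.centralizer ({(g : G)} : Set G) := by
          intro x hx
          rw [Subgroup.mem_centralizer_singleton_iff]
          have := hC.is_comm.comm ⟨x, hx⟩ g
          exact congrArg Subtype.val this
        have hidx : (Subgroup.centralizer ({(g : G)} : Set G)).index ∣ 2 ^ k := by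
          rw [← hk]
          exact Subgroup.index_dvd_of_le hle
        obtain ⟨j, -, hj⟩ := (Nat.dvd_prime_pow Nat.prime_two).mp hidx
        have hprime := Cfsg.Agent.Lib.BurnsidePQ.prime_card_of_class_prime_pow 2 j Nat.prime_two (g : G) hg1 hj
        have : Fact (Nat.card G).Prime := ⟨hprime⟩
        have := isCyclic_of_prime_card (α := G) rfl
        exact Group.isSolvable_of_comm (fun a b => (IsCyclic.isMulCommutative (α := G)).is_comm.comm a b)
    · have hns : ∃ N : Subgroup G, N.Normal ∧ N ≠ ⊥ ∧ N ≠ ⊤ := by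
        by_contra hcon
        push Not at hcon
        apply hsimple
        refine ⟨fun N hN => ?_⟩
        by_cases hb : N = ⊥
        · exact Or.inl hb
        · exact Or.inr (hcon N hN hb)
      obtain ⟨N, hN, hNb, hNt⟩ := hns
      have hnpos : 0 < n := by rw [← hn]; exact Nat.card_pos
      have hmul : Nat.card N * Nat.card (G ⧸ N) = n := by
        rw [← hn, mul_comm, ← Subgroup.index_eq_card]
        exact Subgroup.index_mul_card N
      have h1 : 1 < Nat.card N := by
        have := (Subgroup.nontrivial_iff_ne_bot N).mpr hNb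
        exact Finite.one_lt_card
      have h2 : 1 < Nat.card (G ⧸ N) := by
        have : Nontrivial (G ⧸ N) := QuotientGroup.nontrivial_iff.mpr hNt
        exact Finite.one_lt_card
      have hNlt : Nat.card N < n := by
        rw [← hmul]
        exact lt_mul_of_one_lt_right (by omega) h2
      have hQlt : Nat.card (G ⧸ N) < n := by
        rw [← hmul]
        exact lt_mul_of_one_lt_left (by omega) h1
      have hsN : Group.IsSolvable N := ih _ hNlt N rfl (hp_normal hH N)
      have hsQ : Group.IsSolvable (G ⧸ N) := ih _ hQlt (G ⧸ N) rfl (hp_quot hH N)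
      exact Group.isSolvable_of_ker_le_range N.subtype (QuotientGroup.mk' N) (by
        rw [QuotientGroup.ker_mk', Subgroup.range_subtype])

/-- Any Sylow `2`-subgroup is a complement of a subgroup of odd order and `2`-power index. -/
theorem complement_of_index {G : Type*} [Group G] [Finite G] (D : Subgroup G) (hodd : Odd (Nat.card D))
    (k : ℕ) (hk : D.index = 2 ^ k) (P : Sylow 2 G) : Subgroup.IsComplement' (P : Subgroup G) D := by
  have hfact : Fact (Nat.Prime 2) := ⟨Nat.prime_two⟩
  have hG : Nat.card G = Nat.card D * 2 ^ k := by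
    rw [← hk, Subgroup.card_mul_index]
  have hcop : Nat.Coprime (Nat.card D) 2 := Nat.coprime_two_right.mpr hodd
  have hcardP : Nat.card (P : Subgroup G) = 2 ^ k := by
    rw [Sylow.card_eq_multiplicity, hG]
    have hne : Nat.card D ≠ 0 := Nat.card_pos.ne'
    rw [Nat.factorization_mul hne (pow_ne_zero _ (by norm_num))]
    simp only [Finsupp.coe_add, Pi.add_apply]
    rw [Nat.factorization_eq_zero_of_not_dvd (by
        intro hd
        have := Nat.Coprime.eq_one_of_dvd hcop.symm hd
        omega), Nat.Prime.factorization_pow Nat.prime_two]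
    simp
  apply Subgroup.isComplement'_of_coprime
  · rw [hcardP, hG, mul_comm]
  · rw [hcardP]
    exact (Nat.Coprime.pow_right k hcop).symm

/-- Let H be a finite group in which a Sylow 2-subgroup has an abelian complement (an abelian subgroup meeting it trivially whose product with it is all of H). Then H is solvable, and every subgroup and every quotient group of H again has a Sylow 2-subgroup with an abelian complement. -/
theorem result {H : Type*} [Group H] [Finite H]
    (S : Sylow 2 H) (C : Subgroup H) (hC : IsMulCommutative ↥C) (hSC : Subgroup.IsComplement' (S : Subgroup H) C) :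
    Group.IsSolvable H ∧
    (∀ L : Subgroup H, ∃ (P : Sylow 2 ↥L) (D : Subgroup ↥L), IsMulCommutative ↥D ∧ Subgroup.IsComplement' (P : Subgroup ↥L) D) ∧
    (∀ (N : Subgroup H) [N.Normal], ∃ (P : Sylow 2 (H ⧸ N)) (D : Subgroup (H ⧸ N)),
      IsMulCommutative ↥D ∧ Subgroup.IsComplement' (P : Subgroup (H ⧸ N)) D) := by
  classical
  have hfact : Fact (Nat.Prime 2) := ⟨Nat.prime_two⟩
  have hodd : Odd (Nat.card C) := by
    have h1 : (S : Subgroup H).index = Nat.card C := hSC.symm.index_eq_card
    have h2 := S.not_dvd_index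
    rw [h1] at h2
    exact Nat.odd_iff.2 (Nat.two_dvd_ne_zero.1 h2)
  obtain ⟨k, hk⟩ := IsPGroup.iff_card.mp S.isPGroup'
  have hidx : C.index = 2 ^ k := by
    rw [← hk]
    exact hSC.index_eq_card
  have hHP : HP H := ⟨C, hC, hodd, k, hidx⟩
  have hsolv : Group.IsSolvable H := solvable_of_hp _ H rfl hHP
  refine ⟨hsolv, ?_, ?_⟩
  · intro L
    obtain ⟨P⟩ : Nonempty (Sylow 2 L) := inferInstance
    have hsL : Group.IsSolvable L := inferInstance
    -- the odd part of `|L|`
    obtain ⟨m, j, hmodd, hL⟩ : ∃ m j : ℕ, Odd m ∧ Nat.card L = m * 2 ^ j := by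
      obtain ⟨j, m, hm, hL⟩ := Nat.exists_eq_two_pow_mul_odd (n := Nat.card L) Nat.card_pos.ne'
      exact ⟨m, j, hm, by rw [hL, mul_comm]⟩
    have hcop : m.Coprime (2 ^ j) := Nat.Coprime.pow_right j (Nat.coprime_two_right.mpr hmodd)
    obtain ⟨⟨D, hD⟩, -⟩ := Cfsg.Agent.Lib.Hall.hall_main (Nat.card L) L m (2 ^ j) rfl hL hcop
    have hDidx : D.index = 2 ^ j := by
      have h1 := Subgroup.card_mul_index D
      rw [hD, hL] at h1
      exact Nat.eq_of_mul_eq_mul_left hmodd.pos h1
    have hDc : IsMulCommutative D := by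
      -- conjugate into `C`
      have hcopC : (Nat.card C).Coprime (2 ^ k) := Nat.Coprime.pow_right k (Nat.coprime_two_right.mpr hodd)
      have hHcard : Nat.card H = Nat.card C * 2 ^ k := by
        rw [← hidx, Subgroup.card_mul_index]
      obtain ⟨-, hconj⟩ := Cfsg.Agent.Lib.Hall.hall_main (Nat.card H) H (Nat.card C) (2 ^ k) rfl hHcard hcopC
      have hDH : Nat.card (D.map L.subtype) = m := by
        rw [Subgroup.card_map_of_injective L.subtype_injective, hD]
      obtain ⟨g, hg⟩ := hconj C (D.map L.subtype) rfl (by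
        rw [hDH]
        exact Nat.Coprime.pow_right k (Nat.coprime_two_right.mpr hmodd))
      refine ⟨⟨?_⟩⟩
      rintro ⟨a, ha⟩ ⟨b, hb⟩
      apply Subtype.ext
      apply Subtype.ext
      have ha' := hg ⟨a, ha, rfl⟩
      have hb' := hg ⟨b, hb, rfl⟩
      obtain ⟨x, hx, hxa⟩ := ha'
      obtain ⟨y, hy, hyb⟩ := hb'
      have hxy : x * y = y * x := by
        have := hC.is_comm.comm ⟨x, hx⟩ ⟨y, hy⟩
        exact congrArg Subtype.val this
      show (a : H) * (b : H) = (b : H) * (a : H)
      have hxa' : (a : H) = g * x * g⁻¹ := hxa.symm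
      have hyb' : (b : H) = g * y * g⁻¹ := hyb.symm
      rw [hxa', hyb']
      calc g * x * g⁻¹ * (g * y * g⁻¹) = g * (x * y) * g⁻¹ := by group
        _ = g * (y * x) * g⁻¹ := by rw [hxy]
        _ = g * y * g⁻¹ * (g * x * g⁻¹) := by group
    exact ⟨P, D, hDc, complement_of_index D (by rw [hD]; exact hmodd) j hDidx P⟩
  · intro N _
    obtain ⟨D, hDc, hDodd, j, hj⟩ := hp_quot hHP N
    obtain ⟨P⟩ : Nonempty (Sylow 2 (H ⧸ N)) := inferInstance
    exact ⟨P, D, hDc, complement_of_index D hDodd j hj P⟩

end Cfsg.Agent.S3200
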