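import Mathlib
import Cfsg.Statements.S3201
import Cfsg.Agent.Lib.QuatCentral
import Cfsg.Agent.Lib.QuatHom
import Cfsg.Agent.Lib.Frat

set_option autoImplicit false
open Cfsg

namespace Cfsg.Agent.S3201

open QuaternionGroup

theorem quat_one_comm : ∀ u v : QuaternionGroup 1, u * v = v * u := by decide

/-- Let S be a finite 2-group whose centre Z(S) has n ≥ 2 distinct maximal subgroups C₁, …, Cₙ with trivial intersection such that each quotient S/Cᵢ is a non-abelian group with exactly one involution (a generalized quaternion group). Then S is the internal direct product of an elementary abelian subgroup and a non-abelian subgroup with exactly one involution. -/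
theorem result {S : Type*} [Group S] [Finite S]
    (hS : IsPGroup 2 S) (n : ℕ) (hn : 2 ≤ n) (C : Fin n → Subgroup ↥(Subgroup.center S))
    (hCmax : ∀ i, IsCoatom (C i)) (hCinj : Function.Injective C) (hCint : ⨅ i, C i = ⊥)
    (hCq : ∀ i, ∃ (_ : ((C i).map (Subgroup.center S).subtype).Normal),
      ¬ IsMulCommutative (S ⧸ (C i).map (Subgroup.center S).subtype) ∧
      ∃! x : S ⧸ (C i).map (Subgroup.center S).subtype, orderOf x = 2) :
    ∃ E Q : Subgroup S, Cfsg.IsInternalDirectProduct E Q ⊤ ∧ Cfsg.IsElementaryAbelian 2 E ∧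
      ¬ IsMulCommutative ↥Q ∧ ∃! x : ↥Q, orderOf x = 2 := by
  classical
  have hp : Fact (Nat.Prime 2) := ⟨Nat.prime_two⟩
  have hZ : IsPGroup 2 (Subgroup.center S) := hS.to_subgroup _
  have hidx : ∀ i, (C i).index = 2 := fun i =>
    Cfsg.Agent.Lib.Frat.index_eq_of_isCoatom hZ (hCmax i)
  have hsqC : ∀ i, ∀ z : Subgroup.center S, z ^ 2 ∈ C i := fun i z =>
    (Cfsg.Agent.Lib.Frat.commutator_and_pow_mem_of_isCoatom hZ (hCmax i)).2 z
  -- membership in the intersection
  have hint1 : ∀ z : Subgroup.center S, (∀ i, z ∈ C i) → z = 1 := by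
    intro z hz
    have : z ∈ ⨅ i, C i := Subgroup.mem_iInf.mpr hz
    rw [hCint] at this
    exact this
  have hZsq : ∀ z ∈ Subgroup.center S, z ^ 2 = 1 := by
    intro z hz
    have := hint1 (⟨z, hz⟩ ^ 2) (fun i => hsqC i _)
    simpa using congrArg Subtype.val this
  -- membership in the image
  have hmemC : ∀ i, ∀ z : Subgroup.center S,
      (z : S) ∈ (C i).map (Subgroup.center S).subtype ↔ z ∈ C i := by
    intro i z
    constructor
    · rintro ⟨w, hw, hwz⟩
      have : w = z := Subtype.ext hwz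
      rwa [← this]
    · intro h
      exact ⟨z, h, rfl⟩
  have hleZ : ∀ i, ∀ g ∈ (C i).map (Subgroup.center S).subtype, g ∈ Subgroup.center S := by
    rintro i g ⟨w, _, rfl⟩
    exact w.2
  -- key property
  have hkey : ∀ i, ∀ g : S, g ^ 2 ∈ (C i).map (Subgroup.center S).subtype → g ∈ Subgroup.center S := by
    intro i g hg
    obtain ⟨hnormal, hnc, huniq⟩ := hCq i
    by_cases h1 : g ∈ (C i).map (Subgroup.center S).subtype
    · exact hleZ i g h1
    obtain ⟨z, hz⟩ : ∃ z : Subgroup.center S, z ∉ C i := by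
      by_contra hcon
      push_neg at hcon
      apply (hCmax i).1
      exact eq_top_iff.mpr (fun z _ => hcon z)
    have hz' : (z : S) ∉ (C i).map (Subgroup.center S).subtype := by rwa [hmemC]
    have hz2 : (z : S) ^ 2 ∈ (C i).map (Subgroup.center S).subtype := by
      have := (hmemC i (z ^ 2)).mpr (hsqC i z)
      simpa using this
    have hord : ∀ u : S, u ∉ (C i).map (Subgroup.center S).subtype →
        u ^ 2 ∈ (C i).map (Subgroup.center S).subtype →
        orderOf (QuotientGroup.mk u : S ⧸ (C i).map (Subgroup.center S).subtype) = 2 := by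
      intro u hu hu2
      apply orderOf_eq_prime
      · rw [← QuotientGroup.mk_pow]
        exact (QuotientGroup.eq_one_iff _).mpr hu2
      · intro h
        exact hu ((QuotientGroup.eq_one_iff _).mp h)
    have heq := huniq.unique (hord g h1 hg) (hord z hz' hz2)
    have h2 : (z : S)⁻¹ * g ∈ (C i).map (Subgroup.center S).subtype := by
      apply QuotientGroup.eq.mp
      exact heq.symm
    have h3 := hleZ i _ h2
    have h4 : g = (z : S) * ((z : S)⁻¹ * g) := by group
    rw [h4]
    exact Subgroup.mul_mem _ z.2 h3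
  -- squares
  have hsq_eq : ∀ g h : S, g ^ 2 ≠ 1 → (g ^ 2) ^ 2 = 1 → h ^ 2 ≠ 1 → (h ^ 2) ^ 2 = 1 → g ^ 2 = h ^ 2 := by
    intro g h hg1 hg2 hh1 hh2
    have i₀ : Fin n := ⟨0, by omega⟩
    have hsqin : ∀ u : S, (u ^ 2) ^ 2 = 1 → u ^ 2 ∈ Subgroup.center S := by
      intro u hu
      apply hkey i₀
      rw [hu]
      exact Subgroup.one_mem _
    have hgZ := hsqin g hg2
    have hhZ := hsqin h hh2
    have hout : ∀ u : S, u ^ 2 ≠ 1 → ∀ i, ∀ hu : u ^ 2 ∈ Subgroup.center S,
        (⟨u ^ 2, hu⟩ : Subgroup.center S) ∉ C i := by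
      intro u hu1 i hu hcon
      have h1 := (hmemC i ⟨u ^ 2, hu⟩).mpr hcon
      have h2 := hkey i u h1
      exact hu1 (hZsq u h2)
    have := hint1 (⟨g ^ 2, hgZ⟩ * (⟨h ^ 2, hhZ⟩ : Subgroup.center S)) (fun i => by
      have h5 := Subgroup.mul_mem_iff_of_index_two (H := C i) (hidx i)
        (a := (⟨g ^ 2, hgZ⟩ : Subgroup.center S)) (b := (⟨h ^ 2, hhZ⟩ : Subgroup.center S))
      rw [h5]
      exact iff_of_false (hout g hg1 i hgZ) (hout h hh1 i hhZ))
    have h6 : g ^ 2 * h ^ 2 = 1 := congrArg Subtype.val this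
    have h7 : (h ^ 2) * (h ^ 2) = 1 := by rw [← sq]; exact hh2
    calc g ^ 2 = g ^ 2 * (h ^ 2 * h ^ 2) := by rw [h7, mul_one]
      _ = (g ^ 2 * h ^ 2) * h ^ 2 := by rw [mul_assoc]
      _ = h ^ 2 := by rw [h6, one_mul]
  -- the quaternion structure
  have i₀ : Fin n := ⟨0, by omega⟩
  obtain ⟨hnormal, hnc, huniq⟩ := hCq i₀
  set D := (C i₀).map (Subgroup.center S).subtype with hD
  have hQ : IsPGroup 2 (S ⧸ D) := hS.to_quotient _
  obtain ⟨k, ⟨e⟩⟩ := Cfsg.Agent.Lib.QuatCentral.quaternion_of_unique_involution hQ hnc huniq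
  set m := 2 ^ k with hm
  have hm0 : NeZero m := ⟨by positivity⟩
  have hm1 : NeZero (2 * m) := ⟨by positivity⟩
  have hk1 : k ≠ 0 := by
    rintro rfl
    apply hnc
    refine ⟨⟨fun u v => ?_⟩⟩
    apply e.injective
    rw [map_mul, map_mul]
    exact quat_one_comm (e u) (e v)
  obtain ⟨k', hk'⟩ := Nat.exists_eq_succ_of_ne_zero hk1
  set m' := 2 ^ k' with hm'
  have hmm' : m = 2 * m' := by rw [hm, hk', pow_succ, mul_comm]
  let f : S →* QuaternionGroup m := e.toMonoidHom.comp (QuotientGroup.mk' D)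
  have hf : Function.Surjective f :=
    e.surjective.comp (QuotientGroup.mk'_surjective D)
  have hker : ∀ g : S, f g = 1 ↔ g ∈ D := by
    intro g
    constructor
    · intro hg
      have h1 : e (QuotientGroup.mk' D g) = 1 := hg
      have h2 : QuotientGroup.mk' D g = 1 := by simpa using h1
      exact (QuotientGroup.eq_one_iff g).mp h2
    · intro hg
      have h2 : QuotientGroup.mk' D g = 1 := (QuotientGroup.eq_one_iff g).mpr hg
      show e (QuotientGroup.mk' D g) = 1
      rw [h2, map_one]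
  have hmne : (a (m : ZMod (2 * m)) : QuaternionGroup m) ≠ 1 := by
    intro h
    rw [one_def] at h
    have h2 : (m : ZMod (2 * m)) = 0 := a.inj h
    rw [ZMod.natCast_eq_zero_iff] at h2
    have := Nat.le_of_dvd (by positivity) h2
    have hmpos : 0 < m := by positivity
    omega
  have hm2 : (a (m : ZMod (2 * m)) : QuaternionGroup m) ^ 2 = 1 := by
    rw [sq, a_mul_a, one_def]
    congr 1
    have h : ((2 * m : ℕ) : ZMod (2 * m)) = 0 := ZMod.natCast_self _
    push_cast at h
    rw [← two_mul, h]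
  have hfour : ∀ g : S, f (g ^ 2) = a (m : ZMod (2 * m)) → g ^ 2 ≠ 1 ∧ (g ^ 2) ^ 2 = 1 := by
    intro g hg
    constructor
    · intro h
      rw [h, map_one] at hg
      exact hmne hg.symm
    · have h1 : (g ^ 2) ^ 2 ∈ D := by
        rw [← hker, map_pow, hg, hm2]
      exact hZsq _ (hkey i₀ _ h1)
  obtain ⟨x, hx⟩ := hf (a 1)
  obtain ⟨y, hy⟩ := hf (xa 0)
  have hxpow : ∀ t : ℕ, f (x ^ t) = a (t : ZMod (2 * m)) := by
    intro t
    rw [map_pow, hx, a_one_pow]
  have hy2 : f (y ^ 2) = a (m : ZMod (2 * m)) := by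
    rw [map_pow, hy, sq, xa_mul_xa]
    congr 1
    ring
  have hyx2 : f ((y * x) ^ 2) = a (m : ZMod (2 * m)) := by
    rw [map_pow, map_mul, hx, hy, xa_mul_a, sq, xa_mul_xa]
    congr 1
    ring
  have hu2 : f ((x ^ m') ^ 2) = a (m : ZMod (2 * m)) := by
    rw [← pow_mul, hxpow]
    congr 2
    rw [hmm']; ring
  obtain ⟨hy21, hy22⟩ := hfour y hy2
  obtain ⟨hyx21, hyx22⟩ := hfour _ hyx2
  obtain ⟨hu21, hu22⟩ := hfour _ hu2
  have e1 : y ^ 2 = (y * x) ^ 2 := hsq_eq _ _ hy21 hy22 hyx21 hyx22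
  have e2 : (x ^ m') ^ 2 = y ^ 2 := hsq_eq _ _ hu21 hu22 hy21 hy22
  have hW : y * y = x ^ m := by
    rw [← sq, ← e2, ← pow_mul, hmm', mul_comm]
  have hA : x ^ (2 * m) = 1 := by
    rw [mul_comm, pow_mul, ← hW, ← sq]
    exact hy22
  have hc : y * x * y⁻¹ = x⁻¹ := by
    have h1 : y * y = y * x * (y * x) := by
      rw [← sq, e1, sq]
    have h2 : y = x * y * x := by
      have := mul_left_cancel (a := y) (b := y) (c := x * y * x) (by rw [h1]; group)
      exact this
    calc y * x * y⁻¹ = y * x * (x * y * x)⁻¹ := by rw [← h2]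
      _ = x⁻¹ := by group
  let s : QuaternionGroup m →* S := Cfsg.Agent.Lib.QuatHom.lift hA hW hc
  have hfs : ∀ q, f (s q) = q := by
    rintro (i | i)
    · show f (x ^ i.val) = a i
      rw [hxpow]
      congr 1
      exact ZMod.natCast_zmod_val i
    · show f (y * x ^ i.val) = xa i
      rw [map_mul, hxpow, hy, xa_mul_a, zero_add]
      congr 1
      exact ZMod.natCast_zmod_val i
  have hsinj : Function.Injective s := by
    intro u v huv
    have := congrArg f huv
    rwa [hfs, hfs] at this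
  let μ : QuaternionGroup m ≃* s.range := MonoidHom.ofInjective hsinj
  let ι : (S ⧸ D) ≃* s.range := e.trans μ
  refine ⟨D, s.range, ⟨le_top, le_top, ?_, ?_, ?_⟩, ⟨?_, ?_⟩, ?_, ?_⟩
  · intro u hu v _
    exact (Subgroup.mem_center_iff.mp (hleZ i₀ u hu) v).symm
  · rw [eq_bot_iff]
    rintro g ⟨hg1, ⟨q, rfl⟩⟩
    have h1 : f (s q) = 1 := (hker _).mpr hg1
    rw [hfs] at h1
    rw [h1, map_one]
    exact Subgroup.one_mem _
  · rw [eq_top_iff]
    intro g _
    have h1 : g * (s (f g))⁻¹ ∈ D := by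
      rw [← hker, map_mul, map_inv, hfs, mul_inv_cancel]
    have h2 : g = (g * (s (f g))⁻¹) * s (f g) := by group
    rw [h2]
    exact Subgroup.mul_mem _ (Subgroup.mem_sup_left h1) (Subgroup.mem_sup_right ⟨_, rfl⟩)
  · refine ⟨⟨fun u v => ?_⟩⟩
    apply Subtype.ext
    exact Subgroup.mem_center_iff.mp (hleZ i₀ _ u.2) _ |>.symm
  · intro u hu
    exact hZsq u (hleZ i₀ u hu)
  · intro hcomm
    apply hnc
    refine ⟨⟨fun u v => ?_⟩⟩
    apply ι.injective
    rw [map_mul, map_mul]
    exact hcomm.is_comm.comm _ _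
  · obtain ⟨w, hw, hwu⟩ := huniq
    refine ⟨ι w, ?_, ?_⟩
    · show orderOf (ι w) = 2
      rw [MulEquiv.orderOf_eq]
      exact hw
    · intro v hv
      have hv' : orderOf (ι.symm v) = 2 := by
        rw [MulEquiv.orderOf_eq]
        exact hv
      have := hwu _ hv'
      rw [← this]
      simp

end Cfsg.Agent.S3201
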