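import Mathlib
import Cfsg.Statements.S3202
import Cfsg.Agent.Lib.QuatCentral

set_option autoImplicit false
open Cfsg

namespace Cfsg.Agent.S3202

/-- Let S be a finite 2-group of 2-rank exactly 2 and D a maximal subgroup of the centre of S such that S/D is a non-abelian group with exactly one involution (a generalized quaternion group). Then S has a nontrivial cyclic characteristic subgroup. -/
theorem result {S : Type*} [Group S]
    [Finite S] (hS : IsPGroup 2 S) (hr2 : Cfsg.PRankLE 2 2 S) (hr1 : ¬ Cfsg.PRankLE 2 1 S)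
    (D : Subgroup ↥(Subgroup.center S)) (hD : IsCoatom D)
    (hq : ∃ (_ : (D.map (Subgroup.center S).subtype).Normal),
      ¬ IsMulCommutative (S ⧸ D.map (Subgroup.center S).subtype) ∧
      ∃! x : S ⧸ D.map (Subgroup.center S).subtype, orderOf x = 2) :
    ∃ C : Subgroup S, C ≠ ⊥ ∧ IsCyclic ↥C ∧ C.Characteristic := by
  obtain ⟨hnormal, hnc, huniq⟩ := hq
  set D' := D.map (Subgroup.center S).subtype with hD'
  have hQ : IsPGroup 2 (S ⧸ D') := hS.to_quotient _
  obtain ⟨n, ⟨e⟩⟩ := Cfsg.Agent.Lib.QuatCentral.quaternion_of_unique_involution hQ hnc huniq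
  let f : S →* QuaternionGroup (2 ^ n) := e.toMonoidHom.comp (QuotientGroup.mk' D')
  have hf : Function.Surjective f :=
    e.surjective.comp (QuotientGroup.mk'_surjective D')
  have hk : f.ker ≤ Subgroup.center S := by
    intro g hg
    have h1 : e (QuotientGroup.mk' D' g) = 1 := hg
    have h2 : QuotientGroup.mk' D' g = 1 := by simpa using h1
    have h3 : g ∈ D' := (QuotientGroup.eq_one_iff g).mp h2
    obtain ⟨z, _, rfl⟩ := h3
    exact z.2
  obtain ⟨c, hc⟩ := Cfsg.Agent.Lib.QuatCentral.commutator_cyclic f hf hk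
  refine ⟨commutator S, ?_, by rw [hc]; infer_instance, inferInstance⟩
  intro h
  apply hnc
  rw [Subgroup.Normal.quotient_commutative_iff_commutator_le, h]
  exact bot_le

end Cfsg.Agent.S3202
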