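import Mathlib
import Cfsg.Statements.S3208
import Cfsg.Agent.Lib.InvChar

set_option autoImplicit false
open Cfsg

namespace Cfsg.Agent.S3208

theorem result {G : Type*} [Group G] [Finite G]
    (j : G) (hj : orderOf j = 2) (H T : Subgroup G) (hT : T ≤ H ⊓ Subgroup.centralizer ({j} : Set G)) (h2 : IsPGroup 2 ↥T)
    (hSyl : ¬ 2 ∣ T.relIndex (H ⊓ Subgroup.centralizer ({j} : Set G))) (hjT : j ∈ T)
    (hchar : ((Subgroup.zpowers j).subgroupOf T).Characteristic) :
    ¬ 2 ∣ T.relIndex H := by
  classical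
  haveI : Fact (Nat.Prime 2) := ⟨Nat.prime_two⟩
  have hTH : T ≤ H := fun x hx => (hT hx).1
  intro hdvd
  obtain ⟨T₁, hlt, hT₁H, hT₁n, hT₁p⟩ := Cfsg.Agent.Lib.InvChar.exists_normalizer_step hTH h2 hdvd
  have hcent : T₁ ≤ Subgroup.centralizer ({j} : Set G) := by
    intro y hy
    have hyn := hT₁n hy
    rw [Subgroup.mem_set_normalizer_iff] at hyn
    let φ : ↥T ≃* ↥T :=
      { toFun := fun x => ⟨y * x * y⁻¹, (hyn x).1 x.2⟩
        invFun := fun x => ⟨y⁻¹ * x * y, (hyn _).2 (by simpa [mul_assoc] using x.2)⟩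
        left_inv := fun x => by ext; simp [mul_assoc]
        right_inv := fun x => by ext; simp [mul_assoc]
        map_mul' := fun a b => by ext; simp [mul_assoc] }
    have hfix := hchar.fixed φ
    have hmem : (⟨j, hjT⟩ : ↥T) ∈ (Subgroup.zpowers j).subgroupOf T := by
      simp [Subgroup.mem_subgroupOf]
    rw [← hfix] at hmem
    have h3 : y * j * y⁻¹ ∈ Subgroup.zpowers j := by
      have := hmem
      simpa [Subgroup.mem_comap, Subgroup.mem_subgroupOf, φ] using this
    obtain ⟨k, hk⟩ := h3
    have hj2 : j ^ 2 = 1 := by rw [← hj]; exact pow_orderOf_eq_one j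
    have hj1 : j ≠ 1 := by
      intro h; rw [h, orderOf_one] at hj; omega
    have h4 : y * j * y⁻¹ = j := by
      rcases Int.even_or_odd k with ⟨m, rfl⟩ | ⟨m, rfl⟩
      · exfalso
        apply hj1
        have : j ^ (m + m) = 1 := by
          rw [← two_mul, zpow_mul]
          norm_cast
          rw [hj2, one_zpow]
        simp only at hk
        rw [this] at hk
        have h5 : y * j * y⁻¹ = 1 := hk.symm
        have : y⁻¹ * (y * j * y⁻¹) * y = 1 := by rw [h5]; simp
        simpa [mul_assoc] using this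
      · simp only at hk
        rw [← hk, zpow_add, zpow_mul]
        norm_cast
        rw [hj2]
        simp
    rw [Subgroup.mem_centralizer_iff]
    intro h hh
    rw [Set.mem_singleton_iff] at hh
    subst hh
    calc h * y = y * (y⁻¹ * h * y) := by group
      _ = y * h := by
        congr 1
        have : y * h * y⁻¹ = h := h4
        calc y⁻¹ * h * y = y⁻¹ * (y * h * y⁻¹) * y := by rw [this]
          _ = h := by group
  have hle : T₁ ≤ H ⊓ Subgroup.centralizer ({j} : Set G) := le_inf hT₁H hcent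
  apply hSyl
  rw [← Subgroup.relIndex_mul_relIndex T T₁ _ hlt.le hle]
  apply Dvd.dvd.mul_right
  haveI : Finite ↥T₁ := inferInstance
  haveI : (T.subgroupOf T₁).FiniteIndex := inferInstance
  obtain ⟨n, hn⟩ := hT₁p.index (T.subgroupOf T₁)
  have hne : T.relIndex T₁ ≠ 1 := by
    rw [Ne, Subgroup.relIndex_eq_one]
    exact not_le_of_gt hlt
  rw [Subgroup.relIndex, hn] at *
  rcases n with _ | n
  · simp at hne
  · exact dvd_pow_self 2 (Nat.succ_ne_zero n)

end Cfsg.Agent.S3208
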