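import Mathlib
import Cfsg.Statements.S3209
import Cfsg.Agent.Lib.SL2Pair

set_option autoImplicit false

open Cfsg Cfsg.Agent.Lib.SL2Inv Cfsg.Agent.Lib.SL2Pair

namespace Cfsg.Agent.S3209

theorem result {G : Type*} [Group G] [Finite G]
    {F₁ : Type*} [Field F₁] [Fintype F₁] {F₂ : Type*} [Field F₂] [Fintype F₂]
    (hF₁ : Odd (Fintype.card F₁)) (hF₂ : Odd (Fintype.card F₂)) (L₁ L₂ : Subgroup G)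
    (e₁ : ↥L₁ ≃* Matrix.SpecialLinearGroup (Fin 2) F₁) (e₂ : ↥L₂ ≃* Matrix.SpecialLinearGroup (Fin 2) F₂)
    (hc : ∀ x ∈ L₁, ∀ y ∈ L₂, x * y = y * x) (j : G) (hj : orderOf j = 2) (hm : L₁ ⊓ L₂ = Subgroup.zpowers j) :
    ∃ x ∈ L₁ ⊔ L₂, orderOf x = 2 ∧ x ≠ j ∧
      ∀ y ∈ L₁ ⊔ L₂, orderOf y = 2 → y = j ∨ ∃ g ∈ L₁ ⊔ L₂, g * x * g⁻¹ = y := by
  have P := pair_of L₁ L₂ j hc hj hm
  have D₁ := data hF₁ L₁ e₁ j hj P.j₁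
  have D₂ := data hF₂ L₂ e₂ j hj P.j₂
  obtain ⟨a₀, ha₀, ha₀2⟩ := D₁.exists_sq
  obtain ⟨b₀, hb₀, hb₀2⟩ := D₂.exists_sq
  have hx2 : (a₀ * b₀) * (a₀ * b₀) = 1 := by
    rw [P.sq ha₀ hb₀, ha₀2, hb₀2, P.jj]
  have hnot : ∀ c, c ∈ L₁ → c ∈ L₂ → c * c ≠ j := by
    intro c h1 h2 hcc
    rcases P.inf c h1 h2 with h3 | h3
    · rw [h3, one_mul] at hcc
      exact P.j1 hcc.symm
    · rw [h3, P.jj] at hcc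
      exact P.j1 hcc.symm
  have hx1 : a₀ * b₀ ≠ 1 := by
    intro h
    have h1 : a₀ = b₀⁻¹ := eq_inv_of_mul_eq_one_left h
    exact hnot a₀ ha₀ (by rw [h1]; exact L₂.inv_mem hb₀) ha₀2
  have hxj : a₀ * b₀ ≠ j := by
    intro h
    have h1 : a₀ = j * b₀⁻¹ := by rw [← h]; group
    exact hnot a₀ ha₀ (by rw [h1]; exact L₂.mul_mem P.j₂ (L₂.inv_mem hb₀)) ha₀2
  refine ⟨a₀ * b₀, P.mul_mem_sup ha₀ hb₀, orderOf_eq_prime (by rw [pow_two]; exact hx2) hx1, hxj, ?_⟩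
  intro y hy hyo
  have hy2 : y * y = 1 := by
    have := pow_orderOf_eq_one y
    rwa [hyo, pow_two] at this
  have hy1 : y ≠ 1 := by
    intro h
    rw [h, orderOf_one] at hyo
    omega
  obtain ⟨a, ha, b, hb, rfl⟩ := P.mem_sup hy
  rcases P.square_one_cases ha hb hy2 with ⟨h1, h2⟩ | ⟨h1, h2⟩
  · left
    rcases D₁.sq_one a ha h1 with h3 | h3 <;> rcases D₂.sq_one b hb h2 with h4 | h4
    · exfalso; apply hy1; rw [h3, h4, one_mul]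
    · rw [h3, h4, one_mul]
    · rw [h3, h4, mul_one]
    · exfalso; apply hy1; rw [h3, h4, P.jj]
  · right
    obtain ⟨g₁, hg₁, hg₁a⟩ := D₁.conj a₀ ha₀ a ha ha₀2 h1
    obtain ⟨g₂, hg₂, hg₂b⟩ := D₂.conj b₀ hb₀ b hb hb₀2 h2
    refine ⟨g₁ * g₂, P.mul_mem_sup hg₁ hg₂, ?_⟩
    have c1 : a₀ * g₂ = g₂ * a₀ := hc a₀ ha₀ g₂ hg₂
    have c2 : g₁ * g₂ = g₂ * g₁ := hc g₁ hg₁ g₂ hg₂
    have c3 : a₀ * b₀ = b₀ * a₀ := hc a₀ ha₀ b₀ hb₀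
    calc g₁ * g₂ * (a₀ * b₀) * (g₁ * g₂)⁻¹ = g₁ * (g₂ * a₀) * b₀ * g₂⁻¹ * g₁⁻¹ := by group
      _ = g₁ * (a₀ * g₂) * b₀ * g₂⁻¹ * g₁⁻¹ := by rw [c1]
      _ = (g₁ * a₀) * (g₂ * b₀ * g₂⁻¹) * g₁⁻¹ := by group
      _ = (g₁ * a₀) * b * g₁⁻¹ := by rw [hg₂b]
      _ = (g₁ * a₀ * g₁⁻¹) * (g₁ * b * g₁⁻¹) := by group
      _ = a * (g₁ * b * g₁⁻¹) := by rw [hg₁a]
      _ = a * b := by rw [hc g₁ hg₁ b hb]; group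

end Cfsg.Agent.S3209
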