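import Mathlib
import Cfsg.Statements.S3210
import Cfsg.Agent.Lib.SL2Pair
import Cfsg.Agent.Lib.ClassicalSmall

set_option autoImplicit false

open Cfsg Cfsg.Agent.Lib.SL2Inv Cfsg.Agent.Lib.SL2Pair

namespace Cfsg.Agent.S3210

variable {G : Type*} [Group G]

theorem comm_conj {n x y : G} (h : (n * x * n⁻¹) * (n * y * n⁻¹) = (n * y * n⁻¹) * (n * x * n⁻¹)) :
    x * y = y * x := by
  have h1 : n * (x * y) * n⁻¹ = n * (y * x) * n⁻¹ := by
    calc n * (x * y) * n⁻¹ = (n * x * n⁻¹) * (n * y * n⁻¹) := by group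
      _ = (n * y * n⁻¹) * (n * x * n⁻¹) := h
      _ = n * (y * x) * n⁻¹ := by group
  exact mul_left_cancel (mul_right_cancel h1)

theorem conj_comm {n x y : G} (h : x * y = y * x) :
    (n * x * n⁻¹) * (n * y * n⁻¹) = (n * y * n⁻¹) * (n * x * n⁻¹) := by
  calc (n * x * n⁻¹) * (n * y * n⁻¹) = n * (x * y) * n⁻¹ := by group
    _ = n * (y * x) * n⁻¹ := by rw [h]
    _ = (n * y * n⁻¹) * (n * x * n⁻¹) := by group

/-- Two commuting square roots of `j` differ at most by `j`. -/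
theorem eq_or_of_comm {L : Subgroup G} {j : G} (D : Data L j) {a c : G} (ha : a ∈ L) (hc : c ∈ L)
    (ha2 : a * a = j) (hc2 : c * c = j) (hac : a * c = c * a) : c = a ∨ c = a * j := by
  have h1 : (a⁻¹ * c) * (a⁻¹ * c) = 1 := by
    have h2 : a⁻¹ * c = c * a⁻¹ := by
      calc a⁻¹ * c = a⁻¹ * (c * a) * a⁻¹ := by group
        _ = a⁻¹ * (a * c) * a⁻¹ := by rw [hac]
        _ = c * a⁻¹ := by group
    calc (a⁻¹ * c) * (a⁻¹ * c) = a⁻¹ * (c * a⁻¹) * c := by group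
      _ = a⁻¹ * (a⁻¹ * c) * c := by rw [h2]
      _ = (a * a)⁻¹ * (c * c) := by group
      _ = 1 := by rw [ha2, hc2]; group
  rcases D.sq_one _ (L.mul_mem (L.inv_mem ha) hc) h1 with h2 | h2
  · left
    rw [inv_mul_eq_one] at h2
    exact h2.symm
  · right
    rw [← h2]
    group

/-- The dichotomy: the image of the square roots of `j` in `L` lies in one factor. -/
theorem dich {L₁ L₂ L : Subgroup G} {j n : G} (P : Pair L₁ L₂ j) (D : Data L j)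
    (hjc : ∀ x ∈ L, x * j = j * x)
    (hI : ∀ y ∈ L, y * y = j → n * y * n⁻¹ ∈ L₁ ∨ n * y * n⁻¹ ∈ L₂) :
    (∀ y ∈ L, y * y = j → n * y * n⁻¹ ∈ L₁) ∨ (∀ y ∈ L, y * y = j → n * y * n⁻¹ ∈ L₂) := by
  by_contra hcon
  push Not at hcon
  obtain ⟨⟨a, ha, ha2, haL⟩, ⟨b, hb, hb2, hbL⟩⟩ := hcon
  have haL₂ : n * a * n⁻¹ ∈ L₂ := (hI a ha ha2).resolve_left haL
  have hbL₁ : n * b * n⁻¹ ∈ L₁ := (hI b hb hb2).resolve_right hbL
  have hcomm1 : ∀ c, n * c * n⁻¹ ∈ L₁ → c * a = a * c := by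
    intro c hc
    exact comm_conj (P.comm _ hc _ haL₂)
  have hcomm2 : ∀ c, n * c * n⁻¹ ∈ L₂ → b * c = c * b := by
    intro c hc
    exact comm_conj (P.comm _ hbL₁ _ hc)
  obtain ⟨p, hp, q, hq, hp2, hq2, hpq⟩ := D.not_comm
  have key : ∀ e, e ∈ L → e * e = j → ∀ c d : G, (c = e ∨ c = e * j) → (d = e ∨ d = e * j) →
      c * d = d * c := by
    intro e he _ c d hc hd
    have hej := hjc e he
    have hee : e * (e * j) = e * j * e := by
      calc e * (e * j) = e * (j * e) := by rw [hej]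
        _ = e * j * e := by group
    rcases hc with rfl | rfl <;> rcases hd with rfl | rfl
    · rfl
    · exact hee
    · exact hee.symm
    · rfl
  apply hpq
  rcases hI p hp hp2 with h1 | h1 <;> rcases hI q hq hq2 with h2 | h2
  · exact key a ha ha2 p q (eq_or_of_comm D ha hp ha2 hp2 (hcomm1 p h1).symm)
      (eq_or_of_comm D ha hq ha2 hq2 (hcomm1 q h2).symm)
  · exact comm_conj (P.comm _ h1 _ h2)
  · exact (comm_conj (P.comm _ h2 _ h1)).symm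
  · exact key b hb hb2 p q (eq_or_of_comm D hb hp hb2 hp2 (hcomm2 p h1))
      (eq_or_of_comm D hb hq hb2 hq2 (hcomm2 q h2))

/-- An element of the central product commuting with all square roots of `j` in `L₂` lies in `L₁`. -/
theorem mem_of_comm {L₁ L₂ : Subgroup G} {j : G} (P : Pair L₁ L₂ j) (D₂ : Data L₂ j) {y : G}
    (hy : y ∈ L₁ ⊔ L₂) (h : ∀ c ∈ L₂, c * c = j → c * y = y * c) : y ∈ L₁ := by
  obtain ⟨u, hu, v, hv, rfl⟩ := P.mem_sup hy
  have h1 : ∀ a ∈ L₂, a * a = j → v * a = a * v := by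
    intro c hc hc2
    have h2 := h c hc hc2
    have h3 : c * u = u * c := (P.comm u hu c hc).symm
    have h4 : u * (c * v) = u * (v * c) := by
      calc u * (c * v) = (u * c) * v := by group
        _ = (c * u) * v := by rw [h3]
        _ = c * (u * v) := by group
        _ = u * v * c := h2
        _ = u * (v * c) := by group
    exact (mul_left_cancel h4).symm
  rcases D₂.cent v hv h1 with h2 | h2
  · rw [h2, mul_one]; exact hu
  · rw [h2]; exact L₁.mul_mem hu P.j₁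

theorem surj [Finite G] (S : Set G) (n : G) (h : ∀ y ∈ S, n * y * n⁻¹ ∈ S) :
    ∀ c ∈ S, ∃ d ∈ S, n * d * n⁻¹ = c := by
  intro c hc
  let f : ↥S → ↥S := fun y => ⟨n * y * n⁻¹, h y y.2⟩
  have hf : Function.Injective f := by
    intro x y hxy
    have h1 : n * (x : G) * n⁻¹ = n * y * n⁻¹ := congrArg Subtype.val hxy
    exact Subtype.ext (mul_left_cancel (mul_right_cancel h1))
  obtain ⟨d, hd⟩ := (Finite.surjective_of_injective hf) ⟨c, hc⟩
  exact ⟨d, d.2, congrArg Subtype.val hd⟩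

theorem map_conj_eq [Finite G] {A B : Subgroup G} {g : G} (h : ∀ x ∈ A, g * x * g⁻¹ ∈ B)
    (hc : Nat.card B ≤ Nat.card A) : A.map (MulAut.conj g).toMonoidHom = B := by
  apply Subgroup.eq_of_le_of_card_ge
  · rintro _ ⟨x, hx, rfl⟩
    exact h x hx
  · rw [Subgroup.card_map_of_injective (MulAut.conj g).injective]
    exact hc

theorem card_eq_of_SL2_card {q₁ q₂ : ℕ} (h1 : 1 < q₁) (h2 : 1 < q₂)
    (h : (q₁ + 1) * q₁ * (q₁ - 1) = (q₂ + 1) * q₂ * (q₂ - 1)) : q₁ = q₂ := by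
  have key : ∀ a b : ℕ, 1 < a → a < b → (a + 1) * a * (a - 1) < (b + 1) * b * (b - 1) := by
    intro a b ha hab
    have h3 : (a + 1) * a < (b + 1) * b := Nat.mul_lt_mul'' (by omega) hab
    exact Nat.mul_lt_mul_of_lt_of_le h3 (by omega) (by omega)
  rcases lt_trichotomy q₁ q₂ with h3 | h3 | h3
  · have := key _ _ h1 h3
    omega
  · exact h3
  · have := key _ _ h2 h3
    omega

theorem result {G : Type*} [Group G] [Finite G]
    {F₁ : Type*} [Field F₁] [Fintype F₁] {F₂ : Type*} [Field F₂] [Fintype F₂]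
    (hF₁ : Odd (Fintype.card F₁)) (hF₂ : Odd (Fintype.card F₂)) (L₁ L₂ : Subgroup G)
    (e₁ : ↥L₁ ≃* Matrix.SpecialLinearGroup (Fin 2) F₁) (e₂ : ↥L₂ ≃* Matrix.SpecialLinearGroup (Fin 2) F₂)
    (hc : ∀ x ∈ L₁, ∀ y ∈ L₂, x * y = y * x) (j : G) (hj : orderOf j = 2) (hm : L₁ ⊓ L₂ = Subgroup.zpowers j)
    (hle : L₁ ⊔ L₂ ≤ Subgroup.centralizer ({j} : Set G)) (hi : (L₁ ⊔ L₂).relIndex (Subgroup.centralizer ({j} : Set G)) = 2) (n : G) (hn : n ∈ Subgroup.centralizer ({j} : Set G)) (hn' : n ∉ L₁ ⊔ L₂) :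
    (L₁.map (MulAut.conj n).toMonoidHom = L₁ ∧ L₂.map (MulAut.conj n).toMonoidHom = L₂) ∨
      (L₁.map (MulAut.conj n).toMonoidHom = L₂ ∧ Fintype.card F₁ = Fintype.card F₂ ∧
        ∃ n' ∈ Subgroup.centralizer ({j} : Set G), n' ∉ L₁ ⊔ L₂ ∧ L₁.map (MulAut.conj n').toMonoidHom = L₂ ∧ n' ^ 2 ∈ Subgroup.zpowers j) := by
  have P := pair_of L₁ L₂ j hc hj hm
  have D₁ := data hF₁ L₁ e₁ j hj P.j₁
  have D₂ := data hF₂ L₂ e₂ j hj P.j₂
  have hnj : n * j = j * n := (Subgroup.mem_centralizer_iff.mp hn j rfl).symm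
  have hiY : ((L₁ ⊔ L₂).subgroupOf (Subgroup.centralizer ({j} : Set G))).index = 2 := hi
  have hYn : ((L₁ ⊔ L₂).subgroupOf (Subgroup.centralizer ({j} : Set G))).Normal :=
    Subgroup.normal_of_index_eq_two hiY
  have hσY : ∀ y ∈ L₁ ⊔ L₂, n * y * n⁻¹ ∈ L₁ ⊔ L₂ := by
    intro y hy
    have h1 : (⟨y, hle hy⟩ : ↥(Subgroup.centralizer ({j} : Set G))) ∈
        (L₁ ⊔ L₂).subgroupOf (Subgroup.centralizer ({j} : Set G)) := Subgroup.mem_subgroupOf.mpr hy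
    have h2 := hYn.conj_mem _ h1 ⟨n, hn⟩
    exact Subgroup.mem_subgroupOf.mp h2
  have hn2Y : n * n ∈ L₁ ⊔ L₂ := by
    have h1 := Subgroup.sq_mem_of_index_two hiY ⟨n, hn⟩
    have h2 := Subgroup.mem_subgroupOf.mp h1
    rw [pow_two] at h2
    exact h2
  have hσj : ∀ y, y * y = j → (n * y * n⁻¹) * (n * y * n⁻¹) = j := by
    intro y hy
    calc (n * y * n⁻¹) * (n * y * n⁻¹) = n * (y * y) * n⁻¹ := by group
      _ = n * j * n⁻¹ := by rw [hy]
      _ = j := by rw [hnj]; group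
  have hI : ∀ y ∈ L₁ ⊔ L₂, y * y = j → n * y * n⁻¹ ∈ L₁ ∨ n * y * n⁻¹ ∈ L₂ := fun y hy hy2 =>
    P.sq_j_mem D₁ D₂ (hσY y hy) (hσj y hy2)
  have hjc₁ : ∀ x ∈ L₁, x * j = j * x := fun x hx => hc x hx j P.j₂
  have hjc₂ : ∀ x ∈ L₂, x * j = j * x := fun x hx => (hc j P.j₁ x hx).symm
  have dich₁ := dich (n := n) P D₁ hjc₁ (fun y hy hy2 => hI y ((le_sup_left : L₁ ≤ L₁ ⊔ L₂) hy) hy2)
  have dich₂ := dich (n := n) P D₂ hjc₂ (fun y hy hy2 => hI y ((le_sup_right : L₂ ≤ L₁ ⊔ L₂) hy) hy2)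
  have hnot : ∀ c, c ∈ L₁ → c ∈ L₂ → c * c ≠ j := by
    intro c h1 h2 hcc
    rcases P.inf c h1 h2 with h3 | h3
    · rw [h3, one_mul] at hcc
      exact P.j1 hcc.symm
    · rw [h3, P.jj] at hcc
      exact P.j1 hcc.symm
  let I₁ : Set G := {y | y ∈ L₁ ∧ y * y = j}
  let I₂ : Set G := {y | y ∈ L₂ ∧ y * y = j}
  have hY₁ : ∀ {x}, x ∈ L₁ → x ∈ L₁ ⊔ L₂ := fun hx => (le_sup_left : L₁ ≤ L₁ ⊔ L₂) hx
  have hY₂ : ∀ {x}, x ∈ L₂ → x ∈ L₁ ⊔ L₂ := fun hx => (le_sup_right : L₂ ≤ L₁ ⊔ L₂) hx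
  have Ps := P.symm
  rcases dich₁ with h₁ | h₁ <;> rcases dich₂ with h₂ | h₂
  · -- `I₁ → L₁`, `I₂ → L₁`: impossible
    exfalso
    obtain ⟨c, hc₂, hc2⟩ := D₂.exists_sq
    obtain ⟨d, hd, hde⟩ := surj I₁ n (fun y hy => ⟨h₁ y hy.1 hy.2, hσj y hy.2⟩) _
      (show n * c * n⁻¹ ∈ I₁ from ⟨h₂ c hc₂ hc2, hσj c hc2⟩)
    have h3 : d = c := mul_left_cancel (mul_right_cancel hde)
    rw [h3] at hd
    exact hnot c hd.1 hc₂ hc2
  · -- `I₁ → L₁`, `I₂ → L₂`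
    left
    have s₁ := surj I₁ n (fun y hy => ⟨h₁ y hy.1 hy.2, hσj y hy.2⟩)
    have s₂ := surj I₂ n (fun y hy => ⟨h₂ y hy.1 hy.2, hσj y hy.2⟩)
    constructor
    · refine map_conj_eq (fun x hx => ?_) (Nat.le_of_eq rfl)
      apply mem_of_comm P D₂ (hσY x (hY₁ hx))
      intro c hc₂ hc2
      obtain ⟨d, hd, rfl⟩ := s₂ c ⟨hc₂, hc2⟩
      exact conj_comm (hc x hx d hd.1).symm
    · refine map_conj_eq (fun x hx => ?_) (Nat.le_of_eq rfl)
      apply mem_of_comm Ps D₁ (by rw [sup_comm]; exact hσY x (hY₂ hx))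
      intro c hc₁ hc2
      obtain ⟨d, hd, rfl⟩ := s₁ c ⟨hc₁, hc2⟩
      exact conj_comm (hc d hd.1 x hx)
  · -- `I₁ → L₂`, `I₂ → L₁`
    right
    have s₁ : ∀ c, c ∈ L₁ → c * c = j → ∃ d, d ∈ L₂ ∧ d * d = j ∧ n * d * n⁻¹ = c := by
      intro c hc₁ hc2
      have hS := surj I₁ (n * n) (fun y hy => by
        have e : n * n * y * (n * n)⁻¹ = n * (n * y * n⁻¹) * n⁻¹ := by group
        rw [e]
        exact ⟨h₂ _ (h₁ y hy.1 hy.2) (hσj y hy.2), hσj _ (hσj y hy.2)⟩) c ⟨hc₁, hc2⟩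
      obtain ⟨d, hd, hde⟩ := hS
      refine ⟨n * d * n⁻¹, h₁ d hd.1 hd.2, hσj d hd.2, ?_⟩
      rw [← hde]; group
    have s₂ : ∀ c, c ∈ L₂ → c * c = j → ∃ d, d ∈ L₁ ∧ d * d = j ∧ n * d * n⁻¹ = c := by
      intro c hc₂ hc2
      have hS := surj I₂ (n * n) (fun y hy => by
        have e : n * n * y * (n * n)⁻¹ = n * (n * y * n⁻¹) * n⁻¹ := by group
        rw [e]
        exact ⟨h₁ _ (h₂ y hy.1 hy.2) (hσj y hy.2), hσj _ (hσj y hy.2)⟩) c ⟨hc₂, hc2⟩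
      obtain ⟨d, hd, hde⟩ := hS
      refine ⟨n * d * n⁻¹, h₂ d hd.1 hd.2, hσj d hd.2, ?_⟩
      rw [← hde]; group
    have h12 : ∀ x ∈ L₁, n * x * n⁻¹ ∈ L₂ := by
      intro x hx
      apply mem_of_comm Ps D₁ (by rw [sup_comm]; exact hσY x (hY₁ hx))
      intro c hc₁ hc2
      obtain ⟨d, hd, _, rfl⟩ := s₁ c hc₁ hc2
      exact conj_comm (hc x hx d hd).symm
    have h21 : ∀ x ∈ L₂, n * x * n⁻¹ ∈ L₁ := by
      intro x hx
      apply mem_of_comm P D₂ (hσY x (hY₂ hx))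
      intro c hc₂ hc2
      obtain ⟨d, hd, _, rfl⟩ := s₂ c hc₂ hc2
      exact conj_comm (hc d hd x hx)
    have hcard : Nat.card L₁ = Nat.card L₂ := by
      have h3 : Nat.card (L₁.map (MulAut.conj n).toMonoidHom) = Nat.card L₁ :=
        Subgroup.card_map_of_injective (MulAut.conj n).injective
      have h4 : Nat.card (L₂.map (MulAut.conj n).toMonoidHom) = Nat.card L₂ :=
        Subgroup.card_map_of_injective (MulAut.conj n).injective
      have h5 : L₁.map (MulAut.conj n).toMonoidHom ≤ L₂ := by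
        rintro _ ⟨x, hx, rfl⟩
        exact h12 x hx
      have h6 : L₂.map (MulAut.conj n).toMonoidHom ≤ L₁ := by
        rintro _ ⟨x, hx, rfl⟩
        exact h21 x hx
      have h7 := Nat.le_of_dvd Nat.card_pos (Subgroup.card_dvd_of_le h5)
      have h8 := Nat.le_of_dvd Nat.card_pos (Subgroup.card_dvd_of_le h6)
      omega
    have hmap : L₁.map (MulAut.conj n).toMonoidHom = L₂ := map_conj_eq h12 hcard.ge
    refine ⟨hmap, ?_, ?_⟩
    · have h3 : Nat.card L₁ = Nat.card (Matrix.SpecialLinearGroup (Fin 2) F₁) :=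
        Nat.card_congr e₁.toEquiv
      have h4 : Nat.card L₂ = Nat.card (Matrix.SpecialLinearGroup (Fin 2) F₂) :=
        Nat.card_congr e₂.toEquiv
      rw [h3, h4, Cfsg.Agent.Lib.ClassicalSmall.card_SL2, Cfsg.Agent.Lib.ClassicalSmall.card_SL2] at hcard
      exact card_eq_of_SL2_card Fintype.one_lt_card Fintype.one_lt_card hcard
    · obtain ⟨a, ha, b, hb, hab⟩ := P.mem_sup hn2Y
      have h3 : n * a * n⁻¹ ∈ L₂ := h12 a ha
      have h4 : n * b * n⁻¹ ∈ L₁ := h21 b hb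
      have h5 : (n * a * n⁻¹) * (n * b * n⁻¹) = a * b := by
        have e : (n * a * n⁻¹) * (n * b * n⁻¹) = n * (a * b) * n⁻¹ := by group
        rw [e, ← hab]
        group
      have h6 := hc _ h4 _ h3
      -- `ε := b * σ(a)⁻¹ = a⁻¹ * σ(b)`
      have h7 : a⁻¹ * (n * b * n⁻¹) = b * (n * a * n⁻¹)⁻¹ := by
        have h8 : (n * b * n⁻¹) * (n * a * n⁻¹) = a * b := by rw [h6, h5]
        calc a⁻¹ * (n * b * n⁻¹) = a⁻¹ * ((n * b * n⁻¹) * (n * a * n⁻¹)) * (n * a * n⁻¹)⁻¹ := by group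
          _ = a⁻¹ * (a * b) * (n * a * n⁻¹)⁻¹ := by rw [h8]
          _ = b * (n * a * n⁻¹)⁻¹ := by group
      have hε₁ : b * (n * a * n⁻¹)⁻¹ ∈ L₁ := by
        rw [← h7]; exact L₁.mul_mem (L₁.inv_mem ha) h4
      have hε₂ : b * (n * a * n⁻¹)⁻¹ ∈ L₂ := L₂.mul_mem hb (L₂.inv_mem h3)
      have hε := P.inf _ hε₁ hε₂
      have hn'n : n * a⁻¹ ∈ Subgroup.centralizer ({j} : Set G) :=
        Subgroup.mul_mem _ hn (Subgroup.inv_mem _ (hle (hY₁ ha)))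
      refine ⟨n * a⁻¹, hn'n, ?_, ?_, ?_⟩
      · intro h
        apply hn'
        have : n = n * a⁻¹ * a := by group
        rw [this]
        exact (L₁ ⊔ L₂).mul_mem h (hY₁ ha)
      · refine map_conj_eq (fun x hx => ?_) hcard.ge
        have e : n * a⁻¹ * x * (n * a⁻¹)⁻¹ = n * (a⁻¹ * x * a) * n⁻¹ := by group
        rw [e]
        exact h12 _ (L₁.mul_mem (L₁.mul_mem (L₁.inv_mem ha) hx) ha)
      · have h8 : (n * a⁻¹) ^ 2 = (n * a * n⁻¹)⁻¹ * (b * (n * a * n⁻¹)⁻¹) * (n * a * n⁻¹) := by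
          rw [pow_two]
          calc n * a⁻¹ * (n * a⁻¹) = (n * a * n⁻¹)⁻¹ * (n * n) * a⁻¹ := by group
            _ = (n * a * n⁻¹)⁻¹ * (a * b) * a⁻¹ := by rw [hab]
            _ = (n * a * n⁻¹)⁻¹ * (a * (b * a⁻¹)) := by group
            _ = (n * a * n⁻¹)⁻¹ * (a * (a⁻¹ * b)) := by
                rw [show b * a⁻¹ = a⁻¹ * b from (hc _ (L₁.inv_mem ha) _ hb).symm]
            _ = (n * a * n⁻¹)⁻¹ * b := by group
            _ = _ := by group
        rw [h8]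
        rcases hε with h9 | h9
        · rw [h9]
          have : (n * a * n⁻¹)⁻¹ * 1 * (n * a * n⁻¹) = 1 := by group
          rw [this]
          exact Subgroup.one_mem _
        · rw [h9]
          have h10 : j * (n * a * n⁻¹) = (n * a * n⁻¹) * j := hc _ P.j₁ _ h3
          have : (n * a * n⁻¹)⁻¹ * j * (n * a * n⁻¹) = j := by
            rw [mul_assoc, h10]; group
          rw [this]
          exact Subgroup.mem_zpowers j
  · -- `I₁ → L₂`, `I₂ → L₂`: impossible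
    exfalso
    obtain ⟨c, hc₁, hc2⟩ := D₁.exists_sq
    obtain ⟨d, hd, hde⟩ := surj I₂ n (fun y hy => ⟨h₂ y hy.1 hy.2, hσj y hy.2⟩) _
      (show n * c * n⁻¹ ∈ I₂ from ⟨h₁ c hc₁ hc2, hσj c hc2⟩)
    have h3 : d = c := mul_left_cancel (mul_right_cancel hde)
    rw [h3] at hd
    exact hnot c hc₁ hd.1 hc2

end Cfsg.Agent.S3210
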