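import Mathlib
import Cfsg.Statements.S3213

set_option autoImplicit false
set_option linter.unusedSimpArgs false
set_option linter.unusedVariables false
open Cfsg
open Matrix

namespace Cfsg.Agent.S3213

theorem sl25_aux : ∀ x : SpecialLinearGroup (Fin 2) (ZMod 5), x ^ 3 = 1 → x ≠ 1 →
    ∃ g : SpecialLinearGroup (Fin 2) (ZMod 5), (x * (g * x * g⁻¹)) ^ 12 ≠ 1 := by
  decide +kernel

theorem exists_conj_not12 {K : Type*} [Field K] [Fintype K] (hK : Fintype.card K = 5)
    (x : SpecialLinearGroup (Fin 2) K) (h3 : x ^ 3 = 1) (h1 : x ≠ 1) :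
    ∃ g : SpecialLinearGroup (Fin 2) K, (x * (g * x * g⁻¹)) ^ 12 ≠ 1 := by
  let e : ZMod 5 ≃+* K := ZMod.ringEquivOfPrime K (by norm_num) hK
  let ψ : SpecialLinearGroup (Fin 2) K →* SpecialLinearGroup (Fin 2) (ZMod 5) :=
    SpecialLinearGroup.map e.symm.toRingHom
  let χ : SpecialLinearGroup (Fin 2) (ZMod 5) →* SpecialLinearGroup (Fin 2) K :=
    SpecialLinearGroup.map e.toRingHom
  have hψχ : ∀ y, ψ (χ y) = y := by
    intro y; ext i j; simp [ψ, χ]
  have hχψ : ∀ y, χ (ψ y) = y := by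
    intro y; ext i j; simp [ψ, χ]
  obtain ⟨g, hg⟩ := sl25_aux (ψ x) (by rw [← map_pow, h3, map_one])
    (fun e => h1 (by rw [← hχψ x, e, map_one]))
  refine ⟨χ g, fun hcon => hg ?_⟩
  have := congrArg ψ hcon
  simpa [hψχ, map_mul, map_pow, map_inv] using this

section powers

variable {R : Type*} [Ring R] (h3 : (3 : R) = 0) {a b : R} (haa : a * a = 0) (hbb : b * b = 0)

include h3 in
theorem three_add (x : R) : x + x + x = 0 := by
  have : x + x + x = 3 * x := by noncomm_ring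
  rw [this, h3, zero_mul]

include h3 in
theorem nsmul_three (k : ℕ) (x : R) : (3 * k) • x = 0 := by
  rw [mul_nsmul]
  have : 3 • x = x + x + x := by abel
  rw [this, three_add h3, smul_zero]

include h3 haa hbb in
theorem pow_case0 (aba : a * b * a = 0) (bab : b * a * b = 0) : ((1 + a) * (1 + b)) ^ 12 = 1 := by
  have haa' : ∀ x, a * (a * x) = 0 := fun x => by rw [← mul_assoc, haa, zero_mul]
  have hbb' : ∀ x, b * (b * x) = 0 := fun x => by rw [← mul_assoc, hbb, zero_mul]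
  have aba1 : a * (b * a) = 0 := by rw [← mul_assoc, aba]
  have bab1 : b * (a * b) = 0 := by rw [← mul_assoc, bab]
  have aba2 : ∀ x, a * (b * (a * x)) = 0 := fun x => by
    rw [← mul_assoc, ← mul_assoc, aba, zero_mul]
  have bab2 : ∀ x, b * (a * (b * x)) = 0 := fun x => by
    rw [← mul_assoc, ← mul_assoc, bab, zero_mul]
  have h3' : ((1 + a) * (1 + b)) ^ 3 = 1 := by
    have e : ((1 + a) * (1 + b)) ^ 3 = 1 + (3 * 1) • a + (3 * 1) • b + (3 * 2) • (a * b)
        + (3 * 1) • (b * a) := by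
      simp only [pow_succ, pow_zero, one_mul, mul_add, add_mul, mul_one, mul_assoc, haa, hbb, haa', hbb',
        aba1, bab1, aba2, bab2, mul_zero, zero_mul, add_zero, zero_add]
      abel
    rw [e]
    simp only [nsmul_three h3, add_zero]
  calc ((1 + a) * (1 + b)) ^ 12 = (((1 + a) * (1 + b)) ^ 3) ^ 4 := by rw [← pow_mul]
    _ = 1 := by rw [h3', one_pow]

include h3 haa hbb in
theorem pow_case1 (aba : a * b * a = a) (bab : b * a * b = b) : ((1 + a) * (1 + b)) ^ 12 = 1 := by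
  have haa' : ∀ x, a * (a * x) = 0 := fun x => by rw [← mul_assoc, haa, zero_mul]
  have hbb' : ∀ x, b * (b * x) = 0 := fun x => by rw [← mul_assoc, hbb, zero_mul]
  have aba1 : a * (b * a) = a := by rw [← mul_assoc, aba]
  have bab1 : b * (a * b) = b := by rw [← mul_assoc, bab]
  have aba2 : ∀ x, a * (b * (a * x)) = a * x := fun x => by
    rw [← mul_assoc, ← mul_assoc, aba]
  have bab2 : ∀ x, b * (a * (b * x)) = b * x := fun x => by
    rw [← mul_assoc, ← mul_assoc, bab]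
  have h2 : ((1 + a) * (1 + b)) ^ 2 = 1 + a * b + b * a := by
    have e : ((1 + a) * (1 + b)) ^ 2 = 1 + a * b + b * a + (3 * 1) • a + (3 * 1) • b + (3 * 1) • (a * b) := by
      simp only [pow_succ, pow_zero, one_mul, mul_add, add_mul, mul_one, mul_assoc, haa, hbb, haa', hbb',
        aba1, bab1, aba2, bab2, mul_zero, zero_mul, add_zero, zero_add]
      abel
    rw [e]
    simp only [nsmul_three h3, add_zero]
  have h4 : (1 + a * b + b * a) * (1 + a * b + b * a) = 1 := by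
    have e : (1 + a * b + b * a) * (1 + a * b + b * a) = 1 + (3 * 1) • (a * b) + (3 * 1) • (b * a) := by
      simp only [pow_succ, pow_zero, one_mul, mul_add, add_mul, mul_one, mul_assoc, haa, hbb, haa', hbb',
        aba1, bab1, aba2, bab2, mul_zero, zero_mul, add_zero, zero_add]
      abel
    rw [e]
    simp only [nsmul_three h3, add_zero]
  calc ((1 + a) * (1 + b)) ^ 12 = (((1 + a) * (1 + b)) ^ 2 * ((1 + a) * (1 + b)) ^ 2) ^ 3 := by
        rw [← pow_add, ← pow_mul]
    _ = 1 := by rw [h2, h4, one_pow]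

include h3 haa hbb in
theorem pow_caseM (aba : a * b * a = -a) (bab : b * a * b = -b) : ((1 + a) * (1 + b)) ^ 12 = 1 := by
  have haa' : ∀ x, a * (a * x) = 0 := fun x => by rw [← mul_assoc, haa, zero_mul]
  have hbb' : ∀ x, b * (b * x) = 0 := fun x => by rw [← mul_assoc, hbb, zero_mul]
  have aba1 : a * (b * a) = -a := by rw [← mul_assoc, aba]
  have bab1 : b * (a * b) = -b := by rw [← mul_assoc, bab]
  have aba2 : ∀ x, a * (b * (a * x)) = -(a * x) := fun x => by
    rw [← mul_assoc, ← mul_assoc, aba, neg_mul]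
  have bab2 : ∀ x, b * (a * (b * x)) = -(b * x) := fun x => by
    rw [← mul_assoc, ← mul_assoc, bab, neg_mul]
  have h2 : ((1 + a) * (1 + b)) ^ 3 = 1 - a * b - b * a := by
    have e : ((1 + a) * (1 + b)) ^ 3 = 1 - a * b - b * a + (3 * 1) • (b * a) + (3 * 1) • (a * b) := by
      simp only [pow_succ, pow_zero, one_mul, mul_add, add_mul, mul_one, mul_assoc, haa, hbb, haa', hbb',
        aba1, bab1, aba2, bab2, mul_zero, zero_mul, add_zero, zero_add, neg_mul, mul_neg]
      abel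
    rw [e]
    simp only [nsmul_three h3, add_zero]
  have h4 : (1 - a * b - b * a) * (1 - a * b - b * a) = 1 := by
    have e : (1 - a * b - b * a) * (1 - a * b - b * a) = 1 - (3 * 1) • (a * b) - (3 * 1) • (b * a) := by
      simp only [pow_succ, pow_zero, one_mul, mul_sub, sub_mul, mul_one, mul_assoc, haa, hbb, haa', hbb',
        aba1, bab1, aba2, bab2, mul_zero, zero_mul, add_zero, zero_add, neg_mul, mul_neg, sub_zero]
      abel
    rw [e]
    simp only [nsmul_three h3, sub_zero]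
  calc ((1 + a) * (1 + b)) ^ 12 = (((1 + a) * (1 + b)) ^ 3 * ((1 + a) * (1 + b)) ^ 3) ^ 2 := by
        rw [← pow_add, ← pow_mul]
    _ = 1 := by rw [h2, h4, one_pow]

end powers

section symp

variable {F : Type*} [Field F]

theorem three_mat (h3F : (3 : F) = 0) : (3 : Matrix (Fin 2 ⊕ Fin 2) (Fin 2 ⊕ Fin 2) F) = 0 := by
  have := map_ofNat (algebraMap F (Matrix (Fin 2 ⊕ Fin 2) (Fin 2 ⊕ Fin 2) F)) 3
  rw [h3F, map_zero] at this
  exact this.symm

theorem N_sq_zero (h3F : (3 : F) = 0) (X : Matrix (Fin 2 ⊕ Fin 2) (Fin 2 ⊕ Fin 2) F)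
    (hX : Xᵀ * J (Fin 2) F * X = J (Fin 2) F) (hX3 : X ^ 3 = 1) : (X - 1) * (X - 1) = 0 := by
  by_contra hne
  set N := X - 1 with hN
  set Jm := J (Fin 2) F with hJm
  have h3R := three_mat h3F
  have hN3 : N * N * N = 0 := by
    have e : N * N * N = X ^ 3 - 1 - 3 * (X * X) + 3 * X := by rw [hN]; noncomm_ring
    rw [e, hX3, h3R]; simp
  have hXX : X * (X * X) = 1 := by rw [← hX3]; noncomm_ring
  have hadj : Xᵀ * Jm = Jm * (X * X) := by
    calc Xᵀ * Jm = Xᵀ * Jm * (X * (X * X)) := by rw [hXX, mul_one]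
      _ = (Xᵀ * Jm * X) * (X * X) := by simp only [mul_assoc]
      _ = Jm * (X * X) := by rw [hX]
  have hNadj : Nᵀ * Jm = Jm * (N * N + 2 * N) := by
    have e1 : Nᵀ = Xᵀ - 1 := by simp [hN]
    have e2 : N * N + 2 * N = X * X - 1 := by rw [hN]; noncomm_ring
    rw [e1, e2, sub_mul, hadj, mul_sub]; simp
  have hN2adj : (N * N)ᵀ * Jm = Jm * (N * N) := by
    rw [transpose_mul]
    calc Nᵀ * Nᵀ * Jm = Nᵀ * (Nᵀ * Jm) := by rw [mul_assoc]
      _ = Nᵀ * (Jm * (N * N + 2 * N)) := by rw [hNadj]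
      _ = (Nᵀ * Jm) * (N * N + 2 * N) := by rw [mul_assoc]
      _ = (Jm * (N * N + 2 * N)) * (N * N + 2 * N) := by rw [hNadj]
      _ = Jm * ((N * N + 2 * N) * (N * N + 2 * N)) := by rw [mul_assoc]
      _ = Jm * (N * N) := by
        congr 1
        have : (N * N + 2 * N) * (N * N + 2 * N) = N * N * N * N + 4 * (N * N * N) + 3 * (N * N) + N * N := by
          noncomm_ring
        rw [this, hN3, h3R]; simp
  set M := Jm * (N * N) with hM
  have hMt : Mᵀ = -M := by
    rw [hM, transpose_mul, hJm, J_transpose, ← hJm, mul_neg, hN2adj]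
  have hMne : M ≠ 0 := by
    intro e
    apply hne
    have : Jm * M = -(N * N) := by
      rw [hM, ← mul_assoc, hJm, J_squared]; simp
    rw [e, mul_zero] at this
    exact neg_eq_zero.mp this.symm
  have hanti : ∀ v w : Fin 2 ⊕ Fin 2 → F, v ⬝ᵥ (M *ᵥ w) = -(w ⬝ᵥ (M *ᵥ v)) := by
    intro v w
    rw [dotProduct_mulVec w M v, ← transpose_transpose M, vecMul_transpose, transpose_transpose, hMt,
      neg_mulVec, neg_dotProduct, neg_neg, dotProduct_comm]
  have halt : ∀ v : Fin 2 ⊕ Fin 2 → F, v ⬝ᵥ (M *ᵥ v) = 0 := by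
    intro v
    have h1 := hanti v v
    have h2 : (3 : F) * (v ⬝ᵥ (M *ᵥ v)) = 0 := by rw [h3F, zero_mul]
    linear_combination (-1 : F) * h1 + h2
  -- a nonzero value of the form
  obtain ⟨u, w, huw⟩ : ∃ u w : Fin 2 ⊕ Fin 2 → F, w ⬝ᵥ (M *ᵥ u) ≠ 0 := by
    by_contra hcon
    push Not at hcon
    apply hMne
    ext i j
    have := hcon (Pi.single j 1) (Pi.single i 1)
    simpa [single_dotProduct, mulVec_single_one] using this
  let L : (Fin 2 ⊕ Fin 2 → F) →ₗ[F] (Fin 2 ⊕ Fin 2 → F) := N.mulVecLin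
  have hL : ∀ v, L v = N *ᵥ v := fun v => rfl
  have hLLL : ∀ v, L (L (L v)) = 0 := by
    intro v
    simp only [hL, mulVec_mulVec]
    rw [← mul_assoc, hN3, zero_mulVec]
  have hMv : ∀ v, M *ᵥ v = Jm *ᵥ (L (L v)) := by
    intro v
    simp only [hL, mulVec_mulVec]
    rw [hM]
  -- independence of the top layer
  have hkey : ∀ c d : F, c • L (L u) + d • L (L w) = 0 → c = 0 ∧ d = 0 := by
    intro c d hcd
    have h1 : c • (M *ᵥ u) + d • (M *ᵥ w) = 0 := by
      rw [hMv, hMv]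
      have := congrArg (fun t => Jm *ᵥ t) hcd
      simpa [mulVec_add, mulVec_smul] using this
    have h2 : c * (w ⬝ᵥ (M *ᵥ u)) + d * (w ⬝ᵥ (M *ᵥ w)) = 0 := by
      have := congrArg (fun t => w ⬝ᵥ t) h1
      simpa [dotProduct_add, dotProduct_smul] using this
    have h3 : c * (u ⬝ᵥ (M *ᵥ u)) + d * (u ⬝ᵥ (M *ᵥ w)) = 0 := by
      have := congrArg (fun t => u ⬝ᵥ t) h1
      simpa [dotProduct_add, dotProduct_smul] using this
    rw [halt, mul_zero, add_zero] at h2
    rw [halt, mul_zero, zero_add, hanti u w, mul_neg, neg_eq_zero] at h3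
    exact ⟨(mul_eq_zero.mp h2).resolve_right huw, (mul_eq_zero.mp h3).resolve_right huw⟩
  have hli : LinearIndependent F ![u, w, L u, L w, L (L u), L (L w)] := by
    rw [Fintype.linearIndependent_iff]
    intro g hg
    simp only [Fin.sum_univ_six] at hg
    simp only [Matrix.cons_val_zero, Matrix.cons_val_one, Matrix.cons_val] at hg
    have h1 := congrArg (fun t => L (L t)) hg
    simp only [map_add, map_smul, hLLL, map_zero, smul_zero, add_zero] at h1
    obtain ⟨h0, h1'⟩ := hkey _ _ h1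
    rw [h0, h1', zero_smul, zero_smul, zero_add, zero_add] at hg
    have h2 := congrArg (fun t => L t) hg
    simp only [map_add, map_smul, hLLL, map_zero, smul_zero, add_zero] at h2
    obtain ⟨h2', h3'⟩ := hkey _ _ h2
    rw [h2', h3', zero_smul, zero_smul, zero_add, zero_add] at hg
    obtain ⟨h4', h5'⟩ := hkey _ _ hg
    intro i
    fin_cases i
    · exact h0
    · exact h1'
    · exact h2'
    · exact h3'
    · exact h4'
    · exact h5'
  have hcard := hli.fintype_card_le_finrank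
  simp at hcard

theorem vv_aba (u c v d : Fin 2 ⊕ Fin 2 → F) :
    vecMulVec u c * vecMulVec v d * vecMulVec u c = ((c ⬝ᵥ v) * (d ⬝ᵥ u)) • vecMulVec u c := by
  rw [vecMulVec_mul_vecMulVec, vecMulVec_mul_vecMulVec]
  ext i j
  simp [vecMulVec_apply, smul_dotProduct]
  ring

theorem rank_one_pow (h3F : (3 : F) = 0) (hs : ∀ s : F, s = 0 ∨ s = 1 ∨ s = -1)
    (u c v d : Fin 2 ⊕ Fin 2 → F) (ha : vecMulVec u c * vecMulVec u c = 0)
    (hb : vecMulVec v d * vecMulVec v d = 0) :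
    ((1 + vecMulVec u c) * (1 + vecMulVec v d)) ^ 12 = 1 := by
  have h3R := three_mat h3F
  have aba := vv_aba u c v d
  have bab := vv_aba v d u c
  rw [mul_comm (d ⬝ᵥ u)] at bab
  rcases hs ((c ⬝ᵥ v) * (d ⬝ᵥ u)) with e | e | e
  · rw [e, zero_smul] at aba bab
    exact pow_case0 h3R ha hb aba bab
  · rw [e, one_smul] at aba bab
    exact pow_case1 h3R ha hb aba bab
  · rw [e, neg_smul, one_smul] at aba bab
    exact pow_caseM h3R ha hb aba bab

end symp

/-- Let F be the field with 3 elements and K the field with 5 elements. For every injective homomorphism φ from SL₂(K) into the symplectic group Sp₄(F) (4 × 4 matrices g with g J gᵀ = J for the standard alternating matrix J) and every element x of order 3 of SL₂(K), the vectors of F⁴ fixed by φ(x) form a 2-dimensional subspace that is totally isotropic for the alternating form defined by J. -/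
theorem result {F : Type*} [Field F] [Fintype F] (hF : Fintype.card F = 3)
    {K : Type*} [Field K] [Fintype K] (hK : Fintype.card K = 5)
    (φ : Matrix.SpecialLinearGroup (Fin 2) K →* ↥(Matrix.symplecticGroup (Fin 2) F)) (hφ : Function.Injective φ)
    (x : Matrix.SpecialLinearGroup (Fin 2) K) (hx : orderOf x = 3) :
    Module.finrank F ↥(LinearMap.ker (Matrix.toLin' ((φ x : Matrix (Fin 2 ⊕ Fin 2) (Fin 2 ⊕ Fin 2) F)) - LinearMap.id)) = 2 ∧
      ∀ v w : Fin 2 ⊕ Fin 2 → F, (φ x : Matrix (Fin 2 ⊕ Fin 2) (Fin 2 ⊕ Fin 2) F).mulVec v = v →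
        (φ x : Matrix (Fin 2 ⊕ Fin 2) (Fin 2 ⊕ Fin 2) F).mulVec w = w →
          dotProduct v ((Matrix.J (Fin 2) F).mulVec w) = 0 := by
  classical
  have h3F : (3 : F) = 0 := by
    have := Nat.cast_card_eq_zero F
    rw [hF] at this
    exact_mod_cast this
  have hs : ∀ s : F, s = 0 ∨ s = 1 ∨ s = -1 := by
    intro s
    have h1 : s ^ 3 = s := by
      have := FiniteField.pow_card s
      rwa [hF] at this
    have h2 : s * ((s - 1) * (s + 1)) = 0 := by linear_combination h1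
    rcases mul_eq_zero.mp h2 with e | e
    · exact Or.inl e
    rcases mul_eq_zero.mp e with e | e
    · exact Or.inr (Or.inl (sub_eq_zero.mp e))
    · exact Or.inr (Or.inr (eq_neg_of_add_eq_zero_left e))
  have hx3 : x ^ 3 = 1 := by
    have := pow_orderOf_eq_one x
    rwa [hx] at this
  have hx1 : x ≠ 1 := by
    intro e
    rw [e, orderOf_one] at hx
    omega
  set X : Matrix (Fin 2 ⊕ Fin 2) (Fin 2 ⊕ Fin 2) F := (φ x : Matrix (Fin 2 ⊕ Fin 2) (Fin 2 ⊕ Fin 2) F) with hX
  have hXsymp : Xᵀ * J (Fin 2) F * X = J (Fin 2) F := SymplecticGroup.mem_iff'.mp (φ x).2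
  have hcoe : ∀ (a b : Matrix.SpecialLinearGroup (Fin 2) K),
      ((φ (a * b) : ↥(Matrix.symplecticGroup (Fin 2) F)) : Matrix (Fin 2 ⊕ Fin 2) (Fin 2 ⊕ Fin 2) F) =
        (φ a : Matrix (Fin 2 ⊕ Fin 2) (Fin 2 ⊕ Fin 2) F) * (φ b : Matrix (Fin 2 ⊕ Fin 2) (Fin 2 ⊕ Fin 2) F) := by
    intro a b
    rw [map_mul]
    rfl
  have hcoe1 : ((φ 1 : ↥(Matrix.symplecticGroup (Fin 2) F)) : Matrix (Fin 2 ⊕ Fin 2) (Fin 2 ⊕ Fin 2) F) = 1 := by
    rw [map_one]
    rfl
  have hX3 : X ^ 3 = 1 := by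
    have e : X ^ 3 = X * X * X := by rw [pow_succ, pow_two]
    rw [e, hX, ← hcoe, ← hcoe, ← hcoe1, ← hx3]
    congr 2
    rw [pow_succ, pow_two]
  have hX1 : X ≠ 1 := by
    intro e
    apply hx1
    apply hφ
    apply Subtype.ext
    rw [hcoe1]
    exact e
  have hN2 := N_sq_zero h3F X hXsymp hX3
  set N := X - 1 with hN
  have hNne : N ≠ 0 := fun e => hX1 (sub_eq_zero.mp e)
  -- the linear map
  set L : (Fin 2 ⊕ Fin 2 → F) →ₗ[F] (Fin 2 ⊕ Fin 2 → F) := Matrix.toLin' X - LinearMap.id with hL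
  have hLv : ∀ v, L v = N *ᵥ v := by
    intro v
    simp [hL, hN, sub_mulVec]
  have hLL : ∀ v, L (L v) = 0 := by
    intro v
    rw [hLv, hLv, mulVec_mulVec, hN2, zero_mulVec]
  have hle : LinearMap.range L ≤ LinearMap.ker L := by
    rintro _ ⟨v, rfl⟩
    exact hLL v
  have hrk := LinearMap.finrank_range_add_finrank_ker L
  have hdim : Module.finrank F (Fin 2 ⊕ Fin 2 → F) = 4 := by simp
  rw [hdim] at hrk
  have hmono := Submodule.finrank_mono hle
  have hr0 : Module.finrank F (LinearMap.range L) ≠ 0 := by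
    intro e
    have h1 := Submodule.finrank_eq_zero.mp e
    apply hNne
    ext i j
    have h2 : L (Pi.single j 1) = 0 := by
      have : L (Pi.single j 1) ∈ LinearMap.range L := ⟨_, rfl⟩
      rw [h1] at this
      exact (Submodule.mem_bot F).mp this
    rw [hLv] at h2
    have := congrFun h2 i
    simpa [mulVec_single_one] using this
  have hr1 : Module.finrank F (LinearMap.range L) ≠ 1 := by
    intro e
    obtain ⟨u, hu0, hu⟩ := finrank_eq_one_iff'.mp e
    have hcol : ∀ j, ∃ c : F, c • (u : Fin 2 ⊕ Fin 2 → F) = L (Pi.single j 1) := by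
      intro j
      obtain ⟨c, hc⟩ := hu ⟨L (Pi.single j 1), ⟨_, rfl⟩⟩
      exact ⟨c, congrArg Subtype.val hc⟩
    choose c hc using hcol
    have hNvv : N = vecMulVec (u : Fin 2 ⊕ Fin 2 → F) c := by
      ext i j
      have h1 := congrFun (hc j) i
      rw [hLv] at h1
      simp [mulVec_single_one] at h1
      rw [← h1, vecMulVec_apply]
      ring
    obtain ⟨g, hg⟩ := exists_conj_not12 hK x hx3 hx1
    apply hg
    apply hφ
    apply Subtype.ext
    rw [hcoe1]
    set P : Matrix (Fin 2 ⊕ Fin 2) (Fin 2 ⊕ Fin 2) F := (φ g : Matrix (Fin 2 ⊕ Fin 2) (Fin 2 ⊕ Fin 2) F) with hP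
    set Q : Matrix (Fin 2 ⊕ Fin 2) (Fin 2 ⊕ Fin 2) F := (φ g⁻¹ : Matrix (Fin 2 ⊕ Fin 2) (Fin 2 ⊕ Fin 2) F) with hQ
    have hPQ : P * Q = 1 := by
      rw [hP, hQ, ← hcoe, mul_inv_cancel, hcoe1]
    have hQP : Q * P = 1 := by
      rw [hP, hQ, ← hcoe, inv_mul_cancel, hcoe1]
    have hpow : ∀ (z : Matrix.SpecialLinearGroup (Fin 2) K) (n : ℕ),
        ((φ (z ^ n) : ↥(Matrix.symplecticGroup (Fin 2) F)) : Matrix (Fin 2 ⊕ Fin 2) (Fin 2 ⊕ Fin 2) F) =
          (φ z : Matrix (Fin 2 ⊕ Fin 2) (Fin 2 ⊕ Fin 2) F) ^ n := by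
      intro z n
      rw [map_pow]
      rfl
    rw [hpow, hcoe, hcoe, hcoe, ← hX, ← hP, ← hQ]
    have hb : P * X * Q = 1 + vecMulVec (P *ᵥ (u : Fin 2 ⊕ Fin 2 → F)) (c ᵥ* Q) := by
      have e1 : X = 1 + N := by rw [hN]; noncomm_ring
      have e2 : P * N * Q = vecMulVec (P *ᵥ (u : Fin 2 ⊕ Fin 2 → F)) (c ᵥ* Q) := by
        rw [hNvv, mul_vecMulVec, vecMulVec_mul]
      rw [← e2, e1, mul_add, add_mul, mul_one, hPQ]
    have hXe : X = 1 + vecMulVec (u : Fin 2 ⊕ Fin 2 → F) c := by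
      rw [← hNvv, hN]; noncomm_ring
    rw [hb]
    nth_rewrite 1 [hXe]
    apply rank_one_pow h3F hs
    · rw [← hNvv]; exact hN2
    · have e2 : P * N * Q = vecMulVec (P *ᵥ (u : Fin 2 ⊕ Fin 2 → F)) (c ᵥ* Q) := by
        rw [hNvv, mul_vecMulVec, vecMulVec_mul]
      rw [← e2]
      calc P * N * Q * (P * N * Q) = P * N * (Q * P) * N * Q := by simp only [mul_assoc]
        _ = P * (N * N) * Q := by rw [hQP]; simp only [mul_one, mul_assoc]
        _ = 0 := by rw [hN2]; simp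
  have hr2 : Module.finrank F (LinearMap.range L) = 2 := by omega
  have hk2 : Module.finrank F (LinearMap.ker L) = 2 := by omega
  refine ⟨hk2, ?_⟩
  intro v w hv hw
  have heq : LinearMap.range L = LinearMap.ker L :=
    Submodule.eq_of_le_of_finrank_eq hle (by rw [hr2, hk2])
  have hwk : w ∈ LinearMap.ker L := by
    rw [LinearMap.mem_ker, hLv, hN, sub_mulVec, one_mulVec, hw, sub_self]
  rw [← heq] at hwk
  obtain ⟨w', rfl⟩ := hwk
  rw [hLv, hN, sub_mulVec, one_mulVec, mulVec_sub, dotProduct_sub]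
  have h1 : v ⬝ᵥ (J (Fin 2) F *ᵥ (X *ᵥ w')) = v ⬝ᵥ (J (Fin 2) F *ᵥ w') := by
    conv_lhs => rw [← hv]
    rw [← vecMul_transpose, ← dotProduct_mulVec, mulVec_mulVec, mulVec_mulVec, hXsymp]
  rw [h1, sub_self]

end Cfsg.Agent.S3213
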