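import Mathlib
import Cfsg.Statements.S3215
import Cfsg.Agent.Lib.PCore
import Cfsg.Agent.Lib.CharTwoLocal
import Cfsg.Agent.Lib.SylowConjLemmas
import Cfsg.Agent.Lib.OddPGroup

set_option autoImplicit false

open Cfsg Cfsg.Agent.Lib.PCore Cfsg.Agent.Lib.CharTwoLocal Cfsg.Agent.Lib.SylowConjLemmas

namespace Cfsg.Agent.S3215

variable {H : Type*} [Group H] [Finite H]

/-- Elements of an odd-order subgroup and of a `2`-subgroup. -/
theorem eq_one_of_odd_of_two {X R : Subgroup H} (hX : Odd (Nat.card X)) (hR : IsPGroup 2 R)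
    {y : H} (hyX : y ∈ X) (hyR : y ∈ R) : y = 1 := by
  have h1 : IsPGroup 2 (Subgroup.zpowers y) := hR.to_le ((Subgroup.zpowers_le).mpr hyR)
  obtain ⟨k, hk⟩ := IsPGroup.iff_card.mp h1
  have h2 : Nat.card (Subgroup.zpowers y) ∣ Nat.card X :=
    Subgroup.card_dvd_of_le ((Subgroup.zpowers_le).mpr hyX)
  rw [hk] at h2
  have h3 : k = 0 := by
    by_contra hne
    have h4 : 2 ∣ Nat.card X := (dvd_pow_self 2 hne).trans h2
    rcases hX with ⟨m, hm⟩
    omega
  rw [h3, pow_zero] at hk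
  have h5 : orderOf y = 1 := by rw [← Nat.card_zpowers]; exact hk
  exact orderOf_eq_one_iff.mp h5

/-- An odd-order element centralizing `t` centralizes `C_Y(t)`, when `C(t)` has a normal
`2`-complement. -/
theorem comm_of_normal_complement (t : H)
    (hc : HasNormalPComplement 2 ↥(Subgroup.centralizer ({t} : Set H))) (Y : Subgroup H) [hYn : Y.Normal]
    (hY : IsPGroup 2 Y) {x y : H} (hxt : x * t = t * x) (hxo : Odd (orderOf x)) (hyY : y ∈ Y)
    (hyt : y * t = t * y) : x * y = y * x := by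
  obtain ⟨P, N, hN, hNP⟩ := hc
  have hxC : x ∈ Subgroup.centralizer ({t} : Set H) := by
    rw [Subgroup.mem_centralizer_iff]
    intro b hb
    rw [Set.mem_singleton_iff] at hb
    rw [hb]
    exact hxt.symm
  have hyC : y ∈ Subgroup.centralizer ({t} : Set H) := by
    rw [Subgroup.mem_centralizer_iff]
    intro b hb
    rw [Set.mem_singleton_iff] at hb
    rw [hb]
    exact hyt.symm
  let x' : ↥(Subgroup.centralizer ({t} : Set H)) := ⟨x, hxC⟩
  let y' : ↥(Subgroup.centralizer ({t} : Set H)) := ⟨y, hyC⟩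
  have hind : N.index = Nat.card P := hNP.symm.index_eq_card
  obtain ⟨m, hm⟩ := IsPGroup.iff_card.mp P.isPGroup'
  have hx'N : x' ∈ N := by
    have h1 : x' ^ N.index ∈ N := Subgroup.pow_index_mem N x'
    rw [hind, hm] at h1
    apply mem_of_pow_mem_of_coprime h1
    have h2 : orderOf x' = orderOf x := Subgroup.orderOf_mk x hxC
    rw [h2]
    exact Nat.Coprime.pow_right _ hxo.coprime_two_right
  have hNodd : Odd (Nat.card N) := by
    have h1 := hNP.index_eq_card
    have h2 := P.not_dvd_index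
    rw [h1] at h2
    exact Nat.odd_iff.mpr (by omega)
  set c : ↥(Subgroup.centralizer ({t} : Set H)) := x' * y' * x'⁻¹ * y'⁻¹ with hc
  have hcN : c ∈ N := by
    have h1 := hN.conj_mem x'⁻¹ (N.inv_mem hx'N) y'
    have e : c = x' * (y' * x'⁻¹ * y'⁻¹) := by rw [hc]; group
    rw [e]
    exact N.mul_mem hx'N h1
  have hcY : (c : H) ∈ Y := by
    have e : (c : H) = x * y * x⁻¹ * y⁻¹ := rfl
    rw [e]
    exact Y.mul_mem (hYn.conj_mem y hyY x) (Y.inv_mem hyY)
  have hNm : Odd (Nat.card (N.map (Subgroup.centralizer ({t} : Set H)).subtype)) := by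
    rwa [Subgroup.card_map_of_injective (Subgroup.subtype_injective _)]
  have hc1 : (c : H) = 1 := eq_one_of_odd_of_two hNm hY ⟨c, hcN, rfl⟩ hcY
  have e : (c : H) = x * y * x⁻¹ * y⁻¹ := rfl
  rw [e] at hc1
  calc x * y = (x * y * x⁻¹ * y⁻¹) * (y * x) := by group
    _ = y * x := by rw [hc1, one_mul]

/-- `Ω₁(Z(Y))`. -/
def omegaZ (Y : Subgroup H) : Subgroup H where
  carrier := {z | z ∈ Y ∧ (∀ y ∈ Y, z * y = y * z) ∧ z * z = 1}
  one_mem' := ⟨Y.one_mem, by simp, by simp⟩
  mul_mem' := by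
    rintro a b ⟨ha, hac, ha2⟩ ⟨hb, hbc, hb2⟩
    refine ⟨Y.mul_mem ha hb, fun y hy => ?_, ?_⟩
    · calc a * b * y = a * (b * y) := by group
        _ = a * (y * b) := by rw [hbc y hy]
        _ = (a * y) * b := by group
        _ = (y * a) * b := by rw [hac y hy]
        _ = y * (a * b) := by group
    · calc a * b * (a * b) = a * (b * a) * b := by group
        _ = a * (a * b) * b := by rw [hac b hb]
        _ = (a * a) * (b * b) := by group
        _ = 1 := by rw [ha2, hb2, one_mul]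
  inv_mem' := by
    rintro a ⟨ha, hac, ha2⟩
    have hi : a⁻¹ = a := by rw [inv_eq_iff_mul_eq_one]; exact ha2
    rw [hi]
    exact ⟨ha, hac, ha2⟩

theorem mem_omegaZ {Y : Subgroup H} {z : H} :
    z ∈ omegaZ Y ↔ z ∈ Y ∧ (∀ y ∈ Y, z * y = y * z) ∧ z * z = 1 := Iff.rfl

theorem conj_mem_omegaZ {Y : Subgroup H} [hY : Y.Normal] {z : H} (hz : z ∈ omegaZ Y) (g : H) :
    g * z * g⁻¹ ∈ omegaZ Y := by
  obtain ⟨h1, h2, h3⟩ := hz
  refine ⟨hY.conj_mem z h1 g, fun y hy => ?_, ?_⟩
  · have h4 := h2 (g⁻¹ * y * g) (by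
      have := hY.conj_mem y hy g⁻¹
      simpa using this)
    calc g * z * g⁻¹ * y = g * (z * (g⁻¹ * y * g)) * g⁻¹ := by group
      _ = g * ((g⁻¹ * y * g) * z) * g⁻¹ := by rw [h4]
      _ = y * (g * z * g⁻¹) := by group
  · calc g * z * g⁻¹ * (g * z * g⁻¹) = g * (z * z) * g⁻¹ := by group
      _ = 1 := by rw [h3]; group

/-- A nontrivial `2`-group has a nontrivial `Ω₁(Z)`. -/
theorem exists_mem_omegaZ {Y : Subgroup H} (hY : IsPGroup 2 Y) (hY1 : Y ≠ ⊥) :
    ∃ z ∈ omegaZ Y, z ≠ 1 := by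
  have : Nontrivial ↥Y := (Subgroup.nontrivial_iff_ne_bot Y).mpr hY1
  have hc : Nontrivial (Subgroup.center ↥Y) := hY.center_nontrivial
  have hpd : 2 ∣ Nat.card (Subgroup.center ↥Y) := by
    obtain ⟨n, hn, hk⟩ := (IsPGroup.nontrivial_iff_card (hY.to_subgroup (Subgroup.center ↥Y))).mp hc
    rw [hk]
    exact dvd_pow_self 2 hn.ne'
  obtain ⟨a, ha⟩ := exists_prime_orderOf_dvd_card' (G := Subgroup.center ↥Y) 2 hpd
  have ho : orderOf (a.1.1) = 2 := by rw [← ha, Subgroup.orderOf_coe, Subgroup.orderOf_coe]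
  refine ⟨a.1.1, ⟨a.1.2, ?_, ?_⟩, ?_⟩
  · intro y hy
    have := Subgroup.mem_center_iff.mp a.2 ⟨y, hy⟩
    exact (congrArg Subtype.val this).symm
  · have := pow_orderOf_eq_one a.1.1
    rwa [ho, pow_two] at this
  · intro h
    rw [h, orderOf_one] at ho
    omega

/-- Key fact: odd-order elements do not centralize involutions. -/
theorem eq_one_of_comm_involution (hsol : Group.IsSolvable H) (hO : pPrimeCore 2 H = ⊥)
    (hI : ∀ t : H, orderOf t = 2 → HasNormalPComplement 2 ↥(Subgroup.centralizer ({t} : Set H)))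
    {x t : H} (hxo : Odd (orderOf x)) (ht : orderOf t = 2) (hxt : x * t = t * x) : x = 1 := by
  set Y := pCore 2 H with hYdef
  have hYn : Y.Normal := inferInstance
  have hYp : IsPGroup 2 Y := isPGroup_pCore 2
  have hCY : Subgroup.centralizer (Y : Set H) ≤ Y := centralizer_pCore_le 2 hO
  have hYne : Y ≠ ⊥ := by
    intro hb
    have hxC : t ∈ Subgroup.centralizer (Y : Set H) := by
      rw [Subgroup.mem_centralizer_iff]
      intro y hy
      have hy' : y ∈ Y := hy
      rw [hb, Subgroup.mem_bot] at hy'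
      simp [hy']
    have h1 := hCY hxC
    rw [hb, Subgroup.mem_bot] at h1
    rw [h1, orderOf_one] at ht
    omega
  obtain ⟨v, hv, hv1⟩ := exists_mem_omegaZ hYp hYne
  have ht2 : t * t = 1 := by
    have := pow_orderOf_eq_one t
    rwa [ht, pow_two] at this
  have hti : t⁻¹ = t := by rw [inv_eq_iff_mul_eq_one]; exact ht2
  -- a nontrivial fixed point of `t` in `Ω₁(Z(Y))`
  obtain ⟨z, hz, hz1, hzt⟩ : ∃ z ∈ omegaZ Y, z ≠ 1 ∧ z * t = t * z := by
    by_cases hvt : v * t = t * v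
    · exact ⟨v, hv, hv1, hvt⟩
    · have hw : t * v * t⁻¹ ∈ omegaZ Y := conj_mem_omegaZ hv t
      refine ⟨v * (t * v * t⁻¹), (omegaZ Y).mul_mem hv hw, ?_, ?_⟩
      · intro h
        apply hvt
        have h1 : t * v * t⁻¹ = v := by
          have h2 : t * v * t⁻¹ = v⁻¹ := eq_inv_of_mul_eq_one_right h
          have h3 : v⁻¹ = v := by rw [inv_eq_iff_mul_eq_one]; exact hv.2.2
          rw [h2, h3]
        calc v * t = (t * v * t⁻¹) * t := by rw [h1]
          _ = t * v := by group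
      · have hcomm : v * (t * v * t⁻¹) = (t * v * t⁻¹) * v := hv.2.1 _ hw.1
        rw [hti] at hcomm ⊢
        calc v * (t * v * t) * t = v * t * v * (t * t) := by group
          _ = v * t * v := by rw [ht2, mul_one]
          _ = t * t * (v * t * v) := by rw [ht2, one_mul]
          _ = t * ((t * v * t) * v) := by group
          _ = t * (v * (t * v * t)) := by rw [hcomm]
  have hz2 : z * z = 1 := hz.2.2
  have hzo : orderOf z = 2 := orderOf_eq_prime (by rw [pow_two]; exact hz2) hz1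
  have hxz : x * z = z * x := comm_of_normal_complement t (hI t ht) Y hYp hxt hxo hz.1 hzt
  have hxY : x ∈ Subgroup.centralizer (Y : Set H) := by
    rw [Subgroup.mem_centralizer_iff]
    intro y hy
    have h1 : y * z = z * y := (hz.2.1 y hy).symm
    exact (comm_of_normal_complement z (hI z hzo) Y hYp hxz hxo hy h1).symm
  have hxYY := hCY hxY
  have h1 : IsPGroup 2 (Subgroup.zpowers x) := hYp.to_le ((Subgroup.zpowers_le).mpr hxYY)
  obtain ⟨k, hk⟩ := IsPGroup.iff_card.mp h1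
  rw [Nat.card_zpowers] at hk
  rw [hk] at hxo
  have h3 : k = 0 := by
    by_contra hne
    exact (Nat.not_odd_iff_even.mpr ((Nat.even_pow).mpr ⟨even_two, hne⟩)) hxo
  rw [h3, pow_zero] at hk
  exact orderOf_eq_one_iff.mp hk

/-- The norm argument: a noncyclic group of order `p²` has no fixed-point-free action on a
nontrivial elementary abelian `2`-group. -/
theorem rank_two_contra (V : Subgroup H) [hVn : V.Normal] (hVc : ∀ u ∈ V, ∀ w ∈ V, u * w = w * u)
    (hV2 : ∀ v ∈ V, v * v = 1) {p : ℕ} (hp : p.Prime) (hodd : p ≠ 2) (a b : H) (hab : a * b = b * a)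
    (hap : a ^ p = 1) (hbp : b ^ p = 1) (hb : ∀ i, 0 < i → i < p → b ^ i ≠ 1)
    (hj : ∀ j, j < p → a * b ^ j ≠ 1)
    (hfix : ∀ x : H, x ≠ 1 → x ^ p = 1 → ∀ v ∈ V, x * v = v * x → v = 1) : ∀ v ∈ V, v = 1 := by
  classical
  let : CommGroup ↥V := { (inferInstance : Group ↥V) with
    mul_comm := fun u w => Subtype.ext (hVc u u.2 w w.2) }
  let φ : H →* MulAut ↥V := MulAut.conjNormal
  have hφ : ∀ (x : H) (v : ↥V), ((φ x v : ↥V) : H) = x * v * x⁻¹ := fun x v => by
    simp [φ]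
  let N : H → ↥V → ↥V := fun x v => ∏ i ∈ Finset.range p, φ (x ^ i) v
  have hNfix : ∀ x : H, x ^ p = 1 → ∀ v : ↥V, φ x (N x v) = N x v := by
    intro x hx v
    have h1 : φ x (N x v) = ∏ i ∈ Finset.range p, φ (x ^ (i + 1)) v := by
      show φ x (∏ i ∈ Finset.range p, φ (x ^ i) v) = _
      rw [map_prod]
      refine Finset.prod_congr rfl (fun i _ => ?_)
      rw [pow_succ', map_mul]
      rfl
    have h2 := Finset.prod_range_succ (fun i => φ (x ^ i) v) p
    have h3 := Finset.prod_range_succ' (fun i => φ (x ^ i) v) p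
    rw [h1]
    have h4 : φ (x ^ p) v = φ (x ^ 0) v := by rw [hx, pow_zero]
    rw [h2, h4] at h3
    exact (mul_right_cancel h3).symm
  have hN1 : ∀ x : H, x ≠ 1 → x ^ p = 1 → ∀ v : ↥V, N x v = 1 := by
    intro x hx1 hxp v
    have h1 := hNfix x hxp v
    have h2 : ((φ x (N x v) : ↥V) : H) = ((N x v : ↥V) : H) := congrArg Subtype.val h1
    rw [hφ] at h2
    have h3 : x * ((N x v : ↥V) : H) = ((N x v : ↥V) : H) * x := by
      calc x * ((N x v : ↥V) : H) = (x * ((N x v : ↥V) : H) * x⁻¹) * x := by group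
        _ = ((N x v : ↥V) : H) * x := by rw [h2]
    exact Subtype.ext (hfix x hx1 hxp _ (N x v).2 h3)
  intro v hv
  let v' : ↥V := ⟨v, hv⟩
  have hcomm : Commute a b := hab
  have hxij : ∀ i j : ℕ, (a * b ^ j) ^ i = a ^ i * (b ^ i) ^ j := by
    intro i j
    rw [(hcomm.pow_right j).mul_pow, ← pow_mul, ← pow_mul, mul_comm]
  have htot : ∏ j ∈ Finset.range p, ∏ i ∈ Finset.range p, φ ((a * b ^ j) ^ i) v' = 1 := by
    apply Finset.prod_eq_one
    intro j hj'
    apply hN1
    · exact hj j (Finset.mem_range.mp hj')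
    · rw [(hcomm.pow_right j).mul_pow, hap, one_mul, ← pow_mul, mul_comm, pow_mul, hbp, one_pow]
  rw [Finset.prod_comm] at htot
  obtain ⟨k, rfl⟩ : ∃ k, p = k + 1 := ⟨p - 1, by have := hp.pos; omega⟩
  rw [Finset.prod_range_succ'] at htot
  have hrest : ∏ i ∈ Finset.range k, ∏ j ∈ Finset.range (k + 1), φ ((a * b ^ j) ^ (i + 1)) v' = 1 := by
    apply Finset.prod_eq_one
    intro i hi
    have hi' := Finset.mem_range.mp hi
    have h1 : ∏ j ∈ Finset.range (k + 1), φ ((a * b ^ j) ^ (i + 1)) v' =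
        φ (a ^ (i + 1)) (N (b ^ (i + 1)) v') := by
      show _ = φ (a ^ (i + 1)) (∏ j ∈ Finset.range (k + 1), φ ((b ^ (i + 1)) ^ j) v')
      rw [map_prod]
      refine Finset.prod_congr rfl (fun j _ => ?_)
      rw [hxij, map_mul]
      rfl
    rw [h1, hN1 _ (hb _ (by omega) (by omega)), map_one]
    rw [← pow_mul, mul_comm, pow_mul, hbp, one_pow]
  rw [hrest, one_mul] at htot
  have hzero : ∏ j ∈ Finset.range (k + 1), φ ((a * b ^ j) ^ 0) v' = v' ^ (k + 1) := by
    simp
  rw [hzero] at htot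
  have h1 : v ^ (k + 1) = 1 := by
    have := congrArg Subtype.val htot
    simpa using this
  have h2 : v * v = 1 := hV2 v hv
  have hoddk : Odd (k + 1) := hp.odd_of_ne_two hodd
  obtain ⟨m, hm⟩ := hoddk
  rw [hm, pow_succ, pow_mul, pow_two, h2, one_pow, one_mul] at h1
  exact h1

/-- Odd-order elements do not centralize involutions, hence Sylow subgroups of odd-order subgroups
are cyclic. -/
theorem sylow_cyclic (hK : ∀ {x t : H}, Odd (orderOf x) → orderOf t = 2 → x * t = t * x → x = 1)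
    (V : Subgroup H) [hVn : V.Normal] (hVc : ∀ u ∈ V, ∀ w ∈ V, u * w = w * u)
    (hV2 : ∀ v ∈ V, v * v = 1) (hV1 : ∃ v ∈ V, v ≠ 1)
    (X : Subgroup H) (hXodd : Odd (Nat.card X)) (p : ℕ) [hpF : Fact p.Prime] (P : Sylow p ↥X) :
    IsCyclic ↥(P : Subgroup ↥X) := by
  have hp : p.Prime := hpF.out
  by_cases hp2 : p = 2
  · subst hp2
    obtain ⟨k, hk⟩ := IsPGroup.iff_card.mp P.isPGroup'
    have h1 : Nat.card ↥(P : Subgroup ↥X) ∣ Nat.card X := Subgroup.card_subgroup_dvd_card _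
    rw [hk] at h1
    have h3 : k = 0 := by
      by_contra hne
      have h4 : 2 ∣ Nat.card X := (dvd_pow_self 2 hne).trans h1
      rcases hXodd with ⟨m, hm⟩
      omega
    rw [h3, pow_zero] at hk
    have : Subsingleton ↥(P : Subgroup ↥X) := (Nat.card_eq_one_iff_unique.mp hk).1
    exact isCyclic_of_subsingleton
  apply Cfsg.Agent.Lib.OddPGroup.isCyclic_of_unique hp2 P.isPGroup'
  intro H₁ H₂ hH₁ hH₂
  by_contra hne
  let R := ↥(P : Subgroup ↥X)
  have hRp : IsPGroup p R := P.isPGroup'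
  have hRnt : Nontrivial R := by
    apply Finite.one_lt_card_iff_nontrivial.mp
    have h1 : Nat.card H₁ ∣ Nat.card R := Subgroup.card_subgroup_dvd_card _
    have h2 := Nat.le_of_dvd Nat.card_pos h1
    have := hp.one_lt
    omega
  have hc : Nontrivial (Subgroup.center R) := hRp.center_nontrivial
  have hpd : p ∣ Nat.card (Subgroup.center R) := by
    obtain ⟨n, hn, hk⟩ := (IsPGroup.nontrivial_iff_card (hRp.to_subgroup (Subgroup.center R))).mp hc
    rw [hk]
    exact dvd_pow_self p hn.ne'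
  obtain ⟨z', hz'⟩ := exists_prime_orderOf_dvd_card' (G := Subgroup.center R) p hpd
  let z : R := z'.1
  have hzo : orderOf z = p := by
    show orderOf (z'.1) = p
    rw [Subgroup.orderOf_coe, hz']
  have hzc : ∀ r : R, r * z = z * r := fun r => Subgroup.mem_center_iff.mp z'.2 r
  let A : Subgroup R := Subgroup.zpowers z
  have hAc : Nat.card A = p := by
    show Nat.card (Subgroup.zpowers z) = p
    rw [Nat.card_zpowers, hzo]
  -- a subgroup of order `p` other than `A`
  obtain ⟨B, hBc, hBA⟩ : ∃ B : Subgroup R, Nat.card B = p ∧ B ≠ A := by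
    by_cases h1 : H₁ = A
    · exact ⟨H₂, hH₂, fun h2 => hne (h1.trans h2.symm)⟩
    · exact ⟨H₁, hH₁, h1⟩
  obtain ⟨b, hbB, hbA⟩ : ∃ b ∈ B, b ∉ A := by
    by_contra hcon
    push Not at hcon
    exact hBA (Subgroup.eq_of_le_of_card_ge hcon (by rw [hAc, hBc]))
  have hbp : b ^ p = 1 := by
    have h1 := pow_card_eq_one' (x := (⟨b, hbB⟩ : B))
    rw [hBc] at h1
    exact congrArg Subtype.val h1
  have hb1 : b ≠ 1 := fun h => hbA (h ▸ A.one_mem)
  have hbo : orderOf b = p := orderOf_eq_prime hbp hb1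
  let ι : R →* H := X.subtype.comp (P : Subgroup ↥X).subtype
  have hι : Function.Injective ι :=
    (Subgroup.subtype_injective X).comp (Subgroup.subtype_injective _)
  have hz1 : z ≠ 1 := by
    intro h
    rw [h, orderOf_one] at hzo
    exact hp.one_lt.ne hzo
  have hzp : z ^ p = 1 := by
    have := pow_orderOf_eq_one z
    rwa [hzo] at this
  have hall := rank_two_contra V hVc hV2 hp hp2 (ι z) (ι b)
    (by rw [← map_mul, ← map_mul, hzc b])
    (by rw [← map_pow, hzp, map_one])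
    (by rw [← map_pow, hbp, map_one])
    (by
      intro i hi0 hip h
      rw [← map_pow, ← map_one ι] at h
      have h2 := hι h
      exact pow_ne_one_of_lt_orderOf hi0.ne' (by rw [hbo]; exact hip) h2)
    (by
      intro j hjp h
      rw [← map_pow, ← map_mul, ← map_one ι] at h
      have h2 := hι h
      rcases Nat.eq_zero_or_pos j with rfl | hj0
      · rw [pow_zero, mul_one] at h2
        exact hz1 h2
      · have h3 : b ^ j ∈ A := by
          have h4 : b ^ j = z⁻¹ := eq_inv_of_mul_eq_one_right h2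
          rw [h4]
          exact A.inv_mem (Subgroup.mem_zpowers z)
        apply hbA
        apply mem_of_pow_mem_of_coprime h3
        rw [hbo]
        exact Nat.coprime_of_lt_prime hj0.ne' hjp hp)
    (by
      intro x hx1 hxp v hv hxv
      by_contra hv1
      have hv2 : orderOf v = 2 := orderOf_eq_prime (by rw [pow_two]; exact hV2 v hv) hv1
      have hxo : orderOf x = p := orderOf_eq_prime hxp hx1
      exact hx1 (hK (by rw [hxo]; exact hp.odd_of_ne_two hp2) hv2 hxv))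
  obtain ⟨v, hv, hv1⟩ := hV1
  exact hv1 (hall v hv)

theorem le_of_normal_odd {W : Type*} [Group W] [Finite W] (N K : Subgroup W) [N.Normal]
    (hN : Odd (Nat.card N)) {m : ℕ} (hK : K.index = 2 ^ m) : N ≤ K := by
  have hle : K ≤ K ⊔ N := le_sup_left
  have h1 := Subgroup.relIndex_mul_index hle
  have h2 : (K.subgroupOf (K ⊔ N)).index * Nat.card (K.subgroupOf (K ⊔ N)) = Nat.card ↥(K ⊔ N) :=
    Subgroup.index_mul_card _
  have h3 : Nat.card (K.subgroupOf (K ⊔ N)) = Nat.card K :=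
    Nat.card_congr (Subgroup.subgroupOfEquivOfLe hle).toEquiv
  rw [h3] at h2
  have h4 : K.relIndex (K ⊔ N) = (K.subgroupOf (K ⊔ N)).index := rfl
  rw [← h4] at h2
  have h5 := card_sup_dvd K N
  rw [← h2, mul_comm (K.relIndex _)] at h5
  have h6 : K.relIndex (K ⊔ N) ∣ Nat.card N := (Nat.mul_dvd_mul_iff_left Nat.card_pos).mp h5
  have h7 : K.relIndex (K ⊔ N) ∣ 2 ^ m := by
    rw [← hK, ← h1]
    exact dvd_mul_right _ _
  have h8 : Odd (K.relIndex (K ⊔ N)) := Odd.of_dvd_nat hN h6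
  have h9 : K.relIndex (K ⊔ N) = 1 :=
    Nat.Coprime.eq_one_of_dvd (Nat.Coprime.pow_right m h8.coprime_two_right) h7
  have h10 : K ⊔ N ≤ K := Subgroup.relIndex_eq_one.mp h9
  exact le_sup_right.trans h10

/-- Adjusting by a normal subgroup of order prime to `q`. -/
theorem exists_adjust' {q : ℕ} [Fact q.Prime] (Q : Subgroup H) [Q.Normal]
    (hQ : (Nat.card Q).Coprime q) (T : Subgroup H) (hT : IsPGroup q T) (x : H)
    (hx : ∀ t ∈ T, x * t * x⁻¹ ∈ T ⊔ Q) :
    ∃ o ∈ Q, ∀ t ∈ T, (o * x) * t * (o * x)⁻¹ ∈ T := by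
  obtain ⟨S, hS⟩ := hT.exists_le_sylow
  have hinf : ∀ v ∈ (S : Subgroup H), v ∈ Q → v = 1 := by
    intro v hv1 hv2
    have h1 : IsPGroup q (Subgroup.zpowers v) := S.isPGroup'.to_le ((Subgroup.zpowers_le).mpr hv1)
    obtain ⟨k, hk⟩ := IsPGroup.iff_card.mp h1
    have h2 : Nat.card (Subgroup.zpowers v) ∣ Nat.card Q :=
      Subgroup.card_dvd_of_le ((Subgroup.zpowers_le).mpr hv2)
    rw [hk] at h2
    have h3 : k = 0 := by
      by_contra hne
      have hq : q.Prime := Fact.out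
      have h4 : q ∣ Nat.card Q := (dvd_pow_self q hne).trans h2
      have := Nat.Coprime.eq_one_of_dvd hQ.symm h4
      exact hq.one_lt.ne' this
    rw [h3, pow_zero] at hk
    have h5 : orderOf v = 1 := by rw [← Nat.card_zpowers]; exact hk
    exact orderOf_eq_one_iff.mp h5
  let T' : Subgroup H := T.map (MulAut.conj x).toMonoidHom
  have hT'p : IsPGroup q T' := hT.map _
  have hT'le : T' ≤ T ⊔ Q := by
    rintro _ ⟨t, ht, rfl⟩
    exact hx t ht
  have hsup : T ⊔ Q ≤ (S : Subgroup H) ⊔ Q := sup_le_sup_right hS _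
  obtain ⟨o, ho, hoT⟩ := exists_conj_mem_of_le_sup S Q T' hT'p (hT'le.trans hsup)
  refine ⟨o, ho, fun t ht => ?_⟩
  have h1 : o * (x * t * x⁻¹) * o⁻¹ ∈ (S : Subgroup H) := hoT _ ⟨t, ht, rfl⟩
  have h2 : o * (x * t * x⁻¹) * o⁻¹ ∈ T ⊔ Q := by
    have h3 := hx t ht
    have h4 : o ∈ T ⊔ Q := (le_sup_right : Q ≤ T ⊔ Q) ho
    exact (T ⊔ Q).mul_mem ((T ⊔ Q).mul_mem h4 h3) ((T ⊔ Q).inv_mem h4)
  obtain ⟨u, hu, v, hv, huv⟩ := Subgroup.mem_sup_of_normal_right.mp h2
  have hv1 : v ∈ (S : Subgroup H) := by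
    have : v = u⁻¹ * (o * (x * t * x⁻¹) * o⁻¹) := by rw [← huv]; group
    rw [this]
    exact (S : Subgroup H).mul_mem ((S : Subgroup H).inv_mem (hS hu)) h1
  have hv2 := hinf v hv1 hv
  have e : o * x * t * (o * x)⁻¹ = o * (x * t * x⁻¹) * o⁻¹ := by group
  rw [e, ← huv, hv2, mul_one]
  exact hu

theorem isCyclic_quot_of (N : Subgroup H) [N.Normal] (g₀ : H)
    (h : ∀ h : H, ∃ n : ℤ, g₀ ^ (-n) * h ∈ N) : IsCyclic (H ⧸ N) := by
  refine ⟨(QuotientGroup.mk g₀ : H ⧸ N), fun q => ?_⟩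
  obtain ⟨x, rfl⟩ := QuotientGroup.mk_surjective q
  obtain ⟨n, hn⟩ := h x
  refine ⟨n, ?_⟩
  show (QuotientGroup.mk g₀ : H ⧸ N) ^ n = QuotientGroup.mk x
  rw [← QuotientGroup.mk_zpow, QuotientGroup.eq]
  have e : (g₀ ^ n)⁻¹ * x = g₀ ^ (-n) * x := by rw [zpow_neg]
  rw [e]
  exact hn

theorem result {H : Type*} [Group H] [Finite H] (hsol : Group.IsSolvable H)
    (hO : Cfsg.oddCore H = ⊥)
    (hI : ∀ t : H, orderOf t = 2 → Cfsg.HasNormalPComplement 2 ↥(Subgroup.centralizer ({t} : Set H)))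
    (X : Subgroup H) (hXodd : Odd (Nat.card X)) (hXidx : ∃ k : ℕ, X.index = 2 ^ k) :
    (∀ x ∈ X, x ≠ 1 → ∀ y ∈ Cfsg.pCore 2 H, y ≠ 1 → x * y ≠ y * x) ∧
      (∀ (p : ℕ) [Fact p.Prime] (P : Sylow p ↥X), IsCyclic ↥(P : Subgroup ↥X)) ∧
      (X ⊔ Cfsg.pCore 2 H).Normal ∧
      ∀ hN : (X ⊔ Cfsg.pCore 2 H).Normal, IsCyclic (H ⧸ (X ⊔ Cfsg.pCore 2 H)) ∧ IsPGroup 2 (H ⧸ (X ⊔ Cfsg.pCore 2 H)) := by
  have hK : ∀ {x t : H}, Odd (orderOf x) → orderOf t = 2 → x * t = t * x → x = 1 :=
    fun hxo ht hxt => eq_one_of_comm_involution hsol hO hI hxo ht hxt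
  obtain ⟨k, hk⟩ := hXidx
  set Y := pCore 2 H with hYdef
  have hYn : Y.Normal := inferInstance
  have hYp : IsPGroup 2 Y := isPGroup_pCore 2
  have hXo : ∀ x ∈ X, Odd (orderOf x) := fun x hx =>
    Odd.of_dvd_nat hXodd (Subgroup.orderOf_dvd_natCard X hx)
  have hCY : Subgroup.centralizer (Y : Set H) ≤ Y := centralizer_pCore_le 2 hO
  have part1 : ∀ x ∈ X, x ≠ 1 → ∀ y ∈ Y, y ≠ 1 → x * y ≠ y * x := by
    intro x hx hx1 y hy hy1 hxy
    have h1 : IsPGroup 2 (Subgroup.zpowers y) := hYp.to_le ((Subgroup.zpowers_le).mpr hy)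
    obtain ⟨m, hm⟩ := IsPGroup.iff_card.mp h1
    rw [Nat.card_zpowers] at hm
    have hm0 : m ≠ 0 := by
      rintro rfl
      rw [pow_zero] at hm
      exact hy1 (orderOf_eq_one_iff.mp hm)
    have h2 : 2 ∣ orderOf y := hm ▸ dvd_pow_self 2 hm0
    have hne : orderOf y ≠ 0 := by rw [hm]; positivity
    have h3 := orderOf_pow_orderOf_div hne h2
    apply hx1
    exact hK (hXo x hx) h3 (Commute.pow_right hxy _)
  have part2 : ∀ (p : ℕ) [Fact p.Prime] (P : Sylow p ↥X), IsCyclic ↥(P : Subgroup ↥X) := by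
    intro p _ P
    by_cases hYb : Y = ⊥
    · have hsub : Subsingleton H := by
        refine ⟨fun a b => ?_⟩
        have hall : ∀ u : H, u = 1 := by
          intro u
          have h1 : u ∈ Subgroup.centralizer (Y : Set H) := by
            rw [Subgroup.mem_centralizer_iff]
            intro y hy
            have hy' : y ∈ Y := hy
            rw [hYb, Subgroup.mem_bot] at hy'
            simp [hy']
          have h2 := hCY h1
          rw [hYb, Subgroup.mem_bot] at h2
          exact h2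
        rw [hall a, hall b]
      exact isCyclic_of_subsingleton
    · haveI hVn : (omegaZ Y).Normal := ⟨fun z hz g => conj_mem_omegaZ hz g⟩
      obtain ⟨v, hv, hv1⟩ := exists_mem_omegaZ hYp hYb
      exact sylow_cyclic hK (omegaZ Y) (fun u hu w hw => hu.2.1 w hw.1) (fun v hv => hv.2.2)
        ⟨v, hv, hv1⟩ X hXodd p P
  let π := QuotientGroup.mk' Y
  have hπs : Function.Surjective π := QuotientGroup.mk'_surjective _
  haveI : Group.IsSolvable (H ⧸ Y) := inferInstance
  have hO₂ : pCore 2 (H ⧸ Y) = ⊥ := pCore_quotient_pCore 2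
  set F := fittingSubgroup (H ⧸ Y) with hFdef
  have hFn : F.Normal := inferInstance
  have hCF : Subgroup.centralizer (F : Set (H ⧸ Y)) ≤ F := centralizer_fittingSubgroup_le
  have hFle : F ≤ pPrimeCore 2 (H ⧸ Y) := by
    have := fittingSubgroup_le_sup (G := H ⧸ Y) 2
    rwa [hO₂, bot_sup_eq] at this
  have hFodd : Odd (Nat.card F) := by
    have h1 : Nat.card F ∣ Nat.card (pPrimeCore 2 (H ⧸ Y)) := Subgroup.card_dvd_of_le hFle
    have h2 := card_pPrimeCore_coprime (G := H ⧸ Y) 2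
    have h3 : (Nat.card F).Coprime 2 := Nat.Coprime.coprime_dvd_left h1 h2
    exact Nat.Coprime.odd_of_right h3
  let Xb : Subgroup (H ⧸ Y) := X.map π
  have hcomap : Xb.comap π = X ⊔ Y := by
    have h1 := Subgroup.comap_map_eq π X
    rw [QuotientGroup.ker_mk'] at h1
    exact h1
  have hidx1 : Xb.index = (X ⊔ Y).index := by
    rw [← hcomap, Subgroup.index_comap_of_surjective _ hπs]
  obtain ⟨m, hm⟩ : ∃ m, (X ⊔ Y).index = 2 ^ m := by
    have h1 : (X ⊔ Y).index ∣ X.index := Subgroup.index_dvd_of_le le_sup_left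
    rw [hk] at h1
    obtain ⟨m, -, hm⟩ := (Nat.dvd_prime_pow Nat.prime_two).mp h1
    exact ⟨m, hm⟩
  have hFX : F ≤ Xb := le_of_normal_odd F Xb hFodd (hidx1.trans hm)
  have hinj : Function.Injective (π.comp X.subtype) := by
    rw [injective_iff_map_eq_one]
    intro a ha
    have h1 : ((a : H)) ∈ Y := (QuotientGroup.eq_one_iff _).mp ha
    exact Subtype.ext (eq_one_of_odd_of_two hXodd hYp a.2 h1)
  have hXZ : IsZGroup ↥X := ⟨fun p hp P => by
    haveI : Fact p.Prime := ⟨hp⟩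
    exact part2 p P⟩
  have hr : (π.comp X.subtype).range = Xb := by
    rw [MonoidHom.range_comp, Subgroup.range_subtype]
  have hFr : F ≤ (π.comp X.subtype).range := by rw [hr]; exact hFX
  have hFZ : IsZGroup ↥F := by
    let g : ↥F →* ↥X :=
      (MonoidHom.ofInjective hinj).symm.toMonoidHom.comp (Subgroup.inclusion hFr)
    have hg : Function.Injective g := fun a b hab =>
      Subgroup.inclusion_injective hFr ((MonoidHom.ofInjective hinj).symm.injective hab)
    exact IsZGroup.of_injective hg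
  haveI hFnil : Group.IsNilpotent ↥F := isNilpotent_fittingSubgroup
  have hFc : IsCyclic ↥F := inferInstance
  obtain ⟨c, hc⟩ := hFc.exists_generator
  set c₀ : H ⧸ Y := (c : H ⧸ Y) with hc₀
  have hgen : ∀ f ∈ F, ∃ n : ℤ, f = c₀ ^ n := by
    intro f hf
    obtain ⟨n, hn⟩ := hc ⟨f, hf⟩
    refine ⟨n, ?_⟩
    have := congrArg Subtype.val hn
    simpa using this.symm
  have hconj : ∀ g : H ⧸ Y, ∃ m : ℤ, g * c₀ * g⁻¹ = c₀ ^ m := by
    intro g
    exact hgen _ (hFn.conj_mem c₀ c.2 g)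
  have hconjpow : ∀ (g : H ⧸ Y) (m n : ℤ), g * c₀ * g⁻¹ = c₀ ^ m →
      g * c₀ ^ n * g⁻¹ = (c₀ ^ n) ^ m := by
    intro g m n h
    have h1 : g * c₀ ^ n * g⁻¹ = (g * c₀ * g⁻¹) ^ n := by
      simp [conj_zpow]
    rw [h1, h, ← zpow_mul, ← zpow_mul, mul_comm]
  have hcommF : ∀ u : H ⧸ Y, u * c₀ = c₀ * u → u ∈ F := by
    intro u hu
    apply hCF
    rw [Subgroup.mem_centralizer_iff]
    intro f hf
    obtain ⟨n, rfl⟩ := hgen f hf
    exact ((Commute.zpow_right (show Commute u c₀ from hu) n).eq).symm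
  have hkey : ∀ g h : H ⧸ Y, (h * g)⁻¹ * (g * h) ∈ F := by
    intro g h
    apply hcommF
    obtain ⟨m₁, h₁⟩ := hconj g
    obtain ⟨m₂, h₂⟩ := hconj h
    have e1 : (g * h) * c₀ * (g * h)⁻¹ = (c₀ ^ m₂) ^ m₁ := by
      rw [← hconjpow g m₁ m₂ h₁, ← h₂]
      group
    have e2 : (h * g) * c₀ * (h * g)⁻¹ = (c₀ ^ m₁) ^ m₂ := by
      rw [← hconjpow h m₂ m₁ h₂, ← h₁]
      group
    have e3 : (g * h) * c₀ * (g * h)⁻¹ = (h * g) * c₀ * (h * g)⁻¹ := by
      rw [e1, e2, ← zpow_mul, ← zpow_mul, mul_comm]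
    calc (h * g)⁻¹ * (g * h) * c₀ = (h * g)⁻¹ * ((g * h) * c₀ * (g * h)⁻¹) * (g * h) := by group
      _ = (h * g)⁻¹ * ((h * g) * c₀ * (h * g)⁻¹) * (g * h) := by rw [e3]
      _ = c₀ * ((h * g)⁻¹ * (g * h)) := by group
  have hXbn : Xb.Normal := by
    refine ⟨fun x hx g => ?_⟩
    have h1 := hFX (hkey g⁻¹ x⁻¹)
    have e : g * x * g⁻¹ = (x⁻¹ * g⁻¹)⁻¹ * (g⁻¹ * x⁻¹) * x := by group
    rw [e]
    exact Xb.mul_mem h1 hx
  have part3 : (X ⊔ Y).Normal := by
    rw [← hcomap]
    exact Subgroup.Normal.comap hXbn π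
  refine ⟨part1, part2, part3, fun hN => ⟨?_, ?_⟩⟩
  · by_cases hFb : F = ⊥
    · apply isCyclic_quot_of (X ⊔ Y) 1
      intro h
      refine ⟨0, ?_⟩
      have h1 : π h ∈ Subgroup.centralizer (F : Set (H ⧸ Y)) := by
        rw [Subgroup.mem_centralizer_iff]
        intro f hf
        have hf' : f ∈ F := hf
        rw [hFb, Subgroup.mem_bot] at hf'
        simp [hf']
      have h2 := hCF h1
      rw [hFb, Subgroup.mem_bot] at h2
      have h3 : h ∈ Y := (QuotientGroup.eq_one_iff _).mp h2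
      simpa using (le_sup_right : Y ≤ X ⊔ Y) h3
    · have hFne1 : Nat.card F ≠ 1 := by
        intro h1
        exact hFb (Subgroup.card_eq_one.mp h1)
      obtain ⟨q, hq, hqd⟩ := Nat.exists_prime_and_dvd hFne1
      haveI : Fact q.Prime := ⟨hq⟩
      have hq2 : q ≠ 2 := by
        rintro rfl
        rcases hFodd with ⟨a, ha⟩
        omega
      obtain ⟨zb, hzb⟩ := exists_prime_orderOf_dvd_card' (G := ↥F) q hqd
      set z₀ : H ⧸ Y := (zb : H ⧸ Y) with hz₀
      have hz₀o : orderOf z₀ = q := by rw [hz₀, Subgroup.orderOf_coe, hzb]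
      have hz₀1 : z₀ ≠ 1 := by
        intro h
        rw [h, orderOf_one] at hz₀o
        exact hq.one_lt.ne hz₀o
      obtain ⟨s, hs⟩ := hgen z₀ zb.2
      let Z₀ : Subgroup (H ⧸ Y) := Subgroup.zpowers z₀
      have hconjz : ∀ g : H ⧸ Y, g * z₀ * g⁻¹ ∈ Z₀ := by
        intro g
        obtain ⟨m₁, h₁⟩ := hconj g
        have h2 := hconjpow g m₁ s h₁
        rw [← hs] at h2
        rw [h2]
        exact Subgroup.zpow_mem _ (Subgroup.mem_zpowers z₀) m₁
      have hZ₀n : Z₀.Normal := by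
        refine ⟨?_⟩
        rintro _ ⟨n, rfl⟩ g
        have h1 : g * (fun x => z₀ ^ x) n * g⁻¹ = (g * z₀ * g⁻¹) ^ n := by
          simp [conj_zpow]
        rw [h1]
        exact Subgroup.zpow_mem _ (hconjz g) n
      have hZ₀c : Nat.card Z₀ = q := by
        show Nat.card (Subgroup.zpowers z₀) = q
        rw [Nat.card_zpowers, hz₀o]
      let ρ : H →* MulAut ↥Z₀ := (MulAut.conjNormal).comp π
      have hAut : IsCyclic (MulAut ↥Z₀) := by
        have h1 : IsCyclic (ZMod (Nat.card ↥Z₀))ˣ := by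
          rw [hZ₀c]
          infer_instance
        exact isCyclic_of_surjective _ (IsCyclic.mulAutMulEquiv ↥Z₀).symm.surjective
      -- the centralizer of `Z₀` has odd order
      let C₀ : Subgroup (H ⧸ Y) := Subgroup.centralizer (Z₀ : Set (H ⧸ Y))
      have hC₀n : C₀.Normal := Subgroup.normal_centralizer
      have hC₀odd : Odd (Nat.card C₀) := by
        by_contra hev
        have h2d : 2 ∣ Nat.card C₀ := even_iff_two_dvd.mp (Nat.not_odd_iff_even.mp hev)
        obtain ⟨tb, htb⟩ := exists_prime_orderOf_dvd_card' (G := ↥C₀) 2 h2d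
        have htbo : orderOf (tb : H ⧸ Y) = 2 := by rw [Subgroup.orderOf_coe, htb]
        have htbc : (tb : H ⧸ Y) * z₀ = z₀ * (tb : H ⧸ Y) :=
          (Subgroup.mem_centralizer_iff.mp tb.2 z₀ (Subgroup.mem_zpowers z₀)).symm
        obtain ⟨z, hzX, hzπ'⟩ := hFX zb.2
        have hzπ : π z = z₀ := hzπ'
        obtain ⟨τ, hτ⟩ := hπs (tb : H ⧸ Y)
        have hzo : orderOf z = q := by
          have h1 := orderOf_injective (π.comp X.subtype) hinj ⟨z, hzX⟩
          have h2 : (π.comp X.subtype) ⟨z, hzX⟩ = z₀ := hzπ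
          rw [h2, hz₀o, Subgroup.orderOf_mk] at h1
          exact h1.symm
        let T : Subgroup H := Subgroup.zpowers z
        have hTp : IsPGroup q T := by
          rw [IsPGroup.iff_card]
          refine ⟨1, ?_⟩
          show Nat.card (Subgroup.zpowers z) = q ^ 1
          rw [Nat.card_zpowers, hzo, pow_one]
        have hYq : (Nat.card Y).Coprime q := by
          obtain ⟨n, hn⟩ := IsPGroup.iff_card.mp hYp
          rw [hn]
          exact Nat.Coprime.pow_left n ((Nat.coprime_primes Nat.prime_two hq).mpr hq2.symm)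
        have hcomm' : z⁻¹ * (τ * z * τ⁻¹) ∈ Y := by
          rw [← QuotientGroup.eq_one_iff]
          have e1 : (QuotientGroup.mk (z⁻¹ * (τ * z * τ⁻¹)) : H ⧸ Y) = π (z⁻¹ * (τ * z * τ⁻¹)) := rfl
          rw [e1, map_mul, map_mul, map_mul, map_inv, map_inv, hτ, hzπ, htbc]
          group
        have hx : ∀ u ∈ T, τ * u * τ⁻¹ ∈ T ⊔ Y := by
          rintro _ ⟨n, rfl⟩
          have e1 : τ * (fun x => z ^ x) n * τ⁻¹ = (τ * z * τ⁻¹) ^ n := by
            simp [conj_zpow]
          rw [e1]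
          apply Subgroup.zpow_mem
          have e2 : τ * z * τ⁻¹ = z * (z⁻¹ * (τ * z * τ⁻¹)) := by group
          rw [e2]
          exact Subgroup.mul_mem_sup (Subgroup.mem_zpowers z) hcomm'
        obtain ⟨o, ho, hoT⟩ := exists_adjust' Y hYq T hTp τ hx
        obtain ⟨n, hn⟩ := hoT z (Subgroup.mem_zpowers z)
        have hn' : z ^ n = o * τ * z * (o * τ)⁻¹ := hn
        have hπo : π o = 1 := (QuotientGroup.eq_one_iff o).mpr ho
        have h2 : π (z ^ n) = π z := by
          rw [hn', map_mul, map_mul, map_inv, map_mul, hπo, one_mul, hτ, hzπ, htbc]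
          group
        have h3 : z ^ n * z⁻¹ ∈ Y := by
          rw [← QuotientGroup.eq_one_iff]
          have e1 : (QuotientGroup.mk (z ^ n * z⁻¹) : H ⧸ Y) = π (z ^ n * z⁻¹) := rfl
          rw [e1, map_mul, h2, map_inv]
          group
        have h4 : z ^ n * z⁻¹ = 1 :=
          eq_one_of_odd_of_two hXodd hYp (X.mul_mem (X.zpow_mem hzX n) (X.inv_mem hzX)) h3
        rw [mul_inv_eq_one] at h4
        have hcz : o * τ * z * (o * τ)⁻¹ = z := by rw [← hn', h4]
        have hsz : (o * τ) * z = z * (o * τ) := by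
          calc o * τ * z = (o * τ * z * (o * τ)⁻¹) * (o * τ) := by group
            _ = z * (o * τ) := by rw [hcz]
        have hπs' : π (o * τ) = (tb : H ⧸ Y) := by rw [map_mul, hπo, one_mul, hτ]
        have h2s : 2 ∣ orderOf (o * τ) := by
          have h5 := orderOf_map_dvd π (o * τ)
          rw [hπs', htbo] at h5
          exact h5
        have hne : orderOf (o * τ) ≠ 0 := (orderOf_pos _).ne'
        have h3' := orderOf_pow_orderOf_div hne h2s
        have h6 : z * (o * τ) ^ (orderOf (o * τ) / 2) = (o * τ) ^ (orderOf (o * τ) / 2) * z :=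
          (Commute.pow_right (show Commute z (o * τ) from hsz.symm) _)
        have h7 := hK (hXo z hzX) h3' h6
        apply hz₀1
        rw [← hzπ, h7, map_one]
      have hkerle : ∀ u : H, ρ u = 1 → u ∈ X ⊔ Y := by
        intro u hu
        have h1 : π u ∈ C₀ := by
          rw [Subgroup.mem_centralizer_iff]
          intro w hw
          have h2 : (ρ u) ⟨w, hw⟩ = ⟨w, hw⟩ := by rw [hu]; rfl
          have h3 := congrArg Subtype.val h2
          have h4 : π u * w * (π u)⁻¹ = w := h3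
          calc w * π u = (π u * w * (π u)⁻¹) * π u := by rw [h4]
            _ = π u * w := by group
        have h5 := le_of_normal_odd C₀ Xb hC₀odd (hidx1.trans hm) h1
        rw [← hcomap]
        exact h5
      obtain ⟨r, hr'⟩ := (inferInstance : IsCyclic ↥ρ.range).exists_generator
      obtain ⟨g₀, hg₀⟩ := r.2
      apply isCyclic_quot_of (X ⊔ Y) g₀
      intro h
      obtain ⟨n, hn⟩ := hr' ⟨ρ h, h, rfl⟩
      refine ⟨n, hkerle _ ?_⟩
      have h1 : (r : MulAut ↥Z₀) ^ n = ρ h := by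
        have := congrArg Subtype.val hn
        simpa using this
      rw [map_mul, map_zpow, hg₀, zpow_neg, h1]
      group
  · rw [IsPGroup.iff_card]
    refine ⟨m, ?_⟩
    exact hm
  
end Cfsg.Agent.S3215
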