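import Mathlib
import Cfsg.Statements.S3225
import Cfsg.Agent.Lib.ThompsonTransfer

set_option autoImplicit false
open Cfsg

namespace Cfsg.Agent.S3225

/-- Let G be a finite group of even order with no subgroup of index 2, S a Sylow 2-subgroup of G and M a subgroup of index 2 in S such that, for some n ≥ 1, every element of S outside M has order greater than 2^(n−1). Then every element of S of order 2ⁿ is conjugate in G to an element of M. -/
theorem result {G : Type*} [Group G] [Finite G] (hev : Even (Nat.card G))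
    (hG : ∀ H : Subgroup G, H.index ≠ 2) (S : Sylow 2 G) (M : Subgroup G) (hMS : M ≤ (S : Subgroup G)) (hM : M.relIndex (S : Subgroup G) = 2)
    (n : ℕ) (hn : 1 ≤ n) (hord : ∀ y ∈ (S : Subgroup G), y ∉ M → 2 ^ (n - 1) < orderOf y)
    (x : G) (hx : x ∈ (S : Subgroup G)) (hxn : orderOf x = 2 ^ n) :
    ∃ g : G, g * x * g⁻¹ ∈ M := by
  classical
  haveI : Fact (Nat.Prime 2) := ⟨Nat.prime_two⟩
  have hpow : x ^ 2 ^ n = 1 := by rw [← hxn]; exact pow_orderOf_eq_one x
  obtain ⟨g, hg⟩ := Cfsg.Agent.Lib.ThompsonTransfer.exists_conj_mem hG (S : Subgroup G) M hMS hM S.not_dvd_index x n hpow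
    (fun m g h2 _ hS => by
      by_contra hnot
      have h1 := hord _ hS hnot
      have h3 : orderOf (g⁻¹ * x ^ m * g) = orderOf (x ^ m) := by
        have : g⁻¹ * x ^ m * g = (MulAut.conj g⁻¹) (x ^ m) := by simp
        rw [this]
        exact MulEquiv.orderOf_eq _ _
      rw [h3] at h1
      obtain ⟨k, rfl⟩ := h2
      have h4 : (x ^ (2 * k)) ^ 2 ^ (n - 1) = 1 := by
        rw [← pow_mul]
        have : 2 * k * 2 ^ (n - 1) = 2 ^ n * k := by
          obtain ⟨l, rfl⟩ : ∃ l, n = l + 1 := ⟨n - 1, by omega⟩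
          simp [pow_succ]; ring
        rw [this, pow_mul, hpow, one_pow]
      have h5 := orderOf_le_of_pow_eq_one (by positivity) h4
      omega)
  exact ⟨g⁻¹, by simpa using hg⟩

end Cfsg.Agent.S3225
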