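import Mathlib
import Cfsg.Statements.S3247
import Cfsg.Agent.Lib.PConstr63

set_option autoImplicit false

open Cfsg

namespace Cfsg.Agent.S3247

theorem result {G : Type*} [Group G] [Finite G] (p : ℕ) [hp : Fact p.Prime]
    (h : (∀ M : Subgroup G, (∃ T : Subgroup G, IsPGroup p ↥T ∧ T ≠ ⊥ ∧ M = Subgroup.normalizer (T : Set G)) → M ≠ ⊤ →
        (∀ M' : Subgroup G, (∃ T' : Subgroup G, IsPGroup p ↥T' ∧ T' ≠ ⊥ ∧ M' = Subgroup.normalizer (T' : Set G)) → M' ≠ ⊤ → M ≤ M' → M = M') →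
        Cfsg.IsPConstrained p ↥M) ∨
      (∀ x : G, orderOf x = p → Cfsg.IsPConstrained p ↥(Subgroup.centralizer ({x} : Set G))))
    (T : Subgroup G) (hT : IsPGroup p ↥T) (hT1 : T ≠ ⊥) (hTG : Subgroup.normalizer (T : Set G) ≠ ⊤) :
    Cfsg.IsPConstrained p ↥(Subgroup.normalizer (T : Set G)) := by
  rcases h with h | h
  · let 𝒮 : Set (Subgroup G) := {M | (∃ T : Subgroup G, IsPGroup p ↥T ∧ T ≠ ⊥ ∧
      M = Subgroup.normalizer (T : Set G)) ∧ M ≠ ⊤}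
    have hmem : Subgroup.normalizer (T : Set G) ∈ 𝒮 := ⟨⟨T, hT, hT1, rfl⟩, hTG⟩
    obtain ⟨M, hTM, hM⟩ := 𝒮.toFinite.exists_le_maximal hmem
    have hcM : Cfsg.IsPConstrained p ↥M := by
      refine h M hM.1.1 hM.1.2 (fun M' hM'1 hM'2 hle => ?_)
      exact le_antisymm hle (hM.2 ⟨hM'1, hM'2⟩ hle)
    exact Cfsg.Agent.Lib.PConstr63.isPConstrained_normalizer_of_le hcM hT hTM
  · exact Cfsg.Agent.Lib.PConstr63.isPConstrained_normalizer_of_centralizers h T hT hT1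

end Cfsg.Agent.S3247
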