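import Mathlib
import Cfsg.Statements.S3265
import Cfsg.Agent.Lib.OddInsert
import Cfsg.Agent.Lib.GraphDiam2

set_option autoImplicit false
open Cfsg

namespace Cfsg.Agent.S3265

set_option linter.style.haveILetI false
set_option linter.unusedSectionVars false
set_option linter.unusedVariables false
set_option linter.unusedSimpArgs false

open Equiv Cfsg.Agent.Lib.OddInsert

variable {α : Type*} [Fintype α] [DecidableEq α]

lemma invol {x : Perm α} (hx : x * x = 1) (v : α) : x (x v) = v := by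
  have := congrArg (fun f : Perm α => f v) hx
  simpa using this

lemma exists_add (w : Perm α) (a b : α) (hab : a ≠ b) (ha : w a = a) (hb : w b = b)
    (hw : w * w = 1) :
    ∃ w' : Perm α, w' * w' = 1 ∧ w' a = b ∧ w' b = a ∧ (∀ v, v ≠ a → v ≠ b → w' v = w v) ∧
      w'.support.card = w.support.card + 2 := by
  have hd : Perm.Disjoint w (swap a b) := by
    intro v
    by_cases hva : v = a
    · left; rw [hva, ha]
    by_cases hvb : v = b
    · left; rw [hvb, hb]
    · right; exact swap_apply_of_ne_of_ne hva hvb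
  refine ⟨w * swap a b, ?_, ?_, ?_, ?_, ?_⟩
  · calc w * swap a b * (w * swap a b) = w * (swap a b * w) * swap a b := by group
      _ = w * (w * swap a b) * swap a b := by rw [hd.commute.symm.eq]
      _ = (w * w) * (swap a b * swap a b) := by group
      _ = 1 := by rw [hw, swap_mul_self, one_mul]
  · simp [Perm.mul_apply, hb]
  · simp [Perm.mul_apply, ha]
  · intro v h1 h2
    rw [Perm.mul_apply, swap_apply_of_ne_of_ne h1 h2]
  · rw [hd.card_support_mul, Perm.card_support_swap hab]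

lemma exists_del (x : Perm α) (a b : α) (hx : x * x = 1) (hab : a ≠ b) (h : x a = b) :
    ∃ x' : Perm α, x' * x' = 1 ∧ x' a = a ∧ x' b = b ∧ (∀ v, v ≠ a → v ≠ b → x' v = x v) ∧
      x.support.card = x'.support.card + 2 := by
  have hb : x b = a := by rw [← h]; exact invol hx a
  set x' : Perm α := x * swap a b with hx'
  have h1 : x' a = a := by simp [hx', Perm.mul_apply, hb]
  have h2 : x' b = b := by simp [hx', Perm.mul_apply, h]
  have h3 : ∀ v, v ≠ a → v ≠ b → x' v = x v := by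
    intro v h4 h5
    rw [hx', Perm.mul_apply, swap_apply_of_ne_of_ne h4 h5]
  have hd : Perm.Disjoint x' (swap a b) := by
    intro v
    by_cases hva : v = a
    · left; rw [hva, h1]
    by_cases hvb : v = b
    · left; rw [hvb, h2]
    · right; exact swap_apply_of_ne_of_ne hva hvb
  have hxeq : x = x' * swap a b := by
    rw [hx', mul_assoc, swap_mul_self, mul_one]
  refine ⟨x', ?_, h1, h2, h3, ?_⟩
  · ext v
    by_cases hva : v = a
    · simp [hva, Perm.mul_apply, h1]
    by_cases hvb : v = b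
    · simp [hvb, Perm.mul_apply, h2]
    · rw [Perm.mul_apply, h3 v hva hvb, h3]
      · rw [invol hx]; rfl
      · intro h5
        apply hvb
        rw [← h, ← h5, invol hx]
      · intro h5
        apply hva
        rw [← hb, ← h5, invol hx]
  · nth_rewrite 1 [hxeq]
    rw [hd.card_support_mul, Perm.card_support_swap hab]

/-- The set up of the induction. -/
structure Cfg (S : Finset α) (x y : Perm α) : Prop where
  hx : x * x = 1
  hy : y * y = 1
  xS : ∀ v, v ∉ S → x v = v
  yS : ∀ v, v ∉ S → y v = v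
  card : x.support.card = y.support.card

/-- The exceptional configuration: an alternating 4-cycle. -/
def Exc (S : Finset α) (x y : Perm α) : Prop :=
  S.card = 4 ∧ ∀ v ∈ S, x v ≠ v ∧ y v ≠ v ∧ x v ≠ y v

/-- A solution. -/
structure Sol (S : Finset α) (x y w : Perm α) : Prop where
  hw : w * w = 1
  wS : ∀ v, v ∉ S → w v = v
  card : w.support.card = x.support.card
  oddx : Odd (orderOf (x * w))
  oddy : Odd (orderOf (y * w))

lemma Cfg.symm {S : Finset α} {x y : Perm α} (C : Cfg S x y) : Cfg S y x :=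
  ⟨C.hy, C.hx, C.yS, C.xS, C.card.symm⟩

lemma Exc.symm {S : Finset α} {x y : Perm α} (E : Exc S x y) : Exc S y x :=
  ⟨E.1, fun v hv => ⟨(E.2 v hv).2.1, (E.2 v hv).1, (E.2 v hv).2.2.symm⟩⟩

lemma not_exc_symm {S : Finset α} {x y : Perm α} (E : ¬ Exc S x y) : ¬ Exc S y x :=
  fun h => E h.symm

lemma Sol.symm {S : Finset α} {x y w : Perm α} (C : Cfg S x y) (s : Sol S x y w) : Sol S y x w :=
  ⟨s.hw, s.wS, s.card.trans C.card, s.oddy, s.oddx⟩

lemma mem_of_moved {S : Finset α} {x : Perm α} (h : ∀ v, v ∉ S → x v = v) {v : α}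
    (hv : x v ≠ v) : v ∈ S := by
  by_contra h1
  exact hv (h v h1)

/-- The inductive hypothesis. -/
def IHyp (S : Finset α) : Prop :=
  ∀ (S' : Finset α) (x' y' : Perm α), S'.card < S.card → Cfg S' x' y' → ¬ Exc S' x' y' →
    ∃ w', Sol S' x' y' w'

/-- Rule 1: a common fixed point. -/
lemma rule1 {S : Finset α} {x y : Perm α} (IH : IHyp S) (C : Cfg S x y) (v : α) (hv : v ∈ S)
    (hxv : x v = v) (hyv : y v = v) (hE : ¬ Exc (S.erase v) x y) : ∃ w, Sol S x y w := by
  have hC : Cfg (S.erase v) x y := by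
    refine ⟨C.hx, C.hy, ?_, ?_, C.card⟩
    · intro u hu
      by_cases h1 : u = v
      · rw [h1, hxv]
      · exact C.xS u (fun h2 => hu (Finset.mem_erase.mpr ⟨h1, h2⟩))
    · intro u hu
      by_cases h1 : u = v
      · rw [h1, hyv]
      · exact C.yS u (fun h2 => hu (Finset.mem_erase.mpr ⟨h1, h2⟩))
  obtain ⟨w, hw⟩ := IH _ x y (Finset.card_erase_lt_of_mem hv) hC hE
  refine ⟨w, hw.hw, ?_, hw.card, hw.oddx, hw.oddy⟩
  intro u hu
  exact hw.wS u (fun h => hu (Finset.mem_of_mem_erase h))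

lemma moved_ne {w : Perm α} {a v : α} (ha : w a = a) (h : v ≠ a) : w v ≠ a := by
  intro h1
  apply h
  apply w.injective
  rw [h1, ha]

/-- Removing a common edge from a product. -/
lemma mul_eq_of_edge {x x' w w' : Perm α} {a b : α}
    (hxa : x a = b) (hxb : x b = a) (hxa' : x' a = a) (hxb' : x' b = b)
    (hx : ∀ v, v ≠ a → v ≠ b → x' v = x v)
    (hwa' : w' a = a) (hwb' : w' b = b) (hwa : w a = b) (hwb : w b = a)
    (hw : ∀ v, v ≠ a → v ≠ b → w v = w' v) : x * w = x' * w' := by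
  ext v
  simp only [Perm.mul_apply]
  by_cases hva : v = a
  · rw [hva, hwa, hxb, hwa', hxa']
  by_cases hvb : v = b
  · rw [hvb, hwb, hxa, hwb', hxb']
  · rw [hw v hva hvb, hx _ (moved_ne hwa' hva) (moved_ne hwb' hvb)]

/-- Rule 2: a common edge. -/
lemma rule2 {S : Finset α} {x y : Perm α} (IH : IHyp S) (C : Cfg S x y) (a b : α) (hab : a ≠ b)
    (hxa : x a = b) (hya : y a = b) (hE : ¬ Exc (S \ {a, b}) x y) : ∃ w, Sol S x y w := by
  have hxb : x b = a := by rw [← hxa]; exact invol C.hx a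
  have hyb : y b = a := by rw [← hya]; exact invol C.hy a
  obtain ⟨x', hx1, hx2, hx3, hx4, hx5⟩ := exists_del x a b C.hx hab hxa
  obtain ⟨y', hy1, hy2, hy3, hy4, hy5⟩ := exists_del y a b C.hy hab hya
  have haS : a ∈ S := mem_of_moved C.xS (by rw [hxa]; exact hab.symm)
  have hbS : b ∈ S := mem_of_moved C.xS (by rw [hxb]; exact hab)
  have hmem : ∀ u, u ∉ S \ {a, b} → u ≠ a → u ≠ b → u ∉ S := by
    intro u hu h1 h2 h3
    apply hu
    simp [Finset.mem_sdiff, h1, h2, h3]
  have hmem2 : ∀ u, u ∈ S \ {a, b} → u ≠ a ∧ u ≠ b := by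
    intro u hu
    simp only [Finset.mem_sdiff, Finset.mem_insert, Finset.mem_singleton, not_or] at hu
    exact hu.2
  have hC : Cfg (S \ {a, b}) x' y' := by
    refine ⟨hx1, hy1, ?_, ?_, ?_⟩
    · intro u hu
      by_cases h1 : u = a
      · rw [h1, hx2]
      by_cases h2 : u = b
      · rw [h2, hx3]
      rw [hx4 u h1 h2]
      exact C.xS u (hmem u hu h1 h2)
    · intro u hu
      by_cases h1 : u = a
      · rw [h1, hy2]
      by_cases h2 : u = b
      · rw [h2, hy3]
      rw [hy4 u h1 h2]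
      exact C.yS u (hmem u hu h1 h2)
    · have := C.card
      omega
  have hE' : ¬ Exc (S \ {a, b}) x' y' := by
    intro h
    apply hE
    refine ⟨h.1, ?_⟩
    intro v hv
    obtain ⟨h1, h2⟩ := hmem2 v hv
    have h3 := h.2 v hv
    rwa [hx4 v h1 h2, hy4 v h1 h2] at h3
  have hlt : (S \ {a, b}).card < S.card := by
    apply Finset.card_lt_card
    refine ⟨Finset.sdiff_subset, ?_⟩
    intro h
    have := h haS
    simp at this
  obtain ⟨w', hw'⟩ := IH _ x' y' hlt hC hE'
  have hwa : w' a = a := hw'.wS a (by simp)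
  have hwb : w' b = b := hw'.wS b (by simp)
  obtain ⟨w, hw1, hw2, hw3, hw4, hw5⟩ := exists_add w' a b hab hwa hwb hw'.hw
  refine ⟨w, hw1, ?_, ?_, ?_, ?_⟩
  · intro u hu
    have h1 : u ≠ a := fun h => hu (h ▸ haS)
    have h2 : u ≠ b := fun h => hu (h ▸ hbS)
    rw [hw4 u h1 h2]
    exact hw'.wS u (fun h => hu (Finset.mem_sdiff.mp h).1)
  · rw [hw5, hw'.card, ← hx5]
  · rw [mul_eq_of_edge hxa hxb hx2 hx3 hx4 hwa hwb hw2 hw3 hw4]
    exact hw'.oddx
  · rw [mul_eq_of_edge hya hyb hy2 hy3 hy4 hwa hwb hw2 hw3 hw4]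
    exact hw'.oddy

/-- Rule 4: a path with an end point. -/
lemma rule4 {S : Finset α} {x y : Perm α} (IH : IHyp S) (C : Cfg S x y) (a b c : α) (hab : a ≠ b)
    (hbc : b ≠ c) (hxa : x a = b) (hya : y a = a) (hyb : y b = c) : ∃ w, Sol S x y w := by
  have hxb : x b = a := by rw [← hxa]; exact invol C.hx a
  have hyc : y c = b := by rw [← hyb]; exact invol C.hy b
  have hac : a ≠ c := by
    intro h
    apply hab
    rw [h] at hya
    rw [h, ← hyc, hya]
  obtain ⟨x', hx1, hx2, hx3, hx4, hx5⟩ := exists_del x a b C.hx hab hxa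
  obtain ⟨y', hy1, hy2, hy3, hy4, hy5⟩ := exists_del y b c C.hy hbc hyb
  have haS : a ∈ S := mem_of_moved C.xS (by rw [hxa]; exact hab.symm)
  have hbS : b ∈ S := mem_of_moved C.xS (by rw [hxb]; exact hab)
  have hcS : c ∈ S := mem_of_moved C.yS (by rw [hyc]; exact hbc)
  have hya' : y' a = a := by rw [hy4 a hab hac, hya]
  have hmem : ∀ u, u ∉ S \ {a, b} → u ≠ a → u ≠ b → u ∉ S := by
    intro u hu h1 h2 h3
    apply hu
    simp [Finset.mem_sdiff, h1, h2, h3]
  have hC : Cfg (S \ {a, b}) x' y' := by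
    refine ⟨hx1, hy1, ?_, ?_, ?_⟩
    · intro u hu
      by_cases h1 : u = a
      · rw [h1, hx2]
      by_cases h2 : u = b
      · rw [h2, hx3]
      rw [hx4 u h1 h2]
      exact C.xS u (hmem u hu h1 h2)
    · intro u hu
      by_cases h1 : u = a
      · rw [h1, hya']
      by_cases h2 : u = b
      · rw [h2, hy2]
      by_cases h3 : u = c
      · rw [h3, hy3]
      rw [hy4 u h2 h3]
      exact C.yS u (hmem u hu h1 h2)
    · have := C.card
      omega
  have hE' : ¬ Exc (S \ {a, b}) x' y' := by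
    intro h
    have h3 : c ∈ S \ {a, b} := by
      simp [Finset.mem_sdiff, hcS, hac.symm, hbc.symm]
    exact (h.2 c h3).2.1 hy3
  have hlt : (S \ {a, b}).card < S.card := by
    apply Finset.card_lt_card
    refine ⟨Finset.sdiff_subset, ?_⟩
    intro h
    have := h haS
    simp at this
  obtain ⟨w', hw'⟩ := IH _ x' y' hlt hC hE'
  have hwa : w' a = a := hw'.wS a (by simp)
  have hwb : w' b = b := hw'.wS b (by simp)
  obtain ⟨w, hw1, hw2, hw3, hw4, hw5⟩ := exists_add w' a b hab hwa hwb hw'.hw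
  have hww : ∀ u, w' (w' u) = u := invol hw'.hw
  refine ⟨w, hw1, ?_, ?_, ?_, ?_⟩
  · intro u hu
    have h1 : u ≠ a := fun h => hu (h ▸ haS)
    have h2 : u ≠ b := fun h => hu (h ▸ hbS)
    rw [hw4 u h1 h2]
    exact hw'.wS u (fun h => hu (Finset.mem_sdiff.mp h).1)
  · rw [hw5, hw'.card, ← hx5]
  · rw [mul_eq_of_edge hxa hxb hx2 hx3 hx4 hwa hwb hw2 hw3 hw4]
    exact hw'.oddx
  · have hgb : w' c ≠ b := moved_ne hwb hbc.symm
    have hga : w' c ≠ a := moved_ne hwa hac.symm
    refine odd_insert (y * w) (y' * w') (w' c) b a hgb hga hab.symm ?_ ?_ ?_ ?_ ?_ ?_ hw'.oddy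
    · simp only [Perm.mul_apply]
      rw [hwb, hy2]
    · simp only [Perm.mul_apply]
      rw [hwa, hya']
    · simp only [Perm.mul_apply]
      rw [hw4 _ hga hgb, hww, hyc]
    · simp only [Perm.mul_apply]
      rw [hw3, hya]
    · simp only [Perm.mul_apply]
      rw [hw2, hww, hyb, hy3]
    · intro v h1 h2 h3
      simp only [Perm.mul_apply]
      rw [hw4 v h3 h2, hy4 _ (moved_ne hwb h2)]
      intro h5
      apply h1
      rw [← h5, hww]

/-- Rule 5: two short paths. -/
lemma rule5 {S : Finset α} {x y : Perm α} (IH : IHyp S) (C : Cfg S x y) (a b c d : α) (hab : a ≠ b)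
    (hcd : c ≠ d) (hxa : x a = b) (hya : y a = a) (hyb : y b = b) (hyc : y c = d) (hxc : x c = c)
    (hxd : x d = d) (hE : ¬ Exc (S \ {a, b, c, d}) x y) : ∃ w, Sol S x y w := by
  have hxb : x b = a := by rw [← hxa]; exact invol C.hx a
  have hyd : y d = c := by rw [← hyc]; exact invol C.hy c
  have hac : a ≠ c := by
    intro h; apply hab; rw [← hxa, h, hxc, ← h]
  have had : a ≠ d := by
    intro h; apply hab; rw [← hxa, h, hxd, ← h]
  have hbc : b ≠ c := by
    intro h; apply hab; rw [← hxb, h, hxc, ← h]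
  have hbd : b ≠ d := by
    intro h; apply hab; rw [← hxb, h, hxd, ← h]
  obtain ⟨x', hx1, hx2, hx3, hx4, hx5⟩ := exists_del x a b C.hx hab hxa
  obtain ⟨y', hy1, hy2, hy3, hy4, hy5⟩ := exists_del y c d C.hy hcd hyc
  have haS : a ∈ S := mem_of_moved C.xS (by rw [hxa]; exact hab.symm)
  have hbS : b ∈ S := mem_of_moved C.xS (by rw [hxb]; exact hab)
  have hcS : c ∈ S := mem_of_moved C.yS (by rw [hyc]; exact hcd.symm)
  have hdS : d ∈ S := mem_of_moved C.yS (by rw [hyd]; exact hcd)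
  have hmem : ∀ u, u ∉ S \ {a, b, c, d} → u ≠ a → u ≠ b → u ≠ c → u ≠ d → u ∉ S := by
    intro u hu h1 h2 h4 h5 h3
    apply hu
    simp [Finset.mem_sdiff, h1, h2, h3, h4, h5]
  have hmem2 : ∀ u, u ∈ S \ {a, b, c, d} → u ≠ a ∧ u ≠ b ∧ u ≠ c ∧ u ≠ d := by
    intro u hu
    simp only [Finset.mem_sdiff, Finset.mem_insert, Finset.mem_singleton, not_or] at hu
    exact hu.2
  have hxc' : x' c = c := by rw [hx4 c hac.symm hbc.symm, hxc]
  have hxd' : x' d = d := by rw [hx4 d had.symm hbd.symm, hxd]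
  have hya' : y' a = a := by rw [hy4 a hac had, hya]
  have hyb' : y' b = b := by rw [hy4 b hbc hbd, hyb]
  have hC : Cfg (S \ {a, b, c, d}) x' y' := by
    refine ⟨hx1, hy1, ?_, ?_, ?_⟩
    · intro u hu
      by_cases h1 : u = a
      · rw [h1, hx2]
      by_cases h2 : u = b
      · rw [h2, hx3]
      by_cases h3 : u = c
      · rw [h3, hxc']
      by_cases h4 : u = d
      · rw [h4, hxd']
      rw [hx4 u h1 h2]
      exact C.xS u (hmem u hu h1 h2 h3 h4)
    · intro u hu
      by_cases h1 : u = a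
      · rw [h1, hya']
      by_cases h2 : u = b
      · rw [h2, hyb']
      by_cases h3 : u = c
      · rw [h3, hy2]
      by_cases h4 : u = d
      · rw [h4, hy3]
      rw [hy4 u h3 h4]
      exact C.yS u (hmem u hu h1 h2 h3 h4)
    · have := C.card
      omega
  have hE' : ¬ Exc (S \ {a, b, c, d}) x' y' := by
    intro h
    apply hE
    refine ⟨h.1, ?_⟩
    intro v hv
    obtain ⟨h1, h2, h3, h4⟩ := hmem2 v hv
    have h5 := h.2 v hv
    rwa [hx4 v h1 h2, hy4 v h3 h4] at h5
  have hlt : (S \ {a, b, c, d}).card < S.card := by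
    apply Finset.card_lt_card
    refine ⟨Finset.sdiff_subset, ?_⟩
    intro h
    have := h haS
    simp at this
  obtain ⟨w', hw'⟩ := IH _ x' y' hlt hC hE'
  have hwa : w' a = a := hw'.wS a (by simp)
  have hwb : w' b = b := hw'.wS b (by simp)
  have hwc : w' c = c := hw'.wS c (by simp)
  have hwd : w' d = d := hw'.wS d (by simp)
  obtain ⟨w, hw1, hw2, hw3, hw4, hw5⟩ := exists_add w' a c hac hwa hwc hw'.hw
  refine ⟨w, hw1, ?_, ?_, ?_, ?_⟩
  · intro u hu
    have h1 : u ≠ a := fun h => hu (h ▸ haS)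
    have h2 : u ≠ c := fun h => hu (h ▸ hcS)
    rw [hw4 u h1 h2]
    exact hw'.wS u (fun h => hu (Finset.mem_sdiff.mp h).1)
  · rw [hw5, hw'.card, ← hx5]
  · refine odd_insert (x * w) (x' * w') a c b hac hab hbc.symm ?_ ?_ ?_ ?_ ?_ ?_ hw'.oddx
    · simp only [Perm.mul_apply]
      rw [hwc, hxc']
    · simp only [Perm.mul_apply]
      rw [hwb, hx3]
    · simp only [Perm.mul_apply]
      rw [hw2, hxc]
    · simp only [Perm.mul_apply]
      rw [hw3, hxa]
    · simp only [Perm.mul_apply]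
      rw [hw4 b hab.symm hbc, hwb, hxb, hwa, hx2]
    · intro v h1 h2 h3
      simp only [Perm.mul_apply]
      rw [hw4 v h1 h2, hx4 _ (moved_ne hwa h1) (moved_ne hwb h3)]
  · refine odd_insert (y * w) (y' * w') a d c had hac hcd.symm ?_ ?_ ?_ ?_ ?_ ?_ hw'.oddy
    · simp only [Perm.mul_apply]
      rw [hwd, hy3]
    · simp only [Perm.mul_apply]
      rw [hwc, hy2]
    · simp only [Perm.mul_apply]
      rw [hw2, hyc]
    · simp only [Perm.mul_apply]
      rw [hw4 d had.symm hcd.symm, hwd, hyd]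
    · simp only [Perm.mul_apply]
      rw [hw3, hya, hwa, hya']
    · intro v h1 h2 h3
      simp only [Perm.mul_apply]
      rw [hw4 v h1 h3, hy4 _ (moved_ne hwc h3) (moved_ne hwd h2)]

/-- An alternating 4-cycle. -/
structure C4 (x y : Perm α) (a b c d : α) : Prop where
  hab : a ≠ b
  hac : a ≠ c
  had : a ≠ d
  hbc : b ≠ c
  hbd : b ≠ d
  hcd : c ≠ d
  xa : x a = b
  xb : x b = a
  xc : x c = d
  xd : x d = c
  yb : y b = c
  yc : y c = b
  yd : y d = a
  ya : y a = d

lemma C4_of_exc' {S : Finset α} {x y : Perm α} (hx : x * x = 1) (hy : y * y = 1)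
    (hcx : ∀ v ∈ S, x v ∈ S) (hcy : ∀ v ∈ S, y v ∈ S) (E : Exc S x y) {a : α} (ha : a ∈ S) :
    ∃ b c d, C4 x y a b c d ∧ b ∈ S ∧ c ∈ S ∧ d ∈ S ∧ ∀ v ∈ S, v = a ∨ v = b ∨ v = c ∨ v = d := by
  set b := x a with hb
  set c := y b with hc
  set d := x c with hd
  have hbS : b ∈ S := hcx a ha
  have hcS : c ∈ S := hcy b hbS
  have hdS : d ∈ S := hcx c hcS
  have hab : a ≠ b := (E.2 a ha).1.symm
  have hbc : b ≠ c := (E.2 b hbS).2.1.symm
  have hcd : c ≠ d := (E.2 c hcS).1.symm
  have hxb : x b = a := invol hx a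
  have hyc : y c = b := invol hy b
  have hxd : x d = c := invol hx c
  have hac : a ≠ c := by
    intro h
    apply (E.2 a ha).2.2
    nth_rewrite 2 [h]
    rw [hyc]
  have hbd : b ≠ d := by
    intro h
    apply hac
    rw [← hxb, h, hxd]
  have had : a ≠ d := by
    intro h
    apply hbc
    rw [hb, h, hxd]
  have hS : S = {a, b, c, d} := by
    symm
    apply Finset.eq_of_subset_of_card_le
    · intro v hv
      simp only [Finset.mem_insert, Finset.mem_singleton] at hv
      rcases hv with rfl | rfl | rfl | rfl <;> assumption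
    · rw [E.1]
      rw [Finset.card_insert_of_notMem, Finset.card_insert_of_notMem, Finset.card_insert_of_notMem,
        Finset.card_singleton]
      · simpa using hcd
      · simp [hbc, hbd]
      · simp [hab, hac, had]
  have hyd : y d = a := by
    have h1 : y d ∈ S := hcy d hdS
    rw [hS] at h1
    simp only [Finset.mem_insert, Finset.mem_singleton] at h1
    rcases h1 with h1 | h1 | h1 | h1
    · exact h1
    · exfalso
      apply hcd
      rw [hc, ← h1, invol hy]
    · exfalso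
      apply hbd
      rw [← hyc, ← h1, invol hy]
    · exact absurd h1 (E.2 d hdS).2.1
  refine ⟨b, c, d, ⟨hab, hac, had, hbc, hbd, hcd, rfl, hxb, rfl, hxd, rfl, hyc, hyd, ?_⟩,
    hbS, hcS, hdS, ?_⟩
  · rw [← hyd, invol hy]
  · intro v hv
    rw [hS] at hv
    simpa using hv

lemma closed_x {S : Finset α} {x y : Perm α} (C : Cfg S x y) (v : α) (hv : v ∈ S) : x v ∈ S := by
  by_contra h
  have h1 := C.xS _ h
  rw [invol C.hx] at h1
  rw [← h1] at h
  exact h hv

lemma closed_y {S : Finset α} {x y : Perm α} (C : Cfg S x y) (v : α) (hv : v ∈ S) : y v ∈ S := by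
  by_contra h
  have h1 := C.yS _ h
  rw [invol C.hy] at h1
  rw [← h1] at h
  exact h hv

lemma C4_of_exc {S : Finset α} {x y : Perm α} (C : Cfg S x y) (E : Exc S x y) {a : α} (ha : a ∈ S) :
    ∃ b c d, C4 x y a b c d ∧ b ∈ S ∧ c ∈ S ∧ d ∈ S ∧ ∀ v ∈ S, v = a ∨ v = b ∨ v = c ∨ v = d :=
  C4_of_exc' C.hx C.hy (closed_x C) (closed_y C) E ha

/-- Rule 8: removing an alternating 4-cycle. -/
lemma rule8 {S : Finset α} {x y : Perm α} (IH : IHyp S) (C : Cfg S x y) {a b c d : α}
    (P : C4 x y a b c d) (hE : ¬ Exc (S \ {a, b, c, d}) x y)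
    (hu : ∃ u ∈ S \ {a, b, c, d}, x u ≠ u) : ∃ w, Sol S x y w := by
  obtain ⟨hab, hac, had, hbc, hbd, hcd, xa, xb, xc, xd, yb, yc, yd, ya⟩ := P
  have haS : a ∈ S := mem_of_moved C.xS (by rw [xa]; exact hab.symm)
  have hbS : b ∈ S := mem_of_moved C.xS (by rw [xb]; exact hab)
  have hcS : c ∈ S := mem_of_moved C.xS (by rw [xc]; exact hcd.symm)
  have hdS : d ∈ S := mem_of_moved C.xS (by rw [xd]; exact hcd)
  obtain ⟨x₁, h11, h12, h13, h14, h15⟩ := exists_del x a b C.hx hab xa
  obtain ⟨x', h21, h22, h23, h24, h25⟩ := exists_del x₁ c d h11 hcd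
    (by rw [h14 c hac.symm hbc.symm, xc])
  obtain ⟨y₁, k11, k12, k13, k14, k15⟩ := exists_del y a d C.hy had ya
  obtain ⟨y', k21, k22, k23, k24, k25⟩ := exists_del y₁ b c k11 hbc
    (by rw [k14 b hab.symm hbd, yb])
  have hxa' : x' a = a := by rw [h24 a hac had, h12]
  have hxb' : x' b = b := by rw [h24 b hbc hbd, h13]
  have hxc' : x' c = c := h22
  have hxd' : x' d = d := h23
  have hya' : y' a = a := by rw [k24 a hab hac, k12]
  have hyb' : y' b = b := k22
  have hyc' : y' c = c := k23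
  have hyd' : y' d = d := by rw [k24 d hbd.symm hcd.symm, k13]
  have hxo : ∀ v, v ≠ a → v ≠ b → v ≠ c → v ≠ d → x' v = x v := by
    intro v h1 h2 h3 h4
    rw [h24 v h3 h4, h14 v h1 h2]
  have hyo : ∀ v, v ≠ a → v ≠ b → v ≠ c → v ≠ d → y' v = y v := by
    intro v h1 h2 h3 h4
    rw [k24 v h2 h3, k14 v h1 h4]
  have hmem : ∀ u, u ∉ S \ {a, b, c, d} → u ≠ a → u ≠ b → u ≠ c → u ≠ d → u ∉ S := by
    intro u hu h1 h2 h4 h5 h3
    apply hu
    simp [Finset.mem_sdiff, h1, h2, h3, h4, h5]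
  have hmem2 : ∀ u, u ∈ S \ {a, b, c, d} → u ≠ a ∧ u ≠ b ∧ u ≠ c ∧ u ≠ d := by
    intro u hu
    simp only [Finset.mem_sdiff, Finset.mem_insert, Finset.mem_singleton, not_or] at hu
    exact hu.2
  have hC : Cfg (S \ {a, b, c, d}) x' y' := by
    refine ⟨h21, k21, ?_, ?_, ?_⟩
    · intro u hu
      by_cases h1 : u = a
      · rw [h1, hxa']
      by_cases h2 : u = b
      · rw [h2, hxb']
      by_cases h3 : u = c
      · rw [h3, hxc']
      by_cases h4 : u = d
      · rw [h4, hxd']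
      rw [hxo u h1 h2 h3 h4]
      exact C.xS u (hmem u hu h1 h2 h3 h4)
    · intro u hu
      by_cases h1 : u = a
      · rw [h1, hya']
      by_cases h2 : u = b
      · rw [h2, hyb']
      by_cases h3 : u = c
      · rw [h3, hyc']
      by_cases h4 : u = d
      · rw [h4, hyd']
      rw [hyo u h1 h2 h3 h4]
      exact C.yS u (hmem u hu h1 h2 h3 h4)
    · have := C.card
      omega
  have hE' : ¬ Exc (S \ {a, b, c, d}) x' y' := by
    intro h
    apply hE
    refine ⟨h.1, ?_⟩
    intro v hv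
    obtain ⟨h1, h2, h3, h4⟩ := hmem2 v hv
    have h5 := h.2 v hv
    rwa [hxo v h1 h2 h3 h4, hyo v h1 h2 h3 h4] at h5
  have hlt : (S \ {a, b, c, d}).card < S.card := by
    apply Finset.card_lt_card
    refine ⟨Finset.sdiff_subset, ?_⟩
    intro h
    have := h haS
    simp at this
  obtain ⟨w', hw'⟩ := IH _ x' y' hlt hC hE'
  have hwa : w' a = a := hw'.wS a (by simp)
  have hwb : w' b = b := hw'.wS b (by simp)
  have hwc : w' c = c := hw'.wS c (by simp)
  have hwd : w' d = d := hw'.wS d (by simp)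
  have hww : ∀ u, w' (w' u) = u := invol hw'.hw
  -- an edge of `w'`
  obtain ⟨u, huS, hxu⟩ := hu
  obtain ⟨hu1, hu2, hu3, hu4⟩ := hmem2 u huS
  have hx'card : 0 < x'.support.card := by
    rw [Finset.card_pos]
    refine ⟨u, ?_⟩
    rw [Perm.mem_support, hxo u hu1 hu2 hu3 hu4]
    exact hxu
  have hw'card : 0 < w'.support.card := by rw [hw'.card]; exact hx'card
  obtain ⟨e, he⟩ := Finset.card_pos.mp hw'card
  rw [Perm.mem_support] at he
  set f := w' e with hf
  have heS' : e ∈ S \ {a, b, c, d} := mem_of_moved hw'.wS he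
  have hfS' : f ∈ S \ {a, b, c, d} := by
    apply mem_of_moved hw'.wS
    rw [hf, hww]
    exact he.symm
  obtain ⟨hea, heb, hec, hed⟩ := hmem2 e heS'
  obtain ⟨hfa, hfb, hfc, hfd⟩ := hmem2 f hfS'
  have hef : e ≠ f := he.symm
  have hwe : w' f = e := hww e
  obtain ⟨w₀, l11, l12, l13, l14, l15⟩ := exists_del w' e f hw'.hw hef rfl
  obtain ⟨w₁, l21, l22, l23, l24, l25⟩ := exists_add w₀ a c hac
    (by rw [l14 a hea.symm hfa.symm, hwa]) (by rw [l14 c hec.symm hfc.symm, hwc]) l11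
  obtain ⟨w₂, l31, l32, l33, l34, l35⟩ := exists_add w₁ b e heb.symm
    (by rw [l24 b hab.symm hbc, l14 b heb.symm hfb.symm, hwb]) (by rw [l24 e hea hec, l12]) l21
  obtain ⟨w, l41, l42, l43, l44, l45⟩ := exists_add w₂ d f hfd.symm
    (by rw [l34 d hbd.symm hed.symm, l24 d had.symm hcd.symm, l14 d hed.symm hfd.symm, hwd])
    (by rw [l34 f hfb hef.symm, l24 f hfa hfc, l13]) l31
  have wa : w a = c := by rw [l44 a had hfa.symm, l34 a hab hea.symm, l22]
  have wc : w c = a := by rw [l44 c hcd hfc.symm, l34 c hbc.symm hec.symm, l23]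
  have wb : w b = e := by rw [l44 b hbd hfb.symm, l32]
  have we : w e = b := by rw [l44 e hed hef, l33]
  have wd : w d = f := l42
  have wf : w f = d := l43
  have wo : ∀ v, v ≠ a → v ≠ b → v ≠ c → v ≠ d → v ≠ e → v ≠ f → w v = w' v := by
    intro v h1 h2 h3 h4 h5 h6
    rw [l44 v h4 h6, l34 v h2 h5, l24 v h1 h3, l14 v h5 h6]
  have hwwo : ∀ v, v ≠ e → v ≠ f → w' v ≠ e ∧ w' v ≠ f := by
    intro v h1 h2
    constructor
    · intro h3
      apply h2
      rw [← hww v, h3]
    · intro h3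
      apply h1
      rw [← hww v, h3, hwe]
  refine ⟨w, l41, ?_, ?_, ?_, ?_⟩
  · intro v hv
    have h1 : v ≠ a := fun h => hv (h ▸ haS)
    have h2 : v ≠ b := fun h => hv (h ▸ hbS)
    have h3 : v ≠ c := fun h => hv (h ▸ hcS)
    have h4 : v ≠ d := fun h => hv (h ▸ hdS)
    have h5 : v ≠ e := fun h => hv (h ▸ (Finset.mem_sdiff.mp heS').1)
    have h6 : v ≠ f := fun h => hv (h ▸ (Finset.mem_sdiff.mp hfS').1)
    rw [wo v h1 h2 h3 h4 h5 h6]
    exact hw'.wS v (fun h => hv (Finset.mem_sdiff.mp h).1)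
  · have := hw'.card
    omega
  · refine odd_insert₂ (x * w) (x' * w') e a d f c b hea hed had hfc hfb hbc.symm hef hfa hfd
      hec heb hac hab hcd.symm hbd.symm ?_ ?_ ?_ ?_ ?_ ?_ ?_ ?_ ?_ ?_ ?_ hw'.oddx
    · simp only [Perm.mul_apply]; rw [hwa, hxa']
    · simp only [Perm.mul_apply]; rw [hwd, hxd']
    · simp only [Perm.mul_apply]; rw [hwc, hxc']
    · simp only [Perm.mul_apply]; rw [hwb, hxb']
    · simp only [Perm.mul_apply]; rw [we, xb]
    · simp only [Perm.mul_apply]; rw [wa, xc]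
    · simp only [Perm.mul_apply]; rw [wd, ← hf, hxo f hfa hfb hfc hfd]
    · simp only [Perm.mul_apply]; rw [wf, xd]
    · simp only [Perm.mul_apply]; rw [wc, xa]
    · simp only [Perm.mul_apply]; rw [wb, hwe, hxo e hea heb hec hed]
    · intro v h1 h2 h3 h4 h5 h6
      simp only [Perm.mul_apply]
      obtain ⟨h7, h8⟩ := hwwo v h1 h4
      rw [wo v h2 h6 h5 h3 h1 h4, hxo _ (moved_ne hwa h2) (moved_ne hwb h6) (moved_ne hwc h5)
        (moved_ne hwd h3)]
  · refine odd_insert₂ (y * w) (y' * w') e c d f a b hec hed hcd hfa hfb hab hef hfc hfd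
      hea heb hac.symm hbc.symm had.symm hbd.symm ?_ ?_ ?_ ?_ ?_ ?_ ?_ ?_ ?_ ?_ ?_ hw'.oddy
    · simp only [Perm.mul_apply]; rw [hwc, hyc']
    · simp only [Perm.mul_apply]; rw [hwd, hyd']
    · simp only [Perm.mul_apply]; rw [hwa, hya']
    · simp only [Perm.mul_apply]; rw [hwb, hyb']
    · simp only [Perm.mul_apply]; rw [we, yb]
    · simp only [Perm.mul_apply]; rw [wc, ya]
    · simp only [Perm.mul_apply]; rw [wd, ← hf, hyo f hfa hfb hfc hfd]
    · simp only [Perm.mul_apply]; rw [wf, yd]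
    · simp only [Perm.mul_apply]; rw [wa, yc]
    · simp only [Perm.mul_apply]; rw [wb, hwe, hyo e hea heb hec hed]
    · intro v h1 h2 h3 h4 h5 h6
      simp only [Perm.mul_apply]
      rw [wo v h5 h6 h2 h3 h1 h4, hyo _ (moved_ne hwa h5) (moved_ne hwb h6) (moved_ne hwc h2)
        (moved_ne hwd h3)]

lemma odd_five (σ : Perm α) (a b c d e : α) (h₁ : σ a = b) (h₂ : σ b = c) (h₃ : σ c = d)
    (h₄ : σ d = e) (h₅ : σ e = a)
    (h : ∀ v, v ≠ a → v ≠ b → v ≠ c → v ≠ d → v ≠ e → σ v = v) : Odd (orderOf σ) := by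
  apply odd_orderOf_of_forall
  intro v
  refine ⟨5, by decide, ?_⟩
  by_cases ha : v = a
  · simp only [ha, pow_succ, pow_zero, one_mul, Perm.mul_apply, h₁, h₂, h₃, h₄, h₅]
  by_cases hb : v = b
  · simp only [hb, pow_succ, pow_zero, one_mul, Perm.mul_apply, h₁, h₂, h₃, h₄, h₅]
  by_cases hc : v = c
  · simp only [hc, pow_succ, pow_zero, one_mul, Perm.mul_apply, h₁, h₂, h₃, h₄, h₅]
  by_cases hd : v = d
  · simp only [hd, pow_succ, pow_zero, one_mul, Perm.mul_apply, h₁, h₂, h₃, h₄, h₅]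
  by_cases he : v = e
  · simp only [he, pow_succ, pow_zero, one_mul, Perm.mul_apply, h₁, h₂, h₃, h₄, h₅]
  have h6 := h v ha hb hc hd he
  simp only [pow_succ, pow_zero, one_mul, Perm.mul_apply, h6]

/-- Four disjoint transpositions. -/
lemma exists_four (a₁ b₁ a₂ b₂ a₃ b₃ a₄ b₄ : α) (h : [a₁, b₁, a₂, b₂, a₃, b₃, a₄, b₄].Nodup) :
    ∃ w : Perm α, w * w = 1 ∧ w a₁ = b₁ ∧ w b₁ = a₁ ∧ w a₂ = b₂ ∧ w b₂ = a₂ ∧ w a₃ = b₃ ∧ w b₃ = a₃ ∧
      w a₄ = b₄ ∧ w b₄ = a₄ ∧
      (∀ v, v ≠ a₁ → v ≠ b₁ → v ≠ a₂ → v ≠ b₂ → v ≠ a₃ → v ≠ b₃ → v ≠ a₄ → v ≠ b₄ → w v = v) ∧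
      w.support.card = 8 := by
  simp only [List.nodup_cons, List.mem_cons, List.not_mem_nil, or_false, not_or, List.nodup_nil,
    not_false_eq_true, and_true] at h
  obtain ⟨⟨h12, h13, h14, h15, h16, h17, h18⟩, ⟨h23, h24, h25, h26, h27, h28⟩,
    ⟨h34, h35, h36, h37, h38⟩, ⟨h45, h46, h47, h48⟩, ⟨h56, h57, h58⟩, ⟨h67, h68⟩, h78⟩ := h
  obtain ⟨w₁, l11, l12, l13, l14, l15⟩ := exists_add 1 a₁ b₁ h12 rfl rfl (by simp)
  obtain ⟨w₂, l21, l22, l23, l24, l25⟩ := exists_add w₁ a₂ b₂ h34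
    (by rw [l14 a₂ (Ne.symm h13) (Ne.symm h23)]; rfl) (by rw [l14 b₂ (Ne.symm h14) (Ne.symm h24)]; rfl) l11
  obtain ⟨w₃, l31, l32, l33, l34, l35⟩ := exists_add w₂ a₃ b₃ h56
    (by rw [l24 a₃ (Ne.symm h35) (Ne.symm h45), l14 a₃ (Ne.symm h15) (Ne.symm h25)]; rfl)
    (by rw [l24 b₃ (Ne.symm h36) (Ne.symm h46), l14 b₃ (Ne.symm h16) (Ne.symm h26)]; rfl) l21
  obtain ⟨w₄, l41, l42, l43, l44, l45⟩ := exists_add w₃ a₄ b₄ h78
    (by rw [l34 a₄ (Ne.symm h57) (Ne.symm h67), l24 a₄ (Ne.symm h37) (Ne.symm h47),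
      l14 a₄ (Ne.symm h17) (Ne.symm h27)]; rfl)
    (by rw [l34 b₄ (Ne.symm h58) (Ne.symm h68), l24 b₄ (Ne.symm h38) (Ne.symm h48),
      l14 b₄ (Ne.symm h18) (Ne.symm h28)]; rfl) l31
  refine ⟨w₄, l41, ?_, ?_, ?_, ?_, ?_, ?_, l42, l43, ?_, ?_⟩
  · rw [l44 a₁ h17 h18, l34 a₁ h15 h16, l24 a₁ h13 h14, l12]
  · rw [l44 b₁ h27 h28, l34 b₁ h25 h26, l24 b₁ h23 h24, l13]
  · rw [l44 a₂ h37 h38, l34 a₂ h35 h36, l22]
  · rw [l44 b₂ h47 h48, l34 b₂ h45 h46, l23]
  · rw [l44 a₃ h57 h58, l32]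
  · rw [l44 b₃ h67 h68, l33]
  · intro v h1 h2 h3 h4 h5 h6 h7 h8
    rw [l44 v h7 h8, l34 v h5 h6, l24 v h3 h4, l14 v h1 h2]
    rfl
  · rw [l45, l35, l25, l15]
    simp

lemma card_four (x : Perm α) (a₁ b₁ a₂ b₂ a₃ b₃ a₄ b₄ : α)
    (h : [a₁, b₁, a₂, b₂, a₃, b₃, a₄, b₄].Nodup)
    (h1 : x a₁ = b₁) (h2 : x b₁ = a₁) (h3 : x a₂ = b₂) (h4 : x b₂ = a₂) (h5 : x a₃ = b₃)
    (h6 : x b₃ = a₃) (h7 : x a₄ = b₄) (h8 : x b₄ = a₄)
    (h9 : ∀ v, v ≠ a₁ → v ≠ b₁ → v ≠ a₂ → v ≠ b₂ → v ≠ a₃ → v ≠ b₃ → v ≠ a₄ → v ≠ b₄ → x v = v) :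
    x.support.card = 8 := by
  obtain ⟨w, -, l1, l2, l3, l4, l5, l6, l7, l8, l9, l10⟩ := exists_four a₁ b₁ a₂ b₂ a₃ b₃ a₄ b₄ h
  have : x = w := by
    ext v
    by_cases c1 : v = a₁
    · rw [c1, h1, l1]
    by_cases c2 : v = b₁
    · rw [c2, h2, l2]
    by_cases c3 : v = a₂
    · rw [c3, h3, l3]
    by_cases c4 : v = b₂
    · rw [c4, h4, l4]
    by_cases c5 : v = a₃
    · rw [c5, h5, l5]
    by_cases c6 : v = b₃
    · rw [c6, h6, l6]
    by_cases c7 : v = a₄
    · rw [c7, h7, l7]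
    by_cases c8 : v = b₄
    · rw [c8, h8, l8]
    rw [h9 v c1 c2 c3 c4 c5 c6 c7 c8, l9 v c1 c2 c3 c4 c5 c6 c7 c8]
  rw [this, l10]

lemma exists_two (a₁ b₁ a₂ b₂ : α) (h12 : a₁ ≠ b₁) (h13 : a₁ ≠ a₂) (h14 : a₁ ≠ b₂) (h23 : b₁ ≠ a₂)
    (h24 : b₁ ≠ b₂) (h34 : a₂ ≠ b₂) :
    ∃ w : Perm α, w * w = 1 ∧ w a₁ = b₁ ∧ w b₁ = a₁ ∧ w a₂ = b₂ ∧ w b₂ = a₂ ∧
      (∀ v, v ≠ a₁ → v ≠ b₁ → v ≠ a₂ → v ≠ b₂ → w v = v) ∧ w.support.card = 4 := by
  obtain ⟨w₁, l11, l12, l13, l14, l15⟩ := exists_add 1 a₁ b₁ h12 rfl rfl (by simp)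
  obtain ⟨w₂, l21, l22, l23, l24, l25⟩ := exists_add w₁ a₂ b₂ h34
    (by rw [l14 a₂ (Ne.symm h13) (Ne.symm h23)]; rfl) (by rw [l14 b₂ (Ne.symm h14) (Ne.symm h24)]; rfl) l11
  refine ⟨w₂, l21, ?_, ?_, l22, l23, ?_, ?_⟩
  · rw [l24 a₁ h13 h14, l12]
  · rw [l24 b₁ h23 h24, l13]
  · intro v h1 h2 h3 h4
    rw [l24 v h3 h4, l14 v h1 h2]
    rfl
  · rw [l25, l15]
    simp

lemma card_two (x : Perm α) (a₁ b₁ a₂ b₂ : α) (h12 : a₁ ≠ b₁) (h13 : a₁ ≠ a₂) (h14 : a₁ ≠ b₂)
    (h23 : b₁ ≠ a₂) (h24 : b₁ ≠ b₂) (h34 : a₂ ≠ b₂)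
    (h1 : x a₁ = b₁) (h2 : x b₁ = a₁) (h3 : x a₂ = b₂) (h4 : x b₂ = a₂)
    (h9 : ∀ v, v ≠ a₁ → v ≠ b₁ → v ≠ a₂ → v ≠ b₂ → x v = v) :
    x.support.card = 4 := by
  obtain ⟨w, -, l1, l2, l3, l4, l9, l10⟩ := exists_two a₁ b₁ a₂ b₂ h12 h13 h14 h23 h24 h34
  have : x = w := by
    ext v
    by_cases c1 : v = a₁
    · rw [c1, h1, l1]
    by_cases c2 : v = b₁
    · rw [c2, h2, l2]
    by_cases c3 : v = a₂
    · rw [c3, h3, l3]
    by_cases c4 : v = b₂
    · rw [c4, h4, l4]
    rw [h9 v c1 c2 c3 c4, l9 v c1 c2 c3 c4]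
  rw [this, l10]

/-- Base case: an alternating 4-cycle and a fixed point. -/
lemma baseF {S : Finset α} {x y : Perm α} (C : Cfg S x y) {a b c d e : α} (P : C4 x y a b c d)
    (hea : e ≠ a) (heb : e ≠ b) (hec : e ≠ c) (hed : e ≠ d) (hxe : x e = e) (hye : y e = e)
    (heS : e ∈ S) (hS : ∀ v ∈ S, v = a ∨ v = b ∨ v = c ∨ v = d ∨ v = e) : ∃ w, Sol S x y w := by
  obtain ⟨hab, hac, had, hbc, hbd, hcd, xa, xb, xc, xd, yb, yc, yd, ya⟩ := P
  have hout : ∀ v, v ≠ a → v ≠ b → v ≠ c → v ≠ d → v ≠ e → v ∉ S := by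
    intro v h1 h2 h3 h4 h5 h6
    rcases hS v h6 with h | h | h | h | h
    · exact h1 h
    · exact h2 h
    · exact h3 h
    · exact h4 h
    · exact h5 h
  have haS : a ∈ S := mem_of_moved C.xS (by rw [xa]; exact hab.symm)
  have hbS : b ∈ S := mem_of_moved C.xS (by rw [xb]; exact hab)
  have hcS : c ∈ S := mem_of_moved C.xS (by rw [xc]; exact hcd.symm)
  have hdS : d ∈ S := mem_of_moved C.xS (by rw [xd]; exact hcd)
  obtain ⟨w, l1, wa, we, wb, wc, wo, l5⟩ := exists_two a e b c hea.symm hab hac heb hec hbc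
  have wd : w d = d := wo d had.symm hed.symm hbd.symm hcd.symm
  have hcx : x.support.card = 4 := by
    apply card_two x a b c d hab hac had hbc hbd hcd xa xb xc xd
    intro v h1 h2 h3 h4
    by_cases h5 : v = e
    · rw [h5, hxe]
    · exact C.xS v (hout v h1 h2 h3 h4 h5)
  refine ⟨w, l1, ?_, by rw [l5, hcx], ?_, ?_⟩
  · intro v hv
    have h1 : v ≠ a := fun h => hv (h ▸ haS)
    have h2 : v ≠ b := fun h => hv (h ▸ hbS)
    have h3 : v ≠ c := fun h => hv (h ▸ hcS)
    have h4 : v ≠ e := fun h => hv (h ▸ heS)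
    exact wo v h1 h4 h2 h3
  · refine odd_five (x * w) a e b d c ?_ ?_ ?_ ?_ ?_ ?_
    · simp only [Perm.mul_apply]; rw [wa, hxe]
    · simp only [Perm.mul_apply]; rw [we, xa]
    · simp only [Perm.mul_apply]; rw [wb, xc]
    · simp only [Perm.mul_apply]; rw [wd, xd]
    · simp only [Perm.mul_apply]; rw [wc, xb]
    · intro v h1 h2 h3 h4 h5
      simp only [Perm.mul_apply]
      rw [wo v h1 h2 h3 h5, C.xS v (hout v h1 h3 h5 h4 h2)]
  · refine odd_insert (y * w) 1 a e d hea.symm had hed ?_ ?_ ?_ ?_ ?_ ?_ (by simp)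
    · rfl
    · rfl
    · simp only [Perm.mul_apply]; rw [wa, hye]
    · simp only [Perm.mul_apply]; rw [we, ya]
    · simp only [Perm.mul_apply]; rw [wd, yd]; rfl
    · intro v h1 h2 h3
      simp only [Perm.mul_apply, Perm.one_apply]
      by_cases h4 : v = b
      · rw [h4, wb, yc]
      by_cases h5 : v = c
      · rw [h5, wc, yb]
      rw [wo v h1 h2 h4 h5, C.yS v (hout v h1 h4 h5 h3 h2)]

/-- Base case: two alternating 4-cycles. -/
lemma baseCC {S : Finset α} {x y : Perm α} (C : Cfg S x y) {a b c d e f g h : α} (P : C4 x y a b c d)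
    (P' : C4 x y e f g h)
    (hea : e ≠ a) (heb : e ≠ b) (hec : e ≠ c) (hed : e ≠ d)
    (hfa : f ≠ a) (hfb : f ≠ b) (hfc : f ≠ c) (hfd : f ≠ d)
    (hga : g ≠ a) (hgb : g ≠ b) (hgc : g ≠ c) (hgd : g ≠ d)
    (hha : h ≠ a) (hhb : h ≠ b) (hhc : h ≠ c) (hhd : h ≠ d)
    (hS : ∀ v ∈ S, v = a ∨ v = b ∨ v = c ∨ v = d ∨ v = e ∨ v = f ∨ v = g ∨ v = h) :
    ∃ w, Sol S x y w := by
  obtain ⟨hab, hac, had, hbc, hbd, hcd, xa, xb, xc, xd, yb, yc, yd, ya⟩ := P
  obtain ⟨hef, heg, heh, hfg, hfh, hgh, xe, xf, xg, xh, yf, yg, yh, ye⟩ := P'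
  have hout : ∀ v, v ≠ a → v ≠ b → v ≠ c → v ≠ d → v ≠ e → v ≠ f → v ≠ g → v ≠ h → v ∉ S := by
    intro v h1 h2 h3 h4 h5 h6 h7 h8 h9
    rcases hS v h9 with k | k | k | k | k | k | k | k
    · exact h1 k
    · exact h2 k
    · exact h3 k
    · exact h4 k
    · exact h5 k
    · exact h6 k
    · exact h7 k
    · exact h8 k
  have hnd : [a, b, e, h, f, c, g, d].Nodup := by
    simp only [List.nodup_cons, List.mem_cons, List.not_mem_nil, or_false, not_or, List.nodup_nil,
      not_false_eq_true, and_true]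
    exact ⟨⟨hab, hea.symm, hha.symm, hfa.symm, hac, hga.symm, had⟩,
      ⟨heb.symm, hhb.symm, hfb.symm, hbc, hgb.symm, hbd⟩,
      ⟨heh, hef, hec, heg, hed⟩, ⟨hfh.symm, hhc, hgh.symm, hhd⟩, ⟨hfc, hfg, hfd⟩,
      ⟨hgc.symm, hcd⟩, hgd⟩
  have hnd2 : [a, b, c, d, e, f, g, h].Nodup := by
    simp only [List.nodup_cons, List.mem_cons, List.not_mem_nil, or_false, not_or, List.nodup_nil,
      not_false_eq_true, and_true]
    exact ⟨⟨hab, hac, had, hea.symm, hfa.symm, hga.symm, hha.symm⟩,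
      ⟨hbc, hbd, heb.symm, hfb.symm, hgb.symm, hhb.symm⟩,
      ⟨hcd, hec.symm, hfc.symm, hgc.symm, hhc.symm⟩, ⟨hed.symm, hfd.symm, hgd.symm, hhd.symm⟩,
      ⟨hef, heg, heh⟩, ⟨hfg, hfh⟩, hgh⟩
  obtain ⟨w, l1, wa, wb, we, wh, wf, wc, wg, wd, wo, l10⟩ := exists_four a b e h f c g d hnd
  have hcx : x.support.card = 8 := by
    apply card_four x a b c d e f g h hnd2 xa xb xc xd xe xf xg xh
    intro v h1 h2 h3 h4 h5 h6 h7 h8
    exact C.xS v (hout v h1 h2 h3 h4 h5 h6 h7 h8)
  refine ⟨w, l1, ?_, by rw [l10, hcx], ?_, ?_⟩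
  · intro v hv
    by_cases h1 : v = a
    · exact absurd (h1 ▸ mem_of_moved C.xS (by rw [xa]; exact hab.symm)) hv
    by_cases h2 : v = b
    · exact absurd (h2 ▸ mem_of_moved C.xS (by rw [xb]; exact hab)) hv
    by_cases h3 : v = c
    · exact absurd (h3 ▸ mem_of_moved C.xS (by rw [xc]; exact hcd.symm)) hv
    by_cases h4 : v = d
    · exact absurd (h4 ▸ mem_of_moved C.xS (by rw [xd]; exact hcd)) hv
    by_cases h5 : v = e
    · exact absurd (h5 ▸ mem_of_moved C.xS (by rw [xe]; exact hef.symm)) hv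
    by_cases h6 : v = f
    · exact absurd (h6 ▸ mem_of_moved C.xS (by rw [xf]; exact hef)) hv
    by_cases h7 : v = g
    · exact absurd (h7 ▸ mem_of_moved C.xS (by rw [xg]; exact hgh.symm)) hv
    by_cases h8 : v = h
    · exact absurd (h8 ▸ mem_of_moved C.xS (by rw [xh]; exact hgh)) hv
    exact wo v h1 h2 h5 h8 h6 h3 h7 h4
  · refine odd_insert₂ (x * w) 1 c e g d h f hec.symm hgc.symm heg hhd.symm hfd.symm hfh.symm hcd
      hed.symm hgd.symm hhc.symm hfc.symm heh hef hgh hfg.symm rfl rfl rfl rfl ?_ ?_ ?_ ?_ ?_ ?_ ?_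
      (by simp)
    · simp only [Perm.mul_apply]; rw [wc, xf]
    · simp only [Perm.mul_apply]; rw [we, xh]
    · simp only [Perm.mul_apply]; rw [wg, xd]; rfl
    · simp only [Perm.mul_apply]; rw [wd, xg]
    · simp only [Perm.mul_apply]; rw [wh, xe]
    · simp only [Perm.mul_apply]; rw [wf, xc]; rfl
    · intro v h1 h2 h3 h4 h5 h6
      simp only [Perm.mul_apply, Perm.one_apply]
      by_cases h7 : v = a
      · rw [h7, wa, xb]
      by_cases h8 : v = b
      · rw [h8, wb, xa]
      rw [wo v h7 h8 h2 h5 h6 h1 h3 h4, C.xS v (hout v h7 h8 h1 h4 h2 h6 h3 h5)]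
  · refine odd_insert₂ (y * w) 1 a c g b d f hac hga.symm hgc.symm hbd hfb.symm hfd.symm hab
      hbc hgb.symm had hfa.symm hcd hfc.symm hgd hfg.symm rfl rfl rfl rfl ?_ ?_ ?_ ?_ ?_ ?_ ?_
      (by simp)
    · simp only [Perm.mul_apply]; rw [wa, yb]
    · simp only [Perm.mul_apply]; rw [wc, yf]
    · simp only [Perm.mul_apply]; rw [wg, yd]; rfl
    · simp only [Perm.mul_apply]; rw [wb, ya]
    · simp only [Perm.mul_apply]; rw [wd, yg]
    · simp only [Perm.mul_apply]; rw [wf, yc]; rfl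
    · intro v h1 h2 h3 h4 h5 h6
      simp only [Perm.mul_apply, Perm.one_apply]
      by_cases h7 : v = e
      · rw [h7, we, yh]
      by_cases h8 : v = h
      · rw [h8, wh, ye]
      rw [wo v h1 h4 h7 h8 h6 h2 h3 h5, C.yS v (hout v h1 h4 h2 h5 h7 h6 h3 h8)]

/-- Base case: an alternating 8-cycle. -/
lemma baseC8 {S : Finset α} {x y : Perm α} (C : Cfg S x y) {p A B G D q r t : α}
    (hnd : [p, A, B, G, D, q, r, t].Nodup)
    (xp : x p = A) (xA : x A = p) (xB : x B = G) (xG : x G = B) (xD : x D = q) (xq : x q = D)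
    (xr : x r = t) (xt : x t = r)
    (yA : y A = B) (yB : y B = A) (yG : y G = D) (yD : y D = G) (yq : y q = r) (yr : y r = q)
    (yt : y t = p) (yp : y p = t)
    (hS : ∀ v ∈ S, v = p ∨ v = A ∨ v = B ∨ v = G ∨ v = D ∨ v = q ∨ v = r ∨ v = t) :
    ∃ w, Sol S x y w := by
  have hnd' := hnd
  simp only [List.nodup_cons, List.mem_cons, List.not_mem_nil, or_false, not_or, List.nodup_nil,
    not_false_eq_true, and_true] at hnd'
  obtain ⟨⟨h12, h13, h14, h15, h16, h17, h18⟩, ⟨h23, h24, h25, h26, h27, h28⟩,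
    ⟨h34, h35, h36, h37, h38⟩, ⟨h45, h46, h47, h48⟩, ⟨h56, h57, h58⟩, ⟨h67, h68⟩, h78⟩ := hnd'
  have hout : ∀ v, v ≠ p → v ≠ A → v ≠ B → v ≠ G → v ≠ D → v ≠ q → v ≠ r → v ≠ t → v ∉ S := by
    intro v h1 h2 h3 h4 h5 h6 h7 h8 h9
    rcases hS v h9 with k | k | k | k | k | k | k | k
    · exact h1 k
    · exact h2 k
    · exact h3 k
    · exact h4 k
    · exact h5 k
    · exact h6 k
    · exact h7 k
    · exact h8 k
  have hnd3 : [p, A, G, D, B, r, q, t].Nodup := by
    simp only [List.nodup_cons, List.mem_cons, List.not_mem_nil, or_false, not_or, List.nodup_nil,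
      not_false_eq_true, and_true]
    exact ⟨⟨h12, h14, h15, h13, h17, h16, h18⟩, ⟨h24, h25, h23, h27, h26, h28⟩,
      ⟨h45, Ne.symm h34, h47, h46, h48⟩, ⟨Ne.symm h35, h57, h56, h58⟩, ⟨h37, h36, h38⟩,
      ⟨Ne.symm h67, h78⟩, h68⟩
  obtain ⟨w, l1, wp, wA, wG, wD, wB, wr, wq, wt, wo, l10⟩ := exists_four p A G D B r q t hnd3
  have hcx : x.support.card = 8 := by
    apply card_four x p A B G D q r t hnd xp xA xB xG xD xq xr xt
    intro v h1 h2 h3 h4 h5 h6 h7 h8
    exact C.xS v (hout v h1 h2 h3 h4 h5 h6 h7 h8)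
  refine ⟨w, l1, ?_, by rw [l10, hcx], ?_, ?_⟩
  · intro v hv
    by_cases h1 : v = p
    · exact absurd (h1 ▸ mem_of_moved C.xS (by rw [xp]; exact Ne.symm h12)) hv
    by_cases h2 : v = A
    · exact absurd (h2 ▸ mem_of_moved C.xS (by rw [xA]; exact h12)) hv
    by_cases h3 : v = B
    · exact absurd (h3 ▸ mem_of_moved C.xS (by rw [xB]; exact Ne.symm h34)) hv
    by_cases h4 : v = G
    · exact absurd (h4 ▸ mem_of_moved C.xS (by rw [xG]; exact h34)) hv
    by_cases h5 : v = D
    · exact absurd (h5 ▸ mem_of_moved C.xS (by rw [xD]; exact Ne.symm h56)) hv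
    by_cases h6 : v = q
    · exact absurd (h6 ▸ mem_of_moved C.xS (by rw [xq]; exact h56)) hv
    by_cases h7 : v = r
    · exact absurd (h7 ▸ mem_of_moved C.xS (by rw [xr]; exact Ne.symm h78)) hv
    by_cases h8 : v = t
    · exact absurd (h8 ▸ mem_of_moved C.xS (by rw [xt]; exact h78)) hv
    exact wo v h1 h2 h4 h5 h3 h7 h6 h8
  · refine odd_insert₂ (x * w) 1 B t D G q r h38 h35 (Ne.symm h58) h46 h47 h67 h34
      h48 h45 h36 h37 (Ne.symm h68) (Ne.symm h78) h56 h57 rfl rfl rfl rfl ?_ ?_ ?_ ?_ ?_ ?_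
      ?_ (by simp)
    · simp only [Perm.mul_apply]; rw [wB, xr]
    · simp only [Perm.mul_apply]; rw [wt, xq]
    · simp only [Perm.mul_apply]; rw [wD, xG]; rfl
    · simp only [Perm.mul_apply]; rw [wG, xD]
    · simp only [Perm.mul_apply]; rw [wq, xt]
    · simp only [Perm.mul_apply]; rw [wr, xB]; rfl
    · intro v h1 h2 h3 h4 h5 h6
      simp only [Perm.mul_apply, Perm.one_apply]
      by_cases h7 : v = p
      · rw [h7, wp, xA]
      by_cases h8 : v = A
      · rw [h8, wA, xp]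
      rw [wo v h7 h8 h4 h3 h1 h6 h5 h2, C.xS v (hout v h7 h8 h1 h4 h3 h5 h6 h2)]
  · refine odd_insert₂ (y * w) 1 p B q A t r h13 h16 h36 h28 h27 (Ne.symm h78) h12
      h23 h26 h18 h17 h38 h37 h68 h67 rfl rfl rfl rfl ?_ ?_ ?_ ?_ ?_ ?_ ?_ (by simp)
    · simp only [Perm.mul_apply]; rw [wp, yA]
    · simp only [Perm.mul_apply]; rw [wB, yr]
    · simp only [Perm.mul_apply]; rw [wq, yt]; rfl
    · simp only [Perm.mul_apply]; rw [wA, yp]
    · simp only [Perm.mul_apply]; rw [wt, yq]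
    · simp only [Perm.mul_apply]; rw [wr, yB]; rfl
    · intro v h1 h2 h3 h4 h5 h6
      simp only [Perm.mul_apply, Perm.one_apply]
      by_cases h7 : v = G
      · rw [h7, wG, yD]
      by_cases h8 : v = D
      · rw [h8, wD, yG]
      rw [wo v h1 h4 h7 h8 h2 h6 h3 h5, C.yS v (hout v h1 h4 h2 h7 h8 h3 h6 h5)]

/-- Rule 3: shortening a long alternating cycle. -/
lemma rule3 {S : Finset α} {x y : Perm α} (IH : IHyp S) (C : Cfg S x y) {p A B G D q : α}
    (hpA : p ≠ A) (hpB : p ≠ B) (hpG : p ≠ G) (hpD : p ≠ D) (hpq : p ≠ q)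
    (hAB : A ≠ B) (hAG : A ≠ G) (hAD : A ≠ D) (hAq : A ≠ q)
    (hBG : B ≠ G) (hBD : B ≠ D) (hBq : B ≠ q)
    (hGD : G ≠ D) (hGq : G ≠ q) (hDq : D ≠ q)
    (xp : x p = A) (yA : y A = B) (xB : x B = G) (yG : y G = D) (xD : x D = q) :
    ∃ w, Sol S x y w := by
  have xA : x A = p := by rw [← xp]; exact invol C.hx p
  have yB : y B = A := by rw [← yA]; exact invol C.hy A
  have xG : x G = B := by rw [← xB]; exact invol C.hx B
  have yD : y D = G := by rw [← yG]; exact invol C.hy G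
  have xq : x q = D := by rw [← xD]; exact invol C.hx D
  have hpS : p ∈ S := mem_of_moved C.xS (by rw [xp]; exact hpA.symm)
  have hAS : A ∈ S := mem_of_moved C.xS (by rw [xA]; exact hpA)
  have hBS : B ∈ S := mem_of_moved C.xS (by rw [xB]; exact hBG.symm)
  have hGS : G ∈ S := mem_of_moved C.xS (by rw [xG]; exact hBG)
  have hDS : D ∈ S := mem_of_moved C.xS (by rw [xD]; exact hDq.symm)
  have hqS : q ∈ S := mem_of_moved C.xS (by rw [xq]; exact hDq)
  obtain ⟨x₁, a1, a2, a3, a4, a5⟩ := exists_del x p A C.hx hpA xp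
  obtain ⟨x₂, b1, b2, b3, b4, b5⟩ := exists_del x₁ B G a1 hBG (by rw [a4 B hpB.symm hAB.symm, xB])
  obtain ⟨x₀, c1, c2, c3, c4, c5⟩ := exists_del x₂ D q b1 hDq
    (by rw [b4 D hBD.symm hGD.symm, a4 D hpD.symm hAD.symm, xD])
  have x₀p : x₀ p = p := by rw [c4 p hpD hpq, b4 p hpB hpG, a2]
  have x₀q : x₀ q = q := c3
  obtain ⟨x', d1, d2, d3, d4, d5⟩ := exists_add x₀ p q hpq x₀p x₀q c1
  obtain ⟨y₂, e1, e2, e3, e4, e5⟩ := exists_del y G D C.hy hGD yG
  obtain ⟨y', f1, f2, f3, f4, f5⟩ := exists_del y₂ A B e1 hAB (by rw [e4 A hAG hAD, yA])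
  have x'A : x' A = A := by rw [d4 A hpA.symm hAq, c4 A hAD hAq, b4 A hAB hAG, a3]
  have x'B : x' B = B := by rw [d4 B hpB.symm hBq, c4 B hBD hBq, b2]
  have x'G : x' G = G := by rw [d4 G hpG.symm hGq, c4 G hGD hGq, b3]
  have x'D : x' D = D := by rw [d4 D hpD.symm hDq, c2]
  have hxo : ∀ v, v ≠ p → v ≠ A → v ≠ B → v ≠ G → v ≠ D → v ≠ q → x' v = x v := by
    intro v h1 h2 h3 h4 h5 h6
    rw [d4 v h1 h6, c4 v h5 h6, b4 v h3 h4, a4 v h1 h2]
  have y'A : y' A = A := f2
  have y'B : y' B = B := f3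
  have y'G : y' G = G := by rw [f4 G hAG.symm hBG.symm, e2]
  have y'D : y' D = D := by rw [f4 D hAD.symm hBD.symm, e3]
  have hyo : ∀ v, v ≠ A → v ≠ B → v ≠ G → v ≠ D → y' v = y v := by
    intro v h1 h2 h3 h4
    rw [f4 v h1 h2, e4 v h3 h4]
  have hmem : ∀ u, u ∉ S \ {A, B, G, D} → u ≠ A → u ≠ B → u ≠ G → u ≠ D → u ∉ S := by
    intro u hu h1 h2 h4 h5 h3
    apply hu
    simp [Finset.mem_sdiff, h1, h2, h3, h4, h5]
  have hmem2 : ∀ u, u ∈ S \ {A, B, G, D} → u ≠ A ∧ u ≠ B ∧ u ≠ G ∧ u ≠ D := by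
    intro u hu
    simp only [Finset.mem_sdiff, Finset.mem_insert, Finset.mem_singleton, not_or] at hu
    exact hu.2
  have hC : Cfg (S \ {A, B, G, D}) x' y' := by
    refine ⟨d1, f1, ?_, ?_, ?_⟩
    · intro u hu
      by_cases h1 : u = A
      · rw [h1, x'A]
      by_cases h2 : u = B
      · rw [h2, x'B]
      by_cases h3 : u = G
      · rw [h3, x'G]
      by_cases h4 : u = D
      · rw [h4, x'D]
      have h5 := hmem u hu h1 h2 h3 h4
      have h6 : u ≠ p := fun h => h5 (h ▸ hpS)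
      have h7 : u ≠ q := fun h => h5 (h ▸ hqS)
      rw [hxo u h6 h1 h2 h3 h4 h7]
      exact C.xS u h5
    · intro u hu
      by_cases h1 : u = A
      · rw [h1, y'A]
      by_cases h2 : u = B
      · rw [h2, y'B]
      by_cases h3 : u = G
      · rw [h3, y'G]
      by_cases h4 : u = D
      · rw [h4, y'D]
      rw [hyo u h1 h2 h3 h4]
      exact C.yS u (hmem u hu h1 h2 h3 h4)
    · have := C.card
      omega
  have hpS' : p ∈ S \ {A, B, G, D} := by
    simp [Finset.mem_sdiff, hpS, hpA, hpB, hpG, hpD]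
  have hqS' : q ∈ S \ {A, B, G, D} := by
    simp [Finset.mem_sdiff, hqS, hAq.symm, hBq.symm, hGq.symm, hDq.symm]
  by_cases hExc : Exc (S \ {A, B, G, D}) x' y'
  · obtain ⟨b, r, t, hP, hbS, hrS, htS, hall⟩ := C4_of_exc hC hExc hpS'
    obtain ⟨hab', hac', had', hbc', hbd', hcd', xa', xb', xc', xd', yb', yc', yd', ya'⟩ := hP
    have hbq : b = q := by rw [← xa', d2]
    subst hbq
    obtain ⟨hrA, hrB, hrG, hrD⟩ := hmem2 r hrS
    obtain ⟨htA, htB, htG, htD⟩ := hmem2 t htS
    have xr : x r = t := by rw [← xc', hxo r hac'.symm hrA hrB hrG hrD hbc'.symm]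
    have xt : x t = r := by rw [← xd', hxo t had'.symm htA htB htG htD hbd'.symm]
    have yq : y b = r := by rw [← yb', hyo b hAq.symm hBq.symm hGq.symm hDq.symm]
    have yr : y r = b := by rw [← yc', hyo r hrA hrB hrG hrD]
    have yt : y t = p := by rw [← yd', hyo t htA htB htG htD]
    have yp : y p = t := by rw [← ya', hyo p hpA hpB hpG hpD]
    refine baseC8 C (p := p) (A := A) (B := B) (G := G) (D := D) (q := b) (r := r) (t := t) ?_
      xp xA xB xG xD xq xr xt yA yB yG yD yq yr yt yp ?_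
    · simp only [List.nodup_cons, List.mem_cons, List.not_mem_nil, or_false, not_or, List.nodup_nil,
        not_false_eq_true, and_true]
      exact ⟨⟨hpA, hpB, hpG, hpD, hpq, hac', had'⟩, ⟨hAB, hAG, hAD, hAq, hrA.symm, htA.symm⟩,
        ⟨hBG, hBD, hBq, hrB.symm, htB.symm⟩, ⟨hGD, hGq, hrG.symm, htG.symm⟩,
        ⟨hDq, hrD.symm, htD.symm⟩, ⟨hbc', hbd'⟩, hcd'⟩
    · intro v hv
      by_cases h1 : v = A
      · exact Or.inr (Or.inl h1)
      by_cases h2 : v = B
      · exact Or.inr (Or.inr (Or.inl h2))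
      by_cases h3 : v = G
      · exact Or.inr (Or.inr (Or.inr (Or.inl h3)))
      by_cases h4 : v = D
      · exact Or.inr (Or.inr (Or.inr (Or.inr (Or.inl h4))))
      have h5 : v ∈ S \ {A, B, G, D} := by
        simp [Finset.mem_sdiff, hv, h1, h2, h3, h4]
      rcases hall v h5 with h | h | h | h
      · exact Or.inl h
      · exact Or.inr (Or.inr (Or.inr (Or.inr (Or.inr (Or.inl h)))))
      · exact Or.inr (Or.inr (Or.inr (Or.inr (Or.inr (Or.inr (Or.inl h))))))
      · exact Or.inr (Or.inr (Or.inr (Or.inr (Or.inr (Or.inr (Or.inr h))))))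
  · have hlt : (S \ {A, B, G, D}).card < S.card := by
      apply Finset.card_lt_card
      refine ⟨Finset.sdiff_subset, ?_⟩
      intro h
      have := h hAS
      simp at this
    obtain ⟨w', hw'⟩ := IH _ x' y' hlt hC hExc
    have hwA : w' A = A := hw'.wS A (by simp)
    have hwB : w' B = B := hw'.wS B (by simp)
    have hwG : w' G = G := hw'.wS G (by simp)
    have hwD : w' D = D := hw'.wS D (by simp)
    have hww : ∀ u, w' (w' u) = u := invol hw'.hw
    obtain ⟨w₁, g1, g2, g3, g4, g5⟩ := exists_add w' A B hAB hwA hwB hw'.hw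
    obtain ⟨w, i1, i2, i3, i4, i5⟩ := exists_add w₁ G D hGD
      (by rw [g4 G hAG.symm hBG.symm, hwG]) (by rw [g4 D hAD.symm hBD.symm, hwD]) g1
    have wA : w A = B := by rw [i4 A hAG hAD, g2]
    have wB : w B = A := by rw [i4 B hBG hBD, g3]
    have wG : w G = D := i2
    have wD : w D = G := i3
    have wo : ∀ v, v ≠ A → v ≠ B → v ≠ G → v ≠ D → w v = w' v := by
      intro v h1 h2 h3 h4
      rw [i4 v h3 h4, g4 v h1 h2]
    refine ⟨w, i1, ?_, ?_, ?_, ?_⟩
    · intro v hv
      have h1 : v ≠ A := fun h => hv (h ▸ hAS)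
      have h2 : v ≠ B := fun h => hv (h ▸ hBS)
      have h3 : v ≠ G := fun h => hv (h ▸ hGS)
      have h4 : v ≠ D := fun h => hv (h ▸ hDS)
      rw [wo v h1 h2 h3 h4]
      exact hw'.wS v (fun h => hv (Finset.mem_sdiff.mp h).1)
    · have := hw'.card
      omega
    · have hpA' : w' p ≠ A := moved_ne hwA hpA
      have hpB' : w' p ≠ B := moved_ne hwB hpB
      have hpG' : w' p ≠ G := moved_ne hwG hpG
      have hpD' : w' p ≠ D := moved_ne hwD hpD
      have hqA' : w' q ≠ A := moved_ne hwA hAq.symm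
      have hqB' : w' q ≠ B := moved_ne hwB hBq.symm
      have hqG' : w' q ≠ G := moved_ne hwG hGq.symm
      have hqD' : w' q ≠ D := moved_ne hwD hDq.symm
      refine odd_insert₂ (x * w) (x' * w') (w' p) A G (w' q) D B hpA' hpG' hAG hqD' hqB' hBD.symm
        (fun h => hpq (w'.injective h)) hqA' hqG' hpD' hpB' hAD hAB hGD hBG.symm
        ?_ ?_ ?_ ?_ ?_ ?_ ?_ ?_ ?_ ?_ ?_ hw'.oddx
      · simp only [Perm.mul_apply]; rw [hwA, x'A]
      · simp only [Perm.mul_apply]; rw [hwG, x'G]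
      · simp only [Perm.mul_apply]; rw [hwD, x'D]
      · simp only [Perm.mul_apply]; rw [hwB, x'B]
      · simp only [Perm.mul_apply]; rw [wo _ hpA' hpB' hpG' hpD', hww, xp]
      · simp only [Perm.mul_apply]; rw [wA, xB]
      · simp only [Perm.mul_apply]; rw [wG, xD, hww, d2]
      · simp only [Perm.mul_apply]; rw [wo _ hqA' hqB' hqG' hqD', hww, xq]
      · simp only [Perm.mul_apply]; rw [wD, xG]
      · simp only [Perm.mul_apply]; rw [wB, xA, hww, d3]
      · intro v h1 h2 h3 h4 h5 h6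
        simp only [Perm.mul_apply]
        rw [wo v h2 h6 h3 h5, hxo _ ?_ (moved_ne hwA h2) (moved_ne hwB h6) (moved_ne hwG h3)
          (moved_ne hwD h5) ?_]
        · intro h7
          apply h1
          rw [← h7, hww]
        · intro h7
          apply h4
          rw [← h7, hww]
    · have h1 : y * w = y₂ * w₁ := by
        apply mul_eq_of_edge yG yD e2 e3 e4 (by rw [g4 G hAG.symm hBG.symm, hwG])
          (by rw [g4 D hAD.symm hBD.symm, hwD]) i2 i3 i4
      have h2 : y₂ * w₁ = y' * w' := by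
        apply mul_eq_of_edge (a := A) (b := B) (by rw [e4 A hAG hAD, yA]) (by rw [e4 B hBG hBD, yB])
          f2 f3 f4 hwA hwB g2 g3 g4
      rw [h1, h2]
      exact hw'.oddy

/-- The induction step. -/
lemma step {S : Finset α} {x y : Perm α} (IH : IHyp S) (C : Cfg S x y) (hE : ¬ Exc S x y) :
    ∃ w, Sol S x y w := by
  by_cases h1 : ∃ v ∈ S, x v = v ∧ y v = v
  · obtain ⟨v, hv, hxv, hyv⟩ := h1
    by_cases hE1 : Exc (S.erase v) x y
    · have hC : Cfg (S.erase v) x y := by
        refine ⟨C.hx, C.hy, ?_, ?_, C.card⟩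
        · intro u hu
          by_cases h1 : u = v
          · rw [h1, hxv]
          · exact C.xS u (fun h2 => hu (Finset.mem_erase.mpr ⟨h1, h2⟩))
        · intro u hu
          by_cases h1 : u = v
          · rw [h1, hyv]
          · exact C.yS u (fun h2 => hu (Finset.mem_erase.mpr ⟨h1, h2⟩))
      have hne : (S.erase v).Nonempty := by
        rw [← Finset.card_pos, hE1.1]; omega
      obtain ⟨a, ha⟩ := hne
      obtain ⟨b, c, d, P, hb, hc, hd, hall⟩ := C4_of_exc hC hE1 ha
      refine baseF C P (Finset.ne_of_mem_erase ha).symm (Finset.ne_of_mem_erase hb).symm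
        (Finset.ne_of_mem_erase hc).symm (Finset.ne_of_mem_erase hd).symm hxv hyv hv ?_
      intro u hu
      by_cases h1 : u = v
      · exact Or.inr (Or.inr (Or.inr (Or.inr h1)))
      · rcases hall u (Finset.mem_erase.mpr ⟨h1, hu⟩) with h | h | h | h
        · exact Or.inl h
        · exact Or.inr (Or.inl h)
        · exact Or.inr (Or.inr (Or.inl h))
        · exact Or.inr (Or.inr (Or.inr (Or.inl h)))
    · exact rule1 IH C v hv hxv hyv hE1
  by_cases h2 : ∃ a, x a ≠ a ∧ x a = y a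
  · obtain ⟨a, ha, hay⟩ := h2
    set b := x a with hb
    have hxb : x b = a := invol C.hx a
    have hyb : y b = a := by rw [hay]; exact invol C.hy a
    have haS : a ∈ S := mem_of_moved C.xS ha
    have hbS : b ∈ S := closed_x C a haS
    by_cases hE2 : Exc (S \ {a, b}) x y
    · have hmem2 : ∀ u, u ∈ S \ {a, b} → u ∈ S ∧ u ≠ a ∧ u ≠ b := by
        intro u hu
        simpa only [Finset.mem_sdiff, Finset.mem_insert, Finset.mem_singleton, not_or] using hu
      have hcx : ∀ u ∈ S \ {a, b}, x u ∈ S \ {a, b} := by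
        intro u hu
        obtain ⟨h3, h4, h5⟩ := hmem2 u hu
        simp only [Finset.mem_sdiff, Finset.mem_insert, Finset.mem_singleton, not_or]
        refine ⟨closed_x C u h3, ?_, ?_⟩
        · intro h6
          apply h5
          rw [hb, ← h6, invol C.hx]
        · intro h6
          apply h4
          rw [← hxb, ← h6, invol C.hx]
      have hcy : ∀ u ∈ S \ {a, b}, y u ∈ S \ {a, b} := by
        intro u hu
        obtain ⟨h3, h4, h5⟩ := hmem2 u hu
        simp only [Finset.mem_sdiff, Finset.mem_insert, Finset.mem_singleton, not_or]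
        refine ⟨closed_y C u h3, ?_, ?_⟩
        · intro h6
          apply h5
          rw [← invol C.hy u, h6]
          exact hay.symm
        · intro h6
          apply h4
          rw [← invol C.hy u, h6, hyb]
      have hne : (S \ {a, b}).Nonempty := by
        rw [← Finset.card_pos, hE2.1]; omega
      obtain ⟨a₀, ha₀⟩ := hne
      obtain ⟨b₀, c₀, d₀, P, hb₀, hc₀, hd₀, hall⟩ := C4_of_exc' C.hx C.hy hcx hcy hE2 ha₀
      have haT : a ∈ S \ {a₀, b₀, c₀, d₀} := by
        simp only [Finset.mem_sdiff, Finset.mem_insert, Finset.mem_singleton, not_or]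
        exact ⟨haS, (hmem2 a₀ ha₀).2.1.symm, (hmem2 b₀ hb₀).2.1.symm, (hmem2 c₀ hc₀).2.1.symm,
          (hmem2 d₀ hd₀).2.1.symm⟩
      refine rule8 IH C P ?_ ⟨a, haT, ha⟩
      intro h
      exact (h.2 a haT).2.2 hay
    · refine rule2 IH C a b ha.symm rfl hay.symm ?_
      convert hE2 using 1
  by_cases h3 : ∃ a, y a = a ∧ x a ≠ a ∧ y (x a) ≠ x a
  · obtain ⟨a, h4, h5, h6⟩ := h3
    exact rule4 IH C a (x a) (y (x a)) h5.symm h6.symm rfl h4 rfl
  by_cases h3' : ∃ a, x a = a ∧ y a ≠ a ∧ x (y a) ≠ y a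
  · obtain ⟨a, h4, h5, h6⟩ := h3'
    have IH' := IH
    obtain ⟨w, hw⟩ := rule4 (x := y) (y := x) IH' C.symm a (y a) (x (y a)) h5.symm h6.symm rfl h4 rfl
    exact ⟨w, hw.symm C.symm⟩
  push Not at h1 h2 h3 h3'
  have hcard : (∃ a, x a ≠ a ∧ y a = a) ↔ (∃ c, y c ≠ c ∧ x c = c) := by
    have h5 : x.support.card = y.support.card := C.card
    constructor
    · rintro ⟨a, h6, h7⟩
      by_contra h8
      push Not at h8
      have h9 : y.support ⊂ x.support := by
        refine ⟨fun u hu => ?_, fun h10 => ?_⟩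
        · rw [Perm.mem_support] at hu ⊢
          intro h11
          exact hu (by_contra fun h12 => h8 u h12 h11)
        · have := h10 (Perm.mem_support.mpr h6)
          rw [Perm.mem_support] at this
          exact this h7
      have := Finset.card_lt_card h9
      omega
    · rintro ⟨c, h6, h7⟩
      by_contra h8
      push Not at h8
      have h9 : x.support ⊂ y.support := by
        refine ⟨fun u hu => ?_, fun h10 => ?_⟩
        · rw [Perm.mem_support] at hu ⊢
          intro h11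
          exact h8 u hu h11
        · have := h10 (Perm.mem_support.mpr h6)
          rw [Perm.mem_support] at this
          exact this h7
      have := Finset.card_lt_card h9
      omega
  by_cases h4 : ∃ a, x a ≠ a ∧ y a = a
  · obtain ⟨c, hc1, hc2⟩ := hcard.mp h4
    obtain ⟨a, ha1, ha2⟩ := h4
    set b := x a with hb
    set d := y c with hd
    have hyb : y b = b := by
      by_contra h5
      exact h5 (h3 a ha2 ha1)
    have hxd : x d = d := by
      by_contra h5
      exact h5 (h3' c hc2 hc1)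
    have hxb : x b = a := invol C.hx a
    have hyd : y d = c := invol C.hy c
    have haS : a ∈ S := mem_of_moved C.xS ha1
    have hbS : b ∈ S := closed_x C a haS
    have hcS : c ∈ S := mem_of_moved C.yS hc1
    have hdS : d ∈ S := closed_y C c hcS
    have hab : a ≠ b := ha1.symm
    have hcd : c ≠ d := hc1.symm
    by_cases hE4 : Exc (S \ {a, b, c, d}) x y
    · have hmem2 : ∀ u, u ∈ S \ {a, b, c, d} → u ∈ S ∧ u ≠ a ∧ u ≠ b ∧ u ≠ c ∧ u ≠ d := by
        intro u hu
        simpa only [Finset.mem_sdiff, Finset.mem_insert, Finset.mem_singleton, not_or] using hu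
      have hinj : ∀ (f : Perm α) (u v : α), u ≠ v → f u ≠ f v := fun f u v h h2 => h (f.injective h2)
      have hcx : ∀ u ∈ S \ {a, b, c, d}, x u ∈ S \ {a, b, c, d} := by
        intro u hu
        obtain ⟨h3', h4, h5, h6, h7⟩ := hmem2 u hu
        simp only [Finset.mem_sdiff, Finset.mem_insert, Finset.mem_singleton, not_or]
        refine ⟨closed_x C u h3', ?_, ?_, ?_, ?_⟩
        · have := hinj x u b h5; rwa [hxb] at this
        · have := hinj x u a h4; rwa [← hb] at this
        · have := hinj x u c h6; rwa [hc2] at this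
        · have := hinj x u d h7; rwa [hxd] at this
      have hcy : ∀ u ∈ S \ {a, b, c, d}, y u ∈ S \ {a, b, c, d} := by
        intro u hu
        obtain ⟨h3', h4, h5, h6, h7⟩ := hmem2 u hu
        simp only [Finset.mem_sdiff, Finset.mem_insert, Finset.mem_singleton, not_or]
        refine ⟨closed_y C u h3', ?_, ?_, ?_, ?_⟩
        · have := hinj y u a h4; rwa [ha2] at this
        · have := hinj y u b h5; rwa [hyb] at this
        · have := hinj y u d h7; rwa [hyd] at this
        · have := hinj y u c h6; rwa [← hd] at this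
      have hne : (S \ {a, b, c, d}).Nonempty := by
        rw [← Finset.card_pos, hE4.1]; omega
      obtain ⟨a₀, ha₀⟩ := hne
      obtain ⟨b₀, c₀, d₀, P, hb₀, hc₀, hd₀, hall⟩ := C4_of_exc' C.hx C.hy hcx hcy hE4 ha₀
      have haT : a ∈ S \ {a₀, b₀, c₀, d₀} := by
        simp only [Finset.mem_sdiff, Finset.mem_insert, Finset.mem_singleton, not_or]
        exact ⟨haS, (hmem2 a₀ ha₀).2.1.symm, (hmem2 b₀ hb₀).2.1.symm, (hmem2 c₀ hc₀).2.1.symm,
          (hmem2 d₀ hd₀).2.1.symm⟩
      refine rule8 IH C P ?_ ⟨a, haT, ha1⟩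
      intro h
      exact (h.2 a haT).2.1 ha2
    · exact rule5 IH C a b c d hab hcd rfl ha2 hyb rfl hc2 hxd hE4
  have h4' : ¬ ∃ c, y c ≠ c ∧ x c = c := fun h => h4 (hcard.mpr h)
  push Not at h4 h4'
  have hfree : ∀ v ∈ S, x v ≠ v ∧ y v ≠ v ∧ x v ≠ y v := by
    intro v hv
    have h5 : x v ≠ v := by
      intro h6
      have h7 : y v = v := by
        by_contra h8
        exact h4' v h8 h6
      exact h1 v hv h6 h7
    refine ⟨h5, fun h6 => h4 v h5 h6, h2 v ?_⟩
    exact h5
  by_cases h5 : ∃ p ∈ S, y (x (y (x p))) ≠ p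
  · obtain ⟨p, hp, hne⟩ := h5
    set A := x p with hA
    set B := y A with hB
    set G := x B with hG
    set D := y G with hD
    set q := x D with hq
    have hAS : A ∈ S := closed_x C p hp
    have hBS : B ∈ S := closed_y C A hAS
    have hGS : G ∈ S := closed_x C B hBS
    have hDS : D ∈ S := closed_y C G hGS
    have hqS : q ∈ S := closed_x C D hDS
    have xA : x A = p := invol C.hx p
    have yB : y B = A := invol C.hy A
    have xG : x G = B := invol C.hx B
    have yD : y D = G := invol C.hy G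
    have xq : x q = D := invol C.hx D
    have hpA : p ≠ A := (hfree p hp).1.symm
    have hAB : A ≠ B := (hfree A hAS).2.1.symm
    have hBG : B ≠ G := (hfree B hBS).1.symm
    have hGD : G ≠ D := (hfree G hGS).2.1.symm
    have hDq : D ≠ q := (hfree D hDS).1.symm
    have hpD : p ≠ D := hne.symm
    have hpB : p ≠ B := by
      intro h
      apply (hfree p hp).2.2
      have h7 : y p = A := (congrArg y h).trans yB
      exact h7.symm
    have hpG : p ≠ G := fun h => hAB (by have := congrArg x h; rwa [xG] at this)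
    have hAG : A ≠ G := fun h => hpB (by have := congrArg x h; rwa [xA, xG] at this)
    have hAD : A ≠ D := fun h => hBG (by have := congrArg y h; rwa [yD] at this)
    have hpq : p ≠ q := fun h => hAD (by have := congrArg x h; rwa [xq] at this)
    have hAq : A ≠ q := fun h => hpD (by have := congrArg x h; rwa [xA, xq] at this)
    have hBD : B ≠ D := fun h => hAG (by have := congrArg y h; rwa [yB, yD] at this)
    have hBq : B ≠ q := fun h => hGD (by have := congrArg x h; rwa [xq] at this)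
    have hGq : G ≠ q := fun h => hBD (by have := congrArg x h; rwa [xG, xq] at this)
    exact rule3 IH C hpA hpB hpG hpD hpq hAB hAG hAD hAq hBG hBD hBq hGD hGq hDq rfl rfl rfl rfl rfl
  · push Not at h5
    by_cases hSe : S.Nonempty
    · obtain ⟨a, ha⟩ := hSe
      set b := x a with hb
      set c := y b with hc
      set d := x c with hd
      have hbS : b ∈ S := closed_x C a ha
      have hcS : c ∈ S := closed_y C b hbS
      have hdS : d ∈ S := closed_x C c hcS
      have xb : x b = a := invol C.hx a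
      have yc : y c = b := invol C.hy b
      have xd : x d = c := invol C.hx c
      have hab : a ≠ b := (hfree a ha).1.symm
      have hbc : b ≠ c := (hfree b hbS).2.1.symm
      have hcd : c ≠ d := (hfree c hcS).1.symm
      have yd : y d = a := h5 a ha
      have ya : y a = d := by rw [← yd]; exact invol C.hy d
      have hac : a ≠ c := by
        intro h
        apply (hfree a ha).2.2
        have h7 : y a = b := (congrArg y h).trans yc
        exact h7.symm
      have hbd : b ≠ d := fun h => hac (by have := congrArg x h; rwa [xb, xd] at this)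
      have had : a ≠ d := fun h => hbc (by have := congrArg x h; rwa [xd] at this)
      have P : C4 x y a b c d := ⟨hab, hac, had, hbc, hbd, hcd, rfl, xb, rfl, xd, rfl, yc, yd, ya⟩
      have hmem2 : ∀ u, u ∈ S \ {a, b, c, d} → u ∈ S ∧ u ≠ a ∧ u ≠ b ∧ u ≠ c ∧ u ≠ d := by
        intro u hu
        simpa only [Finset.mem_sdiff, Finset.mem_insert, Finset.mem_singleton, not_or] using hu
      by_cases hT : (S \ {a, b, c, d}).Nonempty
      · obtain ⟨e, he⟩ := hT
        by_cases hE5 : Exc (S \ {a, b, c, d}) x y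
        · have hinj : ∀ (f : Perm α) (u v : α), u ≠ v → f u ≠ f v :=
            fun f u v h h2 => h (f.injective h2)
          have hcx : ∀ u ∈ S \ {a, b, c, d}, x u ∈ S \ {a, b, c, d} := by
            intro u hu
            obtain ⟨h3', h4', h5', h6, h7⟩ := hmem2 u hu
            simp only [Finset.mem_sdiff, Finset.mem_insert, Finset.mem_singleton, not_or]
            refine ⟨closed_x C u h3', ?_, ?_, ?_, ?_⟩
            · have := hinj x u b h5'; rwa [xb] at this
            · have := hinj x u a h4'; rwa [← hb] at this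
            · have := hinj x u d h7; rwa [xd] at this
            · have := hinj x u c h6; rwa [← hd] at this
          have hcy : ∀ u ∈ S \ {a, b, c, d}, y u ∈ S \ {a, b, c, d} := by
            intro u hu
            obtain ⟨h3', h4', h5', h6, h7⟩ := hmem2 u hu
            simp only [Finset.mem_sdiff, Finset.mem_insert, Finset.mem_singleton, not_or]
            refine ⟨closed_y C u h3', ?_, ?_, ?_, ?_⟩
            · have := hinj y u d h7; rwa [yd] at this
            · have := hinj y u c h6; rwa [yc] at this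
            · have := hinj y u b h5'; rwa [← hc] at this
            · have := hinj y u a h4'; rwa [ya] at this
          obtain ⟨f, g, k, P', hf, hg, hk, hall⟩ := C4_of_exc' C.hx C.hy hcx hcy hE5 he
          obtain ⟨-, e1, e2, e3, e4⟩ := hmem2 e he
          obtain ⟨-, f1, f2, f3, f4⟩ := hmem2 f hf
          obtain ⟨-, g1, g2, g3, g4⟩ := hmem2 g hg
          obtain ⟨-, k1, k2, k3, k4⟩ := hmem2 k hk
          refine baseCC C P P' e1 e2 e3 e4 f1 f2 f3 f4 g1 g2 g3 g4 k1 k2 k3 k4 ?_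
          intro v hv
          by_cases h6 : v = a
          · exact Or.inl h6
          by_cases h7 : v = b
          · exact Or.inr (Or.inl h7)
          by_cases h8 : v = c
          · exact Or.inr (Or.inr (Or.inl h8))
          by_cases h9 : v = d
          · exact Or.inr (Or.inr (Or.inr (Or.inl h9)))
          have h10 : v ∈ S \ {a, b, c, d} := by
            simp [Finset.mem_sdiff, hv, h6, h7, h8, h9]
          rcases hall v h10 with h | h | h | h
          · exact Or.inr (Or.inr (Or.inr (Or.inr (Or.inl h))))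
          · exact Or.inr (Or.inr (Or.inr (Or.inr (Or.inr (Or.inl h)))))
          · exact Or.inr (Or.inr (Or.inr (Or.inr (Or.inr (Or.inr (Or.inl h))))))
          · exact Or.inr (Or.inr (Or.inr (Or.inr (Or.inr (Or.inr (Or.inr h))))))
        · exact rule8 IH C P hE5 ⟨e, he, (hfree e (hmem2 e he).1).1⟩
      · exfalso
        apply hE
        refine ⟨?_, hfree⟩
        have hS : S = {a, b, c, d} := by
          apply Finset.Subset.antisymm
          · intro v hv
            by_contra h6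
            exact hT ⟨v, Finset.mem_sdiff.mpr ⟨hv, h6⟩⟩
          · intro v hv
            simp only [Finset.mem_insert, Finset.mem_singleton] at hv
            rcases hv with rfl | rfl | rfl | rfl <;> assumption
        rw [hS, Finset.card_insert_of_notMem, Finset.card_insert_of_notMem,
          Finset.card_insert_of_notMem, Finset.card_singleton]
        · simpa using hcd
        · simp [hbc, hbd]
        · simp [hab, hac, had]
    · rw [Finset.not_nonempty_iff_eq_empty] at hSe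
      have hx1 : x = 1 := by
        ext v
        exact C.xS v (by simp [hSe])
      have hy1 : y = 1 := by
        ext v
        exact C.yS v (by simp [hSe])
      refine ⟨1, by simp, fun v _ => rfl, by simp [hx1], ?_, ?_⟩
      · simp [hx1]
      · simp [hy1]

theorem claim_aux : ∀ (n : ℕ) (S : Finset α), S.card = n → ∀ x y : Perm α, Cfg S x y → ¬ Exc S x y →
    ∃ w, Sol S x y w := by
  intro n
  induction n using Nat.strong_induction_on with
  | _ n ih =>
    intro S hS x y C hE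
    exact step (fun S' x' y' hlt C' hE' => ih S'.card (hS ▸ hlt) S' rfl x' y' C' hE') C hE

/-- Two involutions with the same number of moved points are conjugate. -/
lemma isConj_of_card {u v : Perm α} (hu : u * u = 1) (hv : v * v = 1) (hu1 : u ≠ 1) 
    (hc : u.support.card = v.support.card) : IsConj u v := by
  rw [Perm.isConj_iff_cycleType_eq]
  have key : ∀ z : Perm α, z * z = 1 →
      z.cycleType = Multiset.replicate (z.support.card / 2) 2 := by
    intro z hz
    have h2 : z ^ 2 = 1 := by rw [sq, hz]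
    have h3 : ∀ b ∈ z.cycleType, b = 2 := by
      intro b hb
      have h4 : b ∣ orderOf z := Perm.dvd_of_mem_cycleType hb
      have h5 : orderOf z ∣ 2 := orderOf_dvd_of_pow_eq_one h2
      have h6 : b ∣ 2 := h4.trans h5
      have h7 : 2 ≤ b := Perm.two_le_of_mem_cycleType hb
      have h8 := Nat.le_of_dvd (by norm_num) h6
      omega
    have h9 := Multiset.eq_replicate.mpr ⟨rfl, h3⟩
    have h10 : z.support.card = 2 * Multiset.card z.cycleType := by
      rw [← Perm.sum_cycleType]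
      nth_rewrite 1 [h9]
      simp [Multiset.sum_replicate, mul_comm]
    rw [h10]
    simp only [Nat.ofNat_pos, Nat.mul_div_cancel_left]
    exact h9
  rw [key u hu, key v hv, hc]

lemma not_odd_of_sq {z : Perm α} (h : z * z = 1) (h1 : z ≠ 1) : ¬ Odd (orderOf z) := by
  have h2 : orderOf z = 2 := by
    haveI : Fact (Nat.Prime 2) := ⟨Nat.prime_two⟩
    exact orderOf_eq_prime (by rw [sq, h]) h1
  rw [h2]
  decide

/-- A commuting conjugate. -/
lemma exists_commuting (hcard : 5 ≤ Fintype.card α) (t : Perm α) (ht : t * t = 1) (ht1 : t ≠ 1) :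
    ∃ y : Perm α, y * y = 1 ∧ y.support.card = t.support.card ∧ (t * y) * (t * y) = 1 ∧ t * y ≠ 1 := by
  classical
  obtain ⟨a, ha⟩ : ∃ a, t a ≠ a := by
    by_contra h
    push Not at h
    exact ht1 (Equiv.ext h)
  set b := t a with hb
  have htb : t b = a := invol ht a
  by_cases h : ∃ c, c ≠ a ∧ c ≠ b ∧ t c ≠ c
  · obtain ⟨c, hca, hcb, hc⟩ := h
    set d := t c with hd
    have htd : t d = c := invol ht c
    have hda : d ≠ a := by
      intro h5
      apply hcb
      rw [← htd, h5]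
    have hdb : d ≠ b := by
      intro h5
      apply hca
      rw [← htd, h5, htb]
    obtain ⟨t₁, a1, a2, a3, a4, a5⟩ := exists_del t a b ht ha.symm rfl
    obtain ⟨t₂, b1, b2, b3, b4, b5⟩ := exists_del t₁ c d a1 hc.symm (by rw [a4 c hca hcb])
    have t₂a : t₂ a = a := by rw [b4 a hca.symm hda.symm, a2]
    have t₂b : t₂ b = b := by rw [b4 b hcb.symm hdb.symm, a3]
    obtain ⟨y₁, c1, c2, c3, c4, c5⟩ := exists_add t₂ a c hca.symm t₂a b2 b1
    obtain ⟨y, d1, d2, d3, d4, d5⟩ := exists_add y₁ b d hdb.symm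
      (by rw [c4 b ha hcb.symm, t₂b]) (by rw [c4 d hda hc, b3]) c1
    have ya : y a = c := by rw [d4 a ha.symm hda.symm, c2]
    have yc : y c = a := by rw [d4 c hcb hc.symm, c3]
    have yo : ∀ v, v ≠ a → v ≠ b → v ≠ c → v ≠ d → y v = t v := by
      intro v h1 h2 h3 h4
      rw [d4 v h2 h4, c4 v h1 h3, b4 v h3 h4, a4 v h1 h2]
    have za : (t * y) a = d := by
      simp only [Perm.mul_apply]; rw [ya]
    have zd : (t * y) d = a := by
      simp only [Perm.mul_apply]; rw [d3, htb]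
    have zb : (t * y) b = c := by
      simp only [Perm.mul_apply]; rw [d2, htd]
    have zc : (t * y) c = b := by
      simp only [Perm.mul_apply]; rw [yc]
    refine ⟨y, d1, by omega, ?_, ?_⟩
    · ext v
      simp only [Perm.mul_apply, Perm.one_apply]
      change (t * y) ((t * y) v) = v
      by_cases h1 : v = a
      · rw [h1, za, zd]
      by_cases h2 : v = b
      · rw [h2, zb, zc]
      by_cases h3 : v = c
      · rw [h3, zc, zb]
      by_cases h4 : v = d
      · rw [h4, zd, za]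
      have h5 : (t * y) v = v := by
        simp only [Perm.mul_apply]
        rw [yo v h1 h2 h3 h4, invol ht]
      rw [h5, h5]
    · intro h1
      have h2 := za
      rw [h1] at h2
      exact hda h2.symm
  · push Not at h
    have hfix : ∀ v, v ≠ a → v ≠ b → t v = v := fun v h1 h2 => h v h1 h2
    have hlt : 1 < ((Finset.univ : Finset α) \ {a, b}).card := by
      have h1 : ((Finset.univ : Finset α) \ {a, b}).card = Fintype.card α - ({a, b} : Finset α).card := by
        rw [Finset.card_sdiff_of_subset (Finset.subset_univ _), Finset.card_univ]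
      have h2 : ({a, b} : Finset α).card ≤ 2 := Finset.card_le_two
      omega
    obtain ⟨c, hc, d, hd, hcd⟩ := Finset.one_lt_card.mp hlt
    simp only [Finset.mem_sdiff, Finset.mem_univ, Finset.mem_insert, Finset.mem_singleton, not_or,
      true_and] at hc hd
    obtain ⟨hca, hcb⟩ := hc
    obtain ⟨hda, hdb⟩ := hd
    obtain ⟨t₁, a1, a2, a3, a4, a5⟩ := exists_del t a b ht ha.symm rfl
    have ht₁ : t₁ = 1 := by
      ext v
      by_cases h1 : v = a
      · rw [h1, a2]; rfl
      by_cases h2 : v = b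
      · rw [h2, a3]; rfl
      rw [a4 v h1 h2, hfix v h1 h2]; rfl
    obtain ⟨y, d1, d2, d3, d4, d5⟩ := exists_add 1 c d hcd rfl rfl (by simp)
    have htc : t c = c := hfix c hca hcb
    have htd : t d = d := hfix d hda hdb
    have ya : y a = a := d4 a (Ne.symm hca) (Ne.symm hda)
    have yb : y b = b := d4 b (Ne.symm hcb) (Ne.symm hdb)
    have za : (t * y) a = b := by simp only [Perm.mul_apply]; rw [ya]
    have zb : (t * y) b = a := by simp only [Perm.mul_apply]; rw [yb, htb]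
    have zc : (t * y) c = d := by simp only [Perm.mul_apply]; rw [d2, htd]
    have zd : (t * y) d = c := by simp only [Perm.mul_apply]; rw [d3, htc]
    refine ⟨y, d1, ?_, ?_, ?_⟩
    · rw [d5, a5, ht₁]
    · ext v
      simp only [Perm.mul_apply, Perm.one_apply]
      change (t * y) ((t * y) v) = v
      by_cases h1 : v = a
      · rw [h1, za, zb]
      by_cases h2 : v = b
      · rw [h2, zb, za]
      by_cases h3 : v = c
      · rw [h3, zc, zd]
      by_cases h4 : v = d
      · rw [h4, zd, zc]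
      have h5 : (t * y) v = v := by
        simp only [Perm.mul_apply]
        rw [d4 v h3 h4]
        exact hfix v h1 h2
      rw [h5, h5]
    · intro h1
      have h2 := za
      rw [h1] at h2
      exact ha h2.symm

/-- Let n ≥ 5 and let X be a conjugacy class of involutions of the symmetric group of degree n. The graph on X joining two distinct involutions whose product has odd order is connected and has diameter exactly 2. -/
theorem result (n : ℕ) (hn : 5 ≤ n) (t : Equiv.Perm (Fin n)) (ht : orderOf t = 2) :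
    (SimpleGraph.fromRel fun x y : {x : Equiv.Perm (Fin n) // IsConj t x} =>
        Odd (orderOf (x.1 * y.1))).Connected ∧
      (SimpleGraph.fromRel fun x y : {x : Equiv.Perm (Fin n) // IsConj t x} =>
        Odd (orderOf (x.1 * y.1))).diam = 2 := by
  set G := SimpleGraph.fromRel fun x y : {x : Equiv.Perm (Fin n) // IsConj t x} =>
        Odd (orderOf (x.1 * y.1)) with hG
  haveI : Nonempty {x : Equiv.Perm (Fin n) // IsConj t x} := ⟨⟨t, IsConj.refl t⟩⟩
  have htt : t * t = 1 := by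
    rw [← sq]
    have := pow_orderOf_eq_one t
    rwa [ht] at this
  have ht1 : t ≠ 1 := by
    intro h
    rw [h, orderOf_one] at ht
    omega
  have hcard : 5 ≤ Fintype.card (Fin n) := by simpa using hn
  have hconj : ∀ x : {x : Equiv.Perm (Fin n) // IsConj t x},
      x.1 * x.1 = 1 ∧ x.1.support.card = t.support.card := by
    rintro ⟨x, hx⟩
    obtain ⟨g, rfl⟩ := isConj_iff.mp hx
    refine ⟨by
      calc g * t * g⁻¹ * (g * t * g⁻¹) = g * (t * t) * g⁻¹ := by group
        _ = 1 := by rw [htt]; group, ?_⟩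
    exact Perm.card_support_conj
  have hmem : ∀ w : Equiv.Perm (Fin n), w * w = 1 → w.support.card = t.support.card → IsConj t w :=
    fun w hw hc => isConj_of_card htt hw ht1 hc.symm
  obtain ⟨y₀, hy1, hy2, hy3, hy4⟩ := exists_commuting hcard t htt ht1
  have hne0 : t ≠ y₀ := by
    intro h
    apply hy4
    rw [← h, htt]
  have hy5 : y₀ * t = (t * y₀)⁻¹ := by
    have h1 : t⁻¹ = t := inv_eq_of_mul_eq_one_left htt
    have h2 : y₀⁻¹ = y₀ := inv_eq_of_mul_eq_one_left hy1
    rw [mul_inv_rev, h1, h2]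
  refine Cfsg.Agent.Lib.GraphDiam2.connected_diam_two G ?_ ⟨t, IsConj.refl t⟩
    ⟨y₀, hmem y₀ hy1 hy2⟩ ?_ ?_
  · intro u v huv
    by_cases hadj : G.Adj u v
    · exact Or.inl hadj
    · right
      rw [hG, SimpleGraph.fromRel_adj] at hadj
      push Not at hadj
      have hodd := hadj huv
      obtain ⟨hu1, hu2⟩ := hconj u
      obtain ⟨hv1, hv2⟩ := hconj v
      have C : Cfg (Finset.univ : Finset (Fin n)) u.1 v.1 :=
        ⟨hu1, hv1, fun w hw => absurd (Finset.mem_univ w) hw, fun w hw => absurd (Finset.mem_univ w) hw,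
          hu2.trans hv2.symm⟩
      have hE : ¬ Exc (Finset.univ : Finset (Fin n)) u.1 v.1 := by
        intro h
        have h1 := h.1
        rw [Finset.card_univ, Fintype.card_fin] at h1
        omega
      obtain ⟨w, hw⟩ := claim_aux _ _ rfl _ _ C hE
      have hwX : IsConj t w := hmem w hw.hw (hw.card.trans hu2)
      refine ⟨⟨w, hwX⟩, ?_, ?_⟩
      · rw [hG, SimpleGraph.fromRel_adj]
        refine ⟨?_, Or.inl hw.oddx⟩
        intro h5
        apply hodd.2
        have h6 : u.1 = w := congrArg Subtype.val h5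
        rw [h6]
        exact hw.oddy
      · rw [hG, SimpleGraph.fromRel_adj]
        refine ⟨?_, Or.inr hw.oddy⟩
        intro h5
        apply hodd.1
        have h6 : w = v.1 := congrArg Subtype.val h5
        rw [← h6]
        exact hw.oddx
  · intro h
    exact hne0 (congrArg Subtype.val h)
  · rw [hG, SimpleGraph.fromRel_adj]
    rintro ⟨-, h | h⟩
    · exact not_odd_of_sq hy3 hy4 h
    · apply not_odd_of_sq hy3 hy4
      simp only at h
      rw [hy5, orderOf_inv] at h
      exact h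

end Cfsg.Agent.S3265
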