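import Mathlib
import Cfsg.Statements.S3266
import Cfsg.Agent.Lib.SL2Core
import Cfsg.Agent.Lib.SL2Torus
import Cfsg.Agent.Lib.GraphDiam2

set_option autoImplicit false
open Cfsg

namespace Cfsg.Agent.S3266

set_option linter.style.haveILetI false
set_option linter.unusedSectionVars false

open Cfsg.Agent.Lib.SL2Core Cfsg.Agent.Lib.SL2Torus

variable {F : Type*} [Field F]

lemma tr_mul (A B : SL2 F) : tr (A * B) =
    (A : Matrix (Fin 2) (Fin 2) F) 0 0 * (B : Matrix (Fin 2) (Fin 2) F) 0 0 +
    (A : Matrix (Fin 2) (Fin 2) F) 0 1 * (B : Matrix (Fin 2) (Fin 2) F) 1 0 +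
    (A : Matrix (Fin 2) (Fin 2) F) 1 0 * (B : Matrix (Fin 2) (Fin 2) F) 0 1 +
    (A : Matrix (Fin 2) (Fin 2) F) 1 1 * (B : Matrix (Fin 2) (Fin 2) F) 1 1 := by
  rw [tr_eq, Matrix.SpecialLinearGroup.coe_mul, mul2, mul2]
  ring

/-- A non-central element with central square has trace zero. -/
lemma tr_zero_of_sq (A : SL2 F) (h : A * A ∈ Subgroup.center (SL2 F))
    (hA : A ∉ Subgroup.center (SL2 F)) : tr A = 0 := by
  rw [mem_center_iff'] at h hA
  simp only [Matrix.SpecialLinearGroup.coe_mul, mul2] at h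
  obtain ⟨h1, h2, h3⟩ := h
  rw [tr_eq]
  by_contra hne
  apply hA
  set a := (A : Matrix (Fin 2) (Fin 2) F) 0 0
  set b := (A : Matrix (Fin 2) (Fin 2) F) 0 1
  set c := (A : Matrix (Fin 2) (Fin 2) F) 1 0
  set d := (A : Matrix (Fin 2) (Fin 2) F) 1 1
  have hb : b = 0 := by
    have : (a + d) * b = 0 := by linear_combination h1
    exact (mul_eq_zero.mp this).resolve_left hne
  have hc : c = 0 := by
    have : (a + d) * c = 0 := by linear_combination h2
    exact (mul_eq_zero.mp this).resolve_left hne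
  refine ⟨hb, hc, ?_⟩
  have : (a + d) * (a - d) = 0 := by linear_combination h3
  have := (mul_eq_zero.mp this).resolve_left hne
  linear_combination this

/-- Square of a trace zero element is central. -/
lemma sq_mem_center (A : SL2 F) (h : tr A = 0) : A * A ∈ Subgroup.center (SL2 F) := by
  rw [tr_eq] at h
  rw [mem_center_iff']
  simp only [Matrix.SpecialLinearGroup.coe_mul, mul2]
  set a := (A : Matrix (Fin 2) (Fin 2) F) 0 0
  set b := (A : Matrix (Fin 2) (Fin 2) F) 0 1
  set c := (A : Matrix (Fin 2) (Fin 2) F) 1 0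
  set d := (A : Matrix (Fin 2) (Fin 2) F) 1 1
  refine ⟨by linear_combination b * h, by linear_combination c * h, ?_⟩
  linear_combination (a - d) * h

lemma orderOf_proj_of_tr_zero (A : SL2 F) (h : tr A = 0) (hc : A ∉ Subgroup.center (SL2 F)) :
    orderOf (proj A) = 2 := by
  haveI : Fact (Nat.Prime 2) := ⟨Nat.prime_two⟩
  apply orderOf_eq_prime
  · rw [sq, ← map_mul, proj_eq_one_iff]
    exact sq_mem_center A h
  · rw [Ne, proj_eq_one_iff]
    exact hc

lemma exists_lift (x : PSL2 F) (hx : orderOf x = 2) :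
    ∃ X : SL2 F, proj X = x ∧ tr X = 0 ∧ X ∉ Subgroup.center (SL2 F) := by
  obtain ⟨X, rfl⟩ := proj_surjective x
  have hc : X ∉ Subgroup.center (SL2 F) := by
    intro h
    have : proj X = 1 := (proj_eq_one_iff X).mpr h
    rw [this, orderOf_one] at hx
    omega
  refine ⟨X, rfl, tr_zero_of_sq X ?_ hc, hc⟩
  rw [← proj_eq_one_iff, map_mul, ← sq]
  have := pow_orderOf_eq_one (proj X)
  rwa [hx] at this

lemma odd_of_pow {G : Type*} [Monoid G] (x : G) (n : ℕ) (hn : Odd n) (h : x ^ n = 1) :
    Odd (orderOf x) :=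
  Odd.of_dvd_nat hn (orderOf_dvd_of_pow_eq_one h)

variable [Fintype F]

lemma odd_char_two (hc : ringChar F = 2) (A : SL2 F) (h : tr A ≠ 0) :
    Odd (orderOf (proj A)) := by
  have h2 : (2 : F) = 0 := by
    have := ringChar.Nat.cast_ringChar (R := F)
    rw [hc] at this
    exact_mod_cast this
  have h4 : tr A * tr A ≠ 4 := by
    have : (4 : F) = 0 := by
      have : (4 : F) = 2 * 2 := by norm_num
      rw [this, h2, zero_mul]
    rw [this]
    exact mul_ne_zero h h
  have hq := FiniteField.even_card_of_char_two hc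
  set q := Fintype.card F with hqd
  have hq1 : 1 ≤ q := Fintype.card_pos
  by_cases hroot : ∃ l : F, l * l - tr A * l + 1 = 0
  · obtain ⟨l, hl⟩ := hroot
    have h5 := proj_pow_of_split A l hl h4
    have h6 : Nat.gcd 2 (q - 1) = 1 := by
      have : Nat.Coprime 2 (q - 1) := by
        rw [Nat.coprime_two_left]
        rw [Nat.odd_iff]; omega
      exact this
    rw [h6, Nat.div_one] at h5
    exact odd_of_pow _ _ (by rw [Nat.odd_iff]; omega) h5
  · push Not at hroot
    have h5 := proj_pow_of_nonsplit A hroot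
    have h6 : Nat.gcd 2 (q + 1) = 1 := by
      have : Nat.Coprime 2 (q + 1) := by
        rw [Nat.coprime_two_left]
        rw [Nat.odd_iff]; omega
      exact this
    rw [h6, Nat.div_one] at h5
    exact odd_of_pow _ _ (by rw [Nat.odd_iff]; omega) h5

lemma odd_parabolic (hc : ringChar F ≠ 2) (A : SL2 F) (h : tr A * tr A = 4) :
    Odd (orderOf (proj A)) := by
  set p := ringChar F with hp
  haveI : CharP F p := ringChar.charP F
  haveI : Fact p.Prime := ⟨CharP.char_is_prime F p⟩
  exact odd_of_pow _ p (Nat.Prime.odd_of_ne_two Fact.out hc) (proj_pow_of_parabolic p A h)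

lemma ringChar_ne_of_three (h3 : Fintype.card F % 4 = 3) : ringChar F ≠ 2 := by
  intro hc
  have := FiniteField.even_card_of_char_two hc
  omega

lemma odd_split (h3 : Fintype.card F % 4 = 3) (A : SL2 F) (l : F)
    (hl : l * l - tr A * l + 1 = 0) : Odd (orderOf (proj A)) := by
  by_cases h4 : tr A * tr A = 4
  · exact odd_parabolic (ringChar_ne_of_three h3) A h4
  · have h5 := proj_pow_of_split A l hl h4
    set q := Fintype.card F with hqd
    have h6 : Nat.gcd 2 (q - 1) = 2 := by
      apply Nat.gcd_eq_left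
      omega
    rw [h6] at h5
    refine odd_of_pow _ _ ?_ h5
    rw [Nat.odd_iff]
    omega

/-- Constructing a third involution with prescribed traces. -/
lemma exists_W (X Y : SL2 F) (hX : tr X = 0) (hY : tr Y = 0) (s p r g : F)
    (hs : tr (X * Y) = -2 * s) (hs1 : 1 - s * s ≠ 0)
    (hg : g * g = 1 - s * s - p * p - r * r + 2 * s * p * r) :
    ∃ W : SL2 F, tr W = 0 ∧ tr (W * X) = -2 * p ∧ tr (W * Y) = -2 * r := by
  rw [tr_mul] at hs
  rw [tr_eq] at hX hY
  have hdX := det_entries X
  have hdY := det_entries Y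
  set a := (X : Matrix (Fin 2) (Fin 2) F) 0 0
  set b := (X : Matrix (Fin 2) (Fin 2) F) 0 1
  set c := (X : Matrix (Fin 2) (Fin 2) F) 1 0
  set d := (X : Matrix (Fin 2) (Fin 2) F) 1 1
  set e := (Y : Matrix (Fin 2) (Fin 2) F) 0 0
  set f := (Y : Matrix (Fin 2) (Fin 2) F) 0 1
  set h := (Y : Matrix (Fin 2) (Fin 2) F) 1 0
  set k := (Y : Matrix (Fin 2) (Fin 2) F) 1 1
  have hd : d = -a := by linear_combination hX
  have hk : k = -e := by linear_combination hY
  have hdX' : -(a * a) - b * c = 1 := by rw [hd] at hdX; linear_combination hdX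
  have hdY' : -(e * e) - f * h = 1 := by rw [hk] at hdY; linear_combination hdY
  have hs' : 2 * (a * e) + b * h + c * f = -2 * s := by
    rw [hd, hk] at hs; linear_combination hs
  set n1 := a * e + b * h + s with hn1
  set n2 := a * f - b * e with hn2
  set n3 := c * e - a * h with hn3
  have hQN : -(n1 * n1) - n2 * n3 = 1 - s * s := by
    rw [hn1, hn2, hn3]
    linear_combination (-(a * e + b * h)) * hs' + (-(e * e) - f * h) * hdX' + hdY'
  have hXN : -(2 * (a * n1)) - b * n3 - c * n2 = 0 := by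
    rw [hn1, hn2, hn3]
    linear_combination (-a) * hs'
  have hYN : -(2 * (e * n1)) - f * n3 - h * n2 = 0 := by
    rw [hn1, hn2, hn3]
    linear_combination (-e) * hs'
  obtain ⟨κ, hκ⟩ : ∃ κ : F, κ * (1 - s * s) = 1 := ⟨(1 - s * s)⁻¹, inv_mul_cancel₀ hs1⟩
  set α := κ * (p - s * r) with hα
  set β := κ * (r - s * p) with hβ
  set γ := κ * g with hγ
  set U1 := α * a + β * e + γ * n1 with hU1
  set U2 := α * b + β * f + γ * n2 with hU2
  set U3 := α * c + β * h + γ * n3 with hU3
  have hdet : U1 * (-U1) - U2 * U3 = 1 := by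
    have h1 : U1 * (-U1) - U2 * U3 = α * α + β * β + γ * γ * (1 - s * s) + 2 * s * (α * β) := by
      rw [hU1, hU2, hU3]
      linear_combination (α * α) * hdX' + (β * β) * hdY' + (γ * γ) * hQN + (α * β) * (-hs') +
        (α * γ) * hXN + (β * γ) * hYN
    rw [h1, hα, hβ, hγ]
    linear_combination (κ * κ * (1 - s * s)) * hg + (κ * (1 - s * s) + 1) * hκ
  refine ⟨mk2 U1 U2 U3 (-U1) hdet, ?_, ?_, ?_⟩
  · rw [tr_eq]
    simp only [mk00, mk11]
    ring
  · rw [tr_mul]
    simp only [mk00, mk01, mk10, mk11]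
    have : U1 * a + U2 * c + U3 * b + -U1 * d =
        α * (2 * (a * a) + 2 * (b * c)) + β * (2 * (a * e) + b * h + c * f) -
        γ * (-(2 * (a * n1)) - b * n3 - c * n2) := by
      rw [hd, hU1, hU2, hU3]
      ring
    rw [this, hXN, hs']
    have h3 : 2 * (a * a) + 2 * (b * c) = -2 := by linear_combination -2 * hdX'
    rw [h3, hα, hβ]
    linear_combination (-2 * p) * hκ
  · rw [tr_mul]
    simp only [mk00, mk01, mk10, mk11]
    have : U1 * e + U2 * h + U3 * f + -U1 * k =
        α * (2 * (a * e) + b * h + c * f) + β * (2 * (e * e) + 2 * (f * h)) -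
        γ * (-(2 * (e * n1)) - f * n3 - h * n2) := by
      rw [hk, hU1, hU2, hU3]
      ring
    rw [this, hYN, hs']
    have h3 : 2 * (e * e) + 2 * (f * h) = -2 := by linear_combination -2 * hdY'
    rw [h3, hα, hβ]
    linear_combination (-2 * r) * hκ

/-- Squareness of products. -/
lemma isSquare_mul_iff (a b : F) (ha : a ≠ 0) (hb : b ≠ 0) :
    IsSquare (a * b) ↔ (IsSquare a ↔ IsSquare b) := by
  classical
  have hab : a * b ≠ 0 := mul_ne_zero ha hb
  rw [← quadraticChar_one_iff_isSquare hab, map_mul, ← quadraticChar_one_iff_isSquare ha,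
    ← quadraticChar_one_iff_isSquare hb]
  rcases quadraticChar_dichotomy ha with h1 | h1 <;> rcases quadraticChar_dichotomy hb with h2 | h2 <;>
    simp [h1, h2]

/-- The quadratic polynomial. -/
def PP (s A : F) : F := A * A - 2 * s * A + 1

lemma exists_AB (h3 : Fintype.card F % 4 = 3) (h4 : 4 ≤ Fintype.card F) (s : F)
    (hs : ¬ IsSquare (s * s - 1)) :
    ∃ A B : F, A ≠ 0 ∧ B ≠ 0 ∧ IsSquare (A * B) ∧ ¬ IsSquare (PP s A * PP s B) := by
  classical
  by_contra H
  push Not at H
  have hneg : ¬ IsSquare (-1 : F) := by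
    rw [FiniteField.isSquare_neg_one_iff]
    simpa using h3
  have h2ne : (2 : F) ≠ 0 := Ring.two_ne_zero (ringChar_ne_of_three h3)
  have hne1 : s * s - 1 ≠ 0 := by
    intro h
    apply hs
    rw [h]
    exact IsSquare.zero
  have hneg1 : (-1 : F) ≠ 0 := neg_ne_zero.mpr one_ne_zero
  have hP : ∀ A, PP s A ≠ 0 := by
    intro A hA
    apply hs
    refine ⟨A - s, ?_⟩
    unfold PP at hA
    linear_combination -hA
  -- `1 - s^2` is a nonzero square
  have hd : IsSquare (1 - s * s) := by
    have h5 : IsSquare ((-1 : F) * (s * s - 1)) := by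
      rw [isSquare_mul_iff _ _ hneg1 hne1]
      exact iff_of_false hneg hs
    convert h5 using 1
    ring
  obtain ⟨e, he⟩ := hd
  have he0 : e ≠ 0 := by
    rintro rfl
    apply hne1
    linear_combination -he
  -- `P(1) P(-1)` is a square
  have hP1 : IsSquare (PP s 1 * PP s (-1)) := by
    refine ⟨2 * e, ?_⟩
    unfold PP
    linear_combination 4 * he
  have hP1' : IsSquare (PP s 1) ↔ IsSquare (PP s (-1)) :=
    (isSquare_mul_iff _ _ (hP _) (hP _)).mp hP1
  -- all values have the same squareness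
  have hall : ∀ A : F, A ≠ 0 → (IsSquare (PP s A) ↔ IsSquare (PP s 1)) := by
    intro A hA
    by_cases hAs : IsSquare A
    · exact (isSquare_mul_iff _ _ (hP _) (hP _)).mp (H A 1 hA one_ne_zero (by simpa using hAs))
    · have h6 : IsSquare (A * (-1)) := by
        rw [isSquare_mul_iff _ _ hA hneg1]
        exact iff_of_false hAs hneg
      have h7 := (isSquare_mul_iff _ _ (hP _) (hP _)).mp (H A (-1) hA hneg1 h6)
      exact h7.trans hP1'.symm
  -- some value is a square
  have hsome : ∃ A : F, A ≠ 0 ∧ IsSquare (PP s A) := by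
    by_cases hs0 : s = 0
    · obtain ⟨κ, hκ⟩ : ∃ κ : F, κ ∉ ({0, 1, -1} : Finset F) := by
        by_contra hall
        push Not at hall
        have h5 : (Finset.univ : Finset F) ⊆ {0, 1, -1} := fun x _ => hall x
        have h6 := Finset.card_le_card h5
        rw [Finset.card_univ] at h6
        have h7 : ({0, 1, -1} : Finset F).card ≤ 3 := Finset.card_le_three
        omega
      simp only [Finset.mem_insert, Finset.mem_singleton, not_or] at hκ
      obtain ⟨h01, h02, h03⟩ := hκ
      refine ⟨(κ⁻¹ - κ) / 2, ?_, (κ⁻¹ + κ) / 2, ?_⟩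
      · intro h5
        have h6 : κ⁻¹ = κ := by
          have := (div_eq_zero_iff.mp h5).resolve_right h2ne
          exact sub_eq_zero.mp this
        have h7 : κ * κ = 1 := by
          nth_rewrite 1 [← h6]
          exact inv_mul_cancel₀ h01
        rcases mul_self_eq_one_iff.mp h7 with h8 | h8
        · exact h02 h8
        · exact h03 h8
      · unfold PP
        rw [hs0]
        field_simp
        ring
    · exact ⟨s, hs0, e, by unfold PP; linear_combination he⟩
  obtain ⟨A₀, hA₀, hA₀s⟩ := hsome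
  have hP1s : IsSquare (PP s 1) := (hall A₀ hA₀).mp hA₀s
  have hall2 : ∀ A : F, IsSquare (PP s A) := by
    intro A
    by_cases hA : A = 0
    · rw [hA]
      unfold PP
      simp
    · exact (hall A hA).mpr hP1s
  -- hence `t^2 + 1` is always a square
  have ht : ∀ t : F, IsSquare (t * t + 1) := by
    intro t
    obtain ⟨m, hm⟩ := hall2 (s + t * e)
    refine ⟨m / e, ?_⟩
    unfold PP at hm
    field_simp
    linear_combination hm - he
  have hn : ∀ n : ℕ, IsSquare ((n : ℕ) : F) := by
    intro n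
    induction n with
    | zero => simp
    | succ n ih =>
      obtain ⟨t, ht'⟩ := ih
      rw [Nat.cast_succ, ht']
      exact ht t
  apply hneg
  have h8 : ((Fintype.card F - 1 : ℕ) : F) = -1 := by
    rw [Nat.cast_sub Fintype.card_pos, FiniteField.cast_card_eq_zero]
    simp
  rw [← h8]
  exact hn _

/-- The case `q ≡ 3 (mod 4)`, no root. -/
lemma exists_W_three (h3 : Fintype.card F % 4 = 3) (h4 : 4 ≤ Fintype.card F) (X Y : SL2 F)
    (hX : tr X = 0) (hY : tr Y = 0)
    (hroot : ∀ l : F, l * l - tr (X * Y) * l + 1 ≠ 0) :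
    ∃ W : SL2 F, tr W = 0 ∧ Odd (orderOf (proj (W * X))) ∧ Odd (orderOf (proj (W * Y))) := by
  have h2ne : (2 : F) ≠ 0 := Ring.two_ne_zero (ringChar_ne_of_three h3)
  have hneg : ¬ IsSquare (-1 : F) := by
    rw [FiniteField.isSquare_neg_one_iff]
    simpa using h3
  set s := - tr (X * Y) / 2 with hsdef
  have hτ : tr (X * Y) = -2 * s := by
    rw [hsdef]; field_simp
  have hs : ¬ IsSquare (s * s - 1) := by
    rintro ⟨m, hm⟩
    apply hroot (-s + m)
    rw [hτ]
    linear_combination -hm
  have hs1 : 1 - s * s ≠ 0 := by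
    intro h
    apply hs
    have : s * s - 1 = 0 := by linear_combination -h
    rw [this]
    exact IsSquare.zero
  obtain ⟨A, B, hA, hB, ⟨u, hu⟩, hAB⟩ := exists_AB h3 h4 s hs
  have hu0 : u ≠ 0 := by
    rintro rfl
    rw [mul_zero] at hu
    exact (mul_ne_zero hA hB) hu
  have hP : ∀ A', PP s A' ≠ 0 := by
    intro A' hA'
    apply hs
    refine ⟨A' - s, ?_⟩
    unfold PP at hA'
    linear_combination -hA'
  have hneg1 : (-1 : F) ≠ 0 := neg_ne_zero.mpr one_ne_zero
  obtain ⟨m, hm⟩ : IsSquare ((-1 : F) * (PP s A * PP s B)) := by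
    rw [isSquare_mul_iff _ _ hneg1 (mul_ne_zero (hP _) (hP _))]
    exact iff_of_false hneg hAB
  set v := A / u with hv
  have hv0 : v ≠ 0 := div_ne_zero hA hu0
  have hAeq : A = u * v := by rw [hv]; field_simp
  have hBeq : B = u / v := by
    rw [hv]
    field_simp
    linear_combination hu
  set p := (u + u⁻¹) / 2 with hp
  set r := (v + v⁻¹) / 2 with hr
  set g := m / (2 * u) with hgd
  have hg : g * g = 1 - s * s - p * p - r * r + 2 * s * p * r := by
    have h5 : (2 * u) * (2 * u) * (1 - s * s - p * p - r * r + 2 * s * p * r) =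
        (-1 : F) * (PP s A * PP s B) := by
      rw [hAeq, hBeq, hp, hr]
      unfold PP
      field_simp
      ring
    rw [hm] at h5
    have h6 : (2 * u) ≠ 0 := mul_ne_zero h2ne hu0
    rw [hgd]
    field_simp
    linear_combination -h5
  obtain ⟨W, hW0, hW1, hW2⟩ := exists_W X Y hX hY s p r g hτ hs1 hg
  refine ⟨W, hW0, ?_, ?_⟩
  · apply odd_split h3 _ (-u)
    rw [hW1, hp]
    field_simp
    ring
  · apply odd_split h3 _ (-v)
    rw [hW2, hr]
    field_simp
    ring

/-- The case `q ≢ 3 (mod 4)`, odd. -/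
lemma exists_W_one (hc : ringChar F ≠ 2) (h3 : Fintype.card F % 4 ≠ 3) (X Y : SL2 F)
    (hX : tr X = 0) (hY : tr Y = 0) (hXY : tr (X * Y) * tr (X * Y) ≠ 4) :
    ∃ W : SL2 F, tr W = 0 ∧ Odd (orderOf (proj (W * X))) ∧ Odd (orderOf (proj (W * Y))) := by
  have h2ne : (2 : F) ≠ 0 := Ring.two_ne_zero hc
  obtain ⟨ι, hι⟩ : IsSquare (-1 : F) := by
    rw [FiniteField.isSquare_neg_one_iff]
    exact h3
  set s := - tr (X * Y) / 2 with hsdef
  have hτ : tr (X * Y) = -2 * s := by
    rw [hsdef]; field_simp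
  have hs1 : 1 - s * s ≠ 0 := by
    intro h
    apply hXY
    rw [hτ]
    linear_combination -4 * h
  obtain ⟨W, hW0, hW1, hW2⟩ := exists_W X Y hX hY s 1 1 (ι * (1 - s)) hτ hs1 (by
    linear_combination (-(1 - s) * (1 - s)) * hι)
  refine ⟨W, hW0, ?_, ?_⟩
  · apply odd_parabolic hc
    rw [hW1]; ring
  · apply odd_parabolic hc
    rw [hW2]; ring

/-- Characteristic two. -/
lemma exists_W_two (hc : ringChar F = 2) (X Y : SL2 F)
    (hX : tr X = 0) (hY : tr Y = 0) (hXc : X ∉ Subgroup.center (SL2 F))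
    (hYc : Y ∉ Subgroup.center (SL2 F)) :
    ∃ W : SL2 F, tr W = 0 ∧ W ∉ Subgroup.center (SL2 F) ∧
      Odd (orderOf (proj (W * X))) ∧ Odd (orderOf (proj (W * Y))) := by
  have h2 : (2 : F) = 0 := by
    have := ringChar.Nat.cast_ringChar (R := F)
    rw [hc] at this
    exact_mod_cast this
  have hne : ∀ x : F, -x = x := by
    intro x
    linear_combination (-x) * h2
  rw [tr_eq] at hX hY
  rw [mem_center_iff'] at hXc hYc
  set a := (X : Matrix (Fin 2) (Fin 2) F) 0 0
  set b := (X : Matrix (Fin 2) (Fin 2) F) 0 1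
  set c := (X : Matrix (Fin 2) (Fin 2) F) 1 0
  set d := (X : Matrix (Fin 2) (Fin 2) F) 1 1
  set a' := (Y : Matrix (Fin 2) (Fin 2) F) 0 0
  set b' := (Y : Matrix (Fin 2) (Fin 2) F) 0 1
  set c' := (Y : Matrix (Fin 2) (Fin 2) F) 1 0
  set d' := (Y : Matrix (Fin 2) (Fin 2) F) 1 1
  have hbc : ∃ f g : F, f * c + g * b ≠ 0 := by
    by_cases hb : b = 0
    · by_cases hc' : c = 0
      · exact absurd ⟨hb, hc', by linear_combination hX - d * h2⟩ hXc
      · exact ⟨1, 0, by simpa using hc'⟩
    · exact ⟨0, 1, by simpa using hb⟩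
  have hbc' : ∃ f g : F, f * c' + g * b' ≠ 0 := by
    by_cases hb : b' = 0
    · by_cases hc' : c' = 0
      · exact absurd ⟨hb, hc', by linear_combination hY - d' * h2⟩ hYc
      · exact ⟨1, 0, by simpa using hc'⟩
    · exact ⟨0, 1, by simpa using hb⟩
  obtain ⟨f₁, g₁, h₁⟩ := hbc
  obtain ⟨f₂, g₂, h₂⟩ := hbc'
  obtain ⟨f, g, hfg1, hfg2⟩ : ∃ f g : F, f * c + g * b ≠ 0 ∧ f * c' + g * b' ≠ 0 := by
    by_cases h5 : f₁ * c' + g₁ * b' = 0
    · by_cases h6 : f₂ * c + g₂ * b = 0
      · refine ⟨f₁ + f₂, g₁ + g₂, ?_, ?_⟩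
        · intro h7
          apply h₁
          linear_combination h7 - h6
        · intro h7
          apply h₂
          linear_combination h7 - h5
      · exact ⟨f₂, g₂, h6, h₂⟩
    · exact ⟨f₁, g₁, h₁, h5⟩
  obtain ⟨e, he⟩ := FiniteField.isSquare_of_char_two hc (1 + f * g)
  have hdet : e * (-e) - f * g = 1 := by
    have h7 : -e = e := hne e
    rw [h7]
    linear_combination -he
  set W : SL2 F := mk2 e f g (-e) hdet with hW
  have htrX : tr (W * X) ≠ 0 := by
    rw [tr_mul, hW]
    simp only [mk00, mk01, mk10, mk11]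
    intro h7
    apply hfg1
    have hd : d = -a := by linear_combination hX
    have h8 : e * a + f * c + g * b + -e * d = 0 := h7
    rw [hd] at h8
    linear_combination h8 - (e * a) * h2
  have htrY : tr (W * Y) ≠ 0 := by
    rw [tr_mul, hW]
    simp only [mk00, mk01, mk10, mk11]
    intro h7
    apply hfg2
    have hd : d' = -a' := by linear_combination hY
    have h8 : e * a' + f * c' + g * b' + -e * d' = 0 := h7
    rw [hd] at h8
    linear_combination h8 - (e * a') * h2
  refine ⟨W, ?_, ?_, odd_char_two hc _ htrX, odd_char_two hc _ htrY⟩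
  · rw [tr_eq, hW]
    simp only [mk00, mk11]
    ring
  · intro h7
    rcases center_eq W h7 with h8 | h8
    · apply htrX
      rw [h8, one_mul, tr_eq]
      exact hX
    · apply htrX
      rw [h8, tr_mul]
      simp only [negS_coe]
      simp
      linear_combination -hX

/-- The dichotomy for lifts. -/
lemma main_lift (h4 : 4 ≤ Fintype.card F) (X Y : SL2 F)
    (hX : tr X = 0) (hY : tr Y = 0) (hXc : X ∉ Subgroup.center (SL2 F))
    (hYc : Y ∉ Subgroup.center (SL2 F)) :
    Odd (orderOf (proj (X * Y))) ∨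
    ∃ W : SL2 F, tr W = 0 ∧ W ∉ Subgroup.center (SL2 F) ∧
      Odd (orderOf (proj (W * X))) ∧ Odd (orderOf (proj (W * Y))) := by
  by_cases hc : ringChar F = 2
  · exact Or.inr (exists_W_two hc X Y hX hY hXc hYc)
  have h2ne : (2 : F) ≠ 0 := Ring.two_ne_zero hc
  have hnc : ∀ W : SL2 F, tr W = 0 → W ∉ Subgroup.center (SL2 F) := by
    intro W hW h5
    have := central_tr W h5
    rw [hW] at this
    have h6 : (2 : F) * 2 = 0 := by linear_combination -this
    exact (mul_ne_zero h2ne h2ne) h6
  by_cases hXY : tr (X * Y) * tr (X * Y) = 4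
  · exact Or.inl (odd_parabolic hc _ hXY)
  by_cases h3 : Fintype.card F % 4 = 3
  · by_cases hroot : ∃ l : F, l * l - tr (X * Y) * l + 1 = 0
    · obtain ⟨l, hl⟩ := hroot
      exact Or.inl (odd_split h3 _ l hl)
    · push Not at hroot
      obtain ⟨W, h5, h6, h7⟩ := exists_W_three h3 h4 X Y hX hY hroot
      exact Or.inr ⟨W, h5, hnc W h5, h6, h7⟩
  · obtain ⟨W, h5, h6, h7⟩ := exists_W_one hc h3 X Y hX hY hXY
    exact Or.inr ⟨W, h5, hnc W h5, h6, h7⟩

/-- Involutions with product of odd order are conjugate. -/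
lemma isConj_of_odd {G : Type*} [Group G] (a b : G) (ha : a * a = 1) (hb : b * b = 1)
    (h : Odd (orderOf (a * b))) : IsConj a b := by
  obtain ⟨k, hk⟩ := h
  set y := a * b with hy
  have hpow : y ^ (2 * k + 1) = 1 := by
    rw [← hk]; exact pow_orderOf_eq_one y
  have ha' : a⁻¹ = a := inv_eq_of_mul_eq_one_left ha
  have hb' : b⁻¹ = b := inv_eq_of_mul_eq_one_left hb
  have hinv : ∀ n : ℕ, a * y ^ n * a = (y ^ n)⁻¹ := by
    intro n
    have h1 : a * y * a = y⁻¹ := by
      rw [hy, mul_inv_rev, ha', hb']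
      calc a * (a * b) * a = (a * a) * b * a := by group
        _ = b * a := by rw [ha, one_mul]
    have h2 : a * y ^ n * a⁻¹ = (a * y * a⁻¹) ^ n := by
      simp [conj_pow]
    rw [ha'] at h2
    rw [h2, h1, inv_pow]
  rw [isConj_iff]
  refine ⟨y ^ k, ?_⟩
  have h3 : y ^ k * a = a * (y ^ k)⁻¹ := by
    have h4 := hinv k
    calc y ^ k * a = a * (a * y ^ k * a) := by
          rw [← mul_assoc, ← mul_assoc, ha, one_mul]
      _ = a * (y ^ k)⁻¹ := by rw [h4]
  rw [h3]
  have h5 : y ^ k * y ^ k * y = 1 := by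
    rw [← pow_add, ← pow_succ, ← hpow]
    congr 1
    ring
  have h6 : (y ^ k)⁻¹ * (y ^ k)⁻¹ = y := by
    have h7 : y ^ k * y ^ k = y⁻¹ := eq_inv_of_mul_eq_one_left h5
    calc (y ^ k)⁻¹ * (y ^ k)⁻¹ = (y ^ k * y ^ k)⁻¹ := by group
      _ = y := by rw [h7, inv_inv]
  calc a * (y ^ k)⁻¹ * (y ^ k)⁻¹ = a * ((y ^ k)⁻¹ * (y ^ k)⁻¹) := by group
    _ = a * y := by rw [h6]
    _ = b := by rw [hy, ← mul_assoc, ha, one_mul]

lemma order_conj {G : Type*} [Group G] (a g : G) : orderOf (g * a * g⁻¹) = orderOf a := by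
  have h := orderOf_injective (MulAut.conj g).toMonoidHom (MulAut.conj g).injective a
  simpa [MulAut.conj_apply] using h

/-- The dichotomy in `PSL₂`. -/
lemma main_psl (h4 : 4 ≤ Fintype.card F) (x y : PSL2 F) (hx : orderOf x = 2)
    (hy : orderOf y = 2) :
    Odd (orderOf (x * y)) ∨
    ∃ w : PSL2 F, orderOf w = 2 ∧ Odd (orderOf (w * x)) ∧ Odd (orderOf (w * y)) := by
  obtain ⟨X, rfl, hX, hXc⟩ := exists_lift x hx
  obtain ⟨Y, rfl, hY, hYc⟩ := exists_lift y hy
  rcases main_lift h4 X Y hX hY hXc hYc with h | ⟨W, h1, h2, h3, h5⟩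
  · left
    rwa [← map_mul]
  · right
    refine ⟨proj W, orderOf_proj_of_tr_zero W h1 h2, ?_, ?_⟩
    · rwa [← map_mul]
    · rwa [← map_mul]

lemma mul_self_of_order_two {G : Type*} [Group G] (x : G) (hx : orderOf x = 2) : x * x = 1 := by
  rw [← sq]
  have := pow_orderOf_eq_one x
  rwa [hx] at this

lemma all_conj (h4 : 4 ≤ Fintype.card F) (x y : PSL2 F) (hx : orderOf x = 2)
    (hy : orderOf y = 2) : IsConj x y := by
  rcases main_psl h4 x y hx hy with h | ⟨w, h1, h2, h3⟩
  · exact isConj_of_odd x y (mul_self_of_order_two x hx) (mul_self_of_order_two y hy) h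
  · have h5 := isConj_of_odd w x (mul_self_of_order_two w h1) (mul_self_of_order_two x hx) h2
    have h6 := isConj_of_odd w y (mul_self_of_order_two w h1) (mul_self_of_order_two y hy) h3
    exact h5.symm.trans h6

/-- Two distinct commuting involutions. -/
lemma exists_commuting (h4 : 4 ≤ Fintype.card F) :
    ∃ u v : PSL2 F, orderOf u = 2 ∧ orderOf v = 2 ∧ orderOf (u * v) = 2 := by
  classical
  by_cases hc : ringChar F = 2
  · have h2 : (2 : F) = 0 := by
      have := ringChar.Nat.cast_ringChar (R := F)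
      rw [hc] at this
      exact_mod_cast this
    obtain ⟨ζ, hζ⟩ : ∃ ζ : F, ζ ∉ ({0, 1} : Finset F) := by
      by_contra hall
      push Not at hall
      have h5 : (Finset.univ : Finset F) ⊆ {0, 1} := fun x _ => hall x
      have h6 := Finset.card_le_card h5
      rw [Finset.card_univ] at h6
      have h7 : ({0, 1} : Finset F).card ≤ 2 := Finset.card_le_two
      omega
    simp only [Finset.mem_insert, Finset.mem_singleton, not_or] at hζ
    obtain ⟨h01, h02⟩ := hζ
    have htr : ∀ x : F, tr (E x) = 0 := by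
      intro x
      rw [tr_eq]
      simp only [E, mk00, mk11]
      linear_combination h2
    have hE : ∀ x : F, x ≠ 0 → orderOf (proj (E x)) = 2 := by
      intro x hx
      apply orderOf_proj_of_tr_zero _ (htr x)
      rw [E_mem_center_iff]
      exact hx
    refine ⟨proj (E 1), proj (E ζ), hE 1 one_ne_zero, hE ζ h01, ?_⟩
    rw [← map_mul]
    have h8 : E (1 : F) * E ζ = E (1 + ζ) := by
      apply Subtype.ext
      rw [Matrix.SpecialLinearGroup.coe_mul]
      ext i j
      rw [mul2]
      fin_cases i <;> fin_cases j <;> simp [E, mk2, add_comm]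
    rw [h8]
    apply hE
    intro h9
    apply h02
    linear_combination h9 - h2
  · have h2ne : (2 : F) ≠ 0 := Ring.two_ne_zero hc
    have hcard : Fintype.card F % 2 = 1 := FiniteField.odd_card_of_char_ne_two hc
    obtain ⟨e, f, hef⟩ := FiniteField.exists_root_sum_quadratic (R := F)
      (f := Polynomial.X ^ 2) (g := Polynomial.X ^ 2 + 1)
      (Polynomial.degree_X_pow 2) (by
        rw [Polynomial.degree_add_eq_left_of_degree_lt]
        · exact Polynomial.degree_X_pow 2
        · rw [Polynomial.degree_X_pow, Polynomial.degree_one]; norm_num) hcard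
    simp only [Polynomial.eval_pow, Polynomial.eval_X, Polynomial.eval_add, Polynomial.eval_one] at hef
    have hnc : ∀ W : SL2 F, tr W = 0 → W ∉ Subgroup.center (SL2 F) := by
      intro W hW h5
      have := central_tr W h5
      rw [hW] at this
      have h6 : (2 : F) * 2 = 0 := by linear_combination -this
      exact (mul_ne_zero h2ne h2ne) h6
    set X : SL2 F := mk2 0 1 (-1) 0 (by ring) with hX
    set Y : SL2 F := mk2 e f f (-e) (by linear_combination -hef) with hY
    have hXt : tr X = 0 := by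
      rw [tr_eq, hX]; simp only [mk00, mk11]; ring
    have hYt : tr Y = 0 := by
      rw [tr_eq, hY]; simp only [mk00, mk11]; ring
    have hXYt : tr (X * Y) = 0 := by
      rw [tr_mul, hX, hY]; simp only [mk00, mk01, mk10, mk11]; ring
    refine ⟨proj X, proj Y, orderOf_proj_of_tr_zero X hXt (hnc X hXt),
      orderOf_proj_of_tr_zero Y hYt (hnc Y hYt), ?_⟩
    rw [← map_mul]
    exact orderOf_proj_of_tr_zero _ hXYt (hnc _ hXYt)

/-- Let F be a finite field with at least 4 elements and let X be a conjugacy class of involutions of PSL(2, F). The graph on X joining two distinct involutions whose product has odd order is connected and has diameter exactly 2. -/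
theorem result {F : Type*} [Field F] [Fintype F] (hF : 4 ≤ Fintype.card F)
    (t : Matrix.ProjectiveSpecialLinearGroup (Fin 2) F) (ht : orderOf t = 2) :
    (SimpleGraph.fromRel fun x y : {x : Matrix.ProjectiveSpecialLinearGroup (Fin 2) F // IsConj t x} =>
        Odd (orderOf (x.1 * y.1))).Connected ∧
      (SimpleGraph.fromRel fun x y : {x : Matrix.ProjectiveSpecialLinearGroup (Fin 2) F // IsConj t x} =>
        Odd (orderOf (x.1 * y.1))).diam = 2 := by
  set G := SimpleGraph.fromRel fun x y : {x : Matrix.ProjectiveSpecialLinearGroup (Fin 2) F // IsConj t x} =>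
        Odd (orderOf (x.1 * y.1)) with hG
  haveI : Nonempty {x : Matrix.ProjectiveSpecialLinearGroup (Fin 2) F // IsConj t x} :=
    ⟨⟨t, IsConj.refl t⟩⟩
  have hord : ∀ x : {x : Matrix.ProjectiveSpecialLinearGroup (Fin 2) F // IsConj t x},
      orderOf x.1 = 2 := by
    intro x
    obtain ⟨g, hg⟩ := isConj_iff.mp x.2
    rw [← hg, order_conj, ht]
  have hmem : ∀ w : Matrix.ProjectiveSpecialLinearGroup (Fin 2) F, orderOf w = 2 → IsConj t w :=
    fun w hw => all_conj hF t w ht hw
  obtain ⟨u, v, hu, hv, huv⟩ := exists_commuting (F := F) hF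
  have huv_ne : (⟨u, hmem u hu⟩ : {x : Matrix.ProjectiveSpecialLinearGroup (Fin 2) F // IsConj t x}) ≠
      ⟨v, hmem v hv⟩ := by
    intro h
    have h1 : u = v := congrArg Subtype.val h
    rw [← h1, mul_self_of_order_two u hu, orderOf_one] at huv
    omega
  refine Cfsg.Agent.Lib.GraphDiam2.connected_diam_two G ?_ ⟨u, hmem u hu⟩ ⟨v, hmem v hv⟩ huv_ne ?_
  · intro x y hxy
    by_cases hadj : G.Adj x y
    · exact Or.inl hadj
    · right
      rw [hG, SimpleGraph.fromRel_adj] at hadj
      push Not at hadj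
      have hodd := hadj hxy
      rcases main_psl hF x.1 y.1 (hord x) (hord y) with h | ⟨w, h1, h2, h3⟩
      · exact absurd h hodd.1
      · refine ⟨⟨w, hmem w h1⟩, ?_, ?_⟩
        · rw [hG, SimpleGraph.fromRel_adj]
          refine ⟨?_, Or.inr h2⟩
          intro h5
          apply hodd.1
          have h6 : x.1 = w := congrArg Subtype.val h5
          rw [h6]
          exact h3
        · rw [hG, SimpleGraph.fromRel_adj]
          refine ⟨?_, Or.inl h3⟩
          intro h5
          apply hodd.2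
          have h6 : w = y.1 := congrArg Subtype.val h5
          rw [← h6]
          exact h2
  · rw [hG, SimpleGraph.fromRel_adj]
    rintro ⟨-, h | h⟩
    · simp only at h
      rw [huv] at h
      exact absurd h (by decide)
    · simp only at h
      have h7 : orderOf (v * u) = 2 := by
        have h8 : v * u = v * (u * v) * v⁻¹ := by group
        rw [h8, order_conj, huv]
      rw [h7] at h
      exact absurd h (by decide)

end Cfsg.Agent.S3266
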