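import Mathlib
import Cfsg.Statements.S3276
import Cfsg.Agent.Lib.InvolutionPairs

set_option autoImplicit false
open Cfsg

namespace Cfsg.Agent.S3276

open Cfsg.Agent.Lib.InvolutionPairs

theorem card_le_two_of_subset {A : Type*} [Group A] (K : Subgroup A) [Finite A] (a : A)
    (h : ∀ u ∈ K, u = 1 ∨ u = a) : Nat.card ↥K ≤ 2 := by
  have h1 : ((K : Set A)) ⊆ ({1, a} : Set A) := by
    intro u hu
    rcases h u hu with h | h <;> simp [h]
  calc Nat.card ↥K = (K : Set A).ncard := (Nat.card_coe_set_eq _)
    _ ≤ ({1, a} : Set A).ncard := Set.ncard_le_ncard h1 (Set.toFinite _)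
    _ ≤ ({a} : Set A).ncard + 1 := Set.ncard_insert_le _ _
    _ = 2 := by simp

/-- Let x and y be commuting, non-conjugate involutions of a finite group G, and suppose that for every involution u commuting with x, each conjugate of y that commutes with u also commutes with y. Then the normal closure of y is a proper, normal, elementary abelian 2-subgroup of G; and if y is the only involution of that normal closure commuting with x, it has order at most 4. -/
theorem result {G : Type*} [Group G] [Finite G] (x y : G) (hx : orderOf x = 2) (hy : orderOf y = 2)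
    (hxy : Commute x y) (hnc : ¬ IsConj x y)
    (hstar : ∀ u : G, orderOf u = 2 → Commute u x → ∀ g : G, Commute (g * y * g⁻¹) u → Commute (g * y * g⁻¹) y) :
    Subgroup.normalClosure ({y} : Set G) ≠ ⊤ ∧ Cfsg.IsElementaryAbelian 2 (Subgroup.normalClosure ({y} : Set G)) ∧
      ((∀ u ∈ Subgroup.normalClosure ({y} : Set G), orderOf u = 2 → Commute u x → u = y) →
        Nat.card ↥(Subgroup.normalClosure ({y} : Set G)) ≤ 4) := by
  classical
  have hxx := mul_self_of_orderOf hx
  have hyy := mul_self_of_orderOf hy
  have hxi : x⁻¹ = x := inv_eq_self_of_orderOf hx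
  -- Step 1: every conjugate of y commutes with y
  have step1 : ∀ g : G, Commute (g * y * g⁻¹) y := by
    intro g
    set y' := g * y * g⁻¹ with hy'
    have hy'y' : y' * y' = 1 := by
      rw [hy']
      calc g * y * g⁻¹ * (g * y * g⁻¹) = g * (y * y) * g⁻¹ := by group
        _ = 1 := by rw [hyy]; group
    have heven : Even (orderOf (x * y')) := by
      by_contra hne
      rw [Nat.not_even_iff_odd] at hne
      obtain ⟨d, _, hd⟩ := exists_conj_of_odd x y' hxx hy'y' hne
      apply hnc
      have h1 : IsConj x y' := isConj_iff.2 ⟨d, hd⟩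
      have h2 : IsConj y' y := by
        rw [isConj_comm]
        exact isConj_iff.2 ⟨g, rfl⟩
      exact h1.trans h2
    have h0 : 0 < orderOf (x * y') := orderOf_pos _
    have hu := orderOf_half_pow (x * y') heven h0
    have h1 := half_pow_commute_left x y' hxx hy'y' heven
    have h2 := half_pow_commute_right x y' hxx hy'y' heven
    exact hstar _ hu h1 g h2.symm
  -- all conjugates commute
  have hcomm : ∀ g h : G, Commute (g * y * g⁻¹) (h * y * h⁻¹) := by
    intro g h
    have := step1 (g⁻¹ * h)
    have h3 : (g * (g⁻¹ * h * y * (g⁻¹ * h)⁻¹) * g⁻¹) = h * y * h⁻¹ := by group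
    have h4 := this.symm
    rw [Commute, SemiconjBy] at h4 ⊢
    have : g * (y * (g⁻¹ * h * y * (g⁻¹ * h)⁻¹)) * g⁻¹ = g * ((g⁻¹ * h * y * (g⁻¹ * h)⁻¹) * y) * g⁻¹ := by
      rw [h4]
    calc g * y * g⁻¹ * (h * y * h⁻¹) = g * (y * (g⁻¹ * h * y * (g⁻¹ * h)⁻¹)) * g⁻¹ := by group
      _ = g * ((g⁻¹ * h * y * (g⁻¹ * h)⁻¹) * y) * g⁻¹ := this
      _ = h * y * h⁻¹ * (g * y * g⁻¹) := by group
  set V := Subgroup.normalClosure ({y} : Set G) with hV
  have hVeq : V = Subgroup.closure (Group.conjugatesOfSet ({y} : Set G)) := rfl
  have hgen : ∀ a ∈ Group.conjugatesOfSet ({y} : Set G), ∃ g : G, a = g * y * g⁻¹ := by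
    intro a ha
    rw [Group.mem_conjugatesOfSet_iff] at ha
    obtain ⟨b, hb, hba⟩ := ha
    rw [Set.mem_singleton_iff] at hb
    subst hb
    obtain ⟨c, hc⟩ := isConj_iff.1 hba
    exact ⟨c, hc.symm⟩
  have hVcomm : ∀ a ∈ V, ∀ b ∈ V, a * b = b * a := by
    intro a ha b hb
    rw [hVeq] at ha hb
    induction ha using Subgroup.closure_induction with
    | mem a ha =>
      induction hb using Subgroup.closure_induction with
      | mem b hb =>
        obtain ⟨g, rfl⟩ := hgen a ha
        obtain ⟨h, rfl⟩ := hgen b hb
        exact hcomm g h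
      | one => simp
      | mul c d _ _ hc hd => 
        calc a * (c * d) = (a * c) * d := by group
          _ = (c * a) * d := by rw [hc]
          _ = c * (a * d) := by group
          _ = c * (d * a) := by rw [hd]
          _ = c * d * a := by group
      | inv c _ hc => 
        have : c⁻¹ * (a * c) = c⁻¹ * (c * a) := by rw [hc]
        calc a * c⁻¹ = c⁻¹ * (c * a) * c⁻¹ := by group
          _ = c⁻¹ * (a * c) * c⁻¹ := by rw [this]
          _ = c⁻¹ * a := by group
    | one => simp
    | mul c d _ _ hc hd => 
      calc c * d * b = c * (d * b) := by group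
        _ = c * (b * d) := by rw [hd]
        _ = (c * b) * d := by group
        _ = (b * c) * d := by rw [hc]
        _ = b * (c * d) := by group
    | inv c _ hc => 
      have : c⁻¹ * (c * b) = c⁻¹ * (b * c) := by rw [hc]
      calc c⁻¹ * b = c⁻¹ * (b * c) * c⁻¹ := by group
        _ = c⁻¹ * (c * b) * c⁻¹ := by rw [this]
        _ = b * c⁻¹ := by group
  have hVsq : ∀ a ∈ V, a ^ 2 = 1 := by
    intro a ha
    rw [hVeq] at ha
    induction ha using Subgroup.closure_induction with
    | mem a ha =>
      obtain ⟨g, rfl⟩ := hgen a ha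
      rw [pow_two]
      calc g * y * g⁻¹ * (g * y * g⁻¹) = g * (y * y) * g⁻¹ := by group
        _ = 1 := by rw [hyy]; group
    | one => simp
    | mul c d hc' hd' hc hd =>
      have hc'' : c ∈ V := by rw [hVeq]; exact hc'
      have hd'' : d ∈ V := by rw [hVeq]; exact hd'
      have := hVcomm c hc'' d hd''
      rw [pow_two] at *
      calc c * d * (c * d) = c * (d * c) * d := by group
        _ = c * (c * d) * d := by rw [this]
        _ = (c * c) * (d * d) := by group
        _ = 1 := by rw [hc, hd]; simp
    | inv c hc' hc =>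
      have hc'' : c ∈ V := by rw [hVeq]; exact hc'
      rw [inv_pow, hc, inv_one]
  have hyV : y ∈ V := Subgroup.subset_normalClosure (Set.mem_singleton y)
  refine ⟨?_, ⟨⟨⟨fun a b => Subtype.ext (hVcomm a a.2 b b.2)⟩⟩, hVsq⟩, ?_⟩
  · intro htop
    have hxV : x ∈ V := htop ▸ Subgroup.mem_top x
    have hconj : ∀ a ∈ V, a = 1 ∨ a = y := by
      intro a ha
      have hZ : ∀ g : G, g * y * g⁻¹ = y := by
        intro g
        have hgV : g ∈ V := htop ▸ Subgroup.mem_top g
        have := hVcomm g hgV y hyV
        rw [this]; group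
      rw [hVeq] at ha
      induction ha using Subgroup.closure_induction with
      | mem a ha =>
        obtain ⟨g, rfl⟩ := hgen a ha
        right; exact hZ g
      | one => left; rfl
      | mul c d hc' hd' hc hd =>
        have hc'' : c ∈ V := by rw [hVeq]; exact hc'
        have hd'' : d ∈ V := by rw [hVeq]; exact hd'
        rcases hc with rfl | rfl <;> rcases hd with rfl | rfl
        · left; simp
        · right; simp
        · right; simp
        · left; exact hyy
      | inv c hc' hc =>
        have hc'' : c ∈ V := by rw [hVeq]; exact hc'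
        rcases hc with rfl | rfl
        · left; simp
        · right; exact inv_eq_self_of_orderOf hy
    rcases hconj x hxV with h | h
    · exact ne_one_of_orderOf hx h
    · exact hnc (h ▸ IsConj.refl _)
  · intro honly
    haveI hN : V.Normal := Subgroup.normalClosure_normal
    -- the commutator map
    let f : ↥V →* ↥V :=
      { toFun := fun v => ⟨v * (x * v * x⁻¹), V.mul_mem v.2 (hN.conj_mem _ v.2 x)⟩
        map_one' := by ext; simp
        map_mul' := fun a b => by
          ext
          simp only [Subgroup.coe_mul]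
          have h1 := hVcomm b b.2 (x * a * x⁻¹) (hN.conj_mem _ a.2 x)
          calc (a : G) * b * (x * (a * b) * x⁻¹) = a * (b * (x * a * x⁻¹)) * (x * b * x⁻¹) := by group
            _ = a * ((x * a * x⁻¹) * b) * (x * b * x⁻¹) := by rw [h1]
            _ = a * (x * a * x⁻¹) * (b * (x * b * x⁻¹)) := by group }
    have hker : ∀ u ∈ f.ker, u = 1 ∨ u = ⟨y, hyV⟩ := by
      intro u hu
      by_cases h1 : u = 1
      · left; exact h1
      right
      have hu1 : (u : G) ≠ 1 := fun h => h1 (Subtype.ext h)
      have h2 : orderOf (u : G) = 2 := by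
        apply orderOf_eq_prime (hVsq u u.2) hu1
      have hcom : Commute (u : G) x := by
        have h3 : f u = 1 := hu
        have h4 : (u : G) * (x * u * x⁻¹) = 1 := congrArg Subtype.val h3
        have h5 : x * u * x⁻¹ = (u : G)⁻¹ := eq_inv_of_mul_eq_one_right h4
        have h6 : (u : G)⁻¹ = u := inv_eq_of_mul_eq_one_left (by rw [← pow_two]; exact hVsq u u.2)
        rw [h6] at h5
        rw [Commute, SemiconjBy]
        calc (u : G) * x = (x * u * x⁻¹) * x := by rw [h5]
          _ = x * u := by group
      exact Subtype.ext (honly u u.2 h2 hcom)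
    have hrange : ∀ u ∈ f.range, u = 1 ∨ u = ⟨y, hyV⟩ := by
      rintro _ ⟨v, rfl⟩
      by_cases h1 : f v = 1
      · left; exact h1
      right
      have hu1 : ((f v : ↥V) : G) ≠ 1 := fun h => h1 (Subtype.ext h)
      have h2 : orderOf ((f v : ↥V) : G) = 2 := by
        apply orderOf_eq_prime (hVsq _ (f v).2) hu1
      have hcom : Commute ((f v : ↥V) : G) x := by
        have h3 : ((f v : ↥V) : G) = v * (x * v * x⁻¹) := rfl
        rw [h3, Commute, SemiconjBy]
        have h7 := hVcomm v v.2 (x * v * x⁻¹) (hN.conj_mem _ v.2 x)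
        calc (v : G) * (x * v * x⁻¹) * x = (x * v * x⁻¹) * v * x := by rw [h7]
          _ = x * (v * (x⁻¹ * v * x)) := by group
          _ = x * (v * (x * v * x⁻¹)) := by rw [hxi]
      exact Subtype.ext (honly _ (f v).2 h2 hcom)
    have hcard := Subgroup.card_mul_index f.ker
    rw [Subgroup.index_ker] at hcard
    rw [← hcard]
    exact Nat.mul_le_mul (card_le_two_of_subset _ _ hker) (card_le_two_of_subset _ _ hrange)

end Cfsg.Agent.S3276
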