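-- Statement S3278: a simple group with an involution whose centralizer has a normal Klein four Sylow 2-subgroup.
import Cfsg.Statements.S3278
import Mathlib
import Cfsg.Agent.Lib.KleinSylow9
import Cfsg.Agent.S0948
import Cfsg.Agent.S0202
import Cfsg.Agent.S0203
import Cfsg.Agent.S0494
import Cfsg.Agent.Lib.CharAvg
import Cfsg.Agent.Lib.CharKernel
import Cfsg.Agent.Lib.SmallGroups2

set_option autoImplicit false
open Cfsg

namespace Cfsg.Agent.S3278

open Cfsg.Agent.Lib.CharBasic Cfsg.Agent.Lib.CharAvg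

/-- There is a `2`-modular maximal ideal of the algebraic integers. -/
theorem exists_modular : ∃ M : Ideal AlgInt, IsPModular 2 M := by
  have hJ : Ideal.span {(2 : AlgInt)} ≠ ⊤ := by
    intro h
    have h1 : (1 : AlgInt) ∈ Ideal.span {(2 : AlgInt)} := by rw [h]; trivial
    obtain ⟨a, ha⟩ := Ideal.mem_span_singleton'.mp h1
    have h2 : (a : ℂ) * 2 = 1 := by
      have := congrArg (Subtype.val) ha
      have e2 : (((2 : AlgInt)) : ℂ) = 2 := rfl
      simpa [e2] using this
    have h3 : (a : ℂ) = algebraMap ℚ ℂ (1 / 2) := by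
      have : algebraMap ℚ ℂ (1 / 2) = 1 / 2 := by simp
      rw [this]
      field_simp
      exact h2
    have h4 : IsIntegral ℤ (algebraMap ℚ ℂ (1 / 2)) := h3 ▸ a.2
    have h5 : IsIntegral ℤ ((1 / 2 : ℚ)) :=
      (isIntegral_algebraMap_iff (algebraMap ℚ ℂ).injective).mp h4
    obtain ⟨n, hn⟩ := IsIntegrallyClosed.isIntegral_iff.mp h5
    have h6 : (2 : ℚ) * (n : ℚ) = 1 := by
      have : ((n : ℚ)) = 1 / 2 := by simpa using hn
      rw [this]; norm_num
    have h7 : (2 : ℤ) * n = 1 := by exact_mod_cast h6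
    omega
  obtain ⟨M, hM, hJM⟩ := Ideal.exists_le_maximal _ hJ
  exact ⟨M, Nat.prime_two, hM, hJM (Ideal.mem_span_singleton_self _)⟩

/-- Arithmetic of the degrees. -/
theorem arith (d₂ d₃ d₄ : ℕ) (h₂ : 0 < d₂) (h₃ : 0 < d₃) (h₄ : 0 < d₄) (ε : ℤ) (hε : ε = 1 ∨ ε = -1)
    (h3 : (4 : ℤ) ∣ (d₃ : ℤ) - ε) (h4 : (4 : ℤ) ∣ (d₄ : ℤ) + 1)
    (hrel : 1 + (d₂ : ℤ) + ε * d₃ - d₄ = 0) :
    (1 / 2 : ℚ) < 1 + 1 / (d₂ : ℚ) + (ε : ℚ) / (d₃ : ℚ) - 1 / (d₄ : ℚ) := by
  have hd₂ : (0 : ℚ) < d₂ := by exact_mod_cast h₂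
  have hd₃ : (0 : ℚ) < d₃ := by exact_mod_cast h₃
  have hd₄ : (0 : ℚ) < d₄ := by exact_mod_cast h₄
  have h43 : 3 ≤ d₄ := by omega
  have i2 : 0 < 1 / (d₂ : ℚ) := by positivity
  have i3 : 0 < 1 / (d₃ : ℚ) := by positivity
  have inv_le : ∀ m n : ℕ, 0 < n → n ≤ m → 1 / (m : ℚ) ≤ 1 / (n : ℚ) := by
    intro m n hn hnm
    apply one_div_le_one_div_of_le
    · exact_mod_cast hn
    · exact_mod_cast hnm
  rcases hε with rfl | rfl
  · have i4 : 1 / (d₄ : ℚ) ≤ 1 / 3 := by
      have := inv_le d₄ 3 (by norm_num) h43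
      simpa using this
    have : ((1 : ℤ) : ℚ) / (d₃ : ℚ) = 1 / (d₃ : ℚ) := by simp
    rw [this]
    linarith
  · have h33 : 3 ≤ d₃ := by omega
    have e : ((-1 : ℤ) : ℚ) / (d₃ : ℚ) = - (1 / (d₃ : ℚ)) := by push_cast; ring
    rw [e]
    by_cases h : d₃ = 3 ∧ d₄ = 3
    · obtain ⟨rfl, rfl⟩ := h
      have : d₂ = 5 := by omega
      subst this
      norm_num
    · have i4 : 1 / (d₃ : ℚ) + 1 / (d₄ : ℚ) ≤ 1 / 3 + 1 / 7 := by
        have key : (7 ≤ d₃ ∧ 3 ≤ d₄) ∨ (3 ≤ d₃ ∧ 7 ≤ d₄) := by omega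
        rcases key with ⟨a, b⟩ | ⟨a, b⟩
        · have a' := inv_le d₃ 7 (by norm_num) a
          have b' := inv_le d₄ 3 (by norm_num) b
          norm_num at a' b' ⊢
          linarith
        · have a' := inv_le d₃ 3 (by norm_num) a
          have b' := inv_le d₄ 7 (by norm_num) b
          norm_num at a' b' ⊢
          linarith
      have i2' : 0 < (d₂ : ℚ)⁻¹ := by positivity
      norm_num at i4 ⊢
      linarith

section Main

variable {G : Type*} [Group G] [Finite G]

/-- Four elements of a subgroup of order 4. -/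
theorem klein_cases (V : Subgroup G) (hV : Nat.card V = 4) {x v : G} (hxV : x ∈ V) (hvV : v ∈ V)
    (hx1 : x ≠ 1) (hv1 : v ≠ 1) (hvx : x * v ≠ 1) (hxv : v ≠ x) :
    ∀ w ∈ V, w = 1 ∨ w = x ∨ w = v ∨ w = x * v := by
  classical
  letI := Fintype.ofFinite G
  intro w hw
  by_contra hne
  push Not at hne
  obtain ⟨h1, h2, h3, h4⟩ := hne
  let F : Finset G := Finset.univ.filter (· ∈ V)
  have hF : F.card = 4 := by
    rw [← hV, Nat.card_eq_fintype_card, Fintype.card_subtype]
  let s : Finset G := {w, 1, x, v, x * v}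
  have hs : s ⊆ F := by
    intro u hu
    simp only [s, Finset.mem_insert, Finset.mem_singleton] at hu
    rw [Finset.mem_filter]
    refine ⟨Finset.mem_univ _, ?_⟩
    rcases hu with rfl | rfl | rfl | rfl | rfl
    · exact hw
    · exact V.one_mem
    · exact hxV
    · exact hvV
    · exact V.mul_mem hxV hvV
  have hcard : s.card = 5 := by
    have a1 : x * v ≠ x := by simpa using hv1
    have a2 : x * v ≠ v := by simpa using hx1
    simp only [s]
    rw [Finset.card_insert_of_notMem, Finset.card_insert_of_notMem, Finset.card_insert_of_notMem,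
      Finset.card_pair]
    · exact (a2.symm)
    · simp only [Finset.mem_insert, Finset.mem_singleton]
      push Not
      exact ⟨hxv.symm, a1.symm⟩
    · simp only [Finset.mem_insert, Finset.mem_singleton]
      push Not
      exact ⟨hx1.symm, hv1.symm, hvx.symm⟩
    · simp only [Finset.mem_insert, Finset.mem_singleton]
      push Not
      exact ⟨h1, h2, h3, h4⟩
  have := Finset.card_le_card hs
  omega

/-- Number of `b` with `b x b⁻¹ = z`. -/
theorem count_fibre (x g : G) [Fintype G] [DecidableEq G] :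
    (Finset.univ.filter (fun b : G => b * x * b⁻¹ = g * x * g⁻¹)).card =
      Nat.card (Subgroup.centralizer ({x} : Set G)) := by
  classical
  letI : Fintype (Subgroup.centralizer ({x} : Set G)) := Fintype.ofFinite _
  have h : Finset.univ.filter (fun b : G => b * x * b⁻¹ = g * x * g⁻¹) =
      (Finset.univ : Finset (Subgroup.centralizer ({x} : Set G))).image
        (fun c : Subgroup.centralizer ({x} : Set G) => g * (c : G)) := by
    ext b
    simp only [Finset.mem_filter, Finset.mem_univ, true_and, Finset.mem_image]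
    constructor
    · intro hb
      refine ⟨⟨g⁻¹ * b, ?_⟩, by simp⟩
      rw [Subgroup.mem_centralizer_singleton_iff]
      have : b * x = g * x * g⁻¹ * b := by rw [← hb]; group
      calc g⁻¹ * b * x = g⁻¹ * (b * x) := by group
        _ = g⁻¹ * (g * x * g⁻¹ * b) := by rw [this]
        _ = x * (g⁻¹ * b) := by group
    · rintro ⟨c, -, rfl⟩
      have hc := Subgroup.mem_centralizer_singleton_iff.mp c.2
      calc g * c * x * (g * c)⁻¹ = g * ((c : G) * x) * (c : G)⁻¹ * g⁻¹ := by group
        _ = g * (x * c) * (c : G)⁻¹ * g⁻¹ := by rw [hc]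
        _ = _ := by group
  rw [h, Finset.card_image_of_injective _ (fun a b hab => Subtype.ext (mul_left_cancel hab)),
    Finset.card_univ, Nat.card_eq_fintype_card]

section Data

variable {x : G} {S₀ : Subgroup G}

/-- Elements of 2-power order in `C(x)` lie in `S₀`. -/
theorem mem_of_two_power (hle : S₀ ≤ Subgroup.centralizer ({x} : Set G))
    (hodd : ¬ 2 ∣ S₀.relIndex (Subgroup.centralizer ({x} : Set G)))
    (hn : (S₀.subgroupOf (Subgroup.centralizer ({x} : Set G))).Normal)
    {c : G} (hc : c ∈ Subgroup.centralizer ({x} : Set G)) (e : ℕ) (he : c ^ 2 ^ e = 1) : c ∈ S₀ := by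
  classical
  set C := Subgroup.centralizer ({x} : Set G)
  let N : Subgroup C := S₀.subgroupOf C
  haveI : N.Normal := hn
  let q : C ⧸ N := QuotientGroup.mk' N ⟨c, hc⟩
  have h1 : q ^ 2 ^ e = 1 := by
    rw [← map_pow]
    have : (⟨c, hc⟩ : C) ^ 2 ^ e = 1 := Subtype.ext he
    rw [this, map_one]
  have h2 : q ^ Nat.card (C ⧸ N) = 1 := pow_card_eq_one'
  have h3 : (2 ^ e).gcd (Nat.card (C ⧸ N)) = 1 := by
    apply Nat.Coprime.pow_left
    exact (Nat.Prime.coprime_iff_not_dvd Nat.prime_two).mpr hodd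
  have h4 := pow_gcd_eq_one.mpr ⟨h1, h2⟩
  rw [h3, pow_one] at h4
  have h5 : (⟨c, hc⟩ : C) ∈ N := (QuotientGroup.eq_one_iff _).mp h4
  exact Subgroup.mem_subgroupOf.mp h5

/-- `S₀` is central in `C(x)`. -/
theorem comm_of_mem (hx1 : x ≠ 1) (hle : S₀ ≤ Subgroup.centralizer ({x} : Set G))
    (hodd : ¬ 2 ∣ S₀.relIndex (Subgroup.centralizer ({x} : Set G)))
    (hn : (S₀.subgroupOf (Subgroup.centralizer ({x} : Set G))).Normal)
    (h4 : Nat.card S₀ = 4) (hS2 : ∀ w ∈ S₀, w * w = 1) (hxS : x ∈ S₀)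
    {c : G} (hc : c ∈ Subgroup.centralizer ({x} : Set G)) {v : G} (hv : v ∈ S₀) : c * v = v * c := by
  classical
  have hcx : c * x = x * c := Subgroup.mem_centralizer_singleton_iff.mp hc
  by_cases hv1 : v = 1
  · simp [hv1]
  by_cases hvx : v = x
  · rw [hvx]; exact hcx
  have hSc : ∀ a ∈ S₀, ∀ b ∈ S₀, a * b = b * a := by
    intro a ha b hb
    have a2 := hS2 a ha
    have b2 := hS2 b hb
    have ab2 := hS2 _ (S₀.mul_mem ha hb)
    calc a * b = (a * b)⁻¹ := (inv_eq_of_mul_eq_one_left ab2).symm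
      _ = b⁻¹ * a⁻¹ := mul_inv_rev a b
      _ = b * a := by rw [inv_eq_of_mul_eq_one_left a2, inv_eq_of_mul_eq_one_left b2]
  have hxv1 : x * v ≠ 1 := by
    intro h
    apply hvx
    have x2 := hS2 x hxS
    calc v = x * x * v := by rw [x2, one_mul]
      _ = x * (x * v) := mul_assoc _ _ _
      _ = x := by rw [h, mul_one]
  have hcases := klein_cases S₀ h4 hxS hv hx1 hv1 hxv1 hvx
  have hw : c * v * c⁻¹ ∈ S₀ := by
    have h1 := hn.conj_mem (⟨v, hle hv⟩ : Subgroup.centralizer ({x} : Set G))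
      (Subgroup.mem_subgroupOf.mpr hv) ⟨c, hc⟩
    exact Subgroup.mem_subgroupOf.mp h1
  rcases hcases _ hw with h | h | h | h
  · exfalso
    apply hv1
    have : v = c⁻¹ * (c * v * c⁻¹) * c := by group
    rw [this, h]; simp
  · exfalso
    apply hvx
    have h2 : c * v = x * c := by
      have := congrArg (· * c) h
      simpa using this
    have h3 : c * v = c * x := by rw [h2, hcx]
    exact mul_left_cancel h3
  · have := congrArg (· * c) h
    simpa using this
  · exfalso
    have hcv : c * v = x * v * c := by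
      have := congrArg (· * c) h
      simpa using this
    -- `c²` commutes with `v`
    set y := c * c with hy
    have hyx : y * x = x * y := by
      calc c * c * x = c * (c * x) := mul_assoc _ _ _
        _ = c * (x * c) := by rw [hcx]
        _ = (c * x) * c := (mul_assoc _ _ _).symm
        _ = x * c * c := by rw [hcx]
        _ = x * (c * c) := mul_assoc _ _ _
    have hyv : y * v = v * y := by
      have x2 := hS2 x hxS
      calc c * c * v = c * (c * v) := mul_assoc _ _ _
        _ = c * (x * v * c) := by rw [hcv]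
        _ = (c * x) * v * c := by group
        _ = x * (c * v) * c := by rw [hcx]; group
        _ = x * (x * v * c) * c := by rw [hcv]
        _ = (x * x) * v * (c * c) := by group
        _ = v * (c * c) := by rw [x2, one_mul]
    obtain ⟨k, o, ho, hord⟩ := Nat.exists_eq_two_pow_mul_odd (orderOf_pos c).ne'
    obtain ⟨t, rfl⟩ := ho
    have hd : c ^ (2 * t + 1) ∈ S₀ := by
      apply mem_of_two_power hle hodd hn (Subgroup.pow_mem _ hc _) k
      rw [← pow_mul, mul_comm, ← hord, pow_orderOf_eq_one]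
    have hdv := hSc _ hd _ hv
    have hdeq : c ^ (2 * t + 1) = y ^ t * c := by
      rw [pow_succ, pow_mul, sq]
    have hyk : (y ^ t) * (x * v) = (x * v) * (y ^ t) := by
      have h1 : Commute (y ^ t) (x * v) :=
        (Commute.mul_right (show Commute y x from hyx) (show Commute y v from hyv)).pow_left t
      exact h1
    have h5 : c ^ (2 * t + 1) * v = x * v * c ^ (2 * t + 1) := by
      rw [hdeq]
      calc y ^ t * c * v = y ^ t * (c * v) := mul_assoc _ _ _
        _ = y ^ t * (x * v * c) := by rw [hcv]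
        _ = (y ^ t * (x * v)) * c := (mul_assoc _ _ _).symm
        _ = (x * v) * y ^ t * c := by rw [hyk]
        _ = x * v * (y ^ t * c) := mul_assoc _ _ _
    rw [hdv] at h5
    apply hx1
    have h6 : v = x * v := mul_right_cancel h5
    have h7 : x * v = 1 * v := by rw [one_mul]; exact h6.symm
    exact mul_right_cancel h7

/-- `g x g⁻¹ ∈ S₀` implies that `g` normalizes `S₀`. -/
theorem mem_normalizer_of_conj_mem (hx1 : x ≠ 1) (hx2 : x * x = 1)
    (hle : S₀ ≤ Subgroup.centralizer ({x} : Set G))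
    (hodd : ¬ 2 ∣ S₀.relIndex (Subgroup.centralizer ({x} : Set G)))
    (hn : (S₀.subgroupOf (Subgroup.centralizer ({x} : Set G))).Normal)
    (hS2 : ∀ w ∈ S₀, w * w = 1) {g : G} (hg : g * x * g⁻¹ ∈ S₀) :
    g ∈ Subgroup.normalizer (S₀ : Set G) := by
  classical
  have hSc : ∀ a ∈ S₀, ∀ b ∈ S₀, a * b = b * a := by
    intro a ha b hb
    have a2 := hS2 a ha
    have b2 := hS2 b hb
    have ab2 := hS2 _ (S₀.mul_mem ha hb)
    calc a * b = (a * b)⁻¹ := (inv_eq_of_mul_eq_one_left ab2).symm
      _ = b⁻¹ * a⁻¹ := mul_inv_rev a b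
      _ = b * a := by rw [inv_eq_of_mul_eq_one_left a2, inv_eq_of_mul_eq_one_left b2]
  have hsub : ∀ v ∈ S₀, g⁻¹ * v * g ∈ S₀ := by
    intro v hv
    apply mem_of_two_power hle hodd hn ?_ 1
    · have h2 := hS2 v hv
      rw [pow_one, sq]
      calc g⁻¹ * v * g * (g⁻¹ * v * g) = g⁻¹ * (v * v) * g := by group
        _ = 1 := by rw [h2]; group
    · rw [Subgroup.mem_centralizer_singleton_iff]
      have h3 := hSc _ hg _ hv
      calc g⁻¹ * v * g * x = g⁻¹ * (v * (g * x * g⁻¹)) * g := by group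
        _ = g⁻¹ * ((g * x * g⁻¹) * v) * g := by rw [h3]
        _ = x * (g⁻¹ * v * g) := by group
  -- conjugation is a bijection of `S₀`
  let φ : S₀ → S₀ := fun v => ⟨g⁻¹ * v * g, hsub v v.2⟩
  have hφ : Function.Injective φ := by
    intro a b hab
    have h1 : g⁻¹ * (a : G) * g = g⁻¹ * (b : G) * g := congrArg Subtype.val hab
    exact Subtype.ext (by simpa using h1)
  have hφs : Function.Surjective φ := Finite.surjective_of_injective hφ
  rw [Subgroup.mem_normalizer_iff]
  intro h
  constructor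
  · intro hh
    obtain ⟨u, hu⟩ := hφs ⟨h, hh⟩
    have h1 : g⁻¹ * (u : G) * g = h := congrArg Subtype.val hu
    have h2 : g * h * g⁻¹ = u := by rw [← h1]; group
    rw [h2]
    exact u.2
  · intro hh
    have := hsub _ hh
    have h2 : g⁻¹ * (g * h * g⁻¹) * g = h := by group
    rwa [h2] at this

/-- If `x s` has even order, `s` an involution, then `s ∈ S₀`. -/
theorem mem_of_even (hx1 : x ≠ 1) (hx2 : x * x = 1)
    (hle : S₀ ≤ Subgroup.centralizer ({x} : Set G))
    (hodd : ¬ 2 ∣ S₀.relIndex (Subgroup.centralizer ({x} : Set G)))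
    (hn : (S₀.subgroupOf (Subgroup.centralizer ({x} : Set G))).Normal)
    (h4 : Nat.card S₀ = 4) (hS2 : ∀ w ∈ S₀, w * w = 1) (hxS : x ∈ S₀)
    (hx : orderOf x = 2)
    (hone : ∀ s t : G, orderOf s = 2 → orderOf t = 2 → IsConj s t)
    {s : G} (hs2 : s * s = 1) (heven : Even (orderOf (x * s))) : s ∈ S₀ := by
  classical
  have hxinv : x⁻¹ = x := inv_eq_of_mul_eq_one_left hx2
  have hsinv : s⁻¹ = s := inv_eq_of_mul_eq_one_left hs2
  set w := x * s with hw
  obtain ⟨k, hk⟩ := heven
  have hpos : 0 < orderOf w := orderOf_pos w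
  have hk0 : k ≠ 0 := by omega
  set r := w ^ k with hr
  have hrr : r * r = 1 := by
    rw [hr, ← pow_add, ← hk, pow_orderOf_eq_one]
  have hr1 : r ≠ 1 := pow_ne_one_of_lt_orderOf hk0 (by omega)
  have hrinv : r⁻¹ = r := inv_eq_of_mul_eq_one_left hrr
  have hrord : orderOf r = 2 := orderOf_eq_prime (by rw [sq]; exact hrr) hr1
  have hwinv : w⁻¹ = s * x := by
    rw [hw, mul_inv_rev, hxinv, hsinv]
  have h1 : x * w * x⁻¹ = w⁻¹ := by
    rw [hwinv, hw, hxinv]
    calc x * (x * s) * x = (x * x) * s * x := by group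
      _ = s * x := by rw [hx2, one_mul]
  have h2 : s * w * s⁻¹ = w⁻¹ := by
    rw [hwinv, hw, hsinv]
    calc s * (x * s) * s = s * x * (s * s) := by group
      _ = s * x := by rw [hs2, mul_one]
  have h3 : x * r * x⁻¹ = r := by
    rw [hr, ← conj_pow, h1, inv_pow, ← hr, hrinv]
  have h4' : s * r * s⁻¹ = r := by
    rw [hr, ← conj_pow, h2, inv_pow, ← hr, hrinv]
  have hrC : r ∈ Subgroup.centralizer ({x} : Set G) := by
    rw [Subgroup.mem_centralizer_singleton_iff]
    have := congrArg (· * x) h3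
    simp only [inv_mul_cancel_right] at this
    exact this.symm
  have hrS : r ∈ S₀ := mem_of_two_power hle hodd hn hrC 1 (by rw [pow_one, sq]; exact hrr)
  have hsr : s * r = r * s := by
    have := congrArg (· * s) h4'
    simpa using this
  obtain ⟨h, hh⟩ := isConj_iff.mp (hone x r hx hrord)
  have hN : h ∈ Subgroup.normalizer (S₀ : Set G) :=
    mem_normalizer_of_conj_mem hx1 hx2 hle hodd hn hS2 (by rw [hh]; exact hrS)
  have hv : h⁻¹ * x * h ∈ S₀ := by
    have h5 := (Subgroup.mem_normalizer_iff.mp (inv_mem hN) x).1 hxS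
    simpa using h5
  have ht : h⁻¹ * s * h ∈ Subgroup.centralizer ({x} : Set G) := by
    rw [Subgroup.mem_centralizer_singleton_iff]
    calc h⁻¹ * s * h * x = h⁻¹ * (s * (h * x * h⁻¹)) * h := by group
      _ = h⁻¹ * (s * r) * h := by rw [hh]
      _ = h⁻¹ * (r * s) * h := by rw [hsr]
      _ = h⁻¹ * ((h * x * h⁻¹) * s) * h := by rw [hh]
      _ = x * (h⁻¹ * s * h) := by group
  have h6 := comm_of_mem hx1 hle hodd hn h4 hS2 hxS ht hv
  have hsx : s * x = x * s := by
    have h7 : h⁻¹ * (s * x) * h = h⁻¹ * (x * s) * h := by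
      calc h⁻¹ * (s * x) * h = h⁻¹ * s * h * (h⁻¹ * x * h) := by group
        _ = h⁻¹ * x * h * (h⁻¹ * s * h) := h6
        _ = h⁻¹ * (x * s) * h := by group
    simpa using h7
  apply mem_of_two_power hle hodd hn (Subgroup.mem_centralizer_singleton_iff.mpr hsx) 1
  rw [pow_one, sq]
  exact hs2

end Data

set_option maxHeartbeats 1000000 in
/-- The main theorem. -/
theorem main [IsSimpleGroup G] (x : G) (hx : orderOf x = 2)
    (S₀ : Subgroup G) (hle : S₀ ≤ Subgroup.centralizer ({x} : Set G)) (hK : IsKleinFour ↥S₀)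
    (hodd : ¬ 2 ∣ S₀.relIndex (Subgroup.centralizer ({x} : Set G)))
    (hn : (S₀.subgroupOf (Subgroup.centralizer ({x} : Set G))).Normal) :
    Nonempty (G ≃* ↥(alternatingGroup (Fin 5))) := by
  classical
  letI := Fintype.ofFinite G
  haveI : Fact (Nat.Prime 2) := ⟨Nat.prime_two⟩
  set C := Subgroup.centralizer ({x} : Set G) with hCdef
  have hx2 : x * x = 1 := by
    have := pow_orderOf_eq_one x
    rwa [hx, sq] at this
  have hx1 : x ≠ 1 := by
    intro h
    rw [h, orderOf_one] at hx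
    norm_num at hx
  have hxC : x ∈ C := by
    rw [hCdef, Subgroup.mem_centralizer_singleton_iff]
  have h4 : Nat.card S₀ = 4 := IsKleinFour.card_four
  have hS2 : ∀ w ∈ S₀, w * w = 1 := by
    intro w hw
    have h1 : (⟨w, hw⟩ : S₀) ^ Monoid.exponent S₀ = 1 := Monoid.pow_exponent_eq_one _
    rw [IsKleinFour.exponent_two, sq] at h1
    exact congrArg Subtype.val h1
  have hxS : x ∈ S₀ := mem_of_two_power hle hodd hn hxC 1 (by rw [pow_one, sq]; exact hx2)
  have h4G : 4 ∣ Nat.card G := by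
    rw [← h4]; exact Subgroup.card_subgroup_dvd_card S₀
  have hGpos : 0 < Nat.card G := Nat.card_pos
  have hna : ¬ IsMulCommutative G := by
    apply Cfsg.Agent.Lib.SmallGroups2.not_isMulCommutative_of_not_prime
    intro hp
    rcases (Nat.dvd_prime hp).mp h4G with h | h
    · omega
    · rw [← h] at hp
      norm_num at hp
  have hno : ∀ M : Subgroup G, M.Normal → M.index ≠ 2 := by
    intro M hM hidx
    rcases hM.eq_bot_or_eq_top with rfl | rfl
    · rw [Subgroup.index_bot] at hidx
      omega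
    · simp at hidx
  -- a Sylow subgroup containing `S₀`
  have hS₀p : IsPGroup 2 S₀ := IsPGroup.of_card (n := 2) (by rw [h4]; norm_num)
  obtain ⟨P, hP⟩ := hS₀p.exists_le_sylow
  have h2sub : ∀ D : Subgroup G, IsPGroup 2 D → D ≤ C → Nat.card D ≤ 4 := by
    intro D hD hDC
    have hDS : D ≤ S₀ := by
      intro d hd
      obtain ⟨k, hk⟩ := hD ⟨d, hd⟩
      exact mem_of_two_power hle hodd hn (hDC hd) k (congrArg Subtype.val hk)
    rw [← h4]
    exact Subgroup.card_le_of_le hDS
  have hnc : ¬ IsCyclic (P : Subgroup G) := by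
    intro hc
    have h1 : IsCyclic (S₀.subgroupOf (P : Subgroup G)) := inferInstance
    have h2 : IsCyclic S₀ := (Subgroup.subgroupOfEquivOfLe hP).isCyclic.mp h1
    exact IsKleinFour.not_isCyclic h2
  have hPle := Cfsg.Agent.Lib.KleinSylow9.card_sylow_le_four P x hx (hP hxS) h2sub hnc hno
  have hPS : S₀ = (P : Subgroup G) := Subgroup.eq_of_le_of_card_ge hP (by rw [h4]; exact hPle)
  have hPK : IsKleinFour (P : Subgroup G) := by rw [← hPS]; exact hK
  -- one class of involutions
  have hone : ∀ s t : G, orderOf s = 2 → orderOf t = 2 → IsConj s t := by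
    have h1 := Cfsg.Agent.S0202.result P hPK
    rcases h1 with h1 | h1
    · intro s t hs ht
      haveI : Subsingleton {C : ConjClasses G // ∃ t : G, orderOf t = 2 ∧ ConjClasses.mk t = C} :=
        (Nat.card_eq_one_iff_unique.mp h1).1
      have h2 : (⟨ConjClasses.mk s, s, hs, rfl⟩ :
          {C : ConjClasses G // ∃ t : G, orderOf t = 2 ∧ ConjClasses.mk t = C}) =
          ⟨ConjClasses.mk t, t, ht, rfl⟩ := Subsingleton.elim _ _
      have h3 : ConjClasses.mk s = ConjClasses.mk t := congrArg Subtype.val h2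
      exact ConjClasses.mk_eq_mk_iff_isConj.mp h3
    · exfalso
      obtain ⟨N, hN, hc⟩ := (Cfsg.Agent.S0203.result P hPK).mp h1
      have hcard := hc.card_mul_card
      rw [← hPS, h4] at hcard
      rcases hN.eq_bot_or_eq_top with rfl | rfl
      · have h3 : Nat.card G = 4 := by simpa using hcard.symm
        apply hna
        have htop : S₀ = ⊤ := by
          apply Subgroup.eq_top_of_card_eq
          rw [h4, h3]
        have hall : ∀ w : G, w * w = 1 := fun w => hS2 w (by rw [htop]; trivial)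
        refine ⟨⟨fun a b => ?_⟩⟩
        calc a * b = (a * b)⁻¹ := (inv_eq_of_mul_eq_one_left (hall _)).symm
          _ = b⁻¹ * a⁻¹ := mul_inv_rev a b
          _ = b * a := by rw [inv_eq_of_mul_eq_one_left (hall a), inv_eq_of_mul_eq_one_left (hall b)]
      · have h3 : Nat.card (⊤ : Subgroup G) = Nat.card G := Nat.card_congr Subgroup.topEquiv.toEquiv
        rw [h3] at hcard
        omega
  -- the characters
  obtain ⟨M, hM⟩ := exists_modular
  obtain ⟨ζ₂, ζ₃, ζ₄, ε, hε, -, -, -, -, -, -, hval, -, h3d, h4d, hzero⟩ :=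
    Cfsg.Agent.S0948.result M hM P hPK hone
  -- a further element of `S₀`
  obtain ⟨a, haS, ha1, hax⟩ : ∃ a ∈ S₀, a ≠ 1 ∧ a ≠ x := by
    by_contra hno'
    push Not at hno'
    have hsub : (S₀ : Set G) ⊆ {1, x} := by
      intro w hw
      by_cases h1 : w = 1
      · simp [h1]
      · simp [hno' w hw h1]
    have h5 := Set.ncard_le_ncard hsub (Set.toFinite _)
    have h6 : ({1, x} : Set G).ncard ≤ 2 := (Set.ncard_insert_le _ _).trans (by simp)
    have h7 : (S₀ : Set G).ncard = Nat.card S₀ := (Nat.card_coe_set_eq _).symm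
    omega
  have hxa1 : x * a ≠ 1 := by
    intro h
    apply hax
    calc a = x * x * a := by rw [hx2, one_mul]
      _ = x * (x * a) := mul_assoc _ _ _
      _ = x := by rw [h, mul_one]
  have hcases := klein_cases S₀ h4 hxS haS hx1 ha1 hxa1 hax
  have hxaS : x * a ∈ S₀ := S₀.mul_mem hxS haS
  have hord : ∀ w ∈ S₀, w ≠ 1 → orderOf w = 2 := fun w hw h1 =>
    orderOf_eq_prime (by rw [sq]; exact hS2 w hw) h1
  have hpsi : ∀ w ∈ S₀, w ≠ 1 →
      1 + (ζ₂ : G → ℂ) w + (ε : ℂ) * (ζ₃ : G → ℂ) w - (ζ₄ : G → ℂ) w = 4 := by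
    intro w hw h1
    obtain ⟨v1, v2, v3⟩ := hval w (hord w hw h1)
    rw [v1, v2, v3]
    rcases hε with rfl | rfl <;> norm_num
  -- evaluation of the sum
  have hterm : ∀ b : G, 1 + (ζ₂ : G → ℂ) (x * (b * x * b⁻¹)) + (ε : ℂ) * (ζ₃ : G → ℂ) (x * (b * x * b⁻¹))
      - (ζ₄ : G → ℂ) (x * (b * x * b⁻¹)) =
      (if b * x * b⁻¹ = a then 4 else 0) + (if b * x * b⁻¹ = x * a then 4 else 0) := by
    intro b
    set s := b * x * b⁻¹ with hs
    have hs2 : s * s = 1 := by
      rw [hs]
      calc b * x * b⁻¹ * (b * x * b⁻¹) = b * (x * x) * b⁻¹ := by group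
        _ = 1 := by rw [hx2]; group
    have hs1 : s ≠ 1 := by
      intro h
      apply hx1
      have : x = b⁻¹ * s * b := by rw [hs]; group
      rw [this, h]; simp
    have hane : a ≠ x * a := by
      intro h
      apply hx1
      have h2 : 1 * a = x * a := by rw [one_mul]; exact h
      exact (mul_right_cancel h2).symm
    by_cases h1 : s = a
    · rw [h1, if_pos rfl, if_neg hane, hpsi (x * a) hxaS hxa1]
      simp
    by_cases h2 : s = x * a
    · have h3 : x * s = a := by
        rw [h2, ← mul_assoc, hx2, one_mul]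
      rw [h3, hpsi a haS ha1, if_neg h1, if_pos h2]
      simp
    · rw [if_neg h1, if_neg h2]
      have hodd' : Odd (orderOf (x * s)) := by
        by_contra hne
        have heven : Even (orderOf (x * s)) := Nat.not_odd_iff_even.mp hne
        have hsS := mem_of_even hx1 hx2 hle hodd hn h4 hS2 hxS hx hone hs2 heven
        rcases hcases s hsS with h | h | h | h
        · exact hs1 h
        · rw [h, hx2, orderOf_one] at heven
          exact absurd heven (by decide)
        · exact h1 h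
        · exact h2 h
      have := hzero _ hodd'
      rw [this]
      simp
  -- conjugators
  obtain ⟨g₁, hg₁⟩ := isConj_iff.mp (hone x a hx (hord a haS ha1))
  obtain ⟨g₂, hg₂⟩ := isConj_iff.mp (hone x (x * a) hx (hord _ hxaS hxa1))
  have hc1 : (Finset.univ.filter (fun b : G => b * x * b⁻¹ = a)).card = Nat.card C := by
    have := count_fibre x g₁
    rwa [hg₁] at this
  have hc2 : (Finset.univ.filter (fun b : G => b * x * b⁻¹ = x * a)).card = Nat.card C := by
    have := count_fibre x g₂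
    rwa [hg₂] at this
  have hc0 : (Finset.univ.filter (fun b : G => b * x * b⁻¹ = x)).card = Nat.card C := by
    have := count_fibre x (1 : G)
    simpa using this
  have hsum : ∑ b : G, (1 + (ζ₂ : G → ℂ) (x * (b * x * b⁻¹)) + (ε : ℂ) * (ζ₃ : G → ℂ) (x * (b * x * b⁻¹))
      - (ζ₄ : G → ℂ) (x * (b * x * b⁻¹))) = 8 * (Nat.card C : ℂ) := by
    simp only [hterm]
    rw [Finset.sum_add_distrib, Finset.sum_ite, Finset.sum_ite]
    simp only [Finset.sum_const, Finset.sum_const_zero, add_zero, nsmul_eq_mul]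
    rw [hc1, hc2]
    ring
  -- the averaging formula
  have hd : ∀ ζ : IrrCharacter G, (ζ : G → ℂ) 1 = (charDegree (ζ : G → ℂ) : ℂ) := fun ζ =>
    Cfsg.Agent.Lib.CharKernel.one_eq_charDegree (IsIrrCharacter.isCharacter ζ.2)
  have hdpos : ∀ ζ : IrrCharacter G, 0 < charDegree (ζ : G → ℂ) := by
    intro ζ
    obtain ⟨n, hn, h⟩ := irr_one_eq ζ.2
    rw [hd ζ] at h
    have : charDegree (ζ : G → ℂ) = n := by exact_mod_cast h
    omega
  obtain ⟨v₂, v₃, v₄⟩ := hval x hx
  have hε2 : (ε : ℂ) * (ε : ℂ) = 1 := by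
    rcases hε with rfl | rfl <;> norm_num
  have a₂ := irr_avg ζ₂.2 x x
  have a₃ := irr_avg ζ₃.2 x x
  have a₄ := irr_avg ζ₄.2 x x
  rw [v₂, hd ζ₂] at a₂
  rw [v₃, hd ζ₃] at a₃
  rw [v₄, hd ζ₄] at a₄
  set d₂ := charDegree (ζ₂ : G → ℂ) with hd₂
  set d₃ := charDegree (ζ₃ : G → ℂ) with hd₃
  set d₄ := charDegree (ζ₄ : G → ℂ) with hd₄
  have hd₂0 : (d₂ : ℂ) ≠ 0 := by exact_mod_cast (hdpos ζ₂).ne'
  have hd₃0 : (d₃ : ℂ) ≠ 0 := by exact_mod_cast (hdpos ζ₃).ne'
  have hd₄0 : (d₄ : ℂ) ≠ 0 := by exact_mod_cast (hdpos ζ₄).ne'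
  have hsum2 : (Nat.card G : ℂ) * (1 + 1 / (d₂ : ℂ) + (ε : ℂ) / (d₃ : ℂ) - 1 / (d₄ : ℂ)) =
      8 * (Nat.card C : ℂ) := by
    rw [← hsum]
    rw [Finset.sum_sub_distrib, Finset.sum_add_distrib, Finset.sum_add_distrib, ← Finset.mul_sum]
    simp only [Finset.sum_const, Finset.card_univ, nsmul_eq_mul, mul_one]
    rw [← Nat.card_eq_fintype_card]
    set A₂ := ∑ b : G, (ζ₂ : G → ℂ) (x * (b * x * b⁻¹))
    set A₃ := ∑ b : G, (ζ₃ : G → ℂ) (x * (b * x * b⁻¹))
    set A₄ := ∑ b : G, (ζ₄ : G → ℂ) (x * (b * x * b⁻¹))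
    have e₂ : A₂ = (Nat.card G : ℂ) * (1 / (d₂ : ℂ)) := by
      field_simp
      linear_combination a₂
    have e₃ : (ε : ℂ) * A₃ = (Nat.card G : ℂ) * ((ε : ℂ) / (d₃ : ℂ)) := by
      have a₃' : (d₃ : ℂ) * A₃ = (Nat.card G : ℂ) := by
        rw [a₃, mul_assoc, hε2, mul_one]
      field_simp
      linear_combination (ε : ℂ) * a₃'
    have e₄ : A₄ = (Nat.card G : ℂ) * (1 / (d₄ : ℂ)) := by
      field_simp
      linear_combination a₄
    rw [e₂, e₃, e₄]
    ring
  have hrel : 1 + (d₂ : ℤ) + ε * d₃ - d₄ = 0 := by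
    have h1 := hzero 1 (by simp)
    rw [hd ζ₂, hd ζ₃, hd ζ₄] at h1
    exact_mod_cast h1
  have harith := arith d₂ d₃ d₄ (hdpos ζ₂) (hdpos ζ₃) (hdpos ζ₄) ε hε h3d h4d hrel
  have hsumQ : (Nat.card G : ℚ) * (1 + 1 / (d₂ : ℚ) + (ε : ℚ) / (d₃ : ℚ) - 1 / (d₄ : ℚ)) =
      8 * (Nat.card C : ℚ) := by
    have key : (((Nat.card G : ℚ) * (1 + 1 / (d₂ : ℚ) + (ε : ℚ) / (d₃ : ℚ) - 1 / (d₄ : ℚ)) : ℚ) : ℂ) =
        ((8 * (Nat.card C : ℚ) : ℚ) : ℂ) := by
      push_cast
      exact hsum2
    exact (Rat.cast_inj (α := ℂ)).mp key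
  have hlt : Nat.card G < 16 * Nat.card C := by
    have hG : (0 : ℚ) < Nat.card G := by exact_mod_cast hGpos
    have h1 : (Nat.card G : ℚ) * (1 / 2) < 8 * (Nat.card C : ℚ) := by
      rw [← hsumQ]
      exact mul_lt_mul_of_pos_left harith hG
    have h2 : (Nat.card G : ℚ) < 16 * (Nat.card C : ℚ) := by linarith
    exact_mod_cast h2
  -- the normalizer
  set H := Subgroup.normalizer (S₀ : Set G) with hH
  have hHmem : ∀ b : G, b ∈ H ↔ b * x * b⁻¹ = x ∨ b * x * b⁻¹ = a ∨ b * x * b⁻¹ = x * a := by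
    intro b
    constructor
    · intro hb
      have h1 : b * x * b⁻¹ ∈ S₀ := (Subgroup.mem_normalizer_iff.mp hb x).1 hxS
      rcases hcases _ h1 with h | h | h | h
      · exfalso
        apply hx1
        have : x = b⁻¹ * (b * x * b⁻¹) * b := by group
        rw [this, h]; simp
      · exact Or.inl h
      · exact Or.inr (Or.inl h)
      · exact Or.inr (Or.inr h)
    · intro h
      apply mem_normalizer_of_conj_mem hx1 hx2 hle hodd hn hS2
      rcases h with h | h | h <;> rw [h]
      · exact hxS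
      · exact haS
      · exact hxaS
  have hHcard : Nat.card H = 3 * Nat.card C := by
    have h1 : Nat.card H = (Finset.univ.filter (fun b : G => b ∈ H)).card := by
      rw [Nat.card_eq_fintype_card, Fintype.card_subtype]
    have h2 : Finset.univ.filter (fun b : G => b ∈ H) =
        Finset.univ.filter (fun b : G => b * x * b⁻¹ = x) ∪
          (Finset.univ.filter (fun b : G => b * x * b⁻¹ = a) ∪
            Finset.univ.filter (fun b : G => b * x * b⁻¹ = x * a)) := by
      ext b
      simp only [Finset.mem_filter, Finset.mem_union, Finset.mem_univ, true_and]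
      exact hHmem b
    have hane : a ≠ x * a := by
      intro h
      apply hx1
      have h2 : 1 * a = x * a := by rw [one_mul]; exact h
      exact (mul_right_cancel h2).symm
    have hxne : x ≠ x * a := by
      intro h
      apply ha1
      have h2 : x * 1 = x * a := by rw [mul_one]; exact h
      exact (mul_left_cancel h2).symm
    rw [h1, h2, Finset.card_union_of_disjoint, Finset.card_union_of_disjoint, hc0, hc1, hc2]
    · ring
    · rw [Finset.disjoint_filter]
      intro b _ h3 h4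
      exact hane (h3.symm.trans h4)
    · rw [Finset.disjoint_union_right]
      constructor
      · rw [Finset.disjoint_filter]
        intro b _ h3 h4
        exact hax (h4.symm.trans h3)
      · rw [Finset.disjoint_filter]
        intro b _ h3 h4
        exact hxne (h3.symm.trans h4)
  have hidxC := Subgroup.index_mul_card C
  have hidxH := Subgroup.index_mul_card H
  have hCpos : 0 < Nat.card C := Nat.card_pos
  have hCge : 4 ≤ Nat.card C := by
    rw [← h4]
    exact Subgroup.card_le_of_le hle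
  have hiC : C.index = 3 * H.index := by
    apply Nat.eq_of_mul_eq_mul_right hCpos
    rw [hidxC, ← hidxH, hHcard]
    ring
  have hk : H.index ≤ 5 := by
    have h1 : C.index < 16 := by
      apply Nat.lt_of_mul_lt_mul_right (a := Nat.card C)
      rw [hidxC]
      exact hlt
    omega
  have hHtop : H ≠ ⊤ := by
    intro h
    have hnorm : S₀.Normal := Subgroup.normalizer_eq_top_iff.mp h
    rcases hnorm.eq_bot_or_eq_top with h5 | h5
    · rw [h5] at h4
      simp at h4
    · rw [h5] at hS2 h4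
      have h3 : Nat.card G = 4 := by
        rw [← h4]
        exact (Nat.card_congr Subgroup.topEquiv.toEquiv).symm
      apply hna
      have hall : ∀ w : G, w * w = 1 := fun w => hS2 w trivial
      refine ⟨⟨fun a b => ?_⟩⟩
      calc a * b = (a * b)⁻¹ := (inv_eq_of_mul_eq_one_left (hall _)).symm
        _ = b⁻¹ * a⁻¹ := mul_inv_rev a b
        _ = b * a := by rw [inv_eq_of_mul_eq_one_left (hall a), inv_eq_of_mul_eq_one_left (hall b)]
  obtain ⟨f, hf⟩ := Cfsg.Agent.S0494.embed_of_index hna H H.index rfl hHtop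
  have hle' := Nat.card_le_card_of_injective f hf
  have hH1 : H.index ≠ 1 := fun h => hHtop (Subgroup.index_eq_one.mp h)
  have hH0 : H.index ≠ 0 := Subgroup.index_ne_zero_of_finite
  have hGeq : Nat.card G = 3 * H.index * Nat.card C := by
    rw [← hidxC, hiC]
  have h60 : Nat.card G = 60 := by
    revert hle' hGeq hk hH1 hH0
    generalize H.index = k
    intro hk hle' hH1 hH0 hGeq
    have a2 : Nat.card (alternatingGroup (Fin 2)) = 1 := by
      rw [Nat.card_eq_fintype_card]; decide +kernel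
    have a3 : Nat.card (alternatingGroup (Fin 3)) = 3 := by
      rw [Nat.card_eq_fintype_card]; decide +kernel
    have a4 : Nat.card (alternatingGroup (Fin 4)) = 12 := by
      rw [Nat.card_eq_fintype_card]; decide +kernel
    have a5 : Nat.card (alternatingGroup (Fin 5)) = 60 := by
      rw [Nat.card_eq_fintype_card]; decide +kernel
    have hk' : k = 2 ∨ k = 3 ∨ k = 4 ∨ k = 5 := by omega
    rcases hk' with rfl | rfl | rfl | rfl
    · rw [a2] at hle'
      omega
    · rw [a3] at hle'
      omega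
    · rw [a4] at hle'
      omega
    · rw [a5] at hle'
      omega
  exact Cfsg.Agent.S0494.result h60

end Main

/-- Let G be a finite simple group with an involution x such that a Sylow 2-subgroup of C_G(x) is a Klein four-group which is normal in C_G(x). Then G is isomorphic to the alternating group of degree 5 (that is, to PSL(2, 5)). -/
theorem result {G : Type*} [Group G] [Finite G] [IsSimpleGroup G] (x : G) (hx : orderOf x = 2)
    (S₀ : Subgroup G) (hle : S₀ ≤ Subgroup.centralizer ({x} : Set G)) (hK : IsKleinFour ↥S₀)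
    (hodd : ¬ 2 ∣ S₀.relIndex (Subgroup.centralizer ({x} : Set G))) (hn : (S₀.subgroupOf (Subgroup.centralizer ({x} : Set G))).Normal) :
    Nonempty (G ≃* ↥(alternatingGroup (Fin 5))) :=
  main x hx S₀ hle hK hodd hn

end Cfsg.Agent.S3278
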