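import Mathlib
import Cfsg.Statements.S3299
import Cfsg.Agent.Lib.LargeIdx

set_option autoImplicit false
set_option linter.style.haveILetI false
open Cfsg

namespace Cfsg.Agent.S3299

open Cfsg.Agent.Lib.LargeExtra Cfsg.Agent.Lib.LargeIdx Cfsg.Agent.Lib.ThompsonFix

/-- Let G be a finite group with no nontrivial 2-group quotient (O^2(G) = G), z an involution of G with H = C_G(z), and suppose E = O_2(H) is extraspecial with C_G(E) ≤ E and of order 2^(2n+1) with n ≥ 2. Then E is contained in every normal subgroup of H of index 2. -/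
theorem result {G : Type*} [Group G] [Finite G] (hres : Cfsg.pResidual 2 G = ⊤) (z : G) (hz : orderOf z = 2)
    (E : Subgroup G) (hE : E = (Cfsg.pCore 2 ↥(Subgroup.centralizer ({z} : Set G))).map (Subgroup.centralizer ({z} : Set G)).subtype)
    (hext : Cfsg.IsExtraspecial 2 ↥E) (hcent : Subgroup.centralizer (E : Set G) ≤ E) (n : ℕ) (hn : 2 ≤ n) (hcard : Nat.card ↥E = 2 ^ (2 * n + 1))
    (K : Subgroup G) (hKH : K ≤ Subgroup.centralizer ({z} : Set G))
    (hKn : ∀ h ∈ Subgroup.centralizer ({z} : Set G), K.map (MulAut.conj h).toMonoidHom = K)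
    (hKi : K.relIndex (Subgroup.centralizer ({z} : Set G)) = 2) : E ≤ K := by
  classical
  haveI : Fact (Nat.Prime 2) := ⟨Nat.prime_two⟩
  by_contra hnot
  have hS := setting_of_hyp z hz E hE hext hcent
  have X := hS.extra
  have hzz := X.sq_eq
  set H := Subgroup.centralizer ({z} : Set G) with hH
  have hmemH : ∀ x : G, x * z = z * x → x ∈ H := by
    intro x hx
    rw [hH, Subgroup.mem_centralizer_iff]
    intro y hy
    rw [Set.mem_singleton_iff.1 hy]
    exact hx.symm
  have hHz : ∀ x ∈ H, x * z = z * x := by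
    intro x hx
    exact (Subgroup.mem_centralizer_iff.1 hx z (Set.mem_singleton z)).symm
  have hcard32 : 32 ≤ Nat.card E := by
    rw [hcard]
    calc 32 = 2 ^ 5 := by norm_num
      _ ≤ 2 ^ (2 * n + 1) := Nat.pow_le_pow_right (by norm_num) (by omega)
  have hKi' : (K.subgroupOf H).index = 2 := hKi
  -- index two in `H`
  have hmulK : ∀ a ∈ H, ∀ b ∈ H, (a * b ∈ K ↔ (a ∈ K ↔ b ∈ K)) := by
    intro a ha b hb
    have := Subgroup.mul_mem_iff_of_index_two hKi' (a := ⟨a, ha⟩) (b := ⟨b, hb⟩)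
    simpa [Subgroup.mem_subgroupOf] using this
  have hcommK : ∀ a ∈ H, ∀ b ∈ H, a * b * a⁻¹ * b⁻¹ ∈ K := by
    intro a ha b hb
    have e : a * b * a⁻¹ * b⁻¹ = (a * b) * (a⁻¹ * b⁻¹) := by group
    rw [e, hmulK _ (H.mul_mem ha hb) _ (H.mul_mem (H.inv_mem ha) (H.inv_mem hb)), hmulK a ha b hb,
      hmulK _ (H.inv_mem ha) _ (H.inv_mem hb), K.inv_mem_iff, K.inv_mem_iff]
  -- the conjugates of `z` in `E` lie in `K`
  have hconjK : ∀ g : G, g * z * g⁻¹ ∈ E → g * z * g⁻¹ ≠ z → g * z * g⁻¹ ∈ K := by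
    intro g hg hne
    obtain ⟨a, b, ha, hb, hab⟩ := exists_commutator_of_conj_mem hS hcard32 hg hne
    rw [← hab]
    exact hcommK a (hmemH a ha) b (hmemH b hb)
  have hEH : E ≤ H := by
    rw [hE]; exact Subgroup.map_subtype_le _
  -- `z ∈ K`
  have hzK : z ∈ K := by
    obtain ⟨x, hxE, hx1, hxz⟩ : ∃ x ∈ E, x ≠ 1 ∧ x ≠ z := by
      by_contra hcon
      push Not at hcon
      have : Nat.card E ≤ 2 := by
        refine (card_le_of_list [1, z] ?_).trans (by simp)
        intro q hq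
        by_cases hq1 : q = 1
        · simp [hq1]
        · simp [hcon q hq hq1]
      omega
    obtain ⟨t, ht, hts⟩ := X.exists_not_comm hxE hx1 hxz
    have h2 := hcommK t (hEH ht) x (hEH hxE)
    have h3 : t * x * t⁻¹ * x⁻¹ = z := by
      rw [hts]
      have := X.cen x hxE
      calc x * z * x⁻¹ = (z * x) * x⁻¹ := by rw [this]
        _ = z := by group
    rwa [h3] at h2
  obtain ⟨e, heE, heK⟩ := SetLike.not_le_iff_exists.1 hnot
  have hidx : ∀ a ∈ E, ∀ b ∈ E, a ∉ K → b ∉ K → a * b ∈ K := by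
    intro a ha b hb haK hbK
    rw [hmulK a (hEH ha) b (hEH hb)]
    exact ⟨fun h => absurd h haK, fun h => absurd h hbK⟩
  obtain ⟨s, hsE, hss, hsK⟩ := exists_involution_not_mem X hcard32 K hzK heE heK hidx
  have hs1 : s ≠ 1 := fun h => hsK (h ▸ K.one_mem)
  have hsz : s ≠ z := fun h => hsK (h ▸ hzK)
  obtain ⟨T, hET, hTz⟩ := exists_sylow hS
  have hTH : (T : Subgroup G) ≤ H := fun t ht => hmemH t (hTz t ht)
  have hM : ((T : Subgroup G) ⊓ K).relIndex (T : Subgroup G) = 2 := by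
    have hsT : s ∈ (T : Subgroup G) := hET hsE
    rw [Subgroup.relIndex, Subgroup.index_eq_two_iff]
    refine ⟨⟨s, hsT⟩, ?_⟩
    rintro ⟨b, hb⟩
    have h1 := hmulK b (hTH hb) s (hTH hsT)
    simp only [Subgroup.mem_subgroupOf, Subgroup.mem_inf, Subgroup.coe_mul]
    have h2 : b * s ∈ K ↔ ¬ b ∈ K := by rw [h1]; simp [hsK]
    have hbsT : b * s ∈ (T : Subgroup G) := (T : Subgroup G).mul_mem hb hsT
    by_cases hbK : b ∈ K
    · exact Or.inr ⟨⟨hb, hbK⟩, fun h => (h2.1 h.2) hbK⟩
    · exact Or.inl ⟨⟨hbsT, h2.2 hbK⟩, fun h => hbK h.2⟩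
  set D : Subgroup G := E ⊓ Subgroup.centralizer ({s} : Set G) with hD
  have hDs : ∀ d ∈ D, d * s = s * d := by
    intro d hd
    exact (Subgroup.mem_centralizer_iff.1 hd.2 s (Set.mem_singleton s)).symm
  have hD2 : IsPGroup 2 D := X.two.to_le inf_le_left
  obtain ⟨g, hgM, hgD⟩ := exists_conj_le (no_index_two hres) (T : Subgroup G) ((T : Subgroup G) ⊓ K)
    inf_le_left hM T.not_dvd_index s 1 (by rw [pow_one, pow_two]; exact hss)
    (by
      intro m g hm hm0 hmem
      obtain ⟨k, rfl⟩ := hm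
      have : s ^ (2 * k) = 1 := by rw [pow_mul, pow_two, hss, one_pow]
      rw [this]
      simp [Subgroup.one_mem])
    D hD2 hDs
  -- conjugate data
  have hS' := hS.conj g⁻¹
  have hconj_z : g⁻¹ * z * g⁻¹⁻¹ = g⁻¹ * z * g := by simp
  rw [hconj_z] at hS'
  set Q := E.map (MulAut.conj g⁻¹).toMonoidHom with hQ
  set y := g⁻¹ * s * g with hy
  set z' := g⁻¹ * z * g with hz'
  have hmemQ : ∀ e ∈ E, g⁻¹ * e * g ∈ Q := by
    intro e he
    exact ⟨e, he, by simp [MulAut.conj_apply]⟩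
  have hmemD : ∀ e ∈ E, e * s = s * e → e ∈ D := fun e he h =>
    Subgroup.mem_inf.2 ⟨he, Subgroup.mem_centralizer_iff.2 (by
      intro y hy
      rw [Set.mem_singleton_iff.1 hy]
      exact h.symm)⟩
  have hzD : z ∈ D := hmemD z X.mem (X.cen s hsE).symm
  have hz'T : z' ∈ (T : Subgroup G) := hgD z hzD
  have hyy : y * y = 1 := by
    calc y * y = g⁻¹ * (s * s) * g := by rw [hy]; group
      _ = 1 := by rw [hss]; group
  have hy1 : y ≠ 1 := by
    intro h
    apply hs1
    have : s = g * y * g⁻¹ := by rw [hy]; group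
    rw [this, h]; group
  have hyz' : y ≠ z' := by
    intro h
    apply hsz
    calc s = g * y * g⁻¹ := by rw [hy]; group
      _ = g * z' * g⁻¹ := by rw [h]
      _ = z := by rw [hz']; group
  have hcases := mem_of_centralizes hS' (hmemQ s hsE) hyy hy1 hyz' (a := z) ((hTz z' hz'T).symm)
    (by
      rintro w ⟨e, he, rfl⟩ hw
      have hw' : g⁻¹ * e * g = (MulAut.conj g⁻¹).toMonoidHom e := by simp [MulAut.conj_apply]
      rw [← hw'] at hw ⊢
      have hes : e * s = s * e := by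
        have h1 : g * (g⁻¹ * e * g * y) * g⁻¹ = g * (y * (g⁻¹ * e * g)) * g⁻¹ := by rw [hw]
        calc e * s = g * (g⁻¹ * e * g * y) * g⁻¹ := by rw [hy]; group
          _ = g * (y * (g⁻¹ * e * g)) * g⁻¹ := h1
          _ = s * e := by rw [hy]; group
      have heD : e ∈ D := hmemD e he hes
      exact (hTz _ (hgD e heD)).symm)
  rcases hcases with h | h | h | h
  · exact X.ne_one h
  · -- `z = z'`: `g ∈ H`
    have hgz : g * z = z * g := by
      have h1 : g * z' = z * g := by rw [hz']; group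
      rw [← h] at h1
      exact h1
    have hgH : g ∈ H := hmemH g hgz
    apply hsK
    have h1 := hKn g hgH
    rw [← h1]
    exact ⟨y, hgM.2, by simp [MulAut.conj_apply, hy]; group⟩
  · -- `z = y`
    have h1 : g * z * g⁻¹ = s := by
      calc g * z * g⁻¹ = g * y * g⁻¹ := congrArg (fun a => g * a * g⁻¹) h
        _ = s := by rw [hy]; group
    apply hsK
    rw [← h1]
    exact hconjK g (h1 ▸ hsE) (h1 ▸ hsz)
  · -- `z = y z'`
    have h1 : g * z * g⁻¹ = s * z := by
      calc g * z * g⁻¹ = g * (y * z') * g⁻¹ := congrArg (fun a => g * a * g⁻¹) h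
        _ = s * z := by rw [hy, hz']; group
    have h3 : s * z ∈ K := by
      rw [← h1]
      refine hconjK g ?_ ?_
      · rw [h1]; exact E.mul_mem hsE X.mem
      · rw [h1]
        intro h4
        exact hs1 (mul_right_cancel (h4.trans (one_mul z).symm))
    apply hsK
    have h5 : s = (s * z) * z⁻¹ := by group
    rw [h5]
    exact K.mul_mem h3 (K.inv_mem hzK)

end Cfsg.Agent.S3299
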