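import Mathlib
import Cfsg.Statements.S3301
import Cfsg.Agent.Lib.BlockEight
import Cfsg.Agent.Lib.ExtraBasics

set_option autoImplicit false
set_option linter.style.haveILetI false
open Cfsg

namespace Cfsg.Agent.S3301

open Cfsg.Agent.Lib.LargeExtra Cfsg.Agent.Lib.LargeIdx Cfsg.Agent.Lib.BlockMain
  Cfsg.Agent.Lib.BlockEight

theorem dvd_aux {n k v : ℕ} (hn : n ≠ 0) (h4 : ¬ 4 ∣ n) (h : n ∣ 2 ^ k * v) : n ∣ 2 * v := by
  obtain ⟨e, m, hm, rfl⟩ := Nat.exists_eq_two_pow_mul_odd hn
  have he : e ≤ 1 := by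
    by_contra he
    apply h4
    have : 2 ≤ e := by omega
    exact Dvd.dvd.mul_right ((pow_dvd_pow 2 this : 2 ^ 2 ∣ 2 ^ e)) m
  have h1 : m ∣ 2 ^ k * v := (Dvd.intro_left _ rfl).trans h
  have h2 : Nat.Coprime m (2 ^ k) := Nat.Coprime.pow_right k (Nat.coprime_two_right.2 hm)
  have h3 : m ∣ v := h2.dvd_of_dvd_mul_left h1
  have h5 : 2 ^ e ∣ 2 := by
    calc 2 ^ e ∣ 2 ^ 1 := pow_dvd_pow 2 he
      _ = 2 := by norm_num
  exact Nat.mul_dvd_mul h5 h3

/-- A finite abelian group with an element `q` of `2`-power order with `q ^ 2 ≠ 1` has a surjection to `ℤ/4`. -/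
theorem exists_z4 {A : Type*} [CommGroup A] [Finite A] (q : A) (k : ℕ) (hk : orderOf q = 2 ^ k)
    (hq : q ^ 2 ≠ 1) : ∃ (f : A →* Multiplicative (ZMod 4)) (a : A),
      f a = Multiplicative.ofAdd (1 : ZMod 4) := by
  classical
  obtain ⟨ι, _, n, hn, ⟨e⟩⟩ := CommGroup.equiv_prod_multiplicative_zmod_of_finite A
  have hex : ∃ i, 4 ∣ n i := by
    by_contra hcon
    push Not at hcon
    apply hq
    apply e.injective
    rw [map_one]
    funext i
    have hne : n i ≠ 0 := by have := hn i; omega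
    haveI : NeZero (n i) := ⟨hne⟩
    have hpow : q ^ (2 ^ k) = 1 := by rw [← hk]; exact pow_orderOf_eq_one q
    have h1 := congrFun (congrArg e hpow) i
    rw [map_pow, map_one] at h1
    simp only [Pi.pow_apply, Pi.one_apply] at h1
    set x := (e q i) with hx
    have h2 : (2 ^ k : ℕ) • Multiplicative.toAdd x = (0 : ZMod (n i)) := by
      have := congrArg Multiplicative.toAdd h1
      simpa using this
    have hxval : ((Multiplicative.toAdd x).val : ZMod (n i)) = Multiplicative.toAdd x :=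
      ZMod.natCast_zmod_val _
    have h3 : ((2 ^ k * (Multiplicative.toAdd x).val : ℕ) : ZMod (n i)) = 0 := by
      rw [Nat.cast_mul, hxval]
      rw [nsmul_eq_mul] at h2
      exact h2
    rw [ZMod.natCast_eq_zero_iff] at h3
    have h4 := dvd_aux hne (hcon i) h3
    rw [← ZMod.natCast_eq_zero_iff, Nat.cast_mul, hxval] at h4
    have h5 : (e (q ^ 2)) i = 1 := by
      rw [map_pow]
      simp only [Pi.pow_apply]
      apply Multiplicative.toAdd.injective
      have : Multiplicative.toAdd (x ^ 2) = (2 : ℕ) • Multiplicative.toAdd x := by simp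
      rw [this, nsmul_eq_mul]
      simpa using h4
    rw [h5]; rfl
  obtain ⟨i, hi⟩ := hex
  haveI : NeZero (n i) := ⟨by have := hn i; omega⟩
  let g : Multiplicative (ZMod (n i)) →* Multiplicative (ZMod 4) :=
    AddMonoidHom.toMultiplicative (ZMod.castHom hi (ZMod 4)).toAddMonoidHom
  let f : A →* Multiplicative (ZMod 4) := g.comp ((Pi.evalMonoidHom _ i).comp e.toMonoidHom)
  refine ⟨f, e.symm (Pi.mulSingle i (Multiplicative.ofAdd 1)), ?_⟩
  show g ((e (e.symm (Pi.mulSingle i (Multiplicative.ofAdd 1)))) i) = _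
  rw [MulEquiv.apply_symm_apply, Pi.mulSingle_eq_same]
  show Multiplicative.ofAdd ((ZMod.castHom hi (ZMod 4)) 1) = _
  rw [map_one]

/-- The sign character of `ℤ/4`. -/
def kappa : Multiplicative (ZMod 4) →* ℤˣ where
  toFun x := if x = Multiplicative.ofAdd (0 : ZMod 4) ∨ x = Multiplicative.ofAdd (2 : ZMod 4) then 1 else -1
  map_one' := by decide
  map_mul' := by decide

theorem kappa_of_sq : ∀ b : Multiplicative (ZMod 4), b * b = 1 → kappa b = 1 := by decide

theorem kappa_one : kappa (Multiplicative.ofAdd (1 : ZMod 4)) ≠ 1 := by decide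

/-- Let G be a finite group with no nontrivial 2-group quotient (O^2(G) = G), z an involution of G with H = C_G(z), and suppose E = O_2(H) is extraspecial with C_G(E) ≤ E. Then the Sylow 2-subgroups of H/[H, H] are elementary abelian: every element of 2-power order of the abelianization of H has order at most 2. -/
theorem result {G : Type*} [Group G] [Finite G] (hres : Cfsg.pResidual 2 G = ⊤) (z : G) (hz : orderOf z = 2)
    (E : Subgroup G) (hE : E = (Cfsg.pCore 2 ↥(Subgroup.centralizer ({z} : Set G))).map (Subgroup.centralizer ({z} : Set G)).subtype)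
    (hext : Cfsg.IsExtraspecial 2 ↥E) (hcent : Subgroup.centralizer (E : Set G) ≤ E) :
    ∀ q : Abelianization ↥(Subgroup.centralizer ({z} : Set G)), (∃ k : ℕ, orderOf q = 2 ^ k) → q ^ 2 = 1 := by
  classical
  rintro q ⟨k, hk⟩
  haveI : Fact (Nat.Prime 2) := ⟨Nat.prime_two⟩
  have hS := setting_of_hyp z hz E hE hext hcent
  obtain ⟨n, hn1, hcard⟩ := Cfsg.Agent.Lib.ExtraBasics.card_of_isExtraspecial hext
  by_cases hn : n = 1
  · subst hn
    exact eight_case hS (by rw [hcard]; norm_num) q k hk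
  by_contra hq
  obtain ⟨f, a, hfa⟩ := exists_z4 q k hk hq
  obtain ⟨y, rfl⟩ : ∃ y : Hz z, Abelianization.of y = a := by
    induction a using QuotientGroup.induction_on with
    | H y => exact ⟨y, rfl⟩
  refine core_Z4 hres hS ?_ (f.comp Abelianization.of) kappa kappa_of_sq ⟨y, ?_⟩
  · rw [hcard]
    calc 32 = 2 ^ 5 := by norm_num
      _ ≤ 2 ^ (1 + 2 * n) := Nat.pow_le_pow_right (by norm_num) (by omega)
  · show kappa (f (Abelianization.of y)) ≠ 1
    rw [hfa]
    exact kappa_one

end Cfsg.Agent.S3301
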