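import Mathlib
import Cfsg.Statements.S3303
import Cfsg.Agent.Lib.SolvTwo
import Cfsg.Agent.S3305

set_option autoImplicit false
open Cfsg

namespace Cfsg.Agent.S3303

open Cfsg.Agent.Lib.PCore Cfsg.Agent.Lib.SolvTwo

/-- Let G be a finite solvable group in which the intersection of any two distinct Sylow 2-subgroups is cyclic. Then G/O(G) has a normal Sylow 2-subgroup, where O(G) is the largest normal subgroup of odd order. -/
theorem result {G : Type*} [Group G] [Finite G] (hs : Group.IsSolvable G)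
    (hC : ∀ S T : Sylow 2 G, S ≠ T → IsCyclic ↥((S : Subgroup G) ⊓ (T : Subgroup G))) :
    ∃ P : Sylow 2 (G ⧸ Cfsg.oddCore G), (P : Subgroup (G ⧸ Cfsg.oddCore G)).Normal := by
  classical
  haveI : Fact (Nat.Prime 2) := ⟨Nat.prime_two⟩
  have hQ := Cfsg.Agent.S3305.result hC (Cfsg.oddCore G)
  have hO : pPrimeCore 2 (G ⧸ Cfsg.oddCore G) = ⊥ := pPrimeCore_quotient_pPrimeCore 2
  by_cases h : ∀ S T : Sylow 2 (G ⧸ Cfsg.oddCore G), S = T
  · haveI : Subsingleton (Sylow 2 (G ⧸ Cfsg.oddCore G)) := ⟨h⟩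
    obtain ⟨P⟩ : Nonempty (Sylow 2 (G ⧸ Cfsg.oddCore G)) := inferInstance
    exact ⟨P, P.normal_of_subsingleton⟩
  · exfalso
    apply h
    push Not at h
    obtain ⟨S, T, hne⟩ := h
    haveI := hQ S T hne
    have hR : pCore 2 (G ⧸ Cfsg.oddCore G) ≤ (S : Subgroup _) ⊓ (T : Subgroup _) :=
      le_inf (pCore_le_sylow 2 S) (pCore_le_sylow 2 T)
    haveI : IsCyclic ↥(pCore 2 (G ⧸ Cfsg.oddCore G)) :=
      isCyclic_of_injective (Subgroup.inclusion hR) (Subgroup.inclusion_injective hR)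
    have h2 := isPGroup_of_aut hO (isPGroup_mulAut_of_cyclic (isPGroup_pCore 2))
    have htop : ∀ P : Sylow 2 (G ⧸ Cfsg.oddCore G), (P : Subgroup (G ⧸ Cfsg.oddCore G)) = ⊤ := fun P =>
      (P.is_maximal' (Q := ⊤) (h2.of_equiv Subgroup.topEquiv.symm) le_top).symm
    intro A B
    exact Sylow.ext ((htop A).trans (htop B).symm)

end Cfsg.Agent.S3303
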