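import Mathlib
import Cfsg.Statements.S3304
import Cfsg.Agent.Lib.UniqueSub
import Cfsg.Agent.Lib.SolvTwo
import Cfsg.Agent.Lib.SylowQuot

set_option autoImplicit false
open Cfsg

set_option linter.style.haveILetI false
set_option linter.unusedVariables false
set_option linter.unusedSectionVars false

namespace Cfsg.Agent.S3304

open QuaternionGroup

abbrev T := QuaternionGroup 2
abbrev D3 := DihedralGroup 3

def gamF : T → T
  | a k => ![a 0, xa 0, a 2, xa 2] k
  | xa k => ![xa 3, a 3, xa 1, a 1] k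

def upsF : T → T
  | a k => ![a 0, a 3, a 2, a 1] k
  | xa k => ![xa 1, xa 0, xa 3, xa 2] k

theorem gamF_mul : ∀ s t : T, gamF (s * t) = gamF s * gamF t := by decide +kernel
theorem upsF_mul : ∀ s t : T, upsF (s * t) = upsF s * upsF t := by decide +kernel
theorem gamF3 : ∀ s : T, gamF (gamF (gamF s)) = s := by decide +kernel
theorem upsF2 : ∀ s : T, upsF (upsF s) = s := by decide +kernel
theorem upsgam : ∀ s : T, upsF (gamF (upsF (gamF s))) = s := by decide +kernel

/-- The order-three automorphism `i → j → k → i`. -/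
def gam : MulAut T :=
  MulEquiv.mk' ⟨gamF, fun t => gamF (gamF t), fun t => gamF3 t, fun t => gamF3 t⟩ gamF_mul

/-- The involutory automorphism `i → i⁻¹, j → k⁻¹, k → j⁻¹`. -/
def ups : MulAut T :=
  MulEquiv.mk' ⟨upsF, upsF, upsF2, upsF2⟩ upsF_mul

@[simp] theorem gam_apply (t : T) : gam t = gamF t := rfl
@[simp] theorem ups_apply (t : T) : ups t = upsF t := rfl

/-- Every element of `T` is a word in the generators. -/
theorem T_word : ∀ t : T, ∃ e k : Fin 4, t = (xa 0 : T) ^ e.val * (a 1 : T) ^ k.val := by decide +kernel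

theorem mulAut_T_ext (φ ψ : MulAut T) (h1 : φ (a 1) = ψ (a 1)) (h2 : φ (xa 0) = ψ (xa 0)) : φ = ψ := by
  ext t
  obtain ⟨e, k, rfl⟩ := T_word t
  simp only [map_mul, map_pow, h1, h2]

instance : Finite (MulAut T) := by
  exact Finite.of_injective (fun φ : MulAut T => (φ : T → T)) (fun φ ψ h => by ext t; exact congrFun h t)

theorem card_mulAut_T_le : Nat.card (MulAut T) ≤ 24 := by
  have hW : Nat.card {p : T × T // p.1 * p.2 ≠ p.2 * p.1} = 24 := by
    rw [Nat.card_eq_fintype_card]
    decide +kernel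
  rw [← hW]
  have hne : ∀ φ : MulAut T, φ (a 1) * φ (xa 0) ≠ φ (xa 0) * φ (a 1) := by
    intro φ h
    rw [← map_mul, ← map_mul] at h
    have := φ.injective h
    revert this
    decide +kernel
  refine Nat.card_le_card_of_injective
    (fun φ : MulAut T => (⟨(φ (a 1), φ (xa 0)), hne φ⟩ : {p : T × T // p.1 * p.2 ≠ p.2 * p.1})) ?_
  intro φ ψ h
  have h' := congrArg Subtype.val h
  simp only [Prod.mk.injEq] at h'
  exact mulAut_T_ext φ ψ h'.1 h'.2

section Core

variable {Q : Type*} [Group Q] [Finite Q] (R : Subgroup Q) [R.Normal] (f : T ≃* R)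

/-- Conjugation action of `Q` on `T ≅ R`. -/
noncomputable def Phi : Q →* MulAut T := (MulAut.congr f.symm).toMonoidHom.comp (MulAut.conjNormal (H := R))

theorem f_Phi (q : Q) (t : T) : ((f (Phi R f q t) : R) : Q) = q * (f t : Q) * q⁻¹ := by
  have : f (Phi R f q t) = MulAut.conjNormal q (f t) := by
    simp [Phi, MulAut.congr]
  rw [this, MulAut.conjNormal_apply]

/-- The central involution. -/
noncomputable def z : Q := (f (a 2) : Q)

theorem Phi_f (s t : T) : Phi R f (f s : Q) t = s * t * s⁻¹ := by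
  apply f.injective
  apply Subtype.ext
  rw [f_Phi]
  simp

theorem T_center : ∀ s : T, (∀ t : T, s * t = t * s) → s = a 0 ∨ s = a 2 := by decide +kernel

theorem T_two : ∀ s : T, s * s = 1 → s = a 0 ∨ s = a 2 := by decide +kernel

theorem f_a0 : (f (a 0) : Q) = 1 := by
  have : (a 0 : T) = 1 := rfl
  rw [this]; simp

theorem z_sq : z R f * z R f = 1 := by
  unfold z
  rw [← Subgroup.coe_mul, ← map_mul]
  have : (a 2 * a 2 : T) = 1 := by decide +kernel
  rw [this]; simp

theorem z_ne_one : z R f ≠ 1 := by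
  unfold z
  intro h
  have h1 : f (a 2) = 1 := Subtype.ext h
  have h2 := f.injective (h1.trans (map_one f).symm)
  revert h2
  decide +kernel

theorem z_mem : z R f ∈ R := (f (a 2)).2

theorem Phi_z_fix (φ : MulAut T) : φ (a 2) = a 2 := by
  have h : φ (a 2) * φ (a 2) = 1 := by
    rw [← map_mul]
    have : (a 2 * a 2 : T) = 1 := by decide +kernel
    rw [this, map_one]
  rcases T_two _ h with h' | h'
  · exfalso
    have : (a 0 : T) = 1 := rfl
    rw [this, ← map_one φ] at h'
    have := φ.injective h'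
    revert this
    decide +kernel
  · exact h'

theorem z_central (q : Q) : q * z R f = z R f * q := by
  have h := f_Phi R f q (a 2)
  rw [Phi_z_fix] at h
  unfold z
  calc q * (f (a 2) : Q) = (q * (f (a 2) : Q) * q⁻¹) * q := by group
    _ = (f (a 2) : Q) * q := by rw [← h]

variable (hC : ∀ q : Q, (∀ r ∈ R, q * r = r * q) → q ∈ R)
include hC

theorem Phi_eq_one_iff (q : Q) : Phi R f q = 1 ↔ q = 1 ∨ q = z R f := by
  constructor
  · intro h
    have hcomm : ∀ r ∈ R, q * r = r * q := by
      intro r hr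
      have h2 := f_Phi R f q (f.symm ⟨r, hr⟩)
      rw [h] at h2
      simp only [MulAut.one_apply, MulEquiv.apply_symm_apply] at h2
      calc q * r = (q * r * q⁻¹) * q := by group
        _ = r * q := by rw [← h2]
    have hq := hC q hcomm
    have hs : ∀ t : T, (f.symm ⟨q, hq⟩) * t = t * (f.symm ⟨q, hq⟩) := by
      intro t
      apply f.injective
      apply Subtype.ext
      simp only [map_mul, MulEquiv.apply_symm_apply, Subgroup.coe_mul]
      exact hcomm _ (f t).2
    rcases T_center _ hs with h0 | h0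
    · left
      have := congrArg (fun s => (f s : Q)) h0
      simp only [MulEquiv.apply_symm_apply] at this
      rw [f_a0] at this
      exact this
    · right
      have := congrArg (fun s => (f s : Q)) h0
      simp only [MulEquiv.apply_symm_apply] at this
      exact this
  · rintro (rfl | rfl)
    · simp
    · unfold z
      ext t
      rw [Phi_f]
      simp only [MulAut.one_apply]
      revert t
      decide +kernel

theorem card_ker_Phi : Nat.card (Phi R f).ker = 2 := by
  classical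
  rw [Nat.card_eq_two_iff]
  refine ⟨⟨1, one_mem _⟩, ⟨z R f, (Phi_eq_one_iff R f hC _).2 (Or.inr rfl)⟩, ?_, ?_⟩
  · intro h
    exact z_ne_one R f (congrArg Subtype.val h).symm
  · ext ⟨q, hq⟩
    simp only [Set.mem_insert_iff, Set.mem_singleton_iff, Set.mem_univ, iff_true]
    rcases (Phi_eq_one_iff R f hC q).1 hq with h | h
    · left; exact Subtype.ext h
    · right; exact Subtype.ext h

theorem card_Q_eq : Nat.card Q = 2 * Nat.card (Phi R f).range := by
  have h := Subgroup.card_mul_index (Phi R f).ker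
  rw [Subgroup.index_ker, card_ker_Phi R f hC] at h
  exact h.symm

include f in
theorem card_Q_le : Nat.card Q ≤ 48 := by
  rw [card_Q_eq R f hC]
  have h1 : Nat.card (Phi R f).range ≤ Nat.card (MulAut T) := Subgroup.card_le_card_group _
  have := card_mulAut_T_le
  omega

theorem Phi_surj (h48 : Nat.card Q = 48) : Function.Surjective (Phi R f) := by
  rw [← MonoidHom.range_eq_top]
  have h1 := card_Q_eq R f hC
  rw [h48] at h1
  apply Subgroup.eq_top_of_le_card
  have := card_mulAut_T_le
  omega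


/-- Normal form inside `Q` when `|Q| = 48`. -/
theorem exists_c_u (h48 : Nat.card Q = 48) :
    ∃ c u : Q, Phi R f c = gam ∧ Phi R f u = ups ∧ c ^ 3 = 1 ∧ (u ^ 2 = 1 ∨ u ^ 2 = z R f) ∧
      u * c * u⁻¹ = c⁻¹ := by
  have hs := Phi_surj R f hC h48
  obtain ⟨c₁, hc₁⟩ := hs gam
  obtain ⟨u, hu⟩ := hs ups
  have hgam3 : gam ^ 3 = 1 := by
    ext t
    simp only [pow_succ, pow_zero, one_mul, MulAut.mul_apply, gam_apply, MulAut.one_apply]
    exact gamF3 t
  have hups2 : ups ^ 2 = 1 := by
    ext t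
    simp only [pow_succ, pow_zero, one_mul, MulAut.mul_apply, ups_apply, MulAut.one_apply]
    exact upsF2 t
  have hz2 : z R f ^ 2 = 1 := by rw [pow_two, z_sq]
  have hz6 : z R f ^ 6 = 1 := by
    rw [show 6 = 2 * 3 from rfl, pow_mul, hz2, one_pow]
  -- `c₁ ^ 3` lies in `{1, z}`
  have hc3 : c₁ ^ 3 = 1 ∨ c₁ ^ 3 = z R f := by
    rw [← Phi_eq_one_iff R f hC, map_pow, hc₁, hgam3]
  set c : Q := c₁ ^ 4 with hc
  have hc_phi : Phi R f c = gam := by
    rw [hc, map_pow, hc₁, show 4 = 3 + 1 from rfl, pow_succ, hgam3, one_mul]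
  have hc_cube : c ^ 3 = 1 := by
    have e : c ^ 3 = (c₁ ^ 3) ^ 4 := by rw [hc, ← pow_mul, ← pow_mul]
    rw [e]
    rcases hc3 with h | h
    · rw [h, one_pow]
    · rw [h, show 4 = 2 * 2 from rfl, pow_mul, hz2, one_pow]
  have hu2 : u ^ 2 = 1 ∨ u ^ 2 = z R f := by
    rw [← Phi_eq_one_iff R f hC, map_pow, hu, hups2]
  have hrel : u * c * u⁻¹ * c = 1 ∨ u * c * u⁻¹ * c = z R f := by
    rw [← Phi_eq_one_iff R f hC]
    simp only [map_mul, map_inv, hu, hc_phi]
    ext t
    simp only [MulAut.mul_apply, MulAut.one_apply, gam_apply, ups_apply]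
    have h1 : ups⁻¹ = ups := by
      rw [inv_eq_iff_mul_eq_one, ← pow_two, hups2]
    rw [h1]
    simp only [ups_apply]
    exact upsgam t
  refine ⟨c, u, hc_phi, hu, hc_cube, hu2, ?_⟩
  rcases hrel with h | h
  · exact eq_inv_of_mul_eq_one_left h
  · exfalso
    have h1 : u * c * u⁻¹ = z R f * c⁻¹ := by
      rw [← h]; group
    have h2 : (u * c * u⁻¹) ^ 3 = 1 := by
      rw [conj_pow, hc_cube]; group
    rw [h1] at h2
    have h3 : (z R f * c⁻¹) ^ 3 = z R f := by
      have hcomm : Commute (z R f) c⁻¹ := (z_central R f c⁻¹).symm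
      rw [hcomm.mul_pow, inv_pow, hc_cube, inv_one, mul_one, show 3 = 2 + 1 from rfl, pow_succ, hz2, one_mul]
    rw [h3] at h2
    exact z_ne_one R f h2

end Core

/-! ### The case `u ^ 2 = 1`: the isomorphism with `GL₂(3)` -/

def actTab : D3 → T → T
  | DihedralGroup.r k, t => ![t, gamF t, gamF (gamF t)] k
  | DihedralGroup.sr k, t => ![upsF t, upsF (gamF t), upsF (gamF (gamF t))] k

abbrev GL23 := GL (Fin 2) (ZMod 3)

def I0 : GL23 := ⟨!![0,1;2,0], !![0,2;1,0], by decide +kernel, by decide +kernel⟩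
def J0 : GL23 := ⟨!![1,1;1,2], !![2,2;2,1], by decide +kernel, by decide +kernel⟩
def C0 : GL23 := ⟨!![0,1;2,2], !![2,2;1,0], by decide +kernel, by decide +kernel⟩
def U0 : GL23 := ⟨!![0,1;1,0], !![0,1;1,0], by decide +kernel, by decide +kernel⟩

def FT : T → GL23
  | a k => I0 ^ k.val
  | xa k => J0 * I0 ^ k.val

def FD : D3 → GL23
  | DihedralGroup.r k => C0 ^ k.val
  | DihedralGroup.sr k => U0 * C0 ^ k.val

theorem FT_mul : ∀ s t : T, FT (s * t) = FT s * FT t := by decide +kernel
theorem FD_mul : ∀ s t : D3, FD (s * t) = FD s * FD t := by decide +kernel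
theorem FD_act : ∀ (h : D3) (t : T), FD h * FT t = FT (actTab h t) * FD h := by decide +kernel
theorem FTD_inj : ∀ (p q : T × D3), FT p.1 * FD p.2 = FT q.1 * FD q.2 → p = q := by decide +kernel

theorem act_inj : ∀ (s : T) (h h' : D3), (∀ x : T, actTab h x = s * actTab h' x * s⁻¹) → h = h' := by
  decide +kernel

theorem card_T_D3 : Nat.card (T × D3) = 48 := by
  rw [Nat.card_eq_fintype_card]; decide +kernel

theorem iso_of_tab {X Y A : Type*} [Group X] [Group Y] (ψ₁ : A → X) (ψ₂ : A → Y)
    (h₁ : Function.Bijective ψ₁) (h₂ : Function.Bijective ψ₂) (m : A → A → A)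
    (hm₁ : ∀ p q, ψ₁ p * ψ₁ q = ψ₁ (m p q)) (hm₂ : ∀ p q, ψ₂ p * ψ₂ q = ψ₂ (m p q)) :
    Nonempty (X ≃* Y) := by
  let e₁ := Equiv.ofBijective ψ₁ h₁
  let e₂ := Equiv.ofBijective ψ₂ h₂
  refine ⟨MulEquiv.mk' (e₁.symm.trans e₂) ?_⟩
  intro x y
  obtain ⟨p, rfl⟩ := h₁.2 x
  obtain ⟨q, rfl⟩ := h₁.2 y
  have hp : ∀ p, e₁.symm (ψ₁ p) = p := fun p => e₁.symm_apply_apply p
  simp only [Equiv.trans_apply, hm₁, hp]
  exact (hm₂ p q).symm

def fD {Q : Type*} [Group Q] (c u : Q) : D3 → Q
  | DihedralGroup.r k => c ^ k.val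
  | DihedralGroup.sr k => u * c ^ k.val

theorem cz_add {Q : Type*} [Group Q] {c : Q} (hc : c ^ 3 = 1) (i j : ZMod 3) :
    c ^ (i + j).val = c ^ i.val * c ^ j.val := by
  rw [ZMod.val_add, ← pow_eq_pow_mod _ hc, pow_add]

theorem cz_sub {Q : Type*} [Group Q] {c : Q} (hc : c ^ 3 = 1) (i j : ZMod 3) :
    c ^ (j - i).val = (c ^ i.val)⁻¹ * c ^ j.val := by
  rw [eq_inv_mul_iff_mul_eq, ← cz_add hc, add_sub_cancel]

theorem fD_mul {Q : Type*} [Group Q] {c u : Q} (hc : c ^ 3 = 1) (hu : u ^ 2 = 1)
    (huc : u * c * u⁻¹ = c⁻¹) (s t : D3) : fD c u (s * t) = fD c u s * fD c u t := by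
  have hu' : u⁻¹ = u := by rw [inv_eq_iff_mul_eq_one, ← pow_two, hu]
  have hconj : ∀ k : ℕ, u * c ^ k * u⁻¹ = (c ^ k)⁻¹ := by
    intro k
    rw [← conj_pow, huc, inv_pow]
  rcases s with i | i <;> rcases t with j | j
  · simp only [DihedralGroup.r_mul_r, fD]
    exact cz_add hc i j
  · simp only [DihedralGroup.r_mul_sr, fD]
    rw [cz_sub hc i j, ← mul_assoc, ← hconj i.val, hu']
    have := hu
    rw [pow_two] at this
    calc u * (u * c ^ i.val * u) * c ^ j.val = (u * u) * c ^ i.val * u * c ^ j.val := by group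
      _ = _ := by rw [this, one_mul]; group
  · simp only [DihedralGroup.sr_mul_r, fD]
    rw [cz_add hc i j, mul_assoc]
  · simp only [DihedralGroup.sr_mul_sr, fD]
    rw [cz_sub hc i j, ← hconj i.val, hu']
    group

section GLcase

variable {Q : Type*} [Group Q] [Finite Q] (R : Subgroup Q) [R.Normal] (f : T ≃* R)

theorem Phi_fD {c u : Q} (hc : Phi R f c = gam) (hu : Phi R f u = ups) (h : D3) (t : T) :
    Phi R f (fD c u h) t = actTab h t := by
  rcases h with k | k <;> fin_cases k <;> 
    simp [fD, actTab, map_mul, hc, hu, pow_succ, ZMod.val]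

theorem iso_GL (hC : ∀ q : Q, (∀ r ∈ R, q * r = r * q) → q ∈ R) (h48 : Nat.card Q = 48) {c u : Q}
    (hc : Phi R f c = gam) (hu : Phi R f u = ups) (hc3 : c ^ 3 = 1) (hu2 : u ^ 2 = 1)
    (huc : u * c * u⁻¹ = c⁻¹) : Nonempty (Q ≃* GL23) := by
  let ψ₁ : T × D3 → Q := fun p => (f p.1 : Q) * fD c u p.2
  let ψ₂ : T × D3 → GL23 := fun p => FT p.1 * FD p.2
  let m : T × D3 → T × D3 → T × D3 := fun p q => (p.1 * actTab p.2 q.1, p.2 * q.2)
  have hact : ∀ (h : D3) (t : T), fD c u h * (f t : Q) = (f (actTab h t) : Q) * fD c u h := by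
    intro h t
    rw [← Phi_fD R f hc hu h t, f_Phi]
    group
  have hinj : Function.Injective ψ₁ := by
    rintro ⟨t, h⟩ ⟨t', h'⟩ he
    simp only [ψ₁] at he
    have e1 : fD c u h = (f (t⁻¹ * t') : Q) * fD c u h' := by
      rw [map_mul, map_inv, Subgroup.coe_mul, Subgroup.coe_inv, mul_assoc, ← he]
      group
    have e2 : h = h' := by
      apply act_inj (t⁻¹ * t')
      intro x
      rw [← Phi_fD R f hc hu h x, e1, map_mul, MulAut.mul_apply, Phi_fD R f hc hu h' x, Phi_f]
    subst e2
    have e3 : f t = f t' := Subtype.ext (mul_right_cancel he)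
    rw [f.injective e3]
  have hb₁ : Function.Bijective ψ₁ := hinj.bijective_of_nat_card_le (by rw [h48, card_T_D3])
  have hcardGL : Nat.card GL23 = 48 := by
    rw [Matrix.card_GL_field]
    simp [Fin.prod_univ_two, ZMod.card]
  have hb₂ : Function.Bijective ψ₂ := by
    apply Function.Injective.bijective_of_nat_card_le
    · exact fun p q h => FTD_inj p q h
    · rw [hcardGL, card_T_D3]
  refine iso_of_tab ψ₁ ψ₂ hb₁ hb₂ m ?_ ?_
  · rintro ⟨t, h⟩ ⟨t', h'⟩
    simp only [ψ₁, m, map_mul, Subgroup.coe_mul, fD_mul hc3 hu2 huc]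
    calc (f t : Q) * fD c u h * ((f t' : Q) * fD c u h')
        = (f t : Q) * (fD c u h * (f t' : Q)) * fD c u h' := by group
      _ = _ := by rw [hact]; group
  · rintro ⟨t, h⟩ ⟨t', h'⟩
    simp only [ψ₂, m, FT_mul, FD_mul]
    calc FT t * FD h * (FT t' * FD h') = FT t * (FD h * FT t') * FD h' := by group
      _ = _ := by rw [FD_act]; group

end GLcase


/-! ### The structure of the third alternative -/

section Third

open scoped Pointwise

variable {Q : Type*} [Group Q] [Finite Q] (R : Subgroup Q) [R.Normal] (f : T ≃* R)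
variable (hC : ∀ q : Q, (∀ r ∈ R, q * r = r * q) → q ∈ R)

theorem ups_not_inner : ∀ s : T, ¬ ∀ x : T, upsF x = s * x * s⁻¹ := by decide +kernel
theorem ups_sq_ne : ∀ s : T, s * upsF s * a 2 ≠ 1 := by decide +kernel
theorem gam_fix : ∀ s : T, gamF s = s → s = a 0 ∨ s = a 2 := by decide +kernel
theorem gam_ne_one : gamF (a 1) ≠ a 1 := by decide +kernel
theorem ups_ne_one : upsF (a 1) ≠ a 1 := by decide +kernel

theorem u_not_mem {u : Q} (hu : Phi R f u = ups) : u ∉ R := by
  intro h
  apply ups_not_inner (f.symm ⟨u, h⟩)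
  intro x
  rw [← ups_apply, ← hu, ← Phi_f R f (f.symm ⟨u, h⟩) x]
  simp

theorem inner_of_trivial_mod (φ : MulAut T)
    (h : ∀ s : T, φ s = s ∨ φ s = s * a 2) : ∃ s : T, ∀ t, φ t = s * t * s⁻¹ := by
  have key : ∀ p q : T, (p = a 1 ∨ p = a 1 * a 2) → (q = xa 0 ∨ q = xa 0 * a 2) →
      ∃ s : T, s * a 1 * s⁻¹ = p ∧ s * xa 0 * s⁻¹ = q := by decide +kernel
  obtain ⟨s, h1, h2⟩ := key (φ (a 1)) (φ (xa 0)) (h _) (h _)
  refine ⟨s, ?_⟩
  have : φ = MulAut.conj s := by
    apply mulAut_T_ext
    · rw [MulAut.conj_apply, h1]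
    · rw [MulAut.conj_apply, h2]
  intro t
  rw [this, MulAut.conj_apply]

include f in
theorem card_R : Nat.card R = 8 := by
  rw [← Nat.card_congr f.toEquiv, Nat.card_eq_fintype_card]; decide +kernel

include f in
theorem pow_eight_of_mem {x : Q} (hx : x ∈ R) : x ^ 8 = 1 := by
  have h := pow_card_eq_one' (x := (⟨x, hx⟩ : R))
  rw [card_R R f] at h
  exact congrArg Subtype.val h

include f hC in
theorem card_center : Nat.card (Subgroup.center Q) = 2 := by
  classical
  rw [Nat.card_eq_two_iff]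
  have hzc : z R f ∈ Subgroup.center Q := by
    rw [Subgroup.mem_center_iff]
    intro q
    exact (z_central R f q)
  refine ⟨1, ⟨z R f, hzc⟩, ?_, ?_⟩
  · intro h
    exact z_ne_one R f (congrArg Subtype.val h).symm
  · ext ⟨q, hq⟩
    simp only [Set.mem_insert_iff, Set.mem_singleton_iff, Set.mem_univ, iff_true]
    have h1 : Phi R f q = 1 := by
      ext t
      apply f.injective
      apply Subtype.ext
      rw [f_Phi]
      have := (Subgroup.mem_center_iff.1 hq) (f t : Q)
      simp only [MulAut.one_apply]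
      rw [← this]; group
    rcases (Phi_eq_one_iff R f hC q).1 h1 with h2 | h2
    · left; exact Subtype.ext h2
    · right; exact Subtype.ext h2

theorem sylow3_mem_conj (S : Sylow 3 Q) (g x : Q) (hg : g • S = S) (hx : x ∈ (S : Subgroup Q)) :
    g * x * g⁻¹ ∈ (S : Subgroup Q) := by
  have : g * x * g⁻¹ ∈ ((g • S : Sylow 3 Q) : Subgroup Q) := by
    rw [Sylow.smul_def, Sylow.pointwise_smul_def]
    exact ⟨x, hx, rfl⟩
  rwa [hg] at this

include f in
/-- A `3`-Sylow meets `R` trivially. -/
theorem sylow3_inter (S : Sylow 3 Q) (h48 : Nat.card Q = 48) {x : Q} (hxS : x ∈ (S : Subgroup Q))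
    (hxR : x ∈ R) : x = 1 := by
  have h8 := pow_eight_of_mem R f hxR
  obtain ⟨k, hk⟩ := S.isPGroup' ⟨x, hxS⟩
  have hk' : x ^ 3 ^ k = 1 := congrArg Subtype.val hk
  have hcop : Nat.Coprime (3 ^ k) 8 := by
    apply Nat.Coprime.pow_left
    decide
  have h1 : orderOf x = 1 :=
    Nat.eq_one_of_dvd_coprimes hcop (orderOf_dvd_of_pow_eq_one hk') (orderOf_dvd_of_pow_eq_one h8)
  exact orderOf_eq_one_iff.1 h1

include f in
/-- An element of `R` normalising a `3`-Sylow commutes with its elements. -/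
theorem comm_of_fix (S : Sylow 3 Q) (h48 : Nat.card Q = 48) {r c : Q} (hr : r ∈ R)
    (hrS : r • S = S) (hc : c ∈ (S : Subgroup Q)) : r * c = c * r := by
  have h1 : r * c * r⁻¹ ∈ (S : Subgroup Q) := sylow3_mem_conj S r c hrS hc
  have h2 : r * c * r⁻¹ * c⁻¹ ∈ (S : Subgroup Q) := S.1.mul_mem h1 (S.1.inv_mem hc)
  have h3 : r * c * r⁻¹ * c⁻¹ ∈ R := by
    have : r * c * r⁻¹ * c⁻¹ = r * (c * r⁻¹ * c⁻¹) := by group
    rw [this]
    exact R.mul_mem hr (‹R.Normal›.conj_mem _ (R.inv_mem hr) c)
  have h4 := sylow3_inter R f S h48 h2 h3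
  calc r * c = (r * c * r⁻¹ * c⁻¹) * (c * r) := by group
    _ = c * r := by rw [h4, one_mul]

theorem exists_sylow3_mem {c : Q} (hc : c ^ 3 = 1) : ∃ S : Sylow 3 Q, c ∈ (S : Subgroup Q) := by
  haveI : Fact (Nat.Prime 3) := ⟨Nat.prime_three⟩
  have hp : IsPGroup 3 (Subgroup.zpowers c) := by
    apply IsPGroup.of_card (n := (orderOf c).factorization 3)
    rw [Nat.card_zpowers]
    have := orderOf_dvd_of_pow_eq_one hc
    rcases (Nat.dvd_prime Nat.prime_three).1 this with h | h <;> simp [h, Nat.Prime.factorization Nat.prime_three]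
  obtain ⟨S, hS⟩ := hp.exists_le_sylow
  exact ⟨S, hS (Subgroup.mem_zpowers c)⟩

theorem T_ne_comm : (a 1 : T) * xa 0 ≠ xa 0 * a 1 := by decide +kernel

include hC in
theorem card_sylow3 (h48 : Nat.card Q = 48) {c u : Q} (hc : Phi R f c = gam) (hu : Phi R f u = ups)
    (hc3 : c ^ 3 = 1) (hu4 : u ^ 4 = 1) (huc : u * c * u⁻¹ = c⁻¹) : Nat.card (Sylow 3 Q) = 4 := by
  classical
  haveI : Fact (Nat.Prime 3) := ⟨Nat.prime_three⟩
  obtain ⟨S, hcS⟩ := exists_sylow3_mem hc3
  have hcne : c ≠ 1 := by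
    rintro rfl
    rw [map_one] at hc
    apply gam_ne_one
    rw [← gam_apply, ← hc]; rfl
  have hune : u ≠ 1 := by
    rintro rfl
    rw [map_one] at hu
    apply ups_ne_one
    rw [← ups_apply, ← hu]; rfl
  have hcS3 : Nat.card (S : Subgroup Q) = 3 := by
    obtain ⟨k, hk⟩ := IsPGroup.iff_card.1 S.isPGroup'
    have hd : 3 ^ k ∣ 48 := by
      rw [← hk, ← h48]; exact Subgroup.card_subgroup_dvd_card _
    have hk2 : k < 2 := by
      by_contra hk2
      push Not at hk2
      have : 3 ^ 2 ∣ 48 := (pow_dvd_pow 3 hk2).trans hd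
      revert this; decide
    interval_cases k
    · exfalso
      have h1 : Nat.card (S : Subgroup Q) = 1 := by simpa using hk
      have := (Subgroup.card_eq_one.1 h1 : (S : Subgroup Q) = ⊥)
      rw [this, Subgroup.mem_bot] at hcS
      exact hcne hcS
    · simpa using hk
  have hind : (S : Subgroup Q).index = 16 := by
    have := Subgroup.card_mul_index (S : Subgroup Q)
    rw [hcS3, h48] at this
    omega
  have hdvd := S.card_dvd_index
  rw [hind] at hdvd
  have hmod := card_sylow_modEq_one 3 Q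
  have h16 : Nat.card (Sylow 3 Q) ≤ 16 := Nat.le_of_dvd (by norm_num) hdvd
  have hcases : Nat.card (Sylow 3 Q) = 1 ∨ Nat.card (Sylow 3 Q) = 4 ∨ Nat.card (Sylow 3 Q) = 16 := by
    have hmod' : Nat.card (Sylow 3 Q) % 3 = 1 := hmod
    generalize Nat.card (Sylow 3 Q) = M at *
    interval_cases M <;> simp_all
  rcases hcases with h1 | h4 | h16'
  · exfalso
    haveI : Subsingleton (Sylow 3 Q) := (Nat.card_eq_one_iff_unique.1 h1).1
    have hcomm : ∀ r ∈ R, c * r = r * c := by
      intro r hr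
      exact (comm_of_fix R f S h48 hr (Subsingleton.elim _ _) hcS).symm
    have hcR := hC c hcomm
    exact hcne (sylow3_inter R f S h48 hcS hcR)
  · exact h4
  · exfalso
    have hn : (Subgroup.normalizer ((S : Subgroup Q) : Set Q)).index = 16 := by
      exact S.card_eq_index_normalizer.symm.trans h16'
    have hn3 : Nat.card (Subgroup.normalizer ((S : Subgroup Q) : Set Q)) = 3 := by
      have := Subgroup.card_mul_index (Subgroup.normalizer ((S : Subgroup Q) : Set Q))
      rw [hn, h48] at this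
      omega
    have hle : (S : Subgroup Q) ≤ (Subgroup.normalizer ((S : Subgroup Q) : Set Q)) := Subgroup.le_normalizer
    have heq : (S : Subgroup Q) = (Subgroup.normalizer ((S : Subgroup Q) : Set Q)) :=
      Subgroup.eq_of_le_of_card_ge hle (by rw [hn3, hcS3])
    have hSz : (S : Subgroup Q) = Subgroup.zpowers c := by
      symm
      apply Subgroup.eq_of_le_of_card_ge
      · rw [Subgroup.zpowers_le]; exact hcS
      · rw [Nat.card_zpowers, hcS3, orderOf_eq_prime hc3 hcne]
    have hun : u ∈ (Subgroup.normalizer ((S : Subgroup Q) : Set Q)) := by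
      rw [Subgroup.mem_normalizer_iff, hSz]
      intro x
      constructor
      · rintro ⟨n, rfl⟩
        refine ⟨-n, ?_⟩
        simp only [← conj_zpow, huc, inv_zpow, zpow_neg]
      · rintro ⟨n, hn⟩
        refine ⟨-n, ?_⟩
        simp only at hn
        have e : x = u⁻¹ * c ^ n * u := by rw [hn]; group
        have e2 : u⁻¹ * c * u = c⁻¹ := by
          have h1 : u⁻¹ * (u * c * u⁻¹)⁻¹ * u = c⁻¹ := by group
          rw [huc, inv_inv] at h1
          exact h1
        have e3 : u⁻¹ * c ^ n * u = (u⁻¹ * c * u) ^ n := by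
          have := conj_zpow (a := u⁻¹) (b := c) (i := n)
          simp only [inv_inv] at this
          exact this.symm
        simp only [e, e3, e2, inv_zpow, zpow_neg]
    rw [← heq] at hun
    have h3 : u ^ 3 = 1 := by
      have := pow_card_eq_one' (x := (⟨u, hun⟩ : (S : Subgroup Q)))
      rw [hcS3] at this
      exact congrArg Subtype.val this
    apply hune
    have : u ^ 4 = u ^ 3 * u := pow_succ u 3
    rw [hu4, h3, one_mul] at this
    exact this.symm

include hC in
/-- Kernel of the action on Sylow 3-subgroups. -/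
theorem ker_rho (h48 : Nat.card Q = 48) {c : Q} (hc : Phi R f c = gam) (hc3 : c ^ 3 = 1) (g : Q)
    (hg : ∀ S : Sylow 3 Q, g • S = S) : g = 1 ∨ g = z R f := by
  classical
  haveI : Fact (Nat.Prime 3) := ⟨Nat.prime_three⟩
  obtain ⟨S, hcS⟩ := exists_sylow3_mem hc3
  -- elements of the kernel in `R`
  have hKR : ∀ x : Q, (∀ S : Sylow 3 Q, x • S = S) → x ∈ R → x = 1 ∨ x = z R f := by
    intro x hx hxR
    have hcomm := comm_of_fix R f S h48 hxR (hx S) hcS
    have h1 : gamF (f.symm ⟨x, hxR⟩) = f.symm ⟨x, hxR⟩ := by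
      apply f.injective
      apply Subtype.ext
      rw [← gam_apply, ← hc, f_Phi]
      simp only [MulEquiv.apply_symm_apply]
      rw [← hcomm]; group
    rcases gam_fix _ h1 with h2 | h2
    · left
      have := congrArg (fun s => (f s : Q)) h2
      simp only [MulEquiv.apply_symm_apply] at this
      rw [f_a0] at this
      exact this
    · right
      have := congrArg (fun s => (f s : Q)) h2
      simp only [MulEquiv.apply_symm_apply] at this
      exact this
  by_cases hgR : g ∈ R
  · exact hKR g hg hgR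
  exfalso
  apply hgR
  -- `g` acts trivially on `R / Z`
  have hφ : ∀ s : T, Phi R f g s = s ∨ Phi R f g s = s * a 2 := by
    intro s
    have hmem : g * (f s : Q) * g⁻¹ * (f s : Q)⁻¹ ∈ R :=
      R.mul_mem (‹R.Normal›.conj_mem _ (f s).2 g) (R.inv_mem (f s).2)
    have hfix : ∀ S : Sylow 3 Q, (g * (f s : Q) * g⁻¹ * (f s : Q)⁻¹) • S = S := by
      intro S'
      have hinv : ∀ S : Sylow 3 Q, g⁻¹ • S = S := by
        intro S; rw [inv_smul_eq_iff, hg]
      rw [mul_smul, mul_smul, mul_smul, hinv, smul_inv_smul, hg]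
    rcases hKR _ hfix hmem with h | h
    · left
      apply f.injective
      apply Subtype.ext
      rw [f_Phi]
      exact mul_inv_eq_one.1 h
    · right
      apply f.injective
      apply Subtype.ext
      rw [f_Phi, map_mul, Subgroup.coe_mul]
      have h2 : g * (f s : Q) * g⁻¹ = z R f * (f s : Q) := mul_inv_eq_iff_eq_mul.1 h
      rw [h2]
      exact (z_central R f (f s : Q)).symm
  obtain ⟨s, hs⟩ := inner_of_trivial_mod _ hφ
  have h1 : Phi R f ((f s : Q)⁻¹ * g) = 1 := by
    have h0 : Phi R f g = Phi R f (f s : Q) := by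
      ext t
      rw [hs, Phi_f]
    rw [map_mul, map_inv, h0, inv_mul_cancel]
  rcases (Phi_eq_one_iff R f hC _).1 h1 with h2 | h2
  · have : g = (f s : Q) := by
      rw [inv_mul_eq_one] at h2; exact h2.symm
    rw [this]; exact (f s).2
  · have : g = (f s : Q) * z R f := by
      rw [inv_mul_eq_iff_eq_mul] at h2; exact h2
    rw [this]
    exact R.mul_mem (f s).2 (z_mem R f)


include hC in
theorem iso_S4 (h48 : Nat.card Q = 48) {c u : Q} (hc : Phi R f c = gam) (hu : Phi R f u = ups)
    (hc3 : c ^ 3 = 1) (hu4 : u ^ 4 = 1) (huc : u * c * u⁻¹ = c⁻¹) :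
    Nonempty ((Q ⧸ Subgroup.center Q) ≃* Equiv.Perm (Fin 4)) := by
  classical
  haveI : Fact (Nat.Prime 3) := ⟨Nat.prime_three⟩
  have hY := card_sylow3 R f hC h48 hc hu hc3 hu4 huc
  let ρ : Q →* Equiv.Perm (Sylow 3 Q) := MulAction.toPermHom Q (Sylow 3 Q)
  have hker : ρ.ker = Subgroup.center Q := by
    ext g
    constructor
    · intro hg
      have h' : ∀ S : Sylow 3 Q, g • S = S := fun S => by
        have := congrArg (fun σ : Equiv.Perm _ => σ S) (hg : ρ g = 1)
        exact this
      rcases ker_rho R f hC h48 hc hc3 g h' with rfl | rfl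
      · exact one_mem _
      · exact Subgroup.mem_center_iff.2 (z_central R f)
    · intro hg
      show ρ g = 1
      apply Equiv.ext
      intro S
      show g • S = S
      rw [Sylow.smul_eq_iff_mem_normalizer]
      exact Subgroup.center_le_normalizer _ hg
  have hcardρ : Nat.card ρ.range = 24 := by
    have := Subgroup.card_mul_index ρ.ker
    rw [Subgroup.index_ker, hker, card_center R f hC, h48] at this
    omega
  have hperm : Nat.card (Equiv.Perm (Sylow 3 Q)) = 24 := by
    rw [Nat.card_perm, hY]; rfl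
  have hsurj : Function.Surjective ρ := by
    rw [← MonoidHom.range_eq_top]
    apply Subgroup.eq_top_of_card_eq
    rw [hcardρ, hperm]
  obtain e := Finite.equivFinOfCardEq hY
  exact ⟨(QuotientGroup.quotientMulEquivOfEq hker.symm).trans
    ((QuotientGroup.quotientKerEquivOfSurjective ρ hsurj).trans (Equiv.permCongrHom e))⟩

/-- When `u ^ 2 = z`, `z` is the only involution. -/
theorem involution_unique (hR2 : IsPGroup 2 R) (h48 : Nat.card Q = 48) {u : Q} (hu : Phi R f u = ups)
    (hu2 : u ^ 2 = z R f) (t : Q) (ht : t * t = 1) : t = 1 ∨ t = z R f := by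
  classical
  haveI : Fact (Nat.Prime 2) := ⟨Nat.prime_two⟩
  have hu4 : u ^ 4 = 1 := by
    rw [show 4 = 2 * 2 from rfl, pow_mul, hu2, pow_two, z_sq]
  -- a Sylow containing `u`
  have hp : IsPGroup 2 (Subgroup.zpowers u) := by
    have hd : orderOf u ∣ 2 ^ 2 := orderOf_dvd_of_pow_eq_one (by simpa using hu4)
    obtain ⟨k, -, hk⟩ := (Nat.dvd_prime_pow Nat.prime_two).1 hd
    apply IsPGroup.of_card (n := k)
    rw [Nat.card_zpowers, hk]
  obtain ⟨P, hP⟩ := hp.exists_le_sylow
  have huP : u ∈ (P : Subgroup Q) := hP (Subgroup.mem_zpowers u)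
  have hRP : ∀ P : Sylow 2 Q, R ≤ (P : Subgroup Q) := fun P => by
    exact (Cfsg.Agent.Lib.PCore.le_pCore ‹R.Normal› hR2).trans (Cfsg.Agent.Lib.PCore.pCore_le_sylow 2 P)
  have hcardP : ∀ P : Sylow 2 Q, Nat.card (P : Subgroup Q) = 16 := by
    intro P
    obtain ⟨k, hk⟩ := IsPGroup.iff_card.1 P.isPGroup'
    have h1 := Subgroup.card_mul_index (P : Subgroup Q)
    have h2 : ¬ 2 ∣ (P : Subgroup Q).index := P.not_dvd_index
    rw [hk, h48] at h1
    have hk6 : k < 6 := by
      by_contra hk6
      push Not at hk6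
      have : 2 ^ 6 ∣ 48 := by
        rw [← h1]
        exact (pow_dvd_pow 2 hk6).trans (dvd_mul_right _ _)
      revert this; decide
    rw [hk]
    interval_cases k <;> omega
  -- involutions in `P`
  have hinP : ∀ t : Q, t ∈ (P : Subgroup Q) → t * t = 1 → t = 1 ∨ t = z R f := by
    intro t htP ht
    by_cases htR : t ∈ R
    · have h1 : (f.symm ⟨t, htR⟩) * (f.symm ⟨t, htR⟩) = 1 := by
        apply f.injective
        apply Subtype.ext
        simpa using ht
      rcases T_two _ h1 with h2 | h2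
      · left
        have := congrArg (fun s => (f s : Q)) h2
        simp only [MulEquiv.apply_symm_apply] at this
        rw [f_a0] at this
        exact this
      · right
        have := congrArg (fun s => (f s : Q)) h2
        simp only [MulEquiv.apply_symm_apply] at this
        exact this
    · exfalso
      -- index two
      have hidx : (R.subgroupOf (P : Subgroup Q)).index = 2 := by
        have h1 := Subgroup.card_mul_index (R.subgroupOf (P : Subgroup Q))
        have h2 : Nat.card (R.subgroupOf (P : Subgroup Q)) = 8 := by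
          rw [Nat.card_congr (Subgroup.subgroupOfEquivOfLe (hRP P)).toEquiv, card_R R f]
        rw [h2, hcardP P] at h1
        omega
      have hmem := (Subgroup.mul_mem_iff_of_index_two hidx
        (a := (⟨t, htP⟩ : (P : Subgroup Q))) (b := (⟨u⁻¹, P.1.inv_mem huP⟩ : (P : Subgroup Q)))).2
        (by
          constructor
          · intro h; exact absurd h htR
          · intro h
            exact absurd (R.inv_mem_iff.1 h) (u_not_mem R f hu))
      have hmem' : t * u⁻¹ ∈ R := hmem
      set s : T := f.symm ⟨t * u⁻¹, hmem'⟩ with hs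
      have hfs : (f s : Q) = t * u⁻¹ := by simp [hs]
      have ht2 : t = (f s : Q) * u := by rw [hfs]; group
      apply ups_sq_ne s
      apply f.injective
      apply Subtype.ext
      rw [map_mul, map_mul, Subgroup.coe_mul, Subgroup.coe_mul, map_one, Subgroup.coe_one]
      have h3 : (f (upsF s) : Q) = u * (f s : Q) * u⁻¹ := by
        rw [← ups_apply, ← hu, f_Phi]
      rw [h3]
      show (f s : Q) * (u * (f s : Q) * u⁻¹) * z R f = 1
      rw [← hu2, ← ht, ht2]
      group
  -- all involutions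
  have hp2 : IsPGroup 2 (Subgroup.zpowers t) := by
    have hd : orderOf t ∣ 2 := orderOf_dvd_of_pow_eq_one (by rw [pow_two, ht])
    rcases (Nat.dvd_prime Nat.prime_two).1 hd with h | h
    · apply IsPGroup.of_card (n := 0); rw [Nat.card_zpowers, h]; rfl
    · apply IsPGroup.of_card (n := 1); rw [Nat.card_zpowers, h]; rfl
  obtain ⟨P', hP'⟩ := hp2.exists_le_sylow
  have htP' : t ∈ (P' : Subgroup Q) := hP' (Subgroup.mem_zpowers t)
  obtain ⟨g, hg⟩ := MulAction.exists_smul_eq Q P' P
  have h1 : g * t * g⁻¹ ∈ (P : Subgroup Q) := by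
    rw [← hg, Sylow.smul_def, Sylow.pointwise_smul_def]
    exact ⟨t, htP', rfl⟩
  have h2 : (g * t * g⁻¹) * (g * t * g⁻¹) = 1 := by
    calc (g * t * g⁻¹) * (g * t * g⁻¹) = g * (t * t) * g⁻¹ := by group
      _ = 1 := by rw [ht]; group
  rcases hinP _ h1 h2 with h3 | h3
  · left
    have : t = g⁻¹ * (g * t * g⁻¹) * g := by group
    rw [this, h3]; group
  · right
    have : t = g⁻¹ * (g * t * g⁻¹) * g := by group
    rw [this, h3, mul_assoc, ← z_central R f g, inv_mul_cancel_left]

theorem quat_sylow (hR2 : IsPGroup 2 R) (h48 : Nat.card Q = 48)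
    (huniq : ∀ t : Q, t * t = 1 → t = 1 ∨ t = z R f) (P : Sylow 2 Q) :
    Nonempty ((P : Subgroup Q) ≃* QuaternionGroup 4) := by
  classical
  haveI : Fact (Nat.Prime 2) := ⟨Nat.prime_two⟩
  have hRP : R ≤ (P : Subgroup Q) :=
    (Cfsg.Agent.Lib.PCore.le_pCore ‹R.Normal› hR2).trans (Cfsg.Agent.Lib.PCore.pCore_le_sylow 2 P)
  have hcardP : Nat.card (P : Subgroup Q) = 16 := by
    obtain ⟨k, hk⟩ := IsPGroup.iff_card.1 P.isPGroup'
    have h1 := Subgroup.card_mul_index (P : Subgroup Q)
    have h2 : ¬ 2 ∣ (P : Subgroup Q).index := P.not_dvd_index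
    rw [hk, h48] at h1
    have hk6 : k < 6 := by
      by_contra hk6
      push Not at hk6
      have : 2 ^ 6 ∣ 48 := by
        rw [← h1]
        exact (pow_dvd_pow 2 hk6).trans (dvd_mul_right _ _)
      revert this; decide
    rw [hk]
    interval_cases k <;> omega
  have key : ∀ H : Subgroup (P : Subgroup Q), Nat.card H = 2 →
      ∀ x : (P : Subgroup Q), x ∈ H ↔ ((x : Q) = 1 ∨ (x : Q) = z R f) := by
    intro H hH x
    have hall : ∀ y ∈ H, (y : Q) = 1 ∨ (y : Q) = z R f := by
      intro y hy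
      apply huniq
      have := pow_card_eq_one' (x := (⟨y, hy⟩ : H))
      rw [hH, pow_two] at this
      have h2 := congrArg (fun w : H => ((w : (P : Subgroup Q)) : Q)) this
      simpa using h2
    haveI : Finite H := inferInstance
    haveI : Nontrivial H := by
      rw [← Finite.one_lt_card_iff_nontrivial, hH]; norm_num
    obtain ⟨⟨y, hy⟩, hne⟩ := exists_ne (1 : H)
    have hy1 : (y : Q) ≠ 1 := by
      intro h
      apply hne
      apply Subtype.ext
      apply Subtype.ext
      exact h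
    have hyz : (y : Q) = z R f := (hall y hy).resolve_left hy1
    constructor
    · exact hall x
    · rintro (h | h)
      · have : x = 1 := Subtype.ext h
        rw [this]; exact H.one_mem
      · have : x = y := Subtype.ext (h.trans hyz.symm)
        rw [this]; exact hy
  have hmain := Cfsg.Agent.Lib.UniqueSub.main 2 P.isPGroup' (fun H K hH hK => by
    ext x
    rw [key H hH, key K hK])
  rcases hmain with hcyc | ⟨-, n, ⟨e⟩⟩
  · exfalso
    have hc : ∀ x y : (P : Subgroup Q), x * y = y * x := fun x y => by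
      obtain ⟨g, hg⟩ := hcyc.exists_generator
      obtain ⟨i, rfl⟩ := Subgroup.mem_zpowers_iff.1 (hg x)
      obtain ⟨j, rfl⟩ := Subgroup.mem_zpowers_iff.1 (hg y)
      rw [← zpow_add, ← zpow_add, add_comm]
    have h1 := hc ⟨_, hRP (f (a 1)).2⟩ ⟨_, hRP (f (xa 0)).2⟩
    have h2 := congrArg Subtype.val h1
    simp only [Subgroup.coe_mul] at h2
    apply T_ne_comm
    apply f.injective
    apply Subtype.ext
    rw [map_mul, map_mul]
    exact h2
  · have hn : n = 2 := by
      have h1 : Nat.card (P : Subgroup Q) = Nat.card (QuaternionGroup (2 ^ n)) := Nat.card_congr e.toEquiv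
      haveI : NeZero (2 ^ n) := ⟨by positivity⟩
      rw [Nat.card_eq_fintype_card (α := QuaternionGroup (2 ^ n)), QuaternionGroup.card, hcardP] at h1
      have h2 : 2 ^ n = 2 ^ 2 := by omega
      exact Nat.pow_right_injective (le_refl 2) h2
    subst hn
    exact ⟨e⟩



end Third

/-! ### Generalised quaternion groups of order at least 16 -/

theorem a_pow' {N : ℕ} (k : ZMod (2 * N)) (m : ℕ) : (a k : QuaternionGroup N) ^ m = a ((m : ZMod (2 * N)) * k) := by
  induction m with
  | zero => simp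
  | succ m ih =>
    rw [pow_succ, ih, a_mul_a]
    congr 1
    push_cast
    ring

theorem odd_aut_trivial (n : ℕ) (hn : 2 ≤ n) (φ : MulAut (QuaternionGroup (2 ^ n))) (d : ℕ)
    (hd : Odd d) (hφ : φ ^ d = 1) : φ = 1 := by
  haveI : NeZero (2 ^ n) := ⟨by positivity⟩
  haveI : NeZero (2 * 2 ^ n) := ⟨by positivity⟩
  have h8 : 8 ≤ 2 * 2 ^ n := by
    have : 2 ^ 2 ≤ 2 ^ n := Nat.pow_le_pow_right (by norm_num) hn
    omega
  obtain ⟨k, hk⟩ : ∃ k, φ (a 1) = a k := by
    cases h : φ (a 1) with
    | a k => exact ⟨k, rfl⟩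
    | xa k =>
      exfalso
      have h1 : orderOf (φ (a 1)) = orderOf (a 1 : QuaternionGroup (2 ^ n)) := MulEquiv.orderOf_eq φ _
      rw [h, orderOf_xa, orderOf_a_one] at h1
      omega
  have hmul : ∀ j : ZMod (2 * 2 ^ n), φ (a j) = a (k * j) := by
    intro j
    have e : (a j : QuaternionGroup (2 ^ n)) = (a 1) ^ j.val := by
      rw [a_one_pow, ZMod.natCast_zmod_val]
    rw [e, map_pow, hk, a_pow', ZMod.natCast_zmod_val, mul_comm]
  have hpow : ∀ e : ℕ, (φ ^ e) (a 1) = a (k ^ e) := by
    intro e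
    induction e with
    | zero => simp
    | succ e ih =>
      rw [pow_succ', MulAut.mul_apply, ih, hmul, pow_succ']
  have hkd : k ^ d = 1 := by
    have h1 := hpow d
    rw [hφ, MulAut.one_apply] at h1
    have := QuaternionGroup.a.inj h1
    exact this.symm
  have hk1 : k = 1 := by
    have hd0 : d ≠ 0 := by
      rintro rfl
      simp at hd
    set v : (ZMod (2 * 2 ^ n))ˣ := Units.ofPowEqOne k d hkd hd0 with hv
    have hvd : v ^ d = 1 := Units.pow_ofPowEqOne hkd hd0
    have h1 : orderOf v ∣ d := orderOf_dvd_of_pow_eq_one hvd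
    have h2 : orderOf v ∣ 2 ^ n := by
      have h3 := orderOf_dvd_natCard v
      have e2 : (2 * 2 ^ n).totient = 2 ^ n := by
        rw [show 2 * 2 ^ n = 2 ^ (n + 1) by ring, Nat.totient_prime_pow_succ Nat.prime_two]
        simp
      rw [Nat.card_eq_fintype_card, ZMod.card_units_eq_totient, e2] at h3
      exact h3
    have hcop : Nat.Coprime d (2 ^ n) := (Nat.coprime_pow_right_iff (by omega) _ _).2 (by
      exact Nat.Coprime.symm (Nat.coprime_two_left.2 hd))
    have h4 : orderOf v = 1 := Nat.eq_one_of_dvd_coprimes hcop h1 h2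
    have h5 : v = 1 := orderOf_eq_one_iff.1 h4
    have h6 := congrArg Units.val h5
    simpa [hv] using h6
  subst hk1
  have hfix : ∀ j : ZMod (2 * 2 ^ n), φ (a j) = a j := by
    intro j; rw [hmul, one_mul]
  obtain ⟨m, hm⟩ : ∃ m, φ (xa 0) = xa m := by
    cases h : φ (xa 0) with
    | xa m => exact ⟨m, rfl⟩
    | a j =>
      exfalso
      have h1 := φ.injective (h.trans (hfix j).symm)
      cases h1
  have hxa : ∀ i : ZMod (2 * 2 ^ n), φ (xa i) = xa (m + i) := by
    intro i
    have e : (xa i : QuaternionGroup (2 ^ n)) = xa 0 * a i := by simp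
    rw [e, map_mul, hm, hfix, xa_mul_a]
  have hpow2 : ∀ e : ℕ, (φ ^ e) (xa 0) = xa ((e : ZMod (2 * 2 ^ n)) * m) := by
    intro e
    induction e with
    | zero => simp
    | succ e ih =>
      rw [pow_succ', MulAut.mul_apply, ih, hxa]
      congr 1
      push_cast
      ring
  have hm0 : m = 0 := by
    have h1 := hpow2 d
    rw [hφ, MulAut.one_apply] at h1
    have h2 := QuaternionGroup.xa.inj h1
    have hcop : Nat.Coprime d (2 * 2 ^ n) := by
      rw [show 2 * 2 ^ n = 2 ^ (n + 1) by ring]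
      exact (Nat.coprime_pow_right_iff (by omega) _ _).2 (Nat.Coprime.symm (Nat.coprime_two_left.2 hd))
    have hu : IsUnit (d : ZMod (2 * 2 ^ n)) := (ZMod.isUnit_iff_coprime d _).2 hcop
    exact (hu.mul_right_eq_zero.1 h2.symm)
  subst hm0
  ext t
  cases t with
  | a j => simpa using hfix j
  | xa i =>
    rw [hxa, zero_add]
    rfl

theorem isPGroup_mulAut_quat (n : ℕ) (hn : 2 ≤ n) : IsPGroup 2 (MulAut (QuaternionGroup (2 ^ n))) := by
  haveI : NeZero (2 ^ n) := ⟨by positivity⟩
  haveI : Finite (MulAut (QuaternionGroup (2 ^ n))) :=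
    Finite.of_injective (fun φ : MulAut (QuaternionGroup (2 ^ n)) => (φ : _ → _))
      (fun φ ψ h => by ext t; exact congrFun h t)
  intro φ
  have h0 : orderOf φ ≠ 0 := (orderOf_pos φ).ne'
  obtain ⟨e, d, hd, he⟩ := Nat.exists_eq_two_pow_mul_odd h0
  refine ⟨e, ?_⟩
  apply odd_aut_trivial n hn _ d hd
  rw [← pow_mul, ← he, pow_orderOf_eq_one]

/-! ### Rank conditions -/

section Rank

open Cfsg

theorem involution_unique_of_rank {X : Type*} [Group X] [Finite X] (hX : IsPGroup 2 X)
    (hrank : PRankLE 2 1 X) (H K : Subgroup X) (hH : Nat.card H = 2) (hK : Nat.card K = 2) : H = K := by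
  classical
  haveI : Fact (Nat.Prime 2) := ⟨Nat.prime_two⟩
  haveI : Nontrivial H := by
    rw [← Finite.one_lt_card_iff_nontrivial, hH]; norm_num
  haveI : Nontrivial X := by
    obtain ⟨⟨y, hy⟩, hne⟩ := exists_ne (1 : H)
    exact ⟨⟨y, 1, fun h => hne (Subtype.ext h)⟩⟩
  haveI := hX.center_nontrivial
  -- a central involution
  obtain ⟨z, hz⟩ : ∃ z : Subgroup.center X, orderOf z = 2 := by
    apply exists_prime_orderOf_dvd_card'
    obtain ⟨k, hk⟩ := IsPGroup.iff_card.1 (hX.to_subgroup (Subgroup.center X))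
    have : Nat.card (Subgroup.center X) ≠ 1 := by
      intro h
      have := Finite.one_lt_card_iff_nontrivial.2 (inferInstance : Nontrivial (Subgroup.center X))
      omega
    rw [hk] at this ⊢
    rcases k with _ | k
    · simp at this
    · exact dvd_pow_self 2 (by omega)
  have hz2 : (z : X) * (z : X) = 1 := by
    have := pow_orderOf_eq_one z
    rw [hz, pow_two] at this
    exact congrArg Subtype.val this
  have hzne : (z : X) ≠ 1 := by
    intro h
    have h1 : z = 1 := Subtype.ext h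
    rw [h1, orderOf_one] at hz
    omega
  have hzc : ∀ g : X, g * (z : X) = (z : X) * g := fun g => (Subgroup.mem_center_iff.1 z.2 g)
  have key : ∀ t : X, t * t = 1 → t ≠ 1 → t = z := by
    intro t ht ht1
    by_contra htz
    haveI : (Subgroup.zpowers (z : X)).Normal := by
      constructor
      intro n hn g
      obtain ⟨i, rfl⟩ := hn
      refine ⟨i, ?_⟩
      simp only
      rw [← conj_zpow]
      congr 1
      rw [hzc g]; group
    set A : Subgroup X := Subgroup.zpowers t ⊔ Subgroup.zpowers (z : X) with hA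
    have hexp : ∀ x ∈ A, x * x = 1 := by
      intro x hx
      rw [← SetLike.mem_coe, hA, Subgroup.mul_normal] at hx
      obtain ⟨p, hp, q, hq, rfl⟩ := Set.mem_mul.1 hx
      obtain ⟨i, rfl⟩ := hp
      obtain ⟨j, rfl⟩ := hq
      simp only
      have h1 : t ^ i * t ^ i = 1 := by
        rw [← zpow_add, ← two_mul, zpow_mul]
        have : t ^ (2 : ℤ) = 1 := by
          rw [show (2 : ℤ) = ((2 : ℕ) : ℤ) from rfl, zpow_natCast, pow_two, ht]
        rw [this, one_zpow]
      have h2 : (z : X) ^ j * (z : X) ^ j = 1 := by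
        rw [← zpow_add, ← two_mul, zpow_mul]
        have : (z : X) ^ (2 : ℤ) = 1 := by
          rw [show (2 : ℤ) = ((2 : ℕ) : ℤ) from rfl, zpow_natCast, pow_two, hz2]
        rw [this, one_zpow]
      have hcomm : Commute (t ^ i) ((z : X) ^ j) := by
        apply Commute.zpow_zpow
        exact (hzc t)
      calc t ^ i * (z : X) ^ j * (t ^ i * (z : X) ^ j)
          = (t ^ i * t ^ i) * ((z : X) ^ j * (z : X) ^ j) := by
            rw [mul_assoc, ← mul_assoc ((z : X) ^ j), ← hcomm.eq]
            group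
        _ = 1 := by rw [h1, h2, one_mul]
    have hcommA : IsMulCommutative A := by
      refine ⟨⟨fun x y => ?_⟩⟩
      apply Subtype.ext
      have hx := hexp x x.2
      have hy := hexp y y.2
      have hxy := hexp _ (A.mul_mem x.2 y.2)
      show (x : X) * y = y * x
      have hxi : (x : X)⁻¹ = x := inv_eq_of_mul_eq_one_left hx
      have hyi : (y : X)⁻¹ = y := inv_eq_of_mul_eq_one_left hy
      have h := eq_inv_of_mul_eq_one_left hxy
      rw [mul_inv_rev, hxi, hyi] at h
      exact h
    have hle := hrank A hcommA (fun x hx => by rw [pow_two]; exact hexp x hx)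
    have h3 : Nat.card (Fin 3) ≤ Nat.card A := by
      refine Nat.card_le_card_of_injective
        (![⟨1, A.one_mem⟩, ⟨t, Subgroup.mem_sup_left (Subgroup.mem_zpowers t)⟩,
          ⟨z, Subgroup.mem_sup_right (Subgroup.mem_zpowers _)⟩] : Fin 3 → A) ?_
      intro i j hij
      have hij' := congrArg Subtype.val hij
      fin_cases i <;> fin_cases j <;> simp at hij' ⊢
      · exact absurd hij'.symm ht1
      · exact absurd hij'.symm hzne
      · exact absurd hij' ht1
      · exact absurd hij' htz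
      · exact absurd hij' (fun h => hzne (congrArg Subtype.val h))
      · exact absurd hij'.symm htz
    simp at h3
    omega
  have hall : ∀ L : Subgroup X, Nat.card L = 2 → ∀ x : X, x ∈ L ↔ (x = 1 ∨ x = z) := by
    intro L hL x
    haveI : Nontrivial L := by
      rw [← Finite.one_lt_card_iff_nontrivial, hL]; norm_num
    obtain ⟨⟨y, hy⟩, hne⟩ := exists_ne (1 : L)
    have hy1 : y ≠ 1 := fun h => hne (Subtype.ext h)
    have hyL : ∀ w ∈ L, w * w = 1 := by
      intro w hw
      have := pow_card_eq_one' (x := (⟨w, hw⟩ : L))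
      rw [hL, pow_two] at this
      exact congrArg Subtype.val this
    have hyz := key y (hyL y hy) hy1
    constructor
    · intro hx
      by_cases hx1 : x = 1
      · exact Or.inl hx1
      · exact Or.inr (key x (hyL x hx) hx1)
    · rintro (rfl | rfl)
      · exact L.one_mem
      · rw [← hyz]; exact hy
  ext x
  rw [hall H hH, hall K hK]

/-- The rank condition passes to the quotient by `O(G)`. -/
theorem rank_quot {G : Type*} [Group G] [Finite G]
    (hI : ∀ S T : Sylow 2 G, S ≠ T → Cfsg.PRankLE 2 1 ↥((S : Subgroup G) ⊓ (T : Subgroup G)))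
    (S' T' : Sylow 2 (G ⧸ Cfsg.oddCore G)) (hne : S' ≠ T') :
    Cfsg.PRankLE 2 1 ↥((S' : Subgroup (G ⧸ Cfsg.oddCore G)) ⊓ (T' : Subgroup (G ⧸ Cfsg.oddCore G))) := by
  classical
  haveI : Fact (Nat.Prime 2) := ⟨Nat.prime_two⟩
  obtain ⟨S, T, R', hST, hR, hRmap, -, -⟩ :=
    Cfsg.Agent.Lib.SylowQuot.exists_sylow_pair_of_quotient (Cfsg.oddCore G) S' T' hne
  set π : G →* G ⧸ Cfsg.oddCore G := QuotientGroup.mk' (Cfsg.oddCore G) with hπ
  have hinj : ∀ x ∈ R', π x = 1 → x = 1 := by
    intro x hx hπx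
    have hxS : x ∈ (S : Subgroup G) := (hR hx).1
    obtain ⟨k, hk⟩ := S.isPGroup' ⟨x, hxS⟩
    have hk' : x ^ 2 ^ k = 1 := congrArg Subtype.val hk
    have hxO : x ∈ Cfsg.oddCore G := by
      rw [← QuotientGroup.ker_mk' (Cfsg.oddCore G)]
      exact hπx
    have hc := Cfsg.Agent.Lib.PCore.card_pPrimeCore_coprime (G := G) 2
    have h1 : x ^ Nat.card (Cfsg.oddCore G) = 1 := by
      have := pow_card_eq_one' (x := (⟨x, hxO⟩ : Cfsg.oddCore G))
      exact congrArg Subtype.val this
    have h2 : orderOf x = 1 := Nat.eq_one_of_dvd_coprimes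
      (Nat.Coprime.pow_right k hc) (orderOf_dvd_of_pow_eq_one h1) (orderOf_dvd_of_pow_eq_one hk')
    exact orderOf_eq_one_iff.1 h2
  set Inter := (S' : Subgroup (G ⧸ Cfsg.oddCore G)) ⊓ (T' : Subgroup (G ⧸ Cfsg.oddCore G)) with hInter
  intro A hAc hA
  -- the pull-back of `A`
  let B : Subgroup ↥((S : Subgroup G) ⊓ (T : Subgroup G)) :=
    (((A.map Inter.subtype).comap π) ⊓ R').subgroupOf _
  have hBA : ∀ x : ↥((S : Subgroup G) ⊓ (T : Subgroup G)), x ∈ B → π x ∈ Inter := by
    intro x hx
    have hx' : (x : G) ∈ ((A.map Inter.subtype).comap π) ⊓ R' := hx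
    obtain ⟨a, -, ha⟩ := hx'.1
    rw [← ha]; exact a.2
  have hBA' : ∀ x : ↥((S : Subgroup G) ⊓ (T : Subgroup G)), ∀ hx : x ∈ B, (⟨π x, hBA x hx⟩ : Inter) ∈ A := by
    intro x hx
    have hx' : (x : G) ∈ ((A.map Inter.subtype).comap π) ⊓ R' := hx
    obtain ⟨a, haA, ha⟩ := hx'.1
    have : a = ⟨π x, hBA x hx⟩ := Subtype.ext ha
    rw [← this]; exact haA
  have hBR : ∀ x : ↥((S : Subgroup G) ⊓ (T : Subgroup G)), x ∈ B → (x : G) ∈ R' := fun x hx => (show (x : G) ∈ _ ⊓ R' from hx).2
  have hinj2 : ∀ x ∈ B, ∀ y ∈ B, π x = π y → x = y := by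
    intro x hx y hy h
    apply Subtype.ext
    have h1 := hinj ((x : G)⁻¹ * y) (R'.mul_mem (R'.inv_mem (hBR x hx)) (hBR y hy)) (by
      rw [map_mul, map_inv, h, inv_mul_cancel])
    exact (inv_mul_eq_one.1 h1)
  have hcard : Nat.card A = Nat.card B := by
    symm
    apply Nat.card_congr
    refine Equiv.ofBijective (fun x : B => (⟨⟨π x.1, hBA x.1 x.2⟩, hBA' x.1 x.2⟩ : A)) ⟨?_, ?_⟩
    · intro x y h
      have h1 := congrArg (fun w : A => ((w : Inter) : G ⧸ Cfsg.oddCore G)) h
      exact Subtype.ext (hinj2 x.1 x.2 y.1 y.2 h1)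
    · rintro ⟨⟨a, ha⟩, haA⟩
      have ha' : a ∈ R'.map π := by rw [hRmap]; exact ha
      obtain ⟨r, hr, hre⟩ := ha'
      refine ⟨⟨⟨r, hR hr⟩, ?_⟩, ?_⟩
      · show r ∈ ((A.map Inter.subtype).comap π) ⊓ R'
        refine ⟨?_, hr⟩
        exact ⟨⟨a, ha⟩, haA, hre.symm⟩
      · apply Subtype.ext
        apply Subtype.ext
        exact hre
  rw [hcard]
  apply hI S T hST B
  · refine ⟨⟨fun x y => ?_⟩⟩
    apply Subtype.ext
    apply hinj2 _ (B.mul_mem x.2 y.2) _ (B.mul_mem y.2 x.2)
    have h1 := hAc.is_comm.comm (⟨_, hBA' x.1 x.2⟩ : A) (⟨_, hBA' y.1 y.2⟩ : A)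
    have h2 := congrArg (fun w : A => ((w : Inter) : G ⧸ Cfsg.oddCore G)) h1
    simpa using h2
  · intro x hx
    have h1 : π ((x ^ 2 : ↥((S : Subgroup G) ⊓ (T : Subgroup G))) : G) = 1 := by
      have h2 := hA _ (hBA' x hx)
      have h3 := congrArg (fun w : Inter => (w : G ⧸ Cfsg.oddCore G)) h2
      simpa using h3
    have h4 := hinj _ (hBR _ (B.pow_mem hx 2)) h1
    exact Subtype.ext h4

end Rank

section Final

open Cfsg.Agent.Lib.PCore Cfsg.Agent.Lib.SolvTwo

theorem main_Q {Q : Type*} [Group Q] [Finite Q] [Group.IsSolvable Q]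
    (hO : Cfsg.pPrimeCore 2 Q = ⊥)
    (hr : ∀ S T : Sylow 2 Q, S ≠ T → Cfsg.PRankLE 2 1 ↥((S : Subgroup Q) ⊓ (T : Subgroup Q))) :
    (∃ P : Sylow 2 Q, (P : Subgroup Q).Normal) ∨
    Nonempty (Q ≃* GL (Fin 2) (ZMod 3)) ∨
    (Nat.card Q = 48 ∧ Nat.card ↥(Subgroup.center Q) = 2 ∧
      Nonempty (Q ⧸ Subgroup.center Q ≃* Equiv.Perm (Fin 4)) ∧
      ∀ P : Sylow 2 Q, Nonempty (↥(P : Subgroup Q) ≃* QuaternionGroup 4)) := by
  classical
  haveI : Fact (Nat.Prime 2) := ⟨Nat.prime_two⟩
  by_cases hn : ∃ P : Sylow 2 Q, (P : Subgroup Q).Normal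
  · exact Or.inl hn
  right
  -- two distinct Sylows
  obtain ⟨S, T, hST⟩ : ∃ S T : Sylow 2 Q, S ≠ T := by
    by_contra h
    push Not at h
    haveI : Subsingleton (Sylow 2 Q) := ⟨h⟩
    obtain ⟨P⟩ : Nonempty (Sylow 2 Q) := inferInstance
    exact hn ⟨P, P.normal_of_subsingleton⟩
  have hnotp : ¬ IsPGroup 2 (MulAut ↥(pCore 2 Q)) := by
    intro hA
    have h2 := isPGroup_of_aut hO hA
    have htop : ∀ P : Sylow 2 Q, (P : Subgroup Q) = ⊤ := fun P =>
      (P.is_maximal' (Q := ⊤) (h2.of_equiv Subgroup.topEquiv.symm) le_top).symm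
    exact hST (Sylow.ext ((htop S).trans (htop T).symm))
  have hRle : pCore 2 Q ≤ (S : Subgroup Q) ⊓ (T : Subgroup Q) :=
    le_inf (pCore_le_sylow 2 S) (pCore_le_sylow 2 T)
  have hrankR : Cfsg.PRankLE 2 1 ↥(pCore 2 Q) := by
    intro A hAc hA
    have h1 := hr S T hST (A.map (Subgroup.inclusion hRle))
    have hcard : Nat.card (A.map (Subgroup.inclusion hRle)) = Nat.card A :=
      Nat.card_congr (Subgroup.equivMapOfInjective A _ (Subgroup.inclusion_injective hRle)).symm.toEquiv
    rw [← hcard]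
    apply h1
    · have : IsMulCommutative ↥A := hAc
      refine ⟨⟨fun x y => ?_⟩⟩
      obtain ⟨_, ⟨a, ha, rfl⟩⟩ := x
      obtain ⟨_, ⟨b, hb, rfl⟩⟩ := y
      apply Subtype.ext
      have := this.is_comm.comm ⟨a, ha⟩ ⟨b, hb⟩
      have h2 := congrArg (fun w : A => (((w : ↥(pCore 2 Q))) : Q)) this
      exact Subtype.ext h2
    · rintro _ ⟨a, ha, rfl⟩
      rw [← map_pow, hA a ha, map_one]
  have hmain := Cfsg.Agent.Lib.UniqueSub.main 2 (isPGroup_pCore (G := Q) 2)
    (fun H K hH hK => involution_unique_of_rank (isPGroup_pCore (G := Q) 2) hrankR H K hH hK)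
  rcases hmain with hcyc | ⟨-, n, ⟨e⟩⟩
  · exact absurd (isPGroup_mulAut_of_cyclic (isPGroup_pCore 2)) hnotp
  · rcases n with _ | _ | n
    · exfalso
      haveI : IsCyclic (QuaternionGroup 1) := quaternionGroup_one_isCyclic
      haveI : IsCyclic ↥(pCore 2 Q) := isCyclic_of_surjective e.symm.toMonoidHom e.symm.surjective
      exact hnotp (isPGroup_mulAut_of_cyclic (isPGroup_pCore 2))
    · -- the key case `R ≃ Q₈`
      set R := pCore 2 Q with hRdef
      let f : S3304.T ≃* R := e.symm
      have hC : ∀ q : Q, (∀ r ∈ R, q * r = r * q) → q ∈ R := by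
        intro q hq
        apply centralizer_pCore_le 2 hO
        rw [Subgroup.mem_centralizer_iff]
        intro r hr
        exact (hq r hr).symm
      have hle := card_Q_le R f hC
      have hR8 : Nat.card R = 8 := card_R R f
      -- the order of `Q`
      have h48 : Nat.card Q = 48 := by
        obtain ⟨k, hk⟩ := IsPGroup.iff_card.1 S.isPGroup'
        have h1 := Subgroup.card_mul_index (S : Subgroup Q)
        have h2 : ¬ 2 ∣ (S : Subgroup Q).index := S.not_dvd_index
        have hne8 : Nat.card (S : Subgroup Q) ≠ 8 := by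
          intro h
          have : R = S := Subgroup.eq_of_le_of_card_ge (pCore_le_sylow 2 S) (by rw [h, hR8])
          apply hn
          refine ⟨S, ?_⟩
          rw [← this]; infer_instance
        have hne1 : (S : Subgroup Q).index ≠ 1 := by
          intro h
          apply hn
          refine ⟨S, ?_⟩
          rw [Subgroup.index_eq_one.1 h]
          infer_instance
        have hdvd : 8 ∣ Nat.card (S : Subgroup Q) := by
          rw [← hR8]
          exact Subgroup.card_dvd_of_le (pCore_le_sylow 2 S)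
        have hcardle : Nat.card (S : Subgroup Q) * (S : Subgroup Q).index ≤ 48 := by
          rw [h1]; exact hle
        have hpos : 0 < (S : Subgroup Q).index := Nat.pos_of_ne_zero (Subgroup.index_ne_zero_of_finite)
        have hk6 : k < 6 := by
          by_contra hk6
          push Not at hk6
          have : 2 ^ 6 ≤ 2 ^ k := Nat.pow_le_pow_right (by norm_num) hk6
          rw [hk] at hcardle
          nlinarith
        rw [hk] at hdvd hne8 hcardle h1
        rw [← h1]
        interval_cases k <;> first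
          | (exfalso; revert hdvd; decide)
          | (exfalso; exact hne8 rfl)
          | skip
        all_goals
          norm_num at hcardle h1 ⊢
          omega
      have hR2 : IsPGroup 2 R := isPGroup_pCore 2
      obtain ⟨c, u, hc, hu, hc3, hu2, huc⟩ := exists_c_u R f hC h48
      rcases hu2 with hu2 | hu2
      · left
        exact iso_GL R f hC h48 hc hu hc3 hu2 huc
      · right
        have hu4 : u ^ 4 = 1 := by
          rw [show 4 = 2 * 2 from rfl, pow_mul, hu2, pow_two, z_sq]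
        exact ⟨h48, card_center R f hC, iso_S4 R f hC h48 hc hu hc3 hu4 huc,
          fun P => quat_sylow R f hR2 h48 (involution_unique R f hR2 h48 hu hu2) P⟩
    · exact absurd ((isPGroup_mulAut_quat (n + 2) (by omega)).of_equiv (MulAut.congr e.symm)) hnotp

end Final

/-- Let G be a finite solvable group in which the intersection of any two distinct Sylow 2-subgroups has 2-rank at most 1 (contains no Klein four-group). Write Q = G/O(G), O(G) the largest normal subgroup of odd order. Then Q has a normal Sylow 2-subgroup; or Q is isomorphic to GL(2,3); or Q has order 48, centre of order 2 with central quotient isomorphic to the symmetric group of degree 4, and generalized quaternion Sylow 2-subgroups of order 16 (the binary octahedral group). The last two are the two representation groups of the symmetric group of degree 4. -/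
theorem result {G : Type*} [Group G] [Finite G] (hs : Group.IsSolvable G)
    (hI : ∀ S T : Sylow 2 G, S ≠ T → Cfsg.PRankLE 2 1 ↥((S : Subgroup G) ⊓ (T : Subgroup G))) :
    (∃ P : Sylow 2 (G ⧸ Cfsg.oddCore G), (P : Subgroup (G ⧸ Cfsg.oddCore G)).Normal) ∨
    Nonempty ((G ⧸ Cfsg.oddCore G) ≃* GL (Fin 2) (ZMod 3)) ∨
    (Nat.card (G ⧸ Cfsg.oddCore G) = 48 ∧ Nat.card ↥(Subgroup.center (G ⧸ Cfsg.oddCore G)) = 2 ∧
      Nonempty ((G ⧸ Cfsg.oddCore G) ⧸ Subgroup.center (G ⧸ Cfsg.oddCore G) ≃* Equiv.Perm (Fin 4)) ∧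
      ∀ P : Sylow 2 (G ⧸ Cfsg.oddCore G), Nonempty (↥(P : Subgroup (G ⧸ Cfsg.oddCore G)) ≃* QuaternionGroup 4)) := by
  haveI := hs
  exact main_Q (Cfsg.Agent.Lib.PCore.pPrimeCore_quotient_pPrimeCore 2) (rank_quot hI)

end Cfsg.Agent.S3304
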