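import Mathlib
import Cfsg.Statements.S3335

set_option autoImplicit false
set_option linter.style.haveILetI false
set_option linter.unusedSectionVars false
open Cfsg

namespace Cfsg.Agent.S3335

universe u

section abstract

variable {G : Type u} [Group G]

/-- The relations of Carmichael's presentation on `m` generators. -/
structure Carm (m : ℕ) (x : ℕ → G) : Prop where
  h0 : 0 < m → x 0 ^ 3 = 1
  h1 : ∀ i, 1 ≤ i → i < m → x i ^ 2 = 1
  h2 : ∀ i, i + 1 < m → (x i * x (i + 1)) ^ 3 = 1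
  h3 : ∀ i j, i + 1 < j → j < m → (x i * x j) ^ 2 = 1

variable {m : ℕ} {x : ℕ → G}

theorem Carm.sq (hc : Carm m x) {i : ℕ} (h1 : 1 ≤ i) (h2 : i < m) : x i * x i = 1 := by
  have := hc.h1 i h1 h2
  rwa [pow_two] at this

theorem Carm.inv (hc : Carm m x) {i : ℕ} (h1 : 1 ≤ i) (h2 : i < m) : (x i)⁻¹ = x i :=
  inv_eq_of_mul_eq_one_left (hc.sq h1 h2)

theorem Carm.comm (hc : Carm m x) {a b : ℕ} (h1 : 1 ≤ a) (h2 : a + 1 < b) (h3 : b < m) :
    x a * x b = x b * x a := by
  have h := hc.h3 a b h2 h3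
  rw [pow_two] at h
  have h4 : x a * x b = (x a * x b)⁻¹ := eq_inv_of_mul_eq_one_left h
  rw [mul_inv_rev, hc.inv h1 (by omega), hc.inv (by omega) h3] at h4
  exact h4

/-- generators of index at least two invert `x 0` -/
theorem Carm.invert (hc : Carm m x) {b : ℕ} (h1 : 2 ≤ b) (h3 : b < m) :
    x b * x 0 * x b = (x 0)⁻¹ := by
  have h := hc.h3 0 b (by omega) h3
  rw [pow_two] at h
  have h4 : x 0 * (x b * x 0 * x b) = 1 := by rw [← h]; group
  exact eq_inv_of_mul_eq_one_right h4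

theorem Carm.braid (hc : Carm m x) {a : ℕ} (h1 : 1 ≤ a) (h2 : a + 1 < m) :
    x a * x (a + 1) * x a = x (a + 1) * x a * x (a + 1) := by
  have h := hc.h2 a h2
  simp only [pow_succ, pow_zero, one_mul] at h
  have e1 := hc.inv h1 (by omega)
  have e2 := hc.inv (i := a + 1) (by omega) h2
  have h4 : x a * x (a + 1) * x a = (x (a + 1) * x a * x (a + 1))⁻¹ :=
    eq_inv_of_mul_eq_one_left (by simpa [mul_assoc] using h)
  rw [h4]
  simp only [mul_inv_rev, e1, e2, mul_assoc]

theorem Carm.rel01 (hc : Carm m x) (h1 : 1 < m) : x 1 * x 0 * x 1 = (x 0)⁻¹ * x 1 * (x 0)⁻¹ := by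
  have h := hc.h2 0 (by omega)
  simp only [pow_succ, pow_zero, one_mul, zero_add] at h
  have h4 : x 1 * x 0 * x 1 = (x 0 * x 1 * x 0)⁻¹ :=
    eq_inv_of_mul_eq_one_left (by
      have : x 1 * x 0 * x 1 * (x 0 * x 1 * x 0) =
          (x 0)⁻¹ * (x 0 * x 1 * (x 0 * x 1) * (x 0 * x 1)) * x 0 := by group
      rw [this, h]; group)
  rw [h4]
  simp only [mul_inv_rev, hc.inv (i := 1) le_rfl h1, mul_assoc]

/-- products from the top -/
def uu (m : ℕ) (x : ℕ → G) : ℕ → G
  | 0 => 1
  | d + 1 => uu m x d * x (m - 1 - d)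

/-- coset words -/
def ww (m : ℕ) (x : ℕ → G) (j : ℕ) : G := uu m x (m - j)

theorem ww_top (m : ℕ) (x : ℕ → G) : ww m x m = 1 := by simp [ww, uu]

theorem ww_step {j : ℕ} (hj : j < m) : ww m x j = ww m x (j + 1) * x j := by
  unfold ww
  have h1 : m - j = (m - (j + 1)) + 1 := by omega
  rw [h1, uu]
  congr 2
  omega

/-- reverse induction -/
theorem rev_ind {m : ℕ} {P : ℕ → Prop} (hm : P m) (hs : ∀ j, j < m → P (j + 1) → P j) :
    ∀ j, j ≤ m → P j := by
  have key : ∀ d, d ≤ m → P (m - d) := by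
    intro d
    induction d with
    | zero => intro _; simpa using hm
    | succ d ih =>
      intro hd
      have h1 := ih (by omega)
      apply hs (m - (d + 1)) (by omega)
      have h2 : m - (d + 1) + 1 = m - d := by omega
      rwa [h2]
  intro j hj
  have := key (m - j) (by omega)
  have h2 : m - (m - j) = j := by omega
  rwa [h2] at this

/-- generators far below commute with the coset word -/
theorem ww_comm (hc : Carm m x) {k : ℕ} (hk : 1 ≤ k) :
    ∀ j, j ≤ m → k + 2 ≤ j → ww m x j * x k = x k * ww m x j := by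
  apply rev_ind
  · intro _; rw [ww_top]; simp
  · intro j hj ih hkj
    rw [ww_step hj, mul_assoc, ← hc.comm hk (by omega) hj, ← mul_assoc, ih (by omega), mul_assoc]

/-- the normalizer property -/
theorem ww_norm (hc : Carm m x) :
    ∀ j, j ≤ m → 2 ≤ j → ∃ n : ℤ, ∀ e : ℤ, ww m x j * x 0 ^ e = x 0 ^ (n * e) * ww m x j ∧ (n = 1 ∨ n = -1) := by
  apply rev_ind
  · intro _
    refine ⟨1, fun e => ?_⟩
    rw [ww_top]; simp
  · intro j hj ih h2j
    obtain ⟨n, hn⟩ := ih (by omega)
    refine ⟨-n, fun e => ?_⟩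
    have hinv : ∀ e : ℤ, x j * x 0 ^ e = x 0 ^ (-e) * x j := by
      intro e
      have h1 : x j * x 0 * (x j)⁻¹ = (x 0)⁻¹ := by
        rw [hc.inv (by omega) hj]; exact hc.invert h2j hj
      have h2 : x j * x 0 ^ e * (x j)⁻¹ = x 0 ^ (-e) := by
        rw [← conj_zpow, h1]; simp
      rw [← h2]; group
    refine ⟨?_, ?_⟩
    · rw [ww_step hj, mul_assoc, hinv, ← mul_assoc, (hn (-e)).1, mul_assoc]
      congr 2
      ring
    · rcases (hn 0).2 with h | h <;> simp [h]

/-- moving a higher generator through a coset word -/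
theorem ww_lift (hc : Carm m x) {a : ℕ} (ha : 1 ≤ a) (ham : a + 1 < m) :
    ∀ j, j ≤ a → 1 ≤ j → ww m x j * x (a + 1) = x a * ww m x j := by
  apply rev_ind
  · intro _
    rw [ww_step (j := a) (by omega), ww_step (j := a + 1) ham]
    have h1 := ww_comm hc (k := a) ha (a + 2) (by omega) le_rfl
    have h2 := hc.braid ha ham
    calc ww m x (a + 1 + 1) * x (a + 1) * x a * x (a + 1)
        = ww m x (a + 2) * (x (a + 1) * x a * x (a + 1)) := by simp only [mul_assoc]
      _ = ww m x (a + 2) * (x a * x (a + 1) * x a) := by rw [h2]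
      _ = (ww m x (a + 2) * x a) * (x (a + 1) * x a) := by simp only [mul_assoc]
      _ = x a * (ww m x (a + 1 + 1) * x (a + 1) * x a) := by rw [h1]; simp only [mul_assoc]
  · intro j hj ih hj1
    rw [ww_step (j := j) (by omega), mul_assoc, hc.comm (a := j) hj1 (by omega) ham, ← mul_assoc,
      ih (by omega), mul_assoc]

/-- The set of coset representatives. -/
def Rp (m : ℕ) (x : ℕ → G) (c : G) : Prop :=
  (∃ j, 1 ≤ j ∧ j ≤ m ∧ c = ww m x j) ∨ c = ww m x 1 * x 0 ∨ c = ww m x 1 * x 0 * x 0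

variable {H : Subgroup G}

theorem x0_cube (hc : Carm m x) (hm : 0 < m) : x 0 * x 0 * x 0 = 1 := by
  have := hc.h0 hm
  simpa [pow_succ] using this

theorem x0_inv (hc : Carm m x) (hm : 0 < m) : (x 0)⁻¹ = x 0 * x 0 :=
  inv_eq_of_mul_eq_one_left (x0_cube hc hm)

theorem step_ww (hc : Carm m x) (hH : ∀ i, i + 1 < m → x i ∈ H) {j k : ℕ} (hj1 : 1 ≤ j) (hjm : j ≤ m)
    (hk : k < m) : ∃ c, Rp m x c ∧ ∃ h ∈ H, ww m x j * x k = h * c := by
  rcases Nat.eq_zero_or_pos k with rfl | hk0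
  · by_cases hj : j = 1
    · subst hj
      exact ⟨_, Or.inr (Or.inl rfl), 1, H.one_mem, by simp⟩
    · obtain ⟨n, hn⟩ := ww_norm hc j hjm (by omega)
      refine ⟨_, Or.inl ⟨j, hj1, hjm, rfl⟩, x 0 ^ n, H.zpow_mem (hH 0 (by omega)) n, ?_⟩
      have := (hn 1).1
      simpa using this
  · rcases lt_trichotomy (k + 1) j with h | h | h
    · by_cases h2 : k + 2 ≤ j
      · exact ⟨_, Or.inl ⟨j, hj1, hjm, rfl⟩, x k, hH k (by omega), ww_comm hc hk0 j hjm h2⟩
      · omega
    · subst h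
      exact ⟨_, Or.inl ⟨k, hk0, by omega, rfl⟩, 1, H.one_mem, by
        rw [one_mul, ww_step (j := k) hk]⟩
    · by_cases h2 : k = j
      · subst h2
        refine ⟨_, Or.inl ⟨k + 1, by omega, by omega, rfl⟩, 1, H.one_mem, ?_⟩
        rw [one_mul, ww_step (j := k) hk, mul_assoc, hc.sq hk0 hk, mul_one]
      · obtain ⟨a, rfl⟩ : ∃ a, k = a + 1 := ⟨k - 1, by omega⟩
        exact ⟨_, Or.inl ⟨j, hj1, hjm, rfl⟩, x a, hH a hk,
          ww_lift hc (a := a) (by omega) hk j (by omega) hj1⟩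

theorem xk_x0 (hc : Carm m x) {k : ℕ} (h2 : 2 ≤ k) (hk : k < m) : x 0 * x k = x k * (x 0)⁻¹ := by
  have h1 := hc.invert h2 hk
  have h3 := hc.sq (i := k) (by omega) hk
  calc x 0 * x k = (x k * x k) * x 0 * x k := by rw [h3, one_mul]
    _ = x k * (x k * x 0 * x k) := by simp only [mul_assoc]
    _ = x k * (x 0)⁻¹ := by rw [h1]

theorem step_c1 (hc : Carm m x) (hH : ∀ i, i + 1 < m → x i ∈ H) (hm : 0 < m) {k : ℕ}
    (hk : k < m) : ∃ c, Rp m x c ∧ ∃ h ∈ H, ww m x 1 * x 0 * x k = h * c := by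
  by_cases h0 : k = 0
  · subst h0
    exact ⟨_, Or.inr (Or.inr rfl), 1, H.one_mem, by simp⟩
  by_cases h1 : k = 1
  · subst h1
    obtain ⟨n, hn⟩ := ww_norm hc 2 hk le_rfl
    refine ⟨_, Or.inr (Or.inr rfl), x 0 ^ (n * (-1)), H.zpow_mem (hH 0 (by omega)) _, ?_⟩
    have h2 := (hn (-1)).1
    rw [zpow_neg_one] at h2
    have h3 := hc.rel01 hk
    calc ww m x 1 * x 0 * x 1 = ww m x 2 * (x 1 * x 0 * x 1) := by
          rw [ww_step (j := 1) hk]; simp only [mul_assoc]
      _ = ww m x 2 * ((x 0)⁻¹ * x 1 * (x 0)⁻¹) := by rw [h3]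
      _ = (ww m x 2 * (x 0)⁻¹) * (x 1 * (x 0)⁻¹) := by simp only [mul_assoc]
      _ = x 0 ^ (n * (-1)) * (ww m x 2 * (x 1 * (x 0)⁻¹)) := by rw [h2]; simp only [mul_assoc]
      _ = x 0 ^ (n * (-1)) * (ww m x 1 * x 0 * x 0) := by
          rw [x0_inv hc hm, ww_step (j := 1) hk]; simp only [mul_assoc]
  · obtain ⟨a, rfl⟩ : ∃ a, k = a + 1 := ⟨k - 1, by omega⟩
    refine ⟨_, Or.inr (Or.inr rfl), x a, hH a hk, ?_⟩
    have h2 := ww_lift hc (a := a) (by omega) hk 1 (by omega) le_rfl
    calc ww m x 1 * x 0 * x (a + 1) = ww m x 1 * (x 0 * x (a + 1)) := by simp only [mul_assoc]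
      _ = ww m x 1 * (x (a + 1) * (x 0)⁻¹) := by rw [xk_x0 hc (by omega) hk]
      _ = (ww m x 1 * x (a + 1)) * (x 0)⁻¹ := by simp only [mul_assoc]
      _ = x a * (ww m x 1 * x 0 * x 0) := by rw [h2, x0_inv hc hm]; simp only [mul_assoc]

theorem step_c0 (hc : Carm m x) (hH : ∀ i, i + 1 < m → x i ∈ H) (hm : 0 < m) {k : ℕ}
    (hk : k < m) : ∃ c, Rp m x c ∧ ∃ h ∈ H, ww m x 1 * x 0 * x 0 * x k = h * c := by
  by_cases h0 : k = 0
  · subst h0
    refine ⟨_, Or.inl ⟨1, le_rfl, hm, rfl⟩, 1, H.one_mem, ?_⟩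
    have := x0_cube hc hm
    rw [one_mul, mul_assoc, mul_assoc, ← mul_assoc (x 0), this, mul_one]
  by_cases h1 : k = 1
  · subst h1
    obtain ⟨n, hn⟩ := ww_norm hc 2 hk le_rfl
    refine ⟨_, Or.inr (Or.inl rfl), x 0 ^ n, H.zpow_mem (hH 0 (by omega)) _, ?_⟩
    have h2 := (hn 1).1
    simp only [zpow_one, mul_one] at h2
    have h3 := hc.rel01 hk
    have h4 : x 1 * (x 0)⁻¹ * x 1 = x 0 * x 1 * x 0 := by
      have h5 : x 1 * (x 0)⁻¹ * x 1 = (x 1 * x 0 * x 1)⁻¹ := by
        simp only [mul_inv_rev, hc.inv (i := 1) le_rfl hk, mul_assoc]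
      rw [h5, h3]
      simp only [mul_inv_rev, inv_inv, hc.inv (i := 1) le_rfl hk, mul_assoc]
    calc ww m x 1 * x 0 * x 0 * x 1 = ww m x 2 * (x 1 * (x 0 * x 0) * x 1) := by
          rw [ww_step (j := 1) hk]; simp only [mul_assoc]
      _ = ww m x 2 * (x 1 * (x 0)⁻¹ * x 1) := by rw [x0_inv hc hm]
      _ = ww m x 2 * (x 0 * x 1 * x 0) := by rw [h4]
      _ = (ww m x 2 * x 0) * (x 1 * x 0) := by simp only [mul_assoc]
      _ = x 0 ^ n * (ww m x 1 * x 0) := by
          rw [h2, ww_step (j := 1) hk]; simp only [mul_assoc]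
  · obtain ⟨a, rfl⟩ : ∃ a, k = a + 1 := ⟨k - 1, by omega⟩
    refine ⟨_, Or.inr (Or.inl rfl), x a, hH a hk, ?_⟩
    have h2 := ww_lift hc (a := a) (by omega) hk 1 (by omega) le_rfl
    have h3 := xk_x0 hc (k := a + 1) (by omega) hk
    have h4 : (x 0)⁻¹ * (x 0)⁻¹ = x 0 := by
      rw [x0_inv hc hm]
      have := x0_cube hc hm
      calc x 0 * x 0 * (x 0 * x 0) = (x 0 * x 0 * x 0) * x 0 := by simp only [mul_assoc]
        _ = x 0 := by rw [this, one_mul]
    calc ww m x 1 * x 0 * x 0 * x (a + 1) = ww m x 1 * (x 0 * (x 0 * x (a + 1))) := by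
          simp only [mul_assoc]
      _ = ww m x 1 * (x (a + 1) * ((x 0)⁻¹ * (x 0)⁻¹)) := by
          have h5 : x 0 * (x 0 * x (a + 1)) = x (a + 1) * ((x 0)⁻¹ * (x 0)⁻¹) := by
            rw [h3, ← mul_assoc, h3, mul_assoc]
          rw [h5]
      _ = (ww m x 1 * x (a + 1)) * x 0 := by rw [h4]; simp only [mul_assoc]
      _ = x a * (ww m x 1 * x 0) := by rw [h2]; simp only [mul_assoc]

/-- Covering: every element lies in a coset of `H` with representative in `Rp`. -/
theorem cover (hc : Carm m x) (hH : ∀ i, i + 1 < m → x i ∈ H) (hm : 0 < m)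
    (hgen : Subgroup.closure (x '' {i | i < m}) = ⊤) (a : G) :
    ∃ c, Rp m x c ∧ a * c⁻¹ ∈ H := by
  let P : G → Prop := fun a => ∃ c, Rp m x c ∧ a * c⁻¹ ∈ H
  have hstep : ∀ k < m, ∀ a, P a → P (a * x k) := by
    rintro k hk a ⟨c, hcR, hac⟩
    have key : ∃ c', Rp m x c' ∧ ∃ h ∈ H, c * x k = h * c' := by
      rcases hcR with ⟨j, h1, h2, rfl⟩ | rfl | rfl
      · exact step_ww hc hH h1 h2 hk
      · exact step_c1 hc hH hm hk
      · exact step_c0 hc hH hm hk
    obtain ⟨c', hc', h, hh, he⟩ := key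
    refine ⟨c', hc', ?_⟩
    have : a * x k * c'⁻¹ = (a * c⁻¹) * h := by
      have h3 : x k * c'⁻¹ = c⁻¹ * h := by
        have h4 : x k = c⁻¹ * (h * c') := by rw [← he]; group
        rw [h4]; group
      rw [mul_assoc, h3]; group
    rw [this]
    exact H.mul_mem hac hh
  have hstepi : ∀ k < m, ∀ a, P a → P (a * (x k)⁻¹) := by
    intro k hk a ha
    by_cases h0 : k = 0
    · subst h0
      rw [x0_inv hc hm, ← mul_assoc]
      exact hstep 0 hk _ (hstep 0 hk _ ha)
    · rw [hc.inv (by omega) hk]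
      exact hstep k hk a ha
  have h1 : P 1 := ⟨ww m x m, Or.inl ⟨m, hm, le_rfl, rfl⟩, by simp [ww_top]⟩
  have hmem : a ∈ Subgroup.closure (x '' {i | i < m}) := by rw [hgen]; trivial
  induction hmem using Subgroup.closure_induction_right with
  | one => exact h1
  | mul_right y _ z hz hy =>
    obtain ⟨k, hk, rfl⟩ := hz
    exact hstep k hk y hy
  | mul_inv_cancel y _ z hz hy =>
    obtain ⟨k, hk, rfl⟩ := hz
    exact hstepi k hk y hy

/-- the list of the representatives -/
def rr (m : ℕ) (x : ℕ → G) (p : ℕ) : G :=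
  if p < m then ww m x (p + 1) else if p = m then ww m x 1 * x 0 else ww m x 1 * x 0 * x 0

theorem exists_rr {c : G} (h : Rp m x c) : ∃ p < m + 2, c = rr m x p := by
  rcases h with ⟨j, h1, h2, rfl⟩ | rfl | rfl
  · refine ⟨j - 1, by omega, ?_⟩
    have h3 : j - 1 < m := by omega
    have h4 : j - 1 + 1 = j := by omega
    simp [rr, h3, h4]
  · exact ⟨m, by omega, by simp [rr]⟩
  · exact ⟨m + 1, by omega, by simp [rr]⟩

/-- The order bound by induction. -/
theorem bound (m : ℕ) : ∀ (G : Type u) [Group G] (x : ℕ → G), Carm m x →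
    Subgroup.closure (x '' {i | i < m}) = ⊤ → Finite G ∧ Nat.card G ≤ (m + 2).factorial / 2 := by
  induction m with
  | zero =>
    intro G _ x _ hgen
    have h : (⊥ : Subgroup G) = ⊤ := by
      rw [← hgen]
      have : x '' {i | i < 0} = ∅ := by simp
      rw [this, Subgroup.closure_empty]
    have hs : Subsingleton G := ⟨fun a b => by
      have ha : a ∈ (⊥ : Subgroup G) := h ▸ Subgroup.mem_top a
      have hb : b ∈ (⊥ : Subgroup G) := h ▸ Subgroup.mem_top b
      rw [Subgroup.mem_bot] at ha hb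
      rw [ha, hb]⟩
    exact ⟨inferInstance, by simp⟩
  | succ m ih =>
    intro G _ x hc hgen
    let H := Subgroup.closure (x '' {i | i < m})
    have hmemH : ∀ i, i < m → x i ∈ H := fun i hi => Subgroup.subset_closure ⟨i, hi, rfl⟩
    let y : ℕ → H := fun i => if h : i < m then ⟨x i, hmemH i h⟩ else 1
    have hy : ∀ i, i < m → (y i : G) = x i := by
      intro i h
      simp [y, h]
    have hcy : Carm m y := by
      constructor
      · intro hm
        apply Subtype.ext
        simpa [hy 0 hm] using hc.h0 (by omega)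
      · intro i h1 h2
        apply Subtype.ext
        simpa [hy i h2] using hc.h1 i h1 (by omega)
      · intro i h1
        apply Subtype.ext
        simpa [hy i (by omega), hy (i + 1) h1] using hc.h2 i (by omega)
      · intro i j h1 h2
        apply Subtype.ext
        simpa [hy i (by omega), hy j h2] using hc.h3 i j h1 (by omega)
    have hgy : Subgroup.closure (y '' {i | i < m}) = ⊤ := by
      rw [eq_top_iff]
      have h1 := Subgroup.closure_closure_coe_preimage (k := x '' {i | i < m})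
      rw [← h1]
      apply Subgroup.closure_mono
      rintro ⟨g, hg⟩ ⟨i, hi, rfl'⟩
      refine ⟨i, hi, ?_⟩
      apply Subtype.ext
      exact (hy i hi).trans rfl'
    obtain ⟨hfin, hle⟩ := ih H y hcy hgy
    have hcov := cover hc (H := H) (fun i hi => hmemH i (by omega)) (by omega) hgen
    choose c hc1 hc2 using hcov
    have hp := fun a => exists_rr (hc1 a)
    choose p hp1 hp2 using hp
    let f : G → Fin (m + 1 + 2) × H := fun a => (⟨p a, hp1 a⟩, ⟨a * (c a)⁻¹, hc2 a⟩)
    have hf : Function.Injective f := by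
      intro a b hab
      have h1 : p a = p b := congrArg (fun z => (z.1 : ℕ)) hab
      have h2 : a * (c a)⁻¹ = b * (c b)⁻¹ := congrArg (fun z => ((z.2 : H) : G)) hab
      have h3 : c a = c b := by rw [hp2 a, hp2 b, h1]
      rw [h3] at h2
      exact mul_right_cancel h2
    have hG : Finite G := Finite.of_injective f hf
    refine ⟨hG, ?_⟩
    have h1 := Nat.card_le_card_of_injective f hf
    rw [Nat.card_prod, Nat.card_fin] at h1
    refine h1.trans ?_
    have h2 : (m + 1 + 2) * Nat.card H ≤ (m + 1 + 2) * ((m + 2).factorial / 2) := Nat.mul_le_mul_left _ hle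
    refine h2.trans ?_
    rw [Nat.le_div_iff_mul_le (by norm_num), Nat.factorial_succ (m + 2)]
    have h3 : (m + 2).factorial / 2 * 2 ≤ (m + 2).factorial := Nat.div_mul_le_self _ _
    calc (m + 1 + 2) * ((m + 2).factorial / 2) * 2 = (m + 1 + 2) * ((m + 2).factorial / 2 * 2) := by ring
      _ ≤ (m + 2 + 1) * (m + 2).factorial := Nat.mul_le_mul_left _ h3

end abstract

section concrete

open Equiv

variable {α : Type*} [DecidableEq α] [Fintype α]

theorem sq_disj {a b c d : α} (h : [a, b, c, d].Nodup) : (swap a b * swap c d) ^ 2 = 1 := by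
  rw [(Equiv.Perm.disjoint_swap_swap h).commute.mul_pow, pow_two, pow_two, swap_mul_self,
    swap_mul_self, one_mul]

theorem cube3 {a b c : α} (ab : a ≠ b) (ac : a ≠ c) (bc : b ≠ c) : (swap a b * swap a c) ^ 3 = 1 := by
  have h := (Equiv.Perm.isThreeCycle_swap_mul_swap_same ab ac bc).orderOf
  rw [← h]
  exact pow_orderOf_eq_one _

variable (m : ℕ)

/-- points of `Fin (m + 2)` -/
def pt (k : ℕ) : Fin (m + 2) := Fin.ofNat (m + 2) k

theorem pt_val {k : ℕ} (h : k < m + 2) : (pt m k).val = k := by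
  simp [pt, Fin.ofNat, Nat.mod_eq_of_lt h]

variable {m}

theorem pt_ne {a b : ℕ} (ha : a < m + 2) (hb : b < m + 2) (hab : a ≠ b) : pt m a ≠ pt m b := by
  intro h
  apply hab
  have := congrArg Fin.val h
  rwa [pt_val m ha, pt_val m hb] at this

theorem nodup4 {a b c d : ℕ} (ha : a < m + 2) (hb : b < m + 2) (hc : c < m + 2) (hd : d < m + 2)
    (h1 : a ≠ b) (h2 : a ≠ c) (h3 : a ≠ d) (h4 : b ≠ c) (h5 : b ≠ d) (h6 : c ≠ d) :
    [pt m a, pt m b, pt m c, pt m d].Nodup := by
  simp only [List.nodup_cons, List.mem_cons, List.not_mem_nil, or_false, not_or, List.nodup_nil,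
    and_true, not_false_eq_true]
  exact ⟨⟨pt_ne ha hb h1, pt_ne ha hc h2, pt_ne ha hd h3⟩, ⟨pt_ne hb hc h4, pt_ne hb hd h5⟩,
    pt_ne hc hd h6⟩

variable (m)

/-- The images of the generators. -/
def XX (i : ℕ) : Perm (Fin (m + 2)) :=
  if i = 0 then swap (pt m 0) (pt m 1) * swap (pt m 1) (pt m 2)
  else swap (pt m 0) (pt m 1) * swap (pt m (i + 1)) (pt m (i + 2))

theorem XX_zero : XX m 0 = swap (pt m 0) (pt m 1) * swap (pt m 1) (pt m 2) := by simp [XX]

theorem XX_pos {i : ℕ} (h : 1 ≤ i) :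
    XX m i = swap (pt m 0) (pt m 1) * swap (pt m (i + 1)) (pt m (i + 2)) := by
  have : i ≠ 0 := by omega
  simp [XX, this]

variable {m}

theorem XX_mul {i j : ℕ} (hi : 1 ≤ i) (hj : 1 ≤ j) (him : i < m) (_hjm : j < m) :
    XX m i * XX m j = swap (pt m (i + 1)) (pt m (i + 2)) * swap (pt m (j + 1)) (pt m (j + 2)) := by
  rw [XX_pos m hi, XX_pos m hj]
  have hc : Commute (swap (pt m 0) (pt m 1)) (swap (pt m (i + 1)) (pt m (i + 2))) :=
    (Equiv.Perm.disjoint_swap_swap (nodup4 (by omega) (by omega) (by omega) (by omega)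
      (by omega) (by omega) (by omega) (by omega) (by omega) (by omega))).commute
  calc swap (pt m 0) (pt m 1) * swap (pt m (i + 1)) (pt m (i + 2)) *
        (swap (pt m 0) (pt m 1) * swap (pt m (j + 1)) (pt m (j + 2)))
      = (swap (pt m (i + 1)) (pt m (i + 2)) * swap (pt m 0) (pt m 1)) *
        (swap (pt m 0) (pt m 1) * swap (pt m (j + 1)) (pt m (j + 2))) := by rw [hc.eq]
    _ = swap (pt m (i + 1)) (pt m (i + 2)) *
        ((swap (pt m 0) (pt m 1) * swap (pt m 0) (pt m 1)) * swap (pt m (j + 1)) (pt m (j + 2))) := by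
        simp only [mul_assoc]
    _ = _ := by rw [swap_mul_self, one_mul]

theorem XX0_mul {j : ℕ} (hj : 1 ≤ j) (hm : 2 ≤ m) :
    XX m 0 * XX m j = swap (pt m 0) (pt m 2) * swap (pt m (j + 1)) (pt m (j + 2)) := by
  rw [XX_zero, XX_pos m hj]
  have h : swap (pt m 1) (pt m 0) * swap (pt m 2) (pt m 1) * swap (pt m 1) (pt m 0)
      = swap (pt m 0) (pt m 2) :=
    swap_mul_swap_mul_swap (pt_ne (by omega) (by omega) (by omega))
      (pt_ne (by omega) (by omega) (by omega))
  rw [swap_comm (pt m 1) (pt m 0), swap_comm (pt m 2) (pt m 1)] at h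
  rw [← h]
  simp only [mul_assoc]

theorem XX_carm : Carm m (XX m) := by
  constructor
  · intro hm
    rw [XX_zero, swap_comm (pt m 0) (pt m 1)]
    exact cube3 (pt_ne (by omega) (by omega) (by omega)) (pt_ne (by omega) (by omega) (by omega))
      (pt_ne (by omega) (by omega) (by omega))
  · intro i h1 h2
    rw [XX_pos m h1]
    exact sq_disj (nodup4 (by omega) (by omega) (by omega) (by omega)
      (by omega) (by omega) (by omega) (by omega) (by omega) (by omega))
  · intro i h1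
    rcases Nat.eq_zero_or_pos i with rfl | hi
    · have := XX0_mul (m := m) (j := 1) le_rfl (by omega)
      simp only [zero_add] at *
      rw [this, swap_comm (pt m 0) (pt m 2)]
      exact cube3 (pt_ne (by omega) (by omega) (by omega)) (pt_ne (by omega) (by omega) (by omega))
        (pt_ne (by omega) (by omega) (by omega))
    · rw [XX_mul hi (by omega) (by omega) h1, swap_comm (pt m (i + 1)) (pt m (i + 2))]
      exact cube3 (pt_ne (by omega) (by omega) (by omega)) (pt_ne (by omega) (by omega) (by omega))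
        (pt_ne (by omega) (by omega) (by omega))
  · intro i j h1 h2
    rcases Nat.eq_zero_or_pos i with rfl | hi
    · rw [XX0_mul (by omega) (by omega)]
      exact sq_disj (nodup4 (by omega) (by omega) (by omega) (by omega)
        (by omega) (by omega) (by omega) (by omega) (by omega) (by omega))
    · rw [XX_mul hi (by omega) (by omega) h2]
      exact sq_disj (nodup4 (by omega) (by omega) (by omega) (by omega)
        (by omega) (by omega) (by omega) (by omega) (by omega) (by omega))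

theorem XX_sign {i : ℕ} (hi : i < m) : XX m i ∈ alternatingGroup (Fin (m + 2)) := by
  rw [Equiv.Perm.mem_alternatingGroup]
  rcases Nat.eq_zero_or_pos i with rfl | h
  · rw [XX_zero, map_mul, Equiv.Perm.sign_swap (pt_ne (by omega) (by omega) (by omega)),
      Equiv.Perm.sign_swap (pt_ne (by omega) (by omega) (by omega))]
    simp
  · rw [XX_pos m h, map_mul, Equiv.Perm.sign_swap (pt_ne (by omega) (by omega) (by omega)),
      Equiv.Perm.sign_swap (pt_ne (by omega) (by omega) (by omega))]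
    simp

variable (m)

/-- Subgroups generated by an initial segment. -/
def JJ (k : ℕ) : Subgroup (Perm (Fin (m + 2))) := Subgroup.closure (XX m '' {i | i + 3 ≤ k})

variable {m}

theorem XX_mem_JJ {i k : ℕ} (h : i + 3 ≤ k) : XX m i ∈ JJ m k := Subgroup.subset_closure ⟨i, h, rfl⟩

theorem JJ_le {k k' : ℕ} (h : k ≤ k') : JJ m k ≤ JJ m k' := by
  apply Subgroup.closure_mono
  rintro _ ⟨i, hi, rfl⟩
  exact ⟨i, le_trans hi h, rfl⟩

theorem JJ_fix {k : ℕ} (hk : k < m + 2) (hk2 : 2 ≤ k) : ∀ g ∈ JJ m k, g (pt m k) = pt m k := by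
  intro g hg
  have : JJ m k ≤ MulAction.stabilizer (Perm (Fin (m + 2))) (pt m k) := by
    rw [JJ, Subgroup.closure_le]
    rintro _ ⟨i, hi, rfl⟩
    have hi' : i + 3 ≤ k := hi
    show XX m i (pt m k) = pt m k
    rcases Nat.eq_zero_or_pos i with rfl | h
    · rw [XX_zero, Equiv.Perm.mul_apply,
        swap_apply_of_ne_of_ne (pt_ne (by omega) (by omega) (by omega)) (pt_ne (by omega) (by omega) (by omega)),
        swap_apply_of_ne_of_ne (pt_ne (by omega) (by omega) (by omega)) (pt_ne (by omega) (by omega) (by omega))]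
    · rw [XX_pos m h, Equiv.Perm.mul_apply,
        swap_apply_of_ne_of_ne (pt_ne (by omega) (by omega) (by omega)) (pt_ne (by omega) (by omega) (by omega)),
        swap_apply_of_ne_of_ne (pt_ne (by omega) (by omega) (by omega)) (pt_ne (by omega) (by omega) (by omega))]
  exact this hg

theorem exists_trans {k : ℕ} (hk : k < m + 2) (hk2 : 2 ≤ k) :
    ∀ j, j ≤ k → ∃ g ∈ JJ m (k + 1), g (pt m k) = pt m j := by
  have key : ∀ j, j ≤ k → 2 ≤ j → ∃ g ∈ JJ m (k + 1), g (pt m k) = pt m j := by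
    apply rev_ind
    · intro _
      exact ⟨1, Subgroup.one_mem _, rfl⟩
    · intro j hj ih h2j
      obtain ⟨g, hg, hgk⟩ := ih (by omega)
      obtain ⟨i, rfl⟩ : ∃ i, j = i + 1 := ⟨j - 1, by omega⟩
      refine ⟨XX m i * g, Subgroup.mul_mem _ (XX_mem_JJ (by omega)) hg, ?_⟩
      have hi1 : 1 ≤ i := by omega
      rw [Equiv.Perm.mul_apply, hgk, XX_pos m hi1, Equiv.Perm.mul_apply, swap_apply_right,
        swap_apply_of_ne_of_ne (pt_ne (by omega) (by omega) (by omega)) (pt_ne (by omega) (by omega) (by omega))]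
  obtain ⟨g, hg, hgk⟩ := key 2 hk2 le_rfl
  have h3 : XX m 0 ∈ JJ m (k + 1) := XX_mem_JJ (by omega)
  have h20 : XX m 0 (pt m 2) = pt m 0 := by
    rw [XX_zero, Equiv.Perm.mul_apply, swap_apply_right, swap_apply_right]
  have h01 : XX m 0 (pt m 0) = pt m 1 := by
    rw [XX_zero, Equiv.Perm.mul_apply,
      swap_apply_of_ne_of_ne (pt_ne (by omega) (by omega) (by omega)) (pt_ne (by omega) (by omega) (by omega)),
      swap_apply_left]
  intro j hj
  by_cases h2 : 2 ≤ j
  · exact key j hj h2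
  · have : j = 0 ∨ j = 1 := by omega
    rcases this with rfl | rfl
    · exact ⟨XX m 0 * g, Subgroup.mul_mem _ h3 hg, by rw [Equiv.Perm.mul_apply, hgk, h20]⟩
    · exact ⟨XX m 0 * (XX m 0 * g), Subgroup.mul_mem _ h3 (Subgroup.mul_mem _ h3 hg), by
        rw [Equiv.Perm.mul_apply, Equiv.Perm.mul_apply, hgk, h20, h01]⟩

theorem JJ_card_step {k : ℕ} (hk : k < m + 2) (hk2 : 2 ≤ k) :
    (k + 1) * Nat.card (JJ m k) ≤ Nat.card (JJ m (k + 1)) := by
  have h := exists_trans hk hk2
  choose! t ht1 ht2 using h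
  let f : Fin (k + 1) × JJ m k → JJ m (k + 1) := fun a =>
    ⟨t a.1 * a.2, Subgroup.mul_mem _ (ht1 _ (by omega)) (JJ_le (Nat.le_succ k) a.2.2)⟩
  have hf : Function.Injective f := by
    rintro ⟨⟨j, hj⟩, ⟨h, hh⟩⟩ ⟨⟨j', hj'⟩, ⟨h', hh'⟩⟩ hab
    have h1 : t j * h = t j' * h' := congrArg Subtype.val hab
    have h2 : (t j * h) (pt m k) = (t j' * h') (pt m k) := by rw [h1]
    rw [Equiv.Perm.mul_apply, Equiv.Perm.mul_apply, JJ_fix hk hk2 h hh, JJ_fix hk hk2 h' hh',
      ht2 j (by omega), ht2 j' (by omega)] at h2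
    have h3 : j = j' := by
      have := congrArg Fin.val h2
      rwa [pt_val m (by omega), pt_val m (by omega)] at this
    subst h3
    have h4 : h = h' := mul_left_cancel h1
    subst h4
    rfl
  have := Nat.card_le_card_of_injective f hf
  rwa [Nat.card_prod, Nat.card_fin] at this

theorem JJ_card : ∀ k, 2 ≤ k → k ≤ m + 2 → k.factorial / 2 ≤ Nat.card (JJ m k) := by
  intro k hk
  induction k, hk using Nat.le_induction with
  | base =>
    intro _
    have h : (2 : ℕ).factorial / 2 = 1 := rfl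
    rw [h]
    exact Nat.card_pos
  | succ k hk ih =>
    intro hle
    have h1 := ih (by omega)
    have h2 := JJ_card_step (m := m) (by omega) hk
    refine le_trans ?_ h2
    obtain ⟨c, hc⟩ : 2 ∣ k.factorial := Nat.dvd_factorial (by norm_num) hk
    have h4 : k.factorial / 2 = c := by rw [hc]; simp
    rw [h4] at h1
    rw [Nat.factorial_succ, hc, show (k + 1) * (2 * c) / 2 = (k + 1) * c by
      rw [show (k + 1) * (2 * c) = 2 * ((k + 1) * c) by ring]; simp]
    exact Nat.mul_le_mul_left _ h1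

end concrete

/-- The main theorem for `m` generators. -/
theorem core (m : ℕ) (hm : 1 ≤ m) :
    Nonempty (PresentedGroup
      ({g : FreeGroup (Fin m) | ∃ i : Fin m, i.val = 0 ∧ g = FreeGroup.of i ^ 3} ∪
       {g | ∃ i : Fin m, 1 ≤ i.val ∧ g = FreeGroup.of i ^ 2} ∪
       {g | ∃ i j : Fin m, j.val = i.val + 1 ∧ g = (FreeGroup.of i * FreeGroup.of j) ^ 3} ∪
       {g | ∃ i j : Fin m, i.val + 1 < j.val ∧ g = (FreeGroup.of i * FreeGroup.of j) ^ 2})
      ≃* alternatingGroup (Fin (m + 2))) := by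
  set rels : Set (FreeGroup (Fin m)) :=
      ({g : FreeGroup (Fin m) | ∃ i : Fin m, i.val = 0 ∧ g = FreeGroup.of i ^ 3} ∪
       {g | ∃ i : Fin m, 1 ≤ i.val ∧ g = FreeGroup.of i ^ 2} ∪
       {g | ∃ i j : Fin m, j.val = i.val + 1 ∧ g = (FreeGroup.of i * FreeGroup.of j) ^ 3} ∪
       {g | ∃ i j : Fin m, i.val + 1 < j.val ∧ g = (FreeGroup.of i * FreeGroup.of j) ^ 2}) with hrels
  -- the generators of the presented group
  let x : ℕ → PresentedGroup rels := fun i => if h : i < m then PresentedGroup.of ⟨i, h⟩ else 1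
  have hx : ∀ i (h : i < m), x i = PresentedGroup.of ⟨i, h⟩ := by
    intro i h
    simp [x, h]
  have hcx : Carm m x := by
    constructor
    · intro h0
      rw [hx 0 h0]
      have : PresentedGroup.mk rels (FreeGroup.of ⟨0, h0⟩ ^ 3) = 1 :=
        PresentedGroup.one_of_mem (Or.inl (Or.inl (Or.inl ⟨⟨0, h0⟩, rfl, rfl⟩)))
      simpa [PresentedGroup.of] using this
    · intro i h1 h2
      rw [hx i h2]
      have : PresentedGroup.mk rels (FreeGroup.of ⟨i, h2⟩ ^ 2) = 1 :=
        PresentedGroup.one_of_mem (Or.inl (Or.inl (Or.inr ⟨⟨i, h2⟩, h1, rfl⟩)))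
      simpa [PresentedGroup.of] using this
    · intro i h1
      rw [hx i (by omega), hx (i + 1) h1]
      have : PresentedGroup.mk rels ((FreeGroup.of ⟨i, by omega⟩ * FreeGroup.of ⟨i + 1, h1⟩) ^ 3) = 1 :=
        PresentedGroup.one_of_mem (Or.inl (Or.inr ⟨⟨i, by omega⟩, ⟨i + 1, h1⟩, rfl, rfl⟩))
      simpa [PresentedGroup.of] using this
    · intro i j h1 h2
      rw [hx i (by omega), hx j h2]
      have : PresentedGroup.mk rels ((FreeGroup.of ⟨i, by omega⟩ * FreeGroup.of ⟨j, h2⟩) ^ 2) = 1 :=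
        PresentedGroup.one_of_mem (Or.inr ⟨⟨i, by omega⟩, ⟨j, h2⟩, h1, rfl⟩)
      simpa [PresentedGroup.of] using this
  have hgenx : Subgroup.closure (x '' {i | i < m}) = ⊤ := by
    rw [eq_top_iff, ← PresentedGroup.closure_range_of rels]
    apply Subgroup.closure_mono
    rintro _ ⟨i, rfl⟩
    exact ⟨i.val, i.isLt, hx i.val i.isLt⟩
  obtain ⟨hfin, hle⟩ := bound m _ x hcx hgenx
  -- the homomorphism
  let f : Fin m → alternatingGroup (Fin (m + 2)) := fun i => ⟨XX m i.val, XX_sign i.isLt⟩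
  have hfr : ∀ r ∈ rels, FreeGroup.lift f r = 1 := by
    have hC := XX_carm (m := m)
    rintro r ((( ⟨i, hi, rfl⟩ | ⟨i, hi, rfl⟩) | ⟨i, j, hj, rfl⟩) | ⟨i, j, hj, rfl⟩)
    · apply Subtype.ext
      have h0 : (i : ℕ) = 0 := hi
      have := hC.h0 (by omega)
      simpa [f, h0] using this
    · apply Subtype.ext
      have := hC.h1 i.val hi i.isLt
      simpa [f] using this
    · apply Subtype.ext
      have h1 : j.val = i.val + 1 := hj
      have := hC.h2 i.val (by have := j.isLt; omega)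
      simpa [f, h1] using this
    · apply Subtype.ext
      have := hC.h3 i.val j.val hj j.isLt
      simpa [f] using this
  let φ := PresentedGroup.toGroup hfr
  have hcardA : Nat.card (alternatingGroup (Fin (m + 2))) = (m + 2).factorial / 2 := by
    rw [nat_card_alternatingGroup, Nat.card_fin]
  have hsurj : Function.Surjective φ := by
    apply MonoidHom.range_eq_top.mp
    apply Subgroup.eq_top_of_le_card
    rw [hcardA]
    refine (JJ_card (m := m) (m + 2) (by omega) le_rfl).trans ?_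
    have hle2 : JJ m (m + 2) ≤ (φ.range).map (alternatingGroup (Fin (m + 2))).subtype := by
      rw [JJ, Subgroup.closure_le]
      rintro _ ⟨i, hi, rfl⟩
      have hi' : i < m := by
        have : i + 3 ≤ m + 2 := hi
        omega
      refine ⟨f ⟨i, hi'⟩, ⟨PresentedGroup.of ⟨i, hi'⟩, ?_⟩, rfl⟩
      simp [φ]
    have h1 := Nat.card_le_card_of_injective _ (Subgroup.inclusion_injective hle2)
    refine h1.trans ?_
    rw [Subgroup.card_map_of_injective (Subgroup.subtype_injective _)]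
  have hbij : Function.Bijective φ := by
    rw [Nat.bijective_iff_surjective_and_card]
    refine ⟨hsurj, ?_⟩
    have := Nat.card_le_card_of_surjective φ hsurj
    omega
  exact ⟨MulEquiv.ofBijective φ hbij⟩

theorem result (n : ℕ) (hn : 3 ≤ n) :
    Nonempty (PresentedGroup
      ({g : FreeGroup (Fin (n - 2)) | ∃ i : Fin (n - 2), i.val = 0 ∧ g = FreeGroup.of i ^ 3} ∪
       {g | ∃ i : Fin (n - 2), 1 ≤ i.val ∧ g = FreeGroup.of i ^ 2} ∪
       {g | ∃ i j : Fin (n - 2), j.val = i.val + 1 ∧ g = (FreeGroup.of i * FreeGroup.of j) ^ 3} ∪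
       {g | ∃ i j : Fin (n - 2), i.val + 1 < j.val ∧ g = (FreeGroup.of i * FreeGroup.of j) ^ 2})
      ≃* alternatingGroup (Fin n)) := by
  obtain ⟨m, rfl⟩ : ∃ m, n = m + 2 := ⟨n - 2, by omega⟩
  exact core m (by omega)

end Cfsg.Agent.S3335
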