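import Mathlib
import Cfsg.Statements.S3349

set_option autoImplicit false
open Cfsg

namespace Cfsg.Agent.S3349

/-- Let Q be a finite extraspecial p-group and α an automorphism of Q fixing every element of some maximal abelian subgroup of Q. Then the order of α is a power of p. -/
theorem result {Q : Type*} [Group Q] [Finite Q]
    (p : ℕ) [Fact p.Prime] (hQ : Cfsg.IsExtraspecial p Q) (α : MulAut Q)
    (A : Subgroup Q) (hA : IsMulCommutative A) (hmax : ∀ B : Subgroup Q, A ≤ B → IsMulCommutative B → B = A)
    (hfix : ∀ a ∈ A, α a = a) :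
    ∃ k : ℕ, orderOf α = p ^ k := by
  classical
  obtain ⟨⟨hpg, -, hcomm⟩, -⟩ := hQ
  have hAcomm : ∀ a ∈ A, ∀ b ∈ A, a * b = b * a := by
    intro a ha b hb
    have := hA.is_comm.comm ⟨a, ha⟩ ⟨b, hb⟩
    simpa [Subtype.ext_iff] using this
  -- anything commuting with A lies in A
  have hcent : ∀ y : Q, (∀ a ∈ A, y * a = a * y) → y ∈ A := by
    intro y hy
    let B : Subgroup Q := Subgroup.closure (A ∪ {y})
    have hBcomm : ∀ u ∈ B, ∀ v ∈ B, u * v = v * u := by
      have hgen : ∀ u ∈ (A ∪ {y} : Set Q), ∀ v ∈ (A ∪ {y} : Set Q), u * v = v * u := by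
        rintro u (hu | rfl) v (hv | rfl)
        · exact hAcomm u hu v hv
        · exact (hy u hu).symm
        · exact hy v hv
        · rfl
      intro u hu v hv
      have := Subgroup.closure_le_centralizer_centralizer (A ∪ {y} : Set Q)
      have h1 : (A ∪ {y} : Set Q) ⊆ Subgroup.centralizer (A ∪ {y} : Set Q) := by
        intro a ha
        rw [SetLike.mem_coe, Subgroup.mem_centralizer_iff]
        intro b hb
        exact hgen b hb a ha
      have h2 : B ≤ Subgroup.centralizer (A ∪ {y} : Set Q) := by
        rw [Subgroup.closure_le]; exact h1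
      have h3 : v ∈ Subgroup.centralizer (B : Set Q) := by
        rw [Subgroup.mem_centralizer_iff]
        intro w hw
        have hv' := h2 hv
        -- w in closure; v commutes with generators
        have h4 : (A ∪ {y} : Set Q) ⊆ Subgroup.centralizer ({v} : Set Q) := by
          intro a ha
          rw [SetLike.mem_coe, Subgroup.mem_centralizer_iff]
          rintro b rfl
          rw [Subgroup.mem_centralizer_iff] at hv'
          exact (hv' a ha).symm
        have h5 : B ≤ Subgroup.centralizer ({v} : Set Q) := by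
          rw [Subgroup.closure_le]; exact h4
        have h6 := h5 hw
        rw [Subgroup.mem_centralizer_iff] at h6
        exact (h6 v rfl).symm
      rw [Subgroup.mem_centralizer_iff] at h3
      exact h3 u hu
    have hB : IsMulCommutative B := ⟨⟨by
      rintro ⟨u, hu⟩ ⟨v, hv⟩
      exact Subtype.ext (hBcomm u hu v hv)⟩⟩
    have hAB : A ≤ B := fun a ha => Subgroup.subset_closure (Or.inl ha)
    have hyB : y ∈ B := Subgroup.subset_closure (Or.inr rfl)
    rw [hmax B hAB hB] at hyB
    exact hyB
  -- the centre lies in A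
  have hZA : ∀ z ∈ Subgroup.center Q, z ∈ A := by
    intro z hz
    apply hcent
    intro a _
    exact (Subgroup.mem_center_iff.mp hz a).symm
  have hcomA : ∀ x a : Q, x * a * x⁻¹ * a⁻¹ ∈ A := by
    intro x a
    apply hZA
    rw [← hcomm]
    exact Subgroup.commutator_mem_commutator (Subgroup.mem_top x) (Subgroup.mem_top a)
  -- x⁻¹ α x lies in A
  have hdiff : ∀ x : Q, x⁻¹ * α x ∈ A := by
    intro x
    apply hcent
    intro a ha
    have h1 := hfix _ (hcomA x a)
    simp only [map_mul, map_inv, hfix a ha] at h1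
    have h2 : α x * a * (α x)⁻¹ = x * a * x⁻¹ := by
      have := congrArg (· * a) h1
      simpa [mul_assoc] using this
    have h3 : x⁻¹ * α x * a = a * (x⁻¹ * α x) := by
      have := congrArg (fun t => x⁻¹ * t * α x) h2
      simpa [mul_assoc] using this
    exact h3
  -- powers
  have hpow : ∀ (n : ℕ) (x : Q), (α ^ n) x = x * (x⁻¹ * α x) ^ n := by
    intro n x
    induction n with
    | zero => simp
    | succ n ih =>
      rw [pow_succ', MulAut.mul_apply, ih, map_mul, map_pow, hfix _ (hdiff x), pow_succ', ← mul_assoc,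
        mul_inv_cancel_left]
  obtain ⟨k, hk⟩ := IsPGroup.iff_card.mp (hpg.to_subgroup A)
  have hone : α ^ (p ^ k) = 1 := by
    ext x
    rw [hpow]
    have h1 : ((⟨x⁻¹ * α x, hdiff x⟩ : A)) ^ (p ^ k) = 1 := by
      rw [← hk]; exact pow_card_eq_one'
    have h2 : (x⁻¹ * α x) ^ (p ^ k) = 1 := by
      simpa [Subtype.ext_iff] using h1
    simp [h2]
  have hd : orderOf α ∣ p ^ k := orderOf_dvd_of_pow_eq_one hone
  obtain ⟨j, -, hj⟩ := (Nat.dvd_prime_pow (Fact.out : p.Prime)).mp hd
  exact ⟨j, hj⟩

end Cfsg.Agent.S3349
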