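import Mathlib
import Cfsg.Statements.S3366
import Cfsg.Agent.Lib.H73C4
import Cfsg.Agent.Lib.PCore

set_option autoImplicit false
set_option linter.all false
open Cfsg

namespace Cfsg.Agent.S3366

open scoped commutatorElement
open Cfsg.Agent.Lib.H73C1 Cfsg.Agent.Lib.H73C2 Cfsg.Agent.Lib.H73C2.Base Cfsg.Agent.Lib.H73C3
  Cfsg.Agent.Lib.H73C4

/-- The Sylow subgroup with central `c`. -/
theorem exists_sylow {P : Type*} [Group P] [Finite P] (c : P) (hc : orderOf c = 3)
    (hcard : Nat.card P = Nat.card (Subgroup.centralizer ({c} : Set P)) * 40) :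
    ∃ S : Sylow 3 P, c ∈ (S : Subgroup P) ∧ c ∈ Subgroup.centralizer ((S : Subgroup P) : Set P) := by
  haveI : Fact (Nat.Prime 3) := ⟨Nat.prime_three⟩
  set C := Subgroup.centralizer ({c} : Set P) with hC
  have hcC : c ∈ C := by
    rw [hC, Subgroup.mem_centralizer_singleton_iff]
  have hindex : C.index = 40 := by
    have h1 := Subgroup.card_mul_index C
    rw [hcard] at h1
    have hpos : 0 < Nat.card C := Nat.card_pos
    exact Nat.eq_of_mul_eq_mul_left hpos h1
  have hzp : IsPGroup 3 (Subgroup.zpowers (⟨c, hcC⟩ : C)) := by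
    apply IsPGroup.of_card (n := 1)
    rw [Nat.card_zpowers, pow_one, Subgroup.orderOf_mk, hc]
  obtain ⟨T₀, hT₀⟩ := hzp.exists_le_sylow
  have hcT : (⟨c, hcC⟩ : C) ∈ (T₀ : Subgroup C) := hT₀ (Subgroup.mem_zpowers _)
  have hS₀ : IsPGroup 3 ((T₀ : Subgroup C).map C.subtype) := T₀.isPGroup'.map _
  have hnd : ¬ 3 ∣ ((T₀ : Subgroup C).map C.subtype).index := by
    rw [Subgroup.index_map_subtype, hindex]
    intro h
    have h2 := (Nat.Prime.dvd_mul Nat.prime_three).1 h
    rcases h2 with h2 | h2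
    · exact T₀.not_dvd_index h2
    · norm_num at h2
  refine ⟨hS₀.toSylow hnd, ?_, ?_⟩
  · exact ⟨⟨c, hcC⟩, hcT, rfl⟩
  · rw [Subgroup.mem_centralizer_iff]
    rintro h ⟨x, hx, rfl⟩
    exact Subgroup.mem_centralizer_singleton_iff.1 x.2

/-- Transport of the centralizer. -/
def centEquiv {P Q : Type*} [Group P] [Group Q] (θ : P ≃* Q) (c : Q) :
    Subgroup.centralizer ({c} : Set Q) ≃* Subgroup.centralizer ({θ.symm c} : Set P) where
  toFun x := ⟨θ.symm x.1, by
    have := x.2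
    rw [Subgroup.mem_centralizer_singleton_iff] at this ⊢
    rw [← map_mul, this, map_mul]⟩
  invFun x := ⟨θ x.1, by
    have := x.2
    rw [Subgroup.mem_centralizer_singleton_iff] at this ⊢
    have h := congrArg θ this
    simpa using h⟩
  left_inv x := by simp
  right_inv x := by simp
  map_mul' x y := by
    apply Subtype.ext
    simp

/-- The symplectic groups over isomorphic rings. -/
def spEquiv' {R S : Type*} [CommRing R] [CommRing S] (e : R ≃+* S) :
    Matrix.symplecticGroup (Fin 2) R ≃* Matrix.symplecticGroup (Fin 2) S where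
  toFun A := ⟨A.1.map e, SymplecticGroup.map_mem A.2 e⟩
  invFun A := ⟨A.1.map e.symm, SymplecticGroup.map_mem A.2 e.symm⟩
  left_inv A := by
    apply Subtype.ext
    ext i j
    simp
  right_inv A := by
    apply Subtype.ext
    ext i j
    simp
  map_mul' A B := by
    apply Subtype.ext
    ext i j
    simp [Matrix.mul_apply, map_sum]

/-- The main reduction: `X` is isomorphic to the centralizer in `PSp₄(3)`. -/
theorem iso_stab {X : Type*} [Group X] [Finite X]
    (hR : Cfsg.IsExtraspecial 3 (Cfsg.pCore 3 X)) (hRcard : Nat.card (Cfsg.pCore 3 X) = 27)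
    (hRexp : ∀ r ∈ Cfsg.pCore 3 X, r ^ 3 = 1)
    (e : X ⧸ Cfsg.pCore 3 X ≃* Matrix.SpecialLinearGroup (Fin 2) (ZMod 3))
    (hO2 : Cfsg.pCore 2 X = ⊥)
    (hE : ∃ E : Subgroup X, IsMulCommutative E ∧ (∀ a ∈ E, a ^ 3 = 1) ∧ Nat.card E = 27) :
    Nonempty (X ≃* Subgroup.centralizer ({c0} : Set P0)) := by
  classical
  obtain ⟨R, hRdef⟩ : ∃ R, R = Cfsg.pCore 3 X := ⟨_, rfl⟩
  haveI hRn : (Cfsg.pCore 3 X).Normal := Cfsg.Agent.Lib.PCore.pCore_normal 3
  let π : X →* SL3 := e.toMonoidHom.comp (QuotientGroup.mk' (Cfsg.pCore 3 X))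
  have hπ : ∀ x, π x = 1 ↔ x ∈ Cfsg.pCore 3 X := by
    intro x
    show e (x : X ⧸ Cfsg.pCore 3 X) = 1 ↔ _
    rw [map_eq_one_iff e e.injective, QuotientGroup.eq_one_iff]
  let Z : Subgroup X := (Subgroup.center (Cfsg.pCore 3 X)).map (Cfsg.pCore 3 X).subtype
  have B : Base (Cfsg.pCore 3 X) Z π := by
    refine ⟨hπ, ?_, hRcard, hRexp, ?_, ?_, ?_, ?_, ?_⟩
    · intro g
      obtain ⟨x, hx⟩ := QuotientGroup.mk_surjective (e.symm g)
      refine ⟨x, ?_⟩
      show e (x : X ⧸ Cfsg.pCore 3 X) = g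
      rw [hx]
      simp
    · intro r
      constructor
      · rintro ⟨⟨r, hr⟩, hc, rfl⟩
        refine ⟨hr, fun s hs => ?_⟩
        have := (Subgroup.mem_center_iff.1 hc) ⟨s, hs⟩
        exact congrArg Subtype.val this
      · rintro ⟨hr, hc⟩
        refine ⟨⟨r, hr⟩, ?_, rfl⟩
        rw [SetLike.mem_coe, Subgroup.mem_center_iff]
        rintro ⟨s, hs⟩
        exact Subtype.ext (hc s hs)
    · rw [← hR.2]
      exact Nat.card_congr (Subgroup.equivMapOfInjective _ _ (Subgroup.subtype_injective _)).toEquiv.symm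
    · intro r hr s hs
      have h1 : ⁅(⟨r, hr⟩ : Cfsg.pCore 3 X), (⟨s, hs⟩ : Cfsg.pCore 3 X)⁆ ∈ commutator (Cfsg.pCore 3 X) :=
        Subgroup.commutator_mem_commutator (Subgroup.mem_top _) (Subgroup.mem_top _)
      rw [hR.1.2.2] at h1
      exact ⟨_, h1, by simp [commutatorElement_def]⟩
    · by_contra hcon
      push Not at hcon
      have htop : Subgroup.center (Cfsg.pCore 3 X) = ⊤ := by
        rw [eq_top_iff]
        rintro ⟨r, hr⟩ -
        rw [Subgroup.mem_center_iff]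
        rintro ⟨s, hs⟩
        exact Subtype.ext (hcon s hs r hr)
      have := hR.2
      rw [htop, Subgroup.card_top, hRcard] at this
      omega
    · intro t ht hcent
      by_contra ht1
      haveI : Fact (Nat.Prime 2) := ⟨Nat.prime_two⟩
      have hnorm : (Subgroup.zpowers t).Normal := by
        constructor
        rintro _ ⟨k, rfl⟩ g
        have : g * t ^ k = t ^ k * g := (Commute.zpow_right (hcent g) k)
        show g * t ^ k * g⁻¹ ∈ _
        rw [this]
        simp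
      have hp : IsPGroup 2 (Subgroup.zpowers t) := by
        apply IsPGroup.of_card (n := 1)
        rw [Nat.card_zpowers, orderOf_eq_prime ht ht1, pow_one]
      have hle := Cfsg.Agent.Lib.PCore.le_pCore hnorm hp
      rw [hO2] at hle
      exact ht1 (Subgroup.mem_bot.1 (hle (Subgroup.mem_zpowers t)))
  obtain ⟨E, hcomm, h3, hc⟩ := hE
  have hab : ∀ x ∈ E, ∀ y ∈ E, x * y = y * x := by
    intro x hx y hy
    have := hcomm.is_comm.comm ⟨x, hx⟩ ⟨y, hy⟩
    exact congrArg Subtype.val this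
  obtain ⟨H, a, b, τ, D⟩ := exists_data B E hab h3 hc
  obtain ⟨Ψ, hinj', hrange⟩ := main D heisHom leviHom hrel hinj
  have hr : Ψ.range = Stab := by
    ext t
    rw [hrange, mem_Stab]
    constructor
    · rintro ⟨v, A, rfl⟩
      exact fix_form v A
    · exact stab_form t
  exact ⟨(MonoidHom.ofInjective hinj').trans ((MulEquiv.subgroupCongr hr).trans stabEquiv)⟩

theorem result {X : Type*} [Group X] [Finite X]
    (hR : Cfsg.IsExtraspecial 3 (Cfsg.pCore 3 X)) (hRcard : Nat.card (Cfsg.pCore 3 X) = 27)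
    (hRexp : ∀ r ∈ Cfsg.pCore 3 X, r ^ 3 = 1)
    (e : X ⧸ Cfsg.pCore 3 X ≃* Matrix.SpecialLinearGroup (Fin 2) (ZMod 3))
    (hO2 : Cfsg.pCore 2 X = ⊥)
    (hE : ∃ E : Subgroup X, IsMulCommutative E ∧ (∀ a ∈ E, a ^ 3 = 1) ∧ Nat.card E = 27)
    (F : Type*) [Field F] [Fintype F] (hF : Fintype.card F = 3) :
    ∃ (c : Cfsg.PSp 2 F) (S : Sylow 3 (Cfsg.PSp 2 F)), orderOf c = 3 ∧ c ∈ (S : Subgroup (Cfsg.PSp 2 F)) ∧
      c ∈ Subgroup.centralizer ((S : Subgroup (Cfsg.PSp 2 F)) : Set (Cfsg.PSp 2 F)) ∧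
      Nonempty (X ≃* Subgroup.centralizer ({c} : Set (Cfsg.PSp 2 F))) := by
  obtain ⟨i⟩ := iso_stab hR hRcard hRexp e hO2 hE
  have hc : Fintype.card F = Fintype.card (ZMod 3) := by rw [hF, ZMod.card]
  have e' : F ≃+* ZMod 3 := FiniteField.ringEquivOfCardEq hc
  let θ : Cfsg.PSp 2 F ≃* P0 := Cfsg.Agent.Lib.SLTransfer.quotCenterEquiv (spEquiv' e')
  haveI : Finite (Cfsg.PSp 2 F) := Finite.of_equiv _ θ.symm.toEquiv
  have hord : orderOf (θ.symm c0) = 3 := by
    rw [MulEquiv.orderOf_eq, c0_order]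
  have hcard : Nat.card (Cfsg.PSp 2 F) =
      Nat.card (Subgroup.centralizer ({θ.symm c0} : Set (Cfsg.PSp 2 F))) * 40 := by
    rw [Nat.card_congr θ.toEquiv, ← Nat.card_congr (centEquiv θ c0).toEquiv]
    exact card_P0
  obtain ⟨S, hS1, hS2⟩ := exists_sylow _ hord hcard
  exact ⟨θ.symm c0, S, hord, hS1, hS2, ⟨i.trans (centEquiv θ c0)⟩⟩

end Cfsg.Agent.S3366
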