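import Mathlib
import Cfsg.Statements.S3376
import Cfsg.Agent.Lib.SmallTC
import Cfsg.Agent.Lib.PermChain

set_option autoImplicit false
set_option linter.style.haveILetI false
set_option linter.unusedSectionVars false
open Cfsg

namespace Cfsg.Agent.S3376

open Cfsg.Agent.Lib.SmallTC Cfsg.Agent.Lib.PermChain


/-- coset table -/
def tb : List (List ℕ) := [[1,2,3],[4,5,6],[7,8,9],[6,10,0],[0,11,12],[13,14,15],[12,16,1],[17,18,19],[20,0,10],[19,3,2],[21,9,8],[22,23,24],[3,25,4],[26,27,28],[29,1,16],[28,6,5],[30,15,14],[2,31,32],[33,34,35],[32,36,7],[37,38,21],[39,40,20],[41,42,43],[44,4,25],[43,12,11],[45,24,23],[5,46,47],[48,49,50],[47,51,13],[52,53,30],[54,55,29],[56,57,58],[9,59,17],[60,61,62],[49,7,36],[62,19,18],[51,35,34],[8,63,39],[53,64,65],[10,66,37],[67,65,64],[11,68,69],[70,71,72],[69,73,22],[74,75,45],[76,77,44],[78,79,80],[15,81,26],[82,83,84],[71,13,51],[84,28,27],[73,50,49],[14,85,54],[75,86,87],[16,88,52],[89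,87,86],[90,91,92],[79,17,59],[92,32,31],[81,58,57],[18,93,94],[83,95,96],[94,67,33],[85,97,98],[95,20,40],[87,21,38],[99,98,97],[100,96,95],[101,102,103],[24,104,41],[105,106,107],[34,22,73],[107,43,42],[36,72,71],[23,108,76],[38,109,110],[25,111,74],[112,110,109],[113,114,115],[102,26,81],[115,47,46],[104,80,79],[27,116,117],[106,118,119],[117,89,48],[108,120,121],[118,29,55],[110,30,53],[122,121,120],[123,119,118],[31,124,125],[114,126,127],[125,100,56],[116,128,129],[35,99,60],[126,33,67],[119,62,61],[128,37,66],[121,39,63],[130,129,128],[40,127,126],[131,132,133],[57,41,104],[133,69,68],[59,103,102],[42,134,135],[61,136,137],[135,112,70],[63,138,139],[136,44,77],[65,45,75],[140,139,138],[141,137,136],[46,142,143],[132,144,145],[143,123,78],[134,146,147],[50,122,82],[144,48,89],[137,84,83],[146,52,88],[139,54,85],[148,147,146],[55,145,144],[142,149,150],[58,130,90],[64,56,100],[145,92,91],[149,60,99],[147,94,93],[66,150,149],[68,151,152],[91,153,154],[152,141,101],[93,155,156],[72,140,105],[153,70,112],[96,107,106],[155,74,111],[98,76,108],[157,156,155],[77,154,153],[151,158,159],[80,148,113],[86,78,123],[154,115,114],[158,82,122],[156,117,116],[88,159,158],[97,90,130],[159,125,124],[124,160,161],[103,157,131],[109,101,141],[127,133,132],[160,105,140],[129,135,134],[111,161,160],[120,113,148],[161,143,142],[138,131,157],[150,152,151]]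
/-- representatives -/
def wd : List (List ℕ) := [[],[0],[1],[2],[0,0],[0,1],[0,2],[1,0],[1,1],[1,2],[2,1],[0,0,1],[0,0,2],[0,1,0],[0,1,1],[0,1,2],[0,2,1],[1,0,0],[1,0,1],[1,0,2],[1,1,0],[2,1,0],[0,0,1,0],[0,0,1,1],[0,0,1,2],[0,0,2,1],[0,1,0,0],[0,1,0,1],[0,1,0,2],[0,1,1,0],[0,2,1,0],[1,0,0,1],[1,0,0,2],[1,0,1,0],[1,0,1,1],[1,0,1,2],[1,0,2,1],[1,1,0,0],[1,1,0,1],[2,1,0,0],[2,1,0,1],[0,0,1,0,0],[0,0,1,0,1],[0,0,1,0,2],[0,0,1,1,0],[0,0,2,1,0],[0,1,0,0,1],[0,1,0,0,2],[0,1,0,1,0],[0,1,0,1,1],[0,1,0,1,2],[0,1,0,2,1],[0,1,1,0,0],[0,1,1,0,1],[0,2,1,0,0],[0,2,1,0,1],[1,0,0,1,0],[1,0,0,1,1],[1,0,0,1,2],[1,0,0,2,1],[1,0,1,0,0],[1,0,1,0,1],[1,0,1,0,2],[1,1,0,0,1],[1,1,0,1,1],[1,1,0,1,2],[2,1,0,0,1],[2,1,0,1,0],[0,0,1,0,0,1],[0,0,1,0,0,2],[0,0,1,0,1,0],[0,0,1,0,1,1],[0,0,1,0,1,2],[0,0,1,0,2,1],[0,0,1,1,0,0],[0,0,1,1,0,1],[0,0,2,1,0,0],[0,0,2,1,0,1],[0,1,0,0,1,0],[0,1,0,0,1,1],[0,1,0,0,1,2],[0,1,0,0,2,1],[0,1,0,1,0,0],[0,1,0,1,0,1],[0,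1,0,1,0,2],[0,1,1,0,0,1],[0,1,1,0,1,1],[0,1,1,0,1,2],[0,2,1,0,0,1],[0,2,1,0,1,0],[1,0,0,1,0,0],[1,0,0,1,0,1],[1,0,0,1,0,2],[1,0,1,0,0,1],[1,0,1,0,0,2],[1,0,1,0,1,1],[1,0,1,0,1,2],[1,1,0,0,1,1],[1,1,0,0,1,2],[2,1,0,0,1,0],[2,1,0,1,0,0],[0,0,1,0,0,1,0],[0,0,1,0,0,1,1],[0,0,1,0,0,1,2],[0,0,1,0,0,2,1],[0,0,1,0,1,0,0],[0,0,1,0,1,0,1],[0,0,1,0,1,0,2],[0,0,1,1,0,0,1],[0,0,1,1,0,1,1],[0,0,1,1,0,1,2],[0,0,2,1,0,0,1],[0,0,2,1,0,1,0],[0,1,0,0,1,0,0],[0,1,0,0,1,0,1],[0,1,0,0,1,0,2],[0,1,0,1,0,0,1],[0,1,0,1,0,0,2],[0,1,0,1,0,1,1],[0,1,0,1,0,1,2],[0,1,1,0,0,1,1],[0,1,1,0,0,1,2],[0,2,1,0,0,1,0],[0,2,1,0,1,0,0],[1,0,0,1,0,0,1],[1,0,0,1,0,0,2],[1,0,0,1,0,1,1],[1,0,0,1,0,1,2],[1,0,1,0,0,1,1],[1,0,1,0,0,1,2],[2,1,0,0,1,0,0],[0,0,1,0,0,1,0,0],[0,0,1,0,0,1,0,1],[0,0,1,0,0,1,0,2],[0,0,1,0,1,0,0,1],[0,0,1,0,1,0,0,2],[0,0,1,0,1,0,1,1],[0,0,1,0,1,0,1,2],[0,0,1,1,0,0,1,1],[0,0,1,1,0,0,1,2],[0,0,2,1,0,0,1,0],[0,0,2,1,0,1,0,0],[0,1,0,0,1,0,0,1],[0,1,0,0,1,0,0,2],[0,1,0,0,1,0,1,1],[0,1,0,0,1,0,1,2],[0,1,0,1,0,0,1,1],[0,1,0,1,0,0,1,2],[0,2,1,0,0,1,0,0],[1,0,0,1,0,0,1,1],[1,0,0,1,0,0,1,2],[0,0,1,0,0,1,0,0,1],[0,0,1,0,0,1,0,0,2],[0,0,1,0,0,1,0,1,1],[0,0,1,0,0,1,0,1,2],[0,0,1,0,1,0,0,1,1],[0,0,1,0,1,0,0,1,2],[0,0,2,1,0,0,1,0,0],[0,1,0,0,1,0,0,1,1],[0,1,0,0,1,0,0,1,2],[0,0,1,0,0,1,0,0,1,1],[0,0,1,0,0,1,0,0,1,2]]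
/-- relators -/
def rl : List (List ℕ) := [[0,0,0],[1,1,1],[2,2],[1,2,1,2],[0,2,0,0,2],[0,1,0,1,1,0,0,1,0,0,1,1],[0,1,1,0,1,0,0,1,1,0,0,1]]
/-- tree edges -/
def tr : List (ℕ × ℕ) := [(0,0),(0,1),(0,2),(1,0),(1,1),(1,2),(2,0),(2,1),(2,2),(3,1),(4,1),(4,2),(5,0),(5,1),(5,2),(6,1),(7,0),(7,1),(7,2),(8,0),(10,0),(11,0),(11,1),(11,2),(12,1),(13,0),(13,1),(13,2),(14,0),(16,0),(17,1),(17,2),(18,0),(18,1),(18,2),(19,1),(20,0),(20,1),(21,0),(21,1),(22,0),(22,1),(22,2),(23,0),(25,0),(26,1),(26,2),(27,0),(27,1),(27,2),(28,1),(29,0),(29,1),(30,0),(30,1),(31,0),(31,1),(31,2),(32,1),(33,0),(33,1),(33,2),(37,1),(38,1),(38,2),(39,1),(40,0),(41,1),(41,2),(42,0),(42,1),(42,2),(43,1),(44,0),(44,1),(45,0),(45,1),(46,0),(46,1),(46,2),(47,1),(48,0),(48,1),(48,2),(52,1),(53,1),(53,2),(54,1),(55,0),(56,0),(56,1),(56,2),(60,1),(60,2),(61,1),(61,2),(63,1),(63,2),(66,0),(67,0),(68,0),(68,1),(68,2),(69,1),(70,0),(70,1),(70,2),(74,1),(75,1),(75,2),(76,1),(77,0),(78,0),(78,1),(78,2),(82,1),(82,2),(83,1),(83,2),(85,1),(85,2),(88,0),(89,0),(90,1),(90,2),(91,1),(91,2),(93,1),(93,2),(99,0),(101,0),(101,1),(101,2),(105,1),(105,2),(106,1),(106,2),(108,1),(108,2),(111,0),(112,0),(113,1),(113,2),(114,1),(114,2),(116,1),(116,2),(122,0),(124,1),(124,2),(131,1),(131,2),(132,1),(132,2),(134,1),(134,2),(140,0),(142,1),(142,2),(151,1),(151,2)]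
/-- scans -/
def sc : List (ℕ × ℕ) := [(0,0),(2,0),(5,0),(8,0),(10,0),(11,0),(14,0),(16,0),(18,0),(23,0),(25,0),(27,0),(31,0),(40,0),(42,0),(46,0),(55,0),(66,0),(68,0),(77,0),(88,0),(111,0),(0,1),(1,1),(4,1),(7,1),(13,1),(17,1),(20,1),(22,1),(26,1),(29,1),(33,1),(37,1),(41,1),(44,1),(48,1),(52,1),(56,1),(60,1),(70,1),(74,1),(78,1),(82,1),(90,1),(101,1),(105,1),(113,1),(131,1),(0,2),(1,2),(2,2),(4,2),(5,2),(7,2),(11,2),(13,2),(17,2),(18,2),(22,2),(26,2),(27,2),(31,2),(33,2),(38,2),(41,2),(42,2),(46,2),(48,2),(53,2),(56,2),(60,2),(61,2),(63,2),(68,2),(70,2),(75,2),(78,2),(82,2),(83,2),(85,2),(90,2),(91,2),(93,2),(101,2),(105,2),(106,2),(108,2),(113,2),(114,2),(116,2),(124,2),(131,2),(132,2),(134,2),(142,2),(151,2),(0,3),(1,3),(3,3),(4,3),(6,3),(7,3),(12,3),(13,3),(17,3),(19,3),(22,3),(26,3),(28,3),(32,3),(33,3),(41,3),(43,3),(47,3),(48,3),(56,3),(60,3),(69,3),(70,3),(78,3),(82,3),(90,3),(101,3),(105,3),(113,3),(131,3),(3,4),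(4,4),(8,4),(9,4),(12,4),(14,4),(15,4),(17,4),(21,4),(23,4),(24,4),(26,4),(30,4),(32,4),(35,4),(37,4),(39,4),(41,4),(45,4),(47,4),(50,4),(52,4),(54,4),(58,4),(60,4),(69,4),(72,4),(74,4),(76,4),(80,4),(82,4),(90,4),(94,4),(103,4),(105,4),(113,4),(117,4),(125,4),(131,4),(135,4),(143,4),(152,4),(8,5),(10,5),(14,5),(16,5),(23,5),(25,5),(29,5),(37,5),(52,5),(57,5),(79,5),(97,5),(102,5),(120,5),(125,5),(128,5),(138,5),(143,5),(146,5),(149,5),(152,5),(155,5),(158,5),(160,5),(2,6),(5,6),(7,6),(8,6),(14,6),(18,6),(20,6),(23,6),(27,6),(29,6),(32,6),(42,6),(44,6),(47,6),(64,6),(66,6),(69,6),(71,6),(88,6),(93,6),(109,6),(111,6),(116,6),(118,6),(124,6),(126,6),(128,6),(132,6),(144,6),(149,6),(3,1),(6,1),(12,1),(19,1),(28,1),(32,1),(43,1),(47,1),(62,1),(69,1),(84,1),(92,1),(94,1),(107,1),(115,1),(117,1),(125,1),(133,1),(135,1),(143,1),(152,1),(20,2),(29,2),(34,2),(44,2),(49,2),(57,2),(71,2),(79,2),(102,2),(20,3),(21,3),(29,3),(30,3),(37,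3),(39,3),(44,3),(45,3),(52,3),(54,3),(61,3),(62,3),(74,3),(76,3),(83,3),(84,3),(91,3),(92,3),(93,3),(94,3),(106,3),(107,3),(114,3),(115,3),(116,3),(117,3),(124,3),(125,3),(132,3),(133,3),(134,3),(135,3),(142,3),(143,3),(151,3),(152,3),(36,4),(40,4),(49,4),(51,4),(55,4),(59,4),(65,4),(66,4),(75,4),(77,4),(79,4),(81,4),(88,4),(96,4),(98,4),(106,4),(108,4),(110,4),(111,4),(127,4),(129,4),(132,4),(134,4),(137,4),(139,4),(150,4),(151,4),(154,4),(156,4),(161,4),(3,5),(6,5),(12,5),(39,5),(54,5),(76,5)]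
/-- commutator certificates -/
def ct : List (List ℕ) := [[2,2],[0,2],[2,0,2],[2,2],[0,2],[2,2],[0,2],[0,2],[0,2],[0,2],[0,2],[2,2],[0,2],[0,2],[0,2],[0,2],[0,2],[0,2],[0,2],[0,2],[0,2],[2],[0,2],[0,2],[0,2],[2],[0,2],[0,2],[0,2],[0,2],[0,2],[0,2],[0,2],[2,2],[0,2],[2,2],[0,2],[2,2],[0,2],[0,2],[0,2],[2],[0,2],[2],[0,2],[2],[0,2],[0,2],[2,2],[0,2],[2,2],[2],[2,2],[0,2],[0,2],[2],[2,2],[0,2],[2,2],[2],[2,2],[0,2],[2,2],[0,2],[2,2],[0,2],[0,2],[0,2],[0,2],[0,2],[2],[0,2],[4,2],[0,2],[2],[0,2],[0,2],[0,2],[2],[0,2],[4,2],[0,2],[],[0,2],[2],[0,2],[2,2],[0,2],[0,2],[0,2],[2],[0,2],[2],[0,2],[0,2],[2,2],[0,2],[2,2],[0,2],[0,2],[0,2],[2,2],[0,2],[2,2],[0,2],[2,2],[0,2],[2,2],[2],[4,2],[0,2],[0,2],[0,2],[2,2],[0,2],[2,2],[0,2],[0,2],[2,0,2],[2],[4,2],[0,2],[0,2],[2,2],[0,2],[2],[4,2],[2],[4,2],[0,2],[0,2],[2,2],[0,2],[2,2],[0,2],[0,2],[2,2],[0,2],[2,2],[0,2],[0,2],[2,2],[0,2],[0,2],[2,2],[0,2],[2,2],[0,2],[0,2],[2,2],[],[0,2],[0,2],[2,2],[0,2],[2,2],[0,2],[0,2],[2,2],[0,2],[2,0,2]]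

theorem tc_ok : check (tbl tb) (nth [] wd) (nth [] rl) 7 162 3 tr sc = true := by
  decide +kernel

/-! ### The presented group -/

/-- generators in the free group -/
def gf : ℕ → FreeGroup (Fin 3)
  | 0 => FreeGroup.of 0
  | 1 => FreeGroup.of 1
  | 2 => FreeGroup.of 2
  | _ => 1

/-- the relators -/
def rels : Set (FreeGroup (Fin 3)) := {w | ∃ r ∈ rl, w = ev gf r}

/-- the presented group -/
abbrev P := PresentedGroup rels

/-- generators -/
def gg : ℕ → P := fun i => PresentedGroup.mk rels (gf i)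

theorem map_ev {A B : Type*} [Group A] [Group B] (ψ : A →* B) (g : ℕ → A) (w : List ℕ) :
    ψ (ev g w) = ev (fun i => ψ (g i)) w := by
  induction w with
  | nil => simp
  | cons i w ih => simp [ih]

theorem ev_gg (r : List ℕ) (hr : r ∈ rl) : ev gg r = 1 := by
  have h1 := map_ev (PresentedGroup.mk rels) gf r
  have h2 : PresentedGroup.mk rels (ev gf r) = 1 := PresentedGroup.one_of_mem ⟨r, hr, rfl⟩
  rw [h2] at h1
  exact h1.symm

theorem nth_rl (r : ℕ) : nth [] rl r ∈ rl ∨ nth [] rl r = [] := by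
  match r with
  | 0 => exact Or.inl (by simp [rl, nth])
  | 1 => exact Or.inl (by simp [rl, nth])
  | 2 => exact Or.inl (by simp [rl, nth])
  | 3 => exact Or.inl (by simp [rl, nth])
  | 4 => exact Or.inl (by simp [rl, nth])
  | 5 => exact Or.inl (by simp [rl, nth])
  | 6 => exact Or.inl (by simp [rl, nth])
  | (n + 7) => exact Or.inr rfl

theorem gg0 : gg 0 ^ (2 + 1) = 1 := by
  have := ev_gg [0, 0, 0] (by simp [rl])
  simpa [pow_succ, mul_assoc] using this

theorem gg1 : gg 1 ^ (2 + 1) = 1 := by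
  have := ev_gg [1, 1, 1] (by simp [rl])
  simpa [pow_succ, mul_assoc] using this

theorem gg2 : gg 2 ^ (1 + 1) = 1 := by
  have := ev_gg [2, 2] (by simp [rl])
  simpa [pow_succ, mul_assoc] using this

theorem card_le : Finite P ∧ Nat.card P ≤ 162 := by
  have hcl : Subgroup.closure (gg '' {i | i < 3}) = ⊤ := by
    rw [eq_top_iff, ← PresentedGroup.closure_range_of rels, Subgroup.closure_le]
    rintro _ ⟨i, rfl⟩
    apply Subgroup.subset_closure
    fin_cases i
    · exact ⟨0, by simp, rfl⟩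
    · exact ⟨1, by simp, rfl⟩
    · exact ⟨2, by simp, rfl⟩
  have hord : ∀ i < 3, ∃ n, (gg i) ^ (n + 1) = 1 := by
    intro i hi
    interval_cases i
    · exact ⟨2, gg0⟩
    · exact ⟨2, gg1⟩
    · exact ⟨1, gg2⟩
  have h := finite_card_le_of_check (H := (⊥ : Subgroup P)) (g := gg)
    (by
      intro j r _
      rcases nth_rl r with h | h
      · rw [ev_gg _ h]
        simp
      · rw [h]
        simp) tc_ok (pos_words_of_closure hcl hord)
  refine ⟨h.1, ?_⟩
  have h2 := h.2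
  simpa using h2

/-- the three generators in a group -/
def ag {A : Type*} [Group A] (x y z : A) : ℕ → A
  | 0 => x
  | 1 => y
  | 2 => z
  | _ => 1

/-- The map from the presented group. -/
noncomputable def toA {A : Type*} [Group A] (x y z : A) (h : ∀ r ∈ rl, ev (ag x y z) r = 1) : P →* A :=
  PresentedGroup.toGroup (f := ![x, y, z]) (by
    rintro _ ⟨r, hr, rfl⟩
    have h1 := map_ev (FreeGroup.lift ![x, y, z]) gf r
    rw [h1]
    have h2 : (fun i => FreeGroup.lift ![x, y, z] (gf i)) = ag x y z := by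
      funext i
      match i with
      | 0 => simp [gf, ag]
      | 1 => simp [gf, ag]
      | 2 => simp [gf, ag]
      | (n + 3) => simp [gf, ag]
    rw [h2]
    exact h r hr)

theorem toA_gg {A : Type*} [Group A] (x y z : A) (h : ∀ r ∈ rl, ev (ag x y z) r = 1) (i : ℕ) :
    toA x y z h (gg i) = ag x y z i := by
  match i with
  | 0 => exact (PresentedGroup.toGroup.of _ (x := 0)).trans (by simp [ag])
  | 1 => exact (PresentedGroup.toGroup.of _ (x := 1)).trans (by simp [ag])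
  | 2 => exact (PresentedGroup.toGroup.of _ (x := 2)).trans (by simp [ag])
  | (n + 3) =>
    show toA x y z h (PresentedGroup.mk rels 1) = 1
    rw [map_one, map_one]

/-! ### The target group -/

/-- the product of three `3`-cycles -/
abbrev pc : Equiv.Perm (Fin 9) :=
  Equiv.swap (0 : Fin 9) 1 * Equiv.swap 1 2 * Equiv.swap 3 4 * Equiv.swap 4 5 * Equiv.swap 6 7 * Equiv.swap 7 8

/-- the target -/
abbrev HH := Subgroup.centralizer ({pc} : Set (Equiv.Perm (Fin 9)))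

/-- generator -/
abbrev pe : Equiv.Perm (Fin 9) := Equiv.swap (0 : Fin 9) 1 * Equiv.swap 1 2
/-- generator -/
abbrev pu : Equiv.Perm (Fin 9) :=
  Equiv.swap (0 : Fin 9) 3 * Equiv.swap 3 6 * Equiv.swap 1 4 * Equiv.swap 4 7 * Equiv.swap 2 5 * Equiv.swap 5 8
/-- generator -/
abbrev pw : Equiv.Perm (Fin 9) := Equiv.swap (3 : Fin 9) 6 * Equiv.swap 4 7 * Equiv.swap 5 8

/-- letters -/
def gl : List (Equiv.Perm (Fin 9)) := [pe, pe⁻¹, pu, pu⁻¹, pw, pw⁻¹]

/-- letters -/
def ll (k : ℕ) : Equiv.Perm (Fin 9) := gl.getD k 1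

/-- codes -/
def csl : List ℕ := [148080050112590512641, 148080050112590577666, 36965554567715816451, 92522797372948350726, 92522803995888189696, 92522803995888189696]

/-- code of the identity -/
def idc : ℕ := 148080050112590643456

/-- codes -/
def cc (k : ℕ) : ℕ := csl.getD k idc

theorem ll_large {k : ℕ} (h : 6 ≤ k) : ll k = 1 := by
  unfold ll
  exact List.getD_eq_default _ _ (by simpa [gl] using h)

theorem cc_large {k : ℕ} (h : 6 ≤ k) : cc k = idc := by
  unfold cc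
  exact List.getD_eq_default _ _ (by simpa [csl] using h)

theorem hll : ∀ k, Rep (ll k) (cc k) := by
  intro k
  by_cases h : k < 6
  · have : ∀ k : Fin 6, ∀ i : Fin 9, (ll k i).val = img (cc k) i.val := by decide +kernel
    exact this ⟨k, h⟩
  · rw [ll_large (by omega), cc_large (by omega)]
    have : ∀ i : Fin 9, ((1 : Equiv.Perm (Fin 9)) i).val = img idc i.val := by decide +kernel
    exact this

theorem hinv : ∀ k, ll (invL k) = (ll k)⁻¹ := by
  intro k
  by_cases h : k < 6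
  · interval_cases k <;> simp [ll, gl, invL]
  · have h1 : 6 ≤ invL k := by
      unfold invL
      split_ifs <;> omega
    rw [ll_large h1, ll_large (by omega), inv_one]

theorem ll_mem (k : ℕ) : ll k ∈ HH := by
  rw [Subgroup.mem_centralizer_singleton_iff]
  by_cases h : k < 6
  · have : ∀ k : Fin 6, ll k * pc = pc * ll k := by decide +kernel
    exact this ⟨k, h⟩
  · rw [ll_large (by omega)]
    simp

theorem prodW_mem (w : List ℕ) : prodW ll w ∈ HH := by
  apply Subgroup.list_prod_mem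
  intro x hx
  obtain ⟨k, -, rfl⟩ := List.mem_map.mp hx
  exact ll_mem k

theorem card_HH : Nat.card HH = 162 := by
  have ct : pc.cycleType = {3, 3, 3} := by decide +kernel
  rw [Equiv.Perm.nat_card_centralizer, ct]
  decide +kernel

/-- the words in letters -/
def wd6 (j : ℕ) : List ℕ := (nth [] wd j).map (fun i => 2 * i)

/-- a numerical key of an element -/
def key (j : ℕ) : ℕ :=
  evalW cc (wd6 j) 0 + 9 * evalW cc (wd6 j) 3 + 81 * evalW cc (wd6 j) 6

theorem key_nodup : ((List.range 162).map key).Nodup := by decide +kernel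

/-- the elements of the target -/
def elt (j : Fin 162) : HH := ⟨prodW ll (wd6 j), prodW_mem _⟩

theorem elt_inj : Function.Injective elt := by
  intro a b hab
  have h1 : prodW ll (wd6 a) = prodW ll (wd6 b) := congrArg Subtype.val hab
  have h2 : key a = key b := by
    unfold key
    have e0 := evalW_spec hll (wd6 a) (0 : Fin 9)
    have e3 := evalW_spec hll (wd6 a) (3 : Fin 9)
    have e6 := evalW_spec hll (wd6 a) (6 : Fin 9)
    have f0 := evalW_spec hll (wd6 b) (0 : Fin 9)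
    have f3 := evalW_spec hll (wd6 b) (3 : Fin 9)
    have f6 := evalW_spec hll (wd6 b) (6 : Fin 9)
    rw [h1] at e0 e3 e6
    have g0 : evalW cc (wd6 a) 0 = evalW cc (wd6 b) 0 := e0.symm.trans f0
    have g3 : evalW cc (wd6 a) 3 = evalW cc (wd6 b) 3 := e3.symm.trans f3
    have g6 : evalW cc (wd6 a) 6 = evalW cc (wd6 b) 6 := e6.symm.trans f6
    rw [g0, g3, g6]
  have h3 := (List.inj_on_of_nodup_map key_nodup) (List.mem_range.mpr a.2) (List.mem_range.mpr b.2) h2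
  exact Fin.ext h3

theorem elt_surj : Function.Surjective elt := by
  have := (Function.Injective.bijective_of_nat_card_le elt_inj (by
    rw [card_HH]; simp)).2
  exact this

/-- generator -/
def he : HH := ⟨pe, ll_mem 0⟩
/-- generator -/
def hu : HH := ⟨pu, ll_mem 2⟩
/-- generator -/
def hw : HH := ⟨pw, ll_mem 4⟩

theorem ag_coe (i : ℕ) : ((ag he hu hw i : HH) : Equiv.Perm (Fin 9)) = ll (2 * i) := by
  match i with
  | 0 => rfl
  | 1 => rfl
  | 2 => rfl
  | (n + 3) =>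
    rw [ll_large (by omega)]
    rfl

theorem ev_coe (w : List ℕ) :
    ((ev (ag he hu hw) w : HH) : Equiv.Perm (Fin 9)) = prodW ll (w.map (fun i => 2 * i)) := by
  induction w with
  | nil => rfl
  | cons i w ih =>
    rw [ev_cons, List.map_cons, prodW_cons, ← ih, ← ag_coe]
    rfl

theorem rels_HH : ∀ r ∈ rl, ev (ag he hu hw) r = 1 := by
  have h : ∀ r ∈ rl, prodW ll (r.map (fun i => 2 * i)) = 1 := by
    intro r hr
    apply prodW_eq_one_of_isId hll
    revert r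
    decide +kernel
  intro r hr
  apply Subtype.ext
  rw [ev_coe, h r hr]
  rfl

/-- The map to the target. -/
noncomputable def phiH : P →* HH := toA he hu hw rels_HH

theorem phiH_surj : Function.Surjective phiH := by
  intro h
  obtain ⟨j, rfl⟩ := elt_surj h
  refine ⟨ev gg (nth [] wd j), ?_⟩
  apply Subtype.ext
  have h1 : phiH (ev gg (nth [] wd j)) = ev (ag he hu hw) (nth [] wd j) := by
    rw [phiH, map_ev]
    congr 1
    funext i
    exact toA_gg _ _ _ _ i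
  rw [h1, ev_coe]
  rfl

theorem phiH_bij : Function.Bijective phiH := by
  obtain ⟨hfin, hle⟩ := card_le
  rw [Nat.bijective_iff_surjective_and_card]
  refine ⟨phiH_surj, ?_⟩
  have := Nat.card_le_card_of_surjective phiH phiH_surj
  rw [card_HH] at this ⊢
  omega

/-- The isomorphism to the target. -/
noncomputable def eqH : P ≃* HH := MulEquiv.ofBijective phiH phiH_bij

theorem eqH_gg (i : ℕ) : eqH (gg i) = ag he hu hw i := toA_gg _ _ _ rels_HH i

/-- a commutator word -/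
def commW (w : List ℕ) (l : ℕ) : List ℕ := w ++ l :: (invW w ++ [invL l])

/-- iterated commutator words -/
def iterC : List ℕ → List ℕ → List ℕ
  | w, [] => w
  | w, l :: ls => iterC (commW w l) ls

/-- the central element -/
def zW : List ℕ := [0, 2, 0, 3, 2, 2, 0, 3, 3]

/-- certificate check -/
def okCert (j : ℕ) : Bool :=
  let W := iterC (wd6 j) (nth [] ct (j - 1))
  (List.range 9).all (fun p => evalW cc W p == evalW cc zW p) ||
    (List.range 9).all (fun p => evalW cc W p == evalW cc (invW zW) p)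

theorem cert_ok : ∀ j : Fin 162, j.val ≠ 0 → okCert j = true := by decide +kernel

theorem eq_of_all {v w : List ℕ}
    (h : (List.range 9).all (fun p => evalW cc v p == evalW cc w p) = true) :
    prodW ll v = prodW ll w := by
  apply Equiv.ext
  intro i
  apply Fin.ext
  rw [evalW_spec hll, evalW_spec hll]
  simp only [List.all_eq_true, List.mem_range, beq_iff_eq] at h
  exact h i.val i.isLt

theorem elt_zero : elt 0 = 1 := rfl

theorem prodW_commW (w : List ℕ) (l : ℕ) :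
    prodW ll (commW w l) = prodW ll w * ll l * (prodW ll w)⁻¹ * (ll l)⁻¹ := by
  unfold commW
  rw [prodW_append, prodW_cons, prodW_append, prodW_invW hinv, prodW_cons, prodW_nil, hinv]
  simp [mul_assoc]

theorem mem_iterC (K : Subgroup (Equiv.Perm (Fin 9)))
    (hK : ∀ x ∈ K, ∀ l, x * ll l * x⁻¹ * (ll l)⁻¹ ∈ K) (ls : List ℕ) (w : List ℕ)
    (hw : prodW ll w ∈ K) : prodW ll (iterC w ls) ∈ K := by
  induction ls generalizing w with
  | nil => exact hw
  | cons l ls ih =>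
    apply ih
    rw [prodW_commW]
    exact hK _ hw l

theorem iso_of_rel {G : Type*} [Group G] (hG : Nat.card G = 162) (e u τ : G)
    (hrel : ∀ r ∈ rl, ev (ag e u τ) r = 1)
    (hN : e * (u * e * u⁻¹) * (u * u * e * u⁻¹ * u⁻¹) ≠ 1) : Nonempty (G ≃* HH) := by
  classical
  let F : HH →* G := (toA e u τ hrel).comp eqH.symm.toMonoidHom
  have hF : ∀ i, F (ag he hu hw i) = ag e u τ i := by
    intro i
    have h1 : eqH.symm (ag he hu hw i) = gg i := by
      rw [← eqH_gg, MulEquiv.symm_apply_apply]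
    show toA e u τ hrel (eqH.symm (ag he hu hw i)) = _
    rw [h1, toA_gg]
  have hFe : F he = e := hF 0
  have hFu : F hu = u := hF 1
  have hFinj : Function.Injective F := by
    rw [injective_iff_map_eq_one]
    intro k hk
    by_contra hk1
    obtain ⟨j, rfl⟩ := elt_surj k
    have hj : j.val ≠ 0 := by
      intro h0
      apply hk1
      have : j = 0 := Fin.ext h0
      rw [this, elt_zero]
    -- the image of the kernel
    let K : Subgroup (Equiv.Perm (Fin 9)) := F.ker.map HH.subtype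
    have hKc : ∀ x ∈ K, ∀ l, x * ll l * x⁻¹ * (ll l)⁻¹ ∈ K := by
      rintro _ ⟨y, hy, rfl⟩ l
      refine ⟨y * ⟨ll l, ll_mem l⟩ * y⁻¹ * (⟨ll l, ll_mem l⟩ : HH)⁻¹, ?_, rfl⟩
      have hy' : F y = 1 := hy
      show F _ = 1
      rw [map_mul, map_mul, map_mul, map_inv, map_inv, hy']
      simp
    have h0 : prodW ll (wd6 j) ∈ K := ⟨elt j, hk, rfl⟩
    have h1 := mem_iterC K hKc (nth [] ct (j.val - 1)) _ h0
    have hz : prodW ll zW ∈ K := by
      have hc := cert_ok j hj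
      unfold okCert at hc
      simp only [Bool.or_eq_true] at hc
      rcases hc with hc | hc
      · rw [← eq_of_all hc]
        exact h1
      · have h2 := eq_of_all hc
        rw [h2, prodW_invW hinv] at h1
        exact (Subgroup.inv_mem_iff _).mp h1
    obtain ⟨y, hy, hyz⟩ := hz
    have hy1 : y = he * (hu * he * hu⁻¹) * (hu * hu * he * hu⁻¹ * hu⁻¹) := by
      apply Subtype.ext
      have : (y : Equiv.Perm (Fin 9)) = prodW ll zW := hyz
      rw [this]
      simp [prodW, zW, ll, gl, he, hu, mul_assoc]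
    have hy2 : F y = 1 := hy
    rw [hy1] at hy2
    simp only [map_mul, map_inv, hFe, hFu] at hy2
    exact hN hy2
  have hbij : Function.Bijective F := by
    haveI : Finite G := Nat.finite_of_card_ne_zero (by omega)
    rw [Nat.bijective_iff_injective_and_card]
    exact ⟨hFinj, by rw [card_HH, hG]⟩
  exact ⟨(MulEquiv.ofBijective F hbij).symm⟩

/-! ### Abstract additive lemmas -/

section Abs

variable {A : Type*} [AddCommGroup A]

theorem zero_of_neg {x : A} (h3 : 3 • x = 0) (h2 : -x = x) : x = 0 := by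
  have h4 : 3 • x = x + (x + x) := by abel
  have h5 : x + x = 0 := by
    nth_rewrite 1 [← h2]
    simp
  rw [h4, h5] at h3
  simpa using h3

theorem absI (h3 : ∀ a : A, 3 • a = 0) (φ σ : A →+ A) (hφ3 : ∀ a, φ (φ (φ a)) = a)
    (hσ2 : ∀ a, σ (σ a) = a) (hfix : ∀ a, φ a = a → σ a = a) (hcomm : ∀ a, σ (φ a) = φ (σ a)) :
    ∀ a, σ a = a := by
  have key : ∀ b, σ b = -b → b = 0 := by
    intro b hb
    have hN1 : φ (b + φ b + φ (φ b)) = b + φ b + φ (φ b) := by
      simp only [map_add, hφ3]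
      abel
    have hN2 : σ (b + φ b + φ (φ b)) = -(b + φ b + φ (φ b)) := by
      simp only [map_add, hcomm, hb, map_neg]
      abel
    have hN3 : b + φ b + φ (φ b) = 0 := by
      apply zero_of_neg (h3 _)
      rw [← hN2]
      exact hfix _ hN1
    have hD1 : φ (φ b - b) = φ b - b := by
      have h1 : φ (φ b - b) - (φ b - b) = (b + φ b + φ (φ b)) - 3 • φ b := by
        simp only [map_sub]
        abel
      rw [h3, hN3, sub_zero] at h1
      exact sub_eq_zero.mp h1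
    have hD2 : σ (φ b - b) = -(φ b - b) := by
      simp only [map_sub, hcomm, hb, map_neg]
      abel
    have hD3 : φ b - b = 0 := by
      apply zero_of_neg (h3 _)
      rw [← hD2]
      exact hfix _ hD1
    have hb1 : φ b = b := sub_eq_zero.mp hD3
    apply zero_of_neg (h3 _)
    rw [← hb]
    exact hfix _ hb1
  intro a
  have h1 := key (a - σ a) (by simp only [map_sub, hσ2]; abel)
  exact (sub_eq_zero.mp h1).symm

theorem absII [Finite A] (h3 : ∀ a : A, 3 • a = 0) (φ σ : A →+ A) (hφ3 : ∀ a, φ (φ (φ a)) = a)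
    (hσ2 : ∀ a, σ (σ a) = a) (hfix : ∀ a, φ a = a → σ a = a)
    (hinv : ∀ a, σ (φ a) = φ (φ (σ a))) (hcard : Nat.card A = 27)
    (hF : Nat.card {a : A // φ a = a} ≤ 3) : ∃ e, σ e = e ∧ e + φ e + φ (φ e) ≠ 0 := by
  have hex : ∃ j, j + φ j + φ (φ j) ≠ 0 := by
    by_contra hno
    push Not at hno
    let D : A →+ A := φ - AddMonoidHom.id A
    have hDa : ∀ a, D a = φ a - a := fun a => rfl
    have hD : ∀ a, D (D a) = 0 := by
      intro a
      have h1 : D (D a) = (a + φ a + φ (φ a)) - 3 • φ a := by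
        simp only [hDa, map_sub]
        abel
      rw [h1, hno, h3, sub_zero]
    have hker : Nat.card D.ker ≤ 3 := by
      refine le_trans (Nat.card_le_card_of_injective
        (fun x : D.ker => (⟨x.1, sub_eq_zero.mp x.2⟩ : {a : A // φ a = a})) ?_) hF
      intro x y hxy
      exact Subtype.ext (congrArg (fun z : {a : A // φ a = a} => z.1) hxy)
    have hrange : Nat.card D.range ≤ Nat.card D.ker := by
      apply AddSubgroup.card_le_of_le
      rintro _ ⟨a, rfl⟩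
      exact hD a
    have h1 := AddSubgroup.card_mul_index D.ker
    rw [AddSubgroup.index_ker, hcard] at h1
    have h2 : Nat.card D.ker * Nat.card D.range ≤ 3 * 3 :=
      Nat.mul_le_mul hker (hrange.trans hker)
    omega
  obtain ⟨j, hj⟩ := hex
  refine ⟨j + σ j, by simp only [map_add, hσ2]; abel, ?_⟩
  have hN1 : φ (j + φ j + φ (φ j)) = j + φ j + φ (φ j) := by
    simp only [map_add, hφ3]
    abel
  have hN2 := hfix _ hN1
  have hN3 : σ (j + φ j + φ (φ j)) = σ j + φ (σ j) + φ (φ (σ j)) := by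
    simp only [map_add, hinv, hφ3]
    abel
  rw [hN3] at hN2
  have hN4 : (j + σ j) + φ (j + σ j) + φ (φ (j + σ j)) =
      (j + φ j + φ (φ j)) + (σ j + φ (σ j) + φ (φ (σ j))) := by
    simp only [map_add]
    abel
  rw [hN4, hN2]
  intro h
  apply hj
  apply zero_of_neg (h3 _)
  exact (eq_neg_of_add_eq_zero_left h).symm

theorem mulI {B : Type*} [Group B] (hB : ∀ a b : B, a * b = b * a) (h3 : ∀ a : B, a ^ 3 = 1)
    (φ σ : B →* B) (hφ3 : ∀ a, φ (φ (φ a)) = a)
    (hσ2 : ∀ a, σ (σ a) = a) (hfix : ∀ a, φ a = a → σ a = a) (hcomm : ∀ a, σ (φ a) = φ (σ a)) :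
    ∀ a, σ a = a := by
  letI : CommGroup B := { (inferInstance : Group B) with mul_comm := hB }
  intro a
  exact absI (A := Additive B) (fun a => h3 a.toMul) (MonoidHom.toAdditive φ) (MonoidHom.toAdditive σ)
    (fun a => hφ3 a.toMul) (fun a => hσ2 a.toMul) (fun a => hfix a.toMul)
    (fun a => hcomm a.toMul) (Additive.ofMul a)

theorem mulII {B : Type*} [Group B] [Finite B] (hB : ∀ a b : B, a * b = b * a)
    (h3 : ∀ a : B, a ^ 3 = 1)
    (φ σ : B →* B) (hφ3 : ∀ a, φ (φ (φ a)) = a)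
    (hσ2 : ∀ a, σ (σ a) = a) (hfix : ∀ a, φ a = a → σ a = a)
    (hinv : ∀ a, σ (φ a) = φ (φ (σ a))) (hcard : Nat.card B = 27)
    (hF : Nat.card {a : B // φ a = a} ≤ 3) : ∃ e, σ e = e ∧ e * φ e * φ (φ e) ≠ 1 := by
  letI : CommGroup B := { (inferInstance : Group B) with mul_comm := hB }
  obtain ⟨e, he⟩ := absII (A := Additive B) (fun a => h3 a.toMul) (MonoidHom.toAdditive φ)
    (MonoidHom.toAdditive σ)
    (fun a => hφ3 a.toMul) (fun a => hσ2 a.toMul) (fun a => hfix a.toMul)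
    (fun a => hinv a.toMul) hcard hF
  exact ⟨e.toMul, he⟩

end Abs

/-! ### The analysis of the group -/

section Analysis

variable {G : Type*} [Group G]

/-- Conjugation on a normal subgroup. -/
def cj (J : Subgroup G) [hJ : J.Normal] (g : G) : J →* J :=
  MonoidHom.mk' (fun j => ⟨g * j * g⁻¹, hJ.conj_mem _ j.2 g⟩) (by
    intro a b
    apply Subtype.ext
    simp only [Subgroup.coe_mul]
    group)

theorem cj_coe (J : Subgroup G) [J.Normal] (g : G) (j : J) : (cj J g j : G) = g * j * g⁻¹ := rfl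

theorem tri3 {Q : Type*} [Group Q] (hQ : Nat.card Q = 3) (a b : Q) (ha : a ≠ 1) :
    b = 1 ∨ b = a ∨ b = a⁻¹ := by
  haveI : Fact (Nat.Prime 3) := ⟨Nat.prime_three⟩
  haveI : Finite Q := Nat.finite_of_card_ne_zero (by omega)
  have h1 := mem_zpowers_of_prime_card hQ (g := a) (g' := b) ha
  have h3 : a ^ 3 = 1 := by
    have := pow_card_eq_one' (x := a)
    rwa [hQ] at this
  have h4 : IsOfFinOrder a := isOfFinOrder_iff_pow_eq_one.mpr ⟨3, by norm_num, h3⟩
  have h5 := (h4.mem_powers_iff_mem_zpowers).mpr h1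
  obtain ⟨n, rfl⟩ := Submonoid.mem_powers_iff _ _ |>.mp h5
  rw [pow_eq_pow_mod n h3]
  have h6 : n % 3 < 3 := Nat.mod_lt _ (by norm_num)
  have h7 : a ^ 2 = a⁻¹ := by
    rw [pow_succ] at h3
    exact eq_inv_of_mul_eq_one_left h3
  interval_cases (n % 3)
  · left; simp
  · right; left; simp
  · right; right; exact h7

theorem main_G [Finite G] (hG : Nat.card G = 162)
    (S : Sylow 3 G) (T : Sylow 2 G) (J : Subgroup G) [hJn : J.Normal] (hJcomm : IsMulCommutative J)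
    (hJexp : ∀ a ∈ J, a ^ 3 = 1) (hJcard : Nat.card J = 27)
    (Z : Subgroup G) (hZ : Z = (S : Subgroup G) ⊓ Subgroup.centralizer ((S : Subgroup G) : Set G))
    (hZcard : Nat.card Z = 3)
    (hZT : Z ≤ Subgroup.centralizer ((T : Subgroup G) : Set G))
    (hST : (S : Subgroup G) ⊓ Subgroup.centralizer ((T : Subgroup G) : Set G) ≠ S) :
    ∃ e u τ : G, e ^ 3 = 1 ∧ u ^ 3 = 1 ∧ τ ^ 2 = 1 ∧ τ * u * τ⁻¹ = u⁻¹ ∧ e * τ = τ * e ∧
      e * (u * e * u⁻¹) = (u * e * u⁻¹) * e ∧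
      e * (u * u * e * u⁻¹ * u⁻¹) = (u * u * e * u⁻¹ * u⁻¹) * e ∧
      e * (u * e * u⁻¹) * (u * u * e * u⁻¹ * u⁻¹) ≠ 1 := by
  classical
  haveI : Fact (Nat.Prime 3) := ⟨Nat.prime_three⟩
  haveI : Fact (Nat.Prime 2) := ⟨Nat.prime_two⟩
  -- orders of the Sylow subgroups
  have hS81 : Nat.card (S : Subgroup G) = 81 ∧ (S : Subgroup G).index = 2 := by
    obtain ⟨k, hk⟩ := IsPGroup.iff_card.mp S.isPGroup'
    have h1 := (S : Subgroup G).card_mul_index
    have h2 := S.not_dvd_index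
    rw [hk, hG] at h1
    have hk4 : k ≤ 4 := by
      by_contra hlt
      have h5 : 3 ^ 5 ∣ 3 ^ k := pow_dvd_pow 3 (by omega)
      have h6 : 3 ^ 5 ∣ 162 := h5.trans ⟨_, h1.symm⟩
      norm_num at h6
    rw [hk]
    generalize (S : Subgroup G).index = m at h1 h2 ⊢
    interval_cases k <;> omega
  obtain ⟨hS, hSidx⟩ := hS81
  have hT2 : Nat.card (T : Subgroup G) = 2 := by
    obtain ⟨k, hk⟩ := IsPGroup.iff_card.mp T.isPGroup'
    have h1 := (T : Subgroup G).card_mul_index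
    have h2 := T.not_dvd_index
    rw [hk, hG] at h1
    have hk4 : k ≤ 1 := by
      by_contra hlt
      have h5 : 2 ^ 2 ∣ 2 ^ k := pow_dvd_pow 2 (by omega)
      have h6 : 2 ^ 2 ∣ 162 := h5.trans ⟨_, h1.symm⟩
      norm_num at h6
    rw [hk]
    generalize (T : Subgroup G).index = m at h1 h2 ⊢
    interval_cases k <;> omega
  haveI hSn : (S : Subgroup G).Normal := Subgroup.normal_of_index_eq_two hSidx
  -- commuting in `J`
  have hJc : ∀ a ∈ J, ∀ b ∈ J, a * b = b * a := by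
    intro a ha b hb
    have := mul_comm' (⟨a, ha⟩ : J) ⟨b, hb⟩
    exact congrArg Subtype.val this
  have hJS : J ≤ S := by
    intro j hj
    have h1 := Subgroup.mul_self_mem_of_index_two hSidx (j * j)
    have h2 : (j * j) * (j * j) = j := by
      have h3 := hJexp j hj
      calc (j * j) * (j * j) = j ^ 3 * j := by simp only [pow_succ, pow_zero, one_mul, mul_assoc]
        _ = j := by rw [h3, one_mul]
    rwa [h2] at h1
  -- the involution
  haveI : Nontrivial (T : Subgroup G) := by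
    apply Finite.one_lt_card_iff_nontrivial.mp
    omega
  obtain ⟨t₀, ht₀⟩ := exists_ne (1 : (T : Subgroup G))
  set τ : G := (t₀ : G) with hτdef
  have hτT : τ ∈ (T : Subgroup G) := t₀.2
  have hτ1 : τ ≠ 1 := by simpa [hτdef] using ht₀
  have hτ2 : τ ^ 2 = 1 := by
    have h1 := pow_card_eq_one' (x := t₀)
    rw [hT2] at h1
    simpa using congrArg Subtype.val h1
  have hτinv : τ⁻¹ = τ := by
    rw [pow_two] at hτ2
    exact inv_eq_of_mul_eq_one_left hτ2
  have hTel : ∀ t ∈ (T : Subgroup G), t = 1 ∨ t = τ := by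
    intro t ht
    have h1 := (Nat.card_eq_two_iff' (1 : (T : Subgroup G))).mp hT2
    obtain ⟨y, -, huy⟩ := h1
    by_cases ht1 : t = 1
    · exact Or.inl ht1
    · right
      have h2 : (⟨t, ht⟩ : (T : Subgroup G)) ≠ 1 := by
        intro h
        exact ht1 (congrArg Subtype.val h)
      have h3 := (huy _ h2).trans (huy _ ht₀).symm
      exact congrArg Subtype.val h3
  -- an element of `S` not commuting with `τ`
  obtain ⟨y₀, hy₀S, hy₀⟩ : ∃ y ∈ (S : Subgroup G), τ * y ≠ y * τ := by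
    by_contra hno
    push Not at hno
    apply hST
    apply le_antisymm inf_le_left
    intro y hy
    refine ⟨hy, ?_⟩
    show y ∈ Subgroup.centralizer _
    rw [Subgroup.mem_centralizer_iff]
    intro t ht
    rcases hTel t ht with rfl | rfl
    · simp
    · exact hno y hy
  have hZτ : ∀ z ∈ Z, τ * z = z * τ := by
    intro z hz
    have h1 : z ∈ Subgroup.centralizer _ := hZT hz
    rw [Subgroup.mem_centralizer_iff] at h1
    exact h1 τ hτT
  -- the quotient of order `3`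
  let N : Subgroup (S : Subgroup G) := J.subgroupOf S
  haveI hNn : N.Normal := Subgroup.normal_subgroupOf
  have hNcard : Nat.card ((S : Subgroup G) ⧸ N) = 3 := by
    have h1 := N.card_mul_index
    have h2 : Nat.card N = 27 := by
      rw [← hJcard]
      exact Nat.card_congr (Subgroup.subgroupOfEquivOfLe hJS).toEquiv
    rw [h2, hS] at h1
    have h3 : N.index = 3 := by omega
    exact h3
  have hmk : ∀ x : (S : Subgroup G), (x : (S : Subgroup G) ⧸ N) = 1 ↔ (x : G) ∈ J := by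
    intro x
    rw [QuotientGroup.eq_one_iff]
    exact Subgroup.mem_subgroupOf
  have hcube : ∀ x ∈ (S : Subgroup G), x ^ 3 ∈ J := by
    intro x hx
    have h1 := pow_card_eq_one' (x := ((⟨x, hx⟩ : (S : Subgroup G)) : (S : Subgroup G) ⧸ N))
    rw [hNcard, ← QuotientGroup.mk_pow, hmk] at h1
    simpa using h1
  have htri : ∀ x ∈ (S : Subgroup G), x ∉ J → ∀ y ∈ (S : Subgroup G),
      y ∈ J ∨ x⁻¹ * y ∈ J ∨ x * y ∈ J := by
    intro x hx hxJ y hy
    have h1 : ((⟨x, hx⟩ : (S : Subgroup G)) : (S : Subgroup G) ⧸ N) ≠ 1 := by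
      rw [Ne, hmk]
      exact hxJ
    rcases tri3 hNcard _ ((⟨y, hy⟩ : (S : Subgroup G)) : (S : Subgroup G) ⧸ N) h1 with h | h | h
    · left
      exact (hmk _).mp h
    · right; left
      have h2 := QuotientGroup.eq.mp h.symm
      exact h2
    · right; right
      rw [← QuotientGroup.mk_inv] at h
      have h2 := QuotientGroup.eq.mp h.symm
      have h3 : (⟨x, hx⟩ : (S : Subgroup G))⁻¹⁻¹ * ⟨y, hy⟩ ∈ N := h2
      rw [inv_inv] at h3
      exact h3
  -- fixed elements lie in `Z`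
  have hfixZ : ∀ x ∈ (S : Subgroup G), x ∉ J → ∀ j ∈ J, x * j = j * x → j ∈ Z := by
    intro x hx hxJ j hj hc
    rw [hZ]
    refine ⟨hJS hj, ?_⟩
    show j ∈ Subgroup.centralizer _
    rw [Subgroup.mem_centralizer_iff]
    intro y hy
    have hcx : Commute j x := hc.symm
    have hy' : Commute j y := by
      rcases htri x hx hxJ y hy with h | h | h
      · exact hJc j hj y h
      · have e1 : y = x * (x⁻¹ * y) := by group
        rw [e1]
        exact hcx.mul_right (hJc j hj _ h)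
      · have e1 : y = x⁻¹ * (x * y) := by group
        rw [e1]
        exact hcx.inv_right.mul_right (hJc j hj _ h)
    exact hy'.eq.symm
  have hφ3 : ∀ w ∈ (S : Subgroup G), ∀ a : J, cj J w (cj J w (cj J w a)) = a := by
    intro w hw a
    apply Subtype.ext
    simp only [cj_coe]
    have h1 : w * (w * (w * (a : G) * w⁻¹) * w⁻¹) * w⁻¹ = (w ^ 3 * a) * (w ^ 3)⁻¹ := by
      simp only [pow_succ, pow_zero, one_mul, mul_assoc, mul_inv_rev, inv_inv]
    rw [h1, hJc _ (hcube w hw) _ a.2]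
    group
  have hσ2 : ∀ a : J, cj J τ (cj J τ a) = a := by
    intro a
    apply Subtype.ext
    simp only [cj_coe]
    rw [hτinv]
    calc τ * (τ * (a : G) * τ) * τ = (τ ^ 2) * a * (τ ^ 2) := by simp only [pow_succ, pow_zero, one_mul, mul_assoc, mul_inv_rev, inv_inv]
      _ = a := by rw [hτ2]; simp
  have hfix : ∀ w ∈ (S : Subgroup G), w ∉ J → ∀ a : J, cj J w a = a → cj J τ a = a := by
    intro w hw hwJ a ha
    have h1 : w * (a : G) * w⁻¹ = a := congrArg Subtype.val ha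
    have h2 : w * (a : G) = a * w := mul_inv_eq_iff_eq_mul.mp h1
    have h3 := hfixZ w hw hwJ a a.2 h2
    apply Subtype.ext
    simp only [cj_coe]
    rw [hZτ a h3]
    group
  have hexpJ : ∀ a : J, a ^ 3 = 1 := fun a => Subtype.ext (hJexp a a.2)
  -- no element outside `J` commutes with `τ`
  have hnc : ∀ w ∈ (S : Subgroup G), w ∉ J → τ * w ≠ w * τ := by
    intro w hw hwJ hc
    have hcomm : ∀ a : J, cj J τ (cj J w a) = cj J w (cj J τ a) := by
      intro a
      apply Subtype.ext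
      simp only [cj_coe]
      have hc'' : w⁻¹ * τ⁻¹ = τ⁻¹ * w⁻¹ := by rw [← mul_inv_rev, ← mul_inv_rev, hc]
      calc τ * (w * (a : G) * w⁻¹) * τ⁻¹ = (τ * w) * a * (w⁻¹ * τ⁻¹) := by group
        _ = (w * τ) * a * (τ⁻¹ * w⁻¹) := by rw [hc, hc'']
        _ = _ := by group
    have hall := mulI (fun a b => mul_comm' a b) hexpJ (cj J w) (cj J τ) (hφ3 w hw) hσ2
      (hfix w hw hwJ) hcomm
    have hτJ : ∀ j ∈ J, Commute τ j := by
      intro j hj
      have h1 : τ * j * τ⁻¹ = j := congrArg Subtype.val (hall ⟨j, hj⟩)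
      exact mul_inv_eq_iff_eq_mul.mp h1
    apply hy₀
    have hτw : Commute τ w := hc
    rcases htri w hw hwJ y₀ hy₀S with h | h | h
    · exact hτJ _ h
    · have e1 : y₀ = w * (w⁻¹ * y₀) := by group
      rw [e1]
      exact hτw.mul_right (hτJ _ h)
    · have e1 : y₀ = w⁻¹ * (w * y₀) := by group
      rw [e1]
      exact hτw.inv_right.mul_right (hτJ _ h)
  -- choice of `x`
  obtain ⟨x, hxS, hxJ⟩ : ∃ x ∈ (S : Subgroup G), x ∉ J := by
    by_contra hno
    push Not at hno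
    have h1 : Nat.card (S : Subgroup G) ≤ Nat.card J := Subgroup.card_le_of_le hno
    omega
  set a := τ * x * τ⁻¹ with ha
  have haS : a ∈ (S : Subgroup G) := hSn.conj_mem x hxS τ
  have hσa : τ * a * τ⁻¹ = x := by
    rw [ha, hτinv]
    calc τ * (τ * x * τ) * τ = (τ ^ 2) * x * (τ ^ 2) := by simp only [pow_succ, pow_zero, one_mul, mul_assoc, mul_inv_rev, inv_inv]
      _ = x := by rw [hτ2]; simp
  have haJ : a ∉ J := by
    intro h
    apply hxJ
    have h1 := hJn.conj_mem a h τ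
    rwa [hσa] at h1
  have h1 : x⁻¹ * a ∉ J := by
    intro hj
    set j := x⁻¹ * a with hjdef
    have hj3 : j ^ 3 = 1 := hJexp j hj
    have hσj : τ * j * τ⁻¹ = j⁻¹ := by
      have h2 : τ * j * τ⁻¹ = (τ * x * τ⁻¹)⁻¹ * (τ * a * τ⁻¹) := by
        rw [hjdef]
        group
      rw [h2, hσa, ← ha, hjdef]
      group
    have hwJ : x * j⁻¹ ∉ J := by
      intro h
      apply hxJ
      have h2 : x = (x * j⁻¹) * j := by group
      rw [h2]
      exact J.mul_mem h hj
    have hwS : x * j⁻¹ ∈ (S : Subgroup G) := (S : Subgroup G).mul_mem hxS ((S : Subgroup G).inv_mem (hJS hj))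
    apply hnc _ hwS hwJ
    apply mul_inv_eq_iff_eq_mul.mp
    have h2 : τ * (x * j⁻¹) * τ⁻¹ = (τ * x * τ⁻¹) * (τ * j * τ⁻¹)⁻¹ := by group
    rw [h2, hσj, ← ha, inv_inv]
    have h3 : a = x * j := by
      rw [hjdef]
      group
    have h4 : j * j = j⁻¹ := by
      apply eq_inv_of_mul_eq_one_left
      rw [← hj3]
      simp only [pow_succ, pow_zero, one_mul, mul_assoc, mul_inv_rev, inv_inv]
    rw [h3, mul_assoc, h4]
  have h2 : x * a ∈ J := by
    rcases htri x hxS hxJ a haS with h | h | h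
    · exact absurd h haJ
    · exact absurd h h1
    · exact h
  set u := x * a⁻¹ with hu
  have huS : u ∈ (S : Subgroup G) := (S : Subgroup G).mul_mem hxS ((S : Subgroup G).inv_mem haS)
  have huJ : u ∉ J := by
    intro h
    have h3 : a⁻¹ * x ∈ J := by
      have h4 := hJn.conj_mem u h x⁻¹
      have h5 : x⁻¹ * u * x⁻¹⁻¹ = a⁻¹ * x := by
        rw [hu]
        group
      rwa [h5] at h4
    have h4 : x * x ∈ J := by
      have h5 := J.mul_mem h2 h3
      have h6 : x * a * (a⁻¹ * x) = x * x := by group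
      rwa [h6] at h5
    have h5 := hcube x hxS
    apply hxJ
    have h6 : x = x ^ 3 * (x * x)⁻¹ := by group
    rw [h6]
    exact J.mul_mem h5 (J.inv_mem h4)
  have hσu : τ * u * τ⁻¹ = u⁻¹ := by
    have h3 : τ * u * τ⁻¹ = (τ * x * τ⁻¹) * (τ * a * τ⁻¹)⁻¹ := by
      rw [hu]
      group
    rw [h3, hσa, ← ha, hu]
    group
  have hu3 : u ^ 3 = 1 := by
    have h3J := hcube u huS
    have h3Z : u ^ 3 ∈ Z := hfixZ u huS huJ _ h3J (by group)
    have h4 := hZτ _ h3Z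
    have h5 : τ * u ^ 3 * τ⁻¹ = (u⁻¹) ^ 3 := by
      rw [← conj_pow, hσu]
    have h6 : τ * u ^ 3 * τ⁻¹ = u ^ 3 := by
      rw [h4]
      group
    have h7 : u ^ 6 = 1 := by
      rw [h6] at h5
      have h8 : u ^ 6 = u ^ 3 * u ^ 3 := by group
      rw [h8]
      nth_rewrite 1 [h5]
      group
    have h8 : u ^ 81 = 1 := by
      have h9 := pow_card_eq_one' (x := (⟨u, huS⟩ : (S : Subgroup G)))
      rw [hS] at h9
      simpa using congrArg Subtype.val h9
    have h9 : orderOf u ∣ Nat.gcd 6 81 :=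
      Nat.dvd_gcd (orderOf_dvd_of_pow_eq_one h7) (orderOf_dvd_of_pow_eq_one h8)
    have h10 : orderOf u ∣ 3 := by simpa using h9
    exact orderOf_dvd_iff_pow_eq_one.mp h10
  have huinv : u⁻¹ = u * u := by
    apply inv_eq_of_mul_eq_one_right
    rw [← hu3]
    simp only [pow_succ, pow_zero, one_mul, mul_assoc, mul_inv_rev, inv_inv]
  have huinv2 : u = u⁻¹ * u⁻¹ := by
    rw [huinv]
    have : u * u * (u * u) = u ^ 3 * u := by
      simp only [pow_succ, pow_zero, one_mul, mul_assoc, mul_inv_rev, inv_inv]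
    rw [this, hu3, one_mul]
  have hinv : ∀ b : J, cj J τ (cj J u b) = cj J u (cj J u (cj J τ b)) := by
    intro b
    apply Subtype.ext
    simp only [cj_coe]
    have h3 : τ * (u * (b : G) * u⁻¹) * τ⁻¹ = (τ * u * τ⁻¹) * (τ * b * τ⁻¹) * (τ * u * τ⁻¹)⁻¹ := by
      group
    rw [h3, hσu, inv_inv]
    have h4 : u * (u * (τ * (b : G) * τ⁻¹) * u⁻¹) * u⁻¹ = (u * u) * (τ * b * τ⁻¹) * (u⁻¹ * u⁻¹) := by
      group
    rw [h4, ← huinv, ← huinv2]
  have hF : Nat.card {b : J // cj J u b = b} ≤ 3 := by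
    rw [← hZcard]
    refine Nat.card_le_card_of_injective (fun b => ⟨b.1.1, ?_⟩) ?_
    · have h3 : u * (b.1 : G) * u⁻¹ = b.1 := congrArg Subtype.val b.2
      exact hfixZ u huS huJ _ b.1.2 (mul_inv_eq_iff_eq_mul.mp h3)
    · intro b c hbc
      apply Subtype.ext
      apply Subtype.ext
      exact congrArg (fun z : Z => (z : G)) hbc
  obtain ⟨e, he1, he2⟩ := mulII (fun a b => mul_comm' a b) hexpJ (cj J u) (cj J τ) (hφ3 u huS) hσ2
    (hfix u huS huJ) hinv hJcard hF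
  have he3 : τ * (e : G) * τ⁻¹ = e := congrArg Subtype.val he1
  have hm1 : u * (e : G) * u⁻¹ ∈ J := hJn.conj_mem _ e.2 u
  have hm2 : u * u * (e : G) * u⁻¹ * u⁻¹ ∈ J := by
    have := hJn.conj_mem _ hm1 u
    have h3 : u * (u * (e : G) * u⁻¹) * u⁻¹ = u * u * (e : G) * u⁻¹ * u⁻¹ := by group
    rwa [h3] at this
  refine ⟨e, u, τ, hJexp e e.2, hu3, hτ2, hσu, (mul_inv_eq_iff_eq_mul.mp he3).symm,
    hJc _ e.2 _ hm1, hJc _ e.2 _ hm2, ?_⟩
  intro h
  apply he2
  apply Subtype.ext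
  simp only [Subgroup.coe_mul, cj_coe, Subgroup.coe_one]
  rw [← h]
  group

end Analysis

theorem ag_rels {G : Type*} [Group G] {e u τ : G} (h0 : e ^ 3 = 1) (h1 : u ^ 3 = 1) (h2 : τ ^ 2 = 1)
    (h3 : τ * u * τ⁻¹ = u⁻¹) (h4 : e * τ = τ * e) (h5 : e * (u * e * u⁻¹) = (u * e * u⁻¹) * e)
    (h6 : e * (u * u * e * u⁻¹ * u⁻¹) = (u * u * e * u⁻¹ * u⁻¹) * e) :
    ∀ r ∈ rl, ev (ag e u τ) r = 1 := by
  have hei : e⁻¹ = e * e := by
    apply inv_eq_of_mul_eq_one_right
    rw [← h0]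
    simp only [pow_succ, pow_zero, one_mul, mul_assoc, mul_inv_rev, inv_inv]
  have hui : u⁻¹ = u * u := by
    apply inv_eq_of_mul_eq_one_right
    rw [← h1]
    simp only [pow_succ, pow_zero, one_mul, mul_assoc, mul_inv_rev, inv_inv]
  have hui2 : u = u⁻¹ * u⁻¹ := by
    rw [hui]
    have : u * u * (u * u) = u ^ 3 * u := by
      simp only [pow_succ, pow_zero, one_mul, mul_assoc, mul_inv_rev, inv_inv]
    rw [this, h1, one_mul]
  have hτi : τ⁻¹ = τ := by
    rw [pow_two] at h2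
    exact inv_eq_of_mul_eq_one_left h2
  intro r hr
  simp only [rl, List.mem_cons, List.not_mem_nil, or_false] at hr
  rcases hr with rfl | rfl | rfl | rfl | rfl | rfl | rfl
  · simp only [ev_cons, ev_nil, ag, mul_one]
    rw [← h0]
    simp only [pow_succ, pow_zero, one_mul, mul_assoc, mul_inv_rev, inv_inv]
  · simp only [ev_cons, ev_nil, ag, mul_one]
    rw [← h1]
    simp only [pow_succ, pow_zero, one_mul, mul_assoc, mul_inv_rev, inv_inv]
  · simp only [ev_cons, ev_nil, ag, mul_one]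
    rw [← h2]
    simp only [pow_succ, pow_zero, one_mul, mul_assoc, mul_inv_rev, inv_inv]
  · simp only [ev_cons, ev_nil, ag, mul_one]
    rw [hτi] at h3
    calc u * (τ * (u * τ)) = u * (τ * u * τ) := by group
      _ = 1 := by rw [h3]; group
  · simp only [ev_cons, ev_nil, ag, mul_one]
    calc e * (τ * (e * (e * τ))) = e * (τ * (e * e) * τ) := by group
      _ = e * (τ * e⁻¹ * τ) := by rw [hei]
      _ = e * (τ * e⁻¹ * τ⁻¹) := by rw [hτi]
      _ = e * (τ * e * τ⁻¹)⁻¹ := by group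
      _ = 1 := by rw [← h4]; group
  · simp only [ev_cons, ev_nil, ag, mul_one]
    calc e * (u * (e * (u * (u * (e * (e * (u * (e * (e * (u * u))))))))))
        = e * (u * e * (u * u)) * (e * e) * (u * (e * e) * (u * u)) := by group
      _ = e * (u * e * u⁻¹) * e⁻¹ * (u * e⁻¹ * u⁻¹) := by rw [hui, hei]
      _ = (e * (u * e * u⁻¹)) * (e⁻¹ * (u * e * u⁻¹)⁻¹) := by group
      _ = 1 := by rw [h5]; group
  · simp only [ev_cons, ev_nil, ag, mul_one]
    calc e * (u * (u * (e * (u * (e * (e * (u * (u * (e * (e * u))))))))))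
        = e * (u * u * e * u) * (e * e) * (u * u * (e * e) * u) := by group
      _ = e * (u * u * e * (u⁻¹ * u⁻¹)) * e⁻¹ * (u * u * e⁻¹ * (u⁻¹ * u⁻¹)) := by
          rw [← hui2, hei]
      _ = (e * (u * u * e * u⁻¹ * u⁻¹)) * (e⁻¹ * (u * u * e * u⁻¹ * u⁻¹)⁻¹) := by
          simp only [pow_succ, pow_zero, one_mul, mul_assoc, mul_inv_rev, inv_inv]
      _ = 1 := by rw [h6]; group

theorem result {G : Type*} [Group G] [Finite G] (hG : Nat.card G = 162)
    (S : Sylow 3 G) (T : Sylow 2 G) (J : Subgroup G) [hJn : J.Normal] (hJcomm : IsMulCommutative J)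
    (hJexp : ∀ a ∈ J, a ^ 3 = 1) (hJcard : Nat.card J = 27)
    (Z : Subgroup G) (hZ : Z = (S : Subgroup G) ⊓ Subgroup.centralizer ((S : Subgroup G) : Set G)) (hZcard : Nat.card Z = 3)
    (hZT : Z ≤ Subgroup.centralizer ((T : Subgroup G) : Set G))
    (hST : (S : Subgroup G) ⊓ Subgroup.centralizer ((T : Subgroup G) : Set G) ≠ S) :
    Nonempty (G ≃* Subgroup.centralizer ({Equiv.swap (0 : Fin 9) 1 * Equiv.swap 1 2 * Equiv.swap 3 4 * Equiv.swap 4 5 * Equiv.swap 6 7 * Equiv.swap 7 8} : Set (Equiv.Perm (Fin 9)))) := by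
  obtain ⟨e, u, τ, h0, h1, h2, h3, h4, h5, h6, h7⟩ :=
    main_G hG S T J hJcomm hJexp hJcard Z hZ hZcard hZT hST
  exact iso_of_rel hG e u τ (ag_rels h0 h1 h2 h3 h4 h5 h6) h7

end Cfsg.Agent.S3376
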