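import Mathlib
import Cfsg.Statements.S3389

set_option autoImplicit false
set_option linter.style.haveILetI false
open Cfsg

namespace Cfsg.Agent.S3389

open MulAction

/-- A `p`-group acting on a set of fewer than `p` points acts trivially. -/
theorem pgroup_trivial {G Ω : Type*} [Group G] [Finite G] [MulAction G Ω] [Finite Ω] {p : ℕ} [Fact p.Prime]
    (Q : Subgroup G) (hQ : IsPGroup p Q) (Y : Set Ω) (hY : ∀ q ∈ Q, ∀ y ∈ Y, q • y ∈ Y)
    (hcard : Nat.card Y < p) : ∀ q ∈ Q, ∀ y ∈ Y, q • y = y := by
  classical
  letI : MulAction Q Y :=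
    { smul := fun q y => ⟨(q : G) • y.1, hY q q.2 y.1 y.2⟩
      one_smul := fun y => Subtype.ext (one_smul G y.1)
      mul_smul := fun q q' y => Subtype.ext (mul_smul (q : G) (q' : G) y.1) }
  have h1 := hQ.card_modEq_card_fixedPoints Y
  have h2 : Nat.card (fixedPoints Q Y) ≤ Nat.card Y := by
    exact Nat.card_le_card_of_injective _ Subtype.val_injective
  have h3 : Nat.card Y = Nat.card (fixedPoints Q Y) :=
    Nat.ModEq.eq_of_lt_of_lt h1 hcard (lt_of_le_of_lt h2 hcard)
  have h4 : fixedPoints Q Y = Set.univ := by
    rw [Set.eq_univ_iff_ncard, ← Nat.card_coe_set_eq, ← h3]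
  intro q hq y hy
  have h5 : (⟨y, hy⟩ : Y) ∈ fixedPoints Q Y := by rw [h4]; trivial
  exact congrArg Subtype.val (h5 ⟨q, hq⟩)

/-- Burnside's lemma for a transitive action. -/
theorem burnside_trans {T Y : Type*} [Group T] [Fintype T] [MulAction T Y] [Finite Y]
    [IsPretransitive T Y] [Nonempty Y] :
    ∑ t : T, Nat.card (fixedBy Y t) = Nat.card T := by
  classical
  haveI : ∀ g : T, Fintype (fixedBy Y g) := fun _ => Fintype.ofFinite _
  haveI : Fintype (orbitRel.Quotient T Y) := Fintype.ofFinite _
  have h := sum_card_fixedBy_eq_card_orbits_mul_card_group T Y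
  have h1 : Fintype.card (orbitRel.Quotient T Y) = 1 := by
    rw [Fintype.card_eq_one_iff]
    haveI : Subsingleton (orbitRel.Quotient T Y) := (pretransitive_iff_subsingleton_quotient T Y).mp inferInstance
    obtain ⟨y⟩ : Nonempty Y := inferInstance
    exact ⟨Quotient.mk'' y, fun z => Subsingleton.elim _ _⟩
  rw [h1, one_mul] at h
  simp only [Nat.card_eq_fintype_card]
  exact h

/-- Let G be a finite group acting faithfully and transitively on a finite set Ω with fixity k ≥ 1: every non-identity element fixes at most k points and some non-identity element fixes exactly k points. Then |Z(G)| divides k; if k = 2 then |G| is even; and for every prime p > k dividing |G| and every point α, either p does not divide |G_α| or G_α contains a Sylow p-subgroup of G. -/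
theorem result {G : Type*} [Group G] [Finite G] {Ω : Type*} [Fintype Ω] [MulAction G Ω] [FaithfulSMul G Ω]
    (htr : MulAction.IsPretransitive G Ω) (k : ℕ) (hk : 1 ≤ k)
    (hfix : ∀ g : G, g ≠ 1 → Nat.card (MulAction.fixedBy Ω g) ≤ k) (hex : ∃ g : G, g ≠ 1 ∧ Nat.card (MulAction.fixedBy Ω g) = k) :
    Nat.card (Subgroup.center G) ∣ k ∧ (k = 2 → 2 ∣ Nat.card G) ∧
      ∀ (p : ℕ), p.Prime → k < p → p ∣ Nat.card G → ∀ α : Ω,
        ¬ p ∣ Nat.card (MulAction.stabilizer G α) ∨ ¬ p ∣ (MulAction.stabilizer G α).index := by
  classical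
  obtain ⟨g₀, hg₀, hg₀k⟩ := hex
  refine ⟨?_, ?_, ?_⟩
  · -- the centre acts freely on the fixed points of g₀
    let Z := Subgroup.center G
    have hZmem : ∀ z ∈ Z, ∀ x, z * x = x * z := fun z hz x => Subgroup.mem_center_iff.mp hz x |>.symm
    have hclosed : ∀ z : Z, ∀ y ∈ fixedBy Ω g₀, (z : G) • y ∈ fixedBy Ω g₀ := by
      intro z y hy
      rw [mem_fixedBy] at hy ⊢
      rw [← mul_smul, ← hZmem z z.2 g₀, mul_smul, hy]
    letI : MulAction Z (fixedBy Ω g₀) :=
      { smul := fun z y => ⟨(z : G) • y.1, hclosed z y.1 y.2⟩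
        one_smul := fun y => Subtype.ext (one_smul G y.1)
        mul_smul := fun q q' y => Subtype.ext (mul_smul (q : G) (q' : G) y.1) }
    have hfree : ∀ y : fixedBy Ω g₀, stabilizer Z y = ⊥ := by
      intro y
      rw [eq_bot_iff]
      intro z hz
      have hz1 : (z : G) • y.1 = y.1 := congrArg Subtype.val hz
      have hz2 : (z : G) = 1 := by
        apply FaithfulSMul.eq_of_smul_eq_smul (α := Ω)
        intro d
        obtain ⟨h, rfl⟩ := htr.exists_smul_eq y.1 d
        rw [one_smul, ← mul_smul, hZmem z z.2 h, mul_smul, hz1]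
      exact Subgroup.mem_bot.mpr (Subtype.ext hz2)
    have := Nat.card_congr (selfEquivOrbitsQuotientProd (G := Z) (X := fixedBy Ω g₀) hfree)
    rw [Nat.card_prod, hg₀k] at this
    rw [this]
    exact Dvd.intro_left _ rfl
  · intro hk2
    subst hk2
    by_contra hodd
    -- no element swaps two points
    have hnoswap : ∀ (y : G) (a b : Ω), y • a = b → y • b = a → a = b := by
      intro y a b h1 h2
      have hy2 : (y ^ 2) • a = a := by rw [pow_two, mul_smul, h1, h2]
      have hpow : y ^ (Nat.card G) = 1 := pow_card_eq_one'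
      obtain ⟨m, hm⟩ : ∃ m, Nat.card G = 2 * m + 1 := by
        have : Odd (Nat.card G) := by
          rw [← Nat.not_even_iff_odd, even_iff_two_dvd]; exact hodd
        exact this
      have hy : y = (y ^ 2) ^ (m + 1) := by
        rw [← pow_mul]
        have h3 : 2 * (m + 1) = Nat.card G + 1 := by omega
        rw [h3, pow_succ, hpow, one_mul]
      have h4 : ∀ n : ℕ, ((y ^ 2) ^ n) • a = a := by
        intro n
        induction n with
        | zero => simp
        | succ n ih => rw [pow_succ, mul_smul, hy2, ih]
      rw [← h1, hy, h4]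
    -- three distinct fixed points are impossible
    have hthree : ∀ t : G, t ≠ 1 → ∀ x y z : Ω, x ≠ y → x ≠ z → y ≠ z → t • x = x → t • y = y → t • z = z → False := by
      intro t ht x y z hxy hxz hyz h1 h2 h3
      have hsub : ({x, y, z} : Set Ω) ⊆ fixedBy Ω t := by
        rintro w (rfl | rfl | rfl)
        · exact h1
        · exact h2
        · exact h3
      have hc : ({x, y, z} : Set Ω).ncard = 3 := Set.ncard_eq_three.mpr ⟨x, y, z, hxy, hxz, hyz, rfl⟩
      have hle := Set.ncard_le_ncard hsub (Set.toFinite _)
      have h2' := hfix t ht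
      rw [Nat.card_coe_set_eq] at h2'
      omega
    obtain ⟨a, b, hab, hfixset⟩ := Set.ncard_eq_two.mp (by rwa [← Nat.card_coe_set_eq])
    have hga : g₀ • a = a := by
      have : a ∈ fixedBy Ω g₀ := by rw [hfixset]; simp
      exact this
    have hgb : g₀ • b = b := by
      have : b ∈ fixedBy Ω g₀ := by rw [hfixset]; simp
      exact this
    obtain ⟨x, hxa⟩ := htr.exists_smul_eq a b
    set c : Ω := x • b with hc
    have hcb : c ≠ b := by
      intro h
      apply hab
      have h1 : x • b = x • a := by rw [← hc, h, hxa]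
      exact (smul_left_cancel x h1).symm
    let T : Subgroup G := stabilizer G b
    have hgT : g₀ ∈ T := hgb
    let g₁ : G := x * g₀ * x⁻¹
    have hg₁T : g₁ ∈ T := by
      show g₁ • b = b
      show (x * g₀ * x⁻¹) • b = b
      have : x⁻¹ • b = a := by rw [inv_smul_eq_iff, hxa]
      rw [mul_smul, mul_smul, this, hga, hxa]
    have hg₁c : g₁ • c = c := by
      show (x * g₀ * x⁻¹) • c = c
      rw [hc, mul_smul, mul_smul, inv_smul_smul, hgb]
    have hg₁1 : g₁ ≠ 1 := by
      intro h
      apply hg₀
      have h2 : x * g₀ * x⁻¹ = 1 := h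
      have h3 : g₀ = x⁻¹ * (x * g₀ * x⁻¹) * x := by group
      rw [h3, h2]; group
    haveI : Fintype T := Fintype.ofFinite _
    by_cases hcorb : c ∈ orbit T a
    · obtain ⟨u, hu⟩ := hcorb
      have hub : (u : G) • b = b := u.2
      have hu' : (u : G) • a = c := hu
      have : a = b := hnoswap ((u : G)⁻¹ * x) a b
        (by rw [mul_smul, hxa, inv_smul_eq_iff, hub])
        (by rw [mul_smul, inv_smul_eq_iff]; exact hu'.symm)
      exact hab this
    · -- the counting contradiction
      haveI : Nonempty (orbit T a) := ⟨⟨a, mem_orbit_self a⟩⟩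
      haveI : Nonempty (orbit T c) := ⟨⟨c, mem_orbit_self c⟩⟩
      have hB1 := burnside_trans (T := T) (Y := orbit T a)
      have hB2 := burnside_trans (T := T) (Y := orbit T c)
      -- fixed points in the orbits avoid b
      have hnb : ∀ y ∈ orbit T a, y ≠ b := by
        rintro _ ⟨u, rfl⟩ h
        apply hab
        have hub : (u : G) • b = b := u.2
        have h1 : (u : G) • a = (u : G) • b := by rw [hub]; exact h
        exact smul_left_cancel _ h1
      have hnb' : ∀ y ∈ orbit T c, y ≠ b := by
        rintro _ ⟨u, rfl⟩ h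
        apply hcb
        have hub : (u : G) • b = b := u.2
        have h1 : (u : G) • c = (u : G) • b := by rw [hub]; exact h
        exact smul_left_cancel _ h1
      have hdisj : ∀ y ∈ orbit T a, y ∉ orbit T c := by
        intro y hy hy'
        apply hcorb
        have h1 := (orbit_eq_iff.mpr hy)
        have h2 := (orbit_eq_iff.mpr hy')
        rw [← h1, h2]
        exact mem_orbit_self c
      -- the pointwise bound
      have hbound : ∀ t : T, t ≠ 1 →
          Nat.card (fixedBy (orbit T a) t) + Nat.card (fixedBy (orbit T c) t) ≤ 1 := by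
        intro t ht
        have ht1 : (t : G) ≠ 1 := fun h => ht (Subtype.ext h)
        have htb : (t : G) • b = b := t.2
        by_contra hcon
        push Not at hcon
        have hcases : 1 < Nat.card (fixedBy (orbit T a) t) ∨ 1 < Nat.card (fixedBy (orbit T c) t) ∨
            (0 < Nat.card (fixedBy (orbit T a) t) ∧ 0 < Nat.card (fixedBy (orbit T c) t)) := by omega
        rcases hcases with h | h | ⟨h1, h2⟩
        · rw [Finite.one_lt_card_iff_nontrivial] at h
          obtain ⟨⟨y, hy⟩, ⟨z, hz⟩, hyz⟩ := exists_pair_ne (fixedBy (orbit T a) t)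
          have hy' : (t : G) • (y : Ω) = y := congrArg Subtype.val (mem_fixedBy.mp hy)
          have hz' : (t : G) • (z : Ω) = z := congrArg Subtype.val (mem_fixedBy.mp hz)
          exact hthree _ ht1 y z b (fun h => hyz (Subtype.ext (Subtype.ext h))) (hnb y y.2) (hnb z z.2) hy' hz' htb
        · rw [Finite.one_lt_card_iff_nontrivial] at h
          obtain ⟨⟨y, hy⟩, ⟨z, hz⟩, hyz⟩ := exists_pair_ne (fixedBy (orbit T c) t)
          have hy' : (t : G) • (y : Ω) = y := congrArg Subtype.val (mem_fixedBy.mp hy)
          have hz' : (t : G) • (z : Ω) = z := congrArg Subtype.val (mem_fixedBy.mp hz)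
          exact hthree _ ht1 y z b (fun h => hyz (Subtype.ext (Subtype.ext h))) (hnb' y y.2) (hnb' z z.2) hy' hz' htb
        · obtain ⟨⟨y, hy⟩⟩ := (Nat.card_pos_iff.mp h1).1
          obtain ⟨⟨z, hz⟩⟩ := (Nat.card_pos_iff.mp h2).1
          have hy' : (t : G) • (y : Ω) = y := congrArg Subtype.val (mem_fixedBy.mp hy)
          have hz' : (t : G) • (z : Ω) = z := congrArg Subtype.val (mem_fixedBy.mp hz)
          refine hthree _ ht1 y z b ?_ (hnb y y.2) (hnb' z z.2) hy' hz' htb
          intro h
          exact hdisj y y.2 (h ▸ z.2)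
      -- values at 1
      have hone1 : Nat.card (fixedBy (orbit T a) (1 : T)) = Nat.card (orbit T a) := by
        have : fixedBy (orbit T a) (1 : T) = Set.univ := by ext; simp
        rw [this]; simp
      have hone2 : Nat.card (fixedBy (orbit T c) (1 : T)) = Nat.card (orbit T c) := by
        have : fixedBy (orbit T c) (1 : T) = Set.univ := by ext; simp
        rw [this]; simp
      -- sizes of orbits
      have hstab : ∀ (y : Ω) (u : G), u ≠ 1 → u ∈ T → u • y = y →
          3 * Nat.card (orbit T y) ≤ Nat.card T := by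
        intro y u hu huT huy
        have h1 : Nat.card (orbit T y) * Nat.card (stabilizer T y) = Nat.card T := by
          have := (stabilizer T y).card_mul_index
          rw [MulAction.index_stabilizer, ← Nat.card_coe_set_eq] at this
          rw [mul_comm]; exact this
        have h2 : 1 < Nat.card (stabilizer T y) := by
          rw [Finite.one_lt_card_iff_nontrivial]
          refine ⟨⟨⟨⟨u, huT⟩, huy⟩, 1, fun h => hu ?_⟩⟩
          exact congrArg (fun w : stabilizer T y => ((w : T) : G)) h
        have h3 : ¬ 2 ∣ Nat.card (stabilizer T y) := by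
          intro h
          apply hodd
          refine dvd_trans h ?_
          have h4 : Nat.card (stabilizer T y) ∣ Nat.card T := Subgroup.card_subgroup_dvd_card _
          have h5 : Nat.card T ∣ Nat.card G := Subgroup.card_subgroup_dvd_card _
          exact dvd_trans h4 h5
        have h6 : 3 ≤ Nat.card (stabilizer T y) := by omega
        calc 3 * Nat.card (orbit T y) ≤ Nat.card (stabilizer T y) * Nat.card (orbit T y) :=
              Nat.mul_le_mul_right _ h6
          _ = Nat.card T := by rw [mul_comm]; exact h1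
      have hs1 := hstab a g₀ hg₀ hgT hga
      have hs2 := hstab c g₁ hg₁1 hg₁T hg₁c
      -- sum up
      have hsum : ∑ t : T, (Nat.card (fixedBy (orbit T a) t) + Nat.card (fixedBy (orbit T c) t)) =
          2 * Nat.card T := by
        rw [Finset.sum_add_distrib, hB1, hB2]; ring
      rw [← Finset.add_sum_erase _ _ (Finset.mem_univ (1 : T)), hone1, hone2] at hsum
      have hle : ∑ t ∈ Finset.univ.erase (1 : T),
          (Nat.card (fixedBy (orbit T a) t) + Nat.card (fixedBy (orbit T c) t)) ≤
          (Finset.univ.erase (1 : T)).card * 1 := by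
        apply Finset.sum_le_card_nsmul
        intro t ht
        exact hbound t (Finset.ne_of_mem_erase ht)
      have hcard : (Finset.univ.erase (1 : T)).card = Nat.card T - 1 := by
        rw [Finset.card_erase_of_mem (Finset.mem_univ _), Finset.card_univ, Nat.card_eq_fintype_card]
      have hTpos : 0 < Nat.card T := Nat.card_pos
      rw [hcard, mul_one] at hle
      omega
  · intro p hp hkp hpG α
    haveI : Fact p.Prime := ⟨hp⟩
    by_contra hcon
    push Not at hcon
    obtain ⟨h1, h2⟩ := hcon
    -- an element of order p fixing α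
    obtain ⟨x', hx'⟩ := exists_prime_orderOf_dvd_card' p h1
    let x : G := x'
    have hxa : x • α = α := x'.2
    have hxord : orderOf x = p := by
      rw [← hx']; exact Subgroup.orderOf_coe x'
    have hx1 : x ≠ 1 := by
      intro h; rw [h, orderOf_one] at hxord; exact hp.one_lt.ne hxord
    have hzp : IsPGroup p (Subgroup.zpowers x) := by
      rw [IsPGroup.iff_card]
      exact ⟨1, by rw [Nat.card_zpowers, hxord, pow_one]⟩
    obtain ⟨P, hP⟩ := hzp.exists_le_sylow
    have hxP : x ∈ (P : Subgroup G) := hP (Subgroup.mem_zpowers x)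
    -- the centre of P acts trivially on the fixed points of x
    have hFx : Nat.card (fixedBy Ω x) < p := lt_of_le_of_lt (hfix x hx1) hkp
    let ZP : Subgroup G := (Subgroup.center (P : Subgroup G)).map (P : Subgroup G).subtype
    have hZPp : IsPGroup p ZP := by
      exact (P.2.to_subgroup _).map _
    have hZPmem : ∀ z ∈ ZP, ∀ u ∈ (P : Subgroup G), z * u = u * z := by
      rintro _ ⟨z, hz, rfl⟩ u hu
      have := Subgroup.mem_center_iff.mp hz ⟨u, hu⟩
      exact (congrArg Subtype.val this).symm
    have hZPfix := pgroup_trivial (p := p) ZP hZPp (fixedBy Ω x) (by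
      intro z hz y hy
      rw [mem_fixedBy] at hy ⊢
      rw [← mul_smul, ← hZPmem z hz x hxP, mul_smul, hy]) hFx
    -- a nontrivial central element
    haveI : Nontrivial (P : Subgroup G) := ⟨⟨⟨x, hxP⟩, 1, fun h => hx1 (congrArg Subtype.val h)⟩⟩
    have hcn : Nontrivial (Subgroup.center (P : Subgroup G)) := P.2.center_nontrivial
    obtain ⟨⟨z, hz⟩, hz1⟩ := exists_ne (1 : Subgroup.center (P : Subgroup G))
    have hz1' : (z : G) ≠ 1 := by
      intro h
      apply hz1
      apply Subtype.ext
      apply Subtype.ext
      exact h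
    have hzZP : (z : G) ∈ ZP := ⟨z, hz, rfl⟩
    have hzα : (z : G) • α = α := hZPfix _ hzZP α hxa
    -- then P acts trivially on the fixed points of z
    have hFz : Nat.card (fixedBy Ω (z : G)) < p := lt_of_le_of_lt (hfix _ hz1') hkp
    have hPfix := pgroup_trivial (p := p) (P : Subgroup G) P.2 (fixedBy Ω (z : G)) (by
      intro u hu y hy
      rw [mem_fixedBy] at hy ⊢
      rw [← mul_smul, hZPmem _ hzZP u hu, mul_smul, hy]) hFz
    have hPle : (P : Subgroup G) ≤ stabilizer G α := fun u hu => hPfix u hu α hzα
    have h3 : (stabilizer G α).index ∣ (P : Subgroup G).index := Subgroup.index_dvd_of_le hPle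
    exact P.not_dvd_index (dvd_trans h2 h3)

end Cfsg.Agent.S3389
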