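import Mathlib
import Cfsg.Statements.S3391
import Cfsg.Agent.Lib.SzTorusX
import Cfsg.Agent.Lib.SuzukiIso

set_option autoImplicit false
open Cfsg

namespace Cfsg.Agent.S3391

/-- Let q = 2^{2m+1} ≥ 8 and let G be isomorphic to the Suzuki group Sz(q). If G acts faithfully and transitively on a finite set Ω with fixity 2 (every non-identity element fixes at most two points, and some fixes exactly two), then either |Ω| = q² + 1 and the action is 2-transitive, or |Ω| = q²(q² + 1) and the point stabilizers have order q − 1. -/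
theorem result {G : Type*} [Group G] [Finite G] (F : Type) [Field F] [Fintype F] (m : ℕ) (hm : 1 ≤ m) (hF : Fintype.card F = 2 ^ (2 * m + 1))
    (e : G ≃* ↥(Cfsg.Lie.Sz F (2 ^ (m + 1)))) {Ω : Type*} [Fintype Ω] [MulAction G Ω] [FaithfulSMul G Ω] (htr : MulAction.IsPretransitive G Ω)
    (hfix : ∀ g : G, g ≠ 1 → Nat.card (MulAction.fixedBy Ω g) ≤ 2) (hex : ∃ g : G, g ≠ 1 ∧ Nat.card (MulAction.fixedBy Ω g) = 2) :
    (Fintype.card Ω = Fintype.card F ^ 2 + 1 ∧ MulAction.IsMultiplyPretransitive G Ω 2) ∨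
    (Fintype.card Ω = Fintype.card F ^ 2 * (Fintype.card F ^ 2 + 1) ∧ ∀ α : Ω, Nat.card (MulAction.stabilizer G α) = Fintype.card F - 1) := by
  haveI : Cfsg.Agent.Lib.Suzuki.SzHyp F m := ⟨hm, hF⟩
  haveI : CharP F 2 := Cfsg.Agent.Lib.Suzuki.charP_two F m
  let e' : G ≃* Cfsg.Sz F m := e.trans (Cfsg.Agent.Lib.SuzukiIso.szEquiv (F := F) (m := m)).symm
  letI : MulAction (Cfsg.Sz F m) Ω := MulAction.compHom Ω e'.symm.toMonoidHom
  have hsmul : ∀ (s : Cfsg.Sz F m) (x : Ω), s • x = e'.symm s • x := fun _ _ => rfl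
  have htr' : MulAction.IsPretransitive (Cfsg.Sz F m) Ω := ⟨fun a b => by
    obtain ⟨g, hg⟩ := htr.exists_smul_eq a b
    refine ⟨e' g, ?_⟩
    rw [hsmul, MulEquiv.symm_apply_apply]
    exact hg⟩
  have hfix' : ∀ s : Cfsg.Sz F m, s ≠ 1 → Nat.card (MulAction.fixedBy Ω s) ≤ 2 := by
    intro s hs
    exact hfix (e'.symm s) (fun h => hs (by simpa using h))
  have hex' : ∃ s : Cfsg.Sz F m, s ≠ 1 ∧ Nat.card (MulAction.fixedBy Ω s) = 2 := by
    obtain ⟨g, hg, hg2⟩ := hex
    refine ⟨e' g, fun h => hg (by simpa using h), ?_⟩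
    have e1 : MulAction.fixedBy Ω (e' g) = MulAction.fixedBy Ω g := by
      ext x
      rw [MulAction.mem_fixedBy, MulAction.mem_fixedBy, hsmul, MulEquiv.symm_apply_apply]
    rw [e1]
    exact hg2
  rcases Cfsg.Agent.Lib.SzTorus.fixity_main htr' hfix' hex' with ⟨h1, h2⟩ | ⟨h1, h2⟩
  · left
    refine ⟨by rw [← Nat.card_eq_fintype_card]; exact h1, ?_⟩
    rw [MulAction.is_two_pretransitive_iff]
    intro a b c d hab hcd
    obtain ⟨s, hs1, hs2⟩ := h2 a b c d hab hcd
    exact ⟨e'.symm s, hs1, hs2⟩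
  · right
    refine ⟨by rw [← Nat.card_eq_fintype_card]; exact h1, fun α => ?_⟩
    rw [← h2 α]
    refine Nat.card_congr (Equiv.ofBijective
      (fun x => ⟨e' x.1, ?_⟩) ⟨?_, ?_⟩)
    · rw [MulAction.mem_stabilizer_iff, hsmul, MulEquiv.symm_apply_apply]
      exact x.2
    · intro a b hab
      apply Subtype.ext
      apply e'.injective
      exact congrArg Subtype.val hab
    · rintro ⟨s, hs⟩
      refine ⟨⟨e'.symm s, hs⟩, ?_⟩
      apply Subtype.ext
      simp

end Cfsg.Agent.S3391
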