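import Cfsg.Statements.S3412
import Mathlib
import Cfsg.Agent.Lib.Psl33Abs

set_option autoImplicit false
open Cfsg

namespace Cfsg.Agent.S3412

/-- Let H be a finite group whose commuting graph (vertices the non-identity elements, two joined when they commute) is isomorphic to that of PSL_3(3): there is a bijection between the non-identity elements of H and of PSL_3(3) under which two elements commute exactly when their images do. Then H ≅ PSL_3(3). -/
theorem result {H : Type*} [Group H] [Finite H]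
    (f : {h : H // h ≠ 1} ≃ {g : Matrix.ProjectiveSpecialLinearGroup (Fin 3) (ZMod 3) // g ≠ 1})
    (hf : ∀ x y : {h : H // h ≠ 1}, (x : H) * y = y * x ↔ ((f x) : Matrix.ProjectiveSpecialLinearGroup (Fin 3) (ZMod 3)) * (f y) = (f y) * (f x)) :
    Nonempty (H ≃* Matrix.ProjectiveSpecialLinearGroup (Fin 3) (ZMod 3)) := by
  classical
  have hcenter : Subgroup.center (Matrix.SpecialLinearGroup (Fin 3) (ZMod 3)) = ⊥ := by
    rw [Subgroup.eq_bot_iff_forall]
    intro A hA
    obtain ⟨r, hr, hr'⟩ := Matrix.SpecialLinearGroup.mem_center_iff.1 hA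
    have hr1 : r = 1 := by
      have hall : ∀ s : ZMod 3, s ^ 3 = 1 → s = 1 := by decide
      apply hall
      simpa using hr
    apply Subtype.ext
    rw [← hr', hr1]
    simp
  let π₀ : Matrix.SpecialLinearGroup (Fin 3) (ZMod 3) →*
      Matrix.ProjectiveSpecialLinearGroup (Fin 3) (ZMod 3) := QuotientGroup.mk' _
  have hbij : Function.Bijective π₀ := by
    refine ⟨?_, QuotientGroup.mk'_surjective _⟩
    rw [← MonoidHom.ker_eq_bot_iff]
    show (QuotientGroup.mk' _).ker = ⊥
    rw [QuotientGroup.ker_mk']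
    exact hcenter
  let e : Matrix.SpecialLinearGroup (Fin 3) (ZMod 3) ≃*
      Matrix.ProjectiveSpecialLinearGroup (Fin 3) (ZMod 3) := MulEquiv.ofBijective π₀ hbij
  let e' : {g : Matrix.ProjectiveSpecialLinearGroup (Fin 3) (ZMod 3) // g ≠ 1} ≃
      {g : Matrix.SpecialLinearGroup (Fin 3) (ZMod 3) // g ≠ 1} :=
    e.symm.toEquiv.subtypeEquiv (fun g => by simp)
  have he' : ∀ x y : {g : Matrix.ProjectiveSpecialLinearGroup (Fin 3) (ZMod 3) // g ≠ 1},
      (x : Matrix.ProjectiveSpecialLinearGroup (Fin 3) (ZMod 3)) * y = y * x ↔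
        ((e' x) : Matrix.SpecialLinearGroup (Fin 3) (ZMod 3)) * (e' y) = (e' y) * (e' x) := by
    intro x y
    show _ ↔ e.symm x.1 * e.symm y.1 = e.symm y.1 * e.symm x.1
    rw [← map_mul, ← map_mul]
    exact e.symm.injective.eq_iff.symm
  let hH : Cfsg.Agent.Lib.Psl33Abs.Hyp H := Cfsg.Agent.Lib.Psl33Abs.hypOfEquiv (f.trans e')
    (fun x y => (hf x y).trans (he' _ _))
  let hS : Cfsg.Agent.Lib.Psl33Abs.Hyp (Matrix.SpecialLinearGroup (Fin 3) (ZMod 3)) :=
    Cfsg.Agent.Lib.Psl33Abs.hypOfEquiv (Equiv.refl _) (fun _ _ => Iff.rfl)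
  obtain ⟨i⟩ := Cfsg.Agent.Lib.Psl33Abs.iso hH hS
  exact ⟨i.trans e⟩

end Cfsg.Agent.S3412
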