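import Cfsg.Statements.S3413
import Mathlib
import Cfsg.Agent.Lib.CommGraph

set_option autoImplicit false
open Cfsg

namespace Cfsg.Agent.S3413

/-- Let H be a finite group whose commuting graph (vertices the non-identity elements, two joined when they commute) is isomorphic to that of the Mathieu group M_11: there is a bijection between the non-identity elements of H and of M_11 under which two elements commute exactly when their images do. Then H ≅ M_11. -/
theorem result {H : Type*} [Group H] [Finite H]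
    (f : {h : H // h ≠ 1} ≃ {g : ↥Cfsg.Spor.M11 // g ≠ 1})
    (hf : ∀ x y : {h : H // h ≠ 1}, (x : H) * y = y * x ↔ ((f x) : ↥Cfsg.Spor.M11) * (f y) = (f y) * (f x)) :
    Nonempty (H ≃* ↥Cfsg.Spor.M11) := by
  have hc : Nat.card H = 7920 := by
    rw [Cfsg.Agent.Lib.CommGraph.card_eq_of_equiv f, Cfsg.Agent.Lib.M11Chain.card_M11]
  have hcM : Nat.card ↥Cfsg.Spor.M11 = 7920 := Cfsg.Agent.Lib.M11Chain.card_M11
  haveI : Fact (Nat.Prime 11) := ⟨by norm_num⟩
  haveI : Fact (Nat.Prime 5) := ⟨by norm_num⟩
  have g11 : Cfsg.Agent.Lib.CommGraph.Good 11 ↥Cfsg.Spor.M11 := by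
    apply Cfsg.Agent.Lib.CommGraph.good_of_orders 11
    · rw [hcM]; norm_num
    · intro g q hq _ h
      have hq2 := hq.two_le
      have := Cfsg.Agent.Lib.CommGraph.orderOf_M11 g
      omega
  have g5 : Cfsg.Agent.Lib.CommGraph.Good 5 ↥Cfsg.Spor.M11 := by
    apply Cfsg.Agent.Lib.CommGraph.good_of_orders 5
    · rw [hcM]; norm_num
    · intro g q hq _ h
      have hq2 := hq.two_le
      have := Cfsg.Agent.Lib.CommGraph.orderOf_M11 g
      omega
  have h11 : Nat.card {g : H // orderOf g = 11} = 1440 := by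
    rw [Cfsg.Agent.Lib.CommGraph.card_order_transfer f hf (by norm_num) g11,
      Cfsg.Agent.Lib.M11Nse.card_order, Cfsg.Agent.Lib.M11Nse.cnt11]
  have h5 : Nat.card {g : H // orderOf g = 5} = 1584 := by
    rw [Cfsg.Agent.Lib.CommGraph.card_order_transfer f hf (by norm_num) g5,
      Cfsg.Agent.Lib.M11Nse.card_order, Cfsg.Agent.Lib.M11Nse.cnt5]
  have hG5 := Cfsg.Agent.Lib.CommGraph.good_transfer f hf (by norm_num) g5
  have hc5 : ∀ x : H, 5 ∣ orderOf x → orderOf x = 5 := by
    intro x hx
    have hx0 : orderOf x ≠ 0 := (orderOf_pos x).ne'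
    have hx1 : x ≠ 1 := by
      rintro rfl
      rw [orderOf_one] at hx
      omega
    set y := x ^ (orderOf x / 5) with hy
    have hyo : orderOf y = 5 := orderOf_pow_orderOf_div hx0 hx
    have hy1 : y ≠ 1 := by
      rintro h
      rw [h, orderOf_one] at hyo
      omega
    have hd := Cfsg.Agent.Lib.CommGraph.dvd_card_centralizer_self y
    rw [hyo] at hd
    have hgy := (hG5 y hy1 hd).2
    have hcomm : x * y = y * x := by
      rw [hy]
      exact (Commute.refl x).pow_right _
    exact Cfsg.Agent.Lib.CommGraph.order_of_good_centralizer (by norm_num) hx1 hcomm hgy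
  exact Cfsg.Agent.Lib.CommGraph.iso_of_simple (Cfsg.Agent.Lib.CommGraph.isSimple_of_counts' hc h11 h5 hc5) hc

end Cfsg.Agent.S3413
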