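import Mathlib
import Cfsg.Statements.S3495
import Cfsg.Agent.Lib.ExtPrim

set_option autoImplicit false
open Cfsg

namespace Cfsg.Agent.S3495

open MulAction Cfsg.Agent.Lib.ExtPrim

/-- Let a finite group G act faithfully and primitively on a finite set Ω with non-trivial point stabilizers, each acting primitively on every one of its orbits (an extremely primitive group), and suppose G has an elementary abelian normal p-subgroup N acting regularly on Ω (affine type). Then every non-trivial subgroup M of a point stabilizer G_α that is normal in G_α has the same orbits on Ω as G_α, and normalizes no subgroup of N other than 1 and N. -/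
theorem result {G : Type*} [Group G] [Finite G] {Ω : Type*} [Fintype Ω] [MulAction G Ω] [FaithfulSMul G Ω] (hprim : MulAction.IsPreprimitive G Ω) (hH : ∀ α : Ω, MulAction.stabilizer G α ≠ ⊥) (hep : ∀ (α : Ω) (ω : Ω), MulAction.IsPreprimitive (MulAction.stabilizer G α) (MulAction.orbit (MulAction.stabilizer G α) ω))
    (N : Subgroup G) [N.Normal] (hNc : IsMulCommutative N) (p : ℕ) (hp : p.Prime) (hNp : ∀ n ∈ N, n ^ p = 1)
    (hNtr : MulAction.IsPretransitive N Ω) (hNreg : ∀ ω : Ω, MulAction.stabilizer N ω = ⊥) (α : Ω) (M : Subgroup G) (hM : M ≠ ⊥) (hMle : M ≤ MulAction.stabilizer G α)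
    (hMn : MulAction.stabilizer G α ≤ Subgroup.normalizer (M : Set G)) :
    (∀ ω : Ω, MulAction.orbit M ω = MulAction.orbit (MulAction.stabilizer G α) ω) ∧
    (∀ L : Subgroup G, L ≤ N → M ≤ Subgroup.normalizer (L : Set G) → L = ⊥ ∨ L = N) := by
  classical
  set S := stabilizer G α with hS
  have hcomm : ∀ x ∈ N, ∀ y ∈ N, x * y = y * x := by
    intro x hx y hy
    exact congrArg Subtype.val (hNc.is_comm.comm (⟨x, hx⟩ : N) ⟨y, hy⟩)
  -- regularity
  have hreg : ∀ a ∈ N, ∀ b ∈ N, a • α = b • α → a = b := by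
    intro a ha b hb hab
    have : (⟨b, hb⟩ : N)⁻¹ * ⟨a, ha⟩ ∈ stabilizer N α := by
      rw [mem_stabilizer_iff, mul_smul]
      show (⟨b, hb⟩ : N)⁻¹ • (a • α) = α
      rw [hab]
      exact inv_smul_smul (⟨b, hb⟩ : N) α
    rw [hNreg, Subgroup.mem_bot] at this
    have h2 := inv_mul_eq_one.1 this
    exact (congrArg Subtype.val h2).symm
  -- any element of `G` is `n * s`
  have hdec : ∀ g : G, ∃ n ∈ N, n⁻¹ * g ∈ S := by
    intro g
    obtain ⟨⟨n, hn⟩, h⟩ := hNtr.exists_smul_eq α (g • α)
    have h' : n • α = g • α := h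
    refine ⟨n, hn, ?_⟩
    rw [hS, mem_stabilizer_iff, mul_smul, ← h', inv_smul_smul]
  -- normality criterion
  have hnormal : ∀ L : Subgroup G, L ≤ N → (∀ s ∈ S, ∀ l ∈ L, s * l * s⁻¹ ∈ L) → L.Normal := by
    intro L hLN hSL
    constructor
    intro l hl g
    obtain ⟨n, hn, hs⟩ := hdec g
    have h1 := hSL _ hs l hl
    have h2 : g * l * g⁻¹ = n * ((n⁻¹ * g) * l * (n⁻¹ * g)⁻¹) * n⁻¹ := by group
    rw [h2]
    have h3 := hcomm n hn _ (hLN h1)
    rw [h3, mul_inv_cancel_right]
    exact h1
  -- lemma: `M` fixes only `α`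
  have hfix : ∀ ω : Ω, (∀ m ∈ M, m • ω = ω) → ω = α := by
    intro ω hω
    obtain ⟨⟨n, hn⟩, hnω⟩ := hNtr.exists_smul_eq α ω
    have hnω' : n • α = ω := hnω
    let L : Subgroup G := N ⊓ Subgroup.centralizer (M : Set G)
    have hLN : L ≤ N := inf_le_left
    have hmcomm : ∀ m ∈ M, m * n * m⁻¹ = n := by
      intro m hm
      apply hreg _ (‹N.Normal›.conj_mem n hn m) _ hn
      have hmα : m⁻¹ • α = α := by
        have : m⁻¹ ∈ S := hMle (M.inv_mem hm)
        exact this
      rw [mul_smul, mul_smul, hmα, hnω', hω m hm]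
    have hnL : n ∈ L := by
      refine Subgroup.mem_inf.2 ⟨hn, ?_⟩
      rw [Subgroup.mem_centralizer_iff]
      intro m hm
      have := hmcomm m hm
      rw [mul_inv_eq_iff_eq_mul] at this
      exact this
    haveI hLn : L.Normal := by
      apply hnormal L hLN
      intro s hs l hl
      obtain ⟨hl1, hl2⟩ := Subgroup.mem_inf.1 hl
      refine Subgroup.mem_inf.2 ⟨‹N.Normal›.conj_mem l hl1 s, ?_⟩
      rw [Subgroup.mem_centralizer_iff] at hl2 ⊢
      intro m hm
      have hm' : s⁻¹ * m * s ∈ M := by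
        have h1 := (Subgroup.mem_normalizer_iff.1 (hMn (S.inv_mem hs)) m).1 hm
        simpa using h1
      have h2 := hl2 _ hm'
      have : m * (s * l * s⁻¹) = s * ((s⁻¹ * m * s) * l) * s⁻¹ := by group
      rw [this, h2]
      group
    rcases normal_trivial_or_transitive hprim L with h | h
    · have h1 := h n hnL α
      rw [hnω'] at h1
      exact h1
    · exfalso
      apply hM
      rw [eq_bot_iff]
      intro m hm
      rw [Subgroup.mem_bot]
      apply FaithfulSMul.eq_of_smul_eq_smul (α := Ω)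
      intro x
      obtain ⟨⟨l, hl⟩, hlx⟩ := h.exists_smul_eq α x
      have hlx' : l • α = x := hlx
      rw [one_smul, ← hlx', ← mul_smul]
      have hc : m * l = l * m := by
        have := (Subgroup.mem_inf.1 hl).2
        rw [Subgroup.mem_centralizer_iff] at this
        exact (this m hm)
      rw [hc, mul_smul]
      have : m • α = α := hMle hm
      rw [this]
  -- part one
  have hpart1 : ∀ ω : Ω, orbit M ω = orbit S ω := by
    intro ω
    apply Set.Subset.antisymm
    · rintro _ ⟨⟨m, hm⟩, rfl⟩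
      exact ⟨⟨m, hMle hm⟩, rfl⟩
    · intro x hx
      let M' : Subgroup S := M.subgroupOf S
      haveI hM' : M'.Normal := by
        rw [Subgroup.normal_subgroupOf_iff_le_normalizer hMle]
        exact hMn
      rcases orbit_dichotomy ω (hep α ω) M' with h | h
      · have hω : ω = α := by
          apply hfix
          intro m hm
          exact h ⟨m, hMle hm⟩ (by simpa [M', Subgroup.mem_subgroupOf] using hm)
        subst hω
        obtain ⟨⟨s, hs⟩, rfl⟩ := hx
        have : s • ω = ω := hs
        show s • ω ∈ _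
        rw [this]
        exact mem_orbit_self ω
      · obtain ⟨⟨m, hm1⟩, hm2, hm3⟩ := h x hx
        exact ⟨⟨m, hm2⟩, hm3⟩
  refine ⟨hpart1, ?_⟩
  intro L hLN hML
  -- `S` normalizes `L`
  haveI hLn : L.Normal := by
    apply hnormal L hLN
    intro s hs l hl
    have h1 : s • (l • α) ∈ orbit M (l • α) := by
      rw [hpart1]
      exact ⟨⟨s, hs⟩, rfl⟩
    obtain ⟨⟨m, hm⟩, hm'⟩ := h1
    have hm'' : m • (l • α) = s • (l • α) := hm'
    have hsα : s⁻¹ • α = α := S.inv_mem hs
    have hmα : m⁻¹ • α = α := hMle (M.inv_mem hm)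
    have h2 : s * l * s⁻¹ = m * l * m⁻¹ := by
      apply hreg _ (‹N.Normal›.conj_mem l (hLN hl) s) _ (‹N.Normal›.conj_mem l (hLN hl) m)
      rw [mul_smul, mul_smul, hsα, mul_smul, mul_smul, hmα, hm'']
    rw [h2]
    exact (Subgroup.mem_normalizer_iff.1 (hML hm) l).1 hl
  rcases normal_trivial_or_transitive hprim L with h | h
  · left
    rw [eq_bot_iff]
    intro l hl
    rw [Subgroup.mem_bot]
    apply FaithfulSMul.eq_of_smul_eq_smul (α := Ω)
    intro x
    rw [h l hl x, one_smul]
  · right
    apply le_antisymm hLN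
    intro n hn
    obtain ⟨⟨l, hl⟩, hlx⟩ := h.exists_smul_eq α (n • α)
    have hlx' : l • α = n • α := hlx
    rw [← hreg l (hLN hl) n hn hlx']
    exact hl

end Cfsg.Agent.S3495
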