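import Mathlib
import Cfsg.Statements.S3496
import Cfsg.Agent.Lib.ExtPrim
import Cfsg.Agent.Lib.ExtPrim2
import Cfsg.Agent.Lib.PCore
import Cfsg.Agent.Lib.MinNormalPrim

set_option autoImplicit false
open Cfsg

namespace Cfsg.Agent.S3496

open MulAction Cfsg.Agent.Lib.ExtPrim Cfsg.Agent.Lib.ExtPrim2 Cfsg.Agent.Lib.MinNormalPrim


/-- The field generated by an abelian normal subgroup. -/
theorem module_core {H M : Type*} [Group H] [Finite H] [AddCommGroup M] {p : ℕ} [hp : Fact p.Prime]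
  [Module (ZMod p) M] [Finite M] (d : ℕ) (hcard : Nat.card M = p^d) (hd : 0<d)
  (ρ : H →* Module.End (ZMod p) M) (hρ : Function.Injective ρ)
  (hirr : ∀ W : Submodule (ZMod p) M, (∀ h w, w∈W → ρ h w ∈ W) → W=⊥ ∨ W=⊤)
  (N : Subgroup H) (hNn : N.Normal) (hN : N ≠ ⊥) (hcomm : ∀ a∈N, ∀b∈N, a*b=b*a)
  (q : ℕ) (hq : q.Prime) (hexp : ∀ a∈N, a^q=1)
  (horb : ∀ v : M, v ≠ 0 → ∀ h : H, ∃ n ∈ N, ρ h v = ρ n v)
  (hcent : ∀ h : H, (∀ n ∈ N, h * n = n * h) → h ∈ N) :
  Nat.card N = q ∧ q ∣ p^d-1 ∧ (∀ i, 0 < i → i < d → ¬ q ∣ p^i-1) ∧ (∃ g:H, N ⊔ Subgroup.zpowers g = ⊤) ∧ Nat.card H ∣ q*d := by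
  classical
  have hM1 : 1 < Nat.card M := by
    rw [hcard]
    exact Nat.one_lt_pow hd.ne' hp.out.one_lt
  haveI : Nontrivial M := (Finite.one_lt_card_iff_nontrivial).mp hM1
  let S : Set (Module.End (ZMod p) M) := ρ '' N
  have hScomm : ∀ a ∈ S, ∀ b ∈ S, a * b = b * a := by
    rintro _ ⟨a, ha, rfl⟩ _ ⟨b, hb, rfl⟩
    rw [← map_mul, ← map_mul, hcomm a ha b hb]
  let E : Subalgebra (ZMod p) (Module.End (ZMod p) M) := Algebra.adjoin (ZMod p) S
  have hSE : ∀ n ∈ N, ρ n ∈ E := fun n hn => Algebra.subset_adjoin ⟨n, hn, rfl⟩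
  have hEc : ∀ y ∈ E, ∀ n ∈ N, y * ρ n = ρ n * y := by
    intro y hy n hn
    induction hy using Algebra.adjoin_induction with
    | mem x hx => exact hScomm x hx _ ⟨n, hn, rfl⟩
    | algebraMap r => exact (Algebra.commutes r _)
    | add x y _ _ hx hy => rw [add_mul, mul_add, hx, hy]
    | mul x y _ _ hx hy => rw [mul_assoc, hy, ← mul_assoc, hx, mul_assoc]
  have hspan : ∀ v : M, v ≠ 0 → Submodule.span (ZMod p) ((fun n => ρ n v) '' (N : Set H)) = ⊤ := by
    intro v hv
    set W := Submodule.span (ZMod p) ((fun n => ρ n v) '' (N : Set H)) with hW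
    have hinv : ∀ h w, w ∈ W → ρ h w ∈ W := by
      intro h w hw
      induction hw using Submodule.span_induction with
      | mem x hx =>
        obtain ⟨n, hn, rfl⟩ := hx
        obtain ⟨n', hn', hnn'⟩ := horb v hv h
        apply Submodule.subset_span
        refine ⟨h * n * h⁻¹ * n', N.mul_mem (hNn.conj_mem n hn h) hn', ?_⟩
        have h1 : ρ h⁻¹ (ρ n' v) = v := by
          rw [← hnn']
          change (ρ h⁻¹ * ρ h) v = v
          rw [← map_mul, inv_mul_cancel, map_one]
          rfl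
        have h2 : ρ (h * n * h⁻¹ * n') v = ρ h (ρ n (ρ h⁻¹ (ρ n' v))) := by
          rw [map_mul, map_mul, map_mul]
          rfl
        change ρ (h * n * h⁻¹ * n') v = ρ h (ρ n v)
        rw [h2, h1]
      | zero => simp
      | add x y _ _ hx hy => rw [map_add]; exact W.add_mem hx hy
      | smul c x _ hx => rw [map_smul]; exact W.smul_mem c hx
    rcases hirr W hinv with h | h
    · exfalso
      have h1 : v ∈ W := by
        apply Submodule.subset_span
        exact ⟨1, N.one_mem, by simp⟩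
      rw [h, Submodule.mem_bot] at h1
      exact hv h1
    · exact h
  have hinj : ∀ y ∈ E, ∀ v : M, v ≠ 0 → y v = 0 → y = 0 := by
    intro y hy v hv hyv
    apply LinearMap.ext
    intro w
    have hw : w ∈ Submodule.span (ZMod p) ((fun n => ρ n v) '' (N : Set H)) := by
      rw [hspan v hv]
      trivial
    induction hw using Submodule.span_induction with
    | mem x hx =>
      obtain ⟨n, hn, rfl⟩ := hx
      have h1 := LinearMap.congr_fun (hEc y hy n hn) v
      change y (ρ n v) = ρ n (y v) at h1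
      rw [h1, hyv, map_zero]
      rfl
    | zero => simp
    | add x y' _ _ hx hy' => rw [map_add, hx, hy']; simp
    | smul c x _ hx => rw [map_smul, hx]; simp
  letI instCR : CommRing E := Algebra.adjoinCommRingOfComm (ZMod p) hScomm
  haveI hfin : Finite (Module.End (ZMod p) M) :=
    Finite.of_injective (fun f => (f : M → M)) DFunLike.coe_injective
  haveI : Finite E := inferInstance
  haveI : Nontrivial E := inferInstance
  haveI : NoZeroDivisors E := by
    refine ⟨fun {a b} hab => ?_⟩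
    by_cases hb : b = 0
    · exact Or.inr hb
    · left
      have hb' : b.1 ≠ 0 := fun h => hb (Subtype.ext h)
      obtain ⟨w, hw⟩ : ∃ w, b.1 w ≠ 0 := by
        by_contra hcon
        push Not at hcon
        exact hb' (LinearMap.ext hcon)
      have h1 : a.1 (b.1 w) = 0 := by
        have h2 := congrArg Subtype.val hab
        have h3 := LinearMap.congr_fun h2 w
        exact h3
      exact Subtype.ext (hinj a.1 a.2 _ hw h1)
  haveI : IsDomain E := NoZeroDivisors.to_isDomain E
  have hfield : IsField E := Finite.isDomain_to_isField E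
  letI instF : Field E := hfield.toField
  -- the cardinality
  obtain ⟨v0, hv0⟩ := exists_ne (0 : M)
  have hcardE : Nat.card E = p ^ d := by
    rw [← hcard]
    apply Nat.card_congr
    refine Equiv.ofBijective (fun y => y.1 v0) ⟨?_, ?_⟩
    · intro a b hab
      apply Subtype.ext
      have h1 : (a.1 - b.1) v0 = 0 := by
        rw [LinearMap.sub_apply]
        exact sub_eq_zero.mpr hab
      exact sub_eq_zero.mp (hinj _ (E.sub_mem a.2 b.2) v0 hv0 h1)
    · intro w
      have hw : w ∈ Submodule.span (ZMod p) ((fun n => ρ n v0) '' (N : Set H)) := by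
        rw [hspan v0 hv0]
        trivial
      induction hw using Submodule.span_induction with
      | mem x hx =>
        obtain ⟨n, hn, rfl⟩ := hx
        exact ⟨⟨ρ n, hSE n hn⟩, rfl⟩
      | zero => exact ⟨0, rfl⟩
      | add x y' _ _ hx hy' =>
        obtain ⟨a, ha⟩ := hx
        obtain ⟨b, hb⟩ := hy'
        refine ⟨⟨a.1 + b.1, E.add_mem a.2 b.2⟩, ?_⟩
        simp only [LinearMap.add_apply]
        simp only at ha hb
        rw [ha, hb]
      | smul c x _ hx =>
        obtain ⟨a, ha⟩ := hx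
        refine ⟨⟨c • a.1, E.smul_mem a.2 c⟩, ?_⟩
        simp only [LinearMap.smul_apply]
        simp only at ha
        rw [ha]
  -- the embedding of `N` in the field
  let f : N →* E :=
    { toFun := fun n => ⟨ρ n, hSE n n.2⟩
      map_one' := by
        apply Subtype.ext
        exact map_one ρ
      map_mul' := by
        intro a b
        apply Subtype.ext
        exact map_mul ρ (a : H) (b : H) }
  have hf : Function.Injective f := by
    intro a b hab
    apply Subtype.ext
    apply hρ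
    exact congrArg Subtype.val hab
  haveI hNcyc : IsCyclic N := isCyclic_of_subgroup_isDomain f hf
  have hfactq : Fact q.Prime := ⟨hq⟩
  have hNcard : Nat.card N = q := by
    obtain ⟨g, hg⟩ := IsCyclic.exists_generator (α := N)
    have h1 : orderOf g = Nat.card N := orderOf_eq_card_of_forall_mem_zpowers hg
    have h2 : orderOf g ∣ q := orderOf_dvd_of_pow_eq_one (Subtype.ext (hexp g g.2))
    rcases (Nat.dvd_prime hq).mp h2 with h3 | h3
    · exfalso
      apply hN
      have h4 : Nat.card N = 1 := by rw [← h1, h3]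
      exact Subgroup.eq_bot_of_card_eq N h4
    · rw [← h1, h3]
  haveI := Fintype.ofFinite E
  have hcardE' : Fintype.card E = p ^ d := by rw [← Nat.card_eq_fintype_card]; exact hcardE
  have hqd : q ∣ p ^ d - 1 := by
    obtain ⟨n0, hn0⟩ : ∃ n0 : N, n0 ≠ 1 := by
      haveI : Nontrivial N := (Subgroup.nontrivial_iff_ne_bot _).mpr hN
      exact exists_ne 1
    have hy1 : f n0 ≠ 1 := by
      intro h
      apply hn0
      apply hf
      rw [h, map_one]
    have hyq : f n0 ^ q = 1 := by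
      rw [← map_pow]
      have : n0 ^ q = 1 := Subtype.ext (hexp n0 n0.2)
      rw [this, map_one]
    have hy0 : f n0 ≠ 0 := by
      intro h
      rw [h, zero_pow hq.ne_zero] at hyq
      exact zero_ne_one hyq
    have h1 := FiniteField.pow_card_sub_one_eq_one (f n0) hy0
    rw [hcardE'] at h1
    rw [← orderOf_eq_prime hyq hy1]
    exact orderOf_dvd_of_pow_eq_one h1
  have hi : ∀ i, 0 < i → i < d → ¬ q ∣ p ^ i - 1 := by
    intro i hi hid hqi
    have hpi : 1 ≤ p ^ i := Nat.one_le_pow _ _ hp.out.pos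
    have hN' : ∀ a ∈ N, a ^ (p ^ i) = a := by
      intro a ha
      obtain ⟨c, hc⟩ := hqi
      have h1 : p ^ i = q * c + 1 := by omega
      rw [h1, pow_succ, pow_mul, hexp a ha, one_pow, one_mul]
    haveI hchar : CharP E p := charP_of_injective_algebraMap (algebraMap (ZMod p) E).injective p
    have hE : ∀ x, ∀ hx : x ∈ E, (⟨x, hx⟩ : E) ^ (p ^ i) = ⟨x, hx⟩ := by
      intro x hx
      induction hx using Algebra.adjoin_induction with
      | mem x hx =>
        obtain ⟨n, hn, rfl⟩ := hx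
        have h1 : (⟨ρ n, Algebra.subset_adjoin ⟨n, hn, rfl⟩⟩ : E) = f ⟨n, hn⟩ := rfl
        rw [h1, ← map_pow]
        congr 1
        exact Subtype.ext (hN' n hn)
      | algebraMap r =>
        have h1 : (⟨algebraMap (ZMod p) (Module.End (ZMod p) M) r, E.algebraMap_mem r⟩ : E) = algebraMap (ZMod p) E r := rfl
        rw [h1, ← map_pow, ZMod.pow_card_pow]
      | add x y hx hy ihx ihy =>
        have h1 : (⟨x + y, E.add_mem hx hy⟩ : E) = ⟨x, hx⟩ + ⟨y, hy⟩ := rfl
        rw [h1, add_pow_char_pow, ihx, ihy]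
      | mul x y hx hy ihx ihy =>
        have h1 : (⟨x * y, E.mul_mem hx hy⟩ : E) = ⟨x, hx⟩ * ⟨y, hy⟩ := rfl
        rw [h1, mul_pow, ihx, ihy]
    have hunits : ∀ x : Eˣ, x ^ (p ^ i - 1) = 1 := by
      intro x
      apply Units.ext
      have h1 : (x : E) ^ (p ^ i) = x := hE x.1.1 x.1.2
      have h2 : (x : E) ^ (p ^ i - 1) * x = 1 * x := by
        rw [← pow_succ, Nat.sub_add_cancel hpi, h1, one_mul]
      have h3 : (x : E) ≠ 0 := x.ne_zero
      simpa using mul_right_cancel₀ h3 h2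
    have hdvd := (FiniteField.forall_pow_eq_one_iff E (p ^ i - 1)).mp hunits
    rw [hcardE'] at hdvd
    have hpos : 0 < p ^ i - 1 := by
      have : 1 < p ^ i := Nat.one_lt_pow hi.ne' hp.out.one_lt
      omega
    have hle := Nat.le_of_dvd hpos hdvd
    have h4 : p ^ i < p ^ d := Nat.pow_lt_pow_right hp.out.one_lt hid
    have : 1 ≤ p ^ d := Nat.one_le_pow _ _ hp.out.pos
    omega
  -- conjugation
  have hinvmul : ∀ h : H, ρ h⁻¹ * ρ h = 1 := fun h => by rw [← map_mul, inv_mul_cancel, map_one]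
  have hmulinv : ∀ h : H, ρ h * ρ h⁻¹ = 1 := fun h => by rw [← map_mul, mul_inv_cancel, map_one]
  have hconjmem : ∀ h : H, ∀ y ∈ E, ρ h * y * ρ h⁻¹ ∈ E := by
    intro h y hy
    induction hy using Algebra.adjoin_induction with
    | mem x hx =>
      obtain ⟨n, hn, rfl⟩ := hx
      rw [← map_mul, ← map_mul]
      exact hSE _ (hNn.conj_mem n hn h)
    | algebraMap r =>
      rw [← Algebra.commutes, mul_assoc, hmulinv, mul_one]
      exact E.algebraMap_mem r
    | add x y _ _ hx hy =>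
      rw [mul_add, add_mul]
      exact E.add_mem hx hy
    | mul x y _ _ hx hy =>
      have h1 : ρ h * (x * y) * ρ h⁻¹ = (ρ h * x * ρ h⁻¹) * (ρ h * y * ρ h⁻¹) := by
        calc ρ h * (x * y) * ρ h⁻¹ = ρ h * x * 1 * y * ρ h⁻¹ := by noncomm_ring
          _ = ρ h * x * (ρ h⁻¹ * ρ h) * y * ρ h⁻¹ := by rw [hinvmul]
          _ = _ := by noncomm_ring
      rw [h1]
      exact E.mul_mem hx hy
  let conjE : H → (E ≃ₐ[ZMod p] E) := fun h =>
    { toFun := fun y => ⟨ρ h * y.1 * ρ h⁻¹, hconjmem h y.1 y.2⟩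
      invFun := fun y => ⟨ρ h⁻¹ * y.1 * ρ h, by
        have := hconjmem h⁻¹ y.1 y.2
        rwa [inv_inv] at this⟩
      left_inv := by
        intro y
        apply Subtype.ext
        change ρ h⁻¹ * (ρ h * y.1 * ρ h⁻¹) * ρ h = y.1
        calc ρ h⁻¹ * (ρ h * y.1 * ρ h⁻¹) * ρ h = (ρ h⁻¹ * ρ h) * y.1 * (ρ h⁻¹ * ρ h) := by noncomm_ring
          _ = y.1 := by rw [hinvmul]; noncomm_ring
      right_inv := by
        intro y
        apply Subtype.ext
        change ρ h * (ρ h⁻¹ * y.1 * ρ h) * ρ h⁻¹ = y.1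
        calc ρ h * (ρ h⁻¹ * y.1 * ρ h) * ρ h⁻¹ = (ρ h * ρ h⁻¹) * y.1 * (ρ h * ρ h⁻¹) := by noncomm_ring
          _ = y.1 := by rw [hmulinv]; noncomm_ring
      map_mul' := by
        intro x y
        apply Subtype.ext
        change ρ h * (x.1 * y.1) * ρ h⁻¹ = (ρ h * x.1 * ρ h⁻¹) * (ρ h * y.1 * ρ h⁻¹)
        calc ρ h * (x.1 * y.1) * ρ h⁻¹ = ρ h * x.1 * 1 * y.1 * ρ h⁻¹ := by noncomm_ring
          _ = ρ h * x.1 * (ρ h⁻¹ * ρ h) * y.1 * ρ h⁻¹ := by rw [hinvmul]
          _ = _ := by noncomm_ring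
      map_add' := by
        intro x y
        apply Subtype.ext
        change ρ h * (x.1 + y.1) * ρ h⁻¹ = (ρ h * x.1 * ρ h⁻¹) + (ρ h * y.1 * ρ h⁻¹)
        noncomm_ring
      commutes' := by
        intro r
        apply Subtype.ext
        change ρ h * (algebraMap (ZMod p) (Module.End (ZMod p) M) r) * ρ h⁻¹ = algebraMap (ZMod p) (Module.End (ZMod p) M) r
        rw [← Algebra.commutes, mul_assoc, hmulinv, mul_one] }
  let Φ : H →* (E ≃ₐ[ZMod p] E) := MonoidHom.mk' conjE (by
    intro a b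
    apply AlgEquiv.ext
    intro y
    apply Subtype.ext
    change ρ (a * b) * y.1 * ρ (a * b)⁻¹ = ρ a * (ρ b * y.1 * ρ b⁻¹) * ρ a⁻¹
    rw [map_mul, mul_inv_rev, map_mul]
    noncomm_ring)
  have hker : Φ.ker = N := by
    ext h
    rw [MonoidHom.mem_ker]
    constructor
    · intro hΦ
      apply hcent
      intro n hn
      have h1 := congrArg (fun e : E ≃ₐ[ZMod p] E => (e ⟨ρ n, hSE n hn⟩ : E).1) hΦ
      change ρ h * ρ n * ρ h⁻¹ = ρ n at h1
      rw [← map_mul, ← map_mul] at h1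
      have h2 := hρ h1
      exact mul_inv_eq_iff_eq_mul.mp h2
    · intro hh
      apply AlgEquiv.ext
      intro y
      apply Subtype.ext
      change ρ h * y.1 * ρ h⁻¹ = y.1
      rw [← hEc y.1 y.2 h hh, mul_assoc, hmulinv, mul_one]
  have hfinrank : Module.finrank (ZMod p) E = d := by
    have h1 := Module.natCard_eq_pow_finrank (K := ZMod p) (V := E)
    rw [hcardE, Nat.card_zmod] at h1
    exact (Nat.pow_right_injective hp.out.two_le h1).symm
  have hGal : Nat.card (E ≃ₐ[ZMod p] E) = d := by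
    rw [IsGalois.card_aut_eq_finrank, hfinrank]
  have hrange : Nat.card Φ.range ∣ d := by
    rw [← hGal]
    exact Subgroup.card_subgroup_dvd_card _
  have hcardH : Nat.card H = Nat.card Φ.range * q := by
    rw [← Subgroup.index_ker Φ, hker, ← hNcard]
    exact (Subgroup.index_mul_card N).symm
  refine ⟨hNcard, hqd, hi, ?_, ?_⟩
  · obtain ⟨r, hr⟩ := IsCyclic.exists_generator (α := Φ.range)
    obtain ⟨g, hg⟩ := r.2
    refine ⟨g, ?_⟩
    rw [eq_top_iff]
    intro x _
    obtain ⟨k, hk⟩ := Subgroup.mem_zpowers_iff.mp (hr ⟨Φ x, x, rfl⟩)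
    have h1 : Φ x = Φ g ^ k := by
      have := congrArg Subtype.val hk
      simpa [hg] using this.symm
    have h2 : x * (g ^ k)⁻¹ ∈ N := by
      rw [← hker, MonoidHom.mem_ker, map_mul, map_inv, map_zpow, h1, mul_inv_cancel]
    have h3 : x = (x * (g ^ k)⁻¹) * g ^ k := by group
    rw [h3]
    exact Subgroup.mul_mem_sup h2 (Subgroup.zpow_mem_zpowers g k)
  · rw [hcardH, mul_comm]
    exact Nat.mul_dvd_mul_left q hrange


/-- The multiplicative form of the previous theorem, with the module structure given. -/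
theorem mult_core_aux {H V : Type*} [Group H] [Finite H] [CommGroup V] [Finite V] {p : ℕ}
    [hp : Fact p.Prime] [Module (ZMod p) (Additive V)] (d : ℕ) (hcard : Nat.card V = p ^ d) (hd : 0 < d)
    (τ : H →* MulAut V) (hτ : Function.Injective τ)
    (hirr : ∀ U : Subgroup V, (∀ h : H, ∀ u ∈ U, τ h u ∈ U) → U = ⊥ ∨ U = ⊤)
    (N : Subgroup H) (hNn : N.Normal) (hN : N ≠ ⊥) (hcomm : ∀ a ∈ N, ∀ b ∈ N, a * b = b * a)
    (q : ℕ) (hq : q.Prime) (hexp : ∀ a ∈ N, a ^ q = 1)
    (horb : ∀ v : V, v ≠ 1 → ∀ h : H, ∃ n ∈ N, τ h v = τ n v)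
    (hcent : ∀ h : H, (∀ n ∈ N, h * n = n * h) → h ∈ N) :
    Nat.card N = q ∧ q ∣ p ^ d - 1 ∧ (∀ i, 0 < i → i < d → ¬ q ∣ p ^ i - 1) ∧
      (∃ g : H, N ⊔ Subgroup.zpowers g = ⊤) ∧ Nat.card H ∣ q * d := by
  haveI : Finite (Additive V) := inferInstanceAs (Finite V)
  have hform : ∀ (e : MulAut V) (v : Additive V),
      (MonoidHom.toAdditive e.toMonoidHom).toZModLinearMap p v = Additive.ofMul (e (Additive.toMul v)) :=
    fun e v => rfl
  let ρ : H →* Module.End (ZMod p) (Additive V) :=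
    { toFun := fun h => (MonoidHom.toAdditive (τ h).toMonoidHom).toZModLinearMap p
      map_one' := by
        apply LinearMap.ext
        intro v
        have : τ 1 = 1 := map_one τ
        rw [hform, this]
        rfl
      map_mul' := by
        intro a b
        apply LinearMap.ext
        intro v
        have : τ (a * b) = τ a * τ b := map_mul τ a b
        rw [hform, this]
        rfl }
  have hρ : ∀ h : H, ∀ v : V, ρ h (Additive.ofMul v) = Additive.ofMul (τ h v) := fun h v => rfl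
  refine module_core (M := Additive V) d (by
      rw [← hcard]
      exact Nat.card_congr Additive.toMul) hd ρ ?_ ?_ N hNn hN hcomm q hq hexp ?_ hcent
  · intro a b hab
    apply hτ
    apply MulEquiv.ext
    intro v
    have h1 := LinearMap.congr_fun hab (Additive.ofMul v)
    rw [hρ, hρ] at h1
    exact Additive.ofMul.injective h1
  · intro W hW
    let U : Subgroup V :=
      { carrier := {u | Additive.ofMul u ∈ W}
        one_mem' := W.zero_mem
        mul_mem' := fun {a b} ha hb => W.add_mem ha hb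
        inv_mem' := fun {a} ha => W.neg_mem ha }
    rcases hirr U (fun h u hu => hW h (Additive.ofMul u) hu) with h | h
    · left
      rw [eq_bot_iff]
      intro x hx
      have h1 : Additive.toMul x ∈ U := hx
      rw [h, Subgroup.mem_bot] at h1
      rw [Submodule.mem_bot]
      exact congrArg Additive.ofMul h1
    · right
      rw [eq_top_iff]
      intro x _
      have h1 : Additive.toMul x ∈ U := by rw [h]; trivial
      exact h1
  · intro v hv h
    have hv' : Additive.toMul v ≠ 1 := fun h1 => hv (congrArg Additive.ofMul h1)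
    obtain ⟨n, hn, hnv⟩ := horb _ hv' h
    refine ⟨n, hn, ?_⟩
    exact congrArg Additive.ofMul hnv

/-- The multiplicative form of the previous theorem. -/
theorem mult_core {H V : Type*} [Group H] [Finite H] [CommGroup V] [Finite V] {p : ℕ}
    [hp : Fact p.Prime] (d : ℕ) (hcard : Nat.card V = p ^ d) (hd : 0 < d) (hexpV : ∀ v : V, v ^ p = 1)
    (τ : H →* MulAut V) (hτ : Function.Injective τ)
    (hirr : ∀ U : Subgroup V, (∀ h : H, ∀ u ∈ U, τ h u ∈ U) → U = ⊥ ∨ U = ⊤)
    (N : Subgroup H) (hNn : N.Normal) (hN : N ≠ ⊥) (hcomm : ∀ a ∈ N, ∀ b ∈ N, a * b = b * a)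
    (q : ℕ) (hq : q.Prime) (hexp : ∀ a ∈ N, a ^ q = 1)
    (horb : ∀ v : V, v ≠ 1 → ∀ h : H, ∃ n ∈ N, τ h v = τ n v)
    (hcent : ∀ h : H, (∀ n ∈ N, h * n = n * h) → h ∈ N) :
    Nat.card N = q ∧ q ∣ p ^ d - 1 ∧ (∀ i, 0 < i → i < d → ¬ q ∣ p ^ i - 1) ∧
      (∃ g : H, N ⊔ Subgroup.zpowers g = ⊤) ∧ Nat.card H ∣ q * d := by
  have hpM : ∀ x : Additive V, p • x = 0 := by
    intro x
    have h1 := hexpV (Additive.toMul x)
    exact congrArg Additive.ofMul h1
  letI : Module (ZMod p) (Additive V) := AddCommGroup.zmodModule hpM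
  exact mult_core_aux d hcard hd τ hτ hirr N hNn hN hcomm q hq hexp horb hcent

/-- The soluble extremely primitive groups. Let a finite solvable group G act faithfully and primitively on a finite set Ω with p ^ d points (p prime), with non-trivial point stabilizers each acting primitively on every one of its orbits. Then there is a prime q such that every orbit of a point stabilizer G_α other than {α} has exactly q points, q divides p ^ d − 1 but no p ^ i − 1 with 0 < i < d, and G_α has a normal subgroup T of order q with G_α generated by T and one further element and the order of G_α dividing q·d (so G_α is cyclic of order q, or an extension of T by a cyclic group of order dividing d). -/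
theorem result {G : Type*} [Group G] [Finite G] {Ω : Type*} [Fintype Ω] [MulAction G Ω] [FaithfulSMul G Ω] [Group.IsSolvable G] (p d : ℕ) (hp : p.Prime) (hcard : Fintype.card Ω = p ^ d)
    (hprim : MulAction.IsPreprimitive G Ω) (hH : ∀ α : Ω, MulAction.stabilizer G α ≠ ⊥) (hep : ∀ (α : Ω) (ω : Ω), MulAction.IsPreprimitive (MulAction.stabilizer G α) (MulAction.orbit (MulAction.stabilizer G α) ω)) (α : Ω) :
    ∃ q : ℕ, q.Prime ∧ (∀ ω : Ω, ω ≠ α → Nat.card (MulAction.orbit (MulAction.stabilizer G α) ω) = q) ∧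
      q ∣ p ^ d - 1 ∧ (∀ i : ℕ, 0 < i → i < d → ¬ q ∣ p ^ i - 1) ∧
      ∃ T : Subgroup G, T ≤ MulAction.stabilizer G α ∧ MulAction.stabilizer G α ≤ Subgroup.normalizer (T : Set G) ∧ Nat.card T = q ∧
        (∃ h : G, MulAction.stabilizer G α = T ⊔ Subgroup.zpowers h) ∧ Nat.card (MulAction.stabilizer G α) ∣ q * d := by
  classical
  haveI : Fact p.Prime := ⟨hp⟩
  have hH1 := hH α
  set H := stabilizer G α with hHdef
  have hHα : ∀ k : H, k • α = α := fun k => k.2
  have hman : ∀ ω, ω ≠ α → ∀ k : H, (∀ x ∈ orbit H ω, k • x = x) → k = 1 := by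
    intro ω hω k hk
    apply Subtype.ext
    exact manning hprim hep hω (k := (k : G)) k.2 (fun g hg => hk (g • ω) ⟨⟨g, hg⟩, rfl⟩)
  have F1 : ∀ N : Subgroup H, N.Normal → N ≠ ⊥ → ∀ ω, ω ≠ α → ∀ x ∈ orbit H ω, ∃ n ∈ N, n • ω = x := by
    intro N hN hN0 ω hω
    haveI := hN
    rcases orbit_dichotomy ω (hep α ω) N with h | h
    · exfalso
      apply hN0
      rw [eq_bot_iff]
      intro n hn
      rw [Subgroup.mem_bot]
      apply hman ω hω n
      rintro _ ⟨g, rfl⟩
      have h1 : g⁻¹ * n * g ∈ N := by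
        have := hN.conj_mem n hn g⁻¹
        simpa using this
      have h2 := h _ h1
      rw [mul_smul, mul_smul, inv_smul_eq_iff] at h2
      exact h2
    · exact h
  have F2 : ∀ N : Subgroup H, N.Normal → (∀ a ∈ N, ∀ b ∈ N, a * b = b * a) → N ≠ ⊥ → ∀ ω, ω ≠ α →
      ∀ n ∈ N, n • ω = ω → n = 1 := by
    intro N hN hc hN0 ω hω n hn hnω
    apply hman ω hω n
    intro x hx
    obtain ⟨n', hn', rfl⟩ := F1 N hN hN0 ω hω x hx
    rw [← mul_smul, hc n hn n' hn', mul_smul, hnω]
  have F3 : ∀ N : Subgroup H, N.Normal → (∀ a ∈ N, ∀ b ∈ N, a * b = b * a) → N ≠ ⊥ → ∀ ω, ω ≠ α →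
      ∀ h : H, (∀ n ∈ N, h * n = n * h) → h ∈ N := by
    intro N hN hc hN0 ω hω h hh
    obtain ⟨n, hn, hnh⟩ := F1 N hN hN0 ω hω (h • ω) (mem_orbit _ _)
    have h1 : n⁻¹ * h = 1 := by
      apply hman ω hω
      intro x hx
      obtain ⟨n', hn', rfl⟩ := F1 N hN hN0 ω hω x hx
      have h2 : n⁻¹ * h * n' = n' * (n⁻¹ * h) := by
        rw [mul_assoc, hh n' hn', ← mul_assoc, ← mul_assoc]
        congr 1
        have := hc n⁻¹ (N.inv_mem hn) n' hn'
        exact this
      rw [← mul_smul, h2, mul_smul]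
      congr 1
      rw [mul_smul, inv_smul_eq_iff, hnh]
    have h2 : h = n := by
      rw [inv_mul_eq_one] at h1
      exact h1.symm
    rw [h2]
    exact hn
  -- a moved point
  obtain ⟨ω0, hω0⟩ : ∃ ω, ω ≠ α := by
    obtain ⟨k, hk⟩ := (Subgroup.ne_bot_iff_exists_ne_one.1 hH1)
    by_contra hcon
    push Not at hcon
    apply hk
    apply Subtype.ext
    apply FaithfulSMul.eq_of_smul_eq_smul (α := Ω)
    intro x
    rw [hcon x]
    exact (hHα k).trans (one_smul G α).symm
  haveI : Nontrivial H := (Subgroup.nontrivial_iff_ne_bot _).mpr hH1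
  haveI : Nontrivial G := by
    obtain ⟨k, hk⟩ := (Subgroup.ne_bot_iff_exists_ne_one.1 hH1)
    refine ⟨⟨(k : G), 1, fun h => hk (Subtype.ext h)⟩⟩
  -- the minimal normal subgroup of `G`
  obtain ⟨V, hV⟩ := exists_minNormal (G := G)
  haveI hVn : V.Normal := hV.1
  have hVcomm : ∀ x ∈ V, ∀ y ∈ V, x * y = y * x := by
    obtain ⟨A, hAn, hAb, hAV, hAc⟩ := Cfsg.Agent.Lib.PCore.exists_abelian_normal_le V hV.1 hV.2.1
    rcases hV.2.2 A hAn hAV with h | h
    · exact absurd h hAb
    · subst h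
      rw [Subgroup.commutator_eq_bot_iff_le_centralizer] at hAc
      intro x hx y hy
      exact (Subgroup.mem_centralizer_iff.mp (hAc hx) y hy).symm
  have htV := isPretransitive_of_normal hprim V hV.1 hV.2.1
  have hregV : ∀ v ∈ V, ∀ ω : Ω, v • ω = ω → v = 1 := fun v hv ω h =>
    eq_one_of_commute_of_fixes V htV (fun t ht => hVcomm v hv t ht) h
  have hinjV : ∀ v ∈ V, ∀ v' ∈ V, v • α = v' • α → v = v' := by
    intro v hv v' hv' h
    have h1 : (v'⁻¹ * v) • α = α := by
      rw [mul_smul, h, inv_smul_smul]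
    have h2 := hregV _ (V.mul_mem (V.inv_mem hv') hv) α h1
    rw [inv_mul_eq_one] at h2
    exact h2.symm
  have hexV : ∀ ω : Ω, ∃ v ∈ V, v • α = ω := by
    intro ω
    obtain ⟨v, hv⟩ := htV.exists_smul_eq α ω
    exact ⟨v, v.2, hv⟩
  have hcardV : Nat.card V = p ^ d := by
    rw [← hcard, ← Nat.card_eq_fintype_card]
    apply Nat.card_congr
    refine Equiv.ofBijective (fun v : V => (v : G) • α) ⟨?_, ?_⟩
    · intro a b hab
      exact Subtype.ext (hinjV _ a.2 _ b.2 hab)
    · intro ω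
      obtain ⟨v, hv, hvω⟩ := hexV ω
      exact ⟨⟨v, hv⟩, hvω⟩
  have hd : 0 < d := by
    rcases Nat.eq_zero_or_pos d with rfl | h
    · exfalso
      rw [pow_zero] at hcardV
      exact hV.2.1 (Subgroup.eq_bot_of_card_eq V hcardV)
    · exact h
  have hexpV : ∀ v : V, v ^ p = 1 := by
    obtain ⟨r, hr, hrV⟩ := hV.exists_prime_pow_eq_one hVcomm
    intro v
    by_cases hv : v = 1
    · rw [hv, one_pow]
    · haveI : Fact r.Prime := ⟨hr⟩
      have h1 : v ^ r = 1 := Subtype.ext (hrV v v.2)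
      have h2 : orderOf v = r := orderOf_eq_prime h1 hv
      have h3 : r ∣ p ^ d := by
        rw [← h2, ← hcardV]
        exact orderOf_dvd_natCard v
      have h4 := (Nat.prime_dvd_prime_iff_eq hr hp).mp (hr.dvd_of_dvd_pow h3)
      rw [← h4]
      exact h1
  letI instV : CommGroup V := { (inferInstance : Group V) with
    mul_comm := fun a b => Subtype.ext (hVcomm a a.2 b b.2) }
  let τ : H →* MulAut V := (MulAut.conjNormal : G →* MulAut V).comp H.subtype
  have hτv : ∀ (h : H) (v : V), ((τ h v : V) : G) = (h : G) * v * (h : G)⁻¹ := fun h v => rfl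
  have hτ : Function.Injective τ := by
    rw [injective_iff_map_eq_one]
    intro h hh
    apply Subtype.ext
    have hα : (h : G) • α = α := h.2
    apply eq_one_of_commute_of_fixes V htV (a := α) _ hα
    intro t ht
    have h1 : τ h ⟨t, ht⟩ = ⟨t, ht⟩ := by rw [hh]; rfl
    have h2 := congrArg Subtype.val h1
    rw [hτv] at h2
    exact mul_inv_eq_iff_eq_mul.mp h2
  have hirr : ∀ U : Subgroup V, (∀ h : H, ∀ u ∈ U, τ h u ∈ U) → U = ⊥ ∨ U = ⊤ := by
    intro U hU
    let U' : Subgroup G := U.map V.subtype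
    have hU'V : U' ≤ V := Subgroup.map_subtype_le U
    have hU'n : U'.Normal := by
      refine ⟨?_⟩
      rintro _ ⟨u, hu, rfl⟩ g
      obtain ⟨v, hv, hvg⟩ := hexV (g • α)
      have hh : v⁻¹ * g ∈ H := by
        change (v⁻¹ * g) • α = α
        rw [mul_smul, ← hvg, inv_smul_smul]
      have h1 := hU ⟨_, hh⟩ u hu
      refine ⟨_, h1, ?_⟩
      have h2 : (τ ⟨_, hh⟩ u : V).1 = (v⁻¹ * g) * u.1 * (v⁻¹ * g)⁻¹ := rfl
      change (τ ⟨_, hh⟩ u : V).1 = g * u.1 * g⁻¹
      rw [h2]
      have h3 : g * u.1 * g⁻¹ ∈ V := hVn.conj_mem _ u.2 g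
      have h4 := hVcomm _ (V.inv_mem hv) _ h3
      have h5 : (v⁻¹ * g) * u.1 * (v⁻¹ * g)⁻¹ = v⁻¹ * (g * u.1 * g⁻¹) * v := by group
      rw [h5, h4]
      group
    rcases hV.2.2 U' hU'n hU'V with h | h
    · left
      exact (Subgroup.map_eq_bot_iff_of_injective _ V.subtype_injective).mp h
    · right
      rw [eq_top_iff]
      intro x _
      have h1 : (x : G) ∈ U' := by rw [h]; exact x.2
      obtain ⟨y, hy, hyx⟩ := h1
      have : y = x := Subtype.ext hyx
      rwa [← this]
  -- the minimal normal subgroup of the stabilizer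
  obtain ⟨N, hN⟩ := exists_minNormal (G := H)
  haveI hNn : N.Normal := hN.1
  have hNcomm : ∀ x ∈ N, ∀ y ∈ N, x * y = y * x := by
    obtain ⟨A, hAn, hAb, hAV, hAc⟩ := Cfsg.Agent.Lib.PCore.exists_abelian_normal_le N hN.1 hN.2.1
    rcases hN.2.2 A hAn hAV with h | h
    · exact absurd h hAb
    · subst h
      rw [Subgroup.commutator_eq_bot_iff_le_centralizer] at hAc
      intro x hx y hy
      exact (Subgroup.mem_centralizer_iff.mp (hAc hx) y hy).symm
  obtain ⟨q, hq, hqN⟩ := hN.exists_prime_pow_eq_one hNcomm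
  have horb : ∀ v : V, v ≠ 1 → ∀ h : H, ∃ n ∈ N, τ h v = τ n v := by
    intro v hv h
    have hω : (v : G) • α ≠ α := by
      intro h1
      exact hv (Subtype.ext (hregV _ v.2 α h1))
    obtain ⟨n, hn, hnh⟩ := F1 N hNn hN.2.1 _ hω (h • ((v : G) • α)) (mem_orbit _ _)
    refine ⟨n, hn, Subtype.ext ?_⟩
    rw [hτv, hτv]
    apply hinjV _ (hVn.conj_mem _ v.2 _) _ (hVn.conj_mem _ v.2 _)
    have hfix : ∀ k : H, ((k : G) * v * (k : G)⁻¹) • α = k • ((v : G) • α) := by
      intro k
      have h0 : (k : G)⁻¹ • α = α := by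
        rw [inv_smul_eq_iff]
        exact (hHα k).symm
      rw [mul_smul, mul_smul, h0]
      rfl
    rw [hfix, hfix, hnh]
  obtain ⟨hNq, hqd, hi, ⟨g, hg⟩, hcardH⟩ := mult_core d hcardV hd hexpV τ hτ hirr N hNn hN.2.1 hNcomm q hq hqN
    horb (F3 N hNn hNcomm hN.2.1 ω0 hω0)
  refine ⟨q, hq, ?_, hqd, hi, N.map H.subtype, Subgroup.map_subtype_le N, ?_, ?_, ⟨(g : G), ?_⟩, hcardH⟩
  · intro ω hω
    rw [← hNq]
    symm
    apply Nat.card_congr
    refine Equiv.ofBijective (fun n : N => ⟨(n : H) • ω, ⟨(n : H), rfl⟩⟩) ⟨?_, ?_⟩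
    · intro a b hab
      have h1 : (a : H) • ω = (b : H) • ω := congrArg Subtype.val hab
      have h2 : (b : H)⁻¹ * a ∈ N := N.mul_mem (N.inv_mem b.2) a.2
      have h3 := F2 N hNn hNcomm hN.2.1 ω hω _ h2 (by rw [mul_smul, h1, inv_smul_smul])
      rw [inv_mul_eq_one] at h3
      exact Subtype.ext h3.symm
    · rintro ⟨x, hx⟩
      obtain ⟨n, hn, hnx⟩ := F1 N hNn hN.2.1 ω hω x hx
      exact ⟨⟨n, hn⟩, Subtype.ext hnx⟩
  · rw [Subgroup.le_normalizer_iff]
    rintro h hh _ ⟨n, hn, rfl⟩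
    exact ⟨⟨h, hh⟩ * n * ⟨h, hh⟩⁻¹, hNn.conj_mem n hn _, rfl⟩
  · rw [← hNq]
    exact Nat.card_congr (N.equivMapOfInjective H.subtype H.subtype_injective).toEquiv.symm
  · have h1 := congrArg (Subgroup.map H.subtype) hg
    rw [Subgroup.map_sup, MonoidHom.map_zpowers, ← MonoidHom.range_eq_map, Subgroup.range_subtype] at h1
    exact h1.symm

end Cfsg.Agent.S3496
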