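import Mathlib
import Cfsg.Statements.S3497
import Cfsg.Agent.Lib.ExtPrim
import Cfsg.Agent.Lib.ExtPrim2
import Cfsg.Agent.Lib.PCore

set_option autoImplicit false
open Cfsg

namespace Cfsg.Agent.S3497

open MulAction Cfsg.Agent.Lib.ExtPrim Cfsg.Agent.Lib.ExtPrim2

/-- Restrictions on the point stabilizer of an extremely primitive group. Let a finite group G act faithfully and primitively on a finite set Ω with point stabilizers H = G_α whose order is neither 1 nor a prime, each acting primitively on every one of its orbits. Then H has trivial center, the Fitting subgroup F(H) is an elementary abelian p-group for some prime p, and if F(H) ≠ 1 has order p ^ e then p ^ e divides the number of points minus one and H / F(H) embeds in GL_e(p) (there is a homomorphism from H to GL_e(p) with kernel exactly F(H)). -/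
theorem result {G : Type*} [Group G] [Finite G] {Ω : Type*} [Fintype Ω] [MulAction G Ω] [FaithfulSMul G Ω] (hprim : MulAction.IsPreprimitive G Ω) (hep : ∀ (α : Ω) (ω : Ω), MulAction.IsPreprimitive (MulAction.stabilizer G α) (MulAction.orbit (MulAction.stabilizer G α) ω)) (α : Ω)
    (hH1 : MulAction.stabilizer G α ≠ ⊥) (hHp : ¬ (Nat.card (MulAction.stabilizer G α)).Prime) :
    Subgroup.center (MulAction.stabilizer G α) = ⊥ ∧
    IsMulCommutative (Cfsg.fittingSubgroup (MulAction.stabilizer G α)) ∧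
    ∃ p e : ℕ, p.Prime ∧ Nat.card (Cfsg.fittingSubgroup (MulAction.stabilizer G α)) = p ^ e ∧
      (∀ x ∈ Cfsg.fittingSubgroup (MulAction.stabilizer G α), x ^ p = 1) ∧
      (Cfsg.fittingSubgroup (MulAction.stabilizer G α) ≠ ⊥ →
        p ^ e ∣ Fintype.card Ω - 1 ∧
        ∃ φ : MulAction.stabilizer G α →* GL (Fin e) (ZMod p), φ.ker = Cfsg.fittingSubgroup (MulAction.stabilizer G α)) := by
  classical
  set H := stabilizer G α with hHdef
  have hHα : ∀ k : H, k • α = α := fun k => k.2
  have hman : ∀ ω, ω ≠ α → ∀ k : H, (∀ x ∈ orbit H ω, k • x = x) → k = 1 := by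
    intro ω hω k hk
    apply Subtype.ext
    exact manning hprim hep hω (k := (k : G)) k.2 (fun g hg => hk (g • ω) ⟨⟨g, hg⟩, rfl⟩)
  have F1 : ∀ N : Subgroup H, N.Normal → N ≠ ⊥ → ∀ ω, ω ≠ α → ∀ x ∈ orbit H ω, ∃ n ∈ N, n • ω = x := by
    intro N hN hN0 ω hω
    haveI := hN
    rcases orbit_dichotomy ω (hep α ω) N with h | h
    · exfalso
      apply hN0
      rw [eq_bot_iff]
      intro n hn
      rw [Subgroup.mem_bot]
      apply hman ω hω n
      rintro _ ⟨g, rfl⟩
      have h1 : g⁻¹ * n * g ∈ N := by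
        have := hN.conj_mem n hn g⁻¹
        simpa using this
      have h2 := h _ h1
      rw [mul_smul, mul_smul, inv_smul_eq_iff] at h2
      exact h2
    · exact h
  have F2 : ∀ N : Subgroup H, N.Normal → (∀ a ∈ N, ∀ b ∈ N, a * b = b * a) → N ≠ ⊥ → ∀ ω, ω ≠ α →
      ∀ n ∈ N, n • ω = ω → n = 1 := by
    intro N hN hc hN0 ω hω n hn hnω
    apply hman ω hω n
    intro x hx
    obtain ⟨n', hn', rfl⟩ := F1 N hN hN0 ω hω x hx
    rw [← mul_smul, hc n hn n' hn', mul_smul, hnω]
  have F3 : ∀ N : Subgroup H, N.Normal → (∀ a ∈ N, ∀ b ∈ N, a * b = b * a) → N ≠ ⊥ → ∀ ω, ω ≠ α →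
      ∀ h : H, (∀ n ∈ N, h * n = n * h) → h ∈ N := by
    intro N hN hc hN0 ω hω h hh
    obtain ⟨n, hn, hnh⟩ := F1 N hN hN0 ω hω (h • ω) (mem_orbit _ _)
    have h1 : n⁻¹ * h = 1 := by
      apply hman ω hω
      intro x hx
      obtain ⟨n', hn', rfl⟩ := F1 N hN hN0 ω hω x hx
      have h2 : n⁻¹ * h * n' = n' * (n⁻¹ * h) := by
        rw [mul_assoc, hh n' hn', ← mul_assoc, ← mul_assoc]
        congr 1
        have := hc n⁻¹ (N.inv_mem hn) n' hn'
        exact this
      rw [← mul_smul, h2, mul_smul]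
      congr 1
      rw [mul_smul, inv_smul_eq_iff, hnh]
    have h2 : h = n := by
      rw [inv_mul_eq_one] at h1
      exact h1.symm
    rw [h2]
    exact hn
  -- a moved point
  obtain ⟨ω, hω⟩ : ∃ ω, ω ≠ α := by
    obtain ⟨k, hk⟩ := (Subgroup.ne_bot_iff_exists_ne_one.1 hH1)
    by_contra hcon
    push Not at hcon
    apply hk
    apply Subtype.ext
    apply FaithfulSMul.eq_of_smul_eq_smul (α := Ω)
    intro x
    rw [hcon x]
    exact (hHα k).trans (one_smul G α).symm
  -- the centre
  have hcenter : Subgroup.center H = ⊥ := by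
    by_contra hC
    have hCc : ∀ a ∈ Subgroup.center H, ∀ b ∈ Subgroup.center H, a * b = b * a :=
      fun a ha b _ => (Subgroup.mem_center_iff.1 ha b).symm
    have hall : ∀ h : H, h ∈ Subgroup.center H :=
      fun h => F3 _ inferInstance hCc hC ω hω h (fun n hn => Subgroup.mem_center_iff.1 hn h)
    have hHcomm : ∀ a b : H, a * b = b * a := fun a b => (Subgroup.mem_center_iff.1 (hall a) b).symm
    have hgen : ∀ h : H, h ≠ 1 → ∀ g : H, g ∈ Subgroup.zpowers h := by
      intro h hh g
      have hN : (Subgroup.zpowers h).Normal := by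
        constructor
        intro n hn x
        rw [hHcomm x n, mul_inv_cancel_right]
        exact hn
      have hN0 : Subgroup.zpowers h ≠ ⊥ := by
        rw [Ne, Subgroup.zpowers_eq_bot]
        exact hh
      obtain ⟨n, hn, hnω⟩ := F1 _ hN hN0 ω hω (g • ω) (mem_orbit _ _)
      have h1 : n⁻¹ * g = 1 := by
        apply F2 _ inferInstance hCc hC ω hω _ (hall _)
        rw [mul_smul, inv_smul_eq_iff, hnω]
      rw [inv_mul_eq_one] at h1
      rw [← h1]
      exact hn
    apply hHp
    have hne : Nat.card H ≠ 1 := by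
      intro h1
      rw [Nat.card_eq_one_iff_unique] at h1
      apply hH1
      rw [eq_bot_iff]
      intro x hx
      exact Subgroup.mem_bot.2 (congrArg Subtype.val (h1.1.elim (⟨x, hx⟩ : H) 1))
    obtain ⟨q, hq, hqd⟩ := Nat.exists_prime_and_dvd hne
    haveI : Fact q.Prime := ⟨hq⟩
    obtain ⟨x, hx⟩ := exists_prime_orderOf_dvd_card' q hqd
    have hx1 : x ≠ 1 := by
      rintro rfl
      rw [orderOf_one] at hx
      exact hq.ne_one hx.symm
    have htop : Subgroup.zpowers x = ⊤ := by
      rw [eq_top_iff]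
      intro g _
      exact hgen x hx1 g
    have hc : Nat.card H = q := by
      rw [← hx, ← Nat.card_zpowers, htop]
      exact Subgroup.card_top.symm
    rw [hc]
    exact hq
  refine ⟨hcenter, ?_⟩
  set F := Cfsg.fittingSubgroup H with hF
  haveI hFn : F.Normal := Cfsg.Agent.Lib.PCore.fittingSubgroup_normal
  by_cases hF0 : F = ⊥
  · refine ⟨?_, 2, 0, Nat.prime_two, ?_, ?_, fun h => absurd hF0 h⟩
    · rw [hF0]
      exact ⟨⟨fun a b => Subsingleton.elim _ _⟩⟩
    · rw [hF0]
      simp
    · intro x hx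
      rw [hF0, Subgroup.mem_bot] at hx
      rw [hx, one_pow]
  -- the main case: find `z` central in `F`
  have hFnil : Group.IsNilpotent F := Cfsg.Agent.Lib.PCore.isNilpotent_fittingSubgroup
  haveI hFnt : Nontrivial F := (Subgroup.nontrivial_iff_ne_bot F).2 hF0
  obtain ⟨z, hz⟩ := Subgroup.ne_bot_iff_exists_ne_one.1 (Group.IsNilpotent.center_ne_bot (G := F))
  have hz1 : ((z : F) : H) ≠ 1 := by
    intro h
    apply hz
    apply Subtype.ext
    apply Subtype.ext
    exact h
  obtain ⟨p, hp, hpz⟩ := Nat.exists_prime_and_dvd (fun h : orderOf ((z : F) : H) = 1 => hz1 (orderOf_eq_one_iff.1 h))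
  let x : H := ((z : F) : H) ^ (orderOf ((z : F) : H) / p)
  have hxord : orderOf x = p := orderOf_pow_orderOf_div (orderOf_pos _).ne' hpz
  let A : Subgroup H := F ⊓ Subgroup.centralizer (F : Set H)
  haveI hAn : A.Normal := inferInstance
  have hAc : ∀ a ∈ A, ∀ b ∈ A, a * b = b * a := by
    intro a ha b hb
    exact (Subgroup.mem_centralizer_iff.1 (Subgroup.mem_inf.1 hb).2 a (Subgroup.mem_inf.1 ha).1)
  have hzA : ((z : F) : H) ∈ A := by
    refine Subgroup.mem_inf.2 ⟨(z : F).2, ?_⟩
    rw [Subgroup.mem_centralizer_iff]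
    intro f hf
    have := Subgroup.mem_center_iff.1 z.2 ⟨f, hf⟩
    exact congrArg Subtype.val this
  let V : Subgroup H :=
    { carrier := {y | y ∈ A ∧ y ^ p = 1}
      one_mem' := ⟨A.one_mem, one_pow _⟩
      mul_mem' := by
        rintro a b ⟨ha, ha'⟩ ⟨hb, hb'⟩
        refine ⟨A.mul_mem ha hb, ?_⟩
        rw [(show Commute a b from hAc a ha b hb).mul_pow, ha', hb', one_mul]
      inv_mem' := by
        rintro a ⟨ha, ha'⟩
        exact ⟨A.inv_mem ha, by rw [inv_pow, ha', inv_one]⟩ }
  have hVmem : ∀ y, y ∈ V ↔ y ∈ A ∧ y ^ p = 1 := fun y => Iff.rfl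
  haveI hVn : V.Normal := by
    constructor
    rintro y ⟨hy, hy'⟩ g
    refine ⟨hAn.conj_mem y hy g, ?_⟩
    rw [conj_pow, hy', mul_one, mul_inv_cancel]
  have hxV : x ∈ V := by
    refine ⟨A.pow_mem hzA _, ?_⟩
    rw [← hxord]
    exact pow_orderOf_eq_one x
  have hx1 : x ≠ 1 := by
    intro h
    rw [h, orderOf_one] at hxord
    exact hp.ne_one hxord.symm
  have hV0 : V ≠ ⊥ := by
    intro h
    rw [h, Subgroup.mem_bot] at hxV
    exact hx1 hxV
  have hVc : ∀ a ∈ V, ∀ b ∈ V, a * b = b * a := fun a ha b hb => hAc a ha.1 b hb.1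
  have hFV : F = V := by
    apply le_antisymm
    · intro h hh
      apply F3 V hVn hVc hV0 ω hω h
      intro n hn
      exact Subgroup.mem_centralizer_iff.1 (Subgroup.mem_inf.1 hn.1).2 h hh
    · intro y hy
      exact (Subgroup.mem_inf.1 hy.1).1
  have hFc : ∀ a ∈ F, ∀ b ∈ F, a * b = b * a := by
    rw [hFV]
    exact hVc
  have hFexp : ∀ y ∈ F, y ^ p = 1 := by
    rw [hFV]
    exact fun y hy => hy.2
  refine ⟨⟨⟨fun a b => Subtype.ext (hFc a a.2 b b.2)⟩⟩, ?_⟩
  haveI : Fact p.Prime := ⟨hp⟩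
  have hFp : IsPGroup p F := by
    intro y
    refine ⟨1, ?_⟩
    apply Subtype.ext
    simpa using hFexp y y.2
  obtain ⟨e, he⟩ := IsPGroup.iff_card.1 hFp
  refine ⟨p, e, hp, he, hFexp, fun _ => ⟨?_, ?_⟩⟩
  · -- free action on the complement of `α`
    let S : SubMulAction F Ω :=
      { carrier := {y | y ≠ α}
        smul_mem' := by
          intro f y hy h
          apply hy
          have h1 : f • y = α := h
          have h2 : f⁻¹ • α = α := hHα ((f⁻¹ : F) : H)
          have h3 : y = f⁻¹ • α := by rw [← h1, inv_smul_smul]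
          rw [h3, h2] }
    have hfree : ∀ (y : S) (f : F), f • y = y → f = 1 := by
      intro y f hf
      have h1 : f • (y : Ω) = (y : Ω) := congrArg Subtype.val hf
      have h2 := F2 F hFn hFc hF0 (y : Ω) y.2 (f : H) f.2 h1
      exact Subtype.ext h2
    have h1 := card_dvd_of_free hfree
    have h2 : Nat.card S = Fintype.card Ω - 1 := by
      have h3 : Nat.card S = Nat.card {y : Ω | y ≠ α} := rfl
      rw [h3, Nat.card_eq_fintype_card, Set.card_ne_eq]
    rw [he, h2] at h1
    exact h1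
  · obtain ⟨φ, hφ⟩ := @exists_GL_hom H F _ { (inferInstance : Group F) with mul_comm := fun a b => Subtype.ext (hFc a a.2 b b.2) } _ p e _
      (fun y => Subtype.ext (by simpa using hFexp y y.2)) he (MulAut.conjNormal (H := F))
    refine ⟨φ, ?_⟩
    ext h
    rw [MonoidHom.mem_ker, hφ]
    constructor
    · intro hh
      apply F3 F hFn hFc hF0 ω hω h
      intro n hn
      have h2 := hh ⟨n, hn⟩
      have h3 : h * n * h⁻¹ = n := congrArg Subtype.val h2
      rw [mul_inv_eq_iff_eq_mul] at h3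
      exact h3
    · intro hh y
      apply Subtype.ext
      show h * (y : H) * h⁻¹ = y
      rw [hFc h hh y y.2, mul_inv_cancel_right]

end Cfsg.Agent.S3497
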