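import Mathlib
import Cfsg.Statements.S3504

set_option autoImplicit false
open Cfsg

namespace Cfsg.Agent.S3504

open Equiv.Perm in
theorem support_card {n : ℕ} (g : Equiv.Perm (Fin n)) (hf : ∀ i, g i ≠ i) :
    g.support.card = n := by
  have : g.support = Finset.univ := by
    ext i
    simp [Equiv.Perm.mem_support, hf i]
  rw [this]
  simp

open Equiv.Perm in
theorem cycleType_of {n : ℕ} (g : Equiv.Perm (Fin n)) (hp : (orderOf g).Prime)
    (hf : ∀ i, g i ≠ i) (hn : n ≠ 0) :
    orderOf g ∣ n ∧ g.cycleType = Multiset.replicate (n / orderOf g) (orderOf g) := by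
  obtain ⟨k, hk⟩ := cycleType_prime_order hp
  have hs := sum_cycleType g
  rw [support_card g hf, hk, Multiset.sum_replicate] at hs
  have hs' : n = orderOf g * (k + 1) := by
    rw [smul_eq_mul] at hs
    exact (by rw [mul_comm]; exact hs.symm)
  have hd : orderOf g ∣ n := ⟨k + 1, hs'⟩
  refine ⟨hd, ?_⟩
  rw [hk]
  congr 1
  exact (Nat.div_eq_of_eq_mul_right hp.pos hs').symm

open Equiv.Perm in
theorem exists_perm {n : ℕ} (r : ℕ) (hr : r.Prime) (hrn : r ∣ n) (hn : n ≠ 0) :
    ∃ g : Equiv.Perm (Fin n), orderOf g = r ∧ ∀ i, g i ≠ i := by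
  obtain ⟨m, rfl⟩ := hrn
  have hm : m ≠ 0 := by
    rintro rfl
    simp at hn
  obtain ⟨g, hg⟩ := (exists_with_cycleType_iff (α := Fin (r * m))
    (m := Multiset.replicate m r)).mpr ⟨by
      rw [Multiset.sum_replicate]
      simp [mul_comm], by
      intro a ha
      rw [Multiset.mem_replicate] at ha
      rw [ha.2]
      exact hr.two_le⟩
  refine ⟨g, ?_, ?_⟩
  · rw [← lcm_cycleType, hg]
    obtain ⟨k, rfl⟩ := Nat.exists_eq_succ_of_ne_zero hm
    simp [Multiset.replicate_succ, Multiset.lcm_cons]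
    clear hg hn hm g
    induction k with
    | zero => simp
    | succ k ih =>
      simp [Multiset.replicate_succ, Multiset.lcm_cons] at ih ⊢
      simp [ih]
  · have hs := sum_cycleType g
    rw [hg, Multiset.sum_replicate] at hs
    have hc : g.support.card = r * m := by
      rw [← hs]; simp [mul_comm]
    have hu : g.support = Finset.univ := by
      apply Finset.eq_univ_of_card
      rw [hc]; simp
    intro i
    have : i ∈ g.support := by rw [hu]; simp
    exact Equiv.Perm.mem_support.mp this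

/-- For n ≥ 5, the fixed-point-free permutations of prime order in the symmetric group of degree n form a single conjugacy class if and only if n is a prime power. -/
theorem result (n : ℕ) (hn : 5 ≤ n) :
    Nat.card {c : ConjClasses (Equiv.Perm (Fin n)) // ∃ g : Equiv.Perm (Fin n), ConjClasses.mk g = c ∧ (orderOf g).Prime ∧ ∀ i : Fin n, g i ≠ i} = 1 ↔ IsPrimePow n := by
  classical
  have hn0 : n ≠ 0 := by omega
  rw [isPrimePow_iff_card_primeFactors_eq_one]
  suffices h : Nat.card {c : ConjClasses (Equiv.Perm (Fin n)) // ∃ g : Equiv.Perm (Fin n), ConjClasses.mk g = c ∧ (orderOf g).Prime ∧ ∀ i : Fin n, g i ≠ i} = n.primeFactors.card by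
    rw [h]
  have hchoose := fun (c : {c : ConjClasses (Equiv.Perm (Fin n)) // ∃ g : Equiv.Perm (Fin n), ConjClasses.mk g = c ∧ (orderOf g).Prime ∧ ∀ i : Fin n, g i ≠ i}) => c.2.choose_spec
  let F : {c : ConjClasses (Equiv.Perm (Fin n)) // ∃ g : Equiv.Perm (Fin n), ConjClasses.mk g = c ∧ (orderOf g).Prime ∧ ∀ i : Fin n, g i ≠ i} → n.primeFactors :=
    fun c => ⟨orderOf c.2.choose, by
      obtain ⟨-, h2, h3⟩ := hchoose c
      exact Nat.mem_primeFactors.mpr ⟨h2, (cycleType_of _ h2 h3 hn0).1, hn0⟩⟩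
  have hF : Function.Bijective F := by
    constructor
    · intro c d hcd
      have hcd' : orderOf c.2.choose = orderOf d.2.choose := congrArg Subtype.val hcd
      obtain ⟨c1, c2, c3⟩ := hchoose c
      obtain ⟨d1, d2, d3⟩ := hchoose d
      apply Subtype.ext
      rw [← c1, ← d1, ConjClasses.mk_eq_mk_iff_isConj, Equiv.Perm.isConj_iff_cycleType_eq,
        (cycleType_of _ c2 c3 hn0).2, (cycleType_of _ d2 d3 hn0).2, hcd']
    · rintro ⟨r, hr⟩
      obtain ⟨hr1, hr2, -⟩ := Nat.mem_primeFactors.mp hr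
      obtain ⟨g, hg1, hg2⟩ := exists_perm r hr1 hr2 hn0
      refine ⟨⟨ConjClasses.mk g, g, rfl, by rw [hg1]; exact hr1, hg2⟩, ?_⟩
      apply Subtype.ext
      show orderOf _ = r
      set c : {c : ConjClasses (Equiv.Perm (Fin n)) // ∃ g : Equiv.Perm (Fin n), ConjClasses.mk g = c ∧ (orderOf g).Prime ∧ ∀ i : Fin n, g i ≠ i} := ⟨ConjClasses.mk g, g, rfl, by rw [hg1]; exact hr1, hg2⟩
      obtain ⟨c1, c2, c3⟩ := hchoose c
      have hconj : IsConj c.2.choose g := by
        rw [← ConjClasses.mk_eq_mk_iff_isConj]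
        exact c1
      rw [← hg1]
      rw [Equiv.Perm.isConj_iff_cycleType_eq] at hconj
      rw [← Equiv.Perm.lcm_cycleType, ← Equiv.Perm.lcm_cycleType, hconj]
  rw [Nat.card_congr (Equiv.ofBijective F hF), Nat.card_eq_fintype_card, Fintype.card_coe]

end Cfsg.Agent.S3504
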