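import Mathlib
import Cfsg.Statements.S3508

set_option autoImplicit false
open Cfsg

namespace Cfsg.Agent.S3508

open Polynomial in
lemma unipotent_lemma {p : ℕ} [Fact p.Prime] {V : Type*} [AddCommGroup V] [Module (ZMod p) V]
    [Module.Finite (ZMod p) V] (A : Module.End (ZMod p) V) (r : ℕ) (hA : A ^ p ^ r = 1) (s : ℕ)
    (hs : Module.finrank (ZMod p) V < p ^ s) :
    A ^ p ^ s = 1 ∧ ∑ i ∈ Finset.range (p ^ s), A ^ i = 0 := by
  have hX : ∀ t : ℕ, ((X : (ZMod p)[X]) - 1) ^ (p ^ t) = X ^ (p ^ t) - 1 := by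
    intro t
    have := sub_pow_char_pow (R := (ZMod p)[X]) (p := p) (n := t) (x := X) (y := 1)
    simpa using this
  have hE : ∀ t : ℕ, (A - 1) ^ (p ^ t) = A ^ (p ^ t) - 1 := by
    intro t
    have := congrArg (aeval A) (hX t)
    simpa using this
  have hnil : IsNilpotent (A - 1) := ⟨p ^ r, by rw [hE, hA, sub_self]⟩
  have hzero : (A - 1) ^ Module.finrank (ZMod p) V = 0 := by
    have h1 := IsNilpotent.charpoly_eq_X_pow_finrank hnil
    have h2 := LinearMap.aeval_self_charpoly (A - 1)
    rw [h1] at h2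
    simpa using h2
  have hk : 0 < p ^ s := lt_of_le_of_lt (Nat.zero_le _) hs
  constructor
  · have := hE s
    rw [pow_eq_zero_of_le hs.le hzero] at this
    exact (sub_eq_zero.1 this.symm)
  · have hX2 : ∑ i ∈ Finset.range (p ^ s), (X : (ZMod p)[X]) ^ i = (X - 1) ^ (p ^ s - 1) := by
      have hne : (X : (ZMod p)[X]) - 1 ≠ 0 := X_sub_C_ne_zero (1 : ZMod p)
      apply mul_left_cancel₀ hne
      rw [mul_geom_sum, ← hX s, ← pow_succ']
      congr 1
      omega
    have := congrArg (aeval A) hX2
    simp only [map_sum, map_pow, aeval_X, map_sub, map_one] at this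
    rw [this]
    exact pow_eq_zero_of_le (by omega) hzero

lemma core_add {V : Type*} [AddCommGroup V] [Finite V] (p : ℕ) [Fact p.Prime] [Module (ZMod p) V]
    (c : V →+ V) (r s m : ℕ) (hc : ∀ x, c^[p ^ r] x = x) (hcard : Nat.card V = p ^ m) (hlt : m < p ^ s) :
    (∀ x, c^[p ^ s] x = x) ∧
      ∀ (b : V) (P : ℕ → V), P 0 = 0 → (∀ j, P (j + 1) = P j + c^[j] b) → P (p ^ s) = 0 := by
  classical
  have hp : p.Prime := Fact.out
  have hfinrank : Module.finrank (ZMod p) V = m := by
    have h1 : Nat.card V = Nat.card (ZMod p) ^ Module.finrank (ZMod p) V :=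
      Module.natCard_eq_pow_finrank
    rw [hcard, Nat.card_zmod] at h1
    exact (Nat.pow_right_injective hp.two_le h1).symm
  let A : Module.End (ZMod p) V := AddMonoidHom.toZModLinearMap p c
  have hA : ∀ x : V, A x = c x := fun x => rfl
  have hApow : ∀ (j : ℕ) (x : V), (A ^ j) x = c^[j] x := by
    intro j
    induction j with
    | zero => intro x; rfl
    | succ j ih =>
      intro x
      rw [pow_succ, Module.End.mul_apply, hA, ih, Function.iterate_succ_apply]
  have hAs : A ^ p ^ r = 1 := by
    apply LinearMap.ext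
    intro x
    rw [hApow, hc]
    rfl
  obtain ⟨h1, h2⟩ := unipotent_lemma A r hAs s (by rwa [hfinrank])
  constructor
  · intro x
    rw [← hApow, h1]
    rfl
  · intro b P hP0 hPs
    have hPsum : ∀ j, P j = (∑ i ∈ Finset.range j, A ^ i) b := by
      intro j
      induction j with
      | zero => rw [hP0]; simp
      | succ j ih =>
        rw [hPs, Finset.sum_range_succ, LinearMap.add_apply, ih, hApow]
    rw [hPsum, h2]
    rfl

lemma core {M : Type*} [CommGroup M] [Finite M] (p : ℕ) [Fact p.Prime] (hexp : ∀ x : M, x ^ p = 1)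
    (c : M →* M) (r s m : ℕ) (hc : ∀ x, c^[p ^ r] x = x) (hcard : Nat.card M = p ^ m) (hlt : m < p ^ s) :
    (∀ x, c^[p ^ s] x = x) ∧
      ∀ (b : M) (P : ℕ → M), P 0 = 1 → (∀ j, P (j + 1) = P j * c^[j] b) → P (p ^ s) = 1 := by
  letI instM : Module (ZMod p) (Additive M) := AddCommGroup.zmodModule (n := p) (by
    intro x
    apply Additive.toMul.injective
    exact hexp _)
  have hit : ∀ (j : ℕ) (x : M), (c.toAdditive)^[j] (Additive.ofMul x) = Additive.ofMul (c^[j] x) := by
    intro j
    induction j with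
    | zero => intro x; rfl
    | succ j ih =>
      intro x
      rw [Function.iterate_succ_apply, Function.iterate_succ_apply]
      exact ih (c x)
  obtain ⟨h1, h2⟩ := core_add (V := Additive M) p c.toAdditive r s m
    (fun x => by
      have := hit (p ^ r) x.toMul
      rw [hc] at this
      exact this) hcard hlt
  constructor
  · intro x
    have := h1 (Additive.ofMul x)
    rw [hit] at this
    exact Additive.ofMul.injective this
  · intro b P hP0 hPs
    have := h2 (Additive.ofMul b) (fun j => Additive.ofMul (P j)) (by rw [hP0]; rfl) (by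
      intro j
      show Additive.ofMul (P (j + 1)) = Additive.ofMul (P j) + (c.toAdditive)^[j] (Additive.ofMul b)
      rw [hPs, hit, ofMul_mul])
    exact Additive.ofMul.injective this

lemma two_pow_gt (n : ℕ) (hn : 2 ≤ n) : n + 1 < 2 ^ n := by
  induction n, hn using Nat.le_induction with
  | base => norm_num
  | succ n hn ih => rw [pow_succ]; omega

lemma three_pow_gt (n : ℕ) (hn : 1 ≤ n) : n + 1 < 3 ^ n := by
  induction n, hn using Nat.le_induction with
  | base => norm_num
  | succ n hn ih => rw [pow_succ]; omega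

/-- Let a finite group G act faithfully on a set Ω with p ^ m points (p prime) and have an elementary abelian normal p-subgroup N acting regularly on Ω (so G is a group of affine transformations of an m-dimensional space over the field with p elements). If G contains an element of order p ^ r with r ≥ 1, then p ^ (r − 1) ≤ m. In particular an element of order p ^ m forces m ≤ 2, and m ≤ 1 when p is odd. -/
theorem result {G : Type*} [Group G] [Finite G] {Ω : Type*} [Fintype Ω] [MulAction G Ω] [FaithfulSMul G Ω] (p m : ℕ) (hp : p.Prime) (hcard : Fintype.card Ω = p ^ m)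
    (N : Subgroup G) [N.Normal] (hNc : IsMulCommutative N) (hNp : ∀ n ∈ N, n ^ p = 1)
    (hNtr : MulAction.IsPretransitive N Ω) (hNreg : ∀ ω : Ω, MulAction.stabilizer N ω = ⊥)
    (g : G) (r : ℕ) (hr : 1 ≤ r) (hg : orderOf g = p ^ r) :
    p ^ (r - 1) ≤ m ∧ (r = m → m ≤ 2 ∧ (2 < p → m ≤ 1)) := by
  classical
  haveI : Fact p.Prime := ⟨hp⟩
  have hΩ : Nonempty Ω := by
    apply Fintype.card_pos_iff.1
    rw [hcard]
    exact pow_pos hp.pos m
  obtain ⟨ω₀⟩ := hΩ
  have hcomm : ∀ x y : N, x * y = y * x := fun x y => hNc.is_comm.comm x y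
  -- cardinality
  have hcardN : Nat.card N = p ^ m := by
    rw [← hcard, ← Nat.card_eq_fintype_card]
    apply Nat.card_congr
    refine Equiv.ofBijective (fun n : N => n • ω₀) ⟨?_, ?_⟩
    · intro a b hab
      have hab' : a • ω₀ = b • ω₀ := hab
      have : b⁻¹ * a ∈ MulAction.stabilizer N ω₀ := by
        rw [MulAction.mem_stabilizer_iff, mul_smul, hab', ← mul_smul, inv_mul_cancel, one_smul]
      rw [hNreg, Subgroup.mem_bot] at this
      exact (inv_mul_eq_one.1 this).symm
    · intro ω
      exact MulAction.exists_smul_eq N ω₀ ω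
  -- the conjugation map
  let c : N →* N := (MulAut.conjNormal g).toMonoidHom
  have hc : ∀ x : N, ((c x : N) : G) = g * (x : G) * g⁻¹ := fun x => rfl
  have hcpow : ∀ (j : ℕ) (x : N), ((c^[j] x : N) : G) = g ^ j * (x : G) * (g ^ j)⁻¹ := by
    intro j
    induction j with
    | zero => intro x; simp
    | succ j ih =>
      intro x
      rw [Function.iterate_succ_apply', hc, ih, pow_succ']
      group
  have hcs : ∀ x : N, c^[p ^ r] x = x := by
    intro x
    apply Subtype.ext
    rw [hcpow, ← hg, pow_orderOf_eq_one]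
    simp
  -- choose `b`
  obtain ⟨b, hb⟩ := MulAction.exists_smul_eq N ω₀ (g • ω₀)
  have hb' : (b : G) • ω₀ = g • ω₀ := hb
  let P : ℕ → N := fun j => Nat.rec 1 (fun j q => q * c^[j] b) j
  have hP0 : P 0 = 1 := rfl
  have hPs : ∀ j, P (j + 1) = P j * c^[j] b := fun j => rfl
  have hP : ∀ j : ℕ, g ^ j • ω₀ = (P j).1 • ω₀ := by
    intro j
    induction j with
    | zero => simp [hP0]
    | succ j ih =>
      rw [hPs, hcomm, Subgroup.coe_mul, mul_smul, ← ih, hcpow, ← mul_smul]
      have : g ^ j * (b : G) * (g ^ j)⁻¹ * g ^ j = g ^ j * (b : G) := by simp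
      rw [this, mul_smul, hb', ← mul_smul, pow_succ]
  have main : p ^ (r - 1) ≤ m := by
    by_contra hlt
    push Not at hlt
    have hexp : ∀ x : N, x ^ p = 1 := fun x => Subtype.ext (by simpa using hNp x x.2)
    obtain ⟨h1, h2⟩ := @core N { (inferInstance : Group N) with mul_comm := hcomm } _ p _ hexp c r (r - 1) m
      hcs hcardN hlt
    have h3 := h2 b P hP0 hPs
    have hfix : g ^ p ^ (r - 1) • ω₀ = ω₀ := by
      rw [hP, h3]
      simp
    have hcn : ∀ n : N, g ^ p ^ (r - 1) * (n : G) * (g ^ p ^ (r - 1))⁻¹ = n := by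
      intro n
      rw [← hcpow, h1]
    have hone : g ^ p ^ (r - 1) = 1 := by
      apply FaithfulSMul.eq_of_smul_eq_smul (α := Ω)
      intro ω
      obtain ⟨n, hn⟩ := MulAction.exists_smul_eq N ω₀ ω
      have hn' : (n : G) • ω₀ = ω := hn
      rw [one_smul, ← hn', ← mul_smul]
      have : g ^ p ^ (r - 1) * (n : G) = n * g ^ p ^ (r - 1) := by
        have := hcn n
        rw [mul_inv_eq_iff_eq_mul] at this
        exact this
      rw [this, mul_smul, hfix]
    have hdvd := orderOf_dvd_of_pow_eq_one hone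
    rw [hg, Nat.pow_dvd_pow_iff_le_right hp.one_lt] at hdvd
    omega
  refine ⟨main, ?_⟩
  rintro rfl
  constructor
  · by_contra hlt
    push Not at hlt
    have h1 : 2 ^ (r - 1) ≤ p ^ (r - 1) := Nat.pow_le_pow_left hp.two_le _
    have h2 := two_pow_gt (r - 1) (by omega)
    omega
  · intro hp2
    by_contra hlt
    push Not at hlt
    have h1 : 3 ^ (r - 1) ≤ p ^ (r - 1) := Nat.pow_le_pow_left hp2 _
    have h2 := three_pow_gt (r - 1) (by omega)
    omega

end Cfsg.Agent.S3508
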