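import Mathlib
import Cfsg.Statements.S3511

set_option autoImplicit false
open Cfsg

namespace Cfsg.Agent.S3511

lemma squarefree_rad (n : ℕ) : Squarefree (∏ p ∈ n.primeFactors, p) := by
  refine Finset.squarefree_prod_of_pairwise_isCoprime ?_ ?_
  · intro a ha b hb hab
    have ha' := (Nat.mem_primeFactors.1 ha).1
    have hb' := (Nat.mem_primeFactors.1 hb).1
    have : Nat.Coprime a b := (Nat.coprime_primes ha' hb').2 hab
    exact Nat.coprime_iff_isRelPrime.1 this
  · intro a ha
    exact (Nat.mem_primeFactors.1 ha).1.prime.squarefree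

/-- Let a finite group G act faithfully on a set Ω. If every element of G of square-free order has a regular cycle (an orbit of the cyclic group it generates with trivial stabilizer), then every element of G has a regular cycle. -/
theorem result {G : Type*} [Group G] [Finite G] {Ω : Type*} [MulAction G Ω] [FaithfulSMul G Ω]
    (h : ∀ g : G, Squarefree (orderOf g) → ∃ ω : Ω, MulAction.stabilizer (Subgroup.zpowers g) ω = ⊥) (g : G) :
    ∃ ω : Ω, MulAction.stabilizer (Subgroup.zpowers g) ω = ⊥ := by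
  classical
  set n := orderOf g with hn
  have hnpos : 0 < n := orderOf_pos g
  set r := ∏ p ∈ n.primeFactors, p with hr
  have hrn : r ∣ n := Nat.prod_primeFactors_dvd n
  obtain ⟨d, hd⟩ := hrn
  have hrpos : 0 < r := Nat.pos_of_ne_zero (by rintro h0; rw [h0] at hd; omega)
  have hdpos : 0 < d := Nat.pos_of_ne_zero (by rintro h0; rw [h0] at hd; omega)
  have hord : orderOf (g ^ d) = r := by
    rw [orderOf_pow' g hdpos.ne', ← hn, hd, Nat.gcd_eq_right (Dvd.intro_left r rfl)]
    exact Nat.mul_div_cancel _ hdpos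
  obtain ⟨ω, hω⟩ := h (g ^ d) (by rw [hord]; exact squarefree_rad n)
  refine ⟨ω, ?_⟩
  rw [eq_bot_iff]
  rintro ⟨x, hx⟩ hxs
  rw [Subgroup.mem_bot]
  have hxω : x • ω = ω := hxs
  by_contra hne
  have hx1 : x ≠ 1 := fun h1 => hne (Subtype.ext h1)
  have hdx : orderOf x ≠ 1 := fun h1 => hx1 (orderOf_eq_one_iff.1 h1)
  obtain ⟨p, hp, hpx⟩ := Nat.exists_prime_and_dvd hdx
  obtain ⟨c, hc⟩ := hpx
  have hoxpos : 0 < orderOf x := orderOf_pos x
  have hcpos : 0 < c := Nat.pos_of_ne_zero (by rintro h0; rw [h0] at hc; omega)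
  -- `y = x ^ c` has order `p`
  set y := x ^ c with hy
  have hyp : y ^ p = 1 := by
    rw [hy, ← pow_mul, mul_comm, ← hc, pow_orderOf_eq_one]
  have hy1 : y ≠ 1 := by
    intro hy1
    have := orderOf_dvd_of_pow_eq_one hy1
    rw [hc] at this
    have hle := Nat.le_of_dvd hcpos this
    have := hp.two_le
    nlinarith
  have hymem : y ∈ Subgroup.zpowers g := Subgroup.pow_mem _ hx c
  obtain ⟨b, hb⟩ := (mem_powers_iff_mem_zpowers.2 hymem)
  simp only at hb
  -- n ∣ b * p
  have hbp : n ∣ b * p := by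
    rw [hn]
    apply orderOf_dvd_of_pow_eq_one
    rw [pow_mul, hb, hyp]
  -- p ∣ r, hence `d ∣ b`
  have hpn : p ∣ n := by
    rw [hn]
    have hxo : orderOf x ∣ orderOf g := by
      have := Subgroup.orderOf_dvd_natCard (Subgroup.zpowers g) hx
      rwa [Nat.card_zpowers] at this
    exact (Dvd.intro _ hc.symm).trans hxo
  have hpr : p ∣ r := Finset.dvd_prod_of_mem _ (Nat.mem_primeFactors.2 ⟨hp, hpn, hnpos.ne'⟩)
  obtain ⟨r', hr'⟩ := hpr
  have hdb : d ∣ b := by
    have h1 : p * (r' * d) ∣ p * b := by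
      have : n = p * (r' * d) := by rw [hd, hr']; ring
      rw [← this, mul_comm p b]; exact hbp
    have h2 : r' * d ∣ b := (Nat.mul_dvd_mul_iff_left hp.pos).1 h1
    exact (Dvd.intro_left r' rfl).trans h2
  obtain ⟨e, he⟩ := hdb
  have hyd : y ∈ Subgroup.zpowers (g ^ d) := by
    rw [← hb, he, pow_mul]
    exact Subgroup.pow_mem _ (Subgroup.mem_zpowers _) e
  have hyω : y • ω = ω := by
    rw [hy]
    have : ∀ k : ℕ, x ^ k • ω = ω := by
      intro k
      induction k with
      | zero => simp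
      | succ k ih => rw [pow_succ, mul_smul, hxω, ih]
    exact this c
  have hmem : (⟨y, hyd⟩ : Subgroup.zpowers (g ^ d)) ∈ MulAction.stabilizer (Subgroup.zpowers (g ^ d)) ω :=
    hyω
  rw [hω, Subgroup.mem_bot] at hmem
  exact hy1 (congrArg Subtype.val hmem)

end Cfsg.Agent.S3511
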