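import Mathlib
import Cfsg.Statements.S3515
import Cfsg.Agent.Lib.AffineTriple

set_option autoImplicit false
open Cfsg

namespace Cfsg.Agent.S3515

theorem hall2 : ∀ x : Fin 2 → ZMod 2, x = 0 ∨ x = ![1, 0] ∨ x = ![0, 1] ∨ x = ![1, 1] := by
  decide

/-- Every primitive affine permutation group of degree p² is 3-closed. Let p be a prime and G a group of permutations of the plane V = F_p² consisting of affine maps x ↦ Ax + b, containing all translations, and acting primitively on V. Then any permutation σ of V that agrees on every triple of points with some element of G (σ preserves every G-orbit on ordered triples) already lies in G. -/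
theorem result (p : ℕ) [Fact p.Prime] (G : Subgroup (Equiv.Perm (Fin 2 → ZMod p)))
    (haff : (G : Set (Equiv.Perm (Fin 2 → ZMod p))) ⊆ {τ : Equiv.Perm (Fin 2 → ZMod p) | ∃ (A : (Fin 2 → ZMod p) ≃ₗ[ZMod p] (Fin 2 → ZMod p)) (b : Fin 2 → ZMod p), ∀ x, τ x = A x + b})
    (htrans : ∀ b : Fin 2 → ZMod p, ∃ g ∈ G, ∀ x, g x = x + b) (hprim : MulAction.IsPreprimitive G (Fin 2 → ZMod p))
    (σ : Equiv.Perm (Fin 2 → ZMod p)) (hσ : (∀ t : Fin 3 → (Fin 2 → ZMod p), ∃ g ∈ G, ∀ i, σ (t i) = g (t i))) : σ ∈ G := by
  classical
  set e1 : Fin 2 → ZMod p := ![1, 0] with he1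
  set e2 : Fin 2 → ZMod p := ![0, 1] with he2
  obtain ⟨g, hg, hgt⟩ := hσ ![0, e1, e2]
  obtain ⟨A, b, hA⟩ := haff hg
  have h0 : σ 0 = g 0 := by simpa using hgt 0
  have h1 : σ e1 = g e1 := by simpa using hgt 1
  have h2 : σ e2 = g e2 := by simpa using hgt 2
  suffices hs : σ = g by rw [hs]; exact hg
  by_cases hp : p = 2
  · subst hp
    have hall := hall2
    have he3 : ∀ x, x ≠ 0 → x ≠ e1 → x ≠ e2 → ∀ y, y ≠ 0 → y ≠ e1 → y ≠ e2 → x = y := by
      intro x h0 h1 h2 y h3 h4 h5
      rcases hall x with h | h | h | h
      · exact absurd h h0
      · exact absurd h h1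
      · exact absurd h h2
      · rcases hall y with h' | h' | h' | h'
        · exact absurd h' h3
        · exact absurd h' h4
        · exact absurd h' h5
        · rw [h, h']
    ext1 x
    by_cases hx0 : x = 0
    · rw [hx0, h0]
    by_cases hx1 : x = e1
    · rw [hx1, h1]
    by_cases hx2 : x = e2
    · rw [hx2, h2]
    -- both `g⁻¹ (σ x)` and `x` avoid `0, e1, e2`
    have key : g⁻¹ (σ x) = x := by
      apply he3
      · intro h
        apply hx0
        apply σ.injective
        rw [h0]
        have := congrArg g h
        simpa using this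
      · intro h
        apply hx1
        apply σ.injective
        rw [h1]
        have := congrArg g h
        simpa using this
      · intro h
        apply hx2
        apply σ.injective
        rw [h2]
        have := congrArg g h
        simpa using this
      · exact hx0
      · exact hx1
      · exact hx2
    have := congrArg g key
    simpa using this
  · -- odd characteristic
    obtain ⟨L, hL⟩ := Cfsg.Agent.Lib.AffineTriple.exists_linear (p := p) hp
      (fun x => σ x - σ 0) (by simp) (by
        intro x y z
        obtain ⟨g', hg', hgt'⟩ := hσ ![x, y, z]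
        obtain ⟨A', b', hA'⟩ := haff hg'
        refine ⟨A'.toLinearMap, b' - σ 0, ?_, ?_, ?_⟩
        · have := hgt' 0
          simp only [Matrix.cons_val_zero] at this
          rw [this, hA']
          simp [add_sub_assoc]
        · have := hgt' 1
          simp only [Matrix.cons_val_one, Matrix.cons_val_zero] at this
          rw [this, hA']
          simp [add_sub_assoc]
        · have := hgt' 2
          simp only [Matrix.cons_val] at this
          rw [this, hA']
          simp [add_sub_assoc])
    have hb : σ 0 = b := by
      rw [h0, hA]; simp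
    have hL1 : L e1 = A e1 := by
      have := hL e1
      rw [h1, hA, hb] at this
      simp only [add_sub_cancel_right] at this
      exact this.symm
    have hL2 : L e2 = A e2 := by
      have := hL e2
      rw [h2, hA, hb] at this
      simp only [add_sub_cancel_right] at this
      exact this.symm
    have hdec : ∀ x : Fin 2 → ZMod p, x = x 0 • e1 + x 1 • e2 := by
      intro x
      ext i
      fin_cases i <;> simp [he1, he2]
    ext1 x
    have hx : σ x - σ 0 = L x := hL x
    have : σ x = L x + b := by rw [← hx, hb.symm]; abel
    rw [this, hA, hdec x]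
    simp [hL1, hL2]

end Cfsg.Agent.S3515
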