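import Mathlib
import Cfsg.Statements.S3516
import Cfsg.Agent.Lib.AffineTriple

set_option autoImplicit false
open Cfsg

namespace Cfsg.Agent.S3516

/-- A linear automorphism agrees on a subspace of dimension `≤ 2` with a determinant-one
automorphism, in dimension `≥ 3`. -/
theorem exists_det_one {K V : Type*} [Field K] [AddCommGroup V] [Module K V]
    [FiniteDimensional K V] (hd : 3 ≤ Module.finrank K V)
    (A : V ≃ₗ[K] V) (u₁ u₂ : V) :
    ∃ B : V ≃ₗ[K] V, LinearMap.det (B : V →ₗ[K] V) = 1 ∧ B u₁ = A u₁ ∧ B u₂ = A u₂ := by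
  classical
  let W : Submodule K V := Submodule.span K (({u₁, u₂} : Finset V) : Set V)
  have hW : W ≠ ⊤ := by
    intro h
    have h1 : Module.finrank K W ≤ 2 := by
      have : Module.finrank K W ≤ ({u₁, u₂} : Finset V).card :=
        finrank_span_finset_le_card (R := K) ({u₁, u₂} : Finset V)
      have h2 : (({u₁, u₂} : Finset V)).card ≤ 2 := Finset.card_le_two
      omega
    rw [h, finrank_top] at h1
    omega
  obtain ⟨v, hv⟩ : ∃ v, v ∉ W := by
    by_contra hcon
    push Not at hcon
    exact hW (Submodule.eq_top_iff'.mpr hcon)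
  obtain ⟨f, hfv, hfW⟩ := Submodule.exists_dual_map_eq_bot_of_notMem hv inferInstance
  have hfW' : ∀ x ∈ W, f x = 0 := by
    intro x hx
    exact LinearMap.mem_ker.mp (LinearMap.le_ker_iff_map.mpr hfW hx)
  have hdetA : LinearMap.det (A : V →ₗ[K] V) ≠ 0 := by
    exact (LinearEquiv.isUnit_det' A).ne_zero
  set δ := LinearMap.det (A : V →ₗ[K] V) with hδ
  -- the dilation along `v`
  let w : V := ((f v)⁻¹ * (δ⁻¹ - 1)) • v
  let C : V →ₗ[K] V := LinearMap.transvection f w
  have hdetC : LinearMap.det C = δ⁻¹ := by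
    have : LinearMap.det C = 1 + f w := LinearMap.transvection.det f w
    rw [this]
    simp only [w, map_smul, smul_eq_mul]
    field_simp
    ring
  let B' : V →ₗ[K] V := (A : V →ₗ[K] V) ∘ₗ C
  have hdetB' : LinearMap.det B' = 1 := by
    simp only [B', LinearMap.det_comp, hdetC]
    exact mul_inv_cancel₀ hdetA
  let B := LinearMap.equivOfIsUnitDet (M := V) (f := B') (by rw [hdetB']; exact isUnit_one)
  refine ⟨B, ?_, ?_, ?_⟩
  · have : (B : V →ₗ[K] V) = B' := by
      exact LinearMap.coe_equivOfIsUnitDet _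
    rw [this, hdetB']
  · rw [LinearMap.equivOfIsUnitDet_apply]
    have hu : f u₁ = 0 := hfW' _ (Submodule.subset_span (by simp))
    simp [B', C, LinearMap.transvection.apply, hu]
  · rw [LinearMap.equivOfIsUnitDet_apply]
    have hu : f u₂ = 0 := hfW' _ (Submodule.subset_span (by simp))
    simp [B', C, LinearMap.transvection.apply, hu]

/-- Let p be an odd prime, d ≥ 3, and G a group of affine permutations x ↦ Ax + b of V = F_p^d containing all translations and all maps x ↦ Ax with A of determinant 1. Then the 3-closure of G is the full affine group: a permutation σ of V agrees on every triple of points with some element of G if and only if σ is an affine map. -/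
theorem result (p : ℕ) [Fact p.Prime] (hp : p ≠ 2) (d : ℕ) (hd : 3 ≤ d) (G : Subgroup (Equiv.Perm (Fin d → ZMod p)))
    (haff : (G : Set (Equiv.Perm (Fin d → ZMod p))) ⊆ {τ : Equiv.Perm (Fin d → ZMod p) | ∃ (A : (Fin d → ZMod p) ≃ₗ[ZMod p] (Fin d → ZMod p)) (b : Fin d → ZMod p), ∀ x, τ x = A x + b})
    (htrans : ∀ b : Fin d → ZMod p, ∃ g ∈ G, ∀ x, g x = x + b)
    (hsl : ∀ A : (Fin d → ZMod p) ≃ₗ[ZMod p] (Fin d → ZMod p), LinearMap.det (A : (Fin d → ZMod p) →ₗ[ZMod p] (Fin d → ZMod p)) = 1 → ∃ g ∈ G, ∀ x, g x = A x)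
    (σ : Equiv.Perm (Fin d → ZMod p)) :
    (∀ t : Fin 3 → (Fin d → ZMod p), ∃ g ∈ G, ∀ i, σ (t i) = g (t i)) ↔ σ ∈ {τ : Equiv.Perm (Fin d → ZMod p) | ∃ (A : (Fin d → ZMod p) ≃ₗ[ZMod p] (Fin d → ZMod p)) (b : Fin d → ZMod p), ∀ x, τ x = A x + b} := by
  classical
  constructor
  · intro hσ
    obtain ⟨L, hL⟩ := Cfsg.Agent.Lib.AffineTriple.exists_linear (p := p) hp
      (fun x => σ x - σ 0) (by simp) (by
        intro x y z
        obtain ⟨g', hg', hgt'⟩ := hσ ![x, y, z]
        obtain ⟨A', b', hA'⟩ := haff hg'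
        refine ⟨A'.toLinearMap, b' - σ 0, ?_, ?_, ?_⟩
        · have := hgt' 0
          simp only [Matrix.cons_val_zero] at this
          rw [this, hA']
          simp [add_sub_assoc]
        · have := hgt' 1
          simp only [Matrix.cons_val_one, Matrix.cons_val_zero] at this
          rw [this, hA']
          simp [add_sub_assoc]
        · have := hgt' 2
          simp only [Matrix.cons_val] at this
          rw [this, hA']
          simp [add_sub_assoc])
    have hL' : ∀ x, σ x = L x + σ 0 := by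
      intro x
      have : σ x - σ 0 = L x := hL x
      rw [← this]; abel
    have hinj : Function.Injective L := by
      intro x y hxy
      apply σ.injective
      rw [hL' x, hL' y, hxy]
    have hbij : Function.Bijective L := by
      exact ⟨hinj, LinearMap.injective_iff_surjective.mp hinj⟩
    exact ⟨LinearEquiv.ofBijective L hbij, σ 0, fun x => by simpa using hL' x⟩
  · rintro ⟨A, b, hA⟩ t
    obtain ⟨B, hdet, hB1, hB2⟩ := exists_det_one (K := ZMod p) (V := Fin d → ZMod p) (by simpa using hd) A (t 1 - t 0) (t 2 - t 0)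
    obtain ⟨g₁, hg₁, hg₁'⟩ := htrans (-t 0)
    obtain ⟨g₂, hg₂, hg₂'⟩ := hsl B hdet
    obtain ⟨g₃, hg₃, hg₃'⟩ := htrans (A (t 0) + b)
    refine ⟨g₃ * g₂ * g₁, G.mul_mem (G.mul_mem hg₃ hg₂) hg₁, ?_⟩
    intro i
    have hval : (g₃ * g₂ * g₁) (t i) = B (t i - t 0) + (A (t 0) + b) := by
      simp only [Equiv.Perm.coe_mul, Function.comp_apply]
      rw [hg₁', hg₂', hg₃', sub_eq_add_neg]
    rw [hval, hA]
    have hBi : B (t i - t 0) = A (t i - t 0) := by
      fin_cases i
      · simp
      · exact hB1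
      · exact hB2
    rw [hBi, map_sub]
    abel

end Cfsg.Agent.S3516
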