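import Mathlib
import Cfsg.Statements.S3517

set_option autoImplicit false
set_option linter.all false
open Cfsg

namespace Cfsg.Agent.S3517

open Module

theorem sumExtend_inl {K V ι : Type*} [Field K] [AddCommGroup V] [Module K V] {v : ι → V}
    (hv : LinearIndependent K v) (i : ι) : Basis.sumExtend hv (Sum.inl i) = v i := by
  simp only [Basis.sumExtend, Basis.reindex_apply]
  simp only [Basis.coe_extend]
  rfl

theorem exists_equiv_of_li {K V : Type*} [Field K] [AddCommGroup V] [Module K V]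
    [FiniteDimensional K V] {ι : Type*} [Finite ι] {v w : ι → V}
    (hv : LinearIndependent K v) (hw : LinearIndependent K w) :
    ∃ A : V ≃ₗ[K] V, ∀ i, A (v i) = w i := by
  classical
  haveI := Fintype.ofFinite ι
  set b := Basis.sumExtend hv with hb
  set b' := Basis.sumExtend hw with hb'
  haveI : Finite (ι ⊕ Basis.sumExtendIndex hv) := Module.Finite.finite_basis b
  haveI : Finite (ι ⊕ Basis.sumExtendIndex hw) := Module.Finite.finite_basis b'
  haveI : Finite (Basis.sumExtendIndex hv) :=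
    Finite.of_injective (Sum.inr : _ → ι ⊕ Basis.sumExtendIndex hv) Sum.inr_injective
  haveI : Finite (Basis.sumExtendIndex hw) :=
    Finite.of_injective (Sum.inr : _ → ι ⊕ Basis.sumExtendIndex hw) Sum.inr_injective
  have h1 : Nat.card (ι ⊕ Basis.sumExtendIndex hv) = Nat.card (ι ⊕ Basis.sumExtendIndex hw) := by
    rw [← Module.finrank_eq_nat_card_basis b, ← Module.finrank_eq_nat_card_basis b']
  have h2 : Nat.card (Basis.sumExtendIndex hv) = Nat.card (Basis.sumExtendIndex hw) := by
    rw [Nat.card_sum, Nat.card_sum] at h1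
    omega
  obtain ⟨e⟩ := Finite.card_eq.mp h2
  let e' : ι ⊕ Basis.sumExtendIndex hv ≃ ι ⊕ Basis.sumExtendIndex hw :=
    Equiv.sumCongr (Equiv.refl _) e
  refine ⟨b.equiv b' e', fun i => ?_⟩
  have h3 : b (Sum.inl i) = v i := sumExtend_inl hv i
  have h4 : b' (Sum.inl i) = w i := sumExtend_inl hw i
  rw [← h3, ← h4, Basis.equiv_apply]
  rfl

abbrev V2 (d : ℕ) := Fin d → ZMod 2

theorem add_self_zero {d : ℕ} (z : V2 d) : z + z = 0 := by
  funext i
  exact CharTwo.add_self_eq_zero (z i)

theorem li_pair {d : ℕ} {x y : V2 d} (hx : x ≠ 0) (hy : y ≠ 0) (hxy : x ≠ y) :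
    LinearIndependent (ZMod 2) ![x, y] := by
  rw [LinearIndependent.pair_iff]
  intro s t h
  have hs : s = 0 ∨ s = 1 := by
    fin_cases s
    · exact Or.inl rfl
    · exact Or.inr rfl
  have ht : t = 0 ∨ t = 1 := by
    fin_cases t
    · exact Or.inl rfl
    · exact Or.inr rfl
  rcases hs with rfl | rfl <;> rcases ht with rfl | rfl
  · exact ⟨rfl, rfl⟩
  · simp at h
    exact absurd h hy
  · simp at h
    exact absurd h hx
  · exfalso
    simp only [one_smul] at h
    apply hxy
    have h1 := add_self_zero y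
    have h2 : x + y = y + y := by rw [h, h1]
    exact add_right_cancel h2

theorem sub_ne {d : ℕ} {x y : V2 d} (h : x ≠ y) : x - y ≠ 0 := sub_ne_zero.mpr h

theorem exists_affine {d : ℕ} {p q r p' q' r' : V2 d} (h1 : p ≠ q) (h2 : p ≠ r) (h3 : q ≠ r)
    (h1' : p' ≠ q') (h2' : p' ≠ r') (h3' : q' ≠ r') :
    ∃ (A : V2 d ≃ₗ[ZMod 2] V2 d) (b : V2 d), p' = A p + b ∧ q' = A q + b ∧ r' = A r + b := by
  have hli := li_pair (sub_ne (Ne.symm h1)) (sub_ne (Ne.symm h2))
    (fun h => h3 (sub_left_injective h))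
  have hli' := li_pair (sub_ne (Ne.symm h1')) (sub_ne (Ne.symm h2'))
    (fun h => h3' (sub_left_injective h))
  obtain ⟨A, hA⟩ := exists_equiv_of_li hli hli'
  have e0 : A (q - p) = q' - p' := hA 0
  have e1 : A (r - p) = r' - p' := hA 1
  rw [map_sub] at e0 e1
  refine ⟨A, p' - A p, ?_, ?_, ?_⟩
  · abel
  · rw [show A q + (p' - A p) = (A q - A p) + p' by abel, e0]; abel
  · rw [show A r + (p' - A p) = (A r - A p) + p' by abel, e1]; abel

/-- For d ≥ 3, the 3-closure of the affine group AGL_d(2) acting on F_2^d is the full symmetric group: every permutation of F_2^d agrees on every ordered triple of points with some affine map (AGL_d(2) is 3-transitive). -/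
theorem result (d : ℕ) (hd : 3 ≤ d) (σ : Equiv.Perm (Fin d → ZMod 2)) (t : Fin 3 → (Fin d → ZMod 2)) :
    ∃ (A : (Fin d → ZMod 2) ≃ₗ[ZMod 2] (Fin d → ZMod 2)) (b : Fin d → ZMod 2), ∀ i, σ (t i) = A (t i) + b := by
  classical
  have hcard : 3 ≤ Fintype.card (Fin d → ZMod 2) := by
    have : Fintype.card (Fin d → ZMod 2) = 2 ^ d := by simp [ZMod.card]
    rw [this]
    calc 3 ≤ 2 ^ 3 := by norm_num
      _ ≤ 2 ^ d := Nat.pow_le_pow_right (by norm_num) hd
  have hs : (Finset.univ.image t).card ≤ 3 := by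
    refine le_trans Finset.card_image_le ?_
    simp
  obtain ⟨T, hT1, hT2⟩ := Finset.exists_superset_card_eq hs hcard
  obtain ⟨p, q, r, h1, h2, h3, rfl⟩ := Finset.card_eq_three.mp hT2
  obtain ⟨A, b, e1, e2, e3⟩ := exists_affine h1 h2 h3
    (σ.injective.ne h1) (σ.injective.ne h2) (σ.injective.ne h3)
  refine ⟨A, b, fun i => ?_⟩
  have hi : t i ∈ ({p, q, r} : Finset _) := hT1 (Finset.mem_image_of_mem t (Finset.mem_univ i))
  simp only [Finset.mem_insert, Finset.mem_singleton] at hi
  rcases hi with h | h | h <;> rw [h]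
  · exact e1
  · exact e2
  · exact e3

end Cfsg.Agent.S3517
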