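import Mathlib
import Cfsg.Statements.S3518

set_option autoImplicit false
set_option linter.all false
open Cfsg

namespace Cfsg.Agent.S3518

open Polynomial Finset

variable {p : ℕ} [hp : Fact p.Prime]

theorem card_zmod : Fintype.card (ZMod p) = p := ZMod.card p

/-- Power sums over the prime field. -/
theorem power_sum (m : ℕ) (hm : 0 < m) (h : m < 2 * (p - 1)) :
    ∑ w : ZMod p, w ^ m = if m = p - 1 then -1 else 0 := by
  have hp1 := hp.out.one_lt
  have hlt : ∀ s : ℕ, s < p - 1 → ∑ x : ZMod p, x ^ s = 0 := by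
    intro s hs
    apply FiniteField.sum_pow_lt_card_sub_one
    rw [card_zmod]
    exact hs
  split_ifs with h1
  · subst h1
    have h2 : ∀ w : ZMod p, w ^ (p - 1) = if w = 0 then 0 else 1 := by
      intro w
      by_cases hw : w = 0
      · subst hw
        simp only [if_true]
        exact zero_pow (by omega)
      · simp only [hw, if_false]
        exact ZMod.pow_card_sub_one_eq_one hw
    simp_rw [h2]
    rw [Finset.sum_ite, Finset.sum_const_zero, zero_add, Finset.sum_const, nsmul_one]
    have h3 : (Finset.univ.filter (fun w : ZMod p => ¬ w = 0)).card = p - 1 := by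
      rw [Finset.filter_not, Finset.card_sdiff_of_subset (Finset.subset_univ _)]
      have h4 : Finset.univ.filter (fun w : ZMod p => w = 0) = {0} := by
        ext w; simp
      rw [h4, Finset.card_univ, card_zmod, Finset.card_singleton]
    rw [h3, Nat.cast_sub hp1.le]
    simp
  · rcases Nat.lt_or_gt_of_ne h1 with h2 | h2
    · exact hlt m h2
    · obtain ⟨s, hs⟩ : ∃ s, m = (p - 1) + s := ⟨m - (p - 1), by omega⟩
      have hs0 : 0 < s := by omega
      have h3 : ∀ w : ZMod p, w ^ m = w ^ s := by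
        intro w
        by_cases hw : w = 0
        · subst hw
          rw [zero_pow (by omega), zero_pow (by omega)]
        · rw [hs, pow_add, ZMod.pow_card_sub_one_eq_one hw, one_mul]
      simp_rw [h3]
      exact hlt s (by omega)

/-- The key formula. -/
theorem key (f : Equiv.Perm (ZMod p)) (d : ℕ) (hd1 : 0 < d) (hd2 : 2 * d ≤ p - 1)
    (hf : ∀ x y, (f x - f y) ^ d = (x - y) ^ d) (i : ℕ) (hi : i ≤ d) (x : ZMod p) :
    ∑ y : ZMod p, (f y) ^ (p - 1 - d + i) * (x - y) ^ d
      = - (((d.choose i : ℕ) : ZMod p) * (-1) ^ (d - i) * f x ^ i) := by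
  have hp1 := hp.out.one_lt
  have h1 : ∀ y : ZMod p, (f y) ^ (p - 1 - d + i) * (x - y) ^ d
      = ∑ j ∈ Finset.range (d + 1), (f x) ^ j * (-1) ^ (d - j) * ((d.choose j : ℕ) : ZMod p)
          * (f y) ^ (p - 1 + i - j) := by
    intro y
    rw [← hf x y, sub_eq_add_neg, add_pow, Finset.mul_sum]
    apply Finset.sum_congr rfl
    intro j hj
    rw [Finset.mem_range] at hj
    have hj' : j ≤ d := by omega
    have h2 : (f y) ^ (p - 1 + i - j) = (f y) ^ (p - 1 - d + i) * (f y) ^ (d - j) := by
      rw [← pow_add]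
      congr 1
      omega
    rw [h2, neg_pow (f y) (d - j)]
    ring
  simp_rw [h1]
  rw [Finset.sum_comm]
  have h2 : ∀ j ∈ Finset.range (d + 1), ∑ y : ZMod p, (f x) ^ j * (-1) ^ (d - j)
        * ((d.choose j : ℕ) : ZMod p) * (f y) ^ (p - 1 + i - j)
      = (f x) ^ j * (-1) ^ (d - j) * ((d.choose j : ℕ) : ZMod p)
        * (if j = i then -1 else 0) := by
    intro j hj
    rw [Finset.mem_range] at hj
    rw [← Finset.mul_sum]
    congr 1
    rw [Equiv.sum_comp f (fun w => w ^ (p - 1 + i - j))]
    rw [power_sum _ (by omega) (by omega)]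
    by_cases hji : j = i
    · subst hji
      rw [if_pos (by omega), if_pos rfl]
    · rw [if_neg (by omega), if_neg hji]
  rw [Finset.sum_congr rfl h2, Finset.sum_eq_single i]
  · rw [if_pos rfl]
    ring
  · intro j _ hj
    rw [if_neg hj, mul_zero]
  · intro h
    exfalso
    apply h
    rw [Finset.mem_range]
    omega

/-- The powers of `f` are polynomial functions of degree at most `d`. -/
theorem exists_poly (f : Equiv.Perm (ZMod p)) (d : ℕ) (hd1 : 0 < d) (hd2 : 2 * d ≤ p - 1)
    (hf : ∀ x y, (f x - f y) ^ d = (x - y) ^ d) (i : ℕ) (hi : i ≤ d) :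
    ∃ P : (ZMod p)[X], P.natDegree ≤ d ∧ ∀ x, P.eval x = f x ^ i := by
  have hp1 := hp.out.one_lt
  have hchoose : ((d.choose i : ℕ) : ZMod p) ≠ 0 := by
    intro h
    rw [ZMod.natCast_eq_zero_iff] at h
    have h1 := Nat.choose_mul_factorial_mul_factorial hi
    have h2 : p ∣ d.factorial := by
      rw [← h1]
      exact Dvd.dvd.mul_right (Dvd.dvd.mul_right h _) _
    have h3 := (Nat.Prime.dvd_factorial hp.out).mp h2
    omega
  have hsign : ((-1 : ZMod p)) ^ (d - i) ≠ 0 := pow_ne_zero _ (neg_ne_zero.mpr one_ne_zero)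
  set κ : ZMod p := (-(((d.choose i : ℕ) : ZMod p) * (-1) ^ (d - i)))⁻¹ with hκ
  have hκ' : κ * (-(((d.choose i : ℕ) : ZMod p) * (-1) ^ (d - i))) = 1 := by
    rw [hκ]
    apply inv_mul_cancel₀
    exact neg_ne_zero.mpr (mul_ne_zero hchoose hsign)
  refine ⟨C κ * ∑ y : ZMod p, C ((f y) ^ (p - 1 - d + i)) * (X - C y) ^ d, ?_, ?_⟩
  · refine (natDegree_C_mul_le _ _).trans ?_
    apply natDegree_sum_le_of_forall_le
    intro y _
    refine (natDegree_C_mul_le _ _).trans ?_
    refine natDegree_pow_le.trans ?_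
    have : (X - C y).natDegree = 1 := natDegree_X_sub_C y
    rw [this, mul_one]
  · intro x
    rw [eval_mul, eval_C, eval_finset_sum]
    have h1 : ∀ y : ZMod p, eval x (C ((f y) ^ (p - 1 - d + i)) * (X - C y) ^ d)
        = (f y) ^ (p - 1 - d + i) * (x - y) ^ d := by
      intro y
      simp
    simp_rw [h1]
    rw [key f d hd1 hd2 hf i hi x]
    calc κ * -(((d.choose i : ℕ) : ZMod p) * (-1) ^ (d - i) * f x ^ i)
        = (κ * (-(((d.choose i : ℕ) : ZMod p) * (-1) ^ (d - i)))) * f x ^ i := by ring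
      _ = f x ^ i := by rw [hκ', one_mul]

/-- Main lemma: a permutation with difference quotients in the `d`-th roots of unity, with `2d ≤ p-1`,
is affine. -/
theorem affine_of_identity (f : Equiv.Perm (ZMod p)) (d : ℕ) (hd1 : 0 < d) (hd2 : 2 * d ≤ p - 1)
    (hf : ∀ x y, (f x - f y) ^ d = (x - y) ^ d) :
    ∃ α β : ZMod p, ∀ x, f x = α * x + β := by
  have hp1 := hp.out.one_lt
  obtain ⟨F, hF1, hF2⟩ := exists_poly f d hd1 hd2 hf 1 hd1
  simp only [pow_one] at hF2
  have hdeg : F.natDegree ≤ 1 := by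
    by_contra hcon
    push Not at hcon
    set n := F.natDegree with hn
    have hd2' : 2 ≤ d := by omega
    set j := d / n + 1 with hj
    have hj1 : j ≤ d := by
      have h1 : d / n ≤ d / 2 := Nat.div_le_div_left hcon (by norm_num)
      have h2 : d / 2 + 1 ≤ d := by omega
      omega
    obtain ⟨P, hP1, hP2⟩ := exists_poly f d hd1 hd2 hf j hj1
    have hnpos : 0 < n := by omega
    have hjn : d < j * n := by
      have := Nat.lt_mul_div_succ d hnpos
      rw [hj, mul_comm]
      exact this
    have hjn2 : j * n ≤ d + n := by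
      rw [hj, add_mul, one_mul]
      have := Nat.div_mul_le_self d n
      omega
    have hF0 : F ≠ 0 := by
      intro h
      rw [h] at hn
      simp at hn
      omega
    have hdegpow : (F ^ j).natDegree = j * n := by
      rw [natDegree_pow]
    have hQ : F ^ j - P = 0 := by
      apply eq_zero_of_natDegree_lt_card_of_eval_eq_zero _ (f := fun x : ZMod p => x)
        Function.injective_id
      · intro x
        rw [eval_sub, eval_pow, hF2, hP2, sub_self]
      · rw [card_zmod]
        have h1 : (F ^ j - P).natDegree ≤ max (F ^ j).natDegree P.natDegree := natDegree_sub_le _ _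
        have h2 : max (F ^ j).natDegree P.natDegree ≤ d + n := by
          apply max_le
          · rw [hdegpow]; exact hjn2
          · omega
        omega
    have h1 : F ^ j = P := sub_eq_zero.mp hQ
    rw [← h1, hdegpow] at hP1
    omega
  have h1 := eq_X_add_C_of_natDegree_le_one hdeg
  refine ⟨F.coeff 1, F.coeff 0, fun x => ?_⟩
  rw [← hF2 x]
  conv_lhs => rw [h1]
  simp

/-- The affine permutation. -/
def aff (a : (ZMod p)ˣ) (b : ZMod p) : Equiv.Perm (ZMod p) where
  toFun x := (a : ZMod p) * x + b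
  invFun y := ((a⁻¹ : (ZMod p)ˣ) : ZMod p) * (y - b)
  left_inv x := by
    show ((a⁻¹ : (ZMod p)ˣ) : ZMod p) * ((a : ZMod p) * x + b - b) = x
    rw [add_sub_cancel_right, Units.inv_mul_cancel_left]
  right_inv y := by
    show (a : ZMod p) * (((a⁻¹ : (ZMod p)ˣ) : ZMod p) * (y - b)) + b = y
    rw [Units.mul_inv_cancel_left, sub_add_cancel]

theorem aff_apply (a : (ZMod p)ˣ) (b x : ZMod p) : aff a b x = (a : ZMod p) * x + b := rfl

theorem aff_mem (a : (ZMod p)ˣ) (b : ZMod p) : aff a b ∈ Cfsg.affineGroup (ZMod p) :=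
  ⟨a, b, fun _ => rfl⟩

/-- The multiplier group. -/
def mult (G : Subgroup (Equiv.Perm (ZMod p))) : Subgroup (ZMod p)ˣ where
  carrier := {a | ∃ g ∈ G, ∃ b : ZMod p, ∀ x, g x = (a : ZMod p) * x + b}
  one_mem' := ⟨1, G.one_mem, 0, fun x => by simp⟩
  mul_mem' := by
    rintro a a' ⟨g, hg, b, hb⟩ ⟨g', hg', b', hb'⟩
    refine ⟨g * g', G.mul_mem hg hg', (a : ZMod p) * b' + b, fun x => ?_⟩
    simp only [Equiv.Perm.coe_mul, Function.comp_apply, hb, hb', Units.val_mul]
    ring
  inv_mem' := by
    rintro a ⟨g, hg, b, hb⟩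
    refine ⟨g⁻¹, G.inv_mem hg, -(((a⁻¹ : (ZMod p)ˣ) : ZMod p) * b), fun x => ?_⟩
    apply g.injective
    rw [show g (g⁻¹ x) = x by simp, hb]
    have : (a : ZMod p) * ((a⁻¹ : (ZMod p)ˣ) : ZMod p) = 1 := a.mul_inv
    calc x = ((a : ZMod p) * ((a⁻¹ : (ZMod p)ˣ) : ZMod p)) * x := by rw [this, one_mul]
      _ = (a : ZMod p) * (((a⁻¹ : (ZMod p)ˣ) : ZMod p) * x + -(((a⁻¹ : (ZMod p)ˣ) : ZMod p) * b)) + b := by
        have h2 : (a : ZMod p) * (((a⁻¹ : (ZMod p)ˣ) : ZMod p) * b) = b := by
          rw [← mul_assoc, this, one_mul]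
        rw [mul_add, mul_neg, h2]
        ring

/-- Closures of subgroups of the one-dimensional affine group. Let p be a prime and G a group of permutations of F_p lying in the affine group AGL₁(p) = {x ↦ ax + b, a ≠ 0} and containing all translations. (1) If G is a proper subgroup of AGL₁(p), then G is 2-closed: a permutation of F_p agreeing on every ordered pair of points with some element of G lies in G. (2) Every permutation of F_p agrees on every ordered pair with some element of AGL₁(p) (the 2-closure of AGL₁(p) is the symmetric group). (3) AGL₁(p) is 3-closed: a permutation agreeing on every ordered triple with some affine map is affine. -/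
theorem result (p : ℕ) [Fact p.Prime] (G : Subgroup (Equiv.Perm (ZMod p))) (hG : G ≤ Cfsg.affineGroup (ZMod p))
    (htrans : ∀ b : ZMod p, ∃ g ∈ G, ∀ x, g x = x + b) :
    (G ≠ Cfsg.affineGroup (ZMod p) → ∀ σ : Equiv.Perm (ZMod p), (∀ t : Fin 2 → ZMod p, ∃ g ∈ G, ∀ i, σ (t i) = g (t i)) → σ ∈ G) ∧
    (∀ σ : Equiv.Perm (ZMod p), (∀ t : Fin 2 → ZMod p, ∃ g ∈ Cfsg.affineGroup (ZMod p), ∀ i, σ (t i) = g (t i))) ∧
    (∀ σ : Equiv.Perm (ZMod p), (∀ t : Fin 3 → ZMod p, ∃ g ∈ Cfsg.affineGroup (ZMod p), ∀ i, σ (t i) = g (t i)) → σ ∈ Cfsg.affineGroup (ZMod p)) := by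
  classical
  have hp1 := (Fact.out : p.Prime).one_lt
  refine ⟨?_, ?_, ?_⟩
  · intro hne σ hσ
    -- the multiplier group is proper
    have hmult : mult G ≠ ⊤ := by
      intro htop
      apply hne
      apply le_antisymm hG
      rintro τ ⟨a, b, hτ⟩
      have ha : a ∈ mult G := by rw [htop]; trivial
      obtain ⟨g, hg, b', hb'⟩ := ha
      obtain ⟨t, ht, htb⟩ := htrans (b - b')
      have : τ = t * g := by
        ext1 x
        simp only [Equiv.Perm.coe_mul, Function.comp_apply, htb, hb', hτ]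
        ring
      rw [this]
      exact G.mul_mem ht hg
    set d := Nat.card (mult G) with hd
    have hdpos : 0 < d := Nat.card_pos
    have hcard : Nat.card (ZMod p)ˣ = p - 1 := by
      rw [Nat.card_eq_fintype_card, ZMod.card_units_eq_totient, Nat.totient_prime Fact.out]
    have hd2 : 2 * d ≤ p - 1 := by
      have h1 := Subgroup.index_mul_card (mult G)
      rw [hcard] at h1
      have h2 : (mult G).index ≠ 1 := fun h => hmult (Subgroup.index_eq_one.mp h)
      have h3 : (mult G).index ≠ 0 := Subgroup.index_ne_zero_of_finite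
      have h4 : 2 ≤ (mult G).index := by omega
      rw [← h1]
      exact Nat.mul_le_mul_right _ h4
    have hroot : ∀ a ∈ mult G, (a : ZMod p) ^ d = 1 := by
      intro a ha
      have h1 : (⟨a, ha⟩ : mult G) ^ Nat.card (mult G) = 1 := pow_card_eq_one'
      have h2 : a ^ d = 1 := congrArg Subtype.val h1
      have h3 := congrArg Units.val h2
      simpa using h3
    have hid : ∀ x y, (σ x - σ y) ^ d = (x - y) ^ d := by
      intro x y
      obtain ⟨g, hg, hgt⟩ := hσ ![x, y]
      have h0 := hgt 0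
      have h1 := hgt 1
      simp only [Matrix.cons_val_zero, Matrix.cons_val_one] at h0 h1
      obtain ⟨a, b, hab⟩ := hG hg
      have ha : a ∈ mult G := ⟨g, hg, b, hab⟩
      rw [h0, h1, hab, hab]
      have : (a : ZMod p) * x + b - ((a : ZMod p) * y + b) = (a : ZMod p) * (x - y) := by ring
      rw [this, mul_pow, hroot a ha, one_mul]
    obtain ⟨α, β, hαβ⟩ := affine_of_identity σ d hdpos hd2 hid
    obtain ⟨g, hg, hgt⟩ := hσ ![0, 1]
    have h0 := hgt 0
    have h1 := hgt 1
    simp only [Matrix.cons_val_zero, Matrix.cons_val_one] at h0 h1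
    obtain ⟨a, b, hab⟩ := hG hg
    rw [hab] at h0 h1
    rw [hαβ] at h0 h1
    have : σ = g := by
      ext1 x
      rw [hαβ, hab]
      have e0 : β = b := by simpa using h0
      have e1 : α = (a : ZMod p) := by
        have : α + β = (a : ZMod p) + b := by simpa using h1
        rw [e0] at this
        exact add_right_cancel this
      rw [e0, e1]
    rw [this]
    exact hg
  · intro σ t
    by_cases h : t 0 = t 1
    · refine ⟨aff 1 (σ (t 0) - t 0), aff_mem _ _, fun i => ?_⟩
      fin_cases i
      · simp [aff_apply]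
      · simp only [Fin.mk_one, Fin.isValue, aff_apply]
        rw [← h]
        simp
    · have h1 : t 1 - t 0 ≠ 0 := sub_ne_zero.mpr (Ne.symm h)
      have h2 : σ (t 1) - σ (t 0) ≠ 0 := sub_ne_zero.mpr (fun h' => h (σ.injective h').symm)
      set α := (σ (t 1) - σ (t 0)) / (t 1 - t 0) with hα
      have hα0 : α ≠ 0 := div_ne_zero h2 h1
      refine ⟨aff (Units.mk0 α hα0) (σ (t 0) - α * t 0), aff_mem _ _, fun i => ?_⟩
      fin_cases i
      · simp [aff_apply]
      · simp only [Fin.mk_one, Fin.isValue, aff_apply, Units.val_mk0]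
        have h3 : α * (t 1 - t 0) = σ (t 1) - σ (t 0) := by
          rw [hα]; field_simp
        have h4 : α * t 1 + (σ (t 0) - α * t 0) = α * (t 1 - t 0) + σ (t 0) := by ring
        rw [h4, h3]
        ring
  · intro σ hσ
    have key3 : ∀ x, ∃ a : (ZMod p)ˣ, (a : ZMod p) = σ 1 - σ 0 ∧ σ x = (a : ZMod p) * x + σ 0 := by
      intro x
      obtain ⟨g, ⟨a, b, hab⟩, hgt⟩ := hσ ![0, 1, x]
      have h0 := hgt 0
      have h1 := hgt 1
      have h2 := hgt 2
      simp only [Matrix.cons_val_zero, Matrix.cons_val_one, Matrix.cons_val] at h0 h1 h2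
      rw [hab] at h0 h1 h2
      have e0 : σ 0 = b := by simpa using h0
      have e1 : σ 1 = (a : ZMod p) + b := by simpa using h1
      refine ⟨a, ?_, ?_⟩
      · rw [e0, e1]; ring
      · rw [e0]; exact h2
    obtain ⟨a, ha, -⟩ := key3 0
    refine ⟨a, σ 0, fun x => ?_⟩
    obtain ⟨a', ha', hx⟩ := key3 x
    rw [hx, ha', ha]

end Cfsg.Agent.S3518
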