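import Mathlib
import Cfsg.Statements.S3524

set_option autoImplicit false
open Cfsg

namespace Cfsg.Agent.S3524

/-- A permutation group with a base is closed at one level above the base size. Let G be a group of permutations of a set Ω and suppose some k points α₁, …, α_k are fixed simultaneously only by the identity of G (a base of size k). Then G is (k+1)-closed: a permutation of Ω that agrees on every (k+1)-tuple of points with some element of G belongs to G. -/
theorem result {Ω : Type*} (G : Subgroup (Equiv.Perm Ω)) (k : ℕ) (α : Fin k → Ω)
    (hbase : ∀ g ∈ G, (∀ i, g (α i) = α i) → g = 1) (σ : Equiv.Perm Ω)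
    (hσ : ∀ t : Fin (k + 1) → Ω, ∃ g ∈ G, ∀ i, σ (t i) = g (t i)) : σ ∈ G := by
  classical
  rcases isEmpty_or_nonempty Ω with hΩ | ⟨⟨x0⟩⟩
  · have : σ = 1 := Subsingleton.elim _ _
    rw [this]; exact G.one_mem
  · obtain ⟨g0, hg0, h0⟩ := hσ (Fin.snoc α x0)
    have hα0 : ∀ i, σ (α i) = g0 (α i) := by
      intro i
      have := h0 i.castSucc
      simpa using this
    have key : ∀ x, σ x = g0 x := by
      intro x
      obtain ⟨g, hg, h⟩ := hσ (Fin.snoc α x)
      have hα : ∀ i, σ (α i) = g (α i) := by
        intro i
        have := h i.castSucc
        simpa using this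
      have hlast : σ x = g x := by
        have := h (Fin.last k)
        simpa using this
      have h1 : g0⁻¹ * g = 1 := by
        apply hbase _ (G.mul_mem (G.inv_mem hg0) hg)
        intro i
        rw [Equiv.Perm.mul_apply, ← hα, hα0]
        simp
      have h2 : g = g0 := by
        have := inv_mul_eq_one.mp h1
        exact this.symm
      rw [hlast, h2]
    have : σ = g0 := Equiv.ext key
    rw [this]; exact hg0

end Cfsg.Agent.S3524
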