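import Mathlib
import Cfsg.Statements.S3547
import Cfsg.Agent.Lib.Derangement

set_option autoImplicit false
open Cfsg

namespace Cfsg.Agent.S3547

/-- Let G act faithfully and transitively on a finite set Ω, let D be the subgroup generated by the derangements, and let r_G and r_D be the numbers of orbits of G and of D on ordered pairs of points (the permutation ranks). Then r_D − 1 = (r_G − 1)·[G : D]. -/
theorem result {G Ω : Type*} [Group G] [Finite G] [MulAction G Ω] [FaithfulSMul G Ω] [Finite Ω]
    (htrans : MulAction.IsPretransitive G Ω) :
    Nat.card (MulAction.orbitRel.Quotient ↥(Subgroup.closure {g : G | ∀ ω : Ω, g • ω ≠ ω}) (Ω × Ω)) - 1 =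
      (Nat.card (MulAction.orbitRel.Quotient G (Ω × Ω)) - 1) * (Subgroup.closure {g : G | ∀ ω : Ω, g • ω ≠ ω}).index := by
  rcases isEmpty_or_nonempty Ω with hΩ | hΩ
  · have h1 : IsEmpty (MulAction.orbitRel.Quotient ↥(Subgroup.closure {g : G | ∀ ω : Ω, g • ω ≠ ω}) (Ω × Ω)) := by
      constructor
      intro q
      induction q using Quotient.inductionOn' with
      | h x => exact hΩ.false x.1
    have h2 : IsEmpty (MulAction.orbitRel.Quotient G (Ω × Ω)) := by
      constructor
      intro q
      induction q using Quotient.inductionOn' with
      | h x => exact hΩ.false x.1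
    simp
  · exact Cfsg.Agent.Lib.Derangement.rank_relation _ (fun g hg => Subgroup.subset_closure hg)

end Cfsg.Agent.S3547
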