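import Mathlib
import Cfsg.Statements.S3548
import Cfsg.Agent.Lib.Derangement

set_option autoImplicit false
set_option linter.all false
open Cfsg

namespace Cfsg.Agent.S3548

open Cfsg.Agent.Lib.Derangement MulAction

/-- Let G act faithfully and transitively on a finite set with n ≥ 2 points and let D be the subgroup generated by the derangements. Then the index of D in G divides n − 1, and if it equals n − 1 then n is a prime power. -/
theorem result {G Ω : Type*} [Group G] [Finite G] [MulAction G Ω] [FaithfulSMul G Ω] [Finite Ω]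
    (htrans : MulAction.IsPretransitive G Ω) (hΩ : 2 ≤ Nat.card Ω) :
    (Subgroup.closure {g : G | ∀ ω : Ω, g • ω ≠ ω}).index ∣ Nat.card Ω - 1 ∧
    ((Subgroup.closure {g : G | ∀ ω : Ω, g • ω ≠ ω}).index = Nat.card Ω - 1 → IsPrimePow (Nat.card Ω)) := by
  classical
  haveI : Nonempty Ω := by
    apply (Nat.card_pos_iff.mp (by omega : 0 < Nat.card Ω)).1
  set D := Subgroup.closure {g : G | ∀ ω : Ω, g • ω ≠ ω} with hDdef
  have hD : ∀ g : G, (∀ ω : Ω, g • ω ≠ ω) → g ∈ D := fun g hg => Subgroup.subset_closure hg
  obtain ⟨a⟩ := ‹Nonempty Ω›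
  haveI : Nonempty Ω := ⟨a⟩
  have hcompl : ({a} : Set Ω)ᶜ.ncard = Nat.card Ω - 1 := by
    have := Set.ncard_add_ncard_compl ({a} : Set Ω)
    rw [Set.ncard_singleton] at this
    omega
  have hSinv : ∀ h : stabilizer G a, ∀ x ∈ ({a} : Set Ω)ᶜ, h • x ∈ ({a} : Set Ω)ᶜ := by
    intro h x hx hxa
    apply hx
    have h1 : (h : G) • x = a := hxa
    have h2 : (h : G) • a = a := h.2
    exact MulAction.injective (h : G) (h1.trans h2.symm)
  refine ⟨?_, ?_⟩
  · rw [← hcompl]
    exact index_dvd_ncard D hD a _ hSinv (by simp)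
  · intro he
    obtain ⟨hDt, hone⟩ := main_count (Ω := Ω) D hD
    set H := stabilizer G a with hH
    have hepos : 0 < D.index := Nat.pos_of_ne_zero Subgroup.index_ne_zero_of_finite
    have horb : ∀ b : Ω, b ≠ a → Nat.card (orbit H b) = D.index := by
      intro b hb
      have h1 := index_dvd_card_orbit (Ω := Ω) D hD a b hb
      have h2 : Nat.card (orbit H b) ≤ D.index := by
        rw [he, ← hcompl, Nat.card_coe_set_eq]
        apply Set.ncard_le_ncard _ (Set.toFinite _)
        rintro _ ⟨h, rfl⟩
        exact hSinv h b hb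
      haveI : Nonempty (orbit H b) := ⟨⟨b, mem_orbit_self b⟩⟩
      have h3 : 0 < Nat.card (orbit H b) := Nat.card_pos
      exact le_antisymm h2 (Nat.le_of_dvd h3 h1)
    have horbS : ∀ b : Ω, b ≠ a → orbit H b = ({a} : Set Ω)ᶜ := by
      intro b hb
      apply Set.eq_of_subset_of_ncard_le (ht := Set.toFinite _)
      · rintro _ ⟨h, rfl⟩
        exact hSinv h b hb
      · have := horb b hb
        rw [Nat.card_coe_set_eq] at this
        rw [this, he, hcompl]
    have hGcard : Nat.card G = D.index * Nat.card D := (Subgroup.index_mul_card D).symm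
    have h1 := orbit_stab (H := G) a
    have h2 := orbit_stab (H := D) a
    rw [MulAction.orbit_eq_univ] at h1 h2
    simp only [Nat.card_coe_set_eq, Set.ncard_univ] at h1 h2
    have hnpos : 0 < Nat.card Ω := by omega
    have h3 : Nat.card H = D.index * Nat.card (stabilizer D a) := by
      have : Nat.card Ω * Nat.card H = Nat.card Ω * (D.index * Nat.card (stabilizer D a)) := by
        rw [h1, hGcard, ← h2]
        ring
      exact Nat.eq_of_mul_eq_mul_left hnpos this
    have h4 : ∀ b : Ω, b ≠ a → Nat.card (stabilizer H b) = Nat.card (stabilizer D a) := by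
      intro b hb
      have h5 := orbit_stab (H := H) b
      rw [horb b hb, h3] at h5
      exact Nat.eq_of_mul_eq_mul_left hepos h5
    -- stabilisers of two points lie in `D`
    have hin : ∀ b : Ω, b ≠ a → ∀ x : stabilizer H b, ((x : H) : G) ∈ D := by
      intro b hb x
      by_contra hx
      have h5 := hone _ hx
      have h6 : ({a, b} : Set Ω) ⊆ fixedBy Ω ((x : H) : G) := by
        intro y hy
        rcases hy with rfl | hy
        · exact (x : H).2
        · rw [Set.mem_singleton_iff.mp hy]; exact x.2
      have h7 : Set.ncard ({a, b} : Set Ω) = 2 := Set.ncard_pair (Ne.symm hb)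
      have h8 := Set.ncard_le_ncard h6 (Set.toFinite _)
      rw [h7] at h8
      rw [Nat.card_coe_set_eq] at h5
      omega
    have hfix : ∀ k : stabilizer D a, ∀ b : Ω, ((k : D) : G) • b = b := by
      intro k b
      by_cases hb : b = a
      · subst hb; exact k.2
      · let f : stabilizer H b → stabilizer D a := fun x =>
          ⟨⟨((x : H) : G), hin b hb x⟩, (x : H).2⟩
        have hf : Function.Injective f := by
          intro x y hxy
          have h5 : ((x : H) : G) = ((y : H) : G) :=
            congrArg (fun z : stabilizer D a => ((z : D) : G)) hxy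
          exact Subtype.ext (Subtype.ext h5)
        have hfb : Function.Surjective f :=
          (hf.bijective_of_nat_card_le (le_of_eq (h4 b hb).symm)).2
        obtain ⟨x, hx⟩ := hfb k
        have h5 : ((k : D) : G) = ((x : H) : G) := by
          rw [← hx]
        rw [h5]
        exact x.2
    have hreg : ∀ x ∈ D, x ≠ 1 → x • a ≠ a := by
      intro x hx hx1 hxa
      apply hx1
      have h5 : ∀ b : Ω, x • b = b := hfix ⟨⟨x, hx⟩, hxa⟩
      exact FaithfulSMul.eq_of_smul_eq_smul (fun b => by rw [h5 b, one_smul])
    have hDnormal : D.Normal := by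
      refine ⟨fun x hx g => ?_⟩
      have : D ≤ D.comap (MulAut.conj g).toMonoidHom := by
        rw [hDdef, Subgroup.closure_le]
        intro y hy
        simp only [Set.mem_setOf_eq] at hy
        change g * y * g⁻¹ ∈ Subgroup.closure {g | ∀ (ω : Ω), g • ω ≠ ω}
        apply Subgroup.subset_closure
        intro ω hω
        apply hy (g⁻¹ • ω)
        have h5 : g⁻¹ • ((g * y * g⁻¹) • ω) = g⁻¹ • ω := by rw [hω]
        rw [mul_smul, mul_smul, inv_smul_smul] at h5
        exact h5
      exact this hx
    have hinj : ∀ x ∈ D, ∀ y ∈ D, x • a = y • a → x = y := by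
      intro x hx y hy hxy
      by_contra hne
      have h5 : y⁻¹ * x ≠ 1 := fun h => hne (inv_mul_eq_one.mp h).symm
      apply hreg _ (D.mul_mem (D.inv_mem hy) hx) h5
      rw [mul_smul, hxy, inv_smul_smul]
    have hord : ∀ u ∈ D, u ≠ 1 → ∀ v ∈ D, v ≠ 1 → orderOf u = orderOf v := by
      intro u hu hu1 v hv hv1
      have hua := hreg u hu hu1
      have hva := hreg v hv hv1
      have h5 : v • a ∈ orbit H (u • a) := by
        rw [horbS _ hua]
        exact hva
      obtain ⟨h, hh⟩ := h5
      have hh' : (h : G) • (u • a) = v • a := hh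
      have hh2 : (h : G)⁻¹ • a = a := by
        have h6 : (h : G) • a = a := h.2
        have h7 : (h : G)⁻¹ • ((h : G) • a) = (h : G)⁻¹ • a := by rw [h6]
        rw [inv_smul_smul] at h7
        exact h7.symm
      have h6 : (h : G) * u * (h : G)⁻¹ = v := by
        apply hinj _ (hDnormal.conj_mem u hu h) _ hv
        rw [mul_smul, mul_smul, hh2, hh']
      rw [← h6]
      exact ((MulAut.conj (h : G)).orderOf_eq u).symm
    -- a nonidentity element
    obtain ⟨b, hb⟩ : ∃ b : Ω, b ≠ a := by
      by_contra hcon
      push Not at hcon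
      have : ({a} : Set Ω)ᶜ = ∅ := by
        ext x
        simp [hcon x]
      rw [this, Set.ncard_empty] at hcompl
      omega
    obtain ⟨x, hx⟩ := hDt.exists_smul_eq a b
    have hx1 : (x : G) ≠ 1 := by
      intro h
      apply hb
      rw [← hx]
      change (x : G) • a = a
      rw [h, one_smul]
    have hxord : orderOf (x : G) ≠ 1 := by
      rwa [Ne, orderOf_eq_one_iff]
    obtain ⟨p, hp, hpd⟩ := Nat.exists_prime_and_dvd hxord
    haveI : Fact p.Prime := ⟨hp⟩
    have hxpos : 0 < orderOf (x : G) := orderOf_pos _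
    set y : G := (x : G) ^ (orderOf (x : G) / p) with hy
    have hyord : orderOf y = p := by
      rw [hy, orderOf_pow_orderOf_div hxpos.ne' hpd]
    have hy1 : y ≠ 1 := by
      intro h
      rw [h, orderOf_one] at hyord
      exact hp.one_lt.ne hyord
    have hyD : y ∈ D := D.pow_mem x.2 _
    have hpgrp : IsPGroup p D := by
      intro z
      refine ⟨1, ?_⟩
      apply Subtype.ext
      by_cases hz : (z : G) = 1
      · simp [hz]
      · have h5 := hord _ z.2 hz _ hyD hy1
        rw [pow_one]
        push_cast
        rw [← orderOf_dvd_iff_pow_eq_one, h5, hyord]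
    obtain ⟨k, hk⟩ := IsPGroup.iff_card.mp hpgrp
    have hDn : Nat.card D = Nat.card Ω := by
      have h5 : stabilizer D a = ⊥ := by
        rw [eq_bot_iff]
        intro z hz
        rw [Subgroup.mem_bot]
        by_contra hne
        exact hreg z z.2 (fun h' => hne (Subtype.ext h')) hz
      rw [h5, Subgroup.card_bot, mul_one] at h2
      exact h2.symm
    rw [← hDn, hk]
    refine ⟨p, k, hp.prime, ?_, rfl⟩
    rcases Nat.eq_zero_or_pos k with h0 | h0
    · subst h0
      rw [pow_zero] at hk
      rw [hDn] at hk
      omega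
    · exact h0

end Cfsg.Agent.S3548
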