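import Mathlib
import Cfsg.Statements.S3549
import Cfsg.Agent.Lib.Derangement

set_option autoImplicit false
set_option linter.all false
open Cfsg

namespace Cfsg.Agent.S3549

open Cfsg.Agent.Lib.Derangement MulAction
open scoped Pointwise

/-- Let G act faithfully, transitively but imprimitively on a finite set with n points, and let D be the subgroup generated by the derangements. Then the index of D in G is at most √n − 1. -/
theorem result {G Ω : Type*} [Group G] [Finite G] [MulAction G Ω] [FaithfulSMul G Ω] [Finite Ω]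
    (htrans : MulAction.IsPretransitive G Ω) (himp : ¬ MulAction.IsPreprimitive G Ω) :
    ((Subgroup.closure {g : G | ∀ ω : Ω, g • ω ≠ ω}).index : ℝ) ≤ Real.sqrt (Nat.card Ω) - 1 := by
  classical
  have hex : ∃ B : Set Ω, IsBlock G B ∧ ¬ IsTrivialBlock B := by
    by_contra hcon
    push Not at hcon
    exact himp { toIsPretransitive := htrans, isTrivialBlock_of_isBlock := fun hB => hcon _ hB }
  obtain ⟨B, hB, hBnt⟩ := hex
  simp only [IsTrivialBlock, not_or] at hBnt
  obtain ⟨hB1, hB2⟩ := hBnt
  rw [Set.not_subsingleton_iff] at hB1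
  obtain ⟨a, ha, b, hb, hab⟩ := id hB1
  haveI : Nonempty Ω := ⟨a⟩
  set D := Subgroup.closure {g : G | ∀ ω : Ω, g • ω ≠ ω} with hDdef
  have hD : ∀ g : G, (∀ ω : Ω, g • ω ≠ ω) → g ∈ D := fun g hg => Subgroup.subset_closure hg
  have hm : B.ncard * (orbit G B).ncard = Nat.card Ω := hB.ncard_block_mul_ncard_orbit_eq ⟨a, ha⟩
  have hHB : ∀ h : stabilizer G a, ∀ x ∈ B, h • x ∈ B := by
    intro h x hx
    have h1 : (h : G) • B = B := by
      apply hB.smul_eq_of_mem (g := (h : G)) (a := a) ha
      have h2 : (h : G) • a = a := h.2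
      exact (congrArg (· ∈ B) h2).mpr ha
    have h2 : (h : G) • x ∈ (h : G) • B := Set.smul_mem_smul_set hx
    rw [h1] at h2
    exact h2
  have hHBc : ∀ h : stabilizer G a, ∀ x ∈ Bᶜ, h • x ∈ Bᶜ := by
    intro h x hx hx2
    apply hx
    have h1 := hHB h⁻¹ _ hx2
    simpa using h1
  have h1 : D.index ∣ (B \ {a}).ncard := by
    apply index_dvd_ncard D hD a
    · rintro h x ⟨hx, hxa⟩
      refine ⟨hHB h x hx, ?_⟩
      intro hxa'
      apply hxa
      have h2 : (h : G) • x = a := hxa'
      have h3 : (h : G) • a = a := h.2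
      exact MulAction.injective (h : G) (h2.trans h3.symm)
    · simp
  have h2 : D.index ∣ (Bᶜ).ncard := by
    apply index_dvd_ncard D hD a _ hHBc
    simp [ha]
  have c1 : (B \ {a}).ncard = B.ncard - 1 := Set.ncard_diff_singleton_of_mem ha
  have c2 : Bᶜ.ncard + B.ncard = Nat.card Ω := Set.ncard_add_ncard_compl B |>.symm ▸ by
    rw [add_comm]
  have hm2 : 2 ≤ B.ncard := by
    have : ({a, b} : Set Ω).ncard = 2 := Set.ncard_pair hab
    rw [← this]
    apply Set.ncard_le_ncard _ (Set.toFinite _)
    rintro x (rfl | hx)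
    · exact ha
    · rw [Set.mem_singleton_iff.mp hx]; exact hb
  have hnpos : 0 < Nat.card Ω := Nat.card_pos
  set k := (orbit G B).ncard with hk
  set m := B.ncard with hmdef
  have hk2 : 2 ≤ k := by
    by_contra hcon
    have hk1 : k ≤ 1 := by omega
    apply hB2
    apply Set.eq_of_subset_of_ncard_le (Set.subset_univ B) (ht := Set.toFinite _)
    rw [Set.ncard_univ, ← hm]
    calc m * k ≤ m * 1 := Nat.mul_le_mul_left _ hk1
      _ = m := mul_one _
  have hepos : 0 < D.index := Nat.pos_of_ne_zero Subgroup.index_ne_zero_of_finite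
  rw [c1] at h1
  have hcop : Nat.Coprime D.index m := by
    have h3 : Nat.Coprime (m - 1) m := by
      have : m - 1 + 1 = m := by omega
      have h4 := Nat.coprime_self_add_right (m := m - 1) (n := 1)
      rw [this] at h4
      exact h4.mpr (Nat.coprime_one_right _)
    exact Nat.Coprime.coprime_dvd_left h1 h3
  have hc : Bᶜ.ncard = m * (k - 1) := by
    have : m * (k - 1) + m = m * k := by
      have h9 : k - 1 + 1 = k := by omega
      calc m * (k - 1) + m = m * (k - 1 + 1) := by ring
        _ = m * k := by rw [h9]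
    omega
  rw [hc] at h2
  have h3 : D.index ∣ k - 1 := hcop.dvd_of_dvd_mul_left h2
  have h4 : D.index ≤ m - 1 := Nat.le_of_dvd (by omega) h1
  have h5 : D.index ≤ k - 1 := Nat.le_of_dvd (by omega) h3
  have h6 : (D.index + 1) * (D.index + 1) ≤ Nat.card Ω := by
    rw [← hm]
    exact Nat.mul_le_mul (by omega) (by omega)
  have h7 : ((D.index : ℝ) + 1) ≤ Real.sqrt (Nat.card Ω) := by
    apply Real.le_sqrt_of_sq_le
    have : (((D.index + 1) * (D.index + 1) : ℕ) : ℝ) ≤ (Nat.card Ω : ℝ) := by
      exact_mod_cast h6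
    push_cast at this
    nlinarith
  linarith

end Cfsg.Agent.S3549
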