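import Mathlib
import Cfsg.Statements.S3559

set_option autoImplicit false
set_option linter.all false
open Cfsg

namespace Cfsg.Agent.S3559

open MulAction Finset
open scoped Pointwise

universe u v w

section Core

variable {A : Type u} {G : Type v} {Ω : Type w} [CommGroup A] [Group G] [MulAction G Ω]
  (ψ : A ≃ Ω)

/-- transported action -/
def sg (g : G) (c : A) : A := ψ.symm (g • ψ c)

theorem psi_sg (g : G) (c : A) : ψ (sg ψ g c) = g • ψ c := by simp [sg]

theorem sg_mul (g g' : G) (c : A) : sg ψ (g * g') c = sg ψ g (sg ψ g' c) := by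
  simp [sg, mul_smul]

theorem sg_one (c : A) : sg ψ (1 : G) c = c := by simp [sg]

theorem sg_inv_sg (g : G) (c : A) : sg ψ g⁻¹ (sg ψ g c) = c := by
  rw [← sg_mul, inv_mul_cancel, sg_one]

theorem sg_sg_inv (g : G) (c : A) : sg ψ g (sg ψ g⁻¹ c) = c := by
  rw [← sg_mul, mul_inv_cancel, sg_one]

/-- Invariant functions under the point stabilizer of `1`. -/
def InvFun {R : Type*} (f : A → R) : Prop :=
  ∀ h : G, sg ψ h 1 = 1 → ∀ c, f (sg ψ h c) = f c

variable (ι : A → G) (hι : ∀ c d, ι c • ψ d = ψ (c * d))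

include hι in
theorem sg_iota (c d : A) : sg ψ (ι c) d = c * d := by
  simp [sg, hι]

include hι in
/-- Invariant functions give invariant kernels. -/
theorem kernel_inv {R : Type*} {f : A → R} (hf : InvFun (G := G) ψ f) (g : G) (c d : A) :
    f ((sg ψ g c)⁻¹ * sg ψ g d) = f (c⁻¹ * d) := by
  set h : G := ι (sg ψ g c)⁻¹ * g * ι c with hh
  have h1 : sg ψ h 1 = 1 := by
    rw [hh, sg_mul, sg_mul, sg_iota ψ ι hι, sg_iota ψ ι hι, mul_one, inv_mul_cancel]
  have h2 : sg ψ h (c⁻¹ * d) = (sg ψ g c)⁻¹ * sg ψ g d := by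
    rw [hh, sg_mul, sg_mul, sg_iota ψ ι hι, sg_iota ψ ι hι, mul_inv_cancel_left]
  rw [← h2]
  exact hf h h1 _

/-- Subgroups whose cosets are invariant are trivial in a primitive group. -/
theorem bot_or_top (hprim : IsPreprimitive G Ω) (L : Subgroup A)
    (hL : ∀ (g : G) (c d : A), c⁻¹ * d ∈ L → (sg ψ g c)⁻¹ * sg ψ g d ∈ L) : L = ⊥ ∨ L = ⊤ := by
  set B : Set Ω := ψ '' (L : Set A) with hB
  have hmem : ∀ c : A, ψ c ∈ B ↔ c ∈ L := by
    intro c
    rw [hB, Set.mem_image]
    constructor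
    · rintro ⟨x, hx, hxc⟩
      rw [← ψ.injective hxc]
      exact hx
    · intro hc
      exact ⟨c, hc, rfl⟩
  have hblock : IsBlock G B := by
    rw [isBlock_iff_smul_eq_of_nonempty]
    rintro g ⟨x, hx1, hx2⟩
    obtain ⟨y, hy, hyx⟩ := Set.mem_smul_set.mp hx1
    obtain ⟨l', hl', rfl⟩ := (Set.mem_image _ _ _).mp hy
    obtain ⟨l, hl, hlx⟩ := (Set.mem_image _ _ _).mp hx2
    have hsg : sg ψ g l' = l := by
      apply ψ.injective
      rw [psi_sg, hyx, hlx]
    ext z
    constructor
    · intro hz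
      obtain ⟨y, hy, rfl⟩ := Set.mem_smul_set.mp hz
      obtain ⟨l'', hl'', rfl⟩ := (Set.mem_image _ _ _).mp hy
      rw [← psi_sg, hmem]
      have h1 := hL g l' l'' (L.mul_mem (L.inv_mem hl') hl'')
      rw [hsg] at h1
      have h2 := L.mul_mem hl h1
      rwa [mul_inv_cancel_left] at h2
    · intro hz
      obtain ⟨c, rfl⟩ := ψ.surjective z
      rw [hmem] at hz
      have h1 := hL g⁻¹ l c (L.mul_mem (L.inv_mem hl) hz)
      rw [← hsg, sg_inv_sg] at h1
      have h2 := L.mul_mem hl' h1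
      rw [mul_inv_cancel_left] at h2
      refine Set.mem_smul_set.mpr ⟨ψ (sg ψ g⁻¹ c), ?_, ?_⟩
      · rw [hmem]; exact h2
      · rw [← psi_sg, sg_sg_inv]
  rcases hprim.isTrivialBlock_of_isBlock hblock with h | h
  · left
    rw [eq_bot_iff]
    intro x hx
    rw [Subgroup.mem_bot]
    apply ψ.injective
    exact h ((hmem x).mpr hx) ((hmem 1).mpr L.one_mem)
  · right
    rw [eq_top_iff]
    intro x _
    rw [← hmem, h]
    trivial

include hι in
/-- The subgroup generated by an invariant subset. -/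
theorem closure_coset_inv {T : Set A} (hT : InvFun (G := G) ψ (fun c => c ∈ T)) (g : G) (c d : A)
    (h : c⁻¹ * d ∈ Subgroup.closure T) :
    (sg ψ g c)⁻¹ * sg ψ g d ∈ Subgroup.closure T := by
  have key : ∀ u ∈ Subgroup.closure T, ∀ c : A,
      (sg ψ g c)⁻¹ * sg ψ g (c * u) ∈ Subgroup.closure T := by
    intro u hu
    induction hu using Subgroup.closure_induction with
    | mem x hx =>
      intro c
      apply Subgroup.subset_closure
      have := kernel_inv ψ ι hι hT g c (c * x)
      have h2 : c⁻¹ * (c * x) = x := by group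
      rw [h2] at this
      have h3 : ((sg ψ g c)⁻¹ * sg ψ g (c * x) ∈ T) = (x ∈ T) := this
      rw [h3]
      exact hx
    | one =>
      intro c
      simp
    | mul x y _ _ hx hy =>
      intro c
      have h1 := hx c
      have h2 := hy (c * x)
      have h3 : (sg ψ g c)⁻¹ * sg ψ g (c * (x * y))
          = ((sg ψ g c)⁻¹ * sg ψ g (c * x)) * ((sg ψ g (c * x))⁻¹ * sg ψ g (c * x * y)) := by
        rw [mul_assoc c x y]
        group
      rw [h3]
      exact Subgroup.mul_mem _ h1 h2
    | inv x _ hx =>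
      intro c
      have h1 := hx (c * x⁻¹)
      have h2 : c * x⁻¹ * x = c := by group
      rw [h2] at h1
      have h3 := Subgroup.inv_mem _ h1
      rwa [mul_inv_rev, inv_inv] at h3
  have := key _ h c
  rwa [mul_inv_cancel_left] at this

/-- The stabilizer of a subset. -/
def stabS (T : Set A) : Subgroup A where
  carrier := {s | ∀ x, x ∈ T ↔ s * x ∈ T}
  one_mem' := fun x => by simp
  mul_mem' := by
    intro a b ha hb x
    rw [hb x, ha (b * x), mul_assoc]
  inv_mem' := by
    intro a ha x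
    rw [ha (a⁻¹ * x), mul_inv_cancel_left]

include hι in
theorem stabS_coset_inv {T : Set A} (hT : InvFun (G := G) ψ (fun c => c ∈ T)) (g : G) (c d : A)
    (h : c⁻¹ * d ∈ stabS T) : (sg ψ g c)⁻¹ * sg ψ g d ∈ stabS T := by
  intro x
  -- write the point through `g`
  set e := sg ψ g⁻¹ (sg ψ g d * x) with he
  have h1 : sg ψ g e = sg ψ g d * x := by rw [he, sg_sg_inv]
  have h2 : ((sg ψ g d)⁻¹ * sg ψ g e ∈ T) = (d⁻¹ * e ∈ T) := kernel_inv ψ ι hι hT g d e
  have h3 : ((sg ψ g c)⁻¹ * sg ψ g e ∈ T) = (c⁻¹ * e ∈ T) := kernel_inv ψ ι hι hT g c e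
  have h4 : x = (sg ψ g d)⁻¹ * sg ψ g e := by rw [h1]; group
  have h5 : (sg ψ g c)⁻¹ * sg ψ g d * x = (sg ψ g c)⁻¹ * sg ψ g e := by rw [h1]; group
  rw [h5]
  conv_lhs => rw [h4]
  rw [h2, h3]
  have h6 : c⁻¹ * e = (c⁻¹ * d) * (d⁻¹ * e) := by group
  rw [h6]
  exact h _

end Core

section Frob

variable {A : Type u} {G : Type v} {Ω : Type w} [CommGroup A] [Fintype A] [DecidableEq A]
  [Group G] [MulAction G Ω] (ψ : A ≃ Ω) (ι : A → G) (hι : ∀ c d, ι c • ψ d = ψ (c * d))

theorem coeff_mul_fintype {R : Type*} [CommSemiring R] (x y : MonoidAlgebra R A) (g : A) :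
    (x * y).coeff g = ∑ h : A, x.coeff h * y.coeff (h⁻¹ * g) := by
  rw [MonoidAlgebra.coeff_mul_apply_left, Finsupp.sum_fintype]
  intro i
  simp

include hι in
theorem invFun_mul {R : Type*} [CommSemiring R] {x y : MonoidAlgebra R A}
    (hx : InvFun (G := G) ψ (fun c => x.coeff c)) (hy : InvFun (G := G) ψ (fun c => y.coeff c)) :
    InvFun (G := G) ψ (fun c => (x * y).coeff c) := by
  intro h h1 d
  simp only [coeff_mul_fintype]
  -- reindex with the bijection `sg h`
  let e : Equiv.Perm A :=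
    { toFun := sg ψ h
      invFun := sg ψ h⁻¹
      left_inv := sg_inv_sg ψ h
      right_inv := sg_sg_inv ψ h }
  rw [← Equiv.sum_comp e]
  apply Finset.sum_congr rfl
  intro u _
  have h2 : x.coeff (e u) = x.coeff u := hx h h1 u
  have h3 : y.coeff ((sg ψ h u)⁻¹ * sg ψ h d) = y.coeff (u⁻¹ * d) :=
    kernel_inv ψ ι hι (f := fun c => y.coeff c) hy h u d
  rw [h2]
  congr 1

theorem invFun_one {R : Type*} [CommSemiring R] :
    InvFun (G := G) ψ (fun c => (1 : MonoidAlgebra R A).coeff c) := by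
  intro h h1 c
  rw [MonoidAlgebra.one_def]
  simp only [MonoidAlgebra.coeff_single]
  rw [Finsupp.single_apply, Finsupp.single_apply]
  by_cases hc : c = 1
  · subst hc
    rw [h1]
  · have h2 : sg ψ h c ≠ 1 := by
      intro h3
      apply hc
      have := sg_inv_sg ψ h c
      rw [h3] at this
      rw [← this]
      have h4 := sg_inv_sg ψ h 1
      rw [h1] at h4
      exact h4
    rw [if_neg (Ne.symm h2), if_neg (Ne.symm hc)]

include hι in
theorem invFun_pow {R : Type*} [CommSemiring R] {x : MonoidAlgebra R A}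
    (hx : InvFun (G := G) ψ (fun c => x.coeff c)) (k : ℕ) :
    InvFun (G := G) ψ (fun c => (x ^ k).coeff c) := by
  induction k with
  | zero =>
    simp only [pow_zero]
    exact invFun_one ψ
  | succ k ih =>
    simp only [pow_succ]
    exact invFun_mul ψ ι hι ih hx

/-- The Frobenius identity for the element attached to a subset. -/
theorem frob_coeff (p : ℕ) [Fact p.Prime] (T : Finset A) (y : A) :
    (((∑ x ∈ T, MonoidAlgebra.single x (1 : ZMod p)) ^ p :
      MonoidAlgebra (ZMod p) A)).coeff y = (((T.filter (fun x => x ^ p = y)).card : ℕ) : ZMod p) := by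
  haveI : CharP (MonoidAlgebra (ZMod p) A) p := by
    apply charP_of_injective_algebraMap (R := ZMod p) (A := MonoidAlgebra (ZMod p) A)
    intro a b hab
    have := congrArg (fun z : MonoidAlgebra (ZMod p) A => z.coeff 1) hab
    simpa [MonoidAlgebra.coe_algebraMap] using this
  rw [sum_pow_char p]
  simp only [MonoidAlgebra.single_pow, one_pow]
  rw [MonoidAlgebra.coeff_sum, Finset.sum_apply']
  simp only [MonoidAlgebra.coeff_single, Finsupp.single_apply]
  rw [Finset.card_filter]
  push_cast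
  rfl

end Frob

section Main

variable {A : Type u} {G : Type v} {Ω : Type w} [CommGroup A] [Fintype A] [DecidableEq A]
  [IsCyclic A] [Group G] [MulAction G Ω] (ψ : A ≃ Ω) (ι : A → G)
  (hι : ∀ c d, ι c • ψ d = ψ (c * d))

theorem card_ker (p : ℕ) [hp : Fact p.Prime] (hpd : p ∣ Fintype.card A) :
    (univ.filter (fun z : A => z ^ p = 1)).card = p := by
  classical
  have h1 := IsCyclic.card_powMonoidHom_ker A p
  have h2 : (Nat.card A).gcd p = p := by
    rw [Nat.card_eq_fintype_card]
    exact Nat.gcd_eq_right hpd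
  rw [h2] at h1
  calc (univ.filter (fun z : A => z ^ p = 1)).card
      = Nat.card (powMonoidHom p : A →* A).ker := by
        rw [Nat.card_eq_fintype_card, Fintype.card_subtype]
        congr 1
        ext z
        simp [MonoidHom.mem_ker]
    _ = p := h1

theorem range_ne_top (p : ℕ) [hp : Fact p.Prime] (hpd : p ∣ Fintype.card A) :
    (powMonoidHom p : A →* A).range ≠ ⊤ := by
  intro h
  have h1 := IsCyclic.index_powMonoidHom_range A p
  rw [h, Subgroup.index_top] at h1
  have h2 : (Nat.card A).gcd p = p := by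
    rw [Nat.card_eq_fintype_card]
    exact Nat.gcd_eq_right hpd
  rw [h2] at h1
  exact hp.out.one_lt.ne h1

include hι in
/-- The fibre statement at a prime. -/
theorem fibre_full (hprim : IsPreprimitive G Ω) (p : ℕ) [hp : Fact p.Prime]
    (hpd : p ∣ Fintype.card A) (T : Finset A)
    (hT : InvFun (G := G) ψ (fun c => c ∈ T)) :
    ∀ x ∈ T, x ^ p ≠ 1 → ∀ z : A, z ^ p = 1 → x * z ∈ T := by
  classical
  set aT : MonoidAlgebra (ZMod p) A := ∑ x ∈ T, MonoidAlgebra.single x (1 : ZMod p) with haT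
  have hcoef : ∀ c, aT.coeff c = if c ∈ T then 1 else 0 := by
    intro c
    rw [haT, MonoidAlgebra.coeff_sum, Finset.sum_apply']
    simp only [MonoidAlgebra.coeff_single, Finsupp.single_apply]
    rw [Finset.sum_ite_eq' T c]
  have hinv : InvFun (G := G) ψ (fun c => aT.coeff c) := by
    intro h h1 c
    simp only [hcoef]
    have h2 : (sg ψ h c ∈ T) = (c ∈ T) := hT h h1 c
    simp only [h2]
  have hinvp := invFun_pow ψ ι hι hinv p
  have hfrob := frob_coeff (A := A) p T
  set Y : Set A := {y | y ≠ 1 ∧ (aT ^ p).coeff y ≠ 0} with hY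
  have hYinv : InvFun (G := G) ψ (fun c => c ∈ Y) := by
    intro h h1 c
    have h2 : (sg ψ h c ≠ 1) = (c ≠ 1) := by
      apply propext
      constructor
      · intro h3 h4
        apply h3
        rw [h4, h1]
      · intro h3 h4
        apply h3
        have := sg_inv_sg ψ h c
        rw [h4] at this
        have h5 := sg_inv_sg ψ h 1
        rw [h1] at h5
        rw [← this, h5]
    have h3 : (aT ^ p).coeff (sg ψ h c) = (aT ^ p).coeff c := hinvp h h1 c
    simp only [hY, Set.mem_setOf_eq, h2, h3]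
  have hYsub : Y ⊆ ((powMonoidHom p : A →* A).range : Set A) := by
    rintro y ⟨_, hy⟩
    have h1 : (((T.filter (fun x => x ^ p = y)).card : ℕ) : ZMod p) ≠ 0 := by
      rw [← hfrob y]
      exact hy
    have h2 : (T.filter (fun x => x ^ p = y)).Nonempty := by
      rw [Finset.nonempty_iff_ne_empty]
      intro h3
      rw [h3] at h1
      simp at h1
    obtain ⟨x, hx⟩ := h2
    exact ⟨x, (Finset.mem_filter.mp hx).2⟩
  have hclo : Subgroup.closure Y ≤ (powMonoidHom p : A →* A).range :=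
    (Subgroup.closure_le _).mpr hYsub
  have hbt := bot_or_top ψ hprim (Subgroup.closure Y)
    (fun g c d h => closure_coset_inv ψ ι hι hYinv g c d h)
  have hYempty : ∀ y, y ≠ 1 → (aT ^ p).coeff y = 0 := by
    intro y hy1
    by_contra hy
    have hyY : y ∈ Y := ⟨hy1, hy⟩
    rcases hbt with h | h
    · have h1 : y ∈ Subgroup.closure Y := Subgroup.subset_closure hyY
      rw [h, Subgroup.mem_bot] at h1
      exact hy1 h1
    · rw [h] at hclo
      exact range_ne_top (A := A) p hpd (top_le_iff.mp hclo)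
  intro x hx hxp z hz
  have h1 := hYempty (x ^ p) hxp
  rw [hfrob, ZMod.natCast_eq_zero_iff] at h1
  set F := T.filter (fun x' => x' ^ p = x ^ p) with hF
  have hxF : x ∈ F := by simp [hF, hx]
  have hFpos : 0 < F.card := Finset.card_pos.mpr ⟨x, hxF⟩
  have hFge : p ≤ F.card := Nat.le_of_dvd hFpos h1
  -- the full fibre
  set K := (univ.filter (fun z : A => z ^ p = 1)).image (fun z => x * z) with hK
  have hKcard : K.card = p := by
    rw [hK, Finset.card_image_of_injective _ (mul_right_injective x), card_ker p hpd]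
  have hFK : F ⊆ K := by
    intro x' hx'
    have h2 := (Finset.mem_filter.mp hx').2
    rw [hK, Finset.mem_image]
    refine ⟨x⁻¹ * x', ?_, by group⟩
    simp only [Finset.mem_filter, Finset.mem_univ, true_and]
    rw [mul_pow, h2, inv_pow, inv_mul_cancel]
  have hEq : F = K := Finset.eq_of_subset_of_card_le hFK (by rw [hKcard]; exact hFge)
  have h3 : x * z ∈ K := by
    rw [hK, Finset.mem_image]
    exact ⟨z, by simp [hz], rfl⟩
  rw [← hEq] at h3
  exact (Finset.mem_filter.mp h3).1

include hι in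
/-- Every nontrivial invariant set meets the kernel at each prime. -/
theorem meets_ker (hprim : IsPreprimitive G Ω) (p : ℕ) [hp : Fact p.Prime]
    (hpd : p ∣ Fintype.card A) (T : Finset A)
    (hT : InvFun (G := G) ψ (fun c => c ∈ T)) (h1 : (1 : A) ∉ T) (hne : T.Nonempty) :
    ∃ x ∈ T, x ^ p = 1 := by
  classical
  by_contra hcon
  push Not at hcon
  have hfull := fibre_full ψ ι hι hprim p hpd T hT
  have hbt := bot_or_top ψ hprim (stabS (T : Set A))
    (fun g c d h => stabS_coset_inv ψ ι hι (T := (T : Set A))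
      (by
        intro h h1 c
        have : (sg ψ h c ∈ T) = (c ∈ T) := hT h h1 c
        simpa using this) g c d h)
  have hsub : ∀ z : A, z ^ p = 1 → z ∈ stabS (T : Set A) := by
    intro z hz x
    constructor
    · intro hx
      have h2 := hfull x hx (hcon x hx) z hz
      rw [mul_comm]
      exact h2
    · intro hx
      have hxx : z * x ∈ T := hx
      have h2 := hfull (z * x) hxx (hcon _ hxx) z⁻¹ (by rw [inv_pow, hz, inv_one])
      have h3 : z * x * z⁻¹ = x := by
        rw [mul_comm z x, mul_assoc, mul_inv_cancel, mul_one]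
      rw [h3] at h2
      exact h2
  rcases hbt with h | h
  · -- a nontrivial kernel element
    have hcard := card_ker (A := A) p hpd
    have h2 : (univ.filter (fun z : A => z ^ p = 1)) ≠ {1} := by
      intro h3
      rw [h3, Finset.card_singleton] at hcard
      exact hp.out.one_lt.ne hcard
    obtain ⟨z, hz1, hz2⟩ : ∃ z ∈ univ.filter (fun z : A => z ^ p = 1), z ≠ 1 := by
      by_contra hcon2
      push Not at hcon2
      apply h2
      ext z
      simp only [Finset.mem_singleton]
      constructor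
      · intro hz
        exact hcon2 z hz
      · rintro rfl
        simp
    have h3 := hsub z (Finset.mem_filter.mp hz1).2
    rw [h, Subgroup.mem_bot] at h3
    exact hz2 h3
  · obtain ⟨x, hx⟩ := hne
    have h2 : x⁻¹ ∈ stabS (T : Set A) := by rw [h]; trivial
    have h3 := (h2 x).mp (by exact_mod_cast hx)
    rw [inv_mul_cancel] at h3
    exact h1 (by exact_mod_cast h3)

include hι in
/-- The core of Schur's theorem, for non prime power order. -/
theorem core (hprim : IsPreprimitive G Ω) (hnp : ¬ IsPrimePow (Fintype.card A))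
    (h2 : 2 ≤ Fintype.card A) (t t' : A) (ht : t ≠ 1) (ht' : t' ≠ 1) :
    ∃ g : G, sg ψ g 1 = 1 ∧ sg ψ g t = t' := by
  classical
  -- two primes
  obtain ⟨p, hp, hpd⟩ := Nat.exists_prime_and_dvd (by omega : Fintype.card A ≠ 1)
  obtain ⟨q, hq, hqd, hpq⟩ : ∃ q : ℕ, q.Prime ∧ q ∣ Fintype.card A ∧ q ≠ p := by
    by_contra hcon
    push Not at hcon
    apply hnp
    rw [isPrimePow_iff_unique_prime_dvd]
    refine ⟨p, ⟨hp, hpd⟩, ?_⟩
    rintro y ⟨hy1, hy2⟩
    exact hcon y hy1 hy2
  haveI : Fact p.Prime := ⟨hp⟩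
  haveI : Fact q.Prime := ⟨hq⟩
  -- orbit sets
  let orb : A → Finset A := fun s =>
    univ.filter (fun c => ∃ g : G, sg ψ g 1 = 1 ∧ sg ψ g s = c)
  have horb_mem : ∀ s c, c ∈ orb s ↔ ∃ g : G, sg ψ g 1 = 1 ∧ sg ψ g s = c := by
    intro s c
    simp [orb]
  have horb_inv : ∀ s, InvFun (G := G) ψ (fun c => c ∈ orb s) := by
    intro s h h1 c
    apply propext
    show sg ψ h c ∈ orb s ↔ c ∈ orb s
    rw [horb_mem, horb_mem]
    constructor
    · rintro ⟨g, hg1, hg2⟩
      refine ⟨h⁻¹ * g, ?_, ?_⟩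
      · rw [sg_mul, hg1]
        have := sg_inv_sg ψ h 1
        rwa [h1] at this
      · rw [sg_mul, hg2, sg_inv_sg]
    · rintro ⟨g, hg1, hg2⟩
      refine ⟨h * g, ?_, ?_⟩
      · rw [sg_mul, hg1, h1]
      · rw [sg_mul, hg2]
  have horb_self : ∀ s, s ∈ orb s := by
    intro s
    rw [horb_mem]
    exact ⟨1, sg_one ψ _, sg_one ψ _⟩
  have horb_one : ∀ s, s ≠ 1 → (1 : A) ∉ orb s := by
    intro s hs h
    rw [horb_mem] at h
    obtain ⟨g, hg1, hg2⟩ := h
    apply hs
    have h3 := sg_inv_sg ψ g s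
    rw [hg2] at h3
    have h4 := sg_inv_sg ψ g 1
    rw [hg1] at h4
    rw [← h3, h4]
  obtain ⟨w, hwT, hwq⟩ := meets_ker ψ ι hι hprim q hqd (orb t) (horb_inv t) (horb_one t ht)
    ⟨t, horb_self t⟩
  obtain ⟨u, huT, hup⟩ := meets_ker ψ ι hι hprim p hpd (orb t') (horb_inv t') (horb_one t' ht')
    ⟨t', horb_self t'⟩
  have hw1 : w ≠ 1 := fun h => horb_one t ht (h ▸ hwT)
  have hu1 : u ≠ 1 := fun h => horb_one t' ht' (h ▸ huT)
  have hcop : Nat.Coprime p q := (Nat.coprime_primes hp hq).mpr (Ne.symm hpq)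
  have hwp : w ^ p ≠ 1 := by
    intro h
    have h1 : orderOf w ∣ p := orderOf_dvd_of_pow_eq_one h
    have h3 : orderOf w ∣ q := orderOf_dvd_of_pow_eq_one hwq
    have h4 := Nat.dvd_gcd h1 h3
    rw [hcop.gcd_eq_one, Nat.dvd_one, orderOf_eq_one_iff] at h4
    exact hw1 h4
  have huq : u ^ q ≠ 1 := by
    intro h
    have h1 : orderOf u ∣ q := orderOf_dvd_of_pow_eq_one h
    have h3 : orderOf u ∣ p := orderOf_dvd_of_pow_eq_one hup
    have h4 := Nat.dvd_gcd h3 h1
    rw [hcop.gcd_eq_one, Nat.dvd_one, orderOf_eq_one_iff] at h4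
    exact hu1 h4
  have h3 := fibre_full ψ ι hι hprim p hpd (orb t) (horb_inv t) w hwT hwp u hup
  have h4 := fibre_full ψ ι hι hprim q hqd (orb t') (horb_inv t') u huT huq w hwq
  rw [mul_comm u w] at h4
  rw [horb_mem] at h3 h4
  obtain ⟨g1, hg1a, hg1b⟩ := h3
  obtain ⟨g2, hg2a, hg2b⟩ := h4
  refine ⟨g2⁻¹ * g1, ?_, ?_⟩
  · rw [sg_mul, hg1a]
    have := sg_inv_sg ψ g2 1
    rwa [hg2a] at this
  · rw [sg_mul, hg1b, ← hg2b, sg_inv_sg]

end Main

/-- Let G act faithfully and transitively on a finite set whose number of points n ≥ 2 is not a prime power, and suppose G has a cyclic subgroup acting regularly (transitively with trivial point stabilizers). Then G is imprimitive or doubly transitive. -/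
theorem result {G Ω : Type*} [Group G] [Finite G] [MulAction G Ω] [FaithfulSMul G Ω] [Finite Ω]
    (htrans : MulAction.IsPretransitive G Ω) (hn : 2 ≤ Nat.card Ω) (hnp : ¬ IsPrimePow (Nat.card Ω))
    (C : Subgroup G) (hcyc : IsCyclic ↥C) (hC : MulAction.IsPretransitive ↥C Ω ∧ ∀ a : Ω, MulAction.stabilizer ↥C a = ⊥) :
    ¬ MulAction.IsPreprimitive G Ω ∨ MulAction.IsMultiplyPretransitive G Ω 2 := by
  classical
  by_cases hprim : IsPreprimitive G Ω
  swap
  · exact Or.inl hprim
  right
  obtain ⟨hCt, hCs⟩ := hC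
  haveI : Nonempty Ω := (Nat.card_pos_iff.mp (by omega : 0 < Nat.card Ω)).1
  obtain ⟨a⟩ := ‹Nonempty Ω›
  letI : CommGroup ↥C := IsCyclic.commGroup
  haveI := Fintype.ofFinite ↥C
  let ψ : ↥C ≃ Ω := Equiv.ofBijective (fun c : ↥C => (c : G) • a) (by
    constructor
    · intro c d hcd
      have h1 : d⁻¹ * c ∈ stabilizer ↥C a := by
        rw [mem_stabilizer_iff, mul_smul]
        have h2 : c • a = d • a := hcd
        rw [h2, inv_smul_smul]
      rw [hCs a, Subgroup.mem_bot] at h1
      exact (inv_mul_eq_one.mp h1).symm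
    · intro b
      obtain ⟨c, hc⟩ := hCt.exists_smul_eq a b
      exact ⟨c, hc⟩)
  have hψ : ∀ c : ↥C, ψ c = (c : G) • a := fun c => rfl
  let ι : ↥C → G := fun c => (c : G)
  have hι : ∀ c d : ↥C, ι c • ψ d = ψ (c * d) := by
    intro c d
    change (c : G) • ((d : G) • a) = ((c * d : ↥C) : G) • a
    rw [Subgroup.coe_mul, mul_smul]
  have hcard : Fintype.card ↥C = Nat.card Ω := by
    rw [← Nat.card_eq_fintype_card]
    exact Nat.card_congr ψ
  have hcore := core ψ ι hι hprim (by rw [hcard]; exact hnp) (by rw [hcard]; exact hn)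
  rw [is_two_pretransitive_iff]
  intro x y x' y' hxy hxy'
  obtain ⟨c, rfl⟩ := ψ.surjective x
  obtain ⟨d, rfl⟩ := ψ.surjective y
  obtain ⟨c', rfl⟩ := ψ.surjective x'
  obtain ⟨d', rfl⟩ := ψ.surjective y'
  have h1 : c⁻¹ * d ≠ 1 := by
    intro h
    apply hxy
    rw [inv_mul_eq_one.mp h]
  have h2 : c'⁻¹ * d' ≠ 1 := by
    intro h
    apply hxy'
    rw [inv_mul_eq_one.mp h]
  obtain ⟨g, hg1, hg2⟩ := hcore _ _ h1 h2
  refine ⟨ι c' * g * ι c⁻¹, ?_, ?_⟩
  · rw [mul_smul, mul_smul, hι, inv_mul_cancel, ← psi_sg ψ g 1, hg1, hι, mul_one]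
  · rw [mul_smul, mul_smul, hι, ← psi_sg ψ g, hg2, hι, mul_inv_cancel_left]

end Cfsg.Agent.S3559
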