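import Mathlib
import Cfsg.Statements.S3560

set_option autoImplicit false
set_option linter.all false
open Cfsg

namespace Cfsg.Agent.S3560

open MulAction
open scoped Pointwise

universe u v w

section Iso

variable {ι : Type u} [Fintype ι] [DecidableEq ι] {A : Type v} [DecidableEq A]

/-- a perm on the product is a Hamming isometry -/
def IsIso (τ : Equiv.Perm (ι → A)) : Prop := ∀ x y, hammingDist (τ x) (τ y) = hammingDist x y

/-- coordinatewise permutation -/
def coordP (π : ι → Equiv.Perm A) : Equiv.Perm (ι → A) := Equiv.piCongrRight π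

theorem coordP_apply (π : ι → Equiv.Perm A) (x : ι → A) (i : ι) : coordP π x i = π i (x i) := rfl

theorem coordP_iso (π : ι → Equiv.Perm A) : IsIso (coordP π) := by
  intro x y
  unfold hammingDist
  congr 1
  ext i
  simp [coordP_apply]

/-- permuting the coordinates -/
def shuffle (ρ : Equiv.Perm ι) : Equiv.Perm (ι → A) := Equiv.arrowCongr ρ (Equiv.refl A)

theorem shuffle_apply (ρ : Equiv.Perm ι) (x : ι → A) (i : ι) : shuffle ρ x i = x (ρ.symm i) := rfl

theorem shuffle_iso (ρ : Equiv.Perm ι) : IsIso (shuffle (A := A) ρ) := by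
  intro x y
  unfold hammingDist
  apply Finset.card_bij (fun i _ => ρ.symm i)
  · intro i hi
    simp only [Finset.mem_filter, Finset.mem_univ, true_and] at hi ⊢
    exact hi
  · intro i _ j _ hij
    exact ρ.symm.injective hij
  · intro j hj
    refine ⟨ρ j, ?_, by simp⟩
    simp only [Finset.mem_filter, Finset.mem_univ, true_and] at hj ⊢
    simpa [shuffle_apply] using hj

variable {Ω : Type w} (e : Ω ≃ (ι → A))

/-- the transported distance -/
def dd (a b : Ω) : ℕ := hammingDist (e a) (e b)

/-- the isometry group -/
def isoGroup : Subgroup (Equiv.Perm Ω) where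
  carrier := {σ | ∀ a b, dd e (σ a) (σ b) = dd e a b}
  one_mem' := fun a b => rfl
  mul_mem' := by
    intro σ τ hσ hτ a b
    simp only [Equiv.Perm.coe_mul, Function.comp_apply]
    rw [hσ, hτ]
  inv_mem' := by
    intro σ hσ a b
    have := hσ (σ⁻¹ a) (σ⁻¹ b)
    rw [show σ (σ⁻¹ a) = a by simp, show σ (σ⁻¹ b) = b by simp] at this
    exact this.symm

/-- lifting isometries -/
def lift (τ : Equiv.Perm (ι → A)) : Equiv.Perm Ω := e.trans (τ.trans e.symm)

theorem lift_apply (τ : Equiv.Perm (ι → A)) (a : Ω) : e (lift e τ a) = τ (e a) := by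
  simp [lift]

theorem lift_mem {τ : Equiv.Perm (ι → A)} (h : IsIso τ) : lift e τ ∈ isoGroup e := by
  intro a b
  unfold dd
  rw [lift_apply, lift_apply]
  exact h _ _

theorem isIso_mul {τ τ' : Equiv.Perm (ι → A)} (h : IsIso τ) (h' : IsIso τ') : IsIso (τ * τ') := by
  intro x y
  simp only [Equiv.Perm.coe_mul, Function.comp_apply]
  rw [h, h']

/-- distance one is a single coordinate change. -/
theorem dist_one {x y : ι → A} (h : hammingDist x y = 1) :
    ∃ i, y i ≠ x i ∧ y = Function.update x i (y i) := by
  unfold hammingDist at h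
  obtain ⟨i, hi⟩ := Finset.card_eq_one.mp h
  have hi' : i ∈ Finset.univ.filter (fun i => x i ≠ y i) := by
    rw [hi]; simp
  refine ⟨i, ?_, ?_⟩
  · exact fun h' => (Finset.mem_filter.mp hi').2 h'.symm
  · funext j
    by_cases hj : j = i
    · subst hj; simp
    · rw [Function.update_of_ne hj]
      by_contra hne
      have : j ∈ Finset.univ.filter (fun i => x i ≠ y i) := by
        simp only [Finset.mem_filter, Finset.mem_univ, true_and]
        exact fun h' => hne h'.symm
      rw [hi, Finset.mem_singleton] at this
      exact hj this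

theorem dist_update {x : ι → A} {i : ι} {v : A} (hv : v ≠ x i) :
    hammingDist x (Function.update x i v) = 1 := by
  unfold hammingDist
  apply Finset.card_eq_one.mpr
  refine ⟨i, ?_⟩
  ext j
  simp only [Finset.mem_filter, Finset.mem_univ, true_and, Finset.mem_singleton]
  by_cases hj : j = i
  · subst hj
    simp [hv.symm]
  · simp [Function.update_of_ne hj, hj]

variable [Fintype A]

theorem isPreprimitive_iso (hA : 3 ≤ Fintype.card A) [Nonempty ι] :
    IsPreprimitive ↥(isoGroup e) Ω := by
  classical
  -- transitivity
  have htr : ∀ a b : Ω, ∃ σ ∈ isoGroup e, σ a = b := by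
    intro a b
    refine ⟨lift e (coordP (fun i => Equiv.swap (e a i) (e b i))), lift_mem e (coordP_iso _), ?_⟩
    apply e.injective
    rw [lift_apply]
    funext i
    rw [coordP_apply, Equiv.swap_apply_left]
  haveI : IsPretransitive ↥(isoGroup e) Ω := by
    refine ⟨fun a b => ?_⟩
    obtain ⟨σ, hσ, h⟩ := htr a b
    exact ⟨⟨σ, hσ⟩, h⟩
  obtain ⟨a0⟩ : Nonempty A := by
    rw [← Fintype.card_pos_iff]
    omega
  set y0 : ι → A := fun _ => a0 with hy0
  set z0 : Ω := e.symm y0 with hz0
  have hez0 : e z0 = y0 := by simp [hz0]
  apply IsPreprimitive.of_isTrivialBlock_base z0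
  intro B hz0B hB
  by_cases hsub : B.Subsingleton
  · exact Or.inl hsub
  right
  -- block facts
  have hstab : ∀ σ ∈ isoGroup e, ∀ x ∈ B, σ x ∈ B → ∀ y ∈ B, σ y ∈ B := by
    intro σ hσ x hx hσx y hy
    have h1 : (⟨σ, hσ⟩ : ↥(isoGroup e)) • B = B := hB.smul_eq_of_mem hx hσx
    have h2 : (⟨σ, hσ⟩ : ↥(isoGroup e)) • y ∈ (⟨σ, hσ⟩ : ↥(isoGroup e)) • B :=
      Set.smul_mem_smul_set hy
    rw [h1] at h2
    exact h2
  have hstab' : ∀ σ ∈ isoGroup e, ∀ x ∈ B, σ x ∈ B → ∀ y, σ y ∈ B → y ∈ B := by
    intro σ hσ x hx hσx y hy
    have h1 : σ⁻¹ ∈ isoGroup e := (isoGroup e).inv_mem hσ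
    have h2 := hstab σ⁻¹ h1 (σ x) hσx (by simpa using hx) (σ y) hy
    simpa using h2
  -- a point of weight one
  obtain ⟨x, hxB, hxne⟩ : ∃ x ∈ B, x ≠ z0 := by
    by_contra hcon
    push Not at hcon
    apply hsub
    intro p hp q hq
    rw [hcon p hp, hcon q hq]
  have hw1 : ∃ y ∈ B, dd e z0 y = 1 := by
    have hne : e x ≠ y0 := by
      intro h
      apply hxne
      rw [hz0, ← h]
      simp
    obtain ⟨j, hj⟩ : ∃ j, e x j ≠ a0 := by
      by_contra hcon
      push Not at hcon
      exact hne (funext hcon)
    obtain ⟨v, hv1, hv2⟩ : ∃ v : A, v ≠ a0 ∧ v ≠ e x j := by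
      have h1 : ({a0, e x j} : Finset A).card ≤ 2 := Finset.card_le_two
      have h2 : ({a0, e x j} : Finset A).card < (Finset.univ : Finset A).card := by
        rw [Finset.card_univ]; omega
      obtain ⟨v, _, hv⟩ := Finset.exists_mem_notMem_of_card_lt_card h2
      refine ⟨v, ?_, ?_⟩
      · intro h; exact hv (by simp [h])
      · intro h; exact hv (by simp [h])
    set π : ι → Equiv.Perm A := Function.update (fun _ => 1) j (Equiv.swap (e x j) v) with hπ
    have hπj : π j = Equiv.swap (e x j) v := by simp [hπ]
    have hπo : ∀ i, i ≠ j → π i = 1 := by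
      intro i hi
      simp [hπ, Function.update_of_ne hi]
    set g1 := lift e (coordP π) with hg1
    have hg1mem : g1 ∈ isoGroup e := lift_mem e (coordP_iso _)
    have hg1z : g1 z0 = z0 := by
      apply e.injective
      rw [hg1, lift_apply, hez0]
      funext i
      rw [coordP_apply]
      by_cases hi : i = j
      · subst hi
        rw [hπj]
        exact Equiv.swap_apply_of_ne_of_ne (Ne.symm hj) (Ne.symm hv1)
      · rw [hπo i hi]
        rfl
    have hg1x : g1 x ∈ B := hstab g1 hg1mem z0 hz0B (by rw [hg1z]; exact hz0B) x hxB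
    have hexx : e (g1 x) = Function.update (e x) j v := by
      rw [hg1, lift_apply]
      funext i
      rw [coordP_apply]
      by_cases hi : i = j
      · subst hi
        rw [hπj, Equiv.swap_apply_left]
        simp
      · rw [hπo i hi, Function.update_of_ne hi]
        rfl
    obtain ⟨t, htm, htx⟩ := htr x z0
    refine ⟨t (g1 x), hstab t htm x hxB (by rw [htx]; exact hz0B) _ hg1x, ?_⟩
    have h1 : dd e (t x) (t (g1 x)) = dd e x (g1 x) := htm _ _
    rw [htx] at h1
    rw [h1]
    unfold dd
    rw [hexx]
    exact dist_update hv2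
  obtain ⟨y, hyB, hy1⟩ := hw1
  -- all points of weight one
  have hw1all : ∀ y' : Ω, dd e z0 y' = 1 → y' ∈ B := by
    intro y' hy'
    unfold dd at hy1 hy'
    rw [hez0] at hy1 hy'
    obtain ⟨i, hi1, hi2⟩ := dist_one hy1
    obtain ⟨i', hi1', hi2'⟩ := dist_one hy'
    set v := e y i with hv
    set v' := e y' i' with hv'
    set π : ι → Equiv.Perm A := Function.update (fun _ => 1) i' (Equiv.swap v v') with hπ
    have hπj : π i' = Equiv.swap v v' := by simp [hπ]
    have hπo : ∀ l, l ≠ i' → π l = 1 := by
      intro l hl
      simp [hπ, Function.update_of_ne hl]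
    set τ := coordP π * shuffle (A := A) (Equiv.swap i i') with hτ
    have hτiso : IsIso τ := isIso_mul (coordP_iso _) (shuffle_iso _)
    set g := lift e τ with hg
    have hgmem : g ∈ isoGroup e := lift_mem e hτiso
    have hgz : g z0 = z0 := by
      apply e.injective
      rw [hg, lift_apply, hez0]
      funext l
      simp only [hτ, Equiv.Perm.coe_mul, Function.comp_apply, coordP_apply, shuffle_apply]
      by_cases hl : l = i'
      · subst hl
        rw [hπj]
        exact Equiv.swap_apply_of_ne_of_ne (Ne.symm hi1) (Ne.symm hi1')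
      · rw [hπo l hl]
        rfl
    have hgy : g y = y' := by
      apply e.injective
      rw [hg, lift_apply, hi2']
      funext l
      simp only [hτ, Equiv.Perm.coe_mul, Function.comp_apply, coordP_apply, shuffle_apply]
      rw [hi2]
      by_cases hl : l = i'
      · subst hl
        rw [hπj]
        simp only [Function.update_self]
        have : (Equiv.swap i l).symm l = i := by
          simp
        rw [this]
        simp [hv]
      · rw [hπo l hl, Function.update_of_ne hl]
        have h3 : (Equiv.swap i i').symm l ≠ i := by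
          by_cases hl2 : l = i
          · subst hl2
            simp only [Equiv.symm_swap, Equiv.swap_apply_left]
            exact fun h4 => hl h4.symm
          · simp only [Equiv.symm_swap]
            rw [Equiv.swap_apply_of_ne_of_ne hl2 hl]
            exact hl2
        rw [Function.update_of_ne h3]
        rfl
    rw [← hgy]
    exact hstab g hgmem z0 hz0B (by rw [hgz]; exact hz0B) y hyB
  -- closure under neighbours
  have hnb : ∀ p ∈ B, ∀ q : Ω, dd e p q = 1 → q ∈ B := by
    intro p hp q hq
    obtain ⟨t, htm, htp⟩ := htr p z0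
    have h1 : dd e (t p) (t q) = dd e p q := htm _ _
    rw [htp, hq] at h1
    have h2 := hw1all _ h1
    exact hstab' t htm p hp (by rw [htp]; exact hz0B) q h2
  -- connectivity
  have hall : ∀ d : ℕ, ∀ q : Ω, dd e z0 q = d → q ∈ B := by
    intro d
    induction d with
    | zero =>
      intro q hq
      unfold dd at hq
      have h1 := hammingDist_eq_zero.mp hq
      have h2 : z0 = q := e.injective h1
      rw [← h2]
      exact hz0B
    | succ d ih =>
      intro q hq
      unfold dd at hq
      rw [hez0] at hq
      obtain ⟨j, hj⟩ : ∃ j, e q j ≠ a0 := by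
        by_contra hcon
        push Not at hcon
        have : e q = y0 := funext hcon
        rw [this, hammingDist_self] at hq
        omega
      set u : ι → A := Function.update (e q) j a0 with hu
      set q' : Ω := e.symm u with hq'
      have heq' : e q' = u := by simp [hq']
      have hd : dd e z0 q' = d := by
        unfold dd
        rw [hez0, heq']
        have h1 : hammingDist y0 (e q) = hammingDist y0 u + 1 := by
          unfold hammingDist
          have h2 : Finset.univ.filter (fun i => y0 i ≠ e q i)
              = insert j (Finset.univ.filter (fun i => y0 i ≠ u i)) := by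
            ext i
            simp only [Finset.mem_filter, Finset.mem_univ, true_and, Finset.mem_insert]
            by_cases hij : i = j
            · subst hij
              simp [hy0, hj.symm]
            · simp [hij, hu, Function.update_of_ne hij]
          rw [h2, Finset.card_insert_of_notMem]
          simp [hu, hy0]
        omega
      have hq'B := ih q' hd
      apply hnb q' hq'B q
      unfold dd
      rw [heq', hu]
      have h1 : e q = Function.update (Function.update (e q) j a0) j (e q j) := by
        simp
      conv_lhs => rw [h1]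
      rw [hammingDist_comm]
      have h2 := dist_update (x := Function.update (e q) j a0) (i := j) (v := e q j) (by simpa using hj)
      rw [hammingDist_comm] at h2
      simpa using h2
  rw [Set.eq_univ_iff_forall]
  intro q
  exact hall _ q rfl

end Iso

/-- Let K be a finite group isomorphic to a direct product of r ≥ 2 groups all of the same order m ≥ 3. Then K is not a B-group: there is a primitive but not doubly transitive permutation group (on some finite set) containing a regular subgroup isomorphic to K. -/
theorem result {K : Type*} [Group K] [Finite K] {ι : Type*} [Fintype ι] (F : ι → Type*) [∀ i, Group (F i)]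
    (hr : 2 ≤ Fintype.card ι) (m : ℕ) (hm : 3 ≤ m) (hcard : ∀ i, Nat.card (F i) = m) (e : K ≃* (∀ i, F i)) :
    ∃ (n : ℕ) (G R : Subgroup (Equiv.Perm (Fin n))), R ≤ G ∧ Nonempty (↥R ≃* K) ∧
      MulAction.IsPretransitive ↥R (Fin n) ∧ (∀ a : Fin n, MulAction.stabilizer ↥R a = ⊥) ∧
      MulAction.IsPreprimitive ↥G (Fin n) ∧ ¬ MulAction.IsMultiplyPretransitive ↥G (Fin n) 2 := by
  classical
  have hfin : ∀ i, Finite (F i) := by
    intro i
    apply Nat.finite_of_card_ne_zero
    rw [hcard i]
    omega
  have φ : ∀ i, F i ≃ Fin m := fun i => by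
    haveI := hfin i
    exact Finite.equivFinOfCardEq (hcard i)
  let E : K ≃ (ι → Fin m) := e.toEquiv.trans (Equiv.piCongrRight φ)
  have hE : ∀ k i, E k i = φ i (e k i) := fun k i => rfl
  let f : Fin (Nat.card K) ≃ K := (Finite.equivFin K).symm
  let e' : Fin (Nat.card K) ≃ (ι → Fin m) := f.trans E
  have he' : ∀ a i, e' a i = φ i (e (f a) i) := fun a i => rfl
  let lam : K →* Equiv.Perm (Fin (Nat.card K)) :=
    (Equiv.permCongrHom f.symm).toMonoidHom.comp (MulAction.toPermHom K K)
  have hlam : ∀ k a, f (lam k a) = k * f a := by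
    intro k a
    simp [lam, Equiv.permCongr_apply, Equiv.permCongrHom]
  have hinj : Function.Injective lam := by
    intro k k' h
    obtain ⟨a⟩ : Nonempty (Fin (Nat.card K)) := ⟨f.symm 1⟩
    have h1 := hlam k a
    have h2 := hlam k' a
    rw [h] at h1
    rw [h1] at h2
    exact mul_right_cancel h2
  haveI : Nonempty ι := by
    rw [← Fintype.card_pos_iff]
    omega
  refine ⟨Nat.card K, isoGroup e', lam.range, ?_, ⟨(MonoidHom.ofInjective hinj).symm⟩, ?_, ?_, ?_, ?_⟩
  · rintro _ ⟨k, rfl⟩
    intro a b
    unfold dd
    unfold hammingDist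
    congr 1
    ext i
    simp only [Finset.mem_filter, Finset.mem_univ, true_and, he']
    rw [hlam, hlam]
    simp
  · refine ⟨fun a b => ?_⟩
    refine ⟨⟨lam (f b * (f a)⁻¹), ⟨_, rfl⟩⟩, ?_⟩
    apply f.injective
    change f (lam (f b * (f a)⁻¹) a) = f b
    rw [hlam]
    group
  · intro a
    rw [eq_bot_iff]
    rintro ⟨_, ⟨k, rfl⟩⟩ hk
    rw [Subgroup.mem_bot]
    have h1 : lam k a = a := hk
    have h2 := hlam k a
    rw [h1] at h2
    have h3 : k = 1 := by
      have : k * f a = 1 * f a := by rw [one_mul]; exact h2.symm
      exact mul_right_cancel this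
    apply Subtype.ext
    change lam k = 1
    rw [h3, map_one]
  · apply isPreprimitive_iso e'
    simp only [Fintype.card_fin]
    exact hm
  · intro htwo
    rw [is_two_pretransitive_iff] at htwo
    obtain ⟨i, j, hij⟩ := Fintype.exists_pair_of_one_lt_card (by omega : 1 < Fintype.card ι)
    let a0 : Fin m := ⟨0, by omega⟩
    let a1 : Fin m := ⟨1, by omega⟩
    have ha : a1 ≠ a0 := by
      simp [a0, a1, Fin.ext_iff]
    let y0 : ι → Fin m := fun _ => a0
    let y1 : ι → Fin m := Function.update y0 i a1
    let y2 : ι → Fin m := Function.update y1 j a1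
    have h01 : hammingDist y0 y1 = 1 := dist_update (x := y0) ha
    have h12 : hammingDist y1 y2 = 1 := by
      apply dist_update (x := y1)
      simp only [y1]
      rw [Function.update_of_ne (Ne.symm hij)]
      exact ha
    have h02 : hammingDist y0 y2 = 2 := by
      unfold hammingDist
      have : Finset.univ.filter (fun l => y0 l ≠ y2 l) = {i, j} := by
        ext l
        simp only [Finset.mem_filter, Finset.mem_univ, true_and, Finset.mem_insert,
          Finset.mem_singleton]
        by_cases hl1 : l = j
        · subst hl1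
          simp [y0, y2, ha.symm]
        · by_cases hl2 : l = i
          · subst hl2
            simp [y0, y2, y1, Function.update_of_ne hl1, ha.symm]
          · simp [y0, y2, y1, Function.update_of_ne hl1, Function.update_of_ne hl2, hl1, hl2]
      rw [this, Finset.card_pair hij]
    have hne1 : e'.symm y0 ≠ e'.symm y1 := by
      intro h
      have := e'.symm.injective h
      rw [this, hammingDist_self] at h01
      omega
    have hne2 : e'.symm y0 ≠ e'.symm y2 := by
      intro h
      have := e'.symm.injective h
      rw [this, hammingDist_self] at h02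
      omega
    obtain ⟨g, hg1, hg2⟩ := htwo hne1 hne2
    have h3 := g.2 (e'.symm y0) (e'.symm y1)
    have hg1' : (g : Equiv.Perm _) (e'.symm y0) = e'.symm y0 := hg1
    have hg2' : (g : Equiv.Perm _) (e'.symm y1) = e'.symm y2 := hg2
    rw [hg1', hg2'] at h3
    unfold dd at h3
    simp only [Equiv.apply_symm_apply] at h3
    rw [h02, h01] at h3
    omega

end Cfsg.Agent.S3560
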