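import Mathlib
import Cfsg.Statements.S3571
import Cfsg.Agent.Lib.AltLargestPrime

set_option autoImplicit false
open Cfsg

namespace Cfsg.Agent.S3571

open MulAction Equiv Equiv.Perm

/-- Let G be an almost simple group whose socle is an alternating group of degree m ≥ 5 (G has a normal subgroup T isomorphic to that alternating group with trivial centralizer), acting faithfully and primitively on a finite set Ω with at least two points, and let r be the largest prime divisor of the number of points. Then G contains an element of order r fixing no point. -/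
theorem result {G Ω : Type*} [Group G] [Finite G] [MulAction G Ω] [FaithfulSMul G Ω] [Finite Ω]
    (T : Subgroup G) (hT : T.Normal) (hTc : Subgroup.centralizer (T : Set G) = ⊥) (m : ℕ) (hm : 5 ≤ m)
    (eT : ↥T ≃* ↥(alternatingGroup (Fin m))) (hprim : MulAction.IsPreprimitive G Ω) (hΩ : 2 ≤ Nat.card Ω)
    (r : ℕ) (hr : r.Prime) (hrd : r ∣ Nat.card Ω) (hmax : ∀ s : ℕ, s.Prime → s ∣ Nat.card Ω → s ≤ r) :
    ∃ g : G, orderOf g = r ∧ ∀ ω : Ω, g • ω ≠ ω := by
  classical
  haveI : Nonempty Ω := by
    apply (Nat.card_pos_iff.1 (by omega)).1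
  haveI : IsSimpleGroup (alternatingGroup (Fin m)) :=
    alternatingGroup.isSimpleGroup (by simpa using hm)
  -- `T` is transitive on `Ω`.
  haveI : IsPretransitive T Ω := by
    apply IsQuasiPreprimitive.isPretransitive_of_normal (G := G)
    intro hfix
    obtain ⟨a, ha⟩ := exists_ne (1 : alternatingGroup (Fin m))
    have h1 : ((eT.symm a : T) : G) = 1 := by
      apply FaithfulSMul.eq_of_smul_eq_smul (α := Ω)
      intro ω
      have hω : ω ∈ fixedPoints T Ω := by rw [hfix]; trivial
      have := hω (eT.symm a)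
      rw [one_smul]
      exact this
    apply ha
    have h2 : eT.symm a = 1 := Subtype.ext h1
    simpa using h2
  obtain ⟨ω₀⟩ := ‹Nonempty Ω›
  let S : Subgroup T := stabilizer T ω₀
  let K : Subgroup (Perm (Fin m)) :=
    (S.map eT.toMonoidHom).map (alternatingGroup (Fin m)).subtype
  have hKA : K ≤ alternatingGroup (Fin m) := by
    rintro _ ⟨a, -, rfl⟩
    exact a.2
  have hKc : Nat.card K = Nat.card S := by
    rw [Subgroup.card_map_of_injective (Subgroup.subtype_injective _)]
    exact Subgroup.card_map_of_injective eT.injective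
  have hI : Nat.card Ω * Nat.card K = Nat.card (alternatingGroup (Fin m)) := by
    rw [hKc, ← Nat.card_congr eT.toEquiv, ← Subgroup.index_mul_card S]
    congr 1
    change Nat.card Ω = (stabilizer T ω₀).index
    rw [index_stabilizer, orbit_eq_univ, Set.ncard_univ]
  obtain ⟨x, hxA, hxo, hxK⟩ := Cfsg.Agent.Lib.AltLargestPrime.core (α := Fin m)
    (by simpa using hm) K hKA _ r hI hr hrd hmax
  let x' : alternatingGroup (Fin m) := ⟨x, hxA⟩
  refine ⟨((eT.symm x' : T) : G), ?_, ?_⟩
  · rw [Subgroup.orderOf_coe, MulEquiv.orderOf_eq, ← hxo]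
    exact (Subgroup.orderOf_coe x').symm
  · intro ω hgω
    obtain ⟨t, rfl⟩ := exists_smul_eq T ω₀ ω
    -- conjugate into the point stabilizer
    let h : T := t⁻¹ * eT.symm x' * t
    have hh : h ∈ S := by
      change h • ω₀ = ω₀
      have h1 : (eT.symm x') • t • ω₀ = t • ω₀ := hgω
      calc h • ω₀ = t⁻¹ • (eT.symm x') • t • ω₀ := by
            simp only [h, mul_smul]
        _ = t⁻¹ • t • ω₀ := by rw [h1]
        _ = ω₀ := by simp
    have hmem : ((eT h : alternatingGroup (Fin m)) : Perm (Fin m)) ∈ K :=
      ⟨eT h, ⟨h, hh, rfl⟩, rfl⟩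
    apply hxK ((((eT t)⁻¹ : alternatingGroup (Fin m))) : Perm (Fin m))
    have heq : ((eT h : alternatingGroup (Fin m)) : Perm (Fin m)) =
        ((((eT t)⁻¹ : alternatingGroup (Fin m))) : Perm (Fin m)) * x *
          (((((eT t)⁻¹ : alternatingGroup (Fin m))) : Perm (Fin m)))⁻¹ := by
      have : eT h = (eT t)⁻¹ * x' * eT t := by
        simp [h]
      rw [this]
      simp [x']
    rw [← heq]
    exact hmem

end Cfsg.Agent.S3571
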