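import Mathlib
import Cfsg.Agent.Lib.DihS7
import Cfsg.Statements.S3572

set_option autoImplicit false
open Cfsg

namespace Cfsg.Agent.S3572

open Cfsg.Agent.Lib.DihS DihedralGroup

section

variable {G Ω : Type*} [Group G] [MulAction G Ω] {m : ℕ} [NeZero m]

/-- The scheme attached to a regular dihedral subgroup of a primitive group. -/
noncomputable def schemeOf (φ : DihedralGroup m →* G) (o : Ω)
    (hp : Function.Bijective (fun h : DihedralGroup m => φ h • o))
    (hprim : MulAction.IsPreprimitive G Ω) : Scheme m where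
  rel g h := ∃ u : G, u • o = o ∧ u • (φ g • o) = φ h • o
  refl g := ⟨1, by simp, by simp⟩
  symm := by
    rintro g h ⟨u, hu, hug⟩
    refine ⟨u⁻¹, by rw [inv_smul_eq_iff, hu], ?_⟩
    rw [inv_smul_eq_iff, hug]
  trans := by
    rintro g h k ⟨u, hu, hug⟩ ⟨v, hv, hvg⟩
    refine ⟨v * u, by rw [mul_smul, hu, hv], ?_⟩
    rw [mul_smul, hug, hvg]
  one := by
    rintro g ⟨u, hu, hug⟩
    apply hp.1
    simp only [map_one, one_smul] at hug ⊢
    have h1 : u • (φ g • o) = u • o := by rw [hug, hu]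
    exact smul_left_cancel u h1
  inv := by
    rintro g h ⟨u, hu, hug⟩
    refine ⟨(φ h)⁻¹ * u * φ g, ?_, ?_⟩
    · rw [mul_smul, mul_smul, hug, inv_smul_smul]
    · simp only [map_inv, mul_smul, smul_inv_smul, hu]
  mul := by
    classical
    rintro x y hx hy g g' ⟨u, hu, hug⟩
    let e : DihedralGroup m ≃ Ω := Equiv.ofBijective _ hp
    let π : Equiv.Perm (DihedralGroup m) := e.trans ((MulAction.toPerm u).trans e.symm)
    have hπ : ∀ h, φ (π h) • o = u • (φ h • o) := by
      intro h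
      have : e (π h) = u • e h := by
        simp [π]
      exact this
    rw [coeff_mul_eq, coeff_mul_eq]
    refine Fintype.sum_equiv π _ _ (fun h => ?_)
    congr 1
    · exact hx h (π h) ⟨u, hu, (hπ h).symm⟩
    · apply hy
      refine ⟨(φ (π h))⁻¹ * u * φ h, ?_, ?_⟩
      · rw [mul_smul, mul_smul, ← hπ h, inv_smul_smul]
      · simp only [map_mul, map_inv, mul_smul, smul_inv_smul, hug]
  prim := by
    intro K hK
    set B : Set Ω := (fun h : DihedralGroup m => φ h • o) '' (K : Set (DihedralGroup m)) with hB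
    have hpinj : ∀ a b : DihedralGroup m, φ a • o = φ b • o → a = b := fun a b h => hp.1 h
    have claim : ∀ (g : G) (k₁ k₂ k : DihedralGroup m), k₁ ∈ K → k₂ ∈ K → k ∈ K →
        g • (φ k₁ • o) = φ k₂ • o → g • (φ k • o) ∈ B := by
      intro g k₁ k₂ k h1 h2 h3 hg
      set g' : G := (φ k₂)⁻¹ * g * φ k₁ with hg'
      have hg'o : g' • o = o := by
        rw [hg', mul_smul, mul_smul, hg, inv_smul_smul]
      obtain ⟨t, ht⟩ := hp.2 (g' • (φ (k₁⁻¹ * k) • o))
      have ht' : φ t • o = g' • (φ (k₁⁻¹ * k) • o) := ht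
      have htK : t ∈ K := hK (k₁⁻¹ * k) t ⟨g', hg'o, ht'.symm⟩ (K.mul_mem (K.inv_mem h1) h3)
      refine ⟨k₂ * t, K.mul_mem h2 htK, ?_⟩
      show φ (k₂ * t) • o = g • (φ k • o)
      rw [map_mul, mul_smul, ht', hg']
      simp only [map_mul, map_inv, mul_smul, smul_inv_smul]
    have hblock : MulAction.IsBlock G B := by
      rw [MulAction.isBlock_iff_smul_eq_of_nonempty]
      rintro g ⟨x, hx1, hx2⟩
      obtain ⟨x', hx', rfl⟩ := hx1
      obtain ⟨k₂, hk₂, hk₂'⟩ := hx2
      obtain ⟨k₁, hk₁, rfl⟩ := hx'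
      have hk₂'' : φ k₂ • o = g • (φ k₁ • o) := hk₂'
      ext b
      constructor
      · rintro ⟨c, ⟨k, hk, rfl⟩, rfl⟩
        exact claim g k₁ k₂ k hk₁ hk₂ hk hk₂''.symm
      · rintro ⟨k, hk, rfl⟩
        have hh : g⁻¹ • (φ k₂ • o) = φ k₁ • o := by
          rw [inv_smul_eq_iff]
          exact hk₂''
        exact ⟨_, claim g⁻¹ k₂ k₁ k hk₂ hk₁ hk hh, smul_inv_smul g _⟩
    rcases hblock.subsingleton_or_eq_univ with h | h
    · left
      rw [Subgroup.eq_bot_iff_forall]
      intro k hk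
      apply hpinj
      apply h
      · exact ⟨k, hk, rfl⟩
      · exact ⟨1, K.one_mem, rfl⟩
    · right
      rw [eq_top_iff]
      intro k _
      have h1 : φ k • o ∈ B := by rw [h]; trivial
      obtain ⟨k', hk', hkk⟩ := h1
      have := hpinj _ _ hkk
      rwa [← this]

end

/-- A finite primitive permutation group containing a dihedral subgroup that acts regularly (transitively with trivial point stabilizers) is doubly transitive. -/
theorem result {G Ω : Type*} [Group G] [Finite G] [MulAction G Ω] [FaithfulSMul G Ω] [Finite Ω]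
    (hprim : MulAction.IsPreprimitive G Ω) (D : Subgroup G) (m : ℕ) (hD : Nonempty (↥D ≃* DihedralGroup m))
    (hDreg : MulAction.IsPretransitive ↥D Ω ∧ ∀ a : Ω, MulAction.stabilizer ↥D a = ⊥) :
    MulAction.IsMultiplyPretransitive G Ω 2 := by
  classical
  obtain ⟨ψ⟩ := hD
  obtain ⟨htrans, hstab⟩ := hDreg
  have hm : m ≠ 0 := by
    rintro rfl
    have : Finite (DihedralGroup 0) := Finite.of_equiv _ ψ.toEquiv
    exact not_finite (DihedralGroup 0)
  have : NeZero m := ⟨hm⟩
  rw [MulAction.is_two_pretransitive_iff]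
  intro a b c d hab hcd
  -- base point
  set o := a with ho
  let φ : DihedralGroup m →* G := D.subtype.comp ψ.symm.toMonoidHom
  have hφ : ∀ h, φ h = ((ψ.symm h : D) : G) := fun h => rfl
  have hp : Function.Bijective (fun h : DihedralGroup m => φ h • o) := by
    constructor
    · intro h h' hh
      have h1 : φ h • o = φ h' • o := hh
      have h2 : (ψ.symm h)⁻¹ * ψ.symm h' ∈ MulAction.stabilizer ↥D o := by
        rw [MulAction.mem_stabilizer_iff, mul_smul, inv_smul_eq_iff]
        rw [Subgroup.smul_def, Subgroup.smul_def]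
        exact h1.symm
      rw [hstab o, Subgroup.mem_bot] at h2
      have h3 : ψ.symm h = ψ.symm h' := by
        rw [inv_mul_eq_one] at h2
        exact h2
      exact ψ.symm.injective h3
    · intro x
      obtain ⟨d', hd'⟩ := MulAction.exists_smul_eq (↥D) o x
      refine ⟨ψ d', ?_⟩
      show φ (ψ d') • o = x
      rw [hφ, ψ.symm_apply_apply]
      exact hd'
  let S := schemeOf φ o hp hprim
  have htriv : ∀ g h : DihedralGroup m, g ≠ 1 → h ≠ 1 → S.rel g h := by
    by_cases h2 : 2 ≤ m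
    · exact S.trivial h2
    · have hm1 : m = 1 := by omega
      have hsub : Subsingleton (ZMod m) := ZMod.subsingleton_iff.2 hm1
      intro g h hg hh
      have key : ∀ k : DihedralGroup m, k ≠ 1 → k = sr 0 := by
        rintro (i | i) hi
        · exact absurd (by rw [one_def, Subsingleton.elim i 0]) hi
        · rw [Subsingleton.elim i 0]
      rw [key g hg, key h hh]
      exact S.refl _
  -- move things to the base point
  obtain ⟨g₀, hg₀⟩ := hp.2 b
  have hb : φ g₀ • o = b := hg₀
  have hg₀1 : g₀ ≠ 1 := by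
    rintro rfl
    apply hab
    rw [← hb, map_one, one_smul]
  obtain ⟨d₂, hd₂⟩ := MulAction.exists_smul_eq (↥D) c o
  have hd₂' : (d₂ : G) • c = o := hd₂
  obtain ⟨h₀, hh₀⟩ := hp.2 ((d₂ : G) • d)
  have hd : φ h₀ • o = (d₂ : G) • d := hh₀
  have hh₀1 : h₀ ≠ 1 := by
    rintro rfl
    apply hcd
    rw [map_one, one_smul] at hd
    apply smul_left_cancel (d₂ : G)
    rw [hd₂', hd]
  obtain ⟨u, hu, hug⟩ := htriv g₀ h₀ hg₀1 hh₀1
  refine ⟨(d₂ : G)⁻¹ * u, ?_, ?_⟩
  · rw [mul_smul, hu, inv_smul_eq_iff, hd₂']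
  · rw [mul_smul, ← hb, hug, hd, inv_smul_smul]

end Cfsg.Agent.S3572
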