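import Mathlib
import Cfsg.Statements.S3573

set_option autoImplicit false
set_option linter.all false
open Cfsg

namespace Cfsg.Agent.S3573

open Equiv.Perm

section

variable {α : Type*} [Fintype α] [DecidableEq α]

/-- an invariant set built from `j` cycles and `i` fixed points. -/
theorem invariant_subset (σ : Equiv.Perm α) (r : ℕ) (hσ : orderOf σ = r) (hr : r.Prime)
    (j i : ℕ) (hj : j ≤ Multiset.card σ.cycleType) (hi : i ≤ (σ.supportᶜ).card) :
    ∃ s : Finset α, s.card = j * r + i ∧ s.image σ = s := by
  have hcycle : ∀ τ ∈ σ.cycleFactorsFinset, τ.support.card = r := by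
    intro τ hτ
    obtain ⟨m, hm⟩ := cycleType_prime_order (σ := σ) (by rw [hσ]; exact hr)
    rw [hσ] at hm
    have : τ.support.card ∈ σ.cycleType := by
      rw [cycleType_def]
      exact Multiset.mem_map.mpr ⟨τ, hτ, rfl⟩
    rw [hm] at this
    exact Multiset.eq_of_mem_replicate this
  have hcard : Multiset.card σ.cycleType = σ.cycleFactorsFinset.card := by
    rw [cycleType_def, Multiset.card_map]
    rfl
  rw [hcard] at hj
  obtain ⟨T, hT, hTc⟩ := Finset.exists_subset_card_eq hj
  obtain ⟨I, hI, hIc⟩ := Finset.exists_subset_card_eq hi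
  refine ⟨T.biUnion (fun τ => τ.support) ∪ I, ?_, ?_⟩
  · have hdisj1 : (T : Set (Equiv.Perm α)).PairwiseDisjoint (fun τ => τ.support) := by
      intro x hx y hy hxy
      have := cycleFactorsFinset_pairwise_disjoint σ (hT hx) (hT hy) hxy
      exact (Equiv.Perm.disjoint_iff_disjoint_support.mp this)
    have hdisj2 : Disjoint (T.biUnion (fun τ => τ.support)) I := by
      rw [Finset.disjoint_left]
      intro x hx hxI
      obtain ⟨τ, hτ, hxτ⟩ := Finset.mem_biUnion.mp hx
      have h1 := hI hxI
      rw [Finset.mem_compl, mem_support, not_not] at h1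
      have h2 := (mem_cycleFactorsFinset_iff.mp (hT hτ)).2 x hxτ
      rw [h1] at h2
      exact (mem_support.mp hxτ) h2
    rw [Finset.card_union_of_disjoint hdisj2, Finset.card_biUnion hdisj1, hIc]
    congr 1
    rw [Finset.sum_congr rfl (fun τ hτ => hcycle τ (hT hτ)), Finset.sum_const, hTc, smul_eq_mul]
  · apply Finset.eq_of_subset_of_card_le
    · intro y hy
      obtain ⟨x, hx, rfl⟩ := Finset.mem_image.mp hy
      rw [Finset.mem_union] at hx ⊢
      rcases hx with hx | hx
      · left
        obtain ⟨τ, hτ, hxτ⟩ := Finset.mem_biUnion.mp hx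
        refine Finset.mem_biUnion.mpr ⟨τ, hτ, ?_⟩
        have h2 := (mem_cycleFactorsFinset_iff.mp (hT hτ)).2 x hxτ
        rw [← h2]
        exact apply_mem_support.mpr hxτ
      · right
        have h1 := hI hx
        rw [Finset.mem_compl, mem_support, not_not] at h1
        rw [h1]
        exact hx
    · rw [Finset.card_image_of_injective _ σ.injective]

/-- An invariant set is congruent modulo `r` to a number of fixed points. -/
theorem invariant_modEq (σ : Equiv.Perm α) (r : ℕ) (hσ : orderOf σ = r) (hr : r.Prime)
    (s : Finset α) (hs : s.image σ = s) :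
    ∃ i : ℕ, i ≤ (σ.supportᶜ).card ∧ i ≡ s.card [MOD r] := by
  haveI : Fact r.Prime := ⟨hr⟩
  have hmem : ∀ x : α, σ x ∈ s ↔ x ∈ s := by
    have h1 : ∀ x ∈ s, σ x ∈ s := by
      intro x hx
      rw [← hs]
      exact Finset.mem_image_of_mem σ hx
    intro x
    constructor
    · intro hx
      have h2 : σ x ∈ s.image σ := by rw [hs]; exact hx
      obtain ⟨y, hy, hyx⟩ := Finset.mem_image.mp h2
      rw [σ.injective hyx] at hy
      exact hy
    · exact h1 x
  let τ : Equiv.Perm {x // x ∈ s} := σ.subtypePerm hmem
  have hτ : τ ^ r ^ 1 = 1 := by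
    rw [pow_one]
    change (σ.subtypePerm hmem) ^ r = 1
    rw [subtypePerm_pow]
    ext x
    have : (σ ^ r) = 1 := by rw [← hσ]; exact pow_orderOf_eq_one σ
    simp [this]
  have h1 := card_compl_support_modEq hτ
  refine ⟨(τ.supportᶜ).card, ?_, ?_⟩
  · apply Finset.card_le_card_of_injOn Subtype.val
    · intro x hx
      have hx' : x ∈ τ.supportᶜ := hx
      rw [Finset.mem_compl, mem_support, not_not] at hx'
      have h2 : (τ x : α) = x := congrArg Subtype.val hx'
      have h3 : σ (x : α) = x := h2
      simp [h3]
    · intro x _ y _ hxy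
      exact Subtype.ext hxy
  · have h2 : Fintype.card {x // x ∈ s} = s.card := by simp
    rw [h2] at h1
    exact h1

end

theorem main_iff (n k r : ℕ) (hkn : k ≤ n) (hr : r.Prime) (hrd : r ∣ Nat.choose n k) :
    (∀ σ : Equiv.Perm (Fin n), orderOf σ = r → ∃ s : Finset (Fin n), s.card = k ∧ s.image σ = s) ↔
      (r ≤ k ∧ k % r ≤ n % r) := by
  classical
  haveI : Fact r.Prime := ⟨hr⟩
  have hrpos := hr.pos
  have hnot : ∀ a b : ℕ, b ≤ a → a < r → ¬ r ∣ Nat.choose a b := by
    intro a b hab ha hd
    have h1 := Nat.choose_mul_factorial_mul_factorial hab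
    have h2 : r ∣ a.factorial := by
      rw [← h1]
      exact Dvd.dvd.mul_right (Dvd.dvd.mul_right hd _) _
    have h3 := (Nat.Prime.dvd_factorial hr).mp h2
    omega
  constructor
  · intro h
    have hrn : r ≤ n := by
      by_contra hcon
      exact hnot n k hkn (by omega) hrd
    -- the witness
    obtain ⟨σ, hσ⟩ := (Equiv.Perm.exists_with_cycleType_iff (α := Fin n)
      (m := Multiset.replicate (n / r) r)).mpr (by
        constructor
        · simp only [Multiset.sum_replicate, smul_eq_mul, Fintype.card_fin]
          exact Nat.div_mul_le_self n r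
        · intro a ha
          rw [Multiset.eq_of_mem_replicate ha]
          exact hr.two_le)
    have hpos : 0 < n / r := Nat.div_pos hrn hrpos
    have hord : orderOf σ = r := by
      rw [← lcm_cycleType, hσ]
      obtain ⟨m, hm⟩ : ∃ m, n / r = m + 1 := ⟨n / r - 1, by omega⟩
      rw [hm]
      clear hm hσ hpos
      induction m with
      | zero => simp
      | succ m ih =>
        rw [Multiset.replicate_succ, Multiset.lcm_cons, ih]
        simp [lcm_eq_nat_lcm]
    have hfix : (σ.supportᶜ).card = n % r := by
      rw [Finset.card_compl, Fintype.card_fin, ← sum_cycleType, hσ]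
      simp only [Multiset.sum_replicate, smul_eq_mul]
      have := Nat.div_add_mod n r
      rw [mul_comm] at this
      omega
    obtain ⟨s, hs, hsi⟩ := h σ hord
    obtain ⟨i, hi, hik⟩ := invariant_modEq σ r hord hr s hsi
    rw [hfix, hs] at *
    have hlt : i < r := lt_of_le_of_lt hi (Nat.mod_lt _ hrpos)
    have hkmod : k % r = i := by
      have := hik.symm
      unfold Nat.ModEq at this
      rw [this, Nat.mod_eq_of_lt hlt]
    have hmodle : k % r ≤ n % r := by rw [hkmod]; exact hi
    refine ⟨?_, hmodle⟩
    by_contra hcon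
    push Not at hcon
    have h1 : k % r = k := Nat.mod_eq_of_lt hcon
    have h2 : k / r = 0 := Nat.div_eq_of_lt hcon
    have h3 := Choose.choose_modEq_choose_mod_mul_choose_div_nat (n := n) (k := k) (p := r)
    rw [h1, h2, Nat.choose_zero_right, mul_one] at h3
    have h4 : r ∣ Nat.choose (n % r) k := (Nat.modEq_zero_iff_dvd.mp
      (h3.symm.trans (Nat.modEq_zero_iff_dvd.mpr hrd)))
    rw [h1] at hmodle
    exact hnot _ _ hmodle (Nat.mod_lt _ hrpos) h4
  · rintro ⟨hrk, hmod⟩ σ hσ
    set m := Multiset.card σ.cycleType with hm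
    have hsum : σ.cycleType.sum = m * r := by
      obtain ⟨m', hm'⟩ := cycleType_prime_order (σ := σ) (by rw [hσ]; exact hr)
      rw [hσ] at hm'
      rw [hm, hm']
      simp
      ring
    have hfix : (σ.supportᶜ).card = n - m * r := by
      rw [Finset.card_compl, Fintype.card_fin, ← sum_cycleType, hsum]
    have hle : m * r ≤ n := by
      have := sum_cycleType_le σ
      rw [hsum, Fintype.card_fin] at this
      exact this
    have hmQ : m ≤ n / r := (Nat.le_div_iff_mul_le hrpos).mpr hle
    by_cases hq : k / r ≤ m
    · obtain ⟨s, hs1, hs2⟩ := invariant_subset σ r hσ hr (k / r) (k % r) hq (by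
        rw [hfix]
        have h1 : n % r = n - (n / r) * r := by
          have := Nat.div_add_mod n r
          rw [mul_comm] at this
          omega
        have h2 : m * r ≤ (n / r) * r := Nat.mul_le_mul_right _ hmQ
        have h3 : (n / r) * r ≤ n := Nat.div_mul_le_self n r
        omega)
      refine ⟨s, ?_, hs2⟩
      rw [hs1]
      have := Nat.div_add_mod k r
      rw [mul_comm] at this
      exact this
    · push Not at hq
      have h1 : m * r ≤ k := by
        have h2 : m ≤ k / r := by omega
        exact (Nat.le_div_iff_mul_le hrpos).mp h2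
      obtain ⟨s, hs1, hs2⟩ := invariant_subset σ r hσ hr m (k - m * r) le_rfl (by
        rw [hfix]
        omega)
      refine ⟨s, ?_, hs2⟩
      rw [hs1]
      omega

/-- Let 1 ≤ k with 2k < n and consider the symmetric group of degree n acting on the k-subsets of an n-set. Let r be a prime dividing the number C(n,k) of k-subsets. If r is odd, then every permutation of order r fixes some k-subset if and only if r ≤ k and the remainder of k modulo r is at most the remainder of n modulo r. If r = 2, then every involution fixes some k-subset if and only if k is even or n is odd. -/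
theorem result (n k : ℕ) (hk : 1 ≤ k) (hkn : 2 * k < n) (r : ℕ) (hr : r.Prime) (hrd : r ∣ Nat.choose n k) :
    (r ≠ 2 → ((∀ σ : Equiv.Perm (Fin n), orderOf σ = r → ∃ s : Finset (Fin n), s.card = k ∧ s.image σ = s) ↔
      (r ≤ k ∧ k % r ≤ n % r))) ∧
    (r = 2 → ((∀ σ : Equiv.Perm (Fin n), orderOf σ = 2 → ∃ s : Finset (Fin n), s.card = k ∧ s.image σ = s) ↔
      (Even k ∨ Odd n))) := by
  have hmain := main_iff n k r (by omega) hr hrd
  refine ⟨fun _ => hmain, ?_⟩
  rintro rfl
  rw [hmain]
  constructor
  · rintro ⟨h1, h2⟩
    by_cases hk2 : Even k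
    · exact Or.inl hk2
    · right
      rw [Nat.not_even_iff] at hk2
      rw [hk2] at h2
      rw [← Nat.not_even_iff_odd]
      intro hn
      rw [Nat.even_iff] at hn
      omega
  · intro h
    by_cases hk1 : k = 1
    · subst hk1
      rw [Nat.choose_one_right] at hrd
      rcases h with h | h
      · rw [Nat.even_iff] at h
        omega
      · rw [Nat.odd_iff] at h
        omega
    · constructor
      · omega
      · rcases h with h | h
        · rw [Nat.even_iff] at h
          rw [h]
          omega
        · rw [Nat.odd_iff] at h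
          rw [h]
          have := Nat.mod_lt k (by norm_num : 2 > 0)
          omega

end Cfsg.Agent.S3573
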