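import Mathlib
import Cfsg.Statements.S3575

set_option autoImplicit false
set_option linter.all false
open Cfsg

namespace Cfsg.Agent.S3575

open Equiv.Perm Finset

/-- a permutation with `r`-th power one and a prescribed number of fixed points -/
theorem exists_perm (n r e : ℕ) (hr : r.Prime) (h : e * r ≤ n) :
    ∃ ρ : Equiv.Perm (Fin n), ρ ^ r = 1 ∧ (ρ.supportᶜ).card = n - e * r := by
  obtain ⟨ρ, hρ⟩ := (Equiv.Perm.exists_with_cycleType_iff (α := Fin n)
      (m := Multiset.replicate e r)).mpr (by
        constructor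
        · simp only [Multiset.sum_replicate, smul_eq_mul, Fintype.card_fin]
          exact h
        · intro a ha
          rw [Multiset.eq_of_mem_replicate ha]
          exact hr.two_le)
  refine ⟨ρ, ?_, ?_⟩
  · rw [← orderOf_dvd_iff_pow_eq_one, ← lcm_cycleType, hρ]
    apply Multiset.lcm_dvd.mpr
    intro b hb
    rw [Multiset.eq_of_mem_replicate hb]
  · rw [Finset.card_compl, Fintype.card_fin, ← sum_cycleType, hρ]
    simp

/-- Permutations with prime exponent and the same support size are conjugate. -/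
theorem conj_of_support {X : Type*} [Fintype X] [DecidableEq X] (r : ℕ) (hr : r.Prime)
    (σ τ : Equiv.Perm X) (hσ : σ ^ r = 1) (hτ : τ ^ r = 1)
    (h : σ.support.card = τ.support.card) : IsConj σ τ := by
  have key : ∀ ρ : Equiv.Perm X, ρ ^ r = 1 →
      ρ.cycleType = Multiset.replicate (Multiset.card ρ.cycleType) r := by
    intro ρ hρ
    rw [Multiset.eq_replicate]
    refine ⟨rfl, fun b hb => ?_⟩
    have h1 : b ∣ r := (dvd_of_mem_cycleType hb).trans (orderOf_dvd_of_pow_eq_one hρ)
    have h2 := two_le_of_mem_cycleType hb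
    rcases (Nat.dvd_prime hr).mp h1 with h3 | h3
    · omega
    · exact h3
  rw [isConj_iff_cycleType_eq]
  have h1 := key σ hσ
  have h2 := key τ hτ
  have h3 : (Multiset.card σ.cycleType) * r = (Multiset.card τ.cycleType) * r := by
    have h4 := sum_cycleType σ
    have h5 := sum_cycleType τ
    rw [h1, Multiset.sum_replicate] at h4
    rw [h2, Multiset.sum_replicate] at h5
    simp only [smul_eq_mul] at h4 h5
    rw [h4, h5, h]
  have h4 := Nat.eq_of_mul_eq_mul_right hr.pos h3
  calc σ.cycleType = Multiset.replicate (Multiset.card σ.cycleType) r := h1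
    _ = Multiset.replicate (Multiset.card τ.cycleType) r := by rw [h4]
    _ = τ.cycleType := h2.symm

section Twist

variable {B A : Type*}

/-- the twisted permutation `(j,i) ↦ (π j, ρ j i)` -/
def tw (π : Equiv.Perm B) (ρ : B → Equiv.Perm A) : Equiv.Perm (B × A) where
  toFun x := (π x.1, ρ x.1 x.2)
  invFun x := (π⁻¹ x.1, (ρ (π⁻¹ x.1))⁻¹ x.2)
  left_inv x := by simp
  right_inv x := by simp

theorem tw_apply (π : Equiv.Perm B) (ρ : B → Equiv.Perm A) (x : B × A) :
    tw π ρ x = (π x.1, ρ x.1 x.2) := rfl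

theorem tw_pow_of_fixed (π : Equiv.Perm B) (ρ : B → Equiv.Perm A) (j : B) (hj : π j = j) (n : ℕ)
    (i : A) : (tw π ρ ^ n) (j, i) = (j, (ρ j ^ n) i) := by
  induction n with
  | zero => simp
  | succ n ih =>
    rw [pow_succ', Equiv.Perm.coe_mul, Function.comp_apply, ih, tw_apply, pow_succ',
      Equiv.Perm.coe_mul, Function.comp_apply]
    simp [hj]

theorem tw_pow_of_not_fixed (π : Equiv.Perm B) (ρ : B → Equiv.Perm A)
    (hρ : ∀ j, π j ≠ j → ρ j = 1) (j : B) (hj : π j ≠ j) (n : ℕ)
    (i : A) : (tw π ρ ^ n) (j, i) = ((π ^ n) j, i) := by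
  induction n with
  | zero => simp
  | succ n ih =>
    rw [pow_succ', Equiv.Perm.coe_mul, Function.comp_apply, ih, tw_apply, pow_succ',
      Equiv.Perm.coe_mul, Function.comp_apply]
    have h1 : π ((π ^ n) j) ≠ (π ^ n) j := by
      intro h
      apply hj
      have h2 : (π ^ n) (π j) = (π ^ n) j := by
        rw [← Equiv.Perm.mul_apply, ← pow_succ, pow_succ', Equiv.Perm.mul_apply, h]
      exact (π ^ n).injective h2
    simp [hρ _ h1]

theorem tw_pow_eq_one (π : Equiv.Perm B) (ρ : B → Equiv.Perm A) (r : ℕ) (hπ : π ^ r = 1)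
    (hρ1 : ∀ j, ρ j ^ r = 1) (hρ : ∀ j, π j ≠ j → ρ j = 1) : tw π ρ ^ r = 1 := by
  ext1 ⟨j, i⟩
  by_cases hj : π j = j
  · rw [tw_pow_of_fixed π ρ j hj, hρ1]
    simp
  · rw [tw_pow_of_not_fixed π ρ hρ j hj, hπ]
    simp

theorem tw_fix_card [Fintype B] [Fintype A] [DecidableEq B] [DecidableEq A]
    (π : Equiv.Perm B) (ρ : B → Equiv.Perm A) :
    ((tw π ρ).supportᶜ).card = ∑ j ∈ π.supportᶜ, ((ρ j).supportᶜ).card := by
  have h1 : (tw π ρ).supportᶜ = (π.supportᶜ).biUnion
      (fun j => ((ρ j).supportᶜ).image (fun i => (j, i))) := by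
    ext ⟨j, i⟩
    simp only [Finset.mem_compl, mem_support, not_not, Finset.mem_biUnion, Finset.mem_image,
      tw_apply, Prod.mk.injEq]
    constructor
    · rintro ⟨h1, h2⟩
      exact ⟨j, h1, i, h2, rfl, rfl⟩
    · rintro ⟨j', h1, i', h2, rfl, rfl⟩
      exact ⟨h1, h2⟩
  rw [h1, Finset.card_biUnion]
  · apply Finset.sum_congr rfl
    intro j _
    apply Finset.card_image_of_injective
    intro i i' h
    exact (Prod.mk.inj h).2
  · intro j _ j' _ hjj'
    apply Finset.disjoint_left.mpr
    intro x hx hx'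
    obtain ⟨i, _, rfl⟩ := Finset.mem_image.mp hx
    obtain ⟨i', _, h⟩ := Finset.mem_image.mp hx'
    exact hjj' (Prod.mk.inj h).1.symm

end Twist

/-- Distribute `s` into at most `q` per point. -/
theorem distribute {B : Type*} [DecidableEq B] (C : Finset B) (q : ℕ) :
    ∀ s : ℕ, s ≤ C.card * q → ∃ u : B → ℕ, (∀ j, u j ≤ q) ∧ ∑ j ∈ C, u j = s := by
  induction C using Finset.induction_on with
  | empty =>
    intro s hs
    refine ⟨fun _ => 0, fun _ => Nat.zero_le _, ?_⟩
    simp at hs
    simp [hs]
  | insert j C hj ih =>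
    intro s hs
    rw [Finset.card_insert_of_notMem hj] at hs
    have h1 : s - min s q ≤ C.card * q := by
      have : (C.card + 1) * q = C.card * q + q := by ring
      omega
    obtain ⟨u, hu1, hu2⟩ := ih _ h1
    refine ⟨Function.update u j (min s q), ?_, ?_⟩
    · intro x
      by_cases hx : x = j
      · subst hx
        simp
      · simp [Function.update_of_ne hx, hu1 x]
    · rw [Finset.sum_insert hj, Function.update_self]
      have h2 : ∑ x ∈ C, Function.update u j (min s q) x = ∑ x ∈ C, u x := by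
        apply Finset.sum_congr rfl
        intro x hx
        rw [Function.update_of_ne]
        rintro rfl
        exact hj hx
      rw [h2, hu2]
      have : min s q ≤ s := min_le_left _ _
      omega

/-- Feasibility of a fixed point number. -/
def Feas (a b r F : ℕ) : Prop :=
  ∃ c : ℕ, c ≤ b ∧ r ∣ b - c ∧ c * (a % r) ≤ F ∧ F ≤ c * a

/-- Fixed points of a power-one permutation and a size of invariant set. -/
theorem invariant_modEq {α : Type*} [Fintype α] [DecidableEq α] (σ : Equiv.Perm α) (r : ℕ)
    (hσ : σ ^ r = 1) (hr : r.Prime) (s : Finset α) (hmem : ∀ x : α, σ x ∈ s ↔ x ∈ s) :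
    (s.filter (fun x => σ x = x)).card ≡ s.card [MOD r] := by
  haveI : Fact r.Prime := ⟨hr⟩
  let τ : Equiv.Perm {x // x ∈ s} := σ.subtypePerm hmem
  have hτ : τ ^ r ^ 1 = 1 := by
    rw [pow_one]
    change (σ.subtypePerm hmem) ^ r = 1
    rw [subtypePerm_pow]
    ext x
    simp [hσ]
  have h1 := card_compl_support_modEq hτ
  have h2 : Fintype.card {x // x ∈ s} = s.card := by simp
  rw [h2] at h1
  have h3 : (τ.supportᶜ).card = (s.filter (fun x => σ x = x)).card := by
    apply Finset.card_bij (fun (x : {x // x ∈ s}) _ => (x : α))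
    · intro x hx
      rw [Finset.mem_compl, mem_support, not_not] at hx
      have h4 : (τ x : α) = x := congrArg Subtype.val hx
      have h5 : σ (x : α) = x := h4
      simp [h5]
    · intro x _ y _ hxy
      exact Subtype.ext hxy
    · intro b hb
      rw [Finset.mem_filter] at hb
      refine ⟨⟨b, hb.1⟩, ?_, rfl⟩
      rw [Finset.mem_compl, mem_support, not_not]
      exact Subtype.ext hb.2
  rw [← h3]
  exact h1

/-- Necessity: a fixed partition forces feasibility. -/
theorem feas_of_partition (a b r : ℕ) (ha : 2 ≤ a) (hr : r.Prime)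
    (σ : Equiv.Perm (Fin (a * b))) (hσ : σ ^ r = 1)
    (f : Fin (a * b) → Fin b) (hf : ∀ j : Fin b, Nat.card {x : Fin (a * b) // f x = j} = a)
    (π : Equiv.Perm (Fin b)) (hπ : ∀ x : Fin (a * b), f (σ x) = π (f x)) :
    Feas a b r ((σ.supportᶜ).card) := by
  classical
  haveI : Fact r.Prime := ⟨hr⟩
  have hfib : ∀ j : Fin b, (univ.filter (fun x => f x = j)).card = a := by
    intro j
    have := hf j
    rwa [Nat.card_eq_fintype_card, Fintype.card_subtype] at this
  have hsurj : ∀ j : Fin b, ∃ x, f x = j := by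
    intro j
    have h1 : (univ.filter (fun x => f x = j)).Nonempty := by
      rw [← Finset.card_pos, hfib j]
      omega
    obtain ⟨x, hx⟩ := h1
    exact ⟨x, (Finset.mem_filter.mp hx).2⟩
  have hpow : ∀ n : ℕ, ∀ x, f ((σ ^ n) x) = (π ^ n) (f x) := by
    intro n
    induction n with
    | zero => simp
    | succ n ih =>
      intro x
      rw [pow_succ', pow_succ', Equiv.Perm.mul_apply, Equiv.Perm.mul_apply, hπ, ih]
  have hπr : π ^ r = 1 := by
    ext1 j
    obtain ⟨x, rfl⟩ := hsurj j
    rw [← hpow, hσ]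
    simp
  set C := π.supportᶜ with hC
  have hCmod : C.card ≡ b [MOD r] := by
    have := card_compl_support_modEq (p := r) (n := 1) (σ := π) (by rwa [pow_one])
    rwa [Fintype.card_fin] at this
  have hCle : C.card ≤ b := by
    have := Finset.card_le_univ C
    rwa [Fintype.card_fin] at this
  have hdvd : r ∣ b - C.card := (Nat.modEq_iff_dvd' hCle).mp hCmod
  -- decomposition of the fixed points
  have hdecomp : (σ.supportᶜ).card = ∑ j ∈ C, ((univ.filter (fun x => f x = j)).filter (fun x => σ x = x)).card := by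
    have h1 : σ.supportᶜ = C.biUnion (fun j => (univ.filter (fun x => f x = j)).filter (fun x => σ x = x)) := by
      ext x
      simp only [Finset.mem_compl, mem_support, not_not, Finset.mem_biUnion, Finset.mem_filter,
        Finset.mem_univ, true_and]
      constructor
      · intro hx
        refine ⟨f x, ?_, rfl, hx⟩
        rw [hC, Finset.mem_compl, mem_support, not_not, ← hπ, hx]
      · rintro ⟨j, _, _, hx⟩
        exact hx
    rw [h1, Finset.card_biUnion]
    intro j _ j' _ hjj'
    apply Finset.disjoint_left.mpr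
    intro x hx hx'
    rw [Finset.mem_filter, Finset.mem_filter] at hx hx'
    exact hjj' (hx.1.2.symm.trans hx'.1.2)
  have hd : ∀ j ∈ C, a % r ≤ ((univ.filter (fun x => f x = j)).filter (fun x => σ x = x)).card ∧
      ((univ.filter (fun x => f x = j)).filter (fun x => σ x = x)).card ≤ a := by
    intro j hj
    rw [hC, Finset.mem_compl, mem_support, not_not] at hj
    have h1 : ∀ x, σ x ∈ univ.filter (fun x => f x = j) ↔ x ∈ univ.filter (fun x => f x = j) := by
      intro x
      simp only [Finset.mem_filter, Finset.mem_univ, true_and]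
      rw [hπ]
      constructor
      · intro h
        apply π.injective
        rw [h, hj]
      · intro h
        rw [h, hj]
    have h2 := invariant_modEq σ r hσ hr _ h1
    rw [hfib j] at h2
    constructor
    · rw [← h2]
      exact Nat.mod_le _ _
    · exact (Finset.card_filter_le _ _).trans_eq (hfib j)
  refine ⟨C.card, hCle, hdvd, ?_, ?_⟩
  · rw [hdecomp]
    exact Finset.card_nsmul_le_sum _ _ _ (fun j hj => (hd j hj).1)
  · rw [hdecomp]
    exact Finset.sum_le_card_nsmul _ _ _ (fun j hj => (hd j hj).2)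

/-- Existence of the partition. -/
theorem partition_of_feas (a b r : ℕ) (ha : 2 ≤ a) (hr : r.Prime)
    (σ : Equiv.Perm (Fin (a * b))) (hσ : σ ^ r = 1)
    (hF : Feas a b r ((σ.supportᶜ).card)) :
    ∃ f : Fin (a * b) → Fin b, (∀ j : Fin b, Nat.card {x : Fin (a * b) // f x = j} = a) ∧
          ∃ π : Equiv.Perm (Fin b), ∀ x : Fin (a * b), f (σ x) = π (f x) := by
  classical
  haveI : Fact r.Prime := ⟨hr⟩
  obtain ⟨c, hcb, hcd, hc1, hc2⟩ := hF
  set F := (σ.supportᶜ).card with hFdef
  have hFmod : F ≡ a * b [MOD r] := by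
    have := card_compl_support_modEq (p := r) (n := 1) (σ := σ) (by rwa [pow_one])
    rwa [Fintype.card_fin] at this
  obtain ⟨t, ht⟩ := hcd
  have hrpos := hr.pos
  have hbc : c ≡ b [MOD r] := (Nat.modEq_iff_dvd' hcb).mpr ⟨t, ht⟩
  set ℓ := a % r with hℓ
  set q := a / r with hq
  have haq : a = q * r + ℓ := by
    have := Nat.div_add_mod a r
    rw [mul_comm] at this
    exact this.symm
  -- `F ≡ c ℓ`
  have hFc : F ≡ c * ℓ [MOD r] := by
    refine hFmod.trans ?_
    have h1 : a * b ≡ ℓ * b [MOD r] := Nat.ModEq.mul_right _ (Nat.mod_modEq a r).symm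
    have h2 : ℓ * b ≡ ℓ * c [MOD r] := Nat.ModEq.mul_left _ hbc.symm
    rw [mul_comm c ℓ]
    exact h1.trans h2
  obtain ⟨s, hs⟩ : r ∣ F - c * ℓ := (Nat.modEq_iff_dvd' hc1).mp hFc.symm
  have hs' : F = c * ℓ + r * s := by omega
  have hsle : s ≤ c * q := by
    have h1 : c * ℓ + r * s ≤ c * (q * r + ℓ) := by
      rw [← hs', ← haq]
      exact hc2
    have h2 : r * s ≤ r * (c * q) := by nlinarith
    exact Nat.le_of_mul_le_mul_left h2 hrpos
  obtain ⟨π, hπ1, hπ2⟩ := exists_perm b r t hr (by rw [mul_comm]; omega)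
  have hπ2' : (π.supportᶜ).card = c := by
    rw [hπ2]
    rw [mul_comm]
    omega
  obtain ⟨u, hu1, hu2⟩ := distribute (π.supportᶜ) q s (by rw [hπ2']; exact hsle)
  have hρex : ∀ j : Fin b, ∃ ρ : Equiv.Perm (Fin a), ρ ^ r = 1 ∧
      (π j = j → (ρ.supportᶜ).card = ℓ + u j * r) ∧ (π j ≠ j → ρ = 1) := by
    intro j
    by_cases hj : π j = j
    · obtain ⟨ρ, h1, h2⟩ := exists_perm a r (q - u j) hr (by
        have : (q - u j) * r ≤ q * r := Nat.mul_le_mul_right _ (Nat.sub_le _ _)
        omega)
      refine ⟨ρ, h1, fun _ => ?_, fun h => absurd hj h⟩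
      rw [h2]
      have h3 := hu1 j
      have h4 : (q - u j) * r + u j * r = q * r := by
        rw [← add_mul]
        congr 1
        omega
      omega
    · exact ⟨1, by simp, fun h => absurd h hj, fun _ => rfl⟩
  choose ρ hρ1 hρ2 hρ3 using hρex
  set τ := tw π ρ with hτ
  have hτr : τ ^ r = 1 := tw_pow_eq_one π ρ r hπ1 hρ1 hρ3
  have hτfix : (τ.supportᶜ).card = F := by
    rw [hτ, tw_fix_card]
    have h1 : ∑ j ∈ π.supportᶜ, ((ρ j).supportᶜ).card = ∑ j ∈ π.supportᶜ, (ℓ + u j * r) := by
      apply Finset.sum_congr rfl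
      intro j hj
      rw [Finset.mem_compl, mem_support, not_not] at hj
      exact hρ2 j hj
    rw [h1, Finset.sum_add_distrib, Finset.sum_const, ← Finset.sum_mul, hu2, hπ2', hs', smul_eq_mul]
    ring
  -- transport
  have hcardX : Fintype.card (Fin b × Fin a) = Fintype.card (Fin (a * b)) := by
    simp [mul_comm]
  let e : Fin b × Fin a ≃ Fin (a * b) := Fintype.equivOfCardEq hcardX
  let σ₁ : Equiv.Perm (Fin b × Fin a) := e.symm.permCongr σ
  have hσ₁ : ∀ x, σ₁ x = e.symm (σ (e x)) := fun x => rfl
  have hσ₁pow : σ₁ ^ r = 1 := by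
    have : σ₁ ^ r = e.symm.permCongr (σ ^ r) := (map_pow (Equiv.permCongrHom e.symm).toMonoidHom σ r).symm
    rw [this, hσ]
    ext1 x
    simp [Equiv.permCongr_apply]
  have hfix : (σ₁.supportᶜ).card = (σ.supportᶜ).card := by
    apply Finset.card_bij (fun x _ => e x)
    · intro x hx
      rw [Finset.mem_compl, mem_support, not_not, hσ₁] at hx
      rw [Finset.mem_compl, mem_support, not_not]
      have := congrArg e hx
      simpa using this
    · intro x _ y _ hxy
      exact e.injective hxy
    · intro y hy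
      rw [Finset.mem_compl, mem_support, not_not] at hy
      refine ⟨e.symm y, ?_, by simp⟩
      rw [Finset.mem_compl, mem_support, not_not, hσ₁]
      simp [hy]
  have hsupp : σ₁.support.card = τ.support.card := by
    have h1 := Finset.card_add_card_compl σ₁.support
    have h2 := Finset.card_add_card_compl τ.support
    rw [hfix] at h1
    rw [hτfix] at h2
    omega
  obtain ⟨g, hg⟩ := isConj_iff.mp (conj_of_support r hr σ₁ τ hσ₁pow hτr hsupp)
  have hgτ : ∀ x, τ (g x) = g (σ₁ x) := by
    intro x
    rw [← hg]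
    simp
  refine ⟨fun x => (g (e.symm x)).1, ?_, π, ?_⟩
  · intro j
    have h1 : Nat.card {x : Fin (a * b) // (g (e.symm x)).1 = j} = Nat.card {y : Fin b × Fin a // y.1 = j} := by
      apply Nat.card_congr
      refine (e.symm.trans g).subtypeEquiv ?_
      intro x
      rfl
    rw [h1]
    have h2 : {y : Fin b × Fin a // y.1 = j} ≃ Fin a :=
      { toFun := fun y => y.1.2
        invFun := fun i => ⟨(j, i), rfl⟩
        left_inv := by
          rintro ⟨⟨j', i⟩, h⟩
          simp only at h
          subst h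
          rfl
        right_inv := fun i => rfl }
    rw [Nat.card_congr h2]
    simp
  · intro x
    have h1 : g (e.symm (σ x)) = τ (g (e.symm x)) := by
      rw [hgτ, hσ₁]
      simp
    show (g (e.symm (σ x))).1 = π (g (e.symm x)).1
    rw [h1, hτ, tw_apply]

theorem arith_forward (a b r : ℕ) (ha : 2 ≤ a) (hb : 2 ≤ b) (hr : r.Prime) (hrab : r ≤ a * b)
    (H : ∀ F, F ≡ a * b [MOD r] → F + r ≤ a * b → Feas a b r F) :
    r ≤ a ∧ (a % r = 0 ∨ (b % r = 0 ∧ a % r = 1) ∨
        (a % r ≠ 0 ∧ b % r ≠ 0 ∧ (b % r) * (a % r) < r ∧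
          (b < r ∨ (b % r + r) * (a % r) ≤ (b % r) * a + r))) := by
  have hrpos := hr.pos
  have hra : r ≤ a := by
    by_contra hcon
    push Not at hcon
    have hℓ : a % r = a := Nat.mod_eq_of_lt hcon
    have hmod : a * b - r ≡ a * b [MOD r] := by
      have h1 : a * b - r + r = a * b := by omega
      unfold Nat.ModEq
      conv_rhs => rw [← h1]
      rw [Nat.add_mod_right]
    obtain ⟨c, hcb, ⟨t, ht⟩, h1, h2⟩ := H _ hmod (by omega)
    rw [hℓ] at h1
    have h3 : c * a = a * b - r := le_antisymm h1 h2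
    have h4 : b = c + r * t := by omega
    have h5 : a * b = a * c + a * (r * t) := by rw [h4]; ring
    have h6 : a * (r * t) = r := by
      rw [mul_comm c a] at h3
      omega
    rcases Nat.eq_zero_or_pos t with h7 | h7
    · subst h7
      simp at h6
      omega
    · have h8 : 2 * (r * 1) ≤ a * (r * t) := Nat.mul_le_mul ha (Nat.mul_le_mul_left _ h7)
      omega
  set ℓ := a % r with hℓ
  set k := b % r with hk
  have hkb : k ≤ b := Nat.mod_le _ _
  have hbk : b = r * (b / r) + k := (Nat.div_add_mod b r).symm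
  have hkr : k < r := Nat.mod_lt _ hrpos
  have hcong : ∀ c : ℕ, c ≤ b → r ∣ b - c → c % r = k := by
    intro c hc hd
    have h1 := (Nat.modEq_iff_dvd' hc).mpr hd
    exact h1
  have h1 : k * ℓ < r := by
    have hmod : (a * b) % r ≡ a * b [MOD r] := Nat.mod_modEq _ _
    have h2 : (a * b) % r + r ≤ a * b := by
      have h3 := Nat.div_add_mod (a * b) r
      have h4 : 1 ≤ (a * b) / r := (Nat.one_le_div_iff hrpos).mpr hrab
      have h5 : r * 1 ≤ r * ((a * b) / r) := Nat.mul_le_mul_left _ h4
      omega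
    obtain ⟨c, hcb, hcd, h3, -⟩ := H _ hmod h2
    have h4 : k ≤ c := by
      rw [← hcong c hcb hcd]
      exact Nat.mod_le _ _
    have h5 : (a * b) % r < r := Nat.mod_lt _ hrpos
    calc k * ℓ ≤ c * ℓ := Nat.mul_le_mul_right _ h4
      _ ≤ (a * b) % r := h3
      _ < r := h5
  have h2 : r ≤ b → (k + r) * ℓ ≤ k * a + r := by
    intro hrb
    have hT : 1 ≤ b / r := (Nat.one_le_div_iff hrpos).mpr hrb
    have hmod : k * a + r ≡ a * b [MOD r] := by
      have h3 : k * a + r ≡ k * a [MOD r] := by
        unfold Nat.ModEq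
        rw [Nat.add_mod_right]
      have h4 : k * a ≡ b * a [MOD r] := Nat.ModEq.mul_right _ (Nat.mod_modEq b r)
      rw [mul_comm a b]
      exact h3.trans h4
    have hle : k * a + r + r ≤ a * b := by
      have h3 : a * b = a * (r * (b / r)) + a * k := by
        conv_lhs => rw [hbk]
        ring
      have h4 : 2 * (r * 1) ≤ a * (r * (b / r)) :=
        Nat.mul_le_mul ha (Nat.mul_le_mul_left _ hT)
      have h5 : a * k = k * a := mul_comm _ _
      omega
    obtain ⟨c, hcb, hcd, h3, h4⟩ := H _ hmod hle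
    have h5 := hcong c hcb hcd
    have h6 : k ≠ c := by
      rintro rfl
      omega
    have h7 : r + k ≤ c := by
      have h8 := Nat.div_add_mod c r
      rw [h5] at h8
      have h9 : c / r ≠ 0 := by
        intro h0
        rw [h0] at h8
        omega
      have h10 : r * 1 ≤ r * (c / r) := Nat.mul_le_mul_left _ (Nat.pos_of_ne_zero h9)
      omega
    calc (k + r) * ℓ ≤ c * ℓ := Nat.mul_le_mul_right _ (by omega)
      _ ≤ k * a + r := h3
  refine ⟨hra, ?_⟩
  by_cases hℓ0 : ℓ = 0
  · exact Or.inl hℓ0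
  by_cases hk0 : k = 0
  · right; left
    refine ⟨hk0, ?_⟩
    have hrb : r ≤ b := by
      have h3 : r ∣ b := Nat.dvd_of_mod_eq_zero hk0
      exact Nat.le_of_dvd (by omega) h3
    have h3 := h2 hrb
    rw [hk0] at h3
    simp only [zero_add, zero_mul] at h3
    have h4 : r * ℓ ≤ r * 1 := by linarith
    have h5 := Nat.le_of_mul_le_mul_left h4 hrpos
    omega
  · right; right
    refine ⟨hℓ0, hk0, h1, ?_⟩
    by_cases hrb : r ≤ b
    · exact Or.inr (h2 hrb)
    · exact Or.inl (by omega)

theorem arith_backward (a b r : ℕ) (ha : 2 ≤ a) (hb : 2 ≤ b) (hr : r.Prime)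
    (hcrit : a % r = 0 ∨ (b % r = 0 ∧ a % r = 1) ∨
        (a % r ≠ 0 ∧ b % r ≠ 0 ∧ (b % r) * (a % r) < r ∧
          (b < r ∨ (b % r + r) * (a % r) ≤ (b % r) * a + r)))
    (F : ℕ) (hF : F ≡ a * b [MOD r]) (hF2 : F ≤ a * b) : Feas a b r F := by
  have hrpos := hr.pos
  set ℓ := a % r with hℓ
  set k := b % r with hk
  have hℓa : ℓ ≤ a := Nat.mod_le _ _
  have hkb : k ≤ b := Nat.mod_le _ _
  have h1 : k * ℓ < r := by
    rcases hcrit with h | ⟨h, _⟩ | ⟨_, _, h, _⟩
    · rw [h]; simpa using hrpos
    · rw [h]; simpa using hrpos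
    · exact h
  have h2 : r ≤ b → (k + r) * ℓ ≤ k * a + r := by
    intro hrb
    rcases hcrit with h | ⟨h, h'⟩ | ⟨_, _, _, h⟩
    · rw [h]; simp
    · rw [h, h']; simp
    · rcases h with h | h
      · omega
      · exact h
  have hbmod : ∀ i : ℕ, ((k + i * r) * a) ≡ a * b [MOD r] := by
    intro i
    have h3 : k + i * r ≡ b [MOD r] := by
      unfold Nat.ModEq
      rw [Nat.add_mul_mod_self_right, hk, Nat.mod_mod]
    rw [mul_comm a b]
    exact Nat.ModEq.mul_right _ h3
  have hdvdk : r ∣ b - k := Nat.dvd_sub_mod b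
  have claim : ∀ i : ℕ, k + i * r ≤ b → F ≤ (k + i * r) * a → Feas a b r F := by
    intro i
    induction i with
    | zero =>
      intro _ h3
      simp only [zero_mul, add_zero] at h3
      refine ⟨k, hkb, hdvdk, ?_, h3⟩
      have h4 : F % r = (a * b) % r := hF
      have h5 : (a * b) % r = (ℓ * k) % r := Nat.mul_mod _ _ _
      rw [h5, mul_comm ℓ k, Nat.mod_eq_of_lt h1] at h4
      rw [← h4]
      exact Nat.mod_le _ _
    | succ i ih =>
      intro h3 h4
      have hi : k + i * r ≤ b := by
        have : (i + 1) * r = i * r + r := by ring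
        omega
      by_cases h5 : F ≤ (k + i * r) * a
      · exact ih hi h5
      · push Not at h5
        refine ⟨k + (i + 1) * r, h3, ?_, ?_, h4⟩
        · have h6 : b - (k + (i + 1) * r) = (b - k) - (i + 1) * r := by omega
          rw [h6]
          exact Nat.dvd_sub hdvdk (Dvd.intro_left _ rfl)
        · have hrb : r ≤ b := by
            have : (i + 1) * r = i * r + r := by ring
            omega
          have h6 := h2 hrb
          have h7 : (k + i * r) * a ≡ F [MOD r] := (hbmod i).trans hF.symm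
          obtain ⟨s, hs⟩ := (Nat.modEq_iff_dvd' h5.le).mp h7
          have h8 : (k + i * r) * a + r ≤ F := by
            have h9 : s ≠ 0 := by
              rintro rfl
              omega
            have h10 : r * 1 ≤ r * s := Nat.mul_le_mul_left _ (Nat.pos_of_ne_zero h9)
            omega
          have h9 : (k + (i + 1) * r) * ℓ ≤ (k + i * r) * a + r := by
            have h10 : (k + (i + 1) * r) * ℓ = (k + r) * ℓ + i * r * ℓ := by ring
            have h11 : (k + i * r) * a + r = (k * a + r) + i * r * a := by ring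
            rw [h10, h11]
            exact Nat.add_le_add h6 (Nat.mul_le_mul_left _ hℓa)
          exact h9.trans h8
  have hbk : k + (b / r) * r = b := by
    have := Nat.div_add_mod b r
    rw [mul_comm] at this
    omega
  apply claim (b / r)
  · rw [hbk]
  · rw [hbk, mul_comm b a]
    exact hF2

/-- Let a, b ≥ 2 and consider the symmetric group of degree a·b acting on the partitions of an (a·b)-set into b parts of size a (encoded as maps onto a b-element set all of whose fibres have a elements; a permutation fixes such a partition when it permutes the fibres). Let r be a prime dividing the number (ab)!/((a!)^b·b!) of such partitions, and let ℓ and k be the remainders of a and b modulo r. Then every permutation of order r fixes some such partition if and only if r ≤ a and one of the following holds: ℓ = 0; or k = 0 and ℓ = 1; or ℓ and k are non-zero, k·ℓ < r, and either b < r or (k + r)·ℓ ≤ k·a + r. -/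
theorem result (a b : ℕ) (ha : 2 ≤ a) (hb : 2 ≤ b) (r : ℕ) (hr : r.Prime)
    (hrd : r ∣ (a * b).factorial / (a.factorial ^ b * b.factorial)) :
    (∀ σ : Equiv.Perm (Fin (a * b)), orderOf σ = r →
        ∃ f : Fin (a * b) → Fin b, (∀ j : Fin b, Nat.card {x : Fin (a * b) // f x = j} = a) ∧
          ∃ π : Equiv.Perm (Fin b), ∀ x : Fin (a * b), f (σ x) = π (f x)) ↔
      (r ≤ a ∧ (a % r = 0 ∨ (b % r = 0 ∧ a % r = 1) ∨
        (a % r ≠ 0 ∧ b % r ≠ 0 ∧ (b % r) * (a % r) < r ∧ (b < r ∨ (b % r + r) * (a % r) ≤ (b % r) * a + r)))) := by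
  classical
  haveI : Fact r.Prime := ⟨hr⟩
  have hrpos := hr.pos
  have hrab : r ≤ a * b := by
    have hne : a ≠ 0 := by omega
    have h1 := Nat.uniformBell_eq_div b hne
    have h2 := Nat.uniformBell_mul_eq b hne
    rw [mul_comm b a] at h1 h2
    rw [← h1] at hrd
    have h3 : r ∣ (a * b).factorial := by
      rw [← h2, mul_assoc]
      exact Dvd.dvd.mul_right hrd _
    exact (Nat.Prime.dvd_factorial hr).mp h3
  constructor
  · intro hall
    apply arith_forward a b r ha hb hr hrab
    intro F hF hF2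
    have hFle : F ≤ a * b := by omega
    obtain ⟨e, he⟩ := (Nat.modEq_iff_dvd' hFle).mp hF
    obtain ⟨ρ, hρ1, hρ2⟩ := exists_perm (a * b) r e hr (by
      rw [mul_comm e r, ← he]
      omega)
    have hρF : (ρ.supportᶜ).card = F := by
      rw [hρ2, mul_comm e r, ← he]
      omega
    have hρne : ρ ≠ 1 := by
      rintro rfl
      simp at hρF
      omega
    have hord : orderOf ρ = r := orderOf_eq_prime hρ1 hρne
    obtain ⟨f, hf, π, hπ⟩ := hall ρ hord
    have := feas_of_partition a b r ha hr ρ hρ1 f hf π hπ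
    rwa [hρF] at this
  · rintro ⟨hra, hcrit⟩ σ hσ
    have hσr : σ ^ r = 1 := by
      rw [← hσ]
      exact pow_orderOf_eq_one σ
    apply partition_of_feas a b r ha hr σ hσr
    apply arith_backward a b r ha hb hr hcrit
    · have := card_compl_support_modEq (p := r) (n := 1) (σ := σ) (by rwa [pow_one])
      rwa [Fintype.card_fin] at this
    · have := Finset.card_le_univ (σ.supportᶜ)
      rwa [Fintype.card_fin] at this

end Cfsg.Agent.S3575
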