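import Mathlib
import Cfsg.Statements.S3580
import Cfsg.Agent.Lib.SylowFix

namespace Cfsg.Agent.S3580

open Cfsg.Agent.Lib.SylowFix
open scoped Classical

lemma sum_eq_sum_orbits {G α : Type*} [Group G] [Finite G] [MulAction G α] [Fintype α]
    {K : Subgroup G} (f : α → ℤ) :
    ∑ b, f b = ∑ V ∈ (Finset.univ : Finset α).image (orb K), ∑ b ∈ V, f b := by
  have h1 : (Finset.univ : Finset α) = ((Finset.univ : Finset α).image (orb K)).biUnion id := by
    ext b
    simp only [Finset.mem_univ, Finset.mem_biUnion, Finset.mem_image, id, true_iff, true_and]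
    exact ⟨orb K b, ⟨b, rfl⟩, self_mem_orb K b⟩
  have h2 : Set.PairwiseDisjoint (↑((Finset.univ : Finset α).image (orb K)) : Set (Finset α)) id := by
    intro V hV W hW hne
    simp only [Finset.coe_image, Set.mem_image, Finset.mem_coe] at hV hW
    obtain ⟨a, _, rfl⟩ := hV
    obtain ⟨b, _, rfl⟩ := hW
    exact orb_disjoint hne
  conv_lhs => rw [h1]
  rw [Finset.sum_biUnion h2]
  rfl

lemma orbit_count {G α : Type*} [Group G] [Finite G] [MulAction G α] [Fintype α]
    (p : ℕ) [hp : Fact p.Prime] {R : Subgroup G} (hR : IsPGroup p R) :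
    (p : ℤ) * ((Finset.univ : Finset α).image (orb R)).card ≤
      Fintype.card α + ((p : ℤ) - 1) * ((Finset.univ : Finset α).filter (fixes R)).card := by
  have hp1 : (1 : ℤ) ≤ p := by exact_mod_cast (Fact.out : p.Prime).one_lt.le
  have key : ∀ V ∈ (Finset.univ : Finset α).image (orb R),
      (p : ℤ) ≤ ∑ b ∈ V, (1 + ((p : ℤ) - 1) * (if fixes R b then 1 else 0)) := by
    intro V hV
    obtain ⟨a, _, rfl⟩ := Finset.mem_image.1 hV
    by_cases h : ∃ c ∈ orb R a, fixes R c
    · obtain ⟨c, hc, hfc⟩ := h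
      have h1 : (orb R a) = {c} := by
        rw [← orb_eq_of_mem hc]
        ext x
        simp only [mem_orb, Finset.mem_singleton]
        constructor
        · rintro ⟨g, hg, rfl⟩
          exact hfc g hg
        · rintro rfl
          exact ⟨1, R.one_mem, one_smul _ _⟩
      rw [h1, Finset.sum_singleton, if_pos hfc]
      linarith
    · push Not at h
      have hd : p ∣ (orb R a).card := by
        have h1 := card_modEq_filter hR (stable_orb R a)
        rw [Finset.filter_eq_empty_iff.2 h, Finset.card_empty] at h1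
        exact (Nat.modEq_zero_iff_dvd).1 h1
      have hle : p ≤ (orb R a).card := Nat.le_of_dvd (Finset.card_pos.2 ⟨a, self_mem_orb _ _⟩) hd
      have h2 : ∑ b ∈ orb R a, (1 + ((p : ℤ) - 1) * (if fixes R b then 1 else 0)) =
          (orb R a).card := by
        rw [Finset.sum_congr rfl (fun b hb => by rw [if_neg (h b hb)])]
        simp
      rw [h2]
      exact_mod_cast hle
  have h3 := Finset.card_nsmul_le_sum ((Finset.univ : Finset α).image (orb R))
    (fun V => ∑ b ∈ V, (1 + ((p : ℤ) - 1) * (if fixes R b then 1 else 0))) (p : ℤ) key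
  have h3' := sum_eq_sum_orbits (α := α) (K := R)
    (fun b => (1 + ((p : ℤ) - 1) * (if fixes R b then 1 else 0)))
  rw [← h3'] at h3
  have h4 : ∑ b : α, (1 + ((p : ℤ) - 1) * (if fixes R b then 1 else 0)) =
      Fintype.card α + ((p : ℤ) - 1) * ((Finset.univ : Finset α).filter (fixes R)).card := by
    rw [Finset.sum_add_distrib, ← Finset.mul_sum]
    simp [Finset.sum_ite]
  rw [h4] at h3
  simpa [mul_comm] using h3

lemma card_quot_eq {G α : Type*} [Group G] [Finite G] [MulAction G α] [Fintype α]
    (R : Subgroup G) :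
    Nat.card (MulAction.orbitRel.Quotient R α) = ((Finset.univ : Finset α).image (orb R)).card := by
  let q : α → MulAction.orbitRel.Quotient R α := Quotient.mk''
  have hq : Function.Surjective q := Quotient.mk''_surjective
  have hkey : ∀ a b : α, q a = q b ↔ orb R a = orb R b := by
    intro a b
    constructor
    · intro h
      have h1 : a ∈ MulAction.orbit R b := (MulAction.orbitRel_apply).1 (Quotient.eq''.1 h)
      obtain ⟨r, hr⟩ := h1
      apply orb_eq_of_mem
      exact mem_orb.2 ⟨r, r.2, hr⟩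
    · intro h
      have h1 : a ∈ orb R b := by rw [← h]; exact self_mem_orb _ _
      obtain ⟨g, hg, hga⟩ := mem_orb.1 h1
      apply Quotient.eq''.2
      exact (MulAction.orbitRel_apply).2 ⟨⟨g, hg⟩, hga⟩
  have : Fintype (MulAction.orbitRel.Quotient R α) := Fintype.ofFinite _
  rw [Nat.card_eq_fintype_card]
  have himg : (Finset.univ : Finset α).image (orb R) =
      (Finset.univ : Finset (MulAction.orbitRel.Quotient R α)).image
        (fun ω => orb R (Quotient.out ω)) := by
    ext V
    simp only [Finset.mem_image, Finset.mem_univ, true_and]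
    constructor
    · rintro ⟨a, rfl⟩
      refine ⟨q a, ?_⟩
      apply (hkey _ _).1
      exact Quotient.out_eq _
    · rintro ⟨ω, rfl⟩
      exact ⟨_, rfl⟩
  rw [himg, Finset.card_image_of_injective, Finset.card_univ]
  intro ω ω' h
  have := (hkey _ _).2 h
  have h1 : ∀ ω : MulAction.orbitRel.Quotient R α, q (Quotient.out ω) = ω := fun ω => Quotient.out_eq _
  rw [← h1 ω, ← h1 ω']
  exact this

theorem result {G Ω : Type*} [Group G] [Finite G] [MulAction G Ω] [FaithfulSMul G Ω] [Finite Ω]
    (htrans : MulAction.IsPretransitive G Ω) (p : ℕ) [Fact p.Prime] (hp2 : p ≠ 2) (hpG : p ∣ Nat.card G)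
    (P : Sylow p G) :
    (2 * p - 1) * Nat.card (MulAction.orbitRel.Quotient ↥(P : Subgroup G) Ω) ≤ p * Nat.card Ω := by
  classical
  have : Fintype Ω := Fintype.ofFinite Ω
  set K : Subgroup G := Opp p ⊤ with hKdef
  have hK : Opp p K = K := Opp_idem _
  have hP : IsPGroup p (P : Subgroup G) := P.isPGroup'
  have hPK : (P : Subgroup G) ≤ K := le_Opp_of_isPGroup hP le_top
  have hSyl : IsSyl p (P : Subgroup G) K := by
    refine ⟨hPK, hP, fun hd => ?_⟩
    apply P.not_dvd_index
    rw [← Subgroup.relIndex_mul_index hPK]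
    exact Dvd.dvd.mul_right hd _
  have hKconj : ∀ g : G, g • K = K := by
    intro g
    rw [hKdef, ← Opp_smul]
    congr 1
    exact smul_self_of_mem (Subgroup.mem_top g)
  have hmove : ∀ a : Ω, ¬ K ≤ MulAction.stabilizer G a := by
    intro a hle
    have hall : ∀ k ∈ K, ∀ b : Ω, k • b = b := by
      intro k hk b
      obtain ⟨g, rfl⟩ := MulAction.exists_smul_eq G a b
      have h1 : g⁻¹ * k * g ∈ K := by
        have h2 : k ∈ g • K := by rw [hKconj]; exact hk
        exact mem_smul'.1 h2
      have h3 := MulAction.mem_stabilizer_iff.1 (hle h1)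
      simp only [mul_smul] at h3
      rw [inv_smul_eq_iff] at h3
      exact h3
    obtain ⟨x, hx⟩ := exists_prime_orderOf_dvd_card' p hpG
    have hxK : x ∈ K := by
      refine mem_Opp ⟨1, ?_⟩ (Subgroup.mem_top x)
      rw [pow_one, ← hx]
      exact pow_orderOf_eq_one x
    have hx1 : x = 1 := by
      apply FaithfulSMul.eq_of_smul_eq_smul (α := Ω)
      intro b
      rw [hall x hxK b, one_smul]
    rw [hx1, orderOf_one] at hx
    exact (Fact.out : p.Prime).one_lt.ne hx
  have h1 := fix_bound (α := Ω) hK hmove hSyl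
  have h2 := orbit_count (α := Ω) p hP
  have h3 := card_quot_eq (α := Ω) (P : Subgroup G)
  rw [h3, Nat.card_eq_fintype_card]
  set T := ((Finset.univ : Finset Ω).image (orb (P : Subgroup G))).card with hT
  set F := ((Finset.univ : Finset Ω).filter (fixes (P : Subgroup G))).card with hF
  set n := Fintype.card Ω with hn
  have hp1 : (1 : ℤ) < p := by exact_mod_cast (Fact.out : p.Prime).one_lt
  have hp0 : (0 : ℤ) < p := by linarith
  have h4 : (2 * (p : ℤ) - 1) * T ≤ p * n := by
    have h5 : (p : ℤ) * ((2 * (p : ℤ) - 1) * T) ≤ p * (p * n) := by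
      have h6 : (2 * (p : ℤ) - 1) * ((p : ℤ) * T) ≤ (2 * (p : ℤ) - 1) * (n + ((p : ℤ) - 1) * F) :=
        mul_le_mul_of_nonneg_left h2 (by linarith)
      have h7 : ((p : ℤ) - 1) * ((2 * (p : ℤ) - 1) * F) ≤ ((p : ℤ) - 1) * (((p : ℤ) - 1) * n) :=
        mul_le_mul_of_nonneg_left h1 (by linarith)
      nlinarith
    exact le_of_mul_le_mul_left h5 hp0
  have h8 : 1 ≤ 2 * p := by have := (Fact.out : p.Prime).pos; omega
  zify [h8]
  exact h4

end Cfsg.Agent.S3580
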