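import Cfsg.Statements.S3592
import Mathlib
import Cfsg.Agent.Lib.M11Nse
import Cfsg.Agent.Lib.Nse7920
import Cfsg.Agent.S0420
import Cfsg.Agent.Lib.M11Simple

set_option autoImplicit false
open Cfsg

namespace Cfsg.Agent.S3592

/-- Let M be the Mathieu group M₁₁ (order 7920). If a finite group G has the same order as M and the same set of values of the function 'number of elements of order n' (taken over the element orders n that occur), then G is isomorphic to M. -/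
theorem result {G : Type*} [Group G] [Finite G]
    (hcard : Nat.card G = Nat.card ↥Cfsg.Spor.M11)
    (hnse : {c : ℕ | 0 < c ∧ ∃ n : ℕ, c = Nat.card {g : G // orderOf g = n}} =
      {c : ℕ | 0 < c ∧ ∃ n : ℕ, c = Nat.card {g : ↥Cfsg.Spor.M11 // orderOf g = n}}) :
    Nonempty (G ≃* ↥Cfsg.Spor.M11) := by
  have hc : Nat.card G = 7920 := by rw [hcard, Cfsg.Agent.Lib.M11Chain.card_M11]
  have hL : ∀ c ∈ {c : ℕ | 0 < c ∧ ∃ n : ℕ, c = Nat.card {g : ↥Cfsg.Spor.M11 // orderOf g = n}},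
      c = 1 ∨ c = 165 ∨ c = 440 ∨ c = 990 ∨ c = 1320 ∨ c = 1440 ∨ c = 1584 ∨ c = 1980 := by
    rintro c ⟨h0, n, rfl⟩
    exact Cfsg.Agent.Lib.M11Nse.card_order_values n h0
  obtain ⟨h11, h5, h3⟩ := Cfsg.Agent.Lib.Nse7920.counts_of_mem hL hc (fun n hn => by
    rw [← hnse]; exact ⟨hn, n, rfl⟩)
  have hS := Cfsg.Agent.Lib.Nse7920.isSimple_of_counts hc h11 h5 h3
  obtain ⟨e⟩ := Cfsg.Agent.S0420.result (G := G) ⟨hS, hc⟩ Cfsg.Agent.Lib.M11Simple.ds
    Cfsg.Agent.Lib.M11Simple.ds_mem (Cfsg.Agent.Lib.Golay.pt 0) Cfsg.Agent.Lib.M11Simple.pt0_mem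
  refine ⟨e.trans ?_⟩
  exact
    { toFun := fun y => ⟨y.1.1, (Cfsg.Agent.Lib.M11Chain.mem_M11_iff _).mpr
        ⟨y.1.2, Cfsg.Agent.Lib.M11Simple.K11_d y, Cfsg.Agent.Lib.M11Simple.K11_0 y⟩⟩
      invFun := fun m => ⟨⟨m.1, ((Cfsg.Agent.Lib.M11Chain.mem_M11_iff m.1).mp m.2).1⟩,
        ((Cfsg.Agent.Lib.M11Chain.mem_M11_iff m.1).mp m.2).2.1, ((Cfsg.Agent.Lib.M11Chain.mem_M11_iff m.1).mp m.2).2.2⟩
      left_inv := fun _ => rfl
      right_inv := fun _ => rfl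
      map_mul' := fun _ _ => rfl }

end Cfsg.Agent.S3592
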