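import Mathlib
import Cfsg.Statements.S3599

set_option autoImplicit false
set_option linter.all false
open Cfsg

namespace Cfsg.Agent.S3599

open Finset

/-- The abstract properties of the Frobenius group used below. -/
structure IsFrob (F : Type) [Group F] (p q : ℕ) : Prop where
  exW : ∃ W : Subgroup F, W.Normal ∧
    (∀ x ∈ W, x ^ p = 1) ∧ (∀ x, x ∉ W → x ^ q = 1) ∧ (∃ x ∈ W, x ≠ 1) ∧ (∃ y, y ∉ W) ∧
    (∀ y, y ∉ W → ∀ U : Subgroup F, U ≤ W → U ≠ ⊥ → (∀ u ∈ U, y * u * y⁻¹ ∈ U) → W ≤ U) ∧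
    (∀ y, y ∉ W → ∀ w ∈ W, y * w * y⁻¹ = w → w = 1) ∧
    (∀ y, y ∉ W → ∀ g, ∃ i : ℕ, ∃ w ∈ W, g = w * y ^ i)

section Product

variable {ι : Type} [Fintype ι] [DecidableEq ι] {F : ι → Type} [∀ j, Group (F j)] {p q : ι → ℕ}

/-- Hypotheses on the family. -/
structure Hyp (p q : ι → ℕ) (F : ι → Type) [∀ j, Group (F j)] : Prop where
  frob : ∀ j, IsFrob (F j) (p j) (q j)
  pp : ∀ j, (p j).Prime
  qp : ∀ j, (q j).Prime
  ne : ∀ j, p j ≠ q j
  cop : ∀ i j, i ≠ j → Nat.Coprime (p i * q i) (p j * q j)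

theorem pow_P (h : Hyp p q F) (j : ι) (x : F j) : x ^ (p j * q j) = 1 := by
  obtain ⟨W, _, h1, h2, _⟩ := (h.frob j).exW
  by_cases hx : x ∈ W
  · rw [pow_mul, h1 x hx, one_pow]
  · rw [mul_comm, pow_mul, h2 x hx, one_pow]

/-- the exponent extracting a component. -/
theorem exists_m (h : Hyp p q F) (j : ι) :
    ∃ m : ℕ, m % (p j * q j) = 1 ∧ ∀ g : (∀ i, F i), g ^ m = Pi.mulSingle j (g j) := by
  have hP : 1 < p j * q j := by
    have h1 := (h.pp j).one_lt
    have h2 := (h.qp j).one_lt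
    nlinarith
  set Q := ∏ i ∈ univ.erase j, (p i * q i) with hQ
  have hcop : Nat.Coprime Q (p j * q j) := by
    apply Nat.Coprime.prod_left
    intro i hi
    exact h.cop i j (Finset.ne_of_mem_erase hi)
  obtain ⟨m', -, hm'⟩ := Nat.exists_mul_mod_eq_one_of_coprime hcop hP
  refine ⟨Q * m', hm', fun g => ?_⟩
  funext i
  rw [Pi.pow_apply]
  by_cases hi : i = j
  · subst hi
    rw [Pi.mulSingle_eq_same, pow_eq_pow_mod _ (pow_P h i (g i)), hm', pow_one]
  · rw [Pi.mulSingle_eq_of_ne hi]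
    have h1 : p i * q i ∣ Q * m' := by
      apply Dvd.dvd.mul_right
      exact Finset.dvd_prod_of_mem (fun i => p i * q i) (Finset.mem_erase.mpr ⟨hi, mem_univ i⟩)
    obtain ⟨k, hk⟩ := h1
    rw [hk, pow_mul, pow_P h i (g i), one_pow]

/-- orders in a factor -/
theorem order_factor (h : Hyp p q F) (j : ι) (x : F j) :
    orderOf x = 1 ∨ orderOf x = p j ∨ orderOf x = q j := by
  obtain ⟨W, _, h1, h2, _⟩ := (h.frob j).exW
  by_cases hx1 : x = 1
  · left
    rw [hx1, orderOf_one]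
  right
  by_cases hx : x ∈ W
  · left
    haveI : Fact (p j).Prime := ⟨h.pp j⟩
    exact orderOf_eq_prime (h1 x hx) hx1
  · right
    haveI : Fact (q j).Prime := ⟨h.qp j⟩
    exact orderOf_eq_prime (h2 x hx) hx1

theorem exists_order (h : Hyp p q F) (j : ι) (c : ℕ) (hc : c = 1 ∨ c = p j ∨ c = q j) :
    ∃ x : F j, orderOf x = c := by
  obtain ⟨W, _, h1, h2, ⟨w, hw, hw1⟩, ⟨y, hy⟩, _⟩ := (h.frob j).exW
  rcases hc with rfl | rfl | rfl
  · exact ⟨1, orderOf_one⟩
  · haveI : Fact (p j).Prime := ⟨h.pp j⟩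
    exact ⟨w, orderOf_eq_prime (h1 w hw) hw1⟩
  · haveI : Fact (q j).Prime := ⟨h.qp j⟩
    exact ⟨y, orderOf_eq_prime (h2 y hy) (fun h' => hy (h' ▸ W.one_mem))⟩

theorem order_pi (h : Hyp p q F) (x : ∀ i, F i) : orderOf x = ∏ j, orderOf (x j) := by
  apply Nat.dvd_antisymm
  · apply orderOf_dvd_of_pow_eq_one
    funext j
    rw [Pi.pow_apply, Pi.one_apply, ← orderOf_dvd_iff_pow_eq_one]
    exact Finset.dvd_prod_of_mem (fun j => orderOf (x j)) (mem_univ j)
  · have hcomp : ∀ j, orderOf (x j) ∣ orderOf x := by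
      intro j
      rw [orderOf_dvd_iff_pow_eq_one]
      have h1 : x ^ orderOf x = 1 := pow_orderOf_eq_one x
      have h2 := congrFun h1 j
      simpa using h2
    have : ∀ s : Finset ι, ∏ j ∈ s, orderOf (x j) ∣ orderOf x := by
      intro s
      induction s using Finset.induction_on with
      | empty => simp
      | insert a s ha ih =>
        rw [Finset.prod_insert ha]
        apply Nat.Coprime.mul_dvd_of_dvd_of_dvd _ (hcomp a) ih
        apply Nat.Coprime.prod_right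
        intro j hj
        have hne : a ≠ j := fun e => ha (e ▸ hj)
        have h1 : orderOf (x a) ∣ p a * q a := orderOf_dvd_of_pow_eq_one (pow_P h a _)
        have h2 : orderOf (x j) ∣ p j * q j := orderOf_dvd_of_pow_eq_one (pow_P h j _)
        exact Nat.Coprime.coprime_dvd_left h1 (Nat.Coprime.coprime_dvd_right h2 (h.cop a j hne))
    exact this univ

/-- the spectrum -/
def Spec (p q : ι → ℕ) : Set ℕ :=
  {m | ∃ c : ι → ℕ, (∀ j, c j = 1 ∨ c j = p j ∨ c j = q j) ∧ m = ∏ j, c j}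

theorem range_pi (h : Hyp p q F) : Set.range (orderOf : (∀ i, F i) → ℕ) = Spec p q := by
  ext m
  constructor
  · rintro ⟨x, rfl⟩
    exact ⟨fun j => orderOf (x j), fun j => order_factor h j _, order_pi h x⟩
  · rintro ⟨c, hc, rfl⟩
    choose x hx using fun j => exists_order h j (c j) (hc j)
    refine ⟨x, ?_⟩
    rw [order_pi h]
    exact Finset.prod_congr rfl (fun j _ => hx j)

theorem mem_spec_left (j : ι) : p j ∈ Spec p q := by
  refine ⟨fun i => if i = j then p j else 1, ?_, ?_⟩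
  · intro i
    by_cases hi : i = j
    · subst hi
      simp
    · simp [hi]
  · rw [Finset.prod_ite_eq' univ j]
    simp

theorem mem_spec_right (j : ι) : q j ∈ Spec p q := by
  refine ⟨fun i => if i = j then q j else 1, ?_, ?_⟩
  · intro i
    by_cases hi : i = j
    · subst hi
      simp
    · simp [hi]
  · rw [Finset.prod_ite_eq' univ j]
    simp

/-- Local data at `j`. -/
theorem local_data (h : Hyp p q F) (H : Subgroup (∀ i, F i)) (N : Subgroup ↥H) [hN : N.Normal]
    (hspec : Set.range (orderOf : (↥H ⧸ N) → ℕ) = Spec p q) (j : ι) :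
    ∃ (zj yj : F j) (W : Subgroup (F j)), W.Normal ∧ zj ∈ W ∧ zj ≠ 1 ∧ yj ∉ W ∧
      (∀ y, y ∉ W → ∀ U : Subgroup (F j), U ≤ W → U ≠ ⊥ → (∀ u ∈ U, y * u * y⁻¹ ∈ U) → W ≤ U) ∧
      (∀ y, y ∉ W → ∀ w ∈ W, y * w * y⁻¹ = w → w = 1) ∧
      (∀ y, y ∉ W → ∀ g, ∃ i : ℕ, ∃ w ∈ W, g = w * y ^ i) ∧
      (∃ hz : Pi.mulSingle j zj ∈ H, (⟨Pi.mulSingle j zj, hz⟩ : ↥H) ∉ N) ∧
      Pi.mulSingle j yj ∈ H := by
  obtain ⟨W, hWn, h1, h2, hex, _, hirr, hfpf, hcov⟩ := (h.frob j).exW
  obtain ⟨m, hm, hmg⟩ := exists_m h j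
  have hpj := h.pp j
  have hqj := h.qp j
  have hne := h.ne j
  have hq : q j ∈ Set.range (orderOf : (↥H ⧸ N) → ℕ) := by
    rw [hspec]; exact mem_spec_right j
  have hp : p j ∈ Set.range (orderOf : (↥H ⧸ N) → ℕ) := by
    rw [hspec]; exact mem_spec_left j
  obtain ⟨xb, hxb⟩ := hq
  obtain ⟨zb, hzb⟩ := hp
  obtain ⟨x, rfl⟩ := QuotientGroup.mk_surjective xb
  obtain ⟨z, rfl⟩ := QuotientGroup.mk_surjective zb
  -- powers
  have hmx : ((x ^ m : ↥H) : ↥H ⧸ N) = (x : ↥H ⧸ N) := by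
    rw [QuotientGroup.mk_pow]
    have h3 : (x : ↥H ⧸ N) ^ (p j * q j) = 1 := by
      rw [mul_comm, pow_mul, ← hxb, pow_orderOf_eq_one, one_pow]
    rw [pow_eq_pow_mod m h3, hm, pow_one]
  have hmz : ((z ^ m : ↥H) : ↥H ⧸ N) = (z : ↥H ⧸ N) := by
    rw [QuotientGroup.mk_pow]
    have h3 : (z : ↥H ⧸ N) ^ (p j * q j) = 1 := by
      rw [pow_mul, ← hzb, pow_orderOf_eq_one, one_pow]
    rw [pow_eq_pow_mod m h3, hm, pow_one]
  have hxc : ((x ^ m : ↥H) : ∀ i, F i) = Pi.mulSingle j ((x : ∀ i, F i) j) := by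
    rw [Subgroup.coe_pow, hmg]
  have hzc : ((z ^ m : ↥H) : ∀ i, F i) = Pi.mulSingle j ((z : ∀ i, F i) j) := by
    rw [Subgroup.coe_pow, hmg]
  have hsingle_pow : ∀ (g : F j) (n : ℕ), g ^ n = 1 → (Pi.mulSingle j g : ∀ i, F i) ^ n = 1 := by
    intro g n hg
    rw [← Pi.mulSingle_pow, hg, Pi.mulSingle_one]
  have hH_pow : ∀ (w : ↥H) (g : F j) (n : ℕ), (w : ∀ i, F i) = Pi.mulSingle j g → g ^ n = 1 →
      ((w : ↥H ⧸ N)) ^ n = 1 := by
    intro w g n hw hg
    rw [← QuotientGroup.mk_pow]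
    have : w ^ n = 1 := by
      apply Subtype.ext
      rw [Subgroup.coe_pow, hw, hsingle_pow g n hg]
      rfl
    rw [this]
    rfl
  refine ⟨(z : ∀ i, F i) j, (x : ∀ i, F i) j, W, hWn, ?_, ?_, ?_, hirr, hfpf, hcov, ?_, ?_⟩
  · -- `z j ∈ W`
    by_contra hz
    have := hH_pow (z ^ m) _ (q j) hzc (h2 _ hz)
    rw [hmz] at this
    have h4 := orderOf_dvd_of_pow_eq_one this
    rw [← hzb] at hne
    rw [← hzb] at hpj
    exact hne ((Nat.prime_dvd_prime_iff_eq hpj hqj).1 h4)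
  · intro hz
    have := hH_pow (z ^ m) _ 1 hzc (by rw [hz, one_pow])
    rw [hmz, pow_one] at this
    rw [this, orderOf_one] at hzb
    rw [← hzb] at hpj
    exact Nat.not_prime_one hpj
  · intro hx
    have := hH_pow (x ^ m) _ (p j) hxc (h1 _ hx)
    rw [hmx] at this
    have h4 := orderOf_dvd_of_pow_eq_one this
    rw [← hxb] at hne
    rw [← hxb] at hqj
    exact hne ((Nat.prime_dvd_prime_iff_eq hqj hpj).1 h4).symm
  · have hz' : Pi.mulSingle j ((z : ∀ i, F i) j) ∈ H := by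
      rw [← hzc]; exact (z ^ m).2
    refine ⟨hz', fun hzN => ?_⟩
    have h5 : (z ^ m) = (⟨Pi.mulSingle j ((z : ∀ i, F i) j), hz'⟩ : ↥H) := Subtype.ext hzc
    have h6 : ((z ^ m : ↥H) : ↥H ⧸ N) = 1 := by
      rw [h5]
      exact (QuotientGroup.eq_one_iff _).2 hzN
    rw [hmz] at h6
    rw [h6, orderOf_one] at hzb
    rw [← hzb] at hpj
    exact Nat.not_prime_one hpj
  · rw [← hxc]; exact (x ^ m).2

/-- Criticality. -/
theorem critical (h : Hyp p q F) (H : Subgroup (∀ i, F i)) (N : Subgroup ↥H) [hN : N.Normal]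
    (hspec : Set.range (orderOf : (↥H ⧸ N) → ℕ) = Spec p q) : H = ⊤ ∧ N = ⊥ := by
  have hld := local_data h H N hspec
  -- Step 1: `H = ⊤`
  have hS : ∀ (j : ι) (g : F j), Pi.mulSingle j g ∈ H := by
    intro j g
    obtain ⟨zj, yj, W, hWn, hzW, hz1, hyW, hirr, hfpf, hcov, ⟨hzH, hzN⟩, hyH⟩ := hld j
    let Hj : Subgroup (F j) := H.comap (MonoidHom.mulSingle F j)
    have hyHj : yj ∈ Hj := hyH
    have hzHj : zj ∈ Hj := hzH
    have hWH : W ≤ Hj := by
      have := hirr yj hyW (Hj ⊓ W) inf_le_right ?_ ?_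
      · exact this.trans inf_le_left
      · intro hbot
        have : zj ∈ Hj ⊓ W := ⟨hzHj, hzW⟩
        rw [hbot, Subgroup.mem_bot] at this
        exact hz1 this
      · rintro u ⟨hu1, hu2⟩
        exact ⟨Hj.mul_mem (Hj.mul_mem hyHj hu1) (Hj.inv_mem hyHj), hWn.conj_mem u hu2 yj⟩
    obtain ⟨i, w, hw, rfl⟩ := hcov yj hyW g
    exact Hj.mul_mem (hWH hw) (Hj.pow_mem hyHj i)
  have hHtop : H = ⊤ := by
    rw [eq_top_iff]
    intro x _
    rw [← Finset.noncommProd_mulSingle x]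
    exact Submonoid.noncommProd_mem H.toSubmonoid _ _ _ (fun j _ => hS j (x j))
  refine ⟨hHtop, ?_⟩
  -- Step 2: `N = ⊥`.
  have hM : ∀ (j : ι) (g : F j) (hg : Pi.mulSingle j g ∈ H), (⟨Pi.mulSingle j g, hg⟩ : ↥H) ∈ N → g = 1 := by
    intro j
    obtain ⟨zj, yj, W, hWn, hzW, hz1, hyW, hirr, hfpf, hcov, ⟨hzH, hzN⟩, hyH⟩ := hld j
    let M : Subgroup (F j) := (N.map H.subtype).comap (MonoidHom.mulSingle F j)
    have hmemM : ∀ g, g ∈ M ↔ (⟨Pi.mulSingle j g, hS j g⟩ : ↥H) ∈ N := by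
      intro g
      constructor
      · rintro ⟨⟨n, hn⟩, hn1, hn2⟩
        have : (⟨Pi.mulSingle j g, hS j g⟩ : ↥H) = ⟨n, hn⟩ := Subtype.ext hn2.symm
        rw [this]
        exact hn1
      · intro hg
        exact ⟨_, hg, rfl⟩
    have hMn : M.Normal := by
      constructor
      intro g hg t
      rw [hmemM] at hg ⊢
      have := hN.conj_mem _ hg ⟨Pi.mulSingle j t, hS j t⟩
      convert this using 1
      apply Subtype.ext
      simp [Pi.mulSingle_mul, Pi.mulSingle_inv]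
    have hzM : zj ∉ M := fun hzM => hzN ((hmemM zj).1 hzM)
    have hMW : M ⊓ W = ⊥ := by
      by_contra hne
      have h7 := hirr yj hyW (M ⊓ W) inf_le_right hne ?_
      · exact hzM (h7 hzW).1
      · rintro u ⟨hu1, hu2⟩
        exact ⟨hMn.conj_mem u hu1 yj, hWn.conj_mem u hu2 yj⟩
    have hMbot : ∀ g ∈ M, g = 1 := by
      intro g hg
      by_contra hg1
      have hgW : g ∉ W := by
        intro hgW
        have : g ∈ M ⊓ W := ⟨hg, hgW⟩
        rw [hMW, Subgroup.mem_bot] at this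
        exact hg1 this
      have hc : g * zj * g⁻¹ * zj⁻¹ ∈ M ⊓ W := by
        constructor
        · have h8 : g * zj * g⁻¹ * zj⁻¹ = g * (zj * g⁻¹ * zj⁻¹) := by group
          rw [h8]
          exact M.mul_mem hg (hMn.conj_mem _ (M.inv_mem hg) zj)
        · exact W.mul_mem (hWn.conj_mem zj hzW g) (W.inv_mem hzW)
      rw [hMW, Subgroup.mem_bot] at hc
      have h9 : g * zj * g⁻¹ = zj := by
        rwa [mul_inv_eq_one] at hc
      exact hz1 (hfpf g hgW zj hzW h9)
    intro g hg hgN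
    apply hMbot
    exact (hmemM g).2 hgN
  rw [eq_bot_iff]
  intro n hn
  rw [Subgroup.mem_bot]
  apply Subtype.ext
  funext j
  obtain ⟨m, hm, hmg⟩ := exists_m h j
  have h10 : n ^ m ∈ N := N.pow_mem hn m
  have h11 : ((n ^ m : ↥H) : ∀ i, F i) = Pi.mulSingle j ((n : ∀ i, F i) j) := by
    rw [Subgroup.coe_pow, hmg]
  have h12 : (⟨Pi.mulSingle j ((n : ∀ i, F i) j), hS j _⟩ : ↥H) = n ^ m := Subtype.ext h11.symm
  exact hM j _ (hS j _) (h12 ▸ h10)

end Product

section Construction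

variable {p q : ℕ}

/-- The ambient additive group. -/
abbrev V (p q : ℕ) := ZMod q → ZMod p

/-- Translation. -/
def tr (c : ZMod q) : V p q →+ V p q where
  toFun f := fun i => f (i + c)
  map_zero' := rfl
  map_add' _ _ := rfl

theorem tr_apply (c : ZMod q) (f : V p q) (i : ZMod q) : tr c f i = f (i + c) := rfl

theorem tr_zero (f : V p q) : tr 0 f = f := by
  funext i; simp [tr_apply]

theorem tr_add (c d : ZMod q) (f : V p q) : tr (c + d) f = tr c (tr d f) := by
  funext i; simp [tr_apply, add_assoc]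

/-- Invariant subgroups. -/
def InvT (U : AddSubgroup (V p q)) : Prop := ∀ c : ZMod q, ∀ u ∈ U, tr c u ∈ U

/-- The Frobenius group as a structure. -/
structure Fr (U : AddSubgroup (V p q)) (hU : InvT U) where
  a : U
  c : ZMod q

variable {U : AddSubgroup (V p q)} {hU : InvT U}

@[ext] theorem Fr.ext' {x y : Fr U hU} (h1 : x.a = y.a) (h2 : x.c = y.c) : x = y := by
  cases x; cases y; simp_all

/-- translation on `U` -/
def trU (hU : InvT U) (c : ZMod q) (u : U) : U := ⟨tr c u, hU c u u.2⟩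

theorem trU_zero (u : U) : trU hU 0 u = u := Subtype.ext (tr_zero _)
theorem trU_add' (c d : ZMod q) (u : U) : trU hU (c + d) u = trU hU c (trU hU d u) :=
  Subtype.ext (tr_add _ _ _)
theorem trU_plus (c : ZMod q) (u v : U) : trU hU c (u + v) = trU hU c u + trU hU c v :=
  Subtype.ext (map_add _ _ _)
theorem trU_neg (c : ZMod q) (u : U) : trU hU c (-u) = - trU hU c u :=
  Subtype.ext (map_neg _ _)

instance : Mul (Fr U hU) := ⟨fun x y => ⟨x.a + trU hU x.c y.a, x.c + y.c⟩⟩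
instance : One (Fr U hU) := ⟨⟨0, 0⟩⟩
instance : Inv (Fr U hU) := ⟨fun x => ⟨-trU hU (-x.c) x.a, -x.c⟩⟩

theorem mul_a (x y : Fr U hU) : (x * y).a = x.a + trU hU x.c y.a := rfl
theorem mul_c (x y : Fr U hU) : (x * y).c = x.c + y.c := rfl
theorem one_a : (1 : Fr U hU).a = 0 := rfl
theorem one_c : (1 : Fr U hU).c = 0 := rfl
theorem inv_a (x : Fr U hU) : (x⁻¹).a = -trU hU (-x.c) x.a := rfl
theorem inv_c (x : Fr U hU) : (x⁻¹).c = -x.c := rfl

instance : Group (Fr U hU) := Group.ofLeftAxioms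
  (by
    intro x y z
    apply Fr.ext'
    · simp only [mul_a, mul_c, trU_plus, trU_add', add_assoc]
    · simp only [mul_c, add_assoc])
  (by
    intro x
    apply Fr.ext'
    · simp [mul_a, one_a, one_c, trU_zero]
    · simp [mul_c, one_c])
  (by
    intro x
    apply Fr.ext'
    · simp [mul_a, inv_a, inv_c, one_a]
    · simp [mul_c, inv_c, one_c])

/-- the map to the complement -/
def cHom : Fr U hU →* Multiplicative (ZMod q) where
  toFun x := Multiplicative.ofAdd x.c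
  map_one' := rfl
  map_mul' _ _ := rfl

theorem cHom_apply (x : Fr U hU) : cHom x = Multiplicative.ofAdd x.c := rfl

theorem cHom_ker (x : Fr U hU) : x ∈ (cHom : Fr U hU →* Multiplicative (ZMod q)).ker ↔ x.c = 0 := by
  rw [MonoidHom.mem_ker, cHom_apply]
  exact ofAdd_eq_one

theorem pow_W (x : Fr U hU) (hx : x.c = 0) (n : ℕ) : (x ^ n).a = n • x.a ∧ (x ^ n).c = 0 := by
  induction n with
  | zero => exact ⟨by simp [one_a], rfl⟩
  | succ n ih =>
    rw [pow_succ, mul_a, mul_c, ih.1, ih.2, hx, trU_zero, add_zero, succ_nsmul]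
    exact ⟨rfl, rfl⟩

theorem conj_W (y w : Fr U hU) (hw : w.c = 0) :
    (y * w * y⁻¹).a = trU hU y.c w.a ∧ (y * w * y⁻¹).c = 0 := by
  constructor
  · rw [mul_a, mul_a, mul_c, hw, add_zero, inv_a, trU_neg, ← trU_add']
    simp [trU_zero]
  · rw [mul_c, mul_c, inv_c, hw]
    simp

variable [hp : Fact p.Prime] [hq : Fact q.Prime]

theorem sum_tr (c : ZMod q) (f : V p q) : ∑ i, tr c f i = ∑ i, f i :=
  Equiv.sum_comp (Equiv.addRight c) f

theorem exists_nsmul (c d : ZMod q) (hc : c ≠ 0) : ∃ n : ℕ, n • c = d := by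
  refine ⟨(d * c⁻¹).val, ?_⟩
  rw [nsmul_eq_mul, ZMod.natCast_val, ZMod.cast_id', id, mul_assoc, inv_mul_cancel₀ hc, mul_one]

theorem fixed_zero (hne : p ≠ q) (c : ZMod q) (hc : c ≠ 0) (f : V p q) (hf : tr c f = f)
    (hs : ∑ i, f i = 0) : f = 0 := by
  have h1 : ∀ n : ℕ, tr (n • c) f = f := by
    intro n
    induction n with
    | zero => simp [tr_zero]
    | succ n ih => rw [succ_nsmul, tr_add, hf, ih]
  have h2 : ∀ i, f i = f 0 := by
    intro i
    obtain ⟨n, hn⟩ := exists_nsmul c i hc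
    have := congrFun (h1 n) 0
    rw [tr_apply, hn, zero_add] at this
    exact this
  have h3 : (q : ZMod p) * f 0 = 0 := by
    rw [← hs, Finset.sum_congr rfl (fun i _ => h2 i)]
    simp [Finset.sum_const, ZMod.card]
  have h4 : (q : ZMod p) ≠ 0 := by
    intro h
    rw [ZMod.natCast_eq_zero_iff] at h
    exact hne ((Nat.prime_dvd_prime_iff_eq hp.out hq.out).1 h)
  have h5 : f 0 = 0 := (mul_eq_zero.1 h3).resolve_left h4
  funext i
  rw [h2 i, h5]
  rfl

/-- Admissible subgroups. -/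
structure Good (U : AddSubgroup (V p q)) : Prop where
  ne : U ≠ ⊥
  sum : ∀ u ∈ U, ∑ i, u i = 0
  inv : InvT U

theorem exists_good : ∃ U : AddSubgroup (V p q), Good U := by
  let S : AddSubgroup (V p q) :=
    { carrier := {f | ∑ i, f i = 0}
      zero_mem' := by simp
      add_mem' := by
        intro a b ha hb
        simp only [Set.mem_setOf_eq, Pi.add_apply, Finset.sum_add_distrib] at *
        rw [ha, hb, add_zero]
      neg_mem' := by
        intro a ha
        simp only [Set.mem_setOf_eq, Pi.neg_apply, Finset.sum_neg_distrib] at *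
        rw [ha, neg_zero] }
  refine ⟨S, ?_, fun u hu => hu, ?_⟩
  · intro hbot
    have h0 : (0 : ZMod q) ≠ 1 := zero_ne_one
    have hmem : (Pi.single 0 1 - Pi.single 1 1 : V p q) ∈ S := by
      change ∑ i, (Pi.single 0 1 - Pi.single 1 1 : V p q) i = 0
      simp [Finset.sum_sub_distrib]
    rw [hbot, AddSubgroup.mem_bot] at hmem
    have h1 := congrFun hmem 0
    simp [h0] at h1
  · intro c u hu
    change ∑ i, tr c u i = 0
    rw [sum_tr]
    exact hu

theorem exists_min_good : ∃ U : AddSubgroup (V p q), Good U ∧ ∀ U', Good U' → U' ≤ U → U ≤ U' := by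
  classical
  obtain ⟨U0, hU0⟩ := (exists_good : ∃ U : AddSubgroup (V p q), Good U)
  have hwf : WellFounded ((· < ·) : AddSubgroup (V p q) → AddSubgroup (V p q) → Prop) :=
    wellFounded_lt
  obtain ⟨U, hU, hmin⟩ := hwf.has_min {U | Good U} ⟨U0, hU0⟩
  refine ⟨U, hU, fun U' hU' hle => ?_⟩
  by_contra hne
  exact hmin U' hU' (lt_of_le_of_ne hle (fun e => hne (e ▸ le_refl _)))

section Main

variable (hne : p ≠ q) (hG : Good U)
  (hmin : ∀ U', Good U' → U' ≤ U → U ≤ U')

include hne hG in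
theorem fr_fpf (y w : Fr U hU) (hy : y.c ≠ 0) (hw : w.c = 0) (h : y * w * y⁻¹ = w) : w = 1 := by
  have h1 := (conj_W y w hw).1
  rw [h] at h1
  have h2 : tr y.c (w.a : V p q) = w.a := by
    exact (congrArg Subtype.val h1).symm
  have h3 := fixed_zero hne y.c hy _ h2 (hG.sum _ w.a.2)
  apply Fr.ext'
  · exact Subtype.ext h3
  · exact hw

theorem fr_pow_p (x : Fr U hU) (hx : x.c = 0) : x ^ p = 1 := by
  obtain ⟨h1, h2⟩ := pow_W x hx p
  apply Fr.ext'
  · rw [h1, one_a]
    apply Subtype.ext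
    funext i
    change p • (x.a : V p q) i = 0
    rw [nsmul_eq_mul]
    simp
  · exact h2

include hne hG in
theorem fr_pow_q (x : Fr U hU) (hx : x.c ≠ 0) : x ^ q = 1 := by
  have h1 : (x ^ q).c = 0 := by
    rw [← cHom_ker, MonoidHom.mem_ker, map_pow, cHom_apply, ← ofAdd_nsmul, nsmul_eq_mul]
    simp
  apply fr_fpf hne hG x (x ^ q) hx h1
  rw [mul_inv_eq_iff_eq_mul, ← pow_succ', ← pow_succ]

include hne hG hmin in
theorem fr_irr (y : Fr U hU) (hy : y.c ≠ 0) (U' : Subgroup (Fr U hU))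
    (hle : ∀ x ∈ U', x.c = 0) (hne' : U' ≠ ⊥) (hinv : ∀ u ∈ U', y * u * y⁻¹ ∈ U') :
    ∀ w : Fr U hU, w.c = 0 → w ∈ U' := by
  let U'' : AddSubgroup (V p q) :=
    { carrier := {u | ∃ hu : u ∈ U, (⟨⟨u, hu⟩, 0⟩ : Fr U hU) ∈ U'}
      zero_mem' := ⟨U.zero_mem, U'.one_mem⟩
      add_mem' := by
        rintro a b ⟨ha, ha'⟩ ⟨hb, hb'⟩
        refine ⟨U.add_mem ha hb, ?_⟩
        convert U'.mul_mem ha' hb' using 1
        apply Fr.ext'
        · rw [mul_a]
          apply Subtype.ext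
          simp [trU_zero]
        · rw [mul_c]; simp
      neg_mem' := by
        rintro a ⟨ha, ha'⟩
        refine ⟨U.neg_mem ha, ?_⟩
        convert U'.inv_mem ha' using 1
        apply Fr.ext'
        · rw [inv_a]
          apply Subtype.ext
          simp [trU_zero]
        · rw [inv_c]; simp }
  have hsub : U'' ≤ U := fun u hu => hu.1
  have hconj : ∀ u ∈ U'', tr y.c u ∈ U'' := by
    rintro u ⟨hu, hu'⟩
    have h1 := conj_W y (⟨⟨u, hu⟩, 0⟩ : Fr U hU) rfl
    refine ⟨hU _ u hu, ?_⟩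
    convert hinv _ hu' using 1
    apply Fr.ext'
    · exact h1.1.symm
    · exact h1.2.symm
  have hgood : Good U'' := by
    refine ⟨?_, fun u hu => hG.sum u (hsub hu), ?_⟩
    · intro hbot
      apply hne'
      rw [eq_bot_iff]
      intro x hx
      rw [Subgroup.mem_bot]
      have hxc := hle x hx
      have h2 : (x.a : V p q) ∈ U'' := by
        refine ⟨x.a.2, ?_⟩
        convert hx using 1
        apply Fr.ext'
        · rfl
        · exact hxc.symm
      rw [hbot, AddSubgroup.mem_bot] at h2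
      apply Fr.ext'
      · exact Subtype.ext h2
      · exact hxc
    · intro c u hu
      obtain ⟨n, rfl⟩ := exists_nsmul y.c c hy
      induction n with
      | zero => rw [zero_nsmul, tr_zero]; exact hu
      | succ n ih => rw [succ_nsmul, add_comm, tr_add]; exact hconj _ ih
  have hUU := hmin U'' hgood hsub
  intro w hw
  obtain ⟨h1, h2⟩ := hUU w.a.2
  convert h2 using 1
  apply Fr.ext'
  · rfl
  · exact hw

theorem fr_cover (y : Fr U hU) (hy : y.c ≠ 0) (g : Fr U hU) :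
    ∃ i : ℕ, ∃ w : Fr U hU, w.c = 0 ∧ g = w * y ^ i := by
  obtain ⟨n, hn⟩ := exists_nsmul y.c g.c hy
  refine ⟨n, g * (y ^ n)⁻¹, ?_, by rw [inv_mul_cancel_right]⟩
  refine (cHom_ker _).1 ?_
  rw [MonoidHom.mem_ker, map_mul, map_inv, map_pow, cHom_apply, cHom_apply, ← ofAdd_nsmul, hn, mul_inv_cancel]

include hne hG hmin in
theorem fr_isFrob : IsFrob (Fr U hU) p q := by
  refine ⟨⟨(cHom : Fr U hU →* Multiplicative (ZMod q)).ker, inferInstance, ?_, ?_, ?_, ?_, ?_, ?_, ?_⟩⟩
  · intro x hx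
    exact fr_pow_p x ((cHom_ker x).1 hx)
  · intro x hx
    exact fr_pow_q hne hG x (fun h => hx ((cHom_ker x).2 h))
  · obtain ⟨u, hu⟩ := AddSubgroup.ne_bot_iff_exists_ne_zero.1 hG.ne
    exact ⟨⟨u, 0⟩, (cHom_ker _).2 rfl, fun h => hu (congrArg Fr.a h)⟩
  · refine ⟨⟨0, 1⟩, fun h => ?_⟩
    have := (cHom_ker _).1 h
    exact one_ne_zero this
  · intro y hy U' hle hne' hinv w hw
    exact fr_irr hne hG hmin y (fun h => hy ((cHom_ker y).2 h)) U'
      (fun x hx => (cHom_ker x).1 (hle hx)) hne' hinv w ((cHom_ker w).1 hw)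
  · intro y hy w hw h
    exact fr_fpf hne hG y w (fun h => hy ((cHom_ker y).2 h)) ((cHom_ker w).1 hw) h
  · intro y hy g
    obtain ⟨i, w, hw, h⟩ := fr_cover y (fun h => hy ((cHom_ker y).2 h)) g
    exact ⟨i, w, (cHom_ker w).2 hw, h⟩

/-- The coordinates. -/
def frEquiv : Fr U hU ≃ U × ZMod q where
  toFun x := (x.a, x.c)
  invFun x := ⟨x.1, x.2⟩
  left_inv _ := rfl
  right_inv _ := rfl

theorem card_fr : Nat.card (Fr U hU) = Nat.card U * q := by
  rw [Nat.card_congr frEquiv, Nat.card_prod, Nat.card_zmod]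

include hG in
theorem card_U : ∃ d, 1 ≤ d ∧ Nat.card U = p ^ d := by
  have h1 : Nat.card U ∣ Nat.card (V p q) := AddSubgroup.card_addSubgroup_dvd_card U
  have h2 : Nat.card (V p q) = p ^ q := by
    rw [Nat.card_fun, Nat.card_zmod, Nat.card_zmod]
  rw [h2] at h1
  obtain ⟨d, _, hd⟩ := (Nat.dvd_prime_pow hp.out).1 h1
  refine ⟨d, ?_, hd⟩
  by_contra hd0
  have hd00 : d = 0 := by omega
  rw [hd00, pow_zero] at hd
  exact hG.ne (AddSubgroup.eq_bot_of_card_eq _ hd)

include hne hG in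
theorem card_U_mod (hU : InvT U) : 1 ≡ Nat.card U [MOD q] := by
  classical
  haveI : Fintype U := Fintype.ofFinite U
  let τ : Equiv.Perm U :=
    { toFun := trU hU 1
      invFun := trU hU (-1)
      left_inv := by
        intro u
        rw [← trU_add']
        simp [trU_zero]
      right_inv := by
        intro u
        rw [← trU_add']
        simp [trU_zero] }
  have hτn : ∀ (n : ℕ) (u : U), (τ ^ n) u = trU hU (n • 1) u := by
    intro n u
    induction n with
    | zero => simp [trU_zero]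
    | succ n ih =>
      rw [pow_succ', Equiv.Perm.mul_apply, ih, succ_nsmul, add_comm, trU_add']
      rfl
  have hτ : τ ^ q ^ 1 = 1 := by
    ext1 u
    rw [pow_one, hτn, nsmul_eq_mul]
    simp [trU_zero]
  have h1 := Equiv.Perm.card_compl_support_modEq hτ
  have h2 : τ.supportᶜ = {0} := by
    ext u
    simp only [Finset.mem_compl, Equiv.Perm.mem_support, not_not, Finset.mem_singleton]
    constructor
    · intro hu
      have h3 : tr (1 : ZMod q) (u : V p q) = u := congrArg Subtype.val hu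
      exact Subtype.ext (fixed_zero hne 1 one_ne_zero _ h3 (hG.sum _ u.2))
    · rintro rfl
      apply Subtype.ext
      funext i
      rfl
  rw [h2, Finset.card_singleton] at h1
  rwa [Nat.card_eq_fintype_card]

end Main

/-- existence of the Frobenius group with the card information. -/
theorem exists_frob (hne : p ≠ q) : ∃ (F : Type) (_ : Group F) (_ : Fintype F),
    IsFrob F p q ∧ ∃ d, 1 ≤ d ∧ Nat.card F = p ^ d * q ∧ (d = 1 → q < p) := by
  obtain ⟨U, hG, hmin⟩ := (exists_min_good : ∃ U : AddSubgroup (V p q), _)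
  haveI : Finite (Fr U hG.inv) := Finite.of_equiv _ (frEquiv (hU := hG.inv)).symm
  refine ⟨Fr U hG.inv, inferInstance, Fintype.ofFinite _, fr_isFrob hne hG hmin, ?_⟩
  obtain ⟨d, hd, hcard⟩ := card_U hG
  refine ⟨d, hd, ?_, ?_⟩
  · rw [card_fr, hcard]
  · rintro rfl
    have h1 := card_U_mod hne hG hG.inv
    rw [hcard, pow_one] at h1
    have h2 : q ∣ p - 1 := (Nat.modEq_iff_dvd' hp.out.one_lt.le).1 h1
    have h3 := Nat.le_of_dvd (by have := hp.out.two_le; omega) h2
    have := hp.out.two_le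
    omega

end Construction

theorem cancel1 (C D P Q d d' : ℕ) (hP : P.Prime) (hQ : Q.Prime) (hne : P ≠ Q)
    (hD : Nat.Coprime D P) (h : (P ^ d * Q) * C = (Q ^ d' * P) * D) : d ≤ 1 := by
  have h1 : P ^ d ∣ (Q ^ d' * P) * D := ⟨Q * C, by rw [← h]; ring⟩
  have h2 : P ^ d ∣ Q ^ d' * P :=
    Nat.Coprime.dvd_of_dvd_mul_right (Nat.Coprime.pow_left d hD.symm) h1
  have hPQ : Nat.Coprime P Q := (Nat.coprime_primes hP hQ).2 hne
  have h3 : P ^ d ∣ P := Nat.Coprime.dvd_of_dvd_mul_left (Nat.Coprime.pow _ _ hPQ) h2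
  exact (Nat.pow_dvd_pow_iff_le_right hP.one_lt).1 (by simpa using h3)

/-- A finite group is critical with respect to a set Ω of natural numbers when its set of element orders is Ω while no proper section H/N (H a subgroup, N normal in H, (H, N) ≠ (whole group, 1)) has Ω as its set of element orders. Let s ≥ 1 and let p(j,0), p(j,1) (j < s) be 2s pairwise distinct primes, and let Ω be the set of all products c(0)·…·c(s−1) with each c(j) ∈ {1, p(j,0), p(j,1)}. Then there are 2^s pairwise non-isomorphic finite groups critical with respect to Ω. -/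
theorem result (s : ℕ) (hs : 1 ≤ s) (p : Fin s → Fin 2 → ℕ)
    (hp : ∀ j i, (p j i).Prime) (hinj : ∀ j i j' i', p j i = p j' i' → j = j' ∧ i = i') :
    ∃ (G : Fin (2 ^ s) → Type) (_ : ∀ a, Group (G a)) (_ : ∀ a, Fintype (G a)),
      (∀ a b, a ≠ b → ¬ Nonempty (G a ≃* G b)) ∧
      ∀ a, Set.range (orderOf : (G a) → ℕ) = {m : ℕ | ∃ c : Fin s → ℕ, (∀ j, c j = 1 ∨ c j = p j 0 ∨ c j = p j 1) ∧ m = ∏ j, c j} ∧
      ∀ (H : Subgroup (G a)) (N : Subgroup ↥H) [N.Normal], (H ≠ ⊤ ∨ N ≠ ⊥) → Set.range (orderOf : (↥H ⧸ N) → ℕ) ≠ {m : ℕ | ∃ c : Fin s → ℕ, (∀ j, c j = 1 ∨ c j = p j 0 ∨ c j = p j 1) ∧ m = ∏ j, c j} := by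
  classical
  let e : Fin (2 ^ s) ≃ (Fin s → Fin 2) := finFunctionFinEquiv.symm
  have hne : ∀ j i, p j i ≠ p j (i + 1) := by
    intro j i h
    have h1 := (hinj _ _ _ _ h).2
    revert h1
    generalize i = i'
    fin_cases i' <;> simp
  have hex : ∀ (j : Fin s) (i : Fin 2), ∃ (F : Type) (_ : Group F) (_ : Fintype F),
      IsFrob F (p j i) (p j (i + 1)) ∧ ∃ d, 1 ≤ d ∧ Nat.card F = (p j i) ^ d * (p j (i + 1)) ∧
        (d = 1 → p j (i + 1) < p j i) := by
    intro j i
    haveI := Fact.mk (hp j i)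
    haveI := Fact.mk (hp j (i + 1))
    exact exists_frob (hne j i)
  choose F instG instF hFrob d hd1 hcard hlt using hex
  letI : ∀ j i, Group (F j i) := instG
  letI : ∀ j i, Fintype (F j i) := instF
  have hcoprow : ∀ j j' i i', j ≠ j' → Nat.Coprime (p j i) (p j' i') := by
    intro j j' i i' hjj
    rw [Nat.coprime_primes (hp _ _) (hp _ _)]
    intro h
    exact hjj (hinj _ _ _ _ h).1
  have hH : ∀ a : Fin (2 ^ s), Hyp (fun j => p j (e a j)) (fun j => p j (e a j + 1))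
      (fun j => F j (e a j)) := by
    intro a
    refine ⟨fun j => hFrob _ _, fun j => hp _ _, fun j => hp _ _, fun j => hne _ _, ?_⟩
    intro i j hij
    apply Nat.Coprime.mul_left <;> apply Nat.Coprime.mul_right <;> exact hcoprow _ _ _ _ hij
  have hSpec : ∀ a : Fin (2 ^ s), Spec (fun j => p j (e a j)) (fun j => p j (e a j + 1)) =
      {m : ℕ | ∃ c : Fin s → ℕ, (∀ j, c j = 1 ∨ c j = p j 0 ∨ c j = p j 1) ∧ m = ∏ j, c j} := by
    intro a
    have h1 : ∀ (j : Fin s) (c : ℕ), (c = 1 ∨ c = p j (e a j) ∨ c = p j (e a j + 1)) ↔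
        (c = 1 ∨ c = p j 0 ∨ c = p j 1) := by
      intro j c
      generalize e a j = i
      fin_cases i
      · simp
      · simp only [Fin.mk_one, Fin.isValue]
        have : (1 : Fin 2) + 1 = 0 := rfl
        rw [this]
        tauto
    ext m
    simp only [Spec, Set.mem_setOf_eq, h1]
  refine ⟨fun a => ∀ j, F j (e a j), fun a => inferInstance, fun a => inferInstance, ?_, ?_⟩
  · -- pairwise non-isomorphic
    rintro a b hab ⟨φ⟩
    have hcard2 : Nat.card (∀ j, F j (e a j)) = Nat.card (∀ j, F j (e b j)) :=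
      Nat.card_congr φ.toEquiv
    rw [Nat.card_pi, Nat.card_pi] at hcard2
    have hex2 : ∃ j, e a j ≠ e b j := by
      by_contra hall
      push Not at hall
      exact hab (e.injective (funext hall))
    obtain ⟨j, hj⟩ := hex2
    have heb : e b j = e a j + 1 := by
      revert hj
      generalize e a j = i
      generalize e b j = i'
      revert i i'
      decide
    have hea : e b j + 1 = e a j := by
      rw [heb]
      generalize e a j = i
      revert i
      decide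
    rw [← Finset.mul_prod_erase univ _ (mem_univ j), ← Finset.mul_prod_erase univ _ (mem_univ j),
      hcard, hcard, hea, heb] at hcard2
    have hcopE : ∀ (c : Fin s → Fin 2) (k : Fin 2),
        Nat.Coprime (∏ x ∈ univ.erase j, Nat.card (F x (c x))) (p j k) := by
      intro c k
      apply Nat.Coprime.prod_left
      intro x hx
      have hxj : x ≠ j := Finset.ne_of_mem_erase hx
      rw [hcard]
      apply Nat.Coprime.mul_left
      · exact Nat.Coprime.pow_left _ (hcoprow _ _ _ _ hxj)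
      · exact hcoprow _ _ _ _ hxj
    have h1 := cancel1 _ _ _ _ _ _ (hp j (e a j)) (hp j (e a j + 1)) (hne _ _) (hcopE _ _) hcard2
    have h2 := cancel1 _ _ _ _ _ _ (hp j (e a j + 1)) (hp j (e a j)) (hne _ _).symm (hcopE _ _) hcard2.symm
    have h3 := hd1 j (e a j)
    have h4 := hd1 j (e a j + 1)
    have h5 := hlt j (e a j) (by omega)
    have h6 := hlt j (e a j + 1) (by omega)
    rw [← heb, hea] at h6
    rw [← heb] at h5
    omega
  · intro a
    refine ⟨(range_pi (hH a)).trans (hSpec a), ?_⟩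
    intro H N hN hor heq
    obtain ⟨h1, h2⟩ := critical (hH a) H N (heq.trans (hSpec a).symm)
    rcases hor with h3 | h3
    · exact h3 h1
    · exact h3 h2

end Cfsg.Agent.S3599
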