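import Mathlib
import Cfsg.Statements.S3627
import Cfsg.Agent.Lib.J1Spec

set_option autoImplicit false
open Cfsg

namespace Cfsg.Agent.S3627

open Cfsg.Agent.Lib.J1Spec DihedralGroup

/-- the spectrum of `J₁` -/
def S : Finset ℕ := {1, 2, 3, 5, 6, 7, 10, 11, 15, 19}

/-- the set of proper divisors of `43890 = 2 * 3 * 5 * 7 * 11 * 19` -/
def D : Finset ℕ :=
  {1, 2, 3, 5, 6, 7, 10, 11, 14, 15, 19, 21, 22, 30, 33, 35, 38, 42, 55, 57, 66, 70, 77, 95, 105, 110, 114, 133, 154, 165, 190, 209, 210, 231, 266, 285, 330, 385, 399, 418, 462, 570, 627, 665, 770, 798, 1045, 1155, 1254, 1330, 1463, 1995, 2090, 2310, 2926, 3135, 3990, 4389, 6270, 7315, 8778, 14630, 21945}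

/-- whether an element of `DihedralGroup 3` is a reflection -/
def isRefl : DihedralGroup 3 → Bool
  | r _ => false
  | sr _ => true

theorem isRefl_mul (x y : DihedralGroup 3) : isRefl (x * y) = xor (isRefl x) (isRefl y) := by
  cases x <;> cases y <;> rfl

theorem isRefl_one : isRefl 1 = false := rfl

theorem isRefl_inv (x : DihedralGroup 3) : isRefl x⁻¹ = isRefl x := by
  cases x <;> rfl

/-- The subgroup of `D₃ᵏ` of the elements all of whose coordinates are of the same type. -/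
def B (k : ℕ) : Subgroup (Fin k → DihedralGroup 3) where
  carrier := {f | ∀ i j, isRefl (f i) = isRefl (f j)}
  mul_mem' := by
    intro a b ha hb i j
    simp only [Pi.mul_apply, isRefl_mul]
    rw [ha i j, hb i j]
  one_mem' := by
    intro i j
    rfl
  inv_mem' := by
    intro a ha i j
    simp only [Pi.inv_apply, isRefl_inv]
    exact ha i j

theorem pow_three_rot (x : DihedralGroup 3) (h : isRefl x = false) : x ^ 3 = 1 := by
  cases x with
  | r a =>
    rw [r_pow]
    revert a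
    decide
  | sr a => simp [isRefl] at h

theorem pow_two_refl (x : DihedralGroup 3) (h : isRefl x = true) : x ^ 2 = 1 := by
  cases x with
  | r a => simp [isRefl] at h
  | sr a => exact (sq _).trans (sr_mul_self a)

theorem orderOf_B {k : ℕ} (x : B k) : orderOf x ∈ ({1, 2, 3} : Finset ℕ) := by
  by_cases h : ∀ i, isRefl (x.1 i) = false
  · have : x ^ 3 = 1 := by
      apply Subtype.ext
      funext i
      exact pow_three_rot _ (h i)
    have h2 : orderOf x ∈ Nat.divisors 3 :=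
      Nat.mem_divisors.mpr ⟨orderOf_dvd_of_pow_eq_one this, by norm_num⟩
    revert h2
    generalize orderOf x = m
    revert m
    decide
  · simp only [not_forall] at h
    obtain ⟨i₀, hi₀⟩ := h
    have hi₁ : isRefl (x.1 i₀) = true := by simpa using hi₀
    have : x ^ 2 = 1 := by
      apply Subtype.ext
      funext i
      exact pow_two_refl _ ((x.2 i i₀).trans hi₁)
    have h2 : orderOf x ∈ Nat.divisors 2 :=
      Nat.mem_divisors.mpr ⟨orderOf_dvd_of_pow_eq_one this, by norm_num⟩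
    revert h2
    generalize orderOf x = m
    revert m
    decide

/-- element of order `3` -/
def rotElt (k : ℕ) : B k := ⟨fun _ => r 1, fun _ _ => rfl⟩

/-- element of order `2` -/
def reflElt (k : ℕ) : B k := ⟨fun _ => sr 0, fun _ _ => rfl⟩

theorem r_one_ne : (r 1 : DihedralGroup 3) ≠ 1 := by decide

theorem orderOf_rotElt (k : ℕ) : orderOf (rotElt (k + 1)) = 3 := by
  have : Fact (Nat.Prime 3) := ⟨by norm_num⟩
  apply orderOf_eq_prime
  · apply Subtype.ext
    funext i
    exact pow_three_rot _ rfl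
  · intro h
    exact r_one_ne (congrFun (congrArg Subtype.val h) 0)

theorem orderOf_reflElt (k : ℕ) : orderOf (reflElt (k + 1)) = 2 := by
  have : Fact (Nat.Prime 2) := ⟨by norm_num⟩
  apply orderOf_eq_prime
  · apply Subtype.ext
    funext i
    exact pow_two_refl _ rfl
  · intro h
    have : (sr 0 : DihedralGroup 3) = 1 := congrFun (congrArg Subtype.val h) 0
    exact absurd this (by decide)

theorem orderOf_dih (p : ℕ) (hp : p.Prime) (x : DihedralGroup p) : orderOf x ∈ ({1, 2, p} : Finset ℕ) := by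
  simp only [Finset.mem_insert, Finset.mem_singleton]
  cases x with
  | r a =>
    have : Fact p.Prime := ⟨hp⟩
    have h : (r a : DihedralGroup p) ^ p = 1 := by
      rw [r_pow]
      simp
    rcases (Nat.dvd_prime hp).mp (orderOf_dvd_of_pow_eq_one h) with h | h
    · exact Or.inl h
    · exact Or.inr (Or.inr h)
  | sr a => exact Or.inr (Or.inl (orderOf_sr a))

theorem exists_dih (p : ℕ) (hp : p.Prime) (n : ℕ) (hn : n ∈ ({1, 2, p} : Finset ℕ)) :
    ∃ x : DihedralGroup p, orderOf x = n := by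
  simp only [Finset.mem_insert, Finset.mem_singleton] at hn
  rcases hn with rfl | rfl | rfl
  · exact ⟨1, orderOf_one⟩
  · exact ⟨sr 0, orderOf_sr 0⟩
  · have : Fact n.Prime := ⟨hp⟩
    exact ⟨r 1, orderOf_r_one⟩

theorem exists_B (k n : ℕ) (hn : n ∈ ({1, 2, 3} : Finset ℕ)) : ∃ x : B (k + 1), orderOf x = n := by
  simp only [Finset.mem_insert, Finset.mem_singleton] at hn
  rcases hn with rfl | rfl | rfl
  · exact ⟨1, orderOf_one⟩
  · exact ⟨_, orderOf_reflElt k⟩
  · exact ⟨_, orderOf_rotElt k⟩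

/-- The groups of the statement. -/
abbrev H (k : ℕ) : Type :=
  B (k + 1) × DihedralGroup 5 × DihedralGroup 7 × DihedralGroup 11 × DihedralGroup 19

theorem check1 : ∀ a ∈ ({1, 2, 3} : Finset ℕ), ∀ b ∈ ({1, 2, 5} : Finset ℕ), ∀ c ∈ ({1, 2, 7} : Finset ℕ),
    ∀ d ∈ ({1, 2, 11} : Finset ℕ), ∀ e ∈ ({1, 2, 19} : Finset ℕ),
      Nat.lcm a (Nat.lcm b (Nat.lcm c (Nat.lcm d e))) ∈ D := by decide +kernel

theorem check2 : ∀ n ∈ D, ∃ a ∈ ({1, 2, 3} : Finset ℕ), ∃ b ∈ ({1, 2, 5} : Finset ℕ),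
    ∃ c ∈ ({1, 2, 7} : Finset ℕ), ∃ d ∈ ({1, 2, 11} : Finset ℕ), ∃ e ∈ ({1, 2, 19} : Finset ℕ),
      Nat.lcm a (Nat.lcm b (Nat.lcm c (Nat.lcm d e))) = n := by decide +kernel

theorem check3 : ∀ a ∈ S, ∀ b ∈ S, ∀ c ∈ S, ∀ d ∈ S, Nat.lcm a (Nat.lcm b (Nat.lcm c d)) ∈ D := by
  decide +kernel

theorem check4 : ∀ n ∈ D, ∃ a ∈ S, ∃ b ∈ S, ∃ c ∈ S, ∃ d ∈ S, Nat.lcm a (Nat.lcm b (Nat.lcm c d)) = n := by
  decide +kernel

theorem range_H (k : ℕ) : Set.range (orderOf : H k → ℕ) = ↑D := by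
  ext n
  constructor
  · rintro ⟨⟨a, b, c, d, e⟩, rfl⟩
    simp only [Prod.orderOf_mk]
    exact check1 _ (orderOf_B a) _ (orderOf_dih 5 (by norm_num) b) _ (orderOf_dih 7 (by norm_num) c) _
      (orderOf_dih 11 (by norm_num) d) _ (orderOf_dih 19 (by norm_num) e)
  · intro hn
    obtain ⟨a, ha, b, hb, c, hc, d, hd, e, he, rfl⟩ := check2 n hn
    obtain ⟨a', rfl⟩ := exists_B k a ha
    obtain ⟨b', rfl⟩ := exists_dih 5 (by norm_num) b hb
    obtain ⟨c', rfl⟩ := exists_dih 7 (by norm_num) c hc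
    obtain ⟨d', rfl⟩ := exists_dih 11 (by norm_num) d hd
    obtain ⟨e', rfl⟩ := exists_dih 19 (by norm_num) e he
    exact ⟨(a', b', c', d', e'), by simp only [Prod.orderOf_mk]⟩

theorem range_J1 : Set.range
    (orderOf : ↥Cfsg.Spor.J1 × ↥Cfsg.Spor.J1 × ↥Cfsg.Spor.J1 × ↥Cfsg.Spor.J1 → ℕ) = ↑D := by
  have hS : ∀ x : Cfsg.Spor.J1, orderOf x ∈ S := fun x => by
    have : orderOf x ∈ Set.range (orderOf : Cfsg.Spor.J1 → ℕ) := ⟨x, rfl⟩
    rw [range_orderOf_J1] at this
    exact this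
  ext n
  constructor
  · rintro ⟨⟨a, b, c, d⟩, rfl⟩
    simp only [Prod.orderOf_mk]
    exact check3 _ (hS a) _ (hS b) _ (hS c) _ (hS d)
  · intro hn
    obtain ⟨a, ha, b, hb, c, hc, d, hd, rfl⟩ := check4 n hn
    obtain ⟨a', rfl⟩ := exists_orderOf_eq a ha
    obtain ⟨b', rfl⟩ := exists_orderOf_eq b hb
    obtain ⟨c', rfl⟩ := exists_orderOf_eq c hc
    obtain ⟨d', rfl⟩ := exists_orderOf_eq d hd
    exact ⟨(a', b', c', d'), by simp only [Prod.orderOf_mk]⟩

/-- the rotations give many elements -/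
def rotInj (k : ℕ) : (Fin (k + 1) → ZMod 3) → H k :=
  fun f => (⟨fun i => r (f i), fun _ _ => rfl⟩, 1, 1, 1, 1)

theorem rotInj_injective (k : ℕ) : Function.Injective (rotInj k) := by
  intro f g h
  have h1 := congrArg (fun x : H k => x.1.1) h
  funext i
  have h2 := congrFun h1 i
  simpa [rotInj] using h2

/-- Let J be the first Janko group. Then there are finite groups of arbitrarily large order with exactly the same set of element orders as J × J × J × J. -/
theorem result (N : ℕ) : ∃ (H : Type) (_ : Group H) (_ : Fintype H), N < Fintype.card H ∧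
      Set.range (orderOf : H → ℕ) = Set.range (orderOf : ↥Cfsg.Spor.J1 × ↥Cfsg.Spor.J1 × ↥Cfsg.Spor.J1 × ↥Cfsg.Spor.J1 → ℕ) := by
  classical
  have : Fintype (Cfsg.Agent.S3627.H N) := Fintype.ofFinite _
  refine ⟨Cfsg.Agent.S3627.H N, inferInstance, inferInstance, ?_, ?_⟩
  · have h := Fintype.card_le_of_injective _ (rotInj_injective N)
    have h3 : Fintype.card (Fin (N + 1) → ZMod 3) = 3 ^ (N + 1) := by
      simp [ZMod.card]
    rw [h3] at h
    exact lt_of_lt_of_le (lt_trans (Nat.lt_succ_self N) (Nat.lt_pow_self (by norm_num))) h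
  · rw [range_H, range_J1]

end Cfsg.Agent.S3627
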