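import Cfsg.Statements.S3633
import Cfsg.Agent.Lib.ThreePrimes

set_option autoImplicit false
open Cfsg

namespace Cfsg.Agent.S3633

open Cfsg.Agent.Lib.ThreePrimes

/-- Let G be a finite group and ρ a set of at least three prime divisors of the order of G that are pairwise non-adjacent in the prime graph (no element of order rs for distinct r, s ∈ ρ). Then at most one prime of ρ divides the order of any given solvable normal subgroup of G; in particular G is not solvable. -/
theorem result {G : Type*} [Group G] [Finite G] (ρ : Finset ℕ) (hρ : 3 ≤ ρ.card) (hc : ((∀ r ∈ ρ, r.Prime ∧ r ∣ Nat.card G) ∧ (∀ r ∈ ρ, ∀ s ∈ ρ, r ≠ s → ¬ ∃ x : G, orderOf x = r * s)))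
    (K : Subgroup G) [K.Normal] (hK : Group.IsSolvable ↥K) :
    (∀ r ∈ ρ, ∀ s ∈ ρ, r ∣ Nat.card ↥K → s ∣ Nat.card ↥K → r = s) ∧ ¬ Group.IsSolvable G := by
  classical
  obtain ⟨hc1, hc2⟩ := hc
  have key : ∀ (L : Subgroup G), Group.IsSolvable L → ∀ p ∈ ρ, ∀ q ∈ ρ, ∀ r ∈ ρ,
      p ≠ q → p ≠ r → q ≠ r → p ∣ Nat.card L → q ∣ Nat.card L → r ∣ Nat.card L → False := by
    intro L hL p hp q hq r hr hpq hpr hqr h1 h2 h3
    rcases exists_edge_of_solvable_subgroup (hc1 p hp).1 (hc1 q hq).1 (hc1 r hr).1 hpq hpr hqr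
      L hL h1 h2 h3 with h | h | h
    · exact hc2 p hp q hq hpq h
    · exact hc2 p hp r hr hpr h
    · exact hc2 q hq r hr hqr h
  constructor
  · intro r hr s hs hrK hsK
    by_contra hrs
    -- a third prime
    obtain ⟨t, ht, htrs⟩ : ∃ t ∈ ρ, t ∉ ({r, s} : Finset ℕ) := by
      by_contra hcon
      push Not at hcon
      have h1 : ρ.card ≤ ({r, s} : Finset ℕ).card := Finset.card_le_card hcon
      have h2 : ({r, s} : Finset ℕ).card ≤ 2 := Finset.card_le_two
      omega
    simp only [Finset.mem_insert, Finset.mem_singleton, not_or] at htrs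
    obtain ⟨htr, hts⟩ := htrs
    have : Fact t.Prime := ⟨(hc1 t ht).1⟩
    obtain ⟨y, hy⟩ := exists_prime_orderOf_dvd_card' t (hc1 t ht).2
    let L : Subgroup G := Subgroup.zpowers y ⊔ K
    have hL : Group.IsSolvable L := isSolvable_sup_of_le_normalizer K (Subgroup.zpowers y)
      Subgroup.le_normalizer_of_normal hK (isSolvable_zpowers y)
    refine key L hL r hr s hs t ht hrs (Ne.symm htr) (Ne.symm hts)
      (hrK.trans (Subgroup.card_dvd_of_le le_sup_right))
      (hsK.trans (Subgroup.card_dvd_of_le le_sup_right))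
      ?_
    have h : t ∣ Nat.card (Subgroup.zpowers y) := by
      rw [Nat.card_zpowers, hy]
    exact h.trans (Subgroup.card_dvd_of_le le_sup_left)
  · intro hG
    obtain ⟨p, hp, q, hq, r, hr, hpq, hpr, hqr⟩ := Finset.two_lt_card.mp (by omega : 2 < ρ.card)
    have hT : Group.IsSolvable (⊤ : Subgroup G) :=
      Group.isSolvable_of_isSolvable_injective (f := (⊤ : Subgroup G).subtype)
        (Subgroup.subtype_injective _)
    have hc : ∀ t ∈ ρ, t ∣ Nat.card (⊤ : Subgroup G) := by
      intro t ht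
      rw [Subgroup.card_top]
      exact (hc1 t ht).2
    exact key ⊤ hT p hp q hq r hr hpq hpr hqr (hc p hp) (hc q hq) (hc r hr)

end Cfsg.Agent.S3633
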