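import Cfsg.Statements.S3639
import Cfsg.Agent.Lib.SzFixedPoint
import Cfsg.Agent.Lib.PrimeGraphSL2

set_option autoImplicit false
set_option linter.style.haveILetI false
open Cfsg

namespace Cfsg.Agent.S3639

open Matrix Cfsg.Lie Cfsg.Agent.Lib.SzFixedPoint Cfsg.Agent.Lib.PrimeGraphExt
  Cfsg.Agent.Lib.PrimeGraphSL2

/-- Let S be the Suzuki group over the field with q = 2^(2m+1) ≥ 8 elements. Then there are finite groups of arbitrarily large order with the same prime graph as S. -/
theorem result {F : Type*} [Field F] [Fintype F] {m : ℕ} (hm : 1 ≤ m) (hF : Fintype.card F = 2 ^ (2 * m + 1)) (N : ℕ) :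
    ∃ (H : Type) (_ : Group H) (_ : Fintype H), N < Fintype.card H ∧ ((∀ r : ℕ, r.Prime → (r ∣ Nat.card ↥(Cfsg.Lie.Sz F (2 ^ (m + 1))) ↔ r ∣ Nat.card H)) ∧
      (∀ r s : ℕ, r.Prime → s.Prime → r ≠ s → ((∃ x : ↥(Cfsg.Lie.Sz F (2 ^ (m + 1))), orderOf x = r * s) ↔ (∃ y : H, orderOf y = r * s)))) := by
  classical
  -- characteristic two
  have h20 : (2 : F) = 0 := by
    have h := Nat.cast_card_eq_zero F
    rw [hF] at h
    push_cast at h
    exact pow_eq_zero_iff (by omega) |>.mp h
  haveI : CharP F 2 := CharTwo.of_one_ne_zero_of_two_eq_zero one_ne_zero h20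
  haveI : Fact (Nat.Prime 2) := ⟨Nat.prime_two⟩
  let θ : F →+* F := iterateFrobenius F 2 (m + 1)
  have hθ : ∀ x, θ x = x ^ (2 ^ (m + 1)) := fun x => iterateFrobenius_def 2 (m + 1) x
  let ψ : F →+* F := iterateFrobenius F 2 m
  have hψ : ∀ x : F, ψ (x ^ (2 ^ (m + 1))) = x := by
    intro x
    have h1 : ψ (x ^ (2 ^ (m + 1))) = (x ^ (2 ^ (m + 1))) ^ (2 ^ m) :=
      iterateFrobenius_def 2 m _
    rw [h1, ← pow_mul, ← pow_add, show m + 1 + m = 2 * m + 1 by omega, ← hF]
    exact FiniteField.pow_card x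
  let L := ↥(Cfsg.Lie.Sz F (2 ^ (m + 1)))
  let ρ : L →* Matrix (Fin 4) (Fin 4) F :=
    (Units.coeHom (Matrix (Fin 4) (Fin 4) F)).comp (Subgroup.subtype _)
  haveI : Nontrivial (Multiplicative (Fin 4 → F)) := inferInstanceAs (Nontrivial (Fin 4 → F))
  -- an involution
  have h2L : 2 ∣ Nat.card L := by
    let t : Matrix (Fin 4) (Fin 4) F := !![1, 0, 0, 0; 0, 1, 0, 0; 1, 0, 1, 0; 1, 1, 0, 1]
    have ht2 : t * t = 1 := by
      ext i j
      fin_cases i <;> fin_cases j <;>
        simp [t, Matrix.mul_apply, Fin.sum_univ_four, CharTwo.add_self_eq_zero]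
    let u : GL (Fin 4) F := ⟨t, t, ht2, ht2⟩
    have hu : u ∈ Sp4 F := by
      intro a b
      show altForm4 (t *ᵥ a) (t *ᵥ b) = altForm4 a b
      simp only [altForm4, t, Matrix.mulVec, dotProduct, Fin.sum_univ_four]
      simp
      linear_combination (a 0 * b 0 + a 0 * b 1 + a 1 * b 0) * h20
    have hstar : star4 (u : Matrix (Fin 4) (Fin 4) F) =
        (u : Matrix (Fin 4) (Fin 4) F).map (fun x => x ^ (2 ^ (m + 1))) := by
      show star4 t = t.map (fun x => x ^ (2 ^ (m + 1)))
      ext p r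
      fin_cases p <;> fin_cases r <;>
        simp [star4_apply, pairOf_0, pairOf_1, pairOf_2, pairOf_3, t]
      all_goals linear_combination -h20
    have hmem : u ∈ Cfsg.Lie.Sz F (2 ^ (m + 1)) := Subgroup.subset_closure ⟨hu, hstar⟩
    let x : L := ⟨u, hmem⟩
    have hx : orderOf x = 2 := by
      apply orderOf_eq_prime
      · apply Subtype.ext
        apply Units.ext
        show t ^ 2 = 1
        rw [pow_two, ht2]
      · intro h
        have h3 : (x : GL (Fin 4) F) = 1 := congrArg Subtype.val h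
        have h4 : t = 1 := congrArg Units.val h3
        have h5 := congrFun (congrFun h4 2) 0
        simp [t] at h5
    have := orderOf_dvd_natCard x
    rwa [hx] at this
  obtain ⟨H, iG, iF, hc, hS⟩ := exists_large_sameGraph (matAction ρ) Nat.prime_two h2L
    (by
      intro v
      rw [pow_two]
      show Multiplicative.ofAdd (Multiplicative.toAdd v + Multiplicative.toAdd v) =
        Multiplicative.ofAdd 0
      congr 1
      funext i
      exact CharTwo.add_self_eq_zero _)
    (by
      intro s hs hs2 g hg v hv hfix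
      exfalso
      have hmem := sz_mem θ hθ g.2
      have hodd : Odd s := hs.odd_of_ne_two hs2
      have hgs : (ρ g) ^ s = 1 := by
        rw [← map_pow, ← hg, pow_orderOf_eq_one, map_one]
      have h1 : ρ g = 1 := eq_one_of_fixed_vector hmem.1 ψ hψ hmem.2 hodd hgs
        (v := Multiplicative.toAdd v) hv hfix
      have h2 : g = 1 := by
        apply Subtype.ext
        apply Units.ext
        exact h1
      rw [h2, orderOf_one] at hg
      exact hs.one_lt.ne hg)
    N
  exact ⟨H, iG, iF, hc, hS.primes, hS.edges⟩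

end Cfsg.Agent.S3639
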