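import Mathlib
import Cfsg.Statements.S3669
import Cfsg.Agent.S0494
import Cfsg.Agent.Lib.McKayTools
import Cfsg.Agent.Lib.SmallGroups2

set_option autoImplicit false
set_option linter.all false
open Cfsg

namespace Cfsg.Agent.S3669

open Cfsg.Agent.Lib.CharKernel Cfsg.Agent.Lib.CharInd Cfsg.Agent.Lib.McKayTools
  Cfsg.Agent.Lib.SmallGroups2 Cfsg.Agent.Lib.CharBasic

theorem no_tuple : ∀ a ∈ ({1, 2, 3, 4, 6} : Finset ℕ), ∀ b ∈ ({1, 2, 3, 4, 6} : Finset ℕ),
    ∀ c ∈ ({1, 2, 3, 4, 6} : Finset ℕ), ∀ d ∈ ({1, 2, 3, 4, 6} : Finset ℕ),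
    ∀ e ∈ ({1, 2, 3, 4, 6} : Finset ℕ), a ^ 2 + b ^ 2 + c ^ 2 + d ^ 2 + e ^ 2 ≠ 60 := by
  decide +kernel

theorem card_classes : Fintype.card (ConjClasses (alternatingGroup (Fin 5))) = 5 := by
  decide +kernel

theorem five_mem : 5 ∈ degreePrimes (alternatingGroup (Fin 5)) := by
  classical
  refine ⟨by norm_num, ?_⟩
  by_contra hcon
  push Not at hcon
  have hcard : Nat.card (alternatingGroup (Fin 5)) = 60 := by
    rw [Nat.card_eq_fintype_card]
    decide +kernel
  have hk : Fintype.card (IrrCharacter (alternatingGroup (Fin 5))) = 5 := by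
    rw [← Nat.card_eq_fintype_card, card_irr_eq_card_conjClasses, Nat.card_eq_fintype_card]
    exact card_classes
  have hsum := sum_charDegree_sq (G := alternatingGroup (Fin 5))
  rw [hcard] at hsum
  have hmem : ∀ χ : IrrCharacter (alternatingGroup (Fin 5)),
      charDegree (χ : alternatingGroup (Fin 5) → ℂ) ∈ ({1, 2, 3, 4, 6} : Finset ℕ) := by
    intro χ
    have h1 : charDegree (χ : alternatingGroup (Fin 5) → ℂ) ∣ 60 := by
      rw [← hcard]
      exact charDegree_dvd_card χ.2
    have h2 : charDegree (χ : alternatingGroup (Fin 5) → ℂ) ^ 2 ≤ 60 := by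
      rw [← hsum]
      exact Finset.single_le_sum
        (f := fun χ : IrrCharacter (alternatingGroup (Fin 5)) =>
          charDegree (χ : alternatingGroup (Fin 5) → ℂ) ^ 2)
        (fun _ _ => Nat.zero_le _) (Finset.mem_univ χ)
    have h3 : ¬ 5 ∣ charDegree (χ : alternatingGroup (Fin 5) → ℂ) := hcon _ ⟨χ, rfl⟩
    generalize charDegree (χ : alternatingGroup (Fin 5) → ℂ) = d at h1 h2 h3
    have h4 : d ≤ 7 := by nlinarith
    interval_cases d <;> simp_all <;> omega
  let e := Fintype.equivFinOfCardEq hk
  have hsum' : ∑ i : Fin 5, charDegree ((e.symm i : IrrCharacter (alternatingGroup (Fin 5))) :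
      alternatingGroup (Fin 5) → ℂ) ^ 2 = 60 := by
    rw [← hsum]
    exact Fintype.sum_equiv e.symm _ _ (fun _ => rfl)
  rw [Fin.sum_univ_five] at hsum'
  exact no_tuple _ (hmem _) _ (hmem _) _ (hmem _) _ (hmem _) _ (hmem _) hsum'

variable {G : Type*} [Group G] [Finite G]

theorem small_comm (M : Subgroup G) (hM : Nat.card M ≤ 4) (x : G) (hx : x ^ 5 = 1)
    (hnorm : ∀ y ∈ M, x * y * x⁻¹ ∈ M) : ∀ y ∈ M, x * y = y * x := by
  intro y hy
  let f : M → M := fun z => ⟨x * z * x⁻¹, hnorm z z.2⟩
  have hfi : ∀ (n : ℕ) (z : M), ((f^[n] z : M) : G) = x ^ n * z * (x ^ n)⁻¹ := by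
    intro n
    induction n with
    | zero => intro z; simp
    | succ n ih =>
      intro z
      rw [Function.iterate_succ_apply', pow_succ']
      show x * ((f^[n] z : M) : G) * x⁻¹ = _
      rw [ih]
      group
  have hper : Function.IsPeriodicPt f 5 ⟨y, hy⟩ := by
    apply Subtype.ext
    rw [hfi, hx]
    simp
  have hd : Function.minimalPeriod f ⟨y, hy⟩ ∣ 5 := hper.minimalPeriod_dvd
  rcases (Nat.dvd_prime (by norm_num : Nat.Prime 5)).mp hd with h1 | h5
  · have hfix : Function.IsFixedPt f ⟨y, hy⟩ := Function.minimalPeriod_eq_one_iff_isFixedPt.mp h1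
    have h2 : x * y * x⁻¹ = y := congrArg Subtype.val hfix
    calc x * y = (x * y * x⁻¹) * x := by group
      _ = y * x := by rw [h2]
  · exfalso
    have hinj := Function.iterate_injOn_Iio_minimalPeriod (f := f) (x := (⟨y, hy⟩ : M))
    rw [h5] at hinj
    let g : Fin 5 → M := fun i => f^[i.1] ⟨y, hy⟩
    have hg : Function.Injective g := by
      intro i j hij
      apply Fin.ext
      exact hinj (Set.mem_Iio.mpr i.2) (Set.mem_Iio.mpr j.2) hij
    have := Nat.card_le_card_of_injective g hg
    simp at this
    omega

theorem mem_of_orderOf (N : Subgroup G) [N.Normal] (p : ℕ) [Fact p.Prime]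
    (hP : ∀ P : Sylow p G, Nat.card (P : Subgroup G) = p) (hd : p ∣ Nat.card N) :
    ∀ y : G, orderOf y = p → y ∈ N := by
  have hp : p.Prime := Fact.out
  obtain ⟨x, hx⟩ := exists_prime_orderOf_dvd_card' (G := N) p hd
  have hx' : orderOf (x : G) = p := by rw [Subgroup.orderOf_coe]; exact hx
  obtain ⟨Q, hQ⟩ := exists_sylow_mem_of_orderOf hx'
  have hx1 : (x : G) ≠ 1 := by
    intro h
    rw [h, orderOf_one] at hx'
    exact hp.one_lt.ne hx'
  have hle : (Q : Subgroup G) ≤ N := by
    rw [← zpowers_eq_of_mem_of_ne_one hp (hP Q) hQ hx1, Subgroup.zpowers_le]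
    exact x.2
  intro y hy
  obtain ⟨Q', hQ'⟩ := exists_sylow_mem_of_orderOf hy
  exact sylow_le_of_normal hle hQ'

theorem simple_of (h : Nat.card G = 60) (hn5 : Nat.card (Sylow 5 G) ≠ 1) : IsSimpleGroup G := by
  classical
  haveI : Fact (Nat.Prime 5) := ⟨by norm_num⟩
  haveI : Fact (Nat.Prime 3) := ⟨by norm_num⟩
  haveI : Fact (Nat.Prime 2) := ⟨by norm_num⟩
  have h5f : Nat.card G = 5 ^ 1 * 12 := by rw [h]; norm_num
  have h3f : Nat.card G = 3 ^ 1 * 20 := by rw [h]; norm_num
  have hP5 : ∀ P : Sylow 5 G, Nat.card (P : Subgroup G) = 5 := by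
    intro P
    simpa using sylow_card_of_card_eq h5f (by norm_num) P
  have hP3 : ∀ P : Sylow 3 G, Nat.card (P : Subgroup G) = 3 := by
    intro P
    simpa using sylow_card_of_card_eq h3f (by norm_num) P
  have hn5' : Nat.card (Sylow 5 G) = 6 := by
    have := card_sylow_mem_filter h5f (by norm_num) (by norm_num)
    have h2 : ((Nat.divisors 12).filter (fun n => n % 5 = 1 % 5)) = {1, 6} := by decide
    rw [h2] at this
    simp at this
    omega
  obtain ⟨P⟩ := (inferInstance : Nonempty (Sylow 5 G))
  have hNP : Nat.card (Subgroup.normalizer ((P : Subgroup G) : Set G)) = 10 := by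
    have := card_normalizer_mul_card_sylow P
    rw [hn5', h] at this
    omega
  have hP5pow : ∀ x ∈ (P : Subgroup G), x ^ 5 = 1 := by
    intro x hx
    have := pow_card_eq_one' (x := (⟨x, hx⟩ : (P : Subgroup G)))
    rw [hP5] at this
    exact congrArg Subtype.val this
  have hn3' : Nat.card (Sylow 3 G) = 10 := by
    have := card_sylow_mem_filter h3f (by norm_num) (by norm_num)
    have h2 : ((Nat.divisors 20).filter (fun n => n % 3 = 1 % 3)) = {1, 4, 10} := by decide
    rw [h2] at this
    simp only [Finset.mem_insert, Finset.mem_singleton] at this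
    rcases this with h1 | h1 | h1
    rotate_left 2
    · exact h1
    all_goals
      exfalso
      have hnd : ¬ 5 ∣ Nat.card (Sylow 3 G) := by rw [h1]; norm_num
      obtain ⟨T, hT⟩ := IsPGroup.nonempty_fixed_point_of_prime_not_dvd_card P.2 (Sylow 3 G) hnd
      have hTn : ∀ x ∈ (P : Subgroup G), ∀ y ∈ (T : Subgroup G), x * y * x⁻¹ ∈ (T : Subgroup G) := by
        intro x hx y hy
        have h3 : x ∈ Subgroup.normalizer ((T : Subgroup G) : Set G) :=
          Sylow.smul_eq_iff_mem_normalizer.mp (hT ⟨x, hx⟩)
        exact (Subgroup.mem_normalizer_iff.mp h3 y).mp hy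
      have hdv : 3 ∣ Nat.card (T : Subgroup G) := by rw [hP3]
      obtain ⟨y, hy⟩ := exists_prime_orderOf_dvd_card' (G := (T : Subgroup G)) 3 hdv
      have hc : ∀ x ∈ (P : Subgroup G), x * (y : G) = y * x := fun x hx =>
        small_comm (T : Subgroup G) (by rw [hP3]; norm_num) x (hP5pow x hx) (hTn x hx) y y.2
      have hyN : (y : G) ∈ Subgroup.normalizer ((P : Subgroup G) : Set G) := by
        rw [Subgroup.mem_normalizer_iff]
        intro n
        constructor
        · intro hn
          have : (y : G) * n * (y : G)⁻¹ = n := by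
            rw [← hc n hn]; group
          rwa [this]
        · intro hn
          have h4 := hc _ hn
          have h5 : n = (y : G) * n * (y : G)⁻¹ := by
            have h6 : (y : G)⁻¹ * (((y : G) * n * (y : G)⁻¹) * (y : G)) = n := by group
            rw [h4, inv_mul_cancel_left] at h6
            exact h6.symm
          rw [h5]; exact hn
      have h7 := Subgroup.orderOf_dvd_natCard _ hyN
      rw [hNP, Subgroup.orderOf_coe, hy] at h7
      norm_num at h7
  have hA3 : Nat.card {g : G // orderOf g = 3} = 20 := by
    rw [card_orderOf_eq_prime hP3, hn3']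
  have hA5 : Nat.card {g : G // orderOf g = 5} = 24 := by
    rw [card_orderOf_eq_prime hP5, hn5']
  haveI : Nontrivial G := by
    apply Finite.one_lt_card_iff_nontrivial.mp
    rw [h]; norm_num
  refine ⟨?_⟩
  intro N hN
  by_contra hcon
  push Not at hcon
  obtain ⟨hN1, hN2⟩ := hcon
  have hcdvd : Nat.card N ∣ 60 := by
    rw [← h]; exact Subgroup.card_subgroup_dvd_card N
  have hc1 : Nat.card N ≠ 1 := by
    intro h1
    exact hN1 (Subgroup.card_eq_one.mp h1 |> fun h => h)
  have hc60 : Nat.card N ≠ 60 := by
    intro h1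
    apply hN2
    apply Subgroup.eq_top_of_card_eq
    rw [h1, h]
  by_cases hd5 : 5 ∣ Nat.card N
  · have hA5N := mem_of_orderOf N 5 hP5 hd5
    have hle1 : 25 ≤ Nat.card N := by
      let f : Option {g : G // orderOf g = 5} → N := fun o =>
        match o with
        | none => 1
        | some g => ⟨g.1, hA5N g.1 g.2⟩
      have hf : Function.Injective f := by
        rintro (_ | a) (_ | b) hab
        · rfl
        · exfalso
          have h1 : (1 : G) = b.1 := congrArg Subtype.val hab
          have h2 := b.2
          rw [← h1, orderOf_one] at h2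
          omega
        · exfalso
          have h1 : a.1 = (1 : G) := congrArg Subtype.val hab
          have h2 := a.2
          rw [h1, orderOf_one] at h2
          omega
        · congr 1
          exact Subtype.ext (show a.1 = b.1 from congrArg (fun z : N => (z : G)) hab)
      have := Nat.card_le_card_of_injective f hf
      rw [Finite.card_option, hA5] at this
      simpa using this
    have hc30 : Nat.card N = 30 := by
      have : Nat.card N ≤ 60 := Nat.le_of_dvd (by norm_num) hcdvd
      obtain ⟨k, hk⟩ := hcdvd
      have hk1 : k ≠ 0 := by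
        rintro rfl; omega
      have hk2 : k ≤ 2 := by
        by_contra hk3
        have : 3 * 25 ≤ k * Nat.card N := Nat.mul_le_mul (by omega) hle1
        rw [mul_comm k] at this
        omega
      interval_cases k <;> omega
    have hidx : N.index = 2 := by
      have := Subgroup.card_mul_index N
      rw [hc30, h] at this
      omega
    have hA3N : ∀ y : G, orderOf y = 3 → y ∈ N := by
      intro y hy
      have h1 : (y ^ 2) ^ 2 ∈ N := Subgroup.sq_mem_of_index_two hidx _
      have h2 : y ^ 3 = 1 := by rw [← hy]; exact pow_orderOf_eq_one y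
      have h3 : (y ^ 2) ^ 2 = y := by
        calc (y ^ 2) ^ 2 = y ^ 3 * y := by group
          _ = y := by rw [h2, one_mul]
      rwa [h3] at h1
    let f : {g : G // orderOf g = 3} ⊕ {g : G // orderOf g = 5} → N := fun o =>
      match o with
      | Sum.inl g => ⟨g.1, hA3N g.1 g.2⟩
      | Sum.inr g => ⟨g.1, hA5N g.1 g.2⟩
    have hf : Function.Injective f := by
      rintro (a | a) (b | b) hab
      · congr 1
        exact Subtype.ext (show a.1 = b.1 from congrArg (fun z : N => (z : G)) hab)
      · exfalso
        have h1 : a.1 = b.1 := congrArg Subtype.val hab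
        have h2 := a.2
        rw [h1, b.2] at h2
        omega
      · exfalso
        have h1 : a.1 = b.1 := congrArg Subtype.val hab
        have h2 := a.2
        rw [h1, b.2] at h2
        omega
      · congr 1
        exact Subtype.ext (show a.1 = b.1 from congrArg (fun z : N => (z : G)) hab)
    have := Nat.card_le_card_of_injective f hf
    rw [Nat.card_sum, hA3, hA5, hc30] at this
    omega
  by_cases hd3 : 3 ∣ Nat.card N
  · have hA3N := mem_of_orderOf N 3 hP3 hd3
    have hd12 : Nat.card N ∣ 12 := by
      have hc : Nat.Coprime (Nat.card N) 5 := by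
        exact ((Nat.Prime.coprime_iff_not_dvd (by norm_num)).mpr hd5).symm
      exact hc.dvd_of_dvd_mul_left (by simpa using hcdvd)
    have hle : Nat.card N ≤ 12 := Nat.le_of_dvd (by norm_num) hd12
    let f : {g : G // orderOf g = 3} → N := fun g => ⟨g.1, hA3N g.1 g.2⟩
    have hf : Function.Injective f := by
      intro a b hab
      exact Subtype.ext (show a.1 = b.1 from congrArg (fun z : N => (z : G)) hab)
    have := Nat.card_le_card_of_injective f hf
    rw [hA3] at this
    omega
  -- the order of `N` divides `4`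
  have hd4 : Nat.card N ∣ 4 := by
    have hc : Nat.Coprime (Nat.card N) 15 := by
      have h1 := ((Nat.Prime.coprime_iff_not_dvd (by norm_num : Nat.Prime 5)).mpr hd5).symm
      have h2 := ((Nat.Prime.coprime_iff_not_dvd (by norm_num : Nat.Prime 3)).mpr hd3).symm
      have : (15 : ℕ) = 3 * 5 := by norm_num
      rw [this]
      exact Nat.Coprime.mul_right h2 h1
    exact hc.dvd_of_dvd_mul_left (by simpa using hcdvd)
  have hle4 : Nat.card N ≤ 4 := Nat.le_of_dvd (by norm_num) hd4
  have hd2 : 2 ∣ Nat.card N := by
    have h1 : Nat.card N ∈ Nat.divisors 4 := Nat.mem_divisors.mpr ⟨hd4, by norm_num⟩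
    have h2 : Nat.divisors 4 = {1, 2, 4} := by decide
    rw [h2] at h1
    simp only [Finset.mem_insert, Finset.mem_singleton] at h1
    rcases h1 with h1 | h1 | h1
    · exact absurd h1 hc1
    · omega
    · omega
  obtain ⟨t, ht⟩ := exists_prime_orderOf_dvd_card' (G := N) 2 hd2
  have ht' : orderOf (t : G) = 2 := by rw [Subgroup.orderOf_coe]; exact ht
  have htx : ∀ x : G, orderOf x = 5 → orderOf ((t : G) * x) = 10 := by
    intro x hx
    have hx5 : x ^ 5 = 1 := by rw [← hx]; exact pow_orderOf_eq_one x
    have hc := small_comm N hle4 x hx5 (fun y hy => hN.conj_mem y hy x) t t.2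
    have hcm : Commute (t : G) x := hc.symm
    rw [hcm.orderOf_mul_eq_mul_orderOf_of_coprime (by rw [ht', hx]; norm_num), ht', hx]
  let f : {g : G // orderOf g = 3} ⊕ ({g : G // orderOf g = 5} ⊕ {g : G // orderOf g = 5}) → G :=
    fun o =>
      match o with
      | Sum.inl g => g.1
      | Sum.inr (Sum.inl g) => g.1
      | Sum.inr (Sum.inr g) => (t : G) * g.1
  have hord : ∀ o, orderOf (f o) = (match o with
      | Sum.inl _ => 3
      | Sum.inr (Sum.inl _) => 5
      | Sum.inr (Sum.inr _) => 10) := by
    rintro (a | a | a)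
    · exact a.2
    · exact a.2
    · exact htx a.1 a.2
  have hf : Function.Injective f := by
    intro a b hab
    have h1 := hord a
    have h2 := hord b
    rw [hab, h2] at h1
    rcases a with a | a | a <;> rcases b with b | b | b <;> simp at h1
    · congr 1
      exact Subtype.ext hab
    · congr 2
      exact Subtype.ext hab
    · congr 2
      exact Subtype.ext (mul_left_cancel hab)
  have := Nat.card_le_card_of_injective f hf
  rw [Nat.card_sum, Nat.card_sum, hA3, hA5, h] at this
  omega

/-- The character degree graph of a finite group has as vertices the primes dividing some irreducible complex character degree, two distinct primes being joined when their product divides some irreducible character degree; two groups have the same character degree graph when they have the same vertices and the same joined pairs. A finite group of order 60 with the same character degree graph as the alternating group A₅ (whose character degrees are 1, 3, 4, 5, so the graph has vertices 2, 3, 5 and no edges) is isomorphic to A₅. -/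
theorem result {G : Type*} [Group G] [Finite G] (hcard : Nat.card G = 60)
    (hΓ : Cfsg.degreePrimes G = Cfsg.degreePrimes (alternatingGroup (Fin 5)) ∧ Cfsg.degreeGraph G = Cfsg.degreeGraph (alternatingGroup (Fin 5))) : Nonempty (G ≃* alternatingGroup (Fin 5)) := by
  classical
  haveI : Fact (Nat.Prime 5) := ⟨by norm_num⟩
  have h5 : 5 ∈ degreePrimes G := by rw [hΓ.1]; exact five_mem
  obtain ⟨-, d, ⟨χ, hχ⟩, hd⟩ := h5
  by_cases hn : Nat.card (Sylow 5 G) = 1
  · exfalso
    obtain ⟨P⟩ := (inferInstance : Nonempty (Sylow 5 G))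
    haveI : Subsingleton (Sylow 5 G) := (Nat.card_eq_one_iff_unique.mp hn).1
    haveI hPn : (P : Subgroup G).Normal := by
      apply Sylow.normal_of_subsingleton
    have h5f : Nat.card G = 5 ^ 1 * 12 := by rw [hcard]; norm_num
    have hc : Nat.card (P : Subgroup G) = 5 := by
      simpa using sylow_card_of_card_eq h5f (by norm_num) P
    have hidx : (P : Subgroup G).index = 12 := sylow_index_of_card_eq h5f (by norm_num) P
    have hcyc : IsCyclic (P : Subgroup G) := isCyclic_of_prime_card hc
    have hcomm : ∀ a b : (P : Subgroup G), a * b = b * a := by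
      intro a b
      haveI := hcyc
      exact (IsCyclic.commutative.is_comm.comm a b)
    have h1 := ito_dvd (P : Subgroup G) hcomm χ.2
    rw [hidx, hχ] at h1
    have := hd.trans h1
    norm_num at this
  · haveI := simple_of hcard hn
    exact Cfsg.Agent.S0494.result hcard

end Cfsg.Agent.S3669
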