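import Cfsg.Statements.S3670
import Cfsg.Agent.Lib.U33Deg
import Cfsg.Agent.Lib.Sol6048
import Cfsg.Agent.Lib.SUTransfer

set_option autoImplicit false
open Cfsg

namespace Cfsg.Agent.S3670

open Cfsg.Agent.Lib.CharBasic

theorem charDegrees_sub {A B : Type*} [Group A] [Group B] (f : A ≃* B) :
    charDegrees B ⊆ charDegrees A := by
  intro d hd
  obtain ⟨χ, rfl⟩ := hd
  refine ⟨⟨χ.1 ∘ f.toMonoidHom, isIrrCharacter_comp_of_surjective _ f.surjective χ.2⟩, ?_⟩
  simp [charDegree]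

theorem charDegrees_congr' {S T : Type*} [Group S] [Group T] (e : S ≃* T) :
    charDegrees S = charDegrees T :=
  Set.Subset.antisymm (charDegrees_sub e.symm) (charDegrees_sub e)

theorem degree_dvd {G : Type*} [Group G] [Finite G] [Fintype G] {d : ℕ} (hd : d ∈ charDegrees G) :
    d ∣ Nat.card G := by
  obtain ⟨χ, rfl⟩ := hd
  obtain ⟨k, ρ, hρ, hχ⟩ := χ.2
  have h1 : charDegree χ.1 = k := by
    unfold charDegree
    rw [← hχ, char_one_eq_rep ρ]
    simp
  rw [h1]
  have := Cfsg.Agent.Lib.CharIntegrality.finrank_dvd_card ρ hρ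
  rwa [Module.finrank_fin_fun] at this

theorem mem_S_of_dvd {p : ℕ} (hp : p.Prime) (h : p ∣ 6048) : p = 2 ∨ p = 3 ∨ p = 7 := by
  have e : (6048 : ℕ) = 2 ^ 5 * 3 ^ 3 * 7 := by norm_num
  rw [e] at h
  rcases (Nat.Prime.dvd_mul hp).1 h with h1 | h1
  · rcases (Nat.Prime.dvd_mul hp).1 h1 with h2 | h2
    · left
      exact (Nat.prime_dvd_prime_iff_eq hp (by norm_num)).1 (hp.dvd_of_dvd_pow h2)
    · right; left
      exact (Nat.prime_dvd_prime_iff_eq hp (by norm_num)).1 (hp.dvd_of_dvd_pow h2)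
  · right; right
    exact (Nat.prime_dvd_prime_iff_eq hp (by norm_num)).1 h1

section graph

variable {G : Type*} [Group G] (hdvd : ∀ d ∈ charDegrees G, d ∣ 6048)
  (h6 : ∃ d ∈ charDegrees G, 6 ∣ d) (h21 : ∃ d ∈ charDegrees G, 21 ∣ d)
  (h14 : ∃ d ∈ charDegrees G, 14 ∣ d)

include hdvd h6 h21 h14 in
theorem primes_eq : degreePrimes G = {2, 3, 7} := by
  obtain ⟨d6, m6, k6⟩ := h6
  obtain ⟨d21, m21, k21⟩ := h21
  obtain ⟨d14, m14, k14⟩ := h14
  ext p
  constructor
  · rintro ⟨hp, d, hd, hpd⟩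
    simpa using mem_S_of_dvd hp (hpd.trans (hdvd d hd))
  · intro h
    simp only [Set.mem_insert_iff, Set.mem_singleton_iff] at h
    rcases h with rfl | rfl | rfl
    · exact ⟨by norm_num, d6, m6, Dvd.dvd.trans (by norm_num) k6⟩
    · exact ⟨by norm_num, d6, m6, Dvd.dvd.trans (by norm_num) k6⟩
    · exact ⟨by norm_num, d21, m21, Dvd.dvd.trans (by norm_num) k21⟩

include hdvd h6 h21 h14 in
theorem adj_iff (p q : ℕ) : (degreeGraph G).Adj p q ↔
    p ≠ q ∧ (p = 2 ∨ p = 3 ∨ p = 7) ∧ (q = 2 ∨ q = 3 ∨ q = 7) := by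
  obtain ⟨d6, m6, k6⟩ := h6
  obtain ⟨d21, m21, k21⟩ := h21
  obtain ⟨d14, m14, k14⟩ := h14
  constructor
  · rintro ⟨hne, hp, hq, d, hd, hpq⟩
    have h := hpq.trans (hdvd d hd)
    exact ⟨hne, mem_S_of_dvd hp (Dvd.dvd.trans (Nat.dvd_mul_right p q) h),
      mem_S_of_dvd hq (Dvd.dvd.trans (Nat.dvd_mul_left q p) h)⟩
  · rintro ⟨hne, hp, hq⟩
    refine ⟨hne, ?_, ?_, ?_⟩
    · rcases hp with rfl | rfl | rfl <;> norm_num
    · rcases hq with rfl | rfl | rfl <;> norm_num
    · rcases hp with rfl | rfl | rfl <;> rcases hq with rfl | rfl | rfl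
      · exact absurd rfl hne
      · exact ⟨d6, m6, k6⟩
      · exact ⟨d14, m14, k14⟩
      · exact ⟨d6, m6, Dvd.dvd.trans (by norm_num) k6⟩
      · exact absurd rfl hne
      · exact ⟨d21, m21, k21⟩
      · exact ⟨d14, m14, Dvd.dvd.trans (by norm_num) k14⟩
      · exact ⟨d21, m21, Dvd.dvd.trans (by norm_num) k21⟩
      · exact absurd rfl hne

end graph

/-- The character degree graph of a finite group has as vertices the primes dividing some irreducible complex character degree, two distinct primes being joined when their product divides some irreducible character degree; two groups have the same character degree graph when they have the same vertices and the same joined pairs. Let F be the field with 9 elements and L = PSU(3,3) realised over F (order 6048). There is a finite solvable group of order 6048 with the same character degree graph as L; so L is not determined by its order together with its character degree graph. -/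
theorem result {F : Type*} [Field F] [Fintype F] (hF : Fintype.card F = 9) :
    ∃ (H : Type) (_ : Group H) (_ : Fintype H), Group.IsSolvable H ∧ Nat.card H = 6048 ∧ Cfsg.degreePrimes H = Cfsg.degreePrimes (Cfsg.PSU 3 F 3) ∧ Cfsg.degreeGraph H = Cfsg.degreeGraph (Cfsg.PSU 3 F 3) := by
  classical
  have hF' : Fintype.card F = 3 ^ 2 := by rw [hF]; norm_num
  have hcen : Subgroup.center (SU 3 F 3) = ⊥ := by
    apply Subgroup.eq_bot_of_card_eq
    rw [Cfsg.Agent.Lib.UnitarySU.card_center_SU' hF' 3 (by norm_num)]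
    norm_num
  let e1 : PSU 3 F 3 ≃* SU 3 F 3 :=
    (QuotientGroup.quotientMulEquivOfEq hcen).trans QuotientGroup.quotientBot
  let φ : F ≃+* Cfsg.Agent.Lib.F9K.K9 :=
    FiniteField.ringEquivOfCardEq (by rw [hF, Cfsg.Agent.Lib.F9K.K9.card_K9])
  let e2 : SU 3 F 3 ≃* SU 3 Cfsg.Agent.Lib.F9K.K9 3 := Cfsg.Agent.Lib.SUTransfer.suEquiv φ
  have hdeg : charDegrees (PSU 3 F 3) = charDegrees Cfsg.Agent.Lib.U33Group.L :=
    charDegrees_congr' (e1.trans e2)
  -- the `L` side
  obtain ⟨l6, l21, l14⟩ := Cfsg.Agent.Lib.U33Deg.exists_degrees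
  have ldvd : ∀ d ∈ charDegrees Cfsg.Agent.Lib.U33Group.L, d ∣ 6048 := by
    intro d hd
    have := degree_dvd hd
    rwa [Cfsg.Agent.Lib.U33Group.natCard_L] at this
  rw [← hdeg] at l6 l21 l14 ldvd
  -- the `H` side
  have hdvd : ∀ d ∈ charDegrees Cfsg.Agent.Lib.Sol6048.H6048, d ∣ 6048 := by
    intro d hd
    have := degree_dvd hd
    rwa [Cfsg.Agent.Lib.Sol6048.natCard_H] at this
  have h42 := Cfsg.Agent.Lib.Sol6048.degree_42
  have h6 : ∃ d ∈ charDegrees Cfsg.Agent.Lib.Sol6048.H6048, 6 ∣ d := ⟨42, h42, by norm_num⟩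
  have h21 : ∃ d ∈ charDegrees Cfsg.Agent.Lib.Sol6048.H6048, 21 ∣ d := ⟨42, h42, by norm_num⟩
  have h14 : ∃ d ∈ charDegrees Cfsg.Agent.Lib.Sol6048.H6048, 14 ∣ d := ⟨42, h42, by norm_num⟩
  refine ⟨Cfsg.Agent.Lib.Sol6048.H6048, inferInstance, inferInstance,
    Cfsg.Agent.Lib.Sol6048.solvable_H, Cfsg.Agent.Lib.Sol6048.natCard_H, ?_, ?_⟩
  · rw [primes_eq hdvd h6 h21 h14, primes_eq ldvd l6 l21 l14]
  · ext p q
    rw [adj_iff hdvd h6 h21 h14, adj_iff ldvd l6 l21 l14]

end Cfsg.Agent.S3670
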