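import Cfsg.Statements.S3678
import Cfsg.Agent.Lib.PrimeGraphSL2

set_option autoImplicit false
set_option linter.style.haveILetI false
set_option linter.unusedSectionVars false
open Cfsg

namespace Cfsg.Agent.S3678

open Matrix Cfsg.Agent.Lib.PrimeGraphExt Cfsg.Agent.Lib.PrimeGraphSL2
open scoped MatrixGroups

section Cheb

variable {F : Type*} [Field F]

/-- Coefficients of the powers of a matrix of determinant one in terms of the matrix and `1`. -/
def cheb (t : F) : ℕ → F × F
  | 0 => (0, 1)
  | n + 1 => ((cheb t n).1 * t + (cheb t n).2, -(cheb t n).1)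

lemma sq_form (g : SL(2, F)) :
    (g.1 * g.1) = ((g.1 0 0 + g.1 1 1) • g.1 - 1 : Matrix (Fin 2) (Fin 2) F) := by
  have hdet := g.2
  rw [Matrix.det_fin_two] at hdet
  ext i j
  fin_cases i <;> fin_cases j <;>
    simp only [Matrix.mul_apply, Fin.sum_univ_two, Fin.zero_eta, Fin.mk_one, Fin.isValue,
      Matrix.sub_apply, Matrix.smul_apply, smul_eq_mul, Matrix.one_apply_eq,
      Matrix.one_apply_ne, ne_eq, one_ne_zero, zero_ne_one, not_false_eq_true]
  · linear_combination -hdet
  · ring
  · ring
  · linear_combination -hdet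

lemma pow_form (g : SL(2, F)) (n : ℕ) :
    (g ^ n).1 = (cheb (g.1 0 0 + g.1 1 1) n).1 • g.1 + (cheb (g.1 0 0 + g.1 1 1) n).2 • 1 := by
  induction n with
  | zero =>
    simp [cheb]
  | succ n ih =>
    have h1 : (g ^ (n + 1)).1 = (g ^ n).1 * g.1 := by
      rw [pow_succ]; rfl
    rw [h1, ih, add_mul, smul_mul_assoc, smul_mul_assoc, one_mul, sq_form g]
    simp only [cheb]
    module

end Cheb

section F8

variable {E : Type*} [Field E]

lemma f8_pow_one (g : SL(2, E)) {n : ℕ}
    (h1 : (cheb (g.1 0 0 + g.1 1 1) n).1 = 0) (h2 : (cheb (g.1 0 0 + g.1 1 1) n).2 = 1) :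
    g ^ n = 1 := by
  apply Subtype.ext
  rw [pow_form, h1, h2]
  simp

variable [Fintype E] [CharP E 2]

lemma f8_orders (hE : Fintype.card E = 8) (g : SL(2, E)) : g ^ 2 = 1 ∨ g ^ 7 = 1 ∨ g ^ 9 = 1 := by
  have h2 : (2 : E) = 0 := CharTwo.two_eq_zero
  set t := g.1 0 0 + g.1 1 1 with ht
  by_cases ht0 : t = 0
  · left
    apply f8_pow_one
    · simp only [cheb]; rw [← ht, ht0]; ring
    · simp only [cheb]; rw [← ht, ht0]
      linear_combination -h2
  have ht7 : t ^ 7 = 1 := by
    have := FiniteField.pow_card_sub_one_eq_one t ht0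
    rwa [hE] at this
  have hprod : ((t + 1) * (t ^ 3 + t + 1)) * (t ^ 3 + t ^ 2 + 1) = 0 := by
    linear_combination ht7 + (t ^ 6 + t ^ 5 + 2 * t ^ 4 + 2 * t ^ 3 + t ^ 2 + t + 1) * h2
  rcases mul_eq_zero.mp hprod with hr | hq
  · right; right
    apply f8_pow_one
    · simp only [cheb]; rw [← ht]
      linear_combination t * ht7 + (t ^ 2 + t + 1) * hr +
        (-4 * t ^ 6 - t ^ 5 + 6 * t ^ 4 - 2 * t ^ 3 - 7 * t ^ 2 - t) * h2
    · simp only [cheb]; rw [← ht]
      linear_combination -ht7 + (3 * t ^ 5 - 5 * t ^ 3 + 2 * t - 1) * h2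
  · right; left
    apply f8_pow_one
    · simp only [cheb]; rw [← ht]
      linear_combination (t ^ 3 + t ^ 2 + 1) * hq + (-t ^ 5 - 3 * t ^ 4 - t ^ 3 + 2 * t ^ 2 - 1) * h2
    · simp only [cheb]; rw [← ht]
      linear_combination (-t ^ 2 + t + 3) * hq + (-t ^ 2 - 2 * t - 2) * h2

end F8

section Graph

/-- The prime graph on `{2, 3, 7}` with no edges. -/
structure Graph237 (A : Type*) [Group A] : Prop where
  primes : ∀ r : ℕ, r.Prime → (r ∣ Nat.card A ↔ r = 2 ∨ r = 3 ∨ r = 7)
  edges : ∀ r s : ℕ, r.Prime → s.Prime → r ≠ s → ¬ ∃ x : A, orderOf x = r * s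

theorem Graph237.same {A : Type*} [Group A] {B : Type*} [Group B] (hA : Graph237 A)
    (hB : Graph237 B) : SameGraph A B := by
  refine ⟨fun r hr => (hA.primes r hr).trans (hB.primes r hr).symm, fun r s hr hs hrs => ?_⟩
  exact ⟨fun h => absurd h (hA.edges r s hr hs hrs), fun h => absurd h (hB.edges r s hr hs hrs)⟩

private lemma prime_eq_of_dvd_pow {r q k : ℕ} (hr : r.Prime) (hq : q.Prime) (h : r ∣ q ^ k) :
    r = q :=
  (Nat.prime_dvd_prime_iff_eq hr hq).mp (hr.dvd_of_dvd_pow h)

theorem graph237_of {A : Type*} [Group A] [Finite A]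
    (hord : ∀ x : A, x ^ 4 = 1 ∨ x ^ 9 = 1 ∨ x ^ 7 = 1)
    (e2 : ∃ x : A, orderOf x = 2) (e3 : ∃ x : A, orderOf x = 3) (e7 : ∃ x : A, orderOf x = 7) :
    Graph237 A := by
  have h2 : Nat.Prime 2 := Nat.prime_two
  have h3 : Nat.Prime 3 := Nat.prime_three
  have h7 : Nat.Prime 7 := by norm_num
  have h4' : (4 : ℕ) = 2 ^ 2 := by norm_num
  have h9' : (9 : ℕ) = 3 ^ 2 := by norm_num
  have h7' : (7 : ℕ) = 7 ^ 1 := by norm_num
  have hcases : ∀ (x : A) (t : ℕ), t.Prime → t ∣ orderOf x → t = 2 ∨ t = 3 ∨ t = 7 := by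
    intro x t ht htx
    rcases hord x with h | h | h
    · left
      have := htx.trans (orderOf_dvd_of_pow_eq_one h)
      rw [h4'] at this
      exact prime_eq_of_dvd_pow ht h2 this
    · right; left
      have := htx.trans (orderOf_dvd_of_pow_eq_one h)
      rw [h9'] at this
      exact prime_eq_of_dvd_pow ht h3 this
    · right; right
      have := htx.trans (orderOf_dvd_of_pow_eq_one h)
      rw [h7'] at this
      exact prime_eq_of_dvd_pow ht h7 this
  constructor
  · intro r hr
    constructor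
    · intro h
      haveI : Fact r.Prime := ⟨hr⟩
      obtain ⟨x, hx⟩ := exists_prime_orderOf_dvd_card' r h
      exact hcases x r hr (by rw [hx])
    · rintro (rfl | rfl | rfl)
      · obtain ⟨x, hx⟩ := e2
        rw [← hx]; exact orderOf_dvd_natCard x
      · obtain ⟨x, hx⟩ := e3
        rw [← hx]; exact orderOf_dvd_natCard x
      · obtain ⟨x, hx⟩ := e7
        rw [← hx]; exact orderOf_dvd_natCard x
  · rintro r s hr hs hrs ⟨x, hx⟩
    have hrd : r ∣ orderOf x := by rw [hx]; exact dvd_mul_right r s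
    have hsd : s ∣ orderOf x := by rw [hx]; exact dvd_mul_left s r
    rcases hord x with h | h | h
    · have h1 := hrd.trans (orderOf_dvd_of_pow_eq_one h)
      have h2' := hsd.trans (orderOf_dvd_of_pow_eq_one h)
      rw [h4'] at h1 h2'
      exact hrs ((prime_eq_of_dvd_pow hr h2 h1).trans (prime_eq_of_dvd_pow hs h2 h2').symm)
    · have h1 := hrd.trans (orderOf_dvd_of_pow_eq_one h)
      have h2' := hsd.trans (orderOf_dvd_of_pow_eq_one h)
      rw [h9'] at h1 h2'
      exact hrs ((prime_eq_of_dvd_pow hr h3 h1).trans (prime_eq_of_dvd_pow hs h3 h2').symm)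
    · have h1 := hrd.trans (orderOf_dvd_of_pow_eq_one h)
      have h2' := hsd.trans (orderOf_dvd_of_pow_eq_one h)
      rw [h7'] at h1 h2'
      exact hrs ((prime_eq_of_dvd_pow hr h7 h1).trans (prime_eq_of_dvd_pow hs h7 h2').symm)

end Graph

section F8Graph

variable {E : Type*} [Field E] [Fintype E] [CharP E 2]

theorem graph237_sl2 (hE : Fintype.card E = 8) : Graph237 (SL(2, E)) := by
  classical
  have h2 : (2 : E) = 0 := CharTwo.two_eq_zero
  have hprime2 : Fact (Nat.Prime 2) := ⟨Nat.prime_two⟩
  have hprime3 : Fact (Nat.Prime 3) := ⟨Nat.prime_three⟩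
  have hprime7 : Fact (Nat.Prime 7) := ⟨by norm_num⟩
  -- order 7 needs a root of `t³ + t² + 1`
  obtain ⟨t, ht⟩ : ∃ t : E, t ^ 3 + t ^ 2 + 1 = 0 := by
    obtain ⟨a, ha0, ha1⟩ : ∃ a : E, a ≠ 0 ∧ a ≠ 1 := by
      have hcard : ({0, 1} : Finset E).card < (Finset.univ : Finset E).card := by
        calc ({0, 1} : Finset E).card ≤ 2 := Finset.card_le_two
          _ < (Finset.univ : Finset E).card := by rw [Finset.card_univ, hE]; norm_num
      obtain ⟨a, -, ha⟩ := Finset.exists_mem_notMem_of_card_lt_card hcard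
      simp only [Finset.mem_insert, Finset.mem_singleton, not_or] at ha
      exact ⟨a, ha.1, ha.2⟩
    have ha7 : a ^ 7 = 1 := by
      have := FiniteField.pow_card_sub_one_eq_one a ha0
      rwa [hE] at this
    have hprod : ((a + 1) * (a ^ 3 + a + 1)) * (a ^ 3 + a ^ 2 + 1) = 0 := by
      linear_combination ha7 + (a ^ 6 + a ^ 5 + 2 * a ^ 4 + 2 * a ^ 3 + a ^ 2 + a + 1) * h2
    rcases mul_eq_zero.mp hprod with hr | hq
    · have ha11 : a + 1 ≠ 0 := by
        intro h
        apply ha1
        linear_combination h - h2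
      have hr' := (mul_eq_zero.mp hr).resolve_left ha11
      refine ⟨a + 1, ?_⟩
      linear_combination hr' + (2 * a ^ 2 + 2 * a + 1) * h2
    · exact ⟨a, hq⟩
  apply graph237_of
  · intro x
    rcases f8_orders hE x with h | h | h
    · left
      have : x ^ 4 = (x ^ 2) ^ 2 := by rw [← pow_mul]
      rw [this, h, one_pow]
    · right; right; exact h
    · right; left; exact h
  · let x : SL(2, E) := ⟨!![1, 1; 0, 1], by simp [Matrix.det_fin_two]⟩
    refine ⟨x, orderOf_eq_prime ?_ ?_⟩
    · apply f8_pow_one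
      · simp [cheb, x]; linear_combination h2
      · simp [cheb, x]; linear_combination -h2
    · intro h
      have := congrArg (fun m : SL(2, E) => (m : Matrix (Fin 2) (Fin 2) E) 0 1) h
      simp [x] at this
  · let x : SL(2, E) := ⟨!![0, 1; 1, 1], by
      simp [Matrix.det_fin_two]; linear_combination -h2⟩
    refine ⟨x, orderOf_eq_prime ?_ ?_⟩
    · apply f8_pow_one
      · simp [cheb, x]
      · simp [cheb, x]; linear_combination -h2
    · intro h
      have := congrArg (fun m : SL(2, E) => (m : Matrix (Fin 2) (Fin 2) E) 0 1) h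
      simp [x] at this
  · let x : SL(2, E) := ⟨!![0, 1; 1, t], by
      simp [Matrix.det_fin_two]; linear_combination -h2⟩
    refine ⟨x, orderOf_eq_prime ?_ ?_⟩
    · apply f8_pow_one
      · simp only [cheb]
        have h00 : x.1 0 0 + x.1 1 1 = t := by simp [x]
        rw [h00]
        linear_combination (t ^ 3 + t ^ 2 + 1) * ht + (-t ^ 5 - 3 * t ^ 4 - t ^ 3 + 2 * t ^ 2 - 1) * h2
      · simp only [cheb]
        have h00 : x.1 0 0 + x.1 1 1 = t := by simp [x]
        rw [h00]
        linear_combination (-t ^ 2 + t + 3) * ht + (-t ^ 2 - 2 * t - 2) * h2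
    · intro h
      have := congrArg (fun m : SL(2, E) => (m : Matrix (Fin 2) (Fin 2) E) 0 1) h
      simp [x] at this

end F8Graph

section F7

variable {F : Type*} [Field F]

local notation "PSL2" => Matrix.ProjectiveSpecialLinearGroup (Fin 2) F

lemma psl_pow_one (g : SL(2, F)) {n : ℕ}
    (h1 : (cheb (g.1 0 0 + g.1 1 1) n).1 = 0) (h2 : (cheb (g.1 0 0 + g.1 1 1) n).2 ^ 2 = 1) :
    (QuotientGroup.mk g : PSL2) ^ n = 1 := by
  rw [← QuotientGroup.mk_pow, QuotientGroup.eq_one_iff,
    Matrix.SpecialLinearGroup.mem_center_iff]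
  refine ⟨(cheb (g.1 0 0 + g.1 1 1) n).2, by simpa using h2, ?_⟩
  rw [pow_form, h1]
  simp [Matrix.smul_one_eq_diagonal]

lemma psl_ne_one (g : SL(2, F)) (h : g.1 0 1 ≠ 0) : (QuotientGroup.mk g : PSL2) ≠ 1 := by
  intro h1
  rw [QuotientGroup.eq_one_iff, Matrix.SpecialLinearGroup.mem_center_iff] at h1
  obtain ⟨r, -, hr⟩ := h1
  apply h
  rw [← hr]
  simp

variable [Fintype F]

omit [Fintype F] in
lemma finite_psl [Finite F] : Finite PSL2 :=
  inferInstanceAs (Finite (SL(2, F) ⧸ Subgroup.center (SL(2, F))))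

lemma f7_orders (hF : Fintype.card F = 7) (x : PSL2) : x ^ 4 = 1 ∨ x ^ 9 = 1 ∨ x ^ 7 = 1 := by
  have h7 : (7 : F) = 0 := by
    have := Nat.cast_card_eq_zero F
    rwa [hF, Nat.cast_ofNat] at this
  obtain ⟨g, rfl⟩ := QuotientGroup.mk_surjective x
  set t := g.1 0 0 + g.1 1 1 with ht
  have htt : t ^ 7 = t := by
    have := FiniteField.pow_card t
    rwa [hF] at this
  have hprod : t * (t - 1) * (t + 1) * (t - 2) * (t + 2) * (t - 3) * (t + 3) = 0 := by
    linear_combination htt - (2 * t ^ 5 - 7 * t ^ 3 + 5 * t) * h7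
  have hcube : ∀ y : PSL2, y ^ 3 = 1 → y ^ 9 = 1 := by
    intro y hy
    have : y ^ 9 = (y ^ 3) ^ 3 := by rw [← pow_mul]
    rw [this, hy, one_pow]
  rcases mul_eq_zero.mp hprod with h | h
  swap
  · -- t = -3
    have h' : t = -3 := by linear_combination h
    left
    apply psl_pow_one
    · simp only [cheb]; rw [← ht, h']; linear_combination -3 * h7
    · simp only [cheb]; rw [← ht, h']; linear_combination 9 * h7
  rcases mul_eq_zero.mp h with h | h
  swap
  · -- t = 3
    have h' : t = 3 := by linear_combination h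
    left
    apply psl_pow_one
    · simp only [cheb]; rw [← ht, h']; linear_combination 3 * h7
    · simp only [cheb]; rw [← ht, h']; linear_combination 9 * h7
  rcases mul_eq_zero.mp h with h | h
  swap
  · -- t = -2
    have h' : t = -2 := by linear_combination h
    right; right
    apply psl_pow_one
    · simp only [cheb]; rw [← ht, h']; linear_combination h7
    · simp only [cheb]; rw [← ht, h']; linear_combination 5 * h7
  rcases mul_eq_zero.mp h with h | h
  swap
  · -- t = 2
    have h' : t = 2 := by linear_combination h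
    right; right
    apply psl_pow_one
    · simp only [cheb]; rw [← ht, h']; linear_combination h7
    · simp only [cheb]; rw [← ht, h']; linear_combination 5 * h7
  rcases mul_eq_zero.mp h with h | h
  swap
  · -- t = -1
    have h' : t = -1 := by linear_combination h
    right; left
    apply hcube
    apply psl_pow_one
    · simp only [cheb]; rw [← ht, h']; ring
    · simp only [cheb]; rw [← ht, h']; ring
  rcases mul_eq_zero.mp h with h | h
  · -- t = 0
    left
    apply psl_pow_one
    · simp only [cheb]; rw [← ht, h]; ring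
    · simp only [cheb]; rw [← ht, h]; ring
  · -- t = 1
    have h' : t = 1 := by linear_combination h
    right; left
    apply hcube
    apply psl_pow_one
    · simp only [cheb]; rw [← ht, h']; ring
    · simp only [cheb]; rw [← ht, h']; ring

theorem graph237_psl (hF : Fintype.card F = 7) : Graph237 PSL2 := by
  have := finite_psl (F := F)
  have h7 : (7 : F) = 0 := by
    have := Nat.cast_card_eq_zero F
    rwa [hF, Nat.cast_ofNat] at this
  have hprime2 : Fact (Nat.Prime 2) := ⟨Nat.prime_two⟩
  have hprime3 : Fact (Nat.Prime 3) := ⟨Nat.prime_three⟩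
  have hprime7 : Fact (Nat.Prime 7) := ⟨by norm_num⟩
  apply graph237_of (f7_orders hF)
  · let x : SL(2, F) := ⟨!![0, -1; 1, 0], by simp [Matrix.det_fin_two]⟩
    refine ⟨QuotientGroup.mk x, orderOf_eq_prime ?_ ?_⟩
    · apply psl_pow_one
      · simp [cheb, x]
      · simp [cheb, x]
    · apply psl_ne_one
      simp [x]
  · let x : SL(2, F) := ⟨!![0, -1; 1, -1], by simp [Matrix.det_fin_two]⟩
    refine ⟨QuotientGroup.mk x, orderOf_eq_prime ?_ ?_⟩
    · apply psl_pow_one
      · simp [cheb, x]
      · simp [cheb, x]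
    · apply psl_ne_one
      simp [x]
  · let x : SL(2, F) := ⟨!![1, 1; 0, 1], by simp [Matrix.det_fin_two]⟩
    have h00 : x.1 0 0 + x.1 1 1 = 2 := by simp [x]; norm_num
    refine ⟨QuotientGroup.mk x, orderOf_eq_prime ?_ ?_⟩
    · apply psl_pow_one
      · simp only [cheb]; rw [h00]; linear_combination h7
      · simp only [cheb]; rw [h00]; linear_combination 5 * h7
    · apply psl_ne_one
      simp [x]

end F7

/-- The prime graph of a finite group has the prime divisors of its order as vertices, two distinct primes p, q being joined when the group has an element of order pq; two groups have the same prime graph when they have the same prime divisors and the same joined pairs. Let F be the field with 7 elements. There are finite groups of arbitrarily large order with the same prime graph as PSL(2,F) (the graph on {2, 3, 7} with no edges, which is also the prime graph of PSL(2,8)). -/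
theorem result {F : Type*} [Field F] [Fintype F] (hF : Fintype.card F = 7) (N : ℕ) :
    ∃ (H : Type) (_ : Group H) (_ : Finite H), N < Nat.card H ∧
      ((∀ p : ℕ, p.Prime → (p ∣ Nat.card (Matrix.ProjectiveSpecialLinearGroup (Fin 2) F) ↔ p ∣ Nat.card H)) ∧
      (∀ p q : ℕ, p.Prime → q.Prime → p ≠ q → ((∃ g : (Matrix.ProjectiveSpecialLinearGroup (Fin 2) F), orderOf g = p * q) ↔ (∃ g : H, orderOf g = p * q)))) := by
  have hcard := GaloisField.card 2 3 (by norm_num)
  haveI : Finite (GaloisField 2 3) := Nat.finite_of_card_ne_zero (by rw [hcard]; norm_num)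
  letI : Fintype (GaloisField 2 3) := Fintype.ofFinite _
  have hE : Fintype.card (GaloisField 2 3) = 8 := by
    rw [← Nat.card_eq_fintype_card, hcard]; norm_num
  obtain ⟨H, iG, iF, hc, hS⟩ := exists_large_sl2 (F := GaloisField 2 3) N
  have hS' := ((graph237_psl hF).same (graph237_sl2 hE)).trans hS
  exact ⟨H, iG, inferInstance, by rwa [Nat.card_eq_fintype_card], hS'.primes, hS'.edges⟩

end Cfsg.Agent.S3678
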