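import Mathlib
import Cfsg.Statements.S3680
import Cfsg.Agent.Lib.MinNormalPrim

set_option autoImplicit false
set_option linter.all false
open Cfsg

namespace Cfsg.Agent.S3680

open MulAction Cfsg.Agent.Lib.MinNormalPrim

universe u

variable {G : Type*} [Group G]

/-- Commuting subgroups with trivial centres form a direct product. -/
theorem exists_pi_iso {ι : Type*} [Fintype ι] [DecidableEq ι] (H : ι → Subgroup G)
    (hcomm : Pairwise fun i j : ι => ∀ x y : G, x ∈ H i → y ∈ H j → Commute x y)
    (hZ : ∀ i, Subgroup.center (H i) = ⊥) : Nonempty ((∀ i, H i) ≃* ↥(⨆ i, H i)) := by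
  have hind : iSupIndep H := by
    intro i
    rw [disjoint_iff, eq_bot_iff]
    rintro x ⟨hx1, hx2⟩
    have hle : (⨆ j, ⨆ (_ : j ≠ i), H j) ≤ Subgroup.centralizer (H i : Set G) := by
      refine iSup_le fun j => iSup_le fun hj => ?_
      intro y hy
      rw [Subgroup.mem_centralizer_iff]
      intro z hz
      exact (hcomm (Ne.symm hj) z y hz hy)
    have hx3 := hle hx2
    have hx4 : (⟨x, hx1⟩ : H i) ∈ Subgroup.center (H i) := by
      rw [Subgroup.mem_center_iff]
      rintro ⟨z, hz⟩
      apply Subtype.ext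
      exact (Subgroup.mem_centralizer_iff.mp hx3) z hz
    rw [hZ i, Subgroup.mem_bot] at hx4
    rw [Subgroup.mem_bot]
    exact congrArg Subtype.val hx4
  have hinj : Function.Injective (Subgroup.noncommPiCoprod hcomm) :=
    Subgroup.injective_noncommPiCoprod_of_iSupIndep hind
  have hrange := Subgroup.noncommPiCoprod_range (hcomm := hcomm)
  exact ⟨(MonoidHom.ofInjective hinj).trans (MulEquiv.subgroupCongr hrange)⟩

theorem exists_model_aux {X Y : Type*} [Group X] (e : Y ≃ X) : ∃ _ : Group Y, Nonempty (X ≃* Y) := by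
  letI := e.group
  exact ⟨inferInstance, ⟨e.mulEquiv.symm⟩⟩

/-- Transport to `Fin`. -/
theorem exists_model {X : Type*} [Group X] [Finite X] :
    ∃ (T : Type) (_ : Group T), Nonempty (X ≃* T) := by
  let e : X ≃ Fin (Nat.card X) := Finite.equivFin X
  obtain ⟨i, h⟩ := exists_model_aux e.symm
  exact ⟨_, i, h⟩

/-- The conclusion from a family of subgroups. -/
theorem conclude {X : Type*} [Group X] [Finite X] (hs : IsSimpleGroup X) (hnc : ¬ IsMulCommutative X)
    {ι : Type*} [Finite ι] [Nonempty ι] (H : ι → Subgroup G)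
    (hcomm : Pairwise fun i j : ι => ∀ x y : G, x ∈ H i → y ∈ H j → Commute x y)
    (hiso : ∀ i, Nonempty (H i ≃* X)) (N : Subgroup G) (hN : N = ⨆ i, H i) :
    ∃ (T : Type) (_ : Group T) (m : ℕ), 1 ≤ m ∧ IsSimpleGroup T ∧ ¬ IsMulCommutative T ∧ Nonempty (N ≃* (Fin m → T)) := by
  classical
  have := Fintype.ofFinite ι
  obtain ⟨T, hT, ⟨eT⟩⟩ := exists_model (X := X)
  have hZX : Subgroup.center X = ⊥ := by
    rcases hs.eq_bot_or_eq_top_of_normal (Subgroup.center X) inferInstance with h | h
    · exact h
    · exfalso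
      apply hnc
      refine ⟨⟨fun a b => ?_⟩⟩
      have : a ∈ Subgroup.center X := by rw [h]; trivial
      exact (Subgroup.mem_center_iff.mp this b).symm
  have hZ : ∀ i, Subgroup.center (H i) = ⊥ := by
    intro i
    obtain ⟨e⟩ := hiso i
    rw [eq_bot_iff]
    intro a ha
    have h1 : e a ∈ Subgroup.center X := by
      rw [Subgroup.mem_center_iff]
      intro b
      have h2 := Subgroup.mem_center_iff.mp ha (e.symm b)
      have h3 := congrArg e h2
      simpa using h3
    rw [hZX, Subgroup.mem_bot] at h1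
    have h2 : a = 1 := e.injective (by rw [h1, map_one])
    rw [h2]; exact Subgroup.one_mem _
  obtain ⟨E⟩ := exists_pi_iso H hcomm hZ
  let m := Fintype.card ι
  have hm : 1 ≤ m := Fintype.card_pos
  refine ⟨T, hT, m, hm, eT.symm.isSimpleGroup, ?_, ?_⟩
  · intro hc
    apply hnc
    refine ⟨⟨fun a b => ?_⟩⟩
    have := hc.is_comm.comm (eT a) (eT b)
    apply eT.injective
    rw [map_mul, map_mul, this]
  · subst hN
    let e1 : (∀ i, H i) ≃* (ι → T) :=
      MulEquiv.piCongrRight fun i => (Classical.choice (hiso i)).trans eT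
    let e2 : (ι → T) ≃* (Fin m → T) :=
      MulEquiv.arrowCongr (Fintype.equivFin ι) (MulEquiv.refl T)
    exact ⟨E.symm.trans (e1.trans e2)⟩

theorem cj_cj (g h : G) (T : Subgroup G) : cj g (cj h T) = cj (g * h) T := by
  ext x
  simp only [mem_cj]
  have : h⁻¹ * (g⁻¹ * x * g) * h = (g * h)⁻¹ * x * (g * h) := by group
  rw [this]

theorem cj_one (T : Subgroup G) : cj (1 : G) T = T := by
  ext x
  simp [mem_cj]

theorem cj_comm [Finite G] {T V : Subgroup G} (hV : V.Normal) (hT : MinIn T V) (g h : G)
    (hne : cj g T ≠ cj h T) : ∀ x ∈ cj g T, ∀ y ∈ cj h T, x * y = y * x := by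
  intro x hx y hy
  rcases hT.cj_dichotomy hV (g⁻¹ * h) with hd | hd
  · exfalso
    apply hne
    have := congrArg (cj g) hd
    rw [cj_cj, mul_inv_cancel_left] at this
    exact this.symm
  · have hx' := mem_cj.mp hx
    have hy' : g⁻¹ * y * g ∈ cj (g⁻¹ * h) T := by
      rw [mem_cj]
      have h2 : (g⁻¹ * h)⁻¹ * (g⁻¹ * y * g) * (g⁻¹ * h) = h⁻¹ * y * h := by group
      rw [h2]
      exact mem_cj.mp hy
    have h1 := hd _ hx' _ hy'
    have h3 : g⁻¹ * (x * y) * g = g⁻¹ * (y * x) * g := by
      calc g⁻¹ * (x * y) * g = (g⁻¹ * x * g) * (g⁻¹ * y * g) := by group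
        _ = (g⁻¹ * y * g) * (g⁻¹ * x * g) := h1
        _ = g⁻¹ * (y * x) * g := by group
    exact mul_left_cancel (mul_right_cancel h3)

theorem cj_le {T V : Subgroup G} (hV : V.Normal) (hT : T ≤ V) (g : G) : cj g T ≤ V := by
  intro y hy
  have h1 := hT (mem_cj.mp hy)
  have h2 := hV.conj_mem _ h1 g
  simpa [mul_assoc] using h2

theorem iSup_theta [Finite G] {T V : Subgroup G} (hV : IsMinNormal V) (hT : MinIn T V) :
    ⨆ i : Set.range (fun g : G => cj g T), (i : Subgroup G) = V := by
  apply le_antisymm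
  · refine iSup_le ?_
    rintro ⟨_, g, rfl⟩
    exact cj_le hV.1 hT.le g
  · intro n hn
    refine hT.induction hV
      (Q := fun x => x ∈ ⨆ i : Set.range (fun g : G => cj g T), (i : Subgroup G)) ?_ ?_ ?_ ?_ n hn
    · intro g x hx
      exact (le_iSup (fun i : Set.range (fun g : G => cj g T) => (i : Subgroup G))
        ⟨cj g T, g, rfl⟩) hx
    · exact Subgroup.one_mem _
    · intro x y hx hy
      exact Subgroup.mul_mem _ hx hy
    · intro x hx
      exact Subgroup.inv_mem _ hx

theorem cj_iso (g : G) (T : Subgroup G) : Nonempty (cj g T ≃* T) :=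
  ⟨(T.equivMapOfInjective (MulAut.conj g).toMonoidHom (MulAut.conj g).injective).symm⟩

/-- Two commuting regular normal subgroups are isomorphic. -/
theorem exists_equiv_of_regular {Ω : Type*} [MulAction G Ω] [FaithfulSMul G Ω] {V W : Subgroup G}
    (hVt : IsPretransitive V Ω) (hWt : IsPretransitive W Ω)
    (hcomm : ∀ x ∈ V, ∀ y ∈ W, x * y = y * x) (a : Ω) : ∃ e : V →* W, Function.Bijective e := by
  classical
  have hW : ∀ v : V, ∃ w : W, (w : G) • a = (v : G)⁻¹ • a := fun v =>
    hWt.exists_smul_eq a _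
  choose f hf using hW
  have huniq : ∀ w w' : W, (w : G) • a = (w' : G) • a → w = w' := by
    intro w w' h
    have h1 : ((w' : G)⁻¹ * (w : G)) • a = a := by
      rw [mul_smul, h]
      simp
    have h2 := eq_one_of_commute_of_fixes V hVt (x := (w' : G)⁻¹ * (w : G))
      (fun t ht => ?_) h1
    · apply Subtype.ext
      exact (inv_mul_eq_one.mp h2).symm
    · have h3 := hcomm t ht w w.2
      have h4 := hcomm t ht _ (W.inv_mem w'.2)
      calc (w' : G)⁻¹ * (w : G) * t = (w' : G)⁻¹ * (t * w) := by rw [mul_assoc, h3]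
        _ = ((w' : G)⁻¹ * t) * w := by group
        _ = (t * (w' : G)⁻¹) * w := by rw [h4]
        _ = t * ((w' : G)⁻¹ * w) := by group
  let e : V →* W := MonoidHom.mk' f (by
    intro x y
    apply huniq
    rw [hf]
    change _ = ((f x : G) * (f y : G)) • a
    rw [mul_smul, hf y]
    have hc : (f x : G) * (y : G)⁻¹ = (y : G)⁻¹ * (f x : G) :=
      (hcomm _ (V.inv_mem y.2) _ (f x).2).symm
    rw [← mul_smul, hc, mul_smul, hf x]
    simp [mul_smul])
  refine ⟨e, ?_, ?_⟩
  · rw [injective_iff_map_eq_one]
    intro v hv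
    have h1 : (v : G)⁻¹ • a = a := by
      rw [← hf v]
      have : f v = 1 := hv
      rw [this]
      simp
    have hc : ∀ t ∈ W, (v : G)⁻¹ * t = t * (v : G)⁻¹ := fun t ht =>
      hcomm _ (V.inv_mem v.2) t ht
    have h2 := eq_one_of_commute_of_fixes W hWt hc h1
    apply Subtype.ext
    simpa using h2
  · intro w
    obtain ⟨v, hv⟩ := hVt.exists_smul_eq a ((w : G) • a)
    refine ⟨v⁻¹, ?_⟩
    apply huniq
    change (f v⁻¹ : G) • a = _
    rw [hf v⁻¹]
    have h1 : ((v⁻¹ : V) : G)⁻¹ = (v : G) := by simp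
    rw [h1]
    exact hv

theorem result {G Ω : Type*} [Group G] [Finite G] [MulAction G Ω] [FaithfulSMul G Ω] [Finite Ω]
    (hprim : MulAction.IsPreprimitive G Ω) (N : Subgroup G)
    (hN : N = sSup {V : Subgroup G | V.Normal ∧ V ≠ ⊥ ∧ ∀ M : Subgroup G, M.Normal → M ≤ V → M = ⊥ ∨ M = V}) :
    (∃ p : ℕ, p.Prime ∧ IsMulCommutative N ∧ (∀ x : N, x ^ p = 1) ∧
      MulAction.IsPretransitive N Ω ∧ ∀ ω : Ω, MulAction.stabilizer N ω = ⊥) ∨
    (∃ (T : Type) (_ : Group T) (m : ℕ), 1 ≤ m ∧ IsSimpleGroup T ∧ ¬ IsMulCommutative T ∧ Nonempty (N ≃* (Fin m → T))) := by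
  classical
  haveI hpt : IsPretransitive G Ω := hprim.toIsPretransitive
  by_cases hsub : Subsingleton G
  · left
    have hNsub : Subsingleton N := inferInstance
    refine ⟨2, Nat.prime_two, ⟨⟨fun _ _ => Subsingleton.elim _ _⟩⟩,
      fun x => Subsingleton.elim _ _, ?_, ?_⟩
    · refine ⟨fun x y => ?_⟩
      obtain ⟨g, hg⟩ := hpt.exists_smul_eq x y
      refine ⟨1, ?_⟩
      have hg1 : g = 1 := Subsingleton.elim _ _
      rw [hg1, one_smul] at hg
      rw [one_smul, hg]
    · intro ω
      exact Subsingleton.elim _ _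
  haveI hnt : Nontrivial G := not_subsingleton_iff_nontrivial.mp hsub
  haveI hΩ : Nonempty Ω := by
    by_contra hcon
    rw [not_nonempty_iff] at hcon
    apply hsub
    refine ⟨fun g h => ?_⟩
    apply FaithfulSMul.eq_of_smul_eq_smul (α := Ω)
    intro ω
    exact hcon.elim ω
  obtain ⟨a⟩ := hΩ
  have htrans : ∀ V : Subgroup G, IsMinNormal V → IsPretransitive V Ω := fun V hV =>
    isPretransitive_of_normal hprim V hV.1 hV.2.1
  -- distinct minimal normal subgroups commute
  have hdisj : ∀ V W : Subgroup G, IsMinNormal V → IsMinNormal W → V ≠ W → ∀ x ∈ V, ∀ y ∈ W, x * y = y * x := by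
    intro V W hV hW hne x hx y hy
    have hbot : V ⊓ W = ⊥ := by
      haveI := hV.1
      haveI := hW.1
      rcases hV.2.2 (V ⊓ W) inferInstance inf_le_left with h | h
      · exact h
      · exfalso
        have hle : V ≤ W := by rw [← h]; exact inf_le_right
        rcases hW.2.2 V hV.1 hle with h2 | h2
        · exact hV.2.1 h2
        · exact hne h2
    have h1 : x * y * x⁻¹ * y⁻¹ ∈ V ⊓ W := by
      constructor
      · have h2 := hV.1.conj_mem _ (V.inv_mem hx) y
        have h3 := V.mul_mem hx h2
        simpa [mul_assoc] using h3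
      · have h2 := hW.1.conj_mem _ hy x
        exact W.mul_mem h2 (W.inv_mem hy)
    rw [hbot, Subgroup.mem_bot] at h1
    have h4 : x * y * x⁻¹ = y := mul_inv_eq_one.mp h1
    calc x * y = x * y * x⁻¹ * x := by group
      _ = y * x := by rw [h4]
  -- the centralizer of a minimal normal is contained in a transitive subgroup commuting with it
  have hcent : ∀ V W : Subgroup G, IsPretransitive V Ω → IsPretransitive W Ω →
      (∀ v ∈ V, ∀ w ∈ W, v * w = w * v) → ∀ x : G, (∀ v ∈ V, x * v = v * x) → x ∈ W := by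
    intro V W hVt hWt hc x hx
    obtain ⟨w, hw⟩ := hWt.exists_smul_eq a (x • a)
    have h1 : ((w : G)⁻¹ * x) • a = a := by
      rw [mul_smul]
      have : (w : G) • a = x • a := hw
      rw [← this]
      simp
    have h2 := eq_one_of_commute_of_fixes V hVt (x := (w : G)⁻¹ * x) (fun t ht => ?_) h1
    · have : x = (w : G) := (inv_mul_eq_one.mp h2).symm
      rw [this]
      exact w.2
    · have h3 := hc t ht _ (W.inv_mem w.2)
      calc (w : G)⁻¹ * x * t = (w : G)⁻¹ * (t * x) := by rw [mul_assoc, hx t ht]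
        _ = ((w : G)⁻¹ * t) * x := by group
        _ = (t * (w : G)⁻¹) * x := by rw [h3]
        _ = t * ((w : G)⁻¹ * x) := by group
  by_cases hab : ∃ V : Subgroup G, IsMinNormal V ∧ ∀ x ∈ V, ∀ y ∈ V, x * y = y * x
  · -- abelian case
    left
    obtain ⟨V, hV, hcomm⟩ := hab
    have hNV : N = V := by
      rw [hN]
      apply le_antisymm
      · refine sSup_le fun W hW => ?_
        have hW' : IsMinNormal W := hW
        by_cases hne : V = W
        · rw [hne]
        · intro y hy
          exact hcent V V (htrans V hV) (htrans V hV) hcomm y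
            (fun v hv => (hdisj V W hV hW' hne v hv y hy).symm)
      · exact le_sSup hV
    subst hNV
    obtain ⟨r, hr, hrp⟩ := IsMinNormal.exists_prime_pow_eq_one hV hcomm
    refine ⟨r, hr, ⟨⟨fun x y => Subtype.ext (hcomm x x.2 y y.2)⟩⟩, fun x => Subtype.ext ?_, htrans _ hV,
      fun ω => stabilizer_eq_bot_of_comm _ hcomm (htrans _ hV) ω⟩
    exact hrp x x.2
  · -- all minimal normal subgroups are non-abelian
    right
    push Not at hab
    obtain ⟨V, hV⟩ := exists_minNormal (G := G)
    obtain ⟨T, hT⟩ := exists_minIn V hV.2.1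
    have hTs : IsSimpleGroup T := hT.isSimple hV
    have hTnc : ¬ IsMulCommutative T := by
      intro hc
      obtain ⟨x, hx, y, hy, hxy⟩ := hab V hV
      apply hxy
      exact hT.comm_of_comm hV (fun x hx y hy => congrArg Subtype.val
        (hc.is_comm.comm ⟨x, hx⟩ ⟨y, hy⟩)) x hx y hy
    have hthetaComm : Pairwise fun i j : Set.range (fun g : G => cj g T) =>
        ∀ x y : G, x ∈ (i : Subgroup G) → y ∈ (j : Subgroup G) → Commute x y := by
      rintro ⟨_, g, rfl⟩ ⟨_, h, rfl⟩ hij x y hx hy
      exact cj_comm hV.1 hT g h (fun h' => hij (Subtype.ext h')) x hx y hy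
    have hthetaIso : ∀ i : Set.range (fun g : G => cj g T), Nonempty ((i : Subgroup G) ≃* T) := by
      rintro ⟨_, g, rfl⟩
      exact cj_iso g T
    haveI hne : Nonempty (Set.range (fun g : G => cj g T)) := ⟨⟨cj 1 T, 1, rfl⟩⟩
    by_cases huniq : ∀ W : Subgroup G, IsMinNormal W → W = V
    · -- unique minimal normal subgroup
      have hNV : N = V := by
        rw [hN]
        apply le_antisymm
        · refine sSup_le fun W hW => ?_
          rw [huniq W hW]
        · exact le_sSup hV
      exact conclude hTs hTnc (fun i : Set.range (fun g : G => cj g T) => (i : Subgroup G))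
        hthetaComm hthetaIso N (by rw [hNV, iSup_theta hV hT])
    · -- two minimal normal subgroups
      push Not at huniq
      obtain ⟨W, hW, hWV⟩ := huniq
      have hVt := htrans V hV
      have hWt := htrans W hW
      have hVW := hdisj V W hV hW hWV.symm
      have hNVW : N = V ⊔ W := by
        rw [hN]
        apply le_antisymm
        · refine sSup_le fun W' hW' => ?_
          have hW'' : IsMinNormal W' := hW'
          by_cases hne' : V = W'
          · rw [← hne']
            exact le_sup_left
          · refine le_trans ?_ le_sup_right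
            intro y hy
            exact hcent V W hVt hWt hVW y
              (fun v hv => (hdisj V W' hV hW'' hne' v hv y hy).symm)
        · exact sup_le (le_sSup hV) (le_sSup hW)
      obtain ⟨e, he⟩ := exists_equiv_of_regular hVt hWt hVW a
      let f : V →* G := W.subtype.comp e
      have hfinj : Function.Injective f := W.subtype_injective.comp he.1
      have hfW : ∀ v, f v ∈ W := fun v => (e v).2
      let H : (Set.range (fun g : G => cj g T)) ⊕ (Set.range (fun g : G => cj g T)) → Subgroup G :=
        Sum.elim (fun i => (i : Subgroup G)) (fun i => ((i : Subgroup G).subgroupOf V).map f)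
      have hiV : ∀ i : Set.range (fun g : G => cj g T), (i : Subgroup G) ≤ V := by
        rintro ⟨_, g, rfl⟩
        exact cj_le hV.1 hT.le g
      have hHcomm : Pairwise fun i j =>
          ∀ x y : G, x ∈ H i → y ∈ H j → Commute x y := by
        rintro (i | i) (j | j) hij x y hx hy
        · exact hthetaComm (fun h => hij (congrArg Sum.inl h)) x y hx hy
        · obtain ⟨v, -, rfl⟩ := hy
          exact hVW x (hiV i hx) _ (hfW v)
        · obtain ⟨v, -, rfl⟩ := hx
          exact (hVW y (hiV j hy) _ (hfW v)).symm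
        · obtain ⟨u, hu, rfl⟩ := hx
          obtain ⟨v, hv, rfl⟩ := hy
          have h1 : (u : G) * (v : G) = (v : G) * (u : G) :=
            hthetaComm (fun h => hij (congrArg Sum.inr h)) _ _ hu hv
          have h2 : u * v = v * u := Subtype.ext h1
          change f u * f v = f v * f u
          rw [← map_mul, h2, map_mul]
      have hHiso : ∀ i, Nonempty (H i ≃* T) := by
        rintro (i | i)
        · exact hthetaIso i
        · obtain ⟨E⟩ := hthetaIso i
          exact ⟨(((i : Subgroup G).subgroupOf V).equivMapOfInjective f hfinj).symm.trans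
            ((Subgroup.subgroupOfEquivOfLe (hiV i)).trans E)⟩
      have hNH : N = ⨆ i, H i := by
        rw [hNVW]
        apply le_antisymm
        · refine sup_le ?_ ?_
          · conv_lhs => rw [← iSup_theta hV hT]
            refine iSup_le fun i => ?_
            exact le_iSup H (Sum.inl i)
          · intro w hw
            obtain ⟨v, hv⟩ := he.2 ⟨w, hw⟩
            have hwv : w = f v := by rw [show f v = ((e v : W) : G) from rfl, hv]
            have key := hT.induction hV (Q := fun x => ∃ hx : x ∈ V, f ⟨x, hx⟩ ∈ ⨆ i, H i) ?_ ?_ ?_ ?_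
              (v : G) v.2
            · obtain ⟨_, h⟩ := key
              rw [hwv]
              exact h
            · intro g x hx
              have hxV : x ∈ V := cj_le hV.1 hT.le g hx
              refine ⟨hxV, ?_⟩
              have : f ⟨x, hxV⟩ ∈ H (Sum.inr ⟨cj g T, g, rfl⟩) := ⟨⟨x, hxV⟩, hx, rfl⟩
              exact le_iSup H _ this
            · refine ⟨V.one_mem, ?_⟩
              have : f ⟨1, V.one_mem⟩ = 1 := map_one f
              rw [this]
              exact Subgroup.one_mem _
            · rintro x y ⟨hx, hx'⟩ ⟨hy, hy'⟩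
              refine ⟨V.mul_mem hx hy, ?_⟩
              have : f ⟨x * y, V.mul_mem hx hy⟩ = f ⟨x, hx⟩ * f ⟨y, hy⟩ := map_mul f ⟨x, hx⟩ ⟨y, hy⟩
              rw [this]
              exact Subgroup.mul_mem _ hx' hy'
            · rintro x ⟨hx, hx'⟩
              refine ⟨V.inv_mem hx, ?_⟩
              have : f ⟨x⁻¹, V.inv_mem hx⟩ = (f ⟨x, hx⟩)⁻¹ := map_inv f ⟨x, hx⟩
              rw [this]
              exact Subgroup.inv_mem _ hx'
        · refine iSup_le ?_
          rintro (i | i)
          · exact (hiV i).trans le_sup_left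
          · rintro _ ⟨v, -, rfl⟩
            exact (le_sup_right : W ≤ V ⊔ W) (hfW v)
      exact conclude hTs hTnc H hHcomm hHiso N hNH

end Cfsg.Agent.S3680
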