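import Mathlib
import Cfsg.Statements.S3681

set_option autoImplicit false
open Cfsg

namespace Cfsg.Agent.S3681

open Equiv Equiv.Perm MulAction

/-- Commutator of two permutations whose supports meet in exactly one point. -/
theorem comm_eq_swaps {Ω : Type*} [DecidableEq Ω] (x y : Perm Ω) (d : Ω) (hx : x d ≠ d) (hy : y d ≠ d)
    (h : ∀ w, w ≠ d → x w = w ∨ y w = w) :
    x * y * x⁻¹ * y⁻¹ = swap d (y d) * swap d (x d) ∧ x d ≠ y d := by
  have ya : y (x d) = x d := by
    rcases h (x d) hx with h1 | h1
    · exact absurd (x.injective h1) hx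
    · exact h1
  have xb : x (y d) = y d := by
    rcases h (y d) hy with h1 | h1
    · exact h1
    · exact absurd (y.injective h1) hy
  have hab : x d ≠ y d := by
    intro e
    rw [e] at ya
    exact hy (y.injective ya)
  refine ⟨?_, hab⟩
  have ha' : x (x⁻¹ d) = d := by simp
  have hb' : y (y⁻¹ d) = d := by simp
  have ha'd : x⁻¹ d ≠ d := by
    intro e
    rw [e] at ha'
    exact hx ha'
  have hb'd : y⁻¹ d ≠ d := by
    intro e
    rw [e] at hb'
    exact hy hb'
  have ya' : y (x⁻¹ d) = x⁻¹ d := by
    rcases h _ ha'd with h1 | h1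
    · rw [ha'] at h1
      exact absurd h1.symm ha'd
    · exact h1
  have xb' : x (y⁻¹ d) = y⁻¹ d := by
    rcases h _ hb'd with h1 | h1
    · exact h1
    · rw [hb'] at h1
      exact absurd h1.symm hb'd
  have xb'i : x⁻¹ (y⁻¹ d) = y⁻¹ d := by
    rw [Perm.inv_eq_iff_eq]
    exact xb'.symm
  have yai : y⁻¹ (x d) = x d := by
    rw [Perm.inv_eq_iff_eq]
    exact ya.symm
  ext w
  simp only [Perm.mul_apply]
  by_cases h1 : w = y d
  · subst h1
    have e1 : y⁻¹ (y d) = d := by simp
    rw [e1, ya', ha', swap_apply_of_ne_of_ne hy hab.symm, swap_apply_right]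
  by_cases h2 : w = d
  · subst h2
    rw [xb'i, hb', swap_apply_left, swap_apply_of_ne_of_ne hx hab]
  by_cases h3 : w = x d
  · subst h3
    have e1 : x⁻¹ (x d) = d := by simp
    rw [yai, e1, xb, swap_apply_right, swap_apply_left]
  rw [swap_apply_of_ne_of_ne h2 h3, swap_apply_of_ne_of_ne h2 h1]
  rcases h w h2 with h4 | h4
  · -- `x w = w`
    have hu : y (y⁻¹ w) = w := by simp
    have hud : y⁻¹ w ≠ d := by
      intro e
      rw [e] at hu
      exact h1 hu.symm
    rcases h _ hud with h5 | h5
    · have : x⁻¹ (y⁻¹ w) = y⁻¹ w := by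
        rw [Perm.inv_eq_iff_eq]
        exact h5.symm
      rw [this, hu, h4]
    · have e : y⁻¹ w = w := by rw [← h5]; exact hu
      have : x⁻¹ w = w := by
        rw [Perm.inv_eq_iff_eq]
        exact h4.symm
      rw [e, this]
      rw [e] at hu
      rw [hu, h4]
  · have e : y⁻¹ w = w := by
      rw [Perm.inv_eq_iff_eq]
      exact h4.symm
    rw [e]
    have ht : x (x⁻¹ w) = w := by simp
    have htd : x⁻¹ w ≠ d := by
      intro e'
      rw [e'] at ht
      exact h3 ht.symm
    rcases h _ htd with h5 | h5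
    · have e2 : x⁻¹ w = w := by rw [← h5]; exact ht
      rw [e2, h4]
      rw [e2] at ht
      exact ht
    · rw [h5, ht]

/-- The conclusion for a small base. -/
theorem bound_of_base {G Ω : Type*} [Group G] [Finite G] [MulAction G Ω] [Fintype Ω] [DecidableEq Ω]
    (s : Finset Ω) (hs : ∀ g : G, (∀ w ∈ s, g • w = w) → g = 1)
    (hcard : s.card ≤ Fintype.card Ω / 2) :
    Nat.card G * Nat.factorial ((Fintype.card Ω + 1) / 2) ≤ Nat.factorial (Fintype.card Ω) := by
  classical
  have := Fintype.ofFinite G
  let F : G → (s ↪ Ω) := fun g =>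
    ⟨fun w => g • (w : Ω), fun a b h => Subtype.ext (MulAction.injective g h)⟩
  have hF : Function.Injective F := by
    intro g h e
    have : g⁻¹ * h = 1 := by
      apply hs
      intro w hw
      have : g • w = h • w := congrArg (fun f : s ↪ Ω => f ⟨w, hw⟩) e
      rw [mul_smul, ← this, inv_smul_smul]
    rw [inv_mul_eq_one] at this
    exact this
  have h1 : Nat.card G ≤ (Fintype.card Ω).descFactorial s.card := by
    rw [Nat.card_eq_fintype_card]
    have := Fintype.card_le_of_injective F hF
    rwa [Fintype.card_embedding_eq, Fintype.card_coe] at this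
  have hle : s.card ≤ Fintype.card Ω := hcard.trans (Nat.div_le_self _ _)
  have h2 := Nat.factorial_mul_descFactorial hle
  have h3 : Nat.factorial ((Fintype.card Ω + 1) / 2) ≤ Nat.factorial (Fintype.card Ω - s.card) :=
    Nat.factorial_le (by omega)
  calc Nat.card G * Nat.factorial ((Fintype.card Ω + 1) / 2)
      ≤ (Fintype.card Ω).descFactorial s.card * Nat.factorial (Fintype.card Ω - s.card) :=
        Nat.mul_le_mul h1 h3
    _ = Nat.factorial (Fintype.card Ω) := by rw [mul_comm, h2]

/-- Bochert's bound for primitive groups. Let a finite group G act faithfully and primitively on a finite set Ω with n elements, and suppose the image of G in the symmetric group of Ω does not contain the alternating group of Ω. Then |G| · ⌊(n + 1)/2⌋! ≤ n!, that is, the index of G in the symmetric group is at least ⌊(n + 1)/2⌋!. -/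
theorem result {G Ω : Type*} [Group G] [Finite G] [MulAction G Ω] [FaithfulSMul G Ω] [Fintype Ω] [DecidableEq Ω]
    (hprim : MulAction.IsPreprimitive G Ω) (hA : ¬ alternatingGroup Ω ≤ (MulAction.toPermHom G Ω).range) :
    Nat.card G * Nat.factorial ((Fintype.card Ω + 1) / 2) ≤ Nat.factorial (Fintype.card Ω) := by
  classical
  -- the image is primitive
  have hR : IsPreprimitive (MulAction.toPermHom G Ω).range Ω := by
    let φ : G → (MulAction.toPermHom G Ω).range := fun g => ⟨MulAction.toPermHom G Ω g, g, rfl⟩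
    let f : Ω →ₑ[φ] Ω := ⟨id, fun g x => rfl⟩
    have hf : Function.Surjective f := Function.surjective_id
    exact IsPreprimitive.of_surjective hf
  -- no three-cycles
  have no3 : ∀ (x y : G) (d : Ω), x • d ≠ d → y • d ≠ d →
      (∀ w, w ≠ d → x • w = w ∨ y • w = w) → False := by
    intro x y d hx hy h
    obtain ⟨e, hne⟩ := comm_eq_swaps (MulAction.toPermHom G Ω x) (MulAction.toPermHom G Ω y) d hx hy h
    have hxd : (MulAction.toPermHom G Ω x) d ≠ d := hx
    have hyd : (MulAction.toPermHom G Ω y) d ≠ d := hy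
    have h3 : IsThreeCycle (swap d ((MulAction.toPermHom G Ω y) d) * swap d ((MulAction.toPermHom G Ω x) d)) :=
      isThreeCycle_swap_mul_swap_same hyd.symm hxd.symm hne.symm
    apply hA
    refine alternatingGroup_le_of_isPreprimitive_of_isThreeCycle_mem hR h3 ?_
    rw [← e]
    exact ⟨x * y * x⁻¹ * y⁻¹, by simp only [map_mul, map_inv]⟩
  -- bases
  let IsB : Finset Ω → Prop := fun s => ∀ g : G, (∀ w ∈ s, g • w = w) → g = 1
  have hU : IsB Finset.univ := by
    intro g hg
    apply FaithfulSMul.eq_of_smul_eq_smul (α := Ω)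
    intro w
    rw [hg w (Finset.mem_univ _), one_smul]
  obtain ⟨Δ, hΔ, hmin⟩ : ∃ Δ : Finset Ω, IsB Δ ∧ ∀ t : Finset Ω, IsB t → Δ.card ≤ t.card := by
    classical
    have hne : (Finset.univ.filter IsB).Nonempty := ⟨Finset.univ, by simpa using hU⟩
    obtain ⟨Δ, h1, h2⟩ := Finset.exists_min_image _ Finset.card hne
    refine ⟨Δ, (Finset.mem_filter.mp h1).2, fun t ht => h2 t (by simpa using ht)⟩
  have hc : IsB Δᶜ := by
    intro y hy
    by_contra hy1
    -- `y` moves a point `d`, necessarily in `Δ`
    have : ∃ d : Ω, y • d ≠ d := by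
      by_contra hcon
      push Not at hcon
      exact hy1 (hU y (fun w _ => hcon w))
    obtain ⟨d, hd⟩ := this
    have hdΔ : d ∈ Δ := by
      by_contra hn
      exact hd (hy d (by simpa using hn))
    -- erase `d`
    have hnot : ¬ IsB (Δ.erase d) := by
      intro hb
      have := hmin _ hb
      rw [Finset.card_erase_of_mem hdΔ] at this
      have hpos : 0 < Δ.card := Finset.card_pos.mpr ⟨d, hdΔ⟩
      omega
    simp only [IsB, not_forall] at hnot
    obtain ⟨x, hx, hx1⟩ := hnot
    have hxd : x • d ≠ d := by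
      intro e
      apply hx1
      apply hΔ
      intro w hw
      by_cases hwd : w = d
      · rw [hwd, e]
      · exact hx w (Finset.mem_erase.mpr ⟨hwd, hw⟩)
    refine no3 x y d hxd hd ?_
    intro w hwd
    by_cases hw : w ∈ Δ
    · exact Or.inl (hx w (Finset.mem_erase.mpr ⟨hwd, hw⟩))
    · exact Or.inr (hy w (by simpa using hw))
  by_cases hle : Δ.card ≤ Fintype.card Ω / 2
  · exact bound_of_base Δ hΔ hle
  · refine bound_of_base Δᶜ hc ?_
    rw [Finset.card_compl]
    have : Δ.card ≤ Fintype.card Ω := Finset.card_le_univ _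
    omega

end Cfsg.Agent.S3681
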