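import Mathlib
import Cfsg.Statements.S3682
import Cfsg.Agent.Lib.ThompsonWielandtPerm

set_option autoImplicit false
open Cfsg

namespace Cfsg.Agent.S3682

open Cfsg.Agent.Lib.ThompsonWielandt Cfsg.Agent.Lib.ThompsonWielandtPerm

/-- Wielandt's bound toward the Sims conjecture. Let a finite group G act faithfully and primitively on a set Ω, let a and b be points, and suppose the orbit of b under the stabilizer of a has length d ≥ 2. Then there are a prime p and a normal p-subgroup P of the stabilizer of a, all of whose elements fix b, such that the index of P in the stabilizer of a divides d! · ((d - 1)!)^d. -/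
theorem result {G Ω : Type*} [Group G] [Finite G] [MulAction G Ω] [FaithfulSMul G Ω] [Finite Ω]
    (hprim : MulAction.IsPreprimitive G Ω) (a b : Ω) (d : ℕ) (hd : Nat.card (MulAction.orbit (MulAction.stabilizer G a) b) = d) (h2 : 2 ≤ d) :
    ∃ p : ℕ, p.Prime ∧ ∃ P : Subgroup (MulAction.stabilizer G a), P.Normal ∧ IsPGroup p P ∧ (∀ g : P, ((g : MulAction.stabilizer G a) : G) • b = b) ∧
      P.index ∣ Nat.factorial d * (Nat.factorial (d - 1)) ^ d := by
  by_cases hbot : A2 (MulAction.stabilizer G a) (MulAction.stabilizer G b) = ⊥ ∨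
      A2 (MulAction.stabilizer G b) (MulAction.stabilizer G a) = ⊥
  · refine ⟨2, Nat.prime_two, ⊥, inferInstance, IsPGroup.of_bot, ?_, ?_⟩
    · rintro ⟨g, hg⟩
      rw [Subgroup.mem_bot] at hg
      subst hg
      simp
    · rw [Subgroup.index_bot]
      exact card_dvd_of_bot a b hd hbot
  · push_neg at hbot
    have hP := pair_of_action hprim a b (by omega)
    obtain ⟨p, hp, hpg, -⟩ := hP.main hbot.1 hbot.2
    have hXp : IsPGroup p (A2 (MulAction.stabilizer G a) (MulAction.stabilizer G b)) := hpg.to_le le_sup_left
    refine ⟨p, hp, (A2 (MulAction.stabilizer G a) (MulAction.stabilizer G b)).subgroupOf (MulAction.stabilizer G a),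
      Subgroup.normal_subgroupOf_of_le_normalizer (M_norm_A2 _ _), hXp.comap_subtype, ?_, ?_⟩
    · rintro ⟨g, hg⟩
      exact A2_le_right _ _ (Subgroup.mem_subgroupOf.mp hg)
    · exact relIndex_A2_dvd a b hd

end Cfsg.Agent.S3682
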