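import Mathlib
import Cfsg.Statements.S3683

set_option autoImplicit false
open Cfsg

namespace Cfsg.Agent.S3683

/-- A normal point stabilizer in a faithful transitive action is trivial. -/
theorem stabilizer_eq_bot_of_normal {G Ω : Type*} [Group G] [MulAction G Ω] [FaithfulSMul G Ω]
    [MulAction.IsPretransitive G Ω] (a : Ω) (hn : (MulAction.stabilizer G a).Normal) :
    MulAction.stabilizer G a = ⊥ := by
  rw [eq_bot_iff]
  intro h hh
  rw [Subgroup.mem_bot]
  apply FaithfulSMul.eq_of_smul_eq_smul (α := Ω)
  intro x
  obtain ⟨k, rfl⟩ := MulAction.exists_smul_eq G a x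
  have h1 : k⁻¹ * h * k ∈ MulAction.stabilizer G a := by
    have := hn.conj_mem h hh k⁻¹
    simpa using this
  have h2 : (k⁻¹ * h * k) • a = a := h1
  have h3 : h • k • a = k • a := by
    calc h • k • a = k • (k⁻¹ * h * k) • a := by simp [mul_smul]
      _ = k • a := by rw [h2]
  simpa using h3

/-- Let a finite group G act faithfully and primitively on a set Ω, and suppose the stabilizer of a point a fixes a second point b ≠ a (a suborbit of length 1 other than {a}). Then the stabilizer of a is trivial and G is cyclic of prime order. -/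
theorem result {G Ω : Type*} [Group G] [Finite G] [MulAction G Ω] [FaithfulSMul G Ω] [Finite Ω]
    (hprim : MulAction.IsPreprimitive G Ω) (a b : Ω) (hab : a ≠ b) (hfix : ∀ g : G, g • a = a → g • b = b) :
    MulAction.stabilizer G a = ⊥ ∧ IsCyclic G ∧ (Nat.card G).Prime := by
  classical
  have : MulAction.IsPretransitive G Ω := hprim.toIsPretransitive
  have : Nontrivial Ω := ⟨a, b, hab⟩
  have hcoat : IsCoatom (MulAction.stabilizer G a) :=
    (MulAction.isCoatom_stabilizer_iff_preprimitive (G := G) (X := Ω) a).mpr hprim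
  obtain ⟨g, hg⟩ := MulAction.exists_smul_eq G a b
  have hle : MulAction.stabilizer G a ≤ MulAction.stabilizer G b := fun x hx => hfix x hx
  have hcard : Nat.card (MulAction.stabilizer G a) = Nat.card (MulAction.stabilizer G b) :=
    Nat.card_congr (MulAction.stabilizerEquivStabilizer hg.symm).toEquiv
  have heq : MulAction.stabilizer G a = MulAction.stabilizer G b :=
    Subgroup.eq_of_le_of_card_ge hle hcard.ge
  have hgnorm : g ∈ Subgroup.normalizer (MulAction.stabilizer G a : Set G) := by
    rw [Subgroup.mem_normalizer_iff]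
    intro h
    rw [MulAction.mem_stabilizer_iff, MulAction.mem_stabilizer_iff]
    have e1 : ∀ x : G, x • a = a ↔ x • b = b := fun x => by
      have := SetLike.ext_iff.mp heq x
      simpa [MulAction.mem_stabilizer_iff] using this
    rw [e1 (g * h * g⁻¹)]
    constructor
    · intro hh
      have : (g * h * g⁻¹) • b = g • h • a := by
        rw [← hg]; simp [mul_smul]
      rw [this, hh, hg]
    · intro hh
      have : h • a = a := by
        have h2 : (g * h * g⁻¹) • b = g • h • a := by
          rw [← hg]; simp [mul_smul]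
        rw [hh, ← hg] at h2
        exact (smul_left_cancel g h2).symm
      exact this
  have hgnot : g ∉ MulAction.stabilizer G a := fun h => hab (by
    rw [MulAction.mem_stabilizer_iff, hg] at h; exact h.symm)
  have hnormtop : Subgroup.normalizer (MulAction.stabilizer G a : Set G) = ⊤ := by
    apply hcoat.2
    refine lt_of_le_of_ne (Subgroup.le_normalizer) ?_
    intro h
    exact hgnot (h ▸ hgnorm)
  have hnormal : (MulAction.stabilizer G a).Normal := Subgroup.normalizer_eq_top_iff.mp hnormtop
  have hbot : MulAction.stabilizer G a = ⊥ := stabilizer_eq_bot_of_normal a hnormal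
  refine ⟨hbot, ?_⟩
  have hcoat' : IsCoatom (⊥ : Subgroup G) := hbot ▸ hcoat
  have hGnt : Nontrivial G := by
    by_contra hc
    rw [not_nontrivial_iff_subsingleton] at hc
    exact hcoat'.1 (Subsingleton.elim _ _)
  have hsub : ∀ H : Subgroup G, H = ⊥ ∨ H = ⊤ := fun H => by
    by_cases h : H = ⊥
    · exact Or.inl h
    · exact Or.inr (hcoat'.2 H (bot_lt_iff_ne_bot.mpr h))
  obtain ⟨x, hx⟩ := exists_ne (1 : G)
  have hzp : Subgroup.zpowers x = ⊤ :=
    (hsub _).resolve_left (Subgroup.zpowers_ne_bot.2 hx)
  have hcyc : IsCyclic G := ⟨⟨x, (Subgroup.eq_top_iff' _).1 hzp⟩⟩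
  refine ⟨hcyc, ?_⟩
  have : IsSimpleGroup G :=
    { eq_bot_or_eq_top_of_normal := fun H _ => hsub H }
  letI : CommGroup G := IsCyclic.commGroup
  exact IsSimpleGroup.prime_card

end Cfsg.Agent.S3683
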