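import Mathlib
import Cfsg.Statements.S3684
import Cfsg.Agent.Lib.InvolutionDihedral

set_option autoImplicit false
open Cfsg

namespace Cfsg.Agent.S3684

open Cfsg.Agent.Lib.InvolutionPairs Cfsg.Agent.Lib.InvolutionDihedral

/-- A normal subgroup contained in a point stabilizer of a faithful transitive action is trivial. -/
theorem eq_bot_of_normal_of_le_stabilizer {G Ω : Type*} [Group G] [MulAction G Ω] [FaithfulSMul G Ω]
    [MulAction.IsPretransitive G Ω] (a : Ω) (K : Subgroup G) (hn : K.Normal)
    (hK : K ≤ MulAction.stabilizer G a) : K = ⊥ := by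
  rw [eq_bot_iff]
  intro h hh
  rw [Subgroup.mem_bot]
  apply FaithfulSMul.eq_of_smul_eq_smul (α := Ω)
  intro x
  obtain ⟨k, rfl⟩ := MulAction.exists_smul_eq G a x
  have h1 : k⁻¹ * h * k ∈ K := by
    have := hn.conj_mem h hh k⁻¹
    simpa using this
  have h2 : (k⁻¹ * h * k) • a = a := hK h1
  have h3 : h • k • a = k • a := by
    calc h • k • a = k • (k⁻¹ * h * k) • a := by simp [mul_smul]
      _ = k • a := by rw [h2]
  simpa using h3

/-- Let a finite group G act faithfully and primitively on a set Ω, and suppose the stabilizer of a point a has an orbit of length 2. Then the stabilizer of a has order 2 and G is isomorphic to the dihedral group of order 2p for some prime p. -/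
theorem result {G Ω : Type*} [Group G] [Finite G] [MulAction G Ω] [FaithfulSMul G Ω] [Finite Ω]
    (hprim : MulAction.IsPreprimitive G Ω) (a b : Ω) (h2 : Nat.card (MulAction.orbit (MulAction.stabilizer G a) b) = 2) :
    Nat.card (MulAction.stabilizer G a) = 2 ∧ ∃ p : ℕ, p.Prime ∧ Nonempty (G ≃* DihedralGroup p) := by
  classical
  have : MulAction.IsPretransitive G Ω := hprim.toIsPretransitive
  set H := MulAction.stabilizer G a with hH
  -- `H` does not fix `b`
  have hmove : ∃ h : H, h • b ≠ b := by
    by_contra hc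
    push Not at hc
    have : MulAction.orbit H b = {b} := by
      ext y
      simp only [MulAction.mem_orbit_iff, Set.mem_singleton_iff]
      constructor
      · rintro ⟨h, rfl⟩; exact hc h
      · rintro rfl; exact ⟨1, one_smul _ _⟩
    rw [this] at h2
    simp at h2
  have hab : a ≠ b := by
    rintro rfl
    obtain ⟨h, hh⟩ := hmove
    exact hh h.2
  have : Nontrivial Ω := ⟨a, b, hab⟩
  have hcoat : IsCoatom H :=
    (MulAction.isCoatom_stabilizer_iff_preprimitive (G := G) (X := Ω) a).mpr hprim
  obtain ⟨g, hg⟩ := MulAction.exists_smul_eq G a b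
  set Hb := MulAction.stabilizer G b with hHb
  have hcardb : Nat.card H = Nat.card Hb :=
    Nat.card_congr (MulAction.stabilizerEquivStabilizer hg.symm).toEquiv
  -- index computation
  have hidx : (MulAction.stabilizer H b).index = 2 := by
    rw [MulAction.index_stabilizer, ← h2]
    rfl
  have hK0eq : (H ⊓ Hb).subgroupOf H = MulAction.stabilizer H b := by
    ext x
    simp [Subgroup.mem_subgroupOf, MulAction.mem_stabilizer_iff, hHb, Subgroup.smul_def]
  have hidxH : ((H ⊓ Hb).subgroupOf H).index = 2 := by rw [hK0eq, hidx]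
  have hnormH : ((H ⊓ Hb).subgroupOf H).Normal := Subgroup.normal_of_index_eq_two hidxH
  have hcardK : Nat.card (H ⊓ Hb : Subgroup G) * 2 = Nat.card H := by
    have := Subgroup.card_mul_index ((H ⊓ Hb).subgroupOf H)
    rw [hidxH, Nat.card_congr (Subgroup.subgroupOfEquivOfLe (inf_le_left : H ⊓ Hb ≤ H)).toEquiv] at this
    exact this
  have hidxHb : ((H ⊓ Hb).subgroupOf Hb).index = 2 := by
    have := Subgroup.card_mul_index ((H ⊓ Hb).subgroupOf Hb)
    rw [Nat.card_congr (Subgroup.subgroupOfEquivOfLe (inf_le_right : H ⊓ Hb ≤ Hb)).toEquiv, ← hcardb,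
      ← hcardK] at this
    have hpos : 0 < Nat.card (H ⊓ Hb : Subgroup G) := Nat.card_pos
    exact (Nat.eq_of_mul_eq_mul_left hpos this)
  have hnormHb : ((H ⊓ Hb).subgroupOf Hb).Normal := Subgroup.normal_of_index_eq_two hidxHb
  have hnotle : ¬ Hb ≤ H := by
    intro hle
    have : Hb = H := Subgroup.eq_of_le_of_card_ge hle hcardb.le
    obtain ⟨h, hh⟩ := hmove
    apply hh
    have h3 : (h : G) ∈ Hb := by rw [this]; exact h.2
    exact h3
  set K := H ⊓ Hb with hK
  -- `K` is normal in `G`
  have hKnorm : K.Normal := by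
    have h1 : H ≤ Subgroup.normalizer (K : Set G) := (Subgroup.normal_subgroupOf_iff_le_normalizer inf_le_left).mp hnormH
    have h3 : Hb ≤ Subgroup.normalizer (K : Set G) := (Subgroup.normal_subgroupOf_iff_le_normalizer inf_le_right).mp hnormHb
    have h4 : Subgroup.normalizer (K : Set G) = ⊤ := by
      apply hcoat.2
      refine lt_of_le_of_ne h1 ?_
      intro h
      exact hnotle (h ▸ h3)
    exact Subgroup.normalizer_eq_top_iff.mp h4
  have hKbot : K = ⊥ := eq_bot_of_normal_of_le_stabilizer a K hKnorm inf_le_left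
  have hcard2 : Nat.card H = 2 := by
    rw [← hcardK, hKbot]; simp
  refine ⟨hcard2, ?_⟩
  -- generator of `H`
  obtain ⟨t', ht'⟩ : ∃ t' : H, t' ≠ 1 := by
    have : Nontrivial H := by
      rw [← Finite.one_lt_card_iff_nontrivial]; omega
    exact exists_ne 1
  set t : G := (t' : G) with ht
  have hordt : orderOf t = 2 := by
    have h1 : orderOf t' = 2 := by
      have hdvd : orderOf t' ∣ 2 := hcard2 ▸ orderOf_dvd_natCard t'
      rcases (Nat.dvd_prime Nat.prime_two).mp hdvd with h | h
      · exact absurd (orderOf_eq_one_iff.mp h) ht'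
      · exact h
    rw [ht, Subgroup.orderOf_coe]; exact h1
  obtain ⟨s, hs⟩ : ∃ s : G, s = g * t * g⁻¹ := ⟨_, rfl⟩
  have hords : orderOf s = 2 := by
    rw [hs, ← MulAut.conj_apply, MulEquiv.orderOf_eq]; exact hordt
  have ht1 : t ≠ 1 := ne_one_of_orderOf hordt
  have hsb : s ∈ Hb := by
    rw [hHb, MulAction.mem_stabilizer_iff, ← hg, hs]
    have : t • a = a := t'.2
    simp [mul_smul, this]
  have hsnot : s ∉ H := by
    intro hsH
    have : s ∈ K := ⟨hsH, hsb⟩
    rw [hKbot, Subgroup.mem_bot] at this
    exact (ne_one_of_orderOf hords) this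
  have hts : t ≠ s := by
    intro h
    apply hsnot
    rw [← h]; exact t'.2
  have hHeq : ∀ x : G, x ∈ H → x = 1 ∨ x = t := by
    intro x hx
    by_cases h : (⟨x, hx⟩ : H) = 1
    · left; simpa using congrArg Subtype.val h
    · right
      have h1 := (Nat.card_eq_two_iff' (1 : H)).mp hcard2
      obtain ⟨y, _, hy⟩ := h1
      have e1 := hy _ h
      have e2 := hy _ ht'
      have : (⟨x, hx⟩ : H) = t' := e1.trans e2.symm
      simpa using congrArg Subtype.val this
  have htH : t ∈ H := t'.2
  have hclosure : Subgroup.closure ({t, s} : Set G) = ⊤ := by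
    apply hcoat.2
    refine lt_of_le_of_ne ?_ ?_
    · intro x hx
      rcases hHeq x hx with rfl | rfl
      · exact Subgroup.one_mem _
      · exact Subgroup.subset_closure (by simp)
    · intro h
      apply hsnot
      rw [h]
      exact Subgroup.subset_closure (by simp)
  have htt : t * t = 1 := mul_self_of_orderOf hordt
  have hss : s * s = 1 := mul_self_of_orderOf hords
  obtain ⟨r, hr⟩ : ∃ r : G, r = t * s := ⟨_, rfl⟩
  set n := orderOf r with hn
  obtain ⟨e⟩ := closure_pair_equiv t s hordt hords hts
  rw [← hr, ← hn] at e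
  have eG : G ≃* DihedralGroup n :=
    (Subgroup.topEquiv.symm.trans (MulEquiv.subgroupCongr hclosure.symm)).trans e
  have hcardG : Nat.card G = 2 * n := by
    rw [Nat.card_congr eG.toEquiv, DihedralGroup.nat_card]
  have hcardΩ : Nat.card Ω = n := by
    have h1 := Subgroup.card_mul_index H
    rw [hcard2, hH, MulAction.index_stabilizer_of_transitive, hcardG] at h1
    omega
  have hnpos : 0 < n := orderOf_pos r
  have hr1 : r ≠ 1 := by
    intro h
    have h1 : t * s = 1 := hr ▸ h
    have h3 : t = s⁻¹ := eq_inv_of_mul_eq_one_left h1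
    rw [inv_eq_self_of_orderOf hords] at h3
    exact hts h3
  have hn1 : n ≠ 1 := by
    intro h; exact hr1 (orderOf_eq_one_iff.mp h)
  have hconjr : ∀ x : G, x * r * x⁻¹ = r ∨ x * r * x⁻¹ = r⁻¹ := by
    intro x
    have hx : x ∈ Subgroup.closure ({t, s} : Set G) := by rw [hclosure]; exact Subgroup.mem_top x
    induction hx using Subgroup.closure_induction with
    | mem x hx =>
      right
      rcases hx with rfl | hx
      · rw [hr]; exact Cfsg.Agent.Lib.InvolutionPairs.conj_mul _ s htt hss
      · have hxs : x = s := hx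
        rw [hxs, hr, mul_inv_rev, inv_eq_self_of_orderOf hords, inv_eq_self_of_orderOf hordt]
        have : s * s = 1 := hss
        simp only [mul_assoc, this, mul_one]
    | one => left; simp
    | mul x y _ _ hx hy =>
      have e1 : x * y * r * (x * y)⁻¹ = x * (y * r * y⁻¹) * x⁻¹ := by group
      rw [e1]
      rcases hy with hy | hy
      · rw [hy]; exact hx
      · rw [hy]
        rcases hx with hx | hx
        · right
          have : x * r⁻¹ * x⁻¹ = (x * r * x⁻¹)⁻¹ := by group
          rw [this, hx]
        · left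
          have : x * r⁻¹ * x⁻¹ = (x * r * x⁻¹)⁻¹ := by group
          rw [this, hx, inv_inv]
    | inv x _ hx =>
      rcases hx with hx | hx
      · left
        have h6 : x * r = r * x := by
          calc x * r = x * r * x⁻¹ * x := by group
            _ = r * x := by rw [hx]
        calc x⁻¹ * r * x⁻¹⁻¹ = x⁻¹ * (r * x) := by group
          _ = x⁻¹ * (x * r) := by rw [h6]
          _ = r := by group
      · right
        have h6 : x * r = r⁻¹ * x := by
          calc x * r = x * r * x⁻¹ * x := by group
            _ = r⁻¹ * x := by rw [hx]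
        have h7 : x⁻¹ * r⁻¹ * x = r := by
          calc x⁻¹ * r⁻¹ * x = x⁻¹ * (r⁻¹ * x) := by group
            _ = x⁻¹ * (x * r) := by rw [h6]
            _ = r := by group
        calc x⁻¹ * r * x⁻¹⁻¹ = (x⁻¹ * r⁻¹ * x)⁻¹ := by group
          _ = r⁻¹ := by rw [h7]
  have hnormal : ∀ k : ℕ, (Subgroup.zpowers (r ^ k)).Normal := by
    intro k
    constructor
    intro y hy x
    obtain ⟨m, rfl⟩ := Subgroup.mem_zpowers_iff.mp hy
    have e : x * (r ^ k) ^ m * x⁻¹ = (x * r * x⁻¹) ^ ((k : ℤ) * m) := by
      rw [zpow_mul, zpow_natCast, conj_pow, _root_.conj_zpow]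
    rw [e]
    rcases hconjr x with h | h
    · rw [h, zpow_mul, zpow_natCast]
      exact Subgroup.zpow_mem_zpowers _ _
    · rw [h, inv_zpow, zpow_mul, zpow_natCast]
      exact Subgroup.inv_mem _ (Subgroup.zpow_mem_zpowers _ _)
  refine ⟨n, ?_, ⟨eG⟩⟩
  have hq := Nat.minFac_prime hn1
  set q := n.minFac with hqdef
  have hqdvd : q ∣ n := Nat.minFac_dvd n
  -- the subgroup `⟨r^q⟩`
  have hcardN : Nat.card (Subgroup.zpowers (r ^ q)) = n / q := by
    rw [Nat.card_zpowers, orderOf_pow' r hq.ne_zero, Nat.gcd_eq_right hqdvd]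
  by_cases hbot : Subgroup.zpowers (r ^ q) = ⊥
  · have hone : n / q = 1 := by
      rw [← hcardN, hbot]; simp
    have : n = q := by
      obtain ⟨c, hc⟩ := hqdvd
      rw [hc, Nat.mul_div_cancel_left _ hq.pos] at hone
      rw [hc, hone, mul_one]
    rw [this]; exact hq
  · exfalso
    have hNn := hnormal q
    have hne : Subgroup.zpowers (r ^ q) ≠ ⊥ := hbot
    have hfix : MulAction.fixedPoints (Subgroup.zpowers (r ^ q)) Ω ≠ Set.univ := by
      intro hfix
      apply hne
      rw [eq_bot_iff]
      intro y hy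
      rw [Subgroup.mem_bot]
      apply FaithfulSMul.eq_of_smul_eq_smul (α := Ω)
      intro x
      have hx : x ∈ MulAction.fixedPoints (Subgroup.zpowers (r ^ q)) Ω := by rw [hfix]; trivial
      have := hx ⟨y, hy⟩
      simpa using this
    have htr : MulAction.IsPretransitive (Subgroup.zpowers (r ^ q)) Ω :=
      MulAction.IsQuasiPreprimitive.isPretransitive_of_normal hfix
    have hdvd : Nat.card Ω ∣ Nat.card (Subgroup.zpowers (r ^ q)) := by
      rw [← MulAction.index_stabilizer_of_transitive (Subgroup.zpowers (r ^ q)) a]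
      exact Subgroup.index_dvd_card _
    rw [hcardΩ, hcardN] at hdvd
    have hpos : 0 < n / q := Nat.div_pos (Nat.le_of_dvd hnpos hqdvd) hq.pos
    have hle := Nat.le_of_dvd hpos hdvd
    have hlt : n / q < n := Nat.div_lt_self hnpos hq.one_lt
    omega

end Cfsg.Agent.S3684
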