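import Mathlib
import Cfsg.Statements.S3693
import Cfsg.Agent.Lib.ThompsonWielandtPerm

set_option autoImplicit false
open Cfsg

namespace Cfsg.Agent.S3693

open Cfsg.Agent.Lib.ThompsonWielandt Cfsg.Agent.Lib.ThompsonWielandtPerm Cfsg.Agent.Lib.CharTwoLocal Cfsg.Agent.Lib.PCore

/-- Let a finite group G act faithfully and primitively on a set Ω, let a and b be points such that the orbit Δ of b under the stabilizer H of a has length d ≥ 2, and consider the permutation group induced on Δ by the elements of H fixing b. If that induced group has trivial Fitting subgroup (no non-trivial nilpotent normal subgroup), then the two-point stabilizer of a and b has trivial Fitting subgroup and the order of H divides d! · ((d - 1)!)^d. -/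
theorem result {G Ω : Type*} [Group G] [Finite G] [MulAction G Ω] [FaithfulSMul G Ω] [Finite Ω]
    (hprim : MulAction.IsPreprimitive G Ω) (a b : Ω) (d : ℕ) (hd : Nat.card (MulAction.orbit (MulAction.stabilizer G a) b) = d) (h2 : 2 ≤ d)
    (hF : Cfsg.fittingSubgroup ↥(((MulAction.stabilizer G b).subgroupOf (MulAction.stabilizer G a)).map (MulAction.toPermHom (MulAction.stabilizer G a) (MulAction.orbit (MulAction.stabilizer G a) b))) = ⊥) :
    Cfsg.fittingSubgroup ↥(MulAction.stabilizer G a ⊓ MulAction.stabilizer G b) = ⊥ ∧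
      Nat.card (MulAction.stabilizer G a) ∣ Nat.factorial d * (Nat.factorial (d - 1)) ^ d := by
  have hF' := fitting_inf_bot hprim a b (by omega) hF
  refine ⟨hF', card_dvd_of_bot a b hd ?_⟩
  by_contra hcon
  push_neg at hcon
  have hP := pair_of_action hprim a b (by omega)
  obtain ⟨p, hp, hpg, -⟩ := hP.main hcon.1 hcon.2
  have := Fact.mk hp
  set M := MulAction.stabilizer G a with hM
  set N := MulAction.stabilizer G b with hN
  have hXp : IsPGroup p (A2 M N) := hpg.to_le le_sup_left
  have hle : A2 M N ≤ Oc p (M ⊓ N) := by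
    refine le_Oc (le_inf (A2_le_left M N) (A2_le_right M N)) hXp ?_
    intro h hh x hx
    exact Cfsg.Agent.Lib.ThompsonTrans.conj_mem_of_norm (M_norm_A2 M N hh.1) hx
  have hbot : Oc p (M ⊓ N) = ⊥ := by
    rw [Oc_eq_bot_iff, eq_bot_iff, ← hF']
    exact pCore_le_fittingSubgroup p
  rw [hbot, le_bot_iff] at hle
  exact hcon.1 hle

end Cfsg.Agent.S3693
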