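import Cfsg.Statements.S3696
import Mathlib

set_option autoImplicit false
open Cfsg

namespace Cfsg.Agent.S3696

universe u

open scoped Pointwise

theorem amgm (a b s t : ℕ) : a ^ s * b ^ t * (s + t) ^ (s + t) ≤ s ^ s * t ^ t * (a + b) ^ (s + t) := by
  rcases Nat.eq_zero_or_pos s with rfl | hs
  · simp only [pow_zero, one_mul, zero_add]
    rw [mul_comm]
    exact Nat.mul_le_mul_left _ (Nat.pow_le_pow_left (Nat.le_add_left _ _) _)
  rcases Nat.eq_zero_or_pos t with rfl | ht
  · simp only [pow_zero, mul_one, add_zero]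
    rw [mul_comm]
    exact Nat.mul_le_mul_left _ (Nat.pow_le_pow_left (Nat.le_add_right _ _) _)
  have hs' : (0 : ℝ) < s := by exact_mod_cast hs
  have ht' : (0 : ℝ) < t := by exact_mod_cast ht
  have hst : (0 : ℝ) < (s : ℝ) + t := by positivity
  have h := Real.geom_mean_le_arith_mean2_weighted (w₁ := (s : ℝ) / (s + t)) (w₂ := (t : ℝ) / (s + t))
    (p₁ := (a : ℝ) / s) (p₂ := (b : ℝ) / t) (by positivity) (by positivity) (by positivity) (by positivity)
    (by field_simp)
  have h2 : (s : ℝ) / (s + t) * ((a : ℝ) / s) + (t : ℝ) / (s + t) * ((b : ℝ) / t) = ((a : ℝ) + b) / (s + t) := by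
    field_simp
  rw [h2] at h
  have h3 := pow_le_pow_left₀ (by positivity) h (s + t)
  have h4 : (((a : ℝ) / s) ^ ((s : ℝ) / (s + t)) * ((b : ℝ) / t) ^ ((t : ℝ) / (s + t))) ^ (s + t)
      = ((a : ℝ) / s) ^ s * ((b : ℝ) / t) ^ t := by
    rw [mul_pow, ← Real.rpow_natCast (((a : ℝ) / s) ^ ((s : ℝ) / (s + t))),
      ← Real.rpow_natCast (((b : ℝ) / t) ^ ((t : ℝ) / (s + t))),
      ← Real.rpow_mul (by positivity), ← Real.rpow_mul (by positivity)]
    have e1 : (s : ℝ) / (s + t) * ((s + t : ℕ) : ℝ) = s := by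
      push_cast
      field_simp
    have e2 : (t : ℝ) / (s + t) * ((s + t : ℕ) : ℝ) = t := by
      push_cast
      field_simp
    rw [e1, e2, Real.rpow_natCast, Real.rpow_natCast]
  rw [h4, div_pow, div_pow, div_pow] at h3
  have h5 : ((a : ℝ) ^ s * b ^ t) * ((s + t : ℝ)) ^ (s + t) ≤ (s : ℝ) ^ s * t ^ t * ((a : ℝ) + b) ^ (s + t) := by
    rw [div_mul_div_comm, div_le_div_iff₀ (by positivity) (by positivity)] at h3
    linarith
  exact_mod_cast h5

theorem pow_step {q s : ℕ} (hs : 1 ≤ s) (h : 2 ^ s ≤ q) : q * s ^ s ≤ q ^ s := by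
  obtain ⟨r, rfl⟩ : ∃ r, s = r + 1 := ⟨s - 1, by omega⟩
  rw [pow_succ' q r]
  apply Nat.mul_le_mul_left
  have h1 : r + 1 ≤ 2 ^ r := Nat.lt_two_pow_self
  calc (r + 1) ^ (r + 1) ≤ (2 ^ r) ^ (r + 1) := Nat.pow_le_pow_left h1 _
    _ = (2 ^ (r + 1)) ^ r := by rw [← pow_mul, ← pow_mul, mul_comm]
    _ ≤ q ^ r := Nat.pow_le_pow_left h _

theorem key (p : ℕ) [hp : Fact p.Prime] : ∀ (n : ℕ) (Δ : Type u) [Finite Δ], Nat.card Δ = n →
    ∀ (G : Type u) [CommGroup G] [Finite G] (ρ : G →* Equiv.Perm Δ), Function.Injective ρ → IsPGroup p G →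
    ∀ k, Nat.card (powMonoidHom p : G →* G).ker = p ^ k → Nat.card G * k ^ k ≤ n ^ k := by
  intro n
  induction n using Nat.strong_induction_on with
  | _ n ih =>
  intro Δ _ hn G _ _ ρ hρ hG k hk
  by_cases hGt : Subsingleton G
  · have h1 : Nat.card (powMonoidHom p : G →* G).ker = 1 := Nat.card_unique
    rw [h1] at hk
    have h2 : k = 0 := by
      by_contra h
      have := hp.out.one_lt
      have h3 : 1 < p ^ k := Nat.one_lt_pow h this
      omega
    subst h2
    simp [Nat.card_unique]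
  rw [not_subsingleton_iff_nontrivial] at hGt
  obtain ⟨x0, hx0⟩ := exists_ne (1 : G)
  have hρx : ρ x0 ≠ 1 := fun h => hx0 (hρ (by rw [h, map_one]))
  obtain ⟨a, ha⟩ : ∃ a, ρ x0 a ≠ a := by
    by_contra h
    push Not at h
    exact hρx (Equiv.ext h)
  letI act : MulAction G Δ := MulAction.compHom Δ ρ
  have hsmul : ∀ (g : G) (d : Δ), g • d = ρ g d := fun _ _ => rfl
  let O : Set Δ := MulAction.orbit G a
  let K : Subgroup G := MulAction.stabilizer G a
  have hKfix : ∀ g ∈ K, ∀ d ∈ O, ρ g d = d := by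
    rintro g hg d ⟨h, rfl⟩
    have hg' : g • a = a := hg
    show g • (h • a) = h • a
    rw [smul_smul, mul_comm, ← smul_smul, hg']
  have hq : K.index = O.ncard := MulAction.index_stabilizer G a
  have hcardK : Nat.card K * O.ncard = Nat.card G := by
    rw [← hq]
    exact K.card_mul_index
  have hOn : O.ncard + (Oᶜ).ncard = Nat.card Δ := Set.ncard_add_ncard_compl O
  have hqpos : 0 < O.ncard := by
    rw [Set.ncard_pos]
    exact ⟨a, MulAction.mem_orbit_self a⟩
  -- the action on the complement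
  let S : SubMulAction G Δ :=
    { carrier := Oᶜ
      smul_mem' := by
        intro g d hd hgd
        apply hd
        have h1 : g⁻¹ • (g • d) ∈ O := by
          obtain ⟨h, hh⟩ := hgd
          refine ⟨g⁻¹ * h, ?_⟩
          rw [← hh]
          exact mul_smul _ _ _
        rwa [inv_smul_smul] at h1 }
  let ρ' : G →* Equiv.Perm S := MulAction.toPermHom G S
  have hρ' : ∀ g (d : S), ((ρ' g d : S) : Δ) = ρ g d := fun _ _ => rfl
  have hn' : Nat.card S = (Oᶜ).ncard := rfl
  have hK_pG : IsPGroup p K := hG.to_subgroup K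
  -- the elements of order `p`
  let E := (powMonoidHom p : G →* G).ker
  have hE_K : IsPGroup p (powMonoidHom p : K →* K).ker := hK_pG.to_subgroup _
  obtain ⟨k', hk'⟩ := IsPGroup.iff_card.1 hE_K
  have hcardE : Nat.card (powMonoidHom p : K →* K).ker * K.relIndex E = p ^ k := by
    rw [← hk]
    have h1 : Nat.card (powMonoidHom p : K →* K).ker = Nat.card (K.subgroupOf E) := by
      apply Nat.card_congr
      refine
        { toFun := fun y => ⟨⟨y.1.1, ?_⟩, ?_⟩
          invFun := fun y => ⟨⟨y.1.1, ?_⟩, ?_⟩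
          left_inv := fun y => rfl
          right_inv := fun y => rfl }
      · have h2 : (y.1) ^ p = 1 := y.2
        have h3 := congrArg Subtype.val h2
        exact h3
      · exact y.1.2
      · exact y.2
      · apply Subtype.ext
        exact y.1.2
    rw [h1]
    exact (K.subgroupOf E).card_mul_index
  rw [hk'] at hcardE
  have hr_dvd : K.relIndex E ∣ O.ncard := by
    rw [← hq]
    exact Subgroup.relIndex_dvd_index_of_normal K E
  have hle : k' ≤ k := by
    have h1 : p ^ k' ∣ p ^ k := ⟨_, hcardE.symm⟩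
    exact (Nat.pow_dvd_pow_iff_le_right hp.out.one_lt).1 h1
  obtain ⟨s, rfl⟩ : ∃ s, k = k' + s := ⟨k - k', by omega⟩
  have hr : K.relIndex E = p ^ s := by
    have hp0 : 0 < p ^ k' := pow_pos hp.out.pos _
    apply Nat.eq_of_mul_eq_mul_left hp0
    rw [hcardE, pow_add]
  rw [hr] at hr_dvd
  have hfix_ext : ∀ g : G, (∀ d ∈ O, ρ g d = d) → (∀ d : S, ρ' g d = d) → g = 1 := by
    intro g h1 h2
    apply hρ
    rw [map_one]
    apply Equiv.ext
    intro d
    by_cases hd : d ∈ O
    · exact h1 d hd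
    · exact congrArg Subtype.val (h2 ⟨d, hd⟩)
  have hn2 : n = O.ncard + (Oᶜ).ncard := by rw [hOn, hn]
  rw [hn2]
  rcases Nat.eq_zero_or_pos s with rfl | hs
  · -- the elements of order `p` fix the orbit
    rw [pow_zero] at hr
    have hEK : E ≤ K := Subgroup.relIndex_eq_one.1 hr
    have hinj : Function.Injective ρ' := by
      rw [injective_iff_map_eq_one]
      intro x hx
      by_contra hx1
      obtain ⟨m, hm⟩ := IsPGroup.iff_orderOf.1 hG x
      have hm0 : m ≠ 0 := by
        rintro rfl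
        rw [pow_zero, orderOf_eq_one_iff] at hm
        exact hx1 hm
      obtain ⟨j, rfl⟩ := Nat.exists_eq_succ_of_ne_zero hm0
      have hy1 : (x ^ p ^ j) ^ p = 1 := by
        rw [← pow_mul, ← pow_succ, ← hm]
        exact pow_orderOf_eq_one x
      have hy2 : x ^ p ^ j ≠ 1 := by
        apply pow_ne_one_of_lt_orderOf
        · exact (pow_pos hp.out.pos _).ne'
        · rw [hm]
          exact Nat.pow_lt_pow_right hp.out.one_lt (Nat.lt_succ_self j)
      apply hy2
      apply hfix_ext
      · exact hKfix _ (hEK hy1)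
      · intro d
        rw [map_pow, hx, one_pow]
        rfl
    have hlt : (Oᶜ).ncard < n := by omega
    have := ih _ hlt S hn' G ρ' hinj hG (k' + 0) hk
    refine this.trans (Nat.pow_le_pow_left (by omega) _)
  · let ρ2 : K →* Equiv.Perm S := ρ'.comp K.subtype
    have hinj : Function.Injective ρ2 := by
      rw [injective_iff_map_eq_one]
      intro x hx
      apply Subtype.ext
      apply hfix_ext
      · exact hKfix _ x.2
      · intro d
        rw [show ρ' x.1 = ρ2 x from rfl, hx]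
        rfl
    have hlt : (Oᶜ).ncard < n := by omega
    have hIH := ih _ hlt S hn' K ρ2 hinj hK_pG k' hk'
    have h2s : 2 ^ s ≤ O.ncard := by
      have h1 : p ^ s ≤ O.ncard := Nat.le_of_dvd hqpos hr_dvd
      exact (Nat.pow_le_pow_left hp.out.two_le s).trans h1
    have h1 := pow_step hs h2s
    have h2 := amgm O.ncard (Oᶜ).ncard s k'
    have hpos : 0 < s ^ s * k' ^ k' := Nat.mul_pos Nat.pow_self_pos Nat.pow_self_pos
    apply Nat.le_of_mul_le_mul_right _ hpos
    rw [← hcardK]
    have e1 : k' + s = s + k' := Nat.add_comm _ _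
    rw [e1]
    calc Nat.card K * O.ncard * (s + k') ^ (s + k') * (s ^ s * k' ^ k')
        = (O.ncard * s ^ s) * (Nat.card K * k' ^ k') * (s + k') ^ (s + k') := by ring
      _ ≤ O.ncard ^ s * (Oᶜ).ncard ^ k' * (s + k') ^ (s + k') :=
          Nat.mul_le_mul_right _ (Nat.mul_le_mul h1 hIH)
      _ ≤ s ^ s * k' ^ k' * (O.ncard + (Oᶜ).ncard) ^ (s + k') := h2
      _ = (O.ncard + (Oᶜ).ncard) ^ (s + k') * (s ^ s * k' ^ k') := by ring

/-- Let p be a prime, Ω a finite set with n ≥ p elements, and A an abelian p-subgroup of the symmetric group on Ω whose elements of order dividing p number p^k (so k is the rank of A). Then |A| · k^k ≤ n^k, that is, |A| ≤ (n/k)^k. -/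
theorem result {Ω : Type*} [Fintype Ω] [DecidableEq Ω]
    (p : ℕ) (hp : p.Prime) (hn : p ≤ Fintype.card Ω) (A : Subgroup (Equiv.Perm Ω)) (hA : IsPGroup p A) (hab : IsMulCommutative A)
    (k : ℕ) (hk : Nat.card {x : A // x ^ p = 1} = p ^ k) :
    Nat.card A * k ^ k ≤ Fintype.card Ω ^ k := by
  haveI : Fact p.Prime := ⟨hp⟩
  letI : CommGroup ↥A := { (inferInstance : Group ↥A) with mul_comm := fun a b => hab.is_comm.comm a b }
  have h1 : Nat.card (powMonoidHom p : ↥A →* ↥A).ker = p ^ k := by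
    rw [← hk]
    exact Nat.card_congr (Equiv.subtypeEquivRight (fun x => Iff.rfl))
  have h2 := key p _ Ω (Nat.card_eq_fintype_card) ↥A A.subtype A.subtype_injective hA k h1
  exact h2

end Cfsg.Agent.S3696
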