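import Mathlib
import Cfsg.Agent.Lib.H108Final

set_option autoImplicit false
set_option maxRecDepth 100000
open Cfsg

namespace Cfsg.Agent.S3701

open Cfsg.Agent.Lib.TiTau Cfsg.Agent.Lib.H108Model Cfsg.Agent.Lib.H108Final DihedralGroup
open Cfsg.Agent.Lib.S3x3Model (S3)

abbrev Pm := Equiv.Perm (Fin 9)

/-- The action of one factor. -/
def psi (ρ σ : Pm) : S3 → Pm
  | r i => ρ ^ (i.val)
  | sr i => σ * ρ ^ (i.val)

/-- The three factors. -/
def psi0 : S3 → Pm := psi (Equiv.swap 0 1 * Equiv.swap 1 2) (Equiv.swap 0 1)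
def psi1 : S3 → Pm := psi (Equiv.swap 3 4 * Equiv.swap 4 5) (Equiv.swap 3 4)
def psi2 : S3 → Pm := psi (Equiv.swap 6 7 * Equiv.swap 7 8) (Equiv.swap 6 7)

theorem psi0_mul : ∀ x y : S3, psi0 (x * y) = psi0 x * psi0 y := by decide +kernel
theorem psi1_mul : ∀ x y : S3, psi1 (x * y) = psi1 x * psi1 y := by decide +kernel
theorem psi2_mul : ∀ x y : S3, psi2 (x * y) = psi2 x * psi2 y := by decide +kernel
theorem comm01 : ∀ x y : S3, psi0 x * psi1 y = psi1 y * psi0 x := by decide +kernel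
theorem comm02 : ∀ x y : S3, psi0 x * psi2 y = psi2 y * psi0 x := by decide +kernel
theorem comm12 : ∀ x y : S3, psi1 x * psi2 y = psi2 y * psi1 x := by decide +kernel

/-- The permutation representation of the model. -/
def Psi (v : HM) : Pm := psi0 v.1.1 * psi1 v.1.2.1 * psi2 v.1.2.2

theorem Psi_mul (v w : HM) : Psi (v * w) = Psi v * Psi w := by
  show psi0 (v.1.1 * w.1.1) * psi1 (v.1.2.1 * w.1.2.1) * psi2 (v.1.2.2 * w.1.2.2) = _
  rw [psi0_mul, psi1_mul, psi2_mul]
  unfold Psi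
  have h1 := comm01 w.1.1 v.1.2.1
  have h2 := comm02 w.1.1 v.1.2.2
  have h3 := comm12 w.1.2.1 v.1.2.2
  generalize psi0 v.1.1 = A at *
  generalize psi0 w.1.1 = a at *
  generalize psi1 v.1.2.1 = B at *
  generalize psi1 w.1.2.1 = b at *
  generalize psi2 v.1.2.2 = C at *
  generalize psi2 w.1.2.2 = c at *
  calc A * a * (B * b) * (C * c) = A * (a * B) * (b * C) * c := by group
    _ = A * B * (a * C) * b * c := by rw [h1, h3]; group
    _ = A * B * C * (a * b * c) := by rw [h2]; group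

theorem Psi_ker : ∀ v : HM, Psi v = 1 → v = 1 := by decide +kernel

/-- The permutation representation as a homomorphism. -/
def PsiHom : HM →* Pm := MonoidHom.mk' Psi Psi_mul

theorem Psi_inj : Function.Injective PsiHom :=
  (injective_iff_map_eq_one PsiHom).mpr Psi_ker

def g0 : HM := ⟨(r 1, 1, 1), by decide⟩
def g1 : HM := ⟨(1, r 1, 1), by decide⟩
def g2 : HM := ⟨(1, 1, r 1), by decide⟩
def g3 : HM := ⟨(sr 0, sr 0, 1), by decide⟩
def g4 : HM := ⟨(sr 0, 1, sr 0), by decide⟩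

theorem nf : ∀ v : HM, ∃ a b c : Fin 3, ∃ d e : Fin 2,
    v = g0 ^ (a : ℕ) * g1 ^ (b : ℕ) * g2 ^ (c : ℕ) * g3 ^ (d : ℕ) * g4 ^ (e : ℕ) := by
  decide +kernel

theorem Psi_g0 : Psi g0 = Equiv.swap (0 : Fin 9) 1 * Equiv.swap 1 2 := by decide +kernel
theorem Psi_g1 : Psi g1 = Equiv.swap (3 : Fin 9) 4 * Equiv.swap 4 5 := by decide +kernel
theorem Psi_g2 : Psi g2 = Equiv.swap (6 : Fin 9) 7 * Equiv.swap 7 8 := by decide +kernel
theorem Psi_g3 : Psi g3 = Equiv.swap (0 : Fin 9) 1 * Equiv.swap 3 4 := by decide +kernel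
theorem Psi_g4 : Psi g4 = Equiv.swap (0 : Fin 9) 1 * Equiv.swap 6 7 := by decide +kernel

theorem closure_eq : Subgroup.closure ({Equiv.swap (0 : Fin 9) 1 * Equiv.swap 1 2,
    Equiv.swap (3 : Fin 9) 4 * Equiv.swap 4 5, Equiv.swap (6 : Fin 9) 7 * Equiv.swap 7 8,
    Equiv.swap (0 : Fin 9) 1 * Equiv.swap 3 4, Equiv.swap (0 : Fin 9) 1 * Equiv.swap 6 7} :
      Set (Equiv.Perm (Fin 9))) = PsiHom.range := by
  apply le_antisymm
  · rw [Subgroup.closure_le]
    rintro x (rfl | rfl | rfl | rfl | rfl)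
    · exact ⟨g0, Psi_g0⟩
    · exact ⟨g1, Psi_g1⟩
    · exact ⟨g2, Psi_g2⟩
    · exact ⟨g3, Psi_g3⟩
    · exact ⟨g4, Psi_g4⟩
  · rintro _ ⟨v, rfl⟩
    obtain ⟨a, b, c, d, e, rfl⟩ := nf v
    simp only [map_mul, map_pow]
    refine mul_mem (mul_mem (mul_mem (mul_mem (pow_mem ?_ _) (pow_mem ?_ _)) (pow_mem ?_ _))
      (pow_mem ?_ _)) (pow_mem ?_ _)
    · show Psi g0 ∈ _
      rw [Psi_g0]
      exact Subgroup.subset_closure (by simp)
    · show Psi g1 ∈ _
      rw [Psi_g1]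
      exact Subgroup.subset_closure (by simp)
    · show Psi g2 ∈ _
      rw [Psi_g2]
      exact Subgroup.subset_closure (by simp)
    · show Psi g3 ∈ _
      rw [Psi_g3]
      exact Subgroup.subset_closure (by simp)
    · show Psi g4 ∈ _
      rw [Psi_g4]
      exact Subgroup.subset_closure (by simp)

section Setup

variable {G : Type*} [Group G] {H T : Subgroup G} {φ : HM ≃* H}

theorem isT_of_mem [Finite G] (hT : Nat.card T = 27) {w : HM} (h : ph φ w ∈ T) : isT w = true := by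
  apply isT_of_pow
  have h1 : (ph φ w) ^ 27 = 1 := by
    have h2 := pow_card_eq_one' (G := T) (x := ⟨ph φ w, h⟩)
    rw [hT] at h2
    exact congrArg Subtype.val h2
  rw [← ph_pow] at h1
  exact ph_inj (h1.trans ph_one.symm)

theorem mem_iff [Finite G] (hTH : T ≤ H) (hT : Nat.card T = 27) (w : HM) :
    ph φ w ∈ T ↔ isT w = true := by
  classical
  refine ⟨isT_of_mem hT, fun hw => ?_⟩
  let S' : Finset HM := Finset.univ.filter (fun w => ph φ w ∈ T)
  have hsub : S' ⊆ Finset.univ.filter (fun w : HM => isT w = true) := by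
    intro v hv
    simp only [S', Finset.mem_filter, Finset.mem_univ, true_and] at hv ⊢
    exact isT_of_mem hT hv
  have hcard : S'.card = 27 := by
    rw [← hT]
    let f : {v : HM // ph φ v ∈ T} → T := fun x => ⟨ph φ x.1, x.2⟩
    have hf : Function.Bijective f := by
      constructor
      · intro x y h
        have h' : ph φ x.1 = ph φ y.1 := congrArg (fun t : T => (t : G)) h
        exact Subtype.ext (ph_inj h')
      · intro t
        obtain ⟨v, hv⟩ := exists_ph (φ := φ) (hTH t.2)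
        exact ⟨⟨v, by rw [hv]; exact t.2⟩, Subtype.ext hv⟩
    rw [← Nat.card_congr (Equiv.ofBijective f hf), Nat.card_eq_fintype_card, Fintype.card_subtype]
  have h5 := Finset.eq_of_subset_of_card_le hsub (by rw [card_isT, hcard])
  have h6 : w ∈ S' := by
    rw [h5]
    simp [hw]
  simpa [S'] using h6

theorem ctx [Finite G] (hTH : T ≤ H) (hT : Nat.card T = 27)
    (hN : Subgroup.normalizer (T : Set G) = H)
    (hC : ∀ t ∈ T, t ≠ 1 → Subgroup.centralizer ({t} : Set G) ≤ H) : Ctx 2 T H φ where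
  le_N := hTH
  pow_mem := fun w => by
    rw [← ph_pow]
    exact (mem_iff hTH hT _).mpr (isT_sq w)
  ti := by
    intro t ht ht1 z hz
    rw [← hN]
    have hcomm : ∀ x ∈ T, ∀ y ∈ T, x * y = y * x := by
      intro x hx y hy
      obtain ⟨v, rfl⟩ := exists_ph (φ := φ) (hTH hx)
      obtain ⟨v', rfl⟩ := exists_ph (φ := φ) (hTH hy)
      rw [← ph_mul, ← ph_mul, isT_comm _ _ (isT_of_mem hT hx) (isT_of_mem hT hy)]
    apply Subgroup.mem_normalizer_fintype
    intro x hx
    have h1 : z * t * z⁻¹ ≠ 1 := by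
      intro h
      apply ht1
      have : t = z⁻¹ * (z * t * z⁻¹) * z := by group
      rw [this, h]
      group
    have h2 : z * x * z⁻¹ ∈ Subgroup.centralizer ({z * t * z⁻¹} : Set G) := by
      rw [Subgroup.mem_centralizer_singleton_iff]
      have h5 := hcomm x hx t ht
      calc z * x * z⁻¹ * (z * t * z⁻¹) = z * (x * t) * z⁻¹ := by group
        _ = z * (t * x) * z⁻¹ := by rw [h5]
        _ = z * t * z⁻¹ * (z * x * z⁻¹) := by group
    have h3 := hC _ hz h1 h2
    obtain ⟨w, hw⟩ := exists_ph (φ := φ) h3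
    have h4 : (z * x * z⁻¹) ^ 27 = 1 := by
      have h6 := pow_card_eq_one' (G := T) (x := ⟨x, hx⟩)
      rw [hT] at h6
      have h7 : x ^ 27 = 1 := congrArg Subtype.val h6
      rw [conj_pow, h7]
      group
    show z * x * z⁻¹ ∈ T
    rw [← hw]
    apply (mem_iff hTH hT _).mpr
    apply isT_of_pow
    rw [← hw, ← ph_pow] at h4
    exact ph_inj (h4.trans ph_one.symm)

theorem pow27 (w : HM) (k : ℕ) (h : w ^ (3 ^ k) = 1) : w ^ 27 = 1 := by
  have h1 := orderOf_dvd_of_pow_eq_one h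
  obtain ⟨m, hm, hm2⟩ := (Nat.dvd_prime_pow Nat.prime_three).mp h1
  have h2 : orderOf w ∣ 108 := by
    rw [← card_HM]
    exact orderOf_dvd_card
  rw [hm2] at h2
  have h3 : m ≤ 3 := by
    by_contra hlt
    have h4 : 3 ^ 4 ∣ 3 ^ m := pow_dvd_pow 3 (by omega)
    have h5 : 3 ^ 4 ∣ 108 := h4.trans h2
    norm_num at h5
  rw [← orderOf_dvd_iff_pow_eq_one, hm2]
  have h6 : 3 ^ m ∣ 3 ^ 3 := pow_dvd_pow 3 h3
  simpa using h6

theorem exists_sylow [Finite G] (hTH : T ≤ H) (hT : Nat.card T = 27)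
    (hN : Subgroup.normalizer (T : Set G) = H) (φ : HM ≃* H) : ∃ P : Sylow 3 G, (P : Subgroup G) = T := by
  have hp : IsPGroup 3 T := IsPGroup.of_card (n := 3) (by rw [hT]; norm_num)
  obtain ⟨P, hP⟩ := hp.exists_le_sylow
  refine ⟨P, ?_⟩
  by_contra hne
  let T₀ : Subgroup P := T.subgroupOf P
  have hT₀ : T₀ < ⊤ := by
    rw [lt_top_iff_ne_top]
    intro h
    apply hne
    apply le_antisymm ?_ hP
    intro x hx
    have h2 : (⟨x, hx⟩ : P) ∈ T₀ := by
      rw [h]
      trivial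
    exact h2
  have : Group.IsNilpotent P := P.isPGroup'.isNilpotent
  have hn := Group.normalizerCondition_of_isNilpotent T₀ hT₀
  obtain ⟨g, hg1, hg2⟩ := SetLike.exists_of_lt hn
  have hgN : (g : G) ∈ H := by
    rw [← hN]
    apply Subgroup.mem_normalizer_fintype
    intro x hx
    have h1 : (⟨x, hP hx⟩ : P) ∈ T₀ := hx
    have h2 := (Subgroup.mem_normalizer_iff.mp hg1 _).mp h1
    exact h2
  obtain ⟨w, hw⟩ := exists_ph (φ := φ) hgN
  obtain ⟨k, hk⟩ := P.isPGroup' g
  apply hg2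
  have h3 : w ^ (3 ^ k) = 1 := by
    have h4 : (g : G) ^ (3 ^ k) = 1 := congrArg Subtype.val hk
    rw [← hw, ← ph_pow] at h4
    exact ph_inj (h4.trans ph_one.symm)
  have h5 : ph φ w ∈ T := (mem_iff hTH hT w).mpr (isT_of_pow w (pow27 w k h3))
  show (g : G) ∈ T
  rw [← hw]
  exact h5

end Setup

/-- Let H₀ ≤ Sym(9) be generated by the 3-cycles (1 2 3), (4 5 6), (7 8 9) and the involutions (1 2)(4 5), (1 2)(7 8) (a group of order 108, elementary abelian of order 27 extended by a four-group). Let G be a finite group with a subgroup H ≅ H₀, and T ≤ H of order 27 (a Sylow 3-subgroup of H) with N_G(T) = H and C_G(t) ≤ H for every t ≠ 1 in T. Then G = H. -/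
theorem result {G : Type*} [Group G] [Finite G] (H : Subgroup G)
    (hH : Nonempty (↥H ≃* ↥(Subgroup.closure ({Equiv.swap (0 : Fin 9) 1 * Equiv.swap 1 2, Equiv.swap (3 : Fin 9) 4 * Equiv.swap 4 5, Equiv.swap (6 : Fin 9) 7 * Equiv.swap 7 8,
        Equiv.swap (0 : Fin 9) 1 * Equiv.swap 3 4, Equiv.swap (0 : Fin 9) 1 * Equiv.swap 6 7} : Set (Equiv.Perm (Fin 9))))))
    (T : Subgroup G) (hTH : T ≤ H) (hT : Nat.card T = 27) (hN : Subgroup.normalizer (T : Set G) = H)
    (hC : ∀ t ∈ T, t ≠ 1 → Subgroup.centralizer ({t} : Set G) ≤ H) : H = ⊤ := by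
  classical
  let _ := Fintype.ofFinite G
  obtain ⟨e⟩ := hH
  have hinj : Function.Injective PsiHom := Psi_inj
  let φ : HM ≃* H := ((MonoidHom.ofInjective hinj).trans (MulEquiv.subgroupCongr closure_eq.symm)).trans
    e.symm
  have c : Ctx 2 T H φ := ctx hTH hT hN hC
  obtain ⟨P, rfl⟩ := exists_sylow hTH hT hN φ
  have hE : Cfsg.IsElementaryAbelian 3 (P : Subgroup G) := by
    refine ⟨⟨⟨fun x y => Subtype.ext ?_⟩⟩, ?_⟩
    · obtain ⟨v, hv⟩ := exists_ph (φ := φ) (hTH x.2)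
      obtain ⟨v', hv'⟩ := exists_ph (φ := φ) (hTH y.2)
      show (x : G) * y = y * x
      have h1 : isT v = true := (mem_iff hTH hT v).mp (by rw [hv]; exact x.2)
      have h2 : isT v' = true := (mem_iff hTH hT v').mp (by rw [hv']; exact y.2)
      rw [← hv, ← hv', ← ph_mul, ← ph_mul, isT_comm _ _ h1 h2]
    · intro x hx
      obtain ⟨v, rfl⟩ := exists_ph (φ := φ) (hTH hx)
      rw [← ph_pow, isT_pow3 _ ((mem_iff hTH hT v).mp hx), ph_one]
  have hn := final_step P hE hT c (mem_iff hTH hT)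
  rw [← hN]
  exact Subgroup.normalizer_eq_top_iff.mpr hn

end Cfsg.Agent.S3701
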