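import Mathlib
import Cfsg.Prelude.Def_Solvable
import Cfsg.Prelude.Def_TwoFusion
import Cfsg.Agent.Lib.M648Final
import Cfsg.Agent.Lib.PCore

set_option autoImplicit false
open Cfsg

namespace Cfsg.Agent.S3702

open Cfsg.Agent.Lib.TiTau Cfsg.Agent.Lib.TiSet Cfsg.Agent.Lib.M648Model Cfsg.Agent.Lib.M648Deg
open Cfsg.Agent.Lib.M648Final Cfsg.Agent.Lib.H108Final Cfsg.Agent.Lib.CharBasic
open Cfsg.Agent.Lib.CharKernel

section Setup

variable {G : Type*} [Group G] {H : Subgroup G} {φ : M648 ≃* H}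

/-- Membership in `O₃(H)`. -/
theorem mem_J [Finite G] (w : M648) : ph φ w ∈ (Cfsg.pCore 3 ↥H).map H.subtype ↔ w.2 = 0 := by
  classical
  haveI : Fact (Nat.Prime 3) := ⟨Nat.prime_three⟩
  set P := Cfsg.pCore 3 ↥H with hP
  have hPn : P.Normal := by
    haveI := Cfsg.Agent.Lib.PCore.pCore_characteristic (G := ↥H) 3
    exact Subgroup.normal_of_characteristic _
  have hPp : IsPGroup 3 P := Cfsg.Agent.Lib.PCore.isPGroup_pCore 3
  have hc81 : ∀ v : M648, φ v ∈ P → c81 v = 1 := by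
    intro v hv
    obtain ⟨k, hk⟩ := hPp ⟨φ v, hv⟩
    have h1 : φ v ^ (3 ^ k) = 1 := congrArg Subtype.val hk
    rw [← map_pow] at h1
    have h2 : v ^ (3 ^ k) = 1 := by
      apply φ.injective
      rw [h1, map_one]
    rw [c81_eq]
    exact pow81_of_three_pow v k h2
  constructor
  · rintro ⟨y, hy, hyw⟩
    have hy' : y = φ w := Subtype.ext hyw
    rw [SetLike.mem_coe, hy'] at hy
    by_contra hne
    rcases not_J_aux w hne with h | h
    · exact h (hc81 w hy)
    · apply h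
      apply hc81
      have e : φ (w * t0 * w⁻¹ * t0⁻¹) = φ w * (φ t0 * (φ w)⁻¹ * (φ t0)⁻¹) := by
        simp only [map_mul, map_inv]
        group
      rw [e]
      exact P.mul_mem hy (hPn.conj_mem _ (P.inv_mem hy) _)
  · intro hw
    have hN : (JM.map φ.toMonoidHom).Normal := by
      haveI : JM.Normal := inferInstance
      exact Subgroup.Normal.map ‹_› φ.toMonoidHom φ.surjective
    have hp : IsPGroup 3 (JM.map φ.toMonoidHom) := by
      rintro ⟨_, v, hv, rfl⟩
      refine ⟨1, Subtype.ext ?_⟩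
      show (φ v) ^ (3 ^ 1) = 1
      rw [← map_pow, pow_one, J_pow3 v hv, map_one]
    have hle := Cfsg.Agent.Lib.PCore.le_pCore hN hp
    exact ⟨φ w, hle ⟨w, hw, rfl⟩, rfl⟩

/-- Centralizers of conjugate elements have the same order. -/
theorem card_cent_conj (z x : G) : Nat.card (Subgroup.centralizer ({z * x * z⁻¹} : Set G)) =
    Nat.card (Subgroup.centralizer ({x} : Set G)) := by
  refine Nat.card_congr ⟨fun y => ⟨z⁻¹ * y * z, ?_⟩, fun y => ⟨z * y * z⁻¹, ?_⟩, ?_, ?_⟩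
  · have h := y.2
    rw [Subgroup.mem_centralizer_singleton_iff] at h ⊢
    calc z⁻¹ * (y : G) * z * x = z⁻¹ * ((y : G) * (z * x * z⁻¹)) * z := by group
      _ = z⁻¹ * (z * x * z⁻¹ * (y : G)) * z := by rw [h]
      _ = x * (z⁻¹ * y * z) := by group
  · have h := y.2
    rw [Subgroup.mem_centralizer_singleton_iff] at h ⊢
    calc z * (y : G) * z⁻¹ * (z * x * z⁻¹) = z * ((y : G) * x) * z⁻¹ := by group
      _ = z * (x * (y : G)) * z⁻¹ := by rw [h]
      _ = z * x * z⁻¹ * (z * y * z⁻¹) := by group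
  · intro y
    apply Subtype.ext
    show z * (z⁻¹ * (y : G) * z) * z⁻¹ = y
    group
  · intro y
    apply Subtype.ext
    show z⁻¹ * (z * (y : G) * z⁻¹) * z = y
    group

/-- The order of the centralizer, when it lies in `H`. -/
theorem card_cent [Finite G] (v : M648) (h : Subgroup.centralizer ({ph φ v} : Set G) ≤ H) :
    Nat.card (Subgroup.centralizer ({ph φ v} : Set G)) =
      (Finset.univ.filter (fun g : M648 => g * v = v * g)).card := by
  classical
  rw [← Fintype.card_subtype, ← Nat.card_eq_fintype_card]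
  symm
  let f : {g : M648 // g * v = v * g} → Subgroup.centralizer ({ph φ v} : Set G) := fun g =>
    ⟨ph φ g.1, by
      rw [Subgroup.mem_centralizer_singleton_iff, ← ph_mul, ← ph_mul, g.2]⟩
  have hf : Function.Bijective f := by
    constructor
    · intro x y hxy
      have h' : ph φ x.1 = ph φ y.1 := congrArg (fun t : Subgroup.centralizer ({ph φ v} : Set G) => (t : G)) hxy
      exact Subtype.ext (ph_inj h')
    · intro t
      obtain ⟨g, hg⟩ := exists_ph (φ := φ) (h t.2)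
      have ht := t.2
      rw [Subgroup.mem_centralizer_singleton_iff, ← hg, ← ph_mul, ← ph_mul] at ht
      exact ⟨⟨g, ph_inj ht⟩, Subtype.ext hg⟩
  exact Nat.card_congr (Equiv.ofBijective f hf)

variable {J : Subgroup G}

/-- The TI property of `J`. -/
theorem ti_J [Finite G] (hJm : ∀ w, ph φ w ∈ J ↔ w.2 = 0)
    (hC : ∀ j ∈ J, j ≠ 1 → Subgroup.centralizer ({j} : Set G) ≤ H) (hsc : Cfsg.IsStronglyClosed J H)
    {w : M648} (hw : w.2 = 0) (hw1 : w ≠ 1) (z : G) (hz : z * ph φ w * z⁻¹ ∈ H) : z ∈ H := by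
  have hj : ph φ w ∈ J := (hJm w).2 hw
  have hj' := hsc.2 _ hj z hz
  obtain ⟨w₁, hw₁⟩ := exists_ph (φ := φ) hz
  have hw₁J : w₁.2 = 0 := (hJm w₁).1 (hw₁ ▸ hj')
  have hne : ph φ w ≠ 1 := ph_ne_one hw1
  have hw₁1 : w₁ ≠ 1 := by
    rintro rfl
    rw [ph_one] at hw₁
    apply hne
    have : ph φ w = z⁻¹ * (z * ph φ w * z⁻¹) * z := by group
    rw [this, ← hw₁]
    group
  have hcj := hC _ hj hne
  have hcj₁ := hC _ ((hJm w₁).2 hw₁J) (ph_ne_one hw₁1)
  have e1 := card_cent w hcj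
  have e2 := card_cent w₁ hcj₁
  have e3 := card_cent_conj z (ph φ w)
  rw [← hw₁] at e3
  obtain ⟨g, hg⟩ := J_conj_of_cent hw hw₁J hw1 hw₁1 (by rw [← e1, ← e2, e3])
  have h1 : (ph φ g)⁻¹ * z ∈ Subgroup.centralizer ({ph φ w} : Set G) := by
    rw [Subgroup.mem_centralizer_singleton_iff]
    have h2 : ph φ g * ph φ w * (ph φ g)⁻¹ = z * ph φ w * z⁻¹ := by
      rw [← ph_conj, hg, hw₁]
    have h3 : z * ph φ w = ph φ g * ph φ w * (ph φ g)⁻¹ * z := by
      rw [h2]
      group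
    calc (ph φ g)⁻¹ * z * ph φ w = (ph φ g)⁻¹ * (z * ph φ w) := by group
      _ = (ph φ g)⁻¹ * (ph φ g * ph φ w * (ph φ g)⁻¹ * z) := by rw [h3]
      _ = ph φ w * ((ph φ g)⁻¹ * z) := by group
  have h4 := hcj h1
  have h5 : z = ph φ g * ((ph φ g)⁻¹ * z) := by group
  rw [h5]
  exact H.mul_mem (ph_mem g) h4

/-- The TI property of the regular elements. -/
theorem ti_reg [Finite G] (hti : ∀ w : M648, w.2 = 0 → w ≠ 1 → ∀ z : G, z * ph φ w * z⁻¹ ∈ H → z ∈ H) :
    TI φ Reg := by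
  intro w hw z hz
  have aux : ∀ k : ℕ, z * ph φ (w ^ k) * z⁻¹ ∈ H := by
    intro k
    rw [ph_pow, ← conj_pow]
    exact H.pow_mem hz k
  rcases pow_reg w hw with ⟨h1, h2⟩ | ⟨h1, h2⟩
  · exact hti _ h1 h2 z (aux 4)
  · exact hti _ h1 h2 z (aux 12)

/-- The two classes of involutions are not conjugate. -/
theorem not_conj [Finite G] (hti : ∀ w : M648, w.2 = 0 → w ≠ 1 → ∀ z : G, z * ph φ w * z⁻¹ ∈ H → z ∈ H) :
    ¬ IsConj (ph φ t0) (ph φ u0) := by
  classical
  haveI : Fact (Nat.Prime 3) := ⟨Nat.prime_three⟩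
  intro h
  obtain ⟨g, hg⟩ := isConj_iff.mp h
  obtain ⟨e, he⟩ : ∃ e : G, e = ph φ eu := ⟨_, rfl⟩
  obtain ⟨Uu, hUu⟩ : ∃ Uu : G, Uu = ph φ u0 := ⟨_, rfl⟩
  rw [← hUu] at hg
  let Cb : Subgroup G := Subgroup.centralizer ({Uu} : Set G)
  have he3 : e ^ 3 = 1 := by rw [he, ← ph_pow, eu_cube, ph_one]
  have he1 : e ≠ 1 := by
    rw [he]
    exact ph_ne_one eu_ne
  have heC : e ∈ Cb := by
    rw [Subgroup.mem_centralizer_singleton_iff, he, hUu, ← ph_mul, ← ph_mul, eu_comm]
  have hyC : g * ph φ et * g⁻¹ ∈ Cb := by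
    rw [Subgroup.mem_centralizer_singleton_iff]
    have h1 : ph φ et * ph φ t0 = ph φ t0 * ph φ et := by
      rw [← ph_mul, ← ph_mul, et_comm]
    rw [← hg]
    calc g * ph φ et * g⁻¹ * (g * ph φ t0 * g⁻¹) = g * (ph φ et * ph φ t0) * g⁻¹ := by group
      _ = g * (ph φ t0 * ph φ et) * g⁻¹ := by rw [h1]
      _ = g * ph φ t0 * g⁻¹ * (g * ph φ et * g⁻¹) := by group
  let e' : Cb := ⟨e, heC⟩
  let y' : Cb := ⟨g * ph φ et * g⁻¹, hyC⟩
  have he'3 : e' ^ 3 = 1 := Subtype.ext he3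
  have hy'3 : y' ^ 3 = 1 := by
    apply Subtype.ext
    show (g * ph φ et * g⁻¹) ^ 3 = 1
    rw [conj_pow, ← ph_pow, et_cube, ph_one]
    group
  obtain ⟨Q, hQ⟩ := (isP_zpowers e' he'3).exists_le_sylow
  have he'Q : e' ∈ (Q : Subgroup Cb) := hQ (Subgroup.mem_zpowers e')
  -- elements of `Q` commuting with `e`
  have stepA : ∀ x : Cb, x ∈ (Q : Subgroup Cb) → (x : G) * e = e * (x : G) →
      (x : G) = 1 ∨ (x : G) = e ∨ (x : G) = e * e := by
    intro x hx hxe
    have hxH : (x : G) ∈ H := by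
      apply hti eu eu_J eu_ne
      rw [← he, hxe]
      rw [he]
      have : ph φ eu * (x : G) * (x : G)⁻¹ = ph φ eu := by group
      rw [this]
      exact ph_mem _
    obtain ⟨v, hv⟩ := exists_ph (φ := φ) hxH
    have hxC := x.2
    rw [Subgroup.mem_centralizer_singleton_iff, ← hv, hUu, ← ph_mul, ← ph_mul] at hxC
    have hcomm : v * u0 = u0 * v := ph_inj hxC
    obtain ⟨k, hk⟩ := Q.isPGroup' ⟨x, hx⟩
    have hk' : (x : G) ^ (3 ^ k) = 1 := by
      have := congrArg (fun t : (Q : Subgroup Cb) => (((t : Cb)) : G)) hk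
      simpa using this
    rw [← hv, ← ph_pow] at hk'
    have h3 : v ^ (3 ^ k) = 1 := ph_inj (hk'.trans ph_one.symm)
    have h81 : c81 v = 1 := by
      rw [c81_eq]
      exact pow81_of_three_pow v k h3
    rcases C3_u0 v hcomm h81 with rfl | rfl | rfl
    · left
      rw [← hv, ph_one]
    · right; left
      rw [← hv, he]
    · right; right
      rw [← hv, he, ph_mul]
  -- `e` is central in `Q`
  have hcen : ∀ x : Cb, x ∈ (Q : Subgroup Cb) → (x : G) * e = e * (x : G) := by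
    haveI : Nontrivial (Q : Subgroup Cb) := by
      refine ⟨⟨⟨e', he'Q⟩, 1, ?_⟩⟩
      intro h0
      have := congrArg (fun t : (Q : Subgroup Cb) => (((t : Cb)) : G)) h0
      exact he1 this
    haveI := Q.isPGroup'.center_nontrivial
    obtain ⟨c, hc⟩ := exists_ne (1 : Subgroup.center (Q : Subgroup Cb))
    have hcQ : ∀ x : (Q : Subgroup Cb), ((c : (Q : Subgroup Cb)) : Cb).1 * ((x : Cb) : G) =
        ((x : Cb) : G) * ((c : (Q : Subgroup Cb)) : Cb).1 := by
      intro x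
      have := (Subgroup.mem_center_iff.1 c.2) x
      have h2 := congrArg (fun t : (Q : Subgroup Cb) => (((t : Cb)) : G)) this
      exact h2.symm
    have hce := hcQ ⟨e', he'Q⟩
    have hc1 : (((c : (Q : Subgroup Cb)) : Cb) : G) ≠ 1 := by
      intro h0
      apply hc
      apply Subtype.ext
      apply Subtype.ext
      exact Subtype.ext h0
    rcases stepA _ (c : (Q : Subgroup Cb)).2 hce with h0 | h0 | h0
    · exact absurd h0 hc1
    · intro x hx
      have := hcQ ⟨x, hx⟩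
      rw [h0] at this
      exact this.symm
    · intro x hx
      have h5 := hcQ ⟨x, hx⟩
      rw [h0] at h5
      have h6 : e = e * e * (e * e) := by
        calc e = e ^ 3 * e := by rw [he3]; group
          _ = e * e * (e * e) := by
            rw [pow_succ, pow_two]
            simp only [mul_assoc]
      show (x : G) * e = e * (x : G)
      have h7 : (e * e) * (x : G) = (x : G) * (e * e) := h5
      rw [h6]
      calc (x : G) * (e * e * (e * e)) = ((x : G) * (e * e)) * (e * e) := by group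
        _ = ((e * e) * (x : G)) * (e * e) := by rw [h7]
        _ = (e * e) * ((x : G) * (e * e)) := by group
        _ = (e * e) * ((e * e) * (x : G)) := by rw [h7]
        _ = e * e * (e * e) * (x : G) := by group
  obtain ⟨Q₂, hQ₂⟩ := (isP_zpowers y' hy'3).exists_le_sylow
  obtain ⟨w, hw⟩ := MulAction.exists_smul_eq Cb Q Q₂
  have hy2 : w⁻¹ * y' * w ∈ (Q : Subgroup Cb) := by
    apply mem_smul_sylow Q w
    rw [hw]
    exact hQ₂ (Subgroup.mem_zpowers y')
  have hval := stepA _ hy2 (hcen _ hy2)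
  have hzet : ((w : G)⁻¹ * g) * ph φ et * ((w : G)⁻¹ * g)⁻¹ = (((w⁻¹ * y' * w : Cb)) : G) := by
    show _ = (w : G)⁻¹ * (g * ph φ et * g⁻¹) * (w : G)
    group
  have hne1 : (((w⁻¹ * y' * w : Cb)) : G) ≠ 1 := by
    rw [← hzet]
    intro h0
    apply ph_ne_one (φ := φ) et_ne
    have h1 : ph φ et = ((w : G)⁻¹ * g)⁻¹ * (((w : G)⁻¹ * g) * ph φ et * ((w : G)⁻¹ * g)⁻¹) * ((w : G)⁻¹ * g) := by
      group
    rw [h1, h0]
    group
  have hmemH : (((w⁻¹ * y' * w : Cb)) : G) ∈ H := by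
    rcases hval with h0 | h0 | h0
    · exact absurd h0 hne1
    · rw [h0, he]
      exact ph_mem _
    · rw [h0, he, ← ph_mul]
      exact ph_mem _
  have hzH : (w : G)⁻¹ * g ∈ H := by
    apply hti et et_J et_ne
    rw [hzet]
    exact hmemH
  obtain ⟨v, hv⟩ := exists_ph (φ := φ) hzH
  have h8 : ph φ v * ph φ t0 * (ph φ v)⁻¹ = Uu := by
    rw [hv]
    have hwc : (w : G)⁻¹ * Uu * (w : G) = Uu := by
      have h9 := w.2
      rw [Subgroup.mem_centralizer_singleton_iff] at h9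
      calc (w : G)⁻¹ * Uu * (w : G) = (w : G)⁻¹ * (Uu * (w : G)) := by group
        _ = (w : G)⁻¹ * ((w : G) * Uu) := by rw [h9]
        _ = Uu := by group
    calc (w : G)⁻¹ * g * ph φ t0 * ((w : G)⁻¹ * g)⁻¹ = (w : G)⁻¹ * (g * ph φ t0 * g⁻¹) * (w : G) := by group
      _ = Uu := by rw [hg, hwc]
  rw [hUu, ← ph_conj] at h8
  have h10 := ph_inj h8
  have h11 := cl_conj v t0
  rw [h10, cl_t0, cl_u0] at h11
  exact absurd h11 (by decide)

/-- Conjugacy of involutions in `G` is detected in the model. -/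
theorem conj_iff [Finite G] (hn : ¬ IsConj (ph φ t0) (ph φ u0)) (a : M648) (ha : a = t0 ∨ a = u0) (w : M648) :
    IsConj (ph φ a) (ph φ w) ↔ cl w = cl a := by
  have back : ∀ {b v : M648}, cl v = cl b → IsConj (ph φ b) (ph φ v) := by
    intro b v h
    obtain ⟨g, hg⟩ := conj_of_cl h.symm
    exact isConj_iff.mpr ⟨ph φ g, by rw [← ph_conj, hg]⟩
  refine ⟨fun h => ?_, back⟩
  have hsq : a * a = 1 := by
    rcases ha with rfl | rfl
    · exact t0_sq
    · exact u0_sq
  have hane : a ≠ 1 := by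
    rcases ha with rfl | rfl
    · exact t0_ne
    · exact u0_ne
  have h1 : ph φ w * ph φ w = 1 := by
    obtain ⟨g, hg⟩ := isConj_iff.mp h
    rw [← hg]
    calc g * ph φ a * g⁻¹ * (g * ph φ a * g⁻¹) = g * (ph φ a * ph φ a) * g⁻¹ := by group
      _ = 1 := by rw [← ph_mul, hsq, ph_one]; group
  rw [← ph_mul] at h1
  have h2 : w * w = 1 := ph_inj (h1.trans ph_one.symm)
  rcases inv_class w h2 with rfl | h3 | h3
  · exfalso
    rw [ph_one] at h
    have h4 := isConj_one_right.mp h.symm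
    exact hane (ph_inj (h4.trans ph_one.symm))
  · rcases ha with rfl | rfl
    · rw [h3, cl_t0]
    · exfalso
      apply hn
      have h5 : IsConj (ph φ t0) (ph φ w) := back (by rw [h3, cl_t0])
      exact h5.trans h.symm
  · rcases ha with rfl | rfl
    · exfalso
      apply hn
      have h5 : IsConj (ph φ u0) (ph φ w) := back (by rw [h3, cl_u0])
      exact h.trans h5.symm
    · rw [h3, cl_u0]

end Setup

/-- Let K ≤ Sym(9) be generated by (1 2 3), (1 4 7)(2 5 8)(3 6 9), (1 2)(4 5) and (1 4)(2 5)(3 6)(7 8) (the normalizer in Alt(9) of the elementary abelian group generated by (1 2 3), (4 5 6), (7 8 9)). Let G be a finite group with a subgroup H ≅ K and J = O₃(H). If C_G(j) ≤ H for every j ≠ 1 in J and J is strongly closed in H with respect to G (a G-conjugate of an element of J lying in H lies in J), then G = H. -/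
theorem result {G : Type*} [Group G] [Finite G] (H : Subgroup G)
    (hH : Nonempty (↥H ≃* ↥(Subgroup.closure ({Equiv.swap (0 : Fin 9) 1 * Equiv.swap 1 2,
        Equiv.swap (0 : Fin 9) 3 * Equiv.swap 3 6 * (Equiv.swap (1 : Fin 9) 4 * Equiv.swap 4 7) * (Equiv.swap (2 : Fin 9) 5 * Equiv.swap 5 8),
        Equiv.swap (0 : Fin 9) 1 * Equiv.swap 3 4, Equiv.swap (0 : Fin 9) 3 * Equiv.swap 1 4 * Equiv.swap 2 5 * Equiv.swap 6 7} : Set (Equiv.Perm (Fin 9))))))
    (J : Subgroup G) (hJ : J = (Cfsg.pCore 3 ↥H).map H.subtype)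
    (hC : ∀ j ∈ J, j ≠ 1 → Subgroup.centralizer ({j} : Set G) ≤ H) (hsc : Cfsg.IsStronglyClosed J H) : H = ⊤ := by
  classical
  let _ := Fintype.ofFinite G
  obtain ⟨e⟩ := hH
  let φ : M648 ≃* H := ((MonoidHom.ofInjective Psi_inj).trans (MulEquiv.subgroupCongr closure_eq.symm)).trans
    e.symm
  have hJm : ∀ w, ph φ w ∈ J ↔ w.2 = 0 := by
    intro w
    rw [hJ]
    exact mem_J w
  have hti : ∀ w : M648, w.2 = 0 → w ≠ 1 → ∀ z : G, z * ph φ w * z⁻¹ ∈ H → z ∈ H :=
    fun w hw hw1 z hz => ti_J hJm hC hsc hw hw1 z hz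
  have hreg := ti_reg hti
  have hnc := not_conj hti
  obtain ⟨ψ, hψ, h3, hr⟩ := exists_three hreg (conj_iff hnc)
  have hψc := IsIrrCharacter.isCharacter hψ
  have hval := ker_of_three hψ h3 hr
  let K : Subgroup G := charKer hψc
  have hKn : K.Normal := charKer_normal hψc
  have hK : ∀ g, g ∈ K ↔ ψ g = 3 := by
    intro g
    rw [← h3]
    exact mem_charKer hψc
  have hJH : ∀ j ∈ J, j ∈ H := fun j hj => hsc.1 hj
  have hJK : J ≤ K := by
    intro j hj
    obtain ⟨w, rfl⟩ := exists_ph (φ := φ) (hJH j hj)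
    rw [hK, hval]
    exact (hJm w).1 hj
  have hKN : ∀ g ∈ K, g ∈ H → g ∈ J := by
    intro g hg hgH
    obtain ⟨w, rfl⟩ := exists_ph (φ := φ) hgH
    rw [hK, hval] at hg
    exact (hJm w).2 hg
  have hE : Cfsg.IsElementaryAbelian 3 J := by
    refine ⟨⟨⟨fun x y => Subtype.ext ?_⟩⟩, ?_⟩
    · obtain ⟨v, hv⟩ := exists_ph (φ := φ) (hJH _ x.2)
      obtain ⟨v', hv'⟩ := exists_ph (φ := φ) (hJH _ y.2)
      show (x : G) * y = y * x
      have h1 : v.2 = 0 := (hJm v).1 (by rw [hv]; exact x.2)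
      have h2 : v'.2 = 0 := (hJm v').1 (by rw [hv']; exact y.2)
      rw [← hv, ← hv', ← ph_mul, ← ph_mul, J_comm _ _ h1 h2]
    · intro x hx
      obtain ⟨v, rfl⟩ := exists_ph (φ := φ) (hJH _ hx)
      rw [← ph_pow, J_pow3 _ ((hJm v).1 hx), ph_one]
  have h27 : Nat.card J = 27 := by
    rw [← J_card, ← Fintype.card_subtype, ← Nat.card_eq_fintype_card]
    symm
    let f : {w : M648 // w.2 = 0} → J := fun w => ⟨ph φ w.1, (hJm _).2 w.2⟩
    have hf : Function.Bijective f := by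
      constructor
      · intro x y hxy
        have h' : ph φ x.1 = ph φ y.1 := congrArg (fun t : J => (t : G)) hxy
        exact Subtype.ext (ph_inj h')
      · intro t
        obtain ⟨g, hg⟩ := exists_ph (φ := φ) (hJH _ t.2)
        exact ⟨⟨g, (hJm g).1 (by rw [hg]; exact t.2)⟩, Subtype.ext hg⟩
    exact Nat.card_congr (Equiv.ofBijective f hf)
  have hti' : ∀ t ∈ J, t ≠ 1 → ∀ z : G, z * t * z⁻¹ ∈ J → z ∈ H := by
    intro t ht ht1 z hz
    obtain ⟨w, rfl⟩ := exists_ph (φ := φ) (hJH _ ht)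
    have hw1 : w ≠ 1 := by
      rintro rfl
      exact ht1 ph_one
    exact hti w ((hJm w).1 ht) hw1 z (hJH _ hz)
  have hKJ : K = J := final_core J K H hKn hJK hE h27 hKN hti' hC
  have hJn : J.Normal := hKJ ▸ hKn
  rw [eq_top_iff]
  intro z _
  have h1 : ph φ et ∈ J := (hJm et).2 et_J
  exact hti' _ h1 (ph_ne_one et_ne) z (hJn.conj_mem _ h1 z)

end Cfsg.Agent.S3702
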