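import Mathlib
import Cfsg.Statements.S3703

set_option autoImplicit false
set_option linter.all false
open Cfsg

namespace Cfsg.Agent.S3703

universe u

section norm

variable {E : Type u} [Group E]

/-- conjugation on a normal subgroup -/
def cj (W : Subgroup E) [hW : W.Normal] (a : E) (w : W) : W :=
  ⟨a⁻¹ * (w : E) * a, hW.conj_mem' _ w.2 _⟩

@[simp] theorem cj_val (W : Subgroup E) [W.Normal] (a : E) (w : W) :
    ((cj W a w : W) : E) = a⁻¹ * (w : E) * a := rfl

theorem cj_mul (W : Subgroup E) [W.Normal] (a : E) (w v : W) :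
    cj W a (w * v) = cj W a w * cj W a v := by
  apply Subtype.ext; simp [mul_assoc]

theorem cj_inv (W : Subgroup E) [W.Normal] (a : E) (w : W) :
    cj W a (w⁻¹) = (cj W a w)⁻¹ := by
  apply Subtype.ext; simp [mul_assoc]

theorem cj_one' (W : Subgroup E) [W.Normal] (w : W) : cj W 1 w = w := by
  apply Subtype.ext; simp

theorem cj_comp (W : Subgroup E) [W.Normal] (a b : E) (w : W) :
    cj W (a * b) w = cj W b (cj W a w) := by
  apply Subtype.ext; simp [mul_assoc]

/-- commutative group structure on a commutative subgroup. -/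
@[reducible] def commW (W : Subgroup E) (hW : ∀ a ∈ W, ∀ b ∈ W, a * b = b * a) : CommGroup W :=
  { (inferInstance : Group W) with
    mul_comm := fun a b => Subtype.ext (hW a a.2 b b.2) }

theorem pow_formula (W : Subgroup E) [W.Normal] (hW : ∀ a ∈ W, ∀ b ∈ W, a * b = b * a)
    (y : E) (w : W) (n : ℕ) :
    letI := commW W hW
    (y * (w : E)) ^ n = y ^ n * ((∏ i ∈ Finset.range n, cj W (y ^ i) w : W) : E) := by
  letI := commW W hW
  induction n with
  | zero => simp
  | succ n ih =>
    rw [pow_succ', ih, Finset.prod_range_succ]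
    have hc : ((∏ i ∈ Finset.range n, cj W (y ^ i) w : W) : E) * ((cj W (y ^ n) w : W) : E)
        = ((cj W (y ^ n) w : W) : E) * ((∏ i ∈ Finset.range n, cj W (y ^ i) w : W) : E) :=
      hW _ (Subtype.property _) _ (Subtype.property _)
    have : ((∏ i ∈ Finset.range n, cj W (y ^ i) w) * cj W (y ^ n) w : W).1
        = ((∏ i ∈ Finset.range n, cj W (y ^ i) w : W) : E) * ((cj W (y ^ n) w : W) : E) := rfl
    rw [this, hc, cj_val, pow_succ']
    group

variable [Finite E]

theorem norm_sum (W Q : Subgroup E) [W.Normal] (hW : ∀ a ∈ W, ∀ b ∈ W, a * b = b * a)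
    (g : E) (h : ℕ) (hh : 0 < h) (hgQ : g ∈ Subgroup.normalizer (Q : Set E))
    (hfree : ∀ i, 0 < i → i < h → ∀ x ∈ Q, g ^ i * x * (g ^ i)⁻¹ = x → x = 1)
    (hnorm : ∀ w ∈ W, (g * w) ^ h = 1)
    (hcop : ∀ w ∈ W, w ^ Nat.card Q = 1 → w = 1) :
    ∀ x ∈ Q, ∀ v ∈ W, x * v = v * x := by
  classical
  letI := commW W hW
  haveI : Fintype Q := Fintype.ofFinite Q
  have hgh : g ^ h = 1 := by simpa using hnorm 1 W.one_mem
  -- the basic relation
  have h1 : ∀ (c : Q) (w : W),
      (∏ i ∈ Finset.range h, cj W ((c : E)⁻¹ * g ^ i * c) w) = 1 := by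
    intro c w
    have hy : ∀ i : ℕ, ((c : E)⁻¹ * g * c) ^ i = (c : E)⁻¹ * g ^ i * c := by
      intro i
      have := (conj_pow (a := (c : E)⁻¹) (b := g) (i := i))
      simpa using this
    have h2 := pow_formula W hW ((c : E)⁻¹ * g * c) w h
    simp only [hy] at h2
    have h3 : ((c : E)⁻¹ * g * c * (w : E)) ^ h = 1 := by
      have h4 : (c : E)⁻¹ * g * c * (w : E)
          = (c : E)⁻¹ * (g * ((c : E) * w * (c : E)⁻¹)) * c := by group
      have h5 := hnorm _ (‹W.Normal›.conj_mem _ w.2 (c : E))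
      rw [h4]
      have := (conj_pow (a := (c : E)⁻¹) (b := g * ((c : E) * w * (c : E)⁻¹)) (i := h))
      simp only [inv_inv] at this
      rw [this, h5]; simp
    rw [h3, hgh] at h2
    apply Subtype.ext
    simpa using h2.symm
  -- the sum of all terms
  intro q₀ hq₀ v hv
  let v' : W := ⟨v, hv⟩
  set w : W := v'⁻¹ * cj W q₀ v' with hw
  have h6 : (∏ c : Q, ∏ i ∈ Finset.range h, cj W ((c : E)⁻¹ * g ^ i * c) w) = 1 :=
    Finset.prod_eq_one (fun c _ => h1 c w)
  rw [Finset.prod_comm] at h6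
  -- the terms with `i ≠ 0` vanish
  have h7 : ∀ i ∈ Finset.range h, i ≠ 0 → (∏ c : Q, cj W ((c : E)⁻¹ * g ^ i * c) w) = 1 := by
    intro i hi hi0
    have hi1 : 0 < i := Nat.pos_of_ne_zero hi0
    have hi2 : i < h := Finset.mem_range.mp hi
    have hgi : g ^ i ∈ Subgroup.normalizer (Q : Set E) := Subgroup.pow_mem _ hgQ i
    have hgi' : (g ^ i)⁻¹ ∈ Subgroup.normalizer (Q : Set E) := Subgroup.inv_mem _ hgi
    -- the map `z`
    let z : Q → Q := fun c => ⟨(g ^ i)⁻¹ * (c : E)⁻¹ * g ^ i * c, by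
      refine Q.mul_mem ?_ c.2
      have := (Subgroup.mem_normalizer_iff.mp hgi' ((c : E)⁻¹)).mp (Q.inv_mem c.2)
      simpa using this⟩
    have hzinj : Function.Injective z := by
      intro c d hcd
      have h8 : (g ^ i)⁻¹ * (c : E)⁻¹ * g ^ i * c = (g ^ i)⁻¹ * (d : E)⁻¹ * g ^ i * d :=
        congrArg Subtype.val hcd
      have h9 : g ^ i * ((d : E) * (c : E)⁻¹) * (g ^ i)⁻¹ = (d : E) * (c : E)⁻¹ := by
        have h10 : (c : E)⁻¹ * g ^ i * c = (d : E)⁻¹ * g ^ i * d := by
          have := congrArg (fun t => g ^ i * t) h8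
          simpa [mul_assoc] using this
        have h11 : g ^ i = (c : E) * ((d : E)⁻¹ * g ^ i * d) * (c : E)⁻¹ := by
          rw [← h10]; group
        have h12 : (d : E) * (c : E)⁻¹ * g ^ i = g ^ i * ((d : E) * (c : E)⁻¹) := by
          have h13 : (d : E)⁻¹ * g ^ i * d = (c : E)⁻¹ * g ^ i * c := h10.symm
          have : (d : E) * ((c : E)⁻¹ * g ^ i * c) * (d : E)⁻¹ = g ^ i := by
            rw [← h13]; group
          calc (d : E) * (c : E)⁻¹ * g ^ i
              = ((d : E) * ((c : E)⁻¹ * g ^ i * c) * (d : E)⁻¹) * ((d : E) * (c : E)⁻¹) := by group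
            _ = g ^ i * ((d : E) * (c : E)⁻¹) := by rw [this]
        rw [← h12]; group
      have h14 := hfree i hi1 hi2 _ (Q.mul_mem d.2 (Q.inv_mem c.2)) h9
      apply Subtype.ext
      have : (d : E) = c := by
        have := mul_inv_eq_one.mp h14
        exact this
      exact this.symm
    have hzbij : Function.Bijective z := Finite.injective_iff_bijective.mp hzinj
    -- key rewriting
    have h15 : ∀ c : Q, cj W ((c : E)⁻¹ * g ^ i * c) w
        = cj W (z c) (cj W (g ^ i) w) := by
      intro c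
      rw [← cj_comp]
      congr 1
      simp [z]
      group
    simp_rw [h15]
    rw [Function.Bijective.prod_comp hzbij (fun t : Q => cj W (t : E) (cj W (g ^ i) w))]
    -- now the sum over `Q`
    let q₁ : Q := ⟨(g ^ i)⁻¹ * q₀ * g ^ i, by
      have := (Subgroup.mem_normalizer_iff.mp hgi' q₀).mp hq₀
      simpa using this⟩
    have h16 : cj W (g ^ i) w = (cj W (g ^ i) v')⁻¹ * cj W (q₁ : E) (cj W (g ^ i) v') := by
      rw [hw, cj_mul, cj_inv, ← cj_comp, ← cj_comp]
      congr 2
      simp [q₁]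
      group
    rw [h16]
    set u := cj W (g ^ i) v' with hu
    have h17 : ∀ t : Q, cj W (t : E) (u⁻¹ * cj W (q₁ : E) u)
        = (cj W (t : E) u)⁻¹ * cj W ((q₁ * t : Q) : E) u := by
      intro t
      rw [cj_mul, cj_inv]
      congr 1
      exact (cj_comp W (q₁ : E) (t : E) u).symm
    simp_rw [h17]
    rw [Finset.prod_mul_distrib, Finset.prod_inv_distrib]
    have h18 : (∏ t : Q, cj W ((q₁ * t : Q) : E) u) = ∏ t : Q, cj W (t : E) u :=
      Function.Bijective.prod_comp (Group.mulLeft_bijective q₁) (fun t : Q => cj W (t : E) u)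
    rw [h18]
    simp
  rw [Finset.prod_eq_single_of_mem 0 (Finset.mem_range.mpr hh) h7] at h6
  have h19 : ∀ c : Q, cj W ((c : E)⁻¹ * g ^ 0 * c) w = w := by
    intro c
    apply Subtype.ext
    simp
  simp_rw [h19] at h6
  rw [Finset.prod_const, Finset.card_univ, ← Nat.card_eq_fintype_card] at h6
  have h20 : (w : E) = 1 := by
    apply hcop _ w.2
    have := congrArg Subtype.val h6
    simpa using this
  have h21 : (v')⁻¹ * cj W q₀ v' = 1 := Subtype.ext h20
  have h22 : cj W q₀ v' = v' := by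
    rwa [inv_mul_eq_one, eq_comm] at h21
  have h23 : (q₀ : E)⁻¹ * v * q₀ = v := congrArg Subtype.val h22
  calc q₀ * v = q₀ * ((q₀ : E)⁻¹ * v * q₀) := by rw [h23]
    _ = v * q₀ := by group

end norm

theorem pow_coprime_one {E : Type*} [Group E] (w : E) (a b : ℕ) (ha : w ^ a = 1) (hb : w ^ b = 1)
    (hab : Nat.Coprime a b) : w = 1 := by
  have h1 := orderOf_dvd_of_pow_eq_one ha
  have h2 := orderOf_dvd_of_pow_eq_one hb
  have h3 : orderOf w = 1 := Nat.dvd_one.mp (hab ▸ Nat.dvd_gcd h1 h2)
  exact orderOf_eq_one_iff.mp h3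

theorem center_chain (s q : ℕ) [Fact s.Prime] [Fact q.Prime] (hsq : s ≠ q) :
    ∀ (n : ℕ) (E : Type u) [Group E] [Finite E] (S Q : Subgroup E) [S.Normal] (g : E) (h : ℕ),
      Nat.card S ≤ n → IsPGroup s S → IsPGroup q Q → 0 < h →
      g ∈ Subgroup.normalizer (Q : Set E) →
      (∀ i, 0 < i → i < h → ∀ x ∈ Q, g ^ i * x * (g ^ i)⁻¹ = x → x = 1) →
      (∀ w ∈ S, (g * w) ^ h = 1) →
      ∀ x ∈ Q, ∀ w ∈ S, x * w = w * x := by
  intro n
  induction n with
  | zero =>
    intro E _ _ S Q _ g h hn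
    have := Nat.card_pos (α := S)
    omega
  | succ n ih =>
    intro E _ _ S Q _ g h hn hS hQ hh hgQ hfree hnorm x hx w hw
    by_cases htriv : S = ⊥
    · subst htriv
      have : w = 1 := by simpa using hw
      simp [this]
    -- the centre of `S`
    let Z : Subgroup E := S ⊓ Subgroup.centralizer (S : Set E)
    haveI hZn : Z.Normal := inferInstance
    have hZS : Z ≤ S := inf_le_left
    have hZc : ∀ a ∈ Z, ∀ b ∈ Z, a * b = b * a := by
      intro a ha b hb
      exact (Subgroup.mem_centralizer_iff.mp hb.2 a ha.1)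
    -- coprimality
    obtain ⟨m, hm⟩ := IsPGroup.iff_card.mp hQ
    have hcopS : ∀ w ∈ S, w ^ Nat.card Q = 1 → w = 1 := by
      intro w hw hw1
      obtain ⟨k, hk⟩ := hS ⟨w, hw⟩
      have hk' : w ^ s ^ k = 1 := congrArg Subtype.val hk
      refine pow_coprime_one w _ _ hw1 hk' ?_
      rw [hm]
      exact Nat.Coprime.pow _ _ ((Nat.coprime_primes (Fact.out) (Fact.out)).mpr hsq.symm)
    have hQS : ∀ t, t ∈ Q → t ∈ S → t = 1 := by
      intro t ht1 ht2
      apply hcopS t ht2
      have := pow_card_eq_one' (x := (⟨t, ht1⟩ : Q))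
      exact congrArg Subtype.val this
    -- `Q` centralizes `Z`
    have hQZ : ∀ x ∈ Q, ∀ v ∈ Z, x * v = v * x :=
      norm_sum Z Q hZc g h hh hgQ hfree (fun w hw => hnorm w (hZS hw))
        (fun w hw => hcopS w (hZS hw))
    -- the nontrivial element of the centre
    have hZt : ∃ t ∈ Z, t ≠ 1 := by
      haveI : Nontrivial S := Subgroup.nontrivial_iff_ne_bot S |>.mpr htriv
      haveI := hS.center_nontrivial
      obtain ⟨t, ht⟩ := exists_ne (1 : Subgroup.center S)
      refine ⟨((t : S) : E), ⟨(t : S).2, ?_⟩, ?_⟩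
      · show ((t : S) : E) ∈ Subgroup.centralizer (S : Set E)
        rw [Subgroup.mem_centralizer_iff]
        intro b hb
        have := (Subgroup.mem_center_iff.mp t.2 ⟨b, hb⟩)
        exact congrArg Subtype.val this
      · intro h1
        apply ht
        apply Subtype.ext
        apply Subtype.ext
        simpa using h1
    obtain ⟨t, htZ, ht1⟩ := hZt
    -- the quotient
    let π := QuotientGroup.mk' Z
    have hπs : Function.Surjective π := QuotientGroup.mk'_surjective Z
    haveI hS'n : (S.map π).Normal := Subgroup.Normal.map ‹_› π hπs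
    have hcard : Nat.card (S.map π) ≤ n := by
      have hlt : Nat.card (S.map π) < Nat.card S := by
        by_contra hge
        push Not at hge
        let f : S → S.map π := fun a => ⟨π a, Subgroup.mem_map_of_mem π a.2⟩
        have hf : Function.Surjective f := by
          rintro ⟨b, a, ha, rfl⟩
          exact ⟨⟨a, ha⟩, rfl⟩
        have hb := hf.bijective_of_nat_card_le hge
        have h1 : f ⟨t, htZ.1⟩ = f 1 := by
          apply Subtype.ext
          show π t = π 1
          rw [map_one]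
          exact (QuotientGroup.eq_one_iff t).mpr htZ
        have := hb.1 h1
        exact ht1 (congrArg Subtype.val this)
      omega
    have hcomm := ih (E ⧸ Z) (S.map π) (Q.map π) (π g) h hcard (hS.map π) (hQ.map π) hh
      (Subgroup.le_normalizer_map π ⟨g, hgQ, rfl⟩)
      (by
        rintro i hi1 hi2 _ ⟨x, hx, rfl⟩ hxe
        have hgi : g ^ i ∈ Subgroup.normalizer (Q : Set E) := Subgroup.pow_mem _ hgQ i
        have h2 : g ^ i * x * (g ^ i)⁻¹ ∈ Q :=
          (Subgroup.mem_normalizer_iff.mp hgi x).mp hx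
        have h3 : π (g ^ i * x * (g ^ i)⁻¹) = π x := by
          simpa using hxe
        have h4 : x⁻¹ * (g ^ i * x * (g ^ i)⁻¹) ∈ Z := by
          have := (QuotientGroup.eq (s := Z) (a := x) (b := g ^ i * x * (g ^ i)⁻¹)).mp h3.symm
          exact this
        have h5 := hQS _ (Q.mul_mem (Q.inv_mem hx) h2) (hZS h4)
        have h6 : g ^ i * x * (g ^ i)⁻¹ = x := by
          rw [inv_mul_eq_one] at h5
          exact h5.symm
        have := hfree i hi1 hi2 x hx h6
        simp [this])
      (by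
        rintro _ ⟨w, hw, rfl⟩
        have := congrArg π (hnorm w hw)
        simpa using this)
    -- commutators lie in `Z`
    have hcZ : ∀ x ∈ Q, ∀ w ∈ S, w⁻¹ * (x⁻¹ * w * x) ∈ Z := by
      intro x hx w hw
      have h1 := hcomm (π x) (Subgroup.mem_map_of_mem π hx) (π w) (Subgroup.mem_map_of_mem π hw)
      have h2 : π w = π (x⁻¹ * w * x) := by
        simp only [map_mul, map_inv]
        rw [mul_assoc, ← h1]
        group
      exact (QuotientGroup.eq (s := Z)).mp h2
    -- the homomorphism argument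
    have hpow : ∀ k : ℕ, w⁻¹ * ((x ^ k)⁻¹ * w * x ^ k) = (w⁻¹ * (x⁻¹ * w * x)) ^ k := by
      intro k
      induction k with
      | zero => simp
      | succ k ihk =>
        have hxk : x ^ k ∈ Q := Q.pow_mem hx k
        have h1 := hcZ _ hxk w hw
        rw [ihk] at h1
        have hc := hQZ x hx _ h1
        have h7 : (x ^ k)⁻¹ * w * x ^ k = w * (w⁻¹ * (x⁻¹ * w * x)) ^ k := by
          rw [← ihk]; group
        have h8 : (x ^ (k + 1))⁻¹ * w * x ^ (k + 1)
            = x⁻¹ * ((x ^ k)⁻¹ * w * x ^ k) * x := by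
          rw [pow_succ]; group
        have h10 : x⁻¹ * (w⁻¹ * (x⁻¹ * w * x)) ^ k * x = (w⁻¹ * (x⁻¹ * w * x)) ^ k := by
          rw [mul_assoc, ← hc]; group
        rw [h8, h7, pow_succ' (w⁻¹ * (x⁻¹ * w * x)) k]
        generalize (w⁻¹ * (x⁻¹ * w * x)) ^ k = A at h10 ⊢
        have h11 : x⁻¹ * (w * A) * x = (x⁻¹ * w * x) * (x⁻¹ * A * x) := by group
        rw [h11, h10]
        group
    have h1 := hpow (Nat.card Q)
    have h2 : x ^ Nat.card Q = 1 := by
      have := pow_card_eq_one' (x := (⟨x, hx⟩ : Q))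
      exact congrArg Subtype.val this
    rw [h2] at h1
    simp only [inv_one, one_mul, mul_one, inv_mul_cancel] at h1
    have h3 : w⁻¹ * (x⁻¹ * w * x) = 1 := hcopS _ (hZS (hcZ x hx w hw)) h1.symm
    have h4 : x⁻¹ * w * x = w := by
      rw [inv_mul_eq_one] at h3
      exact h3.symm
    calc x * w = x * (x⁻¹ * w * x) := by rw [h4]
      _ = w * x := by group

/-- A subgroup containing a full Sylow power for each prime contains `N`. -/
theorem le_of_sylow_powers {G : Type*} [Group G] [Finite G] (K N : Subgroup G) (hKN : K ≤ N)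
    (hs : ∀ s : ℕ, s.Prime → ∃ S : Subgroup G, S ≤ K ∧ Nat.card S = s ^ (Nat.card N).factorization s) :
    N ≤ K := by
  have hd : Nat.card N ∣ Nat.card K := by
    rw [← Nat.factorization_prime_le_iff_dvd Nat.card_pos.ne' Nat.card_pos.ne']
    intro p hp
    obtain ⟨S, hSK, hS⟩ := hs p hp
    have h1 : Nat.card S ∣ Nat.card K := Subgroup.card_dvd_of_le hSK
    rw [hS] at h1
    exact (hp.pow_dvd_iff_le_factorization Nat.card_pos.ne').mp h1
  have : K = N := Subgroup.eq_of_le_of_card_ge hKN (Nat.le_of_dvd Nat.card_pos hd)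
  exact this.ge

theorem order_lemma {G : Type*} [Group G] [Finite G] (N : Subgroup G) [N.Normal] (y : G) (h : ℕ)
    (hh : 0 < h) (hy : orderOf (QuotientGroup.mk' N y) = h) (hne : y ^ h ≠ 1) :
    ∃ p : ℕ, p.Prime ∧ p ∣ Nat.card N ∧ ∃ g : G, orderOf g = p * h := by
  have hd : h ∣ orderOf y := by
    rw [← hy]
    exact orderOf_map_dvd _ _
  obtain ⟨m, hm⟩ := hd
  have hyN : y ^ h ∈ N := by
    have : (QuotientGroup.mk' N y) ^ h = 1 := by rw [← hy]; exact pow_orderOf_eq_one _
    rw [← map_pow] at this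
    exact (QuotientGroup.eq_one_iff _).mp this
  have hypos : 0 < orderOf y := orderOf_pos y
  have hmpos : 0 < m := by
    rw [hm] at hypos
    exact Nat.pos_of_mul_pos_left hypos |> fun _ => by
      rcases Nat.eq_zero_or_pos m with h0 | h0
      · subst h0; simp at hypos
      · exact h0
  have ho : orderOf (y ^ h) = m := by
    rw [orderOf_pow_of_dvd hh.ne' ⟨m, hm⟩, hm]
    exact Nat.mul_div_cancel_left m hh
  have hm1 : m ≠ 1 := by
    intro h1
    apply hne
    rw [← orderOf_eq_one_iff, ho, h1]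
  let p := m.minFac
  have hp : p.Prime := Nat.minFac_prime hm1
  obtain ⟨t, ht⟩ : p ∣ m := Nat.minFac_dvd m
  have htpos : 0 < t := by
    rcases Nat.eq_zero_or_pos t with h0 | h0
    · subst h0; simp at ht; omega
    · exact h0
  refine ⟨p, hp, ?_, y ^ t, ?_⟩
  · have h1 : orderOf (⟨y ^ h, hyN⟩ : N) ∣ Nat.card N := orderOf_dvd_natCard _
    rw [Subgroup.orderOf_mk, ho] at h1
    exact (Nat.minFac_dvd m).trans h1
  · rw [orderOf_pow_of_dvd htpos.ne' ⟨h * p, by rw [hm, ht]; ring⟩, hm, ht]
    rw [show h * (p * t) = (p * h) * t by ring]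
    exact Nat.mul_div_cancel _ htpos

theorem frob_conj {T : Type*} [Group T] [Finite T] (F : Subgroup T) [hF : F.Normal] (a : T)
    (hF1 : ∀ f ∈ F, f * a * f⁻¹ = a → f = 1) (f : T) (hf : f ∈ F) :
    ∃ x ∈ F, a * f = x⁻¹ * a * x := by
  let φ : F → F := fun x => ⟨a⁻¹ * (x : T)⁻¹ * a * x,
    F.mul_mem (by simpa using hF.conj_mem' _ (F.inv_mem x.2) a) x.2⟩
  have hφ : Function.Injective φ := by
    intro x y hxy
    have h1 : a⁻¹ * (x : T)⁻¹ * a * x = a⁻¹ * (y : T)⁻¹ * a * y := congrArg Subtype.val hxy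
    have h2 : (x : T)⁻¹ * a * x = (y : T)⁻¹ * a * y := by
      have := congrArg (fun t => a * t) h1
      simpa [mul_assoc] using this
    have h3 : ((y : T) * (x : T)⁻¹) * a * ((y : T) * (x : T)⁻¹)⁻¹ = a := by
      calc ((y : T) * (x : T)⁻¹) * a * ((y : T) * (x : T)⁻¹)⁻¹
          = (y : T) * ((x : T)⁻¹ * a * x) * (y : T)⁻¹ := by group
        _ = (y : T) * ((y : T)⁻¹ * a * y) * (y : T)⁻¹ := by rw [h2]
        _ = a := by group
    have h4 := hF1 _ (F.mul_mem y.2 (F.inv_mem x.2)) h3
    apply Subtype.ext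
    exact (mul_inv_eq_one.mp h4).symm
  obtain ⟨x, hx⟩ := (Finite.injective_iff_surjective.mp hφ) ⟨f, hf⟩
  refine ⟨x, x.2, ?_⟩
  have h1 : a⁻¹ * (x : T)⁻¹ * a * x = f := congrArg Subtype.val hx
  rw [← h1]
  group

open scoped Pointwise in
theorem inv_sylow {G : Type u} [Group G] [Finite G] (N Q : Subgroup G) [hN : N.Normal] (q s : ℕ)
    [Fact q.Prime] [Fact s.Prime]
    (hQ : IsPGroup q Q) (hqN : ¬ q ∣ Nat.card N) (g₁ : G)
    (hg₁ : g₁ ∈ Subgroup.normalizer (Q : Set G)) :
    ∃ S : Subgroup G, S ≤ N ∧ IsPGroup s S ∧ Nat.card S = s ^ (Nat.card N).factorization s ∧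
      Q ≤ Subgroup.normalizer (S : Set G) ∧
      ∃ c ∈ N, (∀ x ∈ Q, c * x = x * c) ∧ c⁻¹ * g₁ ∈ Subgroup.normalizer (S : Set G) := by
  classical
  -- the conjugation action on Sylow subgroups of `N`
  let a : G → Sylow s N → Sylow s N := fun g P => (MulAut.conjNormal g : MulAut N) • P
  have a_mul : ∀ g g' P, a (g * g') P = a g (a g' P) := by
    intro g g' P
    simp only [a, map_mul, mul_smul]
  have a_one : ∀ P, a 1 P = P := by
    intro P
    simp only [a, map_one, one_smul]
  letI act : MulAction Q (Sylow s N) :=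
    { smul := fun x P => a x P
      one_smul := fun P => a_one P
      mul_smul := fun x y P => a_mul x y P }
  have hcardX : ¬ q ∣ Nat.card (Sylow s N) := by
    intro hd
    apply hqN
    haveI : Nonempty (Sylow s N) := inferInstance
    obtain ⟨P⟩ := this
    rw [Sylow.card_eq_index_normalizer P] at hd
    exact hd.trans (Subgroup.index_dvd_card _)
  obtain ⟨P, hP⟩ := hQ.nonempty_fixed_point_of_prime_not_dvd_card (Sylow s N) hcardX
  have hP' : ∀ x ∈ Q, a x P = P := fun x hx => hP ⟨x, hx⟩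
  have hP'' : ∀ x ∈ Q, a x⁻¹ P = P := fun x hx => hP' _ (Q.inv_mem hx)
  -- `a g P = P` gives normalisation
  let S : Subgroup G := (P : Subgroup N).map N.subtype
  have hmemS : ∀ n : N, (n : G) ∈ S ↔ n ∈ (P : Subgroup N) := by
    intro n
    constructor
    · rintro ⟨m, hm, hmn⟩
      have : m = n := Subtype.ext hmn
      exact this ▸ hm
    · intro h
      exact ⟨n, h, rfl⟩
  have hnorm : ∀ g, a g P = P → g ∈ Subgroup.normalizer (S : Set G) := by
    have key : ∀ g, a g P = P → ∀ n ∈ S, g * n * g⁻¹ ∈ S := by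
      rintro g hg _ ⟨m, hm, rfl⟩
      have h1 : (MulAut.conjNormal g : MulAut N) m ∈ (a g P : Subgroup N) :=
        Subgroup.smul_mem_pointwise_smul m (MulAut.conjNormal g : MulAut N) (P : Subgroup N) hm
      rw [hg] at h1
      have h2 := (hmemS _).mpr h1
      simpa using h2
    intro g hg
    rw [Subgroup.mem_normalizer_iff]
    intro n
    constructor
    · exact key g hg n
    · intro h
      have hg' : a g⁻¹ P = P := by
        have h1 := a_mul g⁻¹ g P
        rw [hg, inv_mul_cancel, a_one] at h1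
        exact h1.symm
      have := key g⁻¹ hg' _ h
      simpa [mul_assoc] using this
  -- the second Sylow
  set P₂ := a g₁ P with hP₂
  have hQP₂ : ∀ x ∈ Q, a x P₂ = P₂ := by
    intro x hx
    have h1 : g₁⁻¹ * x * g₁ ∈ Q := by
      have hinv : g₁⁻¹ ∈ Subgroup.normalizer (Q : Set G) := Subgroup.inv_mem _ hg₁
      have := (Subgroup.mem_normalizer_iff.mp hinv x).mp hx
      simpa using this
    have h2 : x * g₁ = g₁ * (g₁⁻¹ * x * g₁) := by group
    rw [hP₂, ← a_mul, h2, a_mul, hP' _ h1]
  -- the set of conjugators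
  let Y := {n : N // a (n : G) P = P₂}
  have hYne : Nonempty Y := by
    obtain ⟨n, hn⟩ := MulAction.exists_smul_eq N P P₂
    refine ⟨n, ?_⟩
    rw [← hn, Sylow.smul_def]
    simp only [a]
    rw [MulAut.conjNormal_val]
  obtain ⟨n₀⟩ := hYne
  have hYcard : Nat.card Y ∣ Nat.card N := by
    let K : Subgroup N := MulAction.stabilizer N P
    have hK : ∀ k : N, k ∈ K ↔ a (k : G) P = P := by
      intro k
      rw [MulAction.mem_stabilizer_iff, Sylow.smul_def]
      simp only [a]
      rw [MulAut.conjNormal_val]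
    let e : Y ≃ K :=
      { toFun := fun y => ⟨(n₀ : N)⁻¹ * y.1, by
          rw [hK]
          simp only [Subgroup.coe_mul, Subgroup.coe_inv]
          have h1 : a ((n₀.1 : G)⁻¹) (a (n₀.1 : G) P) = P := by rw [← a_mul, inv_mul_cancel, a_one]
          rw [n₀.2] at h1
          rw [a_mul, y.2, h1]⟩
        invFun := fun k => ⟨n₀.1 * k.1, by
          simp only [Subgroup.coe_mul]
          rw [a_mul, (hK k.1).mp k.2, n₀.2]⟩
        left_inv := fun y => by
          apply Subtype.ext
          simp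
        right_inv := fun k => by
          apply Subtype.ext
          simp }
    rw [Nat.card_congr e]
    exact Subgroup.card_subgroup_dvd_card K
  have hYq : ¬ q ∣ Nat.card Y := fun hd => hqN (hd.trans hYcard)
  -- action on `Y`
  letI actY : MulAction Q Y :=
    { smul := fun x y => ⟨(MulAut.conjNormal (x : G) : MulAut N) y.1, by
        have h1 : (((MulAut.conjNormal (x : G) : MulAut N) y.1 : N) : G)
            = (x : G) * y.1 * (x : G)⁻¹ := by simp
        rw [h1, a_mul, a_mul, hP'' _ x.2, y.2, hQP₂ _ x.2]⟩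
      one_smul := fun y => by
        apply Subtype.ext
        show (MulAut.conjNormal ((1 : Q) : G) : MulAut N) y.1 = y.1
        simp
      mul_smul := fun x x' y => by
        apply Subtype.ext
        show (MulAut.conjNormal ((x * x' : Q) : G) : MulAut N) y.1
          = (MulAut.conjNormal (x : G) : MulAut N) ((MulAut.conjNormal (x' : G) : MulAut N) y.1)
        simp }
  obtain ⟨c, hc⟩ := hQ.nonempty_fixed_point_of_prime_not_dvd_card Y hYq
  have hcQ : ∀ x ∈ Q, (c.1 : G) * x = x * c.1 := by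
    intro x hx
    have h1 := hc ⟨x, hx⟩
    have h2 : ((MulAut.conjNormal x : MulAut N) c.1 : N) = c.1 := congrArg Subtype.val h1
    have h3 : x * (c.1 : G) * x⁻¹ = c.1 := by
      have := congrArg Subtype.val h2
      simpa using this
    calc (c.1 : G) * x = (x * (c.1 : G) * x⁻¹) * x := by rw [h3]
      _ = x * c.1 := by group
  refine ⟨S, ?_, ?_, ?_, ?_, c.1, c.1.2, hcQ, ?_⟩
  · rintro _ ⟨m, _, rfl⟩
    exact m.2
  · exact P.2.map _
  · have h1 : Nat.card S = Nat.card (P : Subgroup N) := by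
      exact Nat.card_congr (Subgroup.equivMapOfInjective _ _ N.subtype_injective).symm.toEquiv
    rw [h1]
    exact Sylow.card_eq_multiplicity P
  · intro x hx
    exact hnorm x (hP' x hx)
  · apply hnorm
    have h1 : a ((c.1 : G)⁻¹) (a (c.1 : G) P) = P := by rw [← a_mul, inv_mul_cancel, a_one]
    rw [c.2] at h1
    rw [a_mul, ← hP₂]
    exact h1

/-- The main centralising step. -/
theorem central_of_sylow {G : Type u} [Group G] [Finite G] (N : Subgroup G) [hN : N.Normal]
    (Fb : Subgroup (G ⧸ N)) [hFb : Fb.Normal] (h : ℕ) (hh : 1 < h) (gb : G ⧸ N)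
    (hgb : orderOf gb = h)
    (hF1 : ∀ f ∈ Fb, ∀ i, 0 < i → i < h → f * gb ^ i * f⁻¹ = gb ^ i → f = 1)
    (key : ∀ y : G, orderOf (QuotientGroup.mk' N y) = h → y ^ h = 1)
    (q : ℕ) [hq : Fact q.Prime] (hqN : ¬ q ∣ Nat.card N)
    (Q₀ : Sylow q (Fb.comap (QuotientGroup.mk' N))) :
    ∀ z ∈ (Q₀ : Subgroup (Fb.comap (QuotientGroup.mk' N))).map (Fb.comap (QuotientGroup.mk' N)).subtype,
      ∀ w ∈ N, z * w = w * z := by
  classical
  let π : G →* G ⧸ N := QuotientGroup.mk' N
  let Ft : Subgroup G := Fb.comap π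
  let Q : Subgroup G := (Q₀ : Subgroup Ft).map Ft.subtype
  haveI hFtn : Ft.Normal := Subgroup.Normal.comap hFb π
  have hQp : IsPGroup q Q := Q₀.2.map _
  have hQFt : ∀ z ∈ Q, π z ∈ Fb := by
    rintro _ ⟨m, _, rfl⟩
    exact m.2
  -- Frattini
  obtain ⟨g₀, hg₀⟩ := QuotientGroup.mk'_surjective N gb
  have hfr := Sylow.normalizer_sup_eq_top Q₀
  have hg₀mem : g₀ ∈ Subgroup.normalizer ((Q₀ : Subgroup Ft).map Ft.subtype : Set G) ⊔ Ft := by
    rw [hfr]; trivial
  obtain ⟨a, ha, b, hb, hab⟩ := Subgroup.mem_sup_of_normal_right.mp hg₀mem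
  have hπa : π a = gb * π b⁻¹ := by
    have : a = g₀ * b⁻¹ := by rw [← hab]; group
    rw [this, map_mul, hg₀]
  have hπb : π b⁻¹ ∈ Fb := by
    rw [map_inv]
    exact Fb.inv_mem hb
  have hF1' : ∀ f ∈ Fb, f * gb * f⁻¹ = gb → f = 1 := by
    intro f hf hfg
    exact hF1 f hf 1 one_pos hh (by simpa using hfg)
  -- the element `a` has image conjugate to `gb`
  obtain ⟨x, hxF, hx⟩ : ∃ x ∈ Fb, π a = x⁻¹ * gb * x := by
    rw [hπa]
    exact frob_conj Fb gb hF1' _ hπb
  have hconjpow : ∀ i : ℕ, (π a) ^ i = x⁻¹ * gb ^ i * x := by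
    intro i
    rw [hx]
    have := conj_pow (a := x⁻¹) (b := gb) (i := i)
    simpa using this
  have hordera : orderOf (π a) = h := by
    rw [hx, ← hgb]
    have := (MulAut.conj x⁻¹).toMonoidHom
    have h2 := MulEquiv.orderOf_eq (MulAut.conj x⁻¹) gb
    simpa using h2
  -- the freeness
  have hfreeAll : ∀ g : G, π g = π a → ∀ i, 0 < i → i < h → ∀ z ∈ Q,
      g ^ i * z * (g ^ i)⁻¹ = z → z = 1 := by
    intro g hg i hi1 hi2 z hz hzc
    have h1 : (π a) ^ i * π z * ((π a) ^ i)⁻¹ = π z := by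
      have := congrArg π hzc
      simpa [hg] using this
    rw [hconjpow] at h1
    have h2 : x * π z * x⁻¹ ∈ Fb := hFb.conj_mem _ (hQFt z hz) x
    have h3 : (x * π z * x⁻¹) * gb ^ i * (x * π z * x⁻¹)⁻¹ = gb ^ i := by
      have h4 : gb ^ i * (x * π z * x⁻¹) * (gb ^ i)⁻¹ = x * π z * x⁻¹ := by
        calc gb ^ i * (x * π z * x⁻¹) * (gb ^ i)⁻¹
            = x * ((x⁻¹ * gb ^ i * x) * π z * (x⁻¹ * gb ^ i * x)⁻¹) * x⁻¹ := by group
          _ = x * π z * x⁻¹ := by rw [h1]
      generalize x * π z * x⁻¹ = f at h4 ⊢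
      have h4' : gb ^ i * f = f * gb ^ i := by rwa [mul_inv_eq_iff_eq_mul] at h4
      rw [← h4']; group
    have h5 := hF1 _ h2 i hi1 hi2 h3
    have h6 : π z = 1 := by
      have : x * π z * x⁻¹ * x = 1 * x := by rw [h5]
      simpa using this
    have hzN : z ∈ N := (QuotientGroup.eq_one_iff z).mp h6
    obtain ⟨k, hk⟩ := hQp ⟨z, hz⟩
    have hk' : z ^ q ^ k = 1 := congrArg Subtype.val hk
    have hc : z ^ Nat.card N = 1 := by
      have := pow_card_eq_one' (x := (⟨z, hzN⟩ : N))
      exact congrArg Subtype.val this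
    refine pow_coprime_one z _ _ hk' hc ?_
    exact Nat.Coprime.pow_left _ ((Nat.Prime.coprime_iff_not_dvd hq.out).mpr hqN)
  -- all of `N`
  intro z hz w hw
  have hcentral : ∀ s : ℕ, s.Prime → ∃ S : Subgroup G,
      S ≤ (Subgroup.centralizer (Q : Set G)) ⊓ N ∧
        Nat.card S = s ^ (Nat.card N).factorization s := by
    intro s hs
    haveI : Fact s.Prime := ⟨hs⟩
    by_cases hsq : s = q
    · refine ⟨⊥, bot_le, ?_⟩
      have : (Nat.card N).factorization s = 0 :=
        Nat.factorization_eq_zero_of_not_dvd (by rw [hsq]; exact hqN)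
      rw [this]; simp
    obtain ⟨S, hSN, hSp, hScard, hQS, c, hcN, hcQ, hcg⟩ := inv_sylow N Q q s hQp hqN a ha
    refine ⟨S, ?_, hScard⟩
    refine le_inf ?_ hSN
    -- apply the centre chain in the normalizer of `S`
    set g₂ := c⁻¹ * a with hg₂
    have hπg₂ : π g₂ = π a := by
      have : π c = 1 := (QuotientGroup.eq_one_iff c).mpr hcN
      rw [hg₂, map_mul, map_inv, this]; simp
    have hg₂Q : g₂ ∈ Subgroup.normalizer (Q : Set G) := by
      have hcQ' : c⁻¹ ∈ Subgroup.normalizer (Q : Set G) := by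
        rw [Subgroup.mem_normalizer_iff]
        intro n
        constructor
        · intro hn
          have h0 := hcQ n hn
          have : c⁻¹ * n * c⁻¹⁻¹ = n := by
            rw [inv_inv, mul_assoc, ← h0]; group
          rwa [this]
        · intro hn
          have h2 := hcQ _ hn
          have h3 : n = c⁻¹ * n * c⁻¹⁻¹ := by
            have h5 : c * (c⁻¹ * n * c⁻¹⁻¹) * c⁻¹ = n := by group
            rw [h2, mul_inv_cancel_right] at h5
            exact h5.symm
          rw [h3]; exact hn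
      exact Subgroup.mul_mem _ hcQ' ha
    let Nm : Subgroup G := Subgroup.normalizer (S : Set G)
    have hSNm : S ≤ Nm := Subgroup.le_normalizer
    haveI : (S.subgroupOf Nm).Normal := Subgroup.normal_in_normalizer
    have hcc := center_chain s q hsq _ Nm (S.subgroupOf Nm) (Q.subgroupOf Nm) ⟨g₂, hcg⟩ h le_rfl
      (hSp.comap_of_injective Nm.subtype Nm.subtype_injective)
      (hQp.comap_of_injective Nm.subtype Nm.subtype_injective) (by omega)
      (by
        rw [Subgroup.mem_normalizer_iff]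
        intro n
        have h1 := Subgroup.mem_normalizer_iff.mp hg₂Q (n : G)
        simpa [Subgroup.mem_subgroupOf] using h1)
      (by
        intro i hi1 hi2 y hy hyc
        apply Subtype.ext
        have : (y : G) = 1 := hfreeAll g₂ hπg₂ i hi1 hi2 y hy (by
          have := congrArg Subtype.val hyc
          simpa using this)
        simpa using this)
      (by
        intro w hw
        apply Subtype.ext
        have h1 : orderOf (π (g₂ * (w : G))) = h := by
          have : π (g₂ * (w : G)) = π a := by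
            rw [map_mul, hπg₂]
            have : π (w : G) = 1 := (QuotientGroup.eq_one_iff _).mpr (hSN hw)
            rw [this, mul_one]
          rw [this, hordera]
        simpa using key _ h1)
    intro t ht
    rw [Subgroup.mem_centralizer_iff]
    intro y hy
    have := hcc ⟨y, hQS hy⟩ (by simpa [Subgroup.mem_subgroupOf] using hy) ⟨t, hSNm ht⟩
      (by simpa [Subgroup.mem_subgroupOf] using ht)
    exact congrArg Subtype.val this
  have hle := le_of_sylow_powers _ N inf_le_right hcentral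
  have h1 : w ∈ Subgroup.centralizer (Q : Set G) := (hle hw).1
  rw [Subgroup.mem_centralizer_iff] at h1
  exact h1 z hz

open scoped Pointwise in
theorem frob_free {T : Type*} [Group T] (Hb Fb : Subgroup T) (hHb : Cfsg.IsFrobeniusComplement Hb)
    (hker : Cfsg.frobeniusKernel Hb = (Fb : Set T)) (f a : T) (hf : f ∈ Fb) (ha : a ∈ Hb)
    (hfa : f * a * f⁻¹ = a) (ha1 : a ≠ 1) : f = 1 := by
  by_contra hf1
  have hker' : ∀ g : T, f ∉ MulAut.conj g • Hb := by
    intro g
    have : f ∈ Cfsg.frobeniusKernel Hb := by rw [hker]; exact hf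
    rcases this with h1 | h1
    · exact absurd h1 hf1
    · exact h1 g
  have h1 : f ∉ Hb := by
    intro hfH
    apply hker' 1
    simpa using hfH
  have h2 := hHb.2.2 f h1
  have h3 : a ∈ Hb ⊓ (MulAut.conj f • Hb) := by
    refine ⟨ha, ?_⟩
    rw [← hfa]
    exact Subgroup.smul_mem_pointwise_smul a (MulAut.conj f) Hb ha
  rw [h2] at h3
  exact ha1 (by simpa using h3)

/-- Let N be a normal subgroup of the finite group G such that G/N is a Frobenius group with kernel F and cyclic complement H, where the order of F is coprime to that of N and F is not contained in the image of C_G(N) in G/N. Then G has an element of order p·#H for some prime p dividing the order of N. (A standard tool in recognising groups by their element orders.) -/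
theorem result {G : Type*} [Group G] [Finite G] (N : Subgroup G) [N.Normal]
    (Fb Hb : Subgroup (G ⧸ N)) [Fb.Normal] (hHb : Cfsg.IsFrobeniusComplement Hb) (hker : Cfsg.frobeniusKernel Hb = (Fb : Set (G ⧸ N)))
    (hcyc : IsCyclic Hb) (hcop : (Nat.card Fb).Coprime (Nat.card N))
    (hnot : ¬ Fb ≤ (Subgroup.centralizer (N : Set G)).map (QuotientGroup.mk' N)) :
    ∃ p : ℕ, p.Prime ∧ p ∣ Nat.card N ∧ ∃ g : G, orderOf g = p * Nat.card Hb := by
  classical
  by_contra hgoal
  have hb1 := hHb.1
  set π := QuotientGroup.mk' N with hπ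
  set h := Nat.card Hb with hhdef
  -- the generator
  obtain ⟨g', hg'⟩ := IsCyclic.exists_generator (α := Hb)
  have hgH : orderOf g' = h := orderOf_eq_card_of_forall_mem_zpowers hg'
  set gb : G ⧸ N := (g' : G ⧸ N) with hgbdef
  have hgb : orderOf gb = h := by rw [hgbdef, Subgroup.orderOf_coe, hgH]
  have hgbH : gb ∈ Hb := g'.2
  have hh : 1 < h := by
    have : Nontrivial Hb := (Subgroup.nontrivial_iff_ne_bot Hb).mpr hb1
    exact Finite.one_lt_card
  -- Frobenius facts
  have hF1 : ∀ f ∈ Fb, ∀ i, 0 < i → i < h → f * gb ^ i * f⁻¹ = gb ^ i → f = 1 := by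
    intro f hf i hi1 hi2 hfg
    refine frob_free Hb Fb hHb hker f _ hf (Hb.pow_mem hgbH i) hfg ?_
    intro h4
    have := orderOf_dvd_of_pow_eq_one h4
    rw [hgb] at this
    exact absurd (Nat.le_of_dvd hi1 this) (by omega)
  -- the contradiction hypothesis
  have key : ∀ y : G, orderOf (QuotientGroup.mk' N y) = h → y ^ h = 1 := by
    intro y hy
    by_contra hne
    exact hgoal (order_lemma N y h (by omega) hy hne)
  -- all Sylow subgroups of the preimage of Fb lie in J
  let Ft := Fb.comap π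
  haveI hFtn : Ft.Normal := Subgroup.Normal.comap ‹_› π
  let J : Subgroup G := (Subgroup.centralizer (N : Set G) ⊓ Ft) ⊔ N
  have hNFt : N ≤ Ft := by
    intro n hn
    have : π n = 1 := (QuotientGroup.eq_one_iff n).mpr hn
    show π n ∈ Fb
    rw [this]; exact Fb.one_mem
  have hJFt : J ≤ Ft := sup_le inf_le_right hNFt
  have hFtJ : Ft ≤ J := by
    apply le_of_sylow_powers J Ft hJFt
    intro r hr
    haveI : Fact r.Prime := ⟨hr⟩
    obtain ⟨Q₀⟩ : Nonempty (Sylow r Ft) := inferInstance
    refine ⟨(Q₀ : Subgroup Ft).map Ft.subtype, ?_, ?_⟩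
    · intro z hz
      by_cases hrN : r ∣ Nat.card N
      · -- `r` does not divide `|Fb|`
        have hrF : ¬ r ∣ Nat.card Fb := by
          intro hd
          exact hr.one_lt.ne' (Nat.eq_one_of_dvd_coprimes hcop hd hrN)
        have hzFt : z ∈ Ft := by
          obtain ⟨m, _, rfl⟩ := hz
          exact m.2
        have hzp : IsPGroup r ((Q₀ : Subgroup Ft).map Ft.subtype) := Q₀.2.map _
        obtain ⟨k, hk⟩ := hzp ⟨z, hz⟩
        have hk' : z ^ r ^ k = 1 := congrArg Subtype.val hk
        have h1 : (π z) ^ r ^ k = 1 := by rw [← map_pow, hk', map_one]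
        have h2 : (π z) ^ Nat.card Fb = 1 := by
          have := pow_card_eq_one' (x := (⟨π z, hzFt⟩ : Fb))
          exact congrArg Subtype.val this
        have h3 := pow_coprime_one (π z) _ _ h1 h2
          (Nat.Coprime.pow_left _ ((Nat.Prime.coprime_iff_not_dvd hr).mpr hrF))
        have hzN : z ∈ N := (QuotientGroup.eq_one_iff z).mp h3
        exact (le_sup_right : N ≤ J) hzN
      · have hc := central_of_sylow N Fb h hh gb hgb hF1 key r hrN Q₀ z hz
        have hzFt : z ∈ Ft := by
          obtain ⟨m, _, rfl⟩ := hz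
          exact m.2
        refine (le_sup_left : _ ≤ J) ⟨?_, hzFt⟩
        show z ∈ Subgroup.centralizer (N : Set G)
        rw [Subgroup.mem_centralizer_iff]
        intro w hw
        exact (hc w hw).symm
    · have h1 : Nat.card ((Q₀ : Subgroup Ft).map Ft.subtype) = Nat.card (Q₀ : Subgroup Ft) :=
        Nat.card_congr (Subgroup.equivMapOfInjective _ _ Ft.subtype_injective).symm.toEquiv
      rw [h1]
      exact Sylow.card_eq_multiplicity Q₀
  apply hnot
  intro f hf
  obtain ⟨u, rfl⟩ := QuotientGroup.mk'_surjective N f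
  have hu : u ∈ J := hFtJ hf
  obtain ⟨c, hc, n, hn, rfl⟩ := Subgroup.mem_sup_of_normal_right.mp hu
  refine ⟨c, hc.1, ?_⟩
  have : π n = 1 := (QuotientGroup.eq_one_iff n).mpr hn
  show π c = π (c * n)
  rw [map_mul, this, mul_one]

end Cfsg.Agent.S3703
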