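import Cfsg.Statements.S3713
import Cfsg.Agent.Lib.SpAm.Main

set_option autoImplicit false
open Cfsg

namespace Cfsg.Agent.S3713

open Cfsg.Agent.Lib.SpAm Sum

section Aux

variable {F : Type*} [Field F] {n : ℕ}

theorem Sg_Sg_comm {j l : Fin n} (hjl : j ≠ l) {a b : SpG F n} (ha : a ∈ (Sg j : Subgroup (SpG F n)))
    (hb : b ∈ (Sg l : Subgroup (SpG F n))) : a * b = b * a := by
  apply G_ext_basis
  intro m
  simp only [act_mul]
  by_cases hm : m = j
  · subst hm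
    rw [(hb m hjl).1, (hb m hjl).2]
    exact ⟨(act_Sg_off hb hjl (act_Sg_P ha (eV_mem_Pl m))).symm,
      (act_Sg_off hb hjl (act_Sg_P ha (fV_mem_Pl m))).symm⟩
  · rw [(ha m hm).1, (ha m hm).2]
    by_cases hm' : m = l
    · subst hm'
      exact ⟨act_Sg_off ha hjl.symm (act_Sg_P hb (eV_mem_Pl m)),
        act_Sg_off ha hjl.symm (act_Sg_P hb (fV_mem_Pl m))⟩
    · rw [(hb m hm').1, (hb m hm').2, (ha m hm).1, (ha m hm).2]
      exact ⟨rfl, rfl⟩

theorem fix_of_inr {g : SpG F n} (hg : ∀ l, act g (eV l) = eV l) {v : Vc F n}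
    (hv : ∀ m, v (inr m) = 0) : act g v = v := by
  conv_lhs => rw [vec_expand v]
  conv_rhs => rw [vec_expand v]
  simp only [map_sum, map_add, map_smul, hg, hv, zero_smul, add_zero]

theorem U_comm {a b : SpG F n} (ha : ∀ l, act a (eV l) = eV l) (hb : ∀ l, act b (eV l) = eV l) :
    a * b = b * a := by
  apply G_ext_basis
  intro l
  simp only [act_mul]
  refine ⟨by rw [hb l, ha l, hb l], ?_⟩
  have hda : ∀ m, (act a (fV l) - fV l : Vc F n) (inr m) = 0 := by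
    intro m
    rw [Pi.sub_apply, act_inr a _ m (ha m), sub_self]
  have hdb : ∀ m, (act b (fV l) - fV l : Vc F n) (inr m) = 0 := by
    intro m
    rw [Pi.sub_apply, act_inr b _ m (hb m), sub_self]
  have e1 : act a (act b (fV l)) = act a (fV l) + (act b (fV l) - fV l) := by
    conv_lhs => rw [show act b (fV l) = fV l + (act b (fV l) - fV l) by abel, map_add,
      fix_of_inr ha hdb]
  have e2 : act b (act a (fV l)) = act b (fV l) + (act a (fV l) - fV l) := by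
    conv_lhs => rw [show act a (fV l) = fV l + (act a (fV l) - fV l) by abel, map_add,
      fix_of_inr hb hda]
  rw [e1, e2]
  abel

theorem Mg_Sg_comm {i i₁ j : Fin n} (hii : i ≠ i₁) (h1 : j ≠ i) (h2 : j ≠ i₁) {a b : SpG F n}
    (ha : a ∈ (Mg i i₁ : Subgroup (SpG F n))) (hb : b ∈ (Sg j : Subgroup (SpG F n))) :
    a * b = b * a := by
  obtain ⟨t, τ₁, τ₂, rfl⟩ := Mg_form hii ha
  have h3 : act b (eV i) = eV i := (hb i h1.symm).1
  have h4 : act b (eV i₁) = eV i₁ := (hb i₁ h2.symm).1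
  have c1 : Commute b (Y (t • eV i) (eV i₁)) := by
    have := conj_Y b (t • eV i) (eV i₁)
    rw [map_smul, h3, h4, mul_inv_eq_iff_eq_mul] at this
    exact this
  have c2 : Commute b (T (eV i) τ₁) := by
    have := conj_T b (eV i) τ₁
    rw [h3, mul_inv_eq_iff_eq_mul] at this
    exact this
  have c3 : Commute b (T (eV i₁) τ₂) := by
    have := conj_T b (eV i₁) τ₂
    rw [h4, mul_inv_eq_iff_eq_mul] at this
    exact this
  exact (((c1.mul_right c2).mul_right c3).symm).eq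

variable {H : Type*} [Group H]

theorem main_aux (hF : ∃ a : F, a ≠ 0 ∧ a ≠ 1) (hn : 2 ≤ n)
    (M : Fin n → Subgroup (SpG F n))
    (hM : ∀ (i : Fin n) (hi : (i : ℕ) + 1 < n), M i = Mg i ⟨(i : ℕ) + 1, hi⟩)
    (σ : ∀ j : Fin n, ↥(Sg (F := F) j) →* H) (μ : ∀ i : Fin n, ↥(M i) →* H)
    (hSS : ∀ j l : Fin n, j ≠ l → ∃ Ψ : ↥((Sg j : Subgroup (SpG F n)) ⊔ Sg l) →* H,
      (∀ (g : SpG F n) (hg : g ∈ (Sg j : Subgroup (SpG F n))), Ψ ⟨g, Subgroup.mem_sup_left hg⟩ = σ j ⟨g, hg⟩) ∧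
        (∀ (g : SpG F n) (hg : g ∈ (Sg l : Subgroup (SpG F n))), Ψ ⟨g, Subgroup.mem_sup_right hg⟩ = σ l ⟨g, hg⟩))
    (hMM : ∀ i i' : Fin n, i ≠ i' → (i : ℕ) + 1 < n → (i' : ℕ) + 1 < n → ∃ Ψ : ↥(M i ⊔ M i') →* H,
      (∀ (g : SpG F n) (hg : g ∈ M i), Ψ ⟨g, Subgroup.mem_sup_left hg⟩ = μ i ⟨g, hg⟩) ∧
        (∀ (g : SpG F n) (hg : g ∈ M i'), Ψ ⟨g, Subgroup.mem_sup_right hg⟩ = μ i' ⟨g, hg⟩))
    (hMS : ∀ i j : Fin n, (i : ℕ) + 1 < n → ∃ Ψ : ↥(M i ⊔ Sg j) →* H,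
      (∀ (g : SpG F n) (hg : g ∈ M i), Ψ ⟨g, Subgroup.mem_sup_left hg⟩ = μ i ⟨g, hg⟩) ∧
        (∀ (g : SpG F n) (hg : g ∈ (Sg j : Subgroup (SpG F n))), Ψ ⟨g, Subgroup.mem_sup_right hg⟩ = σ j ⟨g, hg⟩)) :
    ∃! Φ : SpG F n →* H,
      (∀ (j : Fin n) (g : SpG F n) (hg : g ∈ (Sg j : Subgroup (SpG F n))), Φ g = σ j ⟨g, hg⟩) ∧
        (∀ (i : Fin n), (i : ℕ) + 1 < n → ∀ (g : SpG F n) (hg : g ∈ M i), Φ g = μ i ⟨g, hg⟩) := by
  classical
  have hMi : ∀ {i i' : Fin n}, i'.val = i.val + 1 → (i : ℕ) + 1 < n ∧ M i = Mg i i' := by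
    intro i i' h
    have hi : (i : ℕ) + 1 < n := by have := i'.isLt; omega
    refine ⟨hi, ?_⟩
    rw [hM i hi]
    congr 1
    exact Fin.ext h.symm
  let σt : Fin n → SpG F n → H := fun j g => if h : g ∈ (Sg j : Subgroup (SpG F n)) then σ j ⟨g, h⟩ else 1
  let μt : Fin n → SpG F n → H := fun i g => if h : g ∈ M i then μ i ⟨g, h⟩ else 1
  let Ψbt : Fin n → SpG F n → H := fun i g => if hi : (i : ℕ) + 1 < n then
    (if h : g ∈ M i ⊔ (Sg i : Subgroup (SpG F n)) then (hMS i i hi).choose ⟨g, h⟩ else 1) else 1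
  let Ψct : Fin n → SpG F n → H := fun i g => if hi : (i : ℕ) + 1 < n then
    (if h : g ∈ M i ⊔ (Sg ⟨(i : ℕ) + 1, hi⟩ : Subgroup (SpG F n)) then
      (hMS i ⟨(i : ℕ) + 1, hi⟩ hi).choose ⟨g, h⟩ else 1) else 1
  have hσt : ∀ {j : Fin n} {g : SpG F n} (h : g ∈ (Sg j : Subgroup (SpG F n))), σt j g = σ j ⟨g, h⟩ :=
    fun {j g} h => dif_pos h
  have hμt : ∀ {i : Fin n} {g : SpG F n} (h : g ∈ M i), μt i g = μ i ⟨g, h⟩ :=
    fun {i g} h => dif_pos h
  have hΨb : ∀ {i : Fin n} {g : SpG F n} (hi : (i : ℕ) + 1 < n)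
      (h : g ∈ M i ⊔ (Sg i : Subgroup (SpG F n))), Ψbt i g = (hMS i i hi).choose ⟨g, h⟩ := by
    intro i g hi h
    show (if hi : (i : ℕ) + 1 < n then _ else _) = _
    rw [dif_pos hi, dif_pos h]
  have hΨc : ∀ {i : Fin n} {g : SpG F n} (hi : (i : ℕ) + 1 < n)
      (h : g ∈ M i ⊔ (Sg ⟨(i : ℕ) + 1, hi⟩ : Subgroup (SpG F n))),
      Ψct i g = (hMS i ⟨(i : ℕ) + 1, hi⟩ hi).choose ⟨g, h⟩ := by
    intro i g hi h
    show (if hi : (i : ℕ) + 1 < n then _ else _) = _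
    rw [dif_pos hi, dif_pos h]
  let A : Amal F n H :=
    { σ := σt
      μ := μt
      Ψb := Ψbt
      Ψc := Ψct
      σ_mul := by
        intro j a ha b hb
        rw [hσt ha, hσt hb, hσt ((Sg j).mul_mem ha hb), ← map_mul]
        rfl
      μ_mul := by
        intro i i' h a ha b hb
        obtain ⟨hi, hMe⟩ := hMi h
        have ha' : a ∈ M i := by rw [hMe]; exact ha
        have hb' : b ∈ M i := by rw [hMe]; exact hb
        rw [hμt ha', hμt hb', hμt ((M i).mul_mem ha' hb'), ← map_mul]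
        rfl
      comm_SS := by
        intro j l hjl a ha b hb
        obtain ⟨Ψ, h1, h2⟩ := hSS j l hjl
        rw [hσt ha, hσt hb, ← h1, ← h2]
        refine Commute.map ?_ Ψ
        exact Subtype.ext (Sg_Sg_comm hjl ha hb)
      comm_MM := by
        intro i i₁ i' i₁' h1 h2 hne a ha b hb
        obtain ⟨hi, hMe⟩ := hMi h1
        obtain ⟨hi', hMe'⟩ := hMi h2
        have ha' : a ∈ M i := by rw [hMe]; exact ha
        have hb' : b ∈ M i' := by rw [hMe']; exact hb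
        obtain ⟨Ψ, h3, h4⟩ := hMM i i' hne hi hi'
        rw [hμt ha', hμt hb', ← h3, ← h4]
        refine Commute.map ?_ Ψ
        exact Subtype.ext (U_comm ha.1 hb.1)
      comm_MS := by
        intro i i₁ j h1 hj1 hj2 a ha b hb
        obtain ⟨hi, hMe⟩ := hMi h1
        have ha' : a ∈ M i := by rw [hMe]; exact ha
        obtain ⟨Ψ, h3, h4⟩ := hMS i j hi
        rw [hμt ha', hσt hb, ← h3, ← h4]
        refine Commute.map ?_ Ψ
        refine Subtype.ext (Mg_Sg_comm ?_ hj1 hj2 ha hb)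
        intro h
        rw [h] at h1
        omega
      Ψb_mul := by
        intro i i' h a ha b hb
        obtain ⟨hi, hMe⟩ := hMi h
        rw [← hMe] at ha hb
        rw [hΨb hi ha, hΨb hi hb, hΨb hi (Subgroup.mul_mem _ ha hb), ← map_mul]
        rfl
      Ψb_μ := by
        intro i i' h a ha
        obtain ⟨hi, hMe⟩ := hMi h
        rw [← hMe] at ha
        rw [hμt ha, hΨb hi (Subgroup.mem_sup_left ha)]
        exact (hMS i i hi).choose_spec.1 a ha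
      Ψb_σ := by
        intro i i' h a ha
        obtain ⟨hi, hMe⟩ := hMi h
        rw [hσt ha, hΨb hi (Subgroup.mem_sup_right ha)]
        exact (hMS i i hi).choose_spec.2 a ha
      Ψc_mul := by
        intro i i' h a ha b hb
        obtain ⟨hi, hMe⟩ := hMi h
        obtain rfl : i' = ⟨(i : ℕ) + 1, hi⟩ := Fin.ext h
        rw [← hMe] at ha hb
        rw [hΨc hi ha, hΨc hi hb, hΨc hi (Subgroup.mul_mem _ ha hb), ← map_mul]
        rfl
      Ψc_μ := by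
        intro i i' h a ha
        obtain ⟨hi, hMe⟩ := hMi h
        rw [← hMe] at ha
        rw [hμt ha, hΨc hi (Subgroup.mem_sup_left ha)]
        exact (hMS i ⟨(i : ℕ) + 1, hi⟩ hi).choose_spec.1 a ha
      Ψc_σ := by
        intro i i' h a ha
        obtain ⟨hi, hMe⟩ := hMi h
        obtain rfl : i' = ⟨(i : ℕ) + 1, hi⟩ := Fin.ext h
        rw [hσt ha, hΨc hi (Subgroup.mem_sup_right ha)]
        exact (hMS i ⟨(i : ℕ) + 1, hi⟩ hi).choose_spec.2 a ha }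
  obtain ⟨Φ, h1, h2⟩ := amal_main A hF (by omega)
  refine ⟨Φ, ⟨fun j g hg => ?_, fun i hi g hg => ?_⟩, ?_⟩
  · rw [h1 j g hg]
    exact hσt hg
  · have hg' : g ∈ (Mg i ⟨(i : ℕ) + 1, hi⟩ : Subgroup (SpG F n)) := by
      rw [← hM i hi]; exact hg
    rw [h2 i _ rfl g hg']
    exact hμt hg
  · rintro Φ' ⟨h3, h4⟩
    refine amal_unique Φ' Φ ?_ ?_
    · intro j a ha
      rw [h3 j a ha, h1 j a ha]
      exact (hσt ha).symm
    · intro i i' h a ha
      obtain ⟨hi, hMe⟩ := hMi h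
      have ha' : a ∈ M i := by rw [hMe]; exact ha
      rw [h4 i hi a ha', h2 i i' h a ha]
      exact (hμt ha').symm

theorem S_eq_Sg (j : Fin n) : Subgroup.closure {A : SpG F n | ∀ k : Fin n, k ≠ j →
      ((A : SpG F n) : Matrix (Fin n ⊕ Fin n) (Fin n ⊕ Fin n) F).mulVec (Pi.single (Sum.inl k) (1 : F)) = (Pi.single (Sum.inl k) (1 : F)) ∧ ((A : SpG F n) : Matrix (Fin n ⊕ Fin n) (Fin n ⊕ Fin n) F).mulVec (Pi.single (Sum.inr k) (1 : F)) = (Pi.single (Sum.inr k) (1 : F))} = Sg j :=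
  Subgroup.closure_eq (Sg j)

theorem M_eq_Mg (i : Fin n) (hi : (i : ℕ) + 1 < n) : Subgroup.closure {A : SpG F n |
      (∀ k : Fin n, ((A : SpG F n) : Matrix (Fin n ⊕ Fin n) (Fin n ⊕ Fin n) F).mulVec (Pi.single (Sum.inl k) (1 : F)) = (Pi.single (Sum.inl k) (1 : F))) ∧
        ∀ k : Fin n, (k : ℕ) ≠ i → (k : ℕ) ≠ (i : ℕ) + 1 → ((A : SpG F n) : Matrix (Fin n ⊕ Fin n) (Fin n ⊕ Fin n) F).mulVec (Pi.single (Sum.inr k) (1 : F)) = (Pi.single (Sum.inr k) (1 : F))} = Mg i ⟨(i : ℕ) + 1, hi⟩ := by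
  have : {A : SpG F n |
      (∀ k : Fin n, ((A : SpG F n) : Matrix (Fin n ⊕ Fin n) (Fin n ⊕ Fin n) F).mulVec (Pi.single (Sum.inl k) (1 : F)) = (Pi.single (Sum.inl k) (1 : F))) ∧
        ∀ k : Fin n, (k : ℕ) ≠ i → (k : ℕ) ≠ (i : ℕ) + 1 → ((A : SpG F n) : Matrix (Fin n ⊕ Fin n) (Fin n ⊕ Fin n) F).mulVec (Pi.single (Sum.inr k) (1 : F)) = (Pi.single (Sum.inr k) (1 : F))} =
      (Mg i ⟨(i : ℕ) + 1, hi⟩ : Subgroup (SpG F n)) := by
    ext A
    constructor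
    · rintro ⟨h1, h2⟩
      refine ⟨h1, fun l hl hl' => h2 l (fun h => hl (Fin.ext h)) (fun h => hl' (Fin.ext h))⟩
    · rintro ⟨h1, h2⟩
      refine ⟨h1, fun l hl hl' => h2 l (fun h => hl (congrArg Fin.val h)) (fun h => hl' (congrArg Fin.val h))⟩
  rw [this]
  exact Subgroup.closure_eq _

end Aux

/-- A presentation of the symplectic group as the universal completion of an amalgam of small subgroups. Let F be a field with more than two elements, n ≥ 2, and Sp the group of 2n × 2n matrices over F preserving the standard alternating form, acting on column vectors; write e_k, f_k for the standard basis vectors of the two halves (a hyperbolic basis). For each k let S_k be the subgroup of Sp fixing e_l and f_l for all l ≠ k (a copy of SL(2, F) on the plane of e_k, f_k), and for each i with i + 1 < n let M_i be the subgroup fixing every e_l and fixing f_l for all l other than i, i+1 (an abelian group isomorphic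 to the additive group of F³). Then Sp is the universal completion of the amalgam formed by the S_k, the M_i and the subgroups generated by two of them: for every group H and homomorphisms σ_k : S_k → H, μ_i : M_i → H such that for each pair of these subgroups some homomorphism on the subgroup they generate restricts to the given ones, there is exactly one homomorphism Sp → H restricting to every σ_k and μ_i. -/
theorem result
    (F : Type*) [Field F] (hF : ∃ a : F, a ≠ 0 ∧ a ≠ 1) (n : ℕ) (hn : 2 ≤ n)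
    (S M : Fin n → Subgroup ↥(Matrix.symplecticGroup (Fin n) F))
    (hS : ∀ j : Fin n, S j = Subgroup.closure {A : ↥(Matrix.symplecticGroup (Fin n) F) | ∀ k : Fin n, k ≠ j →
      ((A : ↥(Matrix.symplecticGroup (Fin n) F)) : Matrix (Fin n ⊕ Fin n) (Fin n ⊕ Fin n) F).mulVec (Pi.single (Sum.inl k) (1 : F)) = (Pi.single (Sum.inl k) (1 : F)) ∧ ((A : ↥(Matrix.symplecticGroup (Fin n) F)) : Matrix (Fin n ⊕ Fin n) (Fin n ⊕ Fin n) F).mulVec (Pi.single (Sum.inr k) (1 : F)) = (Pi.single (Sum.inr k) (1 : F))})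
    (hM : ∀ i : Fin n, (i : ℕ) + 1 < n → M i = Subgroup.closure {A : ↥(Matrix.symplecticGroup (Fin n) F) |
      (∀ k : Fin n, ((A : ↥(Matrix.symplecticGroup (Fin n) F)) : Matrix (Fin n ⊕ Fin n) (Fin n ⊕ Fin n) F).mulVec (Pi.single (Sum.inl k) (1 : F)) = (Pi.single (Sum.inl k) (1 : F))) ∧
        ∀ k : Fin n, (k : ℕ) ≠ i → (k : ℕ) ≠ (i : ℕ) + 1 → ((A : ↥(Matrix.symplecticGroup (Fin n) F)) : Matrix (Fin n ⊕ Fin n) (Fin n ⊕ Fin n) F).mulVec (Pi.single (Sum.inr k) (1 : F)) = (Pi.single (Sum.inr k) (1 : F))})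
    {H : Type*} [Group H] (σ : ∀ j : Fin n, ↥(S j) →* H) (μ : ∀ i : Fin n, ↥(M i) →* H)
    (hSS : ∀ j l : Fin n, j ≠ l → ∃ Ψ : ↥(S j ⊔ S l) →* H,
      (∀ (g : ↥(Matrix.symplecticGroup (Fin n) F)) (hg : g ∈ S j), Ψ ⟨g, Subgroup.mem_sup_left hg⟩ = σ j ⟨g, hg⟩) ∧
        (∀ (g : ↥(Matrix.symplecticGroup (Fin n) F)) (hg : g ∈ S l), Ψ ⟨g, Subgroup.mem_sup_right hg⟩ = σ l ⟨g, hg⟩))
    (hMM : ∀ i i' : Fin n, i ≠ i' → (i : ℕ) + 1 < n → (i' : ℕ) + 1 < n → ∃ Ψ : ↥(M i ⊔ M i') →* H,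
      (∀ (g : ↥(Matrix.symplecticGroup (Fin n) F)) (hg : g ∈ M i), Ψ ⟨g, Subgroup.mem_sup_left hg⟩ = μ i ⟨g, hg⟩) ∧
        (∀ (g : ↥(Matrix.symplecticGroup (Fin n) F)) (hg : g ∈ M i'), Ψ ⟨g, Subgroup.mem_sup_right hg⟩ = μ i' ⟨g, hg⟩))
    (hMS : ∀ i j : Fin n, (i : ℕ) + 1 < n → ∃ Ψ : ↥(M i ⊔ S j) →* H,
      (∀ (g : ↥(Matrix.symplecticGroup (Fin n) F)) (hg : g ∈ M i), Ψ ⟨g, Subgroup.mem_sup_left hg⟩ = μ i ⟨g, hg⟩) ∧
        (∀ (g : ↥(Matrix.symplecticGroup (Fin n) F)) (hg : g ∈ S j), Ψ ⟨g, Subgroup.mem_sup_right hg⟩ = σ j ⟨g, hg⟩)) :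
    ∃! Φ : ↥(Matrix.symplecticGroup (Fin n) F) →* H,
      (∀ (j : Fin n) (g : ↥(Matrix.symplecticGroup (Fin n) F)) (hg : g ∈ S j), Φ g = σ j ⟨g, hg⟩) ∧
        (∀ (i : Fin n), (i : ℕ) + 1 < n → ∀ (g : ↥(Matrix.symplecticGroup (Fin n) F)) (hg : g ∈ M i), Φ g = μ i ⟨g, hg⟩) := by
  classical
  obtain rfl : S = Sg := funext fun j => (hS j).trans (S_eq_Sg j)
  exact main_aux hF hn M (fun i hi => (hM i hi).trans (M_eq_Mg i hi)) σ μ hSS hMM hMS

end Cfsg.Agent.S3713
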