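import Mathlib
import Cfsg.Statements.S3802

set_option autoImplicit false
open Cfsg

namespace Cfsg.Agent.S3802

universe u

theorem aux : ∀ (n : ℕ) (G : Type u) [Group G] [Finite G], Nat.card G = n →
    ∀ (M N : Subgroup G), IsCoatom M → N.IsSubnormal → N ≤ M →
      Subgroup.normalClosure (N : Set G) ≤ M := by
  intro n
  induction n using Nat.strong_induction_on with
  | _ n ih =>
  intro G _ _ hn M N hM hN hNM
  by_contra hT
  set T : Subgroup G := Subgroup.normalClosure (N : Set G) with hTdef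
  have hTn : T.Normal := Subgroup.normalClosure_normal
  have hNT : N ≤ T := Subgroup.subset_normalClosure
  -- `M ⊔ T = ⊤`
  have hsup : T ⊔ M = ⊤ := by
    have : M < M ⊔ T := by
      refine lt_of_le_of_ne le_sup_left fun h => hT ?_
      rw [h]; exact le_sup_right
    rw [sup_comm]
    exact hM.2 _ this
  -- `T` is proper
  have hNtop : N ≠ ⊤ := by
    rintro rfl
    exact hM.1 (top_le_iff.mp hNM)
  have hTlt : T ≠ ⊤ := by
    rcases hN.lt_normal with h | ⟨K, hK, hNK, hKlt⟩
    · exact absurd h hNtop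
    · intro hTt
      have : T ≤ K := Subgroup.normalClosure_le_normal hNK
      rw [hTt] at this
      exact absurd (lt_of_le_of_lt this hKlt) (lt_irrefl _)
  have hcard : Nat.card T < n := by
    rw [← hn]
    obtain ⟨x, hx⟩ : ∃ x, x ∉ T := by
      by_contra hc
      push Not at hc
      exact hTlt ((Subgroup.eq_top_iff' T).mpr hc)
    exact Finite.card_subtype_lt hx
  -- a maximal subgroup of `T` above `M ∩ T`
  have hM' : M.subgroupOf T ≠ ⊤ := by
    intro h
    rw [Subgroup.subgroupOf_eq_top] at h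
    exact hT h
  obtain ⟨M₂, hM₂, hle⟩ := (eq_top_or_exists_le_coatom (M.subgroupOf T)).resolve_left hM'
  -- every conjugate of `N` lies in `M₂`
  have key : ∀ x ∈ N, ∀ g : G, ∀ h : g * x * g⁻¹ ∈ T, (⟨g * x * g⁻¹, h⟩ : T) ∈ M₂ := by
    intro x hx g h
    have hg : g ∈ (T ⊔ M : Subgroup G) := by rw [hsup]; trivial
    rw [Subgroup.mem_sup_of_normal_left] at hg
    obtain ⟨t, ht, m, hm, rfl⟩ := hg
    -- the conjugate `N^m`
    let Nm : Subgroup G := N.map (MulAut.conj m).toMonoidHom
    have hNmM : Nm ≤ M := by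
      rintro _ ⟨y, hy, rfl⟩
      have : y ∈ M := hNM hy
      simpa using M.mul_mem (M.mul_mem hm this) (M.inv_mem hm)
    have hNmT : Nm ≤ T := by
      rintro _ ⟨y, hy, rfl⟩
      simpa using hTn.conj_mem y (hNT hy) m
    have hNmsub : Nm.IsSubnormal := hN.map (MulAut.conj m).surjective
    have hN' : (Nm.subgroupOf T).IsSubnormal := hNmsub.comap T.subtype
    have hNle : Nm.subgroupOf T ≤ M₂ := by
      refine le_trans ?_ hle
      intro y hy
      exact hNmM hy
    have := ih (Nat.card T) hcard T rfl M₂ (Nm.subgroupOf T) hM₂ hN' hNle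
    have hy : m * x * m⁻¹ ∈ T := hTn.conj_mem x (hNT hx) m
    have hyN : (⟨m * x * m⁻¹, hy⟩ : T) ∈ Nm.subgroupOf T := by
      rw [Subgroup.mem_subgroupOf]
      exact ⟨x, hx, by simp⟩
    have h2 : (⟨t, ht⟩ : T) * ⟨m * x * m⁻¹, hy⟩ * (⟨t, ht⟩ : T)⁻¹ ∈
        Subgroup.normalClosure ((Nm.subgroupOf T : Subgroup T) : Set T) := by
      have hnc := (Subgroup.normalClosure_normal (s := ((Nm.subgroupOf T : Subgroup T) : Set T)))
      exact hnc.conj_mem _ (Subgroup.subset_normalClosure hyN) _
    have h3 := this h2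
    convert h3 using 1
    apply Subtype.ext
    simp [mul_assoc]
  -- hence `T ≤ M₂`
  have hTle : T ≤ M₂.map T.subtype := by
    refine (Subgroup.closure_le _).2 ?_
    intro y hy
    rw [Group.mem_conjugatesOfSet_iff] at hy
    obtain ⟨x, hx, hc⟩ := hy
    obtain ⟨g, rfl⟩ := isConj_iff.mp hc
    have hx' : g * x * g⁻¹ ∈ T := hTn.conj_mem x (hNT hx) g
    exact ⟨⟨g * x * g⁻¹, hx'⟩, key x hx g hx', rfl⟩
  apply hM₂.1
  rw [eq_top_iff]
  rintro ⟨t, ht⟩ -
  obtain ⟨y, hy, hyt⟩ := hTle ht
  have : y = ⟨t, ht⟩ := Subtype.ext hyt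
  rwa [← this]

/-- Let G be a finite group, M a maximal subgroup of G and N a subnormal subgroup of G contained in M. Then N is contained in every conjugate of M, that is, N lies in the core of M in G. -/
theorem result {G : Type*} [Group G] [Finite G] (M N : Subgroup G) (hM : IsCoatom M) (hN : N.IsSubnormal) (hNM : N ≤ M) :
    N ≤ Subgroup.normalCore M := by
  have h := aux (Nat.card G) G rfl M N hM hN hNM
  have h2 : Subgroup.normalClosure (N : Set G) ≤ Subgroup.normalCore M :=
    Subgroup.normal_le_normalCore.mpr h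
  exact le_trans Subgroup.subset_normalClosure h2

end Cfsg.Agent.S3802
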