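import Mathlib
import Cfsg.Statements.S3803
import Cfsg.Agent.Lib.OmegaAut
import Cfsg.Agent.Lib.BurnsideAut
import Cfsg.Agent.Lib.Frat

set_option autoImplicit false
open Cfsg
open scoped commutatorElement

namespace Cfsg.Agent.S3803

open Cfsg.Agent.Lib.OmegaAut

universe u

section aut

variable {P : Type*} [Group P]

theorem iterate_mem (α : MulAut P) (M : Subgroup P) (h : ∀ x ∈ M, α x ∈ M) (k : ℕ) :
    ∀ x ∈ M, (α ^ k) x ∈ M := by
  induction k with
  | zero => intro x hx; simpa using hx
  | succ k ih =>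
    intro x hx
    rw [pow_succ', MulAut.mul_apply]
    exact h _ (ih x hx)

theorem mem_of_apply_mem [Finite P] (α : MulAut P) (M : Subgroup P) (h : ∀ x ∈ M, α x ∈ M) (x : P)
    (hx : α x ∈ M) : x ∈ M := by
  have hm : 0 < orderOf α := orderOf_pos α
  have h1 := iterate_mem α M h (orderOf α - 1) _ hx
  rw [← MulAut.mul_apply, ← pow_succ, Nat.sub_add_cancel hm, pow_orderOf_eq_one] at h1
  simpa using h1

/-- The restriction of an automorphism to an invariant subgroup. -/
noncomputable def resAut [Finite P] (α : MulAut P) (M : Subgroup P) (h : ∀ x ∈ M, α x ∈ M) :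
    MulAut M :=
  MulEquiv.ofBijective
    (show M →* M from
      { toFun := fun y => ⟨α y.1, h y.1 y.2⟩
        map_one' := by ext; simp
        map_mul' := fun a b => by ext; simp })
    (Finite.injective_iff_bijective.mp (by
      intro a b hab
      have : α a.1 = α b.1 := congrArg Subtype.val hab
      exact Subtype.ext (α.injective this)))

@[simp] theorem resAut_apply [Finite P] (α : MulAut P) (M : Subgroup P) (h : ∀ x ∈ M, α x ∈ M)
    (y : M) : ((resAut α M h y : M) : P) = α y.1 := rfl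

theorem resAut_pow [Finite P] (α : MulAut P) (M : Subgroup P) (h : ∀ x ∈ M, α x ∈ M) (k : ℕ)
    (y : M) : (((resAut α M h) ^ k) y : P) = (α ^ k) y.1 := by
  induction k generalizing y with
  | zero => simp
  | succ k ih =>
    rw [pow_succ', MulAut.mul_apply, pow_succ', MulAut.mul_apply, resAut_apply, ih]

theorem orderOf_resAut_dvd [Finite P] (α : MulAut P) (M : Subgroup P) (h : ∀ x ∈ M, α x ∈ M) :
    orderOf (resAut α M h) ∣ orderOf α := by
  apply orderOf_dvd_of_pow_eq_one
  ext y
  rw [resAut_pow, pow_orderOf_eq_one]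
  simp

/-- Burnside's theorem for a single automorphism of order prime to `p`. -/
theorem burnside_coprime [Finite P] {p : ℕ} [hp : Fact p.Prime] (hP : IsPGroup p P) (α : MulAut P)
    (hα : (orderOf α).Coprime p) (h : ∀ x : P, α x * x⁻¹ ∈ frattini P) : α = 1 := by
  have hpow : ∀ (k : ℕ) (x : P), (α ^ k) x * x⁻¹ ∈ frattini P := by
    intro k
    induction k with
    | zero => intro x; simp
    | succ k ih =>
      intro x
      have : (α ^ (k + 1)) x * x⁻¹ = (α ((α ^ k) x) * ((α ^ k) x)⁻¹) * ((α ^ k) x * x⁻¹) := by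
        rw [pow_succ', MulAut.mul_apply]
        group
      rw [this]
      exact Subgroup.mul_mem _ (h _) (ih x)
  by_contra hne
  have hm : orderOf α ≠ 1 := fun h1 => hne (orderOf_eq_one_iff.mp h1)
  obtain ⟨r, hr, hrd⟩ := Nat.exists_prime_and_dvd hm
  have hrp : r ≠ p := by
    rintro rfl
    have := Nat.Coprime.eq_one_of_dvd hα.symm hrd
    exact hr.one_lt.ne' this
  obtain ⟨t, ht⟩ := hrd
  have hτ : (α ^ t) ^ r = 1 := by
    rw [← pow_mul, mul_comm, ← ht, pow_orderOf_eq_one]
  have h1 := Cfsg.Agent.Lib.BurnsideAut.aut_eq_one_of_trivial_on_frattini hP hr hrp (α ^ t) hτ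
    (fun q => hpow t q)
  have h2 : orderOf α ∣ t := orderOf_dvd_of_pow_eq_one h1
  have hmpos : 0 < orderOf α := orderOf_pos α
  have ht0 : 0 < t := by
    rcases Nat.eq_zero_or_pos t with rfl | h
    · rw [mul_zero] at ht
      omega
    · exact h
  have := Nat.le_of_dvd ht0 h2
  rw [ht] at this
  have hr2 := hr.two_le
  nlinarith

/-- If `x ^ 4 = 1` and `α x ∈ ⟨x⟩` with `α` of odd order, then `α x = x`. -/
theorem fixed_of_order_four [Finite P] (α : MulAut P) (hα : Odd (orderOf α)) (x : P)
    (hx : x ^ 4 = 1) (hmem : α x ∈ Subgroup.zpowers x) : α x = x := by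
  obtain ⟨k, hk⟩ := Subgroup.mem_zpowers_iff.mp hmem
  have hk4 : x ^ k = x ^ (k % 4) := by
    conv_lhs => rw [← Int.mul_ediv_add_emod k 4]
    rw [zpow_add, zpow_mul]
    have : x ^ (4 : ℤ) = 1 := by
      exact_mod_cast hx
    rw [this, one_zpow, one_mul]
  have hr : k % 4 = 0 ∨ k % 4 = 1 ∨ k % 4 = 2 ∨ k % 4 = 3 := by omega
  have h1 : α x = x ^ (k % 4) := by rw [← hk, hk4]
  have hone : ∀ y : P, α y = 1 → y = 1 := fun y hy => by
    apply α.injective
    rw [hy, map_one]
  rcases hr with h | h | h | h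
  · rw [h, zpow_zero] at h1
    rw [hone x h1, map_one]
  · rw [h, zpow_one] at h1
    exact h1
  · rw [h] at h1
    have h2 : α (x ^ 2) = 1 := by
      rw [map_pow, h1, ← zpow_natCast, ← zpow_mul]
      have : x ^ ((2 : ℤ) * ((2 : ℕ) : ℤ)) = x ^ 4 := by norm_cast
      rw [this, hx]
    have h3 := hone _ h2
    have h4 : α x = 1 := by
      rw [h1]
      have : x ^ (2 : ℤ) = x ^ 2 := by norm_cast
      rw [this, h3]
    rw [hone x h4, map_one]
  · rw [h] at h1
    have h2 : α x = x⁻¹ := by
      rw [h1]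
      have : x ^ (3 : ℤ) = x ^ 3 := by norm_cast
      rw [this]
      apply eq_inv_of_mul_eq_one_left
      rw [← pow_succ, hx]
    have h3 : (α ^ 2) x = x := by
      rw [pow_two, MulAut.mul_apply, h2, map_inv, h2, inv_inv]
    obtain ⟨t, ht⟩ := hα
    have h4 : ∀ n : ℕ, (α ^ (2 * n)) x = x := by
      intro n
      induction n with
      | zero => simp
      | succ n ih =>
        rw [show 2 * (n + 1) = 2 + 2 * n by ring, pow_add, MulAut.mul_apply, ih, h3]
    have h5 := pow_orderOf_eq_one α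
    rw [ht, pow_succ', pow_mul] at h5
    have h6 : α ((α ^ (2 * t)) x) = x := by
      have : (α * (α ^ 2) ^ t) x = x := by rw [h5]; rfl
      rw [← pow_mul] at this
      exact this
    rw [h4 t] at h6
    exact h6

/-- Minimal counterexample: the Frattini subgroup is central and fixed. -/
theorem frattini_central_fixed [Finite P] {p : ℕ} [Fact p.Prime] (hP : IsPGroup p P) (α : MulAut P)
    (hα : (orderOf α).Coprime p)
    (hres : ∀ M : Subgroup P, M ≠ ⊤ → (∀ x ∈ M, α x ∈ M) → ∀ x ∈ M, α x = x) :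
    (∀ x : P, α x = x) ∨
      ((∀ φ ∈ frattini P, ∀ g : P, φ * g = g * φ) ∧ (∀ φ ∈ frattini P, α φ = φ)) := by
  by_cases hsub : Subsingleton P
  · exact Or.inl fun x => Subsingleton.elim _ _
  have hnt : Nontrivial P := not_subsingleton_iff_nontrivial.mp hsub
  set Φ := frattini P with hΦ
  have hΦne : Φ ≠ ⊤ := by
    rcases eq_top_or_exists_le_coatom (⊥ : Subgroup P) with h | ⟨M, hM, -⟩
    · exact absurd h bot_ne_top
    · intro htop
      have : (⊤ : Subgroup P) ≤ M := htop ▸ frattini_le_coatom hM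
      exact hM.1 (top_le_iff.mp this)
  have hΦinv : ∀ y ∈ Φ, α y ∈ Φ := by
    intro y hy
    have h1 : Φ.comap α.toMonoidHom = Φ :=
      (Subgroup.characteristic_iff_comap_eq.mp frattini_characteristic) α
    rw [← h1] at hy
    exact hy
  have hΦfix := hres Φ hΦne hΦinv
  have hΦn : Φ.Normal := inferInstance
  set C := Subgroup.centralizer (Φ : Set P) with hC
  have hCcomm : ∀ t : P, t⁻¹ * α t ∈ C := by
    intro t
    rw [hC, Subgroup.mem_centralizer_iff]
    intro φ hφ
    have hφ' : φ ∈ Φ := hφ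
    have h1 : t * φ * t⁻¹ * φ⁻¹ ∈ Φ :=
      Subgroup.mul_mem _ (hΦn.conj_mem φ hφ' t) (Subgroup.inv_mem _ hφ')
    have h2 := hΦfix _ h1
    rw [map_mul, map_mul, map_mul, map_inv, map_inv, hΦfix φ hφ'] at h2
    have h3 : α t * φ * (α t)⁻¹ = t * φ * t⁻¹ := mul_right_cancel h2
    have h4 : α t * φ = t * φ * t⁻¹ * α t := by
      rw [← h3]
      group
    calc φ * (t⁻¹ * α t) = t⁻¹ * (t * φ * t⁻¹ * α t) := by group
      _ = t⁻¹ * (α t * φ) := by rw [h4]
      _ = t⁻¹ * α t * φ := by group
  have hCinv : ∀ y ∈ C, α y ∈ C := by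
    intro y hy
    rw [hC, Subgroup.mem_centralizer_iff] at hy ⊢
    intro φ hφ
    have h1 := hy φ hφ
    have h2 := congrArg α h1
    rw [map_mul, map_mul, hΦfix φ hφ] at h2
    exact h2
  by_cases hCtop : C = ⊤
  · right
    refine ⟨fun φ hφ g => ?_, hΦfix⟩
    have : g ∈ C := by rw [hCtop]; trivial
    exact (Subgroup.mem_centralizer_iff.mp this) φ hφ
  · left
    intro x
    exact fixed_of_comm_fixed hP α hα x (hres C hCtop hCinv _ (hCcomm x))

/-- The `p = 2` case of a minimal counterexample has exponent dividing `4`. -/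
theorem trivial_or_exponent_four [Finite P] (hP : IsPGroup 2 P) (α : MulAut P)
    (hα : Odd (orderOf α))
    (hres : ∀ M : Subgroup P, M ≠ ⊤ → (∀ x ∈ M, α x ∈ M) → ∀ x ∈ M, α x = x) :
    (∀ x : P, α x = x) ∨ (∀ x : P, x ^ 4 = 1) := by
  have hα2 : (orderOf α).Coprime 2 := Nat.coprime_two_right.mpr hα
  rcases frattini_central_fixed hP α hα2 hres with h | ⟨hcen, hfix⟩
  · exact Or.inl h
  have hcommΦ : ∀ a b : P, ⁅a, b⁆ ∈ frattini P := fun a b =>
    Cfsg.Agent.Lib.Frat.commutator_le_frattini hP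
      (Subgroup.commutator_mem_commutator (Subgroup.mem_top a) (Subgroup.mem_top b))
  have hpowΦ : ∀ a : P, a ^ 2 ∈ frattini P := fun a => Cfsg.Agent.Lib.Frat.pow_mem_frattini hP a
  have hmul4 : ∀ a b : P, (a * b) ^ 4 = a ^ 4 * b ^ 4 := by
    intro a b
    have hz := hcen _ (hcommΦ b a)
    have hba : b * a = ⁅b, a⁆ * a * b := by
      simp only [commutatorElement_def]
      group
    rw [mul_pow_aux hz hba 4]
    have h2 : b ^ 2 * a = ⁅b, a⁆ ^ 2 * a * b ^ 2 := pow_mul_aux hz hba 2
    have h3 : b ^ 2 * a = a * b ^ 2 := hcen _ (hpowΦ b) a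
    have h4 : ⁅b, a⁆ ^ 2 = 1 := by
      rw [h3] at h2
      have h5 : a * b ^ 2 = 1 * (a * b ^ 2) := by group
      have h6 : ⁅b, a⁆ ^ 2 * a * b ^ 2 = ⁅b, a⁆ ^ 2 * (a * b ^ 2) := by group
      rw [h6] at h2
      nth_rewrite 1 [h5] at h2
      exact (mul_right_cancel h2).symm
    have h7 : Nat.choose 4 2 = 2 * 3 := by decide
    rw [h7, pow_mul, h4, one_pow, mul_one]
  -- the subgroup of elements of order dividing 4
  let M : Subgroup P :=
    { carrier := {w | w ^ 4 = 1}
      one_mem' := one_pow 4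
      mul_mem' := by
        intro a b ha hb
        show (a * b) ^ 4 = 1
        rw [hmul4, show a ^ 4 = 1 from ha, show b ^ 4 = 1 from hb, one_mul]
      inv_mem' := by
        intro a ha
        show a⁻¹ ^ 4 = 1
        rw [inv_pow, show a ^ 4 = 1 from ha, inv_one] }
  have hy : ∀ t : P, t⁻¹ * α t ∈ M := by
    intro t
    show (t⁻¹ * α t) ^ 4 = 1
    have h1 : t ^ 4 ∈ frattini P := by
      rw [show (4 : ℕ) = 2 * 2 from rfl, pow_mul]
      exact hpowΦ _
    rw [hmul4, inv_pow, ← map_pow, hfix _ h1]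
    group
  have hMinv : ∀ y ∈ M, α y ∈ M := by
    intro y hy
    show (α y) ^ 4 = 1
    rw [← map_pow, show y ^ 4 = 1 from hy, map_one]
  by_cases hMtop : M = ⊤
  · right
    intro x
    have : x ∈ M := by rw [hMtop]; trivial
    exact this
  · left
    intro x
    exact fixed_of_comm_fixed hP α hα2 x (hres M hMtop hMinv _ (hy x))

/-- An odd automorphism of a `2`-group leaving every maximal subgroup invariant is trivial. -/
theorem trivial_of_coatoms_invariant [Finite P] (hP : IsPGroup 2 P) (α : MulAut P)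
    (hα : Odd (orderOf α)) (h : ∀ M : Subgroup P, IsCoatom M → ∀ x ∈ M, α x ∈ M) :
    ∀ x : P, α x = x := by
  have hα2 : (orderOf α).Coprime 2 := Nat.coprime_two_right.mpr hα
  have h1 : α = 1 := by
    refine burnside_coprime hP α hα2 (fun x => ?_)
    simp only [frattini, Order.radical, Subgroup.mem_iInf]
    intro M hM
    have hi : M.index = 2 := Cfsg.Agent.Lib.Frat.index_eq_of_isCoatom hP hM
    rw [Subgroup.mul_mem_iff_of_index_two hi, inv_mem_iff]
    exact ⟨mem_of_apply_mem α M (h M hM) x, h M hM x⟩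
  intro x
  rw [h1]
  rfl

end aut

section main

variable {P : Type u} [Group P] [Finite P]

theorem trivial_on_R (hP : IsPGroup 2 P) (α : MulAut P) (hα : Odd (orderOf α)) (d : ℕ)
    (hinv : ∀ E : Subgroup P, (Nat.card E = 2 ^ d ∨ (d = 1 ∧ Nat.card E = 4)) → ∀ x ∈ E, α x ∈ E)
    (R : Subgroup P) (hR : Nat.card R = 2 ^ (d + 1)) (hcase : ¬ IsCyclic R ∨ d = 1) :
    ∀ x ∈ R, α x = x := by
  have hRP : IsPGroup 2 R := hP.to_subgroup R
  have hco : ∀ M : Subgroup R, IsCoatom M → ∀ x ∈ M.map R.subtype, α x ∈ M.map R.subtype := by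
    intro M hM
    apply hinv
    left
    have hi : M.index = 2 := Cfsg.Agent.Lib.Frat.index_eq_of_isCoatom hRP hM
    have h1 := M.index_mul_card
    rw [hi, hR, pow_succ, mul_comm] at h1
    rw [Subgroup.card_map_of_injective R.subtype_injective]
    exact Nat.eq_of_mul_eq_mul_right (by norm_num) h1
  have hRinv : ∀ x ∈ R, α x ∈ R := by
    rcases hcase with hnc | rfl
    · intro x hx
      have hne : Subgroup.zpowers (⟨x, hx⟩ : R) ≠ ⊤ := by
        intro htop
        apply hnc
        refine ⟨⟨⟨x, hx⟩, fun y => ?_⟩⟩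
        show y ∈ Subgroup.zpowers (⟨x, hx⟩ : R)
        rw [htop]
        trivial
      rcases eq_top_or_exists_le_coatom (Subgroup.zpowers (⟨x, hx⟩ : R)) with h | ⟨M, hM, hle⟩
      · exact absurd h hne
      · have h1 : x ∈ M.map R.subtype := ⟨⟨x, hx⟩, hle (Subgroup.mem_zpowers _), rfl⟩
        obtain ⟨y, -, hy⟩ := hco M hM x h1
        rw [← hy]
        exact y.2
    · exact hinv R (Or.inr ⟨rfl, by rw [hR]; norm_num⟩)
  let β : MulAut R := resAut α R hRinv
  have hβ : Odd (orderOf β) := Odd.of_dvd_nat hα (orderOf_resAut_dvd α R hRinv)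
  have h2 := trivial_of_coatoms_invariant hRP β hβ (by
    intro M hM x hx
    have h1 : (x : P) ∈ M.map R.subtype := ⟨x, hx, rfl⟩
    obtain ⟨y, hy, hyx⟩ := hco M hM _ h1
    have : β x = y := Subtype.ext hyx.symm
    rw [this]
    exact hy)
  intro x hx
  exact congrArg Subtype.val (h2 ⟨x, hx⟩)

theorem main (hP : IsPGroup 2 P) (α : MulAut P) (hα : Odd (orderOf α)) (d : ℕ) (hd : 1 ≤ d)
    (hlt : 2 ^ d < Nat.card P)
    (hinv : ∀ E : Subgroup P, (Nat.card E = 2 ^ d ∨ (d = 1 ∧ Nat.card E = 4)) → ∀ x ∈ E, α x ∈ E) :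
    ∀ x : P, α x = x := by
  obtain ⟨e, he⟩ := IsPGroup.iff_card.mp hP
  have hde : d < e := by
    rw [he] at hlt
    exact (Nat.pow_lt_pow_iff_right (by norm_num)).mp hlt
  have hdvd : 2 ^ (d + 1) ∣ Nat.card P := by
    rw [he]
    exact pow_dvd_pow 2 hde
  have hQ : ∀ (n : ℕ) (Q : Subgroup P), Nat.card Q = n → (∀ x ∈ Q, α x ∈ Q) → ∀ x ∈ Q, α x = x := by
    intro n
    induction n using Nat.strong_induction_on with
    | _ n ih =>
    intro Q hcard hinvQ x hx
    let β : MulAut Q := resAut α Q hinvQ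
    have hβ : Odd (orderOf β) := Odd.of_dvd_nat hα (orderOf_resAut_dvd α Q hinvQ)
    have hres : ∀ M : Subgroup Q, M ≠ ⊤ → (∀ y ∈ M, β y ∈ M) → ∀ y ∈ M, β y = y := by
      intro M hM hMinv y hy
      have hlt' : Nat.card (M.map Q.subtype) < n := by
        rw [Subgroup.card_map_of_injective Q.subtype_injective, ← hcard]
        have h1 := M.index_mul_card
        have h2 : M.index ≠ 1 := fun h => hM (Subgroup.index_eq_one.mp h)
        have h3 : M.index ≠ 0 := Subgroup.index_ne_zero_of_finite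
        have h4 : 2 ≤ M.index := by omega
        have h5 : 0 < Nat.card M := Nat.card_pos
        nlinarith
      have h1 := ih _ hlt' (M.map Q.subtype) rfl (by
        rintro _ ⟨w, hw, rfl⟩
        exact ⟨β w, hMinv w hw, rfl⟩) y.1 ⟨y, hy, rfl⟩
      exact Subtype.ext h1
    have hQP : IsPGroup 2 Q := hP.to_subgroup Q
    rcases trivial_or_exponent_four hQP β hβ hres with h | hexp
    · exact congrArg Subtype.val (h ⟨x, hx⟩)
    by_cases hcyc : IsCyclic Q
    · obtain ⟨u, hu⟩ := hcyc.exists_generator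
      have hfix := fixed_of_order_four β hβ u (hexp u) (hu _)
      obtain ⟨k, hk⟩ := Subgroup.mem_zpowers_iff.mp (hu ⟨x, hx⟩)
      have h1 : β ⟨x, hx⟩ = ⟨x, hx⟩ := by
        rw [← hk, map_zpow, hfix]
      exact congrArg Subtype.val h1
    · by_cases hsmall : Nat.card Q ≤ 2 ^ (d + 1)
      · obtain ⟨c, hc⟩ := IsPGroup.iff_card.mp hQP
        have hcle : c ≤ d + 1 := by
          rw [hc] at hsmall
          exact (Nat.pow_le_pow_iff_right (by norm_num)).mp hsmall
        obtain ⟨R, hR, hQR⟩ := Sylow.exists_subgroup_card_pow_prime_le 2 hdvd Q hc hcle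
        have hRc : ¬ IsCyclic R := fun h =>
          hcyc (isCyclic_of_injective (Subgroup.inclusion hQR) (Subgroup.inclusion_injective hQR))
        exact trivial_on_R hP α hα d hinv R hR (Or.inl hRc) x (hQR hx)
      · obtain ⟨c, hc⟩ := IsPGroup.iff_card.mp hQP
        have hcd : d + 1 < c := by
          rw [hc] at hsmall
          push Not at hsmall
          exact (Nat.pow_lt_pow_iff_right (by norm_num)).mp hsmall
        have hdvd' : 2 ^ (d + 1) ∣ Nat.card Q := by
          rw [hc]
          exact pow_dvd_pow 2 hcd.le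
        have h4 : orderOf (⟨x, hx⟩ : Q) ∣ 2 ^ 2 := orderOf_dvd_of_pow_eq_one (hexp _)
        obtain ⟨k, hk, hke⟩ := (Nat.dvd_prime_pow Nat.prime_two).mp h4
        obtain ⟨R', hR', hle⟩ := Sylow.exists_subgroup_card_pow_prime_le 2 hdvd'
          (Subgroup.zpowers (⟨x, hx⟩ : Q)) (n := k) (by rw [Nat.card_zpowers, hke]) (by omega)
        have hxR' : (⟨x, hx⟩ : Q) ∈ R' := hle (Subgroup.mem_zpowers _)
        set R := R'.map Q.subtype with hRdef
        have hR : Nat.card R = 2 ^ (d + 1) := by
          rw [hRdef, Subgroup.card_map_of_injective Q.subtype_injective, hR']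
        have hcase : ¬ IsCyclic R ∨ d = 1 := by
          by_cases hd1 : d = 1
          · exact Or.inr hd1
          · left
            intro hc'
            obtain ⟨w, hw⟩ := hc'.exists_generator
            have hwQ : (w : P) ∈ Q := by
              obtain ⟨v, -, hv⟩ := w.2
              rw [← hv]
              exact v.2
            have h5 : (w : P) ^ 4 = 1 := by
              have := hexp ⟨w, hwQ⟩
              exact congrArg Subtype.val this
            have h6 : w ^ 4 = 1 := Subtype.ext h5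
            have h7 : Nat.card R = orderOf w := by
              rw [← Nat.card_zpowers, (Subgroup.eq_top_iff' _).mpr hw, Subgroup.card_top]
            have h8 := orderOf_dvd_of_pow_eq_one h6
            rw [← h7, hR] at h8
            have h9 := Nat.le_of_dvd (by norm_num) h8
            have h10 : 2 ^ (d + 1) ≤ 2 ^ 2 := h9
            have := (Nat.pow_le_pow_iff_right (by norm_num)).mp h10
            omega
        exact trivial_on_R hP α hα d hinv R hR hcase x ⟨⟨x, hx⟩, hxR', rfl⟩
  intro x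
  exact hQ _ ⊤ rfl (fun _ _ => trivial) x trivial

end main

/-- Let P be a 2-subgroup and A a subgroup of odd order of a finite group, with A normalizing P. Let D ≤ P with 1 < |D| < |P|. If every subgroup of P of order |D|, and also every subgroup of P of order 4 in case |D| = 2, is normalized by A, then A centralizes P. -/
theorem result {X : Type*} [Group X] [Finite X] (P A D : Subgroup X) (hP : IsPGroup 2 P) (hA : Odd (Nat.card A))
    (hAP : A ≤ Subgroup.normalizer (P : Set X)) (hDP : D ≤ P) (hD1 : 1 < Nat.card D) (hD2 : Nat.card D < Nat.card P)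
    (hinv : ∀ E : Subgroup X, E ≤ P → (Nat.card E = Nat.card D ∨ (Nat.card D = 2 ∧ Nat.card E = 4)) → A ≤ Subgroup.normalizer (E : Set X)) :
    A ≤ Subgroup.centralizer (P : Set X) := by
  intro a ha
  obtain ⟨d, hd⟩ := IsPGroup.iff_card.mp (hP.to_le hDP)
  have hd1 : 1 ≤ d := by
    rcases Nat.eq_zero_or_pos d with rfl | h
    · rw [hd, pow_zero] at hD1
      exact absurd hD1 (lt_irrefl _)
    · exact h
  set γ : MulAut X := MulAut.conj a with hγ
  have hγapp : ∀ x, γ x = a * x * a⁻¹ := fun x => rfl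
  have hnorm : ∀ (E : Subgroup X), A ≤ Subgroup.normalizer (E : Set X) → ∀ x ∈ E, γ x ∈ E := by
    intro E hE x hx
    have := hE ha
    rw [Subgroup.mem_normalizer_iff] at this
    rw [hγapp]
    exact (this x).mp hx
  have hPinv := hnorm P hAP
  let α : MulAut P := resAut γ P hPinv
  have hαodd : Odd (orderOf α) := by
    have h1 : orderOf α ∣ orderOf γ := orderOf_resAut_dvd γ P hPinv
    have h2 : orderOf γ ∣ orderOf a := orderOf_map_dvd (MulAut.conj (G := X)) a
    have h3 : orderOf a ∣ Nat.card A := Subgroup.orderOf_dvd_natCard A ha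
    exact Odd.of_dvd_nat hA (h1.trans (h2.trans h3))
  have hinv' : ∀ E : Subgroup P, (Nat.card E = 2 ^ d ∨ (d = 1 ∧ Nat.card E = 4)) →
      ∀ x ∈ E, α x ∈ E := by
    intro E hE x hx
    have hcardE : Nat.card (E.map P.subtype) = Nat.card E :=
      Subgroup.card_map_of_injective P.subtype_injective
    have h1 : E.map P.subtype ≤ P := by
      rintro _ ⟨y, -, rfl⟩
      exact y.2
    have h2 := hinv (E.map P.subtype) h1 (by
      rw [hcardE]
      rcases hE with h | ⟨rfl, h⟩
      · left
        rw [h, hd]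
      · right
        refine ⟨?_, h⟩
        rw [hd, pow_one])
    obtain ⟨y, hy, hyx⟩ := hnorm _ h2 x.1 ⟨x, hx, rfl⟩
    have : α x = y := Subtype.ext hyx.symm
    rw [this]
    exact hy
  have hall := main hP α hαodd d hd1 (by rw [← hd]; exact hD2) hinv'
  rw [Subgroup.mem_centralizer_iff]
  intro x hx
  have h1 : a * x * a⁻¹ = x := congrArg Subtype.val (hall ⟨x, hx⟩)
  calc x * a = a * x * a⁻¹ * a := by rw [h1]
    _ = a * x := by group

end Cfsg.Agent.S3803
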