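import Mathlib
import Cfsg.Statements.S3805
import Cfsg.Agent.Lib.S3x3B
import Cfsg.Agent.Lib.S3x3Struct
import Cfsg.Agent.Lib.BrauerWielandt

set_option autoImplicit false
open Cfsg
open scoped Pointwise

namespace Cfsg.Agent.S3805

open Cfsg.Agent.Lib.S3x3Model Cfsg.Agent.Lib.S3x3Tau Cfsg.Agent.Lib.S3x3A Cfsg.Agent.Lib.S3x3B
open Cfsg.Agent.Lib.S3x3Struct Cfsg.Agent.Lib.CharBasic Cfsg.Agent.Lib.CharKernel

theorem final_step {G : Type*} [Group G] [Fintype G] (T : Sylow 3 G)
    (hT : Cfsg.IsElementaryAbelian 3 (T : Subgroup G)) (h9 : Nat.card (T : Subgroup G) = 9)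
    {N : Subgroup G} {φ : HH ≃* N} (c : Ctx (T : Subgroup G) N φ) : (T : Subgroup G).Normal := by
  classical
  have hloc : ∀ t ∈ (T : Subgroup G), t ≠ 1 → Subgroup.centralizer ({t} : Set G) ≤ N := by
    intro t ht ht1 z hz
    apply c.ti t ht ht1 z
    rw [Subgroup.mem_centralizer_singleton_iff] at hz
    rw [hz]
    simpa using ht
  have hab := not_conj_ab T c
  have c' := c.swap
  have hne : ¬ IsConj (ph φ aH) (ph φ (aH * bH)) := fun h => lemmaB T c h9 h
  have hne' : ¬ IsConj (ph (swapφ φ) aH) (ph (swapφ φ) (aH * bH)) := fun h => lemmaB T c' h9 h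
  have hab' : ¬ IsConj (ph (swapφ φ) aH) (ph (swapφ φ) bH) := by
    rw [swapφ_apply, swapφ_apply, aH_swap, bH_swap]
    exact fun h => hab h.symm
  obtain ⟨χ, -, hχ, -, -, hL, -⟩ := lemmaA T c h9 hab hne
  obtain ⟨ψ, -, hψ, -, -, hL', -⟩ := lemmaA T c' h9 hab' hne'
  have hL2 : ∀ w, ψ (ph φ w) = ((L2 w : ℤ) : ℂ) := by
    intro w
    have := hL' (w.2, w.1)
    rw [swapφ_apply, L1_swap] at this
    exact this
  have chχ := IsIrrCharacter.isCharacter hχ
  have chψ := IsIrrCharacter.isCharacter hψ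
  have hχ1 : χ 1 = 1 := by
    have := hL 1
    rw [ph_one, L1_one] at this
    simpa using this
  have hψ1 : ψ 1 = 1 := by
    have := hL2 1
    rw [ph_one, L2_one] at this
    simpa using this
  let H : Subgroup G := charKer chχ ⊓ charKer chψ
  have hHn : H.Normal := by
    exact Subgroup.normal_inf_normal _ _
  have hTH : (T : Subgroup G) ≤ H := by
    intro t ht
    obtain ⟨w, rfl⟩ := exists_ph (φ := φ) (c.le_N ht)
    have hw : isT w = true := (c.mem_T w).mp ht
    refine ⟨?_, ?_⟩
    · show χ _ = χ 1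
      rw [hL, L1_T w hw, hχ1]
      simp
    · show ψ _ = ψ 1
      rw [hL2, L2_T w hw, hψ1]
      simp
  have hHN : ∀ g ∈ H, g ∈ N → g ∈ (T : Subgroup G) := by
    intro g hg hgN
    obtain ⟨w, rfl⟩ := exists_ph (φ := φ) hgN
    apply (c.mem_T w).mpr
    have h1 : χ (ph φ w) = χ 1 := hg.1
    have h2 : ψ (ph φ w) = ψ 1 := hg.2
    rw [hL, hχ1] at h1
    rw [hL2, hψ1] at h2
    exact isT_of_L w (by exact_mod_cast h1) (by exact_mod_cast h2)
  have he₁ : ph φ e1H ∈ (T : Subgroup G) := (c.mem_T _).mpr isT_e1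
  have he₁1 : ph φ e1H ≠ 1 := ph_ne_one e1_ne
  have hcomm : ∀ x ∈ (T : Subgroup G), ∀ y ∈ (T : Subgroup G), x * y = y * x := by
    intro x hx y hy
    have := hT.1.is_comm.comm (⟨x, hx⟩ : (T : Subgroup G)) ⟨y, hy⟩
    exact congrArg Subtype.val this
  -- Burnside's transfer theorem in `H`
  let Q : Sylow 3 H := T.subtype hTH
  have hQmem : ∀ x : H, x ∈ (Q : Subgroup H) ↔ (x : G) ∈ (T : Subgroup G) := by
    intro x
    show x ∈ ((T.subtype hTH : Sylow 3 H) : Subgroup H) ↔ _
    rw [Sylow.coe_subtype, Subgroup.mem_subgroupOf]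
  have hQ : Subgroup.normalizer ((Q : Subgroup H) : Set H) ≤
      Subgroup.centralizer ((Q : Subgroup H) : Set H) := by
    intro h hh
    have h1 : (h : G) ∈ N := by
      apply c.ti _ he₁ he₁1 (h : G)
      have h2 : (⟨ph φ e1H, hTH he₁⟩ : H) ∈ (Q : Subgroup H) := (hQmem _).mpr he₁
      have h3 := (Subgroup.mem_normalizer_iff.mp hh _).mp h2
      exact (hQmem _).mp h3
    have h4 : (h : G) ∈ (T : Subgroup G) := hHN _ h.2 h1
    rw [Subgroup.mem_centralizer_iff]
    intro x hx
    apply Subtype.ext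
    exact hcomm _ ((hQmem _).mp hx) _ h4
  have hcomp := MonoidHom.ker_transferSylow_isComplement' Q hQ
  have hR3 := MonoidHom.not_dvd_card_ker_transferSylow Q hQ
  set R := MonoidHom.ker (MonoidHom.transferSylow Q hQ) with hR
  have hRn : R.Normal := MonoidHom.normal_ker _
  let K : Subgroup G := R.map H.subtype
  have hcardK : Nat.card K = Nat.card R :=
    Nat.card_congr (R.equivMapOfInjective _ H.subtype_injective).toEquiv.symm
  have hKH : ∀ x ∈ K, x ∈ H := by
    rintro _ ⟨r, -, rfl⟩
    exact r.2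
  have hKinf : ∀ x ∈ K, x ∈ (T : Subgroup G) → x = 1 := by
    rintro _ ⟨r, hr, rfl⟩ hT'
    have h1 : r ∈ (Q : Subgroup H) := (hQmem r).mpr hT'
    have h2 : r = 1 := by
      have := Subgroup.disjoint_def.mp hcomp.disjoint hr h1
      exact this
    simp [h2]
  have hTK : (T : Subgroup G) ≤ Subgroup.normalizer (K : Set G) := by
    intro t ht
    apply Subgroup.mem_normalizer_fintype
    rintro _ ⟨r, hr, rfl⟩
    have h1 := hRn.conj_mem r hr ⟨t, hTH ht⟩
    exact ⟨_, h1, rfl⟩
  have hfac : ∀ a ∈ (T : Subgroup G), a ≠ 1 →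
      ((K ⊓ Subgroup.centralizer {a} : Subgroup G) : Set G) =
        (((⊥ : Subgroup G) ⊓ Subgroup.centralizer {a} : Subgroup G) : Set G) *
        (((⊥ : Subgroup G) ⊓ Subgroup.centralizer {a} : Subgroup G) : Set G) := by
    intro a ha ha1
    have hK1 : K ⊓ Subgroup.centralizer {a} = ⊥ := by
      rw [eq_bot_iff]
      rintro x ⟨hx1, hx2⟩
      have h1 : x ∈ N := hloc a ha ha1 hx2
      have h2 := hHN x (hKH x hx1) h1
      exact Subgroup.mem_bot.mpr (hKinf x hx1 h2)
    rw [hK1]
    simp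
  have hK0 : (K : Set G) = ((⊥ : Subgroup G) : Set G) * ((⊥ : Subgroup G) : Set G) :=
    Cfsg.Agent.Lib.BrauerWielandt.factorization_of_noncyclic (p := 3) (T : Subgroup G) K ⊥ ⊥ hT
      (by rw [h9]; norm_num) (by rw [hcardK]; exact hR3) hTK bot_le bot_le
      (by
        intro t _
        apply Subgroup.mem_normalizer_fintype
        intro n hn
        have h1 : n = 1 := hn
        simp [h1])
      (by
        intro t _
        apply Subgroup.mem_normalizer_fintype
        intro n hn
        have h1 : n = 1 := hn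
        simp [h1])
      hfac
  have hK1 : K = ⊥ := by
    rw [eq_bot_iff]
    intro x hx
    have h1 : x ∈ (K : Set G) := hx
    rw [hK0] at h1
    simpa using h1
  have hR1 : Nat.card R = 1 := by
    rw [← hcardK, hK1]
    exact Subgroup.card_bot
  have hcardH : Nat.card H = Nat.card (Q : Subgroup H) := by
    have := hcomp.card_mul_card
    rw [hR1, one_mul] at this
    exact this.symm
  have hcardQ : Nat.card (Q : Subgroup H) = Nat.card (T : Subgroup G) := by
    show Nat.card ((T.subtype hTH : Sylow 3 H) : Subgroup H) = _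
    rw [Sylow.coe_subtype]
    exact Nat.card_congr (Subgroup.subgroupOfEquivOfLe hTH).toEquiv
  have hTeq : (T : Subgroup G) = H :=
    Subgroup.eq_of_le_of_card_ge hTH (by rw [hcardH, hcardQ])
  have hTnorm : (T : Subgroup G).Normal := by
    rw [hTeq]
    exact hHn
  exact hTnorm

/-- Let G be a finite group whose Sylow 3-subgroup T is elementary abelian of order 9 and self-centralizing, with N_G(T)/T a Klein four-group, and suppose that the centralizer of every nonidentity element of T lies in N_G(T). Then T is normal in G. -/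
theorem result {G : Type*} [Group G] [Finite G]
    (T : Sylow 3 G) (hT : Cfsg.IsElementaryAbelian 3 (T : Subgroup G)) (hcard : Nat.card T = 9)
    (hC : Subgroup.centralizer ((T : Subgroup G) : Set G) = T)
    [hn : ((T : Subgroup G).subgroupOf (Subgroup.normalizer ((T : Subgroup G) : Set G))).Normal]
    (hK : IsKleinFour (↥(Subgroup.normalizer ((T : Subgroup G) : Set G)) ⧸
      (T : Subgroup G).subgroupOf (Subgroup.normalizer ((T : Subgroup G) : Set G))))
    (hloc : ∀ t ∈ (T : Subgroup G), t ≠ 1 →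
      Subgroup.centralizer ({t} : Set G) ≤ Subgroup.normalizer ((T : Subgroup G) : Set G)) :
    Subgroup.normalizer ((T : Subgroup G) : Set G) = ⊤ := by
  classical
  let _ := Fintype.ofFinite G
  obtain ⟨φ, c⟩ := exists_ctx T hT hcard hC hK hloc
  exact Subgroup.normalizer_eq_top_iff.mpr (final_step T hT hcard c)

end Cfsg.Agent.S3805
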