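import Cfsg.Statements.S3814
import Cfsg.Agent.Lib.KFourG

set_option autoImplicit false
open Cfsg

namespace Cfsg.Agent.S3814

/-- A criterion for nonsolvability from element orders: let G be a finite group and σ a set of at least four primes such that for all distinct p, q ∈ σ the product pq is the order of some element of G, while for all pairwise distinct p, q, r ∈ σ no element of G has order pqr. Then G is not solvable. -/
theorem result {G : Type*} [Group G] [Finite G]
    (σ : Finset ℕ) (hσ : 4 ≤ σ.card) (hprime : ∀ p ∈ σ, p.Prime)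
    (h2 : ∀ p ∈ σ, ∀ q ∈ σ, p ≠ q → ∃ g : G, orderOf g = p * q)
    (h3 : ∀ p ∈ σ, ∀ q ∈ σ, ∀ r ∈ σ, p ≠ q → q ≠ r → p ≠ r → ∀ g : G, orderOf g ≠ p * q * r) :
    ¬ Group.IsSolvable G := by
  intro hsol
  classical
  obtain ⟨τ, hτσ, hτ⟩ := Finset.exists_subset_card_eq hσ
  have hp : ∀ p ∈ τ, p.Prime := fun p hpτ => hprime p (hτσ hpτ)
  have hKF : Cfsg.Agent.Lib.KFour.KF τ (⊤ : Subgroup G) := by
    intro p hpτ q hqτ hpq
    obtain ⟨g, hg⟩ := h2 p (hτσ hpτ) q (hτσ hqτ) hpq
    have hpP := hp p hpτ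
    have hqP := hp q hqτ
    have hcop : Nat.gcd (p * q) q = q := Nat.gcd_eq_right (Dvd.intro_left p rfl)
    have hcop' : Nat.gcd (p * q) p = p := Nat.gcd_eq_right (Dvd.intro q rfl)
    refine ⟨g ^ q, Subgroup.mem_top _, g ^ p, Subgroup.mem_top _, ?_, ?_, ?_⟩
    · rw [orderOf_pow' g hqP.ne_zero, hg, hcop]
      exact Nat.mul_div_cancel p hqP.pos
    · rw [orderOf_pow' g hpP.ne_zero, hg, hcop']
      exact Nat.mul_div_cancel_left q hpP.pos
    · exact ((Commute.refl g).pow_pow q p).eq
  have hNT : Cfsg.Agent.Lib.KFour.NoT τ G := by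
    intro x y z hx hy hz n1 n3 n2 hxy hyz hxz
    have hxP := hp _ hx
    have hyP := hp _ hy
    have hzP := hp _ hz
    have hc1 : (orderOf x).Coprime (orderOf y) := (Nat.coprime_primes hxP hyP).2 n1
    have hord1 : orderOf (x * y) = orderOf x * orderOf y :=
      (show Commute x y from hxy).orderOf_mul_eq_mul_orderOf_of_coprime hc1
    have hcomm : Commute (x * y) z := Commute.mul_left hxz hyz
    have hc2 : (orderOf (x * y)).Coprime (orderOf z) := by
      rw [hord1]
      exact Nat.Coprime.mul_left ((Nat.coprime_primes hxP hzP).2 n2) ((Nat.coprime_primes hyP hzP).2 n3)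
    have hord2 : orderOf (x * y * z) = orderOf x * orderOf y * orderOf z := by
      rw [hcomm.orderOf_mul_eq_mul_orderOf_of_coprime hc2, hord1]
    exact h3 _ (hτσ hx) _ (hτσ hy) _ (hτσ hz) n1 n3 n2 _ hord2
  exact Cfsg.Agent.Lib.KFour.no_counter _ G rfl hsol τ hτ hp hKF hNT

end Cfsg.Agent.S3814
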