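import Mathlib
import Cfsg.Statements.S3815

set_option autoImplicit false
open Cfsg

namespace Cfsg.Agent.S3815

/-- Let G be a finite group, p a prime and d ∈ G an element of order prime to p. If dg has order prime to p for every element g ∈ G of order prime to p, then d ∈ O_{p'}(G). -/
theorem result {G : Type*} [Group G] [Finite G] {p : ℕ} [Fact p.Prime]
    (d : G) (hd : (orderOf d).Coprime p)
    (h : ∀ g : G, (orderOf g).Coprime p → (orderOf (d * g)).Coprime p) :
    d ∈ Cfsg.pPrimeCore p G := by
  classical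
  -- the set of all such `d`
  let S : Set G := {d : G | (orderOf d).Coprime p ∧
    ∀ g : G, (orderOf g).Coprime p → (orderOf (d * g)).Coprime p}
  have hS1 : (1 : G) ∈ S := by
    refine ⟨by simp, fun g hg => by simpa using hg⟩
  have hSmul : ∀ a ∈ S, ∀ b ∈ S, a * b ∈ S := by
    intro a ha b hb
    refine ⟨ha.2 b hb.1, fun g hg => ?_⟩
    rw [mul_assoc]
    exact ha.2 _ (hb.2 g hg)
  have hSpow : ∀ a ∈ S, ∀ n : ℕ, a ^ n ∈ S := by
    intro a ha n
    induction n with
    | zero => simpa using hS1
    | succ n ih => rw [pow_succ]; exact hSmul _ ih _ ha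
  have hSinv : ∀ a ∈ S, a⁻¹ ∈ S := by
    intro a ha
    have h0 : 0 < orderOf a := orderOf_pos a
    have : a⁻¹ = a ^ (orderOf a - 1) := by
      rw [inv_eq_iff_mul_eq_one, ← pow_succ', Nat.sub_add_cancel h0, pow_orderOf_eq_one]
    rw [this]
    exact hSpow a ha _
  let N : Subgroup G :=
    { carrier := S
      mul_mem' := fun ha hb => hSmul _ ha _ hb
      one_mem' := hS1
      inv_mem' := fun ha => hSinv _ ha }
  have hconj : ∀ a ∈ S, ∀ x : G, x * a * x⁻¹ ∈ S := by
    intro a ha x
    refine ⟨?_, fun g hg => ?_⟩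
    · have : orderOf (x * a * x⁻¹) = orderOf a := by
        have := orderOf_injective (MulAut.conj x).toMonoidHom (MulAut.conj x).injective a
        simpa [MulAut.conj_apply] using this
      rw [this]; exact ha.1
    · have h1 : orderOf (x⁻¹ * g * x) = orderOf g := by
        have := orderOf_injective (MulAut.conj x⁻¹).toMonoidHom (MulAut.conj x⁻¹).injective g
        simpa [MulAut.conj_apply] using this
      have h2 := ha.2 (x⁻¹ * g * x) (by rw [h1]; exact hg)
      have h3 : x * a * x⁻¹ * g = x * (a * (x⁻¹ * g * x)) * x⁻¹ := by group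
      have h4 : orderOf (x * (a * (x⁻¹ * g * x)) * x⁻¹) = orderOf (a * (x⁻¹ * g * x)) := by
        have := orderOf_injective (MulAut.conj x).toMonoidHom (MulAut.conj x).injective
          (a * (x⁻¹ * g * x))
        simpa [MulAut.conj_apply] using this
      rw [h3, h4]; exact h2
  have hNnormal : N.Normal := ⟨fun a ha x => hconj a ha x⟩
  have hNcard : (Nat.card N).Coprime p := by
    rw [Nat.coprime_comm]
    refine (Nat.Prime.coprime_iff_not_dvd Fact.out).2 fun hdvd => ?_
    obtain ⟨y, hy⟩ := exists_prime_orderOf_dvd_card' p hdvd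
    have hmem : ((y : N) : G) ∈ S := y.2
    have h2 : orderOf ((y : N) : G) = p := by
      rw [Subgroup.orderOf_coe]; exact hy
    have h3 := hmem.1
    rw [h2] at h3
    exact (Nat.Prime.ne_one Fact.out) (by simpa using h3)
  have hmem : d ∈ N := ⟨hd, h⟩
  have hle : N ≤ Cfsg.pPrimeCore p G := le_sSup ⟨hNnormal, hNcard⟩
  exact hle hmem

end Cfsg.Agent.S3815
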