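-- Statement S3819
import Mathlib
import Cfsg.Agent.Lib.PCore
import Cfsg.Agent.Lib.PResid
import Cfsg.Agent.Lib.CompFitting
import Cfsg.Agent.Lib.CoprimeHyper
import Cfsg.Agent.Lib.Glauberman
import Cfsg.Statements.S3819

set_option autoImplicit false
open Cfsg

namespace Cfsg.Agent.S3819

open Cfsg.Agent.Lib.PCore Cfsg.Agent.Lib.PResid
open scoped commutatorElement

section core

variable {X : Type*} [Group X] [Finite X] {q : ℕ} [hq : Fact q.Prime]

theorem commutator_conj_mem {H P : Subgroup X} {h x : X} (hh : h ∈ H) (hx : x ∈ ⁅H, P⁆) :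
    h * x * h⁻¹ ∈ ⁅H, P⁆ := by
  have key : ⁅H, P⁆ ≤ (⁅H, P⁆).comap (MulAut.conj h).toMonoidHom := by
    rw [Subgroup.commutator_le]
    intro h' hh' π hπ
    show (MulAut.conj h).toMonoidHom ⁅h', π⁆ ∈ ⁅H, P⁆
    have e : (MulAut.conj h).toMonoidHom ⁅h', π⁆ = ⁅h * h', π⁆ * ⁅h, π⁆⁻¹ := by
      simp [commutatorElement_def, MulAut.conj_apply]
      group
    rw [e]
    exact mul_mem (Subgroup.commutator_mem_commutator (H.mul_mem hh hh') hπ)
      (inv_mem (Subgroup.commutator_mem_commutator hh hπ))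
  exact key hx

/-- An element in both a `q`-group and a subgroup of order prime to `q` is trivial. -/
theorem eq_one_of_mem_of_mem {A R : Subgroup X} {x : X} (hA : ¬ q ∣ Nat.card A)
    (hR : IsPGroup q R) (hxA : x ∈ A) (hxR : x ∈ R) : x = 1 := by
  obtain ⟨k, hk⟩ := hR ⟨x, hxR⟩
  have h1 : x ^ q ^ k = 1 := by simpa using congrArg Subtype.val hk
  have h2 : orderOf x ∣ q ^ k := orderOf_dvd_of_pow_eq_one h1
  have h3 : orderOf x ∣ Nat.card A := Subgroup.orderOf_dvd_natCard A hxA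
  have h4 : Nat.Coprime (Nat.card A) (q ^ k) :=
    Nat.Coprime.pow_right k ((Nat.Prime.coprime_iff_not_dvd hq.out).mpr hA).symm
  have h5 : orderOf x = 1 := Nat.eq_one_of_dvd_coprimes h4 h3 h2
  exact orderOf_eq_one_iff.mp h5

/-- The structural facts on `N = [H, P]`: `O_{q'}(N) = 1` and `C_N(O_q(N)) ≤ O_q(N)`. -/
theorem mem_R_of_comm {H P : Subgroup X} (hPH : P ≤ Subgroup.normalizer (H : Set X))
    (hsol : Group.IsSolvable ↥⁅H, P⁆)
    (hO : ∀ L : Subgroup X, L ≤ H → (∀ h ∈ H, ∀ l ∈ L, h * l * h⁻¹ ∈ L) → ¬ q ∣ Nat.card L → L = ⊥)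
    {n : X} (hn : n ∈ ⁅H, P⁆)
    (hc : ∀ r ∈ (Cfsg.pCore q ↥⁅H, P⁆).map (⁅H, P⁆ : Subgroup X).subtype, n * r = r * n) :
    n ∈ (Cfsg.pCore q ↥⁅H, P⁆).map (⁅H, P⁆ : Subgroup X).subtype := by
  have hNH : ⁅H, P⁆ ≤ H := Cfsg.Agent.Lib.Glauberman.commutator_le_of_le_normalizer hPH
  have hnorm : ∀ h ∈ H, h ∈ Subgroup.normalizer ((⁅H, P⁆ : Subgroup X) : Set X) := by
    intro h hh
    rw [Subgroup.mem_normalizer_iff]
    intro x
    constructor
    · exact fun hx => commutator_conj_mem hh hx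
    · intro hx
      have := commutator_conj_mem (H := H) (P := P) (inv_mem hh) hx
      simpa [mul_assoc] using this
  have hON : Cfsg.pPrimeCore q ↥⁅H, P⁆ = ⊥ := by
    have h1 := hO ((Cfsg.pPrimeCore q ↥⁅H, P⁆).map (⁅H, P⁆ : Subgroup X).subtype)
      ((Subgroup.map_subtype_le _).trans hNH)
      (fun h hh l hl => conj_mem_map_of_characteristic inferInstance (hnorm h hh) hl)
      (by
        rw [Subgroup.card_subtype]
        exact not_dvd_card_pPrimeCore q)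
    exact (Subgroup.map_eq_bot_iff_of_injective _ (Subgroup.subtype_injective _)).mp h1
  have hC := centralizer_pCore_le (G := ↥⁅H, P⁆) q hON
  have h2 : (⟨n, hn⟩ : ↥⁅H, P⁆) ∈ Cfsg.pCore q ↥⁅H, P⁆ := by
    apply hC
    rw [Subgroup.mem_centralizer_iff]
    intro r hr
    apply Subtype.ext
    exact (hc r ⟨r, hr, rfl⟩).symm
  exact ⟨⟨n, hn⟩, h2, rfl⟩

end core

section core2

variable {X : Type*} [Group X] [Finite X] {q : ℕ} [hq : Fact q.Prime]

/-- `A` centralizes `O_q(N)` by Thompson's `A × B` lemma. -/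
theorem comm_R {H P A : Subgroup X} {z : X}
    (hPH : P ≤ Subgroup.normalizer (H : Set X))
    (hzH : z ∈ H) (hzq : ∃ k, orderOf z = q ^ k)
    (hAH : A ≤ H) (hAz : ∀ a ∈ A, a * z = z * a) (hAq : ¬ q ∣ Nat.card A)
    (hAn : ∀ h ∈ H, h * z = z * h → ∀ a ∈ A, h * a * h⁻¹ ∈ A) :
    ∀ a ∈ A, ∀ r ∈ (Cfsg.pCore q ↥⁅H, P⁆).map (⁅H, P⁆ : Subgroup X).subtype, a * r = r * a := by
  have hNH : ⁅H, P⁆ ≤ H := Cfsg.Agent.Lib.Glauberman.commutator_le_of_le_normalizer hPH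
  have hnorm : ∀ h ∈ H, h ∈ Subgroup.normalizer ((⁅H, P⁆ : Subgroup X) : Set X) := by
    intro h hh
    rw [Subgroup.mem_normalizer_iff]
    intro x
    constructor
    · exact fun hx => commutator_conj_mem hh hx
    · intro hx
      have := commutator_conj_mem (H := H) (P := P) (inv_mem hh) hx
      simpa [mul_assoc] using this
  set R := (Cfsg.pCore q ↥⁅H, P⁆).map (⁅H, P⁆ : Subgroup X).subtype with hRdef
  have hRp : IsPGroup q R := (isPGroup_pCore q).map _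
  have hRH : ∀ h ∈ H, ∀ r ∈ R, h * r * h⁻¹ ∈ R := fun h hh r hr =>
    conj_mem_map_of_characteristic inferInstance (hnorm h hh) hr
  have hzp : Subgroup.zpowers z ≤ H := by
    rw [Subgroup.zpowers_le]
    exact hzH
  intro a ha
  have hT : IsPGroup q (Subgroup.zpowers z) := by
    obtain ⟨k, hk⟩ := hzq
    rw [IsPGroup.iff_card, Nat.card_zpowers, hk]
    exact ⟨k, rfl⟩
  have hcomm : ∀ t ∈ Subgroup.zpowers z, a * t = t * a := by
    intro t ht
    obtain ⟨i, rfl⟩ := Subgroup.mem_zpowers_iff.mp ht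
    have h1 : Commute a z := hAz a ha
    exact (h1.zpow_right i)
  have hcop : (orderOf a).Coprime q := by
    have h3 : orderOf a ∣ Nat.card A := Subgroup.orderOf_dvd_natCard A ha
    exact ((Nat.Prime.coprime_iff_not_dvd hq.out).mpr (fun h => hAq (h.trans h3))).symm
  refine Cfsg.Agent.Lib.CompFitting.ab_lemma R (Subgroup.zpowers z) a hRp hT
    (fun v hv => hRH a (hAH ha) v hv) (fun t ht v hv => hRH t (hzp ht) v hv) hcomm hcop ?_
  intro v hv hvz
  have hvH : v ∈ H := hNH ((Subgroup.map_subtype_le _) hv)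
  have hvz' : v * z = z * v := (hvz z (Subgroup.mem_zpowers z)).symm
  have h1 : a * v * a⁻¹ * v⁻¹ ∈ A := by
    have h2 := hAn v hvH hvz' a⁻¹ (inv_mem ha)
    have e : a * v * a⁻¹ * v⁻¹ = a * (v * a⁻¹ * v⁻¹) := by group
    rw [e]
    exact mul_mem ha h2
  have h2 : a * v * a⁻¹ * v⁻¹ ∈ R :=
    mul_mem (hRH a (hAH ha) v hv) (inv_mem hv)
  have h3 := eq_one_of_mem_of_mem hAq hRp h1 h2
  have h4 : a * v * a⁻¹ = v := mul_inv_eq_one.mp h3
  exact mul_inv_eq_iff_eq_mul.mp h4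

/-- `A` centralizes `N = [H, P]`. -/
theorem comm_N {H P A : Subgroup X} {z : X}
    (hPH : P ≤ Subgroup.normalizer (H : Set X))
    (hsol : Group.IsSolvable ↥⁅H, P⁆)
    (hO : ∀ L : Subgroup X, L ≤ H → (∀ h ∈ H, ∀ l ∈ L, h * l * h⁻¹ ∈ L) → ¬ q ∣ Nat.card L → L = ⊥)
    (hzH : z ∈ H) (hzq : ∃ k, orderOf z = q ^ k)
    (hAH : A ≤ H) (hAz : ∀ a ∈ A, a * z = z * a) (hAq : ¬ q ∣ Nat.card A)
    (hAn : ∀ h ∈ H, h * z = z * h → ∀ a ∈ A, h * a * h⁻¹ ∈ A) :
    ∀ a ∈ A, ∀ n ∈ ⁅H, P⁆, a * n = n * a := by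
  have hNH : ⁅H, P⁆ ≤ H := Cfsg.Agent.Lib.Glauberman.commutator_le_of_le_normalizer hPH
  have hnorm : ∀ h ∈ H, h ∈ Subgroup.normalizer ((⁅H, P⁆ : Subgroup X) : Set X) := by
    intro h hh
    rw [Subgroup.mem_normalizer_iff]
    intro x
    constructor
    · exact fun hx => commutator_conj_mem hh hx
    · intro hx
      have := commutator_conj_mem (H := H) (P := P) (inv_mem hh) hx
      simpa [mul_assoc] using this
  have haR := comm_R hPH hzH hzq hAH hAz hAq hAn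
  have hRp : IsPGroup q ((Cfsg.pCore q ↥⁅H, P⁆).map (⁅H, P⁆ : Subgroup X).subtype) :=
    (isPGroup_pCore q).map _
  intro a ha n hn
  set c : X := a * n * a⁻¹ * n⁻¹ with hc
  have hcN : c ∈ ⁅H, P⁆ := mul_mem (commutator_conj_mem (hAH ha) hn) (inv_mem hn)
  have hcR : c ∈ (Cfsg.pCore q ↥⁅H, P⁆).map (⁅H, P⁆ : Subgroup X).subtype := by
    apply mem_R_of_comm hPH hsol hO hcN
    intro r hr
    have hr' : n⁻¹ * r * n⁻¹⁻¹ ∈ (Cfsg.pCore q ↥⁅H, P⁆).map (⁅H, P⁆ : Subgroup X).subtype :=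
      conj_mem_map_of_characteristic inferInstance (hnorm _ (inv_mem (hNH hn))) hr
    have h1 := haR a ha r hr
    have h2 := haR a ha _ hr'
    -- `a` commutes with `r` and with `n⁻¹ r n`
    have e1 : a⁻¹ * r = r * a⁻¹ := by
      rw [inv_mul_eq_iff_eq_mul, ← mul_assoc, h1, mul_assoc, mul_inv_cancel, mul_one]
    have e2 : a⁻¹ * (n⁻¹ * r * n⁻¹⁻¹) = (n⁻¹ * r * n⁻¹⁻¹) * a⁻¹ := by
      rw [inv_mul_eq_iff_eq_mul, ← mul_assoc, h2, mul_assoc _ a, mul_inv_cancel, mul_one]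
    calc c * r = a * n * (a⁻¹ * (n⁻¹ * r * n⁻¹⁻¹)) * n⁻¹ := by
            rw [hc]; group
      _ = a * n * ((n⁻¹ * r * n⁻¹⁻¹) * a⁻¹) * n⁻¹ := by rw [e2]
      _ = (a * r) * n * a⁻¹ * n⁻¹ := by group
      _ = (r * a) * n * a⁻¹ * n⁻¹ := by rw [h1]
      _ = r * c := by rw [hc]; group
  have hac : Commute a c := haR a ha c hcR
  -- `a^k n a^{-k} = c^k n`
  have hk : ∀ k : ℕ, a ^ k * n * (a ^ k)⁻¹ = c ^ k * n := by
    intro k
    induction k with
    | zero => simp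
    | succ k ih =>
      have e0 : a * n * a⁻¹ = c * n := by rw [hc]; group
      have e1 : a * c ^ k = c ^ k * a := (hac.pow_right k).eq
      calc a ^ (k + 1) * n * (a ^ (k + 1))⁻¹
          = a * (a ^ k * n * (a ^ k)⁻¹) * a⁻¹ := by
            rw [pow_succ' a k]; group
        _ = a * (c ^ k * n) * a⁻¹ := by rw [ih]
        _ = (a * c ^ k) * n * a⁻¹ := by group
        _ = c ^ k * (a * n * a⁻¹) := by rw [e1]; group
        _ = c ^ k * (c * n) := by rw [e0]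
        _ = c ^ (k + 1) * n := by rw [pow_succ]; group
  have h1 := hk (orderOf a)
  rw [pow_orderOf_eq_one] at h1
  have h2 : c ^ orderOf a = 1 := by
    have : n = c ^ orderOf a * n := by simpa using h1
    exact (mul_eq_right.mp this.symm)
  have h3 : orderOf c ∣ orderOf a := orderOf_dvd_of_pow_eq_one h2
  have h4 : c = 1 := by
    obtain ⟨k, hk'⟩ := hRp ⟨c, hcR⟩
    have h6 : c ^ q ^ k = 1 := by simpa using congrArg Subtype.val hk'
    have h7 : orderOf c ∣ q ^ k := orderOf_dvd_of_pow_eq_one h6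
    have h8 : orderOf a ∣ Nat.card A := Subgroup.orderOf_dvd_natCard A ha
    have h9 : Nat.Coprime (Nat.card A) (q ^ k) :=
      Nat.Coprime.pow_right k ((Nat.Prime.coprime_iff_not_dvd hq.out).mpr hAq).symm
    have h10 : orderOf c = 1 := Nat.eq_one_of_dvd_coprimes h9 (h3.trans h8) h7
    exact orderOf_eq_one_iff.mp h10
  have h12 : a * n * a⁻¹ = n := by
    have := h4
    rw [hc] at this
    exact mul_inv_eq_one.mp this
  exact mul_inv_eq_iff_eq_mul.mp h12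

/-- `A` centralizes `P`. -/
theorem comm_P {H P A : Subgroup X} {z : X}
    (hPH : P ≤ Subgroup.normalizer (H : Set X))
    (hsol : Group.IsSolvable ↥⁅H, P⁆)
    (hO : ∀ L : Subgroup X, L ≤ H → (∀ h ∈ H, ∀ l ∈ L, h * l * h⁻¹ ∈ L) → ¬ q ∣ Nat.card L → L = ⊥)
    (hzH : z ∈ H) (hzq : ∃ k, orderOf z = q ^ k)
    (hAH : A ≤ H) (hAz : ∀ a ∈ A, a * z = z * a) (hAq : ¬ q ∣ Nat.card A)
    (hAn : ∀ h ∈ H, h * z = z * h → ∀ a ∈ A, h * a * h⁻¹ ∈ A)
    (hAP : ∀ π ∈ P, ∀ a ∈ A, π * a * π⁻¹ ∈ A) :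
    ∀ a ∈ A, ∀ π ∈ P, a * π = π * a := by
  have hAN := comm_N hPH hsol hO hzH hzq hAH hAz hAq hAn
  intro a ha π hπ
  set d : X := ⁅a, π⁆ with hd
  have hdN : d ∈ ⁅H, P⁆ := Subgroup.commutator_mem_commutator (hAH ha) hπ
  have hdA : d ∈ A := by
    have e : d = a * (π * a⁻¹ * π⁻¹) := by rw [hd, commutatorElement_def]; group
    rw [e]
    exact mul_mem ha (hAP π hπ _ (inv_mem ha))
  have hRp : IsPGroup q ((Cfsg.pCore q ↥⁅H, P⁆).map (⁅H, P⁆ : Subgroup X).subtype) :=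
    (isPGroup_pCore q).map _
  have hdR : d ∈ (Cfsg.pCore q ↥⁅H, P⁆).map (⁅H, P⁆ : Subgroup X).subtype := by
    apply mem_R_of_comm hPH hsol hO hdN
    intro r hr
    exact hAN d hdA r ((Subgroup.map_subtype_le _) hr)
  have h1 := eq_one_of_mem_of_mem hAq hRp hdA hdR
  have h2 : a * π * a⁻¹ * π⁻¹ = 1 := by rw [← commutatorElement_def]; exact h1
  have h3 : a * π * a⁻¹ = π := mul_inv_eq_one.mp h2
  exact mul_inv_eq_iff_eq_mul.mp h3

/-- `A ∩ B = 1`. -/
theorem inf_trivial {H P A B C : Subgroup X} {z : X}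
    (hPH : P ≤ Subgroup.normalizer (H : Set X))
    (hsol : Group.IsSolvable ↥⁅H, P⁆)
    (hO : ∀ L : Subgroup X, L ≤ H → (∀ h ∈ H, ∀ l ∈ L, h * l * h⁻¹ ∈ L) → ¬ q ∣ Nat.card L → L = ⊥)
    (hzH : z ∈ H) (hzq : ∃ k, orderOf z = q ^ k)
    (hAH : A ≤ H) (hAz : ∀ a ∈ A, a * z = z * a) (hAq : ¬ q ∣ Nat.card A)
    (hAn : ∀ h ∈ H, h * z = z * h → ∀ a ∈ A, h * a * h⁻¹ ∈ A)
    (hBH : B ≤ H) (hBq : ¬ q ∣ Nat.card B)
    (hfac : ∀ h ∈ H, ∃ c ∈ C, ∃ n ∈ ⁅H, P⁆, h = c * n)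
    (hBC : ∀ c ∈ C, ∀ b ∈ B, c * b * c⁻¹ ∈ B) {a : X} (ha : a ∈ A) (hb : a ∈ B) : a = 1 := by
  have hAN := comm_N hPH hsol hO hzH hzq hAH hAz hAq hAn
  have hconj : ∀ h ∈ H, h * a * h⁻¹ ∈ B := by
    intro h hh
    obtain ⟨c, hc, n, hn, rfl⟩ := hfac h hh
    have h1 : n * a * n⁻¹ = a := by
      rw [← hAN a ha n hn]
      group
    have e : c * n * a * (c * n)⁻¹ = c * (n * a * n⁻¹) * c⁻¹ := by group
    rw [e, h1]
    exact hBC c hc a hb
  set L : Subgroup X := Subgroup.closure {x | ∃ h ∈ H, x = h * a * h⁻¹} with hL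
  have hLB : L ≤ B := by
    rw [hL, Subgroup.closure_le]
    rintro x ⟨h, hh, rfl⟩
    exact hconj h hh
  have hLn : ∀ h ∈ H, ∀ l ∈ L, h * l * h⁻¹ ∈ L := by
    intro h hh l hl
    have key : L ≤ L.comap (MulAut.conj h).toMonoidHom := by
      rw [hL, Subgroup.closure_le]
      rintro x ⟨h', hh', rfl⟩
      show (MulAut.conj h).toMonoidHom (h' * a * h'⁻¹) ∈ L
      apply Subgroup.subset_closure
      refine ⟨h * h', H.mul_mem hh hh', ?_⟩
      simp [MulAut.conj_apply]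
      group
    exact key hl
  have hLbot := hO L (hLB.trans hBH) hLn (fun h => hBq (h.trans (Subgroup.card_dvd_of_le hLB)))
  have h1 : a ∈ L := by
    apply Subgroup.subset_closure
    exact ⟨1, one_mem _, by simp⟩
  rw [hLbot] at h1
  exact Subgroup.mem_bot.mp h1

end core2

section translate

variable {G : Type*} [Group G] [Finite G] {q : ℕ} [hq : Fact q.Prime]

theorem quot_hO {H K : Subgroup G} [hHn : H.Normal] [hKn : K.Normal]
    (hK : K = (Cfsg.pPrimeCore q ↥H).map H.subtype) (L : Subgroup (G ⧸ K))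
    (hLH : L ≤ H.map (QuotientGroup.mk' K))
    (hLn : ∀ h ∈ H.map (QuotientGroup.mk' K), ∀ l ∈ L, h * l * h⁻¹ ∈ L)
    (hLq : ¬ q ∣ Nat.card L) : L = ⊥ := by
  have hKq : ¬ q ∣ Nat.card K := by
    rw [hK, Subgroup.card_subtype]
    exact not_dvd_card_pPrimeCore q
  set W := L.comap (QuotientGroup.mk' K) with hW
  have hWq : ¬ q ∣ Nat.card W := by
    intro hd
    obtain ⟨x, hx⟩ := exists_prime_orderOf_dvd_card' q hd
    have hxo : orderOf (x : G) = q := by rwa [Subgroup.orderOf_coe]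
    by_cases h1 : (x : G) ∈ K
    · exact hKq (hxo ▸ Subgroup.orderOf_dvd_natCard K h1)
    · have h2 : orderOf (QuotientGroup.mk' K (x : G)) = q := by
        have h3 : orderOf (QuotientGroup.mk' K (x : G)) ∣ q :=
          hxo ▸ orderOf_map_dvd _ _
        rcases (Nat.dvd_prime hq.out).mp h3 with h4 | h4
        · exfalso
          apply h1
          have := orderOf_eq_one_iff.mp h4
          exact (QuotientGroup.eq_one_iff _).mp this
        · exact h4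
      exact hLq (h2 ▸ Subgroup.orderOf_dvd_natCard L x.2)
  let W' : Subgroup ↥H := W.subgroupOf H
  have hW'n : W'.Normal := by
    constructor
    intro w hw h
    rw [Subgroup.mem_subgroupOf] at hw ⊢
    show QuotientGroup.mk' K ((h : G) * (w : G) * (h : G)⁻¹) ∈ L
    rw [map_mul, map_mul, map_inv]
    exact hLn _ ⟨h, h.2, rfl⟩ _ hw
  have hW'card : ¬ q ∣ Nat.card W' := by
    intro hd
    apply hWq
    have h1 : Nat.card W' = Nat.card (W'.map H.subtype) := (Subgroup.card_subtype H W').symm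
    rw [h1] at hd
    refine hd.trans (Subgroup.card_dvd_of_le ?_)
    rintro x ⟨y, hy, rfl⟩
    exact hy
  have hW'le : W' ≤ Cfsg.pPrimeCore q ↥H :=
    le_pPrimeCore hW'n ((Nat.Prime.coprime_iff_not_dvd hq.out).mpr hW'card).symm
  rw [eq_bot_iff]
  intro l hl
  obtain ⟨h, hh, rfl⟩ := hLH hl
  have h1 : (⟨h, hh⟩ : ↥H) ∈ W' := by
    rw [Subgroup.mem_subgroupOf]
    exact hl
  have h2 : h ∈ K := by
    rw [hK]
    exact ⟨⟨h, hh⟩, hW'le h1, rfl⟩
  rw [Subgroup.mem_bot]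
  exact (QuotientGroup.eq_one_iff _).mpr h2

theorem lift_centralizer {H K : Subgroup G} [hKn : K.Normal] (hKH : K ≤ H)
    (hKq : ¬ q ∣ Nat.card K) {z : G} (hz : ∃ k, orderOf z = q ^ k) {y : G ⧸ K}
    (hy : y ∈ H.map (QuotientGroup.mk' K))
    (hyz : y * QuotientGroup.mk' K z = QuotientGroup.mk' K z * y) :
    ∃ h ∈ H, QuotientGroup.mk' K h = y ∧ h * z = z * h := by
  obtain ⟨w, hw, rfl⟩ := hy
  have hB : IsPGroup q (Subgroup.zpowers z) := by
    obtain ⟨k, hk⟩ := hz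
    rw [IsPGroup.iff_card, Nat.card_zpowers, hk]
    exact ⟨k, rfl⟩
  have hBK : ∀ b ∈ Subgroup.zpowers z, ∀ k ∈ K, b * k * b⁻¹ ∈ K := fun b _ k hk =>
    hKn.conj_mem k hk b
  have hw' : ∀ b ∈ Subgroup.zpowers z, w⁻¹ * (b * w * b⁻¹) ∈ K := by
    intro b hb
    obtain ⟨i, rfl⟩ := Subgroup.mem_zpowers_iff.mp hb
    rw [← QuotientGroup.eq_one_iff]
    show QuotientGroup.mk' K (w⁻¹ * (z ^ i * w * (z ^ i)⁻¹)) = 1
    have hc : Commute (QuotientGroup.mk' K w) (QuotientGroup.mk' K z) := hyz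
    have hc2 : Commute (QuotientGroup.mk' K w) (QuotientGroup.mk' K z ^ i) := hc.zpow_right i
    simp only [map_mul, map_inv, map_zpow]
    rw [← hc2.eq]
    group
  obtain ⟨u, hu, hc⟩ := Cfsg.Agent.Lib.CoprimeHyper.exists_fixed_in_coset (p := q)
    (Subgroup.zpowers z) K hB hKq hBK w hw'
  refine ⟨w * u, H.mul_mem hw (hKH hu), ?_, ?_⟩
  · rw [map_mul]
    have : QuotientGroup.mk' K u = 1 := (QuotientGroup.eq_one_iff _).mpr hu
    rw [this, mul_one]
  · have h1 := hc z (Subgroup.mem_zpowers z)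
    have h2 : z * (w * u) = (w * u) * z := mul_inv_eq_iff_eq_mul.mp h1
    exact h2.symm

end translate

/-- Let G be a finite group with Sylow p-subgroup P and H = O_{p'}(G), and suppose G = PH and the commutator subgroup [H, P] is solvable. Let q be a prime and z an element of q-power order of C_H(P). Then (O_{q'}(C_H(z)) ∩ O_{q'}(C_H(P))) · [O_{q'}(C_H(z)), P] ≤ O_{q'}(H). -/
theorem result {G : Type*} [Group G] [Finite G] {p : ℕ} [Fact p.Prime]
    (P : Sylow p G) (hPH : Cfsg.pPrimeCore p G ⊔ (P : Subgroup G) = ⊤)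
    (hsol : Group.IsSolvable ↥⁅Cfsg.pPrimeCore p G, (P : Subgroup G)⁆)
    {q : ℕ} [Fact q.Prime] (z : G) (hzH : z ∈ Cfsg.pPrimeCore p G) (hzP : z ∈ Subgroup.centralizer ((P : Subgroup G) : Set G))
    (hz : ∃ k : ℕ, orderOf z = q ^ k) :
    ((Cfsg.pPrimeCore q ↥(Cfsg.pPrimeCore p G ⊓ Subgroup.centralizer ({z} : Set G))).map
        (Cfsg.pPrimeCore p G ⊓ Subgroup.centralizer ({z} : Set G)).subtype ⊓
      (Cfsg.pPrimeCore q ↥(Cfsg.pPrimeCore p G ⊓ Subgroup.centralizer ((P : Subgroup G) : Set G))).map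
        (Cfsg.pPrimeCore p G ⊓ Subgroup.centralizer ((P : Subgroup G) : Set G)).subtype) ⊔
    ⁅(Cfsg.pPrimeCore q ↥(Cfsg.pPrimeCore p G ⊓ Subgroup.centralizer ({z} : Set G))).map
        (Cfsg.pPrimeCore p G ⊓ Subgroup.centralizer ({z} : Set G)).subtype, (P : Subgroup G)⁆ ≤
    (Cfsg.pPrimeCore q ↥(Cfsg.pPrimeCore p G)).map (Cfsg.pPrimeCore p G).subtype := by
  classical
  set H := Cfsg.pPrimeCore p G with hH
  have hHn : H.Normal := pPrimeCore_normal p G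
  set K := (Cfsg.pPrimeCore q ↥H).map H.subtype with hK
  have hKn : K.Normal := normal_map_of_characteristic hHn inferInstance
  have hKH : K ≤ H := Subgroup.map_subtype_le _
  have hKq : ¬ q ∣ Nat.card K := by
    rw [hK, Subgroup.card_subtype]
    exact not_dvd_card_pPrimeCore q
  set π : G →* G ⧸ K := QuotientGroup.mk' K with hπ
  have hπs : Function.Surjective π := QuotientGroup.mk'_surjective K
  set Hb := H.map π with hHb
  have hHbn : Hb.Normal := Subgroup.Normal.map hHn π hπs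
  set Pb := (P : Subgroup G).map π with hPb
  have hPHb : Pb ≤ Subgroup.normalizer (Hb : Set (G ⧸ K)) := by
    rw [Subgroup.normalizer_eq_top Hb]
    exact le_top
  have hNb : ⁅Hb, Pb⁆ = (⁅H, (P : Subgroup G)⁆).map π := (Subgroup.map_commutator _ _ _).symm
  have hsolb : Group.IsSolvable ↥⁅Hb, Pb⁆ := by
    rw [hNb]
    exact Group.isSolvable_of_surjective (π.subgroupMap_surjective _)
  have hOb : ∀ L : Subgroup (G ⧸ K), L ≤ Hb → (∀ h ∈ Hb, ∀ l ∈ L, h * l * h⁻¹ ∈ L) →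
      ¬ q ∣ Nat.card L → L = ⊥ := fun L h1 h2 h3 => quot_hO hK L h1 h2 h3
  set Cz := H ⊓ Subgroup.centralizer ({z} : Set G) with hCz
  set CP := H ⊓ Subgroup.centralizer ((P : Subgroup G) : Set G) with hCP
  set A₀ := (Cfsg.pPrimeCore q ↥Cz).map Cz.subtype with hA₀
  set B₀ := (Cfsg.pPrimeCore q ↥CP).map CP.subtype with hB₀
  set A := A₀.map π with hA
  set B := B₀.map π with hB
  set Cb := CP.map π with hCb
  have hA₀Cz : A₀ ≤ Cz := Subgroup.map_subtype_le _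
  have hB₀CP : B₀ ≤ CP := Subgroup.map_subtype_le _
  have hA₀q : ¬ q ∣ Nat.card A₀ := by
    rw [hA₀, Subgroup.card_subtype]
    exact not_dvd_card_pPrimeCore q
  have hB₀q : ¬ q ∣ Nat.card B₀ := by
    rw [hB₀, Subgroup.card_subtype]
    exact not_dvd_card_pPrimeCore q
  have hzHb : π z ∈ Hb := ⟨z, hzH, rfl⟩
  have hzqb : ∃ k, orderOf (π z) = q ^ k := by
    obtain ⟨k, hk⟩ := hz
    have h1 : orderOf (π z) ∣ q ^ k := hk ▸ orderOf_map_dvd _ _
    obtain ⟨j, -, hj⟩ := (Nat.dvd_prime_pow (Fact.out : q.Prime)).mp h1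
    exact ⟨j, hj⟩
  have hAHb : A ≤ Hb := Subgroup.map_mono (hA₀Cz.trans inf_le_left)
  have hAz : ∀ a ∈ A, a * π z = π z * a := by
    rintro a ⟨a₀, ha₀, rfl⟩
    have h1 : a₀ ∈ Subgroup.centralizer ({z} : Set G) := (hA₀Cz ha₀).2
    rw [Subgroup.mem_centralizer_singleton_iff] at h1
    rw [← map_mul, ← map_mul, h1]
  have hAq : ¬ q ∣ Nat.card A := by
    intro hd
    apply hA₀q
    exact hd.trans (Subgroup.card_dvd_of_surjective _ (π.subgroupMap_surjective A₀))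
  have hBq : ¬ q ∣ Nat.card B := by
    intro hd
    apply hB₀q
    exact hd.trans (Subgroup.card_dvd_of_surjective _ (π.subgroupMap_surjective B₀))
  have hAn : ∀ h ∈ Hb, h * π z = π z * h → ∀ a ∈ A, h * a * h⁻¹ ∈ A := by
    rintro h hh hhz a ⟨a₀, ha₀, rfl⟩
    obtain ⟨h₀, hh₀, rfl, hc⟩ := lift_centralizer hKH hKq hz hh hhz
    refine ⟨h₀ * a₀ * h₀⁻¹, ?_, by rw [map_mul, map_mul, map_inv]⟩
    have hmem : h₀ ∈ Cz := ⟨hh₀, Subgroup.mem_centralizer_singleton_iff.mpr hc⟩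
    exact conj_mem_map_of_characteristic inferInstance (Subgroup.le_normalizer hmem) ha₀
  have hPnormCz : ∀ x ∈ (P : Subgroup G), x ∈ Subgroup.normalizer (Cz : Set G) := by
    intro x hx
    rw [Subgroup.mem_normalizer_iff]
    intro y
    have hxz : x * z = z * x := by
      exact Subgroup.mem_centralizer_iff.mp hzP x hx
    have e1 : x * y * x⁻¹ * z = x * (y * z) * x⁻¹ := by
      have : x⁻¹ * z = z * x⁻¹ := by
        rw [inv_mul_eq_iff_eq_mul, ← mul_assoc, hxz, mul_assoc, mul_inv_cancel, mul_one]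
      calc x * y * x⁻¹ * z = x * y * (x⁻¹ * z) := by group
        _ = x * y * (z * x⁻¹) := by rw [this]
        _ = x * (y * z) * x⁻¹ := by group
    have e2 : z * (x * y * x⁻¹) = x * (z * y) * x⁻¹ := by
      calc z * (x * y * x⁻¹) = (z * x) * y * x⁻¹ := by group
        _ = (x * z) * y * x⁻¹ := by rw [hxz]
        _ = x * (z * y) * x⁻¹ := by group
    constructor
    · rintro ⟨hy1, hy2⟩
      have hy2' : y * z = z * y := Subgroup.mem_centralizer_singleton_iff.mp hy2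
      refine ⟨hHn.conj_mem y hy1 x, Subgroup.mem_centralizer_singleton_iff.mpr ?_⟩
      rw [e1, e2, hy2']
    · rintro ⟨hy1, hy2⟩
      have hy2' : x * y * x⁻¹ * z = z * (x * y * x⁻¹) :=
        Subgroup.mem_centralizer_singleton_iff.mp hy2
      rw [e1, e2] at hy2'
      have hy3 : y * z = z * y := by
        simpa using hy2'
      refine ⟨?_, Subgroup.mem_centralizer_singleton_iff.mpr hy3⟩
      have := hHn.conj_mem _ hy1 x⁻¹
      simpa [mul_assoc] using this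
  have hAP : ∀ x ∈ Pb, ∀ a ∈ A, x * a * x⁻¹ ∈ A := by
    rintro x ⟨x₀, hx₀, rfl⟩ a ⟨a₀, ha₀, rfl⟩
    refine ⟨x₀ * a₀ * x₀⁻¹, ?_, by rw [map_mul, map_mul, map_inv]⟩
    exact conj_mem_map_of_characteristic inferInstance (hPnormCz x₀ hx₀) ha₀
  have hBH : B ≤ Hb := Subgroup.map_mono (hB₀CP.trans inf_le_left)
  have hcop : (Nat.card (P : Subgroup G)).Coprime (Nat.card H) := by
    obtain ⟨k, hk⟩ := IsPGroup.iff_card.mp P.isPGroup'
    rw [hk]
    exact Nat.Coprime.pow_left k (card_pPrimeCore_coprime p).symm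
  have hPHn : (P : Subgroup G) ≤ Subgroup.normalizer (H : Set G) := by
    rw [Subgroup.normalizer_eq_top H]
    exact le_top
  have hfac : ∀ h ∈ Hb, ∃ c ∈ Cb, ∃ n ∈ ⁅Hb, Pb⁆, h = c * n := by
    rintro h ⟨h₀, hh₀, rfl⟩
    obtain ⟨n, hn, hnc⟩ := Cfsg.Agent.Lib.Glauberman.exists_commutator_mul_centralizer hPHn hcop
      (by haveI := P.isPGroup'.isNilpotent; exact Or.inl inferInstance) h₀⁻¹ (inv_mem hh₀)
    have hnH : n ∈ H := Cfsg.Agent.Lib.Glauberman.commutator_le_of_le_normalizer hPHn hn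
    refine ⟨π (n * h₀⁻¹)⁻¹, ⟨(n * h₀⁻¹)⁻¹, ⟨H.inv_mem (H.mul_mem hnH (H.inv_mem hh₀)), (Subgroup.centralizer _).inv_mem hnc⟩, rfl⟩,
      π n, ?_, ?_⟩
    · rw [hNb]
      exact ⟨n, hn, rfl⟩
    · rw [← map_mul]
      congr 1
      group
  have hBC : ∀ c ∈ Cb, ∀ b ∈ B, c * b * c⁻¹ ∈ B := by
    rintro c ⟨c₀, hc₀, rfl⟩ b ⟨b₀, hb₀, rfl⟩
    refine ⟨c₀ * b₀ * c₀⁻¹, ?_, by rw [map_mul, map_mul, map_inv]⟩
    exact conj_mem_map_of_characteristic inferInstance (Subgroup.le_normalizer hc₀) hb₀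
  apply sup_le
  · rintro x ⟨hx1, hx2⟩
    have h1 : π x = 1 := inf_trivial hPHb hsolb hOb hzHb hzqb hAHb hAz hAq hAn hBH hBq hfac hBC
      (a := π x) ⟨x, hx1, rfl⟩ ⟨x, hx2, rfl⟩
    exact (QuotientGroup.eq_one_iff _).mp h1
  · rw [Subgroup.commutator_le]
    intro a ha x hx
    have h1 := comm_P hPHb hsolb hOb hzHb hzqb hAHb hAz hAq hAn hAP (π a) ⟨a, ha, rfl⟩ (π x) ⟨x, hx, rfl⟩
    rw [← QuotientGroup.eq_one_iff]
    show π ⁅a, x⁆ = 1
    rw [commutatorElement_def, map_mul, map_mul, map_mul, map_inv, map_inv, h1]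
    group




end Cfsg.Agent.S3819
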