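import Mathlib
import Cfsg.Statements.S3820

set_option autoImplicit false
open Cfsg

namespace Cfsg.Agent.S3820

variable {G : Type*} [Group G]

theorem conjMap_mul (H : Subgroup G) (x y : G) :
    H.map (MulAut.conj (x * y)).toMonoidHom =
      (H.map (MulAut.conj y).toMonoidHom).map (MulAut.conj x).toMonoidHom := by
  rw [Subgroup.map_map]
  congr 1
  ext z
  simp [MulAut.conj_apply, mul_assoc]

theorem conjMap_inv_mul (H : Subgroup G) (x y : G) :
    H.map (MulAut.conj (x⁻¹ * y)).toMonoidHom =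
      (H.map (MulAut.conj y).toMonoidHom).map (MulAut.conj x⁻¹).toMonoidHom :=
  conjMap_mul H x⁻¹ y

theorem conjMap_conj_inv (H : Subgroup G) (x : G) :
    (H.map (MulAut.conj x).toMonoidHom).map (MulAut.conj x⁻¹).toMonoidHom = H := by
  rw [← conjMap_mul]
  simp only [inv_mul_cancel, map_one]
  ext z
  simp

theorem conjMap_le_of_mem {H J : Subgroup G} {x : G} (hH : H ≤ J) (hx : x ∈ J) :
    H.map (MulAut.conj x).toMonoidHom ≤ J := by
  rintro _ ⟨y, hy, rfl⟩
  simpa [MulAut.conj_apply] using J.mul_mem (J.mul_mem hx (hH hy)) (J.inv_mem hx)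

theorem mem_normalizer_of_conjMap_eq {S : Subgroup G} {n : G}
    (h : S.map (MulAut.conj n).toMonoidHom = S) : n ∈ Subgroup.normalizer (S : Set G) := by
  rw [Subgroup.mem_normalizer_iff]
  intro y
  constructor
  · intro hy
    have : n * y * n⁻¹ ∈ S.map (MulAut.conj n).toMonoidHom := ⟨y, hy, by simp [MulAut.conj_apply]⟩
    rw [h] at this
    exact this
  · intro hy
    rw [← h] at hy
    obtain ⟨z, hz, hzy⟩ := hy
    have : z = y := by
      simpa [MulAut.conj_apply, mul_assoc] using hzy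
    rwa [← this]

/-- Let S ≤ H ≤ G, S pronormal in G. -/
theorem result {G : Type*} [Group G] [Finite G] (S H : Subgroup G) (hSH : S ≤ H)
    (hS : Cfsg.IsPronormal S) :
    Cfsg.IsPronormal H ↔
      ∀ g ∈ Subgroup.normalizer (S : Set G), ∃ w ∈ H ⊔ H.map (MulAut.conj g).toMonoidHom,
        H.map (MulAut.conj g).toMonoidHom = H.map (MulAut.conj w).toMonoidHom := by
  constructor
  · intro h g _
    exact h g
  · intro h g
    obtain ⟨x, hx, hxe⟩ := hS g
    set J : Subgroup G := H ⊔ H.map (MulAut.conj g).toMonoidHom with hJ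
    have hHJ : H ≤ J := le_sup_left
    have hgJ : H.map (MulAut.conj g).toMonoidHom ≤ J := le_sup_right
    have hxJ : x ∈ J := by
      refine (sup_le (hSH.trans hHJ) ?_) hx
      refine le_trans ?_ hgJ
      exact Subgroup.map_mono hSH
    -- `n = x⁻¹ g` normalizes `S`
    have hn : (x⁻¹ * g) ∈ Subgroup.normalizer (S : Set G) := by
      apply mem_normalizer_of_conjMap_eq
      rw [conjMap_inv_mul, hxe, conjMap_conj_inv]
    obtain ⟨w, hw, hwe⟩ := h _ hn
    have hHn : H.map (MulAut.conj (x⁻¹ * g)).toMonoidHom ≤ J := by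
      rw [conjMap_inv_mul]
      exact conjMap_le_of_mem hgJ (J.inv_mem hxJ)
    have hwJ : w ∈ J := (sup_le hHJ hHn) hw
    refine ⟨x * w, J.mul_mem hxJ hwJ, ?_⟩
    rw [conjMap_mul, ← hwe, ← conjMap_mul]
    simp

end Cfsg.Agent.S3820
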