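import Mathlib
import Cfsg.Statements.S3821

set_option autoImplicit false
open Cfsg

namespace Cfsg.Agent.S3821

variable {G : Type*} [Group G]

theorem conjMap_mul (H : Subgroup G) (x y : G) :
    H.map (MulAut.conj (x * y)).toMonoidHom =
      (H.map (MulAut.conj y).toMonoidHom).map (MulAut.conj x).toMonoidHom := by
  rw [Subgroup.map_map]
  congr 1
  ext z
  simp [MulAut.conj_apply, mul_assoc]

theorem conjMap_conj_inv (H : Subgroup G) (x : G) :
    (H.map (MulAut.conj x).toMonoidHom).map (MulAut.conj x⁻¹).toMonoidHom = H := by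
  rw [← conjMap_mul]
  simp only [inv_mul_cancel, map_one]
  ext z
  simp

theorem conjMap_le_of_mem {H J : Subgroup G} {x : G} (hH : H ≤ J) (hx : x ∈ J) :
    H.map (MulAut.conj x).toMonoidHom ≤ J := by
  rintro _ ⟨y, hy, rfl⟩
  simpa [MulAut.conj_apply] using J.mul_mem (J.mul_mem hx (hH hy)) (J.inv_mem hx)

theorem mem_normalizer_of_conjMap_eq {S : Subgroup G} {n : G}
    (h : S.map (MulAut.conj n).toMonoidHom = S) : n ∈ Subgroup.normalizer (S : Set G) := by
  rw [Subgroup.mem_normalizer_iff]
  intro y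
  constructor
  · intro hy
    have : n * y * n⁻¹ ∈ S.map (MulAut.conj n).toMonoidHom := ⟨y, hy, by simp [MulAut.conj_apply]⟩
    rw [h] at this
    exact this
  · intro hy
    rw [← h] at hy
    obtain ⟨z, hz, hzy⟩ := hy
    have : z = y := by
      simpa [MulAut.conj_apply, mul_assoc] using hzy
    rwa [← this]

theorem conjMap_eq_of_mem_normalizer {S : Subgroup G} {n : G}
    (h : n ∈ Subgroup.normalizer (S : Set G)) : S.map (MulAut.conj n).toMonoidHom = S := by
  rw [Subgroup.mem_normalizer_iff] at h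
  ext y
  constructor
  · rintro ⟨z, hz, rfl⟩
    exact (h z).1 hz
  · intro hy
    refine ⟨n⁻¹ * y * n, ?_, by simp [MulAut.conj_apply, mul_assoc]⟩
    have := h (n⁻¹ * y * n)
    apply this.2
    simpa [mul_assoc] using hy

/-- transport of the conjugate of a relative subgroup -/
theorem map_subtype_conj (A H : Subgroup G) (hHA : H ≤ A) (a : A) :
    ((H.subgroupOf A).map (MulAut.conj a).toMonoidHom).map A.subtype =
      H.map (MulAut.conj (a : G)).toMonoidHom := by
  ext y
  constructor
  · rintro ⟨_, ⟨z, hz, rfl⟩, rfl⟩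
    exact ⟨z, hz, by simp [MulAut.conj_apply]⟩
  · rintro ⟨z, hz, rfl⟩
    refine ⟨MulAut.conj a ⟨z, hHA hz⟩, ⟨⟨z, hHA hz⟩, ?_, rfl⟩, ?_⟩
    · simpa [Subgroup.mem_subgroupOf] using hz
    · simp [MulAut.conj_apply]

theorem map_subtype_self (A H : Subgroup G) (hHA : H ≤ A) :
    (H.subgroupOf A).map A.subtype = H := by
  rw [Subgroup.subgroupOf_map_subtype]
  exact inf_eq_left.mpr hHA

theorem result {G : Type*} [Group G] [Finite G] (A H : Subgroup G) [A.Normal] (hHA : H ≤ A) :
    Cfsg.IsPronormal H ↔ (Cfsg.IsPronormal (H.subgroupOf A) ∧ A ⊔ Subgroup.normalizer (H : Set G) = ⊤) := by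
  have hAn : A.Normal := inferInstance
  have hconjA : ∀ g : G, H.map (MulAut.conj g).toMonoidHom ≤ A := by
    rintro g _ ⟨z, hz, rfl⟩
    exact hAn.conj_mem z (hHA hz) g
  constructor
  · intro h
    constructor
    · intro a
      obtain ⟨x, hx, hxe⟩ := h (a : G)
      have hxA : x ∈ A := (sup_le hHA (hconjA a)) hx
      refine ⟨⟨x, hxA⟩, ?_, ?_⟩
      · have : x ∈ ((H.subgroupOf A) ⊔
            (H.subgroupOf A).map (MulAut.conj a).toMonoidHom).map A.subtype := by
          rw [Subgroup.map_sup, map_subtype_self A H hHA, map_subtype_conj A H hHA a]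
          exact hx
        obtain ⟨y, hy, hyx⟩ := this
        have : y = ⟨x, hxA⟩ := Subtype.ext hyx
        rwa [← this]
      · apply Subgroup.map_injective A.subtype_injective
        rw [map_subtype_conj A H hHA a, map_subtype_conj A H hHA ⟨x, hxA⟩]
        exact hxe
    · rw [eq_top_iff]
      intro g _
      obtain ⟨x, hx, hxe⟩ := h g
      have hxA : x ∈ A := (sup_le hHA (hconjA g)) hx
      have hn : x⁻¹ * g ∈ Subgroup.normalizer (H : Set G) := by
        apply mem_normalizer_of_conjMap_eq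
        rw [conjMap_mul, hxe, conjMap_conj_inv]
      have : g = x * (x⁻¹ * g) := by group
      rw [this]
      exact Subgroup.mul_mem _ (Subgroup.mem_sup_left hxA) (Subgroup.mem_sup_right hn)
  · rintro ⟨h1, h2⟩ g
    have hg : g ∈ (A ⊔ Subgroup.normalizer (H : Set G) : Subgroup G) := by rw [h2]; trivial
    rw [Subgroup.mem_sup_of_normal_left] at hg
    obtain ⟨a, ha, n, hn, rfl⟩ := hg
    have heq : H.map (MulAut.conj (a * n)).toMonoidHom = H.map (MulAut.conj a).toMonoidHom := by
      rw [conjMap_mul, conjMap_eq_of_mem_normalizer hn]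
    rw [heq]
    obtain ⟨x, hx, hxe⟩ := h1 ⟨a, ha⟩
    refine ⟨(x : G), ?_, ?_⟩
    · have : (x : G) ∈ ((H.subgroupOf A) ⊔
            (H.subgroupOf A).map (MulAut.conj (⟨a, ha⟩ : A)).toMonoidHom).map A.subtype :=
        ⟨x, hx, rfl⟩
      rw [Subgroup.map_sup, map_subtype_self A H hHA, map_subtype_conj A H hHA ⟨a, ha⟩] at this
      exact this
    · have := congrArg (Subgroup.map A.subtype) hxe
      rw [map_subtype_conj A H hHA ⟨a, ha⟩, map_subtype_conj A H hHA x] at this
      exact this

end Cfsg.Agent.S3821
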