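import Mathlib
import Cfsg.Statements.S3825

set_option autoImplicit false
open Cfsg
open scoped commutatorElement

namespace Cfsg.Agent.S3825

/-- A fixed-point-free involutory endomorphism of a finite group is inversion. -/
theorem fpf_invol {Q : Type*} [Group Q] [Finite Q] (σ : Q →* Q) (hσ : ∀ x, σ (σ x) = x)
    (hfix : ∀ x, σ x = x → x = 1) : ∀ x, σ x = x⁻¹ := by
  let φ : Q → Q := fun x => x⁻¹ * σ x
  have hinj : Function.Injective φ := by
    intro a b hab
    have h1 : a⁻¹ * σ a = b⁻¹ * σ b := hab
    have h2 : σ (b * a⁻¹) = b * a⁻¹ := by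
      rw [map_mul, map_inv]
      have : b * a⁻¹ * σ a = σ b := by
        rw [mul_assoc, h1, ← mul_assoc, mul_inv_cancel, one_mul]
      rw [← this]; group
    have := hfix _ h2
    exact (mul_inv_eq_one.1 this).symm
  have hsurj := Finite.surjective_of_injective hinj
  intro x
  obtain ⟨z, rfl⟩ := hsurj x
  show σ (z⁻¹ * σ z) = (z⁻¹ * σ z)⁻¹
  rw [map_mul, map_inv, hσ]; group

theorem comm_of_fpf {Q : Type*} [Group Q] [Finite Q] (σ : Q →* Q) (hσ : ∀ x, σ (σ x) = x)
    (hfix : ∀ x, σ x = x → x = 1) (a b : Q) : a * b = b * a := by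
  have h := fpf_invol σ hσ hfix
  have h1 : σ (a⁻¹ * b⁻¹) = (a⁻¹ * b⁻¹)⁻¹ := h _
  rw [map_mul, h, h, inv_inv, inv_inv, mul_inv_rev, inv_inv, inv_inv] at h1
  exact h1

theorem odd_of_fpf {Q : Type*} [Group Q] [Finite Q] (σ : Q →* Q) (hσ : ∀ x, σ (σ x) = x)
    (hfix : ∀ x, σ x = x → x = 1) : ¬ 2 ∣ Nat.card Q := by
  intro hd
  obtain ⟨g, hg⟩ := exists_prime_orderOf_dvd_card' (G := Q) 2 hd
  have h2 : g ^ 2 = 1 := by rw [← hg]; exact pow_orderOf_eq_one g
  have h3 : g⁻¹ = g := by
    have : g * g = 1 := by rw [← pow_two]; exact h2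
    exact inv_eq_of_mul_eq_one_left this
  have h4 : g = 1 := hfix g (by rw [fpf_invol σ hσ hfix, h3])
  rw [h4, orderOf_one] at hg
  omega

/-- Let U be a subgroup of a finite group H and w an involution of H normalizing U and commuting with exactly two elements of U, the identity and y. If V is a non-cyclic elementary abelian 2-subgroup of U containing y which is normal in U and invariant under w, then V is a Sylow 2-subgroup of U, V has order 4, and U/V is abelian. -/
theorem result {H : Type*} [Group H] [Finite H] (U : Subgroup H) (w : H) (hw : orderOf w = 2)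
    (hwU : w ∈ Subgroup.normalizer (U : Set H)) (y : H) (hy : y ≠ 1) (hyU : y ∈ U)
    (hfix : ∀ u ∈ U, w * u * w⁻¹ = u ↔ (u = 1 ∨ u = y))
    (V : Subgroup H) (hVU : V ≤ U) (hVn : (V.subgroupOf U).Normal) (hVw : ∀ v ∈ V, w * v * w⁻¹ ∈ V)
    (hVe : Cfsg.IsElementaryAbelian 2 V) (hVc : ¬ IsCyclic ↥V) (hyV : y ∈ V) :
    ¬ 2 ∣ V.relIndex U ∧ Nat.card ↥V = 4 ∧ ⁅U, U⁆ ≤ V := by
  classical
  have hcV : ∀ a ∈ V, ∀ b ∈ V, a * b = b * a := by
    intro a ha b hb
    have := (hVe.1.is_comm.comm (⟨a, ha⟩ : V) ⟨b, hb⟩)
    exact congrArg Subtype.val this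
  have h2V : ∀ a ∈ V, a * a = 1 := by
    intro a ha
    rw [← pow_two]; exact hVe.2 a ha
  have hinvV : ∀ a ∈ V, a⁻¹ = a := fun a ha => inv_eq_of_mul_eq_one_left (h2V a ha)
  have hww : w⁻¹ = w := by
    apply inv_eq_of_mul_eq_one_left
    rw [← pow_two, ← hw]; exact pow_orderOf_eq_one w
  let σ : H → H := fun u => w * u * w⁻¹
  have hσdef : ∀ u, σ u = w * u * w⁻¹ := fun _ => rfl
  have hσσ : ∀ u, σ (σ u) = u := by
    intro u
    simp only [hσdef, hww]
    have hw2 : w * w = 1 := by
      have := hww
      rw [inv_eq_iff_mul_eq_one] at this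
      exact this
    calc w * (w * u * w) * w = (w * w) * u * (w * w) := by group
      _ = u := by rw [hw2]; group
  have hσmul : ∀ a b, σ (a * b) = σ a * σ b := by
    intro a b
    simp only [hσdef]
    group
  have hσinv : ∀ a, σ a⁻¹ = (σ a)⁻¹ := by
    intro a
    simp only [hσdef]
    group
  have hσU : ∀ u ∈ U, σ u ∈ U := fun u hu => (Subgroup.mem_normalizer_iff.1 hwU u).1 hu
  have hfixV : ∀ v ∈ V, σ v = v → v = 1 ∨ v = y := fun v hv h => (hfix v (hVU hv)).1 h
  have hyfix : σ y = y := (hfix y hyU).2 (Or.inr rfl)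
  -- an element of V outside {1, y}
  have hexa : ∃ a ∈ V, a ≠ 1 ∧ a ≠ y := by
    by_contra hcon
    push Not at hcon
    apply hVc
    refine ⟨⟨⟨y, hyV⟩, ?_⟩⟩
    intro x
    by_cases hx1 : (x : H) = 1
    · exact ⟨0, by apply Subtype.ext; simp [hx1]⟩
    · have := hcon x x.2 hx1
      exact ⟨1, by apply Subtype.ext; simp [this]⟩
  obtain ⟨a, haV, ha1, hay⟩ := hexa
  -- general facts: elements of V outside {1,y} are multiplied by y
  have hmoved : ∀ c ∈ V, c ≠ 1 → c ≠ y → σ c = c * y := by
    intro c hcV' hc1 hcy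
    have hb : c * σ c ∈ V := V.mul_mem hcV' (hVw c hcV')
    have hfb : σ (c * σ c) = c * σ c := by
      rw [hσmul, hσσ]; exact hcV _ (hVw c hcV') _ hcV'
    rcases hfixV _ hb hfb with h | h
    · exfalso
      have h1 : σ c = c⁻¹ := eq_inv_of_mul_eq_one_right h
      rw [hinvV c hcV'] at h1
      rcases hfixV c hcV' h1 with h2 | h2
      · exact hc1 h2
      · exact hcy h2
    · have h1 : c * c = 1 := h2V c hcV'
      calc σ c = (c * c) * σ c := by rw [h1, one_mul]
        _ = c * (c * σ c) := by group
        _ = c * y := by rw [h]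
  have hσa : σ a = a * y := hmoved a haV ha1 hay
  have hcard : Nat.card ↥V = 4 := by
    have hmem : ∀ c ∈ V, c = 1 ∨ c = y ∨ c = a ∨ c = a * y := by
      intro c hcV'
      by_cases hc1 : c = 1
      · exact Or.inl hc1
      by_cases hcy : c = y
      · exact Or.inr (Or.inl hcy)
      have hσc := hmoved c hcV' hc1 hcy
      have hfix2 : σ (c * a) = c * a := by
        rw [hσmul, hσc, hσa]
        calc c * y * (a * y) = c * a * (y * y) := by
              have : y * a = a * y := hcV _ hyV _ haV
              calc c * y * (a * y) = c * (y * a) * y := by group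
                _ = c * (a * y) * y := by rw [this]
                _ = c * a * (y * y) := by group
          _ = c * a := by rw [h2V y hyV, mul_one]
      rcases hfixV _ (V.mul_mem hcV' haV) hfix2 with h | h
      · right; right; left
        have := eq_inv_of_mul_eq_one_left h
        rwa [hinvV a haV] at this
      · right; right; right
        have h3 : c = y * a⁻¹ := by rw [← h]; group
        rw [hinvV a haV] at h3
        rw [h3]
        exact hcV _ hyV _ haV
    have hVset : (V : Set H) = (({1, y, a, a * y} : Finset H) : Set H) := by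
      ext c
      simp only [SetLike.mem_coe, Finset.coe_insert, Finset.coe_singleton, Set.mem_insert_iff,
        Set.mem_singleton_iff]
      constructor
      · exact hmem c
      · rintro (rfl | rfl | rfl | rfl)
        · exact V.one_mem
        · exact hyV
        · exact haV
        · exact V.mul_mem haV hyV
    have hcardF : ({1, y, a, a * y} : Finset H).card = 4 := by
      have h1 : (1 : H) ≠ y := fun h => hy h.symm
      have h2 : (1 : H) ≠ a := fun h => ha1 h.symm
      have h3 : (1 : H) ≠ a * y := by
        intro h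
        have : y = a⁻¹ := by
          exact eq_inv_of_mul_eq_one_right h.symm
        rw [hinvV a haV] at this
        exact hay this.symm
      have h4 : y ≠ a := fun h => hay h.symm
      have h5 : y ≠ a * y := by
        intro h
        have : a = 1 := by
          have h6 := congrArg (fun z => z * y⁻¹) h
          simp only [mul_inv_cancel, mul_assoc, mul_one] at h6
          exact h6.symm
        exact ha1 this
      have h6 : a ≠ a * y := by
        intro h
        apply hy
        have := congrArg (fun z => a⁻¹ * z) h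
        simp only [inv_mul_cancel, inv_mul_cancel_left] at this
        exact this.symm
      rw [Finset.card_insert_of_notMem, Finset.card_insert_of_notMem, Finset.card_insert_of_notMem,
        Finset.card_singleton]
      · simp [h6]
      · simp [h4, h5]
      · simp [h1, h2, h3]
    have : Nat.card ↥V = ({1, y, a, a * y} : Finset H).card := by
      have h1 : Nat.card ↥V = Set.ncard (V : Set H) := Nat.card_coe_set_eq _
      rw [h1, hVset, Set.ncard_coe_finset]
    rw [this, hcardF]
  -- key lemma
  have hkey : ∀ u ∈ U, u⁻¹ * σ u ∈ V → u ∈ V := by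
    intro u huU hv
    set v := u⁻¹ * σ u with hvdef
    have hσv : σ v = v := by
      have h1 : σ v = (σ u)⁻¹ * u := by rw [hvdef, hσmul, hσinv, hσσ]
      have h2 : v⁻¹ = (σ u)⁻¹ * u := by rw [hvdef]; group
      rw [h1, ← h2, hinvV v hv]
    have hσu : σ u = u * v := by rw [hvdef]; group
    rcases hfixV v hv hσv with h | h
    · have : σ u = u := by rw [hσu, h, mul_one]
      rcases (hfix u huU).1 this with h' | h'
      · rw [h']; exact V.one_mem
      · rw [h']; exact hyV
    · have h1 : σ (u * a) = u * a := by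
        rw [hσmul, hσu, h, hσa]
        have : y * a = a * y := hcV _ hyV _ haV
        calc u * y * (a * y) = u * (y * a) * y := by group
          _ = u * (a * y) * y := by rw [this]
          _ = u * a * (y * y) := by group
          _ = u * a := by rw [h2V y hyV, mul_one]
      have hua : u * a ∈ V := by
        rcases (hfix (u * a) (U.mul_mem huU (hVU haV))).1 h1 with h' | h'
        · rw [h']; exact V.one_mem
        · rw [h']; exact hyV
      have : u = (u * a) * a⁻¹ := by group
      rw [this]
      exact V.mul_mem hua (V.inv_mem haV)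
  -- the induced automorphism of U/V
  let f : U →* U :=
    { toFun := fun u => ⟨σ u, hσU u u.2⟩
      map_one' := by
        apply Subtype.ext
        simp [hσdef]
      map_mul' := by
        intro a b
        apply Subtype.ext
        exact hσmul a b }
  have hfval : ∀ u : U, ((f u : U) : H) = σ u := fun _ => rfl
  have hfle : V.subgroupOf U ≤ (V.subgroupOf U).comap f := by
    intro u hu
    rw [Subgroup.mem_comap, Subgroup.mem_subgroupOf, hfval]
    exact hVw u (Subgroup.mem_subgroupOf.1 hu)
  let F : (U ⧸ V.subgroupOf U) →* (U ⧸ V.subgroupOf U) :=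
    QuotientGroup.map (V.subgroupOf U) (V.subgroupOf U) f hfle
  have hFF : ∀ x, F (F x) = x := by
    intro x
    induction x using QuotientGroup.induction_on with | _ u => ?_
    show ((f (f u) : U) : U ⧸ V.subgroupOf U) = _
    congr 1
    apply Subtype.ext
    rw [hfval, hfval, hσσ]
  have hFfix : ∀ x, F x = x → x = 1 := by
    intro x
    induction x using QuotientGroup.induction_on with | _ u => ?_
    intro hu
    have h1 : ((f u : U) : U ⧸ V.subgroupOf U) = (u : U ⧸ V.subgroupOf U) := hu
    rw [eq_comm, QuotientGroup.eq, Subgroup.mem_subgroupOf] at h1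
    have h2 : (u : H) ∈ V := by
      apply hkey u u.2
      simpa [hfval] using h1
    exact (QuotientGroup.eq_one_iff u).2 (Subgroup.mem_subgroupOf.2 h2)
  refine ⟨?_, hcard, ?_⟩
  · exact odd_of_fpf F hFF hFfix
  · rw [Subgroup.commutator_le]
    intro p hp q hq
    have hc := comm_of_fpf F hFF hFfix ((⟨p, hp⟩ : U) : U ⧸ V.subgroupOf U) ((⟨q, hq⟩ : U) : U ⧸ V.subgroupOf U)
    have h1 : (⟨p, hp⟩ * ⟨q, hq⟩ : U) * (⟨p, hp⟩⁻¹ * ⟨q, hq⟩⁻¹ : U) ∈ V.subgroupOf U := by
      rw [← QuotientGroup.eq_one_iff]
      rw [QuotientGroup.mk_mul, QuotientGroup.mk_mul, QuotientGroup.mk_mul, QuotientGroup.mk_inv,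
        QuotientGroup.mk_inv, hc]
      group
    rw [Subgroup.mem_subgroupOf] at h1
    have h2 : (⁅p, q⁆ : H) = p * q * (p⁻¹ * q⁻¹) := by
      rw [commutatorElement_def]; group
    rw [h2]
    simpa using h1

end Cfsg.Agent.S3825
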