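import Mathlib
import Cfsg.Prelude.Def_LocalEven
import Cfsg.Agent.Lib.InvolvesAPI
import Cfsg.Agent.Lib.QdFacts
import Cfsg.Agent.Lib.QdSection
import Cfsg.Agent.Lib.QdNotStable
import Cfsg.Agent.Lib.ClassicalSL

set_option autoImplicit false
open Cfsg

namespace Cfsg.Agent.S3835

open Cfsg.Agent.Lib.QdSection Cfsg.Agent.Lib.QdFacts Cfsg.Agent.Lib.QdNotStable

variable {p : ℕ} [hp : Fact p.Prime]

/-- `p`-subgroups of a symmetric group of degree `< p²` are abelian. -/
theorem pgroup_comm {α : Type*} [Finite α] (hn : Nat.card α < p ^ 2)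
    (P : Subgroup (Equiv.Perm α)) (hP : IsPGroup p P) (a b : P) : a * b = b * a := by
  classical
  apply Subtype.ext
  ext x
  obtain ⟨n, hn'⟩ := hP.card_orbit x
  have hcard : Nat.card (MulAction.orbit P x) ≤ Nat.card α :=
    Nat.card_le_card_of_injective _ Subtype.val_injective
  have hn1 : n ≤ 1 := by
    rw [hn'] at hcard
    have h1 : p ^ n < p ^ 2 := lt_of_le_of_lt hcard hn
    have h2 := (Nat.pow_lt_pow_iff_right hp.out.one_lt).1 h1
    omega
  have hop : Nat.card (MulAction.orbit P x) ≤ p := by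
    rw [hn']
    calc p ^ n ≤ p ^ 1 := Nat.pow_le_pow_right hp.out.pos hn1
      _ = p := pow_one p
  set f := MulAction.toPermHom P (MulAction.orbit P x) with hf
  have hR : IsPGroup p f.range := hP.of_surjective f.rangeRestrict f.rangeRestrict_surjective
  obtain ⟨k, hk⟩ := IsPGroup.iff_card.1 hR
  have hd : Nat.card f.range ∣ Nat.factorial p := by
    have h1 : Nat.card f.range ∣ Nat.card (Equiv.Perm (MulAction.orbit P x)) :=
      Subgroup.card_subgroup_dvd_card _
    rw [Nat.card_perm] at h1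
    exact h1.trans (Nat.factorial_dvd_factorial hop)
  have hk1 : k ≤ 1 := by
    by_contra hk2
    have h2 : p ^ 2 ∣ Nat.factorial p := by
      apply Dvd.dvd.trans _ hd
      rw [hk]
      exact pow_dvd_pow p (by omega)
    rw [← Nat.mul_factorial_pred hp.out.pos.ne', sq] at h2
    have h3 : p ∣ Nat.factorial (p - 1) := Nat.dvd_of_mul_dvd_mul_left hp.out.pos h2
    have h4 := (Nat.Prime.dvd_factorial hp.out).1 h3
    have := hp.out.pos
    omega
  have hcyc : IsCyclic f.range := by
    apply isCyclic_of_card_dvd_prime (p := p)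
    rw [hk]
    calc p ^ k ∣ p ^ 1 := pow_dvd_pow p hk1
      _ = p := pow_one p
  have hcomm := (IsCyclic.isMulCommutative (α := f.range)).is_comm.comm
    ⟨f a, a, rfl⟩ ⟨f b, b, rfl⟩
  have h1 : f a * f b = f b * f a := congrArg Subtype.val hcomm
  have h2 := congrArg (fun g : Equiv.Perm (MulAction.orbit P x) =>
    ((g ⟨x, MulAction.mem_orbit_self x⟩ : MulAction.orbit P x) : α)) h1
  exact h2

theorem units_eq_one_of_odd_pow {n : ℕ} (hn : Odd n) (u : ℤˣ) (h : u ^ n = 1) : u = 1 := by
  rcases Int.units_eq_one_or u with rfl | rfl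
  · rfl
  · rw [hn.neg_one_pow] at h
    exact absurd h (by decide)

theorem transvection_pow_p {i j : Fin 2} (hij : i ≠ j) (c : ZMod p) :
    (Matrix.SpecialLinearGroup.transvection hij c) ^ p = 1 := by
  have key : ∀ n : ℕ, (Matrix.SpecialLinearGroup.transvection hij c) ^ n =
      Matrix.SpecialLinearGroup.transvection hij ((n : ZMod p) * c) := by
    intro n
    induction n with
    | zero =>
      simp
    | succ n ih =>
      rw [pow_succ, ih]
      apply Subtype.ext
      show Matrix.transvection i j ((n : ZMod p) * c) * Matrix.transvection i j c =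
        Matrix.transvection i j (((n + 1 : ℕ) : ZMod p) * c)
      rw [Matrix.transvection_mul_transvection_same _ _ hij]
      congr 1
      push_cast
      ring
  rw [key]
  simp

/-- Every homomorphism from `Qd(p)` to `±1` is trivial, `p` odd. -/
theorem hom_trivial (hp2 : p ≠ 2) (σ : ↥(Cfsg.qd p) →* ℤˣ) (M : ↥(Cfsg.qd p)) : σ M = 1 := by
  have hodd : Odd p := hp.out.odd_of_ne_two hp2
  obtain ⟨A, v, rfl⟩ := aff_surj M
  have h1 : aff A v = aff 1 v * aff A 0 := by
    rw [aff_mul]
    simp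
  rw [h1, map_mul]
  have h2 : σ (aff 1 v) = 1 := by
    obtain ⟨k, hk⟩ := T_isPGroup ⟨aff 1 v, aff_mem_T v⟩
    have h3 : (aff (1 : SL2 p) v) ^ p ^ k = 1 := congrArg Subtype.val hk
    have h4 : (σ (aff 1 v)) ^ p ^ k = 1 := by rw [← map_pow, h3, map_one]
    exact units_eq_one_of_odd_pow hodd.pow _ h4
  have h3 : ∀ A : SL2 p, σ (aff A 0) = 1 := by
    let τ : SL2 p →* ℤˣ := σ.comp (MonoidHom.mk' (fun A => aff A 0) (fun A B => aff_zero_mul A B))
    have hτ : τ.ker = ⊤ := by
      rw [eq_top_iff, ← Cfsg.Agent.Lib.ClassicalSL.closure_transvection_eq_top (F := ZMod p)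
        (ι := Fin 2), Subgroup.closure_le]
      rintro _ ⟨i, j, h, c, rfl⟩
      apply units_eq_one_of_odd_pow hodd
      show (σ (aff (Matrix.SpecialLinearGroup.transvection h c) 0)) ^ p = 1
      rw [← map_pow, aff_pow, transvection_pow_p, aff_one_zero, map_one]
    intro A
    have h4 : A ∈ τ.ker := by
      rw [hτ]
      trivial
    exact h4
  rw [h2, h3, one_mul]

/-- The affine action on `F_p²`. -/
def act (M : ↥(Cfsg.qd p)) (v : Fin 2 → ZMod p) : Fin 2 → ZMod p :=
  ![M.1.1 0 0 * v 0 + M.1.1 0 1 * v 1 + M.1.1 0 2, M.1.1 1 0 * v 0 + M.1.1 1 1 * v 1 + M.1.1 1 2]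

theorem mul_entry (M N : ↥(Cfsg.qd p)) (i j : Fin 3) :
    (M * N).1.1 i j = M.1.1 i 0 * N.1.1 0 j + M.1.1 i 1 * N.1.1 1 j + M.1.1 i 2 * N.1.1 2 j := by
  simp [Matrix.mul_apply, Fin.sum_univ_three]

theorem act_one (v : Fin 2 → ZMod p) : act (1 : ↥(Cfsg.qd p)) v = v := by
  ext i
  fin_cases i <;> simp [act]

theorem act_mul (M N : ↥(Cfsg.qd p)) (v : Fin 2 → ZMod p) : act (M * N) v = act M (act N v) := by
  obtain ⟨h0, h1, h2⟩ := lastRow N.1 N.2
  ext i
  fin_cases i
  · simp only [act, mul_entry]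
    simp [h0, h1, h2]
    ring
  · simp only [act, mul_entry]
    simp [h0, h1, h2]
    ring

/-- The affine permutation representation. -/
def phi : ↥(Cfsg.qd p) →* Equiv.Perm (Fin 2 → ZMod p) :=
  MonoidHom.mk' (fun M =>
    { toFun := act M
      invFun := act M⁻¹
      left_inv := fun v => by rw [← act_mul, inv_mul_cancel, act_one]
      right_inv := fun v => by rw [← act_mul, mul_inv_cancel, act_one] })
    (fun M N => by
      ext v i
      show act (M * N) v i = act M (act N v) i
      rw [act_mul])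

theorem phi_apply (M : ↥(Cfsg.qd p)) (v : Fin 2 → ZMod p) : phi M v = act M v := rfl

theorem phi_injective : Function.Injective (phi (p := p)) := by
  rw [injective_iff_map_eq_one]
  intro M hM
  have h : ∀ v, act M v = v := fun v => by
    rw [← phi_apply, hM]
    rfl
  have a0 := congrFun (h ![0, 0]) 0
  have a1 := congrFun (h ![0, 0]) 1
  have b0 := congrFun (h ![1, 0]) 0
  have b1 := congrFun (h ![1, 0]) 1
  have c0 := congrFun (h ![0, 1]) 0
  have c1 := congrFun (h ![0, 1]) 1
  simp [act] at a0 a1 b0 b1 c0 c1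
  obtain ⟨h0, h1, h2⟩ := lastRow M.1 M.2
  apply Subtype.ext
  apply Subtype.ext
  ext i j
  fin_cases i <;> fin_cases j <;> simp_all

/-- The main embedding. -/
theorem exists_embedding (hp2 : p ≠ 2) {n : ℕ} (hn : p ^ 2 ≤ n) :
    ∃ H : Subgroup (alternatingGroup (Fin n)), Nonempty (↥H ≃* ↥(Cfsg.qd p)) := by
  classical
  have hcard : Fintype.card (Fin 2 → ZMod p) ≤ Fintype.card (Fin n) := by
    simp [ZMod.card]
    exact hn
  obtain ⟨ι⟩ := Function.Embedding.nonempty_of_card_le hcard
  let f : ↥(Cfsg.qd p) →* Equiv.Perm (Fin n) := (Equiv.Perm.viaEmbeddingHom ι).comp phi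
  have hf : Function.Injective f :=
    (Equiv.Perm.viaEmbeddingHom_injective ι).comp phi_injective
  have hev : ∀ M, f M ∈ alternatingGroup (Fin n) := by
    intro M
    rw [Equiv.Perm.mem_alternatingGroup]
    exact hom_trivial hp2 (Equiv.Perm.sign.comp f) M
  let f' : ↥(Cfsg.qd p) →* alternatingGroup (Fin n) := f.codRestrict _ hev
  have hf' : Function.Injective f' := fun a b hab => hf (congrArg Subtype.val hab)
  exact ⟨f'.range, ⟨(MonoidHom.ofInjective hf').symm⟩⟩

/-- `Qd(p)` is not involved in `A_n`, `n < p²`. -/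
theorem not_involves (hp2 : p ≠ 2) {n : ℕ} (hn : n < p ^ 2) :
    ¬ Cfsg.Involves ↥(Cfsg.qd p) ↥(alternatingGroup (Fin n)) := by
  classical
  intro h
  obtain ⟨K, f, hf⟩ := Cfsg.Agent.Lib.InvolvesAPI.exists_surj_of_involves h
  -- the nonabelian `p`-subgroup
  set x : ↥(Cfsg.qd p) := aff (Cfsg.Agent.Lib.QdPair.uu p) 0 with hx
  set y : ↥(Cfsg.qd p) := aff 1 ![0, 1] with hy
  have hxp : x ^ p = 1 := by
    rw [hx, aff_pow, Cfsg.Agent.Lib.QdPair.uu_p, aff_one_zero]
  have hxz : IsPGroup p (Subgroup.zpowers x) := by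
    rw [IsPGroup.iff_card, Nat.card_zpowers]
    obtain ⟨j, -, hj⟩ := (Nat.dvd_prime_pow hp.out).1 (orderOf_dvd_of_pow_eq_one (by
      rw [pow_one]; exact hxp) : orderOf x ∣ p ^ 1)
    exact ⟨j, hj⟩
  set W : Subgroup ↥(Cfsg.qd p) := T ⊔ Subgroup.zpowers x with hW
  have hWp : IsPGroup p W := T_isPGroup.to_sup_of_normal_left hxz
  have hxW : x ∈ W := Subgroup.mem_sup_right (Subgroup.mem_zpowers x)
  have hyW : y ∈ W := Subgroup.mem_sup_left (aff_mem_T _)
  have hne : x * y ≠ y * x := by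
    intro he
    rw [hx, hy, aff_mul, aff_mul] at he
    have h1 := congrArg (fun M : ↥(Cfsg.qd p) => M.1.1 0 2) he
    simp [aff_coe, Cfsg.Agent.Lib.QdPair.uu_coe, Matrix.mulVec, dotProduct] at h1
  -- the Sylow subgroup of the preimage
  set W' : Subgroup K := W.comap f with hW'
  let f' : ↥W' →* ↥W := f.subgroupComap W
  have hf' : Function.Surjective f' := f.subgroupComap_surjective_of_surjective W hf
  obtain ⟨P⟩ : Nonempty (Sylow p ↥W') := inferInstance
  have hPtop : (P : Subgroup ↥W').map f' = ⊤ := by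
    rw [← Subgroup.index_eq_one]
    have h1 : ((P : Subgroup ↥W').map f').index ∣ (P : Subgroup ↥W').index :=
      Subgroup.index_map_dvd _ hf'
    have h2 : ((P : Subgroup ↥W').map f').index ∣ Nat.card W := Subgroup.index_dvd_card _
    obtain ⟨m, hm⟩ := IsPGroup.iff_card.1 hWp
    rw [hm] at h2
    obtain ⟨k, -, hk⟩ := (Nat.dvd_prime_pow hp.out).1 h2
    rcases Nat.eq_zero_or_pos k with rfl | hk0
    · simpa using hk
    · exfalso
      apply P.not_dvd_index
      apply Dvd.dvd.trans _ h1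
      rw [hk]
      exact dvd_pow_self p hk0.ne'
  have hlift : ∀ (w : ↥(Cfsg.qd p)) (hw : w ∈ W), ∃ z ∈ (P : Subgroup ↥W'), f' z = ⟨w, hw⟩ := by
    intro w hw
    have h1 : (⟨w, hw⟩ : W) ∈ (P : Subgroup ↥W').map f' := by
      rw [hPtop]
      trivial
    obtain ⟨z, hz, hzw⟩ := h1
    exact ⟨z, hz, hzw⟩
  obtain ⟨a, haP, ha⟩ := hlift x hxW
  obtain ⟨b, hbP, hb⟩ := hlift y hyW
  -- into the symmetric group
  let g : ↥W' →* Equiv.Perm (Fin n) :=
    (alternatingGroup (Fin n)).subtype.comp (K.subtype.comp W'.subtype)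
  have hg : Function.Injective g :=
    (alternatingGroup (Fin n)).subtype_injective.comp
      (K.subtype_injective.comp W'.subtype_injective)
  have hPg : IsPGroup p ((P : Subgroup ↥W').map g) := P.isPGroup'.map g
  have hcomm := pgroup_comm (by simpa using hn) _ hPg ⟨g a, a, haP, rfl⟩ ⟨g b, b, hbP, rfl⟩
  have h1 : g a * g b = g b * g a := congrArg Subtype.val hcomm
  have h2 : a * b = b * a := by
    apply hg
    rw [map_mul, map_mul]
    exact h1
  have h3 := congrArg f' h2
  rw [map_mul, map_mul, ha, hb] at h3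
  exact hne (congrArg Subtype.val h3)

/-- Let p be an odd prime and n a natural number. The alternating group of degree n has a subgroup isomorphic to Qd(p) (the natural semidirect product of an elementary abelian group of order p² by SL₂(p)) if and only if n ≥ p²; and if n < p² then Qd(p) is not even involved in it. -/
theorem result {p : ℕ} [Fact p.Prime] (hp : p ≠ 2) (n : ℕ) : ((∃ H : Subgroup (alternatingGroup (Fin n)), Nonempty (↥H ≃* ↥(Cfsg.qd p))) ↔ p ^ 2 ≤ n) ∧ (n < p ^ 2 → ¬ Cfsg.Involves ↥(Cfsg.qd p) ↥(alternatingGroup (Fin n))) := by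
  refine ⟨⟨?_, exists_embedding hp⟩, not_involves hp⟩
  rintro ⟨H, ⟨e⟩⟩
  by_contra hn
  apply not_involves hp (not_le.1 hn)
  exact Cfsg.Agent.Lib.InvolvesAPI.involves_of_surj H e.toMonoidHom e.surjective

end Cfsg.Agent.S3835
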