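import Mathlib
import Cfsg.Prelude.Def_Transfer
import Cfsg.Agent.Lib.Tate
import Cfsg.Agent.Lib.PComplement

set_option autoImplicit false
open Cfsg

namespace Cfsg.Agent.S3838

open Subgroup
open scoped commutatorElement

/-- Let G be a finite group with Sylow p-subgroup P such that N_G(P) has a normal p-complement. Then N_G(Q) has a normal p-complement for every subgroup Q with [P, P] ≤ Q ≤ Φ(P). -/
theorem result {G : Type*} [Group G] [Finite G] {p : ℕ} [Fact p.Prime] (P : Sylow p G) (hN : Cfsg.HasNormalPComplement p ↥(Subgroup.normalizer ((P : Subgroup G) : Set G))) (Q : Subgroup G) (h1 : (commutator ↥(P : Subgroup G)).map (P : Subgroup G).subtype ≤ Q) (h2 : Q ≤ (frattini ↥(P : Subgroup G)).map (P : Subgroup G).subtype) : Cfsg.HasNormalPComplement p ↥(Subgroup.normalizer (Q : Set G)) := by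
  classical
  have hpp : p.Prime := Fact.out
  have hQP : Q ≤ (P : Subgroup G) := h2.trans (Subgroup.map_subtype_le _)
  -- commutators of `P` lie in `Q`
  have hcomm : ∀ x ∈ (P : Subgroup G), ∀ y ∈ (P : Subgroup G), x * y * x⁻¹ * y⁻¹ ∈ Q := by
    intro x hx y hy
    apply h1
    refine ⟨⁅(⟨x, hx⟩ : ↥(P : Subgroup G)), (⟨y, hy⟩ : ↥(P : Subgroup G))⁆, ?_, rfl⟩
    exact Subgroup.commutator_mem_commutator (Subgroup.mem_top _) (Subgroup.mem_top _)
  -- `P` normalizes `Q`
  have hPN : (P : Subgroup G) ≤ normalizer (Q : Set G) := by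
    intro x hx
    rw [Subgroup.mem_set_normalizer_iff]
    intro n
    constructor
    · intro hn
      have h3 := hcomm x hx n (hQP hn)
      have h4 : x * n * x⁻¹ = (x * n * x⁻¹ * n⁻¹) * n := by group
      rw [h4]
      exact mul_mem h3 hn
    · intro hn
      have h3 : n ∈ (P : Subgroup G) := by
        have h4 : n = x⁻¹ * (x * n * x⁻¹) * x := by group
        rw [h4]
        exact mul_mem (mul_mem (inv_mem hx) (hQP hn)) hx
      have h4 := hcomm x hx n h3
      have h5 : n = (x * n * x⁻¹ * n⁻¹)⁻¹ * (x * n * x⁻¹) := by group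
      rw [h5]
      exact mul_mem (inv_mem h4) hn
  set H := ↥(normalizer (Q : Set G)) with hH
  let Q₁ : Subgroup H := Q.subgroupOf (normalizer (Q : Set G))
  have hQ₁n : Q₁.Normal := by
    constructor
    intro n hn g
    rw [Subgroup.mem_subgroupOf] at hn ⊢
    exact (Subgroup.mem_set_normalizer_iff.1 g.2 n).1 hn
  let P₁ : Sylow p H := P.subtype hPN
  have hP₁ : (P₁ : Subgroup H) = (P : Subgroup G).subgroupOf (normalizer (Q : Set G)) := rfl
  have hmemP₁ : ∀ x : H, x ∈ (P₁ : Subgroup H) ↔ (x : G) ∈ (P : Subgroup G) := by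
    intro x
    rw [hP₁, Subgroup.mem_subgroupOf]
  let π : H →* H ⧸ Q₁ := QuotientGroup.mk' Q₁
  have hπ : Function.Surjective π := QuotientGroup.mk'_surjective Q₁
  let Pb : Sylow p (H ⧸ Q₁) := P₁.mapSurjective hπ
  have hPb : (Pb : Subgroup (H ⧸ Q₁)) = (P₁ : Subgroup H).map π := Sylow.coe_mapSurjective hπ P₁
  have hQ₁P₁ : Q₁ ≤ (P₁ : Subgroup H) := by
    intro x hx
    rw [hmemP₁]
    exact hQP hx
  -- elements with image in `Pb` lie in `P`
  have hlift : ∀ x : H, π x ∈ (Pb : Subgroup (H ⧸ Q₁)) → x ∈ (P₁ : Subgroup H) := by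
    intro x hx
    rw [hPb] at hx
    obtain ⟨y, hy, hyx⟩ := hx
    have h3 : y⁻¹ * x ∈ Q₁ := QuotientGroup.eq.1 hyx
    have h4 : x = y * (y⁻¹ * x) := (mul_inv_cancel_left y x).symm
    rw [h4]
    exact mul_mem hy (hQ₁P₁ h3)
  -- Burnside's hypothesis
  have hNC : normalizer ((Pb : Subgroup (H ⧸ Q₁)) : Set (H ⧸ Q₁)) ≤ centralizer ((Pb : Subgroup (H ⧸ Q₁)) : Set (H ⧸ Q₁)) := by
    intro nb hnb
    obtain ⟨n, rfl⟩ := hπ nb
    -- `n` normalizes `P`
    have hnP : (n : G) ∈ normalizer ((P : Subgroup G) : Set G) := by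
      have h3 : ∀ x ∈ (P : Subgroup G), (n : G) * x * (n : G)⁻¹ ∈ (P : Subgroup G) := by
        intro x hx
        have hxH : x ∈ normalizer (Q : Set G) := hPN hx
        have h4 : π ⟨x, hxH⟩ ∈ (Pb : Subgroup (H ⧸ Q₁)) := by
          rw [hPb]
          exact ⟨⟨x, hxH⟩, (hmemP₁ _).2 hx, rfl⟩
        have h5 := (Subgroup.mem_set_normalizer_iff.1 hnb _).1 h4
        have h6 : π n * π ⟨x, hxH⟩ * (π n)⁻¹ = π (n * ⟨x, hxH⟩ * n⁻¹) := by
          rw [map_mul, map_mul, map_inv]
        rw [h6] at h5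
        exact (hmemP₁ _).1 (hlift _ h5)
      rw [Subgroup.mem_set_normalizer_iff]
      intro x
      constructor
      · exact h3 x
      · intro hx
        have h4 : Function.Injective (fun y : ↥(P : Subgroup G) =>
            (⟨(n : G) * y * (n : G)⁻¹, h3 y y.2⟩ : ↥(P : Subgroup G))) := by
          intro a b hab
          apply Subtype.ext
          have := congrArg Subtype.val hab
          simpa using this
        have h5 := Finite.surjective_of_injective h4
        obtain ⟨y, hy⟩ := h5 ⟨_, hx⟩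
        have h6 := congrArg Subtype.val hy
        have h7 : (n : G) * y * (n : G)⁻¹ = (n : G) * x * (n : G)⁻¹ := h6
        have h8 : (y : G) = x := by simpa using h7
        rw [← h8]
        exact y.2
    -- decompose `n`
    obtain ⟨a, b, hab, ha, hb, ⟨k, hk⟩, hbc⟩ := Cfsg.Agent.Lib.PComplement.exists_decomp p (n : G)
    have haN : a ∈ normalizer ((P : Subgroup G) : Set G) := by
      rw [Subgroup.mem_zpowers_iff] at ha
      obtain ⟨t, rfl⟩ := ha
      exact zpow_mem hnP t
    have hbN : b ∈ normalizer ((P : Subgroup G) : Set G) := by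
      rw [Subgroup.mem_zpowers_iff] at hb
      obtain ⟨t, rfl⟩ := hb
      exact zpow_mem hnP t
    have haP : a ∈ (P : Subgroup G) := by
      have h3 : IsPGroup p (zpowers a) := by
        rw [IsPGroup.iff_card, Nat.card_zpowers]
        obtain ⟨i, -, hi⟩ := (Nat.dvd_prime_pow hpp).1 (orderOf_dvd_of_pow_eq_one hk)
        exact ⟨i, hi⟩
      have h4 := h3.inf_normalizer_sylow P
      have h5 : a ∈ zpowers a ⊓ normalizer ((P : Subgroup G) : Set G) := ⟨mem_zpowers a, haN⟩
      exact (h4.le h5).2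
    -- `b` centralizes `P`
    have hbC : ∀ t ∈ (P : Subgroup G), t * b = b * t := by
      have h3 := (Cfsg.Agent.Lib.PComplement.hasNormalPComplement_iff_forall.1 hN)
        ((P : Subgroup G).subgroupOf (normalizer ((P : Subgroup G) : Set G)))
        (P.2.comap_of_injective _ (Subgroup.subtype_injective _))
        ⟨b, hbN⟩
        (by
          rw [Subgroup.mem_set_normalizer_iff]
          intro x
          rw [SetLike.mem_coe, SetLike.mem_coe, Subgroup.mem_subgroupOf, Subgroup.mem_subgroupOf]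
          exact Subgroup.mem_set_normalizer_iff.1 hbN x)
        (by
          have : orderOf (⟨b, hbN⟩ : ↥(normalizer ((P : Subgroup G) : Set G))) = orderOf b := Subgroup.orderOf_mk b hbN
          rw [this]
          exact hbc)
      intro t ht
      have h4 := Subgroup.mem_centralizer_iff.1 h3 ⟨t, (Subgroup.le_normalizer) ht⟩ (by
        rw [SetLike.mem_coe, Subgroup.mem_subgroupOf]
        exact ht)
      exact congrArg Subtype.val h4
    rw [Subgroup.mem_centralizer_iff]
    intro tb ht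
    have ht' := ht
    rw [SetLike.mem_coe, hPb] at ht'
    obtain ⟨t, ht₁, rfl⟩ := ht'
    have htP := (hmemP₁ t).1 ht₁
    show π t * π n = π n * π t
    rw [← map_mul, ← map_mul]
    apply QuotientGroup.eq.2
    rw [Subgroup.mem_subgroupOf]
    show ((t : G) * (n : G))⁻¹ * ((n : G) * (t : G)) ∈ Q
    have h3 := hbC _ htP
    set w : G := a⁻¹ * (t : G)⁻¹ * a * (t : G) with hw
    have hwP : w ∈ (P : Subgroup G) := mul_mem (mul_mem (mul_mem (inv_mem haP) (inv_mem htP)) haP) htP
    have h4 := hbC w hwP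
    have h5 : ((t : G) * (n : G))⁻¹ * ((n : G) * (t : G)) = w := by
      rw [hab]
      have h6 : (t : G) * (a * b) = (t : G) * a * b := (mul_assoc _ _ _).symm
      have h7 : a * b * (t : G) = a * (t : G) * b := by rw [mul_assoc, ← h3, mul_assoc]
      rw [h6, h7, mul_inv_rev, mul_inv_rev]
      have h8 : b⁻¹ * (a⁻¹ * (t : G)⁻¹) * (a * (t : G) * b) = b⁻¹ * w * b := by
        rw [hw]
        group
      rw [h8]
      have h9 : b⁻¹ * w * b = b⁻¹ * (w * b) := mul_assoc _ _ _
      rw [h9, h4, inv_mul_cancel_left]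
    rw [h5, hw]
    have h6 := hcomm a⁻¹ (inv_mem haP) (t : G)⁻¹ (inv_mem htP)
    simpa using h6
  have hC := MonoidHom.ker_transferSylow_isComplement' Pb hNC
  set Kb := (MonoidHom.transferSylow Pb hNC).ker with hKb
  have hKbn : Kb.Normal := MonoidHom.normal_ker _
  let K₁ : Subgroup H := Kb.comap π
  have hK₁n : K₁.Normal := Subgroup.Normal.comap hKbn π
  have hP₁K₁ : (P₁ : Subgroup H) ≤ normalizer (K₁ : Set H) := by
    intro x _
    rw [Subgroup.mem_set_normalizer_iff]
    intro y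
    constructor
    · exact fun hy => hK₁n.conj_mem y hy x
    · intro hy
      have h3 := hK₁n.conj_mem _ hy x⁻¹
      have h4 : x⁻¹ * (x * y * x⁻¹) * x⁻¹⁻¹ = y := by
        rw [inv_inv]
        exact (by
          rw [← mul_assoc, ← mul_assoc, inv_mul_cancel, one_mul, mul_assoc, inv_mul_cancel, mul_one])
      rwa [h4] at h3
  -- the intersection lies in the Frattini subgroup
  have hF : K₁ ⊓ (P₁ : Subgroup H) ≤ (frattini ↥(P₁ : Subgroup H)).map (P₁ : Subgroup H).subtype := by
    rintro x ⟨hx₁, hx₂⟩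
    have h3 : π x ∈ (Pb : Subgroup (H ⧸ Q₁)) := by
      rw [hPb]
      exact ⟨x, hx₂, rfl⟩
    have h4 : π x = 1 := by
      have h5 : π x ∈ Kb ⊓ (Pb : Subgroup (H ⧸ Q₁)) := ⟨hx₁, h3⟩
      have h6 := hC.disjoint.eq_bot
      rw [h6] at h5
      exact h5
    have h5 : x ∈ Q₁ := by
      have := (QuotientGroup.eq_one_iff x).1 h4
      exact this
    have h6 : (x : G) ∈ Q := h5
    obtain ⟨y, hy, hyx⟩ := h2 h6
    let e : ↥(P : Subgroup G) →* ↥(P₁ : Subgroup H) := MonoidHom.mk'
      (fun y => ⟨⟨y, hPN y.2⟩, (hmemP₁ _).2 y.2⟩) (fun a b => rfl)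
    have he : Function.Surjective e := by
      rintro ⟨z, hz⟩
      exact ⟨⟨z, (hmemP₁ _).1 hz⟩, rfl⟩
    have h7 := frattini_le_comap_frattini_of_surjective he hy
    refine ⟨e y, h7, ?_⟩
    apply Subtype.ext
    exact hyx
  obtain ⟨L, hLK, hLc, hL⟩ := Cfsg.Agent.Lib.Tate.tate_aux P₁ _ K₁ rfl hP₁K₁ hF
  refine Cfsg.Agent.Lib.Tate.hasNormalPComplement_of_pow L hLc ?_
  intro x
  have hq : IsPGroup p ((H ⧸ Q₁) ⧸ Kb) := by
    rw [IsPGroup.iff_card]
    have h3 : Nat.card ((H ⧸ Q₁) ⧸ Kb) = Nat.card (Pb : Subgroup (H ⧸ Q₁)) := hC.symm.index_eq_card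
    rw [h3]
    exact IsPGroup.iff_card.1 Pb.2
  obtain ⟨j, hj⟩ := hq (QuotientGroup.mk (π x))
  have h3 : x ^ p ^ j ∈ K₁ := by
    have h4 : π (x ^ p ^ j) ∈ Kb := by
      rw [map_pow]
      rw [← QuotientGroup.mk_pow] at hj
      exact (QuotientGroup.eq_one_iff _).1 hj
    exact h4
  obtain ⟨k, hk⟩ := hL _ h3
  refine ⟨j + k, ?_⟩
  rw [pow_add, pow_mul]
  exact hk

end Cfsg.Agent.S3838
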