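import Mathlib
import Cfsg.Prelude.Def_TwoFusion
import Cfsg.Agent.Lib.PComplement
import Cfsg.Agent.Lib.ConjFam
import Cfsg.Agent.Lib.PCore
import Cfsg.Agent.Lib.TransferCore
import Cfsg.Agent.Lib.TransferEval
import Cfsg.Agent.Lib.AlperinControl

set_option autoImplicit false
open Cfsg

namespace Cfsg.Agent.S3839

open Subgroup Cfsg.Agent.Lib.PComplement

universe u

variable {p : ℕ} [hp : Fact p.Prime]

theorem npc_of_injective {A : Type*} {B : Type*} [Group A] [Group B] [Finite A] [Finite B]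
    (f : A →* B) (hf : Function.Injective f) (h : HasNormalPComplement p B) :
    HasNormalPComplement p A := by
  rw [hasNormalPComplement_iff_forall] at h ⊢
  intro Q hQ g hg hgc
  have h1 : f g ∈ normalizer ((Q.map f : Subgroup B) : Set B) := by
    rw [mem_normalizer_iff]
    intro x
    constructor
    · rintro ⟨y, hy, rfl⟩
      exact ⟨g * y * g⁻¹, (mem_normalizer_iff.1 hg y).1 hy, by simp⟩
    · rintro ⟨y, hy, hyx⟩
      have hx : x = f (g⁻¹ * y * g) := by
        have hyx' : f y = f g * x * (f g)⁻¹ := hyx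
        simp only [map_mul, map_inv, hyx']
        group
      rw [hx]
      refine ⟨_, ?_, rfl⟩
      have := (mem_normalizer_iff.1 (inv_mem hg) y).1 hy
      simpa using this
  have h2 := h _ (hQ.map f) (f g) h1 (by rw [orderOf_injective f hf g]; exact hgc)
  rw [mem_centralizer_iff] at h2 ⊢
  intro x hx
  apply hf
  rw [map_mul, map_mul]
  exact h2 _ ⟨x, hx, rfl⟩

theorem exists_lift {G : Type*} [Group G] [Finite G] (Y : Subgroup G) [Y.Normal] (c : G ⧸ Y)
    (hc : Nat.Coprime (orderOf c) p) :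
    ∃ b : G, (b : G ⧸ Y) = c ∧ Nat.Coprime (orderOf b) p := by
  obtain ⟨g₀, rfl⟩ := QuotientGroup.mk_surjective c
  obtain ⟨a, b, hab, ha, -, ⟨k, hk⟩, hbc⟩ := exists_decomp p g₀
  refine ⟨b, ?_, hbc⟩
  have h1 : ((a : G) : G ⧸ Y) = 1 := by
    have h2 : orderOf ((a : G) : G ⧸ Y) ∣ p ^ k :=
      orderOf_dvd_of_pow_eq_one (by rw [← QuotientGroup.mk_pow, hk]; rfl)
    have h3 : orderOf ((a : G) : G ⧸ Y) ∣ orderOf ((g₀ : G) : G ⧸ Y) := by
      apply orderOf_dvd_of_mem_zpowers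
      obtain ⟨e, rfl⟩ := mem_zpowers_iff.1 ha
      exact ⟨e, (QuotientGroup.mk_zpow Y g₀ e).symm⟩
    exact orderOf_eq_one_iff.1
      (Nat.eq_one_of_dvd_coprimes (Nat.Coprime.pow_right k hc) h3 h2)
  rw [hab, QuotientGroup.mk_mul, h1, one_mul]

theorem comap_isPGroup {G : Type*} [Group G] (Y : Subgroup G) [Y.Normal] (hY : IsPGroup p Y)
    (Qb : Subgroup (G ⧸ Y)) (hQb : IsPGroup p Qb) :
    IsPGroup p (Qb.comap (QuotientGroup.mk' Y)) := by
  rintro ⟨x, hx⟩
  obtain ⟨k, hk⟩ := hQb ⟨_, hx⟩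
  have h1 : (x ^ p ^ k : G) ∈ Y := by
    rw [← QuotientGroup.eq_one_iff, QuotientGroup.mk_pow]
    exact congrArg Subtype.val hk
  obtain ⟨m, hm⟩ := hY ⟨_, h1⟩
  refine ⟨k + m, ?_⟩
  apply Subtype.ext
  have h2 : x ^ p ^ (k + m) = (x ^ p ^ k) ^ p ^ m := by rw [pow_add, pow_mul]
  have h3 : (x ^ p ^ k) ^ p ^ m = 1 := congrArg Subtype.val hm
  simp [h2, h3]

theorem mem_normalizer_sup {G : Type*} [Group G] [Finite G] {A B : Subgroup G} {g : G}
    (hA : g ∈ normalizer (A : Set G)) (hB : g ∈ normalizer (B : Set G)) :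
    g ∈ normalizer ((A ⊔ B : Subgroup G) : Set G) := by
  apply Cfsg.Agent.Lib.ConjFam.mem_normalizer_of_map_conj
  rw [Subgroup.map_sup, Cfsg.Agent.Lib.ConjFam.map_conj_of_mem_normalizer hA,
    Cfsg.Agent.Lib.ConjFam.map_conj_of_mem_normalizer hB]

/-- The stabilizer of the chain `1 ≤ U ≤ Y`. -/
def stab {G : Type*} [Group G] (U Y : Subgroup G) [hU : U.Normal] [hY : Y.Normal] : Subgroup G where
  carrier := {x | (∀ u ∈ U, x * u = u * x) ∧ ∀ y ∈ Y, x * y * x⁻¹ * y⁻¹ ∈ U}
  mul_mem' := by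
    rintro a b ⟨ha1, ha2⟩ ⟨hb1, hb2⟩
    refine ⟨fun u hu => ?_, fun y hy => ?_⟩
    · rw [mul_assoc, hb1 u hu, ← mul_assoc, ha1 u hu, mul_assoc]
    · have h1 : a * b * y * (a * b)⁻¹ * y⁻¹ = a * (b * y * b⁻¹ * y⁻¹) * a⁻¹ * (a * y * a⁻¹ * y⁻¹) := by
        group
      rw [h1]
      exact U.mul_mem (hU.conj_mem _ (hb2 y hy) a) (ha2 y hy)
  one_mem' := by
    refine ⟨fun u _ => by simp, fun y _ => ?_⟩
    simp
  inv_mem' := by
    rintro a ⟨ha1, ha2⟩
    refine ⟨fun u hu => ?_, fun y hy => ?_⟩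
    · have h1 := ha1 u hu
      calc a⁻¹ * u = a⁻¹ * (u * a) * a⁻¹ := by group
        _ = a⁻¹ * (a * u) * a⁻¹ := by rw [h1]
        _ = u * a⁻¹ := by group
    · have hy' : a⁻¹ * y * a ∈ Y := by
        have := hY.conj_mem y hy a⁻¹
        simpa using this
      have h1 := ha2 _ hy'
      have h2 : a * (a⁻¹ * y * a) * a⁻¹ * (a⁻¹ * y * a)⁻¹ = y * (a⁻¹ * y⁻¹ * a) := by group
      rw [h2] at h1
      have h3 : a⁻¹ * y * a⁻¹⁻¹ * y⁻¹ = (y * (a⁻¹ * y⁻¹ * a))⁻¹ := by group
      rw [h3]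
      exact U.inv_mem h1

instance stab_normal {G : Type*} [Group G] (U Y : Subgroup G) [hU : U.Normal] [hY : Y.Normal] :
    (stab U Y).Normal := by
  constructor
  rintro x ⟨hx1, hx2⟩ g
  refine ⟨fun u hu => ?_, fun y hy => ?_⟩
  · have h1 : g⁻¹ * u * g ∈ U := by
      have := hU.conj_mem u hu g⁻¹
      simpa using this
    have h2 := hx1 _ h1
    calc g * x * g⁻¹ * u = g * (x * (g⁻¹ * u * g)) * g⁻¹ := by group
      _ = g * ((g⁻¹ * u * g) * x) * g⁻¹ := by rw [h2]
      _ = u * (g * x * g⁻¹) := by group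
  · have h1 : g⁻¹ * y * g ∈ Y := by
      have := hY.conj_mem y hy g⁻¹
      simpa using this
    have h2 := hU.conj_mem _ (hx2 _ h1) g
    have h3 : g * x * g⁻¹ * y * (g * x * g⁻¹)⁻¹ * y⁻¹ =
        g * (x * (g⁻¹ * y * g) * x⁻¹ * (g⁻¹ * y * g)⁻¹) * g⁻¹ := by group
    rw [h3]
    exact h2

/-- The stabilizer of the chain induces a `p`-group on `Y`. -/
theorem stab_pow_mem_centralizer {G : Type*} [Group G] [Finite G] (U Y : Subgroup G) [hU : U.Normal]
    [hY : Y.Normal] {x : G} (hx : x ∈ stab U Y) : x ^ Nat.card U ∈ centralizer (Y : Set G) := by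
  rw [mem_centralizer_iff]
  intro y hy
  have hy' : y ∈ Y := hy
  have h1 : y⁻¹ * (x * y * x⁻¹) ∈ U := by
    have := hU.conj_mem _ (hx.2 y hy') y⁻¹
    have h2 : y⁻¹ * (x * y * x⁻¹ * y⁻¹) * y⁻¹⁻¹ = y⁻¹ * (x * y * x⁻¹) := by group
    rwa [h2] at this
  set u := y⁻¹ * (x * y * x⁻¹) with hu
  have hxu : x * u = u * x := hx.1 u h1
  have hxy : x * y * x⁻¹ = y * u := by
    rw [hu]
    group
  have hpow : ∀ m : ℕ, x ^ m * y * (x ^ m)⁻¹ = y * u ^ m := by
    intro m
    induction m with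
    | zero => simp
    | succ m ih =>
      have hxum : x * u ^ m * x⁻¹ = u ^ m := by
        have : Commute x (u ^ m) := (show Commute x u from hxu).pow_right m
        rw [this.eq]
        group
      calc x ^ (m + 1) * y * (x ^ (m + 1))⁻¹ = x * (x ^ m * y * (x ^ m)⁻¹) * x⁻¹ := by
            rw [pow_succ']
            group
        _ = x * (y * u ^ m) * x⁻¹ := by rw [ih]
        _ = (x * y * x⁻¹) * (x * u ^ m * x⁻¹) := by group
        _ = y * u ^ (m + 1) := by
            rw [hxy, hxum, pow_succ', mul_assoc]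
  have h3 := hpow (Nat.card U)
  have h4 : u ^ Nat.card U = 1 := by
    have := pow_card_eq_one' (x := (⟨u, h1⟩ : U))
    exact congrArg Subtype.val this
  rw [h4, mul_one, mul_inv_eq_iff_eq_mul] at h3
  exact h3.symm

/-- A `p'`-element in `B Y` centralizes `Y`, `B` the stabilizer of the chain `1 ≤ U ≤ Y`. -/
theorem coprime_mem_centralizer {G : Type*} [Group G] [Finite G] (U Y : Subgroup G) [hU : U.Normal]
    [hY : Y.Normal] (hYp : IsPGroup p Y) (hUY : U ≤ Y) {g : G} (hg : g ∈ stab U Y ⊔ Y)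
    (hgc : Nat.Coprime (orderOf g) p) : g ∈ centralizer (Y : Set G) := by
  set Θ : G →* G ⧸ centralizer (Y : Set G) := QuotientGroup.mk' _ with hΘ
  have hΘs : Function.Surjective Θ := QuotientGroup.mk'_surjective _
  have hUp : IsPGroup p U := hYp.to_le hUY
  obtain ⟨n, hn⟩ := IsPGroup.iff_card.1 hUp
  have h1 : IsPGroup p ((stab U Y).map Θ) := by
    rintro ⟨_, x, hx, rfl⟩
    refine ⟨n, ?_⟩
    apply Subtype.ext
    have h2 := stab_pow_mem_centralizer U Y hx
    rw [hn] at h2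
    show Θ x ^ p ^ n = 1
    rw [← map_pow, hΘ]
    exact (QuotientGroup.eq_one_iff _).2 h2
  have h2 : IsPGroup p (Y.map Θ) := hYp.map Θ
  have h3 : (Y.map Θ).Normal := hY.map Θ hΘs
  have h4 := h1.to_sup_of_normal_right h2
  rw [← Subgroup.map_sup] at h4
  obtain ⟨k, hk⟩ := h4 ⟨Θ g, g, hg, rfl⟩
  have hk' : (Θ g) ^ p ^ k = 1 := congrArg Subtype.val hk
  have h5 : orderOf (Θ g) ∣ p ^ k := orderOf_dvd_of_pow_eq_one hk'
  have h6 : orderOf (Θ g) ∣ orderOf g := orderOf_map_dvd Θ g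
  have h7 := Nat.eq_one_of_dvd_coprimes (Nat.Coprime.pow_right k hgc) h6 h5
  have h8 : Θ g = 1 := orderOf_eq_one_iff.1 h7
  exact (QuotientGroup.eq_one_iff _).1 h8

/-- The fixed point in a coset. -/
theorem coset_fixed {Γ : Type*} [Group Γ] [Finite Γ] (K B : Subgroup Γ) [hK : K.Normal]
    [hB : B.Normal] (hKc : ¬ p ∣ Nat.card K) {w : Γ} (hwB : w ∈ B) (hw : ∃ k : ℕ, w ^ p ^ k = 1)
    {g : Γ} (hg : g ∈ K) : ∃ c ∈ K, g⁻¹ * c ∈ B ∧ c * w = w * c := by
  classical
  let α := {c : Γ // c ∈ K ∧ g⁻¹ * c ∈ B}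
  have hP : IsPGroup p (zpowers w) := by
    obtain ⟨k, hk⟩ := hw
    rw [IsPGroup.iff_card, Nat.card_zpowers]
    obtain ⟨j, -, hj⟩ := (Nat.dvd_prime_pow hp.out).1 (orderOf_dvd_of_pow_eq_one hk)
    exact ⟨j, hj⟩
  have hzB : ∀ a : zpowers w, (a : Γ) ∈ B := fun a =>
    (zpowers_le.2 hwB) a.2
  letI act : MulAction (zpowers w) α :=
    { smul := fun a c => ⟨(a : Γ) * c.1 * (a : Γ)⁻¹, hK.conj_mem _ c.2.1 _, by
        have h1 := hzB a
        have h2 : g⁻¹ * ((a : Γ) * c.1 * (a : Γ)⁻¹) = (g⁻¹ * a * g) * (g⁻¹ * c.1) * (a : Γ)⁻¹ := by group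
        rw [h2]
        refine B.mul_mem (B.mul_mem ?_ c.2.2) (B.inv_mem h1)
        have := hB.conj_mem _ h1 g⁻¹
        simpa using this⟩
      one_smul := fun c => by
        apply Subtype.ext
        show ((1 : zpowers w) : Γ) * c.1 * ((1 : zpowers w) : Γ)⁻¹ = c.1
        simp
      mul_smul := fun a b c => by
        apply Subtype.ext
        show ((a * b : zpowers w) : Γ) * c.1 * ((a * b : zpowers w) : Γ)⁻¹ =
          (a : Γ) * ((b : Γ) * c.1 * (b : Γ)⁻¹) * (a : Γ)⁻¹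
        simp only [Subgroup.coe_mul]
        group }
  have hcard : ¬ p ∣ Nat.card α := by
    have e : α ≃ ↥(K ⊓ B) :=
      { toFun := fun c => ⟨g⁻¹ * c.1, K.mul_mem (K.inv_mem hg) c.2.1, c.2.2⟩
        invFun := fun x => ⟨g * x.1, K.mul_mem hg x.2.1, by simpa using x.2.2⟩
        left_inv := fun c => by
          apply Subtype.ext
          simp
        right_inv := fun x => by
          apply Subtype.ext
          simp }
    rw [Nat.card_congr e]
    intro h
    apply hKc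
    apply h.trans
    exact Subgroup.card_dvd_of_le inf_le_left
  obtain ⟨c, hc⟩ := hP.nonempty_fixed_point_of_prime_not_dvd_card α hcard
  refine ⟨c.1, c.2.1, c.2.2, ?_⟩
  have h1 : (⟨w, mem_zpowers w⟩ : zpowers w) • c = c := hc _
  have h2 : w * c.1 * w⁻¹ = c.1 := congrArg Subtype.val h1
  rw [mul_inv_eq_iff_eq_mul] at h2
  exact h2.symm

/-- The final argument. -/
theorem finish {G : Type*} [Group G] [Finite G] (U Y : Subgroup G) [hU : U.Normal] [hY : Y.Normal]
    (hUY : U ≤ Y) (hYp : IsPGroup p Y) {w : G} (hwp : ∃ k : ℕ, w ^ p ^ k = 1) (hwY : w ∉ Y)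
    (hwU : ∀ u ∈ U, w * u = u * w) (hwY2 : ∀ y ∈ Y, w * y * w⁻¹ * y⁻¹ ∈ U)
    (hQ : ∀ Q : Subgroup G, IsPGroup p Q → Y < Q → ∀ g ∈ normalizer (Q : Set G),
      Nat.Coprime (orderOf g) p → g ∈ centralizer (Q : Set G)) :
    HasNormalPComplement p G := by
  classical
  -- `G / Y` has a normal `p`-complement
  have hΓ : HasNormalPComplement p (G ⧸ Y) := by
    rw [hasNormalPComplement_iff_forall]
    intro Qb hQb gb hgb hgbc
    by_cases hb : Qb = ⊥
    · subst hb
      rw [mem_centralizer_iff]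
      intro h hh
      have hh' : h ∈ (⊥ : Subgroup (G ⧸ Y)) := hh
      rw [Subgroup.mem_bot] at hh'
      rw [hh', one_mul, mul_one]
    obtain ⟨b, rfl, hbc⟩ := exists_lift Y gb hgbc
    set Q : Subgroup G := Qb.comap (QuotientGroup.mk' Y) with hQdef
    have hQp : IsPGroup p Q := comap_isPGroup Y hYp Qb hQb
    have hYQ : Y < Q := by
      refine lt_of_le_of_ne ?_ ?_
      · intro y hy
        show (y : G ⧸ Y) ∈ Qb
        rw [(QuotientGroup.eq_one_iff y).2 hy]
        exact Qb.one_mem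
      · intro h
        apply hb
        rw [eq_bot_iff]
        intro xb hxb
        obtain ⟨x, rfl⟩ := QuotientGroup.mk_surjective xb
        have hx : x ∈ Q := hxb
        rw [← h] at hx
        rw [Subgroup.mem_bot]
        exact (QuotientGroup.eq_one_iff x).2 hx
    have hbN : b ∈ normalizer (Q : Set G) := by
      rw [mem_normalizer_iff]
      intro x
      have h1 := mem_normalizer_iff.1 hgb (x : G ⧸ Y)
      exact h1
    have h2 := hQ Q hQp hYQ b hbN hbc
    rw [mem_centralizer_iff] at h2 ⊢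
    intro h hh
    obtain ⟨x, rfl⟩ := QuotientGroup.mk_surjective h
    have hx : x ∈ Q := hh
    have h3 := h2 x hx
    rw [← QuotientGroup.mk_mul, ← QuotientGroup.mk_mul, h3]
  -- every `p'`-element lies in `B Y`
  obtain ⟨Pb⟩ : Nonempty (Sylow p (G ⧸ Y)) := inferInstance
  obtain ⟨Kb, hKbn, hKbc⟩ := (Cfsg.Agent.Lib.TransferEval.hasNormalPComplement_iff Pb).1 hΓ
  have hKnd : ¬ p ∣ Nat.card Kb := by
    have h1 := Cfsg.Agent.Lib.TransferCore.coprime_card_of_complement hKbc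
    intro h2
    have h3 := Nat.dvd_gcd h2 (dvd_refl p)
    rw [h1] at h3
    exact hp.out.one_lt.ne' (Nat.dvd_one.1 h3)
  set Bb : Subgroup (G ⧸ Y) := (stab U Y).map (QuotientGroup.mk' Y) with hBb
  have hBbn : Bb.Normal := (stab_normal U Y).map _ (QuotientGroup.mk'_surjective Y)
  have hwB : (w : G ⧸ Y) ∈ Bb := ⟨w, ⟨hwU, hwY2⟩, rfl⟩
  have hwp' : ∃ k : ℕ, (w : G ⧸ Y) ^ p ^ k = 1 := by
    obtain ⟨k, hk⟩ := hwp
    exact ⟨k, by rw [← QuotientGroup.mk_pow, hk]; rfl⟩
  have key : ∀ g : G, Nat.Coprime (orderOf g) p → g ∈ stab U Y ⊔ Y := by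
    intro g hg
    have hgK : (g : G ⧸ Y) ∈ Kb := by
      apply (Cfsg.Agent.Lib.TransferCore.mem_of_complement_iff hKbc _).2
      exact Nat.Coprime.coprime_dvd_left (orderOf_map_dvd (QuotientGroup.mk' Y) g) hg
    obtain ⟨c, hcK, hgc, hcw⟩ := coset_fixed Kb Bb hKnd hwB hwp' hgK
    have hcc := (Cfsg.Agent.Lib.TransferCore.mem_of_complement_iff hKbc c).1 hcK
    obtain ⟨b, rfl, hbc⟩ := exists_lift Y c hcc
    set Q : Subgroup G := (zpowers (w : G ⧸ Y)).comap (QuotientGroup.mk' Y) with hQdef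
    have hzp : IsPGroup p (zpowers (w : G ⧸ Y)) := by
      obtain ⟨k, hk⟩ := hwp'
      rw [IsPGroup.iff_card, Nat.card_zpowers]
      obtain ⟨j, -, hj⟩ := (Nat.dvd_prime_pow hp.out).1 (orderOf_dvd_of_pow_eq_one hk)
      exact ⟨j, hj⟩
    have hQp : IsPGroup p Q := comap_isPGroup Y hYp _ hzp
    have hYleQ : Y ≤ Q := by
      intro y hy
      show (y : G ⧸ Y) ∈ zpowers (w : G ⧸ Y)
      rw [(QuotientGroup.eq_one_iff y).2 hy]
      exact one_mem _
    have hwQ : w ∈ Q := mem_zpowers (w : G ⧸ Y)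
    have hYQ : Y < Q := lt_of_le_of_ne hYleQ (fun h => hwY (h ▸ hwQ))
    have hcomm : ∀ z ∈ zpowers (w : G ⧸ Y), (b : G ⧸ Y) * z = z * (b : G ⧸ Y) := by
      rintro _ ⟨e, rfl⟩
      have : Commute (b : G ⧸ Y) ((w : G ⧸ Y) ^ e) := (show Commute (b : G ⧸ Y) (w : G ⧸ Y) from hcw).zpow_right e
      exact this
    have hbN : b ∈ normalizer (Q : Set G) := by
      rw [mem_normalizer_iff]
      intro x
      show (x : G ⧸ Y) ∈ zpowers (w : G ⧸ Y) ↔ ((b * x * b⁻¹ : G) : G ⧸ Y) ∈ zpowers (w : G ⧸ Y)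
      rw [QuotientGroup.mk_mul, QuotientGroup.mk_mul, QuotientGroup.mk_inv]
      constructor
      · intro hx
        rw [hcomm _ hx]
        simpa using hx
      · intro hx
        have h1 := hcomm _ hx
        have h2 : (b : G ⧸ Y) * (x : G ⧸ Y) * (b : G ⧸ Y)⁻¹ * (b : G ⧸ Y) =
            (b : G ⧸ Y) * (x : G ⧸ Y) := by group
        rw [h2] at h1
        have h3 : (x : G ⧸ Y) = (b : G ⧸ Y) * (x : G ⧸ Y) * (b : G ⧸ Y)⁻¹ := by
          have h4 := mul_left_cancel h1
          exact h4.symm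
        rw [h3]
        exact hx
    have h := hQ Q hQp hYQ b hbN hbc
    have hbB : b ∈ stab U Y := by
      refine ⟨fun u hu => (mem_centralizer_iff.1 h u (hYleQ (hUY hu))).symm, fun y hy => ?_⟩
      have h1 := mem_centralizer_iff.1 h y (hYleQ hy)
      rw [← h1]
      simp [U.one_mem]
    have hbB' : (b : G ⧸ Y) ∈ Bb := ⟨b, hbB, rfl⟩
    have hgB : (g : G ⧸ Y) ∈ Bb := by
      have := Bb.mul_mem hbB' (Bb.inv_mem hgc)
      simpa using this
    obtain ⟨x, hx, hxg⟩ := hgB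
    have h1 : x⁻¹ * g ∈ Y := QuotientGroup.eq.1 hxg
    have h2 := (stab U Y ⊔ Y).mul_mem (mem_sup_left hx) (mem_sup_right h1)
    simpa using h2
  -- conclusion
  rw [hasNormalPComplement_iff_forall]
  intro Q hQ' g hg hgc
  have hgY := coprime_mem_centralizer U Y hYp hUY (key g hgc) hgc
  by_cases hQY : Q ≤ Y
  · exact centralizer_le hQY hgY
  · have h1 : IsPGroup p (Q ⊔ Y : Subgroup G) := hQ'.to_sup_of_normal_right hYp
    have h2 : Y < Q ⊔ Y := lt_of_le_of_ne le_sup_right (fun h => hQY (by rw [h]; exact le_sup_left))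
    have h3 : g ∈ normalizer ((Q ⊔ Y : Subgroup G) : Set G) := by
      apply mem_normalizer_sup hg
      rw [normalizer_eq_top_iff.2 hY]
      trivial
    have h4 := hQ _ h1 h2 g h3 hgc
    exact centralizer_le (le_sup_left (b := Y)) h4

/-- The induction goal. -/
def Goal (p : ℕ) [Fact p.Prime] (A : Type u) [Group A] : Prop :=
  ∀ (S : Sylow p A) (D : Subgroup A), IsStronglyClosed D (S : Subgroup A) →
    (∀ U : Subgroup A, U ≤ D → D ⊓ centralizer (U : Set A) ≤ U →
      HasNormalPComplement p ↥(normalizer (U : Set A))) → HasNormalPComplement p A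

theorem step {G : Type u} [Group G] [Finite G] (S : Sylow p G) (D : Subgroup G)
    (hD : IsStronglyClosed D (S : Subgroup G)) (N : Subgroup G)
    (hNS : ¬ p ∣ ((S : Subgroup G) ⊓ N).relIndex N) (hG : Goal p ↥N)
    (hV : ∀ V : Subgroup G, V ≤ D ⊓ N → (D ⊓ N) ⊓ centralizer (V : Set G) ≤ V →
      HasNormalPComplement p ↥(N ⊓ normalizer (V : Set G))) :
    HasNormalPComplement p ↥N := by
  have hP₀ : IsPGroup p (((S : Subgroup G) ⊓ N).subgroupOf N) :=
    (S.isPGroup'.to_le inf_le_left).comap_of_injective N.subtype N.subtype_injective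
  have hNS' : ¬ p ∣ (((S : Subgroup G) ⊓ N).subgroupOf N).index := hNS
  set S₀ : Sylow p ↥N := hP₀.toSylow hNS' with hS₀
  have hS₀m : ∀ x : N, x ∈ (S₀ : Subgroup N) ↔ (x : G) ∈ (S : Subgroup G) := by
    intro x
    rw [hS₀, IsPGroup.toSylow_coe, mem_subgroupOf]
    exact ⟨fun h => h.1, fun h => ⟨h, x.2⟩⟩
  apply hG S₀ (D.subgroupOf N)
  · refine ⟨fun x hx => (hS₀m x).2 (hD.1 hx), fun x hx g hg => ?_⟩
    rw [hS₀m] at hg
    exact hD.2 x hx g hg
  · intro V hV₁ hV₂
    set V' : Subgroup G := V.map N.subtype with hV'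
    have hV'le : V' ≤ D ⊓ N := by
      rintro _ ⟨v, hv, rfl⟩
      exact ⟨hV₁ hv, v.2⟩
    have hV'c : (D ⊓ N) ⊓ centralizer (V' : Set G) ≤ V' := by
      rintro x ⟨⟨hxD, hxN⟩, hxc⟩
      have h1 : (⟨x, hxN⟩ : N) ∈ D.subgroupOf N ⊓ centralizer (V : Set N) := by
        refine ⟨hxD, mem_centralizer_iff.2 fun v hv => ?_⟩
        apply Subtype.ext
        exact mem_centralizer_iff.1 hxc _ ⟨v, hv, rfl⟩
      exact ⟨_, hV₂ h1, rfl⟩
    have h1 := hV V' hV'le hV'c
    refine npc_of_injective (p := p) (B := ↥(N ⊓ normalizer (V' : Set G)))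
      (MonoidHom.mk' (fun a => ⟨((a : N) : G), (a : N).2, ?_⟩) (fun a b => rfl)) ?_ h1
    · refine mem_normalizer_iff.2 fun x => ?_
      constructor
      · rintro ⟨v, hv, rfl⟩
        exact ⟨_, (mem_normalizer_iff.1 a.2 v).1 hv, rfl⟩
      · rintro ⟨v, hv, hvx⟩
        have hx : x = ((a : N)⁻¹ * v * (a : N) : N) := by
          have hvx' : (v : G) = ((a : N) : G) * x * ((a : N) : G)⁻¹ := hvx
          simp only [Subgroup.coe_mul, Subgroup.coe_inv]
          rw [hvx']
          group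
        rw [hx]
        refine ⟨(a : N)⁻¹ * v * (a : N), ?_, rfl⟩
        have := (mem_normalizer_iff.1 (inv_mem a.2) v).1 hv
        simpa using this
    · intro a b hab
      apply Subtype.ext
      apply Subtype.ext
      have := congrArg Subtype.val hab
      exact this

theorem step2 {G : Type u} [Group G] [Finite G] (S : Sylow p G) (D : Subgroup G)
    (hD : IsStronglyClosed D (S : Subgroup G)) (U : Subgroup G) (hUD : U ≤ D)
    (hmax : ∀ W : Subgroup G, W ≤ D → Nat.card U < Nat.card W →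
      HasNormalPComplement p ↥(normalizer (W : Set G))) (N : Subgroup G)
    (hNS : ¬ p ∣ ((S : Subgroup G) ⊓ N).relIndex N) (hG : Goal p ↥N)
    (hNU : N ≤ normalizer (U : Set G))
    (hU : ∀ V : Subgroup G, V ≤ D ⊓ N → (D ⊓ N) ⊓ centralizer (V : Set G) ≤ V → ¬ V ≤ U) :
    HasNormalPComplement p ↥N := by
  apply step S D hD N hNS hG
  intro V hV₁ hV₂
  have h1 := hU V hV₁ hV₂
  have h2 : V ≤ D := hV₁.trans inf_le_left
  have h3 : U < U ⊔ V := lt_of_le_of_ne le_sup_left (fun h => h1 (by rw [h]; exact le_sup_right))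
  have h4 := hmax (U ⊔ V) (sup_le hUD h2) (card_lt_of_lt' h3)
  have h5 : N ⊓ normalizer (V : Set G) ≤ normalizer ((U ⊔ V : Subgroup G) : Set G) := by
    rintro x ⟨hx₁, hx₂⟩
    exact mem_normalizer_sup (hNU hx₁) hx₂
  exact npc_of_injective (inclusion h5) (inclusion_injective h5) h4

theorem npc_of_eq_top {G : Type*} [Group G] [Finite G] (N : Subgroup G) (h : N = ⊤)
    (hN : HasNormalPComplement p ↥N) : HasNormalPComplement p G :=
  npc_of_injective (B := ↥N) (MonoidHom.mk' (fun g => ⟨g, by rw [h]; trivial⟩) (fun _ _ => rfl))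
    (fun a b hab => by
      have := congrArg Subtype.val hab
      exact this) hN

theorem le_of_fully {G : Type*} [Group G] [Finite G] (S : Sylow p G) (X : Subgroup G)
    (hX : IsPGroup p X)
    (h : ¬ p ∣ ((S : Subgroup G) ⊓ normalizer (X : Set G)).relIndex (normalizer (X : Set G))) :
    X ≤ S := by
  set N : Subgroup G := normalizer (X : Set G) with hN
  have hP₀ : IsPGroup p (((S : Subgroup G) ⊓ N).subgroupOf N) :=
    (S.isPGroup'.to_le inf_le_left).comap_of_injective N.subtype N.subtype_injective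
  have h' : ¬ p ∣ (((S : Subgroup G) ⊓ N).subgroupOf N).index := h
  set S₀ : Sylow p ↥N := hP₀.toSylow h' with hS₀
  have hXn : (X.subgroupOf N).Normal := normal_in_normalizer
  have hXp : IsPGroup p (X.subgroupOf N) := hX.comap_of_injective N.subtype N.subtype_injective
  have h1 : X.subgroupOf N ≤ (S₀ : Subgroup N) :=
    (Cfsg.Agent.Lib.PCore.le_pCore hXn hXp).trans (Cfsg.Agent.Lib.PCore.pCore_le_sylow p S₀)
  intro x hx
  have hxN : x ∈ N := le_normalizer hx
  have h2 : (⟨x, hxN⟩ : N) ∈ (S₀ : Subgroup N) := h1 (by rw [mem_subgroupOf]; exact hx)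
  rw [hS₀, IsPGroup.toSylow_coe, mem_subgroupOf] at h2
  exact h2.1

/-- Conjugates have conjugate normalizers. -/
theorem npc_conj {G : Type*} [Group G] [Finite G] (X : Subgroup G) (g : G)
    (h : HasNormalPComplement p
      ↥(normalizer ((X.map (MulAut.conj g).toMonoidHom : Subgroup G) : Set G))) :
    HasNormalPComplement p ↥(normalizer (X : Set G)) := by
  refine npc_of_injective (p := p)
    (B := ↥(normalizer ((X.map (MulAut.conj g).toMonoidHom : Subgroup G) : Set G)))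
    (MonoidHom.mk' (fun a => ⟨g * (a : G) * g⁻¹, ?_⟩) ?_) ?_ h
  · rw [Cfsg.Agent.Lib.ConjFam.conj_mem_normalizer_iff]
    have : g⁻¹ * (g * (a : G) * g⁻¹) * g = a := by group
    rw [this]
    exact a.2
  · intro a b
    apply Subtype.ext
    simp only [Subgroup.coe_mul]
    group
  · intro a b hab
    apply Subtype.ext
    have h1 : g * (a : G) * g⁻¹ = g * (b : G) * g⁻¹ := congrArg Subtype.val hab
    simpa using h1

/-- Conjugates of a `p`-subgroup admit a fully normalized representative lying in `S`. -/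
theorem exists_fully {G : Type*} [Group G] [Finite G] (S : Sylow p G) (X : Subgroup G)
    (hX : IsPGroup p X) :
    ∃ g : G, X.map (MulAut.conj g).toMonoidHom ≤ S ∧
      ¬ p ∣ ((S : Subgroup G) ⊓ normalizer ((X.map (MulAut.conj g).toMonoidHom : Subgroup G) : Set G)).relIndex
        (normalizer ((X.map (MulAut.conj g).toMonoidHom : Subgroup G) : Set G)) := by
  obtain ⟨g, hg⟩ := Cfsg.Agent.Lib.ConjFam.exists_fully_normalized S X
  exact ⟨g, le_of_fully S _ (hX.map _) hg, hg⟩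

/-- An element outside `Y` of the `S`-normal subgroup `C` normalizing `Q`. -/
theorem exists_mem_normalizer {G : Type*} [Group G] [Finite G] (S : Sylow p G) (C Q Y : Subgroup G)
    (hCS : C ≤ S) (hQS : Q ≤ S) (hYQ : Y ≤ Q) (hCn : ∀ s ∈ (S : Subgroup G), ∀ x ∈ C, s * x * s⁻¹ ∈ C)
    {w : G} (hwC : w ∈ C) (hwY : w ∉ Y) :
    ∃ c ∈ C, c ∉ Y ∧ c ∈ normalizer (Q : Set G) := by
  by_cases hCQ : C ≤ Q
  · exact ⟨w, hwC, hwY, le_normalizer (hCQ hwC)⟩
  · have hR : IsPGroup p (Q ⊔ C : Subgroup G) := S.isPGroup'.to_le (sup_le hQS hCS)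
    have hlt : Q < Q ⊔ C := lt_of_le_of_ne le_sup_left (fun h => hCQ (by rw [h]; exact le_sup_right))
    have h1 := Cfsg.Agent.Lib.AlperinControl.lt_inf_NN hR hlt
    obtain ⟨x, ⟨hxR, hxN⟩, hxQ⟩ := SetLike.exists_of_lt h1
    have hxS : x ∈ (S : Subgroup G) := (sup_le hQS hCS) hxR
    have hCsn : (C.subgroupOf (S : Subgroup G)).Normal := by
      constructor
      intro a ha s
      exact hCn s s.2 a ha
    have hx' : (⟨x, hxS⟩ : (S : Subgroup G)) ∈
        Q.subgroupOf (S : Subgroup G) ⊔ C.subgroupOf (S : Subgroup G) := by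
      rw [← subgroupOf_sup hQS hCS, mem_subgroupOf]
      exact hxR
    obtain ⟨q, hq, c, hc, hqc⟩ := mem_sup_of_normal_right.1 hx'
    have hq' : (q : G) ∈ Q := hq
    have hc' : (c : G) ∈ C := hc
    have hqc' : (q : G) * c = x := congrArg Subtype.val hqc
    refine ⟨c, hc', ?_, ?_⟩
    · intro hcY
      apply hxQ
      rw [← hqc']
      exact Q.mul_mem hq' (hYQ hcY)
    · have h2 : (c : G) = (q : G)⁻¹ * x := by
        rw [← hqc']
        group
      rw [h2]
      exact mul_mem (inv_mem (le_normalizer hq')) hxN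

theorem main_step {G : Type u} [Group G] [Finite G] (IH : ∀ N : Subgroup G, N ≠ ⊤ → Goal p ↥N)
    (S : Sylow p G) (D : Subgroup G) (hD : IsStronglyClosed D (S : Subgroup G))
    (hyp : ∀ U : Subgroup G, U ≤ D → D ⊓ centralizer (U : Set G) ≤ U →
      HasNormalPComplement p ↥(normalizer (U : Set G))) : HasNormalPComplement p G := by
  classical
  by_contra hG
  have hnt : ∀ W : Subgroup G, W.Normal → ¬ HasNormalPComplement p ↥(normalizer (W : Set G)) := by
    intro W hW h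
    exact hG (npc_of_eq_top _ (normalizer_eq_top_iff.2 hW) h)
  -- a maximal member
  obtain ⟨U₀, ⟨hU₀D, hU₀⟩, hU₀max⟩ := Set.exists_max_image
    {W : Subgroup G | W ≤ D ∧ ¬ HasNormalPComplement p ↥(normalizer (W : Set G))}
    (fun W => Nat.card W) (Set.toFinite _) ⟨⊥, bot_le, hnt ⊥ inferInstance⟩
  have hDp : IsPGroup p D := S.isPGroup'.to_le hD.1
  obtain ⟨g, hgS, hgf⟩ := exists_fully S U₀ (hDp.to_le hU₀D)
  set U : Subgroup G := U₀.map (MulAut.conj g).toMonoidHom with hUdef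
  have hUD : U ≤ D := by
    rintro _ ⟨u, hu, rfl⟩
    exact hD.2 u (hU₀D hu) g (hgS ⟨u, hu, rfl⟩)
  have hUc : Nat.card U = Nat.card U₀ := card_map_of_injective (MulAut.conj g).injective
  have hUn : ¬ HasNormalPComplement p ↥(normalizer (U : Set G)) := fun h => hU₀ (npc_conj U₀ g h)
  have hmax : ∀ W : Subgroup G, W ≤ D → Nat.card U < Nat.card W →
      HasNormalPComplement p ↥(normalizer (W : Set G)) := by
    intro W hW hc
    by_contra hn
    have := hU₀max W ⟨hW, hn⟩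
    omega
  -- `U` is normal
  have hUtop : normalizer (U : Set G) = ⊤ := by
    by_contra hne
    apply hUn
    apply step2 S D hD U hUD hmax _ hgf (IH _ hne) le_rfl
    intro V hV₁ hV₂ hVU
    apply hUn
    apply hyp U hUD
    rintro x ⟨hxD, hxc⟩
    apply hVU
    apply hV₂
    refine ⟨⟨hxD, centralizer_le_normalizer _ hxc⟩, centralizer_le hVU hxc⟩
  have hUnorm : U.Normal := normalizer_eq_top_iff.1 hUtop
  have hUp : IsPGroup p U := hDp.to_le hUD
  -- the `p`-core
  set Y : Subgroup G := pCore p G with hY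
  have hYn : Y.Normal :=
    letI := Cfsg.Agent.Lib.PCore.pCore_characteristic (G := G) p
    inferInstance
  have hYp : IsPGroup p Y := Cfsg.Agent.Lib.PCore.isPGroup_pCore p
  have hYS : Y ≤ S := Cfsg.Agent.Lib.PCore.pCore_le_sylow p S
  have hUY : U ≤ Y := Cfsg.Agent.Lib.PCore.le_pCore hUnorm hUp
  have hDYU : D ⊓ Y ≤ U := by
    by_contra hne
    have hDYn : (D ⊓ Y).Normal := by
      constructor
      rintro x ⟨hxD, hxY⟩ a
      have h1 := hYn.conj_mem x hxY a
      exact ⟨hD.2 x hxD a (hYS h1), h1⟩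
    have hlt : U < D ⊓ Y := lt_of_le_of_ne (le_inf hUD hUY) (fun h => hne (by rw [h]))
    exact hnt _ hDYn (hmax _ inf_le_left (card_lt_of_lt' hlt))
  -- the element `w`
  have hC : ¬ D ⊓ centralizer (U : Set G) ≤ U := fun h => hnt U hUnorm (hyp U hUD h)
  obtain ⟨w, ⟨hwD, hwc⟩, hwU⟩ := SetLike.not_le_iff_exists.1 hC
  have hwY : w ∉ Y := fun h => hwU (hDYU ⟨hwD, h⟩)
  set C : Subgroup G := D ⊓ centralizer (U : Set G) with hCdef
  have hCS : C ≤ S := inf_le_left.trans hD.1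
  have hCn : ∀ s ∈ (S : Subgroup G), ∀ x ∈ C, s * x * s⁻¹ ∈ C := by
    rintro s hs x ⟨hxD, hxc⟩
    refine ⟨?_, (normal_centralizer (H := U)).conj_mem x hxc s⟩
    exact hD.2 x hxD s ((S : Subgroup G).mul_mem ((S : Subgroup G).mul_mem hs (hD.1 hxD))
      ((S : Subgroup G).inv_mem hs))
  have hwC : w ∈ C := ⟨hwD, hwc⟩
  -- normalizers of `p`-subgroups above `Y` have normal complements
  have hNPC : ∀ Q : Subgroup G, IsPGroup p Q → Y < Q →
      HasNormalPComplement p ↥(normalizer (Q : Set G)) := by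
    intro Q hQp hYQ
    obtain ⟨h, hhS, hhf⟩ := exists_fully S Q hQp
    apply npc_conj Q h
    set Q₁ : Subgroup G := Q.map (MulAut.conj h).toMonoidHom with hQ₁
    have hQ₁p : IsPGroup p Q₁ := hQp.map _
    have hYQ₁ : Y ≤ Q₁ := by
      intro y hy
      refine ⟨h⁻¹ * y * h, hYQ.le ?_, ?_⟩
      · have := hYn.conj_mem y hy h⁻¹
        simpa using this
      · show h * (h⁻¹ * y * h) * h⁻¹ = y
        group
    have hYltQ₁ : Y < Q₁ := by
      refine lt_of_le_of_ne hYQ₁ ?_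
      intro he
      have h1 : Nat.card Q₁ = Nat.card Q := card_map_of_injective (MulAut.conj h).injective
      have h2 := card_lt_of_lt' hYQ
      rw [← he] at h1
      omega
    have hQ₁S : Q₁ ≤ S := hhS
    have hN₁ne : normalizer (Q₁ : Set G) ≠ ⊤ := by
      intro htop
      have hn := normalizer_eq_top_iff.1 htop
      have := Cfsg.Agent.Lib.PCore.le_pCore hn hQ₁p
      exact absurd (le_antisymm hYQ₁ this) hYltQ₁.ne
    apply step2 S D hD U hUD hmax _ hhf (IH _ hN₁ne)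
    · rw [hUtop]
      exact le_top
    · intro V hV₁ hV₂ hVU
      obtain ⟨c, hcC, hcY, hcN⟩ := exists_mem_normalizer S C Q₁ Y hCS hQ₁S hYQ₁ hCn hwC hwY
      apply hcY
      apply hUY
      apply hVU
      apply hV₂
      exact ⟨⟨hcC.1, hcN⟩, centralizer_le hVU hcC.2⟩
  apply hG
  refine finish U Y hUY hYp ?_ hwY ?_ ?_ ?_
  · obtain ⟨k, hk⟩ := S.isPGroup' ⟨w, hCS hwC⟩
    exact ⟨k, congrArg Subtype.val hk⟩
  · intro u hu
    exact (mem_centralizer_iff.1 hwc u hu).symm
  · intro y hy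
    apply hDYU
    refine ⟨?_, Y.mul_mem (hYn.conj_mem y hy w) (Y.inv_mem hy)⟩
    have h1 : y * w⁻¹ * y⁻¹ ∈ D := by
      apply hD.2 w⁻¹ (inv_mem hwD) y
      exact (S : Subgroup G).mul_mem ((S : Subgroup G).mul_mem (hYS hy)
        ((S : Subgroup G).inv_mem (hD.1 hwD))) ((S : Subgroup G).inv_mem (hYS hy))
    have h2 : w * y * w⁻¹ * y⁻¹ = w * (y * w⁻¹ * y⁻¹) := by group
    rw [h2]
    exact D.mul_mem hwD h1
  · intro Q hQp hYQ a ha hac
    have h1 := hNPC Q hQp hYQ
    rw [hasNormalPComplement_iff_forall] at h1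
    set N : Subgroup G := normalizer (Q : Set G) with hN
    have hQ'n : (Q.subgroupOf N).Normal := normal_in_normalizer
    have h2 := h1 (Q.subgroupOf N) (hQp.comap_of_injective N.subtype N.subtype_injective) ⟨a, ha⟩
      (by rw [normalizer_eq_top_iff.2 hQ'n]; trivial) (by rw [Subgroup.orderOf_mk]; exact hac)
    rw [mem_centralizer_iff] at h2 ⊢
    intro x hx
    have hxN : x ∈ N := le_normalizer hx
    have h3 := h2 ⟨x, hxN⟩ (by
      show (⟨x, hxN⟩ : N) ∈ Q.subgroupOf N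
      rw [mem_subgroupOf]
      exact hx)
    exact congrArg Subtype.val h3

theorem goal_all (n : ℕ) : ∀ (G : Type u) [Group G] [Finite G], Nat.card G = n → Goal p G := by
  induction n using Nat.strong_induction_on with
  | _ n ih =>
    intro G _ _ hn S D hD hyp
    refine main_step (fun N hN => ih (Nat.card N) ?_ N rfl) S D hD hyp
    rw [← hn, ← Subgroup.card_top (G := G)]
    exact card_lt_of_lt' (lt_top_iff_ne_top.2 hN)

/-- A Frobenius normal p-complement criterion relative to a strongly closed subgroup. Let G be a finite group, S a Sylow p-subgroup and D a subgroup of S strongly closed in S with respect to G. Then G has a normal p-complement if and only if N_G(U) has a normal p-complement for every subgroup U of D with C_D(U) ≤ U. -/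
theorem result {G : Type*} [Group G] [Finite G] {p : ℕ} [Fact p.Prime] (S : Sylow p G) (D : Subgroup G) (hD : Cfsg.IsStronglyClosed D (S : Subgroup G)) : Cfsg.HasNormalPComplement p G ↔ ∀ U : Subgroup G, U ≤ D → D ⊓ Subgroup.centralizer (U : Set G) ≤ U → Cfsg.HasNormalPComplement p ↥(Subgroup.normalizer (U : Set G)) := by
  constructor
  · intro h U _ _
    exact hasNormalPComplement_subgroup h _
  · intro h
    exact goal_all _ G rfl S D hD h

end Cfsg.Agent.S3839
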