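import Mathlib
import Cfsg.Prelude.Def_Solvable
import Cfsg.Agent.Lib.FrobPair
import Cfsg.Agent.Lib.Frobenius
import Cfsg.Agent.Lib.FpfCenter
import Cfsg.Agent.Lib.FpfGeneral
import Cfsg.Agent.Lib.MinNorm

set_option autoImplicit false
open Cfsg

namespace Cfsg.Agent.S3857

universe u

/-- Disconnection of the prime graph along a predicate `R` on primes. -/
def Disc (R : ℕ → Prop) (G : Type*) [Group G] : Prop :=
  ∀ a b : ℕ, a.Prime → b.Prime → R a → ¬ R b → ∀ g : G, orderOf g ≠ a * b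

/-- `R`-elements. -/
def RE {G : Type*} [Group G] (R : ℕ → Prop) (x : G) : Prop :=
  ∀ p : ℕ, p.Prime → p ∣ orderOf x → R p

/-- `R`-subgroups. -/
def RG {G : Type*} [Group G] (R : ℕ → Prop) (N : Subgroup G) : Prop :=
  ∀ p : ℕ, p.Prime → p ∣ Nat.card N → R p

theorem Disc.symm {R : ℕ → Prop} {G : Type*} [Group G] (h : Disc R G) :
    Disc (fun p => ¬ R p) G := by
  intro a b ha hb hRa hRb g
  rw [mul_comm]
  exact h b a hb ha (not_not.1 hRb) hRa g

theorem Disc.sub {R : ℕ → Prop} {G : Type*} [Group G] (h : Disc R G) (L : Subgroup G) :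
    Disc R L := by
  intro a b ha hb hRa hRb g
  rw [Subgroup.orderOf_mk]
  exact h a b ha hb hRa hRb g

theorem RG.re {R : ℕ → Prop} {G : Type*} [Group G] [Finite G] {N : Subgroup G} (h : RG R N)
    {x : G} (hx : x ∈ N) : RE R x := fun p hp hd =>
  h p hp (hd.trans (Subgroup.orderOf_dvd_natCard N hx))

theorem edge {R : ℕ → Prop} {G : Type*} [Group G] [Finite G] (h : Disc R G) {x y : G}
    (hx : RE R x) (hy : RE (fun p => ¬ R p) y) (hc : Commute x y)
    (hx1 : x ≠ 1) (hy1 : y ≠ 1) : False := by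
  have hxo : orderOf x ≠ 1 := fun h' => hx1 (orderOf_eq_one_iff.1 h')
  have hyo : orderOf y ≠ 1 := fun h' => hy1 (orderOf_eq_one_iff.1 h')
  obtain ⟨a, ha, hax⟩ := Nat.exists_prime_and_dvd hxo
  obtain ⟨b, hb, hby⟩ := Nat.exists_prime_and_dvd hyo
  have hRa := hx a ha hax
  have hRb := hy b hb hby
  have hab : a ≠ b := by
    rintro rfl
    exact hRb hRa
  have h1 : orderOf (x ^ (orderOf x / a)) = a :=
    orderOf_pow_orderOf_div (orderOf_pos x).ne' hax
  have h2 : orderOf (y ^ (orderOf y / b)) = b :=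
    orderOf_pow_orderOf_div (orderOf_pos y).ne' hby
  have hc' : Commute (x ^ (orderOf x / a)) (y ^ (orderOf y / b)) := hc.pow_pow _ _
  have hcop : (orderOf (x ^ (orderOf x / a))).Coprime (orderOf (y ^ (orderOf y / b))) := by
    rw [h1, h2]
    exact (Nat.coprime_primes ha hb).2 hab
  have h3 := hc'.orderOf_mul_eq_mul_orderOf_of_coprime hcop
  rw [h1, h2] at h3
  exact h a b ha hb hRa hRb _ h3

/-- Frobenius pair from a fixed-point-free semidirect decomposition. -/
theorem lemmaB {E : Type*} [Group E] [Finite E] (A C : Subgroup E) [hA : A.Normal]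
    (h1 : A ⊓ C = ⊥) (h2 : A ⊔ C = ⊤) (hA1 : A ≠ ⊥) (hC1 : C ≠ ⊥)
    (hfpf : ∀ c ∈ C, c ≠ 1 → ∀ a ∈ A, c * a = a * c → a = 1) :
    IsFrobeniusComplement C ∧ frobeniusKernel C = (A : Set E) := by
  have hcomp : ∀ x ∈ A, ∀ g : E, g⁻¹ * x * g ∈ C → x = 1 := by
    intro x hx g hg
    have h3 : g⁻¹ * x * g ∈ A ⊓ C := ⟨by
      have := hA.conj_mem x hx g⁻¹
      simpa using this, hg⟩
    rw [h1, Subgroup.mem_bot] at h3
    have h4 : x = g * (g⁻¹ * x * g) * g⁻¹ := by group
    rw [h4, h3]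
    group
  refine ⟨⟨hC1, ?_, ?_⟩, ?_⟩
  · intro hC
    rw [hC, inf_top_eq] at h1
    exact hA1 h1
  · intro g hg
    rw [eq_bot_iff]
    rintro x ⟨hx, hx'⟩
    rw [Subgroup.mem_bot]
    have hx'' : g⁻¹ * x * g ∈ C := by
      have := (Cfsg.Agent.Lib.Frobenius.mem_conj_iff (H := C)).1 hx'
      exact this
    obtain ⟨a, ha, c, hc, rfl⟩ := Cfsg.Agent.Lib.FrobPair.exists_decomp A C h2 g
    have ha1 : a ≠ 1 := by
      rintro rfl
      exact hg (by simpa using hc)
    have h5 : a⁻¹ * x * a ∈ C := by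
      have := C.mul_mem (C.mul_mem hc hx'') (C.inv_mem hc)
      convert this using 1
      group
    have h6 : a⁻¹ * (x * a * x⁻¹) ∈ A ⊓ C := by
      refine ⟨A.mul_mem (A.inv_mem ha) (hA.conj_mem a ha x), ?_⟩
      have h' : a⁻¹ * (x * a * x⁻¹) = a⁻¹ * x * a * x⁻¹ := by group
      rw [h']
      exact C.mul_mem h5 (C.inv_mem hx)
    rw [h1, Subgroup.mem_bot] at h6
    have h7 : x * a = a * x := by
      have h8 : x * a * x⁻¹ = a := by
        rw [inv_mul_eq_one] at h6
        exact h6.symm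
      rw [mul_inv_eq_iff_eq_mul] at h8
      exact h8
    by_contra hx1
    exact ha1 (hfpf x hx hx1 a ha h7)
  · ext x
    constructor
    · intro hx
      obtain ⟨a, ha, c, hc, rfl⟩ := Cfsg.Agent.Lib.FrobPair.exists_decomp A C h2 x
      by_cases hc1 : c = 1
      · subst hc1
        simpa using ha
      · exfalso
        obtain ⟨t, ht, hk⟩ := Cfsg.Agent.Lib.FrobPair.exists_conj_of_mem A C hfpf hc hc1 ha
        rcases Cfsg.Agent.Lib.Frobenius.mem_kernel_iff.1 hx with h3 | h3
        · rw [hk] at h3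
          apply hc1
          have h4 : c = t⁻¹ * (t * c * t⁻¹) * t := by group
          rw [h4, h3]
          group
        · apply h3 t
          rw [hk]
          convert hc using 1
          group
    · intro hx
      rw [Cfsg.Agent.Lib.Frobenius.mem_kernel_iff]
      by_cases hx1 : x = 1
      · exact Or.inl hx1
      · right
        intro g hg
        exact hx1 (hcomp x hx g hg)

theorem lemmaA {G : Type u} [Group G] [Finite G] [Group.IsSolvable G] {R : ℕ → Prop} (hD : Disc R G)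
    (N : Subgroup G) [hN : N.Normal] (hNR : RG R N)
    (hmax : ∀ M : Subgroup G, M.Normal → RG R M → Nat.card M ≤ Nat.card N)
    (hbot : N ≠ ⊥) (htop : N ≠ ⊤) :
    ∃ (p : ℕ) (Y : Subgroup G), p.Prime ∧ ¬ R p ∧ Y ≠ ⊥ ∧ IsPGroup p Y ∧ IsCyclic Y ∧
      N ⊓ Subgroup.normalizer (Y : Set G) = ⊥ ∧ N ⊔ Subgroup.normalizer (Y : Set G) = ⊤ := by
  classical
  -- the quotient has a nontrivial abelian normal `p`-subgroup
  have hQne : (⊤ : Subgroup (G ⧸ N)) ≠ ⊥ := by
    intro h
    apply htop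
    rw [eq_top_iff]
    intro x _
    have h1 : (x : G ⧸ N) ∈ (⊤ : Subgroup (G ⧸ N)) := Subgroup.mem_top _
    rw [h, Subgroup.mem_bot] at h1
    exact (QuotientGroup.eq_one_iff x).1 h1
  obtain ⟨p, Mb, hp, hMbn, hMbb, -, hMbc, hMbe⟩ :=
    Cfsg.Agent.Lib.MinNorm.exists_abelian_exponent_normal_le (⊤ : Subgroup (G ⧸ N))
      inferInstance hQne
  have : Fact p.Prime := ⟨hp⟩
  have hMbP : IsPGroup p Mb := Cfsg.Agent.Lib.MinNorm.isPGroup_of_exponent hMbe
  -- preimage
  set M : Subgroup G := Mb.comap (QuotientGroup.mk' N) with hM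
  have hMn : M.Normal := hMbn.comap _
  have hNM : N ≤ M := by
    intro x hx
    rw [hM, Subgroup.mem_comap]
    have : QuotientGroup.mk' N x = 1 := (QuotientGroup.eq_one_iff x).2 hx
    rw [this]
    exact Mb.one_mem
  set N' : Subgroup M := N.subgroupOf M with hN'
  have hN'n : N'.Normal := inferInstance
  have hcardN' : Nat.card N' = Nat.card N :=
    Nat.card_congr (Subgroup.subgroupOfEquivOfLe hNM).toEquiv
  -- the index of `N` in `M` is a power of `p`
  have hidx : ∃ n : ℕ, N'.index = p ^ n := by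
    have hPq : IsPGroup p (M ⧸ N') := by
      intro x
      refine ⟨1, ?_⟩
      induction x using QuotientGroup.induction_on with
      | H x =>
        rw [pow_one, ← QuotientGroup.mk_pow, QuotientGroup.eq_one_iff]
        rw [hN', Subgroup.mem_subgroupOf]
        have h1 : (QuotientGroup.mk' N (x : G)) ∈ Mb := x.2
        have h2 := hMbe _ h1
        have h3 : ((x : G) ^ p : G) ∈ N := by
          rw [← QuotientGroup.eq_one_iff]
          exact h2
        simpa using h3
    obtain ⟨n, hn⟩ := IsPGroup.iff_card.1 hPq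
    exact ⟨n, by rw [Subgroup.index_eq_card, hn]⟩
  obtain ⟨n, hn⟩ := hidx
  have hn0 : n ≠ 0 := by
    rintro rfl
    rw [pow_zero, Subgroup.index_eq_one] at hn
    apply hMbb
    rw [eq_bot_iff]
    intro xb hxb
    obtain ⟨x, rfl⟩ := QuotientGroup.mk'_surjective N xb
    have hx : x ∈ M := hxb
    have h1 : (⟨x, hx⟩ : M) ∈ N' := by rw [hn]; trivial
    rw [hN', Subgroup.mem_subgroupOf] at h1
    rw [Subgroup.mem_bot]
    exact (QuotientGroup.eq_one_iff x).2 h1
  have hcardM : Nat.card M = Nat.card N * p ^ n := by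
    rw [← hn, ← hcardN']
    exact (Subgroup.card_mul_index N').symm
  have hRp : ¬ R p := by
    intro hRp
    have hMR : RG R M := by
      intro q hq hqd
      rw [hcardM] at hqd
      rcases (Nat.Prime.dvd_mul hq).1 hqd with h | h
      · exact hNR q hq h
      · have := (Nat.prime_dvd_prime_iff_eq hq hp).1 (hq.dvd_of_dvd_pow h)
        rwa [this]
    have h1 := hmax M hMn hMR
    rw [hcardM] at h1
    have h2 : 0 < Nat.card N := Nat.card_pos
    have h3 : 2 ≤ p ^ n := by
      calc 2 ≤ p := hp.two_le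
        _ = p ^ 1 := (pow_one p).symm
        _ ≤ p ^ n := Nat.pow_le_pow_right hp.pos (Nat.pos_of_ne_zero hn0)
    nlinarith
  have hpN : ¬ p ∣ Nat.card N := fun h => hRp (hNR p hp h)
  -- Sylow subgroup of `M`
  obtain ⟨P⟩ : Nonempty (Sylow p M) := inferInstance
  set Y : Subgroup G := (P : Subgroup M).map M.subtype with hY
  have hYP : IsPGroup p Y := P.2.map _
  have hYre : ∀ c ∈ Y, RE (fun q => ¬ R q) c := by
    intro c hc q hq hqd
    obtain ⟨k, hk⟩ := (hYP ⟨c, hc⟩)
    have h1 : c ^ p ^ k = 1 := by simpa using congrArg Subtype.val hk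
    have h2 : orderOf c ∣ p ^ k := orderOf_dvd_of_pow_eq_one h1
    have h3 : q = p := (Nat.prime_dvd_prime_iff_eq hq hp).1 (hq.dvd_of_dvd_pow (hqd.trans h2))
    rw [h3]
    exact hRp
  have hNY : ∀ x ∈ N, x ∈ Y → x = 1 := by
    intro x hxN hxY
    by_contra hx1
    have h1 : orderOf x ≠ 1 := fun h => hx1 (orderOf_eq_one_iff.1 h)
    obtain ⟨q, hq, hqd⟩ := Nat.exists_prime_and_dvd h1
    exact hYre x hxY q hq hqd (hNR.re hxN q hq hqd)
  have hfp : ∀ c ∈ Y, c ≠ 1 → ∀ x ∈ N, c * x = x * c → x = 1 := by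
    intro c hc hc1 x hx hcx
    by_contra hx1
    exact edge hD (hNR.re hx) (hYre c hc) hcx.symm hx1 hc1
  have hYne : Y ≠ ⊥ := by
    have hpM : p ∣ Nat.card M := by
      rw [hcardM]
      exact Dvd.dvd.mul_left (dvd_pow_self p hn0) _
    have h1 := P.ne_bot_of_dvd_card hpM
    intro h2
    rw [hY, Subgroup.map_eq_bot_iff_of_injective _ M.subtype_injective] at h2
    exact h1 h2
  have hYab : ∀ x ∈ Y, ∀ y ∈ Y, x * y = y * x := by
    intro x hx y hy
    have hxM : x ∈ M := by
      obtain ⟨x', _, rfl⟩ := hx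
      exact x'.2
    have hyM : y ∈ M := by
      obtain ⟨y', _, rfl⟩ := hy
      exact y'.2
    have h1 := hMbc _ hxM _ hyM
    have h2 : x * y * (y * x)⁻¹ ∈ N := by
      rw [← QuotientGroup.eq_one_iff, QuotientGroup.mk_mul, QuotientGroup.mk_inv,
        QuotientGroup.mk_mul, QuotientGroup.mk_mul]
      have h1' : (x : G ⧸ N) * (y : G ⧸ N) = (y : G ⧸ N) * (x : G ⧸ N) := h1
      rw [h1']
      exact mul_inv_cancel _
    have h3 := hNY _ h2 (Y.mul_mem (Y.mul_mem hx hy) (Y.inv_mem (Y.mul_mem hy hx)))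
    exact mul_inv_eq_one.1 h3
  have hYN : Y ≤ Subgroup.normalizer (N : Set G) := by
    rw [Subgroup.normalizer_eq_top_iff.2 hN]
    exact le_top
  have hYc : IsCyclic Y := by
    apply Cfsg.Agent.Lib.FpfGeneral.isCyclic_of_fpf Y N hbot hYN
    · intro a ha ha1
      rw [eq_bot_iff]
      rintro x ⟨hxN, hxc⟩
      rw [Subgroup.mem_bot]
      apply hfp a ha ha1 x hxN
      have := Subgroup.mem_centralizer_iff.1 hxc a rfl
      exact this
    · left
      refine ⟨⟨?_⟩⟩
      rintro ⟨x, hx⟩ ⟨y, hy⟩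
      exact Subtype.ext (hYab x hx y hy)
  refine ⟨p, Y, hp, hRp, hYne, hYP, hYc, ?_, ?_⟩
  · -- `N ⊓ N_G(Y) = 1`
    rw [eq_bot_iff]
    rintro x ⟨hxN, hxY⟩
    rw [Subgroup.mem_bot]
    haveI : Nontrivial Y := (Subgroup.nontrivial_iff_ne_bot Y).2 hYne
    obtain ⟨c, hc, hc1⟩ := Subgroup.exists_ne_one_of_nontrivial Y
    have h1 : x * c * x⁻¹ ∈ Y := (Subgroup.mem_normalizer_iff.1 hxY c).1 hc
    have h2 : x * c * x⁻¹ * c⁻¹ ∈ N := by
      have h3 : x * c * x⁻¹ * c⁻¹ = x * (c * x⁻¹ * c⁻¹) := by group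
      rw [h3]
      exact N.mul_mem hxN (hN.conj_mem _ (N.inv_mem hxN) c)
    have h4 := hNY _ h2 (Y.mul_mem h1 (Y.inv_mem hc))
    have h5 : x * c * x⁻¹ = c := mul_inv_eq_one.1 h4
    apply hfp c hc hc1 x hxN
    rw [mul_inv_eq_iff_eq_mul] at h5
    exact h5.symm
  · -- `N ⊔ N_G(Y) = ⊤`
    have hX : (P : Subgroup M) ⊔ N' = ⊤ := by
      set X : Subgroup M := (P : Subgroup M) ⊔ N' with hX
      have h1 : X.index ∣ (P : Subgroup M).index := Subgroup.index_dvd_of_le le_sup_left
      have h2 : X.index ∣ N'.index := Subgroup.index_dvd_of_le le_sup_right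
      rw [hn] at h2
      obtain ⟨k, -, hk⟩ := (Nat.dvd_prime_pow hp).1 h2
      rcases Nat.eq_zero_or_pos k with rfl | hk0
      · rw [pow_zero, Subgroup.index_eq_one] at hk
        exact hk
      · exfalso
        apply P.not_dvd_index
        apply Dvd.dvd.trans _ h1
        rw [hk]
        exact dvd_pow_self p hk0.ne'
    have hM2 : M ≤ Y ⊔ N := by
      have h1 := congrArg (Subgroup.map M.subtype) hX
      rw [Subgroup.map_sup, ← hY, hN', Subgroup.subgroupOf_map_subtype, inf_of_le_left hNM,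
        ← MonoidHom.range_eq_map, Subgroup.range_subtype] at h1
      rw [h1]
    have h3 : Subgroup.normalizer (Y : Set G) ⊔ M = ⊤ := P.normalizer_sup_eq_top
    rw [eq_top_iff, ← h3]
    apply sup_le le_sup_right
    apply hM2.trans
    apply sup_le
    · exact (Subgroup.le_normalizer).trans le_sup_right
    · exact le_sup_left

/-- The automorphisms of a cyclic group commute. -/
theorem mulAut_comm {A : Type*} [Group A] [IsCyclic A] (f g : MulAut A) : f * g = g * f := by
  obtain ⟨m, hm⟩ := MonoidHom.map_cyclic f.toMonoidHom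
  obtain ⟨n, hn⟩ := MonoidHom.map_cyclic g.toMonoidHom
  have hm' : ∀ x : A, f x = x ^ m := hm
  have hn' : ∀ x : A, g x = x ^ n := hn
  ext x
  rw [MulAut.mul_apply, MulAut.mul_apply, hm', hn', hm', hn', ← zpow_mul, ← zpow_mul, mul_comm]

/-- The action of the normalizer on the abelianization. -/
noncomputable def abelAct {G : Type*} [Group G] (T : Subgroup G) :
    Subgroup.normalizer (T : Set G) →* MulAut (Abelianization T) :=
  MonoidHom.mk' (fun w => (T.normalizerMonoidHom w).abelianizationCongr) (by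
    intro a b
    rw [map_mul, MulAut.mul_def, MulAut.mul_def]
    exact (abelianizationCongr_trans _ _).symm)

theorem abelAct_of {G : Type*} [Group G] (T : Subgroup G)
    (w : Subgroup.normalizer (T : Set G)) (t : T) :
    abelAct T w (Abelianization.of t) = Abelianization.of (T.normalizerMonoidHom w t) := rfl

theorem no_bad {G : Type u} [Group G] [Finite G] [Group.IsSolvable G] {R : ℕ → Prop}
    (hD : Disc R G) (N : Subgroup G) [hN : N.Normal] (hN1 : N ≠ ⊥) (hNR : RG R N)
    (T : Subgroup G) (hTR : RG (fun p => ¬ R p) T) (hT : T ≠ ⊥)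
    (y z : G) (hy : y ∈ Subgroup.normalizer (T : Set G))
    (hz : z ∈ Subgroup.normalizer (T : Set G))
    (hyp : (orderOf y).Prime) (hyR : R (orderOf y))
    (hzR : RE (fun p => ¬ R p) z) (hz1 : z ≠ 1) (hzy : ∃ e : ℤ, z * y * z⁻¹ = y ^ e) : False := by
  classical
  have hy1 : y ≠ 1 := by
    rintro rfl
    rw [orderOf_one] at hyp
    exact Nat.not_prime_one hyp
  have hyre : RE R y := by
    intro p hp hd
    rw [(Nat.prime_dvd_prime_iff_eq hp hyp).1 hd]
    exact hyR
  -- `y` acts fixed-point-freely on `T`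
  have hyT : ∀ t ∈ T, y * t = t * y → t = 1 := by
    intro t ht hc
    by_contra ht1
    exact edge hD hyre (hTR.re ht) hc hy1 ht1
  -- `T` acts fixed-point-freely on `N`
  have hTN : ∀ a ∈ T, a ≠ 1 → N ⊓ Subgroup.centralizer {a} = ⊥ := by
    intro a ha ha1
    rw [eq_bot_iff]
    rintro x ⟨hxN, hxc⟩
    rw [Subgroup.mem_bot]
    by_contra hx1
    have h1 : a * x = x * a := Subgroup.mem_centralizer_iff.1 hxc a rfl
    exact edge hD (hNR.re hxN) (hTR.re ha) h1.symm hx1 ha1
  have hnorm : ∀ a : G, a ∈ Subgroup.normalizer (N : Set G) := by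
    intro a
    rw [Subgroup.normalizer_eq_top_iff.2 hN]
    trivial
  -- `T` has odd order
  have hodd : ¬ 2 ∣ Nat.card T := by
    intro h2
    have : Fact (Nat.Prime 2) := ⟨Nat.prime_two⟩
    obtain ⟨t, ht⟩ := exists_prime_orderOf_dvd_card' (G := T) 2 h2
    have htT : (t : G) ∈ T := t.2
    have ht2 : orderOf (t : G) = 2 := by
      rw [Subgroup.orderOf_coe]
      exact ht
    have htt : (t : G) * t = 1 := by
      rw [← sq, ← ht2]
      exact pow_orderOf_eq_one _
    have ht1 : (t : G) ≠ 1 := by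
      intro h
      rw [h, orderOf_one] at ht2
      omega
    set t' : G := y * t * y⁻¹ with ht'
    have ht'T : t' ∈ T := (Subgroup.mem_normalizer_iff.1 hy _).1 htT
    have ht't' : t' * t' = 1 := by
      have : t' * t' = y * (t * t) * y⁻¹ := by
        rw [ht']
        group
      rw [this, htt]
      group
    have hne : t' ≠ t := by
      intro h
      apply ht1
      apply hyT _ htT
      rw [← mul_inv_eq_iff_eq_mul]
      exact h
    have hinv1 := Cfsg.Agent.Lib.FpfCenter.inv_of_involution N (t : G) htt (hnorm _) (hTN _ htT ht1)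
    have ht'1 : t' ≠ 1 := by
      intro h
      rw [ht', mul_inv_eq_one, mul_eq_left] at h
      exact ht1 h
    have hinv2 := Cfsg.Agent.Lib.FpfCenter.inv_of_involution N t' ht't' (hnorm _) (hTN _ ht'T ht'1)
    have hprod : (t : G) * t' ≠ 1 := by
      intro h
      apply hne
      have h1 : (t : G)⁻¹ = t := inv_eq_of_mul_eq_one_left htt
      rw [← h1]
      exact (eq_inv_of_mul_eq_one_right h)
    have hbot := hTN _ (T.mul_mem htT ht'T) hprod
    apply hN1
    rw [eq_bot_iff]
    intro k hk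
    have h3 : k ∈ N ⊓ Subgroup.centralizer {(t : G) * t'} := by
      refine ⟨hk, Subgroup.mem_centralizer_iff.2 ?_⟩
      intro g hg
      rw [Set.mem_singleton_iff] at hg
      subst hg
      have h4 := hinv1 k⁻¹ (N.inv_mem hk)
      have h5 := hinv2 k hk
      have h6 : (t : G) * t' * k * ((t : G) * t')⁻¹ = k := by
        calc (t : G) * t' * k * ((t : G) * t')⁻¹ = t * (t' * k * t'⁻¹) * (t : G)⁻¹ := by group
          _ = k := by rw [h5, h4, inv_inv]
      rw [mul_inv_eq_iff_eq_mul] at h6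
      exact h6
    rwa [hbot] at h3
  -- `T` is a Z-group
  have hZ : IsZGroup T := by
    refine ⟨fun p hp P => ?_⟩
    have : Fact p.Prime := ⟨hp⟩
    by_cases hp2 : p = 2
    · subst hp2
      have h1 : Nat.card P = 1 := by
        obtain ⟨n, hn⟩ := IsPGroup.iff_card.1 P.2
        rcases Nat.eq_zero_or_pos n with rfl | hn0
        · simpa using hn
        · exfalso
          apply hodd
          have h2 : Nat.card P ∣ Nat.card T := Subgroup.card_subgroup_dvd_card _
          apply Dvd.dvd.trans _ h2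
          rw [hn]
          exact dvd_pow_self 2 hn0.ne'
      have : Subsingleton P := (Nat.card_eq_one_iff_unique.1 h1).1
      exact isCyclic_of_subsingleton
    · set P' : Subgroup G := (P : Subgroup T).map T.subtype with hP'
      have hP'T : P' ≤ T := Subgroup.map_subtype_le _
      have hP'P : IsPGroup p P' := P.2.map _
      rcases Cfsg.Agent.Lib.FpfGeneral.isCyclic_or_quaternion_of_fpf P' N hN1 (fun a _ => hnorm a)
        (fun a ha => hTN a (hP'T ha)) hP'P with h | h
      · let e : P ≃* P' := (P : Subgroup T).equivMapOfInjective T.subtype T.subtype_injective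
        exact isCyclic_of_surjective e.symm e.symm.surjective
      · exact absurd h.1 hp2
  have hAc : IsCyclic (Abelianization T) := IsZGroup.isCyclic_abelianization
  -- `y` acts trivially on the abelianization of `T`
  obtain ⟨e, he⟩ := hzy
  set y' : Subgroup.normalizer (T : Set G) := ⟨y, hy⟩ with hy'
  set z' : Subgroup.normalizer (T : Set G) := ⟨z, hz⟩ with hz'
  have he' : z' * y' * z'⁻¹ = y' ^ e := Subtype.ext he
  set c := abelAct T y' with hc
  have hc1 : c ^ e = c := by
    rw [hc, ← map_zpow, ← he', map_mul, map_mul, map_inv, mulAut_comm (abelAct T z') (abelAct T y')]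
    group
  have hc2 : c ^ (orderOf y) = 1 := by
    have h1 : y' ^ (orderOf y) = 1 := by
      apply Subtype.ext
      simp [hy', pow_orderOf_eq_one]
    rw [hc, ← map_pow, h1, map_one]
  have hc3 : c = 1 := by
    have h1 : orderOf c ∣ orderOf y := orderOf_dvd_of_pow_eq_one hc2
    rcases (Nat.dvd_prime hyp).1 h1 with h2 | h2
    · exact orderOf_eq_one_iff.1 h2
    · exfalso
      have h3 : c ^ (e - 1) = 1 := by
        rw [zpow_sub_one, hc1, mul_inv_cancel]
      have h4 : (orderOf c : ℤ) ∣ e - 1 := orderOf_dvd_iff_zpow_eq_one.2 h3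
      rw [h2] at h4
      have h5 : y ^ (e - 1) = 1 := orderOf_dvd_iff_zpow_eq_one.1 h4
      have h6 : y ^ e = y := by
        have h7 : y ^ e = y ^ (e - 1) * y := by
          rw [← zpow_add_one]
          congr 1
          ring
        rw [h7, h5, one_mul]
      rw [h6] at he
      have h8 : z * y = y * z := by
        rw [mul_inv_eq_iff_eq_mul] at he
        exact he
      exact edge hD hyre hzR h8.symm hy1 hz1
  -- hence every element of `T` dies in the abelianization
  have hsurj : ∀ t : T, ∃ s : T, (t : G) = s * (y * (s : G)⁻¹ * y⁻¹) := by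
    let σ : T → T := fun s => ⟨(s : G) * (y * (s : G)⁻¹ * y⁻¹), T.mul_mem s.2
      ((Subgroup.mem_normalizer_iff.1 hy _).1 (T.inv_mem s.2))⟩
    have hinj : Function.Injective σ := by
      intro s s' hss
      have h1 : (s : G) * (y * (s : G)⁻¹ * y⁻¹) = s' * (y * (s' : G)⁻¹ * y⁻¹) :=
        congrArg Subtype.val hss
      have h2 : y * ((s' : G)⁻¹ * s) = ((s' : G)⁻¹ * s) * y := by
        have h3 : (s' : G)⁻¹ * ((s : G) * (y * (s : G)⁻¹ * y⁻¹)) * y * s =
            (s' : G)⁻¹ * (s' * (y * (s' : G)⁻¹ * y⁻¹)) * y * s := by rw [h1]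
        have h4 : (s' : G)⁻¹ * ((s : G) * (y * (s : G)⁻¹ * y⁻¹)) * y * s = (s' : G)⁻¹ * s * y := by
          group
        have h5 : (s' : G)⁻¹ * (s' * (y * (s' : G)⁻¹ * y⁻¹)) * y * s = y * ((s' : G)⁻¹ * s) := by
          group
        rw [h4, h5] at h3
        exact h3.symm
      have h6 := hyT _ (T.mul_mem (T.inv_mem s'.2) s.2) h2
      rw [inv_mul_eq_one] at h6
      exact Subtype.ext h6.symm
    intro t
    obtain ⟨s, hs⟩ := (Finite.injective_iff_surjective.1 hinj) t
    exact ⟨s, (congrArg Subtype.val hs).symm⟩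
  have hof : ∀ t : T, (Abelianization.of t : Abelianization T) = 1 := by
    intro t
    obtain ⟨s, hs⟩ := hsurj t
    have h1 : abelAct T y' (Abelianization.of s) = Abelianization.of s := by
      rw [← hc, hc3]
      rfl
    rw [abelAct_of] at h1
    have h2 : t = s * (T.normalizerMonoidHom y' s)⁻¹ := by
      apply Subtype.ext
      rw [hs]
      simp only [Subgroup.coe_mul, Subgroup.coe_inv]
      congr 1
      have : ((T.normalizerMonoidHom y' s : T) : G) = y * s * y⁻¹ := rfl
      rw [this]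
      group
    rw [h2, map_mul, map_inv, h1, mul_inv_cancel]
  have hcomm : commutator T = ⊤ := by
    rw [eq_top_iff]
    intro t _
    have h1 := hof t
    have h2 : t ∈ (Abelianization.of : T →* Abelianization T).ker := h1
    rwa [Abelianization.ker_of] at h2
  have : Nontrivial T := (Subgroup.nontrivial_iff_ne_bot T).2 hT
  have h9 := Group.IsSolvable.commutator_lt_top_of_nontrivial T
  exact h9.ne hcomm

theorem exists_max_rg {G : Type u} [Group G] [Finite G] (R : ℕ → Prop) :
    ∃ N : Subgroup G, N.Normal ∧ RG R N ∧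
      ∀ M : Subgroup G, M.Normal → RG R M → Nat.card M ≤ Nat.card N := by
  have hbot : RG R (⊥ : Subgroup G) := by
    intro p hp hd
    rw [Subgroup.card_bot] at hd
    exact absurd (Nat.dvd_one.1 hd) hp.ne_one
  obtain ⟨N, hN, hmax⟩ := Set.exists_max_image {M : Subgroup G | M.Normal ∧ RG R M}
    (fun M => Nat.card M) (Set.toFinite _) ⟨⊥, inferInstance, hbot⟩
  exact ⟨N, hN.1, hN.2, fun M h1 h2 => hmax M ⟨h1, h2⟩⟩

theorem assemble {G : Type u} [Group G] [Finite G] {R : ℕ → Prop} (hD : Disc R G)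
    (N L T L₂ : Subgroup G) [hN : N.Normal] (hNR : RG R N) (hTR : RG (fun q => ¬ R q) T)
    (hL₂R : RG R L₂) (hN1 : N ≠ ⊥) (hT1 : T ≠ ⊥) (hL₂1 : L₂ ≠ ⊥)
    (hNL : N ⊓ L = ⊥) (hNLs : N ⊔ L = ⊤) (hTL : T ≤ L)
    (hTnorm : ∀ l ∈ L, ∀ t ∈ T, l * t * l⁻¹ ∈ T) (hL₂L : L₂ ≤ L)
    (hTL₂ : T ⊓ L₂ = ⊥) (hTL₂s : T ⊔ L₂ = L) :
    ∃ (H K : Subgroup G) (_ : H.Normal), K.Normal ∧ H < K ∧
      (∃ C : Subgroup ↥K, Cfsg.IsFrobeniusComplement C ∧
        Cfsg.frobeniusKernel C = (H.subgroupOf K : Set ↥K)) ∧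
      (∃ C : Subgroup (G ⧸ H), Cfsg.IsFrobeniusComplement C ∧
        Cfsg.frobeniusKernel C = (K.map (QuotientGroup.mk' H) : Set (G ⧸ H))) := by
  classical
  set K : Subgroup G := N ⊔ T with hK
  have hNK : N ≤ K := le_sup_left
  have hTK : T ≤ K := le_sup_right
  have hNLe : ∀ x ∈ N, x ∈ L → x = 1 := by
    intro x hx hx'
    have h1 : x ∈ N ⊓ L := ⟨hx, hx'⟩
    rwa [hNL, Subgroup.mem_bot] at h1
  have hKdec : ∀ x ∈ K, ∃ n ∈ N, ∃ t ∈ T, n * t = x := fun x hx =>
    Subgroup.mem_sup_of_normal_left.1 hx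
  have hKn : K.Normal := by
    constructor
    intro x hx g
    obtain ⟨n, hn, l, hl, rfl⟩ := Cfsg.Agent.Lib.FrobPair.exists_decomp N L hNLs g
    obtain ⟨n', hn', t, ht, rfl⟩ := hKdec x hx
    have h1 : l * (n' * t) * l⁻¹ ∈ K := by
      have h2 : l * (n' * t) * l⁻¹ = (l * n' * l⁻¹) * (l * t * l⁻¹) := by group
      rw [h2]
      exact K.mul_mem (hNK (hN.conj_mem n' hn' l)) (hTK (hTnorm l hl t ht))
    have h3 : n * l * (n' * t) * (n * l)⁻¹ = n * (l * (n' * t) * l⁻¹) * n⁻¹ := by group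
    rw [h3]
    exact K.mul_mem (K.mul_mem (hNK hn) h1) (K.inv_mem (hNK hn))
  have hNlt : N < K := by
    refine lt_of_le_of_ne hNK ?_
    intro h
    apply hT1
    rw [eq_bot_iff]
    intro t ht
    have h1 : t ∈ N := by
      rw [h]
      exact hTK ht
    rw [Subgroup.mem_bot]
    exact hNLe t h1 (hTL ht)
  refine ⟨N, K, hN, hKn, hNlt, ?_, ?_⟩
  · -- first Frobenius pair
    refine ⟨T.subgroupOf K, ?_⟩
    have h1 : N.subgroupOf K ⊓ T.subgroupOf K = ⊥ := by
      rw [eq_bot_iff]
      rintro x ⟨hx, hx'⟩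
      have hx2 : (x : G) ∈ N := hx
      have hx3 : (x : G) ∈ T := hx'
      rw [Subgroup.mem_bot]
      exact Subtype.ext (hNLe _ hx2 (hTL hx3))
    have h2 : N.subgroupOf K ⊔ T.subgroupOf K = ⊤ := by
      rw [← Subgroup.subgroupOf_sup hNK hTK, ← hK, Subgroup.subgroupOf_self]
    have h3 : N.subgroupOf K ≠ ⊥ := by
      intro h
      apply hN1
      rw [eq_bot_iff]
      intro x hx
      have h4 : (⟨x, hNK hx⟩ : K) ∈ N.subgroupOf K := by
        rw [Subgroup.mem_subgroupOf]
        exact hx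
      rw [h, Subgroup.mem_bot] at h4
      rw [Subgroup.mem_bot]
      exact congrArg Subtype.val h4
    have h4 : T.subgroupOf K ≠ ⊥ := by
      intro h
      apply hT1
      rw [eq_bot_iff]
      intro x hx
      have h5 : (⟨x, hTK hx⟩ : K) ∈ T.subgroupOf K := by
        rw [Subgroup.mem_subgroupOf]
        exact hx
      rw [h, Subgroup.mem_bot] at h5
      rw [Subgroup.mem_bot]
      exact congrArg Subtype.val h5
    refine lemmaB (N.subgroupOf K) (T.subgroupOf K) h1 h2 h3 h4 ?_
    intro c hc hc1 a ha hca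
    have hc : (c : G) ∈ T := hc
    have ha : (a : G) ∈ N := ha
    apply Subtype.ext
    by_contra ha1
    have hc1' : (c : G) ≠ 1 := fun h => hc1 (Subtype.ext h)
    have hca' : (c : G) * a = a * c := congrArg Subtype.val hca
    exact edge hD (hNR.re ha) (hTR.re hc) hca'.symm ha1 hc1'
  · -- second Frobenius pair
    refine ⟨L₂.map (QuotientGroup.mk' N), ?_⟩
    have hKm : K.map (QuotientGroup.mk' N) = T.map (QuotientGroup.mk' N) := by
      rw [hK, Subgroup.map_sup, QuotientGroup.map_mk'_self, bot_sup_eq]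
    have h1 : K.map (QuotientGroup.mk' N) ⊓ L₂.map (QuotientGroup.mk' N) = ⊥ := by
      rw [hKm, eq_bot_iff]
      rintro x ⟨⟨t, ht, rfl⟩, ⟨l, hl, hlt⟩⟩
      rw [Subgroup.mem_bot]
      have h2 : t⁻¹ * l ∈ N := by
        rw [← QuotientGroup.eq]
        exact hlt.symm
      have h3 : t⁻¹ * l = 1 := hNLe _ h2 (L.mul_mem (L.inv_mem (hTL ht)) (hL₂L hl))
      have h4 : l = t := by
        rw [inv_mul_eq_one] at h3
        exact h3.symm
      subst h4
      have h5 : l ∈ T ⊓ L₂ := ⟨ht, hl⟩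
      rw [hTL₂, Subgroup.mem_bot] at h5
      rw [h5, map_one]
    have h2 : K.map (QuotientGroup.mk' N) ⊔ L₂.map (QuotientGroup.mk' N) = ⊤ := by
      rw [hKm, ← Subgroup.map_sup, hTL₂s]
      have h3 : (N ⊔ L).map (QuotientGroup.mk' N) = ⊤ := by
        rw [hNLs, ← MonoidHom.range_eq_map, MonoidHom.range_eq_top]
        exact QuotientGroup.mk'_surjective N
      rwa [Subgroup.map_sup, QuotientGroup.map_mk'_self, bot_sup_eq] at h3
    have h3 : K.map (QuotientGroup.mk' N) ≠ ⊥ := by
      intro h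
      rw [Subgroup.map_eq_bot_iff, QuotientGroup.ker_mk'] at h
      exact absurd (le_antisymm h hNK) hNlt.ne'
    have h4 : L₂.map (QuotientGroup.mk' N) ≠ ⊥ := by
      intro h
      rw [Subgroup.map_eq_bot_iff, QuotientGroup.ker_mk'] at h
      apply hL₂1
      rw [eq_bot_iff]
      intro x hx
      rw [Subgroup.mem_bot]
      exact hNLe x (h hx) (hL₂L hx)
    have hnorm : (K.map (QuotientGroup.mk' N)).Normal :=
      hKn.map _ (QuotientGroup.mk'_surjective N)
    refine lemmaB (K.map (QuotientGroup.mk' N)) (L₂.map (QuotientGroup.mk' N)) h1 h2 h3 h4 ?_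
    rw [hKm]
    rintro _ ⟨c, hc, rfl⟩ hc1 _ ⟨t, ht, rfl⟩ hca
    have hc1' : c ≠ 1 := by
      rintro rfl
      exact hc1 (map_one _)
    have h5 : c * t * (t * c)⁻¹ ∈ N := by
      rw [← QuotientGroup.eq_one_iff, QuotientGroup.mk_mul, QuotientGroup.mk_inv,
        QuotientGroup.mk_mul, QuotientGroup.mk_mul]
      have hca' : (c : G ⧸ N) * (t : G ⧸ N) = (t : G ⧸ N) * (c : G ⧸ N) := hca
      rw [hca']
      exact mul_inv_cancel _
    have hcL := hL₂L hc
    have htL := hTL ht
    have h6 : c * t * (t * c)⁻¹ = 1 :=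
      hNLe _ h5 (L.mul_mem (L.mul_mem hcL htL) (L.inv_mem (L.mul_mem htL hcL)))
    have h7 : c * t = t * c := mul_inv_eq_one.1 h6
    by_cases ht1 : t = 1
    · rw [ht1, map_one]
    · exact (edge hD (hL₂R.re hc) (hTR.re ht) h7 hc1' ht1).elim

theorem main {G : Type u} [Group G] [Finite G] [Group.IsSolvable G] {R : ℕ → Prop} (hD : Disc R G)
    (M₀ : Subgroup G) (hM₀n : M₀.Normal) (hM₀R : RG R M₀) (hM₀ : M₀ ≠ ⊥)
    (b : ℕ) (hb : b.Prime) (hRb : ¬ R b) (hbd : b ∣ Nat.card G) :
    (∃ C : Subgroup G, Cfsg.IsFrobeniusComplement C) ∨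
    (∃ (H K : Subgroup G) (_ : H.Normal), K.Normal ∧ H < K ∧
      (∃ C : Subgroup ↥K, Cfsg.IsFrobeniusComplement C ∧
        Cfsg.frobeniusKernel C = (H.subgroupOf K : Set ↥K)) ∧
      (∃ C : Subgroup (G ⧸ H), Cfsg.IsFrobeniusComplement C ∧
        Cfsg.frobeniusKernel C = (K.map (QuotientGroup.mk' H) : Set (G ⧸ H)))) := by
  classical
  obtain ⟨N, hNn, hNR, hNmax⟩ := exists_max_rg (G := G) R
  have hN1 : N ≠ ⊥ := by
    rintro rfl
    have h1 := hNmax M₀ hM₀n hM₀R
    rw [Subgroup.card_bot] at h1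
    exact hM₀ ((Subgroup.card_le_one_iff_eq_bot _).1 h1)
  have hNt : N ≠ ⊤ := by
    rintro rfl
    rw [RG, Subgroup.card_top] at hNR
    exact hRb (hNR b hb hbd)
  obtain ⟨p, Y, hp, hRp, hY1, hYP, hYc, hNL, hNLs⟩ := lemmaA hD N hNR hNmax hN1 hNt
  set L : Subgroup G := Subgroup.normalizer (Y : Set G) with hL
  have hL1 : L ≠ ⊥ := by
    intro h
    rw [h, sup_bot_eq] at hNLs
    exact hNt hNLs
  by_cases hLR : RG (fun q => ¬ R q) L
  · left
    refine ⟨L, (lemmaB N L hNL hNLs hN1 hL1 ?_).1⟩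
    intro c hc hc1 a ha hca
    by_contra ha1
    exact edge hD (hNR.re ha) (hLR.re hc) hca.symm ha1 hc1
  · right
    have hDL : Disc (fun q => ¬ R q) L := (hD.sub L).symm
    obtain ⟨T, hTn, hTR, hTmax⟩ := exists_max_rg (G := L) (fun q => ¬ R q)
    have hYL : Y ≤ L := Subgroup.le_normalizer
    have hYLc : Nat.card (Y.subgroupOf L) = Nat.card Y :=
      Nat.card_congr (Subgroup.subgroupOfEquivOfLe hYL).toEquiv
    have hYLn : (Y.subgroupOf L).Normal := Subgroup.normal_in_normalizer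
    have hYLR : RG (fun q => ¬ R q) (Y.subgroupOf L) := by
      intro q hq hqd
      rw [hYLc] at hqd
      have : Fact p.Prime := ⟨hp⟩
      obtain ⟨n, hn⟩ := IsPGroup.iff_card.1 hYP
      rw [hn] at hqd
      rw [(Nat.prime_dvd_prime_iff_eq hq hp).1 (hq.dvd_of_dvd_pow hqd)]
      exact hRp
    have hT1 : T ≠ ⊥ := by
      rintro rfl
      have h1 := hTmax _ hYLn hYLR
      rw [Subgroup.card_bot, hYLc] at h1
      exact hY1 ((Subgroup.card_le_one_iff_eq_bot _).1 h1)
    have hTt : T ≠ ⊤ := by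
      rintro rfl
      apply hLR
      intro q hq hqd
      apply hTR q hq
      rw [Subgroup.card_top]
      exact hqd
    obtain ⟨p₂, Y₂, hp₂, hRp₂, hY₂1, hY₂P, hY₂c, hTL₂, hTL₂s⟩ :=
      lemmaA hDL T hTR hTmax hT1 hTt
    set L₂ : Subgroup L := Subgroup.normalizer (Y₂ : Set L) with hL₂
    have hRp₂' : R p₂ := not_not.1 hRp₂
    have : Fact p₂.Prime := ⟨hp₂⟩
    set T' : Subgroup G := T.map L.subtype with hT'
    set L₂' : Subgroup G := L₂.map L.subtype with hL₂'
    have hT'R : RG (fun q => ¬ R q) T' := by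
      intro q hq hqd
      rw [hT', Subgroup.card_map_of_injective L.subtype_injective] at hqd
      exact hTR q hq hqd
    have hT'1 : T' ≠ ⊥ := by
      intro h
      rw [hT', Subgroup.map_eq_bot_iff_of_injective _ L.subtype_injective] at h
      exact hT1 h
    have hL₂1 : L₂ ≠ ⊥ := by
      intro h
      rw [h, sup_bot_eq] at hTL₂s
      exact hTt hTL₂s
    have hL₂'1 : L₂' ≠ ⊥ := by
      intro h
      rw [hL₂', Subgroup.map_eq_bot_iff_of_injective _ L.subtype_injective] at h
      exact hL₂1 h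
    have hT'norm : ∀ l ∈ L, ∀ t ∈ T', l * t * l⁻¹ ∈ T' := by
      rintro l hl _ ⟨t, ht, rfl⟩
      exact ⟨⟨l, hl⟩ * t * ⟨l, hl⟩⁻¹, hTn.conj_mem t ht _, rfl⟩
    have hT'normz : ∀ l ∈ L, l ∈ Subgroup.normalizer (T' : Set G) := by
      intro l hl
      rw [Subgroup.mem_normalizer_iff]
      intro t
      refine ⟨hT'norm l hl t, fun h => ?_⟩
      have h1 := hT'norm l⁻¹ (L.inv_mem hl) _ h
      convert h1 using 1
      group
    have hL₂R : RG R L₂ := by
      intro q hq hqd
      by_contra hRq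
      have : Fact q.Prime := ⟨hq⟩
      obtain ⟨z, hz⟩ := exists_prime_orderOf_dvd_card' (G := L₂) q hqd
      have hp₂d : p₂ ∣ Nat.card Y₂ := by
        obtain ⟨n, hn⟩ := IsPGroup.iff_card.1 hY₂P
        rw [hn]
        have hn0 : n ≠ 0 := by
          rintro rfl
          rw [pow_zero] at hn
          exact hY₂1 ((Subgroup.card_le_one_iff_eq_bot _).1 hn.le)
        exact dvd_pow_self _ hn0
      obtain ⟨y, hy⟩ := exists_prime_orderOf_dvd_card' (G := Y₂) p₂ hp₂d
      have hzord : orderOf ((z : L) : G) = q := by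
        rw [Subgroup.orderOf_coe, Subgroup.orderOf_coe]
        exact hz
      have hyord : orderOf ((y : L) : G) = p₂ := by
        rw [Subgroup.orderOf_coe, Subgroup.orderOf_coe]
        exact hy
      apply no_bad hD N hN1 hNR T' hT'R hT'1 ((y : L) : G) ((z : L) : G)
        (hT'normz _ (y : L).2) (hT'normz _ (z : L).2)
      · rw [hyord]
        exact hp₂
      · rw [hyord]
        exact hRp₂'
      · intro r hr hrd
        rw [hzord] at hrd
        rw [(Nat.prime_dvd_prime_iff_eq hr hq).1 hrd]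
        exact hRq
      · intro h
        rw [h, orderOf_one] at hzord
        exact hq.ne_one hzord.symm
      · -- the cyclic argument
        have hw : (z : L) * (y : L) * (z : L)⁻¹ ∈ Y₂ :=
          (Subgroup.mem_normalizer_iff.1 z.2 _).1 y.2
        set w : Y₂ := ⟨(z : L) * (y : L) * (z : L)⁻¹, hw⟩ with hwdef
        have hword : orderOf w = p₂ := by
          rw [hwdef, Subgroup.orderOf_mk]
          have := orderOf_injective (MulAut.conj (z : L)).toMonoidHom (MulAut.conj (z : L)).injective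
            (y : L)
          rw [← hy, ← Subgroup.orderOf_coe y]
          exact this
        have hzp : Subgroup.zpowers w = Subgroup.zpowers y :=
          Cfsg.Agent.Lib.FpfGeneral.eq_of_card_eq_of_isCyclic _ _ (by
            rw [Nat.card_zpowers, Nat.card_zpowers, hword, hy])
        have hmem : w ∈ Subgroup.zpowers y := by
          rw [← hzp]
          exact Subgroup.mem_zpowers w
        obtain ⟨e, he⟩ := Subgroup.mem_zpowers_iff.1 hmem
        refine ⟨e, ?_⟩
        have h1 : ((y : L) : G) ^ e = ((y ^ e : Y₂) : L) := by simp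
        rw [h1, he]
        simp [hwdef]
    have hL₂'R : RG R L₂' := by
      intro q hq hqd
      rw [hL₂', Subgroup.card_map_of_injective L.subtype_injective] at hqd
      exact hL₂R q hq hqd
    have hT'L : T' ≤ L := Subgroup.map_subtype_le _
    have hL₂'L : L₂' ≤ L := Subgroup.map_subtype_le _
    have hinf : T' ⊓ L₂' = ⊥ := by
      rw [hT', hL₂', ← Subgroup.map_inf _ _ _ L.subtype_injective, hTL₂, Subgroup.map_bot]
    have hsup : T' ⊔ L₂' = L := by
      rw [hT', hL₂', ← Subgroup.map_sup, hTL₂s, ← MonoidHom.range_eq_map, Subgroup.range_subtype]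
    exact assemble hD N L T' L₂' hNR hT'R hL₂'R hN1 hT'1 hL₂'1 hNL hNLs hT'L hT'norm hL₂'L hinf hsup

/-- A finite solvable group whose prime graph (prime divisors of the order, two distinct primes joined when there is an element of order their product) is disconnected is a Frobenius group or a 2-Frobenius group (it has normal subgroups H < K with K a Frobenius group with kernel H and G/H a Frobenius group with kernel K/H). -/
theorem result {G : Type*} [Group G] [Finite G] (hsol : Group.IsSolvable G)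
    (hdisc : (∃ A : Set ℕ, (∃ a ∈ A, a.Prime ∧ a ∣ Nat.card G) ∧ (∃ b ∉ A, b.Prime ∧ b ∣ Nat.card G) ∧
      ∀ a ∈ A, ∀ b ∉ A, a.Prime → b.Prime → a ∣ Nat.card G → b ∣ Nat.card G → ¬ ∃ g : G, orderOf g = a * b)) :
    (∃ C : Subgroup G, Cfsg.IsFrobeniusComplement C) ∨
    (∃ (H K : Subgroup G) (_ : H.Normal), K.Normal ∧ H < K ∧
      (∃ C : Subgroup ↥K, Cfsg.IsFrobeniusComplement C ∧ Cfsg.frobeniusKernel C = (H.subgroupOf K : Set ↥K)) ∧
      (∃ C : Subgroup (G ⧸ H), Cfsg.IsFrobeniusComplement C ∧ Cfsg.frobeniusKernel C = (K.map (QuotientGroup.mk' H) : Set (G ⧸ H)))) := by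
  obtain ⟨A, ⟨a, haA, ha, had⟩, ⟨b, hbA, hb, hbd⟩, hAB⟩ := hdisc
  have hD : Disc (fun p => p ∈ A) G := by
    intro x y hx hy hxA hyA g hg
    have hgd : x * y ∣ Nat.card G := by
      rw [← hg]
      exact orderOf_dvd_natCard g
    exact hAB x hxA y hyA hx hy (Dvd.dvd.trans (Dvd.intro _ rfl) hgd)
      (Dvd.dvd.trans (Dvd.intro_left _ rfl) hgd) ⟨g, hg⟩
  have htop : (⊤ : Subgroup G) ≠ ⊥ := by
    intro h
    have h1 : Nat.card G = 1 := by
      rw [← Subgroup.card_top, h, Subgroup.card_bot]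
    rw [h1] at had
    exact ha.ne_one (Nat.dvd_one.1 had)
  obtain ⟨r, M, hr, hMn, hM1, -, -, hMe⟩ :=
    Cfsg.Agent.Lib.MinNorm.exists_abelian_exponent_normal_le (⊤ : Subgroup G) inferInstance htop
  have : Fact r.Prime := ⟨hr⟩
  have hMP : IsPGroup r M := Cfsg.Agent.Lib.MinNorm.isPGroup_of_exponent hMe
  have hMq : ∀ q : ℕ, q.Prime → q ∣ Nat.card M → q = r := by
    intro q hq hqd
    obtain ⟨n, hn⟩ := IsPGroup.iff_card.1 hMP
    rw [hn] at hqd
    exact (Nat.prime_dvd_prime_iff_eq hq hr).1 (hq.dvd_of_dvd_pow hqd)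
  by_cases hrA : r ∈ A
  · refine main hD M hMn ?_ hM1 b hb hbA hbd
    intro q hq hqd
    show q ∈ A
    rw [hMq q hq hqd]
    exact hrA
  · refine main hD.symm M hMn ?_ hM1 a ha (not_not.2 haA) had
    intro q hq hqd
    show q ∉ A
    rw [hMq q hq hqd]
    exact hrA

end Cfsg.Agent.S3857
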