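import Mathlib
import Cfsg.Statements.S3859

set_option autoImplicit false
open Cfsg

namespace Cfsg.Agent.S3859

theorem card_mul_relIndex' {G : Type*} [Group G] {K L : Subgroup G} (h : K ≤ L) :
    Nat.card K * K.relIndex L = Nat.card L := by
  have := Subgroup.relIndex_mul_relIndex (⊥ : Subgroup G) K L bot_le h
  simpa [Subgroup.relIndex_bot_left] using this

/-- For `T` normal, `R.relIndex T` divides the index of `R`. -/
theorem relIndex_dvd_index_of_normal_right {G : Type*} [Group G] [Finite G] (R T : Subgroup G)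
    [T.Normal] : R.relIndex T ∣ R.index := by
  have h1 : T.relIndex (R ⊔ T) = T.relIndex R := Subgroup.relIndex_sup_right R T
  have h2 := card_mul_relIndex' (K := T) (L := R ⊔ T) le_sup_right
  have h3 := card_mul_relIndex' (K := R) (L := R ⊔ T) le_sup_left
  have h4 := card_mul_relIndex' (K := R ⊓ T) (L := R) inf_le_left
  have h5 := card_mul_relIndex' (K := R ⊓ T) (L := T) inf_le_right
  have h6 : (R ⊓ T).relIndex R = T.relIndex R := by
    rw [inf_comm]; exact Subgroup.inf_relIndex_right T R
  have h7 : (R ⊓ T).relIndex T = R.relIndex T := Subgroup.inf_relIndex_right R T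
  rw [h6] at h4
  rw [h7] at h5
  have hpos : 0 < T.relIndex R := by
    rcases Nat.eq_zero_or_pos (T.relIndex R) with h | h
    · rw [h, mul_zero] at h4
      exact absurd h4.symm (Nat.card_pos).ne'
    · exact h
  have hpos2 : 0 < Nat.card ↥(R ⊓ T) := Nat.card_pos
  have key : R.relIndex T = R.relIndex (R ⊔ T) := by
    -- |R ⊓ T| * idx * rel = |T| * ... compare
    have e1 : Nat.card T * T.relIndex R = Nat.card ↥(R ⊔ T) := by rw [← h1]; exact h2
    have e2 : Nat.card R * R.relIndex (R ⊔ T) = Nat.card ↥(R ⊔ T) := h3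
    rw [← h4, mul_assoc] at e2
    rw [← h5, mul_assoc] at e1
    have e3 := e1.trans e2.symm
    have e4 := Nat.eq_of_mul_eq_mul_left hpos2 e3
    rw [mul_comm] at e4
    exact Nat.eq_of_mul_eq_mul_left hpos e4
  rw [key]
  exact Subgroup.relIndex_dvd_index_of_le le_sup_left

/-- Frattini for `R ⊓ T`. -/
theorem normalizer_inf_sup_eq_top {G : Type*} [Group G] [Finite G] {r : ℕ} [Fact r.Prime]
    (R : Sylow r G) (T : Subgroup G) [T.Normal] :
    Subgroup.normalizer (((R : Subgroup G) ⊓ T : Subgroup G) : Set G) ⊔ T = ⊤ := by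
  have hp : IsPGroup r ((R : Subgroup G).subgroupOf T) :=
    R.isPGroup'.comap_of_injective T.subtype Subtype.val_injective
  have hn : ¬ r ∣ ((R : Subgroup G).subgroupOf T).index := by
    intro h
    have h' : r ∣ (R : Subgroup G).relIndex T := h
    exact R.not_dvd_index (h'.trans (relIndex_dvd_index_of_normal_right (R : Subgroup G) T))
  let D : Sylow r T := hp.toSylow hn
  have h1 := Sylow.normalizer_sup_eq_top D
  have h2 : (D : Subgroup T).map T.subtype = (R : Subgroup G) ⊓ T := by
    show ((R : Subgroup G).subgroupOf T).map T.subtype = _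
    exact Subgroup.subgroupOf_map_subtype _ _
  have h3 : ((D.map T.subtype : Subgroup G)) = (R : Subgroup G) ⊓ T := h2
  rw [← h3]
  exact h1

/-- A nontrivial simple `p`-group is commutative. -/
theorem commutative_of_isPGroup {G : Type*} [Group G] [Finite G] {r : ℕ} [Fact r.Prime]
    (T : Subgroup G) (hT : IsSimpleGroup T) (hp : IsPGroup r T) : IsMulCommutative T := by
  haveI : Nontrivial T := hT.toNontrivial
  have hc : Nontrivial (Subgroup.center T) := hp.center_nontrivial
  have : Subgroup.center T = ⊤ := by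
    rcases (Subgroup.center T).normal_of_characteristic |> IsSimpleGroup.eq_bot_or_eq_top_of_normal _ with h | h
    · exfalso
      rw [h] at hc
      exact not_nontrivial _ hc
    · exact h
  refine ⟨⟨fun a b => ?_⟩⟩
  have ha : a ∈ Subgroup.center T := by rw [this]; trivial
  exact (Subgroup.mem_center_iff.1 ha b).symm

/-- If `R ⊓ T` is nontrivial then it is not normal. -/
theorem normalizer_inf_ne_top {G : Type*} [Group G] [Finite G] (T : Subgroup G) [T.Normal]
    (hT : IsSimpleGroup T) (hna : ¬ IsMulCommutative T) {r : ℕ} [Fact r.Prime] (R : Sylow r G)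
    (hR0 : (R : Subgroup G) ⊓ T ≠ ⊥) :
    Subgroup.normalizer (((R : Subgroup G) ⊓ T : Subgroup G) : Set G) ≠ ⊤ := by
  intro h
  have hN : ((R : Subgroup G) ⊓ T).Normal := Subgroup.normalizer_eq_top_iff.1 h
  have hN' : (((R : Subgroup G) ⊓ T).subgroupOf T).Normal := inferInstance
  rcases hT.eq_bot_or_eq_top_of_normal _ hN' with h1 | h1
  · apply hR0
    rw [Subgroup.subgroupOf_eq_bot] at h1
    have h2 := h1.eq_bot
    rwa [inf_assoc, inf_idem] at h2
  · rw [Subgroup.subgroupOf_eq_top] at h1
    have hle : T ≤ (R : Subgroup G) := h1.trans inf_le_left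
    exact hna (commutative_of_isPGroup T hT (R.isPGroup'.to_le hle))

/-- Let G be a finite group with a normal non-abelian simple subgroup T whose centralizer is trivial (G almost simple with socle T), r a prime and R a Sylow r-subgroup of G meeting T nontrivially. If R lies in exactly one maximal subgroup of G, then G/T is an r-group. -/
theorem result {G : Type*} [Group G] [Finite G] (T : Subgroup G) [T.Normal] (hT : IsSimpleGroup T) (hna : ¬ IsMulCommutative T)
    (hC : Subgroup.centralizer (T : Set G) = ⊥) {r : ℕ} [Fact r.Prime] (R : Sylow r G) (hR0 : (R : Subgroup G) ⊓ T ≠ ⊥)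
    (huniq : ∃! M : Subgroup G, IsCoatom M ∧ (R : Subgroup G) ≤ M) : IsPGroup r (G ⧸ T) := by
  classical
  obtain ⟨M, ⟨hM, hRM⟩, huni⟩ := huniq
  have hTn : T.Normal := inferInstance
  have hRN : (R : Subgroup G) ≤ Subgroup.normalizer (((R : Subgroup G) ⊓ T : Subgroup G) : Set G) := by
    rw [Subgroup.le_normalizer_iff]
    rintro x hx d ⟨hdR, hdT⟩
    exact ⟨(R : Subgroup G).mul_mem ((R : Subgroup G).mul_mem hx hdR) ((R : Subgroup G).inv_mem hx),
      hTn.conj_mem d hdT x⟩
  have hNM : Subgroup.normalizer (((R : Subgroup G) ⊓ T : Subgroup G) : Set G) ≤ M := by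
    obtain ⟨M', hM', hle⟩ := (eq_top_or_exists_le_coatom _).resolve_left
      (normalizer_inf_ne_top T hT hna R hR0)
    have := huni M' ⟨hM', hRN.trans hle⟩
    rwa [this] at hle
  have hsup : (R : Subgroup G) ⊔ T = ⊤ := by
    by_contra hne
    obtain ⟨M', hM', hle⟩ := (eq_top_or_exists_le_coatom _).resolve_left hne
    have hM'M := huni M' ⟨hM', le_sup_left.trans hle⟩
    rw [hM'M] at hle
    have hTM : T ≤ M := le_sup_right.trans hle
    have := normalizer_inf_sup_eq_top R T
    apply hM.1
    rw [eq_top_iff, ← this]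
    exact sup_le hNM hTM
  intro x
  have hmap : (R : Subgroup G).map (QuotientGroup.mk' T) = ⊤ := by
    rw [eq_top_iff]
    have h1 : ((R : Subgroup G) ⊔ T).map (QuotientGroup.mk' T) = ⊤ := by
      rw [hsup, Subgroup.map_top_of_surjective _ (QuotientGroup.mk'_surjective T)]
    rw [Subgroup.map_sup, QuotientGroup.map_mk'_self, sup_bot_eq] at h1
    exact h1.ge
  have hx : x ∈ (R : Subgroup G).map (QuotientGroup.mk' T) := by rw [hmap]; trivial
  obtain ⟨ρ, hρ, rfl⟩ := hx
  obtain ⟨k, hk⟩ := R.isPGroup' ⟨ρ, hρ⟩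
  refine ⟨k, ?_⟩
  have h2 : ρ ^ r ^ k = 1 := by simpa using congrArg Subtype.val hk
  rw [← map_pow, h2, map_one]

end Cfsg.Agent.S3859
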