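import Mathlib
import Cfsg.Statements.S3858
import Cfsg.Agent.S3859
import Cfsg.Agent.Lib.TransferCore
import Cfsg.Agent.Lib.SylowConjLemmas

set_option autoImplicit false
open Cfsg

namespace Cfsg.Agent.S3858

open Cfsg.Agent.Lib.TransferCore
open Cfsg.Agent.Lib.SylowConjLemmas (mem_map_conj)

variable {G : Type*} [Group G] [Finite G]

/-- The conjugate of a coatom is a coatom. -/
theorem isCoatom_map_conj {M : Subgroup G} (hM : IsCoatom M) (g : G) :
    IsCoatom (M.map (MulAut.conj g).toMonoidHom) := by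
  have hcomp : ∀ X : Subgroup G, (X.map (MulAut.conj g).toMonoidHom).map (MulAut.conj g⁻¹).toMonoidHom = X := by
    intro X
    ext y
    rw [mem_map_conj, mem_map_conj]
    simp [mul_assoc]
  have hcomp' : ∀ X : Subgroup G, (X.map (MulAut.conj g⁻¹).toMonoidHom).map (MulAut.conj g).toMonoidHom = X := by
    intro X
    ext y
    rw [mem_map_conj, mem_map_conj]
    simp [mul_assoc]
  constructor
  · intro h
    apply hM.1
    have := hcomp M
    rw [h] at this
    rw [← this]
    exact Subgroup.map_top_of_surjective _ (MulAut.conj g⁻¹).surjective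
  · intro N hN
    have h1 : M < N.map (MulAut.conj g⁻¹).toMonoidHom := by
      have h0 : M ≤ N.map (MulAut.conj g⁻¹).toMonoidHom := by
        rw [← hcomp M]
        exact Subgroup.map_mono hN.le
      refine lt_of_le_of_ne h0 ?_
      intro he
      have : M.map (MulAut.conj g).toMonoidHom = N := by
        rw [he, hcomp']
      exact hN.ne this
    have h2 := hM.2 _ h1
    have h3 := hcomp' N
    rw [h2] at h3
    rw [← h3]
    exact Subgroup.map_top_of_surjective _ (MulAut.conj g).surjective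

/-- A subgroup whose index is prime to `r` contains a conjugate of every Sylow `r`-subgroup. -/
theorem exists_conj_le {r : ℕ} [Fact r.Prime] (R : Sylow r G) (M : Subgroup G) (hM : ¬ r ∣ M.index) :
    ∃ g : G, (R : Subgroup G) ≤ M.map (MulAut.conj g).toMonoidHom := by
  classical
  let Q₀ : Sylow r M := Sylow.nonempty.some
  have hp : IsPGroup r ((Q₀ : Subgroup M).map M.subtype) := Q₀.isPGroup'.map _
  have hi : ¬ r ∣ ((Q₀ : Subgroup M).map M.subtype).index := by
    rw [Subgroup.index_map_subtype]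
    exact Nat.Prime.not_dvd_mul (Fact.out) Q₀.not_dvd_index hM
  let Q : Sylow r G := hp.toSylow hi
  obtain ⟨g, hg⟩ := exists_conj R Q
  refine ⟨g, ?_⟩
  intro x hx
  rw [mem_map_conj]
  have hxx : x ∈ g • Q := by rw [hg]; exact hx
  rw [mem_smul_sylow] at hxx
  have : g⁻¹ * x * g ∈ (Q₀ : Subgroup M).map M.subtype := hxx
  obtain ⟨y, _, hy⟩ := (Subgroup.mem_map).1 this
  rw [← hy]
  exact y.2

/-- A subgroup containing a Sylow subgroup has index prime to `r`. -/
theorem not_dvd_index_of_le {r : ℕ} [Fact r.Prime] (R : Sylow r G) (M : Subgroup G)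
    (h : (R : Subgroup G) ≤ M) : ¬ r ∣ M.index := fun hd =>
  R.not_dvd_index (hd.trans (Subgroup.index_dvd_of_le h))

/-- Let G be a finite group with a normal non-abelian simple subgroup T whose centralizer is trivial (G almost simple with socle T), r a prime and R a Sylow r-subgroup of G meeting T nontrivially. Then R lies in exactly one maximal subgroup of G if and only if G has exactly one conjugacy class of maximal subgroups whose index is prime to r. -/
theorem result {G : Type*} [Group G] [Finite G] (T : Subgroup G) [T.Normal] (hT : IsSimpleGroup T) (hna : ¬ IsMulCommutative T)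
    (hC : Subgroup.centralizer (T : Set G) = ⊥) {r : ℕ} [Fact r.Prime] (R : Sylow r G) (hR0 : (R : Subgroup G) ⊓ T ≠ ⊥) :
    (∃! M : Subgroup G, IsCoatom M ∧ (R : Subgroup G) ≤ M) ↔
      ((∃ M : Subgroup G, IsCoatom M ∧ ¬ r ∣ M.index) ∧
        ∀ M₁ M₂ : Subgroup G, IsCoatom M₁ → ¬ r ∣ M₁.index → IsCoatom M₂ → ¬ r ∣ M₂.index → ∃ g : G, M₂ = M₁.map (MulAut.conj g).toMonoidHom) := by
  classical
  constructor
  · rintro ⟨M, ⟨hM, hRM⟩, huni⟩
    refine ⟨⟨M, hM, not_dvd_index_of_le R M hRM⟩, ?_⟩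
    intro M₁ M₂ h₁ hi₁ h₂ hi₂
    obtain ⟨g₁, hg₁⟩ := exists_conj_le R M₁ hi₁
    obtain ⟨g₂, hg₂⟩ := exists_conj_le R M₂ hi₂
    have e₁ := huni _ ⟨isCoatom_map_conj h₁ g₁, hg₁⟩
    have e₂ := huni _ ⟨isCoatom_map_conj h₂ g₂, hg₂⟩
    refine ⟨g₂⁻¹ * g₁, ?_⟩
    have e := e₁.trans e₂.symm
    ext x
    rw [mem_map_conj]
    have hx : x ∈ M₂ ↔ g₂ * x * g₂⁻¹ ∈ M₂.map (MulAut.conj g₂).toMonoidHom := by
      rw [mem_map_conj]
      simp [mul_assoc]
    rw [hx, ← e, mem_map_conj]
    have : g₁⁻¹ * (g₂ * x * g₂⁻¹) * g₁ = (g₂⁻¹ * g₁)⁻¹ * x * (g₂⁻¹ * g₁) := by group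
    rw [this]
  · rintro ⟨⟨M, hM, hiM⟩, hconj⟩
    have hNtop : Subgroup.normalizer ((R : Subgroup G) : Set G) ≠ ⊤ := by
      intro h
      have hRn : (R : Subgroup G).Normal := Subgroup.normalizer_eq_top_iff.1 h
      have hTn : T.Normal := inferInstance
      have hinf : ((R : Subgroup G) ⊓ T).Normal := inferInstance
      exact Cfsg.Agent.S3859.normalizer_inf_ne_top T hT hna R hR0
        (Subgroup.normalizer_eq_top_iff.2 hinf)
    obtain ⟨M', hM', hle⟩ := (eq_top_or_exists_le_coatom _).resolve_left hNtop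
    have hRM' : (R : Subgroup G) ≤ M' := Subgroup.le_normalizer.trans hle
    refine ⟨M', ⟨hM', hRM'⟩, ?_⟩
    rintro M₁ ⟨h₁, hR₁⟩
    obtain ⟨g, hg⟩ := hconj M' M₁ hM' (not_dvd_index_of_le R M' hRM') h₁ (not_dvd_index_of_le R M₁ hR₁)
    -- g⁻¹ • R ≤ M'
    have h2 : ((g⁻¹ • R : Sylow r G) : Subgroup G) ≤ M' := by
      intro x hx
      have hx' : x ∈ g⁻¹ • R := hx
      rw [mem_smul_sylow] at hx'
      have h3 : g⁻¹⁻¹ * x * g⁻¹ ∈ M₁ := hR₁ hx'
      rw [hg, mem_map_conj] at h3
      have : g⁻¹ * (g⁻¹⁻¹ * x * g⁻¹) * g = x := by group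
      rwa [this] at h3
    obtain ⟨s, hs, hsg⟩ := exists_conj_in_subgroup M' R (g⁻¹ • R) hRM' h2
    have h4 : (s * g⁻¹) • R = R := by rw [mul_smul]; exact hsg
    have h5 : s * g⁻¹ ∈ Subgroup.normalizer ((R : Subgroup G) : Set G) :=
      Sylow.smul_eq_iff_mem_normalizer.1 h4
    have h6 : s * g⁻¹ ∈ M' := hle h5
    have h7 : g ∈ M' := by
      have h8 : g⁻¹ ∈ M' := by
        have : g⁻¹ = s⁻¹ * (s * g⁻¹) := by group
        rw [this]
        exact M'.mul_mem (M'.inv_mem hs) h6
      simpa using M'.inv_mem h8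
    rw [hg]
    ext x
    rw [mem_map_conj]
    constructor
    · intro hx
      have : x = g * (g⁻¹ * x * g) * g⁻¹ := by group
      rw [this]
      exact M'.mul_mem (M'.mul_mem h7 hx) (M'.inv_mem h7)
    · intro hx
      exact M'.mul_mem (M'.mul_mem (M'.inv_mem h7) hx) h7

end Cfsg.Agent.S3858
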