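import Mathlib
import Cfsg.Statements.S3863

set_option autoImplicit false
open Cfsg

namespace Cfsg.Agent.S3863

/-- A real element is inverted by a `2`-element. -/
theorem exists_two_element {G : Type*} [Group G] [Finite G] (x : G) (hx : IsConj x x⁻¹) :
    ∃ t : G, (∃ j : ℕ, orderOf t = 2 ^ j) ∧ t * x * t⁻¹ = x⁻¹ := by
  obtain ⟨g, hg⟩ := isConj_iff.1 hx
  have hn : orderOf g ≠ 0 := (orderOf_pos g).ne'
  set a := (orderOf g).factorization 2 with ha
  have hd : 2 ^ a ∣ orderOf g := Nat.ordProj_dvd _ 2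
  have hord : orderOf (g ^ (orderOf g / 2 ^ a)) = 2 ^ a := orderOf_pow_orderOf_div hn hd
  have hodd : Odd (orderOf g / 2 ^ a) := by
    have h2 : ¬ 2 ∣ orderOf g / 2 ^ a := Nat.not_dvd_ordCompl Nat.prime_two hn
    exact Nat.odd_iff.2 (by omega)
  refine ⟨g ^ (orderOf g / 2 ^ a), ⟨a, hord⟩, ?_⟩
  obtain ⟨m, hm⟩ := hodd
  have hcomm : Commute (g ^ 2) x := by
    have h1 : g * x⁻¹ * g⁻¹ = x := by
      have : g * x⁻¹ * g⁻¹ = (g * x * g⁻¹)⁻¹ := by group
      rw [this, hg, inv_inv]
    show g ^ 2 * x = x * g ^ 2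
    have h2 : g ^ 2 * x * (g ^ 2)⁻¹ = x := by
      have : g ^ 2 * x * (g ^ 2)⁻¹ = g * (g * x * g⁻¹) * g⁻¹ := by rw [pow_two]; group
      rw [this, hg, h1]
    exact mul_inv_eq_iff_eq_mul.1 h2
  have hcomm' : Commute ((g ^ 2) ^ m) x⁻¹ := (hcomm.pow_left m).inv_right
  rw [hm, pow_succ, pow_mul]
  have : (g ^ 2) ^ m * g * x * ((g ^ 2) ^ m * g)⁻¹ = (g ^ 2) ^ m * (g * x * g⁻¹) * ((g ^ 2) ^ m)⁻¹ := by
    group
  rw [this, hg]
  have h3 := hcomm'.eq
  rw [h3]
  simp

/-- An element of an odd order group which is conjugate to its inverse is trivial. -/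
theorem eq_one_of_real_of_odd {Q : Type*} [Group Q] [Finite Q] (hQ : Odd (Nat.card Q)) (a : Q)
    (ha : IsConj a a⁻¹) : a = 1 := by
  obtain ⟨t, ⟨j, hj⟩, ht⟩ := exists_two_element a ha
  have ht1 : t = 1 := by
    have h1 : orderOf t ∣ Nat.card Q := orderOf_dvd_natCard t
    rw [hj] at h1
    have h2 : Odd (2 ^ j) := Odd.of_dvd_nat hQ h1
    have h3 : j = 0 := by
      rcases j with _ | j
      · rfl
      · exfalso
        rw [pow_succ] at h2
        exact absurd (Nat.odd_mul.1 h2).2 (by decide)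
    rw [h3, pow_zero] at hj
    exact orderOf_eq_one_iff.1 hj
  rw [ht1] at ht
  have h2 : a * a = 1 := by
    have : a = a⁻¹ := by simpa using ht
    nth_rw 1 [this]
    simp
  have h3 : orderOf a ∣ 2 := orderOf_dvd_of_pow_eq_one (by rw [pow_two]; exact h2)
  have h4 : Odd (orderOf a) := Odd.of_dvd_nat hQ (orderOf_dvd_natCard a)
  have h5 : orderOf a = 1 := by
    rcases (Nat.dvd_prime Nat.prime_two).1 h3 with h | h
    · exact h
    · rw [h] at h4; exact absurd h4 (by decide)
  exact orderOf_eq_one_iff.1 h5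

/-- Let x be an element of the finite group G that is conjugate to its inverse. Then some 2-element conjugates x to its inverse; if the conjugacy class of x has odd size then x ^ 2 = 1; and x lies in, and is conjugate to its inverse inside, every normal subgroup of odd index. -/
theorem result {G : Type*} [Group G] [Finite G] (x : G) (hx : IsConj x x⁻¹) : (∃ t : G, (∃ j : ℕ, orderOf t = 2 ^ j) ∧ t * x * t⁻¹ = x⁻¹) ∧ (Odd (Subgroup.centralizer ({x} : Set G)).index → x ^ 2 = 1) ∧ ∀ (N : Subgroup G) [N.Normal], Odd N.index → ∃ hxN : x ∈ N, IsConj (⟨x, hxN⟩ : N) (⟨x, hxN⟩ : N)⁻¹ := by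
  classical
  refine ⟨exists_two_element x hx, ?_, ?_⟩
  · intro hodd
    by_contra hx2
    obtain ⟨g, hg⟩ := isConj_iff.1 hx
    have hne : x⁻¹ ≠ x := by
      intro h
      apply hx2
      rw [pow_two]
      nth_rw 1 [← h]
      simp
    let K : Subgroup G :=
      { carrier := {h | h * x * h⁻¹ = x ∨ h * x * h⁻¹ = x⁻¹}
        one_mem' := by simp
        mul_mem' := by
          intro a b ha hb
          have e : ∀ y, a * b * y * (a * b)⁻¹ = a * (b * y * b⁻¹) * a⁻¹ := fun y => by group
          have e' : a * x⁻¹ * a⁻¹ = (a * x * a⁻¹)⁻¹ := by group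
          simp only [Set.mem_ofPred_eq] at ha hb ⊢
          rw [e]
          rcases hb with hb | hb <;> rw [hb]
          · exact ha
          · rw [e']
            rcases ha with ha | ha <;> rw [ha]
            · right; rfl
            · left; simp
        inv_mem' := by
          intro a ha
          simp only [Set.mem_ofPred_eq, inv_inv] at ha ⊢
          rcases ha with ha | ha
          · left
            have : a⁻¹ * x * a = a⁻¹ * (a * x * a⁻¹) * a := by rw [ha]
            rw [this]; group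
          · right
            have : x = a⁻¹ * (a * x * a⁻¹) * a := by group
            rw [ha] at this
            have h2 : x⁻¹ = a⁻¹ * x * a := by
              have h3 : (a⁻¹ * x⁻¹ * a)⁻¹ = a⁻¹ * x * a := by group
              rw [← h3, ← this]
            exact h2.symm }
    have hmemK : ∀ h, h ∈ K ↔ h * x * h⁻¹ = x ∨ h * x * h⁻¹ = x⁻¹ := fun _ => Iff.rfl
    have hmemC : ∀ h, h ∈ Subgroup.centralizer ({x} : Set G) ↔ h * x * h⁻¹ = x := by
      intro h
      rw [Subgroup.mem_centralizer_singleton_iff]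
      constructor
      · intro e
        rw [mul_inv_eq_iff_eq_mul]; exact e
      · intro e
        rw [mul_inv_eq_iff_eq_mul] at e; exact e
    have hCK : Subgroup.centralizer ({x} : Set G) ≤ K := fun h hh => Or.inl ((hmemC h).1 hh)
    have hgK : g ∈ K := Or.inr hg
    have hrel : (Subgroup.centralizer ({x} : Set G)).relIndex K = 2 := by
      rw [Subgroup.relIndex_eq_two_iff]
      refine ⟨g, hgK, ?_⟩
      intro b hb
      have e1 : b * g * x * (b * g)⁻¹ = b * x⁻¹ * b⁻¹ := by
        have : b * g * x * (b * g)⁻¹ = b * (g * x * g⁻¹) * b⁻¹ := by group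
        rw [this, hg]
      have e2 : b * x⁻¹ * b⁻¹ = (b * x * b⁻¹)⁻¹ := by group
      rw [hmemC, hmemC, e1, e2]
      rcases (hmemK b).1 hb with h | h
      · rw [h]
        exact Or.inr ⟨rfl, hne⟩
      · rw [h, inv_inv]
        exact Or.inl ⟨rfl, hne⟩
    have hdvd : 2 ∣ (Subgroup.centralizer ({x} : Set G)).index := by
      rw [← hrel]
      exact Subgroup.relIndex_dvd_index_of_le hCK
    exact (Nat.not_even_iff_odd.2 hodd) (even_iff_two_dvd.2 hdvd)
  · intro N _ hN
    have hQ : Odd (Nat.card (G ⧸ N)) := hN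
    have hxbar : IsConj ((x : G ⧸ N)) ((x : G ⧸ N))⁻¹ := by
      obtain ⟨g, hg⟩ := isConj_iff.1 hx
      refine isConj_iff.2 ⟨(g : G ⧸ N), ?_⟩
      rw [← QuotientGroup.mk_mul, ← QuotientGroup.mk_inv, ← QuotientGroup.mk_mul, hg, QuotientGroup.mk_inv]
    have hxN : x ∈ N := by
      have := eq_one_of_real_of_odd hQ _ hxbar
      exact (QuotientGroup.eq_one_iff x).1 this
    refine ⟨hxN, ?_⟩
    obtain ⟨t, ⟨j, hj⟩, ht⟩ := exists_two_element x hx
    have htN : t ∈ N := by
      have h1 : orderOf (t : G ⧸ N) ∣ 2 ^ j := by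
        apply orderOf_dvd_of_pow_eq_one
        rw [← QuotientGroup.mk_pow, ← hj, pow_orderOf_eq_one]; rfl
      have h2 : Odd (orderOf (t : G ⧸ N)) := Odd.of_dvd_nat hQ (orderOf_dvd_natCard _)
      have h3 : orderOf (t : G ⧸ N) = 1 := by
        obtain ⟨k, _, hk⟩ := (Nat.dvd_prime_pow Nat.prime_two).1 h1
        rw [hk] at h2 ⊢
        rcases k with _ | k
        · rfl
        · exfalso
          rw [pow_succ] at h2
          simp [Nat.odd_iff] at h2
      exact (QuotientGroup.eq_one_iff t).1 (orderOf_eq_one_iff.1 h3)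
    refine isConj_iff.2 ⟨⟨t, htN⟩, ?_⟩
    apply Subtype.ext
    simpa using ht

end Cfsg.Agent.S3863
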