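import Mathlib
import Cfsg.Statements.S3861
import Cfsg.Agent.S3863
import Cfsg.Agent.Lib.NilpCover
import Cfsg.Agent.Lib.PCore
import Cfsg.Agent.Lib.CosetConj
import Cfsg.Agent.Lib.BaerSuzuki
import Cfsg.Agent.Lib.InvolutionPairs

set_option autoImplicit false
open Cfsg

namespace Cfsg.Agent.S3861

open Cfsg.Agent.Lib.PCore Cfsg.Agent.Lib.NilpCover
open Cfsg.Agent.S3863 (exists_two_element)

universe u

/-- No nontrivial real elements of odd order. -/
def NoReal (G : Type u) [Group G] : Prop := ∀ x : G, x ≠ 1 → Odd (orderOf x) → ¬ IsConj x x⁻¹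

instance fact2 : Fact (Nat.Prime 2) := ⟨Nat.prime_two⟩

theorem odd_of_coprime {n : ℕ} (h : n.Coprime 2) : Odd n := by
  rcases Nat.mod_two_eq_zero_or_one n with h' | h'
  · exfalso
    have h2 : 2 ∣ n := Nat.dvd_of_mod_eq_zero h'
    have := Nat.Coprime.eq_one_of_dvd h.symm h2
    omega
  · exact Nat.odd_iff.2 h'

/-- Under `NoReal`, the product of two involutions is a `2`-element. -/
theorem mul_isTwo {G : Type u} [Group G] [Finite G] (hR : NoReal G) (x y : G) (hx : x * x = 1)
    (hy : y * y = 1) : ∃ k, (x * y) ^ 2 ^ k = 1 := by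
  obtain ⟨s, t, hst, hcomm, hs, ht, hsz, htz⟩ := exists_decomp 2 (x * y)
  have hxinv : x⁻¹ = x := inv_eq_of_mul_eq_one_left hx
  have hyinv : y⁻¹ = y := inv_eq_of_mul_eq_one_left hy
  have hconj : ∀ n : ℤ, x * (x * y) ^ n * x⁻¹ = ((x * y) ^ n)⁻¹ := by
    intro n
    have h1 : x * (x * y) * x⁻¹ = (x * y)⁻¹ := by
      rw [mul_inv_rev, hxinv, hyinv]
      calc x * (x * y) * x = (x * x) * y * x := by group
        _ = y * x := by rw [hx, one_mul]
    calc x * (x * y) ^ n * x⁻¹ = (x * (x * y) * x⁻¹) ^ n := by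
          rw [conj_zpow]
      _ = ((x * y) ^ n)⁻¹ := by rw [h1, inv_zpow]
  obtain ⟨n, hn⟩ := htz
  have ht1 : t = 1 := by
    by_contra hne
    apply hR t hne (odd_of_coprime ht)
    refine isConj_iff.2 ⟨x, ?_⟩
    have hn' : (x * y) ^ n = t := hn
    rw [← hn']
    exact hconj n
  rw [ht1, mul_one] at hst
  rw [hst]
  exact hs

/-- Elements with `2`-power order and odd order are trivial. -/
theorem eq_one_of_two_of_odd {Q : Type*} [Group Q] (a : Q) (k : ℕ) (h : a ^ 2 ^ k = 1)
    (hodd : Odd (orderOf a)) : a = 1 := by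
  have h2 : orderOf a ∣ 2 ^ k := orderOf_dvd_of_pow_eq_one h
  obtain ⟨j, _, hj⟩ := (Nat.dvd_prime_pow Nat.prime_two).1 h2
  rw [hj] at hodd
  rcases j with _ | j
  · rw [pow_zero] at hj
    exact orderOf_eq_one_iff.1 hj
  · exfalso
    rw [pow_succ] at hodd
    exact absurd (Nat.odd_mul.1 hodd).2 (by decide)

/-- The key lifting step. -/
theorem noReal_quotient {G : Type u} [Group G] [Finite G] (hR : NoReal G) (N : Subgroup G) [hNn : N.Normal]
    (hN : IsPGroup 2 N) : NoReal (G ⧸ N) := by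
  intro gb hgb hodd hreal
  obtain ⟨g₀, rfl⟩ := QuotientGroup.mk'_surjective N gb
  obtain ⟨s, g, hst, hcomm, hs, hg, hsz, hgz⟩ := exists_decomp 2 g₀
  -- image of s is trivial
  have hsb : QuotientGroup.mk' N s = 1 := by
    obtain ⟨k, hk⟩ := hs
    have h1 : (QuotientGroup.mk' N s) ^ 2 ^ k = 1 := by rw [← map_pow, hk, map_one]
    have h3 : QuotientGroup.mk' N s ∈ Subgroup.zpowers (QuotientGroup.mk' N g₀) := by
      rw [← MonoidHom.map_zpowers]
      exact Subgroup.mem_map_of_mem _ hsz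
    exact eq_one_of_two_of_odd _ k h1 (Odd.of_dvd_nat hodd (orderOf_dvd_of_mem_zpowers h3))
  have hgb' : QuotientGroup.mk' N g₀ = QuotientGroup.mk' N g := by
    rw [hst, map_mul, hsb, one_mul]
  rw [hgb'] at hgb hodd hreal
  obtain ⟨cb, hcb⟩ := isConj_iff.1 hreal
  obtain ⟨c, rfl⟩ := QuotientGroup.mk'_surjective N cb
  have hg1 : g ≠ 1 := by
    rintro rfl
    simp at hgb
  have hyord : orderOf (c * g⁻¹ * c⁻¹) = orderOf g := by
    have : c * g⁻¹ * c⁻¹ = (MulAut.conj c) g⁻¹ := rfl
    rw [this, MulEquiv.orderOf_eq, orderOf_inv]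
  have hcardN : ∀ m : ℕ, m.Coprime 2 → (Nat.card N).Coprime m := by
    intro m hm
    obtain ⟨k, hk⟩ := IsPGroup.iff_card.1 hN
    rw [hk]
    exact Nat.Coprime.pow_left _ hm.symm
  have hmem : g⁻¹ * (c * g⁻¹ * c⁻¹) ∈ N := by
    rw [← QuotientGroup.eq_one_iff]
    have e : ((g⁻¹ * (c * g⁻¹ * c⁻¹) : G) : G ⧸ N) =
        (QuotientGroup.mk' N g)⁻¹ * ((QuotientGroup.mk' N c) * (QuotientGroup.mk' N g)⁻¹ * (QuotientGroup.mk' N c)⁻¹) := rfl
    rw [e]
    have e2 : (QuotientGroup.mk' N c) * (QuotientGroup.mk' N g)⁻¹ * (QuotientGroup.mk' N c)⁻¹ =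
        ((QuotientGroup.mk' N c) * (QuotientGroup.mk' N g) * (QuotientGroup.mk' N c)⁻¹)⁻¹ := by group
    rw [e2, hcb, inv_inv]
    group
  have hsolv : Group.IsSolvable N := by
    haveI : Group.IsNilpotent N := hN.isNilpotent
    infer_instance
  obtain ⟨n, _, hn⟩ := Cfsg.Agent.Lib.CosetConj.exists_conj_of_coset N hsolv g (c * g⁻¹ * c⁻¹)
    (hcardN _ hg) (by rw [hyord]; exact hcardN _ hg) hmem
  apply hR g hg1 (odd_of_coprime hg)
  refine isConj_iff.2 ⟨c⁻¹ * n, ?_⟩
  calc c⁻¹ * n * g * (c⁻¹ * n)⁻¹ = c⁻¹ * (n * g * n⁻¹) * c := by group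
    _ = c⁻¹ * (c * g⁻¹ * c⁻¹) * c := by rw [hn]
    _ = g⁻¹ := by group

/-- If there is no nontrivial real element of odd order, Sylow `2`-subgroups are normal. -/
theorem normal_of_noReal : ∀ (n : ℕ) (G : Type u) [Group G] [Finite G], Nat.card G = n → NoReal G →
    ∀ P : Sylow 2 G, (P : Subgroup G).Normal := by
  intro n
  induction n using Nat.strong_induction_on with
  | _ n ih =>
    intro G _ _ hn hR P
    classical
    -- involutions generate a normal 2-subgroup
    let Ω : Set (Subgroup G) := {X | ∃ x : G, x * x = 1 ∧ X = Subgroup.zpowers x}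
    have hΩ : ∀ Y ∈ Ω, ∀ g : G, Y.map (MulAut.conj g).toMonoidHom ∈ Ω := by
      rintro Y ⟨x, hx, rfl⟩ g
      refine ⟨g * x * g⁻¹, ?_, ?_⟩
      · calc g * x * g⁻¹ * (g * x * g⁻¹) = g * (x * x) * g⁻¹ := by group
          _ = 1 := by rw [hx]; group
      · rw [MonoidHom.map_zpowers]; rfl
    have hpair : ∀ Y ∈ Ω, ∀ Z ∈ Ω, IsPGroup 2 ↥(Y ⊔ Z) := by
      rintro Y ⟨x, hx, rfl⟩ Z ⟨y, hy, rfl⟩
      have hle : Subgroup.zpowers x ⊔ Subgroup.zpowers y ≤ Subgroup.closure ({x, y} : Set G) := by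
        apply sup_le
        · rw [Subgroup.zpowers_le]
          exact Subgroup.subset_closure (by simp)
        · rw [Subgroup.zpowers_le]
          exact Subgroup.subset_closure (by simp)
      obtain ⟨m, hm⟩ := mul_isTwo hR x y hx hy
      rintro ⟨d, hd⟩
      obtain ⟨k, hk | hk⟩ := (Cfsg.Agent.Lib.InvolutionPairs.mem_closure_iff x y hx hy d).1 (hle hd)
      · refine ⟨m, ?_⟩
        apply Subtype.ext
        show d ^ 2 ^ m = 1
        rw [hk, ← zpow_natCast, ← zpow_mul, mul_comm, zpow_mul, zpow_natCast, hm, one_zpow]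
      · refine ⟨1, ?_⟩
        apply Subtype.ext
        show d ^ 2 ^ 1 = 1
        rw [hk, pow_one, pow_two]
        exact Cfsg.Agent.Lib.InvolutionPairs.mul_zpow_mul_self x y hx hy k
    have hI : IsPGroup 2 ↥(sSup Ω) := Cfsg.Agent.Lib.BaerSuzuki.isPGroup_sSup Ω hΩ hpair
    have hInorm : (sSup Ω).Normal := by
      constructor
      intro n hn g
      have h1 : sSup Ω ≤ (sSup Ω).comap (MulAut.conj g).toMonoidHom := by
        apply sSup_le
        intro Y hY
        rw [← Subgroup.map_le_iff_le_comap]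
        exact le_sSup (hΩ Y hY g)
      exact h1 hn
    have hIcore : sSup Ω ≤ pCore 2 G := le_pCore hInorm hI
    by_cases hN : pCore 2 G = ⊥
    · -- no involutions
      have hodd : ¬ 2 ∣ Nat.card G := by
        intro hd
        obtain ⟨x, hx⟩ := exists_prime_orderOf_dvd_card' (G := G) 2 hd
        have hxx : x * x = 1 := by
          rw [← pow_two, ← hx]; exact pow_orderOf_eq_one x
        have h1 : Subgroup.zpowers x ≤ sSup Ω := le_sSup ⟨x, hxx, rfl⟩
        have h2 : x ∈ pCore 2 G := hIcore (h1 (Subgroup.mem_zpowers x))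
        rw [hN] at h2
        have h3 : x = 1 := by simpa using h2
        rw [h3, orderOf_one] at hx
        omega
      have hPb : (P : Subgroup G) = ⊥ := by
        obtain ⟨k, hk⟩ := IsPGroup.iff_card.1 P.isPGroup'
        rcases k with _ | k
        · exact Subgroup.eq_bot_of_card_eq _ (by simpa using hk)
        · exfalso
          apply hodd
          have h1 : Nat.card ↥(P : Subgroup G) ∣ Nat.card G := Subgroup.card_subgroup_dvd_card _
          rw [hk] at h1
          exact (Dvd.intro_left _ (pow_succ 2 k).symm).trans h1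
      rw [hPb]
      infer_instance
    · -- pass to the quotient
      have hlt : Nat.card (G ⧸ pCore 2 G) < n := by
        rw [← hn]
        exact Cfsg.Agent.Lib.Coprime.card_quotient_lt hN
      have hRQ := noReal_quotient hR (pCore 2 G) (isPGroup_pCore 2)
      obtain Pb : Sylow 2 (G ⧸ pCore 2 G) := Sylow.nonempty.some
      have hPbn := ih _ hlt (G ⧸ pCore 2 G) rfl hRQ Pb
      let M : Subgroup G := (Pb : Subgroup (G ⧸ pCore 2 G)).comap (QuotientGroup.mk' (pCore 2 G))
      have hMn : M.Normal := hPbn.comap _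
      have hMp : IsPGroup 2 M := by
        intro x
        obtain ⟨k, hk⟩ := Pb.isPGroup' ⟨QuotientGroup.mk' _ (x : G), x.2⟩
        have h1 : (QuotientGroup.mk' (pCore 2 G) (x : G)) ^ 2 ^ k = 1 := by
          simpa using congrArg Subtype.val hk
        have h2 : (x : G) ^ 2 ^ k ∈ pCore 2 G := by
          rw [← QuotientGroup.eq_one_iff, QuotientGroup.mk_pow]
          exact h1
        obtain ⟨l, hl⟩ := isPGroup_pCore 2 (⟨_, h2⟩ : ↥(pCore 2 G))
        refine ⟨k + l, ?_⟩
        apply Subtype.ext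
        have h3 : ((x : G) ^ 2 ^ k) ^ 2 ^ l = 1 := by simpa using congrArg Subtype.val hl
        rw [pow_add, pow_mul]
        simpa using h3
      have hPM : (P : Subgroup G) ≤ M := by
        have h1 : IsPGroup 2 ((P : Subgroup G).map (QuotientGroup.mk' (pCore 2 G))) := P.isPGroup'.map _
        have h2 := le_of_isPGroup_of_normal Pb hPbn _ h1
        exact Subgroup.map_le_iff_le_comap.1 h2
      have hPeq : (P : Subgroup G) = M := (P.is_maximal' hMp hPM).symm
      rw [hPeq]
      exact hMn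

/-- A finite group G has no non-identity element of odd order that is conjugate to its inverse if and only if the Sylow 2-subgroups of G are normal. -/
theorem result {G : Type*} [Group G] [Finite G] (P : Sylow 2 G) : (∀ x : G, x ≠ 1 → Odd (orderOf x) → ¬ IsConj x x⁻¹) ↔ (P : Subgroup G).Normal := by
  constructor
  · intro h
    exact normal_of_noReal _ G rfl h P
  · intro hP x hx1 hodd hreal
    obtain ⟨t, ⟨j, hj⟩, ht⟩ := exists_two_element x hreal
    have htP : t ∈ (P : Subgroup G) := by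
      have hz : IsPGroup 2 (Subgroup.zpowers t) := by
        intro y
        obtain ⟨y, n, rfl⟩ := y
        refine ⟨j, ?_⟩
        apply Subtype.ext
        simp only [Subgroup.coe_pow, Subgroup.coe_one]
        show (t ^ n) ^ 2 ^ j = 1
        rw [← zpow_natCast, ← zpow_mul, mul_comm, zpow_mul, zpow_natCast, ← hj, pow_orderOf_eq_one, one_zpow]
      exact le_of_isPGroup_of_normal P hP _ hz (Subgroup.mem_zpowers t)
    have h1 : (x⁻¹) ^ 2 ∈ (P : Subgroup G) := by
      have e : (x⁻¹) ^ 2 = t * (x * t⁻¹ * x⁻¹) := by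
        have : t * (x * t⁻¹ * x⁻¹) = (t * x * t⁻¹) * x⁻¹ := by group
        rw [this, ht, pow_two]
      rw [e]
      exact (P : Subgroup G).mul_mem htP (hP.conj_mem _ ((P : Subgroup G).inv_mem htP) x)
    obtain ⟨k, hk⟩ := P.isPGroup' ⟨_, h1⟩
    have h2 : ((x⁻¹) ^ 2) ^ 2 ^ k = 1 := by simpa using congrArg Subtype.val hk
    have h3 : (x⁻¹) ^ 2 = 1 := by
      apply eq_one_of_two_of_odd _ k h2
      exact Odd.of_dvd_nat hodd (by
        rw [← orderOf_inv x]
        exact orderOf_pow_dvd 2)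
    have h4 : x ^ 2 = 1 := by simpa using h3
    have h5 : orderOf x ∣ 2 := orderOf_dvd_of_pow_eq_one h4
    rcases (Nat.dvd_prime Nat.prime_two).1 h5 with h6 | h6
    · exact hx1 (orderOf_eq_one_iff.1 h6)
    · rw [h6] at hodd
      exact absurd hodd (by decide)

end Cfsg.Agent.S3861
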