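import Mathlib
import Cfsg.Prelude.Def_Transfer
import Cfsg.Agent.Lib.PComplement
import Cfsg.Agent.Lib.Frat
import Cfsg.Agent.Lib.Replacement

set_option autoImplicit false
open Cfsg

namespace Cfsg.Agent.S3862

open Subgroup

/-- The commutator `u⁻¹ v⁻¹ u v`. -/
def cm {Q : Type*} [Group Q] (u v : Q) : Q := u⁻¹ * v⁻¹ * u * v

theorem map_cm {Q : Type*} [Group Q] (c : Q ≃* Q) (u v : Q) : c (cm u v) = cm (c u) (c v) := by
  simp [cm]

theorem cm_eq_squares {Q : Type*} [Group Q] (u v : Q) : cm u v = (u⁻¹) ^ 2 * (u * v⁻¹) ^ 2 * v ^ 2 := by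
  simp only [cm, sq]
  group

theorem eq_one_of_odd_pow {Q : Type*} [Group Q] (hQ : IsPGroup 2 Q) {v : Q} {k : ℕ} (hk : Odd k) (h : v ^ k = 1) :
    v = 1 := by
  obtain ⟨m, hm⟩ := hQ v
  have h1 : orderOf v ∣ k := orderOf_dvd_of_pow_eq_one h
  have h2 : orderOf v ∣ 2 ^ m := orderOf_dvd_of_pow_eq_one hm
  have h3 : Nat.Coprime k (2 ^ m) := Nat.Coprime.pow_right _ (Nat.coprime_two_right.2 hk)
  have h4 : orderOf v = 1 := Nat.eq_one_of_dvd_coprimes h3 h1 h2
  exact orderOf_eq_one_iff.1 h4

theorem key {Q : Type*} [Group Q] [Finite Q] (hQ : IsPGroup 2 Q) (c : Q ≃* Q) (k : ℕ) (hk : Odd k)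
    (hc : ∀ u, (⇑c)^[k] u = u)
    (hmin : ∀ S : Subgroup Q, S ≠ ⊤ → (∀ s ∈ S, c s ∈ S) → ∀ s ∈ S, c s = s)
    (x : Q) (hx : c x ≠ x) : ∃ g : Q, g⁻¹ * x * g = x⁻¹ := by
  classical
  -- the coboundaries generate
  have hL : closure (Set.range fun u : Q => c u * u⁻¹) = ⊤ := by
    by_contra hne
    have h1 := hmin _ hne (by
      intro s hs
      have h2 : closure (Set.range fun u : Q => c u * u⁻¹) ≤
          (closure (Set.range fun u : Q => c u * u⁻¹)).comap c.toMonoidHom := by
        rw [closure_le]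
        rintro _ ⟨u, rfl⟩
        apply Subgroup.subset_closure
        exact ⟨c u, by simp⟩
      exact h2 hs)
    apply hx
    have hv : ∀ u : Q, c u = u := by
      intro u
      have hfix := h1 (c u * u⁻¹) (Subgroup.subset_closure ⟨u, rfl⟩)
      have hit : ∀ i : ℕ, (⇑c)^[i] u = (c u * u⁻¹) ^ i * u := by
        intro i
        induction i with
        | zero => simp
        | succ i ih =>
          rw [Function.iterate_succ_apply', ih, map_mul, map_pow, hfix, pow_succ]
          group
      have h2 := hc u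
      rw [hit k] at h2
      have h3 : (c u * u⁻¹) ^ k = 1 := by simpa using h2
      have h4 := eq_one_of_odd_pow hQ hk h3
      exact mul_inv_eq_one.1 h4
    exact hv x
  -- squares
  have hnt : Nontrivial Q := ⟨⟨c x, x, hx⟩⟩
  let F : Subgroup Q := closure (Set.range fun u : Q => u ^ 2)
  have hFne : F ≠ ⊤ := by
    obtain h | ⟨M, hM, -⟩ := eq_top_or_exists_le_coatom (⊥ : Subgroup Q)
    · exact absurd h bot_ne_top
    · haveI : Fact (Nat.Prime 2) := ⟨Nat.prime_two⟩
      have h1 := (Cfsg.Agent.Lib.Frat.commutator_and_pow_mem_of_isCoatom hQ hM).2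
      have h2 : F ≤ M := by
        rw [closure_le]
        rintro _ ⟨u, rfl⟩
        exact h1 u
      intro h3
      apply hM.1
      rw [eq_top_iff, ← h3]
      exact h2
  have hFfix : ∀ f ∈ F, c f = f := hmin F hFne (by
    intro s hs
    have h2 : F ≤ F.comap c.toMonoidHom := by
      rw [closure_le]
      rintro _ ⟨u, rfl⟩
      apply Subgroup.subset_closure
      exact ⟨c u, by simp⟩
    exact h2 hs)
  have hsqF : ∀ u : Q, u ^ 2 ∈ F := fun u => Subgroup.subset_closure ⟨u, rfl⟩
  have hcmF : ∀ u v : Q, cm u v ∈ F := by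
    intro u v
    rw [cm_eq_squares]
    exact mul_mem (mul_mem (hsqF _) (hsqF _)) (hsqF _)
  -- `F` is central
  have hFcen : ∀ f ∈ F, ∀ u : Q, f * u = u * f := by
    intro f hf
    have h1 : (⊤ : Subgroup Q) ≤ centralizer ({f} : Set Q) := by
      rw [← hL, closure_le]
      rintro _ ⟨u, rfl⟩
      rw [SetLike.mem_coe, Subgroup.mem_centralizer_iff]
      intro y hy
      have hy' : y = f := hy
      rw [hy']
      have h2 := hFfix _ (hcmF u f)
      rw [map_cm, hFfix f hf] at h2
      simp only [cm] at h2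
      have h3 : (c u)⁻¹ * f⁻¹ * c u = u⁻¹ * f⁻¹ * u := mul_right_cancel h2
      have h4 : f⁻¹ * (c u * u⁻¹) = (c u * u⁻¹) * f⁻¹ := by
        have h5 : f⁻¹ * c u = c u * (u⁻¹ * f⁻¹ * u) := by
          rw [← h3]
          group
        rw [← mul_assoc, h5]
        group
      have h6 : f * (c u * u⁻¹) * f⁻¹ = c u * u⁻¹ := by
        rw [mul_assoc, ← h4]
        group
      exact (mul_inv_eq_iff_eq_mul.1 h6)
    intro u
    have h2 := Subgroup.mem_centralizer_iff.1 (h1 (mem_top u)) f rfl
    exact h2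
  have hcm_mul_right : ∀ u g h : Q, cm u (g * h) = cm u g * cm u h := by
    intro u g h
    have h1 := hFcen _ (hcmF u g) h
    have h2 := hFcen _ (hcmF u g) (u⁻¹ * h⁻¹ * u)
    have h3 : cm u (g * h) = u⁻¹ * h⁻¹ * u * (cm u g * h) := by
      simp only [cm]
      group
    rw [h3, h1]
    have h4 : u⁻¹ * h⁻¹ * u * (h * cm u g) = (cm u h) * cm u g := by
      simp only [cm]
      group
    rw [h4, hFcen _ (hcmF u h)]
  have hcm_mul_left : ∀ u v g : Q, cm (u * v) g = cm u g * cm v g := by
    intro u v g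
    have h3 : cm (u * v) g = v⁻¹ * (cm u g) * (g⁻¹ * v * g) := by
      simp only [cm]
      group
    rw [h3, (hFcen _ (hcmF u g) v⁻¹).symm]
    simp only [cm]
    group
  have hcm_one : ∀ g : Q, cm (1 : Q) g = 1 := by
    intro g
    simp [cm]
  have hcm_inv : ∀ u g : Q, cm u⁻¹ g = (cm u g)⁻¹ := by
    intro u g
    have h1 := hcm_mul_left u u⁻¹ g
    rw [mul_inv_cancel, hcm_one] at h1
    exact (eq_inv_of_mul_eq_one_right h1.symm)
  let θ : Q →* Q := MonoidHom.mk' (fun g => cm x g) (hcm_mul_right x)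
  let A : Subgroup Q := θ.range
  have hAF : ∀ a ∈ A, a ∈ F := by
    rintro _ ⟨g, rfl⟩
    exact hcmF x g
  let R₁ : Subgroup Q :=
    { carrier := {u | ∀ g, cm u g ∈ A}
      mul_mem' := by
        intro a b ha hb g
        rw [hcm_mul_left]
        exact mul_mem (ha g) (hb g)
      one_mem' := by
        intro g
        rw [hcm_one]
        exact one_mem _
      inv_mem' := by
        intro a ha g
        rw [hcm_inv]
        exact inv_mem (ha g) }
  have hxR : x ∈ R₁ := fun g => ⟨g, rfl⟩
  have hRtop : R₁ = ⊤ := by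
    by_contra hne
    apply hx
    refine hmin R₁ hne ?_ x hxR
    intro u hu g
    have h1 : cm (c u) g = c (cm u (c.symm g)) := by
      rw [map_cm, MulEquiv.apply_symm_apply]
    rw [h1, hFfix _ (hcmF _ _)]
    exact hu _
  have hcmA : ∀ u g : Q, cm u g ∈ A := by
    intro u g
    have h1 : u ∈ R₁ := by rw [hRtop]; trivial
    exact h1 g
  haveI hAn : A.Normal := by
    constructor
    intro a ha g
    rw [← hFcen a (hAF a ha) g, mul_inv_cancel_right]
    exact ha
  have hcA : ∀ a ∈ A, c a = a := fun a ha => hFfix a (hAF a ha)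
  let π : Q →* Q ⧸ A := QuotientGroup.mk' A
  have hπ : Function.Surjective π := QuotientGroup.mk'_surjective A
  have hBcomm : ∀ a b : Q ⧸ A, a * b = b * a := by
    intro a b
    obtain ⟨u, rfl⟩ := hπ a
    obtain ⟨v, rfl⟩ := hπ b
    rw [← map_mul, ← map_mul]
    apply QuotientGroup.eq.2
    have h1 : (u * v)⁻¹ * (v * u) = cm v u := by
      simp only [cm]
      group
    rw [h1]
    exact hcmA _ _
  let cb : Q ⧸ A →* Q ⧸ A := QuotientGroup.map A A c.toMonoidHom (by
    intro a ha
    show c a ∈ A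
    rw [hcA a ha]
    exact ha)
  have hcb : ∀ u, cb (π u) = π (c u) := fun u => rfl
  -- `x²` is a coboundary mod `A`
  have hrange : ∀ y : Q, ∃ w : Q ⧸ A, π y = cb w * w⁻¹ := by
    intro y
    let T : Subgroup Q :=
      { carrier := {y | ∃ w : Q ⧸ A, π y = cb w * w⁻¹}
        mul_mem' := by
          rintro a b ⟨w₁, h₁⟩ ⟨w₂, h₂⟩
          refine ⟨w₁ * w₂, ?_⟩
          rw [map_mul, h₁, h₂, map_mul, mul_inv_rev, mul_assoc (cb w₁), hBcomm w₁⁻¹, mul_assoc, mul_assoc]
        one_mem' := ⟨1, by simp⟩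
        inv_mem' := by
          rintro a ⟨w₁, h₁⟩
          refine ⟨w₁⁻¹, ?_⟩
          rw [map_inv, h₁, map_inv, mul_inv_rev, inv_inv, hBcomm] }
    have hT : (⊤ : Subgroup Q) ≤ T := by
      rw [← hL, closure_le]
      rintro _ ⟨u, rfl⟩
      refine ⟨π u, ?_⟩
      show π (c u * u⁻¹) = _
      rw [map_mul, map_inv, hcb]
    exact hT (mem_top y)
  obtain ⟨w, hw⟩ := hrange (x ^ 2)
  obtain ⟨w₀, rfl⟩ := hπ w
  have hbfix : cb (π (x ^ 2)) = π (x ^ 2) := by
    rw [hcb, hFfix _ (hsqF x)]
  have h3 : π (x ^ 2) = 1 := by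
    generalize π (x ^ 2) = b at hw hbfix
    have hw' : cb (π w₀) = b * π w₀ := mul_inv_eq_iff_eq_mul.1 hw.symm
    have hit : ∀ i : ℕ, π ((⇑c)^[i] w₀) = b ^ i * π w₀ := by
      intro i
      induction i with
      | zero => simp
      | succ i ih =>
        rw [Function.iterate_succ_apply', ← hcb, ih, map_mul, map_pow, hbfix, hw', pow_succ, mul_assoc]
    have h1 := hit k
    rw [hc w₀] at h1
    have h2 : b ^ k = 1 := mul_eq_right.1 h1.symm
    exact eq_one_of_odd_pow (hQ.to_quotient A) hk h2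
  have h4 : x ^ 2 ∈ A := (QuotientGroup.eq_one_iff _).1 h3
  obtain ⟨g, hg⟩ := inv_mem h4
  refine ⟨g, ?_⟩
  have h5 : cm x g = (x ^ 2)⁻¹ := hg
  simp only [cm, sq] at h5
  have h6 : g⁻¹ * x * g = x * (x⁻¹ * g⁻¹ * x * g) := by group
  rw [h6, h5]
  group

/-- If every 2-element of the finite group G that is conjugate to its inverse lies in the centre of G, then G has a normal 2-complement. -/
theorem result {G : Type*} [Group G] [Finite G] (h : ∀ x : G, (∃ j : ℕ, orderOf x = 2 ^ j) → IsConj x x⁻¹ → x ∈ Subgroup.center G) : Cfsg.HasNormalPComplement 2 G := by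
  classical
  haveI : Fact (Nat.Prime 2) := ⟨Nat.prime_two⟩
  rw [Cfsg.Agent.Lib.PComplement.hasNormalPComplement_iff_forall]
  have main : ∀ (n : ℕ) (Q : Subgroup G), Nat.card Q = n → IsPGroup 2 Q → ∀ y ∈ normalizer (Q : Set G),
      Nat.Coprime (orderOf y) 2 → y ∈ centralizer (Q : Set G) := by
    intro n
    induction n using Nat.strong_induction_on with
    | _ n ih =>
      intro Q hn hQ y hy hyo
      by_contra hyC
      have hex : ∃ x ∈ Q, x * y ≠ y * x := by
        by_contra hall
        push Not at hall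
        exact hyC (Subgroup.mem_centralizer_iff.2 hall)
      obtain ⟨x, hxQ, hxy⟩ := hex
      have hmem : ∀ u : G, u ∈ Q ↔ y * u * y⁻¹ ∈ Q := Subgroup.mem_set_normalizer_iff.1 hy
      have hmem' : ∀ u : G, u ∈ Q ↔ y⁻¹ * u * y ∈ Q := by
        intro u
        have h1 := hmem (y⁻¹ * u * y)
        have h2 : y * (y⁻¹ * u * y) * y⁻¹ = u := by group
        rw [h2] at h1
        exact h1.symm
      let c : ↥Q ≃* ↥Q :=
        { toFun := fun u => ⟨y * u * y⁻¹, (hmem u).1 u.2⟩
          invFun := fun u => ⟨y⁻¹ * u * y, (hmem' u).1 u.2⟩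
          left_inv := by
            intro u
            apply Subtype.ext
            show y⁻¹ * (y * u * y⁻¹) * y = u
            group
          right_inv := by
            intro u
            apply Subtype.ext
            show y * (y⁻¹ * u * y) * y⁻¹ = u
            group
          map_mul' := by
            intro a b
            apply Subtype.ext
            show y * ((a : G) * b) * y⁻¹ = (y * a * y⁻¹) * (y * b * y⁻¹)
            group }
      have hcval : ∀ u : ↥Q, ((c u : ↥Q) : G) = y * u * y⁻¹ := fun u => rfl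
      have hodd : Odd (orderOf y) := Nat.coprime_two_right.1 hyo
      have hit : ∀ (i : ℕ) (u : ↥Q), (((⇑c)^[i] u : ↥Q) : G) = y ^ i * u * (y ^ i)⁻¹ := by
        intro i u
        induction i with
        | zero => simp
        | succ i ih' =>
          rw [Function.iterate_succ_apply', hcval, ih', pow_succ']
          group
      have hcit : ∀ u, (⇑c)^[orderOf y] u = u := by
        intro u
        apply Subtype.ext
        rw [hit, pow_orderOf_eq_one]
        simp
      have hmin : ∀ S : Subgroup ↥Q, S ≠ ⊤ → (∀ s ∈ S, c s ∈ S) → ∀ s ∈ S, c s = s := by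
        intro S hS hinv s hs
        have hcardS : Nat.card (S.map Q.subtype) < n := by
          rw [Subgroup.card_map_of_injective Q.subtype_injective, ← hn]
          have h1 : Nat.card S ≠ Nat.card ↥Q := by
            intro h2
            apply hS
            exact Subgroup.eq_top_of_card_eq S h2
          exact lt_of_le_of_ne (Subgroup.card_le_card_group S) h1
        have hyN : y ∈ normalizer ((S.map Q.subtype : Subgroup G) : Set G) := by
          apply Cfsg.Agent.Lib.Replacement.mem_normalizer_of_forall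
          rintro _ ⟨t, ht, rfl⟩
          exact ⟨c t, hinv t ht, rfl⟩
        have h1 := ih _ hcardS (S.map Q.subtype) rfl (hQ.to_le (Subgroup.map_subtype_le S)) y hyN hyo
        have h2 := Subgroup.mem_centralizer_iff.1 h1 (s : G) ⟨s, hs, rfl⟩
        apply Subtype.ext
        rw [hcval, ← h2]
        group
      have hcx : c ⟨x, hxQ⟩ ≠ ⟨x, hxQ⟩ := by
        intro h1
        have h2 := congrArg Subtype.val h1
        have h3 : y * x * y⁻¹ = x := h2
        apply hxy
        exact (mul_inv_eq_iff_eq_mul.1 h3).symm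
      obtain ⟨g, hg⟩ := key hQ c _ hodd hcit hmin ⟨x, hxQ⟩ hcx
      have hg' : (g : G)⁻¹ * x * g = x⁻¹ := congrArg Subtype.val hg
      have hconj : IsConj x x⁻¹ := by
        refine isConj_iff.2 ⟨(g : G)⁻¹, ?_⟩
        rw [inv_inv]
        exact hg'
      have h2e : ∃ j : ℕ, orderOf x = 2 ^ j := by
        obtain ⟨m, hm⟩ := hQ ⟨x, hxQ⟩
        have h1 : x ^ 2 ^ m = 1 := congrArg Subtype.val hm
        obtain ⟨j, -, hj⟩ := (Nat.dvd_prime_pow Nat.prime_two).1 (orderOf_dvd_of_pow_eq_one h1)
        exact ⟨j, hj⟩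
      have hcen := h x h2e hconj
      exact hxy (Subgroup.mem_center_iff.1 hcen y).symm
  intro Q hQ g hg hgc
  exact main _ Q rfl hQ g hg hgc

end Cfsg.Agent.S3862
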