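import Mathlib
import Cfsg.Prelude.Def_Transfer
import Cfsg.Agent.Lib.ThompsonHom
import Cfsg.Agent.Lib.TransferCore
import Cfsg.Agent.Lib.Tate

set_option autoImplicit false
open Cfsg

namespace Cfsg.Agent.S3864

open DihedralGroup Subgroup
open scoped commutatorElement

section dihedral

variable (k : ℕ)

/-- The dihedral group of order `2 ^ (k + 3)`. -/
abbrev D := DihedralGroup (2 ^ (k + 2))

instance instNZ : NeZero (2 ^ (k + 2)) := ⟨by positivity⟩

/-- The central involution. -/
def zD : D k := r (((2 ^ (k + 1) : ℕ)) : ZMod (2 ^ (k + 2)))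

theorem orderOf_zD : orderOf (zD k) = 2 := by
  rw [zD, orderOf_r, ZMod.val_natCast, Nat.mod_eq_of_lt (Nat.pow_lt_pow_right (by norm_num) (by omega)),
    Nat.gcd_eq_right (pow_dvd_pow 2 (by omega))]
  rw [pow_succ 2 (k + 1)]
  exact Nat.mul_div_cancel_left 2 (by positivity)

theorem invol (u : D k) (hu : orderOf u = 2) : u = zD k ∨ ∃ i, u = sr i := by
  cases u with
  | sr i => exact Or.inr ⟨i, rfl⟩
  | r i =>
    left
    have h1 : (r i : D k) ^ 2 = 1 := by
      have h0 := pow_orderOf_eq_one (r i : D k)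
      rwa [hu] at h0
    rw [sq, r_mul_r, one_def] at h1
    have h2 : i + i = 0 := r.inj h1
    have h3 : (((i.val + i.val : ℕ)) : ZMod (2 ^ (k + 2))) = 0 := by
      push_cast
      rw [ZMod.natCast_zmod_val, h2]
    rw [ZMod.natCast_eq_zero_iff] at h3
    have hlt : i.val < 2 ^ (k + 2) := ZMod.val_lt i
    obtain ⟨c, hc⟩ := h3
    have hc' : c = 0 ∨ c = 1 := by
      have h4 : 2 ^ (k + 2) = 2 * 2 ^ (k + 1) := by rw [pow_succ]; ring
      have h5 : 0 < 2 ^ (k + 2) := by positivity
      have : c < 2 := by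
        by_contra hc2
        push Not at hc2
        have := Nat.mul_le_mul_left (2 ^ (k + 2)) hc2
        omega
      omega
    rcases hc' with rfl | rfl
    · exfalso
      have h6 : i.val = 0 := by omega
      have h7 : i = 0 := (ZMod.val_eq_zero i).1 h6
      rw [h7, r_zero, orderOf_one] at hu
      omega
    · have h4 : 2 ^ (k + 2) = 2 * 2 ^ (k + 1) := by rw [pow_succ]; ring
      have h6 : i.val = 2 ^ (k + 1) := by omega
      show r i = r _
      congr 1
      rw [← h6, ZMod.natCast_zmod_val]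

/-- Parity on `ℤ/2^(k+2)`. -/
def par : ZMod (2 ^ (k + 2)) →+* ZMod 2 := ZMod.castHom (dvd_pow_self 2 (by omega)) (ZMod 2)

/-- The sign of an element of `ℤ/2`. -/
def zeta (a : ZMod 2) : ℤˣ := if a = 0 then 1 else -1

theorem zeta_add (a b : ZMod 2) : zeta (a + b) = zeta a * zeta b := by
  revert a b
  decide

/-- The parity sign. -/
def sig (i : ZMod (2 ^ (k + 2))) : ℤˣ := zeta (par k i)

theorem sig_add (i j : ZMod (2 ^ (k + 2))) : sig k (i + j) = sig k i * sig k j := by
  simp only [sig, map_add, zeta_add]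

theorem sig_sq (i : ZMod (2 ^ (k + 2))) : sig k i * sig k i = 1 := Int.units_mul_self _

theorem sig_sub (i j : ZMod (2 ^ (k + 2))) : sig k (i - j) = sig k i * sig k j := by
  have h := sig_add k (i - j) j
  rw [sub_add_cancel] at h
  rw [h, mul_assoc, sig_sq, mul_one]

theorem sig_zero : sig k 0 = 1 := by
  simp [sig, zeta]

theorem sig_one : sig k 1 = -1 := by
  simp [sig, zeta, map_one]

theorem sig_two_mul (j : ZMod (2 ^ (k + 2))) : sig k (2 * j) = 1 := by
  rw [two_mul, sig_add, sig_sq]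

theorem parity (i : ZMod (2 ^ (k + 2))) : (∃ j, i = 2 * j) ∨ ∃ j, i = 1 + 2 * j := by
  have h := ZMod.natCast_zmod_val i
  rcases Nat.even_or_odd' i.val with ⟨c, hc | hc⟩
  · left
    refine ⟨(c : ZMod (2 ^ (k + 2))), ?_⟩
    rw [← h, hc]
    push_cast
    rfl
  · right
    refine ⟨(c : ZMod (2 ^ (k + 2))), ?_⟩
    rw [← h, hc]
    push_cast
    ring

/-- The sign character with kernel the rotations. -/
def eps₁ : D k →* ℤˣ := MonoidHom.mk' (fun u => match u with | r _ => 1 | sr _ => -1) (by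
  rintro (i | i) (j | j) <;> simp)

/-- The two sign characters with kernel dihedral. -/
def eps₂ (δ : ℤˣ) : D k →* ℤˣ := MonoidHom.mk'
  (fun u => match u with | r i => sig k i | sr i => δ * sig k i) (by
  have hδ : δ * δ = 1 := Int.units_mul_self _
  have hcomm : ∀ a b : ℤˣ, a * b = b * a := mul_comm
  rintro (i | i) (j | j)
  · simp [sig_add]
  · simp only [r_mul_sr, sig_sub]
    ac_rfl
  · simp only [sr_mul_r, sig_add, mul_assoc]
  · simp only [sr_mul_sr, sig_sub]
    calc sig k j * sig k i = (δ * δ) * (sig k i * sig k j) := by rw [hδ, one_mul, hcomm]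
      _ = _ := by ac_rfl)

theorem conj_sr (i : ZMod (2 ^ (k + 2))) :
    IsConj (sr i : D k) (sr 0) ∨ IsConj (sr i : D k) (sr 1) := by
  have h : ∀ j, (r j : D k) * sr i * (r j)⁻¹ = sr (i - 2 * j) := by
    intro j
    rw [r_mul_sr, inv_r, sr_mul_r]
    congr 1
    ring
  rcases parity k i with ⟨j, hj⟩ | ⟨j, hj⟩
  · left
    refine isConj_iff.2 ⟨r j, ?_⟩
    rw [h, hj]
    congr 1
    ring
  · right
    refine isConj_iff.2 ⟨r j, ?_⟩
    rw [h, hj]
    congr 1
    ring

end dihedral

section group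

variable {G : Type*} [Group G] [Finite G] {k : ℕ} (f : D k →* G) (hf : Function.Injective f)

/-- A character of `D` as a character of the range. -/
noncomputable def chi (ε : D k →* ℤˣ) : ↥f.range →* ℤˣ :=
  ε.comp (MonoidHom.ofInjective hf).symm.toMonoidHom

theorem chi_apply (ε : D k →* ℤˣ) (u : D k) (h : f u ∈ f.range) : chi f hf ε ⟨f u, h⟩ = ε u := by
  have h1 : (⟨f u, h⟩ : ↥f.range) = MonoidHom.ofInjective hf u := rfl
  have h2 : (MonoidHom.ofInjective hf).symm (MonoidHom.ofInjective hf u) = u :=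
    (MonoidHom.ofInjective hf).symm_apply_apply u
  simp only [chi, h1, MonoidHom.comp_apply, MulEquiv.toMonoidHom_eq_coe, MonoidHom.coe_coe]
  rw [h2]

/-- The transfer. -/
noncomputable def Vv (ε : D k →* ℤˣ) : G →* ℤˣ := MonoidHom.transfer (chi f hf ε)

theorem V_neg (hS : ¬ 2 ∣ f.range.index) (ε : D k →* ℤˣ) (x : G) (hx : x ^ 2 = 1)
    (h : ∀ g u, g⁻¹ * x * g = f u → ε u ≠ 1) : Vv f hf ε x = -1 := by
  apply Cfsg.Agent.Lib.ThompsonHom.transfer_eq_neg_one f.range _ hS x 1 (by simpa using hx)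
  · intro m g hm _ hg
    obtain ⟨t, rfl⟩ := hm
    have h1 : (⟨g⁻¹ * x ^ (2 * t) * g, hg⟩ : ↥f.range) = 1 := by
      apply Subtype.ext
      simp [pow_mul, hx]
    rw [h1, map_one]
  · intro g hg
    obtain ⟨u, hu⟩ := id hg
    have h1 : (⟨g⁻¹ * x * g, hg⟩ : ↥f.range) = ⟨f u, MonoidHom.mem_range.2 ⟨u, rfl⟩⟩ := Subtype.ext hu.symm
    rw [h1, chi_apply]
    exact h g u hu.symm

theorem V_one (ε : D k →* ℤˣ) (x : G)
    (h : ∀ m g u, g⁻¹ * x ^ m * g = f u → ε u = 1) : Vv f hf ε x = 1 := by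
  apply Cfsg.Agent.Lib.ThompsonHom.transfer_eq_one f.range
  intro m g hg
  obtain ⟨u, hu⟩ := id hg
  have h1 : (⟨g⁻¹ * x ^ m * g, hg⟩ : ↥f.range) = ⟨f u, MonoidHom.mem_range.2 ⟨u, rfl⟩⟩ := Subtype.ext hu.symm
  rw [h1, chi_apply]
  exact h m g u hu.symm

include hf in
theorem order_eq_of_conj {x : G} {g : G} {u : D k} (hu : g⁻¹ * x * g = f u) : orderOf u = orderOf x := by
  have h1 : orderOf (f u) = orderOf u := orderOf_injective f hf u
  rw [← h1, ← hu]
  have h2 : g⁻¹ * x * g = MulAut.conj g⁻¹ x := by simp [MulAut.conj_apply]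
  rw [h2]
  exact orderOf_injective (MulAut.conj g⁻¹).toMonoidHom (MulAut.conj g⁻¹).injective x

theorem isConj_of_eq {x : G} {g : G} {u : D k} (hu : g⁻¹ * x * g = f u) : IsConj x (f u) := by
  refine isConj_iff.2 ⟨g⁻¹, ?_⟩
  rw [inv_inv]
  exact hu

theorem map_isConj {u v : D k} (h : IsConj u v) : IsConj (f u) (f v) := by
  obtain ⟨c, rfl⟩ := isConj_iff.1 h
  exact isConj_iff.2 ⟨f c, by simp⟩

theorem eps_isConj (ε : D k →* ℤˣ) {u v : D k} (h : IsConj u v) : ε u = ε v := by
  obtain ⟨c, rfl⟩ := isConj_iff.1 h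
  rw [map_mul, map_mul, map_inv, mul_comm (ε c), mul_inv_cancel_right]

/-- A `2`-subgroup is conjugate into the Sylow subgroup. -/
theorem exists_conj_into (P : Sylow 2 G) (hP : (P : Subgroup G) = f.range) (H : Subgroup G) (hH : IsPGroup 2 H) :
    ∃ h : G, ∀ t ∈ H, ∃ u, h⁻¹ * t * h = f u := by
  haveI : Fact (Nat.Prime 2) := ⟨Nat.prime_two⟩
  obtain ⟨Q, hQ⟩ := hH.exists_le_sylow
  obtain ⟨h, rfl⟩ := Cfsg.Agent.Lib.TransferCore.exists_conj Q P
  refine ⟨h, fun t ht => ?_⟩
  have h1 := Cfsg.Agent.Lib.TransferCore.mem_smul_sylow.1 (hQ ht)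
  have h2 : h⁻¹ * t * h ∈ f.range := by
    rw [← hP]
    exact h1
  obtain ⟨u, hu⟩ := h2
  exact ⟨u, hu.symm⟩

include hf in
theorem invol_class (P : Sylow 2 G) (hP : (P : Subgroup G) = f.range) (g : G) (hg : orderOf g = 2) :
    IsConj g (f (zD k)) ∨ IsConj g (f (sr 0)) ∨ IsConj g (f (sr 1)) := by
  have hH : IsPGroup 2 (zpowers g) := by
    rw [IsPGroup.iff_card, Nat.card_zpowers, hg]
    exact ⟨1, rfl⟩
  obtain ⟨h, hh⟩ := exists_conj_into f P hP (zpowers g) hH
  obtain ⟨u, hu⟩ := hh g (mem_zpowers g)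
  have h1 := order_eq_of_conj f hf hu
  rw [hg] at h1
  have h2 := isConj_of_eq f hu
  rcases invol k u h1 with rfl | ⟨i, rfl⟩
  · exact Or.inl h2
  · rcases conj_sr k i with h3 | h3
    · exact Or.inr (Or.inl (h2.trans (map_isConj f h3)))
    · exact Or.inr (Or.inr (h2.trans (map_isConj f h3)))

theorem sr_ne_one (i : ZMod (2 ^ (k + 2))) : (sr i : D k) ^ 2 = 1 := by
  rw [sq, sr_mul_self]

theorem map_sr_sq (i : ZMod (2 ^ (k + 2))) : (f (sr i)) ^ 2 = 1 := by
  rw [← map_pow, sr_ne_one, map_one]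

theorem map_zD_sq : (f (zD k)) ^ 2 = 1 := by
  rw [← map_pow]
  have := pow_orderOf_eq_one (zD k)
  rw [orderOf_zD] at this
  rw [this, map_one]


include hf in
theorem orderOf_map_sr (i : ZMod (2 ^ (k + 2))) : orderOf (f (sr i)) = 2 := by
  rw [orderOf_injective f hf, orderOf_sr]

theorem comm_mem (L : Subgroup G) [L.Normal] (hL : ∀ x y : G, x * y * x⁻¹ * y⁻¹ ∈ L) (j : ZMod (2 ^ (k + 2))) :
    f (r (2 * j)) ∈ L := by
  have h := hL (f (r j)) (f (sr 0))
  have h1 : f (r j) * f (sr 0) * (f (r j))⁻¹ * (f (sr 0))⁻¹ = f (r (2 * j)) := by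
    rw [← map_inv, ← map_inv, ← map_mul, ← map_mul, ← map_mul, r_mul_sr, inv_r, sr_mul_r, inv_sr, sr_mul_sr]
    congr 2
    ring
  rwa [h1] at h

theorem zD_eq : zD k = r (2 * (((2 ^ k : ℕ)) : ZMod (2 ^ (k + 2)))) := by
  rw [zD]
  congr 1
  push_cast
  rw [pow_succ]
  ring

include hf in
/-- Case of three classes. -/
theorem npc_case (P : Sylow 2 G) (hP : (P : Subgroup G) = f.range)
    (hza : ¬ IsConj (f (zD k)) (f (sr 0))) (hzb : ¬ IsConj (f (zD k)) (f (sr 1))) :
    Cfsg.HasNormalPComplement 2 G := by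
  haveI hF : Fact (Nat.Prime 2) := ⟨Nat.prime_two⟩
  have hS : ¬ 2 ∣ f.range.index := by
    rw [← hP]
    exact P.not_dvd_index
  have hnoz : ∀ i, ¬ IsConj (f (sr i)) (f (zD k)) := by
    intro i h
    rcases conj_sr k i with h3 | h3
    · exact hza (h.symm.trans (map_isConj f h3))
    · exact hzb (h.symm.trans (map_isConj f h3))
  have hsr : ∀ i, Vv f hf (eps₁ k) (f (sr i)) = -1 := by
    intro i
    apply V_neg f hf hS _ _ (map_sr_sq f i)
    intro g u hu
    have h1 := order_eq_of_conj f hf hu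
    rw [orderOf_map_sr f hf] at h1
    rcases invol k u h1 with rfl | ⟨j, rfl⟩
    · exact absurd (isConj_of_eq f hu) (hnoz i)
    · show ((-1 : ℤˣ)) ≠ 1
      decide
  have hrot : ∀ j, Vv f hf (eps₁ k) (f (r j)) = 1 := by
    intro j
    apply V_one f hf
    intro m g u hu
    cases u with
    | r i => rfl
    | sr i =>
      exfalso
      have h1 := order_eq_of_conj f hf hu
      rw [orderOf_sr, ← map_pow, orderOf_injective f hf] at h1
      rw [← map_pow] at hu
      have h2 := isConj_of_eq f hu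
      rcases invol k _ h1.symm with h3 | ⟨l, h3⟩
      · rw [h3] at h2
        exact hnoz i h2.symm
      · rw [r_pow] at h3
        cases h3
  let V := Vv f hf (eps₁ k)
  let K : Subgroup G := V.ker
  haveI hKn : K.Normal := MonoidHom.normal_ker _
  have hKmem : ∀ u, f u ∈ K → ∃ j, u = r j := by
    intro u hu
    cases u with
    | r i => exact ⟨i, rfl⟩
    | sr i =>
      exfalso
      have h1 : V (f (sr i)) = 1 := hu
      have h2 : V (f (sr i)) = -1 := hsr i
      rw [h1] at h2
      exact absurd h2 (by decide)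
  obtain ⟨T⟩ : Nonempty (Sylow 2 K) := inferInstance
  have hT : IsCyclic (T : Subgroup K) := by
    have h1 : IsPGroup 2 ((T : Subgroup K).map K.subtype) := T.2.map _
    obtain ⟨h, hh⟩ := exists_conj_into f P hP _ h1
    have h2 : ∀ t : ↥(T : Subgroup K), h⁻¹ * (t : K) * h ∈ zpowers (f (r 1)) := by
      intro t
      obtain ⟨u, hu⟩ := hh ((t : K) : G) ⟨t, t.2, rfl⟩
      have h3 : f u ∈ K := by
        rw [← hu]
        have := hKn.conj_mem _ (t : K).2 h⁻¹
        simpa using this
      obtain ⟨j, rfl⟩ := hKmem u h3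
      rw [hu]
      have h4 : r j = (r 1 : D k) ^ j.val := by
        rw [r_one_pow, ZMod.natCast_zmod_val]
      rw [h4, map_pow]
      exact pow_mem (mem_zpowers _) _
    let ψ : ↥(T : Subgroup K) →* ↥(zpowers (f (r 1))) := MonoidHom.mk'
      (fun t => ⟨h⁻¹ * (t : K) * h, h2 t⟩) (by
        intro a b
        apply Subtype.ext
        show h⁻¹ * (((a * b : ↥(T : Subgroup K)) : K) : G) * h = (h⁻¹ * ((a : K) : G) * h) * (h⁻¹ * ((b : K) : G) * h)
        simp [mul_assoc])
    have hψ : Function.Injective ψ := by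
      intro a b hab
      have h3 := congrArg Subtype.val hab
      have h4 : h⁻¹ * ((a : K) : G) * h = h⁻¹ * ((b : K) : G) * h := h3
      have h5 : ((a : K) : G) = ((b : K) : G) := by
        simpa using h4
      exact Subtype.ext (Subtype.ext h5)
    exact isCyclic_of_injective ψ hψ
  have hzK : f (zD k) ∈ K := by
    show V (f (zD k)) = 1
    rw [zD]
    exact hrot _
  have heven : 2 ∣ Nat.card K := by
    have h1 : orderOf (⟨f (zD k), hzK⟩ : K) = 2 := by
      rw [Subgroup.orderOf_mk, orderOf_injective f hf, orderOf_zD]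
    rw [← h1]
    exact orderOf_dvd_natCard _
  have hmin : (Nat.card K).minFac = 2 := (Nat.minFac_eq_two_iff _).2 heven
  have hc := IsCyclic.isComplement' hmin hT
  set L₀ := (MonoidHom.transferSylow T (hT.normalizer_le_centralizer hmin)).ker with hL₀
  have hL₀n : L₀.Normal := MonoidHom.normal_ker _
  have hcardL₀ : ¬ 2 ∣ Nat.card L₀ := by
    have h1 := hc.index_eq_card
    rw [← h1]
    exact T.not_dvd_index
  refine Cfsg.Agent.Lib.Tate.hasNormalPComplement_of_pow (L₀.map K.subtype) ?_ ?_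
  · rw [Subgroup.card_map_of_injective K.subtype_injective]
    exact ((Nat.Prime.coprime_iff_not_dvd Nat.prime_two).2 hcardL₀).symm
  · intro x
    have hx2 : x ^ 2 ∈ K := by
      show V (x ^ 2) = 1
      rw [map_pow]
      exact Int.units_sq _
    have hq : IsPGroup 2 (K ⧸ L₀) := by
      rw [IsPGroup.iff_card]
      have h3 : Nat.card (K ⧸ L₀) = Nat.card (T : Subgroup K) := hc.symm.index_eq_card
      rw [h3]
      exact IsPGroup.iff_card.1 T.2
    obtain ⟨i, hi⟩ := hq (QuotientGroup.mk ⟨x ^ 2, hx2⟩)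
    refine ⟨i + 1, ?_⟩
    rw [← QuotientGroup.mk_pow] at hi
    have h4 : (⟨x ^ 2, hx2⟩ : K) ^ 2 ^ i ∈ L₀ := (QuotientGroup.eq_one_iff _).1 hi
    refine ⟨_, h4, ?_⟩
    show (x ^ 2) ^ 2 ^ i = x ^ 2 ^ (i + 1)
    rw [← pow_mul, pow_succ']

include hf in
/-- `a`, `b` are not conjugate when there is a normal `2`-complement. -/
theorem not_conj_ab (P : Sylow 2 G) (hP : (P : Subgroup G) = f.range)
    (hN : Cfsg.HasNormalPComplement 2 G) : ¬ IsConj (f (sr 0)) (f (sr 1)) := by
  classical
  haveI hF : Fact (Nat.Prime 2) := ⟨Nat.prime_two⟩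
  intro hconj
  obtain ⟨Q, N, hNn, hC⟩ := hN
  haveI := hNn
  have hmem := Cfsg.Agent.Lib.TransferCore.mem_of_complement_iff hC
  have hcop := Cfsg.Agent.Lib.TransferCore.coprime_card_of_complement hC
  have hcardP : Nat.card (P : Subgroup G) = Nat.card (Q : Subgroup G) := by
    rw [Sylow.card_eq_multiplicity, Sylow.card_eq_multiplicity]
  have hC' : N.IsComplement' (P : Subgroup G) := by
    apply Subgroup.isComplement'_of_coprime
    · rw [hcardP]
      exact hC.card_mul_card
    · obtain ⟨m, hm⟩ := IsPGroup.iff_card.1 P.2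
      rw [hm]
      exact Nat.Coprime.pow_right _ hcop
  obtain ⟨c, hc⟩ := isConj_iff.1 hconj
  obtain ⟨⟨ν, t⟩, hνt⟩ := hC'.2 c
  have hνt' : (ν : G) * (t : G) = c := hνt
  have ht : (t : G) ∈ f.range := by
    rw [← hP]
    exact t.2
  obtain ⟨t₀, ht₀⟩ := ht
  set a' := t₀ * sr 0 * t₀⁻¹ with ha'
  have h1 : (ν : G) * f a' * (ν : G)⁻¹ = f (sr 1) := by
    rw [← hc, ← hνt', ha', map_mul, map_mul, map_inv, ht₀]
    group
  have h2 : (ν : G) * f a' * (ν : G)⁻¹ * (f a')⁻¹ ∈ N := by
    have h3 := hNn.conj_mem _ (inv_mem ν.2) (f a')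
    have h4 : (ν : G) * (f a' * (ν : G)⁻¹ * (f a')⁻¹) = (ν : G) * f a' * (ν : G)⁻¹ * (f a')⁻¹ := by group
    rw [← h4]
    exact mul_mem ν.2 h3
  rw [h1, ← map_inv, ← map_mul] at h2
  set v := (sr 1 : D k) * a'⁻¹ with hv
  have h3 := (hmem _).1 h2
  rw [orderOf_injective f hf] at h3
  have h4 : orderOf v ∣ 2 ^ (k + 3) := by
    have h5 := orderOf_dvd_natCard v
    rw [DihedralGroup.nat_card, ← pow_succ'] at h5
    exact h5
  have h5 : orderOf v = 1 := by
    obtain ⟨l, _, hl⟩ := (Nat.dvd_prime_pow Nat.prime_two).1 h4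
    rcases l with _ | l
    · simpa using hl
    · rw [hl] at h3
      have h6 : 2 ∣ Nat.gcd (2 ^ (l + 1)) 2 := Nat.dvd_gcd (dvd_pow_self 2 (by omega)) dvd_rfl
      rw [h3] at h6
      omega
  have h6 : v = 1 := orderOf_eq_one_iff.1 h5
  have h7 : (sr 1 : D k) = a' := by
    rwa [hv, mul_inv_eq_one] at h6
  have h8 : eps₂ k 1 (sr 1) = eps₂ k 1 (sr 0) := by
    rw [h7, ha', map_mul, map_mul, map_inv, mul_comm (eps₂ k 1 t₀), mul_inv_cancel_right]
  have h9 : eps₂ k 1 (sr 1) = -1 := by
    show (1 : ℤˣ) * sig k 1 = -1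
    rw [sig_one, one_mul]
  have h10 : eps₂ k 1 (sr 0) = 1 := by
    show (1 : ℤˣ) * sig k 0 = 1
    rw [sig_zero, one_mul]
  rw [h9, h10] at h8
  exact absurd h8 (by decide)

include hf in
/-- Case of two classes. -/
theorem case_two (P : Sylow 2 G) (hP : (P : Subgroup G) = f.range) (δ : ℤˣ) (a' b' : D k)
    (ha : IsConj (f (zD k)) (f a')) (hb : ¬ IsConj (f (zD k)) (f b'))
    (ea : eps₂ k δ a' = 1) (eb : eps₂ k δ b' = -1)
    (hab : ∀ i, IsConj (sr i : D k) a' ∨ IsConj (sr i : D k) b') (hb2 : orderOf b' = 2) :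
    (∃ N : Subgroup G, N.Normal ∧ N.index = 2) ∧ ∀ N : Subgroup G, N.Normal → N.index ≠ 4 := by
  classical
  haveI hF : Fact (Nat.Prime 2) := ⟨Nat.prime_two⟩
  have hS : ¬ 2 ∣ f.range.index := by
    rw [← hP]
    exact P.not_dvd_index
  have hb2' : (f b') ^ 2 = 1 := by
    have h0 := pow_orderOf_eq_one b'
    rw [hb2] at h0
    rw [← map_pow, h0, map_one]
  have hV : Vv f hf (eps₂ k δ) (f b') = -1 := by
    apply V_neg f hf hS _ _ hb2'
    intro g u hu heu
    have h1 := order_eq_of_conj f hf hu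
    rw [orderOf_injective f hf, hb2] at h1
    have h2 := isConj_of_eq f hu
    rcases invol k u h1 with rfl | ⟨j, rfl⟩
    · exact hb h2.symm
    · rcases hab j with h3 | h3
      · exact hb (ha.trans ((h2.trans (map_isConj f h3)).symm))
      · have h4 := eps_isConj (eps₂ k δ) h3
        rw [heu, eb] at h4
        exact absurd h4 (by decide)
  constructor
  · refine ⟨(Vv f hf (eps₂ k δ)).ker, MonoidHom.normal_ker _, ?_⟩
    rw [Subgroup.index_ker]
    have h1 : (Vv f hf (eps₂ k δ)).range = ⊤ := by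
      rw [eq_top_iff]
      intro u _
      rcases Int.units_eq_one_or u with rfl | rfl
      · exact one_mem _
      · exact ⟨f b', hV⟩
    rw [h1, Subgroup.card_top]
    simp [Nat.card_eq_fintype_card]
  · intro L hLn hL4
    haveI := hLn
    have hcard : Nat.card (G ⧸ L) = 2 ^ 2 := by
      have : Nat.card (G ⧸ L) = L.index := rfl
      rw [this, hL4]
      norm_num
    have hcomm : IsMulCommutative (G ⧸ L) := IsPGroup.isMulCommutative_of_card_eq_prime_sq hcard
    have hLcomm : ∀ x y : G, x * y * x⁻¹ * y⁻¹ ∈ L := by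
      intro x y
      have h1 : (QuotientGroup.mk x : G ⧸ L) * QuotientGroup.mk y = QuotientGroup.mk y * QuotientGroup.mk x :=
        hcomm.is_comm.comm _ _
      have h2 : (QuotientGroup.mk (x * y * x⁻¹ * y⁻¹) : G ⧸ L) = 1 := by
        simp only [QuotientGroup.mk_mul, QuotientGroup.mk_inv, h1]
        group
      exact (QuotientGroup.eq_one_iff _).1 h2
    have hrot : ∀ j, f (r (2 * j)) ∈ L := comm_mem f L hLcomm
    have hz : f (zD k) ∈ L := by
      rw [zD_eq]
      exact hrot _
    have haL : f a' ∈ L := by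
      obtain ⟨c, hc⟩ := isConj_iff.1 ha
      rw [← hc]
      exact hLn.conj_mem _ hz c
    have hker : ∀ u, eps₂ k δ u = 1 → f u ∈ L := by
      intro u hu
      cases u with
      | r i =>
        rcases parity k i with ⟨j, rfl⟩ | ⟨j, rfl⟩
        · exact hrot j
        · exfalso
          have h1 : eps₂ k δ (r (1 + 2 * j)) = sig k (1 + 2 * j) := rfl
          rw [h1, sig_add, sig_two_mul, sig_one] at hu
          exact absurd hu (by decide)
      | sr i =>
        rcases hab i with h3 | h3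
        · obtain ⟨c, hc⟩ := isConj_iff.1 ((map_isConj f h3).symm)
          rw [← hc]
          exact hLn.conj_mem _ haL c
        · have h4 := eps_isConj (eps₂ k δ) h3
          rw [hu, eb] at h4
          exact absurd h4 (by decide)
    let q : G →* G ⧸ L := QuotientGroup.mk' L
    have hq : Function.Surjective q := QuotientGroup.mk'_surjective L
    let Y : Subgroup (G ⧸ L) := zpowers (q (f b'))
    have hle : (P : Subgroup G) ≤ Y.comap q := by
      rw [hP]
      rintro _ ⟨u, rfl⟩
      rw [Subgroup.mem_comap]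
      rcases Int.units_eq_one_or (eps₂ k δ u) with h | h
      · have h1 : q (f u) = 1 := (QuotientGroup.eq_one_iff _).2 (hker u h)
        rw [h1]
        exact one_mem _
      · have h1 : eps₂ k δ (u * b') = 1 := by
          rw [map_mul, h, eb]
          decide
        have h2 : q (f (u * b')) = 1 := (QuotientGroup.eq_one_iff _).2 (hker _ h1)
        rw [map_mul, map_mul] at h2
        rw [eq_inv_of_mul_eq_one_left h2]
        exact inv_mem (mem_zpowers _)
    have h1 : (Y.comap q).index ∣ (P : Subgroup G).index := Subgroup.index_dvd_of_le hle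
    have h2 : (Y.comap q).index = Y.index := Subgroup.index_comap_of_surjective Y hq
    have h3 : Y.index ∣ 2 ^ 2 := by
      rw [← hcard]
      exact Subgroup.index_dvd_card Y
    have h4 : Y.index = 1 := by
      obtain ⟨l, _, hl⟩ := (Nat.dvd_prime_pow Nat.prime_two).1 h3
      rcases l with _ | l
      · simpa using hl
      · exfalso
        apply P.not_dvd_index
        refine Dvd.dvd.trans ?_ h1
        rw [h2, hl]
        exact dvd_pow_self 2 (by omega)
    have h5 : Y = ⊤ := Subgroup.index_eq_one.1 h4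
    have h6 : orderOf (q (f b')) = Nat.card (G ⧸ L) := by
      rw [← Nat.card_zpowers]
      show Nat.card Y = _
      rw [h5, Subgroup.card_top]
    have h7 : orderOf (q (f b')) ∣ 2 := by
      apply orderOf_dvd_of_pow_eq_one
      rw [← map_pow, hb2', map_one]
    rw [h6, hcard] at h7
    omega

include hf in
/-- Case of one class. -/
theorem case_one (P : Sylow 2 G) (hP : (P : Subgroup G) = f.range)
    (ha : IsConj (f (zD k)) (f (sr 0))) (hb : IsConj (f (zD k)) (f (sr 1))) :
    ∀ N : Subgroup G, N.Normal → N.index ≠ 2 := by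
  intro L hLn hL2
  haveI hF : Fact (Nat.Prime 2) := ⟨Nat.prime_two⟩
  haveI := hLn
  have hz : f (zD k) ∈ L := by
    have h1 : zD k = (r ((2 ^ k : ℕ) : ZMod (2 ^ (k + 2)))) ^ 2 := by
      rw [zD_eq, sq, r_mul_r, two_mul]
    rw [h1, map_pow]
    exact Subgroup.sq_mem_of_index_two hL2 _
  have haL : f (sr 0) ∈ L := by
    obtain ⟨c, hc⟩ := isConj_iff.1 ha
    rw [← hc]
    exact hLn.conj_mem _ hz c
  have hbL : f (sr 1) ∈ L := by
    obtain ⟨c, hc⟩ := isConj_iff.1 hb
    rw [← hc]
    exact hLn.conj_mem _ hz c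
  have hr1 : f (r 1) ∈ L := by
    have h1 : (r 1 : D k) = sr 0 * sr 1 := by
      rw [sr_mul_sr, sub_zero]
    rw [h1, map_mul]
    exact mul_mem haL hbL
  have hall : ∀ u, f u ∈ L := by
    intro u
    cases u with
    | r i =>
      have h4 : r i = (r 1 : D k) ^ i.val := by
        rw [r_one_pow, ZMod.natCast_zmod_val]
      rw [h4, map_pow]
      exact pow_mem hr1 _
    | sr i =>
      have h4 : r i = (r 1 : D k) ^ i.val := by
        rw [r_one_pow, ZMod.natCast_zmod_val]
      have h5 : (sr i : D k) = sr 0 * r i := by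
        rw [sr_mul_r, zero_add]
      rw [h5, map_mul, h4, map_pow]
      exact mul_mem haL (pow_mem hr1 _)
  have hle : (P : Subgroup G) ≤ L := by
    rw [hP]
    rintro _ ⟨u, rfl⟩
    exact hall u
  have h1 := Subgroup.index_dvd_of_le hle
  rw [hL2] at h1
  exact P.not_dvd_index h1

end group

/-- Let G be a finite group whose Sylow 2-subgroups are dihedral of order 2 ^ n with n ≥ 3, and count the conjugacy classes of involutions of G. Then exactly one of the following holds: there is one class of involutions and no normal subgroup of index 2; there are two classes of involutions, a normal subgroup of index 2 and none of index 4; there are three classes of involutions and G has a normal 2-complement. -/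
theorem result {G : Type*} [Group G] [Finite G] (P : Sylow 2 G) (n : ℕ) (hn : 3 ≤ n) (hdih : Nonempty (↥(P : Subgroup G) ≃* DihedralGroup (2 ^ (n - 1)))) : (Nat.card {C : ConjClasses G // ∃ g : G, ConjClasses.mk g = C ∧ orderOf g = 2} = 1 ∧ ∀ N : Subgroup G, N.Normal → N.index ≠ 2) ∨ (Nat.card {C : ConjClasses G // ∃ g : G, ConjClasses.mk g = C ∧ orderOf g = 2} = 2 ∧ (∃ N : Subgroup G, N.Normal ∧ N.index = 2) ∧ ∀ N : Subgroup G, N.Normal → N.index ≠ 4) ∨ (Nat.card {C : ConjClasses G // ∃ g : G, ConjClasses.mk g = C ∧ orderOf g = 2} = 3 ∧ Cfsg.HasNormalPComplement 2 G) := by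
  classical
  obtain ⟨k, rfl⟩ : ∃ k, n = k + 3 := ⟨n - 3, by omega⟩
  obtain ⟨e⟩ := hdih
  let e' : ↥(P : Subgroup G) ≃* D k := e
  let f : D k →* G := (P : Subgroup G).subtype.comp e'.symm.toMonoidHom
  have hf : Function.Injective f := (Subgroup.subtype_injective _).comp e'.symm.injective
  have hP : (P : Subgroup G) = f.range := by
    ext x
    constructor
    · intro hx
      exact ⟨e' ⟨x, hx⟩, by simp [f]⟩
    · rintro ⟨u, rfl⟩
      exact (e'.symm u).2
  set z := f (zD k) with hz
  set a := f (sr 0) with ha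
  set b := f (sr 1) with hb
  have hzo : orderOf z = 2 := by rw [hz, orderOf_injective f hf, orderOf_zD]
  have hao : orderOf a = 2 := orderOf_map_sr f hf 0
  have hbo : orderOf b = 2 := orderOf_map_sr f hf 1
  have hcl : ∀ C : ConjClasses G, (∃ g : G, ConjClasses.mk g = C ∧ orderOf g = 2) ↔
      C ∈ ({ConjClasses.mk z, ConjClasses.mk a, ConjClasses.mk b} : Set (ConjClasses G)) := by
    intro C
    simp only [Set.mem_insert_iff, Set.mem_singleton_iff]
    constructor
    · rintro ⟨g, rfl, hg⟩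
      rcases invol_class f hf P hP g hg with h | h | h
      · exact Or.inl (ConjClasses.mk_eq_mk_iff_isConj.2 h)
      · exact Or.inr (Or.inl (ConjClasses.mk_eq_mk_iff_isConj.2 h))
      · exact Or.inr (Or.inr (ConjClasses.mk_eq_mk_iff_isConj.2 h))
    · rintro (rfl | rfl | rfl)
      · exact ⟨z, rfl, hzo⟩
      · exact ⟨a, rfl, hao⟩
      · exact ⟨b, rfl, hbo⟩
  have hcard : Nat.card {C : ConjClasses G // ∃ g : G, ConjClasses.mk g = C ∧ orderOf g = 2} =
      Set.ncard ({ConjClasses.mk z, ConjClasses.mk a, ConjClasses.mk b} : Set (ConjClasses G)) := by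
    rw [← Nat.card_coe_set_eq]
    exact Nat.card_congr (Equiv.subtypeEquivRight hcl)
  rw [hcard]
  by_cases hza : IsConj z a
  · have hza' : ConjClasses.mk z = ConjClasses.mk a := ConjClasses.mk_eq_mk_iff_isConj.2 hza
    by_cases hzb : IsConj z b
    · have hzb' : ConjClasses.mk z = ConjClasses.mk b := ConjClasses.mk_eq_mk_iff_isConj.2 hzb
      left
      refine ⟨?_, case_one f hf P hP hza hzb⟩
      rw [← hza', ← hzb']
      simp
    · have hzb' : ConjClasses.mk z ≠ ConjClasses.mk b := fun h => hzb (ConjClasses.mk_eq_mk_iff_isConj.1 h)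
      right
      left
      have h1 : ({ConjClasses.mk z, ConjClasses.mk a, ConjClasses.mk b} : Set (ConjClasses G)) =
          {ConjClasses.mk z, ConjClasses.mk b} := by
        rw [← hza']
        simp
      rw [h1, Set.ncard_pair hzb']
      refine ⟨rfl, ?_⟩
      apply case_two f hf P hP 1 (sr 0) (sr 1) hza hzb
      · show (1 : ℤˣ) * sig k 0 = 1
        rw [sig_zero, one_mul]
      · show (1 : ℤˣ) * sig k 1 = -1
        rw [sig_one, one_mul]
      · exact conj_sr k
      · exact orderOf_sr 1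
  · have hza' : ConjClasses.mk z ≠ ConjClasses.mk a := fun h => hza (ConjClasses.mk_eq_mk_iff_isConj.1 h)
    by_cases hzb : IsConj z b
    · have hzb' : ConjClasses.mk z = ConjClasses.mk b := ConjClasses.mk_eq_mk_iff_isConj.2 hzb
      right
      left
      have h1 : ({ConjClasses.mk z, ConjClasses.mk a, ConjClasses.mk b} : Set (ConjClasses G)) =
          {ConjClasses.mk z, ConjClasses.mk a} := by
        rw [← hzb']
        ext x
        simp only [Set.mem_insert_iff, Set.mem_singleton_iff]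
        tauto
      rw [h1, Set.ncard_pair hza']
      refine ⟨rfl, ?_⟩
      apply case_two f hf P hP (-1) (sr 1) (sr 0) hzb hza
      · show (-1 : ℤˣ) * sig k 1 = 1
        rw [sig_one]
        decide
      · show (-1 : ℤˣ) * sig k 0 = -1
        rw [sig_zero, mul_one]
      · intro i
        exact (conj_sr k i).symm
      · exact orderOf_sr 0
    · have hzb' : ConjClasses.mk z ≠ ConjClasses.mk b := fun h => hzb (ConjClasses.mk_eq_mk_iff_isConj.1 h)
      right
      right
      have hN := npc_case f hf P hP hza hzb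
      have hab : ConjClasses.mk a ≠ ConjClasses.mk b :=
        fun h => not_conj_ab f hf P hP hN (ConjClasses.mk_eq_mk_iff_isConj.1 h)
      refine ⟨?_, hN⟩
      rw [Set.ncard_eq_toFinset_card']
      simp [Finset.card_insert_of_notMem, hza', hzb', hab]

end Cfsg.Agent.S3864
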