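import Mathlib
import Cfsg.Statements.S3866

set_option autoImplicit false
open Cfsg
open scoped commutatorElement

namespace Cfsg.Agent.S3866

/-- Let A be a commutative normal subgroup of the finite group G with G generated by A and an element x. Then a ↦ x a x⁻¹ a⁻¹ is a surjective homomorphism from A onto the commutator subgroup of G whose kernel is the centralizer of x in A; in particular the commutator subgroup has order equal to the index in A of that centralizer. -/
theorem result {G : Type*} [Group G] [Finite G] (A : Subgroup G) [A.Normal] (hA : IsMulCommutative A) (x : G) (hgen : A ⊔ Subgroup.zpowers x = ⊤) : (∀ a ∈ A, x * a * x⁻¹ * a⁻¹ ∈ commutator G) ∧ (∀ c ∈ commutator G, ∃ a ∈ A, x * a * x⁻¹ * a⁻¹ = c) ∧ (∀ a ∈ A, ∀ b ∈ A, x * (a * b) * x⁻¹ * (a * b)⁻¹ = (x * a * x⁻¹ * a⁻¹) * (x * b * x⁻¹ * b⁻¹)) ∧ Nat.card (commutator G) * Nat.card ↥(A ⊓ Subgroup.centralizer ({x} : Set G)) = Nat.card A := by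
  classical
  have hcomm : ∀ a ∈ A, ∀ b ∈ A, a * b = b * a := by
    intro a ha b hb
    have := (hA.is_comm.comm (⟨a, ha⟩ : A) ⟨b, hb⟩)
    exact congrArg Subtype.val this
  have hN : A.Normal := inferInstance
  have hconj : ∀ a ∈ A, x * a * x⁻¹ ∈ A := fun a ha => hN.conj_mem a ha x
  have hc1 : ∀ a ∈ A, x * a * x⁻¹ * a⁻¹ ∈ commutator G := by
    intro a _
    have : x * a * x⁻¹ * a⁻¹ = ⁅x, a⁆ := rfl
    rw [this, commutator_def]
    exact Subgroup.commutator_mem_commutator (Subgroup.mem_top x) (Subgroup.mem_top a)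
  have hmul : ∀ a ∈ A, ∀ b ∈ A, x * (a * b) * x⁻¹ * (a * b)⁻¹ = (x * a * x⁻¹ * a⁻¹) * (x * b * x⁻¹ * b⁻¹) := by
    intro a ha b hb
    have h1 : a⁻¹ * (x * b * x⁻¹ * b⁻¹) = (x * b * x⁻¹ * b⁻¹) * a⁻¹ :=
      hcomm _ (A.inv_mem ha) _ (A.mul_mem (hconj b hb) (A.inv_mem hb))
    calc x * (a * b) * x⁻¹ * (a * b)⁻¹
        = (x * a * x⁻¹) * ((x * b * x⁻¹ * b⁻¹) * a⁻¹) := by group
      _ = (x * a * x⁻¹) * (a⁻¹ * (x * b * x⁻¹ * b⁻¹)) := by rw [h1]
      _ = (x * a * x⁻¹ * a⁻¹) * (x * b * x⁻¹ * b⁻¹) := by group
  -- the homomorphism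
  let φ : A →* G := MonoidHom.mk' (fun a : A => x * (a : G) * x⁻¹ * (a : G)⁻¹) (by
    intro a b
    simpa using hmul a a.2 b b.2)
  have hφ : ∀ a : A, φ a = x * (a : G) * x⁻¹ * (a : G)⁻¹ := fun a => rfl
  set R : Subgroup G := φ.range with hR
  have hRA : R ≤ A := by
    rintro _ ⟨a, rfl⟩
    rw [hφ]
    exact A.mul_mem (hconj a a.2) (A.inv_mem a.2)
  have key : ∀ S : Subgroup G, A ≤ S → x ∈ S → S = ⊤ := by
    intro S hAS hxS
    rw [eq_top_iff, ← hgen]
    exact sup_le hAS (by simpa [Subgroup.zpowers_le] using hxS)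
  have hRn : R.Normal := by
    rw [← Subgroup.normalizer_eq_top_iff]
    apply key
    · rw [Subgroup.le_normalizer_iff]
      intro a ha r hr
      have : a * r * a⁻¹ = r := by
        rw [hcomm a ha r (hRA hr)]; group
      rwa [this]
    · rw [Subgroup.mem_normalizer_iff]
      intro r
      constructor
      · rintro ⟨a, rfl⟩
        refine ⟨⟨x * a * x⁻¹, hconj a a.2⟩, ?_⟩
        rw [hφ, hφ]
        group
      · intro hr
        -- surjectivity of conjugation on a finite set
        obtain ⟨a, ha⟩ := hr
        have hxinv : x⁻¹ * (a : G) * x ∈ A := by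
          have := hN.conj_mem a a.2 x⁻¹
          simpa using this
        refine ⟨⟨x⁻¹ * a * x, hxinv⟩, ?_⟩
        rw [hφ] at ha ⊢
        have h2 : x * (a : G) * x⁻¹ * (a : G)⁻¹ = x * r * x⁻¹ := ha
        have h3 : r = (a : G) * x⁻¹ * (a : G)⁻¹ * x := by
          have : r = x⁻¹ * (x * r * x⁻¹) * x := by group
          rw [this, ← h2]; group
        rw [h3]
        group
  have hcR : commutator G ≤ R := by
    let π := QuotientGroup.mk' R
    have hπ : ∀ g : G, π g = 1 ↔ g ∈ R := fun g => by
      simp [π, QuotientGroup.eq_one_iff]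
    -- x commutes with A modulo R
    have h1 : ∀ a ∈ A, π x * π a = π a * π x := by
      intro a ha
      have : π (x * a * x⁻¹ * a⁻¹) = 1 := (hπ _).2 ⟨⟨a, ha⟩, rfl⟩
      simp only [map_mul, map_inv] at this
      exact mul_inv_eq_one.mp (by
        have h : π x * π a * (π x)⁻¹ = π a := mul_inv_eq_one.mp this
        rw [mul_inv_eq_iff_eq_mul] at h ⊢
        simp [h])
    -- A is central modulo R
    have h2 : ∀ g : G, ∀ a ∈ A, π g * π a = π a * π g := by
      intro g
      have : Subgroup.comap π (Subgroup.centralizer (π '' (A : Set G))) = ⊤ := by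
        apply key
        · intro b hb
          rw [Subgroup.mem_comap, Subgroup.mem_centralizer_iff]
          rintro _ ⟨a, ha, rfl⟩
          rw [← map_mul, ← map_mul, hcomm a ha b hb]
        · rw [Subgroup.mem_comap, Subgroup.mem_centralizer_iff]
          rintro _ ⟨a, ha, rfl⟩
          exact (h1 a ha).symm
      have hg : g ∈ Subgroup.comap π (Subgroup.centralizer (π '' (A : Set G))) := by
        rw [this]; trivial
      rw [Subgroup.mem_comap, Subgroup.mem_centralizer_iff] at hg
      intro a ha
      exact (hg _ ⟨a, ha, rfl⟩).symm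
    -- all of G commutes modulo R
    have h3 : ∀ g h : G, π g * π h = π h * π g := by
      intro g
      have : Subgroup.comap π (Subgroup.centralizer {π g}) = ⊤ := by
        apply key
        · intro b hb
          rw [Subgroup.mem_comap, Subgroup.mem_centralizer_iff]
          rintro _ rfl
          exact h2 g b hb
        · rw [Subgroup.mem_comap, Subgroup.mem_centralizer_iff]
          rintro _ rfl
          -- x commutes with g modulo R
          have : Subgroup.comap π (Subgroup.centralizer {π x}) = ⊤ := by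
            apply key
            · intro b hb
              rw [Subgroup.mem_comap, Subgroup.mem_centralizer_iff]
              rintro _ rfl
              exact h1 b hb
            · rw [Subgroup.mem_comap, Subgroup.mem_centralizer_iff]
              rintro _ rfl
              rfl
          have hg : g ∈ Subgroup.comap π (Subgroup.centralizer {π x}) := by
            rw [this]; trivial
          rw [Subgroup.mem_comap, Subgroup.mem_centralizer_iff] at hg
          exact (hg _ rfl).symm
      intro h
      have hh : h ∈ Subgroup.comap π (Subgroup.centralizer {π g}) := by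
        rw [this]; trivial
      rw [Subgroup.mem_comap, Subgroup.mem_centralizer_iff] at hh
      exact hh _ rfl
    rw [commutator_def, Subgroup.commutator_le]
    intro g _ h _
    rw [← hπ]
    simp only [commutatorElement_def, map_mul, map_inv]
    rw [h3 g h]
    group
  have hRc : R ≤ commutator G := by
    rintro _ ⟨a, rfl⟩
    rw [hφ]
    exact hc1 a a.2
  have hReq : R = commutator G := le_antisymm hRc hcR
  refine ⟨hc1, ?_, hmul, ?_⟩
  · intro c hc
    have : c ∈ R := hcR hc
    obtain ⟨a, rfl⟩ := this
    exact ⟨a, a.2, rfl⟩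
  · rw [← hReq]
    have h1 : φ.ker = (A ⊓ Subgroup.centralizer ({x} : Set G)).subgroupOf A := by
      ext a
      rw [MonoidHom.mem_ker, hφ, Subgroup.mem_subgroupOf, Subgroup.mem_inf]
      constructor
      · intro h
        refine ⟨a.2, ?_⟩
        rw [Subgroup.mem_centralizer_iff]
        intro y hy
        have hy' : y = x := hy
        rw [hy']
        have := mul_inv_eq_one.mp h
        have h' : x * (a : G) = (a : G) * x := mul_inv_eq_iff_eq_mul.mp this
        exact h'
      · rintro ⟨_, h⟩
        rw [Subgroup.mem_centralizer_iff] at h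
        have h' := h x rfl
        rw [h']
        group
    have h2 : Nat.card φ.ker = Nat.card ↥(A ⊓ Subgroup.centralizer ({x} : Set G)) := by
      rw [h1]
      exact Nat.card_congr (Subgroup.subgroupOfEquivOfLe inf_le_left).toEquiv
    rw [← h2, hR, ← Subgroup.index_ker, mul_comm]
    exact Subgroup.card_mul_index φ.ker

end Cfsg.Agent.S3866
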