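import Mathlib
import Cfsg.Statements.S3867
import Cfsg.Agent.Lib.TransferCore

set_option autoImplicit false
open Cfsg

namespace Cfsg.Agent.S3867

open Cfsg.Agent.Lib.TransferCore

variable {G : Type*} [Group G] [Finite G]

/-- If `C = A B` as sets then `A.relIndex B = A.relIndex C`. -/
theorem relIndex_eq_of_mul (A B C : Subgroup G) (hBC : B ≤ C) (hAC : A ≤ C)
    (hmul : ∀ c ∈ C, ∃ a ∈ A, ∃ b ∈ B, c = a * b) : A.relIndex B = A.relIndex C := by
  classical
  let f : B ⧸ A.subgroupOf B → C ⧸ A.subgroupOf C :=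
    Quotient.map' (fun b : B => (⟨b, hBC b.2⟩ : C)) (by
      intro b₁ b₂ h
      rw [QuotientGroup.leftRel_apply] at h ⊢
      rw [Subgroup.mem_subgroupOf] at h ⊢
      exact h)
  have hf : Function.Bijective f := by
    constructor
    · intro x y
      induction x using Quotient.inductionOn' with | _ b₁ => ?_
      induction y using Quotient.inductionOn' with | _ b₂ => ?_
      intro h
      have h' : (QuotientGroup.mk (⟨b₁, hBC b₁.2⟩ : C) : C ⧸ A.subgroupOf C)
        = QuotientGroup.mk (⟨b₂, hBC b₂.2⟩ : C) := h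
      rw [QuotientGroup.eq, Subgroup.mem_subgroupOf] at h'
      apply Quotient.sound'
      rw [QuotientGroup.leftRel_apply, Subgroup.mem_subgroupOf]
      exact h'
    · intro y
      induction y using Quotient.inductionOn' with | _ c => ?_
      obtain ⟨a, ha, b, hb, hab⟩ := hmul ((c : G)⁻¹) (C.inv_mem c.2)
      refine ⟨QuotientGroup.mk (⟨b⁻¹, B.inv_mem hb⟩ : B), ?_⟩
      show (QuotientGroup.mk (⟨b⁻¹, hBC (B.inv_mem hb)⟩ : C) : C ⧸ A.subgroupOf C) = QuotientGroup.mk c
      rw [QuotientGroup.eq, Subgroup.mem_subgroupOf]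
      have : ((⟨b⁻¹, hBC (B.inv_mem hb)⟩ : C)⁻¹ * c : C) = (⟨b * c, C.mul_mem (hBC hb) c.2⟩ : C) := by
        apply Subtype.ext; simp
      rw [this]
      show b * (c : G) ∈ A
      have h2 : b * (c : G) = a⁻¹ := by
        have h3 : (c : G) = (a * b)⁻¹ := by rw [← hab, inv_inv]
        rw [h3]; group
      rw [h2]; exact A.inv_mem ha
  exact Nat.card_congr (Equiv.ofBijective f hf)

/-- The product formula for indices. -/
theorem index_inf_mul_index (A B C : Subgroup G) (hBC : B ≤ C) (hAC : A ≤ C)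
    (hmul : ∀ c ∈ C, ∃ a ∈ A, ∃ b ∈ B, c = a * b) :
    (A ⊓ B).index * C.index = A.index * B.index := by
  have h1 := Subgroup.relIndex_inf_mul_relIndex A B ⊤
  simp only [inf_top_eq, Subgroup.relIndex_top_right] at h1
  have h2 := Subgroup.relIndex_mul_index hAC
  rw [← h1, relIndex_eq_of_mul A B C hBC hAC hmul, ← h2]
  ring

/-- The number of Sylow subgroups of a quotient. -/
theorem card_sylow_quotient {p : ℕ} [Fact p.Prime] (P : Sylow p G) (K : Subgroup G) [K.Normal] :
    Nat.card (Sylow p (G ⧸ K)) = (Subgroup.normalizer (((P : Subgroup G) ⊔ K : Subgroup G) : Set G)).index := by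
  have hf : Function.Surjective (QuotientGroup.mk' K) := QuotientGroup.mk'_surjective K
  let Pb : Sylow p (G ⧸ K) := P.mapSurjective hf
  have h1 : Nat.card (Sylow p (G ⧸ K)) = (Subgroup.normalizer ((Pb : Subgroup (G ⧸ K)) : Set (G ⧸ K))).index :=
    Sylow.card_eq_index_normalizer Pb
  rw [h1]
  have h2 : (Pb : Subgroup (G ⧸ K)) = (P : Subgroup G).map (QuotientGroup.mk' K) := rfl
  have h3 := Subgroup.comap_normalizer_eq_of_surjective (Pb : Subgroup (G ⧸ K)) hf
  rw [← Subgroup.index_comap_of_surjective _ hf, h3, h2, Subgroup.comap_map_eq, QuotientGroup.ker_mk']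

/-- A normal subgroup normalizes... any element of a normal subgroup-preserving conjugation. -/
theorem mem_normalizer_sup {H K : Subgroup G} [K.Normal] {g : G}
    (hg : g ∈ Subgroup.normalizer (H : Set G)) :
    g ∈ Subgroup.normalizer ((H ⊔ K : Subgroup G) : Set G) := by
  rw [Subgroup.mem_normalizer_iff_map_conj_eq] at hg ⊢
  rw [Subgroup.map_sup, hg]
  congr 1
  have h2 : g ∈ Subgroup.normalizer (K : Set G) := by
    rw [Subgroup.normalizer_eq_top]; trivial
  exact Subgroup.mem_normalizer_iff_map_conj_eq.1 h2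

/-- Elements of `P ⊔ M` have a `p`-power in `M`. -/
theorem exists_pow_mem {p : ℕ} (P : Sylow p G) (M : Subgroup G) [M.Normal] {x : G}
    (hx : x ∈ (P : Subgroup G) ⊔ M) : ∃ k : ℕ, x ^ p ^ k ∈ M := by
  rw [Subgroup.mem_sup_of_normal_right] at hx
  obtain ⟨π, hπ, m, hm, rfl⟩ := hx
  obtain ⟨k, hk⟩ := P.isPGroup' ⟨π, hπ⟩
  have hk' : π ^ p ^ k = 1 := by simpa using congrArg Subtype.val hk
  refine ⟨k, ?_⟩
  rw [← QuotientGroup.eq_one_iff, QuotientGroup.mk_pow, QuotientGroup.mk_mul]
  have hm1 : (m : G ⧸ M) = 1 := (QuotientGroup.eq_one_iff m).2 hm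
  rw [hm1, mul_one, ← QuotientGroup.mk_pow, hk']
  rfl

/-- Let M and N be nontrivial normal subgroups of the finite group G with M ⊓ N trivial, and let p be a prime. Writing n(X) for the number of Sylow p-subgroups of a group X, one has n(G) · n(G/MN) = n(G/M) · n(G/N). -/
theorem result {G : Type*} [Group G] [Finite G] (p : ℕ) [Fact p.Prime] (M N : Subgroup G) [M.Normal] [N.Normal] (hM : M ≠ ⊥) (hN : N ≠ ⊥) (hMN : M ⊓ N = ⊥) : Nat.card (Sylow p G) * Nat.card (Sylow p (G ⧸ (M ⊔ N))) = Nat.card (Sylow p (G ⧸ M)) * Nat.card (Sylow p (G ⧸ N)) := by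
  classical
  obtain P : Sylow p G := Sylow.nonempty.some
  have hcardP : Nat.card (Sylow p G) = (Subgroup.normalizer ((P : Subgroup G) : Set G)).index :=
    Sylow.card_eq_index_normalizer P
  rw [card_sylow_quotient P (M ⊔ N), card_sylow_quotient P M, card_sylow_quotient P N, hcardP]
  set A := Subgroup.normalizer (((P : Subgroup G) ⊔ M : Subgroup G) : Set G) with hA
  set B := Subgroup.normalizer (((P : Subgroup G) ⊔ N : Subgroup G) : Set G) with hB
  set C := Subgroup.normalizer (((P : Subgroup G) ⊔ (M ⊔ N) : Subgroup G) : Set G) with hC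
  have hX : ((P : Subgroup G) ⊔ M) ⊓ ((P : Subgroup G) ⊔ N) ≤ (P : Subgroup G) := by
    have hpg : IsPGroup p ↥(((P : Subgroup G) ⊔ M) ⊓ ((P : Subgroup G) ⊔ N)) := by
      intro x
      obtain ⟨k, hk⟩ := exists_pow_mem P M x.2.1
      obtain ⟨l, hl⟩ := exists_pow_mem P N x.2.2
      refine ⟨k + l, ?_⟩
      apply Subtype.ext
      have h1 : (x : G) ^ p ^ (k + l) ∈ M ⊓ N := by
        constructor
        · rw [pow_add, pow_mul]; exact M.pow_mem hk _
        · rw [add_comm, pow_add, pow_mul]; exact N.pow_mem hl _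
      rw [hMN] at h1
      simpa using h1
    have hle : (P : Subgroup G) ≤ ((P : Subgroup G) ⊔ M) ⊓ ((P : Subgroup G) ⊔ N) :=
      le_inf le_sup_left le_sup_left
    exact (P.is_maximal' hpg hle).le
  have hD : Subgroup.normalizer ((P : Subgroup G) : Set G) = A ⊓ B := by
    apply le_antisymm
    · intro g hg
      exact ⟨mem_normalizer_sup hg, mem_normalizer_sup hg⟩
    · rintro g ⟨hgA, hgB⟩
      have key : ∀ h ∈ A ⊓ B, ∀ π ∈ (P : Subgroup G), h * π * h⁻¹ ∈ (P : Subgroup G) := by
        rintro h ⟨hhA, hhB⟩ π hπ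
        apply hX
        constructor
        · exact (Subgroup.mem_normalizer_iff.1 hhA π).1 (Subgroup.mem_sup_left hπ)
        · exact (Subgroup.mem_normalizer_iff.1 hhB π).1 (Subgroup.mem_sup_left hπ)
      rw [Subgroup.mem_normalizer_iff]
      intro π
      constructor
      · exact key g ⟨hgA, hgB⟩ π
      · intro h
        have := key g⁻¹ ((A ⊓ B).inv_mem ⟨hgA, hgB⟩) _ h
        simpa [mul_assoc] using this
  have hAC : A ≤ C := by
    intro g hg
    have : g ∈ Subgroup.normalizer ((((P : Subgroup G) ⊔ M) ⊔ N : Subgroup G) : Set G) :=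
      mem_normalizer_sup hg
    rwa [sup_assoc] at this
  have hBC : B ≤ C := by
    intro g hg
    have : g ∈ Subgroup.normalizer ((((P : Subgroup G) ⊔ N) ⊔ M : Subgroup G) : Set G) :=
      mem_normalizer_sup hg
    rwa [sup_assoc, sup_comm N M] at this
  have hmul : ∀ c ∈ C, ∃ a ∈ A, ∃ b ∈ B, c = a * b := by
    intro c hc
    -- conjugates of `P` in `W`
    set W : Subgroup G := (P : Subgroup G) ⊔ (M ⊔ N) with hW
    have hPW : (P : Subgroup G) ≤ W := le_sup_left
    have hcP : ((c • P : Sylow p G) : Subgroup G) ≤ W := by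
      intro x hx
      have hx' : x ∈ c • P := hx
      rw [mem_smul_sylow] at hx'
      have h1 : c⁻¹ ∈ C := C.inv_mem hc
      have h2 := (Subgroup.mem_normalizer_iff.1 h1 x).2 (by
        have : c⁻¹ * x * c⁻¹⁻¹ = c⁻¹ * x * c := by simp
        rw [this]
        exact hPW hx')
      exact h2
    obtain ⟨s, hs, hsc⟩ := exists_conj_in_subgroup W (c • P) P hcP hPW
    have hd : s⁻¹ * c ∈ Subgroup.normalizer ((P : Subgroup G) : Set G) := by
      apply Sylow.smul_eq_iff_mem_normalizer.1
      rw [mul_smul, ← hsc, ← mul_smul]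
      simp
    rw [hW, Subgroup.mem_sup_of_normal_right] at hs
    obtain ⟨π, hπ, t, ht, rfl⟩ := hs
    rw [Subgroup.mem_sup_of_normal_right] at ht
    obtain ⟨m, hm, n, hn, rfl⟩ := ht
    refine ⟨π * m, ?_, n * ((π * (m * n))⁻¹ * c), ?_, by group⟩
    · have h1 : π * m ∈ (P : Subgroup G) ⊔ M :=
        Subgroup.mul_mem _ (Subgroup.mem_sup_left hπ) (Subgroup.mem_sup_right hm)
      exact Subgroup.le_normalizer h1
    · apply B.mul_mem
      · have h1 : n ∈ (P : Subgroup G) ⊔ N := Subgroup.mem_sup_right hn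
        exact Subgroup.le_normalizer h1
      · rw [hD] at hd
        exact hd.2
  rw [hD]
  exact index_inf_mul_index A B C hBC hAC hmul

end Cfsg.Agent.S3867
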