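import Mathlib
import Cfsg.Statements.S3878
import Cfsg.Agent.Lib.JordanPrimeCycle

set_option autoImplicit false
set_option linter.style.haveILetI false
open Cfsg

namespace Cfsg.Agent.S3878

open Equiv Equiv.Perm MulAction
open scoped Pointwise

theorem exists_cycle (α : Type*) [Fintype α] [DecidableEq α] (m : ℕ) (h2 : 2 ≤ m) (hm : m ≤ Fintype.card α) :
    ∃ g : Perm α, g.IsCycle ∧ g.support.card = m := by
  obtain ⟨g, hg⟩ := (exists_with_cycleType_iff (α := α) (m := {m})).2 ⟨by simpa using hm, by simpa using h2⟩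
  refine ⟨g, card_cycleType_eq_one.1 (by rw [hg]; simp), ?_⟩
  rw [← sum_cycleType, hg]
  simp

theorem exists_conj_mem {G : Type*} [Group G] [Finite G] {π : Set ℕ} {H : Subgroup G} (hH : IsPiHall π H) {s : ℕ}
    [hsp : Fact s.Prime] (hs : s ∈ π) (g : G) {k : ℕ} (hg : g ^ s ^ k = 1) : ∃ h : G, h * g * h⁻¹ ∈ H := by
  have hz : IsPGroup s (Subgroup.zpowers g) := by
    rintro ⟨_, n, rfl⟩
    refine ⟨k, ?_⟩
    apply Subtype.ext
    show ((g ^ n) ^ s ^ k : G) = 1
    rw [← zpow_natCast, ← zpow_mul, mul_comm, zpow_mul, zpow_natCast, hg, one_zpow]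
  have hidx : ¬ s ∣ Nat.card (G ⧸ H) := hH.2 s hsp.out hs
  obtain ⟨c, hc⟩ := hz.nonempty_fixed_point_of_prime_not_dvd_card (G ⧸ H) hidx
  obtain ⟨c, rfl⟩ := QuotientGroup.mk_surjective c
  have h1 := MulAction.mem_fixedPoints.1 hc ⟨g, Subgroup.mem_zpowers g⟩
  have h2 : ((g * c : G) : G ⧸ H) = (c : G ⧸ H) := h1
  rw [eq_comm, QuotientGroup.eq] at h2
  refine ⟨c⁻¹, ?_⟩
  rw [inv_inv]
  have e : c⁻¹ * g * c = c⁻¹ * (g * c) := by group
  rw [e]
  exact h2

variable {α : Type*} [Fintype α] [DecidableEq α]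

/-- Size of a block-like subset of the support of a cycle divides the support. -/
theorem dvd_card_support (t : Perm α) (ht : t.IsCycle) (Bf : Finset α) (hne : Bf.Nonempty)
    (hsub : ∀ b ∈ Bf, t b ≠ b)
    (hdisj : ∀ i j : ℕ, Bf.image (t ^ i) = Bf.image (t ^ j) ∨ Disjoint (Bf.image (t ^ i)) (Bf.image (t ^ j))) :
    Bf.card ∣ t.support.card := by
  classical
  obtain ⟨a, ha⟩ := hne
  let O : Finset (Finset α) := (Finset.range (orderOf t)).image (fun i => Bf.image (⇑(t ^ i)))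
  have hU : t.support = O.biUnion id := by
    ext y
    rw [Finset.mem_biUnion]
    constructor
    · intro hy
      obtain ⟨i, hi⟩ := ht.exists_pow_eq (hsub a ha) (by simpa using hy)
      refine ⟨Bf.image (⇑(t ^ (i % orderOf t))), ?_, ?_⟩
      · refine Finset.mem_image.2 ⟨_, Finset.mem_range.2 (Nat.mod_lt _ (orderOf_pos t)), rfl⟩
      · refine Finset.mem_image.2 ⟨a, ha, ?_⟩
        rw [pow_mod_orderOf]
        exact hi
    · rintro ⟨D, hD, hy⟩
      obtain ⟨i, _, rfl⟩ := Finset.mem_image.1 hD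
      obtain ⟨b, hb, rfl⟩ := Finset.mem_image.1 hy
      rw [Perm.mem_support]
      intro h
      apply hsub b hb
      apply (t ^ i).injective
      have : t ^ i * t = t * t ^ i := (pow_succ t i).symm.trans (pow_succ' t i)
      rw [← Perm.mul_apply, this, Perm.mul_apply]
      exact h
  have hc : ∀ D ∈ O, D.card = Bf.card := by
    intro D hD
    obtain ⟨i, _, rfl⟩ := Finset.mem_image.1 hD
    exact Finset.card_image_of_injective _ (t ^ i).injective
  rw [hU, Finset.card_biUnion]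
  · have : ∑ u ∈ O, (id u).card = ∑ u ∈ O, Bf.card := Finset.sum_congr rfl (fun D hD => hc D hD)
    rw [this, Finset.sum_const, smul_eq_mul]
    exact Dvd.intro_left _ rfl
  · intro D hD D' hD' hne
    obtain ⟨i, _, rfl⟩ := Finset.mem_image.1 hD
    obtain ⟨j, _, rfl⟩ := Finset.mem_image.1 hD'
    rcases hdisj i j with h | h
    · exact absurd h hne
    · exact h

/-- Primitivity from a full cycle and a large `q`-power cycle. -/
theorem isPreprimitive_of_cycles {H : Subgroup (Perm α)} {p q A e : ℕ} (hp : p.Prime) (hq : q.Prime) (hqp : q < p)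
    (hn : Fintype.card α = p ^ A) {c t : Perm α} (hc : c.IsCycle) (hcH : c ∈ H)
    (hcs : c.support.card = p ^ A) (ht : t.IsCycle) (htH : t ∈ H) (hts : t.support.card = q ^ e)
    (hlt : p ^ A < q ^ (e + 1)) : IsPreprimitive H α := by
  classical
  have hcu : c.support = Finset.univ := by
    apply Finset.eq_univ_of_card
    rw [hcs, hn]
  have hcm : ∀ x, c x ≠ x := by
    intro x
    have : x ∈ c.support := by rw [hcu]; exact Finset.mem_univ x
    simpa using this
  haveI hpt : IsPretransitive H α := by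
    refine ⟨fun x y => ?_⟩
    obtain ⟨i, hi⟩ := hc.exists_pow_eq (hcm x) (hcm y)
    exact ⟨⟨c ^ i, H.pow_mem hcH i⟩, hi⟩
  obtain ⟨a, ha⟩ : ∃ a, t a ≠ a := by
    obtain ⟨a, hb, _⟩ := id ht
    exact ⟨a, hb⟩
  apply IsPreprimitive.of_isTrivialBlock_base a
  intro B haB hB
  by_contra hnt
  have hnt' : ¬ (B.Subsingleton ∨ B = Set.univ) := hnt
  push Not at hnt'
  obtain ⟨hns, hnu⟩ := hnt'
  have hBne : B.Nonempty := ⟨a, haB⟩
  have hmul := hB.ncard_block_mul_ncard_orbit_eq hBne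
  have hcardα : Nat.card α = p ^ A := by rw [Nat.card_eq_fintype_card, hn]
  rw [hcardα] at hmul
  obtain ⟨d, hd⟩ : ∃ d, d = B.ncard := ⟨_, rfl⟩
  obtain ⟨m, hm⟩ : ∃ m, m = (orbit H B).ncard := ⟨_, rfl⟩
  rw [← hd, ← hm] at hmul
  have hd2 : 1 < d := by
    rw [hd, Set.one_lt_ncard_iff]
    obtain ⟨x, hx, y, hy, hxy⟩ := hns
    exact ⟨x, y, hx, hy, hxy⟩
  obtain ⟨b, hb, hdb⟩ := (Nat.dvd_prime_pow hp).1 (Dvd.intro _ hmul : d ∣ p ^ A)
  obtain ⟨c', hc', hmc⟩ := (Nat.dvd_prime_pow hp).1 (Dvd.intro_left _ hmul : m ∣ p ^ A)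
  have hb1 : b ≠ 0 := by
    rintro rfl
    rw [pow_zero] at hdb
    omega
  have hc1 : c' ≠ 0 := by
    rintro rfl
    rw [pow_zero] at hmc
    rw [hmc, mul_one] at hmul
    apply hnu
    apply Set.eq_of_subset_of_ncard_le (Set.subset_univ B)
    · rw [← hd, hmul, Set.ncard_univ, hcardα]
  have hmp : p ≤ m := by
    rw [hmc]
    exact Nat.le_self_pow hc1 p
  let τ : H := ⟨t, htH⟩
  have hqe : 0 < q ^ e := pow_pos hq.pos e
  rcases isBlock_iff_smul_eq_or_disjoint.1 hB τ with hfix | hdis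
  · -- `τ` fixes `B`
    have hiter : ∀ i : ℕ, (t ^ i) a ∈ B := by
      intro i
      induction i with
      | zero => simpa using haB
      | succ i ih =>
        rw [pow_succ', Perm.mul_apply]
        have h1 : τ • (t ^ i) a ∈ τ • B := Set.smul_mem_smul_set ih
        rw [hfix] at h1
        exact h1
    have hsupp : (t.support : Set α) ⊆ B := by
      intro y hy
      obtain ⟨i, hi⟩ := ht.exists_pow_eq ha (by simpa using hy)
      rw [← hi]
      exact hiter i
    have hle : q ^ e ≤ d := by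
      rw [← hts, hd, ← Set.ncard_coe_finset]
      exact Set.ncard_le_ncard hsupp (Set.toFinite B)
    have h1 : q ^ (e + 1) ≤ p ^ A := by
      rw [← hmul, pow_succ]
      exact Nat.mul_le_mul hle (by omega)
    omega
  · -- `τ` moves `B`
    have hmoved : ∀ y ∈ B, t y ≠ y := by
      intro y hy hty
      have h1 : τ • y ∈ τ • B := Set.smul_mem_smul_set hy
      have h2 : τ • y = y := hty
      rw [h2] at h1
      exact Set.disjoint_left.1 hdis h1 hy
    have hfin : B.Finite := Set.toFinite B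
    have hcoe : ∀ i : ℕ, ((hfin.toFinset.image (t ^ i) : Finset α) : Set α) = (τ ^ i) • B := by
      intro i
      ext y
      simp only [Finset.coe_image, Set.Finite.coe_toFinset, Set.mem_image, Set.mem_smul_set]
      rfl
    have hdvd : hfin.toFinset.card ∣ t.support.card := by
      apply dvd_card_support t ht _ ⟨a, by simpa using haB⟩ (fun y hy => hmoved y (by simpa using hy))
      intro i j
      rcases hB.smul_eq_smul_or_disjoint (τ ^ i) (τ ^ j) with h | h
      · left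
        apply Finset.coe_injective
        rw [hcoe, hcoe, h]
      · right
        rw [← Finset.disjoint_coe, hcoe, hcoe]
        exact h
    rw [← Set.ncard_eq_toFinset_card B hfin, ← hd, hts, hdb] at hdvd
    have h1 : p ∣ q ^ e := (dvd_pow_self p hb1).trans hdvd
    have h2 := (Nat.prime_dvd_prime_iff_eq hp hq).1 (hp.dvd_of_dvd_pow h1)
    omega

/-- The main construction: no Hall subgroup. -/
theorem no_hall {π : Set ℕ} {p q r A n : ℕ} (hp : p.Prime) (hq : q.Prime) (hr : r.Prime) (hqp : q < p)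
    (hpπ : p ∈ π) (hqπ : q ∈ π) (hrπ : r ∉ π) (hn : n = p ^ A) (hlarge : r + 2 * q + 4 ≤ n) (H : Subgroup (Perm (Fin n)))
    (hH : IsPiHall π H) : False := by
  classical
  haveI : Fact p.Prime := ⟨hp⟩
  haveI : Fact q.Prime := ⟨hq⟩
  have hcard : Fintype.card (Fin n) = n := Fintype.card_fin n
  have hnc : Nat.card (Fin n) = n := by simp
  have hA : A ≠ 0 := by
    rintro rfl
    rw [pow_zero] at hn
    omega
  obtain ⟨c₀, hc₀, hc₀s⟩ := exists_cycle (Fin n) n (by omega) (by rw [hcard])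
  have hc₀p : c₀ ^ p ^ A = 1 := by
    have h1 := pow_orderOf_eq_one c₀
    rw [hc₀.orderOf, hc₀s] at h1
    have h2 : ∀ m : ℕ, m = n → c₀ ^ m = 1 := by
      rintro m rfl
      exact h1
    exact h2 _ hn.symm
  obtain ⟨h₁, hh₁⟩ := exists_conj_mem hH hpπ c₀ (k := A) hc₀p
  let e := Nat.log q n
  have he1 : q ^ e ≤ n := Nat.pow_log_le_self q (by omega)
  have he2 : n < q ^ (e + 1) := Nat.lt_pow_succ_log_self hq.one_lt n
  have hepos : 0 < e := Nat.log_pos hq.one_lt (by omega)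
  have hqe2 : 2 ≤ q ^ e := by
    calc 2 ≤ q := hq.two_le
      _ = q ^ 1 := (pow_one q).symm
      _ ≤ q ^ e := Nat.pow_le_pow_right hq.pos hepos
  obtain ⟨t₀, ht₀, ht₀s⟩ := exists_cycle (Fin n) (q ^ e) hqe2 (by rw [hcard]; exact he1)
  obtain ⟨h₂, hh₂⟩ := exists_conj_mem hH hqπ t₀ (k := e) (by
    rw [← ht₀s, ← ht₀.orderOf]
    exact pow_orderOf_eq_one t₀)
  obtain ⟨s₀, hs₀, hs₀s⟩ := exists_cycle (Fin n) q hq.two_le (by rw [hcard]; omega)
  obtain ⟨h₃, hh₃⟩ := exists_conj_mem hH hqπ s₀ (k := 1) (by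
    rw [pow_one]
    have h1 := pow_orderOf_eq_one s₀
    rwa [hs₀.orderOf, hs₀s] at h1)
  have hprim : IsPreprimitive H (Fin n) := isPreprimitive_of_cycles (p := p) (q := q) (A := A) (e := e) hp hq hqp (hcard.trans hn)
    (hc₀.conj) hh₁ (by rw [card_support_conj, hc₀s, hn]) (ht₀.conj) hh₂ (by rw [card_support_conj, ht₀s]) (hn ▸ he2)
  have halt : alternatingGroup (Fin n) ≤ H :=
    Cfsg.Agent.Lib.JordanPrimeCycle.alternatingGroup_le_of_cycle hprim (hs₀.conj)
      (by rw [card_support_conj, hs₀s]; exact hq)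
      (by rw [card_support_conj, hs₀s, hnc]; omega) hh₃
  -- order of the alternating group
  have hdvdH : Nat.card (alternatingGroup (Fin n)) ∣ Nat.card H := Subgroup.card_dvd_of_le halt
  have hralt : r ∣ Nat.card (alternatingGroup (Fin n)) := by
    haveI : Nontrivial (Fin n) := Fin.nontrivial_iff_two_le.2 (by omega)
    have h2 := two_mul_card_alternatingGroup (α := Fin n)
    rw [Fintype.card_perm, hcard] at h2
    rw [Nat.card_eq_fintype_card]
    by_cases hr2 : r = 2
    · subst hr2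
      have h4 : Nat.factorial 4 ∣ Nat.factorial n := Nat.factorial_dvd_factorial (by omega)
      have h5 : 4 ∣ 2 * Fintype.card (alternatingGroup (Fin n)) := by
        rw [h2]
        exact (by decide : 4 ∣ Nat.factorial 4).trans h4
      omega
    · have h3 : r ∣ Nat.factorial n := (Nat.Prime.dvd_factorial hr).2 (by omega)
      rw [← h2] at h3
      rcases (Nat.Prime.dvd_mul hr).1 h3 with h4 | h4
      · exact absurd ((Nat.prime_dvd_prime_iff_eq hr Nat.prime_two).1 h4) hr2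
      · exact h4
  exact hrπ (hH.1 r hr (hralt.trans hdvdH))

/-- `D_π` implies `E_π`. -/
theorem isEPi_of_isDPi {G : Type*} [Group G] [Finite G] {π : Set ℕ} (hD : Cfsg.IsDPiGroup π G) :
    Cfsg.IsEPiGroup π G := by
  classical
  -- every `π`-subgroup is in a maximal `π`-subgroup
  have hmax : ∀ K : Subgroup G, Cfsg.IsPiSubgroup π K → ∃ M, K ≤ M ∧ Maximal (Cfsg.IsPiSubgroup π) M := by
    intro K hK
    exact (Set.Finite.exists_le_maximal (Set.toFinite _) hK).imp fun M hM => ⟨hM.1, hM.2⟩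
  have hbot : Cfsg.IsPiSubgroup π (⊥ : Subgroup G) := by
    intro s hs hd
    rw [Subgroup.card_bot] at hd
    exact absurd (Nat.dvd_one.1 hd) hs.ne_one
  obtain ⟨H, _, hHm⟩ := hmax ⊥ hbot
  refine ⟨H, hHm.1, ?_⟩
  intro s hs hsπ hd
  haveI : Fact s.Prime := ⟨hs⟩
  obtain ⟨S⟩ : Nonempty (Sylow s G) := inferInstance
  have hSπ : Cfsg.IsPiSubgroup π (S : Subgroup G) := by
    intro u hu hdu
    obtain ⟨k, hk⟩ := IsPGroup.iff_card.1 S.isPGroup'
    rw [hk] at hdu
    have := (Nat.prime_dvd_prime_iff_eq hu hs).1 (hu.dvd_of_dvd_pow hdu)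
    rw [this]
    exact hsπ
  obtain ⟨M, hSM, hMm⟩ := hmax _ hSπ
  obtain ⟨g, hg⟩ := hD H M hHm hMm
  have h1 : M.index = H.index := by
    rw [hg]
    exact Subgroup.index_map_equiv H (MulAut.conj g)
  have h2 : M.index ∣ (S : Subgroup G).index := Subgroup.index_dvd_of_le hSM
  exact S.not_dvd_index (hd.trans (h1 ▸ h2))

/-- The easy direction for `E_π`. -/
theorem isEPi_of_cond {π : Set ℕ}
    (h : (∀ p q : ℕ, p.Prime → q.Prime → p ∈ π → q ∈ π → p = q) ∨ ∀ p : ℕ, p.Prime → p ∈ π)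
    (G : Type) [Group G] [Finite G] : Cfsg.IsEPiGroup π G := by
  rcases h with h | h
  · by_cases hex : ∃ p, p.Prime ∧ p ∈ π
    · obtain ⟨p, hp, hpπ⟩ := hex
      haveI : Fact p.Prime := ⟨hp⟩
      obtain ⟨S⟩ : Nonempty (Sylow p G) := inferInstance
      refine ⟨S, ?_, ?_⟩
      · intro u hu hdu
        obtain ⟨k, hk⟩ := IsPGroup.iff_card.1 S.isPGroup'
        rw [hk] at hdu
        rw [(Nat.prime_dvd_prime_iff_eq hu hp).1 (hu.dvd_of_dvd_pow hdu)]
        exact hpπ
      · intro u hu huπ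
        rw [h u p hu hp huπ hpπ]
        exact S.not_dvd_index
    · push Not at hex
      refine ⟨⊥, ?_, ?_⟩
      · intro u hu hdu
        rw [Subgroup.card_bot] at hdu
        exact absurd (Nat.dvd_one.1 hdu) hu.ne_one
      · intro u hu huπ
        exact absurd huπ (hex u hu)
  · refine ⟨⊤, ?_, ?_⟩
    · intro u hu _
      exact h u hu
    · intro u hu _ hd
      rw [Subgroup.index_top] at hd
      exact hu.one_lt.ne' (Nat.dvd_one.1 hd)

/-- The easy direction for `D_π`. -/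
theorem isDPi_of_cond {π : Set ℕ}
    (h : (∀ p q : ℕ, p.Prime → q.Prime → p ∈ π → q ∈ π → p = q) ∨ ∀ p : ℕ, p.Prime → p ∈ π)
    (G : Type) [Group G] [Finite G] : Cfsg.IsDPiGroup π G := by
  classical
  intro H K hH hK
  rcases h with h | h
  · by_cases hex : ∃ p, p.Prime ∧ p ∈ π
    · obtain ⟨p, hp, hpπ⟩ := hex
      haveI : Fact p.Prime := ⟨hp⟩
      have hpgroup : ∀ L : Subgroup G, Cfsg.IsPiSubgroup π L → IsPGroup p L := by
        intro L hL
        exact IsPGroup.of_card (Nat.eq_prime_pow_of_unique_prime_dvd Nat.card_pos.ne'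
          (fun {d} hd hdv => h d p hd hp (hL d hd hdv) hpπ))
      have hsyl : ∀ L : Subgroup G, Maximal (Cfsg.IsPiSubgroup π) L → ∃ S : Sylow p G, L = S := by
        intro L hL
        obtain ⟨S, hS⟩ := (hpgroup L hL.1).exists_le_sylow
        refine ⟨S, le_antisymm hS (hL.2 ?_ hS)⟩
        intro u hu hdu
        obtain ⟨k, hk⟩ := IsPGroup.iff_card.1 S.isPGroup'
        rw [hk] at hdu
        rw [(Nat.prime_dvd_prime_iff_eq hu hp).1 (hu.dvd_of_dvd_pow hdu)]
        exact hpπ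
      obtain ⟨S, rfl⟩ := hsyl H hH
      obtain ⟨T, rfl⟩ := hsyl K hK
      obtain ⟨g, hg⟩ := MulAction.exists_smul_eq G S T
      refine ⟨g, ?_⟩
      rw [← hg, Sylow.coe_subgroup_smul]
      rfl
    · push Not at hex
      have hbot : ∀ L : Subgroup G, Cfsg.IsPiSubgroup π L → L = ⊥ := by
        intro L hL
        apply Subgroup.eq_bot_of_card_eq
        by_contra hne
        obtain ⟨u, hu, hdu⟩ := Nat.exists_prime_and_dvd hne
        exact hex u hu (hL u hu hdu)
      refine ⟨1, ?_⟩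
      rw [hbot H hH.1, hbot K hK.1]
      simp
  · have hall : ∀ L : Subgroup G, Cfsg.IsPiSubgroup π L := fun L u hu _ => h u hu
    have hH' : H = ⊤ := top_le_iff.1 (hH.2 (hall ⊤) le_top)
    have hK' : K = ⊤ := top_le_iff.1 (hK.2 (hall ⊤) le_top)
    refine ⟨1, ?_⟩
    rw [hH', hK']
    ext x
    simp

/-- For a set of primes π the following are equivalent: every finite group has a Hall π-subgroup; in every finite group the maximal π-subgroups are pairwise conjugate; π contains at most one prime or contains every prime. -/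
theorem result (π : Set ℕ) :
    ((∀ (G : Type) [Group G] [Finite G], Cfsg.IsEPiGroup π G) ↔
      ((∀ p q : ℕ, p.Prime → q.Prime → p ∈ π → q ∈ π → p = q) ∨ ∀ p : ℕ, p.Prime → p ∈ π)) ∧
    ((∀ (G : Type) [Group G] [Finite G], Cfsg.IsDPiGroup π G) ↔
      ((∀ p q : ℕ, p.Prime → q.Prime → p ∈ π → q ∈ π → p = q) ∨ ∀ p : ℕ, p.Prime → p ∈ π)) := by
  have hmain : (∀ (G : Type) [Group G] [Finite G], Cfsg.IsEPiGroup π G) →
      ((∀ p q : ℕ, p.Prime → q.Prime → p ∈ π → q ∈ π → p = q) ∨ ∀ p : ℕ, p.Prime → p ∈ π) := by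
    intro hE
    by_contra hnot
    push Not at hnot
    obtain ⟨⟨p, q, hp, hq, hpπ, hqπ, hne⟩, r, hr, hrπ⟩ := hnot
    -- order the two primes
    obtain ⟨p', q', hp', hq', hp'π, hq'π, hlt⟩ : ∃ p' q' : ℕ, p'.Prime ∧ q'.Prime ∧ p' ∈ π ∧ q' ∈ π ∧ q' < p' := by
      rcases lt_or_gt_of_ne hne with h | h
      · exact ⟨q, p, hq, hp, hqπ, hpπ, h⟩
      · exact ⟨p, q, hp, hq, hpπ, hqπ, h⟩
    obtain ⟨H, hH⟩ := hE (Equiv.Perm (Fin (p' ^ (r + 2 * q' + 4))))
    exact no_hall hp' hq' hr hlt hp'π hq'π hrπ rfl (Nat.lt_pow_self hp'.one_lt).le H hH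
  exact ⟨⟨hmain, fun h G _ _ => isEPi_of_cond h G⟩,
    ⟨fun hD => hmain (fun G _ _ => isEPi_of_isDPi (hD G)), fun h G _ _ => isDPi_of_cond h G⟩⟩

end Cfsg.Agent.S3878
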