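import Mathlib
import Cfsg.Prelude.Def_OddOrderLocal
import Cfsg.Prelude.Def_BaumannBlocks
import Cfsg.Agent.Lib.Metacyclic

set_option autoImplicit false
open Cfsg

namespace Cfsg.Agent.S3881

/-- Let p be an odd prime and G a finite metacyclic p-group (G has a cyclic normal subgroup with cyclic quotient). Suppose G is non-abelian with |G'| = p^n. Then for 1 ≤ i ≤ n the number of elements of G whose conjugacy class has exactly p^i elements is |Z(G)| · (p^(2i) − p^(2i−2)). -/
theorem result {G : Type*} [Group G] [Finite G] {p : ℕ} [Fact p.Prime] (hp : p ≠ 2) (hG : IsPGroup p G) (hmc : Cfsg.IsMetacyclic G) (n : ℕ) (hn : n ≠ 0) (hGn : Nat.card ↥(commutator G) = p ^ n) (i : ℕ) (hi : 1 ≤ i) (hin : i ≤ n) :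
    Nat.card {g : G // (Subgroup.centralizer ({g} : Set G)).index = p ^ i} =
      Nat.card ↥(Subgroup.center G) * (p ^ (2 * i) - p ^ (2 * i - 2)) := by
  obtain ⟨n', hn', ⟨D⟩⟩ := Cfsg.Agent.Lib.Metacyclic.exists_n_data hp hG hmc
  obtain rfl : n' = n := Nat.pow_right_injective (Fact.out : p.Prime).two_le (hn'.symm.trans hGn)
  have h1 := D.card_fiber {x | addOrderOf x = p ^ i}
  have h2 : Nat.card {x : ZMod (p ^ n') × ZMod (p ^ n') // x ∈ ({x | addOrderOf x = p ^ i} : Set _)}
      = p ^ (2 * i) - p ^ (2 * i - 2) := Cfsg.Agent.Lib.Metacyclic.card_addOrderOf_eq hi hin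
  have h3 : {g : G // (Subgroup.centralizer ({g} : Set G)).index = p ^ i}
      = {g : G // D.theta g ∈ ({x | addOrderOf x = p ^ i} : Set _)} := by
    congr 1
    ext g
    rw [D.index_centralizer g]
    rfl
  rw [h3, h1, h2, mul_comm]

end Cfsg.Agent.S3881
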