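import Mathlib
import Cfsg.Prelude.Def_OddOrderLocal
import Cfsg.Prelude.Def_BaumannBlocks
import Cfsg.Agent.Lib.Metacyclic

set_option autoImplicit false
open Cfsg

namespace Cfsg.Agent.S3882


open Cfsg.Agent.Lib.Metacyclic in
theorem theta_pow_mem_box {G : Type*} [Group G] [Finite G] {p n : ℕ} [hp : Fact p.Prime]
    (D : Data G p n) (g : G) (s : ℕ) : D.theta (g ^ p ^ s) ∈ box p n s s := by
  rw [D.theta_pow]
  obtain ⟨d, hd⟩ := gs_dvd_self D.hp2 (D.chi_oneModP g) s
  rw [hd, mem_box]
  constructor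
  · exact ⟨d * (D.theta g).1, by simp [mul_assoc]⟩
  · exact ⟨d * (D.theta g).2, by simp [mul_assoc]⟩

open Cfsg.Agent.Lib.Metacyclic in
theorem mem_closure_pow_iff {G : Type*} [Group G] [Finite G] {p n : ℕ} [hp : Fact p.Prime]
    (D : Data G p n) {s : ℕ} (hs : s ≤ n) (g : G) :
    g ∈ Subgroup.closure {x : G | ∃ y : G, y ^ p ^ s = x} ↔ D.theta g ∈ box p n s s := by
  constructor
  · intro hg
    have h : Subgroup.closure {x : G | ∃ y : G, y ^ p ^ s = x} ≤ D.pre (box p n s s) := by
      rw [Subgroup.closure_le]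
      rintro _ ⟨y, rfl⟩
      exact theta_pow_mem_box D y s
    exact h hg
  · intro hg
    obtain ⟨x, y, rfl⟩ := D.exists_pow_of_theta_mem hs g hg
    exact mul_mem (Subgroup.subset_closure ⟨x, rfl⟩) (Subgroup.subset_closure ⟨y, rfl⟩)


/-- Let p be an odd prime and G a finite metacyclic p-group (G has a cyclic normal subgroup with cyclic quotient). Suppose |G'| = p^n and 0 ≤ s ≤ n. Then an element g lies in the subgroup generated by the p^s-th powers if and only if its conjugacy class has at most p^(n−s) elements; in particular the subgroup generated by the p^n-th powers is the center of G. -/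
theorem result {G : Type*} [Group G] [Finite G] {p : ℕ} [Fact p.Prime] (hp : p ≠ 2) (hG : IsPGroup p G) (hmc : Cfsg.IsMetacyclic G) (n : ℕ) (hGn : Nat.card ↥(commutator G) = p ^ n) (s : ℕ) (hs : s ≤ n) (g : G) :
    (g ∈ Subgroup.closure {x : G | ∃ y : G, y ^ p ^ s = x} ↔ (Subgroup.centralizer ({g} : Set G)).index ≤ p ^ (n - s)) ∧
      Subgroup.closure {x : G | ∃ y : G, y ^ p ^ n = x} = Subgroup.center G := by
  obtain ⟨n', hn', ⟨D⟩⟩ := Cfsg.Agent.Lib.Metacyclic.exists_n_data hp hG hmc
  obtain rfl : n' = n := Nat.pow_right_injective (Fact.out : p.Prime).two_le (hn'.symm.trans hGn)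
  constructor
  · rw [mem_closure_pow_iff D hs, D.index_centralizer, Cfsg.Agent.Lib.Metacyclic.addOrderOf_le_iff (Nat.sub_le _ _),
      Nat.sub_sub_self hs]
  · ext x
    rw [mem_closure_pow_iff D le_rfl, D.mem_center_iff, Cfsg.Agent.Lib.Metacyclic.box,
      Cfsg.Agent.Lib.Metacyclic.I_eq_bot le_rfl]
    constructor
    · intro h
      have h1 := (AddSubgroup.mem_prod.1 h).1
      have h2 := (AddSubgroup.mem_prod.1 h).2
      exact Prod.ext h1 h2
    · intro h
      rw [h]
      exact zero_mem _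

end Cfsg.Agent.S3882
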