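import Mathlib
import Cfsg.Prelude.Def_OddOrderLocal
import Cfsg.Prelude.Def_BaumannBlocks
import Cfsg.Agent.Lib.Metacyclic

set_option autoImplicit false
open Cfsg
open scoped commutatorElement

namespace Cfsg.Agent.S3883


open Cfsg.Agent.Lib.Metacyclic in
theorem theta_pow_mem_box {G : Type*} [Group G] [Finite G] {p n : ℕ} [hp : Fact p.Prime]
    (D : Data G p n) (g : G) (s : ℕ) : D.theta (g ^ p ^ s) ∈ box p n s s := by
  rw [D.theta_pow]
  obtain ⟨d, hd⟩ := gs_dvd_self D.hp2 (D.chi_oneModP g) s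
  rw [hd, mem_box]
  constructor
  · exact ⟨d * (D.theta g).1, by simp [mul_assoc]⟩
  · exact ⟨d * (D.theta g).2, by simp [mul_assoc]⟩

open Cfsg.Agent.Lib.Metacyclic in
theorem mem_frattini_iff {G : Type*} [Group G] [Finite G] {p n : ℕ} [hp : Fact p.Prime]
    (D : Data G p n) (hn : 1 ≤ n) (g : G) : g ∈ frattini G ↔ D.theta g ∈ box p n 1 1 := by
  have hpG := D.hG
  constructor
  · intro hg
    have h : frattini G ≤ D.pre (box p n 1 1) := by
      apply Cfsg.Agent.Lib.Frat.frattini_le_of_commutator_pow (p := p)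
      · rw [D.commutator_eq, Subgroup.zpowers_le]
        have h1 := D.theta_eq D.w 0
        rw [pow_zero, mul_one] at h1
        change D.theta (D.a ^ D.w) ∈ box p n 1 1
        rw [h1, mem_box]
        obtain ⟨t, ht⟩ := D.hw
        constructor
        · exact ⟨t, by rw [ht]; simp⟩
        · exact ⟨0, by simp [gs_zero]⟩
      · intro x
        have := theta_pow_mem_box D x 1
        rwa [pow_one] at this
    exact h hg
  · intro hg
    obtain ⟨x, y, rfl⟩ := D.exists_pow_of_theta_mem hn g hg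
    rw [pow_one]
    exact mul_mem (Cfsg.Agent.Lib.Frat.pow_mem_frattini hpG x) (Cfsg.Agent.Lib.Frat.pow_mem_frattini hpG y)


/-- Let p be an odd prime and G a finite metacyclic p-group (G has a cyclic normal subgroup with cyclic quotient). Suppose G is non-abelian. Then an element g of G lies outside the Frattini subgroup if and only if its centralizer C_G(g) is abelian. -/
theorem result {G : Type*} [Group G] [Finite G] {p : ℕ} [Fact p.Prime] (hp : p ≠ 2) (hG : IsPGroup p G) (hmc : Cfsg.IsMetacyclic G) (hna : ¬ IsMulCommutative G) (g : G) :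
    g ∉ frattini G ↔ IsMulCommutative ↥(Subgroup.centralizer ({g} : Set G)) := by
  obtain ⟨n, hn, ⟨D⟩⟩ := Cfsg.Agent.Lib.Metacyclic.exists_n_data hp hG hmc
  have hn1 : 1 ≤ n := by
    rcases Nat.eq_zero_or_pos n with rfl | h
    · exfalso
      apply hna
      rw [pow_zero] at hn
      have h1 : commutator G = ⊥ := (Subgroup.card_eq_one).1 hn
      exact ⟨⟨fun x y => by
        have h2 : ⁅x, y⁆ ∈ commutator G := Subgroup.commutator_mem_commutator (Subgroup.mem_top x) (Subgroup.mem_top y)
        rw [h1, Subgroup.mem_bot, commutatorElement_eq_one_iff_mul_comm] at h2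
        exact h2⟩⟩
    · exact h
  have hpp : p.Prime := Fact.out
  rw [mem_frattini_iff D hn1]
  rw [D.comm_iff_card_le, D.centralizer_singleton, D.card_pre, D.index_commutator]
  have hZ : 0 < Nat.card ↥(Subgroup.center G) := Nat.card_pos
  rw [Nat.mul_le_mul_right_iff hZ]
  have h1 := Cfsg.Agent.Lib.Metacyclic.card_mul_card_perp (AddSubgroup.zmultiples (D.theta g))
  rw [Nat.card_zmultiples] at h1
  have h2 := Cfsg.Agent.Lib.Metacyclic.addOrderOf_le_iff (k := n - 1) (Nat.sub_le _ _) (D.theta g)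
  rw [show n - (n - 1) = 1 by omega] at h2
  rw [← h2]
  obtain ⟨l, hl, hl2⟩ := (Nat.dvd_prime_pow hpp).1 (Cfsg.Agent.Lib.Metacyclic.addOrderOf_dvd_pn (D.theta g))
  rw [hl2] at h1 ⊢
  rw [Nat.pow_le_pow_iff_right hpp.one_lt]
  have hP : 0 < Nat.card (Cfsg.Agent.Lib.Metacyclic.perp (AddSubgroup.zmultiples (D.theta g))) := Nat.card_pos
  have h3 : Nat.card (Cfsg.Agent.Lib.Metacyclic.perp (AddSubgroup.zmultiples (D.theta g))) = p ^ (2 * n - l) := by
    apply Nat.eq_of_mul_eq_mul_left (pow_pos hpp.pos l)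
    rw [h1, ← pow_add]
    congr 1
    omega
  rw [h3, Nat.pow_le_pow_iff_right hpp.one_lt]
  omega

end Cfsg.Agent.S3883
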