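import Mathlib
import Cfsg.Prelude.Def_OddOrderLocal
import Cfsg.Agent.Lib.Metacyclic

set_option autoImplicit false
open Cfsg

namespace Cfsg.Agent.S3884

open Cfsg.Agent.Lib.Metacyclic

theorem exists_complement {G : Type*} [Group G] [Finite G] {p : ℕ} [hp : Fact p.Prime]
    (hG : IsPGroup p G) (x y : G) (hxy : Commute x y) (ho : orderOf y ≤ orderOf x) :
    ∃ e : ℕ, Subgroup.zpowers x ⊓ Subgroup.zpowers (y * (x ^ e)⁻¹) = ⊥ := by
  classical
  have hpp := hp.out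
  obtain ⟨k0, hk0⟩ := hG x
  obtain ⟨l0, hl0⟩ := hG y
  obtain ⟨k, -, hk⟩ := (Nat.dvd_prime_pow hpp).1 (orderOf_dvd_of_pow_eq_one hk0)
  obtain ⟨l, -, hl⟩ := (Nat.dvd_prime_pow hpp).1 (orderOf_dvd_of_pow_eq_one hl0)
  have hlk : l ≤ k := by
    rw [hk, hl] at ho
    exact (Nat.pow_le_pow_iff_right hpp.one_lt).1 ho
  have hex : ∃ m, y ^ p ^ m ∈ Subgroup.zpowers x :=
    ⟨l, by rw [← hl, pow_orderOf_eq_one]; exact one_mem _⟩
  have hm := Nat.find_spec hex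
  have hml : Nat.find hex ≤ l := Nat.find_min' hex (by rw [← hl, pow_orderOf_eq_one]; exact one_mem _)
  have hmin : ∀ r, y ^ p ^ r ∈ Subgroup.zpowers x → Nat.find hex ≤ r := fun r hr => Nat.find_min' hex hr
  generalize Nat.find hex = m at hm hml hmin
  obtain ⟨e, he⟩ : ∃ e : ℕ, x ^ e = y ^ p ^ m := mem_powers_iff_mem_zpowers.2 hm
  have h1 : x ^ (e * p ^ (l - m)) = 1 := by
    rw [pow_mul, he, ← pow_mul, ← pow_add, Nat.add_sub_cancel' hml, ← hl, pow_orderOf_eq_one]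
  have h2 : p ^ k ∣ e * p ^ (l - m) := by
    rw [← hk]
    exact orderOf_dvd_of_pow_eq_one h1
  have h3 : p ^ m ∣ e := by
    have h4 : p ^ (k - (l - m)) * p ^ (l - m) = p ^ k := by
      rw [← pow_add]
      congr 1
      omega
    rw [← h4] at h2
    have h5 := Nat.dvd_of_mul_dvd_mul_right (pow_pos hpp.pos _) h2
    exact (pow_dvd_pow p (by omega)).trans h5
  obtain ⟨e', rfl⟩ := h3
  refine ⟨e', ?_⟩
  have hcomm : Commute y (x ^ e') := (hxy.symm.pow_right e')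
  have hy₁pow : ∀ β : ℕ, (y * (x ^ e')⁻¹) ^ β = y ^ β * (x ^ (e' * β))⁻¹ := by
    intro β
    rw [Commute.mul_pow hcomm.inv_right, inv_pow, ← pow_mul]
  have hy1 : (y * (x ^ e')⁻¹) ^ p ^ m = 1 := by
    rw [hy₁pow, mul_comm e', he, mul_inv_cancel]
  rw [eq_bot_iff]
  intro w hw
  obtain ⟨α, hα⟩ : ∃ α : ℕ, x ^ α = w := mem_powers_iff_mem_zpowers.2 hw.1
  obtain ⟨β, hβ⟩ : ∃ β : ℕ, (y * (x ^ e')⁻¹) ^ β = w := mem_powers_iff_mem_zpowers.2 hw.2
  have h5 : y ^ β ∈ Subgroup.zpowers x := by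
    have h6 : y ^ β = x ^ α * x ^ (e' * β) := by
      have h7 := hβ.trans hα.symm
      rw [hy₁pow] at h7
      exact mul_inv_eq_iff_eq_mul.1 h7
    rw [h6]
    exact mul_mem (pow_mem (Subgroup.mem_zpowers x) _) (pow_mem (Subgroup.mem_zpowers x) _)
  have h6 : p ^ m ∣ β := by
    obtain ⟨r, hr, hg⟩ := (Nat.dvd_prime_pow hpp).1 (Nat.gcd_dvd_right β (p ^ l))
    have h7 : y ^ Nat.gcd β (p ^ l) ∈ Subgroup.zpowers x := by
      have h8 : y ^ Nat.gcd β (p ^ l) = (y ^ β) ^ (Nat.gcdA β (p ^ l)) * (y ^ (p ^ l)) ^ (Nat.gcdB β (p ^ l)) := by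
        rw [← zpow_natCast y (Nat.gcd β (p ^ l)), Nat.gcd_eq_gcd_ab, zpow_add, zpow_mul, zpow_mul]
        simp only [zpow_natCast]
      rw [h8, ← hl, pow_orderOf_eq_one, one_zpow, mul_one]
      exact zpow_mem h5 _
    have h9 : m ≤ r := hmin r (by rw [← hg]; exact h7)
    exact (pow_dvd_pow p h9).trans (hg ▸ Nat.gcd_dvd_left β (p ^ l))
  obtain ⟨q, rfl⟩ := h6
  rw [Subgroup.mem_bot, ← hβ, pow_mul, hy1, one_pow]

theorem coeff_zero {p n : ℕ} [hp : Fact p.Prime] {v₁ v₂ : ZMod (p ^ n) × ZMod (p ^ n)} (hu : IsUnit (om v₁ v₂))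
    {s t : ZMod (p ^ n)} (h : s • v₁ = t • v₂) : s = 0 ∧ t = 0 := by
  have h1 : s * om v₁ v₂ = 0 := by rw [← om_smul_left, h, om_smul_left, om_self, mul_zero]
  have h2 : t * om v₁ v₂ = 0 := by rw [← om_smul_right, ← h, om_smul_right, om_self, mul_zero]
  exact ⟨hu.mul_left_eq_zero.1 h1, hu.mul_left_eq_zero.1 h2⟩

theorem order_eq {G : Type*} [Group G] [Finite G] {p n : ℕ} [hp : Fact p.Prime] (D : Data G p n) (g : G)
    (v : ZMod (p ^ n) × ZMod (p ^ n)) (hv : IsUnit (om (D.theta g) v)) :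
    orderOf g = p ^ n * orderOf (g ^ p ^ n) := by
  have hpp := hp.out
  have h1 : gs (D.chi g) (orderOf g) • D.theta g = 0 := by
    rw [← D.theta_pow, pow_orderOf_eq_one, D.theta_one]
  have h2 : gs (D.chi g) (orderOf g) * om (D.theta g) v = 0 := by
    rw [← om_smul_left, h1]
    simp [om]
  have h3 := hv.mul_left_eq_zero.1 h2
  have h4 : p ^ n ∣ orderOf g := (gs_eq_zero_iff D.hp2 (D.chi_oneModP g) _).1 h3
  rw [orderOf_pow_of_dvd (pow_ne_zero _ hpp.ne_zero) h4]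
  exact (Nat.mul_div_cancel' h4).symm

theorem card_sup_le {G : Type*} [Group G] [Finite G] (H N : Subgroup G) [hN : N.Normal] :
    Nat.card ↥(H ⊔ N) ≤ Nat.card ↥H * Nat.card ↥N := by
  rw [← Nat.card_prod]
  let f : ↥H × ↥N → ↥(H ⊔ N) := fun q =>
    ⟨(q.1 : G) * (q.2 : G), mul_mem (Subgroup.mem_sup_left q.1.2) (Subgroup.mem_sup_right q.2.2)⟩
  apply Nat.card_le_card_of_surjective f
  rintro ⟨s, hs⟩
  have hs' : s ∈ (↑(H ⊔ N) : Set G) := hs
  rw [Subgroup.mul_normal] at hs'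
  obtain ⟨u, hu, v, hv, rfl⟩ := Set.mem_mul.1 hs'
  exact ⟨(⟨u, hu⟩, ⟨v, hv⟩), rfl⟩

theorem main {G : Type*} [Group G] [Finite G] {p n : ℕ} [hp : Fact p.Prime] (D : Data G p n) (h₁ h₂ : G)
    (hu : IsUnit (om (D.theta h₁) (D.theta h₂))) (hgen : ∀ K : Subgroup G, h₁ ∈ K → h₂ ∈ K → K = ⊤)
    (ho : orderOf (h₂ ^ p ^ n) ≤ orderOf (h₁ ^ p ^ n)) :
    ∃ A B : Subgroup G, IsCyclic ↥A ∧ IsCyclic ↥B ∧ A ⊓ B = ⊥ ∧ Nat.card ↥A * Nat.card ↥B = Nat.card G := by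
  have hG := D.hG
  have hpp := hp.out
  have hxZ : h₁ ^ p ^ n ∈ Subgroup.center G := D.pow_pn_center h₁
  have hcomm : Commute (h₁ ^ p ^ n) (h₂ ^ p ^ n) := (Subgroup.mem_center_iff.1 hxZ _).symm
  obtain ⟨e, he⟩ := exists_complement hG (h₁ ^ p ^ n) (h₂ ^ p ^ n) hcomm ho
  have hpow3 : (h₂ * (h₁ ^ e)⁻¹) ^ p ^ n = h₂ ^ p ^ n * ((h₁ ^ p ^ n) ^ e)⁻¹ := by
    rw [D.pow_pn_mul, inv_pow, ← pow_mul, mul_comm e, pow_mul]
  generalize hh₃ : h₂ * (h₁ ^ e)⁻¹ = h₃ at hpow3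
  generalize hy₁ : h₂ ^ p ^ n * ((h₁ ^ p ^ n) ^ e)⁻¹ = y₁ at hpow3 he
  have hθ3 : om (D.theta h₁) (D.theta h₃) = om (D.theta h₁) (D.theta h₂) := by
    obtain ⟨k, hk⟩ : ∃ k : ℕ, h₁ ^ k = (h₁ ^ e)⁻¹ :=
      mem_powers_iff_mem_zpowers.2 (inv_mem (pow_mem (Subgroup.mem_zpowers h₁) e))
    rw [← hh₃, ← hk, D.theta_mul, D.theta_pow, om_add_right, om_smul_right, om_smul_right, om_self]
    simp
  have hu3 : IsUnit (om (D.theta h₁) (D.theta h₃)) := by rwa [hθ3]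
  have hu3' : IsUnit (om (D.theta h₃) (D.theta h₁)) := by
    rw [om_comm]
    exact hu3.neg
  have hinf : Subgroup.zpowers h₁ ⊓ Subgroup.zpowers h₃ = ⊥ := by
    rw [eq_bot_iff]
    intro w hw
    obtain ⟨α, hα⟩ : ∃ α : ℕ, h₁ ^ α = w := mem_powers_iff_mem_zpowers.2 hw.1
    obtain ⟨β, hβ⟩ : ∃ β : ℕ, h₃ ^ β = w := mem_powers_iff_mem_zpowers.2 hw.2
    have h : gs (D.chi h₁) α • D.theta h₁ = gs (D.chi h₃) β • D.theta h₃ := by
      rw [← D.theta_pow, ← D.theta_pow, hα, hβ]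
    obtain ⟨hs, ht⟩ := coeff_zero hu3 h
    obtain ⟨α', rfl⟩ := (gs_eq_zero_iff D.hp2 (D.chi_oneModP h₁) _).1 hs
    obtain ⟨β', rfl⟩ := (gs_eq_zero_iff D.hp2 (D.chi_oneModP h₃) _).1 ht
    have hw1 : w ∈ Subgroup.zpowers (h₁ ^ p ^ n) := by
      rw [← hα, pow_mul]
      exact pow_mem (Subgroup.mem_zpowers _) _
    have hw2 : w ∈ Subgroup.zpowers y₁ := by
      rw [← hβ, pow_mul, hpow3]
      exact pow_mem (Subgroup.mem_zpowers _) _
    have h' : w ∈ Subgroup.zpowers (h₁ ^ p ^ n) ⊓ Subgroup.zpowers y₁ := ⟨hw1, hw2⟩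
    rwa [he] at h'
  refine ⟨Subgroup.zpowers h₁, Subgroup.zpowers h₃, inferInstance, inferInstance, hinf, ?_⟩
  have h1 : Nat.card ↥(Subgroup.zpowers h₁) * Nat.card ↥(Subgroup.zpowers h₃) ≤ Nat.card G := by
    have := Nat.card_le_card_of_injective _ (Subgroup.mul_injective_of_disjoint (disjoint_iff.2 hinf))
    rwa [Nat.card_prod] at this
  apply le_antisymm h1
  rw [Nat.card_zpowers, Nat.card_zpowers, order_eq D h₁ _ hu3, order_eq D h₃ _ hu3', hpow3, D.card_G]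
  have hy₁Z : y₁ ∈ Subgroup.center G := by
    rw [← hpow3]
    exact D.pow_pn_center h₃
  have hnorm : (Subgroup.zpowers y₁).Normal := by
    have hle : Subgroup.zpowers y₁ ≤ Subgroup.center G := by
      rw [Subgroup.zpowers_le]
      exact hy₁Z
    refine ⟨fun g hg k => ?_⟩
    have hgZ := hle hg
    rw [(Subgroup.mem_center_iff.1 hgZ k), mul_inv_cancel_right]
    exact hg
  have h2 := card_sup_le (Subgroup.zpowers (h₁ ^ p ^ n)) (Subgroup.zpowers y₁)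
  rw [Nat.card_zpowers, Nat.card_zpowers] at h2
  let S := Subgroup.zpowers (h₁ ^ p ^ n) ⊔ Subgroup.zpowers y₁
  let K : Subgroup G :=
    { carrier := {g | g ^ p ^ n ∈ S}
      mul_mem' := by
        intro g g' hg hg'
        show (g * g') ^ p ^ n ∈ S
        rw [D.pow_pn_mul]
        exact mul_mem hg hg'
      one_mem' := by
        show (1 : G) ^ p ^ n ∈ S
        rw [one_pow]
        exact one_mem _
      inv_mem' := by
        intro g hg
        show g⁻¹ ^ p ^ n ∈ S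
        rw [inv_pow]
        exact inv_mem hg }
  have hK : K = ⊤ := by
    apply hgen
    · exact Subgroup.mem_sup_left (Subgroup.mem_zpowers _)
    · show h₂ ^ p ^ n ∈ S
      have h3 : h₂ ^ p ^ n = y₁ * (h₁ ^ p ^ n) ^ e := by
        rw [← hy₁, inv_mul_cancel_right]
      rw [h3]
      exact mul_mem (Subgroup.mem_sup_right (Subgroup.mem_zpowers _))
        (pow_mem (Subgroup.mem_sup_left (Subgroup.mem_zpowers _)) _)
  have hZS : Subgroup.center G ≤ S := by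
    intro z hz
    have hz0 := (D.mem_center_iff z).1 hz
    have hz1 : D.theta z ∈ box p n n n := by
      rw [hz0]
      exact zero_mem _
    obtain ⟨u, v, rfl⟩ := D.exists_pow_of_theta_mem le_rfl z hz1
    have hu' : u ∈ K := by rw [hK]; trivial
    have hv' : v ∈ K := by rw [hK]; trivial
    exact mul_mem hu' hv'
  have h3 : Nat.card ↥(Subgroup.center G) ≤ Nat.card ↥S := Subgroup.card_le_of_le hZS
  have h4 := h3.trans h2
  calc p ^ (2 * n) * Nat.card ↥(Subgroup.center G)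
      ≤ p ^ (2 * n) * (orderOf (h₁ ^ p ^ n) * orderOf y₁) := Nat.mul_le_mul_left _ h4
    _ = p ^ n * orderOf (h₁ ^ p ^ n) * (p ^ n * orderOf y₁) := by
      rw [two_mul, pow_add]
      ring

/-- Let p be an odd prime and G a finite metacyclic p-group (G has a cyclic normal subgroup with cyclic quotient). Then G is the product of two cyclic subgroups with trivial intersection: there are cyclic subgroups A and B with A ∩ B = 1 and |A| · |B| = |G|. -/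
theorem result {G : Type*} [Group G] [Finite G] {p : ℕ} [Fact p.Prime] (hp : p ≠ 2) (hG : IsPGroup p G) (hmc : Cfsg.IsMetacyclic G) : ∃ A B : Subgroup G, IsCyclic ↥A ∧ IsCyclic ↥B ∧ A ⊓ B = ⊥ ∧ Nat.card ↥A * Nat.card ↥B = Nat.card G := by
  obtain ⟨n, hn, ⟨D⟩⟩ := exists_n_data hp hG hmc
  have hgen : ∀ K : Subgroup G, D.a ∈ K → D.b ∈ K → K = ⊤ := by
    intro K ha hb
    rw [eq_top_iff]
    intro g _
    obtain ⟨i, j, rfl⟩ := D.hdec g
    exact mul_mem (pow_mem ha i) (pow_mem hb j)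
  have hab : om (D.theta D.a) (D.theta D.b) = 1 := by
    rw [D.theta_a, D.theta_b]
    simp [om]
  rcases le_total (orderOf (D.b ^ p ^ n)) (orderOf (D.a ^ p ^ n)) with h | h
  · exact main D D.a D.b (by rw [hab]; exact isUnit_one) hgen h
  · refine main D D.b D.a ?_ (fun K hb ha => hgen K ha hb) h
    rw [om_comm, hab]
    exact isUnit_one.neg

end Cfsg.Agent.S3884
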