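import Mathlib
import Cfsg.Prelude.Def_OddOrderLocal
import Cfsg.Prelude.Def_BaumannBlocks
import Cfsg.Agent.Lib.Metacyclic

set_option autoImplicit false
open Cfsg

namespace Cfsg.Agent.S3885

/-- Let p be an odd prime and G a finite metacyclic p-group (G has a cyclic normal subgroup with cyclic quotient). Then every abelian subgroup K of G containing the center of G is the center of its own centralizer: K = Z(C_G(K)). -/
theorem result {G : Type*} [Group G] [Finite G] {p : ℕ} [Fact p.Prime] (hp : p ≠ 2) (hG : IsPGroup p G) (hmc : Cfsg.IsMetacyclic G) (K : Subgroup G) (hK : IsMulCommutative ↥K) (hZ : Subgroup.center G ≤ K) :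
    K = Subgroup.centralizer (K : Set G) ⊓ Subgroup.centralizer (Subgroup.centralizer (K : Set G) : Set G) := by
  obtain ⟨n, hn, ⟨D⟩⟩ := Cfsg.Agent.Lib.Metacyclic.exists_n_data hp hG hmc
  have hKiso : D.img K ≤ Cfsg.Agent.Lib.Metacyclic.perp (D.img K) := fun x hx =>
    Cfsg.Agent.Lib.Metacyclic.mem_perp.2 (fun y hy => (D.comm_iff_isotropic K).1 hK y hy x hx)
  have hK' := D.pre_img hZ
  have hC := D.centralizer_eq K
  have hCC : Subgroup.centralizer (Subgroup.centralizer (K : Set G) : Set G) = K := by
    rw [hC, D.centralizer_eq, D.img_pre, Cfsg.Agent.Lib.Metacyclic.perp_perp, hK']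
  rw [hCC]
  refine (inf_eq_right.2 ?_).symm
  rw [hC]
  intro g hg
  exact hKiso (D.theta_mem_img hg)

end Cfsg.Agent.S3885
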