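import Mathlib
import Cfsg.Prelude.Def_OddOrderLocal
import Cfsg.Prelude.Def_BaumannBlocks
import Cfsg.Agent.Lib.Metacyclic

set_option autoImplicit false
open Cfsg

namespace Cfsg.Agent.S3886


theorem card_center_of_comm {G : Type*} [Group G] (R : Subgroup G) (hR : IsMulCommutative ↥R) :
    Nat.card ↥(Subgroup.center ↥R) = Nat.card ↥R := by
  have h : Subgroup.center ↥R = ⊤ := by
    ext x
    simp only [Subgroup.mem_top, iff_true, Subgroup.mem_center_iff]
    intro y
    exact hR.is_comm.comm y x
  rw [h, Subgroup.card_top]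

theorem card_center_eq {G : Type*} [Group G] [Finite G] (R : Subgroup G)
    (hR : Subgroup.centralizer (R : Set G) ≤ R) :
    Nat.card ↥(Subgroup.center ↥R) = Nat.card ↥(Subgroup.centralizer (R : Set G)) := by
  have h : (Subgroup.center ↥R).map R.subtype = Subgroup.centralizer (R : Set G) := by
    ext x
    constructor
    · rintro ⟨y, hy, rfl⟩
      rw [Subgroup.mem_centralizer_iff]
      intro z hz
      have := Subgroup.mem_center_iff.1 hy ⟨z, hz⟩
      exact congrArg Subtype.val this
    · intro hx
      refine ⟨⟨x, hR hx⟩, ?_, rfl⟩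
      rw [SetLike.mem_coe, Subgroup.mem_center_iff]
      intro z
      exact Subtype.ext (Subgroup.mem_centralizer_iff.1 hx z z.2)
  rw [← h, Subgroup.card_map_of_injective R.subtype_injective]

open Cfsg.Agent.Lib.Metacyclic in
theorem value_of_not_comm {G : Type*} [Group G] [Finite G] {p n : ℕ} [hp : Fact p.Prime]
    (D : Data G p n) (R : Subgroup G) (hR : ¬ IsMulCommutative ↥R) :
    Nat.card ↥R * Nat.card ↥(Subgroup.center ↥R) = (commutator G).index ^ 2 := by
  have hZ := D.center_le_of_not_comm R hR
  have hM : ¬ ∀ x ∈ D.img R, ∀ y ∈ D.img R, om x y = 0 := fun h => hR ((D.comm_iff_isotropic R).2 h)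
  have h1 := perp_le_of_not_isotropic hM
  have h2 := D.pre_img hZ
  have h3 : Subgroup.centralizer (R : Set G) ≤ R := by
    rw [D.centralizer_eq]
    conv_rhs => rw [← h2]
    exact fun g hg => h1 hg
  rw [card_center_eq R h3, D.centralizer_eq, D.index_commutator]
  conv_lhs => rw [← h2]
  rw [D.card_pre, D.card_pre, D.img_pre]
  have h4 := card_mul_card_perp (D.img R)
  calc Nat.card ↥(D.img R) * Nat.card ↥(Subgroup.center G) * (Nat.card ↥(perp (D.img R)) * Nat.card ↥(Subgroup.center G))
      = (Nat.card ↥(D.img R) * Nat.card ↥(perp (D.img R))) * Nat.card ↥(Subgroup.center G) ^ 2 := by ring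
    _ = (p ^ n * Nat.card ↥(Subgroup.center G)) ^ 2 := by
      rw [h4, mul_pow, ← pow_mul, mul_comm n 2]


/-- Let p be an odd prime and G a finite metacyclic p-group (G has a cyclic normal subgroup with cyclic quotient). Then the largest value of |R| · |Z(R)| over subgroups R of G is |G : G'|², and the subgroups attaining it (the centrally large subgroups) are exactly the non-abelian subgroups together with the maximal abelian subgroups of G. -/
theorem result {G : Type*} [Group G] [Finite G] {p : ℕ} [Fact p.Prime] (hp : p ≠ 2) (hG : IsPGroup p G) (hmc : Cfsg.IsMetacyclic G) : Cfsg.maxCentralProduct G = (commutator G).index ^ 2 ∧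
    ∀ R : Subgroup G, Cfsg.IsCentrallyLarge R ↔ (¬ IsMulCommutative ↥R ∨ Maximal (fun K : Subgroup G => IsMulCommutative ↥K) R) := by
  obtain ⟨n, hn, ⟨D⟩⟩ := Cfsg.Agent.Lib.Metacyclic.exists_n_data hp hG hmc
  have hmax : Cfsg.maxCentralProduct G = (commutator G).index ^ 2 := by
    apply IsGreatest.csSup_eq
    constructor
    · have h1 : Nat.card (D.pre (Cfsg.Agent.Lib.Metacyclic.box p n 0 n)) = (commutator G).index := by
        rw [D.card_pre, D.index_commutator, Cfsg.Agent.Lib.Metacyclic.card_box (Nat.zero_le _) le_rfl]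
        simp
      refine ⟨D.pre (Cfsg.Agent.Lib.Metacyclic.box p n 0 n), ?_⟩
      have h2 : IsMulCommutative ↥(D.pre (Cfsg.Agent.Lib.Metacyclic.box p n 0 n)) :=
        (D.comm_iff_card_le _).2 h1.le
      rw [card_center_of_comm _ h2, h1, sq]
    · rintro _ ⟨R, rfl⟩
      by_cases hR : IsMulCommutative ↥R
      · rw [card_center_of_comm R hR, sq]
        have h1 := (D.comm_iff_card_le R).1 hR
        exact Nat.mul_le_mul h1 h1
      · exact (value_of_not_comm D R hR).le
  refine ⟨hmax, fun R => ?_⟩
  unfold Cfsg.IsCentrallyLarge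
  rw [hmax]
  by_cases hR : IsMulCommutative ↥R
  · rw [card_center_of_comm R hR, D.maximal_iff_card_eq]
    constructor
    · intro h
      right
      have h1 : Nat.card ↥R ^ 2 = (commutator G).index ^ 2 := by rw [← h, sq]
      exact Nat.pow_left_injective (n := 2) (by omega) h1
    · rintro (h | h)
      · exact absurd hR h
      · rw [h, sq]
  · constructor
    · intro _
      exact Or.inl hR
    · intro _
      exact value_of_not_comm D R hR

end Cfsg.Agent.S3886
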