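import Mathlib
import Cfsg.Prelude.Def_OddOrderLocal
import Cfsg.Prelude.Def_BaumannBlocks
import Cfsg.Agent.Lib.Metacyclic

set_option autoImplicit false
open Cfsg

namespace Cfsg.Agent.S3887


open Cfsg.Agent.Lib.Metacyclic in
theorem formula {G : Type*} [Group G] [Finite G] {p n : ℕ} [hp : Fact p.Prime]
    (D : Data G p n) (R : Subgroup G) :
    Nat.card (D.pre (D.img R)) * Nat.card ↥(Subgroup.centralizer (R : Set G)) = Nat.card G * Nat.card ↥(Subgroup.center G) := by
  rw [D.centralizer_eq, D.card_pre, D.card_pre, D.card_G, ← card_mul_card_perp (D.img R)]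
  ring

open Cfsg.Agent.Lib.Metacyclic in
theorem bound {G : Type*} [Group G] [Finite G] {p n : ℕ} [hp : Fact p.Prime]
    (D : Data G p n) (R : Subgroup G) :
    Nat.card ↥R * Nat.card ↥(Subgroup.centralizer (R : Set G)) ≤ Nat.card G * Nat.card ↥(Subgroup.center G) := by
  rw [← formula D R]
  exact Nat.mul_le_mul_right _ (Subgroup.card_le_of_le (D.le_pre_img R))


/-- Let p be an odd prime and G a finite metacyclic p-group (G has a cyclic normal subgroup with cyclic quotient). Then a subgroup R of G maximizes |R| · |C_G(R)| over all subgroups of G if and only if R contains the center of G. -/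
theorem result {G : Type*} [Group G] [Finite G] {p : ℕ} [Fact p.Prime] (hp : p ≠ 2) (hG : IsPGroup p G) (hmc : Cfsg.IsMetacyclic G) (R : Subgroup G) : Cfsg.IsCentralizerLarge R ↔ Subgroup.center G ≤ R := by
  obtain ⟨n, hn, ⟨D⟩⟩ := Cfsg.Agent.Lib.Metacyclic.exists_n_data hp hG hmc
  have hZ : 0 < Nat.card ↥(Subgroup.center G) := Nat.card_pos
  have hmax : Cfsg.maxCentralizerProduct G = Nat.card G * Nat.card ↥(Subgroup.center G) := by
    apply IsGreatest.csSup_eq
    constructor
    · refine ⟨⊤, ?_⟩
      rw [Subgroup.card_top]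
      congr 1
      have : Subgroup.centralizer ((⊤ : Subgroup G) : Set G) = Subgroup.center G := by
        rw [Subgroup.coe_top, Subgroup.centralizer_univ]
      rw [this]
    · rintro _ ⟨R, rfl⟩
      exact bound D R
  unfold Cfsg.IsCentralizerLarge
  rw [hmax]
  constructor
  · intro h
    have h1 := formula D R
    rw [← h1] at h
    have h2 := Nat.eq_of_mul_eq_mul_right Nat.card_pos h
    have h3 : R = D.pre (D.img R) := Subgroup.eq_of_le_of_card_ge (D.le_pre_img R) h2.ge
    rw [h3]
    exact D.center_le_pre _
  · intro h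
    have h1 := formula D R
    rwa [D.pre_img h] at h1

end Cfsg.Agent.S3887
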