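import Mathlib
import Cfsg.Statements.S3897
import Cfsg.Agent.Lib.PClasses

set_option autoImplicit false
open Cfsg

namespace Cfsg.Agent.S3897

open Cfsg.Agent.Lib.PClasses

/-- Let p be an odd prime and G a finite group with Sylow p-subgroup P, and write k_p(G) for the number of conjugacy classes of G consisting of p-elements (elements of p-power order, the identity included). Then k_p(G) > (p + 1)|P|/(2p) if and only if G has a normal p-complement and P is abelian. -/
theorem result {G : Type*} [Group G] [Finite G] {p : ℕ} [Fact p.Prime] (hp : p ≠ 2) (P : Sylow p G) :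
    (p + 1) * Nat.card ↥(P : Subgroup G) < 2 * p * Nat.card {c : ConjClasses G // ∀ x ∈ c.carrier, ∃ k : ℕ, orderOf x = p ^ k} ↔
      Cfsg.HasNormalPComplement p G ∧ IsMulCommutative ↥(P : Subgroup G) := by
  constructor
  · intro h
    have hle : Subgroup.normalizer ((P : Subgroup G) : Set G) ≤ Subgroup.centralizer ((P : Subgroup G) : Set G) := by
      intro t ht
      by_contra htC
      exact absurd h (not_lt.mpr (two_mul_pClasses_le P t ht htC))
    refine ⟨hasNormalPComplement_of_normalizer_le P hle, ⟨⟨fun a b => ?_⟩⟩⟩
    apply Subtype.ext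
    have := hle (Subgroup.le_normalizer b.2)
    exact (Subgroup.mem_centralizer_iff.mp this) a a.2
  · rintro ⟨hN, hab⟩
    have h := card_le_pClasses P hN hab
    have hp3 : p + 1 < 2 * p := by
      have h2 := (Fact.out : p.Prime).two_le
      omega
    have hpos : 0 < Nat.card ↥(P : Subgroup G) := Nat.card_pos
    calc (p + 1) * Nat.card ↥(P : Subgroup G) < 2 * p * Nat.card ↥(P : Subgroup G) :=
          Nat.mul_lt_mul_of_pos_right hp3 hpos
      _ ≤ _ := Nat.mul_le_mul_left _ h

end Cfsg.Agent.S3897
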