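import Mathlib
import Cfsg.Statements.S3899
import Cfsg.Agent.Lib.PiClasses
import Cfsg.Agent.S3897

set_option autoImplicit false
open Cfsg

namespace Cfsg.Agent.S3899

open Cfsg.Agent.Lib.PClasses Cfsg.Agent.Lib.PiClasses

/-- Let π be a finite non-empty set of odd primes with smallest member p and G a finite group. Write k_π(G) for the number of conjugacy classes of G consisting of π-elements (elements all of whose order's prime divisors lie in π) and |G|_π for the π-part of the order of G. If k_π(G) > (p + 1)|G|_π/(2p), then G has a normal π-complement (a normal subgroup of order prime to π whose index is a π-number) and an abelian Hall π-subgroup. -/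
theorem result {G : Type*} [Group G] [Finite G] (π : Finset ℕ) (hπ : ∀ r ∈ π, r.Prime) (h2 : 2 ∉ π) (p : ℕ) (hp : p ∈ π)
    (hmin : ∀ r ∈ π, p ≤ r) (hk : (p + 1) * π.prod (fun r => r ^ (Nat.card G).factorization r) < 2 * p * Nat.card {c : ConjClasses G // ∀ x ∈ c.carrier, ∀ r : ℕ, r.Prime → r ∣ orderOf x → r ∈ π}) :
    (∃ N : Subgroup G, N.Normal ∧ (∀ r : ℕ, r.Prime → r ∣ Nat.card ↥N → r ∉ π) ∧ ∀ r : ℕ, r.Prime → r ∣ N.index → r ∈ π) ∧ ∃ H : Subgroup G, Cfsg.IsPiHall (↑π : Set ℕ) H ∧ IsMulCommutative ↥H := by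
  classical
  have key : ∀ r ∈ π, ∃ N : Subgroup G, N.Normal ∧ ¬ r ∣ Nat.card ↥N ∧
      (∀ s : ℕ, s.Prime → s ∣ N.index → s = r) ∧ commutator G ≤ N := by
    intro r hr
    have hrp : r.Prime := hπ r hr
    haveI : Fact r.Prime := ⟨hrp⟩
    have h1 := lt_of_lt_piClasses π hπ hr G (p + 1) (2 * p) hk
    have hpr := hmin r hr
    have hppos : 0 < p := (hπ p hp).pos
    obtain ⟨P⟩ : Nonempty (Sylow r G) := inferInstance
    have hcardP : Nat.card ↥(P : Subgroup G) = r ^ (Nat.card G).factorization r := P.card_eq_multiplicity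
    have h3 : (r + 1) * Nat.card ↥(P : Subgroup G) < 2 * r * Nat.card (PClassSet r G) := by
      rw [hcardP]
      have h4 : (r + 1) * p ≤ (p + 1) * r := by nlinarith
      have h5 : p * ((r + 1) * r ^ (Nat.card G).factorization r) < p * (2 * r * Nat.card (PClassSet r G)) := by
        calc p * ((r + 1) * r ^ (Nat.card G).factorization r)
            = ((r + 1) * p) * r ^ (Nat.card G).factorization r := by ring
          _ ≤ ((p + 1) * r) * r ^ (Nat.card G).factorization r := Nat.mul_le_mul_right _ h4
          _ = r * ((p + 1) * r ^ (Nat.card G).factorization r) := by ring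
          _ < r * (2 * p * Nat.card (PClassSet r G)) := Nat.mul_lt_mul_of_pos_left h1 hrp.pos
          _ = p * (2 * r * Nat.card (PClassSet r G)) := by ring
      exact Nat.lt_of_mul_lt_mul_left h5
    have hrne : r ≠ 2 := fun h => h2 (h ▸ hr)
    obtain ⟨hN, hab⟩ := (Cfsg.Agent.S3897.result hrne P).mp h3
    obtain ⟨N, hNn, hC, hI, hcompl⟩ := normal_data_of_complement hN
    exact ⟨N, hNn, hC, hI, commutator_le_of_isComplement' (hcompl P) hab⟩
  obtain ⟨N, hNn, h1, h2', h3⟩ := exists_piComplement π (commutator G) key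
  refine ⟨⟨N, hNn, h1, h2'⟩, ?_⟩
  exact exists_abelian_hall (↑π : Set ℕ) N (by simpa using h1) (by simpa using h2') h3

end Cfsg.Agent.S3899
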