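import Mathlib
import Cfsg.Statements.S3900
import Cfsg.Agent.Lib.BWNil8

set_option autoImplicit false
open Cfsg

namespace Cfsg.Agent.S3900

/-- A criterion of Baumslag–Wiegold type for a term of the lower central series. Let G be a finite group and k ≥ 0; call an element a left-normed commutator value of length k + 1 when it has the form [[…[x₀, x₁], …], x_k] with k + 1 entries (for k = 0, any element), where [a, b] = aba⁻¹b⁻¹. Then the (k+1)-st term γ_{k+1}(G) of the lower central series (γ₁(G) = G) is nilpotent if and only if for every two such values x, y of coprime orders, either every prime dividing o(x)·o(y) divides o(xy), or o(x)·o(y) ≤ o(xy). -/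
theorem result {G : Type*} [Group G] [Finite G] (k : ℕ) :
    Group.IsNilpotent ↥((⊤ : Subgroup G).lowerCentralSeries k) ↔
      ∀ x y : G, (∃ f : Fin (k + 1) → G, x = ((List.ofFn f).tail).foldl (fun a b => a * b * a⁻¹ * b⁻¹) (f 0)) → (∃ f : Fin (k + 1) → G, y = ((List.ofFn f).tail).foldl (fun a b => a * b * a⁻¹ * b⁻¹) (f 0)) → (orderOf x).Coprime (orderOf y) →
        (∀ r : ℕ, r.Prime → r ∣ orderOf x * orderOf y → r ∣ orderOf (x * y)) ∨ orderOf x * orderOf y ≤ orderOf (x * y) := by
  open Cfsg.Agent.Lib.BWNil5 in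
  constructor
  · intro hn x y hx hy hc
    right
    have hxN : x ∈ (⊤ : Subgroup G).lowerCentralSeries k := mem_lcs ((mem_valSet_iff k x).mp hx)
    have hyN : y ∈ (⊤ : Subgroup G).lowerCentralSeries k := mem_lcs ((mem_valSet_iff k y).mp hy)
    haveI := hn
    have h1 := Cfsg.Agent.Lib.NilpFix.commute_of_coprime
      (⟨x, hxN⟩ : ↥((⊤ : Subgroup G).lowerCentralSeries k)) ⟨y, hyN⟩
      (by
        rw [← Subgroup.orderOf_coe, ← Subgroup.orderOf_coe (⟨y, hyN⟩ : ↥((⊤ : Subgroup G).lowerCentralSeries k))]
        exact hc)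
    have h2 : Commute x y := congrArg Subtype.val h1
    rw [h2.orderOf_mul_eq_mul_orderOf_of_coprime hc]
  · intro h
    apply Cfsg.Agent.Lib.BWNil8.nilpotent_of_star k _ G rfl
    intro x hx g hc
    set w := x * g * x⁻¹ * g⁻¹ with hw
    have hwV : w ∈ valSet G k := comm_mem_valSet hx g
    have haV : g * x * g⁻¹ ∈ valSet G k := valSet_conj hx g
    have hoa : orderOf (g * x * g⁻¹) = orderOf x := orderOf_injective
      (MulAut.conj g).toMonoidHom (MulAut.conj g).injective x
    have hwa : w * (g * x * g⁻¹) = x := by rw [hw]; group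
    have hc' : (orderOf w).Coprime (orderOf (g * x * g⁻¹)) := by rw [hoa]; exact hc
    have hd := h w (g * x * g⁻¹) ((mem_valSet_iff k w).mpr hwV) ((mem_valSet_iff k _).mpr haV) hc'
    rw [hwa, hoa] at hd
    rcases hd with hd | hd
    · by_contra hw1
      have h1 : orderOf w ≠ 1 := fun h0 => hw1 (orderOf_eq_one_iff.mp h0)
      obtain ⟨r, hr, hrd⟩ := Nat.exists_prime_and_dvd h1
      have h2 := hd r hr (hrd.trans (Nat.dvd_mul_right _ _))
      exact (Nat.Prime.coprime_iff_not_dvd hr).mp (Nat.Coprime.coprime_dvd_left hrd hc) h2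
    · have hpos : 0 < orderOf x := orderOf_pos x
      have h1 : orderOf w ≤ 1 := by
        by_contra hgt
        have h2 : 2 ≤ orderOf w := by omega
        have h3 : 2 * orderOf x ≤ orderOf w * orderOf x := Nat.mul_le_mul_right _ h2
        omega
      have h2 : 0 < orderOf w := orderOf_pos w
      exact orderOf_eq_one_iff.mp (by omega)

end Cfsg.Agent.S3900
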