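import Mathlib
import Cfsg.Statements.S3903
import Cfsg.Agent.Lib.PiClasses

set_option autoImplicit false
open Cfsg

namespace Cfsg.Agent.S3903

open Cfsg.Agent.Lib.PiClasses
open scoped Pointwise

variable {G : Type*} [Group G] [Finite G]

omit [Finite G] in
theorem eq_of_isPrimePow_of_dvd {m p q : ℕ} (hm : IsPrimePow m) (hp : p.Prime) (hq : q.Prime)
    (hpm : p ∣ m) (hqm : q ∣ m) : p = q := by
  obtain ⟨s, k, hs, -, rfl⟩ := hm
  have hs' : s.Prime := hs.nat_prime
  have h1 := (Nat.prime_dvd_prime_iff_eq hp hs').mp (hp.dvd_of_dvd_pow hpm)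
  have h2 := (Nat.prime_dvd_prime_iff_eq hq hs').mp (hq.dvd_of_dvd_pow hqm)
  omega

/-- elements outside `N`: an element of `N` commuting with a `p`-element outside `N` has only the
prime divisor `p`. -/
theorem prime_of_commute (N : Subgroup G)
    (h : ∀ x : G, x ∉ N → IsPrimePow (orderOf x)) {x n : G} (hx : x ∉ N) (hn : n ∈ N)
    (hc : x * n = n * x) {p q m : ℕ} (hp : p.Prime) (hord : orderOf x = p ^ m) (hm : m ≠ 0)
    (hq : q.Prime) (hqn : q ∣ orderOf n) : q = p := by
  by_contra hne
  -- an element of order `q` in `⟨n⟩`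
  have hn' : orderOf (n ^ (orderOf n / q)) = q := orderOf_pow_orderOf_div (orderOf_pos n).ne' hqn
  set n' := n ^ (orderOf n / q)
  have hn'N : n' ∈ N := N.pow_mem hn _
  have hcomm : Commute x n' := (show Commute x n from hc).pow_right _
  have hcop : Nat.Coprime (orderOf x) (orderOf n') := by
    rw [hord, hn']
    exact Nat.Coprime.pow_left _ ((Nat.coprime_primes hp hq).mpr (Ne.symm hne))
  have hord2 := hcomm.orderOf_mul_eq_mul_orderOf_of_coprime hcop
  have hxn : x * n' ∉ N := fun hmem => hx (by simpa using N.mul_mem hmem (N.inv_mem hn'N))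
  have hpp := h _ hxn
  rw [hord2] at hpp
  have hpd : p ∣ orderOf x * orderOf n' :=
    Dvd.dvd.mul_right (hord ▸ dvd_pow_self p hm) _
  have hqd : q ∣ orderOf x * orderOf n' := Dvd.dvd.mul_left (hn' ▸ dvd_rfl) _
  exact hne (eq_of_isPrimePow_of_dvd hpp hq hp hqd hpd)

/-- an element all of whose order's prime factors equal `p` has `p`-power order. -/
theorem isPGroup_of_primes {H : Type*} [Group H] [Finite H] {p : ℕ}
    (h : ∀ y : H, ∀ q : ℕ, q.Prime → q ∣ orderOf y → q = p) : IsPGroup p H := by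
  intro y
  have h1 := Nat.eq_prime_pow_of_unique_prime_dvd (orderOf_pos y).ne' (fun {d} hd hdv => h y d hd hdv)
  exact ⟨_, by rw [← h1]; exact pow_orderOf_eq_one y⟩

/-- `index P ≤ |N : N ∩ P|` when `G = N P`. -/
theorem index_le_relIndex (N K : Subgroup G) [N.Normal] (hsup : N ⊔ K = ⊤) :
    K.index ≤ (K.subgroupOf N).index := by
  classical
  have hex : ∀ c : G ⧸ K, ∃ n : N, ((n : G) : G ⧸ K) = c := by
    intro c
    obtain ⟨g, rfl⟩ := QuotientGroup.mk_surjective c
    have hg : g ∈ N ⊔ K := by rw [hsup]; trivial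
    obtain ⟨n, hn, q, hq, rfl⟩ := Subgroup.mem_sup_of_normal_left.mp hg
    refine ⟨⟨n, hn⟩, ?_⟩
    rw [QuotientGroup.eq]
    simpa using hq
  choose f hf using hex
  have hinj : Function.Injective (fun c : G ⧸ K => ((f c : N) : N ⧸ K.subgroupOf N)) := by
    intro c d hcd
    have h1 := QuotientGroup.eq.mp hcd
    rw [Subgroup.mem_subgroupOf] at h1
    rw [← hf c, ← hf d, QuotientGroup.eq]
    simpa using h1
  exact Nat.card_le_card_of_injective _ hinj

/-- Every element of `P` outside `N` is central in `P`. This is where the counting takes place. -/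
theorem central_of_counting (N : Subgroup G) [hNn : N.Normal]
    (hcomm : ∀ a b : G, (a : G ⧸ N) * (b : G ⧸ N) = (b : G ⧸ N) * (a : G ⧸ N))
    {p : ℕ} [Fact p.Prime] (P : Sylow p G) (hsup : N ⊔ (P : Subgroup G) = ⊤)
    (hSyl : ∀ x : G, x ∉ N → ∃ Q : Sylow p G, (Q : Subgroup G) = Subgroup.centralizer ({x} : Set G))
    {y : G} (hyP : y ∈ (P : Subgroup G)) (hyN : y ∉ N) :
    ∀ w ∈ (P : Subgroup G), w * y = y * w := by
  classical
  -- the sets
  let SZ := {u : G // u ∈ (P : Subgroup G) ∧ y⁻¹ * u ∈ N ∧ ∀ w ∈ (P : Subgroup G), w * u = u * w}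
  let SP := {u : G // u ∈ (P : Subgroup G) ∧ y⁻¹ * u ∈ N}
  let A := (P : Subgroup G).subgroupOf N
  -- every element of the coset `yN` is conjugate to a central element of `P` in the coset
  have hex : ∀ n : N, ∃ (g : G) (z : SZ), y * (n : G) = g * (z : G) * g⁻¹ := by
    intro n
    have hu : y * (n : G) ∉ N := fun hmem => hyN (by simpa using N.mul_mem hmem (N.inv_mem n.2))
    obtain ⟨Q, hQ⟩ := hSyl _ hu
    obtain ⟨g, rfl⟩ := MulAction.exists_smul_eq G P Q
    have hconj : ∀ a : G, a ∈ Subgroup.centralizer ({y * (n : G)} : Set G) ↔ g⁻¹ * a * g ∈ (P : Subgroup G) := by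
      intro a
      rw [← hQ, Sylow.coe_subgroup_smul, Subgroup.mem_pointwise_smul_iff_inv_smul_mem]
      simp [MulAut.smul_def, MulAut.conj_apply]
    have huC : y * (n : G) ∈ Subgroup.centralizer ({y * (n : G)} : Set G) := by
      rw [Subgroup.mem_centralizer_singleton_iff]
    have hzP := (hconj _).mp huC
    refine ⟨g, ⟨g⁻¹ * (y * (n : G)) * g, hzP, ?_, ?_⟩, ?_⟩
    · rw [← QuotientGroup.eq]
      have h1 : ((g⁻¹ * (y * (n : G)) * g : G) : G ⧸ N) = (y : G ⧸ N) := by
        have hn1 : (((n : G)) : G ⧸ N) = 1 := (QuotientGroup.eq_one_iff _).mpr n.2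
        rw [QuotientGroup.mk_mul, QuotientGroup.mk_mul, QuotientGroup.mk_mul, hn1, mul_one,
          hcomm g⁻¹ y, mul_assoc, ← QuotientGroup.mk_mul]
        simp
      exact h1.symm
    · intro w hw
      have hw' : g * w * g⁻¹ ∈ Subgroup.centralizer ({y * (n : G)} : Set G) := by
        rw [hconj]
        simpa [mul_assoc] using hw
      rw [Subgroup.mem_centralizer_singleton_iff] at hw'
      calc w * (g⁻¹ * (y * (n : G)) * g) = g⁻¹ * ((g * w * g⁻¹) * (y * (n : G))) * g := by group
        _ = g⁻¹ * ((y * (n : G)) * (g * w * g⁻¹)) * g := by rw [hw']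
        _ = g⁻¹ * (y * (n : G)) * g * w := by group
    · group
  choose g z hgz using hex
  -- injection
  have hinj : Function.Injective (fun n : N => (((g n : G) : G ⧸ (P : Subgroup G)), z n)) := by
    intro n₁ n₂ h12
    simp only [Prod.mk.injEq] at h12
    obtain ⟨h1, h2⟩ := h12
    have h3 := QuotientGroup.eq.mp h1
    have hz := (z n₁).2.2.2 _ h3
    have h4 : y * (n₁ : G) = y * (n₂ : G) := by
      rw [hgz n₁, hgz n₂, ← h2]
      have : g n₂ = g n₁ * ((g n₁)⁻¹ * g n₂) := by group
      rw [this]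
      calc g n₁ * ((z n₁ : SZ) : G) * (g n₁)⁻¹
          = g n₁ * (((g n₁)⁻¹ * g n₂) * ((z n₁ : SZ) : G) * ((g n₁)⁻¹ * g n₂)⁻¹) * (g n₁)⁻¹ := by
            rw [hz]; group
        _ = _ := by group
    exact Subtype.ext (mul_left_cancel h4)
  have hcard1 : Nat.card N ≤ (P : Subgroup G).index * Nat.card SZ := by
    have := Nat.card_le_card_of_injective _ hinj
    rwa [Nat.card_prod] at this
  have hcard2 : (P : Subgroup G).index * Nat.card A ≤ Nat.card N := by
    have h1 := index_le_relIndex N (P : Subgroup G) hsup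
    have h2 := Subgroup.card_mul_index A
    calc (P : Subgroup G).index * Nat.card A ≤ A.index * Nat.card A := Nat.mul_le_mul_right _ h1
      _ = Nat.card A * A.index := Nat.mul_comm _ _
      _ = Nat.card N := h2
  have hidx : 0 < (P : Subgroup G).index := Nat.pos_of_ne_zero Subgroup.FiniteIndex.index_ne_zero
  have hcard3 : Nat.card A ≤ Nat.card SZ :=
    Nat.le_of_mul_le_mul_left (hcard2.trans hcard1) hidx
  -- `SP` injects into `A`
  have hcard4 : Nat.card SP ≤ Nat.card A := by
    let f : SP → A := fun u => ⟨⟨y⁻¹ * u.1, u.2.2⟩, by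
      rw [Subgroup.mem_subgroupOf]
      exact (P : Subgroup G).mul_mem ((P : Subgroup G).inv_mem hyP) u.2.1⟩
    refine Nat.card_le_card_of_injective f ?_
    intro a b hab
    have h1 : y⁻¹ * a.1 = y⁻¹ * b.1 := congrArg (fun v : A => ((v : N) : G)) hab
    exact Subtype.ext (mul_left_cancel h1)
  -- the inclusion is onto
  let incl : SZ → SP := fun u => ⟨u.1, u.2.1, u.2.2.1⟩
  have hincl : Function.Injective incl := by
    intro a b hab
    exact Subtype.ext (congrArg (fun v : SP => (v : G)) hab)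
  have hbij := hincl.bijective_of_nat_card_le (hcard4.trans hcard3)
  obtain ⟨u, hu⟩ := hbij.2 ⟨y, hyP, by simp⟩
  have huy : (u : G) = y := congrArg Subtype.val hu
  intro w hw
  have := u.2.2.2 w hw
  rwa [huy] at this

/-- A group with a maximal normal abelian subgroup is solvable. -/
theorem isSolvable_of_normal_coatom {K : Subgroup G} [hKn : K.Normal] (hK : IsCoatom K)
    (hab : ∀ a ∈ K, ∀ b ∈ K, a * b = b * a) : Group.IsSolvable G := by
  classical
  obtain ⟨a, ha⟩ : ∃ a, a ∉ K := by
    by_contra hne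
    push Not at hne
    exact hK.1 (eq_top_iff.mpr fun x _ => hne x)
  have hsup : K ⊔ Subgroup.zpowers a = ⊤ := by
    apply hK.2
    refine lt_of_le_of_ne le_sup_left ?_
    intro heq
    apply ha
    rw [heq]
    exact (le_sup_right : Subgroup.zpowers a ≤ _) (Subgroup.mem_zpowers a)
  have hform : ∀ b : G, ∃ i : ℤ, (b : G ⧸ K) = (a : G ⧸ K) ^ i := by
    intro b
    have hb : b ∈ K ⊔ Subgroup.zpowers a := by rw [hsup]; trivial
    obtain ⟨k, hk, c, hc, rfl⟩ := Subgroup.mem_sup_of_normal_left.mp hb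
    obtain ⟨i, rfl⟩ := Subgroup.mem_zpowers_iff.mp hc
    refine ⟨i, ?_⟩
    have h1 : ((k : G) : G ⧸ K) = 1 := (QuotientGroup.eq_one_iff _).mpr hk
    rw [QuotientGroup.mk_mul, h1, one_mul, QuotientGroup.mk_zpow]
  have : Group.IsSolvable K := Group.isSolvable_of_comm (fun x y => Subtype.ext (hab x x.2 y y.2))
  have hQ : Group.IsSolvable (G ⧸ K) := by
    apply Group.isSolvable_of_comm
    intro x y
    obtain ⟨b, rfl⟩ := QuotientGroup.mk_surjective x
    obtain ⟨c, rfl⟩ := QuotientGroup.mk_surjective y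
    obtain ⟨i, hi⟩ := hform b
    obtain ⟨j, hj⟩ := hform c
    rw [hi, hj]
    exact (Commute.refl _).zpow_zpow _ _
  refine Group.isSolvable_of_ker_le_range K.subtype (QuotientGroup.mk' K) ?_
  rw [QuotientGroup.ker_mk', Subgroup.range_subtype]

/-- The other case: `P` is an abelian maximal subgroup, a Sylow subgroup, self-normalizing. -/
theorem isSolvable_of_sylow_coatom {p : ℕ} [Fact p.Prime] (P : Sylow p G)
    (hco : IsCoatom (P : Subgroup G))
    (hab : ∀ a ∈ (P : Subgroup G), ∀ b ∈ (P : Subgroup G), a * b = b * a)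
    (hself : Subgroup.normalizer ((P : Subgroup G) : Set G) = (P : Subgroup G)) :
    Group.IsSolvable G := by
  classical
  have hle : Subgroup.normalizer ((P : Subgroup G) : Set G) ≤ Subgroup.centralizer ((P : Subgroup G) : Set G) := by
    rw [hself]
    intro a ha
    rw [Subgroup.mem_centralizer_iff]
    exact fun b hb => hab b hb a ha
  set K := (MonoidHom.transferSylow P hle).ker with hKdef
  have hc : K.IsComplement' (P : Subgroup G) := MonoidHom.ker_transferSylow_isComplement' P hle
  have hKn : K.Normal := inferInstance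
  have hnd : ¬ p ∣ Nat.card K := MonoidHom.not_dvd_card_ker_transferSylow P hle
  have habP : IsMulCommutative ↥(P : Subgroup G) := ⟨⟨fun a b => Subtype.ext (hab a a.2 b b.2)⟩⟩
  have hK1 : Nat.card K ≠ 1 := by
    intro h1
    have h2 := hc.card_mul_card
    rw [h1, one_mul] at h2
    exact hco.1 (Subgroup.eq_top_of_card_eq _ h2)
  obtain ⟨q, hq, hqK⟩ := Nat.exists_prime_and_dvd hK1
  have : Fact q.Prime := ⟨hq⟩
  -- the action of `P` on `K`
  let act : MulDistribMulAction ↥(P : Subgroup G) ↥K :=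
    MulDistribMulAction.compHom _ ((MulAut.conjNormal (H := K)).comp (P : Subgroup G).subtype)
  have hsmul : ∀ (g : ↥(P : Subgroup G)) (k : ↥K), ((g • k : ↥K) : G) = (g : G) * k * (g : G)⁻¹ := by
    intro g k
    rfl
  obtain ⟨Q₀⟩ : Nonempty (Sylow q K) := inferInstance
  have hcardSyl : ¬ p ∣ Nat.card (Sylow q K) := fun h =>
    hnd (h.trans ((Q₀.card_dvd_index).trans (Subgroup.index_dvd_card _)))
  obtain ⟨Q, hQ⟩ := (P.isPGroup').nonempty_fixed_point_of_prime_not_dvd_card (Sylow q K) hcardSyl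
  have hQfix : ∀ g : ↥(P : Subgroup G), g • Q = Q := fun g => hQ g
  let Q' : Subgroup G := (Q : Subgroup K).map K.subtype
  have hconj : ∀ g ∈ (P : Subgroup G), ∀ u ∈ Q', g * u * g⁻¹ ∈ Q' := by
    intro g hg u hu
    obtain ⟨k, hk, rfl⟩ := hu
    have h1 : (⟨g, hg⟩ : ↥(P : Subgroup G)) • k ∈ ((Q : Sylow q K) : Subgroup K) := by
      have h2 : (⟨g, hg⟩ : ↥(P : Subgroup G)) • k ∈ (⟨g, hg⟩ : ↥(P : Subgroup G)) • (Q : Subgroup K) :=
        Subgroup.smul_mem_pointwise_smul _ _ _ hk
      rw [← Sylow.pointwise_smul_def, hQfix] at h2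
      exact h2
    exact ⟨_, h1, hsmul _ _⟩
  have hPN : (P : Subgroup G) ≤ Subgroup.normalizer (Q' : Set G) := by
    intro g hg
    rw [Subgroup.mem_normalizer_iff]
    intro u
    constructor
    · exact hconj g hg u
    · intro hu
      have := hconj g⁻¹ ((P : Subgroup G).inv_mem hg) _ hu
      simpa [mul_assoc] using this
  have hQ'K : Q' ≤ K := Subgroup.map_subtype_le _
  have hdisj : ∀ x, x ∈ K → x ∈ (P : Subgroup G) → x = 1 := fun x h1 h2 =>
    Subgroup.disjoint_def.mp hc.disjoint h1 h2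
  -- `Q'` is not contained in `P`
  have hqQ : q ∣ Nat.card Q := Q.dvd_card_of_dvd_card hqK
  have hnot : ¬ Q' ≤ (P : Subgroup G) := by
    intro hle'
    have h1 : (Q : Subgroup K) = ⊥ := by
      rw [Subgroup.eq_bot_iff_forall]
      intro k hk
      apply Subtype.ext
      exact hdisj _ k.2 (hle' ⟨k, hk, rfl⟩)
    have h2 : Nat.card (Q : Subgroup K) = 1 := by rw [h1]; simp
    have h3 : q ∣ 1 := by
      have h4 : Nat.card Q = Nat.card (Q : Subgroup K) := rfl
      rw [h4, h2] at hqQ
      exact hqQ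
    exact hq.one_lt.ne' (Nat.dvd_one.mp h3)
  have hsup : (P : Subgroup G) ⊔ Q' = ⊤ := by
    apply hco.2
    refine lt_of_le_of_ne le_sup_left ?_
    intro heq
    exact hnot (heq ▸ le_sup_right)
  have hKQ : K ≤ Q' := by
    intro k hk
    have hk' : k ∈ (P : Subgroup G) ⊔ Q' := by rw [hsup]; trivial
    have hset := Subgroup.coe_mul_of_left_le_normalizer_right (P : Subgroup G) Q' hPN
    have hk'' : k ∈ ((P : Subgroup G) : Set G) * (Q' : Set G) := by
      rw [← hset]
      exact hk'
    obtain ⟨a, ha, b, hb, rfl⟩ := Set.mem_mul.mp hk''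
    have hbK : b ∈ K := hQ'K hb
    have haK : a ∈ K := by
      have := K.mul_mem hk (K.inv_mem hbK)
      simpa using this
    rw [hdisj a haK ha, one_mul]
    exact hb
  have hKp : IsPGroup q K := by
    intro k
    obtain ⟨k', hk', hkk'⟩ := hKQ k.2
    have hkeq : k' = k := Subtype.ext hkk'
    obtain ⟨n, hn⟩ := (Q.isPGroup') ⟨k', hk'⟩
    refine ⟨n, ?_⟩
    rw [← hkeq]
    have := congrArg Subtype.val hn
    simpa using this
  have hsK : Group.IsSolvable K := by
    have := hKp.isNilpotent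
    infer_instance
  have hcm := commutator_le_of_isComplement' hc habP
  have hsQ : Group.IsSolvable (G ⧸ K) := by
    apply Group.isSolvable_of_comm
    intro x y
    obtain ⟨b, rfl⟩ := QuotientGroup.mk_surjective x
    obtain ⟨c, rfl⟩ := QuotientGroup.mk_surjective y
    have h1 : b * c * b⁻¹ * c⁻¹ ∈ K := by
      have := hcm (Subgroup.commutator_mem_commutator (Subgroup.mem_top b) (Subgroup.mem_top c))
      rwa [commutatorElement_def] at this
    have h2 := (QuotientGroup.eq_one_iff _).mpr h1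
    simp only [QuotientGroup.mk_mul, QuotientGroup.mk_inv] at h2
    have h3 : (b : G ⧸ K) * c * (b : G ⧸ K)⁻¹ = c := mul_inv_eq_one.mp h2
    exact mul_inv_eq_iff_eq_mul.mp h3
  refine Group.isSolvable_of_ker_le_range K.subtype (QuotientGroup.mk' K) ?_
  rw [QuotientGroup.ker_mk', Subgroup.range_subtype]

/-- Let N be a proper normal subgroup of the finite group G such that every element x of G outside N has prime power order and has centralizer C_G(x) a maximal subgroup of G. Then N is solvable. -/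
theorem result {G : Type*} [Group G] [Finite G] (N : Subgroup G) [N.Normal] (hN : N ≠ ⊤)
    (h : ∀ x : G, x ∉ N → IsPrimePow (orderOf x) ∧ IsCoatom (Subgroup.centralizer ({x} : Set G))) : Group.IsSolvable ↥N := by
  classical
  have hpp : ∀ x, x ∉ N → IsPrimePow (orderOf x) := fun x hx => (h x hx).1
  have hco : ∀ x, x ∉ N → IsCoatom (Subgroup.centralizer ({x} : Set G)) := fun x hx => (h x hx).2
  obtain ⟨x₀, hx₀⟩ : ∃ x₀, x₀ ∉ N := by
    by_contra hne
    push Not at hne
    exact hN (eq_top_iff.mpr fun x _ => hne x)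
  by_cases hcase : ∃ x, x ∉ N ∧ N ≤ Subgroup.centralizer ({x} : Set G)
  · -- `N` is a `q`-group
    obtain ⟨x, hx, hle⟩ := hcase
    obtain ⟨q, m, hq, hm, hordx⟩ := hpp x hx
    have hq' : q.Prime := hq.nat_prime
    have : Fact q.Prime := ⟨hq'⟩
    have hpg : IsPGroup q N := by
      refine isPGroup_of_primes ?_
      intro y s hs hsd
      have hcomm := Subgroup.mem_centralizer_singleton_iff.mp (hle y.2)
      rw [Subgroup.orderOf_mk] at hsd
      exact prime_of_commute N hpp hx y.2 hcomm.symm hq' hordx.symm hm.ne' hs hsd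
    have := hpg.isNilpotent
    infer_instance
  push Not at hcase
  have hsup : ∀ x, x ∉ N → Subgroup.centralizer ({x} : Set G) ⊔ N = ⊤ := by
    intro x hx
    apply (hco x hx).2
    refine lt_of_le_of_ne le_sup_left ?_
    intro heq
    exact hcase x hx (by rw [heq]; exact le_sup_right)
  have hcomm : ∀ a b : G, (a : G ⧸ N) * (b : G ⧸ N) = (b : G ⧸ N) * (a : G ⧸ N) := by
    intro a b
    by_cases ha : a ∈ N
    · rw [(QuotientGroup.eq_one_iff a).mpr ha, one_mul, mul_one]
    · have hb : b ∈ Subgroup.centralizer ({a} : Set G) ⊔ N := by rw [hsup a ha]; trivial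
      obtain ⟨c, hc, n, hn, rfl⟩ := Subgroup.mem_sup_of_normal_right.mp hb
      have h1 : ((n : G) : G ⧸ N) = 1 := (QuotientGroup.eq_one_iff n).mpr hn
      have h2 : c * a = a * c := Subgroup.mem_centralizer_singleton_iff.mp hc
      have h3 : ((c * n : G) : G ⧸ N) = (c : G ⧸ N) := by
        rw [QuotientGroup.mk_mul, h1, mul_one]
      rw [h3, ← QuotientGroup.mk_mul, ← QuotientGroup.mk_mul, h2]
  obtain ⟨p, k, hp, hk, hord⟩ := hpp x₀ hx₀
  have hp' : p.Prime := hp.nat_prime
  have : Fact p.Prime := ⟨hp'⟩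
  -- every element outside `N` is a `p`-element
  have hprime : ∀ x, x ∉ N → ∀ q : ℕ, q.Prime → q ∣ orderOf x → q = p := by
    intro x hx q hq hqx
    by_contra hne
    obtain ⟨s, m, hs, hm, hxord⟩ := hpp x hx
    have hs' : s.Prime := hs.nat_prime
    have hqs : q = s := (Nat.prime_dvd_prime_iff_eq hq hs').mp (hq.dvd_of_dvd_pow (hxord ▸ hqx))
    subst hqs
    set a : G ⧸ N := (x₀ : G ⧸ N) with ha
    set b : G ⧸ N := (x : G ⧸ N) with hb
    have ha1 : a ≠ 1 := fun h1 => hx₀ ((QuotientGroup.eq_one_iff x₀).mp h1)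
    have hb1 : b ≠ 1 := fun h1 => hx ((QuotientGroup.eq_one_iff x).mp h1)
    have hoa : orderOf a ∣ p ^ k := by
      rw [hord]
      exact orderOf_map_dvd (QuotientGroup.mk' N) x₀
    have hob : orderOf b ∣ q ^ m := by
      rw [hxord]
      exact orderOf_map_dvd (QuotientGroup.mk' N) x
    obtain ⟨i, -, hi⟩ := (Nat.dvd_prime_pow hp').mp hoa
    obtain ⟨j, -, hj⟩ := (Nat.dvd_prime_pow hq).mp hob
    have hi0 : i ≠ 0 := by
      rintro rfl
      rw [pow_zero, orderOf_eq_one_iff] at hi
      exact ha1 hi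
    have hj0 : j ≠ 0 := by
      rintro rfl
      rw [pow_zero, orderOf_eq_one_iff] at hj
      exact hb1 hj
    have hcop : Nat.Coprime (orderOf a) (orderOf b) := by
      rw [hi, hj]
      exact Nat.Coprime.pow _ _ ((Nat.coprime_primes hp' hq).mpr (Ne.symm hne))
    have hcm : Commute a b := hcomm x₀ x
    have hoab := hcm.orderOf_mul_eq_mul_orderOf_of_coprime hcop
    have hpd : p ∣ orderOf (a * b) := by
      rw [hoab, hi]
      exact Dvd.dvd.mul_right (dvd_pow_self p hi0) _
    have hqd : q ∣ orderOf (a * b) := by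
      rw [hoab, hj]
      exact Dvd.dvd.mul_left (dvd_pow_self q hj0) _
    have hab1 : a * b ≠ 1 := by
      intro h1
      rw [h1, orderOf_one] at hpd
      exact hp'.one_lt.ne' (Nat.dvd_one.mp hpd)
    have hnotN : x₀ * x ∉ N := by
      intro hmem
      apply hab1
      have := (QuotientGroup.eq_one_iff _).mpr hmem
      rwa [QuotientGroup.mk_mul] at this
    have hdiv : orderOf (a * b) ∣ orderOf (x₀ * x) := by
      have := orderOf_map_dvd (QuotientGroup.mk' N) (x₀ * x)
      simpa [ha, hb] using this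
    exact hne (eq_of_isPrimePow_of_dvd (hpp _ hnotN) hq hp' (hqd.trans hdiv) (hpd.trans hdiv))
  -- centralizers of outside elements are `p`-groups
  have hordp : ∀ x, x ∉ N → ∃ m : ℕ, m ≠ 0 ∧ orderOf x = p ^ m := by
    intro x hx
    obtain ⟨s, m, hs, hm, hxord⟩ := hpp x hx
    have hs' : s.Prime := hs.nat_prime
    have hsp : s = p := hprime x hx s hs' (hxord ▸ dvd_pow_self s hm.ne')
    subst hsp
    exact ⟨m, hm.ne', hxord.symm⟩
  have hC : ∀ x, x ∉ N → IsPGroup p (Subgroup.centralizer ({x} : Set G)) := by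
    intro x hx
    refine isPGroup_of_primes ?_
    intro c s hs hsd
    rw [← Subgroup.orderOf_coe] at hsd
    obtain ⟨m, hm, hxm⟩ := hordp x hx
    by_cases hcN : (c : G) ∈ N
    · have hcc : (c : G) * x = x * c := Subgroup.mem_centralizer_singleton_iff.mp c.2
      exact prime_of_commute N hpp hx hcN hcc.symm hp' hxm hm hs hsd
    · exact hprime _ hcN s hs hsd
  by_cases hGp : IsPGroup p G
  · have := (hGp.to_subgroup N).isNilpotent
    infer_instance
  have hSyl : ∀ x, x ∉ N → ∃ Q : Sylow p G, (Q : Subgroup G) = Subgroup.centralizer ({x} : Set G) := by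
    intro x hx
    obtain ⟨Q, hQ⟩ := (hC x hx).exists_le_sylow
    refine ⟨Q, ?_⟩
    rcases eq_or_lt_of_le hQ with h1 | h1
    · exact h1.symm
    · exfalso
      have h2 := (hco x hx).2 _ h1
      apply hGp
      intro g
      obtain ⟨n, hn⟩ := Q.isPGroup' ⟨g, by rw [h2]; trivial⟩
      exact ⟨n, by simpa using congrArg Subtype.val hn⟩
  obtain ⟨P, hPeq⟩ := hSyl x₀ hx₀
  have hx₀P : x₀ ∈ (P : Subgroup G) := by
    rw [hPeq, Subgroup.mem_centralizer_singleton_iff]
  -- `G = N P`
  have hNP : N ⊔ (P : Subgroup G) = ⊤ := by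
    rw [sup_comm, hPeq]
    exact hsup x₀ hx₀
  have hcentral : ∀ y ∈ (P : Subgroup G), y ∉ N → ∀ w ∈ (P : Subgroup G), w * y = y * w :=
    fun y hyP hyN => central_of_counting N hcomm P hNP hSyl hyP hyN
  have hab : ∀ a ∈ (P : Subgroup G), ∀ b ∈ (P : Subgroup G), a * b = b * a := by
    intro a ha b hb
    by_cases haN : a ∈ N
    · have h1 : x₀ * a ∉ N := fun hmem => hx₀ (by simpa using N.mul_mem hmem (N.inv_mem haN))
      have h2 := hcentral _ ((P : Subgroup G).mul_mem hx₀P ha) h1 b hb
      have h3 := hcentral _ hx₀P hx₀ b hb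
      have h4 : x₀ * (a * b) = x₀ * (b * a) := by
        calc x₀ * (a * b) = (x₀ * a) * b := by group
          _ = b * (x₀ * a) := h2.symm
          _ = (b * x₀) * a := by group
          _ = (x₀ * b) * a := by rw [h3]
          _ = x₀ * (b * a) := by group
      exact mul_left_cancel h4
    · exact (hcentral a ha haN b hb).symm
  have hPco : IsCoatom (P : Subgroup G) := by
    rw [hPeq]
    exact hco x₀ hx₀
  have hGs : Group.IsSolvable G := by
    rcases eq_or_lt_of_le (Subgroup.le_normalizer : (P : Subgroup G) ≤ Subgroup.normalizer ((P : Subgroup G) : Set G)) with h1 | h1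
    · exact isSolvable_of_sylow_coatom P hPco hab h1.symm
    · have h2 := hPco.2 _ h1
      have hPn : (P : Subgroup G).Normal := Subgroup.normalizer_eq_top_iff.mp h2
      exact isSolvable_of_normal_coatom hPco hab
  infer_instance

end Cfsg.Agent.S3903
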