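import Mathlib
import Cfsg.Statements.S3910
import Cfsg.Agent.S3909

set_option autoImplicit false
open Cfsg

namespace Cfsg.Agent.S3910

/-- A nontrivial normal subgroup of a nilpotent group meets the centre nontrivially. -/
theorem exists_central_of_normal {Q : Type*} [Group Q] [Group.IsNilpotent Q]
    (N : Subgroup Q) [hN : N.Normal] (hne : N ≠ ⊥) : ∃ a ∈ N, a ≠ 1 ∧ a ∈ Subgroup.center Q := by
  classical
  obtain ⟨n, hn⟩ := Group.IsNilpotent.nilpotent Q
  have hex : ∃ i, ∃ a ∈ N, a ≠ 1 ∧ a ∈ Subgroup.upperCentralSeries Q i := by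
    obtain ⟨b, hb, hb1⟩ := N.bot_or_exists_ne_one.resolve_left hne
    exact ⟨n, b, hb, hb1, by rw [hn]; trivial⟩
  obtain ⟨a, ha, ha1, hai⟩ := Nat.find_spec hex
  rcases hi : Nat.find hex with _ | j
  · rw [hi, Subgroup.upperCentralSeries_zero] at hai
    exact absurd ((Subgroup.mem_bot).mp hai) ha1
  · rw [hi, Subgroup.mem_upperCentralSeries_succ_iff] at hai
    refine ⟨a, ha, ha1, ?_⟩
    rw [Subgroup.mem_center_iff]
    intro g
    have hc : a * g * a⁻¹ * g⁻¹ ∈ Subgroup.upperCentralSeries Q j := hai g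
    have hcN : a * g * a⁻¹ * g⁻¹ ∈ N := by
      have h1 := hN.conj_mem a⁻¹ (N.inv_mem ha) g
      have h2 := N.mul_mem ha h1
      have h3 : a * (g * a⁻¹ * g⁻¹) = a * g * a⁻¹ * g⁻¹ := by group
      rwa [h3] at h2
    by_contra hne'
    have hne1 : a * g * a⁻¹ * g⁻¹ ≠ 1 := by
      intro h
      apply hne'
      have h2 : a * g = g * a := by
        have h3 : a * g * a⁻¹ = g := by
          have := congrArg (· * g) h
          simpa using this
        calc a * g = a * g * a⁻¹ * a := by group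
          _ = g * a := by rw [h3]
      exact h2.symm
    exact Nat.find_min hex (m := j) (by omega) ⟨_, hcN, hne1, hc⟩

theorem step {G : Type*} [Group G] [Finite G] (hB : ∀ A B : Subgroup G, IsMulCommutative ↥A → IsMulCommutative ↥B → Nat.card ↥A = Nat.card ↥B → ∃ g : G, B = A.map (MulAut.conj g).toMonoidHom) (hnil : Group.IsNilpotent G)
    (p : ℕ) [Fact p.Prime] (k : ℕ) (M : Subgroup G) (hMn : M.Normal) (hMc : IsCyclic ↥M)
    (hMcard : Nat.card ↥M = p ^ k) (hd : p ^ (k + 1) ∣ Nat.card G) :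
    ∃ M' : Subgroup G, M'.Normal ∧ IsCyclic ↥M' ∧ Nat.card ↥M' = p ^ (k + 1) := by
  classical
  have hpp : p.Prime := Fact.out
  let Q := G ⧸ M
  haveI hQnil : Group.IsNilpotent Q := inferInstance
  have hdQ : p ∣ Nat.card Q := by
    have h1 : Nat.card G = Nat.card Q * Nat.card ↥M := Subgroup.card_eq_card_quotient_mul_card_subgroup M
    rw [h1, hMcard, pow_succ'] at hd
    rw [mul_comm p] at hd
    exact Nat.dvd_of_mul_dvd_mul_left (pow_pos hpp.pos k) (by simpa [mul_comm] using hd)
  -- central element of order `p` in the quotient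
  obtain ⟨P⟩ : Nonempty (Sylow p Q) := inferInstance
  haveI hPn : (P : Subgroup Q).Normal := by
    have := (Group.isNilpotent_of_finite_tfae (G := Q)).out 0 3
    exact (this.mp hQnil) p inferInstance P
  have hPne : (P : Subgroup Q) ≠ ⊥ := P.ne_bot_of_dvd_card hdQ
  obtain ⟨a, haP, ha1, hac⟩ := exists_central_of_normal (P : Subgroup Q) hPne
  obtain ⟨t, ht⟩ := (IsPGroup.iff_orderOf.mp P.isPGroup') ⟨a, haP⟩
  rw [Subgroup.orderOf_mk] at ht
  have ht0 : t ≠ 0 := by
    rintro rfl
    rw [pow_zero, orderOf_eq_one_iff] at ht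
    exact ha1 ht
  obtain ⟨t', rfl⟩ := Nat.exists_eq_succ_of_ne_zero ht0
  let b : Q := a ^ (p ^ t')
  have hb : orderOf b = p := by
    show orderOf (a ^ (p ^ t')) = p
    rw [orderOf_pow_of_dvd (pow_ne_zero _ hpp.ne_zero), ht]
    · rw [Nat.succ_eq_add_one, pow_succ]
      exact Nat.mul_div_cancel_left _ (pow_pos hpp.pos _)
    · rw [ht]
      exact pow_dvd_pow _ (Nat.le_succ _)
  have hbc : b ∈ Subgroup.center Q := Subgroup.pow_mem _ hac _
  obtain ⟨y, hy⟩ := QuotientGroup.mk_surjective b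
  have hyM : y ∉ M := by
    intro h
    have : b = 1 := by
      rw [← hy]
      exact (QuotientGroup.eq_one_iff y).mpr h
    rw [this, orderOf_one] at hb
    exact hpp.one_lt.ne hb
  have hypM : y ^ p ∈ M := by
    rw [← QuotientGroup.eq_one_iff]
    rw [QuotientGroup.mk_pow, hy, ← hb]
    exact pow_orderOf_eq_one b
  have hyc : ∀ g : G, g * y * g⁻¹ * y⁻¹ ∈ M := by
    intro g
    rw [← QuotientGroup.eq_one_iff]
    have h1 := (Subgroup.mem_center_iff.mp hbc) (g : Q)
    simp only [QuotientGroup.mk_mul, QuotientGroup.mk_inv, hy]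
    rw [h1]
    group
  have hy1 : y ^ (p ^ (k + 1)) = 1 := by
    have h1 : (y ^ p) ^ (p ^ k) = 1 := by
      have : (⟨y ^ p, hypM⟩ : ↥M) ^ (p ^ k) = 1 := by
        rw [← hMcard]
        exact pow_card_eq_one'
      exact congrArg Subtype.val this
    rw [pow_succ', pow_mul]
    exact h1
  obtain ⟨j, hj, hyj⟩ := (Nat.dvd_prime_pow hpp).mp (orderOf_dvd_of_pow_eq_one hy1)
  have hjk : j = k + 1 := by
    by_contra hne
    have hjle : j ≤ k := by omega
    have hdvd : p ^ j ∣ Nat.card ↥M := by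
      rw [hMcard]
      exact pow_dvd_pow p hjle
    obtain ⟨K, hK⟩ := Sylow.exists_subgroup_card_pow_prime p hdvd
    let A : Subgroup G := K.map M.subtype
    have hAM : A ≤ M := Subgroup.map_subtype_le K
    have hAcard : Nat.card ↥A = orderOf y := by
      have : Nat.card ↥A = Nat.card ↥K := Nat.card_congr (K.equivMapOfInjective _ M.subtype_injective).symm.toEquiv
      rw [this, hK, hyj]
    have hAb : IsMulCommutative ↥A := by
      refine ⟨⟨?_⟩⟩
      rintro ⟨a, ha⟩ ⟨b, hb⟩
      apply Subtype.ext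
      have ha' := hAM ha
      have hb' := hAM hb
      letI := IsCyclic.commGroup (α := ↥M)
      have := mul_comm (⟨a, ha'⟩ : ↥M) ⟨b, hb'⟩
      show a * b = b * a
      exact congrArg (fun v : ↥M => (v : G)) this
    exact hyM (Cfsg.Agent.S3909.mem_of_abelian_subgroup hB M A hAM hAb y hAcard)
  subst hjk
  have hcardy : Nat.card ↥(Subgroup.zpowers y) = p ^ (k + 1) := by
    rw [Nat.card_zpowers, hyj]
  have hMle : M ≤ Subgroup.zpowers y := by
    have h1 : Subgroup.zpowers (y ^ p) ≤ M := by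
      rw [Subgroup.zpowers_le]
      exact hypM
    have h2 : Nat.card ↥(Subgroup.zpowers (y ^ p)) = p ^ k := by
      rw [Nat.card_zpowers, orderOf_pow_of_dvd hpp.ne_zero, hyj, pow_succ']
      · exact Nat.mul_div_cancel_left _ hpp.pos
      · rw [hyj]
        exact dvd_pow_self p (Nat.succ_ne_zero k)
    have h3 : Subgroup.zpowers (y ^ p) = M := by
      apply Subgroup.eq_of_le_of_card_ge h1
      rw [h2, hMcard]
    rw [← h3, Subgroup.zpowers_le]
    exact Subgroup.pow_mem _ (Subgroup.mem_zpowers y) p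
  refine ⟨Subgroup.zpowers y, ⟨?_⟩, inferInstance, hcardy⟩
  rintro n ⟨i, rfl⟩ g
  have h1 : g * y * g⁻¹ ∈ Subgroup.zpowers y := by
    have h2 := hMle (hyc g)
    have h3 : g * y * g⁻¹ = g * y * g⁻¹ * y⁻¹ * y := by group
    rw [h3]
    exact Subgroup.mul_mem _ h2 (Subgroup.mem_zpowers y)
  have h4 : g * (fun x => y ^ x) i * g⁻¹ = (g * y * g⁻¹) ^ i := by
    show g * y ^ i * g⁻¹ = (g * y * g⁻¹) ^ i
    exact (conj_zpow).symm
  rw [h4]
  exact Subgroup.zpow_mem _ h1 i

/-- A finite nilpotent group in which any two abelian subgroups of the same order are conjugate is cyclic. -/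
theorem result {G : Type*} [Group G] [Finite G] (hB : ∀ A B : Subgroup G, IsMulCommutative ↥A → IsMulCommutative ↥B → Nat.card ↥A = Nat.card ↥B → ∃ g : G, B = A.map (MulAut.conj g).toMonoidHom) (hnil : Group.IsNilpotent G) : IsCyclic G := by
  haveI : IsZGroup G := by
    refine ⟨?_⟩
    intro p hp P
    haveI : Fact p.Prime := ⟨hp⟩
    have hcard := P.card_eq_multiplicity
    have hall : ∀ k : ℕ, p ^ k ∣ Nat.card G → ∃ M : Subgroup G, M.Normal ∧ IsCyclic ↥M ∧ Nat.card ↥M = p ^ k := by
      intro k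
      induction k with
      | zero =>
        intro _
        refine ⟨⊥, inferInstance, inferInstance, by simp⟩
      | succ k ih =>
        intro hd
        obtain ⟨M, hMn, hMc, hMcard⟩ := ih (dvd_trans (pow_dvd_pow p (Nat.le_succ k)) hd)
        exact step hB hnil p k M hMn hMc hMcard hd
    obtain ⟨M, hMn, hMc, hMcard⟩ := hall ((Nat.card G).factorization p) (Nat.ordProj_dvd _ _)
    let S : Sylow p G := Sylow.ofCard M hMcard
    haveI hS : (S : Subgroup G).Normal := by
      show M.Normal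
      exact hMn
    letI := Sylow.unique_of_normal S hS
    have hPS : P = S := Subsingleton.elim _ _
    rw [hPS]
    exact hMc
  infer_instance

end Cfsg.Agent.S3910
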