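import Mathlib
import Cfsg.Statements.S3913
import Cfsg.Agent.Lib.AbConjD
-- import your own Cfsg.Agent.* helpers here

set_option autoImplicit false
open Cfsg

namespace Cfsg.Agent.S3913

open scoped Pointwise
open Cfsg.Agent.Lib.AbConj Cfsg.Agent.Lib.Coprime Cfsg.Agent.Lib.PCore Cfsg.Agent.S3911
  Cfsg.Agent.S3912

variable {G : Type*} [Group G] [Finite G]

theorem sylow_le_of_hall (T : Subgroup G) [hTn : T.Normal] (hc : (Nat.card T).Coprime T.index)
    {r : ℕ} [hr : Fact r.Prime] (hd : r ∣ Nat.card T) (P : Sylow r G) : (P : Subgroup G) ≤ T := by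
  have hcop : T.index.Coprime r := by
    apply (Nat.Prime.coprime_iff_not_dvd hr.out).mpr ?_ |>.symm
    intro h
    have h1 := Nat.dvd_gcd hd h
    rw [hc] at h1
    exact hr.out.one_lt.ne' (Nat.dvd_one.mp h1)
  have h1 : (P : Subgroup G).map (QuotientGroup.mk' T) = ⊥ := by
    apply eq_bot_of_isPGroup_of_coprime (P.2.map _)
    exact Nat.Coprime.coprime_dvd_left (Subgroup.card_subgroup_dvd_card _) hcop
  rw [Subgroup.map_eq_bot_iff, QuotientGroup.ker_mk'] at h1
  exact h1

theorem isZGroup_quot (T : Subgroup G) [hTn : T.Normal]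
    (h : ∀ (r : ℕ), r.Prime → ∀ P : Sylow r G, (P : Subgroup G) ≤ T ∨ IsCyclic (P : Subgroup G)) :
    IsZGroup (G ⧸ T) := by
  refine ⟨fun r hr Pb => ?_⟩
  have : Fact r.Prime := ⟨hr⟩
  have hs := QuotientGroup.mk'_surjective T
  obtain ⟨P, rfl⟩ := Sylow.mapSurjective_surjective hs r Pb
  rcases h r hr P with h1 | h1
  · have h2 : (P : Subgroup G).map (QuotientGroup.mk' T) = ⊥ := by
      rw [Subgroup.map_eq_bot_iff, QuotientGroup.ker_mk']
      exact h1
    have h3 : ((P.mapSurjective hs : Sylow r (G ⧸ T)) : Subgroup (G ⧸ T)) = ⊥ := by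
      rw [Sylow.coe_mapSurjective, h2]
    rw [h3]
    infer_instance
  · exact isCyclic_of_surjective _ ((QuotientGroup.mk' T).subgroupMap_surjective P)

/-- A non-cyclic `r`-subgroup of exponent `r`. -/
theorem nonCyc_of_noncyclic {r : ℕ} [hr : Fact r.Prime] (P : Subgroup G) (hP : IsPGroup r P)
    (hexp : ∀ x ∈ P, x ^ r = 1) (hnc : ¬ IsCyclic P) : NonCyc r G := by
  have hrp := hr.out
  have hnt : Nontrivial P := by
    by_contra h
    rw [not_nontrivial_iff_subsingleton] at h
    exact hnc inferInstance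
  have hcnt : Nontrivial (Subgroup.center P) := hP.center_nontrivial
  obtain ⟨c, hc⟩ := exists_ne (1 : Subgroup.center P)
  have hc1 : ((c : P) : G) ≠ 1 := fun h => hc (Subtype.ext (Subtype.ext h))
  have hcord : orderOf ((c : P) : G) = r := orderOf_eq_prime (hexp _ (c : P).2) hc1
  have hex : ∃ y ∈ P, y ∉ Subgroup.zpowers ((c : P) : G) := by
    by_contra hcon
    push Not at hcon
    apply hnc
    have h1 : P = Subgroup.zpowers ((c : P) : G) :=
      le_antisymm hcon (Subgroup.zpowers_le.mpr (c : P).2)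
    have h2 : IsCyclic (Subgroup.zpowers ((c : P) : G)) := inferInstance
    rw [h1]
    exact h2
  obtain ⟨y, hy, hyz⟩ := hex
  have hy1 : y ≠ 1 := by
    rintro rfl
    exact hyz (Subgroup.one_mem _)
  refine ⟨(c : P), y, hcord, orderOf_eq_prime (hexp y hy) hy1, ?_, hyz⟩
  have h1 := (Subgroup.mem_center_iff.mp c.2) ⟨y, hy⟩
  exact (congrArg Subtype.val h1).symm

theorem q1_cyclic : IsCyclic (QuaternionGroup (2 ^ 0)) := by
  have : NeZero ((2 : ℕ) ^ 0) := ⟨by norm_num⟩
  apply isCyclic_of_orderOf_eq_card (QuaternionGroup.xa 0)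
  rw [QuaternionGroup.orderOf_xa, nat_card_Q]
  norm_num

/-- The main theorem in the `SC` form. -/
theorem main {G : Type*} [Group G] [Finite G] [hsol : Group.IsSolvable G] (hB : HB G) : SC G := by
  classical
  have hf2 : Fact (Nat.Prime 2) := ⟨Nat.prime_two⟩
  -- maximal abelian normal Hall subgroup
  have hne : {T : Subgroup G | T.Normal ∧ (∀ a ∈ T, ∀ b ∈ T, a * b = b * a) ∧
      (Nat.card T).Coprime T.index}.Nonempty := by
    refine ⟨⊥, inferInstance, ?_, ?_⟩
    · intro a ha b hb
      rw [Subgroup.mem_bot] at ha hb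
      rw [ha, hb]
    · rw [Subgroup.card_bot]
      exact Nat.coprime_one_left _
  obtain ⟨T, ⟨hTn, hTab, hc⟩, hmax⟩ := wellFounded_gt.has_min _ hne
  have := hTn
  -- no non-cyclic prime outside `T`
  have hnoNC : ∀ (r : ℕ) [Fact r.Prime], ¬ r ∣ Nat.card T → ¬ NonCyc r G := by
    intro r hr hrT hNC
    have hrp := hr.out
    obtain ⟨P₀, hP₀n, hP₀ab, -⟩ := normal_sylow_of_nonCyc _ G rfl hB hNC
    obtain ⟨x, y, hx, -⟩ := id hNC
    have hrG : r ∣ Nat.card G := by
      rw [← hx]
      exact orderOf_dvd_natCard x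
    have hP₀ne : (P₀ : Subgroup G) ≠ ⊥ := P₀.ne_bot_of_dvd_card hrG
    obtain ⟨k, hk⟩ := IsPGroup.iff_card.mp P₀.2
    have hk0 : k ≠ 0 := by
      rintro rfl
      exact hP₀ne (Subgroup.card_eq_one.mp (by simpa using hk))
    have hcopTr : (Nat.card T).Coprime r :=
      ((Nat.Prime.coprime_iff_not_dvd hrp).mpr hrT).symm
    have hcopP : (Nat.card T).Coprime (Nat.card (P₀ : Subgroup G)) := by
      rw [hk]
      exact Nat.Coprime.pow_right k hcopTr
    have hdisj : Disjoint T (P₀ : Subgroup G) := Subgroup.disjoint_of_coprime_natCard hcopP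
    have hcomm : ∀ a ∈ T, ∀ b ∈ (P₀ : Subgroup G), a * b = b * a := fun a ha b hb =>
      Subgroup.commute_of_normal_of_disjoint T P₀ hTn hP₀n hdisj a b ha hb
    have hmem : (T ⊔ (P₀ : Subgroup G)) ∈ {T : Subgroup G | T.Normal ∧
        (∀ a ∈ T, ∀ b ∈ T, a * b = b * a) ∧ (Nat.card T).Coprime T.index} := by
      refine ⟨Subgroup.sup_normal _ _, comm_sup T P₀ hTab hP₀ab hcomm, ?_⟩
      apply Nat.Coprime.symm
      apply Nat.coprime_of_dvd
      intro s hs hs1 hs2
      rw [card_sup_of_commute T P₀ hcomm hdisj] at hs2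
      rcases (Nat.Prime.dvd_mul hs).mp hs2 with h | h
      · have h1 : (T ⊔ (P₀ : Subgroup G)).index ∣ T.index :=
          Subgroup.index_dvd_of_le le_sup_left
        have h2 := Nat.dvd_gcd h (hs1.trans h1)
        rw [hc] at h2
        exact hs.one_lt.ne' (Nat.dvd_one.mp h2)
      · have h1 : (T ⊔ (P₀ : Subgroup G)).index ∣ (P₀ : Subgroup G).index :=
          Subgroup.index_dvd_of_le le_sup_right
        rw [hk] at h
        have h2 : s = r := (Nat.prime_dvd_prime_iff_eq hs hrp).mp (hs.dvd_of_dvd_pow h)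
        subst h2
        exact P₀.not_dvd_index (hs1.trans h1)
    refine hmax _ hmem (lt_of_le_of_ne le_sup_left ?_)
    intro heq
    have hle : (P₀ : Subgroup G) ≤ T := by
      rw [heq]; exact le_sup_right
    apply hrT
    refine dvd_trans ?_ (Subgroup.card_dvd_of_le hle)
    rw [hk]
    exact dvd_pow_self r hk0
  have hS3908 := Cfsg.Agent.S3908.result hB
  -- the structure of Sylow subgroups
  have hstr : ∀ (r : ℕ), r.Prime → ∀ P : Sylow r G, (P : Subgroup G) ≤ T ∨ IsCyclic (P : Subgroup G) ∨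
      (r = 2 ∧ Nonempty (↥(P : Subgroup G) ≃* QuaternionGroup 2)) := by
    intro r hr P
    have hrf : Fact r.Prime := ⟨hr⟩
    by_cases hrT : r ∣ Nat.card T
    · exact Or.inl (sylow_le_of_hall T hc hrT P)
    right
    by_cases hcyc : IsCyclic (P : Subgroup G)
    · exact Or.inl hcyc
    right
    have hNC := hnoNC r hrT
    by_cases hr2 : r = 2
    · subst hr2
      refine ⟨rfl, ?_⟩
      rcases hS3908.1 P with h | h | ⟨k, ⟨φ⟩⟩
      · exact absurd h hcyc
      · exact absurd (nonCyc_of_noncyclic (P : Subgroup G) P.2 h.2 hcyc) hNC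
      · have hk : k = 0 ∨ k = 1 ∨ 2 ≤ k := by omega
        rcases hk with rfl | rfl | hk
        · exfalso
          apply hcyc
          have := q1_cyclic
          exact isCyclic_of_surjective φ.symm φ.symm.surjective
        · exact ⟨φ⟩
        · exact (no_Q hB P hk φ).elim
    · rcases hS3908.2 r hr2 P with h | h
      · exact absurd h hcyc
      · exact absurd (nonCyc_of_noncyclic (P : Subgroup G) P.2 h hcyc) hNC
  by_cases hQ : ∃ P₂ : Sylow 2 G, ¬ (P₂ : Subgroup G) ≤ T ∧
      Nonempty (↥(P₂ : Subgroup G) ≃* QuaternionGroup 2)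
  · obtain ⟨P₂, hP₂T, ⟨φ⟩⟩ := hQ
    have hT2 : (Nat.card T).Coprime 2 := by
      apply Nat.Coprime.symm
      apply (Nat.Prime.coprime_iff_not_dvd Nat.prime_two).mpr
      intro h
      exact hP₂T (sylow_le_of_hall T hc h P₂)
    let π : G →* G ⧸ T := QuotientGroup.mk' T
    have hs : Function.Surjective π := QuotientGroup.mk'_surjective T
    have hBq : HB (G ⧸ T) := Cfsg.Agent.S3912.result hB inferInstance T
    have hodd : ∀ (r : ℕ), r.Prime → r ≠ 2 → ∀ S : Sylow r (G ⧸ T), IsCyclic (S : Subgroup (G ⧸ T)) := by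
      intro r hr hr2 S
      have : Fact r.Prime := ⟨hr⟩
      obtain ⟨P, rfl⟩ := Sylow.mapSurjective_surjective hs r S
      rcases hstr r hr P with h1 | h1 | ⟨h1, -⟩
      · have h2 : (P : Subgroup G).map π = ⊥ := by
          rw [Subgroup.map_eq_bot_iff, QuotientGroup.ker_mk']
          exact h1
        have h3 : ((P.mapSurjective hs : Sylow r (G ⧸ T)) : Subgroup (G ⧸ T)) = ⊥ := by
          rw [Sylow.coe_mapSurjective, h2]
        rw [h3]
        infer_instance
      · exact isCyclic_of_surjective _ (π.subgroupMap_surjective P)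
      · exact absurd h1 hr2
    have hdisj : Disjoint (P₂ : Subgroup G) T := by
      apply Subgroup.disjoint_of_coprime_natCard
      obtain ⟨k, hk⟩ := IsPGroup.iff_card.mp P₂.2
      rw [hk]
      exact (Nat.Coprime.pow_right k hT2).symm
    let ι : QuaternionGroup 2 →* G ⧸ T :=
      π.comp ((P₂ : Subgroup G).subtype.comp φ.symm.toMonoidHom)
    have hιinj : Function.Injective ι := by
      rw [injective_iff_map_eq_one]
      intro w hw
      have h1 : ((φ.symm w : (P₂ : Subgroup G)) : G) ∈ T := by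
        rw [← QuotientGroup.ker_mk' T]
        exact hw
      have h2 := Subgroup.disjoint_def.mp hdisj (φ.symm w).2 h1
      have h3 : φ.symm w = 1 := Subtype.ext h2
      simpa using h3
    let Qb : Sylow 2 (G ⧸ T) := P₂.mapSurjective hs
    have hrange : ι.range = (Qb : Subgroup (G ⧸ T)) := by
      rw [Sylow.coe_mapSurjective]
      ext x
      constructor
      · rintro ⟨w, rfl⟩
        exact ⟨_, (φ.symm w).2, rfl⟩
      · rintro ⟨y, hy, rfl⟩
        exact ⟨φ ⟨y, hy⟩, by simp [ι]⟩
    have hdb := q8d_of_hom (Qb : Subgroup (G ⧸ T)) ι hιinj hrange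
    have hQn : (Qb : Subgroup (G ⧸ T)).Normal := q8_normal hBq hodd Qb hdb
    let T' : Subgroup G := (Qb : Subgroup (G ⧸ T)).comap π
    have hT'n : T'.Normal := hQn.comap π
    have hTT' : T ≤ T' := by
      intro x hx
      show π x ∈ (Qb : Subgroup (G ⧸ T))
      have : π x = 1 := by
        rw [← MonoidHom.mem_ker, QuotientGroup.ker_mk']
        exact hx
      rw [this]
      exact Subgroup.one_mem _
    have hcardT' : Nat.card T' = Nat.card T * 8 := by
      have h1 := card_comap_mk T (Qb : Subgroup (G ⧸ T))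
      rw [hdb.card, mul_comm] at h1
      exact h1
    have hP₂T' : (P₂ : Subgroup G) ≤ T' := by
      intro x hx
      show π x ∈ (Qb : Subgroup (G ⧸ T))
      rw [Sylow.coe_mapSurjective]
      exact ⟨x, hx, rfl⟩
    have hQT' : ∀ Q₀ : Sylow 2 G, (Q₀ : Subgroup G) ≤ T' := by
      intro Q₀ x hx
      obtain ⟨g, rfl⟩ := MulAction.exists_smul_eq G P₂ Q₀
      have h1 : x ∈ MulAut.conj g • (P₂ : Subgroup G) := hx
      rw [mem_conj_smul_iff] at h1
      have h2 := hT'n.conj_mem _ (hP₂T' h1) g
      convert h2 using 1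
      group
    have hq : ∀ Q₀ : Sylow 2 G, ∃ i j : G, Q8D (Q₀ : Subgroup G) i j := by
      intro Q₀
      let e := Sylow.equiv P₂ Q₀
      let ι₀ : QuaternionGroup 2 →* G :=
        (Q₀ : Subgroup G).subtype.comp (e.toMonoidHom.comp φ.symm.toMonoidHom)
      have hinj : Function.Injective ι₀ := by
        intro a b hab
        have h1 := Subtype.ext hab
        exact φ.symm.injective (e.injective h1)
      have hr : ι₀.range = (Q₀ : Subgroup G) := by
        ext x
        constructor
        · rintro ⟨w, rfl⟩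
          exact (e (φ.symm w)).2
        · intro hx
          refine ⟨φ (e.symm ⟨x, hx⟩), ?_⟩
          simp [ι₀]
      exact ⟨_, _, q8d_of_hom (Q₀ : Subgroup G) ι₀ hinj hr⟩
    have hS : SS T T' := ⟨hTn, hT'n, hTab, hT2, hTT', hcardT', hQT'⟩
    have hcT' : (Nat.card T').Coprime T'.index := by
      apply Nat.Coprime.symm
      apply Nat.coprime_of_dvd
      intro s hs' hs1 hs2
      rw [hcardT'] at hs2
      rcases (Nat.Prime.dvd_mul hs').mp hs2 with h | h
      · have h1 : T'.index ∣ T.index := Subgroup.index_dvd_of_le hTT'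
        have h2 := Nat.dvd_gcd h (hs1.trans h1)
        rw [hc] at h2
        exact hs'.one_lt.ne' (Nat.dvd_one.mp h2)
      · have h8 : (8 : ℕ) = 2 ^ 3 := by norm_num
        rw [h8] at h
        have h2 : s = 2 := (Nat.prime_dvd_prime_iff_eq hs' Nat.prime_two).mp (hs'.dvd_of_dvd_pow h)
        subst h2
        have h1 : T'.index ∣ (P₂ : Subgroup G).index := Subgroup.index_dvd_of_le hP₂T'
        exact P₂.not_dvd_index (hs1.trans h1)
    have hZ : ∀ (r : ℕ), r.Prime → ∀ P : Sylow r G, (P : Subgroup G) ≤ T' ∨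
        IsCyclic (P : Subgroup G) := by
      intro r hr P
      rcases hstr r hr P with h1 | h1 | ⟨h1, -⟩
      · exact Or.inl (h1.trans hTT')
      · exact Or.inr h1
      · subst h1
        exact Or.inl (hQT' P)
    haveI := isZGroup_quot T' hZ
    exact sc_of_normal_hall T' hcT' (fun U U' hU hU' hcard => star hB hS hc hq U U' hU hU' hcard)
  · have hZ : ∀ (r : ℕ), r.Prime → ∀ P : Sylow r G, (P : Subgroup G) ≤ T ∨
        IsCyclic (P : Subgroup G) := by
      intro r hr P
      rcases hstr r hr P with h1 | h1 | ⟨h1, h2⟩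
      · exact Or.inl h1
      · exact Or.inr h1
      · subst h1
        left
        by_contra h3
        exact hQ ⟨P, h3, h2⟩
    haveI := isZGroup_quot T hZ
    exact sc_of_normal_hall T hc (fun U U' hU hU' hcard => hB U U'
      (isMulCommutative_of_forall U fun a ha b hb => hTab a (hU ha) b (hU hb))
      (isMulCommutative_of_forall U' fun a ha b hb => hTab a (hU' ha) b (hU' hb)) hcard)

/-- If G is a finite solvable group in which any two abelian subgroups of the same order are conjugate, then any two subgroups of G of the same order are conjugate. -/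
theorem result {G : Type*} [Group G] [Finite G] (hB : ∀ A B : Subgroup G, IsMulCommutative ↥A → IsMulCommutative ↥B → Nat.card ↥A = Nat.card ↥B → ∃ g : G, B = A.map (MulAut.conj g).toMonoidHom) (hsol : Group.IsSolvable G) (A B : Subgroup G)
    (h : Nat.card ↥A = Nat.card ↥B) : ∃ g : G, B = A.map (MulAut.conj g).toMonoidHom := by
  have := hsol
  exact main hB A B h

end Cfsg.Agent.S3913
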