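import Mathlib
import Cfsg.Statements.S3918
import Cfsg.Agent.S0126
import Cfsg.Agent.S3917

set_option autoImplicit false
open Cfsg

namespace Cfsg.Agent.S3918

variable {G : Type*} [Group G] [Finite G] {p : ℕ} [Fact p.Prime]

theorem card_lt_of_lt {H K : Subgroup G} (h : H < K) : Nat.card ↥H < Nat.card ↥K :=
  lt_of_le_of_ne (Subgroup.card_le_of_le h.le)
    (fun e => h.ne (Subgroup.eq_of_le_of_card_ge h.le e.ge))

/-- A nonabelian `p`-group has order at least `p^3`. -/
theorem three_le (hG : IsPGroup p G) (hna : ¬ IsMulCommutative G) (n : ℕ) (hn : Nat.card G = p ^ n) :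
    3 ≤ n := by
  have hpp : p.Prime := Fact.out
  by_contra hlt
  apply hna
  have hcomm : ∀ a b : G, a * b = b * a := by
    have : n = 0 ∨ n = 1 ∨ n = 2 := by omega
    rcases this with rfl | rfl | rfl
    · rw [pow_zero] at hn
      intro a b
      haveI := (Nat.card_eq_one_iff_unique.mp hn).1
      exact Subsingleton.elim _ _
    · rw [pow_one] at hn
      intro a b
      haveI : Fact (Nat.card G).Prime := ⟨by rw [hn]; exact hpp⟩
      haveI := isCyclic_of_prime_card (α := G) rfl
      letI := IsCyclic.commGroup (α := G)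
      exact mul_comm a b
    · exact IsPGroup.commutative_of_card_eq_prime_sq hn
  exact ⟨⟨hcomm⟩⟩

/-- Main bound. -/
theorem card_le (hG : IsPGroup p G) (A : Subgroup G) (hAn : A.Normal) (hAe : Cfsg.IsElementaryAbelian p A)
    (hAc : Nat.card ↥A = p ^ 2) (hcen : Subgroup.centralizer (A : Set G) ≤ A) :
    Nat.card G ≤ p ^ 3 := by
  classical
  have hpp : p.Prime := Fact.out
  have hAne : A ≠ ⊥ := by
    rintro rfl
    rw [Subgroup.card_bot] at hAc
    have := Nat.one_lt_pow (n := 2) (by norm_num) hpp.one_lt
    omega
  obtain ⟨z, hzA, hz1, hzc⟩ := Cfsg.Agent.Lib.OddPGroup.exists_central_of_normal hG A hAn hAne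
  have hzord : orderOf z = p := orderOf_eq_prime (hAe.2 z hzA) hz1
  have hzle : Subgroup.zpowers z ≤ A := by
    rw [Subgroup.zpowers_le]
    exact hzA
  have hzcard : Nat.card ↥(Subgroup.zpowers z) = p := by rw [Nat.card_zpowers, hzord]
  obtain ⟨v, hvA, hvz⟩ : ∃ v ∈ A, v ∉ Subgroup.zpowers z := by
    by_contra hno
    push Not at hno
    have : A ≤ Subgroup.zpowers z := hno
    have h1 := Subgroup.card_le_of_le this
    rw [hAc, hzcard] at h1
    nlinarith [hpp.two_le]
  -- the centralizer of `v` lies in `A`
  have hCle : Subgroup.centralizer ({v} : Set G) ≤ A := by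
    refine le_trans ?_ hcen
    intro g hg
    rw [Subgroup.mem_centralizer_iff] at hg ⊢
    -- `A` is generated by `z` and `v`
    have hsup : A ≤ Subgroup.zpowers z ⊔ Subgroup.zpowers v := by
      have hle : Subgroup.zpowers z ⊔ Subgroup.zpowers v ≤ A := by
        apply sup_le hzle
        rw [Subgroup.zpowers_le]
        exact hvA
      have hdvd : Nat.card ↥(Subgroup.zpowers z ⊔ Subgroup.zpowers v) ∣ p ^ 2 := by
        rw [← hAc]
        exact Subgroup.card_dvd_of_le hle
      obtain ⟨j, hj, hj2⟩ := (Nat.dvd_prime_pow hpp).mp hdvd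
      have hlt : p < Nat.card ↥(Subgroup.zpowers z ⊔ Subgroup.zpowers v) := by
        have h1 : Subgroup.zpowers z < Subgroup.zpowers z ⊔ Subgroup.zpowers v := by
          refine lt_of_le_of_ne le_sup_left ?_
          intro h
          apply hvz
          rw [h]
          exact (le_sup_right : Subgroup.zpowers v ≤ _) (Subgroup.mem_zpowers v)
        have := card_lt_of_lt h1
        rwa [hzcard] at this
      have hj3 : j = 2 := by
        rw [hj2] at hlt
        by_contra hne
        have : j = 0 ∨ j = 1 := by omega
        rcases this with rfl | rfl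
        · simp at hlt
          have := hpp.two_le
          omega
        · simp at hlt
      have : Subgroup.zpowers z ⊔ Subgroup.zpowers v = A := by
        apply Subgroup.eq_of_le_of_card_ge hle
        rw [hj2, hj3, hAc]
      exact this.ge
    have hgmem : Subgroup.zpowers z ⊔ Subgroup.zpowers v ≤ Subgroup.centralizer ({g} : Set G) := by
      apply sup_le
      · rw [Subgroup.zpowers_le, Subgroup.mem_centralizer_iff]
        rintro _ rfl
        exact (Subgroup.mem_center_iff.mp hzc _)
      · rw [Subgroup.zpowers_le, Subgroup.mem_centralizer_iff]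
        rintro _ rfl
        exact (hg v rfl).symm
    intro h hh
    have := hgmem (hsup hh)
    rw [Subgroup.mem_centralizer_iff] at this
    exact (this g rfl).symm
  have hCcard : Nat.card ↥(Subgroup.centralizer ({v} : Set G)) ≤ p ^ 2 := by
    rw [← hAc]
    exact Subgroup.card_le_of_le hCle
  -- the index of the centralizer is at most `p`
  have hidx : (Subgroup.centralizer ({v} : Set G)).index ≤ p := by
    have hi : (Subgroup.centralizer ({v} : Set G)).index = (MulAction.orbit (ConjAct G) v).ncard := by
      rw [Subgroup.centralizer_eq_comap_stabilizer]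
      exact (Subgroup.index_comap_of_surjective (MulAction.stabilizer (ConjAct G) v)
        (f := (ConjAct.toConjAct (G := G)).toMonoidHom) (ConjAct.toConjAct (G := G)).surjective).trans
        (MulAction.index_stabilizer _ _)
    have hsub : MulAction.orbit (ConjAct G) v ⊆ (A : Set G) \ (Subgroup.zpowers z : Set G) := by
      rintro _ ⟨g, rfl⟩
      have hsm : (g • v : G) = (ConjAct.ofConjAct g) * v * (ConjAct.ofConjAct g)⁻¹ := ConjAct.smul_def g v
      constructor
      · show (g • v : G) ∈ A
        rw [hsm]
        exact hAn.conj_mem v hvA _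
      · intro hmem
        apply hvz
        have hmem2 : (ConjAct.ofConjAct g) * v * (ConjAct.ofConjAct g)⁻¹ ∈ Subgroup.zpowers z := by
          rw [← hsm]
          exact hmem
        obtain ⟨i, hi⟩ := hmem2
        refine ⟨i, ?_⟩
        have hcz : (ConjAct.ofConjAct g) * z ^ i * (ConjAct.ofConjAct g)⁻¹ = z ^ i := by
          have : z ^ i ∈ Subgroup.center G := Subgroup.zpow_mem _ hzc i
          have h2 := Subgroup.mem_center_iff.mp this (ConjAct.ofConjAct g)
          rw [h2]
          group
        dsimp only at hi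
        have h3 : (ConjAct.ofConjAct g) * z ^ i * (ConjAct.ofConjAct g)⁻¹ = (ConjAct.ofConjAct g) * v * (ConjAct.ofConjAct g)⁻¹ := by
          rw [hcz, hi]
        have h4 : z ^ i = v := by
          have := mul_right_cancel (mul_left_cancel ((by simpa [mul_assoc] using h3 :
            (ConjAct.ofConjAct g) * (z ^ i * (ConjAct.ofConjAct g)⁻¹) = (ConjAct.ofConjAct g) * (v * (ConjAct.ofConjAct g)⁻¹))))
          exact this
        exact h4
    have hle : (MulAction.orbit (ConjAct G) v).ncard ≤ ((A : Set G) \ (Subgroup.zpowers z : Set G)).ncard :=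
      Set.ncard_le_ncard hsub (Set.toFinite _)
    have hdiff : ((A : Set G) \ (Subgroup.zpowers z : Set G)).ncard = p ^ 2 - p := by
      rw [Set.ncard_diff (by exact_mod_cast hzle) (Set.toFinite _)]
      have h1 : ((A : Set G)).ncard = p ^ 2 := by
        rw [← hAc]
        exact (Nat.card_coe_set_eq _).symm
      have h2 : ((Subgroup.zpowers z : Set G)).ncard = p := by
        rw [← hzcard]
        exact (Nat.card_coe_set_eq _).symm
      rw [h1, h2]
    have hlt : (Subgroup.centralizer ({v} : Set G)).index < p ^ 2 := by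
      rw [hi]
      have := hpp.pos
      have h5 : p ≤ p ^ 2 := Nat.le_self_pow (by norm_num) p
      omega
    have hd : (Subgroup.centralizer ({v} : Set G)).index ∣ Nat.card G :=
      Subgroup.index_dvd_card _
    obtain ⟨n, hn⟩ := IsPGroup.iff_card.mp hG
    rw [hn] at hd
    obtain ⟨j, hj, hj2⟩ := (Nat.dvd_prime_pow hpp).mp hd
    rw [hj2] at hlt ⊢
    have hj3 : j < 2 := (Nat.pow_lt_pow_iff_right hpp.one_lt).mp hlt
    calc p ^ j ≤ p ^ 1 := Nat.pow_le_pow_right hpp.pos (by omega)
      _ = p := pow_one p
  calc Nat.card G = Nat.card ↥(Subgroup.centralizer ({v} : Set G)) * (Subgroup.centralizer ({v} : Set G)).index :=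
        (Subgroup.card_mul_index _).symm
    _ ≤ p ^ 2 * p := Nat.mul_le_mul hCcard hidx
    _ = p ^ 3 := by ring

/-- Say that a group has self-centralizing non-cyclic subgroups when every non-cyclic subgroup H satisfies C_G(H) ≤ H. For an odd prime p, a finite non-abelian p-group has self-centralizing non-cyclic subgroups if and only if it has order p³. -/
theorem result {G : Type*} [Group G] [Finite G] {p : ℕ} [Fact p.Prime] (hp : p ≠ 2) (hG : IsPGroup p G) (hna : ¬ IsMulCommutative G) :
    (∀ H : Subgroup G, ¬ IsCyclic ↥H → Subgroup.centralizer (H : Set G) ≤ H) ↔ Nat.card G = p ^ 3 := by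
  classical
  have hpp : p.Prime := Fact.out
  obtain ⟨n, hn⟩ := IsPGroup.iff_card.mp hG
  have hn3 := three_le hG hna n hn
  constructor
  · intro hX
    have hnc : ¬ IsCyclic G := by
      intro hc
      letI := IsCyclic.commGroup (α := G)
      exact hna ⟨⟨mul_comm⟩⟩
    obtain ⟨A, hAn, hAe, hAc⟩ := Cfsg.Agent.S0126.result hp hG hnc
    have hAnc : ¬ IsCyclic ↥A := by
      apply Cfsg.Agent.S3917.not_cyclic_of_exponent A hpp.pos hAe.2
      rw [hAc]
      nlinarith [hpp.two_le]
    have hle := card_le hG A hAn hAe hAc (hX A hAnc)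
    rw [hn] at hle ⊢
    have : n ≤ 3 := (Nat.pow_le_pow_iff_right hpp.one_lt).mp hle
    have : n = 3 := by omega
    rw [this]
  · intro hc H hH
    by_contra hnot
    have hdvd : Nat.card ↥H ∣ p ^ 3 := by
      rw [← hc]
      exact Subgroup.card_subgroup_dvd_card H
    obtain ⟨m, hm, hm2⟩ := (Nat.dvd_prime_pow hpp).mp hdvd
    have hm0 : m ≠ 0 := by
      rintro rfl
      apply hH
      have : H = ⊥ := by
        rw [pow_zero] at hm2
        exact Subgroup.card_eq_one.mp hm2
      rw [this]
      infer_instance
    have hm1 : m ≠ 1 := by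
      rintro rfl
      apply hH
      rw [pow_one] at hm2
      haveI : Fact (Nat.card ↥H).Prime := ⟨by rw [hm2]; exact hpp⟩
      exact isCyclic_of_prime_card rfl
    have hm3 : m ≠ 3 := by
      rintro rfl
      apply hnot
      have : H = ⊤ := by
        apply Subgroup.eq_top_of_card_eq
        rw [hm2, hc]
      rw [this]
      exact le_top
    have hm4 : m = 2 := by omega
    subst hm4
    -- `H` is abelian
    have hHcomm := IsPGroup.commutative_of_card_eq_prime_sq (p := p) (G := ↥H) hm2
    have hHle : H ≤ Subgroup.centralizer (H : Set G) := by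
      intro a ha
      rw [Subgroup.mem_centralizer_iff]
      intro b hb
      exact congrArg Subtype.val (hHcomm ⟨b, hb⟩ ⟨a, ha⟩)
    have hlt : H < Subgroup.centralizer (H : Set G) := lt_of_le_of_ne hHle (fun h => hnot h.ge)
    have hclt := card_lt_of_lt hlt
    rw [hm2] at hclt
    have hcdvd : Nat.card ↥(Subgroup.centralizer (H : Set G)) ∣ p ^ 3 := by
      rw [← hc]
      exact Subgroup.card_subgroup_dvd_card _
    obtain ⟨s, hs, hs2⟩ := (Nat.dvd_prime_pow hpp).mp hcdvd
    rw [hs2] at hclt
    have hs3 : 2 < s := (Nat.pow_lt_pow_iff_right hpp.one_lt).mp hclt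
    have hs4 : s = 3 := by omega
    subst hs4
    have htop : Subgroup.centralizer (H : Set G) = ⊤ := by
      apply Subgroup.eq_top_of_card_eq
      rw [hs2, hc]
    have hHZ : H ≤ Subgroup.center G := by
      intro a ha
      rw [Subgroup.mem_center_iff]
      intro g
      have : g ∈ Subgroup.centralizer (H : Set G) := by rw [htop]; trivial
      rw [Subgroup.mem_centralizer_iff] at this
      exact (this a ha).symm
    -- `G / Z` has order at most `p`
    have hZ : p ^ 2 ∣ Nat.card ↥(Subgroup.center G) := by
      rw [← hm2]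
      exact Subgroup.card_dvd_of_le hHZ
    have hq : Nat.card (G ⧸ Subgroup.center G) ∣ p := by
      have h1 : Nat.card G = Nat.card (G ⧸ Subgroup.center G) * Nat.card ↥(Subgroup.center G) :=
        Subgroup.card_eq_card_quotient_mul_card_subgroup _
      obtain ⟨c, hc2⟩ := hZ
      rw [hc, hc2] at h1
      have h2 : p ^ 2 * p = p ^ 2 * (Nat.card (G ⧸ Subgroup.center G) * c) := by
        calc p ^ 2 * p = p ^ 3 := by ring
          _ = _ := h1
          _ = _ := by ring
      have h3 := Nat.eq_of_mul_eq_mul_left (pow_pos hpp.pos 2) h2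
      exact ⟨c, h3⟩
    have hcyc : IsCyclic (G ⧸ Subgroup.center G) := by
      rcases (Nat.dvd_prime hpp).mp hq with h | h
      · haveI := (Nat.card_eq_one_iff_unique.mp h).1
        infer_instance
      · haveI : Fact (Nat.card (G ⧸ Subgroup.center G)).Prime := ⟨by rw [h]; exact hpp⟩
        exact isCyclic_of_prime_card rfl
    apply hna
    refine ⟨⟨?_⟩⟩
    exact commutative_of_cyclic_center_quotient (QuotientGroup.mk' (Subgroup.center G))
      (by rw [QuotientGroup.ker_mk'])

end Cfsg.Agent.S3918
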