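import Mathlib
import Cfsg.Statements.S3920

set_option autoImplicit false
open Cfsg

namespace Cfsg.Agent.S3920

open DihedralGroup

theorem cyclic_of_le {G : Type*} [Group G] (H : Subgroup G) (x : G) (hle : H ≤ Subgroup.zpowers x) :
    IsCyclic ↥H :=
  isCyclic_of_injective (Subgroup.inclusion hle) (Subgroup.inclusion_injective hle)

/-- The solutions of `2 x = 0` in `ZMod (2^t)`. -/
theorem two_torsion (t : ℕ) (x : ZMod (2 ^ (t + 1))) (hx : 2 * x = 0) :
    x = 0 ∨ x = ((2 ^ t : ℕ) : ZMod (2 ^ (t + 1))) := by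
  haveI : NeZero (2 ^ (t + 1)) := ⟨by positivity⟩
  have hval : (x.val : ZMod (2 ^ (t + 1))) = x := ZMod.natCast_zmod_val x
  have hlt : x.val < 2 ^ (t + 1) := ZMod.val_lt x
  have h1 : ((2 * x.val : ℕ) : ZMod (2 ^ (t + 1))) = 0 := by
    push_cast
    rw [hval]
    exact hx
  rw [ZMod.natCast_eq_zero_iff] at h1
  have h2 : 2 ^ t ∣ x.val := by
    have h3 : 2 * 2 ^ t ∣ 2 * x.val := by
      rw [← pow_succ']
      exact h1
    exact Nat.dvd_of_mul_dvd_mul_left (by norm_num) h3
  obtain ⟨q, hq⟩ := h2
  have hq2 : q < 2 := by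
    rw [hq, pow_succ, mul_comm] at hlt
    rw [mul_comm] at hlt
    exact Nat.lt_of_mul_lt_mul_left hlt
  have : q = 0 ∨ q = 1 := by omega
  rcases this with rfl | rfl
  · left
    rw [← hval, hq]
    simp
  · right
    rw [← hval, hq, mul_one]

theorem backward (n : ℕ) (hn : 3 ≤ n) (hh : Odd n ∨ ∃ k : ℕ, n = 2 ^ k) (H : Subgroup (DihedralGroup n))
    (hH : ¬ IsCyclic ↥H) : Subgroup.centralizer (H : Set (DihedralGroup n)) ≤ H := by
  classical
  haveI : NeZero n := ⟨by omega⟩
  -- a reflection
  obtain ⟨i, hi⟩ : ∃ i, (sr i : DihedralGroup n) ∈ H := by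
    by_contra hno
    push Not at hno
    apply hH
    apply cyclic_of_le H (r 1)
    intro g hg
    cases g with
    | r k =>
      have : (r k : DihedralGroup n) = (r 1) ^ (k.val) := by
        rw [r_one_pow, ZMod.natCast_zmod_val]
      rw [this]
      exact Subgroup.pow_mem _ (Subgroup.mem_zpowers _) _
    | sr k => exact absurd hg (hno k)
  -- a nontrivial rotation
  obtain ⟨k, hk0, hk⟩ : ∃ k : ZMod n, k ≠ 0 ∧ (r k : DihedralGroup n) ∈ H := by
    by_contra hno
    push Not at hno
    apply hH
    apply cyclic_of_le H (sr i)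
    intro g hg
    cases g with
    | r k =>
      by_cases hk0 : k = 0
      · subst hk0
        exact Subgroup.one_mem _
      · exact absurd hg (hno k hk0)
    | sr j =>
      have h1 := H.mul_mem hi hg
      rw [sr_mul_sr] at h1
      by_cases hj : j - i = 0
      · have : j = i := sub_eq_zero.mp hj
        rw [this]
        exact Subgroup.mem_zpowers _
      · exact absurd h1 (hno _ hj)
  -- key claim
  have hkey : ∀ x : ZMod n, 2 * x = 0 → (r x : DihedralGroup n) ∈ H := by
    intro x hx
    rcases hh with hodd | ⟨t, ht⟩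
    · have hu : IsUnit (2 : ZMod n) := by
        have := (ZMod.isUnit_iff_coprime 2 n).mpr (Nat.coprime_two_left.mpr hodd)
        simpa using this
      have : x = 0 := (hu.mul_right_eq_zero).mp hx
      subst this
      exact Subgroup.one_mem _
    · subst ht
      obtain ⟨t', rfl⟩ : ∃ t', t = t' + 1 := by
        rcases t with _ | t'
        · simp at hn
        · exact ⟨t', rfl⟩
      -- find a nonzero `2`-torsion multiple of `k`
      have hex : ∃ s : ℕ, ((2 ^ s : ℕ) : ZMod (2 ^ (t' + 1))) * k = 0 := by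
        refine ⟨t' + 1, ?_⟩
        simp
      have hs0 : Nat.find hex ≠ 0 := by
        intro h0
        have := Nat.find_spec hex
        rw [h0] at this
        simp at this
        exact hk0 this
      obtain ⟨s, hs⟩ := Nat.exists_eq_succ_of_ne_zero hs0
      have hsmin : ((2 ^ s : ℕ) : ZMod (2 ^ (t' + 1))) * k ≠ 0 :=
        Nat.find_min hex (by omega)
      have hs2 : ((2 ^ (s + 1) : ℕ) : ZMod (2 ^ (t' + 1))) * k = 0 := by
        have := Nat.find_spec hex
        rw [hs] at this
        exact this
      set y : ZMod (2 ^ (t' + 1)) := ((2 ^ s : ℕ) : ZMod (2 ^ (t' + 1))) * k with hy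
      have hy2 : 2 * y = 0 := by
        rw [hy, ← mul_assoc]
        rw [← hs2]
        congr 1
        push_cast
        ring
      have hyH : (r y : DihedralGroup (2 ^ (t' + 1))) ∈ H := by
        have h3 : (r y : DihedralGroup (2 ^ (t' + 1))) = (r k) ^ (2 ^ s) := by
          rw [DihedralGroup.r_pow, hy, mul_comm]
        rw [h3]
        exact Subgroup.pow_mem _ hk _
      rcases two_torsion t' x hx with h0 | h1
      · subst h0
        exact Subgroup.one_mem _
      · rcases two_torsion t' y hy2 with h2 | h3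
        · exact absurd h2 hsmin
        · rw [h1, ← h3]
          exact hyH
  intro c hc
  rw [Subgroup.mem_centralizer_iff] at hc
  have h1 := hc _ hi
  cases c with
  | r m =>
    rw [sr_mul_r, r_mul_sr] at h1
    apply hkey
    have h2 : i + m = i - m := sr.inj h1
    have h3 : 2 * m = (i + m) - (i - m) := by ring
    rw [h3, h2, sub_self]
  | sr j =>
    rw [sr_mul_sr, sr_mul_sr] at h1
    have h2 : j - i = i - j := r.inj h1
    have h3 : 2 * (j - i) = (j - i) - (i - j) := by ring
    have h4 : (r (j - i) : DihedralGroup n) ∈ H := by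
      apply hkey
      rw [h3, h2, sub_self]
    have h5 := H.mul_mem hi h4
    rw [sr_mul_r] at h5
    have : i + (j - i) = j := by ring
    rwa [this] at h5

theorem forward (n : ℕ) (hn : 3 ≤ n)
    (hX : ∀ H : Subgroup (DihedralGroup n), ¬ IsCyclic ↥H → Subgroup.centralizer (H : Set (DihedralGroup n)) ≤ H) :
    Odd n ∨ ∃ k : ℕ, n = 2 ^ k := by
  classical
  by_contra hno
  push Not at hno
  obtain ⟨hnodd, hnpow⟩ := hno
  obtain ⟨a, m, hm, hnm⟩ := Nat.exists_eq_two_pow_mul_odd (n := n) (by omega)
  have hm1 : m ≠ 1 := by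
    rintro rfl
    exact hnpow a (by simpa using hnm)
  have ha : a ≠ 0 := by
    rintro rfl
    apply hnodd
    simpa [hnm] using hm
  have hm3 : 3 ≤ m := by
    obtain ⟨w, hw⟩ := hm
    omega
  obtain ⟨b, rfl⟩ := Nat.exists_eq_succ_of_ne_zero ha
  subst hnm
  set N : ℕ := 2 ^ (b + 1) * m with hN
  have hdvd : 2 ^ (b + 1) ∣ N := Dvd.intro _ rfl
  let φ : ZMod N →+* ZMod (2 ^ (b + 1)) := ZMod.castHom hdvd (ZMod (2 ^ (b + 1)))
  let H : Subgroup (DihedralGroup N) :=
    { carrier := {g | match g with
        | r i => φ i = 0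
        | sr i => φ i = 0}
      mul_mem' := by
        rintro (i | i) (j | j) hi hj
        · show φ (i + j) = 0
          simp only [Set.mem_setOf_eq] at hi hj
          rw [map_add, hi, hj, add_zero]
        · show φ (j - i) = 0
          simp only [Set.mem_setOf_eq] at hi hj
          rw [map_sub, hi, hj, sub_zero]
        · show φ (i + j) = 0
          simp only [Set.mem_setOf_eq] at hi hj
          rw [map_add, hi, hj, add_zero]
        · show φ (j - i) = 0
          simp only [Set.mem_setOf_eq] at hi hj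
          rw [map_sub, hi, hj, sub_zero]
      one_mem' := by
        show φ 0 = 0
        exact map_zero φ
      inv_mem' := by
        rintro (i | i) hi
        · show φ (-i) = 0
          simp only [Set.mem_setOf_eq] at hi
          rw [map_neg, hi, neg_zero]
        · exact hi }
  have hnatcast : ∀ v : ℕ, φ (v : ZMod N) = (v : ZMod (2 ^ (b + 1))) := fun v => map_natCast φ v
  -- `H` is not cyclic
  have hnc : ¬ IsCyclic ↥H := by
    intro hc
    letI := IsCyclic.commGroup (α := ↥H)
    have h1 : (sr 0 : DihedralGroup N) ∈ H := by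
      show φ 0 = 0
      exact map_zero φ
    have h2 : (r ((2 ^ (b + 1) : ℕ) : ZMod N) : DihedralGroup N) ∈ H := by
      show φ _ = 0
      rw [hnatcast]
      simp
    have h3 := mul_comm (⟨_, h1⟩ : ↥H) ⟨_, h2⟩
    have h4 := congrArg Subtype.val h3
    simp only [Subgroup.coe_mul, sr_mul_r, r_mul_sr] at h4
    have h5 : (0 : ZMod N) + ((2 ^ (b + 1) : ℕ) : ZMod N) = 0 - ((2 ^ (b + 1) : ℕ) : ZMod N) := sr.inj h4
    have h6 : ((2 * 2 ^ (b + 1) : ℕ) : ZMod N) = 0 := by
      push_cast
      push_cast at h5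
      linear_combination h5
    rw [ZMod.natCast_eq_zero_iff] at h6
    have h7 : m ∣ 2 := by
      rw [hN, mul_comm 2] at h6
      exact Nat.dvd_of_mul_dvd_mul_left (by positivity) h6
    have := Nat.le_of_dvd (by norm_num) h7
    omega
  -- the central involution is not in `H`
  let hh : ℕ := 2 ^ b * m
  have h2h : ((2 : ZMod N) * (hh : ZMod N)) = 0 := by
    have : ((2 * hh : ℕ) : ZMod N) = 0 := by
      rw [ZMod.natCast_eq_zero_iff]
      show N ∣ 2 * (2 ^ b * m)
      rw [hN, pow_succ]
      exact (dvd_of_eq (by ring))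
    simpa using this
  have hzC : (r (hh : ZMod N) : DihedralGroup N) ∈ Subgroup.centralizer (H : Set (DihedralGroup N)) := by
    rw [Subgroup.mem_centralizer_iff]
    rintro (i | i) _
    · simp only [r_mul_r]
      rw [add_comm]
    · simp only [sr_mul_r, r_mul_sr]
      congr 1
      linear_combination h2h
  have hzH : (r (hh : ZMod N) : DihedralGroup N) ∈ H := hX H hnc hzC
  have h1 : φ (hh : ZMod N) = 0 := hzH
  rw [hnatcast, ZMod.natCast_eq_zero_iff] at h1
  have h2 : 2 ∣ m := by
    have h3 : 2 ^ b * 2 ∣ 2 ^ b * m := by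
      rw [← pow_succ]
      exact h1
    exact Nat.dvd_of_mul_dvd_mul_left (by positivity) h3
  obtain ⟨w, hw⟩ := hm
  omega

/-- Say that a group has self-centralizing non-cyclic subgroups when every non-cyclic subgroup H satisfies C_G(H) ≤ H. For n ≥ 3, the dihedral group of order 2n has self-centralizing non-cyclic subgroups if and only if n is odd or a power of 2. -/
theorem result (n : ℕ) (hn : 3 ≤ n) : (∀ H : Subgroup (DihedralGroup n), ¬ IsCyclic ↥H → Subgroup.centralizer (H : Set (DihedralGroup n)) ≤ H) ↔ (Odd n ∨ ∃ k : ℕ, n = 2 ^ k) :=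
  ⟨forward n hn, fun hh H hH => backward n hn hh H hH⟩

end Cfsg.Agent.S3920
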