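import Mathlib
import Cfsg.Statements.S3933
import Cfsg.Agent.Lib.SylowNum2
import Cfsg.Agent.Lib.SmallGroups2
import Cfsg.Agent.Lib.BurnsidePQ

set_option autoImplicit false
set_option linter.style.haveILetI false
open Cfsg

namespace Cfsg.Agent.S3933

universe u

open Subgroup Cfsg.Agent.Lib.SylowNum Cfsg.Agent.Lib.SylowNum2

/-- The hypothesis. -/
def PP (G : Type u) [Group G] : Prop :=
  ∀ (r : ℕ) [Fact r.Prime], Nat.card (Sylow r G) = 1 ∨ IsPrimePow (Nat.card (Sylow r G))

theorem pp_dvd {a b : ℕ} (h : a ∣ b) (hb : b = 1 ∨ IsPrimePow b) : a = 1 ∨ IsPrimePow a := by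
  rcases hb with rfl | hb
  · left; exact Nat.dvd_one.1 h
  · obtain ⟨p, k, hp, hk, rfl⟩ := hb
    have hp' : p.Prime := hp.nat_prime
    obtain ⟨j, hj, rfl⟩ := (Nat.dvd_prime_pow hp').1 h
    by_cases h0 : j = 0
    · left; simp [h0]
    · right; exact ⟨p, j, hp, Nat.pos_of_ne_zero h0, rfl⟩

variable {G : Type u} [Group G] [Finite G]

theorem pp_sub (N : Subgroup G) [N.Normal] (h : PP G) : PP N := by
  intro r _
  obtain ⟨P⟩ := (inferInstance : Nonempty (Sylow r G))
  refine pp_dvd ?_ (h r)
  rw [card_sylow_hall N P]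
  exact Dvd.dvd.mul_right (Dvd.intro_left _ rfl) _

theorem pp_quot (N : Subgroup G) [N.Normal] (h : PP G) : PP (G ⧸ N) := by
  intro r _
  obtain ⟨P⟩ := (inferInstance : Nonempty (Sylow r G))
  refine pp_dvd ?_ (h r)
  rw [card_sylow_hall N P]
  exact Dvd.dvd.mul_right (Dvd.intro _ rfl) _

theorem smul_le_normalizer {r v : ℕ} [Fact r.Prime] [Fact v.Prime] (R : Sylow r G) (U : Sylow v G)
    (h : (R : Subgroup G) ≤ normalizer ((U : Subgroup G) : Set G)) (g : G) :
    ((g • R : Sylow r G) : Subgroup G) ≤ normalizer (((g • U : Sylow v G) : Subgroup G) : Set G) := by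
  intro y hy
  rw [Subgroup.mem_normalizer_iff]
  intro z
  have hy' := (mem_smul_sylow R g y).1 hy
  have h1 := Subgroup.mem_normalizer_iff.1 (h hy') (g⁻¹ * z * g)
  show z ∈ g • U ↔ y * z * y⁻¹ ∈ g • U
  rw [mem_smul_sylow, mem_smul_sylow]
  have e : g⁻¹ * y * g * (g⁻¹ * z * g) * (g⁻¹ * y * g)⁻¹ = g⁻¹ * (y * z * y⁻¹) * g := by group
  rw [e] at h1
  exact h1

/-- **Key lemma.** If `r ∤ n_v` and `n_r`, `n_v` are coprime then every Sylow `r`-subgroup
normalises every Sylow `v`-subgroup. -/
theorem key {r v : ℕ} [Fact r.Prime] [Fact v.Prime] (h1 : ¬ r ∣ Nat.card (Sylow v G))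
    (h2 : Nat.Coprime (Nat.card (Sylow r G)) (Nat.card (Sylow v G))) (U : Sylow v G)
    (R : Sylow r G) : (R : Subgroup G) ≤ normalizer ((U : Subgroup G) : Set G) := by
  classical
  let α := {a : Sylow r G × Sylow v G //
    (a.1 : Subgroup G) ≤ normalizer ((a.2 : Subgroup G) : Set G)}
  let act : G → α → α := fun g a => ⟨(g • a.1.1, g • a.1.2), smul_le_normalizer _ _ a.2 g⟩
  have act1 : ∀ (g : G) (a : α), act g⁻¹ (act g a) = a := by
    intro g a
    apply Subtype.ext
    apply Prod.ext
    · show g⁻¹ • g • a.1.1 = a.1.1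
      simp
    · show g⁻¹ • g • a.1.2 = a.1.2
      simp
  have act2 : ∀ (g : G) (a : α), act g (act g⁻¹ a) = a := by
    intro g a
    have := act1 g⁻¹ a
    rwa [inv_inv] at this
  let e : G → (α ≃ α) := fun g =>
    { toFun := act g, invFun := act g⁻¹, left_inv := act1 g, right_inv := act2 g }
  have hv := card_eq_mul_fiber (fun a : α => a.1.2) U (by
    intro b
    obtain ⟨g, hg⟩ := MulAction.exists_smul_eq G U b
    refine ⟨e g, fun a => ?_⟩
    show a.1.2 = U ↔ g • a.1.2 = b
    rw [← hg]
    exact (MulAction.injective g).eq_iff.symm)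
  have hr := card_eq_mul_fiber (fun a : α => a.1.1) R (by
    intro b
    obtain ⟨g, hg⟩ := MulAction.exists_smul_eq G R b
    refine ⟨e g, fun a => ?_⟩
    show a.1.1 = R ↔ g • a.1.1 = b
    rw [← hg]
    exact (MulAction.injective g).eq_iff.symm)
  -- the fibre over `U`
  let S := {R' : Sylow r G // (R' : Subgroup G) ≤ normalizer ((U : Subgroup G) : Set G)}
  have hfib : Nat.card {a : α // a.1.2 = U} = Nat.card S := by
    refine Nat.card_congr ?_
    refine
      { toFun := fun a => ⟨a.1.1.1, by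
          have := a.1.2
          have h3 : a.1.1.2 = U := a.2
          rw [h3] at this
          exact this⟩
        invFun := fun s => ⟨⟨(s.1, U), s.2⟩, rfl⟩
        left_inv := ?_
        right_inv := ?_ }
    · intro a
      apply Subtype.ext
      apply Subtype.ext
      apply Prod.ext
      · rfl
      · exact a.2.symm
    · intro s
      rfl
  have hdvd : Nat.card (Sylow r G) ∣ Nat.card S := by
    have : Nat.card (Sylow r G) ∣ Nat.card (Sylow v G) * Nat.card S := by
      rw [← hfib, ← hv, hr]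
      exact Dvd.intro _ rfl
    exact h2.dvd_of_dvd_mul_left this
  have hSpos : 0 < Nat.card S := by
    have hidx : (normalizer ((U : Subgroup G) : Set G)).index = Nat.card (Sylow v G) :=
      (Sylow.card_eq_index_normalizer U).symm
    rw [← hidx] at h1
    obtain ⟨Q, hQ⟩ := exists_sylow_le (p := r) (normalizer ((U : Subgroup G) : Set G)) h1
    haveI : Nonempty S := ⟨⟨Q, hQ⟩⟩
    exact Nat.card_pos
  have hle : Nat.card (Sylow r G) ≤ Nat.card S := Nat.le_of_dvd hSpos hdvd
  have hbij : Function.Bijective (fun s : S => s.1) :=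
    (Subtype.val_injective).bijective_of_nat_card_le hle
  obtain ⟨s, hs⟩ := hbij.2 R
  have : s.1 = R := hs
  rw [← this]
  exact s.2

theorem final [IsSimpleGroup G] (hnc : ¬ IsMulCommutative G) {r v : ℕ} [Fact r.Prime]
    [Fact v.Prime] (hr : r ∣ Nat.card G) (hv : v ∣ Nat.card G) (U : Sylow v G)
    (hall : ∀ R : Sylow r G, (R : Subgroup G) ≤ normalizer ((U : Subgroup G) : Set G)) : False := by
  obtain ⟨R⟩ := (inferInstance : Nonempty (Sylow r G))
  set K : Subgroup G := normalClosure ((R : Subgroup G) : Set G) with hK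
  have hKle : K ≤ normalizer ((U : Subgroup G) : Set G) := by
    rw [hK, normalClosure, Subgroup.closure_le]
    intro x hx
    obtain ⟨a, ha, hc⟩ := Group.mem_conjugatesOfSet_iff.1 hx
    obtain ⟨c, rfl⟩ := isConj_iff.1 hc
    refine hall (c • R) ?_
    exact (conj_mem_smul_sylow R c a).2 ha
  have hKn : K.Normal := normalClosure_normal
  rcases hKn.eq_bot_or_eq_top with h | h
  · apply Sylow.ne_bot_of_dvd_card R hr
    rw [eq_bot_iff, ← h]
    exact subset_normalClosure
  · rw [h, top_le_iff] at hKle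
    apply Cfsg.Agent.Lib.SmallGroups2.card_sylow_ne_one hnc hv
    have hidx : (normalizer ((U : Subgroup G) : Set G)).index = Nat.card (Sylow v G) :=
      (Sylow.card_eq_index_normalizer U).symm
    rw [← hidx, hKle, Subgroup.index_top]

theorem simple_case [IsSimpleGroup G] (hnc : ¬ IsMulCommutative G) (h : PP G) : False := by
  classical
  have hns : ¬ Group.IsSolvable G := by
    intro hs
    apply hnc
    have := (IsSimpleGroup.comm_iff_isSolvable (G := G)).2 (by simpa using hs)
    exact ⟨⟨fun a b => this a b⟩⟩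
  have hf : ∀ r : ℕ, ∃ p k : ℕ, r.Prime → r ∣ Nat.card G →
      p.Prime ∧ p ∣ Nat.card G ∧ p ≠ r ∧ 0 < k ∧ Nat.card (Sylow r G) = p ^ k := by
    intro r
    by_cases hr : r.Prime ∧ r ∣ Nat.card G
    · obtain ⟨hr1, hr2⟩ := hr
      haveI : Fact r.Prime := ⟨hr1⟩
      rcases h r with h1 | ⟨p, k, hp, hk, hpk⟩
      · exact absurd h1 (Cfsg.Agent.Lib.SmallGroups2.card_sylow_ne_one hnc hr2)
      · have hp' : p.Prime := hp.nat_prime
        refine ⟨p, k, fun _ _ => ⟨hp', ?_, ?_, hk, hpk.symm⟩⟩
        · obtain ⟨P⟩ := (inferInstance : Nonempty (Sylow r G))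
          have h1 : p ∣ p ^ k := dvd_pow_self p hk.ne'
          rw [hpk] at h1
          have hidx : (normalizer ((P : Subgroup G) : Set G)).index = Nat.card (Sylow r G) :=
            (Sylow.card_eq_index_normalizer P).symm
          rw [← hidx] at h1
          exact h1.trans (Subgroup.index_dvd_card _)
        · rintro rfl
          have h1 := card_sylow_modEq_one p G
          have h2 : p ∣ Nat.card (Sylow p G) := by
            rw [← hpk]
            exact dvd_pow_self p hk.ne'
          have h3 : Nat.card (Sylow p G) % p = 0 := Nat.mod_eq_zero_of_dvd h2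
          have h4 : 1 % p = 1 := Nat.mod_eq_of_lt hp'.one_lt
          have h5 : Nat.card (Sylow p G) % p = 1 % p := h1
          omega
    · exact ⟨0, 0, fun h1 h2 => absurd ⟨h1, h2⟩ hr⟩
  choose f a hfa using hf
  -- the application
  have happ : ∀ r v : ℕ, r.Prime → v.Prime → r ∣ Nat.card G → v ∣ Nat.card G → r ≠ f v →
      f r ≠ f v → False := by
    intro r v hr hv hrd hvd h1 h2
    haveI : Fact r.Prime := ⟨hr⟩
    haveI : Fact v.Prime := ⟨hv⟩
    obtain ⟨hfr, -, -, hkr, hcr⟩ := hfa r hr hrd
    obtain ⟨hfv, -, -, hkv, hcv⟩ := hfa v hv hvd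
    obtain ⟨U⟩ := (inferInstance : Nonempty (Sylow v G))
    refine final hnc hrd hvd U (fun R => key ?_ ?_ U R)
    · rw [hcv]
      intro hd
      exact h1 ((Nat.prime_dvd_prime_iff_eq hr hfv).1 (hr.dvd_of_dvd_pow hd))
    · rw [hcr, hcv]
      exact Nat.Coprime.pow _ _ ((Nat.coprime_primes hfr hfv).2 h2)
  -- a prime divisor
  haveI : Nontrivial G := IsSimpleGroup.toNontrivial
  have hcard : 1 < Nat.card G := Finite.one_lt_card
  obtain ⟨u₀, hu₀, hu₀d⟩ := Nat.exists_prime_and_dvd hcard.ne'
  obtain ⟨hw, hwd, hwu, -, -⟩ := hfa u₀ hu₀ hu₀d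
  set w := f u₀ with hwdef
  have hs : ∃ s : ℕ, s.Prime ∧ s ∣ Nat.card G ∧ s ≠ u₀ ∧ s ≠ w := by
    by_contra hcon
    push Not at hcon
    apply hns
    refine Cfsg.Agent.Lib.BurnsidePQ.isSolvable_of_card_eq u₀ w hu₀ hw _ G rfl ?_
    refine ⟨(Nat.card G).factorization u₀, (ordCompl[u₀] (Nat.card G)).primeFactorsList.length, ?_⟩
    have h1 := Nat.ordProj_mul_ordCompl_eq_self (Nat.card G) u₀
    conv_lhs => rw [← h1]
    congr 1
    apply Nat.eq_prime_pow_of_unique_prime_dvd
    · exact (Nat.ordCompl_pos u₀ Nat.card_pos.ne').ne'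
    · intro d hd hdd
      refine hcon d hd (hdd.trans (Nat.ordCompl_dvd _ _)) ?_
      rintro rfl
      exact Nat.not_dvd_ordCompl hd Nat.card_pos.ne' hdd
  obtain ⟨s, hsp, hsd, hsu, hsw⟩ := hs
  by_cases hfs : f s = w
  · obtain ⟨hz, hzd, hzw, -, -⟩ := hfa w hw hwd
    by_cases hsz : s = f w
    · refine happ u₀ w hu₀ hw hu₀d hwd ?_ ?_
      · rw [← hsz]
        exact hsu.symm
      · rw [← hwdef]
        exact hzw.symm
    · refine happ s w hsp hw hsd hwd hsz ?_
      rw [hfs]
      exact hzw.symm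
  · exact happ s u₀ hsp hu₀ hsd hu₀d hsw hfs

theorem solvable_main : ∀ (n : ℕ) (G : Type u) [Group G] [Finite G], Nat.card G = n → PP G →
    Group.IsSolvable G := by
  intro n
  induction n using Nat.strong_induction_on with
  | _ n ih =>
  intro G _ _ hn h
  by_cases hsimple : IsSimpleGroup G
  · by_contra hs
    have hnc : ¬ IsMulCommutative G := by
      intro hc
      apply hs
      have : ∀ a b : G, a * b = b * a := fun a b => mul_comm' a b
      exact (IsSimpleGroup.comm_iff_isSolvable (G := G)).1 this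
    exact simple_case hnc h
  · by_cases hnon : Nontrivial G
    · -- a proper nontrivial normal subgroup
      have hex : ∃ N : Subgroup G, N.Normal ∧ N ≠ ⊥ ∧ N ≠ ⊤ := by
        by_contra hcon
        push Not at hcon
        apply hsimple
        refine ⟨fun H hH => ?_⟩
        by_cases hb : H = ⊥
        · exact Or.inl hb
        · exact Or.inr (hcon H hH hb)
      obtain ⟨N, hNn, hNb, hNt⟩ := hex
      have h1 : Nat.card N < n := by
        rw [← hn]
        exact lt_of_le_of_ne (Subgroup.card_le_card_group N) (fun e => hNt (Subgroup.eq_top_of_card_eq N e))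
      have h2 : Nat.card (G ⧸ N) < n := by
        have h3 := N.card_mul_index
        have h4 : 1 < Nat.card N := by
          rw [Finite.one_lt_card_iff_nontrivial]
          exact (Subgroup.nontrivial_iff_ne_bot N).2 hNb
        have h5 : 0 < N.index := Nat.pos_of_ne_zero Subgroup.FiniteIndex.index_ne_zero
        rw [← hn, ← h3]
        show N.index < _
        nlinarith
      haveI := ih _ h1 N rfl (pp_sub N h)
      haveI := ih _ h2 (G ⧸ N) rfl (pp_quot N h)
      exact Group.isSolvable_of_ker_le_range N.subtype (QuotientGroup.mk' N) (by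
        intro x hx
        have : x ∈ N := (QuotientGroup.eq_one_iff x).1 hx
        exact ⟨⟨x, this⟩, rfl⟩)
    · rw [not_nontrivial_iff_subsingleton] at hnon
      infer_instance

/-- If for every prime r the number of Sylow r-subgroups of the finite group G is a prime power or 1, then G is solvable. -/
theorem result {G : Type*} [Group G] [Finite G] (h : ∀ (r : ℕ) [Fact r.Prime], Nat.card (Sylow r G) = 1 ∨ IsPrimePow (Nat.card (Sylow r G))) :
    Group.IsSolvable G :=
  solvable_main _ G rfl h

end Cfsg.Agent.S3933
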