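import Mathlib
import Cfsg.Statements.S3939
import Cfsg.Agent.Lib.PComplement
import Cfsg.Agent.Lib.FpfNorm

set_option autoImplicit false
open Cfsg

namespace Cfsg.Agent.S3939


open Subgroup
open scoped Pointwise

universe u

/-- A nontrivial normal subgroup contained in a `p`-subgroup `S` contains a nontrivial element
centralized by `S`. -/
theorem exists_central_of_normal {G : Type u} [Group G] [Finite G] {p : ℕ} [hp : Fact p.Prime]
    (S N : Subgroup G) (hS : IsPGroup p S) [hNn : N.Normal] (hNS : N ≤ S) (hN : N ≠ ⊥) :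
    ∃ z ∈ N, z ≠ 1 ∧ ∀ s ∈ S, s * z = z * s := by
  classical
  have hNp : IsPGroup p N := hS.to_le hNS
  have hSN : S ≤ Subgroup.normalizer (N : Set G) := by
    rw [Subgroup.normalizer_eq_top_iff.mpr hNn]
    exact le_top
  let φ := Cfsg.Agent.Lib.FpfNorm.conjHom S N hSN
  letI : MulAction S N := MulAction.compHom N φ
  have hsmul : ∀ (s : S) (n : N), ((s • n : N) : G) = (s : G) * (n : G) * (s : G)⁻¹ := fun _ _ => rfl
  have hdvd : p ∣ Nat.card N := by
    rcases hNp.card_eq_or_dvd with h | h
    · exact absurd (Subgroup.card_eq_one.mp h) hN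
    · exact h
  have h1 : (1 : N) ∈ MulAction.fixedPoints S N := by
    intro s
    apply Subtype.ext
    rw [hsmul]
    simp
  obtain ⟨z, hz, hzne⟩ := hS.exists_fixed_point_of_prime_dvd_card_of_fixed_point N hdvd h1
  refine ⟨z, z.2, fun h => hzne (Subtype.ext h.symm), ?_⟩
  intro s hs
  have h2 := congrArg Subtype.val (hz ⟨s, hs⟩)
  rw [hsmul] at h2
  calc s * z = s * z * s⁻¹ * s := by group
    _ = z * s := by
      have : s * (z : G) * s⁻¹ = z := h2
      rw [this]

theorem eq_one_of_center_eq_bot {G : Type u} [Group G] [Finite G] (g : G)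
    (h : ∀ x : G, Group.IsNilpotent ↥(closure ({x, g} : Set G))) (hZ : center G = ⊥) : g = 1 := by
  classical
  by_contra hg
  have hne1 : orderOf g ≠ 1 := fun h1 => hg (orderOf_eq_one_iff.mp h1)
  obtain ⟨p, hp, hpd⟩ := Nat.exists_prime_and_dvd hne1
  haveI : Fact p.Prime := ⟨hp⟩
  set g₀ := g ^ (orderOf g / p) with hg₀
  have hg₀ord : orderOf g₀ = p := orderOf_pow_orderOf_div (orderOf_pos g).ne' hpd
  have hg₀ne : g₀ ≠ 1 := by
    intro h1
    rw [h1, orderOf_one] at hg₀ord
    exact hp.one_lt.ne hg₀ord
  have hg₀p : g₀ ^ p = 1 := by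
    rw [← hg₀ord]; exact pow_orderOf_eq_one g₀
  have hcomm : ∀ y x : G, (orderOf x).Coprime p → (y * g₀ * y⁻¹) * x = x * (y * g₀ * y⁻¹) := by
    intro y x hx
    set x' := y⁻¹ * x * y with hx'
    haveI hnil := h x'
    have hx'mem : x' ∈ closure ({x', g} : Set G) := subset_closure (by simp)
    have hgmem : g ∈ closure ({x', g} : Set G) := subset_closure (by simp)
    have hg₀mem : g₀ ∈ closure ({x', g} : Set G) := pow_mem hgmem _
    have hordx' : orderOf x' = orderOf x := by
      rw [hx']
      have : y⁻¹ * x * y = y⁻¹ * x * y⁻¹⁻¹ := by simp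
      rw [this]
      exact (MulAut.conj y⁻¹).orderOf_eq x
    have hc := Cfsg.Agent.Lib.PComplement.commute_of_isNilpotent (p := p)
      (x := (⟨g₀, hg₀mem⟩ : closure ({x', g} : Set G))) (g := ⟨x', hx'mem⟩)
      ⟨1, by apply Subtype.ext; simpa using hg₀p⟩
      (by rw [Subgroup.orderOf_mk, hordx']; exact hx)
    have hc' : g₀ * x' = x' * g₀ := congrArg Subtype.val hc
    have hxeq : x = y * x' * y⁻¹ := by rw [hx']; group
    rw [hxeq]
    calc y * g₀ * y⁻¹ * (y * x' * y⁻¹) = y * (g₀ * x') * y⁻¹ := by group
      _ = y * (x' * g₀) * y⁻¹ := by rw [hc']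
      _ = y * x' * y⁻¹ * (y * g₀ * y⁻¹) := by group
  set N : Subgroup G := normalClosure ({g₀} : Set G) with hN
  set C : Subgroup G := centralizer (N : Set G) with hC
  haveI hCn : C.Normal := inferInstance
  have hconjN : ∀ (K : Subgroup G), (∀ y : G, y * g₀ * y⁻¹ ∈ K) → N ≤ K := by
    intro K hK
    rw [hN, normalClosure, closure_le]
    intro w hw
    rw [Group.mem_conjugatesOfSet_iff] at hw
    obtain ⟨a, ha, hconj⟩ := hw
    rw [Set.mem_singleton_iff] at ha
    subst ha
    obtain ⟨c, rfl⟩ := isConj_iff.mp hconj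
    exact hK c
  have hg₀N : g₀ ∈ N := subset_normalClosure (Set.mem_singleton _)
  have hpC : ∀ x : G, (orderOf x).Coprime p → x ∈ C := by
    intro x hx
    rw [hC, mem_centralizer_iff]
    have hle : N ≤ centralizer ({x} : Set G) := by
      apply hconjN
      intro y
      rw [mem_centralizer_singleton_iff]
      exact hcomm y x hx
    intro n hn
    have := hle hn
    rw [mem_centralizer_singleton_iff] at this
    exact this
  -- Sylow
  have hzp : IsPGroup p (zpowers g₀) := by
    rw [IsPGroup.iff_card, Nat.card_zpowers, hg₀ord]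
    exact ⟨1, (pow_one p).symm⟩
  obtain ⟨S, hS⟩ := hzp.exists_le_sylow
  have hg₀S : g₀ ∈ (S : Subgroup G) := hS (mem_zpowers g₀)
  have hSC : (S : Subgroup G) ⊔ C = ⊤ := by
    rw [← Subgroup.index_eq_one]
    by_contra hne
    obtain ⟨q, hq, hqd⟩ := Nat.exists_prime_and_dvd hne
    haveI : Fact q.Prime := ⟨hq⟩
    have hd1 : ((S : Subgroup G) ⊔ C).index ∣ (S : Subgroup G).index :=
      Subgroup.index_dvd_of_le le_sup_left
    have hqp : q ≠ p := by
      rintro rfl
      exact S.not_dvd_index (hqd.trans hd1)
    obtain ⟨Q⟩ : Nonempty (Sylow q G) := inferInstance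
    have hQC : (Q : Subgroup G) ≤ C := by
      intro w hw
      apply hpC
      have h1 : IsPGroup q (Q : Subgroup G) := Q.isPGroup'
      obtain ⟨k, hk⟩ := (IsPGroup.iff_orderOf.mp h1) ⟨w, hw⟩
      rw [Subgroup.orderOf_mk] at hk
      rw [hk]
      exact Nat.Coprime.pow_left _ ((Nat.coprime_primes hq hp).mpr hqp)
    have hd2 : ((S : Subgroup G) ⊔ C).index ∣ (Q : Subgroup G).index :=
      Subgroup.index_dvd_of_le (hQC.trans le_sup_right)
    exact Q.not_dvd_index (hqd.trans hd2)
  have hconjS : ∀ y : G, y * g₀ * y⁻¹ ∈ (S : Subgroup G) := by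
    intro y
    have hy : y ∈ (S : Subgroup G) ⊔ C := by rw [hSC]; trivial
    have hy' : y ∈ ((S : Subgroup G) : Set G) * (C : Set G) := by
      rw [← Subgroup.mul_normal]
      exact hy
    obtain ⟨s, hs, c, hc, rfl⟩ := Set.mem_mul.mp hy'
    have hc' : c * g₀ = g₀ * c := ((mem_centralizer_iff.mp hc) g₀ hg₀N).symm
    have : s * c * g₀ * (s * c)⁻¹ = s * g₀ * s⁻¹ := by
      calc s * c * g₀ * (s * c)⁻¹ = s * (c * g₀) * c⁻¹ * s⁻¹ := by group
        _ = s * (g₀ * c) * c⁻¹ * s⁻¹ := by rw [hc']
        _ = s * g₀ * s⁻¹ := by group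
    rw [this]
    exact (S : Subgroup G).mul_mem ((S : Subgroup G).mul_mem hs hg₀S) ((S : Subgroup G).inv_mem hs)
  have hNS : N ≤ (S : Subgroup G) := hconjN _ hconjS
  have hNne : N ≠ ⊥ := by
    intro hb
    rw [hb] at hg₀N
    exact hg₀ne (mem_bot.mp hg₀N)
  haveI hNn : N.Normal := normalClosure_normal
  obtain ⟨z, hzN, hz1, hzS⟩ := exists_central_of_normal (S : Subgroup G) N S.isPGroup' hNS hNne
  have hztop : (S : Subgroup G) ⊔ C ≤ centralizer ({z} : Set G) := by
    apply sup_le
    · intro s hs
      rw [mem_centralizer_singleton_iff]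
      exact hzS s hs
    · intro c hc
      rw [mem_centralizer_singleton_iff]
      exact (mem_centralizer_iff.mp hc z hzN).symm
  rw [hSC] at hztop
  have hzc : z ∈ center G := by
    rw [Subgroup.mem_center_iff]
    intro w
    have := hztop (mem_top w)
    rw [mem_centralizer_singleton_iff] at this
    exact this
  rw [hZ] at hzc
  exact hz1 (mem_bot.mp hzc)

theorem map_closure_pair {G H : Type*} [Group G] [Group H] (f : G →* H) (x y : G) :
    closure ({f x, f y} : Set H) = (closure ({x, y} : Set G)).map f := by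
  rw [MonoidHom.map_closure, Set.image_pair]

theorem nilp_map {G H : Type*} [Group G] [Group H] (f : G →* H) (x y : G)
    (h : Group.IsNilpotent ↥(closure ({x, y} : Set G))) :
    Group.IsNilpotent ↥(closure ({f x, f y} : Set H)) := by
  rw [map_closure_pair]
  exact Group.nilpotent_of_surjective (f.subgroupMap _) (f.subgroupMap_surjective _)

theorem mem_of_forall_nilp (n : ℕ) (G : Type u) [Group G] [Finite G] (hn : Nat.card G = n) (g : G)
    (h : ∀ x : G, Group.IsNilpotent ↥(closure ({x, g} : Set G))) :
    g ∈ ⨆ n : ℕ, Subgroup.upperCentralSeries G n := by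
  induction n using Nat.strong_induction_on generalizing G with
  | _ n ih =>
  by_cases hZ : center G = ⊥
  · rw [eq_one_of_center_eq_bot g h hZ]
    exact one_mem _
  · have hlt : Nat.card (G ⧸ center G) < n := by
      have h1 := (center G).card_eq_card_quotient_mul_card_subgroup
      have h2 : 1 < Nat.card (center G) := by
        have h3 : Nat.card (center G) ≠ 1 := fun h4 => hZ (Subgroup.card_eq_one.mp h4)
        have h4 : 0 < Nat.card (center G) := Nat.card_pos
        omega
      have h5 : 0 < Nat.card (G ⧸ center G) := Nat.card_pos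
      rw [← hn, h1]
      nlinarith
    have hbar : ∀ x : G ⧸ center G, Group.IsNilpotent
        ↥(closure ({x, QuotientGroup.mk' (center G) g} : Set (G ⧸ center G))) := by
      intro x
      obtain ⟨x, rfl⟩ := QuotientGroup.mk'_surjective (center G) x
      exact nilp_map _ x g (h x)
    have h1 := ih _ hlt (G ⧸ center G) rfl _ hbar
    rw [mem_iSup_of_directed (Subgroup.upperCentralSeries_mono (G ⧸ center G)).directed_le] at h1
    obtain ⟨m, hm⟩ := h1
    refine mem_iSup_of_mem (m + 1) ?_
    rw [← Subgroup.comap_upperCentralSeries_quotient_center]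
    exact hm

theorem nilp_of_mem (n : ℕ) (G : Type u) [Group G] (g : G) (hg : g ∈ Subgroup.upperCentralSeries G n)
    (x : G) : Group.IsNilpotent ↥(closure ({x, g} : Set G)) := by
  induction n generalizing G with
  | zero =>
    have h1 : g = 1 := by
      rw [Subgroup.upperCentralSeries_zero] at hg
      exact mem_bot.mp hg
    subst h1
    have h2 : closure ({x, 1} : Set G) = zpowers x := by
      rw [Set.pair_comm, closure_insert_one, zpowers_eq_closure]
    rw [h2]
    letI : CommGroup (zpowers x) := { (inferInstance : Group (zpowers x)) with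
      mul_comm := fun a b => by
        obtain ⟨a, i, rfl⟩ := a
        obtain ⟨b, j, rfl⟩ := b
        apply Subtype.ext
        exact zpow_mul_comm x i j }
    exact CommGroup.isNilpotent
  | succ n ih =>
    rw [← Subgroup.comap_upperCentralSeries_quotient_center] at hg
    have h1 := ih (G ⧸ center G) _ hg (QuotientGroup.mk' (center G) x)
    set π := QuotientGroup.mk' (center G) with hπ
    set K := closure ({x, g} : Set G) with hK
    have hmem : ∀ k : K, π k ∈ closure ({π x, π g} : Set (G ⧸ center G)) := by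
      intro k
      rw [map_closure_pair]
      exact ⟨k, k.2, rfl⟩
    let f : K →* closure ({π x, π g} : Set (G ⧸ center G)) :=
      (π.comp K.subtype).codRestrict _ hmem
    haveI := h1
    apply Subgroup.isNilpotent_of_ker_le_center f
    intro k hk
    have h2 : π (k : G) = 1 := by
      have := congrArg Subtype.val (MonoidHom.mem_ker.mp hk)
      exact this
    have h3 : (k : G) ∈ center G := by
      rw [hπ, QuotientGroup.mk'_apply, QuotientGroup.eq_one_iff] at h2
      exact h2
    rw [Subgroup.mem_center_iff] at h3 ⊢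
    intro w
    exact Subtype.ext (h3 w)

/-- In a finite group G the set of elements g such that the subgroup generated by g and x is nilpotent for every x ∈ G is exactly the hypercenter of G (the last term of the upper central series). -/
theorem result {G : Type*} [Group G] [Finite G] (g : G) :
    (∀ x : G, Group.IsNilpotent ↥(Subgroup.closure ({x, g} : Set G))) ↔ g ∈ ⨆ n : ℕ, Subgroup.upperCentralSeries G n := by
  constructor
  · intro h
    exact mem_of_forall_nilp _ G rfl g h
  · intro h x
    rw [mem_iSup_of_directed (Subgroup.upperCentralSeries_mono G).directed_le] at h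
    obtain ⟨m, hm⟩ := h
    exact nilp_of_mem m G g hm x

end Cfsg.Agent.S3939
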