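import Mathlib
import Cfsg.Statements.S3941

set_option autoImplicit false
open Cfsg

namespace Cfsg.Agent.S3941

open Equiv Equiv.Perm

/-- An even permutation of prime order `p` fixing `last`. -/
theorem exists_cycle (n p : ℕ) [Fact p.Prime] (hp : p ≠ 2) (hlt : p < n) (last : Fin n) :
    ∃ c : Perm (Fin n), orderOf c = p ∧ sign c = 1 ∧ c last = last := by
  classical
  have hpp : p.Prime := Fact.out
  let q : Fin n → Prop := fun x => x ≠ last
  have hcard : Fintype.card {x // q x} = n - 1 := by
    simp [q, Fintype.card_subtype_compl]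
  obtain ⟨g, hg⟩ := (exists_with_cycleType_iff {x // q x} (m := {p})).mpr
    ⟨by simp only [Multiset.sum_singleton, hcard]; omega,
     by simpa using hpp.two_le⟩
  let c : Perm (Fin n) := ofSubtype g
  have hcyc : c.cycleType = {p} := by
    rw [cycleType_ofSubtype]
    exact hg
  have hord : orderOf c = p := by
    rw [← lcm_cycleType, hcyc]
    simp
  refine ⟨c, hord, ?_, ?_⟩
  · have h1 : (sign c) ^ p = 1 := by
      rw [← map_pow, ← hord, pow_orderOf_eq_one, map_one]
    have hodd : Odd p := hpp.odd_of_ne_two hp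
    rcases Int.units_eq_one_or (sign c) with h | h
    · exact h
    · rw [h, hodd.neg_one_pow] at h1
      exact absurd h1 (by decide)
  · exact ofSubtype_apply_of_not_mem g (by simp [q])

/-- The core: no subgroup of `Perm (Fin n)` can be the set of `p`-elements of the point
stabilizer in the alternating group. -/
theorem core (n p : ℕ) (hn : 5 ≤ n) [Fact p.Prime] (hp : p ≠ 2) (hlt : p < n) (last : Fin n)
    (hlast : (last : ℕ) = n - 1)
    (Q : Subgroup (Perm (Fin n)))
    (hQ1 : ∀ σ ∈ Q, ∃ k : ℕ, orderOf σ = p ^ k)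
    (hQ2 : ∀ σ ∈ Q, ∀ g : Perm (Fin n), sign g = 1 → g last = last → g * σ * g⁻¹ ∈ Q)
    (hQ3 : ∀ σ : Perm (Fin n), sign σ = 1 → σ last = last → (∃ k : ℕ, orderOf σ = p ^ k) → σ ∈ Q) :
    False := by
  classical
  have hpp : p.Prime := Fact.out
  by_cases hp3 : p = 3
  · subst hp3
    let a : Fin n := ⟨0, by omega⟩
    let b : Fin n := ⟨1, by omega⟩
    let c : Fin n := ⟨2, by omega⟩
    let d : Fin n := ⟨3, by omega⟩
    have hab : a ≠ b := by simp [a, b, Fin.ext_iff]
    have hac : a ≠ c := by simp [a, c, Fin.ext_iff]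
    have had : a ≠ d := by simp [a, d, Fin.ext_iff]
    have hbc : b ≠ c := by simp [b, c, Fin.ext_iff]
    have hbd : b ≠ d := by simp [b, d, Fin.ext_iff]
    have hcd : c ≠ d := by simp [c, d, Fin.ext_iff]
    have hal : a ≠ last := by
      intro h
      have := congrArg Fin.val h
      simp [a, hlast] at this
      omega
    have hbl : b ≠ last := by
      intro h
      have := congrArg Fin.val h
      simp [b, hlast] at this
      omega
    have hcl : c ≠ last := by
      intro h
      have := congrArg Fin.val h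
      simp [c, hlast] at this
      omega
    have hdl : d ≠ last := by
      intro h
      have := congrArg Fin.val h
      simp [d, hlast] at this
      omega
    have hu := isThreeCycle_swap_mul_swap_same hab hac hbc
    have hv := isThreeCycle_swap_mul_swap_same hab had hbd
    have hfix : ∀ x y : Fin n, x ≠ last → y ≠ last → swap x y last = last := fun x y hx hy =>
      swap_apply_of_ne_of_ne hx.symm hy.symm
    have huQ : swap a b * swap a c ∈ Q := by
      refine hQ3 _ hu.sign ?_ ⟨1, by rw [hu.orderOf, pow_one]⟩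
      rw [Perm.mul_apply, hfix _ _ hal hcl, hfix _ _ hal hbl]
    have hvQ : swap a b * swap a d ∈ Q := by
      refine hQ3 _ hv.sign ?_ ⟨1, by rw [hv.orderOf, pow_one]⟩
      rw [Perm.mul_apply, hfix _ _ hal hdl, hfix _ _ hal hbl]
    have hw := Q.mul_mem huQ hvQ
    have hww : swap a b * swap a c * (swap a b * swap a d) = swap c b * swap a d := by
      have h1 := swap_mul_swap_mul_swap (x := c) (y := a) (z := b) hac.symm hbc.symm
      calc swap a b * swap a c * (swap a b * swap a d)
          = (swap a b * swap a c * swap a b) * swap a d := by group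
        _ = (swap a b * swap c a * swap a b) * swap a d := by rw [swap_comm a c]
        _ = swap b c * swap a d := by rw [h1]
        _ = swap c b * swap a d := by rw [swap_comm b c]
    rw [hww] at hw
    obtain ⟨k, hk⟩ := hQ1 _ hw
    have hsq : (swap c b * swap a d) ^ 2 = 1 := by
      have hdisj : Disjoint (swap c b) (swap a d) :=
        disjoint_iff_disjoint_support.mpr (by
          rw [support_swap hbc.symm, support_swap had]
          simp [Finset.disjoint_left, hac.symm, hcd, hbd, hab.symm])
      rw [hdisj.commute.mul_pow]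
      simp [pow_two]
    have h2 : orderOf (swap c b * swap a d) ∣ 2 := orderOf_dvd_of_pow_eq_one hsq
    rw [hk] at h2
    have h3 : k = 0 := by
      by_contra hk0
      have : 3 ∣ 3 ^ k := dvd_pow_self 3 hk0
      have := dvd_trans this h2
      omega
    subst h3
    rw [pow_zero, orderOf_eq_one_iff] at hk
    have h4 := congrArg (fun f => f a) hk
    simp only [Perm.mul_apply, Perm.one_apply, swap_apply_left] at h4
    rw [swap_apply_of_ne_of_ne hcd.symm hbd.symm] at h4
    exact had h4.symm
  · -- `p ≥ 5`
    obtain ⟨c, hcord, hcs, hcl⟩ := exists_cycle n p hp hlt last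
    have hp5 : 5 ≤ p := by
      have h2 := hpp.two_le
      have h4 : p ≠ 4 := by
        rintro rfl
        exact absurd hpp (by norm_num)
      omega
    have hc1 : c ≠ 1 := by
      rintro rfl
      rw [orderOf_one] at hcord
      exact hpp.one_lt.ne hcord
    obtain ⟨x, hx⟩ : ∃ x, c x ≠ x := by
      by_contra hno
      push Not at hno
      exact hc1 (Equiv.ext hno)
    have hxl : x ≠ last := by
      rintro rfl
      exact hx hcl
    -- powers of `c` move `x`
    have hmove : ∀ i : ℕ, 0 < i → i < p → (c ^ i) x ≠ x := by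
      intro i hi0 hip hfix
      have hcop : Nat.Coprime i p :=
        ((Nat.Prime.coprime_iff_not_dvd hpp).mpr (Nat.not_dvd_of_pos_of_lt hi0 hip)).symm
      obtain ⟨m, -, hm⟩ := Nat.exists_mul_mod_eq_one_of_coprime hcop hpp.one_lt
      have h1 : c = c ^ (i * m) := by
        rw [← pow_mod_orderOf, hcord, hm, pow_one]
      have h2 : ∀ m : ℕ, ((c ^ i) ^ m) x = x := by
        intro m
        induction m with
        | zero => simp
        | succ m ih =>
          rw [pow_succ, Perm.mul_apply, hfix, ih]
      apply hx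
      rw [h1, pow_mul]
      exact h2 m
    set x1 := c x with hx1
    set x2 := c x1 with hx2
    set x3 := c x2 with hx3
    have h01 : x ≠ x1 := fun h => hx h.symm
    have h02 : x ≠ x2 := fun h => hmove 2 (by norm_num) (by omega) (by
      show (c ^ 2) x = x
      rw [pow_two, Perm.mul_apply]
      exact h.symm)
    have h03 : x ≠ x3 := fun h => hmove 3 (by norm_num) (by omega) (by
      show (c ^ 3) x = x
      rw [pow_succ, pow_two, Perm.mul_apply, Perm.mul_apply]
      exact h.symm)
    have h12 : x1 ≠ x2 := fun h => h01 (c.injective h)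
    have h13 : x1 ≠ x3 := fun h => h02 (c.injective h)
    have h23 : x2 ≠ x3 := fun h => h12 (c.injective h)
    have hl1 : x1 ≠ last := fun h => hxl (c.injective (h.trans hcl.symm))
    have hl2 : x2 ≠ last := fun h => hl1 (c.injective (h.trans hcl.symm))
    have hfix : ∀ u v : Fin n, u ≠ last → v ≠ last → swap u v last = last := fun u v hu hv =>
      swap_apply_of_ne_of_ne hu.symm hv.symm
    -- the 3-cycle `g`
    have hg3 := isThreeCycle_swap_mul_swap_same h01.symm h12 h02
    let g : Perm (Fin n) := swap x1 x * swap x1 x2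
    have hgl : g last = last := by
      show (swap x1 x * swap x1 x2) last = last
      rw [Perm.mul_apply, hfix _ _ hl1 hl2, hfix _ _ hl1 hxl]
    have hcQ : c ∈ Q := hQ3 c hcs hcl ⟨1, by rw [hcord, pow_one]⟩
    have h1 : g * c * g⁻¹ ∈ Q := hQ2 c hcQ g hg3.sign hgl
    have h2 : g * c * g⁻¹ * c⁻¹ ∈ Q := Q.mul_mem h1 (Q.inv_mem hcQ)
    have hw : g * c * g⁻¹ * c⁻¹ = swap x1 x * swap x1 x3 := by
      have e1 : swap x2 x3 = c * swap x1 x2 * c⁻¹ := swap_apply_apply c x1 x2
      have e2 : swap x2 x1 = c * swap x1 x * c⁻¹ := swap_apply_apply c x1 x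
      have e3 := swap_mul_swap_mul_swap (x := x3) (y := x2) (z := x1) h23.symm h13.symm
      have e4 : g⁻¹ = swap x1 x2 * swap x1 x := by
        show (swap x1 x * swap x1 x2)⁻¹ = _
        rw [mul_inv_rev, swap_inv, swap_inv]
      calc g * c * g⁻¹ * c⁻¹ = g * (c * g⁻¹ * c⁻¹) := by group
        _ = g * (c * (swap x1 x2 * swap x1 x) * c⁻¹) := by rw [e4]
        _ = g * ((c * swap x1 x2 * c⁻¹) * (c * swap x1 x * c⁻¹)) := by group
        _ = g * (swap x2 x3 * swap x2 x1) := by rw [← e1, ← e2]
        _ = swap x1 x * (swap x1 x2 * swap x2 x3 * swap x2 x1) := by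
            show swap x1 x * swap x1 x2 * (swap x2 x3 * swap x2 x1) = _
            group
        _ = swap x1 x * (swap x2 x1 * swap x3 x2 * swap x2 x1) := by
            rw [swap_comm x1 x2, swap_comm x2 x3]
        _ = swap x1 x * swap x1 x3 := by rw [e3]
    rw [hw] at h2
    obtain ⟨k, hk⟩ := hQ1 _ h2
    have h3cyc := isThreeCycle_swap_mul_swap_same h01.symm h13 h03
    rw [h3cyc.orderOf] at hk
    have hk0 : k ≠ 0 := by
      rintro rfl
      simp at hk
    have hd : p ∣ 3 := by
      rw [hk]
      exact dvd_pow_self p hk0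
    have := Nat.le_of_dvd (by norm_num) hd
    omega

theorem mem_of_normal_sylow {H : Type*} [Group H] [Finite H] {p : ℕ} [Fact p.Prime]
    (P : Sylow p H) (hP : (P : Subgroup H).Normal) (x : H) (k : ℕ) (hx : orderOf x = p ^ k) :
    x ∈ (P : Subgroup H) := by
  have hz : IsPGroup p ↥(Subgroup.zpowers x) := by
    apply IsPGroup.of_card (n := k)
    rw [Nat.card_zpowers, hx]
  obtain ⟨Q, hQ⟩ := hz.exists_le_sylow
  letI := Sylow.unique_of_normal P hP
  have : Q = P := Subsingleton.elim _ _
  rw [← this]
  exact hQ (Subgroup.mem_zpowers x)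

/-- Let n ≥ 5 and p an odd prime with p ≤ n, and suppose that every proper subgroup of the alternating group of degree n whose order is divisible by p has a normal Sylow p-subgroup. Then n = p. -/
theorem result (n p : ℕ) (hn : 5 ≤ n) [Fact p.Prime] (hp : p ≠ 2) (hpn : p ≤ n)
    (h : ∀ H : Subgroup ↥(alternatingGroup (Fin n)), H ≠ ⊤ → p ∣ Nat.card ↥H → Cfsg.IsPClosed p ↥H) : n = p := by
  classical
  by_contra hne
  have hlt : p < n := lt_of_le_of_ne hpn (Ne.symm hne)
  have hpp : p.Prime := Fact.out
  let last : Fin n := ⟨n - 1, by omega⟩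
  let H : Subgroup ↥(alternatingGroup (Fin n)) :=
    { carrier := {a | (a : Perm (Fin n)) last = last}
      mul_mem' := by
        intro a b ha hb
        show ((a : Perm (Fin n)) * (b : Perm (Fin n))) last = last
        rw [Perm.mul_apply, hb, ha]
      one_mem' := rfl
      inv_mem' := by
        intro a ha
        show ((a : Perm (Fin n)))⁻¹ last = last
        rw [Perm.inv_eq_iff_eq]
        exact ha.symm }
  have hmk : ∀ σ : Perm (Fin n), sign σ = 1 → σ last = last → ∃ s : ↥H, ((s : ↥(alternatingGroup (Fin n))) : Perm (Fin n)) = σ := by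
    intro σ hs hl
    exact ⟨⟨⟨σ, Equiv.Perm.mem_alternatingGroup.mpr hs⟩, hl⟩, rfl⟩
  have hHne : H ≠ ⊤ := by
    intro htop
    let a : Fin n := ⟨0, by omega⟩
    let b : Fin n := ⟨1, by omega⟩
    have hab : a ≠ b := by simp [a, b, Fin.ext_iff]
    have hla : last ≠ a := by
      intro h
      have := congrArg Fin.val h
      simp [a, last] at this
      omega
    have hlb : last ≠ b := by
      intro h
      have := congrArg Fin.val h
      simp [b, last] at this
      omega
    have h3 := isThreeCycle_swap_mul_swap_same hla hlb hab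
    have hm : (⟨_, Equiv.Perm.mem_alternatingGroup.mpr h3.sign⟩ : ↥(alternatingGroup (Fin n))) ∈ H := by
      rw [htop]
      trivial
    have h5 : (swap last a * swap last b) last = last := hm
    rw [Perm.mul_apply, swap_apply_left, swap_apply_of_ne_of_ne hlb.symm hab.symm] at h5
    exact hlb h5.symm
  obtain ⟨c, hcord, hcs, hcl⟩ := exists_cycle n p hp hlt last
  have hdvd : p ∣ Nat.card ↥H := by
    obtain ⟨s, hs⟩ := hmk c hcs hcl
    have h1 : orderOf s = p := by
      rw [← Subgroup.orderOf_coe, ← Subgroup.orderOf_coe, hs, hcord]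
    rw [← h1]
    exact orderOf_dvd_natCard s
  have hclosed := h H hHne hdvd
  obtain ⟨P⟩ : Nonempty (Sylow p ↥H) := inferInstance
  have hPn := hclosed P
  let ι : ↥H →* Perm (Fin n) := (alternatingGroup (Fin n)).subtype.comp H.subtype
  have hιinj : Function.Injective ι := by
    intro u v huv
    exact Subtype.ext (Subtype.ext huv)
  let Q : Subgroup (Perm (Fin n)) := (P : Subgroup ↥H).map ι
  refine core n p hn hp hlt last rfl Q ?_ ?_ ?_
  · rintro σ ⟨s, hs, rfl⟩
    obtain ⟨k, hk⟩ := (IsPGroup.iff_orderOf.mp P.isPGroup') ⟨s, hs⟩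
    rw [Subgroup.orderOf_mk] at hk
    exact ⟨k, by rw [orderOf_injective ι hιinj, hk]⟩
  · rintro σ ⟨s, hs, rfl⟩ g hgs hgl
    obtain ⟨t, rfl⟩ := hmk g hgs hgl
    refine ⟨t * s * t⁻¹, hPn.conj_mem s hs t, ?_⟩
    simp [ι]
  · intro σ hs hl ⟨k, hk⟩
    obtain ⟨t, rfl⟩ := hmk σ hs hl
    refine ⟨t, ?_, rfl⟩
    apply mem_of_normal_sylow P hPn t k
    rw [← hk, ← Subgroup.orderOf_coe, ← Subgroup.orderOf_coe]

end Cfsg.Agent.S3941
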