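import Mathlib
import Cfsg.Statements.S3949

set_option autoImplicit false
open Cfsg

namespace Cfsg.Agent.S3949

/-- Let G be a finite group and α an automorphism of G of order 2 such that the elements g·α(g)⁻¹ generate G. Let j be a positive integer such that 2^j divides the order of no element inverted by α. Then the set of values of the j-th iterate of the map c ↦ c·α(c)⁻¹ is exactly the set of elements of odd order inverted by α. -/
theorem result {G : Type*} [Group G] [Finite G] (α : MulAut G) (hα : orderOf α = 2) (hG : Subgroup.closure (Set.range (fun c : G => c * (α c)⁻¹)) = ⊤)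
    (j : ℕ) (hj : ∀ g : G, α g = g⁻¹ → ¬ 2 ^ j ∣ orderOf g) :
    Set.range ((fun c : G => c * (α c)⁻¹)^[j]) = {g : G | Odd (orderOf g) ∧ α g = g⁻¹} := by
  have hαα : ∀ x : G, α (α x) = x := by
    intro x
    have h2 : α ^ 2 = 1 := by rw [← hα]; exact pow_orderOf_eq_one α
    have := congrArg (fun φ : MulAut G => φ x) h2
    simpa [pow_two] using this
  set f : G → G := fun c : G => c * (α c)⁻¹ with hf
  -- values of `f` are inverted
  have hinv : ∀ c, α (f c) = (f c)⁻¹ := by
    intro c
    simp [hf, hαα]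
  -- `f` squares inverted elements
  have hsq : ∀ d, α d = d⁻¹ → f d = d * d := by
    intro d hd
    simp [hf, hd]
  have hpow : ∀ d, α d = d⁻¹ → ∀ k : ℕ, f^[k] d = d ^ 2 ^ k := by
    intro d hd k
    induction k with
    | zero => simp
    | succ k ih =>
      rw [Function.iterate_succ_apply', ih, hsq]
      · rw [pow_succ 2 k, pow_mul, pow_two]
      · rw [map_pow, hd, inv_pow]
  have hj0 : j ≠ 0 := by
    rintro rfl
    exact hj 1 (by simp) (by simp)
  obtain ⟨i, rfl⟩ : ∃ i, j = i + 1 := ⟨j - 1, by omega⟩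
  ext g
  constructor
  · rintro ⟨c, rfl⟩
    rw [Function.iterate_succ_apply]
    set d := f c with hd
    have hdinv : α d = d⁻¹ := hinv c
    rw [hpow d hdinv]
    refine ⟨?_, by rw [map_pow, hdinv, inv_pow]⟩
    -- odd order
    have h1 : ¬ 2 ^ (i + 1) ∣ orderOf d := hj d hdinv
    rw [← Nat.not_even_iff_odd]
    intro heven
    have h2 : 2 ∣ orderOf (d ^ 2 ^ i) := heven.two_dvd
    rw [orderOf_pow' d (pow_ne_zero i (by norm_num : (2 : ℕ) ≠ 0))] at h2
    obtain ⟨w, hw, hgw⟩ := (Nat.dvd_prime_pow Nat.prime_two).mp (Nat.gcd_dvd_right (orderOf d) (2 ^ i))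
    rw [hgw] at h2
    have hdvd : 2 ^ w ∣ orderOf d := hgw ▸ Nat.gcd_dvd_left _ _
    have h3 : 2 ^ (w + 1) ∣ orderOf d := by
      obtain ⟨u, hu⟩ := h2
      obtain ⟨v, hv⟩ := hdvd
      have hpos : 0 < 2 ^ w := by positivity
      have : orderOf d / 2 ^ w = v := by rw [hv]; exact Nat.mul_div_cancel_left v hpos
      rw [this] at hu
      rw [hv, hu, pow_succ]
      exact ⟨u, by ring⟩
    rcases Nat.lt_or_ge w i with hlt | hge
    · have h4 : 2 ^ (w + 1) ∣ Nat.gcd (orderOf d) (2 ^ i) :=
        Nat.dvd_gcd h3 (pow_dvd_pow 2 hlt)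
      rw [hgw] at h4
      have := Nat.le_of_dvd (by positivity) h4
      rw [pow_succ] at this
      have hpos : 0 < 2 ^ w := by positivity
      omega
    · have hwi : w = i := le_antisymm hw hge
      rw [hwi] at h3
      exact h1 h3
  · rintro ⟨hodd, hinv'⟩
    have hcop : Nat.Coprime (2 ^ (i + 1)) (orderOf g) := Nat.Coprime.pow_left _ (Nat.coprime_two_left.mpr hodd)
    have hbez := Nat.gcd_eq_gcd_ab (2 ^ (i + 1)) (orderOf g)
    rw [hcop.gcd_eq_one] at hbez
    set a := Nat.gcdA (2 ^ (i + 1)) (orderOf g)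
    set b := Nat.gcdB (2 ^ (i + 1)) (orderOf g)
    let x : G := g ^ a
    have hxinv : α x = x⁻¹ := by
      simp only [x, map_zpow, hinv', inv_zpow]
    refine ⟨x, ?_⟩
    show f^[i + 1] x = g
    rw [hpow x hxinv]
    simp only [x]
    rw [← zpow_natCast, ← zpow_mul]
    have h1 : a * ((2 ^ (i + 1) : ℕ) : ℤ) = 1 - ((orderOf g : ℕ) : ℤ) * b := by
      have h := hbez
      push_cast at h ⊢
      linarith
    rw [h1, zpow_sub, zpow_one, zpow_mul, zpow_natCast, pow_orderOf_eq_one, one_zpow, inv_one, mul_one]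

end Cfsg.Agent.S3949
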