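import Mathlib
import Cfsg.Statements.S3950
import Cfsg.Agent.Lib.StemHeis
import Cfsg.Agent.S3979
import Cfsg.Agent.S3917

set_option autoImplicit false
open Cfsg

namespace Cfsg.Agent.S3950

open Subgroup

/-- A vector space over `ℤ/p` with more than `p` elements has two independent coordinates. -/
theorem exists_coords_mod {M : Type*} [AddCommGroup M] [Finite M] {p : ℕ} [Fact p.Prime] [Module (ZMod p) M]
    (hcard : p < Nat.card M) : ∃ (f g : M →+ ZMod p) (a b : M), f a = 1 ∧ g b = 1 ∧ f b = 0 := by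
  classical
  haveI : Module.Finite (ZMod p) M := Module.Finite.of_finite
  have hcard2 : Nat.card M = p ^ Module.finrank (ZMod p) M := by
    have := Module.natCard_eq_pow_finrank (K := ZMod p) (V := M)
    rwa [Nat.card_zmod] at this
  have hp : p.Prime := Fact.out
  have hrank : 2 ≤ Module.finrank (ZMod p) M := by
    by_contra hcon
    push Not at hcon
    have h1 : Nat.card M ≤ p ^ 1 := by
      rw [hcard2]
      exact Nat.pow_le_pow_right hp.pos (by omega)
    rw [pow_one] at h1
    omega
  let bb := Module.finBasis (ZMod p) M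
  let i₀ : Fin (Module.finrank (ZMod p) M) := ⟨0, by omega⟩
  let i₁ : Fin (Module.finrank (ZMod p) M) := ⟨1, by omega⟩
  have hne : i₀ ≠ i₁ := by
    intro h
    have := congrArg Fin.val h
    simp [i₀, i₁] at this
  refine ⟨(bb.coord i₀).toAddMonoidHom, (bb.coord i₁).toAddMonoidHom, bb i₀, bb i₁, ?_, ?_, ?_⟩
  · show bb.coord i₀ (bb i₀) = 1
    simp
  · show bb.coord i₁ (bb i₁) = 1
    simp
  · show bb.coord i₀ (bb i₁) = 0
    simp [hne.symm]

/-- An elementary abelian group of order more than `p` has two independent coordinates. -/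
theorem exists_chi {V : Type*} [CommGroup V] [Finite V] {p : ℕ} (hp : p.Prime) (hexp : ∀ v : V, v ^ p = 1)
    (hcard : p < Nat.card V) : ∃ (χ₁ χ₂ : V →* Multiplicative (ZMod p)) (a b : V),
      (χ₁ a).toAdd = 1 ∧ (χ₂ b).toAdd = 1 ∧ (χ₁ b).toAdd = 0 := by
  haveI : Fact p.Prime := ⟨hp⟩
  have hVexp : ∀ v : Additive V, p • v = 0 := fun v => hexp (Additive.toMul v)
  haveI : Finite (Additive V) := inferInstanceAs (Finite V)
  obtain ⟨f, g, a, b, h1, h2, h3⟩ := @exists_coords_mod (Additive V) _ _ p _ (AddCommGroup.zmodModule hVexp) hcard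
  let toM : (Additive V →+ ZMod p) → (V →* Multiplicative (ZMod p)) := fun f =>
    MonoidHom.mk' (fun x => Multiplicative.ofAdd (f (Additive.ofMul x))) (by
      intro x y
      rw [ofMul_mul, map_add, ofAdd_add])
  exact ⟨toM f, toM g, Additive.toMul a, Additive.toMul b, h1, h2, h3⟩

/-- A finite abelian group with large `p`-torsion has a nontrivial stem extension. -/
theorem not_multiplier_one {G : Type*} [CommGroup G] [Finite G] {p : ℕ} (hp : p.Prime)
    (hcard : p < Nat.card (powMonoidHom p : G →* G).ker) : ¬ Cfsg.HasCyclicSchurMultiplier G 1 := by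
  classical
  intro hm
  haveI : Fact p.Prime := ⟨hp⟩
  haveI : NeZero p := ⟨hp.ne_zero⟩
  let R : Subgroup G := (powMonoidHom p : G →* G).range
  have hVcard : Nat.card (G ⧸ R) = Nat.card (powMonoidHom p : G →* G).ker := by
    have h1 := Subgroup.card_mul_index (powMonoidHom p : G →* G).ker
    have h2 := Subgroup.card_mul_index R
    rw [Subgroup.index_ker] at h1
    have h3 : Nat.card (G ⧸ R) = R.index := rfl
    rw [← h3] at h2
    have h4 : Nat.card R ≠ 0 := Nat.card_pos.ne'
    have h5 : Nat.card R * Nat.card (G ⧸ R) = Nat.card R * Nat.card (powMonoidHom p : G →* G).ker := by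
      rw [h2, ← h1]
      ring_nf
      rfl
    exact Nat.eq_of_mul_eq_mul_left (Nat.pos_of_ne_zero h4) h5
  have hVexp : ∀ v : G ⧸ R, v ^ p = 1 := by
    intro v
    obtain ⟨g, rfl⟩ := QuotientGroup.mk'_surjective R v
    rw [← map_pow]
    have h2 : g ^ p ∈ R := ⟨g, rfl⟩
    rw [← MonoidHom.mem_ker, QuotientGroup.ker_mk']
    exact h2
  obtain ⟨χ₁, χ₂, a, b, h1, h2, h3⟩ := exists_chi hp hVexp (by rw [hVcard]; exact hcard)
  obtain ⟨a, rfl⟩ := QuotientGroup.mk'_surjective R a
  obtain ⟨b, rfl⟩ := QuotientGroup.mk'_surjective R b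
  let c₁ := χ₁.comp (QuotientGroup.mk' R)
  let c₂ := χ₂.comp (QuotientGroup.mk' R)
  have hstem := Cfsg.Agent.Lib.StemHeis.isStem c₁ c₂ a b h1 h2 h3
  obtain ⟨π, hπ⟩ := hm.2 _ _ hstem
  -- the kernel has `p` elements
  have hk : Nat.card (Cfsg.Agent.Lib.StemHeis.twFst c₁ c₂).ker = p := by
    rw [Nat.card_congr (Cfsg.Agent.Lib.StemHeis.kerEquiv c₁ c₂).toEquiv]
    show Nat.card (ZMod p) = p
    exact Nat.card_zmod p
  have hle : Nat.card (Cfsg.Agent.Lib.StemHeis.twFst c₁ c₂).ker ≤ Nat.card (Multiplicative (ZMod 1)) :=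
    Nat.card_le_card_of_surjective π hπ
  have h1' : Nat.card (Multiplicative (ZMod 1)) = 1 := Nat.card_zmod 1
  rw [hk, h1'] at hle
  exact absurd hp.two_le (by omega)

/-- A finite abelian group has trivial Schur multiplier if and only if it is cyclic. -/
theorem result {G : Type*} [CommGroup G] [Finite G] : Cfsg.HasCyclicSchurMultiplier G 1 ↔ IsCyclic G := by
  constructor
  · intro h
    apply Cfsg.Agent.S3917.isCyclic_of_torsion_le
    intro p hp
    by_contra hcon
    push Not at hcon
    exact not_multiplier_one hp hcon h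
  · intro h
    exact Cfsg.Agent.S3979.result

end Cfsg.Agent.S3950
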