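import Mathlib
import Cfsg.Statements.S4843
import Cfsg.Agent.Lib.CharPow
import Cfsg.Agent.Lib.CharCentral
import Cfsg.Agent.Lib.CharProduct
import Cfsg.Agent.Lib.CharEquiv
import Cfsg.Agent.Lib.CharInduction

set_option autoImplicit false
set_option linter.style.haveILetI false
set_option linter.unusedSectionVars false
open Cfsg

namespace Cfsg.Agent.S4843

open Cfsg.Agent.Lib
open Cfsg.Agent.Lib.CharBasic
open Cfsg.Agent.Lib.CharPow
open Cfsg.Agent.Lib.CharCentral
open Cfsg.Agent.Lib.CharProduct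
open scoped ComplexConjugate

section General

variable {G : Type*} [Group G] [Fintype G]

theorem rep_isIrreducible_of_char {n : ℕ} (ρ : Representation ℂ G (Fin n → ℂ))
    (h : IsIrrCharacter G ρ.character) : ρ.IsIrreducible := by
  obtain ⟨m, σ, hσ, hc⟩ := h
  obtain ⟨E⟩ := CharEquiv.equiv_of_character_eq (G := G) _ _ _ σ ρ rfl hc
  have h1 := transport_isIrreducible E.toLinearEquiv σ hσ
  have h2 : transport E.toLinearEquiv σ = ρ := by
    apply MonoidHom.ext
    intro g
    apply LinearMap.ext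
    intro v
    obtain ⟨w, rfl⟩ := E.toLinearEquiv.surjective v
    have h3 := E.toIntertwiningMap.isIntertwining _ _ g w
    rw [transport_apply, LinearEquiv.symm_apply_apply]
    exact h3
  rw [h2] at h1
  exact h1

theorem sum_conj_op {V : Type*} [AddCommGroup V] [Module ℂ V] [FiniteDimensional ℂ V]
    {π : Representation ℂ G V} (hπ : π.IsIrreducible) (T : V →ₗ[ℂ] V) :
    (∑ b : G, π b ∘ₗ T ∘ₗ π b⁻¹) =
      (((Nat.card G : ℂ) * LinearMap.trace ℂ V T) / (Module.finrank ℂ V : ℂ)) • LinearMap.id := by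
  classical
  have hcomm : ∀ g : G, (∑ b : G, π b ∘ₗ T ∘ₗ π b⁻¹) ∘ₗ π g = π g ∘ₗ (∑ b : G, π b ∘ₗ T ∘ₗ π b⁻¹) := by
    intro g
    apply LinearMap.ext
    intro v
    simp only [LinearMap.comp_apply, LinearMap.sum_apply, map_sum]
    refine Finset.sum_bij (fun b _ => g⁻¹ * b) (by simp) (by simp) ?_ ?_
    · intro b _; exact ⟨g * b, by simp, by simp⟩
    · intro b _
      simp only [map_mul, Module.End.mul_apply, mul_inv_rev, inv_inv, map_inv]
      have h1 : π g (π g⁻¹ (π b (T ((π b⁻¹) ((π g) v))))) = π b (T ((π b⁻¹) ((π g) v))) := by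
        rw [← Module.End.mul_apply, ← map_mul]
        simp
      have h2 : (π (b⁻¹ * g)) v = π b⁻¹ (π g v) := by rw [map_mul]; rfl
      simp [h1]
  obtain ⟨c, hc⟩ := schur_scalar hπ _ hcomm
  have hV : (Module.finrank ℂ V : ℂ) ≠ 0 := by
    rw [isIrreducible_iff] at hπ
    have := hπ.1
    exact_mod_cast (Module.finrank_pos (R := ℂ) (M := V)).ne'
  have htr : LinearMap.trace ℂ V (∑ b : G, π b ∘ₗ T ∘ₗ π b⁻¹) = (Nat.card G : ℂ) * LinearMap.trace ℂ V T := by
    rw [map_sum]
    have : ∀ b : G, LinearMap.trace ℂ V (π b ∘ₗ T ∘ₗ π b⁻¹) = LinearMap.trace ℂ V T := by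
      intro b
      rw [LinearMap.trace_comp_comm', LinearMap.comp_assoc]
      have : π b⁻¹ ∘ₗ π b = LinearMap.id := by
        rw [← Module.End.mul_eq_comp, ← map_mul]
        simp
        rfl
      rw [this]
      rfl
    simp only [this, Finset.sum_const, Finset.card_univ, nsmul_eq_mul, Nat.card_eq_fintype_card]
  have hc2 : c = ((Nat.card G : ℂ) * LinearMap.trace ℂ V T) / (Module.finrank ℂ V : ℂ) := by
    rw [hc, map_smul, LinearMap.trace_id, smul_eq_mul] at htr
    field_simp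
    rw [← htr]
  rw [hc, hc2]

/-- Averaging through a homomorphism: if the pull back of a character is irreducible, then
the conjugation average is scalar. -/
theorem avg_comp {Γ : Type*} [Group Γ] (f : G →* Γ) {Ξ : Γ → ℂ} (hΞ : IsCharacter Γ Ξ)
    (hirr : IsIrrCharacter G (Ξ ∘ f)) (g h : Γ) :
    Ξ 1 * ∑ b : G, Ξ (f b * g * (f b)⁻¹ * h) = (Nat.card G : ℂ) * Ξ g * Ξ h := by
  classical
  obtain ⟨n, Θ, rfl⟩ := hΞ
  let π : Representation ℂ G (Fin n → ℂ) := Θ.comp f
  have hπ : π.IsIrreducible := rep_isIrreducible_of_char π hirr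
  have h1 := sum_conj_op hπ (Θ g)
  have hfr : Module.finrank ℂ (Fin n → ℂ) = n := by simp
  rw [hfr] at h1
  have hn : (n : ℂ) ≠ 0 := by
    rw [isIrreducible_iff] at hπ
    have := hπ.1
    have h2 : 0 < Module.finrank ℂ (Fin n → ℂ) := Module.finrank_pos
    rw [hfr] at h2
    exact_mod_cast h2.ne'
  have h2 : ∑ b : G, Θ.character (f b * g * (f b)⁻¹ * h) =
      ((Nat.card G : ℂ) * Θ.character g / (n : ℂ)) * Θ.character h := by
    have h3 := congrArg (fun A => LinearMap.trace ℂ (Fin n → ℂ) (A ∘ₗ Θ h)) h1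
    have h4 : (∑ b : G, π b ∘ₗ Θ g ∘ₗ π b⁻¹) ∘ₗ Θ h = ∑ b : G, (π b ∘ₗ Θ g ∘ₗ π b⁻¹) ∘ₗ Θ h := by
      apply LinearMap.ext
      intro v
      simp [LinearMap.sum_apply]
    simp only [h4, map_sum, LinearMap.smul_comp, map_smul, LinearMap.id_comp, smul_eq_mul] at h3
    have h5 : ∀ b : G, Θ.character (f b * g * (f b)⁻¹ * h) =
        LinearMap.trace ℂ (Fin n → ℂ) ((π b ∘ₗ Θ g ∘ₗ π b⁻¹) ∘ₗ Θ h) := by
      intro b
      show LinearMap.trace ℂ (Fin n → ℂ) (Θ (f b * g * (f b)⁻¹ * h)) = _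
      congr 1
      apply LinearMap.ext
      intro v
      simp only [map_mul, Module.End.mul_apply, LinearMap.comp_apply]
      have e1 : f b⁻¹ = (f b)⁻¹ := map_inv f b
      show Θ (f b) (Θ g (Θ ((f b)⁻¹) (Θ h v))) = Θ (f b) (Θ g (Θ (f b⁻¹) (Θ h v)))
      rw [e1]
    simp only [h5]
    exact h3
  rw [h2, char_one_eq_rep]
  field_simp

end General

section Main

variable {G : Type*} [Group G] [Finite G]

/-- The pair-average identity for `χ` and its twist. -/
theorem key [Fintype G] (χ : G → ℂ) (hχ : IsCharacter G χ) (k : ℕ) (hk : Nat.Coprime k (Nat.card G))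
    (hχ' : IsCharacter G (fun g => χ (g ^ k)))
    (hirr : IsIrrCharacter G (fun g => χ g * χ (g ^ k))) (x x' y y' : G) :
    χ 1 * χ 1 * ∑ b : G, χ (b * x * b⁻¹ * y) * χ ((b * x' * b⁻¹ * y') ^ k) =
      (Nat.card G : ℂ) * (χ x * χ (x' ^ k)) * (χ y * χ (y' ^ k)) := by
  let f : G →* G × G := MonoidHom.prod (MonoidHom.id G) (MonoidHom.id G)
  have hΞ := isCharacter_prodChar hχ hχ'
  have h1 := avg_comp f hΞ hirr (x, x') (y, y')
  simpa [prodChar, f, mul_assoc] using h1

theorem exists_root (k : ℕ) (hk : Nat.Coprime k (Nat.card G)) :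
    ∃ s : ℕ, ∀ g : G, (g ^ s) ^ k = g⁻¹ := by
  set n := Nat.card G with hn
  haveI : NeZero n := ⟨Nat.card_pos.ne'⟩
  let m : ℕ := (((k : ZMod n))⁻¹).val
  have h1 : k * m ≡ 1 [MOD n] := by
    rw [← ZMod.natCast_eq_natCast_iff]
    push_cast
    rw [ZMod.natCast_val, ZMod.cast_id', id, ZMod.coe_mul_inv_eq_one _ hk]
  refine ⟨m * (n - 1), fun g => ?_⟩
  have h2 : g ^ (k * m) = g ^ 1 := by
    rw [pow_eq_pow_iff_modEq]
    exact h1.of_dvd (orderOf_dvd_natCard g)
  rw [pow_one] at h2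
  have h3 : (g ^ (m * (n - 1))) ^ k = g ^ (n - 1) := by
    rw [← pow_mul, show m * (n - 1) * k = k * m * (n - 1) by ring, pow_mul, h2]
  rw [h3]
  have h4 : g ^ (n - 1) * g = 1 := by
    rw [← pow_succ, Nat.sub_add_cancel Nat.card_pos, pow_card_eq_one']
  exact eq_inv_of_mul_eq_one_left h4

/-- An element with character value of maximal absolute value in a faithful irreducible character is
central. -/
theorem central_of_norm [Fintype G] {χ : G → ℂ} (hχ : IsIrrCharacter G χ) (hfaith : ∀ g : G, χ g = χ 1 → g = 1)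
    {y : G} (hy : χ y * conj (χ y) = χ 1 * χ 1) : y ∈ Subgroup.center G := by
  obtain ⟨n, ρ, hρ, rfl⟩ := hχ
  rw [Subgroup.mem_center_iff]
  have hfr : Module.finrank ℂ (Fin n → ℂ) = n := by simp
  have h1 : ρ.character 1 = n := char_one_eq_rep ρ
  have h2 : ‖ρ.character y‖ = (Module.finrank ℂ (Fin n → ℂ) : ℝ) := by
    rw [hfr]
    rw [h1, Complex.mul_conj] at hy
    have h3 : Complex.normSq (ρ.character y) = (n : ℝ) ^ 2 := by
      have : ((Complex.normSq (ρ.character y) : ℝ) : ℂ) = (((n : ℝ) ^ 2 : ℝ) : ℂ) := by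
        rw [hy]
        push_cast
        ring
      exact_mod_cast this
    rw [Complex.normSq_eq_norm_sq] at h3
    have h4 : 0 ≤ ‖ρ.character y‖ := norm_nonneg _
    have h5 : (0 : ℝ) ≤ n := by positivity
    nlinarith [sq_nonneg (‖ρ.character y‖ - n), sq_nonneg (‖ρ.character y‖ + n)]
  obtain ⟨ω, hω⟩ := (CharValues.norm_character_eq_iff ρ y).1 h2
  intro g
  have h3 : ρ (g * y * g⁻¹ * y⁻¹) = LinearMap.id := by
    have h4 : ρ (g * y * g⁻¹) = ρ y := by
      rw [map_mul, map_mul, hω]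
      apply LinearMap.ext
      intro v
      simp only [Module.End.mul_apply, LinearMap.smul_apply, LinearMap.id_apply, map_smul]
      rw [← Module.End.mul_apply, ← map_mul]
      simp
    rw [map_mul, h4, ← map_mul, mul_inv_cancel, map_one]
    rfl
  have h4 : ρ.character (g * y * g⁻¹ * y⁻¹) = ρ.character 1 := by
    show LinearMap.trace ℂ _ _ = LinearMap.trace ℂ _ _
    rw [h3, map_one]
    rfl
  have h5 := hfaith _ h4
  have h6 : g * y * g⁻¹ = y := by
    rwa [mul_inv_eq_one] at h5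
  rwa [mul_inv_eq_iff_eq_mul] at h6

/-- The abelian normal subgroups are central. -/
theorem abelian_case [Fintype G] {χ : G → ℂ} (hχ : IsIrrCharacter G χ)
    (hfaith : ∀ g : G, χ g = χ 1 → g = 1) {k : ℕ} (hk : Nat.Coprime k (Nat.card G))
    (hirr : IsIrrCharacter G (fun g => χ g * χ (g ^ k))) (N : Subgroup G) (hN : N.Normal)
    (hab : ∀ a ∈ N, ∀ b ∈ N, a * b = b * a) : N ≤ Subgroup.center G := by
  classical
  letI : Fintype N := Fintype.ofFinite _
  have hχc := IsIrrCharacter.isCharacter hχ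
  have hχ' := IsIrrCharacter.isCharacter (isIrr_pow hχ hk.symm)
  obtain ⟨s, hs⟩ := exists_root (G := G) k hk
  have hconj : ∀ g : G, χ ((g ^ s) ^ k) = conj (χ g) := by
    intro g
    rw [hs, char_conj_eq_inv hχc]
  intro y hy
  apply central_of_norm hχ hfaith
  let F : N → ℂ := fun x => χ x * conj (χ x)
  let S : ℂ := ∑ x : N, F x
  have hS : S ≠ 0 := by
    have h1 : ∀ x : N, F x = ((‖χ x‖ ^ 2 : ℝ) : ℂ) := by
      intro x
      simp only [F, Complex.mul_conj, Complex.normSq_eq_norm_sq]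
    have h2 : S = ((∑ x : N, ‖χ x‖ ^ 2 : ℝ) : ℂ) := by
      simp only [S, h1]
      push_cast
      rfl
    rw [h2]
    have h3 : 0 < ∑ x : N, ‖χ x‖ ^ 2 := by
      apply Finset.sum_pos' (fun _ _ => by positivity)
      refine ⟨1, Finset.mem_univ _, ?_⟩
      have h4 : χ 1 ≠ 0 := by
        obtain ⟨d, hd, hd1⟩ := CharAvg.irr_one_eq hχ
        rw [hd1]
        exact_mod_cast hd.ne'
      have h5 : ‖χ ((1 : N) : G)‖ ≠ 0 := by
        simpa using h4
      positivity
    exact_mod_cast h3.ne'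
  have hG : (Nat.card G : ℂ) ≠ 0 := natCard_ne_zero'
  -- sum the identity over `x ∈ N`
  have hsum : ∀ x : N, χ 1 * χ 1 * ∑ b : G, F (CharInduction.conjAut N hN b x * ⟨y⁻¹, N.inv_mem hy⟩) =
      (Nat.card G : ℂ) * F x * (conj (χ y) * χ y) := by
    intro x
    have h1 := key χ hχc k hk hχ' hirr (x : G) ((x : G) ^ s) y⁻¹ ((y⁻¹) ^ s)
    have h2 : χ (((x : G) ^ s) ^ k) = conj (χ x) := hconj _
    have h3 : χ (((y⁻¹) ^ s) ^ k) = χ y := by
      rw [hs, inv_inv]
    have h4 : χ y⁻¹ = conj (χ y) := (char_conj_eq_inv hχc y).symm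
    rw [h2, h3, h4] at h1
    have h5 : ∀ b : G, χ (b * x * b⁻¹ * y⁻¹) * χ ((b * (x : G) ^ s * b⁻¹ * (y⁻¹) ^ s) ^ k) =
        F (CharInduction.conjAut N hN b x * ⟨y⁻¹, N.inv_mem hy⟩) := by
      intro b
      have h6 : b * (x : G) ^ s * b⁻¹ = (b * x * b⁻¹) ^ s := (conj_pow).symm
      have h7 : Commute (b * (x : G) * b⁻¹) y⁻¹ :=
        hab _ (hN.conj_mem _ x.2 b) _ (N.inv_mem hy)
      rw [h6, ← h7.mul_pow, hconj]
      rfl
    simp only [h5] at h1
    rw [h1]
  have htotal : χ 1 * χ 1 * ((Nat.card G : ℂ) * S) = (Nat.card G : ℂ) * S * (conj (χ y) * χ y) := by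
    have h1 : ∀ b : G, ∑ x : N, F (CharInduction.conjAut N hN b x * ⟨y⁻¹, N.inv_mem hy⟩) = S := by
      intro b
      exact Equiv.sum_comp ((CharInduction.conjAut N hN b).toEquiv.trans
        (Equiv.mulRight ⟨y⁻¹, N.inv_mem hy⟩)) F
    have h2 : ∑ x : N, (χ 1 * χ 1 * ∑ b : G, F (CharInduction.conjAut N hN b x * ⟨y⁻¹, N.inv_mem hy⟩)) =
        χ 1 * χ 1 * ((Nat.card G : ℂ) * S) := by
      rw [← Finset.mul_sum, Finset.sum_comm]
      simp only [h1, Finset.sum_const, Finset.card_univ, nsmul_eq_mul, Nat.card_eq_fintype_card]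
    rw [← h2, Finset.sum_congr rfl (fun x _ => hsum x), ← Finset.sum_mul, ← Finset.mul_sum]
  have h3 : χ 1 * χ 1 = conj (χ y) * χ y := by
    have h4 : (Nat.card G : ℂ) * S ≠ 0 := mul_ne_zero hG hS
    have h5 : ((Nat.card G : ℂ) * S) * (χ 1 * χ 1) = ((Nat.card G : ℂ) * S) * (conj (χ y) * χ y) := by
      rw [← htotal]
      ring
    exact mul_left_cancel₀ h4 h5
  rw [mul_comm (χ y), ← h3]

theorem commutator_ne {N : Subgroup G} (hnil : Group.IsNilpotent N) (hbot : N ≠ ⊥) : ⁅N, N⁆ ≠ N := by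
  intro h
  have h1 : commutator N = ⊤ := by
    have h2 : (commutator N).map N.subtype = ⁅N, N⁆ := Subgroup.map_subtype_commutator N
    rw [h] at h2
    apply Subgroup.map_injective N.subtype_injective
    rw [h2, ← MonoidHom.range_eq_map, Subgroup.range_subtype]
  obtain ⟨n, hn⟩ := Subgroup.nilpotent_iff_lowerCentralSeries.1 hnil
  have h3 : ∀ m : ℕ, (⊤ : Subgroup N).lowerCentralSeries m = ⊤ := by
    intro m
    induction m with
    | zero => rfl
    | succ m ih =>
      rw [Subgroup.lowerCentralSeries_succ, ih]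
      exact h1
  have h4 := h3 n
  rw [hn] at h4
  apply hbot
  rw [Subgroup.eq_bot_iff_forall]
  intro x hx
  have h5 : (⟨x, hx⟩ : N) ∈ (⊥ : Subgroup N) := by
    rw [h4]
    exact Subgroup.mem_top _
  have h6 := Subgroup.mem_bot.1 h5
  exact congrArg Subtype.val h6

/-- The main induction. -/
theorem nilpotent_central [Fintype G] {χ : G → ℂ} (hχ : IsIrrCharacter G χ)
    (hfaith : ∀ g : G, χ g = χ 1 → g = 1) {k : ℕ} (hk : Nat.Coprime k (Nat.card G))
    (hirr : IsIrrCharacter G (fun g => χ g * χ (g ^ k))) :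
    ∀ (m : ℕ) (N : Subgroup G), Nat.card N = m → N.Normal → Group.IsNilpotent N →
      N ≤ Subgroup.center G := by
  classical
  have hχc := IsIrrCharacter.isCharacter hχ
  have hχ' := IsIrrCharacter.isCharacter (isIrr_pow hχ hk.symm)
  obtain ⟨s, hs⟩ := exists_root (G := G) k hk
  have hconj : ∀ g : G, χ ((g ^ s) ^ k) = conj (χ g) := by
    intro g
    rw [hs, char_conj_eq_inv hχc]
  intro m
  induction m using Nat.strong_induction_on with
  | _ m ih =>
    intro N hcard hN hnil
    by_cases hab : ∀ a ∈ N, ∀ b ∈ N, a * b = b * a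
    · exact abelian_case hχ hfaith hk hirr N hN hab
    exfalso
    have hbot : N ≠ ⊥ := by
      rintro rfl
      apply hab
      intro a ha b hb
      rw [Subgroup.mem_bot] at ha hb
      rw [ha, hb]
    -- the commutator subgroup
    have hN' : ⁅N, N⁆ ≤ Subgroup.center G := by
      have hle : ⁅N, N⁆ ≤ N := Subgroup.commutator_le_right N N
      have hlt : Nat.card (⁅N, N⁆ : Subgroup G) < m := by
        rw [← hcard]
        by_contra hcon
        push Not at hcon
        exact commutator_ne hnil hbot (Subgroup.eq_of_le_of_card_ge hle hcon)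
      have hnil' : Group.IsNilpotent (⁅N, N⁆ : Subgroup G) := by
        let e : (commutator N) ≃* ((commutator N).map N.subtype) :=
          (commutator N).equivMapOfInjective N.subtype N.subtype_injective
        have h2 : (commutator N).map N.subtype = ⁅N, N⁆ := Subgroup.map_subtype_commutator N
        rw [← h2]
        exact Group.nilpotent_of_mulEquiv e
      exact ih _ hlt _ rfl inferInstance hnil'
    -- the centre of `N`
    let Z : Subgroup G := N ⊓ Subgroup.centralizer (N : Set G)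
    have hZn : Z.Normal := by
      constructor
      intro x hx g
      refine Subgroup.mem_inf.2 ⟨hN.conj_mem x hx.1 g, ?_⟩
      rw [Subgroup.mem_centralizer_iff]
      intro n hn
      have h1 : g⁻¹ * n * g ∈ N := by
        have := hN.conj_mem n hn g⁻¹
        simpa using this
      have h2 := Subgroup.mem_centralizer_iff.1 hx.2 _ h1
      calc n * (g * x * g⁻¹) = g * ((g⁻¹ * n * g) * x) * g⁻¹ := by group
        _ = g * (x * (g⁻¹ * n * g)) * g⁻¹ := by rw [h2]
        _ = g * x * g⁻¹ * n := by group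
    have hZ : Z ≤ Subgroup.center G := by
      apply abelian_case hχ hfaith hk hirr Z hZn
      intro a ha b hb
      exact (Subgroup.mem_centralizer_iff.1 ha.2 b hb.1).symm
    have hcen : ∀ z ∈ Subgroup.center G, ∀ g : G, z * g = g * z := by
      intro z hz g
      exact (Subgroup.mem_center_iff.1 hz g).symm
    have hdeg : χ 1 ≠ 0 := by
      obtain ⟨d, hd, hd1⟩ := CharAvg.irr_one_eq hχ
      rw [hd1]
      exact_mod_cast hd.ne'
    -- vanishing off `Z`
    have hvan : ∀ x ∈ N, x ∉ Z → χ x = 0 := by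
      intro x hx hxZ
      have h1 : ¬ x ∈ Subgroup.centralizer (N : Set G) := fun h => hxZ ⟨hx, h⟩
      rw [Subgroup.mem_centralizer_iff] at h1
      push Not at h1
      obtain ⟨u, hu, hne⟩ := h1
      have hc : u * x * u⁻¹ * x⁻¹ ∈ ⁅N, N⁆ := Subgroup.commutator_mem_commutator hu hx
      set c := u * x * u⁻¹ * x⁻¹ with hcdef
      have hc1 : c ≠ 1 := by
        intro h
        apply hne
        rw [hcdef, mul_inv_eq_one, mul_inv_eq_iff_eq_mul] at h
        exact h
      have h2 : c * x = u * x * u⁻¹ := by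
        rw [hcdef]
        group
      have h3 := central_mul hχ (hcen c (hN' hc)) x
      rw [h2, isClassFunction_of_isCharacter hχc x u] at h3
      have h4 : (χ 1 - χ c) * χ x = 0 := by
        rw [sub_mul, h3, sub_self]
      rcases mul_eq_zero.1 h4 with h5 | h5
      · exact absurd (hfaith c (sub_eq_zero.1 h5).symm) hc1
      · exact h5
    push Not at hab
    obtain ⟨a, ha, x₀, hx₀, hne⟩ := hab
    have hx₀Z : x₀ ∉ Z := fun h => hne ((Subgroup.mem_centralizer_iff.1 h.2 a ha))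
    have h0 := hvan x₀ hx₀ hx₀Z
    have h1 := key χ hχc k hk hχ' hirr x₀ (x₀ ^ s) x₀⁻¹ ((x₀⁻¹) ^ s)
    rw [h0] at h1
    simp only [zero_mul, mul_zero] at h1
    have hterm : ∀ b : G, χ (b * x₀ * b⁻¹ * x₀⁻¹) * χ ((b * x₀ ^ s * b⁻¹ * (x₀⁻¹) ^ s) ^ k) =
        if b * x₀ * b⁻¹ * x₀⁻¹ ∈ Z then χ 1 * χ 1 else 0 := by
      intro b
      set w := b * x₀ * b⁻¹ * x₀⁻¹ with hw
      have hwN : w ∈ N := by
        rw [hw]
        exact N.mul_mem (hN.conj_mem _ hx₀ b) (N.inv_mem hx₀)
      by_cases hwZ : w ∈ Z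
      · rw [if_pos hwZ]
        have hwc := hcen w (hZ hwZ)
        have h2 : b * x₀ * b⁻¹ = w * x₀ := by
          rw [hw]
          group
        have h3 : b * x₀ ^ s * b⁻¹ * (x₀⁻¹) ^ s = w ^ s := by
          have h4 : b * x₀ ^ s * b⁻¹ = (b * x₀ * b⁻¹) ^ s := conj_pow.symm
          rw [h4, h2]
          have h5 : Commute w x₀ := hwc x₀
          rw [h5.mul_pow, inv_pow, mul_assoc, mul_inv_cancel, mul_one]
        rw [h3, hconj]
        exact central_norm hχ hwc
      · rw [if_neg hwZ, hvan w hwN hwZ, zero_mul]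
    simp only [hterm] at h1
    rw [Finset.sum_ite, Finset.sum_const_zero, add_zero, Finset.sum_const, nsmul_eq_mul] at h1
    have hcardpos : ((Finset.univ.filter fun b : G => b * x₀ * b⁻¹ * x₀⁻¹ ∈ Z).card : ℂ) ≠ 0 := by
      have : (Finset.univ.filter fun b : G => b * x₀ * b⁻¹ * x₀⁻¹ ∈ Z).Nonempty :=
        ⟨1, by simp [Subgroup.one_mem]⟩
      exact_mod_cast (Finset.card_pos.2 this).ne'
    have h2 : χ 1 * χ 1 ≠ 0 := mul_ne_zero hdeg hdeg
    exact (mul_ne_zero h2 (mul_ne_zero hcardpos h2)) h1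

end Main

/-- Let G be a finite group with a faithful irreducible character χ (taking the value χ(1) only at the identity) and let k be prime to the order of G, so that g ↦ χ(g^k) is a Galois conjugate of χ. If the pointwise product g ↦ χ(g)·χ(g^k) is again an irreducible character, then the Fitting subgroup of G equals its centre. -/
theorem result {G : Type*} [Group G] [Finite G] (χ : Cfsg.IrrCharacter G) (hfaith : ∀ g : G, (χ : G → ℂ) g = (χ : G → ℂ) 1 → g = 1) (k : ℕ) (hk : Nat.Coprime k (Nat.card G)) (hirr : Cfsg.IsIrrCharacter G (fun g => (χ : G → ℂ) g * (χ : G → ℂ) (g ^ k))) : Cfsg.fittingSubgroup G = Subgroup.center G := by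
  classical
  letI := Fintype.ofFinite G
  apply le_antisymm
  · apply sSup_le
    rintro N ⟨hN, hnil⟩
    exact nilpotent_central χ.2 hfaith hk hirr _ N rfl hN hnil
  · apply le_sSup
    refine ⟨inferInstance, ?_⟩
    letI : CommGroup (Subgroup.center G) :=
      { (inferInstance : Group (Subgroup.center G)) with
        mul_comm := fun a b => Subtype.ext (Subgroup.mem_center_iff.1 b.2 a.1) }
    exact CommGroup.isNilpotent (G := Subgroup.center G)

end Cfsg.Agent.S4843
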