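import Mathlib
import Cfsg.Statements.S3968
import Cfsg.Agent.S4843
import Cfsg.Agent.Lib.CharIntegrality
import Cfsg.Agent.Lib.CharKernel

set_option autoImplicit false
set_option linter.style.haveILetI false
open Cfsg

namespace Cfsg.Agent.S3968

open Cfsg.Agent.Lib
open Cfsg.Agent.Lib.CharBasic
open Cfsg.Agent.Lib.CharKernel
open Cfsg.Agent.Lib.CharCentral
open scoped ComplexConjugate

/-- Let `p` be a prime and `G` a finite group with a faithful irreducible complex character of degree `p` (so `G` is an irreducible linear group in `p` variables). If `p ^ 2` divides the order of `G`, then the centre of `G` is nontrivial. -/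
theorem result {G : Type*} [Group G] [Finite G] (p : ℕ) (hp : p.Prime) (χ : Cfsg.IrrCharacter G) (hdeg : χ.1 1 = p) (hfaith : ∀ g : G, χ.1 g = χ.1 1 → g = 1) (hdiv : p ^ 2 ∣ Nat.card G) : Subgroup.center G ≠ ⊥ := by
  classical
  letI := Fintype.ofFinite G
  intro hZ
  haveI : Fact p.Prime := ⟨hp⟩
  have hχc := IsIrrCharacter.isCharacter χ.2
  obtain ⟨P₀⟩ : Nonempty (Sylow p G) := inferInstance
  obtain ⟨P, hP⟩ : ∃ P : Subgroup G, P = (P₀ : Subgroup G) := ⟨_, rfl⟩
  letI : Fintype P := Fintype.ofFinite _
  have hPc : p ^ 2 ∣ Nat.card P := by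
    rw [hP]
    exact P₀.pow_dvd_card_of_pow_dvd_card hdiv
  have hpP : IsPGroup p P := by
    rw [hP]
    exact P₀.isPGroup'
  have hPidx : ¬ p ∣ P.index := by
    rw [hP]
    exact P₀.not_dvd_index
  have hp0 : (p : ℂ) ≠ 0 := by exact_mod_cast hp.ne_zero
  -- vanishing on the centre of `P`
  have hvan : ∀ x : P, x ∈ Subgroup.center P → x ≠ 1 → χ.1 (x : G) = 0 := by
    intro x hx hx1
    have hxG : (x : G) ≠ 1 := fun h => hx1 (Subtype.ext h)
    have hle : (P : Subgroup G) ≤ Subgroup.centralizer ({(x : G)} : Set G) := by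
      intro y hy
      rw [Subgroup.mem_centralizer_iff]
      intro z hz
      rw [Set.mem_singleton_iff] at hz
      subst hz
      have := Subgroup.mem_center_iff.1 hx ⟨y, hy⟩
      exact (congrArg Subtype.val this).symm
    obtain ⟨n, ρ, hρ, hχρ⟩ := χ.2
    have hfr : Module.finrank ℂ (Fin n → ℂ) = n := by simp
    have hnp : n = p := by
      have h1 : χ.1 1 = n := by
        rw [← hχρ, char_one_eq_rep]
      rw [hdeg] at h1
      exact_mod_cast h1.symm
    have hcop : Nat.Coprime (Module.finrank ℂ (Fin n → ℂ)) (Subgroup.centralizer ({(x : G)} : Set G)).index := by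
      rw [hfr, hnp, hp.coprime_iff_not_dvd]
      intro h
      apply hPidx
      exact h.trans (Subgroup.index_dvd_of_le hle)
    rcases CharIntegrality.character_eq_zero_or_norm_eq ρ hρ (x : G) hcop with h1 | h1
    · rw [← hχρ]; exact h1
    · exfalso
      apply hxG
      have h2 : (x : G) ∈ Subgroup.center G := by
        apply Cfsg.Agent.S4843.central_of_norm χ.2 hfaith
        rw [Complex.mul_conj, Complex.normSq_eq_norm_sq, ← hχρ, h1, hfr, char_one_eq_rep]
        push_cast
        ring
      rw [hZ] at h2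
      exact Subgroup.mem_bot.1 h2
  obtain ⟨m, hm⟩ := exists_nat_decomp (isCharacter_restrict P hχc)
  have hdegsum : (∑ i : IrrCharacter P, m i * charDegree (i : P → ℂ) : ℕ) = p := by
    have h1 := congrFun hm 1
    simp only [OneMemClass.coe_one, hdeg, Finset.sum_apply, Pi.smul_apply] at h1
    simp only [nsmul_eq_mul] at h1
    have h2 : ((p : ℕ) : ℂ) = ((∑ i : IrrCharacter P, m i * charDegree (i : P → ℂ) : ℕ) : ℂ) := by
      rw [h1]
      push_cast
      refine Finset.sum_congr rfl fun i _ => ?_
      rw [one_eq_charDegree (IsIrrCharacter.isCharacter i.2)]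
    exact_mod_cast h2.symm
  -- a nontrivial central element
  haveI : Nontrivial P := by
    rw [← Finite.one_lt_card_iff_nontrivial]
    have h1 : p ^ 2 ≤ Nat.card P := Nat.le_of_dvd Nat.card_pos hPc
    have h2 : 2 ≤ p := hp.two_le
    nlinarith
  by_cases hall : ∀ i : IrrCharacter P, m i ≠ 0 → charDegree (i : P → ℂ) = 1
  · -- `P` is abelian
    have hab : ∀ x y : P, x * y = y * x := by
      intro x y
      have hc : (x * y * x⁻¹ * y⁻¹ : P) = 1 := by
        apply Subtype.ext
        apply hfaith
        have h1 := congrFun hm (x * y * x⁻¹ * y⁻¹)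
        rw [h1, hdeg]
        simp only [Finset.sum_apply, Pi.smul_apply]
        simp only [nsmul_eq_mul]
        have h2 : ((p : ℕ) : ℂ) = ((∑ i : IrrCharacter P, m i * charDegree (i : P → ℂ) : ℕ) : ℂ) := by
          rw [hdegsum]
        rw [h2]
        push_cast
        refine Finset.sum_congr rfl fun i _ => ?_
        by_cases hi : m i = 0
        · simp [hi]
        · have hd := hall i hi
          rw [hd]
          have h3 : (i : P → ℂ) 1 = 1 := by
            rw [one_eq_charDegree (IsIrrCharacter.isCharacter i.2), hd]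
            simp
          obtain ⟨f, hf⟩ := exists_hom_of_degree_one (IsIrrCharacter.isCharacter i.2) h3
          rw [hf]
          simp
      rw [mul_inv_eq_one, mul_inv_eq_iff_eq_mul] at hc
      exact hc
    have hvan' : ∀ x : P, x ≠ 1 → χ.1 (x : G) = 0 := fun x hx =>
      hvan x (Subgroup.mem_center_iff.2 fun y => hab y x) hx
    obtain ⟨k, hk⟩ := classInner_char_irr (isCharacter_restrict P hχc)
      (isIrrCharacter_one (G := P))
    have h1 : (k : ℂ) = (Nat.card P : ℂ)⁻¹ * p := by
      rw [← hk]
      unfold classInner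
      congr 1
      rw [Finset.sum_eq_single (1 : P)]
      · simp [hdeg]
      · intro x _ hx
        show χ.1 (x : G) * _ = 0
        rw [hvan' x hx, zero_mul]
      · intro h
        exact absurd (Finset.mem_univ _) h
    have hP0 : (Nat.card P : ℂ) ≠ 0 := by exact_mod_cast Nat.card_pos.ne'
    have h2 : (p : ℂ) = ((Nat.card P * k : ℕ) : ℂ) := by
      push_cast
      rw [h1]
      field_simp
    have h3 : p = Nat.card P * k := by exact_mod_cast h2
    have h4 : k ≠ 0 := by
      rintro rfl
      exact hp.ne_zero (by simpa using h3)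
    have h5 : Nat.card P ≤ p :=
      calc Nat.card P ≤ Nat.card P * k := Nat.le_mul_of_pos_right _ (Nat.pos_of_ne_zero h4)
        _ = p := h3.symm
    have h6 : p ^ 2 ≤ Nat.card P := Nat.le_of_dvd Nat.card_pos hPc
    have h7 : 2 ≤ p := hp.two_le
    nlinarith
  · -- `χ|P` is irreducible
    push Not at hall
    obtain ⟨i, him, hid⟩ := hall
    have hdvd : charDegree (i : P → ℂ) ∣ Nat.card P := charDegree_dvd_card i.2
    obtain ⟨k, hk⟩ := hpP.exists_card_eq
    rw [hk] at hdvd
    obtain ⟨j, -, hj⟩ := (Nat.dvd_prime_pow hp).1 hdvd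
    have hj0 : j ≠ 0 := by
      rintro rfl
      exact hid (by simpa using hj)
    have hpd : p ≤ charDegree (i : P → ℂ) := by
      rw [hj]
      calc p = p ^ 1 := (pow_one p).symm
        _ ≤ p ^ j := Nat.pow_le_pow_right hp.pos (Nat.pos_of_ne_zero hj0)
    -- the single constituent
    have hsplit : ∑ i' : IrrCharacter P, m i' * charDegree (i' : P → ℂ) =
        m i * charDegree (i : P → ℂ) +
          ∑ i' ∈ Finset.univ.erase i, m i' * charDegree (i' : P → ℂ) := by
      rw [Finset.add_sum_erase _ (fun i' : IrrCharacter P => m i' * charDegree (i' : P → ℂ)) (Finset.mem_univ i)]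
    have hm1 : 1 ≤ m i := Nat.pos_of_ne_zero him
    have hle : m i * charDegree (i : P → ℂ) ≤ p := by
      rw [← hdegsum, hsplit]
      exact Nat.le_add_right _ _
    have hdp : charDegree (i : P → ℂ) = p := by
      have : charDegree (i : P → ℂ) ≤ p := le_trans (Nat.le_mul_of_pos_left _ hm1) hle
      omega
    have hmi : m i = 1 := by
      rw [hdp] at hle
      have := Nat.le_of_mul_le_mul_right (by simpa using hle : m i * p ≤ 1 * p) hp.pos
      omega
    have hrest : ∑ i' ∈ Finset.univ.erase i, m i' * charDegree (i' : P → ℂ) = 0 := by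
      rw [hsplit, hmi, hdp] at hdegsum
      omega
    have hothers : ∀ i' : IrrCharacter P, i' ≠ i → m i' = 0 := by
      intro i' hne
      have h1 := (Finset.sum_eq_zero_iff.1 hrest) i' (Finset.mem_erase.2 ⟨hne, Finset.mem_univ _⟩)
      rcases Nat.mul_eq_zero.1 h1 with h2 | h2
      · exact h2
      · exact absurd h2 (charDegree_pos i'.2).ne'
    have hirr : (fun h : P => χ.1 h) = (i : P → ℂ) := by
      rw [hm, Finset.sum_eq_single i]
      · rw [hmi, one_smul]
      · intro b _ hb
        rw [hothers b hb, zero_smul]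
      · intro h
        exact absurd (Finset.mem_univ _) h
    obtain ⟨x, hxZ, hx1⟩ : ∃ x : P, x ∈ Subgroup.center P ∧ x ≠ 1 := by
      haveI := hpP.center_nontrivial
      obtain ⟨x, hx⟩ := exists_ne (1 : Subgroup.center P)
      exact ⟨x, x.2, fun h => hx (Subtype.ext h)⟩
    have h1 := hvan x hxZ hx1
    have h2 := central_norm i.2 (z := x) (fun g => (Subgroup.mem_center_iff.1 hxZ g).symm)
    rw [← hirr] at h2
    simp only [OneMemClass.coe_one, hdeg] at h2
    rw [h1] at h2
    simp only [map_zero, mul_zero] at h2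
    exact (mul_ne_zero hp0 hp0) h2.symm

end Cfsg.Agent.S3968
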