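import Mathlib
import Cfsg.Statements.S3982
import Cfsg.Agent.Lib.TransferCore

set_option autoImplicit false
open Cfsg

namespace Cfsg.Agent.S3982

open scoped Pointwise

/-- A fixed-point-free involutory automorphism inverts everything. -/
lemma inverts_of_fpf {R : Type*} [Group R] [Finite R] (σ : R →* R) (hσ : ∀ r, σ (σ r) = r)
    (hfix : ∀ r, σ r = r → r = 1) (r : R) : σ r = r⁻¹ := by
  let f : R → R := fun a => a⁻¹ * σ a
  have hinj : Function.Injective f := by
    intro a b hab
    have h1 : a⁻¹ * σ a = b⁻¹ * σ b := hab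
    have h2 : σ (b * a⁻¹) = b * a⁻¹ := by
      rw [map_mul, map_inv]
      calc σ b * (σ a)⁻¹ = b * (b⁻¹ * σ b) * (σ a)⁻¹ := by group
        _ = b * (a⁻¹ * σ a) * (σ a)⁻¹ := by rw [h1]
        _ = b * a⁻¹ := by group
    have h3 := hfix _ h2
    have h4 : b = a := by
      have : b = b * a⁻¹ * a := by group
      rw [this, h3, one_mul]
    exact h4.symm
  have hsurj : Function.Surjective f := Finite.injective_iff_surjective.mp hinj
  obtain ⟨a, rfl⟩ := hsurj r
  show σ (a⁻¹ * σ a) = (a⁻¹ * σ a)⁻¹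
  rw [map_mul, map_inv, hσ]
  group

/-- Let p be an odd prime and G a finite group of even order divisible by p in which the centralizer of every non-identity p-element has odd order. If some nontrivial p-subgroup of G has a normalizer of even order, then the normalizer of every Sylow p-subgroup of G has even order. -/
theorem result {G : Type*} [Group G] [Finite G] (p : ℕ) [Fact p.Prime] (hp2 : p ≠ 2) (hpG : p ∣ Nat.card G) (h2G : 2 ∣ Nat.card G) (hC : ∀ g : G, g ≠ 1 → (∃ k : ℕ, orderOf g = p ^ k) → Odd (Nat.card ↥(Subgroup.centralizer ({g} : Set G)))) (Q : Subgroup G) (hQ : IsPGroup p ↥Q) (hQ1 : Q ≠ ⊥) (hev : Even (Nat.card ↥(Subgroup.normalizer (Q : Set G)))) (P : Sylow p G) : Even (Nat.card ↥(Subgroup.normalizer ((P : Subgroup G) : Set G))) := by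
  classical
  haveI hf2 : Fact (Nat.Prime 2) := ⟨Nat.prime_two⟩
  obtain ⟨y', hy'⟩ := exists_prime_orderOf_dvd_card' (G := ↥(Subgroup.normalizer (Q : Set G))) 2 hev.two_dvd
  let y : G := y'
  have hy : orderOf y = 2 := by
    rw [← hy']; exact Subgroup.orderOf_coe y'
  have hyQ : y ∈ Subgroup.normalizer (Q : Set G) := y'.2
  have hyy : y * y = 1 := by
    rw [← pow_two, ← hy, pow_orderOf_eq_one]
  have hyi : y⁻¹ = y := inv_eq_of_mul_eq_one_left hyy
  -- no nontrivial `p`-element commutes with `y`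
  have hno : ∀ g : G, g ≠ 1 → (∃ k : ℕ, orderOf g = p ^ k) → g * y ≠ y * g := by
    intro g hg hk hcomm
    have h1 := hC g hg hk
    have h2 : y ∈ Subgroup.centralizer ({g} : Set G) := by
      rw [Subgroup.mem_centralizer_iff]
      rintro z rfl
      exact hcomm
    have h3 : orderOf (⟨y, h2⟩ : Subgroup.centralizer ({g} : Set G)) ∣ _ := orderOf_dvd_natCard _
    rw [Subgroup.orderOf_mk, hy] at h3
    exact (Nat.not_even_iff_odd.mpr h1) (even_iff_two_dvd.mpr h3)
  -- a maximal `y`-invariant `p`-subgroup containing `Q`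
  let 𝒮 : Set (Subgroup G) := {R | IsPGroup p R ∧ Q ≤ R ∧ y ∈ Subgroup.normalizer (R : Set G)}
  obtain ⟨R, hR, hRmax⟩ := Set.exists_max_image 𝒮 (fun R : Subgroup G => Nat.card R) (Set.toFinite 𝒮)
    ⟨Q, hQ, le_refl Q, hyQ⟩
  obtain ⟨hRP, hQR, hyR⟩ := hR
  have hmax : ∀ R' : Subgroup G, IsPGroup p R' → R ≤ R' → y ∈ Subgroup.normalizer (R' : Set G) → R' = R := by
    intro R' h1 h2 h3
    symm
    exact Subgroup.eq_of_le_of_card_ge h2 (hRmax R' ⟨h1, hQR.trans h2, h3⟩)
  have hyR' := Subgroup.mem_normalizer_iff.mp hyR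
  have hpow : ∀ r ∈ R, ∃ k : ℕ, orderOf r = p ^ k := by
    intro r hr
    obtain ⟨k, hk⟩ := (IsPGroup.iff_orderOf.mp hRP) ⟨r, hr⟩
    rw [Subgroup.orderOf_mk] at hk
    exact ⟨k, hk⟩
  -- `y` inverts `R`
  let σ : R →* R := MonoidHom.mk' (fun r => ⟨y * r * y⁻¹, (hyR' r).mp r.2⟩) (by
    intro a b
    apply Subtype.ext
    simp only [Subgroup.coe_mul]
    group)
  have hσ : ∀ r : R, ((σ r : R) : G) = y * r * y⁻¹ := fun _ => rfl
  have hinv : ∀ r ∈ R, y * r * y⁻¹ = r⁻¹ := by
    intro r hr
    have h1 := inverts_of_fpf σ (by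
      intro a
      apply Subtype.ext
      rw [hσ, hσ, hyi]
      calc y * (y * (a : G) * y) * y = (y * y) * a * (y * y) := by group
        _ = a := by rw [hyy]; group) (by
      intro a ha
      by_contra ha1
      have ha2 : (a : G) ≠ 1 := fun h => ha1 (Subtype.ext h)
      apply hno (a : G) ha2 (hpow a a.2)
      have h2 : y * (a : G) * y⁻¹ = a := congrArg Subtype.val ha
      calc (a : G) * y = (y * (a : G) * y⁻¹) * y := by rw [h2]
        _ = y * a := by group) ⟨r, hr⟩
    exact congrArg Subtype.val h1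
  have hcommR : ∀ a ∈ R, ∀ b ∈ R, a * b = b * a := by
    intro a ha b hb
    have h1 := hinv _ (mul_mem ha hb)
    have h2 : y * (a * b) * y⁻¹ = (y * a * y⁻¹) * (y * b * y⁻¹) := by group
    rw [h2, hinv a ha, hinv b hb] at h1
    have h3 : a⁻¹ * b⁻¹ = (b * a)⁻¹ := by group
    rw [h3] at h1
    have h4 := inv_injective h1
    exact h4.symm
  -- the centralizer of `R`
  let C : Subgroup G := Subgroup.centralizer (R : Set G)
  have hRC : R ≤ C := by
    intro a ha
    rw [Subgroup.mem_centralizer_iff]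
    intro b hb
    exact hcommR b hb a ha
  have hRbot : R ≠ ⊥ := by
    intro h
    apply hQ1
    rw [eq_bot_iff, ← h]
    exact hQR
  obtain ⟨r0, hr0R, hr0⟩ := (Subgroup.bot_or_exists_ne_one R).resolve_left hRbot
  have hCodd : Odd (Nat.card C) := by
    have h1 := hC r0 hr0 (hpow r0 hr0R)
    have h2 : C ≤ Subgroup.centralizer ({r0} : Set G) := by
      apply Subgroup.centralizer_le
      rintro z rfl
      exact hr0R
    exact Odd.of_dvd_nat h1 (Subgroup.card_dvd_of_le h2)
  have hyC : ∀ z ∈ C, y * z * y⁻¹ ∈ C := by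
    intro z hz
    rw [Subgroup.mem_centralizer_iff]
    intro r hr
    have h1 : y⁻¹ * r * y ∈ R := by
      have := (hyR' (y⁻¹ * r * y)).mpr (by
        have e : y * (y⁻¹ * r * y) * y⁻¹ = r := by group
        rw [e]; exact hr)
      exact this
    have h2 := (Subgroup.mem_centralizer_iff.mp hz) _ h1
    calc r * (y * z * y⁻¹) = y * ((y⁻¹ * r * y) * z) * y⁻¹ := by group
      _ = y * (z * (y⁻¹ * r * y)) * y⁻¹ := by rw [h2]
      _ = y * z * y⁻¹ * r := by group
  have hyyz : ∀ z : G, y * (y * z * y⁻¹) * y⁻¹ = z := by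
    intro z
    rw [hyi]
    calc y * (y * z * y) * y = (y * y) * z * (y * y) := by group
      _ = z := by rw [hyy]; group
  -- an invariant Sylow subgroup of `C`
  let σC : MulAut C :=
    { toFun := fun z => ⟨y * z * y⁻¹, hyC z z.2⟩
      invFun := fun z => ⟨y * z * y⁻¹, hyC z z.2⟩
      left_inv := fun z => Subtype.ext (hyyz z)
      right_inv := fun z => Subtype.ext (hyyz z)
      map_mul' := by
        intro a b
        apply Subtype.ext
        simp only [Subgroup.coe_mul]
        group }
  have hσC : ∀ z : C, ((σC z : C) : G) = y * z * y⁻¹ := fun _ => rfl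
  have hσ2 : σC * σC = 1 := by
    ext z
    exact hyyz z
  let f : Function.End (Sylow p C) := fun S => σC • S
  have hf : f ^ 2 ^ 1 = 1 := by
    funext S
    have h1 : (f ^ 2 ^ 1) S = f (f S) := rfl
    rw [h1]
    show σC • σC • S = S
    rw [smul_smul, hσ2, one_smul]
  haveI : Fintype (Sylow p C) := Fintype.ofFinite _
  have hmod := Equiv.Perm.card_fixedPoints_modEq (p := 2) (n := 1) hf
  have hcardodd : Odd (Fintype.card (Sylow p C)) := by
    obtain S0 : Sylow p C := Inhabited.default
    have h1 : Nat.card (Sylow p C) ∣ (S0 : Subgroup C).index := Sylow.card_dvd_index S0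
    have h2 : (S0 : Subgroup C).index ∣ Nat.card C := Subgroup.index_dvd_card _
    rw [← Nat.card_eq_fintype_card]
    exact Odd.of_dvd_nat hCodd (h1.trans h2)
  have hex : ∃ S : Sylow p C, σC • S = S := by
    by_contra hno'
    push Not at hno'
    have h0 : Fintype.card (Function.fixedPoints f) = 0 := by
      rw [Fintype.card_eq_zero_iff]
      exact ⟨fun x => hno' x.1 x.2⟩
    rw [h0] at hmod
    have h2 : 2 ∣ Fintype.card (Sylow p C) := Nat.modEq_zero_iff_dvd.mp hmod
    exact (Nat.not_even_iff_odd.mpr hcardodd) (even_iff_two_dvd.mpr h2)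
  obtain ⟨S, hS⟩ := hex
  let S0 : Subgroup G := (S : Subgroup C).map C.subtype
  have hS0P : IsPGroup p S0 := S.isPGroup'.map C.subtype
  have hRS0 : R ≤ S0 := by
    let R' : Subgroup C := R.subgroupOf C
    have hR'P : IsPGroup p R' := hRP.comap_of_injective C.subtype C.subtype_injective
    haveI hR'n : R'.Normal := by
      constructor
      intro n hn g
      have h1 : (g : G) * n * (g : G)⁻¹ = n := by
        have := (Subgroup.mem_centralizer_iff.mp g.2) (n : G) (Subgroup.mem_subgroupOf.mp hn)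
        rw [← this]
        group
      apply Subgroup.mem_subgroupOf.mpr
      have h2 : (((g * n * g⁻¹ : C)) : G) = n := h1
      rw [h2]
      exact Subgroup.mem_subgroupOf.mp hn
    have h3 := S.isPGroup'.to_sup_of_normal_right hR'P
    have h4 := S.is_maximal' h3 le_sup_left
    intro r hr
    have h5 : (⟨r, hRC hr⟩ : C) ∈ (S : Subgroup C) := by
      rw [← h4]
      exact Subgroup.mem_sup_right (Subgroup.mem_subgroupOf.mpr hr)
    exact ⟨⟨r, hRC hr⟩, h5, rfl⟩
  have hyS0 : y ∈ Subgroup.normalizer (S0 : Set G) := by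
    have hmemS : ∀ z : C, z ∈ (S : Subgroup C) ↔ σC z ∈ (S : Subgroup C) := by
      intro z
      have h1 : ((σC • S : Sylow p C) : Subgroup C) = σC • (S : Subgroup C) := rfl
      rw [hS] at h1
      conv_rhs => rw [h1]
      exact (Subgroup.smul_mem_pointwise_smul_iff (a := σC) (S := (S : Subgroup C)) (x := z)).symm
    rw [Subgroup.mem_normalizer_iff]
    intro n
    constructor
    · rintro ⟨z, hz, rfl⟩
      exact ⟨σC z, (hmemS z).mp hz, rfl⟩
    · rintro ⟨z, hz, hzn⟩
      have hn : n = y * ((z : C) : G) * y⁻¹ := by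
        have h1 : (z : G) = y * n * y⁻¹ := hzn
        rw [h1]
        exact (hyyz n).symm
      refine ⟨σC z, (hmemS z).mp hz, ?_⟩
      rw [hn]
      rfl
  have hS0R : S0 = R := hmax S0 hS0P hRS0 hyS0
  have hSyl : ∀ X : Subgroup G, IsPGroup p X → R ≤ X → X ≤ C → X = R := by
    intro X hXP hRX hXC
    symm
    apply Subgroup.eq_of_le_of_card_ge hRX
    have hX' : IsPGroup p (X.subgroupOf C) := hXP.comap_of_injective C.subtype C.subtype_injective
    obtain ⟨S', hS'⟩ := hX'.exists_le_sylow
    have h1 : Nat.card (X.subgroupOf C) = Nat.card X :=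
      Nat.card_congr (Subgroup.subgroupOfEquivOfLe hXC).toEquiv
    have h2 : Nat.card (X.subgroupOf C) ≤ Nat.card (S' : Subgroup C) := Subgroup.card_le_of_le hS'
    have h3 : Nat.card (S' : Subgroup C) = Nat.card (S : Subgroup C) := by
      have e1 : Nat.card (S' : Subgroup C) = _ := Sylow.card_eq_multiplicity S'
      have e2 : Nat.card (S : Subgroup C) = _ := Sylow.card_eq_multiplicity S
      rw [e1, e2]
    have h4 : Nat.card S0 = Nat.card (S : Subgroup C) :=
      Subgroup.card_map_of_injective C.subtype_injective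
    rw [← h1, ← hS0R, h4, ← h3]
    exact h2
  -- factorization of `N(R)`
  have hfact : ∀ t ∈ Subgroup.normalizer (R : Set G),
      ∃ b ∈ C, ∃ s ∈ Subgroup.normalizer (R : Set G), t = b⁻¹ * s ∧ s * y = y * s := by
    intro t ht
    have ht' := Subgroup.mem_normalizer_iff.mp ht
    let z := t * y * t⁻¹
    let c := y * z
    have hzz : z * z = 1 := by
      calc z * z = t * (y * y) * t⁻¹ := by simp only [z]; group
        _ = 1 := by rw [hyy]; group
    have hzinv : ∀ r ∈ R, z * r * z⁻¹ = r⁻¹ := by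
      intro r hr
      have h1 : t⁻¹ * r * t ∈ R := by
        have := (ht' (t⁻¹ * r * t)).mpr (by
          have e : t * (t⁻¹ * r * t) * t⁻¹ = r := by group
          rw [e]; exact hr)
        exact this
      have h2 := hinv _ h1
      calc z * r * z⁻¹ = t * (y * (t⁻¹ * r * t) * y⁻¹) * t⁻¹ := by simp only [z]; group
        _ = t * (t⁻¹ * r * t)⁻¹ * t⁻¹ := by rw [h2]
        _ = r⁻¹ := by group
    have hcC : c ∈ C := by
      rw [Subgroup.mem_centralizer_iff]
      intro r hr
      have h1 := hzinv r hr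
      have h2 := hinv r⁻¹ (inv_mem hr)
      rw [inv_inv] at h2
      have h3 : c * r * c⁻¹ = r := by
        calc c * r * c⁻¹ = y * (z * r * z⁻¹) * y⁻¹ := by simp only [c]; group
          _ = y * r⁻¹ * y⁻¹ := by rw [h1]
          _ = r := h2
      calc r * c = (c * r * c⁻¹) * c := by rw [h3]
        _ = c * r := by group
    have hzc : z = y * c := by
      simp only [c]
      rw [← mul_assoc, hyy, one_mul]
    have hcinv : y * c * y⁻¹ = c⁻¹ := by
      have h1 : (y * c) * (y * c) = 1 := by rw [← hzc]; exact hzz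
      rw [hyi]
      exact eq_inv_of_mul_eq_one_left (by rw [mul_assoc, mul_assoc] ; rw [mul_assoc] at h1; exact h1)
    have hoc : Odd (orderOf c) := by
      have h1 : orderOf c ∣ Nat.card C := by
        rw [← Subgroup.orderOf_mk c hcC]
        exact orderOf_dvd_natCard _
      exact Odd.of_dvd_nat hCodd h1
    obtain ⟨m, hm⟩ := hoc
    let b := c ^ (m + 1)
    have hbb : b * b = c := by
      have : b * b = c ^ (orderOf c + 1) := by
        simp only [b]
        rw [← pow_add, hm]
        congr 1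
        ring
      rw [this, pow_succ, pow_orderOf_eq_one, one_mul]
    have hbC : b ∈ C := pow_mem hcC _
    have hbinv : y * b * y⁻¹ = b⁻¹ := by
      simp only [b]
      rw [← conj_pow, hcinv, inv_pow]
    have hyb : y * b = b⁻¹ * y := by
      calc y * b = (y * b * y⁻¹) * y := by group
        _ = b⁻¹ * y := by rw [hbinv]
    have hbN : b ∈ Subgroup.normalizer (R : Set G) := by
      rw [Subgroup.mem_normalizer_iff]
      intro n
      have hb' := Subgroup.mem_centralizer_iff.mp hbC
      constructor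
      · intro hn
        have e : b * n * b⁻¹ = n := by
          rw [← hb' n hn]
          group
        rw [e]; exact hn
      · intro hn
        have e : b * n * b⁻¹ = n := by
          have h1 := hb' _ hn
          have h2 : b * n * b⁻¹ * b = b * n := by group
          rw [h2] at h1
          exact (mul_left_cancel h1).symm
        rw [← e]; exact hn
    refine ⟨b, hbC, b * t, mul_mem hbN ht, by group, ?_⟩
    -- `b t` commutes with `y`
    have h1 : b * z * b⁻¹ = y := by
      have e : z = y * (b * b) := by rw [hbb]; exact hzc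
      calc b * z * b⁻¹ = b * (y * b) * b * b⁻¹ := by rw [e]; group
        _ = b * (b⁻¹ * y) * b * b⁻¹ := by rw [hyb]
        _ = y := by group
    calc b * t * y = (b * z * b⁻¹) * (b * t) := by simp only [z]; group
      _ = y * (b * t) := by rw [h1]
  -- `p`-elements of `N(R)` centralize `R`
  let φ := R.normalizerMonoidHom
  have hCker : ∀ (c : G) (hc : c ∈ Subgroup.normalizer (R : Set G)), φ ⟨c, hc⟩ = 1 ↔ c ∈ C := by
    intro c hc
    have h1 : φ ⟨c, hc⟩ = 1 ↔ (⟨c, hc⟩ : Subgroup.normalizer (R : Set G)) ∈ φ.ker := Iff.rfl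
    rw [h1, Subgroup.normalizerMonoidHom_ker, Subgroup.mem_subgroupOf]
  have hpC : ∀ x ∈ Subgroup.normalizer (R : Set G), (∃ k : ℕ, orderOf x = p ^ k) → x ∈ C := by
    rintro x hx ⟨k, hk⟩
    obtain ⟨b, hb, s, hs, hxbs, hsy⟩ := hfact x hx
    have hbN : b⁻¹ ∈ Subgroup.normalizer (R : Set G) := by
      have : b⁻¹ = x * s⁻¹ := by rw [hxbs]; group
      rw [this]
      exact mul_mem hx (inv_mem hs)
    have hφb : φ ⟨b⁻¹, hbN⟩ = 1 := (hCker _ hbN).mpr (inv_mem hb)
    have hφx : φ ⟨x, hx⟩ = φ ⟨s, hs⟩ := by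
      have e : (⟨x, hx⟩ : Subgroup.normalizer (R : Set G)) = ⟨b⁻¹, hbN⟩ * ⟨s, hs⟩ :=
        Subtype.ext hxbs
      rw [e, map_mul, hφb, one_mul]
    have hcop : Nat.Coprime (orderOf s) p := by
      rw [Nat.coprime_comm, Nat.Prime.coprime_iff_not_dvd Fact.out]
      intro hd
      have h1 := orderOf_pow_orderOf_div (orderOf_pos s).ne' hd
      apply hno (s ^ (orderOf s / p))
      · intro h
        rw [h, orderOf_one] at h1
        exact (Fact.out : p.Prime).one_lt.ne h1
      · exact ⟨1, by rw [h1, pow_one]⟩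
      · exact ((Commute.pow_left (h := hsy) _)).eq
    have h1 : φ ⟨s, hs⟩ ^ (orderOf s) = 1 := by
      rw [← map_pow]
      have : (⟨s, hs⟩ : Subgroup.normalizer (R : Set G)) ^ orderOf s = 1 := by
        apply Subtype.ext
        simp [pow_orderOf_eq_one]
      rw [this, map_one]
    have h2 : φ ⟨s, hs⟩ ^ (p ^ k) = 1 := by
      rw [← hφx, ← map_pow]
      have : (⟨x, hx⟩ : Subgroup.normalizer (R : Set G)) ^ (p ^ k) = 1 := by
        apply Subtype.ext
        rw [← hk]
        simp [pow_orderOf_eq_one]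
      rw [this, map_one]
    have h3 := (pow_gcd_eq_one).mpr ⟨h1, h2⟩
    have h4 : Nat.gcd (orderOf s) (p ^ k) = 1 := Nat.Coprime.pow_right k hcop
    rw [h4, pow_one] at h3
    have h5 : s ∈ C := (hCker s hs).mp h3
    rw [hxbs]
    exact mul_mem (inv_mem hb) h5
  -- `R` is a Sylow subgroup
  obtain ⟨P', hP'⟩ := hRP.exists_le_sylow
  have hRP' : R = (P' : Subgroup G) := by
    by_contra hne
    have hnil : Group.IsNilpotent (P' : Subgroup G) := P'.isPGroup'.isNilpotent
    have hlt : R.subgroupOf (P' : Subgroup G) < ⊤ := by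
      rw [lt_top_iff_ne_top]
      intro h
      apply hne
      apply le_antisymm hP'
      intro a ha
      have : (⟨a, ha⟩ : (P' : Subgroup G)) ∈ R.subgroupOf (P' : Subgroup G) := by rw [h]; trivial
      exact this
    have hgrow := normalizerCondition_of_isNilpotent _ hlt
    obtain ⟨x, hxN, hxR⟩ := SetLike.exists_of_lt hgrow
    have hxNR : (x : G) ∈ Subgroup.normalizer (R : Set G) := by
      rw [Subgroup.mem_normalizer_iff] at hxN ⊢
      intro n
      constructor
      · intro hn
        have := (hxN ⟨n, hP' hn⟩).mp hn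
        exact this
      · intro hn
        have hnP : n ∈ (P' : Subgroup G) := by
          have h1 : (x : G) * n * (x : G)⁻¹ ∈ (P' : Subgroup G) := hP' hn
          have h2 : n = (x : G)⁻¹ * ((x : G) * n * (x : G)⁻¹) * x := by group
          rw [h2]
          exact mul_mem (mul_mem (inv_mem x.2) h1) x.2
        exact (hxN ⟨n, hnP⟩).mpr hn
    have hxp : ∃ k : ℕ, orderOf (x : G) = p ^ k := by
      obtain ⟨k, hk⟩ := (IsPGroup.iff_orderOf.mp P'.isPGroup') x
      exact ⟨k, by rw [Subgroup.orderOf_coe, hk]⟩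
    have hxC := hpC _ hxNR hxp
    have hXP : IsPGroup p (R ⊔ Subgroup.zpowers (x : G) : Subgroup G) := by
      apply hRP.to_sup_of_normal_left'
      · rw [IsPGroup.iff_card, Nat.card_zpowers]
        exact hxp
      · rw [Subgroup.zpowers_le]
        exact hxNR
    have hX := hSyl _ hXP le_sup_left (sup_le hRC (by rw [Subgroup.zpowers_le]; exact hxC))
    have hxR' : (x : G) ∈ R := by
      rw [← hX]
      exact Subgroup.mem_sup_right (Subgroup.mem_zpowers _)
    exact hxR hxR'
  -- conclude
  obtain ⟨g, hg⟩ := MulAction.exists_smul_eq G P' P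
  have hyP' : y ∈ Subgroup.normalizer ((P' : Subgroup G) : Set G) := hRP' ▸ hyR
  have hyP2 := Subgroup.mem_normalizer_iff.mp hyP'
  have hgy : g * y * g⁻¹ ∈ Subgroup.normalizer ((P : Subgroup G) : Set G) := by
    rw [Subgroup.mem_normalizer_iff]
    intro n
    rw [← hg]
    have e : ∀ n : G, n ∈ ((g • P' : Sylow p G) : Subgroup G) ↔ g⁻¹ * n * g ∈ (P' : Subgroup G) :=
      fun n => Cfsg.Agent.Lib.TransferCore.mem_smul_sylow
    rw [e, e]
    have e2 : g⁻¹ * (g * y * g⁻¹ * n * (g * y * g⁻¹)⁻¹) * g = y * (g⁻¹ * n * g) * y⁻¹ := by group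
    rw [e2]
    exact hyP2 _
  have hord : orderOf (⟨g * y * g⁻¹, hgy⟩ : Subgroup.normalizer ((P : Subgroup G) : Set G)) = 2 := by
    rw [Subgroup.orderOf_mk]
    have : g * y * g⁻¹ = MulAut.conj g y := rfl
    rw [this, MulEquiv.orderOf_eq, hy]
  rw [even_iff_two_dvd, ← hord]
  exact orderOf_dvd_natCard _

end Cfsg.Agent.S3982
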