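import Mathlib
import Cfsg.Statements.S3983
import Cfsg.Agent.Lib.TIElt

set_option autoImplicit false
open scoped Pointwise
open Cfsg

namespace Cfsg.Agent.S3983

open Cfsg.Agent.Lib.TIElt

/-- Let P be a Sylow p-subgroup of the finite group G that meets each conjugate g P g⁻¹ with g outside N_G(P) trivially, and let U be a subgroup of G of order divisible by p. Then a Sylow p-subgroup Q of U has the same property inside U: Q meets each conjugate u Q u⁻¹ with u ∈ U outside N_U(Q) trivially. -/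
theorem result {G : Type*} [Group G] [Finite G] (p : ℕ) [Fact p.Prime] (P : Sylow p G) (hTI : ∀ g : G, g ∉ Subgroup.normalizer ((P : Subgroup G) : Set G) → (P : Subgroup G) ⊓ (MulAut.conj g • (P : Subgroup G)) = ⊥) (U : Subgroup G) (hU : p ∣ Nat.card ↥U) (Q : Sylow p ↥U) : ∀ u : ↥U, u ∉ Subgroup.normalizer ((Q : Subgroup ↥U) : Set ↥U) → (Q : Subgroup ↥U) ⊓ (MulAut.conj u • (Q : Subgroup ↥U)) = ⊥ := by
  have hTI' : TI (P : Subgroup G) := (ti_iff _).mp hTI
  apply (ti_iff _).mpr
  intro u x hx hux hx1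
  -- `Q` lies in a Sylow subgroup of `G`
  let Q0 : Subgroup G := (Q : Subgroup U).map U.subtype
  have hQ0 : IsPGroup p Q0 := Q.isPGroup'.map U.subtype
  obtain ⟨P', hP'⟩ := hQ0.exists_le_sylow
  have hTI2 := ti_sylow hTI' P'
  have hmem : ∀ z : U, z ∈ (Q : Subgroup U) → (z : G) ∈ (P' : Subgroup G) := fun z hz =>
    hP' ⟨z, hz, rfl⟩
  have h1 : (u : G) ∈ Subgroup.normalizer ((P' : Subgroup G) : Set G) := by
    apply hTI2 (u : G) (x : G) (hmem x hx)
    · exact hmem _ hux
    · intro h
      exact hx1 (Subtype.ext h)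
  -- `P' ∩ U = Q`
  let R : Subgroup U := (P' : Subgroup G).subgroupOf U
  have hR : IsPGroup p R := by
    have h2 : Function.Injective (fun z : R => (⟨(z : U), Subgroup.mem_subgroupOf.mp z.2⟩ : (P' : Subgroup G))) := by
      intro a b hab
      have := congrArg Subtype.val hab
      exact Subtype.ext (Subtype.ext this)
    let f : R →* (P' : Subgroup G) := MonoidHom.mk' (fun z => ⟨(z : U), Subgroup.mem_subgroupOf.mp z.2⟩) (fun _ _ => rfl)
    exact P'.isPGroup'.of_injective f h2
  have hQR : (Q : Subgroup U) ≤ R := fun z hz => Subgroup.mem_subgroupOf.mpr (hmem z hz)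
  have hReq : R = (Q : Subgroup U) := Q.is_maximal' hR hQR
  rw [Subgroup.mem_normalizer_iff]
  intro n
  rw [← hReq]
  rw [Subgroup.mem_subgroupOf, Subgroup.mem_subgroupOf]
  exact (Subgroup.mem_normalizer_iff.mp h1) (n : G)

end Cfsg.Agent.S3983
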