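import Mathlib
import Cfsg.Statements.S3984
import Cfsg.Agent.Lib.TIElt
import Cfsg.Agent.Lib.FrobCount

set_option autoImplicit false
open scoped Pointwise
open Cfsg

namespace Cfsg.Agent.S3984

open Cfsg.Agent.Lib.TIElt

/-- Let P be a Sylow p-subgroup of the finite group G that meets each conjugate g P g⁻¹ with g outside N_G(P) trivially, and let N be a normal subgroup of G of order prime to p. Then every Sylow p-subgroup Q of G ⧸ N meets each conjugate x Q x⁻¹ with x outside its normalizer trivially. -/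
theorem result {G : Type*} [Group G] [Finite G] (p : ℕ) [Fact p.Prime] (P : Sylow p G) (hTI : ∀ g : G, g ∉ Subgroup.normalizer ((P : Subgroup G) : Set G) → (P : Subgroup G) ⊓ (MulAut.conj g • (P : Subgroup G)) = ⊥) (N : Subgroup G) [N.Normal] (hN : (Nat.card ↥N).Coprime p) (Q : Sylow p (G ⧸ N)) : ∀ x : G ⧸ N, x ∉ Subgroup.normalizer ((Q : Subgroup (G ⧸ N)) : Set (G ⧸ N)) → (Q : Subgroup (G ⧸ N)) ⊓ (MulAut.conj x • (Q : Subgroup (G ⧸ N))) = ⊥ := by
  have hTI' : TI (P : Subgroup G) := (ti_iff _).mp hTI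
  apply (ti_iff _).mpr
  intro gbar wbar hw hgw hw1
  let π := QuotientGroup.mk' N
  have hπ : Function.Surjective π := QuotientGroup.mk'_surjective N
  obtain ⟨P', hP'⟩ := Sylow.mapSurjective_surjective hπ p Q
  have hQ : (Q : Subgroup (G ⧸ N)) = (P' : Subgroup G).map π := by
    rw [← hP', Sylow.coe_mapSurjective]
  have hTI2 := ti_sylow hTI' P'
  rw [hQ] at hw hgw ⊢
  obtain ⟨x, hx, rfl⟩ := hw
  obtain ⟨g, rfl⟩ := hπ gbar
  obtain ⟨y, hy, hyz⟩ := hgw
  have hx1 : x ≠ 1 := by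
    rintro rfl
    exact hw1 (map_one π)
  let z := g⁻¹ * x * g
  have hzy : y⁻¹ * z ∈ N := by
    apply (QuotientGroup.eq_one_iff _).mp
    have h1 : π (y⁻¹ * z) = 1 := by
      simp only [z, map_mul, map_inv]
      rw [hyz]
      simp [mul_assoc]
    exact h1
  -- `z` is a `p`-element of `P' ⊔ N`
  let L : Subgroup G := (P' : Subgroup G) ⊔ N
  have hzL : z ∈ L := by
    have : z = y * (y⁻¹ * z) := by group
    rw [this]
    exact mul_mem (Subgroup.mem_sup_left hy) (Subgroup.mem_sup_right hzy)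
  have hP'L : (P' : Subgroup G) ≤ L := le_sup_left
  let zL : L := ⟨z, hzL⟩
  have hzp : IsPGroup p (Subgroup.zpowers zL) := by
    rw [IsPGroup.iff_card, Nat.card_zpowers, Subgroup.orderOf_mk]
    obtain ⟨k, hk⟩ := (IsPGroup.iff_orderOf.mp P'.isPGroup') ⟨x, hx⟩
    rw [Subgroup.orderOf_mk] at hk
    refine ⟨k, ?_⟩
    have : z = g⁻¹ * x * g⁻¹⁻¹ := by simp [z]
    rw [this, Cfsg.Agent.Lib.FrobCount.orderOf_conj', hk]
  obtain ⟨S, hS⟩ := hzp.exists_le_sylow
  obtain ⟨s, hs⟩ := MulAction.exists_smul_eq L (P'.subtype hP'L) S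
  have hzS : zL ∈ (s • (P'.subtype hP'L) : Sylow p L) := by
    rw [hs]
    exact hS (Subgroup.mem_zpowers zL)
  have hzs : (s : G)⁻¹ * z * s ∈ (P' : Subgroup G) := by
    have h1 := Cfsg.Agent.Lib.TransferCore.mem_smul_sylow.mp hzS
    have h2 : (((s⁻¹ * zL * s : L)) : G) ∈ (P' : Subgroup G) := by
      have h3 : s⁻¹ * zL * s ∈ ((P'.subtype hP'L : Sylow p L) : Subgroup L) := h1
      rw [Sylow.coe_subtype, Subgroup.mem_subgroupOf] at h3
      exact h3
    simpa [zL] using h2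
  -- `s = n u`
  have hsN : (s : G) ∈ (N : Set G) * ((P' : Subgroup G) : Set G) := by
    have h1 : (s : G) ∈ N ⊔ (P' : Subgroup G) := by
      rw [sup_comm]; exact s.2
    rw [← Subgroup.normal_mul]
    exact h1
  obtain ⟨n, hn, u, hu, hsnu⟩ := Set.mem_mul.mp hsN
  have hnz : n⁻¹ * z * n ∈ (P' : Subgroup G) := by
    have h1 : n⁻¹ * z * n = u * ((s : G)⁻¹ * z * s) * u⁻¹ := by
      rw [← hsnu]
      group
    rw [h1]
    exact mul_mem (mul_mem hu hzs) (inv_mem hu)
  have hgn := hTI2 (g * n) x hx (by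
    have : (g * n)⁻¹ * x * (g * n) = n⁻¹ * z * n := by simp only [z]; group
    rw [this]
    exact hnz) hx1
  -- conclude
  have hgn' : ∀ a, a ∈ (P' : Subgroup G) ↔ (g * n) * a * (g * n)⁻¹ ∈ (P' : Subgroup G) :=
    Subgroup.mem_normalizer_iff.mp hgn
  have hπn : π n = 1 := (QuotientGroup.eq_one_iff n).mpr hn
  have hπg : π (g * n) = π g := by rw [map_mul, hπn, mul_one]
  rw [← hπg]
  rw [Subgroup.mem_normalizer_iff]
  intro a
  obtain ⟨a', rfl⟩ := hπ a
  constructor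
  · rintro ⟨b, hb, hba⟩
    refine ⟨(g * n) * b * (g * n)⁻¹, (hgn' b).mp hb, ?_⟩
    simp only [map_mul, map_inv, hba]
  · rintro ⟨b, hb, hba⟩
    refine ⟨(g * n)⁻¹ * b * (g * n), ?_, ?_⟩
    · apply (hgn' _).mpr
      have : (g * n) * ((g * n)⁻¹ * b * (g * n)) * (g * n)⁻¹ = b := by group
      rw [this]
      exact hb
    · simp only [map_mul, map_inv] at hba ⊢
      rw [hba]
      group

end Cfsg.Agent.S3984
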