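import Mathlib
import Cfsg.Statements.S3985
import Cfsg.Agent.Lib.TIElt

set_option autoImplicit false
open scoped Pointwise
open Cfsg

namespace Cfsg.Agent.S3985

open Cfsg.Agent.Lib.TIElt

variable {G : Type*} [Group G] [Finite G] {p : ℕ} [hp : Fact p.Prime]

lemma not_dvd_range (P : Sylow p G) (hab : IsMulCommutative (P : Subgroup G)) :
    ¬ p ∣ Nat.card (P : Subgroup G).normalizerMonoidHom.range := by
  let N : Subgroup G := Subgroup.normalizer ((P : Subgroup G) : Set G)
  let φ := (P : Subgroup G).normalizerMonoidHom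
  have hPker : ∀ x : G, ∀ hx : x ∈ (P : Subgroup G), ∀ hxN : x ∈ N, φ ⟨x, hxN⟩ = 1 := by
    intro x hx hxN
    have h1 : (⟨x, hxN⟩ : N) ∈ φ.ker := by
      rw [Subgroup.normalizerMonoidHom_ker, Subgroup.mem_subgroupOf]
      rw [Subgroup.mem_centralizer_iff]
      intro y hy
      have h2 : (⟨x, hx⟩ : (P : Subgroup G)) * ⟨y, hy⟩ = ⟨y, hy⟩ * ⟨x, hx⟩ := by
        exact hab.is_comm.comm _ _
      exact (congrArg Subtype.val h2).symm
    exact h1
  intro hdvd
  have hle : (P : Subgroup G).subgroupOf N ≤ φ.ker := by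
    intro x hx
    have hx' : (x : G) ∈ (P : Subgroup G) := Subgroup.mem_subgroupOf.mp hx
    have := hPker (x : G) hx' x.2
    exact this
  have h1 : Nat.card φ.range = φ.ker.index := (Subgroup.index_ker φ).symm
  have h2 : φ.ker.index ∣ ((P : Subgroup G).subgroupOf N).index := Subgroup.index_dvd_of_le hle
  have h3 : (P : Subgroup G).relIndex N * N.index = (P : Subgroup G).index :=
    Subgroup.relIndex_mul_index Subgroup.le_normalizer
  have h4 : ((P : Subgroup G).subgroupOf N).index ∣ (P : Subgroup G).index := by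
    rw [← h3]
    exact Dvd.intro _ rfl
  apply P.not_dvd_index
  exact hdvd.trans (h1 ▸ (h2.trans h4))

/-- An automorphism of a cyclic `p`-group fixing a nontrivial element has `p`-power order. -/
lemma aut_pow_eq_one {A : Type*} [Group A] [Finite A] {n : ℕ} (hA : Nat.card A = p ^ n)
    (hc : IsCyclic A) (τ : MulAut A) (x : A) (hx : x ≠ 1) (hτ : τ x = x) : τ ^ (p ^ n) = 1 := by
  obtain ⟨a, ha⟩ := isCyclic_iff_exists_zpowers_eq_top.mp hc
  have hord : orderOf a = p ^ n := by
    rw [← Nat.card_zpowers, ha, Subgroup.card_top, hA]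
  have hall : ∀ y : A, ∃ k : ℤ, a ^ k = y := by
    intro y
    have : y ∈ Subgroup.zpowers a := by rw [ha]; trivial
    exact Subgroup.mem_zpowers_iff.mp this
  obtain ⟨k, hk⟩ := hall x
  obtain ⟨r, hr⟩ := hall (τ a)
  have hτz : ∀ (j : ℕ), (τ ^ j) a = a ^ (r ^ j) := by
    intro j
    induction j with
    | zero => simp
    | succ j ih =>
      rw [pow_succ', MulAut.mul_apply, ih, map_zpow, ← hr, ← zpow_mul, pow_succ']
  have h1 : a ^ (k * (r - 1)) = 1 := by
    have h2 : τ (a ^ k) = a ^ k := by rw [hk]; exact hτ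
    rw [map_zpow, ← hr, ← zpow_mul] at h2
    have h3 : k * (r - 1) = r * k - k := by ring
    rw [h3, zpow_sub, h2]
    simp
  have h2 : ((p ^ n : ℕ) : ℤ) ∣ k * (r - 1) := by
    rw [← hord]
    exact orderOf_dvd_iff_zpow_eq_one.mpr h1
  have hpr : (p : ℤ) ∣ r - 1 := by
    by_contra hcon
    have hprime : Prime (p : ℤ) := Nat.prime_iff_prime_int.mp hp.out
    have hcop : IsCoprime (p : ℤ) (r - 1) := (hprime.irreducible.coprime_iff_not_dvd).mpr hcon
    have hcop2 : IsCoprime (((p ^ n : ℕ)) : ℤ) (r - 1) := by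
      push_cast
      exact hcop.pow_left
    have h3 : ((p ^ n : ℕ) : ℤ) ∣ k := hcop2.dvd_of_dvd_mul_right h2
    apply hx
    rw [← hk, ← hord] at *
    exact orderOf_dvd_iff_zpow_eq_one.mp h3
  have h3 := dvd_sub_pow_of_dvd_sub (R := ℤ) hpr n
  have h4 : ((p ^ n : ℕ) : ℤ) ∣ r ^ (p ^ n) - 1 := by
    have h5 : ((p : ℤ) ^ (n + 1)) ∣ r ^ p ^ n - 1 ^ p ^ n := h3
    rw [one_pow] at h5
    refine Dvd.dvd.trans ?_ h5
    push_cast
    exact pow_dvd_pow _ (by omega)
  have h6 : (τ ^ (p ^ n)) a = a := by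
    rw [hτz]
    have h7 : a ^ (r ^ (p ^ n) - 1) = 1 := by
      apply orderOf_dvd_iff_zpow_eq_one.mp
      rw [hord]
      exact h4
    have h8 : r ^ (p ^ n) = (r ^ (p ^ n) - 1) + 1 := by ring
    rw [h8, zpow_add, h7, one_mul, zpow_one]
  ext y
  obtain ⟨m, rfl⟩ := hall y
  rw [map_zpow, h6]
  rfl

/-- Let P be a cyclic Sylow p-subgroup of the finite group G. Then P meets each conjugate g P g⁻¹ with g outside N_G(P) trivially if and only if P is weakly self-centralizing: C_G(x) = C_G(P) for every non-identity x ∈ P. -/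
theorem result {G : Type*} [Group G] [Finite G] (p : ℕ) [Fact p.Prime] (P : Sylow p G) (hcyc : IsCyclic ↥(P : Subgroup G)) : (∀ g : G, g ∉ Subgroup.normalizer ((P : Subgroup G) : Set G) → (P : Subgroup G) ⊓ (MulAut.conj g • (P : Subgroup G)) = ⊥) ↔ ∀ x : G, x ∈ (P : Subgroup G) → x ≠ 1 → Subgroup.centralizer ({x} : Set G) = Subgroup.centralizer ((P : Subgroup G) : Set G) := by
  rw [ti_iff]
  have hab : IsMulCommutative (P : Subgroup G) := by
    obtain ⟨a, ha⟩ := isCyclic_iff_exists_zpowers_eq_top.mp hcyc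
    refine ⟨⟨fun u v => ?_⟩⟩
    have hu : u ∈ Subgroup.zpowers a := by rw [ha]; trivial
    have hv : v ∈ Subgroup.zpowers a := by rw [ha]; trivial
    obtain ⟨i, rfl⟩ := Subgroup.mem_zpowers_iff.mp hu
    obtain ⟨j, rfl⟩ := Subgroup.mem_zpowers_iff.mp hv
    rw [← zpow_add, ← zpow_add, add_comm]
  have hcomm : ∀ a ∈ (P : Subgroup G), ∀ b ∈ (P : Subgroup G), a * b = b * a := by
    intro a ha b hb
    have h2 : (⟨a, ha⟩ : (P : Subgroup G)) * ⟨b, hb⟩ = ⟨b, hb⟩ * ⟨a, ha⟩ := hab.is_comm.comm _ _
    exact congrArg Subtype.val h2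
  constructor
  · intro hTI x hx hx1
    apply le_antisymm
    · intro g hg
      have hgx : x * g = g * x := (Subgroup.mem_centralizer_iff.mp hg) x rfl
      have hgN : g ∈ Subgroup.normalizer ((P : Subgroup G) : Set G) := by
        apply hTI g x hx _ hx1
        have : g⁻¹ * x * g = x := by
          rw [mul_assoc, hgx]; group
        rw [this]; exact hx
      let φ := (P : Subgroup G).normalizerMonoidHom
      let τ := φ ⟨g, hgN⟩
      obtain ⟨n, hn⟩ := IsPGroup.iff_card.mp P.isPGroup'
      have hτx : τ ⟨x, hx⟩ = ⟨x, hx⟩ := by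
        apply Subtype.ext
        show g * x * g⁻¹ = x
        rw [← hgx]
        group
      have hx1' : (⟨x, hx⟩ : (P : Subgroup G)) ≠ 1 := fun h => hx1 (congrArg Subtype.val h)
      have hτp := aut_pow_eq_one hn hcyc τ ⟨x, hx⟩ hx1' hτx
      have hτ1 : τ = 1 := by
        have hmem : τ ∈ φ.range := ⟨_, rfl⟩
        have h1 : orderOf τ ∣ p ^ n := orderOf_dvd_of_pow_eq_one hτp
        have h2 : orderOf τ ∣ Nat.card φ.range := by
          rw [← Subgroup.orderOf_mk τ hmem]
          exact orderOf_dvd_natCard _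
        have h3 : Nat.Coprime (p ^ n) (Nat.card φ.range) := by
          apply Nat.Coprime.pow_left
          rw [Nat.Prime.coprime_iff_not_dvd Fact.out]
          exact not_dvd_range P hab
        have h4 := Nat.eq_one_of_dvd_coprimes h3 h1 h2
        exact orderOf_eq_one_iff.mp h4
      have h5 : (⟨g, hgN⟩ : Subgroup.normalizer ((P : Subgroup G) : Set G)) ∈ φ.ker := hτ1
      rw [Subgroup.normalizerMonoidHom_ker, Subgroup.mem_subgroupOf] at h5
      exact h5
    · apply Subgroup.centralizer_le
      rintro z rfl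
      exact hx
  · intro hC g x hx hgx hx1
    let y := g⁻¹ * x * g
    have hy1 : y ≠ 1 := by
      intro h
      apply hx1
      have : x = g * y * g⁻¹ := by simp only [y]; group
      rw [this, h]
      group
    have hCy := hC y hgx hy1
    let C := Subgroup.centralizer ((P : Subgroup G) : Set G)
    have hPC : (P : Subgroup G) ≤ C := by
      intro a ha
      rw [Subgroup.mem_centralizer_iff]
      intro b hb
      exact hcomm b hb a ha
    have hP'C : ((g⁻¹ • P : Sylow p G) : Subgroup G) ≤ C := by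
      intro z hz
      have hz' : g * z * g⁻¹ ∈ (P : Subgroup G) := by
        have := Cfsg.Agent.Lib.TransferCore.mem_smul_sylow.mp hz
        rw [inv_inv] at this
        exact this
      show z ∈ Subgroup.centralizer ((P : Subgroup G) : Set G)
      rw [← hCy, Subgroup.mem_centralizer_iff]
      intro w hw
      rw [show w = y from hw]
      have h1 := hcomm _ hz' x hx
      simp only [y]
      calc g⁻¹ * x * g * z = g⁻¹ * (x * (g * z * g⁻¹)) * g := by group
        _ = g⁻¹ * ((g * z * g⁻¹) * x) * g := by rw [← h1]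
        _ = z * (g⁻¹ * x * g) := by group
    obtain ⟨s, hs, hsP⟩ := Cfsg.Agent.Lib.TransferCore.exists_conj_in_subgroup C (g⁻¹ • P) P hP'C hPC
    have hsN : s ∈ Subgroup.normalizer ((P : Subgroup G) : Set G) := by
      rw [Subgroup.mem_normalizer_iff]
      intro n
      have hs' := Subgroup.mem_centralizer_iff.mp hs
      constructor
      · intro hn
        have e : s * n * s⁻¹ = n := by
          rw [← hs' n hn]
          group
        rw [e]; exact hn
      · intro hn
        have e : s * n * s⁻¹ = n := by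
          have h1 := hs' _ hn
          have h2 : s * n * s⁻¹ * s = s * n := by group
          rw [h2] at h1
          exact (mul_left_cancel h1).symm
        rw [← e]; exact hn
    have h1 : s • P = P := Sylow.smul_eq_iff_mem_normalizer.mpr hsN
    rw [h1] at hsP
    have h2 : g⁻¹ ∈ Subgroup.normalizer ((P : Subgroup G) : Set G) :=
      Sylow.smul_eq_iff_mem_normalizer.mp hsP.symm
    simpa using inv_mem h2

end Cfsg.Agent.S3985
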