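import Mathlib
import Cfsg.Statements.S3986
import Cfsg.Agent.Lib.FrobCount

set_option autoImplicit false
open Cfsg

namespace Cfsg.Agent.S3986

open Cfsg.Agent.Lib.FrobCount
open scoped Pointwise

variable {G : Type*} [Group G] [Finite G] {p : ℕ} [hp : Fact p.Prime]

lemma mem_of_pow_coprime_index (N : Subgroup G) [N.Normal] {g : G} {m : ℕ} (hg : g ^ m = 1)
    (hm : Nat.Coprime m N.index) : g ∈ N := by
  rw [← QuotientGroup.eq_one_iff]
  have h1 : (g : G ⧸ N) ^ m = 1 := by
    rw [← QuotientGroup.mk_pow, hg]; rfl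
  have h2 : (g : G ⧸ N) ^ N.index = 1 := pow_card_eq_one'
  have h3 := (pow_gcd_eq_one).mpr ⟨h1, h2⟩
  rw [hm, pow_one] at h3
  exact h3

lemma eq_prime_pow_of_piElt {u : G} {q : ℕ} (hq : q.Prime) (hu : PiElt (fun r => r = q) u) :
    ∃ b, orderOf u = q ^ b :=
  ⟨_, Nat.eq_prime_pow_of_unique_prime_dvd (orderOf_pos u).ne' (fun {d} hd hdo => hu d hd hdo)⟩

/-- A `p`-element commuting with all `q`-elements commutes with all `p'`-elements. -/
lemma commute_of_coprime
    (H : ∀ x y : G, (∃ a : ℕ, orderOf x = p ^ a) → (∃ q b : ℕ, q.Prime ∧ q ≠ p ∧ orderOf y = q ^ b) → x * y = y * x)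
    (x : G) (hx : ∃ a : ℕ, orderOf x = p ^ a) :
    ∀ (n : ℕ) (y : G), orderOf y = n → Nat.Coprime n p → x * y = y * x := by
  intro n
  induction n using Nat.strong_induction_on with
  | _ n ih =>
    intro y hy hn
    by_cases h1 : n = 1
    · rw [h1, orderOf_eq_one_iff] at hy
      simp [hy]
    have hq : (n.minFac).Prime := Nat.minFac_prime h1
    set q := n.minFac with hqdef
    obtain ⟨u, v, hu, hv, huv, rfl⟩ := exists_decomp (fun r => r = q) y
    have hcop : Nat.Coprime (orderOf u) (orderOf v) := by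
      apply Nat.coprime_of_dvd
      intro k hk hku hkv
      exact hv k hk hkv (hu k hk hku)
    have hord : n = orderOf u * orderOf v := by
      rw [← hy]
      exact huv.orderOf_mul_eq_mul_orderOf_of_coprime hcop
    have hqp : q ≠ p := by
      intro h
      have h2 : q ∣ n := Nat.minFac_dvd n
      have h3 : p ∣ n := h ▸ h2
      have := Nat.dvd_gcd h3 (dvd_refl p)
      rw [hn] at this
      exact hp.out.one_lt.ne' (Nat.dvd_one.mp this)
    obtain ⟨b, hb⟩ := eq_prime_pow_of_piElt hq hu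
    have huo : orderOf u ≠ 1 := by
      intro h2
      have h3 : q ∣ orderOf v := by
        have h4 : q ∣ n := Nat.minFac_dvd n
        rwa [hord, h2, one_mul] at h4
      exact hv q hq h3 rfl
    have hnpos : 0 < n := by
      rw [← hy]; exact orderOf_pos _
    have hvlt : orderOf v < n := by
      rw [hord]
      have h5 := orderOf_pos v
      have h6 := orderOf_pos u
      exact lt_mul_of_one_lt_left h5 (by omega)
    have hvc : Nat.Coprime (orderOf v) p :=
      Nat.Coprime.coprime_dvd_left (Dvd.intro_left _ hord.symm) hn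
    have h7 := H x u hx ⟨q, b, hq, hqp, hb⟩
    have h8 := ih _ hvlt v rfl hvc
    calc x * (u * v) = (x * u) * v := by group
      _ = (u * x) * v := by rw [h7]
      _ = u * (x * v) := by group
      _ = u * (v * x) := by rw [h8]
      _ = (u * v) * x := by group

theorem forward (P : Sylow p G) (K : Subgroup G) (hPn : (P : Subgroup G).Normal) (hKn : K.Normal)
    (hinf : (P : Subgroup G) ⊓ K = ⊥) (hsup : (P : Subgroup G) ⊔ K = ⊤)
    (x y : G) (hx : ∃ a : ℕ, orderOf x = p ^ a) (hy : ∃ q b : ℕ, q.Prime ∧ q ≠ p ∧ orderOf y = q ^ b) :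
    x ∈ (P : Subgroup G) ∧ y ∈ K := by
  obtain ⟨a, ha⟩ := hx
  obtain ⟨q, b, hq, hqp, hb⟩ := hy
  have hc : Subgroup.IsComplement' (P : Subgroup G) K := by
    apply Subgroup.isComplement'_of_disjoint_and_mul_eq_univ (disjoint_iff.mpr hinf)
    rw [← Subgroup.normal_mul, hsup]
    rfl
  constructor
  · apply mem_of_pow_coprime_index (P : Subgroup G) (m := p ^ a)
    · rw [← ha]; exact pow_orderOf_eq_one x
    · apply Nat.Coprime.pow_left
      rw [Nat.Prime.coprime_iff_not_dvd hp.out]
      exact P.not_dvd_index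
  · apply mem_of_pow_coprime_index K (m := q ^ b)
    · rw [← hb]; exact pow_orderOf_eq_one y
    · rw [hc.index_eq_card]
      obtain ⟨n, hn⟩ := IsPGroup.iff_card.mp P.isPGroup'
      rw [hn]
      exact Nat.Coprime.pow _ _ ((Nat.coprime_primes hq hp.out).mpr hqp)

theorem backward
    (H : ∀ x y : G, (∃ a : ℕ, orderOf x = p ^ a) → (∃ q b : ℕ, q.Prime ∧ q ≠ p ∧ orderOf y = q ^ b) → x * y = y * x) :
    ∃ (P : Sylow p G) (K : Subgroup G), (P : Subgroup G).Normal ∧ K.Normal ∧ (P : Subgroup G) ⊓ K = ⊥ ∧ (P : Subgroup G) ⊔ K = ⊤ := by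
  classical
  have hcomm := commute_of_coprime H
  obtain P : Sylow p G := Inhabited.default
  -- all elements commuting with all `p`-elements
  let T : Set G := {x | ∃ a : ℕ, orderOf x = p ^ a}
  let D : Subgroup G := Subgroup.centralizer T
  have hTconj : ∀ (g x : G), x ∈ T → g * x * g⁻¹ ∈ T := by
    rintro g x ⟨a, ha⟩
    exact ⟨a, by rw [orderOf_conj', ha]⟩
  have hDcop : ∀ y : G, Nat.Coprime (orderOf y) p → y ∈ D := by
    intro y hy
    rw [Subgroup.mem_centralizer_iff]
    intro x hx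
    exact hcomm x hx _ y rfl hy
  have hPT : ∀ x ∈ (P : Subgroup G), x ∈ T := by
    intro x hx
    obtain ⟨k, hk⟩ := (IsPGroup.iff_orderOf.mp P.isPGroup') ⟨x, hx⟩
    exact ⟨k, by rw [← Subgroup.orderOf_mk x hx]; exact hk⟩
  have hDn : D.Normal := by
    constructor
    intro d hd g
    rw [Subgroup.mem_centralizer_iff] at hd ⊢
    intro x hx
    have h1 := hd _ (hTconj g⁻¹ x hx)
    simp only [inv_inv] at h1
    calc x * (g * d * g⁻¹) = g * (g⁻¹ * x * g * d) * g⁻¹ := by group
      _ = g * (d * (g⁻¹ * x * g)) * g⁻¹ := by rw [h1]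
      _ = g * d * g⁻¹ * x := by group
  -- the quotient is a `p`-group
  have hpq : IsPGroup p (G ⧸ D) := by
    intro q
    obtain ⟨g, rfl⟩ := QuotientGroup.mk_surjective q
    obtain ⟨u, v, hu, hv, huv, rfl⟩ := exists_decomp (fun r => r = p) g
    have hvD : v ∈ D := by
      apply hDcop
      apply Nat.coprime_of_dvd
      intro k hk hkv hkp
      exact hv k hk hkv ((Nat.prime_dvd_prime_iff_eq hk hp.out).mp hkp)
    obtain ⟨b, hb⟩ := eq_prime_pow_of_piElt hp.out hu
    refine ⟨b, ?_⟩
    have h1 : ((u * v : G) : G ⧸ D) = (u : G ⧸ D) := by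
      rw [QuotientGroup.mk_mul, (QuotientGroup.eq_one_iff v).mpr hvD, mul_one]
    rw [h1, ← QuotientGroup.mk_pow, ← hb, pow_orderOf_eq_one]
    rfl
  obtain ⟨c, hc⟩ := IsPGroup.iff_card.mp hpq
  have hsup1 : (P : Subgroup G) ⊔ D = ⊤ := by
    rw [← Subgroup.index_eq_one]
    have h1 : ((P : Subgroup G) ⊔ D).index ∣ (P : Subgroup G).index :=
      Subgroup.index_dvd_of_le le_sup_left
    have h2 : ((P : Subgroup G) ⊔ D).index ∣ p ^ c := by
      rw [← hc]
      exact Subgroup.index_dvd_of_le le_sup_right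
    have h3 : Nat.Coprime (p ^ c) (P : Subgroup G).index := by
      apply Nat.Coprime.pow_left
      rw [Nat.Prime.coprime_iff_not_dvd hp.out]
      exact P.not_dvd_index
    exact Nat.eq_one_of_dvd_coprimes h3 h2 h1
  have hPn : (P : Subgroup G).Normal := by
    constructor
    intro x hx g
    have hg : g ∈ (P : Subgroup G) ⊔ D := by rw [hsup1]; trivial
    have hg' : g ∈ ((P : Subgroup G) : Set G) * (D : Set G) := by
      rw [← Subgroup.mul_normal]; exact hg
    obtain ⟨u, hu, d, hd, rfl⟩ := Set.mem_mul.mp hg'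
    have h1 : d * x = x * d := ((Subgroup.mem_centralizer_iff.mp hd) x (hPT x hx)).symm
    have h2 : u * d * x * (u * d)⁻¹ = u * x * u⁻¹ := by
      calc u * d * x * (u * d)⁻¹ = u * (d * x) * d⁻¹ * u⁻¹ := by group
        _ = u * (x * d) * d⁻¹ * u⁻¹ := by rw [h1]
        _ = u * x * u⁻¹ := by group
    rw [h2]
    exact mul_mem (mul_mem hu hx) (inv_mem hu)
  obtain ⟨K, hK⟩ := Subgroup.exists_right_complement'_of_coprime
    (N := (P : Subgroup G)) P.card_coprime_index
  have hKcard : (P : Subgroup G).index = Nat.card K := hK.symm.index_eq_card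
  have hKD : K ≤ D := by
    intro y hy
    apply hDcop
    have h1 : orderOf y ∣ (P : Subgroup G).index := by
      rw [hKcard, ← Subgroup.orderOf_mk y hy]
      exact orderOf_dvd_natCard _
    apply Nat.Coprime.coprime_dvd_left h1
    rw [Nat.coprime_comm, Nat.Prime.coprime_iff_not_dvd hp.out]
    exact P.not_dvd_index
  have hKn : K.Normal := by
    constructor
    intro k hk g
    have hg : g ∈ (P : Subgroup G) ⊔ K := by rw [hK.sup_eq_top]; trivial
    have hg' : g ∈ ((P : Subgroup G) : Set G) * (K : Set G) := by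
      rw [← Subgroup.normal_mul]; exact hg
    obtain ⟨u, hu, h, hh, rfl⟩ := Set.mem_mul.mp hg'
    have hk2 : h * k * h⁻¹ ∈ K := mul_mem (mul_mem hh hk) (inv_mem hh)
    have h1 : (h * k * h⁻¹) * u = u * (h * k * h⁻¹) :=
      ((Subgroup.mem_centralizer_iff.mp (hKD hk2)) u (hPT u hu)).symm
    have h2 : u * h * k * (u * h)⁻¹ = h * k * h⁻¹ := by
      calc u * h * k * (u * h)⁻¹ = u * (h * k * h⁻¹) * u⁻¹ := by group
        _ = (h * k * h⁻¹) * u * u⁻¹ := by rw [h1]
        _ = h * k * h⁻¹ := by group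
    rw [h2]
    exact hk2
  exact ⟨P, K, hPn, hKn, disjoint_iff.mp hK.disjoint, hK.sup_eq_top⟩

/-- Let p be a prime and G a finite group. Then some Sylow p-subgroup of G is a direct factor of G (it is normal and has a normal complement) if and only if every element of p-power order commutes with every element whose order is a power of a prime other than p. -/
theorem result {G : Type*} [Group G] [Finite G] (p : ℕ) [Fact p.Prime] : (∃ (P : Sylow p G) (K : Subgroup G), (P : Subgroup G).Normal ∧ K.Normal ∧ (P : Subgroup G) ⊓ K = ⊥ ∧ (P : Subgroup G) ⊔ K = ⊤) ↔ ∀ x y : G, (∃ a : ℕ, orderOf x = p ^ a) → (∃ q b : ℕ, q.Prime ∧ q ≠ p ∧ orderOf y = q ^ b) → x * y = y * x := by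
  constructor
  · rintro ⟨P, K, hPn, hKn, hinf, hsup⟩ x y hx hy
    obtain ⟨h1, h2⟩ := forward P K hPn hKn hinf hsup x y hx hy
    exact Subgroup.commute_of_normal_of_disjoint _ _ hPn hKn (disjoint_iff.mpr hinf) x y h1 h2
  · exact backward

end Cfsg.Agent.S3986
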