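import Mathlib
import Cfsg.Statements.S3987
import Cfsg.Agent.S3986

set_option autoImplicit false
open Cfsg

namespace Cfsg.Agent.S3987

open Cfsg.Agent.S3986
open scoped Pointwise

variable {G : Type*} [Group G] [Finite G]

lemma card_class [Fintype G] [DecidableEq G] (x : G) :
    (Finset.univ.image (fun g : G => g * x * g⁻¹)).card = (Subgroup.centralizer ({x} : Set G)).index := by
  classical
  let f : G → G := fun g => g * x * g⁻¹
  have h1 : Nat.card (Set.range f) = (Subgroup.centralizer ({x} : Set G)).index := by
    rw [Subgroup.index]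
    apply Nat.card_congr
    refine (Setoid.quotientKerEquivRange f).symm.trans (Quotient.congrRight ?_)
    intro a b
    rw [Setoid.ker_def]
    change f a = f b ↔ (QuotientGroup.leftRel _) a b
    rw [QuotientGroup.leftRel_apply, Subgroup.mem_centralizer_iff]
    constructor
    · intro h y hy
      rw [Set.mem_singleton_iff] at hy
      subst hy
      have h2 : a * y * a⁻¹ = b * y * b⁻¹ := h
      calc y * (a⁻¹ * b) = a⁻¹ * (a * y * a⁻¹) * b := by group
        _ = a⁻¹ * (b * y * b⁻¹) * b := by rw [h2]
        _ = a⁻¹ * b * y := by group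
    · intro h
      have h2 := h x rfl
      change a * x * a⁻¹ = b * x * b⁻¹
      calc a * x * a⁻¹ = a * (x * (a⁻¹ * b)) * b⁻¹ := by group
        _ = a * (a⁻¹ * b * x) * b⁻¹ := by rw [h2]
        _ = b * x * b⁻¹ := by group
  rw [← h1]
  rw [Nat.card_eq_fintype_card, ← Set.toFinset_card]
  congr 1
  ext z
  simp [f]

lemma commute_of_index (x y : G)
    (h : (Subgroup.centralizer ({x * y} : Set G)).index =
      (Subgroup.centralizer ({x} : Set G)).index * (Subgroup.centralizer ({y} : Set G)).index) :
    x * y = y * x := by
  classical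
  cases nonempty_fintype G
  let cl : G → Finset G := fun z => Finset.univ.image (fun g : G => g * z * g⁻¹)
  have hcl : ∀ z, (cl z).card = (Subgroup.centralizer ({z} : Set G)).index := fun z => card_class z
  let m : G × G → G := fun q => q.1 * q.2
  have hsub : cl (x * y) ⊆ (cl x ×ˢ cl y).image m := by
    intro z hz
    simp only [cl, Finset.mem_image, Finset.mem_univ, true_and] at hz
    obtain ⟨g, rfl⟩ := hz
    rw [Finset.mem_image]
    refine ⟨(g * x * g⁻¹, g * y * g⁻¹), ?_, ?_⟩
    · simp only [Finset.mem_product, cl, Finset.mem_image, Finset.mem_univ, true_and]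
      exact ⟨⟨g, rfl⟩, ⟨g, rfl⟩⟩
    · simp only [m]
      group
  have hle1 : (cl (x * y)).card ≤ ((cl x ×ˢ cl y).image m).card := Finset.card_le_card hsub
  have hle2 : ((cl x ×ˢ cl y).image m).card ≤ (cl x ×ˢ cl y).card := Finset.card_image_le
  have heq : (cl x ×ˢ cl y).card = (cl (x * y)).card := by
    rw [Finset.card_product, hcl, hcl, hcl, h]
  have hinj : Set.InjOn m (cl x ×ˢ cl y : Finset (G × G)) :=
    Finset.card_image_iff.mp (le_antisymm hle2 (heq ▸ hle1))
  let z := x * y
  have hmem1 : (z * x * z⁻¹, z * y * z⁻¹) ∈ cl x ×ˢ cl y := by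
    simp only [Finset.mem_product, cl, Finset.mem_image, Finset.mem_univ, true_and]
    exact ⟨⟨z, rfl⟩, ⟨z, rfl⟩⟩
  have hmem2 : (x, y) ∈ cl x ×ˢ cl y := by
    simp only [Finset.mem_product, cl, Finset.mem_image, Finset.mem_univ, true_and]
    exact ⟨⟨1, by simp⟩, ⟨1, by simp⟩⟩
  have hm : m (z * x * z⁻¹, z * y * z⁻¹) = m (x, y) := by
    simp only [m, z]
    group
  have h2 := hinj hmem1 hmem2 hm
  have h3 : z * x * z⁻¹ = x := congrArg Prod.fst h2
  have h4 : x * y * x * y⁻¹ * x⁻¹ = x := by
    have : z * x * z⁻¹ = x * y * x * y⁻¹ * x⁻¹ := by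
      simp only [z]; group
    rw [← this, h3]
  have h5 : y * x * y⁻¹ = x := by
    have h6 : y * x * y⁻¹ = x⁻¹ * (x * y * x * y⁻¹ * x⁻¹) * x := by group
    rw [h6, h4]
    group
  calc x * y = (y * x * y⁻¹) * y := by rw [h5]
    _ = y * x := by group

/-- Let p be a prime and G a finite group. Then some Sylow p-subgroup of G is a direct factor of G (normal with a normal complement) if and only if for every element x of p-power order and every element y whose order is a power of a prime other than p, the conjugacy class of x y has as many elements as the product of the sizes of the classes of x and of y. -/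
theorem result {G : Type*} [Group G] [Finite G] (p : ℕ) [Fact p.Prime] : (∃ (P : Sylow p G) (K : Subgroup G), (P : Subgroup G).Normal ∧ K.Normal ∧ (P : Subgroup G) ⊓ K = ⊥ ∧ (P : Subgroup G) ⊔ K = ⊤) ↔ ∀ x y : G, (∃ a : ℕ, orderOf x = p ^ a) → (∃ q b : ℕ, q.Prime ∧ q ≠ p ∧ orderOf y = q ^ b) → (Subgroup.centralizer ({x * y} : Set G)).index = (Subgroup.centralizer ({x} : Set G)).index * (Subgroup.centralizer ({y} : Set G)).index := by
  constructor
  · rintro ⟨P, K, hPn, hKn, hinf, hsup⟩ x y hx hy
    obtain ⟨hxP, hyK⟩ := forward P K hPn hKn hinf hsup x y hx hy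
    have hdis : Disjoint (P : Subgroup G) K := disjoint_iff.mpr hinf
    have hcomm : ∀ a ∈ (P : Subgroup G), ∀ b ∈ K, a * b = b * a :=
      fun a ha b hb => Subgroup.commute_of_normal_of_disjoint _ _ hPn hKn hdis a b ha hb
    let A := Subgroup.centralizer ({x} : Set G)
    let B := Subgroup.centralizer ({y} : Set G)
    have hKA : K ≤ A := by
      intro k hk
      rw [Subgroup.mem_centralizer_iff]
      rintro z rfl
      exact hcomm _ hxP _ hk
    have hPB : (P : Subgroup G) ≤ B := by
      intro u hu
      rw [Subgroup.mem_centralizer_iff]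
      rintro z rfl
      exact (hcomm _ hu _ hyK).symm
    have hc : Subgroup.IsComplement' (P : Subgroup G) K := by
      apply Subgroup.isComplement'_of_disjoint_and_mul_eq_univ hdis
      rw [← Subgroup.normal_mul, hsup]
      rfl
    have hCeq : Subgroup.centralizer ({x * y} : Set G) = A ⊓ B := by
      apply le_antisymm
      · intro g hg
        have hg' : (x * y) * g = g * (x * y) := (Subgroup.mem_centralizer_iff.mp hg) _ rfl
        have hg2 : g ∈ (P : Subgroup G) ⊔ K := by rw [hsup]; trivial
        have hg3 : g ∈ ((P : Subgroup G) : Set G) * (K : Set G) := by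
          rw [← Subgroup.normal_mul]; exact hg2
        obtain ⟨u, hu, k, hk, rfl⟩ := Set.mem_mul.mp hg3
        have hkx : k * x = x * k := (hcomm _ hxP _ hk).symm
        have huy : u * y = y * u := hcomm _ hu _ hyK
        -- compare components
        have e : x * u * y * k = u * x * k * y := by
          calc x * u * y * k = x * (u * y) * k := by group
            _ = x * (y * u) * k := by rw [huy]
            _ = (x * y) * (u * k) := by group
            _ = (u * k) * (x * y) := hg'
            _ = u * (k * x) * y := by group
            _ = u * (x * k) * y := by rw [hkx]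
            _ = u * x * k * y := by group
        have hEq : x⁻¹ * u⁻¹ * x * u = k * y * k⁻¹ * y⁻¹ := by
          calc x⁻¹ * u⁻¹ * x * u = (u * x)⁻¹ * (x * u * y * k) * (y * k)⁻¹ := by group
            _ = (u * x)⁻¹ * (u * x * k * y) * (y * k)⁻¹ := by rw [e]
            _ = k * y * k⁻¹ * y⁻¹ := by group
        have hP1 : x⁻¹ * u⁻¹ * x * u ∈ (P : Subgroup G) :=
          mul_mem (mul_mem (mul_mem (inv_mem hxP) (inv_mem hu)) hxP) hu
        have hK1 : x⁻¹ * u⁻¹ * x * u ∈ K := by
          rw [hEq]
          exact mul_mem (mul_mem (mul_mem hk hyK) (inv_mem hk)) (inv_mem hyK)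
        have h1 := Subgroup.disjoint_def.mp hdis hP1 hK1
        have hxu : x * u = u * x := by
          have : x * u = u * x * (x⁻¹ * u⁻¹ * x * u) := by group
          rw [this, h1, mul_one]
        have hK2 : k * y * k⁻¹ * y⁻¹ = 1 := hEq ▸ h1
        have hky : k * y = y * k := by
          have : k * y = (k * y * k⁻¹ * y⁻¹) * (y * k) := by group
          rw [this, hK2, one_mul]
        refine Subgroup.mem_inf.mpr ⟨?_, ?_⟩
        · apply Subgroup.mem_centralizer_iff.mpr
          intro z hz
          rw [show z = x from hz]
          calc x * (u * k) = (x * u) * k := by group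
            _ = (u * x) * k := by rw [hxu]
            _ = u * (x * k) := by group
            _ = u * (k * x) := by rw [hkx]
            _ = (u * k) * x := by group
        · apply Subgroup.mem_centralizer_iff.mpr
          intro z hz
          rw [show z = y from hz]
          calc y * (u * k) = (y * u) * k := by group
            _ = (u * y) * k := by rw [huy]
            _ = u * (y * k) := by group
            _ = u * (k * y) := by rw [hky]
            _ = (u * k) * y := by group
      · intro g hg
        obtain ⟨h1, h2⟩ := Subgroup.mem_inf.mp hg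
        have h1' := Subgroup.mem_centralizer_iff.mp h1
        have h2' := Subgroup.mem_centralizer_iff.mp h2
        apply Subgroup.mem_centralizer_iff.mpr
        rintro z rfl
        have e1 : x * g = g * x := h1' x rfl
        have e2 : y * g = g * y := h2' y rfl
        calc x * y * g = x * (y * g) := by group
          _ = x * (g * y) := by rw [e2]
          _ = (x * g) * y := by group
          _ = (g * x) * y := by rw [e1]
          _ = g * (x * y) := by group
    rw [hCeq]
    have hcop : Nat.Coprime A.index B.index := by
      obtain ⟨n, hn⟩ := IsPGroup.iff_card.mp P.isPGroup'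
      have h1 : A.index ∣ p ^ n := by
        rw [← hn, ← hc.index_eq_card]
        exact Subgroup.index_dvd_of_le hKA
      have h2 : B.index ∣ (P : Subgroup G).index := Subgroup.index_dvd_of_le hPB
      apply Nat.Coprime.coprime_dvd_left h1
      apply Nat.Coprime.coprime_dvd_right h2
      apply Nat.Coprime.pow_left
      rw [Nat.Prime.coprime_iff_not_dvd (Fact.out)]
      exact P.not_dvd_index
    apply le_antisymm
    · exact Subgroup.index_inf_le
    · apply Nat.le_of_dvd (Nat.pos_of_ne_zero Subgroup.index_ne_zero_of_finite)
      exact hcop.mul_dvd_of_dvd_of_dvd (Subgroup.index_dvd_of_le inf_le_left)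
        (Subgroup.index_dvd_of_le inf_le_right)
  · intro h
    rw [Cfsg.Agent.S3986.result]
    intro x y hx hy
    exact commute_of_index x y (h x y hx hy)

end Cfsg.Agent.S3987
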