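import Mathlib
import Cfsg.Statements.S4004
import Cfsg.Agent.Lib.FrobCount
import Cfsg.Agent.Lib.CPGroups
import Cfsg.Agent.Lib.FpfGeneral
import Cfsg.Agent.Lib.FrobPair
import Cfsg.Agent.Lib.Frobenius
import Cfsg.Agent.Lib.FrobeniusThm
import Cfsg.Agent.Lib.FrobCompl
import Cfsg.Agent.Lib.BurnsidePQ
import Cfsg.Agent.S3857

set_option autoImplicit false
open Cfsg

namespace Cfsg.Agent.S4004

open Cfsg.Agent.Lib.FrobCount

/-- The number of elements of order `m`. -/
noncomputable def s (G : Type*) [Group G] (m : ℕ) : ℕ := Nat.card {g : G // orderOf g = m}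

section basic

variable {G : Type*} [Group G] [Finite G]

lemma s_one : s G 1 = 1 := by
  unfold s
  simp only [orderOf_eq_one_iff]
  exact Nat.card_unique

lemma s_pos_iff {m : ℕ} : 0 < s G m ↔ ∃ g : G, orderOf g = m := by
  unfold s
  rw [Nat.card_pos_iff]
  constructor
  · rintro ⟨⟨g, hg⟩, _⟩
    exact ⟨g, hg⟩
  · rintro ⟨g, hg⟩
    exact ⟨⟨⟨g, hg⟩⟩, inferInstance⟩

lemma s_ne_zero_iff {m : ℕ} : s G m ≠ 0 ↔ ∃ g : G, orderOf g = m := by
  rw [← s_pos_iff]; omega

lemma exists_of_prime_dvd {p : ℕ} (hp : p.Prime) (h : p ∣ Nat.card G) : ∃ g : G, orderOf g = p := by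
  have : Fact p.Prime := ⟨hp⟩
  exact exists_prime_orderOf_dvd_card' p h

lemma card_pow_eq_one_sum (n : ℕ) (hn : n ≠ 0) :
    Nat.card {x : G // x ^ n = 1} = ∑ d ∈ n.divisors, s G d := by
  classical
  cases nonempty_fintype G
  unfold s
  rw [Nat.card_eq_fintype_card, Fintype.card_subtype]
  rw [Finset.card_eq_sum_card_fiberwise (f := fun x : G => orderOf x) (t := n.divisors)]
  · apply Finset.sum_congr rfl
    intro d hd
    rw [Nat.card_eq_fintype_card, Fintype.card_subtype]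
    congr 1
    ext x
    simp only [Finset.mem_filter, Finset.mem_univ, true_and]
    constructor
    · rintro ⟨_, h⟩; exact h
    · intro h
      refine ⟨?_, h⟩
      rw [← orderOf_dvd_iff_pow_eq_one, h]
      exact Nat.dvd_of_mem_divisors hd
  · intro x hx
    have hx' : x ^ n = 1 := by simpa using hx
    exact Nat.mem_divisors.mpr ⟨orderOf_dvd_of_pow_eq_one hx', hn⟩

lemma sum_le_card (n : ℕ) (hn : n ≠ 0) : ∑ d ∈ n.divisors, s G d ≤ Nat.card G := by
  rw [← card_pow_eq_one_sum n hn]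
  exact Nat.card_le_card_of_injective Subtype.val Subtype.val_injective

lemma frob_sum (n : ℕ) (hn : n ∣ Nat.card G) : n ∣ ∑ d ∈ n.divisors, s G d := by
  have hn0 : n ≠ 0 := by
    rintro rfl
    rw [zero_dvd_iff] at hn
    exact Nat.card_pos.ne' hn
  rw [← card_pow_eq_one_sum n hn0]
  exact frobenius_dvd_card_pow_eq_one G n hn

lemma sum_pq {p q : ℕ} (hp : p.Prime) (hq : q.Prime) (hne : p ≠ q) :
    ∑ d ∈ (p * q).divisors, s G d = 1 + s G p + s G q + s G (p * q) := by
  classical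
  have h : (p * q).divisors = {1, p, q, p * q} := by
    ext d
    simp only [Nat.mem_divisors, Finset.mem_insert, Finset.mem_singleton]
    constructor
    · rintro ⟨h, _⟩
      obtain ⟨a, b, ha, hb, rfl⟩ := (Nat.dvd_mul).mp h
      rcases (Nat.dvd_prime hp).mp ha with rfl | rfl <;> rcases (Nat.dvd_prime hq).mp hb with rfl | rfl <;> simp
    · have h0 : p * q ≠ 0 := Nat.mul_ne_zero hp.ne_zero hq.ne_zero
      rintro (rfl | rfl | rfl | rfl)
      · exact ⟨one_dvd _, h0⟩
      · exact ⟨dvd_mul_right _ _, h0⟩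
      · exact ⟨dvd_mul_left _ _, h0⟩
      · exact ⟨dvd_rfl, h0⟩
  have h1p : (1 : ℕ) ≠ p := hp.ne_one.symm
  have h1q : (1 : ℕ) ≠ q := hq.ne_one.symm
  have h1pq : (1 : ℕ) ≠ p * q := by
    have := Nat.mul_le_mul hp.two_le hq.two_le
    omega
  have hppq : p ≠ p * q := by
    have := hq.two_le
    intro h
    have h2 : p * 1 = p * q := by omega
    have := Nat.eq_of_mul_eq_mul_left hp.pos h2
    omega
  have hqpq : q ≠ p * q := by
    have := hp.two_le
    intro h
    have h2 : 1 * q = p * q := by omega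
    have := Nat.eq_of_mul_eq_mul_right hq.pos h2
    omega
  rw [h, Finset.sum_insert (by simp [h1p, h1q, h1pq]), Finset.sum_insert (by simp [hne, hppq]),
    Finset.sum_insert (by simp [hqpq]), Finset.sum_singleton, s_one]
  ring

lemma dvd_pq {p q : ℕ} (hp : p.Prime) (hq : q.Prime) (hne : p ≠ q) (h : p * q ∣ Nat.card G) :
    p * q ∣ 1 + s G p + s G q + s G (p * q) := by
  rw [← sum_pq hp hq hne]
  exact frob_sum _ h

lemma sum_le_card_pq {p q : ℕ} (hp : p.Prime) (hq : q.Prime) (hne : p ≠ q) :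
    1 + s G p + s G q + s G (p * q) ≤ Nat.card G := by
  rw [← sum_pq hp hq hne]
  exact sum_le_card _ (Nat.mul_ne_zero hp.ne_zero hq.ne_zero)

lemma dvd_one_add {p : ℕ} (hp : p.Prime) (h : p ∣ Nat.card G) : p ∣ 1 + s G p := by
  have := frob_sum (G := G) p h
  rw [hp.sum_divisors, s_one, add_comm] at this
  exact this

lemma mul_dvd_card {p q : ℕ} (hp : p.Prime) (hq : q.Prime) (hne : p ≠ q) (h1 : p ∣ Nat.card G)
    (h2 : q ∣ Nat.card G) : p * q ∣ Nat.card G :=
  ((Nat.coprime_primes hp hq).mpr hne).mul_dvd_of_dvd_of_dvd h1 h2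

lemma not_dvd_s {p : ℕ} (hp : p.Prime) (h : p ∣ Nat.card G) : ¬ p ∣ s G p := by
  intro h2
  have h3 := dvd_one_add hp h
  have h4 : p ∣ 1 := by
    rw [add_comm] at h3
    exact (Nat.dvd_add_right h2).mp h3
  exact hp.one_lt.ne' (Nat.dvd_one.mp h4)

lemma prime_dvd_s_of_sq_dvd {p m : ℕ} (hp : p.Prime) (hm : p ^ 2 ∣ m) : p ∣ s G m := by
  have hphi : p ∣ Nat.totient m := by
    obtain ⟨k, rfl⟩ := hm
    rcases Nat.eq_zero_or_pos k with rfl | hk
    · simp
    · have h1 : Nat.totient (p ^ 2) ∣ Nat.totient (p ^ 2 * k) :=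
        Nat.totient_dvd_of_dvd (dvd_mul_right _ _)
      have h2 : p ∣ Nat.totient (p ^ 2) := by
        rw [Nat.totient_prime_pow hp (by norm_num)]
        simp
      exact h2.trans h1
  exact hphi.trans (totient_dvd_card_orderOf (G := G) m)

/-- There is a fixed point of a conjugation of prime order on elements of order `r`, when their number is not divisible by `p`. -/
lemma exists_commuting {p r : ℕ} (hp : p.Prime) {y : G} (hy : orderOf y = p) (hs : ¬ p ∣ s G r) :
    ∃ z : G, orderOf z = r ∧ y * z = z * y := by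
  classical
  have hpf : Fact p.Prime := ⟨hp⟩
  cases nonempty_fintype G
  let X := {g : G // orderOf g = r}
  let f : Function.End X := fun g => ⟨y * g.1 * y⁻¹, by
    show orderOf (y * g.1 * y⁻¹) = r
    rw [orderOf_conj' y g.1]; exact g.2⟩
  have hfpow : ∀ n : ℕ, ∀ g : X, ((f ^ n) g).1 = y ^ n * g.1 * (y ^ n)⁻¹ := by
    intro n
    induction n with
    | zero =>
      intro g
      show g.1 = y ^ 0 * g.1 * (y ^ 0)⁻¹
      simp
    | succ n ih =>
      intro g
      rw [pow_succ]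
      show ((f ^ n) (f g)).1 = _
      rw [ih]
      show y ^ n * (y * g.1 * y⁻¹) * (y ^ n)⁻¹ = y ^ (n + 1) * g.1 * (y ^ (n + 1))⁻¹
      group
  have hf1 : f ^ p ^ 1 = 1 := by
    funext g
    apply Subtype.ext
    rw [hfpow, pow_one, ← hy, pow_orderOf_eq_one]
    show 1 * g.1 * 1⁻¹ = g.1
    simp
  have hmod := Equiv.Perm.card_fixedPoints_modEq hf1
  by_contra hno
  push Not at hno
  have hemp : IsEmpty (Function.fixedPoints f) := by
    constructor
    rintro ⟨g, hg⟩
    apply hno g.1 g.2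
    have h1 : y * g.1 * y⁻¹ = g.1 := congrArg Subtype.val hg
    calc y * g.1 = y * g.1 * y⁻¹ * y := by group
      _ = g.1 * y := by rw [h1]
  have h0 : Fintype.card (Function.fixedPoints f) = 0 := Fintype.card_eq_zero
  rw [h0] at hmod
  apply hs
  unfold s
  rw [Nat.card_eq_fintype_card]
  exact (Nat.modEq_zero_iff_dvd).mp hmod

/-- The key counting trick. -/
theorem trick {p r : ℕ} (hp : p.Prime) (hr : r.Prime) (hne : p ≠ r) (hr2 : r ≠ 2)
    (hdvd : p * r ∣ Nat.card G) (h : s G (p * r) = s G p) : False := by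
  classical
  have hpG : p ∣ Nat.card G := (dvd_mul_right _ _).trans hdvd
  have hrG : r ∣ Nat.card G := (dvd_mul_left _ _).trans hdvd
  have h1 := dvd_pq hp hr hne hdvd
  rw [h] at h1
  have h2 := dvd_one_add hp hpG
  have h3 : p ∣ 1 + s G p + s G r + s G p := (dvd_mul_right _ _).trans h1
  have hsr : ¬ p ∣ s G r := by
    intro h4
    have h5 : p ∣ (1 + s G p) + s G r + s G p := h3
    have h6 : p ∣ s G p := by
      have h7 : p ∣ (1 + s G p) + s G r := dvd_add h2 h4
      exact (Nat.dvd_add_right h7).mp h5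
    exact not_dvd_s hp hpG h6
  have hcop : Nat.Coprime p r := (Nat.coprime_primes hp hr).mpr hne
  -- choose commuting element
  have hz : ∀ y : {g : G // orderOf g = p}, ∃ z : G, orderOf z = r ∧ y.1 * z = z * y.1 :=
    fun y => exists_commuting hp y.2 hsr
  choose z hzo hzc using hz
  let ι : {g : G // orderOf g = p} × Bool → {g : G // orderOf g = p * r} := fun t =>
    match t with
    | (y, true) => ⟨y.1 * z y, by
        rw [(show Commute y.1 (z y) from hzc y).orderOf_mul_eq_mul_orderOf_of_coprime (by rw [y.2, hzo]; exact hcop), y.2, hzo]⟩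
    | (y, false) => ⟨y.1 * (z y)⁻¹, by
        have hc : Commute y.1 (z y)⁻¹ := (show Commute y.1 (z y) from hzc y).inv_right
        rw [hc.orderOf_mul_eq_mul_orderOf_of_coprime (by rw [y.2, orderOf_inv, hzo]; exact hcop), y.2, orderOf_inv, hzo]⟩
  have hιval : ∀ (y : {g : G // orderOf g = p}) (b : Bool), ∃ w : G, orderOf w = r ∧ Commute y.1 w ∧ (ι (y, b)).1 = y.1 * w ∧
      w = (if b then z y else (z y)⁻¹) := by
    intro y b
    cases b
    · exact ⟨(z y)⁻¹, by rw [orderOf_inv, hzo], (show Commute y.1 (z y) from hzc y).inv_right, rfl, rfl⟩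
    · exact ⟨z y, hzo y, hzc y, rfl, rfl⟩
  have hinj : Function.Injective ι := by
    rintro ⟨y, b⟩ ⟨y', b'⟩ he
    obtain ⟨w, hw, hc, hv, hw'⟩ := hιval y b
    obtain ⟨w', hw2, hc', hv', hw2'⟩ := hιval y' b'
    have h1 : y.1 * w = y'.1 * w' := by
      rw [← hv, ← hv', he]
    have h2 : (y.1 * w) ^ r = (y'.1 * w') ^ r := by rw [h1]
    have hwr : w ^ r = 1 := by rw [← hw]; exact pow_orderOf_eq_one _
    have hwr' : w' ^ r = 1 := by rw [← hw2]; exact pow_orderOf_eq_one _
    rw [hc.mul_pow, hc'.mul_pow, hwr, hwr', mul_one, mul_one] at h2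
    have h3 : y.1 = y'.1 := by
      obtain ⟨c, _, hc⟩ := Nat.exists_mul_mod_eq_one_of_coprime hcop.symm hp.one_lt
      have h4 : ∀ u : {g : G // orderOf g = p}, u.1 = (u.1 ^ r) ^ c := by
        intro u
        rw [← pow_mul, ← pow_mod_orderOf u.1 (r * c), u.2, hc, pow_one]
      rw [h4 y, h4 y', h2]
    have hyy : y = y' := Subtype.ext h3
    subst hyy
    have h4 : w = w' := mul_left_cancel h1
    have hzne : z y ≠ (z y)⁻¹ := by
      intro h5
      have h6 : z y ^ 2 = 1 := by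
        rw [sq]
        nth_rewrite 1 [h5]
        simp
      have h7 := orderOf_dvd_of_pow_eq_one h6
      rw [hzo] at h7
      exact hr2 ((Nat.prime_dvd_prime_iff_eq hr Nat.prime_two).mp h7)
    have hbb : b = b' := by
      rw [hw', hw2'] at h4
      cases b <;> cases b' <;> simp_all
    rw [hbb]
  have hcard : s G p * 2 ≤ s G (p * r) := by
    unfold s
    have := Nat.card_le_card_of_injective ι hinj
    rw [Nat.card_prod] at this
    simpa using this
  rw [h] at hcard
  have hpos : 0 < s G p := s_pos_iff.mpr (exists_of_prime_dvd hp hpG)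
  omega

/-- No element of order `r ^ 2` means no element of order `r ^ i`, `i ≥ 2`. -/
lemma s_prime_pow_eq_zero {r i : ℕ} (hr : r.Prime) (hno : ∀ g : G, orderOf g ≠ r ^ 2) (hi : 2 ≤ i) :
    s G (r ^ i) = 0 := by
  by_contra h
  obtain ⟨g, hg⟩ := s_ne_zero_iff.mp h
  obtain ⟨j, rfl⟩ : ∃ j, i = j + 2 := ⟨i - 2, by omega⟩
  apply hno (g ^ r ^ j)
  have hd : r ^ j ∣ orderOf g := by
    rw [hg, pow_add]
    exact dvd_mul_right _ _
  rw [orderOf_pow_of_dvd (pow_ne_zero _ hr.ne_zero) hd, hg, pow_add]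
  exact Nat.mul_div_cancel_left _ (pow_pos hr.pos _)

lemma prime_pow_dvd_one_add {r : ℕ} (hr : r.Prime) (hrG : r ∣ Nat.card G) (hno : ∀ g : G, orderOf g ≠ r ^ 2) :
    r ^ (Nat.card G).factorization r ∣ 1 + s G r := by
  classical
  set e := (Nat.card G).factorization r with he
  have hd : r ^ e ∣ Nat.card G := Nat.ordProj_dvd _ _
  have hG0 : Nat.card G ≠ 0 := Nat.card_pos.ne'
  have he1 : 1 ≤ e := (hr.dvd_iff_one_le_factorization hG0).mp hrG
  have h := frob_sum (G := G) _ hd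
  have hsub : ({1, r} : Finset ℕ) ⊆ (r ^ e).divisors := by
    intro d hd
    simp only [Finset.mem_insert, Finset.mem_singleton] at hd
    rw [Nat.mem_divisors]
    refine ⟨?_, pow_ne_zero _ hr.ne_zero⟩
    rcases hd with rfl | rfl
    · exact one_dvd _
    · exact dvd_pow_self _ (by omega)
  rw [← Finset.sum_subset hsub] at h
  · rwa [Finset.sum_pair hr.ne_one.symm, s_one] at h
  · intro d hd hnd
    obtain ⟨i, _, rfl⟩ := (Nat.dvd_prime_pow hr).mp (Nat.dvd_of_mem_divisors hd)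
    simp only [Finset.mem_insert, Finset.mem_singleton, not_or] at hnd
    have hi : 2 ≤ i := by
      by_contra hi
      have : i = 0 ∨ i = 1 := by omega
      rcases this with rfl | rfl
      · exact hnd.1 (pow_zero _)
      · exact hnd.2 (pow_one _)
    exact s_prime_pow_eq_zero hr hno hi

/-- The numbers of elements of order two different primes are different. -/
theorem distinct (hodd : Odd (Nat.card G)) {c d : ℕ} (hcd : c ≠ d)
    (hV : ∀ g : G, g ≠ 1 → s G (orderOf g) = c ∨ s G (orderOf g) = d)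
    {p q : ℕ} (hp : p.Prime) (hq : q.Prime) (hne : p ≠ q) (hpG : p ∣ Nat.card G) (hqG : q ∣ Nat.card G)
    (hsp : s G p = c) (hsq : s G q = c) : False := by
  classical
  have hV' : ∀ m : ℕ, m ≠ 1 → s G m ≠ 0 → s G m = c ∨ s G m = d := by
    intro m hm h0
    obtain ⟨g, rfl⟩ := s_ne_zero_iff.mp h0
    apply hV g
    rintro rfl
    exact hm orderOf_one
  have h2 : ∀ r : ℕ, r.Prime → r ∣ Nat.card G → r ≠ 2 := by
    rintro r hr hrG rfl
    exact (Nat.not_even_iff_odd.mpr hodd) (even_iff_two_dvd.mpr hrG)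
  have hpc : ∀ r : ℕ, r.Prime → r ∣ Nat.card G → s G r = c → ¬ r ∣ c := by
    intro r hr hrG hs h
    rw [← hs] at h
    exact not_dvd_s hr hrG h
  have step1 : ∀ u v : ℕ, u.Prime → v.Prime → u ≠ v → u ∣ Nat.card G → v ∣ Nat.card G →
      s G u = c → s G v = c → ¬ u ∣ d := by
    intro u v hu hv huv huG hvG hsu hsv hud
    have hpq := mul_dvd_card hu hv huv huG hvG
    have h1 := dvd_pq hu hv huv hpq
    rw [hsu, hsv] at h1
    have h3 : u ∣ 1 + c + c + s G (u * v) := (dvd_mul_right _ _).trans h1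
    have h4 : u ∣ 1 + c := by rw [← hsu]; exact dvd_one_add hu huG
    have hmul1 : u * v ≠ 1 := by
      have := Nat.mul_le_mul hu.two_le hv.two_le
      omega
    by_cases h0 : s G (u * v) = 0
    · rw [h0, add_zero] at h3
      exact hpc u hu huG hsu ((Nat.dvd_add_right h4).mp h3)
    · rcases hV' _ hmul1 h0 with h5 | h5
      · exact trick hu hv huv (h2 v hv hvG) hpq (h5.trans hsu.symm)
      · rw [h5] at h3
        have h6 : u ∣ (1 + c) + c + d := h3
        have h7 : u ∣ (1 + c) + d := by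
          have := dvd_add h4 hud
          exact this
        have h8 : u ∣ ((1 + c) + d) + c := by
          have : (1 + c) + d + c = (1 + c) + c + d := by ring
          rw [this]
          exact h6
        exact hpc u hu huG hsu ((Nat.dvd_add_right h7).mp h8)
  have hpd : ¬ p ∣ d := step1 p q hp hq hne hpG hqG hsp hsq
  have hall : ∀ r : ℕ, r.Prime → r ∣ Nat.card G → s G r = c := by
    intro r hr hrG
    by_cases hrp : r = p
    · rw [hrp]; exact hsp
    have hr1 : r ≠ 1 := hr.ne_one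
    have hs0 : s G r ≠ 0 := (s_pos_iff.mpr (exists_of_prime_dvd hr hrG)).ne'
    rcases hV' r hr1 hs0 with h | h
    · exact h
    exfalso
    have hpr := mul_dvd_card hp hr (Ne.symm hrp) hpG hrG
    have hmul1 : p * r ≠ 1 := by
      have := Nat.mul_le_mul hp.two_le hr.two_le
      omega
    have h1 := dvd_pq hp hr (Ne.symm hrp) hpr
    rw [hsp, h] at h1
    have h3 : p ∣ 1 + c + d + s G (p * r) := (dvd_mul_right _ _).trans h1
    have h4 : p ∣ 1 + c := by rw [← hsp]; exact dvd_one_add hp hpG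
    by_cases h0 : s G (p * r) = 0
    · rw [h0, add_zero] at h3
      exact hpd ((Nat.dvd_add_right h4).mp h3)
    · rcases hV' _ hmul1 h0 with h5 | h5
      · exact trick hp hr (Ne.symm hrp) (h2 r hr hrG) hpr (h5.trans hsp.symm)
      · have hrp' : r * p ∣ Nat.card G := by rwa [mul_comm]
        exact trick hr hp hrp (h2 p hp hpG) hrp' (by rw [mul_comm, h5, h])
  have hnd : ∀ r : ℕ, r.Prime → r ∣ Nat.card G → ¬ r ∣ d := by
    intro r hr hrG
    by_cases hrp : r = p
    · rw [hrp]; exact hpd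
    · exact step1 r p hr hp hrp hrG hpG (hall r hr hrG) hsp
  have hno : ∀ r : ℕ, r.Prime → r ∣ Nat.card G → ∀ g : G, orderOf g ≠ r ^ 2 := by
    intro r hr hrG g hg
    have h1 : r ∣ s G (r ^ 2) := prime_dvd_s_of_sq_dvd hr dvd_rfl
    have h0 : s G (r ^ 2) ≠ 0 := s_ne_zero_iff.mpr ⟨g, hg⟩
    have hne1 : r ^ 2 ≠ 1 := by
      have := hr.two_le
      nlinarith
    rcases hV' _ hne1 h0 with h | h
    · rw [h] at h1
      exact hpc r hr hrG (hall r hr hrG) h1
    · rw [h] at h1
      exact hnd r hr hrG h1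
  have hdvd : Nat.card G ∣ 1 + c := by
    rw [← Nat.factorization_prime_le_iff_dvd Nat.card_pos.ne' (by omega)]
    intro r hr
    by_cases hrG : r ∣ Nat.card G
    · have := prime_pow_dvd_one_add hr hrG (hno r hr hrG)
      rw [hall r hr hrG] at this
      exact (hr.pow_dvd_iff_le_factorization (by omega)).mp this
    · rw [Nat.factorization_eq_zero_of_not_dvd hrG]
      exact Nat.zero_le _
  have h1 := Nat.le_of_dvd (by omega) hdvd
  have h3 := sum_le_card_pq (G := G) hp hq hne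
  rw [hsp, hsq] at h3
  have hpos : 0 < c := by
    rw [← hsp]
    exact s_pos_iff.mpr (exists_of_prime_dvd hp hpG)
  omega

lemma s_ne_one_of_odd (hodd : Odd (Nat.card G)) {g : G} (hg : g ≠ 1) : s G (orderOf g) ≠ 1 := by
  intro h
  have hg2 : g ≠ g⁻¹ := by
    intro h2
    have h3 : g ^ 2 = 1 := by
      rw [sq]
      nth_rewrite 1 [h2]
      simp
    have h4 := orderOf_dvd_of_pow_eq_one h3
    have h5 : orderOf g ∣ Nat.card G := orderOf_dvd_natCard g
    have h6 : Nat.Coprime 2 (Nat.card G) := (Nat.coprime_two_left).mpr hodd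
    have h7 : orderOf g = 1 := Nat.eq_one_of_dvd_coprimes h6 h4 h5
    exact hg (orderOf_eq_one_iff.mp h7)
  unfold s at h
  have := (Nat.card_eq_one_iff_unique.mp h).1.elim (⟨g, rfl⟩ : {x : G // orderOf x = orderOf g})
    ⟨g⁻¹, orderOf_inv g⟩
  exact hg2 (congrArg Subtype.val this)

/-- Extraction of the two nontrivial values. -/
theorem exists_values (hodd : Odd (Nat.card G))
    (h : (((fun m : ℕ => Nat.card {g : G // orderOf g = m}) '' Set.range (orderOf : G → ℕ))).ncard = 3) :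
    ∃ a b : ℕ, a ≠ b ∧ ∀ g : G, g ≠ 1 → s G (orderOf g) = a ∨ s G (orderOf g) = b := by
  obtain ⟨x, y, z, hxy, hxz, hyz, hS⟩ := Set.ncard_eq_three.mp h
  have hmem : ∀ g : G, s G (orderOf g) = x ∨ s G (orderOf g) = y ∨ s G (orderOf g) = z := by
    intro g
    have : s G (orderOf g) ∈ ({x, y, z} : Set ℕ) := by
      rw [← hS]
      exact ⟨orderOf g, ⟨g, rfl⟩, rfl⟩
    simpa using this
  have h1 : s G (orderOf (1 : G)) = 1 := by rw [orderOf_one]; exact s_one
  rcases hmem 1 with h2 | h2 | h2 <;> rw [h1] at h2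
  · refine ⟨y, z, hyz, fun g hg => ?_⟩
    have h3 := s_ne_one_of_odd hodd hg
    rcases hmem g with h4 | h4
    · exact absurd (h4.trans h2.symm) h3
    · exact h4
  · refine ⟨x, z, hxz, fun g hg => ?_⟩
    have h3 := s_ne_one_of_odd hodd hg
    rcases hmem g with h4 | h4 | h4
    · exact Or.inl h4
    · exact absurd (h4.trans h2.symm) h3
    · exact Or.inr h4
  · refine ⟨x, y, hxy, fun g hg => ?_⟩
    have h3 := s_ne_one_of_odd hodd hg
    rcases hmem g with h4 | h4 | h4
    · exact Or.inl h4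
    · exact Or.inr h4
    · exact absurd (h4.trans h2.symm) h3

/-- The first assertion. -/
theorem primeFactors_card_le (hodd : Odd (Nat.card G)) {a b : ℕ} (hab : a ≠ b)
    (hV : ∀ g : G, g ≠ 1 → s G (orderOf g) = a ∨ s G (orderOf g) = b) :
    (Nat.card G).primeFactors.card ≤ 2 := by
  classical
  have hinj : Set.InjOn (s G) ((Nat.card G).primeFactors : Set ℕ) := by
    intro u hu v hv huv
    by_contra hne
    have hu' := Nat.mem_primeFactors.mp hu
    have hv' := Nat.mem_primeFactors.mp hv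
    obtain ⟨g, hg⟩ := exists_of_prime_dvd (G := G) hu'.1 hu'.2.1
    have hg1 : g ≠ 1 := by
      rintro rfl
      rw [orderOf_one] at hg
      exact hu'.1.ne_one hg.symm
    rcases hV g hg1 with h | h
    · rw [hg] at h
      exact distinct hodd hab hV hu'.1 hv'.1 hne hu'.2.1 hv'.2.1 h (huv.symm.trans h)
    · rw [hg] at h
      exact distinct hodd hab.symm (fun g hg => (hV g hg).symm) hu'.1 hv'.1 hne hu'.2.1 hv'.2.1 h (huv.symm.trans h)
  have hmaps : Set.MapsTo (s G) ((Nat.card G).primeFactors : Set ℕ) (({a, b} : Finset ℕ) : Set ℕ) := by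
    intro u hu
    have hu' := Nat.mem_primeFactors.mp hu
    obtain ⟨g, hg⟩ := exists_of_prime_dvd (G := G) hu'.1 hu'.2.1
    have hg1 : g ≠ 1 := by
      rintro rfl
      rw [orderOf_one] at hg
      exact hu'.1.ne_one hg.symm
    rw [← hg]
    simpa using hV g hg1
  have := Finset.card_le_card_of_injOn _ hmaps hinj
  rwa [Finset.card_pair hab] at this

/-- The standing hypotheses for two primes. -/
structure TwoPrimes (G : Type*) [Group G] (p q : ℕ) : Prop where
  hp : p.Prime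
  hq : q.Prime
  hne : p ≠ q
  hp2 : p ≠ 2
  hq2 : q ≠ 2
  hpG : p ∣ Nat.card G
  hqG : q ∣ Nat.card G
  hprimes : ∀ r : ℕ, r.Prime → r ∣ Nat.card G → r = p ∨ r = q
  hV : ∀ g : G, g ≠ 1 → s G (orderOf g) = s G p ∨ s G (orderOf g) = s G q
  hnes : s G p ≠ s G q

namespace TwoPrimes

variable {p q : ℕ}

lemma symm (T : TwoPrimes G p q) : TwoPrimes G q p where
  hp := T.hq
  hq := T.hp
  hne := T.hne.symm
  hp2 := T.hq2
  hq2 := T.hp2
  hpG := T.hqG
  hqG := T.hpG
  hprimes := fun r hr hrG => (T.hprimes r hr hrG).symm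
  hV := fun g hg => (T.hV g hg).symm
  hnes := T.hnes.symm

lemma V' (T : TwoPrimes G p q) (m : ℕ) (hm : m ≠ 1) (h0 : s G m ≠ 0) : s G m = s G p ∨ s G m = s G q := by
  obtain ⟨g, rfl⟩ := s_ne_zero_iff.mp h0
  apply T.hV g
  rintro rfl
  exact hm orderOf_one

lemma s_pq (T : TwoPrimes G p q) : s G (p * q) = 0 := by
  by_contra h0
  have hmul1 : p * q ≠ 1 := by
    have := Nat.mul_le_mul T.hp.two_le T.hq.two_le
    omega
  have hpq := mul_dvd_card T.hp T.hq T.hne T.hpG T.hqG
  rcases T.V' _ hmul1 h0 with h | h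
  · exact trick T.hp T.hq T.hne T.hq2 hpq h
  · exact trick T.hq T.hp T.hne.symm T.hp2 (by rwa [mul_comm]) (by rw [mul_comm]; exact h)

lemma no_pq (T : TwoPrimes G p q) (g : G) : orderOf g ≠ p * q := by
  intro h
  have h0 := T.s_pq
  exact (s_ne_zero_iff.mpr ⟨g, h⟩) h0

lemma order_form (T : TwoPrimes G p q) {g : G} (hg : g ≠ 1) :
    (∃ t, 1 ≤ t ∧ orderOf g = p ^ t) ∨ (∃ t, 1 ≤ t ∧ orderOf g = q ^ t) := by
  have ho0 : orderOf g ≠ 0 := (orderOf_pos g).ne'
  have ho1 : orderOf g ≠ 1 := fun h => hg (orderOf_eq_one_iff.mp h)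
  have hoG : orderOf g ∣ Nat.card G := orderOf_dvd_natCard g
  have hpow : ∀ u v : ℕ, u.Prime → (∀ r : ℕ, r.Prime → r ∣ orderOf g → r = u) → ∃ t, 1 ≤ t ∧ orderOf g = u ^ t := by
    intro u v hu h
    have h1 := Nat.eq_prime_pow_of_unique_prime_dvd ho0 (fun {d} hd hd' => h d hd hd')
    refine ⟨_, ?_, h1⟩
    by_contra h2
    have h3 : (orderOf g).primeFactorsList.length = 0 := by omega
    rw [h3, pow_zero] at h1
    exact ho1 h1
  by_cases hpo : p ∣ orderOf g
  · by_cases hqo : q ∣ orderOf g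
    · exfalso
      have hpq : p * q ∣ orderOf g := ((Nat.coprime_primes T.hp T.hq).mpr T.hne).mul_dvd_of_dvd_of_dvd hpo hqo
      exact T.no_pq _ (orderOf_pow_orderOf_div ho0 hpq)
    · left
      apply hpow p 0 T.hp
      intro r hr hro
      rcases T.hprimes r hr (hro.trans hoG) with rfl | rfl
      · rfl
      · exact absurd hro hqo
  · right
    apply hpow q 0 T.hq
    intro r hr hro
    rcases T.hprimes r hr (hro.trans hoG) with rfl | rfl
    · exact absurd hro hpo
    · rfl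

lemma cp (T : TwoPrimes G p q) : Cfsg.Agent.Lib.CPGroups.CP G := by
  intro x hx
  rcases T.order_form hx with ⟨t, ht, h⟩ | ⟨t, ht, h⟩ <;> rw [h]
  · exact T.hp.isPrimePow.pow (by omega)
  · exact T.hq.isPrimePow.pow (by omega)

lemma mixed (T : TwoPrimes G p q) {x y : G} (hc : x * y = y * x) (hx : p ∣ orderOf x) (hy : q ∣ orderOf y) :
    False :=
  T.hne (T.cp.prime_unique hc T.hp T.hq hx hy)

lemma s_sq (T : TwoPrimes G p q) (h : ∃ g : G, orderOf g = p ^ 2) : s G (p ^ 2) = s G q := by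
  have hne1 : p ^ 2 ≠ 1 := by
    have := T.hp.two_le
    nlinarith
  rcases T.V' _ hne1 (s_ne_zero_iff.mpr h) with h1 | h1
  · exfalso
    have h2 : p ∣ s G (p ^ 2) := prime_dvd_s_of_sq_dvd T.hp dvd_rfl
    rw [h1] at h2
    exact not_dvd_s T.hp T.hpG h2
  · exact h1

end TwoPrimes

lemma card_lt_of_inj {α β : Type*} [Finite β] (f : α → β) (hf : Function.Injective f) {b : β}
    (hb : b ∉ Set.range f) : Nat.card α < Nat.card β := by
  classical
  have : Finite α := Finite.of_injective f hf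
  cases nonempty_fintype α
  cases nonempty_fintype β
  simp only [Nat.card_eq_fintype_card]
  exact Fintype.card_lt_of_injective_of_notMem f hf hb

/-- Conjugation by a subgroup with trivial fixed points is injective. -/
lemma card_le_s (H : Subgroup G) (y : G) (hy : ∀ h ∈ H, h * y = y * h → h = 1) :
    Nat.card H ≤ s G (orderOf y) := by
  let f : H → {g : G // orderOf g = orderOf y} := fun h => ⟨(h : G) * y * (h : G)⁻¹, orderOf_conj' _ _⟩
  apply Nat.card_le_card_of_injective f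
  intro h h' he
  have h1 : (h : G) * y * (h : G)⁻¹ = (h' : G) * y * (h' : G)⁻¹ := congrArg Subtype.val he
  have h2 : (h' : G)⁻¹ * h ∈ H := H.mul_mem (H.inv_mem h'.2) h.2
  have h3 : ((h' : G)⁻¹ * h) * y = y * ((h' : G)⁻¹ * h) := by
    have h4 : (h : G) * y = (h' : G) * y * (h' : G)⁻¹ * h := by
      calc (h : G) * y = ((h : G) * y * (h : G)⁻¹) * h := by group
        _ = _ := by rw [h1]
    calc ((h' : G)⁻¹ * h) * y = (h' : G)⁻¹ * ((h : G) * y) := by group
      _ = (h' : G)⁻¹ * ((h' : G) * y * (h' : G)⁻¹ * h) := by rw [h4]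
      _ = y * ((h' : G)⁻¹ * h) := by group
  have h5 := hy _ h2 h3
  apply Subtype.ext
  have := congrArg (fun z => (h' : G) * z) h5
  simpa using this

/-- Elements of order a power of `p` lie in a normal subgroup of index a power of `q`. -/
lemma mem_of_order {p q : ℕ} (hp : p.Prime) (hq : q.Prime) (hne : p ≠ q) (N : Subgroup G) [N.Normal]
    (k : ℕ) (hk : N.index = q ^ k) {g : G} {t : ℕ} (hg : orderOf g = p ^ t) : g ∈ N := by
  have h1 : g ^ N.index ∈ N := Subgroup.pow_index_mem N g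
  have hc : N.index.Coprime (orderOf g) := by
    rw [hk, hg]
    exact Nat.Coprime.pow _ _ ((Nat.coprime_primes hq hp).mpr hne.symm)
  obtain ⟨m, hm⟩ := exists_pow_eq_self_of_coprime hc
  rw [← hm]
  exact N.pow_mem h1 m

lemma cardC_of_cyclic {p q : ℕ} (T : TwoPrimes G p q) (B : Subgroup G) (hB : IsPGroup q B) (hBne : B ≠ ⊥)
    [IsCyclic B] (hno : ∀ g : G, orderOf g ≠ q ^ 2) : Nat.card B = q := by
  have hq : Fact q.Prime := ⟨T.hq⟩
  obtain ⟨gen, hgen⟩ := IsCyclic.exists_generator (α := B)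
  have h1 : orderOf gen = Nat.card B := orderOf_eq_card_of_forall_mem_zpowers hgen
  obtain ⟨k, hk⟩ := IsPGroup.iff_card.mp hB
  have h2 : orderOf (gen : G) = q ^ k := by
    rw [Subgroup.orderOf_coe, h1, hk]
  have hk1 : k ≠ 0 := by
    rintro rfl
    rw [pow_zero] at hk
    exact hBne (Subgroup.card_eq_one.mp hk)
  have hk2 : k < 2 := by
    by_contra hk2
    have := s_prime_pow_eq_zero (G := G) T.hq hno (by omega : 2 ≤ k)
    exact (s_ne_zero_iff.mpr ⟨_, h2⟩) this
  have : k = 1 := by omega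
  rw [hk, this, pow_one]

lemma isCyclic_of_fpf' {p q : ℕ} (T : TwoPrimes G p q) (H B : Subgroup G) [H.Normal] (hH : IsPGroup p H)
    (hB : IsPGroup q B) (hHne : H ≠ ⊥) : IsCyclic B := by
  have hq : Fact q.Prime := ⟨T.hq⟩
  have hnorm : B ≤ Subgroup.normalizer (H : Set G) := by
    rw [Subgroup.normalizer_eq_top]
    exact le_top
  have hfpf : ∀ a ∈ B, a ≠ 1 → H ⊓ Subgroup.centralizer {a} = ⊥ := by
    intro a ha ha1
    rw [eq_bot_iff]
    rintro x ⟨hxH, hxc⟩
    rw [Subgroup.mem_bot]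
    by_contra hx1
    have h1 : x * a = a * x := by
      have := Subgroup.mem_centralizer_iff.mp hxc a (Set.mem_singleton a)
      exact this.symm
    exact T.mixed h1 (Cfsg.Agent.Lib.CPGroups.prime_dvd_orderOf_of_mem T.hp hH hxH hx1)
      (Cfsg.Agent.Lib.CPGroups.prime_dvd_orderOf_of_mem T.hq hB ha ha1)
  rcases Cfsg.Agent.Lib.FpfGeneral.isCyclic_or_quaternion_of_fpf B H hHne hnorm hfpf hB with h | h
  · exact h
  · exact absurd h.1 T.hq2

/-- The Frobenius case. -/
theorem caseA {p q : ℕ} (T : TwoPrimes G p q) (N C : Subgroup G) [N.Normal] (hN : IsPGroup p N)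
    (hC : IsPGroup q C) (hNne : N ≠ ⊥) (hCne : C ≠ ⊥) (hinf : N ⊓ C = ⊥) (hsup : N ⊔ C = ⊤) :
    (∀ g : G, g ≠ 1 → orderOf g = p ∨ orderOf g = q) ∧ Nat.card C = q := by
  have hq : Fact q.Prime := ⟨T.hq⟩
  have hcard : Nat.card N * Nat.card C = Nat.card G := Cfsg.Agent.Lib.FrobPair.card_eq N C hinf hsup
  obtain ⟨k, hk⟩ := IsPGroup.iff_card.mp hC
  have hidx : N.index = q ^ k := by
    have h1 := N.card_mul_index
    rw [← hcard] at h1
    have := Nat.eq_of_mul_eq_mul_left Nat.card_pos h1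
    rw [this, hk]
  have hmix : ∀ y : G, q ∣ orderOf y → ∀ h ∈ N, h * y = y * h → h = 1 := by
    intro y hy h hh hc
    by_contra h1
    exact T.mixed hc (Cfsg.Agent.Lib.CPGroups.prime_dvd_orderOf_of_mem T.hp hN hh h1) hy
  have hle : ∀ y : G, q ∣ orderOf y → Nat.card N ≤ s G (orderOf y) :=
    fun y hy => card_le_s N y (hmix y hy)
  obtain ⟨y0, hy0⟩ := exists_of_prime_dvd (G := G) T.hq T.hqG
  have hNq : Nat.card N ≤ s G q := by
    have := hle y0 (by rw [hy0])
    rwa [hy0] at this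
  have hlt : ∀ t : ℕ, 1 ≤ t → s G (p ^ t) < Nat.card N := by
    intro t ht
    let f : {g : G // orderOf g = p ^ t} → N := fun g => ⟨g.1, mem_of_order T.hp T.hq T.hne N k hidx g.2⟩
    have hf : Function.Injective f := by
      intro g g' h
      have h1 : (f g : G) = f g' := congrArg Subtype.val h
      exact Subtype.ext h1
    have hb : (1 : N) ∉ Set.range f := by
      rintro ⟨g, hg⟩
      have h1 : g.1 = 1 := congrArg Subtype.val hg
      have h2 := g.2
      rw [h1, orderOf_one] at h2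
      exact (Nat.one_lt_pow (by omega) T.hp.one_lt).ne h2
    exact card_lt_of_inj f hf hb
  have hnop : ∀ g : G, orderOf g ≠ p ^ 2 := by
    intro g hg
    have h1 := T.s_sq ⟨g, hg⟩
    have h2 := hlt 2 (by omega)
    omega
  have hnoq : ∀ g : G, orderOf g ≠ q ^ 2 := by
    intro g hg
    have h1 := T.symm.s_sq ⟨g, hg⟩
    have h2 := hlt 1 (by omega)
    rw [pow_one] at h2
    have h3 := hle g (by rw [hg]; exact dvd_pow_self _ (by omega))
    rw [hg] at h3
    omega
  constructor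
  · intro g hg
    rcases T.order_form hg with ⟨t, ht, h⟩ | ⟨t, ht, h⟩
    · left
      have : t = 1 := by
        by_contra h1
        have := s_prime_pow_eq_zero (G := G) T.hp hnop (by omega : 2 ≤ t)
        exact (s_ne_zero_iff.mpr ⟨_, h⟩) this
      rw [h, this, pow_one]
    · right
      have : t = 1 := by
        by_contra h1
        have := s_prime_pow_eq_zero (G := G) T.hq hnoq (by omega : 2 ≤ t)
        exact (s_ne_zero_iff.mpr ⟨_, h⟩) this
      rw [h, this, pow_one]
  · have := isCyclic_of_fpf' T N C hN hC hNne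
    exact cardC_of_cyclic T C hC hCne hnoq

/-- Variation on `FrobAction.pow_card_eq_one_of_frobenius_action`: the norm from a cyclic group of order `n`
is trivial and `P` has no fixed points. -/
theorem pow_card_eq_one_of_norm {V : Type*} [CommGroup V] (ρ : G →* MulAut V) (P : Subgroup G) (y : G) (n : ℕ)
    (h0 : 0 < n)
    (hYP : ∀ i : ℕ, ∀ x ∈ P, y ^ i * x * (y ^ i)⁻¹ ∈ P)
    (hfpf : ∀ i ∈ Finset.range n, i ≠ 0 → ∀ x ∈ P, x * y ^ i = y ^ i * x → x = 1)
    (hP : ∀ v : V, (∀ x ∈ P, ρ x v = v) → v = 1)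
    (hNorm : ∀ w : V, ∏ i ∈ Finset.range n, ρ (y ^ i) w = 1) (v : V) :
    v ^ Nat.card P = 1 := by
  classical
  cases nonempty_fintype P
  have hNP : ∀ w : V, ∏ x : P, ρ (x : G) w = 1 := by
    intro w
    apply hP
    intro a ha
    rw [map_prod]
    apply Fintype.prod_equiv (Equiv.mulLeft (⟨a, ha⟩ : P))
    intro x
    simp
  have hS1 : ∏ x : P, ∏ i ∈ Finset.range n, ρ ((x : G) * y ^ i * (x : G)⁻¹) v = 1 := by
    apply Finset.prod_eq_one
    intro x _
    have : ∏ i ∈ Finset.range n, ρ ((x : G) * y ^ i * (x : G)⁻¹) v =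
        ρ (x : G) (∏ i ∈ Finset.range n, ρ (y ^ i) (ρ (x : G)⁻¹ v)) := by
      rw [map_prod]
      apply Finset.prod_congr rfl
      intro c _
      rw [map_mul, map_mul, map_inv]
      rfl
    rw [this, hNorm, map_one]
  have hS2 : ∏ i ∈ Finset.range n, ∏ x : P, ρ ((x : G) * y ^ i * (x : G)⁻¹) v = v ^ Nat.card P := by
    rw [Finset.prod_eq_single 0]
    · have h0' : ∀ x : P, ρ ((x : G) * y ^ 0 * (x : G)⁻¹) v = v := by
        intro x
        have : (x : G) * y ^ 0 * (x : G)⁻¹ = 1 := by simp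
        rw [this, map_one]
        rfl
      rw [Finset.prod_congr rfl (fun x _ => h0' x), Finset.prod_const, Finset.card_univ,
        Nat.card_eq_fintype_card]
    · intro i hi hi0
      set c := y ^ i with hc
      let φ : P → P := fun x => x * ⟨c * (x : G)⁻¹ * c⁻¹, hYP i _ (P.inv_mem x.2)⟩
      have hφinj : Function.Injective φ := by
        intro x x' h
        have h1 : (x : G) * (c * (x : G)⁻¹ * c⁻¹) = (x' : G) * (c * (x' : G)⁻¹ * c⁻¹) :=
          congrArg Subtype.val h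
        have hu : (x' : G)⁻¹ * (x : G) ∈ P := P.mul_mem (P.inv_mem x'.2) x.2
        have h2 : ((x' : G)⁻¹ * (x : G)) * c = c * ((x' : G)⁻¹ * (x : G)) := by
          have h3 : (x' : G)⁻¹ * (x : G) = c * (x' : G)⁻¹ * c⁻¹ * (c * (x : G)⁻¹ * c⁻¹)⁻¹ := by
            calc (x' : G)⁻¹ * (x : G) = (x' : G)⁻¹ * ((x : G) * (c * (x : G)⁻¹ * c⁻¹)) * (c * (x : G)⁻¹ * c⁻¹)⁻¹ := by group
              _ = (x' : G)⁻¹ * ((x' : G) * (c * (x' : G)⁻¹ * c⁻¹)) * (c * (x : G)⁻¹ * c⁻¹)⁻¹ := by rw [h1]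
              _ = _ := by group
          calc ((x' : G)⁻¹ * (x : G)) * c = (c * (x' : G)⁻¹ * c⁻¹ * (c * (x : G)⁻¹ * c⁻¹)⁻¹) * c := by rw [← h3]
            _ = c * ((x' : G)⁻¹ * (x : G)) := by group
        have h4 := hfpf i hi hi0 _ hu h2
        have h5 : (x : G) = (x' : G) := by
          have := congrArg (fun z => (x' : G) * z) h4
          simpa using this
        exact Subtype.ext h5
      have hφbij : Function.Bijective φ := Finite.injective_iff_bijective.mp hφinj
      have : ∏ x : P, ρ ((x : G) * c * (x : G)⁻¹) v = ∏ x : P, ρ ((φ x : P) : G) (ρ c v) := by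
        apply Finset.prod_congr rfl
        intro x _
        have : (x : G) * c * (x : G)⁻¹ = ((φ x : P) : G) * c := by
          show (x : G) * c * (x : G)⁻¹ = ((x : G) * (c * (x : G)⁻¹ * c⁻¹)) * c
          group
        rw [this, map_mul]
        rfl
      rw [this, hφbij.prod_comp (fun x : P => ρ (x : G) (ρ c v)), hNP]
    · intro h
      exact absurd (Finset.mem_range.mpr h0) h
  rw [← hS2, Finset.prod_comm, hS1]

lemma pow_prime_eq_one_of_no_sq {p k : ℕ} (hp : p.Prime) (hno : ∀ g : G, orderOf g ≠ p ^ 2) {g : G}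
    (hg : g ^ p ^ k = 1) : g ^ p = 1 := by
  obtain ⟨i, _, hi⟩ := (Nat.dvd_prime_pow hp).mp (orderOf_dvd_of_pow_eq_one hg)
  have hi2 : i < 2 := by
    by_contra h
    have := s_prime_pow_eq_zero (G := G) hp hno (by omega : 2 ≤ i)
    exact (s_ne_zero_iff.mpr ⟨_, hi⟩) this
  rw [← orderOf_dvd_iff_pow_eq_one, hi]
  have : i = 0 ∨ i = 1 := by omega
  rcases this with rfl | rfl <;> simp

/-- Order `p ^ 2` elements exist in the second case. -/
theorem exists_sq {p q : ℕ} (T : TwoPrimes G p q) (H : Subgroup G) [H.Normal] (hH : IsPGroup p H) (hHne : H ≠ ⊥)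
    (P : Subgroup G) (hP : IsPGroup q P) (hPne : P ≠ ⊥) (x : G) (hx : orderOf x = p)
    (hxP : x ∈ Subgroup.normalizer (P : Set G)) : ∃ g : G, orderOf g = p ^ 2 := by
  classical
  have hp := T.hp
  have hq := T.hq
  have hpf : Fact p.Prime := ⟨hp⟩
  have hqf : Fact q.Prime := ⟨hq⟩
  by_contra hno
  push Not at hno
  let W : Subgroup G := Cfsg.Agent.Lib.CPGroups.centerOf H
  have hWH : W ≤ H := Cfsg.Agent.Lib.CPGroups.centerOf_le H
  letI : W.Normal := Cfsg.Agent.Lib.CPGroups.centerOf_normal H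
  letI : CommGroup W := Cfsg.Agent.Lib.FrobAction.commGroupOfComm W (Cfsg.Agent.Lib.CPGroups.centerOf_comm H)
  let ρ : G →* MulAut W := MulAut.conjNormal
  have hρ : ∀ (g : G) (w : W), ((ρ g w : W) : G) = g * w * g⁻¹ := fun g w => MulAut.conjNormal_apply g w
  obtain ⟨k, hk⟩ := IsPGroup.iff_card.mp hH
  have hNorm : ∀ w : W, ∏ i ∈ Finset.range p, ρ (x ^ i) w = 1 := by
    intro w
    have hid : ∀ n : ℕ, ((w : G) * x) ^ n = ((∏ i ∈ Finset.range n, ρ (x ^ i) w : W) : G) * x ^ n := by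
      intro n
      induction n with
      | zero => simp
      | succ n ih =>
        rw [pow_succ, ih, Finset.prod_range_succ, Subgroup.coe_mul, hρ]
        group
    have h1 := hid p
    have hxp : x ^ p = 1 := by rw [← hx]; exact pow_orderOf_eq_one x
    rw [hxp, mul_one] at h1
    set u : W := ∏ i ∈ Finset.range p, ρ (x ^ i) w with hu
    have huH : (u : G) ∈ H := hWH u.2
    have h2 : (u : G) ^ Nat.card H = 1 := by
      have := pow_card_eq_one' (x := (⟨u, huH⟩ : H))
      exact congrArg Subtype.val this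
    have h3 : ((w : G) * x) ^ p ^ (1 + k) = 1 := by
      rw [pow_add, pow_one, pow_mul, h1, ← hk, h2]
    have h4 := pow_prime_eq_one_of_no_sq hp hno h3
    rw [h1] at h4
    exact Subtype.ext h4
  have hpowp : ∀ i : ℕ, x ^ i ∈ Subgroup.normalizer (P : Set G) := fun i => Subgroup.pow_mem _ hxP i
  have hYP : ∀ i : ℕ, ∀ a ∈ P, x ^ i * a * (x ^ i)⁻¹ ∈ P := by
    intro i a ha
    exact (Subgroup.mem_normalizer_iff.mp (hpowp i) a).mp ha
  have hfpf : ∀ i ∈ Finset.range p, i ≠ 0 → ∀ a ∈ P, a * x ^ i = x ^ i * a → a = 1 := by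
    intro i hi hi0 a ha hc
    by_contra ha1
    have hi' := Finset.mem_range.mp hi
    have hcop : (orderOf x).Coprime i := by
      rw [hx]
      exact (Nat.Prime.coprime_iff_not_dvd hp).mpr (Nat.not_dvd_of_pos_of_lt (by omega) hi')
    have h1 : orderOf (x ^ i) = p := by rw [hcop.orderOf_pow, hx]
    exact T.mixed (x := x ^ i) (y := a) hc.symm (by rw [h1])
      (Cfsg.Agent.Lib.CPGroups.prime_dvd_orderOf_of_mem hq hP ha ha1)
  have hPfix : ∀ v : W, (∀ a ∈ P, ρ a v = v) → v = 1 := by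
    intro v hv
    obtain ⟨a, ha, ha1⟩ := Cfsg.Agent.Lib.CPGroups.exists_ne_one_of_ne_bot hPne
    exact Cfsg.Agent.Lib.CPGroups.fpf_of_cp T.cp hp hq T.hne hH ha1
      (Cfsg.Agent.Lib.CPGroups.prime_dvd_orderOf_of_mem hq hP ha ha1) v (hv a ha)
  have hpow := pow_card_eq_one_of_norm ρ P x p hp.pos hYP hfpf hPfix hNorm
  obtain ⟨j, hj⟩ := IsPGroup.iff_card.mp hP
  apply Cfsg.Agent.Lib.CPGroups.centerOf_ne_bot hp hH hHne
  rw [Subgroup.eq_bot_iff_forall]
  intro v hv
  have h1 : (⟨v, hv⟩ : W) ^ Nat.card P = 1 := hpow _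
  have h2 : v ^ Nat.card P = 1 := congrArg Subtype.val h1
  have hc : Nat.Coprime p (Nat.card P) := by
    rw [hj]
    exact Nat.Coprime.pow_right _ ((Nat.coprime_primes hp hq).mpr T.hne)
  exact Cfsg.Agent.Lib.CPGroups.eq_one_of_pow_eq_one_of_coprime hp hH hc (hWH hv) h2

lemma exists_normalizing {p q : ℕ} (T : TwoPrimes G p q) (H : Subgroup G) [H.Normal] (hH : IsPGroup p H)
    (A : Subgroup (G ⧸ H)) [A.Normal] (hA : IsPGroup q A) (hAne : A ≠ ⊥) (hd : p ∣ Nat.card (G ⧸ H)) :
    ∃ (P : Subgroup G) (x : G), IsPGroup q P ∧ P ≠ ⊥ ∧ orderOf x = p ∧ x ∈ Subgroup.normalizer (P : Set G) := by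
  have hpf : Fact p.Prime := ⟨T.hp⟩
  obtain ⟨P, hPne, hP, hsup⟩ := Cfsg.Agent.Lib.CPGroups.exists_frattini T.hp T.hq T.hne hH A hA hAne
  set M := Subgroup.normalizer (P : Set G) with hM
  have hmap : M.map (QuotientGroup.mk' H) = ⊤ := by
    have h1 : (M ⊔ H).map (QuotientGroup.mk' H) = ⊤ := by
      rw [hsup, ← MonoidHom.range_eq_map]
      exact MonoidHom.range_eq_top.mpr (QuotientGroup.mk'_surjective H)
    rw [Subgroup.map_sup, QuotientGroup.map_mk'_self, sup_bot_eq] at h1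
    exact h1
  have hdvd : Nat.card (G ⧸ H) ∣ Nat.card M := by
    have h1 := Subgroup.card_map_dvd (H := M) (QuotientGroup.mk' H)
    rw [hmap, Subgroup.card_top] at h1
    exact h1
  obtain ⟨x, hx⟩ := exists_prime_orderOf_dvd_card' (G := M) p (hd.trans hdvd)
  refine ⟨P, x, hP, hPne, ?_, x.2⟩
  rw [Subgroup.orderOf_coe, hx]

lemma card_sq_sum {r : ℕ} (hr : r.Prime) : ∑ d ∈ (r ^ 2).divisors, s G d = 1 + s G r + s G (r ^ 2) := by
  rw [Nat.sum_divisors_prime_pow hr, Finset.sum_range_succ, Finset.sum_range_succ, Finset.sum_range_one]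
  simp [s_one]

/-- the sum over divisors of `p^2 q^2`, no mixed orders. -/
lemma card_sq_sq_sum {p q : ℕ} (T : TwoPrimes G p q) :
    ∑ d ∈ (p ^ 2 * q ^ 2).divisors, s G d = 1 + s G p + s G (p ^ 2) + s G q + s G (q ^ 2) := by
  classical
  have hp := T.hp
  have hq := T.hq
  have hn0 : p ^ 2 * q ^ 2 ≠ 0 := Nat.mul_ne_zero (pow_ne_zero _ hp.ne_zero) (pow_ne_zero _ hq.ne_zero)
  have hsub : ({1, p, p ^ 2, q, q ^ 2} : Finset ℕ) ⊆ (p ^ 2 * q ^ 2).divisors := by
    intro d hd
    simp only [Finset.mem_insert, Finset.mem_singleton] at hd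
    rw [Nat.mem_divisors]
    refine ⟨?_, hn0⟩
    rcases hd with rfl | rfl | rfl | rfl | rfl
    · exact one_dvd _
    · exact (dvd_pow_self _ (by norm_num)).trans (dvd_mul_right _ _)
    · exact dvd_mul_right _ _
    · exact (dvd_pow_self _ (by norm_num)).trans (dvd_mul_left _ _)
    · exact dvd_mul_left _ _
  have hzero : ∀ d ∈ (p ^ 2 * q ^ 2).divisors, d ∉ ({1, p, p ^ 2, q, q ^ 2} : Finset ℕ) → s G d = 0 := by
    intro d hd hnd
    have hd' := Nat.dvd_of_mem_divisors hd
    simp only [Finset.mem_insert, Finset.mem_singleton, not_or] at hnd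
    obtain ⟨u, v, hu, hv, rfl⟩ := (Nat.dvd_mul).mp hd'
    obtain ⟨i, hi, rfl⟩ := (Nat.dvd_prime_pow hp).mp hu
    obtain ⟨j, hj, rfl⟩ := (Nat.dvd_prime_pow hq).mp hv
    by_contra h0
    obtain ⟨g, hg⟩ := s_ne_zero_iff.mp h0
    have hi0 : i ≠ 0 := by
      rintro rfl
      rw [pow_zero, one_mul] at hnd
      have : j = 0 ∨ j = 1 ∨ j = 2 := by omega
      rcases this with rfl | rfl | rfl
      · exact hnd.1 (pow_zero _)
      · exact hnd.2.2.2.1 (pow_one _)
      · exact hnd.2.2.2.2 rfl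
    have hj0 : j ≠ 0 := by
      rintro rfl
      rw [pow_zero, mul_one] at hnd
      have : i = 0 ∨ i = 1 ∨ i = 2 := by omega
      rcases this with rfl | rfl | rfl
      · exact hi0 rfl
      · exact hnd.2.1 (pow_one _)
      · exact hnd.2.2.1 rfl
    have hg1 : g ≠ 1 := by
      rintro rfl
      rw [orderOf_one] at hg
      have h1 : p ^ i ∣ 1 := by rw [hg]; exact dvd_mul_right _ _
      have := Nat.dvd_one.mp h1
      exact (Nat.one_lt_pow hi0 hp.one_lt).ne' this
    have hpd : p ∣ orderOf g := by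
      rw [hg]
      exact (dvd_pow_self _ hi0).trans (dvd_mul_right _ _)
    have hqd : q ∣ orderOf g := by
      rw [hg]
      exact (dvd_pow_self _ hj0).trans (dvd_mul_left _ _)
    rcases T.order_form hg1 with ⟨t, _, h⟩ | ⟨t, _, h⟩
    · rw [h] at hqd
      exact T.hne ((Nat.prime_dvd_prime_iff_eq hq hp).mp (hq.dvd_of_dvd_pow hqd)).symm
    · rw [h] at hpd
      exact T.hne ((Nat.prime_dvd_prime_iff_eq hp hq).mp (hp.dvd_of_dvd_pow hpd))
  rw [← Finset.sum_subset hsub hzero]
  have hp2 := hp.two_le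
  have hq2 := hq.two_le
  have h1 : (1 : ℕ) ≠ p := hp.ne_one.symm
  have h2 : (1 : ℕ) ≠ p ^ 2 := by nlinarith
  have h3 : (1 : ℕ) ≠ q := hq.ne_one.symm
  have h4 : (1 : ℕ) ≠ q ^ 2 := by nlinarith
  have h5 : p ≠ p ^ 2 := by nlinarith
  have h6 : p ≠ q := T.hne
  have h7 : p ≠ q ^ 2 := by
    intro h
    have : q ∣ p := by rw [h]; exact dvd_pow_self _ (by norm_num)
    exact T.hne ((Nat.prime_dvd_prime_iff_eq hq hp).mp this).symm
  have h8 : p ^ 2 ≠ q := by
    intro h
    have : p ∣ q := by rw [← h]; exact dvd_pow_self _ (by norm_num)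
    exact T.hne ((Nat.prime_dvd_prime_iff_eq hp hq).mp this)
  have h9 : p ^ 2 ≠ q ^ 2 := by
    intro h
    have := Nat.pow_left_injective (n := 2) (by norm_num) h
    exact T.hne this
  have h10 : q ≠ q ^ 2 := by nlinarith
  rw [Finset.sum_insert (by simp [h1, h2, h3, h4]), Finset.sum_insert (by simp [h5, h6, h7]),
    Finset.sum_insert (by simp [h8, h9]), Finset.sum_insert (by simp [h10]), Finset.sum_singleton, s_one]
  ring

/-- No element of order `q ^ 2` when there is one of order `p ^ 2`. -/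
lemma no_q_sq {p q : ℕ} (T : TwoPrimes G p q) (hpex : ∃ g : G, orderOf g = p ^ 2) (g : G) : orderOf g ≠ q ^ 2 := by
  intro hg
  have hsp := T.s_sq hpex
  have hsq := T.symm.s_sq ⟨g, hg⟩
  obtain ⟨g0, hg0⟩ := hpex
  have hd1 : p ^ 2 ∣ Nat.card G := by rw [← hg0]; exact orderOf_dvd_natCard g0
  have hd2 : q ^ 2 ∣ Nat.card G := by rw [← hg]; exact orderOf_dvd_natCard g
  have hcop : Nat.Coprime (p ^ 2) (q ^ 2) := Nat.Coprime.pow _ _ ((Nat.coprime_primes T.hp T.hq).mpr T.hne)
  have h1 := frob_sum (G := G) _ hd1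
  rw [card_sq_sum T.hp, hsp] at h1
  have h2 := frob_sum (G := G) _ (hcop.mul_dvd_of_dvd_of_dvd hd1 hd2)
  rw [card_sq_sq_sum T, hsp, hsq] at h2
  have h3 : p ^ 2 ∣ 1 + s G p + s G q + s G q + s G p := (dvd_mul_right _ _).trans h2
  have h4 : p ^ 2 ∣ (1 + s G p + s G q) + (s G p + s G q) := by
    have : (1 + s G p + s G q) + (s G p + s G q) = 1 + s G p + s G q + s G q + s G p := by ring
    rw [this]; exact h3
  have h5 : p ^ 2 ∣ s G p + s G q := (Nat.dvd_add_right h1).mp h4
  have h6 : p ^ 2 ∣ 1 + (s G p + s G q) := by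
    have : 1 + (s G p + s G q) = 1 + s G p + s G q := by ring
    rw [this]; exact h1
  have h7 : p ^ 2 ∣ 1 := by
    rw [add_comm] at h6
    exact (Nat.dvd_add_right h5).mp h6
  have h8 := Nat.dvd_one.mp h7
  have := T.hp.two_le
  nlinarith

/-- The count of elements of order `q`. -/
lemma card_mul_le_s {p q : ℕ} (T : TwoPrimes G p q) (H B : Subgroup G) [H.Normal] (hH : IsPGroup p H)
    (hinf : H ⊓ B = ⊥) (hBq : Nat.card B = q) : Nat.card H * (q - 1) ≤ s G q := by
  classical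
  have hq := T.hq
  have hqf : Fact q.Prime := ⟨hq⟩
  cases nonempty_fintype B
  have hord : ∀ c : B, c ≠ 1 → orderOf (c : G) = q := by
    intro c hc
    have h1 : orderOf c ∣ q := by
      rw [← hBq]
      exact orderOf_dvd_natCard c
    rcases (Nat.dvd_prime hq).mp h1 with h2 | h2
    · exact absurd (orderOf_eq_one_iff.mp h2) hc
    · rw [Subgroup.orderOf_coe, h2]
  let f : H × {c : B // c ≠ 1} → {g : G // orderOf g = q} := fun t =>
    ⟨(t.1 : G) * (t.2.1 : G) * (t.1 : G)⁻¹, by rw [orderOf_conj']; exact hord _ t.2.2⟩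
  have hf : Function.Injective f := by
    rintro ⟨h, c, hc⟩ ⟨h', c', hc'⟩ he
    have h1 : (h : G) * (c : G) * (h : G)⁻¹ = (h' : G) * (c' : G) * (h' : G)⁻¹ := congrArg Subtype.val he
    set u : G := (h' : G)⁻¹ * h with hu
    have huH : u ∈ H := H.mul_mem (H.inv_mem h'.2) h.2
    have h2 : u * (c : G) * u⁻¹ = c' := by
      rw [hu]
      calc (h' : G)⁻¹ * h * (c : G) * ((h' : G)⁻¹ * h)⁻¹ = (h' : G)⁻¹ * ((h : G) * (c : G) * (h : G)⁻¹) * h' := by group
        _ = (h' : G)⁻¹ * ((h' : G) * (c' : G) * (h' : G)⁻¹) * h' := by rw [h1]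
        _ = c' := by group
    have hH1 : u * ((c : G) * u⁻¹ * (c : G)⁻¹) ∈ H := H.mul_mem huH ((inferInstance : H.Normal).conj_mem _ (H.inv_mem huH) _)
    have h3 : u * ((c : G) * u⁻¹ * (c : G)⁻¹) = (c' : G) * (c : G)⁻¹ := by
      rw [← h2]; group
    have h4 : (c' : G) * (c : G)⁻¹ ∈ B := B.mul_mem c'.2 (B.inv_mem c.2)
    rw [h3] at hH1
    have h5 : (c' : G) * (c : G)⁻¹ ∈ H ⊓ B := ⟨hH1, h4⟩
    rw [hinf, Subgroup.mem_bot] at h5
    have h6 : (c' : G) = c := mul_inv_eq_one.mp h5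
    have h7 : c' = c := Subtype.ext h6
    subst h7
    have h8 : u * (c' : G) = (c' : G) * u := by
      calc u * (c' : G) = (u * (c' : G) * u⁻¹) * u := by group
        _ = (c' : G) * u := by rw [h2]
    have hu1 : u = 1 := by
      by_contra hu1
      have hc1 : (c' : G) ≠ 1 := fun h => hc (Subtype.ext h)
      have h9 : q ∣ orderOf (c' : G) := by rw [hord c' hc]
      exact T.mixed h8 (Cfsg.Agent.Lib.CPGroups.prime_dvd_orderOf_of_mem T.hp hH huH hu1) h9
    have h10 : (h : G) = h' := by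
      have := congrArg (fun z => (h' : G) * z) hu1
      simpa [hu] using this
    have h11 : h = h' := Subtype.ext h10
    subst h11
    rfl
  have h := Nat.card_le_card_of_injective f hf
  rw [Nat.card_prod] at h
  have hc : Nat.card {c : B // c ≠ 1} = q - 1 := by
    rw [Nat.card_eq_fintype_card, Fintype.card_subtype_compl, Fintype.card_subtype_eq, ← hBq,
      Nat.card_eq_fintype_card]
  rw [hc] at h
  exact h

/-- The 2-Frobenius case is impossible. -/
theorem caseB {p q : ℕ} (T : TwoPrimes G p q) (H B : Subgroup G) [H.Normal] (hH : IsPGroup p H)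
    (hB : IsPGroup q B) (hHne : H ≠ ⊥) (hBne : B ≠ ⊥) (hinf : H ⊓ B = ⊥) (γ : ℕ)
    (hcard : Nat.card G = Nat.card H * Nat.card B * γ) (hγ : p ∣ γ) (hlt : γ < Nat.card B)
    (A : Subgroup (G ⧸ H)) [A.Normal] (hA : IsPGroup q A) (hAne : A ≠ ⊥) : False := by
  classical
  have hq := T.hq
  have hp := T.hp
  have hcardQ : Nat.card (G ⧸ H) = Nat.card B * γ := by
    have h1 := H.card_eq_card_quotient_mul_card_subgroup
    have h2 : Nat.card H * Nat.card (G ⧸ H) = Nat.card H * (Nat.card B * γ) := by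
      rw [mul_comm, ← h1, hcard, mul_assoc]
    exact Nat.eq_of_mul_eq_mul_left Nat.card_pos h2
  have hdQ : p ∣ Nat.card (G ⧸ H) := by
    rw [hcardQ]
    exact hγ.trans (dvd_mul_left _ _)
  obtain ⟨P, x, hP, hPne, hx, hxP⟩ := exists_normalizing T H hH A hA hAne hdQ
  have hp2ex := exists_sq T H hH hHne P hP hPne x hx hxP
  have hnoq := no_q_sq T hp2ex
  have hcyc := isCyclic_of_fpf' T H B hH hB hHne
  have hBq := cardC_of_cyclic T B hB hBne hnoq
  have hsq_ge := card_mul_le_s T H B hH hinf hBq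
  rw [hBq] at hcard hlt
  set a := s G p with ha
  set b := s G q with hb
  set α := Nat.card H with hα
  have hαpos : 0 < α := Nat.card_pos
  have hq3 : 2 ≤ q := hq.two_le
  have hGle : Nat.card G ≤ α * q * (q - 1) := by
    rw [hcard]
    exact Nat.mul_le_mul_left _ (by omega)
  -- total count
  let D := (Nat.card G).divisors
  let T0 : Finset ℕ := {1, p, q}
  have hT0 : T0 ⊆ D := by
    intro d hd
    simp only [T0, Finset.mem_insert, Finset.mem_singleton] at hd
    rw [Nat.mem_divisors]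
    refine ⟨?_, Nat.card_pos.ne'⟩
    rcases hd with rfl | rfl | rfl
    · exact one_dvd _
    · exact T.hpG
    · exact T.hqG
  have hall : Nat.card {x : G // x ^ Nat.card G = 1} = Nat.card G :=
    Nat.card_congr ⟨fun x => x.1, fun x => ⟨x, pow_card_eq_one'⟩, fun _ => rfl, fun _ => rfl⟩
  have hsum : ∑ d ∈ D, s G d = Nat.card G := by
    rw [← card_pow_eq_one_sum _ Nat.card_pos.ne', hall]
  let R : Finset ℕ := (D \ T0).filter (fun m => s G m ≠ 0)
  have hRb : ∀ m ∈ R, s G m = b := by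
    intro m hm
    simp only [R, T0, Finset.mem_filter, Finset.mem_sdiff, Finset.mem_insert, Finset.mem_singleton, not_or] at hm
    obtain ⟨⟨_, hm1, hmp, hmq⟩, hm0⟩ := hm
    obtain ⟨g, hg⟩ := s_ne_zero_iff.mp hm0
    have hg1 : g ≠ 1 := by
      rintro rfl
      rw [orderOf_one] at hg
      exact hm1 hg.symm
    rcases T.order_form hg1 with ⟨t, ht, h⟩ | ⟨t, ht, h⟩
    · have ht2 : 2 ≤ t := by
        by_contra h1
        have : t = 1 := by omega
        rw [this, pow_one] at h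
        exact hmp (hg ▸ h)
      have hpd : p ∣ s G m := by
        apply prime_dvd_s_of_sq_dvd hp
        rw [← hg, h]
        exact pow_dvd_pow _ ht2
      rcases T.V' m hm1 hm0 with h1 | h1
      · rw [h1] at hpd
        exact absurd hpd (not_dvd_s hp T.hpG)
      · exact h1
    · have ht2 : t = 1 := by
        by_contra h1
        have := s_prime_pow_eq_zero (G := G) hq hnoq (by omega : 2 ≤ t)
        exact (s_ne_zero_iff.mpr ⟨_, h⟩) this
      rw [ht2, pow_one] at h
      exact absurd (hg ▸ h) hmq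
  have hRsum : ∑ m ∈ D \ T0, s G m = R.card * b := by
    rw [← Finset.sum_filter_ne_zero]
    rw [Finset.sum_congr rfl hRb, Finset.sum_const, smul_eq_mul]
  have hT0sum : ∑ m ∈ T0, s G m = 1 + a + b := by
    have h1 : (1 : ℕ) ≠ p := hp.ne_one.symm
    have h3 : (1 : ℕ) ≠ q := hq.ne_one.symm
    simp only [T0]
    rw [Finset.sum_insert (by simp [h1, h3]), Finset.sum_insert (by simp [T.hne]), Finset.sum_singleton, s_one]
    ring
  have htot : Nat.card G = 1 + a + b + R.card * b := by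
    rw [← hsum, ← Finset.sum_sdiff hT0, hRsum, hT0sum]
    ring
  have hqb : q ∣ 1 + b := dvd_one_add hq T.hqG
  have hqnb : ¬ q ∣ b := not_dvd_s hq T.hqG
  have hqa : q ∣ a := by
    have h1 := dvd_pq hp hq T.hne (mul_dvd_card hp hq T.hne T.hpG T.hqG)
    rw [T.s_pq, add_zero] at h1
    have h2 : q ∣ 1 + a + b := (dvd_mul_left _ _).trans h1
    have h3 : 1 + a + b = (1 + b) + a := by ring
    rw [h3] at h2
    exact (Nat.dvd_add_right hqb).mp h2
  have hqR : q ∣ R.card := by
    have h1 : q ∣ (1 + b + a) + R.card * b := by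
      have h2 : (1 + b + a) + R.card * b = Nat.card G := by rw [htot]; ring
      rw [h2]
      exact T.hqG
    have h3 : q ∣ R.card * b := (Nat.dvd_add_right (dvd_add hqb hqa)).mp h1
    exact (hq.dvd_mul.mp h3).resolve_right hqnb
  have hRne : R.card ≠ 0 := by
    rw [Finset.card_ne_zero]
    obtain ⟨g0, hg0⟩ := hp2ex
    refine ⟨p ^ 2, ?_⟩
    simp only [R, T0, Finset.mem_filter, Finset.mem_sdiff, Finset.mem_insert, Finset.mem_singleton, not_or]
    have hp2 := hp.two_le
    refine ⟨⟨?_, ?_, ?_, ?_⟩, s_ne_zero_iff.mpr ⟨g0, hg0⟩⟩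
    · rw [Nat.mem_divisors]
      exact ⟨hg0 ▸ orderOf_dvd_natCard g0, Nat.card_pos.ne'⟩
    · nlinarith
    · nlinarith
    · intro h
      have : p ∣ q := by rw [← h]; exact dvd_pow_self _ (by norm_num)
      exact T.hne ((Nat.prime_dvd_prime_iff_eq hp hq).mp this)
  have hRq : q ≤ R.card := Nat.le_of_dvd (Nat.pos_of_ne_zero hRne) hqR
  have h1 : (1 + q) * b ≤ Nat.card G := by
    rw [htot]
    have : q * b ≤ R.card * b := Nat.mul_le_mul_right _ hRq
    nlinarith
  have h2 : (1 + q) * (α * (q - 1)) ≤ α * q * (q - 1) := by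
    calc (1 + q) * (α * (q - 1)) ≤ (1 + q) * b := Nat.mul_le_mul_left _ hsq_ge
      _ ≤ Nat.card G := h1
      _ ≤ _ := hGle
  have h3 : 0 < α * (q - 1) := Nat.mul_pos hαpos (by omega)
  have h4 : α * q * (q - 1) = q * (α * (q - 1)) := by ring
  rw [h4] at h2
  nlinarith

/-- What is used from a Frobenius complement. -/
lemma frob_data {X : Type*} [Group X] [Finite X] (C M : Subgroup X) (hC : Cfsg.IsFrobeniusComplement C)
    (hker : Cfsg.frobeniusKernel C = (M : Set X)) :
    M.Normal ∧ Subgroup.IsComplement' M C ∧ Nat.Coprime (Nat.card C) (Nat.card M) ∧ M ≠ ⊥ ∧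
      Nat.card C < Nat.card M := by
  obtain ⟨N, hN, hnorm, hcompl⟩ := Cfsg.Agent.Lib.FrobeniusThm.exists_kernel_subgroup hC
  have hNM : N = M := SetLike.coe_injective (hN.trans hker)
  subst hNM
  have hdisj : N ⊓ C = ⊥ := disjoint_iff.mp hcompl.disjoint
  have hfpf : ∀ a ∈ C, a ≠ 1 → N ⊓ Subgroup.centralizer {a} = ⊥ := by
    intro a ha ha1
    rw [eq_bot_iff]
    rintro x ⟨hxN, hxc⟩
    have h1 : x * a = a * x := (Subgroup.mem_centralizer_iff.mp hxc a (Set.mem_singleton a)).symm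
    have h2 : x * a * x⁻¹ ∈ C := by
      rw [h1]
      simpa using ha
    have h3 := Cfsg.Agent.Lib.Frobenius.mem_of_conj_mem' hC ha ha1 h2
    have h4 : x ∈ N ⊓ C := ⟨hxN, h3⟩
    rwa [hdisj] at h4
  have hne : N ≠ ⊥ := by
    rintro rfl
    apply hC.2.1
    have h1 := hcompl.card_mul_card
    rw [Subgroup.card_bot, one_mul] at h1
    exact Subgroup.eq_top_of_card_eq _ h1
  refine ⟨hnorm, hcompl, ?_, hne, ?_⟩
  · exact Cfsg.Agent.Lib.FrobCompl.coprime_of_fpf N C
      (by rw [Subgroup.normalizer_eq_top]; exact le_top) hfpf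
  · obtain ⟨k, hk, hk1⟩ := Cfsg.Agent.Lib.CPGroups.exists_ne_one_of_ne_bot hne
    let f : C → N := fun c => ⟨(c : X) * k * (c : X)⁻¹, hnorm.conj_mem k hk c⟩
    have hf : Function.Injective f := by
      intro c d h
      have h1 : (c : X) * k * (c : X)⁻¹ = (d : X) * k * (d : X)⁻¹ := congrArg Subtype.val h
      have h2 : ((d : X)⁻¹ * c) * k = k * ((d : X)⁻¹ * c) := by
        have h4 : (c : X) * k = (d : X) * k * (d : X)⁻¹ * c := by
          calc (c : X) * k = ((c : X) * k * (c : X)⁻¹) * c := by group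
            _ = _ := by rw [h1]
        calc ((d : X)⁻¹ * c) * k = (d : X)⁻¹ * ((c : X) * k) := by group
          _ = (d : X)⁻¹ * ((d : X) * k * (d : X)⁻¹ * c) := by rw [h4]
          _ = k * ((d : X)⁻¹ * c) := by group
      by_contra hcd
      have h5 : (d : X)⁻¹ * c ≠ 1 := by
        intro h6
        apply hcd
        apply Subtype.ext
        have := congrArg (fun z => (d : X) * z) h6
        simpa using this
      have h6 : k ∈ N ⊓ Subgroup.centralizer {(d : X)⁻¹ * c} := by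
        refine Subgroup.mem_inf.mpr ⟨hk, Subgroup.mem_centralizer_iff.mpr ?_⟩
        intro y hy
        rw [Set.mem_singleton_iff] at hy
        rw [hy]
        exact h2
      rw [hfpf _ (C.mul_mem (C.inv_mem d.2) c.2) h5, Subgroup.mem_bot] at h6
      exact hk1 h6
    have hb : (1 : N) ∉ Set.range f := by
      rintro ⟨c, hc⟩
      have h1 : (c : X) * k * (c : X)⁻¹ = 1 := congrArg Subtype.val hc
      apply hk1
      have h2 : (c : X)⁻¹ * ((c : X) * k * (c : X)⁻¹) * c = k := by group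
      rw [← h2, h1]
      simp
    exact card_lt_of_inj f hf hb

/-- Two coprime nontrivial subgroups. -/
lemma split_primes {p q : ℕ} (T : TwoPrimes G p q) (N C : Subgroup G) (hNC : Nat.Coprime (Nat.card N) (Nat.card C))
    (hN : N ≠ ⊥) (hC : C ≠ ⊥) : (IsPGroup p N ∧ IsPGroup q C) ∨ (IsPGroup q N ∧ IsPGroup p C) := by
  have hpf : Fact p.Prime := ⟨T.hp⟩
  have hqf : Fact q.Prime := ⟨T.hq⟩
  have hone : ∀ K : Subgroup G, K ≠ ⊥ → Nat.card K ≠ 1 := fun K hK h => hK (Subgroup.card_eq_one.mp h)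
  have hdv : ∀ (K : Subgroup G) (r : ℕ), r ∣ Nat.card K → r ∣ Nat.card G := fun K r h =>
    h.trans (Subgroup.card_subgroup_dvd_card K)
  have hpg : ∀ (K : Subgroup G) (u v : ℕ) (_ : Fact u.Prime), (u = p ∧ v = q) ∨ (u = q ∧ v = p) → ¬ v ∣ Nat.card K →
      IsPGroup u K := by
    intro K u v hu huv hv
    apply IsPGroup.of_card (n := (Nat.card K).primeFactorsList.length)
    apply Nat.eq_prime_pow_of_unique_prime_dvd Nat.card_pos.ne'
    intro d hd hdK
    rcases T.hprimes d hd (hdv K d hdK) with rfl | rfl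
    · rcases huv with ⟨rfl, rfl⟩ | ⟨rfl, rfl⟩
      · rfl
      · exact absurd hdK hv
    · rcases huv with ⟨rfl, rfl⟩ | ⟨rfl, rfl⟩
      · exact absurd hdK hv
      · rfl
  obtain ⟨r, hr, hrN⟩ := Nat.exists_prime_and_dvd (hone N hN)
  have hrC : ¬ r ∣ Nat.card C := fun h => hr.one_lt.ne' (Nat.eq_one_of_dvd_coprimes hNC hrN h)
  obtain ⟨t, ht, htC⟩ := Nat.exists_prime_and_dvd (hone C hC)
  have htN : ¬ t ∣ Nat.card N := fun h => ht.one_lt.ne' (Nat.eq_one_of_dvd_coprimes hNC h htC)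
  rcases T.hprimes r hr (hdv N r hrN) with rfl | rfl
  · left
    rcases T.hprimes t ht (hdv C t htC) with rfl | rfl
    · exact absurd htC hrC
    · exact ⟨hpg N _ _ hpf (Or.inl ⟨rfl, rfl⟩) htN, hpg C _ _ hqf (Or.inr ⟨rfl, rfl⟩) hrC⟩
  · right
    rcases T.hprimes t ht (hdv C t htC) with rfl | rfl
    · exact ⟨hpg N _ _ hqf (Or.inr ⟨rfl, rfl⟩) htN, hpg C _ _ hpf (Or.inl ⟨rfl, rfl⟩) hrC⟩
    · exact absurd htC hrC

/-- The translation of the 2-Frobenius data. -/
theorem caseB' {p q : ℕ} (T : TwoPrimes G p q) (H K : Subgroup G) [hHn : H.Normal] (hHK : H ≤ K)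
    (C₁ : Subgroup K) (hc₁ : Subgroup.IsComplement' (H.subgroupOf K) C₁)
    (A : Subgroup (G ⧸ H)) (hAdef : A = K.map (QuotientGroup.mk' H)) [hAn : A.Normal] (C₂ : Subgroup (G ⧸ H))
    (hc₂ : Subgroup.IsComplement' A C₂) (hcop : Nat.Coprime (Nat.card C₂) (Nat.card A)) (hAne : A ≠ ⊥)
    (hlt : Nat.card C₂ < Nat.card A) (hC₂ne : C₂ ≠ ⊥)
    (hH : IsPGroup p H) (hB : IsPGroup q (C₁.map K.subtype)) (hHne : H ≠ ⊥) (hC₁ne : C₁.map K.subtype ≠ ⊥) : False := by
  have hpf : Fact p.Prime := ⟨T.hp⟩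
  have hqf : Fact q.Prime := ⟨T.hq⟩
  set B := C₁.map K.subtype with hBdef
  have hcB : Nat.card B = Nat.card C₁ := Subgroup.card_map_of_injective K.subtype_injective
  have hcH : Nat.card (H.subgroupOf K) = Nat.card H :=
    Nat.card_congr (Subgroup.subgroupOfEquivOfLe hHK).toEquiv
  have hcK : Nat.card K = Nat.card A * Nat.card H := by
    have h1 := Cfsg.Agent.Lib.SuperSolv2.card_comap_mk H A
    rw [hAdef, Subgroup.comap_map_eq_self (by rwa [QuotientGroup.ker_mk'])] at h1
    rw [hAdef]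
    exact h1
  have hAB : Nat.card A = Nat.card B := by
    have h1 := hc₁.card_mul_card
    rw [hcH, hcK, ← hcB, mul_comm] at h1
    exact (Nat.eq_of_mul_eq_mul_right Nat.card_pos h1).symm
  have hinf : H ⊓ B = ⊥ := by
    rw [eq_bot_iff]
    rintro x ⟨hxH, c, hc, rfl⟩
    have h1 : c ∈ H.subgroupOf K ⊓ C₁ := ⟨hxH, hc⟩
    rw [disjoint_iff.mp hc₁.disjoint, Subgroup.mem_bot] at h1
    rw [h1, Subgroup.mem_bot]
    rfl
  have hcardQ : Nat.card (G ⧸ H) = Nat.card B * Nat.card C₂ := by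
    rw [← hAB]
    exact hc₂.card_mul_card.symm
  have hcard : Nat.card G = Nat.card H * Nat.card B * Nat.card C₂ := by
    rw [H.card_eq_card_quotient_mul_card_subgroup, hcardQ]
    ring
  have hAq : IsPGroup q A := by
    obtain ⟨k, hk⟩ := IsPGroup.iff_card.mp hB
    exact IsPGroup.of_card (n := k) (hAB.trans hk)
  have hγ : p ∣ Nat.card C₂ := by
    have hne1 : Nat.card C₂ ≠ 1 := fun h => hC₂ne (Subgroup.card_eq_one.mp h)
    obtain ⟨r, hr, hrC⟩ := Nat.exists_prime_and_dvd hne1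
    have hrG : r ∣ Nat.card G := by
      rw [hcard]
      exact hrC.trans (dvd_mul_left _ _)
    rcases T.hprimes r hr hrG with rfl | rfl
    · exact hrC
    · exfalso
      have hne2 : Nat.card A ≠ 1 := fun h => hAne (Subgroup.card_eq_one.mp h)
      obtain ⟨k, hk⟩ := IsPGroup.iff_card.mp hAq
      have hk0 : k ≠ 0 := by
        rintro rfl
        exact hne2 (by simpa using hk)
      have h3 : r ∣ Nat.card A := by
        rw [hk]
        exact dvd_pow_self _ hk0
      exact hr.one_lt.ne' (Nat.eq_one_of_dvd_coprimes hcop hrC h3)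
  exact caseB T H B hH hB hHne hC₁ne hinf (Nat.card C₂) hcard hγ (by rw [← hAB]; exact hlt) A hAq hAne

end basic

/-- The main theorem. -/
theorem main {G : Type*} [Group G] [Finite G] (hodd : Odd (Nat.card G))
    (h : (((fun m : ℕ => Nat.card {g : G // orderOf g = m}) '' Set.range (orderOf : G → ℕ))).ncard = 3) :
    (Nat.card G).primeFactors.card ≤ 2 ∧ ((Nat.card G).primeFactors.card = 2 →
      (∀ (p : ℕ) [Fact p.Prime] (P : Sylow p G), p ∣ Nat.card G → Monoid.exponent ↥(P : Subgroup G) = p) ∧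
      ∃ C : Subgroup G, Cfsg.IsFrobeniusComplement C ∧ (Nat.card ↥C).Prime) := by
  classical
  obtain ⟨a, b, hab, hV⟩ := exists_values hodd h
  refine ⟨primeFactors_card_le hodd hab hV, ?_⟩
  intro h2
  obtain ⟨p, q, hpq, hS⟩ := Finset.card_eq_two.mp h2
  have hpm : p ∈ (Nat.card G).primeFactors := by rw [hS]; simp
  have hqm : q ∈ (Nat.card G).primeFactors := by rw [hS]; simp
  have hpm' := Nat.mem_primeFactors.mp hpm
  have hqm' := Nat.mem_primeFactors.mp hqm
  have hp := hpm'.1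
  have hq := hqm'.1
  have hodd2 : ∀ r : ℕ, r.Prime → r ∣ Nat.card G → r ≠ 2 := by
    rintro r hr hrG rfl
    exact (Nat.not_even_iff_odd.mpr hodd) (even_iff_two_dvd.mpr hrG)
  have hval : ∀ r : ℕ, r.Prime → r ∣ Nat.card G → s G r = a ∨ s G r = b := by
    intro r hr hrG
    obtain ⟨g, hg⟩ := exists_of_prime_dvd (G := G) hr hrG
    have hg1 : g ≠ 1 := by
      rintro rfl
      rw [orderOf_one] at hg
      exact hr.ne_one hg.symm
    rw [← hg]
    exact hV g hg1
  have hnes : s G p ≠ s G q := by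
    intro he
    rcases hval p hp hpm'.2.1 with h1 | h1
    · exact distinct hodd hab hV hp hq hpq hpm'.2.1 hqm'.2.1 h1 (he.symm.trans h1)
    · exact distinct hodd hab.symm (fun g hg => (hV g hg).symm) hp hq hpq hpm'.2.1 hqm'.2.1 h1 (he.symm.trans h1)
  have hVV : ∀ g : G, g ≠ 1 → s G (orderOf g) = s G p ∨ s G (orderOf g) = s G q := by
    intro g hg
    have h1 := hV g hg
    have h3 := hval p hp hpm'.2.1
    have h4 := hval q hq hqm'.2.1
    omega
  have hprimes : ∀ r : ℕ, r.Prime → r ∣ Nat.card G → r = p ∨ r = q := by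
    intro r hr hrG
    have : r ∈ (Nat.card G).primeFactors := Nat.mem_primeFactors.mpr ⟨hr, hrG, Nat.card_pos.ne'⟩
    rw [hS] at this
    simpa using this
  have T : TwoPrimes G p q :=
    { hp := hp, hq := hq, hne := hpq, hp2 := hodd2 p hp hpm'.2.1, hq2 := hodd2 q hq hqm'.2.1,
      hpG := hpm'.2.1, hqG := hqm'.2.1, hprimes := hprimes, hV := hVV, hnes := hnes }
  have hsol : Group.IsSolvable G := by
    apply Cfsg.Agent.Lib.BurnsidePQ.isSolvable_of_card_eq p q hp hq (Nat.card G) G rfl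
    refine ⟨(Nat.card G).factorization p, (Nat.card G).factorization q, ?_⟩
    conv_lhs => rw [← Nat.factorization_prod_pow_eq_self (Nat.card_pos (α := G)).ne']
    rw [Finsupp.prod, Nat.support_factorization, hS, Finset.prod_pair hpq]
  have hdisc : ∃ A : Set ℕ, (∃ a ∈ A, a.Prime ∧ a ∣ Nat.card G) ∧ (∃ b ∉ A, b.Prime ∧ b ∣ Nat.card G) ∧
      ∀ a ∈ A, ∀ b ∉ A, a.Prime → b.Prime → a ∣ Nat.card G → b ∣ Nat.card G → ¬ ∃ g : G, orderOf g = a * b := by
    refine ⟨{p}, ⟨p, rfl, hp, hpm'.2.1⟩, ⟨q, fun h => hpq (Set.mem_singleton_iff.mp h).symm, hq, hqm'.2.1⟩, ?_⟩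
    rintro u rfl v hv _ hv' _ hvG ⟨g, hg⟩
    rcases hprimes v hv' hvG with rfl | rfl
    · exact hv rfl
    · exact T.no_pq g hg
  rcases Cfsg.Agent.S3857.result hsol hdisc with ⟨C, hC⟩ | ⟨H, K, hHn, hKn, hlt, ⟨C₁, hC₁, hker₁⟩, ⟨C₂, hC₂, hker₂⟩⟩
  · -- Frobenius
    obtain ⟨N, hN, -, -⟩ := Cfsg.Agent.Lib.FrobeniusThm.exists_kernel_subgroup hC
    obtain ⟨hNn, hcompl, hcop, hNne, -⟩ := frob_data C N hC hN.symm
    have hinf : N ⊓ C = ⊥ := disjoint_iff.mp hcompl.disjoint
    have hsup : N ⊔ C = ⊤ := hcompl.sup_eq_top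
    have key : (∀ g : G, g ≠ 1 → orderOf g = p ∨ orderOf g = q) ∧ (Nat.card C).Prime := by
      rcases split_primes T N C hcop.symm hNne hC.1 with ⟨h1, h3⟩ | ⟨h1, h3⟩
      · obtain ⟨h4, h5⟩ := caseA T N C h1 h3 hNne hC.1 hinf hsup
        exact ⟨h4, h5 ▸ hq⟩
      · obtain ⟨h4, h5⟩ := caseA T.symm N C h1 h3 hNne hC.1 hinf hsup
        exact ⟨fun g hg => (h4 g hg).symm, h5 ▸ hp⟩
    refine ⟨?_, C, hC, key.2⟩
    intro r hr P hrG
    have hnt : Nontrivial (P : Subgroup G) := by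
      rw [Subgroup.nontrivial_iff_ne_bot]
      exact P.ne_bot_of_dvd_card hrG
    rw [Monoid.exponent_eq_prime_iff hr.out]
    intro g hg
    have hg1 : (g : G) ≠ 1 := fun h => hg (Subtype.ext h)
    have hrd : r ∣ orderOf (g : G) := Cfsg.Agent.Lib.CPGroups.prime_dvd_orderOf_of_mem hr.out P.isPGroup' g.2 hg1
    rw [← Subgroup.orderOf_coe]
    rcases key.1 _ hg1 with h1 | h1 <;> rw [h1] at hrd ⊢
    · exact ((Nat.prime_dvd_prime_iff_eq hr.out hp).mp hrd).symm
    · exact ((Nat.prime_dvd_prime_iff_eq hr.out hq).mp hrd).symm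
  · -- 2-Frobenius
    exfalso
    have hHK : H ≤ K := hlt.le
    obtain ⟨-, hc₁, hcop₁, hne₁, -⟩ := frob_data C₁ (H.subgroupOf K) hC₁ hker₁
    obtain ⟨hAn, hc₂, hcop₂, hne₂, hlt₂⟩ := frob_data C₂ (K.map (QuotientGroup.mk' H)) hC₂ hker₂
    have hcB : Nat.card (C₁.map K.subtype) = Nat.card C₁ := Subgroup.card_map_of_injective K.subtype_injective
    have hcH : Nat.card (H.subgroupOf K) = Nat.card H :=
      Nat.card_congr (Subgroup.subgroupOfEquivOfLe hHK).toEquiv
    have hHne : H ≠ ⊥ := by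
      rintro rfl
      apply hne₁
      simp
    have hBne : C₁.map K.subtype ≠ ⊥ := by
      intro h1
      apply hC₁.1
      exact (Subgroup.map_eq_bot_iff_of_injective _ K.subtype_injective).mp h1
    have hcop' : Nat.Coprime (Nat.card H) (Nat.card (C₁.map K.subtype)) := by
      rw [hcB, ← hcH]
      exact hcop₁.symm
    rcases split_primes T H (C₁.map K.subtype) hcop' hHne hBne with ⟨h1, h3⟩ | ⟨h1, h3⟩
    · exact caseB' T H K hHK C₁ hc₁ _ rfl C₂ hc₂ hcop₂ hne₂ hlt₂ hC₂.1 h1 h3 hHne hBne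
    · exact caseB' T.symm H K hHK C₁ hc₁ _ rfl C₂ hc₂ hcop₂ hne₂ hlt₂ hC₂.1 h1 h3 hHne hBne

/-- Let G be a finite group of odd order in which the numbers of elements of each order that occurs (the numbers #{g : o(g) = m}, m ranging over the element orders of G) take exactly three different values. Then the order of G has at most two prime divisors; and if it has exactly two, then every Sylow subgroup of G for a prime dividing its order has prime exponent, G is a Frobenius group, and some Frobenius complement of G has prime order. -/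
theorem result {G : Type*} [Group G] [Finite G] (hodd : Odd (Nat.card G)) (h : (((fun m : ℕ => Nat.card {g : G // orderOf g = m}) '' Set.range (orderOf : G → ℕ))).ncard = 3) :
    (Nat.card G).primeFactors.card ≤ 2 ∧
      ((Nat.card G).primeFactors.card = 2 →
        (∀ (p : ℕ) [Fact p.Prime] (P : Sylow p G), p ∣ Nat.card G → Monoid.exponent ↥(P : Subgroup G) = p) ∧
        ∃ C : Subgroup G, Cfsg.IsFrobeniusComplement C ∧ (Nat.card ↥C).Prime) := by
  exact main hodd h

end Cfsg.Agent.S4004
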