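import Mathlib
import Cfsg.Statements.S4009
import Cfsg.Agent.Lib.HallPetrescu
import Cfsg.Agent.Lib.PGrp
import Cfsg.Agent.Lib.H73Conj
import Cfsg.Agent.Lib.Coprime

set_option autoImplicit false
set_option linter.style.haveILetI false
set_option linter.unusedVariables false
set_option linter.unusedSectionVars false
open Cfsg

namespace Cfsg.Agent.S4009

open Subgroup
open scoped commutatorElement

section
variable {G : Type*} [Group G]

theorem upper_comm (i j : ℕ) :
    ⁅Subgroup.upperCentralSeries G (i + j + 1), (⊤ : Subgroup G).lowerCentralSeries j⁆ ≤ Subgroup.upperCentralSeries G i := by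
  induction j generalizing i with
  | zero =>
    rw [commutator_le]
    intro a ha b _
    exact (Subgroup.mem_upperCentralSeries_succ_iff.1 ha) b
  | succ j ih =>
    rw [Subgroup.lowerCentralSeries_succ, commutator_comm]
    apply Cfsg.Agent.S4206.three_subgroups
    · have h1 : ⁅(⊤ : Subgroup G), Subgroup.upperCentralSeries G (i + (j + 1) + 1)⁆ ≤ Subgroup.upperCentralSeries G (i + j + 1) := by
        rw [commutator_comm, commutator_le]
        intro a ha b _
        exact (Subgroup.mem_upperCentralSeries_succ_iff.1 ha) b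
      exact (commutator_mono h1 le_rfl).trans (ih i)
    · have h1 := ih (i + 1)
      rw [show i + 1 + j + 1 = i + (j + 1) + 1 by omega] at h1
      refine (commutator_mono h1 le_rfl).trans ?_
      rw [commutator_le]
      intro a ha b _
      exact (Subgroup.mem_upperCentralSeries_succ_iff.1 ha) b

theorem card_step [Finite G] {p : ℕ} [hp : Fact p.Prime] {A B : Subgroup G} (hB : IsPGroup p B)
    (h : A < B) : p * Nat.card A ≤ Nat.card B := by
  have hdvd : Nat.card A ∣ Nat.card B := Subgroup.card_dvd_of_le h.le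
  obtain ⟨m, hm⟩ := hdvd
  obtain ⟨k, hk⟩ := IsPGroup.iff_card.1 hB
  have hm1 : m ≠ 1 := by
    rintro rfl
    rw [mul_one] at hm
    exact (ne_of_lt h) (Subgroup.eq_of_le_of_card_ge h.le hm.le)
  have hm0 : m ≠ 0 := by
    rintro rfl
    rw [mul_zero] at hm
    exact Nat.card_pos.ne' hm
  have hmd : m ∣ p ^ k := by
    rw [← hk, hm]
    exact dvd_mul_left m _
  obtain ⟨q, hqp, rfl⟩ := (Nat.dvd_prime_pow hp.out).1 hmd
  have hq0 : q ≠ 0 := by
    rintro rfl
    exact hm1 (pow_zero p)
  have hple : p ≤ p ^ q := by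
    calc p = p ^ 1 := (pow_one p).symm
      _ ≤ p ^ q := Nat.pow_le_pow_right hp.out.pos (Nat.pos_of_ne_zero hq0)
  rw [hm, mul_comm]
  exact Nat.mul_le_mul_left _ hple

theorem K1 [Finite G] {p : ℕ} [hp : Fact p.Prime] (hG : IsPGroup p G) (N : Subgroup G) [hNn : N.Normal]
    (i : ℕ) (hN : N ≤ (⊤ : Subgroup G).lowerCentralSeries i) (hne : ⁅N, N⁆ ≠ ⊥) (hcen : ⁅N, N⁆ ≤ center G) :
    p ^ (i + 2) * Nat.card (⁅N, N⁆ : Subgroup G) ≤ Nat.card N ∧
      (p ^ (i + 2) * Nat.card (⁅N, N⁆ : Subgroup G) = Nat.card N → ∃ c ∈ (⁅N, N⁆ : Subgroup G), ⁅N, N⁆ ≤ zpowers c) := by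
  have hpp := hp.out
  set N' : Subgroup G := ⁅N, N⁆ with hN'
  have hN'N : N' ≤ N := commutator_le_left N N
  let W : ℕ → Subgroup G := fun t => N ⊓ Subgroup.upperCentralSeries G (t + 1)
  have hW : ∀ t, N ≤ Subgroup.upperCentralSeries G (t + 1) ∨ p ^ t * Nat.card N' ≤ Nat.card (W t) := by
    intro t
    induction t with
    | zero =>
      right
      rw [pow_zero, one_mul]
      apply Subgroup.card_le_of_le
      refine le_inf hN'N ?_
      rw [show (0 + 1) = 1 from rfl, Subgroup.upperCentralSeries_one]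
      exact hcen
    | succ t ih =>
      by_cases h1 : N ≤ Subgroup.upperCentralSeries G (t + 1 + 1)
      · exact Or.inl h1
      · right
        have h2 : ¬ N ≤ Subgroup.upperCentralSeries G (t + 1) := fun h =>
          h1 (h.trans (Subgroup.upperCentralSeries_mono G (by omega)))
        have h3 := ih.resolve_left h2
        have h4 : W t < N := by
          refine lt_of_le_of_ne inf_le_left ?_
          intro h
          apply h2
          rw [← h]
          exact inf_le_right
        haveI : (W t).Normal := by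
          show (N ⊓ Subgroup.upperCentralSeries G (t + 1)).Normal
          infer_instance
        obtain ⟨y, hyN, hyW, hy⟩ := Cfsg.Agent.Lib.PGrp.exists_central_mod hG (W t) N h4
        have h5 : y ∈ W (t + 1) := by
          refine ⟨hyN, Subgroup.mem_upperCentralSeries_succ_iff.2 ?_⟩
          intro g
          exact (hy g).2
        have h6 : W t < W (t + 1) := by
          refine lt_of_le_of_ne (inf_le_inf_left _ (Subgroup.upperCentralSeries_mono G (by omega))) ?_
          intro h
          apply hyW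
          rw [h]
          exact h5
        have h7 := card_step (hG.to_subgroup _) h6
        calc p ^ (t + 1) * Nat.card N' = p * (p ^ t * Nat.card N') := by ring
          _ ≤ p * Nat.card (W t) := Nat.mul_le_mul_left _ h3
          _ ≤ _ := h7
  have hZc : ∀ z ∈ Subgroup.upperCentralSeries G (i + 1), ∀ v ∈ (⊤ : Subgroup G).lowerCentralSeries i, z * v = v * z := by
    intro z hz v hv
    have h1 := upper_comm (G := G) 0 i
    rw [show 0 + i + 1 = i + 1 by omega, Subgroup.upperCentralSeries_zero, le_bot_iff] at h1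
    have h2 := Subgroup.commutator_mem_commutator hz hv
    rw [h1, mem_bot] at h2
    exact commutatorElement_eq_one_iff_mul_comm.1 h2
  have hNZ : ¬ N ≤ Subgroup.upperCentralSeries G (i + 1) := by
    intro h
    apply hne
    rw [hN', ← le_bot_iff, commutator_le]
    intro a ha b hb
    rw [mem_bot]
    exact commutatorElement_eq_one_iff_mul_comm.2 (hZc a (h ha) b (hN hb))
  have hWi := (hW i).resolve_left hNZ
  set C : Subgroup G := N ⊓ centralizer (N : Set G) with hC
  have hCN : C ≤ N := inf_le_left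
  have hCc : ∀ z ∈ C, ∀ v ∈ N, z * v = v * z := by
    intro z hz v hv
    exact (mem_centralizer_iff.1 hz.2 v hv).symm
  have hWC : W i ≤ C := by
    intro z hz
    refine ⟨hz.1, mem_centralizer_iff.2 ?_⟩
    intro v hv
    exact (hZc z hz.2 v (hN hv)).symm
  obtain ⟨x, hxN, y', hy'N, hxy'⟩ : ∃ x ∈ N, ∃ y ∈ N, x * y ≠ y * x := by
    by_contra hcon
    push Not at hcon
    apply hne
    rw [hN', ← le_bot_iff, commutator_le]
    intro a ha b hb
    rw [mem_bot]
    exact commutatorElement_eq_one_iff_mul_comm.2 (hcon a ha b hb)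
  have hxC : x ∉ C := fun h => hxy' (hCc x h y' hy'N)
  set C1 : Subgroup G := C ⊔ zpowers x with hC1
  have hC1N : C1 ≤ N := sup_le hCN (zpowers_le.2 hxN)
  have hC1lt : C < C1 := by
    refine lt_of_le_of_ne le_sup_left ?_
    intro h
    apply hxC
    rw [h]
    exact mem_sup_right (mem_zpowers x)
  have hC1comm : ∀ a ∈ C1, ∀ b ∈ C1, a * b = b * a := by
    apply Cfsg.Agent.Lib.H73Conj.comm_sup
    · intro a ha b hb
      exact hCc a ha b hb.1
    · exact Cfsg.Agent.Lib.H73Conj.comm_zpowers_self x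
    · intro a ha b hb
      exact hCc a ha b (zpowers_le.2 hxN hb)
  have hC1ne : C1 ≠ N := by
    intro h
    apply hxy'
    rw [← h] at hxN hy'N
    exact hC1comm x hxN y' hy'N
  have hC1ltN : C1 < N := lt_of_le_of_ne hC1N hC1ne
  have hNp : IsPGroup p N := hG.to_subgroup N
  have hC1p : IsPGroup p C1 := hG.to_subgroup C1
  have h1 := card_step hC1p hC1lt
  have h2 := card_step hNp hC1ltN
  have hWCc : Nat.card (W i) ≤ Nat.card C := Subgroup.card_le_of_le hWC
  have hbig : p ^ (i + 2) * Nat.card N' ≤ p ^ 2 * Nat.card C := by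
    calc p ^ (i + 2) * Nat.card N' = p ^ 2 * (p ^ i * Nat.card N') := by ring
      _ ≤ p ^ 2 * Nat.card (W i) := Nat.mul_le_mul_left _ hWi
      _ ≤ _ := Nat.mul_le_mul_left _ hWCc
  have hCC : p ^ 2 * Nat.card C ≤ p * Nat.card C1 := by
    calc p ^ 2 * Nat.card C = p * (p * Nat.card C) := by ring
      _ ≤ _ := Nat.mul_le_mul_left _ h1
  refine ⟨(hbig.trans hCC).trans h2, ?_⟩
  intro heq
  have heq2 : p * Nat.card C1 = Nat.card N := by
    apply le_antisymm h2
    rw [← heq]
    exact hbig.trans hCC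
  obtain ⟨y, hyN, hyC1⟩ := SetLike.exists_of_lt hC1ltN
  set C2 : Subgroup G := C1 ⊔ zpowers y with hC2
  have hC2N : C2 ≤ N := sup_le hC1N (zpowers_le.2 hyN)
  have hC2lt : C1 < C2 := by
    refine lt_of_le_of_ne le_sup_left ?_
    intro h
    apply hyC1
    rw [h]
    exact mem_sup_right (mem_zpowers y)
  have h3 := card_step (hG.to_subgroup C2) hC2lt
  have hC2eq : C2 = N := by
    apply Subgroup.eq_of_le_of_card_ge hC2N
    rw [← heq2]
    exact h3
  set c : G := ⁅x, y⁆ with hc
  have hcN' : c ∈ N' := Subgroup.commutator_mem_commutator hxN hyN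
  refine ⟨c, hcN', ?_⟩
  set D : Subgroup G := zpowers c with hD
  have hcentr : ∀ u ∈ N, ∀ v ∈ N, ⁅u, v⁆ ∈ center G := fun u hu v hv =>
    hcen (Subgroup.commutator_mem_commutator hu hv)
  have hS : ∀ u ∈ N, (∀ z ∈ C, ⁅u, z⁆ ∈ D) → ⁅u, x⁆ ∈ D → ⁅u, y⁆ ∈ D → ∀ v ∈ N, ⁅u, v⁆ ∈ D := by
    intro u hu hz hx hy
    let S : Subgroup G :=
      { carrier := {v | v ∈ N ∧ ⁅u, v⁆ ∈ D}
        mul_mem' := by
          rintro a b ⟨ha, ha'⟩ ⟨hb, hb'⟩
          refine ⟨N.mul_mem ha hb, ?_⟩
          have e : ⁅u, a * b⁆ = ⁅u, a⁆ * (a * ⁅u, b⁆ * a⁻¹) := by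
            simp only [commutatorElement_def]; group
          have e2 : a * ⁅u, b⁆ * a⁻¹ = ⁅u, b⁆ := by
            have := mem_center_iff.1 (hcentr u hu b hb) a
            rw [this]; simp
          rw [e, e2]
          exact D.mul_mem ha' hb'
        one_mem' := ⟨N.one_mem, by simp [commutatorElement_def, D.one_mem]⟩
        inv_mem' := by
          rintro a ⟨ha, ha'⟩
          refine ⟨N.inv_mem ha, ?_⟩
          have e : ⁅u, a⁻¹⁆ = a⁻¹ * ⁅u, a⁆⁻¹ * a := by
            simp only [commutatorElement_def]; group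
          have e2 : a⁻¹ * ⁅u, a⁆⁻¹ * a = ⁅u, a⁆⁻¹ := by
            have := mem_center_iff.1 (Subgroup.inv_mem _ (hcentr u hu a ha)) a⁻¹
            rw [this]; simp
          rw [e, e2]
          exact D.inv_mem ha' }
    have hle : N ≤ S := by
      rw [← hC2eq]
      refine sup_le (sup_le ?_ ?_) ?_
      · intro z hz'
        exact ⟨hCN hz', hz z hz'⟩
      · rw [zpowers_le]
        exact ⟨hxN, hx⟩
      · rw [zpowers_le]
        exact ⟨hyN, hy⟩
    intro v hv
    exact (hle hv).2
  have hcz : ∀ u ∈ N, ∀ z ∈ C, ⁅u, z⁆ ∈ D := by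
    intro u hu z hz
    have := commutatorElement_eq_one_iff_mul_comm.2 (hCc z hz u hu).symm
    rw [this]
    exact D.one_mem
  have hrev : ∀ a b : G, ⁅a, b⁆ ∈ D → ⁅b, a⁆ ∈ D := by
    intro a b h
    have : ⁅b, a⁆ = ⁅a, b⁆⁻¹ := (commutatorElement_inv a b).symm
    rw [this]
    exact D.inv_mem h
  have hself : ∀ a : G, ⁅a, a⁆ ∈ D := by
    intro a
    have : ⁅a, a⁆ = 1 := commutatorElement_self a
    rw [this]
    exact D.one_mem
  have hxall := hS x hxN (hcz x hxN) (hself x) (mem_zpowers c)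
  have hyall := hS y hyN (hcz y hyN) (hrev _ _ (mem_zpowers c)) (hself y)
  rw [commutator_le]
  intro u hu v hv
  exact hS u hu (hcz u hu) (hrev _ _ (hxall u hu)) (hrev _ _ (hyall u hu)) v hv

theorem lt_of_ne_bot [Finite G] {p : ℕ} [hp : Fact p.Prime] (hG : IsPGroup p G) (M : Subgroup G)
    [M.Normal] (hM : M ≠ ⊥) : ¬ M ≤ ⁅M, (⊤ : Subgroup G)⁆ := by
  intro h
  have hnil : Group.IsNilpotent G := hG.isNilpotent
  obtain ⟨n, hn⟩ := Subgroup.nilpotent_iff_lowerCentralSeries.1 hnil
  have key : ∀ j, M ≤ (⊤ : Subgroup G).lowerCentralSeries j := by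
    intro j
    induction j with
    | zero => exact le_top
    | succ j ih =>
      rw [Subgroup.lowerCentralSeries_succ]
      exact h.trans (commutator_mono ih le_rfl)
  have := key n
  rw [hn, le_bot_iff] at this
  exact hM this

theorem K2 [Finite G] {p : ℕ} [hp : Fact p.Prime] (hG : IsPGroup p G) (N : Subgroup G) [hNn : N.Normal]
    (i : ℕ) (hN : N ≤ (⊤ : Subgroup G).lowerCentralSeries i) (hne : ⁅N, N⁆ ≠ ⊥) :
    p ^ (i + 2) * Nat.card (⁅N, N⁆ : Subgroup G) ≤ Nat.card N ∧
      (p ^ (i + 2) * Nat.card (⁅N, N⁆ : Subgroup G) = Nat.card N →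
        ∃ w ∈ (⁅N, N⁆ : Subgroup G), ⁅N, N⁆ ≤ zpowers w ⊔ ⁅(⁅N, N⁆ : Subgroup G), (⊤ : Subgroup G)⁆) := by
  set N' : Subgroup G := ⁅N, N⁆ with hN'
  haveI hN'n : N'.Normal := by rw [hN']; infer_instance
  have hN'N : N' ≤ N := commutator_le_left N N
  set X : Subgroup G := ⁅N', (⊤ : Subgroup G)⁆ with hX
  haveI hXn : X.Normal := by rw [hX]; infer_instance
  have hXN' : X ≤ N' := commutator_le_left N' ⊤
  let π := QuotientGroup.mk' X
  have hπ : Function.Surjective π := QuotientGroup.mk'_surjective X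
  have hker : π.ker = X := QuotientGroup.ker_mk' X
  have hcardm : ∀ L : Subgroup G, X ≤ L → Nat.card (L.map π) * Nat.card X = Nat.card L := by
    intro L hL
    have h1 := Cfsg.Agent.Lib.Coprime.card_comap_mk X (L.map π)
    have h2 : (L.map π).comap (QuotientGroup.mk' X) = L := by
      rw [Subgroup.comap_map_eq_self]
      rw [QuotientGroup.ker_mk']
      exact hL
    rw [h2] at h1
    exact h1.symm
  haveI hNb : (N.map π).Normal := Subgroup.Normal.map hNn π hπ
  have hcomm : ⁅N.map π, N.map π⁆ = N'.map π := by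
    rw [hN', Subgroup.map_commutator]
  have hlcs : N.map π ≤ (⊤ : Subgroup (G ⧸ X)).lowerCentralSeries i := by
    have h1 := Subgroup.map_lowerCentralSeries (⊤ : Subgroup G) π i
    have h2 : (⊤ : Subgroup G).map π = ⊤ := by
      rw [← MonoidHom.range_eq_map]
      exact MonoidHom.range_eq_top.2 hπ
    rw [h2] at h1
    rw [← h1]
    exact Subgroup.map_mono hN
  have hne' : ⁅N.map π, N.map π⁆ ≠ ⊥ := by
    rw [hcomm]
    intro h
    rw [Subgroup.map_eq_bot_iff, hker] at h
    exact lt_of_ne_bot hG N' hne h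
  have hcen' : ⁅N.map π, N.map π⁆ ≤ center (G ⧸ X) := by
    rw [hcomm]
    rintro _ ⟨a, ha, rfl⟩
    rw [mem_center_iff]
    intro g
    obtain ⟨g, rfl⟩ := hπ g
    have h1 : ⁅a, g⁆ ∈ X := Subgroup.commutator_mem_commutator ha (mem_top g)
    have h2 : π ⁅a, g⁆ = 1 := by
      rw [← MonoidHom.mem_ker, hker]; exact h1
    rw [map_commutatorElement] at h2
    exact (commutatorElement_eq_one_iff_mul_comm.1 h2).symm
  obtain ⟨h1, h2⟩ := K1 (hG.to_quotient X) (N.map π) i hlcs hne' hcen'
  rw [hcomm] at h1 h2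
  have hcN := hcardm N (hXN'.trans hN'N)
  have hcN' := hcardm N' hXN'
  have hXpos : 0 < Nat.card X := Nat.card_pos
  constructor
  · rw [← hcN, ← hcN', ← mul_assoc]
    exact Nat.mul_le_mul_right _ h1
  · intro heq
    rw [← hcN, ← hcN', ← mul_assoc] at heq
    have heq' := Nat.eq_of_mul_eq_mul_right hXpos heq
    obtain ⟨c, hc, hle⟩ := h2 heq'
    obtain ⟨w, hw, rfl⟩ := hc
    refine ⟨w, hw, ?_⟩
    intro n hn
    have h3 : π n ∈ zpowers (π w) := hle ⟨n, hn, rfl⟩
    obtain ⟨k, hk⟩ := h3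
    have h4 : (w ^ k)⁻¹ * n ∈ X := by
      rw [← hker, MonoidHom.mem_ker, map_mul, map_inv, map_zpow]
      simp only at hk
      rw [hk]
      simp
    have h5 : n = w ^ k * ((w ^ k)⁻¹ * n) := by group
    rw [h5]
    exact mul_mem_sup (zpow_mem_zpowers w k) h4

theorem K3 (M : Subgroup G) [hMn : M.Normal] {w : G} (hw : w ∈ M) (j : ℕ)
    (hM : M ≤ (⊤ : Subgroup G).lowerCentralSeries j)
    (hgen : M ≤ zpowers w ⊔ ⁅M, (⊤ : Subgroup G)⁆) :
    ⁅M, M⁆ ≤ (⊤ : Subgroup G).lowerCentralSeries (2 * j + 2) := by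
  set Y : Subgroup G := ⁅M, (⊤ : Subgroup G)⁆ with hY
  haveI hYn : Y.Normal := by rw [hY]; infer_instance
  have hYM : Y ≤ M := commutator_le_left M ⊤
  have hYγ : Y ≤ (⊤ : Subgroup G).lowerCentralSeries (j + 1) := by
    rw [Subgroup.lowerCentralSeries_succ]
    exact commutator_mono hM le_rfl
  set T : Subgroup G := ⁅M, Y⁆ with hT
  haveI hTn : T.Normal := by rw [hT]; infer_instance
  have hTγ : T ≤ (⊤ : Subgroup G).lowerCentralSeries (2 * j + 2) := by
    have h1 := Cfsg.Agent.Lib.HallPetrescu.lcs_comm (G := G) j (j + 1)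
    rw [show j + (j + 1) + 1 = 2 * j + 2 by omega] at h1
    exact (commutator_mono hM hYγ).trans h1
  refine le_trans ?_ hTγ
  let π := QuotientGroup.mk' T
  have hker : π.ker = T := QuotientGroup.ker_mk' T
  have hcY : ∀ m ∈ M, ∀ y ∈ Y, π m * π y = π y * π m := by
    intro m hm y hy
    have h1 : ⁅m, y⁆ ∈ T := Subgroup.commutator_mem_commutator hm hy
    have h2 : π ⁅m, y⁆ = 1 := by
      rw [← MonoidHom.mem_ker, hker]; exact h1
    rw [map_commutatorElement] at h2
    exact commutatorElement_eq_one_iff_mul_comm.1 h2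
  have hsup : ∀ a ∈ zpowers (π w) ⊔ Y.map π, ∀ b ∈ zpowers (π w) ⊔ Y.map π, a * b = b * a := by
    apply Cfsg.Agent.Lib.H73Conj.comm_sup
    · exact Cfsg.Agent.Lib.H73Conj.comm_zpowers_self (π w)
    · rintro _ ⟨a, ha, rfl⟩ _ ⟨b, hb, rfl⟩
      exact hcY a (hYM ha) b hb
    · rintro _ ⟨k, rfl⟩ _ ⟨b, hb, rfl⟩
      have h1 : (π w) ^ k = π (w ^ k) := (map_zpow π w k).symm
      simp only
      rw [h1]
      exact hcY _ (M.zpow_mem hw k) b hb
  have hmap : M.map π ≤ zpowers (π w) ⊔ Y.map π := by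
    have h1 := Subgroup.map_mono (f := π) hgen
    rwa [Subgroup.map_sup, MonoidHom.map_zpowers] at h1
  have h3 : (⁅M, M⁆ : Subgroup G).map π = ⊥ := by
    rw [Subgroup.map_commutator, ← le_bot_iff, commutator_le]
    intro a ha b hb
    rw [mem_bot]
    exact commutatorElement_eq_one_iff_mul_comm.2 (hsup a (hmap ha) b (hmap hb))
  rwa [Subgroup.map_eq_bot_iff, hker] at h3

end

/-- The auxiliary sequence. -/
def seq (c : ℕ → ℕ) : ℕ → ℕ
  | 0 => 0
  | 1 => 1
  | (i + 2) => 2 * seq c (i + 1) + 1 + (if seq c i + 2 + c (i + 1) = c i then 1 else 0)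

theorem arith (c : ℕ → ℕ) (k : ℕ) (hle : ∀ i < k, seq c i + 2 + c (i + 1) ≤ c i) :
    2 ^ k + 2 * k + c k ≤ c 0 + 3 := by
  set a := seq c with ha
  have hpow : ∀ i, 2 ^ i ≤ a i + 1 := by
    intro i
    induction i using Nat.twoStepInduction with
    | zero => simp [ha, seq]
    | one => simp [ha, seq]
    | more i _ ih =>
      have h1 : a (i + 2) = 2 * a (i + 1) + 1 + (if a i + 2 + c (i + 1) = c i then 1 else 0) := rfl
      rw [h1, pow_succ]
      omega
  let d : ℕ → ℕ := fun i => c i - c (i + 1) - a i - 2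
  have hd : ∀ i < k, c i = c (i + 1) + a i + 2 + d i := by
    intro i hi
    have := hle i hi
    simp only [d]
    omega
  have hε : ∀ i < k, 1 ≤ d i + (if a i + 2 + c (i + 1) = c i then 1 else 0) := by
    intro i hi
    have := hd i hi
    split_ifs with h
    · omega
    · have : d i ≠ 0 := by
        intro h0
        apply h
        omega
      omega
  have claim : ∀ m, m + 2 ≤ k → c (m + 2) + 2 ^ (m + 2) + 2 * m + 1 + d m + d (m + 1) ≤ c 0 := by
    intro m
    induction m with
    | zero =>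
      intro h
      have h0 : c 0 = c 1 + a 0 + 2 + d 0 := hd 0 (by omega)
      have h1 : c 1 = c 2 + a 1 + 2 + d 1 := hd 1 (by omega)
      have a0 : a 0 = 0 := rfl
      have a1 : a 1 = 1 := rfl
      show c 2 + 2 ^ 2 + 2 * 0 + 1 + d 0 + d 1 ≤ c 0
      norm_num
      omega
    | succ m ih =>
      intro h
      have h1 := ih (by omega)
      have h2 := hd (m + 2) (by omega)
      have h3 : a (m + 2) = 2 * a (m + 1) + 1 + (if a m + 2 + c (m + 1) = c m then 1 else 0) := rfl
      have h4 := hpow (m + 1)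
      have h5 := hε m (by omega)
      have e1 : 2 ^ (m + 1 + 2) = 2 * 2 ^ (m + 2) := by ring
      have e2 : 2 ^ (m + 2) = 2 * 2 ^ (m + 1) := by ring
      rw [show m + 1 + 1 = m + 2 by omega, show m + 1 + 2 = m + 3 by omega] at *
      have e1' : 2 ^ (m + 3) = 2 * 2 ^ (m + 2) := by ring
      rw [e1']
      rw [h3] at h2
      generalize (if a m + 2 + c (m + 1) = c m then 1 else 0) = E at *
      omega
  rcases k with _ | _ | k
  · simp only [pow_zero, mul_zero]
    omega
  · have h0 : c 0 = c 1 + a 0 + 2 + d 0 := hd 0 (by omega)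
    have a0 : a 0 = 0 := rfl
    show 2 ^ 1 + 2 * 1 + c 1 ≤ c 0 + 3
    norm_num
    omega
  · have h1 := claim k (by omega)
    show 2 ^ (k + 2) + 2 * (k + 2) + c (k + 2) ≤ c 0 + 3
    omega

/-- Let P be a finite p-group of order p^n whose derived length is exactly k + 1 (the k-th derived subgroup is nontrivial and the (k+1)-st is trivial). Then n ≥ 2^k + 2k − 2. -/
theorem result {P : Type*} [Group P] [Finite P] (p : ℕ) [Fact p.Prime] (n k : ℕ) (hcard : Nat.card P = p ^ n) (hk : derivedSeries P k ≠ ⊥) (hk' : derivedSeries P (k + 1) = ⊥) : 2 ^ k + 2 * k ≤ n + 2 := by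
  have hpp := (Fact.out : p.Prime)
  have hG : IsPGroup p P := IsPGroup.of_card hcard
  let c : ℕ → ℕ := fun i => Nat.log p (Nat.card (derivedSeries P i))
  have hc : ∀ i, Nat.card (derivedSeries P i) = p ^ c i := by
    intro i
    obtain ⟨m, hm⟩ := IsPGroup.iff_card.1 (hG.to_subgroup (derivedSeries P i))
    simp only [c]
    rw [hm, Nat.log_pow hpp.one_lt]
  have hc0 : c 0 = n := by
    have h1 := hc 0
    rw [show derivedSeries P 0 = ⊤ from rfl, Subgroup.card_top, hcard] at h1
    exact (Nat.pow_right_injective hpp.two_le h1).symm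
  haveI hDn : ∀ i, (derivedSeries P i).Normal := derivedSeries_normal P
  have hDle : ∀ i, derivedSeries P i ≤ (⊤ : Subgroup P).lowerCentralSeries (seq c i) ∧
      derivedSeries P (i + 1) ≤ (⊤ : Subgroup P).lowerCentralSeries (seq c (i + 1)) := by
    intro i
    induction i with
    | zero =>
      constructor
      · exact le_top
      · show derivedSeries P 1 ≤ (⊤ : Subgroup P).lowerCentralSeries 1
        rw [Subgroup.top_lowerCentralSeries_one]
        rfl
    | succ i ih =>
      refine ⟨ih.2, ?_⟩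
      obtain ⟨h1, h2⟩ := ih
      show derivedSeries P (i + 2) ≤ _
      rw [show derivedSeries P (i + 2) = ⁅derivedSeries P (i + 1), derivedSeries P (i + 1)⁆ from rfl]
      show _ ≤ (⊤ : Subgroup P).lowerCentralSeries (2 * seq c (i + 1) + 1 + (if seq c i + 2 + c (i + 1) = c i then 1 else 0))
      split_ifs with h
      · by_cases hbot : derivedSeries P (i + 1) = ⊥
        · rw [hbot]
          simp
        · have hne : ⁅derivedSeries P i, derivedSeries P i⁆ ≠ ⊥ := hbot
          obtain ⟨-, h3⟩ := K2 hG (derivedSeries P i) (seq c i) h1 hne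
          obtain ⟨w, hw, hgen⟩ := h3 (by
            show p ^ (seq c i + 2) * Nat.card (derivedSeries P (i + 1)) = _
            rw [hc, hc, ← pow_add, h])
          exact K3 (derivedSeries P (i + 1)) hw (seq c (i + 1)) h2 hgen
      · have h3 := Cfsg.Agent.Lib.HallPetrescu.lcs_comm (G := P) (seq c (i + 1)) (seq c (i + 1))
        rw [show seq c (i + 1) + seq c (i + 1) + 1 = 2 * seq c (i + 1) + 1 + 0 by omega] at h3
        exact (commutator_mono h2 h2).trans h3
  have hle : ∀ i < k, seq c i + 2 + c (i + 1) ≤ c i := by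
    intro i hi
    have hne : derivedSeries P (i + 1) ≠ ⊥ := by
      intro h
      apply hk
      rw [← le_bot_iff, ← h]
      exact derivedSeries_antitone P (by omega : i + 1 ≤ k)
    have hne' : ⁅derivedSeries P i, derivedSeries P i⁆ ≠ ⊥ := hne
    obtain ⟨h3, -⟩ := K2 hG (derivedSeries P i) (seq c i) (hDle i).1 hne'
    have h4 : p ^ (seq c i + 2) * Nat.card (derivedSeries P (i + 1)) ≤ Nat.card (derivedSeries P i) := h3
    rw [hc, hc, ← pow_add] at h4
    exact (Nat.pow_le_pow_iff_right hpp.one_lt).1 h4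
  have h5 := arith c k hle
  have h6 : 1 ≤ c k := by
    by_contra h
    have h7 : c k = 0 := by omega
    have h8 := hc k
    rw [h7, pow_zero] at h8
    exact hk (Subgroup.card_eq_one.1 h8)
  omega

end Cfsg.Agent.S4009
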