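import Mathlib
import Cfsg.Statements.S4010
import Cfsg.Agent.Lib.Frat

set_option autoImplicit false
set_option linter.unusedVariables false
set_option linter.style.haveILetI false
open Cfsg

namespace Cfsg.Agent.S4010

universe u v w

open Module
open scoped commutatorElement

section aux
variable {G : Type u} [Group G]

theorem derived_le_map (M : Subgroup G) (hM : commutator G ≤ M) (j : ℕ) :
    derivedSeries G (j + 1) ≤ (derivedSeries M j).map M.subtype := by
  induction j with
  | zero =>
    rw [derivedSeries_one, derivedSeries_zero, ← MonoidHom.range_eq_map, Subgroup.range_subtype]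
    exact hM
  | succ j ih =>
    rw [derivedSeries_succ G (j + 1), derivedSeries_succ M j, Subgroup.map_commutator]
    exact Subgroup.commutator_mono ih ih

end aux

section fixedvec
variable {F : Type w} [Field F] {p : ℕ} [hp : Fact p.Prime]
variable {P : Type u} [Group P] [Finite P] {V : Type v} [AddCommGroup V] [Module F V]

theorem exists_fixed (hc : (p : F) = 0) (hP : IsPGroup p P) (ρ : P →* End F V) [Nontrivial V] :
    ∃ v : V, v ≠ 0 ∧ ∀ g, ρ g v = v := by
  classical
  obtain ⟨v₀, hv₀⟩ := exists_ne (0 : V)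
  set S : Set V := Set.range (fun g : P => ρ g v₀) with hS
  set M := AddSubgroup.closure S with hMdef
  have hpt : ∀ v : V, p • v = 0 := by
    intro v
    rw [← Nat.cast_smul_eq_nsmul F, hc, zero_smul]
  have hSfin : S.Finite := Set.finite_range _
  haveI hfg : AddGroup.FG M := (AddGroup.fg_iff_addSubgroup_fg M).mpr
    ((AddSubgroup.fg_iff _).mpr ⟨S, rfl, hSfin⟩)
  haveI hfin : Finite M := by
    apply AddCommGroup.finite_of_fg_isAddTorsion
    intro x
    rw [isOfFinAddOrder_iff_nsmul_eq_zero]
    refine ⟨p, hp.out.pos, ?_⟩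
    apply Subtype.ext
    exact hpt _
  have hinv : ∀ g : P, ∀ m ∈ M, ρ g m ∈ M := by
    intro g m hm
    induction hm using AddSubgroup.closure_induction with
    | mem x hx =>
      obtain ⟨h, rfl⟩ := hx
      apply AddSubgroup.subset_closure
      refine ⟨g * h, ?_⟩
      simp [map_mul]
    | zero => simp [M.zero_mem]
    | add x y _ _ hx hy =>
      rw [map_add]
      exact M.add_mem hx hy
    | neg x _ hx =>
      rw [map_neg]
      exact M.neg_mem hx
  letI act : MulAction P M :=
    { smul := fun g m => ⟨ρ g m, hinv g m m.2⟩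
      one_smul := by
        intro m
        apply Subtype.ext
        show ρ 1 (m : V) = m
        simp
      mul_smul := by
        intro a b m
        apply Subtype.ext
        show ρ (a * b) (m : V) = ρ a (ρ b m)
        simp [map_mul] }
  have hv₀M : v₀ ∈ M := by
    apply AddSubgroup.subset_closure
    refine ⟨1, ?_⟩
    simp
  have hdvd : p ∣ Nat.card M := by
    have hord : addOrderOf (⟨v₀, hv₀M⟩ : M) = p := by
      apply addOrderOf_eq_prime
      · apply Subtype.ext
        exact hpt _
      · intro h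
        exact hv₀ (congrArg Subtype.val h)
    rw [← hord]
    exact addOrderOf_dvd_natCard _
  have hfix : (0 : M) ∈ MulAction.fixedPoints P M := by
    intro g
    apply Subtype.ext
    show ρ g (0 : V) = 0
    simp
  obtain ⟨b, hb, hb0⟩ := hP.exists_fixed_point_of_prime_dvd_card_of_fixed_point M hdvd hfix
  refine ⟨b, ?_, ?_⟩
  · intro h
    exact hb0 (Subtype.ext h.symm)
  · intro g
    exact congrArg Subtype.val (hb g)

end fixedvec

section unipotent
variable {F : Type w} [Field F] {p : ℕ} [hp : Fact p.Prime]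
variable {P : Type u} [Group P] [Finite P] {V : Type v} [AddCommGroup V] [Module F V]

/-- The upper fixed-point filtration. -/
def filt (ρ : P →* End F V) : ℕ → Submodule F V
  | 0 => ⊥
  | j + 1 =>
    { carrier := {v | ∀ g, ρ g v - v ∈ filt ρ j}
      add_mem' := by
        intro a b ha hb g
        have : ρ g (a + b) - (a + b) = (ρ g a - a) + (ρ g b - b) := by
          rw [map_add]; abel
        rw [this]
        exact (filt ρ j).add_mem (ha g) (hb g)
      zero_mem' := by
        intro g
        simp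
      smul_mem' := by
        intro c a ha g
        have : ρ g (c • a) - c • a = c • (ρ g a - a) := by
          rw [map_smul, smul_sub]
        rw [this]
        exact (filt ρ j).smul_mem c (ha g) }

omit [Finite P] in
theorem mem_filt_succ (ρ : P →* End F V) (j : ℕ) (v : V) :
    v ∈ filt ρ (j + 1) ↔ ∀ g, ρ g v - v ∈ filt ρ j := Iff.rfl

omit [Finite P] in
theorem filt_le_succ (ρ : P →* End F V) (j : ℕ) : filt ρ j ≤ filt ρ (j + 1) := by
  induction j with
  | zero =>
    intro v hv
    have hv0 : v = 0 := hv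
    subst hv0
    exact (filt ρ 1).zero_mem
  | succ j ih =>
    intro v hv g
    exact ih (hv g)

omit [Finite P] in
theorem filt_mono (ρ : P →* End F V) {i j : ℕ} (h : i ≤ j) : filt ρ i ≤ filt ρ j :=
  monotone_nat_of_le_succ (filt_le_succ ρ) h

omit [Finite P] in
theorem filt_inv (ρ : P →* End F V) (j : ℕ) (h : P) {v : V} (hv : v ∈ filt ρ j) :
    ρ h v ∈ filt ρ j := by
  cases j with
  | zero =>
    have hv0 : v = 0 := hv
    subst hv0
    simp [(filt ρ 0).zero_mem]
  | succ j =>
    intro g
    have e : ρ g (ρ h v) - ρ h v = (ρ (g * h) v - v) - (ρ h v - v) := by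
      rw [map_mul]
      simp only [Module.End.mul_apply]
      abel
    rw [e]
    exact (filt ρ j).sub_mem (hv _) (hv _)

theorem filt_lt (hc : (p : F) = 0) (hP : IsPGroup p P) (ρ : P →* End F V) (j : ℕ)
    (hj : filt ρ j ≠ ⊤) : filt ρ j < filt ρ (j + 1) := by
  classical
  refine lt_of_le_of_ne (filt_le_succ ρ j) ?_
  intro heq
  haveI : Nontrivial (V ⧸ filt ρ j) := Submodule.Quotient.nontrivial_iff.mpr hj
  let σ : P →* End F (V ⧸ filt ρ j) :=
    { toFun := fun g => (filt ρ j).mapQ (filt ρ j) (ρ g) (fun v hv => filt_inv ρ j g hv)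
      map_one' := by
        apply Submodule.linearMap_qext
        ext v
        simp
      map_mul' := by
        intro a b
        apply Submodule.linearMap_qext
        ext v
        simp }
  obtain ⟨v, hv, hfix⟩ := exists_fixed hc hP σ
  obtain ⟨w, rfl⟩ := Submodule.Quotient.mk_surjective _ v
  have hw : w ∈ filt ρ (j + 1) := by
    intro g
    have := hfix g
    have h2 : Submodule.Quotient.mk (p := filt ρ j) (ρ g w) = Submodule.Quotient.mk w := this
    exact (Submodule.Quotient.eq _).mp h2
  rw [← heq] at hw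
  exact hv ((Submodule.Quotient.mk_eq_zero _).mpr hw)

theorem filt_top [FiniteDimensional F V] (hc : (p : F) = 0) (hP : IsPGroup p P) (ρ : P →* End F V) :
    filt ρ (finrank F V) = ⊤ := by
  have key : ∀ j, filt ρ j = ⊤ ∨ j ≤ finrank F (filt ρ j) := by
    intro j
    induction j with
    | zero => right; omega
    | succ j ih =>
      by_cases h : filt ρ (j + 1) = ⊤
      · left; exact h
      · right
        have hj : filt ρ j ≠ ⊤ := by
          intro htop
          apply h
          rw [eq_top_iff, ← htop]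
          exact filt_le_succ ρ j
        have h1 := ih.resolve_left hj
        have h2 := Submodule.finrank_lt_finrank_of_lt (filt_lt hc hP ρ j hj)
        omega
  rcases key (finrank F V) with h | h
  · exact h
  · exact Submodule.eq_top_of_finrank_eq (le_antisymm (Submodule.finrank_le _) h)

/-- Elements moving the filtration by at least `a` steps. -/
def levelSub (ρ : P →* End F V) (a : ℕ) : Subgroup P where
  carrier := {g | ∀ j, ∀ v ∈ filt ρ (j + a), ρ g v - v ∈ filt ρ j}
  mul_mem' := by
    intro g h hg hh j v hv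
    have e : ρ (g * h) v - v = ρ g (ρ h v - v) + (ρ g v - v) := by
      rw [map_mul]
      simp only [Module.End.mul_apply, map_sub]
      abel
    rw [e]
    exact (filt ρ j).add_mem (filt_inv ρ j g (hh j v hv)) (hg j v hv)
  one_mem' := by
    intro j v _
    simp [(filt ρ j).zero_mem]
  inv_mem' := by
    intro g hg j v hv
    have e : ρ g⁻¹ v - v = - ρ g⁻¹ (ρ g v - v) := by
      have h1 : ρ g⁻¹ (ρ g v) = v := by
        rw [← Module.End.mul_apply, ← map_mul]
        simp
      rw [map_sub, h1]
      abel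
    rw [e]
    exact (filt ρ j).neg_mem (filt_inv ρ j g⁻¹ (hg j v hv))

omit [Finite P] in
theorem commutator_mem_level (ρ : P →* End F V) (a : ℕ) {g h : P} (hg : g ∈ levelSub ρ a)
    (hh : h ∈ levelSub ρ a) : ⁅g, h⁆ ∈ levelSub ρ (2 * a) := by
  intro j v hv
  set w := ρ (g⁻¹ * h⁻¹) v with hw
  have hwm : w ∈ filt ρ (j + a + a) := by
    have : j + 2 * a = j + a + a := by ring
    rw [this] at hv
    exact filt_inv ρ _ _ hv
  have hv1 : v = ρ h (ρ g w) := by
    rw [hw, ← Module.End.mul_apply, ← Module.End.mul_apply, ← map_mul, ← map_mul]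
    simp
  have hv2 : ρ ⁅g, h⁆ v = ρ g (ρ h w) := by
    rw [hw, ← Module.End.mul_apply, ← Module.End.mul_apply, ← map_mul, ← map_mul, commutatorElement_def]
    congr 2
    group
  have e : ρ ⁅g, h⁆ v - v =
      (ρ g (ρ h w - w) - (ρ h w - w)) - (ρ h (ρ g w - w) - (ρ g w - w)) := by
    rw [hv2]
    have e2 : ρ g (ρ h w) - v = ρ g (ρ h w) - ρ h (ρ g w) := by rw [← hv1]
    rw [e2]
    simp only [map_sub]
    abel
  rw [e]
  have h1 : ρ h w - w ∈ filt ρ (j + a) := hh (j + a) w hwm
  have h2 : ρ g w - w ∈ filt ρ (j + a) := hg (j + a) w hwm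
  exact (filt ρ j).sub_mem (hg j _ h1) (hh j _ h2)

omit [Finite P] in
theorem derived_le_level (ρ : P →* End F V) (i : ℕ) :
    derivedSeries P i ≤ levelSub ρ (2 ^ i) := by
  induction i with
  | zero =>
    intro g _ j v hv
    exact hv g
  | succ i ih =>
    rw [derivedSeries_succ, Subgroup.commutator_le]
    intro g hg h hh
    have := commutator_mem_level ρ (2 ^ i) (ih hg) (ih hh)
    rwa [← pow_succ'] at this

theorem char_case [FiniteDimensional F V] (hc : (p : F) = 0) (hP : IsPGroup p P) (ρ : P →* End F V)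
    (i : ℕ) (hi : finrank F V ≤ 2 ^ i) : ∀ g ∈ derivedSeries P i, ρ g = 1 := by
  intro g hg
  ext v
  have h1 : v ∈ filt ρ (0 + 2 ^ i) := by
    have : filt ρ (finrank F V) ≤ filt ρ (0 + 2 ^ i) := filt_mono ρ (by omega)
    apply this
    rw [filt_top hc hP ρ]
    trivial
  have h2 := derived_le_level ρ i hg 0 v h1
  have h3 : ρ g v - v = 0 := h2
  simpa [sub_eq_zero] using h3

end unipotent

section coprime
variable {F : Type w} [Field F] {p : ℕ} [hp : Fact p.Prime]

/-- The representation on an invariant subspace. -/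
def restrictRep {Q : Type u} [Group Q] {V : Type v} [AddCommGroup V] [Module F V]
    (σ : Q →* End F V) (W : Submodule F V) (hW : ∀ q, ∀ w ∈ W, σ q w ∈ W) : Q →* End F W where
  toFun q := (σ q).restrict (hW q)
  map_one' := by
    ext w
    simp
  map_mul' := by
    intro a b
    ext w
    simp

omit hp in
theorem restrictRep_apply {Q : Type u} [Group Q] {V : Type v} [AddCommGroup V] [Module F V]
    (σ : Q →* End F V) (W : Submodule F V) (hW : ∀ q, ∀ w ∈ W, σ q w ∈ W) (q : Q) (w : W) :
    ((restrictRep σ W hW q) w : V) = σ q w := rfl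

/-- Maschke's theorem. -/
theorem maschke {P : Type u} [Group P] [Finite P] {V : Type v} [AddCommGroup V] [Module F V]
    (hc : ((Nat.card P : ℕ) : F) ≠ 0) (ρ : P →* End F V) (U : Submodule F V)
    (hU : ∀ g, ∀ u ∈ U, ρ g u ∈ U) :
    ∃ U' : Submodule F V, (∀ g, ∀ u ∈ U', ρ g u ∈ U') ∧ U ⊔ U' = ⊤ ∧ U ⊓ U' = ⊥ := by
  classical
  haveI := Fintype.ofFinite P
  obtain ⟨C, hC⟩ := Submodule.exists_isCompl U
  let π₀ : V →ₗ[F] V := U.subtype.comp (U.projectionOnto C hC)
  have hπ₀U : ∀ u ∈ U, π₀ u = u := by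
    intro u hu
    exact congrArg Subtype.val (Submodule.projectionOnto_apply_left hC ⟨u, hu⟩)
  have hπ₀im : ∀ v, π₀ v ∈ U := fun v => (U.projectionOnto C hC v).2
  set n : F := ((Nat.card P : ℕ) : F) with hn
  let A : V →ₗ[F] V := n⁻¹ • ∑ g : P, (ρ g) ∘ₗ π₀ ∘ₗ (ρ g⁻¹)
  have hAapp : ∀ v, A v = n⁻¹ • ∑ g : P, ρ g (π₀ (ρ g⁻¹ v)) := by
    intro v
    simp [A, LinearMap.sum_apply]
  have hAim : ∀ v, A v ∈ U := by
    intro v
    rw [hAapp]
    apply U.smul_mem
    apply U.sum_mem
    intro g _
    exact hU g _ (hπ₀im _)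
  have hAU : ∀ u ∈ U, A u = u := by
    intro u hu
    rw [hAapp]
    have : ∀ g : P, ρ g (π₀ (ρ g⁻¹ u)) = u := by
      intro g
      rw [hπ₀U _ (hU _ _ hu), ← Module.End.mul_apply, ← map_mul]
      simp
    simp only [this, Finset.sum_const, Finset.card_univ]
    rw [← Nat.cast_smul_eq_nsmul F, ← Nat.card_eq_fintype_card, smul_smul, inv_mul_cancel₀ hc, one_smul]
  have hAeq : ∀ h : P, ∀ v, A (ρ h v) = ρ h (A v) := by
    intro h v
    rw [hAapp, hAapp, map_smul, map_sum]
    congr 1
    refine Fintype.sum_equiv (Equiv.mulLeft h⁻¹) _ _ ?_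
    intro g
    simp only [Equiv.coe_mulLeft]
    have e1 : ρ (h⁻¹ * g)⁻¹ = ρ g⁻¹ * ρ h := by
      rw [← map_mul]; congr 1; group
    have e2 : ρ h * ρ (h⁻¹ * g) = ρ g := by
      rw [← map_mul]; congr 1; group
    rw [← Module.End.mul_apply (ρ h), e2, e1]
    rfl
  refine ⟨LinearMap.ker A, ?_, ?_, ?_⟩
  · intro g u hu
    rw [LinearMap.mem_ker] at hu ⊢
    rw [hAeq, hu, map_zero]
  · rw [eq_top_iff]
    intro v _
    have h1 : v - A v ∈ LinearMap.ker A := by
      rw [LinearMap.mem_ker, map_sub, hAU _ (hAim v), sub_self]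
    have h2 : v = A v + (v - A v) := by abel
    rw [h2]
    exact Submodule.add_mem_sup (hAim v) h1
  · rw [eq_bot_iff]
    rintro v ⟨hv1, hv2⟩
    have h1 := hAU v hv1
    rw [LinearMap.mem_ker.mp hv2] at h1
    exact h1.symm

/-- Schur's lemma. -/
theorem schur [IsAlgClosed F] {Q : Type u} [Group Q] {V : Type v} [AddCommGroup V] [Module F V]
    [FiniteDimensional F V] [Nontrivial V] (ρ : Q →* End F V)
    (hirr : ∀ U : Submodule F V, (∀ g, ∀ u ∈ U, ρ g u ∈ U) → U = ⊥ ∨ U = ⊤)
    (A : End F V) (hA : ∀ g, A * ρ g = ρ g * A) : ∃ c : F, A = c • 1 := by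
  obtain ⟨c, hc⟩ := Module.End.exists_eigenvalue A
  refine ⟨c, ?_⟩
  have hE : Module.End.eigenspace A c ≠ ⊥ := hc
  have hinv : ∀ g, ∀ u ∈ Module.End.eigenspace A c, ρ g u ∈ Module.End.eigenspace A c := by
    intro g u hu
    rw [Module.End.mem_eigenspace_iff] at hu ⊢
    rw [← Module.End.mul_apply, hA, Module.End.mul_apply, hu, map_smul]
  have htop := (hirr _ hinv).resolve_left hE
  ext v
  have hv : v ∈ Module.End.eigenspace A c := by rw [htop]; trivial
  rw [Module.End.mem_eigenspace_iff] at hv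
  simp [hv]

/-- The main induction, for coprime characteristic over an algebraically closed field. -/
theorem main_coprime [IsAlgClosed F] (hc : (p : F) ≠ 0) (d : ℕ) :
    ∀ {P : Type u} [Group P] [Finite P] (hP : IsPGroup p P) {V : Type v} [AddCommGroup V]
      [Module F V] [FiniteDimensional F V] (ρ : P →* End F V), finrank F V = d →
        ∀ g ∈ derivedSeries P (Nat.log 2 d + 1), ρ g = 1 := by
  classical
  induction d using Nat.strong_induction_on with
  | _ d IH =>
  intro P _ _ hP V _ _ _ ρ hd g hg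
  by_cases hd0 : d = 0
  · subst hd0
    haveI : Subsingleton V := Module.finrank_zero_iff.mp hd
    ext v
    exact Subsingleton.elim _ _
  haveI hnt : Nontrivial V := by
    apply Module.nontrivial_of_finrank_pos (R := F)
    omega
  have hcardP : ((Nat.card P : ℕ) : F) ≠ 0 := by
    obtain ⟨k, hk⟩ := IsPGroup.iff_card.mp hP
    rw [hk, Nat.cast_pow]
    exact pow_ne_zero _ hc
  -- a vector fixed by `g` on every piece of a decomposition
  have hinvU : ρ g * ρ g⁻¹ = 1 := by rw [← map_mul]; simp
  by_cases hirr : ∀ U : Submodule F V, (∀ g, ∀ u ∈ U, ρ g u ∈ U) → U = ⊥ ∨ U = ⊤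
  swap
  · -- reducible case
    push Not at hirr
    obtain ⟨U, hU, hU0, hU1⟩ := hirr
    obtain ⟨U', hU', hsup, hinf⟩ := maschke hcardP ρ U hU
    have hU'0 : U' ≠ ⊤ := by
      rintro rfl
      apply hU0
      simpa using hinf
    have h1 : finrank F U < d := hd ▸ Submodule.finrank_lt hU1
    have h2 : finrank F U' < d := hd ▸ Submodule.finrank_lt hU'0
    have hgU := IH _ h1 hP (restrictRep ρ U hU) rfl g (derivedSeries_antitone P
      (Nat.succ_le_succ (Nat.log_mono_right (hd ▸ Submodule.finrank_le U))) hg)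
    have hgU' := IH _ h2 hP (restrictRep ρ U' hU') rfl g (derivedSeries_antitone P
      (Nat.succ_le_succ (Nat.log_mono_right (hd ▸ Submodule.finrank_le U'))) hg)
    ext v
    have hv : v ∈ U ⊔ U' := by rw [hsup]; trivial
    obtain ⟨a, ha, b, hb, rfl⟩ := Submodule.mem_sup.mp hv
    have e1 : ρ g a = a := by
      have := congrArg (fun f : End F U => ((f ⟨a, ha⟩ : U) : V)) hgU
      exact this
    have e2 : ρ g b = b := by
      have := congrArg (fun f : End F U' => ((f ⟨b, hb⟩ : U') : V)) hgU'
      exact this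
    rw [map_add, e1, e2]
    rfl
  -- irreducible case
  have hne : ∀ y : P, ρ y ≠ 0 := by
    intro y hy
    have h1 : ρ y * ρ y⁻¹ = 1 := by rw [← map_mul]; simp
    rw [hy, zero_mul] at h1
    exact zero_ne_one h1
  by_cases hab : ∀ a b : P, ρ a * ρ b = ρ b * ρ a
  · -- abelian image
    have hK : commutator P ≤ (ρ.toHomUnits).ker := by
      rw [commutator_def, Subgroup.commutator_le]
      intro a _ b _
      rw [MonoidHom.mem_ker]
      apply Units.ext
      show ρ ⁅a, b⁆ = 1
      have e1 : ⁅a, b⁆ = (a * b) * (a⁻¹ * b⁻¹) := by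
        rw [commutatorElement_def]; group
      have e2 : (b * a) * (a⁻¹ * b⁻¹) = 1 := by group
      have e3 : ρ (a * b) = ρ (b * a) := by rw [map_mul, map_mul, hab a b]
      rw [e1, map_mul, e3, ← map_mul, e2, map_one]
    have hg1 : g ∈ derivedSeries P 1 := derivedSeries_antitone P (by omega) hg
    rw [derivedSeries_one] at hg1
    have h3 := hK hg1
    rw [MonoidHom.mem_ker] at h3
    exact congrArg Units.val h3
  -- non-abelian image
  push Not at hab
  obtain ⟨a₀, b₀, hab₀⟩ := hab
  have hnil : Group.IsNilpotent P := hP.isNilpotent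
  obtain ⟨c, hcZ⟩ := hnil.nilpotent
  have hex : ∃ i, ∃ x ∈ Subgroup.upperCentralSeries P i, ∃ h, ρ x * ρ h ≠ ρ h * ρ x :=
    ⟨c, a₀, by rw [hcZ]; trivial, b₀, hab₀⟩
  have hi0 : Nat.find hex ≠ 0 := by
    intro h0
    obtain ⟨x, hx, h, hh⟩ := Nat.find_spec hex
    rw [h0, Subgroup.upperCentralSeries_zero, Subgroup.mem_bot] at hx
    subst hx
    simp at hh
  obtain ⟨i', hi'⟩ := Nat.exists_eq_succ_of_ne_zero hi0
  obtain ⟨x, hx, g₀, hg₀⟩ := Nat.find_spec hex
  rw [hi'] at hx
  have hmin' : ∀ z ∈ Subgroup.upperCentralSeries P i', ∀ h, ρ z * ρ h = ρ h * ρ z := by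
    intro z hz h
    by_contra hcon
    have := Nat.find_min' hex ⟨z, hz, h, hcon⟩
    omega
  set T : End F V := ρ x with hT
  -- conjugation multiplies `T` by a scalar
  have hscal : ∀ h : P, ∃ m : F, T * ρ h = m • (ρ h * T) := by
    intro h
    have hz := (Subgroup.mem_upperCentralSeries_succ_iff (n := i') (x := x)).mp hx h
    obtain ⟨m, hm⟩ := schur ρ hirr (ρ (x * h * x⁻¹ * h⁻¹)) (fun a => hmin' _ hz a)
    refine ⟨m, ?_⟩
    have e1 : x * h = (x * h * x⁻¹ * h⁻¹) * (h * x) := by group
    have e2 : T * ρ h = ρ (x * h) := by rw [map_mul]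
    have e3 : ρ h * T = ρ (h * x) := by rw [map_mul]
    rw [e2, e3, e1, map_mul, hm, smul_mul_assoc, one_mul]
  choose μ hμ using hscal
  have hTh : ∀ h : P, ρ h * T ≠ 0 := by
    intro h
    rw [hT, ← map_mul]
    exact hne _
  have hμmul : ∀ a b : P, μ (a * b) = μ a * μ b := by
    intro a b
    have h1 := hμ (a * b)
    have h2 : T * ρ (a * b) = (μ a * μ b) • (ρ (a * b) * T) := by
      rw [map_mul, ← mul_assoc, hμ a, smul_mul_assoc, mul_assoc, hμ b, mul_smul_comm, smul_smul,
        mul_assoc]
    rw [h1] at h2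
    exact smul_left_injective F (hTh (a * b)) h2
  have hμone : μ 1 = 1 := by
    have h1 := hμ 1
    rw [map_one, mul_one, one_mul] at h1
    have hT0 : T ≠ 0 := hne x
    have h2 : (1 : F) • T = μ 1 • T := by rw [one_smul]; exact h1
    exact (smul_left_injective F hT0 h2).symm
  have hμinv : ∀ a : P, μ a * μ a⁻¹ = 1 := by
    intro a
    rw [← hμmul, mul_inv_cancel, hμone]
  let M : Subgroup P :=
    { carrier := {a | μ a = 1}
      mul_mem' := by
        intro a b ha hb
        show μ (a * b) = 1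
        rw [hμmul, ha, hb, one_mul]
      one_mem' := hμone
      inv_mem' := by
        intro a ha
        show μ a⁻¹ = 1
        have := hμinv a
        rwa [show μ a = 1 from ha, one_mul] at this }
  have hMmem : ∀ a, a ∈ M ↔ μ a = 1 := fun a => Iff.rfl
  have hMc : commutator P ≤ M := by
    rw [commutator_def, Subgroup.commutator_le]
    intro a _ b _
    rw [hMmem, commutatorElement_def, hμmul, hμmul, hμmul]
    have h1 := hμinv a
    have h2 := hμinv b
    calc μ a * μ b * μ a⁻¹ * μ b⁻¹ = (μ a * μ a⁻¹) * (μ b * μ b⁻¹) := by ring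
      _ = 1 := by rw [h1, h2, one_mul]
  haveI hMn : M.Normal := Cfsg.Agent.Lib.Frat.normal_of_commutator_le hMc
  have hMcomm : ∀ m ∈ M, T * ρ m = ρ m * T := by
    intro m hm
    rw [hμ m, (hMmem m).mp hm, one_smul]
  -- a proper `M`-invariant eigenspace
  obtain ⟨lam, hlam⟩ := Module.End.exists_eigenvalue T
  set E := Module.End.eigenspace T lam with hE
  have hE0 : E ≠ ⊥ := hlam
  have hEinv : ∀ m ∈ M, ∀ w ∈ E, ρ m w ∈ E := by
    intro m hm w hw
    rw [hE, Module.End.mem_eigenspace_iff] at hw ⊢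
    rw [← Module.End.mul_apply, hMcomm m hm, Module.End.mul_apply, hw, map_smul]
  have hEtop : E ≠ ⊤ := by
    intro htop
    apply hg₀
    ext v
    have h1 : ∀ w, T w = lam • w := by
      intro w
      have : w ∈ E := by rw [htop]; trivial
      rwa [hE, Module.End.mem_eigenspace_iff] at this
    show T (ρ g₀ v) = ρ g₀ (T v)
    rw [h1, h1, map_smul]
  -- a minimal `M`-invariant subspace
  have hexW : ∃ n, ∃ W : Submodule F V, (∀ m ∈ M, ∀ w ∈ W, ρ m w ∈ W) ∧ W ≠ ⊥ ∧ finrank F W = n :=
    ⟨_, E, hEinv, hE0, rfl⟩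
  obtain ⟨W, hWinv, hW0, hWn⟩ := Nat.find_spec hexW
  have hWmin : ∀ W' : Submodule F V, (∀ m ∈ M, ∀ w ∈ W', ρ m w ∈ W') → W' ≠ ⊥ →
      finrank F W ≤ finrank F W' := by
    intro W' h1 h2
    rw [hWn]
    exact Nat.find_min' hexW ⟨W', h1, h2, rfl⟩
  have hWlt : finrank F W < d := by
    have h1 := hWmin E hEinv hE0
    have h2 : finrank F E < d := hd ▸ Submodule.finrank_lt hEtop
    omega
  have hWtop : W ≠ ⊤ := by
    rintro rfl
    rw [finrank_top] at hWlt
    omega
  have hWpos : 1 ≤ finrank F W := Submodule.one_le_finrank_iff.mpr hW0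
  -- conjugates of `W`
  let Wc : P → Submodule F V := fun a => W.map (ρ a : V →ₗ[F] V)
  have hWcmem : ∀ a, ∀ w ∈ W, ρ a w ∈ Wc a := fun a w hw => Submodule.mem_map_of_mem hw
  have hWcinv : ∀ a, ∀ m ∈ M, ∀ y ∈ Wc a, ρ m y ∈ Wc a := by
    intro a m hm y hy
    obtain ⟨w, hw, rfl⟩ := Submodule.mem_map.mp hy
    have hm' : a⁻¹ * m * a ∈ M := by
      have := hMn.conj_mem m hm a⁻¹
      simpa using this
    have e : ρ m (ρ a w) = ρ a (ρ (a⁻¹ * m * a) w) := by
      rw [← Module.End.mul_apply, ← Module.End.mul_apply, ← map_mul, ← map_mul]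
      congr 2
      group
    show ρ m (ρ a w) ∈ Wc a
    rw [e]
    exact hWcmem a _ (hWinv _ hm' w hw)
  have hWcdim : ∀ a, finrank F (Wc a) = finrank F W := by
    intro a
    apply le_antisymm
    · exact Submodule.finrank_map_le _ _
    · have e : W = (Wc a).map (ρ a⁻¹ : V →ₗ[F] V) := by
        ext w
        constructor
        · intro hw
          refine Submodule.mem_map.mpr ⟨ρ a w, hWcmem a w hw, ?_⟩
          show ρ a⁻¹ (ρ a w) = w
          rw [← Module.End.mul_apply, ← map_mul]
          simp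
        · intro hw
          obtain ⟨y, hy, rfl⟩ := Submodule.mem_map.mp hw
          obtain ⟨v, hv, rfl⟩ := Submodule.mem_map.mp hy
          show ρ a⁻¹ (ρ a v) ∈ W
          rw [← Module.End.mul_apply, ← map_mul]
          simpa using hv
      calc finrank F W = finrank F ((Wc a).map (ρ a⁻¹ : V →ₗ[F] V)) := by rw [← e]
        _ ≤ _ := Submodule.finrank_map_le _ _
  -- some conjugate differs from `W`
  obtain ⟨g₁, hg₁⟩ : ∃ a, Wc a ≠ W := by
    by_contra hcon
    push Not at hcon
    have hWP : ∀ a, ∀ w ∈ W, ρ a w ∈ W := by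
      intro a w hw
      rw [← hcon a]
      exact hWcmem a w hw
    exact (hirr W hWP).elim hW0 hWtop
  have hdisj : W ⊓ Wc g₁ = ⊥ := by
    by_contra hcon
    have h1 := hWmin (W ⊓ Wc g₁) (by
      intro m hm w hw
      exact ⟨hWinv m hm w hw.1, hWcinv g₁ m hm w hw.2⟩) hcon
    have h2 : W ⊓ Wc g₁ = W := Submodule.eq_of_le_of_finrank_le inf_le_left h1
    have h3 : W ≤ Wc g₁ := inf_eq_left.mp h2
    have h4 : W = Wc g₁ := Submodule.eq_of_le_of_finrank_le h3 (by rw [hWcdim])
    exact hg₁ h4.symm
  have h2e : 2 * finrank F W ≤ d := by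
    have h1 := Submodule.finrank_add_finrank_le_of_disjoint (disjoint_iff.mpr hdisj)
    rw [hWcdim, hd] at h1
    omega
  have hlog : Nat.log 2 (finrank F W) + 1 ≤ Nat.log 2 d := by
    have h1 := Nat.log_mono_right (b := 2) h2e
    rw [mul_comm, Nat.log_mul_base (by norm_num) (by omega)] at h1
    exact h1
  -- the conjugates span
  have hS : (⨆ a, Wc a) = ⊤ := by
    have hinv : ∀ h, ∀ u ∈ (⨆ a, Wc a), ρ h u ∈ (⨆ a, Wc a) := by
      intro h u hu
      have hle : (⨆ a, Wc a) ≤ (⨆ a, Wc a).comap (ρ h : V →ₗ[F] V) := by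
        apply iSup_le
        intro a y hy
        obtain ⟨w, hw, rfl⟩ := Submodule.mem_map.mp hy
        rw [Submodule.mem_comap]
        show ρ h (ρ a w) ∈ _
        rw [← Module.End.mul_apply, ← map_mul]
        exact Submodule.mem_iSup_of_mem (h * a) (hWcmem _ w hw)
      exact hle hu
    refine (hirr _ hinv).resolve_left ?_
    intro hbot
    apply hW0
    rw [eq_bot_iff, ← hbot]
    intro w hw
    refine Submodule.mem_iSup_of_mem 1 ?_
    have := hWcmem 1 w hw
    simpa using this
  -- conclusion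
  obtain ⟨m, hm, rfl⟩ := Subgroup.mem_map.mp (derived_le_map M hMc _ hg)
  have hact : ∀ a, ∀ y ∈ Wc a, ρ m y = y := by
    intro a y hy
    have hrk : finrank F (Wc a) < d := by rw [hWcdim]; exact hWlt
    have hm2 : m ∈ derivedSeries M (Nat.log 2 (finrank F (Wc a)) + 1) := by
      apply derivedSeries_antitone M _ hm
      rw [hWcdim]
      exact hlog
    have hres := IH _ hrk (hP.to_subgroup M) (V := Wc a)
      (restrictRep (ρ.comp M.subtype) (Wc a) (fun q w hw => hWcinv a q q.2 w hw)) rfl m hm2
    have := congrArg (fun f : End F (Wc a) => ((f ⟨y, hy⟩ : Wc a) : V)) hres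
    exact this
  have hfix : (⨆ a, Wc a) ≤ LinearMap.ker ((ρ m : End F V) - 1) := by
    apply iSup_le
    intro a y hy
    rw [LinearMap.mem_ker, LinearMap.sub_apply, hact a y hy]
    simp
  rw [hS] at hfix
  ext v
  have hv : v ∈ LinearMap.ker ((ρ m : End F V) - 1) := hfix trivial
  rw [LinearMap.mem_ker, LinearMap.sub_apply, sub_eq_zero] at hv
  exact hv

end coprime

/-- Let F be a field, n ≥ 1, and P a finite p-group (p a prime) admitting an injective homomorphism into the general linear group of degree n over F. Then the derived length of P is at most ⌊log₂ n⌋ + 1: that term of the derived series of P is trivial. -/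
theorem result {P : Type*} [Group P] [Finite P] (p : ℕ) [Fact p.Prime] (hP : IsPGroup p P) (F : Type*) [Field F] (n : ℕ) (hn : 1 ≤ n) (ρ : P →* Matrix.GeneralLinearGroup (Fin n) F) (hρ : Function.Injective ρ) : derivedSeries P (Nat.log 2 n + 1) = ⊥ := by
  classical
  let K := AlgebraicClosure F
  let σ : P →* End K (Fin n → K) :=
    ((Matrix.toLinAlgEquiv' (R := K) (n := Fin n)).toRingEquiv.toMonoidHom).comp
      (((algebraMap F K).mapMatrix (m := Fin n)).toMonoidHom.comp ((Units.coeHom _).comp ρ))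
  have hσ : ∀ g, σ g = 1 → g = 1 := by
    intro g hg
    apply hρ
    rw [map_one]
    apply Units.ext
    have h1 : (algebraMap F K).mapMatrix (ρ g : Matrix (Fin n) (Fin n) F) = 1 := by
      apply (Matrix.toLinAlgEquiv' (R := K) (n := Fin n)).injective
      rw [map_one]
      exact hg
    have hinj : Function.Injective ((algebraMap F K).mapMatrix (m := Fin n)) :=
      Matrix.map_injective (algebraMap F K).injective
    apply hinj
    rw [h1]
    simp
  have hdim : finrank K (Fin n → K) = n := by simp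
  have hall : ∀ g ∈ derivedSeries P (Nat.log 2 n + 1), σ g = 1 := by
    by_cases hc : (p : K) = 0
    · apply char_case hc hP σ
      rw [hdim]
      exact (Nat.lt_pow_succ_log_self (by norm_num) n).le
    · intro g hg
      exact main_coprime hc _ hP σ hdim g hg
  rw [eq_bot_iff]
  intro g hg
  exact hσ g (hall g hg)

end Cfsg.Agent.S4010
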