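import Mathlib
import Cfsg.Statements.S4013

set_option autoImplicit false
open Cfsg

namespace Cfsg.Agent.S4013

/-- Let G be a finite p-group (p prime) and N < M normal subgroups of G such that for some g ∈ M ∖ N the conjugacy class of g is exactly M ∖ N. Then p = 2 and N has index 2 in M. -/
theorem result {G : Type*} [Group G] [Finite G] (p : ℕ) [Fact p.Prime] (hG : IsPGroup p G) (N M : Subgroup G) [N.Normal] [M.Normal] (hNM : N < M) (g : G) (hgM : g ∈ M) (hgN : g ∉ N) (hcl : {h : G | IsConj g h} = (M : Set G) \ (N : Set G)) : p = 2 ∧ N.relIndex M = 2 := by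
  classical
  have := Fintype.ofFinite G
  have hp : p.Prime := Fact.out
  have hNle : N ≤ M := hNM.le
  -- the class size divides |G|
  have hdvd : Nat.card {h : G | IsConj g h} ∣ Nat.card G := by
    have h2 : (MulAction.orbit (ConjAct G) g : Set G) = {h : G | IsConj g h} := by
      ext h
      simp only [ConjAct.mem_orbit_conjAct, isConj_comm]
      rfl
    have h3 : Nat.card (MulAction.orbit (ConjAct G) g) * Nat.card (MulAction.stabilizer (ConjAct G) g) = Nat.card (ConjAct G) := by
      have := Fintype.ofFinite (MulAction.orbit (ConjAct G) g)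
      have := Fintype.ofFinite (MulAction.stabilizer (ConjAct G) g)
      have : Fintype (ConjAct G) := inferInstanceAs (Fintype G)
      have horb := MulAction.card_orbit_mul_card_stabilizer_eq_card_group (ConjAct G) g
      simpa [Nat.card_eq_fintype_card] using horb
    have h4 : Nat.card {h : G | IsConj g h} = Nat.card (MulAction.orbit (ConjAct G) g) := by
      rw [← h2]
    rw [h4]
    have h5 : Nat.card (ConjAct G) = Nat.card G := rfl
    rw [← h5]
    exact Dvd.intro _ h3
  -- sizes
  have hcard : Nat.card {h : G | IsConj g h} = Nat.card M - Nat.card N := by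
    rw [hcl]
    have : Nat.card ((M : Set G) \ (N : Set G) : Set G) = Set.ncard ((M : Set G) \ (N : Set G)) := rfl
    rw [this, Set.ncard_sdiff (SetLike.coe_subset_coe.mpr hNle) (Set.toFinite _)]
    rfl
  have hrel : Nat.card N * N.relIndex M = Nat.card M := by
    have := Subgroup.card_mul_index (N.subgroupOf M)
    have h1 : Nat.card (N.subgroupOf M) = Nat.card N :=
      Nat.card_congr (Subgroup.subgroupOfEquivOfLe hNle).toEquiv
    rw [h1] at this
    exact this
  -- p-power facts
  obtain ⟨a, ha⟩ := (IsPGroup.iff_card.mp hG)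
  have hMdvd : Nat.card M ∣ p ^ a := ha ▸ Subgroup.card_subgroup_dvd_card M
  have hrdvd : N.relIndex M ∣ p ^ a := (Subgroup.relIndex_dvd_card N M).trans hMdvd
  obtain ⟨t, -, ht⟩ := (Nat.dvd_prime_pow hp).mp hrdvd
  have hNpos : 0 < Nat.card N := Nat.card_pos
  have hr1 : N.relIndex M ≠ 1 := by
    intro h1
    rw [h1, mul_one] at hrel
    have : (N : Set G) = M := Set.eq_of_subset_of_ncard_le (SetLike.coe_subset_coe.mpr hNle)
      (by
        change Nat.card M ≤ Nat.card N
        omega) (Set.toFinite _)
    exact hgN (by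
      have hgM' : g ∈ (M : Set G) := hgM
      rw [← this] at hgM'
      exact hgM')
  have ht1 : t ≠ 0 := by
    rintro rfl
    apply hr1
    simpa using ht
  set r := N.relIndex M with hr
  have hrpos : 1 ≤ r := by
    rw [ht]; exact Nat.one_le_pow _ _ hp.pos
  -- |N| (r - 1) divides |G|, so r-1 is a power of p
  have hmul : Nat.card N * (r - 1) = Nat.card M - Nat.card N := by
    rw [← hrel, Nat.mul_sub, mul_one]
  have hdvd2 : r - 1 ∣ p ^ a := by
    rw [← ha]
    refine dvd_trans ?_ hdvd
    rw [hcard, ← hmul]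
    exact Dvd.intro_left _ rfl
  obtain ⟨s, -, hs⟩ := (Nat.dvd_prime_pow hp).mp hdvd2
  have hs0 : s = 0 := by
    by_contra hs0
    have h1 : p ∣ r - 1 := by rw [hs]; exact dvd_pow_self _ hs0
    have h2 : p ∣ r := by rw [ht]; exact dvd_pow_self _ ht1
    have h3 : p ∣ 1 := by
      have := (Nat.dvd_sub h2 h1)
      have e : r - (r - 1) = 1 := by omega
      rwa [e] at this
    exact hp.one_lt.ne' (Nat.dvd_one.mp h3)
  have hr2 : r = 2 := by
    rw [hs0, pow_zero] at hs
    omega
  refine ⟨?_, hr2⟩
  have h2 : p ∣ 2 := by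
    rw [← hr2, ht]; exact dvd_pow_self _ ht1
  exact (Nat.prime_dvd_prime_iff_eq hp Nat.prime_two).mp h2

end Cfsg.Agent.S4013
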