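import Mathlib
import Cfsg.Statements.S4014

set_option autoImplicit false
set_option linter.all false
open Cfsg

namespace Cfsg.Agent.S4014

universe u v

section Upper

variable {G : Type u} [Group G] [Finite G]

theorem exists_index_p (p : ℕ) [hp : Fact p.Prime] (hG : IsPGroup p G) (S : Subgroup G) (hS : S ≠ ⊤) :
    ∃ M : Subgroup G, S ≤ M ∧ M.Normal ∧ M.index = p := by
  classical
  obtain ⟨N, hN⟩ := IsPGroup.iff_card.mp hG
  obtain ⟨n, hn⟩ := IsPGroup.iff_card.mp (hG.to_subgroup S)
  have hnN : n < N := by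
    by_contra hcon
    push Not at hcon
    apply hS
    apply Subgroup.eq_top_of_card_eq
    apply le_antisymm (Subgroup.card_le_card_group S)
    rw [hn, hN]
    exact Nat.pow_le_pow_right hp.out.pos hcon
  obtain ⟨M', rfl⟩ : ∃ M', N = M' + 1 := ⟨N - 1, by omega⟩
  obtain ⟨K, hK, hSK⟩ := Sylow.exists_subgroup_card_pow_prime_le p
    (show p ^ M' ∣ Nat.card G by rw [hN]; exact pow_dvd_pow p (by omega)) S hn (by omega)
  have hidx : K.index = p := by
    have h1 := K.card_mul_index
    rw [hK, hN, pow_succ] at h1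
    exact Nat.eq_of_mul_eq_mul_left (by have := hp.out.pos; positivity) h1
  refine ⟨K, hSK, ?_, hidx⟩
  apply Subgroup.normal_of_index_eq_minFac_card
  rw [hidx, hN, Nat.Prime.pow_minFac hp.out (by omega)]

theorem commutator_le_of_index_prime (p : ℕ) [hp : Fact p.Prime] (M : Subgroup G) [hM : M.Normal]
    (hidx : M.index = p) : commutator G ≤ M := by
  have hc : Nat.card (G ⧸ M) = p := hidx
  haveI : IsCyclic (G ⧸ M) := isCyclic_of_prime_card hc
  rw [commutator_def, Subgroup.commutator_le]
  intro a _ b _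
  rw [← QuotientGroup.eq_one_iff, commutatorElement_def]
  have hcomm : ∀ x y : G ⧸ M, x * y = y * x := fun x y => (IsCyclic.commGroup (α := G ⧸ M)).mul_comm x y
  simp only [QuotientGroup.mk_mul, QuotientGroup.mk_inv]
  rw [hcomm (a : G ⧸ M) b]
  group

theorem derived_le (M : Subgroup G) (hM : commutator G ≤ M) (k : ℕ) :
    derivedSeries G (k + 1) ≤ (derivedSeries M k).map M.subtype := by
  induction k with
  | zero =>
    rw [derivedSeries_one, derivedSeries_zero]
    intro x hx
    exact ⟨⟨x, hM hx⟩, trivial, rfl⟩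
  | succ k ih =>
    rw [derivedSeries_succ, derivedSeries_succ M k, Subgroup.map_commutator]
    exact Subgroup.commutator_mono ih ih

theorem card_orbit_eq {Ω : Type v} [MulAction G Ω] (ω : Ω) :
    Nat.card (MulAction.orbit G ω) = (MulAction.stabilizer G ω).index :=
  Nat.card_congr (MulAction.orbitEquivQuotientStabilizer G ω)

/-- The main upper bound. -/
theorem fix_of_orbit (p : ℕ) [hp : Fact p.Prime] (k : ℕ) :
    ∀ (G : Type u) [Group G] [Finite G] (hG : IsPGroup p G) (Ω : Type v) [MulAction G Ω] (ω : Ω),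
      Nat.card (MulAction.orbit G ω) < p ^ (k + 1) → ∀ g ∈ derivedSeries G k, g • ω = ω := by
  induction k with
  | zero =>
    intro G _ _ hG Ω _ ω hlt g _
    by_cases hS : MulAction.stabilizer G ω = ⊤
    · have : g ∈ MulAction.stabilizer G ω := by rw [hS]; trivial
      exact this
    · exfalso
      obtain ⟨M, hSM, _, hidx⟩ := exists_index_p p hG _ hS
      rw [card_orbit_eq, ← Subgroup.relIndex_mul_index hSM, hidx, pow_one] at hlt
      have hpos : 0 < (MulAction.stabilizer G ω).relIndex M := by
        exact Nat.pos_of_ne_zero Subgroup.FiniteIndex.index_ne_zero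
      nlinarith
  | succ k ih =>
    intro G _ _ hG Ω _ ω hlt g hg
    by_cases hS : MulAction.stabilizer G ω = ⊤
    · have : g ∈ MulAction.stabilizer G ω := by rw [hS]; trivial
      exact this
    · obtain ⟨M, hSM, hMn, hidx⟩ := exists_index_p p hG _ hS
      have hcm := commutator_le_of_index_prime p M hidx
      have hg2 := derived_le M hcm k hg
      obtain ⟨m, hm, rfl⟩ := hg2
      have hcard : Nat.card (MulAction.orbit M ω) < p ^ (k + 1) := by
        rw [card_orbit_eq] at hlt ⊢
        rw [← Subgroup.relIndex_mul_index hSM, hidx, pow_succ] at hlt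
        have h1 : (MulAction.stabilizer M ω).index = (MulAction.stabilizer G ω).relIndex M := rfl
        rw [h1]
        exact Nat.lt_of_mul_lt_mul_right hlt
      exact ih M (hG.to_subgroup M) Ω ω hcard m hm

end Upper

section Lower

open RegularWreathProduct
open scoped commutatorElement

variable {D Q : Type*} [Group D] [Group Q]

/-- The coordinate image subgroup. -/
def T (j : ℕ) : Subgroup D where
  carrier := {h | ∃ x ∈ derivedSeries (D ≀ᵣ Q) (j + 1), x.right = 1 ∧ x.left 1 = h}
  one_mem' := ⟨1, Subgroup.one_mem _, rfl, rfl⟩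
  mul_mem' := by
    rintro a b ⟨x, hx, hx1, rfl⟩ ⟨y, hy, hy1, rfl⟩
    refine ⟨x * y, Subgroup.mul_mem _ hx hy, by simp [hx1, hy1], ?_⟩
    simp [hx1]
  inv_mem' := by
    rintro a ⟨x, hx, hx1, rfl⟩
    refine ⟨x⁻¹, Subgroup.inv_mem _ hx, by simp [hx1], ?_⟩
    simp [hx1]

theorem le_T (τ : Q) (hτ : τ ≠ 1) (j : ℕ) : derivedSeries D j ≤ T (Q := Q) j := by
  classical
  induction j with
  | zero =>
    rw [derivedSeries_zero]
    intro h _
    let s : Q → D := Pi.mulSingle 1 h
    let a : D ≀ᵣ Q := ⟨s, 1⟩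
    let b : D ≀ᵣ Q := inl τ
    refine ⟨⁅a, b⁆, ?_, ?_, ?_⟩
    · rw [zero_add, derivedSeries_one, commutator_def]
      exact Subgroup.commutator_mem_commutator trivial trivial
    · simp [commutatorElement_def, a, b]
    · simp [commutatorElement_def, a, b, s, hτ]
  | succ j ih =>
    rw [derivedSeries_succ, Subgroup.commutator_le]
    intro u hu v hv
    obtain ⟨x, hx, hx1, hxu⟩ := ih hu
    obtain ⟨y, hy, hy1, hyv⟩ := ih hv
    refine ⟨⁅x, y⁆, ?_, ?_, ?_⟩
    · rw [derivedSeries_succ _ (j + 1)]
      exact Subgroup.commutator_mem_commutator hx hy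
    · simp [commutatorElement_def, hx1, hy1]
    · simp [commutatorElement_def, hx1, hy1, hxu, hyv]

end Lower

theorem exists_model (p : ℕ) [hp : Fact p.Prime] (k : ℕ) :
    ∃ (H : Type) (_ : Group H) (_ : Finite H) (Λ : Type) (_ : Finite Λ) (_ : MulAction H Λ)
      (_ : FaithfulSMul H Λ), Nat.card Λ = p ^ (k + 1) ∧ IsPGroup p H ∧ derivedSeries H k ≠ ⊥ := by
  induction k with
  | zero =>
    refine ⟨Multiplicative (ZMod p), inferInstance, inferInstance, Multiplicative (ZMod p),
      inferInstance, inferInstance, inferInstance, ?_, ?_, ?_⟩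
    · simp
    · apply IsPGroup.of_card (n := 1)
      simp
    · rw [derivedSeries_zero]
      exact top_ne_bot
  | succ k ih =>
    obtain ⟨H, _, _, Λ, _, _, _, hc, hpg, hd⟩ := ih
    haveI : Nonempty Λ := by
      apply (Nat.card_pos_iff.mp _).1
      rw [hc]
      exact pow_pos hp.out.pos _
    have hcardQ : Nat.card (Multiplicative (ZMod p)) = p := by simp
    refine ⟨H ≀ᵣ Multiplicative (ZMod p), inferInstance, inferInstance, Λ × Multiplicative (ZMod p),
      inferInstance, inferInstance, inferInstance, ?_, ?_, ?_⟩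
    · rw [Nat.card_prod, hc, hcardQ, pow_succ p (k + 1)]
    · obtain ⟨m, hm⟩ := IsPGroup.iff_card.mp hpg
      apply IsPGroup.of_card (n := m * p + 1)
      rw [RegularWreathProduct.card, hm, hcardQ, pow_succ, pow_mul]
    · intro hbot
      obtain ⟨h, hh, hne⟩ : ∃ h ∈ derivedSeries H k, h ≠ 1 := by
        by_contra hcon
        push Not at hcon
        apply hd
        rw [eq_bot_iff]
        intro x hx
        exact Subgroup.mem_bot.mpr (hcon x hx)
      have hτ : (Multiplicative.ofAdd (1 : ZMod p)) ≠ 1 := by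
        intro h0
        exact one_ne_zero (Multiplicative.ofAdd.injective h0)
      obtain ⟨x, hx, -, hxh⟩ := le_T (D := H) (Multiplicative.ofAdd (1 : ZMod p)) hτ k hh
      rw [hbot, Subgroup.mem_bot] at hx
      rw [hx] at hxh
      exact hne hxh.symm

theorem result (p : ℕ) [Fact p.Prime] (n : ℕ) (hn : 1 ≤ n) (P : Sylow p (Equiv.Perm (Fin n))) : derivedSeries ↥(P : Subgroup (Equiv.Perm (Fin n))) (Nat.log p n) = ⊥ ∧ (1 ≤ Nat.log p n → derivedSeries ↥(P : Subgroup (Equiv.Perm (Fin n))) (Nat.log p n - 1) ≠ ⊥) := by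
  classical
  have hp : p.Prime := Fact.out
  constructor
  · rw [eq_bot_iff]
    intro g hg
    rw [Subgroup.mem_bot]
    apply Subtype.ext
    apply Equiv.ext
    intro ω
    have hlt : Nat.card (MulAction.orbit (P : Subgroup (Equiv.Perm (Fin n))) ω) < p ^ (Nat.log p n + 1) := by
      have h1 : Nat.card (MulAction.orbit (P : Subgroup (Equiv.Perm (Fin n))) ω) ≤ Nat.card (Fin n) :=
        Finite.card_le_of_embedding ⟨Subtype.val, Subtype.val_injective⟩
      rw [Nat.card_fin] at h1
      exact lt_of_le_of_lt h1 (Nat.lt_pow_succ_log_self hp.one_lt n)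
    exact fix_of_orbit p _ _ P.2 (Fin n) ω hlt g hg
  · intro h1
    obtain ⟨k, hk⟩ : ∃ k, Nat.log p n = k + 1 := ⟨Nat.log p n - 1, by omega⟩
    rw [hk, Nat.add_sub_cancel]
    have hle : p ^ (k + 1) ≤ n := by
      rw [← hk]
      exact Nat.pow_log_le_self p (by omega)
    obtain ⟨H, _, _, Λ, _, _, _, hc, hpg, hd⟩ := exists_model p k
    haveI := Fintype.ofFinite Λ
    have hemb : Nonempty (Λ ↪ Fin n) := by
      apply Function.Embedding.nonempty_of_card_le
      rw [Fintype.card_fin, ← Nat.card_eq_fintype_card, hc]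
      exact hle
    obtain ⟨e⟩ := hemb
    let F : H →* Equiv.Perm (Fin n) := (Equiv.Perm.viaEmbeddingHom e).comp (MulAction.toPermHom H Λ)
    have hF : Function.Injective F :=
      (Equiv.Perm.viaEmbeddingHom_injective e).comp MulAction.toPerm_injective
    have hrange : IsPGroup p F.range := hpg.of_surjective F.rangeRestrict F.rangeRestrict_surjective
    obtain ⟨Q, hQ⟩ := hrange.exists_le_sylow
    obtain ⟨g, hg⟩ := MulAction.exists_smul_eq (Equiv.Perm (Fin n)) Q P
    have hmem : ∀ h : H, (MulAut.conj g).toMonoidHom.comp F h ∈ (P : Subgroup (Equiv.Perm (Fin n))) := by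
      intro h
      rw [← hg, Sylow.coe_subgroup_smul, Subgroup.mem_pointwise_smul_iff_inv_smul_mem]
      have := hQ ⟨h, rfl⟩
      simpa [MulAut.smul_def, MulAut.conj_apply, mul_assoc] using this
    let F' : H →* (P : Subgroup (Equiv.Perm (Fin n))) := ((MulAut.conj g).toMonoidHom.comp F).codRestrict _ hmem
    have hF' : Function.Injective F' := by
      intro a b hab
      have h2 : (MulAut.conj g) (F a) = (MulAut.conj g) (F b) := congrArg Subtype.val hab
      exact hF ((MulAut.conj g).injective h2)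
    intro hbot
    apply hd
    rw [eq_bot_iff]
    intro x hx
    have h3 := map_derivedSeries_le_derivedSeries F' k ⟨x, hx, rfl⟩
    rw [hbot, Subgroup.mem_bot] at h3
    rw [Subgroup.mem_bot]
    exact hF' (h3.trans (map_one F').symm)

end Cfsg.Agent.S4014
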