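import Mathlib
import Cfsg.Statements.S4015
import Cfsg.Agent.S0126
import Cfsg.Agent.S4010
import Cfsg.Agent.Lib.PNormalEA

set_option autoImplicit false
set_option linter.unusedVariables false
set_option linter.style.haveILetI false
open Cfsg

namespace Cfsg.Agent.S4015

universe u v w

open Module Polynomial
open Cfsg.Agent.S4010 (derived_le_map restrictRep maschke)
open scoped commutatorElement

section base
variable {F : Type w} [Field F] [Finite F] {p : ℕ} [hp : Fact p.Prime]

/-- An operator with `T ^ p = 1` on a space of dimension below the order of `q` modulo `p`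
is the identity. -/
theorem op_eq_one {V : Type v} [AddCommGroup V] [Module F V] [FiniteDimensional F V]
    (hpF : (p : F) ≠ 0) (T : End F V) (hT : T ^ p = 1)
    (hd : finrank F V < orderOf ((Nat.card F : ℕ) : ZMod p)) : T = 1 := by
  classical
  haveI := Fintype.ofFinite F
  by_contra hne
  set U : Submodule F V := LinearMap.range (T - 1) with hU
  have hU0 : U ≠ ⊥ := by
    intro h
    apply hne
    have := LinearMap.range_eq_bot.mp h
    exact sub_eq_zero.mp this
  haveI hUnt : Nontrivial U := Submodule.nontrivial_iff_ne_bot.mpr hU0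
  have hUinv : ∀ u ∈ U, T u ∈ U := by
    rintro _ ⟨v, rfl⟩
    refine ⟨T v, ?_⟩
    simp
  set TU : End F U := T.restrict hUinv with hTU
  set Ψ : F[X] := ∑ i ∈ Finset.range p, X ^ i with hΨ
  have hΨT : aeval TU Ψ = 0 := by
    ext ⟨_, v, rfl⟩
    have h1 : (∑ i ∈ Finset.range p, T ^ i) * (T - 1) = 0 := by
      rw [geom_sum_mul, hT, sub_self]
    have h2 : ∀ (f : F[X]) (u : U), ((aeval TU f) u : V) = aeval T f (u : V) := by
      intro f u
      induction f using Polynomial.induction_on' with
      | add a b ha hb => simp [ha, hb]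
      | monomial n a =>
        simp only [aeval_monomial, Module.End.mul_apply, Submodule.coe_smul, algebraMap_end_apply]
        congr 1
        induction n with
        | zero => simp
        | succ n ih =>
          rw [pow_succ', pow_succ', Module.End.mul_apply, Module.End.mul_apply, hTU,
            LinearMap.restrict_apply]
          exact congrArg T ih
    rw [h2]
    have h3 : aeval T Ψ = ∑ i ∈ Finset.range p, T ^ i := by
      simp [hΨ, map_sum]
    rw [h3]
    have := congrArg (fun A : End F V => A v) h1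
    simpa using this
  set m := minpoly F TU with hm
  have hint : IsIntegral F TU := Algebra.IsIntegral.isIntegral TU
  have hmdvd : m ∣ Ψ := minpoly.dvd F TU hΨT
  have hmdeg : m.natDegree ≤ finrank F V := by
    have h1 : m ∣ LinearMap.charpoly TU := LinearMap.minpoly_dvd_charpoly TU
    have h2 : m.natDegree ≤ (LinearMap.charpoly TU).natDegree :=
      Polynomial.natDegree_le_of_dvd h1 (LinearMap.charpoly_monic TU).ne_zero
    rw [LinearMap.charpoly_natDegree] at h2
    exact h2.trans (Submodule.finrank_le U)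
  have hmpos : 0 < m.natDegree := minpoly.natDegree_pos hint
  let K := AlgebraicClosure F
  obtain ⟨ζ, hζ⟩ : ∃ ζ : K, aeval ζ m = 0 :=
    IsAlgClosed.exists_aeval_eq_zero K m (by
      rw [degree_eq_natDegree (minpoly.ne_zero hint)]
      exact_mod_cast hmpos.ne')
  have hΨζ : ∑ i ∈ Finset.range p, ζ ^ i = 0 := by
    obtain ⟨f, hf⟩ := hmdvd
    have := congrArg (aeval ζ) hf
    simpa [hΨ, hζ, map_sum] using this
  have hζp : ζ ^ p = 1 := by
    have := geom_sum_mul ζ p
    rw [hΨζ, zero_mul] at this
    exact (sub_eq_zero.mp this.symm)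
  have hpK : (p : K) ≠ 0 := by
    intro h
    apply hpF
    have : algebraMap F K (p : F) = (p : K) := by simp
    rw [h] at this
    exact (algebraMap F K).injective (by rw [this, map_zero])
  have hζ1 : ζ ≠ 1 := by
    rintro rfl
    simp at hΨζ
    exact hpK hΨζ
  have hord : orderOf ζ = p := orderOf_eq_prime hζp hζ1
  set q := Nat.card F with hq
  have hfrob : ∀ x : K, aeval x m = 0 → aeval (x ^ q) m = 0 := by
    intro x hx
    have h1 : expand F q m = m ^ q := by
      have := FiniteField.expand_card (K := F) m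
      rwa [← Nat.card_eq_fintype_card] at this
    have h2 : aeval x (expand F q m) = aeval (x ^ q) m := by
      rw [expand_aeval]
    rw [← h2, h1, map_pow, hx, zero_pow]
    exact Nat.card_pos.ne'
  have hall : ∀ i : ℕ, aeval (ζ ^ (q ^ i)) m = 0 := by
    intro i
    induction i with
    | zero => simpa using hζ
    | succ i ih =>
      have := hfrob _ ih
      rwa [← pow_mul, ← pow_succ] at this
  set e := orderOf ((q : ℕ) : ZMod p) with he
  have hinj : Set.InjOn (fun i : ℕ => ζ ^ (q ^ i)) (Finset.range e : Set ℕ) := by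
    intro i hi j hj hij
    have h1 : q ^ i ≡ q ^ j [MOD p] := by
      have hij' : ζ ^ (q ^ i) = ζ ^ (q ^ j) := hij
      have hζ0 : ζ ≠ 0 := by
        rintro rfl
        rw [zero_pow hp.out.pos.ne'] at hζp
        exact zero_ne_one hζp
      have hu : (Units.mk0 ζ hζ0) ^ (q ^ i) = (Units.mk0 ζ hζ0) ^ (q ^ j) := by
        apply Units.ext
        simpa using hij'
      have := (pow_eq_pow_iff_modEq).mp hu
      rwa [← orderOf_units, Units.val_mk0, hord] at this
    have h2 : ((q : ℕ) : ZMod p) ^ i = ((q : ℕ) : ZMod p) ^ j := by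
      have := (ZMod.natCast_eq_natCast_iff _ _ _).mpr h1
      simpa using this
    exact pow_injOn_Iio_orderOf (by simpa using hi) (by simpa using hj) h2
  have hm0 : (m.map (algebraMap F K)) ≠ 0 :=
    (Polynomial.map_ne_zero_iff (algebraMap F K).injective).mpr (minpoly.ne_zero hint)
  have hsub : (Finset.range e).image (fun i : ℕ => ζ ^ (q ^ i)) ⊆
      (m.map (algebraMap F K)).roots.toFinset := by
    intro x hx
    obtain ⟨i, -, rfl⟩ := Finset.mem_image.mp hx
    rw [Multiset.mem_toFinset, mem_roots hm0, IsRoot.def, eval_map_algebraMap]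
    exact hall i
  have hcard := Finset.card_le_card hsub
  rw [Finset.card_image_of_injOn hinj, Finset.card_range] at hcard
  have h3 : (m.map (algebraMap F K)).roots.toFinset.card ≤ (m.map (algebraMap F K)).natDegree :=
    (Multiset.toFinset_card_le _).trans (card_roots' _)
  rw [natDegree_map] at h3
  omega

/-- Below the order of `q` modulo `p`, a `p`-group acts trivially. -/
theorem base_case {P : Type u} [Group P] [Finite P] (hP : IsPGroup p P) {V : Type v} [AddCommGroup V]
    [Module F V] [FiniteDimensional F V] (hpF : (p : F) ≠ 0) (ρ : P →* End F V)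
    (hd : finrank F V < orderOf ((Nat.card F : ℕ) : ZMod p)) (g : P) : ρ g = 1 := by
  have key : ∀ a : ℕ, ∀ T : End F V, T ^ (p ^ a) = 1 → T = 1 := by
    intro a
    induction a with
    | zero => simp
    | succ a ih =>
      intro T hT
      have h1 : (T ^ p) ^ (p ^ a) = 1 := by
        rw [← pow_mul, ← pow_succ']
        exact hT
      exact op_eq_one hpF T (ih _ h1) hd
  obtain ⟨a, ha⟩ := hP g
  apply key a
  rw [← map_pow, ha, map_one]

end base

section spectral
variable {F : Type w} [Field F] {p : ℕ} [hp : Fact p.Prime]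
variable {V : Type v} [AddCommGroup V] [Module F V]

/-- A geometric sum of an operator of order dividing `p` lands in its fixed space. -/
theorem geom_fixed (Y : End F V) (hY : Y ^ p = 1) (f : V) :
    Y (∑ a ∈ Finset.range p, (Y ^ a) f) = ∑ a ∈ Finset.range p, (Y ^ a) f := by
  have h1 : (Y - 1) * ∑ a ∈ Finset.range p, Y ^ a = 0 := by
    rw [mul_geom_sum, hY, sub_self]
  have h2 := congrArg (fun A : End F V => A f) h1
  simp only [Module.End.mul_apply, LinearMap.sub_apply, Module.End.one_apply, LinearMap.zero_apply,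
    LinearMap.sum_apply, sub_eq_zero] at h2
  exact h2

/-- A sum over residues which are killed by the hypothesis on `Z`. -/
theorem geom_zero (Z : End F V) (hZp : Z ^ p = 1)
    (hZ : ∀ m : ℕ, ¬ p ∣ m → ∀ v, (Z ^ m) v = v → v = 0) {m : ℕ} (hm : ¬ p ∣ m) (f : V) :
    ∑ a ∈ Finset.range p, ((Z ^ m) ^ a) f = 0 := by
  apply hZ m hm
  apply geom_fixed
  rw [← pow_mul, mul_comm, pow_mul, hZp, one_pow]

/-- The `T`-eigenspace for the eigenvalue `Z ^ i`. -/
def eig (T Z : End F V) (i : ℕ) : Submodule F V := LinearMap.ker (T - Z ^ i)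

omit hp in
theorem mem_eig (T Z : End F V) (i : ℕ) (v : V) : v ∈ eig T Z i ↔ T v = (Z ^ i) v := by
  simp [eig, sub_eq_zero]

omit hp in
theorem eig_inv (T Z : End F V) (hTZ : Commute T Z) (i b : ℕ) {v : V} (hv : v ∈ eig T Z i) :
    (Z ^ b) v ∈ eig T Z i := by
  rw [mem_eig] at hv ⊢
  have h1 : T * Z ^ b = Z ^ b * T := (hTZ.pow_right b).eq
  have h2 : Z ^ i * Z ^ b = Z ^ b * Z ^ i := ((Commute.refl Z).pow_pow i b).eq
  rw [← Module.End.mul_apply, h1, Module.End.mul_apply, hv, ← Module.End.mul_apply,
    ← Module.End.mul_apply, h2]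

omit hp in
/-- Powers of `Z ^ j * T` on an eigenvector. -/
theorem pow_apply_eig (T Z : End F V) (hTZ : Commute T Z) (i j a : ℕ) {v : V} (hv : v ∈ eig T Z i) :
    ((Z ^ j * T) ^ a) v = ((Z ^ (j + i)) ^ a) v := by
  have hstep : ∀ u ∈ eig T Z i, (Z ^ j * T) u = (Z ^ (j + i)) u := by
    intro u hu
    rw [Module.End.mul_apply, (mem_eig T Z i u).mp hu, pow_add, Module.End.mul_apply]
  induction a with
  | zero => simp
  | succ a ih =>
    rw [pow_succ', Module.End.mul_apply, ih, hstep]
    · rw [← Module.End.mul_apply, ← pow_succ']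
    · rw [← pow_mul]
      exact eig_inv T Z hTZ i _ hv

/-- Independence of eigenspaces for residues distinct modulo `p`. -/
theorem eig_indep (hpF : (p : F) ≠ 0) (T Z : End F V) (hTZ : Commute T Z) (hZp : Z ^ p = 1)
    (hZ : ∀ m : ℕ, ¬ p ∣ m → ∀ v, (Z ^ m) v = v → v = 0)
    {ι : Type*} [Fintype ι] (τ : ι → ℕ) (hτ : ∀ i j, i ≠ j → ¬ τ i ≡ τ j [MOD p])
    (f : ι → V) (hf : ∀ i, f i ∈ eig T Z (τ i)) (hs : ∑ i, f i = 0) : ∀ i, f i = 0 := by
  classical
  intro i₀
  have hp1 : 1 ≤ p := hp.out.pos
  set S : End F V := ∑ a ∈ Finset.range p, (Z ^ ((p - 1) * τ i₀) * T) ^ a with hS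
  have hpeq : (p - 1) + 1 = p := Nat.sub_add_cancel hp1
  have h1 : S (∑ i, f i) = ∑ i, S (f i) := by rw [map_sum]
  have h2 : ∀ i, S (f i) = if i = i₀ then (p : F) • f i₀ else 0 := by
    intro i
    have h3 : S (f i) = ∑ a ∈ Finset.range p, ((Z ^ ((p - 1) * τ i₀ + τ i)) ^ a) (f i) := by
      rw [hS, LinearMap.sum_apply]
      exact Finset.sum_congr rfl (fun a _ => pow_apply_eig T Z hTZ _ _ a (hf i))
    rw [h3]
    by_cases hi : i = i₀
    · subst hi
      rw [if_pos rfl]
      have e : (p - 1) * τ i + τ i = p * τ i := by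
        calc (p - 1) * τ i + τ i = ((p - 1) + 1) * τ i := by ring
          _ = p * τ i := by rw [hpeq]
      have e2 : Z ^ ((p - 1) * τ i + τ i) = 1 := by
        rw [e, pow_mul, hZp, one_pow]
      simp [e2, Nat.cast_smul_eq_nsmul]
    · rw [if_neg hi]
      apply geom_zero Z hZp hZ
      intro hdvd
      apply hτ i i₀ hi
      have h5 : ((((p - 1) * τ i₀ + τ i : ℕ)) : ZMod p) = 0 := (ZMod.natCast_eq_zero_iff _ _).mpr hdvd
      have h6 : ((p - 1 : ℕ) : ZMod p) = -1 := by
        have : (((p - 1 + 1 : ℕ)) : ZMod p) = 0 := by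
          rw [hpeq]
          exact ZMod.natCast_self p
        push_cast at this
        linear_combination this
      push_cast at h5
      rw [h6] at h5
      apply (ZMod.natCast_eq_natCast_iff _ _ _).mp
      linear_combination h5
  have h7 : ∑ i, S (f i) = (p : F) • f i₀ := by
    simp only [h2]
    simp
  rw [← h1, hs, map_zero] at h7
  have h8 := h7.symm
  rcases smul_eq_zero.mp h8 with h9 | h9
  · exact absurd h9 hpF
  · exact h9

/-- Every vector is a combination of eigenvectors. -/
theorem eig_span (hpF : (p : F) ≠ 0) (T Z : End F V) (hTZ : Commute T Z) (hTp : T ^ p = 1)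
    (hZp : Z ^ p = 1) (hZ : ∀ m : ℕ, ¬ p ∣ m → ∀ v, (Z ^ m) v = v → v = 0) (v : V) :
    ∃ f : ℕ → V, (∀ i, f i ∈ eig T Z i) ∧ (p : F) • v = ∑ i ∈ Finset.range p, f i := by
  classical
  have hp1 : 1 ≤ p := hp.out.pos
  have hpeq : (p - 1) + 1 = p := Nat.sub_add_cancel hp1
  let S : ℕ → End F V := fun i => ∑ a ∈ Finset.range p, (Z ^ ((p - 1) * i) * T) ^ a
  refine ⟨fun i => S i v, ?_, ?_⟩
  · intro i
    rw [mem_eig]
    set x := Z ^ ((p - 1) * i) * T with hx
    have hxc : Commute (Z ^ ((p - 1) * i)) T := (hTZ.symm.pow_left _)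
    have hxp : x ^ p = 1 := by
      rw [hx, hxc.mul_pow, ← pow_mul, mul_comm, pow_mul, hZp, hTp]
      simp
    have hfix : x (S i v) = S i v := by
      have := geom_fixed x hxp v
      simpa [S, LinearMap.sum_apply] using this
    have hzz : Z ^ i * Z ^ ((p - 1) * i) = 1 := by
      rw [← pow_add]
      have e : i + (p - 1) * i = p * i := by
        calc i + (p - 1) * i = ((p - 1) + 1) * i := by ring
          _ = p * i := by rw [hpeq]
      rw [e, pow_mul, hZp, one_pow]
    calc T (S i v) = (Z ^ i * Z ^ ((p - 1) * i)) (T (S i v)) := by rw [hzz]; rfl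
      _ = (Z ^ i) (x (S i v)) := by
        rw [hx]
        rfl
      _ = (Z ^ i) (S i v) := by rw [hfix]
  · have h1 : ∀ i, S i v = ∑ a ∈ Finset.range p, ((Z ^ ((p - 1) * a)) ^ i) ((T ^ a) v) := by
      intro i
      simp only [S, LinearMap.sum_apply]
      refine Finset.sum_congr rfl (fun a _ => ?_)
      have hxc : Commute (Z ^ ((p - 1) * i)) T := (hTZ.symm.pow_left _)
      rw [hxc.mul_pow, ← pow_mul, ← pow_mul, mul_right_comm, Module.End.mul_apply]
    simp only [h1]
    rw [Finset.sum_comm]
    have h2 : ∀ a ∈ Finset.range p, ∑ i ∈ Finset.range p, ((Z ^ ((p - 1) * a)) ^ i) ((T ^ a) v) =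
        if a = 0 then (p : F) • v else 0 := by
      intro a ha
      by_cases ha0 : a = 0
      · subst ha0
        simp [Nat.cast_smul_eq_nsmul]
      · rw [if_neg ha0]
        apply geom_zero Z hZp hZ
        intro hdvd
        have halt : a < p := Finset.mem_range.mp ha
        have h3 : p ∣ p - 1 ∨ p ∣ a := (Nat.Prime.dvd_mul hp.out).mp hdvd
        rcases h3 with h3 | h3
        · have := Nat.le_of_dvd (by have := hp.out.two_le; omega) h3
          omega
        · have := Nat.le_of_dvd (by omega) h3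
          omega
    rw [Finset.sum_congr rfl h2]
    rw [Finset.sum_ite_eq' (Finset.range p) 0]
    simp [hp.out.pos]

end spectral

section upper

theorem comm_of_central_comm {G : Type*} [Group G] (y : G)
    (h : ∀ r : G, r * y * r⁻¹ * y⁻¹ ∈ Subgroup.center G) (a b : G) :
    ⁅a, b⁆ * y = y * ⁅a, b⁆ := by
  set ζ : G → G := fun r => r * y * r⁻¹ * y⁻¹ with hζ
  have hc : ∀ r s : G, s * ζ r = ζ r * s := fun r s => Subgroup.mem_center_iff.mp (h r) s
  have hconj : ∀ r : G, r * y = ζ r * (y * r) := by
    intro r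
    simp only [hζ]
    group
  have hmul : ∀ r s : G, ζ (r * s) = ζ r * ζ s := by
    intro r s
    have e1 : r * s * y = ζ r * (ζ s * (y * (r * s))) := by
      calc r * s * y = r * (s * y) := by group
        _ = r * (ζ s * (y * s)) := by rw [hconj s]
        _ = (r * ζ s) * (y * s) := by group
        _ = (ζ s * r) * (y * s) := by rw [hc s r]
        _ = ζ s * ((r * y) * s) := by group
        _ = ζ s * ((ζ r * (y * r)) * s) := by rw [hconj r]
        _ = (ζ s * ζ r) * (y * (r * s)) := by group
        _ = (ζ r * ζ s) * (y * (r * s)) := by rw [hc r (ζ s)]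
        _ = _ := by group
    have e2 := hconj (r * s)
    rw [e1] at e2
    have e3 : ζ r * (ζ s * (y * (r * s))) = (ζ r * ζ s) * (y * (r * s)) := by group
    rw [e3] at e2
    exact (mul_right_cancel e2).symm
  have h1 : ζ 1 = 1 := by simp [hζ]
  have hinv : ∀ r : G, ζ r * ζ r⁻¹ = 1 := by
    intro r
    rw [← hmul, mul_inv_cancel, h1]
  have h2 : ζ ⁅a, b⁆ = 1 := by
    rw [commutatorElement_def, hmul, hmul, hmul]
    calc ζ a * ζ b * ζ a⁻¹ * ζ b⁻¹ = ζ a * (ζ b * ζ a⁻¹) * ζ b⁻¹ := by group
      _ = ζ a * (ζ a⁻¹ * ζ b) * ζ b⁻¹ := by rw [hc a⁻¹ (ζ b)]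
      _ = (ζ a * ζ a⁻¹) * (ζ b * ζ b⁻¹) := by group
      _ = 1 := by rw [hinv, hinv, one_mul]
  have := hconj ⁅a, b⁆
  rw [h2, one_mul] at this
  exact this

variable {F : Type w} [Field F] [Finite F] {p : ℕ} [hp : Fact p.Prime]

theorem main_upper (hp2 : p ≠ 2) (hpF : (p : F) ≠ 0) (k : ℕ) :
    ∀ (d : ℕ) {P : Type u} [Group P] [Finite P] (hP : IsPGroup p P) {V : Type v} [AddCommGroup V]
      [Module F V] [FiniteDimensional F V] (ρ : P →* End F V), finrank F V = d →
      d < orderOf ((Nat.card F : ℕ) : ZMod p) * p ^ k → ∀ g ∈ derivedSeries P k, ρ g = 1 := by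
  classical
  induction k with
  | zero =>
    intro d P _ _ hP V _ _ _ ρ hd hlt g _
    exact base_case hP hpF ρ (by rw [hd]; simpa using hlt) g
  | succ k IHk =>
  intro d
  induction d using Nat.strong_induction_on with
  | _ d IH =>
  intro P _ _ hP V _ _ _ ρ hd hlt g hg
  by_cases hd0 : d = 0
  · subst hd0
    haveI : Subsingleton V := Module.finrank_zero_iff.mp hd
    ext v
    exact Subsingleton.elim _ _
  haveI hnt : Nontrivial V := by
    apply Module.nontrivial_of_finrank_pos (R := F)
    omega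
  have hcardP : ((Nat.card P : ℕ) : F) ≠ 0 := by
    obtain ⟨k, hk⟩ := IsPGroup.iff_card.mp hP
    rw [hk, Nat.cast_pow]
    exact pow_ne_zero _ hpF
  by_cases hirr : ∀ U : Submodule F V, (∀ g, ∀ u ∈ U, ρ g u ∈ U) → U = ⊥ ∨ U = ⊤
  swap
  · -- reducible case
    push Not at hirr
    obtain ⟨U, hU, hU0, hU1⟩ := hirr
    obtain ⟨U', hU', hsup, hinf⟩ := maschke hcardP ρ U hU
    have hU'0 : U' ≠ ⊤ := by
      rintro rfl
      apply hU0
      simpa using hinf
    have h1 : finrank F U < d := hd ▸ Submodule.finrank_lt hU1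
    have h2 : finrank F U' < d := hd ▸ Submodule.finrank_lt hU'0
    have hgU := IH _ h1 hP (restrictRep ρ U hU) rfl (h1.trans hlt) g hg
    have hgU' := IH _ h2 hP (restrictRep ρ U' hU') rfl (h2.trans hlt) g hg
    ext v
    have hv : v ∈ U ⊔ U' := by rw [hsup]; trivial
    obtain ⟨a, ha, b, hb, rfl⟩ := Submodule.mem_sup.mp hv
    have e1 : ρ g a = a := by
      have := congrArg (fun f : End F U => ((f ⟨a, ha⟩ : U) : V)) hgU
      exact this
    have e2 : ρ g b = b := by
      have := congrArg (fun f : End F U' => ((f ⟨b, hb⟩ : U') : V)) hgU'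
      exact this
    rw [map_add, e1, e2]
    rfl
  -- irreducible case
  by_cases hab : ∀ a b : P, ρ a * ρ b = ρ b * ρ a
  · -- abelian image
    have hK : commutator P ≤ (ρ.toHomUnits).ker := by
      rw [commutator_def, Subgroup.commutator_le]
      intro a _ b _
      rw [MonoidHom.mem_ker]
      apply Units.ext
      show ρ ⁅a, b⁆ = 1
      have e1 : ⁅a, b⁆ = (a * b) * (a⁻¹ * b⁻¹) := by
        rw [commutatorElement_def]; group
      have e2 : (b * a) * (a⁻¹ * b⁻¹) = 1 := by group
      have e3 : ρ (a * b) = ρ (b * a) := by rw [map_mul, map_mul, hab a b]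
      rw [e1, map_mul, e3, ← map_mul, e2, map_one]
    have hg1 : g ∈ derivedSeries P 1 := derivedSeries_antitone P (by omega) hg
    rw [derivedSeries_one] at hg1
    have h3 := hK hg1
    rw [MonoidHom.mem_ker] at h3
    exact congrArg Units.val h3
  -- non-abelian image
  push Not at hab
  obtain ⟨a₀, b₀, hab₀⟩ := hab
  let φ : P →* (End F V)ˣ := ρ.toHomUnits
  set R := φ.range with hR
  haveI : Finite R := Finite.of_surjective φ.rangeRestrict φ.rangeRestrict_surjective
  have hRp : IsPGroup p R := hP.of_surjective φ.rangeRestrict φ.rangeRestrict_surjective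
  let κ : R →* End F V := (Units.coeHom _).comp R.subtype
  have hκ : Function.Injective κ := by
    intro a b hab
    exact Subtype.ext (Units.ext hab)
  let rr : P →* R := φ.rangeRestrict
  have hrr : Function.Surjective rr := φ.rangeRestrict_surjective
  have hκrr : ∀ x, κ (rr x) = ρ x := fun _ => rfl
  have hRnc : ¬ IsCyclic R := by
    intro hc
    apply hab₀
    letI := IsCyclic.commGroup (α := R)
    have h := mul_comm (rr a₀) (rr b₀)
    have h2 := congrArg κ h
    rw [map_mul, map_mul] at h2
    exact h2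
  obtain ⟨E, hEn, hEa, hEc⟩ := Cfsg.Agent.S0126.result hp2 hRp hRnc
  have h1p : 1 < p := hp.out.one_lt
  have hEp : ∀ a ∈ E, a ^ p = 1 := hEa.2
  obtain ⟨z, hzE, hz1, hzc⟩ := Cfsg.Agent.Lib.PNormalEA.exists_central_mod hRp ⊥ E (by
    intro h
    have h2 : Nat.card E ≤ 1 := by
      have := Subgroup.card_le_of_le h
      simpa using this
    rw [hEc] at h2
    nlinarith)
  have hz1' : z ≠ 1 := by simpa using hz1
  have hzcomm : ∀ r : R, r * z = z * r := by
    intro r
    have h2 := hzc r
    rw [Subgroup.mem_bot] at h2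
    have e : r * z = (r * z * r⁻¹ * z⁻¹) * (z * r) := by group
    rw [e, h2, one_mul]
  have hordz : orderOf z = p := orderOf_eq_prime (hEp z hzE) hz1'
  haveI hzn : (Subgroup.zpowers z).Normal := by
    refine ⟨fun n hn g => ?_⟩
    obtain ⟨k', rfl⟩ := Subgroup.mem_zpowers_iff.mp hn
    have hc : Commute g (z ^ k') := (show Commute g z from hzcomm g).zpow_right k'
    rw [hc.eq, mul_inv_cancel_right]
    exact hn
  obtain ⟨y, hyE, hyz, hyc⟩ := Cfsg.Agent.Lib.PNormalEA.exists_central_mod hRp (Subgroup.zpowers z) E (by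
    intro h
    have h2 := Subgroup.card_le_of_le h
    rw [hEc, Nat.card_zpowers, hordz] at h2
    nlinarith)
  set T : End F V := κ y with hT
  set Z : End F V := κ z with hZdef
  have hTp : T ^ p = 1 := by rw [hT, ← map_pow, hEp y hyE, map_one]
  have hZp : Z ^ p = 1 := by rw [hZdef, ← map_pow, hEp z hzE, map_one]
  have hTZ : Commute T Z := by
    show T * Z = Z * T
    rw [hT, hZdef, ← map_mul, ← map_mul, hzcomm y]
  have hZc : ∀ x : P, ρ x * Z = Z * ρ x := by
    intro x
    rw [← hκrr, hZdef, ← map_mul, ← map_mul, hzcomm]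
  have hR1 : ∀ x : P, ∃ c : ℕ, T * ρ x = Z ^ c * (ρ x * T) := by
    intro x
    have h2 := (Subgroup.zpowers z).inv_mem (hyc (rr x))
    obtain ⟨c, hc⟩ := (mem_powers_iff_mem_zpowers).mpr h2
    refine ⟨c, ?_⟩
    have e : y * rr x = z ^ c * (rr x * y) := by
      have hc' : z ^ c = (rr x * y * (rr x)⁻¹ * y⁻¹)⁻¹ := hc
      rw [hc']
      group
    rw [← hκrr, hT, hZdef, ← map_mul, ← map_mul, ← map_pow, ← map_mul, e]
  choose c hc using hR1
  have hZ : ∀ m : ℕ, ¬ p ∣ m → ∀ v, (Z ^ m) v = v → v = 0 := by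
    intro m hm v hv
    set U : Submodule F V := LinearMap.ker (Z ^ m - 1) with hU
    have hUinv : ∀ x, ∀ u ∈ U, ρ x u ∈ U := by
      intro x u hu
      rw [hU, LinearMap.mem_ker, LinearMap.sub_apply, sub_eq_zero] at hu ⊢
      simp only [Module.End.one_apply] at hu ⊢
      have hcomm : Z ^ m * ρ x = ρ x * Z ^ m := ((show Commute (ρ x) Z from hZc x).pow_right m).eq.symm
      rw [← Module.End.mul_apply, hcomm, Module.End.mul_apply, hu]
    rcases hirr U hUinv with h | h
    · have h3 : v ∈ U := by
        rw [hU, LinearMap.mem_ker, LinearMap.sub_apply, sub_eq_zero]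
        exact hv
      rw [h] at h3
      exact h3
    · exfalso
      have hZm : Z ^ m = 1 := by
        ext w
        have h3 : w ∈ U := by rw [h]; trivial
        rw [hU, LinearMap.mem_ker, LinearMap.sub_apply, sub_eq_zero] at h3
        exact h3
      have h4 : z ^ m = 1 := hκ (by rw [map_pow, map_one]; exact hZm)
      exact hm (hordz ▸ orderOf_dvd_of_pow_eq_one h4)
  have hpV : ∀ v : V, (p : F) • v = 0 → v = 0 := by
    intro v hv
    rcases smul_eq_zero.mp hv with h | h
    · exact absurd h hpF
    · exact h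
  have hex : ∃ x, ¬ p ∣ c x := by
    by_contra hcon
    push Not at hcon
    have hTc : ∀ x, T * ρ x = ρ x * T := by
      intro x
      obtain ⟨j, hj⟩ := hcon x
      rw [hc x, hj, pow_mul, hZp, one_pow, one_mul]
    obtain ⟨v, hv⟩ := exists_ne (0 : V)
    obtain ⟨f, hf, hs⟩ := eig_span hpF T Z hTZ hTp hZp hZ v
    have hexi : ∃ i, f i ≠ 0 := by
      by_contra hall
      push Not at hall
      apply hv
      apply hpV
      rw [hs]
      exact Finset.sum_eq_zero (fun i _ => hall i)
    obtain ⟨i, hi⟩ := hexi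
    have hinv : ∀ x, ∀ u ∈ eig T Z i, ρ x u ∈ eig T Z i := by
      intro x u hu
      rw [mem_eig] at hu ⊢
      have h3 : ρ x * Z ^ i = Z ^ i * ρ x := ((show Commute (ρ x) Z from hZc x).pow_right i).eq
      rw [← Module.End.mul_apply, hTc, Module.End.mul_apply, hu, ← Module.End.mul_apply, h3,
        Module.End.mul_apply]
    rcases hirr _ hinv with h | h
    · apply hi
      have := hf i
      rw [h] at this
      exact this
    · apply hyz
      have hTi : T = Z ^ i := by
        ext w
        have h3 : w ∈ eig T Z i := by rw [h]; trivial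
        exact (mem_eig T Z i w).mp h3
      have h4 : y = z ^ i := hκ (by rw [map_pow]; exact hTi)
      rw [h4]
      exact Subgroup.pow_mem _ (Subgroup.mem_zpowers z) i
  obtain ⟨g₁, hg₁⟩ := hex
  -- the subgroup centralizing `T`
  let M : Subgroup P := (Subgroup.centralizer ({y} : Set R)).comap rr
  have hMT : ∀ m ∈ M, T * ρ m = ρ m * T := by
    intro m hm
    have h2 : rr m ∈ Subgroup.centralizer ({y} : Set R) := hm
    rw [Subgroup.mem_centralizer_iff] at h2
    have h3 := h2 y (Set.mem_singleton y)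
    rw [← hκrr, hT, ← map_mul, ← map_mul, h3]
  have hzcen : z ∈ Subgroup.center R := Subgroup.mem_center_iff.mpr hzcomm
  have hMc : commutator P ≤ M := by
    rw [commutator_def, Subgroup.commutator_le]
    intro a _ b _
    show rr ⁅a, b⁆ ∈ Subgroup.centralizer ({y} : Set R)
    rw [map_commutatorElement, Subgroup.mem_centralizer_iff]
    intro w hw
    rw [Set.mem_singleton_iff.mp hw]
    refine (comm_of_central_comm y ?_ _ _).symm
    intro r
    exact (Subgroup.zpowers_le.mpr hzcen) (hyc r)
  have hdstep : ∀ a, finrank F (eig T Z a) ≤ finrank F (eig T Z (a + c g₁)) := by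
    intro a
    have hmaps : ∀ u ∈ eig T Z a, ρ g₁ u ∈ eig T Z (a + c g₁) := by
      intro u hu
      rw [mem_eig] at hu ⊢
      have h3 : ρ g₁ * Z ^ a = Z ^ a * ρ g₁ := ((show Commute (ρ g₁) Z from hZc g₁).pow_right a).eq
      rw [← Module.End.mul_apply, hc g₁, Module.End.mul_apply, Module.End.mul_apply, hu,
        ← Module.End.mul_apply (ρ g₁), h3, Module.End.mul_apply, ← Module.End.mul_apply (Z ^ c g₁),
        ← pow_add, add_comm]
    apply LinearMap.finrank_le_finrank_of_injective (f := (ρ g₁).restrict hmaps)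
    intro u w huw
    have h3 : ρ g₁ (u : V) = ρ g₁ (w : V) := congrArg Subtype.val huw
    have h4 : ρ g₁⁻¹ (ρ g₁ (u : V)) = ρ g₁⁻¹ (ρ g₁ (w : V)) := by rw [h3]
    rw [← Module.End.mul_apply, ← Module.End.mul_apply, ← map_mul] at h4
    simp only [inv_mul_cancel, map_one, Module.End.one_apply] at h4
    exact Subtype.ext h4
  have hdim : ∀ i, p * finrank F (eig T Z i) ≤ d := by
    intro i
    let τ : Fin p → ℕ := fun j => i + (j : ℕ) * c g₁
    have hτ : ∀ a b, a ≠ b → ¬ τ a ≡ τ b [MOD p] := by
      intro a b hab hcon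
      apply hab
      have h1 : (a : ℕ) * c g₁ ≡ (b : ℕ) * c g₁ [MOD p] := Nat.ModEq.add_left_cancel' i hcon
      have hcop : Nat.gcd p (c g₁) = 1 := (Nat.Prime.coprime_iff_not_dvd hp.out).mpr hg₁
      have h2 := Nat.ModEq.cancel_right_of_coprime hcop h1
      exact Fin.ext (Nat.ModEq.eq_of_lt_of_lt h2 a.2 b.2)
    have hle : ∀ j : ℕ, finrank F (eig T Z i) ≤ finrank F (eig T Z (i + j * c g₁)) := by
      intro j
      induction j with
      | zero =>
        rw [Nat.zero_mul, Nat.add_zero]
      | succ j ih =>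
        refine ih.trans ?_
        have := hdstep (i + j * c g₁)
        rwa [show i + j * c g₁ + c g₁ = i + (j + 1) * c g₁ by ring] at this
    let ψ : (∀ j : Fin p, eig T Z (τ j)) →ₗ[F] V :=
      LinearMap.lsum F (fun j => eig T Z (τ j)) F (fun j => (eig T Z (τ j)).subtype)
    have hψ : Function.Injective ψ := by
      rw [injective_iff_map_eq_zero]
      intro f hf
      funext j
      apply Subtype.ext
      exact eig_indep hpF T Z hTZ hZp hZ τ hτ (fun j => (f j : V)) (fun j => (f j).2)
        (by simpa [ψ] using hf) j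
    have h3 := LinearMap.finrank_le_finrank_of_injective hψ
    rw [Module.finrank_pi_fintype] at h3
    calc p * finrank F (eig T Z i) = ∑ j : Fin p, finrank F (eig T Z i) := by simp
      _ ≤ ∑ j : Fin p, finrank F (eig T Z (τ j)) :=
        Finset.sum_le_sum (fun j _ => hle j)
      _ ≤ d := by rw [← hd]; exact h3
  -- conclusion
  obtain ⟨m, hm, rfl⟩ := Subgroup.mem_map.mp (derived_le_map M hMc _ hg)
  have hact : ∀ i, ∀ u ∈ eig T Z i, ρ m u = u := by
    intro i u hu
    have hlt' : finrank F (eig T Z i) < orderOf ((Nat.card F : ℕ) : ZMod p) * p ^ k := by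
      have h2 := hdim i
      rw [pow_succ] at hlt
      by_contra hcon
      push Not at hcon
      have h3 := Nat.mul_le_mul_left p hcon
      have h4 : p * (orderOf ((Nat.card F : ℕ) : ZMod p) * p ^ k) =
          orderOf ((Nat.card F : ℕ) : ZMod p) * (p ^ k * p) := by ring
      omega
    have hinvM : ∀ q : M, ∀ w ∈ eig T Z i, (ρ.comp M.subtype) q w ∈ eig T Z i := by
      intro q w hw
      rw [mem_eig] at hw ⊢
      show T (ρ q w) = (Z ^ i) (ρ q w)
      have h3 : ρ q * Z ^ i = Z ^ i * ρ q := ((show Commute (ρ q) Z from hZc q).pow_right i).eq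
      rw [← Module.End.mul_apply, hMT q q.2, Module.End.mul_apply, hw, ← Module.End.mul_apply, h3,
        Module.End.mul_apply]
    have hres := IHk _ (hP.to_subgroup M) (V := eig T Z i)
      (restrictRep (ρ.comp M.subtype) (eig T Z i) hinvM) rfl hlt' m hm
    exact congrArg (fun f : End F (eig T Z i) => ((f ⟨u, hu⟩ : eig T Z i) : V)) hres
  ext v
  obtain ⟨f, hf, hs⟩ := eig_span hpF T Z hTZ hTp hZp hZ v
  have h1 : (p : F) • ρ m v = (p : F) • v := by
    rw [← map_smul, hs, map_sum]
    exact Finset.sum_congr rfl (fun i _ => hact i _ (hf i))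
  exact smul_right_injective V hpF h1

end upper

section wreath

theorem map_derived_le {G : Type*} [Group G] (H : Subgroup G) (i : ℕ) (hH : H ≤ derivedSeries G i)
    (j : ℕ) : (derivedSeries H j).map H.subtype ≤ derivedSeries G (i + j) := by
  induction j with
  | zero =>
    rw [derivedSeries_zero, ← MonoidHom.range_eq_map, Subgroup.range_subtype]
    exact hH
  | succ j ih =>
    rw [derivedSeries_succ H j, Subgroup.map_commutator, ← add_assoc, derivedSeries_succ G (i + j)]
    exact Subgroup.commutator_mono ih ih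

theorem comm_left {W : Type u} [Group W] {Q : Type} [Group Q] [DecidableEq Q] (a : W) {z : Q} (hz : z ≠ 1) :
    ((⁅(⟨Pi.mulSingle 1 a, 1⟩ : W ≀ᵣ Q), (RegularWreathProduct.inl z : W ≀ᵣ Q)⁆ : W ≀ᵣ Q)).left 1 = a := by
  have hz' : z⁻¹ ≠ 1 := by simpa using hz
  rw [commutatorElement_def]
  simp [RegularWreathProduct.mul_left, RegularWreathProduct.inv_left, hz']

/-- The derived length grows in a regular wreath product. -/
theorem derived_wreath {W : Type u} [Group W] {Q : Type} [Group Q] [Nontrivial Q] (j : ℕ)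
    (hW : derivedSeries W j ≠ ⊥) : derivedSeries (W ≀ᵣ Q) (j + 1) ≠ ⊥ := by
  classical
  let H : Subgroup (W ≀ᵣ Q) :=
    derivedSeries (W ≀ᵣ Q) 1 ⊓ (RegularWreathProduct.rightHom : (W ≀ᵣ Q) →* Q).ker
  have hright : ∀ w : H, (w : W ≀ᵣ Q).right = 1 := fun w => w.2.2
  let π : H →* W :=
    { toFun := fun w => (w : W ≀ᵣ Q).left 1
      map_one' := rfl
      map_mul' := by
        intro a b
        show ((a : W ≀ᵣ Q) * (b : W ≀ᵣ Q)).left 1 = _
        rw [RegularWreathProduct.mul_left, hright a]
        simp }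
  have hπ : Function.Surjective π := by
    intro a
    obtain ⟨z, hz⟩ := exists_ne (1 : Q)
    let w : W ≀ᵣ Q := ⟨Pi.mulSingle 1 a, 1⟩
    let σ : W ≀ᵣ Q := RegularWreathProduct.inl z
    have hmem : ⁅w, σ⁆ ∈ H := by
      refine Subgroup.mem_inf.mpr ⟨?_, ?_⟩
      · rw [derivedSeries_one]
        exact Subgroup.commutator_mem_commutator (Subgroup.mem_top _) (Subgroup.mem_top _)
      · rw [MonoidHom.mem_ker, map_commutatorElement]
        have : RegularWreathProduct.rightHom w = (1 : Q) := rfl
        rw [this]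
        simp
    exact ⟨⟨⁅w, σ⁆, hmem⟩, comm_left a hz⟩
  intro hbot
  apply hW
  rw [eq_bot_iff]
  intro v hv
  have h1 := derivedSeries_le_map_derivedSeries hπ j hv
  obtain ⟨u, hu, rfl⟩ := Subgroup.mem_map.mp h1
  have h2 := map_derived_le H 1 inf_le_left j (Subgroup.mem_map_of_mem _ hu)
  rw [add_comm 1 j, hbot, Subgroup.mem_bot] at h2
  have h3 : u = 1 := Subtype.ext h2
  rw [h3, map_one]
  exact Subgroup.one_mem _

variable {F : Type w} [Field F]

/-- The natural representation of a regular wreath product. -/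
def wreathRep {W : Type u} [Group W] {V : Type v} [AddCommGroup V] [Module F V]
    (ρ : W →* End F V) (Q : Type) [Group Q] : (W ≀ᵣ Q) →* End F (Q → V) where
  toFun a :=
    { toFun := fun f x => ρ (a.left x) (f (a.right⁻¹ * x))
      map_add' := by
        intro f g
        funext x
        simp
      map_smul' := by
        intro c f
        funext x
        simp }
  map_one' := by
    apply LinearMap.ext
    intro f
    funext x
    simp
  map_mul' := by
    intro a b
    apply LinearMap.ext
    intro f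
    funext x
    simp [mul_assoc]

theorem wreathRep_apply {W : Type u} [Group W] {V : Type v} [AddCommGroup V] [Module F V]
    (ρ : W →* End F V) (Q : Type) [Group Q] (a : W ≀ᵣ Q) (f : Q → V) (x : Q) :
    wreathRep ρ Q a f x = ρ (a.left x) (f (a.right⁻¹ * x)) := rfl

theorem wreathRep_injective {W : Type u} [Group W] {V : Type v} [AddCommGroup V] [Module F V]
    [Nontrivial V] (ρ : W →* End F V) (hρ : Function.Injective ρ) (Q : Type) [Group Q] :
    Function.Injective (wreathRep ρ Q) := by
  classical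
  rw [injective_iff_map_eq_one]
  intro a ha
  have hact : ∀ (f : Q → V) (x : Q), ρ (a.left x) (f (a.right⁻¹ * x)) = f x := by
    intro f x
    have := congrArg (fun A : End F (Q → V) => A f x) ha
    simpa [wreathRep_apply] using this
  obtain ⟨v, hv⟩ := exists_ne (0 : V)
  have hr : a.right = 1 := by
    by_contra hne
    have h1 := hact (Pi.single 1 v) a.right
    have h2 : (Pi.single 1 v : Q → V) (a.right⁻¹ * a.right) = v := by simp
    rw [h2, Pi.single_eq_of_ne hne] at h1
    have h3 : ρ (a.left a.right)⁻¹ (ρ (a.left a.right) v) = v := by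
      rw [← Module.End.mul_apply, ← map_mul]
      simp
    rw [h1, map_zero] at h3
    exact hv h3.symm
  have hl : ∀ x, a.left x = 1 := by
    intro x
    apply hρ
    rw [map_one]
    apply LinearMap.ext
    intro u
    have := hact (fun _ => u) x
    simpa using this
  apply RegularWreathProduct.ext
  · funext x
    exact hl x
  · exact hr

end wreath

section lower
variable {F : Type w} [Field F] [Finite F] {p : ℕ} [hp : Fact p.Prime]

theorem exists_base {e : ℕ} (he : 0 < e) (hq : ((Nat.card F : ℕ) : ZMod p) ^ e = 1) :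
    ∃ (W : Type) (_ : Group W) (_ : Finite W) (V : Type) (_ : AddCommGroup V) (_ : Module F V)
      (_ : FiniteDimensional F V) (ρ : W →* End F V), Function.Injective ρ ∧ IsPGroup p W ∧
        finrank F V ≤ e ∧ Nontrivial V ∧ derivedSeries W 0 ≠ ⊥ := by
  classical
  haveI := Fintype.ofFinite F
  obtain ⟨r, hr⟩ := CharP.exists F
  haveI hrp : Fact r.Prime := ⟨CharP.char_is_prime F r⟩
  haveI : NeZero e := ⟨he.ne'⟩
  let L := FiniteField.Extension F r e
  have hfin : finrank F L = e := FiniteField.finrank_extension F r e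
  have hcard : Nat.card L = Nat.card F ^ e := FiniteField.natCard_extension F r e
  have hdvd : p ∣ Nat.card Lˣ := by
    rw [Nat.card_units, hcard]
    have h1 : 1 ≤ Nat.card F ^ e := Nat.one_le_pow _ _ Nat.card_pos
    rw [← ZMod.natCast_eq_zero_iff, Nat.cast_sub h1]
    push_cast
    rw [hq]
    simp
  obtain ⟨ζ, hζ⟩ := exists_prime_orderOf_dvd_card' p hdvd
  let W := Subgroup.zpowers ζ
  let ρ : W →* End F L :=
    (Algebra.lmul F L).toMonoidHom.comp ((Units.coeHom L).comp W.subtype)
  refine ⟨W, inferInstance, inferInstance, L, inferInstance, inferInstance, inferInstance, ρ, ?_, ?_,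
    hfin.le, inferInstance, ?_⟩
  · intro a b hab
    have h1 := congrArg (fun A : End F L => A 1) hab
    have h2 : ((a : Lˣ) : L) * 1 = ((b : Lˣ) : L) * 1 := h1
    rw [mul_one, mul_one] at h2
    exact Subtype.ext (Units.ext h2)
  · apply IsPGroup.of_card (n := 1)
    rw [Nat.card_zpowers, hζ, pow_one]
  · rw [derivedSeries_zero]
    haveI : Nontrivial W := by
      rw [← Finite.one_lt_card_iff_nontrivial, Nat.card_zpowers, hζ]
      exact hp.out.one_lt
    exact top_ne_bot

theorem exists_rep {e : ℕ} (he : 0 < e) (hq : ((Nat.card F : ℕ) : ZMod p) ^ e = 1) (k : ℕ) :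
    ∃ (W : Type) (_ : Group W) (_ : Finite W) (V : Type) (_ : AddCommGroup V) (_ : Module F V)
      (_ : FiniteDimensional F V) (ρ : W →* End F V), Function.Injective ρ ∧ IsPGroup p W ∧
        finrank F V ≤ e * p ^ k ∧ Nontrivial V ∧ derivedSeries W k ≠ ⊥ := by
  induction k with
  | zero =>
    simpa using exists_base he hq
  | succ k ih =>
    obtain ⟨W, _, _, V, _, _, _, ρ, hρ, hWp, hdim, hnt, hD⟩ := ih
    have hQc : Nat.card (Multiplicative (ZMod p)) = p := by
      rw [show Nat.card (Multiplicative (ZMod p)) = Nat.card (ZMod p) from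
        Nat.card_congr Multiplicative.toAdd, Nat.card_zmod]
    haveI : Nontrivial (Multiplicative (ZMod p)) := by
      rw [← Finite.one_lt_card_iff_nontrivial, hQc]
      exact hp.out.one_lt
    refine ⟨W ≀ᵣ (Multiplicative (ZMod p)), inferInstance, inferInstance, Multiplicative (ZMod p) → V,
      inferInstance, inferInstance, inferInstance,
      wreathRep ρ _, wreathRep_injective ρ hρ _, ?_, ?_, inferInstance, derived_wreath k hD⟩
    · obtain ⟨a, ha⟩ := IsPGroup.iff_card.mp hWp
      apply IsPGroup.of_card (n := a * p + 1)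
      rw [RegularWreathProduct.card, ha, hQc, pow_succ, ← pow_mul]
    · rw [Module.finrank_pi_fintype]
      simp only [Finset.sum_const, Finset.card_univ, smul_eq_mul]
      rw [← Nat.card_eq_fintype_card, hQc, pow_succ]
      calc p * finrank F V ≤ p * (e * p ^ k) := Nat.mul_le_mul_left _ hdim
        _ = _ := by ring

/-- Embedding in `GL_n`. -/
theorem exists_gl {W : Type} [Group W] {V : Type} [AddCommGroup V] [Module F V] [FiniteDimensional F V]
    (ρ : W →* End F V) (hρ : Function.Injective ρ) {n : ℕ} (hn : finrank F V ≤ n) :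
    ∃ ψ : W →* Matrix.GeneralLinearGroup (Fin n) F, Function.Injective ψ := by
  classical
  let m := n - finrank F V
  let E := V × (Fin m → F)
  have hE : finrank F E = finrank F (Fin n → F) := by
    simp only [E, Module.finrank_prod, Module.finrank_fin_fun, m]
    omega
  let LE : E ≃ₗ[F] (Fin n → F) := LinearEquiv.ofFinrankEq E (Fin n → F) hE
  have hσ1 : ∀ x : E, (LinearMap.prodMap (1 : End F V) (LinearMap.id : (Fin m → F) →ₗ[F] (Fin m → F))) x = x := by
    rintro ⟨a, b⟩
    rfl
  have hσm : ∀ (a b : W) (x : E), (LinearMap.prodMap (ρ a * ρ b) (LinearMap.id : (Fin m → F) →ₗ[F] (Fin m → F))) x =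
      (LinearMap.prodMap (ρ a) (LinearMap.id : (Fin m → F) →ₗ[F] (Fin m → F)))
        ((LinearMap.prodMap (ρ b) (LinearMap.id : (Fin m → F) →ₗ[F] (Fin m → F))) x) := by
    rintro a b ⟨u, v⟩
    rfl
  let τ : W →* End F (Fin n → F) :=
    { toFun := fun g => LE.toLinearMap ∘ₗ ((ρ g).prodMap LinearMap.id) ∘ₗ LE.symm.toLinearMap
      map_one' := by
        apply LinearMap.ext
        intro v
        show LE ((LinearMap.prodMap (ρ 1) LinearMap.id) (LE.symm v)) = v
        rw [map_one, hσ1, LE.apply_symm_apply]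
      map_mul' := by
        intro a b
        apply LinearMap.ext
        intro v
        show LE ((LinearMap.prodMap (ρ (a * b)) LinearMap.id) (LE.symm v)) =
          LE ((LinearMap.prodMap (ρ a) LinearMap.id) (LE.symm (LE ((LinearMap.prodMap (ρ b) LinearMap.id) (LE.symm v)))))
        rw [LE.symm_apply_apply, map_mul, hσm] }
  have hτ : Function.Injective τ := by
    intro a b hab
    apply hρ
    apply LinearMap.ext
    intro v
    have h1 := congrArg (fun A : End F (Fin n → F) => LE.symm (A (LE (v, 0)))) hab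
    simp [τ] at h1
    exact congrArg Prod.fst h1
  let ψ : W →* Matrix.GeneralLinearGroup (Fin n) F :=
    (Units.map (LinearMap.toMatrixAlgEquiv' (R := F) (n := Fin n)).toRingEquiv.toMonoidHom).comp
      τ.toHomUnits
  refine ⟨ψ, ?_⟩
  intro a b hab
  apply hτ
  have h1 : ((ψ a : Matrix.GeneralLinearGroup (Fin n) F) : Matrix (Fin n) (Fin n) F) = ψ b := by rw [hab]
  exact (LinearMap.toMatrixAlgEquiv' (R := F) (n := Fin n)).injective h1

end lower

/-- Let p be an odd prime, F a finite field with q elements where p does not divide q, and e the multiplicative order of q modulo p. Let n ≥ e and write w = ⌊n/e⌋ and k = ⌊log_p w⌋. Then a Sylow p-subgroup of GL(n, F) has derived length exactly k + 1: its (k+1)-st derived subgroup is trivial and its k-th is not. -/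
theorem result (p : ℕ) [Fact p.Prime] (hp : p ≠ 2) (F : Type*) [Field F] [Fintype F] (q : ℕ) (hq : Fintype.card F = q) (hpq : ¬ p ∣ q) (n : ℕ) (hn : orderOf (q : ZMod p) ≤ n) (P : Sylow p (Matrix.GeneralLinearGroup (Fin n) F)) : derivedSeries ↥(P : Subgroup (Matrix.GeneralLinearGroup (Fin n) F)) (Nat.log p (n / orderOf (q : ZMod p)) + 1) = ⊥ ∧ derivedSeries ↥(P : Subgroup (Matrix.GeneralLinearGroup (Fin n) F)) (Nat.log p (n / orderOf (q : ZMod p))) ≠ ⊥ := by
  classical
  have hqc : q = Nat.card F := by rw [Nat.card_eq_fintype_card, hq]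
  subst hqc
  set q := Nat.card F with hqdef
  set e := orderOf ((q : ℕ) : ZMod p) with he
  have hpF : (p : F) ≠ 0 := by
    intro h
    apply hpq
    have h1 : addOrderOf (1 : F) = p := by
      apply addOrderOf_eq_prime
      · rw [← Nat.cast_smul_eq_nsmul F, h, zero_smul]
      · exact one_ne_zero
    rw [← h1, hqdef]
    exact addOrderOf_dvd_natCard _
  have hq0 : ((q : ℕ) : ZMod p) ≠ 0 := by
    rw [Ne, ZMod.natCast_eq_zero_iff]
    exact hpq
  have hepos : 0 < e := by
    rw [he, orderOf_pos_iff, isOfFinOrder_iff_pow_eq_one]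
    exact ⟨p - 1, by have := (Fact.out : p.Prime).two_le; omega, ZMod.pow_card_sub_one_eq_one hq0⟩
  have hqe : ((q : ℕ) : ZMod p) ^ e = 1 := pow_orderOf_eq_one _
  have hdiv : n / e ≠ 0 := by
    rw [Ne, Nat.div_eq_zero_iff]
    omega
  set k := Nat.log p (n / e) with hk
  have h1p : 1 < p := (Fact.out : p.Prime).one_lt
  constructor
  · -- the upper bound
    let ρ : (P : Subgroup (Matrix.GeneralLinearGroup (Fin n) F)) →* End F (Fin n → F) :=
      ((Matrix.toLinAlgEquiv' (R := F) (n := Fin n)).toRingEquiv.toMonoidHom).comp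
        ((Units.coeHom _).comp (P : Subgroup (Matrix.GeneralLinearGroup (Fin n) F)).subtype)
    have hlt : n < e * p ^ (k + 1) := by
      have h2 : n / e < p ^ (k + 1) := Nat.lt_pow_succ_log_self h1p _
      rw [Nat.div_lt_iff_lt_mul hepos] at h2
      rwa [mul_comm] at h2
    have hall := main_upper (p := p) hp hpF (k + 1) n (P := (P : Subgroup (Matrix.GeneralLinearGroup (Fin n) F)))
      P.isPGroup' ρ (by simp) hlt
    rw [eq_bot_iff]
    intro g hg
    have h2 := hall g hg
    rw [Subgroup.mem_bot]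
    apply Subtype.ext
    apply Units.ext
    exact (Matrix.toLinAlgEquiv' (R := F) (n := Fin n)).injective (by
      have e1 : (((1 : (P : Subgroup (Matrix.GeneralLinearGroup (Fin n) F))) :
          Matrix.GeneralLinearGroup (Fin n) F) : Matrix (Fin n) (Fin n) F) = 1 := rfl
      rw [e1, map_one]
      exact h2)
  · -- the lower bound
    have hle : e * p ^ k ≤ n := by
      have h2 : p ^ k ≤ n / e := Nat.pow_log_le_self p hdiv
      have h3 := (Nat.le_div_iff_mul_le hepos).mp h2
      rwa [mul_comm] at h3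
    obtain ⟨W, _, _, V, _, _, _, ρ, hρ, hWp, hdim, hnt, hD⟩ := exists_rep (F := F) (p := p) hepos hqe k
    obtain ⟨ψ, hψ⟩ := exists_gl ρ hρ (hdim.trans hle)
    have hU : IsPGroup p ψ.range := hWp.of_surjective ψ.rangeRestrict ψ.rangeRestrict_surjective
    obtain ⟨S, hS⟩ := hU.exists_le_sylow
    obtain ⟨g, hg⟩ := MulAction.exists_smul_eq (Matrix.GeneralLinearGroup (Fin n) F) S P
    have hmem : ∀ w, g * ψ w * g⁻¹ ∈ (P : Subgroup (Matrix.GeneralLinearGroup (Fin n) F)) := by
      intro w
      rw [← hg, Sylow.coe_subgroup_smul]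
      have h2 : ψ w ∈ (S : Subgroup _) := hS ⟨w, rfl⟩
      exact Subgroup.mem_map.mpr ⟨ψ w, h2, rfl⟩
    let θ : W →* (P : Subgroup (Matrix.GeneralLinearGroup (Fin n) F)) :=
      { toFun := fun w => ⟨g * ψ w * g⁻¹, hmem w⟩
        map_one' := by
          apply Subtype.ext
          simp
        map_mul' := by
          intro a b
          apply Subtype.ext
          simp [mul_assoc] }
    have hθ : Function.Injective θ := by
      intro a b hab
      have h2 : g * ψ a * g⁻¹ = g * ψ b * g⁻¹ := congrArg Subtype.val hab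
      apply hψ
      simpa using h2
    intro hbot
    apply hD
    rw [eq_bot_iff]
    intro v hv
    have h2 := map_derivedSeries_le_derivedSeries θ k (Subgroup.mem_map_of_mem θ hv)
    rw [hbot, Subgroup.mem_bot] at h2
    rw [Subgroup.mem_bot]
    exact hθ (by rw [h2, map_one])

end Cfsg.Agent.S4015
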