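import Cfsg.Statements.S4020
-- import your own Cfsg.Agent.* helpers here
import Cfsg.Agent.Lib.SameOrdA
import Cfsg.Agent.Lib.SameOrdMain

set_option autoImplicit false
open Cfsg

namespace Cfsg.Agent.S4020

theorem iso_of_conj {G : Type*} [Group G] [Finite G] {q : ℕ}
    (hD : ∀ H K : Subgroup G, IsPGroup q H → IsPGroup q K → Nat.card H = Nat.card K →
      ∃ g : G, K = H.map (MulAut.conj g).toMonoidHom) (P : Subgroup G) (hP : IsPGroup q P)
    (A B : Subgroup P) (hAB : Nat.card A = Nat.card B) : Nonempty (A ≃* B) := by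
  have hA : IsPGroup q (A.map P.subtype) := (hP.to_subgroup A).map _
  have hB : IsPGroup q (B.map P.subtype) := (hP.to_subgroup B).map _
  have e1 := A.equivMapOfInjective P.subtype P.subtype_injective
  have e2 := B.equivMapOfInjective P.subtype P.subtype_injective
  obtain ⟨g, hg⟩ := hD _ _ hA hB (by
    rw [Nat.card_congr e1.symm.toEquiv, Nat.card_congr e2.symm.toEquiv, hAB])
  have e3 := (MulAut.conj g).subgroupMap (A.map P.subtype)
  exact ⟨(e1.trans e3).trans ((MulEquiv.subgroupCongr hg.symm).trans e2.symm)⟩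

/-- Let G be a finite group in which, for every prime p, any two p-subgroups of the same order are conjugate. Then every Sylow subgroup of G is cyclic, elementary abelian, or a quaternion group of order 8. -/
theorem result {G : Type*} [Group G] [Finite G]
    (hD : ∀ p : ℕ, p.Prime → ∀ H K : Subgroup G, IsPGroup p H → IsPGroup p K → Nat.card H = Nat.card K →
      ∃ g : G, K = H.map (MulAut.conj g).toMonoidHom) {p : ℕ} [Fact p.Prime] (P : Sylow p G) :
    IsCyclic P ∨ Cfsg.IsElementaryAbelian p (P : Subgroup G) ∨ Nonempty ((P : Subgroup G) ≃* QuaternionGroup 2) := by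
  classical
  have hpp : p.Prime := Fact.out
  have h2 : ∀ T : Sylow 2 G, IsCyclic (T : Subgroup G) ∨ (∀ u ∈ (T : Subgroup G), u ^ 2 = 1) ∨
      Nonempty ((T : Subgroup G) ≃* QuaternionGroup 2) := by
    intro T
    rcases Cfsg.Agent.Lib.SameOrdA.classify T.isPGroup' (iso_of_conj (hD 2 Nat.prime_two) _ T.isPGroup') with
      h | h | ⟨_, h⟩ | ⟨h, _, x, y, hxy⟩
    · exact Or.inl h
    · exact Or.inr (Or.inr h)
    · refine Or.inr (Or.inl fun u hu => ?_)
      exact congrArg Subtype.val (h ⟨u, hu⟩)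
    · exfalso
      apply hxy
      have h1 : ∀ z : (T : Subgroup G), z⁻¹ = z := fun z => by
        rw [inv_eq_iff_mul_eq_one, ← pow_two]; exact h z
      have h3 := h1 (x * y)
      rw [mul_inv_rev, h1, h1] at h3
      exact h3.symm
  rcases Cfsg.Agent.Lib.SameOrdA.classify P.isPGroup' (iso_of_conj (hD p hpp) _ P.isPGroup') with
    h | h | ⟨h₁, h₂⟩ | ⟨h, hc, x, y, hxy⟩
  · exact Or.inl h
  · exact Or.inr (Or.inr h)
  · refine Or.inr (Or.inl ⟨⟨⟨h₁⟩⟩, fun a ha => ?_⟩)
    exact congrArg Subtype.val (h₂ ⟨a, ha⟩)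
  · exfalso
    have hES : Cfsg.Agent.Lib.SameOrdES.ES p (P : Subgroup G) := by
      refine ⟨hc, fun s hs => congrArg Subtype.val (h ⟨s, hs⟩), x, x.2, y, y.2, fun h' => hxy (Subtype.ext h')⟩
    have hp2 : p ≠ 2 := by
      rintro rfl
      apply hxy
      have h1 : ∀ z : (P : Subgroup G), z⁻¹ = z := fun z => by
        rw [inv_eq_iff_mul_eq_one, ← pow_two]; exact h z
      have h3 := h1 (x * y)
      rw [mul_inv_rev, h1, h1] at h3
      exact h3.symm
    exact Cfsg.Agent.Lib.SameOrdMain.no_ES hES hp2 (hD p hpp) h2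

end Cfsg.Agent.S4020
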