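import Mathlib
import Cfsg.Statements.S4022
import Cfsg.Agent.Lib.CoprimeInv
import Cfsg.Agent.Lib.Coprime
import Cfsg.Agent.Lib.OddPGroup
import Cfsg.Agent.Lib.PCore
import Cfsg.Agent.Lib.SylowNum
import Cfsg.Agent.Lib.H73Hom

set_option autoImplicit false
set_option linter.style.haveILetI false
set_option linter.unusedVariables false
set_option linter.unusedSectionVars false
open Cfsg

namespace Cfsg.Agent.S4022

open Subgroup Cfsg.Agent.Lib.CoprimeInv

universe u

/-- The hypothesis. -/
abbrev HD (G : Type u) [Group G] : Prop :=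
  ∀ p : ℕ, p.Prime → ∀ H K : Subgroup G, IsPGroup p H → IsPGroup p K → Nat.card H = Nat.card K →
    ∃ g : G, K = cj H g

theorem map_cj {G G' : Type*} [Group G] [Group G'] (f : G →* G') (H : Subgroup G) (g : G) :
    (cj H g).map f = cj (H.map f) (f g) := by
  ext x
  constructor
  · rintro ⟨_, ⟨h, hh, rfl⟩, rfl⟩
    exact ⟨f h, ⟨h, hh, rfl⟩, by simp⟩
  · rintro ⟨_, ⟨h, hh, rfl⟩, rfl⟩
    exact ⟨g * h * g⁻¹, ⟨h, hh, by simp⟩, by simp⟩

section
variable {G : Type u} [Group G] [Finite G]

theorem HD_quotient (hD : HD G) (V : Subgroup G) [V.Normal] : HD (G ⧸ V) := by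
  intro p hp A B hA hB hAB
  haveI : Fact p.Prime := ⟨hp⟩
  let π := QuotientGroup.mk' V
  have hπ : Function.Surjective π := QuotientGroup.mk'_surjective V
  -- lifting
  have lift : ∀ C : Subgroup (G ⧸ V), IsPGroup p C →
      ∃ C₀ : Subgroup G, IsPGroup p C₀ ∧ C₀.map π = C ∧
        Nat.card C₀ = p ^ (Nat.card (C.comap π)).factorization p := by
    intro C hC
    let f : C.comap π →* C := π.subgroupComap C
    have hf : Function.Surjective f := π.subgroupComap_surjective_of_surjective C hπ
    obtain ⟨S⟩ : Nonempty (Sylow p (C.comap π)) := inferInstance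
    refine ⟨(S : Subgroup (C.comap π)).map (C.comap π).subtype, S.isPGroup'.map _, ?_, ?_⟩
    · apply le_antisymm
      · rintro _ ⟨_, ⟨s, hs, rfl⟩, rfl⟩
        exact s.2
      · intro x hx
        have h1 : ((S.mapSurjective hf : Sylow p C) : Subgroup C) = ⊤ := by
          have h2 := (S.mapSurjective hf).3 (Q := ⊤)
            (IsPGroup.of_equiv hC (Subgroup.topEquiv (G := C)).symm) le_top
          exact h2.symm
        have h3 : (⟨x, hx⟩ : C) ∈ ((S.mapSurjective hf : Sylow p C) : Subgroup C) := by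
          rw [h1]; trivial
        rw [Sylow.coe_mapSurjective] at h3
        obtain ⟨s, hs, hsx⟩ := h3
        refine ⟨_, ⟨s, hs, rfl⟩, ?_⟩
        exact congrArg Subtype.val hsx
    · rw [Subgroup.card_map_of_injective (C.comap π).subtype_injective]
      exact S.card_eq_multiplicity
  obtain ⟨A₀, hA₀, hA₁, hA₂⟩ := lift A hA
  obtain ⟨B₀, hB₀, hB₁, hB₂⟩ := lift B hB
  have hcard : Nat.card (A.comap π) = Nat.card (B.comap π) := by
    have h1 := Cfsg.Agent.Lib.Coprime.card_comap_mk V A
    have h2 := Cfsg.Agent.Lib.Coprime.card_comap_mk V B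
    show Nat.card (A.comap (QuotientGroup.mk' V)) = Nat.card (B.comap (QuotientGroup.mk' V))
    rw [h1, h2, hAB]
  obtain ⟨g, hg⟩ := hD p hp A₀ B₀ hA₀ hB₀ (by rw [hA₂, hB₂, hcard])
  refine ⟨π g, ?_⟩
  rw [← hB₁, hg, map_cj, hA₁]

theorem cyc_of_surjective {G' : Type*} [Group G'] (f : G →* G') (hf : Function.Surjective f) {p : ℕ}
    [Fact p.Prime] (h : ∀ P : Sylow p G, IsCyclic P) : ∀ P : Sylow p G', IsCyclic P := by
  intro P
  obtain ⟨Q, rfl⟩ := Sylow.mapSurjective_surjective hf p P
  haveI := h Q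
  let φ : Q →* (Q.mapSurjective hf : Sylow p G') :=
    (f.comp (Q : Subgroup G).subtype).codRestrict _ (fun x => by
      show f x ∈ ((Q.mapSurjective hf : Sylow p G') : Subgroup G')
      rw [Sylow.coe_mapSurjective]
      exact ⟨x, x.2, rfl⟩)
  apply isCyclic_of_surjective φ
  rintro ⟨y, hy⟩
  have hy' := hy
  change y ∈ ((Q.mapSurjective hf : Sylow p G') : Subgroup G') at hy'
  rw [Sylow.coe_mapSurjective] at hy'
  obtain ⟨x, hx, rfl⟩ := hy'
  exact ⟨⟨x, hx⟩, rfl⟩

theorem cyc_subgroup (S : Subgroup G) {p : ℕ} [Fact p.Prime] (h : ∀ P : Sylow p G, IsCyclic P) :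
    ∀ P : Sylow p S, IsCyclic P := by
  intro P
  have hP : IsPGroup p ((P : Subgroup S).map S.subtype) := P.isPGroup'.map _
  obtain ⟨Q, hQ⟩ := hP.exists_le_sylow
  haveI := h Q
  let φ : P →* Q := (S.subtype.comp (P : Subgroup S).subtype).codRestrict _ (fun x => hQ ⟨x, x.2, rfl⟩)
  apply isCyclic_of_injective φ
  intro a b hab
  have := congrArg Subtype.val hab
  exact Subtype.ext (Subtype.ext this)

theorem HD_of_cyc (h : ∀ p : ℕ, p.Prime → ∀ P : Sylow p G, IsCyclic P) : HD G := by
  intro p hp A B hA hB hAB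
  haveI : Fact p.Prime := ⟨hp⟩
  obtain ⟨P₁, hP₁⟩ := hA.exists_le_sylow
  obtain ⟨P₂, hP₂⟩ := hB.exists_le_sylow
  obtain ⟨g, rfl⟩ := MulAction.exists_smul_eq G P₁ P₂
  refine ⟨g, ?_⟩
  have hle : cj A g ≤ ((g • P₁ : Sylow p G) : Subgroup G) := by
    rintro _ ⟨a, ha, rfl⟩
    exact (Cfsg.Agent.Lib.SylowNum.conj_mem_smul_sylow P₁ g a).2 (hP₁ ha)
  haveI := h p hp (g • P₁)
  have e1 : Nat.card (B.subgroupOf ((g • P₁ : Sylow p G) : Subgroup G)) = Nat.card B :=
    Nat.card_congr (Subgroup.subgroupOfEquivOfLe hP₂).toEquiv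
  have e2 : Nat.card ((cj A g).subgroupOf ((g • P₁ : Sylow p G) : Subgroup G)) = Nat.card (cj A g) :=
    Nat.card_congr (Subgroup.subgroupOfEquivOfLe hle).toEquiv
  have h1 := Cfsg.Agent.Lib.OddPGroup.eq_of_card_of_isCyclic (B := ((g • P₁ : Sylow p G) : Subgroup G))
    (H := B.subgroupOf _) (K := (cj A g).subgroupOf _) (by rw [e1, e2, card_cj, hAB])
  exact (Subgroup.subgroupOf_inj.1 h1 |> fun h2 => by
    rw [inf_eq_left.2 hP₂, inf_eq_left.2 hle] at h2
    exact h2)

/-- The coprime case. -/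
theorem conj_of_compl {X : Type u} [Group X] [Finite X] (V : Subgroup X) [V.Normal] (hs : Group.IsSolvable V)
    (hIH : ∀ A B : Subgroup (X ⧸ V), Nat.card A = Nat.card B → ∃ g : X ⧸ V, B = cj A g)
    (U U' : Subgroup X) (hc : Nat.card U = Nat.card U') (hcop : Nat.Coprime (Nat.card V) (Nat.card U)) :
    ∃ g : X, U' = cj U g := by
  let π := QuotientGroup.mk' V
  have hπ : Function.Surjective π := QuotientGroup.mk'_surjective V
  have hker : π.ker = V := QuotientGroup.ker_mk' V
  have hdU : ∀ W : Subgroup X, Nat.card W = Nat.card U → V ⊓ W = ⊥ := by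
    intro W hW
    rw [← disjoint_iff]
    apply Subgroup.disjoint_of_coprime_natCard
    rw [hW]; exact hcop
  have hcardmap : ∀ W : Subgroup X, Nat.card W = Nat.card U → Nat.card (W.map π) = Nat.card W := by
    intro W hW
    apply Cfsg.Agent.Lib.Coprime.card_map_eq_of_disjoint
    rw [hker, disjoint_iff, inf_comm]
    exact hdU W hW
  obtain ⟨gb, hgb⟩ := hIH (U.map π) (U'.map π) (by
    rw [hcardmap U rfl, hcardmap U' hc.symm, hc])
  obtain ⟨g, rfl⟩ := hπ gb
  rw [← map_cj] at hgb
  have hsup : V ⊔ cj U g = V ⊔ U' := by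
    have := Subgroup.map_eq_map_iff.1 hgb
    rw [hker] at this
    rw [sup_comm, ← this, sup_comm]
  have hN : ∀ W : Subgroup X, W ≤ normalizer (V : Set X) := by
    intro W
    rw [normalizer_eq_top_iff.2 inferInstance]
    exact le_top
  obtain ⟨n, hn, hU'⟩ := exists_conj_rel hs (hN (cj U g)) (hN U') (hdU _ (card_cj U g))
    (hdU _ hc.symm) hsup (by rw [card_cj]; exact hcop)
  refine ⟨n * g, ?_⟩
  rw [hU', cj_cj]

theorem exists_compl (H V : Subgroup G) [V.Normal] (hc : Nat.Coprime (Nat.card V) V.index) :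
    ∃ U : Subgroup G, U ≤ H ∧ Nat.card U = V.relIndex H ∧ U ⊔ (H ⊓ V) = H := by
  have hcd : Nat.card (V.subgroupOf H) ∣ Nat.card V := Cfsg.Agent.Lib.Coprime.card_subgroupOf_dvd V H
  have hid : (V.subgroupOf H).index ∣ V.index := Subgroup.relIndex_dvd_index_of_normal V H
  have hc' : Nat.Coprime (Nat.card (V.subgroupOf H)) (V.subgroupOf H).index :=
    Nat.Coprime.coprime_dvd_left hcd (Nat.Coprime.coprime_dvd_right hid hc)
  obtain ⟨U₀, hU₀⟩ := Subgroup.exists_right_complement'_of_coprime hc'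
  refine ⟨U₀.map H.subtype, map_subtype_le _, ?_, ?_⟩
  · rw [card_map_of_injective H.subtype_injective]
    have h1 := hU₀.card_mul_card
    have h2 := Subgroup.card_mul_index (V.subgroupOf H)
    have hpos : 0 < Nat.card (V.subgroupOf H) := Nat.card_pos
    exact Nat.eq_of_mul_eq_mul_left hpos (h1.trans h2.symm)
  · apply le_antisymm
    · exact sup_le (map_subtype_le _) inf_le_left
    · intro h hh
      obtain ⟨⟨⟨a, ha⟩, ⟨s, hs⟩⟩, e⟩ := hU₀.2 ⟨h, hh⟩
      have e' : (a : G) * s = h := congrArg Subtype.val e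
      rw [← e', sup_comm]
      refine mul_mem_sup ⟨a.2, ha⟩ ⟨s, hs, rfl⟩

/-- The case of equal intersections with a normal abelian Hall subgroup. -/
theorem conj_of_inf_eq (V : Subgroup G) [hVn : V.Normal] (hc : Nat.Coprime (Nat.card V) V.index)
    (hab : ∀ a ∈ V, ∀ b ∈ V, a * b = b * a) (H K : Subgroup G) (hHK : Nat.card H = Nat.card K)
    (hinf : H ⊓ V = K ⊓ V)
    (hIH : ∀ N : Subgroup G, ∀ A B : Subgroup (N ⧸ V.subgroupOf N), Nat.card A = Nat.card B →
      ∃ g : N ⧸ V.subgroupOf N, B = cj A g) :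
    ∃ g : G, K = cj H g := by
  set A := H ⊓ V with hA
  set N := normalizer (A : Set G) with hN
  have hVN : V ≤ N := by
    intro v hv
    apply Cfsg.Agent.Lib.H73Hom.mem_normalizer_of_conj_mem
    intro a ha
    rw [hab v hv a ha.2]
    simpa using ha
  have hHN : ∀ L : Subgroup G, L ⊓ V = A → L ≤ N := by
    intro L hL l hl
    apply Cfsg.Agent.Lib.H73Hom.mem_normalizer_of_conj_mem
    intro a ha
    rw [← hL] at ha ⊢
    exact ⟨L.mul_mem (L.mul_mem hl ha.1) (L.inv_mem hl), hVn.conj_mem a ha.2 l⟩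
  obtain ⟨U, hUH, hUc, hUs⟩ := exists_compl H V hc
  obtain ⟨U', hUK, hUc', hUs'⟩ := exists_compl K V hc
  have hrel : V.relIndex H = V.relIndex K := by
    have h1 := Subgroup.card_mul_index (V.subgroupOf H)
    have h2 := Subgroup.card_mul_index (V.subgroupOf K)
    have e1 : Nat.card (V.subgroupOf H) = Nat.card (H ⊓ V : Subgroup G) := by
      rw [inf_comm, ← Subgroup.subgroupOf_map_subtype, card_map_of_injective H.subtype_injective]
    have e2 : Nat.card (V.subgroupOf K) = Nat.card (K ⊓ V : Subgroup G) := by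
      rw [inf_comm, ← Subgroup.subgroupOf_map_subtype, card_map_of_injective K.subtype_injective]
    rw [e1] at h1
    rw [e2, ← hinf] at h2
    have hpos : 0 < Nat.card (H ⊓ V : Subgroup G) := Nat.card_pos
    exact Nat.eq_of_mul_eq_mul_left hpos (h1.trans (hHK.trans h2.symm))
  have hUN : U ≤ N := hUH.trans (hHN H rfl)
  have hUN' : U' ≤ N := hUK.trans (hHN K hinf.symm)
  haveI : (V.subgroupOf N).Normal := inferInstance
  have hsV : Group.IsSolvable (V.subgroupOf N) := by
    apply Group.isSolvable_of_comm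
    intro a b
    apply Subtype.ext
    apply Subtype.ext
    exact hab _ a.2 _ b.2
  have e1 : Nat.card (V.subgroupOf N) = Nat.card V :=
    Nat.card_congr (Subgroup.subgroupOfEquivOfLe hVN).toEquiv
  have e2 : Nat.card (U.subgroupOf N) = Nat.card U :=
    Nat.card_congr (Subgroup.subgroupOfEquivOfLe hUN).toEquiv
  have e3 : Nat.card (U'.subgroupOf N) = Nat.card U' :=
    Nat.card_congr (Subgroup.subgroupOfEquivOfLe hUN').toEquiv
  obtain ⟨c, hcU⟩ := conj_of_compl (V.subgroupOf N) hsV (hIH N) (U.subgroupOf N) (U'.subgroupOf N)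
    (by rw [e2, e3, hUc, hUc', hrel]) (by
      rw [e1, e2, hUc]
      exact Nat.Coprime.coprime_dvd_right (Subgroup.relIndex_dvd_index_of_normal V H) hc)
  have hU'eq : U' = cj U (c : G) := by
    have h1 := congrArg (Subgroup.map N.subtype) hcU
    rw [Subgroup.subgroupOf_map_subtype, inf_eq_left.2 hUN', map_cj,
      Subgroup.subgroupOf_map_subtype, inf_eq_left.2 hUN] at h1
    exact h1
  refine ⟨c, ?_⟩
  have hcA : cj A (c : G) = A := cj_eq_of_mem_normalizer c.2
  have h2 : H = U ⊔ A := hUs.symm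
  have h3 : cj (U ⊔ A) (c : G) = cj U (c : G) ⊔ cj A (c : G) := Subgroup.map_sup _ _ _
  rw [h2, h3, hcA, ← hU'eq, hinf]
  exact hUs'.symm

theorem exists_elem_normal [Nontrivial G] [Group.IsSolvable G] :
    ∃ q : ℕ, q.Prime ∧ ∃ V : Subgroup G, V.Normal ∧ V ≠ ⊥ ∧ (∀ v ∈ V, v ^ q = 1) ∧
      ∀ a ∈ V, ∀ b ∈ V, a * b = b * a := by
  obtain ⟨A, hAn, hAne, -, hAab⟩ :=
    Cfsg.Agent.Lib.PCore.exists_abelian_normal_le (⊤ : Subgroup G) inferInstance top_ne_bot
  have hAcomm : ∀ a ∈ A, ∀ b ∈ A, a * b = b * a := by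
    intro a ha b hb
    have := Subgroup.commutator_mem_commutator ha hb
    rw [hAab, mem_bot] at this
    exact commutatorElement_eq_one_iff_mul_comm.1 this
  have hcard : Nat.card A ≠ 1 := fun h => hAne (Subgroup.card_eq_one.1 h)
  obtain ⟨q, hq, hqd⟩ := Nat.exists_prime_and_dvd hcard
  haveI := Fact.mk hq
  obtain ⟨x, hx⟩ := exists_prime_orderOf_dvd_card' q hqd
  have hx1 : ((x : A) : G) ≠ 1 := by
    intro h
    have h1 : x = 1 := Subtype.ext h
    rw [h1, orderOf_one] at hx
    exact hq.one_lt.ne hx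
  have hxq : ((x : A) : G) ^ q = 1 := by
    have h1 : x ^ q = 1 := by rw [← hx]; exact pow_orderOf_eq_one x
    exact congrArg Subtype.val h1
  refine ⟨q, hq, ?_⟩
  let V : Subgroup G :=
    { carrier := {a | a ∈ A ∧ a ^ q = 1}
      mul_mem' := by
        rintro a b ⟨ha, ha'⟩ ⟨hb, hb'⟩
        refine ⟨A.mul_mem ha hb, ?_⟩
        have : Commute a b := hAcomm a ha b hb
        rw [this.mul_pow, ha', hb', one_mul]
      one_mem' := ⟨A.one_mem, one_pow q⟩
      inv_mem' := by
        rintro a ⟨ha, ha'⟩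
        exact ⟨A.inv_mem ha, by rw [inv_pow, ha', inv_one]⟩ }
  refine ⟨V, ?_, ?_, fun v hv => hv.2, fun a ha b hb => hAcomm a ha.1 b hb.1⟩
  · constructor
    rintro a ⟨ha, ha'⟩ g
    refine ⟨hAn.conj_mem a ha g, ?_⟩
    rw [conj_pow, ha']
    simp
  · intro h
    have : ((x : A) : G) ∈ V := ⟨x.2, hxq⟩
    rw [h, mem_bot] at this
    exact hx1 this

theorem big_case (hD : HD G) {q : ℕ} [hq : Fact q.Prime] (V : Subgroup G) [hVn : V.Normal]
    (hexp : ∀ v ∈ V, v ^ q = 1) (hcard : q ^ 2 ≤ Nat.card V) :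
    ∃ P : Sylow q G, (P : Subgroup G) = V := by
  have hpp := hq.out
  have hVp : IsPGroup q V := by
    intro v
    exact ⟨1, by rw [pow_one]; exact Subtype.ext (hexp v v.2)⟩
  obtain ⟨k, hk⟩ := IsPGroup.iff_card.1 hVp
  have hk2 : 2 ≤ k := by
    rw [hk] at hcard
    exact (Nat.pow_le_pow_iff_right hpp.one_lt).1 hcard
  obtain ⟨P, hP⟩ := hVp.exists_le_sylow
  refine ⟨P, le_antisymm ?_ hP⟩
  intro x hxP
  have hxq : x ^ q = 1 := by
    by_contra hx
    obtain ⟨m, hm⟩ := (IsPGroup.iff_orderOf.1 P.isPGroup') ⟨x, hxP⟩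
    rw [Subgroup.orderOf_mk] at hm
    have hm2 : 2 ≤ m := by
      by_contra hm2
      have hm3 : m ≤ 1 := by omega
      apply hx
      have h3 : orderOf x ∣ q := by
        rw [hm]
        simpa using pow_dvd_pow q hm3
      exact orderOf_dvd_iff_pow_eq_one.1 h3
    have hd : q ^ 2 ∣ orderOf x := by
      rw [hm]; exact pow_dvd_pow q hm2
    have h4 : orderOf (x ^ (orderOf x / q ^ 2)) = q ^ 2 :=
      orderOf_pow_orderOf_div (orderOf_pos x).ne' hd
    obtain ⟨Y, hY⟩ := Sylow.exists_subgroup_card_pow_prime q (n := 2) (by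
      rw [hk]; exact pow_dvd_pow q hk2 : q ^ 2 ∣ Nat.card V)
    have hY' : Nat.card (Y.map V.subtype) = q ^ 2 := by
      rw [card_map_of_injective V.subtype_injective, hY]
    obtain ⟨g, hg⟩ := hD q hpp (zpowers (x ^ (orderOf x / q ^ 2))) (Y.map V.subtype)
      (by rw [IsPGroup.iff_card, Nat.card_zpowers, h4]; exact ⟨2, rfl⟩)
      (IsPGroup.of_card hY') (by rw [hY', Nat.card_zpowers, h4])
    have hmem : g * (x ^ (orderOf x / q ^ 2)) * g⁻¹ ∈ Y.map V.subtype := by
      rw [hg]
      exact conj_mem_cj (mem_zpowers _)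
    have hmemV : g * (x ^ (orderOf x / q ^ 2)) * g⁻¹ ∈ V := map_subtype_le _ hmem
    have h5 := hexp _ hmemV
    rw [conj_pow] at h5
    have h6 : (x ^ (orderOf x / q ^ 2)) ^ q = 1 := by
      have : g * (x ^ (orderOf x / q ^ 2)) ^ q * g⁻¹ = 1 := h5
      rw [mul_inv_eq_one] at this
      exact mul_left_cancel (this.trans (mul_one g).symm)
    have h7 := orderOf_dvd_of_pow_eq_one h6
    rw [h4] at h7
    have h8 := Nat.le_of_dvd hpp.pos h7
    have : q ^ 1 < q ^ 2 := Nat.pow_lt_pow_right hpp.one_lt (by norm_num)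
    rw [pow_one] at this
    omega
  by_contra hxV
  have hx1 : x ≠ 1 := by
    rintro rfl
    exact hxV (one_mem _)
  have how : orderOf x = q := orderOf_eq_prime hxq hx1
  have hd : q ^ k ∣ Nat.card G := by
    rw [← hk]; exact Subgroup.card_subgroup_dvd_card V
  obtain ⟨K, hK, hle⟩ := Sylow.exists_subgroup_card_pow_prime_le q hd (zpowers x) (n := 1)
    (by rw [Nat.card_zpowers, how, pow_one]) (by omega)
  obtain ⟨g, hg⟩ := hD q hpp V K hVp (IsPGroup.of_card hK) (by rw [hk, hK])
  have hxK : x ∈ K := hle (mem_zpowers x)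
  rw [hg] at hxK
  obtain ⟨a, ha, rfl⟩ := hxK
  exact hxV (hVn.conj_mem a ha g)

theorem card_inf_eq (V : Subgroup G) [V.Normal] {q : ℕ} [hq : Fact q.Prime] (hV : IsPGroup q V)
    (hqV : q ∣ Nat.card V) (hc : Nat.Coprime (Nat.card V) V.index) (H K : Subgroup G)
    (hHK : Nat.card H = Nat.card K) : Nat.card (H ⊓ V : Subgroup G) = Nat.card (K ⊓ V : Subgroup G) := by
  have hpp := hq.out
  have hqi : ∀ L : Subgroup G, Nat.Coprime q (V.relIndex L) := by
    intro L
    apply Nat.Coprime.coprime_dvd_right (Subgroup.relIndex_dvd_index_of_normal V L)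
    exact Nat.Coprime.coprime_dvd_left hqV hc
  have hdec : ∀ L : Subgroup G, Nat.card (L ⊓ V : Subgroup G) * V.relIndex L = Nat.card L := by
    intro L
    have h1 := Subgroup.card_mul_index (V.subgroupOf L)
    have e1 : Nat.card (V.subgroupOf L) = Nat.card (L ⊓ V : Subgroup G) := by
      rw [inf_comm, ← Subgroup.subgroupOf_map_subtype, card_map_of_injective L.subtype_injective]
    rw [e1] at h1
    exact h1
  have hp : ∀ L : Subgroup G, ∃ i, Nat.card (L ⊓ V : Subgroup G) = q ^ i := by
    intro L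
    exact IsPGroup.iff_card.1 (hV.to_le inf_le_right)
  obtain ⟨i, hi⟩ := hp H
  obtain ⟨j, hj⟩ := hp K
  have h1 := hdec H
  have h2 := hdec K
  rw [hi] at h1 ⊢
  rw [hj] at h2 ⊢
  have h3 : q ^ i * V.relIndex H = q ^ j * V.relIndex K := by rw [h1, h2, hHK]
  have hij : i ≤ j := by
    have : q ^ i ∣ q ^ j * V.relIndex K := ⟨V.relIndex H, h3.symm⟩
    have h4 := (Nat.Coprime.pow_left i (hqi K)).dvd_of_dvd_mul_right this
    exact (Nat.pow_dvd_pow_iff_le_right hpp.one_lt).1 h4
  have hji : j ≤ i := by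
    have : q ^ j ∣ q ^ i * V.relIndex H := ⟨V.relIndex K, h3⟩
    have h4 := (Nat.Coprime.pow_left j (hqi H)).dvd_of_dvd_mul_right this
    exact (Nat.pow_dvd_pow_iff_le_right hpp.one_lt).1 h4
  rw [le_antisymm hij hji]

end

/-- The main induction. -/
theorem main : ∀ (n : ℕ) (G : Type u) [Group G] [Finite G] [Group.IsSolvable G], Nat.card G = n → HD G →
    ∀ r : ℕ, (∀ p : ℕ, p.Prime → p ≠ r → ∀ P : Sylow p G, IsCyclic P) →
    ∀ H K : Subgroup G, Nat.card H = Nat.card K → ∃ g : G, K = cj H g := by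
  intro n
  induction n using Nat.strong_induction_on with
  | _ n ih =>
  intro G _ _ _ hn hD r hcyc H K hHK
  rcases subsingleton_or_nontrivial G with hs | hnt
  · exact ⟨1, by rw [cj_one]; exact Subsingleton.elim _ _⟩
  obtain ⟨q, hq, V, hVn, hVne, hexp, hab⟩ := exists_elem_normal (G := G)
  haveI := Fact.mk hq
  haveI := hVn
  have hVp : IsPGroup q V := by
    intro v
    exact ⟨1, by rw [pow_one]; exact Subtype.ext (hexp v v.2)⟩
  have hVcard1 : 1 < Nat.card V := by
    by_contra h
    have h1 : Nat.card V = 1 := by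
      have := Nat.card_pos (α := V)
      omega
    exact hVne (Subgroup.card_eq_one.1 h1)
  have hqV : q ∣ Nat.card V := by
    obtain ⟨k, hk⟩ := IsPGroup.iff_card.1 hVp
    rw [hk]
    apply dvd_pow_self
    rintro rfl
    rw [hk, pow_zero] at hVcard1
    exact lt_irrefl _ hVcard1
  have hIHq : ∀ A B : Subgroup (G ⧸ V), Nat.card A = Nat.card B → ∃ g : G ⧸ V, B = cj A g := by
    intro A B hAB
    have hlt : Nat.card (G ⧸ V) < n := by
      rw [← hn]
      exact Cfsg.Agent.Lib.Coprime.card_quotient_lt hVne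
    refine ih _ hlt (G ⧸ V) rfl (HD_quotient hD V) r ?_ A B hAB
    intro p hp hpr
    haveI := Fact.mk hp
    exact cyc_of_surjective (QuotientGroup.mk' V) (QuotientGroup.mk'_surjective V) (hcyc p hp hpr)
  have hsV : Group.IsSolvable V := by
    apply Group.isSolvable_of_comm
    intro a b
    exact Subtype.ext (hab _ a.2 _ b.2)
  by_cases hbig : q ^ 2 ≤ Nat.card V
  · -- the big case
    obtain ⟨P, hP⟩ := big_case hD V hexp hbig
    have hcV : Nat.Coprime (Nat.card V) V.index := by
      have := P.card_coprime_index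
      rwa [hP] at this
    have hqr : q = r := by
      by_contra hqr
      haveI := hcyc q hq hqr P
      have hPcyc : IsCyclic V := by
        rw [← hP]
        infer_instance
      obtain ⟨g, hg⟩ := IsCyclic.exists_generator (α := V)
      have h1 := orderOf_eq_card_of_forall_mem_zpowers hg
      have h2 : g ^ q = 1 := Subtype.ext (hexp g g.2)
      have h3 := orderOf_dvd_of_pow_eq_one h2
      rw [h1] at h3
      have h4 := Nat.le_of_dvd hq.pos h3
      have : q ^ 1 < q ^ 2 := Nat.pow_lt_pow_right hq.one_lt (by norm_num)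
      rw [pow_one] at this
      omega
    have hinfc := card_inf_eq V hVp hqV hcV H K hHK
    obtain ⟨g, hg⟩ := hD q hq (H ⊓ V) (K ⊓ V) (hVp.to_le inf_le_right) (hVp.to_le inf_le_right) hinfc
    have hIHN : ∀ N : Subgroup G, ∀ A B : Subgroup (N ⧸ V.subgroupOf N), Nat.card A = Nat.card B →
        ∃ g : N ⧸ V.subgroupOf N, B = cj A g := by
      intro N A B hAB
      have hidx : Nat.card (N ⧸ V.subgroupOf N) ∣ V.index := Subgroup.relIndex_dvd_index_of_normal V N
      have hlt : Nat.card (N ⧸ V.subgroupOf N) < n := by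
        have h1 := Subgroup.card_mul_index V
        rw [hn] at h1
        have hidx0 : 0 < V.index := Nat.pos_of_ne_zero Subgroup.index_ne_zero_of_finite
        have h2 := Nat.le_of_dvd hidx0 hidx
        have h3 : V.index < n := by
          rw [← h1]
          exact lt_mul_of_one_lt_left hidx0 hVcard1
        omega
      have hcy : ∀ p : ℕ, p.Prime → ∀ Q : Sylow p (N ⧸ V.subgroupOf N), IsCyclic Q := by
        intro p hp
        haveI := Fact.mk hp
        by_cases hpq : p = q
        · subst hpq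
          intro Q
          have h1 : Nat.card Q ∣ V.index := (Subgroup.card_subgroup_dvd_card (Q : Subgroup _)).trans hidx
          obtain ⟨k, hk⟩ := IsPGroup.iff_card.1 Q.isPGroup'
          have h2 : k = 0 := by
            by_contra hk0
            have h3 : p ∣ V.index := by
              refine dvd_trans ?_ h1
              rw [hk]
              exact dvd_pow_self p hk0
            have h4 := Nat.Coprime.coprime_dvd_left hqV hcV
            exact hp.one_lt.ne' (Nat.Coprime.eq_one_of_dvd h4 h3)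
          subst h2
          rw [pow_zero] at hk
          haveI : Subsingleton Q := (Nat.card_eq_one_iff_unique.1 hk).1
          infer_instance
        · have hpr : p ≠ r := fun h => hpq (h.trans hqr.symm)
          exact cyc_of_surjective (QuotientGroup.mk' (V.subgroupOf N))
            (QuotientGroup.mk'_surjective _) (cyc_subgroup N (hcyc p hp hpr))
      exact ih _ hlt (N ⧸ V.subgroupOf N) rfl (HD_of_cyc hcy) 0 (fun p hp _ => hcy p hp) A B hAB
    have hinf : cj H g ⊓ V = K ⊓ V := by
      rw [hg]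
      have hcV : cj V g = V := cj_eq_of_mem_normalizer (by
        rw [normalizer_eq_top_iff.2 hVn]; trivial)
      have h1 : cj (H ⊓ V) g = cj H g ⊓ cj V g :=
        Subgroup.map_inf _ _ _ (MulAut.conj g).injective
      rw [h1, hcV]
    obtain ⟨c, hc⟩ := conj_of_inf_eq V hcV hab (cj H g) K (by rw [card_cj, hHK]) hinf hIHN
    exact ⟨c * g, by rw [hc, cj_cj]⟩
  · -- `V` has prime order
    by_cases hqH : q ∣ Nat.card H
    · have hVq : Nat.card V = q := by
        obtain ⟨k, hk⟩ := IsPGroup.iff_card.1 hVp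
        have hk1 : k ≠ 0 := by
          rintro rfl
          rw [hk, pow_zero] at hVcard1
          exact lt_irrefl _ hVcard1
        have hk2 : k < 2 := by
          by_contra h
          apply hbig
          rw [hk]
          exact Nat.pow_le_pow_right hq.pos (by omega)
        have : k = 1 := by omega
        rw [hk, this, pow_one]
      have hle : ∀ L : Subgroup G, q ∣ Nat.card L → V ≤ L := by
        intro L hL
        obtain ⟨x, hx⟩ := exists_prime_orderOf_dvd_card' q hL
        obtain ⟨g, hg⟩ := hD q hq (zpowers (x : G)) V (by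
          rw [IsPGroup.iff_card, Nat.card_zpowers, Subgroup.orderOf_coe, hx]
          exact ⟨1, (pow_one q).symm⟩) hVp (by
          rw [Nat.card_zpowers, Subgroup.orderOf_coe, hx, hVq])
        have h1 : cj V g⁻¹ = zpowers (x : G) := by
          rw [hg, cj_cj_inv]
        have hcV : cj V g⁻¹ = V := cj_eq_of_mem_normalizer (by
          rw [normalizer_eq_top_iff.2 hVn]; trivial)
        rw [hcV] at h1
        rw [h1, zpowers_le]
        exact x.2
      have hVH := hle H hqH
      have hVK := hle K (by rw [← hHK]; exact hqH)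
      let π := QuotientGroup.mk' V
      have hmapcard : ∀ L : Subgroup G, V ≤ L → Nat.card (L.map π) * Nat.card V = Nat.card L := by
        intro L hL
        have h1 := Cfsg.Agent.Lib.Coprime.card_comap_mk V (L.map π)
        have h2 : (L.map π).comap (QuotientGroup.mk' V) = L := by
          rw [Subgroup.comap_map_eq_self]
          rw [QuotientGroup.ker_mk']
          exact hL
        rw [h2] at h1
        exact h1.symm
      obtain ⟨gb, hgb⟩ := hIHq (H.map π) (K.map π) (by
        have h1 := hmapcard H hVH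
        have h2 := hmapcard K hVK
        rw [hHK, ← h2] at h1
        exact Nat.eq_of_mul_eq_mul_right Nat.card_pos h1)
      obtain ⟨g, rfl⟩ := QuotientGroup.mk'_surjective V gb
      refine ⟨g, ?_⟩
      have h1 : K.map π = (cj H g).map π := by
        rw [hgb, map_cj]
      have hcV : cj V g = V := cj_eq_of_mem_normalizer (by
        rw [normalizer_eq_top_iff.2 hVn]; trivial)
      have hV2 : V ≤ cj H g := by
        rw [← hcV]
        exact cj_mono hVH g
      have h2 := congrArg (Subgroup.comap π) h1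
      rw [Subgroup.comap_map_eq_self (by rw [QuotientGroup.ker_mk']; exact hVK),
        Subgroup.comap_map_eq_self (by rw [QuotientGroup.ker_mk']; exact hV2)] at h2
      exact h2
    · have hcop : Nat.Coprime (Nat.card V) (Nat.card H) := by
        obtain ⟨k, hk⟩ := IsPGroup.iff_card.1 hVp
        rw [hk]
        exact Nat.Coprime.pow_left k ((Nat.Prime.coprime_iff_not_dvd hq).2 hqH)
      exact conj_of_compl V hsV hIHq H K hHK hcop

/-- Let G be a finite solvable group in which, for every prime p, any two p-subgroups of the same order are conjugate, and suppose the Sylow p-subgroups of G are cyclic for all primes p with at most one exception. Then any two subgroups of G of the same order are conjugate. -/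
theorem result {G : Type*} [Group G] [Finite G]
    [Group.IsSolvable G] (hD : ∀ p : ℕ, p.Prime → ∀ H K : Subgroup G, IsPGroup p H → IsPGroup p K → Nat.card H = Nat.card K →
      ∃ g : G, K = H.map (MulAut.conj g).toMonoidHom)
    (r : ℕ) (hcyc : ∀ p : ℕ, p.Prime → p ≠ r → ∀ P : Sylow p G, IsCyclic P) :
    ∀ H K : Subgroup G, Nat.card H = Nat.card K → ∃ g : G, K = H.map (MulAut.conj g).toMonoidHom :=
  main _ G rfl hD r hcyc

end Cfsg.Agent.S4022
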