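import Mathlib
import Cfsg.Statements.S4023
import Cfsg.Agent.Lib.H73Conj

set_option autoImplicit false
open Cfsg

namespace Cfsg.Agent.S4023

/-- Let p be a prime and G a finite group in which any two p-subgroups of the same order are conjugate, with Sylow p-subgroup P. Then P is cyclic, or elementary abelian, or p = 2 and P is a quaternion group of order 8, or p is odd and P is non-abelian of order p³ and exponent p. -/
theorem result {G : Type*} [Group G] [Finite G]
    {p : ℕ} [Fact p.Prime] (hC : ∀ H K : Subgroup G, IsPGroup p H → IsPGroup p K → Nat.card H = Nat.card K →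
      ∃ g : G, K = H.map (MulAut.conj g).toMonoidHom) (P : Sylow p G) :
    IsCyclic P ∨ Cfsg.IsElementaryAbelian p (P : Subgroup G) ∨
      (p = 2 ∧ Nonempty ((P : Subgroup G) ≃* QuaternionGroup 2)) ∨
      (p ≠ 2 ∧ ¬ IsMulCommutative P ∧ Nat.card P = p ^ 3 ∧ Monoid.exponent P = p) := by
  have hpp := (Fact.out : p.Prime)
  rcases Cfsg.Agent.Lib.H73Conj.classify P.isPGroup'
      (Cfsg.Agent.Lib.H73Conj.iso_of_conj hC (P : Subgroup G) P.isPGroup') with h | ⟨h1, h2⟩ | h | ⟨h0, h1, h2, h3⟩
  · exact Or.inl h
  · right; left
    refine ⟨⟨⟨fun a b => h1 a b⟩⟩, ?_⟩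
    intro a ha
    have := h2 ⟨a, ha⟩
    exact congrArg Subtype.val this
  · right; right; left
    exact h
  · right; right; right
    refine ⟨h0, ?_, h2, ?_⟩
    · intro hc
      apply h1
      intro a b
      exact hc.is_comm.comm a b
    · have hnt : Nontrivial P := by
        by_contra hnt
        rw [not_nontrivial_iff_subsingleton] at hnt
        exact h1 (fun a b => Subsingleton.elim _ _)
      rw [Monoid.exponent_eq_prime_iff hpp]
      intro g hg
      exact orderOf_eq_prime (h3 g) hg

end Cfsg.Agent.S4023
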