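import Mathlib
import Cfsg.Statements.S4024
import Cfsg.Agent.Lib.H73Conj
import Cfsg.Agent.Lib.PSolv
import Cfsg.Agent.Lib.OddInvert

set_option autoImplicit false
set_option linter.style.haveILetI false
open Cfsg

namespace Cfsg.Agent.S4024

open Subgroup Cfsg.Agent.Lib.PCore

/-- A normal subgroup of order divisible by `p` contains `P` if `P` has exponent `p`. -/
theorem le_of_exp {G : Type*} [Group G] [Finite G]
    {p : ℕ} [Fact p.Prime] (hC : ∀ H K : Subgroup G, IsPGroup p H → IsPGroup p K → Nat.card H = Nat.card K →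
      ∃ g : G, K = H.map (MulAut.conj g).toMonoidHom) (P : Sylow p G) (hexp : ∀ x ∈ (P : Subgroup G), x ^ p = 1)
    (N : Subgroup G) [hN : N.Normal] (hdiv : p ∣ Nat.card N) : (P : Subgroup G) ≤ N := by
  classical
  have hpp := (Fact.out : p.Prime)
  by_contra hcon
  obtain ⟨w, hwP, hwN⟩ := SetLike.not_le_iff_exists.1 hcon
  have hw1 : w ≠ 1 := by
    rintro rfl
    exact hwN (one_mem _)
  have how : orderOf w = p := orderOf_eq_prime (hexp w hwP) hw1
  set W : Subgroup G := (P : Subgroup G) ⊓ N with hW
  have hWp : IsPGroup p W := P.isPGroup'.to_le inf_le_left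
  obtain ⟨k, hk⟩ := IsPGroup.iff_card.1 hWp
  have hk0 : k ≠ 0 := by
    rintro rfl
    rw [pow_zero] at hk
    have hbot : W = ⊥ := Subgroup.card_eq_one.1 hk
    obtain ⟨x', hx'⟩ := exists_prime_orderOf_dvd_card' p hdiv
    have hxP : IsPGroup p (zpowers (x' : G)) := by
      rw [IsPGroup.iff_card, Nat.card_zpowers, Subgroup.orderOf_coe, hx']
      exact ⟨1, (pow_one p).symm⟩
    obtain ⟨Q, hQ⟩ := hxP.exists_le_sylow
    obtain ⟨g, rfl⟩ := MulAction.exists_smul_eq G P Q
    have hxQ : (x' : G) ∈ ((g • P : Sylow p G) : Subgroup G) := hQ (mem_zpowers _)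
    have h1 : g⁻¹ * x' * g ∈ (P : Subgroup G) := by
      rw [Sylow.coe_subgroup_smul] at hxQ
      have := (Subgroup.mem_pointwise_smul_iff_inv_smul_mem).1 hxQ
      simpa [MulAut.smul_def, MulAut.conj_apply, ConjAct.smul_def] using this
    have h2 : g⁻¹ * x' * g ∈ N := by
      have := hN.conj_mem (x' : G) x'.2 g⁻¹
      simpa using this
    have h3 : g⁻¹ * x' * g ∈ W := ⟨h1, h2⟩
    rw [hbot, mem_bot] at h3
    have h4 : (x' : G) = 1 := by
      have : (x' : G) = g * (g⁻¹ * x' * g) * g⁻¹ := by group
      rw [this, h3]; simp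
    have h5 : x' = 1 := Subtype.ext h4
    rw [h5, orderOf_one] at hx'
    exact hpp.one_lt.ne hx'
  have hd : p ^ k ∣ Nat.card G := by
    rw [← hk]; exact Subgroup.card_subgroup_dvd_card W
  obtain ⟨K, hK, hle⟩ := Sylow.exists_subgroup_card_pow_prime_le p hd (zpowers w) (n := 1)
    (by rw [Nat.card_zpowers, how, pow_one]) (Nat.pos_of_ne_zero hk0)
  have hKp : IsPGroup p K := IsPGroup.of_card hK
  obtain ⟨g, hg⟩ := hC W K hWp hKp (by rw [hk, hK])
  have hwK : w ∈ K := hle (mem_zpowers w)
  rw [hg] at hwK
  obtain ⟨a, ha, rfl⟩ := hwK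
  apply hwN
  exact hN.conj_mem a ha.2 g

/-- Let p be an odd prime and G a finite group in which any two p-subgroups of the same order are conjugate, with Sylow p-subgroup P. If H is a normal p-solvable subgroup of G whose order is divisible by p, then P is abelian, and either P ≤ H or P is cyclic. -/
theorem result {G : Type*} [Group G] [Finite G]
    {p : ℕ} [Fact p.Prime] (hp : p ≠ 2) (hC : ∀ H K : Subgroup G, IsPGroup p H → IsPGroup p K → Nat.card H = Nat.card K →
      ∃ g : G, K = H.map (MulAut.conj g).toMonoidHom) (P : Sylow p G)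
    (H : Subgroup G) [H.Normal] (hsolv : Cfsg.IsPSolvable p H) (hdiv : p ∣ Nat.card H) :
    IsMulCommutative P ∧ ((P : Subgroup G) ≤ H ∨ IsCyclic P) := by
  classical
  have hpp := (Fact.out : p.Prime)
  have main : (∀ x : P, x ^ p = 1) → IsMulCommutative P ∧ ((P : Subgroup G) ≤ H ∨ IsCyclic P) := by
    intro hexp
    have hexp' : ∀ x ∈ (P : Subgroup G), x ^ p = 1 := fun x hx =>
      congrArg Subtype.val (hexp ⟨x, hx⟩)
    have hle := le_of_exp hC P hexp' H hdiv
    refine ⟨?_, Or.inl hle⟩
    -- the quotient by `O_{p'}(H)`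
    set O : Subgroup G := (pPrimeCore p H).map H.subtype with hO
    haveI hOn : O.Normal := Cfsg.Agent.Lib.OddInvert.map_char_normal inferInstance _ inferInstance
    have hOcard : (Nat.card O).Coprime p := by
      rw [hO, Subgroup.card_map_of_injective H.subtype_injective]
      exact card_pPrimeCore_coprime p
    let π := QuotientGroup.mk' O
    have hπ : Function.Surjective π := QuotientGroup.mk'_surjective O
    set X : Subgroup (G ⧸ O) := H.map π with hX
    haveI hXn : X.Normal := Subgroup.Normal.map inferInstance π hπ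
    let f : H →* X := π.subgroupMap H
    have hf : Function.Surjective f := π.subgroupMap_surjective H
    have hker : f.ker = pPrimeCore p H := by
      ext h
      rw [MonoidHom.mem_ker]
      constructor
      · intro h1
        have h2 : π (h : G) = 1 := congrArg Subtype.val h1
        have h3 : (h : G) ∈ O := (QuotientGroup.eq_one_iff _).1 h2
        obtain ⟨a, ha, hah⟩ := h3
        have : a = h := Subtype.ext hah
        rwa [← this]
      · intro h1
        apply Subtype.ext
        show π (h : G) = 1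
        exact (QuotientGroup.eq_one_iff _).2 ⟨h, h1, rfl⟩
    have hX1 : pPrimeCore p X = ⊥ := Cfsg.Agent.Lib.PSolv.pPrimeCore_eq_bot_of_surjective p f hf hker
    have hXs : IsPSolvable p X := Cfsg.Agent.Lib.PSolv.isPSolvable_of_surjective hsolv f hf
    have hXcent := Cfsg.Agent.Lib.PSolv.centralizer_pCore_le_of_pSolvable hXs hX1
    have hXdvd : p ∣ Nat.card X := by
      have h1 := Subgroup.card_mul_index f.ker
      have h2 : f.ker.index = Nat.card X := by
        rw [Subgroup.index_ker, MonoidHom.range_eq_top.2 hf]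
        exact Subgroup.card_top
      rw [h2, hker] at h1
      rw [← h1] at hdiv
      exact (hpp.dvd_mul.1 hdiv).resolve_left (not_dvd_card_pPrimeCore p)
    have hXnt : Nontrivial X := by
      rw [← Finite.one_lt_card_iff_nontrivial]
      exact lt_of_lt_of_le hpp.one_lt (Nat.le_of_dvd Nat.card_pos hXdvd)
    have hVne : pCore p X ≠ ⊥ := by
      intro h
      rw [h] at hXcent
      have h1 : Subgroup.centralizer (((⊥ : Subgroup X)) : Set X) = ⊤ := by
        simp
      rw [h1] at hXcent
      have h2 : (⊤ : Subgroup X) = ⊥ := le_bot_iff.1 hXcent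
      exact top_ne_bot h2
    set V : Subgroup (G ⧸ O) := (pCore p X).map X.subtype with hV
    haveI hVn : V.Normal := Cfsg.Agent.Lib.OddInvert.map_char_normal hXn _ (pCore_characteristic p)
    have hVp : IsPGroup p V := (isPGroup_pCore p).map _
    have hVnt : Nontrivial V := by
      have h1 : Nontrivial (pCore p X) := by
        exact (Subgroup.nontrivial_iff_ne_bot _).2 hVne
      exact (Subgroup.equivMapOfInjective (pCore p X) X.subtype X.subtype_injective).symm.toEquiv.nontrivial
    set Z : Subgroup (G ⧸ O) := (center V).map V.subtype with hZ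
    haveI hZn : Z.Normal := Cfsg.Agent.Lib.OddInvert.map_char_normal hVn _ inferInstance
    have hZcomm : ∀ a ∈ Z, ∀ b ∈ Z, a * b = b * a := by
      rintro _ ⟨a, ha, rfl⟩ _ ⟨b, hb, rfl⟩
      exact congrArg Subtype.val (mem_center_iff.1 ha b).symm
    have hZdvd : p ∣ Nat.card Z := by
      rw [hZ, Subgroup.card_map_of_injective V.subtype_injective]
      have hZnt : Nontrivial (center V) := hVp.center_nontrivial
      obtain ⟨k, hk0, hk⟩ := ((hVp.to_subgroup (center V)).nontrivial_iff_card).1 hZnt
      rw [hk]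
      exact dvd_pow_self p hk0.ne'
    set N : Subgroup G := Z.comap π with hN
    haveI hNn : N.Normal := Subgroup.Normal.comap hZn π
    have hNdvd : p ∣ Nat.card N := by
      have h1 : Nat.card N = Nat.card Z * Nat.card O := by
        rw [hN, Cfsg.Agent.Lib.PSolv.card_comap_of_surjective π hπ]
        rw [QuotientGroup.ker_mk']
      rw [h1]
      exact dvd_mul_of_dvd_left hZdvd _
    have hPN := le_of_exp hC P hexp' N hNdvd
    have hcomm : ∀ a b : P, a * b = b * a := by
      intro a b
      have h1 : π (a : G) * π (b : G) = π (b : G) * π (a : G) :=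
        hZcomm _ (hPN a.2) _ (hPN b.2)
      have h2 : π ((a : G) * b * ((b : G) * a)⁻¹) = 1 := by
        rw [map_mul, map_inv, map_mul, map_mul, h1, mul_inv_cancel]
      have h3 : ((a : G) * b * ((b : G) * a)⁻¹) ∈ O := (QuotientGroup.eq_one_iff _).1 h2
      have h4 : ((a : G) * b * ((b : G) * a)⁻¹) ∈ (P : Subgroup G) :=
        (P : Subgroup G).mul_mem ((P : Subgroup G).mul_mem a.2 b.2)
          ((P : Subgroup G).inv_mem ((P : Subgroup G).mul_mem b.2 a.2))
      have h5 : ((a : G) * b * ((b : G) * a)⁻¹) = 1 := by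
        by_contra h6
        have h7 := orderOf_eq_prime (hexp' _ h4) h6
        have h8 : orderOf ((a : G) * b * ((b : G) * a)⁻¹) ∣ Nat.card O :=
          Subgroup.orderOf_dvd_natCard O h3
        rw [h7] at h8
        exact hpp.one_lt.ne' (Nat.Coprime.eq_one_of_dvd hOcard.symm h8)
      apply Subtype.ext
      show (a : G) * b = (b : G) * a
      exact mul_inv_eq_one.1 h5
    exact ⟨⟨fun a b => hcomm a b⟩⟩
  rcases Cfsg.Agent.Lib.H73Conj.classify P.isPGroup'
      (Cfsg.Agent.Lib.H73Conj.iso_of_conj hC (P : Subgroup G) P.isPGroup') with h | ⟨h1, h2⟩ | h | ⟨h0, h1, h2, h3⟩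
  · haveI := h
    exact ⟨IsCyclic.isMulCommutative, Or.inr h⟩
  · exact main h2
  · exact absurd h.1 hp
  · exact main h3

end Cfsg.Agent.S4024
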