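import Mathlib
import Cfsg.Statements.S4025
import Cfsg.Agent.Lib.LinTrans4
-- import your own Cfsg.Agent.* helpers here

set_option autoImplicit false
set_option linter.style.haveILetI false
open Cfsg

namespace Cfsg.Agent.S4025

open Cfsg.Agent.Lib.LinTrans Cfsg.Agent.Lib.PCore Module

/-- Building the module. -/
theorem core₂ {p n : ℕ} [hp : Fact p.Prime] {X : Type*} [Group X] [Finite X] (hXs : Group.IsSolvable X)
    (A : Subgroup X) [hA : A.Normal] (hab : ∀ a ∈ A, ∀ b ∈ A, a * b = b * a) (hexp : ∀ a ∈ A, a ^ p = 1)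
    (hcard : Nat.card A = p ^ n) (h3 : 3 ≤ n)
    (hcent : ∀ x, (∀ a ∈ A, x * a = a * x) → x ∈ A) (hcop : (Nat.card A).Coprime A.index)
    (hT : ∀ B B' : Subgroup X, B ≤ A → B' ≤ A → Nat.card B = Nat.card B' →
      ∃ x, B' = B.map (MulAut.conj x).toMonoidHom) :
    (n = 3 ∧ (∃ f : X →* ↥(Cfsg.semiaffineGroup (GaloisField p 3)), Function.Injective f) ∧
      (p = 2 → Nonempty (X ≃* Cfsg.semiaffineGroup (GaloisField 2 3)) ∨
               Nonempty (X ≃* Cfsg.affineGroup (GaloisField 2 3)))) ∨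
    (n = 5 ∧ p = 2 ∧ Nonempty (X ≃* Cfsg.semiaffineGroup (GaloisField 2 5))) := by
  letI : CommGroup A := { (inferInstance : Group A) with
    mul_comm := fun a b => Subtype.ext (hab _ a.2 _ b.2) }
  letI : Module (ZMod p) (Additive A) := AddCommGroup.zmodModule (fun x => by
    have h1 : x.toMul ^ p = 1 := Subtype.ext (hexp _ x.toMul.2)
    have h2 : p • x = Additive.ofMul (x.toMul ^ p) := rfl
    rw [h2, h1]
    rfl)
  let ι : Multiplicative (Additive A) ≃* A :=
    { toFun := fun x => x.toAdd.toMul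
      invFun := fun a => Multiplicative.ofAdd (Additive.ofMul a)
      left_inv := fun _ => rfl
      right_inv := fun _ => rfl
      map_mul' := fun _ _ => rfl }
  have hfin : finrank (ZMod p) (Additive A) = n := by
    have h1 := card_eq_pow (p := p) (Additive A)
    have h2 : Nat.card (Additive A) = Nat.card A := rfl
    rw [h2, hcard] at h1
    exact (Nat.pow_right_injective hp.out.two_le h1).symm
  exact core hXs A ι hfin h3 hcent hcop hT

/-- Centralizers in a group with trivial `O_{p'}`. -/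
theorem centralizer_le {p : ℕ} [hp : Fact p.Prime] {X : Type*} [Group X] [Finite X]
    (hO : Cfsg.pPrimeCore p X = ⊥) (A : Subgroup X) [hA : A.Normal]
    (hpA : IsPGroup p A) (hidx : ¬ p ∣ A.index) (x : X) (hx : ∀ a ∈ A, x * a = a * x) : x ∈ A := by
  classical
  let C : Subgroup X := Subgroup.centralizer (A : Set X)
  haveI hCn : C.Normal := inferInstance
  have hxC : x ∈ C := by
    rw [Subgroup.mem_centralizer_iff]
    intro a ha
    exact (hx a ha).symm
  let A' : Subgroup C := A.subgroupOf C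
  have hA'p : IsPGroup p A' := hpA.comap_subtype
  have hA'idx : ¬ p ∣ A'.index := fun h =>
    hidx (h.trans (Subgroup.relIndex_dvd_index_of_normal A C))
  let P' : Sylow p C := hA'p.toSylow hA'idx
  have hP'mem : ∀ u : C, u ∈ P' ↔ (u : X) ∈ A := fun u => by
    rw [IsPGroup.mem_toSylow]
    exact Subgroup.mem_subgroupOf
  have hP' : Subgroup.normalizer ((P' : Subgroup C) : Set C) ≤ Subgroup.centralizer ((P' : Subgroup C) : Set C) := by
    intro g _
    rw [Subgroup.mem_centralizer_iff]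
    intro u hu
    apply Subtype.ext
    have h1 := (Subgroup.mem_centralizer_iff.mp g.2) u ((hP'mem u).mp hu)
    exact h1
  let R : Subgroup C := (MonoidHom.transferSylow P' hP').ker
  have hR : ¬ p ∣ Nat.card R := MonoidHom.not_dvd_card_ker_transferSylow P' hP'
  have hRle : R ≤ Cfsg.pPrimeCore p C :=
    le_pPrimeCore (MonoidHom.normal_ker _) ((Nat.Prime.coprime_iff_not_dvd hp.out).mpr hR).symm
  have hmap := map_pPrimeCore_of_normal (G := X) p C
  rw [hO, inf_bot_eq, Subgroup.map_eq_bot_iff_of_injective _ C.subtype_injective] at hmap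
  have hRbot : R = ⊥ := by
    rw [eq_bot_iff, ← hmap]
    exact hRle
  have hcomp : Subgroup.IsComplement' R P' := MonoidHom.ker_transferSylow_isComplement' P' hP'
  obtain ⟨⟨r, u⟩, hru⟩ := hcomp.2 ⟨x, hxC⟩
  have hr1 : (r : C) = 1 := by
    have h0 : ∀ y : C, y ∈ R → y = 1 := by
      intro y hy
      rw [hRbot] at hy
      exact hy
    exact h0 _ r.2
  have hu : (u : C) = ⟨x, hxC⟩ := by
    have h1 : (r : C) * (u : C) = ⟨x, hxC⟩ := hru
    rwa [hr1, one_mul] at h1
  have := (hP'mem _).mp u.2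
  rw [hu] at this
  exact this

/-- The passage to the quotient by `O_{p'}`. -/
theorem quot_core {p n : ℕ} [hp : Fact p.Prime] {N : Type*} [Group N] [Finite N]
    (hsolv : Group.IsSolvable (N ⧸ Cfsg.pPrimeCore p N)) (P₁ : Subgroup N) [hP₁ : P₁.Normal]
    (hpP : IsPGroup p P₁) (hidx : ¬ p ∣ P₁.index) (hab : ∀ a ∈ P₁, ∀ b ∈ P₁, a * b = b * a)
    (hexp : ∀ a ∈ P₁, a ^ p = 1) (hcard : Nat.card P₁ = p ^ n) (h3 : 3 ≤ n)
    (hconj : ∀ B B' : Subgroup N, B ≤ P₁ → B' ≤ P₁ → Nat.card B = Nat.card B' →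
      ∃ h, B' = B.map (MulAut.conj h).toMonoidHom) :
    (n = 3 ∧ (∃ f : (N ⧸ Cfsg.pPrimeCore p N) →* ↥(Cfsg.semiaffineGroup (GaloisField p 3)), Function.Injective f) ∧
      (p = 2 → Nonempty ((N ⧸ Cfsg.pPrimeCore p N) ≃* Cfsg.semiaffineGroup (GaloisField 2 3)) ∨
               Nonempty ((N ⧸ Cfsg.pPrimeCore p N) ≃* Cfsg.affineGroup (GaloisField 2 3)))) ∨
    (n = 5 ∧ p = 2 ∧ Nonempty ((N ⧸ Cfsg.pPrimeCore p N) ≃* Cfsg.semiaffineGroup (GaloisField 2 5))) := by
  classical
  set K := Cfsg.pPrimeCore p N with hKdef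
  let π : N →* N ⧸ K := QuotientGroup.mk' K
  have hπ : Function.Surjective π := QuotientGroup.mk'_surjective K
  have hker : ∀ u ∈ P₁, π u = 1 → u = 1 := by
    intro u hu h1
    have huK : u ∈ K := (QuotientGroup.eq_one_iff u).mp h1
    obtain ⟨e, he⟩ := hpP ⟨u, hu⟩
    have h2 : u ^ p ^ e = 1 := by
      have := congrArg Subtype.val he
      simpa using this
    have h3' := Nat.dvd_gcd (orderOf_dvd_of_pow_eq_one h2) (Subgroup.orderOf_dvd_natCard K huK)
    have hcop : Nat.Coprime (p ^ e) (Nat.card K) :=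
      Nat.Coprime.pow_left _ (card_pPrimeCore_coprime (G := N) p).symm
    rw [hcop] at h3'
    exact orderOf_eq_one_iff.mp (Nat.dvd_one.mp h3')
  let A : Subgroup (N ⧸ K) := P₁.map π
  haveI hA : A.Normal := Subgroup.Normal.map hP₁ π hπ
  -- the card of pieces
  have hcardB : ∀ B : Subgroup (N ⧸ K), B ≤ A → Nat.card ↥(B.comap π ⊓ P₁) = Nat.card B := by
    intro B hB
    refine Nat.card_congr (Equiv.ofBijective (fun u => (⟨π u, u.2.1⟩ : B)) ⟨?_, ?_⟩)
    · intro u v huv
      have h1 : π (u : N) = π (v : N) := congrArg Subtype.val huv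
      apply Subtype.ext
      have h2 : π ((u : N)⁻¹ * v) = 1 := by rw [map_mul, map_inv, h1, inv_mul_cancel]
      have h3' := hker _ (P₁.mul_mem (P₁.inv_mem u.2.2) v.2.2) h2
      rw [inv_mul_eq_one] at h3'
      exact h3'
    · rintro ⟨b, hb⟩
      obtain ⟨u, hu, rfl⟩ := hB hb
      exact ⟨⟨u, hb, hu⟩, rfl⟩
  have hcardA : Nat.card A = p ^ n := by
    have h1 := hcardB A le_rfl
    have h2 : (A.comap π ⊓ P₁) = P₁ := inf_eq_right.mpr (Subgroup.le_comap_map π P₁)
    rw [h2, hcard] at h1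
    exact h1.symm
  have hAidx : ¬ p ∣ A.index := fun h => hidx (h.trans (Subgroup.index_map_dvd P₁ hπ))
  have hab' : ∀ a ∈ A, ∀ b ∈ A, a * b = b * a := by
    rintro _ ⟨u, hu, rfl⟩ _ ⟨v, hv, rfl⟩
    rw [← map_mul, ← map_mul, hab u hu v hv]
  have hexp' : ∀ a ∈ A, a ^ p = 1 := by
    rintro _ ⟨u, hu, rfl⟩
    rw [← map_pow, hexp u hu, map_one]
  have hpA : IsPGroup p A := IsPGroup.of_card hcardA
  refine core₂ hsolv A hab' hexp' hcardA h3 ?_ ?_ ?_
  · exact centralizer_le (pPrimeCore_quotient_pPrimeCore (G := N) p) A hpA hAidx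
  · rw [hcardA]
    exact Nat.Coprime.pow_left _ ((Nat.Prime.coprime_iff_not_dvd hp.out).mpr hAidx)
  · intro B B' hB hB' hcc
    obtain ⟨h, hh⟩ := hconj (B.comap π ⊓ P₁) (B'.comap π ⊓ P₁) inf_le_right inf_le_right (by
      rw [hcardB B hB, hcardB B' hB', hcc])
    refine ⟨π h, ?_⟩
    symm
    apply Subgroup.eq_of_le_of_card_ge
    · rintro _ ⟨b, hb, rfl⟩
      obtain ⟨u, hu, rfl⟩ := hB hb
      have h1 : (MulAut.conj h).toMonoidHom u ∈ B'.comap π ⊓ P₁ := by
        rw [hh]
        exact ⟨u, ⟨hb, hu⟩, rfl⟩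
      have h2 : π ((MulAut.conj h).toMonoidHom u) ∈ B' := h1.1
      have h4 : π ((MulAut.conj h).toMonoidHom u) = (MulAut.conj (π h)).toMonoidHom (π u) := by
        simp
      rwa [h4] at h2
    · rw [Subgroup.card_map_of_injective (MulAut.conj (π h)).injective, hcc]

/-- Burnside's fusion lemma for subgroups of an abelian Sylow subgroup. -/
theorem burnside {G : Type*} [Group G] [Finite G] {p : ℕ} [hp : Fact p.Prime] (P : Sylow p G)
    (hcomm : ∀ a ∈ (P : Subgroup G), ∀ b ∈ (P : Subgroup G), a * b = b * a)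
    (B B' : Subgroup G) (hB : B ≤ P) (hB' : B' ≤ P) (g : G) (hg : B' = B.map (MulAut.conj g).toMonoidHom) :
    ∃ h ∈ Subgroup.normalizer ((P : Subgroup G) : Set G), B' = B.map (MulAut.conj h).toMonoidHom := by
  classical
  let C : Subgroup G := Subgroup.centralizer (B' : Set G)
  have h1 : (P : Subgroup G) ≤ C := by
    intro u hu
    rw [Subgroup.mem_centralizer_iff]
    intro b hb
    exact hcomm _ (hB' hb) _ hu
  have h2 : ((g • P : Sylow p G) : Subgroup G) ≤ C := by
    intro x hx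
    rw [Sylow.coe_subgroup_smul, Subgroup.mem_smul_pointwise_iff_exists] at hx
    obtain ⟨u, hu, rfl⟩ := hx
    rw [Subgroup.mem_centralizer_iff]
    intro b' hb'
    have hb'' : b' ∈ B' := hb'
    rw [hg] at hb''
    obtain ⟨b, hb, rfl⟩ := hb''
    have h3 := hcomm _ (hB hb) _ hu
    simp only [MulEquiv.coe_toMonoidHom, MulAut.conj_apply, MulAut.smul_def]
    calc g * b * g⁻¹ * (g * u * g⁻¹) = g * (b * u) * g⁻¹ := by group
      _ = g * (u * b) * g⁻¹ := by rw [h3]
      _ = _ := by group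
  obtain ⟨c, hc⟩ := MulAction.exists_smul_eq C ((g • P).subtype h2) (P.subtype h1)
  simp_rw [Sylow.smul_subtype, Subgroup.smul_def, smul_smul] at hc
  refine ⟨c * g, Sylow.smul_eq_iff_mem_normalizer.mp (Sylow.subtype_injective hc), ?_⟩
  have hconj : ∀ b ∈ B, (MulAut.conj ((c : G) * g)).toMonoidHom b = (MulAut.conj g).toMonoidHom b := by
    intro b hb
    have h3 : g * b * g⁻¹ ∈ B' := by
      rw [hg]
      exact ⟨b, hb, rfl⟩
    have h4 := (Subgroup.mem_centralizer_iff.mp c.2) _ h3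
    simp only [MulEquiv.coe_toMonoidHom, MulAut.conj_apply]
    calc (c : G) * g * b * ((c : G) * g)⁻¹ = (c : G) * (g * b * g⁻¹) * (c : G)⁻¹ := by group
      _ = (g * b * g⁻¹) * (c : G) * (c : G)⁻¹ := by rw [h4]
      _ = _ := by group
  rw [hg]
  ext x
  constructor
  · rintro ⟨b, hb, rfl⟩
    exact ⟨b, hb, hconj b hb⟩
  · rintro ⟨b, hb, rfl⟩
    exact ⟨b, hb, (hconj b hb).symm⟩

/-- Let p be a prime and G a finite group in which any two p-subgroups of the same order are conjugate, and suppose a Sylow p-subgroup P of G is elementary abelian of order pⁿ with n ≥ 3. Let N be the normalizer of P and K the largest normal subgroup of N of order prime to p, and assume N/K is solvable. Then either n = 3 and N/K embeds in the one-dimensional semi-affine group over the field with p³ elements (and for p = 2 it is isomorphic to the affine or the semi-affine group over the field with 8 elements), or n = 5, p = 2 and N/K is isomorphic to the one-dimensional semi-affine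 group over the field with 32 elements. -/
theorem result {G : Type*} [Group G] [Finite G]
    {p : ℕ} [Fact p.Prime] (hC : ∀ H K : Subgroup G, IsPGroup p H → IsPGroup p K → Nat.card H = Nat.card K →
      ∃ g : G, K = H.map (MulAut.conj g).toMonoidHom) (P : Sylow p G) (n : ℕ) (hn : 3 ≤ n)
    (hel : Cfsg.IsElementaryAbelian p (P : Subgroup G)) (hcard : Nat.card P = p ^ n)
    (N : Subgroup G) (hN : N = Subgroup.normalizer ((P : Subgroup G) : Set G))
    (hsolv : Group.IsSolvable (↥N ⧸ Cfsg.pPrimeCore p ↥N)) :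
    (n = 3 ∧ (∃ f : ↥N ⧸ Cfsg.pPrimeCore p ↥N →* ↥(Cfsg.semiaffineGroup (GaloisField p 3)), Function.Injective f) ∧
      (p = 2 → Nonempty (↥N ⧸ Cfsg.pPrimeCore p ↥N ≃* Cfsg.semiaffineGroup (GaloisField 2 3)) ∨
               Nonempty (↥N ⧸ Cfsg.pPrimeCore p ↥N ≃* Cfsg.affineGroup (GaloisField 2 3)))) ∨
    (n = 5 ∧ p = 2 ∧ Nonempty (↥N ⧸ Cfsg.pPrimeCore p ↥N ≃* Cfsg.semiaffineGroup (GaloisField 2 5))) := by
  classical
  subst hN
  have hPN : (P : Subgroup G) ≤ Subgroup.normalizer ((P : Subgroup G) : Set G) := Subgroup.le_normalizer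
  obtain ⟨hcomm₀, hexp₀⟩ := hel
  have hcomm : ∀ a ∈ (P : Subgroup G), ∀ b ∈ (P : Subgroup G), a * b = b * a := by
    intro a ha b hb
    have := hcomm₀.is_comm.comm ⟨a, ha⟩ ⟨b, hb⟩
    exact congrArg Subtype.val this
  refine quot_core hsolv ((P : Subgroup G).subgroupOf (Subgroup.normalizer ((P : Subgroup G) : Set G)))
    (P.isPGroup'.comap_subtype) ?_ ?_ ?_ ?_ hn ?_
  · intro h
    apply P.not_dvd_index
    have h1 := Subgroup.relIndex_mul_index hPN
    rw [← h1]
    exact dvd_mul_of_dvd_left h _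
  · intro a ha b hb
    apply Subtype.ext
    exact hcomm _ ha _ hb
  · intro a ha
    apply Subtype.ext
    exact hexp₀ _ ha
  · rw [← hcard]
    exact Nat.card_congr (Subgroup.subgroupOfEquivOfLe hPN).toEquiv
  · intro B B' hB hB' hcc
    let N := Subgroup.normalizer ((P : Subgroup G) : Set G)
    have hmaple : ∀ D : Subgroup N, D ≤ (P : Subgroup G).subgroupOf N → D.map N.subtype ≤ P := by
      rintro D hD _ ⟨d, hd, rfl⟩
      exact hD hd
    have hcardmap : ∀ D : Subgroup N, Nat.card (D.map N.subtype) = Nat.card D := fun D =>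
      Subgroup.card_map_of_injective N.subtype_injective
    obtain ⟨g, hg⟩ := hC (B.map N.subtype) (B'.map N.subtype) (P.isPGroup'.to_le (hmaple B hB))
      (P.isPGroup'.to_le (hmaple B' hB')) (by rw [hcardmap, hcardmap, hcc])
    obtain ⟨h, hh, hh2⟩ := burnside P hcomm _ _ (hmaple B hB) (hmaple B' hB') g hg
    refine ⟨⟨h, hh⟩, ?_⟩
    apply Subgroup.map_injective N.subtype_injective
    rw [hh2]
    ext x
    constructor
    · rintro ⟨_, ⟨b, hb, rfl⟩, rfl⟩
      exact ⟨_, ⟨b, hb, rfl⟩, rfl⟩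
    · rintro ⟨_, ⟨b, hb, rfl⟩, rfl⟩
      exact ⟨_, ⟨b, hb, rfl⟩, rfl⟩

end Cfsg.Agent.S4025
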