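import Mathlib
import Cfsg.Statements.S4028
import Cfsg.Agent.Lib.H73

set_option autoImplicit false
open Cfsg Cfsg.Agent.Lib.H73

namespace Cfsg.Agent.S4028

/-- An element of odd order normalising a cyclic 2-subgroup centralises it. -/
theorem commute_of_odd {G : Type*} [Group G] [Finite G] {x z : G} {a : ℕ}
    (hx : orderOf x = 2 ^ a) (hz : (orderOf z).Coprime 2)
    (hzx : z ∈ Subgroup.normalizer ((Subgroup.zpowers x : Subgroup G) : Set G)) :
    Commute z x := by
  classical
  set H := Subgroup.zpowers x with hH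
  set σ := H.normalizerMonoidHom ⟨z, hzx⟩ with hσ
  have h1 : orderOf σ ∣ orderOf z := by
    have : orderOf (⟨z, hzx⟩ : Subgroup.normalizer (H : Set G)) = orderOf z :=
      Subgroup.orderOf_mk z hzx
    rw [← this]
    exact orderOf_map_dvd _ _
  have h2 : orderOf σ ∣ Nat.card (MulAut H) := orderOf_dvd_natCard σ
  have hcard : Nat.card (MulAut H) = Nat.totient (Nat.card H) := IsCyclic.card_mulAut H
  have hH2 : Nat.card H = 2 ^ a := by
    rw [hH, Nat.card_zpowers, hx]
  rw [hcard, hH2] at h2
  have h3 : (orderOf σ).Coprime 2 := Nat.Coprime.coprime_dvd_left h1 hz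
  have h4 : orderOf σ = 1 := by
    rcases a with _ | a
    · simpa using h2
    · rw [Nat.totient_prime_pow_succ Nat.prime_two] at h2
      simp only [Nat.add_one_sub_one, mul_one] at h2
      exact Nat.Coprime.eq_one_of_dvd (Nat.Coprime.pow_right _ h3) h2
  have h5 : σ = 1 := orderOf_eq_one_iff.mp h4
  have h6 := DFunLike.congr_fun h5 (⟨x, Subgroup.mem_zpowers x⟩ : H)
  have h7 : z * x * z⁻¹ = x := congrArg Subtype.val h6
  exact (eq_mul_inv_iff_mul_eq.mp h7.symm).symm

/-- Let G be a finite group with Sylow 2-subgroup P. Then N_G(⟨x⟩) = C_G(x) holds for every 2-element x of G if and only if N_P(⟨y⟩) = C_P(y) holds for every y ∈ P (computed inside P). -/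
theorem result {G : Type*} [Group G] [Finite G] (P : Sylow 2 G) :
    (∀ x : G, (∀ r : ℕ, r.Prime → r ∣ orderOf x → r = 2) →
      Subgroup.normalizer ((Subgroup.zpowers x : Subgroup G) : Set G) ≤ Subgroup.centralizer {x}) ↔
    (∀ y : ↥(P : Subgroup G), Subgroup.normalizer ((Subgroup.zpowers y : Subgroup ↥(P : Subgroup G)) : Set ↥(P : Subgroup G)) ≤
        Subgroup.centralizer {y}) := by
  classical
  have : Fact (Nat.Prime 2) := ⟨Nat.prime_two⟩
  constructor
  · intro h y z hz
    rw [Subgroup.mem_centralizer_singleton_iff]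
    have hy2 : ∀ r : ℕ, r.Prime → r ∣ orderOf (y : G) → r = 2 := by
      intro r hr hd
      obtain ⟨k, hk⟩ := IsPGroup.iff_orderOf.mp P.isPGroup' y
      have : orderOf (y : G) = 2 ^ k := by
        rw [Subgroup.orderOf_coe]; exact hk
      rw [this] at hd
      exact (Nat.prime_dvd_prime_iff_eq hr Nat.prime_two).mp (hr.dvd_of_dvd_pow hd)
    have hz' : (z : G) ∈ Subgroup.normalizer ((Subgroup.zpowers (y : G) : Subgroup G) : Set G) := by
      apply mem_normalizer_zpowers_of_conj
      have := conj_mem_of_mem_normalizer hz (Subgroup.mem_zpowers y)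
      obtain ⟨k, hk⟩ := Subgroup.mem_zpowers_iff.mp this
      refine Subgroup.mem_zpowers_iff.mpr ⟨k, ?_⟩
      have := congrArg Subtype.val hk
      simpa using this
    have := h y hy2 hz'
    rw [Subgroup.mem_centralizer_singleton_iff] at this
    exact Subtype.ext this
  · intro h x hx z hz
    rw [Subgroup.mem_centralizer_singleton_iff]
    obtain ⟨a, ha⟩ := orderOf_eq_prime_pow_of hx
    obtain ⟨u, v, b, huv, hu, hv⟩ := exists_pow_decomp 2 z
    have hzu : z ^ u ∈ Subgroup.normalizer ((Subgroup.zpowers x : Subgroup G) : Set G) :=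
      Subgroup.pow_mem _ hz u
    have hzv : z ^ v ∈ Subgroup.normalizer ((Subgroup.zpowers x : Subgroup G) : Set G) :=
      Subgroup.pow_mem _ hz v
    refine commute_of_commute_pow_decomp huv ?_ (commute_of_odd ha hv hzv)
    obtain ⟨S, hxS, hzS⟩ := exists_sylow_of_normalizes ha hu hzu
    obtain ⟨g, hg⟩ := MulAction.exists_smul_eq G S P
    have hmem : ∀ w ∈ (S : Subgroup G), g * w * g⁻¹ ∈ (P : Subgroup G) := by
      intro w hw
      rw [← hg]
      exact ⟨w, hw, by simp [MulAut.conj_apply]⟩
    set x' : (P : Subgroup G) := ⟨g * x * g⁻¹, hmem x hxS⟩ with hx'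
    set z' : (P : Subgroup G) := ⟨g * z ^ u * g⁻¹, hmem _ hzS⟩ with hz'
    have hnorm : z' ∈ Subgroup.normalizer ((Subgroup.zpowers x' : Subgroup (P : Subgroup G)) :
        Set (P : Subgroup G)) := by
      apply mem_normalizer_zpowers_of_conj
      obtain ⟨k, hk⟩ := Subgroup.mem_zpowers_iff.mp
        (conj_mem_of_mem_normalizer hzu (Subgroup.mem_zpowers x))
      refine Subgroup.mem_zpowers_iff.mpr ⟨k, ?_⟩
      apply Subtype.ext
      simp only [hx', hz', Subgroup.coe_mul, Subgroup.coe_zpow, InvMemClass.coe_inv, MulMemClass.coe_mul]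
      have e1 : (g * x * g⁻¹) ^ k = g * x ^ k * g⁻¹ := conj_zpow
      rw [e1, hk]
      group
    have hc := h x' hnorm
    rw [Subgroup.mem_centralizer_singleton_iff] at hc
    have hc' := congrArg Subtype.val hc
    simp only [hx', hz', Subgroup.coe_mul, MulMemClass.coe_mul] at hc'
    have hc2 : g * (z ^ u * x) * g⁻¹ = g * (x * z ^ u) * g⁻¹ := by
      calc g * (z ^ u * x) * g⁻¹ = g * z ^ u * g⁻¹ * (g * x * g⁻¹) := by group
        _ = g * x * g⁻¹ * (g * z ^ u * g⁻¹) := hc'
        _ = g * (x * z ^ u) * g⁻¹ := by group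
    have hc3 : z ^ u * x = x * z ^ u := by
      simpa using hc2
    exact hc3

end Cfsg.Agent.S4028
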