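import Mathlib
import Cfsg.Statements.S4029
import Cfsg.Agent.Lib.CharTable
import Cfsg.Agent.Lib.CharValues
import Cfsg.Agent.Lib.Frat
import Cfsg.Agent.Lib.H73

set_option autoImplicit false
set_option linter.style.haveILetI false
set_option linter.unusedVariables false
open Cfsg

namespace Cfsg.Agent.S4029

open Cfsg.Agent.Lib.CharTable Cfsg.Agent.Lib.CharBasic
open scoped ComplexConjugate commutatorElement

section
variable {P : Type*} [Group P] [Fintype P]

/-- Conjugation on irreducible characters. -/
noncomputable def sg (χ : IrrCharacter P) : IrrCharacter P :=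
  ⟨fun g => conj ((χ : P → ℂ) g), isIrrCharacter_conj χ.2⟩

/-- Inversion on classes. -/
noncomputable def pi (C : ConjClasses P) : ConjClasses P := ConjClasses.mk (Quotient.out C)⁻¹

theorem conj_eq_inv {χ : P → ℂ} (hχ : IsCharacter P χ) (g : P) : conj (χ g) = χ g⁻¹ := by
  obtain ⟨n, ρ, rfl⟩ := hχ
  exact (Cfsg.Agent.Lib.CharValues.character_inv ρ g).symm

theorem inv_conj {a b : P} (h : IsConj a b) : IsConj a⁻¹ b⁻¹ := by
  obtain ⟨c, hc⟩ := isConj_iff.1 h
  refine isConj_iff.2 ⟨c, ?_⟩
  have e : c * a⁻¹ * c⁻¹ = (c * a * c⁻¹)⁻¹ := by group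
  rw [e, hc]

theorem pi_mk (g : P) : pi (ConjClasses.mk g) = ConjClasses.mk g⁻¹ := by
  unfold pi
  rw [ConjClasses.mk_eq_mk_iff_isConj]
  exact inv_conj (isConj_out_mk g)

theorem compat (χ : IrrCharacter P) (g : P) :
    ((sg χ : IrrCharacter P) : P → ℂ) g = (χ : P → ℂ) (Quotient.out (pi (ConjClasses.mk g))) := by
  rw [pi_mk]
  show conj ((χ : P → ℂ) g) = _
  rw [conj_eq_inv (IsIrrCharacter.isCharacter χ.2)]
  exact (char_eq_of_isConj (IsIrrCharacter.isCharacter χ.2) (isConj_out_mk g⁻¹)).symm

theorem main_ineq (hP : IsPGroup 2 P)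
    (hirr : ∀ y : P, Subgroup.normalizer ((Subgroup.zpowers y : Subgroup P) : Set P) ≤ Subgroup.centralizer {y}) :
    Nat.card (P ⧸ frattini P) ≤ Nat.card {c : ConjClasses P // ∃ y : P, ConjClasses.mk y = c ∧ orderOf y = 2} + 1 := by
  classical
  haveI : Fact (Nat.Prime 2) := ⟨Nat.prime_two⟩
  have hfix := card_fixed_irr_eq_card_fixed_class (G := P) sg pi compat
  -- real classes
  have hclasses : Nat.card {C : ConjClasses P // pi C = C} ≤
      Nat.card {c : ConjClasses P // ∃ y : P, ConjClasses.mk y = c ∧ orderOf y = 2} + 1 := by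
    have h1 : Nat.card {C : ConjClasses P // pi C = C} ≤
        Nat.card (Option {c : ConjClasses P // ∃ y : P, ConjClasses.mk y = c ∧ orderOf y = 2}) := by
      apply Nat.card_le_card_of_injective
        (f := fun C => if h : ∃ y : P, ConjClasses.mk y = C.1 ∧ orderOf y = 2 then some ⟨C.1, h⟩ else none)
      intro C D hCD
      by_cases hC : ∃ y : P, ConjClasses.mk y = C.1 ∧ orderOf y = 2
      · by_cases hD : ∃ y : P, ConjClasses.mk y = D.1 ∧ orderOf y = 2
        · simp only [dif_pos hC, dif_pos hD, Option.some.injEq, Subtype.mk.injEq] at hCD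
          exact Subtype.ext hCD
        · simp [dif_pos hC, dif_neg hD] at hCD
      · by_cases hD : ∃ y : P, ConjClasses.mk y = D.1 ∧ orderOf y = 2
        · simp [dif_neg hC, dif_pos hD] at hCD
        · -- both are the class of `1`
          have key : ∀ E : {C : ConjClasses P // pi C = C},
              ¬ (∃ y : P, ConjClasses.mk y = E.1 ∧ orderOf y = 2) → E.1 = ConjClasses.mk 1 := by
            rintro ⟨E, hE⟩ hnE
            obtain ⟨g, rfl⟩ := ConjClasses.mk_surjective E
            rw [pi_mk, ConjClasses.mk_eq_mk_iff_isConj] at hE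
            obtain ⟨c, hc⟩ := isConj_iff.1 hE
            have hc2 : c * g * c⁻¹ = g⁻¹ := by
              have h2 : c * g⁻¹ * c⁻¹ = g := hc
              have e : c * g * c⁻¹ = (c * g⁻¹ * c⁻¹)⁻¹ := by group
              rw [e, h2]
            have hcn : c ∈ Subgroup.normalizer ((Subgroup.zpowers g : Subgroup P) : Set P) :=
              Cfsg.Agent.Lib.H73.mem_normalizer_zpowers_of_conj (by
                rw [hc2]; exact inv_mem (Subgroup.mem_zpowers g))
            have hcc := hirr g hcn
            rw [Subgroup.mem_centralizer_singleton_iff] at hcc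
            have hginv : g⁻¹ = g := by
              rw [← hc2, hcc]; group
            by_cases hg1 : g = 1
            · show ConjClasses.mk g = ConjClasses.mk 1
              rw [hg1]
            · exfalso
              apply hnE
              refine ⟨g, rfl, ?_⟩
              apply orderOf_eq_prime _ hg1
              rw [pow_two]
              nth_rewrite 1 [← hginv]
              exact inv_mul_cancel g
          apply Subtype.ext
          rw [key C hC, key D hD]
    rw [Finite.card_option] at h1
    exact h1
  refine le_trans ?_ hclasses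
  rw [← hfix]
  -- linear characters of `P ⧸ Φ(P)`
  set V := P ⧸ frattini P with hV
  let π := QuotientGroup.mk' (frattini P)
  have hπ : Function.Surjective π := QuotientGroup.mk'_surjective _
  have hker : π.ker = frattini P := QuotientGroup.ker_mk' _
  have hcomm : ∀ a b : V, a * b = b * a := by
    intro a b
    obtain ⟨x, rfl⟩ := hπ a
    obtain ⟨y, rfl⟩ := hπ b
    have h1 : ⁅x, y⁆ ∈ frattini P :=
      Cfsg.Agent.Lib.Frat.commutator_le_frattini hP
        (Subgroup.commutator_mem_commutator (Subgroup.mem_top x) (Subgroup.mem_top y))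
    have h2 : π ⁅x, y⁆ = 1 := by
      rw [← MonoidHom.mem_ker, hker]; exact h1
    rw [map_commutatorElement] at h2
    exact commutatorElement_eq_one_iff_mul_comm.1 h2
  have hexp : ∀ a : V, a ^ 2 = 1 := by
    intro a
    obtain ⟨x, rfl⟩ := hπ a
    rw [← map_pow, ← MonoidHom.mem_ker, hker]
    exact Cfsg.Agent.Lib.Frat.pow_mem_frattini hP x
  letI : CommGroup V := { (inferInstance : Group V) with mul_comm := hcomm }
  haveI : NeZero (Monoid.exponent V) := ⟨Monoid.exponent_ne_zero_of_finite⟩
  have hcard : Nat.card (V →* ℂˣ) = Nat.card V :=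
    CommGroup.card_monoidHom_of_hasEnoughRootsOfUnity V ℂ
  rw [← hcard]
  have hreal : ∀ (f : V →* ℂˣ) (v : V), conj ((f v : ℂˣ) : ℂ) = ((f v : ℂˣ) : ℂ) := by
    intro f v
    have h1 : (f v) * (f v) = 1 := by
      rw [← map_mul, ← pow_two, hexp, map_one]
    have h2 : ((f v : ℂˣ) : ℂ) * ((f v : ℂˣ) : ℂ) = 1 := by
      rw [← Units.val_mul, h1]; rfl
    rcases mul_self_eq_one_iff.1 h2 with h3 | h3 <;> rw [h3] <;> simp
  let F : (V →* ℂˣ) → {χ : IrrCharacter P // sg χ = χ} := fun f =>
    ⟨⟨fun g => ((f.comp π g : ℂˣ) : ℂ), isIrrCharacter_of_hom (f.comp π)⟩, by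
      apply Subtype.ext
      funext g
      exact hreal f (π g)⟩
  apply Nat.card_le_card_of_injective F
  intro f f' h
  apply MonoidHom.ext
  intro v
  obtain ⟨x, rfl⟩ := hπ v
  have h1 := congrFun (congrArg (fun χ : {χ : IrrCharacter P // sg χ = χ} => ((χ.1 : IrrCharacter P) : P → ℂ)) h) x
  exact Units.ext h1

end

/-- Let P be a finite 2-group in which N_P(⟨y⟩) = C_P(y) for every y ∈ P. If s is the number of conjugacy classes of involutions of P, then #(P/Φ(P)) ≤ s + 1; in particular the subgroup generated by the involutions of P has order at least #(P/Φ(P)). -/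
theorem result {P : Type*} [Group P] [Finite P] (hP : IsPGroup 2 P)
    (hirr : ∀ y : P, Subgroup.normalizer ((Subgroup.zpowers y : Subgroup P) : Set P) ≤ Subgroup.centralizer {y}) :
    Nat.card (P ⧸ frattini P) ≤ Nat.card {c : ConjClasses P // ∃ y : P, ConjClasses.mk y = c ∧ orderOf y = 2} + 1 ∧
    Nat.card (P ⧸ frattini P) ≤ Nat.card (Subgroup.closure {y : P | orderOf y = 2}) := by
  classical
  haveI := Fintype.ofFinite P
  have h1 := main_ineq hP hirr
  refine ⟨h1, h1.trans ?_⟩
  rw [← Finite.card_option]
  apply Nat.card_le_card_of_injective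
    (f := fun o : Option {c : ConjClasses P // ∃ y : P, ConjClasses.mk y = c ∧ orderOf y = 2} =>
      match o with
      | none => (1 : Subgroup.closure {y : P | orderOf y = 2})
      | some c => ⟨c.2.choose, Subgroup.subset_closure c.2.choose_spec.2⟩)
  intro a b hab
  have hne1 : ∀ c : {c : ConjClasses P // ∃ y : P, ConjClasses.mk y = c ∧ orderOf y = 2}, c.2.choose ≠ 1 := by
    intro c h
    have := c.2.choose_spec.2
    rw [h, orderOf_one] at this
    omega
  cases a with
  | none =>
    cases b with
    | none => rfl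
    | some d =>
      exfalso
      have h2 := congrArg Subtype.val hab
      exact hne1 d h2.symm
  | some c =>
    cases b with
    | none =>
      exfalso
      have h2 := congrArg Subtype.val hab
      exact hne1 c h2
    | some d =>
      have h2 : c.2.choose = d.2.choose := congrArg Subtype.val hab
      have h3 := c.2.choose_spec.1
      have h4 := d.2.choose_spec.1
      rw [h2, h4] at h3
      congr 1
      exact Subtype.ext h3.symm

end Cfsg.Agent.S4029
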