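import Mathlib
import Cfsg.Statements.S4036

set_option autoImplicit false
open Cfsg

namespace Cfsg.Agent.S4036

/-- Let P be a finite abelian p-group and K a group of automorphisms of P (a subgroup of Aut P) whose order is divisible by p. If all non-identity elements of K have the same fixed-point subgroup on P, then K has no non-trivial normal subgroup of order prime to p. -/
theorem result {P : Type*} [CommGroup P] [Finite P] {p : ℕ}
    [Fact p.Prime] (hP : IsPGroup p P) (K : Subgroup (MulAut P)) (hK : p ∣ Nat.card K)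
    (hfix : ∀ x y : MulAut P, x ∈ K → y ∈ K → x ≠ 1 → y ≠ 1 → ∀ v : P, x v = v ↔ y v = v) :
    ∀ N : Subgroup ↥K, N.Normal → ¬ p ∣ Nat.card N → N = ⊥ := by
  classical
  intro N hNn hNp
  by_contra hNbot
  have hp : p.Prime := Fact.out
  have := Fintype.ofFinite P
  have : Finite (MulAut P) := by
    exact Finite.of_injective (fun f : MulAut P => (f : P → P)) (fun a b h => MulEquiv.ext (fun x => congrFun h x))
  have := Fintype.ofFinite K
  have := Fintype.ofFinite N
  -- an element of order p in K
  obtain ⟨x, hx⟩ := exists_prime_orderOf_dvd_card' (G := K) p hK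
  have hx1 : (x : MulAut P) ≠ 1 := by
    intro h
    have : x = 1 := Subtype.ext h
    rw [this, orderOf_one] at hx
    exact hp.one_lt.ne hx
  -- a nontrivial element of N
  obtain ⟨n, hn⟩ := (Subgroup.ne_bot_iff_exists_ne_one).mp hNbot
  have hn1 : ((n : K) : MulAut P) ≠ 1 := by
    intro h
    apply hn
    exact Subtype.ext (Subtype.ext h)
  -- the trace map
  let τ : P →* P :=
    { toFun := fun v => ∏ h : N, ((h : K) : MulAut P) v
      map_one' := by simp
      map_mul' := fun a b => by
        simp only [map_mul]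
        exact Finset.prod_mul_distrib }
  have hτ : ∀ v, τ v = ∏ h : N, ((h : K) : MulAut P) v := fun v => rfl
  -- N fixes the image
  have hfixim : ∀ (m : N) (v : P), ((m : K) : MulAut P) (τ v) = τ v := by
    intro m v
    rw [hτ, map_prod]
    refine Fintype.prod_equiv (Equiv.mulLeft m) _ _ (fun h => ?_)
    simp [MulAut.mul_apply]
  -- equivariance under K
  have hequiv : ∀ (k : K) (v : P), τ ((k : MulAut P) v) = (k : MulAut P) (τ v) := by
    intro k v
    rw [hτ, hτ, map_prod]
    have hb : Function.Bijective (fun h : N => (⟨k * (h : K) * k⁻¹, hNn.conj_mem (h : K) h.2 k⟩ : N)) := by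
      rw [← Finite.injective_iff_bijective]
      intro a b hab
      have := congrArg (fun z : N => (z : K)) hab
      simp only at this
      apply Subtype.ext
      simpa using this
    symm
    refine Fintype.prod_bijective _ hb _ _ (fun h => ?_)
    simp [MulAut.mul_apply]
  set W := τ.ker with hW
  have hWinv : ∀ (k : K) (v : P), v ∈ W → (k : MulAut P) v ∈ W := by
    intro k v hv
    rw [hW, MonoidHom.mem_ker] at hv ⊢
    rw [hequiv, hv, map_one]
  -- W is nontrivial
  have hWne : W ≠ ⊥ := by
    intro h
    have hinj : Function.Injective τ := (MonoidHom.ker_eq_bot_iff τ).mp h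
    have hsurj := Finite.injective_iff_surjective.mp hinj
    apply hn1
    ext v
    obtain ⟨u, rfl⟩ := hsurj v
    exact hfixim n u
  have hWnt : Nontrivial W := (Subgroup.nontrivial_iff_ne_bot W).mpr hWne
  have hWp : IsPGroup p W := hP.to_subgroup W
  -- action of x on W
  let f : Function.End W := fun v => ⟨(x : MulAut P) v, hWinv x v v.2⟩
  have hfp : f ^ p ^ 1 = 1 := by
    have hxp : x ^ p = 1 := by rw [← hx]; exact pow_orderOf_eq_one x
    have hit : ∀ k : ℕ, ∀ v : W, ((f ^ k) v : P) = ((x ^ k : K) : MulAut P) v := by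
      intro k
      induction k with
      | zero => intro v; simp; rfl
      | succ k ih =>
        intro v
        rw [pow_succ]
        change (((f ^ k) (f v) : W) : P) = _
        rw [ih]
        simp [f, pow_succ, MulAut.mul_apply]
    funext v
    apply Subtype.ext
    rw [pow_one, hit, hxp]
    simp
    rfl
  have := Fintype.ofFinite W
  have hmod := Equiv.Perm.card_fixedPoints_modEq (f := f) (p := p) (n := 1) hfp
  -- p divides |W|
  have hWdvd : p ∣ Fintype.card W := by
    obtain ⟨m, hm0, hm⟩ := hWp.nontrivial_iff_card.mp hWnt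
    rw [← Nat.card_eq_fintype_card, hm]
    exact dvd_pow_self p hm0.ne'
  have hFixdvd : p ∣ Fintype.card (Function.fixedPoints f) := (Nat.modEq_zero_iff_dvd.mp (hmod.symm.trans (Nat.modEq_zero_iff_dvd.mpr hWdvd)))
  -- a nontrivial fixed vector
  have hone : (1 : W) ∈ Function.fixedPoints f := by
    change f 1 = 1
    apply Subtype.ext
    simp [f]
  obtain ⟨v, hv, hv1⟩ : ∃ v : W, v ∈ Function.fixedPoints f ∧ v ≠ 1 := by
    by_contra hcon
    push Not at hcon
    have h1 : Fintype.card (Function.fixedPoints f) = 1 := by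
      rw [Fintype.card_eq_one_iff]
      refine ⟨⟨1, hone⟩, fun y => ?_⟩
      apply Subtype.ext
      exact hcon y.1 y.2
    rw [h1] at hFixdvd
    exact hp.one_lt.ne' (Nat.dvd_one.mp hFixdvd)
  have hxv : (x : MulAut P) (v : P) = v := congrArg Subtype.val hv
  -- all of N fixes v
  have hNv : ∀ h : N, ((h : K) : MulAut P) (v : P) = v := by
    intro h
    by_cases hh : ((h : K) : MulAut P) = 1
    · rw [hh]; rfl
    · exact (hfix _ _ x.2 (h : K).2 hx1 hh (v : P)).mp hxv
  have hτv : τ (v : P) = (v : P) ^ Nat.card N := by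
    rw [hτ]
    simp only [hNv]
    rw [Finset.prod_const, Finset.card_univ, Nat.card_eq_fintype_card]
  have hv0 : τ (v : P) = 1 := v.2
  rw [hτv] at hv0
  obtain ⟨a, ha⟩ := (hP (v : P))
  have h1 : orderOf (v : P) ∣ Nat.card N := orderOf_dvd_of_pow_eq_one hv0
  have h2 : orderOf (v : P) ∣ p ^ a := orderOf_dvd_of_pow_eq_one ha
  have h3 : orderOf (v : P) = 1 := by
    have hcop : Nat.Coprime (p ^ a) (Nat.card N) :=
      Nat.Coprime.pow_left _ ((Nat.Prime.coprime_iff_not_dvd hp).mpr hNp)
    exact Nat.eq_one_of_dvd_coprimes hcop h2 h1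
  apply hv1
  apply Subtype.ext
  exact orderOf_eq_one_iff.mp h3

end Cfsg.Agent.S4036
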