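import Mathlib
-- Template for statement S4039 (row 4039; see /opt/grader/pristine/manifest.json for weights).
-- Copy to Cfsg/Agent/S4039.lean and replace the sorry. The statement below is byte-identical to the frozen
-- statement Cfsg.CfsgFrozen.S4039 (Cfsg/Statements/S4039.lean; the theorem Cfsg.fg5_nilpotent_class_two_maximal_subgroup_implies_solvable);
-- the grader kernel-checks Cfsg.Agent.S4039.result against that frozen type. Keep the theorem IN THIS FILE
-- (a `result` declared elsewhere and merely imported here is not credited); helpers may live anywhere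
-- under Cfsg/Agent/.
import Cfsg.Statements.S4039
import Cfsg.Agent.Lib.NilpMax

set_option autoImplicit false
open Cfsg

open scoped commutatorElement
open Subgroup

namespace Cfsg.Agent.S4039

universe u

theorem aux (X : Type u) [Group X] [Finite X] (M : Subgroup X) (hmax : IsCoatom M)
    (hnil : Group.IsNilpotent M) (hcore : M.normalCore = ⊥)
    (hΦ : ∀ x ∈ M, ∀ y ∈ M, ∀ z ∈ M, ⁅⁅x, y⁆, z⁆ = (1 : X))
    (p : ℕ) (hp : p.Prime) (hpM : p ∣ Nat.card M) : Cfsg.HasNormalPComplement p X := by
  classical
  haveI : Fact p.Prime := ⟨hp⟩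
  obtain ⟨P, hPM, hPb, hMP⟩ := Cfsg.Agent.Lib.NilpMax.exists_sylow_of_coreFree hmax hnil hcore hpM
  apply Cfsg.Agent.Lib.NilpMax.hasNPC_of_class_two P
  · intro x hx y hy z hz
    exact hΦ x (hPM hx) y (hPM hy) z (hPM hz)
  · intro H hHP hHb hPH g hg hgc
    -- `M` normalizes `H`
    have hMH : M ≤ normalizer (H : Set X) := by
      intro m hm
      obtain ⟨a, b, hab, -, -, ⟨k, hak⟩, hbc⟩ :=
        Cfsg.Agent.Lib.PComplement.exists_decomp p (⟨m, hm⟩ : M)
      have hm' : m = (a : X) * (b : X) := by rw [← Subgroup.coe_mul, ← hab]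
      rw [hm']
      apply mul_mem
      · -- `a` lies in `P`
        apply hPH
        have hap : IsPGroup p (zpowers a) := by
          rw [IsPGroup.iff_card, Nat.card_zpowers]
          obtain ⟨j, -, hj⟩ := (Nat.dvd_prime_pow hp).1 (orderOf_dvd_of_pow_eq_one hak)
          exact ⟨j, hj⟩
        have hPsub : IsPGroup p (((P : Subgroup X).subgroupOf M) ⊔ zpowers a : Subgroup M) := by
          have hn : ((P : Subgroup X).subgroupOf M).Normal := by
            refine ⟨fun n hn c => ?_⟩
            have h1 := hMP c.2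
            have h2 := (mem_normalizer_iff.1 h1 (n : X)).1 hn
            exact h2
          exact IsPGroup.to_sup_of_normal_left' (P.isPGroup'.comap_subtype) hap (by rw [normalizer_eq_top_iff.2 hn]; exact le_top)
        have h1 : (P : Subgroup X).subgroupOf M ⊔ zpowers a ≤ (P : Subgroup X).subgroupOf M := by
          intro c hc
          have h2 := hPsub
          have h3 : IsPGroup p (((P : Subgroup X).subgroupOf M ⊔ zpowers a : Subgroup M).map M.subtype) :=
            h2.map _
          have h4 : (P : Subgroup X) ≤ ((P : Subgroup X).subgroupOf M ⊔ zpowers a : Subgroup M).map M.subtype := by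
            intro d hd
            exact ⟨⟨d, hPM hd⟩, Subgroup.mem_sup_left hd, rfl⟩
          have h5 := P.is_maximal' h3 h4
          have h6 : (c : X) ∈ ((P : Subgroup X).subgroupOf M ⊔ zpowers a : Subgroup M).map M.subtype :=
            ⟨c, hc, rfl⟩
          rw [h5] at h6
          exact h6
        have h2 : a ∈ (P : Subgroup X).subgroupOf M := h1 (Subgroup.mem_sup_right (mem_zpowers a))
        exact h2
      · -- `b` centralizes `H`
        rw [mem_normalizer_iff]
        have hstep : ∀ c : M, Nat.Coprime (orderOf c) p → ∀ h ∈ H, (c : X) * h * (c : X)⁻¹ = h := by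
          intro c hc h hh
          have hhp : ∃ k : ℕ, (⟨h, hPM (hHP hh)⟩ : M) ^ p ^ k = 1 := by
            obtain ⟨k, hk⟩ := P.isPGroup' ⟨h, hHP hh⟩
            refine ⟨k, ?_⟩
            apply Subtype.ext
            have := congrArg Subtype.val hk
            simpa using this
          have h1 := Cfsg.Agent.Lib.PComplement.commute_of_isNilpotent (G := M) hhp hc
          have h2 := congrArg Subtype.val h1
          simp only [Subgroup.coe_mul] at h2
          rw [← h2]; group
        intro h
        constructor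
        · intro hh
          rw [hstep b hbc h hh]; exact hh
        · intro hh
          have h1 := hstep b⁻¹ (by rwa [orderOf_inv]) _ hh
          have h2 : ((b⁻¹ : M) : X) * ((b : X) * h * (b : X)⁻¹) * ((b⁻¹ : M) : X)⁻¹ = h := by
            simp only [Subgroup.coe_inv]; group
          rw [h2] at h1
          rw [h1]; exact hh
    have hnH := Cfsg.Agent.Lib.NilpMax.normalizer_eq_of_coreFree hmax hcore (hHP.trans hPM) hHb hMH
    rw [hnH] at hg
    rw [mem_centralizer_iff]
    intro h hh
    have hhp : ∃ k : ℕ, (⟨h, hPM (hHP hh)⟩ : M) ^ p ^ k = 1 := by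
      obtain ⟨k, hk⟩ := P.isPGroup' ⟨h, hHP hh⟩
      refine ⟨k, ?_⟩
      apply Subtype.ext
      have := congrArg Subtype.val hk
      simpa using this
    have h1 := Cfsg.Agent.Lib.PComplement.commute_of_isNilpotent (G := M) (g := ⟨g, hg⟩) hhp
      (by rwa [Subgroup.orderOf_mk])
    exact congrArg Subtype.val h1

/-- A finite group possessing a maximal subgroup that is nilpotent of class at most 2 is solvable. -/
theorem result {G : Type*} [Group G] [Finite G]
    (M : Subgroup G) (hmax : IsCoatom M) (hnil : Group.IsNilpotent M) (hcl : Group.nilpotencyClass ↥M ≤ 2) :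
    Group.IsSolvable G := by
  classical
  -- class at most two
  have hcl2 : ∀ x ∈ M, ∀ y ∈ M, ∀ z ∈ M, ⁅⁅x, y⁆, z⁆ = (1 : G) := by
    intro x hx y hy z hz
    have h1 : (⊤ : Subgroup M).lowerCentralSeries 2 = ⊥ := by
      apply le_bot_iff.1
      rw [← Subgroup.lowerCentralSeries_nilpotencyClass (G := M)]
      exact (⊤ : Subgroup M).lowerCentralSeries_antitone hcl
    have h2 : ⁅⁅(⟨x, hx⟩ : M), (⟨y, hy⟩ : M)⁆, (⟨z, hz⟩ : M)⁆ ∈ (⊤ : Subgroup M).lowerCentralSeries 2 := by
      apply Subgroup.commutator_mem_commutator _ (Subgroup.mem_top _)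
      apply Subgroup.commutator_mem_commutator _ (Subgroup.mem_top _)
      exact Subgroup.mem_top _
    rw [h1] at h2
    have h3 := congrArg Subtype.val ((Subgroup.mem_bot).1 h2)
    simpa [commutatorElement_def] using h3
  exact Cfsg.Agent.Lib.NilpMax.isSolvable_of_nilpotent_maximal
    (fun X _ _ M => ∀ x ∈ M, ∀ y ∈ M, ∀ z ∈ M, ⁅⁅x, y⁆, z⁆ = (1 : X))
    (by
      rintro X _ _ M N _ _ hΦ _ ⟨x, hx, rfl⟩ _ ⟨y, hy, rfl⟩ _ ⟨z, hz, rfl⟩
      have := congrArg (QuotientGroup.mk' N) (hΦ x hx y hy z hz)
      simpa [commutatorElement_def] using this)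
    (fun X _ _ M h1 h2 h3 h4 => aux X M h1 h2 h3 h4)
    _ G M rfl hmax hnil hcl2

end Cfsg.Agent.S4039
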