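import Mathlib
import Cfsg.Statements.S4043
import Cfsg.Agent.Lib.H73Hom
import Cfsg.Agent.Lib.CoprimeInv
import Cfsg.Agent.Lib.PGrp

set_option autoImplicit false
set_option linter.unusedSectionVars false
open Cfsg

namespace Cfsg.Agent.S4043

open Cfsg.Agent.Lib.H73Hom Cfsg.Agent.Lib.CoprimeInv

variable {G : Type*} [Group G] [Finite G] {p : ℕ} [hp : Fact p.Prime]

/-- Data extracted from a normal `p`-complement of a subgroup `A`. -/
theorem data_of_complement (A : Subgroup G) (hAp : HasNormalPComplement p A) :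
    ∃ B P : Subgroup G, B ≤ A ∧ P ≤ A ∧ (∀ a ∈ A, ∀ b ∈ B, a * b * a⁻¹ ∈ B) ∧ IsPGroup p P ∧
      ¬ p ∣ Nat.card B ∧ ∀ a ∈ A, ∃ b ∈ B, ∃ s ∈ P, a = b * s := by
  obtain ⟨S, B', hB'n, hc⟩ := hAp
  refine ⟨B'.map A.subtype, (S : Subgroup A).map A.subtype, Subgroup.map_subtype_le _,
    Subgroup.map_subtype_le _, ?_, S.isPGroup'.map _, ?_, ?_⟩
  · rintro a ha _ ⟨b, hb, rfl⟩
    exact ⟨⟨a, ha⟩ * b * (⟨a, ha⟩ : A)⁻¹, hB'n.conj_mem b hb _, rfl⟩
  · rw [Subgroup.card_map_of_injective A.subtype_injective]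
    intro hd
    have h1 := hc.card_mul_card
    rw [S.card_eq_multiplicity] at h1
    have h2 : Nat.card B' * p ^ (Nat.card A).factorization p ∣ Nat.card A := by rw [h1]
    have h3 : p * p ^ (Nat.card A).factorization p ∣ Nat.card A :=
      (Nat.mul_dvd_mul_right hd _).trans h2
    have h4 : p ^ ((Nat.card A).factorization p + 1) ∣ Nat.card A := by
      rw [pow_succ']
      exact h3
    exact Nat.pow_succ_factorization_not_dvd Nat.card_pos.ne' hp.out h4
  · intro a ha
    obtain ⟨⟨⟨b, hb⟩, ⟨s, hs⟩⟩, e⟩ := hc.2 (⟨a, ha⟩ : A)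
    replace e : b * s = (⟨a, ha⟩ : A) := e
    refine ⟨b, ⟨b, hb, rfl⟩, s, ⟨s, hs, rfl⟩, ?_⟩
    exact (congrArg Subtype.val e).symm

/-- The self-normalizing property. -/
theorem mem_of_normalizes (N A B P : Subgroup G) [N.Normal] (hN : IsPGroup p N)
    (hA : A.IsComplement' N) (hBA : B ≤ A) (hPA : P ≤ A)
    (hBn : ∀ a ∈ A, ∀ b ∈ B, a * b * a⁻¹ ∈ B) (hP : IsPGroup p P) (hBc : ¬ p ∣ Nat.card B)
    (hdec : ∀ a ∈ A, ∃ b ∈ B, ∃ s ∈ P, a = b * s)
    (hC : ∀ n : G, n ∈ N → (∀ a : G, a ∈ A → a * n * a⁻¹ = n) → n = 1)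
    (t : G) (ht : t ∈ Subgroup.normalizer (B : Set G)) : t ∈ A := by
  have hdisj : Disjoint N B := by
    apply Subgroup.disjoint_of_coprime_natCard
    obtain ⟨k, hk⟩ := IsPGroup.iff_card.mp hN
    rw [hk]
    exact Nat.Coprime.pow_left _ ((Nat.Prime.coprime_iff_not_dvd hp.out).mpr hBc)
  set C : Subgroup G := Subgroup.centralizer (B : Set G) ⊓ N with hCdef
  have hCA : ∀ a ∈ A, ∀ c ∈ C, a * c * a⁻¹ ∈ C := by
    intro a ha c hc
    obtain ⟨hc1, hc2⟩ := Subgroup.mem_inf.mp hc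
    refine Subgroup.mem_inf.mpr ⟨?_, Subgroup.Normal.conj_mem inferInstance c hc2 a⟩
    rw [Subgroup.mem_centralizer_iff] at hc1 ⊢
    intro b hb
    have h1 := hc1 (a⁻¹ * b * a⁻¹⁻¹) (hBn a⁻¹ (A.inv_mem ha) b hb)
    have h2 : a⁻¹⁻¹ = a := inv_inv a
    rw [h2] at h1
    calc b * (a * c * a⁻¹) = a * (a⁻¹ * b * a * c) * a⁻¹ := by group
      _ = a * (c * (a⁻¹ * b * a)) * a⁻¹ := by rw [h1]
      _ = a * c * a⁻¹ * b := by group
  have hCbot : C = ⊥ := by
    by_contra hne
    have hPC : P ≤ Subgroup.normalizer (C : Set G) := fun s hs =>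
      mem_normalizer_of_conj_mem (hCA s (hPA hs))
    have hCp : IsPGroup p C := hN.to_le inf_le_right
    have hQ : IsPGroup p (P ⊔ C : Subgroup G) := isPGroup_sup_of_le_normalizer hP hCp hPC
    set Q := P ⊔ C with hQdef
    have hCQ : C ≤ Q := le_sup_right
    have hPQ : P ≤ Q := le_sup_left
    have hC1n : (C.subgroupOf Q).Normal := by
      rw [Subgroup.normal_subgroupOf_iff_le_normalizer hCQ]
      exact sup_le hPC Subgroup.le_normalizer
    have hC1ne : C.subgroupOf Q ≠ ⊥ := by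
      intro h
      apply hne
      rw [Subgroup.subgroupOf_eq_bot, disjoint_iff, inf_of_le_left hCQ] at h
      exact h
    obtain ⟨y, hyC, hy1, hyZ⟩ := Cfsg.Agent.Lib.PGrp.exists_central_mem_normal hQ (C.subgroupOf Q) hC1ne
    have hyC' : (y : G) ∈ C := hyC
    obtain ⟨hy2, hy3⟩ := Subgroup.mem_inf.mp hyC'
    apply hy1
    apply Subtype.ext
    apply hC y hy3
    intro a ha
    obtain ⟨b, hb, s, hs, rfl⟩ := hdec a ha
    have h1 : s * (y : G) = y * s := by
      have := (Subgroup.mem_center_iff.mp hyZ) ⟨s, hPQ hs⟩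
      exact congrArg Subtype.val this
    have h2 : b * (y : G) = y * b := by
      rw [Subgroup.mem_centralizer_iff] at hy2
      exact hy2 b hb
    calc b * s * (y : G) * (b * s)⁻¹ = b * (s * y) * s⁻¹ * b⁻¹ := by group
      _ = b * y * b⁻¹ := by rw [h1]; group
      _ = y := by rw [h2]; group
  have hmem : ∀ t ∈ Subgroup.normalizer (B : Set G), t ∈ A := by
    intro t ht
    obtain ⟨⟨⟨a, ha⟩, ⟨c, hc⟩⟩, e⟩ := hA.2 t
    replace e : a * c = t := e
    have hcN : c ∈ Subgroup.normalizer (B : Set G) := by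
      have : c = a⁻¹ * t := by rw [← e]; group
      rw [this]
      refine Subgroup.mul_mem _ (Subgroup.inv_mem _ (mem_normalizer_of_conj_mem (fun b hb => hBn a ha b hb))) ht
    have hcC : c ∈ C := by
      refine Subgroup.mem_inf.mpr ⟨?_, hc⟩
      rw [Subgroup.mem_centralizer_iff]
      intro b hb
      have h1 : c * b * c⁻¹ * b⁻¹ ∈ B :=
        B.mul_mem ((Subgroup.mem_normalizer_iff.mp hcN b).mp hb) (B.inv_mem hb)
      have h2 : c * b * c⁻¹ * b⁻¹ ∈ N := by
        have h3 := Subgroup.Normal.conj_mem (inferInstance : N.Normal) c⁻¹ (N.inv_mem hc) b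
        have e2 : c * b * c⁻¹ * b⁻¹ = c * (b * c⁻¹ * b⁻¹) := by group
        rw [e2]
        exact N.mul_mem hc h3
      have h3 := Subgroup.disjoint_def.mp hdisj h2 h1
      have h4 : c * b * c⁻¹ = b := by rwa [mul_inv_eq_one] at h3
      have h5 : c * b = b * c := by rw [mul_inv_eq_iff_eq_mul] at h4; exact h4
      exact h5.symm
    rw [hCbot, Subgroup.mem_bot] at hcC
    rw [← e, hcC, mul_one]
    exact ha
  exact hmem t ht

/-- Let G be a finite group that is the semidirect product of a normal p-subgroup N by a subgroup A, and also of N by a subgroup A₁, where p is a prime and A and A₁ both have normal p-complements. If C_N(A) = C_N(A₁) = 1, then A₁ is conjugate to A by an element of N. -/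
theorem result {G : Type*} [Group G] [Finite G] {p : ℕ}
    [Fact p.Prime] (N : Subgroup G) [N.Normal] (hN : IsPGroup p N) (A A₁ : Subgroup G)
    (hA : A.IsComplement' N) (hA₁ : A₁.IsComplement' N)
    (hAp : Cfsg.HasNormalPComplement p A) (hA₁p : Cfsg.HasNormalPComplement p A₁)
    (hC : ∀ n : G, n ∈ N → (∀ a : G, a ∈ A → a * n * a⁻¹ = n) → n = 1)
    (hC₁ : ∀ n : G, n ∈ N → (∀ a : G, a ∈ A₁ → a * n * a⁻¹ = n) → n = 1) :
    ∃ n : G, n ∈ N ∧ A₁ = A.map (MulAut.conj n).toMonoidHom := by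
  obtain ⟨B, P, hBA, hPA, hBn, hP, hBc, hdec⟩ := data_of_complement A hAp
  obtain ⟨B₁, P₁, hBA₁, hPA₁, hBn₁, hP₁, hBc₁, hdec₁⟩ := data_of_complement A₁ hA₁p
  -- the subgroups `N ⊔ B` and `N ⊔ B₁` coincide
  have key : ∀ (A B P B₂ : Subgroup G), A.IsComplement' N → B ≤ A →
      (∀ a ∈ A, ∀ b ∈ B, a * b * a⁻¹ ∈ B) → P ≤ A → IsPGroup p P →
      (∀ a ∈ A, ∃ b ∈ B, ∃ s ∈ P, a = b * s) → ¬ p ∣ Nat.card B₂ → B₂ ≤ N ⊔ B := by
    intro A B P B₂ hA hBA hBn hPA hP hdec hB₂
    have hKn : (N ⊔ B).Normal := by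
      rw [← Subgroup.normalizer_eq_top_iff, eq_top_iff, ← hA.sup_eq_top, sup_le_iff]
      constructor
      · intro a ha
        apply mem_normalizer_of_conj_mem
        intro x hx
        have : (N ⊔ B) ≤ (N ⊔ B).comap (MulAut.conj a).toMonoidHom := by
          rw [sup_le_iff]
          constructor
          · intro y hy
            exact Subgroup.mem_sup_left (Subgroup.Normal.conj_mem inferInstance y hy a)
          · intro y hy
            exact Subgroup.mem_sup_right (hBn a ha y hy)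
        exact this hx
      · intro c hc
        apply mem_normalizer_of_conj_mem
        intro x hx
        have : (N ⊔ B) ≤ (N ⊔ B).comap (MulAut.conj c).toMonoidHom := by
          rw [sup_le_iff]
          constructor
          · intro y hy
            exact Subgroup.mem_sup_left (Subgroup.Normal.conj_mem inferInstance y hy c)
          · intro y hy
            have e : c * y * c⁻¹ = (c * y * c⁻¹ * y⁻¹) * y := by group
            change c * y * c⁻¹ ∈ N ⊔ B
            rw [e]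
            refine Subgroup.mul_mem _ (Subgroup.mem_sup_left ?_) (Subgroup.mem_sup_right hy)
            have e2 : c * y * c⁻¹ * y⁻¹ = c * (y * c⁻¹ * y⁻¹) := by group
            rw [e2]
            exact N.mul_mem hc (Subgroup.Normal.conj_mem inferInstance _ (N.inv_mem hc) y)
        exact this hx
    have hpgrp : IsPGroup p (G ⧸ (N ⊔ B)) := by
      rw [IsPGroup.iff_orderOf]
      intro x
      obtain ⟨g, rfl⟩ := QuotientGroup.mk_surjective x
      obtain ⟨⟨⟨a, ha⟩, ⟨c, hc⟩⟩, e⟩ := hA.2 g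
      replace e : a * c = g := e
      obtain ⟨b, hb, s, hs, rfl⟩ := hdec a ha
      have h1 : ((g : G) : G ⧸ (N ⊔ B)) = (s : G) := by
        rw [QuotientGroup.eq]
        have e3 : g⁻¹ * s = c⁻¹ * (s⁻¹ * b⁻¹ * s⁻¹⁻¹) := by
          rw [← e]
          group
        rw [e3]
        exact Subgroup.mul_mem _ (Subgroup.mem_sup_left (N.inv_mem hc))
          (Subgroup.mem_sup_right (hBn _ (A.inv_mem (hPA hs)) _ (B.inv_mem hb)))
      rw [h1]
      obtain ⟨k, hk⟩ := (IsPGroup.iff_orderOf.mp hP) ⟨s, hs⟩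
      rw [Subgroup.orderOf_mk] at hk
      have h2 : orderOf ((s : G) : G ⧸ (N ⊔ B)) ∣ p ^ k := by
        rw [← hk]
        exact orderOf_map_dvd (QuotientGroup.mk' _) s
      obtain ⟨j, -, hj⟩ := (Nat.dvd_prime_pow (Fact.out : p.Prime)).mp h2
      exact ⟨j, hj⟩
    intro x hx
    rw [← QuotientGroup.eq_one_iff, ← orderOf_eq_one_iff]
    have h1 : orderOf ((x : G) : G ⧸ (N ⊔ B)) ∣ Nat.card B₂ := by
      have h2 : orderOf x ∣ Nat.card B₂ := Subgroup.orderOf_dvd_natCard B₂ hx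
      exact (orderOf_map_dvd (QuotientGroup.mk' _) x).trans h2
    obtain ⟨k, hk⟩ := (IsPGroup.iff_orderOf.mp hpgrp) x
    rw [hk] at h1 ⊢
    rcases Nat.eq_zero_or_pos k with rfl | hk0
    · simp
    · exact absurd ((dvd_pow_self p hk0.ne').trans h1) hB₂
  have hle1 := key A B P B₁ hA hBA hBn hPA hP hdec hBc₁
  have hle2 := key A₁ B₁ P₁ B hA₁ hBA₁ hBn₁ hPA₁ hP₁ hdec₁ hBc
  have hsup : N ⊔ B = N ⊔ B₁ := le_antisymm (sup_le le_sup_left hle2) (sup_le le_sup_left hle1)
  have hcopN : ∀ X : Subgroup G, ¬ p ∣ Nat.card X → Nat.Coprime (Nat.card N) (Nat.card X) := by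
    intro X hX
    obtain ⟨k, hk⟩ := IsPGroup.iff_card.mp hN
    rw [hk]
    exact Nat.Coprime.pow_left _ ((Nat.Prime.coprime_iff_not_dvd (Fact.out : p.Prime)).mpr hX)
  have hsolvN : Group.IsSolvable N := by
    have := hN.isNilpotent
    infer_instance
  have hnormtop : ∀ X : Subgroup G, X ≤ Subgroup.normalizer (N : Set G) := by
    intro X
    rw [Subgroup.normalizer_eq_top]
    exact le_top
  obtain ⟨n, hn, hB₁⟩ := exists_conj_rel hsolvN (hnormtop B) (hnormtop B₁)
    (Subgroup.disjoint_of_coprime_natCard (hcopN B hBc)).eq_bot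
    (Subgroup.disjoint_of_coprime_natCard (hcopN B₁ hBc₁)).eq_bot hsup (hcopN B hBc)
  refine ⟨n, hn, ?_⟩
  have hle : A₁ ≤ A.map (MulAut.conj n).toMonoidHom := by
    intro t ht
    have h1 : t ∈ Subgroup.normalizer (B₁ : Set G) :=
      mem_normalizer_of_conj_mem (fun b hb => hBn₁ t ht b hb)
    have h2 : n⁻¹ * t * n ∈ Subgroup.normalizer (B : Set G) := by
      apply mem_normalizer_of_conj_mem
      intro b hb
      have h3 : n * b * n⁻¹ ∈ B₁ := by
        rw [hB₁]
        exact conj_mem_cj hb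
      have h4 := (Subgroup.mem_normalizer_iff.mp h1 _).mp h3
      rw [hB₁, mem_cj] at h4
      have e : n⁻¹ * (t * (n * b * n⁻¹) * t⁻¹) * n = n⁻¹ * t * n * b * (n⁻¹ * t * n)⁻¹ := by group
      rwa [e] at h4
    have h3 := mem_of_normalizes N A B P hN hA hBA hPA hBn hP hBc hdec hC _ h2
    exact mem_cj.mpr h3
  apply Subgroup.eq_of_le_of_card_ge hle
  have h1 : Nat.card (A.map (MulAut.conj n).toMonoidHom) = Nat.card A := card_cj A n
  have h2 := hA.card_mul_card
  have h3 := hA₁.card_mul_card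
  have h4 : Nat.card A = Nat.card A₁ :=
    Nat.eq_of_mul_eq_mul_right Nat.card_pos (h2.trans h3.symm)
  rw [h1, h4]

end Cfsg.Agent.S4043
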