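import Mathlib
import Cfsg.Statements.S4049
import Cfsg.Agent.Lib.H73Hom

set_option autoImplicit false
open Cfsg

namespace Cfsg.Agent.S4049

open Cfsg.Agent.Lib.H73Hom Cfsg.Agent.Lib.H73Inv Cfsg.Agent.Lib.FrobCount

/-- Let G be a finite group such that N_G(H)/C_G(H) has odd order for every nontrivial subgroup H of odd order. Then the Sylow 2-subgroups of G are normal. -/
theorem result {G : Type*} [Group G] [Finite G]
    (hhom : ∀ H : Subgroup G, H ≠ ⊥ → ¬ 2 ∣ Nat.card ↥H →
        ¬ 2 ∣ (Subgroup.centralizer (H : Set G)).relIndex (Subgroup.normalizer (H : Set G))) (P : Sylow 2 G) :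
    (P : Subgroup G).Normal := by
  apply sylow_two_normal
  intro x a hx ha hn
  by_cases hb : Subgroup.zpowers x = ⊥
  · have hx1 : x = 1 := Subgroup.zpowers_eq_bot.mp hb
    rw [hx1]
    rw [Subgroup.mem_centralizer_singleton_iff]
    simp
  · have hodd : ¬ 2 ∣ Nat.card (Subgroup.zpowers x) := by
      rw [Nat.card_zpowers]
      intro hd
      exact hx 2 Nat.prime_two hd rfl
    have h1 := mem_centralizer_of_relIndex (P := fun q => q = 2) (Subgroup.zpowers x) hn ha
      (fun p hp hd hp2 => by
        subst hp2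
        exact hhom _ hb hodd hd)
    rw [Subgroup.mem_centralizer_iff] at h1
    rw [Subgroup.mem_centralizer_singleton_iff]
    exact (h1 x (Subgroup.mem_zpowers x)).symm

end Cfsg.Agent.S4049
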