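import Mathlib
import Cfsg.Statements.S4050
import Cfsg.Agent.Lib.H73Hom

set_option autoImplicit false
open Cfsg

namespace Cfsg.Agent.S4050

open Cfsg.Agent.Lib.H73Hom Cfsg.Agent.Lib.H73Inv Cfsg.Agent.Lib.FrobCount Cfsg.Agent.Lib.H73Pi

variable {G : Type*} [Group G] [Finite G]

/-- The chain direction. -/
theorem chain_step {P : ℕ → Prop} (hom : HomR P G) (A B : Subgroup G) [A.Normal] [B.Normal] (hAB : A ≤ B)
    (hrel : (∀ q : ℕ, q.Prime → q ∣ A.relIndex B → P q) ∨ (∀ q : ℕ, q.Prime → q ∣ A.relIndex B → ¬ P q))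
    (U : Subgroup G) (hU : ∀ y, y ∈ U ↔ y ∈ A ∧ PiElt P y) :
    ∃ V : Subgroup G, ∀ y, y ∈ V ↔ y ∈ B ∧ PiElt P y := by
  let K : Subgroup B := A.subgroupOf B
  have hKn : K.Normal := inferInstance
  have hcoe : ∀ x : B, PiElt P x ↔ PiElt P (x : G) := by
    intro x
    constructor
    · intro h q hq hd
      rw [Subgroup.orderOf_coe] at hd
      exact h q hq hd
    · intro h q hq hd
      apply h q hq
      rwa [Subgroup.orderOf_coe]
  have hL₀ : ∀ y, y ∈ U.subgroupOf B ↔ y ∈ K ∧ PiElt P y := by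
    intro y
    rw [Subgroup.mem_subgroupOf, hU, Subgroup.mem_subgroupOf, hcoe]
  have hcard : Nat.card (B ⧸ K) = A.relIndex B := rfl
  obtain ⟨L', hL'⟩ : ∃ L' : Subgroup (B ⧸ K), ∀ x, x ∈ L' ↔ PiElt P x := by
    rcases hrel with h | h
    · refine ⟨⊤, fun x => ⟨fun _ q hq hd => ?_, fun _ => trivial⟩⟩
      apply h q hq
      rw [← hcard]
      exact hd.trans (orderOf_dvd_natCard x)
    · refine ⟨⊥, fun x => ⟨fun hx => ?_, fun hx => ?_⟩⟩
      · rw [Subgroup.mem_bot.mp hx]
        exact PiElt.one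
      · rw [Subgroup.mem_bot, ← orderOf_eq_one_iff]
        by_contra hne
        obtain ⟨q, hq, hd⟩ := Nat.exists_prime_and_dvd hne
        apply h q hq _ (hx q hq hd)
        rw [← hcard]
        exact hd.trans (orderOf_dvd_natCard x)
  obtain ⟨V, hV⟩ := core_extension (hom.subgroup B) K (U.subgroupOf B) hL₀ L' hL'
  refine ⟨V.map B.subtype, fun y => ⟨?_, ?_⟩⟩
  · rintro ⟨z, hz, rfl⟩
    exact ⟨z.2, (hcoe z).mp ((hV z).mp hz)⟩
  · rintro ⟨h1, h2⟩
    exact ⟨⟨y, h1⟩, (hV _).mpr ((hcoe _).mpr h2), rfl⟩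

/-- The forward direction, second part. -/
theorem forward_hom {π : Set ℕ} (K : Subgroup G)
    (hK : ∀ x : G, x ∈ K ↔ PiElt (fun q => q ∈ π) x) (hKn : K.Normal)
    (H : Subgroup G) (hH : ∀ p : ℕ, p.Prime → p ∣ Nat.card ↥H → p ∉ π)
    (p : ℕ) (hp : p.Prime)
    (hd : p ∣ (Subgroup.centralizer (H : Set G)).relIndex (Subgroup.normalizer (H : Set G))) : p ∉ π := by
  intro hpπ
  have : Fact p.Prime := ⟨hp⟩
  let f := H.normalizerMonoidHom
  have hker : f.ker = (Subgroup.centralizer (H : Set G)).subgroupOf (Subgroup.normalizer (H : Set G)) :=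
    Subgroup.normalizerMonoidHom_ker H
  have hcard : Nat.card f.range = (Subgroup.centralizer (H : Set G)).relIndex (Subgroup.normalizer (H : Set G)) := by
    rw [← Subgroup.index_ker, hker]
    rfl
  rw [← hcard] at hd
  obtain ⟨t, ht⟩ := exists_prime_orderOf_dvd_card' p hd
  obtain ⟨b, hb⟩ := t.2
  obtain ⟨u, v, hu, hv, huv, huve⟩ := exists_decomp (fun q => q ∈ π) b
  have h1 : PiElt (fun q => q ∈ π) (f b) := by
    intro q hq hdq
    rw [hb, Subgroup.orderOf_coe, ht] at hdq
    rwa [(Nat.prime_dvd_prime_iff_eq hq hp).mp hdq]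
  have h2 : f u * f v = f b := by rw [← map_mul, huve]
  have h3 := decomp_unique (fun q => q ∈ π) (u := f b) (v := 1) (u' := f u) (v' := f v) h1 PiElt.one
    (Commute.one_right _) (PiElt_map f hu) (PiElt_map f hv) (huv.map f) (by rw [mul_one, h2])
  -- `u` is a `π`-element of `G` normalizing `H`
  have hu' : ((u : Subgroup.normalizer (H : Set G)) : G) ∈ K := by
    rw [hK]
    intro q hq hdq
    apply hu q hq
    rwa [← Subgroup.orderOf_coe]
  have hcent : u ∈ f.ker := by
    change f u = 1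
    ext h
    have hh : (u : G) * h * (u : G)⁻¹ ∈ H := (Subgroup.mem_normalizer_iff.mp u.2 h).mp h.2
    have hk : (u : G) * h * (u : G)⁻¹ * (h : G)⁻¹ ∈ K := by
      have h5 := hKn.conj_mem _ (K.inv_mem hu') (h : G)
      have e : (u : G) * h * (u : G)⁻¹ * (h : G)⁻¹ = (u : G) * ((h : G) * (u : G)⁻¹ * (h : G)⁻¹) := by group
      rw [e]
      exact K.mul_mem hu' h5
    have hh2 : (u : G) * h * (u : G)⁻¹ * (h : G)⁻¹ ∈ H := H.mul_mem hh (H.inv_mem h.2)
    have hdis : Disjoint H K := by
      rw [Subgroup.disjoint_def]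
      intro x hxH hxK
      rw [← orderOf_eq_one_iff]
      by_contra hne
      obtain ⟨q, hq, hdq⟩ := Nat.exists_prime_and_dvd hne
      have h6 : q ∈ π := (hK x).mp hxK q hq hdq
      exact hH q hq (hdq.trans (Subgroup.orderOf_dvd_natCard H hxH)) h6
    have h7 := Subgroup.disjoint_def.mp hdis hh2 hk
    have h8 : (u : G) * h * (u : G)⁻¹ = h := by
      rwa [mul_inv_eq_one] at h7
    exact h8
  have h4 : f b = 1 := by rw [h3.1]; exact hcent
  have h5 : t = 1 := Subtype.ext (by rw [← hb]; exact h4)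
  rw [h5, orderOf_one] at ht
  exact hp.ne_one ht.symm

/-- Let π be a set of primes and G a finite group. The π-elements of G (elements whose order is divisible only by primes of π) form a subgroup if and only if G is π-separable (it has a chain of normal subgroups from 1 to G with each successive index divisible only by primes in π or only by primes outside π) and N_G(H)/C_G(H) is a π'-group for every nontrivial π'-subgroup H of G. -/
theorem result {G : Type*} [Group G] [Finite G] (π : Set ℕ)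
    (hπ : ∀ p ∈ π, p.Prime) :
    (∃ K : Subgroup G, ∀ x : G, x ∈ K ↔ ∀ p : ℕ, p.Prime → p ∣ orderOf x → p ∈ π) ↔
    ((∃ (n : ℕ) (H : Fin (n + 1) → Subgroup G), H 0 = ⊥ ∧ H (Fin.last n) = ⊤ ∧ Monotone H ∧ (∀ i, (H i).Normal) ∧
      ∀ i : Fin n, (∀ q : ℕ, q.Prime → q ∣ (H i.castSucc).relIndex (H i.succ) → q ∈ π) ∨
        (∀ q : ℕ, q.Prime → q ∣ (H i.castSucc).relIndex (H i.succ) → q ∉ π)) ∧
     (∀ H : Subgroup G, H ≠ ⊥ → (∀ p : ℕ, p.Prime → p ∣ Nat.card ↥H → p ∉ π) →
        ∀ p : ℕ, p.Prime → p ∣ (Subgroup.centralizer (H : Set G)).relIndex (Subgroup.normalizer (H : Set G)) → p ∉ π)) := by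
  constructor
  · rintro ⟨K, hK⟩
    have hKn : K.Normal := ⟨fun y hy g => (hK _).mpr ((PiElt.conj g).mpr ((hK y).mp hy))⟩
    refine ⟨?_, fun H _ hH p hp hd => forward_hom K hK hKn H hH p hp hd⟩
    refine ⟨2, ![⊥, K, ⊤], rfl, rfl, ?_, ?_, ?_⟩
    · intro a b hab
      fin_cases a <;> fin_cases b <;> simp_all
    · intro i
      fin_cases i
      · exact inferInstanceAs (⊥ : Subgroup G).Normal
      · exact hKn
      · exact inferInstanceAs (⊤ : Subgroup G).Normal
    · intro i
      fin_cases i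
      · left
        intro q hq hd
        have h1 : (⊥ : Subgroup G).relIndex K = Nat.card K := Subgroup.relIndex_bot_left K
        have h2 : q ∣ Nat.card K := by
          have h3 : ((⊥ : Subgroup G).relIndex K) = _ := h1
          exact h3 ▸ hd
        exact primes_of_forall_piElt K (fun y hy => (hK y).mp hy) q hq h2
      · right
        intro q hq hd hqπ
        have : Fact q.Prime := ⟨hq⟩
        have h1 : K.relIndex ⊤ = K.index := Subgroup.relIndex_top_right K
        have h2 : q ∣ Nat.card (G ⧸ K) := by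
          have h3 : q ∣ K.relIndex ⊤ := hd
          rw [h1] at h3
          exact h3
        obtain ⟨t, ht⟩ := exists_prime_orderOf_dvd_card' q h2
        have htπ : PiElt (fun q => q ∈ π) t := by
          intro r hr hdr
          rw [ht] at hdr
          rwa [(Nat.prime_dvd_prime_iff_eq hr hq).mp hdr]
        obtain ⟨u, rfl, huπ⟩ := exists_lift_pi (fun q => q ∈ π) K t htπ
        have h4 : ((u : G) : G ⧸ K) = 1 := (QuotientGroup.eq_one_iff u).mpr ((hK u).mpr huπ)
        rw [h4, orderOf_one] at ht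
        exact hq.ne_one ht.symm
  · rintro ⟨⟨n, H, h0, hlast, hmono, hnorm, hstep⟩, hhom⟩
    have hom : HomR (fun q => q ∈ π) G := homR_of_hhom hhom
    have key : ∀ (i : ℕ) (hi : i < n + 1), ∃ U : Subgroup G, ∀ y, y ∈ U ↔ y ∈ H ⟨i, hi⟩ ∧
        PiElt (fun q => q ∈ π) y := by
      intro i
      induction i with
      | zero =>
        intro hi
        refine ⟨⊥, fun y => ?_⟩
        have : H ⟨0, hi⟩ = ⊥ := h0
        rw [this]
        constructor
        · intro hy
          refine ⟨hy, ?_⟩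
          rw [Subgroup.mem_bot.mp hy]
          exact PiElt.one
        · exact fun h => h.1
      | succ i ih =>
        intro hi
        have hi' : i < n + 1 := by omega
        have hi'' : i < n := by omega
        obtain ⟨U, hU⟩ := ih hi'
        have := hnorm ⟨i, hi'⟩
        have := hnorm ⟨i + 1, hi⟩
        have hst := hstep ⟨i, hi''⟩
        exact chain_step hom (H ⟨i, hi'⟩) (H ⟨i + 1, hi⟩) (hmono (by simp [Fin.le_def])) hst U hU
    obtain ⟨U, hU⟩ := key n (by omega)
    have : H ⟨n, by omega⟩ = ⊤ := hlast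
    refine ⟨U, fun x => ?_⟩
    rw [hU, this]
    exact ⟨fun h => h.2, fun h => ⟨trivial, h⟩⟩

end Cfsg.Agent.S4050
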