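import Mathlib
import Cfsg.Statements.S4057
import Cfsg.Agent.Lib.PCentral
import Cfsg.Agent.Lib.UTRank
import Cfsg.Agent.Lib.OddAutTwo

set_option autoImplicit false
set_option linter.style.haveILetI false
set_option linter.unusedVariables false

namespace Cfsg.Agent.S4057

open Cfsg.Agent.Lib

theorem result : type_of% @Cfsg.CfsgFrozen.S4057 := by
  intro P _ _ p hpp hp hP k hab H
  classical
  -- a maximal normal elementary abelian subgroup
  let SS : Set (Subgroup P) := {A | A.Normal ∧ (∀ a ∈ A, ∀ b ∈ A, a * b = b * a) ∧ ∀ a ∈ A, a ^ p = 1}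
  have hbot : (⊥ : Subgroup P) ∈ SS := by
    refine ⟨inferInstance, ?_, ?_⟩
    · intro a ha b hb
      rw [Subgroup.mem_bot] at ha hb
      rw [ha, hb]
    · intro a ha
      rw [Subgroup.mem_bot] at ha
      rw [ha, one_pow]
  obtain ⟨E, hE⟩ := SS.toFinite.exists_maximal ⟨⊥, hbot⟩
  obtain ⟨hEn, hEab, hEp⟩ := hE.1
  haveI := hEn
  have hEmax : ∀ A : Subgroup P, A.Normal → (∀ a ∈ A, ∀ b ∈ A, a * b = b * a) →
      (∀ a ∈ A, a ^ p = 1) → E ≤ A → A ≤ E := fun A h1 h2 h3 h4 => hE.2 ⟨h1, h2, h3⟩ h4
  obtain ⟨r, ρ, hcard, hUT, hker⟩ := UTRank.exists_rep (A := E)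
    (fun a b => Subtype.ext (hEab a a.2 b b.2))
    (fun a => Subtype.ext (by simpa using hEp a a.2)) hP (MulAut.conjNormal (H := E))
  -- `r ≤ k`
  have hrk : r ≤ k := by
    obtain ⟨S, hS, hSE⟩ := hab E hEn ⟨⟨fun a b => Subtype.ext (hEab a a.2 b b.2)⟩⟩
    have hfr : frattini E ≤ ⊥ := by
      apply Frat.frattini_le_of_commutator_pow (p := p)
      · rw [commutator_def, Subgroup.commutator_le]
        intro a _ b _
        rw [Subgroup.mem_bot, commutatorElement_eq_one_iff_mul_comm]
        exact Subtype.ext (hEab a a.2 b b.2)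
      · intro x
        rw [Subgroup.mem_bot]
        exact Subtype.ext (by simpa using hEp x x.2)
    have hfr' : frattini E = ⊥ := le_bot_iff.mp hfr
    have hidx : (frattini E).index = p ^ r := by
      rw [hfr', Subgroup.index_bot, hcard]
    have hburn := (Frat.burnside_basis (hP.to_subgroup E) hidx).2
    let T : Finset E := S.subtype (· ∈ E)
    have hT : Subgroup.closure (T : Set E) = ⊤ := by
      apply Subgroup.map_injective E.subtype_injective
      rw [MonoidHom.map_closure, ← MonoidHom.range_eq_map, Subgroup.range_subtype]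
      refine Eq.trans ?_ hSE
      congr 1
      ext x
      simp only [T, Set.mem_image, Finset.mem_coe, Subgroup.subtype_apply]
      constructor
      · rintro ⟨y, hy, rfl⟩
        exact Finset.mem_subtype.mp hy
      · intro hx
        have hxE : x ∈ E := by
          rw [← hSE]
          exact Subgroup.subset_closure hx
        exact ⟨⟨x, hxE⟩, Finset.mem_subtype.mpr hx, rfl⟩
    have h1 := hburn T hT
    have h2 : T.card ≤ S.card := by
      rw [Finset.card_subtype]
      exact Finset.card_filter_le _ _
    omega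
  -- the bound for `H`
  let ρH : H →* Matrix (Fin r) (Fin r) (ZMod p) := ρ.comp H.subtype
  let U : H →* (Matrix (Fin r) (Fin r) (ZMod p))ˣ := ρH.toHomUnits
  let f : H →* U.range := U.rangeRestrict
  have hf : Function.Surjective f := U.rangeRestrict_surjective
  let σ : U.range →* Matrix (Fin r) (Fin r) (ZMod p) := (Units.coeHom _).comp U.range.subtype
  have hσinj : Function.Injective σ := by
    intro a b hab
    apply Subtype.ext
    apply Units.ext
    exact hab
  have hσUT : ∀ y, UTRank.UT (σ y) := by
    rintro ⟨_, h, rfl⟩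
    exact hUT h
  have hHp : IsPGroup p H := hP.to_subgroup H
  have hYp : IsPGroup p U.range := hHp.of_surjective f hf
  haveI : Finite U.range := Finite.of_surjective f hf
  have h1 : (frattini U.range).index ≤ p ^ (r ^ 2 / 4) :=
    UTRank.frattini_index_le_ut (ρ := σ) hσUT hYp hσinj
  let ι : f.ker →* P := H.subtype.comp f.ker.subtype
  have hι : Function.Injective ι := by
    intro a b hab
    apply Subtype.ext
    apply Subtype.ext
    exact hab
  have hιC : ∀ w, ι w ∈ Subgroup.centralizer (E : Set P) := by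
    rintro ⟨w, hw⟩
    rw [Subgroup.mem_centralizer_iff]
    intro e he
    have h2 : U w = 1 := by
      have := congrArg Subtype.val (MonoidHom.mem_ker.mp hw)
      simpa [f] using this
    have h3 : ρ (w : P) = 1 := by
      have := congrArg Units.val h2
      simpa [U, ρH] using this
    have h4 := hker _ h3
    have h5 : MulAut.conjNormal (H := E) (w : P) ⟨e, he⟩ = ⟨e, he⟩ := by
      rw [h4]
      rfl
    have h6 := congrArg Subtype.val h5
    simp only [MulAut.conjNormal_apply] at h6
    show e * (w : P) = (w : P) * e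
    calc e * (w : P) = ((w : P) * e * (w : P)⁻¹) * (w : P) := by rw [h6]
      _ = (w : P) * e := by group
  have h2 : (frattini f.ker).index ≤ Nat.card E :=
    PCentral.frattini_index_le_of_centralizes hp hP E hEab hEp hEmax ι hι hιC
  have h3 := OddAutTwo.frattini_index_le_mul hHp f hf
  have h4 : (frattini H).index ≤ p ^ (r ^ 2 / 4 + r) := by
    rw [pow_add, ← hcard]
    exact h3.trans (Nat.mul_le_mul h1 h2)
  -- the Frattini index is a power of `p`
  have hdvd : (frattini H).index ∣ Nat.card H := Subgroup.index_dvd_card _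
  obtain ⟨m, hm⟩ := IsPGroup.iff_card.mp hHp
  rw [hm] at hdvd
  obtain ⟨m', -, hm'⟩ := (Nat.dvd_prime_pow hpp.out).mp hdvd
  have hm'le : m' ≤ r ^ 2 / 4 + r := by
    rw [hm'] at h4
    exact (Nat.pow_le_pow_iff_right hpp.out.one_lt).mp h4
  haveI : Fintype H := Fintype.ofFinite H
  obtain ⟨T, -, hTcard, hTcl⟩ := (Frat.burnside_basis hHp hm').1 (Finset.univ : Finset H)
    (by
      rw [Finset.coe_univ, Subgroup.closure_univ])
  refine ⟨T.image H.subtype, ?_, ?_⟩
  · refine Finset.card_image_le.trans ?_
    rw [hTcard]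
    refine hm'le.trans ?_
    have h5 : r ^ 2 / 4 ≤ k ^ 2 / 4 := Nat.div_le_div_right (Nat.pow_le_pow_left hrk 2)
    have h6 : k * (k + 4) / 4 = k ^ 2 / 4 + k := by
      have : k * (k + 4) = k ^ 2 + k * 4 := by ring
      rw [this, Nat.add_mul_div_right _ _ (by norm_num)]
    omega
  · rw [Finset.coe_image, ← MonoidHom.map_closure, hTcl, ← MonoidHom.range_eq_map,
      Subgroup.range_subtype]

end Cfsg.Agent.S4057
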