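import Mathlib
import Cfsg.Statements.S4058
import Cfsg.Agent.Lib.CharBasic
import Cfsg.Agent.Lib.CharIntegrality
import Cfsg.Agent.Lib.FrobeniusSchur
import Cfsg.Agent.Lib.CharTable
import Cfsg.Agent.Lib.CharAvg
import Cfsg.Agent.Lib.Frat

set_option autoImplicit false
open Cfsg Cfsg.Agent.Lib.CharBasic
open scoped ComplexConjugate commutatorElement

namespace Cfsg.Agent.S4058

universe u v

/-- Sum over a finite `E`-set of an invariant function: divisibility can be checked orbitwise. -/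
theorem dvd_sum_of_invariant {E : Type*} {X : Type*} [Group E] [Fintype X] [MulAction E X]
    (f : X → ℤ) (hf : ∀ (e : E) (x : X), f (e • x) = f x) (D : ℤ)
    (h : ∀ x : X, D ∣ (Nat.card (MulAction.orbit E x) : ℤ) * f x) : D ∣ ∑ x : X, f x := by
  classical
  have := Fintype.ofFinite (MulAction.orbitRel.Quotient E X)
  have h0 : ∀ ω : MulAction.orbitRel.Quotient E X, D ∣
      ∑ x ∈ Finset.univ.filter (fun x : X => (Quotient.mk _ x : MulAction.orbitRel.Quotient E X) = ω),
        f x := by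
    intro ω
    induction ω using Quotient.inductionOn with
    | h x₀ =>
    have h2 : ∀ y ∈ Finset.univ.filter
        (fun x : X => (Quotient.mk _ x : MulAction.orbitRel.Quotient E X) = Quotient.mk _ x₀),
        f y = f x₀ := by
      intro y hy
      have hy' : (Quotient.mk _ y : MulAction.orbitRel.Quotient E X) = Quotient.mk _ x₀ :=
        (Finset.mem_filter.mp hy).2
      have hy'' : y ∈ MulAction.orbit E x₀ := Quotient.exact hy'
      obtain ⟨e, rfl⟩ := hy''
      exact hf e _
    rw [Finset.sum_congr rfl h2, Finset.sum_const, nsmul_eq_mul]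
    have h3 : (Finset.univ.filter
        (fun x : X => (Quotient.mk _ x : MulAction.orbitRel.Quotient E X) = Quotient.mk _ x₀)).card =
        Nat.card (MulAction.orbit E x₀) := by
      rw [Nat.card_eq_fintype_card, Fintype.card_subtype]
      congr 1
      ext y
      simp only [Finset.mem_filter, Finset.mem_univ, true_and]
      constructor
      · intro hy
        exact Quotient.exact hy
      · intro hy
        exact Quotient.sound hy
    rw [h3]
    exact h x₀
  have h1 : ∑ x : X, f x = ∑ ω : MulAction.orbitRel.Quotient E X,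
      ∑ x ∈ Finset.univ.filter (fun x : X => (Quotient.mk _ x : MulAction.orbitRel.Quotient E X) = ω),
        f x := by
    rw [Finset.sum_fiberwise]
  rw [h1]
  exact Finset.dvd_sum fun ω _ => h0 ω

section Core

variable {G : Type u} [Group G] [Fintype G]

theorem val_sq_conj {u : ℂˣ} (h : u ^ 2 = 1) : conj (u : ℂ) = u := by
  have h1 : (u : ℂ) ^ 2 = 1 := by
    have := congrArg Units.val h
    simpa using this
  rcases sq_eq_one_iff.mp h1 with h2 | h2 <;> simp [h2]

theorem val_mul_self {u : ℂˣ} (h : u ^ 2 = 1) : (u : ℂ) * u = 1 := by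
  have := congrArg Units.val h
  simpa [sq] using this

variable {E : Type v} [CommGroup E] (ev : E →* (G →* ℂˣ)) (hsq : ∀ (e : E) (g : G), (ev e g) ^ 2 = 1)

include hsq in
theorem isIrr_tw (e : E) {χ : G → ℂ} (hχ : IsIrrCharacter G χ) :
    IsIrrCharacter G (fun g => ((ev e g : ℂˣ) : ℂ) * χ g) := by
  rw [isIrrCharacter_iff_norm_one]
  refine ⟨isCharacter_mul (IsIrrCharacter.isCharacter (isIrrCharacter_of_hom (ev e))) (IsIrrCharacter.isCharacter hχ), ?_⟩
  have h1 := classInner_irr_self hχ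
  unfold classInner at h1 ⊢
  rw [← h1]
  congr 1
  refine Finset.sum_congr rfl fun g _ => ?_
  rw [map_mul, val_sq_conj (hsq e g)]
  have := val_mul_self (hsq e g)
  calc _ = ((ev e g : ℂˣ) : ℂ) * (ev e g : ℂˣ) * (χ g * conj (χ g)) := by ring
    _ = _ := by rw [this, one_mul]

/-- The twisting action on irreducible characters. -/
@[reducible] noncomputable def twAction : MulAction E (IrrCharacter G) where
  smul e χ := ⟨fun g => ((ev e g : ℂˣ) : ℂ) * χ.1 g, isIrr_tw ev hsq e χ.2⟩
  one_smul χ := by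
    apply Subtype.ext
    funext g
    change ((ev 1 g : ℂˣ) : ℂ) * χ.1 g = χ.1 g
    simp
  mul_smul a b χ := by
    apply Subtype.ext
    funext g
    change ((ev (a * b) g : ℂˣ) : ℂ) * χ.1 g =
      ((ev a g : ℂˣ) : ℂ) * (((ev b g : ℂˣ) : ℂ) * χ.1 g)
    simp [mul_assoc]

/-- The Frobenius-Schur sum. -/
noncomputable def nu (χ : G → ℂ) : ℂ := (Nat.card G : ℂ)⁻¹ * ∑ s : G, χ (s * s)

theorem nu_int {χ : G → ℂ} (hχ : IsIrrCharacter G χ) : ∃ z : ℤ, nu χ = z := by
  obtain ⟨n, ρ, hρ, rfl⟩ := hχ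
  rcases (Cfsg.Agent.Lib.FrobeniusSchur.frobeniusSchur ρ hρ).1 with h | h | h
  · exact ⟨0, by simpa [nu] using h⟩
  · exact ⟨1, by simpa [nu] using h⟩
  · exact ⟨-1, by simpa [nu] using h⟩

include hsq in
theorem nu_tw (e : E) (χ : G → ℂ) : nu (fun g => ((ev e g : ℂˣ) : ℂ) * χ g) = nu χ := by
  unfold nu
  congr 1
  refine Finset.sum_congr rfl fun s _ => ?_
  have h : ev e (s * s) = 1 := by rw [map_mul, ← sq, hsq]
  simp [h]

open scoped Classical in
/-- Number of square roots. -/
noncomputable def roots (g : G) : ℂ := ∑ x : G, if x * x = g then 1 else 0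

theorem roots_class : IsClassFunction G (roots (G := G)) := by
  intro g h
  unfold roots
  refine Fintype.sum_equiv (MulAut.conj h⁻¹).toEquiv _ _ fun x => ?_
  have : x * x = h * g * h⁻¹ ↔ (MulAut.conj h⁻¹).toEquiv x * (MulAut.conj h⁻¹).toEquiv x = g := by
    change x * x = h * g * h⁻¹ ↔ h⁻¹ * x * h⁻¹⁻¹ * (h⁻¹ * x * h⁻¹⁻¹) = g
    constructor
    · intro hx
      calc h⁻¹ * x * h⁻¹⁻¹ * (h⁻¹ * x * h⁻¹⁻¹) = h⁻¹ * (x * x) * h := by group
        _ = g := by rw [hx]; group
    · intro hx
      calc x * x = h * (h⁻¹ * x * h⁻¹⁻¹ * (h⁻¹ * x * h⁻¹⁻¹)) * h⁻¹ := by group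
        _ = _ := by rw [hx]
  by_cases hc : x * x = h * g * h⁻¹
  · rw [if_pos hc, if_pos (this.mp hc)]
  · rw [if_neg hc, if_neg (fun h' => hc (this.mpr h'))]

theorem classInner_roots (χ : G → ℂ) : classInner (roots (G := G)) χ = conj (nu χ) := by
  classical
  unfold classInner nu roots
  rw [map_mul, map_inv₀, map_natCast, map_sum]
  congr 1
  simp_rw [Finset.sum_mul]
  rw [Finset.sum_comm]
  refine Finset.sum_congr rfl fun x _ => ?_
  rw [Finset.sum_eq_single (x * x)]
  · simp
  · intro b _ hb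
    simp [Ne.symm hb]
  · intro h; exact absurd (Finset.mem_univ _) h

theorem roots_one : roots (1 : G) = (Nat.card {x : G // x * x = 1} : ℂ) := by
  classical
  unfold roots
  rw [Nat.card_eq_fintype_card, Fintype.card_subtype]
  rw [Finset.sum_boole]

end Core

section Core2

variable {G : Type u} [Group G] [Fintype G]
variable {E : Type v} [CommGroup E] [Fintype E] (ev : E →* (G →* ℂˣ))
  (hinj : Function.Injective ev) (hsq : ∀ (e : E) (g : G), (ev e g) ^ 2 = 1)

include hinj in
theorem card_stab_le (χ : IrrCharacter G) (d : ℕ) (hd : χ.1 1 = d) :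
    letI := twAction ev hsq
    Nat.card (MulAction.stabilizer E χ) ≤ d ^ 2 := by
  classical
  letI := twAction ev hsq
  have hψ : IsCharacter G (fun g => χ.1 g * conj (χ.1 g)) :=
    isCharacter_mul (IsIrrCharacter.isCharacter χ.2)
      (Cfsg.Agent.Lib.CharTable.isCharacter_conj (IsIrrCharacter.isCharacter χ.2))
  obtain ⟨m, hm⟩ := exists_nat_decomp hψ
  let lam : MulAction.stabilizer E χ → IrrCharacter G := fun e =>
    ⟨fun g => ((ev e.1 g : ℂˣ) : ℂ), isIrrCharacter_of_hom (ev e.1)⟩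
  have hlam : Function.Injective lam := by
    intro a b hab
    apply Subtype.ext
    apply hinj
    ext g
    exact congrFun (congrArg Subtype.val hab) g
  have hm1 : ∀ e, m (lam e) = 1 := by
    intro e
    have h1 := classInner_nat_decomp m (lam e).1 (lam e).2
    rw [← hm] at h1
    have hstab : e.1 • χ = χ := e.2
    have h2 : classInner (fun g => χ.1 g * conj (χ.1 g)) (lam e).1 = classInner χ.1 χ.1 := by
      conv_rhs => rw [show classInner χ.1 χ.1 = classInner χ.1 (e.1 • χ).1 by rw [hstab]]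
      unfold classInner
      congr 1
      refine Finset.sum_congr rfl fun g _ => ?_
      change χ.1 g * conj (χ.1 g) * conj ((ev e.1 g : ℂˣ) : ℂ) =
        χ.1 g * conj (((ev e.1 g : ℂˣ) : ℂ) * χ.1 g)
      rw [map_mul]
      ring
    rw [h2, classInner_irr_self χ.2] at h1
    have h3 : (m (lam e) : ℂ) = ((1 : ℕ) : ℂ) := by rw [← h1]; simp
    exact_mod_cast h3
  choose deg hdegpos hdeg using fun i : IrrCharacter G => Cfsg.Agent.Lib.CharAvg.irr_one_eq i.2
  have h3 : ((d ^ 2 : ℕ) : ℂ) = ((∑ i, m i * deg i : ℕ) : ℂ) := by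
    have h4 := congrFun hm 1
    simp only [Finset.sum_apply, Pi.smul_apply] at h4
    simp only [nsmul_eq_mul, map_natCast, hdeg] at h4
    have hdχ : (deg χ : ℂ) = d := by rw [← hdeg, hd]
    rw [hdχ] at h4
    push_cast
    rw [sq]
    exact h4
  have h4 : d ^ 2 = ∑ i, m i * deg i := by exact_mod_cast h3
  rw [h4, Nat.card_eq_fintype_card, ← Finset.card_univ,
    ← Finset.card_image_of_injective _ hlam, Finset.card_eq_sum_ones]
  calc _ ≤ ∑ i ∈ Finset.univ.image lam, m i * deg i := by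
        refine Finset.sum_le_sum fun i hi => ?_
        obtain ⟨e, -, rfl⟩ := Finset.mem_image.mp hi
        rw [hm1, one_mul]
        exact hdegpos _
    _ ≤ _ := Finset.sum_le_sum_of_subset (Finset.subset_univ _)

include hinj hsq in
theorem core (hG : IsPGroup 2 G) (d k : ℕ) (hE : Nat.card E = 2 ^ d) (hk : 2 * k + 1 ≤ d) :
    2 ^ (k + 1) ∣ Nat.card {x : G // x * x = 1} := by
  classical
  letI := twAction ev hsq
  choose z hz using fun χ : IrrCharacter G => nu_int χ.2
  choose deg hdegpos hdeg using fun i : IrrCharacter G => Cfsg.Agent.Lib.CharAvg.irr_one_eq i.2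
  have hsum : (Nat.card {x : G // x * x = 1} : ℤ) = ∑ χ : IrrCharacter G, z χ * deg χ := by
    have h1 := congrFun (classFunction_eq_sum (roots_class (G := G))) 1
    rw [roots_one] at h1
    simp only [Finset.sum_apply, Pi.smul_apply, smul_eq_mul, classInner_roots, hz,
      map_intCast, hdeg] at h1
    exact_mod_cast h1
  have hinv : ∀ (e : E) (χ : IrrCharacter G), z (e • χ) * (deg (e • χ) : ℤ) = z χ * deg χ := by
    intro e χ
    have h1 : z (e • χ) = z χ := by
      have h2 := hz (e • χ)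
      have h3 : nu (e • χ).1 = nu χ.1 := nu_tw ev hsq e χ.1
      rw [h3, hz χ] at h2
      exact_mod_cast h2.symm
    have h2 : deg (e • χ) = deg χ := by
      have h3 := hdeg (e • χ)
      have h4 : (e • χ).1 1 = χ.1 1 := by
        change ((ev e 1 : ℂˣ) : ℂ) * χ.1 1 = χ.1 1
        simp
      rw [h4, hdeg χ] at h3
      exact_mod_cast h3.symm
    rw [h1, h2]
  have hG2 : Fact (Nat.Prime 2) := ⟨Nat.prime_two⟩
  have hmain : ∀ χ : IrrCharacter G,
      ((2 : ℤ) ^ (k + 1)) ∣ (Nat.card (MulAction.orbit E χ) : ℤ) * (z χ * deg χ) := by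
    intro χ
    -- degree is a power of two
    obtain ⟨a, ha⟩ : ∃ a, deg χ = 2 ^ a := by
      obtain ⟨n, ρ, hρ, hc⟩ := χ.2
      have h1 := Cfsg.Agent.Lib.CharIntegrality.finrank_dvd_card ρ hρ
      have h2 := hdeg χ
      rw [← hc, char_one_eq_rep] at h2
      have h3 : n = deg χ := by exact_mod_cast h2
      simp only [Module.finrank_fintype_fun_eq_card, Fintype.card_fin] at h1
      obtain ⟨m, hm⟩ := IsPGroup.iff_card.mp hG
      rw [hm] at h1
      obtain ⟨a, -, ha⟩ := (Nat.dvd_prime_pow Nat.prime_two).mp h1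
      exact ⟨a, by rw [← h3]; exact ha⟩
    have hs := card_stab_le ev hinj hsq χ (deg χ) (hdeg χ)
    have hcard := MulAction.card_orbit_mul_card_stabilizer_eq_card_group E χ
    simp only [← Nat.card_eq_fintype_card] at hcard
    rw [hE] at hcard
    obtain ⟨s, -, hs'⟩ : ∃ s, s ≤ d ∧ Nat.card (MulAction.stabilizer E χ) = 2 ^ s :=
      (Nat.dvd_prime_pow Nat.prime_two).mp ⟨_, by rw [mul_comm]; exact hcard.symm⟩
    have hsd : s ≤ d := by
      have h1 : 2 ^ s ∣ 2 ^ d := ⟨_, by rw [← hs', mul_comm]; exact hcard.symm⟩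
      exact (Nat.pow_dvd_pow_iff_le_right (by norm_num)).mp h1
    rw [hs', ha] at hs
    have hs2 : s ≤ 2 * a := by
      rw [← pow_mul, mul_comm a 2] at hs
      exact (Nat.pow_le_pow_iff_right (by norm_num)).mp hs
    rw [hs'] at hcard
    have horb : Nat.card (MulAction.orbit E χ) = 2 ^ (d - s) := by
      have h1 : 2 ^ d = 2 ^ (d - s) * 2 ^ s := by rw [← pow_add, Nat.sub_add_cancel hsd]
      rw [h1] at hcard
      exact Nat.eq_of_mul_eq_mul_right (by positivity) hcard
    rw [horb, ha]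
    have h5 : ((2 ^ (d - s) : ℕ) : ℤ) * (z χ * ((2 ^ a : ℕ) : ℤ)) =
        (2 : ℤ) ^ (d - s + a) * z χ := by
      push_cast
      rw [pow_add]
      ring
    rw [h5]
    apply Dvd.dvd.mul_right
    exact pow_dvd_pow _ (by omega)
  have h := dvd_sum_of_invariant (E := E) (fun χ : IrrCharacter G => z χ * (deg χ : ℤ)) hinv
    ((2 : ℤ) ^ (k + 1)) hmain
  rw [← hsum] at h
  exact_mod_cast h

end Core2

theorem main {G : Type u} [Group G] [Finite G] (hG : IsPGroup 2 G) (k : ℕ)
    (hgen : 2 ^ (2 * k + 1) ≤ Nat.card (G ⧸ frattini G)) :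
    2 ^ (k + 1) ∣ Nat.card {x : G // x ^ 2 = 1} := by
  classical
  have hfact : Fact (Nat.Prime 2) := ⟨Nat.prime_two⟩
  letI := Fintype.ofFinite G
  set Φ := frattini G with hΦ
  have hcomm : ∀ a b : G ⧸ Φ, a * b = b * a := by
    intro a b
    induction a using QuotientGroup.induction_on with
    | H a =>
    induction b using QuotientGroup.induction_on with
    | H b =>
    rw [← QuotientGroup.mk_mul, ← QuotientGroup.mk_mul, QuotientGroup.eq]
    have h1 : ⁅b⁻¹, a⁻¹⁆ ∈ commutator G := Subgroup.commutator_mem_commutator (Subgroup.mem_top _) (Subgroup.mem_top _)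
    have h2 := Cfsg.Agent.Lib.Frat.commutator_le_frattini hG h1
    convert h2 using 1
    simp [commutatorElement_def, mul_assoc]
  letI instA : CommGroup (G ⧸ Φ) := { (inferInstance : Group (G ⧸ Φ)) with mul_comm := hcomm }
  obtain ⟨d, hd⟩ : ∃ d, Nat.card (G ⧸ Φ) = 2 ^ d :=
    IsPGroup.iff_card.mp (hG.to_quotient Φ)
  have hEcard : Nat.card (G ⧸ Φ →* ℂˣ) = Nat.card (G ⧸ Φ) :=
    CommGroup.card_monoidHom_of_hasEnoughRootsOfUnity (G ⧸ Φ) ℂ
  have hfin : Finite (G ⧸ Φ →* ℂˣ) := by
    apply Nat.finite_of_card_ne_zero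
    rw [hEcard]
    exact Nat.card_pos.ne'
  letI := Fintype.ofFinite (G ⧸ Φ →* ℂˣ)
  let ev : (G ⧸ Φ →* ℂˣ) →* (G →* ℂˣ) :=
    { toFun := fun f => f.comp (QuotientGroup.mk' Φ)
      map_one' := rfl
      map_mul' := fun _ _ => rfl }
  have hinj : Function.Injective ev := by
    intro a b hab
    exact (MonoidHom.cancel_right (QuotientGroup.mk'_surjective Φ)).mp hab
  have hsq : ∀ (e : G ⧸ Φ →* ℂˣ) (g : G), (ev e g) ^ 2 = 1 := by
    intro e g
    change (e (g : G ⧸ Φ)) ^ 2 = 1
    rw [← map_pow, ← QuotientGroup.mk_pow,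
      (QuotientGroup.eq_one_iff _).mpr (Cfsg.Agent.Lib.Frat.pow_mem_frattini hG g), map_one]
  have hk : 2 * k + 1 ≤ d := by
    rw [hd] at hgen
    exact (Nat.pow_le_pow_iff_right (by norm_num)).mp hgen
  have h := core ev hinj hsq hG d k (hEcard.trans hd) hk
  have h2 : Nat.card {x : G // x * x = 1} = Nat.card {x : G // x ^ 2 = 1} :=
    Nat.card_congr (Equiv.subtypeEquivRight (fun x => by rw [sq]))
  rwa [h2] at h

/-- Let G be a finite 2-group with #(G/Φ(G)) ≥ 2^(2k+1). Then the number of elements x of G with x² = 1 is divisible by 2^(k+1). -/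
theorem result {G : Type*} [Group G] [Finite G] (hG : IsPGroup 2 G) (k : ℕ)
    (hgen : 2 ^ (2 * k + 1) ≤ Nat.card (G ⧸ frattini G)) :
    2 ^ (k + 1) ∣ Nat.card {x : G // x ^ 2 = 1} :=
  main hG k hgen

end Cfsg.Agent.S4058
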