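import Mathlib
import Cfsg.Statements.S4065
import Cfsg.Agent.Lib.PrimeGraphSL2

set_option autoImplicit false
open Cfsg

namespace Cfsg.Agent.S4065

open Matrix
open scoped MatrixGroups

variable {F : Type*} [Field F]

/-- Two `2 × 2` matrices commuting with a non-scalar matrix commute. -/
theorem comm_of_comm_nonscalar (a b c d e f g h e' f' g' h' : F)
    (hns : b ≠ 0 ∨ c ≠ 0 ∨ a - d ≠ 0)
    (h1 : b * g = f * c) (h2 : a * f + b * h = e * b + f * d) (h3 : c * e + d * g = g * a + h * c)
    (h1' : b * g' = f' * c) (h2' : a * f' + b * h' = e' * b + f' * d)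
    (h3' : c * e' + d * g' = g' * a + h' * c) :
    f * g' = f' * g ∧ e * f' + f * h' = e' * f + f' * h ∧ g * e' + h * g' = g' * e + h' * g := by
  rcases hns with hb | hc | had
  · have hg : g = f * c / b := by field_simp; linear_combination h1
    have hg' : g' = f' * c / b := by field_simp; linear_combination h1'
    have hh : h = e + f * (d - a) / b := by field_simp; linear_combination h2
    have hh' : h' = e' + f' * (d - a) / b := by field_simp; linear_combination h2'
    subst hg hg' hh hh'
    refine ⟨by ring, by ring, by ring⟩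
  · have hf : f = b * g / c := by field_simp; linear_combination -h1
    have hf' : f' = b * g' / c := by field_simp; linear_combination -h1'
    have he : e = h + g * (a - d) / c := by field_simp; linear_combination h3
    have he' : e' = h' + g' * (a - d) / c := by field_simp; linear_combination h3'
    subst hf hf' he he'
    refine ⟨by ring, by ring, by ring⟩
  · have hf : f = b * (e - h) / (a - d) := by field_simp; linear_combination h2
    have hf' : f' = b * (e' - h') / (a - d) := by field_simp; linear_combination h2'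
    have hg : g = c * (e - h) / (a - d) := by field_simp; linear_combination -h3
    have hg' : g' = c * (e' - h') / (a - d) := by field_simp; linear_combination -h3'
    subst hf hf' hg hg'
    refine ⟨by ring, by ring, by ring⟩

theorem sl_comm [CharP F 2] (A B C : SL(2, F)) (hA : A ≠ 1) (hB : A * B = B * A)
    (hC : A * C = C * A) : B * C = C * B := by
  have hB' : A.1 * B.1 = B.1 * A.1 := congrArg Subtype.val hB
  have hC' : A.1 * C.1 = C.1 * A.1 := congrArg Subtype.val hC
  have ent : ∀ (X Y : SL(2, F)), ∀ i j, (X.1 * Y.1) i j = X.1 i 0 * Y.1 0 j + X.1 i 1 * Y.1 1 j := by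
    intro X Y i j
    rw [Matrix.mul_apply, Fin.sum_univ_two]
  have hb1 := congrFun (congrFun hB' 0) 0
  have hb2 := congrFun (congrFun hB' 0) 1
  have hb3 := congrFun (congrFun hB' 1) 0
  have hc1 := congrFun (congrFun hC' 0) 0
  have hc2 := congrFun (congrFun hC' 0) 1
  have hc3 := congrFun (congrFun hC' 1) 0
  simp only [ent] at hb1 hb2 hb3 hc1 hc2 hc3
  have hns : A.1 0 1 ≠ 0 ∨ A.1 1 0 ≠ 0 ∨ A.1 0 0 - A.1 1 1 ≠ 0 := by
    by_contra hcon
    push Not at hcon
    obtain ⟨h1, h2, h3⟩ := hcon
    apply hA
    have hdet := A.2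
    rw [Matrix.det_fin_two] at hdet
    have h4 : A.1 0 0 = A.1 1 1 := sub_eq_zero.mp h3
    have h5 : (A.1 1 1 + 1) ^ 2 = 0 := by
      have h2' : (2 : F) = 0 := CharTwo.two_eq_zero
      rw [h1, h4] at hdet
      linear_combination hdet + (A.1 1 1 + 1) * h2'
    have h6 : A.1 1 1 = 1 := by
      have h7 := pow_eq_zero_iff (two_ne_zero) |>.mp h5
      have h2' : (2 : F) = 0 := CharTwo.two_eq_zero
      linear_combination h7 - h2'
    apply Subtype.ext
    ext i j
    fin_cases i <;> fin_cases j <;> simp [h1, h2, h4, h6]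
  obtain ⟨r1, r2, r3⟩ := comm_of_comm_nonscalar (A.1 0 0) (A.1 0 1) (A.1 1 0) (A.1 1 1)
    (B.1 0 0) (B.1 0 1) (B.1 1 0) (B.1 1 1) (C.1 0 0) (C.1 0 1) (C.1 1 0) (C.1 1 1) hns
    (by linear_combination hb1) (by linear_combination hb2) (by linear_combination hb3)
    (by linear_combination hc1) (by linear_combination hc2) (by linear_combination hc3)
  apply Subtype.ext
  change B.1 * C.1 = C.1 * B.1
  ext i j
  simp only [ent]
  fin_cases i <;> fin_cases j
  · simp only [Fin.zero_eta, Fin.isValue]
    linear_combination r1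
  · simp only [Fin.zero_eta, Fin.isValue, Fin.mk_one]
    linear_combination r2
  · simp only [Fin.zero_eta, Fin.isValue, Fin.mk_one]
    linear_combination r3
  · simp only [Fin.isValue, Fin.mk_one]
    linear_combination -r1

/-- Commuting is transitive on non-identity elements of `PSL₂` in characteristic 2. -/
theorem psl_comm [CharP F 2] (A B C : Matrix.ProjectiveSpecialLinearGroup (Fin 2) F) (hA : A ≠ 1)
    (hB : A * B = B * A) (hC : A * C = C * A) : B * C = C * B := by
  let e := Cfsg.Agent.Lib.PrimeGraphSL2.pslEquivSl (F := F)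
  apply e.injective
  rw [map_mul, map_mul]
  apply sl_comm (e A)
  · intro h
    exact hA (e.injective (by rw [h, map_one]))
  · rw [← map_mul, hB, map_mul]
  · rw [← map_mul, hC, map_mul]

/-- The centralizer of a nontrivial element is the centralizer of each of its nontrivial members. -/
theorem cent_eq [CharP F 2] {x y : Matrix.ProjectiveSpecialLinearGroup (Fin 2) F} (hx : x ≠ 1)
    (hy : y ≠ 1) (hxy : x * y = y * x) :
    Subgroup.centralizer ({x} : Set (Matrix.ProjectiveSpecialLinearGroup (Fin 2) F)) =
      Subgroup.centralizer {y} := by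
  have key : ∀ {x y : Matrix.ProjectiveSpecialLinearGroup (Fin 2) F}, x ≠ 1 → y ≠ 1 → x * y = y * x →
      Subgroup.centralizer ({x} : Set (Matrix.ProjectiveSpecialLinearGroup (Fin 2) F)) ≤
      Subgroup.centralizer {y} := by
    intro x y hx _ hxy u hu
    rw [Subgroup.mem_centralizer_singleton_iff] at hu ⊢
    have := psl_comm x u y hx hu.symm hxy
    exact this
  exact le_antisymm (key hx hy hxy) (key hy hx hxy.symm)

/-- Let F be a finite field with 2ⁿ elements, n ≥ 2. In PSL₂(F) the centralizer of every element meets each of its conjugates by elements outside its normalizer trivially. -/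
theorem result (n : ℕ) (hn : 2 ≤ n)
    (x : Matrix.ProjectiveSpecialLinearGroup (Fin 2) (GaloisField 2 n)) :
    Cfsg.IsTISubset (Subgroup.centralizer ({x} : Set (Matrix.ProjectiveSpecialLinearGroup (Fin 2) (GaloisField 2 n))) :
      Set (Matrix.ProjectiveSpecialLinearGroup (Fin 2) (GaloisField 2 n))) := by
  intro g hg y hy hgy
  by_contra hy1
  have hx : x ≠ 1 := by
    rintro rfl
    apply hg
    rw [Subgroup.mem_normalizer_iff]
    intro h
    simp [Subgroup.mem_centralizer_iff]
  apply hg
  rw [SetLike.mem_coe, Subgroup.mem_centralizer_singleton_iff] at hy hgy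
  have h1 := cent_eq hx hy1 hy.symm
  have hgy1 : g * y * g⁻¹ ≠ 1 := by
    intro h
    apply hy1
    have : y = g⁻¹ * (g * y * g⁻¹) * g := by group
    rw [this, h]; group
  have h2 := cent_eq hx hgy1 hgy.symm
  rw [Subgroup.mem_normalizer_iff]
  intro h
  change h ∈ Subgroup.centralizer {x} ↔ g * h * g⁻¹ ∈ Subgroup.centralizer {x}
  constructor
  · intro hh
    rw [h1, Subgroup.mem_centralizer_singleton_iff] at hh
    rw [h2, Subgroup.mem_centralizer_singleton_iff]
    calc g * h * g⁻¹ * (g * y * g⁻¹) = g * (h * y) * g⁻¹ := by group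
      _ = g * (y * h) * g⁻¹ := by rw [hh]
      _ = _ := by group
  · intro hh
    rw [h2, Subgroup.mem_centralizer_singleton_iff] at hh
    rw [h1, Subgroup.mem_centralizer_singleton_iff]
    have h4 : g * (h * y) * g⁻¹ = g * (y * h) * g⁻¹ := by
      calc g * (h * y) * g⁻¹ = g * h * g⁻¹ * (g * y * g⁻¹) := by group
        _ = g * y * g⁻¹ * (g * h * g⁻¹) := hh
        _ = _ := by group
    exact mul_left_cancel (mul_right_cancel h4)

end Cfsg.Agent.S4065
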