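import Mathlib
import Cfsg.Statements.S4066

set_option autoImplicit false
open Cfsg

namespace Cfsg.Agent.S4066

theorem ti_step {G : Type*} [Group G] (x z g : G)
    (hTI : Cfsg.IsTISubset (Subgroup.centralizer ({x} : Set G) : Set G))
    (hz : z ≠ 1) (hzx : x * z = z * x) (hgz : g * z = z * g) :
    x * (g * x * g⁻¹) = (g * x * g⁻¹) * x := by
  set C := Subgroup.centralizer ({x} : Set G) with hC
  have hzC : z ∈ (C : Set G) := by
    rw [SetLike.mem_coe, hC, Subgroup.mem_centralizer_singleton_iff]
    exact hzx.symm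
  have hg : g ∈ Subgroup.normalizer (C : Set G) := by
    by_contra hn
    apply hz
    refine hTI g hn z hzC ?_
    have : g * z * g⁻¹ = z := by rw [hgz]; group
    rw [this]; exact hzC
  rw [Subgroup.mem_normalizer_iff] at hg
  have hxC : x ∈ (C : Set G) := by
    rw [SetLike.mem_coe, hC, Subgroup.mem_centralizer_singleton_iff]
  have h1 := (hg x).mp hxC
  rw [hC, Subgroup.mem_centralizer_singleton_iff] at h1
  exact h1.symm

/-- Let G be a finite group in which the centralizer of every element meets each of its conjugates by elements outside its normalizer trivially. Then any two distinct Sylow p-subgroups of G, for any prime p, intersect trivially. -/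
theorem result {G : Type*} [Group G] [Finite G] (hTI : ∀ x : G, Cfsg.IsTISubset (Subgroup.centralizer ({x} : Set G) : Set G))
    {p : ℕ} [Fact p.Prime] (P Q : Sylow p G) (hPQ : P ≠ Q) : (P : Subgroup G) ⊓ (Q : Subgroup G) = ⊥ := by
  by_contra hne
  rcases Subgroup.bot_or_exists_ne_one ((P : Subgroup G) ⊓ (Q : Subgroup G)) with h | ⟨d, hd, hd1⟩
  · exact hne h
  obtain ⟨hdP, hdQ⟩ := Subgroup.mem_inf.mp hd
  have hPnt : Nontrivial (P : Subgroup G) :=
    ⟨⟨⟨d, hdP⟩, 1, fun h => hd1 (congrArg Subtype.val h)⟩⟩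
  have hPp : IsPGroup p (P : Subgroup G) := P.isPGroup'
  have hcnt := hPp.center_nontrivial
  obtain ⟨z', hz'⟩ := exists_ne (1 : Subgroup.center (P : Subgroup G))
  set z : G := (((z' : Subgroup.center (P : Subgroup G)) : (P : Subgroup G)) : G) with hzdef
  have hzP : z ∈ (P : Subgroup G) := ((z' : Subgroup.center (P : Subgroup G)) : (P : Subgroup G)).2
  have hz1 : z ≠ 1 := by
    intro h
    apply hz'
    apply Subtype.ext
    apply Subtype.ext
    exact h
  have hzc : ∀ u ∈ (P : Subgroup G), u * z = z * u := by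
    intro u hu
    have := (Subgroup.mem_center_iff.mp z'.2) ⟨u, hu⟩
    exact congrArg Subtype.val this
  set C := Subgroup.centralizer ({z} : Set G) with hC
  have hmemC : ∀ u, u ∈ C ↔ u * z = z * u := by
    intro u
    rw [hC, Subgroup.mem_centralizer_singleton_iff]
  have hPC : (P : Subgroup G) ≤ C := fun u hu => (hmemC u).mpr (hzc u hu)
  -- conjugate Sylows
  obtain ⟨g, hg⟩ := MulAction.exists_smul_eq G P Q
  have hconj : ∀ v, v ∈ (Q : Subgroup G) ↔ g⁻¹ * v * g ∈ (P : Subgroup G) := by
    intro v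
    rw [← hg, Sylow.coe_subgroup_smul, Subgroup.mem_pointwise_smul_iff_inv_smul_mem]
    simp [MulAut.smul_def]
  have hginv : g⁻¹ ∈ Subgroup.normalizer (C : Set G) := by
    by_contra hn
    apply hd1
    refine hTI z g⁻¹ hn d (hPC hdP) ?_
    have := hPC ((hconj d).mp hdQ)
    simpa using this
  rw [Subgroup.mem_normalizer_iff] at hginv
  have hQC : (Q : Subgroup G) ≤ C := by
    intro v hv
    have h1 := hPC ((hconj v).mp hv)
    have h2 := (hginv v).mpr (by simpa using h1)
    exact h2
  apply hPQ
  -- now P ≤ Q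
  have hPQle : (P : Subgroup G) ≤ (Q : Subgroup G) := by
    intro u hu
    set S : Set G := {w | ∃ a ∈ C, w = a * u * a⁻¹} with hS
    have hScomm : ∀ x ∈ S, ∀ y ∈ S, x * y = y * x := by
      rintro x ⟨a, ha, rfl⟩ y ⟨b, hb, rfl⟩
      have hcomm := ti_step u z (a⁻¹ * b) (hTI u) hz1 (by
        have := hzc u hu
        rw [this]) (by
        have ha' := (hmemC a).mp ha
        have hb' := (hmemC b).mp hb
        have ha'' : a⁻¹ * z = z * a⁻¹ := by
          have : a⁻¹ * (a * z) * a⁻¹ = a⁻¹ * (z * a) * a⁻¹ := by rw [ha']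
          simpa [mul_assoc] using this.symm
        rw [mul_assoc, hb', ← mul_assoc, ha'', mul_assoc])
      -- conjugate by a
      have h3 : a * (u * (a⁻¹ * b * u * (a⁻¹ * b)⁻¹)) * a⁻¹ = a * ((a⁻¹ * b * u * (a⁻¹ * b)⁻¹) * u) * a⁻¹ := by
        rw [hcomm]
      have h4 : a * u * a⁻¹ * (b * u * b⁻¹) = a * (u * (a⁻¹ * b * u * (a⁻¹ * b)⁻¹)) * a⁻¹ := by group
      have h5 : b * u * b⁻¹ * (a * u * a⁻¹) = a * ((a⁻¹ * b * u * (a⁻¹ * b)⁻¹) * u) * a⁻¹ := by group
      rw [h4, h5, h3]
    set R := Subgroup.closure S with hR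
    have hRcomm : ∀ x ∈ R, ∀ y ∈ R, x * y = y * x := by
      intro x hx y hy
      have hk : IsMulCommutative R := Subgroup.isMulCommutative_closure hScomm
      have := hk.is_comm.comm (⟨x, hx⟩ : R) ⟨y, hy⟩
      exact congrArg Subtype.val this
    -- every element of R is a p-element
    have hup : ∃ k : ℕ, u ^ p ^ k = 1 := by
      obtain ⟨k, hk⟩ := isPGroup_iff_pow_pow_eq_one.mp hPp ⟨u, hu⟩
      exact ⟨k, congrArg Subtype.val hk⟩
    obtain ⟨k0, hk0⟩ := hup
    have hRp : IsPGroup p R := by
      rw [isPGroup_iff_pow_pow_eq_one]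
      rintro ⟨r, hr⟩
      have : ∃ k : ℕ, r ^ p ^ k = 1 := by
        induction hr using Subgroup.closure_induction with
        | mem x hx =>
          obtain ⟨a, ha, rfl⟩ := hx
          refine ⟨k0, ?_⟩
          rw [conj_pow, hk0]; simp
        | one => exact ⟨0, by simp⟩
        | mul x y hx hy ihx ihy =>
          obtain ⟨kx, hkx⟩ := ihx
          obtain ⟨ky, hky⟩ := ihy
          refine ⟨max kx ky, ?_⟩
          have hc : Commute x y := hRcomm x hx y hy
          rw [hc.mul_pow]
          have h1 : x ^ p ^ (max kx ky) = 1 := by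
            obtain ⟨c, hc⟩ := pow_dvd_pow p (le_max_left kx ky)
            rw [hc, pow_mul, hkx, one_pow]
          have h2 : y ^ p ^ (max kx ky) = 1 := by
            obtain ⟨c, hc⟩ := pow_dvd_pow p (le_max_right kx ky)
            rw [hc, pow_mul, hky, one_pow]
          rw [h1, h2, one_mul]
        | inv x hx ih =>
          obtain ⟨kx, hkx⟩ := ih
          exact ⟨kx, by rw [inv_pow, hkx, inv_one]⟩
      obtain ⟨k, hk⟩ := this
      exact ⟨k, Subtype.ext (by simpa using hk)⟩
    -- Q normalizes R
    have hQnorm : (Q : Subgroup G) ≤ Subgroup.normalizer (R : Set G) := by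
      intro q hq
      have hqC : q ∈ C := hQC hq
      have hSq : ∀ w, w ∈ S → q * w * q⁻¹ ∈ S := by
        rintro w ⟨a, ha, rfl⟩
        exact ⟨q * a, C.mul_mem hqC ha, by group⟩
      have hSq' : ∀ w, w ∈ S → q⁻¹ * w * q ∈ S := by
        rintro w ⟨a, ha, rfl⟩
        exact ⟨q⁻¹ * a, C.mul_mem (C.inv_mem hqC) ha, by group⟩
      rw [Subgroup.mem_normalizer_iff]
      intro h
      have hle1 : ∀ r ∈ R, q * r * q⁻¹ ∈ R := by
        intro r hr
        induction hr using Subgroup.closure_induction with
        | mem x hx => exact Subgroup.subset_closure (hSq x hx)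
        | one => simp [R.one_mem]
        | mul x y hx hy ihx ihy =>
          have : q * (x * y) * q⁻¹ = (q * x * q⁻¹) * (q * y * q⁻¹) := by group
          rw [this]; exact R.mul_mem ihx ihy
        | inv x hx ih =>
          have : q * x⁻¹ * q⁻¹ = (q * x * q⁻¹)⁻¹ := by group
          rw [this]; exact R.inv_mem ih
      have hle2 : ∀ r ∈ R, q⁻¹ * r * q ∈ R := by
        intro r hr
        induction hr using Subgroup.closure_induction with
        | mem x hx => exact Subgroup.subset_closure (hSq' x hx)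
        | one => simp [R.one_mem]
        | mul x y hx hy ihx ihy =>
          have : q⁻¹ * (x * y) * q = (q⁻¹ * x * q) * (q⁻¹ * y * q) := by group
          rw [this]; exact R.mul_mem ihx ihy
        | inv x hx ih =>
          have : q⁻¹ * x⁻¹ * q = (q⁻¹ * x * q)⁻¹ := by group
          rw [this]; exact R.inv_mem ih
      constructor
      · exact fun hh => hle1 h hh
      · intro hh
        have := hle2 _ hh
        simpa [mul_assoc] using this
    have hsupp : IsPGroup p ((Q : Subgroup G) ⊔ R : Subgroup G) :=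
      IsPGroup.to_sup_of_normal_right' Q.isPGroup' hRp hQnorm
    have heq := Q.is_maximal' hsupp le_sup_left
    have huR : u ∈ R := Subgroup.subset_closure ⟨1, C.one_mem, by simp⟩
    have : u ∈ ((Q : Subgroup G) ⊔ R : Subgroup G) := Subgroup.mem_sup_right huR
    rw [heq] at this
    exact this
  exact Sylow.ext (P.is_maximal' Q.isPGroup' hPQle).symm

end Cfsg.Agent.S4066
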