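import Mathlib
import Cfsg.Statements.S4067
-- import your own Cfsg.Agent.* helpers here

set_option autoImplicit false
open Cfsg

namespace Cfsg.Agent.S4067


section Orbits
open MulAction
variable {A X : Type*} [Group A] [MulAction A X] [Fintype X]

/-- The number of orbits as a sum of reciprocal orbit sizes. -/
theorem card_orbits_eq_sum :
    (Nat.card (orbitRel.Quotient A X) : ℚ) = ∑ x : X, (1 : ℚ) / Nat.card (orbit A x) := by
  classical
  let _ : Setoid X := orbitRel A X
  let π : X → orbitRel.Quotient A X := fun x => Quotient.mk'' x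
  have : Fintype (orbitRel.Quotient A X) := Fintype.ofFinite _
  rw [← Finset.sum_fiberwise (s := Finset.univ) (g := π)]
  have hfib : ∀ ω : orbitRel.Quotient A X,
      ∑ x ∈ Finset.univ.filter (fun x => π x = ω), (1 : ℚ) / Nat.card (orbit A x) = 1 := by
    intro ω
    obtain ⟨x0, rfl⟩ : ∃ x0, π x0 = ω := Quotient.exists_rep ω
    have horb : ∀ x ∈ Finset.univ.filter (fun x => π x = π x0),
        orbit A x = orbit A x0 := by
      intro x hx
      have hx' : π x = π x0 := (Finset.mem_filter.1 hx).2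
      exact orbitRel_apply.1 (Quotient.exact hx') |> orbit_eq_iff.2
    rw [Finset.sum_congr rfl (fun x hx => by rw [horb x hx])]
    rw [Finset.sum_const, nsmul_eq_mul]
    have hcard : (Finset.univ.filter (fun x => π x = π x0)).card = Nat.card (orbit A x0) := by
      rw [Nat.card_eq_fintype_card, Fintype.card_of_subtype]
      intro x
      simp only [Finset.mem_filter, Finset.mem_univ, true_and]
      constructor
      · intro hx
        have := horb x (by simpa using hx)
        rw [← this]
        exact mem_orbit_self x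
      · intro hx
        apply Quotient.sound
        exact orbitRel_apply.2 hx
    rw [hcard]
    have hne : Nonempty (orbit A x0) := ⟨⟨x0, mem_orbit_self x0⟩⟩
    have hpos : (Nat.card (orbit A x0) : ℚ) ≠ 0 := by
      have : 0 < Nat.card (orbit A x0) := Nat.card_pos
      positivity
    field_simp
  rw [Finset.sum_congr rfl (fun ω _ => hfib ω)]
  simp [Nat.card_eq_fintype_card]

/-- Bounding the number of orbits by lower bounds on orbit sizes. -/
theorem card_orbits_le_sum (w : X → ℕ) (hw : ∀ x, 0 < w x)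
    (hle : ∀ x, w x ≤ Nat.card (orbit A x)) :
    (Nat.card (orbitRel.Quotient A X) : ℚ) ≤ ∑ x : X, (1 : ℚ) / w x := by
  rw [card_orbits_eq_sum]
  apply Finset.sum_le_sum
  intro x _
  apply one_div_le_one_div_of_le
  · exact_mod_cast hw x
  · exact_mod_cast hle x

end Orbits

section Basic
open Subgroup MulAction
open scoped commutatorElement

variable {G : Type*} [Group G] [Finite G]

/-- The conjugacy class size of `x`. -/
noncomputable abbrev idx (x : G) : ℕ := (centralizer ({x} : Set G)).index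

theorem idx_dvd (x : G) : idx x ∣ Nat.card G := index_dvd_card _

theorem minFac_le_of_dvd' {m : ℕ} (hm : m ∣ Nat.card G) (h1 : m ≠ 1) :
    (Nat.card G).minFac ≤ m := by
  have h0 : m ≠ 0 := by
    rintro rfl
    exact (Nat.card_pos (α := G)).ne' (Nat.zero_dvd.1 hm)
  exact Nat.minFac_le_of_dvd (by omega) hm

theorem idx_eq_one_iff (x : G) : idx x = 1 ↔ x ∈ center G := by
  rw [idx, index_eq_one, Subgroup.eq_top_iff', mem_center_iff]
  simp [mem_centralizer_singleton_iff]

theorem idx_le_orbit (x : G) : idx x ≤ Nat.card (orbit (MulAut G) x) := by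
  classical
  let H := centralizer ({x} : Set G)
  let f : G ⧸ H → orbit (MulAut G) x :=
    Quotient.lift (fun g => (⟨g * x * g⁻¹, ⟨MulAut.conj g, rfl⟩⟩ : orbit (MulAut G) x)) (by
      intro a b hab
      have hab' : a⁻¹ * b ∈ H := QuotientGroup.leftRel_apply.1 hab
      have h2 : a⁻¹ * b * x = x * (a⁻¹ * b) := mem_centralizer_singleton_iff.1 hab'
      apply Subtype.ext
      show a * x * a⁻¹ = b * x * b⁻¹
      have h3 : b * x = a * (x * (a⁻¹ * b)) := by
        rw [← h2]; group
      rw [h3]; group)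
  have hf : Function.Injective f := by
    intro a b
    induction a using QuotientGroup.induction_on
    induction b using QuotientGroup.induction_on
    rename_i a b
    intro hab
    have h1 : a * x * a⁻¹ = b * x * b⁻¹ := congrArg Subtype.val hab
    apply QuotientGroup.eq.2
    show a⁻¹ * b ∈ H
    refine mem_centralizer_singleton_iff.2 ?_
    have : b * x = a * x * a⁻¹ * b := by rw [h1]; group
    calc a⁻¹ * b * x = a⁻¹ * (b * x) := by group
      _ = a⁻¹ * (a * x * a⁻¹ * b) := by rw [this]
      _ = x * (a⁻¹ * b) := by group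
  exact Nat.card_le_card_of_injective f hf

theorem comm_mul_right (hc : ∀ u v : G, ⁅u, v⁆ ∈ center G) (x g h : G) :
    ⁅x, g * h⁆ = ⁅x, g⁆ * ⁅x, h⁆ := by
  have hz : g⁻¹ * ⁅x, h⁆ = ⁅x, h⁆ * g⁻¹ := mem_center_iff.1 (hc x h) g⁻¹
  calc ⁅x, g * h⁆ = x * g * x⁻¹ * (⁅x, h⁆ * g⁻¹) := by
        simp only [commutatorElement_def]; group
    _ = x * g * x⁻¹ * (g⁻¹ * ⁅x, h⁆) := by rw [hz]
    _ = ⁅x, g⁆ * ⁅x, h⁆ := by
        simp only [commutatorElement_def]; group

theorem comm_mul_left (hc : ∀ u v : G, ⁅u, v⁆ ∈ center G) (x y g : G) :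
    ⁅x * y, g⁆ = ⁅x, g⁆ * ⁅y, g⁆ := by
  have h1 : ⁅x * y, g⁆ = (⁅g, x * y⁆)⁻¹ := (commutatorElement_inv g (x * y)).symm
  have h2 : ⁅g, x * y⁆ = ⁅g, x⁆ * ⁅g, y⁆ := comm_mul_right hc g x y
  have h3 : ⁅x, g⁆ = (⁅g, x⁆)⁻¹ := (commutatorElement_inv g x).symm
  have h4 : ⁅y, g⁆ = (⁅g, y⁆)⁻¹ := (commutatorElement_inv g y).symm
  rw [h1, h2, h3, h4, mul_inv_rev]
  exact mem_center_iff.1 (inv_mem (hc g x)) _

theorem comm_pow_right (hc : ∀ u v : G, ⁅u, v⁆ ∈ center G) (x g : G) (k : ℕ) :
    ⁅x, g ^ k⁆ = ⁅x, g⁆ ^ k := by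
  induction k with
  | zero => simp
  | succ k ih => rw [pow_succ, comm_mul_right hc, ih, pow_succ]

theorem comm_pow_left (hc : ∀ u v : G, ⁅u, v⁆ ∈ center G) (x g : G) (k : ℕ) :
    ⁅x ^ k, g⁆ = ⁅x, g⁆ ^ k := by
  induction k with
  | zero => simp
  | succ k ih => rw [pow_succ, comm_mul_left hc, ih, pow_succ]

/-- The commutator map `g ↦ ⁅x, g⁆` in a group of class at most two. -/
def lam (hc : ∀ u v : G, ⁅u, v⁆ ∈ center G) (x : G) : G →* G where
  toFun g := ⁅x, g⁆
  map_one' := commutatorElement_one_right x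
  map_mul' := comm_mul_right hc x

@[simp] theorem lam_apply (hc : ∀ u v : G, ⁅u, v⁆ ∈ center G) (x g : G) : lam hc x g = ⁅x, g⁆ := rfl

theorem lam_ker (hc : ∀ u v : G, ⁅u, v⁆ ∈ center G) (x : G) :
    (lam hc x).ker = centralizer ({x} : Set G) := by
  ext g
  rw [MonoidHom.mem_ker, lam_apply, commutatorElement_eq_one_iff_mul_comm,
    mem_centralizer_singleton_iff]
  exact ⟨fun h => h.symm, fun h => h.symm⟩

theorem card_range_lam (hc : ∀ u v : G, ⁅u, v⁆ ∈ center G) (x : G) :
    Nat.card (lam hc x).range = idx x := by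
  rw [← index_ker, lam_ker]

/-- Elements whose commutators lie in `W`. -/
def KW (hc : ∀ u v : G, ⁅u, v⁆ ∈ center G) (W : Subgroup G) : Subgroup G where
  carrier := {u | ∀ g, ⁅u, g⁆ ∈ W}
  mul_mem' := by
    intro a b ha hb g
    rw [comm_mul_left hc]
    exact W.mul_mem (ha g) (hb g)
  one_mem' := by
    intro g
    rw [commutatorElement_one_left]
    exact W.one_mem
  inv_mem' := by
    intro a ha g
    have h1 : ⁅a * a⁻¹, g⁆ = ⁅a, g⁆ * ⁅a⁻¹, g⁆ := comm_mul_left hc a a⁻¹ g
    rw [mul_inv_cancel, commutatorElement_one_left] at h1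
    have h2 : ⁅a⁻¹, g⁆ = ⁅a, g⁆⁻¹ := by
      rw [eq_inv_iff_mul_eq_one, mem_center_iff.1 (hc a g) _, ← h1]
    rw [h2]
    exact W.inv_mem (ha g)


end Basic

section Struct
open Subgroup MulAction
open scoped commutatorElement

variable {G : Type*} [Group G] [Finite G]

theorem comm_of_not (hna : ¬ IsMulCommutative G) : ¬ (∀ a b : G, a * b = b * a) := by
  intro h
  exact hna ⟨⟨h⟩⟩

theorem card_ne_one (hna : ¬ IsMulCommutative G) : Nat.card G ≠ 1 := by
  intro h
  have : Subsingleton G := (Nat.card_eq_one_iff_unique.1 h).1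
  exact comm_of_not hna (fun a b => Subsingleton.elim _ _)

theorem minFac_prime' (hna : ¬ IsMulCommutative G) : (Nat.card G).minFac.Prime :=
  Nat.minFac_prime (card_ne_one hna)

theorem center_index_ne_one (hna : ¬ IsMulCommutative G) : (center G).index ≠ 1 := by
  intro h
  rw [index_eq_one] at h
  apply comm_of_not hna
  intro a b
  have : b ∈ center G := by rw [h]; trivial
  exact (mem_center_iff.1 this a)

theorem center_index_not_prime (hna : ¬ IsMulCommutative G) : ¬ (center G).index.Prime := by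
  intro h
  have : Fact (Nat.card (G ⧸ center G)).Prime := ⟨by rwa [← index_eq_card]⟩
  have : IsCyclic (G ⧸ center G) := isCyclic_of_prime_card rfl
  exact hna (MonoidHom.isMulCommutative_of_isCyclic_of_ker_le_center
    (QuotientGroup.mk' (center G)) (by simp))

theorem center_index_bound (hna : ¬ IsMulCommutative G) :
    ((center G).index = (Nat.card G).minFac ^ 2 ∨
      (Nat.card G).minFac * ((Nat.card G).minFac + 1) ≤ (center G).index) ∧
      (Nat.card G).minFac ^ 2 ≤ (center G).index := by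
  set p := (Nat.card G).minFac with hp
  set s := (center G).index with hs
  have hs1 : s ≠ 1 := center_index_ne_one hna
  have hs0 : 0 < s := Nat.pos_of_ne_zero index_ne_zero_of_finite
  have hnp : ¬ s.Prime := center_index_not_prime hna
  have hq1 : s.minFac ≠ 1 := by
    rw [Ne, Nat.minFac_eq_one_iff]; exact hs1
  have hsn : s ∣ Nat.card G := index_dvd_card _
  have hpq : p ≤ s.minFac := minFac_le_of_dvd' ((Nat.minFac_dvd s).trans hsn) hq1
  have hqt : s.minFac ≤ s / s.minFac := Nat.minFac_le_div hs0 hnp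
  have hst : s = s.minFac * (s / s.minFac) := (Nat.mul_div_cancel' (Nat.minFac_dvd s)).symm
  set q := s.minFac
  set t := s / q
  rw [hst]
  constructor
  · rcases Nat.lt_or_ge p q with h | h
    · right
      have h1 : p + 1 ≤ q := h
      have h2 : p + 1 ≤ t := h1.trans hqt
      nlinarith
    · have hqp : q = p := le_antisymm h hpq
      rcases Nat.lt_or_ge p t with h' | h'
      · right
        rw [hqp]
        exact Nat.mul_le_mul_left _ h'
      · left
        have ht : t = p := le_antisymm h' (by rw [← hqp]; exact hqt)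
        rw [hqp, ht]; ring
  · nlinarith

theorem idx_le_of_index (hna : ¬ IsMulCommutative G)
    (h : (center G).index = (Nat.card G).minFac ^ 2) (x : G) : idx x ≤ (Nat.card G).minFac := by
  set p := (Nat.card G).minFac with hp
  by_cases hx : x ∈ center G
  · rw [(idx_eq_one_iff x).2 hx]
    exact (minFac_prime' hna).one_lt.le
  have hle : center G ≤ centralizer ({x} : Set G) := by
    intro z hz
    exact mem_centralizer_singleton_iff.2 (mem_center_iff.1 hz x).symm
  have h1 := relIndex_mul_index hle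
  have h2 : (center G).relIndex (centralizer ({x} : Set G)) ≠ 1 := by
    intro h3
    rw [relIndex_eq_one] at h3
    exact hx (h3 (mem_centralizer_singleton_iff.2 rfl))
  have h3 : p ≤ (center G).relIndex (centralizer ({x} : Set G)) :=
    minFac_le_of_dvd' ((relIndex_dvd_card _ _).trans (card_subgroup_dvd_card _)) h2
  have hp0 : 0 < p := (minFac_prime' hna).pos
  rw [h] at h1
  have : p * idx x ≤ p * p := by
    calc p * idx x ≤ (center G).relIndex (centralizer ({x} : Set G)) * idx x :=
          Nat.mul_le_mul_right _ h3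
      _ = p ^ 2 := h1
      _ = p * p := by ring
  exact Nat.le_of_mul_le_mul_left this hp0

section Key
variable [Fintype G]

theorem card_filter_mem (H : Subgroup G) [DecidablePred (· ∈ H)] :
    (Finset.univ.filter (· ∈ H)).card = Nat.card H := by
  rw [Nat.card_eq_fintype_card, Fintype.card_subtype]

/-- The main numerical consequence of having many conjugacy classes. -/
theorem key_ineq (hna : ¬ IsMulCommutative G)
    (hS : (Nat.card G : ℚ) / (Nat.card G).minFac < ∑ x : G, (1 : ℚ) / idx x)
    (T : Finset G) (hT : ∀ u ∈ T, (Nat.card G).minFac < idx u) :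
    (T.card : ℚ) < Nat.card (center G) * (((Nat.card G).minFac : ℚ) ^ 2 - 1) := by
  classical
  set p := (Nat.card G).minFac with hp
  have hpp : p.Prime := minFac_prime' hna
  have hP : (2 : ℚ) ≤ p := by exact_mod_cast hpp.two_le
  set P : ℚ := (p : ℚ) with hPdef
  have hP0 : 0 < P := by linarith
  have hP1 : 0 < P + 1 := by linarith
  set B := Finset.univ.filter (fun x : G => idx x ≤ p) with hB
  have hbound : ∀ x : G, (1 : ℚ) / idx x ≤
      1 / (P + 1) + (if x ∈ B then 1 / P - 1 / (P + 1) else 0)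
        + (if x ∈ center G then 1 - 1 / P else 0) := by
    intro x
    by_cases hx : x ∈ center G
    · have h1 : idx x = 1 := (idx_eq_one_iff x).2 hx
      have hxB : x ∈ B := by
        simp only [hB, Finset.mem_filter, Finset.mem_univ, true_and]
        rw [h1]; exact hpp.one_lt.le
      rw [h1, if_pos hxB, if_pos hx]
      apply le_of_eq
      push_cast
      ring
    · rw [if_neg hx, add_zero]
      have h1 : idx x ≠ 1 := fun h => hx ((idx_eq_one_iff x).1 h)
      have h2 : p ≤ idx x := minFac_le_of_dvd' (idx_dvd x) h1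
      by_cases hxB : x ∈ B
      · rw [if_pos hxB]
        have : (1 : ℚ) / idx x ≤ 1 / P :=
          one_div_le_one_div_of_le hP0 (by rw [hPdef]; exact_mod_cast h2)
        linarith
      · rw [if_neg hxB, add_zero]
        have h3 : p + 1 ≤ idx x := by
          by_contra h4
          apply hxB
          simp only [hB, Finset.mem_filter, Finset.mem_univ, true_and]
          omega
        exact one_div_le_one_div_of_le hP1 (by rw [hPdef]; exact_mod_cast h3)
  have hsum : ∑ x : G, (1 : ℚ) / idx x ≤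
      (Nat.card G : ℚ) * (1 / (P + 1)) + (B.card : ℚ) * (1 / P - 1 / (P + 1))
        + (Nat.card (center G) : ℚ) * (1 - 1 / P) := by
    refine (Finset.sum_le_sum (fun x _ => hbound x)).trans (le_of_eq ?_)
    have h1 : ∑ _x : G, (1 : ℚ) / (P + 1) = (Nat.card G : ℚ) * (1 / (P + 1)) := by
      rw [Finset.sum_const, Finset.card_univ, nsmul_eq_mul, Nat.card_eq_fintype_card]
    have h2 : ∑ x : G, (if x ∈ B then 1 / P - 1 / (P + 1) else 0)
        = (B.card : ℚ) * (1 / P - 1 / (P + 1)) := by
      rw [Finset.sum_ite_mem, Finset.univ_inter, Finset.sum_const, nsmul_eq_mul]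
    have h3 : ∑ x : G, (if x ∈ center G then 1 - 1 / P else 0)
        = (Nat.card (center G) : ℚ) * (1 - 1 / P) := by
      rw [Finset.sum_ite, Finset.sum_const_zero, add_zero, Finset.sum_const, nsmul_eq_mul,
        card_filter_mem]
    rw [Finset.sum_add_distrib, Finset.sum_add_distrib, h1, h2, h3]
  have hdisj : Disjoint T B := by
    rw [Finset.disjoint_left]
    intro u hu huB
    have := hT u hu
    simp only [hB, Finset.mem_filter, Finset.mem_univ, true_and] at huB
    omega
  have hcard : T.card + B.card ≤ Nat.card G := by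
    rw [← Finset.card_union_of_disjoint hdisj, Nat.card_eq_fintype_card]
    exact Finset.card_le_univ _
  have hcard' : (T.card : ℚ) + B.card ≤ Nat.card G := by exact_mod_cast hcard
  have hmain := hS.trans_le hsum
  set n : ℚ := (Nat.card G : ℚ)
  set a : ℚ := (Nat.card (center G) : ℚ)
  set b : ℚ := (B.card : ℚ)
  have h5 : n < b + a * (P ^ 2 - 1) := by
    have h6 : n / P * (P * (P + 1)) < (n * (1 / (P + 1)) + b * (1 / P - 1 / (P + 1))
        + a * (1 - 1 / P)) * (P * (P + 1)) :=
      mul_lt_mul_of_pos_right hmain (by positivity)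
    have h7 : n / P * (P * (P + 1)) = n * (P + 1) := by field_simp
    have h8 : (n * (1 / (P + 1)) + b * (1 / P - 1 / (P + 1))
        + a * (1 - 1 / P)) * (P * (P + 1)) = n * P + b + a * (P ^ 2 - 1) := by
      field_simp
      ring
    rw [h7, h8] at h6
    linarith
  linarith

theorem card_filter_not_mem (H : Subgroup G) [DecidablePred (· ∈ H)] :
    ((Finset.univ.filter (· ∉ H)).card : ℚ) = Nat.card G - Nat.card H := by
  have h1 := Finset.card_filter_add_card_filter_not (s := (Finset.univ : Finset G)) (· ∈ H)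
  rw [card_filter_mem, Finset.card_univ, ← Nat.card_eq_fintype_card] at h1
  rw [← h1]
  push_cast
  ring

theorem closure_B_top (hna : ¬ IsMulCommutative G)
    (hS : (Nat.card G : ℚ) / (Nat.card G).minFac < ∑ x : G, (1 : ℚ) / idx x) :
    closure {x : G | idx x ≤ (Nat.card G).minFac} = ⊤ := by
  classical
  by_contra hY
  set p := (Nat.card G).minFac with hp
  have hpp : p.Prime := minFac_prime' hna
  set Y := closure {x : G | idx x ≤ p} with hYdef
  have hi1 : Y.index ≠ 1 := fun h => hY (index_eq_one.1 h)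
  have hi2 : p ≤ Y.index := minFac_le_of_dvd' (index_dvd_card _) hi1
  have hT : ∀ u ∈ Finset.univ.filter (· ∉ Y), p < idx u := by
    intro u hu
    have hu' : u ∉ Y := (Finset.mem_filter.1 hu).2
    by_contra h
    exact hu' (subset_closure (not_lt.1 h))
  have hkey := key_ineq hna hS _ hT
  rw [card_filter_not_mem] at hkey
  rcases (center_index_bound hna).1 with hs | hs
  · apply hY
    rw [eq_top_iff]
    intro x _
    exact subset_closure (idx_le_of_index hna hs x)
  · have hP : (2 : ℚ) ≤ (p : ℚ) := by exact_mod_cast hpp.two_le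
    have hcard : Nat.card Y * Y.index = Nat.card G := card_mul_index Y
    have hcard2 : Nat.card (center G) * (center G).index = Nat.card G := card_mul_index _
    have h1 : (Nat.card Y : ℚ) * p ≤ Nat.card G := by
      have : Nat.card Y * p ≤ Nat.card G := by
        rw [← hcard]; exact Nat.mul_le_mul_left _ hi2
      exact_mod_cast this
    have h2 : (Nat.card G : ℚ) = Nat.card (center G) * ((center G).index : ℚ) := by
      exact_mod_cast hcard2.symm
    have h3 : ((p : ℚ) * (p + 1)) ≤ ((center G).index : ℚ) := by exact_mod_cast hs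
    have ha : (0 : ℚ) < Nat.card (center G) := by exact_mod_cast Nat.card_pos
    set a : ℚ := (Nat.card (center G) : ℚ)
    set P : ℚ := (p : ℚ)
    set S : ℚ := ((center G).index : ℚ)
    set n : ℚ := (Nat.card G : ℚ)
    set y : ℚ := (Nat.card Y : ℚ)
    -- `n - y < a (P^2 - 1)`, `y P ≤ n`, `n = a S`, `P (P+1) ≤ S`
    have h4 : n * (P - 1) < a * (P ^ 2 - 1) * P := by nlinarith
    have h5 : a * (P * (P + 1)) * (P - 1) ≤ n * (P - 1) := by
      rw [h2]
      have : 0 ≤ P - 1 := by linarith
      exact mul_le_mul_of_nonneg_right (mul_le_mul_of_nonneg_left h3 ha.le) this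
    nlinarith

theorem comm_central (hna : ¬ IsMulCommutative G)
    (hS : (Nat.card G : ℚ) / (Nat.card G).minFac < ∑ x : G, (1 : ℚ) / idx x) (u v : G) :
    ⁅u, v⁆ ∈ center G := by
  classical
  set p := (Nat.card G).minFac with hp
  have hpp : p.Prime := minFac_prime' hna
  have hB : ∀ x : G, idx x ≤ p → ⁅u, v⁆ ∈ centralizer ({x} : Set G) := by
    intro x hx
    by_cases h1 : idx x = 1
    · have : centralizer ({x} : Set G) = ⊤ := index_eq_one.1 h1
      rw [this]; trivial
    · have h2 : idx x = p := le_antisymm hx (minFac_le_of_dvd' (idx_dvd x) h1)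
      have hnorm : (centralizer ({x} : Set G)).Normal := normal_of_index_eq_minFac_card h2
      have : Fact (Nat.card (G ⧸ centralizer ({x} : Set G))).Prime := ⟨by
        rw [← index_eq_card]; show (idx x).Prime; rw [h2]; exact hpp⟩
      have hcyc : IsCyclic (G ⧸ centralizer ({x} : Set G)) := isCyclic_of_prime_card rfl
      let _ : CommGroup (G ⧸ centralizer ({x} : Set G)) := IsCyclic.commGroup
      have h3 : ((u : G ⧸ centralizer ({x} : Set G))) * (v : G ⧸ centralizer ({x} : Set G))
          = (v : G ⧸ centralizer ({x} : Set G)) * (u : G ⧸ centralizer ({x} : Set G)) :=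
        mul_comm _ _
      have h4 : ((⁅u, v⁆ : G) : G ⧸ centralizer ({x} : Set G)) = 1 := by
        simp only [commutatorElement_def, QuotientGroup.mk_mul, QuotientGroup.mk_inv]
        rw [h3]
        group
      exact (QuotientGroup.eq_one_iff _).1 h4
  have hcl : closure {x : G | idx x ≤ p} ≤ centralizer ({⁅u, v⁆} : Set G) := by
    rw [closure_le]
    intro x hx
    have := hB x hx
    exact mem_centralizer_singleton_iff.2 (mem_centralizer_singleton_iff.1 this).symm
  rw [closure_B_top hna hS] at hcl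
  rw [mem_center_iff]
  intro g
  exact mem_centralizer_singleton_iff.1 (hcl (mem_top g))

theorem prime_card_le (H K : Subgroup G) (hp : (Nat.card H).Prime) (w : G) (hwH : w ∈ H)
    (hw1 : w ≠ 1) (hwK : w ∈ K) : H ≤ K := by
  have h1 : Subgroup.zpowers w ≤ H := (zpowers_le).2 hwH
  have h2 : orderOf w ∣ Nat.card H := Subgroup.orderOf_dvd_natCard H hwH
  have h3 : orderOf w ≠ 1 := by rwa [Ne, orderOf_eq_one_iff]
  have h4 : orderOf w = Nat.card H := (Nat.dvd_prime hp).1 h2 |>.resolve_left h3
  have h5 : Subgroup.zpowers w = H :=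
    eq_of_le_of_card_ge h1 (by rw [Nat.card_zpowers, h4])
  rw [← h5]
  exact (zpowers_le).2 hwK

theorem card_T (A B : Subgroup G) [DecidablePred (· ∈ A)] [DecidablePred (· ∈ B)] :
    ((Finset.univ.filter (fun u => u ∉ A ∧ u ∉ B)).card : ℚ)
      = Nat.card G - Nat.card A - Nat.card B + Nat.card (A ⊓ B : Subgroup G) := by
  classical
  have h1 := Finset.card_filter_add_card_filter_not (s := (Finset.univ : Finset G))
    (fun u => u ∈ A ∨ u ∈ B)
  have h2 : Finset.univ.filter (fun u => ¬ (u ∈ A ∨ u ∈ B))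
      = Finset.univ.filter (fun u => u ∉ A ∧ u ∉ B) := by
    ext u; simp [not_or]
  have h3 : Finset.univ.filter (fun u => u ∈ A ∨ u ∈ B)
      = Finset.univ.filter (· ∈ A) ∪ Finset.univ.filter (· ∈ B) := Finset.filter_or _ _ _
  have h4 := Finset.card_union_add_card_inter (Finset.univ.filter (· ∈ A))
    (Finset.univ.filter (· ∈ B))
  have h5 : Finset.univ.filter (· ∈ A) ∩ Finset.univ.filter (· ∈ B)
      = Finset.univ.filter (· ∈ (A ⊓ B : Subgroup G)) := by
    ext u; simp [mem_inf]
  rw [h5, card_filter_mem, card_filter_mem, card_filter_mem] at h4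
  rw [h2, h3, Finset.card_univ, ← Nat.card_eq_fintype_card] at h1
  have h6 : ((Finset.univ.filter (· ∈ A) ∪ Finset.univ.filter (· ∈ B)).card : ℚ)
      + Nat.card (A ⊓ B : Subgroup G) = Nat.card A + Nat.card B := by exact_mod_cast h4
  have h7 : ((Finset.univ.filter (· ∈ A) ∪ Finset.univ.filter (· ∈ B)).card : ℚ)
      + (Finset.univ.filter (fun u => u ∉ A ∧ u ∉ B)).card = Nat.card G := by exact_mod_cast h1
  linarith

theorem range_eq (hna : ¬ IsMulCommutative G)
    (hS : (Nat.card G : ℚ) / (Nat.card G).minFac < ∑ x : G, (1 : ℚ) / idx x)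
    (hc : ∀ u v : G, ⁅u, v⁆ ∈ center G) {x y : G}
    (hx : idx x = (Nat.card G).minFac) (hy : idx y = (Nat.card G).minFac) :
    (lam hc x).range = (lam hc y).range := by
  classical
  by_contra hne
  set p := (Nat.card G).minFac with hp
  have hpp : p.Prime := minFac_prime' hna
  have hP : (2 : ℚ) ≤ (p : ℚ) := by exact_mod_cast hpp.two_le
  set Wx := (lam hc x).range with hWx
  set Wy := (lam hc y).range with hWy
  have hcx : Nat.card Wx = p := (card_range_lam hc x).trans hx
  have hcy : Nat.card Wy = p := (card_range_lam hc y).trans hy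
  have hinter : ∀ w, w ∈ Wx → w ∈ Wy → w = 1 := by
    intro w h1 h2
    by_contra hw
    apply hne
    apply le_antisymm
    · exact prime_card_le Wx Wy (by rw [hcx]; exact hpp) w h1 hw h2
    · exact prime_card_le Wy Wx (by rw [hcy]; exact hpp) w h2 hw h1
  have hxy : ⁅x, y⁆ = 1 := by
    apply hinter
    · exact ⟨y, rfl⟩
    · have : ⁅x, y⁆ = (⁅y, x⁆)⁻¹ := (commutatorElement_inv y x).symm
      rw [this]
      exact Wy.inv_mem ⟨x, rfl⟩
  have hxy' : x * y = y * x := commutatorElement_eq_one_iff_mul_comm.1 hxy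
  set Cx := centralizer ({x} : Set G) with hCx
  set Cy := centralizer ({y} : Set G) with hCy
  have hT : ∀ u ∈ Finset.univ.filter (fun u => u ∉ Cx ∧ u ∉ Cy), p < idx u := by
    intro u hu
    obtain ⟨h1, h2⟩ := (Finset.mem_filter.1 hu).2
    by_contra hle
    have hle' : idx u ≤ p := not_lt.1 hle
    have h3 : ⁅x, u⁆ ≠ 1 := fun h =>
      h1 (mem_centralizer_singleton_iff.2 (commutatorElement_eq_one_iff_mul_comm.1 h).symm)
    have h4 : ⁅y, u⁆ ≠ 1 := fun h =>
      h2 (mem_centralizer_singleton_iff.2 (commutatorElement_eq_one_iff_mul_comm.1 h).symm)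
    set R := (lam hc u).range with hR
    have hRcard : Nat.card R = idx u := card_range_lam hc u
    have h5 : ⁅x, u⁆ ∈ R := by
      rw [← commutatorElement_inv u x]
      exact R.inv_mem ⟨x, rfl⟩
    have h6 : ⁅y, u⁆ ∈ R := by
      rw [← commutatorElement_inv u y]
      exact R.inv_mem ⟨y, rfl⟩
    have h7 : Wx ≤ R := prime_card_le Wx R (by rw [hcx]; exact hpp) _ ⟨u, rfl⟩ h3 h5
    have h8 : Wy ≤ R := prime_card_le Wy R (by rw [hcy]; exact hpp) _ ⟨u, rfl⟩ h4 h6
    have h9 : Wx = R := eq_of_le_of_card_ge h7 (by rw [hRcard, hcx]; exact hle')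
    have h10 : Wy = R := eq_of_le_of_card_ge h8 (by rw [hRcard, hcy]; exact hle')
    exact hne (h9.trans h10.symm)
  have hkey := key_ineq hna hS _ hT
  rw [card_T] at hkey
  -- the chain of subgroups
  set K := KW hc Wx with hK
  have hxK : x ∈ K := fun g => ⟨g, rfl⟩
  have hyK : y ∉ K := by
    intro h
    have h1 : Wy ≤ Wx := by
      rintro _ ⟨g, rfl⟩
      exact h g
    exact hne (eq_of_le_of_card_ge h1 (by rw [hcx, hcy])).symm
  have hZK : center G ≤ K := by
    intro z hz g
    have : ⁅z, g⁆ = 1 := commutatorElement_eq_one_iff_mul_comm.2 (mem_center_iff.1 hz g).symm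
    rw [this]
    exact Wx.one_mem
  set D : Subgroup G := Cx ⊓ Cy with hD
  set E : Subgroup G := K ⊓ D with hE
  have hxD : x ∈ D := ⟨mem_centralizer_singleton_iff.2 rfl, mem_centralizer_singleton_iff.2 hxy'⟩
  have hyD : y ∈ D := ⟨mem_centralizer_singleton_iff.2 hxy'.symm, mem_centralizer_singleton_iff.2 rfl⟩
  have hZC : ∀ w : G, center G ≤ centralizer ({w} : Set G) := by
    intro w z hz
    exact mem_centralizer_singleton_iff.2 (mem_center_iff.1 hz w).symm
  have hZD : center G ≤ D := le_inf (hZC x) (hZC y)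
  have hZE : center G ≤ E := le_inf hZK hZD
  have hED : E ≤ D := inf_le_right
  have hxZ : x ∉ center G := by
    intro h
    have := (idx_eq_one_iff x).2 h
    rw [hx] at this
    exact hpp.one_lt.ne' this
  have hr1 : p ≤ (center G).relIndex E := by
    apply minFac_le_of_dvd' ((relIndex_dvd_card _ _).trans (card_subgroup_dvd_card _))
    intro h
    rw [relIndex_eq_one] at h
    exact hxZ (h ⟨hxK, hxD⟩)
  have hr2 : p ≤ E.relIndex D := by
    apply minFac_le_of_dvd' ((relIndex_dvd_card _ _).trans (card_subgroup_dvd_card _))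
    intro h
    rw [relIndex_eq_one] at h
    exact hyK (h hyD).1
  have hs1 := relIndex_mul_index hZE
  have hs2 := relIndex_mul_index hED
  have hn : Nat.card (center G) * (center G).index = Nat.card G := card_mul_index _
  have hnQ : (Nat.card G : ℚ) = Nat.card (center G) * ((center G).index : ℚ) := by
    exact_mod_cast hn.symm
  have hCxc : Nat.card Cx * p = Nat.card G := by
    rw [← hx]; exact card_mul_index _
  have hCyc : Nat.card Cy * p = Nat.card G := by
    rw [← hy]; exact card_mul_index _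
  have hCxQ : (Nat.card Cx : ℚ) * p = Nat.card G := by exact_mod_cast hCxc
  have hCyQ : (Nat.card Cy : ℚ) * p = Nat.card G := by exact_mod_cast hCyc
  have ha : (0 : ℚ) < Nat.card (center G) := by exact_mod_cast Nat.card_pos
  by_cases hCC : Cx = Cy
  · -- equal centralizers
    have hDCx : D = Cx := by rw [hD, ← hCC, inf_idem]
    have hDi : D.index = p := by rw [hDCx]; exact hx
    have hs : p * p * p ≤ (center G).index := by
      rw [← hs1, ← hs2, hDi]
      calc p * p * p = p * (p * p) := by ring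
        _ ≤ (center G).relIndex E * (E.relIndex D * p) :=
          Nat.mul_le_mul hr1 (Nat.mul_le_mul_right _ hr2)
    have hsQ : (p : ℚ) * p * p ≤ ((center G).index : ℚ) := by exact_mod_cast hs
    rw [hDCx, ← hCC] at hkey
    set a : ℚ := (Nat.card (center G) : ℚ)
    set P : ℚ := (p : ℚ)
    set S : ℚ := ((center G).index : ℚ)
    set n : ℚ := (Nat.card G : ℚ)
    set c : ℚ := (Nat.card Cx : ℚ)
    have h1 : n - c < a * (P ^ 2 - 1) := by linarith
    have h2 : n * (P - 1) < a * (P ^ 2 - 1) * P := by nlinarith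
    have h3 : a * (P * P * P) * (P - 1) ≤ n * (P - 1) := by
      rw [hnQ]
      exact mul_le_mul_of_nonneg_right (mul_le_mul_of_nonneg_left hsQ ha.le) (by linarith)
    have h4 : a * (P * P * P) * (P - 1) < a * (P ^ 2 - 1) * P := h3.trans_lt h2
    have h5 : (P * P * P) * (P - 1) < (P ^ 2 - 1) * P := by
      have : a * ((P * P * P) * (P - 1)) < a * ((P ^ 2 - 1) * P) := by
        calc _ = a * (P * P * P) * (P - 1) := by ring
          _ < a * (P ^ 2 - 1) * P := h4
          _ = _ := by ring
      exact lt_of_mul_lt_mul_left this ha.le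
    have h7 : 0 ≤ P * P - P - 1 := by nlinarith
    have h8 : 0 ≤ (P - 1) * P * (P * P - P - 1) :=
      mul_nonneg (mul_nonneg (by linarith) (by linarith)) h7
    nlinarith [h8, h5]
  · -- distinct centralizers
    have hr3 : p ≤ D.relIndex Cx := by
      apply minFac_le_of_dvd' ((relIndex_dvd_card _ _).trans (card_subgroup_dvd_card _))
      intro h
      rw [relIndex_eq_one] at h
      have h1 : Cx ≤ Cy := h.trans inf_le_right
      refine hCC (eq_of_le_of_card_ge h1 ?_)
      have h2 : Nat.card Cx = Nat.card Cy := by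
        have hp0 : 0 < p := hpp.pos
        exact Nat.eq_of_mul_eq_mul_right hp0 (hCxc.trans hCyc.symm)
      rw [h2]
    have hs3 := relIndex_mul_index (inf_le_left : D ≤ Cx)
    have hCxi : Cx.index = p := hx
    have hCyi : Cy.index = p := hy
    rw [hCxi] at hs3
    have hs : p * p * p * p ≤ (center G).index := by
      rw [← hs1, ← hs2, ← hs3]
      calc p * p * p * p = p * (p * (p * p)) := by ring
        _ ≤ (center G).relIndex E * (E.relIndex D * (D.relIndex Cx * p)) :=
          Nat.mul_le_mul hr1 (Nat.mul_le_mul hr2 (Nat.mul_le_mul_right _ hr3))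
    have hsQ : (p : ℚ) * p * p * p ≤ ((center G).index : ℚ) := by exact_mod_cast hs
    have hDi : D.index ≤ p * p := by
      have := index_inf_le (H := Cx) (K := Cy)
      rwa [hCxi, hCyi] at this
    have hDc : Nat.card G ≤ Nat.card D * (p * p) := by
      rw [← card_mul_index D]
      exact Nat.mul_le_mul_left _ hDi
    have hDQ : (Nat.card G : ℚ) ≤ Nat.card D * ((p : ℚ) * p) := by exact_mod_cast hDc
    set a : ℚ := (Nat.card (center G) : ℚ)
    set P : ℚ := (p : ℚ)
    set S : ℚ := ((center G).index : ℚ)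
    set n : ℚ := (Nat.card G : ℚ)
    set c : ℚ := (Nat.card Cx : ℚ)
    set c' : ℚ := (Nat.card Cy : ℚ)
    set d : ℚ := (Nat.card D : ℚ)
    have hP0 : 0 < P := by linarith
    have h1 : (n - c - c' + d) * (P * P) < a * (P ^ 2 - 1) * (P * P) :=
      mul_lt_mul_of_pos_right hkey (by positivity)
    have h2 : (n - c - c' + d) * (P * P) = n * P * P - (c * P) * P - (c' * P) * P + d * (P * P) := by
      ring
    rw [h2, hCxQ, hCyQ] at h1
    have h3 : n * (P - 1) ^ 2 < a * (P ^ 2 - 1) * (P * P) := by nlinarith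
    have h4 : a * (P * P * P * P) * (P - 1) ^ 2 ≤ n * (P - 1) ^ 2 := by
      rw [hnQ]
      exact mul_le_mul_of_nonneg_right (mul_le_mul_of_nonneg_left hsQ ha.le) (by positivity)
    have h5 : a * ((P * P * P * P) * (P - 1) ^ 2) < a * ((P ^ 2 - 1) * (P * P)) := by
      calc _ = a * (P * P * P * P) * (P - 1) ^ 2 := by ring
        _ < a * (P ^ 2 - 1) * (P * P) := h4.trans_lt h3
        _ = _ := by ring
    have h6 : (P * P * P * P) * (P - 1) ^ 2 < (P ^ 2 - 1) * (P * P) :=
      lt_of_mul_lt_mul_left h5 ha.le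
    have h7 : 1 ≤ (P - 1) ^ 2 := by nlinarith
    have h8 : (P * P * P * P) * 1 ≤ (P * P * P * P) * (P - 1) ^ 2 :=
      mul_le_mul_of_nonneg_left h7 (by positivity)
    nlinarith [mul_pos hP0 hP0]

theorem exists_W (hna : ¬ IsMulCommutative G)
    (hS : (Nat.card G : ℚ) / (Nat.card G).minFac < ∑ x : G, (1 : ℚ) / idx x) :
    ∃ W : Subgroup G, Nat.card W = (Nat.card G).minFac ∧ W ≤ center G ∧ ∀ u g : G, ⁅u, g⁆ ∈ W := by
  classical
  set p := (Nat.card G).minFac with hp
  have hpp : p.Prime := minFac_prime' hna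
  have hc := comm_central hna hS
  have hcl := closure_B_top hna hS
  have hex : ∃ x0 : G, idx x0 = p := by
    by_contra hno
    push Not at hno
    have h1 : closure {x : G | idx x ≤ p} ≤ center G := by
      rw [closure_le]
      intro x hx
      have h2 : idx x = 1 := by
        by_contra h3
        exact hno x (le_antisymm hx (minFac_le_of_dvd' (idx_dvd x) h3))
      exact (idx_eq_one_iff x).1 h2
    rw [hcl] at h1
    apply center_index_ne_one hna
    rw [index_eq_one]
    exact top_le_iff.1 h1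
  obtain ⟨x0, hx0⟩ := hex
  refine ⟨(lam hc x0).range, (card_range_lam hc x0).trans hx0, ?_, ?_⟩
  · rintro _ ⟨g, rfl⟩
    exact hc x0 g
  · have h1 : closure {x : G | idx x ≤ p} ≤ KW hc (lam hc x0).range := by
      rw [closure_le]
      intro x hx g
      by_cases h2 : idx x = 1
      · have h3 : ⁅x, g⁆ = 1 := commutatorElement_eq_one_iff_mul_comm.2
          (mem_center_iff.1 ((idx_eq_one_iff x).1 h2) g).symm
        rw [h3]
        exact one_mem _
      · have h3 : idx x = p := le_antisymm hx (minFac_le_of_dvd' (idx_dvd x) h2)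
        rw [← range_eq hna hS hc h3 hx0]
        exact ⟨g, rfl⟩
    rw [hcl] at h1
    intro u g
    exact h1 (mem_top u) g

end Key

end Struct

section Final
open Subgroup MulAction
open scoped commutatorElement

variable {G : Type*} [Group G] [Finite G]

theorem prime_card_le' (H K : Subgroup G) (hp : (Nat.card H).Prime) (w : G) (hwH : w ∈ H)
    (hw1 : w ≠ 1) (hwK : w ∈ K) : H ≤ K := by
  have := Fintype.ofFinite G
  exact prime_card_le H K hp w hwH hw1 hwK

theorem final_count [Fintype G] {p : ℕ} (hp : p.Prime) (C : Subgroup G) (hZC : center G ≤ C)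
    (hC : Nat.card C * p ≤ Nat.card G)
    (h1 : ∀ x : G, x ∉ center G → p ≤ Nat.card (orbit (MulAut G) x))
    (h2 : ∀ x : G, x ∉ C → 2 * p ≤ Nat.card (orbit (MulAut G) x))
    (h3 : 2 * p * Nat.card (center G) ≤ Nat.card G) :
    Nat.card (orbitRel.Quotient (MulAut G) G) * p ≤ Nat.card G := by
  classical
  have hP : (2 : ℚ) ≤ (p : ℚ) := by exact_mod_cast hp.two_le
  set P : ℚ := (p : ℚ) with hPdef
  have hP0 : 0 < P := by linarith
  let w : G → ℕ := fun x => if x ∈ center G then 1 else if x ∈ C then p else 2 * p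
  have hw : ∀ x, 0 < w x := by
    intro x
    simp only [w]
    split_ifs
    · exact one_pos
    · exact hp.pos
    · have := hp.pos; omega
  have hle : ∀ x, w x ≤ Nat.card (orbit (MulAut G) x) := by
    intro x
    simp only [w]
    split_ifs with h4 h5
    · have : Nonempty (orbit (MulAut G) x) := ⟨⟨x, mem_orbit_self x⟩⟩
      exact Nat.card_pos
    · exact h1 x h4
    · exact h2 x h5
  have hbd := card_orbits_le_sum (A := MulAut G) w hw hle
  have hterm : ∀ x : G, (1 : ℚ) / w x = 1 / (2 * P) + (if x ∈ C then 1 / (2 * P) else 0)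
      + (if x ∈ center G then 1 - 1 / P else 0) := by
    intro x
    simp only [w]
    by_cases h4 : x ∈ center G
    · have h5 : x ∈ C := hZC h4
      simp only [h4, h5, if_true]
      push_cast
      field_simp
      ring
    · by_cases h5 : x ∈ C
      · simp only [h4, h5, if_true, if_false]
        push_cast
        rw [← hPdef]
        field_simp
        ring
      · simp only [h4, h5, if_false]
        push_cast
        rw [← hPdef]
        ring
  have hsum : ∑ x : G, (1 : ℚ) / w x = (Nat.card G : ℚ) * (1 / (2 * P))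
      + (Nat.card C : ℚ) * (1 / (2 * P)) + (Nat.card (center G) : ℚ) * (1 - 1 / P) := by
    rw [Finset.sum_congr rfl (fun x _ => hterm x), Finset.sum_add_distrib, Finset.sum_add_distrib]
    have e1 : ∑ _x : G, (1 : ℚ) / (2 * P) = (Nat.card G : ℚ) * (1 / (2 * P)) := by
      rw [Finset.sum_const, Finset.card_univ, nsmul_eq_mul, Nat.card_eq_fintype_card]
    have e2 : ∑ x : G, (if x ∈ C then (1 : ℚ) / (2 * P) else 0)
        = (Nat.card C : ℚ) * (1 / (2 * P)) := by
      rw [Finset.sum_ite, Finset.sum_const_zero, add_zero, Finset.sum_const, nsmul_eq_mul,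
        card_filter_mem]
    have e3 : ∑ x : G, (if x ∈ center G then 1 - (1 : ℚ) / P else 0)
        = (Nat.card (center G) : ℚ) * (1 - 1 / P) := by
      rw [Finset.sum_ite, Finset.sum_const_zero, add_zero, Finset.sum_const, nsmul_eq_mul,
        card_filter_mem]
    rw [e1, e2, e3]
  rw [hsum] at hbd
  have hCQ : (Nat.card C : ℚ) * P ≤ Nat.card G := by rw [hPdef]; exact_mod_cast hC
  have h3Q : 2 * P * (Nat.card (center G) : ℚ) ≤ Nat.card G := by rw [hPdef]; exact_mod_cast h3
  set N : ℚ := (Nat.card (orbitRel.Quotient (MulAut G) G) : ℚ)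
  set n : ℚ := (Nat.card G : ℚ)
  set c : ℚ := (Nat.card C : ℚ)
  set a : ℚ := (Nat.card (center G) : ℚ)
  have h5 : N * P ≤ n := by
    have h6 : N * P ≤ (n * (1 / (2 * P)) + c * (1 / (2 * P)) + a * (1 - 1 / P)) * P :=
      mul_le_mul_of_nonneg_right hbd hP0.le
    have h7 : (n * (1 / (2 * P)) + c * (1 / (2 * P)) + a * (1 - 1 / P)) * P
        = n / 2 + c / 2 + a * (P - 1) := by
      field_simp
    rw [h7] at h6
    have h8 : (c + 2 * a * (P - 1)) * P ≤ n * P := by nlinarith
    have h9 : c + 2 * a * (P - 1) ≤ n := le_of_mul_le_mul_right h8 hP0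
    linarith
  have : ((Nat.card (orbitRel.Quotient (MulAut G) G) * p : ℕ) : ℚ) ≤ (Nat.card G : ℕ) := by
    push_cast
    exact h5
  exact_mod_cast this

variable {p : ℕ} (hp : p.Prime) {W : Subgroup G} (hWc : Nat.card W = p) (hWZ : W ≤ center G)
  (hW : ∀ u g : G, ⁅u, g⁆ ∈ W)

include hp hWc hWZ hW

theorem mem_W_pow (w : G) (hw : w ∈ W) : w ^ p = 1 := by
  have h := pow_card_eq_one' (x := (⟨w, hw⟩ : W))
  rw [hWc] at h
  simpa using congrArg Subtype.val h

theorem exists_comm_eq {x : G} (hx : x ∉ center G) (w : G) (hw : w ∈ W) :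
    ∃ g, ⁅x, g⁆ = w := by
  have hc : ∀ u v : G, ⁅u, v⁆ ∈ center G := fun u v => hWZ (hW u v)
  rw [mem_center_iff] at hx
  push Not at hx
  obtain ⟨g0, hg0⟩ := hx
  have h1 : ⁅x, g0⁆ ≠ 1 := fun h => hg0 (commutatorElement_eq_one_iff_mul_comm.1 h).symm
  have h2 : W ≤ (lam hc x).range :=
    prime_card_le' W _ (by rw [hWc]; exact hp) _ (hW x g0) h1 ⟨g0, rfl⟩
  obtain ⟨g, hg⟩ := h2 hw
  exact ⟨g, hg⟩

theorem mul_mem_orbit {x : G} (hx : x ∉ center G) (w : G) (hw : w ∈ W) :
    w * x ∈ orbit (MulAut G) x := by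
  obtain ⟨g, hg⟩ := exists_comm_eq hp hWc hWZ hW hx w⁻¹ (W.inv_mem hw)
  refine ⟨MulAut.conj g, ?_⟩
  show g * x * g⁻¹ = w * x
  have h1 : ⁅g, x⁆ = w := by
    rw [← commutatorElement_inv, hg, inv_inv]
  rw [← h1, commutatorElement_def]
  group

theorem p_le_orbit {x : G} (hx : x ∉ center G) : p ≤ Nat.card (orbit (MulAut G) x) := by
  rw [← hWc]
  let f : W → orbit (MulAut G) x := fun w => ⟨w * x, mul_mem_orbit hp hWc hWZ hW hx w w.2⟩
  have hf : Function.Injective f := by
    intro a b hab
    have : (a : G) * x = b * x := congrArg Subtype.val hab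
    exact Subtype.ext (mul_right_cancel this)
  exact Nat.card_le_card_of_injective f hf

theorem two_p_le_orbit {x : G} (hx : x ∉ center G) (α : MulAut G)
    (hα : ∀ w ∈ W, α x ≠ w * x) : 2 * p ≤ Nat.card (orbit (MulAut G) x) := by
  have hαx : α x ∉ center G := by
    intro h
    apply hx
    rw [mem_center_iff] at h ⊢
    intro g
    apply α.injective
    rw [map_mul, map_mul]
    exact h _
  have hmem : ∀ w ∈ W, w * α x ∈ orbit (MulAut G) x := by
    intro w hw
    obtain ⟨β, hβ⟩ := mul_mem_orbit hp hWc hWZ hW hαx w hw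
    refine ⟨β * α, ?_⟩
    show (β * α) • x = w * α x
    rw [mul_smul]
    exact hβ
  let f : W ⊕ W → orbit (MulAut G) x := fun s => match s with
    | Sum.inl w => ⟨w * x, mul_mem_orbit hp hWc hWZ hW hx w w.2⟩
    | Sum.inr w => ⟨w * α x, hmem w w.2⟩
  have hf : Function.Injective f := by
    rintro (a | a) (b | b) hab
    · have : (a : G) * x = b * x := congrArg Subtype.val hab
      exact congrArg Sum.inl (Subtype.ext (mul_right_cancel this))
    · exfalso
      have : (a : G) * x = b * α x := congrArg Subtype.val hab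
      apply hα ((b : G)⁻¹ * a) (W.mul_mem (W.inv_mem b.2) a.2)
      rw [mul_assoc, this]
      group
    · exfalso
      have : (a : G) * α x = b * x := congrArg Subtype.val hab
      apply hα ((a : G)⁻¹ * b) (W.mul_mem (W.inv_mem a.2) b.2)
      rw [mul_assoc, ← this]
      group
    · have : (a : G) * α x = b * α x := congrArg Subtype.val hab
      exact congrArg Sum.inr (Subtype.ext (mul_right_cancel this))
  have h := Nat.card_le_card_of_injective f hf
  rw [Nat.card_sum, hWc] at h
  omega

theorem pow_mem_center (x : G) : x ^ p ∈ center G := by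
  have hc : ∀ u v : G, ⁅u, v⁆ ∈ center G := fun u v => hWZ (hW u v)
  rw [mem_center_iff]
  intro g
  have h1 : ⁅x ^ p, g⁆ = 1 := by
    rw [comm_pow_left hc]
    exact mem_W_pow hp hWc hWZ hW _ (hW x g)
  exact (commutatorElement_eq_one_iff_mul_comm.1 h1).symm

theorem exists_central_aut {x : G} (hx : x ∉ center G) {z : G} (hz : z ∈ center G)
    (hzp : z ^ p = 1) : ∃ α : MulAut G, α x = x * z := by
  have hc : ∀ u v : G, ⁅u, v⁆ ∈ center G := fun u v => hWZ (hW u v)
  have : Fact p.Prime := ⟨hp⟩
  rw [mem_center_iff] at hx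
  push Not at hx
  obtain ⟨g0, hg0⟩ := hx
  have hc1 : ⁅x, g0⁆ ≠ 1 := fun h => hg0 (commutatorElement_eq_one_iff_mul_comm.1 h).symm
  let c' : W := ⟨⁅x, g0⁆, hW x g0⟩
  have hc'1 : c' ≠ 1 := fun h => hc1 (congrArg Subtype.val h)
  have hc'p : c' ^ p = 1 := Subtype.ext (by simpa using mem_W_pow hp hWc hWZ hW _ (hW x g0))
  have hord : orderOf c' = p := orderOf_eq_prime hc'p hc'1
  have hgen : ∀ w : W, w ∈ Subgroup.zpowers c' := by
    intro w
    have h1 : W ≤ (Subgroup.zpowers (⁅x, g0⁆ : G)) :=
      prime_card_le' W _ (by rw [hWc]; exact hp) _ (hW x g0) hc1 (mem_zpowers _)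
    obtain ⟨k, hk⟩ := h1 w.2
    exact ⟨k, Subtype.ext (by simpa [c'] using hk)⟩
  let z' : center G := ⟨z, hz⟩
  have hz'p : orderOf z' ∣ orderOf c' := by
    rw [hord]
    apply orderOf_dvd_of_pow_eq_one
    exact Subtype.ext (by simpa [z'] using hzp)
  let ψ : W →* center G := monoidHomOfForallMemZpowers hgen hz'p
  have hψ : ψ c' = z' := monoidHomOfForallMemZpowers_apply_gen hgen hz'p
  let μ : G →* W :=
    { toFun := fun u => ⟨⁅u, g0⁆, hW u g0⟩
      map_one' := Subtype.ext (commutatorElement_one_left g0)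
      map_mul' := fun a b => Subtype.ext (comm_mul_left hc a b g0) }
  let f : G →* G := MonoidHom.mk' (fun u => u * (ψ (μ u) : G)) (by
    intro a b
    rw [map_mul, map_mul]
    have h1 : ((ψ (μ a) * ψ (μ b) : center G) : G) = (ψ (μ a) : G) * ψ (μ b) := rfl
    rw [h1]
    have h2 : (ψ (μ a) : G) * b = b * ψ (μ a) := (mem_center_iff.1 (ψ (μ a)).2 b).symm
    calc a * b * ((ψ (μ a) : G) * ψ (μ b)) = a * (b * ψ (μ a)) * ψ (μ b) := by group
      _ = a * ((ψ (μ a) : G) * b) * ψ (μ b) := by rw [h2]
      _ = _ := by group)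
  have hfapp : ∀ u, f u = u * (ψ (μ u) : G) := fun u => rfl
  have hinj : Function.Injective f := by
    rw [injective_iff_map_eq_one]
    intro u hu
    rw [hfapp] at hu
    have h1 : u = (ψ (μ u) : G)⁻¹ := eq_inv_of_mul_eq_one_left hu
    have h2 : u ∈ center G := by
      rw [h1]
      exact inv_mem (ψ (μ u)).2
    have h3 : μ u = 1 := Subtype.ext
      (commutatorElement_eq_one_iff_mul_comm.2 (mem_center_iff.1 h2 g0).symm)
    rw [h3, map_one] at h1
    simpa using h1
  refine ⟨MulEquiv.ofBijective f ⟨hinj, Finite.surjective_of_injective hinj⟩, ?_⟩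
  show f x = x * z
  rw [hfapp]
  have h3 : μ x = c' := rfl
  rw [h3, hψ]

theorem final_caseA [Fintype G]
    (hs : p ^ 2 ≤ (center G).index)
    (hA : ∃ z ∈ center G, z ^ p = 1 ∧ z ∉ W) :
    Nat.card (orbitRel.Quotient (MulAut G) G) * p ≤ Nat.card G := by
  obtain ⟨z, hz, hzp, hzW⟩ := hA
  refine final_count hp (center G) le_rfl ?_ ?_ ?_ ?_
  · rw [← card_mul_index (center G)]
    apply Nat.mul_le_mul_left
    have := hp.two_le
    nlinarith
  · intro x hx
    exact p_le_orbit hp hWc hWZ hW hx
  · intro x hx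
    obtain ⟨α, hα⟩ := exists_central_aut hp hWc hWZ hW hx hz hzp
    refine two_p_le_orbit hp hWc hWZ hW hx α ?_
    intro w hw h
    rw [hα, ← mem_center_iff.1 (hWZ hw) x] at h
    exact hzW (mul_left_cancel h ▸ hw)
  · rw [← card_mul_index (center G), mul_comm]
    apply Nat.mul_le_mul_left
    have := hp.two_le
    nlinarith

end Final

section Power
open Subgroup
open scoped commutatorElement

variable {G : Type*} [Group G] [Finite G]

theorem mul_pow_formula (hc : ∀ u v : G, ⁅u, v⁆ ∈ center G) (x y : G) (n : ℕ) :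
    (x * y) ^ n = x ^ n * y ^ n * ⁅y, x⁆ ^ (n.choose 2) := by
  induction n with
  | zero => simp
  | succ n ih =>
    have h1 : y ^ n * x = ⁅y, x⁆ ^ n * (x * y ^ n) := by
      have : ⁅y ^ n, x⁆ = ⁅y, x⁆ ^ n := comm_pow_left hc y x n
      rw [← this, commutatorElement_def]
      group
    have hcent : ∀ (k : ℕ) (g : G), g * ⁅y, x⁆ ^ k = ⁅y, x⁆ ^ k * g := fun k g =>
      mem_center_iff.1 (pow_mem (hc y x) k) g
    have h2 : (n + 1).choose 2 = n + n.choose 2 := by
      rw [Nat.choose_succ_succ' n 1, Nat.choose_one_right]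
    rw [pow_succ, ih, h2, pow_add ⁅y, x⁆, pow_succ x, pow_succ y]
    calc x ^ n * y ^ n * ⁅y, x⁆ ^ n.choose 2 * (x * y)
        = x ^ n * ((y ^ n * x) * y) * ⁅y, x⁆ ^ n.choose 2 := by
          rw [mul_assoc (x ^ n * y ^ n), hcent _ (x * y) |>.symm]
          group
      _ = x ^ n * ((⁅y, x⁆ ^ n * (x * y ^ n)) * y) * ⁅y, x⁆ ^ n.choose 2 := by rw [h1]
      _ = ⁅y, x⁆ ^ n * (x ^ n * (x * y ^ n * y)) * ⁅y, x⁆ ^ n.choose 2 := by
          have h3 : x ^ n * (⁅y, x⁆ ^ n * (x * y ^ n))
              = ⁅y, x⁆ ^ n * (x ^ n * (x * y ^ n)) := by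
            rw [← mul_assoc, hcent n (x ^ n), mul_assoc]
          rw [← mul_assoc (x ^ n) (⁅y, x⁆ ^ n * (x * y ^ n)) y, h3]
          group
      _ = x ^ n * x * (y ^ n * y) * (⁅y, x⁆ ^ n * ⁅y, x⁆ ^ n.choose 2) := by
          rw [← hcent n (x ^ n * (x * y ^ n * y))]
          group

theorem choose_two_add (a b : ℕ) : (a + b).choose 2 = a.choose 2 + b.choose 2 + a * b := by
  induction b with
  | zero => simp
  | succ b ih =>
    have h1 : (a + (b + 1)).choose 2 = (a + b) + (a + b).choose 2 := by
      rw [← add_assoc, Nat.choose_succ_succ' (a + b) 1, Nat.choose_one_right]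
    have h2 : (b + 1).choose 2 = b + b.choose 2 := by
      rw [Nat.choose_succ_succ' b 1, Nat.choose_one_right]
    rw [h1, h2, ih]
    ring

end Power

section Tau
open Subgroup MulAction
open scoped commutatorElement

variable {G : Type*} [Group G] [Finite G]
variable {p : ℕ} (hp : p.Prime) {W : Subgroup G} (hWc : Nat.card W = p) (hWZ : W ≤ center G)
  (hW : ∀ u g : G, ⁅u, g⁆ ∈ W)

include hp hWc hWZ hW

theorem exists_tau {y c : G} (hy : y ∉ center G) (hcW : c ∈ W) (hc1 : c ≠ 1)
    (hyc : y ^ p * c ^ (p.choose 2) = 1) :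
    ∃ α : MulAut G, ∀ u, u ∉ centralizer ({y} : Set G) → ∀ w ∈ W, α u ≠ w * u := by
  classical
  have hcomm : ∀ u v : G, ⁅u, v⁆ ∈ center G := fun u v => hWZ (hW u v)
  have : Fact p.Prime := ⟨hp⟩
  have hcz : ∀ (m : ℕ) (g : G), g * c ^ m = c ^ m * g := fun m g =>
    mem_center_iff.1 (pow_mem (hWZ hcW) m) g
  have hcp : c ^ p = 1 := mem_W_pow hp hWc hWZ hW c hcW
  have hord : orderOf c = p := orderOf_eq_prime hcp hc1
  have hgen : W ≤ Subgroup.zpowers c :=
    prime_card_le' W _ (by rw [hWc]; exact hp) _ hcW hc1 (mem_zpowers _)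
  have hexk : ∀ h : G, ∃ k : ℕ, ⁅y, h⁆ = c ^ k := by
    intro h
    have h1 := hgen (hW y h)
    have hfin : IsOfFinOrder c := isOfFinOrder_of_finite c
    rw [← hfin.mem_powers_iff_mem_zpowers] at h1
    obtain ⟨k, hk⟩ := h1
    exact ⟨k, hk.symm⟩
  choose k hk using hexk
  let Θ : ℕ → G := fun n => y ^ n * c ^ (n.choose 2)
  have hΘdef : ∀ n, Θ n = y ^ n * c ^ (n.choose 2) := fun n => rfl
  have hΘadd : ∀ a b, Θ (a + b) = Θ a * Θ b * c ^ (a * b) := by
    intro a b
    simp only [hΘdef]
    rw [choose_two_add, pow_add, pow_add, pow_add]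
    calc y ^ a * y ^ b * (c ^ a.choose 2 * c ^ b.choose 2 * c ^ (a * b))
        = y ^ a * (y ^ b * c ^ a.choose 2) * (c ^ b.choose 2 * c ^ (a * b)) := by group
      _ = y ^ a * (c ^ a.choose 2 * y ^ b) * (c ^ b.choose 2 * c ^ (a * b)) := by rw [hcz]
      _ = _ := by group
  have hΘp : Θ p = 1 := hyc
  have hcpm : ∀ m, c ^ (p * m) = 1 := fun m => by rw [pow_mul, hcp, one_pow]
  have hΘpj : ∀ j, Θ (p * j) = 1 := by
    intro j
    induction j with
    | zero => simp [hΘdef]
    | succ j ih =>
      rw [Nat.mul_succ, hΘadd, ih, hΘp, mul_comm (p * j) p, hcpm]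
      simp
  have hΘadd' : ∀ n j, Θ (n + p * j) = Θ n := by
    intro n j
    have h1 : n * (p * j) = p * (n * j) := by ring
    rw [hΘadd, hΘpj, mul_one, h1, hcpm, mul_one]
  have hper : ∀ a b, a ≡ b [MOD p] → Θ a = Θ b := by
    have hle : ∀ a b, a ≤ b → a ≡ b [MOD p] → Θ a = Θ b := by
      intro a b hab h
      obtain ⟨j, hj⟩ := (Nat.modEq_iff_dvd' hab).1 h
      have : b = a + p * j := by omega
      rw [this, hΘadd']
    intro a b h
    rcases le_total a b with hab | hab
    · exact hle a b hab h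
    · exact (hle b a hab h.symm).symm
  have hkadd : ∀ g h, k (g * h) ≡ k g + k h [MOD p] := by
    intro g h
    rw [← hord, ← pow_eq_pow_iff_modEq, ← hk, pow_add, ← hk, ← hk]
    exact comm_mul_right hcomm y g h
  have hyh1 : ∀ h, y * h = c ^ k h * h * y := by
    intro h
    rw [← hk, commutatorElement_def]
    group
  have hyh : ∀ a h, y ^ a * h = c ^ (a * k h) * h * y ^ a := by
    intro a h
    induction a with
    | zero => simp
    | succ a ih =>
      rw [pow_succ', mul_assoc, ih, Nat.succ_mul, pow_add]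
      calc y * (c ^ (a * k h) * h * y ^ a) = (y * c ^ (a * k h)) * (h * y ^ a) := by group
        _ = (c ^ (a * k h) * y) * (h * y ^ a) := by rw [hcz]
        _ = c ^ (a * k h) * (y * h) * y ^ a := by group
        _ = c ^ (a * k h) * (c ^ k h * h * y) * y ^ a := by rw [hyh1]
        _ = _ := by group
  have hΘh : ∀ a h, Θ a * h = c ^ (a * k h) * h * Θ a := by
    intro a h
    simp only [hΘdef]
    calc y ^ a * c ^ a.choose 2 * h = y ^ a * (c ^ a.choose 2 * h) := by group
      _ = y ^ a * (h * c ^ a.choose 2) := by rw [hcz]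
      _ = (y ^ a * h) * c ^ a.choose 2 := by group
      _ = c ^ (a * k h) * h * y ^ a * c ^ a.choose 2 := by rw [hyh]
      _ = _ := by group
  let f : G →* G := MonoidHom.mk' (fun u => u * Θ (k u)) (by
    intro a b
    rw [hper _ _ (hkadd a b), hΘadd]
    calc a * b * (Θ (k a) * Θ (k b) * c ^ (k a * k b))
        = a * (b * Θ (k a) * Θ (k b)) * c ^ (k a * k b) := by group
      _ = a * (c ^ (k a * k b) * (b * Θ (k a) * Θ (k b))) := by
          rw [mul_assoc a, hcz]
      _ = a * (c ^ (k a * k b) * b * Θ (k a)) * Θ (k b) := by group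
      _ = a * (Θ (k a) * b) * Θ (k b) := by rw [hΘh]
      _ = a * Θ (k a) * (b * Θ (k b)) := by group)
  have hfapp : ∀ u, f u = u * Θ (k u) := fun u => rfl
  have hΘcomm : ∀ n, Θ n * y = y * Θ n := by
    intro n
    simp only [hΘdef]
    calc y ^ n * c ^ n.choose 2 * y = y ^ n * (y * c ^ n.choose 2) := by rw [mul_assoc, hcz]
      _ = y ^ n * y * c ^ n.choose 2 := by group
      _ = y * y ^ n * c ^ n.choose 2 := by rw [← pow_succ, ← pow_succ']
      _ = _ := by group
  have hk0 : ∀ u, u * y = y * u → k u ≡ 0 [MOD p] := by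
    intro u hu
    rw [← hord, ← pow_eq_pow_iff_modEq, pow_zero, ← hk]
    exact commutatorElement_eq_one_iff_mul_comm.2 hu.symm
  have hΘ0 : Θ 0 = 1 := by simp [hΘdef]
  have hinj : Function.Injective f := by
    rw [injective_iff_map_eq_one]
    intro u hu
    rw [hfapp] at hu
    have h1 : u = (Θ (k u))⁻¹ := eq_inv_of_mul_eq_one_left hu
    have h2 : u * y = y * u := by
      rw [h1]
      have := hΘcomm (k u)
      calc (Θ (k u))⁻¹ * y = (Θ (k u))⁻¹ * (y * Θ (k u)) * (Θ (k u))⁻¹ := by group
        _ = (Θ (k u))⁻¹ * (Θ (k u) * y) * (Θ (k u))⁻¹ := by rw [this]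
        _ = _ := by group
    rw [hper _ _ (hk0 u h2), hΘ0, mul_one] at hu
    exact hu
  refine ⟨MulEquiv.ofBijective f ⟨hinj, Finite.surjective_of_injective hinj⟩, ?_⟩
  intro u hu w hw hcon
  have hcon' : f u = w * u := hcon
  rw [hfapp] at hcon'
  have hwu : w * u = u * w := (mem_center_iff.1 (hWZ hw) u).symm
  rw [hwu] at hcon'
  have h1 : Θ (k u) = w := mul_left_cancel hcon'
  -- `y ^ k u` is central
  have h2 : y ^ k u ∈ center G := by
    have h3 : y ^ k u = w * (c ^ (k u).choose 2)⁻¹ := by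
      rw [← h1, hΘdef]
      group
    rw [h3]
    exact mul_mem (hWZ hw) (inv_mem (pow_mem (hWZ hcW) _))
  have h4 : y ^ p ∈ center G := pow_mem_center hp hWc hWZ hW y
  have h5 : ¬ p ∣ k u := by
    intro hd
    apply hu
    refine mem_centralizer_singleton_iff.2 ?_
    have h6 : ⁅y, u⁆ = 1 := by
      rw [hk]
      obtain ⟨j, hj⟩ := hd
      rw [hj, hcpm]
    exact (commutatorElement_eq_one_iff_mul_comm.1 h6).symm
  have hcop : Nat.Coprime (k u) p := ((Nat.Prime.coprime_iff_not_dvd hp).2 h5).symm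
  have h6 : y ∈ center G := by
    have h7 : y ^ (Nat.gcd (k u) p : ℤ) = (y ^ k u) ^ (Nat.gcdA (k u) p) * (y ^ p) ^ (Nat.gcdB (k u) p) := by
      rw [Nat.gcd_eq_gcd_ab, zpow_add, zpow_mul, zpow_mul, zpow_natCast, zpow_natCast]
    rw [hcop, Nat.cast_one, zpow_one] at h7
    rw [h7]
    exact mul_mem (zpow_mem h2 _) (zpow_mem h4 _)
  exact hy h6

theorem exists_y_odd (hodd : p ≠ 2) (hs : p ^ 2 ≤ (center G).index)
    (hB : ∀ z ∈ center G, z ^ p = 1 → z ∈ W) :
    ∃ y c : G, y ∉ center G ∧ c ∈ W ∧ c ≠ 1 ∧ y ^ p * c ^ (p.choose 2) = 1 := by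
  classical
  have hcomm : ∀ u v : G, ⁅u, v⁆ ∈ center G := fun u v => hWZ (hW u v)
  have h2p : 2 < p := lt_of_le_of_ne hp.two_le (Ne.symm hodd)
  have hdvd : p ∣ p.choose 2 := hp.dvd_choose_self (by norm_num) h2p
  have hone : ∀ c ∈ W, c ^ (p.choose 2) = 1 := by
    intro c hc
    obtain ⟨j, hj⟩ := hdvd
    rw [hj, pow_mul, mem_W_pow hp hWc hWZ hW c hc, one_pow]
  let π : G →* G := MonoidHom.mk' (fun u => u ^ p) (by
    intro a b
    rw [mul_pow_formula hcomm, hone _ (hW _ _), mul_one])
  have hπ : ∀ u, π u = u ^ p := fun u => rfl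
  have hex : ∃ y, y ∈ π.ker ∧ y ∉ center G := by
    by_contra hno
    push Not at hno
    have h1 : π.ker ≤ W := fun u hu => hB u (hno u hu) (MonoidHom.mem_ker.1 hu)
    have h2 : Nat.card π.ker ≤ p := by
      rw [← hWc]; exact card_le_of_le h1
    have h3 : Nat.card π.range ≤ Nat.card (center G) := by
      apply card_le_of_le
      rintro _ ⟨u, rfl⟩
      exact pow_mem_center hp hWc hWZ hW u
    have h4 : Nat.card π.ker * Nat.card π.range = Nat.card G := by
      rw [← index_ker]; exact card_mul_index _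
    have h5 : Nat.card (center G) * (center G).index = Nat.card G := card_mul_index _
    have h6 : Nat.card G ≤ p * Nat.card (center G) := by
      rw [← h4]; exact Nat.mul_le_mul h2 h3
    have ha : 0 < Nat.card (center G) := Nat.card_pos
    have hp2 := hp.two_le
    have h7 : Nat.card (center G) * p ^ 2 ≤ Nat.card (center G) * p := by
      calc Nat.card (center G) * p ^ 2 ≤ Nat.card (center G) * (center G).index :=
            Nat.mul_le_mul_left _ hs
        _ = Nat.card G := h5
        _ ≤ p * Nat.card (center G) := h6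
        _ = Nat.card (center G) * p := mul_comm _ _
    have h8 : p ^ 2 ≤ p := Nat.le_of_mul_le_mul_left h7 ha
    nlinarith
  obtain ⟨y, hy1, hy2⟩ := hex
  have hy3 : y ^ p = 1 := MonoidHom.mem_ker.1 hy1
  have hy2' := hy2
  rw [mem_center_iff] at hy2'
  push Not at hy2'
  obtain ⟨g, hg⟩ := hy2'
  refine ⟨y, ⁅y, g⁆, hy2, hW y g, ?_, ?_⟩
  · exact fun h => hg (commutatorElement_eq_one_iff_mul_comm.1 h).symm
  · rw [hy3, hone _ (hW _ _), one_mul]

theorem exists_y_two (h2 : p = 2) (hB : ∀ z ∈ center G, z ^ p = 1 → z ∈ W)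
    (hna : ¬ IsMulCommutative G) :
    ∃ y c : G, y ∉ center G ∧ c ∈ W ∧ c ≠ 1 ∧ y ^ p * c ^ (p.choose 2) = 1 := by
  classical
  subst h2
  have hcomm : ∀ u v : G, ⁅u, v⁆ ∈ center G := fun u v => hWZ (hW u v)
  have hnc : ¬ ∀ a b : G, a * b = b * a := comm_of_not hna
  push Not at hnc
  obtain ⟨a, b, hab⟩ := hnc
  set c : G := ⁅b, a⁆ with hcdef
  have hc1 : c ≠ 1 := fun h => hab (commutatorElement_eq_one_iff_mul_comm.1 h).symm
  have hcW : c ∈ W := hW b a
  have hc2 : c ^ 2 = 1 := mem_W_pow hp hWc hWZ hW c hcW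
  have hcc : c * c = 1 := by rw [← pow_two]; exact hc2
  have hcZ : c ∈ center G := hWZ hcW
  -- the squares in the centre have index at most two
  let sq : center G →* center G := MonoidHom.mk' (fun z => z ^ 2) (by
    intro u v
    have huv : Commute u v := Subtype.ext (mem_center_iff.1 u.2 (v : G)).symm
    exact huv.mul_pow 2)
  have hkerW : ∀ z : center G, z ∈ sq.ker → (z : G) ∈ W := by
    intro z hz
    apply hB z z.2
    have : z ^ 2 = 1 := MonoidHom.mem_ker.1 hz
    exact_mod_cast congrArg Subtype.val this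
  have hkercard : Nat.card sq.ker ≤ 2 := by
    rw [← hWc]
    let e : sq.ker → W := fun z => ⟨z.1.1, hkerW z.1 z.2⟩
    have he : Function.Injective e := by
      intro u v huv
      exact Subtype.ext (Subtype.ext (congrArg (fun w : W => (w : G)) huv))
    exact Nat.card_le_card_of_injective e he
  have hind : sq.range.index = Nat.card sq.ker := by
    have h1 := card_mul_index sq.range
    have h2 := card_mul_index sq.ker
    rw [index_ker] at h2
    have h3 : 0 < Nat.card sq.range := Nat.card_pos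
    apply Nat.eq_of_mul_eq_mul_left h3
    rw [h1, ← h2, mul_comm]
  have htri : ∀ α β : center G, α ∈ sq.range ∨ β ∈ sq.range ∨ α * β ∈ sq.range := by
    intro α β
    have hcases : sq.range.index = 1 ∨ sq.range.index = 2 := by
      have h0 : sq.range.index ≠ 0 := index_ne_zero_of_finite
      rw [hind] at h0 ⊢
      omega
    rcases hcases with h | h
    · left
      rw [index_eq_one.1 h]
      trivial
    · by_cases h1 : α ∈ sq.range
      · exact Or.inl h1
      · by_cases h3 : β ∈ sq.range
        · exact Or.inr (Or.inl h3)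
        · right; right
          rw [mul_mem_iff_of_index_two h]
          exact ⟨fun h4 => absurd h4 h1, fun h4 => absurd h4 h3⟩
  have ha2 : a ^ 2 ∈ center G := pow_mem_center hp hWc hWZ hW a
  have hb2 : b ^ 2 ∈ center G := pow_mem_center hp hWc hWZ hW b
  have haZ : a ∉ center G := fun h => hab (mem_center_iff.1 h b).symm
  have hbZ : b ∉ center G := fun h => hab (mem_center_iff.1 h a)
  have hchoose : (2 : ℕ).choose 2 = 1 := by norm_num
  -- a general construction of the element
  have hmk : ∀ (u : G) (t : center G), u ∉ center G → u ^ 2 = c * (t : G) ^ 2 →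
      ∃ y d : G, y ∉ center G ∧ d ∈ W ∧ d ≠ 1 ∧ y ^ 2 * d ^ ((2 : ℕ).choose 2) = 1 := by
    intro u t hu h
    refine ⟨u * (t : G)⁻¹, c, ?_, hcW, hc1, ?_⟩
    · intro hh
      apply hu
      have : u = u * (t : G)⁻¹ * t := by group
      rw [this]
      exact mul_mem hh t.2
    · rw [hchoose, pow_one]
      have h1 : (t : G)⁻¹ * u = u * (t : G)⁻¹ := by
        exact (mem_center_iff.1 (inv_mem t.2) u).symm
      have h2 : (u * (t : G)⁻¹) ^ 2 = u ^ 2 * ((t : G)⁻¹) ^ 2 := by
        rw [pow_two, pow_two, pow_two]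
        calc u * (t : G)⁻¹ * (u * (t : G)⁻¹) = u * ((t : G)⁻¹ * u) * (t : G)⁻¹ := by group
          _ = u * (u * (t : G)⁻¹) * (t : G)⁻¹ := by rw [h1]
          _ = _ := by group
      rw [h2, h]
      have h3 : (t : G) ^ 2 * ((t : G)⁻¹) ^ 2 = 1 := by
        rw [inv_pow, mul_inv_cancel]
      rw [mul_assoc c, h3, mul_one, hcc]
  let α : center G := ⟨a ^ 2 * c, mul_mem ha2 hcZ⟩
  let β : center G := ⟨b ^ 2 * c, mul_mem hb2 hcZ⟩
  rcases htri α β with h | h | h
  · obtain ⟨t, ht⟩ := h
    refine hmk a t haZ ?_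
    have h1 : (t : G) ^ 2 = a ^ 2 * c := by
      have := congrArg Subtype.val ht
      simpa [sq, α] using this
    rw [h1, ← mul_assoc, ← mem_center_iff.1 hcZ (a ^ 2), mul_assoc, hcc, mul_one]
  · obtain ⟨t, ht⟩ := h
    refine hmk b t hbZ ?_
    have h1 : (t : G) ^ 2 = b ^ 2 * c := by
      have := congrArg Subtype.val ht
      simpa [sq, β] using this
    rw [h1, ← mul_assoc, ← mem_center_iff.1 hcZ (b ^ 2), mul_assoc, hcc, mul_one]
  · obtain ⟨t, ht⟩ := h
    have h1 : (t : G) ^ 2 = a ^ 2 * b ^ 2 := by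
      have h2 : (t : G) ^ 2 = a ^ 2 * c * (b ^ 2 * c) := by
        have := congrArg Subtype.val ht
        simpa [sq, α, β] using this
      rw [h2]
      calc a ^ 2 * c * (b ^ 2 * c) = a ^ 2 * (c * b ^ 2) * c := by group
        _ = a ^ 2 * (b ^ 2 * c) * c := by rw [mem_center_iff.1 hcZ (b ^ 2)]
        _ = a ^ 2 * b ^ 2 * (c * c) := by group
        _ = _ := by rw [hcc, mul_one]
    have habZ : a * b ∉ center G := by
      intro hh
      have h3 := mem_center_iff.1 hh a
      apply hab
      exact mul_left_cancel (a := a) (by rw [h3, mul_assoc])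
    refine hmk (a * b) t habZ ?_
    rw [mul_pow_formula hcomm, hchoose, pow_one, h1]
    exact mem_center_iff.1 hcZ _

theorem final_caseB [Fintype G] (hs : p ^ 2 ≤ (center G).index)
    (hB : ∀ z ∈ center G, z ^ p = 1 → z ∈ W) (hna : ¬ IsMulCommutative G) :
    Nat.card (orbitRel.Quotient (MulAut G) G) * p ≤ Nat.card G := by
  obtain ⟨y, c, hy, hcW, hc1, hyc⟩ : ∃ y c : G, y ∉ center G ∧ c ∈ W ∧ c ≠ 1 ∧
      y ^ p * c ^ (p.choose 2) = 1 := by
    by_cases h2 : p = 2
    · exact exists_y_two hp hWc hWZ hW h2 hB hna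
    · exact exists_y_odd hp hWc hWZ hW h2 hs hB
  obtain ⟨α, hα⟩ := exists_tau hp hWc hWZ hW hy hcW hc1 hyc
  have hcomm : ∀ u v : G, ⁅u, v⁆ ∈ center G := fun u v => hWZ (hW u v)
  have hZC : center G ≤ centralizer ({y} : Set G) := by
    intro z hz
    exact mem_centralizer_singleton_iff.2 (mem_center_iff.1 hz y).symm
  refine final_count hp (centralizer ({y} : Set G)) hZC ?_ ?_ ?_ ?_
  · have h1 : (centralizer ({y} : Set G)).index = p := by
      have h2 : Nat.card (lam hcomm y).range = idx y := card_range_lam hcomm y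
      have h3 : (lam hcomm y).range ≤ W := by
        rintro _ ⟨g, rfl⟩
        exact hW y g
      have h4 : Nat.card (lam hcomm y).range ∣ p := by
        rw [← hWc]; exact card_dvd_of_le h3
      rcases (Nat.dvd_prime hp).1 h4 with h5 | h5
      · exfalso
        apply hy
        rw [h2] at h5
        exact (idx_eq_one_iff y).1 h5
      · rw [← h5, h2]
    rw [← card_mul_index (centralizer ({y} : Set G)), h1]
  · intro x hx
    exact p_le_orbit hp hWc hWZ hW hx
  · intro x hx
    have hxZ : x ∉ center G := fun h => hx (hZC h)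
    exact two_p_le_orbit hp hWc hWZ hW hxZ α (hα x hx)
  · rw [← card_mul_index (center G), mul_comm]
    apply Nat.mul_le_mul_left
    have := hp.two_le
    nlinarith

end Tau


/-- Let G be a finite non-abelian group and p the least prime dividing its order. Then the automorphism group of G has at most #G/p orbits on G. -/
theorem result {G : Type*} [Group G] [Finite G] (hna : ¬ IsMulCommutative G) :
    Nat.card (MulAction.orbitRel.Quotient (MulAut G) G) ≤ Nat.card G / (Nat.card G).minFac := by
  classical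
  have := Fintype.ofFinite G
  set p := (Nat.card G).minFac with hpdef
  have hp : p.Prime := minFac_prime' hna
  rw [Nat.le_div_iff_mul_le hp.pos]
  by_cases hS : (Nat.card G : ℚ) / p < ∑ x : G, (1 : ℚ) / idx x
  · obtain ⟨W, hWc, hWZ, hW⟩ := exists_W hna hS
    have hs : p ^ 2 ≤ (Subgroup.center G).index := (center_index_bound hna).2
    by_cases hA : ∃ z ∈ Subgroup.center G, z ^ p = 1 ∧ z ∉ W
    · exact final_caseA hp hWc hWZ hW hs hA
    · push Not at hA
      exact final_caseB hp hWc hWZ hW hs hA hna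
  · push Not at hS
    have hw : ∀ x : G, 0 < idx x := fun x =>
      Nat.pos_of_ne_zero Subgroup.index_ne_zero_of_finite
    have h1 := card_orbits_le_sum (A := MulAut G) (X := G) idx hw idx_le_orbit
    have h2 : (Nat.card (MulAction.orbitRel.Quotient (MulAut G) G) : ℚ) ≤ (Nat.card G : ℚ) / p :=
      h1.trans hS
    have hP : (0 : ℚ) < p := by exact_mod_cast hp.pos
    have h3 : (Nat.card (MulAction.orbitRel.Quotient (MulAut G) G) : ℚ) * p ≤ Nat.card G := by
      rwa [← le_div_iff₀ hP]
    exact_mod_cast h3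

end Cfsg.Agent.S4067
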