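import Mathlib
import Cfsg.Statements.S4068
import Cfsg.Agent.Lib.BurnsidePQ
import Cfsg.Agent.Lib.ClassicalSmall

set_option autoImplicit false
open Cfsg

namespace Cfsg.Agent.S4068

section Tools

lemma dcount {α β : Type*} [Finite α] [Finite β] (R : α → β → Prop) (c d : ℕ)
    (h1 : ∀ a, Nat.card {b // R a b} = c) (h2 : ∀ b, Nat.card {a // R a b} = d) :
    Nat.card α * c = Nat.card β * d := by
  classical
  haveI := Fintype.ofFinite α
  haveI := Fintype.ofFinite β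
  have key := Finset.sum_card_bipartiteAbove_eq_sum_card_bipartiteBelow (s := (Finset.univ : Finset α))
    (t := (Finset.univ : Finset β)) R
  have e1 : ∀ a ∈ (Finset.univ : Finset α), ((Finset.univ : Finset β).bipartiteAbove R a).card = c := by
    intro a _
    rw [← h1 a, Nat.card_eq_fintype_card, Fintype.card_subtype]
    rfl
  have e2 : ∀ b ∈ (Finset.univ : Finset β), ((Finset.univ : Finset α).bipartiteBelow R b).card = d := by
    intro b _
    rw [← h2 b, Nat.card_eq_fintype_card, Fintype.card_subtype]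
    rfl
  rw [Finset.sum_congr rfl e1, Finset.sum_congr rfl e2] at key
  simpa [Nat.card_eq_fintype_card] using key

lemma dcount_le {α β : Type*} [Finite α] [Finite β] (R : α → β → Prop) (d : ℕ)
    (h1 : ∀ a, ∃ b, R a b) (h2 : ∀ b, Nat.card {a // R a b} ≤ d) :
    Nat.card α ≤ Nat.card β * d := by
  classical
  haveI := Fintype.ofFinite α
  haveI := Fintype.ofFinite β
  have key := Finset.sum_card_bipartiteAbove_eq_sum_card_bipartiteBelow (s := (Finset.univ : Finset α))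
    (t := (Finset.univ : Finset β)) R
  have e1 : ∀ a ∈ (Finset.univ : Finset α), 1 ≤ ((Finset.univ : Finset β).bipartiteAbove R a).card := by
    intro a _
    obtain ⟨b, hb⟩ := h1 a
    exact Finset.card_pos.mpr ⟨b, by simp [Finset.bipartiteAbove, hb]⟩
  have e2 : ∀ b ∈ (Finset.univ : Finset β), ((Finset.univ : Finset α).bipartiteBelow R b).card ≤ d := by
    intro b _
    refine le_trans (le_of_eq ?_) (h2 b)
    rw [Nat.card_eq_fintype_card, Fintype.card_subtype]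
    rfl
  have h3 := Finset.card_nsmul_le_sum _ _ 1 e1
  have h4 := Finset.sum_le_card_nsmul _ _ d e2
  simp only [smul_eq_mul, mul_one] at h3 h4
  rw [key] at h3
  simpa [Nat.card_eq_fintype_card] using h3.trans h4

lemma card_split {α : Type*} [Finite α] (P R : α → Prop) :
    Nat.card {x // P x} = Nat.card {x // P x ∧ R x} + Nat.card {x // P x ∧ ¬ R x} := by
  classical
  haveI := Fintype.ofFinite α
  simp only [Nat.card_eq_fintype_card, Fintype.card_subtype]
  have := Finset.card_filter_add_card_filter_not (s := Finset.univ.filter P) R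
  simpa [Finset.filter_filter] using this.symm

lemma card_split_top {α : Type*} [Finite α] (R : α → Prop) :
    Nat.card α = Nat.card {x // R x} + Nat.card {x // ¬ R x} := by
  classical
  haveI := Fintype.ofFinite α
  simp only [Nat.card_eq_fintype_card, Fintype.card_subtype]
  have := Finset.card_filter_add_card_filter_not (s := (Finset.univ : Finset α)) R
  simpa using this.symm

end Tools

section Arith

lemma arith_case2 (A B C u w z np : ℕ) (hB : 3 ≤ B) (hC : 3 ≤ C) (hA : 1 ≤ A) (hu : B = u * w)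
    (huo : Odd u) (hz : z = C ∨ 3 * z ≤ C) (hz1 : 1 ≤ z)
    (e1 : A * B * C = 1 + B * C + np * (B - 1) + A * w * (z - 1))
    (e2 : np * (2 * B) = A * B * C) (e3 : 2 * B * C + 2 = A * (B + 1)) : False := by
  obtain ⟨B', rfl⟩ : ∃ B', B = B' + 1 := ⟨B - 1, by omega⟩
  obtain ⟨C', rfl⟩ : ∃ C', C = C' + 1 := ⟨C - 1, by omega⟩
  obtain ⟨z', rfl⟩ : ∃ z', z = z' + 1 := ⟨z - 1, by omega⟩
  simp only [Nat.add_sub_cancel] at e1
  -- `2 np = A C`
  have h1 : 2 * np = A * (C' + 1) := by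
    have : (B' + 1) * (2 * np) = (B' + 1) * (A * (C' + 1)) := by nlinarith
    exact Nat.eq_of_mul_eq_mul_left (by omega) this
  -- key identity
  have key : C' * (B' + 2) = 2 * w * z' := by
    have h2 : A * (2 * ((B' + 1) * (C' + 1))) = A * ((B' + 2) + (C' + 1) * B' + 2 * w * z') := by
      have h3 : 2 * (A * (B' + 1) * (C' + 1)) = 2 * (1 + (B' + 1) * (C' + 1) + np * B' + A * w * z') := by
        rw [e1]
      have h4 : 2 * (np * B') = A * (C' + 1) * B' := by
        rw [← h1]; ring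
      have h5 : 2 * (B' + 1) * (C' + 1) + 2 = A * (B' + 2) := by
        rw [e3]
      nlinarith
    have h6 := Nat.eq_of_mul_eq_mul_left (by omega) h2
    nlinarith
  have hC' : 2 ≤ C' := by omega
  rcases Nat.even_or_odd u with hu' | _
  · exact absurd huo (by simpa using hu')
  by_cases hu1 : u = 1
  · subst hu1
    rw [one_mul] at hu
    subst hu
    rcases hz with hz | hz
    · have : z' = C' := by omega
      subst this
      have h2 : z' * (B' + 2) = z' * (2 * (B' + 1)) := by nlinarith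
      have h3 := Nat.eq_of_mul_eq_mul_left (by omega) h2
      omega
    · nlinarith
  · have hu3 : 3 ≤ u := by
      obtain ⟨k, hk⟩ := huo
      omega
    have hzle : z' ≤ C' := by
      rcases hz with hz | hz <;> omega
    have h2 : 3 * w ≤ B' + 1 := by
      rw [hu]
      exact Nat.mul_le_mul_right w hu3
    have h3 : 2 * w * z' ≤ 2 * w * C' := Nat.mul_le_mul_left _ hzle
    nlinarith

lemma arith_single (r C g : ℕ) (hr : 3 ≤ r) (hr2 : Nat.Coprime r 2) (hC : 2 ≤ C)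
    (hp : (C - 1) * g * r = 2 * (r - 1) * C) : C = r ∧ g = 2 := by
  have hr1 : Nat.Coprime r (r - 1) := by
    rw [Nat.coprime_comm]
    have : r = (r - 1) + 1 := by omega
    rw [this]
    simp
  have h1 : r ∣ C := by
    have : r ∣ 2 * (r - 1) * C := by
      rw [← hp]; exact Dvd.intro_left _ rfl
    have h2 : Nat.Coprime r (2 * (r - 1)) := Nat.Coprime.mul_right hr2 hr1
    exact h2.dvd_of_dvd_mul_left this
  have hC1 : Nat.Coprime (C - 1) C := by
    have : C = (C - 1) + 1 := by omega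
    rw [Nat.coprime_comm]
    rw [this]
    simp
  have h2 : (C - 1) ∣ 2 * (r - 1) := by
    have : (C - 1) ∣ 2 * (r - 1) * C := by
      rw [← hp]
      exact ⟨g * r, by ring⟩
    exact hC1.dvd_of_dvd_mul_right this
  have h3 : C - 1 ≤ 2 * (r - 1) := Nat.le_of_dvd (by omega) h2
  obtain ⟨l, rfl⟩ := h1
  have hl : l = 1 := by
    have hl0 : l ≠ 0 := by
      rintro rfl
      omega
    by_contra hne
    have hl2 : 2 ≤ l := by omega
    have : r * 2 ≤ r * l := Nat.mul_le_mul_left r hl2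
    omega
  subst hl
  rw [mul_one] at hp ⊢
  refine ⟨rfl, ?_⟩
  have h4 : (r - 1) * r * g = (r - 1) * r * 2 := by
    calc (r - 1) * r * g = (r - 1) * g * r := by ring
      _ = 2 * (r - 1) * r := hp
      _ = _ := by ring
  exact Nat.eq_of_mul_eq_mul_left (Nat.mul_pos (by omega) (by omega)) h4

lemma arith_lower (B A' a0 b0 g M : ℕ) (hB : 2 ≤ B) (hA' : 0 < A') (hb0 : 0 < b0)
    (hcop : Nat.Coprime (b0 * A') B) (h : (B - 1) * g * A' * a0 * b0 = M * B) (hM : 0 < M) :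
    b0 * A' * (B - 1) ≤ M := by
  have h1 : b0 * A' ∣ M := by
    have : b0 * A' ∣ M * B := by
      rw [← h]
      exact ⟨(B - 1) * g * a0, by ring⟩
    exact hcop.dvd_of_dvd_mul_right this
  obtain ⟨μ, rfl⟩ := h1
  have hμ : 0 < μ := by
    by_contra h0
    have : μ = 0 := by omega
    simp [this] at hM
  have h2 : (B - 1) * g * a0 = μ * B := by
    have : (b0 * A') * ((B - 1) * g * a0) = (b0 * A') * (μ * B) := by
      calc _ = (B - 1) * g * A' * a0 * b0 := by ring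
        _ = _ := by rw [h]; ring
    exact Nat.eq_of_mul_eq_mul_left (Nat.mul_pos hb0 hA') this
  have hC1 : Nat.Coprime (B - 1) B := by
    have : B = (B - 1) + 1 := by omega
    rw [Nat.coprime_comm]
    rw [this]
    simp
  have h3 : (B - 1) ∣ μ := by
    have : (B - 1) ∣ μ * B := by
      rw [← h2]
      exact ⟨g * a0, by ring⟩
    exact hC1.dvd_of_dvd_mul_right this
  have h4 : B - 1 ≤ μ := Nat.le_of_dvd hμ h3
  exact Nat.mul_le_mul_left _ h4

lemma arith_both (A' a0 b0 B C gp gq Mp Mq : ℕ) (hA' : 0 < A') (ha0 : 0 < a0) (hb0 : 0 < b0)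
    (hB : 3 ≤ B) (hC : 3 ≤ C) (hBC : 8 ≤ B + C)
    (hA : 2 * A' = a0 * b0 + 1)
    (hcop1 : Nat.Coprime (b0 * A') B) (hcop2 : Nat.Coprime (a0 * A') C)
    (hp : (B - 1) * gp * ((2 * A') * (a0 * b0)) = Mp * (2 * B))
    (hq : (C - 1) * gq * ((2 * A') * (a0 * b0)) = Mq * (2 * C))
    (hMp : 0 < Mp) (hMq : 0 < Mq)
    (htot : (2 * A') * (a0 * b0) = 2 * A' + Mp + Mq)
    (heq : 2 * B * C + 2 = (2 * A') * (B + C)) : False := by
  have h1 := arith_lower B A' a0 b0 gp Mp (by omega) hA' hb0 hcop1 (by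
    have : 2 * ((B - 1) * gp * A' * a0 * b0) = 2 * (Mp * B) := by
      calc _ = (B - 1) * gp * ((2 * A') * (a0 * b0)) := by ring
        _ = _ := by rw [hp]; ring
    omega) hMp
  have h2 := arith_lower C A' b0 a0 gq Mq (by omega) hA' ha0 hcop2 (by
    have : 2 * ((C - 1) * gq * A' * b0 * a0) = 2 * (Mq * C) := by
      calc _ = (C - 1) * gq * ((2 * A') * (a0 * b0)) := by ring
        _ = _ := by rw [hq]; ring
    omega) hMq
  obtain ⟨B', rfl⟩ : ∃ B', B = B' + 1 := ⟨B - 1, by omega⟩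
  obtain ⟨C', rfl⟩ : ∃ C', C = C' + 1 := ⟨C - 1, by omega⟩
  simp only [Nat.add_sub_cancel] at h1 h2
  have h3 : A' * (2 + b0 * B' + a0 * C') ≤ A' * (2 * (a0 * b0)) := by nlinarith
  have h4 := Nat.le_of_mul_le_mul_left h3 hA'
  -- AM-GM
  set r := a0 * b0 with hr
  have hrpos : 0 < r := Nat.mul_pos ha0 hb0
  obtain ⟨r', hr'⟩ : ∃ r', r = r' + 1 := ⟨r - 1, by omega⟩
  have h5 : r * (B' * C') ≤ r' * r' := by
    have h6 : 4 * ((b0 * B') * (a0 * C')) ≤ (b0 * B' + a0 * C') * (b0 * B' + a0 * C') := by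
      nlinarith [sq_nonneg ((b0 * B' : ℤ) - a0 * C'), four_mul_le_sq_add (b0 * B') (a0 * C')]
    have h7 : b0 * B' + a0 * C' ≤ 2 * r' := by omega
    have h8 : (b0 * B') * (a0 * C') = r * (B' * C') := by
      rw [hr]; ring
    have h9 := Nat.mul_le_mul h7 h7
    rw [h8] at h6
    have h10 : (2 * r') * (2 * r') = 4 * (r' * r') := by ring
    rw [h10] at h9
    have h11 := h6.trans h9
    linarith
  have h10 : B' * C' + 1 ≤ r := by
    by_contra hcon
    have : r ≤ B' * C' := by omega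
    have h11 := Nat.mul_le_mul_left r this
    have h12 := h11.trans h5
    rw [hr'] at h12
    nlinarith
  have h12 : 2 * A' = r + 1 := hA
  rw [h12] at heq
  have h13 := Nat.mul_le_mul_right (B' + 1 + (C' + 1)) (show B' * C' + 2 ≤ r + 1 by omega)
  have hB2 : 2 ≤ B' := by omega
  have hC2 : 2 ≤ C' := by omega
  have h14 : (B' * C' + 2) * 8 ≤ (B' * C' + 2) * (B' + 1 + (C' + 1)) := Nat.mul_le_mul_left _ hBC
  have h15 : 2 * (B' + 1) * (C' + 1) + 2 = 2 * (B' * C') + 2 * B' + 2 * C' + 4 := by ring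
  have h16 : 2 * B' ≤ B' * C' := by
    rw [mul_comm]; exact Nat.mul_le_mul_left _ hC2
  have h17 : 2 * C' ≤ B' * C' := Nat.mul_le_mul_right _ hB2
  have h18 : (B' * C' + 2) * 8 = 8 * (B' * C') + 16 := by ring
  rw [h15] at heq
  rw [h18] at h14
  linarith

lemma three_pow_add_one {k a : ℕ} (h : 3 ^ k + 1 = 2 ^ a) : a ≤ 2 := by
  by_contra hne
  have h3 : 3 ≤ a := by omega
  have h8 : 8 ∣ 2 ^ a := by
    calc 8 = 2 ^ 3 := by norm_num
      _ ∣ 2 ^ a := pow_dvd_pow 2 h3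
  have hmod : 3 ^ k % 8 = 1 ∨ 3 ^ k % 8 = 3 := by
    clear h h8
    induction k with
    | zero => simp
    | succ n ih =>
      rw [pow_succ]
      omega
  omega

lemma arith_final {p q b c a : ℕ} (hp : p.Prime) (hq : q.Prime) (ha : 2 ≤ a)
    (hB : 2 ^ a = p ^ b + 1) (hC : q ^ c = 2 ^ a + 1) :
    a = 2 ∨ (a = 3 ∧ q = 3 ∧ c = 2) := by
  have hmod : 2 ^ a % 3 = 1 ∨ 2 ^ a % 3 = 2 := by
    clear hB hC ha
    induction a with
    | zero => simp
    | succ n ih =>
      rw [pow_succ]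
      omega
  rcases hmod with hm | hm
  · left
    have h3 : 3 ∣ p ^ b := by omega
    have h4 := Nat.Prime.dvd_of_dvd_pow Nat.prime_three h3
    have h5 := (Nat.prime_dvd_prime_iff_eq Nat.prime_three hp).mp h4
    subst h5
    have := three_pow_add_one hB.symm
    omega
  · right
    have h3 : 3 ∣ q ^ c := by omega
    have h4 := Nat.Prime.dvd_of_dvd_pow Nat.prime_three h3
    have h5 := (Nat.prime_dvd_prime_iff_eq Nat.prime_three hq).mp h4
    subst h5
    have h4' : 4 ∣ 2 ^ a := by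
      calc 4 = 2 ^ 2 := by norm_num
        _ ∣ 2 ^ a := pow_dvd_pow 2 ha
    have hmod4 : ∀ d : ℕ, 3 ^ (2 * d) % 4 = 1 := by
      intro d
      induction d with
      | zero => simp
      | succ n ih =>
        rw [show 2 * (n + 1) = 2 * n + 2 by ring, pow_add]
        omega
    rcases Nat.even_or_odd' c with ⟨d, rfl | rfl⟩
    · -- `c = 2 d`
      have hx : (3 ^ d + 1) ∣ 2 ^ a := by
        have h6 : (3 ^ d - 1) * (3 ^ d + 1) = 2 ^ a := by
          have h7 : 3 ^ (2 * d) = 3 ^ d * 3 ^ d := by rw [two_mul, pow_add]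
          have h8 : 1 ≤ 3 ^ d := Nat.one_le_pow _ _ (by norm_num)
          obtain ⟨x, hx⟩ : ∃ x, 3 ^ d = x + 1 := ⟨3 ^ d - 1, by omega⟩
          rw [hx] at h7 ⊢
          rw [h7] at hC
          simp only [Nat.add_sub_cancel]
          nlinarith
        exact ⟨3 ^ d - 1, by rw [← h6]; ring⟩
      obtain ⟨j, -, hj⟩ := (Nat.dvd_prime_pow Nat.prime_two).mp hx
      have hj2 := three_pow_add_one hj
      have h9 : 2 ^ j ≤ 2 ^ 2 := Nat.pow_le_pow_right (by norm_num) hj2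
      have h10 : 3 ^ d ≤ 3 ^ 1 := by
        rw [pow_one]
        omega
      have h11 : d ≤ 1 := (Nat.pow_le_pow_iff_right (by norm_num)).mp h10
      interval_cases d
      · simp at hC
      · have h12 : 2 ^ a = 2 ^ 3 := by
          norm_num at hC ⊢
          omega
        have := Nat.pow_right_injective (le_refl 2) h12
        exact ⟨this, rfl, rfl⟩
    · exfalso
      have h6 := hmod4 d
      rw [pow_succ] at hC
      omega

end Arith

section Basic

open Subgroup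

variable {G : Type*} [Group G]

/-- Centralizer of an element. -/
abbrev Cz (y : G) : Subgroup G := Subgroup.centralizer ({y} : Set G)

lemma mem_Cz {y w : G} : w ∈ Cz y ↔ w * y = y * w := Subgroup.mem_centralizer_singleton_iff

lemma card_nonone [Finite G] (K : Subgroup G) :
    Nat.card {y : G // y ∈ K ∧ y ≠ 1} = Nat.card K - 1 := by
  classical
  have h1 := card_split (α := G) (· ∈ K) (· ≠ 1)
  have h2 : Nat.card {x : G // x ∈ K ∧ ¬ x ≠ 1} = 1 := by
    have : Nat.card {x : G // x ∈ K ∧ ¬ x ≠ 1} = Nat.card {x : G // x = 1} :=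
      Nat.card_congr (Equiv.subtypeEquivRight (fun x => by
        constructor
        · rintro ⟨_, h⟩; simpa using h
        · rintro rfl; exact ⟨K.one_mem, by simp⟩))
    rw [this]
    simp
  have h3 : Nat.card {x : G // x ∈ K} = Nat.card K := rfl
  omega

/-- Every nontrivial element has prime order; automorphisms are transitive on elements of
the same order. -/
structure EPO (G : Type*) [Group G] : Prop where
  pr : ∀ g : G, g ≠ 1 → (orderOf g).Prime
  tr : ∀ g h : G, orderOf g = orderOf h → ∃ a : MulAut G, a g = h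

variable (H : EPO G)

include H

lemma commute_order {g h : G} (hg : g ≠ 1) (hh : h ≠ 1) (c : Commute g h) :
    orderOf g = orderOf h := by
  by_contra hne
  have hcop : Nat.Coprime (orderOf g) (orderOf h) :=
    (Nat.coprime_primes (H.pr g hg) (H.pr h hh)).mpr hne
  have h1 := c.orderOf_mul_eq_mul_orderOf_of_coprime hcop
  by_cases h2 : g * h = 1
  · rw [h2, orderOf_one] at h1
    exact (H.pr g hg).one_lt.ne (Nat.eq_one_of_mul_eq_one_right h1.symm).symm
  · have := H.pr _ h2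
    rw [h1] at this
    exact Nat.not_prime_mul (H.pr g hg).ne_one (H.pr h hh).ne_one this

lemma order_of_mem {ρ : ℕ} (hρ : ρ.Prime) (K : Subgroup G) (hK : IsPGroup ρ K) {x : G}
    (hx : x ∈ K) (hx1 : x ≠ 1) : orderOf x = ρ := by
  haveI : Fact ρ.Prime := ⟨hρ⟩
  obtain ⟨k, hk⟩ := IsPGroup.iff_orderOf.mp hK ⟨x, hx⟩
  rw [Subgroup.orderOf_mk] at hk
  have h1 := H.pr x hx1
  rw [hk] at h1 ⊢
  have hk1 : k = 1 := by
    by_contra hne
    rcases Nat.lt_or_ge k 2 with h | h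
    · interval_cases k
      · simp at h1
        exact Nat.not_prime_one h1
      · exact hne rfl
    · exact Nat.Prime.not_prime_pow h h1
  simp [hk1]

lemma Cz_pgroup {y : G} (hy : y ≠ 1) : IsPGroup (orderOf y) (Cz y) := by
  haveI : Fact (orderOf y).Prime := ⟨H.pr y hy⟩
  rw [IsPGroup.iff_orderOf]
  rintro ⟨w, hw⟩
  by_cases hw1 : w = 1
  · exact ⟨0, by simp [hw1]⟩
  · refine ⟨1, ?_⟩
    rw [Subgroup.orderOf_mk, pow_one]
    exact commute_order H hw1 hy (mem_Cz.mp hw)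

lemma Cz_eq_of_central {ρ : ℕ} [Fact ρ.Prime] (P : Sylow ρ G) {y : G} (hy : y ∈ P) (hy1 : y ≠ 1)
    (hc : ∀ w ∈ P, w * y = y * w) : Cz y = (P : Subgroup G) := by
  have h1 : orderOf y = ρ := order_of_mem H Fact.out P P.2 hy hy1
  have h2 : IsPGroup ρ (Cz y) := h1 ▸ Cz_pgroup H hy1
  exact P.is_maximal' h2 (fun w hw => mem_Cz.mpr (hc w hw))

omit H in
lemma exists_aut_sylow [Finite G] {ρ : ℕ} [Fact ρ.Prime] (P Q : Sylow ρ G) :
    ∃ a : MulAut G, a • P = Q := by
  obtain ⟨g, hg⟩ := MulAction.exists_smul_eq G P Q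
  exact ⟨MulAut.conj g, by rw [← hg, Sylow.smul_def]⟩

omit H in
lemma mem_aut_smul {ρ : ℕ} (a : MulAut G) (P : Sylow ρ G) (y : G) :
    a y ∈ a • P ↔ y ∈ P := by
  change a y ∈ (↑(a • P) : Subgroup G) ↔ y ∈ (P : Subgroup G)
  rw [Sylow.pointwise_smul_def]
  exact Subgroup.smul_mem_pointwise_smul_iff (a := a) (x := y) (S := (P : Subgroup G))

/-- The normalizer of a Sylow subgroup. -/
abbrev NP {ρ : ℕ} (P : Sylow ρ G) : Subgroup G := Subgroup.normalizer (P : Set G)

omit H in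
lemma mem_NP {ρ : ℕ} {P : Sylow ρ G} {g : G} : g ∈ NP P ↔ ∀ h, h ∈ P ↔ g * h * g⁻¹ ∈ P :=
  Subgroup.mem_normalizer_iff (H := (P : Subgroup G))

omit H in
lemma mem_NP_smul {ρ : ℕ} (a : MulAut G) (P : Sylow ρ G) (y : G) :
    a y ∈ NP (a • P) ↔ y ∈ NP P := by
  rw [mem_NP, mem_NP]
  constructor
  · intro h w
    have := h (a w)
    rw [mem_aut_smul, ← map_inv, ← map_mul, ← map_mul, mem_aut_smul] at this
    exact this
  · intro h w
    have h1 := h (a.symm w)
    have h2 : a y * w * (a y)⁻¹ = a (y * a.symm w * y⁻¹) := by simp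
    have h3 : w ∈ a • P ↔ a.symm w ∈ P := by
      rw [← mem_aut_smul a P (a.symm w)]; simp
    rw [h2, mem_aut_smul, h3]
    exact h1

lemma exists_sylow_eq_Cz [Finite G] {ρ : ℕ} [Fact ρ.Prime] {y : G} (hy : orderOf y = ρ) :
    ∃ P : Sylow ρ G, Cz y = (P : Subgroup G) := by
  have hy1 : y ≠ 1 := by
    rintro rfl
    rw [orderOf_one] at hy
    exact (Fact.out : ρ.Prime).one_lt.ne hy
  obtain ⟨P0⟩ : Nonempty (Sylow ρ G) := inferInstance
  have hdvd : ρ ∣ Nat.card G := hy ▸ orderOf_dvd_natCard y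
  have hne := P0.ne_bot_of_dvd_card hdvd
  haveI : Nontrivial (P0 : Subgroup G) := (Subgroup.nontrivial_iff_ne_bot _).mpr hne
  have hc := P0.2.center_nontrivial
  obtain ⟨x0, hx0⟩ := exists_ne (1 : Subgroup.center (P0 : Subgroup G))
  let x : G := ((x0 : (P0 : Subgroup G)) : G)
  have hxP : x ∈ P0 := (x0 : (P0 : Subgroup G)).2
  have hx1 : x ≠ 1 := by
    intro h
    apply hx0
    exact Subtype.ext (Subtype.ext h)
  have hcx : Cz x = (P0 : Subgroup G) := by
    refine Cz_eq_of_central H P0 hxP hx1 ?_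
    intro w hw
    have := (Subgroup.mem_center_iff.mp x0.2) ⟨w, hw⟩
    exact congrArg Subtype.val this
  have hox : orderOf x = ρ := order_of_mem H Fact.out P0 P0.2 hxP hx1
  obtain ⟨a, ha⟩ := H.tr x y (hox.trans hy.symm)
  refine ⟨a • P0, ?_⟩
  ext w
  have h1 : w = a (a.symm w) := by simp
  change w ∈ Cz y ↔ w ∈ a • P0
  rw [h1, mem_aut_smul, ← ha, mem_Cz, ← map_mul, ← map_mul, a.injective.eq_iff, ← mem_Cz, hcx]
  rfl

omit H in
lemma Cz_inv (y : G) : Cz y⁻¹ = Cz y := by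
  ext w
  rw [mem_Cz, mem_Cz]
  constructor
  · intro h
    have h2 : y⁻¹ * w = w * y⁻¹ := h.symm
    calc w * y = y * (y⁻¹ * w) * y := by group
      _ = y * (w * y⁻¹) * y := by rw [h2]
      _ = y * w := by group
  · intro h
    calc w * y⁻¹ = y⁻¹ * (y * w) * y⁻¹ := by group
      _ = y⁻¹ * (w * y) * y⁻¹ := by rw [h]
      _ = y⁻¹ * w := by group

/-- Central part of a Sylow subgroup. -/
def ZP {ρ : ℕ} (P : Sylow ρ G) : Subgroup G :=
  (P : Subgroup G) ⊓ Subgroup.centralizer (P : Set G)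

omit H in
lemma mem_ZP {ρ : ℕ} {P : Sylow ρ G} {y : G} : y ∈ ZP P ↔ y ∈ P ∧ ∀ w ∈ P, w * y = y * w := by
  unfold ZP
  rw [Subgroup.mem_inf, Subgroup.mem_centralizer_iff]
  constructor
  · rintro ⟨h1, h2⟩
    exact ⟨h1, fun w hw => h2 w hw⟩
  · rintro ⟨h1, h2⟩
    exact ⟨h1, fun w hw => h2 w hw⟩

omit H in
lemma card_ZP_smul [Finite G] {ρ : ℕ} (a : MulAut G) (P : Sylow ρ G) :
    Nat.card (ZP (a • P)) = Nat.card (ZP P) := by
  symm
  refine Nat.card_congr (Equiv.subtypeEquiv a.toEquiv ?_)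
  intro y
  simp only [mem_ZP, MulEquiv.toEquiv_eq_coe, EquivLike.coe_coe, mem_aut_smul]
  constructor
  · rintro ⟨h1, h2⟩
    refine ⟨h1, fun w hw => ?_⟩
    have h3 : a.symm w ∈ P := by
      rw [← mem_aut_smul a]; simpa using hw
    have := h2 _ h3
    have h4 := congrArg a this
    simpa using h4
  · rintro ⟨h1, h2⟩
    refine ⟨h1, fun w hw => ?_⟩
    have h3 := h2 (a w) ((mem_aut_smul a P w).mpr hw)
    exact a.injective (by simpa using h3)

lemma card_fiber_E [Finite G] {ρ : ℕ} [Fact ρ.Prime] (P : Sylow ρ G) :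
    Nat.card {y : {y : G // orderOf y = ρ} // Cz y.1 = (P : Subgroup G)} = Nat.card (ZP P) - 1 := by
  rw [← card_nonone]
  refine Nat.card_congr ((Equiv.subtypeSubtypeEquivSubtypeInter (fun y : G => orderOf y = ρ)
    (fun y : G => Cz y = (P : Subgroup G))).trans (Equiv.subtypeEquivRight ?_))
  intro y
  constructor
  · rintro ⟨h1, h2⟩
    have hy1 : y ≠ 1 := by
      rintro rfl
      rw [orderOf_one] at h1
      exact (Fact.out : ρ.Prime).one_lt.ne h1
    have hyP : y ∈ (P : Subgroup G) := by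
      rw [← h2]; exact mem_Cz.mpr rfl
    refine ⟨mem_ZP.mpr ⟨hyP, fun w hw => ?_⟩, hy1⟩
    have : w ∈ Cz y := by rw [h2]; exact hw
    exact mem_Cz.mp this
  · rintro ⟨h1, h2⟩
    obtain ⟨h3, h4⟩ := mem_ZP.mp h1
    exact ⟨order_of_mem H Fact.out P P.2 h3 h2, Cz_eq_of_central H P h3 h2 h4⟩

lemma card_E [Finite G] {ρ : ℕ} [Fact ρ.Prime] (P0 : Sylow ρ G) :
    Nat.card {y : G // orderOf y = ρ} = Nat.card (Sylow ρ G) * (Nat.card (ZP P0) - 1) := by
  have := dcount (α := {y : G // orderOf y = ρ}) (β := Sylow ρ G)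
    (fun y P => Cz y.1 = (P : Subgroup G)) 1 (Nat.card (ZP P0) - 1) ?_ ?_
  · simpa using this
  · rintro ⟨y, hy⟩
    obtain ⟨P, hP⟩ := exists_sylow_eq_Cz H hy
    rw [Nat.card_eq_one_iff_unique]
    refine ⟨⟨?_⟩, ⟨⟨P, hP⟩⟩⟩
    rintro ⟨Q, hQ⟩ ⟨Q', hQ'⟩
    exact Subtype.ext (Sylow.ext (hQ.symm.trans hQ'))
  · intro P
    rw [card_fiber_E H P]
    obtain ⟨a, ha⟩ := exists_aut_sylow P0 P
    rw [← ha, card_ZP_smul]


omit H in
lemma card_sylow_eq [Finite G] {ρ : ℕ} [Fact ρ.Prime] (P Q : Sylow ρ G) :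
    Nat.card P = Nat.card Q := by
  rw [Sylow.card_eq_multiplicity, Sylow.card_eq_multiplicity]

omit H in
lemma card_NP_mul [Finite G] {ρ : ℕ} [Fact ρ.Prime] (P : Sylow ρ G) :
    Nat.card (Sylow ρ G) * Nat.card (NP P) = Nat.card G := by
  rw [Sylow.card_eq_index_normalizer P]
  exact Subgroup.index_mul_card _

omit H in
lemma mem_of_mem_NP [Finite G] {ρ : ℕ} [Fact ρ.Prime] (P : Sylow ρ G) {g : G} (hg : g ∈ NP P)
    (ho : orderOf g = ρ) : g ∈ P := by
  have hP : IsPGroup ρ (Subgroup.zpowers g) := by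
    apply IsPGroup.of_card (n := 1)
    rw [Nat.card_zpowers, ho, pow_one]
  have h1 := hP.inf_normalizer_sylow P
  have h2 : g ∈ Subgroup.zpowers g ⊓ Subgroup.normalizer (P : Set G) :=
    ⟨Subgroup.mem_zpowers g, hg⟩
  rw [h1] at h2
  exact h2.2

omit H in
lemma le_NP {ρ : ℕ} (P : Sylow ρ G) : (P : Subgroup G) ≤ NP P :=
  Subgroup.le_normalizer

lemma two_sq [Finite G] (S : Sylow 2 G) {x : G} (hx : x ∈ S) : x * x = 1 := by
  by_cases h1 : x = 1
  · simp [h1]
  · have := order_of_mem H Nat.prime_two S S.2 hx h1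
    rw [← pow_two, ← this, pow_orderOf_eq_one]

lemma two_comm [Finite G] (S : Sylow 2 G) {x y : G} (hx : x ∈ S) (hy : y ∈ S) : x * y = y * x := by
  have h1 := two_sq H S hx
  have h2 := two_sq H S hy
  have h3 := two_sq H S (S.toSubgroup.mul_mem hx hy)
  calc x * y = x * y * (y * x * (y * x)) := by
        rw [show y * x * (y * x) = 1 from ?_, mul_one]
        calc y * x * (y * x) = y * (x * y * x * y) * y⁻¹ := by group
          _ = y * ((x * y) * (x * y)) * y⁻¹ := by group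
          _ = 1 := by rw [h3]; group
    _ = x * (y * y) * x * (y * x) := by group
    _ = y * x := by rw [h2, mul_one, h1, one_mul]

lemma Cz_two [Finite G] (S : Sylow 2 G) {t : G} (ht : t ∈ S) (ht1 : t ≠ 1) :
    Cz t = (S : Subgroup G) :=
  Cz_eq_of_central H S ht ht1 (fun _ hw => two_comm H S hw ht)

omit H in
lemma ZP_eq_of_comm {ρ : ℕ} (P : Sylow ρ G) (hc : ∀ x ∈ P, ∀ y ∈ P, x * y = y * x) :
    ZP P = (P : Subgroup G) := by
  ext y
  rw [mem_ZP]
  exact ⟨fun h => h.1, fun h => ⟨h, fun w hw => hc w hw y h⟩⟩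

omit H in
lemma ne_one_of_order {ρ : ℕ} (hρ : ρ.Prime) {y : G} (hy : orderOf y = ρ) : y ≠ 1 := by
  rintro rfl
  rw [orderOf_one] at hy
  exact hρ.one_lt.ne hy

section Dihedral

variable [Finite G] {ρ : ℕ} [Fact ρ.Prime] (hρ2 : ρ ≠ 2) (Q : Sylow ρ G) {t : G}
  (ht2 : orderOf t = 2) (ht : t ∈ NP Q)

omit H [Finite G] in
lemma inv_t_of_order (ht2 : orderOf t = 2) : t⁻¹ = t := by
  have : t ^ 2 = 1 := by rw [← ht2, pow_orderOf_eq_one]
  rw [inv_eq_iff_mul_eq_one, ← pow_two, this]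

omit [Fact ρ.Prime] in
include hρ2 in
lemma ord_two_ne {x : G} (h1 : orderOf x = ρ) (h2 : orderOf x = 2) : False :=
  hρ2 (h1.symm.trans h2)

include hρ2 ht2 ht in
lemma inv_of_norm {x : G} (hx : x ∈ Q) : t * x * t⁻¹ = x⁻¹ := by
  have hmem : ∀ y : (Q : Subgroup G), t * y.1 * t⁻¹ ∈ (Q : Subgroup G) :=
    fun y => (mem_NP.mp ht y.1).mp y.2
  let φ : (Q : Subgroup G) →* (Q : Subgroup G) :=
    { toFun := fun y => ⟨t * y.1 * t⁻¹, hmem y⟩
      map_one' := by ext; simp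
      map_mul' := by
        intro a b
        ext
        change t * (a.1 * b.1) * t⁻¹ = (t * a.1 * t⁻¹) * (t * b.1 * t⁻¹)
        group }
  have hinv : t⁻¹ = t := inv_t_of_order ht2
  have hfp : MonoidHom.FixedPointFree φ := by
    intro y hy
    have hy' : t * y.1 * t⁻¹ = y.1 := congrArg Subtype.val hy
    by_contra hne
    have hy1 : y.1 ≠ 1 := fun e => hne (Subtype.ext e)
    have hc : Commute t y.1 := by
      change t * y.1 = y.1 * t
      calc t * y.1 = t * y.1 * t⁻¹ * t := by group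
        _ = y.1 * t := by rw [hy']
    have ht1 : t ≠ 1 := ne_one_of_order Nat.prime_two ht2
    have h1 := commute_order H ht1 hy1 hc
    rw [ht2, order_of_mem H Fact.out Q Q.2 y.2 hy1] at h1
    exact hρ2 h1.symm
  have hinvol : Function.Involutive φ := by
    intro y
    ext
    change t * (t * y.1 * t⁻¹) * t⁻¹ = y.1
    rw [hinv]
    have : t * t = 1 := by rw [← pow_two, ← ht2, pow_orderOf_eq_one]
    calc t * (t * y.1 * t) * t = (t * t) * y.1 * (t * t) := by group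
      _ = y.1 := by rw [this]; group
  have h1 := hfp.coe_eq_inv_of_involutive hinvol
  have h2 := congrFun h1 ⟨x, hx⟩
  exact congrArg Subtype.val h2

include hρ2 ht2 ht in
lemma comm_of_norm {x y : G} (hx : x ∈ Q) (hy : y ∈ Q) : x * y = y * x := by
  have h1 := inv_of_norm H hρ2 Q ht2 ht hx
  have h2 := inv_of_norm H hρ2 Q ht2 ht hy
  have h3 := inv_of_norm H hρ2 Q ht2 ht (Q.toSubgroup.mul_mem hx hy)
  have h4 : t * (x * y) * t⁻¹ = (t * x * t⁻¹) * (t * y * t⁻¹) := by group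
  rw [h4, h1, h2, mul_inv_rev] at h3
  have h5 : x⁻¹ * y⁻¹ = (y * x)⁻¹ := by group
  have h6 : y⁻¹ * x⁻¹ = (x * y)⁻¹ := by group
  rw [h5, h6] at h3
  exact (inv_injective h3).symm

include hρ2 ht2 ht in
lemma Cz_of_norm {x : G} (hx : x ∈ Q) (hx1 : x ≠ 1) : Cz x = (Q : Subgroup G) :=
  Cz_eq_of_central H Q hx hx1 (fun _ hw => comm_of_norm H hρ2 Q ht2 ht hw hx)

include hρ2 ht2 ht in
/-- `t * x` is an involution in `N(Q)` for `x ∈ Q`. -/
lemma order_mul_of_norm {x : G} (hx : x ∈ Q) : orderOf (t * x) = 2 := by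
  have hinv : t⁻¹ = t := inv_t_of_order ht2
  have h1 := inv_of_norm H hρ2 Q ht2 ht hx
  rw [hinv] at h1
  refine orderOf_eq_prime ?_ ?_
  · calc (t * x) ^ 2 = t * x * t * x := by simp [pow_two, mul_assoc]
      _ = 1 := by rw [h1]; group
  · intro h
    have h2 : x = t⁻¹ := by
      exact eq_inv_of_mul_eq_one_right h
    rw [hinv] at h2
    have hx1 : x ≠ 1 := by
      rw [h2]
      exact ne_one_of_order Nat.prime_two ht2
    have h3 := order_of_mem H Fact.out Q Q.2 hx hx1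
    rw [h2, ht2] at h3
    exact hρ2 h3.symm

include hρ2 ht2 ht in
lemma mem_mul_of_norm {s : G} (hs2 : orderOf s = 2) (hs : s ∈ NP Q) (hdvd : ρ ∣ Nat.card G) :
    t * s ∈ Q := by
  have hne := Q.ne_bot_of_dvd_card hdvd
  obtain ⟨⟨x, hx⟩, hx1⟩ := (Subgroup.ne_bot_iff_exists_ne_one.mp hne)
  have hx1' : x ≠ 1 := fun e => hx1 (Subtype.ext e)
  have h1 := inv_of_norm H hρ2 Q ht2 ht hx
  have h2 := inv_of_norm H hρ2 Q hs2 hs hx
  have h3 : t * s ∈ Cz x := by
    rw [mem_Cz]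
    have h4 : s * x = x⁻¹ * s := by
      calc s * x = s * x * s⁻¹ * s := by group
        _ = x⁻¹ * s := by rw [h2]
    have h5 : t * x⁻¹ = x * t := by
      have : t * x = x⁻¹ * t := by
        calc t * x = t * x * t⁻¹ * t := by group
          _ = x⁻¹ * t := by rw [h1]
      calc t * x⁻¹ = x * (x⁻¹ * t) * x⁻¹ := by group
        _ = x * (t * x) * x⁻¹ := by rw [this]
        _ = x * t := by group
    calc t * s * x = t * (s * x) := by group
      _ = t * (x⁻¹ * s) := by rw [h4]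
      _ = (t * x⁻¹) * s := by group
      _ = x * t * s := by rw [h5]
      _ = x * (t * s) := by group
  rw [Cz_of_norm H hρ2 Q ht2 ht hx hx1'] at h3
  exact h3

include hρ2 ht2 ht in
lemma NP_struct {g : G} (hg : g ∈ NP Q) (hdvd : ρ ∣ Nat.card G) : g ∈ Q ∨ t * g ∈ Q := by
  have hinv : t⁻¹ = t := inv_t_of_order ht2
  have htt : t * t = 1 := by rw [← pow_two, ← ht2, pow_orderOf_eq_one]
  -- the conjugate of `t`
  let s : G := g * t * g⁻¹
  have hs2 : orderOf s = 2 := by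
    have : s = MulAut.conj g t := rfl
    rw [this, MulEquiv.orderOf_eq, ht2]
  have hs : s ∈ NP Q := (NP Q).mul_mem ((NP Q).mul_mem hg ht) ((NP Q).inv_mem hg)
  have hsm : s * t ∈ Q := by
    have := mem_mul_of_norm H hρ2 Q hs2 hs ht2 ht hdvd
    exact this
  -- a square root in `Q`
  obtain ⟨y, hy, hyy⟩ : ∃ y ∈ Q, y * y = s * t := by
    set x := s * t with hxdef
    have hcop : Nat.Coprime 2 (orderOf x) := by
      by_cases hx1 : x = 1
      · simp [hx1]
      · rw [order_of_mem H Fact.out Q Q.2 hsm hx1]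
        exact (Nat.coprime_primes Nat.prime_two Fact.out).mpr (Ne.symm hρ2)
    obtain ⟨m, hm⟩ := exists_pow_eq_self_of_coprime hcop
    refine ⟨x ^ m, Q.toSubgroup.pow_mem hsm m, ?_⟩
    rw [← pow_two, ← pow_mul, mul_comm, pow_mul]
    exact hm
  have h1 := inv_of_norm H hρ2 Q ht2 ht hy
  rw [hinv] at h1
  have h2 : y * t * y⁻¹ = s := by
    have h3 : t * y⁻¹ = y * t := by
      calc t * y⁻¹ = y * (y⁻¹ * t * y⁻¹) := by group
        _ = y * ((t * y * t) * t * y⁻¹) := by rw [h1]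
        _ = y * (t * y * (t * t) * y⁻¹) := by group
        _ = y * t := by rw [htt]; group
    calc y * t * y⁻¹ = y * (t * y⁻¹) := by group
      _ = y * (y * t) := by rw [h3]
      _ = (y * y) * t := by group
      _ = s * t * t := by rw [hyy]
      _ = s * (t * t) := by group
      _ = s := by rw [htt, mul_one]
  -- `w = y⁻¹ g` centralizes `t`
  let w : G := y⁻¹ * g
  have hyN : y ∈ NP Q := le_NP Q hy
  have hwN : w ∈ NP Q := (NP Q).mul_mem ((NP Q).inv_mem hyN) hg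
  have hwc : Commute w t := by
    change y⁻¹ * g * t = t * (y⁻¹ * g)
    have h4 : g * t * g⁻¹ = y * t * y⁻¹ := h2.symm
    calc y⁻¹ * g * t = y⁻¹ * (g * t * g⁻¹) * g := by group
      _ = y⁻¹ * (y * t * y⁻¹) * g := by rw [h4]
      _ = t * (y⁻¹ * g) := by group
  by_cases hw1 : w = 1
  · left
    have : g = y := by
      have h5 : y⁻¹ * g = 1 := hw1
      exact (inv_mul_eq_one.mp h5).symm
    rw [this]
    exact hy
  · right
    have ht1 : t ≠ 1 := ne_one_of_order Nat.prime_two ht2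
    have hwo : orderOf w = 2 := by
      rw [commute_order H hw1 ht1 hwc, ht2]
    have h5 : t * w ∈ Q := mem_mul_of_norm H hρ2 Q ht2 ht hwo hwN hdvd
    have h6 : t * g = y⁻¹ * (t * w) := by
      have h7 : t * y = y⁻¹ * t := by
        calc t * y = (t * y * t) * t := by
              rw [mul_assoc _ t t, htt, mul_one]
          _ = y⁻¹ * t := by rw [h1]
      calc t * g = t * y * (y⁻¹ * g) := by group
        _ = y⁻¹ * t * (y⁻¹ * g) := by rw [h7]
        _ = y⁻¹ * (t * w) := by simp [w, mul_assoc]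
    rw [h6]
    exact Q.toSubgroup.mul_mem (Q.toSubgroup.inv_mem hy) h5

include hρ2 ht2 ht in
lemma card_invol_NP (hdvd : ρ ∣ Nat.card G) :
    Nat.card {s : G // orderOf s = 2 ∧ s ∈ NP Q} = Nat.card Q := by
  have hinv : t⁻¹ = t := inv_t_of_order ht2
  have htt : t * t = 1 := by rw [← pow_two, ← ht2, pow_orderOf_eq_one]
  refine Nat.card_congr
    { toFun := fun s => ⟨t * s.1, mem_mul_of_norm H hρ2 Q ht2 ht s.2.1 s.2.2 hdvd⟩
      invFun := fun x => ⟨t * x.1, order_mul_of_norm H hρ2 Q ht2 ht x.2,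
        (NP Q).mul_mem ht (le_NP Q x.2)⟩
      left_inv := ?_
      right_inv := ?_ }
  · rintro ⟨s, hs⟩
    ext
    simp [← mul_assoc, htt]
  · rintro ⟨s, hs⟩
    ext
    simp [← mul_assoc, htt]

include hρ2 ht2 ht in
lemma not_mem_of_order_two {s : G} (hs : orderOf s = 2) : s ∉ Q := by
  intro h
  have := order_of_mem H Fact.out Q Q.2 h (ne_one_of_order Nat.prime_two hs)
  exact hρ2 (this.symm.trans hs)

include hρ2 ht2 ht in
lemma card_NP_of_norm (hdvd : ρ ∣ Nat.card G) : Nat.card (NP Q) = 2 * Nat.card Q := by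
  have hinv : t⁻¹ = t := inv_t_of_order ht2
  have htt : t * t = 1 := by rw [← pow_two, ← ht2, pow_orderOf_eq_one]
  have h1 := card_split (α := G) (· ∈ NP Q) (· ∈ Q)
  have h2 : Nat.card {x : G // x ∈ NP Q ∧ x ∈ Q} = Nat.card Q :=
    Nat.card_congr (Equiv.subtypeEquivRight (fun x => by
      constructor
      · exact fun h => h.2
      · exact fun h => ⟨le_NP Q h, h⟩))
  have h3 : Nat.card {x : G // x ∈ NP Q ∧ x ∉ Q} = Nat.card Q := by
    rw [← card_invol_NP H hρ2 Q ht2 ht hdvd]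
    refine Nat.card_congr (Equiv.subtypeEquivRight (fun x => ?_))
    constructor
    · rintro ⟨hx1, hx2⟩
      refine ⟨?_, hx1⟩
      rcases NP_struct H hρ2 Q ht2 ht hx1 hdvd with h | h
      · exact absurd h hx2
      · have := order_mul_of_norm H hρ2 Q ht2 ht h
        rwa [← mul_assoc, htt, one_mul] at this
    · rintro ⟨hx1, hx2⟩
      exact ⟨hx2, not_mem_of_order_two H hρ2 Q ht2 ht hx1⟩
  have h4 : Nat.card {x : G // x ∈ NP Q} = Nat.card (NP Q) := rfl
  omega

end Dihedral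


section Counting

variable [Finite G]

/-- Number of Sylow `ρ`-subgroups normalized by `y`. -/
noncomputable def fc (ρ : ℕ) (y : G) : ℕ := Nat.card {Q : Sylow ρ G // y ∈ NP Q}

/-- Number of elements of order `τ` normalizing `Q`. -/
noncomputable def mc {ρ : ℕ} (τ : ℕ) (Q : Sylow ρ G) : ℕ :=
  Nat.card {x : G // orderOf x = τ ∧ x ∈ NP Q}

omit H in
lemma fc_aut (ρ : ℕ) [Fact ρ.Prime] (a : MulAut G) (y : G) : fc ρ (a y) = fc ρ y := by
  unfold fc
  symm
  exact Nat.card_congr (Equiv.subtypeEquiv (MulAction.toPerm a) (fun P => (mem_NP_smul a P y).symm))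

lemma fc_eq (ρ : ℕ) [Fact ρ.Prime] {y z : G} (h : orderOf y = orderOf z) : fc ρ y = fc ρ z := by
  obtain ⟨a, rfl⟩ := H.tr y z h
  exact (fc_aut ρ a y).symm

omit H in
lemma mc_aut {ρ : ℕ} (τ : ℕ) (a : MulAut G) (Q : Sylow ρ G) : mc τ (a • Q) = mc τ Q := by
  unfold mc
  symm
  refine Nat.card_congr (Equiv.subtypeEquiv a.toEquiv (fun x => ?_))
  simp only [MulEquiv.toEquiv_eq_coe, EquivLike.coe_coe, MulEquiv.orderOf_eq, mem_NP_smul]

omit H in
lemma mc_eq {ρ : ℕ} [Fact ρ.Prime] (τ : ℕ) (Q Q' : Sylow ρ G) : mc τ Q = mc τ Q' := by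
  obtain ⟨a, rfl⟩ := exists_aut_sylow Q Q'
  exact (mc_aut τ a Q).symm

lemma pairs_count {τ ρ : ℕ} [Fact ρ.Prime] {y0 : G} (hy0 : orderOf y0 = τ) (Q0 : Sylow ρ G) :
    Nat.card {x : G // orderOf x = τ} * fc ρ y0 = Nat.card (Sylow ρ G) * mc τ Q0 := by
  refine dcount (α := {x : G // orderOf x = τ}) (β := Sylow ρ G) (fun x Q => x.1 ∈ NP Q) _ _ ?_ ?_
  · rintro ⟨x, hx⟩
    exact fc_eq H ρ (hx.trans hy0.symm)
  · intro Q
    rw [mc_eq τ Q0 Q]
    exact Nat.card_congr (Equiv.subtypeSubtypeEquivSubtypeInter (fun x : G => orderOf x = τ)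
      (fun x : G => x ∈ NP Q))

omit H [Finite G] in
lemma Cz_conj (g y h : G) : g * h * g⁻¹ ∈ Cz (g * y * g⁻¹) ↔ h ∈ Cz y := by
  rw [mem_Cz, mem_Cz]
  constructor
  · intro e
    have h1 : g * (h * y) * g⁻¹ = g * (y * h) * g⁻¹ := by
      calc g * (h * y) * g⁻¹ = g * h * g⁻¹ * (g * y * g⁻¹) := by group
        _ = g * y * g⁻¹ * (g * h * g⁻¹) := e
        _ = g * (y * h) * g⁻¹ := by group
    exact mul_left_cancel (mul_right_cancel h1)
  · intro e
    calc g * h * g⁻¹ * (g * y * g⁻¹) = g * (h * y) * g⁻¹ := by group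
      _ = g * (y * h) * g⁻¹ := by rw [e]
      _ = g * y * g⁻¹ * (g * h * g⁻¹) := by group

omit H [Finite G] in
lemma mem_NP_of_inv {ρ : ℕ} {t y : G} {P : Sylow ρ G} (hy : t * y * t⁻¹ = y⁻¹)
    (hP : Cz y = (P : Subgroup G)) : t ∈ NP P := by
  rw [mem_NP]
  intro h
  have h1 := Cz_conj t y h
  rw [hy, Cz_inv, hP] at h1
  exact h1.symm

lemma omega_rho {ρ : ℕ} [Fact ρ.Prime] (hρ2 : ρ ≠ 2) {t : G} (ht2 : orderOf t = 2)
    (Q0 : Sylow ρ G) :
    Nat.card {t' : G // orderOf t' = 2 ∧ orderOf (t * t') = ρ} = fc ρ t * (Nat.card Q0 - 1) := by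
  have htt : t * t = 1 := by rw [← pow_two, ← ht2, pow_orderOf_eq_one]
  have hinv : t⁻¹ = t := inv_t_of_order ht2
  have hdvd : ∀ x : G, orderOf x = ρ → ρ ∣ Nat.card G := fun x hx => hx ▸ orderOf_dvd_natCard x
  have key := dcount (α := {t' : G // orderOf t' = 2 ∧ orderOf (t * t') = ρ})
    (β := {Q : Sylow ρ G // t ∈ NP Q})
    (fun t' Q => Cz (t * t'.1) = ((Q.1 : Sylow ρ G) : Subgroup G)) 1 (Nat.card Q0 - 1) ?_ ?_
  · rw [mul_one] at key
    rw [key]
    rfl
  · rintro ⟨t', ht'2, ht'ρ⟩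
    obtain ⟨P, hP⟩ := exists_sylow_eq_Cz H ht'ρ
    have hinv' : t'⁻¹ = t' := inv_t_of_order ht'2
    have h1 : t * (t * t') * t⁻¹ = (t * t')⁻¹ := by
      rw [mul_inv_rev, hinv, hinv', ← mul_assoc, htt, one_mul]
    have htP : t ∈ NP P := mem_NP_of_inv h1 hP
    rw [Nat.card_eq_one_iff_unique]
    refine ⟨⟨?_⟩, ⟨⟨⟨P, htP⟩, hP⟩⟩⟩
    rintro ⟨⟨Q, hQ⟩, hQ1⟩ ⟨⟨Q', hQ'⟩, hQ2⟩
    exact Subtype.ext (Subtype.ext (Sylow.ext (hQ1.symm.trans hQ2)))
  · rintro ⟨Q, hQ⟩
    have hQc : Nat.card Q0 = Nat.card Q := card_sylow_eq Q0 Q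
    rw [hQc, ← card_nonone]
    refine Nat.card_congr
      { toFun := fun s => ⟨t * s.1.1, ?_, ?_⟩
        invFun := fun x => ⟨⟨t * x.1, order_mul_of_norm H hρ2 Q ht2 hQ x.2.1, ?_⟩, ?_⟩
        left_inv := ?_
        right_inv := ?_ }
    · have h2 : t * s.1.1 ∈ Cz (t * s.1.1) := mem_Cz.mpr rfl
      have h3 := s.2
      simp only at h3
      rw [h3] at h2
      exact h2
    · exact ne_one_of_order Fact.out s.1.2.2
    · rw [← mul_assoc, htt, one_mul]
      exact order_of_mem H Fact.out Q Q.2 x.2.1 x.2.2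
    · simp only
      rw [← mul_assoc, htt, one_mul]
      exact Cz_of_norm H hρ2 Q ht2 hQ x.2.1 x.2.2
    · rintro ⟨⟨s, hs⟩, hs2⟩
      ext
      simp [← mul_assoc, htt]
    · rintro ⟨x, hx⟩
      ext
      simp [← mul_assoc, htt]

lemma omega_zero {t : G} (ht2 : orderOf t = 2) (S0 : Sylow 2 G) :
    Nat.card {t' : G // orderOf t' = 2 ∧ t' ∈ Cz t} = Nat.card S0 - 1 := by
  obtain ⟨S, hS⟩ := exists_sylow_eq_Cz H ht2
  have h1 : Nat.card (Cz t) = Nat.card S0 := by
    rw [hS]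
    exact card_sylow_eq S S0
  rw [← h1, ← card_nonone]
  have ht1 : t ≠ 1 := ne_one_of_order Nat.prime_two ht2
  refine Nat.card_congr (Equiv.subtypeEquivRight (fun x => ?_))
  constructor
  · rintro ⟨h2, h3⟩
    exact ⟨h3, ne_one_of_order Nat.prime_two h2⟩
  · rintro ⟨h2, h3⟩
    exact ⟨(commute_order H h3 ht1 (mem_Cz.mp h2)).trans ht2, h2⟩

lemma invol_count {p q : ℕ} [Fact p.Prime] [Fact q.Prime] (hp2 : p ≠ 2) (hq2 : q ≠ 2) (hpq : p ≠ q)
    (h3 : ∀ g : G, g ≠ 1 → orderOf g = 2 ∨ orderOf g = p ∨ orderOf g = q) {t : G}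
    (ht2 : orderOf t = 2) (S0 : Sylow 2 G) (P0 : Sylow p G) (Q0 : Sylow q G) :
    Nat.card {t' : G // orderOf t' = 2} =
      (Nat.card S0 - 1) + fc p t * (Nat.card P0 - 1) + fc q t * (Nat.card Q0 - 1) := by
  have htt : t * t = 1 := by rw [← pow_two, ← ht2, pow_orderOf_eq_one]
  have hinv : t⁻¹ = t := inv_t_of_order ht2
  rw [← omega_zero H ht2 S0, ← omega_rho H hp2 ht2 P0, ← omega_rho H hq2 ht2 Q0]
  have h1 := card_split (α := G) (fun t' => orderOf t' = 2) (· ∈ Cz t)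
  have h2 := card_split (α := G) (fun t' => orderOf t' = 2 ∧ t' ∉ Cz t) (fun t' => orderOf (t * t') = p)
  have hcomm : ∀ t' : G, orderOf t' = 2 → t' ∈ Cz t → (t * t') ^ 2 = 1 := by
    intro t' ht' hc
    have h5 : t' * t' = 1 := by rw [← pow_two, ← ht', pow_orderOf_eq_one]
    have h6 : t' * t = t * t' := mem_Cz.mp hc
    calc (t * t') ^ 2 = t * (t' * t) * t' := by simp [pow_two, mul_assoc]
      _ = t * (t * t') * t' := by rw [h6]
      _ = (t * t) * (t' * t') := by group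
      _ = 1 := by rw [htt, h5, one_mul]
  have hnot : ∀ (ρ : ℕ), ρ.Prime → ρ ≠ 2 → ∀ t' : G, orderOf t' = 2 → orderOf (t * t') = ρ → t' ∉ Cz t := by
    intro ρ hρ hρ2 t' ht' ho hc
    have h5 := hcomm t' ht' hc
    have h6 := orderOf_dvd_of_pow_eq_one h5
    rw [ho] at h6
    exact hρ2 ((Nat.prime_dvd_prime_iff_eq hρ Nat.prime_two).mp h6)
  have h4 : Nat.card {x : G // (orderOf x = 2 ∧ x ∉ Cz t) ∧ orderOf (t * x) = p} =
      Nat.card {t' : G // orderOf t' = 2 ∧ orderOf (t * t') = p} := by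
    refine Nat.card_congr (Equiv.subtypeEquivRight (fun x => ?_))
    constructor
    · rintro ⟨⟨h5, _⟩, h6⟩
      exact ⟨h5, h6⟩
    · rintro ⟨h5, h6⟩
      exact ⟨⟨h5, hnot p Fact.out hp2 x h5 h6⟩, h6⟩
  have h5 : Nat.card {x : G // (orderOf x = 2 ∧ x ∉ Cz t) ∧ ¬ orderOf (t * x) = p} =
      Nat.card {t' : G // orderOf t' = 2 ∧ orderOf (t * t') = q} := by
    refine Nat.card_congr (Equiv.subtypeEquivRight (fun x => ?_))
    constructor
    · rintro ⟨⟨h5, h6⟩, h7⟩
      refine ⟨h5, ?_⟩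
      have hx1 : t * x ≠ 1 := by
        intro e
        apply h6
        have : x = t := by
          rw [← hinv]
          exact eq_inv_of_mul_eq_one_right e
        rw [this]
        exact mem_Cz.mpr rfl
      rcases h3 _ hx1 with h8 | h8 | h8
      · exfalso
        apply h6
        have h9 : (t * x) ^ 2 = 1 := by rw [← h8, pow_orderOf_eq_one]
        have hxi : x⁻¹ = x := inv_t_of_order h5
        rw [mem_Cz]
        have h11 : t * x * (t * x) = 1 := by rw [← pow_two, h9]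
        have h12 : (t * x)⁻¹ = t * x := inv_eq_of_mul_eq_one_left h11
        rw [mul_inv_rev, hxi, hinv] at h12
        exact h12
      · exact absurd h8 h7
      · exact h8
    · rintro ⟨h5, h6⟩
      refine ⟨⟨h5, hnot q Fact.out hq2 x h5 h6⟩, ?_⟩
      rw [h6]
      exact Ne.symm hpq
  have h6 : Nat.card {x : G // orderOf x = 2 ∧ x ∈ Cz t} = Nat.card {x : G // orderOf x = 2 ∧ x ∈ Cz t} := rfl
  omega

end Counting


section Solv

variable [Finite G]

omit H [Finite G] in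
lemma solv_two {K : Type*} [Group K] [Finite K] {σ τ a b : ℕ} (hσ : σ.Prime) (hτ : τ.Prime)
    (h : Nat.card K = σ ^ a * τ ^ b) : Group.IsSolvable K :=
  Cfsg.Agent.Lib.BurnsidePQ.isSolvable_of_card_eq σ τ hσ hτ _ K rfl ⟨a, b, h⟩

omit H in
lemma transfer_contra (hns : ¬ Group.IsSolvable G) {ρ : ℕ} [Fact ρ.Prime] (P : Sylow ρ G)
    (hab : ∀ x ∈ P, ∀ y ∈ P, x * y = y * x) (hN : Nat.card (NP P) = Nat.card P)
    {σ τ a b : ℕ} (hσ : σ.Prime) (hτ : τ.Prime)
    (hG : Nat.card G = Nat.card P * (σ ^ a * τ ^ b)) : False := by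
  have hNeq : NP P = (P : Subgroup G) := by
    symm
    exact Subgroup.eq_of_le_of_card_ge (le_NP P) hN.le
  have hP : Subgroup.normalizer (P : Set G) ≤ Subgroup.centralizer (P : Set G) := by
    intro g hg
    have hg' : g ∈ (P : Subgroup G) := hNeq ▸ hg
    rw [Subgroup.mem_centralizer_iff]
    intro w hw
    exact hab w hw g hg'
  let φ : G →* P := MonoidHom.transferSylow P hP
  have hcomp := MonoidHom.ker_transferSylow_isComplement' P hP
  have hcard := hcomp.card_mul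
  have hpos : 0 < Nat.card P := Nat.card_pos
  have hK : Nat.card (φ.ker) = σ ^ a * τ ^ b := by
    have h1 : Nat.card (φ.ker) * Nat.card P = Nat.card P * (σ ^ a * τ ^ b) := by
      rw [← hG]
      exact hcard
    rw [mul_comm] at h1
    exact Nat.eq_of_mul_eq_mul_left hpos h1
  haveI : Group.IsSolvable (φ.ker) := solv_two hσ hτ hK
  haveI : Group.IsSolvable P := isSolvable_of_comm (fun a b => Subtype.ext (hab _ a.2 _ b.2))
  exact hns (solvable_of_ker_le_range (φ.ker).subtype φ (by simp))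

omit H in
lemma normal_contra (hns : ¬ Group.IsSolvable G) {ρ : ℕ} [Fact ρ.Prime] (P : Sylow ρ G)
    (hab : ∀ x ∈ P, ∀ y ∈ P, x * y = y * x) (hn : Nat.card (Sylow ρ G) = 1)
    {σ τ a b : ℕ} (hσ : σ.Prime) (hτ : τ.Prime)
    (hG : Nat.card G = Nat.card P * (σ ^ a * τ ^ b)) : False := by
  have hsub : Subsingleton (Sylow ρ G) := by
    exact (Nat.card_eq_one_iff_unique.mp hn).1
  haveI hnorm : (P : Subgroup G).Normal := Sylow.normal_of_subsingleton P
  have hpos : 0 < Nat.card P := Nat.card_pos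
  have hq : Nat.card (G ⧸ (P : Subgroup G)) = σ ^ a * τ ^ b := by
    have h1 := Subgroup.card_eq_card_quotient_mul_card_subgroup (P : Subgroup G)
    rw [hG, mul_comm] at h1
    exact (Nat.eq_of_mul_eq_mul_right hpos h1).symm
  haveI : Group.IsSolvable (G ⧸ (P : Subgroup G)) := solv_two hσ hτ hq
  haveI : Group.IsSolvable P := isSolvable_of_comm (fun a b => Subtype.ext (hab _ a.2 _ b.2))
  exact hns (solvable_of_ker_le_range (P : Subgroup G).subtype (QuotientGroup.mk' (P : Subgroup G))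
    (by simp))

omit H in
lemma card_three {ρ₁ ρ₂ ρ₃ : ℕ} [Fact ρ₁.Prime] [Fact ρ₂.Prime] [Fact ρ₃.Prime]
    (h12 : ρ₁ ≠ ρ₂) (h13 : ρ₁ ≠ ρ₃) (h23 : ρ₂ ≠ ρ₃)
    (hall : ∀ τ : ℕ, τ.Prime → τ ∣ Nat.card G → τ = ρ₁ ∨ τ = ρ₂ ∨ τ = ρ₃)
    (P₁ : Sylow ρ₁ G) (P₂ : Sylow ρ₂ G) (P₃ : Sylow ρ₃ G) :
    Nat.card G = Nat.card P₁ * Nat.card P₂ * Nat.card P₃ := by
  rw [Sylow.card_eq_multiplicity, Sylow.card_eq_multiplicity, Sylow.card_eq_multiplicity]
  have hne : Nat.card G ≠ 0 := Nat.card_pos.ne'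
  conv_lhs => rw [← Nat.prod_factorization_pow_eq_self hne]
  have hsub : (Nat.card G).factorization.support ⊆ {ρ₁, ρ₂, ρ₃} := by
    intro τ hτ
    rw [Nat.support_factorization, Nat.mem_primeFactors] at hτ
    simpa using hall τ hτ.1 hτ.2.1
  rw [Finsupp.prod_of_support_subset _ hsub _ (fun _ _ => pow_zero _)]
  rw [Finset.prod_insert (by simp [h12, h13]), Finset.prod_insert (by simp [h23]), Finset.prod_singleton]
  ring

lemma class_eq {ρ₁ ρ₂ ρ₃ : ℕ} (h1 : ρ₁ ≠ 1) (h2 : ρ₂ ≠ 1) (h3 : ρ₃ ≠ 1) (h12 : ρ₁ ≠ ρ₂) (h13 : ρ₁ ≠ ρ₃) (h23 : ρ₂ ≠ ρ₃)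
    (hall : ∀ g : G, g ≠ 1 → orderOf g = ρ₁ ∨ orderOf g = ρ₂ ∨ orderOf g = ρ₃) :
    Nat.card G = 1 + Nat.card {x : G // orderOf x = ρ₁} + Nat.card {x : G // orderOf x = ρ₂} +
      Nat.card {x : G // orderOf x = ρ₃} := by
  have e1 := card_split_top (α := G) (· = 1)
  have e2 := card_split (α := G) (· ≠ 1) (orderOf · = ρ₁)
  have e3 := card_split (α := G) (fun x => x ≠ 1 ∧ ¬ orderOf x = ρ₁) (orderOf · = ρ₂)
  have e4 : Nat.card {x : G // x = 1} = 1 := by simp
  have e5 : Nat.card {x : G // x ≠ 1 ∧ orderOf x = ρ₁} = Nat.card {x : G // orderOf x = ρ₁} :=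
    Nat.card_congr (Equiv.subtypeEquivRight (fun x => ⟨fun h => h.2, fun h => ⟨by
      rintro rfl
      rw [orderOf_one] at h
      exact h1 h.symm, h⟩⟩))
  have e6 : Nat.card {x : G // (x ≠ 1 ∧ ¬ orderOf x = ρ₁) ∧ orderOf x = ρ₂} =
      Nat.card {x : G // orderOf x = ρ₂} :=
    Nat.card_congr (Equiv.subtypeEquivRight (fun x => ⟨fun h => h.2, fun h => by
      refine ⟨?_, h⟩
      rcases eq_or_ne x 1 with rfl | hx1
      · rw [orderOf_one] at h
        exact absurd h.symm h2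
      · refine ⟨hx1, ?_⟩
        rw [h]
        exact h12.symm⟩))
  have e7 : Nat.card {x : G // (x ≠ 1 ∧ ¬ orderOf x = ρ₁) ∧ ¬ orderOf x = ρ₂} =
      Nat.card {x : G // orderOf x = ρ₃} := by
    refine Nat.card_congr (Equiv.subtypeEquivRight (fun x => ⟨?_, ?_⟩))
    · rintro ⟨⟨hx1, h5⟩, h6⟩
      rcases hall x hx1 with h7 | h7 | h7
      · exact absurd h7 h5
      · exact absurd h7 h6
      · exact h7
    · intro h5
      have hx1 : x ≠ 1 := by
        rintro rfl
        rw [orderOf_one] at h5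
        exact h3 h5.symm
      refine ⟨⟨hx1, ?_⟩, ?_⟩
      · rw [h5]; exact h13.symm
      · rw [h5]; exact h23.symm
  have e8 : Nat.card {x : G // ¬ x = 1} = Nat.card {x : G // x ≠ 1} := rfl
  omega

end Solv


section Even

variable (G) in
/-- Order of a Sylow `ρ`-subgroup. -/
noncomputable def sz (ρ : ℕ) : ℕ := ρ ^ (Nat.card G).factorization ρ

omit H in
lemma card_sylow_sz [Finite G] {ρ : ℕ} [Fact ρ.Prime] (P : Sylow ρ G) : Nat.card P = sz G ρ :=
  Sylow.card_eq_multiplicity P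

omit H in
lemma sz_coprime {ρ σ : ℕ} (hρ : ρ.Prime) (hσ : σ.Prime) (h : ρ ≠ σ) :
    Nat.Coprime (sz G ρ) (sz G σ) :=
  Nat.Coprime.pow _ _ ((Nat.coprime_primes hρ hσ).mpr h)

omit H in
lemma le_sz [Finite G] {ρ : ℕ} (hρ : ρ.Prime) (hd : ρ ∣ Nat.card G) : ρ ≤ sz G ρ := by
  unfold sz
  have h1 : (Nat.card G).factorization ρ ≠ 0 := by
    rw [← Nat.pos_iff_ne_zero]
    exact hρ.factorization_pos_of_dvd Nat.card_pos.ne' hd
  exact Nat.le_self_pow h1 ρ

omit H in
lemma sz_odd {ρ : ℕ} (hρ : ρ.Prime) (h2 : ρ ≠ 2) : Odd (sz G ρ) :=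
  (hρ.odd_of_ne_two h2).pow

variable (G) in
/-- Working hypotheses in the case of even order. -/
structure Ev (p q : ℕ) : Prop where
  H : EPO G
  hns : ¬ Group.IsSolvable G
  hp2 : p ≠ 2
  hq2 : q ≠ 2
  hpq : p ≠ q
  h3 : ∀ g : G, g ≠ 1 → orderOf g = 2 ∨ orderOf g = p ∨ orderOf g = q
  d2 : 2 ∣ Nat.card G
  dp : p ∣ Nat.card G
  dq : q ∣ Nat.card G

omit H in
lemma Ev.swap {p q : ℕ} (E : Ev G p q) : Ev G q p where
  H := E.H
  hns := E.hns
  hp2 := E.hq2
  hq2 := E.hp2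
  hpq := E.hpq.symm
  h3 := fun g hg => by
    rcases E.h3 g hg with h | h | h
    · exact Or.inl h
    · exact Or.inr (Or.inr h)
    · exact Or.inr (Or.inl h)
  d2 := E.d2
  dp := E.dq
  dq := E.dp

variable [Finite G] {p q : ℕ} [Fact p.Prime] [Fact q.Prime]

omit H [Fact p.Prime] [Fact q.Prime] in
lemma Ev.all (E : Ev G p q) (τ : ℕ) (hτ : τ.Prime) (hd : τ ∣ Nat.card G) :
    τ = 2 ∨ τ = p ∨ τ = q := by
  haveI : Fact τ.Prime := ⟨hτ⟩
  obtain ⟨x, hx⟩ := exists_prime_orderOf_dvd_card' τ hd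
  have h1 : x ≠ 1 := ne_one_of_order hτ hx
  rw [← hx]
  exact E.h3 x h1

omit H in
lemma Ev.card_G (E : Ev G p q) : Nat.card G = sz G 2 * sz G p * sz G q := by
  obtain ⟨S⟩ : Nonempty (Sylow 2 G) := inferInstance
  obtain ⟨P⟩ : Nonempty (Sylow p G) := inferInstance
  obtain ⟨Q⟩ : Nonempty (Sylow q G) := inferInstance
  have := card_three (Ne.symm E.hp2) (Ne.symm E.hq2) E.hpq E.all S P Q
  rwa [card_sylow_sz, card_sylow_sz, card_sylow_sz] at this

omit H in
lemma Ev.card_omega (E : Ev G p q) :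
    Nat.card {t : G // orderOf t = 2} = Nat.card (Sylow 2 G) * (sz G 2 - 1) := by
  obtain ⟨S⟩ : Nonempty (Sylow 2 G) := inferInstance
  rw [card_E E.H S, ZP_eq_of_comm S (fun x hx y hy => two_comm E.H S hx hy)]
  congr 2
  exact card_sylow_sz S

omit H in
lemma Ev.exists_elem (E : Ev G p q) {ρ : ℕ} [Fact ρ.Prime] (hd : ρ ∣ Nat.card G) :
    ∃ x : G, orderOf x = ρ :=
  exists_prime_orderOf_dvd_card' ρ hd

omit H in
lemma Ev.NP_le (E : Ev G p q) (S0 : Sylow 2 G) : Nat.card (NP S0) ≤ (sz G 2 - 1) * sz G 2 := by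
  have hne := S0.ne_bot_of_dvd_card E.d2
  obtain ⟨⟨t, ht⟩, ht1⟩ := Subgroup.ne_bot_iff_exists_ne_one.mp hne
  have ht1' : t ≠ 1 := fun e => ht1 (Subtype.ext e)
  have key := dcount_le (α := NP S0) (β := {s : G // s ∈ (S0 : Subgroup G) ∧ s ≠ 1})
    (fun g s => g.1 * t * g.1⁻¹ = s.1) (sz G 2) ?_ ?_
  · rw [card_nonone, card_sylow_sz] at key
    exact key
  · rintro ⟨g, hg⟩
    refine ⟨⟨g * t * g⁻¹, (mem_NP.mp hg t).mp ht, ?_⟩, rfl⟩
    intro e
    apply ht1'
    have h1 : g * t = g := by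
      calc g * t = g * t * g⁻¹ * g := by group
        _ = g := by rw [e, one_mul]
    exact mul_left_cancel (h1.trans (mul_one g).symm)
  · rintro ⟨s, hs, hs1⟩
    by_cases hex : ∃ g0 : NP S0, g0.1 * t * g0.1⁻¹ = s
    · obtain ⟨g0, hg0⟩ := hex
      rw [← card_sylow_sz S0]
      refine Nat.card_le_card_of_injective
        (fun g : {a : NP S0 // a.1 * t * a.1⁻¹ = s} =>
          (⟨g0.1⁻¹ * g.1.1, ?_⟩ : (S0 : Subgroup G))) ?_
      · rw [← Cz_two E.H S0 ht ht1', mem_Cz]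
        have h1 : g.1.1 * t * g.1.1⁻¹ = g0.1 * t * g0.1⁻¹ := g.2.trans hg0.symm
        have h2 : g.1.1 * t = g0.1 * t * g0.1⁻¹ * g.1.1 := by
          rw [← h1]; group
        calc g0.1⁻¹ * g.1.1 * t = g0.1⁻¹ * (g.1.1 * t) := by group
          _ = g0.1⁻¹ * (g0.1 * t * g0.1⁻¹ * g.1.1) := by rw [h2]
          _ = t * (g0.1⁻¹ * g.1.1) := by group
      · intro g g' h
        have h1 : g0.1⁻¹ * g.1.1 = g0.1⁻¹ * g'.1.1 := congrArg Subtype.val h
        exact Subtype.ext (Subtype.ext (mul_left_cancel h1))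
    · have : IsEmpty {a : NP S0 // a.1 * t * a.1⁻¹ = s} :=
        ⟨fun g => hex ⟨g.1, g.2⟩⟩
      rw [Nat.card_of_isEmpty]
      exact Nat.zero_le _

omit H in
lemma Ev.NP_ne (E : Ev G p q) (S0 : Sylow 2 G) : Nat.card (NP S0) ≠ sz G 2 := by
  intro h
  refine transfer_contra E.hns S0 (fun x hx y hy => two_comm E.H S0 hx hy)
    (h.trans (card_sylow_sz S0).symm) (σ := p) (τ := q)
    (a := (Nat.card G).factorization p) (b := (Nat.card G).factorization q) Fact.out Fact.out ?_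
  rw [card_sylow_sz S0]
  calc Nat.card G = sz G 2 * sz G p * sz G q := E.card_G
    _ = sz G 2 * (sz G p * sz G q) := by ring

omit H [Fact p.Prime] [Fact q.Prime] in
lemma Ev.invol_of_pos (E : Ev G p q) {ρ : ℕ} [Fact ρ.Prime] {t : G} (ht : 0 < fc ρ t)
    (ht2 : orderOf t = 2) (P0 : Sylow ρ G) :
    ∃ s : G, orderOf s = 2 ∧ s ∈ NP P0 := by
  have hne : Nonempty {Q : Sylow ρ G // t ∈ NP Q} := by
    by_contra hcon
    rw [not_nonempty_iff] at hcon
    have : fc ρ t = 0 := by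
      unfold fc
      rw [Nat.card_of_isEmpty]
    omega
  obtain ⟨⟨Q, hQ⟩⟩ := hne
  obtain ⟨a, rfl⟩ := exists_aut_sylow Q P0
  exact ⟨a t, by rw [MulEquiv.orderOf_eq, ht2], (mem_NP_smul a Q t).mpr hQ⟩

omit H [Fact p.Prime] [Fact q.Prime] in
/-- If an involution normalizes some Sylow `ρ`-subgroup then the Sylow `ρ`-subgroups are abelian
dihedrally-normalized. -/
lemma Ev.fc_pos_mul (E : Ev G p q) {ρ : ℕ} [Fact ρ.Prime] (hρ2 : ρ ≠ 2) (hd : ρ ∣ Nat.card G)
    {t : G} (ht : 0 < fc ρ t) (ht2 : orderOf t = 2) :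
    Nat.card {t' : G // orderOf t' = 2} * fc ρ t * 2 = Nat.card G := by
  obtain ⟨P0⟩ : Nonempty (Sylow ρ G) := inferInstance
  obtain ⟨s, hs2, hs⟩ := E.invol_of_pos ht ht2 P0
  have h1 := pairs_count E.H ht2 P0
  have h2 : mc 2 P0 = Nat.card P0 := card_invol_NP E.H hρ2 P0 hs2 hs hd
  have h3 := card_NP_of_norm E.H hρ2 P0 hs2 hs hd
  have h4 := card_NP_mul P0
  rw [h1, h2, ← h4, h3]
  ring

omit H [Fact p.Prime] [Fact q.Prime] in
lemma Ev.n_mul (E : Ev G p q) {ρ : ℕ} [Fact ρ.Prime] (hρ2 : ρ ≠ 2) (hd : ρ ∣ Nat.card G)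
    {t : G} (ht : 0 < fc ρ t) (ht2 : orderOf t = 2) :
    Nat.card (Sylow ρ G) * (2 * sz G ρ) = Nat.card G := by
  obtain ⟨P0⟩ : Nonempty (Sylow ρ G) := inferInstance
  obtain ⟨s, hs2, hs⟩ := E.invol_of_pos ht ht2 P0
  have h3 := card_NP_of_norm E.H hρ2 P0 hs2 hs hd
  have h4 := card_NP_mul P0
  rw [h3, card_sylow_sz P0] at h4
  exact h4

omit H [Fact p.Prime] [Fact q.Prime] in
lemma Ev.ZP_of_pos (E : Ev G p q) {ρ : ℕ} [Fact ρ.Prime] (hρ2 : ρ ≠ 2)
    {t : G} (ht : 0 < fc ρ t) (ht2 : orderOf t = 2) :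
    Nat.card {x : G // orderOf x = ρ} = Nat.card (Sylow ρ G) * (sz G ρ - 1) := by
  obtain ⟨P0⟩ : Nonempty (Sylow ρ G) := inferInstance
  obtain ⟨s, hs2, hs⟩ := E.invol_of_pos ht ht2 P0
  rw [card_E E.H P0, ZP_eq_of_comm P0 (fun x hx y hy => comm_of_norm E.H hρ2 P0 hs2 hs hx hy),
    card_sylow_sz]

omit H in
lemma Ev.sz2_dvd (E : Ev G p q) (S0 : Sylow 2 G) : sz G 2 ∣ Nat.card (NP S0) := by
  rw [← card_sylow_sz S0]
  exact Subgroup.card_dvd_of_le (le_NP S0)

omit H in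
/-- The main numerical consequence of having an inverted prime. -/
lemma Ev.rel_r (E : Ev G p q) {ρ : ℕ} [Fact ρ.Prime] (hρ2 : ρ ≠ 2) (hd : ρ ∣ Nat.card G)
    {t : G} (ht : 0 < fc ρ t) (ht2 : orderOf t = 2) (S0 : Sylow 2 G) :
    Nat.card (NP S0) = sz G 2 * (sz G 2 - 1) ∧ 2 * fc ρ t = sz G 2 ∧
      Nat.card {t' : G // orderOf t' = 2} = sz G p * sz G q := by
  obtain ⟨r, hr⟩ := E.sz2_dvd S0
  have hA2 : 2 ≤ sz G 2 := le_sz Nat.prime_two E.d2
  set A := sz G 2 with hA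
  have hle := E.NP_le S0
  have h1 := E.fc_pos_mul hρ2 hd ht ht2
  rw [E.card_omega] at h1
  have h2 := card_NP_mul S0
  rw [hr] at h2 hle
  have hn : 0 < Nat.card (Sylow 2 G) := Nat.card_pos
  have h3 : (A - 1) * fc ρ t * 2 = A * r := by
    refine Nat.eq_of_mul_eq_mul_left hn ?_
    rw [h2, ← h1]
    ring
  have hcop : Nat.Coprime (A - 1) A := by
    have : A = (A - 1) + 1 := by omega
    rw [Nat.coprime_comm, this]
    simp
  have hG : 0 < Nat.card G := Nat.card_pos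
  have hrpos : 0 < r := by
    by_contra h0
    have : r = 0 := by omega
    rw [this, mul_zero, mul_zero] at h2
    omega
  have h4 : (A - 1) ∣ r := by
    have : (A - 1) ∣ A * r := ⟨fc ρ t * 2, by rw [← h3]; ring⟩
    exact hcop.dvd_of_dvd_mul_left this
  have h5 : A - 1 ≤ r := Nat.le_of_dvd hrpos h4
  have h6 : r ≤ A - 1 := by
    have : A * r ≤ A * (A - 1) := by rw [mul_comm A (A - 1)]; exact hle
    exact Nat.le_of_mul_le_mul_left this (by omega)
  have hr2 : r = A - 1 := le_antisymm h6 h5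
  subst hr2
  refine ⟨hr, ?_, ?_⟩
  · have : (A - 1) * (2 * fc ρ t) = (A - 1) * A := by
      rw [mul_comm (A - 1) A, ← h3]; ring
    exact Nat.eq_of_mul_eq_mul_left (by omega) this
  · rw [E.card_omega]
    have h7 : A * (Nat.card (Sylow 2 G) * (A - 1)) = A * (sz G p * sz G q) := by
      have h8 := E.card_G
      rw [← hA] at h8
      rw [mul_assoc] at h8
      rw [← h8, ← h2]
      ring
    exact Nat.eq_of_mul_eq_mul_left (by omega) h7

omit H in
lemma Ev.not_both_zero (E : Ev G p q) {t : G} (ht2 : orderOf t = 2) :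
    0 < fc p t ∨ 0 < fc q t := by
  by_contra hcon
  push Not at hcon
  obtain ⟨h1, h2⟩ := hcon
  have h1' : fc p t = 0 := by omega
  have h2' : fc q t = 0 := by omega
  obtain ⟨S⟩ : Nonempty (Sylow 2 G) := inferInstance
  obtain ⟨P⟩ : Nonempty (Sylow p G) := inferInstance
  obtain ⟨Q⟩ : Nonempty (Sylow q G) := inferInstance
  have h3 := invol_count E.H E.hp2 E.hq2 E.hpq E.h3 ht2 S P Q
  rw [E.card_omega, h1', h2', card_sylow_sz S] at h3
  simp only [zero_mul, add_zero] at h3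
  have hA2 : 2 ≤ sz G 2 := le_sz Nat.prime_two E.d2
  have hn : Nat.card (Sylow 2 G) = 1 := by
    have : Nat.card (Sylow 2 G) * (sz G 2 - 1) = 1 * (sz G 2 - 1) := by rw [h3, one_mul]
    exact Nat.eq_of_mul_eq_mul_right (by omega) this
  refine normal_contra E.hns S (fun x hx y hy => two_comm E.H S hx hy) hn (σ := p) (τ := q)
    (a := (Nat.card G).factorization p) (b := (Nat.card G).factorization q) Fact.out Fact.out ?_
  rw [card_sylow_sz S]
  calc Nat.card G = sz G 2 * sz G p * sz G q := E.card_G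
    _ = sz G 2 * (sz G p * sz G q) := by ring

omit H in
lemma Ev.class_eq (E : Ev G p q) :
    Nat.card G = 1 + Nat.card {x : G // orderOf x = 2} + Nat.card {x : G // orderOf x = p} +
      Nat.card {x : G // orderOf x = q} :=
  _root_.Cfsg.Agent.S4068.class_eq E.H (by norm_num) (Fact.out : p.Prime).ne_one
    (Fact.out : q.Prime).ne_one (Ne.symm E.hp2) (Ne.symm E.hq2) E.hpq E.h3

omit H in
/-- Case II: exactly one inverted prime is impossible. -/
lemma Ev.case2 (E : Ev G p q) {t : G} (ht2 : orderOf t = 2) (hp : 0 < fc p t) (hq : fc q t = 0) :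
    False := by
  obtain ⟨S⟩ : Nonempty (Sylow 2 G) := inferInstance
  obtain ⟨P⟩ : Nonempty (Sylow p G) := inferInstance
  obtain ⟨Q⟩ : Nonempty (Sylow q G) := inferInstance
  obtain ⟨h1, h2, h3⟩ := E.rel_r E.hp2 E.dp hp ht2 S
  have h4 := invol_count E.H E.hp2 E.hq2 E.hpq E.h3 ht2 S P Q
  rw [h3, hq, card_sylow_sz S, card_sylow_sz P, zero_mul, add_zero] at h4
  have hcl := E.class_eq
  rw [h3, E.ZP_of_pos E.hp2 hp ht2, card_E E.H Q, E.card_G] at hcl
  have hnp := E.n_mul E.hp2 E.dp hp ht2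
  rw [E.card_G] at hnp
  -- the number `u`
  obtain ⟨u, hu⟩ : sz G q ∣ Nat.card (NP Q) := by
    rw [← card_sylow_sz Q]
    exact Subgroup.card_dvd_of_le (le_NP Q)
  have hno2 : ¬ 2 ∣ Nat.card (NP Q) := by
    intro hdvd
    obtain ⟨x, hx⟩ := exists_prime_orderOf_dvd_card' (G := NP Q) 2 hdvd
    have hx' : orderOf (x : G) = 2 := by rw [Subgroup.orderOf_coe, hx]
    have : 0 < fc q (x : G) := by
      unfold fc
      exact Nat.card_pos_iff.mpr ⟨⟨⟨Q, x.2⟩⟩, inferInstance⟩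
    rw [fc_eq E.H q (hx'.trans ht2.symm)] at this
    omega
  have huo : Odd u := by
    by_contra hcon
    rw [Nat.not_odd_iff_even] at hcon
    exact hno2 (hu ▸ (Dvd.dvd.mul_left hcon.two_dvd _))
  have hn := card_NP_mul Q
  rw [hu, E.card_G] at hn
  have hCpos : 0 < sz G q := lt_of_lt_of_le (Fact.out : q.Prime).pos (le_sz Fact.out E.dq)
  have h5 : Nat.card (Sylow q G) * u = sz G 2 * sz G p := by
    refine Nat.eq_of_mul_eq_mul_right hCpos ?_
    rw [← hn]
    ring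
  have hcopu : Nat.Coprime u (sz G 2) := by
    unfold sz
    exact Nat.Coprime.pow_right _ (Nat.coprime_two_right.mpr huo)
  have hub : u ∣ sz G p := by
    have : u ∣ sz G 2 * sz G p := ⟨Nat.card (Sylow q G), by rw [← h5]; ring⟩
    exact hcopu.dvd_of_dvd_mul_left this
  obtain ⟨w, hw⟩ := hub
  have hupos : 0 < u := huo.pos
  have h6 : Nat.card (Sylow q G) = sz G 2 * w := by
    refine Nat.eq_of_mul_eq_mul_right hupos ?_
    rw [h5, hw]
    ring
  rw [h6] at hcl
  -- the center of `Q`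
  have hzd : Nat.card (ZP Q) ∣ sz G q := by
    rw [← card_sylow_sz Q]
    exact Subgroup.card_dvd_of_le inf_le_left
  have hz : Nat.card (ZP Q) = sz G q ∨ 3 * Nat.card (ZP Q) ≤ sz G q := by
    obtain ⟨k, hk⟩ := hzd
    have hqo : Odd (sz G q) := sz_odd Fact.out E.hq2
    rw [hk] at hqo
    have hko : Odd k := (Nat.odd_mul.mp hqo).2
    by_cases hk1 : k = 1
    · left
      rw [hk, hk1, mul_one]
    · right
      have hk3 : 3 ≤ k := by
        obtain ⟨j, hj⟩ := hko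
        omega
      rw [hk, mul_comm]
      exact Nat.mul_le_mul_left _ hk3
  have hB3 : 3 ≤ sz G p := by
    have h7 := le_sz (Fact.out : p.Prime) E.dp
    have h8 : 2 ≤ p := (Fact.out : p.Prime).two_le
    have := E.hp2
    omega
  have hC3 : 3 ≤ sz G q := by
    have h7 := le_sz (Fact.out : q.Prime) E.dq
    have h8 : 2 ≤ q := (Fact.out : q.Prime).two_le
    have := E.hq2
    omega
  have hA2 : 2 ≤ sz G 2 := le_sz Nat.prime_two E.d2
  have hz1 : 1 ≤ Nat.card (ZP Q) := Nat.card_pos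
  refine arith_case2 (sz G 2) (sz G p) (sz G q) u w (Nat.card (ZP Q)) (Nat.card (Sylow p G))
    hB3 hC3 (by omega) hw huo hz hz1 ?_ ?_ ?_
  · rw [hcl]
  · rw [hnp]
  · obtain ⟨A', hA'⟩ : ∃ A', sz G 2 = A' + 1 := ⟨sz G 2 - 1, by omega⟩
    obtain ⟨B', hB'⟩ : ∃ B', sz G p = B' + 1 := ⟨sz G p - 1, by omega⟩
    rw [hA', hB'] at h4
    rw [hA'] at h2
    rw [hA', hB']
    simp only [Nat.add_sub_cancel] at h4
    have e : 2 * (B' + 1) * sz G q = 2 * ((B' + 1) * sz G q) := by ring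
    have e2 : 2 * (fc p t * B') = (A' + 1) * B' := by rw [← mul_assoc, h2]
    rw [e, h4]
    nlinarith [e2]

/-- The data produced by the analysis. -/
structure Fin2 (G : Type*) [Group G] (p q : ℕ) : Prop where
  hB : sz G p + 1 = sz G 2
  hC : sz G q = sz G 2 + 1
  gp : ∀ x : G, orderOf x = p → fc 2 x = 2
  gq : ∀ x : G, orderOf x = q → fc 2 x = 0
  hNP : ∀ S0 : Sylow 2 G, Nat.card (NP S0) = sz G 2 * (sz G 2 - 1)
  hnq : ∀ t : G, orderOf t = 2 → 0 < fc q t

omit H in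
lemma Ev.card_NP_two (E : Ev G p q) (S0 : Sylow 2 G) :
    Nat.card (NP S0) = sz G 2 + mc p S0 + mc q S0 := by
  have h1 := card_split (α := G) (· ∈ NP S0) (· ∈ S0)
  have h2 := card_split (α := G) (fun x => x ∈ NP S0 ∧ x ∉ S0) (orderOf · = p)
  have h3 : Nat.card {x : G // x ∈ NP S0 ∧ x ∈ S0} = sz G 2 := by
    rw [← card_sylow_sz S0]
    exact Nat.card_congr (Equiv.subtypeEquivRight (fun x =>
      ⟨fun h => h.2, fun h => ⟨le_NP S0 h, h⟩⟩))
  have hne : ∀ {ρ : ℕ}, ρ.Prime → ρ ≠ 2 → ∀ x : G, orderOf x = ρ → x ∉ S0 := by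
    intro ρ hρ hρ2 x hx hxS
    have := order_of_mem E.H Nat.prime_two S0 S0.2 hxS (ne_one_of_order hρ hx)
    exact hρ2 (hx.symm.trans this)
  have h4 : Nat.card {x : G // (x ∈ NP S0 ∧ x ∉ S0) ∧ orderOf x = p} = mc p S0 := by
    refine Nat.card_congr (Equiv.subtypeEquivRight (fun x => ⟨?_, ?_⟩))
    · rintro ⟨⟨h5, _⟩, h6⟩
      exact ⟨h6, h5⟩
    · rintro ⟨h5, h6⟩
      exact ⟨⟨h6, hne Fact.out E.hp2 x h5⟩, h5⟩
  have h5 : Nat.card {x : G // (x ∈ NP S0 ∧ x ∉ S0) ∧ ¬ orderOf x = p} = mc q S0 := by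
    refine Nat.card_congr (Equiv.subtypeEquivRight (fun x => ⟨?_, ?_⟩))
    · rintro ⟨⟨h5, h6⟩, h7⟩
      refine ⟨?_, h5⟩
      have hx1 : x ≠ 1 := by
        rintro rfl
        exact h6 (S0.toSubgroup.one_mem)
      rcases E.h3 x hx1 with h8 | h8 | h8
      · exact absurd (mem_of_mem_NP S0 h5 h8) h6
      · exact absurd h8 h7
      · exact h8
    · rintro ⟨h5, h6⟩
      refine ⟨⟨h6, hne Fact.out E.hq2 x h5⟩, ?_⟩
      rw [h5]
      exact E.hpq.symm
  have h6 : Nat.card {x : G // x ∈ NP S0} = Nat.card (NP S0) := rfl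
  omega

omit H in
lemma Ev.mc_rel (E : Ev G p q) {t : G} (ht2 : orderOf t = 2) (hp : 0 < fc p t) (S0 : Sylow 2 G)
    (x : G) (hx : orderOf x = p) :
    (sz G p - 1) * fc 2 x * Nat.card (NP S0) = mc p S0 * (2 * sz G p) := by
  have h1 := pairs_count E.H hx S0
  rw [E.ZP_of_pos E.hp2 hp ht2] at h1
  have h2 := E.n_mul E.hp2 E.dp hp ht2
  have h3 := card_NP_mul S0
  have hG : 0 < Nat.card G := Nat.card_pos
  refine Nat.eq_of_mul_eq_mul_left hG ?_
  calc Nat.card G * ((sz G p - 1) * fc 2 x * Nat.card (NP S0))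
      = (Nat.card (Sylow p G) * (2 * sz G p)) * ((sz G p - 1) * fc 2 x * Nat.card (NP S0)) := by
        rw [h2]
    _ = (Nat.card (Sylow p G) * (sz G p - 1) * fc 2 x) * (2 * sz G p) * Nat.card (NP S0) := by ring
    _ = (Nat.card (Sylow 2 G) * mc p S0) * (2 * sz G p) * Nat.card (NP S0) := by rw [h1]
    _ = (Nat.card (Sylow 2 G) * Nat.card (NP S0)) * (mc p S0 * (2 * sz G p)) := by ring
    _ = Nat.card G * (mc p S0 * (2 * sz G p)) := by rw [h3]

omit H in
lemma Ev.eq2 (E : Ev G p q) {t : G} (ht2 : orderOf t = 2) (hp : 0 < fc p t) (hq : 0 < fc q t) :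
    2 * sz G p * sz G q + 2 = sz G 2 * (sz G p + sz G q) := by
  obtain ⟨S⟩ : Nonempty (Sylow 2 G) := inferInstance
  obtain ⟨P⟩ : Nonempty (Sylow p G) := inferInstance
  obtain ⟨Q⟩ : Nonempty (Sylow q G) := inferInstance
  obtain ⟨h1, h2, h3⟩ := E.rel_r E.hp2 E.dp hp ht2 S
  obtain ⟨_, h2', _⟩ := E.rel_r E.hq2 E.dq hq ht2 S
  have h4 := invol_count E.H E.hp2 E.hq2 E.hpq E.h3 ht2 S P Q
  rw [h3, card_sylow_sz S, card_sylow_sz P, card_sylow_sz Q] at h4
  have hB3 : 1 ≤ sz G p := lt_of_lt_of_le (Fact.out : p.Prime).pos (le_sz Fact.out E.dp)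
  have hC3 : 1 ≤ sz G q := lt_of_lt_of_le (Fact.out : q.Prime).pos (le_sz Fact.out E.dq)
  have hA3 : 1 ≤ sz G 2 := lt_of_lt_of_le (by norm_num) (le_sz Nat.prime_two E.d2)
  obtain ⟨A', hA'⟩ : ∃ A', sz G 2 = A' + 1 := ⟨sz G 2 - 1, by omega⟩
  obtain ⟨B', hB'⟩ : ∃ B', sz G p = B' + 1 := ⟨sz G p - 1, by omega⟩
  obtain ⟨C', hC'⟩ : ∃ C', sz G q = C' + 1 := ⟨sz G q - 1, by omega⟩
  rw [hA', hB', hC'] at h4 ⊢
  rw [hA'] at h2 h2'
  simp only [Nat.add_sub_cancel] at h4
  have e1 : 2 * (fc p t * B') = (A' + 1) * B' := by rw [← mul_assoc, h2]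
  have e2 : 2 * (fc q t * C') = (A' + 1) * C' := by rw [← mul_assoc, h2']
  nlinarith [e1, e2, h4]

omit H in
lemma Ev.A_ge (E : Ev G p q) {t : G} (ht2 : orderOf t = 2) (hp : 0 < fc p t) : 4 ≤ sz G 2 := by
  obtain ⟨S⟩ : Nonempty (Sylow 2 G) := inferInstance
  obtain ⟨h1, _, _⟩ := E.rel_r E.hp2 E.dp hp ht2 S
  have h2 := E.NP_ne S
  have hA2 : 2 ≤ sz G 2 := le_sz Nat.prime_two E.d2
  have hd : 2 ∣ sz G 2 := by
    unfold sz
    refine dvd_pow_self 2 ?_
    have := Nat.prime_two.factorization_pos_of_dvd Nat.card_pos.ne' E.d2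
    omega
  have hne : sz G 2 ≠ 2 := by
    intro h
    rw [h] at h1
    rw [h, h1] at h2
    exact h2 rfl
  omega

omit H in
/-- Case I with one of the primes not dividing `|N(S)|`. -/
lemma Ev.single (E : Ev G p q) {t : G} (ht2 : orderOf t = 2) (hp : 0 < fc p t) (hq : 0 < fc q t)
    (S0 : Sylow 2 G) (hM : mc q S0 = 0) : Fin2 G p q := by
  have hA4 := E.A_ge ht2 hp
  obtain ⟨h1, h2, h3⟩ := E.rel_r E.hp2 E.dp hp ht2 S0
  have hA2 : 2 ∣ sz G 2 := by
    rw [← h2]; exact Dvd.intro _ rfl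
  have htot := E.card_NP_two S0
  rw [hM, h1, add_zero] at htot
  obtain ⟨r, hr⟩ : ∃ r, sz G 2 = r + 1 := ⟨sz G 2 - 1, by omega⟩
  have hMp : mc p S0 = (r + 1) * (r - 1) := by
    rw [hr] at htot
    simp only [Nat.add_sub_cancel] at htot
    obtain ⟨r', rfl⟩ : ∃ r', r = r' + 1 := ⟨r - 1, by omega⟩
    simp only [Nat.add_sub_cancel]
    nlinarith
  have hr3 : 3 ≤ r := by omega
  have hrc : Nat.Coprime r 2 := by
    rw [Nat.coprime_two_right]
    rw [hr] at hA2
    rw [← Nat.not_even_iff_odd]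
    intro he
    obtain ⟨k, hk⟩ := hA2
    obtain ⟨j, hj⟩ := he
    omega
  have hBpos : 2 ≤ sz G p := le_trans (Fact.out : p.Prime).two_le (le_sz Fact.out E.dp)
  obtain ⟨x0, hx0⟩ := E.exists_elem E.dp
  have hrel : ∀ x : G, orderOf x = p → sz G p = r ∧ fc 2 x = 2 := by
    intro x hx
    have h4 := E.mc_rel ht2 hp S0 x hx
    rw [hMp, h1, hr] at h4
    simp only [Nat.add_sub_cancel] at h4
    have h5 : (r + 1) * ((sz G p - 1) * fc 2 x * r) = (r + 1) * (2 * (r - 1) * sz G p) := by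
      calc _ = (sz G p - 1) * fc 2 x * ((r + 1) * r) := by ring
        _ = _ := by rw [h4]; ring
    exact arith_single r (sz G p) (fc 2 x) hr3 hrc hBpos (Nat.eq_of_mul_eq_mul_left (by omega) h5)
  have hBr : sz G p = r := (hrel x0 hx0).1
  have heq := E.eq2 ht2 hp hq
  have hCval : sz G q = r + 2 := by
    rw [hBr, hr] at heq
    obtain ⟨r', rfl⟩ : ∃ r', r = r' + 1 := ⟨r - 1, by omega⟩
    have h6 : (r' + 1 - 1) * sz G q = (r' + 1 - 1) * (r' + 1 + 2) := by
      simp only [Nat.add_sub_cancel]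
      nlinarith
    exact Nat.eq_of_mul_eq_mul_left (by omega) h6
  refine ⟨?_, ?_, ?_, ?_, ?_, ?_⟩
  · rw [hBr, hr]
  · rw [hCval, hr]
  · intro x hx
    exact (hrel x hx).2
  · intro x hx
    have h7 := pairs_count E.H hx S0
    rw [hM, mul_zero] at h7
    have hpos : 0 < Nat.card {y : G // orderOf y = q} := Nat.card_pos_iff.mpr ⟨⟨⟨x, hx⟩⟩, inferInstance⟩
    rcases Nat.mul_eq_zero.mp h7 with h8 | h8
    · omega
    · exact h8
  · intro S
    exact (E.rel_r E.hp2 E.dp hp ht2 S).1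
  · intro t' ht'
    rw [fc_eq E.H q (ht'.trans ht2.symm)]
    exact hq

omit H in
lemma Ev.both (E : Ev G p q) {t : G} (ht2 : orderOf t = 2) (hp : 0 < fc p t) (hq : 0 < fc q t)
    (S0 : Sylow 2 G) (hMp : 0 < mc p S0) (hMq : 0 < mc q S0) : False := by
  have hA4 := E.A_ge ht2 hp
  obtain ⟨h1, h2, h3⟩ := E.rel_r E.hp2 E.dp hp ht2 S0
  have htot := E.card_NP_two S0
  rw [h1] at htot
  have heq := E.eq2 ht2 hp hq
  obtain ⟨x, hx⟩ := E.exists_elem E.dp
  obtain ⟨y, hy⟩ := E.exists_elem E.dq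
  have hrx := E.mc_rel ht2 hp S0 x hx
  have hry := E.swap.mc_rel ht2 hq S0 y hy
  rw [h1] at hrx hry
  -- `r ∣ B C`
  have hn := card_NP_mul S0
  rw [h1, E.card_G] at hn
  have hA0 : 0 < sz G 2 := by omega
  have hrd : (sz G 2 - 1) ∣ sz G p * sz G q := by
    have h4 : sz G 2 * (Nat.card (Sylow 2 G) * (sz G 2 - 1)) = sz G 2 * (sz G p * sz G q) := by
      rw [mul_assoc] at hn
      rw [← hn]; ring
    exact ⟨Nat.card (Sylow 2 G), by rw [← Nat.eq_of_mul_eq_mul_left hA0 h4]; ring⟩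
  obtain ⟨a0, b0, ha0, hb0, hab⟩ := (Nat.dvd_mul).mp hrd
  have hr0 : 0 < sz G 2 - 1 := by omega
  have ha0pos : 0 < a0 := by
    rcases Nat.eq_zero_or_pos a0 with h | h
    · rw [h, zero_mul] at hab; omega
    · exact h
  have hb0pos : 0 < b0 := by
    rcases Nat.eq_zero_or_pos b0 with h | h
    · rw [h, mul_zero] at hab; omega
    · exact h
  set A' := fc p t with hA'
  have hAeq : sz G 2 = 2 * A' := h2.symm
  have hcopBC : Nat.Coprime (sz G p) (sz G q) := sz_coprime Fact.out Fact.out E.hpq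
  have hcopAB : Nat.Coprime (sz G 2) (sz G p) := sz_coprime Nat.prime_two Fact.out (Ne.symm E.hp2)
  have hcopAC : Nat.Coprime (sz G 2) (sz G q) := sz_coprime Nat.prime_two Fact.out (Ne.symm E.hq2)
  have hA'dvd : A' ∣ sz G 2 := ⟨2, by rw [hAeq]; ring⟩
  have hB3 : 3 ≤ sz G p := by
    have h7 := le_sz (Fact.out : p.Prime) E.dp
    have h8 : 2 ≤ p := (Fact.out : p.Prime).two_le
    have := E.hp2
    omega
  have hC3 : 3 ≤ sz G q := by
    have h7 := le_sz (Fact.out : q.Prime) E.dq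
    have h8 : 2 ≤ q := (Fact.out : q.Prime).two_le
    have := E.hq2
    omega
  have hBC8 : 8 ≤ sz G p + sz G q := by
    obtain ⟨x1, hx1⟩ := sz_odd (G := G) (Fact.out : p.Prime) E.hp2
    obtain ⟨x2, hx2⟩ := sz_odd (G := G) (Fact.out : q.Prime) E.hq2
    have hne : sz G p ≠ sz G q := by
      intro h
      rw [← h, Nat.coprime_self] at hcopBC
      omega
    omega
  have e1 : sz G 2 * (sz G 2 - 1) = (2 * A') * (a0 * b0) := by rw [hab, ← hAeq]
  refine arith_both A' a0 b0 (sz G p) (sz G q) (fc 2 x) (fc 2 y) (mc p S0) (mc q S0)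
    (by omega) ha0pos hb0pos hB3 hC3 hBC8 (by rw [hab, ← hAeq]; omega) ?_ ?_ ?_ ?_ hMp hMq ?_ ?_
  · exact Nat.Coprime.mul_left (Nat.Coprime.coprime_dvd_left hb0 hcopBC.symm)
      (Nat.Coprime.coprime_dvd_left hA'dvd hcopAB)
  · exact Nat.Coprime.mul_left (Nat.Coprime.coprime_dvd_left ha0 hcopBC)
      (Nat.Coprime.coprime_dvd_left hA'dvd hcopAC)
  · rw [← e1]; exact hrx
  · rw [← e1]; exact hry
  · rw [← e1, htot, hAeq]
  · rw [← hAeq]; exact heq

omit H in
lemma Ev.data (E : Ev G p q) : Fin2 G p q ∨ Fin2 G q p := by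
  obtain ⟨t, ht2⟩ := E.exists_elem E.d2
  obtain ⟨S⟩ : Nonempty (Sylow 2 G) := inferInstance
  rcases Nat.eq_zero_or_pos (fc p t) with hp | hp
  · rcases E.not_both_zero ht2 with h | h
    · omega
    · exact absurd (E.swap.case2 ht2 h hp) id
  · rcases Nat.eq_zero_or_pos (fc q t) with hq | hq
    · exact absurd (E.case2 ht2 hp hq) id
    · rcases Nat.eq_zero_or_pos (mc q S) with hm | hm
      · exact Or.inl (E.single ht2 hp hq S hm)
      · rcases Nat.eq_zero_or_pos (mc p S) with hm' | hm'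
        · exact Or.inr (E.swap.single ht2 hq hp S hm')
        · exact absurd (E.both ht2 hp hq S hm' hm) id

omit H in
lemma Ev.fc_invol (E : Ev G p q) {u : G} (hu : orderOf u = 2) : fc 2 u = 1 := by
  unfold fc
  obtain ⟨S, hS⟩ := exists_sylow_eq_Cz E.H hu
  have hu1 : u ≠ 1 := ne_one_of_order Nat.prime_two hu
  have huS : u ∈ S := by
    change u ∈ (S : Subgroup G)
    rw [← hS]
    exact mem_Cz.mpr rfl
  rw [Nat.card_eq_one_iff_unique]
  refine ⟨⟨?_⟩, ⟨⟨S, le_NP S huS⟩⟩⟩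
  rintro ⟨Q, hQ⟩ ⟨Q', hQ'⟩
  have h1 := mem_of_mem_NP Q hQ hu
  have h2 := mem_of_mem_NP Q' hQ' hu
  have h3 := Cz_two E.H Q h1 hu1
  have h4 := Cz_two E.H Q' h2 hu1
  exact Subtype.ext (Sylow.ext (h3.symm.trans h4))

omit H in
lemma Ev.fc_le (E : Ev G p q) (F : Fin2 G p q) {u : G} (hu : u ≠ 1) : fc 2 u ≤ 2 := by
  rcases E.h3 u hu with h | h | h
  · rw [E.fc_invol h]; norm_num
  · rw [F.gp u h]
  · rw [F.gq u h]; norm_num

omit H [Fact p.Prime] [Fact q.Prime] in
lemma three_le_fc {u : G} {a b c : Sylow 2 G} (ha : u ∈ NP a) (hb : u ∈ NP b) (hc : u ∈ NP c)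
    (hab : a ≠ b) (hac : a ≠ c) (hbc : b ≠ c) : 3 ≤ fc 2 u := by
  classical
  haveI := Fintype.ofFinite (Sylow 2 G)
  unfold fc
  rw [Nat.card_eq_fintype_card, Fintype.card_subtype]
  have h1 : ({a, b, c} : Finset (Sylow 2 G)) ⊆ Finset.univ.filter (fun Q => u ∈ NP Q) := by
    intro Q hQ
    simp only [Finset.mem_insert, Finset.mem_singleton] at hQ
    simp only [Finset.mem_filter, Finset.mem_univ, true_and]
    rcases hQ with rfl | rfl | rfl <;> assumption
  have h2 := Finset.card_le_card h1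
  rwa [Finset.card_eq_three.mpr ⟨a, b, c, hab, hac, hbc, rfl⟩] at h2

omit H [Fact p.Prime] [Fact q.Prime] in
lemma inj_three (hfix : ∀ y : G, orderOf y = 3 → fc 2 y = 0)
    (hle : ∀ u : G, u ≠ 1 → fc 2 u ≤ 2) (S0 : Sylow 2 G) :
    Function.Injective (fun y : {y : G // orderOf y = 3} => (y.1 • S0, (y.1 * y.1) • S0)) := by
  rintro ⟨y, hy⟩ ⟨y', hy'⟩ h
  have h1 : y • S0 = y' • S0 := congrArg Prod.fst h
  have h2 : (y * y) • S0 = (y' * y') • S0 := congrArg Prod.snd h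
  have hy3 : y * y * y = 1 := by
    rw [← pow_orderOf_eq_one y, hy, pow_succ, pow_two]
  have hy3' : y' * y' * y' = 1 := by
    rw [← pow_orderOf_eq_one y', hy', pow_succ, pow_two]
  have hinv : y⁻¹ = y * y := by
    rw [inv_eq_iff_mul_eq_one, ← mul_assoc]; exact hy3
  have hnf : ∀ S : Sylow 2 G, y • S ≠ S := by
    intro S hS
    have h3 : y ∈ NP S := Sylow.smul_eq_iff_mem_normalizer.mp hS
    have h4 : 0 < fc 2 y := by
      unfold fc
      exact Nat.card_pos_iff.mpr ⟨⟨⟨S, h3⟩⟩, inferInstance⟩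
    rw [hfix y hy] at h4
    omega
  let u : G := y⁻¹ * y'
  by_cases hu : u = 1
  · have : y' = y := by
      have h5 : y⁻¹ * y' = 1 := hu
      exact inv_mul_eq_one.mp h5 |>.symm
    exact Subtype.ext this.symm
  · exfalso
    have h6 := hle u hu
    have h7 : 3 ≤ fc 2 u := by
      refine three_le_fc (a := S0) (b := y • S0) (c := (y * y) • S0) ?_ ?_ ?_ ?_ ?_ ?_
      · refine Sylow.smul_eq_iff_mem_normalizer.mp ?_
        change (y⁻¹ * y') • S0 = S0
        rw [mul_smul, ← h1, inv_smul_smul]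
      · refine Sylow.smul_eq_iff_mem_normalizer.mp ?_
        change (y⁻¹ * y') • y • S0 = y • S0
        rw [h1, mul_smul, smul_smul y' y', ← h2, hinv, smul_smul]
        have h8 : y * y * (y * y) = y := by
          calc y * y * (y * y) = (y * y * y) * y := by group
            _ = y := by rw [hy3, one_mul]
        rw [h8]
        exact h1
      · refine Sylow.smul_eq_iff_mem_normalizer.mp ?_
        change (y⁻¹ * y') • (y * y) • S0 = (y * y) • S0
        rw [h2, mul_smul, smul_smul y' (y' * y'), ← mul_assoc, hy3', one_smul, hinv, h2]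
      · exact fun e => hnf S0 e.symm
      · intro e
        apply hnf S0
        calc y • S0 = y • ((y * y) • S0) := by rw [← e]
          _ = (y * (y * y)) • S0 := by rw [smul_smul]
          _ = S0 := by rw [← mul_assoc, hy3, one_smul]
      · intro e
        apply hnf (y • S0)
        rw [smul_smul]
        exact e.symm
    omega

omit H in
lemma Ev.finish (E : Ev G p q) (F : Fin2 G p q) : Nonempty (G ≃* alternatingGroup (Fin 5)) := by
  obtain ⟨S0⟩ : Nonempty (Sylow 2 G) := inferInstance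
  have hB3 : 3 ≤ sz G p := by
    have h7 := le_sz (Fact.out : p.Prime) E.dp
    have h8 : 2 ≤ p := (Fact.out : p.Prime).two_le
    have := E.hp2
    omega
  have hB := F.hB
  have hC := F.hC
  have hcG := E.card_G
  have hNP := F.hNP S0
  have hn2 := card_NP_mul S0
  have ha : 2 ≤ (Nat.card G).factorization 2 := by
    by_contra hcon
    have h1 : (Nat.card G).factorization 2 < 2 := by omega
    have h2 : sz G 2 < 2 ^ 2 := Nat.pow_lt_pow_right (by norm_num) h1
    omega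
  rcases arith_final (p := p) (q := q) (b := (Nat.card G).factorization p)
      (c := (Nat.card G).factorization q) (a := (Nat.card G).factorization 2)
      Fact.out Fact.out ha hB.symm hC with h | ⟨h, hq3, hc2⟩
  · -- `A = 4`
    have hA : sz G 2 = 4 := by
      unfold sz
      rw [h]
      norm_num
    rw [hA] at hB hC hNP
    rw [hA, show sz G p = 3 by omega, hC] at hcG
    norm_num at hcG hNP
    rw [hNP, hcG] at hn2
    have hn5 : Nat.card (Sylow 2 G) = 5 := by omega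
    have hinj : Function.Injective (MulAction.toPermHom G (Sylow 2 G)) := by
      rw [injective_iff_map_eq_one]
      intro g hg
      by_contra hg1
      have h1 := E.fc_le F hg1
      have h2 : fc 2 g = Nat.card (Sylow 2 G) := by
        unfold fc
        refine Nat.card_congr (Equiv.subtypeUnivEquiv (fun S => ?_))
        refine Sylow.smul_eq_iff_mem_normalizer.mp ?_
        have := congrArg (fun σ : Equiv.Perm (Sylow 2 G) => σ S) hg
        exact this
      omega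
    exact Cfsg.Agent.Lib.ClassicalSmall.nonempty_equiv_alternating 5 _ hinj hn5
      (by rw [hcG]; rfl)
  · -- `A = 8`, `C = 9`: impossible
    exfalso
    subst hq3
    have hA : sz G 2 = 8 := by
      unfold sz
      rw [h]
      norm_num
    rw [hA] at hB hC hNP
    have hBv : sz G p = 7 := by omega
    rw [hA, hBv, hC] at hcG
    norm_num at hcG hNP
    rw [hNP, hcG] at hn2
    have hn9 : Nat.card (Sylow 2 G) = 9 := by omega
    obtain ⟨t, ht2⟩ := E.exists_elem E.d2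
    have hq0 := F.hnq t ht2
    have h1 := E.n_mul E.hq2 E.dq hq0 ht2
    rw [hC, hcG] at h1
    have hn28 : Nat.card (Sylow 3 G) = 28 := by omega
    have h2 := E.ZP_of_pos E.hq2 hq0 ht2
    rw [hC, hn28] at h2
    have h3 := Nat.card_le_card_of_injective _ (inj_three F.gq (fun u hu => E.fc_le F hu) S0)
    rw [Nat.card_prod, h2, hn9] at h3
    omega

end Even


section Odd

variable [Finite G]

omit H in
lemma arith_odd (n e z k P : ℕ) (hP : P = z * k) (hz : 1 ≤ z)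
    (hcase : (k = 1 ∧ 3 ≤ e) ∨ (3 ≤ k ∧ 1 ≤ e)) :
    3 * (n * (z - 1)) + n * e ≤ P * (n * e) := by
  obtain ⟨z', rfl⟩ : ∃ z', z = z' + 1 := ⟨z - 1, by omega⟩
  simp only [Nat.add_sub_cancel]
  rcases hcase with ⟨rfl, he⟩ | ⟨hk, he⟩
  · rw [mul_one] at hP
    subst hP
    have h1 : 3 * (n * z') ≤ e * (n * z') := Nat.mul_le_mul_right _ he
    nlinarith
  · subst hP
    have h1 : (z' + 1) * 3 ≤ (z' + 1) * k := Nat.mul_le_mul_left _ hk
    have h2 : ((z' + 1) * 3) * (n * e) ≤ ((z' + 1) * k) * (n * e) := Nat.mul_le_mul_right _ h1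
    have h3 : z' * (n * 1) ≤ z' * (n * e) := Nat.mul_le_mul_left _ (Nat.mul_le_mul_left _ he)
    nlinarith

lemma odd_term (hns : ¬ Group.IsSolvable G) (hodd : Odd (Nat.card G)) {ρ : ℕ} [Fact ρ.Prime]
    (P : Sylow ρ G) {σ τ a b : ℕ} (hσ : σ.Prime) (hτ : τ.Prime)
    (hG : Nat.card G = Nat.card P * (σ ^ a * τ ^ b)) :
    3 * Nat.card {x : G // orderOf x = ρ} + σ ^ a * τ ^ b ≤ Nat.card G := by
  set m := σ ^ a * τ ^ b with hm
  obtain ⟨e, he⟩ : Nat.card P ∣ Nat.card (NP P) := Subgroup.card_dvd_of_le (le_NP P)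
  have hn := card_NP_mul P
  rw [he] at hn
  have hPpos : 0 < Nat.card P := Nat.card_pos
  have hme : m = Nat.card (Sylow ρ G) * e := by
    refine Nat.eq_of_mul_eq_mul_left hPpos ?_
    rw [← hG, ← hn]
    ring
  have hoddP : Odd (Nat.card P) := by
    rw [hG] at hodd
    exact (Nat.odd_mul.mp hodd).1
  have hodde : Odd e := by
    rw [hG, hme] at hodd
    exact (Nat.odd_mul.mp (Nat.odd_mul.mp hodd).2).2
  obtain ⟨k, hk⟩ : Nat.card (ZP P) ∣ Nat.card P := Subgroup.card_dvd_of_le inf_le_left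
  have hz1 : 1 ≤ Nat.card (ZP P) := Nat.card_pos
  have hE := card_E H P
  rw [hE, hG, hme]
  have hcase : (k = 1 ∧ 3 ≤ e) ∨ (3 ≤ k ∧ 1 ≤ e) := by
    have hkodd : Odd k := by
      rw [hk] at hoddP
      exact (Nat.odd_mul.mp hoddP).2
    have he1 : 1 ≤ e := hodde.pos
    by_cases hk1 : k = 1
    · left
      refine ⟨hk1, ?_⟩
      have hne : e ≠ 1 := by
        rintro rfl
        have hZ : ZP P = (P : Subgroup G) := by
          refine Subgroup.eq_of_le_of_card_ge inf_le_left ?_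
          rw [hk, hk1, mul_one]
        have hcomm : ∀ x ∈ P, ∀ y ∈ P, x * y = y * x := by
          intro x hx y hy
          have hy' : y ∈ ZP P := by rw [hZ]; exact hy
          exact (mem_ZP.mp hy').2 x hx
        refine transfer_contra hns P hcomm (by rw [he, mul_one]) hσ hτ hG
      obtain ⟨j, hj⟩ := hodde
      omega
    · right
      refine ⟨?_, he1⟩
      obtain ⟨j, hj⟩ := hkodd
      omega
  exact arith_odd _ e _ k _ hk hz1 hcase

lemma main_odd (hns : ¬ Group.IsSolvable G) {p₁ p₂ p₃ : ℕ} [Fact p₁.Prime] [Fact p₂.Prime]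
    [Fact p₃.Prime] (h12 : p₁ ≠ p₂) (h13 : p₁ ≠ p₃) (h23 : p₂ ≠ p₃)
    (h3 : ∀ g : G, g ≠ 1 → orderOf g = p₁ ∨ orderOf g = p₂ ∨ orderOf g = p₃)
    (hodd : Odd (Nat.card G)) (d1 : p₁ ∣ Nat.card G) (d2 : p₂ ∣ Nat.card G)
    (d3 : p₃ ∣ Nat.card G) : False := by
  have hall : ∀ τ : ℕ, τ.Prime → τ ∣ Nat.card G → τ = p₁ ∨ τ = p₂ ∨ τ = p₃ := by
    intro τ hτ hd
    haveI : Fact τ.Prime := ⟨hτ⟩
    obtain ⟨x, hx⟩ := exists_prime_orderOf_dvd_card' τ hd
    rw [← hx]
    exact h3 x (ne_one_of_order hτ hx)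
  obtain ⟨P₁⟩ : Nonempty (Sylow p₁ G) := inferInstance
  obtain ⟨P₂⟩ : Nonempty (Sylow p₂ G) := inferInstance
  obtain ⟨P₃⟩ : Nonempty (Sylow p₃ G) := inferInstance
  have hc := card_three h12 h13 h23 hall P₁ P₂ P₃
  have hcl := class_eq H (Fact.out : p₁.Prime).ne_one (Fact.out : p₂.Prime).ne_one
    (Fact.out : p₃.Prime).ne_one h12 h13 h23 h3
  have s1 := card_sylow_sz P₁
  have s2 := card_sylow_sz P₂
  have s3 := card_sylow_sz P₃
  rw [s1, s2, s3] at hc
  have b1 := le_sz (Fact.out : p₁.Prime) d1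
  have b2 := le_sz (Fact.out : p₂.Prime) d2
  have b3 := le_sz (Fact.out : p₃.Prime) d3
  have t2 : 2 ≤ p₁ := (Fact.out : p₁.Prime).two_le
  have t3 : 2 ≤ p₂ := (Fact.out : p₂.Prime).two_le
  have t4 : 2 ≤ p₃ := (Fact.out : p₃.Prime).two_le
  have o1 := odd_term H hns hodd P₁ (σ := p₂) (τ := p₃) (a := (Nat.card G).factorization p₂)
    (b := (Nat.card G).factorization p₃) Fact.out Fact.out (by
      rw [s1]
      calc Nat.card G = sz G p₁ * sz G p₂ * sz G p₃ := hc
        _ = sz G p₁ * (sz G p₂ * sz G p₃) := by ring)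
  have o2 := odd_term H hns hodd P₂ (σ := p₁) (τ := p₃) (a := (Nat.card G).factorization p₁)
    (b := (Nat.card G).factorization p₃) Fact.out Fact.out (by
      rw [s2]
      calc Nat.card G = sz G p₁ * sz G p₂ * sz G p₃ := hc
        _ = sz G p₂ * (sz G p₁ * sz G p₃) := by ring)
  have o3 := odd_term H hns hodd P₃ (σ := p₁) (τ := p₂) (a := (Nat.card G).factorization p₁)
    (b := (Nat.card G).factorization p₂) Fact.out Fact.out (by
      rw [s3]
      calc Nat.card G = sz G p₁ * sz G p₂ * sz G p₃ := hc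
        _ = sz G p₃ * (sz G p₁ * sz G p₂) := by ring)
  change 3 * _ + sz G p₂ * sz G p₃ ≤ _ at o1
  change 3 * _ + sz G p₁ * sz G p₃ ≤ _ at o2
  change 3 * _ + sz G p₁ * sz G p₂ ≤ _ at o3
  have m1 : 4 ≤ sz G p₂ * sz G p₃ := Nat.mul_le_mul (b2.trans' t3) (b3.trans' t4)
  have m2 : 4 ≤ sz G p₁ * sz G p₃ := Nat.mul_le_mul (b1.trans' t2) (b3.trans' t4)
  have m3 : 4 ≤ sz G p₁ * sz G p₂ := Nat.mul_le_mul (b1.trans' t2) (b2.trans' t3)
  omega

end Odd

end Basic


section Main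

lemma all_of_card_orbits4 {G : Type*} [Group G] [Finite G]
    (h4 : Nat.card (MulAction.orbitRel.Quotient (MulAut G) G) = 4)
    (a1 a2 a3 a4 : G) (h12 : ∀ φ : MulAut G, φ a1 ≠ a2) (h13 : ∀ φ : MulAut G, φ a1 ≠ a3)
    (h14 : ∀ φ : MulAut G, φ a1 ≠ a4) (h23 : ∀ φ : MulAut G, φ a2 ≠ a3)
    (h24 : ∀ φ : MulAut G, φ a2 ≠ a4) (h34 : ∀ φ : MulAut G, φ a3 ≠ a4) (g : G) :
    (∃ φ : MulAut G, φ a1 = g) ∨ (∃ φ : MulAut G, φ a2 = g) ∨ (∃ φ : MulAut G, φ a3 = g) ∨
      ∃ φ : MulAut G, φ a4 = g := by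
  classical
  let Q := MulAction.orbitRel.Quotient (MulAut G) G
  let mk : G → Q := fun a => Quotient.mk _ a
  have hmk : ∀ a b : G, mk a = mk b → ∃ φ : MulAut G, φ a = b := by
    intro a b hab
    have h1 : b ∈ MulAction.orbit (MulAut G) a := by
      have := Quotient.exact hab.symm
      exact this
    obtain ⟨φ, hφ⟩ := h1
    exact ⟨φ, hφ⟩
  letI : Fintype Q := Fintype.ofFinite Q
  have hne : ∀ a b : G, (∀ φ : MulAut G, φ a ≠ b) → mk a ≠ mk b := fun a b hab h => by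
    obtain ⟨φ, hφ⟩ := hmk _ _ h
    exact hab φ hφ
  have hcard : ({mk a1, mk a2, mk a3, mk a4} : Finset Q).card = Fintype.card Q := by
    rw [← Nat.card_eq_fintype_card, h4, Finset.card_insert_of_notMem, Finset.card_insert_of_notMem,
      Finset.card_insert_of_notMem, Finset.card_singleton]
    · simpa using hne _ _ h34
    · simp [hne _ _ h23, hne _ _ h24]
    · simp [hne _ _ h12, hne _ _ h13, hne _ _ h14]
  have huniv := (Finset.card_eq_iff_eq_univ _).mp hcard
  have hg : mk g ∈ ({mk a1, mk a2, mk a3, mk a4} : Finset Q) := by rw [huniv]; exact Finset.mem_univ _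
  simp only [Finset.mem_insert, Finset.mem_singleton] at hg
  rcases hg with h | h | h | h
  · exact Or.inl (hmk _ _ h.symm)
  · exact Or.inr (Or.inl (hmk _ _ h.symm))
  · exact Or.inr (Or.inr (Or.inl (hmk _ _ h.symm)))
  · exact Or.inr (Or.inr (Or.inr (hmk _ _ h.symm)))

lemma three_primes {G : Type*} [Group G] [Finite G] (hns : ¬ Group.IsSolvable G) :
    ∃ p₁ p₂ p₃ : ℕ, p₁.Prime ∧ p₂.Prime ∧ p₃.Prime ∧ p₁ ≠ p₂ ∧ p₁ ≠ p₃ ∧ p₂ ≠ p₃ ∧
      p₁ ∣ Nat.card G ∧ p₂ ∣ Nat.card G ∧ p₃ ∣ Nat.card G := by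
  have hne : Nat.card G ≠ 0 := Nat.card_pos.ne'
  have hprod := Nat.prod_factorization_pow_eq_self hne
  have hcard : 2 < (Nat.card G).primeFactors.card := by
    by_contra hcon
    apply hns
    have hle : (Nat.card G).primeFactors.card ≤ 2 := by omega
    unfold Finsupp.prod at hprod
    rw [Nat.support_factorization] at hprod
    have hcases : (Nat.card G).primeFactors.card = 0 ∨ (Nat.card G).primeFactors.card = 1 ∨
        (Nat.card G).primeFactors.card = 2 := by omega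
    rcases hcases with h | h | h
    · rw [Finset.card_eq_zero] at h
      rw [h, Finset.prod_empty] at hprod
      exact solv_two (σ := 2) (τ := 2) (a := 0) (b := 0) Nat.prime_two Nat.prime_two (by
        simp [← hprod])
    · obtain ⟨x, hx⟩ := Finset.card_eq_one.mp h
      rw [hx, Finset.prod_singleton] at hprod
      have hxp : x.Prime := Nat.prime_of_mem_primeFactors (by rw [hx]; simp)
      exact solv_two (σ := x) (τ := 2) (a := (Nat.card G).factorization x) (b := 0) hxp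
        Nat.prime_two (by rw [pow_zero, mul_one]; exact hprod.symm)
    · obtain ⟨x, y, hxy, hx⟩ := Finset.card_eq_two.mp h
      rw [hx, Finset.prod_pair hxy] at hprod
      have hxp : x.Prime := Nat.prime_of_mem_primeFactors (by rw [hx]; simp)
      have hyp : y.Prime := Nat.prime_of_mem_primeFactors (by rw [hx]; simp)
      exact solv_two hxp hyp hprod.symm
  obtain ⟨a, ha, b, hb, c, hc, hab, hac, hbc⟩ := Finset.two_lt_card.mp hcard
  exact ⟨a, b, c, Nat.prime_of_mem_primeFactors ha, Nat.prime_of_mem_primeFactors hb,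
    Nat.prime_of_mem_primeFactors hc, hab, hac, hbc, Nat.dvd_of_mem_primeFactors ha,
    Nat.dvd_of_mem_primeFactors hb, Nat.dvd_of_mem_primeFactors hc⟩

lemma even_main {G : Type*} [Group G] [Finite G] {p q : ℕ} [Fact p.Prime] [Fact q.Prime]
    (E : Ev G p q) : Nonempty (G ≃* alternatingGroup (Fin 5)) := by
  rcases E.data with F | F
  · exact E.finish F
  · exact E.swap.finish F

/-- A finite non-solvable group on which its automorphism group has exactly four orbits is isomorphic to the alternating group of degree 5. -/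
theorem result {G : Type*} [Group G] [Finite G] (hns : ¬ Group.IsSolvable G)
    (h4 : Nat.card (MulAction.orbitRel.Quotient (MulAut G) G) = 4) : Nonempty (G ≃* alternatingGroup (Fin 5)) := by
  obtain ⟨p₁, p₂, p₃, h1, h2, h3, h12, h13, h23, d1, d2, d3⟩ := three_primes hns
  haveI : Fact p₁.Prime := ⟨h1⟩
  haveI : Fact p₂.Prime := ⟨h2⟩
  haveI : Fact p₃.Prime := ⟨h3⟩
  obtain ⟨x1, hx1⟩ := exists_prime_orderOf_dvd_card' p₁ d1
  obtain ⟨x2, hx2⟩ := exists_prime_orderOf_dvd_card' p₂ d2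
  obtain ⟨x3, hx3⟩ := exists_prime_orderOf_dvd_card' p₃ d3
  have hord : ∀ (φ : MulAut G) (a b : G), orderOf a ≠ orderOf b → φ a ≠ b := by
    intro φ a b hab h
    rw [← h, MulEquiv.orderOf_eq] at hab
    exact hab rfl
  have hall := all_of_card_orbits4 h4 1 x1 x2 x3
    (fun φ => hord φ _ _ (by rw [orderOf_one, hx1]; exact h1.ne_one.symm))
    (fun φ => hord φ _ _ (by rw [orderOf_one, hx2]; exact h2.ne_one.symm))
    (fun φ => hord φ _ _ (by rw [orderOf_one, hx3]; exact h3.ne_one.symm))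
    (fun φ => hord φ _ _ (by rw [hx1, hx2]; exact h12))
    (fun φ => hord φ _ _ (by rw [hx1, hx3]; exact h13))
    (fun φ => hord φ _ _ (by rw [hx2, hx3]; exact h23))
  have h3' : ∀ g : G, g ≠ 1 → orderOf g = p₁ ∨ orderOf g = p₂ ∨ orderOf g = p₃ := by
    intro g hg
    rcases hall g with ⟨φ, h⟩ | ⟨φ, h⟩ | ⟨φ, h⟩ | ⟨φ, h⟩
    · rw [map_one] at h
      exact absurd h.symm hg
    · left; rw [← h, MulEquiv.orderOf_eq, hx1]
    · right; left; rw [← h, MulEquiv.orderOf_eq, hx2]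
    · right; right; rw [← h, MulEquiv.orderOf_eq, hx3]
  have get : ∀ g : G, g ≠ 1 → ∃ x : G, (x = x1 ∨ x = x2 ∨ x = x3) ∧ ∃ φ : MulAut G, φ x = g := by
    intro g hg
    rcases hall g with ⟨φ, h⟩ | ⟨φ, h⟩ | ⟨φ, h⟩ | ⟨φ, h⟩
    · rw [map_one] at h
      exact absurd h.symm hg
    · exact ⟨x1, Or.inl rfl, φ, h⟩
    · exact ⟨x2, Or.inr (Or.inl rfl), φ, h⟩
    · exact ⟨x3, Or.inr (Or.inr rfl), φ, h⟩
  have H : EPO G := by
    refine ⟨?_, ?_⟩
    · intro g hg
      rcases h3' g hg with h | h | h <;> rw [h] <;> assumption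
    · intro g h hgh
      by_cases hg1 : g = 1
      · have hh1 : h = 1 := by
          rw [hg1, orderOf_one] at hgh
          exact orderOf_eq_one_iff.mp hgh.symm
        exact ⟨1, by simp [hg1, hh1]⟩
      · have hh1 : h ≠ 1 := by
          rintro rfl
          rw [orderOf_one] at hgh
          exact hg1 (orderOf_eq_one_iff.mp hgh)
        obtain ⟨x, hx, φ, hφ⟩ := get g hg1
        obtain ⟨y, hy, ψ, hψ⟩ := get h hh1
        have hxy : orderOf x = orderOf y := by
          rw [← MulEquiv.orderOf_eq φ x, hφ, hgh, ← hψ, MulEquiv.orderOf_eq]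
        have hxy' : x = y := by
          rcases hx with rfl | rfl | rfl <;> rcases hy with rfl | rfl | rfl
          · rfl
          · rw [hx1, hx2] at hxy; exact absurd hxy h12
          · rw [hx1, hx3] at hxy; exact absurd hxy h13
          · rw [hx1, hx2] at hxy; exact absurd hxy.symm h12
          · rfl
          · rw [hx2, hx3] at hxy; exact absurd hxy h23
          · rw [hx1, hx3] at hxy; exact absurd hxy.symm h13
          · rw [hx2, hx3] at hxy; exact absurd hxy.symm h23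
          · rfl
        subst hxy'
        refine ⟨ψ * φ⁻¹, ?_⟩
        change ψ (φ.symm g) = h
        rw [← hφ, MulEquiv.symm_apply_apply, hψ]
  by_cases hd2 : 2 ∣ Nat.card G
  · obtain ⟨t, ht⟩ := exists_prime_orderOf_dvd_card' 2 hd2
    have ht1 : t ≠ 1 := ne_one_of_order Nat.prime_two ht
    rcases h3' t ht1 with h | h | h
    · have hp : p₁ = 2 := h.symm.trans ht
      subst hp
      exact even_main (p := p₂) (q := p₃) ⟨H, hns, h12.symm, h13.symm, h23, h3', d1, d2, d3⟩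
    · have hp : p₂ = 2 := h.symm.trans ht
      subst hp
      exact even_main (p := p₁) (q := p₃) ⟨H, hns, h12, h23.symm, h13, fun g hg => by
        rcases h3' g hg with h | h | h
        · exact Or.inr (Or.inl h)
        · exact Or.inl h
        · exact Or.inr (Or.inr h), d2, d1, d3⟩
    · have hp : p₃ = 2 := h.symm.trans ht
      subst hp
      exact even_main (p := p₁) (q := p₂) ⟨H, hns, h13, h23, h12, fun g hg => by
        rcases h3' g hg with h | h | h
        · exact Or.inr (Or.inl h)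
        · exact Or.inr (Or.inr h)
        · exact Or.inl h, d3, d1, d2⟩
  · exact absurd (main_odd H hns h12 h13 h23 h3' (Nat.not_even_iff_odd.mp
      (fun he => hd2 he.two_dvd)) d1 d2 d3) id

end Main

end Cfsg.Agent.S4068
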