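import Mathlib
import Cfsg.Statements.S4071
import Cfsg.Agent.Lib.FrobNPC
import Cfsg.Agent.Lib.CoprimeParts

set_option autoImplicit false
open Cfsg

namespace Cfsg.Agent.S4071

open Subgroup
open scoped commutatorElement

variable {G : Type*} [Group G]

lemma pow_conj_step {g a c : G} (h1 : g * a * g⁻¹ = c * a) (h2 : g * c = c * g) (n : ℕ) :
    g ^ n * a = c ^ n * a * g ^ n := by
  have h3 : g * a = c * a * g := by
    calc g * a = g * a * g⁻¹ * g := by group
      _ = c * a * g := by rw [h1]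
  induction n with
  | zero => simp
  | succ n ih =>
    have h4 : Commute g (c ^ n) := (show Commute g c from h2).pow_right n
    calc g ^ (n + 1) * a = g * (g ^ n * a) := by rw [pow_succ']; group
      _ = g * (c ^ n * a * g ^ n) := by rw [ih]
      _ = (g * c ^ n) * a * g ^ n := by group
      _ = (c ^ n * g) * a * g ^ n := by rw [h4.eq]
      _ = c ^ n * (g * a) * g ^ n := by group
      _ = c ^ n * (c * a * g) * g ^ n := by rw [h3]
      _ = c ^ (n + 1) * a * g ^ (n + 1) := by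
        rw [pow_succ, pow_succ']; group

lemma pow_order_eq_one [Finite G] {g a c : G} (h1 : g * a * g⁻¹ = c * a) (h2 : g * c = c * g) :
    c ^ orderOf g = 1 := by
  have h3 := pow_conj_step h1 h2 (orderOf g)
  rw [pow_orderOf_eq_one, one_mul, mul_one] at h3
  exact (mul_eq_right.mp h3.symm)

lemma eq_one_of_coprime_dvd {c : G} {n : ℕ} (h : c ^ n = 1) (hco : (orderOf c).Coprime n) : c = 1 := by
  have h1 := orderOf_dvd_of_pow_eq_one h
  exact orderOf_eq_one_iff.mp (Nat.Coprime.eq_one_of_dvd hco h1)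

/-- The key step: in a group all of whose nonabelian subgroups are self-normalizing, if `g` acts
nontrivially on an abelian subgroup `Q` of coprime order, then only the identity of coprime order
can commute with `g` and `Q`. -/
lemma eq_one_of_commute [Finite G]
    (hS : ∀ H : Subgroup G, ¬ IsMulCommutative H → Subgroup.normalizer (H : Set G) = H)
    (Q : Subgroup G) (hQc : ∀ x ∈ Q, ∀ y ∈ Q, x * y = y * x) (g : G)
    (hg : g ∈ Subgroup.normalizer (Q : Set G)) (hco : ∀ a ∈ Q, (orderOf a).Coprime (orderOf g))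
    (hnot : g ∉ Subgroup.centralizer (Q : Set G)) {c : G} (hcg : c * g = g * c)
    (hcQ : ∀ a ∈ Q, c * a = a * c) (hcc : (orderOf c).Coprime (orderOf g)) : c = 1 := by
  have hgQ : ∀ a ∈ Q, g * a * g⁻¹ ∈ Q := fun a ha => (Subgroup.mem_normalizer_iff.mp hg a).mp ha
  have hgQ' : ∀ a ∈ Q, g⁻¹ * a * g ∈ Q := by
    intro a ha
    have := (Subgroup.normalizer (Q : Set G)).inv_mem hg
    have h2 := (Subgroup.mem_normalizer_iff.mp this a).mp ha
    simpa using h2
  -- the commutator subgroup `D = [Q, g]`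
  let D : Subgroup G :=
    { carrier := {d | ∃ a ∈ Q, d = g * a * g⁻¹ * a⁻¹}
      one_mem' := ⟨1, Q.one_mem, by simp⟩
      mul_mem' := by
        rintro _ _ ⟨a, ha, rfl⟩ ⟨b, hb, rfl⟩
        refine ⟨a * b, Q.mul_mem ha hb, ?_⟩
        have h1 : a⁻¹ * (g * b * g⁻¹) = (g * b * g⁻¹) * a⁻¹ := hQc _ (Q.inv_mem ha) _ (hgQ b hb)
        have h2 : b⁻¹ * a⁻¹ = a⁻¹ * b⁻¹ := hQc _ (Q.inv_mem hb) _ (Q.inv_mem ha)
        calc g * a * g⁻¹ * a⁻¹ * (g * b * g⁻¹ * b⁻¹)
            = g * a * g⁻¹ * (a⁻¹ * (g * b * g⁻¹)) * b⁻¹ := by group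
          _ = g * a * g⁻¹ * ((g * b * g⁻¹) * a⁻¹) * b⁻¹ := by rw [h1]
          _ = g * (a * b) * g⁻¹ * (a⁻¹ * b⁻¹) := by group
          _ = g * (a * b) * g⁻¹ * (b⁻¹ * a⁻¹) := by rw [h2]
          _ = g * (a * b) * g⁻¹ * (a * b)⁻¹ := by group
      inv_mem' := by
        rintro _ ⟨a, ha, rfl⟩
        refine ⟨a⁻¹, Q.inv_mem ha, ?_⟩
        have h1 : a * (g * a⁻¹ * g⁻¹) = (g * a⁻¹ * g⁻¹) * a := hQc _ ha _ (hgQ _ (Q.inv_mem ha))
        calc (g * a * g⁻¹ * a⁻¹)⁻¹ = a * (g * a⁻¹ * g⁻¹) := by group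
          _ = (g * a⁻¹ * g⁻¹) * a := h1
          _ = g * a⁻¹ * g⁻¹ * a⁻¹⁻¹ := by simp }
  have hDQ : ∀ d ∈ D, d ∈ Q := by
    rintro _ ⟨a, ha, rfl⟩
    exact Q.mul_mem (hgQ a ha) (Q.inv_mem ha)
  have hgD : g ∈ Subgroup.normalizer (D : Set G) := by
    rw [Subgroup.mem_normalizer_iff]
    intro h
    constructor
    · rintro ⟨a, ha, rfl⟩
      refine ⟨g * a * g⁻¹, hgQ a ha, ?_⟩
      group
    · rintro ⟨a, ha, hh⟩
      refine ⟨g⁻¹ * a * g, hgQ' a ha, ?_⟩
      have h1 : h = g⁻¹ * (g * h * g⁻¹) * g := by group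
      rw [h1, hh]
      group
  have hconj : ∀ (i : ℤ), ∀ d ∈ D, g ^ i * d * g ^ (-i) ∈ D := by
    intro i d hd
    have h1 := (Subgroup.normalizer (D : Set G)).zpow_mem hgD i
    have h2 := (Subgroup.mem_normalizer_iff.mp h1 d).mp hd
    simpa using h2
  -- the product `R = D ⟨g⟩`
  let R : Subgroup G :=
    { carrier := {r | ∃ d ∈ D, ∃ i : ℤ, r = d * g ^ i}
      one_mem' := ⟨1, D.one_mem, 0, by simp⟩
      mul_mem' := by
        rintro _ _ ⟨d, hd, i, rfl⟩ ⟨d', hd', j, rfl⟩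
        refine ⟨d * (g ^ i * d' * g ^ (-i)), D.mul_mem hd (hconj i d' hd'), i + j, ?_⟩
        rw [zpow_add, zpow_neg]
        group
      inv_mem' := by
        rintro _ ⟨d, hd, i, rfl⟩
        refine ⟨g ^ (-i) * d⁻¹ * g ^ (- -i), hconj (-i) _ (D.inv_mem hd), -i, ?_⟩
        rw [neg_neg, zpow_neg]
        group }
  have hgR : g ∈ R := ⟨1, D.one_mem, 1, by simp⟩
  have hDR : ∀ d ∈ D, d ∈ R := fun d hd => ⟨d, hd, 0, by simp⟩
  have hRna : ¬ IsMulCommutative R := by
    intro hR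
    apply hnot
    rw [Subgroup.mem_centralizer_iff]
    intro a ha
    have hd : g * a * g⁻¹ * a⁻¹ ∈ D := ⟨a, ha, rfl⟩
    have h1 : g * (g * a * g⁻¹ * a⁻¹) = (g * a * g⁻¹ * a⁻¹) * g := by
      have := hR.is_comm.comm ⟨g, hgR⟩ ⟨_, hDR _ hd⟩
      exact congrArg Subtype.val this
    have h2 : g * a * g⁻¹ = (g * a * g⁻¹ * a⁻¹) * a := by group
    have h3 := pow_order_eq_one h2 h1
    have h4 := eq_one_of_coprime_dvd h3 (hco _ (hDQ _ hd))
    have h5 : g * a * g⁻¹ = a := by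
      calc g * a * g⁻¹ = (g * a * g⁻¹ * a⁻¹) * a := by group
        _ = a := by rw [h4, one_mul]
    calc a * g = g * a * g⁻¹ * g := by rw [h5]
      _ = g * a := by group
  have hNR := hS R hRna
  have hcN : c ∈ Subgroup.normalizer (R : Set G) := by
    rw [Subgroup.mem_normalizer_iff]
    rintro _
    have hcD : ∀ d ∈ D, c * d = d * c := fun d hd => hcQ d (hDQ d hd)
    have hcg' : Commute c g := hcg
    have hcz : ∀ i : ℤ, Commute c (g ^ i) := fun i => hcg'.zpow_right i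
    constructor
    · rintro ⟨d, hd, i, rfl⟩
      refine ⟨d, hd, i, ?_⟩
      calc c * (d * g ^ i) * c⁻¹ = (c * d) * g ^ i * c⁻¹ := by group
        _ = (d * c) * g ^ i * c⁻¹ := by rw [hcD d hd]
        _ = d * (c * g ^ i) * c⁻¹ := by group
        _ = d * (g ^ i * c) * c⁻¹ := by rw [(hcz i).eq]
        _ = d * g ^ i := by group
    · rename_i w
      rintro ⟨d, hd, i, hdi⟩
      refine ⟨d, hd, i, ?_⟩
      have h1 : c * w = (d * g ^ i) * c := by
        calc c * w = c * w * c⁻¹ * c := by group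
          _ = d * g ^ i * c := by rw [hdi]
      have h2 : (d * g ^ i) * c = c * (d * g ^ i) := by
        calc (d * g ^ i) * c = d * (g ^ i * c) := by group
          _ = d * (c * g ^ i) := by rw [(hcz i).eq]
          _ = (d * c) * g ^ i := by group
          _ = (c * d) * g ^ i := by rw [hcD d hd]
          _ = c * (d * g ^ i) := by group
      rw [h2] at h1
      exact mul_left_cancel h1
  rw [hNR] at hcN
  obtain ⟨d, hd, i, hi⟩ := hcN
  -- `g ^ i = 1`
  have hgi : g ^ i = 1 := by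
    have h1 : g ^ i = d⁻¹ * c := by rw [hi]; group
    have hcdc : Commute d⁻¹ c := by
      have : d * c = c * d := (hcQ d (hDQ d hd)).symm
      exact (show Commute d c from this).inv_left
    have h2 : (g ^ i) ^ (orderOf d * orderOf c) = 1 := by
      rw [h1, hcdc.mul_pow, inv_pow, pow_mul, pow_orderOf_eq_one, one_pow, inv_one, one_mul,
        mul_comm, pow_mul, pow_orderOf_eq_one, one_pow]
    have h5 : (g ^ i) ^ orderOf g = 1 := by
      rw [← zpow_natCast, ← zpow_mul, mul_comm, zpow_mul, zpow_natCast, pow_orderOf_eq_one]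
      simp
    have h6 := orderOf_dvd_of_pow_eq_one h2
    have h7 := orderOf_dvd_of_pow_eq_one h5
    have h8 : Nat.Coprime (orderOf d * orderOf c) (orderOf g) :=
      Nat.Coprime.mul_left (hco d (hDQ d hd)) hcc
    exact orderOf_eq_one_iff.mp (Nat.Coprime.eq_one_of_dvd (h8.coprime_dvd_left h6) h7)
  rw [hgi, mul_one] at hi
  rw [← hi] at hd
  obtain ⟨a, ha, hae⟩ := hd
  have h1 : g * a * g⁻¹ = c * a := by rw [hae]; group
  have h3 := pow_order_eq_one h1 hcg.symm
  exact eq_one_of_coprime_dvd h3 hcc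

lemma exists_parts [Finite G] {p : ℕ} [hp : Fact p.Prime] (g : G) :
    ∃ s t : ℕ, g ^ s * g ^ t = g ∧ (∃ k, orderOf (g ^ s) = p ^ k) ∧ (orderOf (g ^ t)).Coprime p := by
  have hn : orderOf g ≠ 0 := (orderOf_pos g).ne'
  obtain ⟨k, m, hm, hnm⟩ := Nat.exists_eq_pow_mul_and_not_dvd hn p hp.out.ne_one
  have hcop : Nat.Coprime (p ^ k) m := Nat.Coprime.pow_left _ ((Nat.Prime.coprime_iff_not_dvd hp.out).mpr hm)
  have hm0 : m ≠ 0 := by
    rintro rfl
    rw [mul_zero] at hnm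
    exact hn hnm
  have hpk : p ^ k ≠ 0 := pow_ne_zero _ hp.out.ne_zero
  obtain ⟨s, hs1, hs2⟩ := Cfsg.Agent.Lib.CoprimeParts.exists_exponent hcop hm0
  obtain ⟨t, ht1, ht2⟩ := Cfsg.Agent.Lib.CoprimeParts.exists_exponent hcop.symm hpk
  refine ⟨t, s, ?_, ?_, ?_⟩
  · rw [← pow_add]
    have h1 : g ^ (t + s) = g ^ 1 := by
      rw [pow_eq_pow_iff_modEq, hnm]
      refine (Nat.modEq_and_modEq_iff_modEq_mul hcop).mp ⟨?_, ?_⟩
      · have h2 : s ≡ 0 [MOD p ^ k] := (Nat.modEq_zero_iff_dvd).mpr hs1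
        have h3 : t ≡ 1 [MOD p ^ k] := ht2
        simpa using h3.add h2
      · have h2 : t ≡ 0 [MOD m] := (Nat.modEq_zero_iff_dvd).mpr ht1
        have h3 : s ≡ 1 [MOD m] := hs2
        simpa using h2.add h3
    rwa [pow_one] at h1
  · have h1 : (g ^ t) ^ (p ^ k) = 1 := by
      obtain ⟨c, rfl⟩ := ht1
      rw [← pow_mul]
      have : m * c * p ^ k = orderOf g * c := by rw [hnm]; ring
      rw [this, pow_mul, pow_orderOf_eq_one, one_pow]
    obtain ⟨j, -, hj⟩ := (Nat.dvd_prime_pow hp.out).mp (orderOf_dvd_of_pow_eq_one h1)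
    exact ⟨j, hj⟩
  · have h1 : (g ^ s) ^ m = 1 := by
      obtain ⟨c, rfl⟩ := hs1
      rw [← pow_mul]
      have : p ^ k * c * m = orderOf g * c := by rw [hnm]; ring
      rw [this, pow_mul, pow_orderOf_eq_one, one_pow]
    have h2 := orderOf_dvd_of_pow_eq_one h1
    rw [Nat.coprime_comm, Nat.Prime.coprime_iff_not_dvd hp.out]
    exact fun h3 => hm (h3.trans h2)

theorem index_prime [Finite G] [Group.IsSolvable G] {M : Subgroup G} (hMn : M.Normal) (hMt : M ≠ ⊤)
    (hMmax : ∀ ⦃N : Subgroup G⦄, N.Normal ∧ N ≠ ⊤ → M ≤ N → N ≤ M) :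
    ∃ p : ℕ, p.Prime ∧ M.index = p := by
  have hcard : Nat.card (G ⧸ M) ≠ 1 := by
    intro h
    have h1 : M.index = 1 := h
    exact hMt (Subgroup.index_eq_one.mp h1)
  haveI : Nontrivial (G ⧸ M) := by
    rw [← Finite.one_lt_card_iff_nontrivial]
    have : 0 < Nat.card (G ⧸ M) := Nat.card_pos
    omega
  have hsurj := QuotientGroup.mk'_surjective M
  have hle : ∀ K : Subgroup (G ⧸ M), K.Normal → K ≠ ⊤ → K = ⊥ := by
    intro K hK hKt
    have h1 : (K.comap (QuotientGroup.mk' M)).Normal := hK.comap _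
    have h2 : K.comap (QuotientGroup.mk' M) ≠ ⊤ := by
      intro h
      apply hKt
      rw [eq_top_iff]
      intro y _
      obtain ⟨g, rfl⟩ := hsurj y
      have : g ∈ K.comap (QuotientGroup.mk' M) := by rw [h]; exact Subgroup.mem_top g
      exact this
    have h3 : M ≤ K.comap (QuotientGroup.mk' M) := by
      intro m hm
      have h4 : QuotientGroup.mk' M m = 1 := (QuotientGroup.eq_one_iff m).mpr hm
      change QuotientGroup.mk' M m ∈ K
      rw [h4]
      exact K.one_mem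
    have h5 := hMmax ⟨h1, h2⟩ h3
    rw [eq_bot_iff]
    intro y hy
    obtain ⟨g, rfl⟩ := hsurj y
    rw [Subgroup.mem_bot]
    exact (QuotientGroup.eq_one_iff g).mpr (h5 hy)
  have hcomm : commutator (G ⧸ M) = ⊥ :=
    hle _ inferInstance (Group.IsSolvable.commutator_lt_top_of_nontrivial (G ⧸ M)).ne
  have hab : ∀ a b : G ⧸ M, a * b = b * a := by
    intro a b
    have h1 : ⁅a, b⁆ ∈ commutator (G ⧸ M) := Subgroup.commutator_mem_commutator (Subgroup.mem_top a)
      (Subgroup.mem_top b)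
    rw [hcomm, Subgroup.mem_bot] at h1
    exact commutatorElement_eq_one_iff_mul_comm.mp h1
  haveI hpF : Fact (Nat.card (G ⧸ M)).minFac.Prime := ⟨Nat.minFac_prime hcard⟩
  obtain ⟨z, hz⟩ := exists_prime_orderOf_dvd_card' (G := G ⧸ M) (Nat.card (G ⧸ M)).minFac
    (Nat.minFac_dvd _)
  have hZn : (Subgroup.zpowers z).Normal := by
    refine ⟨fun n hn g => ?_⟩
    rw [hab g n]
    simpa using hn
  have hZ : Subgroup.zpowers z = ⊤ := by
    by_contra h
    have h1 := hle _ hZn h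
    rw [Subgroup.zpowers_eq_bot] at h1
    rw [h1, orderOf_one] at hz
    exact hpF.out.ne_one hz.symm
  refine ⟨_, hpF.out, ?_⟩
  have h1 : Nat.card (Subgroup.zpowers z) = Nat.card (G ⧸ M) := by
    rw [hZ]
    exact Nat.card_congr (Equiv.subtypeUnivEquiv (fun _ => Subgroup.mem_top _))
  rw [Nat.card_zpowers, hz] at h1
  exact h1.symm

theorem forward [Finite G] [Group.IsSolvable G] (hnn : ¬ Group.IsNilpotent G)
    (hS : ∀ H : Subgroup G, ¬ IsMulCommutative H → Subgroup.normalizer (H : Set G) = H) :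
    ∃ (x : G) (A : Subgroup G) (p : ℕ), p.Prime ∧ A.Normal ∧ IsMulCommutative A ∧ (∃ k : ℕ, orderOf x = p ^ k) ∧
      ¬ p ∣ Nat.card A ∧ (Subgroup.zpowers x).IsComplement' A ∧ x ^ p ∈ Subgroup.center G ∧
      ∀ a : G, a ∈ A → a ≠ 1 → x * a * x⁻¹ ≠ a := by
  have hab : ∀ N : Subgroup G, N.Normal → N ≠ ⊤ → IsMulCommutative N := by
    intro N hN hne
    by_contra hna
    have h1 := hS N hna
    rw [Subgroup.normalizer_eq_top] at h1
    exact hne h1.symm
  have hnt : Nontrivial G := by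
    by_contra h
    rw [not_nontrivial_iff_subsingleton] at h
    exact hnn inferInstance
  -- a maximal proper normal subgroup
  obtain ⟨M, hM⟩ : ∃ M : Subgroup G, Maximal (fun N : Subgroup G => N.Normal ∧ N ≠ ⊤) M := by
    apply Set.Finite.exists_maximal (s := {N : Subgroup G | N.Normal ∧ N ≠ ⊤}) (Set.toFinite _)
    exact ⟨⊥, inferInstance, bot_ne_top⟩
  obtain ⟨⟨hMn, hMt⟩, hMmax⟩ := hM
  haveI := hMn
  obtain ⟨p, hpp, hidx⟩ := index_prime hMn hMt hMmax
  haveI hp : Fact p.Prime := ⟨hpp⟩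
  have hMc := hab M hMn hMt
  have hMcc : ∀ a ∈ M, ∀ b ∈ M, a * b = b * a := fun a ha b hb =>
    congrArg Subtype.val (hMc.is_comm.comm ⟨a, ha⟩ ⟨b, hb⟩)
  have hidx1 : M.index = p ^ 1 := by rw [pow_one]; exact hidx
  -- a `p`-element outside `M`
  obtain ⟨g0, hg0⟩ : ∃ g : G, g ∉ M := by
    by_contra hcon
    push Not at hcon
    exact hMt (eq_top_iff.mpr (fun g _ => hcon g))
  obtain ⟨s0, t0, hst, ⟨k, hk⟩, hv⟩ := exists_parts (p := p) g0
  have hvM : g0 ^ t0 ∈ M := Cfsg.Agent.Lib.FrobNPC.mem_of_coprime_of_index hidx1 hv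
  set y := g0 ^ s0 with hy
  have hyM : y ∉ M := by
    intro h
    apply hg0
    rw [← hst]
    exact M.mul_mem h hvM
  -- subgroups containing `M` and `y`
  have hMtop : ∀ K : Subgroup G, M ≤ K → y ∈ K → K = ⊤ := by
    intro K hK hyK
    have h1 := Subgroup.relIndex_mul_index hK
    rw [hidx] at h1
    rcases (Nat.dvd_prime hpp).mp (Dvd.intro_left _ h1) with h2 | h2
    · exact Subgroup.index_eq_one.mp h2
    · rw [h2] at h1
      have h3 : M.relIndex K = 1 := by
        have : 0 < p := hpp.pos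
        exact Nat.eq_of_mul_eq_mul_right this (by rw [h1, one_mul])
      exact absurd ((Subgroup.relIndex_eq_one).mp h3 hyK) hyM
  have hpowM : ∀ g : G, g ^ p ∈ M := by
    intro g
    have h1 : ((g : G) : G ⧸ M) ^ Nat.card (G ⧸ M) = 1 := pow_card_eq_one'
    have h2 : Nat.card (G ⧸ M) = p := hidx
    rw [h2] at h1
    exact (QuotientGroup.eq_one_iff _).mp h1
  -- the `p'`-part of `M`
  let A : Subgroup G :=
    { carrier := {m | m ∈ M ∧ (orderOf m).Coprime p}
      one_mem' := ⟨M.one_mem, by simp⟩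
      mul_mem' := by
        rintro a b ⟨ha, ha'⟩ ⟨hb, hb'⟩
        refine ⟨M.mul_mem ha hb, ?_⟩
        have h1 := Commute.orderOf_mul_dvd_mul_orderOf (show Commute a b from hMcc a ha b hb)
        exact Nat.Coprime.coprime_dvd_left h1 (Nat.Coprime.mul_left ha' hb')
      inv_mem' := by
        rintro a ⟨ha, ha'⟩
        exact ⟨M.inv_mem ha, by rwa [orderOf_inv]⟩ }
  have hAM : A ≤ M := fun a ha => ha.1
  have hAo : ∀ a ∈ A, (orderOf a).Coprime p := fun a ha => ha.2
  have hAn : A.Normal := by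
    refine ⟨fun a ha g => ⟨hMn.conj_mem a ha.1 g, ?_⟩⟩
    have h3 : g * a * g⁻¹ = MulAut.conj g a := by simp [MulAut.conj_apply]
    rw [h3, MulEquiv.orderOf_eq]
    exact ha.2
  have hAcc : ∀ a ∈ A, ∀ b ∈ A, a * b = b * a := fun a ha b hb => hMcc a ha.1 b hb.1
  have hAc : IsMulCommutative A := ⟨⟨fun a b => Subtype.ext (hAcc a a.2 b b.2)⟩⟩
  have hpA : ¬ p ∣ Nat.card A := by
    intro hd
    obtain ⟨a, ha⟩ := exists_prime_orderOf_dvd_card' (G := A) p hd
    have h1 := hAo a a.2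
    rw [Subgroup.orderOf_coe, ha] at h1
    exact hpp.one_lt.ne' (by simpa using h1)
  -- modulo `A`, every element has `p`-power order
  have hgA : ∀ g : G, ∃ j : ℕ, g ^ (p ^ j) ∈ A := by
    intro g
    obtain ⟨s, t, hst, ⟨j, hj⟩, hto⟩ := exists_parts (p := p) (g ^ p)
    refine ⟨j + 1, ?_⟩
    have hcomm : Commute ((g ^ p) ^ s) ((g ^ p) ^ t) := (Commute.refl _).pow_pow s t
    have h1 : g ^ (p ^ (j + 1)) = (((g ^ p) ^ s) * ((g ^ p) ^ t)) ^ (p ^ j) := by
      rw [hst, ← pow_mul, pow_succ']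
    rw [h1, hcomm.mul_pow, ← hj, pow_orderOf_eq_one, one_mul]
    exact A.pow_mem ⟨M.pow_mem (hpowM g) t, hto⟩ _
  -- `y` acts nontrivially on `A`
  have hnc : y ∉ Subgroup.centralizer (A : Set G) := by
    intro hyc
    apply hnn
    have hAcen : A ≤ Subgroup.center G := by
      intro a ha
      have h1 : Subgroup.centralizer ({a} : Set G) = ⊤ := by
        refine hMtop _ ?_ ?_
        · intro m hm
          exact Subgroup.mem_centralizer_singleton_iff.mpr (hMcc m hm a (hAM ha))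
        · exact Subgroup.mem_centralizer_singleton_iff.mpr
            (Subgroup.mem_centralizer_iff.mp hyc a ha).symm
      rw [Subgroup.mem_center_iff]
      intro g
      have : g ∈ Subgroup.centralizer ({a} : Set G) := by rw [h1]; exact Subgroup.mem_top g
      exact Subgroup.mem_centralizer_singleton_iff.mp this
    have hq : IsPGroup p (G ⧸ Subgroup.center G) := by
      intro c
      obtain ⟨g, rfl⟩ := QuotientGroup.mk'_surjective _ c
      obtain ⟨j, hj⟩ := hgA g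
      refine ⟨j, ?_⟩
      rw [← map_pow]
      exact (QuotientGroup.eq_one_iff _).mpr (hAcen hj)
    haveI : Group.IsNilpotent (G ⧸ Subgroup.center G) := hq.isNilpotent
    exact of_quotient_center_nilpotent inferInstance
  have hyN : y ∈ Subgroup.normalizer (A : Set G) := by
    rw [Subgroup.normalizer_eq_top]
    exact Subgroup.mem_top y
  have hAy : ∀ a ∈ A, (orderOf a).Coprime (orderOf y) := by
    intro a ha
    rw [hk]
    exact Nat.Coprime.pow_right _ (hAo a ha)
  -- fixed-point-freeness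
  have hfp : ∀ a : G, a ∈ A → a ≠ 1 → y * a * y⁻¹ ≠ a := by
    intro a ha ha1 h
    apply ha1
    refine eq_one_of_commute hS A hAcc y hyN hAy hnc ?_ (fun b hb => hAcc a ha b hb) (hAy a ha)
    calc a * y = y * a * y⁻¹ * y := by rw [h]
      _ = y * a := by group
  -- `G = A ⟨y⟩`
  have hH : A ⊔ Subgroup.zpowers y = ⊤ := by
    by_contra hne
    set H := A ⊔ Subgroup.zpowers y with hHdef
    have hHna : ¬ IsMulCommutative H := by
      intro hc
      apply hnc
      rw [Subgroup.mem_centralizer_iff]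
      intro a ha
      have h1 : a ∈ H := (le_sup_left : A ≤ H) ha
      have h2 : y ∈ H := (le_sup_right : Subgroup.zpowers y ≤ H) (Subgroup.mem_zpowers y)
      exact congrArg Subtype.val (hc.is_comm.comm ⟨a, h1⟩ ⟨y, h2⟩)
    have hNH := hS H hHna
    have hq : IsPGroup p (G ⧸ A) := by
      intro c
      obtain ⟨g, rfl⟩ := QuotientGroup.mk'_surjective _ c
      obtain ⟨j, hj⟩ := hgA g
      refine ⟨j, ?_⟩
      rw [← map_pow]
      exact (QuotientGroup.eq_one_iff _).mpr hj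
    haveI : Group.IsNilpotent (G ⧸ A) := hq.isNilpotent
    let Hb : Subgroup (G ⧸ A) := H.map (QuotientGroup.mk' A)
    have hAH : A ≤ H := le_sup_left
    have hHb : ∀ g : G, QuotientGroup.mk' A g ∈ Hb ↔ g ∈ H := by
      intro g
      constructor
      · rintro ⟨h, hh, heq⟩
        have h1 : h⁻¹ * g ∈ A := QuotientGroup.eq.mp heq
        have h2 : g = h * (h⁻¹ * g) := by group
        rw [h2]
        exact H.mul_mem hh (hAH h1)
      · intro h
        exact ⟨g, h, rfl⟩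
    have hHbt : Hb ≠ ⊤ := by
      intro h
      apply hne
      rw [eq_top_iff]
      intro g _
      rw [← hHb, h]
      exact Subgroup.mem_top _
    have hlt := normalizerCondition_of_isNilpotent (G := G ⧸ A) Hb (lt_top_iff_ne_top.mpr hHbt)
    obtain ⟨c, hcN, hcH⟩ := SetLike.exists_of_lt hlt
    obtain ⟨g, rfl⟩ := QuotientGroup.mk'_surjective _ c
    have hgN : g ∈ Subgroup.normalizer (H : Set G) := by
      rw [Subgroup.mem_normalizer_iff]
      intro w
      have := Subgroup.mem_normalizer_iff.mp hcN (QuotientGroup.mk' A w)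
      rw [hHb] at this
      rw [this, ← map_inv, ← map_mul, ← map_mul, hHb]
    rw [hNH] at hgN
    exact hcH ((hHb g).mpr hgN)
  have hcomp : (Subgroup.zpowers y).IsComplement' A := by
    refine Subgroup.isComplement'_of_disjoint_and_mul_eq_univ ?_ ?_
    · rw [Subgroup.disjoint_def]
      intro z hz1 hz2
      have h1 := orderOf_dvd_of_mem_zpowers hz1
      have h2 : Nat.Coprime (orderOf z) (orderOf y) := hAy z hz2
      exact orderOf_eq_one_iff.mp (Nat.Coprime.eq_one_of_dvd h2 h1)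
    · rw [← Subgroup.mul_normal, sup_comm, hH]
      rfl
  refine ⟨y, A, p, hpp, hAn, hAc, ⟨k, hk⟩, hpA, hcomp, ?_, hfp⟩
  -- `y ^ p` is central
  have h1 : Subgroup.centralizer ({y ^ p} : Set G) = ⊤ := by
    refine hMtop _ ?_ ?_
    · intro m hm
      exact Subgroup.mem_centralizer_singleton_iff.mpr (hMcc m hm _ (hpowM y))
    · exact Subgroup.mem_centralizer_singleton_iff.mpr ((Commute.refl y).pow_right p)
  rw [Subgroup.mem_center_iff]
  intro g
  have : g ∈ Subgroup.centralizer ({y ^ p} : Set G) := by rw [h1]; exact Subgroup.mem_top g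
  exact Subgroup.mem_centralizer_singleton_iff.mp this

theorem backward [Finite G] (x : G) (A : Subgroup G) (p : ℕ) (hpp : p.Prime) (hAn : A.Normal)
    (hAc : IsMulCommutative A) (hx : ∃ k : ℕ, orderOf x = p ^ k) (hcomp : (Subgroup.zpowers x).IsComplement' A)
    (hcen : x ^ p ∈ Subgroup.center G) (hfp : ∀ a : G, a ∈ A → a ≠ 1 → x * a * x⁻¹ ≠ a)
    (H : Subgroup G) (hH : ¬ IsMulCommutative H) : Subgroup.normalizer (H : Set G) = H := by
  obtain ⟨k, hk⟩ := hx
  have hAcc : ∀ a ∈ A, ∀ b ∈ A, a * b = b * a := fun a ha b hb =>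
    congrArg Subtype.val (hAc.is_comm.comm ⟨a, ha⟩ ⟨b, hb⟩)
  have hcentral : ∀ (g : G), x ^ p * g = g * x ^ p := fun g => (Subgroup.mem_center_iff.mp hcen g).symm
  -- every element is a power of `x` times an element of `A`
  have hdec : ∀ g : G, ∃ (i : ℕ) (a : G), a ∈ A ∧ g = x ^ i * a := by
    intro g
    obtain ⟨⟨u, a⟩, hua⟩ := hcomp.2 g
    change u.1 * a.1 = g at hua
    obtain ⟨i, hi⟩ := (mem_powers_iff_mem_zpowers).mpr u.2
    refine ⟨i, a.1, a.2, ?_⟩
    rw [← hua]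
    congr 1
    exact hi.symm
  -- an element of `H` with exponent prime to `p`
  obtain ⟨y, hyH, i, a, ha, hy, hpi⟩ : ∃ y ∈ H, ∃ (i : ℕ) (a : G), a ∈ A ∧ y = x ^ i * a ∧ ¬ p ∣ i := by
    by_contra hcon
    push Not at hcon
    apply hH
    have hform : ∀ h ∈ H, ∃ (t : ℕ) (a : G), a ∈ A ∧ h = (x ^ p) ^ t * a := by
      intro h hh
      obtain ⟨i, a, ha, rfl⟩ := hdec h
      obtain ⟨t, rfl⟩ := hcon _ hh i a ha rfl
      exact ⟨t, a, ha, by rw [pow_mul]⟩
    refine ⟨⟨fun h1 h2 => Subtype.ext ?_⟩⟩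
    obtain ⟨t1, a1, ha1, he1⟩ := hform h1.1 h1.2
    obtain ⟨t2, a2, ha2, he2⟩ := hform h2.1 h2.2
    change h1.1 * h2.1 = h2.1 * h1.1
    rw [he1, he2]
    have hz1 : ∀ (t : ℕ) (g : G), Commute ((x ^ p) ^ t) g := fun t g =>
      (show Commute (x ^ p) g from hcentral g).pow_left t
    calc (x ^ p) ^ t1 * a1 * ((x ^ p) ^ t2 * a2)
        = (x ^ p) ^ t1 * (a1 * (x ^ p) ^ t2) * a2 := by group
      _ = (x ^ p) ^ t1 * ((x ^ p) ^ t2 * a1) * a2 := by rw [(hz1 t2 a1).eq]
      _ = ((x ^ p) ^ t1 * (x ^ p) ^ t2) * (a1 * a2) := by group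
      _ = ((x ^ p) ^ t2 * (x ^ p) ^ t1) * (a2 * a1) := by
          rw [hAcc a1 ha1 a2 ha2, ((hz1 t1 _).pow_right t2 |>.eq) ]
      _ = (x ^ p) ^ t2 * ((x ^ p) ^ t1 * a2) * a1 := by group
      _ = (x ^ p) ^ t2 * (a2 * (x ^ p) ^ t1) * a1 := by rw [(hz1 t1 a2).eq]
      _ = (x ^ p) ^ t2 * a2 * ((x ^ p) ^ t1 * a1) := by group
  have hcop : Nat.Coprime i p := ((Nat.Prime.coprime_iff_not_dvd hpp).mpr hpi).symm
  -- `y` acts fixed-point-freely on `A`
  have hyfp : ∀ b ∈ A, y * b * y⁻¹ = b → b = 1 := by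
    intro b hb hyb
    have h1 : x ^ i * b * (x ^ i)⁻¹ = b := by
      rw [hy] at hyb
      have h2 : x ^ i * a * b * (x ^ i * a)⁻¹ = x ^ i * (a * b * a⁻¹) * (x ^ i)⁻¹ := by group
      have h3 : a * b * a⁻¹ = b := by rw [hAcc a ha b hb]; group
      rw [h2, h3] at hyb
      exact hyb
    have hc1 : Commute (x ^ i) b := by
      change x ^ i * b = b * x ^ i
      calc x ^ i * b = x ^ i * b * (x ^ i)⁻¹ * x ^ i := by group
        _ = b * x ^ i := by rw [h1]
    obtain ⟨j, -, hj'⟩ := Nat.exists_mul_mod_eq_of_coprime 1 hcop hpp.ne_zero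
    have hj : i * j % p = 1 := by rw [hj']; exact Nat.mod_eq_of_lt hpp.one_lt
    have hc2 : Commute (x ^ (i * j)) b := by
      rw [pow_mul]
      exact hc1.pow_left j
    have hij : i * j = i * j % p + p * (i * j / p) := (Nat.mod_add_div _ _).symm
    rw [hj] at hij
    have hc3 : Commute x b := by
      have h4 : x ^ (i * j) = x * (x ^ p) ^ (i * j / p) := by
        conv_lhs => rw [hij]
        rw [pow_add, pow_one, pow_mul]
      rw [h4] at hc2
      have h5 : Commute ((x ^ p) ^ (i * j / p)) b := (show Commute (x ^ p) b from hcentral b).pow_left _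
      have h6 := hc2.mul_left h5.inv_left
      simpa using h6
    by_contra hb1
    apply hfp b hb hb1
    rw [hc3.eq]
    group
  have hyA : ∀ b ∈ A, y * b * y⁻¹ ∈ A := fun b hb => hAn.conj_mem b hb y
  -- the commutator map on `A`
  have hτ : ∀ b ∈ A, ∀ b' ∈ A, y * b * y⁻¹ * b⁻¹ = y * b' * y⁻¹ * b'⁻¹ → b = b' := by
    intro b hb b' hb' h
    have hm : b'⁻¹ * b ∈ A := A.mul_mem (A.inv_mem hb') hb
    have h1 : y * (b'⁻¹ * b) * y⁻¹ = b'⁻¹ * b := by
      have h2 : y * b * y⁻¹ = y * b' * y⁻¹ * (b'⁻¹ * b) := by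
        calc y * b * y⁻¹ = y * b * y⁻¹ * b⁻¹ * b := by group
          _ = y * b' * y⁻¹ * b'⁻¹ * b := by rw [h]
          _ = _ := by group
      calc y * (b'⁻¹ * b) * y⁻¹ = (y * b'⁻¹ * y⁻¹) * (y * b * y⁻¹) := by group
        _ = (y * b'⁻¹ * y⁻¹) * (y * b' * y⁻¹ * (b'⁻¹ * b)) := by rw [h2]
        _ = _ := by group
    have := hyfp _ hm h1
    exact (inv_mul_eq_one.mp this).symm
  -- surjectivity on `H ∩ A`
  have hsurj : ∀ c ∈ H, c ∈ A → ∃ b' ∈ H, b' ∈ A ∧ y * b' * y⁻¹ * b'⁻¹ = c := by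
    let B : Subgroup G := H ⊓ A
    let f : B → B := fun b => ⟨y * b.1 * y⁻¹ * b.1⁻¹,
      H.mul_mem (H.mul_mem (H.mul_mem hyH b.2.1) (H.inv_mem hyH)) (H.inv_mem b.2.1),
      A.mul_mem (hyA _ b.2.2) (A.inv_mem b.2.2)⟩
    have hfi : Function.Injective f := by
      intro b1 b2 h
      have h1 : y * b1.1 * y⁻¹ * b1.1⁻¹ = y * b2.1 * y⁻¹ * b2.1⁻¹ := congrArg Subtype.val h
      exact Subtype.ext (hτ _ b1.2.2 _ b2.2.2 h1)
    have hfs := Finite.injective_iff_surjective.mp hfi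
    intro c hc hcA
    obtain ⟨b, hb⟩ := hfs ⟨c, hc, hcA⟩
    exact ⟨b.1, b.2.1, b.2.2, congrArg Subtype.val hb⟩
  -- `G = ⟨y⟩ A`
  have hU : Subgroup.zpowers y ⊔ A = ⊤ := by
    have hxU : x ∈ Subgroup.zpowers y ⊔ A := by
      have h1 : x ^ i ∈ Subgroup.zpowers y ⊔ A := by
        have h2 : x ^ i = y * a⁻¹ := by rw [hy]; group
        rw [h2]
        exact (Subgroup.zpowers y ⊔ A).mul_mem
          ((le_sup_left : Subgroup.zpowers y ≤ _) (Subgroup.mem_zpowers y))
          ((le_sup_right : A ≤ Subgroup.zpowers y ⊔ A) (A.inv_mem ha))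
      have hc : Nat.Coprime i (orderOf x) := by
        rw [hk]
        exact Nat.Coprime.pow_right _ hcop
      obtain ⟨m, hm⟩ := exists_pow_eq_self_of_coprime hc
      rw [← hm]
      exact Subgroup.pow_mem _ h1 m
    rw [eq_top_iff]
    intro g _
    obtain ⟨j, b, hb, rfl⟩ := hdec g
    exact Subgroup.mul_mem _ (Subgroup.pow_mem _ hxU j)
      ((le_sup_right : A ≤ Subgroup.zpowers y ⊔ A) hb)
  refine le_antisymm ?_ Subgroup.le_normalizer
  intro g hg
  -- write `g = y ^ s * b`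
  have hg' : g ∈ ((Subgroup.zpowers y ⊔ A : Subgroup G) : Set G) := by
    rw [hU]; exact Subgroup.mem_top g
  rw [Subgroup.mul_normal] at hg'
  obtain ⟨u, hu, b, hb, rfl⟩ := Set.mem_mul.mp hg'
  have huH : u ∈ H := (Subgroup.zpowers_le.mpr hyH) hu
  have hbN : b ∈ Subgroup.normalizer (H : Set G) := by
    have h1 : b = u⁻¹ * (u * b) := by group
    rw [h1]
    exact Subgroup.mul_mem _ (Subgroup.le_normalizer (H.inv_mem huH)) hg
  have hτb : y * b * y⁻¹ * b⁻¹ ∈ H := by
    have h1 : b * y⁻¹ * b⁻¹ ∈ H := (Subgroup.mem_normalizer_iff.mp hbN _).mp (H.inv_mem hyH)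
    have h2 : y * b * y⁻¹ * b⁻¹ = y * (b * y⁻¹ * b⁻¹) := by group
    rw [h2]
    exact H.mul_mem hyH h1
  have hτA : y * b * y⁻¹ * b⁻¹ ∈ A := A.mul_mem (hyA b hb) (A.inv_mem hb)
  obtain ⟨b', hb'H, hb'A, hb'⟩ := hsurj _ hτb hτA
  have hbb' := hτ b hb b' hb'A hb'.symm
  rw [hbb']
  exact H.mul_mem huH hb'H

/-- Let G be a finite solvable non-nilpotent group. Every non-abelian subgroup of G is self-normalizing if and only if G is a semidirect product ⟨x⟩ ⋉ A in which ⟨x⟩ is a p-group for some prime p, A is a normal abelian subgroup of order prime to p, x^p is central in G, and x acts fixed-point-freely on A (no non-identity element of A commutes with x). -/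
theorem result {G : Type*} [Group G] [Finite G]
    [Group.IsSolvable G] (hnn : ¬ Group.IsNilpotent G) :
    (∀ H : Subgroup G, ¬ IsMulCommutative H → Subgroup.normalizer (H : Set G) = H) ↔
    ∃ (x : G) (A : Subgroup G) (p : ℕ), p.Prime ∧ A.Normal ∧ IsMulCommutative A ∧ (∃ k : ℕ, orderOf x = p ^ k) ∧
      ¬ p ∣ Nat.card A ∧ (Subgroup.zpowers x).IsComplement' A ∧ x ^ p ∈ Subgroup.center G ∧
      ∀ a : G, a ∈ A → a ≠ 1 → x * a * x⁻¹ ≠ a := by
  constructor
  · exact forward hnn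
  · rintro ⟨x, A, p, hpp, hAn, hAc, hx, -, hcomp, hcen, hfp⟩ H hH
    exact backward x A p hpp hAn hAc hx hcomp hcen hfp H hH

end Cfsg.Agent.S4071
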