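import Mathlib
import Cfsg.Statements.S4072
import Cfsg.Agent.Lib.FrobNPC

set_option autoImplicit false
open Cfsg

namespace Cfsg.Agent.S4072

open Cfsg.Agent.Lib.FrobNPC

section Norm

variable {E : Type*} [CommGroup E]

/-- The norm map of an automorphism. -/
def normHom (τ : E ≃* E) (o : ℕ) : E →* E where
  toFun e := ∏ i ∈ Finset.range o, (τ ^ i) e
  map_one' := by simp
  map_mul' a b := by simp [Finset.prod_mul_distrib]

theorem normHom_apply (τ : E ≃* E) (o : ℕ) (e : E) :
    normHom τ o e = ∏ i ∈ Finset.range o, (τ ^ i) e := rfl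

theorem normHom_comp (τ : E ≃* E) (o : ℕ) (ho : τ ^ o = 1) (e : E) :
    normHom τ o (τ e) = normHom τ o e := by
  rw [normHom_apply, normHom_apply]
  have h1 := Finset.prod_range_succ (fun i => (τ ^ i) e) o
  have h2 := Finset.prod_range_succ' (fun i => (τ ^ i) e) o
  have h3 : (τ ^ o) e = (τ ^ 0) e := by rw [ho]; simp
  have h4 : ∀ i, (τ ^ i) (τ e) = (τ ^ (i + 1)) e := by
    intro i
    rw [pow_succ]; rfl
  simp only [h4]
  rw [h1, h3] at h2
  exact (mul_right_cancel h2).symm

end Norm

variable {G : Type*} [Group G] [Finite G]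

/-- Decomposition of elements of `A ⊔ ⟨g⟩` when `g` normalizes `A`. -/
theorem exists_of_mem_sup {A : Subgroup G} {g x : G}
    (hg : g ∈ Subgroup.normalizer (A : Set G)) (hx : x ∈ A ⊔ Subgroup.zpowers g) :
    ∃ a ∈ A, ∃ k : ℤ, x = a * g ^ k := by
  have hgk : ∀ k : ℤ, ∀ a ∈ A, g ^ k * a * (g ^ k)⁻¹ ∈ A := by
    intro k a ha
    have := Subgroup.zpow_mem _ hg k
    exact (Subgroup.mem_normalizer_iff.mp this a).mp ha
  let T : Subgroup G :=
    { carrier := {x | ∃ a ∈ A, ∃ k : ℤ, x = a * g ^ k}
      one_mem' := ⟨1, A.one_mem, 0, by simp⟩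
      mul_mem' := by
        rintro _ _ ⟨a, ha, k, rfl⟩ ⟨b, hb, l, rfl⟩
        refine ⟨a * (g ^ k * b * (g ^ k)⁻¹), A.mul_mem ha (hgk k b hb), k + l, ?_⟩
        rw [zpow_add]; group
      inv_mem' := by
        rintro _ ⟨a, ha, k, rfl⟩
        refine ⟨g ^ (-k) * a⁻¹ * (g ^ (-k))⁻¹, hgk (-k) _ (A.inv_mem ha), -k, ?_⟩
        group }
  have h1 : A ≤ T := fun a ha => ⟨a, ha, 0, by simp⟩
  have h2 : Subgroup.zpowers g ≤ T := by
    rw [Subgroup.zpowers_le]
    exact ⟨1, A.one_mem, 1, by simp⟩
  exact (sup_le h1 h2) hx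

/-- A `p`-element with order prime to `p` is trivial. -/
theorem eq_one_of_coprime {p : ℕ} [Fact p.Prime] {Q : Subgroup G} (hQ : IsPGroup p Q) {x : G}
    (hx : x ∈ Q) (hc : (orderOf x).Coprime p) : x = 1 := by
  obtain ⟨k, hk⟩ := hQ ⟨x, hx⟩
  have h1 : x ^ p ^ k = 1 := congrArg Subtype.val hk
  have h2 := orderOf_dvd_of_pow_eq_one h1
  have h3 : orderOf x = 1 := Nat.eq_one_of_dvd_coprimes (hc.pow_right k) dvd_rfl h2
  exact orderOf_eq_one_iff.mp h3

/-- The main local step: `g` of order prime to `p` normalizing an abelian `p`-subgroup `E`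
containing a central element `z` of order `p` centralizes `E`. -/
theorem centralizes_abelian
    (hS : ∀ H : Subgroup G, ¬ IsMulCommutative H → Subgroup.normalizer (H : Set G) = H)
    {p : ℕ} [Fact p.Prime] (E : Subgroup G) (hE : IsPGroup p E) (hab : IsMulCommutative E)
    {z : G} (hzE : z ∈ E) (hz : z ∈ Subgroup.center G) (hzo : orderOf z = p)
    {g : G} (hgN : g ∈ Subgroup.normalizer (E : Set G)) (hgo : (orderOf g).Coprime p) :
    g ∈ Subgroup.centralizer (E : Set G) := by
  classical
  have hpp := (Fact.out : p.Prime)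
  let _ : CommGroup E := { (inferInstance : Group E) with mul_comm := hab.is_comm.comm }
  have hmemE : ∀ e ∈ E, g * e * g⁻¹ ∈ E := fun e he => (Subgroup.mem_normalizer_iff.mp hgN e).mp he
  have hgi : g⁻¹ ∈ Subgroup.normalizer (E : Set G) := Subgroup.inv_mem _ hgN
  have hmemE' : ∀ e ∈ E, g⁻¹ * e * g ∈ E := fun e he => by
    have := (Subgroup.mem_normalizer_iff.mp hgi e).mp he
    simpa using this
  let τ : E ≃* E :=
    { toFun := fun e => ⟨g * e * g⁻¹, hmemE e e.2⟩
      invFun := fun e => ⟨g⁻¹ * e * g, hmemE' e e.2⟩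
      left_inv := fun e => by apply Subtype.ext; simp [mul_assoc]
      right_inv := fun e => by apply Subtype.ext; simp [mul_assoc]
      map_mul' := fun a b => by apply Subtype.ext; simp [mul_assoc] }
  have hτ : ∀ (i : ℕ) (e : E), (((τ ^ i) e : E) : G) = g ^ i * e * (g ^ i)⁻¹ := by
    intro i e
    induction i generalizing e with
    | zero => simp
    | succ i ih =>
      rw [pow_succ]
      change (((τ ^ i) (τ e) : E) : G) = _
      rw [ih]
      change g ^ i * (g * e * g⁻¹) * (g ^ i)⁻¹ = _
      rw [pow_succ]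
      group
  have hτo : τ ^ orderOf g = 1 := by
    ext e
    rw [hτ]
    simp [pow_orderOf_eq_one]
  set N := normHom τ (orderOf g) with hN
  -- `A = ker N`
  let A : Subgroup G := N.ker.map E.subtype
  have hA : ∀ x, x ∈ A ↔ ∃ h : x ∈ E, N ⟨x, h⟩ = 1 := by
    intro x
    constructor
    · rintro ⟨e, he, rfl⟩
      exact ⟨e.2, he⟩
    · rintro ⟨h, hx⟩
      exact ⟨⟨x, h⟩, hx, rfl⟩
  have hNτ : ∀ e : E, N (τ e) = N e := fun e => normHom_comp τ _ hτo e
  -- `g` normalizes `A`
  have hgA : g ∈ Subgroup.normalizer (A : Set G) := by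
    apply Subgroup.mem_normalizer_fintype
    intro n hn
    obtain ⟨h, hx⟩ := (hA n).mp hn
    refine (hA _).mpr ⟨hmemE n h, ?_⟩
    have := hNτ ⟨n, h⟩
    rw [hx] at this
    exact this
  by_contra hnc
  -- a nontrivial element in `A`
  have hex : ∃ e : E, τ e * e⁻¹ ≠ 1 := by
    by_contra hcon
    push Not at hcon
    apply hnc
    rw [Subgroup.mem_centralizer_iff]
    intro e he
    have h1 := hcon ⟨e, he⟩
    have h2 : τ ⟨e, he⟩ = ⟨e, he⟩ := mul_inv_eq_one.mp h1
    have h3 : g * e * g⁻¹ = e := congrArg Subtype.val h2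
    exact (mul_inv_eq_iff_eq_mul.mp h3).symm
  obtain ⟨e₀, he₀⟩ := hex
  have ha₀ : N (τ e₀ * e₀⁻¹) = 1 := by
    rw [map_mul, map_inv, hNτ, mul_inv_cancel]
  -- the subgroup `B = A ⟨g⟩` is not abelian
  let B : Subgroup G := A ⊔ Subgroup.zpowers g
  have hnab : ¬ IsMulCommutative B := by
    intro hcomm
    have h1 : ((τ e₀ * e₀⁻¹ : E) : G) ∈ B :=
      Subgroup.mem_sup_left ((hA _).mpr ⟨(τ e₀ * e₀⁻¹).2, ha₀⟩)
    have h2 : g ∈ B := Subgroup.mem_sup_right (Subgroup.mem_zpowers g)
    have h3 := congrArg Subtype.val (hcomm.is_comm.comm ⟨_, h1⟩ ⟨g, h2⟩)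
    have h3' : ((τ e₀ * e₀⁻¹ : E) : G) * g = g * ((τ e₀ * e₀⁻¹ : E) : G) := h3
    -- the element is fixed by `τ`
    have hfix : ∀ i : ℕ, (τ ^ i) (τ e₀ * e₀⁻¹) = τ e₀ * e₀⁻¹ := by
      intro i
      apply Subtype.ext
      rw [hτ]
      have : Commute ((τ e₀ * e₀⁻¹ : E) : G) (g ^ i) := (Commute.pow_right h3' i)
      rw [this.symm.eq, mul_inv_cancel_right]
    have h4 : (τ e₀ * e₀⁻¹) ^ orderOf g = 1 := by
      have := ha₀
      rw [hN, normHom_apply] at this
      simp only [hfix] at this
      simpa using this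
    apply he₀
    have h5 : ((τ e₀ * e₀⁻¹ : E) : G) ^ orderOf g = 1 := congrArg Subtype.val h4
    -- `p`-element with coprime power trivial
    obtain ⟨k, hk⟩ := hE (τ e₀ * e₀⁻¹)
    have h6 : (τ e₀ * e₀⁻¹) ^ p ^ k = 1 := hk
    have h7 := orderOf_dvd_of_pow_eq_one h4
    have h8 := orderOf_dvd_of_pow_eq_one h6
    have h9 : orderOf (τ e₀ * e₀⁻¹) = 1 :=
      Nat.eq_one_of_dvd_coprimes (hgo.pow_right k) h7 h8
    exact orderOf_eq_one_iff.mp h9
  -- `E` normalizes `B`
  have hEB : E ≤ B := by
    have h1 := hS B hnab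
    intro e he
    have h2 : e ∈ Subgroup.normalizer (B : Set G) := by
      apply Subgroup.mem_normalizer_fintype
      intro n hn
      -- `B` is generated by `A` and `g`
      have hmap : B ≤ B.comap (MulAut.conj e).toMonoidHom := by
        apply sup_le
        · intro a ha
          obtain ⟨h, _⟩ := (hA a).mp ha
          change e * a * e⁻¹ ∈ B
          have hc : e * a * e⁻¹ = a := by
            have := congrArg Subtype.val (hab.is_comm.comm ⟨e, he⟩ ⟨a, h⟩)
            have h3 : e * a = a * e := this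
            rw [h3, mul_inv_cancel_right]
          rw [hc]
          exact Subgroup.mem_sup_left ha
        · rw [Subgroup.zpowers_le]
          change e * g * e⁻¹ ∈ B
          -- `e g e⁻¹ = g · (g⁻¹ e g) e⁻¹`
          have hb : (g⁻¹ * e * g) * e⁻¹ ∈ A := by
            refine (hA _).mpr ⟨E.mul_mem (hmemE' e he) (E.inv_mem he), ?_⟩
            -- `τ (g⁻¹ e g) = e`
            have h3 : τ ⟨g⁻¹ * e * g, hmemE' e he⟩ = ⟨e, he⟩ := by
              apply Subtype.ext
              change g * (g⁻¹ * e * g) * g⁻¹ = e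
              group
            have h4 := hNτ ⟨g⁻¹ * e * g, hmemE' e he⟩
            rw [h3] at h4
            have h5 : (⟨(g⁻¹ * e * g) * e⁻¹, E.mul_mem (hmemE' e he) (E.inv_mem he)⟩ : E) =
                ⟨g⁻¹ * e * g, hmemE' e he⟩ * (⟨e, he⟩ : E)⁻¹ := rfl
            rw [h5, map_mul, map_inv, ← h4, mul_inv_cancel]
          have h6 : e * g * e⁻¹ = g * ((g⁻¹ * e * g) * e⁻¹) := by group
          rw [h6]
          exact B.mul_mem (Subgroup.mem_sup_right (Subgroup.mem_zpowers g))
            (Subgroup.mem_sup_left hb)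
      exact hmap hn
    rw [h1] at h2
    exact h2
  -- so `z ∈ A`
  obtain ⟨a, ha, k, hak⟩ := exists_of_mem_sup hgA (hEB hzE)
  obtain ⟨haE, haN⟩ := (hA a).mp ha
  have hgk : g ^ k = 1 := by
    have h1 : g ^ k = a⁻¹ * z := by rw [hak]; group
    have h2 : g ^ k ∈ E := by rw [h1]; exact E.mul_mem (E.inv_mem haE) hzE
    apply eq_one_of_coprime hE h2
    refine Nat.Coprime.coprime_dvd_left (orderOf_dvd_of_pow_eq_one ?_) hgo
    rw [← zpow_natCast, zpow_comm, zpow_natCast, pow_orderOf_eq_one, one_zpow]
  rw [hgk, mul_one] at hak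
  subst hak
  -- `N z = z ^ o`
  have hfix : ∀ i : ℕ, (τ ^ i) ⟨z, hzE⟩ = ⟨z, hzE⟩ := by
    intro i
    apply Subtype.ext
    rw [hτ]
    have := Subgroup.mem_center_iff.mp hz (g ^ i)
    change g ^ i * z * (g ^ i)⁻¹ = z
    rw [this, mul_inv_cancel_right]
  have h1 : (⟨z, hzE⟩ : E) ^ orderOf g = 1 := by
    have := haN
    rw [hN, normHom_apply] at this
    simp only [hfix] at this
    simpa using this
  have h2 : z ^ orderOf g = 1 := congrArg Subtype.val h1
  have h3 := orderOf_dvd_of_pow_eq_one h2
  rw [hzo] at h3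
  have h4 := Nat.Coprime.eq_one_of_dvd hgo.symm h3
  exact hpp.one_lt.ne' h4

/-- A finite group in which every non-abelian subgroup is self-normalizing is solvable or simple. -/
theorem result {G : Type*} [Group G] [Finite G] (hS : ∀ H : Subgroup G, ¬ IsMulCommutative H → Subgroup.normalizer (H : Set G) = H) :
    Group.IsSolvable G ∨ IsSimpleGroup G := by
  classical
  by_contra hcon
  push Not at hcon
  obtain ⟨hns, hsimp⟩ := hcon
  -- proper normal subgroups are abelian
  have hNorm : ∀ N : Subgroup G, N.Normal → N ≠ ⊤ → IsMulCommutative N := by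
    intro N hN hne
    by_contra hc
    have h1 := hS N hc
    rw [Subgroup.normalizer_eq_top_iff.mpr hN] at h1
    exact hne h1.symm
  have hnt : Nontrivial G := by
    by_contra hn
    rw [not_nontrivial_iff_subsingleton] at hn
    exact hns inferInstance
  obtain ⟨N, hN, hNbot, hNtop⟩ : ∃ N : Subgroup G, N.Normal ∧ N ≠ ⊥ ∧ N ≠ ⊤ := by
    by_contra hc
    push Not at hc
    apply hsimp
    exact ⟨fun N hN => by
      by_cases h : N = ⊥
      · exact Or.inl h
      · exact Or.inr (hc N hN h)⟩
  have hNab := hNorm N hN hNtop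
  -- `N` is central
  have hCtop : Subgroup.centralizer (N : Set G) = ⊤ := by
    by_contra hCne
    set C := Subgroup.centralizer (N : Set G) with hC
    have hCn : C.Normal := Subgroup.normal_centralizer (H := N)
    have hCab := hNorm C hCn hCne
    have hNC : N ≤ C := by
      intro a ha
      rw [hC, Subgroup.mem_centralizer_iff]
      intro b hb
      exact congrArg Subtype.val (hNab.is_comm.comm ⟨b, hb⟩ ⟨a, ha⟩)
    -- any subgroup strictly above `C` is nonabelian
    have hup : ∀ K : Subgroup G, C ≤ K → K ≠ C → ¬ IsMulCommutative K := by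
      intro K hCK hne hcomm
      apply hne
      apply le_antisymm _ hCK
      intro a ha
      rw [hC, Subgroup.mem_centralizer_iff]
      intro b hb
      exact congrArg Subtype.val (hcomm.is_comm.comm ⟨b, hCK (hNC hb)⟩ ⟨a, ha⟩)
    let π := QuotientGroup.mk' C
    have hπ : Function.Surjective π := QuotientGroup.mk'_surjective C
    -- nontrivial subgroups of the quotient are self-normalizing
    have hselfn : ∀ U : Subgroup (G ⧸ C), U ≠ ⊥ →
        Subgroup.normalizer (U : Set (G ⧸ C)) = U := by
      intro U hU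
      have hCU : C ≤ U.comap π := by
        intro a ha
        rw [Subgroup.mem_comap]
        have : π a = 1 := (QuotientGroup.eq_one_iff a).mpr ha
        rw [this]; exact U.one_mem
      have hne : U.comap π ≠ C := by
        intro h
        apply hU
        rw [eq_bot_iff]
        intro u hu
        obtain ⟨a, rfl⟩ := hπ u
        have : a ∈ C := h ▸ (Subgroup.mem_comap.mpr hu)
        have h2 : π a = 1 := (QuotientGroup.eq_one_iff a).mpr this
        rw [h2]; exact Subgroup.one_mem _
      have h1 := hS _ (hup _ hCU hne)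
      apply le_antisymm _ Subgroup.le_normalizer
      intro u hu
      obtain ⟨a, rfl⟩ := hπ u
      have h2 : a ∈ Subgroup.normalizer ((U.comap π : Subgroup G) : Set G) := by
        rw [Subgroup.mem_normalizer_iff]
        intro b
        have := Subgroup.mem_normalizer_iff.mp hu (π b)
        simp only [Subgroup.mem_comap, SetLike.mem_coe] at this ⊢
        rw [this]
        simp
      rw [h1] at h2
      exact h2
    have hQnt : Nontrivial (G ⧸ C) := by
      rw [QuotientGroup.nontrivial_iff]
      exact hCne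
    obtain ⟨r, hr⟩ := Nat.exists_prime_and_dvd (Finite.one_lt_card (α := G ⧸ C)).ne'
    have hrp : Fact r.Prime := ⟨hr.1⟩
    obtain ⟨ū, hū⟩ := exists_prime_orderOf_dvd_card' r hr.2
    let U : Subgroup (G ⧸ C) := Subgroup.zpowers ū
    have hUne : U ≠ ⊥ := by
      intro h
      have : ū = 1 := Subgroup.zpowers_eq_bot.mp h
      rw [this, orderOf_one] at hū
      exact hr.1.one_lt.ne hū
    have hUp : IsPGroup r U := by
      rw [IsPGroup.iff_card, Nat.card_zpowers, hū]
      exact ⟨1, (pow_one r).symm⟩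
    obtain ⟨P, hP⟩ := hUp.exists_le_sylow
    -- `U = P`
    have hUP : U = (P : Subgroup (G ⧸ C)) := by
      by_contra hne
      have hnil : Group.IsNilpotent (P : Subgroup (G ⧸ C)) := P.2.isNilpotent
      have hlt : U.subgroupOf P < ⊤ := by
        apply lt_top_iff_ne_top.mpr
        intro h
        apply hne
        apply le_antisymm hP
        intro x hx
        have : (⟨x, hx⟩ : P) ∈ U.subgroupOf P := h ▸ Subgroup.mem_top _
        exact this
      have h1 := Group.normalizerCondition_of_isNilpotent _ hlt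
      obtain ⟨x, hx1, hx2⟩ := SetLike.exists_of_lt h1
      apply hx2
      have hx3 : (x : G ⧸ C) ∈ Subgroup.normalizer (U : Set (G ⧸ C)) := by
        apply Subgroup.mem_normalizer_fintype
        intro n hn
        have hnP : n ∈ (P : Subgroup (G ⧸ C)) := hP hn
        have := (Subgroup.mem_normalizer_iff.mp hx1 ⟨n, hnP⟩).mp hn
        exact this
      rw [hselfn U hUne] at hx3
      exact hx3
    -- Burnside
    have hUcomm : ∀ a ∈ (P : Subgroup (G ⧸ C)), ∀ b ∈ (P : Subgroup (G ⧸ C)), a * b = b * a := by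
      rw [← hUP]
      intro a ha b hb
      obtain ⟨i, rfl⟩ := ha
      obtain ⟨j, rfl⟩ := hb
      exact (Commute.refl ū).zpow_zpow i j
    have hB : Subgroup.normalizer ((P : Subgroup (G ⧸ C)) : Set (G ⧸ C)) ≤
        Subgroup.centralizer ((P : Subgroup (G ⧸ C)) : Set (G ⧸ C)) := by
      rw [hselfn (P : Subgroup (G ⧸ C)) (hUP ▸ hUne)]
      intro a ha
      rw [Subgroup.mem_centralizer_iff]
      intro b hb
      exact hUcomm _ hb _ ha
    have hcompl := MonoidHom.ker_transferSylow_isComplement' P hB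
    set Kb := (MonoidHom.transferSylow P hB).ker with hKb
    by_cases hKbot : Kb = ⊥
    · -- the quotient is abelian, so `G` is solvable
      have hPtop : (P : Subgroup (G ⧸ C)) = ⊤ := by
        have := hcompl.sup_eq_top
        rwa [hKbot, bot_sup_eq] at this
      have hcommQ : ∀ a b : G ⧸ C, a * b = b * a := by
        intro a b
        apply hUcomm <;> rw [hPtop] <;> trivial
      let _ : CommGroup (G ⧸ C) := { (inferInstance : Group (G ⧸ C)) with mul_comm := hcommQ }
      have hsC : Group.IsSolvable C := by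
        let _ : CommGroup C := { (inferInstance : Group C) with mul_comm := hCab.is_comm.comm }
        infer_instance
      have hsQ : Group.IsSolvable (G ⧸ C) := inferInstance
      apply hns
      exact Group.isSolvable_of_ker_le_range C.subtype π (by
        rw [QuotientGroup.ker_mk', Subgroup.range_subtype])
    · -- `Kb` is self-normalizing and normal
      have h1 := hselfn Kb hKbot
      rw [Subgroup.normalizer_eq_top_iff.mpr inferInstance] at h1
      have h2 : (P : Subgroup (G ⧸ C)) = ⊥ := by
        have hd := hcompl.disjoint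
        rw [← h1, disjoint_iff, top_inf_eq] at hd
        exact hd
      rw [h2] at hUP
      exact hUne hUP
  have hNcen : ∀ a ∈ N, ∀ b : G, a * b = b * a := by
    intro a ha b
    have : b ∈ Subgroup.centralizer (N : Set G) := by rw [hCtop]; trivial
    exact (Subgroup.mem_centralizer_iff.mp this) a ha
  -- central element of prime order
  have hNnt : Nontrivial N := (Subgroup.nontrivial_iff_ne_bot N).mpr hNbot
  obtain ⟨p, hp⟩ := Nat.exists_prime_and_dvd (Finite.one_lt_card (α := N)).ne'
  have hpf : Fact p.Prime := ⟨hp.1⟩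
  obtain ⟨z', hz'⟩ := exists_prime_orderOf_dvd_card' p hp.2
  set z : G := (z' : G) with hzdef
  have hzo : orderOf z = p := (Subgroup.orderOf_coe z').trans hz'
  have hzc : z ∈ Subgroup.center G := Subgroup.mem_center_iff.mpr fun b => (hNcen z z'.2 b).symm
  have hZp : IsPGroup p (Subgroup.zpowers z) := by
    rw [IsPGroup.iff_card, Nat.card_zpowers, hzo]
    exact ⟨1, (pow_one p).symm⟩
  have hZn : (Subgroup.zpowers z).Normal := by
    constructor
    rintro _ ⟨k, rfl⟩ g
    have : Commute z g := (Subgroup.mem_center_iff.mp hzc g).symm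
    have h2 : Commute (z ^ k) g := by simpa using this.zpow_left k
    refine ⟨k, ?_⟩
    simp only
    rw [← h2.eq, mul_inv_cancel_right]
  -- Frobenius's hypothesis
  have hF : FrobHyp p G := by
    intro Q hQ g hg hgo
    let E : Subgroup G := Q ⊔ Subgroup.zpowers z
    have hEp : IsPGroup p E := hQ.to_sup_of_normal_right hZp
    have hgE : g ∈ Subgroup.normalizer (E : Set G) := by
      apply Subgroup.mem_normalizer_fintype
      intro n hn
      have hmap : E ≤ E.comap (MulAut.conj g).toMonoidHom := by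
        apply sup_le
        · intro a ha
          exact Subgroup.mem_sup_left ((Subgroup.mem_normalizer_iff.mp hg a).mp ha)
        · intro a ha
          exact Subgroup.mem_sup_right (hZn.conj_mem a ha g)
      exact hmap hn
    by_cases hEab : IsMulCommutative E
    · have h1 := centralizes_abelian hS E hEp hEab
        (Subgroup.mem_sup_right (Subgroup.mem_zpowers z)) hzc hzo hgE hgo
      rw [Subgroup.mem_centralizer_iff] at h1 ⊢
      intro h hh
      exact h1 h (Subgroup.mem_sup_left hh)
    · have h1 := hS E hEab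
      rw [h1] at hgE
      have h2 := eq_one_of_coprime hEp hgE hgo
      rw [h2]
      exact Subgroup.one_mem _
  obtain ⟨M, hM, hMc, k, hMk⟩ := exists_normal_complement hF
  have hMtop : M ≠ ⊤ := by
    rintro rfl
    have h1 : p ∣ Nat.card (⊤ : Subgroup G) := by
      rw [Subgroup.card_top, ← hzo]
      exact orderOf_dvd_natCard z
    have := Nat.Coprime.eq_one_of_dvd hMc.symm h1
    exact hp.1.one_lt.ne' this
  have hMab := hNorm M hM hMtop
  have hsM : Group.IsSolvable M := by
    let _ : CommGroup M := { (inferInstance : Group M) with mul_comm := hMab.is_comm.comm }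
    infer_instance
  have hQp : IsPGroup p (G ⧸ M) := by
    rw [IsPGroup.iff_card]
    exact ⟨k, hMk⟩
  have hQn : Group.IsNilpotent (G ⧸ M) := hQp.isNilpotent
  have hsQ : Group.IsSolvable (G ⧸ M) := inferInstance
  apply hns
  exact Group.isSolvable_of_ker_le_range M.subtype (QuotientGroup.mk' M) (by
    rw [QuotientGroup.ker_mk', Subgroup.range_subtype])

end Cfsg.Agent.S4072
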