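import Mathlib
import Cfsg.Statements.S4074

set_option autoImplicit false
open Cfsg

namespace Cfsg.Agent.S4074

open DihedralGroup

theorem r_pow' {n : ℕ} (i : ZMod n) (k : ℕ) : (r i : DihedralGroup n) ^ k = r ((k : ZMod n) * i) := by
  induction k with
  | zero =>
    simp only [pow_zero, Nat.cast_zero, zero_mul]
    rfl
  | succ k ih =>
    rw [pow_succ, ih, r_mul_r]
    push_cast
    ring_nf

/-- Self-normalizing for non-abelian subgroups, `n` odd. -/
theorem self_norm_odd {n : ℕ} (hodd : Odd n) (H : Subgroup (DihedralGroup n))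
    (hH : ¬ IsMulCommutative H) : Subgroup.normalizer (H : Set (DihedralGroup n)) = H := by
  apply le_antisymm _ Subgroup.le_normalizer
  -- H contains a reflection
  obtain ⟨k, hk⟩ : ∃ k : ZMod n, sr k ∈ H := by
    by_contra hcon
    push Not at hcon
    apply hH
    refine ⟨⟨?_⟩⟩
    rintro ⟨a, ha⟩ ⟨b, hb⟩
    apply Subtype.ext
    cases a with
    | sr i => exact absurd ha (hcon i)
    | r i =>
      cases b with
      | sr j => exact absurd hb (hcon j)
      | r j =>
        show (r i * r j : DihedralGroup n) = r j * r i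
        simp [r_mul_r, add_comm]
  have hrot : ∀ i : ZMod n, r i ∈ Subgroup.normalizer (H : Set (DihedralGroup n)) → r i ∈ H := by
    intro i hi
    rw [Subgroup.mem_normalizer_iff] at hi
    have h1 : (r i : DihedralGroup n) * sr k * (r i)⁻¹ ∈ H := (hi (sr k)).mp hk
    have h2 : (r i : DihedralGroup n) * sr k * (r i)⁻¹ = sr (k - i - i) := by
      rw [inv_r, r_mul_sr, sr_mul_r]
      ring_nf
    rw [h2] at h1
    have h3 : (sr k : DihedralGroup n) * sr (k - i - i) = r (-(2 * i)) := by
      rw [sr_mul_sr]
      ring_nf
    have h4 : r (-(2 * i)) ∈ H := h3 ▸ H.mul_mem hk h1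
    have h5 : r (2 * i) ∈ H := by
      have := H.inv_mem h4
      rw [inv_r] at this
      simpa using this
    obtain ⟨m, hm⟩ := hodd
    have h6 := H.pow_mem h5 (m + 1)
    rw [r_pow'] at h6
    have h7 : ((m + 1 : ℕ) : ZMod n) * (2 * i) = i := by
      have h8 : ((m + 1 : ℕ) : ZMod n) * (2 * i) = ((2 * m + 1 : ℕ) : ZMod n) * i + i := by
        push_cast; ring
      rw [h8, ← hm]
      simp
    rwa [h7] at h6
  intro g hg
  cases g with
  | r i => exact hrot i hg
  | sr j =>
    have h1 : (sr j : DihedralGroup n) * sr k ∈ Subgroup.normalizer (H : Set (DihedralGroup n)) :=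
      Subgroup.mul_mem _ hg (Subgroup.le_normalizer hk)
    rw [sr_mul_sr] at h1
    have h2 := hrot _ h1
    have h3 := H.mul_mem h2 (H.inv_mem hk)
    rw [inv_sr, r_mul_sr] at h3
    have : k - (k - j) = j := by ring
    rwa [this] at h3

theorem result (n : ℕ) (hn : 2 < n) :
    (∀ H : Subgroup (DihedralGroup n), ¬ IsMulCommutative H → Subgroup.normalizer (H : Set (DihedralGroup n)) = H) ↔
    (n = 4 ∨ Odd n) := by
  have : NeZero n := ⟨by omega⟩
  constructor
  · -- if n even, not 4: take H = ⟨r 2, sr 0⟩ of index 2
    intro h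
    by_contra hcon
    push Not at hcon
    obtain ⟨hn4, hodd⟩ := hcon
    rw [Nat.not_odd_iff_even] at hodd
    have h2n : 2 ∣ n := hodd.two_dvd
    let φ : ZMod n →+ ZMod 2 := (ZMod.castHom h2n (ZMod 2)).toAddMonoidHom
    let H : Subgroup (DihedralGroup n) :=
      { carrier := {x | match x with | r i => φ i = 0 | sr i => φ i = 0}
        mul_mem' := by
          rintro (a | a) (b | b) ha hb
          · show φ (a + b) = 0
            have ha' : φ a = 0 := ha
            have hb' : φ b = 0 := hb
            rw [map_add, ha', hb', add_zero]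
          · show φ (b - a) = 0
            have ha' : φ a = 0 := ha
            have hb' : φ b = 0 := hb
            rw [map_sub, ha', hb', sub_zero]
          · show φ (a + b) = 0
            have ha' : φ a = 0 := ha
            have hb' : φ b = 0 := hb
            rw [map_add, ha', hb', add_zero]
          · show φ (b - a) = 0
            have ha' : φ a = 0 := ha
            have hb' : φ b = 0 := hb
            rw [map_sub, ha', hb', sub_zero]
        one_mem' := by
          show φ 0 = 0
          simp
        inv_mem' := by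
          rintro (a | a) ha
          · show φ (-a) = 0
            have ha' : φ a = 0 := ha
            rw [map_neg, ha', neg_zero]
          · exact ha }
    have hr : ∀ i, r i ∈ H ↔ φ i = 0 := fun i => Iff.rfl
    have hs : ∀ i, sr i ∈ H ↔ φ i = 0 := fun i => Iff.rfl
    have hφ2 : φ 2 = 0 := by
      have : φ 2 = φ 1 + φ 1 := by rw [← map_add]; norm_num
      rw [this]
      exact CharTwo.add_self_eq_zero (φ 1)
    have hφ1 : φ 1 ≠ 0 := by
      have : φ 1 = 1 := map_one (ZMod.castHom h2n (ZMod 2))
      rw [this]; decide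
    -- non-abelian
    have hna : ¬ IsMulCommutative H := by
      rintro ⟨⟨hc⟩⟩
      have h1 := hc ⟨r 2, (hr 2).mpr hφ2⟩ ⟨sr 0, (hs 0).mpr (map_zero φ)⟩
      have h2 : (r 2 * sr 0 : DihedralGroup n) = sr 0 * r 2 := congrArg Subtype.val h1
      rw [r_mul_sr, sr_mul_r] at h2
      have h3 : (0 - 2 : ZMod n) = 0 + 2 := sr.inj h2
      have h4 : ((4 : ℕ) : ZMod n) = 0 := by
        have : ((4 : ℕ) : ZMod n) = -(0 - 2) + (0 + 2) := by push_cast; ring
        rw [this, ← h3]; ring
      rw [ZMod.natCast_eq_zero_iff] at h4
      have h5 := Nat.le_of_dvd (by norm_num) h4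
      interval_cases n
      · exact absurd h4 (by norm_num)
      · exact hn4 rfl
    have hnorm := h H hna
    have hr1 : r 1 ∈ Subgroup.normalizer (H : Set (DihedralGroup n)) := by
      rw [Subgroup.mem_normalizer_iff]
      rintro (a | a)
      · have : (r 1 * r a * (r 1)⁻¹ : DihedralGroup n) = r a := by
          rw [inv_r, r_mul_r, r_mul_r]; ring_nf
        rw [this]
      · have : (r 1 * sr a * (r 1)⁻¹ : DihedralGroup n) = sr (a - 2) := by
          rw [inv_r, r_mul_sr, sr_mul_r]; ring_nf
        rw [this]
        show φ a = 0 ↔ φ (a - 2) = 0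
        rw [map_sub, hφ2, sub_zero]
    rw [hnorm] at hr1
    exact hφ1 hr1
  · rintro (rfl | hodd) H hH
    · apply le_antisymm _ Subgroup.le_normalizer
      have hcard : Nat.card (DihedralGroup 4) = 8 := by
        rw [DihedralGroup.nat_card]
      have hdvd : Nat.card H ∣ 8 := hcard ▸ Subgroup.card_subgroup_dvd_card H
      have hle : Nat.card H ≤ 8 := Nat.le_of_dvd (by norm_num) hdvd
      have hne : Nat.card H = 8 := by
        by_contra hne
        apply hH
        have hcases : Nat.card H = 1 ∨ Nat.card H = 2 ∨ Nat.card H = 4 := by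
          interval_cases h : Nat.card H <;> simp_all
        rcases hcases with h1 | h1 | h1
        · have : Subsingleton H := (Nat.card_eq_one_iff_unique.mp h1).1
          exact ⟨⟨fun a b => Subsingleton.elim _ _⟩⟩
        · have : Fact (Nat.Prime 2) := ⟨Nat.prime_two⟩
          have := isCyclic_of_prime_card h1
          exact IsCyclic.isMulCommutative
        · have h4 : Nat.card H = 2 ^ 2 := by rw [h1]; norm_num
          have : Fact (Nat.Prime 2) := ⟨Nat.prime_two⟩
          exact IsPGroup.isMulCommutative_of_card_eq_prime_sq h4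
      have htop : H = ⊤ := by
        apply Subgroup.eq_top_of_card_eq
        rw [hne, hcard]
      rw [htop]
      exact fun _ _ => trivial
    · exact self_norm_odd hodd H hH

end Cfsg.Agent.S4074
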