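import Mathlib
import Cfsg.Statements.S4075
import Cfsg.Agent.Lib.PCore

set_option autoImplicit false
open Cfsg
open Cfsg.Agent.Lib.PCore

namespace Cfsg.Agent.S4075

theorem comm_of_sub {G : Type*} [Group G] (hc : IsMulCommutative G) (H : Subgroup G) :
    IsMulCommutative H := by
  refine ⟨⟨?_⟩⟩
  rintro ⟨a, ha⟩ ⟨b, hb⟩
  apply Subtype.ext
  exact hc.is_comm.comm a b

/-- Let G be a finite nilpotent group. Every non-abelian subgroup of G is self-normalizing if and only if G is abelian or G is a minimal non-abelian p-group for some prime p (non-abelian of prime-power order with every proper subgroup abelian). -/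
theorem result {G : Type*} [Group G] [Finite G]
    [Group.IsNilpotent G] :
    (∀ H : Subgroup G, ¬ IsMulCommutative H → Subgroup.normalizer (H : Set G) = H) ↔
    (IsMulCommutative G ∨ (IsPrimePow (Nat.card G) ∧ ¬ IsMulCommutative G ∧ ∀ H : Subgroup G, H ≠ ⊤ → IsMulCommutative H)) := by
  constructor
  · intro h
    by_cases hc : IsMulCommutative G
    · exact Or.inl hc
    right
    have hprop : ∀ H : Subgroup G, H ≠ ⊤ → IsMulCommutative H := by
      intro H hH
      by_contra hnc
      have h1 := h H hnc
      have h2 := Group.normalizerCondition_of_isNilpotent (G := G) H (lt_top_iff_ne_top.mpr hH)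
      rw [h1] at h2
      exact lt_irrefl _ h2
    refine ⟨?_, hc, hprop⟩
    -- all Sylows are normal
    have hnormal : ∀ (p : ℕ) [Fact p.Prime] (P : Sylow p G), (P : Subgroup G).Normal := by
      intro p _ P
      exact Sylow.normal_of_normalizerCondition Group.normalizerCondition_of_isNilpotent P
    -- G is a p-group for some p
    by_contra hnp
    apply hc
    have hsyl : ∀ (p : ℕ) [Fact p.Prime] (P : Sylow p G), (P : Subgroup G) ≠ ⊤ := by
      intro p _ P hP
      apply hnp
      have hpg : IsPGroup p G := by
        have := P.isPGroup'
        rw [hP] at this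
        exact IsPGroup.of_equiv this Subgroup.topEquiv
      obtain ⟨k, hk⟩ := IsPGroup.iff_card.mp hpg
      rw [hk]
      have hk0 : k ≠ 0 := by
        rintro rfl
        apply hc
        have h1 : Nat.card G = 1 := by simpa using hk
        have : Subsingleton G := (Nat.card_eq_one_iff_unique.mp h1).1
        exact ⟨⟨fun a b => Subsingleton.elim _ _⟩⟩
      exact (Fact.out : p.Prime).isPrimePow.pow hk0
    -- each Sylow is central
    have hcentral : ∀ (p : ℕ) [Fact p.Prime] (P : Sylow p G), (P : Subgroup G) ≤ Subgroup.center G := by
      intro p _ P x hx
      rw [Subgroup.mem_center_iff]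
      intro y
      have htop : Subgroup.centralizer ({x} : Set G) = ⊤ := by
        apply eq_top_of_forall_sylow_le
        intro q _
        have Q : Sylow q G := default
        refine ⟨Q, ?_⟩
        by_cases hqp : q = p
        · subst hqp
          have hQP : (Q : Subgroup G) = P := by
            have hn1 := hnormal q P
            have hn2 := hnormal q Q
            exact le_antisymm (IsPGroup.le_sylow_of_normal Q.isPGroup' P)
              (IsPGroup.le_sylow_of_normal P.isPGroup' Q)
          rw [hQP]
          intro z hz
          rw [Subgroup.mem_centralizer_singleton_iff]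
          have hcP := hprop _ (hsyl q P)
          have := hcP.is_comm.comm (⟨z, hz⟩ : (P : Subgroup G)) ⟨x, hx⟩
          exact congrArg Subtype.val this
        · intro z hz
          rw [Subgroup.mem_centralizer_singleton_iff]
          have hn1 := hnormal q Q
          have hn2 := hnormal p P
          have hd : Disjoint (Q : Subgroup G) (P : Subgroup G) :=
            IsPGroup.disjoint_of_ne _ _ hqp _ _ Q.isPGroup' P.isPGroup'
          exact Subgroup.commute_of_normal_of_disjoint _ _ hn1 hn2 hd z x hz hx
      have hy : y ∈ Subgroup.centralizer ({x} : Set G) := by rw [htop]; trivial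
      rw [Subgroup.mem_centralizer_singleton_iff] at hy
      exact hy
    have htop : Subgroup.center G = ⊤ := by
      apply eq_top_of_forall_sylow_le
      intro q _
      have Q : Sylow q G := default
      exact ⟨Q, hcentral q Q⟩
    refine ⟨⟨?_⟩⟩
    intro a b
    have ha : a ∈ Subgroup.center G := by rw [htop]; trivial
    exact (Subgroup.mem_center_iff.mp ha) b |>.symm
  · rintro (hc | ⟨-, hc, h⟩) H hH
    · exact absurd (comm_of_sub hc H) hH
    · have : H = ⊤ := by
        by_contra hne
        exact hH (h H hne)
      rw [this]
      apply le_antisymm le_top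
      intro g _
      rw [Subgroup.mem_normalizer_iff]
      intro h
      simp

end Cfsg.Agent.S4075
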