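import Mathlib
import Cfsg.Statements.S4080

set_option autoImplicit false
open Cfsg

namespace Cfsg.Agent.S4080

open Matrix Polynomial

lemma sq_zero_of_nilp {p : ℕ} [Fact p.Prime] {A : Matrix (Fin 2) (Fin 2) (ZMod p)}
    (h : IsNilpotent A) : A ^ 2 = 0 := by
  have h1 := Matrix.isNilpotent_charpoly_sub_pow_of_isNilpotent h
  have h2 : A.charpoly - X ^ (Fintype.card (Fin 2)) = 0 := IsNilpotent.eq_zero h1
  have h3 : A.charpoly = X ^ 2 := by simpa [sub_eq_zero] using h2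
  have h4 := Matrix.aeval_self_charpoly A
  rw [h3] at h4
  simpa using h4

lemma exists_of_cast {p : ℕ} [Fact p.Prime] (r : ZMod (p ^ 2))
    (h : ZMod.castHom (dvd_pow_self p two_ne_zero) (ZMod p) r = 0) :
    ∃ s : ZMod (p ^ 2), r = (p : ZMod (p ^ 2)) * s := by
  haveI : NeZero (p ^ 2) := ⟨pow_ne_zero 2 (Fact.out : p.Prime).ne_zero⟩
  have h1 : ((r.val : ℕ) : ZMod p) = 0 := by
    have : ((r.val : ℕ) : ZMod (p ^ 2)) = r := ZMod.natCast_zmod_val r
    rw [← this, map_natCast] at h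
    exact h
  rw [ZMod.natCast_eq_zero_iff] at h1
  obtain ⟨k, hk⟩ := h1
  refine ⟨(k : ZMod (p ^ 2)), ?_⟩
  have : ((r.val : ℕ) : ZMod (p ^ 2)) = r := ZMod.natCast_zmod_val r
  rw [← this, hk]
  push_cast
  ring

lemma exists_of_mul_eq_zero {p : ℕ} [Fact p.Prime] (r : ZMod (p ^ 2))
    (h : (p : ZMod (p ^ 2)) * r = 0) :
    ∃ s : ZMod (p ^ 2), r = (p : ZMod (p ^ 2)) * s := by
  haveI : NeZero (p ^ 2) := ⟨pow_ne_zero 2 (Fact.out : p.Prime).ne_zero⟩
  have hp : p ≠ 0 := (Fact.out : p.Prime).ne_zero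
  have this : ((r.val : ℕ) : ZMod (p ^ 2)) = r := ZMod.natCast_zmod_val r
  have h1 : ((p * r.val : ℕ) : ZMod (p ^ 2)) = 0 := by
    push_cast
    rw [this, h]
  rw [ZMod.natCast_eq_zero_iff] at h1
  have h2 : p ∣ r.val := by
    have h3 : p * p ∣ p * r.val := by
      rw [← pow_two]; exact h1
    exact Nat.dvd_of_mul_dvd_mul_left (Nat.pos_of_ne_zero hp) h3
  obtain ⟨k, hk⟩ := h2
  refine ⟨(k : ZMod (p ^ 2)), ?_⟩
  rw [← this, hk]
  push_cast
  ring

/-- The core lemma. -/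
lemma core {p : ℕ} [Fact p.Prime] (hp : 3 < p) (T : Matrix (Fin 2) (Fin 2) (ZMod (p ^ 2)))
    (hT : T ^ p = 1) : p • (T - 1) = 0 := by
  have hpp : p.Prime := Fact.out
  set φ := ZMod.castHom (dvd_pow_self p two_ne_zero) (ZMod p) with hφ
  set Φ := φ.mapMatrix (m := Fin 2) with hΦ
  set N := T - 1 with hN
  have hTN : T = N + 1 := by simp [hN]
  -- Reduction mod p
  have h1 : (Φ N) ^ p = 0 := by
    have h2 : Φ N = Φ T - 1 := by simp [hN, map_sub]
    rw [h2, sub_pow_char_of_commute p (Commute.one_right _), ← map_pow, hT]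
    simp
  have h2 : (Φ N) ^ 2 = 0 := sq_zero_of_nilp ⟨p, h1⟩
  -- entries of N² divisible by p
  have h3 : ∀ i j, ∃ s : ZMod (p ^ 2), (N ^ 2) i j = (p : ZMod (p ^ 2)) * s := by
    intro i j
    apply exists_of_cast
    have : Φ (N ^ 2) = 0 := by rw [map_pow, h2]
    have h4 := congrFun (congrFun this i) j
    exact h4
  choose M hM using h3
  have hZ : ∀ Z : Matrix (Fin 2) (Fin 2) (ZMod (p ^ 2)), (p * p) • Z = 0 := by
    intro Z
    have h5 : ((p ^ 2 : ℕ) : Matrix (Fin 2) (Fin 2) (ZMod (p ^ 2))) = 0 :=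
      CharP.cast_eq_zero _ (p ^ 2)
    rw [nsmul_eq_mul, ← pow_two, h5, zero_mul]
  have hNM : N ^ 2 = p • Matrix.of M := by
    ext i j
    rw [hM]
    simp
  have hk : ∀ m, 2 ≤ m → ∃ Y : Matrix (Fin 2) (Fin 2) (ZMod (p ^ 2)), N ^ m = p • Y := by
    intro m hm
    refine ⟨Matrix.of M * N ^ (m - 2), ?_⟩
    obtain ⟨k, rfl⟩ := Nat.exists_eq_add_of_le hm
    rw [pow_add, hNM, smul_mul_assoc]
    simp
  have h4 : N ^ 4 = 0 := by
    have : N ^ 4 = N ^ 2 * N ^ 2 := by rw [← pow_add]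
    rw [this, hNM, smul_mul_assoc, mul_smul_comm, smul_smul, hZ]
  have h5 : (N + 1) ^ p = 1 := by rw [← hTN]; exact hT
  rw [(Commute.one_right N).add_pow] at h5
  rw [Finset.sum_eq_add (a := 0) (b := 1) (by norm_num)] at h5
  · simp only [pow_zero, one_pow, mul_one, one_mul, Nat.choose_zero_right, Nat.cast_one,
      pow_one, Nat.choose_one_right] at h5
    have h6 : N * (p : Matrix (Fin 2) (Fin 2) (ZMod (p ^ 2))) = 0 := by
      simpa using h5
    rw [nsmul_eq_mul]
    rw [(Nat.cast_commute p N).eq]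
    exact h6
  · rintro c hc ⟨hc0, hc1⟩
    have hc2 : 2 ≤ c := by omega
    have hcp : c ≤ p := by simpa [Nat.lt_succ_iff] using hc
    by_cases hcP : c = p
    · obtain ⟨k, hk⟩ := Nat.exists_eq_add_of_le (by omega : 4 ≤ c)
      rw [hk, pow_add N 4, h4]
      simp
    · have hd : p ∣ p.choose c := hpp.dvd_choose_self (by omega) (by omega)
      obtain ⟨e, he⟩ := hd
      obtain ⟨Y, hY⟩ := hk c hc2
      rw [one_pow, mul_one, hY, he, Nat.cast_mul, smul_mul_assoc, ← mul_assoc,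
        ← nsmul_eq_mul' Y p, smul_mul_assoc, smul_smul, hZ]
  · simp
  · intro h
    exfalso
    apply h
    simp
    omega

lemma exists_p_smul {p : ℕ} [Fact p.Prime] (v : ZMod (p ^ 2) × ZMod (p ^ 2)) (hv : p • v = 0) :
    ∃ y : ZMod (p ^ 2) × ZMod (p ^ 2), v = p • y := by
  obtain ⟨u, w⟩ := v
  have h1 : (p : ZMod (p ^ 2)) * u = 0 := by
    have := congrArg Prod.fst hv
    simpa using this
  have h2 : (p : ZMod (p ^ 2)) * w = 0 := by
    have := congrArg Prod.snd hv
    simpa using this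
  obtain ⟨s, hs⟩ := exists_of_mul_eq_zero u h1
  obtain ⟨t, ht⟩ := exists_of_mul_eq_zero w h2
  refine ⟨(s, t), ?_⟩
  ext
  · simpa using hs
  · simpa using ht

/-- Let p > 3 be a prime and L the direct product of two cyclic groups of order p². Every automorphism of L of order p fixes every element of order p of L. -/
theorem result {p : ℕ} [Fact p.Prime] (hp : 3 < p)
    (a : MulAut (Multiplicative (ZMod (p ^ 2) × ZMod (p ^ 2)))) (ha : orderOf a = p)
    (x : Multiplicative (ZMod (p ^ 2) × ZMod (p ^ 2))) (hx : orderOf x = p) : a x = x := by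
  let f0 : (ZMod (p ^ 2) × ZMod (p ^ 2)) →+ (ZMod (p ^ 2) × ZMod (p ^ 2)) :=
    AddMonoidHom.mk' (fun v => (a (Multiplicative.ofAdd v)).toAdd)
    (by
      intro u v
      rw [ofAdd_add, map_mul, toAdd_mul])
  let F : Module.End (ZMod (p ^ 2)) (ZMod (p ^ 2) × ZMod (p ^ 2)) := f0.toZModLinearMap (p ^ 2)
  have hF : ∀ v, F v = (a (Multiplicative.ofAdd v)).toAdd := fun _ => rfl
  have hFk : ∀ k : ℕ, ∀ v, (F ^ k) v = ((a ^ k) (Multiplicative.ofAdd v)).toAdd := by
    intro k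
    induction k with
    | zero => intro v; simp
    | succ k ih =>
      intro v
      have h1 : F ^ (k + 1) = F * F ^ k := pow_succ' F k
      rw [h1, Module.End.mul_apply, ih, hF]
      have h2 : a ^ (k + 1) = a * a ^ k := pow_succ' a k
      rw [h2]
      rfl
  have hFp : F ^ p = 1 := by
    apply LinearMap.ext
    intro v
    rw [hFk]
    have : a ^ p = 1 := orderOf_dvd_iff_pow_eq_one.mp (by rw [ha])
    rw [this]
    simp
  let e := LinearMap.toMatrixAlgEquiv (Module.Basis.finTwoProd (ZMod (p ^ 2)))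
  have hT : (e F) ^ p = 1 := by rw [← map_pow, hFp, map_one]
  have h0 := core hp (e F) hT
  have h1 : p • (F - 1) = 0 := by
    apply e.injective
    rw [map_nsmul, map_sub, map_one, h0, map_zero]
  have hxp : p • (x.toAdd) = 0 := by
    have : x ^ p = 1 := orderOf_dvd_iff_pow_eq_one.mp (by rw [hx])
    rw [← toAdd_pow, this, toAdd_one]
  obtain ⟨y, hy⟩ := exists_p_smul _ hxp
  have h2 : (p • (F - 1)) y = 0 := by rw [h1]; rfl
  have h3 : F (x.toAdd) = x.toAdd := by
    rw [hy, map_nsmul]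
    have : (p • (F - 1)) y = p • F y - p • y := by
      simp [LinearMap.smul_apply, smul_sub]
    rw [this, sub_eq_zero] at h2
    exact h2
  have h4 : a x = Multiplicative.ofAdd (F x.toAdd) := by
    rw [hF]
    rfl
  rw [h4, h3]
  rfl

end Cfsg.Agent.S4080
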