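import Mathlib
import Cfsg.Statements.S4081
import Cfsg.Agent.Lib.BurnsidePQ

set_option autoImplicit false
open Cfsg
open Polynomial

namespace Cfsg.Agent.S4081

section Linear

variable {p : ℕ} {V : Type*} [AddCommGroup V]
  [Module (ZMod p) V]

/-- The cyclic `F[T]`-submodule generated by `v`, as a set. -/
def orb (T : Module.End (ZMod p) V) (v : V) : Set V :=
  Set.range (fun f : (ZMod p)[X] => aeval T f v)

lemma mem_orb_self (T : Module.End (ZMod p) V) (v : V) : v ∈ orb T v :=
  ⟨1, by simp⟩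

lemma aeval_aeval (T : Module.End (ZMod p) V) (f g : (ZMod p)[X]) (v : V) :
    aeval T f (aeval T g v) = aeval T (f * g) v := by
  simp [map_mul]

lemma orb_subset (T : Module.End (ZMod p) V) {u v : V} (h : u ∈ orb T v) : orb T u ⊆ orb T v := by
  obtain ⟨g, rfl⟩ := h
  rintro _ ⟨f, rfl⟩
  exact ⟨f * g, (aeval_aeval T f g v).symm⟩

lemma conj_aeval (T T' : Module.End (ZMod p) V) (φ : V →ₗ[ZMod p] V)
    (h : ∀ u, φ (T u) = T' (φ u)) (f : (ZMod p)[X]) (u : V) :
    φ (aeval T f u) = aeval T' f (φ u) := by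
  induction f using Polynomial.induction_on generalizing u with
  | C a => simp
  | add f g hf hg => simp [hf, hg]
  | monomial n a ih =>
    have h1 : (C a * X ^ (n + 1) : (ZMod p)[X]) = (C a * X ^ n) * X := by ring
    rw [h1, map_mul (aeval T) (C a * X ^ n) X, map_mul (aeval T') (C a * X ^ n) X]
    simp only [aeval_X, Module.End.mul_apply]
    rw [ih, h]

lemma aeval_pow_eq (T : Module.End (ZMod p) V) (k : ℕ) (f : (ZMod p)[X]) :
    aeval (T ^ k) f = aeval T (f.comp (X ^ k)) := by
  rw [aeval_comp]; simp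

lemma orb_image (T : Module.End (ZMod p) V) (φ : V →ₗ[ZMod p] V) (k : ℕ)
    (h : ∀ u, φ (T u) = (T ^ k) (φ u)) (v : V) :
    φ '' orb T v ⊆ orb T (φ v) := by
  rintro _ ⟨_, ⟨f, rfl⟩, rfl⟩
  refine ⟨f.comp (X ^ k), ?_⟩
  simp only
  rw [conj_aeval T (T ^ k) φ h, aeval_pow_eq]

variable [Finite V]

lemma ncard_orb_le (T : Module.End (ZMod p) V) (φ : V ≃ₗ[ZMod p] V) (k : ℕ)
    (h : ∀ u, φ (T u) = (T ^ k) (φ u)) (v : V) :
    (orb T v).ncard ≤ (orb T (φ v)).ncard := by
  have h1 : (φ '' orb T v).ncard = (orb T v).ncard :=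
    Set.ncard_image_of_injective _ φ.injective
  rw [← h1]
  exact Set.ncard_le_ncard (orb_image T φ.toLinearMap k h v) (Set.toFinite _)

/-- The key lemma: transitivity forces every nonzero element of `F[T]` to be injective. -/
lemma aeval_eq_zero_of (T : Module.End (ZMod p) V)
    (htrans : ∀ v w : V, v ≠ 0 → w ≠ 0 → ∃ (φ : V ≃ₗ[ZMod p] V) (k : ℕ), φ v = w ∧
      ∀ u, φ (T u) = (T ^ k) (φ u))
    (f : (ZMod p)[X]) (v : V) (hv : v ≠ 0) (hf : aeval T f v = 0) : aeval T f = 0 := by
  have hcard : ∀ a b : V, a ≠ 0 → b ≠ 0 → (orb T a).ncard ≤ (orb T b).ncard := by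
    intro a b ha hb
    obtain ⟨φ, k, rfl, hk⟩ := htrans a b ha hb
    exact ncard_orb_le T φ k hk a
  have heq : ∀ a b : V, a ≠ 0 → b ≠ 0 → b ∈ orb T a → orb T b = orb T a := by
    intro a b ha hb hab
    exact Set.eq_of_subset_of_ncard_le (orb_subset T hab) (hcard a b ha hb) (Set.toFinite _)
  by_contra hne
  obtain ⟨w, hw⟩ : ∃ w, aeval T f w ≠ 0 := by
    by_contra hcon
    push Not at hcon
    exact hne (LinearMap.ext hcon)
  have hw0 : w ≠ 0 := by
    rintro rfl
    simp at hw
  have h1 : orb T (aeval T f w) = orb T w := heq w _ hw0 hw ⟨f, rfl⟩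
  have hvw : aeval T f (v + w) = aeval T f w := by
    rw [map_add, hf, zero_add]
  have hvw0 : v + w ≠ 0 := by
    intro h0
    rw [h0] at hvw
    simp only [map_zero] at hvw
    exact hw hvw.symm
  have h2 : orb T (aeval T f w) = orb T (v + w) := heq (v + w) _ hvw0 hw ⟨f, hvw⟩
  have h3 : v + w ∈ orb T w := by
    rw [← h1, h2]
    exact mem_orb_self T _
  obtain ⟨g, hg⟩ := h3
  simp only at hg
  have h4 : v ∈ orb T w := by
    refine ⟨g - 1, ?_⟩
    simp only [map_sub, map_one, LinearMap.sub_apply, Module.End.one_apply, hg]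
    abel
  have h5 : orb T v = orb T w := heq w v hw0 hv h4
  have h6 : w ∈ orb T v := by rw [h5]; exact mem_orb_self T w
  obtain ⟨g', hg'⟩ := h6
  simp only at hg'
  apply hw
  rw [← hg', aeval_aeval, mul_comm, ← aeval_aeval, hf, map_zero]


section Forward

variable {q : ℕ} [hp : Fact p.Prime] [hq : Fact q.Prime]

/-- Main linear lemma for the forward direction. -/
theorem forward_linear (hpq : p ≠ q) [Nontrivial V] (T : Module.End (ZMod p) V) (hTq : T ^ q = 1)
    (hfix : ∀ v, T v = v → v = 0)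
    (htrans : ∀ v w : V, v ≠ 0 → w ≠ 0 → ∃ (φ : V ≃ₗ[ZMod p] V) (k : ℕ), φ v = w ∧
      ∀ u, φ (T u) = (T ^ k) (φ u))
    (hpow : ∀ k, 0 < k → k < q → ∃ φ : V ≃ₗ[ZMod p] V, ∀ u, φ (T u) = (T ^ k) (φ u)) :
    orderOf (p : ZMod q) = q - 1 := by
  classical
  have hq2 : 2 ≤ q := hq.out.two_le
  have hInt : IsIntegral (ZMod p) T :=
    ⟨X ^ q - 1, monic_X_pow_sub_C 1 hq.out.ne_zero, by simp [hTq]⟩
  set m := minpoly (ZMod p) T with hm
  have hmm : m.Monic := minpoly.monic hInt
  have hm0 : aeval T m = 0 := minpoly.aeval _ _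
  have hT1 : T ≠ 1 := by
    intro h
    obtain ⟨v, hv⟩ := exists_ne (0 : V)
    exact hv (hfix v (by rw [h]; simp))
  have hmirr : Irreducible m := by
    have hnu : ¬ IsUnit m := by
      intro hu
      have : m = 1 := hmm.eq_one_of_isUnit hu
      rw [this] at hm0
      simp at hm0
    refine ⟨hnu, ?_⟩
    intro a b hab
    have hab' : aeval T a * aeval T b = 0 := by rw [← map_mul, ← hab, hm0]
    have hcase : aeval T a = 0 ∨ aeval T b = 0 := by
      by_cases hb : aeval T b = 0
      · exact Or.inr hb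
      left
      obtain ⟨w, hw⟩ : ∃ w, aeval T b w ≠ 0 := by
        by_contra hcon
        push Not at hcon
        exact hb (LinearMap.ext hcon)
      refine aeval_eq_zero_of T htrans a _ hw ?_
      have := congrArg (fun g : Module.End (ZMod p) V => g w) hab'
      simpa using this
    rcases hcase with h | h
    · right
      obtain ⟨c, hc⟩ := minpoly.dvd (ZMod p) T h
      have hm0' : m ≠ 0 := hmm.ne_zero
      have : m * (c * b) = m * 1 := by
        rw [mul_one]
        calc m * (c * b) = (m * c) * b := by ring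
          _ = a * b := by rw [← hc]
          _ = m := hab.symm
      have h1 := mul_left_cancel₀ hm0' this
      exact IsUnit.of_mul_eq_one _ (by rw [mul_comm]; exact h1)
    · left
      obtain ⟨c, hc⟩ := minpoly.dvd (ZMod p) T h
      have hm0' : m ≠ 0 := hmm.ne_zero
      have : m * (a * c) = m * 1 := by
        rw [mul_one]
        calc m * (a * c) = a * (m * c) := by ring
          _ = a * b := by rw [← hc]
          _ = m := hab.symm
      have h1 := mul_left_cancel₀ hm0' this
      exact IsUnit.of_mul_eq_one _ h1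
  -- the cyclotomic polynomial kills T
  have hcyc : aeval T (cyclotomic q (ZMod p)) = 0 := by
    rw [cyclotomic_prime]
    apply LinearMap.ext
    intro v
    apply hfix
    have h1 : T * (aeval T (∑ i ∈ Finset.range q, (X : (ZMod p)[X]) ^ i)) - aeval T (∑ i ∈ Finset.range q, (X : (ZMod p)[X]) ^ i) = 0 := by
      simp only [map_sum, map_pow, aeval_X]
      have := mul_geom_sum T q
      rw [hTq, sub_self] at this
      have h2 : (T - 1) * ∑ i ∈ Finset.range q, T ^ i = T * (∑ i ∈ Finset.range q, T ^ i) - ∑ i ∈ Finset.range q, T ^ i := by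
        rw [sub_mul, one_mul]
      rw [← h2, this]
    have h2 := congrArg (fun g : Module.End (ZMod p) V => g v) h1
    simp only [LinearMap.sub_apply, Module.End.mul_apply, LinearMap.zero_apply, sub_eq_zero] at h2
    simpa using h2
  have hdvd : m ∣ cyclotomic q (ZMod p) := minpoly.dvd _ _ hcyc
  have hcop : p.Coprime q := (Nat.coprime_primes hp.out hq.out).mpr hpq
  letI : Fintype (ZMod p) := ZMod.fintype p
  have hdeg := natDegree_of_dvd_cyclotomic_of_irreducible (K := ZMod p) (p := p) (f := 1) (n := q)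
    (by simp [ZMod.card]) hcop hdvd hmirr
  -- roots
  haveI : Fact (Irreducible m) := ⟨hmirr⟩
  let K := AdjoinRoot m
  let t : K := AdjoinRoot.root m
  have ht : aeval t m = 0 := by
    rw [show t = AdjoinRoot.root m from rfl, AdjoinRoot.aeval_eq, AdjoinRoot.mk_self]
  have htq : t ^ q = 1 := by
    obtain ⟨c, hc⟩ : m ∣ X ^ q - 1 := minpoly.dvd _ _ (by simp [hTq])
    have := congrArg (aeval t) hc
    simp only [map_sub, map_pow, aeval_X, map_one, map_mul, ht, zero_mul] at this
    exact sub_eq_zero.mp this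
  have ht1 : t ≠ 1 := by
    intro h
    have h1 : m ∣ X - 1 := by
      rw [← AdjoinRoot.mk_eq_zero]
      simp only [map_sub, AdjoinRoot.mk_X, map_one]
      exact sub_eq_zero.mpr h
    obtain ⟨c, hc⟩ := h1
    have h2 := congrArg (aeval T) hc
    simp only [map_sub, aeval_X, map_one, map_mul, hm0, zero_mul] at h2
    exact hT1 (sub_eq_zero.mp h2)
  have hordt : orderOf t = q := orderOf_eq_prime htq ht1
  have hrootk : ∀ k, 0 < k → k < q → aeval (t ^ k) m = 0 := by
    intro k hk0 hkq
    obtain ⟨φ, hφ⟩ := hpow k hk0 hkq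
    have h1 : aeval (T ^ k) m = 0 := by
      apply LinearMap.ext
      intro u
      obtain ⟨u', rfl⟩ := φ.surjective u
      have := conj_aeval T (T ^ k) φ.toLinearMap hφ m u'
      simp only [LinearEquiv.coe_coe] at this
      rw [← this, hm0]
      simp
    rw [aeval_pow_eq] at h1
    obtain ⟨c, hc⟩ := minpoly.dvd (ZMod p) T h1
    have h2 := congrArg (aeval t) hc
    rw [aeval_comp, map_mul, ht, zero_mul] at h2
    simpa using h2
  have hle : q - 1 ≤ m.natDegree := by
    let Z : Finset K := (Finset.Ioo 0 q).image (fun k => t ^ k)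
    have hZ : Z.card = q - 1 := by
      rw [Finset.card_image_of_injOn, Nat.card_Ioo]
      · omega
      · intro a ha b hb hab
        simp only [Finset.coe_Ioo, Set.mem_Ioo] at ha hb
        have hinj := pow_injOn_Iio_orderOf (x := t)
        rw [hordt] at hinj
        exact hinj ha.2 hb.2 hab
    have h1 : Z.val ⊆ (m.map (algebraMap (ZMod p) K)).roots := by
      intro z hz
      have hz' : z ∈ Z := hz
      obtain ⟨k, hk, rfl⟩ := Finset.mem_image.mp hz'
      simp only [Finset.mem_Ioo] at hk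
      rw [mem_roots (hmm.map _).ne_zero, IsRoot, eval_map_algebraMap]
      exact hrootk k hk.1 hk.2
    have h2 := card_le_degree_of_subset_roots h1
    rw [hZ, natDegree_map] at h2
    exact h2
  set u := ZMod.unitOfCoprime (p ^ 1) (hcop.pow_left 1) with hu
  have h1 : orderOf u = orderOf (p : ZMod q) := by
    rw [← orderOf_units]
    simp [hu]
  have h2 : orderOf u ∣ q - 1 := by
    have := orderOf_dvd_natCard u
    rwa [Nat.card_eq_fintype_card, ZMod.card_units] at this
  have h3 : 0 < q - 1 := by omega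
  have h4 := Nat.le_of_dvd h3 h2
  rw [← h1]
  omega

end Forward


section Backward

variable {q : ℕ} [hp : Fact p.Prime] [hq : Fact q.Prime]

theorem exists_equiv_of_ne {K W : Type*} [Field K] [AddCommGroup W] [Module K W]
    [Module.Finite K W] {v w : W} (hv : v ≠ 0) (hw : w ≠ 0) : ∃ g : W ≃ₗ[K] W, g v = w := by
  let f := (LinearEquiv.toSpanNonzeroSingleton K W v hv).symm ≪≫ₗ
    LinearEquiv.toSpanNonzeroSingleton K W w hw
  obtain ⟨g, hg⟩ := Submodule.exists_linearEquiv_restrict_eq f
  refine ⟨g, ?_⟩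
  have h1 := hg ⟨v, Submodule.mem_span_singleton_self v⟩
  rw [← h1]
  have h2 : (LinearEquiv.toSpanNonzeroSingleton K W v hv).symm
      ⟨v, Submodule.mem_span_singleton_self v⟩ = 1 := by
    rw [LinearEquiv.symm_apply_eq]
    simp
  simp [f, h2]

theorem backward_linear (hpq : p ≠ q) (T : Module.End (ZMod p) V) (hTq : T ^ q = 1)
    (hfix : ∀ v, T v = v → v = 0) (hord : orderOf (p : ZMod q) = q - 1) :
    (∀ v w : V, v ≠ 0 → w ≠ 0 → ∃ φ : V ≃+ V, φ v = w ∧ ∀ u, φ (T u) = T (φ u)) ∧
    ∃ φ : V ≃+ V, ∀ u, φ (T u) = (T ^ p) (φ u) := by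
  classical
  have hcop : p.Coprime q := (Nat.coprime_primes hp.out hq.out).mpr hpq
  have hpn : ¬ p ∣ q := fun h => hpq ((Nat.prime_dvd_prime_iff_eq hp.out hq.out).mp h)
  have hirr : Irreducible (cyclotomic q (ZMod p)) := by
    refine ZMod.irreducible_of_dvd_cyclotomic_of_natDegree hpn dvd_rfl ?_
    rw [natDegree_cyclotomic, Nat.totient_prime hq.out, ← hord, ← orderOf_units]
    simp
  have hcyc : aeval T (cyclotomic q (ZMod p)) = 0 := by
    rw [cyclotomic_prime]
    apply LinearMap.ext
    intro v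
    apply hfix
    have h1 : T * (aeval T (∑ i ∈ Finset.range q, (X : (ZMod p)[X]) ^ i)) - aeval T (∑ i ∈ Finset.range q, (X : (ZMod p)[X]) ^ i) = 0 := by
      simp only [map_sum, map_pow, aeval_X]
      have := mul_geom_sum T q
      rw [hTq, sub_self] at this
      have h2 : (T - 1) * ∑ i ∈ Finset.range q, T ^ i = T * (∑ i ∈ Finset.range q, T ^ i) - ∑ i ∈ Finset.range q, T ^ i := by
        rw [sub_mul, one_mul]
      rw [← h2, this]
    have h2 := congrArg (fun g : Module.End (ZMod p) V => g v) h1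
    simp only [LinearMap.sub_apply, Module.End.mul_apply, LinearMap.zero_apply, sub_eq_zero] at h2
    simpa using h2
  set Φ := cyclotomic q (ZMod p) with hΦ
  haveI : Fact (Irreducible Φ) := ⟨hirr⟩
  let K := AdjoinRoot Φ
  have hΦm : Φ.Monic := cyclotomic.monic q _
  haveI : Module.Finite (ZMod p) K := hΦm.finite_adjoinRoot
  haveI : Finite K := Module.finite_of_finite (ZMod p)
  let ι : K →+* Module.End (ZMod p) V :=
    Ideal.Quotient.lift (Ideal.span {Φ}) (aeval T : (ZMod p)[X] →ₐ[ZMod p] _).toRingHom (by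
      intro a ha
      obtain ⟨c, rfl⟩ := Ideal.mem_span_singleton.mp ha
      simp [hcyc])
  let t : K := AdjoinRoot.root Φ
  have hιt : ι t = T := by
    change Ideal.Quotient.lift (Ideal.span {Φ}) (aeval T : (ZMod p)[X] →ₐ[ZMod p] _).toRingHom _ (Ideal.Quotient.mk _ X) = T
    rw [Ideal.Quotient.lift_mk]
    simp
  letI : Module K V := Module.compHom V ι
  have hsmul : ∀ (k : K) (v : V), k • v = ι k v := fun _ _ => rfl
  haveI : Module.Finite K V := Module.Finite.of_finite
  constructor
  · intro v w hv hw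
    obtain ⟨g, hg⟩ := exists_equiv_of_ne (K := K) hv hw
    refine ⟨g.toAddEquiv, hg, ?_⟩
    intro u
    have h1 : T u = t • u := by rw [hsmul, hιt]
    change g (T u) = T (g u)
    rw [h1, g.map_smul, hsmul, hιt]
  · let b := Module.finBasis K V
    let e := b.equivFun
    letI : Fintype (ZMod p) := ZMod.fintype p
    let Fr : K ≃ₐ[ZMod p] K := FiniteField.frobeniusAlgEquivOfAlgebraic (ZMod p) K
    have hFr : ∀ k : K, Fr k = k ^ p := by
      intro k
      have : Fr k = k ^ Fintype.card (ZMod p) := rfl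
      rw [this, ZMod.card]
    let E : (Fin (Module.finrank K V) → K) ≃+ (Fin (Module.finrank K V) → K) :=
      AddEquiv.piCongrRight (fun _ => Fr.toAddEquiv)
    refine ⟨e.toAddEquiv.trans (E.trans e.symm.toAddEquiv), ?_⟩
    intro u
    have h1 : T u = t • u := by rw [hsmul, hιt]
    have h2 : ∀ v, (T ^ p) v = (t ^ p) • v := by
      intro v
      rw [hsmul, map_pow, hιt]
    rw [h1, h2]
    change e.symm (E (e (t • u))) = (t ^ p) • e.symm (E (e u))
    have he : e (t • u) = t • e u := e.map_smul _ _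
    have hE : E (t • e u) = (t ^ p) • E (e u) := by
      ext i
      simp [E, hFr, mul_pow]
    rw [he, hE, e.symm.map_smul]

end Backward

end Linear

/-- Abstract: `w ↦ w * (c w)⁻¹` is onto when `c` has no nontrivial fixed points. -/
lemma exists_mul_inv_eq {A : Type*} [Group A] [Finite A]
    (c : MulAut A) (hfix : ∀ v, c v = v → v = 1) (u : A) : ∃ w, w * (c w)⁻¹ = u := by
  have hinj : Function.Injective (fun w : A => w * (c w)⁻¹) := by
    intro w1 w2 h
    simp only at h
    have h3 : w2⁻¹ * w1 = (c w2)⁻¹ * c w1 := by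
      have e : w1 = w2 * ((c w2)⁻¹ * c w1) := by rw [← mul_assoc, ← h]; simp
      exact inv_mul_eq_of_eq_mul e
    have h1 : c (w2⁻¹ * w1) = w2⁻¹ * w1 := by
      rw [map_mul, map_inv, h3]
    have h2 := hfix _ h1
    exact (inv_mul_eq_one.mp h2).symm
  exact (Finite.injective_iff_surjective.mp hinj) u

/-- Norm along a fixed-point-free automorphism of order dividing `q`. -/
lemma norm_eq_one {A : Type*} [CommGroup A] (c : MulAut A) {q : ℕ} (hcq : c ^ q = 1)
    (hfix : ∀ v, c v = v → v = 1) (v : A) : ∏ j ∈ Finset.range q, (c ^ j) v = 1 := by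
  apply hfix
  rw [map_prod]
  have h1 : ∀ j, c ((c ^ j) v) = (c ^ (j + 1)) v := by
    intro j
    rw [pow_succ', MulAut.mul_apply]
  simp only [h1]
  have h2 := Finset.prod_range_succ (fun j => (c ^ j) v) q
  have h3 := Finset.prod_range_succ' (fun j => (c ^ j) v) q
  rw [h2] at h3
  simp only [hcq, pow_zero, MulAut.one_apply] at h3
  exact mul_right_cancel h3.symm

/-- The identity `∏_i N_{a z^i}(v) = v^q`. -/
lemma pow_eq_one_of_two {A : Type*} [CommGroup A] (a z : MulAut A) (hc : Commute a z)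
    {q : ℕ} (hq : 0 < q)
    (h1 : ∀ i, i < q → (a * z ^ i) ^ q = 1 ∧ ∀ v, (a * z ^ i) v = v → v = 1)
    (h2 : ∀ j, 0 < j → j < q → (z ^ j) ^ q = 1 ∧ ∀ v, (z ^ j) v = v → v = 1) (v : A) :
    v ^ q = 1 := by
  have hA : ∏ i ∈ Finset.range q, ∏ j ∈ Finset.range q, ((a * z ^ i) ^ j) v = 1 := by
    apply Finset.prod_eq_one
    intro i hi
    exact norm_eq_one _ (h1 i (Finset.mem_range.mp hi)).1 (h1 i (Finset.mem_range.mp hi)).2 v
  rw [Finset.prod_comm] at hA
  have hB : ∀ j, ∀ i, ((a * z ^ i) ^ j) v = (a ^ j) (((z ^ j) ^ i) v) := by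
    intro j i
    have hc' : Commute a (z ^ i) := hc.pow_right i
    rw [hc'.mul_pow, MulAut.mul_apply, ← pow_mul, ← pow_mul, mul_comm i j]
  simp only [hB] at hA
  simp only [← map_prod] at hA
  have hC : ∀ j, j ∈ Finset.range q → j ≠ 0 → (a ^ j) (∏ i ∈ Finset.range q, ((z ^ j) ^ i) v) = 1 := by
    intro j hj hj0
    have hj' := Finset.mem_range.mp hj
    rw [norm_eq_one _ (h2 j (Nat.pos_of_ne_zero hj0) hj').1 (h2 j (Nat.pos_of_ne_zero hj0) hj').2 v, map_one]
  rw [Finset.prod_eq_single_of_mem 0 (Finset.mem_range.mpr hq) hC] at hA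
  simpa using hA

/-- Automorphism extension for complements. -/
lemma exists_aut_ext {G : Type*} [Group G] (A Q : Subgroup G) [A.Normal] (hc : A.IsComplement' Q)
    (φ : A ≃* A) (ψ : Q ≃* Q)
    (h : ∀ (y : Q) (v : A), φ (MulAut.conjNormal (y : G) v) = MulAut.conjNormal (ψ y : G) (φ v)) :
    ∃ Φ : MulAut G, (∀ v : A, Φ v = φ v) ∧ ∀ y : Q, Φ y = ψ y := by
  let e := SemidirectProduct.mulEquivSubgroup hc
  let E := SemidirectProduct.congr (φ₁ := (A.normalizerMonoidHom).comp (Subgroup.inclusion (A.normalizer_eq_top ▸ le_top)))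
    (φ₂ := (A.normalizerMonoidHom).comp (Subgroup.inclusion (A.normalizer_eq_top ▸ le_top))) φ ψ (by
      intro y
      ext v
      exact congrArg Subtype.val (h y v))
  refine ⟨e.symm.trans (E.trans e), ?_, ?_⟩
  · intro v
    have h1 : e.symm (v : G) = SemidirectProduct.inl v := by
      rw [MulEquiv.symm_apply_eq]
      simp [e]
    have h2 : E (SemidirectProduct.inl v) = SemidirectProduct.inl (φ v) := by
      ext <;> simp [E]
    change e (E (e.symm (v : G))) = _
    rw [h1, h2]
    simp [e]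
  · intro y
    have h1 : e.symm (y : G) = SemidirectProduct.inr y := by
      rw [MulEquiv.symm_apply_eq]
      simp [e]
    have h2 : E (SemidirectProduct.inr y) = SemidirectProduct.inr (ψ y) := by
      ext <;> simp [E]
    change e (E (e.symm (y : G))) = _
    rw [h1, h2]
    simp [e]


section MulVersions

variable {p q : ℕ} [hp : Fact p.Prime] [hq : Fact q.Prime] {A : Type*} [CommGroup A] [Finite A]
  [Module (ZMod p) (Additive A)]

variable (p) in
/-- `f` as a linear endomorphism of `Additive A`. -/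
noncomputable def lin (f : MulAut A) : Module.End (ZMod p) (Additive A) :=
  (MonoidHom.toAdditive f.toMonoidHom).toZModLinearMap p

lemma lin_apply (f : MulAut A) (a : Additive A) :
    lin p f a = Additive.ofMul (f (Additive.toMul a)) := rfl

variable (p) in
/-- `f` as a linear automorphism of `Additive A`. -/
noncomputable def linE (f : MulAut A) : Additive A ≃ₗ[ZMod p] Additive A :=
  { lin p f with
    invFun := lin p f⁻¹
    left_inv := by
      intro v
      change Additive.ofMul (f⁻¹ (f (Additive.toMul v))) = v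
      simp
    right_inv := by
      intro v
      change Additive.ofMul (f (f⁻¹ (Additive.toMul v))) = v
      simp }

lemma linE_apply (f : MulAut A) (a : Additive A) :
    linE p f a = Additive.ofMul (f (Additive.toMul a)) := rfl

lemma lin_pow (c : MulAut A) (k : ℕ) (a : Additive A) :
    ((lin p c) ^ k) a = Additive.ofMul ((c ^ k) (Additive.toMul a)) := by
  induction k generalizing a with
  | zero => simp
  | succ k ih =>
    rw [pow_succ', Module.End.mul_apply, ih, pow_succ', MulAut.mul_apply]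
    rfl

theorem forward_mul0 (hpq : p ≠ q) [Nontrivial A] (c : MulAut A) (hcq : c ^ q = 1)
    (hfix : ∀ v, c v = v → v = 1)
    (htrans : ∀ v w : A, v ≠ 1 → w ≠ 1 → ∃ (φ : MulAut A) (k : ℕ), φ v = w ∧
      ∀ u, φ (c u) = (c ^ k) (φ u))
    (hpow : ∀ k, 0 < k → k < q → ∃ φ : MulAut A, ∀ u, φ (c u) = (c ^ k) (φ u)) :
    orderOf (p : ZMod q) = q - 1 := by
  apply forward_linear hpq (lin p c)
  · apply LinearMap.ext
    intro a
    rw [lin_pow, hcq]
    simp
  · intro v hv
    have : c (Additive.toMul v) = Additive.toMul v := congrArg Additive.toMul hv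
    exact congrArg Additive.ofMul (hfix _ this)
  · intro v w hv hw
    obtain ⟨φ, k, h1, h2⟩ := htrans (Additive.toMul v) (Additive.toMul w) hv hw
    refine ⟨linE p φ, k, congrArg Additive.ofMul h1, ?_⟩
    intro u
    rw [linE_apply, lin_pow, linE_apply]
    exact congrArg Additive.ofMul (h2 (Additive.toMul u))
  · intro k hk0 hkq
    obtain ⟨φ, h2⟩ := hpow k hk0 hkq
    refine ⟨linE p φ, ?_⟩
    intro u
    rw [linE_apply, lin_pow, linE_apply]
    exact congrArg Additive.ofMul (h2 (Additive.toMul u))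

/-- `φ` as a multiplicative automorphism. -/
def toM (φ : Additive A ≃+ Additive A) : MulAut A :=
  { toFun := fun a => Additive.toMul (φ (Additive.ofMul a))
    invFun := fun a => Additive.toMul (φ.symm (Additive.ofMul a))
    left_inv := by intro a; simp
    right_inv := by intro a; simp
    map_mul' := by
      intro a b
      exact congrArg Additive.toMul (φ.map_add (Additive.ofMul a) (Additive.ofMul b)) }

theorem backward_mul0 (hpq : p ≠ q) (c : MulAut A) (hcq : c ^ q = 1)
    (hfix : ∀ v, c v = v → v = 1) (hord : orderOf (p : ZMod q) = q - 1) :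
    (∀ v w : A, v ≠ 1 → w ≠ 1 → ∃ φ : MulAut A, φ v = w ∧ ∀ u, φ (c u) = c (φ u)) ∧
    ∃ φ : MulAut A, ∀ u, φ (c u) = (c ^ p) (φ u) := by
  have key := backward_linear hpq (lin p c)
    (by
      apply LinearMap.ext
      intro a
      rw [lin_pow, hcq]
      simp)
    (by
      intro v hv
      have : c (Additive.toMul v) = Additive.toMul v := congrArg Additive.toMul hv
      exact congrArg Additive.ofMul (hfix _ this)) hord
  obtain ⟨k1, φp, hφp⟩ := key
  constructor
  · intro v w hv hw
    obtain ⟨φ, h1, h2⟩ := k1 (Additive.ofMul v) (Additive.ofMul w) hv hw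
    refine ⟨toM φ, congrArg Additive.toMul h1, ?_⟩
    intro u
    exact congrArg Additive.toMul (h2 (Additive.ofMul u))
  · refine ⟨toM φp, ?_⟩
    intro u
    have := hφp (Additive.ofMul u)
    rw [lin_pow] at this
    exact congrArg Additive.toMul this

end MulVersions

theorem forward_mul {p q : ℕ} [hp : Fact p.Prime] [hq : Fact q.Prime] (hpq : p ≠ q)
    {A : Type*} [Group A] [Finite A] [Nontrivial A] (hcomm : ∀ a b : A, a * b = b * a)
    (hexp : ∀ a : A, a ^ p = 1) (c : MulAut A) (hcq : c ^ q = 1)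
    (hfix : ∀ v, c v = v → v = 1)
    (htrans : ∀ v w : A, v ≠ 1 → w ≠ 1 → ∃ (φ : MulAut A) (k : ℕ), φ v = w ∧
      ∀ u, φ (c u) = (c ^ k) (φ u))
    (hpow : ∀ k, 0 < k → k < q → ∃ φ : MulAut A, ∀ u, φ (c u) = (c ^ k) (φ u)) :
    orderOf (p : ZMod q) = q - 1 := by
  letI : CommGroup A := { ‹Group A› with mul_comm := hcomm }
  letI : Module (ZMod p) (Additive A) := AddCommGroup.zmodModule (by
    intro v
    change Additive.ofMul ((Additive.toMul v) ^ p) = 0
    rw [hexp]
    rfl)
  exact forward_mul0 hpq c hcq hfix htrans hpow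

theorem backward_mul {p q : ℕ} [hp : Fact p.Prime] [hq : Fact q.Prime] (hpq : p ≠ q)
    {A : Type*} [Group A] [Finite A] (hcomm : ∀ a b : A, a * b = b * a)
    (hexp : ∀ a : A, a ^ p = 1) (c : MulAut A) (hcq : c ^ q = 1)
    (hfix : ∀ v, c v = v → v = 1) (hord : orderOf (p : ZMod q) = q - 1) :
    (∀ v w : A, v ≠ 1 → w ≠ 1 → ∃ φ : MulAut A, φ v = w ∧ ∀ u, φ (c u) = c (φ u)) ∧
    ∃ φ : MulAut A, ∀ u, φ (c u) = (c ^ p) (φ u) := by
  letI : CommGroup A := { ‹Group A› with mul_comm := hcomm }
  letI : Module (ZMod p) (Additive A) := AddCommGroup.zmodModule (by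
    intro v
    change Additive.ofMul ((Additive.toMul v) ^ p) = 0
    rw [hexp]
    rfl)
  exact backward_mul0 hpq c hcq hfix hord

section GroupLevel

variable {G : Type*} [Group G]

lemma char_mem (A : Subgroup G) [hA : A.Characteristic] (Φ : MulAut G) {v : G} (hv : v ∈ A) :
    Φ v ∈ A := by
  have : v ∈ A.comap Φ.toMonoidHom := by rw [hA.fixed]; exact hv
  exact this

/-- Restrict an automorphism to a characteristic subgroup. -/
def restr (A : Subgroup G) [hA : A.Characteristic] (Φ : MulAut G) : MulAut A where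
  toFun v := ⟨Φ v, char_mem A Φ v.2⟩
  invFun v := ⟨Φ⁻¹ v, char_mem A Φ⁻¹ v.2⟩
  left_inv v := by ext; simp
  right_inv v := by ext; simp
  map_mul' a b := by ext; simp

lemma restr_coe (A : Subgroup G) [hA : A.Characteristic] (Φ : MulAut G) (v : A) :
    (restr A Φ v : G) = Φ v := rfl

lemma restr_conj (A : Subgroup G) [hA : A.Characteristic] (Φ : MulAut G) (x : G) (v : A) :
    restr A Φ (MulAut.conjNormal x v) = MulAut.conjNormal (Φ x) (restr A Φ v) := by
  ext
  simp [restr_coe, MulAut.conjNormal_apply]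

lemma no_commute_pq {p q : ℕ} (hp : p.Prime) (hq : q.Prime) (hpq : p ≠ q)
    (hord : ∀ g : G, g ≠ 1 → orderOf g = p ∨ orderOf g = q) {y z : G}
    (hyz : Commute y z) (hy : orderOf y = p) (hz : orderOf z = q) : False := by
  have hcop : (orderOf y).Coprime (orderOf z) := by
    rw [hy, hz]; exact (Nat.coprime_primes hp hq).mpr hpq
  have h1 : orderOf (y * z) = p * q := by
    rw [hyz.orderOf_mul_eq_mul_orderOf_of_coprime hcop, hy, hz]
  have hp2 := hp.two_le
  have hq2 := hq.two_le
  have hne : y * z ≠ 1 := by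
    intro h
    rw [h, orderOf_one] at h1
    nlinarith
  rcases hord _ hne with h | h <;> rw [h] at h1 <;> nlinarith

lemma exists_conj_pow [Finite G] (A : Subgroup G) [A.Normal] (x : G) {q : ℕ} (hq : q.Prime)
    (hx : orderOf x = q) (hc : A.IsComplement' (Subgroup.zpowers x))
    (hfp : ∀ y : G, orderOf y = q → ∀ v : A, MulAut.conjNormal y v = v → v = 1) (g : G)
    (hg : g ∉ A) : ∃ u ∈ A, ∃ k, 0 < k ∧ k < q ∧ g = u * x ^ k * u⁻¹ := by
  obtain ⟨⟨u1, y⟩, hy⟩ := hc.2 g
  simp only at hy
  obtain ⟨k, hk⟩ := (mem_powers_iff_mem_zpowers).mpr y.2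
  simp only at hk
  have hk' : (y : G) = x ^ (k % q) := by rw [← hk, ← hx, pow_mod_orderOf]
  have hkq : k % q < q := Nat.mod_lt _ hq.pos
  have hk0 : 0 < k % q := by
    rcases Nat.eq_zero_or_pos (k % q) with h | h
    · exfalso
      rw [h, pow_zero] at hk'
      rw [hk', mul_one] at hy
      exact hg (hy ▸ u1.2)
    · exact h
  have hcop : (orderOf x).Coprime (k % q) := by
    rw [hx]
    exact (Nat.Prime.coprime_iff_not_dvd hq).mpr (Nat.not_dvd_of_pos_of_lt hk0 hkq)
  have hord : orderOf (x ^ (k % q)) = q := by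
    rw [hcop.orderOf_pow, hx]
  obtain ⟨w, hw⟩ := exists_mul_inv_eq (MulAut.conjNormal (x ^ (k % q)) : MulAut A)
    (hfp _ hord) u1
  refine ⟨w, w.2, k % q, hk0, hkq, ?_⟩
  have hcv : (((MulAut.conjNormal (x ^ (k % q)) : MulAut A) w : A) : G)
      = x ^ (k % q) * w * (x ^ (k % q))⁻¹ := MulAut.conjNormal_apply _ _
  rw [← hy, ← hw, hk', Subgroup.coe_mul, Subgroup.coe_inv, hcv]
  group

lemma all_of_card_orbits [Finite G] (h3 : Nat.card (MulAction.orbitRel.Quotient (MulAut G) G) = 3)
    (a1 a2 a3 : G) (h12 : ∀ φ : MulAut G, φ a1 ≠ a2) (h13 : ∀ φ : MulAut G, φ a1 ≠ a3)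
    (h23 : ∀ φ : MulAut G, φ a2 ≠ a3) (g : G) :
    (∃ φ : MulAut G, φ a1 = g) ∨ (∃ φ : MulAut G, φ a2 = g) ∨ ∃ φ : MulAut G, φ a3 = g := by
  classical
  let Q := MulAction.orbitRel.Quotient (MulAut G) G
  let mk : G → Q := fun a => Quotient.mk _ a
  have hmk : ∀ a b : G, mk a = mk b → ∃ φ : MulAut G, φ a = b := by
    intro a b hab
    have h1 : b ∈ MulAction.orbit (MulAut G) a := by
      have := Quotient.exact hab.symm
      exact this
    obtain ⟨φ, hφ⟩ := h1
    exact ⟨φ, hφ⟩
  letI : Fintype Q := Fintype.ofFinite Q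
  have hne12 : mk a1 ≠ mk a2 := fun h => by
    obtain ⟨φ, hφ⟩ := hmk _ _ h
    exact h12 φ hφ
  have hne13 : mk a1 ≠ mk a3 := fun h => by
    obtain ⟨φ, hφ⟩ := hmk _ _ h
    exact h13 φ hφ
  have hne23 : mk a2 ≠ mk a3 := fun h => by
    obtain ⟨φ, hφ⟩ := hmk _ _ h
    exact h23 φ hφ
  have hcard : ({mk a1, mk a2, mk a3} : Finset Q).card = Fintype.card Q := by
    rw [← Nat.card_eq_fintype_card, h3, Finset.card_insert_of_notMem, Finset.card_insert_of_notMem,
      Finset.card_singleton]
    · simpa using hne23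
    · simp [hne12, hne13]
  have huniv := (Finset.card_eq_iff_eq_univ _).mp hcard
  have hg : mk g ∈ ({mk a1, mk a2, mk a3} : Finset Q) := by rw [huniv]; exact Finset.mem_univ _
  simp only [Finset.mem_insert, Finset.mem_singleton] at hg
  rcases hg with h | h | h
  · exact Or.inl (hmk _ _ h.symm)
  · exact Or.inr (Or.inl (hmk _ _ h.symm))
  · exact Or.inr (Or.inr (hmk _ _ h.symm))

lemma card_orbits_of_classifier (f : G → Fin 3) (hinv : ∀ (Φ : MulAut G) (g : G), f (Φ g) = f g)
    (hsame : ∀ g h : G, f g = f h → ∃ Φ : MulAut G, Φ g = h) (hsurj : Function.Surjective f) :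
    Nat.card (MulAction.orbitRel.Quotient (MulAut G) G) = 3 := by
  let F : MulAction.orbitRel.Quotient (MulAut G) G → Fin 3 := Quotient.lift f (by
    intro a b hab
    obtain ⟨φ, hφ⟩ := hab
    rw [← hφ]
    exact hinv φ b)
  have hbij : Function.Bijective F := by
    constructor
    · intro a b
      induction a using Quotient.inductionOn with | _ a => ?_
      induction b using Quotient.inductionOn with | _ b => ?_
      intro hab
      obtain ⟨Φ, hΦ⟩ := hsame b a hab.symm
      exact Quotient.sound ⟨Φ, hΦ⟩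
    · intro i
      obtain ⟨g, hg⟩ := hsurj i
      exact ⟨Quotient.mk _ g, hg⟩
  rw [Nat.card_congr (Equiv.ofBijective F hbij)]
  simp

end GroupLevel

section Main

variable {G : Type*} [Group G] [Finite G]

lemma pow_eq_one_of_two' {A : Type*} [Group A] (hcomm : ∀ a b : A, a * b = b * a)
    (a z : MulAut A) (hc : Commute a z)
    {q : ℕ} (hq : 0 < q)
    (h1 : ∀ i, i < q → (a * z ^ i) ^ q = 1 ∧ ∀ v, (a * z ^ i) v = v → v = 1)
    (h2 : ∀ j, 0 < j → j < q → (z ^ j) ^ q = 1 ∧ ∀ v, (z ^ j) v = v → v = 1) (v : A) :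
    v ^ q = 1 := by
  letI : CommGroup A := { ‹Group A› with mul_comm := hcomm }
  exact pow_eq_one_of_two a z hc hq h1 h2 v

theorem forward_main {p q : ℕ} [hp : Fact p.Prime] [hq : Fact q.Prime] (hpq : p ≠ q)
    (A : Subgroup G) [hchar : A.Characteristic] (hA : ∀ a b : G, a ∈ A → b ∈ A → a * b = b * a)
    (a x : G) (haA : a ∈ A) (ha : orderOf a = p) (hx : orderOf x = q)
    (hord : ∀ g : G, g ≠ 1 → orderOf g = p ∨ orderOf g = q)
    (htr : ∀ g h : G, g ≠ 1 → orderOf g = orderOf h → ∃ φ : MulAut G, φ g = h) :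
    ∃ (p q n : ℕ) (_ : Fact p.Prime) (_ : Fact q.Prime), p ≠ q ∧ 1 ≤ n ∧ Nat.card G = p ^ n * q ∧
      (∀ P : Sylow p G, (P : Subgroup G).Normal ∧ Cfsg.IsElementaryAbelian p (P : Subgroup G)) ∧
      orderOf (p : ZMod q) = q - 1 ∧
      ∀ x y : G, orderOf x = q → orderOf y = p → x * y * x⁻¹ ≠ y := by
  classical
  have hnc : ∀ {y z : G}, Commute y z → orderOf y = p → orderOf z = q → False :=
    fun h1 h2 h3 => no_commute_pq hp.out hq.out hpq hord h1 h2 h3
  have hpq' : p.Coprime q := (Nat.coprime_primes hp.out hq.out).mpr hpq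
  have ha1 : a ≠ 1 := by
    rintro rfl
    rw [orderOf_one] at ha
    exact hp.out.one_lt.ne ha
  have h1A : ∀ u ∈ A, u ≠ 1 → orderOf u = p := by
    intro u hu hu1
    rcases hord u hu1 with h | h
    · exact h
    · exact (hnc (hA a u haA hu) ha h).elim
  have h2A : ∀ g : G, orderOf g = p → g ∈ A := by
    intro g hg
    obtain ⟨φ, rfl⟩ := htr a g ha1 (by rw [ha, hg])
    exact char_mem A φ haA
  have hpow : ∀ u ∈ A, u ^ p = 1 := by
    intro u hu
    by_cases h : u = 1
    · simp [h]
    · rw [← h1A u hu h]; exact pow_orderOf_eq_one u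
  have hPG : IsPGroup p A := fun u => ⟨1, by ext; simpa using hpow u u.2⟩
  have hSyl : ∀ P : Sylow p G, (P : Subgroup G) = A := by
    intro P
    have hle : (P : Subgroup G) ≤ A := by
      intro s hs
      obtain ⟨k, hk⟩ := P.isPGroup' ⟨s, hs⟩
      have hk' : s ^ (p ^ k) = 1 := by simpa using congrArg Subtype.val hk
      by_cases h1 : s = 1
      · rw [h1]; exact A.one_mem
      rcases hord s h1 with h | h
      · exact h2A s h
      · exfalso
        have h3 := orderOf_dvd_of_pow_eq_one hk'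
        rw [h] at h3
        have := (Nat.prime_dvd_prime_iff_eq hq.out hp.out).mp (hq.out.dvd_of_dvd_pow h3)
        exact hpq this.symm
    obtain ⟨P', hP'⟩ := hPG.exists_le_sylow
    have : (P' : Subgroup G) = P := P.is_maximal' P'.isPGroup' (hle.trans hP')
    exact le_antisymm hle (this ▸ hP')
  obtain ⟨P0⟩ : Nonempty (Sylow p G) := inferInstance
  have hP0 := hSyl P0
  obtain ⟨n, hn⟩ := IsPGroup.iff_card.mp hPG
  have hn1 : 1 ≤ n := by
    rcases Nat.eq_zero_or_pos n with h | h
    · exfalso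
      rw [h, pow_zero] at hn
      have := (Subgroup.card_eq_one).mp hn
      rw [this] at haA
      exact ha1 (Subgroup.mem_bot.mp haA)
    · exact h
  have hidx : ¬ p ∣ A.index := by rw [← hP0]; exact P0.not_dvd_index
  have hcardG : Nat.card G = p ^ n * A.index := by rw [← hn, Subgroup.card_mul_index]
  have hprime : ∀ r, r.Prime → r ∣ A.index → r = q := by
    intro r hr hri
    have hrG : r ∣ Nat.card G := by rw [hcardG]; exact dvd_mul_of_dvd_right hri _
    haveI := Fact.mk hr
    obtain ⟨g, hg⟩ := exists_prime_orderOf_dvd_card' r hrG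
    have hg1 : g ≠ 1 := by
      rintro rfl
      rw [orderOf_one] at hg
      exact hr.one_lt.ne hg
    rcases hord g hg1 with h | h
    · rw [hg] at h
      rw [h] at hri
      exact absurd hri hidx
    · rw [hg] at h; exact h
  have hidx0 : A.index ≠ 0 := Subgroup.index_ne_zero_of_finite
  have hindex := Nat.eq_prime_pow_of_unique_prime_dvd hidx0 (fun {d} hd hdv => hprime d hd hdv)
  set b := A.index.primeFactorsList.length with hb
  have hcomm : ∀ u v : A, u * v = v * u := fun u v => Subtype.ext (hA u v u.2 v.2)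
  -- action of elements of order q
  have hgen : ∀ g : G, orderOf g = q →
      (MulAut.conjNormal g : MulAut A) ^ q = 1 ∧ ∀ v : A, MulAut.conjNormal g v = v → v = 1 := by
    intro g hg
    constructor
    · rw [← map_pow, ← hg, pow_orderOf_eq_one, map_one]
    · intro v hv
      by_contra hv1
      have hv1' : (v : G) ≠ 1 := fun h => hv1 (Subtype.ext h)
      have hvp := h1A v v.2 hv1'
      have hv2 : g * v * g⁻¹ = v := by
        have := congrArg Subtype.val hv
        simpa [MulAut.conjNormal_apply] using this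
      have hcm : Commute g (v : G) := by
        rw [Commute, SemiconjBy]
        calc g * v = g * v * g⁻¹ * g := by group
          _ = v * g := by rw [hv2]
      exact hnc hcm.symm hvp hg
  have hq2 : ¬ q ^ 2 ∣ Nat.card G := by
    intro hdvd
    obtain ⟨K, hK⟩ := Sylow.exists_subgroup_card_pow_prime q hdvd
    have hKcomm : ∀ u v : K, u * v = v * u :=
      (IsPGroup.isMulCommutative_of_card_eq_prime_sq hK).is_comm.comm
    have hKord : ∀ g ∈ K, g ≠ 1 → orderOf g = q := by
      intro g hg hg1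
      rcases hord g hg1 with h | h
      · exfalso
        have h1 : orderOf (⟨g, hg⟩ : K) ∣ q ^ 2 := hK ▸ orderOf_dvd_natCard _
        rw [Subgroup.orderOf_mk, h] at h1
        have := (Nat.prime_dvd_prime_iff_eq hp.out hq.out).mp (hp.out.dvd_of_dvd_pow h1)
        exact hpq this
      · exact h
    have hK1 : 1 < Nat.card K := by
      rw [hK]
      have := hq.out.two_le
      nlinarith
    obtain ⟨z, hz⟩ : ∃ z : K, z ≠ 1 := by
      haveI : Nontrivial K := Finite.one_lt_card_iff_nontrivial.mp hK1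
      exact exists_ne 1
    have hz1 : (z : G) ≠ 1 := fun h => hz (Subtype.ext h)
    have hzq := hKord z z.2 hz1
    obtain ⟨c, hc⟩ : ∃ c : K, c ∉ Subgroup.zpowers z := by
      by_contra hcon
      push Not at hcon
      have htop : Subgroup.zpowers z = ⊤ := by
        ext y
        simp [hcon y]
      have h1 : Nat.card (Subgroup.zpowers z) = Nat.card K := by
        rw [htop]; simp
      rw [Nat.card_zpowers, hK, ← Subgroup.orderOf_coe, hzq] at h1
      have := hq.out.two_le
      nlinarith
    have hcz : ∀ i, (c : G) * (z : G) ^ i ≠ 1 := by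
      intro i h
      apply hc
      have h1 : c * z ^ i = 1 := Subtype.ext (by simpa using h)
      have h2 : c = (z ^ i)⁻¹ := eq_inv_of_mul_eq_one_left h1
      rw [h2]
      exact Subgroup.inv_mem _ (Subgroup.pow_mem _ (Subgroup.mem_zpowers z) i)
    have hcomm' : Commute (MulAut.conjNormal (c : G) : MulAut A) (MulAut.conjNormal (z : G)) := by
      have h1 : Commute (c : G) (z : G) := by
        rw [Commute, SemiconjBy]
        exact congrArg Subtype.val (hKcomm c z)
      exact h1.map MulAut.conjNormal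
    have key := pow_eq_one_of_two' hcomm _ _ hcomm' hq.out.pos
      (fun i _ => by
        have h1 : (MulAut.conjNormal (c : G) : MulAut A) * (MulAut.conjNormal (z : G)) ^ i
            = MulAut.conjNormal ((c : G) * (z : G) ^ i) := by
          rw [map_mul, map_pow]
        rw [h1]
        exact hgen _ (hKord _ (K.mul_mem c.2 (K.pow_mem z.2 i)) (hcz i)))
      (fun j hj0 hjq => by
        have h1 : (MulAut.conjNormal (z : G) : MulAut A) ^ j = MulAut.conjNormal ((z : G) ^ j) := by
          rw [map_pow]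
        rw [h1]
        refine hgen _ (hKord _ (K.pow_mem z.2 j) ?_)
        exact pow_ne_one_of_lt_orderOf hj0.ne' (by rw [hzq]; exact hjq))
      ⟨a, haA⟩
    have h2 : a ^ q = 1 := by simpa using congrArg Subtype.val key
    have h3 := orderOf_dvd_of_pow_eq_one h2
    rw [ha] at h3
    exact hpq ((Nat.prime_dvd_prime_iff_eq hp.out hq.out).mp h3)
  have hqG : q ∣ Nat.card G := by
    rw [← hx]; exact orderOf_dvd_natCard x
  have hb1 : b = 1 := by
    have hq_idx : q ∣ A.index := by
      rw [hcardG] at hqG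
      exact (Nat.Coprime.dvd_of_dvd_mul_left (Nat.Coprime.pow_right n hpq'.symm) hqG)
    have hb0 : b ≠ 0 := by
      intro h
      rw [h, pow_zero] at hindex
      rw [hindex] at hq_idx
      exact hq.out.one_lt.ne' (Nat.dvd_one.mp hq_idx)
    have hb2 : ¬ 2 ≤ b := by
      intro h
      apply hq2
      rw [hcardG, hindex]
      exact dvd_mul_of_dvd_right (pow_dvd_pow q h) _
    omega
  have hidxq : A.index = q := by
    rw [hindex, hb1, pow_one]
  have hcardG' : Nat.card G = p ^ n * q := by rw [hcardG, hidxq]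
  have hcompl : A.IsComplement' (Subgroup.zpowers x) := by
    apply Subgroup.isComplement'_of_coprime
    · rw [Nat.card_zpowers, hn, hx, hcardG']
    · rw [Nat.card_zpowers, hn, hx]
      exact Nat.Coprime.pow_left n hpq'
  have hxA : ∀ y : G, orderOf y = q → y ∉ A := by
    intro y hy hyA
    have hy1 : y ≠ 1 := by
      rintro rfl
      rw [orderOf_one] at hy
      exact hq.out.one_lt.ne hy
    rw [h1A y hyA hy1] at hy
    exact hpq hy
  haveI : Nontrivial A := by
    refine ⟨⟨⟨a, haA⟩, 1, ?_⟩⟩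
    intro h
    exact ha1 (congrArg Subtype.val h)
  refine ⟨p, q, n, hp, hq, hpq, hn1, hcardG', ?_, ?_, ?_⟩
  · intro P
    rw [hSyl P]
    refine ⟨inferInstance, ⟨⟨?_⟩⟩, hpow⟩
    intro u v
    exact hcomm u v
  · refine forward_mul hpq hcomm (fun u => Subtype.ext (by simpa using hpow u u.2))
      (MulAut.conjNormal x) (hgen x hx).1 (hgen x hx).2 ?_ ?_
    · intro v w hv hw
      have hv1 : (v : G) ≠ 1 := fun h => hv (Subtype.ext h)
      have hw1 : (w : G) ≠ 1 := fun h => hw (Subtype.ext h)
      obtain ⟨Φ, hΦ⟩ := htr v w hv1 (by rw [h1A v v.2 hv1, h1A w w.2 hw1])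
      have hΦx : orderOf (Φ x) = q := by rw [MulEquiv.orderOf_eq, hx]
      obtain ⟨u, huA, k, hk0, hkq, hform⟩ :=
        exists_conj_pow A x hq.out hx hcompl (fun y hy => (hgen y hy).2) (Φ x) (hxA _ hΦx)
      let Φ' : MulAut G := (MulAut.conj u)⁻¹ * Φ
      have hΦ'x : Φ' x = x ^ k := by
        simp only [Φ', MulAut.mul_apply, hform, MulAut.conj_inv_apply]
        group
      have hΦ'v : Φ' v = w := by
        simp only [Φ', MulAut.mul_apply, hΦ, MulAut.conj_inv_apply]
        rw [mul_assoc, hA w u w.2 huA]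
        group
      refine ⟨restr A Φ', k, Subtype.ext hΦ'v, ?_⟩
      intro y
      rw [restr_conj, hΦ'x, map_pow]
    · intro k hk0 hkq
      have hcop : (orderOf x).Coprime k := by
        rw [hx]
        exact (Nat.Prime.coprime_iff_not_dvd hq.out).mpr (Nat.not_dvd_of_pos_of_lt hk0 hkq)
      have hk : orderOf (x ^ k) = q := by rw [hcop.orderOf_pow, hx]
      have hx1 : x ≠ 1 := by
        rintro rfl
        rw [orderOf_one] at hx
        exact hq.out.one_lt.ne hx
      obtain ⟨Φ, hΦ⟩ := htr x (x ^ k) hx1 (by rw [hx, hk])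
      refine ⟨restr A Φ, ?_⟩
      intro y
      rw [restr_conj, hΦ, map_pow]
  · intro y v hy hv hcon
    have hcm : Commute y v := by
      rw [Commute, SemiconjBy]
      calc y * v = y * v * y⁻¹ * y := by group
        _ = v * y := by rw [hcon]
    exact hnc hcm.symm hv hy

end Main

section Back

variable {G : Type*} [Group G] [Finite G]

lemma exists_pow_of_primitive {p q : ℕ} [hq : Fact q.Prime] (hcop : p.Coprime q)
    (hord : orderOf (p : ZMod q) = q - 1) (k : ℕ) (hk0 : 0 < k) (hkq : k < q) :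
    ∃ j, p ^ j ≡ k [MOD q] := by
  let u := ZMod.unitOfCoprime p hcop
  have hu : orderOf u = q - 1 := by
    rw [← orderOf_units, ZMod.coe_unitOfCoprime, hord]
  have htop : Subgroup.zpowers u = ⊤ := by
    apply Subgroup.eq_top_of_card_eq
    rw [Nat.card_zpowers, hu, Nat.card_eq_fintype_card, ZMod.card_units]
  have hkc : k.Coprime q :=
    ((Nat.Prime.coprime_iff_not_dvd hq.out).mpr (Nat.not_dvd_of_pos_of_lt hk0 hkq)).symm
  let v := ZMod.unitOfCoprime k hkc
  have hv : v ∈ Subgroup.zpowers u := by rw [htop]; exact Subgroup.mem_top v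
  obtain ⟨j, hj⟩ := (mem_powers_iff_mem_zpowers).mpr hv
  refine ⟨j, ?_⟩
  have h1 : (((u ^ j : (ZMod q)ˣ)) : ZMod q) = (v : ZMod q) := by
    simp only at hj
    rw [hj]
  rw [Units.val_pow_eq_pow_val, ZMod.coe_unitOfCoprime, ZMod.coe_unitOfCoprime] at h1
  rw [← ZMod.natCast_eq_natCast_iff, Nat.cast_pow]
  exact h1

lemma exists_aut_of_conj {A : Subgroup G} [A.Normal] {x : G} {q : ℕ} [hq : Fact q.Prime]
    (hx : orderOf x = q) (hc : A.IsComplement' (Subgroup.zpowers x)) (k : ℕ) (hk : q.Coprime k)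
    (φ : MulAut A)
    (hφ : ∀ u, φ ((MulAut.conjNormal x : MulAut A) u) = ((MulAut.conjNormal x : MulAut A) ^ k) (φ u)) :
    ∃ Φ : MulAut G, (∀ v : A, Φ v = φ v) ∧ Φ x = x ^ k := by
  let c : MulAut A := MulAut.conjNormal x
  have hpowc : ∀ (j : ℕ) (u : A), φ ((c ^ j) u) = (c ^ (k * j)) (φ u) := by
    intro j
    induction j with
    | zero => intro u; simp
    | succ j ih =>
      intro u
      rw [pow_succ, MulAut.mul_apply, ih, hφ, ← MulAut.mul_apply, ← pow_add, mul_add, mul_one]
  have hcardQ : (Nat.card (Subgroup.zpowers x)).Coprime k := by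
    rw [Nat.card_zpowers, hx]; exact hk
  have hcommQ : ∀ a b : Subgroup.zpowers x, a * b = b * a := fun a b =>
    (inferInstance : IsMulCommutative (Subgroup.zpowers x)).is_comm.comm a b
  let ψ : Subgroup.zpowers x ≃* Subgroup.zpowers x :=
    { powCoprime hcardQ with
      map_mul' := by
        intro a b
        have h1 : Commute a b := hcommQ a b
        simpa [powCoprime] using h1.mul_pow k }
  have hψ : ∀ y : Subgroup.zpowers x, ((ψ y : Subgroup.zpowers x) : G) = (y : G) ^ k := fun y => rfl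
  obtain ⟨Φ, h1, h2⟩ := exists_aut_ext A (Subgroup.zpowers x) hc φ ψ (by
    intro y v
    obtain ⟨j, hj⟩ := (mem_powers_iff_mem_zpowers).mpr y.2
    simp only at hj
    have h3 : (MulAut.conjNormal (y : G) : MulAut A) = c ^ j := by
      rw [← hj, map_pow]
    have h4 : (MulAut.conjNormal ((ψ y : Subgroup.zpowers x) : G) : MulAut A) = c ^ (k * j) := by
      rw [hψ, ← hj, ← pow_mul, map_pow, mul_comm]
    rw [h3, h4, hpowc])
  refine ⟨Φ, h1, ?_⟩
  have := h2 ⟨x, Subgroup.mem_zpowers x⟩
  rw [this, hψ]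

theorem backward_main {p q n : ℕ} [hp : Fact p.Prime] [hq : Fact q.Prime] (hpq : p ≠ q)
    (hn : 1 ≤ n) (hcard : Nat.card G = p ^ n * q)
    (hsyl : ∀ P : Sylow p G, (P : Subgroup G).Normal ∧ Cfsg.IsElementaryAbelian p (P : Subgroup G))
    (hord : orderOf (p : ZMod q) = q - 1)
    (hfp : ∀ x y : G, orderOf x = q → orderOf y = p → x * y * x⁻¹ ≠ y) :
    Nat.card (MulAction.orbitRel.Quotient (MulAut G) G) = 3 := by
  classical
  have hpq' : p.Coprime q := (Nat.coprime_primes hp.out hq.out).mpr hpq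
  have hpnq : ¬ p ∣ q := fun h => hpq ((Nat.prime_dvd_prime_iff_eq hp.out hq.out).mp h)
  obtain ⟨P0⟩ : Nonempty (Sylow p G) := inferInstance
  obtain ⟨hnorm, hcomm0, hexp⟩ := hsyl P0
  have hchar0 : (P0 : Subgroup G).Characteristic := Sylow.characteristic_of_normal P0 hnorm
  have hcardA0 : Nat.card (P0 : Subgroup G) = p ^ n := by
    rw [Sylow.card_eq_multiplicity, hcard, Nat.factorization_mul (pow_ne_zero n hp.out.ne_zero)
      hq.out.ne_zero, Nat.factorization_pow]
    simp [hp.out.factorization_self, Nat.factorization_eq_zero_of_not_dvd hpnq]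
  generalize (P0 : Subgroup G) = A at *
  haveI : A.Normal := hnorm
  haveI hchar : A.Characteristic := hchar0
  have hcardA : Nat.card A = p ^ n := hcardA0
  have hqd : q ∣ Nat.card G := by rw [hcard]; exact dvd_mul_left _ _
  obtain ⟨x, hx⟩ := exists_prime_orderOf_dvd_card' q hqd
  have hcompl : A.IsComplement' (Subgroup.zpowers x) := by
    apply Subgroup.isComplement'_of_coprime
    · rw [Nat.card_zpowers, hcardA, hx, hcard]
    · rw [Nat.card_zpowers, hcardA, hx]
      exact Nat.Coprime.pow_left n hpq'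
  have hcm : ∀ u v : A, u * v = v * u := hcomm0.is_comm.comm
  have hA1 : ∀ v : A, v ≠ 1 → orderOf (v : G) = p := by
    intro v hv
    exact orderOf_eq_prime (hexp v v.2) (fun h => hv (Subtype.ext h))
  have hfp' : ∀ y : G, orderOf y = q → ∀ v : A, MulAut.conjNormal y v = v → v = 1 := by
    intro y hy v hv
    by_contra hv1
    apply hfp y v hy (hA1 v hv1)
    have := congrArg Subtype.val hv
    simpa [MulAut.conjNormal_apply] using this
  have hcq : (MulAut.conjNormal x : MulAut A) ^ q = 1 := by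
    rw [← map_pow, ← hx, pow_orderOf_eq_one, map_one]
  obtain ⟨hT, φp, hφp⟩ := backward_mul hpq hcm (fun u => Subtype.ext (by simpa using hexp u u.2))
    (MulAut.conjNormal x) hcq (hfp' x hx) hord
  -- automorphisms
  have hqp : q.Coprime p := hpq'.symm
  obtain ⟨Φp, hΦp1, hΦp2⟩ := exists_aut_of_conj hx hcompl p hqp φp hφp
  have hΦpow : ∀ j : ℕ, (Φp ^ j) x = x ^ (p ^ j) := by
    intro j
    induction j with
    | zero => simp
    | succ j ih =>
      rw [pow_succ', MulAut.mul_apply, ih, map_pow, hΦp2, ← pow_mul, pow_succ']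
  have hxA : x ∉ A := by
    intro hxa
    have h1 : x ^ p = 1 := hexp x hxa
    have h2 := orderOf_dvd_of_pow_eq_one h1
    rw [hx] at h2
    exact hpq ((Nat.prime_dvd_prime_iff_eq hq.out hp.out).mp h2).symm
  have hto : ∀ g : G, g ∉ A → ∃ Φ : MulAut G, Φ x = g := by
    intro g hg
    obtain ⟨u, huA, k, hk0, hkq, hform⟩ := exists_conj_pow A x hq.out hx hcompl hfp' g hg
    obtain ⟨j, hj⟩ := exists_pow_of_primitive hpq' hord k hk0 hkq
    have h1 : x ^ (p ^ j) = x ^ k := by
      rw [pow_eq_pow_iff_modEq, hx]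
      exact hj
    refine ⟨MulAut.conj u * Φp ^ j, ?_⟩
    rw [MulAut.mul_apply, hΦpow, h1, MulAut.conj_apply, hform]
  let f : G → Fin 3 := fun g => if g = 1 then 0 else if g ∈ A then 1 else 2
  have hcharIff : ∀ (Φ : MulAut G) (g : G), Φ g ∈ A ↔ g ∈ A := by
    intro Φ g
    constructor
    · intro h
      have := char_mem A Φ⁻¹ h
      simpa using this
    · exact char_mem A Φ
  apply card_orbits_of_classifier f
  · intro Φ g
    simp only [f, map_eq_one_iff Φ Φ.injective, hcharIff]
  · intro g h hgh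
    by_cases hg1 : g = 1
    · by_cases hh1 : h = 1
      · exact ⟨1, by simp [hg1, hh1]⟩
      · exfalso
        by_cases hhA : h ∈ A <;> simp [f, hg1, hh1, hhA] at hgh
    · by_cases hh1 : h = 1
      · exfalso
        by_cases hgA : g ∈ A <;> simp [f, hg1, hh1, hgA] at hgh
      · by_cases hgA : g ∈ A
        · by_cases hhA : h ∈ A
          · have hv : (⟨g, hgA⟩ : A) ≠ 1 := fun e => hg1 (congrArg Subtype.val e)
            have hw : (⟨h, hhA⟩ : A) ≠ 1 := fun e => hh1 (congrArg Subtype.val e)
            obtain ⟨φ, hφ1, hφ2⟩ := hT _ _ hv hw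
            obtain ⟨Φ, hΦ1, -⟩ := exists_aut_of_conj hx hcompl 1 (by simp) φ (by simpa using hφ2)
            refine ⟨Φ, ?_⟩
            have := hΦ1 ⟨g, hgA⟩
            rw [hφ1] at this
            exact this
          · exfalso
            simp [f, hg1, hh1, hgA, hhA] at hgh
        · by_cases hhA : h ∈ A
          · exfalso
            simp [f, hg1, hh1, hgA, hhA] at hgh
          · obtain ⟨Φ1, h8⟩ := hto g hgA
            obtain ⟨Φ2, h9⟩ := hto h hhA
            refine ⟨Φ2 * Φ1⁻¹, ?_⟩
            rw [MulAut.mul_apply, ← h8]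
            simpa using h9
  · intro i
    have hA_ne : ∃ v : A, v ≠ 1 := by
      have h1 : 1 < Nat.card A := by
        rw [hcardA]
        exact Nat.one_lt_pow (by omega) hp.out.one_lt
      haveI : Nontrivial A := Finite.one_lt_card_iff_nontrivial.mp h1
      exact exists_ne 1
    obtain ⟨v, hv⟩ := hA_ne
    have hv1 : (v : G) ≠ 1 := fun h => hv (Subtype.ext h)
    have hx1 : x ≠ 1 := fun h => hxA (h ▸ A.one_mem)
    fin_cases i
    · exact ⟨1, by simp [f]⟩
    · exact ⟨v, by simp [f, hv1]⟩
    · exact ⟨x, by simp [f, hx1, hxA]⟩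

end Back

/-- Let G be a finite group whose order is not a prime power. Then the automorphism group of G has exactly three orbits on G if and only if there are distinct primes p, q with #G = pⁿ·q (n ≥ 1) such that G has a normal elementary abelian Sylow p-subgroup P, p is a primitive root modulo q (the multiplicative order of p mod q is q − 1), and every element of order q of G acts on P without non-identity fixed points. -/
theorem result {G : Type*} [Group G] [Finite G] (hnpp : ¬ IsPrimePow (Nat.card G)) (hnt : Nat.card G ≠ 1) :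
    Nat.card (MulAction.orbitRel.Quotient (MulAut G) G) = 3 ↔
    ∃ (p q n : ℕ) (_ : Fact p.Prime) (_ : Fact q.Prime), p ≠ q ∧ 1 ≤ n ∧ Nat.card G = p ^ n * q ∧
      (∀ P : Sylow p G, (P : Subgroup G).Normal ∧ Cfsg.IsElementaryAbelian p (P : Subgroup G)) ∧
      orderOf (p : ZMod q) = q - 1 ∧
      ∀ x y : G, orderOf x = q → orderOf y = p → x * y * x⁻¹ ≠ y := by
  constructor
  · intro h3
    classical
    have hcard0 : Nat.card G ≠ 0 := Nat.card_pos.ne'
    obtain ⟨p, q, hp, hq, hpq, hpd, hqd⟩ : ∃ p q : ℕ, p.Prime ∧ q.Prime ∧ p ≠ q ∧ p ∣ Nat.card G ∧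
        q ∣ Nat.card G := by
      by_contra hcon
      push Not at hcon
      apply hnpp
      rw [isPrimePow_iff_unique_prime_dvd]
      refine ⟨(Nat.card G).minFac, ⟨Nat.minFac_prime hnt, Nat.minFac_dvd _⟩, ?_⟩
      rintro y ⟨hy, hyd⟩
      by_contra hne
      exact hcon _ _ hy (Nat.minFac_prime hnt) hne hyd (Nat.minFac_dvd _)
    haveI hpf := Fact.mk hp
    haveI hqf := Fact.mk hq
    obtain ⟨ap, hap⟩ := exists_prime_orderOf_dvd_card' p hpd
    obtain ⟨aq, haq⟩ := exists_prime_orderOf_dvd_card' q hqd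
    have hall := all_of_card_orbits h3 1 ap aq
      (by
        intro φ h
        rw [map_one] at h
        rw [← h, orderOf_one] at hap
        exact hp.one_lt.ne hap)
      (by
        intro φ h
        rw [map_one] at h
        rw [← h, orderOf_one] at haq
        exact hq.one_lt.ne haq)
      (by
        intro φ h
        rw [← h, MulEquiv.orderOf_eq, hap] at haq
        exact hpq haq)
    have hord : ∀ g : G, g ≠ 1 → orderOf g = p ∨ orderOf g = q := by
      intro g hg
      rcases hall g with ⟨φ, h⟩ | ⟨φ, h⟩ | ⟨φ, h⟩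
      · rw [map_one] at h
        exact absurd h.symm hg
      · left; rw [← h, MulEquiv.orderOf_eq, hap]
      · right; rw [← h, MulEquiv.orderOf_eq, haq]
    have htr : ∀ g h : G, g ≠ 1 → orderOf g = orderOf h → ∃ φ : MulAut G, φ g = h := by
      intro g h hg hgh
      have hh : h ≠ 1 := by
        rintro rfl
        rw [orderOf_one] at hgh
        exact hg (orderOf_eq_one_iff.mp hgh)
      rcases hall g with ⟨φ, h1⟩ | ⟨φ, h1⟩ | ⟨φ, h1⟩
      · rw [map_one] at h1
        exact absurd h1.symm hg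
      · rcases hall h with ⟨ψ, h2⟩ | ⟨ψ, h2⟩ | ⟨ψ, h2⟩
        · rw [map_one] at h2
          exact absurd h2.symm hh
        · refine ⟨ψ * φ⁻¹, ?_⟩
          rw [MulAut.mul_apply, ← h1]
          simpa using h2
        · exfalso
          rw [← h1, ← h2, MulEquiv.orderOf_eq, MulEquiv.orderOf_eq, hap, haq] at hgh
          exact hpq hgh
      · rcases hall h with ⟨ψ, h2⟩ | ⟨ψ, h2⟩ | ⟨ψ, h2⟩
        · rw [map_one] at h2
          exact absurd h2.symm hh
        · exfalso
          rw [← h1, ← h2, MulEquiv.orderOf_eq, MulEquiv.orderOf_eq, hap, haq] at hgh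
          exact hpq hgh.symm
        · refine ⟨ψ * φ⁻¹, ?_⟩
          rw [MulAut.mul_apply, ← h1]
          simpa using h2
    -- solvable
    obtain ⟨α, m, hm, hm2⟩ := Nat.exists_eq_pow_mul_and_not_dvd hcard0 p hp.ne_one
    have hm0 : m ≠ 0 := by
      rintro rfl
      simp at hm2
      exact hcard0 hm2
    have hmq := Nat.eq_prime_pow_of_unique_prime_dvd hm0 (p := q) (fun {d} hd hdv => by
      have hdG : d ∣ Nat.card G := by rw [hm2]; exact dvd_mul_of_dvd_right hdv _
      haveI := Fact.mk hd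
      obtain ⟨g, hg⟩ := exists_prime_orderOf_dvd_card' d hdG
      have hg1 : g ≠ 1 := by
        rintro rfl
        rw [orderOf_one] at hg
        exact hd.one_lt.ne hg
      rcases hord g hg1 with h | h
      · rw [hg] at h
        rw [h] at hdv
        exact absurd hdv hm
      · rw [hg] at h; exact h)
    have hsolv : Group.IsSolvable G := Cfsg.Agent.Lib.BurnsidePQ.isSolvable_of_card_eq p q hp hq
      (Nat.card G) G rfl ⟨α, _, by rw [hm2, ← hmq]⟩
    have hex : ∃ n, derivedSeries G n = ⊥ := hsolv.solvable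
    have hmin : ∀ {m : ℕ}, m < Nat.find hex → ¬ derivedSeries G m = ⊥ := fun h => Nat.find_min hex h
    have hspec := Nat.find_spec hex
    set n0 := Nat.find hex with hn0
    have hn00 : n0 ≠ 0 := by
      intro h
      rw [h, derivedSeries_zero] at hspec
      have h1 : (⊤ : Subgroup G) = ⊥ := hspec
      have h2 := (Subgroup.eq_bot_iff_forall _).mp h1 ap (Subgroup.mem_top _)
      rw [h2, orderOf_one] at hap
      exact hp.one_lt.ne hap
    obtain ⟨n1, hn1⟩ := Nat.exists_eq_succ_of_ne_zero hn00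
    have hAne : derivedSeries G n1 ≠ ⊥ := hmin (by omega)
    have hAcomm : ∀ a b : G, a ∈ derivedSeries G n1 → b ∈ derivedSeries G n1 → a * b = b * a := by
      intro a b ha hb
      have h1 : ⁅derivedSeries G n1, derivedSeries G n1⁆ = ⊥ := by
        rw [← derivedSeries_succ, ← Nat.succ_eq_add_one, ← hn1, hspec]
      have h2 := Subgroup.commutator_mem_commutator ha hb
      rw [h1, Subgroup.mem_bot] at h2
      exact commutatorElement_eq_one_iff_mul_comm.mp h2
    obtain ⟨⟨a, haA⟩, ha1'⟩ := Subgroup.ne_bot_iff_exists_ne_one.mp hAne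
    have ha1 : a ≠ 1 := fun e => ha1' (Subtype.ext e)
    rcases hord a ha1 with h | h
    · exact forward_main hpq (derivedSeries G n1) hAcomm a aq haA h haq hord htr
    · exact forward_main hpq.symm (derivedSeries G n1) hAcomm a ap haA h hap
        (fun g hg => (hord g hg).symm) htr
  · rintro ⟨p, q, n, hp, hq, hpq, hn, hcard, hsyl, hord, hfp⟩
    exact backward_main hpq hn hcard hsyl hord hfp

end Cfsg.Agent.S4081
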