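import Mathlib
import Cfsg.Statements.S4084

set_option autoImplicit false
open Cfsg

namespace Cfsg.Agent.S4084

/-- The double centralizer of an element: a commutative subgroup containing the element. -/
def dc {G : Type*} [Group G] (g : G) : Subgroup G :=
  Subgroup.centralizer (Subgroup.centralizer ({g} : Set G) : Set G)

theorem mem_dc {G : Type*} [Group G] (g w : G) :
    w ∈ dc g ↔ ∀ y : G, Commute y g → Commute y w := by
  unfold dc
  rw [Subgroup.mem_centralizer_iff]
  constructor
  · intro h y hy
    have hy' : y ∈ Subgroup.centralizer ({g} : Set G) := by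
      rw [Subgroup.mem_centralizer_singleton_iff]
      exact hy
    exact h y hy'
  · intro h y hy
    have hy' : Commute y g := by
      rw [SetLike.mem_coe, Subgroup.mem_centralizer_singleton_iff] at hy
      exact hy
    exact h y hy'

theorem self_mem_dc {G : Type*} [Group G] (g : G) : g ∈ dc g := by
  rw [mem_dc]
  exact fun y hy => hy

theorem dc_comm {G : Type*} [Group G] (g a b : G) (ha : a ∈ dc g) (hb : b ∈ dc g) : Commute a b := by
  have hbg : Commute b g := by
    have := (mem_dc g b).mp hb g (Commute.refl g)
    exact this.symm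
  exact ((mem_dc g a).mp ha b hbg).symm

theorem one_way {G H : Type*} [Group G] [Finite G] [Group H] [Finite H] (e : G ≃ H)
    (he : ∀ x y : G, Commute x y ↔ Commute (e x) (e y))
    {p q : ℕ} (hp : p.Prime) (hq : q.Prime) (hpq : p ≠ q) :
    (∃ g : G, orderOf g = p * q) → (∃ h : H, orderOf h = p * q) := by
  rintro ⟨g, hg⟩
  -- e maps dc g onto dc (e g)
  have hmem : ∀ w : G, w ∈ dc g ↔ e w ∈ dc (e g) := by
    intro w
    rw [mem_dc, mem_dc]
    constructor
    · intro h y hy
      have := h (e.symm y) (by
        rw [he]
        simpa using hy)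
      rw [he] at this
      simpa using this
    · intro h y hy
      have := h (e y) ((he _ _).mp hy)
      exact (he _ _).mpr this
  have hcard : Nat.card (dc g) = Nat.card (dc (e g)) := by
    refine Nat.card_congr ?_
    refine Equiv.subtypeEquiv e ?_
    intro w
    exact hmem w
  have hdvd : p * q ∣ Nat.card (dc (e g)) := by
    rw [← hcard, ← hg]
    have h1 := Subgroup.orderOf_dvd_natCard (dc g) (self_mem_dc g)
    exact h1
  have : Fact p.Prime := ⟨hp⟩
  have : Fact q.Prime := ⟨hq⟩
  obtain ⟨a, ha⟩ := exists_prime_orderOf_dvd_card' (G := dc (e g)) p (dvd_trans (dvd_mul_right p q) hdvd)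
  obtain ⟨b, hb⟩ := exists_prime_orderOf_dvd_card' (G := dc (e g)) q (dvd_trans (dvd_mul_left q p) hdvd)
  have hcomm : Commute (a : H) b := dc_comm _ _ _ a.2 b.2
  refine ⟨a * b, ?_⟩
  have hoa : orderOf (a : H) = p := by rw [Subgroup.orderOf_coe, ha]
  have hob : orderOf (b : H) = q := by rw [Subgroup.orderOf_coe, hb]
  rw [hcomm.orderOf_mul_eq_mul_orderOf_of_coprime, hoa, hob]
  rw [hoa, hob]
  exact (Nat.coprime_primes hp hq).mpr hpq

/-- Let G and H be finite groups whose commuting graphs are isomorphic: there is a bijection e : G → H with x, y commuting exactly when e(x), e(y) commute. Then G and H have the same prime graph: for distinct primes p, q, G has an element of order pq if and only if H does (and #G = #H, so the prime divisors agree). -/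
theorem result {G H : Type*} [Group G] [Finite G] [Group H] [Finite H] (e : G ≃ H)
    (he : ∀ x y : G, Commute x y ↔ Commute (e x) (e y))
    {p q : ℕ} (hp : p.Prime) (hq : q.Prime) (hpq : p ≠ q) :
    (∃ g : G, orderOf g = p * q) ↔ (∃ h : H, orderOf h = p * q) := by
  constructor
  · exact one_way e he hp hq hpq
  · refine one_way e.symm ?_ hp hq hpq
    intro x y
    rw [he]
    simp

end Cfsg.Agent.S4084
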