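import Mathlib
import Cfsg.Statements.S4085

set_option autoImplicit false
open Cfsg

namespace Cfsg.Agent.S4085

section Num

theorem arith1 {d m : ℕ} (hd : 1 < d) (hdm : d ∣ m) (hne : d ≠ m) (hm : ¬ IsPrimePow m) (m0 : m ≠ 0) :
    ∃ d', d' ∣ m ∧ ¬ d' ∣ d ∧ ¬ d ∣ d' := by
  have hd0 : d ≠ 0 := by omega
  have hex : ∃ r, r.Prime ∧ d.factorization r < m.factorization r := by
    by_contra hcon
    push_neg at hcon
    have h1 : m.factorization ≤ d.factorization := by
      intro r
      by_cases hr : r.Prime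
      · exact hcon r hr
      · simp [Nat.factorization_eq_zero_of_not_prime _ hr]
    have h2 : m ∣ d := (Nat.factorization_le_iff_dvd m0 hd0).mp h1
    exact hne (Nat.dvd_antisymm hdm h2)
  obtain ⟨r, hr, hlt⟩ := hex
  have hrm : r ∣ m := by
    apply Nat.dvd_of_factorization_pos
    omega
  by_cases hpow : ∃ k, d = r ^ k
  · obtain ⟨k, rfl⟩ := hpow
    have hs : ∃ s, s.Prime ∧ s ∣ m ∧ s ≠ r := by
      by_contra hcon
      push_neg at hcon
      apply hm
      rw [isPrimePow_iff_unique_prime_dvd]
      refine ⟨r, ⟨hr, hrm⟩, ?_⟩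
      rintro s ⟨hs1, hs2⟩
      exact hcon s hs1 hs2
    obtain ⟨s, hs1, hs2, hs3⟩ := hs
    refine ⟨s, hs2, ?_, ?_⟩
    · intro h
      exact hs3 ((Nat.prime_dvd_prime_iff_eq hs1 hr).mp (hs1.dvd_of_dvd_pow h))
    · intro h
      have hk : k ≠ 0 := by
        rintro rfl
        simp at hd
      have h2 : r ∣ s := (dvd_pow_self r hk).trans h
      exact hs3 ((Nat.prime_dvd_prime_iff_eq hr hs1).mp h2).symm
  · refine ⟨r ^ m.factorization r, Nat.ordProj_dvd m r, ?_, ?_⟩
    · intro h
      have := (hr.pow_dvd_iff_le_factorization hd0).mp h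
      omega
    · intro h
      obtain ⟨k, _, hk⟩ := (Nat.dvd_prime_pow hr).mp h
      exact hpow ⟨k, hk⟩

theorem num1 {d n : ℕ} (hd : d ∣ n) (hne : d ≠ n) (n0 : n ≠ 0) (h : Nat.totient d = Nat.totient n) :
    n = 2 * d ∧ Odd d := by
  obtain ⟨k, rfl⟩ := hd
  have hd0 : d ≠ 0 := by
    rintro rfl
    simp at n0
  have hk0 : k ≠ 0 := by
    rintro rfl
    simp at n0
  have hd1 : 0 < Nat.totient d := Nat.totient_pos.mpr (Nat.pos_of_ne_zero hd0)
  have hk1 : 0 < Nat.totient k := Nat.totient_pos.mpr (Nat.pos_of_ne_zero hk0)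
  have h1 := Nat.totient_gcd_mul_totient_mul d k
  rw [← h] at h1
  set g := d.gcd k with hg
  have hg0 : 0 < g := Nat.gcd_pos_of_pos_left _ (Nat.pos_of_ne_zero hd0)
  have h2 : Nat.totient g = Nat.totient k * g := by
    have h3 : Nat.totient g * Nat.totient d = (Nat.totient k * g) * Nat.totient d := by
      rw [h1]; ring
    exact Nat.eq_of_mul_eq_mul_right hd1 h3
  have h3 : Nat.totient g ≤ g := Nat.totient_le g
  have hk2 : Nat.totient k = 1 := by
    by_contra hne1
    have : 2 ≤ Nat.totient k := by omega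
    have : 2 * g ≤ Nat.totient k * g := Nat.mul_le_mul_right _ this
    omega
  have hg1 : g = 1 := by
    by_contra hne1
    have h4 : Nat.totient g < g := Nat.totient_lt g (by omega)
    rw [h2, hk2, one_mul] at h4
    omega
  have hk3 : k = 1 ∨ k = 2 := Nat.totient_eq_one_iff.mp hk2
  rcases hk3 with rfl | rfl
  · simp at hne
  · refine ⟨by ring, ?_⟩
    have h5 : Nat.Coprime d 2 := hg1
    exact Nat.Coprime.odd_of_right h5

end Num

universe u v

section Graph

variable {G : Type u} [Group G]

/-- Adjacency (or equality) in the power graph. -/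
def Adj (x y : G) : Prop := x ∈ Subgroup.zpowers y ∨ y ∈ Subgroup.zpowers x

/-- Closed twins. -/
def Twin (x y : G) : Prop := ∀ z, Adj x z ↔ Adj y z

/-- Dominating vertices. -/
def Dom (x : G) : Prop := ∀ z, Adj x z

/-- The size of the twin class. -/
noncomputable def cc (x : G) : ℕ := Nat.card {y : G // Twin x y}

theorem Adj.refl (x : G) : Adj x x := Or.inl (Subgroup.mem_zpowers x)

theorem Adj.symm {x y : G} (h : Adj x y) : Adj y x := Or.symm h

theorem Twin.refl (x : G) : Twin x x := fun _ => Iff.rfl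

theorem Twin.symm {x y : G} (h : Twin x y) : Twin y x := fun z => (h z).symm

theorem Twin.adj {x y : G} (h : Twin x y) : Adj x y := (h y).mpr (Adj.refl y)

theorem Twin.dom {x y : G} (h : Twin x y) (hx : Dom x) : Dom y := fun z => (h z).mp (hx z)

theorem dom_one : Dom (1 : G) := fun z => Or.inl (Subgroup.one_mem _)

theorem ne_one_of_not_dom {x : G} (h : ¬ Dom x) : x ≠ 1 := by
  rintro rfl
  exact h dom_one

theorem twin_of_zpowers_eq {x y : G} (h : Subgroup.zpowers x = Subgroup.zpowers y) : Twin x y := by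
  intro z
  unfold Adj
  rw [h, ← Subgroup.zpowers_le, h, Subgroup.zpowers_le]

theorem zpowers_eq_of_mem_of_orderOf [Finite G] {x y : G} (h : x ∈ Subgroup.zpowers y) (ho : orderOf x = orderOf y) :
    Subgroup.zpowers x = Subgroup.zpowers y := by
  apply Subgroup.eq_of_le_of_card_ge (Subgroup.zpowers_le.mpr h)
  rw [Nat.card_zpowers, Nat.card_zpowers, ho]

theorem orderOf_dvd_of_mem {x y : G} (h : x ∈ Subgroup.zpowers y) : orderOf x ∣ orderOf y :=
  orderOf_dvd_of_mem_zpowers h

end Graph

section Cyclic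

variable {G : Type u} [Group G] [Finite G]

/-- Elements of the same order in a cyclic group generate the same subgroup. -/
theorem zpowers_eq_of_orderOf_eq_aux {C : Type*} [Group C] [Finite C] [IsCyclic C] {x y : C}
    (h : orderOf x = orderOf y) : x ∈ Subgroup.zpowers y := by
  classical
  letI := Fintype.ofFinite C
  set n := orderOf y with hn
  have hnpos : 0 < n := orderOf_pos y
  have hle := IsCyclic.card_pow_eq_one_le (α := C) hnpos
  set F : Finset C := Finset.univ.filter (fun g => g ^ n = 1) with hF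
  set Z : Finset C := Finset.univ.filter (fun g => g ∈ Subgroup.zpowers y) with hZ
  have hZF : Z ⊆ F := by
    intro g hg
    rw [hZ, Finset.mem_filter] at hg
    rw [hF, Finset.mem_filter]
    refine ⟨Finset.mem_univ _, ?_⟩
    obtain ⟨k, rfl⟩ := Subgroup.mem_zpowers_iff.mp hg.2
    rw [← zpow_natCast, ← zpow_mul, mul_comm, zpow_mul, zpow_natCast, hn, pow_orderOf_eq_one,
      one_zpow]
  have hZc : Z.card = n := by
    have h1 : Nat.card (Subgroup.zpowers y) = n := Nat.card_zpowers y
    rw [Nat.card_eq_fintype_card, Fintype.card_subtype] at h1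
    exact h1
  have heq : Z = F := Finset.eq_of_subset_of_card_le hZF (by rw [hZc]; exact hle)
  have haF : x ∈ F := by
    rw [hF, Finset.mem_filter]
    refine ⟨Finset.mem_univ _, ?_⟩
    rw [← h]
    exact pow_orderOf_eq_one x
  rw [← heq, hZ, Finset.mem_filter] at haF
  exact haF.2

/-- In a cyclic group, divisibility of orders gives containment. -/
theorem mem_zpowers_of_dvd {x z y : G} (hx : x ∈ Subgroup.zpowers y) (hz : z ∈ Subgroup.zpowers y)
    (h : orderOf x ∣ orderOf z) : x ∈ Subgroup.zpowers z := by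
  let x₁ : Subgroup.zpowers y := ⟨x, hx⟩
  let z₁ : Subgroup.zpowers y := ⟨z, hz⟩
  have h1 : orderOf z₁ ≠ 0 := (orderOf_pos z₁).ne'
  have hx₁ : orderOf x₁ = orderOf x := Subgroup.orderOf_mk _ _
  have hz₁ : orderOf z₁ = orderOf z := Subgroup.orderOf_mk _ _
  have h2 : orderOf (z₁ ^ (orderOf z₁ / orderOf x₁)) = orderOf x₁ :=
    orderOf_pow_orderOf_div h1 (by rw [hx₁, hz₁]; exact h)
  have h3 := zpowers_eq_of_orderOf_eq_aux h2.symm
  obtain ⟨k, hk⟩ := Subgroup.mem_zpowers_iff.mp h3
  have h4 : z ^ ((orderOf z₁ / orderOf x₁) : ℕ) ∈ Subgroup.zpowers z := Subgroup.pow_mem _ (Subgroup.mem_zpowers z) _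
  have h5 := congrArg Subtype.val hk
  simp only [SubgroupClass.coe_zpow, SubgroupClass.coe_pow] at h5
  have h6 : (z₁ : G) = z := rfl
  have h7 : (x₁ : G) = x := rfl
  rw [h6, h7] at h5
  rw [← h5]
  exact Subgroup.zpow_mem _ h4 k

/-- An element of a given order dividing. -/
theorem exists_pow_of_dvd (y : G) {d : ℕ} (hd : d ∣ orderOf y) :
    orderOf (y ^ (orderOf y / d)) = d :=
  orderOf_pow_orderOf_div (orderOf_pos y).ne' hd

theorem pow_mem_zpowers (y : G) (k : ℕ) : y ^ k ∈ Subgroup.zpowers y :=
  Subgroup.pow_mem _ (Subgroup.mem_zpowers y) k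

theorem adj_of_dvd {x z y : G} (hx : x ∈ Subgroup.zpowers y) (hz : z ∈ Subgroup.zpowers y)
    (h : orderOf x ∣ orderOf z) : Adj x z := Or.inl (mem_zpowers_of_dvd hx hz h)

theorem dvd_of_adj {x z : G} (h : Adj x z) : orderOf x ∣ orderOf z ∨ orderOf z ∣ orderOf x :=
  h.imp orderOf_dvd_of_mem orderOf_dvd_of_mem

/-- The twin structure. -/
theorem twin_prime_pow {x y : G} (ht : Twin x y) (hd : ¬ Dom x) (hxy : x ∈ Subgroup.zpowers y)
    (hne : Subgroup.zpowers x ≠ Subgroup.zpowers y) : IsPrimePow (orderOf y) := by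
  by_contra hm
  have hx1 : x ≠ 1 := ne_one_of_not_dom hd
  have h1 : 1 < orderOf x := by
    have h2 : orderOf x ≠ 1 := fun h => hx1 (orderOf_eq_one_iff.mp h)
    have := orderOf_pos x
    omega
  have h2 : orderOf x ≠ orderOf y := fun h => hne (zpowers_eq_of_mem_of_orderOf hxy h)
  obtain ⟨d', hd1, hd2, hd3⟩ := arith1 h1 (orderOf_dvd_of_mem hxy) h2 hm (orderOf_pos y).ne'
  have h3 : Adj y (y ^ (orderOf y / d')) := Or.inr (pow_mem_zpowers y _)
  have h4 := (ht _).mpr h3
  have h5 := exists_pow_of_dvd y hd1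
  rcases dvd_of_adj h4 with h | h
  · rw [h5] at h
    exact hd3 h
  · rw [h5] at h
    exact hd2 h

theorem isPrimePow_of_dvd {a b : ℕ} (h : IsPrimePow b) (hab : a ∣ b) (ha : a ≠ 1) : IsPrimePow a :=
  h.dvd hab ha

/-- Twins of an element of non-prime-power order generate the same subgroup. -/
theorem twin_gen {g y : G} (hg : ¬ IsPrimePow (orderOf g)) (hd : ¬ Dom g) (ht : Twin g y) :
    Subgroup.zpowers y = Subgroup.zpowers g := by
  have hg1 : orderOf g ≠ 1 := fun h => ne_one_of_not_dom hd (orderOf_eq_one_iff.mp h)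
  by_contra hne
  rcases ht.adj with h | h
  · have := twin_prime_pow ht hd h (fun h' => hne h'.symm)
    exact hg (this.dvd (orderOf_dvd_of_mem h) hg1)
  · exact hg (twin_prime_pow ht.symm (fun h' => hd (ht.symm.dom h')) h hne)

theorem not_dom_of_mem {g u : G} (hg : ¬ IsPrimePow (orderOf g)) (hd : ¬ Dom g) (hu : u ∈ Subgroup.zpowers g)
    (hu1 : u ≠ 1) : ¬ Dom u := by
  intro hdu
  by_cases heq : Subgroup.zpowers u = Subgroup.zpowers g
  · exact hd ((twin_of_zpowers_eq heq).dom hdu)
  have h1 : 1 < orderOf u := by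
    have h2 : orderOf u ≠ 1 := fun h => hu1 (orderOf_eq_one_iff.mp h)
    have := orderOf_pos u
    omega
  have h2 : orderOf u ≠ orderOf g := fun h => heq (zpowers_eq_of_mem_of_orderOf hu h)
  obtain ⟨d', hd1, hd2, hd3⟩ := arith1 h1 (orderOf_dvd_of_mem hu) h2 hg (orderOf_pos g).ne'
  have h5 := exists_pow_of_dvd g hd1
  rcases dvd_of_adj (hdu (g ^ (orderOf g / d'))) with h | h
  · rw [h5] at h
    exact hd3 h
  · rw [h5] at h
    exact hd2 h

/-- Key arithmetic of a twin pair below an element with a further prime. -/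
theorem twin_pair_false {s b v : G} {r t a q' : ℕ} (hr : r.Prime) (hq' : q'.Prime) (hqr : q' ≠ r)
    (ht : Twin s b) (hsv : s ∈ Subgroup.zpowers v) (hb : orderOf b = r ^ t) (hs : orderOf s = r ^ a) (hat : a < t)
    (hdv : r ^ a * q' ∣ orderOf v) : False := by
  have h5 := exists_pow_of_dvd v hdv
  have h6 : Adj s (v ^ (orderOf v / (r ^ a * q'))) :=
    adj_of_dvd hsv (pow_mem_zpowers v _) (by rw [h5, hs]; exact Dvd.intro _ rfl)
  rcases dvd_of_adj ((ht _).mp h6) with h | h
  · rw [h5, hb] at h
    have h7 : r ^ t ∣ r ^ a := by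
      have hcop : Nat.Coprime (r ^ t) q' := Nat.Coprime.pow_left _
        ((Nat.coprime_primes hr hq').mpr hqr.symm)
      exact hcop.dvd_of_dvd_mul_right h
    have := (Nat.pow_dvd_pow_iff_le_right hr.one_lt).mp h7
    omega
  · rw [h5, hb] at h
    have h7 : q' ∣ r ^ t := (Dvd.intro_left _ rfl).trans h
    exact hqr ((Nat.prime_dvd_prime_iff_eq hq' hr).mp (hq'.dvd_of_dvd_pow h7))

/-- From `s ∈ ⟨b⟩` twins, with `s ≠ 1`: the orders are powers of a common prime. -/
theorem twin_pair_orders {s b : G} (ht : Twin s b) (hd : ¬ Dom s) (hsb : s ∈ Subgroup.zpowers b)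
    (hne : Subgroup.zpowers s ≠ Subgroup.zpowers b) :
    ∃ r t a : ℕ, r.Prime ∧ orderOf b = r ^ t ∧ orderOf s = r ^ a ∧ a < t ∧ 0 < a := by
  have h1 := twin_prime_pow ht hd hsb hne
  obtain ⟨r, t, hr, ht0, hrt⟩ := (isPrimePow_nat_iff _).mp h1
  have h2 : orderOf s ∣ r ^ t := by
    rw [hrt]
    exact orderOf_dvd_of_mem hsb
  obtain ⟨a, ha, hsa⟩ := (Nat.dvd_prime_pow hr).mp h2
  refine ⟨r, t, a, hr, hrt.symm, hsa, ?_, ?_⟩
  · apply lt_of_le_of_ne ha
    rintro rfl
    exact hne (zpowers_eq_of_mem_of_orderOf hsb (by rw [hsa, hrt]))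
  · apply Nat.pos_of_ne_zero
    rintro rfl
    rw [pow_zero] at hsa
    exact ne_one_of_not_dom hd (orderOf_eq_one_iff.mp hsa)

/-- Below an element of non-prime-power order, twins generate the same subgroup. -/
theorem twin_below {g u y : G} (hg : ¬ IsPrimePow (orderOf g)) (hd : ¬ Dom g)
    (hu : u ∈ Subgroup.zpowers g) (hu1 : u ≠ 1) (hne : Subgroup.zpowers u ≠ Subgroup.zpowers g)
    (ht : Twin u y) : Subgroup.zpowers y = Subgroup.zpowers u := by
  have hg1 : orderOf g ≠ 1 := fun h => ne_one_of_not_dom hd (orderOf_eq_one_iff.mp h)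
  have hud : ¬ Dom u := not_dom_of_mem hg hd hu hu1
  have hyd : ¬ Dom y := fun h => hud (ht.symm.dom h)
  have hyg : y ∈ Subgroup.zpowers g := by
    have h1 : Adj u g := Or.inl hu
    rcases (ht g).mp h1 with h | h
    · exact h
    · exfalso
      have h2 : Subgroup.zpowers g ≤ Subgroup.zpowers y := Subgroup.zpowers_le.mpr h
      by_cases h3 : Subgroup.zpowers u = Subgroup.zpowers y
      · apply hne
        apply le_antisymm (Subgroup.zpowers_le.mpr hu)
        rw [h3]
        exact h2
      · have h4 := twin_prime_pow ht hud (h2 hu) h3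
        exact hg (h4.dvd (orderOf_dvd_of_mem h) hg1)
  have key : ∀ s b : G, Twin s b → ¬ Dom s → s ∈ Subgroup.zpowers b → b ∈ Subgroup.zpowers g →
      Subgroup.zpowers s ≠ Subgroup.zpowers b → False := by
    intro s b hsb hds hmem hbg hne'
    obtain ⟨r, t, a, hr, hb, hs, hat, ha0⟩ := twin_pair_orders hsb hds hmem hne'
    have hrg : r ∣ orderOf g := by
      have h1 : r ^ t ∣ orderOf g := by
        rw [← hb]
        exact orderOf_dvd_of_mem hbg
      exact (dvd_pow_self r (by omega)).trans h1
    have hex : ∃ q', q'.Prime ∧ q' ∣ orderOf g ∧ q' ≠ r := by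
      by_contra hcon
      push_neg at hcon
      apply hg
      rw [isPrimePow_iff_unique_prime_dvd]
      refine ⟨r, ⟨hr, hrg⟩, ?_⟩
      rintro s' ⟨hs1, hs2⟩
      exact hcon s' hs1 hs2
    obtain ⟨q', hq1, hq2, hq3⟩ := hex
    have hdv : r ^ a * q' ∣ orderOf g := by
      apply Nat.Coprime.mul_dvd_of_dvd_of_dvd
      · exact Nat.Coprime.pow_left _ ((Nat.coprime_primes hr hq1).mpr hq3.symm)
      · rw [← hs]
        exact orderOf_dvd_of_mem (Subgroup.zpowers_le.mpr hbg hmem)
      · exact hq2
    exact twin_pair_false hr hq1 hq3 hsb (Subgroup.zpowers_le.mpr hbg hmem) hb hs hat hdv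
  by_contra hne'
  rcases ht.adj with h | h
  · exact key u y ht hud h hyg (fun h' => hne' h'.symm)
  · exact key y u ht.symm hyd h hu hne'

end Cyclic

section Card

variable {G : Type u} [Group G] [Finite G]

theorem card_gen (g : G) : Nat.card {y : G // Subgroup.zpowers y = Subgroup.zpowers g} = Nat.totient (orderOf g) := by
  classical
  haveI : Fintype (Subgroup.zpowers g) := Fintype.ofFinite _
  have h1 := IsCyclic.card_orderOf_eq_totient (α := Subgroup.zpowers g) (d := orderOf g)
    (by rw [← Nat.card_eq_fintype_card, Nat.card_zpowers])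
  rw [← h1, ← Nat.card_eq_finsetCard]
  apply Nat.card_congr
  refine ⟨fun y => ⟨⟨y.1, ?_⟩, ?_⟩, fun a => ⟨a.1.1, ?_⟩, ?_, ?_⟩
  · have h2 : y.1 ∈ Subgroup.zpowers y.1 := Subgroup.mem_zpowers _
    rwa [y.2] at h2
  · simp only [Finset.mem_filter, Finset.mem_univ, true_and]
    rw [Subgroup.orderOf_mk, ← Nat.card_zpowers, ← Nat.card_zpowers, y.2]
  · have h2 : orderOf (a.1 : G) = orderOf g := by
      have h3 := (Finset.mem_filter.mp a.2).2
      rwa [Subgroup.orderOf_coe]
    exact zpowers_eq_of_mem_of_orderOf a.1.2 h2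
  · intro y
    rfl
  · intro a
    rfl

theorem totient_le_cc (x : G) : Nat.totient (orderOf x) ≤ cc x := by
  rw [← card_gen x]
  apply Nat.card_le_card_of_injective (fun y : {y : G // Subgroup.zpowers y = Subgroup.zpowers x} =>
    (⟨y.1, twin_of_zpowers_eq y.2.symm⟩ : {y : G // Twin x y}))
  intro a b h
  apply Subtype.ext
  exact congrArg (fun t : {y : G // Twin x y} => t.1) h

theorem cc_eq_of_gen {x : G} (h : ∀ y, Twin x y → Subgroup.zpowers y = Subgroup.zpowers x) :
    cc x = Nat.totient (orderOf x) := by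
  rw [← card_gen x]
  apply Nat.card_congr
  apply Equiv.subtypeEquivRight
  intro y
  exact ⟨h y, fun h' => twin_of_zpowers_eq h'.symm⟩

theorem totient_le_of_dvd {a b : ℕ} (hb : b ≠ 0) (h : a ∣ b) : Nat.totient a ≤ Nat.totient b :=
  Nat.le_of_dvd (Nat.totient_pos.mpr (Nat.pos_of_ne_zero hb)) (Nat.totient_dvd_of_dvd h)

/-- Twin classes grow upward: the case of a non-generator twin. -/
theorem cc_lt {w v : G} (hwv : w ∈ Subgroup.zpowers v) (hnt : ¬ Twin w v) (hd : ¬ Dom w)
    (hex : ∃ y, Twin w y ∧ Subgroup.zpowers y ≠ Subgroup.zpowers w) : cc w < cc v := by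
  classical
  haveI : Nonempty {y : G // Twin w y} := ⟨⟨w, Twin.refl w⟩⟩
  obtain ⟨top, htop⟩ := Finite.exists_max (fun y : {y : G // Twin w y} => orderOf y.1)
  have htw : Twin w top.1 := top.2
  have hall : ∀ y, Twin w y → y ∈ Subgroup.zpowers top.1 := by
    intro y hy
    have h1 : Twin y top.1 := fun z => (hy z).symm.trans (htw z)
    rcases h1.adj with h | h
    · exact h
    · have h2 := htop ⟨y, hy⟩
      have h3 := orderOf_dvd_of_mem h
      have h4 : orderOf top.1 = orderOf y := le_antisymm (Nat.le_of_dvd (orderOf_pos _) h3) h2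
      rw [zpowers_eq_of_mem_of_orderOf h h4]
      exact Subgroup.mem_zpowers _
  obtain ⟨y, hy, hyne⟩ := hex
  have pair : ∃ s b, Twin w s ∧ Twin w b ∧ s ∈ Subgroup.zpowers b ∧ Subgroup.zpowers s ≠ Subgroup.zpowers b := by
    rcases hy.adj with h | h
    · exact ⟨w, y, Twin.refl w, hy, h, fun h' => hyne h'.symm⟩
    · exact ⟨y, w, hy, Twin.refl w, h, hyne⟩
  obtain ⟨s, b, hws, hwb, hsb, hne⟩ := pair
  have hstop : s ∈ Subgroup.zpowers top.1 := hall s hws
  have hbtop : b ∈ Subgroup.zpowers top.1 := hall b hwb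
  have hstn : Subgroup.zpowers s ≠ Subgroup.zpowers top.1 := by
    intro h
    apply hne
    apply le_antisymm (Subgroup.zpowers_le.mpr hsb)
    rw [h]
    exact Subgroup.zpowers_le.mpr hbtop
  have hds : ¬ Dom s := fun h => hd (hws.symm.dom h)
  have hst : Twin s top.1 := fun z => (hws z).symm.trans (htw z)
  obtain ⟨r, t, a, hr, htopo, hso, hat, ha0⟩ := twin_pair_orders hst hds hstop hstn
  have chain : ∀ x z, x ∈ Subgroup.zpowers top.1 → z ∈ Subgroup.zpowers top.1 → Adj x z := by
    intro x z hx hz
    have h1 : orderOf x ∣ r ^ t := by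
      rw [← htopo]
      exact orderOf_dvd_of_mem hx
    have h2 : orderOf z ∣ r ^ t := by
      rw [← htopo]
      exact orderOf_dvd_of_mem hz
    obtain ⟨i, _, hi⟩ := (Nat.dvd_prime_pow hr).mp h1
    obtain ⟨j, _, hj⟩ := (Nat.dvd_prime_pow hr).mp h2
    rcases le_total i j with h | h
    · exact adj_of_dvd hx hz (by rw [hi, hj]; exact pow_dvd_pow r h)
    · exact (adj_of_dvd hz hx (by rw [hi, hj]; exact pow_dvd_pow r h)).symm
  have hv : v ∉ Subgroup.zpowers top.1 := by
    intro hv
    apply hnt
    intro z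
    constructor
    · intro h
      rcases (htw z).mp h with h1 | h1
      · exact Or.inl (Subgroup.zpowers_le.mpr h1 hv)
      · exact chain v z hv h1
    · intro h
      rcases h with h1 | h1
      · exact Or.inl (Subgroup.zpowers_le.mpr h1 hwv)
      · exact (htw z).mpr (Or.inr (Subgroup.zpowers_le.mpr hv h1))
  have htv : top.1 ∈ Subgroup.zpowers v := by
    rcases (htw v).mp (Or.inl hwv) with h | h
    · exact h
    · exact absurd h hv
  have hsv : s ∈ Subgroup.zpowers v := Subgroup.zpowers_le.mpr htv hstop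
  have hvpow : ∀ {q' : ℕ}, q'.Prime → q' ∣ orderOf v → q' = r := by
    intro q' hq1 hq2
    by_contra hq3
    have hdv : r ^ a * q' ∣ orderOf v := by
      apply Nat.Coprime.mul_dvd_of_dvd_of_dvd
      · exact Nat.Coprime.pow_left _ ((Nat.coprime_primes hr hq1).mpr (Ne.symm hq3))
      · rw [← hso]
        exact orderOf_dvd_of_mem hsv
      · exact hq2
    exact twin_pair_false hr hq1 hq3 hst hsv htopo hso hat hdv
  obtain ⟨t', ht'⟩ : ∃ t', orderOf v = r ^ t' :=
    ⟨_, Nat.eq_prime_pow_of_unique_prime_dvd (orderOf_pos v).ne' hvpow⟩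
  have htt' : t < t' := by
    have h1 : r ^ t ∣ r ^ t' := by
      rw [← htopo, ← ht']
      exact orderOf_dvd_of_mem htv
    have h2 := (Nat.pow_dvd_pow_iff_le_right hr.one_lt).mp h1
    apply lt_of_le_of_ne h2
    rintro rfl
    apply hv
    have h3 := zpowers_eq_of_mem_of_orderOf htv (by rw [htopo, ht'])
    rw [h3]
    exact Subgroup.mem_zpowers _
  have hcw : cc w < r ^ t := by
    rw [← htopo, ← Nat.card_zpowers]
    letI := Fintype.ofFinite {y : G // Twin w y}
    letI := Fintype.ofFinite (Subgroup.zpowers top.1)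
    unfold cc
    rw [Nat.card_eq_fintype_card, Nat.card_eq_fintype_card]
    apply Fintype.card_lt_of_injective_not_surjective
      (fun y : {y : G // Twin w y} => (⟨y.1, hall y.1 y.2⟩ : Subgroup.zpowers top.1))
    · intro a' b' h
      apply Subtype.ext
      exact congrArg (fun t : Subgroup.zpowers top.1 => (t : G)) h
    · intro hs
      obtain ⟨x, hx⟩ := hs 1
      have h1 : x.1 = 1 := congrArg (fun t : Subgroup.zpowers top.1 => (t : G)) hx
      exact hd (x.2.symm.dom (by rw [h1]; exact dom_one))
  have htot : r ^ t ≤ Nat.totient (orderOf v) := by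
    rw [ht']
    obtain ⟨t'', rfl⟩ : ∃ t'', t' = t'' + 1 := ⟨t' - 1, by omega⟩
    rw [Nat.totient_prime_pow_succ hr]
    have h1 : r ^ t ≤ r ^ t'' := Nat.pow_le_pow_right hr.pos (by omega)
    have h2 : 1 ≤ r - 1 := by
      have := hr.two_le
      omega
    calc r ^ t ≤ r ^ t'' * 1 := by rw [mul_one]; exact h1
      _ ≤ r ^ t'' * (r - 1) := Nat.mul_le_mul_left _ h2
  exact lt_of_lt_of_le hcw (htot.trans (totient_le_cc v))

end Card

section Main

variable {G : Type u} [Group G] [Finite G] {H : Type v} [Group H] [Finite H]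

theorem twin_map (e : G ≃ H) (he : ∀ x y, Adj x y ↔ Adj (e x) (e y)) {x y : G} :
    Twin x y ↔ Twin (e x) (e y) := by
  constructor
  · intro h z
    obtain ⟨z, rfl⟩ := e.surjective z
    rw [← he, ← he]
    exact h z
  · intro h z
    rw [he, he]
    exact h (e z)

theorem dom_map (e : G ≃ H) (he : ∀ x y, Adj x y ↔ Adj (e x) (e y)) {x : G} :
    Dom x ↔ Dom (e x) := by
  constructor
  · intro h z
    obtain ⟨z, rfl⟩ := e.surjective z
    rw [← he]
    exact h z
  · intro h z
    rw [he]
    exact h (e z)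

theorem cc_map (e : G ≃ H) (he : ∀ x y, Adj x y ↔ Adj (e x) (e y)) (x : G) :
    cc (e x) = cc x := by
  symm
  apply Nat.card_congr
  exact Equiv.subtypeEquiv e (fun y => twin_map e he)

theorem exists_order_of_dvd {n : ℕ} {h : H} (hn : n ∣ orderOf h) : ∃ h' : H, orderOf h' = n :=
  ⟨_, exists_pow_of_dvd h hn⟩

theorem core (e : G ≃ H) (he : ∀ x y, Adj x y ↔ Adj (e x) (e y)) {p q : ℕ} (hp : p.Prime) (hq : q.Prime)
    (hpq : p ≠ q) (hex : ∃ g : G, orderOf g = p * q) : ∃ h : H, orderOf h = p * q := by
  classical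
  obtain ⟨g₀, hg₀⟩ := hex
  haveI : Nonempty {g : G // p * q ∣ orderOf g} := ⟨⟨g₀, by rw [hg₀]⟩⟩
  obtain ⟨g₁, hg₁⟩ := Finite.exists_max (fun y : {g : G // p * q ∣ orderOf g} => orderOf y.1)
  set g : G := g₁.1 with hgdef
  have hpqg : p * q ∣ orderOf g := g₁.2
  have hmax : ∀ z, p * q ∣ orderOf z → orderOf z ≤ orderOf g := fun z hz => hg₁ ⟨z, hz⟩
  have hcop : Nat.Coprime p q := (Nat.coprime_primes hp hq).mpr hpq
  have hN : ∀ z, Adj g z → z ∈ Subgroup.zpowers g := by
    intro z hz
    rcases hz with h | h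
    · have h2 := orderOf_dvd_of_mem h
      have h3 := hmax z (hpqg.trans h2)
      have h4 : orderOf g = orderOf z := le_antisymm (Nat.le_of_dvd (orderOf_pos _) h2) h3
      rw [zpowers_eq_of_mem_of_orderOf h h4]
      exact Subgroup.mem_zpowers _
    · exact h
  have hpg : p ∣ orderOf g := (Dvd.intro _ rfl).trans hpqg
  have hqg : q ∣ orderOf g := (Dvd.intro_left _ rfl).trans hpqg
  have hnpp : ¬ IsPrimePow (orderOf g) := by
    intro h
    obtain ⟨r, ⟨_, _⟩, hr⟩ := isPrimePow_iff_unique_prime_dvd.mp h
    exact hpq ((hr p ⟨hp, hpg⟩).trans (hr q ⟨hq, hqg⟩).symm)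
  by_cases hdg : Dom g
  · -- a non-identity dominating element of `H`
    have hg1 : g ≠ 1 := by
      intro h
      rw [h, orderOf_one] at hpg
      exact hp.one_lt.ne' (Nat.dvd_one.mp hpg)
    have hdo : Dom (e g) := (dom_map e he).mp hdg
    have hd1 : Dom (e 1) := (dom_map e he).mp dom_one
    obtain ⟨v, hv1, hdv⟩ : ∃ v : H, v ≠ 1 ∧ Dom v := by
      by_cases h : e g = 1
      · refine ⟨e 1, ?_, hd1⟩
        intro h2
        exact hg1 (e.injective (h.trans h2.symm))
      · exact ⟨e g, h, hdo⟩
    have hcard : Nat.card G = Nat.card H := Nat.card_congr e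
    have hall : ∀ r : ℕ, r.Prime → r ∣ orderOf g → r ∣ orderOf v := by
      intro r hr hrg
      haveI := Fact.mk hr
      have h1 : r ∣ Nat.card H := by
        rw [← hcard]
        exact hrg.trans (orderOf_dvd_natCard g)
      obtain ⟨z, hz⟩ := exists_prime_orderOf_dvd_card' r h1
      rcases hdv z with h | h
      · have h2 := orderOf_dvd_of_mem h
        rw [hz] at h2
        have h3 : orderOf v ≠ 1 := fun h' => hv1 (orderOf_eq_one_iff.mp h')
        rcases (Nat.dvd_prime hr).mp h2 with h4 | h4
        · exact absurd h4 h3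
        · rw [h4]
      · rw [← hz]
        exact orderOf_dvd_of_mem h
    have h1 : p * q ∣ orderOf v :=
      hcop.mul_dvd_of_dvd_of_dvd (hall p hp hpg) (hall q hq hqg)
    exact exists_order_of_dvd h1
  -- the generic case
  set g' := e g with hg'
  have hdg' : ¬ Dom g' := fun h => hdg ((dom_map e he).mpr h)
  have hccg : cc g = Nat.totient (orderOf g) :=
    cc_eq_of_gen (fun y hy => twin_gen hnpp hdg hy)
  have hng : ∀ x, x ∈ Subgroup.zpowers g → x ≠ 1 → Subgroup.zpowers x ≠ Subgroup.zpowers g →
      cc x = Nat.totient (orderOf x) ∧ ¬ Twin g x ∧ ¬ Dom x := by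
    intro x hx hx1 hxn
    refine ⟨cc_eq_of_gen (fun y hy => twin_below hnpp hdg hx hx1 hxn hy), ?_, not_dom_of_mem hnpp hdg hx hx1⟩
    intro h
    exact hxn (twin_gen hnpp hdg h)
  have hnon : ∀ u' : H, g' ∈ Subgroup.zpowers u' → u' ∈ Subgroup.zpowers g' := by
    intro u' hu'
    by_contra hnot
    obtain ⟨u, rfl⟩ := e.surjective u'
    have hug : u ∈ Subgroup.zpowers g := hN u ((he _ _).mpr (Or.inl hu'))
    have hne' : Subgroup.zpowers g' ≠ Subgroup.zpowers (e u) := by
      intro h
      apply hnot
      rw [h]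
      exact Subgroup.mem_zpowers _
    have hu1 : u ≠ 1 := by
      rintro rfl
      -- the identity of `H`
      obtain ⟨i, hi⟩ := e.surjective (1 : H)
      have hig : i ∈ Subgroup.zpowers g := hN i ((he _ _).mpr (by rw [hi]; exact Or.inr (Subgroup.one_mem _)))
      have hdi : Dom i := (dom_map e he).mpr (by rw [hi]; exact dom_one)
      have hi1 : i = 1 := by
        by_contra h
        exact not_dom_of_mem hnpp hdg hig h hdi
      rw [hi1] at hi
      rw [hi, Subgroup.zpowers_one_eq_bot, Subgroup.mem_bot] at hu'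
      apply hdg'
      rw [hu']
      exact dom_one
    have hgu_nt : ∀ x, Twin g' (e x) → Twin g x := fun x hx => (twin_map e he).mpr hx
    by_cases hgen : Subgroup.zpowers u = Subgroup.zpowers g
    · -- the twin case
      have htw : Twin g u := twin_of_zpowers_eq hgen.symm
      have htw' : Twin g' (e u) := (twin_map e he).mp htw
      have hpp := twin_prime_pow htw' hdg' hu' hne'
      obtain ⟨r, t, hr, _, hrt⟩ := (isPrimePow_nat_iff _).mp hpp
      have chain : ∀ x z, x ∈ Subgroup.zpowers (e u) → z ∈ Subgroup.zpowers (e u) → Adj x z := by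
        intro x z hx hz
        have h1 : orderOf x ∣ r ^ t := by
          rw [hrt]
          exact orderOf_dvd_of_mem hx
        have h2 : orderOf z ∣ r ^ t := by
          rw [hrt]
          exact orderOf_dvd_of_mem hz
        obtain ⟨i, _, hi⟩ := (Nat.dvd_prime_pow hr).mp h1
        obtain ⟨j, _, hj⟩ := (Nat.dvd_prime_pow hr).mp h2
        rcases le_total i j with h | h
        · exact adj_of_dvd hx hz (by rw [hi, hj]; exact pow_dvd_pow r h)
        · exact (adj_of_dvd hz hx (by rw [hi, hj]; exact pow_dvd_pow r h)).symm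
      have hoa := exists_pow_of_dvd g hpg
      have hob := exists_pow_of_dvd g hqg
      set a := g ^ (orderOf g / p) with ha
      set b := g ^ (orderOf g / q) with hb
      have hamem : a ∈ Subgroup.zpowers g := pow_mem_zpowers g _
      have hbmem : b ∈ Subgroup.zpowers g := pow_mem_zpowers g _
      have hnab : ¬ Adj a b := by
        intro h
        rcases dvd_of_adj h with h1 | h1
        · rw [hoa, hob] at h1
          exact hpq ((Nat.prime_dvd_prime_iff_eq hp hq).mp h1)
        · rw [hoa, hob] at h1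
          exact hpq ((Nat.prime_dvd_prime_iff_eq hq hp).mp h1).symm
      have hgood : ∀ x, x ∈ Subgroup.zpowers g → orderOf x = p ∨ orderOf x = q →
          e x ∉ Subgroup.zpowers (e u) → False := by
        intro x hx hox hxn
        have hx1 : x ≠ 1 := by
          rintro rfl
          rw [orderOf_one] at hox
          rcases hox with h | h
          · exact hp.one_lt.ne h
          · exact hq.one_lt.ne h
        have hxg : Subgroup.zpowers x ≠ Subgroup.zpowers g := by
          intro h
          have h1 : orderOf x = orderOf g := by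
            rw [← Nat.card_zpowers, ← Nat.card_zpowers, h]
          apply hnpp
          rw [← h1]
          rcases hox with h2 | h2
          · rw [h2]; exact hp.isPrimePow
          · rw [h2]; exact hq.isPrimePow
        obtain ⟨hc1, hc2, hc3⟩ := hng x hx hx1 hxg
        have h1 : Adj g x := Or.inr hx
        have h2 : Adj g' (e x) := (he _ _).mp h1
        have h3 : Adj (e u) (e x) := (htw' _).mp h2
        have h4 : e u ∈ Subgroup.zpowers (e x) := by
          rcases h3 with h | h
          · exact h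
          · exact absurd h hxn
        have h5 : g' ∈ Subgroup.zpowers (e x) := Subgroup.zpowers_le.mpr h4 hu'
        have h6 : ¬ Twin g' (e x) := fun h => hc2 (hgu_nt x h)
        have h7 := cc_lt h5 h6 hdg' ⟨e u, htw', fun h => hne' h.symm⟩
        rw [hg', cc_map e he, cc_map e he, hccg, hc1] at h7
        exact absurd (totient_le_of_dvd (orderOf_pos g).ne' (orderOf_dvd_of_mem hx)) (by omega)
      by_cases ha' : e a ∈ Subgroup.zpowers (e u)
      · by_cases hb' : e b ∈ Subgroup.zpowers (e u)
        · exact hnab ((he _ _).mpr (chain _ _ ha' hb'))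
        · exact hgood b hbmem (Or.inr hob) hb'
      · exact hgood a hamem (Or.inl hoa) ha'
    · -- the non-twin case
      obtain ⟨hc1, hc2, hc3⟩ := hng u hug hu1 hgen
      have hnt' : ¬ Twin g' (e u) := fun h => hc2 (hgu_nt u h)
      have hle : cc u ≤ cc g := by
        rw [hc1, hccg]
        exact totient_le_of_dvd (orderOf_pos g).ne' (orderOf_dvd_of_mem hug)
      by_cases hy : ∃ y, Twin g' y ∧ Subgroup.zpowers y ≠ Subgroup.zpowers g'
      · have h7 := cc_lt hu' hnt' hdg' hy
        rw [hg', cc_map e he, cc_map e he] at h7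
        omega
      · push_neg at hy
        have hcg' : cc g' = Nat.totient (orderOf g') := cc_eq_of_gen hy
        have h1 : Nat.totient (orderOf g') ≤ Nat.totient (orderOf (e u)) :=
          totient_le_of_dvd (orderOf_pos _).ne' (orderOf_dvd_of_mem hu')
        have h2 : Nat.totient (orderOf (e u)) ≤ cc (e u) := totient_le_cc _
        have h3 : cc g' = cc g := cc_map e he g
        have h4 : cc (e u) = cc u := cc_map e he u
        have h5 : Nat.totient (orderOf g') = Nat.totient (orderOf (e u)) := by omega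
        have h6 : orderOf g' ≠ orderOf (e u) := fun h =>
          hne' (zpowers_eq_of_mem_of_orderOf hu' h)
        have hodd : Odd (orderOf g') := (num1 (orderOf_dvd_of_mem hu') h6 (orderOf_pos _).ne' h5).2
        have h8 : Nat.totient (orderOf u) = Nat.totient (orderOf g) := by
          rw [← hc1, ← hccg]
          omega
        have h9 : orderOf u ≠ orderOf g := fun h => hgen (zpowers_eq_of_mem_of_orderOf hug h)
        obtain ⟨hn2, huodd⟩ := num1 (orderOf_dvd_of_mem hug) h9 (orderOf_pos _).ne' h8
        have hu2 : 2 < orderOf g := by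
          have h10 : orderOf g ≠ 2 := by
            intro h
            apply hnpp
            rw [h]
            exact Nat.prime_two.isPrimePow
          have h11 : orderOf g ≠ 1 := fun h => ne_one_of_not_dom hdg (orderOf_eq_one_iff.mp h)
          have := orderOf_pos g
          omega
        have h2g : 2 ∣ orderOf g := by
          rw [hn2]
          exact Dvd.intro _ rfl
        have hot := exists_pow_of_dvd g h2g
        set τ := g ^ (orderOf g / 2) with hτ
        have hτmem : τ ∈ Subgroup.zpowers g := pow_mem_zpowers g _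
        have hτ1 : τ ≠ 1 := by
          intro h
          rw [h, orderOf_one] at hot
          omega
        have hτg : Subgroup.zpowers τ ≠ Subgroup.zpowers g := by
          intro h
          have h1 : orderOf τ = orderOf g := by
            rw [← Nat.card_zpowers, ← Nat.card_zpowers, h]
          omega
        obtain ⟨hc1', hc2', hc3'⟩ := hng τ hτmem hτ1 hτg
        have hcτ : cc τ = 1 := by
          rw [hc1', hot]
          rfl
        have hcτ' : cc (e τ) = 1 := by rw [cc_map e he, hcτ]
        have hdτ' : ¬ Dom (e τ) := fun h => hc3' ((dom_map e he).mpr h)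
        have hadj : Adj g' (e τ) := (he _ _).mp (Or.inr hτmem)
        have hn2t : 2 ≤ Nat.totient (orderOf g) := by
          have h1 := Nat.totient_even hu2
          have h2 := Nat.totient_pos.mpr (orderOf_pos g)
          rcases h1 with ⟨k, hk⟩
          omega
        rcases hadj with h | h
        · -- `g'` below `τ'`
          have hnt2 : ¬ Twin g' (e τ) := fun h' => hc2' (hgu_nt τ h')
          by_cases hy2 : False
          · exact hy2
          have h10 : Nat.totient (orderOf g') ≤ Nat.totient (orderOf (e τ)) :=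
            totient_le_of_dvd (orderOf_pos _).ne' (orderOf_dvd_of_mem h)
          have h11 : Nat.totient (orderOf (e τ)) ≤ cc (e τ) := totient_le_cc _
          omega
        · -- `τ'` below `g'`
          have h10 : orderOf (e τ) ∣ orderOf g' := orderOf_dvd_of_mem h
          have h11 : Odd (orderOf (e τ)) := Odd.of_dvd_nat hodd h10
          have h12 : orderOf (e τ) ≠ 1 := fun h' => (ne_one_of_not_dom hdτ') (orderOf_eq_one_iff.mp h')
          have h13 : 2 < orderOf (e τ) := by
            rcases h11 with ⟨k, hk⟩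
            omega
          have h14 := Nat.totient_even h13
          have h15 := Nat.totient_pos.mpr (orderOf_pos (e τ))
          have h16 : Nat.totient (orderOf (e τ)) ≤ cc (e τ) := totient_le_cc _
          rcases h14 with ⟨k, hk⟩
          omega
  -- conclusion
  have hcardN : orderOf g' = orderOf g := by
    have h1 : Nat.card {z : H // Adj g' z} = Nat.card {z : G // Adj g z} := by
      symm
      apply Nat.card_congr
      exact Equiv.subtypeEquiv e (fun z => he _ _)
    have h2 : Nat.card {z : H // Adj g' z} = orderOf g' := by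
      rw [← Nat.card_zpowers]
      apply Nat.card_congr
      apply Equiv.subtypeEquivRight
      intro z
      constructor
      · rintro (h | h)
        · exact hnon z h
        · exact h
      · intro h
        exact Or.inr h
    have h3 : Nat.card {z : G // Adj g z} = orderOf g := by
      rw [← Nat.card_zpowers]
      apply Nat.card_congr
      apply Equiv.subtypeEquivRight
      intro z
      constructor
      · exact hN z
      · intro h
        exact Or.inr h
    rw [← h2, h1, h3]
  exact exists_order_of_dvd (h := g') (by rw [hcardN]; exact hpqg)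

end Main

/-- Let G and H be finite groups whose power graphs are isomorphic: there is a bijection e : G → H such that, for all x, y, one of x, y is a power of the other exactly when one of e(x), e(y) is a power of the other. Then G and H have the same prime graph: for distinct primes p, q, G has an element of order pq if and only if H does. -/
theorem result {G H : Type*} [Group G] [Finite G] [Group H] [Finite H] (e : G ≃ H)
    (he : ∀ x y : G, (x ∈ Subgroup.zpowers y ∨ y ∈ Subgroup.zpowers x) ↔
      (e x ∈ Subgroup.zpowers (e y) ∨ e y ∈ Subgroup.zpowers (e x)))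
    {p q : ℕ} (hp : p.Prime) (hq : q.Prime) (hpq : p ≠ q) :
    (∃ g : G, orderOf g = p * q) ↔ (∃ h : H, orderOf h = p * q) := by
  constructor
  · exact core e he hp hq hpq
  · refine core e.symm ?_ hp hq hpq
    intro x y
    have h := he (e.symm x) (e.symm y)
    simp only [Equiv.apply_symm_apply] at h
    exact h.symm

end Cfsg.Agent.S4085
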