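import Mathlib
import Cfsg.Statements.S4086

set_option autoImplicit false
open Cfsg

namespace Cfsg.Agent.S4086

/-- `g ^ gcd(a, n)` is a power of `g ^ a` whenever `g ^ n = 1`. -/
theorem gcd_pow_mem {G : Type*} [Group G] (g : G) (a n : ℕ) (hn : g ^ n = 1) :
    g ^ (Nat.gcd a n) ∈ Subgroup.zpowers (g ^ a) := by
  have h := Nat.gcd_eq_gcd_ab a n
  rw [Subgroup.mem_zpowers_iff]
  refine ⟨Nat.gcdA a n, ?_⟩
  have h2 : g ^ (a.gcd n) = (g ^ a) ^ (Nat.gcdA a n) * (g ^ n) ^ (Nat.gcdB a n) := by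
    rw [← zpow_natCast g (a.gcd n), h, zpow_add, zpow_mul, zpow_mul, zpow_natCast, zpow_natCast]
  rw [h2, hn, one_zpow, mul_one]

theorem result {G : Type*} [Group G] [Finite G] :
    (∀ g : G, g ≠ 1 → IsPrimePow (orderOf g)) ↔
    (∀ x y : G, IsCyclic ↥(Subgroup.closure ({x, y} : Set G)) → (x ∈ Subgroup.zpowers y ∨ y ∈ Subgroup.zpowers x)) := by
  constructor
  · intro h x y hc
    set C := Subgroup.closure ({x, y} : Set G) with hC
    obtain ⟨z, hz⟩ := hc.exists_generator
    have hx : x ∈ C := Subgroup.subset_closure (by simp)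
    have hy : y ∈ C := Subgroup.subset_closure (by simp)
    obtain ⟨a, ha⟩ := Subgroup.mem_zpowers_iff.mp (hz ⟨x, hx⟩)
    obtain ⟨b, hb⟩ := Subgroup.mem_zpowers_iff.mp (hz ⟨y, hy⟩)
    have hxz : x = (z : G) ^ a := by
      have := congrArg Subtype.val ha
      simpa using this.symm
    have hyz : y = (z : G) ^ b := by
      have := congrArg Subtype.val hb
      simpa using this.symm
    by_cases hz1 : (z : G) = 1
    · left
      rw [hxz, hz1]; simp
    obtain ⟨p, k, hp, hk, hord⟩ := h z hz1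
    have hpp : p.Prime := hp.nat_prime
    set n := orderOf (z : G) with hn
    have hpow : (z : G) ^ n = 1 := pow_orderOf_eq_one _
    have hnpos : 0 < n := orderOf_pos _
    -- reduce to natural exponents
    obtain ⟨a', ha'⟩ : ∃ a' : ℕ, x = (z : G) ^ a' := by
      refine ⟨(a % n).toNat, ?_⟩
      rw [hxz, ← zpow_natCast, Int.toNat_of_nonneg (Int.emod_nonneg _ (by exact_mod_cast hnpos.ne'))]
      rw [zpow_mod_orderOf]
    obtain ⟨b', hb'⟩ : ∃ b' : ℕ, y = (z : G) ^ b' := by
      refine ⟨(b % n).toNat, ?_⟩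
      rw [hyz, ← zpow_natCast, Int.toNat_of_nonneg (Int.emod_nonneg _ (by exact_mod_cast hnpos.ne'))]
      rw [zpow_mod_orderOf]
    have hda : Nat.gcd a' n ∣ p ^ k := hord ▸ Nat.gcd_dvd_right a' n
    have hdb : Nat.gcd b' n ∣ p ^ k := hord ▸ Nat.gcd_dvd_right b' n
    obtain ⟨i, -, hi⟩ := (Nat.dvd_prime_pow hpp).mp hda
    obtain ⟨j, -, hj⟩ := (Nat.dvd_prime_pow hpp).mp hdb
    rcases le_total i j with hij | hij
    · -- gcd a' n ∣ gcd b' n ∣ b'
      right
      have hd : Nat.gcd a' n ∣ b' := by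
        rw [hi]
        exact (pow_dvd_pow p hij).trans (hj ▸ Nat.gcd_dvd_left b' n)
      obtain ⟨c, hc⟩ := hd
      rw [hb', ha', hc, pow_mul]
      exact Subgroup.pow_mem _ (gcd_pow_mem _ _ _ hpow) _
    · left
      have hd : Nat.gcd b' n ∣ a' := by
        rw [hj]
        exact (pow_dvd_pow p hij).trans (hi ▸ Nat.gcd_dvd_left a' n)
      obtain ⟨c, hc⟩ := hd
      rw [hb', ha', hc, pow_mul]
      exact Subgroup.pow_mem _ (gcd_pow_mem _ _ _ hpow) _
  · intro h g hg
    by_contra hnp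
    set n := orderOf g with hn
    have hnpos : 0 < n := orderOf_pos g
    have hn1 : n ≠ 1 := by
      intro h1
      exact hg (orderOf_eq_one_iff.mp h1)
    set p := n.minFac with hp
    have hpp : p.Prime := Nat.minFac_prime hn1
    have hfin : n ≠ 0 := hnpos.ne'
    obtain ⟨k, m, hpm, hnm⟩ := Nat.exists_eq_pow_mul_and_not_dvd hfin p hpp.ne_one
    have hk : k ≠ 0 := by
      rintro rfl
      apply hpm
      have : p ∣ n := Nat.minFac_dvd n
      rw [hnm] at this
      simpa using this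
    have hm1 : m ≠ 1 := by
      rintro rfl
      apply hnp
      rw [hnm, mul_one]
      exact (hpp.isPrimePow).pow hk
    have hcop : Nat.Coprime (p ^ k) m := Nat.Coprime.pow_left _ ((Nat.Prime.coprime_iff_not_dvd hpp).mpr hpm)
    have hmpos : 0 < m := by
      rcases Nat.eq_zero_or_pos m with h0 | h0
      · rw [h0] at hnm; simp at hnm; exact absurd hnm hfin
      · exact h0
    have hx : orderOf (g ^ p ^ k) = m := by
      rw [orderOf_pow_of_dvd (pow_ne_zero _ hpp.ne_zero) ⟨m, by rw [← hn]; exact hnm⟩, ← hn, hnm]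
      exact Nat.mul_div_cancel_left _ (pow_pos hpp.pos _)
    have hy : orderOf (g ^ m) = p ^ k := by
      rw [orderOf_pow_of_dvd hmpos.ne' ⟨p ^ k, by rw [← hn, hnm, mul_comm]⟩, ← hn, hnm]
      exact Nat.mul_div_cancel _ hmpos
    have hcl : Subgroup.closure ({g ^ p ^ k, g ^ m} : Set G) ≤ Subgroup.zpowers g := by
      rw [Subgroup.closure_le]
      intro y hy
      rcases hy with rfl | rfl
      · exact Subgroup.pow_mem _ (Subgroup.mem_zpowers g) _
      · exact Subgroup.pow_mem _ (Subgroup.mem_zpowers g) _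
    have hcyc : IsCyclic ↥(Subgroup.closure ({g ^ p ^ k, g ^ m} : Set G)) := by
      have : IsCyclic (Subgroup.zpowers g) := inferInstance
      exact Subgroup.isCyclic_of_le hcl
    rcases h _ _ hcyc with h1 | h1
    · have := orderOf_dvd_of_mem_zpowers h1
      rw [hx, hy] at this
      have h2 : m ∣ 1 := by
        have := Nat.Coprime.eq_one_of_dvd hcop.symm this
        rw [this]
      exact hm1 (Nat.dvd_one.mp h2)
    · have := orderOf_dvd_of_mem_zpowers h1
      rw [hx, hy] at this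
      have h2 := Nat.Coprime.eq_one_of_dvd hcop this
      have h3 : p ^ k = 1 := h2
      have : p ^ k > 1 := Nat.one_lt_pow hk hpp.one_lt
      omega

end Cfsg.Agent.S4086
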