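import Mathlib
import Cfsg.Statements.S4088
import Cfsg.Agent.Lib.SubnormalizerCount

set_option autoImplicit false
open Cfsg

namespace Cfsg.Agent.S4088

open Cfsg.Agent.Lib.SubnormalizerCount
open scoped Pointwise

variable {G : Type*} [Group G]

/-- conjugates -/
theorem map_conj_eq (g : G) (H : Subgroup G) :
    H.map (MulAut.conj g).toMonoidHom = MulAut.conj g • H := rfl

theorem conj_smul_conj_smul (a b : G) (A : Subgroup G) :
    MulAut.conj a • (MulAut.conj b • A) = MulAut.conj (a * b) • A := by
  rw [smul_smul, map_mul]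

theorem conj_inv_smul_conj_smul (a : G) (A : Subgroup G) :
    MulAut.conj a⁻¹ • (MulAut.conj a • A) = A := by
  rw [conj_smul_conj_smul]; simp

theorem conj_smul_eq_self_iff (n : G) (A : Subgroup G) :
    MulAut.conj n • A = A ↔ n ∈ Subgroup.normalizer (A : Set G) := by
  rw [Subgroup.mem_normalizer_iff]
  constructor
  · intro h y
    constructor
    · intro hy
      have h1 : n * y * n⁻¹ ∈ MulAut.conj n • A := by
        rw [Subgroup.mem_pointwise_smul_iff_inv_smul_mem]
        simpa [MulAut.smul_def, mul_assoc] using hy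
      rwa [h] at h1
    · intro hy
      rw [← h] at hy
      rw [Subgroup.mem_pointwise_smul_iff_inv_smul_mem] at hy
      simpa [MulAut.smul_def, mul_assoc] using hy
  · intro h
    ext y
    rw [Subgroup.mem_pointwise_smul_iff_inv_smul_mem]
    have h1 := h (n⁻¹ * y * n)
    have h2 : n * (n⁻¹ * y * n) * n⁻¹ = y := by group
    rw [h2] at h1
    rw [← h1]
    simp [MulAut.smul_def, mul_assoc]

theorem card_conj_le_sylow [Finite G] {p : ℕ} [Fact p.Prime] (H : Subgroup G) (g : G) :
    Nat.card {Q : Sylow p G // H.map (MulAut.conj g).toMonoidHom ≤ (Q : Subgroup G)} =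
      Nat.card {Q : Sylow p G // H ≤ (Q : Subgroup G)} := by
  apply Nat.card_congr
  refine Equiv.subtypeEquiv (MulAction.toPerm g⁻¹) ?_
  intro Q
  simp only [MulAction.toPerm_apply]
  rw [Sylow.coe_subgroup_smul, map_conj_eq]
  rw [← Subgroup.pointwise_smul_le_pointwise_smul_iff (a := MulAut.conj g⁻¹), conj_inv_smul_conj_smul]

theorem card_conj_le_smul [Finite G] {p : ℕ} [Fact p.Prime] (H : Subgroup G) (P : Sylow p G) (x : G) :
    Nat.card {g : G // H.map (MulAut.conj g).toMonoidHom ≤ ((x • P : Sylow p G) : Subgroup G)} =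
      Nat.card {g : G // H.map (MulAut.conj g).toMonoidHom ≤ (P : Subgroup G)} := by
  apply Nat.card_congr
  refine Equiv.subtypeEquiv (Equiv.mulLeft x⁻¹) ?_
  intro g
  simp only [Equiv.coe_mulLeft]
  rw [Sylow.coe_subgroup_smul, map_conj_eq, map_conj_eq]
  rw [← Subgroup.pointwise_smul_le_pointwise_smul_iff (a := MulAut.conj x⁻¹),
    conj_inv_smul_conj_smul, conj_smul_conj_smul]

theorem card_fibres [Finite G] (H P : Subgroup G) :
    Nat.card {g : G // H.map (MulAut.conj g).toMonoidHom ≤ P} =
      Nat.card {K : Subgroup G // K ≤ P ∧ ∃ g : G, K = H.map (MulAut.conj g).toMonoidHom} *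
        Nat.card (Subgroup.normalizer (H : Set G)) := by
  classical
  haveI := Fintype.ofFinite {K : Subgroup G // K ≤ P ∧ ∃ g : G, K = H.map (MulAut.conj g).toMonoidHom}
  let f : {g : G // H.map (MulAut.conj g).toMonoidHom ≤ P} →
      {K : Subgroup G // K ≤ P ∧ ∃ g : G, K = H.map (MulAut.conj g).toMonoidHom} :=
    fun g => ⟨H.map (MulAut.conj g.1).toMonoidHom, g.2, g.1, rfl⟩
  rw [← Nat.card_congr (Equiv.sigmaFiberEquiv f), Nat.card_sigma]
  have h1 : ∀ K, Nat.card {x // f x = K} = Nat.card (Subgroup.normalizer (H : Set G)) := by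
    rintro ⟨K, hK, g₀, rfl⟩
    have key : ∀ x : G, MulAut.conj x • H = MulAut.conj g₀ • H ↔ g₀⁻¹ * x ∈ Subgroup.normalizer (H : Set G) := by
      intro x
      rw [← conj_smul_eq_self_iff, ← conj_smul_conj_smul]
      constructor
      · intro h
        rw [h, conj_inv_smul_conj_smul]
      · intro h
        conv_rhs => rw [← h]
        rw [conj_smul_conj_smul, conj_smul_conj_smul]
        simp
    apply Nat.card_congr
    refine ⟨fun x => ⟨g₀⁻¹ * x.1.1, (key _).1 (congrArg Subtype.val x.2)⟩,
      fun n => ⟨⟨g₀ * n.1, ?_⟩, ?_⟩, ?_, ?_⟩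
    · have h2 : MulAut.conj (g₀ * n.1) • H = MulAut.conj g₀ • H := (key _).2 (by simpa using n.2)
      change MulAut.conj (g₀ * n.1) • H ≤ P
      rw [h2]
      exact hK
    · apply Subtype.ext
      exact (key _).2 (by simpa using n.2)
    · intro x
      apply Subtype.ext
      apply Subtype.ext
      simp
    · intro n
      apply Subtype.ext
      simp
  simp_rw [h1]
  rw [Finset.sum_const, Finset.card_univ, smul_eq_mul, ← Nat.card_eq_fintype_card]

/-- Let G be a finite group, p a prime dividing the order of G, H a p-subgroup of G and P a Sylow p-subgroup of G. Call the subnormalizer of H the set of elements g of G such that H is subnormal in the subgroup generated by H and g. Then the number of elements of the subnormalizer of H equals the number of Sylow p-subgroups of G containing H times the order of N_G(P), and also equals the number of conjugates of H contained in P times the order of N_G(H). -/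
theorem result {G : Type*} [Group G] [Finite G] (p : ℕ) [Fact p.Prime]
    (hp : p ∣ Nat.card G) (H : Subgroup G) (hH : IsPGroup p H) (P : Sylow p G) :
    Nat.card {g : G // ((H).subgroupOf (H ⊔ Subgroup.zpowers g)).IsSubnormal} =
        Nat.card {Q : Sylow p G // H ≤ (Q : Subgroup G)} * Nat.card (Subgroup.normalizer ((P : Subgroup G) : Set G)) ∧
    Nat.card {g : G // ((H).subgroupOf (H ⊔ Subgroup.zpowers g)).IsSubnormal} =
        Nat.card {K : Subgroup G // K ≤ (P : Subgroup G) ∧ ∃ g : G, K = H.map (MulAut.conj g).toMonoidHom} *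
          Nat.card (Subgroup.normalizer (H : Set G)) := by
  classical
  haveI := Fintype.ofFinite G
  haveI := Fintype.ofFinite (Sylow p G)
  have h0 : Nat.card {g : G // ((H).subgroupOf (H ⊔ Subgroup.zpowers g)).IsSubnormal} = Nat.card (subN p H) :=
    Nat.card_congr (Equiv.subtypeEquivRight (subnormal_iff hH))
  rw [h0]
  have h1 : CountClaim p H := countClaim _ G rfl H hH
  unfold CountClaim at h1
  have hn : 0 < Nat.card (Sylow p G) := Nat.card_pos
  have h2 : Nat.card G = Nat.card (Sylow p G) * Nat.card (Subgroup.normalizer ((P : Subgroup G) : Set G)) := by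
    have h3 := Subgroup.index_mul_card (Subgroup.normalizer ((P : Subgroup G) : Set G))
    rw [← h3, Sylow.card_eq_index_normalizer P]
    rfl
  constructor
  · apply Nat.eq_of_mul_eq_mul_right hn
    rw [h1, h2]
    ring
  · apply Nat.eq_of_mul_eq_mul_right hn
    rw [h1]
    -- double counting
    have h3 : ∑ g : G, Nat.card {Q : Sylow p G // H.map (MulAut.conj g).toMonoidHom ≤ (Q : Subgroup G)} =
        ∑ Q : Sylow p G, Nat.card {g : G // H.map (MulAut.conj g).toMonoidHom ≤ (Q : Subgroup G)} := by
      simp_rw [Nat.card_eq_fintype_card, Fintype.card_subtype, Finset.card_filter]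
      rw [Finset.sum_comm]
    have h4 : ∀ Q : Sylow p G, Nat.card {g : G // H.map (MulAut.conj g).toMonoidHom ≤ (Q : Subgroup G)} =
        Nat.card {K : Subgroup G // K ≤ (P : Subgroup G) ∧ ∃ g : G, K = H.map (MulAut.conj g).toMonoidHom} *
          Nat.card (Subgroup.normalizer (H : Set G)) := by
      intro Q
      obtain ⟨x, rfl⟩ := MulAction.exists_smul_eq G P Q
      rw [card_conj_le_smul, card_fibres]
    simp_rw [card_conj_le_sylow, h4] at h3
    rw [Finset.sum_const, Finset.sum_const, Finset.card_univ, Finset.card_univ, smul_eq_mul, smul_eq_mul,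
      ← Nat.card_eq_fintype_card, ← Nat.card_eq_fintype_card] at h3
    rw [mul_comm, h3]
    ring

end Cfsg.Agent.S4088
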