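import Mathlib
import Cfsg.Statements.S4089
import Cfsg.Agent.Lib.SubnormalizerCount

set_option autoImplicit false
open Cfsg

namespace Cfsg.Agent.S4089

open Cfsg.Agent.Lib.SubnormalizerCount Cfsg.Agent.Lib.PCore

variable {G : Type*} [Group G]

theorem normalizer_map_pCore_mem [Finite G] (p : ℕ) [Fact p.Prime] (T : Subgroup G) {g : G} (hg : g ∈ T) :
    g ∈ Subgroup.normalizer (((pCore p T).map T.subtype : Subgroup G) : Set G) := by
  have h1 : (Subgroup.normalizer ((pCore p T : Subgroup T) : Set T)).map T.subtype ≤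
      Subgroup.normalizer (((pCore p T).map T.subtype : Subgroup G) : Set G) :=
    Subgroup.le_normalizer_map _
  apply h1
  refine ⟨⟨g, hg⟩, ?_, rfl⟩
  have : (pCore p T).Normal := inferInstance
  rw [Subgroup.normalizer_eq_top_iff.mpr this]
  trivial

theorem exists_radical [Finite G] {p : ℕ} [Fact p.Prime] {H : Subgroup G} {g : G} (hg : g ∈ subN p H) :
    ∃ R : Subgroup G, H ≤ R ∧ (pCore p (Subgroup.normalizer (R : Set G))).map (Subgroup.normalizer (R : Set G)).subtype = R ∧
      g ∈ Subgroup.normalizer (R : Set G) := by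
  obtain ⟨R₀, h0, h1, h2⟩ := hg
  set F : Set (Subgroup G) := {R | IsPGroup p R ∧ H ≤ R ∧ g ∈ Subgroup.normalizer (R : Set G)} with hF
  have hmem : R₀ ∈ F := ⟨h0, h1, h2⟩
  obtain ⟨R, -, hR⟩ := (Set.toFinite F).exists_le_maximal hmem
  obtain ⟨⟨hR1, hR2, hR3⟩, hR4⟩ := hR
  refine ⟨R, hR2, ?_, hR3⟩
  set N := Subgroup.normalizer (R : Set G) with hN
  have hle : R ≤ (pCore p N).map N.subtype := by
    intro x hx
    have h3 : R.subgroupOf N ≤ pCore p N :=
      le_pCore (Subgroup.normal_subgroupOf_of_le_normalizer le_rfl)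
        (hR1.comap_of_injective N.subtype N.subtype_injective)
    exact ⟨⟨x, Subgroup.le_normalizer hx⟩, h3 hx, rfl⟩
  apply le_antisymm _ hle
  exact hR4 ⟨(isPGroup_pCore p).map _, hR2.trans hle, normalizer_map_pCore_mem p N hR3⟩ hle

theorem mem_of_forall_sylow [Finite G] {p : ℕ} [Fact p.Prime] {R : Subgroup G}
    (hR : (pCore p (Subgroup.normalizer (R : Set G))).map (Subgroup.normalizer (R : Set G)).subtype = R)
    {x : G} (hxN : x ∈ Subgroup.normalizer (R : Set G))
    (hx : ∀ Q : Sylow p G, R ≤ (Q : Subgroup G) → x ∈ (Q : Subgroup G)) : x ∈ R := by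
  set N := Subgroup.normalizer (R : Set G) with hN
  rw [← hR]
  refine ⟨⟨x, hxN⟩, ?_, rfl⟩
  change (⟨x, hxN⟩ : N) ∈ pCore p N
  rw [pCore_eq_iInf_sylow, Subgroup.mem_iInf]
  intro S
  have hSp : IsPGroup p ((S : Subgroup N).map N.subtype) := S.isPGroup'.map _
  obtain ⟨Q, hQ⟩ := hSp.exists_le_sylow
  have h1 : R ≤ (S : Subgroup N).map N.subtype := by
    rw [← hR]
    exact Subgroup.map_mono (pCore_le_sylow p S)
  have h2 := hx Q (h1.trans hQ)
  have h3 : (S : Subgroup N) ≤ (Q : Subgroup G).subgroupOf N := by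
    intro y hy
    exact hQ ⟨y, hy, rfl⟩
  have h4 : IsPGroup p ((Q : Subgroup G).subgroupOf N) :=
    Q.isPGroup'.comap_of_injective N.subtype N.subtype_injective
  have h5 := S.is_maximal' h4 h3
  have h6 : (⟨x, hxN⟩ : N) ∈ (Q : Subgroup G).subgroupOf N := h2
  rw [h5] at h6
  exact h6

theorem sInf_le_radical [Finite G] {p : ℕ} [Fact p.Prime] {H R : Subgroup G} (hHR : H ≤ R)
    (hR : (pCore p (Subgroup.normalizer (R : Set G))).map (Subgroup.normalizer (R : Set G)).subtype = R) :
    sInf {K : Subgroup G | ∃ Q : Sylow p G, H ≤ (Q : Subgroup G) ∧ K = (Q : Subgroup G)} ≤ R := by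
  set D := sInf {K : Subgroup G | ∃ Q : Sylow p G, H ≤ (Q : Subgroup G) ∧ K = (Q : Subgroup G)} with hD
  have hRp : IsPGroup p R := by
    rw [← hR]
    exact (isPGroup_pCore p).map _
  -- `D ⊔ R` is a `p`-group contained in every Sylow containing `R`
  set E := sInf {K : Subgroup G | ∃ Q : Sylow p G, R ≤ (Q : Subgroup G) ∧ K = (Q : Subgroup G)} with hE
  have hDE : D ≤ E := by
    apply le_sInf
    rintro K ⟨Q, hQ, rfl⟩
    exact sInf_le ⟨Q, hHR.trans hQ, rfl⟩
  have hRE : R ≤ E := by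
    apply le_sInf
    rintro K ⟨Q, hQ, rfl⟩
    exact hQ
  obtain ⟨Q₀, hQ₀⟩ := hRp.exists_le_sylow
  have hEp : IsPGroup p E := Q₀.isPGroup'.to_le (sInf_le ⟨Q₀, hQ₀, rfl⟩)
  refine hDE.trans ?_
  by_contra hcon
  have hlt : R < E := lt_of_le_of_ne hRE (fun h => hcon h.ge)
  have h1 := lt_inf_normalizer hEp hlt
  obtain ⟨x, hx1, hx2⟩ := SetLike.exists_of_lt h1
  apply hx2
  apply mem_of_forall_sylow hR hx1.2
  intro Q hQ
  have h2 : E ≤ (Q : Subgroup G) := sInf_le ⟨Q, hQ, rfl⟩
  exact h2 hx1.1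

/-- Let G be a finite group, p a prime and H a p-subgroup of G. Then the set of elements g of G such that H is subnormal in the subgroup generated by H and g is the union of the normalizers N_G(R) over the subgroups R of G containing H with R = O_p(N_G(R)); and this set does not change when H is replaced by the intersection of all Sylow p-subgroups of G containing H. -/
theorem result {G : Type*} [Group G] [Finite G] (p : ℕ) [Fact p.Prime]
    (H : Subgroup G) (hH : IsPGroup p H) :
    {g : G | ((H).subgroupOf (H ⊔ Subgroup.zpowers g)).IsSubnormal} =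
      {g : G | ∃ R : Subgroup G, H ≤ R ∧ (Cfsg.pCore p (Subgroup.normalizer (R : Set G))).map (Subgroup.normalizer (R : Set G)).subtype = R ∧ g ∈ Subgroup.normalizer (R : Set G)} ∧
    ∀ g : G, (((H).subgroupOf (H ⊔ Subgroup.zpowers g)).IsSubnormal ↔
      (((sInf {K : Subgroup G | ∃ Q : Sylow p G, H ≤ (Q : Subgroup G) ∧ K = (Q : Subgroup G)})).subgroupOf ((sInf {K : Subgroup G | ∃ Q : Sylow p G, H ≤ (Q : Subgroup G) ∧ K = (Q : Subgroup G)}) ⊔ Subgroup.zpowers g)).IsSubnormal) := by
  constructor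
  · ext g
    simp only [Set.mem_setOf_eq]
    rw [subnormal_iff hH]
    constructor
    · exact exists_radical
    · rintro ⟨R, h1, h2, h3⟩
      refine ⟨R, ?_, h1, h3⟩
      rw [← h2]
      exact (isPGroup_pCore p).map _
  · intro g
    set D := sInf {K : Subgroup G | ∃ Q : Sylow p G, H ≤ (Q : Subgroup G) ∧ K = (Q : Subgroup G)} with hD
    obtain ⟨Q₀, hQ₀⟩ := hH.exists_le_sylow
    have hDp : IsPGroup p D := Q₀.isPGroup'.to_le (sInf_le ⟨Q₀, hQ₀, rfl⟩)
    have hHD : H ≤ D := by
      apply le_sInf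
      rintro K ⟨Q, hQ, rfl⟩
      exact hQ
    rw [subnormal_iff hH, subnormal_iff hDp]
    constructor
    · intro hg
      obtain ⟨R, h1, h2, h3⟩ := exists_radical hg
      refine ⟨R, ?_, sInf_le_radical h1 h2, h3⟩
      rw [← h2]
      exact (isPGroup_pCore p).map _
    · exact subN_mono hHD

end Cfsg.Agent.S4089
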