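import Mathlib
import Cfsg.Statements.S4090
import Cfsg.Agent.Lib.SubnormalizerCount

set_option autoImplicit false
open Cfsg

namespace Cfsg.Agent.S4090

open Cfsg.Agent.Lib.SubnormalizerCount
open scoped Pointwise

universe u

section prelim

variable {G : Type u} [Group G]

theorem card_preimage [Finite G] (K : Subgroup G) [K.Normal] (A : Set (G ⧸ K)) :
    Nat.card {g : G // (g : G ⧸ K) ∈ A} = Nat.card A * Nat.card K := by
  classical
  haveI : Fintype A := Fintype.ofFinite A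
  let f : {g : G // (g : G ⧸ K) ∈ A} → A := fun g => ⟨(g.1 : G ⧸ K), g.2⟩
  rw [← Nat.card_congr (Equiv.sigmaFiberEquiv f), Nat.card_sigma]
  have h1 : ∀ a : A, Nat.card {x // f x = a} = Nat.card K := by
    rintro ⟨a, ha⟩
    obtain ⟨g₀, rfl⟩ := QuotientGroup.mk_surjective a
    apply Nat.card_congr
    refine ⟨fun x => ⟨g₀⁻¹ * x.1.1, ?_⟩, fun k => ⟨⟨g₀ * k.1, ?_⟩, ?_⟩, ?_, ?_⟩
    · have h2 : ((x.1.1 : G) : G ⧸ K) = (g₀ : G ⧸ K) := congrArg Subtype.val x.2
      rw [eq_comm, QuotientGroup.eq] at h2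
      exact h2
    · have h2 : ((g₀ * k.1 : G) : G ⧸ K) = (g₀ : G ⧸ K) := by
        rw [QuotientGroup.eq]
        simp
      rw [h2]
      exact ha
    · apply Subtype.ext
      change ((g₀ * k.1 : G) : G ⧸ K) = (g₀ : G ⧸ K)
      rw [QuotientGroup.eq]
      simp
    · intro x
      apply Subtype.ext
      apply Subtype.ext
      simp
    · intro k
      apply Subtype.ext
      simp
  simp_rw [h1]
  rw [Finset.sum_const, Finset.card_univ, smul_eq_mul, ← Nat.card_eq_fintype_card]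

theorem mem_map_mk_iff (K A : Subgroup G) [K.Normal] (h : K ≤ A) (g : G) :
    QuotientGroup.mk' K g ∈ A.map (QuotientGroup.mk' K) ↔ g ∈ A := by
  constructor
  · rintro ⟨a, ha, hag⟩
    have h1 : a⁻¹ * g ∈ K := by
      rw [← QuotientGroup.eq]
      exact hag
    have h2 : g = a * (a⁻¹ * g) := by group
    rw [h2]
    exact A.mul_mem ha (h h1)
  · intro hg
    exact ⟨g, hg, rfl⟩

theorem card_map_mk_mul [Finite G] (K A : Subgroup G) [K.Normal] (h : K ≤ A) :
    Nat.card A = Nat.card (A.map (QuotientGroup.mk' K)) * Nat.card K := by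
  have h1 := card_preimage K ((A.map (QuotientGroup.mk' K) : Subgroup (G ⧸ K)) : Set (G ⧸ K))
  refine Eq.trans ?_ h1
  apply Nat.card_congr
  refine Equiv.subtypeEquivRight ?_
  intro g
  exact (mem_map_mk_iff K A h g).symm

theorem card_cnt_mk_mul [Finite G] (K A B H : Subgroup G) [K.Normal] (hA : K ≤ A) (hB : K ≤ B) :
    Nat.card {u : G // u ∈ B ∧ ∀ h ∈ H, h * u * h⁻¹ * u⁻¹ ∈ A} =
      Nat.card {u : G ⧸ K // u ∈ B.map (QuotientGroup.mk' K) ∧
        ∀ h ∈ H.map (QuotientGroup.mk' K), h * u * h⁻¹ * u⁻¹ ∈ A.map (QuotientGroup.mk' K)} * Nat.card K := by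
  have h1 := card_preimage K {u : G ⧸ K | u ∈ B.map (QuotientGroup.mk' K) ∧
        ∀ h ∈ H.map (QuotientGroup.mk' K), h * u * h⁻¹ * u⁻¹ ∈ A.map (QuotientGroup.mk' K)}
  change _ = Nat.card ({u : G ⧸ K | u ∈ B.map (QuotientGroup.mk' K) ∧
        ∀ h ∈ H.map (QuotientGroup.mk' K), h * u * h⁻¹ * u⁻¹ ∈ A.map (QuotientGroup.mk' K)} : Set (G ⧸ K)) * Nat.card K
  rw [← h1]
  apply Nat.card_congr
  refine Equiv.subtypeEquivRight ?_
  intro g
  constructor
  · rintro ⟨h2, h3⟩
    refine ⟨(mem_map_mk_iff K B hB g).2 h2, ?_⟩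
    rintro _ ⟨h, hh, rfl⟩
    have h4 := (mem_map_mk_iff K A hA _).2 (h3 h hh)
    simpa using h4
  · rintro ⟨h2, h3⟩
    refine ⟨(mem_map_mk_iff K B hB g).1 h2, ?_⟩
    intro h hh
    have h4 := h3 _ ⟨h, hh, rfl⟩
    apply (mem_map_mk_iff K A hA _).1
    simpa using h4

variable [Finite G] {p : ℕ} [Fact p.Prime]

theorem card_subN_of_isPGroup (K : Subgroup G) [K.Normal] (hK : IsPGroup p K) (H : Subgroup G) :
    Nat.card (subN p H) = Nat.card (subN p (H.map (QuotientGroup.mk' K))) * Nat.card K := by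
  have h1 := card_preimage K (subN p (H.map (QuotientGroup.mk' K)))
  rw [← h1]
  apply Nat.card_congr
  refine Equiv.subtypeEquivRight ?_
  intro g
  constructor
  · rintro ⟨R, h2, h3, h4⟩
    refine ⟨R.map (QuotientGroup.mk' K), h2.map _, Subgroup.map_mono h3, ?_⟩
    have h5 : (Subgroup.normalizer (R : Set G)).map (QuotientGroup.mk' K) ≤
        Subgroup.normalizer ((R.map (QuotientGroup.mk' K) : Subgroup (G ⧸ K)) : Set (G ⧸ K)) :=
      Subgroup.le_normalizer_map _
    exact h5 ⟨g, h4, rfl⟩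
  · rintro ⟨R, h2, h3, h4⟩
    refine ⟨R.comap (QuotientGroup.mk' K), ?_, ?_, ?_⟩
    · refine h2.comap_of_ker_isPGroup _ ?_
      rwa [QuotientGroup.ker_mk']
    · intro x hx
      exact h3 ⟨x, hx, rfl⟩
    · have h5 : (Subgroup.normalizer (R : Set (G ⧸ K))).comap (QuotientGroup.mk' K) ≤
          Subgroup.normalizer ((R.comap (QuotientGroup.mk' K) : Subgroup G) : Set G) :=
        Subgroup.le_normalizer_comap _
      exact h5 h4

end prelim

section coprime

variable {G : Type u} [Group G] [Finite G] {p : ℕ} [Fact p.Prime]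

/-- `C_K(A)`. -/
def cK (K A : Subgroup G) : Subgroup G := K ⊓ Subgroup.centralizer (A : Set G)

theorem mem_cK {K A : Subgroup G} {x : G} :
    x ∈ cK K A ↔ x ∈ K ∧ ∀ a ∈ A, a * x = x * a := by
  simp [cK, Subgroup.mem_inf, Subgroup.mem_centralizer_iff]

/-- The image of a Sylow subgroup. -/
noncomputable def piS (K : Subgroup G) [K.Normal] (Q : Sylow p G) : Sylow p (G ⧸ K) :=
  Q.mapSurjective (QuotientGroup.mk'_surjective K)

theorem coe_piS (K : Subgroup G) [K.Normal] (Q : Sylow p G) :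
    ((piS K Q : Sylow p (G ⧸ K)) : Subgroup (G ⧸ K)) = (Q : Subgroup G).map (QuotientGroup.mk' K) :=
  Sylow.coe_mapSurjective _ _

theorem piS_surjective (K : Subgroup G) [K.Normal] :
    Function.Surjective (piS K : Sylow p G → Sylow p (G ⧸ K)) :=
  Sylow.mapSurjective_surjective (QuotientGroup.mk'_surjective K) p

theorem mem_smul_sylow {m x : G} {Q : Sylow p G} :
    x ∈ ((m • Q : Sylow p G) : Subgroup G) ↔ m⁻¹ * x * m ∈ (Q : Subgroup G) := by
  rw [Sylow.coe_subgroup_smul, Subgroup.mem_pointwise_smul_iff_inv_smul_mem]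
  simp [MulAut.smul_def]

theorem mem_normal_mul (K L : Subgroup G) [K.Normal] {y : G} (hy : y ∈ K ⊔ L) :
    ∃ m ∈ K, ∃ q ∈ L, m * q = y := by
  rw [← SetLike.mem_coe, Subgroup.normal_mul] at hy
  obtain ⟨m, hm, q, hq, h⟩ := Set.mem_mul.mp hy
  exact ⟨m, hm, q, hq, h⟩

theorem inf_sylow_eq_bot (K : Subgroup G) (hK : (Nat.card K).Coprime p) (Q : Sylow p G) :
    K ⊓ (Q : Subgroup G) = ⊥ := by
  apply Subgroup.inf_eq_bot_of_coprime
  obtain ⟨n, hn⟩ := IsPGroup.iff_card.mp Q.isPGroup'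
  rw [hn]
  exact Nat.Coprime.pow_right n hK

theorem comm_of_mem_conj (K : Subgroup G) [hn : K.Normal] (hK : (Nat.card K).Coprime p) (Q : Sylow p G)
    {m h : G} (hm : m ∈ K) (h1 : h ∈ (Q : Subgroup G)) (h2 : m⁻¹ * h * m ∈ (Q : Subgroup G)) :
    h * m = m * h := by
  have h3 : m⁻¹ * h * m * h⁻¹ ∈ K ⊓ (Q : Subgroup G) := by
    refine ⟨?_, Subgroup.mul_mem _ h2 (Subgroup.inv_mem _ h1)⟩
    have h4 : h * m * h⁻¹ ∈ K := hn.conj_mem m hm h
    have h5 : m⁻¹ * h * m * h⁻¹ = m⁻¹ * (h * m * h⁻¹) := by group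
    rw [h5]
    exact K.mul_mem (K.inv_mem hm) h4
  rw [inf_sylow_eq_bot K hK Q, Subgroup.mem_bot] at h3
  have h6 : m⁻¹ * h * m = h := by
    rw [mul_inv_eq_one] at h3
    exact h3
  calc h * m = m * (m⁻¹ * h * m) := by group
    _ = m * h := by rw [h6]

theorem piS_smul_of_mem (K : Subgroup G) [K.Normal] {m : G} (hm : m ∈ K) (Q : Sylow p G) :
    piS K (m • Q) = piS K Q := by
  apply Sylow.ext
  rw [coe_piS, coe_piS]
  have hm' : (QuotientGroup.mk' K) m = 1 := by
    rw [QuotientGroup.mk'_apply, QuotientGroup.eq_one_iff]; exact hm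
  apply le_antisymm
  · rintro _ ⟨x, hx, rfl⟩
    have hx' := mem_smul_sylow.mp hx
    refine ⟨_, hx', ?_⟩
    rw [map_mul, map_mul, map_inv, hm', inv_one, one_mul, mul_one]
  · rintro _ ⟨x, hx, rfl⟩
    refine ⟨m * x * m⁻¹, ?_, by rw [map_mul, map_mul, map_inv, hm', inv_one, one_mul, mul_one]⟩
    apply mem_smul_sylow.mpr
    have h2 : m⁻¹ * (m * x * m⁻¹) * m = x := by group
    rw [h2]
    exact hx

theorem exists_smul_of_piS_eq (K : Subgroup G) [hn : K.Normal] {Q Q' : Sylow p G}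
    (h : piS K Q = piS K Q') : ∃ m ∈ K, Q' = m • Q := by
  set T := K ⊔ (Q : Subgroup G) with hT
  have hQ : (Q : Subgroup G) ≤ T := le_sup_right
  have hQ' : (Q' : Subgroup G) ≤ T := by
    intro x hx
    have h1 : (QuotientGroup.mk' K) x ∈ ((piS K Q' : Sylow p (G ⧸ K)) : Subgroup (G ⧸ K)) := by
      rw [coe_piS]; exact ⟨x, hx, rfl⟩
    rw [← h, coe_piS] at h1
    obtain ⟨q, hq, hqx⟩ := h1
    have h2 : q⁻¹ * x ∈ K := by
      rw [← QuotientGroup.eq]
      exact hqx
    have h3 : x = q * (q⁻¹ * x) := by group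
    rw [h3]
    exact T.mul_mem (hQ hq) ((le_sup_left : K ≤ T) h2)
  obtain ⟨x, hx⟩ := MulAction.exists_smul_eq T (Q.subtype hQ) (Q'.subtype hQ')
  obtain ⟨m, hm, q, hq, hmq⟩ := mem_normal_mul K (Q : Subgroup G) x.2
  refine ⟨m, hm, ?_⟩
  have hqQ : q • Q = Q := by
    rw [Sylow.smul_eq_iff_mem_normalizer]
    exact Subgroup.le_normalizer hq
  have hxQ : (x : G) • Q = m • Q := by
    rw [← hmq, mul_smul, hqQ]
  rw [← hxQ]
  -- `Q' ≤ x • Q`
  symm
  apply Sylow.ext
  apply Q'.is_maximal' (((x : G) • Q).isPGroup')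
  intro y hy
  have h1 : (⟨y, hQ' hy⟩ : T) ∈ ((Q'.subtype hQ' : Sylow p T) : Subgroup T) := by
    rw [Sylow.coe_subtype]; exact hy
  rw [← hx, mem_smul_sylow, Sylow.coe_subtype] at h1
  exact mem_smul_sylow.mpr h1

theorem exists_sylow_of_map_le (K : Subgroup G) [hn : K.Normal] {H : Subgroup G} (hH : IsPGroup p H)
    (Qb : Sylow p (G ⧸ K)) (h : H.map (QuotientGroup.mk' K) ≤ (Qb : Subgroup (G ⧸ K))) :
    ∃ Q : Sylow p G, piS K Q = Qb ∧ H ≤ (Q : Subgroup G) := by
  obtain ⟨Q₀, rfl⟩ := piS_surjective K Qb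
  rw [coe_piS] at h
  set T := K ⊔ (Q₀ : Subgroup G) with hT
  have hQ : (Q₀ : Subgroup G) ≤ T := le_sup_right
  have hHT : H ≤ T := by
    intro x hx
    obtain ⟨q, hq, hqx⟩ := h ⟨x, hx, rfl⟩
    have h2 : q⁻¹ * x ∈ K := by
      rw [← QuotientGroup.eq]
      exact hqx
    have h3 : x = q * (q⁻¹ * x) := by group
    rw [h3]
    exact T.mul_mem (hQ hq) ((le_sup_left : K ≤ T) h2)
  have hHTp : IsPGroup p (H.subgroupOf T) := hH.comap_of_injective T.subtype T.subtype_injective
  obtain ⟨S, hS⟩ := hHTp.exists_le_sylow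
  obtain ⟨x, hx⟩ := MulAction.exists_smul_eq T (Q₀.subtype hQ) S
  obtain ⟨m, hm, q, hq, hmq⟩ := mem_normal_mul K (Q₀ : Subgroup G) x.2
  have hqQ : q • Q₀ = Q₀ := by
    rw [Sylow.smul_eq_iff_mem_normalizer]
    exact Subgroup.le_normalizer hq
  have hxQ : (x : G) • Q₀ = m • Q₀ := by
    rw [← hmq, mul_smul, hqQ]
  refine ⟨m • Q₀, piS_smul_of_mem K hm Q₀, ?_⟩
  rw [← hxQ]
  intro y hy
  have h1 : (⟨y, hHT hy⟩ : T) ∈ (S : Subgroup T) := hS hy
  rw [← hx, mem_smul_sylow, Sylow.coe_subtype] at h1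
  exact mem_smul_sylow.mpr h1

theorem mem_normalizer_of_commute {Q : Subgroup G} {y : G} (hy : ∀ a ∈ Q, a * y = y * a) :
    y ∈ Subgroup.normalizer (Q : Set G) := by
  rw [Subgroup.mem_normalizer_iff]
  intro a
  constructor
  · intro ha
    have : y * a * y⁻¹ = a := by
      rw [← hy a ha]; group
    rw [this]; exact ha
  · intro ha
    have h7 := hy _ ha
    have h8 : y * a * y⁻¹ = a := by
      have h9 : y * (y * a * y⁻¹) = y * a := by
        rw [← h7]; group
      exact mul_left_cancel h9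
    rw [← h8]; exact ha

theorem card_fibre_mul (K : Subgroup G) [hn : K.Normal] (hK : (Nat.card K).Coprime p)
    {H : Subgroup G} (Q : Sylow p G) (hHQ : H ≤ (Q : Subgroup G)) :
    Nat.card {Q' : Sylow p G // piS K Q' = piS K Q ∧ H ≤ (Q' : Subgroup G)} *
      Nat.card (cK K (Q : Subgroup G)) = Nat.card (cK K H) := by
  have hcard := Subgroup.index_mul_card (MulAction.stabilizer (cK K H) Q)
  rw [MulAction.index_stabilizer] at hcard
  rw [← hcard]
  congr 1
  · rw [← Nat.card_coe_set_eq]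
    apply Nat.card_congr
    refine Equiv.subtypeEquivRight ?_
    intro Q'
    constructor
    · rintro ⟨h1, h2⟩
      obtain ⟨m, hm, rfl⟩ := exists_smul_of_piS_eq K h1.symm
      have hmc : m ∈ cK K H := by
        rw [mem_cK]
        refine ⟨hm, fun a ha => ?_⟩
        have h3 : a ∈ ((m • Q : Sylow p G) : Subgroup G) := h2 ha
        exact comm_of_mem_conj K hK Q hm (hHQ ha) (mem_smul_sylow.mp h3)
      exact ⟨⟨m, hmc⟩, rfl⟩
    · rintro ⟨⟨m, hm⟩, rfl⟩
      rw [mem_cK] at hm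
      refine ⟨piS_smul_of_mem K hm.1 Q, ?_⟩
      intro a ha
      apply mem_smul_sylow.mpr
      have h4 := hm.2 a ha
      have h5 : m⁻¹ * a * m = a := by
        calc m⁻¹ * a * m = m⁻¹ * (a * m) := by group
          _ = m⁻¹ * (m * a) := by rw [h4]
          _ = a := by group
      rw [h5]
      exact hHQ ha
  · apply Nat.card_congr
    refine ⟨fun y => ⟨⟨y.1, ?_⟩, ?_⟩, fun s => ⟨s.1.1, ?_⟩, ?_, ?_⟩
    · have hy := mem_cK.mp y.2
      exact mem_cK.mpr ⟨hy.1, fun a ha => hy.2 a (hHQ ha)⟩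
    · have hy := mem_cK.mp y.2
      rw [MulAction.mem_stabilizer_iff]
      change (y.1 : G) • Q = Q
      rw [Sylow.smul_eq_iff_mem_normalizer]
      exact mem_normalizer_of_commute hy.2
    · have hs1 := mem_cK.mp s.1.2
      have hs2 : (s.1.1 : G) • Q = Q := s.2
      refine mem_cK.mpr ⟨hs1.1, fun a ha => ?_⟩
      refine comm_of_mem_conj K hK Q hs1.1 ha ?_
      have h3 : a ∈ (((s.1.1 : G) • Q : Sylow p G) : Subgroup G) := by rw [hs2]; exact ha
      exact mem_smul_sylow.mp h3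
    · intro y
      rfl
    · intro s
      rfl

theorem card_cK_sylow_eq (K : Subgroup G) [hn : K.Normal] (Q₁ Q₂ : Sylow p G) :
    Nat.card (cK K (Q₁ : Subgroup G)) = Nat.card (cK K (Q₂ : Subgroup G)) := by
  obtain ⟨g, rfl⟩ := MulAction.exists_smul_eq G Q₁ Q₂
  apply Nat.card_congr
  refine ⟨fun x => ⟨g * x.1 * g⁻¹, ?_⟩, fun y => ⟨g⁻¹ * y.1 * g, ?_⟩, ?_, ?_⟩
  · have hx := mem_cK.mp x.2
    refine mem_cK.mpr ⟨hn.conj_mem _ hx.1 g, fun a ha => ?_⟩
    have h1 := hx.2 _ (mem_smul_sylow.mp ha)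
    have h2 : g * ((g⁻¹ * a * g) * x.1) * g⁻¹ = g * (x.1 * (g⁻¹ * a * g)) * g⁻¹ := by rw [h1]
    calc a * (g * x.1 * g⁻¹) = g * ((g⁻¹ * a * g) * x.1) * g⁻¹ := by group
      _ = g * (x.1 * (g⁻¹ * a * g)) * g⁻¹ := h2
      _ = g * x.1 * g⁻¹ * a := by group
  · have hy := mem_cK.mp y.2
    refine mem_cK.mpr ⟨?_, fun a ha => ?_⟩
    · have := hn.conj_mem _ hy.1 g⁻¹
      simpa using this
    · have h0 : g * a * g⁻¹ ∈ ((g • Q₁ : Sylow p G) : Subgroup G) := by
        apply mem_smul_sylow.mpr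
        have : g⁻¹ * (g * a * g⁻¹) * g = a := by group
        rw [this]; exact ha
      have h1 := hy.2 _ h0
      have h2 : g⁻¹ * ((g * a * g⁻¹) * y.1) * g = g⁻¹ * (y.1 * (g * a * g⁻¹)) * g := by rw [h1]
      calc a * (g⁻¹ * y.1 * g) = g⁻¹ * ((g * a * g⁻¹) * y.1) * g := by group
        _ = g⁻¹ * (y.1 * (g * a * g⁻¹)) * g := h2
        _ = g⁻¹ * y.1 * g * a := by group
  · intro x
    apply Subtype.ext
    simp [mul_assoc]
  · intro y
    apply Subtype.ext
    simp [mul_assoc]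

theorem card_le_sylow_mul (K : Subgroup G) [hn : K.Normal] (hK : (Nat.card K).Coprime p)
    {H : Subgroup G} (hH : IsPGroup p H) (P₀ : Sylow p G) :
    Nat.card {Q : Sylow p G // H ≤ (Q : Subgroup G)} * Nat.card (cK K (P₀ : Subgroup G)) =
      Nat.card {Qb : Sylow p (G ⧸ K) // H.map (QuotientGroup.mk' K) ≤ (Qb : Subgroup (G ⧸ K))} *
        Nat.card (cK K H) := by
  classical
  haveI := Fintype.ofFinite (Sylow p G)
  haveI := Fintype.ofFinite (Sylow p (G ⧸ K))
  have h1 : Nat.card {Q : Sylow p G // H ≤ (Q : Subgroup G)} =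
      ∑ Qb : Sylow p (G ⧸ K), Nat.card {Q : Sylow p G // piS K Q = Qb ∧ H ≤ (Q : Subgroup G)} := by
    let f : {Q : Sylow p G // H ≤ (Q : Subgroup G)} → Sylow p (G ⧸ K) := fun Q => piS K Q.1
    rw [← Nat.card_congr (Equiv.sigmaFiberEquiv f), Nat.card_sigma]
    apply Finset.sum_congr rfl
    intro Qb _
    apply Nat.card_congr
    refine ⟨fun x => ⟨x.1.1, x.2, x.1.2⟩, fun y => ⟨⟨y.1, y.2.2⟩, y.2.1⟩, ?_, ?_⟩
    · intro x; rfl
    · intro y; rfl
  have h2 : Nat.card {Qb : Sylow p (G ⧸ K) // H.map (QuotientGroup.mk' K) ≤ (Qb : Subgroup (G ⧸ K))} =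
      ∑ Qb : Sylow p (G ⧸ K), if H.map (QuotientGroup.mk' K) ≤ (Qb : Subgroup (G ⧸ K)) then 1 else 0 := by
    rw [Nat.card_eq_fintype_card, Fintype.card_subtype, Finset.card_filter]
  rw [h1, h2, Finset.sum_mul, Finset.sum_mul]
  apply Finset.sum_congr rfl
  intro Qb _
  by_cases h3 : H.map (QuotientGroup.mk' K) ≤ (Qb : Subgroup (G ⧸ K))
  · rw [if_pos h3, one_mul]
    obtain ⟨Q, rfl, hQ⟩ := exists_sylow_of_map_le K hH Qb h3
    rw [← card_fibre_mul K hK Q hQ, card_cK_sylow_eq K P₀ Q]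
  · rw [if_neg h3, zero_mul]
    have h4 : IsEmpty {Q : Sylow p G // piS K Q = Qb ∧ H ≤ (Q : Subgroup G)} := by
      constructor
      rintro ⟨Q, rfl, hQ⟩
      apply h3
      rw [coe_piS]
      exact Subgroup.map_mono hQ
    rw [Nat.card_of_isEmpty, zero_mul]

theorem card_subN_of_coprime (K : Subgroup G) [hn : K.Normal] (hK : (Nat.card K).Coprime p)
    {H : Subgroup G} (hH : IsPGroup p H) :
    Nat.card (subN p H) = Nat.card (cK K H) * Nat.card (subN p (H.map (QuotientGroup.mk' K))) := by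
  obtain ⟨P₀⟩ : Nonempty (Sylow p G) := inferInstance
  have E1 : CountClaim p H := countClaim _ G rfl H hH
  have E2 : CountClaim p (H.map (QuotientGroup.mk' K)) := countClaim _ (G ⧸ K) rfl _ (hH.map _)
  unfold CountClaim at E1 E2
  have E3 := card_le_sylow_mul K hK hH P₀
  have E4 := card_le_sylow_mul K hK (H := ⊥) IsPGroup.of_bot P₀
  have h1 : Nat.card {Q : Sylow p G // (⊥ : Subgroup G) ≤ (Q : Subgroup G)} = Nat.card (Sylow p G) :=
    Nat.card_congr (Equiv.subtypeUnivEquiv (fun Q => bot_le))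
  have h2 : Nat.card {Qb : Sylow p (G ⧸ K) // ((⊥ : Subgroup G).map (QuotientGroup.mk' K)) ≤ (Qb : Subgroup (G ⧸ K))} =
      Nat.card (Sylow p (G ⧸ K)) :=
    Nat.card_congr (Equiv.subtypeUnivEquiv (fun Q => by simp))
  have h3 : Nat.card (cK K (⊥ : Subgroup G)) = Nat.card K := by
    have h4 : cK K (⊥ : Subgroup G) = K := by
      ext x
      constructor
      · exact fun h => (mem_cK.mp h).1
      · intro hx
        exact mem_cK.mpr ⟨hx, fun a ha => by rw [Subgroup.mem_bot.mp ha]; simp⟩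
    rw [h4]
  rw [h1, h2, h3] at E4
  have E5 : Nat.card G = Nat.card (G ⧸ K) * Nat.card K := Subgroup.card_eq_card_quotient_mul_card_subgroup K
  set a := Nat.card (subN p H)
  set b := Nat.card (subN p (H.map (QuotientGroup.mk' K)))
  set n := Nat.card (Sylow p G)
  set nb := Nat.card (Sylow p (G ⧸ K))
  set l := Nat.card {Q : Sylow p G // H ≤ (Q : Subgroup G)}
  set lb := Nat.card {Qb : Sylow p (G ⧸ K) // H.map (QuotientGroup.mk' K) ≤ (Qb : Subgroup (G ⧸ K))}
  set d := Nat.card (cK K (P₀ : Subgroup G))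
  set c := Nat.card (cK K H)
  have hn : 0 < n := Nat.card_pos
  have hnb : 0 < nb := Nat.card_pos
  have hd : 0 < d := Nat.card_pos
  have hpos : 0 < n * nb * d := by positivity
  apply Nat.eq_of_mul_eq_mul_right hpos
  calc a * (n * nb * d) = (a * n) * nb * d := by ring
    _ = (l * Nat.card G) * nb * d := by rw [E1]
    _ = (l * d) * Nat.card G * nb := by ring
    _ = (lb * c) * Nat.card G * nb := by rw [E3]
    _ = (lb * c) * (Nat.card (G ⧸ K) * Nat.card K) * nb := by rw [E5]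
    _ = c * (lb * Nat.card (G ⧸ K)) * (nb * Nat.card K) := by ring
    _ = c * (b * nb) * (n * d) := by rw [← E2, E4]
    _ = c * b * (n * nb * d) := by ring

end coprime

section chain

variable {p : ℕ} [Fact p.Prime]

theorem chain_formula : ∀ (n : ℕ) (X : Type u) [Group X] [Finite X] (H : Subgroup X) (_ : IsPGroup p H)
    (P : Sylow p X)
    (M : Fin (n + 1) → Subgroup X) (_ : M 0 = ⊥) (_ : M (Fin.last n) = ⊤) (_ : Monotone M)
    (_ : ∀ i, (M i).Normal)
    (_ : ∀ i : Fin n, (∃ m : ℕ, (M i.castSucc).relIndex (M i.succ) = p ^ m) ∨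
      ((M i.castSucc).relIndex (M i.succ)).Coprime p),
    Nat.card (subN p H) = Nat.card (P : Subgroup X) *
        ∏ i : Fin n, (if ((M i.castSucc).relIndex (M i.succ)).Coprime p then
          Nat.card {u : X // u ∈ M i.succ ∧ ∀ h ∈ H, h * u * h⁻¹ * u⁻¹ ∈ M i.castSucc} / Nat.card (M i.castSucc)
          else 1) := by
  intro n
  induction n with
  | zero =>
    intro X _ _ H hH P M h0 hn _ _ _
    have h1 : (⊥ : Subgroup X) = ⊤ := by
      rw [← h0, ← hn]; rfl
    haveI : Subsingleton X := by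
      rw [← Subgroup.subsingleton_iff]
      exact subsingleton_of_bot_eq_top h1
    have h2 : Nat.card (subN p H) = 1 := by
      rw [Nat.card_eq_one_iff_unique]
      exact ⟨inferInstance, ⟨⟨1, H, hH, le_rfl, Subgroup.one_mem _⟩⟩⟩
    have h3 : Nat.card (P : Subgroup X) = 1 := by
      rw [Nat.card_eq_one_iff_unique]
      exact ⟨inferInstance, inferInstance⟩
    simp [h2, h3]
  | succ n ih =>
    intro X _ _ H hH P M h0 hn hmono hnormal hfac
    set K := M (Fin.succ 0) with hK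
    haveI hKn : K.Normal := hnormal _
    have hKle : ∀ j : Fin (n + 1), K ≤ M j.succ := fun j =>
      hmono (Fin.succ_le_succ_iff.mpr (Fin.zero_le j))
    let Mb : Fin (n + 1) → Subgroup (X ⧸ K) := fun j => (M j.succ).map (QuotientGroup.mk' K)
    obtain ⟨Pb⟩ : Nonempty (Sylow p (X ⧸ K)) := inferInstance
    have hmk : Function.Surjective (QuotientGroup.mk' K) := QuotientGroup.mk'_surjective K
    have hrel : ∀ i : Fin n, (Mb i.castSucc).relIndex (Mb i.succ) =
        (M i.succ.castSucc).relIndex (M i.succ.succ) := by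
      intro i
      change ((M i.castSucc.succ).map (QuotientGroup.mk' K)).relIndex ((M i.succ.succ).map (QuotientGroup.mk' K)) = _
      rw [Subgroup.relIndex_map_map, QuotientGroup.ker_mk', sup_eq_left.mpr (hKle _),
        sup_eq_left.mpr (hKle _), Fin.succ_castSucc]
    have key := ih (X ⧸ K) (H.map (QuotientGroup.mk' K)) (hH.map _) Pb Mb
      (by
        change (M (Fin.succ 0)).map (QuotientGroup.mk' K) = ⊥
        rw [← hK]
        exact QuotientGroup.map_mk'_self K)
      (by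
        change (M (Fin.last n).succ).map (QuotientGroup.mk' K) = ⊤
        rw [Fin.succ_last, hn]
        exact Subgroup.map_top_of_surjective _ hmk)
      (fun a b hab => Subgroup.map_mono (hmono (Fin.succ_le_succ_iff.mpr hab)))
      (fun i => (hnormal _).map _ hmk)
      (fun i => by
        rw [hrel]
        exact hfac i.succ)
    have hprod : ∀ i : Fin n,
        (if ((Mb i.castSucc).relIndex (Mb i.succ)).Coprime p then
          Nat.card {u : X ⧸ K // u ∈ Mb i.succ ∧ ∀ h ∈ H.map (QuotientGroup.mk' K), h * u * h⁻¹ * u⁻¹ ∈ Mb i.castSucc} /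
            Nat.card (Mb i.castSucc) else 1) =
        (if ((M i.succ.castSucc).relIndex (M i.succ.succ)).Coprime p then
          Nat.card {u : X // u ∈ M i.succ.succ ∧ ∀ h ∈ H, h * u * h⁻¹ * u⁻¹ ∈ M i.succ.castSucc} /
            Nat.card (M i.succ.castSucc) else 1) := by
      intro i
      rw [hrel]
      split_ifs with hc
      · rw [← Fin.succ_castSucc]
        rw [card_cnt_mk_mul K (M i.castSucc.succ) (M i.succ.succ) H (hKle _) (hKle _),
          card_map_mk_mul K (M i.castSucc.succ) (hKle _)]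
        rw [Nat.mul_div_mul_right _ _ (Nat.card_pos)]
      · rfl
    rw [Fin.prod_univ_succ]
    have hfac0 := hfac 0
    have hrel0 : (M (Fin.castSucc 0)).relIndex (M (Fin.succ 0)) = Nat.card K := by
      have : Fin.castSucc (0 : Fin (n + 1)) = 0 := rfl
      rw [this, h0, Subgroup.relIndex_bot_left]
    rw [hrel0] at hfac0 ⊢
    have hXcard : Nat.card X = Nat.card (X ⧸ K) * Nat.card K :=
      Subgroup.card_eq_card_quotient_mul_card_subgroup K
    have hX0 : Nat.card X ≠ 0 := Nat.card_pos.ne'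
    have hXb0 : Nat.card (X ⧸ K) ≠ 0 := Nat.card_pos.ne'
    have hK0 : Nat.card K ≠ 0 := Nat.card_pos.ne'
    have hPcard : Nat.card (P : Subgroup X) = p ^ (Nat.factorization (Nat.card X) p) := P.card_eq_multiplicity
    have hPbcard : Nat.card (Pb : Subgroup (X ⧸ K)) = p ^ (Nat.factorization (Nat.card (X ⧸ K)) p) :=
      Pb.card_eq_multiplicity
    have hfact : Nat.factorization (Nat.card X) p =
        Nat.factorization (Nat.card (X ⧸ K)) p + Nat.factorization (Nat.card K) p := by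
      rw [hXcard, Nat.factorization_mul hXb0 hK0]
      rfl
    by_cases hcop : (Nat.card K).Coprime p
    · rw [if_pos hcop]
      have h3 : Nat.factorization (Nat.card K) p = 0 := by
        apply Nat.factorization_eq_zero_of_not_dvd
        intro h4
        have h5 := Nat.Coprime.eq_one_of_dvd hcop.symm h4
        exact (Fact.out : p.Prime).one_lt.ne' h5
      have h4 : Nat.card (P : Subgroup X) = Nat.card (Pb : Subgroup (X ⧸ K)) := by
        rw [hPcard, hPbcard, hfact, h3, add_zero]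
      have h5 : Nat.card {u : X // u ∈ M (Fin.succ 0) ∧ ∀ h ∈ H, h * u * h⁻¹ * u⁻¹ ∈ M (Fin.castSucc 0)} /
          Nat.card (M (Fin.castSucc 0)) = Nat.card (cK K H) := by
        have h6 : Fin.castSucc (0 : Fin (n + 1)) = 0 := rfl
        rw [h6, h0, Subgroup.card_bot, Nat.div_one]
        apply Nat.card_congr
        refine ⟨fun u => ⟨u.1, mem_cK.mpr ⟨u.2.1, fun a ha => ?_⟩⟩,
          fun u => ⟨u.1, (mem_cK.mp u.2).1, fun a ha => ?_⟩, ?_, ?_⟩
        · have h7 := u.2.2 a ha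
          rw [Subgroup.mem_bot] at h7
          rw [mul_inv_eq_one, mul_inv_eq_iff_eq_mul] at h7
          exact h7
        · have h7 := (mem_cK.mp u.2).2 a ha
          rw [Subgroup.mem_bot, mul_inv_eq_one, mul_inv_eq_iff_eq_mul]
          exact h7
        · intro u; rfl
        · intro u; rfl
      rw [h5, card_subN_of_coprime K hcop hH, key, h4, Finset.prod_congr rfl (fun i _ => hprod i)]
      ring
    · rw [if_neg hcop, one_mul]
      obtain ⟨m, hm⟩ : ∃ m, Nat.card K = p ^ m := by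
        rcases hfac0 with h | h
        · exact h
        · exact absurd h hcop
      have hKp : IsPGroup p K := IsPGroup.of_card hm
      have h4 : Nat.card (P : Subgroup X) = Nat.card (Pb : Subgroup (X ⧸ K)) * Nat.card K := by
        rw [hPcard, hPbcard, hfact, pow_add, hm]
        congr 2
        rw [Nat.Prime.factorization_pow Fact.out]
        simp
      rw [card_subN_of_isPGroup K hKp H, key, h4, Finset.prod_congr rfl (fun i _ => hprod i)]
      ring

end chain

/-- Let G be a finite p-solvable group, H a p-subgroup of G and P a Sylow p-subgroup, and fix a chain of normal subgroups 1 = M₀ ≤ M₁ ≤ ⋯ ≤ Mₙ = G of G each of whose factors is a p-group or a p'-group. Then the number of elements g of G such that H is subnormal in the subgroup generated by H and g equals the order of P times the product, over the factors Mᵢ₊₁/Mᵢ of order prime to p, of the order of the centralizer of H in Mᵢ₊₁/Mᵢ (counted as the number of u ∈ Mᵢ₊₁ with [h, u] ∈ Mᵢ for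 all h ∈ H, divided by the order of Mᵢ). -/
theorem result {G : Type*} [Group G] [Finite G] (p : ℕ) [Fact p.Prime]
    (hG : Cfsg.IsPSolvable p G) (H : Subgroup G) (hH : IsPGroup p H) (P : Sylow p G)
    (n : ℕ) (M : Fin (n + 1) → Subgroup G) (h0 : M 0 = ⊥) (hn : M (Fin.last n) = ⊤) (hmono : Monotone M)
    (hnormal : ∀ i, (M i).Normal)
    (hfac : ∀ i : Fin n, (∃ m : ℕ, (M i.castSucc).relIndex (M i.succ) = p ^ m) ∨ ((M i.castSucc).relIndex (M i.succ)).Coprime p) :
    Nat.card {g : G // ((H).subgroupOf (H ⊔ Subgroup.zpowers g)).IsSubnormal} =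
      Nat.card (P : Subgroup G) *
        ∏ i : Fin n, (if ((M i.castSucc).relIndex (M i.succ)).Coprime p then
          Nat.card {u : G // u ∈ M i.succ ∧ ∀ h ∈ H, h * u * h⁻¹ * u⁻¹ ∈ M i.castSucc} / Nat.card (M i.castSucc)
          else 1) := by
  have h0' : Nat.card {g : G // ((H).subgroupOf (H ⊔ Subgroup.zpowers g)).IsSubnormal} = Nat.card (subN p H) :=
    Nat.card_congr (Equiv.subtypeEquivRight (subnormal_iff hH))
  rw [h0']
  exact chain_formula n G H hH P M h0 hn hmono hnormal hfac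

end Cfsg.Agent.S4090
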