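import Mathlib
import Cfsg.Statements.S4091
import Cfsg.Agent.Lib.BrauerWielandt
import Cfsg.Agent.S4090

set_option autoImplicit false
open Cfsg
open scoped Pointwise

namespace Cfsg.Agent.S4091

open Cfsg.Agent.S4090

universe u v

section Fix

variable {K : Type u} [Group K]

/-- Fixed points of an automorphism. -/
def Fx (γ : MulAut K) : Subgroup K where
  carrier := {k | γ k = k}
  mul_mem' := by
    intro a b ha hb
    simp only [Set.mem_setOf_eq] at *
    rw [map_mul, ha, hb]
  one_mem' := map_one _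
  inv_mem' := by
    intro a ha
    simp only [Set.mem_setOf_eq] at *
    rw [map_inv, ha]

theorem mem_Fx {γ : MulAut K} {k : K} : k ∈ Fx γ ↔ γ k = k := Iff.rfl

/-- Restriction of an automorphism to an invariant subgroup. -/
def restr (F : Subgroup K) (γ : MulAut K) (h : ∀ k, γ k ∈ F ↔ k ∈ F) : MulAut F where
  toFun k := ⟨γ k, (h k).2 k.2⟩
  invFun k := ⟨γ⁻¹ k, by rw [← h]; simpa using k.2⟩
  left_inv k := by ext; simp
  right_inv k := by ext; simp
  map_mul' a b := by ext; simp

theorem coe_restr (F : Subgroup K) (γ : MulAut K) (h : ∀ k, γ k ∈ F ↔ k ∈ F) (k : F) :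
    ((restr F γ h k : F) : K) = γ k := rfl

/-- Relation: `γ'` is the restriction of `γ`. -/
def IsRestr (F : Subgroup K) (γ' : MulAut F) (γ : MulAut K) : Prop :=
  ∀ k : F, (γ' k : K) = γ k

theorem isRestr_restr (F : Subgroup K) (γ : MulAut K) (h : ∀ k, γ k ∈ F ↔ k ∈ F) :
    IsRestr F (restr F γ h) γ := fun _ => rfl

theorem IsRestr.mul {F : Subgroup K} {a' b' : MulAut F} {a b : MulAut K} (ha : IsRestr F a' a)
    (hb : IsRestr F b' b) : IsRestr F (a' * b') (a * b) := by
  intro k
  show ((a' (b' k) : F) : K) = a (b k)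
  rw [ha, hb]

theorem IsRestr.pow {F : Subgroup K} {a' : MulAut F} {a : MulAut K} (ha : IsRestr F a' a) (n : ℕ) :
    IsRestr F (a' ^ n) (a ^ n) := by
  induction n with
  | zero =>
    intro k
    simp
  | succ n ih =>
    rw [pow_succ, pow_succ]
    exact ih.mul ha

theorem IsRestr.Fx_eq {F : Subgroup K} {a' : MulAut F} {a : MulAut K} (ha : IsRestr F a' a) :
    Fx a' = (F ⊓ Fx a).subgroupOf F := by
  ext k
  rw [Subgroup.mem_subgroupOf, mem_Fx, Subgroup.mem_inf, mem_Fx]
  constructor
  · intro h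
    refine ⟨k.2, ?_⟩
    rw [← ha, h]
  · rintro ⟨_, h⟩
    apply Subtype.ext
    rw [ha, h]

theorem card_subgroupOf_inf (F U : Subgroup K) : Nat.card ((F ⊓ U).subgroupOf F) = Nat.card (F ⊓ U : Subgroup K) :=
  Nat.card_congr (Subgroup.subgroupOfEquivOfLe inf_le_left).toEquiv

theorem IsRestr.card_Fx {F : Subgroup K} {a' : MulAut F} {a : MulAut K} (ha : IsRestr F a' a) :
    Nat.card (Fx a') = Nat.card (F ⊓ Fx a : Subgroup K) := by
  rw [ha.Fx_eq, card_subgroupOf_inf]

theorem card_mul_card_le [Finite K] (U V : Subgroup K) :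
    Nat.card U * Nat.card V ≤ Nat.card K * Nat.card (U ⊓ V : Subgroup K) := by
  have h1 := Cfsg.Agent.Lib.BrauerWielandt.card_of_set_mul' (W := (U : Set K) * (V : Set K)) (U := U) (V := V) rfl
  rw [← h1]
  apply Nat.mul_le_mul_right
  exact Nat.card_le_card_of_injective _ Subtype.val_injective

end Fix

section Base

open SemidirectProduct

variable {K : Type u} [Group K] {L : Type v} [Group L] (ψ : L →* MulAut K)

theorem inr_comm_inl_iff (w : L) (k : K) :
    (inr w : K ⋊[ψ] L) * inl k = inl k * inr w ↔ ψ w k = k := by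
  have h1 := SemidirectProduct.inl_aut (φ := ψ) w k
  constructor
  · intro h
    apply SemidirectProduct.inl_injective (φ := ψ)
    rw [h1, h, map_inv]
    group
  · intro h
    rw [h] at h1
    rw [map_inv] at h1
    calc (inr w : K ⋊[ψ] L) * inl k = (inr w * inl k * (inr w)⁻¹) * inr w := by group
      _ = inl k * inr w := by rw [← h1]

theorem inf_centralizer_zpowers [Finite (K ⋊[ψ] L)] (w : L) :
    (inl : K →* K ⋊[ψ] L).range ⊓
        Subgroup.centralizer ((Subgroup.zpowers (inr w : K ⋊[ψ] L) : Subgroup (K ⋊[ψ] L)) : Set (K ⋊[ψ] L)) =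
      (Fx (ψ w)).map inl := by
  ext x
  constructor
  · rintro ⟨⟨k, rfl⟩, h2⟩
    have h3 := Cfsg.Agent.Lib.BrauerWielandt.mem_centralizer_zpowers.mp h2
    exact ⟨k, (inr_comm_inl_iff ψ w k).mp h3, rfl⟩
  · rintro ⟨k, hk, rfl⟩
    refine ⟨⟨k, rfl⟩, ?_⟩
    apply Cfsg.Agent.Lib.BrauerWielandt.mem_centralizer_zpowers.mpr
    exact (inr_comm_inl_iff ψ w k).mpr hk

theorem card_inf_centralizer_zpowers [Finite (K ⋊[ψ] L)] (w : L) :
    Nat.card ↥((inl : K →* K ⋊[ψ] L).range ⊓
        Subgroup.centralizer ((Subgroup.zpowers (inr w : K ⋊[ψ] L) : Subgroup (K ⋊[ψ] L)) : Set (K ⋊[ψ] L))) =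
      Nat.card (Fx (ψ w)) := by
  rw [inf_centralizer_zpowers]
  exact Subgroup.card_map_of_injective inl_injective

theorem mem_centralizer_sup_zpowers {H : Type*} [Group H] [Finite H] {a b x : H} :
    x ∈ Subgroup.centralizer ((Subgroup.zpowers a ⊔ Subgroup.zpowers b : Subgroup H) : Set H) ↔
      a * x = x * a ∧ b * x = x * b := by
  constructor
  · intro h
    have h1 := Subgroup.mem_centralizer_iff.mp h a (Subgroup.mem_sup_left (Subgroup.mem_zpowers a))
    have h2 := Subgroup.mem_centralizer_iff.mp h b (Subgroup.mem_sup_right (Subgroup.mem_zpowers b))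
    exact ⟨h1, h2⟩
  · rintro ⟨h1, h2⟩
    rw [Subgroup.mem_centralizer_iff]
    have hle : Subgroup.zpowers a ⊔ Subgroup.zpowers b ≤ Subgroup.centralizer ({x} : Set H) := by
      refine sup_le ?_ ?_
      · rw [Subgroup.zpowers_le, Subgroup.mem_centralizer_iff]
        rintro _ rfl
        exact h1.symm
      · rw [Subgroup.zpowers_le, Subgroup.mem_centralizer_iff]
        rintro _ rfl
        exact h2.symm
    intro h hh
    exact (Subgroup.mem_centralizer_iff.mp (hle hh) x rfl).symm

theorem inf_centralizer_sup [Finite (K ⋊[ψ] L)] (w w' : L) :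
    (inl : K →* K ⋊[ψ] L).range ⊓
        Subgroup.centralizer ((Subgroup.zpowers (inr w : K ⋊[ψ] L) ⊔ Subgroup.zpowers (inr w' : K ⋊[ψ] L) :
          Subgroup (K ⋊[ψ] L)) : Set (K ⋊[ψ] L)) =
      (Fx (ψ w) ⊓ Fx (ψ w')).map inl := by
  ext x
  constructor
  · rintro ⟨⟨k, rfl⟩, h2⟩
    obtain ⟨h3, h4⟩ := mem_centralizer_sup_zpowers.mp h2
    exact ⟨k, ⟨(inr_comm_inl_iff ψ w k).mp h3, (inr_comm_inl_iff ψ w' k).mp h4⟩, rfl⟩
  · rintro ⟨k, ⟨h3, h4⟩, rfl⟩
    refine ⟨⟨k, rfl⟩, ?_⟩
    apply mem_centralizer_sup_zpowers.mpr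
    exact ⟨(inr_comm_inl_iff ψ w k).mpr h3, (inr_comm_inl_iff ψ w' k).mpr h4⟩

variable {p : ℕ} [hp : Fact p.Prime]

instance finite_semidirect [Finite K] [Finite L] : Finite (K ⋊[ψ] L) :=
  Finite.of_equiv _ SemidirectProduct.equivProd.symm

/-- The Brauer–Wielandt formula for commuting automorphisms of exponent `p`. -/
theorem bw_base [Finite K] (hK : ¬ p ∣ Nat.card K) (α β : MulAut K) (hc : α * β = β * α) (hα : α ^ p = 1)
    (hβ : β ^ p = 1) :
    (∏ i ∈ Finset.range p, Nat.card (Fx (β ^ i * α))) * Nat.card (Fx β) =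
      Nat.card K * Nat.card (Fx α ⊓ Fx β : Subgroup K) ^ p := by
  classical
  haveI : NeZero p := ⟨hp.out.ne_zero⟩
  let ψ : (MulAut K × Multiplicative (ZMod p) × Multiplicative (ZMod p)) →* MulAut K := MonoidHom.fst _ _
  let g : Multiplicative (ZMod p) := Multiplicative.ofAdd 1
  have hg1 : g ≠ 1 := by
    intro h
    have h2 : (1 : ZMod p) = 0 := congrArg Multiplicative.toAdd h
    haveI : Fact (1 < p) := ⟨hp.out.one_lt⟩
    exact one_ne_zero h2
  have hgp : g ^ p = 1 := by
    rw [← ofAdd_nsmul]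
    simp
  let u : MulAut K × Multiplicative (ZMod p) × Multiplicative (ZMod p) := (β, g, 1)
  let v : MulAut K × Multiplicative (ZMod p) × Multiplicative (ZMod p) := (α, 1, g)
  let a : K ⋊[ψ] _ := inr u
  let b : K ⋊[ψ] _ := inr v
  have hab : a * b = b * a := by
    show inr u * inr v = inr v * inr u
    rw [← map_mul, ← map_mul]
    congr 1
    show (β * α, g * 1, 1 * g) = (α * β, 1 * g, g * 1)
    rw [hc]
    simp
  have hu1 : u ≠ 1 := by
    intro h
    exact hg1 (congrArg (fun t => t.2.1) h)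
  have hup : u ^ p = 1 := by
    show (β ^ p, g ^ p, (1 : Multiplicative (ZMod p)) ^ p) = 1
    rw [hβ, hgp, one_pow]
    rfl
  have hvp : v ^ p = 1 := by
    show (α ^ p, (1 : Multiplicative (ZMod p)) ^ p, g ^ p) = 1
    rw [hα, hgp, one_pow]
    rfl
  have ha : orderOf a = p := by
    apply orderOf_eq_prime
    · show (inr u) ^ p = 1
      rw [← map_pow, hup, map_one]
    · intro h
      exact hu1 (SemidirectProduct.inr_injective (φ := ψ) (by rw [map_one]; exact h))
  have hbp : b ^ p = 1 := by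
    show (inr v) ^ p = 1
    rw [← map_pow, hvp, map_one]
  have hb : b ∉ Subgroup.zpowers a := by
    rintro ⟨m, hm⟩
    have h2 : u ^ m = v := by
      apply SemidirectProduct.inr_injective (φ := ψ)
      rw [map_zpow]
      exact hm
    have h3 : (u ^ m).2.2 = g := by rw [h2]
    have h4 : (u ^ m).2.2 = 1 := by
      show ((1 : Multiplicative (ZMod p))) ^ m = 1
      exact one_zpow m
    exact hg1 (h3.symm.trans h4)
  have hL := Cfsg.Agent.Lib.BrauerWielandt.lines_of_pair hab ha hbp hb
  have hTn : ((inl : K →* K ⋊[ψ] _).range).Normal := by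
    rw [SemidirectProduct.range_inl_eq_ker_rightHom]
    exact MonoidHom.normal_ker _
  have hTcard : Nat.card (inl : K →* K ⋊[ψ] _).range = Nat.card K := by
    rw [MonoidHom.range_eq_map]
    rw [Subgroup.card_map_of_injective inl_injective]
    simp
  have hBW := Cfsg.Agent.Lib.BrauerWielandt.bw_general hL (T := (inl : K →* K ⋊[ψ] _).range)
    (by rw [hTcard]; exact hK) (by rw [Subgroup.normalizer_eq_top_iff.mpr hTn]; exact le_top)
  unfold Cfsg.Agent.Lib.BrauerWielandt.BW at hBW
  rw [Fintype.prod_option, hTcard, inf_centralizer_sup ψ u v] at hBW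
  rw [Subgroup.card_map_of_injective inl_injective] at hBW
  have e1 : Nat.card ↥((inl : K →* K ⋊[ψ] _).range ⊓
      Subgroup.centralizer ((Subgroup.zpowers (Cfsg.Agent.Lib.BrauerWielandt.lineGen (p := p) a b none) : Subgroup (K ⋊[ψ] _)) : Set (K ⋊[ψ] _))) =
      Nat.card (Fx β) := card_inf_centralizer_zpowers ψ u
  have e2 : ∀ i : Fin p, Nat.card ↥((inl : K →* K ⋊[ψ] _).range ⊓
      Subgroup.centralizer ((Subgroup.zpowers (Cfsg.Agent.Lib.BrauerWielandt.lineGen a b (some i)) : Subgroup (K ⋊[ψ] _)) : Set (K ⋊[ψ] _))) =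
      Nat.card (Fx (β ^ (i : ℕ) * α)) := by
    intro i
    have e3 : Cfsg.Agent.Lib.BrauerWielandt.lineGen a b (some i) = inr (u ^ (i : ℕ) * v) := by
      show a ^ (i : ℕ) * b = _
      rw [map_mul, map_pow]
    rw [e3, card_inf_centralizer_zpowers ψ (u ^ (i : ℕ) * v)]
    have e4 : ψ (u ^ (i : ℕ) * v) = β ^ (i : ℕ) * α := by
      rw [map_mul, map_pow]
      rfl
    rw [e4]
  beta_reduce at hBW
  rw [e1, Finset.prod_congr rfl (fun i _ => e2 i)] at hBW
  rw [Fin.prod_univ_eq_prod_range (fun i => Nat.card (Fx (β ^ i * α))) p] at hBW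
  have e5 : ψ u = β := rfl
  have e6 : ψ v = α := rfl
  rw [e5, e6, inf_comm] at hBW
  rw [mul_comm, hBW]

end Base

section Main

variable {p : ℕ} [hp : Fact p.Prime]

theorem Fx_le_pow {K : Type u} [Group K] (γ : MulAut K) (n : ℕ) : Fx γ ≤ Fx (γ ^ n) := by
  intro k hk
  induction n with
  | zero => simp [mem_Fx]
  | succ n ih =>
    rw [mem_Fx] at *
    rw [pow_succ, MulAut.mul_apply, hk, ih]

/-- The main step: `∏ᵢ |C(βⁱα)| · |C(β)| ≤ |K| |C(α,β)|^p`. -/
theorem lemA (k : ℕ) : ∀ (K : Type u) [Group K] [Finite K], ¬ p ∣ Nat.card K → ∀ (α β : MulAut K),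
    α * β = β * α → α ^ (p ^ (k + 1)) = 1 → β ^ p = 1 →
    (∏ i ∈ Finset.range p, Nat.card (Fx (β ^ i * α))) * Nat.card (Fx β) ≤
      Nat.card K * Nat.card (Fx α ⊓ Fx β : Subgroup K) ^ p := by
  induction k with
  | zero =>
    intro K _ _ hK α β hc hα hβ
    rw [bw_base hK α β hc (by simpa using hα) hβ]
  | succ k ih =>
    intro K _ _ hK α β hc hα hβ
    set α' := α ^ (p ^ (k + 1)) with hα'
    set F := Fx α' with hF
    have hinv : ∀ γ : MulAut K, γ * α' = α' * γ → ∀ k, γ k ∈ F ↔ k ∈ F := by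
      intro γ hγ k
      have h1 : α' (γ k) = γ (α' k) := by
        have := congrArg (fun t : MulAut K => t k) hγ
        exact this.symm
      constructor
      · intro h
        have h2 : α' (γ k) = γ k := h
        rw [h1] at h2
        exact γ.injective h2
      · intro h
        have h2 : α' k = k := h
        show α' (γ k) = γ k
        rw [h1, h2]
    have hαc : α * α' = α' * α := by
      rw [hα']
      exact (Commute.refl α).pow_right _
    have hβc : β * α' = α' * β := by
      rw [hα']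
      exact (show Commute α β from hc).symm.pow_right _
    let a' := restr F α (hinv α hαc)
    let b' := restr F β (hinv β hβc)
    have ha' : IsRestr F a' α := isRestr_restr _ _ _
    have hb' : IsRestr F b' β := isRestr_restr _ _ _
    have hF1 : ¬ p ∣ Nat.card F := fun h => hK (h.trans (Subgroup.card_subgroup_dvd_card F))
    have hc' : a' * b' = b' * a' := by
      apply MulEquiv.ext
      intro x
      apply Subtype.ext
      have h1 := (ha'.mul hb') x
      have h2 := (hb'.mul ha') x
      rw [h1, h2, hc]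
    have ha'p : a' ^ (p ^ (k + 1)) = 1 := by
      apply MulEquiv.ext
      intro x
      apply Subtype.ext
      rw [ha'.pow _ x]
      exact x.2
    have hb'p : b' ^ p = 1 := by
      apply MulEquiv.ext
      intro x
      apply Subtype.ext
      rw [hb'.pow _ x, hβ]
      rfl
    have IH := ih F hF1 a' b' hc' ha'p hb'p
    have hpow : ∀ i, (β ^ i * α) ^ (p ^ (k + 1)) = α' := by
      intro i
      have h1 : Commute (β ^ i) α := ((show Commute α β from hc).symm).pow_left i
      rw [h1.mul_pow, hα']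
      have h2 : (β ^ i) ^ (p ^ (k + 1)) = 1 := by
        rw [← pow_mul, pow_succ, mul_comm i, mul_comm (p ^ k), mul_assoc, pow_mul, hβ, one_pow]
      rw [h2, one_mul]
    have e1 : ∀ i, Nat.card (Fx (b' ^ i * a')) = Nat.card (Fx (β ^ i * α)) := by
      intro i
      rw [((hb'.pow i).mul ha').card_Fx]
      have h3 : Fx (β ^ i * α) ≤ F := by
        have := Fx_le_pow (β ^ i * α) (p ^ (k + 1))
        rwa [hpow i] at this
      rw [inf_eq_right.mpr h3]
    have e2 : Nat.card (Fx b') = Nat.card (F ⊓ Fx β : Subgroup K) := hb'.card_Fx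
    have e3 : Nat.card (Fx a' ⊓ Fx b' : Subgroup F) = Nat.card (Fx α ⊓ Fx β : Subgroup K) := by
      have h4 : Fx α ≤ F := Fx_le_pow α _
      have h5 : Fx a' ⊓ Fx b' = (Fx α ⊓ Fx β).subgroupOf F := by
        ext x
        rw [Subgroup.mem_subgroupOf, Subgroup.mem_inf, Subgroup.mem_inf, ha'.Fx_eq, hb'.Fx_eq,
          Subgroup.mem_subgroupOf, Subgroup.mem_subgroupOf, Subgroup.mem_inf, Subgroup.mem_inf]
        constructor
        · rintro ⟨⟨_, h6⟩, _, h7⟩
          exact ⟨h6, h7⟩
        · rintro ⟨h6, h7⟩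
          exact ⟨⟨x.2, h6⟩, x.2, h7⟩
      rw [h5]
      exact Nat.card_congr (Subgroup.subgroupOfEquivOfLe (inf_le_left.trans h4)).toEquiv
    have e4 := card_mul_card_le F (Fx β)
    rw [Finset.prod_congr rfl (fun i _ => e1 i), e2, e3] at IH
    set a := ∏ i ∈ Finset.range p, Nat.card (Fx (β ^ i * α))
    set b := Nat.card (Fx α ⊓ Fx β : Subgroup K) ^ p
    set c := Nat.card (F ⊓ Fx β : Subgroup K)
    set d := Nat.card F
    set e := Nat.card (Fx β)
    set f := Nat.card K
    have hc0 : 0 < c := Nat.card_pos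
    have hd0 : 0 < d := Nat.card_pos
    apply Nat.le_of_mul_le_mul_right _ (Nat.mul_pos hc0 hd0)
    calc a * e * (c * d) = (a * c) * (d * e) := by ring
      _ ≤ (d * b) * (f * c) := Nat.mul_le_mul IH e4
      _ = f * b * (c * d) := by ring

end Main

section Main2

variable {p : ℕ} [hp : Fact p.Prime]

/-- A central element of order `p` in the image. -/
theorem exists_central_image {A : Type v} [Group A] [Finite A] (hA : IsPGroup p A) {K : Type u} [Group K]
    [Finite K] (φ : A →* MulAut K) (h : ¬ ∀ x, φ x = 1) :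
    ∃ z : A, φ z ≠ 1 ∧ φ z ^ p = 1 ∧ ∀ x, φ x * φ z = φ z * φ x := by
  have hR : IsPGroup p φ.range := hA.of_surjective φ.rangeRestrict φ.rangeRestrict_surjective
  haveI : Nontrivial φ.range := by
    push_neg at h
    obtain ⟨x, hx⟩ := h
    refine ⟨⟨⟨φ x, ⟨x, rfl⟩⟩, 1, ?_⟩⟩
    intro h2
    exact hx (congrArg Subtype.val h2)
  haveI := hR.center_nontrivial
  have hZ : IsPGroup p (Subgroup.center φ.range) := hR.to_subgroup _
  obtain ⟨m, hm, hmc⟩ := hZ.nontrivial_iff_card.mp inferInstance
  have hdvd : p ∣ Nat.card (Subgroup.center φ.range) := by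
    rw [hmc]
    exact dvd_pow_self p hm.ne'
  obtain ⟨ζ, hζ⟩ := exists_prime_orderOf_dvd_card' p hdvd
  obtain ⟨z, hz⟩ := (ζ : φ.range).2
  refine ⟨z, ?_, ?_, ?_⟩
  · intro h2
    have h3 : ζ = 1 := by
      apply Subtype.ext
      apply Subtype.ext
      rw [← hz, h2]
      rfl
    rw [h3, orderOf_one] at hζ
    exact hp.out.one_lt.ne hζ
  · have h3 : ζ ^ p = 1 := by
      rw [← hζ]
      exact pow_orderOf_eq_one ζ
    have h4 := congrArg (fun t : Subgroup.center φ.range => ((t : φ.range) : MulAut K)) h3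
    simp only [Subgroup.coe_pow, Subgroup.coe_one] at h4
    rw [← hz] at h4
    exact h4
  · intro x
    have h3 := Subgroup.mem_center_iff.mp ζ.2 ⟨φ x, ⟨x, rfl⟩⟩
    have h4 := congrArg Subtype.val h3
    simp only [Subgroup.coe_mul] at h4
    rw [← hz] at h4
    exact h4

theorem mainL {A : Type v} [Group A] [Fintype A] (hA : IsPGroup p A) :
    ∀ (n : ℕ) (K : Type u) [Group K] [Finite K], Nat.card K = n → ¬ p ∣ Nat.card K → ∀ φ : A →* MulAut K,
      (∏ x : A, Nat.card (Fx (φ x))) ^ p ≤
        Nat.card K ^ Fintype.card A * Nat.card (⨅ x : A, Fx (φ x) : Subgroup K) ^ (Fintype.card A * (p - 1)) := by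
  intro n
  induction n using Nat.strong_induction_on with
  | _ n ih =>
    intro K _ _ hn hK φ
    have hp1 : 1 ≤ p := hp.out.one_lt.le
    by_cases htriv : ∀ x, φ x = 1
    · have h1 : ∀ x, Nat.card (Fx (φ x)) = Nat.card K := by
        intro x
        have h2 : Fx (φ x) = ⊤ := by
          ext k
          rw [mem_Fx, htriv x]
          simp
        rw [h2]
        simp
      have h2 : Nat.card (⨅ x : A, Fx (φ x) : Subgroup K) = Nat.card K := by
        have h3 : (⨅ x : A, Fx (φ x) : Subgroup K) = ⊤ := by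
          rw [eq_top_iff]
          refine le_iInf (fun x => ?_)
          intro k _
          rw [mem_Fx, htriv x]
          rfl
        rw [h3]
        simp
      rw [Finset.prod_congr rfl (fun x _ => h1 x), h2, Finset.prod_const, Finset.card_univ, ← pow_add]
      rw [← pow_mul]
      apply le_of_eq
      congr 1
      obtain ⟨q, rfl⟩ : ∃ q, p = q + 1 := ⟨p - 1, by omega⟩
      simp only [Nat.add_sub_cancel]
      ring
    · obtain ⟨z, hz1, hzp, hzc⟩ := exists_central_image hA φ htriv
      set F := Fx (φ z) with hF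
      have hinv : ∀ x k, φ x k ∈ F ↔ k ∈ F := by
        intro x k
        have h1 : φ z (φ x k) = φ x (φ z k) := by
          have := congrArg (fun t : MulAut K => t k) (hzc x)
          exact this.symm
        constructor
        · intro h
          have h2 : φ z (φ x k) = φ x k := h
          rw [h1] at h2
          exact (φ x).injective h2
        · intro h
          have h2 : φ z k = k := h
          show φ z (φ x k) = φ x k
          rw [h1, h2]
      let φ₁ : A →* MulAut F := MonoidHom.mk' (fun x => restr F (φ x) (hinv x)) (by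
        intro a b
        apply MulEquiv.ext
        intro k
        apply Subtype.ext
        show φ (a * b) k = φ a (φ b k)
        rw [map_mul]
        rfl)
      have hR : ∀ x, IsRestr F (φ₁ x) (φ x) := fun x _ => rfl
      have hFlt : Nat.card F < n := by
        rw [← hn]
        apply lt_of_le_of_ne (Subgroup.card_le_card_group F)
        intro h3
        have h4 := Subgroup.eq_top_of_card_eq F h3
        apply hz1
        apply MulEquiv.ext
        intro k
        have h5 : k ∈ F := by rw [h4]; trivial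
        exact h5
      have hF1 : ¬ p ∣ Nat.card F := fun h => hK (h.trans (Subgroup.card_subgroup_dvd_card F))
      have IH := ih _ hFlt F rfl hF1 φ₁
      have e1 : ∀ x, Nat.card (Fx (φ₁ x)) = Nat.card (Fx (φ x) ⊓ F : Subgroup K) := by
        intro x
        rw [(hR x).card_Fx, inf_comm]
      have e2 : Nat.card (⨅ x : A, Fx (φ₁ x) : Subgroup F) = Nat.card (⨅ x : A, Fx (φ x) : Subgroup K) := by
        have h3 : (⨅ x : A, Fx (φ x) : Subgroup K) ≤ F := iInf_le _ z
        have h4 : (⨅ x : A, Fx (φ₁ x) : Subgroup F) = (⨅ x : A, Fx (φ x) : Subgroup K).subgroupOf F := by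
          ext k
          rw [Subgroup.mem_subgroupOf, Subgroup.mem_iInf, Subgroup.mem_iInf]
          refine forall_congr' (fun x => ?_)
          rw [mem_Fx, mem_Fx, Subtype.ext_iff, hR x k]
        rw [h4]
        exact Nat.card_congr (Subgroup.subgroupOfEquivOfLe h3).toEquiv
      rw [Finset.prod_congr rfl (fun x _ => e1 x), e2] at IH
      have hcomm : ∀ x, φ x * φ z = φ z * φ x := hzc
      have star : ∀ x : A, (∏ i ∈ Finset.range p, Nat.card (Fx (φ z ^ i * φ x))) * Nat.card F ≤
          Nat.card K * Nat.card (Fx (φ x) ⊓ F : Subgroup K) ^ p := by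
        intro x
        obtain ⟨k, hk⟩ := hA x
        have hx : x ^ (p ^ (k + 1)) = 1 := by
          rw [pow_succ, pow_mul, hk, one_pow]
        refine lemA k K hK (φ x) (φ z) (hzc x) ?_ hzp
        rw [← map_pow, hx, map_one]
      have hprod : (∏ x : A, ∏ i ∈ Finset.range p, Nat.card (Fx (φ z ^ i * φ x))) =
          (∏ x : A, Nat.card (Fx (φ x))) ^ p := by
        rw [Finset.prod_comm]
        have h1 : ∀ i ∈ Finset.range p, (∏ x : A, Nat.card (Fx (φ z ^ i * φ x))) = ∏ x : A, Nat.card (Fx (φ x)) := by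
          intro i _
          have h2 : ∀ x : A, φ z ^ i * φ x = φ (z ^ i * x) := by
            intro x
            rw [map_mul, map_pow]
          simp only [h2]
          exact Equiv.prod_comp (Equiv.mulLeft (z ^ i)) (fun x => Nat.card (Fx (φ x)))
        rw [Finset.prod_congr rfl h1, Finset.prod_const, Finset.card_range]
      have hall : (∏ x : A, Nat.card (Fx (φ x))) ^ p * Nat.card F ^ Fintype.card A ≤
          Nat.card K ^ Fintype.card A * (∏ x : A, Nat.card (Fx (φ x) ⊓ F : Subgroup K)) ^ p := by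
        have h1 := Finset.prod_le_prod (s := Finset.univ) (fun x _ => Nat.zero_le _) (fun x _ => star x)
        rw [Finset.prod_mul_distrib, Finset.prod_mul_distrib, Finset.prod_const, Finset.prod_const,
          Finset.card_univ, hprod, Finset.prod_pow] at h1
        exact h1
      set P := ∏ x : A, Nat.card (Fx (φ x))
      set Q := ∏ x : A, Nat.card (Fx (φ x) ⊓ F : Subgroup K)
      set f := Nat.card F
      set N := Fintype.card A
      set C := Nat.card (⨅ x : A, Fx (φ x) : Subgroup K)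
      set k := Nat.card K
      have hf : 0 < f ^ N := Nat.pow_pos Nat.card_pos
      apply Nat.le_of_mul_le_mul_right _ hf
      calc P ^ p * f ^ N ≤ k ^ N * Q ^ p := hall
        _ ≤ k ^ N * (f ^ N * C ^ (N * (p - 1))) := Nat.mul_le_mul_left _ IH
        _ = k ^ N * C ^ (N * (p - 1)) * f ^ N := by ring

end Main2

section Key

variable {p : ℕ} [hp : Fact p.Prime]

/-- The product over a surjective homomorphism. -/
theorem prod_comp_surj {A : Type*} {B : Type*} [Group A] [Group B] [Fintype A] [Fintype B] (f : A →* B)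
    (hf : Function.Surjective f) (g : B → ℕ) :
    ∏ x : A, g (f x) = (∏ y : B, g y) ^ Nat.card f.ker := by
  classical
  rw [← Finset.prod_pow]
  rw [← Finset.prod_fiberwise Finset.univ (fun x => f x) (fun x => g (f x))]
  apply Finset.prod_congr rfl
  intro y _
  have h1 : ∀ x ∈ Finset.univ.filter (fun x => f x = y), g (f x) = g y := by
    intro x hx
    rw [(Finset.mem_filter.mp hx).2]
  rw [Finset.prod_congr rfl h1, Finset.prod_const]
  congr 1
  have h2 := MonoidHom.card_fiber_eq_of_mem_range f (x := y) (y := 1) (hf y) ⟨1, map_one f⟩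
  rw [h2, ← Nat.card_eq_finsetCard]
  apply Nat.card_congr
  apply Equiv.subtypeEquivRight
  intro x
  simp [MonoidHom.mem_ker]

theorem card_eq_ker_mul {A : Type*} {B : Type*} [Group A] [Group B] [Finite A] (f : A →* B)
    (hf : Function.Surjective f) : Nat.card A = Nat.card B * Nat.card f.ker := by
  rw [← Subgroup.card_mul_index f.ker, Subgroup.index_ker, mul_comm]
  congr 1
  rw [MonoidHom.range_eq_top.mpr hf]
  simp

/-- number of Sylow subgroups containing `x`. -/
noncomputable def aS (p : ℕ) [Fact p.Prime] {X : Type*} [Group X] (x : X) : ℕ :=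
  Nat.card {Q : Sylow p X // x ∈ (Q : Subgroup X)}

/-- The image of a Sylow subgroup, as a homomorphism. -/
noncomputable def fS {X : Type*} [Group X] [Finite X] (K : Subgroup X) [K.Normal] (P : Sylow p X) :
    (P : Subgroup X) →* (piS K P : Subgroup (X ⧸ K)) :=
  ((QuotientGroup.mk' K).comp (P : Subgroup X).subtype).codRestrict _ (by
    intro x
    rw [coe_piS]
    exact ⟨x, x.2, rfl⟩)

theorem fS_surjective {X : Type*} [Group X] [Finite X] (K : Subgroup X) [K.Normal] (P : Sylow p X) :
    Function.Surjective (fS K P) := by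
  rintro ⟨y, hy⟩
  rw [coe_piS] at hy
  obtain ⟨x, hx, rfl⟩ := hy
  exact ⟨⟨x, hx⟩, rfl⟩

end Key

section Key2

variable {p : ℕ} [hp : Fact p.Prime] {X : Type u} [Group X] [Finite X]

theorem mem_cK_zpowers (K : Subgroup X) {x g : X} : g ∈ cK K (Subgroup.zpowers x) ↔ g ∈ K ∧ x * g = g * x := by
  rw [mem_cK]
  constructor
  · rintro ⟨h1, h2⟩
    exact ⟨h1, h2 x (Subgroup.mem_zpowers x)⟩
  · rintro ⟨h1, h2⟩
    refine ⟨h1, ?_⟩
    rintro _ ⟨i, rfl⟩
    exact ((show Commute x g from h2).zpow_left i)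

theorem aS_mul (K : Subgroup X) [hn : K.Normal] (hK : (Nat.card K).Coprime p) (P : Sylow p X)
    (x : (P : Subgroup X)) :
    aS p (x : X) * Nat.card (cK K (P : Subgroup X)) =
      aS p (QuotientGroup.mk' K (x : X)) * Nat.card (cK K (Subgroup.zpowers (x : X))) := by
  have hH : IsPGroup p (Subgroup.zpowers (x : X)) :=
    IsPGroup.to_le P.isPGroup' (Subgroup.zpowers_le.mpr x.2)
  have h := card_le_sylow_mul K hK hH P
  have h1 : Nat.card {Q : Sylow p X // Subgroup.zpowers (x : X) ≤ (Q : Subgroup X)} = aS p (x : X) :=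
    Nat.card_congr (Equiv.subtypeEquivRight (fun Q => Subgroup.zpowers_le))
  have h2 : Nat.card {Qb : Sylow p (X ⧸ K) // (Subgroup.zpowers (x : X)).map (QuotientGroup.mk' K) ≤ (Qb : Subgroup (X ⧸ K))} =
      aS p (QuotientGroup.mk' K (x : X)) := by
    apply Nat.card_congr
    apply Equiv.subtypeEquivRight
    intro Qb
    rw [MonoidHom.map_zpowers, Subgroup.zpowers_le]
  rw [h1, h2] at h
  exact h

theorem card_Fx_conj (K : Subgroup X) [hn : K.Normal] (x : X) :
    Nat.card (Fx (MulAut.conjNormal (H := K) x)) = Nat.card (cK K (Subgroup.zpowers x)) := by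
  have h1 : (Fx (MulAut.conjNormal (H := K) x)).map K.subtype = cK K (Subgroup.zpowers x) := by
    ext g
    rw [mem_cK_zpowers]
    constructor
    · rintro ⟨k, hk, rfl⟩
      refine ⟨k.2, ?_⟩
      have h2 : (MulAut.conjNormal (H := K) x k : K) = k := hk
      have h3 := congrArg Subtype.val h2
      rw [MulAut.conjNormal_apply] at h3
      show x * k = k * x
      calc x * k = (x * k * x⁻¹) * x := by group
        _ = k * x := by rw [h3]
    · rintro ⟨h2, h3⟩
      refine ⟨⟨g, h2⟩, ?_, rfl⟩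
      apply Subtype.ext
      rw [MulAut.conjNormal_apply]
      show x * g * x⁻¹ = g
      rw [h3]
      group
  rw [← h1]
  exact (Subgroup.card_map_of_injective K.subtype_injective).symm

theorem card_iInf_Fx_conj (K : Subgroup X) [hn : K.Normal] (P : Subgroup X) :
    Nat.card (⨅ x : P, Fx (((MulAut.conjNormal (H := K)).comp P.subtype) x) : Subgroup K) =
      Nat.card (cK K P) := by
  have h1 : (⨅ x : P, Fx (((MulAut.conjNormal (H := K)).comp P.subtype) x) : Subgroup K).map K.subtype = cK K P := by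
    ext g
    rw [mem_cK]
    constructor
    · rintro ⟨k, hk, rfl⟩
      refine ⟨k.2, ?_⟩
      intro a ha
      have h2 : (MulAut.conjNormal (H := K) a k : K) = k := (Subgroup.mem_iInf.mp (SetLike.mem_coe.mp hk)) ⟨a, ha⟩
      have h3 := congrArg Subtype.val h2
      rw [MulAut.conjNormal_apply] at h3
      show a * k = k * a
      calc a * k = (a * k * a⁻¹) * a := by group
        _ = k * a := by rw [h3]
    · rintro ⟨h2, h3⟩
      refine ⟨⟨g, h2⟩, ?_, rfl⟩
      apply SetLike.mem_coe.mpr
      rw [Subgroup.mem_iInf]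
      intro a
      apply Subtype.ext
      show (MulAut.conjNormal (H := K) (a : X) ⟨g, h2⟩ : X) = g
      rw [MulAut.conjNormal_apply]
      show (a : X) * g * (a : X)⁻¹ = g
      rw [h3 a a.2]
      group
  rw [← h1]
  exact (Subgroup.card_map_of_injective K.subtype_injective).symm

theorem key_coprime (K : Subgroup X) [hn : K.Normal] (hK : (Nat.card K).Coprime p) (P : Sylow p X)
    [Fintype (P : Subgroup X)]
    (hB : (∏ x : (P : Subgroup X), aS p (QuotientGroup.mk' K (x : X))) ^ p ≤
      Nat.card (Sylow p (X ⧸ K)) ^ Nat.card (P : Subgroup X)) :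
    (∏ x : (P : Subgroup X), aS p (x : X)) ^ p ≤ Nat.card (Sylow p X) ^ Nat.card (P : Subgroup X) := by
  have hK1 : ¬ p ∣ Nat.card K := by
    intro h
    have := Nat.Coprime.eq_one_of_dvd hK.symm h
    exact hp.out.one_lt.ne' this
  have hMain := mainL (p := p) (A := (P : Subgroup X)) P.isPGroup' _ K rfl hK1
    ((MulAut.conjNormal (H := K)).comp (P : Subgroup X).subtype)
  have e1 : ∀ x : (P : Subgroup X), Nat.card (Fx (((MulAut.conjNormal (H := K)).comp (P : Subgroup X).subtype) x)) =
      Nat.card (cK K (Subgroup.zpowers (x : X))) := fun x => card_Fx_conj K x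
  rw [Finset.prod_congr rfl (fun x _ => e1 x), card_iInf_Fx_conj K (P : Subgroup X),
    ← Nat.card_eq_fintype_card] at hMain
  have E := Finset.prod_congr (s₁ := (Finset.univ : Finset (P : Subgroup X))) rfl (fun x _ => aS_mul K hK P x)
  rw [Finset.prod_mul_distrib, Finset.prod_mul_distrib, Finset.prod_const, Finset.card_univ,
    ← Nat.card_eq_fintype_card] at E
  have E4 := card_le_sylow_mul K hK (H := ⊥) IsPGroup.of_bot P
  have h1 : Nat.card {Q : Sylow p X // (⊥ : Subgroup X) ≤ (Q : Subgroup X)} = Nat.card (Sylow p X) :=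
    Nat.card_congr (Equiv.subtypeUnivEquiv (fun Q => bot_le))
  have h2 : Nat.card {Qb : Sylow p (X ⧸ K) // ((⊥ : Subgroup X).map (QuotientGroup.mk' K)) ≤ (Qb : Subgroup (X ⧸ K))} =
      Nat.card (Sylow p (X ⧸ K)) :=
    Nat.card_congr (Equiv.subtypeUnivEquiv (fun Q => by simp))
  have h3 : Nat.card (cK K (⊥ : Subgroup X)) = Nat.card K := by
    have h4 : cK K (⊥ : Subgroup X) = K := by
      ext x
      constructor
      · exact fun h => (mem_cK.mp h).1
      · intro hx
        exact mem_cK.mpr ⟨hx, fun a ha => by rw [Subgroup.mem_bot.mp ha]; simp⟩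
    rw [h4]
  rw [h1, h2, h3] at E4
  set A := ∏ x : (P : Subgroup X), aS p (x : X)
  set B := ∏ x : (P : Subgroup X), aS p (QuotientGroup.mk' K (x : X))
  set C := ∏ x : (P : Subgroup X), Nat.card (cK K (Subgroup.zpowers (x : X)))
  set N := Nat.card (P : Subgroup X)
  set d := Nat.card (cK K (P : Subgroup X))
  set k := Nat.card K
  set n := Nat.card (Sylow p X)
  set nb := Nat.card (Sylow p (X ⧸ K))
  have hd : 0 < d := Nat.card_pos
  have hpos : 0 < d ^ (N * p) := Nat.pow_pos hd
  apply Nat.le_of_mul_le_mul_right _ hpos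
  have hp1 : 1 ≤ p := hp.out.one_lt.le
  have hNp : N * p = N + N * (p - 1) := by
    obtain ⟨q, rfl⟩ : ∃ q, p = q + 1 := ⟨p - 1, by omega⟩
    simp only [Nat.add_sub_cancel]
    ring
  calc A ^ p * d ^ (N * p) = (A * d ^ N) ^ p := by rw [mul_pow, pow_mul]
    _ = (B * C) ^ p := by rw [E]
    _ = B ^ p * C ^ p := by rw [mul_pow]
    _ ≤ nb ^ N * (k ^ N * d ^ (N * (p - 1))) := Nat.mul_le_mul hB hMain
    _ = (nb * k) ^ N * d ^ (N * (p - 1)) := by rw [mul_pow, mul_assoc]
    _ = (n * d) ^ N * d ^ (N * (p - 1)) := by rw [E4]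
    _ = n ^ N * d ^ (N * p) := by rw [mul_pow, hNp, pow_add, mul_assoc]

theorem key_isPGroup (K : Subgroup X) [hn : K.Normal] (hK : IsPGroup p K) (P : Sylow p X)
    [Fintype (P : Subgroup X)]
    (hB : (∏ x : (P : Subgroup X), aS p (QuotientGroup.mk' K (x : X))) ^ p ≤
      Nat.card (Sylow p (X ⧸ K)) ^ Nat.card (P : Subgroup X)) :
    (∏ x : (P : Subgroup X), aS p (x : X)) ^ p ≤ Nat.card (Sylow p X) ^ Nat.card (P : Subgroup X) := by
  have hle : ∀ Q : Sylow p X, K ≤ (Q : Subgroup X) := fun Q => hK.le_sylow_of_normal Q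
  have hmem : ∀ (Q : Sylow p X) (x : X), QuotientGroup.mk' K x ∈ ((piS K Q : Sylow p (X ⧸ K)) : Subgroup (X ⧸ K)) ↔
      x ∈ (Q : Subgroup X) := by
    intro Q x
    rw [coe_piS]
    exact mem_map_mk_iff K Q (hle Q) x
  have hinj : Function.Bijective (piS K : Sylow p X → Sylow p (X ⧸ K)) := by
    refine ⟨?_, piS_surjective K⟩
    intro Q Q' h
    apply Sylow.ext
    ext x
    rw [← hmem Q x, ← hmem Q' x, h]
  have h1 : Nat.card (Sylow p X) = Nat.card (Sylow p (X ⧸ K)) :=
    Nat.card_congr (Equiv.ofBijective _ hinj)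
  have h2 : ∀ x : X, aS p x = aS p (QuotientGroup.mk' K x) := by
    intro x
    exact Nat.card_congr (Equiv.subtypeEquiv (Equiv.ofBijective _ hinj) (fun Q => (hmem Q x).symm))
  have e : ∏ x : (P : Subgroup X), aS p (x : X) = ∏ x : (P : Subgroup X), aS p (QuotientGroup.mk' K (x : X)) :=
    Finset.prod_congr rfl (fun x _ => h2 (x : X))
  rw [h1, e]
  exact hB

end Key2

section Key3

variable {p : ℕ} [hp : Fact p.Prime]

theorem key_chain : ∀ (n : ℕ) (X : Type u) [Group X] [Finite X] (P : Sylow p X) [Fintype (P : Subgroup X)]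
    (M : Fin (n + 1) → Subgroup X) (_ : M 0 = ⊥) (_ : M (Fin.last n) = ⊤) (_ : Monotone M)
    (_ : ∀ i, (M i).Normal)
    (_ : ∀ i : Fin n, (∃ m : ℕ, (M i.castSucc).relIndex (M i.succ) = p ^ m) ∨
      ((M i.castSucc).relIndex (M i.succ)).Coprime p),
    (∏ x : (P : Subgroup X), aS p (x : X)) ^ p ≤ Nat.card (Sylow p X) ^ Nat.card (P : Subgroup X) := by
  intro n
  induction n with
  | zero =>
    intro X _ _ P _ M h0 hn _ _ _
    have h1 : (⊥ : Subgroup X) = ⊤ := by
      rw [← h0, ← hn]; rfl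
    haveI : Subsingleton X := by
      rw [← Subgroup.subsingleton_iff]
      exact subsingleton_of_bot_eq_top h1
    have h2 : ∀ x : X, aS p x = 1 := by
      intro x
      rw [aS, Nat.card_eq_one_iff_unique]
      refine ⟨⟨fun a b => Subtype.ext (Sylow.ext ?_)⟩, ⟨⟨P, ?_⟩⟩⟩
      · ext g
        rw [Subsingleton.elim g 1]
        simp only [Subgroup.one_mem]
      · rw [Subsingleton.elim x 1]
        exact Subgroup.one_mem _
    have e : ∏ x : (P : Subgroup X), aS p (x : X) = 1 :=
      Finset.prod_eq_one (fun x _ => h2 (x : X))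
    rw [e, one_pow]
    exact Nat.one_le_pow _ _ Nat.card_pos
  | succ n ih =>
    intro X _ _ P _ M h0 hn hmono hnormal hfac
    set K := M (Fin.succ 0) with hK
    haveI hKn : K.Normal := hnormal _
    have hKle : ∀ j : Fin (n + 1), K ≤ M j.succ := fun j =>
      hmono (Fin.succ_le_succ_iff.mpr (Fin.zero_le j))
    let Mb : Fin (n + 1) → Subgroup (X ⧸ K) := fun j => (M j.succ).map (QuotientGroup.mk' K)
    have hmk : Function.Surjective (QuotientGroup.mk' K) := QuotientGroup.mk'_surjective K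
    have hrel : ∀ i : Fin n, (Mb i.castSucc).relIndex (Mb i.succ) =
        (M i.succ.castSucc).relIndex (M i.succ.succ) := by
      intro i
      change ((M i.castSucc.succ).map (QuotientGroup.mk' K)).relIndex ((M i.succ.succ).map (QuotientGroup.mk' K)) = _
      rw [Subgroup.relIndex_map_map, QuotientGroup.ker_mk', sup_eq_left.mpr (hKle _),
        sup_eq_left.mpr (hKle _), Fin.succ_castSucc]
    classical
    haveI : Fintype ((piS K P : Sylow p (X ⧸ K)) : Subgroup (X ⧸ K)) := Fintype.ofFinite _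
    have key := ih (X ⧸ K) (piS K P) Mb
      (by
        change (M (Fin.succ 0)).map (QuotientGroup.mk' K) = ⊥
        rw [← hK]
        exact QuotientGroup.map_mk'_self K)
      (by
        change (M (Fin.last n).succ).map (QuotientGroup.mk' K) = ⊤
        rw [Fin.succ_last, hn]
        exact Subgroup.map_top_of_surjective _ hmk)
      (fun a b hab => Subgroup.map_mono (hmono (Fin.succ_le_succ_iff.mpr hab)))
      (fun i => (hnormal _).map _ hmk)
      (fun i => by
        rw [hrel]
        exact hfac i.succ)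
    have hB : (∏ x : (P : Subgroup X), aS p (QuotientGroup.mk' K (x : X))) ^ p ≤
        Nat.card (Sylow p (X ⧸ K)) ^ Nat.card (P : Subgroup X) := by
      have h1 := prod_comp_surj (fS K P) (fS_surjective K P) (fun y => aS p (y : X ⧸ K))
      have h2 : ∀ x : (P : Subgroup X), aS p (((fS K P) x : (piS K P : Subgroup (X ⧸ K))) : X ⧸ K) =
          aS p (QuotientGroup.mk' K (x : X)) := fun x => rfl
      simp only [h2] at h1
      rw [h1, card_eq_ker_mul (fS K P) (fS_surjective K P), pow_right_comm, pow_mul]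
      exact Nat.pow_le_pow_left key _
    have hfac0 := hfac 0
    have hrel0 : (M (Fin.castSucc 0)).relIndex (M (Fin.succ 0)) = Nat.card K := by
      have : Fin.castSucc (0 : Fin (n + 1)) = 0 := rfl
      rw [this, h0, Subgroup.relIndex_bot_left]
    rw [hrel0] at hfac0
    rcases hfac0 with ⟨m, hm⟩ | hcop
    · exact key_isPGroup K (IsPGroup.of_card hm) P hB
    · exact key_coprime K hcop P hB

end Key3

section Final

variable {p : ℕ} [hp : Fact p.Prime] {G : Type u} [Group G] [Finite G]

theorem exists_sylow_iff (g : G) : (∃ k : ℕ, orderOf g = p ^ k) ↔ ∃ Q : Sylow p G, g ∈ (Q : Subgroup G) := by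
  constructor
  · rintro ⟨k, hk⟩
    have h1 : IsPGroup p (Subgroup.zpowers g) := IsPGroup.of_card (n := k) (by rw [Nat.card_zpowers, hk])
    obtain ⟨Q, hQ⟩ := h1.exists_le_sylow
    exact ⟨Q, hQ (Subgroup.mem_zpowers g)⟩
  · rintro ⟨Q, hQ⟩
    obtain ⟨m, hm⟩ := Q.isPGroup' ⟨g, hQ⟩
    have h1 : g ^ p ^ m = 1 := by
      have := congrArg Subtype.val hm
      simpa using this
    obtain ⟨k, _, hk⟩ := (Nat.dvd_prime_pow hp.out).mp (orderOf_dvd_of_pow_eq_one h1)
    exact ⟨k, hk⟩

theorem aS_conj (c g : G) : aS p (c * g * c⁻¹) = aS p g := by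
  apply Nat.card_congr
  refine Equiv.subtypeEquiv (MulAction.toPerm c⁻¹) ?_
  intro Q
  show _ ↔ g ∈ ((c⁻¹ • Q : Sylow p G) : Subgroup G)
  rw [mem_smul_sylow]
  simp

theorem aS_pos {Q : Sylow p G} {g : G} (h : g ∈ (Q : Subgroup G)) : 0 < aS p g := by
  haveI : Finite (Sylow p G) := inferInstance
  haveI : Nonempty {Q : Sylow p G // g ∈ (Q : Subgroup G)} := ⟨⟨Q, h⟩⟩
  exact Nat.card_pos

/-- The sum formula for the number of `p`-elements. -/
theorem card_pelts_eq (P : Sylow p G) [Fintype (P : Subgroup G)] :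
    (Nat.card {g : G // ∃ k : ℕ, orderOf g = p ^ k} : ℝ) =
      ∑ x : (P : Subgroup G), (Nat.card (Sylow p G) : ℝ) / (aS p (x : G) : ℝ) := by
  classical
  haveI := Fintype.ofFinite G
  haveI := Fintype.ofFinite (Sylow p G)
  let w : G → ℝ := fun g => 1 / (aS p g : ℝ)
  let F : Sylow p G → ℝ := fun Q => ∑ g : G, if g ∈ (Q : Subgroup G) then w g else 0
  have hF : ∀ Q, F Q = F P := by
    intro Q
    obtain ⟨c, rfl⟩ := MulAction.exists_smul_eq G P Q
    show (∑ g : G, if g ∈ ((c • P : Sylow p G) : Subgroup G) then w g else 0) = _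
    rw [← Equiv.sum_comp (MulAut.conj c).toEquiv]
    apply Finset.sum_congr rfl
    intro g _
    have h1 : (MulAut.conj c).toEquiv g = c * g * c⁻¹ := rfl
    rw [h1, mem_smul_sylow]
    have h2 : c⁻¹ * (c * g * c⁻¹) * c = g := by group
    rw [h2]
    have h3 : w (c * g * c⁻¹) = w g := by
      show 1 / (aS p (c * g * c⁻¹) : ℝ) = _
      rw [aS_conj]
    rw [h3]
  have h1 : (∑ Q : Sylow p G, F Q) = (Nat.card {g : G // ∃ k : ℕ, orderOf g = p ^ k} : ℝ) := by
    show (∑ Q : Sylow p G, ∑ g : G, if g ∈ (Q : Subgroup G) then w g else 0) = _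
    rw [Finset.sum_comm, Nat.card_eq_fintype_card, Fintype.card_subtype, Finset.card_filter]
    push_cast
    apply Finset.sum_congr rfl
    intro g _
    by_cases hg : ∃ Q : Sylow p G, g ∈ (Q : Subgroup G)
    · rw [if_pos ((exists_sylow_iff g).mpr hg)]
      obtain ⟨Q, hQ⟩ := hg
      have h2 : (aS p g : ℝ) ≠ 0 := by
        have := aS_pos hQ
        positivity
      have h3 : (∑ Q : Sylow p G, if g ∈ (Q : Subgroup G) then w g else 0) = (aS p g : ℝ) * w g := by
        rw [Finset.sum_ite, Finset.sum_const_zero, add_zero, Finset.sum_const, nsmul_eq_mul]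
        congr 2
        rw [aS, Nat.card_eq_fintype_card, Fintype.card_subtype]
      rw [h3]
      show (aS p g : ℝ) * (1 / (aS p g : ℝ)) = 1
      field_simp
    · rw [if_neg (fun h => hg ((exists_sylow_iff g).mp h))]
      apply Finset.sum_eq_zero
      intro Q _
      rw [if_neg (fun h => hg ⟨Q, h⟩)]
  have h2 : F P = ∑ x : (P : Subgroup G), w (x : G) := by
    show (∑ g : G, if g ∈ (P : Subgroup G) then w g else 0) = _
    rw [← Finset.sum_filter]
    exact Finset.sum_subtype _ (by simp) _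
  rw [← h1, Finset.sum_congr rfl (fun Q _ => hF Q), Finset.sum_const, Finset.card_univ, nsmul_eq_mul,
    ← Nat.card_eq_fintype_card, h2, Finset.mul_sum]
  apply Finset.sum_congr rfl
  intro x _
  show _ * (1 / _) = _
  rw [mul_one_div]

theorem final_ineq (P : Sylow p G) [Fintype (P : Subgroup G)]
    (hKey : (∏ x : (P : Subgroup G), aS p (x : G)) ^ p ≤ Nat.card (Sylow p G) ^ Nat.card (P : Subgroup G)) :
    Nat.card (P : Subgroup G) ^ p * Nat.card (Sylow p G) ^ (p - 1) ≤
      Nat.card {g : G // ∃ k : ℕ, orderOf g = p ^ k} ^ p := by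
  classical
  have hp1 : 1 ≤ p := hp.out.one_lt.le
  set N := Nat.card (P : Subgroup G) with hN
  have hN0 : 0 < N := Nat.card_pos
  set n := Nat.card (Sylow p G) with hn
  have hn0 : 0 < n := Nat.card_pos
  set u := Nat.card {g : G // ∃ k : ℕ, orderOf g = p ^ k} with hu
  set A := ∏ x : (P : Subgroup G), aS p (x : G) with hA
  have hapos : ∀ x : (P : Subgroup G), 0 < aS p (x : G) := fun x => aS_pos x.2
  have hA0 : 0 < A := Finset.prod_pos (fun x _ => hapos x)
  have hsum := card_pelts_eq P
  rw [← hu, ← hn] at hsum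
  have hN' : Fintype.card (P : Subgroup G) = N := (Nat.card_eq_fintype_card).symm
  -- AM-GM
  have amgm : (n : ℝ) ^ N / (A : ℝ) ≤ ((u : ℝ) / N) ^ N := by
    have h1 := Real.geom_mean_le_arith_mean (Finset.univ : Finset (P : Subgroup G)) (fun _ => (1 : ℝ))
      (fun x => (n : ℝ) / (aS p (x : G) : ℝ)) (fun _ _ => zero_le_one)
      (by
        rw [Finset.sum_const, Finset.card_univ, hN']
        simp only [nsmul_eq_mul, mul_one]
        exact_mod_cast hN0)
      (fun _ _ => by positivity)
    simp only [Real.rpow_one, Finset.sum_const, Finset.card_univ, hN', nsmul_eq_mul, mul_one, one_mul] at h1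
    rw [← hsum] at h1
    have h2 : ∏ x : (P : Subgroup G), ((n : ℝ) / (aS p (x : G) : ℝ)) = (n : ℝ) ^ N / (A : ℝ) := by
      rw [Finset.prod_div_distrib, Finset.prod_const, Finset.card_univ, hN', hA]
      push_cast
      rfl
    rw [h2] at h1
    have h3 : 0 ≤ (n : ℝ) ^ N / (A : ℝ) := by positivity
    have h4 := pow_le_pow_left₀ (Real.rpow_nonneg h3 _) h1 N
    rwa [Real.rpow_inv_natCast_pow h3 hN0.ne'] at h4
  have hApos : (0 : ℝ) < A := by exact_mod_cast hA0
  have hnpos : (0 : ℝ) < n := by exact_mod_cast hn0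
  have hNpos : (0 : ℝ) < N := by exact_mod_cast hN0
  have h1 : (n : ℝ) ^ N ≤ ((u : ℝ) / N) ^ N * A := by
    rwa [div_le_iff₀ hApos] at amgm
  have h2 : ((A : ℝ)) ^ p ≤ (n : ℝ) ^ N := by exact_mod_cast hKey
  have hv0 : (0 : ℝ) ≤ (u : ℝ) / N := by positivity
  set v := (u : ℝ) / N with hv
  have h3 : ((n : ℝ) ^ N) ^ p ≤ (v ^ N) ^ p * (n : ℝ) ^ N := by
    calc ((n : ℝ) ^ N) ^ p ≤ (v ^ N * A) ^ p := pow_le_pow_left₀ (by positivity) h1 p
      _ = (v ^ N) ^ p * (A : ℝ) ^ p := mul_pow _ _ _
      _ ≤ (v ^ N) ^ p * (n : ℝ) ^ N := mul_le_mul_of_nonneg_left h2 (by positivity)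
  have h4 : ((n : ℝ) ^ (p - 1)) ^ N ≤ (v ^ p) ^ N := by
    have h5 : (0 : ℝ) < (n : ℝ) ^ N := by positivity
    apply le_of_mul_le_mul_right _ h5
    calc ((n : ℝ) ^ (p - 1)) ^ N * (n : ℝ) ^ N = ((n : ℝ) ^ N) ^ p := by
          rw [← pow_mul, ← pow_mul, ← pow_add]
          congr 1
          obtain ⟨q, rfl⟩ : ∃ q, p = q + 1 := ⟨p - 1, by omega⟩
          simp only [Nat.add_sub_cancel]
          ring
      _ ≤ (v ^ N) ^ p * (n : ℝ) ^ N := h3
      _ = (v ^ p) ^ N * (n : ℝ) ^ N := by rw [pow_right_comm]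
  have h5 : (n : ℝ) ^ (p - 1) ≤ v ^ p :=
    (pow_le_pow_iff_left₀ (by positivity) (by positivity) hN0.ne').mp h4
  have h6 : (N : ℝ) ^ p * (n : ℝ) ^ (p - 1) ≤ (u : ℝ) ^ p := by
    have h7 : (u : ℝ) = v * N := by
      rw [hv]
      field_simp
    rw [h7, mul_pow, mul_comm]
    exact mul_le_mul_of_nonneg_right h5 (by positivity)
  exact_mod_cast h6

end Final

/-- Let G be a finite p-solvable group, P a Sylow p-subgroup of G, u the number of p-elements of G (elements of p-power order, the identity included) and n the number of Sylow p-subgroups of G. Then u/#P ≥ n^((p−1)/p), stated as u^p ≥ #P^p · n^(p−1). -/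
theorem result {G : Type*} [Group G] [Finite G] (p : ℕ) [Fact p.Prime]
    (hG : Cfsg.IsPSolvable p G) (P : Sylow p G) :
    Nat.card (P : Subgroup G) ^ p * Nat.card (Sylow p G) ^ (p - 1) ≤ Nat.card {g : G // ∃ k : ℕ, orderOf g = p ^ k} ^ p := by
  classical
  haveI : Fintype (P : Subgroup G) := Fintype.ofFinite _
  obtain ⟨n, M, h0, hn, hmono, hnormal, hfac⟩ := hG
  exact final_ineq P (key_chain n G P M h0 hn hmono hnormal hfac)

end Cfsg.Agent.S4091
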