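import Mathlib
import Cfsg.Statements.S4092

set_option autoImplicit false
open Cfsg

namespace Cfsg.Agent.S4092

variable {G : Type*} [Group G]

theorem card_map_conj (A : Subgroup G) (h : G) :
    Nat.card (A.map (MulAut.conj h).toMonoidHom) = Nat.card A :=
  Subgroup.card_map_of_injective (MulEquiv.injective _)

theorem map_conj_eq_of_normalizes (A : Subgroup G) (x : G)
    (hx : x ∈ Subgroup.normalizer (A : Set G)) : A.map (MulAut.conj x).toMonoidHom = A := by
  rw [Subgroup.mem_normalizer_iff] at hx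
  ext y
  simp only [Subgroup.mem_map, MulEquiv.coe_toMonoidHom, MulAut.conj_apply]
  constructor
  · rintro ⟨a, ha, rfl⟩
    exact (hx a).mp ha
  · intro hy
    refine ⟨x⁻¹ * y * x, (hx _).mpr ?_, by group⟩
    have : x * (x⁻¹ * y * x) * x⁻¹ = y := by group
    rw [this]
    exact hy

theorem normalizes_of_map_conj_eq (A : Subgroup G) (x : G)
    (hx : A.map (MulAut.conj x).toMonoidHom = A) : x ∈ Subgroup.normalizer (A : Set G) := by
  rw [Subgroup.mem_normalizer_iff]
  intro h
  constructor
  · intro hh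
    rw [← hx]
    exact Subgroup.mem_map.mpr ⟨h, hh, rfl⟩
  · intro hh
    rw [← hx] at hh
    obtain ⟨a, ha, hae⟩ := Subgroup.mem_map.mp hh
    simp only [MulEquiv.coe_toMonoidHom, MulAut.conj_apply] at hae
    have : a = h := by
      have h2 : x * a = x * h := mul_right_cancel hae
      exact mul_left_cancel h2
    rw [← this]
    exact ha

/-- Sylow conjugation in `map` form. -/
theorem sylow_conj [Finite G] {p : ℕ} [Fact p.Prime] (A B : Sylow p G) :
    ∃ h : G, (B : Subgroup G) = (A : Subgroup G).map (MulAut.conj h).toMonoidHom := by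
  obtain ⟨h, hh⟩ := MulAction.exists_smul_eq G A B
  refine ⟨h, ?_⟩
  rw [← hh, Sylow.coe_subgroup_smul]
  rfl

/-- A p-element normalizing a Sylow p-subgroup lies in it. -/
theorem mem_of_normalizes {p : ℕ} [Fact p.Prime] (Q : Sylow p G) (v : G)
    (hv : ∃ k : ℕ, v ^ p ^ k = 1)
    (hn : v ∈ Subgroup.normalizer ((Q : Subgroup G) : Set G)) : v ∈ (Q : Subgroup G) := by
  have hz : IsPGroup p (Subgroup.zpowers v) := by
    obtain ⟨k, hk⟩ := hv
    refine IsPGroup.of_card (n := (Nat.card (Subgroup.zpowers v)).factorization p) ?_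
    rw [Nat.card_zpowers]
    have hd : orderOf v ∣ p ^ k := orderOf_dvd_of_pow_eq_one hk
    obtain ⟨i, -, hi⟩ := (Nat.dvd_prime_pow Fact.out).mp hd
    rw [hi, Nat.Prime.factorization_pow Fact.out]
    simp
  have hle : Subgroup.zpowers v ≤ Subgroup.normalizer ((Q : Subgroup G) : Set G) := by
    rw [Subgroup.zpowers_le]; exact hn
  have hs := IsPGroup.to_sup_of_normal_right' hz Q.isPGroup' hle
  have heq := Q.is_maximal' hs le_sup_right
  have : v ∈ Subgroup.zpowers v ⊔ (Q : Subgroup G) := Subgroup.mem_sup_left (Subgroup.mem_zpowers v)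
  rwa [heq] at this

/-- A proper subgroup `D` of a `p`-subgroup `Q` is properly contained in `Q ⊓ N(D)`. -/
theorem exists_normalizer_step [Finite G] {p : ℕ} [Fact p.Prime] (Q D : Subgroup G) (hQ : IsPGroup p Q)
    (hD : D < Q) : ∃ x ∈ Q, x ∉ D ∧ x ∈ Subgroup.normalizer (D : Set G) := by
  have hnil : Group.IsNilpotent Q := IsPGroup.isNilpotent hQ
  have hlt : D.subgroupOf Q < ⊤ := by
    rw [lt_top_iff_ne_top]
    intro h
    have : Q ≤ D := Subgroup.subgroupOf_eq_top.mp h
    exact absurd (lt_of_lt_of_le hD this) (lt_irrefl _)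
  have h2 := Group.normalizerCondition_of_isNilpotent (G := Q) _ hlt
  obtain ⟨⟨x, hxQ⟩, hx1, hx2⟩ := SetLike.exists_of_lt h2
  refine ⟨x, hxQ, ?_, ?_⟩
  · simpa [Subgroup.mem_subgroupOf] using hx2
  · rw [Subgroup.mem_normalizer_iff] at hx1 ⊢
    intro h
    constructor
    · intro hh
      by_cases hhQ : h ∈ Q
      · have := (hx1 ⟨h, hhQ⟩).mp (by simpa [Subgroup.mem_subgroupOf] using hh)
        simpa [Subgroup.mem_subgroupOf] using this
      · exact absurd (hD.le hh) hhQ
    · intro hh
      have hhQ : h ∈ Q := by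
        have h3 : x * h * x⁻¹ ∈ Q := hD.le hh
        have : h = x⁻¹ * (x * h * x⁻¹) * x := by group
        rw [this]
        exact Q.mul_mem (Q.mul_mem (Q.inv_mem hxQ) h3) hxQ
      have := (hx1 ⟨h, hhQ⟩).mpr (by simpa [Subgroup.mem_subgroupOf] using hh)
      simpa [Subgroup.mem_subgroupOf] using this

/-- Let G be a finite group, p a prime and P a Sylow p-subgroup of G that is not normal in G. Then G has at least p·#P elements of p-power order (the identity included). -/
theorem result {G : Type*} [Group G] [Finite G] (p : ℕ) [Fact p.Prime]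
    (P : Sylow p G) (hP : ¬ (P : Subgroup G).Normal) :
    p * Nat.card (P : Subgroup G) ≤ Nat.card {g : G // ∃ k : ℕ, orderOf g = p ^ k} := by
  classical
  have hpp : p.Prime := Fact.out
  have := Fintype.ofFinite G
  -- another Sylow
  have hnon : Nonempty {Q : Sylow p G // Q ≠ P} := by
    by_contra hcon
    apply hP
    have hsub : Subsingleton (Sylow p G) := by
      refine ⟨fun A B => ?_⟩
      have hA : A = P := by
        by_contra h
        exact hcon ⟨⟨A, h⟩⟩
      have hB : B = P := by
        by_contra h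
        exact hcon ⟨⟨B, h⟩⟩
      rw [hA, hB]
    exact Sylow.normal_of_subsingleton P
  obtain ⟨⟨Q, hQP⟩, hmax⟩ := Finite.exists_max (fun Q : {Q : Sylow p G // Q ≠ P} =>
    Nat.card (((P : Subgroup G) ⊓ (Q.1 : Subgroup G) : Subgroup G)))
  set D : Subgroup G := (P : Subgroup G) ⊓ (Q : Subgroup G) with hD
  have hDP : D ≤ P := inf_le_left
  have hDQ : D ≤ Q := inf_le_right
  -- the bound for all pairs
  have hallp : ∀ A B : Sylow p G, A ≠ B →
      Nat.card (((A : Subgroup G) ⊓ (B : Subgroup G) : Subgroup G)) ≤ Nat.card D := by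
    intro A B hAB
    obtain ⟨h, hh⟩ := MulAction.exists_smul_eq G A P
    have hne : h • B ≠ P := by
      intro he
      apply hAB
      have : h • A = h • B := by rw [hh, he]
      exact smul_left_cancel h this
    have h1 := hmax ⟨h • B, hne⟩
    refine le_trans (le_of_eq ?_) h1
    have h2 : (P : Subgroup G) ⊓ ((h • B : Sylow p G) : Subgroup G) =
        ((A : Subgroup G) ⊓ (B : Subgroup G)).map (MulAut.conj h).toMonoidHom := by
      rw [Subgroup.map_inf _ _ _ (MulEquiv.injective _), ← hh]
      rfl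
    simp only
    rw [h2, card_map_conj]
  have hDQlt : D < Q := by
    refine lt_of_le_of_ne hDQ ?_
    intro he
    apply hQP
    have hle : (Q : Subgroup G) ≤ P := by
      rw [← he]; exact hDP
    exact Sylow.ext (Q.is_maximal' P.isPGroup' hle).symm
  -- the set X0 = N_Q(D) \ D
  set R : Subgroup G := (Q : Subgroup G) ⊓ Subgroup.normalizer (D : Set G) with hR
  have hDR : D ≤ R := le_inf hDQ Subgroup.le_normalizer
  have hDRlt : D < R := by
    obtain ⟨x, hxQ, hxD, hxn⟩ := exists_normalizer_step (p := p) (Q : Subgroup G) D Q.isPGroup' hDQlt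
    refine lt_of_le_of_ne hDR ?_
    intro he
    apply hxD
    rw [he]
    exact Subgroup.mem_inf.mpr ⟨hxQ, hxn⟩
  have hRcard : p * Nat.card D ≤ Nat.card R := by
    have hRp : IsPGroup p R := Q.isPGroup'.to_le inf_le_left
    obtain ⟨k, hk⟩ := hRp.index (D.subgroupOf R) 
    have h1 : (D.subgroupOf R).index * Nat.card (D.subgroupOf R) = Nat.card R :=
      Subgroup.index_mul_card _
    have h2 : Nat.card (D.subgroupOf R) = Nat.card D :=
      Nat.card_congr (Subgroup.subgroupOfEquivOfLe hDR).toEquiv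
    rw [h2, hk] at h1
    have hk0 : k ≠ 0 := by
      rintro rfl
      have h3 : Nat.card D = Nat.card R := by simpa using h1
      have := Subgroup.eq_of_le_of_card_ge hDR (le_of_eq h3.symm)
      exact absurd this hDRlt.ne
    rw [← h1]
    apply Nat.mul_le_mul_right
    calc p = p ^ 1 := (pow_one p).symm
      _ ≤ p ^ k := Nat.pow_le_pow_right hpp.pos (Nat.pos_of_ne_zero hk0)
  -- the key claim
  have key : ∀ (v x x' : G), v ∈ (P : Subgroup G) → x ∈ R → x ∉ D → x' ∈ R → x' ∉ D →
      v * x * v⁻¹ = x' → v ∈ D := by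
    intro v x x' hv hx hxD hx' hx'D hvx
    obtain ⟨hxQ, hxn⟩ := Subgroup.mem_inf.mp hx
    obtain ⟨hx'Q, hx'n⟩ := Subgroup.mem_inf.mp hx'
    have hxP : x ∉ (P : Subgroup G) := fun h => hxD (Subgroup.mem_inf.mpr ⟨h, hxQ⟩)
    -- D' = v⁻¹ D v
    set D' : Subgroup G := D.map (MulAut.conj v⁻¹).toMonoidHom with hD'
    have hD'P : D' ≤ P := by
      rintro _ ⟨d, hd, rfl⟩
      simp only [MulEquiv.coe_toMonoidHom, MulAut.conj_apply]
      exact (P : Subgroup G).mul_mem ((P : Subgroup G).mul_mem ((P : Subgroup G).inv_mem hv) (hDP hd))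
        (by simpa using hv)
    have hx_D' : x ∈ Subgroup.normalizer (D' : Set G) := by
      apply normalizes_of_map_conj_eq
      have h1 := map_conj_eq_of_normalizes D x' hx'n
      rw [hD']
      rw [← hvx] at h1
      conv_rhs => rw [← h1]
      rw [Subgroup.map_map, Subgroup.map_map]
      congr 1
      ext g
      simp only [MonoidHom.comp_apply, MulEquiv.coe_toMonoidHom, MulAut.conj_apply]
      group
    have hx_D1 : x ∈ Subgroup.normalizer ((D ⊔ D' : Subgroup G) : Set G) := by
      apply normalizes_of_map_conj_eq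
      rw [Subgroup.map_sup, map_conj_eq_of_normalizes D x hxn, map_conj_eq_of_normalizes D' x hx_D']
    have hD1P : D ⊔ D' ≤ P := sup_le hDP hD'P
    have hxp : ∃ k : ℕ, x ^ p ^ k = 1 := by
      obtain ⟨k, hk⟩ := isPGroup_iff_pow_pow_eq_one.mp Q.isPGroup' ⟨x, hxQ⟩
      exact ⟨k, by simpa using congrArg Subtype.val hk⟩
    have hzx : IsPGroup p (Subgroup.zpowers x) := by
      obtain ⟨k, hk⟩ := hxp
      have hd : orderOf x ∣ p ^ k := orderOf_dvd_of_pow_eq_one hk
      obtain ⟨i, -, hi⟩ := (Nat.dvd_prime_pow hpp).mp hd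
      exact IsPGroup.of_card (n := i) (by rw [Nat.card_zpowers, hi])
    have hT : IsPGroup p ((Subgroup.zpowers x ⊔ (D ⊔ D') : Subgroup G) : Subgroup G) :=
      IsPGroup.to_sup_of_normal_right' hzx (P.isPGroup'.to_le hD1P)
        (by rw [Subgroup.zpowers_le]; exact hx_D1)
    obtain ⟨S, hS⟩ := hT.exists_le_sylow
    have hxS : x ∈ (S : Subgroup G) := hS (Subgroup.mem_sup_left (Subgroup.mem_zpowers x))
    have hSP : P ≠ S := by
      rintro rfl
      exact hxP hxS
    have hD1S : D ⊔ D' ≤ (P : Subgroup G) ⊓ (S : Subgroup G) :=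
      le_inf hD1P (le_trans le_sup_right hS)
    have hcard1 : Nat.card (D ⊔ D' : Subgroup G) ≤ Nat.card D :=
      le_trans (Subgroup.card_le_of_le hD1S) (hallp P S hSP)
    have hDD1 : D = D ⊔ D' := Subgroup.eq_of_le_of_card_ge le_sup_left hcard1
    have hD'D : D' ≤ D := by rw [hDD1]; exact le_sup_right
    have hD'eq : D' = D := Subgroup.eq_of_le_of_card_ge hD'D (by
      rw [hD', card_map_conj])
    -- v normalizes D
    have hvD : D.map (MulAut.conj v).toMonoidHom = D := by
      conv_lhs => rw [← hD'eq, hD', Subgroup.map_map]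
      have : (MulAut.conj v).toMonoidHom.comp (MulAut.conj v⁻¹).toMonoidHom = MonoidHom.id G := by
        ext g
        simp only [MonoidHom.comp_apply, MulEquiv.coe_toMonoidHom, MulAut.conj_apply, MonoidHom.id_apply]
        group
      rw [this, Subgroup.map_id]
    -- now Q' = v • Q
    have hvp : ∃ k : ℕ, v ^ p ^ k = 1 := by
      obtain ⟨k, hk⟩ := isPGroup_iff_pow_pow_eq_one.mp P.isPGroup' ⟨v, hv⟩
      exact ⟨k, by simpa using congrArg Subtype.val hk⟩
    have hQ' : ((v • Q : Sylow p G) : Subgroup G) = (Q : Subgroup G).map (MulAut.conj v).toMonoidHom := by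
      rw [Sylow.coe_subgroup_smul]
      rfl
    have hDQ' : D ≤ ((v • Q : Sylow p G) : Subgroup G) := by
      rw [hQ', ← hvD]
      exact Subgroup.map_mono hDQ
    have hx'Q' : x' ∈ ((v • Q : Sylow p G) : Subgroup G) := by
      rw [hQ', ← hvx]
      exact Subgroup.mem_map.mpr ⟨x, hxQ, rfl⟩
    have hQQ' : v • Q = Q := by
      by_contra hne
      have h1 := hallp Q (v • Q) (Ne.symm hne)
      have h2 : D ⊓ D = D := inf_idem D
      have hTT : D ⊔ Subgroup.zpowers x' ≤ (Q : Subgroup G) ⊓ ((v • Q : Sylow p G) : Subgroup G) := by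
        refine sup_le (le_inf hDQ hDQ') ?_
        rw [Subgroup.zpowers_le]
        exact Subgroup.mem_inf.mpr ⟨hx'Q, hx'Q'⟩
      have h3 : Nat.card (D ⊔ Subgroup.zpowers x' : Subgroup G) ≤ Nat.card D :=
        le_trans (Subgroup.card_le_of_le hTT) h1
      have h4 : D = D ⊔ Subgroup.zpowers x' := Subgroup.eq_of_le_of_card_ge le_sup_left h3
      apply hx'D
      rw [h4]
      exact Subgroup.mem_sup_right (Subgroup.mem_zpowers x')
    have hvn : v ∈ Subgroup.normalizer ((Q : Subgroup G) : Set G) := by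
      apply normalizes_of_map_conj_eq
      rw [← hQ', hQQ']
    have hvQ := mem_of_normalizes Q v hvp hvn
    exact Subgroup.mem_inf.mpr ⟨hv, hvQ⟩
  -- the count
  let PF : Finset G := Finset.univ.filter (· ∈ (P : Subgroup G))
  let X0 : Finset G := Finset.univ.filter (fun x => x ∈ R ∧ x ∉ D)
  let DF : Finset G := Finset.univ.filter (· ∈ D)
  let RF : Finset G := Finset.univ.filter (· ∈ R)
  let E : Finset G := Finset.univ.filter (fun g => (∃ k : ℕ, orderOf g = p ^ k) ∧ g ∉ (P : Subgroup G))
  let U : Finset G := Finset.univ.filter (fun g => ∃ k : ℕ, orderOf g = p ^ k)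
  have hcardF : ∀ A : Subgroup G, (Finset.univ.filter (· ∈ A)).card = Nat.card A := by
    intro A
    rw [Nat.card_eq_fintype_card, Fintype.card_subtype]
  have hPF : PF.card = Nat.card (P : Subgroup G) := hcardF _
  have hDF : DF.card = Nat.card D := hcardF _
  have hRF : RF.card = Nat.card R := hcardF _
  have hX0 : X0.card + DF.card = RF.card := by
    have hsplit : RF = X0 ∪ DF := by
      ext x
      simp only [RF, X0, DF, Finset.mem_filter, Finset.mem_univ, true_and, Finset.mem_union]
      constructor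
      · intro hx
        by_cases hxD : x ∈ D
        · exact Or.inr hxD
        · exact Or.inl ⟨hx, hxD⟩
      · rintro (⟨hx, -⟩ | hx)
        · exact hx
        · exact hDR hx
    rw [hsplit, Finset.card_union_of_disjoint]
    rw [Finset.disjoint_left]
    intro x hx hx2
    simp only [X0, DF, Finset.mem_filter, Finset.mem_univ, true_and] at hx hx2
    exact hx.2 hx2
  let f : G × G → G := fun a => a.1 * a.2 * a.1⁻¹
  have hcount : (PF ×ˢ X0).card ≤ DF.card * ((PF ×ˢ X0).image f).card := by
    apply Finset.card_le_mul_card_image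
    intro y hy
    obtain ⟨⟨u0, x0⟩, h0, h0e⟩ := Finset.mem_image.mp hy
    simp only [PF, X0, Finset.mem_product, Finset.mem_filter, Finset.mem_univ, true_and] at h0
    obtain ⟨hu0, hx0R, hx0D⟩ := h0
    refine Finset.card_le_card_of_injOn (fun a => u0⁻¹ * a.1) ?_ ?_
    · rintro ⟨u, x⟩ ha
      simp only [Finset.coe_filter, Finset.mem_product, PF, X0, Finset.mem_filter, Finset.mem_univ,
        true_and, Set.mem_ofPred_eq] at ha
      obtain ⟨⟨hu, hxR, hxD⟩, hfe⟩ := ha
      simp only [DF, Finset.coe_filter, Finset.mem_univ, true_and, Set.mem_ofPred_eq]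
      apply key (u0⁻¹ * u) x x0 _ hxR hxD hx0R hx0D
      · have h1 : u * x * u⁻¹ = u0 * x0 * u0⁻¹ := hfe.trans h0e.symm
        calc u0⁻¹ * u * x * (u0⁻¹ * u)⁻¹ = u0⁻¹ * (u * x * u⁻¹) * u0 := by group
          _ = u0⁻¹ * (u0 * x0 * u0⁻¹) * u0 := by rw [h1]
          _ = x0 := by group
      · exact (P : Subgroup G).mul_mem ((P : Subgroup G).inv_mem hu0) hu
    · rintro ⟨u, x⟩ ha ⟨u', x'⟩ hb hab
      simp only [Finset.coe_filter, Finset.mem_product, Set.mem_ofPred_eq] at ha hb
      have huu : u = u' := mul_left_cancel hab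
      subst huu
      have h1 : u * x * u⁻¹ = u * x' * u⁻¹ := ha.2.trans hb.2.symm
      have hxx : x = x' := by
        have h2 := mul_right_cancel h1
        exact mul_left_cancel h2
      rw [hxx]
  have himg : (PF ×ˢ X0).image f ⊆ E := by
    intro y hy
    obtain ⟨⟨u, x⟩, h0, rfl⟩ := Finset.mem_image.mp hy
    simp only [PF, X0, Finset.mem_product, Finset.mem_filter, Finset.mem_univ, true_and] at h0
    obtain ⟨hu, hxR, hxD⟩ := h0
    simp only [E, f, Finset.mem_filter, Finset.mem_univ, true_and]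
    have hxQ : x ∈ (Q : Subgroup G) := (Subgroup.mem_inf.mp hxR).1
    constructor
    · obtain ⟨k, hk⟩ := IsPGroup.iff_orderOf.mp Q.isPGroup' ⟨x, hxQ⟩
      refine ⟨k, ?_⟩
      have h1 : orderOf (u * x * u⁻¹) = orderOf x := by
        simpa [MulAut.conj_apply] using (MulEquiv.orderOf_eq (MulAut.conj u) x)
      rw [h1]
      simpa using hk
    · intro hP'
      apply hxD
      refine Subgroup.mem_inf.mpr ⟨?_, hxQ⟩
      have h2 : x = u⁻¹ * (u * x * u⁻¹) * u := by group
      rw [h2]
      exact (P : Subgroup G).mul_mem ((P : Subgroup G).mul_mem ((P : Subgroup G).inv_mem hu) hP') hu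
  have hEU : PF.card + E.card ≤ U.card := by
    rw [← Finset.card_union_of_disjoint]
    · apply Finset.card_le_card
      intro g hg
      simp only [PF, E, U, Finset.mem_union, Finset.mem_filter, Finset.mem_univ, true_and] at hg ⊢
      rcases hg with hg | hg
      · obtain ⟨k, hk⟩ := IsPGroup.iff_orderOf.mp P.isPGroup' ⟨g, hg⟩
        exact ⟨k, by simpa using hk⟩
      · exact hg.1
    · rw [Finset.disjoint_left]
      intro g hg hg2
      simp only [PF, E, Finset.mem_filter, Finset.mem_univ, true_and] at hg hg2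
      exact hg2.2 hg
  have hUcard : Nat.card {g : G // ∃ k : ℕ, orderOf g = p ^ k} = U.card := by
    rw [Nat.card_eq_fintype_card, Fintype.card_subtype]
  rw [hUcard]
  -- arithmetic
  have hDpos : 0 < DF.card := by
    rw [hDF]; exact Nat.card_pos
  have h1 : PF.card * X0.card ≤ DF.card * E.card := by
    rw [← Finset.card_product]
    exact le_trans hcount (Nat.mul_le_mul_left _ (Finset.card_le_card himg))
  have h2 : (p - 1) * DF.card ≤ X0.card := by
    have h3 : p * DF.card ≤ X0.card + DF.card := by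
      rw [hX0, hRF, hDF]; exact hRcard
    obtain ⟨q, rfl⟩ : ∃ q, p = q + 1 := ⟨p - 1, (Nat.sub_add_cancel hpp.pos).symm⟩
    simp only [Nat.add_sub_cancel]
    rw [add_mul, one_mul] at h3
    omega
  have h3 : PF.card * (p - 1) ≤ E.card := by
    have : DF.card * (PF.card * (p - 1)) ≤ DF.card * E.card := by
      calc DF.card * (PF.card * (p - 1)) = PF.card * ((p - 1) * DF.card) := by ring
        _ ≤ PF.card * X0.card := Nat.mul_le_mul_left _ h2
        _ ≤ DF.card * E.card := h1
    exact Nat.le_of_mul_le_mul_left this hDpos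
  rw [← hPF]
  obtain ⟨q, rfl⟩ : ∃ q, p = q + 1 := ⟨p - 1, (Nat.sub_add_cancel hpp.pos).symm⟩
  simp only [Nat.add_sub_cancel] at h3
  calc (q + 1) * PF.card = PF.card + PF.card * q := by ring
    _ ≤ PF.card + E.card := by omega
    _ ≤ U.card := hEU

end Cfsg.Agent.S4092
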