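import Mathlib
import Cfsg.Statements.S4093

set_option autoImplicit false
open Cfsg
open scoped BigOperators

namespace Cfsg.Agent.S4093

theorem sub_conj {G : Type*} [Group G] [Finite G] (p : ℕ) [Fact p.Prime]
    (P : Sylow p G) (N : Subgroup G) [N.Normal] (hNP : N.IsComplement' (P : Subgroup G))
    (g x : G) (hx : x ∈ (P : Subgroup G)) (hg : ∃ k : ℕ, orderOf g = p ^ k) (hgx : g * x⁻¹ ∈ N) :
    ∃ n ∈ N, g = n * x * n⁻¹ := by
  have hzg : IsPGroup p (Subgroup.zpowers g) := by
    obtain ⟨k, hk⟩ := hg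
    exact IsPGroup.of_card (n := k) (by rw [Nat.card_zpowers, hk])
  obtain ⟨S, hS⟩ := hzg.exists_le_sylow
  obtain ⟨c, hc⟩ := MulAction.exists_smul_eq G P S
  have hgS : g ∈ (S : Subgroup G) := hS (Subgroup.mem_zpowers g)
  have hy : c⁻¹ * g * c ∈ (P : Subgroup G) := by
    rw [← hc, Sylow.coe_subgroup_smul, Subgroup.mem_pointwise_smul_iff_inv_smul_mem] at hgS
    simpa [MulAut.smul_def] using hgS
  have hctop : c ∈ (N ⊔ (P : Subgroup G) : Subgroup G) := by rw [hNP.sup_eq_top]; trivial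
  have hc' : c ∈ ((N ⊔ (P : Subgroup G) : Subgroup G) : Set G) := hctop
  rw [Subgroup.normal_mul] at hc'
  obtain ⟨n, hn, z, hz, rfl⟩ := Set.mem_mul.mp hc'
  set w := z * ((n * z)⁻¹ * g * (n * z)) * z⁻¹ with hw
  have hwP : w ∈ (P : Subgroup G) :=
    (P : Subgroup G).mul_mem ((P : Subgroup G).mul_mem hz hy) ((P : Subgroup G).inv_mem hz)
  have hgw : g = n * w * n⁻¹ := by
    rw [hw]; group
  have h1 : g * w⁻¹ ∈ N := by
    rw [hgw]
    have : n * w * n⁻¹ * w⁻¹ = n * (w * n⁻¹ * w⁻¹) := by group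
    rw [this]
    exact N.mul_mem hn (‹N.Normal›.conj_mem _ (N.inv_mem hn) _)
  have h2 : w * x⁻¹ ∈ N := by
    have : w * x⁻¹ = (g * w⁻¹)⁻¹ * (g * x⁻¹) := by group
    rw [this]
    exact N.mul_mem (N.inv_mem h1) hgx
  have h3 : w * x⁻¹ ∈ (P : Subgroup G) :=
    (P : Subgroup G).mul_mem hwP ((P : Subgroup G).inv_mem hx)
  have h4 : w * x⁻¹ = 1 := by
    have : w * x⁻¹ ∈ N ⊓ (P : Subgroup G) := Subgroup.mem_inf.mpr ⟨h2, h3⟩
    rw [hNP.disjoint.eq_bot, Subgroup.mem_bot] at this
    exact this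
  have h5 : w = x := by
    rwa [mul_inv_eq_one] at h4
  exact ⟨n, hn, by rw [hgw, h5]⟩

/-- Let G be a finite group with a normal subgroup N complementing a Sylow p-subgroup P (a normal p-complement). Then the number of elements of G of p-power order equals the sum over x ∈ P of the index of C_N(x) in N. -/
theorem result {G : Type*} [Group G] [Finite G] (p : ℕ) [Fact p.Prime]
    (P : Sylow p G) (N : Subgroup G) [N.Normal] (hNP : N.IsComplement' (P : Subgroup G)) :
    Nat.card {g : G // ∃ k : ℕ, orderOf g = p ^ k} =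
      ∑ᶠ x : (P : Subgroup G), Nat.card N / Nat.card ↥(N ⊓ Subgroup.centralizer ({(x : G)} : Set G)) := by
  classical
  have := Fintype.ofFinite G
  have hpp : p.Prime := Fact.out
  let U : Finset G := Finset.univ.filter (fun g => ∃ k : ℕ, orderOf g = p ^ k)
  let NF : Finset G := Finset.univ.filter (· ∈ N)
  let F : ↥(P : Subgroup G) → Finset G := fun x => NF.image (fun n => n * (x : G) * n⁻¹)
  have hUcard : Nat.card {g : G // ∃ k : ℕ, orderOf g = p ^ k} = U.card := by
    rw [Nat.card_eq_fintype_card, Fintype.card_subtype]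
  have hcardF : ∀ A : Subgroup G, (Finset.univ.filter (· ∈ A)).card = Nat.card A := by
    intro A
    rw [Nat.card_eq_fintype_card, Fintype.card_subtype]
  have hNF : NF.card = Nat.card N := hcardF _
  -- elements of F x are in the coset N x
  have hFmem : ∀ (x : ↥(P : Subgroup G)) (g : G), g ∈ F x → g * (x : G)⁻¹ ∈ N := by
    intro x g hg
    obtain ⟨n, hn, rfl⟩ := Finset.mem_image.mp hg
    simp only [NF, Finset.mem_filter, Finset.mem_univ, true_and] at hn
    have : n * (x : G) * n⁻¹ * (x : G)⁻¹ = n * ((x : G) * n⁻¹ * (x : G)⁻¹) := by group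
    rw [this]
    exact N.mul_mem hn (‹N.Normal›.conj_mem _ (N.inv_mem hn) _)
  have hU : U = (Finset.univ : Finset ↥(P : Subgroup G)).biUnion F := by
    ext g
    simp only [U, Finset.mem_filter, Finset.mem_univ, true_and, Finset.mem_biUnion]
    constructor
    · intro hg
      -- g = n * x
      have hgtop : g ∈ (N ⊔ (P : Subgroup G) : Subgroup G) := by rw [hNP.sup_eq_top]; trivial
      have hg' : g ∈ ((N ⊔ (P : Subgroup G) : Subgroup G) : Set G) := hgtop
      rw [Subgroup.normal_mul] at hg'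
      obtain ⟨m, hm, x, hx, rfl⟩ := Set.mem_mul.mp hg'
      obtain ⟨n, hn, hn2⟩ := sub_conj p P N hNP (m * x) x hx hg (by simpa using hm)
      refine ⟨⟨x, hx⟩, Finset.mem_image.mpr ⟨n, ?_, hn2.symm⟩⟩
      simpa [NF] using hn
    · rintro ⟨x, hg⟩
      obtain ⟨n, hn, rfl⟩ := Finset.mem_image.mp hg
      obtain ⟨k, hk⟩ := IsPGroup.iff_orderOf.mp P.isPGroup' x
      refine ⟨k, ?_⟩
      have h1 : orderOf (n * (x : G) * n⁻¹) = orderOf (x : G) := by
        simpa [MulAut.conj_apply] using (MulEquiv.orderOf_eq (MulAut.conj n) (x : G))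
      rw [h1]
      simpa using hk
  have hdisj : ∀ x ∈ (Finset.univ : Finset ↥(P : Subgroup G)), ∀ y ∈ (Finset.univ : Finset ↥(P : Subgroup G)),
      x ≠ y → Disjoint (F x) (F y) := by
    intro x _ y _ hxy
    rw [Finset.disjoint_left]
    intro g hgx hgy
    apply hxy
    have h1 := hFmem x g hgx
    have h2 := hFmem y g hgy
    have h3 : (x : G) * (y : G)⁻¹ ∈ N := by
      have : (x : G) * (y : G)⁻¹ = (g * (x : G)⁻¹)⁻¹ * (g * (y : G)⁻¹) := by group
      rw [this]
      exact N.mul_mem (N.inv_mem h1) h2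
    have h4 : (x : G) * (y : G)⁻¹ ∈ (P : Subgroup G) :=
      (P : Subgroup G).mul_mem x.2 ((P : Subgroup G).inv_mem y.2)
    have h5 : (x : G) * (y : G)⁻¹ = 1 := by
      have : (x : G) * (y : G)⁻¹ ∈ N ⊓ (P : Subgroup G) := Subgroup.mem_inf.mpr ⟨h3, h4⟩
      rw [hNP.disjoint.eq_bot, Subgroup.mem_bot] at this
      exact this
    rw [mul_inv_eq_one] at h5
    exact Subtype.ext h5
  rw [hUcard, hU, Finset.card_biUnion hdisj, finsum_eq_sum_of_fintype]
  refine Finset.sum_congr rfl ?_
  intro x _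
  -- card F x * |C_N(x)| = |N|
  set K := N ⊓ Subgroup.centralizer ({(x : G)} : Set G) with hK
  have hKpos : 0 < Nat.card K := Nat.card_pos
  have hfib : ∀ y ∈ F x, (NF.filter (fun n => n * (x : G) * n⁻¹ = y)).card = Nat.card K := by
    intro y hy
    obtain ⟨n0, hn0, rfl⟩ := Finset.mem_image.mp hy
    simp only [NF, Finset.mem_filter, Finset.mem_univ, true_and] at hn0
    rw [← hcardF K]
    refine Finset.card_nbij' (fun n => n0⁻¹ * n) (fun c => n0 * c) ?_ ?_ ?_ ?_
    · intro n hn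
      simp only [NF, Finset.coe_filter, Finset.mem_filter, Finset.mem_univ, true_and, Set.mem_ofPred_eq] at hn
      simp only [Finset.coe_filter, Finset.mem_univ, true_and, Set.mem_ofPred_eq]
      refine Subgroup.mem_inf.mpr ⟨N.mul_mem (N.inv_mem hn0) hn.1, ?_⟩
      rw [Subgroup.mem_centralizer_singleton_iff]
      have h := hn.2
      have : n0⁻¹ * (n * (x : G) * n⁻¹) * n0 = (x : G) := by rw [h]; group
      exact (calc (x : G) * (n0⁻¹ * n) = (n0⁻¹ * (n * (x : G) * n⁻¹) * n0) * (n0⁻¹ * n) := by rw [this]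
        _ = n0⁻¹ * n * (x : G) := by group).symm
    · intro c hc
      simp only [Finset.coe_filter, Finset.mem_univ, true_and, Set.mem_ofPred_eq] at hc
      obtain ⟨hcN, hcC⟩ := Subgroup.mem_inf.mp hc
      rw [Subgroup.mem_centralizer_singleton_iff] at hcC
      simp only [NF, Finset.coe_filter, Finset.mem_filter, Finset.mem_univ, true_and, Set.mem_ofPred_eq]
      refine ⟨N.mul_mem hn0 hcN, ?_⟩
      have : n0 * c * (x : G) * (n0 * c)⁻¹ = n0 * (c * (x : G) * c⁻¹) * n0⁻¹ := by group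
      rw [this]
      have h2 : c * (x : G) * c⁻¹ = x := by
        rw [hcC]; group
      rw [h2]
    · intro n _
      simp
    · intro c _
      simp
  have hsum : NF.card = (F x).card * Nat.card K := by
    rw [Finset.card_eq_sum_card_image (fun n => n * (x : G) * n⁻¹) NF]
    show ∑ y ∈ F x, _ = _
    rw [Finset.sum_congr rfl hfib, Finset.sum_const, smul_eq_mul]
  rw [hNF] at hsum
  rw [hsum]
  exact (Nat.mul_div_cancel _ hKpos).symm

end Cfsg.Agent.S4093
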