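import Mathlib
import Cfsg.Statements.S4097
import Cfsg.Agent.Lib.FrobeniusThm
import Cfsg.Agent.Lib.Glauberman2
import Cfsg.Agent.Lib.SignalizerCore
import Cfsg.Agent.Lib.FpfGeneral

set_option autoImplicit false
open Cfsg

namespace Cfsg.Agent.S4097

open Cfsg.Agent.Lib.Frobenius

universe u

theorem step {G : Type u} [Group G] [Finite G] (A : Subgroup G) (hA : Group.IsSolvable A)
    (hc : ∀ S : Subgroup G, A ≤ S → Group.IsSolvable S → ∀ a ∈ A, ∀ s ∈ S, a * s = s * a)
    (hind : ∀ L : Subgroup G, A ≤ L → L ≠ ⊤ → ∀ a ∈ A, ∀ l ∈ L, a * l = l * a) :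
    A ≤ Subgroup.center G := by
  classical
  by_contra hAZ
  set C := Subgroup.centralizer (A : Set G) with hC
  have mem_C : ∀ x, x ∈ C ↔ ∀ a ∈ A, a * x = x * a := by
    intro x
    rw [hC, Subgroup.mem_centralizer_iff]
    constructor
    · intro h a ha
      exact h a ha
    · intro h a ha
      exact h a ha
  have hAC : A ≤ C := fun a ha => (mem_C a).2 fun b hb => hc A le_rfl hA b hb a ha
  have hCtop : C ≠ ⊤ := by
    intro h
    apply hAZ
    intro a ha
    rw [Subgroup.mem_center_iff]
    intro g
    have hg : g ∈ C := h ▸ Subgroup.mem_top g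
    exact ((mem_C g).1 hg a ha).symm
  have hle : ∀ L : Subgroup G, A ≤ L → L ≠ ⊤ → L ≤ C := fun L hAL hL l hl =>
    (mem_C l).2 fun a ha => hind L hAL hL a ha l hl
  -- the normalizer of `C`
  have hN : Subgroup.normalizer (C : Set G) ≤ C := by
    by_cases htop : Subgroup.normalizer (C : Set G) = ⊤
    · exfalso
      apply hCtop
      haveI hCn : C.Normal := Subgroup.normalizer_eq_top_iff.mp htop
      set Y : Subgroup G := C ⊓ Subgroup.centralizer (C : Set G) with hY
      have hYn : Y.Normal := by
        haveI : (Subgroup.centralizer (C : Set G)).Normal := Subgroup.normal_centralizer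
        exact Subgroup.normal_inf_normal _ _
      have hAY : A ≤ Y := by
        intro a ha
        refine Subgroup.mem_inf.mpr ⟨hAC ha, ?_⟩
        rw [Subgroup.mem_centralizer_iff]
        intro x hx
        exact ((mem_C x).1 hx a ha).symm
      have hYc : Group.IsSolvable Y := by
        have hcomm : ∀ x y : Y, x * y = y * x := by
          intro x y
          apply Subtype.ext
          have := (Subgroup.mem_centralizer_iff.mp y.2.2) x x.2.1
          exact this
        letI : CommGroup Y := { (inferInstance : Group Y) with mul_comm := hcomm }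
        infer_instance
      rw [eq_top_iff]
      intro x _
      rw [mem_C]
      intro a ha
      have hsolv : Group.IsSolvable (Y ⊔ Subgroup.zpowers x : Subgroup G) := by
        apply Cfsg.Agent.Lib.SignalizerCore.solvable_sup_of_le_normalizer hYc inferInstance
        rw [Subgroup.normalizer_eq_top]
        exact le_top
      exact hc _ (hAY.trans le_sup_left) hsolv a ha x
        (Subgroup.mem_sup_right (Subgroup.mem_zpowers x))
    · exact hle _ (hAC.trans Subgroup.le_normalizer) htop
  -- conjugates of `A` generate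
  have hgen : ∀ g : G, g ∉ C → A ⊔ A.map (MulAut.conj g).toMonoidHom = ⊤ := by
    intro g hg
    by_contra hL
    have h1 := hle _ le_sup_left hL
    have h2 : ∀ a ∈ A, g * a * g⁻¹ ∈ C := fun a ha =>
      h1 (Subgroup.mem_sup_right ⟨a, ha, by simp⟩)
    set C' := C.map (MulAut.conj g).toMonoidHom with hC'
    have hAC' : A ≤ C' := by
      intro a ha
      refine ⟨g⁻¹ * a * g, ?_, by simp [mul_assoc]⟩
      rw [SetLike.mem_coe, mem_C]
      intro b hb
      have := (mem_C _).1 (h2 b hb) a ha
      have h3 : a * (g * b * g⁻¹) = g * b * g⁻¹ * a := this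
      have h4 : b * (g⁻¹ * a * g) = g⁻¹ * (g * b * g⁻¹ * a) * g := by group
      have h5 : g⁻¹ * a * g * b = g⁻¹ * (a * (g * b * g⁻¹)) * g := by group
      rw [h4, h5, h3]
    have hC'top : C' ≠ ⊤ := by
      intro h
      apply hCtop
      rw [eq_top_iff]
      intro x _
      have : g * x * g⁻¹ ∈ C' := h ▸ Subgroup.mem_top _
      obtain ⟨y, hy, hyx⟩ := this
      have : y = x := by
        have h6 : g * y * g⁻¹ = g * x * g⁻¹ := by simpa using hyx
        simpa using h6
      exact this ▸ hy
    have hC'C : C' ≤ C := hle _ hAC' hC'top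
    have hcard : Nat.card C' = Nat.card C := by
      rw [hC']
      exact Subgroup.card_map_of_injective (MulAut.conj g).injective
    have heq : C' = C := Subgroup.eq_of_le_of_card_ge hC'C hcard.ge
    apply hg
    apply hN
    rw [Subgroup.mem_normalizer_iff]
    intro h
    constructor
    · intro hh
      rw [← heq]
      exact ⟨h, hh, by simp⟩
    · intro hh
      rw [← heq] at hh
      obtain ⟨y, hy, hyx⟩ := hh
      have : y = h := by
        have h6 : g * y * g⁻¹ = g * h * g⁻¹ := by simpa using hyx
        simpa using h6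
      exact this ▸ hy
  have hTI : ∀ g : G, g ∉ C → ∀ t ∈ C, g⁻¹ * t * g ∈ C → t ∈ Subgroup.center G := by
    intro g hg t ht htg
    rw [Subgroup.mem_center_iff]
    have hcent : (⊤ : Subgroup G) ≤ Subgroup.centralizer {t} := by
      rw [← hgen g hg]
      refine sup_le ?_ ?_
      · intro a ha
        rw [Subgroup.mem_centralizer_singleton_iff]
        exact ((mem_C t).1 ht a ha)
      · rintro _ ⟨a, ha, rfl⟩
        rw [Subgroup.mem_centralizer_singleton_iff]
        have h3 := (mem_C _).1 htg a ha
        have h4 : (MulAut.conj g).toMonoidHom a * t = g * (a * (g⁻¹ * t * g)) * g⁻¹ := by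
          simp [mul_assoc]
        have h5 : t * (MulAut.conj g).toMonoidHom a = g * (g⁻¹ * t * g * a) * g⁻¹ := by
          simp [mul_assoc]
        rw [h4, h5, h3]
    intro g'
    have := hcent (Subgroup.mem_top g')
    rw [Subgroup.mem_centralizer_singleton_iff] at this
    exact this
  have hZC : Subgroup.center G ≤ C := fun z hz => (mem_C z).2 fun a _ =>
    ((Subgroup.mem_center_iff.mp hz) a)
  -- pass to the central quotient
  let π : G →* G ⧸ Subgroup.center G := QuotientGroup.mk' _
  have hπ : Function.Surjective π := QuotientGroup.mk'_surjective _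
  have hπker : ∀ x, π x = 1 ↔ x ∈ Subgroup.center G := fun x => QuotientGroup.eq_one_iff x
  set H := C.map π with hH
  have memH : ∀ x, π x ∈ H ↔ x ∈ C := by
    intro x
    constructor
    · rintro ⟨y, hy, hyx⟩
      have : y⁻¹ * x ∈ Subgroup.center G := by
        rw [← hπker, map_mul, map_inv, ← hyx]
        simp
      have h2 := C.mul_mem hy (hZC this)
      simpa using h2
    · intro hx
      exact ⟨x, hx, rfl⟩
  have hH0 : H ≠ ⊥ := by
    intro h
    apply hAZ
    intro a ha
    rw [← hπker]
    have := (memH a).2 (hAC ha)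
    rw [h] at this
    simpa using this
  have hH1 : H ≠ ⊤ := by
    intro h
    apply hCtop
    rw [eq_top_iff]
    intro x _
    rw [← memH, h]
    trivial
  have hHF : IsFrobeniusComplement H := by
    refine ⟨hH0, hH1, ?_⟩
    intro g hg
    rw [eq_bot_iff]
    intro t ht
    obtain ⟨ht1, ht2⟩ := Subgroup.mem_inf.mp ht
    obtain ⟨g', rfl⟩ := hπ g
    obtain ⟨t', rfl⟩ := hπ t
    rw [Subgroup.mem_bot, hπker]
    rw [memH] at ht1
    have ht3 := mem_conj_iff.mp ht2
    rw [← map_inv, ← map_mul, ← map_mul, memH] at ht3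
    exact hTI g' (fun h => hg ((memH g').2 h)) t' ht1 ht3
  obtain ⟨N, hNset, hNn, hNc⟩ := Cfsg.Agent.Lib.FrobeniusThm.exists_kernel_subgroup hHF
  have hcardNH : Nat.card N * Nat.card H = Nat.card (G ⧸ Subgroup.center G) := hNc.card_mul
  have hN1 : Nat.card N ≠ 1 := by
    intro h
    apply hH1
    rw [h, one_mul] at hcardNH
    exact Subgroup.eq_top_of_card_eq _ hcardNH
  obtain ⟨q, hq, hqN⟩ := Nat.exists_prime_and_dvd hN1
  haveI : Fact q.Prime := ⟨hq⟩
  set E := A.map π with hE
  have hEH : E ≤ H := Subgroup.map_mono hAC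
  have hEN : E ≤ Subgroup.normalizer (N : Set (G ⧸ Subgroup.center G)) := by
    rw [Subgroup.normalizer_eq_top]
    exact le_top
  have hfpf : ∀ a ∈ E, a ≠ 1 → N ⊓ Subgroup.centralizer {a} = ⊥ := by
    intro a ha ha1
    rw [eq_bot_iff]
    intro y hy
    obtain ⟨hy1, hy2⟩ := Subgroup.mem_inf.mp hy
    rw [Subgroup.mem_bot]
    rw [Subgroup.mem_centralizer_singleton_iff] at hy2
    have hy3 : y ∈ H := by
      refine mem_of_conj_mem hHF (hEH ha) ha1 ?_
      have : y⁻¹ * a * y = a := by
        rw [mul_assoc, ← hy2]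
        group
      rw [this]
      exact hEH ha
    have hy4 : y ∈ frobeniusKernel H := by
      rw [← hNset]
      exact hy1
    exact eq_one_of_mem_kernel_of_mem hy4 hy3
  have hcop := Cfsg.Agent.Lib.FpfGeneral.coprime_of_fpf E N hEN hfpf
  have hEs : Group.IsSolvable E := by
    have : Function.Surjective (π.subgroupMap A) := π.subgroupMap_surjective A
    exact Group.isSolvable_of_surjective this
  obtain ⟨P, hP⟩ := Cfsg.Agent.Lib.Glauberman2.exists_invariant_sylow hEN hcop (Or.inl hEs) q
  set P0 := (P : Subgroup N).map N.subtype with hP0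
  have hP0p : IsPGroup q P0 := by
    have hpp := P.isPGroup'
    exact hpp.map N.subtype
  have hPne : (P : Subgroup N) ≠ ⊥ := P.ne_bot_of_dvd_card hqN
  obtain ⟨⟨y0, hy0⟩, hy01⟩ := (Subgroup.ne_bot_iff_exists_ne_one).mp hPne
  have hy01' : (y0 : G ⧸ Subgroup.center G) ≠ 1 := by
    intro h
    apply hy01
    apply Subtype.ext
    apply Subtype.ext
    exact h
  have hy0P : (y0 : G ⧸ Subgroup.center G) ∈ P0 := ⟨y0, hy0, rfl⟩
  obtain ⟨s, hs⟩ := hπ (y0 : G ⧸ Subgroup.center G)
  set Qh := P0.comap π with hQh
  have hsQ : s ∈ Qh := by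
    rw [hQh, Subgroup.mem_comap, hs]
    exact hy0P
  have hP0s : Group.IsSolvable P0 := by
    haveI := hP0p.isNilpotent
    infer_instance
  have hQhs : Group.IsSolvable Qh := by
    have hZQ : Subgroup.center G ≤ Qh := by
      intro z hz
      rw [hQh, Subgroup.mem_comap, (hπker z).2 hz]
      exact P0.one_mem
    let f : Subgroup.center G →* Qh := Subgroup.inclusion hZQ
    let g : Qh →* P0 := (π.comp Qh.subtype).codRestrict P0 (fun x => x.2)
    have hfg : g.ker ≤ f.range := by
      intro x hx
      have h1 : π x = 1 := congrArg Subtype.val (MonoidHom.mem_ker.mp hx)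
      have h2 := (hπker _).1 h1
      exact ⟨⟨x, h2⟩, rfl⟩
    haveI : Group.IsSolvable (Subgroup.center G) := by
      apply isSolvable_of_comm
      intro x y
      apply Subtype.ext
      exact (Subgroup.mem_center_iff.mp x.2 y).symm
    exact solvable_of_ker_le_range f g hfg
  have hAQ : A ≤ Subgroup.normalizer (Qh : Set G) := by
    intro a ha
    have hEa : π a ∈ E := ⟨a, ha, rfl⟩
    have h1 := Subgroup.mem_normalizer_iff.mp (hP hEa)
    rw [Subgroup.mem_normalizer_iff]
    intro x
    have h2 : a * x * a⁻¹ ∈ Qh ↔ π a * π x * (π a)⁻¹ ∈ P0 := by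
      rw [hQh, Subgroup.mem_comap, map_mul, map_mul, map_inv]
    rw [h2, hQh, Subgroup.mem_comap]
    exact h1 (π x)
  have hS := Cfsg.Agent.Lib.SignalizerCore.solvable_sup_of_le_normalizer hQhs hA hAQ
  have hcomm := hc _ (le_sup_right : A ≤ Qh ⊔ A) hS
  obtain ⟨a, ha, haZ⟩ := Set.not_subset.mp hAZ
  have hπa : π a ≠ 1 := fun h => haZ ((hπker a).1 h)
  have hEa : π a ∈ E := ⟨a, ha, rfl⟩
  have hcs := hcomm a ha s (Subgroup.mem_sup_left hsQ)
  have hbot := hfpf (π a) hEa hπa
  have hmem : (y0 : G ⧸ Subgroup.center G) ∈ N ⊓ Subgroup.centralizer {π a} := by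
    refine Subgroup.mem_inf.mpr ⟨y0.2, ?_⟩
    rw [Subgroup.mem_centralizer_singleton_iff, ← hs, ← map_mul, ← map_mul, hcs]
  rw [hbot, Subgroup.mem_bot] at hmem
  exact hy01' hmem

theorem main : ∀ (n : ℕ) {G : Type u} [Group G] [Finite G] (A : Subgroup G)
    (_ : Group.IsSolvable A)
    (_ : ∀ S : Subgroup G, A ≤ S → Group.IsSolvable S → ∀ a ∈ A, ∀ s ∈ S, a * s = s * a)
    (_ : Nat.card G = n), A ≤ Subgroup.center G := by
  intro n
  induction n using Nat.strong_induction_on with
  | _ n ih =>
    intro G _ _ A hA hc hn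
    refine step A hA hc ?_
    intro L hAL hL a ha l hl
    have hlt : Nat.card L < n := by
      rw [← hn]
      have h1 := L.card_mul_index
      have h2 : L.index ≠ 1 := fun h => hL (Subgroup.index_eq_one.mp h)
      have h3 : L.index ≠ 0 := Subgroup.index_ne_zero_of_finite
      have h4 : 0 < Nat.card L := Nat.card_pos
      have h5 : 2 ≤ L.index := by omega
      nlinarith
    have hA' : Group.IsSolvable (A.subgroupOf L) :=
      Group.isSolvable_of_isSolvable_injective
        (f := (Subgroup.subgroupOfEquivOfLe hAL).toMonoidHom) (MulEquiv.injective _)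
    have hres := ih _ hlt (A.subgroupOf L) hA' ?_ rfl
    · have h1 : (⟨a, hAL ha⟩ : L) ∈ A.subgroupOf L := ha
      have h2 := hres h1
      rw [Subgroup.mem_center_iff] at h2
      have h3 := h2 ⟨l, hl⟩
      exact (congrArg Subtype.val h3).symm
    · intro S hAS hS x hx y hy
      have hSm : Group.IsSolvable (S.map L.subtype) :=
        Group.isSolvable_of_surjective (f := L.subtype.subgroupMap S)
          (L.subtype.subgroupMap_surjective S)
      have hAS' : A ≤ S.map L.subtype := by
        intro b hb
        exact ⟨⟨b, hAL hb⟩, hAS hb, rfl⟩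
      have := hc _ hAS' hSm x hx y ⟨y, hy, rfl⟩
      exact Subtype.ext this

/-- Let A be a solvable subgroup of a finite group G such that A lies in the centre of every solvable subgroup of G containing A. Then A lies in the centre of G. -/
theorem result {G : Type*} [Group G] [Finite G]
    (A : Subgroup G) (hA : Group.IsSolvable A)
    (hc : ∀ S : Subgroup G, A ≤ S → Group.IsSolvable S → ∀ a ∈ A, ∀ s ∈ S, a * s = s * a) : A ≤ Subgroup.center G :=
  main _ A hA hc rfl

end Cfsg.Agent.S4097
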