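import Mathlib
import Cfsg.Agent.Lib.KPiFinal
import Cfsg.Statements.S4104

set_option autoImplicit false
open Cfsg

namespace Cfsg.Agent.S4104



/-- Let G be a finite group, π a set of primes with least member p, m the π-part of the order of G and k the number of conjugacy classes of G consisting of π-elements (elements whose order is divisible only by primes in π). If k > m/p, then G has a nilpotent Hall π-subgroup (a nilpotent subgroup of order m) whose derived subgroup has order at most p. -/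
theorem result {G : Type*} [Group G] [Finite G]
    (π : Set ℕ) (hπ : ∀ q ∈ π, q.Prime) (p : ℕ) (hp : p ∈ π) (hmin : ∀ q ∈ π, p ≤ q)
    (m : ℕ) (hm : m ∣ Nat.card G) (hmπ : ∀ q : ℕ, q.Prime → q ∣ m → q ∈ π)
    (hm' : ∀ q ∈ π, ¬ q ∣ Nat.card G / m)
    (k : ℕ) (hk : k = Nat.card {C : ConjClasses G // ∀ q : ℕ, q.Prime → (∃ g : G, ConjClasses.mk g = C ∧ q ∣ orderOf g) → q ∈ π})
    (hmany : m < p * k) :
    ∃ H : Subgroup G, Nat.card H = m ∧ Group.IsNilpotent H ∧ Nat.card (commutator H) ≤ p := by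
  classical
  have hpp : p.Prime := hπ p hp
  haveI : Fact p.Prime := ⟨hpp⟩
  obtain ⟨U, P, hUab, hPp, hPC, hcard, hcop, hkle⟩ :=
    Cfsg.Agent.Lib.KPiFinal.hall_data π hπ p hp hmin m hm hmπ hm' k hk hmany
  have hc : ∀ h ∈ P, ∀ k ∈ U, h * k = k * h := fun h hh k hk =>
    ((Subgroup.mem_centralizer_iff.mp (hPC hh)) k hk).symm
  refine ⟨P ⊔ U, ?_, ?_, ?_⟩
  · rw [Cfsg.Agent.Lib.KPiMain.card_sup_of_commuting hc hcop, hcard]
  · -- surjection from the product
    letI : CommGroup ↥U := { (inferInstance : Group ↥U) with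
      mul_comm := fun a b => Subtype.ext (hUab a a.2 b b.2) }
    haveI hUn : Group.IsNilpotent ↥U := CommGroup.isNilpotent
    haveI hPn : Group.IsNilpotent ↥P := hPp.isNilpotent
    let φ : ↥P × ↥U →* ↥(P ⊔ U) :=
      { toFun := fun x => ⟨(x.1 : G) * x.2, Subgroup.mul_mem_sup x.1.2 x.2.2⟩
        map_one' := by
          apply Subtype.ext
          simp
        map_mul' := by
          rintro ⟨a, b⟩ ⟨c, d⟩
          apply Subtype.ext
          show (a : G) * c * (b * d) = a * b * (c * d)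
          have := hc c c.2 b b.2
          calc (a : G) * c * (b * d) = a * (c * b) * d := by group
            _ = a * (b * c) * d := by rw [this]
            _ = _ := by group }
    refine Group.nilpotent_of_surjective φ ?_
    rintro ⟨x, hx⟩
    obtain ⟨h, h1, k, k1, rfl⟩ := Cfsg.Agent.Lib.KPiMain.exists_mul_of_commuting hc x hx
    exact ⟨(⟨h, h1⟩, ⟨k, k1⟩), rfl⟩
  · -- the commutator subgroup
    have hUpos : 0 < Nat.card U := Nat.card_pos
    have hPk : Nat.card P < p * Nat.card (ConjClasses P) := by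
      have h1 : Nat.card P * Nat.card U < (p * Nat.card (ConjClasses P)) * Nat.card U := by
        calc Nat.card P * Nat.card U = m := hcard
          _ < p * k := hmany
          _ ≤ p * (Nat.card (ConjClasses P) * Nat.card U) := Nat.mul_le_mul_left _ hkle
          _ = _ := by ring
      exact Nat.lt_of_mul_lt_mul_right h1
    have hcomm := Cfsg.Agent.Lib.KPi.card_commutator_le hpp hPp hPk
    let ψ : ↥P →* ↥(P ⊔ U) := Subgroup.inclusion le_sup_left
    have hψ : Function.Injective ψ := Subgroup.inclusion_injective _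
    have hle : commutator ↥(P ⊔ U) ≤ (commutator ↥P).map ψ := by
      rw [commutator_def, Subgroup.commutator_le]
      rintro ⟨x, hx⟩ - ⟨y, hy⟩ -
      obtain ⟨h₁, h1, k₁, k1, rfl⟩ := Cfsg.Agent.Lib.KPiMain.exists_mul_of_commuting hc x hx
      obtain ⟨h₂, h2, k₂, k2, rfl⟩ := Cfsg.Agent.Lib.KPiMain.exists_mul_of_commuting hc y hy
      refine ⟨(⟨h₁, h1⟩ : ↥P) * (⟨h₂, h2⟩ : ↥P) * (⟨h₁, h1⟩ : ↥P)⁻¹ * (⟨h₂, h2⟩ : ↥P)⁻¹, ?_, ?_⟩
      · rw [SetLike.mem_coe, commutator_def]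
        exact Subgroup.commutator_mem_commutator (Subgroup.mem_top _) (Subgroup.mem_top _)
      · apply Subtype.ext
        show h₁ * h₂ * h₁⁻¹ * h₂⁻¹ = h₁ * k₁ * (h₂ * k₂) * (h₁ * k₁)⁻¹ * (h₂ * k₂)⁻¹
        have e1 := hc h₂ h2 k₁ k1
        have e2 := hc h₁ h1 k₂ k2
        have e3 := hUab k₁ k1 k₂ k2
        have e4 := hc h₁⁻¹ (P.inv_mem h1) k₂ k2
        have e5 : h₂ * k₁ = k₁ * h₂ := e1
        calc h₁ * h₂ * h₁⁻¹ * h₂⁻¹
            = h₁ * h₂ * k₁ * k₂ * k₁⁻¹ * k₂⁻¹ * h₁⁻¹ * h₂⁻¹ := by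
              have : k₁ * k₂ * k₁⁻¹ * k₂⁻¹ = 1 := by
                rw [e3]; group
              calc h₁ * h₂ * h₁⁻¹ * h₂⁻¹ = h₁ * h₂ * (k₁ * k₂ * k₁⁻¹ * k₂⁻¹) * h₁⁻¹ * h₂⁻¹ := by
                    rw [this]; group
                _ = _ := by group
          _ = h₁ * k₁ * h₂ * k₂ * k₁⁻¹ * k₂⁻¹ * h₁⁻¹ * h₂⁻¹ := by
              rw [mul_assoc h₁ h₂ k₁, e5]; group
          _ = h₁ * k₁ * h₂ * k₂ * k₁⁻¹ * h₁⁻¹ * k₂⁻¹ * h₂⁻¹ := by
              have e6 : k₂⁻¹ * h₁⁻¹ = h₁⁻¹ * k₂⁻¹ := by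
                have := hc h₁⁻¹ (P.inv_mem h1) k₂⁻¹ (U.inv_mem k2)
                exact this.symm
              calc h₁ * k₁ * h₂ * k₂ * k₁⁻¹ * k₂⁻¹ * h₁⁻¹ * h₂⁻¹
                  = h₁ * k₁ * h₂ * k₂ * k₁⁻¹ * (k₂⁻¹ * h₁⁻¹) * h₂⁻¹ := by group
                _ = h₁ * k₁ * h₂ * k₂ * k₁⁻¹ * (h₁⁻¹ * k₂⁻¹) * h₂⁻¹ := by rw [e6]
                _ = _ := by group
          _ = _ := by group
    calc Nat.card (commutator ↥(P ⊔ U)) ≤ Nat.card ((commutator ↥P).map ψ) := Subgroup.card_le_of_le hle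
      _ = Nat.card (commutator ↥P) := Subgroup.card_map_of_injective hψ
      _ ≤ p := hcomm

end Cfsg.Agent.S4104
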