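import Mathlib
import Cfsg.Agent.Lib.KPiFinal
import Cfsg.Statements.S4105

set_option autoImplicit false
open Cfsg

namespace Cfsg.Agent.S4105



/-- Let G be a finite group, π a set of primes with least member p, m the π-part of the order of G and k the number of conjugacy classes of G consisting of π-elements. If k > m·(p² + p − 1)/p³, then G has an abelian Hall π-subgroup (an abelian subgroup of order m). -/
theorem result {G : Type*} [Group G] [Finite G]
    (π : Set ℕ) (hπ : ∀ q ∈ π, q.Prime) (p : ℕ) (hp : p ∈ π) (hmin : ∀ q ∈ π, p ≤ q)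
    (m : ℕ) (hm : m ∣ Nat.card G) (hmπ : ∀ q : ℕ, q.Prime → q ∣ m → q ∈ π)
    (hm' : ∀ q ∈ π, ¬ q ∣ Nat.card G / m)
    (k : ℕ) (hk : k = Nat.card {C : ConjClasses G // ∀ q : ℕ, q.Prime → (∃ g : G, ConjClasses.mk g = C ∧ q ∣ orderOf g) → q ∈ π})
    (hmany : m * (p ^ 2 + p - 1) < p ^ 3 * k) :
    ∃ H : Subgroup G, Nat.card H = m ∧ IsMulCommutative H := by
  classical
  have hpp : p.Prime := hπ p hp
  have hp1 : 1 ≤ p := hpp.pos
  have hpe : p ^ 2 + p - 1 + 1 = p ^ 2 + p := Nat.sub_add_cancel (by nlinarith)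
  have hmany' : m < p * k := by
    by_contra hcon
    push Not at hcon
    have h1 : p ^ 2 ≤ p ^ 2 + p - 1 := by omega
    have h2 : p ^ 3 * k ≤ p ^ 2 * m := by
      calc p ^ 3 * k = p ^ 2 * (p * k) := by ring
        _ ≤ p ^ 2 * m := Nat.mul_le_mul_left _ hcon
    have h3 : m * (p ^ 2 + p - 1) < p ^ 2 * m := lt_of_lt_of_le hmany h2
    have h4 : m * p ^ 2 ≤ m * (p ^ 2 + p - 1) := Nat.mul_le_mul_left _ h1
    nlinarith
  obtain ⟨U, P, hUab, hPp, hPC, hcard, hcop, hkle⟩ :=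
    Cfsg.Agent.Lib.KPiFinal.hall_data π hπ p hp hmin m hm hmπ hm' k hk hmany'
  have hc : ∀ h ∈ P, ∀ k ∈ U, h * k = k * h := fun h hh k hk =>
    ((Subgroup.mem_centralizer_iff.mp (hPC hh)) k hk).symm
  have hUpos : 0 < Nat.card U := Nat.card_pos
  have hPk : Nat.card P * (p ^ 2 + p - 1) < p ^ 3 * Nat.card (ConjClasses P) := by
    have h1 : (Nat.card P * (p ^ 2 + p - 1)) * Nat.card U < (p ^ 3 * Nat.card (ConjClasses P)) * Nat.card U := by
      calc (Nat.card P * (p ^ 2 + p - 1)) * Nat.card U = (Nat.card P * Nat.card U) * (p ^ 2 + p - 1) := by ring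
        _ = m * (p ^ 2 + p - 1) := by rw [hcard]
        _ < p ^ 3 * k := hmany
        _ ≤ p ^ 3 * (Nat.card (ConjClasses P) * Nat.card U) := Nat.mul_le_mul_left _ hkle
        _ = _ := by ring
    exact Nat.lt_of_mul_lt_mul_right h1
  have hPab : ∀ a b : ↥P, a * b = b * a := by
    by_contra hna
    have h1 := Cfsg.Agent.Lib.KPi.card_classes_of_nonabelian hpp hPp hna
    have h2 : (p ^ 2 + p) * Nat.card P = Nat.card P * (p ^ 2 + p - 1) + Nat.card P := by
      generalize p ^ 2 + p - 1 = t at hpe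
      rw [← hpe]; ring
    omega
  have hP' : ∀ a ∈ P, ∀ b ∈ P, a * b = b * a := fun a ha b hb =>
    congrArg Subtype.val (hPab ⟨a, ha⟩ ⟨b, hb⟩)
  have hab := Cfsg.Agent.Lib.KPiMain.abelian_sup hc hP' hUab
  refine ⟨P ⊔ U, ?_, ⟨⟨fun a b => Subtype.ext (hab a a.2 b b.2)⟩⟩⟩
  rw [Cfsg.Agent.Lib.KPiMain.card_sup_of_commuting hc hcop, hcard]

end Cfsg.Agent.S4105
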