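import Mathlib
import Cfsg.Statements.S4107
import Cfsg.Agent.Lib.PCore

set_option autoImplicit false
open Cfsg
open Cfsg.Agent.Lib.PCore

namespace Cfsg.Agent.S4107

/-- If `F(G)` is not contained in `N`, there is a prime `p` with `N` a `p`-group. -/
theorem exists_prime_isPGroup {G : Type*} [Group G] [Finite G] (N : Subgroup G) [N.Normal]
    (heq : ∀ x : G, x ∉ N → ∀ n ∈ N, orderOf (x * n) = orderOf x)
    (hF : ¬ Cfsg.fittingSubgroup G ≤ N) :
    ∃ p : ℕ, p.Prime ∧ IsPGroup p N := by
  rw [fittingSubgroup_eq_iSup_pCore, iSup_le_iff] at hF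
  push Not at hF
  obtain ⟨p, hp⟩ := hF
  have hpp : Fact (p : ℕ).Prime := ⟨p.2⟩
  obtain ⟨y, hyO, hyN⟩ := SetLike.not_le_iff_exists.mp hp
  refine ⟨p, p.2, ?_⟩
  -- all elements of `N` are `p`-elements
  obtain ⟨a, ha⟩ := (IsPGroup.iff_orderOf.mp (isPGroup_pCore (G := G) (p : ℕ))) ⟨y, hyO⟩
  have ha' : orderOf y = (p : ℕ) ^ a := by simpa using ha
  rw [isPGroup_iff_pow_pow_eq_one]
  rintro ⟨n, hn⟩
  have h1 : (y * n) ^ (p : ℕ) ^ a = 1 := by
    rw [← ha', ← heq y hyN n hn]
    exact pow_orderOf_eq_one _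
  set O := pCore (p : ℕ) G with hO
  have h2 : (n : G) ^ (p : ℕ) ^ a ∈ O := by
    have h3 : (QuotientGroup.mk' O) ((y * n) ^ (p : ℕ) ^ a) = 1 := by rw [h1, map_one]
    rw [map_pow, map_mul] at h3
    have hyk : (QuotientGroup.mk' O) y = 1 := by
      rw [← MonoidHom.mem_ker, QuotientGroup.ker_mk']; exact hyO
    rw [hyk, one_mul, ← map_pow, ← MonoidHom.mem_ker, QuotientGroup.ker_mk'] at h3
    exact h3
  obtain ⟨b, hb⟩ := isPGroup_iff_pow_pow_eq_one.mp (isPGroup_pCore (G := G) (p : ℕ)) ⟨_, h2⟩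
  refine ⟨a + b, Subtype.ext ?_⟩
  have hb' : ((n : G) ^ (p : ℕ) ^ a) ^ (p : ℕ) ^ b = 1 := by simpa using hb
  simp only [SubmonoidClass.mk_pow, OneMemClass.coe_one]
  rw [pow_add, pow_mul]
  exact hb'

/-- Let G be a finite group and N a proper non-trivial normal subgroup such that for every x outside N all elements of the coset xN have the same order as x. Then N ≤ F(G) or F(G) ≤ N, where F(G) is the Fitting subgroup; and if N is properly contained in F(G) then F(G) has prime-power order. -/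
theorem result {G : Type*} [Group G] [Finite G] (N : Subgroup G) [N.Normal] (hN1 : N ≠ ⊥) (hN2 : N ≠ ⊤)
    (heq : ∀ x : G, x ∉ N → ∀ n ∈ N, orderOf (x * n) = orderOf x) :
    (N ≤ Cfsg.fittingSubgroup G ∨ Cfsg.fittingSubgroup G ≤ N) ∧
    (N < Cfsg.fittingSubgroup G → IsPrimePow (Nat.card (Cfsg.fittingSubgroup G))) := by
  constructor
  · by_cases hF : Cfsg.fittingSubgroup G ≤ N
    · exact Or.inr hF
    · left
      obtain ⟨p, hp, hNp⟩ := exists_prime_isPGroup N heq hF
      have : Fact p.Prime := ⟨hp⟩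
      exact (le_pCore ‹N.Normal› hNp).trans (pCore_le_fittingSubgroup p)
  · intro hlt
    have hF : ¬ Cfsg.fittingSubgroup G ≤ N := not_le_of_gt hlt
    obtain ⟨p, hp, hNp⟩ := exists_prime_isPGroup N heq hF
    have hpf : Fact p.Prime := ⟨hp⟩
    have hNO : N ≤ pCore p G := le_pCore ‹N.Normal› hNp
    -- pick a non-trivial element of N
    obtain ⟨n, hn, hn1⟩ : ∃ n ∈ N, n ≠ 1 := by
      rcases Subgroup.bot_or_exists_ne_one N with h | h
      · exact absurd h hN1
      · exact h
    -- other cores vanish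
    have hother : ∀ r : Nat.Primes, (r : ℕ) ≠ p → pCore (r : ℕ) G = ⊥ := by
      intro r hr
      have hrf : Fact (r : ℕ).Prime := ⟨r.2⟩
      by_contra hne
      obtain ⟨w, hw, hw1⟩ := (Subgroup.bot_or_exists_ne_one (pCore (r : ℕ) G)).resolve_left hne
      -- w ∉ N
      have hdisj : Disjoint (pCore (r : ℕ) G) (pCore p G) :=
        IsPGroup.disjoint_of_ne _ _ hr _ _ (isPGroup_pCore _) (isPGroup_pCore _)
      have hwN : w ∉ N := by
        intro hwN
        have : w ∈ pCore (r : ℕ) G ⊓ pCore p G := Subgroup.mem_inf.mpr ⟨hw, hNO hwN⟩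
        rw [hdisj.eq_bot, Subgroup.mem_bot] at this
        exact hw1 this
      have hcomm : Commute w n := by
        have := Subgroup.commute_of_normal_of_disjoint _ _ (pCore_normal _) (pCore_normal _) hdisj
        exact this w n hw (hNO hn)
      have h1 := heq w hwN n hn
      obtain ⟨a, ha⟩ := (IsPGroup.iff_orderOf.mp (isPGroup_pCore (G := G) (r : ℕ))) ⟨w, hw⟩
      obtain ⟨b, hb⟩ := (IsPGroup.iff_orderOf.mp (isPGroup_pCore (G := G) p)) ⟨n, hNO hn⟩
      have ha' : orderOf w = (r : ℕ) ^ a := by simpa using ha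
      have hb' : orderOf n = p ^ b := by simpa using hb
      have hcop : (orderOf w).Coprime (orderOf n) := by
        rw [ha', hb']
        exact Nat.Coprime.pow _ _ ((Nat.coprime_primes r.2 hp).mpr hr)
      rw [hcomm.orderOf_mul_eq_mul_orderOf_of_coprime hcop] at h1
      have hwpos : 0 < orderOf w := orderOf_pos w
      have hn1' : orderOf n = 1 := by
        have : orderOf w * orderOf n = orderOf w * 1 := by rw [h1, mul_one]
        exact Nat.eq_of_mul_eq_mul_left hwpos this
      exact hn1 (orderOf_eq_one_iff.mp hn1')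
    have hFeq : Cfsg.fittingSubgroup G = pCore p G := by
      apply le_antisymm
      · rw [fittingSubgroup_eq_iSup_pCore]
        refine iSup_le fun r => ?_
        by_cases hr : (r : ℕ) = p
        · rw [hr]
        · rw [hother r hr]; exact bot_le
      · exact pCore_le_fittingSubgroup p
    rw [hFeq] at hlt ⊢
    obtain ⟨k, hk⟩ := IsPGroup.iff_card.mp (isPGroup_pCore (G := G) p)
    rw [hk]
    have hk0 : k ≠ 0 := by
      rintro rfl
      have h1 : Nat.card (pCore p G) = 1 := by simpa using hk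
      have h2 : pCore p G = ⊥ := (Subgroup.card_eq_one).mp h1 
      rw [h2] at hNO
      exact hN1 (le_bot_iff.mp hNO)
    exact hp.isPrimePow.pow hk0

end Cfsg.Agent.S4107
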