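import Mathlib
import Cfsg.Statements.S4108
import Cfsg.Agent.Lib.PCore

set_option autoImplicit false
open Cfsg
open Cfsg.Agent.Lib.PCore

namespace Cfsg.Agent.S4108

variable {G : Type*} [Group G]

/-- Non-identity elements of `H` commute with no non-identity element of `N`. -/
theorem fpf [Finite G] {p : ℕ} [Fact p.Prime] (N : Subgroup G) [N.Normal]
    (heq : ∀ x : G, x ∉ N → ∀ n ∈ N, orderOf (x * n) = orderOf x)
    (hNp : IsPGroup p N) (H : Subgroup G) (hHc : (Nat.card H).Coprime p)
    (h : G) (hh : h ∈ H) (hh1 : h ≠ 1) (n : G) (hn : n ∈ N) (hc : Commute h n) : n = 1 := by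
  have hhord : (orderOf h).Coprime p := by
    have h1 : orderOf h ∣ Nat.card H := Subgroup.orderOf_dvd_natCard H hh
    exact Nat.Coprime.coprime_dvd_left h1 hHc
  have hhN : h ∉ N := by
    intro hhN
    obtain ⟨k, hk⟩ := IsPGroup.iff_orderOf.mp hNp ⟨h, hhN⟩
    have hk' : orderOf h = p ^ k := by simpa using hk
    rw [hk'] at hhord
    have : k = 0 := by
      by_contra hk0
      have := (Nat.coprime_pow_left_iff (Nat.pos_of_ne_zero hk0) _ _).mp hhord
      exact (Fact.out : p.Prime).one_lt.ne' (by simpa using this)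
    rw [this] at hk'
    exact hh1 (orderOf_eq_one_iff.mp (by simpa using hk'))
  have h1 := heq h hhN n hn
  obtain ⟨k, hk⟩ := IsPGroup.iff_orderOf.mp hNp ⟨n, hn⟩
  have hk' : orderOf n = p ^ k := by simpa using hk
  have hcop : (orderOf h).Coprime (orderOf n) := by
    rw [hk']
    exact Nat.Coprime.pow_right _ hhord
  rw [hc.orderOf_mul_eq_mul_orderOf_of_coprime hcop] at h1
  have hpos : 0 < orderOf h := orderOf_pos h
  have h2 : orderOf n = 1 := by
    have : orderOf h * orderOf n = orderOf h * 1 := by rw [h1, mul_one]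
    exact Nat.eq_of_mul_eq_mul_left hpos this
  exact orderOf_eq_one_iff.mp h2

theorem inf_eq_bot {p : ℕ} [Fact p.Prime] (N : Subgroup G) (hNp : IsPGroup p N) (H : Subgroup G)
    (hHc : (Nat.card H).Coprime p) : N ⊓ H = ⊥ := by
  rw [eq_bot_iff]
  intro x hx
  obtain ⟨hxN, hxH⟩ := Subgroup.mem_inf.mp hx
  rw [Subgroup.mem_bot]
  obtain ⟨k, hk⟩ := IsPGroup.iff_orderOf.mp hNp ⟨x, hxN⟩
  have hk' : orderOf x = p ^ k := by simpa using hk
  have h1 : orderOf x ∣ Nat.card H := Subgroup.orderOf_dvd_natCard H hxH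
  have h2 : (orderOf x).Coprime p := Nat.Coprime.coprime_dvd_left h1 hHc
  rw [hk'] at h2
  have : k = 0 := by
    by_contra hk0
    have := (Nat.coprime_pow_left_iff (Nat.pos_of_ne_zero hk0) _ _).mp h2
    exact (Fact.out : p.Prime).one_lt.ne' (by simpa using this)
  rw [this] at hk'
  exact orderOf_eq_one_iff.mp (by simpa using hk')

/-- Let G be a finite group, p a prime and N a proper non-trivial normal p-subgroup such that for every x outside N all elements of the coset xN have the same order as x. Then every non-trivial subgroup H of G of order prime to p acts fixed-point-freely on N: NH is a Frobenius group with complement H and kernel N. -/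
theorem result {G : Type*} [Group G] [Finite G] (N : Subgroup G) [N.Normal] (hN1 : N ≠ ⊥) (hN2 : N ≠ ⊤)
    (heq : ∀ x : G, x ∉ N → ∀ n ∈ N, orderOf (x * n) = orderOf x)
    (p : ℕ) [Fact p.Prime] (hNp : IsPGroup p N) :
    ∀ H : Subgroup G, H ≠ ⊥ → (Nat.card H).Coprime p →
      Cfsg.IsFrobeniusComplement (H.subgroupOf (N ⊔ H)) ∧ Cfsg.frobeniusKernel (H.subgroupOf (N ⊔ H)) = (N.subgroupOf (N ⊔ H) : Set ↥(N ⊔ H)) := by
  intro H hH1 hHc
  have hinf := inf_eq_bot N hNp H hHc
  have hfpf := fun h hh hh1 n hn hc => fpf N heq hNp H hHc h hh hh1 n hn hc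
  -- decomposition
  have hdec : ∀ g : G, g ∈ N ⊔ H → ∃ n ∈ N, ∃ h ∈ H, g = n * h := by
    intro g hg
    have hg' : g ∈ ((N ⊔ H : Subgroup G) : Set G) := hg
    rw [Subgroup.normal_mul] at hg'
    obtain ⟨m, hm, h, hh, rfl⟩ := Set.mem_mul.mp hg'
    exact ⟨m, hm, h, hh, rfl⟩
  have hNle : N ≤ N ⊔ H := le_sup_left
  have hHle : H ≤ N ⊔ H := le_sup_right
  refine ⟨⟨?_, ?_, ?_⟩, ?_⟩
  · -- H' ≠ ⊥
    intro hbot
    apply hH1
    rw [eq_bot_iff]
    intro x hx
    have : (⟨x, hHle hx⟩ : ↥(N ⊔ H)) ∈ H.subgroupOf (N ⊔ H) := by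
      rw [Subgroup.mem_subgroupOf]; exact hx
    rw [hbot, Subgroup.mem_bot] at this
    exact congrArg Subtype.val this
  · -- H' ≠ ⊤
    intro htop
    apply hN1
    rw [eq_bot_iff]
    intro x hx
    have hx2 : (⟨x, hNle hx⟩ : ↥(N ⊔ H)) ∈ H.subgroupOf (N ⊔ H) := by rw [htop]; trivial
    rw [Subgroup.mem_subgroupOf] at hx2
    have : x ∈ N ⊓ H := Subgroup.mem_inf.mpr ⟨hx, hx2⟩
    rwa [hinf] at this
  · -- TI
    rintro ⟨g, hg⟩ hgH
    rw [eq_bot_iff]
    rintro ⟨u, hu⟩ huin
    obtain ⟨hu1, hu2⟩ := Subgroup.mem_inf.mp huin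
    rw [Subgroup.mem_subgroupOf] at hu1
    rw [mem_conj_smul_iff, Subgroup.mem_subgroupOf] at hu2
    simp only [Subgroup.coe_mul, InvMemClass.coe_inv] at hu2
    rw [Subgroup.mem_subgroupOf] at hgH
    simp only at hgH
    obtain ⟨n, hn, h, hh, rfl⟩ := hdec g hg
    rw [Subgroup.mem_bot]
    apply Subtype.ext
    show u = 1
    set k := (n * h)⁻¹ * u * (n * h) with hk
    have hu_eq : u = n * (h * k * h⁻¹) * n⁻¹ := by
      rw [hk]; group
    set h' := h * k * h⁻¹ with hh'
    have hh'H : h' ∈ H := H.mul_mem (H.mul_mem hh hu2) (H.inv_mem hh)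
    have h1 : n * h' * n⁻¹ * h'⁻¹ ∈ H := by
      rw [← hu_eq]; exact H.mul_mem hu1 (H.inv_mem hh'H)
    have h2 : n * h' * n⁻¹ * h'⁻¹ ∈ N := by
      have : n * h' * n⁻¹ * h'⁻¹ = n * (h' * n⁻¹ * h'⁻¹) := by group
      rw [this]
      exact N.mul_mem hn (‹N.Normal›.conj_mem _ (N.inv_mem hn) _)
    have h3 : n * h' * n⁻¹ * h'⁻¹ = 1 := by
      have : n * h' * n⁻¹ * h'⁻¹ ∈ N ⊓ H := Subgroup.mem_inf.mpr ⟨h2, h1⟩
      rwa [hinf, Subgroup.mem_bot] at this
    have h4 : n * h' * n⁻¹ = h' := by
      rw [mul_inv_eq_one] at h3; exact h3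
    have h5 : u = h' := hu_eq.trans h4
    by_contra hu1'
    have hn1 : n = 1 := by
      apply hfpf h' hh'H (by rwa [← h5]) n hn
      have : n * h' = h' * n := by
        rw [mul_inv_eq_iff_eq_mul] at h4
        exact h4
      exact this.symm
    apply hgH
    rw [hn1, one_mul]
    exact hh
  · -- the kernel
    ext ⟨x, hx⟩
    simp only [Cfsg.frobeniusKernel, Set.mem_ofPred_eq, SetLike.mem_coe, Subgroup.mem_subgroupOf]
    constructor
    · rintro (h1 | h2)
      · have h1' : x = 1 := congrArg Subtype.val h1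
        rw [h1']; exact N.one_mem
      · by_contra hxN
        obtain ⟨n, hn, h, hh, rfl⟩ := hdec x hx
        have hh1 : h ≠ 1 := by
          rintro rfl
          apply hxN
          simpa using hn
        -- commutator map on N is injective hence surjective
        let f : N → N := fun z => ⟨z * h * (z : G)⁻¹ * h⁻¹, by
          have : (z : G) * h * (z : G)⁻¹ * h⁻¹ = z * (h * (z : G)⁻¹ * h⁻¹) := by group
          rw [this]
          exact N.mul_mem z.2 (‹N.Normal›.conj_mem _ (N.inv_mem z.2) _)⟩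
        have hfinj : Function.Injective f := by
          intro a b hab
          have h1 : (a : G) * h * (a : G)⁻¹ * h⁻¹ = b * h * (b : G)⁻¹ * h⁻¹ := congrArg Subtype.val hab
          have h2 : (a : G) * h * (a : G)⁻¹ = b * h * (b : G)⁻¹ := mul_right_cancel h1
          have h3 : Commute h ((b : G)⁻¹ * a) := by
            have : (b : G)⁻¹ * ((a : G) * h * (a : G)⁻¹) * a = (b : G)⁻¹ * (b * h * (b : G)⁻¹) * a := by rw [h2]
            have h4 : (b : G)⁻¹ * a * h = h * ((b : G)⁻¹ * a) := by
              simpa [mul_assoc] using this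
            exact h4.symm
          have h4 := hfpf h hh hh1 _ (N.mul_mem (N.inv_mem b.2) a.2) h3
          apply Subtype.ext
          rw [inv_mul_eq_one] at h4
          exact h4.symm
        have hfsurj : Function.Surjective f := Finite.surjective_of_injective hfinj
        obtain ⟨z, hz⟩ := hfsurj ⟨n, hn⟩
        have hz' : (z : G) * h * (z : G)⁻¹ * h⁻¹ = n := congrArg Subtype.val hz
        have hmh : n * h = z * h * (z : G)⁻¹ := by
          rw [← hz']; group
        apply h2 ⟨z, hNle z.2⟩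
        rw [mem_conj_smul_iff, Subgroup.mem_subgroupOf]
        simp only [Subgroup.coe_mul, InvMemClass.coe_inv]
        rw [hmh]
        have : (z : G)⁻¹ * ((z : G) * h * (z : G)⁻¹) * z = h := by group
        rw [this]
        exact hh
    · intro hxN
      by_cases hx1 : x = 1
      · left
        apply Subtype.ext
        exact hx1
      · right
        rintro ⟨g, hg⟩ hmem
        rw [mem_conj_smul_iff, Subgroup.mem_subgroupOf] at hmem
        simp only [Subgroup.coe_mul, InvMemClass.coe_inv] at hmem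
        apply hx1
        have h1 : g⁻¹ * x * g ∈ N := by
          have := ‹N.Normal›.conj_mem x hxN g⁻¹
          simpa using this
        have h2 : g⁻¹ * x * g ∈ N ⊓ H := Subgroup.mem_inf.mpr ⟨h1, hmem⟩
        rw [hinf, Subgroup.mem_bot] at h2
        have : x = g * (g⁻¹ * x * g) * g⁻¹ := by group
        rw [this, h2]; group

end Cfsg.Agent.S4108
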