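import Mathlib
import Cfsg.Statements.S4112

set_option autoImplicit false
open Cfsg

namespace Cfsg.Agent.S4112

/-- A minimal supplement of `N` is coprime to `M`. -/
theorem exists_coprime_supplement {G : Type*} [Group G] [Finite G] (N M : Subgroup G) [N.Normal]
    (hcop : N.index.Coprime (Nat.card M)) :
    ∃ H : Subgroup G, H ⊔ N = ⊤ ∧ (Nat.card H).Coprime (Nat.card M) := by
  have hne : Nonempty {H : Subgroup G // H ⊔ N = ⊤} := ⟨⟨⊤, top_sup_eq N⟩⟩
  obtain ⟨⟨H, hH⟩, hmin⟩ := Finite.exists_min (fun H : {H : Subgroup G // H ⊔ N = ⊤} => Nat.card H.1)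
  refine ⟨H, hH, ?_⟩
  by_contra hnc
  obtain ⟨r, hr, hrH, hrM⟩ := Nat.Prime.not_coprime_iff_dvd.mp hnc
  have hfr : Fact r.Prime := ⟨hr⟩
  have hrN : ¬ r ∣ N.index := by
    intro h
    have := Nat.dvd_gcd h hrM
    rw [hcop] at this
    exact hr.one_lt.ne' (Nat.dvd_one.mp this)
  -- inside H
  set L : Subgroup H := N.subgroupOf H with hL
  have hLn : L.Normal := inferInstance
  have hLidx : L.index = N.index := by
    have h1 : N.relIndex (H ⊔ N) = N.relIndex H := Subgroup.relIndex_sup_right H N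
    rw [hH, Subgroup.relIndex_top_right] at h1
    exact h1.symm
  have hrL : r ∣ Nat.card L := by
    have h1 : L.index * Nat.card L = Nat.card H := Subgroup.index_mul_card L
    rw [← h1] at hrH
    rcases (Nat.Prime.dvd_mul hr).mp hrH with h | h
    · rw [hLidx] at h
      exact absurd h hrN
    · exact h
  have S : Sylow r L := default
  set S' : Subgroup H := (S : Subgroup L).map L.subtype with hS'
  have hnorm : Subgroup.normalizer (S' : Set H) ⊔ L = ⊤ := Sylow.normalizer_sup_eq_top S
  -- a general step: a subgroup K0 of H with K0 ⊔ X = ⊤, X ≤ L gives a supplement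
  have hstep : ∀ (K0 X : Subgroup H), K0 ⊔ X = ⊤ → X ≤ L → K0.map H.subtype ⊔ N = ⊤ := by
    intro K0 X hK0 hXL
    rw [eq_top_iff, ← hH]
    apply sup_le _ le_sup_right
    intro h hh
    have h1 : (⟨h, hh⟩ : H) ∈ K0 ⊔ X := by rw [hK0]; trivial
    have h2 : (K0 ⊔ X).map H.subtype ≤ K0.map H.subtype ⊔ N := by
      rw [Subgroup.map_sup]
      apply sup_le_sup_left
      rintro _ ⟨x, hx, rfl⟩
      exact hXL hx
    exact h2 (Subgroup.mem_map.mpr ⟨⟨h, hh⟩, h1, rfl⟩)
  have hcard_map : ∀ K0 : Subgroup H, Nat.card (K0.map H.subtype) = Nat.card K0 := fun K0 =>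
    Subgroup.card_map_of_injective H.subtype_injective
  -- normalizer is everything
  have hK0top : Subgroup.normalizer (S' : Set H) = ⊤ := by
    have h1 := hmin ⟨_, hstep _ _ hnorm le_rfl⟩
    simp only at h1
    rw [hcard_map] at h1
    apply Subgroup.eq_top_of_card_eq
    exact le_antisymm (Subgroup.card_le_card_group _) h1
  have hS'n : S'.Normal := Subgroup.normalizer_eq_top_iff.mp hK0top
  have hS'L : S' ≤ L := by
    rintro _ ⟨x, hx, rfl⟩
    exact x.2
  -- S' nontrivial
  obtain ⟨v, hv⟩ := IsPGroup.iff_card.mp S.isPGroup'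
  have hcardS' : Nat.card S' = r ^ v := by
    rw [hS', Subgroup.card_map_of_injective L.subtype_injective, hv]
  have hv0 : v ≠ 0 := by
    rintro rfl
    have h1 : Nat.card (S : Subgroup L) = 1 := by simpa using hv
    have h2 := Subgroup.index_mul_card (S : Subgroup L)
    rw [h1, mul_one] at h2
    apply S.not_dvd_index
    rw [h2]
    exact hrL
  -- coprimality
  have hindex : S'.index = (S : Subgroup L).index * L.index := Subgroup.index_map_subtype _
  have hcopS : Nat.Coprime (Nat.card S') S'.index := by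
    rw [hcardS']
    apply Nat.Coprime.pow_left
    rw [Nat.Prime.coprime_iff_not_dvd hr, hindex]
    intro h
    rcases (Nat.Prime.dvd_mul hr).mp h with h | h
    · exact S.not_dvd_index h
    · rw [hLidx] at h
      exact hrN h
  obtain ⟨T, hT⟩ := Subgroup.exists_right_complement'_of_coprime hcopS
  have hTsup : T ⊔ S' = ⊤ := by
    rw [sup_comm]; exact hT.sup_eq_top
  have h1 := hmin ⟨_, hstep _ _ hTsup hS'L⟩
  simp only at h1
  rw [hcard_map] at h1
  have h2 : Nat.card S' * Nat.card T = Nat.card H := hT.card_mul_card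
  rw [hcardS'] at h2
  have hrv : 1 < r ^ v := Nat.one_lt_pow hv0 hr.one_lt
  have hTpos : 0 < Nat.card T := Nat.card_pos
  nlinarith

/-- Let G be a finite group and M ≤ N non-trivial proper normal subgroups such that for every g outside N the conjugacy class of g is a union of cosets of M (equivalently gm is conjugate to g for every m ∈ M). Then (1) and (2) below are equivalent, and they imply (3): (1) every g outside N acts fixed-point-freely on M, that is C_G(x) ≤ N for every x ∈ M, x ≠ 1; (2) the index of N in G is coprime to the order of M; (3) there is a subgroup H of G with HN = G and H ∩ M = 1. -/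
theorem result {G : Type*} [Group G] [Finite G] (N M : Subgroup G) [N.Normal] [M.Normal] (hMN : M ≤ N) (hM1 : M ≠ ⊥) (hN2 : N ≠ ⊤)
    (hcam : ∀ g : G, g ∉ N → ∀ m ∈ M, ∃ x : G, x * g * x⁻¹ = g * m) :
    ((∀ x ∈ M, x ≠ 1 → Subgroup.centralizer ({x} : Set G) ≤ N) ↔ N.index.Coprime (Nat.card M)) ∧
    ((∀ x ∈ M, x ≠ 1 → Subgroup.centralizer ({x} : Set G) ≤ N) → ∃ H : Subgroup G, H ⊔ N = ⊤ ∧ H ⊓ M = ⊥) := by
  have h12 : (∀ x ∈ M, x ≠ 1 → Subgroup.centralizer ({x} : Set G) ≤ N) → N.index.Coprime (Nat.card M) := by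
    intro hC
    by_contra hnc
    obtain ⟨r, hr, hrN, hrM⟩ := Nat.Prime.not_coprime_iff_dvd.mp hnc
    have hfr : Fact r.Prime := ⟨hr⟩
    have R : Sylow r G := default
    letI act : MulAction (R : Subgroup G) M :=
      { smul := fun u m => ⟨(u : G) * m * (u : G)⁻¹, ‹M.Normal›.conj_mem _ m.2 _⟩
        one_smul := fun m => by
          apply Subtype.ext
          show (1 : G) * m * (1 : G)⁻¹ = m
          simp
        mul_smul := fun a b m => by
          apply Subtype.ext
          show ((a * b : (R : Subgroup G)) : G) * m * ((a * b : (R : Subgroup G)) : G)⁻¹ =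
            (a : G) * ((b : G) * m * (b : G)⁻¹) * (a : G)⁻¹
          simp only [Subgroup.coe_mul]
          group }
    have hsm : ∀ (u : (R : Subgroup G)) (m : M), ((u • m : M) : G) = (u : G) * m * (u : G)⁻¹ := fun _ _ => rfl
    have hone : (1 : M) ∈ MulAction.fixedPoints (R : Subgroup G) M := by
      intro u
      apply Subtype.ext
      rw [hsm]
      simp
    obtain ⟨b, hb, hb1⟩ := R.isPGroup'.exists_fixed_point_of_prime_dvd_card_of_fixed_point M hrM hone
    have hb1' : (b : G) ≠ 1 := fun h => hb1 (Subtype.ext (by rw [h]; rfl)).symm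
    have hRC : (R : Subgroup G) ≤ Subgroup.centralizer ({(b : G)} : Set G) := by
      intro u hu
      rw [Subgroup.mem_centralizer_singleton_iff]
      have h1 := congrArg Subtype.val (hb ⟨u, hu⟩)
      rw [hsm] at h1
      simp only at h1
      have h2 : u * (b : G) * u⁻¹ * u = (b : G) * u := by rw [h1]
      simpa [mul_assoc] using h2
    have hRN := hRC.trans (hC b b.2 hb1')
    apply R.not_dvd_index
    exact hrN.trans (Subgroup.index_dvd_of_le hRN)
  have h21 : N.index.Coprime (Nat.card M) → (∀ x ∈ M, x ≠ 1 → Subgroup.centralizer ({x} : Set G) ≤ N) := by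
    intro hcop x hx hx1 g hg
    by_contra hgN
    rw [Subgroup.mem_centralizer_singleton_iff] at hg
    have hox : orderOf x ≠ 1 := fun h => hx1 (orderOf_eq_one_iff.mp h)
    obtain ⟨r, hr, hrd⟩ := Nat.exists_prime_and_dvd hox
    have hoxpos : 0 < orderOf x := orderOf_pos x
    set x0 := x ^ (orderOf x / r) with hx0
    have hx0ord : orderOf x0 = r := by
      rw [hx0]
      exact orderOf_pow_orderOf_div hoxpos.ne' hrd
    have hx0M : x0 ∈ M := M.pow_mem hx _
    have hrM : r ∣ Nat.card M := hrd.trans (Subgroup.orderOf_dvd_natCard M hx)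
    have hrN : ¬ r ∣ N.index := by
      intro h
      have := Nat.dvd_gcd h hrM
      rw [hcop] at this
      exact hr.one_lt.ne' (Nat.dvd_one.mp this)
    have hgx0 : Commute g x0 := (Commute.pow_right hg.symm.symm _)
    -- r'-part of g
    have hogpos : orderOf g ≠ 0 := (orderOf_pos g).ne'
    obtain ⟨a, b, hb, hab⟩ := Nat.exists_eq_pow_mul_and_not_dvd hogpos r hr.ne_one
    set g1 := g ^ r ^ a with hg1
    have hg1ord : orderOf g1 = b := by
      rw [hg1, orderOf_pow_of_dvd (pow_ne_zero _ hr.ne_zero) ⟨b, hab⟩, hab]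
      exact Nat.mul_div_cancel_left _ (pow_pos hr.pos _)
    have hg1N : g1 ∉ N := by
      intro hin
      apply hgN
      -- the image of g in G / N
      have h1 : (QuotientGroup.mk' N g) ^ r ^ a = 1 := by
        rw [← map_pow, ← MonoidHom.mem_ker, QuotientGroup.ker_mk']
        exact hin
      have h2 : orderOf (QuotientGroup.mk' N g) ∣ r ^ a := orderOf_dvd_of_pow_eq_one h1
      have h3 : orderOf (QuotientGroup.mk' N g) ∣ N.index := by
        rw [Subgroup.index_eq_card]
        exact orderOf_dvd_natCard _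
      have h4 : Nat.Coprime N.index (r ^ a) :=
        Nat.Coprime.pow_right _ ((Nat.coprime_comm.mp ((Nat.Prime.coprime_iff_not_dvd hr).mpr hrN)))
      have h5 : orderOf (QuotientGroup.mk' N g) = 1 := Nat.Coprime.eq_one_of_dvd (Nat.Coprime.coprime_dvd_left h3 h4) h2
      rw [orderOf_eq_one_iff, ← MonoidHom.mem_ker, QuotientGroup.ker_mk'] at h5
      exact h5
    have hg1x0 : Commute g1 x0 := hgx0.pow_left _
    obtain ⟨y, hy⟩ := hcam g1 hg1N x0 hx0M
    have hcop2 : (orderOf g1).Coprime (orderOf x0) := by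
      rw [hg1ord, hx0ord]
      exact (Nat.Coprime.symm ((Nat.Prime.coprime_iff_not_dvd hr).mpr hb))
    have h1 : orderOf (g1 * x0) = orderOf g1 * orderOf x0 := hg1x0.orderOf_mul_eq_mul_orderOf_of_coprime hcop2
    have h2 : orderOf (y * g1 * y⁻¹) = orderOf g1 := by
      simpa [MulAut.conj_apply] using (MulEquiv.orderOf_eq (MulAut.conj y) g1)
    rw [hy, h1, hx0ord] at h2
    have hg1pos : 0 < orderOf g1 := orderOf_pos g1
    have h3 : orderOf g1 * r = orderOf g1 * 1 := by rw [h2, mul_one]
    have h4 := Nat.eq_of_mul_eq_mul_left hg1pos h3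
    exact hr.one_lt.ne' h4
  refine ⟨⟨h12, h21⟩, ?_⟩
  intro hC
  obtain ⟨H, hH, hHc⟩ := exists_coprime_supplement N M (h12 hC)
  refine ⟨H, hH, ?_⟩
  rw [eq_bot_iff]
  intro x hx
  obtain ⟨hxH, hxM⟩ := Subgroup.mem_inf.mp hx
  rw [Subgroup.mem_bot]
  have h1 := Subgroup.orderOf_dvd_natCard H hxH
  have h2 := Subgroup.orderOf_dvd_natCard M hxM
  have h3 : orderOf x = 1 := Nat.Coprime.eq_one_of_dvd (Nat.Coprime.coprime_dvd_left h1 hHc) h2
  exact orderOf_eq_one_iff.mp h3

end Cfsg.Agent.S4112
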