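import Mathlib
import Cfsg.Statements.S4115
import Cfsg.Agent.Lib.Wielandt79
import Cfsg.Agent.Lib.Glauberman2
import Cfsg.Agent.Lib.FrobCompl
import Cfsg.Agent.Lib.FrobConstruct
import Cfsg.Agent.Lib.Replacement

set_option autoImplicit false
universe u
open Cfsg
open scoped Pointwise commutatorElement

namespace Cfsg.Agent.S4115

open Cfsg.Agent.Lib.PCore (mem_conj_smul_iff)
open Cfsg.Agent.Lib.Glauberman2

variable {G : Type u} [Group G] [Finite G]

/-- The situation of the Frobenius part. -/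
structure Setup (H N K₀ : Subgroup G) : Prop where
  nn : N.Normal
  K₀N : K₀ ≤ N
  fix : ∀ h ∈ H, h ≠ 1 → ∀ n ∈ N, n * h * n⁻¹ = h → n ∈ K₀
  comm : ∀ k ∈ K₀, ∀ h ∈ H, k * h = h * k
  cop : (Nat.card K₀).Coprime (Nat.card H)
  ne : ¬ N ≤ K₀

variable {H N K₀ : Subgroup G}

theorem Setup.coprime (S : Setup H N K₀) : (Nat.card H).Coprime (Nat.card N) := by
  classical
  haveI := S.nn
  apply Nat.coprime_of_dvd
  intro p hp hpH hpN
  haveI : Fact p.Prime := ⟨hp⟩
  obtain ⟨h, hh⟩ := exists_prime_orderOf_dvd_card' (G := H) p hpH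
  have hord : orderOf (h : G) = p := by rw [Subgroup.orderOf_coe]; exact hh
  have hh1 : (h : G) ≠ 1 := by
    intro h0
    rw [h0, orderOf_one] at hord
    exact hp.one_lt.ne hord
  let Γ : Subgroup G := Subgroup.zpowers (h : G)
  letI act : MulAction Γ N :=
    MulAction.compHom N ((MulAut.conjNormal : G →* MulAut N).comp Γ.subtype)
  have hact : ∀ (γ : Γ) (n : N), ((γ • n : N) : G) = (γ : G) * n * (γ : G)⁻¹ := by
    intro γ n
    rfl
  have hΓp : IsPGroup p Γ := by
    apply IsPGroup.of_card (n := 1)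
    rw [Nat.card_zpowers, hord, pow_one]
  have hmod := hΓp.card_modEq_card_fixedPoints N
  have hfix : Nat.card (MulAction.fixedPoints Γ N) = Nat.card K₀ := by
    apply Nat.card_congr
    refine ⟨fun n => ⟨n.1.1, ?_⟩, fun k => ⟨⟨k.1, S.K₀N k.2⟩, ?_⟩, fun _ => rfl, fun _ => rfl⟩
    · apply S.fix h h.2 hh1 n.1.1 n.1.2
      have h1 := congrArg Subtype.val (n.2 ⟨(h : G), Subgroup.mem_zpowers _⟩)
      rw [hact] at h1
      change (h : G) * n.1.1 * (h : G)⁻¹ = n.1.1 at h1
      have h2 : (h : G) * n.1.1 = n.1.1 * (h : G) := by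
        calc (h : G) * n.1.1 = ((h : G) * n.1.1 * (h : G)⁻¹) * h := by group
          _ = n.1.1 * (h : G) := by rw [h1]
      rw [← h2]; group
    · rintro ⟨_, j, rfl⟩
      apply Subtype.ext
      rw [hact]
      have hc : Commute k.1 ((h : G)) := S.comm k.1 k.2 h h.2
      have hc2 : Commute k.1 ((h : G) ^ j) := hc.zpow_right j
      change (h : G) ^ j * k.1 * ((h : G) ^ j)⁻¹ = k.1
      rw [← hc2.eq]; group
  rw [hfix] at hmod
  have h3 : p ∣ Nat.card K₀ := (Nat.modEq_zero_iff_dvd.mp (hmod.symm.trans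
    (Nat.modEq_zero_iff_dvd.mpr hpN)))
  have := Nat.dvd_gcd h3 hpH
  rw [S.cop] at this
  exact hp.one_lt.ne' (Nat.dvd_one.mp this)

/-- Elements normalizing `⟨h⟩` normalize each `h`-invariant Sylow subgroup. -/
theorem Setup.normalizes (S : Setup H N K₀) {r : ℕ} [Fact r.Prime] (P : Sylow r N) {h u : G}
    (hh : h ∈ H) (hh1 : h ≠ 1) (hu : u ∈ H) (hun : u * h * u⁻¹ ∈ Subgroup.zpowers h)
    (hP : Subgroup.zpowers h ≤ Subgroup.normalizer ((P : Subgroup N).map N.subtype : Set G)) :
    u ∈ Subgroup.normalizer ((P : Subgroup N).map N.subtype : Set G) := by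
  classical
  haveI := S.nn
  set R := (P : Subgroup N).map N.subtype with hR
  have huN : u ∈ Subgroup.normalizer ((Subgroup.zpowers h : Subgroup G) : Set G) := by
    apply Cfsg.Agent.Lib.Replacement.mem_normalizer_of_forall
    rintro x ⟨j, rfl⟩
    have : u * h ^ j * u⁻¹ = (u * h * u⁻¹) ^ j := by
      rw [conj_zpow]
    simp only [] at *
    rw [this]
    exact Subgroup.zpow_mem _ hun j
  have huN' : u⁻¹ ∈ Subgroup.normalizer ((Subgroup.zpowers h : Subgroup G) : Set G) :=
    Subgroup.inv_mem _ huN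
  let e : MulAut N := MulAut.conjNormal u
  let Q : Sylow r N := e • P
  have hQ : (Q : Subgroup N).map N.subtype = MulAut.conj u • R := by
    ext x
    rw [mem_conj_smul_iff]
    constructor
    · rintro ⟨y, hy, rfl⟩
      have hy' : y ∈ e • (P : Subgroup N) := hy
      rw [Subgroup.mem_pointwise_smul_iff_inv_smul_mem] at hy'
      refine ⟨_, hy', ?_⟩
      change ((e⁻¹ y : N) : G) = _
      have : ((e⁻¹ y : N) : G) = u⁻¹ * y * u := by
        have h1 : e⁻¹ = MulAut.conjNormal u⁻¹ := by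
          rw [map_inv]
        rw [h1, MulAut.conjNormal_apply]
        simp
      exact this
    · rintro ⟨y, hy, hyx⟩
      have hy2 : (y : G) = u⁻¹ * x * u := hyx
      have hxN : x ∈ N := by
        have h1 := S.nn.conj_mem y y.2 u
        rw [hy2] at h1
        have h2 : u * (u⁻¹ * x * u) * u⁻¹ = x := by group
        rwa [h2] at h1
      refine ⟨⟨x, hxN⟩, ?_, rfl⟩
      have : (⟨x, hxN⟩ : N) ∈ e • (P : Subgroup N) := by
        rw [Subgroup.mem_pointwise_smul_iff_inv_smul_mem]
        have h3 : e⁻¹ • (⟨x, hxN⟩ : N) = y := by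
          apply Subtype.ext
          have h1 : e⁻¹ = MulAut.conjNormal u⁻¹ := by
            rw [map_inv]
          change ((e⁻¹ (⟨x, hxN⟩ : N) : N) : G) = y
          rw [h1, MulAut.conjNormal_apply, hy2]
          simp
        rw [h3]; exact hy
      exact this
  have hcopA : (Nat.card (Subgroup.zpowers h)).Coprime (Nat.card N) := by
    rw [Nat.card_zpowers]
    exact Nat.Coprime.coprime_dvd_left
      (by
        have := orderOf_dvd_natCard (⟨h, hh⟩ : H)
        rwa [Subgroup.orderOf_mk] at this) S.coprime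
  have hAN : Subgroup.zpowers h ≤ Subgroup.normalizer (N : Set G) := by
    rw [Subgroup.normalizer_eq_top]; exact le_top
  have hsol : Group.IsSolvable (Subgroup.zpowers h) := by
    apply Group.isSolvable_of_comm
    rintro ⟨_, j, rfl⟩ ⟨_, k, rfl⟩
    apply Subtype.ext
    exact zpow_mul_comm h j k
  have hQinv : Subgroup.zpowers h ≤ Subgroup.normalizer ((Q : Subgroup N).map N.subtype : Set G) := by
    rw [hQ]
    intro x hx
    apply Cfsg.Agent.Lib.Replacement.mem_normalizer_of_forall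
    intro y hy
    rw [mem_conj_smul_iff] at hy ⊢
    have h1 : u⁻¹ * x * u ∈ Subgroup.zpowers h := by
      have := (Subgroup.mem_normalizer_iff.mp huN' x).mp hx
      simpa using this
    have h2 := hP h1
    have h3 := (Subgroup.mem_normalizer_iff.mp h2 _).mp hy
    have h4 : u⁻¹ * (x * y * x⁻¹) * u =
        (u⁻¹ * x * u) * (u⁻¹ * y * u) * (u⁻¹ * x * u)⁻¹ := by group
    rw [h4]
    exact h3
  obtain ⟨c, hc, hcQ⟩ := exists_centralizer_conj_sylow hAN hcopA (Or.inl hsol) r P Q hP hQinv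
  -- `c` lies in `K₀`
  have hcK : (c : G) ∈ K₀ := by
    apply S.fix h hh hh1 c c.2
    have := Subgroup.mem_centralizer_iff.mp hc h (Subgroup.mem_zpowers h)
    rw [← this]; group
  have hcomm := S.comm c hcK u hu
  have hconj : MulAut.conj (c : G) • R = MulAut.conj u • R := by
    rw [← hQ, hR, ← map_subtype_conj_smul]
    congr 1
    exact congrArg (fun Z : Sylow r N => (Z : Subgroup N)) hcQ
  set y := (c : G)⁻¹ * u with hy
  have hyN : y ∈ Subgroup.normalizer (R : Set G) := by
    rw [mem_normalizer_iff_conj_smul_eq, hy, map_mul, mul_smul, ← hconj, ← mul_smul, ← map_mul]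
    simp
  have hcom : Commute ((c : G)⁻¹) u := by
    have h1 : Commute (c : G) u := hcomm
    exact h1.inv_left
  have hcop2 : (orderOf (c : G)).Coprime (orderOf u) := by
    have h1 : orderOf (c : G) ∣ Nat.card K₀ := by
      have := orderOf_dvd_natCard (⟨c, hcK⟩ : K₀)
      rwa [Subgroup.orderOf_mk] at this
    have h2 : orderOf u ∣ Nat.card H := by
      have := orderOf_dvd_natCard (⟨u, hu⟩ : H)
      rwa [Subgroup.orderOf_mk] at this
    exact Nat.Coprime.coprime_dvd_left h1 (Nat.Coprime.coprime_dvd_right h2 S.cop)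
  obtain ⟨s, hs1, hs2⟩ := Nat.chineseRemainder hcop2 0 1
  have hpow : y ^ s = u := by
    rw [hy, hcom.mul_pow, inv_pow]
    have h1 : (c : G) ^ s = 1 := by
      have : s ≡ 0 [MOD orderOf (c : G)] := hs1
      exact orderOf_dvd_iff_pow_eq_one.mp (Nat.modEq_zero_iff_dvd.mp this)
    have h2 : u ^ s = u := by
      have : s ≡ 1 [MOD orderOf u] := hs2
      have h3 := pow_eq_pow_iff_modEq.mpr this
      rwa [pow_one] at h3
    rw [h1, h2]; simp
  rw [← hpow]
  exact Subgroup.pow_mem _ hyN s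

/-- The section. -/
theorem Setup.exists_section (S : Setup H N K₀) {r : ℕ} [Fact r.Prime] (U R : Subgroup G)
    (hU : U ≤ H) (hRN : R ≤ N) (hRp : IsPGroup r R)
    (hUR : U ≤ Subgroup.normalizer (R : Set G)) (hRK : ¬ R ≤ K₀) :
    ∃ A : Subgroup G, A ≤ R ∧ U ≤ Subgroup.normalizer (A : Set G) ∧ ¬ A ≤ K₀ ∧
      (∀ a ∈ A, ∀ b ∈ A, a * b * a⁻¹ * b⁻¹ ∈ K₀) ∧
      (∀ u ∈ U, u ≠ 1 → ∀ a ∈ A, a⁻¹ * (u * a * u⁻¹) ∈ K₀ → a ∈ K₀) := by
  classical
  let T : Set (Subgroup G) := {A | A ≤ R ∧ U ≤ Subgroup.normalizer (A : Set G) ∧ ¬ A ≤ K₀}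
  have hT : T.Nonempty := ⟨R, le_rfl, hUR, hRK⟩
  obtain ⟨A, ⟨hAR, hAU, hAK⟩, hmin⟩ := Set.exists_min_image T (fun A => Nat.card A)
    (Set.toFinite _) hT
  have hAp : IsPGroup r A := hRp.to_le hAR
  have hAne : Nontrivial A := by
    rw [Subgroup.nontrivial_iff_ne_bot]
    rintro rfl
    exact hAK bot_le
  have hcommK : ⁅A, A⁆ ≤ K₀ := by
    by_contra hc
    have hnil : Group.IsNilpotent A := hAp.isNilpotent
    have hlt : commutator A < ⊤ := Group.IsSolvable.commutator_lt_top_of_nontrivial A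
    have hm : ⁅A, A⁆ ∈ T := by
      refine ⟨?_, ?_, hc⟩
      · refine le_trans ?_ hAR
        rw [Subgroup.commutator_le]
        intro a ha b hb
        exact A.mul_mem (A.mul_mem (A.mul_mem ha hb) (A.inv_mem ha)) (A.inv_mem hb)
      · intro u hu
        rw [mem_normalizer_iff_conj_smul_eq]
        have h1 : A.map (MulAut.conj u).toMonoidHom = A := mem_normalizer_iff_conj_smul_eq.mp (hAU hu)
        have h2 : (MulAut.conj u • (⁅A, A⁆ : Subgroup G)) =
            (⁅A, A⁆ : Subgroup G).map (MulAut.conj u).toMonoidHom := rfl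
        rw [h2, Subgroup.map_commutator, h1]
    have h2 : Nat.card A ≤ Nat.card (⁅A, A⁆ : Subgroup G) := hmin _ hm
    have h3 : Nat.card (⁅A, A⁆ : Subgroup G) = Nat.card (commutator A) := by
      rw [← Subgroup.map_subtype_commutator]
      exact Nat.card_congr (Subgroup.equivMapOfInjective _ _ A.subtype_injective).toEquiv.symm
    have h4 : Nat.card (commutator A) < Nat.card A := by
      have := Subgroup.card_le_card_group (commutator A)
      apply lt_of_le_of_ne this
      intro h5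
      exact hlt.ne (Subgroup.eq_top_of_card_eq _ h5)
    omega
  refine ⟨A, hAR, hAU, hAK, ?_, ?_⟩
  · intro a ha b hb
    exact hcommK (Subgroup.commutator_mem_commutator ha hb)
  · intro u hu hu1 a ha hc
    set c := a⁻¹ * (u * a * u⁻¹) with hcdef
    have huH : u ∈ H := hU hu
    have huA : u * a * u⁻¹ ∈ A := (Subgroup.mem_normalizer_iff.mp (hAU hu) a).mp ha
    have hcA : c ∈ A := A.mul_mem (A.inv_mem ha) huA
    have hcu : c * u = u * c := S.comm c hc u huH
    have hua : u * a = a * c * u := by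
      rw [hcdef]; group
    have hind : ∀ j : ℕ, u ^ j * a = a * c ^ j * u ^ j := by
      intro j
      induction j with
      | zero => simp
      | succ j ih =>
        calc u ^ (j + 1) * a = u ^ j * (u * a) := by rw [pow_succ]; group
          _ = u ^ j * (a * c * u) := by rw [hua]
          _ = (u ^ j * a) * c * u := by group
          _ = a * c ^ j * u ^ j * c * u := by rw [ih]
          _ = a * c ^ j * (u ^ j * c) * u := by group
          _ = a * c ^ j * (c * u ^ j) * u := by
            rw [((Commute.pow_right (show Commute c u from hcu) j).eq).symm]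
          _ = a * c ^ (j + 1) * u ^ (j + 1) := by rw [pow_succ, pow_succ]; group
    have h1 := hind (orderOf u)
    rw [pow_orderOf_eq_one, one_mul, mul_one] at h1
    have hc1 : c ^ orderOf u = 1 := by
      have : a = a * c ^ orderOf u := h1
      exact (mul_eq_left.mp this.symm)
    have hd1 : orderOf c ∣ orderOf u := orderOf_dvd_of_pow_eq_one hc1
    have hd2 : orderOf c ∣ Nat.card N := by
      have := orderOf_dvd_natCard (⟨c, hRN (hAR hcA)⟩ : N)
      rwa [Subgroup.orderOf_mk] at this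
    have hd3 : orderOf u ∣ Nat.card H := by
      have := orderOf_dvd_natCard (⟨u, huH⟩ : H)
      rwa [Subgroup.orderOf_mk] at this
    have hg : orderOf c = 1 := Nat.eq_one_of_dvd_coprimes S.coprime (hd1.trans hd3) hd2
    have hc1' : c = 1 := orderOf_eq_one_iff.mp hg
    have h5 : u * a * u⁻¹ = a := by
      have : a⁻¹ * (u * a * u⁻¹) = 1 := hc1'
      calc u * a * u⁻¹ = a * (a⁻¹ * (u * a * u⁻¹)) := by group
        _ = a := by rw [this, mul_one]
    apply S.fix u huH hu1 a (hRN (hAR ha))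
    have h6 : u * a = a * u := by
      calc u * a = u * a * u⁻¹ * u := by group
        _ = a * u := by rw [h5]
    rw [← h6]; group

/-- The quotient carrying the fixed-point-free action. -/
theorem Setup.exists_fpf (S : Setup H N K₀) (U A : Subgroup G) (hU : U ≤ H)
    (hAN : A ≤ N) (hAU : U ≤ Subgroup.normalizer (A : Set G)) (hAK : ¬ A ≤ K₀)
    (hcomm : ∀ a ∈ A, ∀ b ∈ A, a * b * a⁻¹ * b⁻¹ ∈ K₀)
    (hfpf : ∀ u ∈ U, u ≠ 1 → ∀ a ∈ A, a⁻¹ * (u * a * u⁻¹) ∈ K₀ → a ∈ K₀) :
    ∃ (V : Type u) (_ : CommGroup V) (_ : Finite V) (_ : Nontrivial V) (φ : U →* MulAut V),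
      ∀ a : U, a ≠ 1 → ∀ v : V, φ a v = v → v = 1 := by
  classical
  let N₀ : Subgroup A := K₀.subgroupOf A
  haveI hN₀ : N₀.Normal := by
    constructor
    intro k hk a
    rw [Subgroup.mem_subgroupOf] at hk ⊢
    have h1 := hcomm a a.2 k k.2
    have h2 : (a : G) * k * (a : G)⁻¹ = ((a : G) * k * (a : G)⁻¹ * (k : G)⁻¹) * k := by group
    change (a : G) * k * (a : G)⁻¹ ∈ K₀
    rw [h2]
    exact K₀.mul_mem h1 hk
  letI inst : CommGroup (A ⧸ N₀) :=
    { (inferInstance : Group (A ⧸ N₀)) with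
      mul_comm := by
        intro x y
        induction x using QuotientGroup.induction_on with
        | H a =>
        induction y using QuotientGroup.induction_on with
        | H b =>
        change ((a * b : A) : A ⧸ N₀) = ((b * a : A) : A ⧸ N₀)
        rw [QuotientGroup.eq, Subgroup.mem_subgroupOf]
        have h1 := hcomm (b : G)⁻¹ (A.inv_mem b.2) (a : G)⁻¹ (A.inv_mem a.2)
        have h2 : (((a * b)⁻¹ * (b * a) : A) : G) = (b : G)⁻¹ * (a : G)⁻¹ * ((b : G)⁻¹)⁻¹ * ((a : G)⁻¹)⁻¹ := by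
          simp
          group
        rw [h2]
        exact h1 }
  let E : U → MulAut A := fun u => A.normalizerMonoidHom ⟨u, hAU u.2⟩
  have hE : ∀ (u : U) (a : A), ((E u a : A) : G) = (u : G) * a * (u : G)⁻¹ := fun _ _ => rfl
  have he : ∀ u : U, N₀.map (E u).toMonoidHom = N₀ := by
    intro u
    ext x
    constructor
    · rintro ⟨k, hk, rfl⟩
      have h1 : E u k = k := by
        apply Subtype.ext
        rw [hE, ← S.comm k hk u (hU u.2)]
        group
      change E u k ∈ N₀
      rw [h1]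
      exact hk
    · intro hx
      refine ⟨x, hx, ?_⟩
      apply Subtype.ext
      change ((E u x : A) : G) = x
      rw [hE, ← S.comm x hx u (hU u.2)]
      group
  let f : U → MulAut (A ⧸ N₀) := fun u => QuotientGroup.congr N₀ N₀ (E u) (he u)
  have hf : ∀ (u : U) (a : A), f u (a : A ⧸ N₀) = ((E u a : A) : A ⧸ N₀) := fun _ _ => rfl
  let φ : U →* MulAut (A ⧸ N₀) := MonoidHom.mk' f (by
    intro u v
    ext x
    induction x using QuotientGroup.induction_on with
    | H a =>
    change f (u * v) (a : A ⧸ N₀) = f u (f v (a : A ⧸ N₀))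
    rw [hf, hf, hf]
    congr 1
    apply Subtype.ext
    rw [hE, hE, hE]
    simp only [Subgroup.coe_mul]
    group)
  have hφ : ∀ (u : U) (a : A), φ u (a : A ⧸ N₀) = ((E u a : A) : A ⧸ N₀) := fun _ _ => rfl
  obtain ⟨a₀, ha₀, ha₀K⟩ := SetLike.not_le_iff_exists.mp hAK
  have hnt : Nontrivial (A ⧸ N₀) := by
    refine ⟨⟨((⟨a₀, ha₀⟩ : A) : A ⧸ N₀), 1, ?_⟩⟩
    intro h
    rw [QuotientGroup.eq_one_iff, Subgroup.mem_subgroupOf] at h
    exact ha₀K h
  refine ⟨A ⧸ N₀, inst, inferInstance, hnt, φ, ?_⟩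
  intro u hu v hv
  induction v using QuotientGroup.induction_on with
  | H a =>
  rw [hφ] at hv
  rw [QuotientGroup.eq] at hv
  rw [Subgroup.mem_subgroupOf] at hv
  have hv2 : (a : G)⁻¹ * ((u : G) * a * (u : G)⁻¹) ∈ K₀ := by
    have h1 := K₀.inv_mem hv
    have h2 : (((E u a)⁻¹ * a : A) : G)⁻¹ = (a : G)⁻¹ * ((u : G) * a * (u : G)⁻¹) := by
      simp only [Subgroup.coe_mul, InvMemClass.coe_inv, hE]
      group
    rwa [h2] at h1
  have hu' : (u : G) ≠ 1 := fun h => hu (Subtype.ext h)
  have := hfpf u u.2 hu' a a.2 hv2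
  rw [QuotientGroup.eq_one_iff, Subgroup.mem_subgroupOf]
  exact this

/-- Conclusion from an `H`-invariant Sylow subgroup. -/
theorem Setup.frob_of_invariant (S : Setup H N K₀) (hH : H ≠ ⊥) {r : ℕ} [Fact r.Prime]
    (hr : ∀ P : Sylow r N, ¬ (P : Subgroup N).map N.subtype ≤ K₀) (P : Sylow r N)
    (hP : H ≤ Subgroup.normalizer ((P : Subgroup N).map N.subtype : Set G)) :
    ∃ (F : Type u) (_ : Group F) (_ : Finite F) (C : Subgroup F),
      Cfsg.IsFrobeniusComplement C ∧ Nonempty (H ≃* C) := by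
  classical
  have hRp : IsPGroup r ((P : Subgroup N).map N.subtype) := P.isPGroup'.map _
  obtain ⟨A, hAR, hAU, hAK, hcomm, hfpf⟩ := S.exists_section H _ le_rfl
    (Subgroup.map_subtype_le _) hRp hP (hr P)
  obtain ⟨V, _, _, hnt, φ, hφ⟩ := S.exists_fpf H A le_rfl
    (hAR.trans (Subgroup.map_subtype_le _)) hAU hAK hcomm hfpf
  haveI : Nontrivial H := (Subgroup.nontrivial_iff_ne_bot H).mpr hH
  let F := V ⋊[φ] H
  haveI : Finite F := Finite.of_equiv _ (SemidirectProduct.equivProd (φ := φ)).symm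
  refine ⟨F, inferInstance, inferInstance, _, Cfsg.Agent.Lib.FrobConstruct.frob_semidirect φ hφ, ?_⟩
  exact ⟨MonoidHom.ofInjective SemidirectProduct.inr_injective⟩

/-- Sylow subgroups of `N` for a prime dividing `|N : K₀|` are not inside `K₀`. -/
theorem Setup.sylow_not_le (S : Setup H N K₀) {r : ℕ} [Fact r.Prime]
    (hr : r ∣ K₀.relIndex N) (P : Sylow r N) : ¬ (P : Subgroup N).map N.subtype ≤ K₀ := by
  intro hle
  have h1 : (P : Subgroup N) ≤ K₀.subgroupOf N := by
    intro x hx
    rw [Subgroup.mem_subgroupOf]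
    exact hle ⟨x, hx, rfl⟩
  have h2 := Subgroup.relIndex_mul_index h1
  have h3 : (K₀.subgroupOf N).index = K₀.relIndex N := rfl
  apply P.not_dvd_index
  rw [← h2, h3]
  exact hr.mul_left _

/-- Involutions of `H` are unique. -/
theorem Setup.invol_unique (S : Setup H N K₀) {r : ℕ} [Fact r.Prime]
    (hr : ∀ P : Sylow r N, ¬ (P : Subgroup N).map N.subtype ≤ K₀) {t t' : G}
    (ht : t ∈ H) (ht' : t' ∈ H) (ht1 : t ≠ 1) (ht'1 : t' ≠ 1) (ht2 : t * t = 1) (ht'2 : t' * t' = 1) :
    t = t' := by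
  classical
  haveI := S.nn
  by_contra hne
  set w := t * t' with hw
  have htinv : t⁻¹ = t := inv_eq_of_mul_eq_one_left ht2
  have ht'inv : t'⁻¹ = t' := inv_eq_of_mul_eq_one_left ht'2
  have hw1 : w ≠ 1 := by
    intro h
    apply hne
    have : t = t'⁻¹ := eq_inv_of_mul_eq_one_left h
    rw [this, ht'inv]
  have hwH : w ∈ H := H.mul_mem ht ht'
  have hcopA : (Nat.card (Subgroup.zpowers w)).Coprime (Nat.card N) := by
    rw [Nat.card_zpowers]
    exact Nat.Coprime.coprime_dvd_left
      (by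
        have := orderOf_dvd_natCard (⟨w, hwH⟩ : H)
        rwa [Subgroup.orderOf_mk] at this) S.coprime
  have hAN : Subgroup.zpowers w ≤ Subgroup.normalizer (N : Set G) := by
    rw [Subgroup.normalizer_eq_top]; exact le_top
  have hsol : Group.IsSolvable (Subgroup.zpowers w) := by
    apply Group.isSolvable_of_comm
    rintro ⟨_, j, rfl⟩ ⟨_, k, rfl⟩
    apply Subtype.ext
    exact zpow_mul_comm w j k
  obtain ⟨P, hP⟩ := exists_invariant_sylow hAN hcopA (Or.inl hsol) r
  have hwinv : w⁻¹ = t' * t := by rw [hw, mul_inv_rev, htinv, ht'inv]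
  have hnt : t ∈ Subgroup.normalizer ((P : Subgroup N).map N.subtype : Set G) := by
    apply S.normalizes P hwH hw1 ht _ hP
    have : t * w * t⁻¹ = w⁻¹ := by
      calc t * w * t⁻¹ = (t * t) * t' * t⁻¹ := by rw [hw]; group
        _ = w⁻¹ := by rw [ht2, one_mul, htinv, hwinv]
    rw [this]
    exact Subgroup.inv_mem _ (Subgroup.mem_zpowers w)
  have hnt' : t' ∈ Subgroup.normalizer ((P : Subgroup N).map N.subtype : Set G) := by
    apply S.normalizes P hwH hw1 ht' _ hP
    have : t' * w * t'⁻¹ = w⁻¹ := by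
      rw [hwinv, ht'inv, hw, mul_assoc, mul_assoc, ht'2, mul_one]
    rw [this]
    exact Subgroup.inv_mem _ (Subgroup.mem_zpowers w)
  let U : Subgroup G := Subgroup.closure {t, t'}
  have htU : t ∈ U := Subgroup.subset_closure (by simp)
  have ht'U : t' ∈ U := Subgroup.subset_closure (by simp)
  have hUH : U ≤ H := by
    rw [Subgroup.closure_le]
    rintro x (rfl | rfl)
    · exact ht
    · exact ht'
  have hUR : U ≤ Subgroup.normalizer ((P : Subgroup N).map N.subtype : Set G) := by
    rw [Subgroup.closure_le]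
    rintro x (rfl | rfl)
    · exact hnt
    · exact hnt'
  have hRp : IsPGroup r ((P : Subgroup N).map N.subtype) := P.isPGroup'.map _
  obtain ⟨A, hAR, hAU, hAK, hcomm, hfpf⟩ := S.exists_section U _ hUH
    (Subgroup.map_subtype_le _) hRp hUR (hr P)
  obtain ⟨a, ha, haK⟩ := SetLike.not_le_iff_exists.mp hAK
  -- each involution inverts modulo `K₀`
  have key : ∀ x ∈ U, x ≠ 1 → x * x = 1 → a * (x * a * x⁻¹) ∈ K₀ := by
    intro x hx hx1 hx2
    have hxinv : x⁻¹ = x := inv_eq_of_mul_eq_one_left hx2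
    have hb : x * a * x⁻¹ ∈ A := (Subgroup.mem_normalizer_iff.mp (hAU hx) a).mp ha
    apply hfpf x hx hx1 _ (A.mul_mem ha hb)
    have h1 := hcomm _ (A.inv_mem hb) _ (A.inv_mem ha)
    have h2 : (a * (x * a * x⁻¹))⁻¹ * (x * (a * (x * a * x⁻¹)) * x⁻¹) =
        (x * a * x⁻¹)⁻¹ * a⁻¹ * ((x * a * x⁻¹)⁻¹)⁻¹ * (a⁻¹)⁻¹ := by
      have h3 : x * (a * (x * a * x⁻¹)) * x⁻¹ = (x * a * x⁻¹) * a := by
        calc x * (a * (x * a * x⁻¹)) * x⁻¹ = (x * a * x⁻¹) * ((x * x) * a * (x * x)⁻¹) * (x * x⁻¹ * x⁻¹ * x) := by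
              rw [hxinv, hx2]; simp
              rw [← mul_assoc, ← mul_assoc, ← mul_assoc, hx2]; simp [mul_assoc, ← mul_assoc x x, hx2]
          _ = _ := by rw [hx2]; simp [hxinv, hx2]
      rw [h3]; group
    rw [h2]
    exact h1
  have hk := key t htU ht1 ht2
  have hk' := key t' ht'U ht'1 ht'2
  have hwU : w ∈ U := U.mul_mem htU ht'U
  apply haK
  apply hfpf w hwU hw1 a ha
  -- compute the conjugate by `w`
  set k := a * (t * a * t⁻¹) with hkdef
  set k' := a * (t' * a * t'⁻¹) with hk'def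
  have hb : t * a * t⁻¹ = a⁻¹ * k := by rw [hkdef]; group
  have hb' : t' * a * t'⁻¹ = a⁻¹ * k' := by rw [hk'def]; group
  have hka : k ∈ A := A.mul_mem ha ((Subgroup.mem_normalizer_iff.mp (hAU htU) a).mp ha)
  have hc' : k' * t = t * k' := S.comm k' hk' t ht
  have h1 : w * a * w⁻¹ = t * (a⁻¹ * k') * t⁻¹ := by
    rw [← hb', hw]; group
  have h2 : t * (a⁻¹ * k') * t⁻¹ = (t * a * t⁻¹)⁻¹ * k' := by
    have : t * (a⁻¹ * k') * t⁻¹ = t * a⁻¹ * t⁻¹ * (t * k' * t⁻¹) := by group
    rw [this, ← hc']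
    group
  rw [h1, h2, hb]
  have h3 : a⁻¹ * ((a⁻¹ * k)⁻¹ * k') = (a⁻¹ * k⁻¹ * (a⁻¹)⁻¹ * (k⁻¹)⁻¹) * (k⁻¹ * k') := by group
  rw [h3]
  exact K₀.mul_mem (hcomm _ (A.inv_mem ha) _ (A.inv_mem hka))
    (K₀.mul_mem (K₀.inv_mem hk) hk')

/-- The Frobenius group. -/
theorem Setup.exists_frob (S : Setup H N K₀) (hH : H ≠ ⊥) :
    ∃ (F : Type u) (_ : Group F) (_ : Finite F) (C : Subgroup F),
      Cfsg.IsFrobeniusComplement C ∧ Nonempty (H ≃* C) := by
  classical
  haveI := S.nn
  have hidx : K₀.relIndex N ≠ 1 := by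
    intro h
    exact S.ne (Subgroup.relIndex_eq_one.mp h)
  obtain ⟨r, hrp, hrd⟩ := Nat.exists_prime_and_dvd hidx
  haveI : Fact r.Prime := ⟨hrp⟩
  have hr := S.sylow_not_le hrd
  have hAN : H ≤ Subgroup.normalizer (N : Set G) := by
    rw [Subgroup.normalizer_eq_top]; exact le_top
  by_cases h2 : 2 ∣ Nat.card H
  · -- even order: the involution is central
    haveI : Fact (Nat.Prime 2) := ⟨Nat.prime_two⟩
    obtain ⟨t₀, ht₀⟩ := exists_prime_orderOf_dvd_card' (G := H) 2 h2
    set t : G := (t₀ : G) with htdef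
    have htH : t ∈ H := t₀.2
    have hto : orderOf t = 2 := by rw [htdef, Subgroup.orderOf_coe]; exact ht₀
    have ht1 : t ≠ 1 := by
      intro h0
      rw [h0, orderOf_one] at hto
      omega
    have ht2 : t * t = 1 := by
      rw [← pow_two, ← hto, pow_orderOf_eq_one]
    have hcopA : (Nat.card (Subgroup.zpowers t)).Coprime (Nat.card N) := by
      rw [Nat.card_zpowers, hto]
      exact Nat.Coprime.coprime_dvd_left h2 S.coprime
    have hsol : Group.IsSolvable (Subgroup.zpowers t) := by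
      apply Group.isSolvable_of_comm
      rintro ⟨_, j, rfl⟩ ⟨_, k, rfl⟩
      apply Subtype.ext
      exact zpow_mul_comm t j k
    have hAN' : Subgroup.zpowers t ≤ Subgroup.normalizer (N : Set G) := by
      rw [Subgroup.normalizer_eq_top]; exact le_top
    obtain ⟨P, hP⟩ := exists_invariant_sylow hAN' hcopA (Or.inl hsol) r
    refine S.frob_of_invariant hH hr P ?_
    intro u hu
    apply S.normalizes P htH ht1 hu _ hP
    have : u * t * u⁻¹ = t := by
      apply S.invol_unique hr (H.mul_mem (H.mul_mem hu htH) (H.inv_mem hu)) htH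
      · intro h
        apply ht1
        have : t = u⁻¹ * (u * t * u⁻¹) * u := by group
        rw [this, h]; group
      · exact ht1
      · calc u * t * u⁻¹ * (u * t * u⁻¹) = u * (t * t) * u⁻¹ := by group
          _ = 1 := by rw [ht2]; group
      · exact ht2
    rw [this]
    exact Subgroup.mem_zpowers t
  · -- odd order: all Sylow subgroups are cyclic
    have hZ : IsZGroup H := by
      constructor
      intro p hp Q
      haveI : Fact p.Prime := ⟨hp⟩
      let P' : Subgroup G := (Q : Subgroup H).map H.subtype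
      have hP'p : IsPGroup p P' := Q.isPGroup'.map _
      have hP'H : P' ≤ H := Subgroup.map_subtype_le _
      have hequiv : Q ≃* P' := Subgroup.equivMapOfInjective _ _ H.subtype_injective
      have hcyc : IsCyclic P' := by
        by_cases hp2 : p = 2
        · subst hp2
          have h1 : Nat.card Q ∣ Nat.card H := Subgroup.card_subgroup_dvd_card _
          obtain ⟨e, he⟩ := IsPGroup.iff_card.mp Q.isPGroup'
          have h3 : e = 0 := by
            by_contra h0
            apply h2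
            rw [he] at h1
            exact (dvd_pow_self 2 h0).trans h1
          have h4 : Nat.card P' = 1 := by
            rw [← Nat.card_congr hequiv.toEquiv, he, h3, pow_zero]
          haveI : Subsingleton P' := (Nat.card_eq_one_iff_unique.mp h4).1
          exact isCyclic_of_subsingleton
        · have hcopA : (Nat.card P').Coprime (Nat.card N) :=
            Nat.Coprime.coprime_dvd_left (Subgroup.card_dvd_of_le hP'H) S.coprime
          have hP'N : P' ≤ Subgroup.normalizer (N : Set G) := hP'H.trans hAN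
          have hsol : Group.IsSolvable P' := by
            haveI : Group.IsNilpotent P' := hP'p.isNilpotent
            infer_instance
          obtain ⟨P, hP⟩ := exists_invariant_sylow hP'N hcopA (Or.inl hsol) r
          have hRp : IsPGroup r ((P : Subgroup N).map N.subtype) := P.isPGroup'.map _
          obtain ⟨A, hAR, hAU, hAK, hcomm, hfpf⟩ := S.exists_section P' _ hP'H
            (Subgroup.map_subtype_le _) hRp hP (hr P)
          obtain ⟨V, _, _, hnt, φ, hφ⟩ := S.exists_fpf P' A hP'H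
            (hAR.trans (Subgroup.map_subtype_le _)) hAU hAK hcomm hfpf
          rcases Cfsg.Agent.Lib.FrobCompl.cyclic_or_quaternion_of_fpf hP'p hφ with h | h
          · exact h
          · exact absurd h.1 hp2
      exact isCyclic_of_surjective hequiv.symm hequiv.symm.surjective
    have hsol : Group.IsSolvable H := inferInstance
    have hcopA : (Nat.card H).Coprime (Nat.card N) := S.coprime
    obtain ⟨P, hP⟩ := exists_invariant_sylow hAN hcopA (Or.inl hsol) r
    exact S.frob_of_invariant hH hr P hP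

/-! ### The normal complement -/

section Main

variable {H : Subgroup G} (hTI : Cfsg.IsTISubset (H : Set G))

local notation "M" => Subgroup.normalizer (H : Set G)

include hTI

theorem exists_complement (hHall : (Nat.card H).Coprime (H.subgroupOf M).index)
    (K : Subgroup M) (hKn : K.Normal) (hKc : K.IsComplement' (H.subgroupOf M)) :
    ∃ N : Subgroup G, N.Normal ∧ N.IsComplement' H ∧ N ⊓ M = K.map (M).subtype ∧ N ⊔ M = ⊤ := by
  classical
  have hHM : H ≤ M := Subgroup.le_normalizer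
  haveI hHn : (H.subgroupOf M).Normal := by
    constructor
    intro n hn g
    rw [Subgroup.mem_subgroupOf] at hn ⊢
    exact (Subgroup.mem_normalizer_iff.mp g.2 n).mp hn
  set K₀ : Subgroup G := K.map (M).subtype with hK₀
  have hK₀M : K₀ ≤ M := Subgroup.map_subtype_le _
  have hKidx : K.index = Nat.card H := by
    have := hKc.symm.index_eq_card
    rw [this]
    exact Nat.card_congr (Subgroup.subgroupOfEquivOfLe hHM).toEquiv
  have ht : ∀ g : G, g ∉ M → ∀ x ∈ M, g⁻¹ * x * g ∈ M → x ∈ K₀ := by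
    intro g hg x hx hy
    let x' : M := ⟨x, hx⟩
    let y' : M := ⟨g⁻¹ * x * g, hy⟩
    set n := (H.subgroupOf M).index with hn
    have h1 : x' ^ n ∈ H.subgroupOf M := Subgroup.pow_index_mem _ _
    have h2 : y' ^ n ∈ H.subgroupOf M := Subgroup.pow_index_mem _ _
    rw [Subgroup.mem_subgroupOf] at h1 h2
    have h1' : x ^ n ∈ H := by simpa [x'] using h1
    have h2' : g⁻¹ * x ^ n * g ∈ H := by
      have h3 : ((y' ^ n : M) : G) = g⁻¹ * x ^ n * g := by
        simp only [SubmonoidClass.coe_pow, y']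
        have h4 : g⁻¹ * x * g = g⁻¹ * x * (g⁻¹)⁻¹ := by simp
        rw [h4, conj_pow]
        simp
      rwa [h3] at h2
    have hgi : g⁻¹ ∉ M := fun h => hg (by simpa using (M).inv_mem h)
    have h3 : x ^ n = 1 := by
      apply hTI g⁻¹ hgi (x ^ n) h1'
      simpa using h2'
    have h4 : x' ^ K.index ∈ K := Subgroup.pow_index_mem K x'
    rw [hKidx] at h4
    have h5 : x' ^ n = 1 := Subtype.ext (by simpa [x'] using h3)
    have hcp : (Nat.card H).Coprime n := hHall
    have h6 : x' ∈ K := by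
      by_cases hn1 : n = 1
      · rw [hn1, pow_one] at h5
        rw [h5]; exact K.one_mem
      · have hnpos : 0 < n := Nat.pos_of_ne_zero Subgroup.index_ne_zero_of_finite
        have hn2 : 1 < n := by omega
        obtain ⟨s, -, hs⟩ := Nat.exists_mul_mod_eq_one_of_coprime hcp hn2
        have h7 : x' = (x' ^ Nat.card H) ^ s := by
          rw [← pow_mul, pow_eq_pow_mod _ h5, hs, pow_one]
        rw [h7]
        exact K.pow_mem h4 s
    exact ⟨x', h6, rfl⟩
  have hKn' : ∀ h ∈ M, ∀ k ∈ K₀, h * k * h⁻¹ ∈ K₀ := by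
    rintro h hh _ ⟨k, hk, rfl⟩
    exact ⟨⟨h, hh⟩ * k * ⟨h, hh⟩⁻¹, hKn.conj_mem k hk ⟨h, hh⟩, rfl⟩
  obtain ⟨N, hNn, hNM, hNsup⟩ := Cfsg.Agent.Lib.Wielandt79.wielandt hK₀M hKn' ht
  have hK₀N : K₀ ≤ N := by rw [← hNM]; exact inf_le_left
  refine ⟨N, hNn, ?_, hNM, hNsup⟩
  apply Subgroup.isComplement'_of_disjoint_and_mul_eq_univ
  · rw [Subgroup.disjoint_def]
    intro x hxN hxH
    have hxM : x ∈ N ⊓ M := ⟨hxN, hHM hxH⟩
    rw [hNM] at hxM
    obtain ⟨k, hk, rfl⟩ := hxM
    have hk2 : k ∈ H.subgroupOf M := by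
      rw [Subgroup.mem_subgroupOf]; exact hxH
    have := Subgroup.disjoint_def.mp hKc.disjoint hk hk2
    rw [this]; rfl
  · rw [Set.eq_univ_iff_forall]
    intro g
    have hg : g ∈ N ⊔ M := by rw [hNsup]; trivial
    haveI := hNn
    have hg2 : g ∈ (↑(N ⊔ M) : Set G) := hg
    rw [Subgroup.normal_mul] at hg2
    obtain ⟨n, hn, m, hm, rfl⟩ := Set.mem_mul.mp hg2
    obtain ⟨p, hp, -⟩ := hKc.existsUnique (⟨m, hm⟩ : M)
    have hkh' : ((p.1 : M) : G) * ((p.2 : M) : G) = m := congrArg Subtype.val hp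
    refine Set.mem_mul.mpr ⟨n * ((p.1 : M) : G), N.mul_mem hn (hK₀N ⟨p.1, p.1.2, rfl⟩), (p.2 : M), ?_, ?_⟩
    · exact p.2.2
    · change n * ((p.1 : M) : G) * ((p.2 : M) : G) = n * m
      rw [mul_assoc, hkh']

theorem setup_of (hHall : (Nat.card H).Coprime (H.subgroupOf M).index)
    (K : Subgroup M) (hKn : K.Normal) (hKc : K.IsComplement' (H.subgroupOf M))
    (N : Subgroup G) (hNn : N.Normal) (hNM : N ⊓ M = K.map (M).subtype) (hNsup : N ⊔ M = ⊤)
    (hH : ¬ H.Normal) : Setup H N (K.map (M).subtype) := by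
  classical
  have hHM : H ≤ M := Subgroup.le_normalizer
  refine ⟨hNn, ?_, ?_, ?_, ?_, ?_⟩
  · rw [← hNM]; exact inf_le_left
  · intro h hh hh1 n hn hc
    by_contra hnK
    have hnM : n ∉ M := by
      intro hnM
      apply hnK
      rw [← hNM]
      exact ⟨hn, hnM⟩
    apply hh1
    apply hTI n hnM h hh
    rw [hc]; exact hh
  · rintro _ ⟨k, hk, rfl⟩ h hh
    -- the commutator lies in both subgroups
    have h1 : (k : G) * h * (k : G)⁻¹ ∈ H := (Subgroup.mem_normalizer_iff.mp k.2 h).mp hh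
    have h2 : (k : G) * h * (k : G)⁻¹ * h⁻¹ ∈ H := H.mul_mem h1 (H.inv_mem hh)
    let h' : M := ⟨h, hHM hh⟩
    have h3 : k * (h' * k⁻¹ * h'⁻¹) ∈ K := K.mul_mem hk (hKn.conj_mem _ (K.inv_mem hk) h')
    have h4 : k * (h' * k⁻¹ * h'⁻¹) ∈ H.subgroupOf M := by
      rw [Subgroup.mem_subgroupOf]
      have : ((k * (h' * k⁻¹ * h'⁻¹) : M) : G) = (k : G) * h * (k : G)⁻¹ * h⁻¹ := by
        simp only [Subgroup.coe_mul, InvMemClass.coe_inv, h']
        group
      rw [this]; exact h2
    have h5 := Subgroup.disjoint_def.mp hKc.disjoint h3 h4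
    have h6 : (k : G) * h * (k : G)⁻¹ * h⁻¹ = 1 := by
      have : ((k * (h' * k⁻¹ * h'⁻¹) : M) : G) = (k : G) * h * (k : G)⁻¹ * h⁻¹ := by
        simp only [Subgroup.coe_mul, InvMemClass.coe_inv, h']
        group
      rw [← this, h5]; rfl
    change (k : G) * h = h * (k : G)
    have h7 : (k : G) * h = (k : G) * h * (k : G)⁻¹ * h⁻¹ * (h * k) := by group
    rw [h7, h6, one_mul]
  · have h1 : Nat.card (K.map (M).subtype) = Nat.card K :=
      Nat.card_congr (Subgroup.equivMapOfInjective _ _ (M).subtype_injective).toEquiv.symm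
    rw [h1, ← hKc.index_eq_card]
    exact hHall.symm
  · intro hle
    apply hH
    have h1 : N ≤ M := hle.trans (Subgroup.map_subtype_le _)
    have h2 : M = ⊤ := by
      rw [← hNsup]
      exact (sup_eq_right.mpr h1).symm
    rw [← Subgroup.normalizer_eq_top_iff]
    exact h2

end Main

/-- Let G be a finite group and H a subgroup that meets each of its conjugates by elements outside N_G(H) trivially and whose order is coprime to its index in N_G(H). Then H has a normal complement in N_G(H) if and only if H has a normal complement in G. Moreover, if H is not normal in G and has a normal complement in N_G(H), then H is isomorphic to a Frobenius complement of some finite Frobenius group. -/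
theorem result {G : Type u} [Group G] [Finite G] (H : Subgroup G)
    (hTI : Cfsg.IsTISubset (H : Set G)) (hHall : (Nat.card H).Coprime (H.subgroupOf (Subgroup.normalizer (H : Set G))).index) :
    ((∃ K : Subgroup (Subgroup.normalizer (H : Set G)), K.Normal ∧ K.IsComplement' (H.subgroupOf (Subgroup.normalizer (H : Set G)))) ↔
      (∃ N : Subgroup G, N.Normal ∧ N.IsComplement' H)) ∧
    (¬ H.Normal → (∃ K : Subgroup (Subgroup.normalizer (H : Set G)), K.Normal ∧ K.IsComplement' (H.subgroupOf (Subgroup.normalizer (H : Set G)))) →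
      ∃ (F : Type u) (_ : Group F) (_ : Finite F) (C : Subgroup F), Cfsg.IsFrobeniusComplement C ∧ Nonempty (H ≃* C)) := by
  classical
  refine ⟨⟨?_, ?_⟩, ?_⟩
  · rintro ⟨K, hKn, hKc⟩
    obtain ⟨N, hNn, hNc, -, -⟩ := exists_complement hTI hHall K hKn hKc
    exact ⟨N, hNn, hNc⟩
  · rintro ⟨N, hNn, hNc⟩
    have hHM : H ≤ Subgroup.normalizer (H : Set G) := Subgroup.le_normalizer
    refine ⟨N.subgroupOf _, Subgroup.Normal.subgroupOf hNn _, ?_⟩
    apply Subgroup.isComplement'_of_disjoint_and_mul_eq_univ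
    · rw [Subgroup.disjoint_def]
      intro x hx1 hx2
      rw [Subgroup.mem_subgroupOf] at hx1 hx2
      have := Subgroup.disjoint_def.mp hNc.disjoint hx1 hx2
      exact Subtype.ext this
    · rw [Set.eq_univ_iff_forall]
      intro m
      obtain ⟨p, hp, -⟩ := hNc.existsUnique (m : G)
      have h1 : (p.1 : G) * (p.2 : G) = m := hp
      have h2 : (p.1 : G) ∈ Subgroup.normalizer (H : Set G) := by
        have : (p.1 : G) = m * (p.2 : G)⁻¹ := by rw [← h1]; group
        rw [this]
        exact Subgroup.mul_mem _ m.2 (Subgroup.inv_mem _ (hHM p.2.2))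
      refine Set.mem_mul.mpr ⟨⟨p.1, h2⟩, ?_, ⟨p.2, hHM p.2.2⟩, ?_, ?_⟩
      · rw [SetLike.mem_coe, Subgroup.mem_subgroupOf]; exact p.1.2
      · rw [SetLike.mem_coe, Subgroup.mem_subgroupOf]; exact p.2.2
      · exact Subtype.ext h1
  · rintro hH ⟨K, hKn, hKc⟩
    obtain ⟨N, hNn, -, hNM, hNsup⟩ := exists_complement hTI hHall K hKn hKc
    have hS := setup_of hTI hHall K hKn hKc N hNn hNM hNsup hH
    have hH1 : H ≠ ⊥ := by
      rintro rfl
      exact hH inferInstance
    exact hS.exists_frob hH1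

end Cfsg.Agent.S4115
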