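import Mathlib
import Cfsg.Statements.S4116

set_option autoImplicit false
open Cfsg

namespace Cfsg.Agent.S4116

section general
variable {G : Type*} [Group G]

/-- conjugate subgroup -/
abbrev cj (H : Subgroup G) (a : G) : Subgroup G := H.map (MulAut.conj a).toMonoidHom

theorem mem_cj {H : Subgroup G} {a x : G} : x ∈ cj H a ↔ a⁻¹ * x * a ∈ H := by
  constructor
  · rintro ⟨h, hh, rfl⟩
    simp only [MulEquiv.coe_toMonoidHom, MulAut.conj_apply]
    have : a⁻¹ * (a * h * a⁻¹) * a = h := by group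
    rw [this]; exact hh
  · intro hx
    refine ⟨_, hx, ?_⟩
    simp only [MulEquiv.coe_toMonoidHom, MulAut.conj_apply]
    group

theorem cj_mul (H : Subgroup G) (a b : G) : cj H (a * b) = cj (cj H b) a := by
  ext x
  simp only [mem_cj]
  have : b⁻¹ * (a⁻¹ * x * a) * b = (a * b)⁻¹ * x * (a * b) := by group
  rw [this]

theorem cj_eq_of_normalizes (A : Subgroup G) (x : G)
    (hx : x ∈ Subgroup.normalizer (A : Set G)) : cj A x = A := by
  rw [Subgroup.mem_normalizer_iff] at hx
  ext y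
  rw [mem_cj]
  have h := hx (x⁻¹ * y * x)
  have h2 : x * (x⁻¹ * y * x) * x⁻¹ = y := by group
  rw [h2] at h
  exact h

theorem normalizes_of_cj_eq (A : Subgroup G) (x : G) (hx : cj A x = A) :
    x ∈ Subgroup.normalizer (A : Set G) := by
  rw [Subgroup.mem_normalizer_iff]
  intro h
  have h1 : x * h * x⁻¹ ∈ A ↔ h ∈ A := by
    conv_lhs => rw [← hx]
    rw [mem_cj]
    have : x⁻¹ * (x * h * x⁻¹) * x = h := by group
    rw [this]
  exact h1.symm

/-- TI in conjugates -/
theorem ti_conj {H : Subgroup G} (hTI : Cfsg.IsTISubset (H : Set G)) {a b x : G} (hx : x ≠ 1)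
    (ha : x ∈ cj H a) (hb : x ∈ cj H b) : cj H a = cj H b := by
  rw [mem_cj] at ha hb
  have hv1 : b⁻¹ * x * b ≠ 1 := by
    intro h
    apply hx
    have : x = b * (b⁻¹ * x * b) * b⁻¹ := by group
    rw [this, h]; group
  have htn : a⁻¹ * b ∈ Subgroup.normalizer (H : Set G) := by
    by_contra hn
    apply hv1
    apply hTI (a⁻¹ * b) hn _ hb
    have : a⁻¹ * b * (b⁻¹ * x * b) * (a⁻¹ * b)⁻¹ = a⁻¹ * x * a := by group
    rw [this]; exact ha
  have h1 := cj_eq_of_normalizes H _ htn
  have h2 : b = a * (a⁻¹ * b) := by group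
  rw [h2, cj_mul, h1]

/-- The Frobenius count. -/
theorem frob_count {Γ : Type*} [Group Γ] [Finite Γ] (L : Subgroup Γ)
    (hTI : ∀ k, k ∉ L → ∀ l ∈ L, l ≠ 1 → k * l * k⁻¹ ∉ L) :
    ({w : Γ | ∃ k : Γ, ∃ l ∈ L, l ≠ 1 ∧ w = k * l * k⁻¹}).ncard * Nat.card L =
      Nat.card Γ * (Nat.card L - 1) := by
  classical
  have := Fintype.ofFinite Γ
  have hT : ({w : Γ | ∃ k : Γ, ∃ l ∈ L, l ≠ 1 ∧ w = k * l * k⁻¹}).ncard =
      (Finset.univ.filter (fun w : Γ => ∃ k : Γ, ∃ l ∈ L, l ≠ 1 ∧ w = k * l * k⁻¹)).card := by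
    rw [Set.ncard_eq_toFinset_card']
    congr 1
    ext w
    simp
  rw [hT]
  let LF : Finset Γ := Finset.univ.filter (· ∈ L)
  have hLF : LF.card = Nat.card L := by
    rw [Nat.card_eq_fintype_card, Fintype.card_subtype]
  let S : Finset (Γ × Γ) := Finset.univ ×ˢ (LF.erase 1)
  let f : Γ × Γ → Γ := fun a => a.1 * a.2 * a.1⁻¹
  have himg : S.image f = Finset.univ.filter (fun w : Γ => ∃ k : Γ, ∃ l ∈ L, l ≠ 1 ∧ w = k * l * k⁻¹) := by
    ext w
    simp only [S, f, LF, Finset.mem_image, Finset.mem_product, Finset.mem_univ, true_and,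
      Finset.mem_erase, Finset.mem_filter, Prod.exists]
    constructor
    · rintro ⟨k, l, ⟨hl1, hl⟩, rfl⟩
      exact ⟨k, l, hl, hl1, rfl⟩
    · rintro ⟨k, l, hl, hl1, rfl⟩
      exact ⟨k, l, ⟨hl1, hl⟩, rfl⟩
  have hS : S.card = Nat.card Γ * (Nat.card L - 1) := by
    simp only [S, Finset.card_product, Finset.card_univ]
    rw [Finset.card_erase_of_mem (by simp [LF, L.one_mem]), hLF, Nat.card_eq_fintype_card (α := Γ)]
  have hfib : ∀ w ∈ S.image f, (S.filter (fun a => f a = w)).card = Nat.card L := by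
    intro w hw
    obtain ⟨⟨k0, l0⟩, h0, rfl⟩ := Finset.mem_image.mp hw
    simp only [S, LF, Finset.mem_product, Finset.mem_univ, true_and, Finset.mem_erase,
      Finset.mem_filter] at h0
    obtain ⟨hl01, hl0⟩ := h0
    rw [← hLF]
    refine Finset.card_nbij' (fun a => k0⁻¹ * a.1) (fun u => (k0 * u, u⁻¹ * l0 * u)) ?_ ?_ ?_ ?_
    · rintro ⟨k, l⟩ ha
      simp only [S, LF, f, Finset.coe_filter, Finset.mem_product, Finset.mem_univ, true_and,
        Finset.mem_erase, Finset.mem_filter, Set.mem_ofPred_eq] at ha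
      obtain ⟨⟨hl1, hl⟩, he⟩ := ha
      simp only [LF, Finset.coe_filter, Finset.mem_univ, true_and, Set.mem_ofPred_eq]
      by_contra hu
      apply hTI _ hu l hl hl1
      have : k0⁻¹ * k * l * (k0⁻¹ * k)⁻¹ = k0⁻¹ * (k * l * k⁻¹) * k0 := by group
      rw [this, he]
      have : k0⁻¹ * (k0 * l0 * k0⁻¹) * k0 = l0 := by group
      rw [this]
      exact hl0
    · intro u hu
      simp only [LF, Finset.coe_filter, Finset.mem_univ, true_and, Set.mem_ofPred_eq] at hu
      simp only [S, LF, f, Finset.coe_filter, Finset.mem_product, Finset.mem_univ, true_and,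
        Finset.mem_erase, Finset.mem_filter, Set.mem_ofPred_eq]
      refine ⟨⟨?_, L.mul_mem (L.mul_mem (L.inv_mem hu) hl0) hu⟩, ?_⟩
      · intro h
        apply hl01
        have : l0 = u * (u⁻¹ * l0 * u) * u⁻¹ := by group
        rw [this, h]; group
      · group
    · rintro ⟨k, l⟩ ha
      simp only [S, LF, f, Finset.coe_filter, Finset.mem_product, Finset.mem_univ, true_and,
        Finset.mem_erase, Finset.mem_filter, Set.mem_ofPred_eq] at ha
      obtain ⟨⟨hl1, hl⟩, he⟩ := ha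
      simp only [Prod.mk.injEq]
      refine ⟨by group, ?_⟩
      have h3 : l0 = k0⁻¹ * (k * l * k⁻¹) * k0 := by rw [he]; group
      rw [h3]; group
    · intro u _
      simp
  rw [← hS, Finset.card_eq_sum_card_image f S, Finset.sum_congr rfl hfib, Finset.sum_const,
    smul_eq_mul, himg]

end general

section main
variable {G : Type*} [Group G]

theorem mem_of_normalizes_H [Finite G] (H : Subgroup G) (hHall : (Nat.card H).Coprime H.index) (y : G)
    (hy : y ∈ Subgroup.normalizer (H : Set G))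
    (hpi : ∀ q : ℕ, q.Prime → q ∣ orderOf y → q ∣ Nat.card H) : y ∈ H := by
  set Nm := Subgroup.normalizer (H : Set G) with hNm
  have hn : (H.subgroupOf Nm).Normal := Subgroup.normal_in_normalizer
  set d := (H.subgroupOf Nm).index with hd
  have h1 : (⟨y, hy⟩ : Nm) ^ d ∈ H.subgroupOf Nm := Subgroup.pow_index_mem _ _
  rw [Subgroup.mem_subgroupOf] at h1
  have h2 : y ^ d ∈ H := by simpa using h1
  have hdvd : d ∣ H.index := Subgroup.relIndex_dvd_index_of_le Subgroup.le_normalizer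
  have hcop : (orderOf y).Coprime d := by
    rw [Nat.coprime_iff_gcd_eq_one] 
    by_contra hne
    obtain ⟨q, hq, hqd⟩ := Nat.exists_prime_and_dvd hne
    have h3 := hpi q hq (hqd.trans (Nat.gcd_dvd_left _ _))
    have h4 : q ∣ H.index := (hqd.trans (Nat.gcd_dvd_right _ _)).trans hdvd
    have := Nat.dvd_gcd h3 h4
    rw [hHall] at this
    exact hq.one_lt.ne' (Nat.dvd_one.mp this)
  -- y is a power of y ^ d
  have hbez := Nat.gcd_eq_gcd_ab d (orderOf y)
  have hg : Nat.gcd d (orderOf y) = 1 := by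
    rw [Nat.gcd_comm]; exact hcop
  rw [hg] at hbez
  have h5 : y = (y ^ d) ^ (Nat.gcdA d (orderOf y)) := by
    have h6 : y ^ ((1 : ℕ) : ℤ) = (y ^ d) ^ (Nat.gcdA d (orderOf y)) * (y ^ orderOf y) ^ (Nat.gcdB d (orderOf y)) := by
      rw [hbez, zpow_add, zpow_mul, zpow_mul, zpow_natCast, zpow_natCast]
    rw [pow_orderOf_eq_one, one_zpow, mul_one] at h6
    simpa using h6
  rw [h5]
  exact H.zpow_mem h2 _

theorem cj_orderOf (a x : G) : orderOf (a⁻¹ * x * a) = orderOf x := by
  have := MulEquiv.orderOf_eq (MulAut.conj a⁻¹) x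
  simpa [MulAut.conj_apply] using this

/-- Elements normalizing a conjugate. -/
theorem mem_cj_of_normalizes [Finite G] (H : Subgroup G) (hHall : (Nat.card H).Coprime H.index) (a y : G)
    (hy : cj H (y * a) = cj H a)
    (hpi : ∀ q : ℕ, q.Prime → q ∣ orderOf y → q ∣ Nat.card H) : y ∈ cj H a := by
  rw [mem_cj]
  apply mem_of_normalizes_H H hHall
  · apply normalizes_of_cj_eq
    ext x
    rw [mem_cj]
    have h1 : a * x * a⁻¹ ∈ cj H (y * a) ↔ a * x * a⁻¹ ∈ cj H a := by rw [hy]
    rw [mem_cj, mem_cj] at h1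
    have h2 : (y * a)⁻¹ * (a * x * a⁻¹) * (y * a) = (a⁻¹ * y * a)⁻¹ * x * (a⁻¹ * y * a) := by group
    have h3 : a⁻¹ * (a * x * a⁻¹) * a = x := by group
    rw [h2, h3] at h1
    exact h1
  · rw [cj_orderOf]; exact hpi

/-- A `q`-subgroup, `q ∣ |H|`: lies in a conjugate of `H`. -/
theorem exists_conj_of_prime [Finite G] (H : Subgroup G) (hHall : (Nat.card H).Coprime H.index) (q : ℕ) (hq : q.Prime)
    (hqH : q ∣ Nat.card H) (z : G) (hz : orderOf z = q) : ∃ a : G, z ∈ cj H a := by
  have hfq : Fact q.Prime := ⟨hq⟩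
  have hqi : ¬ q ∣ H.index := by
    intro h
    have := Nat.dvd_gcd hqH h
    rw [hHall] at this
    exact hq.one_lt.ne' (Nat.dvd_one.mp this)
  have T : Sylow q H := default
  set T' : Subgroup G := (T : Subgroup H).map H.subtype with hT'
  have hT'p : IsPGroup q T' := T.isPGroup'.map H.subtype
  have hidx : ¬ q ∣ T'.index := by
    rw [hT', Subgroup.index_map_subtype]
    intro h
    rcases (Nat.Prime.dvd_mul hq).mp h with h | h
    · exact T.not_dvd_index h
    · exact hqi h
  let S0 : Sylow q G := hT'p.toSylow hidx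
  have hS0 : (S0 : Subgroup G) ≤ H := by
    show T' ≤ H
    rw [hT']
    rintro _ ⟨x, -, rfl⟩
    exact x.2
  have hzp : IsPGroup q (Subgroup.zpowers z) :=
    IsPGroup.of_card (n := 1) (by rw [Nat.card_zpowers, hz, pow_one])
  obtain ⟨S, hS⟩ := hzp.exists_le_sylow
  obtain ⟨c, hc⟩ := MulAction.exists_smul_eq G S0 S
  refine ⟨c, ?_⟩
  have hzS : z ∈ (S : Subgroup G) := hS (Subgroup.mem_zpowers z)
  rw [← hc, Sylow.coe_subgroup_smul, Subgroup.mem_pointwise_smul_iff_inv_smul_mem] at hzS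
  rw [mem_cj]
  apply hS0
  simpa [MulAut.smul_def] using hzS

/-- π-elements lie in conjugates of `H`. -/
theorem exists_conj_of_pi [Finite G] (H : Subgroup G) (hHall : (Nat.card H).Coprime H.index)
    (hTI : Cfsg.IsTISubset (H : Set G)) (x : G)
    (hpi : ∀ q : ℕ, q.Prime → q ∣ orderOf x → q ∣ Nat.card H) : ∃ a : G, x ∈ cj H a := by
  by_cases hx : x = 1
  · exact ⟨1, by rw [hx]; exact Subgroup.one_mem _⟩
  have hox : orderOf x ≠ 1 := fun h => hx (orderOf_eq_one_iff.mp h)
  obtain ⟨q, hq, hqd⟩ := Nat.exists_prime_and_dvd hox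
  have hoxpos : 0 < orderOf x := orderOf_pos x
  set z := x ^ (orderOf x / q) with hz
  have hzord : orderOf z = q := by
    rw [hz]; exact orderOf_pow_orderOf_div hoxpos.ne' hqd
  have hz1 : z ≠ 1 := by
    intro h
    rw [h, orderOf_one] at hzord
    exact hq.one_lt.ne hzord
  obtain ⟨a, ha⟩ := exists_conj_of_prime H hHall q hq (hpi q hq hqd) z hzord
  refine ⟨a, ?_⟩
  apply mem_cj_of_normalizes H hHall a x _ hpi
  apply ti_conj hTI hz1 _ ha
  rw [mem_cj] at ha ⊢
  have h1 : (x * a)⁻¹ * z * (x * a) = a⁻¹ * z * a := by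
    have h2 : x⁻¹ * z * x = z := by
      have hc : Commute x z := (Commute.refl x).pow_right _
      rw [mul_assoc, hc.eq.symm]; group
    have : (x * a)⁻¹ * z * (x * a) = a⁻¹ * (x⁻¹ * z * x) * a := by group
    rw [this, h2]
  rw [h1]
  exact ha

/-- Let G be a finite group with a subgroup H whose order is coprime to its index (a Hall subgroup) and which meets each of its conjugates by elements outside N_G(H) trivially. Then every subgroup of G whose order is divisible only by primes dividing the order of H lies in a conjugate of H. -/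
theorem result {G : Type*} [Group G] [Finite G] (H : Subgroup G)
    (hHall : (Nat.card H).Coprime H.index) (hTI : Cfsg.IsTISubset (H : Set G))
    (K : Subgroup G) (hK : ∀ q : ℕ, q.Prime → q ∣ Nat.card K → q ∣ Nat.card H) :
    ∃ g : G, K ≤ H.map (MulAut.conj g).toMonoidHom := by
  classical
  by_contra hcon
  push Not at hcon
  have hcon' : ∀ a : G, ¬ K ≤ cj H a := hcon
  have hpiK : ∀ y ∈ K, ∀ q : ℕ, q.Prime → q ∣ orderOf y → q ∣ Nat.card H := by
    intro y hy q hq hqy
    exact hK q hq (hqy.trans (Subgroup.orderOf_dvd_natCard K hy))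
  -- the traces on K
  let L : G → Subgroup K := fun a => (cj H a).subgroupOf K
  have hLmem : ∀ (a : G) (x : K), x ∈ L a ↔ (x : G) ∈ cj H a := fun a x => Subgroup.mem_subgroupOf
  have hLne : ∀ a, L a ≠ ⊤ := by
    intro a htop
    apply hcon' a
    intro x hx
    have : (⟨x, hx⟩ : K) ∈ L a := by rw [htop]; trivial
    exact (hLmem a _).mp this
  have hLTI : ∀ a (k : K), k ∉ L a → ∀ l ∈ L a, l ≠ 1 → k * l * k⁻¹ ∉ L a := by
    intro a k hk l hl hl1 hin
    apply hk
    rw [hLmem] at hl hin ⊢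
    have hl1' : (l : G) ≠ 1 := fun h => hl1 (Subtype.ext h)
    apply mem_cj_of_normalizes H hHall a k _ (hpiK k k.2)
    -- conjugation by k preserves cj H a, as it shares l
    have h1 : ((k : G) * l * (k : G)⁻¹) ∈ cj H a := by simpa using hin
    have hcj : cj H ((k : G)⁻¹ * a) = cj H a := by
      apply (ti_conj hTI hl1' hl _).symm
      rw [mem_cj] at h1 ⊢
      have : ((k : G)⁻¹ * a)⁻¹ * l * ((k : G)⁻¹ * a) = a⁻¹ * ((k : G) * l * (k : G)⁻¹) * a := by group
      rw [this]
      exact h1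
    calc cj H ((k : G) * a) = cj (cj H a) (k : G) := cj_mul _ _ _
      _ = cj (cj H ((k : G)⁻¹ * a)) (k : G) := by rw [hcj]
      _ = cj H ((k : G) * ((k : G)⁻¹ * a)) := (cj_mul _ _ _).symm
      _ = cj H a := by simp
  -- the sets T a
  let T : G → Set K := fun a => {w : K | ∃ k : K, ∃ l ∈ L a, l ≠ 1 ∧ w = k * l * k⁻¹}
  have hcount : ∀ a, (T a).ncard * Nat.card (L a) = Nat.card K * (Nat.card (L a) - 1) :=
    fun a => frob_count (L a) (hLTI a)
  -- arithmetic on T a
  have harith : ∀ a, ∀ x : K, x ≠ 1 → x ∈ L a →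
      Nat.card K ≤ 2 * (T a).ncard ∧ (T a).ncard + 2 ≤ Nat.card K := by
    intro a x hx hxL
    set c := Nat.card (L a) with hc
    set t := (L a).index with ht
    have hct : t * c = Nat.card K := Subgroup.index_mul_card (L a)
    have hc2 : 2 ≤ c := by
      have h1 : 1 < Nat.card (L a) := by
        have hnt : Nontrivial (L a) := ⟨⟨⟨x, hxL⟩, 1, fun h => hx (congrArg Subtype.val h)⟩⟩
        exact Finite.one_lt_card
      exact h1
    have ht2 : 2 ≤ t := by
      have h1 : t ≠ 1 := fun h => hLne a (Subgroup.index_eq_one.mp h)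
      have h2 : t ≠ 0 := Subgroup.index_ne_zero_of_finite
      omega
    have h1 := hcount a
    rw [← hc, ← hct] at h1
    have hN : (T a).ncard = t * (c - 1) := by
      have hcpos : 0 < c := by omega
      have : (T a).ncard * c = (t * (c - 1)) * c := by rw [h1]; ring
      exact Nat.eq_of_mul_eq_mul_right hcpos this
    rw [hN, ← hct]
    clear_value c t
    obtain ⟨d, hd⟩ : ∃ d, c = d + 1 := ⟨c - 1, by omega⟩
    subst hd
    simp only [Nat.add_sub_cancel]
    constructor
    · have : d + 1 ≤ 2 * d := by omega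
      nlinarith
    · nlinarith
  -- first subgroup
  have hKne : ∃ x : K, x ≠ 1 := by
    by_contra hne
    push Not at hne
    apply hcon' 1
    intro x hx
    have := hne ⟨x, hx⟩
    have h1 : x = 1 := congrArg Subtype.val this
    rw [h1]
    exact Subgroup.one_mem _
  obtain ⟨x1, hx11⟩ := hKne
  obtain ⟨a1, ha1⟩ := exists_conj_of_pi H hHall hTI (x1 : G) (hpiK _ x1.2)
  have hx1L : x1 ∈ L a1 := (hLmem a1 x1).mpr ha1
  obtain ⟨h1a, h1b⟩ := harith a1 x1 hx11 hx1L
  -- a second element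
  have hexx2 : ∃ x2 : K, x2 ≠ 1 ∧ x2 ∉ T a1 := by
    by_contra hne
    push Not at hne
    have hsub : (Set.univ : Set K) ⊆ T a1 ∪ {1} := by
      intro x _
      by_cases hx : x = 1
      · right; exact hx
      · left; exact hne x hx
    have h2 := Set.ncard_le_ncard hsub (Set.toFinite _)
    have h3 := Set.ncard_union_le (T a1) {1}
    rw [Set.ncard_univ, Set.ncard_singleton] at *
    omega
  obtain ⟨x2, hx21, hx2T⟩ := hexx2
  obtain ⟨a2, ha2⟩ := exists_conj_of_pi H hHall hTI (x2 : G) (hpiK _ x2.2)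
  have hx2L : x2 ∈ L a2 := (hLmem a2 x2).mpr ha2
  obtain ⟨h2a, h2b⟩ := harith a2 x2 hx21 hx2L
  -- disjointness
  have hdisj : Disjoint (T a1) (T a2) := by
    rw [Set.disjoint_left]
    rintro w ⟨k, l, hl, hl1, rfl⟩ ⟨k', l', hl', hl1', he⟩
    apply hx2T
    rw [hLmem] at hl hl'
    have hl1g : (k : G) * l * (k : G)⁻¹ ≠ 1 := by
      intro h
      apply hl1
      apply Subtype.ext
      have h2 : (l : G) = (k : G)⁻¹ * ((k : G) * l * (k : G)⁻¹) * k := by group
      rw [h2, h]; simp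
    have hm1 : (k : G) * l * (k : G)⁻¹ ∈ cj H ((k : G) * a1) := by
      rw [mem_cj] at hl ⊢
      have : ((k : G) * a1)⁻¹ * ((k : G) * l * (k : G)⁻¹) * ((k : G) * a1) = a1⁻¹ * l * a1 := by group
      rw [this]; exact hl
    have hm2 : (k : G) * l * (k : G)⁻¹ ∈ cj H ((k' : G) * a2) := by
      have he' : (k : G) * l * (k : G)⁻¹ = (k' : G) * l' * (k' : G)⁻¹ := congrArg Subtype.val he
      rw [he']
      rw [mem_cj] at hl' ⊢
      have : ((k' : G) * a2)⁻¹ * ((k' : G) * l' * (k' : G)⁻¹) * ((k' : G) * a2) = a2⁻¹ * l' * a2 := by group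
      rw [this]; exact hl'
    have hcj := ti_conj hTI hl1g hm1 hm2
    -- u = k'⁻¹ k
    set u : K := k'⁻¹ * k with hu
    have hx2c : (x2 : G) ∈ cj H ((u : G) * a1) := by
      have h1 : cj H ((u : G) * a1) = cj (cj H ((k : G) * a1)) ((k' : G)⁻¹) := by
        rw [← cj_mul]; congr 1; simp [hu, mul_assoc]
      rw [h1, hcj, ← cj_mul]
      have : (k' : G)⁻¹ * ((k' : G) * a2) = a2 := by group
      rw [this]; exact ha2
    have hl0 : u⁻¹ * x2 * u ∈ L a1 := by
      rw [hLmem]
      rw [mem_cj] at hx2c ⊢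
      have : ((u : G) * a1)⁻¹ * x2 * ((u : G) * a1) = a1⁻¹ * ((u : G)⁻¹ * x2 * u) * a1 := by group
      rw [this] at hx2c
      simpa using hx2c
    refine ⟨u, u⁻¹ * x2 * u, hl0, ?_, by group⟩
    intro h
    apply hx21
    have h2 : x2 = u * (u⁻¹ * x2 * u) * u⁻¹ := by group
    rw [h2, h]; group
  have hunion := Set.ncard_union_eq hdisj (Set.toFinite _) (Set.toFinite _)
  have h1notin : (1 : K) ∉ T a1 ∪ T a2 := by
    have hk : ∀ a, (1 : K) ∉ T a := by
      rintro a ⟨k, l, -, hl1, he⟩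
      apply hl1
      have h2 : l = k⁻¹ * (k * l * k⁻¹) * k := by group
      rw [h2, ← he]; group
    rintro (h | h)
    · exact hk _ h
    · exact hk _ h
  have hle : (T a1 ∪ T a2).ncard + 1 ≤ Nat.card K := by
    have hsub : insert (1 : K) (T a1 ∪ T a2) ⊆ Set.univ := Set.subset_univ _
    have h2 := Set.ncard_le_ncard hsub (Set.toFinite _)
    rw [Set.ncard_insert_of_notMem h1notin (Set.toFinite _), Set.ncard_univ] at h2
    exact h2
  omega

end main

end Cfsg.Agent.S4116
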