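import Mathlib
import Cfsg.Statements.S4117

set_option autoImplicit false
open Cfsg

namespace Cfsg.Agent.S4117

open scoped Pointwise commutatorElement

/-- Automorphisms of a cyclic group commute. -/
theorem mulAut_comm {Q : Type*} [Group Q] [h : IsCyclic Q] (α β : MulAut Q) :
    α * β = β * α := by
  apply (IsCyclic.mulAutMulEquiv Q).injective
  rw [map_mul, map_mul, mul_comm]

/-- A cocycle with values in a finite abelian group of coprime order is a coboundary. -/
theorem coboundary {D A : Type*} [CommGroup D] [Finite D] [Group A] [Fintype A]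
    [MulDistribMulAction A D] (hcop : (Fintype.card A).Coprime (Nat.card D))
    (c : A → D) (hc : ∀ a b, c (a * b) = c a * a • c b) : ∃ u : D, ∀ a, c a * a • u = u := by
  have hcop' : (Nat.card D).Coprime (Fintype.card A) := hcop.symm
  set z : D := ∏ b, c b with hz
  set u : D := (powCoprime hcop').symm z with hu
  have hu' : u ^ Fintype.card A = z := by
    have := (powCoprime hcop').apply_symm_apply z
    rwa [powCoprime_apply] at this
  have hinj := (powCoprime hcop').injective
  refine ⟨u, fun a => ?_⟩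
  have hstep : a • z = (c a)⁻¹ ^ Fintype.card A * z := by
    have h1 : ∀ b, a • c b = (c a)⁻¹ * c (a * b) := by
      intro b
      rw [hc]
      simp
    have h0 : a • (∏ b, c b) = ∏ b, a • c b :=
      map_prod (MulDistribMulAction.toMonoidHom D a) _ _
    rw [hz, h0]
    simp_rw [h1]
    rw [Finset.prod_mul_distrib, Finset.prod_const, Finset.card_univ]
    congr 1
    exact Fintype.prod_equiv (Equiv.mulLeft a) _ _ (fun _ => rfl)
  have hkey : a • u = (c a)⁻¹ * u := by
    apply hinj
    rw [powCoprime_apply, powCoprime_apply, ← smul_pow', hu', hstep, mul_pow, hu']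
  rw [hkey]
  simp

/-- In a cyclic group, the elements killed by `p` are the powers of any element of order `p`. -/
theorem mem_zpowers_of_orderOf_eq {P : Type*} [Group P] [Finite P] [IsCyclic P] {p : ℕ}
    (hp : 0 < p) {x y : P} (hx : orderOf x = p) (hy : y ^ p = 1) : y ∈ Subgroup.zpowers x := by
  classical
  letI := Fintype.ofFinite P
  have h1 : (Finset.univ.filter (fun a : P => a ^ p = 1)).card ≤ p :=
    IsCyclic.card_pow_eq_one_le hp
  have hsub : (Finset.univ.filter (fun z : P => z ∈ Subgroup.zpowers x)) ⊆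
      Finset.univ.filter (fun z : P => z ^ p = 1) := by
    intro z hz
    rw [Finset.mem_filter] at hz ⊢
    obtain ⟨k, rfl⟩ := Subgroup.mem_zpowers_iff.mp hz.2
    refine ⟨Finset.mem_univ _, ?_⟩
    rw [← zpow_natCast, ← zpow_mul, mul_comm, zpow_mul, zpow_natCast, ← hx, pow_orderOf_eq_one,
      one_zpow]
  have hcard : (Finset.univ.filter (fun z : P => z ∈ Subgroup.zpowers x)).card = p := by
    rw [← Fintype.card_subtype, ← Nat.card_eq_fintype_card]
    exact (Nat.card_zpowers x).trans hx
  have heq := Finset.eq_of_subset_of_card_le hsub (by rw [hcard]; exact h1)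
  have : y ∈ Finset.univ.filter (fun z : P => z ^ p = 1) := by
    rw [Finset.mem_filter]
    exact ⟨Finset.mem_univ _, hy⟩
  rw [← heq, Finset.mem_filter] at this
  exact this.2

theorem result {G A : Type*} [Group G] [Finite G] [Group A] [Finite A]
    [MulDistribMulAction A G] (hcop : (Nat.card A).Coprime (Nat.card G))
    (hcyc : ∀ (p : ℕ) [Fact p.Prime] (P : Sylow p G), IsCyclic (P : Subgroup G)) :
    (Nat.card (MulAction.fixedPoints A G : Set G)).Coprime (Nat.card G / Nat.card (MulAction.fixedPoints A G : Set G)) ∧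
    IsCyclic (Subgroup.closure {y : G | ∃ (a : A) (g : G), y = g⁻¹ * a • g}) ∧
    (Subgroup.closure {y : G | ∃ (a : A) (g : G), y = g⁻¹ * a • g}).Normal ∧
    (Subgroup.closure {y : G | ∃ (a : A) (g : G), y = g⁻¹ * a • g} : Set G) ∩ MulAction.fixedPoints A G = {1} ∧
    Subgroup.closure {y : G | ∃ (a : A) (g : G), y = g⁻¹ * a • g} ⊔ Subgroup.closure (MulAction.fixedPoints A G) = ⊤ := by
  classical
  letI := Fintype.ofFinite A
  haveI hZ : IsZGroup G := ⟨fun p hp P => @hcyc p ⟨hp⟩ P⟩
  set D : Subgroup G := Subgroup.closure {y : G | ∃ (a : A) (g : G), y = g⁻¹ * a • g} with hD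
  have hgen : ∀ (a : A) (g : G), g⁻¹ * a • g ∈ D := fun a g =>
    Subgroup.subset_closure ⟨a, g, rfl⟩
  -- normality
  have hDn : D.Normal := by
    constructor
    intro n hn h
    induction hn using Subgroup.closure_induction with
    | mem y hy =>
      obtain ⟨a, g, rfl⟩ := hy
      have h1 := hgen a (g * h⁻¹)
      have h2 := hgen a h⁻¹
      have : h * (g⁻¹ * a • g) * h⁻¹ =
          (g * h⁻¹)⁻¹ * a • (g * h⁻¹) * (h⁻¹⁻¹ * a • h⁻¹)⁻¹ := by
        simp only [smul_mul', mul_inv_rev, inv_inv]
        group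
      rw [this]
      exact D.mul_mem h1 (D.inv_mem h2)
    | one => simp
    | mul x y _ _ hx hy =>
      have : h * (x * y) * h⁻¹ = (h * x * h⁻¹) * (h * y * h⁻¹) := by group
      rw [this]
      exact D.mul_mem hx hy
    | inv x _ hx =>
      have : h * x⁻¹ * h⁻¹ = (h * x * h⁻¹)⁻¹ := by group
      rw [this]
      exact D.inv_mem hx
  -- invariance
  have hDinv : ∀ (a : A) (d : G), d ∈ D → a • d ∈ D := by
    intro a d hd
    induction hd using Subgroup.closure_induction with
    | mem y hy =>
      obtain ⟨b, g, rfl⟩ := hy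
      have : a • (g⁻¹ * b • g) = (a • g)⁻¹ * (a * b * a⁻¹) • (a • g) := by
        rw [smul_mul', smul_inv', smul_smul, smul_smul, inv_mul_cancel_right]
      rw [this]
      exact hgen _ _
    | one => simp
    | mul x y _ _ hx hy =>
      rw [smul_mul']
      exact D.mul_mem hx hy
    | inv x _ hx =>
      rw [smul_inv']
      exact D.inv_mem hx
  -- the commutator subgroup is invariant
  have hQchar : (commutator G).Characteristic := inferInstance
  have hQinv : ∀ (a : A) (x : G), x ∈ commutator G → a • x ∈ commutator G := by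
    intro a x hx
    have := hQchar.fixed (MulDistribMulAction.toMulAut A G a)
    have h2 : x ∈ (commutator G).comap (MulDistribMulAction.toMulAut A G a).toMonoidHom := by
      rw [this]; exact hx
    simpa using h2
  haveI hQcyc : IsCyclic (commutator G) := IsZGroup.isCyclic_commutator G
  -- D centralizes the commutator subgroup
  have hDcent : ∀ d ∈ D, ∀ x ∈ commutator G, d * x = x * d := by
    intro d hd
    have hker : D ≤ (MulAut.conjNormal (H := commutator G)).ker := by
      rw [hD, Subgroup.closure_le]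
      rintro y ⟨a, g, rfl⟩
      let α : MulAut (commutator G) :=
        { toFun := fun x => ⟨a • x.1, hQinv a _ x.2⟩
          invFun := fun x => ⟨a⁻¹ • x.1, hQinv _ _ x.2⟩
          left_inv := fun x => Subtype.ext (inv_smul_smul a x.1)
          right_inv := fun x => Subtype.ext (smul_inv_smul a x.1)
          map_mul' := fun x y => Subtype.ext (smul_mul' a x.1 y.1) }
      have h1 : α * MulAut.conjNormal g * α⁻¹ = MulAut.conjNormal (a • g) := by
        ext x
        change a • (g * (a⁻¹ • x.1) * g⁻¹) = (a • g) * x.1 * (a • g)⁻¹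
        rw [smul_mul', smul_mul', smul_inv', smul_inv_smul]
      have h2 : MulAut.conjNormal (H := commutator G) (a • g) = MulAut.conjNormal g := by
        rw [← h1, mulAut_comm α, mul_assoc, mul_inv_cancel, mul_one]
      rw [SetLike.mem_coe, MonoidHom.mem_ker, map_mul, map_inv, h2, inv_mul_cancel]
    intro x hx
    have h := hker hd
    rw [MonoidHom.mem_ker] at h
    have h3 := congrArg (fun f : MulAut (commutator G) => (f ⟨x, hx⟩ : commutator G).1) h
    simp only [MulAut.conjNormal_apply, MulAut.one_apply] at h3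
    change d * x * d⁻¹ = x at h3
    calc d * x = (d * x * d⁻¹) * d := by group
      _ = x * d := by rw [h3]
  -- D is nilpotent, hence cyclic
  haveI hDnil : Group.IsNilpotent D := by
    have hcomm : ∀ x y : D, (⁅x, y⁆ : D).1 ∈ commutator G := fun x y =>
      Subgroup.commutator_mem_commutator (Subgroup.mem_top _) (Subgroup.mem_top _)
    have hle : commutator D ≤ Subgroup.center D := by
      rw [commutator_def, Subgroup.commutator_le]
      intro x _ y _
      rw [Subgroup.mem_center_iff]
      intro z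
      exact Subtype.ext (by
        simpa using (hDcent z.1 z.2 _ (hcomm x y)))
    rw [Subgroup.nilpotent_iff_lowerCentralSeries]
    refine ⟨2, ?_⟩
    change ⁅⁅(⊤ : Subgroup D), (⊤ : Subgroup D)⁆, (⊤ : Subgroup D)⁆ = ⊥
    rw [Subgroup.commutator_eq_bot_iff_le_centralizer]
    intro x hx y _
    exact (Subgroup.mem_center_iff.mp (hle hx) y)
  have hDcyc : IsCyclic D := inferInstance
  have hcardA : Fintype.card A = Nat.card A := (Nat.card_eq_fintype_card).symm
  have hcopD : (Fintype.card A).Coprime (Nat.card D) := by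
    rw [hcardA]
    exact Nat.Coprime.coprime_dvd_right (Subgroup.card_subgroup_dvd_card D) hcop
  letI : CommGroup D := IsCyclic.commGroup
  letI : MulDistribMulAction A D :=
    { smul := fun a d => ⟨a • d.1, hDinv a d.1 d.2⟩
      one_smul := fun d => Subtype.ext (one_smul A d.1)
      mul_smul := fun a b d => Subtype.ext (mul_smul a b d.1)
      smul_mul := fun a d e => Subtype.ext (smul_mul' a d.1 e.1)
      smul_one := fun a => Subtype.ext (smul_one a) }
  have hsmul : ∀ (a : A) (d : D), (a • d).1 = a • d.1 := fun _ _ => rfl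
  have hcoc : ∀ g : G, ∃ u : D, ∀ a : A,
      (⟨g⁻¹ * a • g, hgen a g⟩ : D) * a • u = u := by
    intro g
    apply coboundary hcopD
    intro a b
    apply Subtype.ext
    change g⁻¹ * (a * b) • g = (g⁻¹ * a • g) * (a • (g⁻¹ * b • g))
    rw [smul_mul', smul_inv', mul_assoc, mul_inv_cancel_left, smul_smul]
  have hfix : ∀ g : G, ∃ u : D, g * u.1 ∈ MulAction.fixedPoints A G := by
    intro g
    obtain ⟨u, hu⟩ := hcoc g
    refine ⟨u, fun a => ?_⟩
    have h1 := congrArg Subtype.val (hu a)
    change (g⁻¹ * a • g) * (a • u.1) = u.1 at h1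
    change a • (g * u.1) = g * u.1
    rw [smul_mul']
    calc a • g * a • u.1 = g * ((g⁻¹ * a • g) * a • u.1) := by group
      _ = g * u.1 := by rw [h1]
  -- the norm vanishes
  have hnorm : ∀ d : D, ∏ a : A, a • d = 1 := by
    have hmul : ∀ x y : D, ∏ a : A, a • x = 1 → ∏ a : A, a • y = 1 →
        ∏ a : A, a • (x * y) = 1 := by
      intro x y hx hy
      simp_rw [smul_mul']
      rw [Finset.prod_mul_distrib, hx, hy, one_mul]
    have hinv : ∀ x : D, ∏ a : A, a • x = 1 → ∏ a : A, a • x⁻¹ = 1 := by
      intro x hx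
      simp_rw [smul_inv']
      rw [Finset.prod_inv_distrib, hx, inv_one]
    rintro ⟨d, hd⟩
    induction hd using Subgroup.closure_induction with
    | mem y hy =>
      obtain ⟨b, g, rfl⟩ := hy
      obtain ⟨u, hu⟩ := hcoc g
      have h1 : (⟨g⁻¹ * b • g, hgen b g⟩ : D) = u * (b • u)⁻¹ := by
        rw [eq_mul_inv_iff_mul_eq]
        exact hu b
      rw [h1]
      simp_rw [smul_mul', smul_inv', smul_smul]
      rw [Finset.prod_mul_distrib, Finset.prod_inv_distrib]
      have h2 : ∏ a : A, (a * b) • u = ∏ a : A, a • u :=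
        Fintype.prod_equiv (Equiv.mulRight b) _ _ (fun _ => rfl)
      rw [h2, mul_inv_cancel]
    | one =>
      apply Finset.prod_eq_one
      intro a _
      exact smul_one a
    | mul x y hx hy h1 h2 => exact hmul ⟨x, hx⟩ ⟨y, hy⟩ h1 h2
    | inv x hx h1 => exact hinv ⟨x, hx⟩ h1
  have hcopD' : (Nat.card D).Coprime (Fintype.card A) := hcopD.symm
  have hDC : ∀ x : G, x ∈ D → x ∈ MulAction.fixedPoints A G → x = 1 := by
    intro x hx hxf
    have h1 := hnorm ⟨x, hx⟩
    have h2 : ∀ a : A, a • (⟨x, hx⟩ : D) = ⟨x, hx⟩ := fun a => Subtype.ext (hxf a)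
    simp_rw [h2] at h1
    rw [Finset.prod_const, Finset.card_univ] at h1
    have h3 : (⟨x, hx⟩ : D) = 1 := by
      apply (powCoprime hcopD').injective
      rw [powCoprime_apply, powCoprime_apply, h1, one_pow]
    exact congrArg Subtype.val h3
  have hsup : ∀ g : G, g ∈ D ⊔ Subgroup.closure (MulAction.fixedPoints A G) := by
    intro g
    obtain ⟨u, hu⟩ := hfix g
    have : g = (g * u.1) * (u.1)⁻¹ := by group
    rw [this]
    exact Subgroup.mul_mem _
      (Subgroup.mem_sup_right (Subgroup.subset_closure hu))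
      (Subgroup.mem_sup_left (D.inv_mem u.2))
  set C : Subgroup G := FixedPoints.subgroup A G with hC
  have hCmem : ∀ x, x ∈ C ↔ x ∈ MulAction.fixedPoints A G := fun x => by
    rw [hC, FixedPoints.mem_subgroup]
    rfl
  have hCcard : Nat.card (MulAction.fixedPoints A G : Set G) = Nat.card C := rfl
  have hcompl : Subgroup.IsComplement' D C := by
    apply Subgroup.isComplement'_of_disjoint_and_mul_eq_univ
    · rw [Subgroup.disjoint_def]
      intro x hx hxC
      exact hDC x hx ((hCmem x).mp hxC)
    · ext g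
      simp only [Set.mem_mul, Set.mem_univ, iff_true]
      obtain ⟨u, hu⟩ := hfix g
      refine ⟨g * u.1 * (u.1)⁻¹ * (g * u.1)⁻¹ , ?_, g * u.1, (hCmem _).mpr hu, by group⟩
      have h1 : g * u.1 * (u.1)⁻¹ * (g * u.1)⁻¹ = (g * u.1) * (u.1)⁻¹ * (g * u.1)⁻¹ := rfl
      rw [h1]
      exact hDn.conj_mem _ (D.inv_mem u.2) _
  have hcardG := hcompl.card_mul_card
  have hdiv : Nat.card G / Nat.card C = Nat.card D := by
    rw [← hcardG]
    exact Nat.mul_div_cancel _ Nat.card_pos
  refine ⟨?_, hDcyc, hDn, ?_, ?_⟩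
  · rw [hCcard, hdiv]
    by_contra hne
    obtain ⟨p, hp, hpC, hpD⟩ := Nat.Prime.not_coprime_iff_dvd.mp hne
    haveI : Fact p.Prime := ⟨hp⟩
    obtain ⟨y, hy⟩ := exists_prime_orderOf_dvd_card' p hpC
    obtain ⟨x, hx⟩ := exists_prime_orderOf_dvd_card' p hpD
    have hoy : orderOf (y : G) = p := by rw [Subgroup.orderOf_coe]; exact hy
    have hox : orderOf (x : G) = p := by rw [Subgroup.orderOf_coe]; exact hx
    have hpg : ∀ z : G, orderOf z = p → IsPGroup p (Subgroup.zpowers z) := by
      intro z hz
      apply IsPGroup.of_card (n := 1)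
      rw [Nat.card_zpowers, hz, pow_one]
    obtain ⟨P, hP⟩ := (hpg y.1 hoy).exists_le_sylow
    obtain ⟨Q, hQ⟩ := (hpg x.1 hox).exists_le_sylow
    obtain ⟨g, hg⟩ := MulAction.exists_smul_eq G Q P
    have hxP : g * x.1 * g⁻¹ ∈ (P : Subgroup G) := by
      rw [← hg, Sylow.smul_def, Sylow.pointwise_smul_def]
      exact Subgroup.smul_mem_pointwise_smul _ (MulAut.conj g) _ (hQ (Subgroup.mem_zpowers _))
    have hyP : y.1 ∈ (P : Subgroup G) := hP (Subgroup.mem_zpowers _)
    haveI hPc : IsCyclic (P : Subgroup G) := inferInstance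
    have hxD : g * x.1 * g⁻¹ ∈ D := hDn.conj_mem _ x.2 _
    have hoxc : orderOf (⟨g * x.1 * g⁻¹, hxP⟩ : (P : Subgroup G)) = p := by
      rw [← Subgroup.orderOf_coe]
      change orderOf (g * x.1 * g⁻¹) = p
      rw [← hox]
      have h5 : MulAut.conj g x.1 = g * x.1 * g⁻¹ := MulAut.conj_apply g x.1
      rw [← h5]
      exact orderOf_injective (MulAut.conj g).toMonoidHom (MulAut.conj g).injective x.1 |>.symm ▸ rfl
    have hmem := mem_zpowers_of_orderOf_eq (p := p) hp.pos hoxc
      (y := ⟨y.1, hyP⟩) (by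
        apply Subtype.ext
        change (y.1) ^ p = 1
        rw [← hoy, pow_orderOf_eq_one])
    obtain ⟨k, hk⟩ := Subgroup.mem_zpowers_iff.mp hmem
    have hk' : (g * x.1 * g⁻¹) ^ k = y.1 := congrArg Subtype.val hk
    have hyD : y.1 ∈ D := by
      rw [← hk']
      exact D.zpow_mem hxD k
    have hy1 := hDC y.1 hyD ((hCmem _).mp y.2)
    rw [hy1, orderOf_one] at hoy
    exact hp.one_lt.ne hoy
  · ext x
    simp only [Set.mem_inter_iff, SetLike.mem_coe, Set.mem_singleton_iff]
    constructor
    · rintro ⟨h1, h2⟩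
      exact hDC x h1 h2
    · rintro rfl
      refine ⟨D.one_mem, fun a => smul_one a⟩
  · exact eq_top_iff.mpr (fun g _ => hsup g)

end Cfsg.Agent.S4117
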