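import Mathlib
import Cfsg.Agent.Lib.QBaerC
import Cfsg.Statements.S4125

set_option autoImplicit false
open Cfsg

namespace Cfsg.Agent.S4125

open Cfsg.Agent.Lib.QBaerA Cfsg.Agent.Lib.QBaerB Cfsg.Agent.Lib.QBaerC Cfsg.Agent.Lib.PCore
  Cfsg.Agent.Lib.CoprimeClass in

/-- Let G be a finite group and q a prime dividing its order such that every element of q-power order has a conjugacy class of prime-power size. Then G is q-solvable of q-length 1: there are normal subgroups K ≤ L of G with K of order prime to q, L/K a q-group and L of index prime to q. Moreover there is a prime p such that every element of q-power order has a class of p-power size (one prime serving for all of them), and for a Sylow q-subgroup Q: if p = q then Q is normal with a normal complement (a direct factor), while if p ≠ q then Q is abelian, the product of Q with the largest normal p-subgroup O_p(G) is normal in G, and G/O_{q'}(G) is solvable, where O_{q'}(G) is the largest normal subgroup of order prime to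 q. -/
theorem result {G : Type*} [Group G] [Finite G] (q : ℕ) [Fact q.Prime] (hq : q ∣ Nat.card G)
    (hBaer : ∀ x : G, (∃ k : ℕ, orderOf x = q ^ k) → ∃ (r : ℕ) (a : ℕ), r.Prime ∧ (Subgroup.centralizer ({x} : Set G)).index = r ^ a) (Q : Sylow q G) :
    (∃ K L : Subgroup G, K.Normal ∧ L.Normal ∧ K ≤ L ∧ (Nat.card K).Coprime q ∧ (∃ m : ℕ, K.relIndex L = q ^ m) ∧ L.index.Coprime q) ∧
    ∃ p : ℕ, p.Prime ∧ (∀ x : G, (∃ k : ℕ, orderOf x = q ^ k) → ∃ a : ℕ, (Subgroup.centralizer ({x} : Set G)).index = p ^ a) ∧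
      (p = q → (Q : Subgroup G).Normal ∧ ∃ N : Subgroup G, N.Normal ∧ N.IsComplement' (Q : Subgroup G)) ∧
      (p ≠ q → IsMulCommutative (Q : Subgroup G) ∧ (Cfsg.pCore p G ⊔ (Q : Subgroup G)).Normal ∧
        ∀ _h : (Cfsg.pPrimeCore q G).Normal, Group.IsSolvable (G ⧸ Cfsg.pPrimeCore q G)) := by
  classical
  have hqp : q.Prime := Fact.out
  have hBaer' : ∀ x : G, (∃ k, orderOf x = q ^ k) → ∃ r a, r.Prime ∧ cs x = r ^ a := by
    intro x hx
    obtain ⟨r, a, hr, h⟩ := hBaer x hx
    exact ⟨r, a, hr, h⟩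
  by_cases hB : ∃ (x₀ : G) (r a : ℕ), (∃ k, orderOf x₀ = q ^ k) ∧ r.Prime ∧ r ≠ q ∧ 1 ≤ a ∧
      cs x₀ = r ^ a
  · -- Branch B
    obtain ⟨x₀, r, a, hx₀, hr, hrq, ha, hc₀⟩ := hB
    haveI : Fact r.Prime := ⟨hr⟩
    have hall : ∀ x : G, (∃ k, orderOf x = q ^ k) → ∃ a, cs x = r ^ a := by
      intro x hx
      obtain ⟨t, e, ht, hte⟩ := hBaer' x hx
      by_cases he : e = 0
      · subst he
        exact ⟨0, by simpa using hte⟩
      by_cases htq : t = q
      · subst htq
        exact (no_mixed hBaer' hx hx₀ hr hrq (by omega) ha hte hc₀).elim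
      have htr : t = r := no_two_primes hBaer' hx hx₀ ht hr (by omega) ha htq hrq hte hc₀
      subst htr
      exact ⟨e, hte⟩
    have hsn := sup_normal hall Q
    have hDR : Cfsg.pCore r G ≤ Cfsg.pPrimeCore q G := pCore_le_pPrimeCore hrq
    have hRn : (Cfsg.pPrimeCore q G).Normal := Subgroup.normal_of_characteristic _
    have hLn : (Cfsg.pPrimeCore q G ⊔ (Q : Subgroup G)).Normal := by
      have h1 : Cfsg.pPrimeCore q G ⊔ (Q : Subgroup G) =
          Cfsg.pPrimeCore q G ⊔ (Cfsg.pCore r G ⊔ (Q : Subgroup G)) := by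
        rw [← sup_assoc, sup_eq_left.mpr hDR]
      rw [h1]
      infer_instance
    refine ⟨⟨_, _, hRn, hLn, le_sup_left, card_pPrimeCore_coprime q, ?_, ?_⟩, r, hr, hall,
      fun h => absurd h hrq, fun _ => ⟨?_, hsn, fun _ => quot_solvable hrq hall Q⟩⟩
    · have h1 : (Cfsg.pPrimeCore q G).relIndex (Cfsg.pPrimeCore q G ⊔ (Q : Subgroup G)) =
          (Cfsg.pPrimeCore q G).relIndex (Q : Subgroup G) := by
        rw [sup_comm]
        exact Subgroup.relIndex_sup_right _ _
      rw [h1]
      have h2 : (Cfsg.pPrimeCore q G).relIndex (Q : Subgroup G) ∣ Nat.card (Q : Subgroup G) :=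
        Subgroup.relIndex_dvd_card _ _
      obtain ⟨n, hn⟩ := IsPGroup.iff_card.mp Q.2
      rw [hn] at h2
      obtain ⟨m, -, hm⟩ := (Nat.dvd_prime_pow hqp).mp h2
      exact ⟨m, hm⟩
    · have h1 : (Cfsg.pPrimeCore q G ⊔ (Q : Subgroup G)).index ∣ (Q : Subgroup G).index :=
        Subgroup.index_dvd_of_le le_sup_right
      have h2 : ¬ q ∣ (Cfsg.pPrimeCore q G ⊔ (Q : Subgroup G)).index := fun h =>
        Q.not_dvd_index (h.trans h1)
      exact ((Nat.Prime.coprime_iff_not_dvd hqp).mpr h2).symm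
    · refine ⟨⟨fun a b => Subtype.ext (sylow_comm hrq hall Q a.1 a.2 b.1 b.2)⟩⟩
  · -- Branch A
    have hA : ∀ x : G, (∃ k, orderOf x = q ^ k) → ∃ a, cs x = q ^ a := by
      intro x hx
      obtain ⟨t, e, ht, hte⟩ := hBaer' x hx
      by_cases he : e = 0
      · subst he
        exact ⟨0, by simpa using hte⟩
      by_cases htq : t = q
      · subst htq
        exact ⟨e, hte⟩
      exact (hB ⟨x, t, e, hx, ht, htq, by omega, hte⟩).elim
    obtain ⟨hall, N, hNn, hNc, hNcard⟩ := branch_A hA
    have hQO : (Q : Subgroup G) = Cfsg.pCore q G := by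
      apply le_antisymm
      · intro z hz
        exact hall z (qelt_of_sylow Q hz)
      · exact pCore_le_sylow q Q
    have hQn : (Q : Subgroup G).Normal := by
      rw [hQO]
      infer_instance
    refine ⟨⟨N, ⊤, hNn, inferInstance, le_top, hNcard, ?_, ?_⟩, q, hqp, hA,
      fun _ => ⟨hQn, N, hNn, by rw [hQO]; exact hNc⟩, fun h => absurd rfl h⟩
    · rw [Subgroup.relIndex_top_right, hNc.symm.index_eq_card]
      obtain ⟨m, hm⟩ := IsPGroup.iff_card.mp (isPGroup_pCore (G := G) q)
      exact ⟨m, hm⟩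
    · rw [Subgroup.index_top]
      exact Nat.coprime_one_left q

end Cfsg.Agent.S4125
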