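import Mathlib
import Cfsg.Statements.S4126
import Cfsg.Agent.Lib.Ito
import Cfsg.Agent.Lib.ChermakDelgado
import Cfsg.Agent.Lib.PuigBasic
import Cfsg.Agent.Lib.ClassTwo
import Cfsg.Agent.Lib.Frat
import Cfsg.Agent.S3736

set_option autoImplicit false
open Cfsg

namespace Cfsg.Agent.S4126

open Subgroup
open scoped commutatorElement Pointwise

universe u

/-- A subgroup of `p`-power index and a Sylow subgroup factor the group. -/
private theorem sylow_mul {G : Type u} [Group G] [Finite G] {p : ℕ} [hp : Fact p.Prime]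
    (P : Sylow p G) (C : Subgroup G) {a : ℕ} (ha : C.index = p ^ a) (g : G) :
    ∃ u ∈ (P : Subgroup G), ∃ c ∈ C, g = u * c := by
  classical
  have h1 : (P ⊓ C : Subgroup G).relIndex (P : Subgroup G) * (P : Subgroup G).index
      = (P ⊓ C : Subgroup G).relIndex C * C.index := by
    rw [relIndex_mul_index inf_le_left, relIndex_mul_index inf_le_right]
  have hco : Nat.Coprime (p ^ a) (P : Subgroup G).index :=
    Nat.Coprime.pow_left a ((Nat.Prime.coprime_iff_not_dvd hp.out).2 P.not_dvd_index)
  have hd : p ^ a ∣ (P ⊓ C : Subgroup G).relIndex (P : Subgroup G) := by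
    apply hco.dvd_of_dvd_mul_right
    rw [h1, ha]
    exact dvd_mul_left _ _
  have hpos : 0 < (P ⊓ C : Subgroup G).relIndex (P : Subgroup G) :=
    Nat.pos_of_ne_zero Subgroup.FiniteIndex.index_ne_zero
  have hle : p ^ a ≤ (P ⊓ C : Subgroup G).relIndex (P : Subgroup G) := Nat.le_of_dvd hpos hd
  have hrd : Nat.card ↥(P ⊓ C : Subgroup G) * (P ⊓ C : Subgroup G).relIndex (P : Subgroup G)
      = Nat.card (P : Subgroup G) := by
    have := card_mul_index ((P ⊓ C : Subgroup G).subgroupOf (P : Subgroup G))
    rw [Nat.card_congr (subgroupOfEquivOfLe (inf_le_left : (P ⊓ C : Subgroup G) ≤ P)).toEquiv] at this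
    exact this
  have hm := Cfsg.Agent.Lib.ChermakDelgado.card_mul_set (P : Subgroup G) C
  have hG : Nat.card G = Nat.card C * p ^ a := by rw [← card_mul_index C, ha]
  have hdpos : 0 < Nat.card ↥(P ⊓ C : Subgroup G) := Nat.card_pos
  have hge : Nat.card G ≤ Nat.card (((P : Subgroup G) : Set G) * (C : Set G) : Set G) := by
    apply Nat.le_of_mul_le_mul_right _ hdpos
    rw [hm, ← hrd, hG]
    calc Nat.card C * p ^ a * Nat.card ↥(P ⊓ C : Subgroup G)
        = Nat.card ↥(P ⊓ C : Subgroup G) * p ^ a * Nat.card C := by ring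
      _ ≤ Nat.card ↥(P ⊓ C : Subgroup G) * (P ⊓ C : Subgroup G).relIndex (P : Subgroup G)
          * Nat.card C := by gcongr
  have huniv : (((P : Subgroup G) : Set G) * (C : Set G) : Set G) = Set.univ := by
    apply Set.eq_of_subset_of_ncard_le (Set.subset_univ _)
    rw [← Nat.card_coe_set_eq, ← Nat.card_coe_set_eq, Nat.card_congr (Equiv.Set.univ G)]
    exact hge
  have hg : g ∈ (((P : Subgroup G) : Set G) * (C : Set G) : Set G) := by rw [huniv]; trivial
  obtain ⟨u, hu, c, hc, rfl⟩ := hg
  exact ⟨u, hu, c, hc, rfl⟩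

/-- An element of `p`-power class size lying in a Sylow subgroup has all its conjugates there. -/
private theorem conj_mem_sylow {G : Type u} [Group G] [Finite G] {p : ℕ} [Fact p.Prime]
    (P : Sylow p G) {x : G} (hx : x ∈ (P : Subgroup G)) {a : ℕ}
    (ha : (centralizer ({x} : Set G)).index = p ^ a) (g : G) :
    g * x * g⁻¹ ∈ (P : Subgroup G) := by
  obtain ⟨u, hu, c, hc, rfl⟩ := sylow_mul P _ ha g
  have hcx : c * x = x * c := (mem_centralizer_iff.1 hc x rfl).symm
  have : u * c * x * (u * c)⁻¹ = u * x * u⁻¹ := by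
    calc u * c * x * (u * c)⁻¹ = u * (c * x) * c⁻¹ * u⁻¹ := by group
      _ = u * x * u⁻¹ := by rw [hcx]; group
  rw [this]
  exact mul_mem (mul_mem hu hx) (inv_mem hu)

/-- A normal `p`-subgroup all of whose elements have `p`-power class sizes is centralized by all
`p'`-elements. -/
private theorem cen_of_all : ∀ (n : ℕ) (G : Type u) [Group G] [Finite G], Nat.card G = n →
    ∀ {p : ℕ} [hp : Fact p.Prime] (T : Subgroup G) [T.Normal], IsPGroup p T →
    (∀ x ∈ T, ∃ a : ℕ, (centralizer ({x} : Set G)).index = p ^ a) →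
    ∀ y : G, Nat.Coprime (orderOf y) p → ∀ x ∈ T, y * x = x * y := by
  intro n
  induction n using Nat.strong_induction_on with
  | _ n ih =>
    intro G _ _ hn p hp T hTn hT h y hy x hx
    classical
    by_cases hbot : T = ⊥
    · subst hbot
      rw [mem_bot] at hx
      simp [hx]
    obtain ⟨P⟩ : Nonempty (Sylow p G) := inferInstance
    have hTP : T ≤ (P : Subgroup G) := hT.le_sylow_of_normal P
    -- a nontrivial central element
    have hne : T.subgroupOf (P : Subgroup G) ≠ ⊥ := by
      intro h
      apply hbot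
      rw [Subgroup.subgroupOf_eq_bot] at h
      exact (disjoint_of_le_iff_left_eq_bot hTP).1 h
    obtain ⟨z, hzT, hz1, hzc⟩ := Cfsg.Agent.Lib.PuigBasic.exists_mem_center_of_normal P.isPGroup'
      (T.subgroupOf (P : Subgroup G)) hne
    have hzT' : (z : G) ∈ T := Subgroup.mem_subgroupOf.1 hzT
    have hz1' : (z : G) ≠ 1 := fun h => hz1 (Subtype.ext h)
    obtain ⟨a, ha⟩ := h z hzT'
    have hPC : (P : Subgroup G) ≤ centralizer ({(z : G)} : Set G) := by
      intro u hu
      rw [mem_centralizer_iff]
      intro w hw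
      rw [Set.mem_singleton_iff] at hw
      rw [hw]
      have := (mem_center_iff.1 hzc) ⟨u, hu⟩
      exact (congrArg Subtype.val this).symm
    have hidx : (centralizer ({(z : G)} : Set G)).index = 1 := by
      rcases Nat.eq_zero_or_pos a with h0 | h0
      · rw [ha, h0, pow_zero]
      · exfalso
        apply P.not_dvd_index
        calc p ∣ p ^ a := dvd_pow_self p h0.ne'
          _ = _ := ha.symm
          _ ∣ _ := Subgroup.index_dvd_of_le hPC
    have hcen : (z : G) ∈ center G := by
      rw [Subgroup.index_eq_one] at hidx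
      rw [mem_center_iff]
      intro w
      have : w ∈ centralizer ({(z : G)} : Set G) := by rw [hidx]; trivial
      exact (mem_centralizer_iff.1 this z rfl).symm
    -- pass to the quotient
    have hAn : (zpowers (z : G)).Normal := by
      constructor
      intro w hw g
      have hwc : w ∈ center G := (zpowers_le (H := center G)).2 hcen hw
      have : g * w * g⁻¹ = w := by
        rw [(mem_center_iff.1 hwc g)]
        group
      rw [this]; exact hw
    set A : Subgroup G := zpowers (z : G) with hA
    let π : G →* G ⧸ A := QuotientGroup.mk' A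
    have hπ : Function.Surjective π := QuotientGroup.mk'_surjective A
    have hTb : (T.map π).Normal := Subgroup.Normal.map inferInstance π hπ
    have hTbp : IsPGroup p (T.map π) := hT.map π
    have hcardlt : Nat.card (G ⧸ A) < n := by
      have h1 : 1 < Nat.card A := by
        rw [Nat.card_zpowers]
        have : orderOf (z : G) ≠ 1 := fun h => hz1' (orderOf_eq_one_iff.1 h)
        have h0 : 0 < orderOf (z : G) := orderOf_pos _
        omega
      have h2 := card_mul_index A
      rw [hn] at h2
      have h3 : Nat.card (G ⧸ A) = A.index := rfl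
      rw [h3]
      have h4 : 0 < A.index := Nat.pos_of_ne_zero Subgroup.FiniteIndex.index_ne_zero
      nlinarith
    have hyb : Nat.Coprime (orderOf (π y)) p :=
      Nat.Coprime.coprime_dvd_left (orderOf_map_dvd π y) hy
    have hb : ∀ x' ∈ T.map π, ∃ a : ℕ, (centralizer ({x'} : Set (G ⧸ A))).index = p ^ a := by
      rintro _ ⟨w, hw, rfl⟩
      obtain ⟨b, hb⟩ := h w hw
      have hle : (centralizer ({w} : Set G)).map π ≤ centralizer ({π w} : Set (G ⧸ A)) := by
        rintro _ ⟨v, hv, rfl⟩
        rw [SetLike.mem_coe, mem_centralizer_iff] at hv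
        rw [mem_centralizer_iff]
        intro t ht
        rw [Set.mem_singleton_iff] at ht
        rw [ht, ← map_mul, ← map_mul, hv w rfl]
      have hd : (centralizer ({π w} : Set (G ⧸ A))).index ∣ p ^ b := by
        calc _ ∣ ((centralizer ({w} : Set G)).map π).index := Subgroup.index_dvd_of_le hle
          _ ∣ (centralizer ({w} : Set G)).index := Subgroup.index_map_dvd _ hπ
          _ = p ^ b := hb
      obtain ⟨c, -, hc⟩ := (Nat.dvd_prime_pow hp.out).1 hd
      exact ⟨c, hc⟩
    have key := ih _ hcardlt (G ⧸ A) rfl (T.map π) hTbp hb (π y) hyb (π x) (mem_map_of_mem π hx)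
    -- lift back
    set c := x⁻¹ * (y * x * y⁻¹) with hc
    have hcA : c ∈ A := by
      rw [← QuotientGroup.ker_mk' A, MonoidHom.mem_ker]
      change π c = 1
      rw [hc, map_mul, map_mul, map_mul, map_inv, map_inv]
      rw [key]
      group
    have hcT : c ∈ T := (zpowers_le (H := T)).2 hzT' hcA
    have hcc : c ∈ center G := (zpowers_le (H := center G)).2 hcen hcA
    have hcop : (orderOf y).Coprime (orderOf c) := by
      obtain ⟨k, hk⟩ := (IsPGroup.iff_orderOf.mp hT) ⟨c, hcT⟩
      rw [Subgroup.orderOf_mk] at hk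
      rw [hk]
      exact Nat.Coprime.pow_right k hy
    have hc1 := Cfsg.Agent.Lib.OddLocalA.eq_one_of_conj_eq_mul y x c (by rw [hc]; group)
      (mem_center_iff.1 hcc y) hcop
    have h2 : y * x * y⁻¹ = x := by
      have h3 : x⁻¹ * (y * x * y⁻¹) = x⁻¹ * x := by rw [← hc, hc1]; group
      exact mul_left_cancel h3
    calc y * x = y * x * y⁻¹ * y := by group
      _ = x * y := by rw [h2]

/-- The main step: every normal `p`-subgroup is centralized by all `p'`-elements. -/
private theorem cen_normal {G : Type u} [Group G] [Finite G] {p : ℕ} [hp : Fact p.Prime]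
    (h : ∀ x : G, (orderOf x = p ∨ (p = 2 ∧ orderOf x = 4)) →
      ∃ a : ℕ, (Subgroup.centralizer ({x} : Set G)).index = p ^ a)
    (T : Subgroup G) : T.Normal → IsPGroup p T →
    ∀ y : G, Nat.Coprime (orderOf y) p → ∀ x ∈ T, y * x = x * y := by
  classical
  induction T using WellFoundedLT.induction with
  | _ T ih =>
    intro hTn hT
    -- the subgroup generated by the `p'`-elements
    let S : Set G := {y | Nat.Coprime (orderOf y) p}
    let L : Subgroup G := normalClosure S
    have hLn : L.Normal := normalClosure_normal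
    have hSL : ∀ y, Nat.Coprime (orderOf y) p → y ∈ L := fun y hy => subset_normalClosure hy
    have hcentral : ∀ U : Subgroup G, U.Normal →
        (∀ y : G, Nat.Coprime (orderOf y) p → ∀ x ∈ U, y * x = x * y) → ⁅U, L⁆ = ⊥ := by
      intro U hU hcU
      rw [Subgroup.commutator_comm, Subgroup.commutator_eq_bot_iff_le_centralizer]
      apply normalClosure_le_normal
      intro y hy
      rw [SetLike.mem_coe, mem_centralizer_iff]
      intro x hx
      exact (hcU y hy x hx).symm
    -- step 1
    have hT₁ : ⁅T, L⁆ ≤ T := Subgroup.commutator_le_left T L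
    have hpp : ∀ c ∈ T, ∀ y : G, Nat.Coprime (orderOf y) p → Nat.Coprime (orderOf y) (orderOf c) := by
      intro c hc y hy
      obtain ⟨k, hk⟩ := (IsPGroup.iff_orderOf.mp hT) ⟨c, hc⟩
      rw [Subgroup.orderOf_mk] at hk
      rw [hk]
      exact Nat.Coprime.pow_right k hy
    -- centralizing a subgroup containing all the commutators
    have hlift : ∀ y : G, Nat.Coprime (orderOf y) p → ∀ x ∈ T,
        y * (x⁻¹ * (y * x * y⁻¹)) = (x⁻¹ * (y * x * y⁻¹)) * y → y * x = x * y := by
      intro y hy x hx hc
      have hcT : x⁻¹ * (y * x * y⁻¹) ∈ T := mul_mem (inv_mem hx) (hTn.conj_mem x hx y)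
      have hc1 := Cfsg.Agent.Lib.OddLocalA.eq_one_of_conj_eq_mul y x (x⁻¹ * (y * x * y⁻¹))
        (by group) hc (hpp _ hcT y hy)
      have h2 : y * x * y⁻¹ = x := by
        have h3 : x⁻¹ * (y * x * y⁻¹) = x⁻¹ * x := by rw [hc1]; group
        exact mul_left_cancel h3
      calc y * x = y * x * y⁻¹ * y := by group
        _ = x * y := by rw [h2]
    by_cases hT1 : ⁅T, L⁆ = T
    swap
    · have hlt : ⁅T, L⁆ < T := lt_of_le_of_ne hT₁ hT1
      have hih := ih _ hlt (Subgroup.commutator_normal T L) (hT.to_le hT₁)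
      intro y hy x hx
      apply hlift y hy x hx
      apply hih y hy
      have : x⁻¹ * (y * x * y⁻¹) = ⁅x⁻¹, y⁆ := by
        rw [commutatorElement_def]; group
      rw [this]
      exact commutator_mem_commutator (inv_mem hx) (hSL y hy)
    by_cases hbot : T = ⊥
    · subst hbot
      intro y _ x hx
      rw [mem_bot] at hx
      simp [hx]
    have hnt : Nontrivial T := by
      by_contra hcon
      rw [not_nontrivial_iff_subsingleton] at hcon
      apply hbot
      rw [eq_bot_iff]
      intro x hx
      have : x = 1 := congrArg Subtype.val (Subsingleton.elim (⟨x, hx⟩ : T) 1)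
      rw [mem_bot]; exact this
    set D : Subgroup G := (frattini T).map T.subtype with hD
    have hDle : D ≤ T := map_subtype_le _
    have hDlt : D < T := by
      refine lt_of_le_of_ne hDle fun hh => ?_
      obtain ⟨M, hM⟩ : ∃ M : Subgroup T, IsCoatom M := by
        rcases eq_top_or_exists_le_coatom (⊥ : Subgroup T) with h' | ⟨M, hM, -⟩
        · exact absurd h' bot_ne_top
        · exact ⟨M, hM⟩
      have hfr : frattini T ≤ M := by
        intro z hz
        simp only [frattini, Order.radical, Subgroup.mem_iInf] at hz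
        exact hz M hM
      have htop : frattini T = ⊤ := by
        rw [eq_top_iff]
        rintro ⟨z, hz⟩ -
        rw [← hh] at hz
        obtain ⟨w, hw, rfl⟩ := hz
        simpa using hw
      exact hM.1 (top_le_iff.1 (htop ▸ hfr))
    have hDn : D.Normal := by
      rw [← Subgroup.normalizer_eq_top_iff]
      rw [eq_top_iff]
      intro g _
      have hg : g ∈ normalizer (T : Set G) := by
        rw [Subgroup.normalizer_eq_top_iff.2 hTn]; trivial
      exact Cfsg.Agent.S3736.mem_normalizer_map_of_characteristic T (frattini T) hg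
    have hih := ih D hDlt hDn (hT.to_le hDle)
    have hDL : ⁅D, L⁆ = ⊥ := hcentral D hDn hih
    have hTD : ⁅T, D⁆ = ⊥ := by
      have h1 : ⁅⁅L, D⁆, T⁆ = ⊥ := by
        rw [Subgroup.commutator_comm L D, hDL, Subgroup.commutator_bot_left]
      have h2 : ⁅⁅D, T⁆, L⁆ = ⊥ := by
        rw [eq_bot_iff, ← hDL]
        exact Subgroup.commutator_mono (Subgroup.commutator_le_left D T) le_rfl
      have h3 := Subgroup.commutator_commutator_eq_bot_of_rotate h1 h2
      rwa [hT1] at h3
    have hcen : ∀ f ∈ D, ∀ a ∈ T, a * f = f * a := by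
      intro f hf a ha
      have := (Subgroup.commutator_eq_bot_iff_le_centralizer.1 hTD) ha
      exact (mem_centralizer_iff.1 this f hf).symm
    have hTfin : Finite T := inferInstance
    have hcomm : ∀ a ∈ T, ∀ b ∈ T, b * a * b⁻¹ * a⁻¹ ∈ D := by
      intro a ha b hb
      have h1 : ⁅(⟨b, hb⟩ : T), (⟨a, ha⟩ : T)⁆ ∈ frattini T :=
        Cfsg.Agent.Lib.Frat.commutator_le_frattini hT
          (commutator_mem_commutator (mem_top _) (mem_top _))
      have h2 : T.subtype ⁅(⟨b, hb⟩ : T), (⟨a, ha⟩ : T)⁆ ∈ D := mem_map_of_mem T.subtype h1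
      have e : T.subtype ⁅(⟨b, hb⟩ : T), (⟨a, ha⟩ : T)⁆ = b * a * b⁻¹ * a⁻¹ := by
        simp [commutatorElement_def]
      rwa [e] at h2
    have hpow : ∀ a ∈ T, a ^ p ∈ D := by
      intro a ha
      have h1 := Cfsg.Agent.Lib.Frat.pow_mem_frattini hT (⟨a, ha⟩ : T)
      have h2 : T.subtype ((⟨a, ha⟩ : T) ^ p) ∈ D := mem_map_of_mem T.subtype h1
      have e : T.subtype ((⟨a, ha⟩ : T) ^ p) = a ^ p := by simp
      rwa [e] at h2
    obtain ⟨e, he1, he3, he4⟩ : ∃ e : ℕ, (p ∣ e.choose 2) ∧ (∀ a ∈ T, a ^ e ∈ D) ∧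
        (∀ x : G, x ^ e = 1 → x ≠ 1 → (orderOf x = p ∨ (p = 2 ∧ orderOf x = 4))) := by
      by_cases hp2 : p = 2
      · subst hp2
        refine ⟨4, by decide, ?_, ?_⟩
        · intro a ha
          have : a ^ 4 = (a ^ 2) ^ 2 := by rw [← pow_mul]
          rw [this]
          exact pow_mem (hpow a ha) 2
        · intro x hx hx1
          have ho : orderOf x ∣ 2 ^ 2 := orderOf_dvd_of_pow_eq_one hx
          obtain ⟨k, hk, hku⟩ := (Nat.dvd_prime_pow Nat.prime_two).1 ho
          interval_cases k
          · exfalso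
            apply hx1
            exact orderOf_eq_one_iff.1 (by simpa using hku)
          · left; simpa using hku
          · right; exact ⟨rfl, by simpa using hku⟩
      · refine ⟨p, Cfsg.Agent.Lib.ClassTwo.prime_dvd_choose_two hp.out hp2, hpow, ?_⟩
        intro x hx hx1
        left
        exact orderOf_eq_prime hx hx1
    have hmulpow : ∀ a ∈ T, ∀ b ∈ T, (a * b) ^ e = a ^ e * b ^ e := by
      intro a ha b hb
      refine Cfsg.Agent.Lib.Ito.mul_pow_class_two hcomm hpow hcen hDle ?_ ha hb
      intro w _ hw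
      obtain ⟨k, hk⟩ := he1
      rw [hk, pow_mul, hw, one_pow]
    let Ω : Subgroup G :=
      { carrier := {x | x ∈ T ∧ x ^ e = 1}
        mul_mem' := by
          rintro a b ⟨ha, ha'⟩ ⟨hb, hb'⟩
          refine ⟨mul_mem ha hb, ?_⟩
          rw [hmulpow a ha b hb, ha', hb', one_mul]
        one_mem' := ⟨one_mem _, one_pow _⟩
        inv_mem' := by
          rintro a ⟨ha, ha'⟩
          exact ⟨inv_mem ha, by rw [inv_pow, ha', inv_one]⟩ }
    have hΩT : Ω ≤ T := fun x hx => hx.1
    have hΩn : Ω.Normal := by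
      constructor
      rintro x ⟨hx, hx'⟩ g
      refine ⟨hTn.conj_mem x hx g, ?_⟩
      rw [conj_pow, hx']
      group
    by_cases hΩ : Ω = T
    · have hall : ∀ x ∈ T, ∃ a : ℕ, (centralizer ({x} : Set G)).index = p ^ a := by
        intro x hx
        have hx' : x ^ e = 1 := by
          rw [← hΩ] at hx
          exact hx.2
        by_cases hx1 : x = 1
        · refine ⟨0, ?_⟩
          rw [hx1, pow_zero, Subgroup.index_eq_one, eq_top_iff]
          intro g _
          rw [mem_centralizer_iff]
          intro t ht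
          rw [Set.mem_singleton_iff] at ht
          rw [ht]; simp
        · exact h x (he4 x hx' hx1)
      intro y hy x hx
      exact cen_of_all _ G rfl T hT hall y hy x hx
    · have hlt : Ω < T := lt_of_le_of_ne hΩT hΩ
      have hih2 := ih Ω hlt hΩn (hT.to_le hΩT)
      intro y hy x hx
      apply hlift y hy x hx
      apply hih2 y hy
      refine ⟨mul_mem (inv_mem hx) (hTn.conj_mem x hx y), ?_⟩
      rw [hmulpow _ (inv_mem hx) _ (hTn.conj_mem x hx y), conj_pow]
      have h1 : y * x ^ e = x ^ e * y := hih y hy _ (he3 x hx)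
      have h2 : y * x ^ e * y⁻¹ = x ^ e := by rw [h1]; group
      rw [h2, inv_pow]
      group

/-- Let G be a finite group and p a prime. Suppose every element of order p, and when p = 2 also every element of order 4, has a conjugacy class of p-power size. Then G has a normal p-complement. -/
theorem result {G : Type*} [Group G] [Finite G] (p : ℕ) [Fact p.Prime]
    (h : ∀ x : G, (orderOf x = p ∨ (p = 2 ∧ orderOf x = 4)) → ∃ a : ℕ, (Subgroup.centralizer ({x} : Set G)).index = p ^ a) :
    Cfsg.HasNormalPComplement p G := by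
  classical
  by_contra hN
  obtain ⟨P⟩ : Nonempty (Sylow p G) := inferInstance
  rw [Cfsg.Agent.Lib.TransferEval.hasNormalPComplement_iff P,
    Cfsg.Agent.Lib.PComplement.frobenius_criterion P] at hN
  push Not at hN
  obtain ⟨Q₀, hQ₀, y, hg, hco, hgc⟩ := hN
  have hyn : ∀ x ∈ Q₀, y * x * y⁻¹ ∈ Q₀ := fun x hx => (Subgroup.mem_normalizer_iff.mp hg x).mp hx
  have hne : ∃ x ∈ Q₀, y * x ≠ x * y := by
    by_contra hc
    push Not at hc
    apply hgc
    rw [Subgroup.mem_centralizer_iff]
    intro x hx
    exact (hc x hx).symm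
  obtain ⟨Q, hQ, -, ⟨x, hx, hx2⟩, hsmall, -⟩ :=
    Cfsg.Agent.Lib.Ito.exists_small_pair Q₀ (P.2.to_le hQ₀) y hyn hco hne
  have hxP : x ∈ (P : Subgroup G) := hQ₀ (hQ hx)
  have hx1 : x ≠ 1 := by
    rintro rfl
    simp at hx2
  have hord : orderOf x = p ∨ (p = 2 ∧ orderOf x = 4) := by
    rcases hsmall x hx with h1 | ⟨h2, h1⟩
    · left
      exact orderOf_eq_prime h1 hx1
    · subst h2
      have ho : orderOf x ∣ 2 ^ 2 := orderOf_dvd_of_pow_eq_one h1
      obtain ⟨k, hk, hku⟩ := (Nat.dvd_prime_pow Nat.prime_two).1 ho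
      interval_cases k
      · exfalso
        apply hx1
        exact orderOf_eq_one_iff.1 (by simpa using hku)
      · left; simpa using hku
      · right; exact ⟨rfl, by simpa using hku⟩
  obtain ⟨a, ha⟩ := h x hord
  have hT : normalClosure ({x} : Set G) ≤ (P : Subgroup G) := by
    rw [normalClosure, closure_le]
    intro w hw
    obtain ⟨b, hb, hc⟩ := Group.mem_conjugatesOfSet_iff.1 hw
    rw [Set.mem_singleton_iff] at hb
    subst hb
    obtain ⟨g, rfl⟩ := isConj_iff.1 hc
    exact conj_mem_sylow P hxP ha g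
  have hTn : (normalClosure ({x} : Set G)).Normal := normalClosure_normal
  exact hx2 (cen_normal h _ hTn (P.2.to_le hT) y hco x (subset_normalClosure rfl))

end Cfsg.Agent.S4126
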