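import Mathlib
import Cfsg.Statements.S4127
import Cfsg.Agent.Lib.CoprimeParts
import Cfsg.Agent.Lib.MinNormalPrim

set_option autoImplicit false
open Cfsg

namespace Cfsg.Agent.S4127

open Subgroup

section Parts

variable {H : Type*} [Group H] [Finite H] {p : ℕ} [hp : Fact p.Prime]

lemma exists_parts (g : H) : ∃ u y : H, u * y = g ∧ Commute u y ∧ (∃ k, orderOf u = p ^ k) ∧
    (orderOf y).Coprime p := by
  have hn : orderOf g ≠ 0 := (orderOf_pos g).ne'
  obtain ⟨k, m, hm, hnm⟩ := Nat.exists_eq_pow_mul_and_not_dvd hn p hp.out.ne_one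
  have hcop : Nat.Coprime (p ^ k) m := Nat.Coprime.pow_left _ ((Nat.Prime.coprime_iff_not_dvd hp.out).mpr hm)
  have hm0 : m ≠ 0 := by
    rintro rfl
    rw [mul_zero] at hnm
    exact hn hnm
  have hpk : p ^ k ≠ 0 := pow_ne_zero _ hp.out.ne_zero
  obtain ⟨s, hs1, hs2⟩ := Cfsg.Agent.Lib.CoprimeParts.exists_exponent hcop hm0
  obtain ⟨t, ht1, ht2⟩ := Cfsg.Agent.Lib.CoprimeParts.exists_exponent hcop.symm hpk
  refine ⟨g ^ t, g ^ s, ?_, (Commute.refl g).pow_pow t s, ?_, ?_⟩
  · rw [← pow_add]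
    have h1 : g ^ (t + s) = g ^ 1 := by
      rw [pow_eq_pow_iff_modEq, hnm]
      refine (Nat.modEq_and_modEq_iff_modEq_mul hcop).mp ⟨?_, ?_⟩
      · have h2 : s ≡ 0 [MOD p ^ k] := (Nat.modEq_zero_iff_dvd).mpr hs1
        have h3 : t ≡ 1 [MOD p ^ k] := ht2
        simpa using h3.add h2
      · have h2 : t ≡ 0 [MOD m] := (Nat.modEq_zero_iff_dvd).mpr ht1
        have h3 : s ≡ 1 [MOD m] := hs2
        simpa using h2.add h3
    rwa [pow_one] at h1
  · have h1 : (g ^ t) ^ (p ^ k) = 1 := by
      obtain ⟨c, rfl⟩ := ht1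
      rw [← pow_mul]
      have : m * c * p ^ k = orderOf g * c := by rw [hnm]; ring
      rw [this, pow_mul, pow_orderOf_eq_one, one_pow]
    obtain ⟨j, -, hj⟩ := (Nat.dvd_prime_pow hp.out).mp (orderOf_dvd_of_pow_eq_one h1)
    exact ⟨j, hj⟩
  · have h1 : (g ^ s) ^ m = 1 := by
      obtain ⟨c, rfl⟩ := hs1
      rw [← pow_mul]
      have : p ^ k * c * m = orderOf g * c := by rw [hnm]; ring
      rw [this, pow_mul, pow_orderOf_eq_one, one_pow]
    have h2 := orderOf_dvd_of_pow_eq_one h1
    rw [Nat.coprime_comm, Nat.Prime.coprime_iff_not_dvd hp.out]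
    exact fun h3 => hm (h3.trans h2)

lemma exists_sylow_le_of_index (K0 : Subgroup H) (hK : ¬ p ∣ K0.index) {u : H} (hu : u ∈ K0)
    (huo : ∃ k, orderOf u = p ^ k) : ∃ S : Sylow p H, (S : Subgroup H) ≤ K0 ∧ u ∈ S := by
  obtain ⟨k, hk⟩ := huo
  let u' : K0 := ⟨u, hu⟩
  have hQ : IsPGroup p (Subgroup.zpowers u') := by
    refine IsPGroup.of_card (n := k) ?_
    rw [Nat.card_zpowers, Subgroup.orderOf_mk, hk]
  obtain ⟨T, hT⟩ := hQ.exists_le_sylow
  let V : Subgroup H := (T : Subgroup K0).map K0.subtype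
  have hVc : Nat.card V = p ^ (Nat.card H).factorization p := by
    have h1 : Nat.card V = Nat.card T :=
      Subgroup.card_map_of_injective K0.subtype_injective
    rw [h1, Sylow.card_eq_multiplicity]
    congr 1
    have h2 := Subgroup.card_mul_index K0
    rw [← h2, Nat.factorization_mul Nat.card_pos.ne' (Subgroup.index_ne_zero_of_finite)]
    simp [Nat.factorization_eq_zero_of_not_dvd hK]
  refine ⟨Sylow.ofCard V hVc, ?_, ?_⟩
  · rw [Sylow.coe_ofCard]
    exact Subgroup.map_subtype_le _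
  · change u ∈ ((Sylow.ofCard V hVc : Sylow p H) : Subgroup H)
    rw [Sylow.coe_ofCard]
    exact ⟨u', hT (Subgroup.mem_zpowers u'), rfl⟩

lemma eq_one_of_pow_coprime {Q : Subgroup H} (hQ : IsPGroup p Q) {u : H} (hu : u ∈ Q) {n : ℕ}
    (h : u ^ n = 1) (hn : n.Coprime p) : u = 1 := by
  obtain ⟨k, hk⟩ := IsPGroup.iff_orderOf.mp hQ ⟨u, hu⟩
  rw [Subgroup.orderOf_mk] at hk
  have h1 := orderOf_dvd_of_pow_eq_one h
  have h2 : Nat.Coprime (orderOf u) n := by
    rw [hk]
    exact Nat.Coprime.pow_left k hn.symm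
  exact orderOf_eq_one_iff.mp (Nat.Coprime.eq_one_of_dvd h2 h1)

lemma mem_normalizer_of_le_centralizer {S : Subgroup H} {y : H}
    (h : S ≤ Subgroup.centralizer ({y} : Set H)) : y ∈ Subgroup.normalizer (S : Set H) := by
  rw [Subgroup.mem_normalizer_iff]
  intro w
  constructor
  · intro hw
    have h1 : w * y = y * w := Subgroup.mem_centralizer_singleton_iff.mp (h hw)
    have h2 : y * w * y⁻¹ = w := by rw [← h1]; group
    rwa [h2]
  · intro hw
    have h1 : (y * w * y⁻¹) * y = y * (y * w * y⁻¹) :=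
      Subgroup.mem_centralizer_singleton_iff.mp (h hw)
    have h2 : y * w * y⁻¹ = w := by
      have h3 : y * w = y * (y * w * y⁻¹) := by
        rw [← h1]; group
      exact (mul_left_cancel h3).symm
    rwa [h2] at hw

theorem struct_lemma
    (hH : ∀ y : H, (orderOf y).Coprime p → ¬ p ∣ (Subgroup.centralizer ({y} : Set H)).index) :
    ∃ K : Subgroup H, (Nat.card K).Coprime p ∧ (∃ m, K.index = p ^ m) ∧
      ∀ y : H, (orderOf y).Coprime p → y ∈ K := by
  -- every element normalizes a Sylow subgroup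
  have hnorm : ∀ g : H, ∃ S : Sylow p H, g • S = S := by
    intro g
    obtain ⟨u, y, rfl, hc, huo, hyo⟩ := exists_parts (p := p) g
    obtain ⟨S, hS1, hS2⟩ := exists_sylow_le_of_index (Subgroup.centralizer ({y} : Set H)) (hH y hyo)
      (u := u) (Subgroup.mem_centralizer_singleton_iff.mpr hc) huo
    refine ⟨S, ?_⟩
    rw [Sylow.smul_eq_iff_mem_normalizer]
    exact Subgroup.mul_mem _ (Subgroup.le_normalizer hS2) (mem_normalizer_of_le_centralizer hS1)
  -- so the Sylow subgroup is unique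
  have hsub : Subsingleton (Sylow p H) := by
    by_contra hcon
    rw [not_subsingleton_iff_nontrivial] at hcon
    obtain ⟨h, hh⟩ := Cfsg.Agent.Lib.MinNormalPrim.exists_derangement (H := H) (X := Sylow p H)
      inferInstance
    obtain ⟨S, hS⟩ := hnorm h
    exact hh S hS
  obtain ⟨P⟩ : Nonempty (Sylow p H) := inferInstance
  haveI hPn : (P : Subgroup H).Normal := Sylow.normal_of_subsingleton P
  obtain ⟨K, hK⟩ := Subgroup.exists_right_complement'_of_coprime (N := (P : Subgroup H))
    P.card_coprime_index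
  -- `p'`-elements centralize `P`
  have hcent : ∀ y : H, (orderOf y).Coprime p → (P : Subgroup H) ≤ Subgroup.centralizer ({y} : Set H) := by
    intro y hy
    obtain ⟨S, hS1, -⟩ := exists_sylow_le_of_index (Subgroup.centralizer ({y} : Set H)) (hH y hy)
      (u := 1) (Subgroup.one_mem _) ⟨0, by simp⟩
    rwa [Subsingleton.elim P S]
  have hKc : (Nat.card K).Coprime p := by
    rw [← hK.symm.index_eq_card]
    rw [Nat.coprime_comm, Nat.Prime.coprime_iff_not_dvd hp.out]
    exact P.not_dvd_index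
  have hKo : ∀ k ∈ K, (orderOf k).Coprime p := by
    intro k hk
    have h1 : orderOf k ∣ Nat.card K := by
      rw [← Subgroup.orderOf_mk k hk]
      exact orderOf_dvd_natCard _
    exact Nat.Coprime.coprime_dvd_left h1 hKc
  refine ⟨K, hKc, ?_, ?_⟩
  · obtain ⟨m, hm⟩ := IsPGroup.iff_card.mp P.2
    exact ⟨m, by rw [hK.index_eq_card, hm]⟩
  · intro y hy
    obtain ⟨⟨u, k⟩, huk⟩ := hK.2 y
    change u.1 * k.1 = y at huk
    have hkc := hKo k.1 k.2
    have h1 : Commute u.1 k.1 := by
      have := hcent k.1 hkc u.2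
      exact Subgroup.mem_centralizer_singleton_iff.mp this
    have h2 : Commute u.1 y := by
      have := hcent y hy u.2
      exact Subgroup.mem_centralizer_singleton_iff.mp this
    have h3 : u.1 = y * k.1⁻¹ := by rw [← huk]; group
    have h4 : Commute y k.1⁻¹ := by
      rw [← huk]
      exact (h1.mul_left (Commute.refl k.1)).inv_right
    have h5 : u.1 ^ (orderOf y * orderOf k.1) = 1 := by
      rw [h3, h4.mul_pow, pow_mul, pow_orderOf_eq_one, one_pow, one_mul, inv_pow, mul_comm, pow_mul,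
        pow_orderOf_eq_one, one_pow, inv_one]
    have h6 := eq_one_of_pow_coprime P.2 u.2 h5 (Nat.Coprime.mul_left hy hkc)
    rw [h6, one_mul] at huk
    rw [← huk]
    exact k.2

end Parts

section Main

lemma card_eq_of_sylow {G : Type*} [Group G] [Finite G] {p : ℕ} [Fact p.Prime] (P Q : Sylow p G) :
    Nat.card P = Nat.card Q := by
  rw [Sylow.card_eq_multiplicity, Sylow.card_eq_multiplicity]

variable {G : Type*} [Group G] [Finite G] {p : ℕ} [hp : Fact p.Prime]

lemma exists_pow_of_commute {x y : G} (hc : Commute x y) {m n : ℕ} (h : Nat.Coprime n m)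
    (hm : m ≠ 0) (hx : x ^ m = 1) (hy : y ^ n = 1) : ∃ s : ℕ, (x * y) ^ s = x :=
  Cfsg.Agent.Lib.CoprimeParts.exists_pow_mul_eq_left hc h hm hx hy

/-- Centralizer of an element. -/
abbrev Cz (y : G) : Subgroup G := Subgroup.centralizer ({y} : Set G)

omit [Finite G] in
lemma mem_Cz {y w : G} : w ∈ Cz y ↔ w * y = y * w := Subgroup.mem_centralizer_singleton_iff

/-- Step 1: class-size consideration in `C(x)`. -/
lemma hyp_in_centralizer {a : ℕ} (hmax : ∀ y : G, ¬ p ^ (a + 1) ∣ (Cz y).index)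
    {x : G} (hxo : ∃ k : ℕ, orderOf x = p ^ k) (hx : (Cz x).index = p ^ a)
    (y : Cz x) (hy : (orderOf y).Coprime p) : ¬ p ∣ (Cz y).index := by
  intro hdvd
  obtain ⟨k, hk⟩ := hxo
  have hy' : (orderOf (y : G)).Coprime p := by rwa [Subgroup.orderOf_coe]
  have hcom : Commute x (y : G) := (Subgroup.mem_centralizer_singleton_iff.mp y.2).symm
  -- the centralizer of the product
  have hcent : Cz (x * (y : G)) = Cz x ⊓ Cz (y : G) := by
    apply le_antisymm
    · intro g hg
      rw [mem_Cz] at hg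
      have hgc : Commute g (x * (y : G)) := hg
      constructor
      · obtain ⟨s, hs⟩ := exists_pow_of_commute hcom (m := p ^ k) (n := orderOf (y : G))
          (Nat.Coprime.pow_right _ hy') (pow_ne_zero _ hp.out.ne_zero)
          (by rw [← hk, pow_orderOf_eq_one]) (pow_orderOf_eq_one _)
        have := hgc.pow_right s
        rw [hs] at this
        exact mem_Cz.mpr this
      · obtain ⟨s, hs⟩ := exists_pow_of_commute hcom.symm (m := orderOf (y : G)) (n := p ^ k)
          (Nat.Coprime.pow_left _ hy'.symm) (orderOf_pos _).ne'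
          (pow_orderOf_eq_one _) (by rw [← hk, pow_orderOf_eq_one])
        rw [hcom.symm.eq] at hs
        have := hgc.pow_right s
        rw [hs] at this
        exact mem_Cz.mpr this
    · rintro g ⟨h1, h2⟩
      rw [mem_Cz]
      have h3 : Commute g x := mem_Cz.mp h1
      have h4 : Commute g (y : G) := mem_Cz.mp h2
      exact h3.mul_right h4
  have hsub : (Cz y : Subgroup (Cz x)) = (Cz x ⊓ Cz (y : G)).subgroupOf (Cz x) := by
    ext g
    rw [mem_Cz, Subgroup.mem_subgroupOf, Subgroup.mem_inf, mem_Cz, mem_Cz]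
    constructor
    · intro h
      exact ⟨mem_Cz.mp g.2, congrArg Subtype.val h⟩
    · rintro ⟨_, h⟩
      exact Subtype.ext h
  have hmul := Subgroup.relIndex_mul_index (show Cz x ⊓ Cz (y : G) ≤ Cz x from inf_le_left)
  rw [← hcent, hx] at hmul
  apply hmax (x * (y : G))
  rw [← hmul, pow_succ, mul_comm (p ^ a)]
  apply Nat.mul_dvd_mul_right
  rw [hcent]
  rw [hsub] at hdvd
  exact hdvd

/-- The main argument. -/
theorem main {a : ℕ} (hmax : ∀ y : G, ¬ p ^ (a + 1) ∣ (Cz y).index)
    {x : G} (hxo : ∃ k : ℕ, orderOf x = p ^ k) (hxa : (Cz x).index = p ^ a) :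
    Cfsg.HasNormalPComplement p G := by
  obtain ⟨K0, hK0c, ⟨m, hK0m⟩, hK0y⟩ := struct_lemma (H := Cz x) (p := p)
    (fun y hy => hyp_in_centralizer hmax hxo hxa y hy)
  -- transport to `G`
  let K : Subgroup G := K0.map (Cz x).subtype
  have hKcard : Nat.card K = Nat.card K0 := Subgroup.card_map_of_injective (Cz x).subtype_injective
  have hKC : K ≤ Cz x := Subgroup.map_subtype_le _
  have hKc : (Nat.card K).Coprime p := by rw [hKcard]; exact hK0c
  have hK1 : ∀ y ∈ Cz x, (orderOf y).Coprime p → y ∈ K := by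
    intro y hy hyo
    refine ⟨⟨y, hy⟩, hK0y _ ?_, rfl⟩
    rwa [Subgroup.orderOf_mk]
  have hKo : ∀ k ∈ K, (orderOf k).Coprime p := by
    intro k hk
    have h1 : orderOf k ∣ Nat.card K := by
      rw [← Subgroup.orderOf_mk k hk]
      exact orderOf_dvd_natCard _
    exact Nat.Coprime.coprime_dvd_left h1 hKc
  -- order of `G`
  have hG : Nat.card G = Nat.card K * p ^ (m + a) := by
    have h1 := Subgroup.card_mul_index (Cz x)
    have h2 := Subgroup.card_mul_index K0
    rw [hxa] at h1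
    rw [hK0m] at h2
    rw [← h1, ← h2, hKcard, pow_add]
    ring
  obtain ⟨P⟩ : Nonempty (Sylow p G) := inferInstance
  have hPcard : Nat.card P = p ^ (m + a) := by
    obtain ⟨e, he⟩ := IsPGroup.iff_card.mp P.2
    apply Nat.dvd_antisymm
    · rw [he]
      have h1 : p ^ e ∣ Nat.card K * p ^ (m + a) := by
        rw [← hG, ← he]
        exact Subgroup.card_subgroup_dvd_card _
      exact (Nat.Coprime.pow_left e hKc.symm).dvd_of_dvd_mul_left h1
    · exact P.pow_dvd_card_of_pow_dvd_card ⟨Nat.card K, by rw [hG]; ring⟩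
  have hcompl : K.IsComplement' (P : Subgroup G) := by
    refine Subgroup.isComplement'_of_coprime (by rw [hPcard, hG]) ?_
    rw [hPcard]
    exact Nat.Coprime.pow_right _ hKc
  -- a Sylow subgroup containing `x`, whose complement is `K`
  obtain ⟨k, hk⟩ := hxo
  have hxpg : IsPGroup p (Subgroup.zpowers x) := by
    refine IsPGroup.of_card (n := k) ?_
    rw [Nat.card_zpowers, hk]
  obtain ⟨P1, hP1⟩ := hxpg.exists_le_sylow
  have hxP1 : x ∈ (P1 : Subgroup G) := hP1 (Subgroup.mem_zpowers x)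
  have hP1card : Nat.card P1 = p ^ (m + a) := by
    rw [card_eq_of_sylow P1 P]
    exact hPcard
  have hcompl1 : (P1 : Subgroup G).IsComplement' K := by
    refine Subgroup.isComplement'_of_coprime (by rw [hP1card, hG]; ring) ?_
    rw [hP1card, Nat.coprime_comm]
    exact Nat.Coprime.pow_right _ hKc
  have hKx : ∀ k ∈ K, k * x = x * k := fun k hk => mem_Cz.mp (hKC hk)
  -- all conjugates of `x` lie in `P1`
  have hconj : ∀ g : G, g * x * g⁻¹ ∈ (P1 : Subgroup G) := by
    intro g
    obtain ⟨⟨u, c⟩, huc⟩ := hcompl1.2 g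
    change u.1 * c.1 = g at huc
    have h1 : g * x * g⁻¹ = u.1 * x * u.1⁻¹ := by
      rw [← huc]
      calc u.1 * c.1 * x * (u.1 * c.1)⁻¹ = u.1 * (c.1 * x) * c.1⁻¹ * u.1⁻¹ := by group
        _ = u.1 * (x * c.1) * c.1⁻¹ * u.1⁻¹ := by rw [hKx c.1 c.2]
        _ = u.1 * x * u.1⁻¹ := by group
    rw [h1]
    exact (P1 : Subgroup G).mul_mem ((P1 : Subgroup G).mul_mem u.2 hxP1) ((P1 : Subgroup G).inv_mem u.2)
  -- the normal closure of `x`
  let N : Subgroup G := Subgroup.normalClosure ({x} : Set G)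
  haveI hNn : N.Normal := Subgroup.normalClosure_normal
  have hNP : N ≤ (P1 : Subgroup G) := by
    refine Subgroup.closure_le _ |>.mpr ?_
    intro y hy
    rw [Group.mem_conjugatesOfSet_iff] at hy
    obtain ⟨b, hb, hby⟩ := hy
    rw [Set.mem_singleton_iff] at hb
    subst hb
    obtain ⟨c, rfl⟩ := isConj_iff.mp hby
    exact hconj c
  have hNp : IsPGroup p N := P1.2.to_le hNP
  have hxN : x ∈ N := Subgroup.subset_normalClosure (Set.mem_singleton x)
  -- `K` centralizes `N`
  have hNK : ∀ n ∈ N, ∀ c ∈ K, c * n = n * c := by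
    by_contra hcon
    let A : Subgroup G := Subgroup.centralizer (K : Set G)
    have hA : ∀ n : G, n ∈ A ↔ ∀ c ∈ K, c * n = n * c := fun n => Subgroup.mem_centralizer_iff
    have hne : A.subgroupOf N ≠ ⊤ := by
      intro h
      apply hcon
      intro n hn
      have : (⟨n, hn⟩ : N) ∈ A.subgroupOf N := by rw [h]; exact Subgroup.mem_top _
      exact (hA n).mp this
    haveI : Group.IsNilpotent N := hNp.isNilpotent
    have hlt := normalizerCondition_of_isNilpotent (G := N) (A.subgroupOf N) (lt_top_iff_ne_top.mpr hne)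
    obtain ⟨n, hnN, hnA⟩ := SetLike.exists_of_lt hlt
    have hx1 : (⟨x, hxN⟩ : N) ∈ A.subgroupOf N := (hA x).mpr hKx
    have hx2 := (Subgroup.mem_normalizer_iff.mp hnN ⟨x, hxN⟩).mp hx1
    have hx3 : (n : G) * x * (n : G)⁻¹ ∈ A := hx2
    have hx4 := (hA _).mp hx3
    apply hnA
    refine (hA (n : G)).mpr ?_
    intro c hc
    have h1 : (n : G)⁻¹ * c * n ∈ K := by
      apply hK1
      · rw [mem_Cz]
        have h2 := hx4 c hc
        calc (n : G)⁻¹ * c * n * x = (n : G)⁻¹ * (c * ((n : G) * x * (n : G)⁻¹)) * n := by group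
          _ = (n : G)⁻¹ * (((n : G) * x * (n : G)⁻¹) * c) * n := by rw [h2]
          _ = x * ((n : G)⁻¹ * c * n) := by group
      · have h3 : (n : G)⁻¹ * c * n = MulAut.conj (n : G)⁻¹ c := by
          simp [MulAut.conj_apply]
        rw [h3, MulEquiv.orderOf_eq]
        exact hKo c hc
    have h4 : c⁻¹ * ((n : G)⁻¹ * c * n) ∈ K := K.mul_mem (K.inv_mem hc) h1
    have h5 : c⁻¹ * ((n : G)⁻¹ * c * n) ∈ N := by
      have h6 : c⁻¹ * ((n : G)⁻¹ * c * n) = (c⁻¹ * (n : G)⁻¹ * c) * n := by group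
      rw [h6]
      refine N.mul_mem ?_ n.2
      have := hNn.conj_mem _ (N.inv_mem n.2) c⁻¹
      simpa using this
    have h7 := eq_one_of_pow_coprime hNp h5 (pow_orderOf_eq_one _) (hKo _ h4)
    have h8 : (n : G)⁻¹ * c * n = c := (inv_mul_eq_one.mp h7).symm
    calc c * n = (n : G) * ((n : G)⁻¹ * c * n) := by group
      _ = n * c := by rw [h8]
  -- `K` is normal
  have hKn : K.Normal := by
    refine ⟨fun c hc g => ?_⟩
    apply hK1
    · rw [mem_Cz]
      have h1 : g⁻¹ * x * g ∈ N := by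
        have := hNn.conj_mem x hxN g⁻¹
        simpa using this
      have h2 := hNK _ h1 c hc
      calc g * c * g⁻¹ * x = g * (c * (g⁻¹ * x * g)) * g⁻¹ := by group
        _ = g * ((g⁻¹ * x * g) * c) * g⁻¹ := by rw [h2]
        _ = x * (g * c * g⁻¹) := by group
    · have h3 : g * c * g⁻¹ = MulAut.conj g c := by
        simp [MulAut.conj_apply]
      rw [h3, MulEquiv.orderOf_eq]
      exact hKo c hc
  exact ⟨P, K, hKn, hcompl⟩

end Main

/-- Let G be a finite group, p a prime and p^a the largest power of p dividing the size of any conjugacy class of G. If some element of p-power order has a conjugacy class of size exactly p^a, then G has a normal p-complement. -/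
theorem result {G : Type*} [Group G] [Finite G] (p : ℕ) [Fact p.Prime]
    (a : ℕ) (hmax : ∀ y : G, ¬ p ^ (a + 1) ∣ (Subgroup.centralizer ({y} : Set G)).index)
    (hx : ∃ x : G, (∃ k : ℕ, orderOf x = p ^ k) ∧ (Subgroup.centralizer ({x} : Set G)).index = p ^ a) :
    Cfsg.HasNormalPComplement p G := by
  obtain ⟨x, hxo, hxa⟩ := hx
  exact main hmax hxo hxa

end Cfsg.Agent.S4127
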