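import Cfsg.Statements.S4135
import Mathlib
import Cfsg.Agent.Lib.CentTools

set_option autoImplicit false
set_option linter.unusedSectionVars false
set_option linter.unusedVariables false
set_option linter.style.haveILetI false
open Cfsg

namespace Cfsg.Agent.S4135

open Subgroup
open Cfsg.Agent.Lib.CoprimeClass (cs mem_cent cs_eq_one_iff exists_conj_mem_of_not_dvd
  eq_top_of_conj_cover exists_primary_pow_not_mem relIndex_dvd_index_of_normal')
open Cfsg.Agent.Lib.CentTools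

variable {G : Type*} [Group G] [Finite G] {N : Subgroup G} [hNn : N.Normal] {m : ℕ}

theorem cs_eq (h : ∀ x ∈ N, cs x = 1 ∨ cs x = m) {x : G} (hx : x ∈ N) (hz : x ∉ center G) :
    cs x = m := by
  rcases h x hx with h1 | h1
  · exact absurd (cs_eq_one_iff.1 h1) hz
  · exact h1

theorem cent_eq_of_le (h : ∀ x ∈ N, cs x = 1 ∨ cs x = m) {x y : G} (hx : x ∈ N)
    (hxz : x ∉ center G) (hy : y ∈ N) (hyz : y ∉ center G) (hle : Cn x ≤ Cn y) : Cn x = Cn y := by
  have h1 : (Cn x).index = (Cn y).index := by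
    have h3 := cs_eq h hx hxz
    have h4 := cs_eq h hy hyz
    exact h3.trans h4.symm
  apply le_antisymm hle
  have h2 := relIndex_mul_index hle
  rw [h1] at h2
  have hne : (Cn y).index ≠ 0 := index_ne_zero_of_finite
  have h3 : (Cn x).relIndex (Cn y) = 1 := by
    have : (Cn x).relIndex (Cn y) * (Cn y).index = 1 * (Cn y).index := by rw [h2, one_mul]
    exact Nat.eq_of_mul_eq_mul_right (Nat.pos_of_ne_zero hne) this
  exact relIndex_eq_one.1 h3

theorem cent_eq (h : ∀ x ∈ N, cs x = 1 ∨ cs x = m) {x y : G} (hx : x ∈ N)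
    (hxz : x ∉ center G) (hy : y ∈ N) (hyz : y ∉ center G) (hc : Commute x y)
    (hco : (orderOf x).Coprime (orderOf y)) : Cn x = Cn y := by
  have hxyN : x * y ∈ N := N.mul_mem hx hy
  have hxyz : x * y ∉ center G := by
    intro hz
    obtain ⟨k, hk⟩ := exists_pow_eq_left hc hco
    exact hxz (hk ▸ (center G).pow_mem hz k)
  have h1 := cent_eq_of_le h hxyN hxyz hx hxz (Cn_mul_le_left hc hco)
  have h2 := cent_eq_of_le h hxyN hxyz hy hyz (Cn_mul_le_right hc hco)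
  exact h1.symm.trans h2

/-- Elements of `r`-power order lie in `N`. -/
theorem relt_mem {r : ℕ} [Fact r.Prime] (R : Sylow r G) (hRN : (R : Subgroup G) ≤ N) {x : G} {k : ℕ}
    (hx : x ^ (r ^ k) = 1) : x ∈ N := by
  obtain ⟨g, hg⟩ := exists_conj_mem_of_not_dvd (R : Subgroup G) R.not_dvd_index hx
  have h1 := hRN hg
  have h2 := hNn.conj_mem _ h1 g
  have h3 : g * (g⁻¹ * x * g) * g⁻¹ = x := by group
  rwa [h3] at h2

theorem case1 (h : ∀ x ∈ N, cs x = 1 ∨ cs x = m) {r : ℕ} [Fact r.Prime] (R : Sylow r G)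
    (hR : ¬ (R : Subgroup G) ≤ center G) (hRN : (R : Subgroup G) ≤ N) (hm : ¬ r ∣ m)
    {t₁ : G} (ht₁N : t₁ ∈ N) (ht₁z : t₁ ∉ center G) (ht₁c : (orderOf t₁).Coprime r) :
    ∀ u ∈ N, ∀ v ∈ N, u * v = v * u := by
  have hconj : ∀ x ∈ N, x ∉ center G → ∃ n ∈ N, (R : Subgroup G) ≤ Cn (n * x * n⁻¹) := by
    intro x hx hz
    have hi : ¬ r ∣ (Cn x).index := by
      have : (Cn x).index = m := cs_eq h hx hz
      rw [this]; exact hm
    obtain ⟨n, hn, hb⟩ := exists_conj_sylow R hRN (Cn x) hi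
    refine ⟨n⁻¹, N.inv_mem hn, fun a ha => ?_⟩
    have := conj_mem_Cn (g := n⁻¹) (hb a ha)
    have h2 : n⁻¹ * (n * a * n⁻¹) * n⁻¹⁻¹ = a := by group
    rwa [h2] at this
  obtain ⟨n, hn, hle⟩ := hconj t₁ ht₁N ht₁z
  obtain ⟨t, ht⟩ : ∃ t, t = n * t₁ * n⁻¹ := ⟨_, rfl⟩
  rw [← ht] at hle
  have htN : t ∈ N := ht ▸ hNn.conj_mem _ ht₁N n
  have htz : t ∉ center G := by rw [ht, conj_mem_center_iff]; exact ht₁z
  have htc : (orderOf t).Coprime r := by rw [ht, orderOf_conj']; exact ht₁c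
  have hRelt : ∀ a ∈ (R : Subgroup G), ∃ k : ℕ, a ^ (r ^ k) = 1 :=
    fun a ha => exists_pow_of_isPGroup R.2 ha
  have hA : ∀ a ∈ (R : Subgroup G), a ∉ center G → Cn a = Cn t := by
    intro a ha haz
    obtain ⟨k, hk⟩ := hRelt a ha
    exact cent_eq h (hRN ha) haz htN htz (mem_Cn.1 (hle ha)) (coprime_orderOf hk htc)
  obtain ⟨a₀, ha₀, ha₀z⟩ := Set.not_subset.1 hR
  -- `H ⊓ N` is central in `H`
  have hcomm : ∀ u ∈ Cn t ⊓ N, ∀ w ∈ Cn t, w * u = u * w := by
    intro u hu w hw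
    obtain ⟨u₁, u₂, rfl, hc, ⟨k, hk⟩, hu₂, hu₁z, hu₂z⟩ := Cfsg.Agent.Lib.PResid.exists_decomp (p := r) u
    have hu₁H : u₁ ∈ Cn t ⊓ N := (zpowers_le.2 hu) hu₁z
    have hu₂H : u₂ ∈ Cn t ⊓ N := (zpowers_le.2 hu) hu₂z
    have h1 : w * u₁ = u₁ * w := by
      by_cases hz : u₁ ∈ center G
      · exact ((mem_center_iff.1 hz) w)
      · have : Cn u₁ = Cn t :=
          cent_eq h hu₁H.2 hz htN htz (mem_Cn.1 hu₁H.1) (coprime_orderOf hk htc)
        exact mem_Cn.1 (this ▸ hw)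
    have h2 : w * u₂ = u₂ * w := by
      by_cases hz : u₂ ∈ center G
      · exact ((mem_center_iff.1 hz) w)
      · obtain ⟨k', hk'⟩ := hRelt a₀ ha₀
        have ha₀u₂ : Commute u₂ a₀ := by
          have : u₂ ∈ Cn a₀ := by rw [hA a₀ ha₀ ha₀z]; exact hu₂H.1
          exact mem_Cn.1 this
        have : Cn u₂ = Cn a₀ :=
          cent_eq h hu₂H.2 hz (hRN ha₀) ha₀z ha₀u₂ (coprime_orderOf hk' hu₂).symm
        rw [hA a₀ ha₀ ha₀z] at this
        exact mem_Cn.1 (this ▸ hw)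
    have h1' : Commute w u₁ := h1
    have h2' : Commute w u₂ := h2
    exact h1'.mul_right h2'
  -- covering
  have hcover : ∀ u ∈ N, ∃ n ∈ N, n * u * n⁻¹ ∈ Cn t ⊓ N := by
    intro u hu
    obtain ⟨u₁, u₂, rfl, hc, ⟨k, hk⟩, hu₂, hu₁z, hu₂z⟩ := Cfsg.Agent.Lib.PResid.exists_decomp (p := r) u
    have hu₁N : u₁ ∈ N := (zpowers_le.2 hu) hu₁z
    have hu₂N : u₂ ∈ N := (zpowers_le.2 hu) hu₂z
    by_cases hz : u₂ ∈ center G
    · -- `u₁` moves into `R`
      have hV : IsPGroup r (zpowers u₁) := by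
        rintro ⟨x, hx⟩
        obtain ⟨i, rfl⟩ := mem_zpowers_iff.1 hx
        refine ⟨k, Subtype.ext ?_⟩
        show (u₁ ^ i) ^ (r ^ k) = 1
        rw [← zpow_natCast, ← zpow_mul, mul_comm, zpow_mul, zpow_natCast, hk, one_zpow]
      obtain ⟨n, hn, hv⟩ := exists_conj_le_sylow R hRN _ hV
      refine ⟨n, hn, ?_, hNn.conj_mem _ hu n⟩
      have h1 := hv u₁ (mem_zpowers u₁)
      have h2 : n * (u₁ * u₂) * n⁻¹ = (n * u₁ * n⁻¹) * (n * u₂ * n⁻¹) := by group
      rw [h2]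
      refine (Cn t).mul_mem (hle h1) ?_
      rw [mem_Cn]
      have h3 : n * u₂ * n⁻¹ ∈ center G := conj_mem_center_iff.2 hz
      exact (mem_center_iff.1 h3 t).symm
    · obtain ⟨n, hn, hR'⟩ := hconj u₂ hu₂N hz
      have hv₂N : n * u₂ * n⁻¹ ∈ N := hNn.conj_mem _ hu₂N n
      have hv₂z : n * u₂ * n⁻¹ ∉ center G := by rw [conj_mem_center_iff]; exact hz
      have hv₂c : (orderOf (n * u₂ * n⁻¹)).Coprime r := by rw [orderOf_conj']; exact hu₂
      obtain ⟨k', hk'⟩ := hRelt a₀ ha₀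
      have hcc : Commute (n * u₂ * n⁻¹) a₀ := (mem_Cn.1 (hR' ha₀)).symm
      have hCv : Cn (n * u₂ * n⁻¹) = Cn t :=
        (cent_eq h hv₂N hv₂z (hRN ha₀) ha₀z hcc (coprime_orderOf hk' hv₂c).symm).trans
          (hA a₀ ha₀ ha₀z)
      refine ⟨n, hn, ?_, hNn.conj_mem _ hu n⟩
      have h2 : n * (u₁ * u₂) * n⁻¹ = (n * u₁ * n⁻¹) * (n * u₂ * n⁻¹) := by group
      rw [h2]
      refine (Cn t).mul_mem ?_ ?_
      · rw [← hCv]
        rw [mem_Cn]
        have : n * u₁ * n⁻¹ * (n * u₂ * n⁻¹) = n * (u₁ * u₂) * n⁻¹ := by group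
        rw [this]
        have h3 : n * u₂ * n⁻¹ * (n * u₁ * n⁻¹) = n * (u₂ * u₁) * n⁻¹ := by group
        rw [h3, hc.eq]
      · rw [← hCv, mem_Cn]
  -- conclude
  have htop : (Cn t ⊓ N).subgroupOf N = ⊤ := by
    apply eq_top_of_conj_cover
    rintro ⟨a, ha⟩
    obtain ⟨n, hn, hna⟩ := hcover a ha
    refine ⟨⟨n, hn⟩, ?_⟩
    rw [mem_subgroupOf]
    exact hna
  have hle' : ∀ u ∈ N, u ∈ Cn t ⊓ N := by
    intro u hu
    have : (⟨u, hu⟩ : N) ∈ (Cn t ⊓ N).subgroupOf N := by rw [htop]; trivial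
    exact mem_subgroupOf.1 this
  intro u hu v hv
  exact (hcomm v (hle' v hv) u (hle' u hu).1)

/-- For `r ∣ m`: the centre of a Sylow `r`-subgroup is central. -/
theorem center_of_sylow (h : ∀ x ∈ N, cs x = 1 ∨ cs x = m) {r : ℕ} [Fact r.Prime] (R : Sylow r G)
    (hRN : (R : Subgroup G) ≤ N) (hm : r ∣ m) (Q : Sylow r G) {z : G} (hz : z ∈ (Q : Subgroup G))
    (hzc : ∀ y ∈ (Q : Subgroup G), y * z = z * y) : z ∈ center G := by
  by_contra hnc
  obtain ⟨k, hk⟩ := exists_pow_of_isPGroup Q.2 hz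
  have hzN : z ∈ N := relt_mem R hRN hk
  have h1 : (Cn z).index = m := cs_eq h hzN hnc
  have h2 : (Q : Subgroup G) ≤ Cn z := fun y hy => mem_Cn.2 (hzc y hy)
  have h3 : (Cn z).index ∣ (Q : Subgroup G).index := index_dvd_of_le h2
  exact Q.not_dvd_index (hm.trans (h1 ▸ h3))

/-- All Sylow `r`-subgroups are non-central. -/
theorem exists_noncentral_of_sylow {r : ℕ} [Fact r.Prime] (R : Sylow r G)
    (hR : ¬ (R : Subgroup G) ≤ center G) (Q : Sylow r G) :
    ∃ a ∈ (Q : Subgroup G), a ∉ center G := by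
  obtain ⟨a, ha, haz⟩ := Set.not_subset.1 hR
  obtain ⟨k, hk⟩ := exists_pow_of_isPGroup R.2 ha
  obtain ⟨g, hg⟩ := exists_conj_mem_of_not_dvd (Q : Subgroup G) Q.not_dvd_index hk
  refine ⟨_, hg, ?_⟩
  have := (conj_mem_center_iff (x := a) (g := g⁻¹))
  rw [inv_inv] at this
  rw [this]
  exact haz

/-- A central `r`-element lies in every Sylow `r`-subgroup. -/
theorem central_relt_mem {r : ℕ} [Fact r.Prime] (Q : Sylow r G) {x : G} (hxz : x ∈ center G) {k : ℕ}
    (hk : x ^ (r ^ k) = 1) : x ∈ (Q : Subgroup G) := by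
  have hnorm : (zpowers x).Normal := by
    constructor
    intro y hy g
    obtain ⟨i, rfl⟩ := mem_zpowers_iff.1 hy
    have : g * x ^ i * g⁻¹ = x ^ i := by
      have hc : x ^ i ∈ center G := (center G).zpow_mem hxz i
      rw [mem_center_iff.1 hc g]; group
    rw [this]; exact zpow_mem (mem_zpowers x) i
  have hp : IsPGroup r (zpowers x) := by
    rintro ⟨y, hy⟩
    obtain ⟨i, rfl⟩ := mem_zpowers_iff.1 hy
    refine ⟨k, Subtype.ext ?_⟩
    show (x ^ i) ^ (r ^ k) = 1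
    rw [← zpow_natCast, ← zpow_mul, mul_comm, zpow_mul, zpow_natCast, hk, one_zpow]
  exact hp.le_sylow_of_normal Q (mem_zpowers x)

/-- Step: a non-central `r'`-element commutes with a non-central `r`-element. -/
theorem exists_commuting (h : ∀ x ∈ N, cs x = 1 ∨ cs x = m) {r : ℕ} [Fact r.Prime] (R : Sylow r G)
    (hR : ¬ (R : Subgroup G) ≤ center G) (hRN : (R : Subgroup G) ≤ N) (hm : r ∣ m)
    {t : G} (htN : t ∈ N) (htz : t ∉ center G) :
    ∃ c : G, c ∈ Cn t ∧ c ∉ center G ∧ ∃ k : ℕ, c ^ (r ^ k) = 1 := by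
  classical
  obtain ⟨a, ha, haz⟩ := Set.not_subset.1 hR
  obtain ⟨ka, hka⟩ := exists_pow_of_isPGroup R.2 ha
  have haN : a ∈ N := relt_mem R hRN hka
  -- `K = C_R(a)`
  let K : Subgroup G := (R : Subgroup G) ⊓ Cn a
  have hKp : IsPGroup r K := R.2.to_le inf_le_left
  obtain ⟨j, hj⟩ := (IsPGroup.iff_card).1 hKp
  have hcard : Nat.card (Cn a) = Nat.card (Cn t) := by
    have h1 : (Cn a).index = (Cn t).index :=
      (cs_eq h haN haz).trans (cs_eq h htN htz).symm
    have h2 := (Cn a).index_mul_card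
    have h3 := (Cn t).index_mul_card
    rw [h1, ← h3] at h2
    exact Nat.eq_of_mul_eq_mul_left (Nat.pos_of_ne_zero index_ne_zero_of_finite) h2
  have hdvd : r ^ j ∣ Nat.card (Cn t) := by
    rw [← hcard, ← hj]
    exact card_dvd_of_le inf_le_right
  obtain ⟨V₀, hV₀⟩ := Sylow.exists_subgroup_card_pow_prime (G := Cn t) r hdvd
  let V : Subgroup G := V₀.map (Cn t).subtype
  have hVcard : Nat.card V = r ^ j := by
    rw [← hV₀]
    exact card_map_of_injective (Cn t).subtype_injective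
  by_contra hcon
  push Not at hcon
  have hVp : IsPGroup r V := (IsPGroup.iff_card).2 ⟨j, hVcard⟩
  have hVt : V ≤ Cn t := by
    rintro x ⟨y, _, rfl⟩
    exact y.2
  have hVz : V ≤ center G := by
    intro x hx
    by_contra hxz
    obtain ⟨k, hk⟩ := exists_pow_of_isPGroup hVp hx
    exact hcon x (hVt hx) hxz k hk
  -- `V` central ⇒ `V ≤ R ⊓ center` so smaller than `K`
  have hVR : V ≤ (R : Subgroup G) := by
    intro x hx
    obtain ⟨k, hk⟩ := exists_pow_of_isPGroup hVp hx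
    exact central_relt_mem R (hVz hx) hk
  have hle1 : (R : Subgroup G) ⊓ center G ≤ K := by
    intro x hx
    refine ⟨hx.1, mem_Cn.2 ?_⟩
    exact ((mem_center_iff.1 hx.2) a).symm
  have hle2 : V ≤ (R : Subgroup G) ⊓ center G := le_inf hVR hVz
  have hc1 : Nat.card K ≤ Nat.card ((R : Subgroup G) ⊓ center G : Subgroup G) := by
    rw [hj, ← hVcard]
    exact card_le_of_le hle2
  have heq := eq_of_le_of_card_ge hle1 hc1
  have haK : a ∈ K := ⟨ha, mem_Cn.2 rfl⟩
  rw [← heq] at haK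
  exact haz haK.2

/-- Step: the structure of the centralizer of a non-central `r'`-element. -/
theorem cent_of_mem (h : ∀ x ∈ N, cs x = 1 ∨ cs x = m) {r : ℕ} [Fact r.Prime] (R : Sylow r G)
    (hR : ¬ (R : Subgroup G) ≤ center G) (hRN : (R : Subgroup G) ≤ N) (hm : r ∣ m)
    {t : G} (htN : t ∈ N) (htz : t ∉ center G) (htc : (orderOf t).Coprime r)
    {u : G} (hu : u ∈ Cn t ⊓ N) (huz : u ∉ center G) : Cn u = Cn t := by
  obtain ⟨c, hct, hcz, k, hk⟩ := exists_commuting h R hR hRN hm htN htz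
  have hcN : c ∈ N := relt_mem R hRN hk
  have hCc : Cn c = Cn t :=
    cent_eq h hcN hcz htN htz (mem_Cn.1 hct) (coprime_orderOf hk htc)
  obtain ⟨u₁, u₂, rfl, hcu, ⟨k₁, hk₁⟩, hu₂, hu₁z, hu₂z⟩ :=
    Cfsg.Agent.Lib.PResid.exists_decomp (p := r) u
  have hu₁H : u₁ ∈ Cn t ⊓ N := (zpowers_le.2 hu) hu₁z
  have hu₂H : u₂ ∈ Cn t ⊓ N := (zpowers_le.2 hu) hu₂z
  have hle : Cn t ≤ Cn (u₁ * u₂) := by
    intro w hw
    have h1 : w * u₁ = u₁ * w := by
      by_cases hz : u₁ ∈ center G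
      · exact (mem_center_iff.1 hz) w
      · have : Cn u₁ = Cn t :=
          cent_eq h hu₁H.2 hz htN htz (mem_Cn.1 hu₁H.1) (coprime_orderOf hk₁ htc)
        exact mem_Cn.1 (this ▸ hw)
    have h2 : w * u₂ = u₂ * w := by
      by_cases hz : u₂ ∈ center G
      · exact (mem_center_iff.1 hz) w
      · have hcc : Commute u₂ c := by
          have : u₂ ∈ Cn c := by rw [hCc]; exact hu₂H.1
          exact mem_Cn.1 this
        have : Cn u₂ = Cn c :=
          cent_eq h hu₂H.2 hz hcN hcz hcc (coprime_orderOf hk hu₂).symm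
        rw [hCc] at this
        exact mem_Cn.1 (this ▸ hw)
    have h1' : Commute w u₁ := h1
    have h2' : Commute w u₂ := h2
    exact mem_Cn.2 (h1'.mul_right h2')
  exact (cent_eq_of_le h htN htz hu.2 huz hle).symm

theorem case2 (h : ∀ x ∈ N, cs x = 1 ∨ cs x = m) {r : ℕ} [Fact r.Prime] (R : Sylow r G)
    (hR : ¬ (R : Subgroup G) ≤ center G) (hRN : (R : Subgroup G) ≤ N) (hm : r ∣ m)
    {t₀ : G} (ht₀N : t₀ ∈ N) (ht₀z : t₀ ∉ center G) (ht₀c : (orderOf t₀).Coprime r) : False := by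
  classical
  have hrel : ∀ {x : G} {k : ℕ}, x ^ (r ^ k) = 1 → x ∈ N := fun hx => relt_mem R hRN hx
  -- a prime `s ≠ r`
  obtain ⟨e, s, i, hs, hsi, hnot⟩ := exists_primary_pow_not_mem (center G) t₀ ht₀z
  haveI : Fact s.Prime := ⟨hs⟩
  have hsr : s ≠ r := by
    rintro rfl
    have h1 : orderOf (t₀ ^ e) ∣ s ^ i := orderOf_dvd_of_pow_eq_one hsi
    have h2 : (orderOf (t₀ ^ e)).Coprime s :=
      Nat.Coprime.coprime_dvd_left (orderOf_pow_dvd e) ht₀c
    have h3 : orderOf (t₀ ^ e) = 1 := Nat.Coprime.eq_one_of_dvd (h2.pow_right i) h1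
    rw [orderOf_eq_one_iff] at h3
    exact hnot (h3 ▸ (center G).one_mem)
  let Sh : Sylow s G := default
  obtain ⟨g₀, hg₀⟩ := exists_conj_mem_of_not_dvd (Sh : Subgroup G) Sh.not_dvd_index hsi
  have hx₀N : g₀⁻¹ * (t₀ ^ e) * g₀ ∈ N := by
    have := hNn.conj_mem _ (N.pow_mem ht₀N e) g₀⁻¹
    rwa [inv_inv] at this
  have hx₀z : g₀⁻¹ * (t₀ ^ e) * g₀ ∉ center G := by
    have := (conj_mem_center_iff (x := t₀ ^ e) (g := g₀⁻¹))
    rw [inv_inv] at this
    rw [this]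
    exact hnot
  obtain ⟨t, htS, htN, htz, htspec⟩ :=
    exists_special (Sh : Subgroup G) N (center G) Sh.2 _ hg₀ hx₀N hx₀z
  obtain ⟨kt, hkt⟩ := exists_pow_of_isPGroup Sh.2 htS
  have htc : (orderOf t).Coprime r := by
    have h1 : orderOf t ∣ s ^ kt := orderOf_dvd_of_pow_eq_one hkt
    have h2 : (s ^ kt).Coprime r := Nat.Coprime.pow_left _ ((Nat.coprime_primes hs Fact.out).2 hsr)
    exact Nat.Coprime.coprime_dvd_left h1 h2
  -- structure of `C(t)`
  have hCu : ∀ u ∈ Cn t ⊓ N, u ∉ center G → Cn u = Cn t :=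
    fun u hu huz => cent_of_mem h R hR hRN hm htN htz htc hu huz
  have hDcomm : ∀ u ∈ Cn t ⊓ N, ∀ v ∈ Cn t ⊓ N, u * v = v * u := by
    intro u hu v hv
    by_cases huz : u ∈ center G
    · exact (mem_center_iff.1 huz v).symm
    · have h1 : v ∈ Cn u := by rw [hCu u hu huz]; exact hv.1
      exact (mem_Cn.1 h1).symm
  obtain ⟨D, hDdef⟩ : ∃ D, D = Cn t ⊓ N := ⟨_, rfl⟩
  subst hDdef
  let Dr : Subgroup G := pPartOf _ hDcomm r
  let T : Subgroup G := pPartOf _ hDcomm s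
  have hDrp : IsPGroup r Dr := isPGroup_pPartOf _ _ _
  have hTp : IsPGroup s T := isPGroup_pPartOf _ _ _
  obtain ⟨c, hct, hcz, kc, hkc⟩ := exists_commuting h R hR hRN hm htN htz
  have hcN := hrel hkc
  have hcDr : c ∈ Dr := ⟨⟨hct, hcN⟩, kc, hkc⟩
  have htD : t ∈ Cn t ⊓ N := ⟨mem_Cn.2 rfl, htN⟩
  have htT : t ∈ T := ⟨htD, kt, hkt⟩
  -- normalization
  have hnH : ∀ g x, x ∈ Cn t ⊓ N → x ∉ center G → g * x * g⁻¹ ∈ Cn t ⊓ N →
      ∀ v ∈ Cn t, g * v * g⁻¹ ∈ Cn t := by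
    intro g x hx hxz hgx v hv
    have h1 : Cn x = Cn t := hCu x hx hxz
    have h2 : Cn (g * x * g⁻¹) = Cn t := hCu _ hgx (by rwa [conj_mem_center_iff])
    have h3 := conj_mem_Cn (g := g) (h1 ▸ hv : v ∈ Cn x)
    rwa [h2] at h3
  have hconjD : ∀ g, (∀ v ∈ Cn t, g * v * g⁻¹ ∈ Cn t) → ∀ u ∈ Cn t ⊓ N, g * u * g⁻¹ ∈ Cn t ⊓ N :=
    fun g hg u hu => ⟨hg u hu.1, hNn.conj_mem _ hu.2 g⟩
  have hShH : ∀ g ∈ (Sh : Subgroup G), ∀ v ∈ Cn t, g * v * g⁻¹ ∈ Cn t := by
    intro g hg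
    refine hnH g t htD htz ⟨mem_Cn.2 ?_, hNn.conj_mem _ htN g⟩
    have hz := htspec g hg
    have h2 := mem_center_iff.1 hz t
    calc g * t * g⁻¹ * t = (g * t * g⁻¹ * t⁻¹) * t * t := by group
      _ = t * (g * t * g⁻¹ * t⁻¹) * t := by rw [h2]
      _ = t * (g * t * g⁻¹) := by group
  -- the first count
  have hrelD : ∀ x, x ∈ Cn t → (∃ k : ℕ, x ^ (r ^ k) = 1) → x ∈ Dr := by
    rintro x hx ⟨k, hk⟩
    exact ⟨⟨hx, hrel hk⟩, k, hk⟩
  have hX₁ := relIndex_dvd_ncard (Sh : Subgroup G) (Cn t) {x | x ∈ Dr ∧ x ∉ center G}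
    (by
      rintro w hw x ⟨⟨hxD, k, hk⟩, hxz⟩
      refine ⟨⟨hconjD w (hShH w hw) x hxD, k, ?_⟩, by rwa [conj_mem_center_iff]⟩
      rw [conj_pow, hk]; group)
    (by
      rintro x ⟨hxDr, hxz⟩ w hw
      have h1 : Cn x = Cn t := hCu x hxDr.1 hxz
      rw [← h1, mem_Cn])
  rw [ncard_diff] at hX₁
  obtain ⟨A, hAdef⟩ : ∃ A, A = ((center G).subgroupOf Dr).index := ⟨_, rfl⟩
  rw [← hAdef] at hX₁
  have hA2 : 2 ≤ A := by
    have h0 : A ≠ 0 := by rw [hAdef]; exact index_ne_zero_of_finite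
    have h1 : A ≠ 1 := by
      rw [hAdef]
      intro h1
      rw [index_eq_one] at h1
      have : (⟨c, hcDr⟩ : Dr) ∈ (center G).subgroupOf Dr := by rw [h1]; trivial
      exact hcz (mem_subgroupOf.1 this)
    omega
  have hDrcard : Nat.card Dr = A * Nat.card (Dr ⊓ center G : Subgroup G) := by
    rw [hAdef]
    have := ((center G).subgroupOf Dr).index_mul_card
    rw [← this]
    congr 1
    apply Nat.card_congr
    exact (⟨fun x => ⟨⟨x.1, x.2.1⟩, x.2.2⟩, fun x => ⟨x.1.1, x.1.2, x.2⟩, fun x => rfl, fun x => rfl⟩ :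
      (Dr ⊓ center G : Subgroup G) ≃ (center G).subgroupOf Dr).symm
  have hms1 : (Cn t).relIndex (Sh : Subgroup G) ∣ A - 1 := by
    have hco : ((Cn t).relIndex (Sh : Subgroup G)).Coprime (Nat.card (Dr ⊓ center G : Subgroup G)) := by
      have h1 := IsPGroup.coprime_card_of_ne s r hsr (Sh : Subgroup G) (Dr ⊓ center G : Subgroup G) Sh.2
        (hDrp.to_le inf_le_left)
      exact Nat.Coprime.coprime_dvd_left (relIndex_dvd_card _ _) h1
    exact hco.dvd_of_dvd_mul_left hX₁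
  have hms2 : (Cn t).relIndex (Sh : Subgroup G) ≤ A - 1 := Nat.le_of_dvd (by omega) hms1
  -- non-abelian Sylow subgroups
  have hQna : ∀ Q : Sylow r G, ∃ a ∈ (Q : Subgroup G), ∃ b ∈ (Q : Subgroup G), b * a ≠ a * b := by
    intro Q
    obtain ⟨a, ha, haz⟩ := exists_noncentral_of_sylow R hR Q
    by_contra hcon
    push Not at hcon
    exact haz (center_of_sylow h R hRN hm Q ha (fun y hy => hcon a ha y hy))
  -- an element outside the conjugates of `D`
  obtain ⟨y, hyN, hyD⟩ : ∃ y ∈ N, ∀ n ∈ N, n * y * n⁻¹ ∉ Cn t ⊓ N := by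
    by_contra hcon
    push Not at hcon
    have htop : (Cn t ⊓ N).subgroupOf N = ⊤ := eq_top_of_conj_cover _ (by
      rintro ⟨a, ha⟩
      obtain ⟨n, hn, hna⟩ := hcon a ha
      exact ⟨⟨n, hn⟩, mem_subgroupOf.2 hna⟩)
    have hm' : ∀ u ∈ N, u ∈ Cn t ⊓ N := by
      intro u hu
      have : (⟨u, hu⟩ : N) ∈ (Cn t ⊓ N).subgroupOf N := by rw [htop]; trivial
      exact mem_subgroupOf.1 this
    obtain ⟨a, ha, b, hb, hab⟩ := hQna R
    exact hab (hDcomm b (hm' b (hRN hb)) a (hm' a (hRN ha)))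
  have hyz : y ∉ center G := by
    intro hz
    have h1 := hyD 1 N.one_mem
    apply h1
    have h2 : (1 : G) * y * (1 : G)⁻¹ = y := by group
    rw [h2]
    exact ⟨mem_Cn.2 (mem_center_iff.1 hz t).symm, hyN⟩
  -- the `s`-part bound
  obtain ⟨f, hf1, hf2⟩ := exists_pow_bound N T (center G) hTp (fun x hx => hx.1.2) y hyN (by
    intro n hn u hu hcomm
    by_contra huz
    have h1 : Cn u = Cn t := hCu u hu.1 huz
    have h2 : n * y * n⁻¹ ∈ Cn u := mem_Cn.2 hcomm.symm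
    rw [h1] at h2
    exact hyD n hn ⟨h2, hNn.conj_mem _ hyN n⟩)
  have hf3 : s ^ f ∣ (Cn t).index := by
    have h1 : (Cn y).relIndex N ∣ (Cn y).index := relIndex_dvd_index_of_normal' _ N
    have h2 : (Cn y).index = m := cs_eq h hyN hyz
    have h3 : (Cn t).index = m := cs_eq h htN htz
    rw [h3, ← h2]
    exact hf1.trans h1
  have hf4 := pow_dvd_relIndex Sh (Cn t) hf3
  obtain ⟨τ, hτdef⟩ : ∃ τ, τ = ((center G).subgroupOf T).index := ⟨_, rfl⟩
  have hTcard : Nat.card T = τ * Nat.card (T ⊓ center G : Subgroup G) := by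
    rw [hτdef]
    have := ((center G).subgroupOf T).index_mul_card
    rw [← this]
    congr 1
    apply Nat.card_congr
    exact (⟨fun x => ⟨⟨x.1, x.2.1⟩, x.2.2⟩, fun x => ⟨x.1.1, x.1.2, x.2⟩, fun x => rfl, fun x => rfl⟩ :
      (T ⊓ center G : Subgroup G) ≃ (center G).subgroupOf T).symm
  have hτ2 : 2 ≤ τ := by
    have h0 : τ ≠ 0 := by rw [hτdef]; exact index_ne_zero_of_finite
    have h1 : τ ≠ 1 := by
      rw [hτdef]
      intro h1
      rw [index_eq_one] at h1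
      have : (⟨t, htT⟩ : T) ∈ (center G).subgroupOf T := by rw [h1]; trivial
      exact htz (mem_subgroupOf.1 this)
    omega
  have hτle : τ ≤ (Cn t).relIndex (Sh : Subgroup G) := by
    have h1 : τ ≤ s ^ f := by
      rw [hTcard] at hf2
      exact Nat.le_of_mul_le_mul_right hf2 Nat.card_pos
    exact h1.trans (Nat.le_of_dvd (Nat.pos_of_dvd_of_pos hms1 (by omega)) hf4)
  -- the subgroup `W`
  have hW : ∃ W : Subgroup G, IsPGroup r W ∧ (∀ w ∈ W, ∀ v ∈ Cn t, w * v * w⁻¹ ∈ Cn t) ∧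
      (∀ w ∈ W, w ∈ Cn t → w ∈ center G) ∧ Nat.card Dr ≤ Nat.card W := by
    obtain ⟨Q, hQ⟩ := hDrp.exists_le_sylow
    have hQN : (Q : Subgroup G) ≤ N := fun x hx => by
      obtain ⟨k, hk⟩ := exists_pow_of_isPGroup Q.2 hx
      exact hrel hk
    haveI : Group.IsNilpotent (Q : Subgroup G) := Q.2.isNilpotent
    let Dr' : Subgroup (Q : Subgroup G) := Dr.subgroupOf (Q : Subgroup G)
    let P₁ : Subgroup (Q : Subgroup G) := normalizer (Dr' : Set (Q : Subgroup G))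
    have hnc := Group.normalizerCondition_of_isNilpotent (G := (Q : Subgroup G))
    have hc' : (⟨c, hQ hcDr⟩ : (Q : Subgroup G)) ∈ Dr' := mem_subgroupOf.2 hcDr
    by_cases hP : P₁ = ⊤
    · -- every element of `Q` normalizes `Dr`
      have hNormQ : ∀ g ∈ (Q : Subgroup G), ∀ x ∈ Dr, g * x * g⁻¹ ∈ Dr := by
        intro g hg x hx
        have h1 : (⟨g, hg⟩ : (Q : Subgroup G)) ∈ P₁ := by rw [hP]; trivial
        have h2 := (mem_normalizer_iff.1 h1 ⟨x, hQ hx⟩).1 (mem_subgroupOf.2 hx)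
        exact mem_subgroupOf.1 h2
      have hQH : ∀ g ∈ (Q : Subgroup G), ∀ v ∈ Cn t, g * v * g⁻¹ ∈ Cn t :=
        fun g hg => hnH g c hcDr.1 hcz (hNormQ g hg c hcDr).1
      -- a non-central `r`-element with no conjugate in `D`
      obtain ⟨c₁, hc₁N, hc₁z, k₁, hk₁, hc₁D⟩ : ∃ c₁ ∈ N, c₁ ∉ center G ∧ ∃ k : ℕ, c₁ ^ (r ^ k) = 1 ∧
          ∀ n ∈ N, n * c₁ * n⁻¹ ∉ Cn t ⊓ N := by
        obtain ⟨y₁, y₂, hy, hcy, ⟨k, hk⟩, hy₂, hy₁z, hy₂z⟩ :=
          Cfsg.Agent.Lib.PResid.exists_decomp (p := r) y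
        have hy₁N : y₁ ∈ N := (zpowers_le.2 hyN) hy₁z
        have hy₂N : y₂ ∈ N := (zpowers_le.2 hyN) hy₂z
        by_cases hz : y₂ ∈ center G
        · refine ⟨y₁, hy₁N, ?_, k, hk, ?_⟩
          · intro hy₁c
            exact hyz (hy ▸ (center G).mul_mem hy₁c hz)
          · intro n hn hmem
            apply hyD n hn
            have h1 : n * y * n⁻¹ = (n * y₁ * n⁻¹) * (n * y₂ * n⁻¹) := by rw [hy]; group
            rw [h1]
            refine (Cn t ⊓ N).mul_mem hmem ?_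
            have h2 : n * y₂ * n⁻¹ ∈ center G := conj_mem_center_iff.2 hz
            exact ⟨mem_Cn.2 (mem_center_iff.1 h2 t).symm, hNn.conj_mem _ hy₂N n⟩
        · obtain ⟨c₁, hc₁, hc₁z, k₁, hk₁⟩ := exists_commuting h R hR hRN hm hy₂N hz
          have hC : Cn c₁ = Cn y₂ :=
            cent_eq h (hrel hk₁) hc₁z hy₂N hz (mem_Cn.1 hc₁) (coprime_orderOf hk₁ hy₂)
          refine ⟨c₁, hrel hk₁, hc₁z, k₁, hk₁, ?_⟩
          intro n hn hmem
          have h1 : Cn (n * c₁ * n⁻¹) = Cn t := hCu _ hmem (by rwa [conj_mem_center_iff])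
          have hyC : y ∈ Cn c₁ := by
            rw [hC, mem_Cn, hy]
            calc y₁ * y₂ * y₂ = (y₂ * y₁) * y₂ := by rw [hcy.eq]
              _ = y₂ * (y₁ * y₂) := by group
          have h2 := conj_mem_Cn (g := n) hyC
          rw [h1] at h2
          exact hyD n hn ⟨h2, hNn.conj_mem _ hyN n⟩
      -- a Sylow subgroup of `C(c₁)` containing `c₁`
      have hzc : IsPGroup r (zpowers (⟨c₁, mem_Cn.2 rfl⟩ : Cn c₁)) := by
        rintro ⟨x, hx⟩
        obtain ⟨i, rfl⟩ := mem_zpowers_iff.1 hx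
        refine ⟨k₁, Subtype.ext (Subtype.ext ?_)⟩
        show (c₁ ^ i) ^ (r ^ k₁) = 1
        rw [← zpow_natCast, ← zpow_mul, mul_comm, zpow_mul, zpow_natCast, hk₁, one_zpow]
      obtain ⟨V₀, hV₀⟩ := hzc.exists_le_sylow
      let V₁ : Subgroup G := (V₀ : Subgroup (Cn c₁)).map (Cn c₁).subtype
      have hV₁p : IsPGroup r V₁ := V₀.2.map _
      have hV₁C : V₁ ≤ Cn c₁ := by
        rintro x ⟨z, _, rfl⟩
        exact z.2
      have hV₁card : Nat.card Dr ≤ Nat.card V₁ := by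
        obtain ⟨j, hj⟩ := (IsPGroup.iff_card).1 hDrp
        have h1 : Nat.card V₁ = Nat.card V₀ := card_map_of_injective (Cn c₁).subtype_injective
        have hcardC : Nat.card (Cn t) = Nat.card (Cn c₁) := by
          have h2 : (Cn t).index = (Cn c₁).index :=
            (cs_eq h htN htz).trans (cs_eq h hc₁N hc₁z).symm
          have h3 := (Cn t).index_mul_card
          have h4 := (Cn c₁).index_mul_card
          rw [h2, ← h4] at h3
          exact Nat.eq_of_mul_eq_mul_left (Nat.pos_of_ne_zero index_ne_zero_of_finite) h3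
        have h5 : r ^ j ∣ Nat.card (Cn c₁) := by
          rw [← hcardC, ← hj]
          exact card_dvd_of_le (fun x hx => hx.1.1)
        have h6 := V₀.pow_dvd_card_of_pow_dvd_card h5
        rw [h1, hj]
        exact Nat.le_of_dvd Nat.card_pos h6
      obtain ⟨n, hn, hnV⟩ := exists_conj_le_sylow Q hQN V₁ hV₁p
      refine ⟨V₁.map (MulAut.conj n).toMonoidHom, hV₁p.map _, ?_, ?_, ?_⟩
      · rintro w ⟨v, hv, rfl⟩
        exact hQH _ (hnV v hv)
      · rintro w ⟨v, hv, rfl⟩ hwH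
        by_contra hwz
        have hw' : (MulAut.conj n).toMonoidHom v = n * v * n⁻¹ := rfl
        rw [hw'] at hwH hwz
        obtain ⟨kv, hkv⟩ := exists_pow_of_isPGroup hV₁p hv
        have hwr : (n * v * n⁻¹) ^ (r ^ kv) = 1 := by rw [conj_pow, hkv]; group
        have hwD : n * v * n⁻¹ ∈ Cn t ⊓ N := ⟨hwH, hrel hwr⟩
        have h1 : Cn (n * v * n⁻¹) = Cn t := hCu _ hwD hwz
        have h2 := conj_mem_Cn (g := n) (hV₁C hv)
        have h3 : n * c₁ * n⁻¹ ∈ Cn (n * v * n⁻¹) := mem_Cn.2 (mem_Cn.1 h2).symm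
        rw [h1] at h3
        exact hc₁D n hn ⟨h3, hNn.conj_mem _ hc₁N n⟩
      · have : Nat.card (V₁.map (MulAut.conj n).toMonoidHom) = Nat.card V₁ :=
          card_map_of_injective (MulAut.conj n).injective
        rw [this]
        exact hV₁card
    · -- some element of `Q` moves `Dr` to a subgroup normalizing it
      have hlt : P₁ < ⊤ := lt_top_iff_ne_top.2 hP
      have hlt2 := hnc P₁ hlt
      obtain ⟨g, hg, hgP⟩ := SetLike.exists_of_lt hlt2
      have hg1 : ∀ x ∈ Dr, ∀ d ∈ Dr, ((g : G) * x * (g : G)⁻¹) * d * ((g : G) * x * (g : G)⁻¹)⁻¹ ∈ Dr := by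
        intro x hx d hd
        have hx1 : (⟨x, hQ hx⟩ : (Q : Subgroup G)) ∈ P₁ :=
          (le_normalizer (H := Dr')) (mem_subgroupOf.2 hx)
        have hx2 := (mem_normalizer_iff.1 hg ⟨x, hQ hx⟩).1 hx1
        have hx3 := (mem_normalizer_iff.1 hx2 ⟨d, hQ hd⟩).1 (mem_subgroupOf.2 hd)
        exact mem_subgroupOf.1 hx3
      have hgr : ∀ x ∈ Dr, ∃ k : ℕ, ((g : G) * x * (g : G)⁻¹) ^ (r ^ k) = 1 := by
        rintro x ⟨-, k, hk⟩
        exact ⟨k, by rw [conj_pow, hk]; group⟩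
      refine ⟨Dr.map (MulAut.conj (g : G)).toMonoidHom, hDrp.map _, ?_, ?_, ?_⟩
      · rintro w ⟨x, hx, rfl⟩
        exact hnH _ c hcDr.1 hcz (hg1 x hx c hcDr).1
      · rintro w ⟨x, hx, rfl⟩ hwH
        by_contra hwz
        have hw' : (MulAut.conj (g : G)).toMonoidHom x = (g : G) * x * (g : G)⁻¹ := rfl
        rw [hw'] at hwH hwz
        have hwDr : (g : G) * x * (g : G)⁻¹ ∈ Dr := hrelD _ hwH (hgr x hx)
        have hxz : x ∉ center G := by
          rwa [conj_mem_center_iff] at hwz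
        have hgH : ∀ v ∈ Cn t, (g : G) * v * (g : G)⁻¹ ∈ Cn t :=
          hnH (g : G) x hx.1 hxz hwDr.1
        have hgH' : ∀ v ∈ Cn t, (g : G)⁻¹ * v * (g : G) ∈ Cn t := by
          have h1 := hnH (g : G)⁻¹ _ hwDr.1 hwz (by
            have : (g : G)⁻¹ * ((g : G) * x * (g : G)⁻¹) * (g : G)⁻¹⁻¹ = x := by group
            rw [this]; exact hx.1)
          intro v hv
          have h2 := h1 v hv
          rwa [inv_inv] at h2
        apply hgP
        refine mem_normalizer_iff.2 (fun d => ?_)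
        constructor
        · intro hd
          have hd1 : (d : G) ∈ Dr := mem_subgroupOf.1 hd
          refine mem_subgroupOf.2 (hrelD _ (hgH _ hd1.1.1) ?_)
          obtain ⟨k, hk⟩ := hd1.2
          exact ⟨k, by
            show ((g : G) * (d : G) * (g : G)⁻¹) ^ (r ^ k) = 1
            rw [conj_pow, hk]; group⟩
        · intro hd
          have hd1 : ((g * d * g⁻¹ : (Q : Subgroup G)) : G) ∈ Dr := mem_subgroupOf.1 hd
          have hd2 : (g : G) * (d : G) * (g : G)⁻¹ ∈ Cn t := hd1.1.1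
          have hd3 := hgH' _ hd2
          have hd4 : (g : G)⁻¹ * ((g : G) * (d : G) * (g : G)⁻¹) * (g : G) = d := by group
          rw [hd4] at hd3
          exact mem_subgroupOf.2 (hrelD _ hd3 (exists_pow_of_isPGroup Q.2 d.2))
      · have : Nat.card (Dr.map (MulAut.conj (g : G)).toMonoidHom) = Nat.card Dr :=
          card_map_of_injective (MulAut.conj (g : G)).injective
        rw [this]
  obtain ⟨W, hWp, hW1, hW2, hW3⟩ := hW
  have hX₂ := relIndex_dvd_ncard W (Cn t) {x | x ∈ T ∧ x ∉ center G}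
    (by
      rintro w hw x ⟨⟨hxD, k, hk⟩, hxz⟩
      refine ⟨⟨hconjD w (hW1 w hw) x hxD, k, ?_⟩, by rwa [conj_mem_center_iff]⟩
      rw [conj_pow, hk]; group)
    (by
      rintro x ⟨hxT, hxz⟩ w hw
      have h1 : Cn x = Cn t := hCu x hxT.1 hxz
      rw [← h1, mem_Cn])
  rw [ncard_diff, ← hτdef] at hX₂
  have he1 : (Cn t).relIndex W ∣ τ - 1 := by
    have hco : ((Cn t).relIndex W).Coprime (Nat.card (T ⊓ center G : Subgroup G)) := by
      have h1 := IsPGroup.coprime_card_of_ne r s hsr.symm W (T ⊓ center G : Subgroup G) hWp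
        (hTp.to_le inf_le_left)
      exact Nat.Coprime.coprime_dvd_left (relIndex_dvd_card _ _) h1
    exact hco.dvd_of_dvd_mul_left hX₂
  have he2 : (Cn t).relIndex W ≤ τ - 1 := Nat.le_of_dvd (by omega) he1
  have hcardW : (Cn t).relIndex W * Nat.card (Cn t ⊓ W : Subgroup G) = Nat.card W := by
    have := ((Cn t).subgroupOf W).index_mul_card
    rw [← this]
    congr 1
    apply Nat.card_congr
    exact ⟨fun x => ⟨⟨x.1, x.2.2⟩, x.2.1⟩, fun x => ⟨x.1.1, x.2, x.1.2⟩, fun x => rfl, fun x => rfl⟩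
  have hinfle : Nat.card (Cn t ⊓ W : Subgroup G) ≤ Nat.card (Dr ⊓ center G : Subgroup G) :=
    card_le_of_le (by
      intro w hw
      have hwc := hW2 w hw.2 hw.1
      exact ⟨hrelD w hw.1 (exists_pow_of_isPGroup hWp hw.2), hwc⟩)
  have hAe : A ≤ (Cn t).relIndex W := by
    by_contra hlt
    push Not at hlt
    have zrpos : 0 < Nat.card (Dr ⊓ center G : Subgroup G) := Nat.card_pos
    have h1 : Nat.card W < Nat.card Dr := by
      rw [← hcardW, hDrcard]
      calc (Cn t).relIndex W * Nat.card (Cn t ⊓ W : Subgroup G)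
          ≤ (Cn t).relIndex W * Nat.card (Dr ⊓ center G : Subgroup G) := by gcongr
        _ < A * Nat.card (Dr ⊓ center G : Subgroup G) := by gcongr
    omega
  omega

/-- If all `r'`-elements of `N` are central, then `N` is nilpotent. -/
theorem nilpotent_of_central {r : ℕ} [Fact r.Prime] (N : Subgroup G)
    (hc : ∀ t ∈ N, (orderOf t).Coprime r → t ∈ center G) : Group.IsNilpotent N := by
  have hp : IsPGroup r (N ⧸ center N) := by
    intro y
    induction y using QuotientGroup.induction_on with | _ u => ?_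
    obtain ⟨a, b, hab, hcomm, ⟨k, hk⟩, hb, ha, hb'⟩ := Cfsg.Agent.Lib.PResid.exists_decomp (p := r) u
    refine ⟨k, ?_⟩
    have hbc : (b : G) ∈ center G := by
      apply hc _ b.2
      rwa [Subgroup.orderOf_coe]
    have hbc' : b ∈ center N := by
      rw [mem_center_iff]
      intro g
      exact Subtype.ext ((mem_center_iff.1 hbc) g)
    rw [hab, QuotientGroup.mk_mul_of_mem _ hbc', ← QuotientGroup.mk_pow, hk]
    rfl
  haveI := hp.isNilpotent
  exact Group.of_quotient_center_nilpotent this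

theorem main_thm (r : ℕ) [Fact r.Prime]
    (R : Sylow r G) (hR : ¬ (R : Subgroup G) ≤ Subgroup.center G) (N : Subgroup G) [N.Normal]
    (hRN : (R : Subgroup G) ≤ N) (m : ℕ)
    (h : ∀ x ∈ N, cs x = 1 ∨ cs x = m) : Group.IsNilpotent N := by
  by_cases hc : ∀ t ∈ N, (orderOf t).Coprime r → t ∈ center G
  · exact nilpotent_of_central (r := r) N hc
  · push Not at hc
    obtain ⟨t, htN, htc, htz⟩ := hc
    by_cases hm : r ∣ m
    · exact (case2 h R hR hRN hm htN htz htc).elim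
    · have hab := case1 h R hR hRN hm htN htz htc
      let inst : CommGroup N :=
        { (inferInstance : Group N) with mul_comm := fun a b => Subtype.ext (hab a a.2 b b.2) }
      exact @CommGroup.isNilpotent N inst

/-- Let G be a finite group, r a prime and R a Sylow r-subgroup of G that is not central, N a normal subgroup of G containing R, and m a natural number such that every element of N has a conjugacy class in G of size 1 or m. Then N is nilpotent. -/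
theorem result {G : Type*} [Group G] [Finite G] (r : ℕ) [Fact r.Prime]
    (R : Sylow r G) (hR : ¬ (R : Subgroup G) ≤ Subgroup.center G) (N : Subgroup G) [N.Normal] (hRN : (R : Subgroup G) ≤ N)
    (m : ℕ) (h : ∀ x ∈ N, (Subgroup.centralizer ({x} : Set G)).index = 1 ∨ (Subgroup.centralizer ({x} : Set G)).index = m) : Group.IsNilpotent N :=
  main_thm r R hR N hRN m h

end Cfsg.Agent.S4135
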