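import Mathlib
import Cfsg.Statements.S4139
import Cfsg.Agent.Lib.PComplement

set_option autoImplicit false
open Cfsg

namespace Cfsg.Agent.S4139

open Subgroup
open scoped Pointwise

section basics

variable {X : Type*} [Group X]

/-- The size of the class of `x`. -/
noncomputable abbrev ix (x : X) : ℕ := (centralizer ({x} : Set X)).index

lemma mem_C {x g : X} : g ∈ centralizer ({x} : Set X) ↔ g * x = x * g := by
  simp [Subgroup.mem_centralizer_iff, eq_comm]

lemma ix_conj (x g : X) : ix (g * x * g⁻¹) = ix x := by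
  have h1 : centralizer ({g * x * g⁻¹} : Set X) =
      (centralizer ({x} : Set X)).map (MulAut.conj g).toMonoidHom := by
    ext z
    simp only [Subgroup.mem_centralizer_iff, Set.mem_singleton_iff, forall_eq, Subgroup.mem_map]
    constructor
    · intro h
      refine ⟨g⁻¹ * z * g, ?_, by simp [MulAut.conj_apply]; group⟩
      have h2 : g⁻¹ * (g * x * g⁻¹ * z) * g = g⁻¹ * (z * (g * x * g⁻¹)) * g := by rw [h]
      calc x * (g⁻¹ * z * g) = g⁻¹ * (g * x * g⁻¹ * z) * g := by group
        _ = g⁻¹ * (z * (g * x * g⁻¹)) * g := h2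
        _ = g⁻¹ * z * g * x := by group
    · rintro ⟨w, hw, rfl⟩
      simp only [MulEquiv.coe_toMonoidHom, MulAut.conj_apply]
      calc g * x * g⁻¹ * (g * w * g⁻¹) = g * (x * w) * g⁻¹ := by group
        _ = g * (w * x) * g⁻¹ := by rw [hw]
        _ = g * w * g⁻¹ * (g * x * g⁻¹) := by group
  exact (congrArg Subgroup.index h1).trans
    (Subgroup.index_map_of_bijective (MulAut.conj g).bijective _)

lemma ix_mul_central {z : X} (hz : z ∈ center X) (x : X) : ix (x * z) = ix x := by
  have h : centralizer ({x * z} : Set X) = centralizer ({x} : Set X) := by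
    ext g
    rw [mem_C, mem_C]
    have hc : g * z = z * g := (Subgroup.mem_center_iff.mp hz g)
    constructor
    · intro h
      have h2 : g * x * z = x * g * z := by
        calc g * x * z = g * (x * z) := by group
          _ = x * z * g := h
          _ = x * (z * g) := by group
          _ = x * (g * z) := by rw [hc]
          _ = x * g * z := by group
      exact mul_right_cancel h2
    · intro h
      calc g * (x * z) = g * x * z := by group
        _ = x * g * z := by rw [h]
        _ = x * (g * z) := by group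
        _ = x * (z * g) := by rw [hc]
        _ = x * z * g := by group
  exact congrArg Subgroup.index h

lemma ix_eq_one_iff {x : X} : ix x = 1 ↔ x ∈ center X := by
  rw [Subgroup.index_eq_one, Subgroup.mem_center_iff]
  constructor
  · intro h g
    have : g ∈ centralizer ({x} : Set X) := h ▸ mem_top g
    exact mem_C.mp this
  · intro h
    rw [eq_top_iff]
    intro g _
    exact mem_C.mpr (h g)

lemma ix_dvd_of_mem_zpowers {x y : X} (hy : y ∈ zpowers x) [Finite X] : ix y ∣ ix x := by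
  apply Subgroup.index_dvd_of_le
  intro g hg
  rw [mem_C] at hg ⊢
  obtain ⟨k, rfl⟩ := hy
  exact (show Commute g x from hg).zpow_right k

variable [Finite X]

lemma card_carrier (x : X) : Nat.card (ConjClasses.mk x).carrier = ix x := by
  have h0 : ix x = (MulAction.stabilizer (ConjAct X) x).index := by
    have h1 := Subgroup.index_comap_of_surjective
      (f := (ConjAct.toConjAct (G := X)).toMonoidHom)
      (MulAction.stabilizer (ConjAct X) x) (ConjAct.toConjAct (G := X)).surjective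
    exact (congrArg Subgroup.index (Subgroup.centralizer_eq_comap_stabilizer x)).trans h1
  rw [h0, MulAction.index_stabilizer, ConjAct.orbit_eq_carrier_conjClasses, Nat.card_coe_set_eq]

/-- The number of classes of size `k`. -/
noncomputable abbrev cc (X : Type*) [Group X] (k : ℕ) : ℕ :=
  Nat.card {C : ConjClasses X // Nat.card C.carrier = k}

lemma card_ix_eq (k : ℕ) : Nat.card {x : X // ix x = k} = cc X k * k := by
  classical
  have e : {x : X // ix x = k} ≃ Σ C : {C : ConjClasses X // Nat.card C.carrier = k}, C.1.carrier :=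
    { toFun := fun x => ⟨⟨ConjClasses.mk x.1, by rw [card_carrier]; exact x.2⟩,
        ⟨x.1, ConjClasses.mem_carrier_mk⟩⟩
      invFun := fun q => ⟨q.2.1, by
        have h1 : ConjClasses.mk q.2.1 = q.1.1 := ConjClasses.mem_carrier_iff_mk_eq.mp q.2.2
        rw [← card_carrier, h1]; exact q.1.2⟩
      left_inv := fun x => rfl
      right_inv := by
        rintro ⟨⟨C, hC⟩, ⟨y, hy⟩⟩
        have h1 : ConjClasses.mk y = C := ConjClasses.mem_carrier_iff_mk_eq.mp hy
        subst h1
        rfl }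
  rw [Nat.card_congr e]
  haveI : Fintype {C : ConjClasses X // Nat.card C.carrier = k} := Fintype.ofFinite _
  rw [Nat.card_sigma]
  rw [Finset.sum_congr rfl (fun C _ => C.2)]
  rw [Finset.sum_const, smul_eq_mul, Finset.card_univ]
  show _ = Nat.card _ * k
  rw [Nat.card_eq_fintype_card]

lemma ix_le (x : X) : ix x ≤ Nat.card X := by
  apply Nat.le_of_dvd Nat.card_pos
  exact Subgroup.index_dvd_card _

open Classical in
lemma card_pred (S : ℕ → Prop) (B : ℕ) (hB : Nat.card X ≤ B) :
    Nat.card {x : X // S (ix x)} =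
      ∑ k ∈ (Finset.range (B + 1)).filter (fun k => S k), cc X k * k := by
  classical
  letI := Fintype.ofFinite X
  rw [Nat.card_eq_fintype_card, Fintype.card_subtype]
  have hmaps : ∀ x ∈ Finset.univ.filter (fun x : X => S (ix x)),
      ix x ∈ (Finset.range (B + 1)).filter (fun k => S k) := by
    intro x hx
    simp only [Finset.mem_filter, Finset.mem_univ, true_and] at hx
    simp only [Finset.mem_filter, Finset.mem_range]
    exact ⟨Nat.lt_succ_of_le ((ix_le x).trans hB), hx⟩
  rw [Finset.card_eq_sum_card_fiberwise hmaps]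
  refine Finset.sum_congr rfl fun k hk => ?_
  simp only [Finset.mem_filter, Finset.mem_range] at hk
  rw [← card_ix_eq, Nat.card_eq_fintype_card, Fintype.card_subtype]
  congr 1
  ext x
  simp only [Finset.mem_filter, Finset.mem_univ, true_and]
  constructor
  · rintro ⟨_, h⟩
    exact h
  · intro h
    exact ⟨h ▸ hk.2, h⟩

lemma card_pred_eq {G H : Type*} [Group G] [Finite G] [Group H] [Finite H]
    (h : ∀ k : ℕ, cc G k = cc H k) (S : ℕ → Prop) :
    Nat.card {x : G // S (ix x)} = Nat.card {x : H // S (ix x)} := by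
  rw [card_pred S (Nat.card G + Nat.card H) (Nat.le_add_right _ _),
    card_pred S (Nat.card G + Nat.card H) (Nat.le_add_left _ _)]
  refine Finset.sum_congr rfl fun k _ => ?_
  rw [h]

lemma card_eq_of_cc {G H : Type*} [Group G] [Finite G] [Group H] [Finite H]
    (h : ∀ k : ℕ, cc G k = cc H k) : Nat.card G = Nat.card H := by
  have := card_pred_eq h (fun _ => True)
  rw [Nat.card_congr (Equiv.subtypeUnivEquiv (fun _ => trivial)),
    Nat.card_congr (Equiv.subtypeUnivEquiv (fun _ => trivial))] at this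
  exact this

end basics

section nil

lemma ix_equiv {A B : Type*} [Group A] [Group B] (e : A ≃* B) (y : A) : ix (e y) = ix y := by
  have h : centralizer ({e y} : Set B) = (centralizer ({y} : Set A)).map e.toMonoidHom := by
    ext z
    rw [mem_C, Subgroup.mem_map]
    constructor
    · intro hz
      refine ⟨e.symm z, ?_, by simp⟩
      rw [mem_C]
      apply e.injective
      simpa using hz
    · rintro ⟨w, hw, rfl⟩
      rw [mem_C] at hw
      show e w * e y = e y * e w
      rw [← map_mul, ← map_mul, hw]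
  exact (congrArg Subgroup.index h).trans (Subgroup.index_map_of_bijective e.bijective _)

lemma ix_prod {A B : Type*} [Group A] [Group B] (a : A) (b : B) :
    ix ((a, b) : A × B) = ix a * ix b := by
  have h : centralizer ({(a, b)} : Set (A × B)) =
      (centralizer ({a} : Set A)).prod (centralizer ({b} : Set B)) := by
    ext ⟨c, d⟩
    rw [Subgroup.mem_prod, mem_C, mem_C, mem_C]
    simp [Prod.ext_iff]
  exact (congrArg Subgroup.index h).trans (Subgroup.index_prod _ _)

lemma card_ix_one (X : Type*) [Group X] [Finite X] :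
    Nat.card {x : X // ix x = 1} = Nat.card (center X) := by
  apply Nat.card_congr
  apply Equiv.subtypeEquivRight
  intro x
  exact ix_eq_one_iff

variable {p : ℕ} [hp : Fact p.Prime]

lemma prod_counts {A B : Type*} [Group A] [Finite A] [Group B] [Finite B]
    (hA : IsPGroup p A) (hB : (Nat.card B).Coprime p) :
    Nat.card {x : A × B // ix x = 1} = Nat.card (center A) * Nat.card (center B) ∧
    Nat.card {x : A × B // ¬ p ∣ ix x} = Nat.card (center A) * Nat.card B ∧
    Nat.card {x : A × B // ∃ k : ℕ, ix x = p ^ k} = Nat.card A * Nat.card (center B) := by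
  have hix1 : ∀ a : A, ∃ k : ℕ, ix a = p ^ k := by
    intro a
    obtain ⟨n, hn⟩ := IsPGroup.iff_card.mp hA
    have h1 : ix a ∣ p ^ n := hn ▸ Subgroup.index_dvd_card _
    obtain ⟨k, _, hk⟩ := (Nat.dvd_prime_pow hp.out).mp h1
    exact ⟨k, hk⟩
  have hix2 : ∀ b : B, (ix b).Coprime p := fun b =>
    Nat.Coprime.coprime_dvd_left (Subgroup.index_dvd_card _) hB
  have hpp := hp.out
  refine ⟨?_, ?_, ?_⟩
  · have e : {x : A × B // ix x = 1} ≃ {a : A // ix a = 1} × {b : B // ix b = 1} := by
      refine (Equiv.subtypeEquivRight ?_).trans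
        (Equiv.subtypeProdEquivProd (p := fun a : A => ix a = 1) (q := fun b : B => ix b = 1))
      rintro ⟨a, b⟩
      show ix ((a, b) : A × B) = 1 ↔ ix a = 1 ∧ ix b = 1
      rw [ix_prod]
      constructor
      · intro h
        exact ⟨Nat.eq_one_of_mul_eq_one_right h, Nat.eq_one_of_mul_eq_one_left h⟩
      · rintro ⟨h1, h2⟩
        rw [h1, h2]
    rw [Nat.card_congr e, Nat.card_prod, card_ix_one, card_ix_one]
  · have e : {x : A × B // ¬ p ∣ ix x} ≃ {a : A // ix a = 1} × {b : B // True} := by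
      refine (Equiv.subtypeEquivRight ?_).trans
        (Equiv.subtypeProdEquivProd (p := fun a : A => ix a = 1) (q := fun b : B => True))
      rintro ⟨a, b⟩
      show ¬ p ∣ ix ((a, b) : A × B) ↔ ix a = 1 ∧ True
      rw [ix_prod, and_true]
      obtain ⟨k, hk⟩ := hix1 a
      have hb : ¬ p ∣ ix b := fun h => hpp.one_lt.ne' (Nat.Coprime.eq_one_of_dvd (hix2 b).symm h)
      rw [hpp.dvd_mul, not_or, hk]
      constructor
      · rintro ⟨h1, -⟩
        cases k with
        | zero => simp
        | succ k => exact absurd (dvd_pow_self p (Nat.succ_ne_zero k)) h1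
      · intro h
        refine ⟨?_, hb⟩
        rw [h]
        exact fun h => hpp.one_lt.ne' (Nat.dvd_one.mp h)
    rw [Nat.card_congr e, Nat.card_prod, card_ix_one,
      Nat.card_congr (Equiv.subtypeUnivEquiv (fun _ => trivial))]
  · have e : {x : A × B // ∃ k : ℕ, ix x = p ^ k} ≃ {a : A // True} × {b : B // ix b = 1} := by
      refine (Equiv.subtypeEquivRight ?_).trans
        (Equiv.subtypeProdEquivProd (p := fun a : A => True) (q := fun b : B => ix b = 1))
      rintro ⟨a, b⟩
      show (∃ k : ℕ, ix ((a, b) : A × B) = p ^ k) ↔ True ∧ ix b = 1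
      rw [ix_prod, true_and]
      obtain ⟨k, hk⟩ := hix1 a
      constructor
      · rintro ⟨j, hj⟩
        have h1 : ix b ∣ p ^ j := hj ▸ dvd_mul_left _ _
        exact Nat.Coprime.eq_one_of_dvd ((hix2 b).pow_right j) h1
      · intro h
        exact ⟨k, by rw [h, hk, mul_one]⟩
    rw [Nat.card_congr e, Nat.card_prod, card_ix_one,
      Nat.card_congr (Equiv.subtypeUnivEquiv (fun _ => trivial))]

/-- Numerical data of a nilpotent group at the prime `p`. -/
theorem nilp_counts (H : Type*) [Group H] [Finite H] [hnil : Group.IsNilpotent H] (p : ℕ)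
    [hp : Fact p.Prime] :
    ∃ s t a b : ℕ, Nat.card H = s * t ∧ (∃ k, s = p ^ k) ∧ t.Coprime p ∧ (∃ k, a = p ^ k) ∧
      b.Coprime p ∧ Nat.card {x : H // ix x = 1} = a * b ∧
      Nat.card {x : H // ¬ p ∣ ix x} = a * t ∧
      Nat.card {x : H // ∃ k : ℕ, ix x = p ^ k} = s * b := by
  classical
  obtain ⟨P⟩ : Nonempty (Sylow p H) := inferInstance
  haveI hPn : (P : Subgroup H).Normal := by
    have hN := (Group.isNilpotent_of_finite_tfae (G := H)).out 0 3 rfl rfl
    exact (hN.1 hnil) p hp P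
  have hcop : Nat.Coprime (Nat.card (P : Subgroup H)) (P : Subgroup H).index :=
    P.card_coprime_index
  obtain ⟨T, hT⟩ := Subgroup.exists_right_complement'_of_coprime hcop
  have hcard : Nat.card (P : Subgroup H) * Nat.card T = Nat.card H := hT.card_mul_card
  have hTidx : Nat.card T = (P : Subgroup H).index := by
    have h1 := Subgroup.card_mul_index (P : Subgroup H)
    have h2 : 0 < Nat.card (P : Subgroup H) := Nat.card_pos
    exact Nat.eq_of_mul_eq_mul_left h2 (hcard.trans h1.symm)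
  have hTp : (Nat.card T).Coprime p := by
    obtain ⟨n, hn⟩ := IsPGroup.iff_card.mp P.isPGroup'
    rw [hTidx]
    rw [hn] at hcop
    by_cases h0 : n = 0
    · subst h0
      rw [pow_zero] at hn
      have h3 : Nat.Coprime (P : Subgroup H).index p := by
        have hP1 : ¬ p ∣ (P : Subgroup H).index := P.not_dvd_index
        exact ((Nat.Prime.coprime_iff_not_dvd hp.out).mpr hP1).symm
      exact h3
    · exact ((Nat.Prime.coprime_iff_not_dvd hp.out).mpr P.not_dvd_index).symm
  have hcomm : ∀ (a : (P : Subgroup H)) (b : T), Commute ((P : Subgroup H).subtype a) (T.subtype b) := by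
    intro a b
    show (a : H) * b = b * a
    apply Cfsg.Agent.Lib.PComplement.commute_of_isNilpotent (p := p)
    · obtain ⟨k, hk⟩ := P.isPGroup' a
      refine ⟨k, ?_⟩
      have := congrArg (Subtype.val) hk
      simpa using this
    · have h1 : orderOf (b : H) ∣ Nat.card T := by
        rw [Subgroup.orderOf_coe]
        exact orderOf_dvd_natCard b
      exact Nat.Coprime.coprime_dvd_left h1 hTp
  let f := MonoidHom.noncommCoprod (P : Subgroup H).subtype T.subtype hcomm
  have hf : Function.Bijective f := by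
    have h2 := hT
    exact h2
  let e : ↥(P : Subgroup H) × ↥T ≃* H := MulEquiv.ofBijective f hf
  obtain ⟨h1, h2, h3⟩ := prod_counts (p := p) (A := (P : Subgroup H)) (B := T) P.isPGroup' hTp
  have tr : ∀ Q : ℕ → Prop, Nat.card {x : H // Q (ix x)} =
      Nat.card {y : ↥(P : Subgroup H) × ↥T // Q (ix y)} := by
    intro Q
    symm
    apply Nat.card_congr
    refine Equiv.subtypeEquiv e.toEquiv ?_
    intro y
    show Q (ix y) ↔ Q (ix (e y))
    rw [ix_equiv]
  refine ⟨Nat.card (P : Subgroup H), Nat.card T, Nat.card (center (P : Subgroup H)),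
    Nat.card (center T), hcard.symm, ?_, hTp, ?_, ?_, ?_, ?_, ?_⟩
  · obtain ⟨k, hk⟩ := IsPGroup.iff_card.mp P.isPGroup'
    exact ⟨k, hk⟩
  · obtain ⟨k, hk⟩ := IsPGroup.iff_card.mp (P.isPGroup'.to_subgroup (center (P : Subgroup H)))
    exact ⟨k, hk⟩
  · exact Nat.Coprime.coprime_dvd_left (Subgroup.card_subgroup_dvd_card _) hTp
  · rw [tr (fun n => n = 1)]; exact h1
  · rw [tr (fun n => ¬ p ∣ n)]; exact h2
  · rw [tr (fun n => ∃ k : ℕ, n = p ^ k)]; exact h3

end nil

section Gside

variable {G : Type*} [Group G] [Finite G] {p : ℕ} [hp : Fact p.Prime]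

lemma fact_val (j b : ℕ) (hb : b.Coprime p) (hb0 : b ≠ 0) : (p ^ j * b).factorization p = j := by
  have hpp := hp.out
  rw [Nat.factorization_mul (pow_ne_zero _ hpp.ne_zero) hb0, Finsupp.add_apply,
    Nat.Prime.factorization_pow hpp, Finsupp.single_eq_same,
    Nat.factorization_eq_zero_of_not_dvd, add_zero]
  intro h
  exact hpp.one_lt.ne' (Nat.Coprime.eq_one_of_dvd hb.symm h)

lemma not_dvd_ix_of_sylow_le (P : Sylow p G) {x : G} (h : (P : Subgroup G) ≤ centralizer ({x} : Set G)) :
    ¬ p ∣ ix x :=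
  fun hd => P.not_dvd_index (hd.trans (Subgroup.index_dvd_of_le h))

lemma exists_sylow_le_of_not_dvd {x : G} (h : ¬ p ∣ ix x) :
    ∃ P : Sylow p G, (P : Subgroup G) ≤ centralizer ({x} : Set G) := by
  have hpp := hp.out
  set C := centralizer ({x} : Set G) with hC
  obtain ⟨D⟩ : Nonempty (Sylow p C) := inferInstance
  have hM : IsPGroup p ((D : Subgroup C).map C.subtype) := D.isPGroup'.map _
  obtain ⟨P, hP⟩ := hM.exists_le_sylow
  refine ⟨P, ?_⟩
  have hcM : Nat.card ((D : Subgroup C).map C.subtype) = Nat.card (D : Subgroup C) :=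
    Subgroup.card_map_of_injective C.subtype_injective
  have hG : Nat.card G = Nat.card C * ix x := (Subgroup.card_mul_index C).symm
  have hv : (Nat.card G).factorization p = (Nat.card C).factorization p := by
    rw [hG, Nat.factorization_mul Nat.card_pos.ne' (Subgroup.index_ne_zero_of_finite),
      Finsupp.add_apply, Nat.factorization_eq_zero_of_not_dvd h, add_zero]
  have hcard : Nat.card (P : Subgroup G) ≤ Nat.card ((D : Subgroup C).map C.subtype) := by
    rw [hcM, Sylow.card_eq_multiplicity, Sylow.card_eq_multiplicity, hv]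
  have heq : (D : Subgroup C).map C.subtype = P :=
    Subgroup.eq_of_le_of_card_ge hP hcard
  rw [← heq]
  exact Subgroup.map_subtype_le _

lemma w_eq_one (R : Subgroup G) (hRZ : R ≤ center G) (hRp : IsPGroup p R) {x g w : G} (hw : w ∈ R)
    (hgx : g * x * g⁻¹ = x * w) (hx : ¬ p ∣ ix x) : w = 1 := by
  have hpp := hp.out
  have hcen : ∀ r ∈ R, ∀ h : G, h * r = r * h := fun r hr h =>
    (Subgroup.mem_center_iff.mp (hRZ hr) h)
  let T : Subgroup G :=
    { carrier := {h | h * x * h⁻¹ * x⁻¹ ∈ R}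
      one_mem' := by simp
      mul_mem' := by
        intro a b ha hb
        have ha' : a * x * a⁻¹ * x⁻¹ ∈ R := ha
        have hb' : b * x * b⁻¹ * x⁻¹ ∈ R := hb
        show a * b * x * (a * b)⁻¹ * x⁻¹ ∈ R
        have h1 : a * b * x * (a * b)⁻¹ * x⁻¹ =
            a * (b * x * b⁻¹ * x⁻¹) * x * a⁻¹ * x⁻¹ := by group
        rw [h1, hcen _ hb' a]
        have h2 : (b * x * b⁻¹ * x⁻¹) * a * x * a⁻¹ * x⁻¹ =
            (b * x * b⁻¹ * x⁻¹) * (a * x * a⁻¹ * x⁻¹) := by group
        rw [h2]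
        exact R.mul_mem hb' ha'
      inv_mem' := by
        intro a ha
        have ha' : a * x * a⁻¹ * x⁻¹ ∈ R := ha
        show a⁻¹ * x * a⁻¹⁻¹ * x⁻¹ ∈ R
        have h1 : a⁻¹ * x * a⁻¹⁻¹ * x⁻¹ = a⁻¹ * (a * x * a⁻¹ * x⁻¹)⁻¹ * a := by
          group
        rw [h1, hcen _ (R.inv_mem ha') a⁻¹]
        have h2 : (a * x * a⁻¹ * x⁻¹)⁻¹ * a⁻¹ * a = (a * x * a⁻¹ * x⁻¹)⁻¹ := by group
        rw [h2]
        exact R.inv_mem ha' }
  have hCT : centralizer ({x} : Set G) ≤ T := by
    intro h hh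
    rw [mem_C] at hh
    show h * x * h⁻¹ * x⁻¹ ∈ R
    rw [hh]
    simp
  let f : T →* R :=
    { toFun := fun h => ⟨(h : G) * x * (h : G)⁻¹ * x⁻¹, h.2⟩
      map_one' := by
        apply Subtype.ext
        simp
      map_mul' := by
        rintro ⟨a, ha⟩ ⟨b, hb⟩
        apply Subtype.ext
        have ha' : a * x * a⁻¹ * x⁻¹ ∈ R := ha
        have hb' : b * x * b⁻¹ * x⁻¹ ∈ R := hb
        show a * b * x * (a * b)⁻¹ * x⁻¹ = (a * x * a⁻¹ * x⁻¹) * (b * x * b⁻¹ * x⁻¹)
        have h1 : a * b * x * (a * b)⁻¹ * x⁻¹ =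
            a * (b * x * b⁻¹ * x⁻¹) * x * a⁻¹ * x⁻¹ := by group
        rw [h1, hcen _ hb' a]
        have h2 : (b * x * b⁻¹ * x⁻¹) * a * x * a⁻¹ * x⁻¹ =
            (b * x * b⁻¹ * x⁻¹) * (a * x * a⁻¹ * x⁻¹) := by group
        rw [h2]
        exact hcen _ hb' _ ▸ (hcen _ ha' (b * x * b⁻¹ * x⁻¹)).symm ▸ rfl }
  have hk : f.ker = (centralizer ({x} : Set G)).subgroupOf T := by
    ext ⟨h, hh⟩
    rw [MonoidHom.mem_ker, Subgroup.mem_subgroupOf, mem_C]
    constructor
    · intro h1
      have h2 : h * x * h⁻¹ * x⁻¹ = 1 := congrArg Subtype.val h1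
      have h3 : h * x * h⁻¹ = x := by
        rw [mul_inv_eq_one] at h2
        exact h2
      rw [mul_inv_eq_iff_eq_mul] at h3
      exact h3
    · intro h1
      apply Subtype.ext
      show h * x * h⁻¹ * x⁻¹ = 1
      rw [h1]
      simp
  have hr : Nat.card f.range = (centralizer ({x} : Set G)).relIndex T := by
    rw [← Subgroup.index_ker, hk]
    rfl
  have hr2 : (centralizer ({x} : Set G)).relIndex T ∣ ix x :=
    ⟨T.index, (Subgroup.relIndex_mul_index hCT).symm⟩
  have hr3 : Nat.card f.range ∣ Nat.card R := Subgroup.card_subgroup_dvd_card _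
  obtain ⟨n, hn⟩ := IsPGroup.iff_card.mp hRp
  rw [hn] at hr3
  obtain ⟨k, _, hk2⟩ := (Nat.dvd_prime_pow hpp).mp hr3
  have hgT : g ∈ T := by
    show g * x * g⁻¹ * x⁻¹ ∈ R
    rw [hgx]
    have : x * w * x⁻¹ = w := by
      rw [(hcen w hw x)]
      group
    rw [this]
    exact hw
  cases k with
  | zero =>
    rw [pow_zero] at hk2
    have hsub : Subsingleton f.range := (Nat.card_eq_one_iff_unique.mp hk2).1
    have h1 : f ⟨g, hgT⟩ = f 1 := by
      have := hsub.elim ⟨f ⟨g, hgT⟩, ⟨_, rfl⟩⟩ ⟨f 1, ⟨_, rfl⟩⟩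
      exact congrArg Subtype.val this
    rw [map_one] at h1
    have h2 : g * x * g⁻¹ * x⁻¹ = 1 := congrArg Subtype.val h1
    rw [hgx] at h2
    have h3 : x * w * x⁻¹ = w := by
      rw [(hcen w hw x)]
      group
    rw [h3] at h2
    exact h2
  | succ k =>
    exfalso
    apply hx
    rw [hr, pow_succ] at hk2
    rw [show p = p from rfl]
    exact (Dvd.intro_left _ hk2.symm).trans hr2

lemma dvd_card_of_orbits {K X : Type*} [Group K] [MulAction K X] [Finite X] (d : ℕ)
    (h : ∀ x : X, d ∣ Nat.card (MulAction.orbit K x)) : d ∣ Nat.card X := by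
  classical
  letI : Fintype (MulAction.orbitRel.Quotient K X) := Fintype.ofFinite _
  rw [Nat.card_congr (MulAction.selfEquivSigmaOrbits' K X), Nat.card_sigma]
  apply Finset.dvd_sum
  intro ω _
  induction ω using Quotient.inductionOn' with
  | h x =>
    have : MulAction.orbitRel.Quotient.orbit (Quotient.mk'' x : MulAction.orbitRel.Quotient K X) =
        MulAction.orbit K x := MulAction.orbitRel.Quotient.orbit_mk x
    rw [this]
    exact h x

end Gside

section Gside2

variable {G : Type*} [Group G] [Finite G] {p : ℕ} [hp : Fact p.Prime]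

/-- The set of elements with class size prime to `p` not centralizing `P`. -/
abbrev NN (P : Subgroup G) (p : ℕ) : Type _ :=
  {x : G // ¬ p ∣ ix x ∧ ∃ g ∈ P, g * x ≠ x * g}

lemma key_dvd (P : Sylow p G) (R : Subgroup G) (hRZ : R ≤ center G) (hRp : IsPGroup p R) :
    Nat.card R * p ∣ Nat.card (NN (P : Subgroup G) p) := by
  classical
  have hpp := hp.out
  have hcen : ∀ r ∈ R, ∀ h : G, h * r = r * h := fun r hr h =>
    (Subgroup.mem_center_iff.mp (hRZ hr) h)
  set Q : Subgroup G := (P : Subgroup G) with hQ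
  -- the action
  have hinv : ∀ (k : ↥Q × ↥R) (x : G), (¬ p ∣ ix x ∧ ∃ g ∈ Q, g * x ≠ x * g) →
      (¬ p ∣ ix ((k.1 : G) * x * (k.1 : G)⁻¹ * k.2) ∧
        ∃ g ∈ Q, g * ((k.1 : G) * x * (k.1 : G)⁻¹ * k.2) ≠ ((k.1 : G) * x * (k.1 : G)⁻¹ * k.2) * g) := by
    rintro ⟨⟨u, hu⟩, ⟨z, hz⟩⟩ x ⟨h1, g, hg, hgx⟩
    have hzc : z ∈ center G := hRZ hz
    refine ⟨?_, u * g * u⁻¹, Q.mul_mem (Q.mul_mem hu hg) (Q.inv_mem hu), ?_⟩
    · show ¬ p ∣ ix (u * x * u⁻¹ * z)
      rw [ix_mul_central hzc, ix_conj]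
      exact h1
    · show u * g * u⁻¹ * (u * x * u⁻¹ * z) ≠ (u * x * u⁻¹ * z) * (u * g * u⁻¹)
      intro h
      apply hgx
      have h2 : u * g * u⁻¹ * (u * x * u⁻¹ * z) = u * (g * x) * u⁻¹ * z := by group
      have h3 : (u * x * u⁻¹ * z) * (u * g * u⁻¹) = u * x * u⁻¹ * (z * (u * g * u⁻¹)) := by group
      rw [h2, h3, ← hcen z hz (u * g * u⁻¹)] at h
      have h4 : u * (g * x) * u⁻¹ = u * (x * g) * u⁻¹ := by
        have h5 : u * x * u⁻¹ * (u * g * u⁻¹ * z) = u * (x * g) * u⁻¹ * z := by group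
        rw [h5] at h
        exact mul_right_cancel h
      exact mul_left_cancel (mul_right_cancel h4)
  letI act : MulAction (↥Q × ↥R) (NN Q p) :=
    { smul := fun k x => ⟨(k.1 : G) * x.1 * (k.1 : G)⁻¹ * k.2, hinv k x.1 x.2⟩
      one_smul := by
        rintro ⟨x, hx⟩
        apply Subtype.ext
        show ((1 : ↥Q) : G) * x * ((1 : ↥Q) : G)⁻¹ * ((1 : ↥R) : G) = x
        simp
      mul_smul := by
        rintro ⟨⟨u, hu⟩, ⟨z, hz⟩⟩ ⟨⟨v, hv⟩, ⟨y, hy⟩⟩ ⟨x, hx⟩
        apply Subtype.ext
        show (u * v) * x * (u * v)⁻¹ * (z * y) = u * (v * x * v⁻¹ * y) * u⁻¹ * z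
        have h1 : u * (v * x * v⁻¹ * y) * u⁻¹ * z = u * (v * x * v⁻¹) * (y * u⁻¹) * z := by group
        rw [h1, ← hcen y hy u⁻¹]
        have h2 : y * z = z * y := (hcen y hy z).symm
        calc (u * v) * x * (u * v)⁻¹ * (z * y)
            = (u * v) * x * (u * v)⁻¹ * (y * z) := by rw [h2]
          _ = _ := by group }
  have hsm : ∀ (k : ↥Q × ↥R) (x : NN Q p), ((k • x : NN Q p) : G) = (k.1 : G) * x.1 * (k.1 : G)⁻¹ * k.2 :=
    fun _ _ => rfl
  refine dvd_card_of_orbits (K := ↥Q × ↥R) _ ?_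
  rintro x
  -- orbit-stabilizer
  have hos : Nat.card (MulAction.orbit (↥Q × ↥R) x) * Nat.card (MulAction.stabilizer (↥Q × ↥R) x) =
      Nat.card Q * Nat.card R := by
    rw [← Nat.card_prod, ← Nat.card_prod]
    exact Nat.card_congr (MulAction.orbitProdStabilizerEquivGroup (↥Q × ↥R) x)
  -- the stabilizer injects into the centralizer in `Q`
  set D : Subgroup G := Q ⊓ centralizer ({x.1} : Set G) with hD
  have hstab : ∀ k : MulAction.stabilizer (↥Q × ↥R) x, (k.1.2 : G) = 1 ∧ (k.1.1 : G) ∈ D := by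
    rintro ⟨⟨⟨u, hu⟩, ⟨z, hz⟩⟩, hk⟩
    have h1 : u * x.1 * u⁻¹ * z = x.1 := by
      have := congrArg Subtype.val (MulAction.mem_stabilizer_iff.mp hk)
      exact this
    have h2 : u * x.1 * u⁻¹ = x.1 * z⁻¹ := by
      rw [eq_mul_inv_iff_mul_eq]
      exact h1
    have h3 : z⁻¹ = 1 := w_eq_one R hRZ hRp (R.inv_mem hz) h2 x.2.1
    have h4 : z = 1 := by simpa using h3
    refine ⟨h4, hu, ?_⟩
    show u ∈ centralizer ({x.1} : Set G)
    rw [mem_C]
    rw [h3, mul_one, mul_inv_eq_iff_eq_mul] at h2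
    exact h2
  let φ : MulAction.stabilizer (↥Q × ↥R) x → D := fun k => ⟨k.1.1, (hstab k).2⟩
  have hφ : Function.Injective φ := by
    intro k l hkl
    apply Subtype.ext
    apply Prod.ext
    · apply Subtype.ext
      exact congrArg (fun w : D => (w : G)) hkl
    · apply Subtype.ext
      rw [(hstab k).1, (hstab l).1]
  have hle : Nat.card (MulAction.stabilizer (↥Q × ↥R) x) ≤ Nat.card D := Nat.card_le_card_of_injective φ hφ
  -- `D` is a proper subgroup of `Q`
  have hDQ : D ≤ Q := inf_le_left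
  have hDne : D ≠ Q := by
    obtain ⟨g, hg, hgx⟩ := x.2.2
    intro h
    have : g ∈ D := h ▸ hg
    exact hgx (mem_C.mp this.2)
  obtain ⟨n, hn⟩ := IsPGroup.iff_card.mp P.isPGroup'
  obtain ⟨c, hc⟩ := IsPGroup.iff_card.mp hRp
  have hDdvd : Nat.card D ∣ p ^ n := by
    rw [← hn]
    exact Subgroup.card_dvd_of_le hDQ
  obtain ⟨m, hm, hDm⟩ := (Nat.dvd_prime_pow hpp).mp hDdvd
  have hmn : m < n := by
    rcases lt_or_eq_of_le hm with h | h
    · exact h
    · exfalso
      apply hDne
      apply Subgroup.eq_of_le_of_card_ge hDQ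
      rw [hDm, h, hQ, hn]
  -- the orbit has `p`-power order
  have horb : Nat.card (MulAction.orbit (↥Q × ↥R) x) ∣ p ^ (n + c) := by
    rw [pow_add, ← hn, ← hc]
    exact Dvd.intro _ hos
  obtain ⟨e, _, he⟩ := (Nat.dvd_prime_pow hpp).mp horb
  rw [he, hc, ← pow_succ]
  apply pow_dvd_pow
  -- size estimate
  by_contra hlt
  have hlt' : e ≤ c := by omega
  have h1 : p ^ e * Nat.card (MulAction.stabilizer (↥Q × ↥R) x) = p ^ n * p ^ c := by
    rw [← he, hos, hn, hc]
  have h2 : p ^ e * Nat.card (MulAction.stabilizer (↥Q × ↥R) x) ≤ p ^ c * p ^ m := by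
    apply Nat.mul_le_mul (Nat.pow_le_pow_right hpp.pos hlt')
    rw [← hDm]
    exact hle
  have h3 : p ^ c * p ^ m < p ^ n * p ^ c := by
    rw [mul_comm (p ^ n)]
    apply Nat.mul_lt_mul_of_pos_left (Nat.pow_lt_pow_right hpp.one_lt hmn) (pow_pos hpp.pos _)
  omega

/-- A `q`-element commuting with a Sylow `q`-subgroup lies in it. -/
lemma mem_sylow_of_commute {X : Type*} [Group X] [Finite X] {q : ℕ} [Fact q.Prime] (Q : Sylow q X)
    {a : X} (ha : ∃ k : ℕ, a ^ q ^ k = 1) (hc : ∀ g ∈ (Q : Subgroup X), g * a = a * g) :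
    a ∈ (Q : Subgroup X) := by
  have h1 : IsPGroup q (zpowers a) := by
    obtain ⟨k, hk⟩ := ha
    rw [IsPGroup.iff_card, Nat.card_zpowers]
    have h1 : orderOf a ∣ q ^ k := orderOf_dvd_of_pow_eq_one hk
    obtain ⟨j, -, hj⟩ := (Nat.dvd_prime_pow Fact.out).1 h1
    exact ⟨j, hj⟩
  have h2 : zpowers a ≤ Subgroup.normalizer ((Q : Subgroup X) : Set X) := by
    rw [Subgroup.zpowers_le]
    apply Subgroup.centralizer_le_normalizer
    rw [Subgroup.mem_centralizer_iff]
    intro g hg
    exact hc g hg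
  have h3 : IsPGroup q (zpowers a ⊔ (Q : Subgroup X) : Subgroup X) :=
    h1.to_sup_of_normal_right' Q.isPGroup' h2
  have h4 : (zpowers a ⊔ (Q : Subgroup X) : Subgroup X) = Q := Q.is_maximal' h3 le_sup_right
  rw [← h4]
  exact (le_sup_left : zpowers a ≤ _) (mem_zpowers a)

end Gside2

section Gside3

variable {G : Type*} [Group G] [Finite G] {p : ℕ} [hp : Fact p.Prime]

lemma exists_R {a b j : ℕ} (ha : a = p ^ j) (hb : b.Coprime p) (hab : Nat.card (center G) = a * b) :
    ∃ R : Subgroup G, R ≤ center G ∧ IsPGroup p R ∧ Nat.card R = a := by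
  have hb0 : b ≠ 0 := by
    rintro rfl
    have : 0 < Nat.card (center G) := Nat.card_pos
    omega
  obtain ⟨D⟩ : Nonempty (Sylow p (center G)) := inferInstance
  refine ⟨(D : Subgroup (center G)).map (center G).subtype, Subgroup.map_subtype_le _,
    D.isPGroup'.map _, ?_⟩
  rw [Subgroup.card_map_of_injective (center G).subtype_injective, Sylow.card_eq_multiplicity, hab, ha,
    fact_val j b hb hb0]

/-- The centre of a Sylow subgroup is central in `G`, by the count. -/
theorem center_sylow {a t b j : ℕ} (ha : a = p ^ j) (hb : b.Coprime p) (ht : t.Coprime p)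
    (hab : Nat.card (center G) = a * b) (hY : Nat.card {x : G // ¬ p ∣ ix x} = a * t)
    (P : Sylow p G) {z : G} (hz : z ∈ (P : Subgroup G)) (hzc : ∀ g ∈ (P : Subgroup G), g * z = z * g) :
    z ∈ center G := by
  classical
  have hpp := hp.out
  obtain ⟨R, hRZ, hRp, hRc⟩ := exists_R ha hb hab
  have hcen : ∀ r ∈ R, ∀ h : G, h * r = r * h := fun r hr h =>
    (Subgroup.mem_center_iff.mp (hRZ hr) h)
  have ha0 : 0 < a := by rw [ha]; exact pow_pos hpp.pos _
  set Q : Subgroup G := (P : Subgroup G) with hQ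
  set CQ : Subgroup G := centralizer (Q : Set G) with hCQ
  have hmemCQ : ∀ {x : G}, x ∈ CQ ↔ ∀ g ∈ Q, g * x = x * g := by
    intro x
    rw [hCQ, Subgroup.mem_centralizer_iff]
    rfl
  -- the split count
  have hsplit : Nat.card {x : G // ¬ p ∣ ix x} = Nat.card (NN Q p) + Nat.card CQ := by
    letI := Fintype.ofFinite G
    have h1 : Nat.card (NN Q p) = (Finset.univ.filter (fun x : G => ¬ p ∣ ix x ∧ ∃ g ∈ Q, g * x ≠ x * g)).card := by
      rw [Nat.card_eq_fintype_card, Fintype.card_subtype]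
    have h2 : Nat.card CQ = (Finset.univ.filter (fun x : G => x ∈ CQ)).card := by
      rw [Nat.card_eq_fintype_card, Fintype.card_subtype]
    have h3 : Nat.card {x : G // ¬ p ∣ ix x} = (Finset.univ.filter (fun x : G => ¬ p ∣ ix x)).card := by
      rw [Nat.card_eq_fintype_card, Fintype.card_subtype]
    rw [h1, h2, h3, ← Finset.card_union_of_disjoint]
    · congr 1
      ext x
      simp only [Finset.mem_filter, Finset.mem_univ, true_and, Finset.mem_union]
      constructor
      · intro h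
        by_cases hx : ∃ g ∈ Q, g * x ≠ x * g
        · exact Or.inl ⟨h, hx⟩
        · right
          rw [hmemCQ]
          push Not at hx
          exact hx
      · rintro (⟨h, -⟩ | h)
        · exact h
        · apply not_dvd_ix_of_sylow_le P
          intro g hg
          rw [mem_C]
          exact hmemCQ.mp h g hg
    · rw [Finset.disjoint_filter]
      rintro x - ⟨-, g, hg, hgx⟩ hx
      exact hgx (hmemCQ.mp hx g hg)
  have hdvd := key_dvd P R hRZ hRp
  rw [hRc] at hdvd
  rw [hY] at hsplit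
  -- `Z(P)`
  set ZP : Subgroup G := Q ⊓ CQ with hZP
  have hRQ : R ≤ Q := by
    have h1 : R ≤ Subgroup.normalizer (Q : Set G) := by
      intro r hr
      apply Subgroup.centralizer_le_normalizer
      rw [Subgroup.mem_centralizer_iff]
      intro g _
      exact hcen r hr g
    have h3 : IsPGroup p (R ⊔ Q : Subgroup G) := hRp.to_sup_of_normal_right' P.isPGroup' h1
    have h4 : (R ⊔ Q : Subgroup G) = Q := P.is_maximal' h3 le_sup_right
    exact h4 ▸ le_sup_left
  have hRZP : R ≤ ZP := by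
    refine le_inf hRQ ?_
    intro r hr
    rw [hmemCQ]
    intro g _
    exact hcen r hr g
  have hzZP : z ∈ ZP := ⟨hz, hmemCQ.mpr hzc⟩
  have hZPp : IsPGroup p ZP := P.isPGroup'.to_le inf_le_left
  obtain ⟨n, hn⟩ := IsPGroup.iff_card.mp hZPp
  have hc1 : Nat.card R ∣ Nat.card ZP := Subgroup.card_dvd_of_le hRZP
  rw [hRc, ha, hn] at hc1
  have hjn : j ≤ n := (Nat.pow_dvd_pow_iff_le_right hpp.one_lt).mp hc1
  have hRZPeq : R = ZP := by
    by_contra hne
    have hlt : j < n := by
      rcases lt_or_eq_of_le hjn with h | h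
      · exact h
      · exfalso
        apply hne
        apply Subgroup.eq_of_le_of_card_ge hRZP
        rw [hRc, ha, hn, h]
    have h1 : a * p ∣ Nat.card ZP := by
      rw [ha, ← pow_succ, hn]
      exact pow_dvd_pow _ hlt
    have h2 : a * p ∣ Nat.card CQ := h1.trans (Subgroup.card_dvd_of_le inf_le_right)
    have h3 : a * p ∣ a * t := by
      rw [hsplit]
      exact dvd_add hdvd h2
    have h4 : p ∣ t := Nat.dvd_of_mul_dvd_mul_left ha0 h3
    exact hpp.one_lt.ne' (Nat.Coprime.eq_one_of_dvd ht.symm h4)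
  exact hRZ (hRZPeq ▸ hzZP)

/-- A `p`-element with class size a power of `p` lies in every Sylow `p`-subgroup. -/
theorem mem_sylow_of_ppow {u : G} (hu : ∃ k : ℕ, u ^ p ^ k = 1) (hix : ∃ k : ℕ, ix u = p ^ k)
    (P : Sylow p G) : u ∈ (P : Subgroup G) := by
  classical
  have hpp := hp.out
  obtain ⟨k, hk⟩ := hix
  set C : Subgroup G := centralizer ({u} : Set G) with hC
  have huC : u ∈ C := by
    rw [hC, mem_C]
  obtain ⟨D⟩ : Nonempty (Sylow p C) := inferInstance
  have hD : (⟨u, huC⟩ : C) ∈ (D : Subgroup C) := by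
    apply mem_sylow_of_commute D
    · obtain ⟨j, hj⟩ := hu
      exact ⟨j, Subtype.ext hj⟩
    · rintro ⟨g, hg⟩ -
      apply Subtype.ext
      exact mem_C.mp hg
  have hM : IsPGroup p ((D : Subgroup C).map C.subtype) := D.isPGroup'.map _
  obtain ⟨P₀, hP₀⟩ := hM.exists_le_sylow
  have huP₀ : u ∈ (P₀ : Subgroup G) := hP₀ ⟨_, hD, rfl⟩
  -- the intersection with `C`
  have hinter : Nat.card ((P₀ : Subgroup G) ⊓ C : Subgroup G) ≤ Nat.card (D : Subgroup C) := by
    have h1 : IsPGroup p (((P₀ : Subgroup G) ⊓ C).subgroupOf C) := by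
      have h2 : IsPGroup p ((P₀ : Subgroup G) ⊓ C : Subgroup G) := P₀.isPGroup'.to_le inf_le_left
      exact h2.of_equiv (Subgroup.subgroupOfEquivOfLe inf_le_right).symm
    have h3 : (D : Subgroup C) ≤ ((P₀ : Subgroup G) ⊓ C).subgroupOf C := by
      intro y hy
      rw [Subgroup.mem_subgroupOf]
      exact ⟨hP₀ ⟨y, hy, rfl⟩, y.2⟩
    have h4 := D.is_maximal' h1 h3
    have h5 : Nat.card (((P₀ : Subgroup G) ⊓ C).subgroupOf C) =
        Nat.card ((P₀ : Subgroup G) ⊓ C : Subgroup G) :=
      Nat.card_congr (Subgroup.subgroupOfEquivOfLe inf_le_right).toEquiv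
    rw [← h5, h4]
  -- orders
  have hG : Nat.card G = Nat.card C * p ^ k := by
    rw [← hk]
    exact (Subgroup.card_mul_index C).symm
  have hPG : Nat.card (P₀ : Subgroup G) = Nat.card (D : Subgroup C) * p ^ k := by
    rw [Sylow.card_eq_multiplicity, Sylow.card_eq_multiplicity, hG,
      Nat.factorization_mul Nat.card_pos.ne' (pow_ne_zero _ hpp.ne_zero), Finsupp.add_apply,
      Nat.Prime.factorization_pow hpp, Finsupp.single_eq_same, pow_add]
  -- action on cosets
  let x₀ : G ⧸ C := QuotientGroup.mk 1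
  have hos : Nat.card (MulAction.orbit (P₀ : Subgroup G) x₀) *
      Nat.card (MulAction.stabilizer (P₀ : Subgroup G) x₀) = Nat.card (P₀ : Subgroup G) := by
    rw [← Nat.card_prod]
    exact Nat.card_congr (MulAction.orbitProdStabilizerEquivGroup (P₀ : Subgroup G) x₀)
  have hstab : Nat.card (MulAction.stabilizer (P₀ : Subgroup G) x₀) ≤ Nat.card (D : Subgroup C) := by
    refine le_trans ?_ hinter
    let φ : MulAction.stabilizer (P₀ : Subgroup G) x₀ → ((P₀ : Subgroup G) ⊓ C : Subgroup G) :=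
      fun y => ⟨y.1.1, y.1.2, by
        have h1 : y.1 • x₀ = x₀ := MulAction.mem_stabilizer_iff.mp y.2
        have h2 : (QuotientGroup.mk ((y.1 : G) * 1) : G ⧸ C) = QuotientGroup.mk 1 := h1
        rw [QuotientGroup.eq] at h2
        simpa using C.inv_mem h2⟩
    apply Nat.card_le_card_of_injective φ
    intro y y' h
    apply Subtype.ext
    apply Subtype.ext
    exact congrArg (fun w : ((P₀ : Subgroup G) ⊓ C : Subgroup G) => (w : G)) h
  have hpos : 0 < Nat.card (MulAction.stabilizer (P₀ : Subgroup G) x₀) := Nat.card_pos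
  have hDpos : 0 < Nat.card (D : Subgroup C) := Nat.card_pos
  have hge : p ^ k ≤ Nat.card (MulAction.orbit (P₀ : Subgroup G) x₀) := by
    by_contra hlt
    push Not at hlt
    have h1 : Nat.card (MulAction.orbit (P₀ : Subgroup G) x₀) *
        Nat.card (MulAction.stabilizer (P₀ : Subgroup G) x₀) <
        p ^ k * Nat.card (D : Subgroup C) :=
      Nat.mul_lt_mul_of_lt_of_le hlt hstab hDpos
    rw [hos, hPG, mul_comm] at h1
    exact lt_irrefl _ h1
  have hquot : Nat.card (G ⧸ C) = p ^ k := hk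
  have horb : MulAction.orbit (P₀ : Subgroup G) x₀ = Set.univ := by
    apply Set.eq_of_subset_of_ncard_le (Set.subset_univ _)
    rw [Set.ncard_univ, hquot, ← Nat.card_coe_set_eq]
    exact hge
  have hconj : ∀ g : G, g * u * g⁻¹ ∈ (P₀ : Subgroup G) := by
    intro g
    have h1 : (QuotientGroup.mk g : G ⧸ C) ∈ MulAction.orbit (P₀ : Subgroup G) x₀ := by
      rw [horb]
      exact Set.mem_univ _
    obtain ⟨y, hy⟩ := h1
    have h2 : (QuotientGroup.mk ((y : G) * 1) : G ⧸ C) = QuotientGroup.mk g := hy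
    rw [QuotientGroup.eq] at h2
    have h3 : ((y : G) * 1)⁻¹ * g ∈ C := h2
    rw [mul_one] at h3
    have h4 : ((y : G)⁻¹ * g) * u = u * ((y : G)⁻¹ * g) := mem_C.mp h3
    have h5 : g * u * g⁻¹ = (y : G) * u * (y : G)⁻¹ := by
      have h6 : g = (y : G) * ((y : G)⁻¹ * g) := by group
      calc g * u * g⁻¹ = (y : G) * (((y : G)⁻¹ * g) * u) * g⁻¹ := by group
        _ = (y : G) * (u * ((y : G)⁻¹ * g)) * g⁻¹ := by rw [h4]
        _ = _ := by group
    rw [h5]
    exact (P₀ : Subgroup G).mul_mem ((P₀ : Subgroup G).mul_mem y.2 huP₀) ((P₀ : Subgroup G).inv_mem y.2)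
  -- pass to an arbitrary Sylow subgroup
  obtain ⟨h, hh⟩ := MulAction.exists_smul_eq G P₀ P
  have h7 : h⁻¹ * u * h⁻¹⁻¹ ∈ (P₀ : Subgroup G) := hconj h⁻¹
  have h8 : MulAut.conj h • (h⁻¹ * u * h⁻¹⁻¹) ∈ MulAut.conj h • (P₀ : Subgroup G) :=
    Subgroup.smul_mem_pointwise_smul _ _ _ h7
  have e : ((h • P₀ : Sylow p G) : Subgroup G) = MulAut.conj h • (P₀ : Subgroup G) := by
    rw [Sylow.smul_def, Sylow.pointwise_smul_def]
  rw [← hh, e]
  have h9 : MulAut.conj h • (h⁻¹ * u * h⁻¹⁻¹) = u := by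
    rw [MulAut.smul_def, MulAut.conj_apply]
    group
  rwa [h9] at h8

end Gside3

section final

theorem central_of_coprime_ppow {G : Type*} [Group G] [Finite G] {p : ℕ} [hp : Fact p.Prime]
    (Hz : ∀ (q : ℕ) (_ : Fact q.Prime) (Q : Sylow q G) (z : G), z ∈ (Q : Subgroup G) →
      (∀ g ∈ (Q : Subgroup G), g * z = z * g) → z ∈ center G) :
    ∀ (n : ℕ) (y : G), orderOf y = n → (orderOf y).Coprime p → (∃ k : ℕ, ix y = p ^ k) →
      y ∈ center G := by
  intro n
  induction n using Nat.strong_induction_on with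
  | _ n ih =>
    intro y hn hy hk
    have hpp := hp.out
    by_cases h1 : orderOf y = 1
    · rw [orderOf_eq_one_iff] at h1
      rw [h1]
      exact (center G).one_mem
    set q := (orderOf y).minFac with hq
    have hqp : q.Prime := Nat.minFac_prime h1
    haveI : Fact q.Prime := ⟨hqp⟩
    have hqd : q ∣ orderOf y := Nat.minFac_dvd _
    have hqne : q ≠ p := by
      intro h
      rw [h] at hqd
      exact hpp.one_lt.ne' (Nat.Coprime.eq_one_of_dvd hy.symm hqd)
    obtain ⟨a, b, hab, ha, hb, hak, hbc⟩ := Cfsg.Agent.Lib.PComplement.exists_decomp q y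
    obtain ⟨k, hk⟩ := hk
    have hppow : ∀ w ∈ zpowers y, ∃ j : ℕ, ix w = p ^ j := by
      intro w hw
      have h2 : ix w ∣ p ^ k := hk ▸ ix_dvd_of_mem_zpowers hw
      obtain ⟨j, _, hj⟩ := (Nat.dvd_prime_pow hpp).mp h2
      exact ⟨j, hj⟩
    -- the `q`-part is central
    have haZ : a ∈ center G := by
      obtain ⟨j, hj⟩ := hppow a ha
      have h2 : ¬ q ∣ ix a := by
        rw [hj]
        intro h3
        exact hqne ((Nat.prime_dvd_prime_iff_eq hqp hpp).mp (hqp.dvd_of_dvd_pow h3))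
      obtain ⟨Q, hQ⟩ := exists_sylow_le_of_not_dvd h2
      have hcomm : ∀ g ∈ (Q : Subgroup G), g * a = a * g := fun g hg => mem_C.mp (hQ hg)
      exact Hz q inferInstance Q a (mem_sylow_of_commute Q hak hcomm) hcomm
    -- the `q'`-part is central by induction
    have hbZ : b ∈ center G := by
      have h3 : orderOf b ∣ orderOf y := by
        obtain ⟨j, rfl⟩ := hb
        exact orderOf_dvd_of_pow_eq_one (by
          rw [← zpow_natCast, ← zpow_mul, mul_comm, zpow_mul, zpow_natCast, pow_orderOf_eq_one, one_zpow])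
      have h4 : orderOf b < n := by
        rw [← hn]
        apply lt_of_le_of_ne (Nat.le_of_dvd (orderOf_pos y) h3)
        intro h5
        rw [h5] at hbc
        exact hqp.one_lt.ne' (Nat.Coprime.eq_one_of_dvd hbc.symm hqd)
      exact ih _ h4 b rfl (Nat.Coprime.coprime_dvd_left h3 hy) (hppow b hb)
    rw [hab]
    exact (center G).mul_mem haZ hbZ

end final

/-- Let G and H be finite groups such that for every natural number k, G and H have the same number of conjugacy classes of size k. If H is nilpotent then G is nilpotent. -/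
theorem result {G H : Type*} [Group G] [Finite G] [Group H] [Finite H]
    (hH : Group.IsNilpotent H)
    (h : ∀ k : ℕ, Nat.card {C : ConjClasses G // Nat.card C.carrier = k} = Nat.card {C : ConjClasses H // Nat.card C.carrier = k}) :
    Group.IsNilpotent G := by
  classical
  have hc : ∀ k : ℕ, cc G k = cc H k := h
  have hcard : Nat.card G = Nat.card H := card_eq_of_cc hc
  have hnum : ∀ (q : ℕ) (_ : Fact q.Prime), ∃ s t a b : ℕ, Nat.card G = s * t ∧ (∃ k, s = q ^ k) ∧
      t.Coprime q ∧ (∃ k, a = q ^ k) ∧ b.Coprime q ∧ Nat.card (center G) = a * b ∧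
      Nat.card {x : G // ¬ q ∣ ix x} = a * t ∧
      Nat.card {x : G // ∃ k : ℕ, ix x = q ^ k} = s * b := by
    intro q _
    obtain ⟨s, t, a, b, h1, h2, h3, h4, h5, h6, h7, h8⟩ := nilp_counts H q
    refine ⟨s, t, a, b, hcard.trans h1, h2, h3, h4, h5, ?_, ?_, ?_⟩
    · rw [← card_ix_one, ← h6]
      exact card_pred_eq hc (fun n => n = 1)
    · rw [← h7]
      exact card_pred_eq hc (fun n => ¬ q ∣ n)
    · rw [← h8]
      exact card_pred_eq hc (fun n => ∃ k : ℕ, n = q ^ k)
  have Hz : ∀ (q : ℕ) (_ : Fact q.Prime) (Q : Sylow q G) (z : G), z ∈ (Q : Subgroup G) →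
      (∀ g ∈ (Q : Subgroup G), g * z = z * g) → z ∈ center G := by
    intro q hq Q z hz hzc
    obtain ⟨s, t, a, b, -, -, ht, ⟨j, hj⟩, hb, hab, hY, -⟩ := hnum q hq
    exact center_sylow hj hb ht hab hY Q hz hzc
  have hN := (Group.isNilpotent_of_finite_tfae (G := G)).out 0 3 rfl rfl
  refine hN.2 ?_
  intro p hp P
  have hpp := hp.out
  obtain ⟨s, t, a, b, hG, ⟨n, hn⟩, ht, ⟨j, hj⟩, hb, hab, hY, hW⟩ := hnum p hp
  have hb0 : 0 < b := by
    rcases Nat.eq_zero_or_pos b with h0 | h0
    · rw [h0, mul_zero] at hab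
      have : 0 < Nat.card (center G) := Nat.card_pos
      omega
    · exact h0
  have ht0 : t ≠ 0 := by
    rintro rfl
    rw [mul_zero] at hG
    have : 0 < Nat.card G := Nat.card_pos
    omega
  -- the central `p'`-part
  let Zb : Subgroup G :=
    { carrier := {z | z ∈ center G ∧ z ^ b = 1}
      one_mem' := ⟨(center G).one_mem, one_pow _⟩
      mul_mem' := by
        rintro x y ⟨hx, hx1⟩ ⟨hy, hy1⟩
        refine ⟨(center G).mul_mem hx hy, ?_⟩
        have hcomm : Commute x y := Subgroup.mem_center_iff.mp hy x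
        rw [hcomm.mul_pow, hx1, hy1, one_mul]
      inv_mem' := by
        rintro x ⟨hx, hx1⟩
        exact ⟨(center G).inv_mem hx, by rw [inv_pow, hx1, inv_one]⟩ }
  have hZb : Nat.card Zb ≤ b := by
    have h1 : Nat.card Zb ∣ a * b := by
      rw [← hab]
      exact Subgroup.card_dvd_of_le (fun z hz => hz.1)
    have h2 : Nat.Coprime (Nat.card Zb) p := by
      rw [Nat.coprime_comm, Nat.Prime.coprime_iff_not_dvd hpp]
      intro h3
      obtain ⟨y, hy⟩ := exists_prime_orderOf_dvd_card' p h3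
      have h4 : (y : G) ^ b = 1 := y.2.2
      have h5 : orderOf (y : G) = p := by
        rw [Subgroup.orderOf_coe]
        exact hy
      have h6 : p ∣ b := h5 ▸ orderOf_dvd_of_pow_eq_one h4
      exact hpp.one_lt.ne' (Nat.Coprime.eq_one_of_dvd hb.symm h6)
    have h3 : Nat.card Zb ∣ b := by
      rw [hj] at h1
      exact (Nat.Coprime.pow_right j h2).dvd_of_dvd_mul_left h1
    exact Nat.le_of_dvd hb0 h3
  -- the `p`-elements
  set W₁ : Set G := {u | (∃ k : ℕ, u ^ p ^ k = 1) ∧ ∃ k : ℕ, ix u = p ^ k} with hW₁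
  have hW₁P : W₁ ⊆ ((P : Subgroup G) : Set G) := fun u hu => mem_sylow_of_ppow hu.1 hu.2 P
  set W : Set G := {x | ∃ k : ℕ, ix x = p ^ k} with hWdef
  have hWcard : W.ncard = s * b := by
    rw [← hW, ← Nat.card_coe_set_eq]
    rfl
  have hsub : W ⊆ (fun q : G × G => q.1 * q.2) '' (W₁ ×ˢ (Zb : Set G)) := by
    rintro x ⟨k, hk⟩
    obtain ⟨u, v, huv, hu, hv, huk, hvc⟩ := Cfsg.Agent.Lib.PComplement.exists_decomp p x
    have hppow : ∀ w ∈ zpowers x, ∃ j : ℕ, ix w = p ^ j := by
      intro w hw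
      have h2 : ix w ∣ p ^ k := hk ▸ ix_dvd_of_mem_zpowers hw
      obtain ⟨j, _, hj⟩ := (Nat.dvd_prime_pow hpp).mp h2
      exact ⟨j, hj⟩
    have hvZ : v ∈ center G := central_of_coprime_ppow Hz _ v rfl hvc (hppow v hv)
    refine ⟨(u, v), ⟨⟨huk, hppow u hu⟩, hvZ, ?_⟩, huv.symm⟩
    have h1 : orderOf v ∣ a * b := by
      rw [← hab, ← Subgroup.orderOf_mk v hvZ]
      exact orderOf_dvd_natCard _
    have h2 : orderOf v ∣ b := by
      rw [hj] at h1
      exact (Nat.Coprime.pow_right j hvc).dvd_of_dvd_mul_left h1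
    exact orderOf_dvd_iff_pow_eq_one.mp h2
  have hfin : (W₁ ×ˢ (Zb : Set G)).Finite := Set.toFinite _
  have hle1 : s * b ≤ W₁.ncard * b := by
    calc s * b = W.ncard := hWcard.symm
      _ ≤ ((fun q : G × G => q.1 * q.2) '' (W₁ ×ˢ (Zb : Set G))).ncard :=
          Set.ncard_le_ncard hsub (Set.toFinite _)
      _ ≤ (W₁ ×ˢ (Zb : Set G)).ncard := Set.ncard_image_le hfin
      _ = W₁.ncard * (Zb : Set G).ncard := Set.ncard_prod
      _ = W₁.ncard * Nat.card Zb := by rw [← Nat.card_coe_set_eq (Zb : Set G)]; rfl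
      _ ≤ W₁.ncard * b := Nat.mul_le_mul_left _ hZb
  have hle2 : s ≤ W₁.ncard := Nat.le_of_mul_le_mul_right hle1 hb0
  have hPcard : Nat.card (P : Subgroup G) = s := by
    rw [Sylow.card_eq_multiplicity, hG, hn, fact_val n t ht ht0]
  have hPset : ((P : Subgroup G) : Set G) ⊆ W₁ := by
    have h1 := Set.eq_of_subset_of_ncard_le hW₁P (by
      rw [← Nat.card_coe_set_eq ((P : Subgroup G) : Set G)]
      calc Nat.card ((P : Subgroup G) : Set G) = s := hPcard
        _ ≤ W₁.ncard := hle2)
    rw [h1]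
  constructor
  intro x hx g
  apply hW₁P
  obtain ⟨⟨k1, hk1⟩, ⟨k2, hk2⟩⟩ := hPset hx
  refine ⟨⟨k1, ?_⟩, ⟨k2, ?_⟩⟩
  · rw [conj_pow, hk1]
    simp
  · rw [ix_conj, hk2]

end Cfsg.Agent.S4139
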