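import Mathlib
import Cfsg.Statements.S4142

set_option autoImplicit false
open Cfsg

namespace Cfsg.Agent.S4142

/-- the preimage of the centralizer of the image of `g` in the quotient. -/
noncomputable def preCent {G : Type*} [Group G] (N : Subgroup G) [N.Normal] (g : G) : Subgroup G :=
  (Subgroup.centralizer ({(QuotientGroup.mk g : G ⧸ N)} : Set (G ⧸ N))).comap (QuotientGroup.mk' N)

theorem mem_preCent {G : Type*} [Group G] (N : Subgroup G) [N.Normal] (g x : G) :
    x ∈ preCent N g ↔ g⁻¹ * (x * g * x⁻¹) ∈ N := by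
  unfold preCent
  rw [Subgroup.mem_comap, Subgroup.mem_centralizer_singleton_iff,
    ← QuotientGroup.eq_one_iff]
  simp only [QuotientGroup.mk'_apply, QuotientGroup.mk_mul, QuotientGroup.mk_inv]
  generalize (x : G ⧸ N) = a
  generalize (g : G ⧸ N) = b
  constructor
  · intro h
    rw [h]; group
  · intro h
    have h1 : a * b * a⁻¹ = b := by
      have := congrArg (b * ·) h
      simpa using this
    calc a * b = a * b * a⁻¹ * a := by group
      _ = b * a := by rw [h1]

theorem card_preCent {G : Type*} [Group G] [Finite G] (N : Subgroup G) [N.Normal] (g : G) :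
    Nat.card (preCent N g) = Nat.card N *
      Nat.card (Subgroup.centralizer ({(QuotientGroup.mk g : G ⧸ N)} : Set (G ⧸ N))) := by
  have h1 : (preCent N g).index =
      (Subgroup.centralizer ({(QuotientGroup.mk g : G ⧸ N)} : Set (G ⧸ N))).index :=
    Subgroup.index_comap_of_surjective _ (QuotientGroup.mk'_surjective N)
  have h2 := Subgroup.card_mul_index (preCent N g)
  have h3 := Subgroup.card_mul_index (Subgroup.centralizer ({(QuotientGroup.mk g : G ⧸ N)} : Set (G ⧸ N)))
  have h4 := Subgroup.card_mul_index N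
  have h5 : Nat.card (G ⧸ N) = N.index := rfl
  have hpos : 0 < (preCent N g).index := Nat.pos_of_ne_zero (Subgroup.index_ne_zero_of_finite)
  apply Nat.eq_of_mul_eq_mul_right hpos
  rw [h2, mul_assoc, h1, h3, h5, h4]

/-- the orbit of `g` under `preCent N g`. -/
theorem card_orbit {G : Type*} [Group G] [Finite G] (N : Subgroup G) [N.Normal] (g : G) :
    Nat.card (preCent N g) =
      Nat.card (Set.range fun x : preCent N g => (x : G) * g * (x : G)⁻¹) *
        Nat.card (Subgroup.centralizer ({g} : Set G)) := by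
  classical
  let ψ : preCent N g → G := fun x => (x : G) * g * (x : G)⁻¹
  let ψ' : preCent N g → Set.range ψ := fun x => ⟨ψ x, ⟨x, rfl⟩⟩
  have hC : Subgroup.centralizer ({g} : Set G) ≤ preCent N g := by
    intro x hx
    rw [mem_preCent]
    have : x * g = g * x := Subgroup.mem_centralizer_singleton_iff.mp hx
    rw [this]
    simp [N.one_mem]
  have hfib : ∀ t : Set.range ψ, Nat.card {q // ψ' q = t} =
      Nat.card (Subgroup.centralizer ({g} : Set G)) := by
    rintro ⟨t, q₀, rfl⟩
    refine Nat.card_congr ⟨fun q => ⟨(q₀ : G)⁻¹ * (q.1 : G), ?_⟩,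
      fun d => ⟨⟨(q₀ : G) * d.1, (preCent N g).mul_mem q₀.2 (hC d.2)⟩, ?_⟩, ?_, ?_⟩
    · obtain ⟨q, hq⟩ := q
      have h : (q : G) * g * (q : G)⁻¹ = (q₀ : G) * g * (q₀ : G)⁻¹ := congrArg Subtype.val hq
      rw [Subgroup.mem_centralizer_singleton_iff]
      have h2 : (q : G) * g = (q₀ : G) * g * (q₀ : G)⁻¹ * (q : G) := by
        rw [← h]; group
      calc (q₀ : G)⁻¹ * (q : G) * g = (q₀ : G)⁻¹ * ((q : G) * g) := by group
        _ = _ := by rw [h2]; group
    · obtain ⟨d, hd⟩ := d
      apply Subtype.ext
      show ((q₀ : G) * d) * g * ((q₀ : G) * d)⁻¹ = (q₀ : G) * g * (q₀ : G)⁻¹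
      have : d * g = g * d := Subgroup.mem_centralizer_singleton_iff.mp hd
      calc ((q₀ : G) * d) * g * ((q₀ : G) * d)⁻¹ = (q₀ : G) * (d * g) * d⁻¹ * (q₀ : G)⁻¹ := by group
        _ = _ := by rw [this]; group
    · intro q; apply Subtype.ext; apply Subtype.ext; simp
    · intro d; apply Subtype.ext; simp
  letI : Fintype (Set.range ψ) := Fintype.ofFinite _
  calc Nat.card (preCent N g) = Nat.card (Σ t : Set.range ψ, {q // ψ' q = t}) :=
        Nat.card_congr (Equiv.sigmaFiberEquiv ψ').symm
    _ = ∑ t : Set.range ψ, Nat.card {q // ψ' q = t} := Nat.card_sigma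
    _ = _ := by
        simp only [hfib]
        rw [Finset.sum_const, Finset.card_univ, smul_eq_mul, ← Nat.card_eq_fintype_card]

/-- Let G be a finite group and N a normal subgroup. Then the conjugacy class of every element g outside N is a union of cosets of N (gn is conjugate to g for all n ∈ N) if and only if for every g outside N the centralizer of g in G has the same order as the centralizer of gN in G/N. -/
theorem result {G : Type*} [Group G] [Finite G] (N : Subgroup G) [N.Normal] :
    (∀ g : G, g ∉ N → ∀ n ∈ N, ∃ x : G, x * g * x⁻¹ = g * n) ↔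
      ∀ g : G, g ∉ N → Nat.card (Subgroup.centralizer ({g} : Set G)) =
        Nat.card (Subgroup.centralizer ({(QuotientGroup.mk g : G ⧸ N)} : Set (G ⧸ N))) := by
  classical
  have key : ∀ g : G, Set.range (fun x : preCent N g => (x : G) * g * (x : G)⁻¹) ⊆
      Set.range (fun n : N => g * (n : G)) := by
    rintro g _ ⟨x, rfl⟩
    refine ⟨⟨g⁻¹ * ((x : G) * g * (x : G)⁻¹), (mem_preCent N g x).mp x.2⟩, ?_⟩
    simp
  have hcardE : ∀ g : G, Nat.card (Set.range (fun n : N => g * (n : G))) = Nat.card N := by
    intro g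
    apply Nat.card_range_of_injective
    intro a b hab
    apply Subtype.ext
    simpa using hab
  have hNpos : 0 < Nat.card N := Nat.card_pos
  have hCpos : ∀ g : G, 0 < Nat.card (Subgroup.centralizer ({g} : Set G)) := fun g => Nat.card_pos
  constructor
  · intro h g hg
    have hO : Set.range (fun x : preCent N g => (x : G) * g * (x : G)⁻¹) =
        Set.range (fun n : N => g * (n : G)) := by
      apply Set.Subset.antisymm (key g)
      rintro _ ⟨n, rfl⟩
      obtain ⟨x, hx⟩ := h g hg n n.2
      have hxm : x ∈ preCent N g := by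
        rw [mem_preCent, hx]
        simp
      exact ⟨⟨x, hxm⟩, hx⟩
    have h1 := card_preCent N g
    have h2 := card_orbit N g
    rw [hO, hcardE] at h2
    rw [h1] at h2
    exact (Nat.eq_of_mul_eq_mul_left hNpos h2).symm
  · intro h g hg n hn
    have h0 := h g hg
    have h1 := card_preCent N g
    have h2 := card_orbit N g
    rw [h1, ← h0] at h2
    have h3 : Nat.card N = Nat.card (Set.range (fun x : preCent N g => (x : G) * g * (x : G)⁻¹)) :=
      Nat.eq_of_mul_eq_mul_right (hCpos g) h2
    have hO : Set.range (fun x : preCent N g => (x : G) * g * (x : G)⁻¹) =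
        Set.range (fun n : N => g * (n : G)) := by
      apply Set.eq_of_subset_of_ncard_le (key g)
      rw [← Nat.card_coe_set_eq, ← Nat.card_coe_set_eq, hcardE, ← h3]
    have : g * n ∈ Set.range (fun x : preCent N g => (x : G) * g * (x : G)⁻¹) := by
      rw [hO]; exact ⟨⟨n, hn⟩, rfl⟩
    obtain ⟨x, hx⟩ := this
    exact ⟨x, hx⟩

end Cfsg.Agent.S4142
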