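import Mathlib
import Cfsg.Statements.S4145
import Cfsg.Agent.Lib.TransferCore
import Cfsg.Agent.Lib.PSolv

set_option autoImplicit false
open Cfsg

namespace Cfsg.Agent.S4145

section
variable {G : Type*} [Group G]

lemma centralize_of_cop {p : ℕ} [hp : Fact p.Prime] (g n : G) (j r a : ℕ)
    (hord : orderOf g = p ^ a) (hconj : n * g * n⁻¹ = g ^ (j + 1)) (hj : p ∣ j)
    (hr : r.Coprime p) (hcomm : n ^ r * g = g * n ^ r) : n * g * n⁻¹ = g := by
  have hpow : ∀ i : ℕ, n ^ i * g * (n ^ i)⁻¹ = g ^ ((j + 1) ^ i) := by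
    intro i
    induction i with
    | zero => simp
    | succ i ih =>
      have : n ^ (i + 1) * g * (n ^ (i + 1))⁻¹ = n * (n ^ i * g * (n ^ i)⁻¹) * n⁻¹ := by
        rw [pow_succ']; group
      rw [this, ih, ← conj_pow, hconj, ← pow_mul, pow_succ (j + 1) i, mul_comm]
  have h1 : g ^ ((j + 1) ^ r) = g := by
    rw [← hpow r, hcomm]; group
  set s := ∑ i ∈ Finset.range r, (j + 1) ^ i with hs
  have hgeo : s * j + 1 = (j + 1) ^ r := by
    rw [hs]
    clear_value s
    clear hs h1 hpow hcomm hr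
    induction r with
    | zero => simp
    | succ r ih =>
      rw [Finset.sum_range_succ, add_mul, add_right_comm, ih, pow_succ]
      ring
  have h2 : g ^ (s * j) = 1 := by
    have : g ^ (s * j + 1) = g := by rw [hgeo]; exact h1
    rw [pow_succ] at this
    exact mul_eq_right.mp this
  have h3 : p ^ a ∣ s * j := hord ▸ orderOf_dvd_of_pow_eq_one h2
  have hscop : (p ^ a).Coprime s := by
    apply Nat.Coprime.pow_left
    rw [Nat.Prime.coprime_iff_not_dvd hp.out]
    intro hd
    have h0 : (s : ZMod p) = 0 := (ZMod.natCast_eq_zero_iff s p).mpr hd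
    have hj0 : (j : ZMod p) = 0 := (ZMod.natCast_eq_zero_iff j p).mpr hj
    have h5 : (s : ZMod p) = r := by
      rw [hs]
      push_cast
      simp [hj0]
    rw [h5] at h0
    have h6 : p ∣ r := (ZMod.natCast_eq_zero_iff r p).mp h0
    have h7 := Nat.Coprime.eq_one_of_dvd (Nat.Coprime.symm hr) h6
    exact hp.out.one_lt.ne' h7
  have h4 : p ^ a ∣ j := hscop.dvd_of_dvd_mul_left h3
  have h5 : g ^ j = 1 := by
    rw [← orderOf_dvd_iff_pow_eq_one, hord]; exact h4
  rw [hconj, pow_succ, h5, one_mul]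

lemma pow_relIndex_mem [Finite G] (A B : Subgroup G) (hAB : A ≤ B) (n : G) (hnB : n ∈ B)
    (hn : n ∈ Subgroup.normalizer (A : Set G)) : n ^ (A.relIndex B) ∈ A := by
  let D : Subgroup G := Subgroup.normalizer (A : Set G) ⊓ B
  have hAD : A ≤ D := le_inf Subgroup.le_normalizer hAB
  have hDB : D ≤ B := inf_le_right
  haveI : (A.subgroupOf D).Normal := Subgroup.normal_subgroupOf_of_le_normalizer inf_le_left
  have h1 := Subgroup.pow_index_mem (A.subgroupOf D) (⟨n, hn, hnB⟩ : D)
  have h2 : n ^ (A.subgroupOf D).index ∈ A := by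
    have := Subgroup.mem_subgroupOf.mp h1
    simpa using this
  have e : A.relIndex D * D.relIndex B = A.relIndex B :=
    Subgroup.relIndex_mul_relIndex A D B hAD hDB
  rw [← e, pow_mul]
  exact A.pow_mem h2 _

/-- generator of a cyclic subgroup in natural-power form -/
lemma exists_gen [Finite G] (P : Subgroup G) (hP : IsCyclic P) :
    ∃ g ∈ P, ∀ y ∈ P, ∃ k : ℕ, g ^ (k + 1) = y := by
  obtain ⟨g, hg⟩ := hP.exists_generator
  refine ⟨g, g.2, fun y hy => ?_⟩
  have h1 : (⟨y, hy⟩ : P) ∈ Subgroup.zpowers g := hg _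
  have h2 : (⟨y, hy⟩ : P) ∈ Submonoid.powers g := (mem_powers_iff_mem_zpowers).mpr h1
  obtain ⟨k, hk⟩ := Submonoid.mem_powers_iff _ _ |>.mp h2
  have h3 : g ^ (k + orderOf g) = ⟨y, hy⟩ := by
    rw [pow_add, pow_orderOf_eq_one, mul_one, hk]
  have hpos : 0 < orderOf g := orderOf_pos g
  obtain ⟨m, hm⟩ : ∃ m, k + orderOf g = m + 1 := ⟨k + orderOf g - 1, by omega⟩
  refine ⟨m, ?_⟩
  rw [← hm]
  have := congrArg Subtype.val h3
  simpa using this

/-- Lemma C: a central nontrivial element of a cyclic Sylow forces `N(S) ≤ C(S)`. -/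
lemma hasNormalPComplement_of_central [Finite G] {p : ℕ} [hp : Fact p.Prime] (S : Sylow p G)
    (hS : IsCyclic (S : Subgroup G)) (z : G) (hzS : z ∈ (S : Subgroup G)) (hz1 : z ≠ 1)
    (hz : ∀ x : G, x * z * x⁻¹ = z) :
    ∃ N : Subgroup G, N.Normal ∧ N.IsComplement' (S : Subgroup G) := by
  classical
  have hle : Subgroup.normalizer ((S : Subgroup G) : Set G) ≤
      Subgroup.centralizer ((S : Subgroup G) : Set G) := by
    intro n hn
    obtain ⟨g, hgS, hg⟩ := exists_gen (S : Subgroup G) hS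
    obtain ⟨a, ha⟩ := IsPGroup.iff_orderOf.mp S.isPGroup' (⟨g, hgS⟩ : (S : Subgroup G))
    have ha' : orderOf g = p ^ a := by simpa [Subgroup.orderOf_mk] using ha
    have hngS : n * g * n⁻¹ ∈ (S : Subgroup G) := (Subgroup.mem_normalizer_iff.mp hn g).mp hgS
    obtain ⟨j, hj⟩ := hg _ hngS
    obtain ⟨t, ht⟩ := hg z hzS
    have hpj : p ∣ j := by
      -- n z n⁻¹ = z^(j+1)
      have h1 : n * z * n⁻¹ = z ^ (j + 1) := by
        rw [← ht, ← conj_pow, ← hj, ← pow_mul, ← pow_mul, mul_comm]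
      rw [hz n] at h1
      have h2 : z ^ j = 1 := by
        have : z ^ j * z = z := by rw [← pow_succ]; exact h1.symm
        exact mul_eq_right.mp this
      obtain ⟨b, hb⟩ := IsPGroup.iff_orderOf.mp S.isPGroup' (⟨z, hzS⟩ : (S : Subgroup G))
      have hb' : orderOf z = p ^ b := by simpa [Subgroup.orderOf_mk] using hb
      have h3 : orderOf z ∣ j := orderOf_dvd_of_pow_eq_one h2
      rw [hb'] at h3
      have hb0 : b ≠ 0 := by
        rintro rfl
        rw [pow_zero, orderOf_eq_one_iff] at hb'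
        exact hz1 hb'
      exact (dvd_pow_self p hb0).trans h3
    have hrS : n ^ (S : Subgroup G).relIndex ⊤ ∈ (S : Subgroup G) :=
      pow_relIndex_mem _ _ le_top n trivial hn
    have hrc : ((S : Subgroup G).relIndex ⊤).Coprime p := by
      rw [Subgroup.relIndex_top_right, Nat.coprime_comm, Nat.Prime.coprime_iff_not_dvd hp.out]
      exact S.not_dvd_index
    have hSc : ∀ x ∈ (S : Subgroup G), ∀ y ∈ (S : Subgroup G), x * y = y * x := by
      intro x hx y hy
      letI : CommGroup (S : Subgroup G) := IsCyclic.commGroup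
      have := mul_comm (⟨x, hx⟩ : (S : Subgroup G)) ⟨y, hy⟩
      exact congrArg Subtype.val this
    have hmain := centralize_of_cop g n j _ a ha' hj.symm hpj hrc (hSc _ hrS _ hgS)
    rw [Subgroup.mem_centralizer_iff]
    intro y hy
    obtain ⟨k, hk⟩ := hg y hy
    rw [← hk]
    have : n * g ^ (k + 1) * n⁻¹ = g ^ (k + 1) := by rw [← conj_pow, hmain]
    rw [eq_comm, ← mul_inv_eq_iff_eq_mul]
    exact this
  exact ⟨(MonoidHom.transferSylow S hle).ker, inferInstance,
    MonoidHom.ker_transferSylow_isComplement' S hle⟩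


/-- `|N : A ∩ N|` divides `|G : A|` when `N` is normal. -/
theorem relIndex_dvd_index_of_normal_right [Finite G] (A N' : Subgroup G)
    [N'.Normal] : A.relIndex N' ∣ A.index := by
  have e1 : (A ⊓ N').relIndex N' * N'.index = (A ⊓ N').index :=
    Subgroup.relIndex_mul_index inf_le_right
  have e2 : (A ⊓ N').relIndex A * A.index = (A ⊓ N').index :=
    Subgroup.relIndex_mul_index inf_le_left
  rw [Subgroup.inf_relIndex_right] at e1
  rw [Subgroup.inf_relIndex_left] at e2
  obtain ⟨w, hw⟩ : N'.relIndex A ∣ N'.index := Subgroup.relIndex_dvd_index_of_normal _ _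
  have hr2 : 0 < N'.relIndex A := Nat.pos_of_ne_zero (by
    intro h0
    rw [h0, zero_mul] at hw
    exact Subgroup.index_ne_zero_of_finite hw)
  rw [hw] at e1
  rw [← e2] at e1
  refine ⟨w, ?_⟩
  apply Nat.eq_of_mul_eq_mul_left hr2
  rw [← e1]
  ring

/-- The fusion statement, at the level of `G`. -/
theorem main1 [Finite G] {p : ℕ} [hp : Fact p.Prime] (P : Sylow p G)
    (hP : IsCyclic (P : Subgroup G)) (H : Subgroup G) [hH : H.Normal]
    (hnle : ¬ (P : Subgroup G) ≤ H) (x : G) (hxH : x ∈ H)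
    (hx : ∀ q, q ∈ (P : Subgroup G) ⊓ H ↔ x * q * x⁻¹ ∈ (P : Subgroup G) ⊓ H) :
    ∀ q ∈ (P : Subgroup G) ⊓ H, q * x = x * q := by
  classical
  set Q0 : Subgroup G := (P : Subgroup G) ⊓ H with hQ0
  have hPc : ∀ a ∈ (P : Subgroup G), ∀ b ∈ (P : Subgroup G), a * b = b * a := by
    intro a ha b hb
    letI : CommGroup (P : Subgroup G) := IsCyclic.commGroup
    have := mul_comm (⟨a, ha⟩ : (P : Subgroup G)) ⟨b, hb⟩
    exact congrArg Subtype.val this
  let M : Subgroup G := H ⊓ Subgroup.centralizer (Q0 : Set G)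
  have hPM : (P : Subgroup G) ≤ Subgroup.normalizer (M : Set G) := by
    rw [Subgroup.le_normalizer_iff]
    intro y hy m hm
    refine ⟨hH.conj_mem m hm.1 y, ?_⟩
    show _ ∈ Subgroup.centralizer (Q0 : Set G)
    rw [Subgroup.mem_centralizer_iff]
    intro h hh
    have h1 : Commute h y := hPc _ hh.1 _ hy
    have h2 : Commute h m := Subgroup.mem_centralizer_iff.mp hm.2 h hh
    exact (h1.mul_right h2).mul_right h1.inv_right
  let S : Subgroup G := M ⊔ (P : Subgroup G)
  have hSmem : ∀ s ∈ S, ∃ m ∈ M, ∃ y ∈ (P : Subgroup G), s = m * y := by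
    intro s hs
    have h1 : s ∈ (↑S : Set G) := hs
    rw [Subgroup.coe_mul_of_right_le_normalizer_left _ _ hPM] at h1
    obtain ⟨m, hm, y, hy, rfl⟩ := h1
    exact ⟨m, hm, y, hy, rfl⟩
  have hPS : (P : Subgroup G) ≤ S := le_sup_right
  have hxPS : ((x • P : Sylow p G) : Subgroup G) ≤ S := by
    intro w hw
    have h1 : x⁻¹ * w * x ∈ (P : Subgroup G) :=
      Cfsg.Agent.Lib.TransferCore.mem_smul_sylow.mp hw
    set y := x⁻¹ * w * x with hy
    have hw' : w = x * y * x⁻¹ := by rw [hy]; group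
    -- w = c * y
    have hcM : x * y * x⁻¹ * y⁻¹ ∈ M := by
      refine ⟨?_, ?_⟩
      · have h2 : y * x⁻¹ * y⁻¹ ∈ H := hH.conj_mem _ (H.inv_mem hxH) y
        have : x * y * x⁻¹ * y⁻¹ = x * (y * x⁻¹ * y⁻¹) := by group
        rw [this]
        exact H.mul_mem hxH h2
      · show _ ∈ Subgroup.centralizer (Q0 : Set G)
        rw [Subgroup.mem_centralizer_iff]
        intro h hh
        have hh' : x⁻¹ * h * x ∈ Q0 := by
          rw [hx]
          have : x * (x⁻¹ * h * x) * x⁻¹ = h := by group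
          rw [this]
          exact hh
        have h1' : Commute h y := hPc _ hh.1 _ h1
        have h2' : (x⁻¹ * h * x) * y = y * (x⁻¹ * h * x) := hPc _ hh'.1 _ h1
        have h3 : Commute h (x * y * x⁻¹) := by
          show h * (x * y * x⁻¹) = (x * y * x⁻¹) * h
          calc h * (x * y * x⁻¹) = x * ((x⁻¹ * h * x) * y) * x⁻¹ := by group
            _ = x * (y * (x⁻¹ * h * x)) * x⁻¹ := by rw [h2']
            _ = (x * y * x⁻¹) * h := by group
        exact h3.mul_right h1'.inv_right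
    have e : w = (x * y * x⁻¹ * y⁻¹) * y := by rw [hw']; group
    rw [e]
    exact S.mul_mem (Subgroup.mem_sup_left hcM) (hPS h1)
  obtain ⟨s, hsS, hs⟩ := Cfsg.Agent.Lib.TransferCore.exists_conj_in_subgroup S (x • P) P hxPS hPS
  obtain ⟨m, hm, y0, hy0, rfl⟩ := hSmem s hsS
  set n := m⁻¹ * x with hn
  have hxmn : x = m * n := by rw [hn]; group
  have hnP : n ∈ Subgroup.normalizer ((P : Subgroup G) : Set G) := by
    have h0 : n • P = P := by
      rw [hn, mul_smul, ← hs, ← mul_smul, ← mul_assoc, inv_mul_cancel, one_mul]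
      exact Sylow.smul_eq_iff_mem_normalizer.mpr (Subgroup.le_normalizer hy0)
    exact Sylow.smul_eq_iff_mem_normalizer.mp h0
  have hnH : n ∈ H := H.mul_mem (H.inv_mem hm.1) hxH
  obtain ⟨g, hgP, hg⟩ := exists_gen (P : Subgroup G) hP
  obtain ⟨a, ha⟩ := IsPGroup.iff_orderOf.mp P.isPGroup' (⟨g, hgP⟩ : (P : Subgroup G))
  have ha' : orderOf g = p ^ a := by simpa [Subgroup.orderOf_mk] using ha
  obtain ⟨j, hj⟩ := hg _ ((Subgroup.mem_normalizer_iff.mp hnP g).mp hgP)
  have hpj : p ∣ j := by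
    by_contra hnd
    have hgjH : g ^ j ∈ H := by
      have e : g ^ j = n * (g * n⁻¹ * g⁻¹) := by
        have : g ^ j = g ^ (j + 1) * g⁻¹ := by rw [pow_succ]; group
        rw [this, hj]; group
      rw [e]
      exact H.mul_mem hnH (hH.conj_mem _ (H.inv_mem hnH) g)
    have hcop : j.Coprime (orderOf g) := by
      rw [ha']
      apply Nat.Coprime.pow_right
      rw [Nat.coprime_comm, Nat.Prime.coprime_iff_not_dvd hp.out]
      exact hnd
    obtain ⟨u, hu⟩ := exists_pow_eq_self_of_coprime hcop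
    have hgH : g ∈ H := by
      rw [← hu]
      exact H.pow_mem hgjH u
    apply hnle
    intro y hy
    obtain ⟨k, hk⟩ := hg y hy
    rw [← hk]
    exact H.pow_mem hgH _
  have hnQ : n ∈ Subgroup.normalizer (Q0 : Set G) := by
    rw [Subgroup.mem_normalizer_iff]
    intro q
    constructor
    · intro hq
      refine ⟨(Subgroup.mem_normalizer_iff.mp hnP q).mp hq.1, hH.conj_mem q hq.2 n⟩
    · intro hq
      refine ⟨(Subgroup.mem_normalizer_iff.mp hnP q).mpr hq.1, ?_⟩
      have := hH.conj_mem _ hq.2 n⁻¹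
      have e : n⁻¹ * (n * q * n⁻¹) * n⁻¹⁻¹ = q := by group
      rwa [e] at this
  have hrQ : n ^ Q0.relIndex H ∈ Q0 := pow_relIndex_mem Q0 H inf_le_right n hnH hnQ
  have hrc : (Q0.relIndex H).Coprime p := by
    rw [hQ0, Subgroup.inf_relIndex_right, Nat.coprime_comm, Nat.Prime.coprime_iff_not_dvd hp.out]
    intro hd
    exact P.not_dvd_index (hd.trans (relIndex_dvd_index_of_normal_right _ _))
  have hmain := centralize_of_cop g n j _ a ha' hj.symm hpj hrc (hPc _ hrQ.1 _ hgP)
  intro q hq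
  obtain ⟨k, hk⟩ := hg q hq.1
  have hnq : n * q * n⁻¹ = q := by
    rw [← hk, ← conj_pow, hmain]
  have hnq' : q * n = n * q := by
    rw [eq_comm, ← mul_inv_eq_iff_eq_mul]
    exact hnq
  have hmq : q * m = m * q := Subgroup.mem_centralizer_iff.mp hm.2 q hq
  have h9 : Commute q (m * n) := Commute.mul_right (a := q) (b := m) (c := n) hmq hnq'
  have h10 : q * (m * n) = (m * n) * q := h9
  rwa [← hxmn] at h10

/-- Normality of a "coprime" normal subgroup of a normal subgroup. -/
lemma map_normal_of_coprime [Finite G] (N : Subgroup G) [hN : N.Normal] (A : Subgroup N) [A.Normal]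
    (hc : (Nat.card A).Coprime A.index) : (A.map N.subtype).Normal := by
  constructor
  rintro _ ⟨a, ha, rfl⟩ g
  have hy : g * (a : G) * g⁻¹ ∈ N := hN.conj_mem _ a.2 g
  refine ⟨⟨_, hy⟩, ?_, rfl⟩
  set y : N := ⟨_, hy⟩ with hydef
  have h1 : y ^ Nat.card A = 1 := by
    apply Subtype.ext
    show (g * (a : G) * g⁻¹) ^ (Nat.card A) = 1
    rw [conj_pow]
    have h0 : ((⟨a, ha⟩ : A)) ^ Nat.card A = 1 := pow_card_eq_one'
    have h00 : (a : G) ^ Nat.card A = 1 := by
      have := congrArg (fun t : A => ((t : N) : G)) h0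
      exact this
    rw [h00]; group
  have h2 : ((y : N) : N ⧸ A) ^ Nat.card A = 1 := by
    rw [← QuotientGroup.mk_pow, h1]; rfl
  have h3 : ((y : N) : N ⧸ A) ^ A.index = 1 := pow_card_eq_one'
  have h4 := orderOf_dvd_of_pow_eq_one h2
  have h5 := orderOf_dvd_of_pow_eq_one h3
  have h6 := Nat.eq_one_of_dvd_coprimes hc h4 h5
  rw [orderOf_eq_one_iff] at h6
  exact (QuotientGroup.eq_one_iff y).mp h6

end

theorem result {G : Type*} [Group G] [Finite G] (p : ℕ) [Fact p.Prime]
    (P : Sylow p G) (hP : IsCyclic (P : Subgroup G)) (H : Subgroup G) [H.Normal] (h1 : p ∣ Nat.card H) (h2 : p ∣ H.index) :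
    Cfsg.HasNormalPComplement p H ∧ Cfsg.IsPSolvable p G := by
  classical
  have hp : p.Prime := Fact.out
  have hnle : ¬ (P : Subgroup G) ≤ H := fun hle =>
    P.not_dvd_index (h2.trans (Subgroup.index_dvd_of_le hle))
  have hQp : IsPGroup p ((P : Subgroup G).subgroupOf H) := P.isPGroup'.comap_subtype
  have hQi : ¬ p ∣ ((P : Subgroup G).subgroupOf H).index := by
    intro hd
    exact P.not_dvd_index (hd.trans (relIndex_dvd_index_of_normal_right _ _))
  let Q : Sylow p H := hQp.toSylow hQi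
  have hQmem : ∀ q : H, q ∈ (Q : Subgroup H) ↔ (q : G) ∈ (P : Subgroup G) := by
    intro q
    show q ∈ (P : Subgroup G).subgroupOf H ↔ _
    rw [Subgroup.mem_subgroupOf]
  have hle : Subgroup.normalizer ((Q : Subgroup H) : Set H) ≤
      Subgroup.centralizer ((Q : Subgroup H) : Set H) := by
    intro x hx
    rw [Subgroup.mem_centralizer_iff]
    intro q hq
    have hmain := main1 P hP H hnle (x : G) x.2 (by
      intro q'
      by_cases hq' : q' ∈ H
      · have h3 := Subgroup.mem_normalizer_iff.mp hx ⟨q', hq'⟩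
        rw [hQmem, hQmem] at h3
        constructor
        · intro h4
          exact ⟨h3.mp h4.1, ‹H.Normal›.conj_mem _ hq' _⟩
        · intro h4
          exact ⟨h3.mpr h4.1, hq'⟩
      · constructor
        · intro h4
          exact absurd h4.2 hq'
        · intro h4
          exfalso
          apply hq'
          have h5 := H.mul_mem (H.mul_mem (H.inv_mem x.2) h4.2) x.2
          have e : (x : G)⁻¹ * ((x : G) * q' * (x : G)⁻¹) * x = q' := by group
          rwa [e] at h5) (q : G) ⟨(hQmem q).mp hq, q.2⟩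
    exact Subtype.ext hmain
  let K : Subgroup H := (MonoidHom.transferSylow Q hle).ker
  have hKn : K.Normal := inferInstance
  have hc : K.IsComplement' (Q : Subgroup H) := MonoidHom.ker_transferSylow_isComplement' Q hle
  refine ⟨⟨Q, K, hKn, hc⟩, ?_⟩
  -- second part
  have hKcop : (Nat.card K).Coprime p := Cfsg.Agent.Lib.TransferCore.coprime_card_of_complement hc
  have hKcop2 : (Nat.card K).Coprime K.index := by
    rw [hc.symm.index_eq_card]
    obtain ⟨k, hk⟩ := IsPGroup.iff_card.mp Q.isPGroup'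
    rw [hk]
    exact Nat.Coprime.pow_right k hKcop
  let K' : Subgroup G := K.map H.subtype
  haveI hK'n : K'.Normal := map_normal_of_coprime H K hKcop2
  let π : G →* G ⧸ K' := QuotientGroup.mk' K'
  have hπ : Function.Surjective π := QuotientGroup.mk'_surjective K'
  let Pb : Subgroup (G ⧸ K') := (P : Subgroup G).map π
  let Hb : Subgroup (G ⧸ K') := H.map π
  haveI hHbn : Hb.Normal := Subgroup.Normal.map ‹H.Normal› π hπ
  have hHP : Hb ≤ Pb := by
    rintro _ ⟨x, hx, rfl⟩
    obtain ⟨⟨k, q⟩, hkq, -⟩ := hc.existsUnique ⟨x, hx⟩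
    have e : x = ((k : H) : G) * ((q : H) : G) := by
      have := congrArg (fun t : H => (t : G)) hkq
      simpa using this.symm
    have hk1 : π ((k : H) : G) = 1 := by
      rw [show π ((k : H) : G) = ((((k : H) : G) : G ⧸ K')) from rfl, QuotientGroup.eq_one_iff]
      exact ⟨k, k.2, rfl⟩
    refine ⟨((q : H) : G), (hQmem _).mp q.2, ?_⟩
    rw [e, map_mul, hk1, one_mul]
  have hPbc : ∀ a ∈ Pb, ∀ b ∈ Pb, a * b = b * a := by
    rintro _ ⟨a, ha, rfl⟩ _ ⟨b, hb, rfl⟩
    letI : CommGroup (P : Subgroup G) := IsCyclic.commGroup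
    have := mul_comm (⟨a, ha⟩ : (P : Subgroup G)) ⟨b, hb⟩
    have h3 : a * b = b * a := congrArg Subtype.val this
    rw [← map_mul, ← map_mul, h3]
  let Cb : Subgroup (G ⧸ K') := Subgroup.centralizer (Hb : Set (G ⧸ K'))
  haveI hCbn : Cb.Normal := Subgroup.normal_centralizer
  have hPC : Pb ≤ Cb := by
    intro y hy
    rw [Subgroup.mem_centralizer_iff]
    intro h hh
    exact hPbc _ (hHP hh) _ hy
  -- a nontrivial central element
  have hQne : (Q : Subgroup H) ≠ ⊥ := Q.ne_bot_of_dvd_card h1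
  obtain ⟨q0, hq0, hq01⟩ := (Subgroup.ne_bot_iff_exists_ne_one (H := (Q : Subgroup H))).mp hQne |> fun ⟨a, ha⟩ => (⟨(a : H), a.2, fun h => ha (Subtype.ext h)⟩ : ∃ q0 : H, q0 ∈ (Q : Subgroup H) ∧ q0 ≠ 1)
  have hz1 : π (q0 : G) ≠ 1 := by
    intro h0
    have h3 : (q0 : G) ∈ K' := (QuotientGroup.eq_one_iff _).mp h0
    obtain ⟨k, hk, hke⟩ := h3
    have hk' : k = q0 := Subtype.ext hke
    subst hk'
    have := Subgroup.disjoint_def.mp hc.disjoint hk hq0
    exact hq01 this
  have hzHb : π (q0 : G) ∈ Hb := ⟨_, q0.2, rfl⟩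
  have hzCb : π (q0 : G) ∈ Cb := hPC (hHP hzHb)
  let Pbar : Sylow p (G ⧸ K') := P.mapSurjective hπ
  have hPbarC : (Pbar : Subgroup (G ⧸ K')) ≤ Cb := hPC
  let S : Sylow p Cb := Pbar.subtype hPbarC
  have hScyc : IsCyclic (S : Subgroup Cb) := by
    haveI : IsCyclic Pb := isCyclic_of_surjective (π.subgroupMap (P : Subgroup G))
      (π.subgroupMap_surjective _)
    let e : (Pb.subgroupOf Cb) ≃* Pb := Subgroup.subgroupOfEquivOfLe hPC
    exact isCyclic_of_surjective e.symm.toMonoidHom e.symm.surjective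
  have hzS : (⟨π (q0 : G), hzCb⟩ : Cb) ∈ (S : Subgroup Cb) := by
    show _ ∈ Pb.subgroupOf Cb
    rw [Subgroup.mem_subgroupOf]
    exact hHP hzHb
  obtain ⟨W, hWn, hWc⟩ := hasNormalPComplement_of_central S hScyc ⟨π (q0 : G), hzCb⟩ hzS
    (fun h => hz1 (congrArg Subtype.val h)) (by
      intro x
      apply Subtype.ext
      have h3 := Subgroup.mem_centralizer_iff.mp x.2 _ hzHb
      show (x : G ⧸ K') * π (q0 : G) * (x : G ⧸ K')⁻¹ = π (q0 : G)
      rw [← h3]; group)
  have hWcop : (Nat.card W).Coprime p := Cfsg.Agent.Lib.TransferCore.coprime_card_of_complement hWc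
  have hWcop2 : (Nat.card W).Coprime W.index := by
    rw [hWc.symm.index_eq_card]
    obtain ⟨k, hk⟩ := IsPGroup.iff_card.mp S.isPGroup'
    rw [hk]
    exact Nat.Coprime.pow_right k hWcop
  let Wb : Subgroup (G ⧸ K') := W.map Cb.subtype
  haveI hWbn : Wb.Normal := map_normal_of_coprime Cb W hWcop2
  let W' : Subgroup G := Wb.comap π
  let C' : Subgroup G := Cb.comap π
  have hWC : Wb ≤ Cb := by
    rintro _ ⟨w, -, rfl⟩
    exact w.2
  have hKer : π.ker = K' := QuotientGroup.ker_mk' K'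
  refine ⟨3, ![⊥, W', C', ⊤], rfl, rfl, ?_, ?_, ?_⟩
  · rw [Fin.monotone_iff_le_succ]
    intro i
    fin_cases i
    · exact bot_le
    · exact Subgroup.comap_mono hWC
    · exact le_top
  · intro i
    fin_cases i
    · show (⊥ : Subgroup G).Normal
      infer_instance
    · show W'.Normal
      exact Subgroup.Normal.comap hWbn π
    · show C'.Normal
      exact Subgroup.Normal.comap hCbn π
    · show (⊤ : Subgroup G).Normal
      infer_instance
  · intro i
    fin_cases i
    · right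
      show ((⊥ : Subgroup G).relIndex W').Coprime p
      rw [Subgroup.relIndex_bot_left,
        Cfsg.Agent.Lib.PSolv.card_comap_of_surjective π hπ Wb, hKer,
        Subgroup.card_map_of_injective Cb.subtype_injective,
        Subgroup.card_map_of_injective H.subtype_injective]
      exact Nat.Coprime.mul_left hWcop hKcop
    · left
      show ∃ m : ℕ, W'.relIndex C' = p ^ m
      have e1 : W'.relIndex C' = Wb.relIndex (C'.map π) := Subgroup.relIndex_comap _ _ _
      have e2 : C'.map π = Cb := Subgroup.map_comap_eq_self_of_surjective hπ _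
      have e3 : Wb.relIndex Cb = W.index := by
        show (Wb.subgroupOf Cb).index = _
        rw [show Wb.subgroupOf Cb = W from Subgroup.comap_map_eq_self_of_injective Cb.subtype_injective W]
      rw [e1, e2, e3, hWc.symm.index_eq_card]
      obtain ⟨k, hk⟩ := IsPGroup.iff_card.mp S.isPGroup'
      exact ⟨k, hk⟩
    · right
      show (C'.relIndex ⊤).Coprime p
      rw [Subgroup.relIndex_top_right, Nat.coprime_comm, Nat.Prime.coprime_iff_not_dvd hp]
      intro hd
      have hPC' : (P : Subgroup G) ≤ C' := by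
        intro y hy
        exact hPC ⟨y, hy, rfl⟩
      exact P.not_dvd_index (hd.trans (Subgroup.index_dvd_of_le hPC'))

end Cfsg.Agent.S4145
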