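import Mathlib
import Cfsg.Statements.S4149

set_option autoImplicit false
open Cfsg

namespace Cfsg.Agent.S4149

open scoped Pointwise

/-- Centralizers of conjugate Sylow subgroups have the same size. -/
private lemma card_centralizer_sylow {G : Type*} [Group G] {p : ℕ} [Fact p.Prime] [Finite (Sylow p G)]
    (P Q : Sylow p G) :
    Nat.card (Subgroup.centralizer ((Q : Subgroup G) : Set G)) =
      Nat.card (Subgroup.centralizer ((P : Subgroup G) : Set G)) := by
  obtain ⟨g, rfl⟩ := MulAction.exists_smul_eq G P Q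
  have hmem : ∀ h ∈ (P : Subgroup G), g * h * g⁻¹ ∈ ((g • P : Sylow p G) : Subgroup G) := by
    intro h hh
    rw [Sylow.coe_subgroup_smul, Subgroup.mem_smul_pointwise_iff_exists]
    exact ⟨h, hh, by simp [MulAut.smul_def]⟩
  have hmem' : ∀ y ∈ ((g • P : Sylow p G) : Subgroup G), g⁻¹ * y * g ∈ (P : Subgroup G) := by
    intro y hy
    rw [Sylow.coe_subgroup_smul, Subgroup.mem_smul_pointwise_iff_exists] at hy
    obtain ⟨h, hh, rfl⟩ := hy
    simpa [MulAut.smul_def, mul_assoc] using hh
  refine Nat.card_congr ⟨fun c => ⟨g⁻¹ * c.1 * g, ?_⟩, fun c => ⟨g * c.1 * g⁻¹, ?_⟩, ?_, ?_⟩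
  · rw [Subgroup.mem_centralizer_iff]
    intro h hh
    have := (Subgroup.mem_centralizer_iff.mp c.2) _ (SetLike.mem_coe.mpr (hmem h hh))
    calc h * (g⁻¹ * c.1 * g) = g⁻¹ * ((g * h * g⁻¹) * c.1) * g := by group
      _ = g⁻¹ * (c.1 * (g * h * g⁻¹)) * g := by rw [this]
      _ = _ := by group
  · rw [Subgroup.mem_centralizer_iff]
    intro y hy
    have := (Subgroup.mem_centralizer_iff.mp c.2) _ (SetLike.mem_coe.mpr (hmem' y hy))
    calc y * (g * c.1 * g⁻¹) = g * ((g⁻¹ * y * g) * c.1) * g⁻¹ := by group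
      _ = g * (c.1 * (g⁻¹ * y * g)) * g⁻¹ := by rw [this]
      _ = _ := by group
  · intro c; ext; simp [mul_assoc]
  · intro c; ext; simp [mul_assoc]

/-- An element whose class size is prime to `p` centralizes a Sylow `p`-subgroup. -/
private lemma exists_sylow_of_not_dvd {G : Type*} [Group G] [Finite G] {p : ℕ} [Fact p.Prime]
    (x : G) (hx : ¬ p ∣ (Subgroup.centralizer ({x} : Set G)).index) :
    ∃ Q : Sylow p G, x ∈ Subgroup.centralizer ((Q : Subgroup G) : Set G) := by
  obtain ⟨P⟩ : Nonempty (Sylow p G) := inferInstance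
  set H := Subgroup.centralizer ({x} : Set G) with hH
  have hpα : ¬ p ∣ Nat.card (G ⧸ H) := by
    rwa [← Subgroup.index_eq_card]
  obtain ⟨c, hc⟩ := P.isPGroup'.nonempty_fixed_point_of_prime_not_dvd_card (G ⧸ H) hpα
  obtain ⟨g, rfl⟩ := QuotientGroup.mk_surjective c
  refine ⟨g⁻¹ • P, ?_⟩
  rw [Subgroup.mem_centralizer_iff]
  intro y hy
  have hy' : y ∈ ((g⁻¹ • P : Sylow p G) : Subgroup G) := hy
  rw [Sylow.coe_subgroup_smul, Subgroup.mem_smul_pointwise_iff_exists] at hy'
  obtain ⟨u, hu, rfl⟩ := hy'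
  have h1 := hc ⟨u, hu⟩
  have h2 : (u • (g : G ⧸ H) : G ⧸ H) = ((g : G ⧸ H)) := h1
  have h3 : ((u * g : G) : G ⧸ H) = (g : G ⧸ H) := h2
  rw [QuotientGroup.eq] at h3
  have h4 : (u * g)⁻¹ * g ∈ Subgroup.centralizer ({x} : Set G) := h3
  rw [Subgroup.mem_centralizer_iff] at h4
  have h5 := h4 x (Set.mem_singleton x)
  simp only [MulAut.smul_def, MulAut.conj_apply, inv_inv]
  have h6 : x * ((u * g)⁻¹ * g) = ((u * g)⁻¹ * g) * x := h5
  have h7 : (u * g)⁻¹ * g = g⁻¹ * u⁻¹ * g := by group
  rw [h7] at h6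
  have h8 : (g⁻¹ * u * g) * x = x * (g⁻¹ * u * g) := by
    calc (g⁻¹ * u * g) * x = (g⁻¹ * u * g) * (x * (g⁻¹ * u⁻¹ * g)) * (g⁻¹ * u * g) := by group
      _ = (g⁻¹ * u * g) * ((g⁻¹ * u⁻¹ * g) * x) * (g⁻¹ * u * g) := by rw [h6]
      _ = x * (g⁻¹ * u * g) := by group
  exact h8

/-- If `G` has no normal `p`-complement, at most half of the elements have class size prime to `p`. -/
private lemma two_mul_card_le {G : Type*} [Group G] [Fintype G] [DecidableEq G] {p : ℕ} [Fact p.Prime]
    (hn : ¬ Cfsg.HasNormalPComplement p G)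
    [DecidablePred fun x : G => p ∣ (Subgroup.centralizer ({x} : Set G)).index] :
    2 * (Finset.univ.filter fun x : G => ¬ p ∣ (Subgroup.centralizer ({x} : Set G)).index).card
      ≤ Fintype.card G := by
  classical
  obtain ⟨P⟩ : Nonempty (Sylow p G) := inferInstance
  haveI : Fintype (Sylow p G) := Fintype.ofFinite _
  -- the Burnside transfer criterion
  have hnot : ¬ (Subgroup.normalizer ((P : Subgroup G) : Set G) ≤ Subgroup.centralizer ((P : Subgroup G) : Set G)) := by
    intro hP
    apply hn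
    exact ⟨P, (MonoidHom.transferSylow P hP).ker, MonoidHom.normal_ker _,
      MonoidHom.ker_transferSylow_isComplement' P hP⟩
  set C := Subgroup.centralizer ((P : Subgroup G) : Set G) with hC
  set N := Subgroup.normalizer ((P : Subgroup G) : Set G) with hN
  have hCN : C ≤ N := Subgroup.centralizer_le_normalizer _
  have hdvd : Nat.card C ∣ Nat.card N := Subgroup.card_dvd_of_le hCN
  have hpos : 0 < Nat.card N := Nat.card_pos
  have hlt : Nat.card C ≠ Nat.card N := by
    intro h
    exact hnot (le_of_eq (Subgroup.eq_of_le_of_card_ge hCN (le_of_eq h.symm)).symm)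
  have h2 : 2 * Nat.card C ≤ Nat.card N := by
    obtain ⟨k, hk⟩ := hdvd
    have hk0 : k ≠ 0 := by
      rintro rfl; simp at hk
    have hk1 : k ≠ 1 := by
      rintro rfl; apply hlt; simpa using hk.symm
    have : 2 ≤ k := by omega
    rw [hk, mul_comm]
    exact Nat.mul_le_mul_left _ this
  have hsub : (Finset.univ.filter fun x : G => ¬ p ∣ (Subgroup.centralizer ({x} : Set G)).index) ⊆
      (Finset.univ : Finset (Sylow p G)).biUnion
        (fun Q => Finset.univ.filter fun x : G =>
          x ∈ Subgroup.centralizer ((Q : Subgroup G) : Set G)) := by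
    intro x hx
    rw [Finset.mem_filter] at hx
    obtain ⟨Q, hQ⟩ := exists_sylow_of_not_dvd x hx.2
    rw [Finset.mem_biUnion]
    exact ⟨Q, Finset.mem_univ _, by simpa using hQ⟩
  have hle : (Finset.univ.filter fun x : G => ¬ p ∣ (Subgroup.centralizer ({x} : Set G)).index).card
      ≤ Nat.card (Sylow p G) * Nat.card C := by
    refine (Finset.card_le_card hsub).trans (Finset.card_biUnion_le.trans ?_)
    have : ∀ Q ∈ (Finset.univ : Finset (Sylow p G)),
        (Finset.univ.filter fun x : G => x ∈ Subgroup.centralizer ((Q : Subgroup G) : Set G)).card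
          = Nat.card C := by
      intro Q _
      rw [hC, ← card_centralizer_sylow P Q, Nat.card_eq_fintype_card, Fintype.card_subtype]
    rw [Finset.sum_congr rfl this, Finset.sum_const, Finset.card_univ, smul_eq_mul,
      Nat.card_eq_fintype_card (α := Sylow p G)]
  have hindex : Nat.card (Sylow p G) * Nat.card N = Fintype.card G := by
    rw [Sylow.card_eq_index_normalizer P, mul_comm]
    exact (Subgroup.card_mul_index _).trans Nat.card_eq_fintype_card
  calc 2 * (Finset.univ.filter fun x : G => ¬ p ∣ (Subgroup.centralizer ({x} : Set G)).index).card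
      ≤ 2 * (Nat.card (Sylow p G) * Nat.card C) := Nat.mul_le_mul_left _ hle
    _ = Nat.card (Sylow p G) * (2 * Nat.card C) := by ring
    _ ≤ Nat.card (Sylow p G) * Nat.card N := Nat.mul_le_mul_left _ h2
    _ = Fintype.card G := hindex

/-- Let G be a finite group that has a normal p-complement for at most one prime p dividing its order, and let σ be a natural number such that every conjugacy class size of G has at most σ distinct prime divisors. Then the number of primes dividing at least one conjugacy class size of G is at most 2σ. -/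
theorem result {G : Type*} [Group G] [Finite G] (σ : ℕ)
    (hσ : ∀ x : G, ((Subgroup.centralizer ({x} : Set G)).index).primeFactors.card ≤ σ)
    (hnil : ∀ p q : ℕ, p.Prime → q.Prime → p ∣ Nat.card G → q ∣ Nat.card G →
      Cfsg.HasNormalPComplement p G → Cfsg.HasNormalPComplement q G → p = q) :
    Nat.card {p : ℕ | p.Prime ∧ ∃ x : G, p ∣ (Subgroup.centralizer ({x} : Set G)).index} ≤ 2 * σ := by
  classical
  haveI : Fintype G := Fintype.ofFinite G
  set idx : G → ℕ := fun x => (Subgroup.centralizer ({x} : Set G)).index with hidx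
  have hidx0 : ∀ x, idx x ≠ 0 := fun x => Subgroup.index_ne_zero_of_finite
  have hidxdvd : ∀ x, idx x ∣ Nat.card G := fun x => Subgroup.index_dvd_card _
  have hcard0 : Nat.card G ≠ 0 := Nat.card_pos.ne'
  set R : Finset ℕ := (Nat.card G).primeFactors.filter (fun p => ∃ x : G, p ∣ idx x) with hR
  have hset : {p : ℕ | p.Prime ∧ ∃ x : G, p ∣ (Subgroup.centralizer ({x} : Set G)).index} = ↑R := by
    ext p
    simp only [Set.mem_ofPred_eq, hR, Finset.coe_filter, Nat.mem_primeFactors]
    constructor
    · rintro ⟨hp, x, hx⟩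
      exact ⟨⟨hp, hx.trans (hidxdvd x), hcard0⟩, x, hx⟩
    · rintro ⟨⟨hp, _, _⟩, x, hx⟩
      exact ⟨hp, x, hx⟩
  rw [hset, Nat.card_coe_set_eq, Set.ncard_coe_finset]
  have hRprime : ∀ p ∈ R, p.Prime ∧ p ∣ Nat.card G := by
    intro p hp
    rw [hR, Finset.mem_filter, Nat.mem_primeFactors] at hp
    exact ⟨hp.1.1, hp.1.2.1⟩
  set R₀ := R.filter (fun p => ¬ Cfsg.HasNormalPComplement p G) with hR₀
  have hRle : R.card ≤ R₀.card + 1 := by
    have h1 : (R.filter (fun p => Cfsg.HasNormalPComplement p G)).card ≤ 1 := by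
      rw [Finset.card_le_one]
      intro a ha b hb
      rw [Finset.mem_filter] at ha hb
      exact hnil a b (hRprime a ha.1).1 (hRprime b hb.1).1 (hRprime a ha.1).2 (hRprime b hb.1).2
        ha.2 hb.2
    have h2 := Finset.card_filter_add_card_filter_not (s := R)
      (fun p => Cfsg.HasNormalPComplement p G)
    rw [hR₀]
    omega
  -- double counting
  have hB : ∀ p ∈ R₀, Fintype.card G ≤
      2 * (Finset.univ.filter fun x : G => p ∣ idx x).card := by
    intro p hp
    rw [hR₀, Finset.mem_filter] at hp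
    haveI : Fact p.Prime := ⟨(hRprime p hp.1).1⟩
    have h1 := two_mul_card_le (G := G) (p := p) hp.2
    have h2 := Finset.card_filter_add_card_filter_not (s := (Finset.univ : Finset G))
      (fun x : G => p ∣ idx x)
    rw [Finset.card_univ] at h2
    have h3 : (Finset.univ.filter fun x : G => ¬ p ∣ (Subgroup.centralizer ({x} : Set G)).index).card
        = (Finset.univ.filter fun x : G => ¬ p ∣ idx x).card := rfl
    omega
  have hcount : ∑ p ∈ R₀, (Finset.univ.filter fun x : G => p ∣ idx x).card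
      = ∑ x : G, (R₀.filter fun p => p ∣ idx x).card := by
    exact Finset.sum_card_bipartiteAbove_eq_sum_card_bipartiteBelow
      (s := R₀) (t := (Finset.univ : Finset G)) (fun p x => p ∣ idx x)
  have hterm : ∀ x : G, (R₀.filter fun p => p ∣ idx x).card ≤ σ := by
    intro x
    refine le_trans (Finset.card_le_card ?_) (hσ x)
    intro p hp
    rw [Finset.mem_filter] at hp
    have hp1 := hp.1
    rw [hR₀, Finset.mem_filter] at hp1
    exact Nat.mem_primeFactors.mpr ⟨(hRprime p hp1.1).1, hp.2, hidx0 x⟩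
  have hone : (R₀.filter fun p => p ∣ idx (1 : G)).card = 0 := by
    rw [Finset.card_eq_zero, Finset.filter_eq_empty_iff]
    intro p hp h
    have hp1 := hp
    rw [hR₀, Finset.mem_filter] at hp1
    have h1 : idx (1 : G) = 1 := by
      simp only [hidx]
      rw [Subgroup.index_eq_one]
      ext y
      simp [Subgroup.mem_centralizer_iff]
    rw [h1] at h
    exact (hRprime p hp1.1).1.one_lt.ne' (Nat.dvd_one.mp h)
  have hsum : ∑ x : G, (R₀.filter fun p => p ∣ idx x).card ≤ (Fintype.card G - 1) * σ := by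
    rw [← Finset.add_sum_erase _ _ (Finset.mem_univ (1 : G)), hone, zero_add]
    calc _ ≤ ∑ x ∈ (Finset.univ.erase (1 : G)), σ := Finset.sum_le_sum fun x _ => hterm x
      _ = _ := by simp [Finset.card_erase_of_mem, Finset.card_univ]
  have hmain : R₀.card * Fintype.card G ≤ 2 * ((Fintype.card G - 1) * σ) := by
    calc R₀.card * Fintype.card G = ∑ p ∈ R₀, Fintype.card G := by simp
      _ ≤ ∑ p ∈ R₀, 2 * (Finset.univ.filter fun x : G => p ∣ idx x).card :=
          Finset.sum_le_sum hB
      _ = 2 * ∑ p ∈ R₀, (Finset.univ.filter fun x : G => p ∣ idx x).card := by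
          rw [Finset.mul_sum]
      _ = 2 * ∑ x : G, (R₀.filter fun p => p ∣ idx x).card := by rw [hcount]
      _ ≤ _ := Nat.mul_le_mul_left _ hsum
  have hGpos : 0 < Fintype.card G := Fintype.card_pos
  by_cases hR₀e : R₀.card = 0
  · -- at most one prime
    by_cases hRe : R.card = 0
    · omega
    · obtain ⟨p, hp⟩ := Finset.card_pos.mp (Nat.pos_of_ne_zero hRe)
      have hp' := hp
      rw [hR, Finset.mem_filter] at hp'
      obtain ⟨x, hx⟩ := hp'.2
      have hs : 1 ≤ σ := by
        refine le_trans ?_ (hσ x)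
        apply Finset.card_pos.mpr
        exact ⟨p, Nat.mem_primeFactors.mpr ⟨(hRprime p hp).1, hx, hidx0 x⟩⟩
      omega
  · have hpos : 1 ≤ R₀.card := Nat.pos_of_ne_zero hR₀e
    have hlt : R₀.card < 2 * σ := by
      by_contra hcon
      push Not at hcon
      have h1 : 2 * σ * Fintype.card G ≤ R₀.card * Fintype.card G :=
        Nat.mul_le_mul_right _ hcon
      have h2 : 2 * ((Fintype.card G - 1) * σ) = 2 * σ * (Fintype.card G - 1) := by ring
      have h3 : 2 * σ * (Fintype.card G - 1) ≤ 2 * σ * Fintype.card G :=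
        Nat.mul_le_mul_left _ (Nat.sub_le _ _)
      have h4 : R₀.card * Fintype.card G = 2 * σ * Fintype.card G := by
        rw [h2] at hmain; omega
      have h5 : R₀.card = 2 * σ := Nat.eq_of_mul_eq_mul_right hGpos h4
      have h6 : 2 * σ * Fintype.card G ≤ 2 * σ * (Fintype.card G - 1) := by
        rw [h2] at hmain; omega
      have h7 : 0 < 2 * σ := by omega
      have h8 : Fintype.card G ≤ Fintype.card G - 1 := Nat.le_of_mul_le_mul_left h6 h7
      omega
    omega

end Cfsg.Agent.S4149
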