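import Mathlib
import Cfsg.Statements.S4150
import Cfsg.Agent.Lib.PrimeCycleJ
import Cfsg.Agent.Lib.BertrandThree
import Cfsg.Agent.Lib.GenCycles
import Cfsg.Agent.Lib.GenCyclesSevenB
import Cfsg.Agent.Lib.GenCyclesSix
import Cfsg.Agent.Lib.GenCyclesThirteenB

set_option autoImplicit false
set_option linter.style.haveILetI false
set_option linter.unusedSectionVars false
set_option linter.unusedVariables false
open Cfsg

namespace Cfsg.Agent.S4150

open Equiv Equiv.Perm MulAction
open Cfsg.Agent.Lib.GenCycles Cfsg.Agent.Lib.PrimeCycleJ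

variable {m : ℕ}

theorem resGroup_le_alt (x y : alternatingGroup (Fin m)) :
    resGroup x.1 y.1 ≤ alternatingGroup (Moved x.1 y.1) := by
  have hx1 : sign x.1 = 1 := (mem_alternatingGroup.1 x.2)
  have hy1 : sign y.1 = 1 := (mem_alternatingGroup.1 y.2)
  rw [resGroup, Subgroup.closure_le]
  intro g hg
  rcases hg with rfl | hg
  · show _ ∈ alternatingGroup _
    rw [mem_alternatingGroup, ← sign_ofSubtype, ofSubtype_resL, hx1]
  · rw [Set.mem_singleton_iff] at hg
    subst hg
    show _ ∈ alternatingGroup _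
    rw [mem_alternatingGroup, ← sign_ofSubtype, ofSubtype_resR, hy1]

/-- The general reduction. -/
theorem reduction {p q : ℕ} (hp : p.Prime) (hq : q.Prime) (hpq : p < q) (hmp : m ≤ 2 * p)
    (hqm : q ≤ m) (hq5 : 5 ≤ q)
    (hF : ∀ x y : alternatingGroup (Fin m), orderOf x.1 = p → orderOf y.1 = q →
      y.1.IsCycle → y.1.support.card = q →
      IsPreprimitive (resGroup x.1 y.1) (Moved x.1 y.1) →
      alternatingGroup (Moved x.1 y.1) ≤ resGroup x.1 y.1) :
    ∃ p q : ℕ, p.Prime ∧ q.Prime ∧ m ≤ 2 * p ∧ p < q ∧ q ≤ m ∧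
      ∀ x y : alternatingGroup (Fin m), orderOf x = p → orderOf y = q →
        ∃ d : ℕ, 5 ≤ d ∧ Nonempty (Subgroup.closure ({x, y} : Set (alternatingGroup (Fin m)))
          ≃* alternatingGroup (Fin d)) := by
  refine ⟨p, q, hp, hq, hmp, hpq, hqm, fun x y hx hy => ?_⟩
  have hxo : orderOf x.1 = p := by rw [Subgroup.orderOf_coe]; exact hx
  have hyo : orderOf y.1 = q := by rw [Subgroup.orderOf_coe]; exact hy
  have hcard : Fintype.card (Fin m) < 2 * q := by rw [Fintype.card_fin]; omega
  obtain ⟨hyc, hys⟩ := isCycle_of_order hq hyo hcard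
  have hxp : x.1 ^ p = 1 := by rw [← hxo]; exact pow_orderOf_eq_one _
  have hprim : IsPreprimitive (resGroup x.1 y.1) (Moved x.1 y.1) :=
    isPreprimitive_resGroup hyc (hys ▸ hq) (hys ▸ hcard) (connected_of_card hp hxp (by
      rw [Fintype.card_fin, hys]; omega))
  refine ⟨Fintype.card (Moved x.1 y.1), ?_, nonempty_equiv_of_le x y (hF x y hxo hyo hyc hys hprim)⟩
  calc 5 ≤ q := hq5
    _ = y.1.support.card := hys.symm
    _ ≤ _ := le_card_moved_right _ _

/-- Jordan's theorem with the left element. -/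
theorem alt_left {x y : Perm (Fin m)} {p : ℕ} (hp : p.Prime) (hxc : x.IsCycle)
    (hxs : x.support.card = p) (h3 : p + 3 ≤ Fintype.card (Moved x y))
    (hprim : IsPreprimitive (resGroup x y) (Moved x y)) :
    alternatingGroup (Moved x y) ≤ resGroup x y :=
  alternatingGroup_le_of_prime_cycle hprim (resL_mem x y) (isCycle_resL hxc)
    (by rw [card_support_resL, hxs]; exact hp) (by rw [card_support_resL, hxs]; exact h3)

/-- Jordan's theorem with the right element. -/
theorem alt_right {x y : Perm (Fin m)} {q : ℕ} (hq : q.Prime) (hyc : y.IsCycle)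
    (hys : y.support.card = q) (h3 : q + 3 ≤ Fintype.card (Moved x y))
    (hprim : IsPreprimitive (resGroup x y) (Moved x y)) :
    alternatingGroup (Moved x y) ≤ resGroup x y :=
  alternatingGroup_le_of_prime_cycle hprim (resR_mem x y) (isCycle_resR hyc)
    (by rw [card_support_resR, hys]; exact hq) (by rw [card_support_resR, hys]; exact h3)

/-- `m ≥ 17`. -/
theorem case_large (hm : 17 ≤ m) : ∃ p q : ℕ, p.Prime ∧ q.Prime ∧ m ≤ 2 * p ∧ p < q ∧ q ≤ m ∧
      ∀ x y : alternatingGroup (Fin m), orderOf x = p → orderOf y = q →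
        ∃ d : ℕ, 5 ≤ d ∧ Nonempty (Subgroup.closure ({x, y} : Set (alternatingGroup (Fin m)))
          ≃* alternatingGroup (Fin d)) := by
  obtain ⟨p, q, hp, hq, h1, h2, h3⟩ := Cfsg.Agent.Lib.BertrandThree.exists_prime_pair m hm
  refine reduction hp hq (by omega) (by omega) h3 (by have := hp.two_le; omega) ?_
  intro x y hxo hyo hyc hys hprim
  obtain ⟨hxc, hxs⟩ := isCycle_of_order hp hxo (by rw [Fintype.card_fin]; exact h1)
  refine alt_left hp hxc hxs ?_ hprim
  have := le_card_moved_right x.1 y.1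
  omega

/-- Prime pairs with small twin-free data: `7, 11`, `m ≤ 14`. -/
theorem case_seven (hm1 : 11 ≤ m) (hm2 : m ≤ 14) : ∃ p q : ℕ, p.Prime ∧ q.Prime ∧ m ≤ 2 * p ∧ p < q ∧ q ≤ m ∧
      ∀ x y : alternatingGroup (Fin m), orderOf x = p → orderOf y = q →
        ∃ d : ℕ, 5 ≤ d ∧ Nonempty (Subgroup.closure ({x, y} : Set (alternatingGroup (Fin m)))
          ≃* alternatingGroup (Fin d)) := by
  refine reduction (p := 7) (q := 11) (by norm_num) (by norm_num) (by norm_num) (by omega) (by omega) (by norm_num) ?_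
  intro x y hxo hyo hyc hys hprim
  rcases isCycle_or_large (by norm_num : Nat.Prime 7) hxo with ⟨hxc, hxs⟩ | hxs
  · refine alt_left (by norm_num) hxc hxs ?_ hprim
    have := le_card_moved_right x.1 y.1
    omega
  · refine alt_right (by norm_num) hyc hys ?_ hprim
    have := le_card_moved_left x.1 y.1
    omega

/-- `5, 7`, `7 ≤ m ≤ 10`. -/
theorem case_five (hm1 : 7 ≤ m) (hm2 : m ≤ 10) : ∃ p q : ℕ, p.Prime ∧ q.Prime ∧ m ≤ 2 * p ∧ p < q ∧ q ≤ m ∧
      ∀ x y : alternatingGroup (Fin m), orderOf x = p → orderOf y = q →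
        ∃ d : ℕ, 5 ≤ d ∧ Nonempty (Subgroup.closure ({x, y} : Set (alternatingGroup (Fin m)))
          ≃* alternatingGroup (Fin d)) := by
  refine reduction (p := 5) (q := 7) (by norm_num) (by norm_num) (by norm_num) (by omega) (by omega) (by norm_num) ?_
  intro x y hxo hyo hyc hys hprim
  rcases isCycle_or_large (by norm_num : Nat.Prime 5) hxo with ⟨hxc, hxs⟩ | hxs
  · have h7 := le_card_moved_right x.1 y.1
    by_cases hcard : Fintype.card (Moved x.1 y.1) = 7
    · exact Cfsg.Agent.Lib.GenCyclesSeven.alternatingGroup_le_seven hcard hprim (resL_mem _ _)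
        (resR_mem _ _) (isCycle_resL hxc) (by rw [card_support_resL, hxs]) (isCycle_resR hyc)
        (by rw [card_support_resR, hys])
    · refine alt_left (by norm_num) hxc hxs ?_ hprim
      omega
  · refine alt_right (by norm_num) hyc hys ?_ hprim
    have := le_card_moved_left x.1 y.1
    omega

/-- `11, 13`, `15 ≤ m ≤ 16`. -/
theorem case_eleven (hm1 : 13 ≤ m) (hm2 : m ≤ 16) : ∃ p q : ℕ, p.Prime ∧ q.Prime ∧ m ≤ 2 * p ∧ p < q ∧ q ≤ m ∧
      ∀ x y : alternatingGroup (Fin m), orderOf x = p → orderOf y = q →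
        ∃ d : ℕ, 5 ≤ d ∧ Nonempty (Subgroup.closure ({x, y} : Set (alternatingGroup (Fin m)))
          ≃* alternatingGroup (Fin d)) := by
  refine reduction (p := 11) (q := 13) (by norm_num) (by norm_num) (by norm_num) (by omega) (by omega) (by norm_num) ?_
  intro x y hxo hyo hyc hys hprim
  obtain ⟨hxc, hxs⟩ := isCycle_of_order (by norm_num : Nat.Prime 11) hxo (by rw [Fintype.card_fin]; omega)
  have h13 := le_card_moved_right x.1 y.1
  by_cases hcard : Fintype.card (Moved x.1 y.1) = 13
  · exact Cfsg.Agent.Lib.GenCyclesThirteenB.alternatingGroup_le_thirteen hcard hprim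
      (resGroup_le_alt x y) (resL_mem _ _) (isCycle_resL hxc) (by rw [card_support_resL, hxs])
  · refine alt_left (by norm_num) hxc hxs ?_ hprim
    omega

/-- `3, 5`, `m = 5`. -/
theorem case_five' (hm1 : m = 5) : ∃ p q : ℕ, p.Prime ∧ q.Prime ∧ m ≤ 2 * p ∧ p < q ∧ q ≤ m ∧
      ∀ x y : alternatingGroup (Fin m), orderOf x = p → orderOf y = q →
        ∃ d : ℕ, 5 ≤ d ∧ Nonempty (Subgroup.closure ({x, y} : Set (alternatingGroup (Fin m)))
          ≃* alternatingGroup (Fin d)) := by
  refine reduction (p := 3) (q := 5) (by norm_num) (by norm_num) (by norm_num) (by omega) (by omega) (by norm_num) ?_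
  intro x y hxo hyo hyc hys hprim
  obtain ⟨hxc, hxs⟩ := isCycle_of_order (by norm_num : Nat.Prime 3) hxo (by rw [Fintype.card_fin]; omega)
  refine alternatingGroup_le_of_isPreprimitive_of_isThreeCycle_mem hprim
    (card_support_eq_three_iff.1 ?_) (resL_mem _ _)
  rw [card_support_resL, hxs]

open Cfsg.Agent.Lib.GenCyclesSeven Cfsg.Agent.Lib.GenCyclesSix in
/-- `3, 5`, `m = 6`. -/
theorem case_six (x y : alternatingGroup (Fin 6)) (hx : orderOf x = 3) (hy : orderOf y = 5) :
    ∃ d : ℕ, 5 ≤ d ∧ Nonempty (Subgroup.closure ({x, y} : Set (alternatingGroup (Fin 6)))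
      ≃* alternatingGroup (Fin d)) := by
  classical
  have hp3 : Nat.Prime 3 := by norm_num
  have hp5 : Nat.Prime 5 := by norm_num
  have hxo : orderOf x.1 = 3 := by rw [Subgroup.orderOf_coe]; exact hx
  have hyo : orderOf y.1 = 5 := by rw [Subgroup.orderOf_coe]; exact hy
  obtain ⟨hyc, hys⟩ := isCycle_of_order hp5 hyo (by simp)
  have hxp : x.1 ^ 3 = 1 := by rw [← hxo]; exact pow_orderOf_eq_one _
  have hprim : IsPreprimitive (resGroup x.1 y.1) (Moved x.1 y.1) :=
    isPreprimitive_resGroup hyc (hys ▸ hp5) (by rw [hys]; simp) (connected_of_card hp3 hxp (by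
      rw [Fintype.card_fin, hys]; omega))
  have hconcl : alternatingGroup (Moved x.1 y.1) ≤ resGroup x.1 y.1 →
      ∃ d : ℕ, 5 ≤ d ∧ Nonempty (Subgroup.closure ({x, y} : Set (alternatingGroup (Fin 6)))
        ≃* alternatingGroup (Fin d)) := by
    intro h
    refine ⟨Fintype.card (Moved x.1 y.1), ?_, nonempty_equiv_of_le x y h⟩
    calc 5 = y.1.support.card := hys.symm
      _ ≤ _ := le_card_moved_right _ _
  rcases isCycle_or_large hp3 hxo with ⟨hxc, hxs⟩ | hxs
  · apply hconcl
    refine alternatingGroup_le_of_isPreprimitive_of_isThreeCycle_mem hprim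
      (card_support_eq_three_iff.1 ?_) (resL_mem _ _)
    rw [card_support_resL, hxs]
  · have hxs6 : x.1.support.card = 6 := by
      have := Finset.card_le_univ x.1.support
      rw [Fintype.card_fin] at this
      omega
    -- conjugate
    have hy6 := isCycle_of_order hp5 orderOf_y6 (by simp)
    have hconj : IsConj y.1 y6 := by
      rw [isConj_iff_cycleType_eq, hyc.cycleType, hy6.1.cycleType, hys, hy6.2]
    obtain ⟨σ, hσ⟩ := isConj_iff.1 hconj
    let Ψ : Perm (Fin 6) ≃* Perm (Fin 6) := MulAut.conj σ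
    have hΨ : ∀ z, Ψ z = σ * z * σ⁻¹ := fun z => rfl
    have hΨy : Ψ y.1 = y6 := hσ
    have hcs : ∀ z, (Ψ z).support.card = z.support.card := fun z => card_support_conj
    have hcheck := check6 (Ψ x.1) (by rw [← map_pow, hxp, map_one]) (by rw [hcs, hxs6])
    have hword : ∀ w, (word (Ψ x.1) y6 w).support.card = 3 →
        alternatingGroup (Moved x.1 y.1) ≤ resGroup x.1 y.1 := by
      intro w hw
      have h1 : word (Ψ x.1) y6 w = Ψ (word x.1 y.1 w) := by
        rw [← hΨy]
        exact (map_word Ψ.toMonoidHom x.1 y.1 w).symm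
      rw [h1, hcs] at hw
      have h2 : (ofSubtype : Perm (Moved x.1 y.1) →* Perm (Fin 6)) (word (resL x.1 y.1) (resR x.1 y.1) w)
          = word x.1 y.1 w := by
        rw [map_word, ofSubtype_resL, ofSubtype_resR]
      have h3 : (word (resL x.1 y.1) (resR x.1 y.1) w).support.card = 3 := by
        rw [← hw, ← h2, ← sum_cycleType, ← sum_cycleType, cycleType_ofSubtype]
      exact alternatingGroup_le_of_isPreprimitive_of_isThreeCycle_mem hprim
        (card_support_eq_three_iff.1 h3) (word_mem (resL_mem _ _) (resR_mem _ _) w)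
    rcases hcheck with hSt | hw | hw
    · -- the copy of `A₅`
      refine ⟨5, le_rfl, ?_⟩
      obtain ⟨e⟩ := nonempty_equiv_of_inSt hSt inSt_y6 (by rw [MulEquiv.orderOf_eq, hxo]) orderOf_y6
      have hmap1 : (Subgroup.closure ({x, y} : Set (alternatingGroup (Fin 6)))).map
          (alternatingGroup (Fin 6)).subtype = Subgroup.closure ({x.1, y.1} : Set (Perm (Fin 6))) := by
        rw [MonoidHom.map_closure, Set.image_pair]
        rfl
      have hmap2 : (Subgroup.closure ({x.1, y.1} : Set (Perm (Fin 6)))).map Ψ.toMonoidHom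
          = Subgroup.closure ({Ψ x.1, y6} : Set (Perm (Fin 6))) := by
        rw [MonoidHom.map_closure, Set.image_pair]
        show Subgroup.closure {Ψ x.1, Ψ y.1} = _
        rw [hΨy]
      let e1 := Subgroup.equivMapOfInjective (Subgroup.closure ({x, y} : Set (alternatingGroup (Fin 6))))
        (alternatingGroup (Fin 6)).subtype (alternatingGroup (Fin 6)).subtype_injective
      let e2 := MulEquiv.subgroupCongr hmap1
      let e3 := Subgroup.equivMapOfInjective (Subgroup.closure ({x.1, y.1} : Set (Perm (Fin 6))))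
        Ψ.toMonoidHom Ψ.injective
      let e4 := MulEquiv.subgroupCongr hmap2
      exact ⟨e1.trans (e2.trans (e3.trans (e4.trans e)))⟩
    · exact hconcl (hword _ hw)
    · exact hconcl (hword _ hw)

end Cfsg.Agent.S4150

namespace Cfsg.Agent.S4150

/-- Let m ≥ 5. Then there are primes p < q with m/2 ≤ p and q ≤ m such that any two elements x, y of the alternating group of degree m with x of order p and y of order q generate a subgroup isomorphic to an alternating group of some degree d ≥ 5. -/
theorem result (m : ℕ) (hm : 5 ≤ m) :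
    ∃ p q : ℕ, p.Prime ∧ q.Prime ∧ m ≤ 2 * p ∧ p < q ∧ q ≤ m ∧
      ∀ x y : alternatingGroup (Fin m), orderOf x = p → orderOf y = q →
        ∃ d : ℕ, 5 ≤ d ∧ Nonempty (Subgroup.closure ({x, y} : Set (alternatingGroup (Fin m))) ≃* alternatingGroup (Fin d)) := by
  by_cases h17 : 17 ≤ m
  · exact case_large h17
  by_cases h15 : 15 ≤ m
  · exact case_eleven (by omega) (by omega)
  by_cases h11 : 11 ≤ m
  · exact case_seven h11 (by omega)
  by_cases h7 : 7 ≤ m
  · exact case_five h7 (by omega)
  by_cases h6 : m = 6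
  · subst h6
    exact ⟨3, 5, by norm_num, by norm_num, by norm_num, by norm_num, by norm_num, case_six⟩
  · exact case_five' (by omega)

end Cfsg.Agent.S4150
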