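import Mathlib
import Cfsg.Statements.S4152

set_option autoImplicit false
open Cfsg

namespace Cfsg.Agent.S4152

/-- `π`-elements. -/
def IsPi (π : Set ℕ) {A : Type*} [Group A] (a : A) : Prop :=
  ∀ q : ℕ, q.Prime → q ∣ orderOf a → q ∈ π

/-- `π'`-elements. -/
def IsPi' (π : Set ℕ) {A : Type*} [Group A] (a : A) : Prop :=
  ∀ q : ℕ, q.Prime → q ∣ orderOf a → q ∉ π

lemma orderOf_conj' {A : Type*} [Group A] (c a : A) : orderOf (c * a * c⁻¹) = orderOf a :=
  orderOf_injective (MulAut.conj c).toMonoidHom (MulAut.conj c).injective a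

lemma IsPi.conj {π : Set ℕ} {A : Type*} [Group A] {a : A} (h : IsPi π a) (c : A) :
    IsPi π (c * a * c⁻¹) := by
  intro q hq hd
  rw [orderOf_conj'] at hd
  exact h q hq hd

lemma isPi_iff_of_coe {π : Set ℕ} {A : Type*} [Group A] (N : Subgroup A) (a : N) :
    IsPi π a ↔ IsPi π (a : A) := by
  unfold IsPi
  rw [Subgroup.orderOf_coe]

theorem exists_parts (G : Type*) [Group G] [Finite G] (π : Set ℕ) :
    ∃ e f : ℕ, (∀ g : G, g ^ e * g ^ f = g) ∧ (∀ g : G, IsPi π (g ^ e)) ∧
      (∀ g : G, IsPi' π (g ^ f)) ∧ (∀ g : G, IsPi π g → g ^ e = g ∧ g ^ f = 1) ∧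
      (∀ g : G, IsPi' π g → g ^ e = 1 ∧ g ^ f = g) := by
  classical
  set E := Nat.card G with hE
  have hE0 : E ≠ 0 := Nat.card_pos.ne'
  set S := E.primeFactors with hS
  let A := ∏ r ∈ S.filter (· ∈ π), r ^ E.factorization r
  let B := ∏ r ∈ S.filter (· ∉ π), r ^ E.factorization r
  have hAB : A * B = E := by
    have h1 : ∏ r ∈ S, r ^ E.factorization r = E := by
      have := Nat.factorization_prod_pow_eq_self hE0
      rw [Finsupp.prod, Nat.support_factorization] at this
      exact this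
    rw [← Finset.prod_filter_mul_prod_filter_not S (· ∈ π)] at h1
    exact h1
  have hcop : Nat.Coprime A B := by
    apply Nat.Coprime.prod_left
    intro r hr
    apply Nat.Coprime.prod_right
    intro s hs
    rw [Finset.mem_filter] at hr hs
    apply Nat.Coprime.pow
    rw [Nat.coprime_primes (Nat.prime_of_mem_primeFactors hr.1)
      (Nat.prime_of_mem_primeFactors hs.1)]
    rintro rfl
    exact hs.2 hr.2
  have hAπ : ∀ q : ℕ, q.Prime → q ∣ A → q ∈ π := by
    intro q hq hd
    obtain ⟨r, hr, hdr⟩ := (Prime.dvd_finset_prod_iff hq.prime _).mp hd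
    rw [Finset.mem_filter] at hr
    have h1 := hq.dvd_of_dvd_pow hdr
    have h2 := (Nat.prime_dvd_prime_iff_eq hq (Nat.prime_of_mem_primeFactors hr.1)).mp h1
    rw [h2]; exact hr.2
  have hBπ : ∀ q : ℕ, q.Prime → q ∣ B → q ∉ π := by
    intro q hq hd
    obtain ⟨r, hr, hdr⟩ := (Prime.dvd_finset_prod_iff hq.prime _).mp hd
    rw [Finset.mem_filter] at hr
    have h1 := hq.dvd_of_dvd_pow hdr
    have h2 := (Nat.prime_dvd_prime_iff_eq hq (Nat.prime_of_mem_primeFactors hr.1)).mp h1
    rw [h2]; exact hr.2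
  obtain ⟨e, he1, he0⟩ := Nat.chineseRemainder hcop 1 0
  obtain ⟨f, hf0, hf1⟩ := Nat.chineseRemainder hcop 0 1
  have hord : ∀ g : G, orderOf g ∣ A * B := fun g => by
    rw [hAB]; exact orderOf_dvd_natCard g
  have hpowE : ∀ g : G, g ^ (A * B) = 1 := fun g => orderOf_dvd_iff_pow_eq_one.mp (hord g)
  refine ⟨e, f, ?_, ?_, ?_, ?_, ?_⟩
  · intro g
    have h1 : e + f ≡ 1 [MOD A * B] := by
      rw [← Nat.modEq_and_modEq_iff_modEq_mul hcop]
      constructor
      · simpa using he1.add hf0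
      · simpa using he0.add hf1
    rw [← pow_add]
    have h2 : g ^ (e + f) = g ^ 1 := by
      rw [pow_eq_pow_iff_modEq]
      exact h1.of_dvd (hord g)
    rw [h2, pow_one]
  · intro g q hq hd
    apply hAπ q hq
    refine hd.trans (orderOf_dvd_of_pow_eq_one ?_)
    rw [← pow_mul]
    have h1 : B ∣ e := (Nat.modEq_zero_iff_dvd).mp he0
    obtain ⟨w, hw⟩ := h1
    rw [hw, show B * w * A = (A * B) * w by ring, pow_mul, hpowE, one_pow]
  · intro g q hq hd
    apply hBπ q hq
    refine hd.trans (orderOf_dvd_of_pow_eq_one ?_)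
    rw [← pow_mul]
    have h1 : A ∣ f := (Nat.modEq_zero_iff_dvd).mp hf0
    obtain ⟨w, hw⟩ := h1
    rw [hw, show A * w * B = (A * B) * w by ring, pow_mul, hpowE, one_pow]
  · intro g hg
    have hcop2 : Nat.Coprime (orderOf g) B := by
      apply Nat.Coprime.symm
      apply Nat.coprime_of_dvd
      intro q hq hd1 hd2
      exact hBπ q hq hd1 (hg q hq hd2)
    have hd : orderOf g ∣ A := hcop2.dvd_of_dvd_mul_right (hord g)
    constructor
    · have h2 : g ^ e = g ^ 1 := by
        rw [pow_eq_pow_iff_modEq]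
        exact he1.of_dvd hd
      rw [h2, pow_one]
    · apply orderOf_dvd_iff_pow_eq_one.mp
      exact hd.trans ((Nat.modEq_zero_iff_dvd).mp hf0)
  · intro g hg
    have hcop2 : Nat.Coprime (orderOf g) A := by
      apply Nat.Coprime.symm
      apply Nat.coprime_of_dvd
      intro q hq hd1 hd2
      exact hg q hq hd2 (hAπ q hq hd1)
    have hd : orderOf g ∣ B := hcop2.dvd_of_dvd_mul_left (hord g)
    constructor
    · apply orderOf_dvd_iff_pow_eq_one.mp
      exact hd.trans ((Nat.modEq_zero_iff_dvd).mp he0)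
    · have h2 : g ^ f = g ^ 1 := by
        rw [pow_eq_pow_iff_modEq]
        exact hf1.of_dvd hd
      rw [h2, pow_one]

section main
variable {G : Type*} [Group G] [Finite G] (N : Subgroup G) [hN : N.Normal] (π : Set ℕ) (x : G)

/-- `π`-elements of the coset `xN`. -/
def Om : Type _ := {y : G // IsPi π y ∧ x⁻¹ * y ∈ N}

/-- `π`-elements of `N`. -/
def Pp : Type _ := {k : N // IsPi π (k : G)}

instance : MulAction N (Om N π x) where
  smul n y := ⟨(n : G) * y.1 * (n : G)⁻¹, y.2.1.conj _, by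
    have h1 := y.2.2
    have e : x⁻¹ * ((n : G) * y.1 * (n : G)⁻¹) = (x⁻¹ * (n : G) * x) * (x⁻¹ * y.1) * (n : G)⁻¹ := by
      group
    rw [e]
    refine N.mul_mem (N.mul_mem ?_ h1) (N.inv_mem n.2)
    have := hN.conj_mem _ n.2 x⁻¹
    simpa using this⟩
  one_smul y := by
    apply Subtype.ext
    show ((1 : N) : G) * y.1 * ((1 : N) : G)⁻¹ = y.1
    simp
  mul_smul a b y := by
    apply Subtype.ext
    show ((a * b : N) : G) * y.1 * ((a * b : N) : G)⁻¹ = (a : G) * ((b : G) * y.1 * (b : G)⁻¹) * (a : G)⁻¹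
    simp only [Subgroup.coe_mul]
    group

lemma Om_smul (n : N) (y : Om N π x) : (n • y).1 = (n : G) * y.1 * (n : G)⁻¹ := rfl

instance : MulAction N (Pp N π) where
  smul n k := ⟨n * k.1 * n⁻¹, by
    have := k.2.conj (n : G)
    simpa using this⟩
  one_smul y := by
    apply Subtype.ext
    show (1 : N) * y.1 * (1 : N)⁻¹ = y.1
    simp
  mul_smul a b y := by
    apply Subtype.ext
    show (a * b) * y.1 * (a * b)⁻¹ = a * (b * y.1 * b⁻¹) * a⁻¹
    group

lemma Pp_smul (n : N) (k : Pp N π) : (n • k).1 = n * k.1 * n⁻¹ := rfl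

theorem orbits_le : Nat.card (MulAction.orbitRel.Quotient N (Om N π x)) ≤
    Nat.card (MulAction.orbitRel.Quotient N (Pp N π)) := by
  classical
  obtain ⟨e, f, hef, hpi, hpi', hep, hep'⟩ := exists_parts G π
  haveI : Finite (Om N π x) := by unfold Om; infer_instance
  haveI : Finite (Pp N π) := by unfold Pp; infer_instance
  haveI : Fintype N := Fintype.ofFinite _
  haveI : Fintype (Om N π x) := Fintype.ofFinite _
  haveI : Fintype (Pp N π) := Fintype.ofFinite _
  haveI : Fintype (MulAction.orbitRel.Quotient N (Om N π x)) := Fintype.ofFinite _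
  haveI : Fintype (MulAction.orbitRel.Quotient N (Pp N π)) := Fintype.ofFinite _
  have b1 := MulAction.sum_card_fixedBy_eq_card_orbits_mul_card_group N (Om N π x)
  have b2 := MulAction.sum_card_fixedBy_eq_card_orbits_mul_card_group N (Pp N π)
  rw [← Fintype.card_sigma] at b1 b2
  -- the choice function
  let c : G → G := fun k => if h : ∃ z : G, x⁻¹ * z ∈ N ∧ z * k = k * z then h.choose else 1
  have hc : ∀ k : G, (∃ z : G, x⁻¹ * z ∈ N ∧ z * k = k * z) → x⁻¹ * c k ∈ N ∧ c k * k = k * c k := by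
    intro k h
    have e1 : c k = h.choose := dif_pos h
    rw [e1]
    exact h.choose_spec
  -- the injection
  have hle : Fintype.card (Σ n : N, MulAction.fixedBy (Om N π x) n) ≤
      Fintype.card (Σ n : N, MulAction.fixedBy (Pp N π) n) := by
    -- data attached to an element
    have hdata : ∀ (n : N) (y : Om N π x), n • y = y →
        (y.1 * (n : G) = (n : G) * y.1) ∧ x⁻¹ * (y.1 * (n : G) ^ f) ∈ N ∧
        (y.1 * (n : G) ^ f) * (n : G) ^ e = (n : G) ^ e * (y.1 * (n : G) ^ f) := by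
      intro n y hy
      have h1 : (n : G) * y.1 * (n : G)⁻¹ = y.1 := congrArg Subtype.val hy
      have h2 : y.1 * (n : G) = (n : G) * y.1 := by
        conv_lhs => rw [← h1]
        group
      refine ⟨h2, ?_, ?_⟩
      · rw [← mul_assoc]
        exact N.mul_mem y.2.2 (N.pow_mem n.2 f)
      · have h3 : Commute y.1 (n : G) := h2
        have h4 : Commute y.1 ((n : G) ^ e) := h3.pow_right e
        have h5 : Commute ((n : G) ^ f) ((n : G) ^ e) := (Commute.refl (n : G)).pow_pow f e
        exact (h4.mul_left h5)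
    let F : (Σ n : N, MulAction.fixedBy (Om N π x) n) → (Σ n : N, MulAction.fixedBy (Pp N π) n) :=
      fun ⟨n, y⟩ =>
        have hy : n • y.1 = y.1 := y.2
        have hd := hdata n y.1 hy
        have hex : ∃ z : G, x⁻¹ * z ∈ N ∧ z * ((n : G) ^ e) = ((n : G) ^ e) * z :=
          ⟨_, hd.2.1, hd.2.2⟩
        have hck := hc _ hex
        have hmN : (c ((n : G) ^ e))⁻¹ * (y.1.1 * (n : G) ^ f) ∈ N := by
          have h1 := N.mul_mem (N.inv_mem hck.1) hd.2.1
          have e1 : (x⁻¹ * c ((n : G) ^ e))⁻¹ * (x⁻¹ * (y.1.1 * (n : G) ^ f)) =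
              (c ((n : G) ^ e))⁻¹ * (y.1.1 * (n : G) ^ f) := by group
          rwa [e1] at h1
        ⟨⟨_, hmN⟩, ⟨⟨n ^ e, by
          have := hpi (n : G)
          simpa using this⟩, by
          -- fixed
          apply Subtype.ext
          apply Subtype.ext
          show ((c ((n : G) ^ e))⁻¹ * (y.1.1 * (n : G) ^ f)) * (n : G) ^ e *
            ((c ((n : G) ^ e))⁻¹ * (y.1.1 * (n : G) ^ f))⁻¹ = (n : G) ^ e
          have h1 : Commute (c ((n : G) ^ e)) ((n : G) ^ e) := hck.2
          have h2 : Commute (y.1.1 * (n : G) ^ f) ((n : G) ^ e) := hd.2.2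
          have h3 : Commute ((c ((n : G) ^ e))⁻¹ * (y.1.1 * (n : G) ^ f)) ((n : G) ^ e) :=
            h1.inv_left.mul_left h2
          rw [h3.eq]
          group⟩⟩
    have hFinj : Function.Injective F := by
      rintro ⟨n₁, ⟨y₁, hy₁⟩⟩ ⟨n₂, ⟨y₂, hy₂⟩⟩ hF
      have hd₁ := hdata n₁ y₁ hy₁
      have hd₂ := hdata n₂ y₂ hy₂
      have hk : (n₁ : G) ^ e = (n₂ : G) ^ e := by
        have := congrArg (fun s : (Σ n : N, MulAction.fixedBy (Pp N π) n) => ((s.2.1.1 : N) : G)) hF
        simpa [F] using this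
      have hm := congrArg (fun s : (Σ n : N, MulAction.fixedBy (Pp N π) n) => ((s.1 : N) : G)) hF
      have hm' : (c ((n₁ : G) ^ e))⁻¹ * (y₁.1 * (n₁ : G) ^ f) =
          (c ((n₂ : G) ^ e))⁻¹ * (y₂.1 * (n₂ : G) ^ f) := hm
      rw [hk] at hm'
      have hy' : y₁.1 * (n₁ : G) ^ f = y₂.1 * (n₂ : G) ^ f := mul_left_cancel hm'
      -- recover the pieces
      have hrecov : ∀ (n : N) (y : Om N π x), y.1 * (n : G) = (n : G) * y.1 →
          (y.1 * (n : G) ^ f) ^ e = y.1 ∧ (y.1 * (n : G) ^ f) ^ f = (n : G) ^ f := by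
        intro n y h
        have h1 : Commute y.1 ((n : G) ^ f) := (show Commute y.1 (n : G) from h).pow_right f
        rw [h1.mul_pow, h1.mul_pow]
        obtain ⟨h2, h3⟩ := hep _ y.2.1
        obtain ⟨h4, h5⟩ := hep' _ (hpi' (n : G))
        rw [h2, h3, h4, h5, mul_one, one_mul]
        exact ⟨rfl, rfl⟩
      obtain ⟨r1, r2⟩ := hrecov n₁ y₁ hd₁.1
      obtain ⟨r3, r4⟩ := hrecov n₂ y₂ hd₂.1
      have hyeq : y₁.1 = y₂.1 := by
        rw [← r1, ← r3, hy']
      have hnf : (n₁ : G) ^ f = (n₂ : G) ^ f := by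
        rw [← r2, ← r4, hy']
      have hneq : (n₁ : G) = (n₂ : G) := by
        rw [← hef (n₁ : G), ← hef (n₂ : G), hk, hnf]
      have hn' : n₁ = n₂ := Subtype.ext hneq
      subst hn'
      have hy'' : y₁ = y₂ := Subtype.ext hyeq
      subst hy''
      rfl
    exact Fintype.card_le_of_injective F hFinj
  rw [b1, b2] at hle
  rw [Nat.card_eq_fintype_card, Nat.card_eq_fintype_card]
  exact Nat.le_of_mul_le_mul_right hle Fintype.card_pos

end main

section classes

lemma mem_PC_of_isPi {π : Set ℕ} {A : Type*} [Group A] {a : A} (h : IsPi π a) :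
    ∀ q : ℕ, q.Prime → (∃ g : A, ConjClasses.mk g = ConjClasses.mk a ∧ q ∣ orderOf g) → q ∈ π := by
  rintro q hq ⟨g, hg, hd⟩
  rw [ConjClasses.mk_eq_mk_iff_isConj, isConj_iff] at hg
  obtain ⟨c, hc⟩ := hg
  subst hc
  exact h q hq (by rw [orderOf_conj']; exact hd)

lemma isPi_of_mem_PC {π : Set ℕ} {A : Type*} [Group A] {a : A}
    (h : ∀ q : ℕ, q.Prime → (∃ g : A, ConjClasses.mk g = ConjClasses.mk a ∧ q ∣ orderOf g) → q ∈ π) :
    IsPi π a := fun q hq hd => h q hq ⟨a, rfl, hd⟩

variable {G : Type*} [Group G] [Finite G] (N : Subgroup G) [hN : N.Normal] (π : Set ℕ) (x : G)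

theorem orbits_le_classes : Nat.card (MulAction.orbitRel.Quotient N (Pp N π)) ≤
    Nat.card {C : ConjClasses N // ∀ q : ℕ, q.Prime → (∃ g : N, ConjClasses.mk g = C ∧ q ∣ orderOf g) → q ∈ π} := by
  classical
  haveI : Finite (ConjClasses N) := Quotient.finite _
  let φ : MulAction.orbitRel.Quotient N (Pp N π) →
      {C : ConjClasses N // ∀ q : ℕ, q.Prime → (∃ g : N, ConjClasses.mk g = C ∧ q ∣ orderOf g) → q ∈ π} :=
    Quotient.lift (fun k : Pp N π => ⟨ConjClasses.mk k.1,
      mem_PC_of_isPi ((isPi_iff_of_coe N k.1).mpr k.2)⟩) (by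
      intro a b hab
      apply Subtype.ext
      obtain ⟨c, hc⟩ : a ∈ MulAction.orbit N b := hab
      show ConjClasses.mk a.1 = ConjClasses.mk b.1
      rw [ConjClasses.mk_eq_mk_iff_isConj, isConj_comm, isConj_iff]
      refine ⟨c, ?_⟩
      rw [← hc]
      rfl)
  apply Nat.card_le_card_of_injective φ
  intro a b
  induction a using Quotient.inductionOn with | _ a => ?_
  induction b using Quotient.inductionOn with | _ b => ?_
  intro h
  have h1 : ConjClasses.mk a.1 = ConjClasses.mk b.1 := congrArg Subtype.val h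
  rw [ConjClasses.mk_eq_mk_iff_isConj, isConj_comm, isConj_iff] at h1
  obtain ⟨c, hc⟩ := h1
  apply Quotient.sound
  show a ∈ MulAction.orbit N b
  refine ⟨c, ?_⟩
  apply Subtype.ext
  exact hc

end classes

theorem result {G : Type*} [Group G] [Finite G] (N : Subgroup G) [N.Normal] (π : Set ℕ) :
    Nat.card {C : ConjClasses G // ∀ q : ℕ, q.Prime → (∃ g : G, ConjClasses.mk g = C ∧ q ∣ orderOf g) → q ∈ π} ≤ Nat.card {C : ConjClasses N // ∀ q : ℕ, q.Prime → (∃ g : N, ConjClasses.mk g = C ∧ q ∣ orderOf g) → q ∈ π} * Nat.card {C : ConjClasses (G ⧸ N) // ∀ q : ℕ, q.Prime → (∃ g : (G ⧸ N), ConjClasses.mk g = C ∧ q ∣ orderOf g) → q ∈ π} := by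
  classical
  haveI : Finite (ConjClasses G) := Quotient.finite _
  haveI : Finite (ConjClasses (G ⧸ N)) := Quotient.finite _
  let PG := {C : ConjClasses G // ∀ q : ℕ, q.Prime → (∃ g : G, ConjClasses.mk g = C ∧ q ∣ orderOf g) → q ∈ π}
  let PQ := {C : ConjClasses (G ⧸ N) // ∀ q : ℕ, q.Prime → (∃ g : (G ⧸ N), ConjClasses.mk g = C ∧ q ∣ orderOf g) → q ∈ π}
  haveI : Fintype PG := Fintype.ofFinite _
  haveI : Fintype PQ := Fintype.ofFinite _
  let ψ := QuotientGroup.mk' N
  have hrep : ∀ C : PG, ∃ g : G, IsPi π g ∧ ConjClasses.mk g = C.1 := by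
    intro C
    obtain ⟨g, hg⟩ := ConjClasses.exists_rep C.1
    refine ⟨g, isPi_of_mem_PC ?_, hg⟩
    rw [hg]
    exact C.2
  let Φ : PG → PQ := fun C => ⟨ConjClasses.map ψ C.1, by
    obtain ⟨g, hg, hgC⟩ := hrep C
    rw [← hgC]
    show ∀ q : ℕ, q.Prime → (∃ g' : G ⧸ N, ConjClasses.mk g' = ConjClasses.mk (ψ g) ∧ q ∣ orderOf g') → q ∈ π
    apply mem_PC_of_isPi
    intro q hq hd
    exact hg q hq (hd.trans (orderOf_map_dvd ψ g))⟩
  have hmain := Finset.card_le_mul_card_image_of_maps_to (s := (Finset.univ : Finset PG))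
    (t := (Finset.univ : Finset PQ)) (f := Φ) (fun _ _ => Finset.mem_univ _)
    (Nat.card {C : ConjClasses N // ∀ q : ℕ, q.Prime → (∃ g : N, ConjClasses.mk g = C ∧ q ∣ orderOf g) → q ∈ π}) ?_
  · rw [Nat.card_eq_fintype_card (α := PG), Nat.card_eq_fintype_card (α := PQ)]
    exact hmain
  · intro b _
    by_cases hne : (Finset.univ.filter (fun a : PG => Φ a = b)).Nonempty
    · obtain ⟨C₀, hC₀⟩ := hne
      have hC₀' : Φ C₀ = b := (Finset.mem_filter.mp hC₀).2
      obtain ⟨x, hx, hxC⟩ := hrep C₀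
      haveI : Finite (MulAction.orbitRel.Quotient N (Om N π x)) := by
        haveI : Finite (Om N π x) := by unfold Om; infer_instance
        exact Quotient.finite _
      haveI : Fintype (MulAction.orbitRel.Quotient N (Om N π x)) := Fintype.ofFinite _
      let ϕ : MulAction.orbitRel.Quotient N (Om N π x) → PG :=
        Quotient.lift (fun y : Om N π x => ⟨ConjClasses.mk y.1, mem_PC_of_isPi y.2.1⟩) (by
          intro a b hab
          apply Subtype.ext
          obtain ⟨c, hc⟩ : a ∈ MulAction.orbit N b := hab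
          show ConjClasses.mk a.1 = ConjClasses.mk b.1
          rw [ConjClasses.mk_eq_mk_iff_isConj, isConj_comm, isConj_iff]
          refine ⟨(c : G), ?_⟩
          rw [← hc]
          rfl)
      have hsub : Finset.univ.filter (fun a : PG => Φ a = b) ⊆ Finset.univ.image ϕ := by
        intro C hC
        have hCb : Φ C = b := (Finset.mem_filter.mp hC).2
        obtain ⟨g, hg, hgC⟩ := hrep C
        have h1 : ConjClasses.map ψ C.1 = ConjClasses.map ψ C₀.1 := by
          have := congrArg Subtype.val (hCb.trans hC₀'.symm)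
          exact this
        rw [← hgC, ← hxC] at h1
        have h2 : ConjClasses.mk (ψ g) = ConjClasses.mk (ψ x) := h1
        rw [ConjClasses.mk_eq_mk_iff_isConj, isConj_iff] at h2
        obtain ⟨cb, hcb⟩ := h2
        obtain ⟨h, rfl⟩ := QuotientGroup.mk'_surjective N cb
        have hyN : x⁻¹ * (h * g * h⁻¹) ∈ N := by
          apply QuotientGroup.eq.mp
          show ψ x = ψ (h * g * h⁻¹)
          rw [← hcb, map_mul, map_mul, map_inv]
        rw [Finset.mem_image]
        refine ⟨Quotient.mk _ (⟨h * g * h⁻¹, hg.conj h, hyN⟩ : Om N π x), Finset.mem_univ _, ?_⟩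
        apply Subtype.ext
        show ConjClasses.mk (h * g * h⁻¹) = C.1
        rw [← hgC, ConjClasses.mk_eq_mk_iff_isConj, isConj_comm, isConj_iff]
        exact ⟨h, rfl⟩
      calc _ ≤ (Finset.univ.image ϕ).card := Finset.card_le_card hsub
        _ ≤ (Finset.univ : Finset (MulAction.orbitRel.Quotient N (Om N π x))).card :=
          Finset.card_image_le
        _ = Nat.card (MulAction.orbitRel.Quotient N (Om N π x)) := by
          rw [Finset.card_univ, Nat.card_eq_fintype_card]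
        _ ≤ Nat.card (MulAction.orbitRel.Quotient N (Pp N π)) := orbits_le N π x
        _ ≤ _ := orbits_le_classes N π
    · rw [Finset.not_nonempty_iff_eq_empty] at hne
      rw [hne]
      simp

end Cfsg.Agent.S4152
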