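import Mathlib
import Cfsg.Statements.S4153

set_option autoImplicit false
open Cfsg

namespace Cfsg.Agent.S4153

theorem card_subgroupOf_mul {G : Type*} [Group G] [Finite G] (p : ℕ) [Fact p.Prime]
    (N : Subgroup G) [N.Normal] (P' : Sylow p G) (Pbar : Sylow p (G ⧸ N)) :
    Nat.card (N.subgroupOf (P' : Subgroup G)) * Nat.card (Pbar : Subgroup (G ⧸ N)) =
      Nat.card (P' : Subgroup G) := by
  have h1 := Subgroup.card_mul_index (N.subgroupOf (P' : Subgroup G))
  have hsurj : Function.Surjective (QuotientGroup.mk' N) := QuotientGroup.mk'_surjective N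
  have h2 : (N.subgroupOf (P' : Subgroup G)).index = Nat.card (Pbar : Subgroup (G ⧸ N)) := by
    have h3 : (QuotientGroup.mk' N).ker.relIndex (P' : Subgroup G) =
        Nat.card ((P' : Subgroup G).map (QuotientGroup.mk' N)) := Subgroup.relIndex_ker _ _
    rw [QuotientGroup.ker_mk'] at h3
    have h4 : (N.subgroupOf (P' : Subgroup G)).index = N.relIndex (P' : Subgroup G) := rfl
    rw [h4, h3]
    let Q : Sylow p (G ⧸ N) := P'.mapSurjective hsurj
    have h5 : ((P' : Subgroup G).map (QuotientGroup.mk' N)) = (Q : Subgroup (G ⧸ N)) := by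
      simp [Q]
    rw [h5, Sylow.card_eq_multiplicity, Sylow.card_eq_multiplicity]
  rw [h2] at h1
  exact h1

theorem pow_of_mem {G : Type*} [Group G] [Finite G] (p : ℕ) [Fact p.Prime]
    (P' : Sylow p G) (x : G) (hx : x ∈ P') : ∃ k : ℕ, orderOf x = p ^ k := by
  have := (IsPGroup.iff_orderOf.mp P'.isPGroup') ⟨x, hx⟩
  simpa using this

/-- Let G be a finite group, p a prime, N a normal subgroup, P a Sylow p-subgroup of G and P̄ a Sylow p-subgroup of G/N. Count the elements of p-power order, the identity included. Then (number of such elements of G/N)/#P̄ ≤ (number of such elements of G)/#P, stated as a cross-multiplied inequality, with equality when N is central. -/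
theorem result {G : Type*} [Group G] [Finite G] (p : ℕ) [Fact p.Prime] (N : Subgroup G) [N.Normal]
    (P : Sylow p G) (Pbar : Sylow p (G ⧸ N)) :
    Nat.card {g : (G ⧸ N) // ∃ k : ℕ, orderOf g = p ^ k} * Nat.card (P : Subgroup G) ≤ Nat.card {g : G // ∃ k : ℕ, orderOf g = p ^ k} * Nat.card (Pbar : Subgroup (G ⧸ N)) ∧
    (N ≤ Subgroup.center G → Nat.card {g : (G ⧸ N) // ∃ k : ℕ, orderOf g = p ^ k} * Nat.card (P : Subgroup G) = Nat.card {g : G // ∃ k : ℕ, orderOf g = p ^ k} * Nat.card (Pbar : Subgroup (G ⧸ N))) := by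
  classical
  have hp : p.Prime := Fact.out
  set m := Nat.card (N.subgroupOf (P : Subgroup G)) with hm
  have hPm : m * Nat.card (Pbar : Subgroup (G ⧸ N)) = Nat.card (P : Subgroup G) :=
    card_subgroupOf_mul p N P Pbar
  have hPbarpos : 0 < Nat.card (Pbar : Subgroup (G ⧸ N)) := Nat.card_pos
  have hmall : ∀ P' : Sylow p G, Nat.card (N.subgroupOf (P' : Subgroup G)) = m := by
    intro P'
    have h1 := card_subgroupOf_mul p N P' Pbar
    have h2 : Nat.card (P' : Subgroup G) = Nat.card (P : Subgroup G) := by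
      rw [Sylow.card_eq_multiplicity, Sylow.card_eq_multiplicity]
    rw [h2, ← hPm] at h1
    exact Nat.eq_of_mul_eq_mul_right hPbarpos h1
  let SG := {g : G // ∃ k : ℕ, orderOf g = p ^ k}
  let SQ := {g : (G ⧸ N) // ∃ k : ℕ, orderOf g = p ^ k}
  let F : SG → SQ := fun g => ⟨(g.1 : G ⧸ N), by
    obtain ⟨k, hk⟩ := g.2
    have h1 : orderOf (g.1 : G ⧸ N) ∣ p ^ k := by
      rw [← hk]
      exact orderOf_map_dvd (QuotientGroup.mk' N) g.1
    obtain ⟨j, -, hj⟩ := (Nat.dvd_prime_pow hp).mp h1
    exact ⟨j, hj⟩⟩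
  have hlift : ∀ q : SQ, ∃ (P' : Sylow p G) (g : G), g ∈ P' ∧ (g : G ⧸ N) = q.1 := by
    intro q
    obtain ⟨k, hk⟩ := q.2
    have hpg : IsPGroup p (Subgroup.zpowers q.1) := by
      rw [IsPGroup.iff_card]
      exact ⟨k, by rw [Nat.card_zpowers, hk]⟩
    obtain ⟨Q, hQ⟩ := hpg.exists_le_sylow
    have hsurj : Function.Surjective (QuotientGroup.mk' N) := QuotientGroup.mk'_surjective N
    obtain ⟨P', rfl⟩ := Sylow.mapSurjective_surjective hsurj p Q
    have hqmem : q.1 ∈ (P'.mapSurjective hsurj : Subgroup (G ⧸ N)) :=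
      hQ (Subgroup.mem_zpowers q.1)
    rw [Sylow.coe_mapSurjective, Subgroup.mem_map] at hqmem
    obtain ⟨g, hg, hgq⟩ := hqmem
    exact ⟨P', g, hg, hgq⟩
  have hfib_le : ∀ q : SQ, m ≤ Nat.card {g : SG // F g = q} := by
    intro q
    obtain ⟨P', g, hg, hgq⟩ := hlift q
    rw [← hmall P']
    let φ : N.subgroupOf (P' : Subgroup G) → {g : SG // F g = q} := fun n =>
      ⟨⟨g * (n.1 : G), pow_of_mem p P' _ ((P' : Subgroup G).mul_mem hg n.1.2)⟩, by
        apply Subtype.ext
        show ((g * (n.1 : G) : G) : G ⧸ N) = q.1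
        have hn : ((n.1 : G) : G ⧸ N) = 1 := (QuotientGroup.eq_one_iff _).mpr n.2
        rw [QuotientGroup.mk_mul, hn, mul_one, hgq]⟩
    apply Nat.card_le_card_of_injective φ
    intro a b hab
    have h1 : g * (a.1 : G) = g * (b.1 : G) := congrArg (fun x : {g : SG // F g = q} => x.1.1) hab
    apply Subtype.ext
    apply Subtype.ext
    exact mul_left_cancel h1
  letI : Fintype SQ := Fintype.ofFinite _
  have hsum : Nat.card SG = ∑ q : SQ, Nat.card {g : SG // F g = q} := by
    calc Nat.card SG = Nat.card (Σ q : SQ, {g : SG // F g = q}) :=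
          Nat.card_congr (Equiv.sigmaFiberEquiv F).symm
      _ = _ := Nat.card_sigma
  have hcardSQ : Nat.card SQ = Fintype.card SQ := Nat.card_eq_fintype_card
  have hle : Nat.card SQ * m ≤ Nat.card SG := by
    rw [hsum, hcardSQ]
    calc Fintype.card SQ * m = ∑ _q : SQ, m := by
          simp [Finset.card_univ]
      _ ≤ _ := Finset.sum_le_sum (fun q _ => hfib_le q)
  refine ⟨?_, ?_⟩
  · show Nat.card SQ * _ ≤ Nat.card SG * _
    rw [← hPm, ← mul_assoc]
    exact Nat.mul_le_mul_right _ hle
  · intro hcen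
    show Nat.card SQ * _ = Nat.card SG * _
    have hfib_ge : ∀ q : SQ, Nat.card {g : SG // F g = q} ≤ m := by
      intro q
      obtain ⟨P', g, hg, hgq⟩ := hlift q
      rw [← hmall P']
      obtain ⟨a, ha⟩ := pow_of_mem p P' g hg
      have hmem : ∀ y : {g : SG // F g = q}, g⁻¹ * y.1.1 ∈ N ∧ g⁻¹ * y.1.1 ∈ (P' : Subgroup G) := by
        rintro ⟨⟨y, b, hb⟩, hy⟩
        have hy' : (y : G ⧸ N) = q.1 := congrArg Subtype.val hy
        have hnN : g⁻¹ * y ∈ N := QuotientGroup.eq.mp (hgq.trans hy'.symm)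
        refine ⟨hnN, ?_⟩
        set n := g⁻¹ * y with hn
        have hcentral : n ∈ Subgroup.center G := hcen hnN
        have hcomm : Commute g n := Subgroup.mem_center_iff.mp hcentral g
        have hy2 : y = g * n := by rw [hn]; group
        -- `n` has `p`-power order
        have hnpow : n ^ (p ^ (a + b)) = 1 := by
          have h1 : y ^ (p ^ (a + b)) = 1 := by
            rw [pow_add, mul_comm, pow_mul, ← hb, pow_orderOf_eq_one, one_pow]
          have h2 : g ^ (p ^ (a + b)) = 1 := by
            rw [pow_add, pow_mul, ← ha, pow_orderOf_eq_one, one_pow]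
          rw [hy2, hcomm.mul_pow, h2, one_mul] at h1
          exact h1
        have hpg : IsPGroup p (Subgroup.zpowers n) := by
          rw [IsPGroup.iff_card]
          obtain ⟨j, -, hj⟩ := (Nat.dvd_prime_pow hp).mp (orderOf_dvd_of_pow_eq_one hnpow)
          exact ⟨j, by rw [Nat.card_zpowers, hj]⟩
        haveI hnorm : (Subgroup.zpowers n).Normal := by
          refine ⟨?_⟩
          rintro _ ⟨k, rfl⟩ x
          have : x * n ^ k * x⁻¹ = n ^ k := by
            have hc : Commute x (n ^ k) :=
              Commute.zpow_right (Subgroup.mem_center_iff.mp hcentral x) k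
            rw [hc.eq]; group
          simp only [this]
          exact ⟨k, rfl⟩
        exact hpg.le_sylow_of_normal P' (Subgroup.mem_zpowers n)
      let φ : {g : SG // F g = q} → N.subgroupOf (P' : Subgroup G) := fun y =>
        ⟨⟨g⁻¹ * y.1.1, (hmem y).2⟩, (hmem y).1⟩
      apply Nat.card_le_card_of_injective φ
      intro y z hyz
      have h1 : g⁻¹ * y.1.1 = g⁻¹ * z.1.1 :=
        congrArg (fun x : N.subgroupOf (P' : Subgroup G) => (x.1 : G)) hyz
      apply Subtype.ext
      apply Subtype.ext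
      exact mul_left_cancel h1
    have heq : Nat.card SQ * m = Nat.card SG := by
      apply le_antisymm hle
      rw [hsum, hcardSQ]
      calc _ ≤ ∑ _q : SQ, m := Finset.sum_le_sum (fun q _ => hfib_ge q)
        _ = _ := by simp [Finset.card_univ]
    rw [← hPm, ← mul_assoc, heq]

end Cfsg.Agent.S4153
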