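import Mathlib
import Cfsg.Statements.S4154

set_option autoImplicit false
open Cfsg

namespace Cfsg.Agent.S4154

theorem card_twisted {Q : Type*} [Group Q] [Finite Q] (f : Q →* Q) :
    Nat.card Q = Nat.card {q : Q // f q = q} * Nat.card (Set.range fun q : Q => q⁻¹ * f q) := by
  classical
  let τ : Q → Q := fun q => q⁻¹ * f q
  let τ' : Q → Set.range τ := fun q => ⟨τ q, ⟨q, rfl⟩⟩
  have hfib : ∀ t : Set.range τ, Nat.card {q // τ' q = t} = Nat.card {q : Q // f q = q} := by
    rintro ⟨t, q₀, rfl⟩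
    refine Nat.card_congr ⟨fun q => ⟨q.1 * q₀⁻¹, ?_⟩, fun d => ⟨d.1 * q₀, ?_⟩, ?_, ?_⟩
    · obtain ⟨q, hq⟩ := q
      have h : q⁻¹ * f q = q₀⁻¹ * f q₀ := congrArg Subtype.val hq
      simp only [map_mul, map_inv]
      have h2 : f q = q * (q₀⁻¹ * f q₀) := by
        rw [← h]; group
      rw [h2]; group
    · obtain ⟨d, hd⟩ := d
      apply Subtype.ext
      show (d * q₀)⁻¹ * f (d * q₀) = q₀⁻¹ * f q₀
      rw [map_mul, hd]; group
    · intro q; simp
    · intro d; simp
  letI : Fintype (Set.range τ) := Fintype.ofFinite _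
  calc Nat.card Q = Nat.card (Σ t : Set.range τ, {q // τ' q = t}) :=
        Nat.card_congr (Equiv.sigmaFiberEquiv τ').symm
    _ = ∑ t : Set.range τ, Nat.card {q // τ' q = t} := Nat.card_sigma
    _ = _ := by
        simp only [hfib]
        rw [Finset.sum_const, Finset.card_univ, smul_eq_mul, mul_comm, ← Nat.card_eq_fintype_card]

/-- Let G be a finite group and α an automorphism of G such that every element of G is the product of an element fixed by α and an element of the form g⁻¹α(g). If N is a normal α-invariant subgroup, then the automorphism ᾱ induced on G/N has the same property, and every coset fixed by ᾱ contains an element fixed by α (so the fixed points of ᾱ are the images of the fixed points of α). -/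
theorem result {G : Type*} [Group G] [Finite G] (α : MulAut G)
    (hccp : ∀ x : G, ∃ c g : G, α c = c ∧ x = c * (g⁻¹ * α g))
    (N : Subgroup G) [N.Normal] (hN : ∀ n ∈ N, α n ∈ N) :
    (∀ x : G, ∃ c g : G, c⁻¹ * α c ∈ N ∧ x⁻¹ * (c * (g⁻¹ * α g)) ∈ N) ∧
    (∀ x : G, x⁻¹ * α x ∈ N → ∃ c : G, α c = c ∧ c⁻¹ * x ∈ N) := by
  classical
  constructor
  · intro x
    obtain ⟨c, g, hc, hx⟩ := hccp x
    refine ⟨c, g, ?_, ?_⟩
    · rw [hc]; simp [N.one_mem]
    · rw [← hx]; simp [N.one_mem]
  · intro x hx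
    let a : G →* G := α.toMonoidHom
    have ha : N ≤ N.comap a := fun n hn => hN n hn
    let f : (G ⧸ N) →* (G ⧸ N) := QuotientGroup.map N N a ha
    have hf : ∀ g : G, f (g : G ⧸ N) = ((α g : G) : G ⧸ N) := fun g => rfl
    let I : Set (G ⧸ N) := {q | ∃ c : G, α c = c ∧ (c : G ⧸ N) = q}
    let D : Set (G ⧸ N) := {q | f q = q}
    let T : Set (G ⧸ N) := Set.range fun q : G ⧸ N => q⁻¹ * f q
    have hID : I ⊆ D := by
      rintro q ⟨c, hc, rfl⟩
      show f (c : G ⧸ N) = c
      rw [hf, hc]
    have hsurj : Function.Surjective (fun p : I × T => (p.1.1 * p.2.1 : G ⧸ N)) := by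
      intro q
      induction q using QuotientGroup.induction_on with
      | H y =>
        obtain ⟨c, g, hc, hy⟩ := hccp y
        refine ⟨⟨⟨(c : G ⧸ N), c, hc, rfl⟩, ⟨((g : G ⧸ N))⁻¹ * f g, (g : G ⧸ N), rfl⟩⟩, ?_⟩
        simp only [hf]
        rw [hy]
        simp
    have h1 : Nat.card (G ⧸ N) ≤ Nat.card I * Nat.card T := by
      have := Nat.card_le_card_of_surjective _ hsurj
      rwa [Nat.card_prod] at this
    have h2 := card_twisted f
    have hTpos : 0 < Nat.card T := by
      have : Nonempty T := ⟨⟨_, (1 : G ⧸ N), rfl⟩⟩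
      exact Nat.card_pos
    have h3 : Nat.card D ≤ Nat.card I := by
      have h4 : Nat.card {q // f q = q} * Nat.card T ≤ Nat.card I * Nat.card T := by
        rw [← h2]; exact h1
      exact Nat.le_of_mul_le_mul_right h4 hTpos
    have hID' : I = D := by
      apply Set.eq_of_subset_of_ncard_le hID
      rw [← Nat.card_coe_set_eq, ← Nat.card_coe_set_eq]
      exact h3
    have hxD : (x : G ⧸ N) ∈ D := by
      show f (x : G ⧸ N) = x
      rw [hf]
      symm
      exact QuotientGroup.eq.mpr hx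
    rw [← hID'] at hxD
    obtain ⟨c, hc, hcx⟩ := hxD
    exact ⟨c, hc, QuotientGroup.eq.mp hcx⟩

end Cfsg.Agent.S4154
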