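import Mathlib
import Cfsg.Statements.S4155
import Cfsg.Agent.Lib.PComplement
import Cfsg.Agent.Lib.PCore
import Cfsg.Agent.Lib.UniqueSub

set_option autoImplicit false
open Cfsg

namespace Cfsg.Agent.S4155

open Finset

/-- The abstract product identity. -/
theorem abstract_prod {V : Type*} [CommGroup V] (q : ℕ) (hq : 0 < q) (a b : MulAut V)
    (hab : Commute a b)
    (H1 : ∀ k, 0 < k → k < q → ∀ v, ∏ i ∈ range q, ((a ^ k) ^ i) v = 1)
    (H2 : ∀ i, ∀ v, ∏ k ∈ range q, ((a ^ i * b) ^ k) v = 1) (v : V) : v ^ q = 1 := by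
  have h0 : ∏ i ∈ range q, ∏ k ∈ range q, ((a ^ i * b) ^ k) v = 1 :=
    Finset.prod_eq_one (fun i _ => H2 i v)
  rw [Finset.prod_comm] at h0
  obtain ⟨q', rfl⟩ : ∃ q', q = q' + 1 := ⟨q - 1, by omega⟩
  rw [Finset.prod_range_succ'] at h0
  have h1 : ∏ k ∈ range q', ∏ i ∈ range (q' + 1), ((a ^ i * b) ^ (k + 1)) v = 1 := by
    apply Finset.prod_eq_one
    intro k hk
    have hk' : k < q' := Finset.mem_range.mp hk
    have h2 := H1 (k + 1) (by omega) (by omega) ((b ^ (k + 1)) v)
    rw [← h2]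
    apply Finset.prod_congr rfl
    intro i _
    have hc : Commute (a ^ i) b := hab.pow_left i
    rw [hc.mul_pow, MulAut.mul_apply, pow_right_comm]
  rw [h1, one_mul] at h0
  have h3 : ∏ i ∈ range (q' + 1), ((a ^ i * b) ^ 0) v = v ^ (q' + 1) := by
    simp
  rw [h3] at h0
  exact h0

section
variable {G : Type*} [Group G] [Finite G] (N : Subgroup G) [hN : N.Normal]

/-- the `s`-part of `Z(N)` -/
def VV (s : ℕ) : Subgroup G where
  carrier := {g | g ∈ N ∧ (∀ n ∈ N, n * g = g * n) ∧ ∃ k : ℕ, g ^ s ^ k = 1}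
  mul_mem' := by
    rintro a b ⟨ha, hac, k, hk⟩ ⟨hb, hbc, l, hl⟩
    refine ⟨N.mul_mem ha hb, ?_, k + l, ?_⟩
    · intro n hn
      rw [← mul_assoc, hac n hn, mul_assoc, hbc n hn, mul_assoc]
    · have hcomm : Commute a b := (hac b hb).symm
      rw [hcomm.mul_pow, pow_add, pow_mul, hk, one_pow, one_mul, mul_comm (s ^ k), pow_mul, hl,
        one_pow]
  one_mem' := ⟨N.one_mem, by simp, 0, by simp⟩
  inv_mem' := by
    rintro a ⟨ha, hac, k, hk⟩
    refine ⟨N.inv_mem ha, ?_, k, ?_⟩
    · intro n hn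
      have : Commute n a := hac n hn
      exact this.inv_right
    · rw [inv_pow, hk, inv_one]

lemma mem_VV {s : ℕ} {g : G} : g ∈ VV N s ↔ g ∈ N ∧ (∀ n ∈ N, n * g = g * n) ∧ ∃ k : ℕ, g ^ s ^ k = 1 :=
  Iff.rfl

instance VV_normal (s : ℕ) : (VV N s).Normal := by
  constructor
  rintro a ⟨ha, hac, k, hk⟩ g
  refine ⟨hN.conj_mem a ha g, ?_, k, ?_⟩
  · intro n hn
    have h1 : g⁻¹ * n * g ∈ N := by
      have := hN.conj_mem n hn g⁻¹
      simpa using this
    have h2 := hac _ h1
    calc n * (g * a * g⁻¹) = g * (g⁻¹ * n * g * a) * g⁻¹ := by group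
      _ = g * (a * (g⁻¹ * n * g)) * g⁻¹ := by rw [h2]
      _ = g * a * g⁻¹ * n := by group
  · rw [conj_pow, hk]; group

lemma exists_central_elt (hnil : Group.IsNilpotent N) (s : ℕ) [hs : Fact s.Prime]
    (hd : s ∣ Nat.card N) : ∃ y ∈ VV N s, y ≠ 1 := by
  classical
  obtain ⟨P⟩ : Nonempty (Sylow s N) := inferInstance
  have hPn : (P : Subgroup N).Normal :=
    ((Group.isNilpotent_of_finite_tfae (G := N)).out 0 3 rfl rfl).mp hnil s hs P
  have hne : (P : Subgroup N) ≠ ⊥ := P.ne_bot_of_dvd_card hd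
  haveI : Nontrivial (P : Subgroup N) := Subgroup.nontrivial_iff_ne_bot _ |>.mpr hne
  have hct := P.isPGroup'.center_nontrivial
  obtain ⟨z, hz⟩ := exists_ne (1 : Subgroup.center (P : Subgroup N))
  -- the element
  refine ⟨(((z : (P : Subgroup N)) : N) : G), ?_, ?_⟩
  · obtain ⟨k, hk⟩ := P.isPGroup' (z : (P : Subgroup N))
    have hk' : (z : N) ^ s ^ k = 1 := congrArg Subtype.val hk
    have hk'' : ((z : N) : G) ^ s ^ k = 1 := congrArg Subtype.val hk'
    refine ⟨((z : (P : Subgroup N)) : N).2, ?_, k, hk''⟩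
    intro n hn
    obtain ⟨a, b, hab, -, -, ⟨l, hl⟩, hb⟩ := Cfsg.Agent.Lib.PComplement.exists_decomp s (⟨n, hn⟩ : N)
    have h1 : (z : N) * b = b * (z : N) :=
      Cfsg.Agent.Lib.PComplement.commute_of_isNilpotent (p := s) ⟨k, hk'⟩ hb
    have h2 : a ∈ (P : Subgroup N) := by
      have hxp : IsPGroup s (Subgroup.zpowers a) := by
        rw [IsPGroup.iff_card, Nat.card_zpowers]
        have h1 : orderOf a ∣ s ^ l := orderOf_dvd_of_pow_eq_one hl
        obtain ⟨j, -, hj⟩ := (Nat.dvd_prime_pow hs.out).1 h1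
        exact ⟨j, hj⟩
      obtain ⟨P', hP'⟩ := hxp.exists_le_sylow
      have : Subsingleton (Sylow s N) := (Sylow.unique_of_normal P hPn).instSubsingleton
      rw [Subsingleton.elim P P'] 
      exact hP' (Subgroup.mem_zpowers a)
    have h3 : (z : (P : Subgroup N)) * ⟨a, h2⟩ = ⟨a, h2⟩ * z :=
      (Subgroup.mem_center_iff.mp z.2 ⟨a, h2⟩).symm
    have h4 : (z : N) * a = a * (z : N) := congrArg Subtype.val h3
    have h5 : (z : N) * (⟨n, hn⟩ : N) = (⟨n, hn⟩ : N) * (z : N) := by
      rw [hab, ← mul_assoc, h4, mul_assoc, h1, mul_assoc]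
    exact (congrArg Subtype.val h5).symm
  · intro h
    apply hz
    apply Subtype.ext
    apply Subtype.ext
    apply Subtype.ext
    exact h

/-- Fixed-point-freeness -/
lemma fpf (heq : ∀ x : G, x ∉ N → ∀ n ∈ N, orderOf (x * n) = orderOf x)
    {q s : ℕ} [hq : Fact q.Prime] [hs : Fact s.Prime] (hqs : q ≠ s) {g y : G} (hg : g ∉ N)
    (hgq : g ^ q ∈ N) (hy : y ∈ VV N s) (hc : g * y = y * g) : y = 1 := by
  obtain ⟨a, m, hm, hord⟩ := Nat.exists_eq_pow_mul_and_not_dvd (orderOf_pos g).ne' q hq.out.ne_one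
  set x := g ^ m with hx
  have hxN : x ∉ N := by
    intro hxN
    apply hg
    have h1 : ((g : G) : G ⧸ N) ^ q = 1 := by
      rw [← QuotientGroup.mk_pow]
      exact (QuotientGroup.eq_one_iff _).mpr hgq
    have h2 : ((g : G) : G ⧸ N) ^ m = 1 := by
      rw [← QuotientGroup.mk_pow]
      exact (QuotientGroup.eq_one_iff _).mpr hxN
    have h3 := pow_gcd_eq_one.mpr ⟨h1, h2⟩
    rw [((Nat.Prime.coprime_iff_not_dvd hq.out).mpr hm : Nat.gcd q m = 1), pow_one] at h3
    exact (QuotientGroup.eq_one_iff _).mp h3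
  have hxord : orderOf x ∣ q ^ a := by
    apply orderOf_dvd_of_pow_eq_one
    rw [hx, ← pow_mul, mul_comm, ← hord, pow_orderOf_eq_one]
  obtain ⟨hyN, -, k, hk⟩ := hy
  have hyord : orderOf y ∣ s ^ k := orderOf_dvd_of_pow_eq_one hk
  have hcop : Nat.Coprime (orderOf x) (orderOf y) := by
    apply Nat.Coprime.coprime_dvd_left hxord
    apply Nat.Coprime.coprime_dvd_right hyord
    apply Nat.Coprime.pow
    exact (Nat.coprime_primes hq.out hs.out).mpr hqs
  have hxc : Commute x y := by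
    have : Commute g y := hc
    exact this.pow_left m
  have h1 := hxc.orderOf_mul_eq_mul_orderOf_of_coprime hcop
  have h2 := heq x hxN y hyN
  rw [h1] at h2
  have h3 : orderOf y = 1 := by
    have hpos : 0 < orderOf x := orderOf_pos x
    exact Nat.eq_of_mul_eq_mul_left hpos (by rw [h2, mul_one])
  exact orderOf_eq_one_iff.mp h3

lemma VV_comm {s : ℕ} {a b : G} (ha : a ∈ VV N s) (hb : b ∈ VV N s) : a * b = b * a :=
  (ha.2.1 b hb.1).symm

theorem lemmaF (heq : ∀ x : G, x ∉ N → ∀ n ∈ N, orderOf (x * n) = orderOf x)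
    {q s : ℕ} [hq : Fact q.Prime] [hs : Fact s.Prime] (hqs : q ≠ s) (u w : G)
    (hu : u ∉ N) (huq : u ^ q ∈ N) (hwq : w ^ q ∈ N)
    (hc : ((u : G) : G ⧸ N) * ((w : G) : G ⧸ N) = ((w : G) : G ⧸ N) * ((u : G) : G ⧸ N))
    (huw : ∀ i : ℕ, u ^ i * w ∉ N) : ∀ v ∈ VV N s, v ^ q = 1 := by
  classical
  set V := VV N s with hV
  letI iC : CommGroup V :=
    { (inferInstance : Group V) with mul_comm := fun a b => Subtype.ext (VV_comm N a.2 b.2) }
  let ρ : G →* MulAut V := MulAut.conjNormal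
  have hρapp : ∀ (g : G) (v : V), ((ρ g v : V) : G) = g * v * g⁻¹ := fun g v =>
    MulAut.conjNormal_apply g v
  have hρN : ∀ n ∈ N, ρ n = 1 := by
    intro n hn
    ext v
    rw [hρapp]
    have := v.2.2.1 n hn
    show n * (v : G) * n⁻¹ = v
    rw [this]; group
  have hT : ∀ g, g ∉ N → g ^ q ∈ N → ∀ v : V, ∏ i ∈ range q, ((ρ g) ^ i) v = 1 := by
    intro g hg hgq v
    set t := ∏ i ∈ range q, ((ρ g) ^ i) v with ht
    have hfix : (ρ g) t = t := by
      rw [ht, map_prod]
      have h1 := Finset.prod_range_succ (fun i => ((ρ g) ^ i) v) q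
      have h2 := Finset.prod_range_succ' (fun i => ((ρ g) ^ i) v) q
      have h3 : ((ρ g) ^ q) v = ((ρ g) ^ 0) v := by
        rw [← map_pow, hρN _ hgq]; rfl
      rw [h1, h3] at h2
      have h4 := mul_right_cancel h2
      rw [h4]
      apply Finset.prod_congr rfl
      intro i _
      rw [pow_succ', MulAut.mul_apply]
    have hcomm : g * (t : G) = (t : G) * g := by
      have h1 := congrArg Subtype.val hfix
      rw [hρapp] at h1
      calc g * (t : G) = (g * (t : G) * g⁻¹) * g := by group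
        _ = (t : G) * g := by rw [h1]
    have := fpf N heq hqs hg hgq t.2 hcomm
    exact Subtype.ext this
  have hnotpow : ∀ k, 0 < k → k < q → u ^ k ∉ N := by
    intro k hk0 hkq hmem
    apply hu
    have h1 : ((u : G) : G ⧸ N) ^ q = 1 := by
      rw [← QuotientGroup.mk_pow]
      exact (QuotientGroup.eq_one_iff _).mpr huq
    have h2 : ((u : G) : G ⧸ N) ^ k = 1 := by
      rw [← QuotientGroup.mk_pow]
      exact (QuotientGroup.eq_one_iff _).mpr hmem
    have h3 := pow_gcd_eq_one.mpr ⟨h1, h2⟩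
    have hcop : Nat.gcd q k = 1 :=
      (Nat.Prime.coprime_iff_not_dvd hq.out).mpr (Nat.not_dvd_of_pos_of_lt hk0 hkq)
    rw [hcop, pow_one] at h3
    exact (QuotientGroup.eq_one_iff _).mp h3
  have hab : Commute (ρ u) (ρ w) := by
    show ρ u * ρ w = ρ w * ρ u
    rw [← map_mul, ← map_mul]
    have h1 : (w * u)⁻¹ * (u * w) ∈ N := QuotientGroup.eq.mp (by
      show ((w * u : G) : G ⧸ N) = ((u * w : G) : G ⧸ N)
      rw [QuotientGroup.mk_mul, QuotientGroup.mk_mul, hc])
    have h2 := hρN _ h1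
    rw [map_mul, map_inv, inv_mul_eq_one] at h2
    exact h2.symm
  intro v hv
  have hmain := abstract_prod q hq.out.pos (ρ u) (ρ w) hab ?_ ?_ (⟨v, hv⟩ : V)
  · exact congrArg Subtype.val hmain
  · intro k hk0 hkq v'
    rw [← map_pow]
    apply hT
    · exact hnotpow k hk0 hkq
    · rw [← pow_mul, mul_comm, pow_mul]
      exact N.pow_mem huq k
  · intro i v'
    rw [← map_pow, ← map_mul]
    apply hT
    · exact huw i
    · rw [← QuotientGroup.eq_one_iff, QuotientGroup.mk_pow, QuotientGroup.mk_mul,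
        QuotientGroup.mk_pow]
      have hcomm : Commute (((u : G) : G ⧸ N) ^ i) ((w : G) : G ⧸ N) :=
        Commute.pow_left (show Commute _ _ from hc) i
      rw [hcomm.mul_pow, ← pow_mul, mul_comm, pow_mul, ← QuotientGroup.mk_pow,
        (QuotientGroup.eq_one_iff _).mpr huq, one_pow, one_mul, ← QuotientGroup.mk_pow,
        (QuotientGroup.eq_one_iff _).mpr hwq]

/-- Existence of a prime `s ≠ q` dividing `|N|`. -/
lemma exists_other_prime (hN1 : N ≠ ⊥) (hnpp : ¬ IsPrimePow (Nat.card N)) (q : ℕ) (hq : q.Prime) :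
    ∃ s, s.Prime ∧ s ≠ q ∧ s ∣ Nat.card N := by
  by_contra hcon
  push Not at hcon
  have h1 : Nat.card N = q ^ (Nat.card N).primeFactorsList.length := by
    apply Nat.eq_prime_pow_of_unique_prime_dvd Nat.card_pos.ne'
    intro d hd hdd
    by_contra hne
    exact hcon d hd hne hdd
  apply hnpp
  rw [isPrimePow_def]
  refine ⟨q, _, hq.prime, ?_, h1.symm⟩
  rw [Nat.pos_iff_ne_zero]
  intro h0
  rw [h0, pow_zero] at h1
  exact hN1 (Subgroup.card_eq_one.mp h1)

end

theorem result {G : Type*} [Group G] [Finite G] (N : Subgroup G) [N.Normal] (hN1 : N ≠ ⊥) (hN2 : N ≠ ⊤)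
    (heq : ∀ x : G, x ∉ N → ∀ n ∈ N, orderOf (x * n) = orderOf x)
    (hnil : Group.IsNilpotent N) (hnpp : ¬ IsPrimePow (Nat.card N)) :
    N = Cfsg.fittingSubgroup G ∧
    ∀ (q : ℕ) [Fact q.Prime] (Q : Sylow q (G ⧸ N)), IsCyclic (Q : Subgroup (G ⧸ N)) ∨ ∃ n : ℕ, Nonempty ((Q : Subgroup (G ⧸ N)) ≃* QuaternionGroup (2 ^ n)) := by
  classical
  constructor
  · -- Fitting
    apply le_antisymm
    · exact Cfsg.Agent.Lib.PCore.le_fittingSubgroup inferInstance hnil
    · intro x hxF
      by_contra hxN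
      have hne : ((x : G) : G ⧸ N) ≠ 1 := fun h => hxN ((QuotientGroup.eq_one_iff _).mp h)
      have hd : orderOf ((x : G) : G ⧸ N) ≠ 1 := by
        rw [Ne, orderOf_eq_one_iff]; exact hne
      obtain ⟨q, hqp, hqd⟩ := Nat.exists_prime_and_dvd hd
      haveI : Fact q.Prime := ⟨hqp⟩
      obtain ⟨a, m, hm, hord⟩ := Nat.exists_eq_pow_mul_and_not_dvd (orderOf_pos x).ne' q hqp.ne_one
      have hxm : x ^ m ∉ N := by
        intro h1
        have h2 : ((x : G) : G ⧸ N) ^ m = 1 := by
          rw [← QuotientGroup.mk_pow]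
          exact (QuotientGroup.eq_one_iff _).mpr h1
        exact hm (hqd.trans (orderOf_dvd_of_pow_eq_one h2))
      have hxord : (x ^ m) ^ q ^ a = 1 := by
        rw [← pow_mul, mul_comm, ← hord, pow_orderOf_eq_one]
      obtain ⟨s, hsp, hsq, hsd⟩ := exists_other_prime N hN1 hnpp q hqp
      haveI : Fact s.Prime := ⟨hsp⟩
      obtain ⟨y, hy⟩ := exists_prime_orderOf_dvd_card' s hsd
      have hyN : (y : G) ∈ N := y.2
      have hyF : (y : G) ∈ Cfsg.fittingSubgroup G :=
        Cfsg.Agent.Lib.PCore.le_fittingSubgroup inferInstance hnil hyN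
      haveI : Group.IsNilpotent (Cfsg.fittingSubgroup G) :=
        Cfsg.Agent.Lib.PCore.isNilpotent_fittingSubgroup
      have hyord : orderOf (y : G) = s := by
        rw [Subgroup.orderOf_coe, hy]
      have hcomm : (⟨x ^ m, (Cfsg.fittingSubgroup G).pow_mem hxF m⟩ : Cfsg.fittingSubgroup G) *
          ⟨y, hyF⟩ = ⟨y, hyF⟩ * ⟨x ^ m, (Cfsg.fittingSubgroup G).pow_mem hxF m⟩ := by
        apply Cfsg.Agent.Lib.PComplement.commute_of_isNilpotent (p := q)
        · refine ⟨a, Subtype.ext hxord⟩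
        · rw [Subgroup.orderOf_mk, hyord]
          exact (Nat.coprime_primes hsp hqp).mpr hsq
      have hcomm' : Commute (x ^ m) (y : G) := congrArg Subtype.val hcomm
      have hcop : Nat.Coprime (orderOf (x ^ m)) (orderOf (y : G)) := by
        rw [hyord]
        apply Nat.Coprime.coprime_dvd_left (orderOf_dvd_of_pow_eq_one hxord)
        apply Nat.Coprime.pow_left
        exact (Nat.coprime_primes hqp hsp).mpr hsq.symm
      have h1 := hcomm'.orderOf_mul_eq_mul_orderOf_of_coprime hcop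
      have h2 := heq _ hxm _ hyN
      rw [h1, hyord] at h2
      have hpos : 0 < orderOf (x ^ m) := orderOf_pos _
      have h3 : s = 1 := Nat.eq_of_mul_eq_mul_left hpos (by rw [h2, mul_one])
      exact hsp.one_lt.ne' h3
  · intro q _ Q
    have hqp : q.Prime := Fact.out
    obtain ⟨s, hsp, hsq, hsd⟩ := exists_other_prime N hN1 hnpp q hqp
    haveI : Fact s.Prime := ⟨hsp⟩
    obtain ⟨y, hyV, hy1⟩ := exists_central_elt N hnil s hsd
    have huniq : ∀ H K : Subgroup (Q : Subgroup (G ⧸ N)), Nat.card H = q → Nat.card K = q → H = K := by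
      intro H K hH hK
      -- Q is nontrivial
      haveI : Nontrivial (Q : Subgroup (G ⧸ N)) := by
        by_contra hn
        rw [not_nontrivial_iff_subsingleton] at hn
        have : Nat.card H = 1 := Nat.card_unique
        rw [hH] at this
        exact hqp.one_lt.ne' this
      have hQp : IsPGroup q (Q : Subgroup (G ⧸ N)) := Q.isPGroup'
      have hct := hQp.center_nontrivial
      obtain ⟨k, hk⟩ := IsPGroup.iff_card.mp (hQp.to_subgroup (Subgroup.center (Q : Subgroup (G ⧸ N))))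
      have hqcard : q ∣ Nat.card (Subgroup.center (Q : Subgroup (G ⧸ N))) := by
        rw [hk]
        apply dvd_pow_self
        rintro rfl
        rw [pow_zero] at hk
        have : 1 < Nat.card (Subgroup.center (Q : Subgroup (G ⧸ N))) := Finite.one_lt_card
        omega
      obtain ⟨z, hz⟩ := exists_prime_orderOf_dvd_card' q hqcard
      have hzo : orderOf (z : (Q : Subgroup (G ⧸ N))) = q := by
        rw [Subgroup.orderOf_coe, hz]
      have hkey : ∀ h : (Q : Subgroup (G ⧸ N)), h ^ q = 1 →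
          h ∈ Subgroup.zpowers (z : (Q : Subgroup (G ⧸ N))) := by
        intro h hh
        by_contra hnot
        obtain ⟨u, hu⟩ := QuotientGroup.mk'_surjective N (((z : (Q : Subgroup (G ⧸ N)))) : G ⧸ N)
        obtain ⟨w, hw⟩ := QuotientGroup.mk'_surjective N (h : G ⧸ N)
        have hu' : ((u : G) : G ⧸ N) = ((z : (Q : Subgroup (G ⧸ N))) : G ⧸ N) := hu
        have hw' : ((w : G) : G ⧸ N) = (h : G ⧸ N) := hw
        have hzq : (((z : (Q : Subgroup (G ⧸ N)))) : G ⧸ N) ^ q = 1 := by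
          have := pow_orderOf_eq_one (z : (Q : Subgroup (G ⧸ N)))
          rw [hzo] at this
          exact congrArg Subtype.val this
        have hhq : (h : G ⧸ N) ^ q = 1 := congrArg Subtype.val hh
        have hmain := lemmaF N heq (s := s) hsq.symm u w ?_ ?_ ?_ ?_ ?_ y hyV
        · -- contradiction
          obtain ⟨-, -, l, hl⟩ := hyV
          have h1 := orderOf_dvd_of_pow_eq_one hmain
          have h2 := orderOf_dvd_of_pow_eq_one hl
          have hcop : Nat.Coprime q (s ^ l) :=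
            Nat.Coprime.pow_right l ((Nat.coprime_primes hqp hsp).mpr hsq.symm)
          have h3 := Nat.eq_one_of_dvd_coprimes hcop h1 h2
          exact hy1 (orderOf_eq_one_iff.mp h3)
        · intro huN
          have h1 : ((u : G) : G ⧸ N) = 1 := (QuotientGroup.eq_one_iff _).mpr huN
          rw [hu'] at h1
          have h2 : (z : (Q : Subgroup (G ⧸ N))) = 1 := Subtype.ext h1
          rw [h2, orderOf_one] at hzo
          exact hqp.one_lt.ne hzo
        · rw [← QuotientGroup.eq_one_iff, QuotientGroup.mk_pow, hu', hzq]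
        · rw [← QuotientGroup.eq_one_iff, QuotientGroup.mk_pow, hw', hhq]
        · rw [hu', hw']
          have := Subgroup.mem_center_iff.mp z.2 h
          exact (congrArg Subtype.val this).symm
        · intro i hmem
          have h1 : ((u ^ i * w : G) : G ⧸ N) = 1 := (QuotientGroup.eq_one_iff _).mpr hmem
          rw [QuotientGroup.mk_mul, QuotientGroup.mk_pow, hu', hw'] at h1
          have h2 : (z : (Q : Subgroup (G ⧸ N))) ^ i * h = 1 := Subtype.ext h1
          apply hnot
          have h3 : h = ((z : (Q : Subgroup (G ⧸ N))) ^ i)⁻¹ := eq_inv_of_mul_eq_one_right h2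
          rw [h3]
          exact Subgroup.inv_mem _ (Subgroup.npow_mem_zpowers _ _)
      have hall : ∀ H' : Subgroup (Q : Subgroup (G ⧸ N)), Nat.card H' = q →
          H' = Subgroup.zpowers (z : (Q : Subgroup (G ⧸ N))) := by
        intro H' hH'
        apply Subgroup.eq_of_le_of_card_ge
        · intro h hh
          apply hkey
          have h0 : (⟨h, hh⟩ : H') ^ Nat.card H' = 1 := pow_card_eq_one'
          rw [hH'] at h0
          exact congrArg Subtype.val h0
        · rw [hH', Nat.card_zpowers, hzo]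
      rw [hall H hH, hall K hK]
    rcases Cfsg.Agent.Lib.UniqueSub.main q Q.isPGroup' huniq with h | ⟨-, n, he⟩
    · exact Or.inl h
    · exact Or.inr ⟨n, he⟩

end Cfsg.Agent.S4155
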