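import Mathlib
import Cfsg.Statements.S4156

set_option autoImplicit false
open Cfsg

namespace Cfsg.Agent.S4156

noncomputable section

variable (n : ℕ) (F : Type*) [Field F]

/-- the sum-of-coordinates functional -/
def sumL : (Fin (n + 1) → F) →ₗ[F] F where
  toFun f := ∑ i, f i
  map_add' f g := by simp [Finset.sum_add_distrib]
  map_smul' c f := by simp [Finset.mul_sum]

abbrev U : Submodule F (Fin (n + 1) → F) := LinearMap.ker (sumL n F)

lemma finrank_U : Module.finrank F (U n F) = n := by
  have h := LinearMap.finrank_range_add_finrank_ker (sumL n F)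
  have hr : LinearMap.range (sumL n F) = ⊤ := by
    rw [LinearMap.range_eq_top]
    intro c
    refine ⟨Pi.single 0 c, ?_⟩
    simp [sumL]
  rw [hr, finrank_top, Module.finrank_self, Module.finrank_fin_fun] at h
  change Module.finrank F (LinearMap.ker (sumL n F)) = n
  omega

def permL (σ : Equiv.Perm (Fin (n + 1))) : (Fin (n + 1) → F) →ₗ[F] (Fin (n + 1) → F) :=
  LinearMap.funLeft F F (σ⁻¹ : Equiv.Perm (Fin (n + 1)))

lemma permL_apply (σ : Equiv.Perm (Fin (n + 1))) (f : Fin (n + 1) → F) (x : Fin (n + 1)) :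
    permL n F σ f x = f (σ⁻¹ x) := rfl

lemma permL_mem (σ : Equiv.Perm (Fin (n + 1))) (f : Fin (n + 1) → F) (hf : f ∈ U n F) :
    permL n F σ f ∈ U n F := by
  have hf' : ∑ i, f i = 0 := hf
  show ∑ i, permL n F σ f i = 0
  simp only [permL_apply]
  rw [Equiv.sum_comp (σ⁻¹ : Equiv.Perm (Fin (n + 1))) f, hf']

def rho : Equiv.Perm (Fin (n + 1)) →* Module.End F (U n F) where
  toFun σ := (permL n F σ).restrict (permL_mem n F σ)
  map_one' := by
    ext f x
    simp [permL_apply]
  map_mul' σ τ := by
    ext f x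
    simp [permL_apply, Module.End.mul_apply]

lemma rho_apply (σ : Equiv.Perm (Fin (n + 1))) (f : U n F) (x : Fin (n + 1)) :
    ((rho n F σ f : U n F) : Fin (n + 1) → F) x = (f : Fin (n + 1) → F) (σ⁻¹ x) := rfl

def bas : Module.Basis (Fin n) F (U n F) := Module.finBasisOfFinrankEq F (U n F) (finrank_U n F)

def M : Equiv.Perm (Fin (n + 1)) →* Matrix (Fin n) (Fin n) F :=
  (LinearMap.toMatrixAlgEquiv (bas n F)).toRingEquiv.toMonoidHom.comp (rho n F)

lemma det_M (hn : 5 ≤ n) (σ : alternatingGroup (Fin (n + 1))) :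
    (M n F (σ : Equiv.Perm (Fin (n + 1)))).det = 1 := by
  classical
  let D : alternatingGroup (Fin (n + 1)) →* Fˣ :=
    ((Matrix.detMonoidHom.comp (M n F)).comp (alternatingGroup (Fin (n + 1))).subtype).toHomUnits
  haveI hs : IsSimpleGroup (alternatingGroup (Fin (n + 1))) :=
    alternatingGroup.isSimpleGroup (by simp; omega)
  have hker : D.ker = ⊥ ∨ D.ker = ⊤ :=
    hs.eq_bot_or_eq_top_of_normal _ inferInstance
  rcases hker with h | h
  · exfalso
    have hinj : Function.Injective D := (MonoidHom.ker_eq_bot_iff D).mp h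
    let a : Fin (n + 1) := ⟨0, by omega⟩
    let b : Fin (n + 1) := ⟨1, by omega⟩
    let c : Fin (n + 1) := ⟨2, by omega⟩
    let d : Fin (n + 1) := ⟨3, by omega⟩
    have hab : a ≠ b := by simp [a, b, Fin.ext_iff]
    have hac : a ≠ c := by simp [a, c, Fin.ext_iff]
    have had : a ≠ d := by simp [a, d, Fin.ext_iff]
    have hbc : b ≠ c := by simp [b, c, Fin.ext_iff]
    have hbd : b ≠ d := by simp [b, d, Fin.ext_iff]
    have hcd : c ≠ d := by simp [c, d, Fin.ext_iff]
    have m1 : Equiv.swap a b * Equiv.swap b c ∈ alternatingGroup (Fin (n + 1)) := by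
      rw [Equiv.Perm.mem_alternatingGroup, Equiv.Perm.sign_mul, Equiv.Perm.sign_swap hab,
        Equiv.Perm.sign_swap hbc]
      simp
    have m2 : Equiv.swap a b * Equiv.swap b d ∈ alternatingGroup (Fin (n + 1)) := by
      rw [Equiv.Perm.mem_alternatingGroup, Equiv.Perm.sign_mul, Equiv.Perm.sign_swap hab,
        Equiv.Perm.sign_swap hbd]
      simp
    let s : alternatingGroup (Fin (n + 1)) := ⟨_, m1⟩
    let t : alternatingGroup (Fin (n + 1)) := ⟨_, m2⟩
    have hc : s * t = t * s := by
      apply hinj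
      rw [map_mul, map_mul, mul_comm]
    have h2 := congrArg (fun x : alternatingGroup (Fin (n + 1)) => (x : Equiv.Perm (Fin (n + 1))) a) hc
    have e1 : Equiv.swap b d a = a := Equiv.swap_apply_of_ne_of_ne hab had
    have e2 : Equiv.swap b c a = a := Equiv.swap_apply_of_ne_of_ne hab hac
    have e3 : Equiv.swap a b c = c := Equiv.swap_apply_of_ne_of_ne hac.symm hbc.symm
    have e4 : Equiv.swap a b d = d := Equiv.swap_apply_of_ne_of_ne had.symm hbd.symm
    simp only [s, t, Subgroup.coe_mul, Equiv.Perm.mul_apply, e1, e2, Equiv.swap_apply_left,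
      Equiv.swap_apply_right, e3, e4] at h2
    exact hcd h2
  · have : σ ∈ D.ker := by rw [h]; trivial
    have h2 : D σ = 1 := this
    have h3 := congrArg Units.val h2
    simpa [D] using h3

end

theorem result (n : ℕ) (hn : 5 ≤ n) (F : Type*) [Field F] [Finite F] :
    ∃ f : alternatingGroup (Fin (n + 1)) →* Matrix.ProjectiveSpecialLinearGroup (Fin n) F, Function.Injective f := by
  classical
  let f0 : alternatingGroup (Fin (n + 1)) →* Matrix.SpecialLinearGroup (Fin n) F :=
    { toFun := fun σ => ⟨M n F (σ : Equiv.Perm (Fin (n + 1))), det_M n F hn σ⟩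
      map_one' := by
        apply Subtype.ext
        simp
      map_mul' := fun x y => by
        apply Subtype.ext
        simp only [Subgroup.coe_mul, map_mul]
        rfl }
  let f := (QuotientGroup.mk' (Subgroup.center (Matrix.SpecialLinearGroup (Fin n) F))).comp f0
  refine ⟨f, ?_⟩
  haveI hs : IsSimpleGroup (alternatingGroup (Fin (n + 1))) :=
    alternatingGroup.isSimpleGroup (by simp; omega)
  have hker : f.ker = ⊥ ∨ f.ker = ⊤ :=
    hs.eq_bot_or_eq_top_of_normal _ inferInstance
  rcases hker with h | h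
  · exact (MonoidHom.ker_eq_bot_iff f).mp h
  · exfalso
    let a : Fin (n + 1) := ⟨0, by omega⟩
    let b : Fin (n + 1) := ⟨1, by omega⟩
    let c : Fin (n + 1) := ⟨2, by omega⟩
    let d : Fin (n + 1) := ⟨3, by omega⟩
    have hab : a ≠ b := by simp [a, b, Fin.ext_iff]
    have hac : a ≠ c := by simp [a, c, Fin.ext_iff]
    have had : a ≠ d := by simp [a, d, Fin.ext_iff]
    have hbc : b ≠ c := by simp [b, c, Fin.ext_iff]
    have hbd : b ≠ d := by simp [b, d, Fin.ext_iff]
    have hcd : c ≠ d := by simp [c, d, Fin.ext_iff]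
    have m1 : Equiv.swap a b * Equiv.swap b c ∈ alternatingGroup (Fin (n + 1)) := by
      rw [Equiv.Perm.mem_alternatingGroup, Equiv.Perm.sign_mul, Equiv.Perm.sign_swap hab,
        Equiv.Perm.sign_swap hbc]
      simp
    let s : alternatingGroup (Fin (n + 1)) := ⟨_, m1⟩
    have hsk : s ∈ f.ker := by rw [h]; trivial
    have hsk2 : f0 s ∈ Subgroup.center (Matrix.SpecialLinearGroup (Fin n) F) := by
      have : (QuotientGroup.mk' _ (f0 s)) = 1 := hsk
      simpa using this
    obtain ⟨r, -, hr⟩ := Matrix.SpecialLinearGroup.mem_center_iff.mp hsk2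
    -- s acts as the scalar r
    have hr2 : M n F (s : Equiv.Perm (Fin (n + 1))) = Matrix.scalar (Fin n) r := hr.symm
    have hr3 : rho n F (s : Equiv.Perm (Fin (n + 1))) = r • (1 : Module.End F (U n F)) := by
      apply (LinearMap.toMatrixAlgEquiv (bas n F)).injective
      have : LinearMap.toMatrixAlgEquiv (bas n F) (rho n F (s : Equiv.Perm (Fin (n + 1)))) =
          Matrix.scalar (Fin n) r := hr2
      rw [this, map_smul, map_one]
      ext i j
      simp [Matrix.scalar_apply, Matrix.diagonal_apply, Matrix.smul_apply, Matrix.one_apply]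
    -- the test vector
    let u : Fin (n + 1) → F := Pi.single a 1 - Pi.single d 1
    have hu : u ∈ U n F := by
      show ∑ i, u i = 0
      simp [u, Finset.sum_sub_distrib]
    have h1 := congrArg (fun g : Module.End F (U n F) => ((g ⟨u, hu⟩ : U n F) : Fin (n + 1) → F)
      ((s : Equiv.Perm (Fin (n + 1))) a)) hr3
    simp only [rho_apply] at h1
    have e2 : Equiv.swap b c a = a := Equiv.swap_apply_of_ne_of_ne hab hac
    have hsa : (s : Equiv.Perm (Fin (n + 1))) a = b := by
      show (Equiv.swap a b * Equiv.swap b c) a = b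
      rw [Equiv.Perm.mul_apply, e2, Equiv.swap_apply_left]
    have h5 : ((s : Equiv.Perm (Fin (n + 1))))⁻¹ ((s : Equiv.Perm (Fin (n + 1))) a) = a := by
      simp
    rw [h5] at h1
    rw [hsa] at h1
    simp [u, hab, had, hbd, hab.symm, had.symm, hbd.symm] at h1
  
end Cfsg.Agent.S4156
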