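import Mathlib
import Cfsg.Statements.S4157
import Cfsg.Agent.Lib.KulakoffOdd
import Cfsg.Agent.Lib.FrobCount
import Cfsg.Agent.Lib.NormalKlein
import Cfsg.Agent.Lib.KleinTools
import Cfsg.Agent.Lib.MaxClass
import Cfsg.Agent.Lib.MaxClassTwo2
import Cfsg.Agent.Lib.UniqueSub
import Cfsg.Agent.S0519

set_option autoImplicit false
set_option linter.style.haveILetI false
set_option linter.unusedSectionVars false
open Cfsg

namespace Cfsg.Agent.S4157

open Subgroup Cfsg.Agent.Lib
universe u

/-! ### Generic counting -/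

lemma card_fiber_const {α β : Type*} [Finite α] [Finite β] (S : α → Prop) (T : β → Prop) (F : α → β)
    (c : ℕ) (h1 : ∀ a, S a → T (F a)) (h2 : ∀ b, T b → Nat.card {a // S a ∧ F a = b} = c) :
    Nat.card {a // S a} = c * Nat.card {b // T b} := by
  classical
  cases nonempty_fintype β
  have e : {a // S a} ≃ Σ b : {b // T b}, {a // S a ∧ F a = b.1} :=
    { toFun := fun a => ⟨⟨F a.1, h1 _ a.2⟩, ⟨a.1, a.2, rfl⟩⟩
      invFun := fun s => ⟨s.2.1, s.2.2.1⟩
      left_inv := fun _ => rfl
      right_inv := by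
        rintro ⟨⟨b, hb⟩, a, h3, h4⟩
        cases h4
        rfl }
  rw [Nat.card_congr e, Nat.card_sigma, Finset.sum_congr rfl (fun b _ => h2 b.1 b.2),
    Finset.sum_const, smul_eq_mul, Finset.card_univ, ← Nat.card_eq_fintype_card, mul_comm]

lemma dvd_card_of_fibers {α β : Type*} [Finite α] [Finite β] (S : α → Prop) (F : α → β) (d : ℕ)
    (h : ∀ b, d ∣ Nat.card {a // S a ∧ F a = b}) : d ∣ Nat.card {a // S a} := by
  classical
  cases nonempty_fintype β
  have e : {a // S a} ≃ Σ b : β, {a // S a ∧ F a = b} :=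
    { toFun := fun a => ⟨F a.1, ⟨a.1, a.2, rfl⟩⟩
      invFun := fun s => ⟨s.2.1, s.2.2.1⟩
      left_inv := fun _ => rfl
      right_inv := by
        rintro ⟨b, a, h3, h4⟩
        subst h4
        rfl }
  rw [Nat.card_congr e, Nat.card_sigma]
  exact Finset.dvd_sum (fun b _ => h b)

/-! ### Complements of a central subgroup -/

section complement

variable {X Q : Type*} [Group X] [Group Q] [Finite X]

/-- A homomorphism twisted by a central homomorphism. -/
def tw (R : Subgroup X) (hR : R ≤ center X) (H₀ : Subgroup X) (φ : H₀ →* R) : H₀ →* X where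
  toFun h := (h : X) * (φ h : X)
  map_one' := by simp
  map_mul' a b := by
    have hc : ((φ a : R) : X) * (b : X) = (b : X) * ((φ a : R) : X) :=
      (Subgroup.mem_center_iff.mp (hR (φ a).2) _).symm
    simp only [map_mul, Subgroup.coe_mul]
    calc (a : X) * (b : X) * (((φ a : R) : X) * ((φ b : R) : X))
        = (a : X) * ((b : X) * ((φ a : R) : X)) * ((φ b : R) : X) := by group
      _ = (a : X) * (((φ a : R) : X) * (b : X)) * ((φ b : R) : X) := by rw [hc]
      _ = _ := by group

lemma tw_apply (R : Subgroup X) (hR : R ≤ center X) (H₀ : Subgroup X) (φ : H₀ →* R) (h : H₀) :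
    tw R hR H₀ φ h = (h : X) * (φ h : X) := rfl

lemma mem_R_of_map_eq {π : X →* Q} {R : Subgroup X} (hk : π.ker = R) {a b : X} (h : π a = π b) :
    a⁻¹ * b ∈ R := by
  rw [← hk, MonoidHom.mem_ker, map_mul, map_inv, h, inv_mul_cancel]

/-- **Complement count.** -/
lemma card_complements (R : Subgroup X) (hR : R ≤ center X) (π : X →* Q) (hk : π.ker = R)
    (H₀ : Subgroup X) (hH₀ : H₀ ⊓ R = ⊥) :
    Nat.card {H : Subgroup X // H ⊓ R = ⊥ ∧ H.map π = H₀.map π} = Nat.card (H₀ →* R) := by
  classical
  have hdisj : ∀ {H : Subgroup X}, H ⊓ R = ⊥ → ∀ {a b : X}, a ∈ H → b ∈ H → π a = π b → a = b := by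
    intro H hH a b ha hb hab
    have h1 : a⁻¹ * b ∈ H ⊓ R := ⟨H.mul_mem (H.inv_mem ha) hb, mem_R_of_map_eq hk hab⟩
    rw [hH, Subgroup.mem_bot] at h1
    exact (inv_mul_eq_one.mp h1)
  have hπR : ∀ r ∈ R, π r = 1 := by
    intro r hr
    rw [← hk, MonoidHom.mem_ker] at hr
    exact hr
  symm
  apply Nat.card_congr
  -- the forward map
  let fwd : (H₀ →* R) → {H : Subgroup X // H ⊓ R = ⊥ ∧ H.map π = H₀.map π} := fun φ =>
    ⟨(tw R hR H₀ φ).range, by
      rw [eq_bot_iff]
      rintro x ⟨hx1, hx2⟩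
      obtain ⟨h, rfl⟩ := hx1
      rw [tw_apply] at hx2 ⊢
      have h1 : (h : X) ∈ R := by
        have := R.mul_mem hx2 (R.inv_mem (φ h).2)
        simpa using this
      have h2 : (h : X) ∈ H₀ ⊓ R := ⟨h.2, h1⟩
      rw [hH₀, Subgroup.mem_bot] at h2
      have h3 : h = 1 := Subtype.ext h2
      rw [h3]; simp, by
      ext q
      constructor
      · rintro ⟨x, ⟨h, rfl⟩, rfl⟩
        refine ⟨h, h.2, ?_⟩
        rw [tw_apply, map_mul, hπR _ (φ h).2, mul_one]
      · rintro ⟨x, hx, rfl⟩
        refine ⟨tw R hR H₀ φ ⟨x, hx⟩, ⟨_, rfl⟩, ?_⟩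
        rw [tw_apply, map_mul, hπR _ (φ _).2, mul_one]⟩
  refine Equiv.ofBijective fwd ⟨?_, ?_⟩
  · intro φ ψ hφψ
    ext h
    have h1 : tw R hR H₀ φ h ∈ (tw R hR H₀ ψ).range := by
      have : (fwd φ).1 = (fwd ψ).1 := congrArg Subtype.val hφψ
      show tw R hR H₀ φ h ∈ (fwd ψ).1
      rw [← this]
      exact ⟨h, rfl⟩
    obtain ⟨k, hk2⟩ := h1
    rw [tw_apply, tw_apply] at hk2
    have h2 : π (k : X) = π (h : X) := by
      have := congrArg π hk2
      rwa [map_mul, map_mul, hπR _ (ψ k).2, hπR _ (φ h).2, mul_one, mul_one] at this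
    have h3 : (k : X) = h := hdisj hH₀ k.2 h.2 h2
    have h4 : k = h := Subtype.ext h3
    rw [h4] at hk2
    exact (mul_left_cancel hk2).symm
  · rintro ⟨H, hH1, hH2⟩
    have hex : ∀ h : H₀, ∃ y : X, y ∈ H ∧ π y = π (h : X) := by
      intro h
      have : π (h : X) ∈ H.map π := by
        rw [hH2]
        exact ⟨h, h.2, rfl⟩
      obtain ⟨y, hy, hy2⟩ := this
      exact ⟨y, hy, hy2⟩
    choose y hy hy2 using hex
    have hyuniq : ∀ (h : H₀) (w : X), w ∈ H → π w = π (h : X) → y h = w := by
      intro h w hw hw2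
      exact hdisj hH1 (hy h) hw ((hy2 h).trans hw2.symm)
    have hr : ∀ h : H₀, (h : X)⁻¹ * y h ∈ R := fun h => mem_R_of_map_eq hk (hy2 h).symm
    have hy_mul : ∀ a b : H₀, y (a * b) = y a * y b := by
      intro a b
      symm
      apply (hyuniq (a * b) _ (H.mul_mem (hy a) (hy b)) _).symm
      rw [map_mul, hy2, hy2, Subgroup.coe_mul, map_mul]
    let φ : H₀ →* R := MonoidHom.mk' (fun h => ⟨(h : X)⁻¹ * y h, hr h⟩) (by
      intro a b
      apply Subtype.ext
      show ((a * b : H₀) : X)⁻¹ * y (a * b) = ((a : X)⁻¹ * y a) * ((b : X)⁻¹ * y b)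
      have hc := Subgroup.mem_center_iff.mp (hR (hr a)) ((b : X)⁻¹ * y b)
      rw [hy_mul, Subgroup.coe_mul]
      calc ((a : X) * b)⁻¹ * (y a * y b) = (b : X)⁻¹ * ((a : X)⁻¹ * y a) * y b := by group
        _ = _ := by
          have hc2 := Subgroup.mem_center_iff.mp (hR (hr a)) ((b : X)⁻¹)
          rw [hc2]
          group)
    refine ⟨φ, Subtype.ext ?_⟩
    apply le_antisymm
    · rintro x ⟨h, rfl⟩
      rw [tw_apply]
      show (h : X) * ((h : X)⁻¹ * y h) ∈ H
      rw [mul_inv_cancel_left]
      exact hy h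
    · intro w hw
      have h1 : π w ∈ H₀.map π := by
        rw [← hH2]
        exact ⟨w, hw, rfl⟩
      obtain ⟨h, hh, hh2⟩ := h1
      refine ⟨⟨h, hh⟩, ?_⟩
      rw [tw_apply]
      show h * (h⁻¹ * y ⟨h, hh⟩) = w
      rw [mul_inv_cancel_left]
      exact hyuniq ⟨h, hh⟩ w hw hh2.symm

end complement

/-! ### Counting homomorphisms to a group of order two -/

section homs

abbrev C2 := Multiplicative (ZMod 2)

instance finHom (H A : Type*) [Group H] [Group A] [Finite H] [Finite A] : Finite (H →* A) :=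
  Finite.of_injective (fun φ : H →* A => (φ : H → A)) DFunLike.coe_injective

instance : Fact (Nat.Prime 2) := ⟨Nat.prime_two⟩

lemma card_C2 : Nat.card C2 = 2 := by
  show Nat.card (ZMod 2) = 2
  rw [Nat.card_zmod]

lemma card_hom_congr (H A : Type*) [Group H] [Group A] (hA : Nat.card A = 2) :
    Nat.card (H →* A) = Nat.card (H →* C2) := by
  have e : A ≃* C2 := mulEquivOfPrimeCardEq (p := 2) hA card_C2
  apply Nat.card_congr
  exact
    { toFun := fun φ => e.toMonoidHom.comp φ
      invFun := fun φ => e.symm.toMonoidHom.comp φ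
      left_inv := fun φ => by ext x; simp
      right_inv := fun φ => by ext x; simp }

/-- A noncyclic finite 2-group has at least four homomorphisms to `C₂`, in fact `4 ∣` their number. -/
lemma four_dvd_card_hom (H : Type*) [Group H] [Finite H] (hH : IsPGroup 2 H) (hnc : ¬ IsCyclic H) :
    4 ∣ Nat.card (H →* C2) := by
  classical
  obtain ⟨f, hf⟩ := KulakoffOdd.exists_surj_plane hH hnc
  have hC2 : ∀ c : C2, c ^ 2 = 1 := by
    intro c
    show Multiplicative.ofAdd (2 • Multiplicative.toAdd c) = 1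
    have : (2 • Multiplicative.toAdd c : ZMod 2) = 0 := by
      rw [two_nsmul]
      exact CharTwo.add_self_eq_zero _
    rw [this]
    rfl
  have hexp : ∀ φ : H →* C2, φ ^ 2 = 1 := by
    intro φ
    ext x
    simp only [MonoidHom.pow_apply, MonoidHom.one_apply]
    rw [hC2]
  have hP : IsPGroup 2 (H →* C2) := fun φ => ⟨1, by simpa using hexp φ⟩
  obtain ⟨e, he⟩ := IsPGroup.iff_card.mp hP
  let pr1 : KulakoffOdd.Pl 2 →* C2 := AddMonoidHom.toMultiplicative (AddMonoidHom.fst (ZMod 2) (ZMod 2))
  let pr2 : KulakoffOdd.Pl 2 →* C2 := AddMonoidHom.toMultiplicative (AddMonoidHom.snd (ZMod 2) (ZMod 2))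
  obtain ⟨u, hu⟩ := hf (Multiplicative.ofAdd ((1 : ZMod 2), (0 : ZMod 2)))
  obtain ⟨v, hv⟩ := hf (Multiplicative.ofAdd ((0 : ZMod 2), (1 : ZMod 2)))
  have h1 : (pr1.comp f) ≠ 1 := by
    intro h
    have := DFunLike.congr_fun h u
    rw [MonoidHom.comp_apply, hu, MonoidHom.one_apply] at this
    exact absurd (congrArg Multiplicative.toAdd this) (by decide)
  have h2 : (pr2.comp f) ≠ 1 := by
    intro h
    have := DFunLike.congr_fun h v
    rw [MonoidHom.comp_apply, hv, MonoidHom.one_apply] at this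
    exact absurd (congrArg Multiplicative.toAdd this) (by decide)
  have h3 : (pr1.comp f) ≠ (pr2.comp f) := by
    intro h
    have := DFunLike.congr_fun h u
    rw [MonoidHom.comp_apply, MonoidHom.comp_apply, hu] at this
    exact absurd (congrArg Multiplicative.toAdd this) (by decide)
  have hcard : 3 ≤ Nat.card (H →* C2) := by
    haveI := Fintype.ofFinite (H →* C2)
    have h5 : ({(1 : H →* C2), pr1.comp f, pr2.comp f} : Finset (H →* C2)).card = 3 := by
      rw [Finset.card_eq_three]
      exact ⟨_, _, _, h1.symm, h2.symm, h3, rfl⟩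
    rw [Nat.card_eq_fintype_card, ← h5]
    exact Finset.card_le_univ _
  rw [he] at hcard ⊢
  rcases e with _ | _ | e
  · norm_num at hcard
  · norm_num at hcard
  · exact ⟨2 ^ e, by ring⟩

/-- A nontrivial cyclic 2-group has exactly two homomorphisms to `C₂`. -/
lemma card_hom_cyclic (H : Type*) [Group H] [Finite H] [IsCyclic H] (hH : IsPGroup 2 H)
    (hnt : Nontrivial H) : Nat.card (H →* C2) = 2 := by
  classical
  obtain ⟨g, hg⟩ := IsCyclic.exists_generator (α := H)
  have hord : orderOf g = Nat.card H := orderOf_eq_card_of_forall_mem_zpowers hg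
  obtain ⟨e, he⟩ := IsPGroup.iff_card.mp hH
  have he0 : e ≠ 0 := by
    rintro rfl
    rw [pow_zero] at he
    exact absurd he Finite.one_lt_card.ne'
  have h2dvd : (2 : ℕ) ∣ orderOf g := by
    rw [hord, he]
    exact dvd_pow_self 2 he0
  -- the evaluation map is a bijection
  have hinj : Function.Injective (fun φ : H →* C2 => φ g) := by
    intro φ ψ h
    apply MonoidHom.ext
    intro x
    obtain ⟨k, rfl⟩ := Subgroup.mem_zpowers_iff.mp (hg x)
    rw [map_zpow, map_zpow]
    exact congrArg (· ^ k) h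
  have hsurj : Function.Surjective (fun φ : H →* C2 => φ g) := by
    intro c
    have hd : orderOf c ∣ orderOf g := by
      have hc : c ^ 2 = 1 := by
        show Multiplicative.ofAdd (2 • Multiplicative.toAdd c) = 1
        have : (2 • Multiplicative.toAdd c : ZMod 2) = 0 := by
          rw [two_nsmul]
          exact CharTwo.add_self_eq_zero _
        rw [this]
        rfl
      exact (orderOf_dvd_of_pow_eq_one hc).trans h2dvd
    refine ⟨monoidHomOfForallMemZpowers hg hd, ?_⟩
    simp [monoidHomOfForallMemZpowers_apply_gen]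
  rw [Nat.card_eq_of_bijective _ ⟨hinj, hsurj⟩, card_C2]

end homs

/-! ### The recursion through a central involution -/

section rec

lemma mem_zpowers_invol {X : Type*} [Group X] {z : X} (hz2 : z ^ 2 = 1) {r : X} :
    r ∈ zpowers z ↔ r = 1 ∨ r = z := by
  constructor
  · intro hr
    obtain ⟨i, rfl⟩ := Subgroup.mem_zpowers_iff.mp hr
    rcases Int.even_or_odd' i with ⟨c, rfl | rfl⟩
    · left
      rw [zpow_mul]
      have : z ^ (2 : ℤ) = 1 := by exact_mod_cast hz2
      rw [this, one_zpow]
    · right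
      rw [zpow_add, zpow_mul]
      have : z ^ (2 : ℤ) = 1 := by exact_mod_cast hz2
      rw [this, one_zpow, one_mul, zpow_one]
  · rintro (rfl | rfl)
    · exact Subgroup.one_mem _
    · exact Subgroup.mem_zpowers _

lemma inf_zpowers_eq_bot_iff {X : Type*} [Group X] {z : X} (hz2 : z ^ 2 = 1) (hz1 : z ≠ 1)
    (H : Subgroup X) : H ⊓ zpowers z = ⊥ ↔ z ∉ H := by
  constructor
  · intro h hz
    have : z ∈ H ⊓ zpowers z := ⟨hz, Subgroup.mem_zpowers _⟩
    rw [h, Subgroup.mem_bot] at this
    exact hz1 this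
  · intro h
    rw [eq_bot_iff]
    rintro x ⟨hx1, hx2⟩
    rcases (mem_zpowers_invol hz2).mp hx2 with rfl | rfl
    · exact Subgroup.one_mem _
    · exact absurd hx1 h

lemma exists_invol_of_nontrivial {X : Type*} [Group X] [Finite X] (hX : IsPGroup 2 X)
    (H : Subgroup X) (hH : Nat.card H ≠ 1) : ∃ w ∈ H, w ^ 2 = 1 ∧ w ≠ 1 := by
  have h1 : (2 : ℕ) ∣ Nat.card H := by
    rcases (hX.to_subgroup H).card_eq_or_dvd with h | h
    · exact absurd h hH
    · exact h
  obtain ⟨x, hx⟩ := exists_prime_orderOf_dvd_card' (G := H) 2 h1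
  refine ⟨x.1, x.2, ?_, ?_⟩
  · have h2 := pow_orderOf_eq_one x
    rw [hx] at h2
    exact congrArg Subtype.val h2
  · intro h
    have : x = 1 := Subtype.ext h
    rw [this, orderOf_one] at hx
    omega

lemma invol_unique_cyclic {X : Type*} [Group X] [Finite X] (L : Subgroup X) (hL : IsCyclic L) {a b : X}
    (ha : a ∈ L) (hb : b ∈ L) (ha2 : a ^ 2 = 1) (hb2 : b ^ 2 = 1) (ha1 : a ≠ 1) (hb1 : b ≠ 1) :
    a = b := by
  classical
  by_contra hne
  haveI := Fintype.ofFinite L
  have h1 := IsCyclic.card_pow_eq_one_le (α := L) (n := 2) (by norm_num)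
  have h5 : ({(1 : L), ⟨a, ha⟩, ⟨b, hb⟩} : Finset L).card = 3 := by
    rw [Finset.card_eq_three]
    refine ⟨_, _, _, ?_, ?_, ?_, rfl⟩
    · intro h; exact ha1 (congrArg Subtype.val h).symm
    · intro h; exact hb1 (congrArg Subtype.val h).symm
    · intro h; exact hne (congrArg Subtype.val h)
  have h6 : ({(1 : L), ⟨a, ha⟩, ⟨b, hb⟩} : Finset L) ⊆ Finset.univ.filter (fun a : L => a ^ 2 = 1) := by
    intro c hc
    simp only [Finset.mem_insert, Finset.mem_singleton] at hc
    simp only [Finset.mem_filter, Finset.mem_univ, true_and]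
    rcases hc with rfl | rfl | rfl
    · simp
    · exact Subtype.ext ha2
    · exact Subtype.ext hb2
  have h7 := Finset.card_le_card h6
  rw [h5] at h7
  omega

variable {X Q : Type*} [Group X] [Group Q] [Finite X] [Finite Q]
  (hX : IsPGroup 2 X) {z : X} (hzc : z ∈ center X) (hz2 : z ^ 2 = 1) (hz1 : z ≠ 1)
  {π : X →* Q} (hπ : Function.Surjective π) (hk : π.ker = zpowers z)

include hz2 hk in
lemma mapEquiv {H : Subgroup X} (hH : z ∉ H) : Nonempty (H ≃* H.map π) := by
  refine ⟨MulEquiv.ofBijective (π.subgroupMap H) ⟨?_, π.subgroupMap_surjective H⟩⟩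
  rw [injective_iff_map_eq_one]
  rintro ⟨x, hx⟩ h
  have h1 : π x = 1 := congrArg Subtype.val h
  have h2 : x ∈ zpowers z := by rw [← hk]; exact h1
  rcases (mem_zpowers_invol hz2).mp h2 with rfl | rfl
  · rfl
  · exact absurd hx hH

include hz2 hk in
lemma card_map_of_notMem {H : Subgroup X} (hH : z ∉ H) : Nat.card (H.map π) = Nat.card H := by
  obtain ⟨e⟩ := mapEquiv hz2 hk hH
  exact (Nat.card_congr e.toEquiv).symm

include hz2 hk in
lemma isCyclic_map_iff {H : Subgroup X} (hH : z ∉ H) : IsCyclic (H.map π) ↔ IsCyclic H := by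
  obtain ⟨e⟩ := mapEquiv hz2 hk hH
  exact ⟨fun h => e.symm.isCyclic.mp h |> fun _ => by
      haveI := h
      exact e.symm.isCyclic.mp h, fun h => by
      haveI := h
      exact e.isCyclic.mp h⟩

include hzc hz2 hz1 hk in
lemma fib_card (H₀ : Subgroup X) (h₀ : z ∉ H₀) :
    Nat.card {H : Subgroup X // z ∉ H ∧ H.map π = H₀.map π} = Nat.card (H₀ →* C2) := by
  have hR : zpowers z ≤ center X := by
    rw [Subgroup.zpowers_le]
    exact hzc
  have hcardR : Nat.card (zpowers z) = 2 := by
    rw [Nat.card_zpowers, orderOf_eq_prime hz2 hz1]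
  rw [← card_hom_congr H₀ (zpowers z) hcardR,
    ← card_complements (zpowers z) hR π hk H₀ ((inf_zpowers_eq_bot_iff hz2 hz1 H₀).mpr h₀)]
  apply Nat.card_congr
  exact Equiv.subtypeEquivRight (fun H => by rw [inf_zpowers_eq_bot_iff hz2 hz1 H])

include hX hzc hz2 hz1 hk in
lemma four_dvd_noncyclic (n : ℕ) :
    4 ∣ Nat.card {H : Subgroup X // Nat.card H = n ∧ z ∉ H ∧ ¬ IsCyclic H} := by
  classical
  apply dvd_card_of_fibers _ (fun H : Subgroup X => H.map π)
  intro K
  by_cases hK : ∃ H₀ : Subgroup X, (Nat.card H₀ = n ∧ z ∉ H₀ ∧ ¬ IsCyclic H₀) ∧ H₀.map π = K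
  · obtain ⟨H₀, ⟨h1, h2, h3⟩, rfl⟩ := hK
    have e : {H : Subgroup X // (Nat.card H = n ∧ z ∉ H ∧ ¬ IsCyclic H) ∧ H.map π = H₀.map π} ≃
        {H : Subgroup X // z ∉ H ∧ H.map π = H₀.map π} :=
      { toFun := fun H => ⟨H.1, H.2.1.2.1, H.2.2⟩
        invFun := fun H => ⟨H.1, ⟨by
            rw [← h1, ← card_map_of_notMem hz2 hk H.2.1, H.2.2, card_map_of_notMem hz2 hk h2], H.2.1, by
            intro hc
            apply h3
            rw [← isCyclic_map_iff hz2 hk h2, ← H.2.2, isCyclic_map_iff hz2 hk H.2.1]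
            exact hc⟩, H.2.2⟩
        left_inv := fun _ => rfl
        right_inv := fun _ => rfl }
    rw [Nat.card_congr e, fib_card hzc hz2 hz1 hk H₀ h2]
    exact four_dvd_card_hom H₀ (hX.to_subgroup H₀) h3
  · have : IsEmpty {H : Subgroup X // (Nat.card H = n ∧ z ∉ H ∧ ¬ IsCyclic H) ∧ H.map π = K} :=
      ⟨fun H => hK ⟨H.1, H.2⟩⟩
    rw [Nat.card_of_isEmpty]
    exact dvd_zero _

include hX hzc hz2 hz1 hπ hk in
lemma card_cyclic_notMem (n : ℕ) (hn : n ≠ 1) :
    Nat.card {H : Subgroup X // Nat.card H = n ∧ z ∉ H ∧ IsCyclic H} =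
      2 * Nat.card {K : Subgroup Q // IsCyclic K ∧ Nat.card K = n ∧ ¬ IsCyclic (K.comap π)} := by
  classical
  apply card_fiber_const _ _ (fun H : Subgroup X => H.map π)
  · rintro H ⟨h1, h2, h3⟩
    refine ⟨(isCyclic_map_iff hz2 hk h2).mpr h3, by
      show Nat.card (H.map π) = n
      rw [card_map_of_notMem hz2 hk h2, h1], ?_⟩
    intro hc
    obtain ⟨w, hw, hw2, hw1⟩ := exists_invol_of_nontrivial hX H (by rw [h1]; exact hn)
    have hzL : z ∈ (H.map π).comap π := by
      rw [Subgroup.mem_comap]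
      have : π z = 1 := by
        have : z ∈ π.ker := by rw [hk]; exact Subgroup.mem_zpowers _
        exact this
      rw [this]
      exact Subgroup.one_mem _
    have hwL : w ∈ (H.map π).comap π := ⟨w, hw, rfl⟩
    have := invol_unique_cyclic _ hc hwL hzL hw2 hz2 hw1 hz1
    rw [this] at hw
    exact h2 hw
  · rintro K ⟨h1, h2, h3⟩
    obtain ⟨k, hkgen⟩ := h1.exists_generator
    obtain ⟨x, hx⟩ := hπ (k : Q)
    have hK : K = (zpowers x).map π := by
      rw [MonoidHom.map_zpowers, hx]
      apply le_antisymm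
      · intro y hy
        obtain ⟨i, hi⟩ := Subgroup.mem_zpowers_iff.mp (hkgen ⟨y, hy⟩)
        rw [Subgroup.mem_zpowers_iff]
        exact ⟨i, by simpa using congrArg Subtype.val hi⟩
      · rw [Subgroup.zpowers_le]
        exact k.2
    have hzx : z ∉ zpowers x := by
      intro hzx
      apply h3
      have : K.comap π = zpowers x := by
        apply le_antisymm
        · intro y hy
          rw [Subgroup.mem_comap, hK] at hy
          obtain ⟨t, ht, ht2⟩ := hy
          have h4 : t⁻¹ * y ∈ zpowers z := mem_R_of_map_eq hk ht2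
          have h5 : t⁻¹ * y ∈ zpowers x := by
            rcases (mem_zpowers_invol hz2).mp h4 with h6 | h6
            · rw [h6]; exact Subgroup.one_mem _
            · rw [h6]; exact hzx
          have : y = t * (t⁻¹ * y) := by group
          rw [this]
          exact Subgroup.mul_mem _ ht h5
        · intro y hy
          rw [Subgroup.mem_comap, hK]
          exact ⟨y, hy, rfl⟩
      rw [this]
      infer_instance
    have hcardx : Nat.card (zpowers x) = n := by
      rw [← card_map_of_notMem hz2 hk hzx, ← hK]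
      exact h2
    have e : {H : Subgroup X // (Nat.card H = n ∧ z ∉ H ∧ IsCyclic H) ∧ H.map π = K} ≃
        {H : Subgroup X // z ∉ H ∧ H.map π = (zpowers x).map π} :=
      { toFun := fun H => ⟨H.1, H.2.1.2.1, by rw [H.2.2, hK]⟩
        invFun := fun H => ⟨H.1, ⟨by
            rw [← h2, ← card_map_of_notMem hz2 hk H.2.1, H.2.2, ← hK], H.2.1, by
            rw [← isCyclic_map_iff hz2 hk H.2.1, H.2.2, isCyclic_map_iff hz2 hk hzx]
            infer_instance⟩, by rw [H.2.2, ← hK]⟩
        left_inv := fun _ => rfl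
        right_inv := fun _ => rfl }
    rw [Nat.card_congr e, fib_card hzc hz2 hz1 hk _ hzx]
    refine card_hom_cyclic _ (hX.to_subgroup _) ?_
    rw [← Finite.one_lt_card_iff_nontrivial, hcardx]
    have hpos : 0 < Nat.card (zpowers x) := Nat.card_pos
    omega

include hz2 hz1 hπ hk in
lemma card_contain (n : ℕ) :
    Nat.card {H : Subgroup X // Nat.card H = 2 * n ∧ z ∈ H} = KulakoffOdd.cnt Q n := by
  have hcardk : Nat.card π.ker = 2 := by
    rw [hk, Nat.card_zpowers, orderOf_eq_prime hz2 hz1]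
  have hzker : ∀ H : Subgroup X, z ∈ H → π.ker ≤ H := by
    intro H hH
    rw [hk, Subgroup.zpowers_le]
    exact hH
  have hcomap : ∀ K : Subgroup Q, Nat.card (K.comap π) = 2 * Nat.card K := by
    intro K
    rw [KulakoffOdd.card_comap_surj π hπ, hcardk]
  unfold KulakoffOdd.cnt
  apply Nat.card_congr
  exact
    { toFun := fun H => ⟨H.1.map π, by
        have h1 := hcomap (H.1.map π)
        rw [Subgroup.comap_map_eq_self (hzker _ H.2.2), H.2.1] at h1
        omega⟩
      invFun := fun K => ⟨K.1.comap π, by rw [hcomap, K.2], by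
        rw [Subgroup.mem_comap]
        have : π z = 1 := by
          have : z ∈ π.ker := by rw [hk]; exact Subgroup.mem_zpowers _
          exact this
        rw [this]
        exact Subgroup.one_mem _⟩
      left_inv := fun H => Subtype.ext (Subgroup.comap_map_eq_self (hzker _ H.2.2))
      right_inv := fun K => Subtype.ext (Subgroup.map_comap_eq_self_of_surjective hπ _) }

include hz2 hz1 hπ hk in
lemma card_cyclic_contain (n : ℕ) :
    Nat.card {L : Subgroup X // (IsCyclic L ∧ Nat.card L = 2 * n) ∧ z ∈ L} =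
      Nat.card {K : Subgroup Q // (IsCyclic K ∧ Nat.card K = n) ∧ IsCyclic (K.comap π)} := by
  have hcardk : Nat.card π.ker = 2 := by
    rw [hk, Nat.card_zpowers, orderOf_eq_prime hz2 hz1]
  have hzker : ∀ H : Subgroup X, z ∈ H → π.ker ≤ H := by
    intro H hH
    rw [hk, Subgroup.zpowers_le]
    exact hH
  have hcomap : ∀ K : Subgroup Q, Nat.card (K.comap π) = 2 * Nat.card K := by
    intro K
    rw [KulakoffOdd.card_comap_surj π hπ, hcardk]
  apply Nat.card_congr
  exact
    { toFun := fun H => ⟨H.1.map π, ⟨by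
          haveI := H.2.1.1
          exact isCyclic_of_surjective (π.subgroupMap H.1) (π.subgroupMap_surjective H.1), by
        have h1 := hcomap (H.1.map π)
        rw [Subgroup.comap_map_eq_self (hzker _ H.2.2), H.2.1.2] at h1
        omega⟩, by
        rw [Subgroup.comap_map_eq_self (hzker _ H.2.2)]
        exact H.2.1.1⟩
      invFun := fun K => ⟨K.1.comap π, ⟨K.2.2, by rw [hcomap, K.2.1.2]⟩, by
        rw [Subgroup.mem_comap]
        have : π z = 1 := by
          have : z ∈ π.ker := by rw [hk]; exact Subgroup.mem_zpowers _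
          exact this
        rw [this]
        exact Subgroup.one_mem _⟩
      left_inv := fun H => Subtype.ext (Subgroup.comap_map_eq_self (hzker _ H.2.2))
      right_inv := fun K => Subtype.ext (Subgroup.map_comap_eq_self_of_surjective hπ _) }

/-- Number of cyclic subgroups of order `n`. -/
noncomputable def cyN (X : Type*) [Group X] (n : ℕ) : ℕ :=
  Nat.card {H : Subgroup X // IsCyclic H ∧ Nat.card H = n}

include hX hzc hz2 hz1 hπ hk in
/-- The recursion. -/
theorem rec_modEq (n : ℕ) :
    KulakoffOdd.cnt X (2 * n) + 2 * cyN X (2 * (2 * n)) ≡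
      KulakoffOdd.cnt Q n + 2 * cyN Q (2 * n) [MOD 4] := by
  classical
  have hn2 : 2 * n ≠ 1 := by omega
  have hn4 : 2 * (2 * n) ≠ 1 := by omega
  -- split the count in `X`
  have s1 : KulakoffOdd.cnt X (2 * n) = Nat.card {H : Subgroup X // Nat.card H = 2 * n ∧ z ∈ H} +
      (Nat.card {H : Subgroup X // Nat.card H = 2 * n ∧ z ∉ H ∧ IsCyclic H} +
       Nat.card {H : Subgroup X // Nat.card H = 2 * n ∧ z ∉ H ∧ ¬ IsCyclic H}) := by
    unfold KulakoffOdd.cnt
    rw [KulakoffOdd.card_split (fun H : Subgroup X => Nat.card H = 2 * n) (fun H => z ∈ H),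
      KulakoffOdd.card_split (fun H : Subgroup X => Nat.card H = 2 * n ∧ z ∉ H) (fun H => IsCyclic H)]
    simp only [and_assoc]
  have s2 : cyN X (2 * (2 * n)) =
      Nat.card {L : Subgroup X // (IsCyclic L ∧ Nat.card L = 2 * (2 * n)) ∧ z ∈ L} +
      Nat.card {H : Subgroup X // Nat.card H = 2 * (2 * n) ∧ z ∉ H ∧ IsCyclic H} := by
    unfold cyN
    rw [KulakoffOdd.card_split (fun H : Subgroup X => IsCyclic H ∧ Nat.card H = 2 * (2 * n))
      (fun H => z ∈ H)]
    congr 1
    apply Nat.card_congr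
    exact Equiv.subtypeEquivRight (fun H => by tauto)
  have s3 : cyN Q (2 * n) =
      Nat.card {K : Subgroup Q // (IsCyclic K ∧ Nat.card K = 2 * n) ∧ IsCyclic (K.comap π)} +
      Nat.card {K : Subgroup Q // IsCyclic K ∧ Nat.card K = 2 * n ∧ ¬ IsCyclic (K.comap π)} := by
    unfold cyN
    rw [KulakoffOdd.card_split (fun K : Subgroup Q => IsCyclic K ∧ Nat.card K = 2 * n)
      (fun K => IsCyclic (K.comap π))]
    congr 1
    apply Nat.card_congr
    exact Equiv.subtypeEquivRight (fun H => by tauto)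
  rw [card_contain hz2 hz1 hπ hk n,
    card_cyclic_notMem hX hzc hz2 hz1 hπ hk _ hn2] at s1
  rw [card_cyclic_contain hz2 hz1 hπ hk (2 * n),
    card_cyclic_notMem hX hzc hz2 hz1 hπ hk _ hn4] at s2
  obtain ⟨c, hc⟩ := four_dvd_noncyclic hX hzc hz2 hz1 hk (π := π) (2 * n)
  rw [hc] at s1
  rw [s1, s2, s3]
  unfold Nat.ModEq
  omega

end rec

/-! ### The universal congruence -/

lemma normal_zpowers_of_central {X : Type*} [Group X] {z : X} (hzc : z ∈ center X) :
    (zpowers z).Normal := by
  constructor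
  intro n hn g
  have : n ∈ center X := (Subgroup.zpowers_le.mpr hzc) hn
  have h2 := Subgroup.mem_center_iff.mp this g
  rw [h2, mul_inv_cancel_right]
  exact hn

theorem U_modEq (j : ℕ) : ∀ (X : Type u) [Group X] [Finite X], IsPGroup 2 X → 2 ^ (j + 1) ∣ Nat.card X →
    KulakoffOdd.cnt X (2 ^ j) + 2 * cyN X (2 ^ (j + 1)) ≡ 3 [MOD 4] := by
  classical
  induction j with
  | zero =>
    intro X _ _ hX hd
    have h1 : KulakoffOdd.cnt X (2 ^ 0) = 1 := by
      unfold KulakoffOdd.cnt
      rw [pow_zero, Nat.card_eq_one_iff_unique]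
      refine ⟨⟨?_⟩, ⟨⟨⊥, by simp⟩⟩⟩
      rintro ⟨A, hA⟩ ⟨B, hB⟩
      exact Subtype.ext ((Subgroup.card_eq_one.mp hA).trans (Subgroup.card_eq_one.mp hB).symm)
    have h2 : cyN X (2 ^ (0 + 1)) = KulakoffOdd.cnt X (2 ^ 1) := by
      unfold cyN KulakoffOdd.cnt
      apply Nat.card_congr
      apply Equiv.subtypeEquivRight
      intro H
      constructor
      · rintro ⟨_, h⟩
        simpa using h
      · intro h
        have h' : Nat.card H = 2 := by simpa using h
        exact ⟨isCyclic_of_prime_card h', by simpa using h⟩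
    have h3 : KulakoffOdd.cnt X (2 ^ 1) ≡ 1 [MOD 2] :=
      KulakoffOdd.cnt_modEq_one X (p := 2) (k := 1) (by simpa using hd)
    rw [h1, h2]
    unfold Nat.ModEq at *
    omega
  | succ j ih =>
    intro X _ _ hX hd
    have hnt : Nontrivial X := by
      rw [← Finite.one_lt_card_iff_nontrivial]
      have h1 : 2 ≤ Nat.card X := by
        have h2 : 2 ∣ Nat.card X := (dvd_pow_self 2 (by omega)).trans hd
        exact Nat.le_of_dvd Nat.card_pos h2
      omega
    have hcnt := hX.center_nontrivial
    obtain ⟨z, hzc, hz2, hz1⟩ := exists_invol_of_nontrivial hX (center X) (by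
      have := (Finite.one_lt_card_iff_nontrivial (α := center X)).mpr hcnt
      omega)
    haveI hRn := normal_zpowers_of_central hzc
    let π := QuotientGroup.mk' (zpowers z)
    have hπ : Function.Surjective π := QuotientGroup.mk'_surjective _
    have hk : π.ker = zpowers z := QuotientGroup.ker_mk' _
    have hQ : IsPGroup 2 (X ⧸ zpowers z) := hX.to_quotient _
    have hcardQ : Nat.card X = Nat.card (X ⧸ zpowers z) * 2 := by
      have := Subgroup.card_eq_card_quotient_mul_card_subgroup (zpowers z)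
      rwa [Nat.card_zpowers, orderOf_eq_prime hz2 hz1] at this
    have hdQ : 2 ^ (j + 1) ∣ Nat.card (X ⧸ zpowers z) := by
      rw [hcardQ, pow_succ 2 (j + 1)] at hd
      exact Nat.dvd_of_mul_dvd_mul_right (by norm_num) hd
    have h1 := ih (X ⧸ zpowers z) hQ hdQ
    have h2 := rec_modEq hX hzc hz2 hz1 hπ hk (2 ^ j)
    have e1 : 2 * 2 ^ j = 2 ^ (j + 1) := by ring
    have e2 : 2 * (2 * 2 ^ j) = 2 ^ (j + 1 + 1) := by ring
    rw [e2, e1] at h2
    exact h2.trans h1

/-! ### Counting generators -/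

section gen

variable {X : Type*} [Group X] [Finite X]

lemma card_generators (H : Subgroup X) (hH : IsCyclic H) (d : ℕ) (hd : Nat.card H = d) :
    Nat.card {x : X // orderOf x = d ∧ zpowers x = H} = Nat.totient d := by
  classical
  haveI := Fintype.ofFinite H
  have h1 := IsCyclic.card_orderOf_eq_totient (α := H) (d := d) (by
    rw [← Nat.card_eq_fintype_card, hd])
  rw [← h1, ← Fintype.card_subtype, ← Nat.card_eq_fintype_card]
  apply Nat.card_congr
  exact
    { toFun := fun x => ⟨⟨x.1, by
          have h3 := Subgroup.mem_zpowers x.1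
          rwa [x.2.2] at h3⟩, by
        rw [Subgroup.orderOf_mk]; exact x.2.1⟩
      invFun := fun y => ⟨y.1.1, by
        have := y.2
        rwa [Subgroup.orderOf_mk] at this, by
        have h2 : orderOf (y.1.1) = d := by
          have := y.2
          rwa [Subgroup.orderOf_mk] at this
        apply Subgroup.eq_of_le_of_card_ge
        · rw [Subgroup.zpowers_le]; exact y.1.2
        · rw [Nat.card_zpowers, h2, hd]⟩
      left_inv := fun _ => rfl
      right_inv := fun _ => rfl }

lemma card_orderOf_eq (d : ℕ) :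
    Nat.card {x : X // orderOf x = d} = Nat.totient d * cyN X d := by
  unfold cyN
  apply card_fiber_const _ _ (fun x : X => zpowers x)
  · intro x hx
    exact ⟨inferInstance, by rw [Nat.card_zpowers, hx]⟩
  · rintro H ⟨h1, h2⟩
    exact card_generators H h1 d h2

lemma totient_dvd_of_closed (W : X → Prop) (d : ℕ) (hW : ∀ x, W x → orderOf x = d)
    (hcl : ∀ x y, W x → zpowers y = zpowers x → W y) : Nat.totient d ∣ Nat.card {x // W x} := by
  classical
  apply dvd_card_of_fibers _ (fun x : X => zpowers x)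
  intro H
  by_cases hH : ∃ x₀, W x₀ ∧ zpowers x₀ = H
  · obtain ⟨x₀, h1, rfl⟩ := hH
    have e : {x // W x ∧ zpowers x = zpowers x₀} ≃ {x // orderOf x = d ∧ zpowers x = zpowers x₀} :=
      Equiv.subtypeEquivRight (fun x => ⟨fun h => ⟨hW x h.1, h.2⟩, fun h => ⟨hcl x₀ x h1 h.2, h.2⟩⟩)
    rw [Nat.card_congr e, card_generators (zpowers x₀) inferInstance d (by
      rw [Nat.card_zpowers, hW _ h1])]
  · have : IsEmpty {x // W x ∧ zpowers x = H} := ⟨fun x => hH ⟨x.1, x.2⟩⟩
    rw [Nat.card_of_isEmpty]
    exact dvd_zero _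

/-- If `2^K ∣ #{x : x^(2^(K-1)) = 1}` then the number of cyclic subgroups of order `2^K` is even. -/
lemma two_dvd_cy (K : ℕ) (hK : 2 ^ (K + 1) ∣ Nat.card X)
    (h : 2 ^ (K + 1) ∣ Nat.card {x : X // x ^ 2 ^ K = 1}) : 2 ∣ cyN X (2 ^ (K + 1)) := by
  classical
  have h1 := FrobCount.frobenius_dvd_card_pow_eq_one X (2 ^ (K + 1)) hK
  have h2 : Nat.card {x : X // x ^ 2 ^ (K + 1) = 1} = Nat.card {x : X // x ^ 2 ^ K = 1} +
      Nat.card {x : X // orderOf x = 2 ^ (K + 1)} := by
    rw [KulakoffOdd.card_split (fun x : X => x ^ 2 ^ (K + 1) = 1) (fun x => x ^ 2 ^ K = 1)]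
    congr 1
    · apply Nat.card_congr
      apply Equiv.subtypeEquivRight
      intro x
      constructor
      · exact fun h => h.2
      · intro h
        refine ⟨?_, h⟩
        rw [pow_succ, pow_mul, h, one_pow]
    · apply Nat.card_congr
      apply Equiv.subtypeEquivRight
      intro x
      constructor
      · rintro ⟨h3, h4⟩
        exact orderOf_eq_prime_pow h4 h3
      · intro h3
        refine ⟨by rw [← h3, pow_orderOf_eq_one], ?_⟩
        intro h4
        have h5 := orderOf_dvd_of_pow_eq_one h4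
        rw [h3] at h5
        have := (Nat.pow_dvd_pow_iff_le_right (by norm_num : 1 < 2)).1 h5
        omega
  rw [card_orderOf_eq, Nat.totient_prime_pow_succ Nat.prime_two] at h2
  simp only [Nat.add_one_sub_one, mul_one] at h2
  have h3 : 2 ^ (K + 1) ∣ 2 ^ K * cyN X (2 ^ (K + 1)) := by
    have := (Nat.dvd_add_right h).mp (h2 ▸ h1)
    simpa using this
  rw [pow_succ] at h3
  exact Nat.dvd_of_mul_dvd_mul_left (by positivity) h3

end gen

/-! ### Cosets of a normal subgroup -/

section cosets

variable {G : Type*} [Group G] [Finite G]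

/-- A predicate stable under right multiplication by `E` has fibres of size `|E|`. -/
lemma card_fiber_coset (E : Subgroup G) [E.Normal] (P : G → Prop)
    (hP : ∀ x, ∀ e ∈ E, P (x * e) ↔ P x) (x₀ : G) (h₀ : P x₀) :
    Nat.card {x // P x ∧ QuotientGroup.mk' E x = QuotientGroup.mk' E x₀} = Nat.card E := by
  apply Nat.card_congr
  have hmem : ∀ x : G, QuotientGroup.mk' E x = QuotientGroup.mk' E x₀ → x₀⁻¹ * x ∈ E := by
    intro x hx
    have h1 : (x₀ : G ⧸ E) = x := hx.symm
    exact QuotientGroup.eq.mp h1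
  exact
    { toFun := fun x => ⟨x₀⁻¹ * x.1, hmem _ x.2.2⟩
      invFun := fun e => ⟨x₀ * e.1, (hP _ _ e.2).mpr h₀, by
        show ((x₀ * e.1 : G) : G ⧸ E) = x₀
        rw [eq_comm]
        apply QuotientGroup.eq.mpr
        simpa using e.2⟩
      left_inv := fun x => Subtype.ext (by simp)
      right_inv := fun e => Subtype.ext (by simp) }

/-- A predicate stable under right multiplication by `E`: its size is `|E|` times that of its image. -/
lemma card_stable (E : Subgroup G) [E.Normal] (P : G → Prop)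
    (hP : ∀ x, ∀ e ∈ E, P (x * e) ↔ P x) :
    Nat.card {x // P x} = Nat.card E *
      Nat.card {q : G ⧸ E // ∃ x, QuotientGroup.mk' E x = q ∧ P x} := by
  apply card_fiber_const P (fun q : G ⧸ E => ∃ x, QuotientGroup.mk' E x = q ∧ P x) (QuotientGroup.mk' E)
  · intro x hx
    exact ⟨x, rfl, hx⟩
  · rintro q ⟨x₀, rfl, h₀⟩
    exact card_fiber_coset E P hP x₀ h₀

/-- **Lemma M.** -/
lemma lemmaM (E : Subgroup G) [E.Normal] (hE4 : Nat.card E = 4) (hE2 : ∀ e ∈ E, e ^ 2 = 1)
    (j : ℕ) (hx : ∀ x : G, ∀ e ∈ E, (x * e) ^ 2 ^ (j + 1) = x ^ 2 ^ (j + 1))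
    (hd : 2 ^ j ∣ Nat.card (G ⧸ E)) :
    2 ^ (j + 2) ∣ Nat.card {x : G // x ^ 2 ^ (j + 1) = 1} := by
  classical
  rw [card_stable E (fun x : G => x ^ 2 ^ (j + 1) = 1) (fun x e he => by rw [hx x e he]), hE4]
  set π := QuotientGroup.mk' E with hπdef
  have hker : ∀ x : G, π x = 1 → x ^ 2 = 1 := by
    intro x hx1
    apply hE2
    have : x ∈ π.ker := hx1
    rwa [QuotientGroup.ker_mk'] at this
  have hsplit := KulakoffOdd.card_split (fun q : G ⧸ E => ∃ x, π x = q ∧ x ^ 2 ^ (j + 1) = 1)
    (fun q => q ^ 2 ^ j = 1)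
  have h1 : 2 ^ j ∣ Nat.card {q : G ⧸ E // (∃ x, π x = q ∧ x ^ 2 ^ (j + 1) = 1) ∧ q ^ 2 ^ j = 1} := by
    have e : {q : G ⧸ E // (∃ x, π x = q ∧ x ^ 2 ^ (j + 1) = 1) ∧ q ^ 2 ^ j = 1} ≃
        {q : G ⧸ E // q ^ 2 ^ j = 1} := by
      apply Equiv.subtypeEquivRight
      intro q
      constructor
      · exact fun h => h.2
      · intro h
        refine ⟨?_, h⟩
        obtain ⟨x, rfl⟩ := QuotientGroup.mk'_surjective E q
        refine ⟨x, rfl, ?_⟩
        have h2 : π (x ^ 2 ^ j) = 1 := by
          rw [map_pow]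
          exact h
        have h3 := hker _ h2
        rw [pow_succ, pow_mul]
        exact h3
    rw [Nat.card_congr e]
    exact FrobCount.frobenius_dvd_card_pow_eq_one _ _ hd
  have h2 : 2 ^ j ∣ Nat.card {q : G ⧸ E // (∃ x, π x = q ∧ x ^ 2 ^ (j + 1) = 1) ∧ ¬ q ^ 2 ^ j = 1} := by
    have hord : ∀ q : G ⧸ E, ((∃ x, π x = q ∧ x ^ 2 ^ (j + 1) = 1) ∧ ¬ q ^ 2 ^ j = 1) →
        orderOf q = 2 ^ (j + 1) := by
      rintro q ⟨⟨x, rfl, h3⟩, h4⟩
      refine orderOf_eq_prime_pow h4 ?_
      rw [← map_pow, h3, map_one]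
    have h5 := totient_dvd_of_closed
      (fun q : G ⧸ E => (∃ x, π x = q ∧ x ^ 2 ^ (j + 1) = 1) ∧ ¬ q ^ 2 ^ j = 1) (2 ^ (j + 1)) hord ?_
    · rw [Nat.totient_prime_pow_succ Nat.prime_two] at h5
      simpa using h5
    · rintro q y ⟨⟨x, rfl, h3⟩, h4⟩ hzp
      have hmem : y ∈ zpowers (π x) := by
        rw [← hzp]
        exact Subgroup.mem_zpowers _
      obtain ⟨i, rfl⟩ := Subgroup.mem_zpowers_iff.mp hmem
      refine ⟨⟨x ^ i, by rw [map_zpow], ?_⟩, ?_⟩
      · rw [← zpow_natCast, ← zpow_mul, mul_comm, zpow_mul, zpow_natCast, h3, one_zpow]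
      · intro h6
        apply h4
        have h7 : orderOf ((π x) ^ i) = orderOf (π x) := by
          rw [← Nat.card_zpowers, ← Nat.card_zpowers, hzp]
        rw [← orderOf_dvd_iff_pow_eq_one] at h6 ⊢
        rwa [h7] at h6
  rw [hsplit]
  obtain ⟨a, ha⟩ := h1
  obtain ⟨b, hb⟩ := h2
  rw [ha, hb]
  exact ⟨a + b, by ring⟩

end cosets

/-! ### Normal Klein four subgroups -/

section klein

variable {G : Type*} [Group G] [Finite G]

/-- Data of a normal Klein four subgroup. -/
structure KD (E : Subgroup G) (z f : G) : Prop where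
  zc : ∀ g : G, g * z = z * g
  z1 : z ≠ 1
  z2 : z * z = 1
  f1 : f ≠ 1
  f2 : f * f = 1
  fz : f ≠ z
  zE : z ∈ E
  fE : f ∈ E
  cases : ∀ e ∈ E, e = 1 ∨ e = z ∨ e = f ∨ e = f * z
  conj : ∀ g : G, g * f = f * g ∨ g * f = f * z * g

lemma exists_KD (hG : IsPGroup 2 G) (E : Subgroup G) [hn : E.Normal] (hE4 : Nat.card E = 4)
    (hE2 : ∀ e ∈ E, e ^ 2 = 1) : ∃ z f : G, KD E z f := by
  classical
  have hEne : E ≠ ⊥ := by
    rintro rfl
    rw [Subgroup.card_bot] at hE4
    omega
  obtain ⟨z, hzE, hz1, hzc⟩ := KleinTools.exists_central_of_normal (p := 2) hG E hEne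
  have hz2 : z * z = 1 := by rw [← pow_two]; exact hE2 z hzE
  obtain ⟨f, hfE, hfs⟩ := NormalKlein.exists_mem_notMem_finset E ({1, z} : Finset G) (by
    rw [hE4]
    exact (Finset.card_le_two).trans_lt (by norm_num))
  simp only [Finset.mem_insert, Finset.mem_singleton, not_or] at hfs
  obtain ⟨hf1, hfz⟩ := hfs
  have hf2 : f * f = 1 := by rw [← pow_two]; exact hE2 f hfE
  have hcases : ∀ e ∈ E, e = 1 ∨ e = z ∨ e = f ∨ e = f * z := by
    intro e he
    by_contra hne
    push Not at hne
    obtain ⟨h1, h2, h3, h4⟩ := hne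
    let s : Finset G := {1, z, f, f * z}
    have hs : s.card = 4 := by
      have h5 : (1 : G) ≠ f * z := by
        intro h
        apply hfz
        have : f * z * z = z := by rw [← h, one_mul]
        rwa [mul_assoc, hz2, mul_one] at this
      have h6 : z ≠ f * z := by
        intro h
        exact hf1 (mul_eq_right.mp h.symm)
      have h7 : f ≠ f * z := by
        intro h
        exact hz1 (mul_eq_left.mp h.symm)
      simp only [s]
      rw [Finset.card_insert_of_notMem, Finset.card_insert_of_notMem, Finset.card_insert_of_notMem,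
        Finset.card_singleton]
      · simpa using h7
      · simp only [Finset.mem_insert, Finset.mem_singleton, not_or]
        exact ⟨Ne.symm hfz, h6⟩
      · simp only [Finset.mem_insert, Finset.mem_singleton, not_or]
        exact ⟨Ne.symm hz1, Ne.symm hf1, h5⟩
    have hsE : ∀ x ∈ s, x ∈ E := by
      intro x hx
      simp only [s, Finset.mem_insert, Finset.mem_singleton] at hx
      rcases hx with rfl | rfl | rfl | rfl
      · exact E.one_mem
      · exact hzE
      · exact hfE
      · exact E.mul_mem hfE hzE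
    have hes : e ∉ s := by
      simp only [s, Finset.mem_insert, Finset.mem_singleton, not_or]
      exact ⟨h1, h2, h3, h4⟩
    have h8 : (insert e s).card = 5 := by
      rw [Finset.card_insert_of_notMem hes, hs]
    have h9 : (insert e s).card ≤ Nat.card E := by
      have : Nat.card (insert e s : Finset G) ≤ Nat.card E :=
        Nat.card_le_card_of_injective
          (fun x : (insert e s : Finset G) => (⟨x.1, by
            have := x.2
            rcases Finset.mem_insert.mp this with h | h
            · rw [h]; exact he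
            · exact hsE _ h⟩ : E)) (by
            intro a b hab
            have h10 : (a : G) = b := congrArg (fun y : E => (y : G)) hab
            exact Subtype.ext h10)
      rwa [Nat.card_eq_fintype_card, Fintype.card_coe] at this
    omega
  refine ⟨z, f, hzc, hz1, hz2, hf1, hf2, hfz, hzE, hfE, hcases, ?_⟩
  intro g
  have h1 : g * f * g⁻¹ ∈ E := hn.conj_mem f hfE g
  rcases hcases _ h1 with h | h | h | h
  · exfalso
    apply hf1
    have := mul_inv_eq_one.mp h
    exact mul_eq_left.mp this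
  · exfalso
    apply hfz
    have h2 : g * f = z * g := mul_inv_eq_iff_eq_mul.mp h
    rw [← hzc g] at h2
    exact mul_left_cancel h2
  · left
    exact mul_inv_eq_iff_eq_mul.mp h
  · right
    exact mul_inv_eq_iff_eq_mul.mp h

variable {E : Subgroup G} {z f : G} (h : KD E z f)

include h

lemma KD.sq_mul_z (x : G) : (x * z) ^ 2 = x ^ 2 := by
  rw [pow_two, pow_two]
  calc x * z * (x * z) = x * (z * x) * z := by group
    _ = x * (x * z) * z := by rw [h.zc x]
    _ = x * x * (z * z) := by group
    _ = x * x := by rw [h.z2, mul_one]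

lemma KD.sq_mul_f (x : G) : (x * f = f * x ∧ (x * f) ^ 2 = x ^ 2) ∨
    (x * f = f * z * x ∧ (x * f) ^ 2 = x ^ 2 * z) := by
  rcases h.conj x with h1 | h1
  · left
    refine ⟨h1, ?_⟩
    rw [pow_two, pow_two]
    calc x * f * (x * f) = x * (f * x) * f := by group
      _ = x * (x * f) * f := by rw [h1]
      _ = x * x * (f * f) := by group
      _ = x * x := by rw [h.f2, mul_one]
  · right
    refine ⟨h1, ?_⟩
    rw [pow_two, pow_two]
    calc x * f * (x * f) = x * f * (f * z * x) := by rw [h1]
      _ = x * (f * f) * z * x := by group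
      _ = x * (z * x) := by rw [h.f2, mul_one, mul_assoc]
      _ = x * (x * z) := by rw [h.zc x]
      _ = x * x * z := by group

lemma KD.sq_mul_E (x : G) {e : G} (he : e ∈ E) : (x * e) ^ 2 = x ^ 2 ∨ (x * e) ^ 2 = x ^ 2 * z := by
  rcases h.cases e he with rfl | rfl | rfl | rfl
  · left; simp
  · left; exact h.sq_mul_z x
  · rcases h.sq_mul_f x with h1 | h1
    · left; exact h1.2
    · right; exact h1.2
  · rw [← mul_assoc, h.sq_mul_z]
    rcases h.sq_mul_f x with h1 | h1
    · left; exact h1.2
    · right; exact h1.2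

lemma KD.pow_four (x : G) {e : G} (he : e ∈ E) : (x * e) ^ 4 = x ^ 4 := by
  have e4 : ∀ y : G, y ^ 4 = (y ^ 2) ^ 2 := fun y => by rw [← pow_mul]
  rw [e4, e4]
  rcases h.sq_mul_E x he with h1 | h1
  · rw [h1]
  · rw [h1]
    have := h.sq_mul_z (x ^ 2)
    exact this

lemma KD.pow_pow (x : G) {e : G} (he : e ∈ E) (j : ℕ) :
    (x * e) ^ 2 ^ (j + 2) = x ^ 2 ^ (j + 2) := by
  have e4 : ∀ y : G, y ^ 2 ^ (j + 2) = (y ^ 4) ^ 2 ^ j := fun y => by
    rw [← pow_mul]
    congr 1
    ring
  rw [e4, e4, h.pow_four x he]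

lemma KD.comm_of_comm_f {x : G} (hx : x * f = f * x) {e : G} (he : e ∈ E) : x * e = e * x := by
  rcases h.cases e he with rfl | rfl | rfl | rfl
  · simp
  · exact h.zc x
  · exact hx
  · calc x * (f * z) = (x * f) * z := by group
      _ = f * x * z := by rw [hx]
      _ = f * (x * z) := by group
      _ = f * (z * x) := by rw [h.zc x]
      _ = f * z * x := by group

lemma KD.E_comm {e : G} (he : e ∈ E) : e * f = f * e := by
  rcases h.cases e he with rfl | rfl | rfl | rfl
  · simp
  · exact (h.zc f).symm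
  · rfl
  · calc f * z * f = f * (z * f) := by group
      _ = f * (f * z) := by rw [h.zc f]

omit h in
lemma card_two_of {α : Type*} {A : α → Prop} (w w' : α) (hw : A w) (hw' : A w') (hne : w ≠ w')
    (hall : ∀ x, A x → x = w ∨ x = w') : Nat.card {x // A x} = 2 := by
  rw [Nat.card_eq_two_iff]
  refine ⟨⟨w, hw⟩, ⟨w', hw'⟩, fun h => hne (congrArg Subtype.val h), ?_⟩
  ext x
  simp only [Set.mem_insert_iff, Set.mem_singleton_iff, Set.mem_univ, iff_true]
  rcases hall x.1 x.2 with h | h
  · left; exact Subtype.ext h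
  · right; exact Subtype.ext h

/-- `4 ∣ #{x : x² = 1}`. -/
lemma KD.four_dvd_invol [E.Normal] (hE4 : Nat.card E = 4)
    (h2Q : 2 ∣ Nat.card (G ⧸ E)) (h16 : (∃ x : G, x * f ≠ f * x) → 16 ∣ Nat.card G) :
    4 ∣ Nat.card {x : G // x ^ 2 = 1} := by
  classical
  set C : Subgroup G := Subgroup.centralizer {f} with hC
  have hCmem : ∀ x : G, x ∈ C ↔ x * f = f * x := by
    intro x
    rw [hC, Subgroup.mem_centralizer_singleton_iff]
  have hEC : ∀ e ∈ E, e ∈ C := fun e he => (hCmem e).mpr (h.E_comm he)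
  have hstar : ∀ x : G, x ∉ C → x * f = f * z * x := by
    intro x hx
    rcases h.conj x with h1 | h1
    · exact absurd ((hCmem x).mpr h1) hx
    · exact h1
  have hsplit := KulakoffOdd.card_split (fun x : G => x ^ 2 = 1) (fun x => x ∈ C)
  rw [hsplit]
  apply Nat.dvd_add
  · -- the part inside `C`
    rw [card_stable E (fun x : G => x ^ 2 = 1 ∧ x ∈ C), hE4]
    · exact dvd_mul_right _ _
    · intro x e he
      have hsq : x ∈ C → (x * e) ^ 2 = x ^ 2 := by
        intro hx
        have hc := h.comm_of_comm_f ((hCmem x).mp hx) he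
        rw [pow_two, pow_two]
        calc x * e * (x * e) = x * (e * x) * e := by group
          _ = x * (x * e) * e := by rw [hc]
          _ = x * x * (e * e) := by group
          _ = x * x := by
            rcases h.cases e he with rfl | rfl | rfl | rfl
            · simp
            · rw [h.z2, mul_one]
            · rw [h.f2, mul_one]
            · have : f * z * (f * z) = (f * f) * (z * z) := by
                calc f * z * (f * z) = f * (z * f) * z := by group
                  _ = f * (f * z) * z := by rw [h.zc f]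
                  _ = _ := by group
              rw [this, h.f2, h.z2, mul_one, mul_one]
      constructor
      · rintro ⟨h1, h3⟩
        have h4 : x ∈ C := by
          have := C.mul_mem h3 (C.inv_mem (hEC e he))
          simpa using this
        exact ⟨by rw [← hsq h4]; exact h1, h4⟩
      · rintro ⟨h1, h3⟩
        exact ⟨by rw [hsq h3]; exact h1, C.mul_mem h3 (hEC e he)⟩
  · -- the part outside `C`
    by_cases htop : ∃ x₁ : G, x₁ ∉ C
    swap
    · push Not at htop
      have : IsEmpty {x : G // x ^ 2 = 1 ∧ x ∉ C} := ⟨fun x => x.2.2 (htop _)⟩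
      rw [Nat.card_of_isEmpty]
      exact dvd_zero _
    obtain ⟨x₁, hx₁⟩ := htop
    have h16' : 16 ∣ Nat.card G := h16 ⟨x₁, fun hc => hx₁ ((hCmem _).mpr hc)⟩
    set π := QuotientGroup.mk' E with hπ
    have hπE : ∀ x : G, π x = 1 ↔ x ∈ E := by
      intro x
      show x ∈ π.ker ↔ _
      rw [QuotientGroup.ker_mk']
    have hπeq : ∀ a b : G, π a = π b → a⁻¹ * b ∈ E := by
      intro a b hab
      rw [← hπE, map_mul, map_inv, hab, inv_mul_cancel]
    have hfib := card_fiber_const (fun x : G => x ^ 2 = 1 ∧ x ∉ C)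
      (fun q : G ⧸ E => q ^ 2 = 1 ∧ ∃ x, π x = q ∧ x ∉ C) π 2 ?_ ?_
    · rw [hfib]
      have heven : 2 ∣ Nat.card {q : G ⧸ E // q ^ 2 = 1 ∧ ∃ x, π x = q ∧ x ∉ C} := by
        let Cb : Subgroup (G ⧸ E) := C.map π
        have hequiv : ∀ q : G ⧸ E, (∃ x, π x = q ∧ x ∉ C) ↔ q ∉ Cb := by
          intro q
          constructor
          · rintro ⟨x, rfl, hx⟩ ⟨c, hc, hcx⟩
            apply hx
            have h1 := hπeq c x hcx
            have h2 := C.mul_mem hc (hEC _ h1)
            simpa using h2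
          · intro hq
            obtain ⟨x, rfl⟩ := QuotientGroup.mk'_surjective E q
            exact ⟨x, rfl, fun hx => hq ⟨x, hx, rfl⟩⟩
        have s1 := KulakoffOdd.card_split (fun q : G ⧸ E => q ^ 2 = 1) (fun q => q ∈ Cb)
        have h3 : 2 ∣ Nat.card {q : G ⧸ E // q ^ 2 = 1} :=
          FrobCount.frobenius_dvd_card_pow_eq_one _ 2 h2Q
        -- the order of `Cb`
        have hCb : 2 ∣ Nat.card Cb := by
          have hcomap : Cb.comap π = C := by
            apply Subgroup.comap_map_eq_self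
            rw [QuotientGroup.ker_mk']
            exact hEC
          have h5 := KulakoffOdd.card_comap_surj π (QuotientGroup.mk'_surjective E) Cb
          rw [hcomap, QuotientGroup.ker_mk', hE4] at h5
          have h6 : C.index = 2 := by
            rw [Subgroup.index_eq_two_iff]
            refine ⟨x₁, fun b => ?_⟩
            by_cases hb : b ∈ C
            · right
              refine ⟨hb, fun h1 => hx₁ ?_⟩
              have h2 := C.mul_mem (C.inv_mem hb) h1
              simpa using h2
            · left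
              refine ⟨(hCmem _).mpr ?_, hb⟩
              have hb2 := hstar b hb
              have hx2 := hstar x₁ hx₁
              calc b * x₁ * f = b * (x₁ * f) := by group
                _ = b * (f * z * x₁) := by rw [hx2]
                _ = (b * f) * z * x₁ := by group
                _ = (f * z * b) * z * x₁ := by rw [hb2]
                _ = f * z * (b * z) * x₁ := by group
                _ = f * z * (z * b) * x₁ := by rw [h.zc b]
                _ = f * (z * z) * b * x₁ := by group
                _ = f * (b * x₁) := by rw [h.z2, mul_one]; group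
          have h7 := Subgroup.card_mul_index C
          rw [h6, h5] at h7
          rw [← h7] at h16'
          have : 8 * 2 ∣ 8 * Nat.card Cb := by
            have e : 4 * Nat.card Cb * 2 = 8 * Nat.card Cb := by ring
            rw [← e]
            exact h16'
          exact Nat.dvd_of_mul_dvd_mul_left (by norm_num) this
        have h4 : 2 ∣ Nat.card {q : G ⧸ E // q ^ 2 = 1 ∧ q ∈ Cb} := by
          have e : {q : G ⧸ E // q ^ 2 = 1 ∧ q ∈ Cb} ≃ {q : Cb // q ^ 2 = 1} :=
            { toFun := fun q => ⟨⟨q.1, q.2.2⟩, Subtype.ext q.2.1⟩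
              invFun := fun q => ⟨q.1.1, congrArg Subtype.val q.2, q.1.2⟩
              left_inv := fun _ => rfl
              right_inv := fun _ => rfl }
          rw [Nat.card_congr e]
          exact FrobCount.frobenius_dvd_card_pow_eq_one _ 2 hCb
        have e2 : {q : G ⧸ E // q ^ 2 = 1 ∧ ∃ x, π x = q ∧ x ∉ C} ≃ {q : G ⧸ E // q ^ 2 = 1 ∧ q ∉ Cb} :=
          Equiv.subtypeEquivRight (fun q => by rw [hequiv q])
        rw [Nat.card_congr e2]
        rw [s1] at h3
        exact (Nat.dvd_add_right h4).mp h3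
      obtain ⟨c, hc⟩ := heven
      rw [hc]
      exact ⟨c, by ring⟩
    · rintro x ⟨hx2, hx⟩
      exact ⟨by rw [← map_pow, hx2, map_one], x, rfl, hx⟩
    · rintro q ⟨hq2, x₀, rfl, hx₀⟩
      have hx₀E : x₀ ^ 2 ∈ E := (hπE _).mp (by rw [map_pow]; exact hq2)
      have hst := hstar x₀ hx₀
      have hcases : x₀ ^ 2 = 1 ∨ x₀ ^ 2 = z := by
        rcases h.cases _ hx₀E with h1 | h1 | h1 | h1
        · left; exact h1
        · right; exact h1
        · exfalso
          apply hx₀
          rw [hCmem, ← h1, pow_two]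
          group
        · exfalso
          apply h.z1
          have h2 : x₀ * (f * z) = (f * z) * x₀ := by
            rw [← h1, pow_two]
            group
          have h3 : x₀ * (f * z) = f * x₀ := by
            calc x₀ * (f * z) = (x₀ * f) * z := by group
              _ = (f * z * x₀) * z := by rw [hst]
              _ = f * z * (x₀ * z) := by group
              _ = f * z * (z * x₀) := by rw [h.zc x₀]
              _ = f * (z * z) * x₀ := by group
              _ = f * x₀ := by rw [h.z2, mul_one]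
          rw [h3] at h2
          have h4 : f * x₀ = f * (z * x₀) := by rw [h2]; group
          have h5 := mul_left_cancel h4
          exact (mul_eq_right.mp h5.symm)
      have hfC : f ∈ C := hEC f h.fE
      have hπf : π f = 1 := (hπE f).mpr h.fE
      have hwex : ∃ w : G, w ^ 2 = 1 ∧ w ∉ C ∧ π w = π x₀ := by
        rcases hcases with h1 | h1
        · exact ⟨x₀, h1, hx₀, rfl⟩
        · refine ⟨x₀ * f, ?_, ?_, ?_⟩
          · rcases h.sq_mul_f x₀ with h2 | h2
            · exact absurd ((hCmem _).mpr h2.1) hx₀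
            · rw [h2.2, h1]; exact h.z2
          · intro h2
            apply hx₀
            have h3 := C.mul_mem h2 (C.inv_mem hfC)
            simpa using h3
          · rw [map_mul, hπf, mul_one]
      obtain ⟨w, hw2, hwC, hwπ⟩ := hwex
      rw [← hwπ]
      have hzC : z ∈ C := hEC z h.zE
      have hπz : π z = 1 := (hπE z).mpr h.zE
      apply card_two_of w (w * z)
      · exact ⟨⟨hw2, hwC⟩, rfl⟩
      · refine ⟨⟨?_, ?_⟩, ?_⟩
        · rw [h.sq_mul_z, hw2]
        · intro h2
          apply hwC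
          have h3 := C.mul_mem h2 (C.inv_mem hzC)
          simpa using h3
        · rw [map_mul, hπz, mul_one]
      · intro h2
        exact h.z1 (mul_eq_left.mp h2.symm)
      · rintro a ⟨⟨ha2, haC⟩, haπ⟩
        have he := hπeq w a haπ.symm
        have hae : a = w * (w⁻¹ * a) := by group
        have hfbad : (w * f) ^ 2 = z := by
          rcases h.sq_mul_f w with h2 | h2
          · exact absurd ((hCmem _).mpr h2.1) hwC
          · rw [h2.2, hw2, one_mul]
        rcases h.cases _ he with h1 | h1 | h1 | h1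
        · left
          rw [hae, h1, mul_one]
        · right
          rw [hae, h1]
        · exfalso
          apply h.z1
          rw [hae, h1] at ha2
          rw [← hfbad, ha2]
        · exfalso
          apply h.z1
          rw [hae, h1, ← mul_assoc, h.sq_mul_z] at ha2
          rw [← hfbad, ha2]

end klein

/-! ### Existence of normal Klein four subgroups -/

section exist

open scoped commutatorElement

variable {G : Type*} [Group G] [Finite G]

lemma class_of_element (n : ℕ) (hn : 3 ≤ n) (hcard : Nat.card G = 2 ^ n) (hnc : ¬ IsCyclic G)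
    (a y : G) (ha : orderOf a = 2 ^ (n - 1)) (u : ℤ) (hy : y * a * y⁻¹ = a ^ u) (c : ℤ)
    (hu : u - 1 = 2 * (2 * c + 1)) : Group.nilpotencyClass G = n - 1 := by
  classical
  have hP : IsPGroup 2 G := IsPGroup.of_card hcard
  apply MaxClassTwo2.class_of_four_mul hn hcard
  have hcomm : a ^ (u - 1) ∈ commutator G := by
    have h1 : ⁅y, a⁆ ∈ commutator G :=
      Subgroup.commutator_mem_commutator (Subgroup.mem_top y) (Subgroup.mem_top a)
    have h2 : ⁅y, a⁆ = a ^ (u - 1) := by
      rw [commutatorElement_def, hy, zpow_sub, zpow_one]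
    rwa [h2] at h1
  set b := a ^ 2 with hb
  have hbord : orderOf b = 2 ^ (n - 2) := by
    rw [hb, orderOf_pow' a two_ne_zero, ha, Nat.gcd_eq_right (dvd_pow_self 2 (by omega))]
    have : n - 1 = n - 2 + 1 := by omega
    rw [this, pow_succ]
    simp
  have hb2 : b ^ (2 * c + 1) ∈ commutator G := by
    have : b ^ (2 * c + 1) = a ^ (u - 1) := by
      rw [hu, hb, ← zpow_natCast, ← zpow_mul]
      rfl
    rwa [this]
  have hbmem : b ∈ commutator G := by
    have hcop : IsCoprime (2 * c + 1) ((2 : ℤ) ^ (n - 2)) := by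
      apply IsCoprime.pow_right
      exact ⟨1, -c, by ring⟩
    obtain ⟨r, s, hrs⟩ := hcop
    have h3 : b ^ ((2 : ℤ) ^ (n - 2)) = 1 := by
      apply orderOf_dvd_iff_zpow_eq_one.1
      rw [hbord]
      exact_mod_cast dvd_refl _
    have h4 : b = (b ^ (2 * c + 1)) ^ r := by
      calc b = b ^ (r * (2 * c + 1) + s * 2 ^ (n - 2)) := by rw [hrs, zpow_one]
        _ = (b ^ (2 * c + 1)) ^ r * (b ^ ((2 : ℤ) ^ (n - 2))) ^ s := by
            rw [zpow_add, mul_comm r, mul_comm s, zpow_mul, zpow_mul]
        _ = (b ^ (2 * c + 1)) ^ r := by rw [h3, one_zpow, mul_one]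
    rw [h4]
    exact Subgroup.zpow_mem _ hb2 _
  have hdvd : 2 ^ (n - 2) ∣ Nat.card (commutator G) := by
    rw [← hbord]
    have := Subgroup.orderOf_dvd_natCard (commutator G) hbmem
    exact this
  have hdvd2 : Nat.card (commutator G) ∣ 2 ^ n := by
    rw [← hcard]
    exact Subgroup.card_subgroup_dvd_card _
  obtain ⟨t, ht, htc⟩ := (Nat.dvd_prime_pow Nat.prime_two).mp hdvd2
  rw [htc] at hdvd
  have hle := (Nat.pow_dvd_pow_iff_le_right (by norm_num : 1 < 2)).1 hdvd
  have hq := Subgroup.card_eq_card_quotient_mul_card_subgroup (commutator G)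
  rw [hcard, htc] at hq
  by_cases hteq : t = n - 2
  · rw [htc, hcard, hteq]
    have : n = n - 2 + 2 := by omega
    conv_rhs => rw [this, pow_add]
    ring
  · exfalso
    apply hnc
    apply MaxClassTwo2.isCyclic_of_quotient (p := 2) hP
    have hcases : t = n ∨ t + 1 = n := by omega
    rcases hcases with rfl | rfl
    · have : Nat.card (G ⧸ commutator G) = 1 := by
        have h5 : 0 < 2 ^ t := by positivity
        exact Nat.eq_of_mul_eq_mul_right h5 (by rw [← hq, one_mul])
      haveI := (Nat.card_eq_one_iff_unique.mp this).1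
      infer_instance
    · have : Nat.card (G ⧸ commutator G) = 2 := by
        have h5 : 0 < 2 ^ t := by positivity
        apply Nat.eq_of_mul_eq_mul_right h5
        rw [← hq, pow_succ]
        ring
      exact isCyclic_of_prime_card this

lemma three_le (m : ℕ) (hG : Nat.card G = 2 ^ m) (hnc : ¬ IsCyclic G)
    (hcl : Group.nilpotencyClass G ≠ m - 1) : 3 ≤ m := by
  by_contra hlt
  have hP : IsPGroup 2 G := IsPGroup.of_card hG
  haveI : Group.IsNilpotent G := hP.isNilpotent
  have hcases : m = 0 ∨ m = 1 ∨ m = 2 := by omega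
  rcases hcases with rfl | rfl | rfl
  · apply hnc
    have : Nat.card G = 1 := by simpa using hG
    haveI := (Nat.card_eq_one_iff_unique.mp this).1
    infer_instance
  · apply hnc
    exact isCyclic_of_prime_card (p := 2) (by simpa using hG)
  · apply hcl
    have hcomm := IsPGroup.isMulCommutative_of_card_eq_prime_sq hG
    have hle : Group.nilpotencyClass G ≤ 1 := by
      rw [Group.IsNilpotent.nilpotencyClass_le_one_iff]
      exact hcomm
    haveI : Nontrivial G := by
      rw [← Finite.one_lt_card_iff_nontrivial, hG]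
      norm_num
    have hne : Group.nilpotencyClass G ≠ 0 := by
      rw [Ne, Group.nilpotencyClass_zero_iff_subsingleton]
      exact not_subsingleton G
    omega

lemma abelian_two_invol (A : Type*) [Group A] [Finite A] (hA : IsPGroup 2 A)
    (hcomm : ∀ a b : A, a * b = b * a) (hnc : ¬ IsCyclic A) :
    ∃ x y : A, x ^ 2 = 1 ∧ y ^ 2 = 1 ∧ x ≠ 1 ∧ y ≠ 1 ∧ x ≠ y := by
  classical
  by_contra hno
  push Not at hno
  have hgen : ∀ H : Subgroup A, Nat.card H = 2 → ∃ h : A, h ^ 2 = 1 ∧ h ≠ 1 ∧ H = zpowers h := by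
    intro H hH
    obtain ⟨w, hw, hw2, hw1⟩ := exists_invol_of_nontrivial hA H (by omega)
    refine ⟨w, hw2, hw1, ?_⟩
    symm
    apply Subgroup.eq_of_le_of_card_ge
    · rwa [Subgroup.zpowers_le]
    · rw [Nat.card_zpowers, orderOf_eq_prime hw2 hw1, hH]
  have huniq : ∀ H K : Subgroup A, Nat.card H = 2 → Nat.card K = 2 → H = K := by
    intro H K hH hK
    obtain ⟨h, h1, h2, rfl⟩ := hgen H hH
    obtain ⟨k, k1, k2, rfl⟩ := hgen K hK
    rw [hno h k h1 k1 h2 k2]
  rcases UniqueSub.main 2 hA huniq with hc | ⟨_, n, ⟨e⟩⟩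
  · exact hnc hc
  · rcases n with _ | n
    · apply hnc
      haveI : IsCyclic (QuaternionGroup (2 ^ 0)) := by
        simpa using QuaternionGroup.quaternionGroup_one_isCyclic
      exact e.symm.isCyclic.mp inferInstance
    · have h1 : (QuaternionGroup.a 1 : QuaternionGroup (2 ^ (n + 1))) * QuaternionGroup.xa 0 =
          QuaternionGroup.xa 0 * QuaternionGroup.a 1 := by
        apply e.symm.injective
        rw [map_mul, map_mul, hcomm]
      rw [QuaternionGroup.a_mul_xa, QuaternionGroup.xa_mul_a] at h1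
      have h2 : (0 - 1 : ZMod (2 * 2 ^ (n + 1))) = 0 + 1 := QuaternionGroup.xa.inj h1
      have h3 : ((2 : ℕ) : ZMod (2 * 2 ^ (n + 1))) = 0 := by
        have : ((2 : ℕ) : ZMod (2 * 2 ^ (n + 1))) = 1 + 1 := by norm_num
        rw [this]
        have h4 : (1 : ZMod (2 * 2 ^ (n + 1))) = -1 := by
          simpa using h2.symm
        nth_rw 1 [h4]
        simp
      rw [ZMod.natCast_eq_zero_iff] at h3
      have h5 := Nat.le_of_dvd (by norm_num) h3
      have h6 : 2 ^ (n + 1) ≥ 2 := by
        calc 2 ^ (n + 1) ≥ 2 ^ 1 := Nat.pow_le_pow_right (by norm_num) (by omega)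
          _ = 2 := by norm_num
      omega

theorem exists_normal_klein4 (m : ℕ) (hG : Nat.card G = 2 ^ m) (hnc : ¬ IsCyclic G)
    (hcl : Group.nilpotencyClass G ≠ m - 1) :
    ∃ A : Subgroup G, A.Normal ∧ Nat.card A = 4 ∧ ∀ a ∈ A, a ^ 2 = 1 := by
  classical
  have hP : IsPGroup 2 G := IsPGroup.of_card hG
  have hm3 := three_le m hG hnc hcl
  by_contra hno
  push Not at hno
  -- all normal abelian subgroups are cyclic
  have hnorm : ∀ A : Subgroup G, A.Normal → IsMulCommutative A → IsCyclic A := by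
    intro N hNn hNab
    by_contra hNnc
    have hNab' : ∀ a ∈ N, ∀ b ∈ N, a * b = b * a := by
      intro a ha b hb
      have := hNab.is_comm.comm ⟨a, ha⟩ ⟨b, hb⟩
      exact congrArg Subtype.val this
    obtain ⟨⟨y₁, hy₁⟩, ⟨y₂, hy₂⟩, h1, h2, h3, h4, hne⟩ := abelian_two_invol N (hP.to_subgroup N)
      (fun a b => Subtype.ext (hNab' a a.2 b b.2)) hNnc
    have h1' : y₁ ^ 2 = 1 := congrArg Subtype.val h1
    have h2' : y₂ ^ 2 = 1 := congrArg Subtype.val h2
    have h3' : y₁ ≠ 1 := fun h => h3 (Subtype.ext h)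
    have h4' : y₂ ≠ 1 := fun h => h4 (Subtype.ext h)
    have hne' : y₁ ≠ y₂ := fun h => hne (Subtype.ext h)
    let Ω : Subgroup G :=
      { carrier := {y | y ∈ N ∧ y ^ 2 = 1}
        one_mem' := ⟨N.one_mem, by simp⟩
        mul_mem' := by
          rintro a b ⟨ha, ha2⟩ ⟨hb, hb2⟩
          refine ⟨N.mul_mem ha hb, ?_⟩
          rw [pow_two, ← mul_assoc, mul_assoc a b a, hNab' b hb a ha, ← mul_assoc, ← pow_two, ha2,
            one_mul, ← pow_two, hb2]
        inv_mem' := by
          rintro a ⟨ha, ha2⟩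
          exact ⟨N.inv_mem ha, by rw [inv_pow, ha2, inv_one]⟩ }
    have hΩn : Ω.Normal := by
      constructor
      rintro y ⟨hy, hy2⟩ g
      refine ⟨hNn.conj_mem y hy g, ?_⟩
      rw [_root_.conj_pow, hy2]
      group
    have h4dvd : 4 ∣ Nat.card Ω := by
      haveI := Fintype.ofFinite Ω
      obtain ⟨j, hj⟩ := (hP.to_subgroup Ω).exists_card_eq
      have hcard : 3 ≤ Nat.card Ω := by
        have h5 : ({(⟨1, Ω.one_mem⟩ : Ω), ⟨y₁, hy₁, h1'⟩, ⟨y₂, hy₂, h2'⟩} : Finset Ω).card = 3 := by
          rw [Finset.card_eq_three]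
          refine ⟨_, _, _, ?_, ?_, ?_, rfl⟩
          · intro h
            exact h3' (congrArg Subtype.val h).symm
          · intro h
            exact h4' (congrArg Subtype.val h).symm
          · intro h
            exact hne' (congrArg Subtype.val h)
        have h6 := Finset.card_le_univ
          ({(⟨1, Ω.one_mem⟩ : Ω), ⟨y₁, hy₁, h1'⟩, ⟨y₂, hy₂, h2'⟩} : Finset Ω)
        rw [h5] at h6
        rw [Nat.card_eq_fintype_card]
        exact h6
      rw [hj] at hcard ⊢
      rcases j with _ | _ | j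
      · norm_num at hcard
      · norm_num at hcard
      · exact ⟨2 ^ j, by ring⟩
    obtain ⟨A, hAΩ, hAn, hAc⟩ := NormalKlein.exists_normal_le_of_dvd (p := 2) 2 G hP Ω hΩn
      (by simpa using h4dvd)
    obtain ⟨a, ha, ha2⟩ := hno A hAn (by simpa using hAc)
    exact ha2 (hAΩ ha).2
  -- class computations
  have hquat : ∀ n : ℕ, Nonempty (G ≃* QuaternionGroup n) → False := by
    rintro n ⟨e⟩
    apply hcl
    have hn0 : NeZero n := by
      constructor
      rintro rfl
      have h1 := orderOf_pos (e.symm (QuaternionGroup.a 1))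
      rw [MulEquiv.orderOf_eq, QuaternionGroup.orderOf_a_one] at h1
      omega
    have hc : 4 * n = 2 ^ m := by
      rw [← hG, Nat.card_congr e.toEquiv, Nat.card_eq_fintype_card, QuaternionGroup.card]
    refine class_of_element m hm3 hG hnc (e.symm (QuaternionGroup.a 1))
      (e.symm (QuaternionGroup.xa 0)) ?_ (-1) ?_ (-1) (by norm_num)
    · rw [MulEquiv.orderOf_eq, QuaternionGroup.orderOf_a_one]
      have h5 : m = m - 1 + 1 := by omega
      rw [h5, pow_succ] at hc
      omega
    · have key : (QuaternionGroup.xa 0 : QuaternionGroup n) * QuaternionGroup.a 1 * (QuaternionGroup.xa 0)⁻¹ =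
          (QuaternionGroup.a 1) ^ (-1 : ℤ) := by
        rw [zpow_neg_one, mul_inv_eq_iff_eq_mul]
        show (QuaternionGroup.xa 0 : QuaternionGroup n) * QuaternionGroup.a 1 = QuaternionGroup.a (-1) * QuaternionGroup.xa 0
        rw [QuaternionGroup.a_mul_xa, QuaternionGroup.xa_mul_a]
        simp
      have := congrArg e.symm key
      simpa only [map_mul, map_inv, map_zpow] using this
  have hdih : ∀ n : ℕ, Nonempty (G ≃* DihedralGroup n) → False := by
    rintro n ⟨e⟩
    apply hcl
    have hn0 : NeZero n := by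
      constructor
      rintro rfl
      have h1 := orderOf_pos (e.symm (DihedralGroup.r 1))
      rw [MulEquiv.orderOf_eq, DihedralGroup.orderOf_r_one] at h1
      omega
    have hc : 2 * n = 2 ^ m := by
      rw [← hG, Nat.card_congr e.toEquiv, DihedralGroup.nat_card]
    refine class_of_element m hm3 hG hnc (e.symm (DihedralGroup.r 1))
      (e.symm (DihedralGroup.sr 0)) ?_ (-1) ?_ (-1) (by norm_num)
    · rw [MulEquiv.orderOf_eq, DihedralGroup.orderOf_r_one]
      have h5 : m = m - 1 + 1 := by omega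
      rw [h5, pow_succ] at hc
      omega
    · have key : (DihedralGroup.sr 0 : DihedralGroup n) * DihedralGroup.r 1 * (DihedralGroup.sr 0)⁻¹ =
          (DihedralGroup.r 1) ^ (-1 : ℤ) := by
        rw [zpow_neg_one, mul_inv_eq_iff_eq_mul]
        show (DihedralGroup.sr 0 : DihedralGroup n) * DihedralGroup.r 1 = DihedralGroup.r (-1) * DihedralGroup.sr 0
        rw [DihedralGroup.r_mul_sr, DihedralGroup.sr_mul_r]
        simp
      have := congrArg e.symm key
      simpa only [map_mul, map_inv, map_zpow] using this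
  by_cases hm : ∃ B : Subgroup G, IsMulCommutative B ∧ ¬ IsCyclic B
  · obtain ⟨_, h1 | h1 | h1⟩ := S0519.result 2 hP hnorm hm
    · obtain ⟨n, hn⟩ := h1
      exact hquat n hn
    · obtain ⟨n, _, hn⟩ := h1
      exact hdih n hn
    · obtain ⟨n, hn3, hcard, x, y, hx, hy, hrel⟩ := h1
      apply hcl
      have hmn : m = n + 1 := by
        have h2 : 2 ^ m = 2 ^ (n + 1) := hG.symm.trans hcard
        exact Nat.pow_right_injective (le_refl 2) h2
      subst hmn
      refine class_of_element (n + 1) hm3 hG hnc x y (by simpa using hx) ((2 : ℤ) ^ (n - 1) - 1) ?_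
        ((2 : ℤ) ^ (n - 3) - 1) ?_
      · rw [hrel, ← zpow_natCast]
        congr 1
        rw [Nat.cast_sub (Nat.one_le_two_pow)]
        push_cast
        ring
      · have e1 : (2 : ℤ) ^ (n - 1) = 2 ^ (n - 3) * 4 := by
          have : n - 1 = n - 3 + 2 := by omega
          rw [this, pow_add]
          norm_num
        rw [e1]
        ring
  · push Not at hm
    have hnt : Nontrivial G := by
      rw [← Finite.one_lt_card_iff_nontrivial, hG]
      exact Nat.one_lt_two_pow (by omega)
    have hcnt := hP.center_nontrivial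
    obtain ⟨z, hzc, hz2, hz1⟩ := exists_invol_of_nontrivial hP (center G) (by
      have := (Finite.one_lt_card_iff_nontrivial (α := center G)).mpr hcnt
      omega)
    have huz : ∀ x : G, x ^ 2 = 1 → x ≠ 1 → x = z := by
      intro x hx2 hx1
      by_contra hne
      have hxz : x * z = z * x := (Subgroup.mem_center_iff.mp hzc x)
      have hK := KleinTools.isKleinFour_kleinOf hx2 hz2 hxz hx1 hz1 hne
      have hc4 : Nat.card (KleinTools.kleinOf x z hx2 hz2 hxz) = 2 ^ 2 := hK.card_four
      exact (IsKleinFour.not_isCyclic (G := KleinTools.kleinOf x z hx2 hz2 hxz))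
        (hm _ (IsPGroup.isMulCommutative_of_card_eq_prime_sq hc4))
    have huniq : ∀ H K : Subgroup G, Nat.card H = 2 → Nat.card K = 2 → H = K := by
      have hgen : ∀ H : Subgroup G, Nat.card H = 2 → H = zpowers z := by
        intro H hH
        obtain ⟨w, hw, hw2, hw1⟩ := exists_invol_of_nontrivial hP H (by omega)
        have := huz w hw2 hw1
        subst this
        symm
        apply Subgroup.eq_of_le_of_card_ge
        · rwa [Subgroup.zpowers_le]
        · rw [Nat.card_zpowers, orderOf_eq_prime hw2 hw1, hH]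
      intro H K hH hK
      rw [hgen H hH, hgen K hK]
    rcases UniqueSub.main 2 hP huniq with hc | ⟨_, n, hn⟩
    · exact hnc hc
    · exact hquat _ hn

end exist

/-! ### Main theorem -/

section main

theorem two_dvd_cyN {G : Type*} [Group G] [Finite G] (m : ℕ) (hG : Nat.card G = 2 ^ m)
    (hnc : ¬ IsCyclic G) (hcl : Group.nilpotencyClass G ≠ m - 1) (k : ℕ) (hk1 : 1 ≤ k) (hk2 : k < m) :
    2 ∣ cyN G (2 ^ (k + 1)) := by
  classical
  have hP : IsPGroup 2 G := IsPGroup.of_card hG
  have hm3 := three_le m hG hnc hcl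
  obtain ⟨E, hEn, hE4, hE2⟩ := exists_normal_klein4 m hG hnc hcl
  haveI := hEn
  obtain ⟨z, f, h⟩ := exists_KD hP E hE4 hE2
  have hQ : Nat.card G = 4 * Nat.card (G ⧸ E) := by
    have := Subgroup.card_eq_card_quotient_mul_card_subgroup E
    rw [hE4] at this
    rw [this]
    ring
  have hdK : 2 ^ (k + 1) ∣ Nat.card G := by
    rw [hG]
    exact pow_dvd_pow 2 hk2
  apply two_dvd_cy k hdK
  rcases k with _ | k
  · omega
  rcases k with _ | k
  · -- `k = 1`
    show 2 ^ 2 ∣ Nat.card {x : G // x ^ 2 ^ 1 = 1}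
    simp only [pow_one]
    refine h.four_dvd_invol hE4 ?_ ?_
    · have h1 : 4 * 2 ∣ 4 * Nat.card (G ⧸ E) := by
        rw [← hQ, hG]
        exact pow_dvd_pow 2 hm3
      exact Nat.dvd_of_mul_dvd_mul_left (by norm_num) h1
    · rintro ⟨x, hx⟩
      rw [hG]
      by_contra h16
      have hm4 : m = 3 := by
        by_contra hne
        exact h16 (pow_dvd_pow 2 (by omega : 4 ≤ m))
      subst hm4
      apply hcl
      -- nonabelian of order 8
      haveI : Group.IsNilpotent G := hP.isNilpotent
      have hlcs := MaxClass.lcs_eq_bot_of_card hP hG (by norm_num : 2 ≤ 3)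
      have hle : Group.nilpotencyClass G ≤ 2 :=
        (Subgroup.lowerCentralSeries_eq_bot_iff_nilpotencyClass_le).1 hlcs
      have hge : ¬ Group.nilpotencyClass G ≤ 1 := by
        rw [Group.IsNilpotent.nilpotencyClass_le_one_iff]
        intro hc
        exact hx (hc.is_comm.comm x f)
      show Group.nilpotencyClass G = 2
      omega
  · -- `k ≥ 2`
    apply lemmaM E hE4 hE2 (k + 1)
    · intro x e he
      exact h.pow_pow x he k
    · have h1 : 4 * 2 ^ (k + 1) ∣ 4 * Nat.card (G ⧸ E) := by
        rw [← hQ, hG]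
        have : 4 * 2 ^ (k + 1) = 2 ^ (k + 1 + 2) := by ring
        rw [this]
        exact pow_dvd_pow 2 (by omega)
      exact Nat.dvd_of_mul_dvd_mul_left (by norm_num) h1

end main

/-- Let G be a finite p-group of order p^m that is not cyclic and, when p = 2, not of maximal class (nilpotency class m − 1). Then for every 1 ≤ k < m the number of subgroups of G of order p^k is congruent to 1 + p modulo p². -/
theorem result {G : Type*} [Group G] [Finite G] {p : ℕ} [Fact p.Prime] (m : ℕ)
    (hG : Nat.card G = p ^ m) (hnc : ¬ IsCyclic G) (h2 : p = 2 → Group.nilpotencyClass G ≠ m - 1)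
    (k : ℕ) (hk1 : 1 ≤ k) (hk2 : k < m) :
    Nat.card {H : Subgroup G // Nat.card H = p ^ k} ≡ 1 + p [MOD p ^ 2] := by
  by_cases hp : p = 2
  · subst hp
    have hcl := h2 rfl
    have hP : IsPGroup 2 G := IsPGroup.of_card hG
    have h3 := U_modEq k G hP (by
      rw [hG]
      exact pow_dvd_pow 2 hk2)
    obtain ⟨c, hc⟩ := two_dvd_cyN m hG hnc hcl k hk1 hk2
    rw [hc] at h3
    unfold Nat.ModEq at *
    unfold KulakoffOdd.cnt at h3
    omega
  · exact KulakoffOdd.kulakoff_odd hp m G hG hnc k hk1 hk2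

end Cfsg.Agent.S4157
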