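import Mathlib
import Cfsg.Statements.S4160
import Cfsg.Agent.Lib.PClasses
import Cfsg.Agent.Lib.SylowNum
import Cfsg.Agent.Lib.TransferCore

set_option autoImplicit false
open Cfsg

namespace Cfsg.Agent.S4160

variable {G : Type*} [Group G] [Finite G]

open Subgroup

theorem card_centralizer_smul {p : ℕ} [Fact p.Prime] (g : G) (P : Sylow p G) :
    Nat.card (centralizer (((g • P : Sylow p G) : Subgroup G) : Set G))
      = Nat.card (centralizer ((P : Subgroup G) : Set G)) := by
  symm
  refine Nat.card_congr ⟨fun x => ⟨g * x.1 * g⁻¹, ?_⟩, fun y => ⟨g⁻¹ * y.1 * g, ?_⟩, ?_, ?_⟩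
  · rw [mem_centralizer_iff]
    intro u hu
    have hv := Cfsg.Agent.Lib.TransferCore.mem_smul_sylow.1 hu
    have hx := mem_centralizer_iff.1 x.2 _ hv
    calc u * (g * x.1 * g⁻¹) = g * ((g⁻¹ * u * g) * x.1) * g⁻¹ := by group
      _ = g * (x.1 * (g⁻¹ * u * g)) * g⁻¹ := by rw [hx]
      _ = _ := by group
  · rw [mem_centralizer_iff]
    intro u hu
    have hv : g * u * g⁻¹ ∈ g • P := Cfsg.Agent.Lib.TransferCore.mem_smul_sylow'.2 hu
    have hy := mem_centralizer_iff.1 y.2 _ hv
    calc u * (g⁻¹ * y.1 * g) = g⁻¹ * ((g * u * g⁻¹) * y.1) * g := by group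
      _ = g⁻¹ * (y.1 * (g * u * g⁻¹)) * g := by rw [hy]
      _ = _ := by group
  · intro x
    apply Subtype.ext
    simp only
    group
  · intro y
    apply Subtype.ext
    simp only
    group

/-- Counting: the union of the centralizers of the Sylow `p`-subgroups. -/
theorem card_union_le {p : ℕ} [Fact p.Prime] (P₀ : Sylow p G) (A : Finset G)
    (hA : ∀ a ∈ A, a ≠ 1 ∧ ∃ P : Sylow p G, a ∈ centralizer ((P : Subgroup G) : Set G)) :
    A.card + Nat.card (Sylow p G) ≤
      Nat.card (Sylow p G) * Nat.card (centralizer ((P₀ : Subgroup G) : Set G)) := by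
  classical
  haveI : Fintype G := Fintype.ofFinite G
  haveI : Fintype (Sylow p G) := Fintype.ofFinite _
  set c := Nat.card (centralizer ((P₀ : Subgroup G) : Set G)) with hc
  have hcpos : 0 < c := Nat.card_pos
  let T : Sylow p G → Finset G := fun P =>
    (Finset.univ.filter (fun x => x ∈ centralizer ((P : Subgroup G) : Set G))).erase 1
  have hT : ∀ P, (T P).card + 1 = c := by
    intro P
    obtain ⟨g, rfl⟩ := MulAction.exists_smul_eq G P₀ P
    have h1 : (Finset.univ.filter (fun x => x ∈ centralizer (((g • P₀ : Sylow p G) : Subgroup G) : Set G))).card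
        = Nat.card (centralizer (((g • P₀ : Sylow p G) : Subgroup G) : Set G)) := by
      rw [Nat.card_eq_fintype_card, Fintype.card_subtype]
    rw [hc, ← card_centralizer_smul g P₀, ← h1]
    show (Finset.erase _ 1).card + 1 = _
    rw [Finset.card_erase_add_one]
    simp [Subgroup.one_mem]
  have hsub : A ⊆ Finset.univ.biUnion T := by
    intro a ha
    obtain ⟨h1, P, hP⟩ := hA a ha
    exact Finset.mem_biUnion.2 ⟨P, Finset.mem_univ P, Finset.mem_erase.2 ⟨h1, by simpa using hP⟩⟩
  have h2 := (Finset.card_le_card hsub).trans Finset.card_biUnion_le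
  have h3 : ∑ P : Sylow p G, (T P).card = Nat.card (Sylow p G) * (c - 1) := by
    rw [Finset.sum_congr rfl (fun P _ => (by have := hT P; omega : (T P).card = c - 1)),
      Finset.sum_const, Finset.card_univ, smul_eq_mul, Nat.card_eq_fintype_card]
  rw [h3] at h2
  calc A.card + Nat.card (Sylow p G) ≤ Nat.card (Sylow p G) * (c - 1) + Nat.card (Sylow p G) := by omega
    _ = Nat.card (Sylow p G) * c := by
      obtain ⟨d, hd⟩ : ∃ d, c = d + 1 := ⟨c - 1, by omega⟩
      rw [hd]
      simp [Nat.mul_succ]

/-- If centralizer differs from normalizer then the Sylow count is small. -/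
theorem two_mul_le {p : ℕ} [Fact p.Prime] (P : Sylow p G)
    (h : ¬ normalizer ((P : Subgroup G) : Set G) ≤ centralizer ((P : Subgroup G) : Set G)) :
    2 * (Nat.card (Sylow p G) * Nat.card (centralizer ((P : Subgroup G) : Set G))) ≤ Nat.card G := by
  have hle : centralizer ((P : Subgroup G) : Set G) ≤ normalizer ((P : Subgroup G) : Set G) := by
    intro x hx
    rw [mem_normalizer_iff]
    intro h
    have hc : ∀ u ∈ (P : Subgroup G), u * x = x * u := fun u hu => mem_centralizer_iff.1 hx u hu
    constructor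
    · intro hh
      have : x * h * x⁻¹ = h := by rw [← hc h hh]; group
      rw [this]; exact hh
    · intro hh
      have h1 := hc _ hh
      have h2 : x * h * x⁻¹ * x = x * h := by group
      have h3 : x * (x * h * x⁻¹) = x * h := h1.symm.trans h2
      have h4 := mul_left_cancel h3
      rw [h4] at hh
      exact hh
  have hdvd := Subgroup.card_dvd_of_le hle
  have hlt : Nat.card (centralizer ((P : Subgroup G) : Set G))
      ≠ Nat.card (normalizer ((P : Subgroup G) : Set G)) := by
    intro he
    apply h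
    rw [Subgroup.eq_of_le_of_card_ge hle he.ge]
  obtain ⟨k, hk⟩ := hdvd
  have hc0 : 0 < Nat.card (centralizer ((P : Subgroup G) : Set G)) := Nat.card_pos
  have hN0 : 0 < Nat.card (normalizer ((P : Subgroup G) : Set G)) := Nat.card_pos
  have hk2 : 2 ≤ k := by
    by_contra hk'
    interval_cases k
    · rw [mul_zero] at hk; omega
    · rw [mul_one] at hk; exact hlt hk.symm
  have h3 : 2 * Nat.card (centralizer ((P : Subgroup G) : Set G))
      ≤ Nat.card (normalizer ((P : Subgroup G) : Set G)) := by
    rw [hk, mul_comm]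
    exact Nat.mul_le_mul_left _ hk2
  have h4 : Nat.card (Sylow p G) * Nat.card (normalizer ((P : Subgroup G) : Set G)) = Nat.card G := by
    rw [Sylow.card_eq_index_normalizer P, mul_comm]
    exact (normalizer ((P : Subgroup G) : Set G)).card_mul_index
  calc _ = Nat.card (Sylow p G) * (2 * Nat.card (centralizer ((P : Subgroup G) : Set G))) := by ring
    _ ≤ Nat.card (Sylow p G) * Nat.card (normalizer ((P : Subgroup G) : Set G)) :=
        Nat.mul_le_mul_left _ h3
    _ = _ := h4

/-- Let G be a finite group and p ≠ q primes each dividing the size of some conjugacy class of G, such that no conjugacy class size is divisible by pq. Then G has a normal p-complement or a normal q-complement. -/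
theorem result {G : Type*} [Group G] [Finite G] (p q : ℕ) (hp : p.Prime) (hq : q.Prime) (hpq : p ≠ q)
    (hp' : ∃ x : G, p ∣ (Subgroup.centralizer ({x} : Set G)).index) (hq' : ∃ x : G, q ∣ (Subgroup.centralizer ({x} : Set G)).index) (h : ∀ x : G, ¬ p * q ∣ (Subgroup.centralizer ({x} : Set G)).index) :
    Cfsg.HasNormalPComplement p G ∨ Cfsg.HasNormalPComplement q G := by
  classical
  haveI : Fact p.Prime := ⟨hp⟩
  haveI : Fact q.Prime := ⟨hq⟩
  haveI : Fintype G := Fintype.ofFinite G
  obtain ⟨P⟩ : Nonempty (Sylow p G) := inferInstance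
  obtain ⟨Q⟩ : Nonempty (Sylow q G) := inferInstance
  by_cases h1 : normalizer ((P : Subgroup G) : Set G) ≤ centralizer ((P : Subgroup G) : Set G)
  · exact Or.inl (Cfsg.Agent.Lib.PClasses.hasNormalPComplement_of_normalizer_le P h1)
  by_cases h2 : normalizer ((Q : Subgroup G) : Set G) ≤ centralizer ((Q : Subgroup G) : Set G)
  · exact Or.inr (Cfsg.Agent.Lib.PClasses.hasNormalPComplement_of_normalizer_le Q h2)
  exfalso
  have hc1 := two_mul_le P h1
  have hc2 := two_mul_le Q h2
  -- the two families
  have hcov : ∀ x : G, (∃ R : Sylow p G, x ∈ centralizer ((R : Subgroup G) : Set G)) ∨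
      (∃ R : Sylow q G, x ∈ centralizer ((R : Subgroup G) : Set G)) := by
    intro x
    have hmem : ∀ {r : ℕ} [Fact r.Prime] (R : Sylow r G), (R : Subgroup G) ≤ centralizer ({x} : Set G) →
        x ∈ centralizer ((R : Subgroup G) : Set G) := by
      intro r _ R hR
      rw [mem_centralizer_iff]
      intro u hu
      have := mem_centralizer_iff.1 (hR hu) x rfl
      exact this.symm
    by_cases hx : p ∣ (centralizer ({x} : Set G)).index
    · have hx' : ¬ q ∣ (centralizer ({x} : Set G)).index := fun hq2 =>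
        h x (Nat.Coprime.mul_dvd_of_dvd_of_dvd ((Nat.coprime_primes hp hq).2 hpq) hx hq2)
      obtain ⟨R, hR⟩ := Cfsg.Agent.Lib.SylowNum.exists_sylow_le (p := q) _ hx'
      exact Or.inr ⟨R, hmem R hR⟩
    · obtain ⟨R, hR⟩ := Cfsg.Agent.Lib.SylowNum.exists_sylow_le (p := p) _ hx
      exact Or.inl ⟨R, hmem R hR⟩
  let A : Finset G := Finset.univ.filter (fun x => x ≠ 1 ∧ ∃ R : Sylow p G, x ∈ centralizer ((R : Subgroup G) : Set G))
  let B : Finset G := Finset.univ.filter (fun x => x ≠ 1 ∧ ∃ R : Sylow q G, x ∈ centralizer ((R : Subgroup G) : Set G))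
  have hA := card_union_le P A (fun a ha => (Finset.mem_filter.1 ha).2)
  have hB := card_union_le Q B (fun a ha => (Finset.mem_filter.1 ha).2)
  have hU : (Finset.univ : Finset G).erase 1 ⊆ A ∪ B := by
    intro x hx
    have hx1 : x ≠ 1 := (Finset.mem_erase.1 hx).1
    rcases hcov x with h3 | h3
    · exact Finset.mem_union_left _ (Finset.mem_filter.2 ⟨Finset.mem_univ x, hx1, h3⟩)
    · exact Finset.mem_union_right _ (Finset.mem_filter.2 ⟨Finset.mem_univ x, hx1, h3⟩)
  have h4 := (Finset.card_le_card hU).trans (Finset.card_union_le A B)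
  rw [Finset.card_erase_of_mem (Finset.mem_univ 1), Finset.card_univ, ← Nat.card_eq_fintype_card] at h4
  have hn1 : 0 < Nat.card (Sylow p G) := Nat.card_pos
  have hn2 : 0 < Nat.card (Sylow q G) := Nat.card_pos
  have hG : 0 < Nat.card G := Nat.card_pos
  omega

end Cfsg.Agent.S4160
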