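import Mathlib
import Cfsg.Statements.S4163
-- import your own Cfsg.Agent.* helpers here

set_option autoImplicit false
open Cfsg

namespace Cfsg.Agent.S4163

open Subgroup
open scoped commutatorElement

variable {G : Type*} [Group G] [Finite G]

/-- The conjugacy class of `y`, as a subtype. -/
def Cl (y : G) : Type _ := {z : G // ∃ g : G, g * y * g⁻¹ = z}

instance (y : G) : Finite (Cl y) := Subtype.finite

/-- The conjugacy class size equals the index of the centralizer. -/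
theorem card_Cl (y : G) : Nat.card (Cl y) = (centralizer ({y} : Set G)).index := by
  classical
  let H := centralizer ({y} : Set G)
  let f : G ⧸ H → Cl y :=
    Quotient.lift (fun g => (⟨g * y * g⁻¹, ⟨g, rfl⟩⟩ : Cl y)) (by
      intro a b hab
      have hab' : a⁻¹ * b ∈ H := QuotientGroup.leftRel_apply.1 hab
      have h2 : a⁻¹ * b * y = y * (a⁻¹ * b) := mem_centralizer_singleton_iff.1 hab'
      apply Subtype.ext
      show a * y * a⁻¹ = b * y * b⁻¹
      have h3 : b * y = a * (y * (a⁻¹ * b)) := by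
        rw [← h2]; group
      rw [h3]; group)
  have hf : Function.Bijective f := by
    constructor
    · intro a b
      induction a using QuotientGroup.induction_on
      induction b using QuotientGroup.induction_on
      rename_i a b
      intro hab
      have h1 : a * y * a⁻¹ = b * y * b⁻¹ := congrArg Subtype.val hab
      apply QuotientGroup.eq.2
      show a⁻¹ * b ∈ H
      refine mem_centralizer_singleton_iff.2 ?_
      have : b * y = a * y * a⁻¹ * b := by rw [h1]; group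
      calc a⁻¹ * b * y = a⁻¹ * (b * y) := by group
        _ = a⁻¹ * (a * y * a⁻¹ * b) := by rw [this]
        _ = y * (a⁻¹ * b) := by group
    · rintro ⟨z, g, rfl⟩
      exact ⟨(g : G ⧸ H), rfl⟩
  rw [index_eq_card]
  exact (Nat.card_congr (Equiv.ofBijective f hf)).symm

theorem idx_lt {A : Subgroup G} [A.Normal] (hA : IsMulCommutative A)
    {a0 x : G} (ha0 : a0 ∈ A) (hb : ⁅a0, x⁆ ≠ 1) :
    (centralizer ({⁅a0, x⁆} : Set G)).index < (centralizer ({x} : Set G)).index := by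
  classical
  have hcomm : ∀ u ∈ A, ∀ v ∈ A, u * v = v * u := by
    intro u hu v hv
    have := IsMulCommutative.is_comm.comm (⟨u, hu⟩ : A) ⟨v, hv⟩
    exact congrArg Subtype.val this
  rw [← card_Cl, ← card_Cl]
  set b := ⁅a0, x⁆ with hbdef
  have hnorm : ∀ g : G, ∀ u ∈ A, g * u * g⁻¹ ∈ A := fun g u hu =>
    Subgroup.Normal.conj_mem inferInstance u hu g
  have hbA : b ∈ A := by
    have h1 : b = a0 * (x * a0⁻¹ * x⁻¹) := by
      rw [hbdef, commutatorElement_def]; group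
    rw [h1]
    exact A.mul_mem ha0 (hnorm x a0⁻¹ (A.inv_mem ha0))
  -- a choice of representatives in the class of `x`, one for each coset of `A`
  have hρ : ∀ κ : G ⧸ A, ∃ r : G, (∃ z : Cl x, ((z.1 : G) : G ⧸ A) = κ) →
      (∃ g : G, g * x * g⁻¹ = r) ∧ ((r : G) : G ⧸ A) = κ := by
    intro κ
    by_cases h : ∃ z : Cl x, ((z.1 : G) : G ⧸ A) = κ
    · obtain ⟨z, hz⟩ := h
      exact ⟨z.1, fun _ => ⟨z.2, hz⟩⟩
    · exact ⟨1, fun h' => absurd h' h⟩
  choose ρ hρ' using hρ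
  -- for each element of the class of `b`, a conjugator
  have hg : ∀ b' : Cl b, ∃ g : G, g * b * g⁻¹ = b'.1 := fun b' => b'.2
  choose γ hγ using hg
  let κ : Cl b → G ⧸ A := fun b' => ((γ b' * x * (γ b')⁻¹ : G) : G ⧸ A)
  have hκ : ∀ b', (∃ g : G, g * x * g⁻¹ = ρ (κ b')) ∧ ((ρ (κ b') : G) : G ⧸ A) = κ b' := by
    intro b'
    exact hρ' _ ⟨⟨γ b' * x * (γ b')⁻¹, ⟨γ b', rfl⟩⟩, rfl⟩
  have hb'A : ∀ b' : Cl b, b'.1 ∈ A := by
    intro b'
    rw [← hγ b']
    exact hnorm _ _ hbA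
  -- the map
  have hfmem : ∀ b' : Cl b, ∃ g : G, g * x * g⁻¹ = b'.1 * ρ (κ b') := by
    intro b'
    obtain ⟨⟨g0, hg0⟩, hk⟩ := hκ b'
    set y := γ b' * x * (γ b')⁻¹ with hy
    set a' := γ b' * a0 * (γ b')⁻¹ with ha'
    have ha'A : a' ∈ A := hnorm _ _ ha0
    have h1 : b'.1 = a' * y * a'⁻¹ * y⁻¹ := by
      rw [← hγ b', hbdef, commutatorElement_def, ha', hy]
      group
    -- `ρ (κ b') = y * a''`
    have h2 : y⁻¹ * ρ (κ b') ∈ A := by
      have : ((y : G) : G ⧸ A) = ((ρ (κ b') : G) : G ⧸ A) := hk.symm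
      exact QuotientGroup.eq.1 this
    set a'' := y⁻¹ * ρ (κ b') with ha''
    have h3 : ρ (κ b') = y * a'' := by rw [ha'']; group
    refine ⟨a' * g0, ?_⟩
    have h4 : a' * g0 * x * (a' * g0)⁻¹ = a' * (g0 * x * g0⁻¹) * a'⁻¹ := by group
    rw [h4, hg0, h3, h1]
    have h5 : a'' * a'⁻¹ = a'⁻¹ * a'' := hcomm _ h2 _ (A.inv_mem ha'A)
    calc a' * (y * a'') * a'⁻¹ = a' * y * (a'' * a'⁻¹) := by group
      _ = a' * y * (a'⁻¹ * a'') := by rw [h5]
      _ = _ := by group
  let f : Cl b → Cl x := fun b' => ⟨b'.1 * ρ (κ b'), hfmem b'⟩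
  have hcoset : ∀ b' : Cl b, ((b'.1 * ρ (κ b') : G) : G ⧸ A) = κ b' := by
    intro b'
    rw [← (hκ b').2]
    apply QuotientGroup.eq.2
    simp only [(hκ b').2]
    have : (b'.1 * ρ (κ b'))⁻¹ * ρ (κ b') = (ρ (κ b'))⁻¹ * (b'.1)⁻¹ * ρ (κ b') := by group
    rw [this]
    have h1 := hnorm (ρ (κ b'))⁻¹ _ (A.inv_mem (hb'A b'))
    simpa using h1
  have hinj : Function.Injective f := by
    intro u v huv
    have h1 : u.1 * ρ (κ u) = v.1 * ρ (κ v) := congrArg Subtype.val huv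
    have h2 : κ u = κ v := by
      rw [← hcoset u, ← hcoset v, h1]
    rw [h2] at h1
    exact Subtype.ext (mul_right_cancel h1)
  have hxCl : ∃ z : Cl x, ((z.1 : G) : G ⧸ A) = ((x : G) : G ⧸ A) :=
    ⟨⟨x, ⟨1, by simp⟩⟩, rfl⟩
  obtain ⟨hr1, hr2⟩ := hρ' ((x : G) : G ⧸ A) hxCl
  have hnsurj : ¬ Function.Surjective f := by
    intro hs
    obtain ⟨u, hu⟩ := hs ⟨ρ ((x : G) : G ⧸ A), hr1⟩
    have h1 : u.1 * ρ (κ u) = ρ ((x : G) : G ⧸ A) := congrArg Subtype.val hu
    have h2 : κ u = ((x : G) : G ⧸ A) := by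
      rw [← hcoset u, h1, hr2]
    rw [h2] at h1
    have h3 : u.1 = 1 := by simpa using h1
    have h4 := hγ u
    rw [h3] at h4
    apply hb
    have : b = (γ u)⁻¹ * (γ u * b * (γ u)⁻¹) * γ u := by group
    rw [this, h4]
    group
  by_contra hcon
  exact hnsurj (Function.Injective.bijective_of_nat_card_le hinj (not_lt.1 hcon)).2

theorem main_thm (A : Subgroup G) [A.Normal] (hA : IsMulCommutative A)
    (hCA : centralizer (A : Set G) = A)
    (m : ℕ) (hmin : ∀ x : G, 1 < (centralizer ({x} : Set G)).index →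
      m ≤ (centralizer ({x} : Set G)).index) :
    Subgroup.upperCentralSeries ↥(closure {x : G | (centralizer ({x} : Set G)).index = 1 ∨
      (centralizer ({x} : Set G)).index = m}) 3 = ⊤ := by
  classical
  set M := closure {x : G | (centralizer ({x} : Set G)).index = 1 ∨
      (centralizer ({x} : Set G)).index = m} with hM
  have hindex1 : ∀ x : G, (centralizer ({x} : Set G)).index = 1 ↔ x ∈ center G := by
    intro x
    rw [index_eq_one, Subgroup.eq_top_iff', mem_center_iff]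
    simp [mem_centralizer_singleton_iff]
  have hf1 : ∀ x : G, ((centralizer ({x} : Set G)).index = 1 ∨
      (centralizer ({x} : Set G)).index = m) → ∀ a ∈ A, ⁅a, x⁆ ∈ center G := by
    intro x hx a ha
    by_contra hb
    have hb1 : ⁅a, x⁆ ≠ 1 := fun h => hb (h ▸ one_mem _)
    have hlt := idx_lt hA ha hb1
    have h1 : 1 < (centralizer ({⁅a, x⁆} : Set G)).index := by
      have h0 : (centralizer ({⁅a, x⁆} : Set G)).index ≠ 0 := index_ne_zero_of_finite
      have h2 : (centralizer ({⁅a, x⁆} : Set G)).index ≠ 1 := fun h => hb ((hindex1 _).1 h)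
      omega
    have h3 := hmin _ h1
    rcases hx with hx | hx
    · omega
    · omega
  have hf2 : ∀ y ∈ M, ∀ a ∈ A, ⁅a, y⁆ ∈ center G := by
    intro y hy
    induction hy using closure_induction with
    | mem x hx => exact hf1 x hx
    | one =>
      intro a _
      rw [commutatorElement_one_right]
      exact one_mem _
    | mul u v _ _ hu hv =>
      intro a ha
      have h1 : ⁅a, u * v⁆ = ⁅a, u⁆ * (u * ⁅a, v⁆ * u⁻¹) := by
        simp only [commutatorElement_def]; group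
      have h2 : u * ⁅a, v⁆ * u⁻¹ = ⁅a, v⁆ := by
        rw [mem_center_iff.1 (hv a ha) u]; group
      rw [h1, h2]
      exact mul_mem (hu a ha) (hv a ha)
    | inv u _ hu =>
      intro a ha
      have h1 : ⁅a, u⁻¹⁆ = u⁻¹ * (⁅a, u⁆)⁻¹ * u := by
        simp only [commutatorElement_def]; group
      have h2 : u⁻¹ * (⁅a, u⁆)⁻¹ * u = (⁅a, u⁆)⁻¹ := by
        rw [mem_center_iff.1 (inv_mem (hu a ha)) u⁻¹]; group
      rw [h1, h2]
      exact inv_mem (hu a ha)
  -- conjugation by an element of `M` on `A`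
  have hconj : ∀ u ∈ M, ∀ a ∈ A, u * a * u⁻¹ = (⁅a, u⁆)⁻¹ * a := by
    intro u _ a _
    rw [commutatorElement_inv, commutatorElement_def]
    group
  have hAn : ∀ g : G, ∀ u ∈ A, g * u * g⁻¹ ∈ A := fun g u hu =>
    Subgroup.Normal.conj_mem inferInstance u hu g
  have hswap : ∀ u ∈ M, ∀ v ∈ M, ∀ a ∈ A, u * (v * a * v⁻¹) * u⁻¹ = v * (u * a * u⁻¹) * v⁻¹ := by
    intro u hu v hv a ha
    rw [hconj v hv a ha, hconj u hu a ha]
    have h1 : u * ((⁅a, v⁆)⁻¹ * a) * u⁻¹ = (⁅a, v⁆)⁻¹ * (u * a * u⁻¹) := by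
      have h0 := mem_center_iff.1 (inv_mem (hf2 v hv a ha)) u
      rw [← mul_assoc, h0]; group
    have h2 : v * ((⁅a, u⁆)⁻¹ * a) * v⁻¹ = (⁅a, u⁆)⁻¹ * (v * a * v⁻¹) := by
      have h0 := mem_center_iff.1 (inv_mem (hf2 u hu a ha)) v
      rw [← mul_assoc, h0]; group
    rw [h1, h2, hconj v hv a ha, hconj u hu a ha, ← mul_assoc, ← mul_assoc,
      mem_center_iff.1 (inv_mem (hf2 u hu a ha)) (⁅a, v⁆)⁻¹]
  have hf3 : ∀ y ∈ M, ∀ z ∈ M, ⁅y, z⁆ ∈ A := by
    intro y hy z hz
    rw [← hCA, mem_centralizer_iff]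
    intro a ha
    have ha' : a ∈ A := ha
    set b := z⁻¹ * a * z with hb
    have hbA : b ∈ A := by
      have := hAn z⁻¹ a ha'
      simpa [hb] using this
    have h1 := hswap z hz y⁻¹ (inv_mem hy) b hbA
    have h2 : z * b * z⁻¹ = a := by rw [hb]; group
    rw [h2] at h1
    have h3 : ⁅y, z⁆ * a * (⁅y, z⁆)⁻¹ = a := by
      calc ⁅y, z⁆ * a * (⁅y, z⁆)⁻¹ = y * (z * (y⁻¹ * b * y⁻¹⁻¹) * z⁻¹) * y⁻¹ := by
            rw [hb]; simp only [commutatorElement_def]; group
        _ = y * (y⁻¹ * a * y⁻¹⁻¹) * y⁻¹ := by rw [h1]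
        _ = a := by group
    calc a * ⁅y, z⁆ = (⁅y, z⁆ * a * (⁅y, z⁆)⁻¹) * ⁅y, z⁆ := by rw [h3]
      _ = ⁅y, z⁆ * a := by group
  rw [Subgroup.eq_top_iff']
  intro u
  rw [Subgroup.mem_upperCentralSeries_succ_iff]
  intro v
  rw [Subgroup.mem_upperCentralSeries_succ_iff]
  intro w
  rw [Subgroup.upperCentralSeries_one, mem_center_iff]
  intro t
  apply Subtype.ext
  have h1 : ((⁅⁅u, v⁆, w⁆ : ↥M) : G) = ⁅⁅(u : G), (v : G)⁆, (w : G)⁆ := rfl
  have h2 : ⁅⁅(u : G), (v : G)⁆, (w : G)⁆ ∈ center G := hf2 w w.2 _ (hf3 u u.2 v v.2)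
  show ((t : G)) * ((⁅⁅u, v⁆, w⁆ : ↥M) : G) = ((⁅⁅u, v⁆, w⁆ : ↥M) : G) * (t : G)
  rw [h1]
  exact mem_center_iff.1 h2 _


/-- Let G be a finite group with a normal abelian subgroup A satisfying C_G(A) = A. Suppose some conjugacy class of G has size greater than 1, let m be the smallest such size, and let M be the subgroup generated by the elements whose class has size 1 or m. Then M is nilpotent of class at most 3. -/
theorem result {G : Type*} [Group G] [Finite G]
    (A : Subgroup G) [A.Normal] (hA : IsMulCommutative A) (hCA : Subgroup.centralizer (A : Set G) = A)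
    (m : ℕ) (hm1 : 1 < m) (hm : ∃ x : G, (Subgroup.centralizer ({x} : Set G)).index = m) (hmin : ∀ x : G, 1 < (Subgroup.centralizer ({x} : Set G)).index → m ≤ (Subgroup.centralizer ({x} : Set G)).index) :
    Subgroup.upperCentralSeries ↥(Subgroup.closure {x : G | (Subgroup.centralizer ({x} : Set G)).index = 1 ∨ (Subgroup.centralizer ({x} : Set G)).index = m}) 3 = ⊤ := by
  exact main_thm A hA hCA m hmin

end Cfsg.Agent.S4163
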