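import Mathlib
import Cfsg.Statements.S4168

set_option autoImplicit false
open Cfsg

namespace Cfsg.Agent.S4168

/-- Let L be a finite quasisimple group (perfect with L/Z(L) simple). Then every prime dividing the order of the centre Z(L) also divides the order of L/Z(L). -/
theorem result {L : Type*} [Group L] [Finite L] (hL : Cfsg.IsQuasisimple L)
    (p : ℕ) (hp : p.Prime) (hdiv : p ∣ Nat.card (Subgroup.center L)) : p ∣ (Subgroup.center L).index := by
  classical
  haveI : Fact p.Prime := ⟨hp⟩
  have hperf : commutator L = ⊤ := hL.1.commutator_eq_top
  obtain ⟨z, hz⟩ := exists_prime_orderOf_dvd_card' (G := Subgroup.center L) p hdiv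
  have hker : ∀ g : L, g ^ (Subgroup.center L).index = 1 := by
    intro g
    have hg : g ∈ commutator L := by rw [hperf]; trivial
    have h2 : commutator L ≤ (MonoidHom.transferCenterPow L).ker := by
      rw [commutator_def, Subgroup.commutator_le]
      intro a _ b _
      rw [MonoidHom.mem_ker, map_commutatorElement]
      apply commutatorElement_eq_one_iff_commute.mpr
      exact Subtype.ext (Subgroup.mem_center_iff.mp (MonoidHom.transferCenterPow L b).2 _)
    have h3 := h2 hg
    rw [MonoidHom.mem_ker] at h3
    have h4 := congrArg Subtype.val h3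
    rwa [MonoidHom.transferCenterPow_apply] at h4
  have h2 : orderOf (z : L) = p := by
    rw [Subgroup.orderOf_coe]; exact hz
  rw [← h2]
  exact orderOf_dvd_of_pow_eq_one (hker _)

end Cfsg.Agent.S4168
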