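import Cfsg.Statements.S4169

set_option autoImplicit false
open Cfsg

namespace Cfsg.Agent.S4169

open scoped commutatorElement

section
variable {P : Type*} [Group P]

lemma conj_central {z : P} (hz : z ∈ Subgroup.center P) (g : P) : g * z * g⁻¹ = z := by
  rw [Subgroup.mem_center_iff.mp hz g]; group

/-- elements whose commutator with `a` is central. -/
def Da (a : P) : Subgroup P where
  carrier := {h | ⁅a, h⁆ ∈ Subgroup.center P}
  one_mem' := by simp [commutatorElement_def]
  mul_mem' := by
    intro h k hh hk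
    simp only [Set.mem_ofPred_eq] at hh hk ⊢
    have e : ⁅a, h * k⁆ = ⁅a, h⁆ * (h * ⁅a, k⁆ * h⁻¹) := by
      simp only [commutatorElement_def]; group
    have hc : h * ⁅a, k⁆ * h⁻¹ = ⁅a, k⁆ := conj_central hk h
    rw [e, hc]; exact mul_mem hh hk
  inv_mem' := by
    intro h hh
    simp only [Set.mem_ofPred_eq] at hh ⊢
    have e : ⁅a, h⁻¹⁆ = h⁻¹ * ⁅a, h⁆⁻¹ * h := by
      simp only [commutatorElement_def]; group
    have hc : h⁻¹ * ⁅a, h⁆⁻¹ * h = ⁅a, h⁆⁻¹ := by
      have := conj_central (inv_mem hh) h⁻¹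
      rwa [inv_inv] at this
    rw [e, hc]; exact inv_mem hh

/-- the commutator homomorphism on `Da a`. -/
def fa (a : P) : Da a →* P where
  toFun h := ⁅a, (h : P)⁆
  map_one' := by simp [commutatorElement_def]
  map_mul' := by
    rintro ⟨h, hh⟩ ⟨k, hk⟩
    have hk' : ⁅a, k⁆ ∈ Subgroup.center P := hk
    have e : ⁅a, h * k⁆ = ⁅a, h⁆ * (h * ⁅a, k⁆ * h⁻¹) := by
      simp only [commutatorElement_def]; group
    have hc : h * ⁅a, k⁆ * h⁻¹ = ⁅a, k⁆ := conj_central hk' h
    show ⁅a, h * k⁆ = _
    rw [e, hc]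

lemma fa_apply (a : P) (h : Da a) : fa a h = ⁅a, (h : P)⁆ := rfl

lemma mem_centralizer_iff_comm (a h : P) :
    h ∈ Subgroup.centralizer ({a} : Set P) ↔ ⁅a, h⁆ = 1 := by
  rw [Subgroup.mem_centralizer_singleton_iff, commutatorElement_eq_one_iff_mul_comm]
  exact eq_comm

lemma cent_le_Da (a : P) : Subgroup.centralizer ({a} : Set P) ≤ Da a := by
  intro h hh
  have := (mem_centralizer_iff_comm a h).mp hh
  show ⁅a, h⁆ ∈ Subgroup.center P
  rw [this]; exact one_mem _

lemma ker_comp (a : P) (K : Subgroup P) (hK : K ≤ Da a) :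
    ((fa a).comp (Subgroup.inclusion hK)).ker = (Subgroup.centralizer ({a} : Set P)).subgroupOf K := by
  ext ⟨h, hh⟩
  simp only [MonoidHom.mem_ker, MonoidHom.comp_apply, Subgroup.mem_subgroupOf]
  rw [mem_centralizer_iff_comm]
  rfl

lemma relIndex_eq_card_range (a : P) (K : Subgroup P) (hK : K ≤ Da a) :
    (Subgroup.centralizer ({a} : Set P)).relIndex K
      = Nat.card ((fa a).comp (Subgroup.inclusion hK)).range := by
  rw [Subgroup.relIndex, ← ker_comp a K hK, Subgroup.index_ker]

/-- The key lemma. -/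
lemma key [Finite P] (m : ℕ)
    (h : ∀ x : P, (Subgroup.centralizer ({x} : Set P)).index = 1 ∨
      (Subgroup.centralizer ({x} : Set P)).index = m)
    (y g : P) (hu2 : ∀ k : P, ⁅⁅y, g⁆, k⁆ ∈ Subgroup.center P)
    (hu : ⁅y, g⁆ ∉ Subgroup.center P) (hm : 1 < m)
    (hy : y ∉ Subgroup.center P) :
    Subgroup.centralizer ({⁅y, g⁆} : Set P) ≤ Da y := by
  set u := ⁅y, g⁆ with hu_def
  have idx : ∀ x : P, x ∉ Subgroup.center P → (Subgroup.centralizer ({x} : Set P)).index = m := by
    intro x hx
    rcases h x with h1 | h1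
    · exfalso
      apply hx
      rw [Subgroup.index_eq_one] at h1
      rw [Subgroup.mem_center_iff]
      intro k
      have : k ∈ Subgroup.centralizer ({x} : Set P) := by rw [h1]; trivial
      exact Subgroup.mem_centralizer_singleton_iff.mp this
    · exact h1
  -- `u` is on top
  have hDu : Da y ≤ Da u := fun k _ => hu2 k
  have hrange : ((fa u).comp (Subgroup.inclusion hDu)).range ≤
      ((fa y).comp (Subgroup.inclusion (le_refl (Da y)))).range := by
    rintro _ ⟨⟨k, hk⟩, rfl⟩
    have hk1 : ⁅y, k⁆ ∈ Subgroup.center P := hk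
    have hk2 : ⁅u, k⁆ ∈ Subgroup.center P := hu2 k
    have e : ⁅y, g⁻¹ * k * g⁆ = ⁅y, k⁆ * ⁅u, k⁆⁻¹ := by
      have hc : g * ⁅y, g⁻¹ * k * g⁆ * g⁻¹ = ⁅y, k⁆ * ⁅u, k⁆⁻¹ := by
        have e1 : g * ⁅y, g⁻¹ * k * g⁆ * g⁻¹ = u⁻¹ * (y * k * y⁻¹ * k⁻¹) * k * u * k⁻¹ := by
          simp only [hu_def, commutatorElement_def]; group
        rw [e1]
        have e2 : y * k * y⁻¹ * k⁻¹ = ⁅y, k⁆ := rfl
        rw [e2]
        have e3 : u⁻¹ * ⁅y, k⁆ = ⁅y, k⁆ * u⁻¹ := (Subgroup.mem_center_iff.mp hk1 u⁻¹)
        rw [e3]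
        have e4 : k * u * k⁻¹ = ⁅u, k⁆⁻¹ * u := by
          simp only [commutatorElement_def]; group
        calc ⁅y, k⁆ * u⁻¹ * k * u * k⁻¹ = ⁅y, k⁆ * u⁻¹ * (k * u * k⁻¹) := by group
          _ = ⁅y, k⁆ * u⁻¹ * (⁅u, k⁆⁻¹ * u) := by rw [e4]
          _ = ⁅y, k⁆ * (u⁻¹ * ⁅u, k⁆⁻¹) * u := by group
          _ = ⁅y, k⁆ * (⁅u, k⁆⁻¹ * u⁻¹) * u := by
                rw [(Subgroup.mem_center_iff.mp (inv_mem hk2) u⁻¹)]
          _ = ⁅y, k⁆ * ⁅u, k⁆⁻¹ := by group
      have hz : ⁅y, k⁆ * ⁅u, k⁆⁻¹ ∈ Subgroup.center P := mul_mem hk1 (inv_mem hk2)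
      have : ⁅y, g⁻¹ * k * g⁆ = g⁻¹ * (⁅y, k⁆ * ⁅u, k⁆⁻¹) * g := by
        rw [← hc]; group
      have h7 := conj_central hz g⁻¹
      rw [inv_inv] at h7
      exact this.trans h7
    have hmem : g⁻¹ * k * g ∈ Da y := by
      show ⁅y, g⁻¹ * k * g⁆ ∈ Subgroup.center P
      rw [e]; exact mul_mem hk1 (inv_mem hk2)
    -- `⁅u,k⁆ = ⁅y,k⁆ * ⁅y,k'⁆⁻¹`
    refine ⟨⟨k, hk⟩ * (⟨g⁻¹ * k * g, hmem⟩ : Da y)⁻¹, ?_⟩
    simp only [MonoidHom.comp_apply, map_mul, map_inv, fa_apply, Subgroup.coe_inclusion]
    show ⁅y, k⁆ * (⁅y, g⁻¹ * k * g⁆)⁻¹ = ⁅u, k⁆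
    rw [e, mul_inv_rev, inv_inv, ← mul_assoc]
    have := conj_central hk2 ⁅y, k⁆
    exact this
  have hcard : Nat.card ((fa u).comp (Subgroup.inclusion hDu)).range ≤
      Nat.card ((fa y).comp (Subgroup.inclusion (le_refl (Da y)))).range :=
    Nat.card_le_card_of_injective _ (Subgroup.inclusion_injective hrange)
  rw [← relIndex_eq_card_range u (Da y) hDu, ← relIndex_eq_card_range y (Da y) (le_refl _)] at hcard
  have h1 : ((Subgroup.centralizer ({u} : Set P)) ⊓ Da y).index
      = (Subgroup.centralizer ({u} : Set P)).relIndex (Da y) * (Da y).index := by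
    rw [← Subgroup.inf_relIndex_right, Subgroup.relIndex_mul_index inf_le_right]
  have h2 : (Subgroup.centralizer ({y} : Set P)).relIndex (Da y) * (Da y).index = m := by
    rw [Subgroup.relIndex_mul_index (cent_le_Da y)]; exact idx y hy
  have hpos : (Da y).index ≠ 0 := Subgroup.index_ne_zero_of_finite
  have h3 : ((Subgroup.centralizer ({u} : Set P)) ⊓ Da y).index ≤ m := by
    rw [h1, ← h2]; exact Nat.mul_le_mul_right _ hcard
  have hum := idx u hu
  have h4 : ((Subgroup.centralizer ({u} : Set P)) ⊓ Da y).relIndex (Subgroup.centralizer ({u} : Set P))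
      * m = ((Subgroup.centralizer ({u} : Set P)) ⊓ Da y).index := by
    rw [← hum]; exact Subgroup.relIndex_mul_index inf_le_left
  have hmpos : 0 < m := by omega
  have h5 : ((Subgroup.centralizer ({u} : Set P)) ⊓ Da y).relIndex (Subgroup.centralizer ({u} : Set P)) = 1 := by
    have hne : ((Subgroup.centralizer ({u} : Set P)) ⊓ Da y).relIndex (Subgroup.centralizer ({u} : Set P)) ≠ 0 := by
      intro h0
      rw [h0, zero_mul] at h4
      exact Subgroup.index_ne_zero_of_finite h4.symm
    have : ((Subgroup.centralizer ({u} : Set P)) ⊓ Da y).relIndex (Subgroup.centralizer ({u} : Set P)) * m ≤ 1 * m := by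
      rw [h4, one_mul]; exact h3
    have := Nat.le_of_mul_le_mul_right this hmpos
    omega
  have h6 := Subgroup.relIndex_eq_one.mp h5
  exact fun x hx => (h6 hx).2

/-- Derived subgroup centralises second-centre elements. -/
lemma commutator_le_cent (u : P) (hu : ∀ k : P, ⁅u, k⁆ ∈ Subgroup.center P) :
    commutator P ≤ Subgroup.centralizer ({u} : Set P) := by
  rw [commutator_def, Subgroup.commutator_le]
  intro a _ b _
  rw [mem_centralizer_iff_comm]
  have e := map_commutatorElement (fa u) (⟨a, hu a⟩ : Da u) (⟨b, hu b⟩ : Da u)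
  have hc : Commute (fa u ⟨a, hu a⟩) (fa u ⟨b, hu b⟩) :=
    Subgroup.mem_center_iff.mp (hu b) (fa u ⟨a, hu a⟩)
  rw [commutatorElement_eq_one_iff_commute.mpr hc] at e
  exact e

/-- three subgroups modulo a normal subgroup. -/
lemma three_mod (A B C N : Subgroup P) [N.Normal]
    (h1 : ⁅⁅B, C⁆, A⁆ ≤ N) (h2 : ⁅⁅C, A⁆, B⁆ ≤ N) : ⁅⁅A, B⁆, C⁆ ≤ N := by
  have key : ∀ S : Subgroup P, S ≤ N ↔ S.map (QuotientGroup.mk' N) = ⊥ := by
    intro S
    rw [Subgroup.map_eq_bot_iff, QuotientGroup.ker_mk']
  rw [key] at h1 h2 ⊢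
  simp only [Subgroup.map_commutator] at h1 h2 ⊢
  exact Subgroup.commutator_commutator_eq_bot_of_rotate h1 h2

end

theorem result {P : Type*} [Group P] [Finite P] {p : ℕ} [Fact p.Prime] (hP : IsPGroup p P)
    (m : ℕ) (hm : 1 < m) (h : ∀ x : P, (Subgroup.centralizer ({x} : Set P)).index = 1 ∨ (Subgroup.centralizer ({x} : Set P)).index = m) :
    upperCentralSeries P 3 = ⊤ := by
  show Subgroup.upperCentralSeries P 3 = ⊤
  have hnil : Group.IsNilpotent P := hP.isNilpotent
  obtain ⟨n, hn⟩ := Subgroup.nilpotent_iff_lowerCentralSeries.mp hnil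
  obtain ⟨N, hN⟩ := hnil.nilpotent
  -- main claim
  have main : ∀ i : ℕ, ∀ y ∈ Subgroup.upperCentralSeries P i, ∀ c ∈ commutator P, ⁅y, c⁆ ∈ Subgroup.center P := by
    intro i
    induction i with
    | zero =>
      intro y hy c _
      have : y = 1 := by
        rw [Subgroup.upperCentralSeries_zero] at hy
        exact hy
      subst this
      simp [commutatorElement_def]
    | succ i ih =>
      -- descending induction on j
      have step : ∀ k j : ℕ, 1 ≤ j → n ≤ j + k → ∀ y ∈ Subgroup.upperCentralSeries P (i + 1),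
          ∀ c ∈ (⊤ : Subgroup P).lowerCentralSeries j, ⁅y, c⁆ ∈ Subgroup.center P := by
        intro k
        induction k with
        | zero =>
          intro j _ hjn y _ c hc
          have : (⊤ : Subgroup P).lowerCentralSeries j ≤ (⊤ : Subgroup P).lowerCentralSeries n :=
            Subgroup.lowerCentralSeries_antitone _ (by omega)
          have hc1 : c ∈ (⊤ : Subgroup P).lowerCentralSeries n := this hc
          rw [hn] at hc1
          have : c = 1 := by simpa using hc1
          subst this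
          simp [commutatorElement_def]
        | succ k ihk =>
          intro j hj hjn y hy c hc
          have hjle : (⊤ : Subgroup P).lowerCentralSeries j ≤ commutator P := by
            have : (⊤ : Subgroup P).lowerCentralSeries j ≤ (⊤ : Subgroup P).lowerCentralSeries 1 := Subgroup.lowerCentralSeries_antitone _ hj
            exact this
          -- three subgroups: ⁅y,c⁆ is in Z₂
          have h3 : ⁅⁅Subgroup.upperCentralSeries P (i + 1), (⊤ : Subgroup P).lowerCentralSeries j⁆, (⊤ : Subgroup P)⁆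
              ≤ Subgroup.center P := by
            apply three_mod
            · rw [Subgroup.commutator_le]
              intro a ha b hb
              have := ihk (j + 1) (by omega) (by omega) b hb a ha
              have e : ⁅a, b⁆ = ⁅b, a⁆⁻¹ := (commutatorElement_inv b a).symm
              rw [e]; exact inv_mem this
            · rw [Subgroup.commutator_le]
              intro a ha b hb
              have ha1 : a ∈ Subgroup.upperCentralSeries P i := by
                have hle : ⁅(⊤ : Subgroup P), Subgroup.upperCentralSeries P (i + 1)⁆ ≤ Subgroup.upperCentralSeries P i := by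
                  rw [Subgroup.commutator_le]
                  intro s _ t ht
                  have := (Subgroup.mem_upperCentralSeries_succ_iff).mp ht s
                  have e : ⁅s, t⁆ = ⁅t, s⁆⁻¹ := (commutatorElement_inv t s).symm
                  rw [e]; exact inv_mem this
                exact hle ha
              exact ih a ha1 b (hjle hb)
          have hz2 : ∀ k : P, ⁅⁅y, c⁆, k⁆ ∈ Subgroup.center P := by
            intro k
            exact h3 (Subgroup.commutator_mem_commutator
              (Subgroup.commutator_mem_commutator hy hc) trivial)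
          by_contra hnot
          have hyz : y ∉ Subgroup.center P := by
            intro hyc
            apply hnot
            have : ⁅y, c⁆ = 1 := commutatorElement_eq_one_iff_commute.mpr
              ((Subgroup.mem_center_iff.mp hyc c).symm)
            rw [this]; exact one_mem _
          have h5 := key m h y c hz2 hnot hm hyz
          have h6 := commutator_le_cent ⁅y, c⁆ hz2
          exact hnot (h5 (h6 (hjle hc)))
      intro y hy c hc
      refine step n 1 (le_refl _) (by omega) y hy c ?_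
      exact hc
  -- conclude
  have hall : ∀ y c : P, c ∈ commutator P → ⁅y, c⁆ ∈ Subgroup.center P := by
    intro y c hc
    exact main N y (by rw [hN]; trivial) c hc
  rw [eq_top_iff]
  intro x _
  rw [Subgroup.mem_upperCentralSeries_succ_iff]
  intro y
  rw [Subgroup.mem_upperCentralSeries_succ_iff]
  intro z
  rw [Subgroup.upperCentralSeries_one]
  have hc : ⁅x, y⁆ ∈ commutator P := by
    rw [commutator_def]
    exact Subgroup.commutator_mem_commutator trivial trivial
  have := hall z _ hc
  have e : ⁅⁅x, y⁆, z⁆ = ⁅z, ⁅x, y⁆⁆⁻¹ := (commutatorElement_inv z ⁅x, y⁆).symm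
  rw [e]; exact inv_mem this

end Cfsg.Agent.S4169
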