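import Mathlib
import Cfsg.Statements.S4170

set_option autoImplicit false
set_option linter.all false
open scoped Pointwise
open Cfsg

namespace Cfsg.Agent.S4170

theorem core {G Ω : Type*} [Group G] [Finite G] [MulAction G Ω] [Finite Ω] (p : ℕ) [Fact p.Prime]
    (P : Sylow p G) (x : Ω) (g₀ : G) (hg₀ : g₀ ∈ P) (hg₀x : g₀ • x ≠ x) :
    ∃ Δ₁ Δ₂ : Set Ω, Δ₁.Nonempty ∧ Δ₂.Nonempty ∧ Disjoint Δ₁ Δ₂ ∧
      p ∣ (MulAction.stabilizer G Δ₁ ⊓ MulAction.stabilizer G Δ₂).index := by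
  classical
  let Q : Subgroup G := (P : Subgroup G)
  let A : Set Ω := {y | ∃ c ∈ Q, c • y ≠ y}
  let orb : Ω → Set Ω := fun y => (fun c : Q => (c : G) • y) '' Set.univ
  have hfin : ∀ s : Set Ω, s.Finite := fun s => s.toFinite
  obtain ⟨u, hu, hmin⟩ : ∃ u ∈ A, ∀ y ∈ A, (orb u).ncard ≤ (orb y).ncard :=
    Set.exists_min_image A (fun y => (orb y).ncard) (hfin _) ⟨x, g₀, hg₀, hg₀x⟩
  obtain ⟨c₀, hc₀, hc₀u⟩ := hu
  have hself : ∀ y, y ∈ orb y := fun y => ⟨1, Set.mem_univ _, by simp⟩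
  have horb : ∀ {w y}, w ∈ orb y ↔ ∃ c ∈ Q, c • y = w := by
    intro w y
    constructor
    · rintro ⟨c, -, rfl⟩; exact ⟨c, c.2, rfl⟩
    · rintro ⟨c, hc, rfl⟩; exact ⟨⟨c, hc⟩, Set.mem_univ _, rfl⟩
  refine ⟨{u}, orb u \ {u}, ⟨u, rfl⟩, ⟨c₀ • u, horb.2 ⟨c₀, hc₀, rfl⟩, hc₀u⟩, ?_, ?_⟩
  · rw [Set.disjoint_singleton_left]; simp
  by_contra hnd
  let x₀ : Set Ω × Set Ω := ({u}, orb u \ {u})
  have hstab : MulAction.stabilizer G x₀ =
      MulAction.stabilizer G ({u} : Set Ω) ⊓ MulAction.stabilizer G (orb u \ {u}) := by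
    ext c
    simp [x₀, Prod.ext_iff, MulAction.mem_stabilizer_iff]
  rw [← hstab, MulAction.index_stabilizer] at hnd
  have hpQ : IsPGroup p Q := P.isPGroup'
  obtain ⟨⟨y, hy⟩, hfix⟩ := hpQ.nonempty_fixed_point_of_prime_not_dvd_card (MulAction.orbit G x₀)
    (by rwa [Nat.card_coe_set_eq])
  obtain ⟨g, rfl⟩ := hy
  have hfix1 : ∀ c ∈ Q, c • (g • ({u} : Set Ω)) = g • ({u} : Set Ω) ∧
      c • (g • (orb u \ {u})) = g • (orb u \ {u}) := by
    intro c hc
    have := hfix ⟨c, hc⟩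
    have h2 := congrArg (fun z : MulAction.orbit G x₀ => (z : Set Ω × Set Ω)) this
    simp only [Subgroup.smul_def, MulAction.orbit.coe_smul] at h2
    exact ⟨congrArg Prod.fst h2, congrArg Prod.snd h2⟩
  have hcard : (g • (orb u \ {u})).ncard < (orb u).ncard := by
    rw [Set.ncard_smul_set]
    exact Set.ncard_lt_ncard ⟨Set.diff_subset, fun h => by simpa using (h (hself u)).2⟩ (hfin _)
  -- Claim 1
  have claim1 : ∀ c ∈ Q, ∀ w ∈ orb u, c • (g • w) = g • w := by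
    intro c hc w hw
    by_cases hwu : w = u
    · subst hwu
      have := (hfix1 c hc).1
      simpa [Set.smul_set_singleton] using this
    · by_contra hne
      have hA : g • w ∈ A := ⟨c, hc, hne⟩
      have h1 := hmin _ hA
      have hsub : orb (g • w) ⊆ g • (orb u \ {u}) := by
        intro z hz
        obtain ⟨d, hd, rfl⟩ := horb.1 hz
        rw [← (hfix1 d hd).2]
        refine ⟨g • w, ?_, rfl⟩
        exact ⟨w, ⟨hw, hwu⟩, rfl⟩
      have h2 := Set.ncard_le_ncard hsub (hfin _)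
      omega
  -- Claim 2
  let H : Subgroup G := MulAction.stabilizer G (orb u)
  have hPH : (P : Subgroup G) ≤ H := by
    intro c hc
    rw [MulAction.mem_stabilizer_iff]
    ext z
    rw [Set.mem_smul_set_iff_inv_smul_mem, horb, horb]
    constructor
    · rintro ⟨d, hd, hdz⟩
      refine ⟨c * d, Q.mul_mem hc hd, ?_⟩
      rw [mul_smul, hdz, smul_inv_smul]
    · rintro ⟨d, hd, rfl⟩
      exact ⟨c⁻¹ * d, Q.mul_mem (Q.inv_mem hc) hd, by rw [mul_smul]⟩
  have hfix2 : ∀ c ∈ Q, ∀ w ∈ orb u, (g⁻¹ * c * g) • w = w := by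
    intro c hc w hw
    rw [mul_smul, mul_smul, claim1 c hc w hw, inv_smul_smul]
  have hP'H : ((g⁻¹ • P : Sylow p G) : Subgroup G) ≤ H := by
    intro d hd
    rw [Sylow.coe_subgroup_smul, Subgroup.mem_pointwise_smul_iff_inv_smul_mem] at hd
    have hd' : g * d * g⁻¹ ∈ Q := by
      simpa [MulAut.smul_def, MulAut.conj_apply] using hd
    have hdfix : ∀ w ∈ orb u, d • w = w := by
      intro w hw
      have := hfix2 _ hd' w hw
      have e : g⁻¹ * (g * d * g⁻¹) * g = d := by group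
      rwa [e] at this
    rw [MulAction.mem_stabilizer_iff]
    ext z
    rw [Set.mem_smul_set_iff_inv_smul_mem]
    constructor
    · intro hz
      have := hdfix _ hz
      rw [smul_inv_smul] at this
      rwa [← this] at hz
    · intro hz
      have h3 := hdfix _ hz
      have : d⁻¹ • z = z := by
        conv_lhs => rw [← h3]
        rw [inv_smul_smul]
      rw [this]; exact hz
  obtain ⟨h, hh⟩ := MulAction.exists_smul_eq H ((g⁻¹ • P : Sylow p G).subtype hP'H) (P.subtype hPH)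
  have hmem : (⟨c₀, hPH hc₀⟩ : H) ∈ ((P.subtype hPH : Sylow p H) : Subgroup H) := by
    rw [Sylow.coe_subtype, Subgroup.mem_subgroupOf]
    exact hc₀
  rw [← hh, Sylow.coe_subgroup_smul, Subgroup.mem_pointwise_smul_iff_inv_smul_mem,
    Sylow.coe_subtype, Subgroup.mem_subgroupOf, Sylow.coe_subgroup_smul,
    Subgroup.mem_pointwise_smul_iff_inv_smul_mem] at hmem
  have hd' : g * ((h : G)⁻¹ * c₀ * (h : G)) * g⁻¹ ∈ Q := by
    have h0 : g * ((h : G)⁻¹ * g⁻¹) * (g * c₀ * g⁻¹) * (g * (h : G) * g⁻¹) ∈ Q := by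
      simpa [MulAut.smul_def, MulAut.conj_apply] using hmem
    have e0 : g * ((h : G)⁻¹ * g⁻¹) * (g * c₀ * g⁻¹) * (g * (h : G) * g⁻¹)
        = g * ((h : G)⁻¹ * c₀ * (h : G)) * g⁻¹ := by group
    rwa [e0] at h0
  have hhu : (h : G)⁻¹ • u ∈ orb u := by
    have h1 : ((h⁻¹ : H) : G) ∈ MulAction.stabilizer G (orb u) := (h⁻¹ : H).2
    rw [MulAction.mem_stabilizer_iff] at h1
    have h4 : ((h⁻¹ : H) : G) • u ∈ ((h⁻¹ : H) : G) • orb u := ⟨u, hself u, rfl⟩
    rw [h1] at h4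
    simpa using h4
  have h5 := hfix2 _ hd' _ hhu
  have e : g⁻¹ * (g * ((h : G)⁻¹ * c₀ * (h : G)) * g⁻¹) * g = (h : G)⁻¹ * c₀ * (h : G) := by group
  rw [e, mul_smul, mul_smul, smul_inv_smul] at h5
  exact hc₀u (smul_left_cancel _ h5)

/-- Let p be an odd prime and G a nontrivial group of permutations of a finite set Ω that is generated by its elements of p-power order. Then Ω has two disjoint nonempty subsets Δ₁ and Δ₂ such that the index in G of the subgroup of elements mapping Δ₁ onto Δ₁ and Δ₂ onto Δ₂ (and hence also the complement of their union onto itself) is divisible by p. -/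
theorem result {Ω : Type*} [Fintype Ω] (p : ℕ) [Fact p.Prime] (hp : p ≠ 2) (G : Subgroup (Equiv.Perm Ω)) (hG : G ≠ ⊥) (hgen : Subgroup.closure {g : G | ∃ k : ℕ, orderOf g = p ^ k} = ⊤) :
    ∃ Δ₁ Δ₂ : Set Ω, Δ₁.Nonempty ∧ Δ₂.Nonempty ∧ Disjoint Δ₁ Δ₂ ∧ p ∣ (MulAction.stabilizer G Δ₁ ⊓ MulAction.stabilizer G Δ₂).index := by
  classical
  -- a nontrivial p-element
  obtain ⟨g, hgS, hg1⟩ : ∃ g : G, (∃ k : ℕ, orderOf g = p ^ k) ∧ g ≠ 1 := by
    by_contra hcon
    push Not at hcon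
    have hle : Subgroup.closure {g : G | ∃ k : ℕ, orderOf g = p ^ k} ≤ ⊥ := by
      rw [Subgroup.closure_le]
      intro g hg
      simpa using hcon g hg
    rw [hgen, top_le_iff] at hle
    apply hG
    rw [Subgroup.eq_bot_iff_forall]
    intro x hx
    have : (⟨x, hx⟩ : G) ∈ (⊥ : Subgroup G) := by rw [hle]; trivial
    simpa using this
  obtain ⟨k, hk⟩ := hgS
  have hk0 : k ≠ 0 := by
    rintro rfl
    simp at hk
    exact hg1 hk
  have hdvd : p ∣ Nat.card G := by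
    have h1 : orderOf g ∣ Nat.card G := orderOf_dvd_natCard g
    rw [hk] at h1
    exact (dvd_pow_self p hk0).trans h1
  obtain P : Sylow p G := default
  have hdvdP : p ∣ Nat.card P := Sylow.dvd_card_of_dvd_card P hdvd
  obtain ⟨c, hc⟩ := exists_prime_orderOf_dvd_card' p hdvdP
  have hc1 : (c : G) ≠ 1 := by
    intro h
    have h2 : c = 1 := Subtype.ext h
    rw [h2, orderOf_one] at hc
    exact (Fact.out : p.Prime).one_lt.ne' hc.symm
  have hc2 : ((c : G) : Equiv.Perm Ω) ≠ 1 := by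
    intro h
    exact hc1 (Subtype.ext h)
  obtain ⟨x, hx⟩ : ∃ x, ((c : G) : Equiv.Perm Ω) x ≠ x := by
    by_contra hcon
    push Not at hcon
    exact hc2 (Equiv.ext hcon)
  exact core p P x c c.2 hx

end Cfsg.Agent.S4170
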