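import Mathlib
import Cfsg.Statements.S4176
import Cfsg.Agent.Lib.OrbitFix

set_option autoImplicit false
open Cfsg
open Cfsg.Agent.Lib.OrbitFix

namespace Cfsg.Agent.S4176

/-- `|N' : A ∩ N'|` divides `|G : A|` when `N'` is normal. -/
theorem relIndex_dvd_index_of_normal_right {H : Type*} [Group H] [Finite H] (A N' : Subgroup H)
    [N'.Normal] : A.relIndex N' ∣ A.index := by
  have e1 : (A ⊓ N').relIndex N' * N'.index = (A ⊓ N').index :=
    Subgroup.relIndex_mul_index inf_le_right
  have e2 : (A ⊓ N').relIndex A * A.index = (A ⊓ N').index :=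
    Subgroup.relIndex_mul_index inf_le_left
  rw [Subgroup.inf_relIndex_right] at e1
  rw [Subgroup.inf_relIndex_left] at e2
  obtain ⟨w, hw⟩ : N'.relIndex A ∣ N'.index := Subgroup.relIndex_dvd_index_of_normal _ _
  have hr2 : 0 < N'.relIndex A := Nat.pos_of_ne_zero (by
    intro h0
    rw [h0, zero_mul] at hw
    exact Subgroup.index_ne_zero_of_finite hw)
  rw [hw] at e1
  rw [← e2] at e1
  refine ⟨w, ?_⟩
  apply Nat.eq_of_mul_eq_mul_left hr2
  rw [← e1]
  ring

/-- Group lemma for the `p`-step. -/
theorem mul_of_p_index {H : Type*} [Group H] [Finite H] (p : ℕ) (hp : p.Prime) (N N' A : Subgroup H)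
    [N.Normal] [N'.Normal] (m : ℕ) (ht : N.relIndex N' = p ^ m)
    (hA : A.index.Coprime p) (g : H) (hg : g ∈ N') : ∃ n ∈ N, ∃ q ∈ A, g = n * q := by
  let S : Subgroup H := (A ⊓ N') ⊔ N
  have hSle : N' ≤ S := by
    rw [← Subgroup.relIndex_eq_one]
    have h1 : S.relIndex N' ∣ p ^ m := by
      rw [← ht]
      exact Subgroup.relIndex_dvd_of_le_left _ le_sup_right
    have h2 : S.relIndex N' ∣ A.index := by
      have h3 : S.relIndex N' ∣ (A ⊓ N').relIndex N' :=
        Subgroup.relIndex_dvd_of_le_left _ le_sup_left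
      rw [Subgroup.inf_relIndex_right] at h3
      exact h3.trans (relIndex_dvd_index_of_normal_right A N')
    obtain ⟨j, -, hj⟩ := (Nat.dvd_prime_pow hp).mp h1
    rcases Nat.eq_zero_or_pos j with rfl | hj0
    · simpa using hj
    · exfalso
      rw [hj] at h2
      have hpd : p ∣ A.index := (dvd_pow_self p hj0.ne').trans h2
      have := Nat.dvd_gcd hpd dvd_rfl
      rw [hA] at this
      exact hp.one_lt.ne' (Nat.dvd_one.mp this)
  have hgS := hSle hg
  have hgS' : g ∈ ((A ⊓ N') ⊔ N : Subgroup H) := hgS
  rw [Subgroup.mem_sup_of_normal_right] at hgS'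
  obtain ⟨q, hq, n, hn, rfl⟩ := hgS'
  refine ⟨q * n * q⁻¹, ?_, q, hq.1, by group⟩
  exact Subgroup.Normal.conj_mem inferInstance n hn q

/-- index of a stabilizer of a point of the orbit -/
theorem index_stab_conj {k V H : Type*} [Field k] [AddCommGroup V] [Module k V] [Group H] [Finite H]
    (ρ : Representation k H V) (a u : V) (hu : u ∈ orb ρ a) :
    (stab ρ u).index = (stab ρ a).index := by
  rw [mem_orb] at hu
  obtain ⟨h, rfl⟩ := hu
  rw [← card_orbit, ← card_orbit]
  have hset : {v : V | ∃ g : H, ρ g (ρ h a) = v} = {v : V | ∃ g : H, ρ g a = v} := by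
    ext v
    constructor
    · rintro ⟨g, rfl⟩
      refine ⟨g * h, ?_⟩
      simp
    · rintro ⟨g, rfl⟩
      refine ⟨g * h⁻¹, ?_⟩
      rw [map_mul, Module.End.mul_apply, rho_inv_apply]
  rw [hset]

/-- The induction along the chain of a `p`-soluble group. -/
theorem fixed_multiple_chain {k V H : Type*} [Field k] (p : ℕ) [Fact p.Prime] [CharP k p]
    [AddCommGroup V] [Module k V] [Group H] [Finite H] (hsol : Cfsg.IsPSolvable p H)
    (ρ : Representation k H V) (a : V)
    (hspan : Submodule.span k {u : V | ∃ h : H, ρ h a = u} = ⊤)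
    (hcop : (stab ρ a).index.Coprime p) (x : V) (hx : ∀ g, ρ g x = x) :
    ∃ c : k, x = c • ∑ u ∈ orb ρ a, u := by
  classical
  have hp : p.Prime := Fact.out
  obtain ⟨n, C, hC0, hCn, hmono, hnorm, hfac⟩ := hsol
  have key : ∀ (i : ℕ) (hi : i ≤ n) (y : V), (∀ g ∈ C ⟨i, Nat.lt_succ_of_le hi⟩, ρ g y = y) →
      ∃ f : V → k, (∀ g ∈ C ⟨i, Nat.lt_succ_of_le hi⟩, ∀ u : V, f (ρ g u) = f u) ∧
        ∑ u ∈ orb ρ a, f u • u = y := by
    intro i
    induction i with
    | zero =>
      intro hi y _
      obtain ⟨f, hf⟩ := exists_base ρ a hspan y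
      refine ⟨f, ?_, hf⟩
      intro g hg u
      have h0 : (⟨0, Nat.lt_succ_of_le hi⟩ : Fin (n + 1)) = 0 := rfl
      rw [h0, hC0, Subgroup.mem_bot] at hg
      subst hg
      simp
    | succ i ih =>
      intro hi y hy
      have hin : i < n := hi
      let j : Fin n := ⟨i, hin⟩
      have hcs : j.castSucc = ⟨i, Nat.lt_succ_of_le hin.le⟩ := rfl
      have hsu : j.succ = ⟨i + 1, Nat.lt_succ_of_le hi⟩ := rfl
      have hle : C j.castSucc ≤ C j.succ := hmono (Fin.castSucc_le_succ j)
      have hy' : ∀ g ∈ C j.castSucc, ρ g y = y := fun g hg => hy g (by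
        rw [← hsu]; exact hle hg)
      obtain ⟨f, hf, hfy⟩ := ih hin.le y (by rw [← hcs]; exact hy')
      rw [← hcs] at hf
      rw [← hsu] at hy ⊢
      haveI := hnorm j.castSucc
      haveI := hnorm j.succ
      rcases hfac j with ⟨m, hm⟩ | hm
      · -- p-step
        let f' : V → k := fun u => if u ∈ orb ρ a then f u else 0
        refine ⟨f', ?_, ?_⟩
        · intro g hg u
          by_cases hu : u ∈ orb ρ a
          · have hgu : ρ g u ∈ orb ρ a := smul_mem_orb ρ a u g hu
            simp only [f', hu, hgu, if_true]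
            have hco : (stab ρ u).index.Coprime p := by
              rw [index_stab_conj ρ a u hu]; exact hcop
            obtain ⟨n', hn', q, hq, rfl⟩ := mul_of_p_index p hp _ _ (stab ρ u) m hm hco g hg
            rw [map_mul, Module.End.mul_apply, (mem_stab ρ u q).mp hq]
            exact hf n' hn' u
          · have hgu : ρ g u ∉ orb ρ a := by
              intro h
              apply hu
              have := smul_mem_orb ρ a _ g⁻¹ h
              rwa [rho_inv_apply] at this
            simp only [f', hu, hgu, if_false]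
        · rw [← hfy]
          refine Finset.sum_congr rfl (fun u hu => ?_)
          simp only [f', hu, if_true]
      · -- coprime step
        have ht : ((((C j.castSucc).relIndex (C j.succ) : ℕ)) : k) ≠ 0 := by
          intro h0
          rw [CharP.cast_eq_zero_iff k p] at h0
          have := Nat.dvd_gcd h0 dvd_rfl
          rw [hm] at this
          exact hp.one_lt.ne' (Nat.dvd_one.mp this)
        exact step ρ a _ _ ht y hy f hf hfy
  have htop : (⟨n, Nat.lt_succ_of_le le_rfl⟩ : Fin (n + 1)) = Fin.last n := rfl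
  obtain ⟨f, hf, hfx⟩ := key n le_rfl x (fun g _ => hx g)
  rw [htop, hCn] at hf
  refine ⟨f a, eq_smul_orb_sum ρ a f x hfx ?_⟩
  intro u hu
  rw [mem_orb] at hu
  obtain ⟨g, rfl⟩ := hu
  exact hf g trivial a

/-- `p`-solubility passes to subgroups. -/
theorem isPSolvable_subgroup {H : Type*} [Group H] [Finite H] (p : ℕ) (hp : p.Prime)
    (hsol : Cfsg.IsPSolvable p H) (B : Subgroup H) : Cfsg.IsPSolvable p B := by
  obtain ⟨n, C, hC0, hCn, hmono, hnorm, hfac⟩ := hsol
  refine ⟨n, fun i => (C i).subgroupOf B, ?_, ?_, ?_, ?_, ?_⟩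
  · simp [hC0]
  · simp [hCn]
  · intro i j hij x hx
    exact hmono hij hx
  · intro i
    haveI := hnorm i
    infer_instance
  · intro i
    have hd : ((C i.castSucc).subgroupOf B).relIndex ((C i.succ).subgroupOf B) ∣
        (C i.castSucc).relIndex (C i.succ) := by
      have e1 : ((C i.castSucc).subgroupOf B).relIndex ((C i.succ).subgroupOf B) =
          (C i.castSucc).relIndex (C i.succ ⊓ B) := by
        rw [← Subgroup.inf_subgroupOf_right (C i.succ) B,
          Subgroup.relIndex_subgroupOf inf_le_right]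
      have e2 : (C i.castSucc).relIndex (C i.succ ⊓ B) =
          ((C i.castSucc).subgroupOf (C i.succ)).relIndex ((C i.succ ⊓ B).subgroupOf (C i.succ)) :=
        (Subgroup.relIndex_subgroupOf inf_le_left).symm
      rw [e1, e2]
      haveI := hnorm i.castSucc
      exact Subgroup.relIndex_dvd_index_of_normal _ _
    rcases hfac i with ⟨m, hm⟩ | hm
    · left
      rw [hm] at hd
      obtain ⟨j, -, hj⟩ := (Nat.dvd_prime_pow hp).mp hd
      exact ⟨j, hj⟩
    · right
      exact Nat.Coprime.coprime_dvd_left hd hm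

/-- Let k be a field of prime characteristic p, H a finite p-soluble group and ρ a k-linear representation of H on V. Let a be a vector that is fixed by some Sylow p-subgroup of H and whose H-orbit spans V. Then the space of H-fixed vectors has dimension at most 1, and every vector b whose H-orbit has size coprime to the size of the orbit of a is fixed by H. -/
theorem result {k V H : Type*} [Field k] (p : ℕ) [Fact p.Prime] [CharP k p] [AddCommGroup V] [Module k V]
    [Group H] [Finite H] (hsol : Cfsg.IsPSolvable p H) (ρ : Representation k H V) (a : V)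
    (hfix : ∃ P : Sylow p H, ∀ x : H, x ∈ (P : Subgroup H) → ρ x a = a)
    (hspan : Submodule.span k {u : V | ∃ h : H, ρ h a = u} = ⊤) :
    Module.finrank k ρ.invariants ≤ 1 ∧
    ∀ b : V, (Nat.card {u : V | ∃ h : H, ρ h a = u}).Coprime (Nat.card {u : V | ∃ h : H, ρ h b = u}) → ∀ h : H, ρ h b = b := by
  classical
  have hp : p.Prime := Fact.out
  have hcop : (stab ρ a).index.Coprime p := by
    obtain ⟨P, hP⟩ := hfix
    have hle : (P : Subgroup H) ≤ stab ρ a := fun x hx => hP x hx
    have h1 : (stab ρ a).index ∣ (P : Subgroup H).index := Subgroup.index_dvd_of_le hle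
    have h2 : ¬ p ∣ (stab ρ a).index := fun h => P.not_dvd_index (h.trans h1)
    exact ((Nat.Prime.coprime_iff_not_dvd hp).mpr h2).symm
  set e := ∑ u ∈ orb ρ a, u with he
  constructor
  · have hle : ρ.invariants ≤ Submodule.span k {e} := by
      intro x hx
      rw [Representation.mem_invariants] at hx
      obtain ⟨c, hc⟩ := fixed_multiple_chain p hsol ρ a hspan hcop x hx
      rw [hc]
      exact Submodule.smul_mem _ _ (Submodule.mem_span_singleton_self e)
    have h1 : Module.finrank k (Submodule.span k {e}) ≤ 1 := by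
      have := finrank_span_le_card (R := k) ({e} : Set V)
      simpa using this
    exact (Submodule.finrank_mono hle).trans h1
  · intro b hcopb h
    rw [card_orbit, card_orbit] at hcopb
    let B : Subgroup H := stab ρ b
    let ρB : Representation k B V := ρ.comp B.subtype
    have hρB : ∀ (g : B) (v : V), ρB g v = ρ (g : H) v := fun _ _ => rfl
    have horb : {u : V | ∃ h : B, ρB h a = u} = {u : V | ∃ h : H, ρ h a = u} := by
      ext u
      constructor
      · rintro ⟨g, rfl⟩
        exact ⟨g, rfl⟩
      · rintro ⟨g, rfl⟩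
        obtain ⟨b', hb', a', ha', rfl⟩ := exists_mul_of_coprime (stab ρ a) B hcopb g
        refine ⟨⟨b', hb'⟩, ?_⟩
        rw [hρB, map_mul, Module.End.mul_apply, (mem_stab ρ a a').mp ha']
    have hspanB : Submodule.span k {u : V | ∃ h : B, ρB h a = u} = ⊤ := by
      rw [horb]; exact hspan
    have hcopB : (stab ρB a).index.Coprime p := by
      rw [← card_orbit, horb, card_orbit]
      exact hcop
    have horbB : orb ρB a = orb ρ a := by
      ext u
      rw [mem_orb, mem_orb]
      have := Set.ext_iff.mp horb u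
      exact this
    obtain ⟨c, hc⟩ := fixed_multiple_chain p (isPSolvable_subgroup p hp hsol B) ρB a hspanB hcopB b
      (fun g => g.2)
    rw [horbB] at hc
    rw [hc, map_smul, orb_sum_fixed]

end Cfsg.Agent.S4176
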