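import Mathlib
import Cfsg.Statements.S4177
import Cfsg.Agent.Lib.OrbitFix

set_option autoImplicit false
open Cfsg
open Cfsg.Agent.Lib.OrbitFix

namespace Cfsg.Agent.S4177

/-- Let k be a field whose characteristic does not divide the order of the finite group H (for instance a field of characteristic zero), and ρ a k-linear representation of H on V. Let a be a vector whose H-orbit spans V. Then the space of H-fixed vectors has dimension at most 1, and every vector b whose H-orbit has size coprime to the size of the orbit of a is fixed by H. -/
theorem result {k V H : Type*} [Field k] [AddCommGroup V] [Module k V] [Group H] [Finite H]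
    (hchar : ¬ ringChar k ∣ Nat.card H) (ρ : Representation k H V) (a : V)
    (hspan : Submodule.span k {u : V | ∃ h : H, ρ h a = u} = ⊤) :
    Module.finrank k ρ.invariants ≤ 1 ∧
    ∀ b : V, (Nat.card {u : V | ∃ h : H, ρ h a = u}).Coprime (Nat.card {u : V | ∃ h : H, ρ h b = u}) → ∀ h : H, ρ h b = b := by
  classical
  have hcast : ∀ B : Subgroup H, ((Nat.card B : ℕ) : k) ≠ 0 := by
    intro B h0
    rw [CharP.cast_eq_zero_iff k (ringChar k)] at h0
    exact hchar (h0.trans (Subgroup.card_subgroup_dvd_card B))
  set e := ∑ u ∈ orb ρ a, u with he
  constructor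
  · have hle : ρ.invariants ≤ Submodule.span k {e} := by
      intro x hx
      rw [Representation.mem_invariants] at hx
      obtain ⟨c, hc⟩ := fixed_multiple ρ a hspan ⊤ (hcast ⊤)
        (fun g => ⟨g, trivial, 1, Subgroup.one_mem _, by simp⟩) x (fun g _ => hx g)
      rw [hc]
      exact Submodule.smul_mem _ _ (Submodule.mem_span_singleton_self e)
    have h1 : Module.finrank k (Submodule.span k {e}) ≤ 1 := by
      have := finrank_span_le_card (R := k) ({e} : Set V)
      simpa using this
    exact (Submodule.finrank_mono hle).trans h1
  · intro b hcop h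
    rw [card_orbit, card_orbit] at hcop
    obtain ⟨c, hc⟩ := fixed_multiple ρ a hspan (stab ρ b) (hcast _)
      (fun g => by
        obtain ⟨b', hb', a', ha', hg⟩ := exists_mul_of_coprime (stab ρ a) (stab ρ b) hcop g
        exact ⟨b', hb', a', ha', hg⟩) b (fun g hg => hg)
    rw [hc, map_smul, orb_sum_fixed]

end Cfsg.Agent.S4177
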