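import Mathlib
import Cfsg.Statements.S4178

set_option autoImplicit false
open Cfsg

namespace Cfsg.Agent.S4178

lemma index_le {H Ω : Type*} [Group H] [Finite Ω] (R : Subgroup H) (f : H → Ω)
    (hf : ∀ a b, f a = f b → a⁻¹ * b ∈ R) : R.index ≤ Nat.card Ω := by
  classical
  unfold Subgroup.index
  refine Nat.card_le_card_of_injective (fun q : H ⧸ R => f (Quotient.out q)) ?_
  intro x y hxy
  have := hf _ _ hxy
  have h2 : (Quotient.out x : H) ⁻¹ * Quotient.out y ∈ R := this
  have h3 : ((Quotient.out x : H) : H ⧸ R) = ((Quotient.out y : H) : H ⧸ R) :=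
    QuotientGroup.eq.mpr h2
  simpa using h3

lemma card_nonzero {F V : Type*} [Field F] [Fintype F] [AddCommGroup V] [Module F V]
    [FiniteDimensional F V] :
    Nat.card {v : V // v ≠ 0} = Fintype.card F ^ Module.finrank F V - 1 := by
  classical
  haveI : Finite V := Module.finite_of_finite F
  haveI : Fintype V := Fintype.ofFinite V
  rw [Nat.card_eq_fintype_card, Fintype.card_subtype_compl, Fintype.card_subtype_eq,
    Module.card_eq_pow_finrank (K := F) (V := V)]

theorem result {F V : Type*} [Field F] [Fintype F] [AddCommGroup V] [Module F V] [FiniteDimensional F V] [Nontrivial V]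
    (H : Subgroup (V ≃ₗ[F] V)) :
    (Subgroup.closure {h : ↥H | ∃ v : V, v ≠ 0 ∧ (h : V ≃ₗ[F] V) v = v}).index ≤ Fintype.card F ^ Module.finrank F V - 1 ∧
    ((∃ W : Submodule F V, W ≠ ⊥ ∧ W ≠ ⊤ ∧ ∀ h ∈ H, ∀ w ∈ W, h w ∈ W) →
      ((Subgroup.closure {h : ↥H | ∃ v : V, v ≠ 0 ∧ (h : V ≃ₗ[F] V) v = v}).index : ℝ) ≤ Real.sqrt ((Fintype.card F : ℝ) ^ Module.finrank F V) - 1) := by
  classical
  haveI hVfin : Finite V := Module.finite_of_finite F
  set R := Subgroup.closure {h : ↥H | ∃ v : V, v ≠ 0 ∧ (h : V ≃ₗ[F] V) v = v} with hR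
  have mem_R : ∀ g : ↥H, ∀ v : V, v ≠ 0 → (g : V ≃ₗ[F] V) v = v → g ∈ R := fun g v hv hgv =>
    Subgroup.subset_closure ⟨v, hv, hgv⟩
  -- a handy fact
  have key : ∀ (a b : ↥H) (v : V), v ≠ 0 → (a : V ≃ₗ[F] V) v = (b : V ≃ₗ[F] V) v → a⁻¹ * b ∈ R := by
    intro a b v hv hab
    apply mem_R _ v hv
    have : ((a⁻¹ * b : ↥H) : V ≃ₗ[F] V) v = (a : V ≃ₗ[F] V)⁻¹ ((b : V ≃ₗ[F] V) v) := rfl
    rw [this, ← hab]
    exact (a : V ≃ₗ[F] V).symm_apply_apply v
  have hq1 : 1 ≤ Fintype.card F := Fintype.card_pos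
  refine ⟨?_, ?_⟩
  · -- first part
    obtain ⟨v, hv⟩ := exists_ne (0 : V)
    rw [← card_nonzero]
    refine index_le R (fun h => ⟨(h : V ≃ₗ[F] V) v, by
      simpa using hv⟩) ?_
    intro a b hab
    exact key a b v hv (congrArg Subtype.val hab)
  · rintro ⟨W, hW0, hWT, hWinv⟩
    -- reduction to numeric bound
    suffices h : ∃ m : ℕ, 2 * m ≤ Module.finrank F V ∧ R.index ≤ Fintype.card F ^ m - 1 by
      obtain ⟨m, hm, hidx⟩ := h
      have h1 : 1 ≤ Fintype.card F ^ m := Nat.one_le_pow _ _ hq1
      have h2 : (R.index : ℝ) + 1 ≤ (Fintype.card F : ℝ) ^ m := by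
        have : R.index + 1 ≤ Fintype.card F ^ m := by omega
        exact_mod_cast this
      have hq : (1 : ℝ) ≤ (Fintype.card F : ℝ) := by exact_mod_cast hq1
      have h3 : (Fintype.card F : ℝ) ^ m ≤ Real.sqrt ((Fintype.card F : ℝ) ^ Module.finrank F V) := by
        apply Real.le_sqrt_of_sq_le
        rw [← pow_mul]
        apply pow_le_pow_right₀ hq
        omega
      linarith
    have hsum := Submodule.finrank_quotient_add_finrank W
    by_cases hcase : 2 * Module.finrank F W ≤ Module.finrank F V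
    · -- use W
      refine ⟨Module.finrank F W, hcase, ?_⟩
      obtain ⟨w, hw, hw0⟩ := W.ne_bot_iff.mp hW0
      rw [← card_nonzero (F := F) (V := W)]
      refine index_le R (fun h => ⟨⟨(h : V ≃ₗ[F] V) w, hWinv _ h.2 w hw⟩, ?_⟩) ?_
      · intro h0
        have h00 : (h : V ≃ₗ[F] V) w = 0 := congrArg Subtype.val h0
        exact hw0 (by simpa using h00)
      · intro a b hab
        have h1 := congrArg (fun x => ((x : W) : V)) (congrArg Subtype.val hab)
        exact key a b w hw0 h1
    · -- use V ⧸ W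
      refine ⟨Module.finrank F (V ⧸ W), by omega, ?_⟩
      rw [← card_nonzero (F := F) (V := V ⧸ W)]
      -- choose v outside W
      obtain ⟨v, hv⟩ : ∃ v : V, v ∉ W := by
        by_contra hcon
        push Not at hcon
        exact hWT (eq_top_iff.mpr fun x _ => hcon x)
      have hv0 : (W.mkQ v) ≠ 0 := by
        simpa [Submodule.Quotient.mk_eq_zero] using hv
      haveI : Finite (V ⧸ W) := Module.finite_of_finite F
      refine index_le R (fun h => ⟨W.mkQ ((h : V ≃ₗ[F] V) v), ?_⟩) ?_
      · intro h0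
        -- (h v) ∈ W implies v ∈ W : h acts bijectively on W
        have hmem : (h : V ≃ₗ[F] V) v ∈ W := by
          simpa [Submodule.Quotient.mk_eq_zero] using h0
        -- h⁻¹ preserves W
        have : (h⁻¹ : ↥H).1 ((h : V ≃ₗ[F] V) v) ∈ W := hWinv _ (h⁻¹).2 _ hmem
        have h5 : (h⁻¹ : ↥H).1 ((h : V ≃ₗ[F] V) v) = v :=
          (h : V ≃ₗ[F] V).symm_apply_apply v
        rw [h5] at this
        exact hv this
      · intro a b hab
        have hab' : W.mkQ ((a : V ≃ₗ[F] V) v) = W.mkQ ((b : V ≃ₗ[F] V) v) := congrArg Subtype.val hab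
        set g : ↥H := a⁻¹ * b with hg
        -- g v - v ∈ W
        have hgv : (g : V ≃ₗ[F] V) v - v ∈ W := by
          have h1 : (b : V ≃ₗ[F] V) v - (a : V ≃ₗ[F] V) v ∈ W := by
            have := (Submodule.Quotient.eq W).mp hab'.symm
            simpa using this
          have h2 : (a⁻¹ : ↥H).1 ((b : V ≃ₗ[F] V) v - (a : V ≃ₗ[F] V) v) ∈ W :=
            hWinv _ (a⁻¹).2 _ h1
          have h3 : (a⁻¹ : ↥H).1 ((b : V ≃ₗ[F] V) v - (a : V ≃ₗ[F] V) v) =
              (g : V ≃ₗ[F] V) v - v := by
            rw [map_sub]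
            congr 1
            exact (a : V ≃ₗ[F] V).symm_apply_apply v
          rwa [h3] at h2
        -- the map g - 1
        let T : V →ₗ[F] V := ((g : V ≃ₗ[F] V) : V →ₗ[F] V) - LinearMap.id
        have hTv : ∀ x, T x = (g : V ≃ₗ[F] V) x - x := fun x => rfl
        by_contra hnot
        -- T is injective since g ∉ R
        have hinj : Function.Injective T := by
          rw [← LinearMap.ker_eq_bot, LinearMap.ker_eq_bot']
          intro x hx
          by_contra hx0
          apply hnot
          apply mem_R g x hx0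
          have : (g : V ≃ₗ[F] V) x - x = 0 := hx
          exact sub_eq_zero.mp this
        -- restrict T to W : surjective by finiteness
        have hTW : ∀ x ∈ W, T x ∈ W := by
          intro x hx
          rw [hTv]
          exact W.sub_mem (hWinv _ g.2 x hx) hx
        haveI : Finite W := inferInstance
        let TW : W → W := fun x => ⟨T x, hTW x x.2⟩
        have hTWinj : Function.Injective TW := by
          intro x y hxy
          apply Subtype.ext
          exact hinj (congrArg Subtype.val hxy)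
        have hTWsurj : Function.Surjective TW := Finite.surjective_of_injective hTWinj
        obtain ⟨y, hy⟩ := hTWsurj ⟨T v, hgv⟩
        have : T y = T v := congrArg Subtype.val hy
        have hyv := hinj this
        exact hv (hyv ▸ y.2)
  
end Cfsg.Agent.S4178
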