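import Mathlib
import Cfsg.Agent.Lib.SylowFix
import Cfsg.Statements.S4181
-- import your own Cfsg.Agent.* helpers here

set_option autoImplicit false
open Cfsg

namespace Cfsg.Agent.S4181

open Cfsg.Agent.Lib.SylowFix
open scoped Classical

private lemma fixes_coset_iff {G : Type*} [Group G] [Finite G] (H Q : Subgroup G) (g : G) :
    fixes Q ((g : G ⧸ H)) ↔ ∀ q ∈ Q, g⁻¹ * q * g ∈ H := by
  constructor
  · intro h q hq
    have h1 := h q hq
    have h2 : ((q * g : G) : G ⧸ H) = (g : G ⧸ H) := h1
    have h3 := QuotientGroup.eq.1 h2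
    have h4 : (q * g)⁻¹ * g = g⁻¹ * q⁻¹ * g := by group
    rw [h4] at h3
    have h5 := H.inv_mem h3
    have h6 : (g⁻¹ * q⁻¹ * g)⁻¹ = g⁻¹ * q * g := by group
    rwa [h6] at h5
  · intro h q hq
    have h3 := H.inv_mem (h q hq)
    have h6 : (g⁻¹ * q * g)⁻¹ = (q * g)⁻¹ * g := by group
    rw [h6] at h3
    show ((q * g : G) : G ⧸ H) = (g : G ⧸ H)
    exact QuotientGroup.eq.2 h3

private lemma coe_smul_sylow {G : Type*} [Group G] [Finite G] {p : ℕ} [Fact p.Prime] (g : G) (Q : Sylow p G) (x : G) :
    x ∈ ((g • Q : Sylow p G) : Subgroup G) ↔ g⁻¹ * x * g ∈ (Q : Subgroup G) := by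
  rw [Sylow.coe_subgroup_smul, Subgroup.mem_pointwise_smul_iff_inv_smul_mem]
  simp [MulAut.smul_def, mul_assoc]

private lemma card_sylow_le {G : Type*} [Group G] [Finite G] {p : ℕ} [Fact p.Prime] (H : Subgroup G)
    (P : Sylow p G) (hP : (P : Subgroup G) ≤ H) :
    Nat.card {Q : Sylow p G // (Q : Subgroup G) ≤ H} = Nat.card (Sylow p ↥H) := by
  refine Nat.card_congr (Equiv.ofBijective (fun Q => Sylow.subtype Q.1 Q.2) ⟨?_, ?_⟩)
  · intro Q Q' h
    exact Subtype.ext (Sylow.subtype_injective h)
  · intro S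
    obtain ⟨h, hh⟩ := MulAction.exists_smul_eq H (Sylow.subtype P hP) S
    have hle : ((h : G) • P : Sylow p G).1 ≤ H := by
      intro x hx
      have := (coe_smul_sylow (h : G) P x).1 hx
      have h2 := hP this
      have h3 : x = (h : G) * ((h : G)⁻¹ * x * (h : G)) * (h : G)⁻¹ := by group
      rw [h3]
      exact H.mul_mem (H.mul_mem h.2 h2) (H.inv_mem h.2)
    refine ⟨⟨(h : G) • P, hle⟩, ?_⟩
    rw [← hh]
    apply Sylow.ext
    ext x
    rw [Sylow.coe_subtype, Subgroup.mem_subgroupOf, coe_smul_sylow (h : G) P (x : G),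
      coe_smul_sylow h (P.subtype hP) x, Sylow.coe_subtype, Subgroup.mem_subgroupOf]
    simp


/-- Let p be a prime and G a finite group generated by its elements of p-power order, and let H be a proper subgroup of G containing a Sylow p-subgroup of G. Then 2p − 1 times the number of Sylow p-subgroups of H is at most p − 1 times the number of Sylow p-subgroups of G. -/
theorem result {G : Type*} [Group G] [Finite G] (p : ℕ) [Fact p.Prime] (hgen : Subgroup.closure {g : G | ∃ k : ℕ, orderOf g = p ^ k} = ⊤)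
    (H : Subgroup G) (hH : H ≠ ⊤) (P : Sylow p G) (hP : (P : Subgroup G) ≤ H) :
    (2 * p - 1) * Nat.card (Sylow p ↥H) ≤ (p - 1) * Nat.card (Sylow p G) := by
  classical
  have : Fintype (G ⧸ H) := Fintype.ofFinite _
  have : Fintype (Sylow p G) := Fintype.ofFinite _
  have hK : Opp p (⊤ : Subgroup G) = ⊤ := by
    refine le_antisymm le_top ?_
    calc (⊤ : Subgroup G) = Subgroup.closure {g : G | ∃ k : ℕ, orderOf g = p ^ k} := hgen.symm
      _ ≤ Opp p (⊤ : Subgroup G) := by
        refine Subgroup.closure_mono ?_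
        rintro g ⟨k, hk⟩
        exact ⟨⟨k, by rw [← hk]; exact pow_orderOf_eq_one g⟩, trivial⟩
  have hRsyl : IsSyl p (P : Subgroup G) ⊤ := by
    refine ⟨le_top, P.isPGroup', ?_⟩
    rw [Subgroup.relIndex_top_right]
    exact P.not_dvd_index
  have hmove : ∀ a : G ⧸ H, ¬ (⊤ : Subgroup G) ≤ MulAction.stabilizer G a := by
    intro a hle
    obtain ⟨g, rfl⟩ := QuotientGroup.mk_surjective a
    apply hH
    rw [eq_top_iff]
    intro x _
    have h1 : g * x * g⁻¹ ∈ MulAction.stabilizer G ((g : G ⧸ H)) := hle trivial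
    have h2 : (g * x * g⁻¹) • ((g : G ⧸ H)) = (g : G ⧸ H) := h1
    have h3 : ((g * x * g⁻¹ * g : G) : G ⧸ H) = (g : G ⧸ H) := h2
    have h4 := QuotientGroup.eq.1 h3
    have h5 : (g * x * g⁻¹ * g)⁻¹ * g = x⁻¹ := by group
    rw [h5] at h4
    simpa using H.inv_mem h4
  have hb := fix_bound (p := p) (α := G ⧸ H) hK hmove hRsyl
  set f := ((Finset.univ : Finset (G ⧸ H)).filter (fixes (P : Subgroup G))).card with hf
  -- double count
  have hdc : (Finset.univ : Finset (Sylow p G)).card * f =
      (Finset.univ : Finset (G ⧸ H)).card * Nat.card (Sylow p ↥H) := by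
    refine Finset.card_mul_eq_card_mul (fun (Q : Sylow p G) (x : G ⧸ H) => fixes (Q : Subgroup G) x) ?_ ?_
    · intro Q _
      obtain ⟨g, rfl⟩ := MulAction.exists_smul_eq G P Q
      rw [hf, Finset.bipartiteAbove]
      refine Finset.card_bij (fun x _ => g⁻¹ • x) ?_ ?_ ?_
      · intro x hx
        simp only [Finset.mem_filter, Finset.mem_univ, true_and] at hx ⊢
        intro r hr
        have hmem : g * r * g⁻¹ ∈ ((g • P : Sylow p G) : Subgroup G) := by
          rw [coe_smul_sylow]
          have : g⁻¹ * (g * r * g⁻¹) * g = r := by group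
          rwa [this]
        have h1 := hx _ hmem
        have h2 : (g * r * g⁻¹) • x = x := h1
        show r • (g⁻¹ • x) = g⁻¹ • x
        have h3 : r • (g⁻¹ • x) = g⁻¹ • ((g * r * g⁻¹) • x) := by
          simp only [mul_smul, inv_smul_smul]
        rw [h3, h2]
      · intro x _ y _ h
        exact smul_left_cancel _ h
      · intro y hy
        simp only [Finset.mem_filter, Finset.mem_univ, true_and] at hy
        refine ⟨g • y, ?_, by simp⟩
        simp only [Finset.mem_filter, Finset.mem_univ, true_and]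
        intro r hr
        have hr' := (coe_smul_sylow g P r).1 hr
        have h1 := hy _ hr'
        have h2 : (g⁻¹ * r * g) • y = y := h1
        show r • g • y = g • y
        have h3 : r • g • y = g • ((g⁻¹ * r * g) • y) := by
          simp only [mul_smul, smul_inv_smul]
        rw [h3, h2]
    · intro x _
      obtain ⟨g, rfl⟩ := QuotientGroup.mk_surjective x
      rw [← card_sylow_le H P hP, Finset.bipartiteBelow, Nat.card_eq_fintype_card]
      rw [Fintype.card_subtype]
      refine Finset.card_bij (fun Q _ => g⁻¹ • Q) ?_ ?_ ?_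
      · intro Q hQ
        simp only [Finset.mem_filter, Finset.mem_univ, true_and] at hQ ⊢
        rw [fixes_coset_iff] at hQ
        intro y hy
        have := (coe_smul_sylow g⁻¹ Q y).1 hy
        have h2 := hQ _ this
        have h3 : g⁻¹ * (g⁻¹⁻¹ * y * g⁻¹) * g = y := by group
        rwa [h3] at h2
      · intro Q _ Q' _ h
        exact smul_left_cancel _ h
      · intro Q hQ
        simp only [Finset.mem_filter, Finset.mem_univ, true_and] at hQ
        refine ⟨g • Q, ?_, by simp⟩
        simp only [Finset.mem_filter, Finset.mem_univ, true_and]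
        rw [fixes_coset_iff]
        intro q hq
        exact hQ ((coe_smul_sylow g Q q).1 hq)
  -- conclude
  rw [Finset.card_univ, Finset.card_univ] at hdc
  have hpos : 0 < Fintype.card (G ⧸ H) := Fintype.card_pos_iff.2 ⟨((1 : G) : G ⧸ H)⟩
  have hS : 0 < Fintype.card (Sylow p G) := Fintype.card_pos_iff.2 ⟨P⟩
  have hp1 : 1 ≤ p := (Fact.out : p.Prime).one_lt.le
  rw [Nat.card_eq_fintype_card (α := Sylow p G)]
  have hb' : (2 * p - 1) * f ≤ (p - 1) * Fintype.card (G ⧸ H) := by
    zify [show 1 ≤ 2 * p by omega, hp1]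
    simpa [mul_comm] using hb
  have : Fintype.card (G ⧸ H) * ((2 * p - 1) * Nat.card (Sylow p ↥H)) ≤
      Fintype.card (G ⧸ H) * ((p - 1) * Fintype.card (Sylow p G)) := by
    calc Fintype.card (G ⧸ H) * ((2 * p - 1) * Nat.card (Sylow p ↥H))
        = (2 * p - 1) * (Fintype.card (G ⧸ H) * Nat.card (Sylow p ↥H)) := by ring
      _ = (2 * p - 1) * (Fintype.card (Sylow p G) * f) := by rw [hdc]
      _ = Fintype.card (Sylow p G) * ((2 * p - 1) * f) := by ring
      _ ≤ Fintype.card (Sylow p G) * ((p - 1) * Fintype.card (G ⧸ H)) :=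
          Nat.mul_le_mul_left _ hb'
      _ = Fintype.card (G ⧸ H) * ((p - 1) * Fintype.card (Sylow p G)) := by ring
  exact Nat.le_of_mul_le_mul_left this hpos

end Cfsg.Agent.S4181
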