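import Mathlib
import Cfsg.Statements.S4182

set_option autoImplicit false
open Cfsg

namespace Cfsg.Agent.S4182

universe u v

/-- A `p`-group is not covered by `p` or fewer proper subgroups. -/
theorem exists_not_mem_of_card_le {Q : Type u} [Group Q] [Finite Q] {p : ℕ} [Fact p.Prime]
    (hQ : IsPGroup p Q) {ι : Type v} [Fintype ι] (hι : Fintype.card ι ≤ p) (T : ι → Subgroup Q)
    (hT : ∀ i, T i ≠ ⊤) : ∃ x : Q, ∀ i, x ∉ T i := by
  classical
  by_contra hcon
  push Not at hcon
  have hp : p.Prime := Fact.out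
  letI : Fintype Q := Fintype.ofFinite _
  -- if ι is empty the statement is trivial
  have hne : Nonempty ι := by
    obtain ⟨i, -⟩ := hcon 1
    exact ⟨i⟩
  obtain ⟨i₀⟩ := hne
  obtain ⟨n, hn⟩ := IsPGroup.iff_card.mp hQ
  have hcard : ∀ i, (T i : Set Q).ncard * p ≤ p ^ n := by
    intro i
    have h1 := Subgroup.card_mul_index (T i)
    rw [hn] at h1
    have h2 : (T i).index ∣ p ^ n := ⟨_, by rw [← h1, mul_comm]⟩
    obtain ⟨j, -, hj⟩ := (Nat.dvd_prime_pow hp).mp h2
    have hj0 : j ≠ 0 := by
      rintro rfl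
      apply hT i
      rw [← Subgroup.index_eq_one]
      simpa using hj
    have h3 : p ≤ (T i).index := by
      rw [hj]
      exact Nat.le_self_pow hj0 p
    calc (T i : Set Q).ncard * p = Nat.card (T i) * p :=
          congrArg (· * p) (Nat.card_coe_set_eq (T i : Set Q)).symm
      _ ≤ Nat.card (T i) * (T i).index := Nat.mul_le_mul_left _ h3
      _ = p ^ n := h1
  -- n ≥ 1
  have hn1 : 1 ≤ n := by
    rcases Nat.eq_zero_or_pos n with rfl | h
    · exfalso
      apply hT i₀
      have : Subsingleton Q := by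
        rw [pow_zero] at hn
        exact (Finite.card_le_one_iff_subsingleton.mp hn.le)
      ext x
      simp [Subsingleton.elim x 1, (T i₀).one_mem]
    · exact h
  obtain ⟨w, rfl⟩ : ∃ w, n = w + 1 := ⟨n - 1, by omega⟩
  have hcard' : ∀ i, (T i : Set Q).ncard ≤ p ^ w := by
    intro i
    have := hcard i
    rw [pow_succ] at this
    exact Nat.le_of_mul_le_mul_right this hp.pos
  -- the count
  have hcover : (Finset.univ : Finset Q) ⊆
      insert (1 : Q) (Finset.univ.biUnion fun i => ((T i : Set Q).toFinset.erase (1 : Q))) := by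
    intro x _
    by_cases hx : x = 1
    · simp [hx]
    · obtain ⟨i, hi⟩ := hcon x
      simp only [Finset.mem_insert, Finset.mem_biUnion, Finset.mem_univ, true_and,
        Finset.mem_erase, Set.mem_toFinset]
      right
      exact ⟨i, hx, hi⟩
  have h1 := Finset.card_le_card hcover
  have h2 : (Finset.univ : Finset Q).card = p ^ (w + 1) := by
    rw [Finset.card_univ, ← Nat.card_eq_fintype_card, hn]
  have h3 : (Finset.univ.biUnion fun i => ((T i : Set Q).toFinset.erase (1 : Q))).card ≤
      ∑ i : ι, (p ^ w - 1) := by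
    refine Finset.card_biUnion_le.trans (Finset.sum_le_sum fun i _ => ?_)
    rw [Finset.card_erase_of_mem (by simp [(T i).one_mem])]
    have : (T i : Set Q).toFinset.card = (T i : Set Q).ncard := by
      rw [Set.ncard_eq_toFinset_card']
    rw [this]
    exact Nat.sub_le_sub_right (hcard' i) 1
  have h4 := Finset.card_insert_le (1 : Q)
    (Finset.univ.biUnion fun i => ((T i : Set Q).toFinset.erase (1 : Q)))
  rw [Finset.sum_const, Finset.card_univ, smul_eq_mul] at h3
  have h5 : Fintype.card ι * (p ^ w - 1) ≤ p * (p ^ w - 1) := Nat.mul_le_mul_right _ hι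
  have hpw : 1 ≤ p ^ w := Nat.one_le_pow _ _ hp.pos
  have h6 : p * (p ^ w - 1) + p = p ^ (w + 1) := by
    obtain ⟨c, hc⟩ : ∃ c, p ^ w = c + 1 := ⟨p ^ w - 1, by omega⟩
    rw [pow_succ, hc]
    simp only [Nat.add_sub_cancel]
    ring
  have h7 := hp.two_le
  omega

/-- `p`-elements. -/
def pelt (p : ℕ) {G : Type u} [Group G] (g : G) : Prop := ∃ k : ℕ, orderOf g = p ^ k

/-- the subgroup generated by the `p`-elements of `U`. -/
def pgen (p : ℕ) {G : Type u} [Group G] (U : Subgroup G) : Subgroup G :=
  Subgroup.closure {g : G | g ∈ U ∧ pelt p g}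

theorem pgen_le (p : ℕ) {G : Type u} [Group G] (U : Subgroup G) : pgen p U ≤ U := by
  unfold pgen
  rw [Subgroup.closure_le]
  exact fun g hg => hg.1

theorem pgen_pgen (p : ℕ) {G : Type u} [Group G] (U : Subgroup G) : pgen p (pgen p U) = pgen p U := by
  apply le_antisymm (pgen_le p _)
  unfold pgen
  rw [Subgroup.closure_le]
  intro g hg
  exact Subgroup.subset_closure ⟨Subgroup.subset_closure hg, hg.2⟩

theorem pgen_mono (p : ℕ) {G : Type u} [Group G] {U V : Subgroup G} (h : U ≤ V) : pgen p U ≤ pgen p V := by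
  unfold pgen
  apply Subgroup.closure_mono
  exact fun g hg => ⟨h hg.1, hg.2⟩

theorem pgen_map_conj (p : ℕ) {G : Type u} [Group G] (U : Subgroup G) (g : G)
    (hU : pgen p U = U) :
    pgen p (U.map (MulAut.conj g).toMonoidHom) = U.map (MulAut.conj g).toMonoidHom := by
  apply le_antisymm (pgen_le p _)
  calc U.map (MulAut.conj g).toMonoidHom = (pgen p U).map (MulAut.conj g).toMonoidHom := by rw [hU]
    _ = Subgroup.closure ((MulAut.conj g).toMonoidHom '' {g : G | g ∈ U ∧ pelt p g}) :=
        MonoidHom.map_closure _ _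
    _ ≤ _ := ?_
  apply Subgroup.closure_mono
  rintro _ ⟨x, ⟨hx, k, hk⟩, rfl⟩
  refine ⟨Subgroup.mem_map_of_mem _ hx, k, ?_⟩
  · have : orderOf ((MulAut.conj g).toMonoidHom x) = orderOf x :=
      orderOf_injective _ (MulAut.conj g).injective x
    rw [this, hk]

/-- The key closed subgroup property. -/
theorem generated_top_of_pgen (p : ℕ) {G : Type u} [Group G] (U : Subgroup G) (hU : pgen p U = U) :
    Subgroup.closure {g : U | ∃ k : ℕ, orderOf g = p ^ k} = ⊤ := by
  apply Subgroup.map_injective U.subtype_injective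
  rw [MonoidHom.map_closure, ← MonoidHom.range_eq_map, Subgroup.range_subtype]
  apply le_antisymm
  · rw [Subgroup.closure_le]
    rintro _ ⟨x, -, rfl⟩
    exact x.2
  · conv_lhs => rw [← hU]
    unfold pgen
    apply Subgroup.closure_mono
    rintro g ⟨hg, k, hk⟩
    refine ⟨⟨g, hg⟩, ⟨k, ?_⟩, rfl⟩
    rw [← Subgroup.orderOf_coe]
    exact hk

theorem main {ι : Type v} [Fintype ι] (p : ℕ) [Fact p.Prime] :
    ∀ (n : ℕ) (G : Type u) [Group G] [Finite G], Nat.card G = n →
      Subgroup.closure {g : G | ∃ k : ℕ, orderOf g = p ^ k} = ⊤ →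
      ∀ (K : ι → Subgroup G), (∀ i, K i ≠ ⊤) →
      (∀ g : G, (∃ k : ℕ, orderOf g = p ^ k) → ∃ i, g ∈ K i) → p + 1 ≤ Fintype.card ι := by
  classical
  intro n
  induction n using Nat.strong_induction_on with
  | _ n ih =>
  intro G _ _ hn hgen K hK hcov
  by_contra hcon
  have hι : Fintype.card ι ≤ p := by omega
  have hp : p.Prime := Fact.out
  -- Step 0: `p`-subgroups lie in some `K i`
  have step0 : ∀ Q : Subgroup G, IsPGroup p Q → ∃ i, Q ≤ K i := by
    intro Q hQ
    by_contra hQcon
    push Not at hQcon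
    have hT : ∀ i, (K i).subgroupOf Q ≠ ⊤ := by
      intro i h
      exact hQcon i (Subgroup.subgroupOf_eq_top.mp h)
    obtain ⟨x, hx⟩ := exists_not_mem_of_card_le hQ hι (fun i => (K i).subgroupOf Q) hT
    have hxp : ∃ k : ℕ, orderOf (x : G) = p ^ k := by
      have := IsPGroup.iff_orderOf.mp hQ x
      simpa [Subgroup.orderOf_coe] using this
    obtain ⟨i, hi⟩ := hcov _ hxp
    exact hx i (Subgroup.mem_subgroupOf.mpr hi)
  -- Step 1: proper subgroups generated by `p`-elements lie in some `K i`
  have step1 : ∀ U : Subgroup G, pgen p U = U → U ≠ ⊤ → ∃ i, U ≤ K i := by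
    intro U hU hUtop
    by_contra hUcon
    push Not at hUcon
    have hlt : Nat.card U < n := by
      rw [← hn]
      exact lt_of_le_of_ne (Subgroup.card_le_card_group U)
        (fun h => hUtop (Subgroup.eq_top_of_card_eq _ h))
    have := ih (Nat.card U) hlt U rfl (generated_top_of_pgen p U hU)
      (fun i => (K i).subgroupOf U)
      (fun i h => hUcon i (Subgroup.subgroupOf_eq_top.mp h))
      (fun g hg => by
        obtain ⟨k, hk⟩ := hg
        obtain ⟨i, hi⟩ := hcov (g : G) ⟨k, by rw [Subgroup.orderOf_coe]; exact hk⟩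
        exact ⟨i, Subgroup.mem_subgroupOf.mpr hi⟩)
    exact hcon this
  let L : ι → Subgroup G := fun i => pgen p (K i)
  have hLK : ∀ i, L i ≤ K i := fun i => pgen_le p _
  have hLgen : ∀ i, pgen p (L i) = L i := fun i => pgen_pgen p _
  -- a `p`-subgroup in `K i` lies in `L i`
  have hpsub : ∀ (Q : Subgroup G) (i : ι), IsPGroup p Q → Q ≤ K i → Q ≤ L i := by
    intro Q i hQ hle x hx
    apply Subgroup.subset_closure
    refine ⟨hle hx, ?_⟩
    have := IsPGroup.iff_orderOf.mp hQ ⟨x, hx⟩
    show ∃ k : ℕ, orderOf x = p ^ k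
    simpa [Subgroup.orderOf_coe] using this
  -- the indices whose `L i` contains a Sylow subgroup
  have hex : ∃ i, ∃ P : Sylow p G, (P : Subgroup G) ≤ L i := by
    have P : Sylow p G := default
    obtain ⟨i, hi⟩ := step0 P P.isPGroup'
    exact ⟨i, P, hpsub _ i P.isPGroup' hi⟩
  let good : Finset ι := Finset.univ.filter fun i => ∃ P : Sylow p G, (P : Subgroup G) ≤ L i
  have hgood : good.Nonempty := by
    obtain ⟨i, hi⟩ := hex
    exact ⟨i, by simp [good]; exact hi⟩
  obtain ⟨i₀, hi₀, hmax⟩ := Finset.exists_max_image good (fun i => Nat.card (L i)) hgood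
  obtain ⟨P, hP⟩ : ∃ P : Sylow p G, (P : Subgroup G) ≤ L i₀ := by
    simpa [good] using hi₀
  set M := L i₀ with hM
  have hMtop : M ≠ ⊤ := by
    intro h
    apply hK i₀
    have : L i₀ ≤ K i₀ := hLK i₀
    rw [← hM, h] at this
    exact top_le_iff.mp this
  -- Step 3 : conjugates of `M` are among the `L i`
  have step3 : ∀ g : G, ∃ j, M.map (MulAut.conj g).toMonoidHom = L j := by
    intro g
    set U := M.map (MulAut.conj g).toMonoidHom with hUdef
    have hUgen : pgen p U = U := pgen_map_conj p M g (hLgen i₀)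
    have hUcard : Nat.card U = Nat.card M :=
      Nat.card_congr (Subgroup.equivMapOfInjective M _ (MulAut.conj g).injective).symm.toEquiv
    have hUtop : U ≠ ⊤ := by
      intro h
      apply hMtop
      have hUc : Nat.card M = Nat.card G := by
        rw [← hUcard, h]
        exact Subgroup.card_top
      exact Subgroup.eq_top_of_card_eq _ hUc
    obtain ⟨j, hj⟩ := step1 U hUgen hUtop
    have hUL : U ≤ L j := by
      rw [← hUgen]
      exact pgen_mono p hj
    refine ⟨j, ?_⟩
    -- `L j` contains a Sylow subgroup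
    have hPU : ((g • P : Sylow p G) : Subgroup G) ≤ U := by
      intro x hx
      rw [Sylow.coe_subgroup_smul, Subgroup.mem_smul_pointwise_iff_exists] at hx
      obtain ⟨s, hs, rfl⟩ := hx
      exact Subgroup.mem_map_of_mem _ (hP hs)
    have hjgood : j ∈ good := by
      simp only [good, Finset.mem_filter, Finset.mem_univ, true_and]
      exact ⟨g • P, hPU.trans hUL⟩
    have hle := hmax j hjgood
    have hle' : Nat.card (L j) ≤ Nat.card U := by rw [hUcard]; exact hle
    exact Subgroup.eq_of_le_of_card_ge hUL hle'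
  choose j hj using step3
  set T : Subgroup G := Subgroup.normalizer (M : Set G) with hT
  have hnorm : ∀ a b : G, j a = j b → a⁻¹ * b ∈ T := by
    intro a b hab
    have h1 : M.map (MulAut.conj a).toMonoidHom = M.map (MulAut.conj b).toMonoidHom := by
      rw [hj a, hj b, hab]
    rw [hT, Subgroup.mem_normalizer_iff]
    intro x
    constructor
    · intro hx
      have h2 : (MulAut.conj b).toMonoidHom x ∈ M.map (MulAut.conj b).toMonoidHom :=
        Subgroup.mem_map_of_mem _ hx
      rw [← h1, Subgroup.mem_map] at h2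
      obtain ⟨y, hy, hyx⟩ := h2
      have h3 : a * y * a⁻¹ = b * x * b⁻¹ := by simpa using hyx
      have h4 : a⁻¹ * b * x * (a⁻¹ * b)⁻¹ = y := by
        have : a⁻¹ * b * x * (a⁻¹ * b)⁻¹ = a⁻¹ * (b * x * b⁻¹) * a := by group
        rw [this, ← h3]; group
      show a⁻¹ * b * x * (a⁻¹ * b)⁻¹ ∈ M
      rw [h4]; exact hy
    · intro hx
      have h2 : (MulAut.conj a).toMonoidHom (a⁻¹ * b * x * (a⁻¹ * b)⁻¹) ∈
          M.map (MulAut.conj a).toMonoidHom := Subgroup.mem_map_of_mem _ hx
      rw [h1, Subgroup.mem_map] at h2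
      obtain ⟨y, hy, hyx⟩ := h2
      have h3 : b * y * b⁻¹ = a * (a⁻¹ * b * x * (a⁻¹ * b)⁻¹) * a⁻¹ := by simpa using hyx
      have h4 : y = x := by
        have h5 : a * (a⁻¹ * b * x * (a⁻¹ * b)⁻¹) * a⁻¹ = b * x * b⁻¹ := by group
        rw [h5] at h3
        have h6 := congrArg (fun z => b⁻¹ * z * b) h3
        simpa [mul_assoc] using h6
      rw [← h4]; exact hy
  have hTindex : T.index ≤ Fintype.card ι := by
    rw [← Nat.card_eq_fintype_card]
    refine Nat.card_le_card_of_injective (fun q : G ⧸ T => j q.out) ?_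
    intro q q' hqq
    have h1 := hnorm _ _ hqq
    have h2 : ((q.out : G) : G ⧸ T) = ((q'.out : G) : G ⧸ T) := QuotientGroup.eq.mpr h1
    simpa using h2
  have hPT : (P : Subgroup G) ≤ T := fun x hx => Subgroup.le_normalizer (hP hx)
  have hndT : ¬ p ∣ T.index := fun h => P.not_dvd_index (h.trans (Subgroup.index_dvd_of_le hPT))
  have hTlt : T.index < p := by
    apply lt_of_le_of_ne (hTindex.trans hι)
    intro h
    apply hndT
    rw [h]
  have hpT : ∀ g : G, (∃ k : ℕ, orderOf g = p ^ k) → g ∈ T := by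
    rintro g ⟨k, hk⟩
    have h1 : T.relIndex (Subgroup.zpowers g) ∣ p ^ k := by
      rw [← hk, ← Nat.card_zpowers]
      exact Subgroup.relIndex_dvd_card _ _
    obtain ⟨a, -, ha⟩ := (Nat.dvd_prime_pow hp).mp h1
    have h2 : T.relIndex (Subgroup.zpowers g) ≤ T.relIndex ⊤ :=
      Subgroup.relIndex_le_of_le_right le_top (by
        rw [Subgroup.relIndex_top_right]; exact Subgroup.index_ne_zero_of_finite)
    rw [Subgroup.relIndex_top_right] at h2
    have ha0 : a = 0 := by
      by_contra hne
      have h3 : p ≤ p ^ a := Nat.le_self_pow hne p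
      rw [ha] at h2
      omega
    rw [ha0, pow_zero, Subgroup.relIndex_eq_one] at ha
    exact ha (Subgroup.mem_zpowers g)
  have hTtop : T = ⊤ := by
    rw [eq_top_iff, ← hgen, Subgroup.closure_le]
    exact fun g hg => hpT g hg
  haveI hMnormal : M.Normal := Subgroup.normalizer_eq_top_iff.mp hTtop
  have hndM : ¬ p ∣ M.index := fun h => P.not_dvd_index (h.trans (Subgroup.index_dvd_of_le hP))
  have hpM : ∀ g : G, (∃ k : ℕ, orderOf g = p ^ k) → g ∈ M := by
    rintro g ⟨k, hk⟩
    have h1 : orderOf (g : G ⧸ M) ∣ p ^ k := by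
      rw [← hk]
      exact orderOf_map_dvd (QuotientGroup.mk' M) g
    have h2 : orderOf (g : G ⧸ M) ∣ M.index := orderOf_dvd_natCard _
    obtain ⟨a, -, ha⟩ := (Nat.dvd_prime_pow hp).mp h1
    have ha0 : a = 0 := by
      by_contra hne
      rw [ha] at h2
      exact hndM ((dvd_pow_self p hne).trans h2)
    rw [ha0, pow_zero, orderOf_eq_one_iff] at ha
    exact (QuotientGroup.eq_one_iff _).mp ha
  apply hMtop
  rw [eq_top_iff, ← hgen, Subgroup.closure_le]
  exact fun g hg => hpM g hg

/-- Let p be a prime and G a finite group generated by its p-elements. If a finite family of proper subgroups of G covers the set of p-elements of G (every element of p-power order lies in one of them), then the family has at least p + 1 members. -/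
theorem result {G : Type*} [Group G] [Finite G] (p : ℕ) [Fact p.Prime] (hgen : Subgroup.closure {g : G | ∃ k : ℕ, orderOf g = p ^ k} = ⊤)
    {ι : Type*} [Fintype ι] (K : ι → Subgroup G) (hK : ∀ i, K i ≠ ⊤)
    (hcov : ∀ g : G, (∃ k : ℕ, orderOf g = p ^ k) → ∃ i, g ∈ K i) :
    p + 1 ≤ Fintype.card ι :=
  main p (Nat.card G) G rfl hgen K hK hcov

end Cfsg.Agent.S4182
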