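import Cfsg.Statements.S4184
import Cfsg.Agent.Lib.HallParts
import Cfsg.Agent.Lib.FrobCount
import Cfsg.Agent.Lib.SqfClass1
import Cfsg.Agent.Lib.BrolineGT
import Cfsg.Agent.Lib.PiHom2

set_option autoImplicit false
set_option linter.unusedSectionVars false
set_option linter.style.haveILetI false
open Cfsg

namespace Cfsg.Agent.S4184

open Subgroup

section

variable {G : Type*} [Group G] [Finite G]

/-- Class sizes. -/
noncomputable abbrev idx (g : G) : ℕ := (centralizer ({g} : Set G)).index

theorem idx_eq_one {g : G} (h : idx g = 1) : g ∈ center G := by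
  rw [Subgroup.index_eq_one] at h
  rw [Subgroup.mem_center_iff]
  intro x
  have h1 : x ∈ centralizer ({g} : Set G) := h ▸ mem_top x
  exact Subgroup.mem_centralizer_singleton_iff.mp h1

theorem idx_ne_one (hZ : center G = ⊥) {g : G} (hg : g ≠ 1) : idx g ≠ 1 := by
  intro h
  have := idx_eq_one h
  rw [hZ] at this
  exact hg this

theorem idx_pow_dvd (g : G) (k : ℕ) : idx (g ^ k) ∣ idx g := by
  apply Subgroup.index_dvd_of_le
  intro x hx
  rw [Subgroup.mem_centralizer_singleton_iff] at hx ⊢
  exact ((Commute.pow_right hx k))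

theorem card_mul_idx (g : G) : Nat.card (centralizer ({g} : Set G)) * idx g = Nat.card G :=
  Subgroup.card_mul_index _

theorem idx_one : idx (1 : G) = 1 := by
  show (centralizer ({(1 : G)} : Set G)).index = 1
  rw [Subgroup.index_eq_one]
  ext x
  simp [Subgroup.mem_centralizer_singleton_iff]

/-- Parts of a product of commuting elements of coprime orders. -/
theorem idx_mul_of_coprime {y w : G} (hc : Commute y w) (hcop : (orderOf y).Coprime (orderOf w)) :
    idx y ∣ idx (y * w) ∧ idx w ∣ idx (y * w) := by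
  obtain ⟨k, k', h1, h2, h3, h4⟩ := Cfsg.Agent.Lib.HallParts.exists_exps _ _ hcop
  have e1 : (y * w) ^ k = y :=
    Cfsg.Agent.Lib.HallParts.part_left_eq h1 h2 hc (pow_orderOf_eq_one y) (pow_orderOf_eq_one w)
  have e2 : (y * w) ^ k' = w :=
    Cfsg.Agent.Lib.HallParts.part_right_eq h3 h4 hc (pow_orderOf_eq_one y) (pow_orderOf_eq_one w)
  constructor
  · have := idx_pow_dvd (y * w) k
    rwa [e1] at this
  · have := idx_pow_dvd (y * w) k'
    rwa [e2] at this

/-- The main contradiction. -/
theorem core (hZ : center G = ⊥) {u v t q s : ℕ} (hcard : Nat.card G = u * v * t)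
    (hcop : u.Coprime v)
    (H : ∀ g : G, g ≠ 1 → idx g ∣ u * v ∧ ((u ∣ idx g ∧ ¬ v ∣ idx g) ∨ (v ∣ idx g ∧ ¬ u ∣ idx g)))
    (hq : q.Prime) (hqt : q ∣ t) (hqu : q ∣ u) (hs : s.Prime) (hsv : s ∣ v) : False := by
  classical
  haveI : Fact q.Prime := ⟨hq⟩
  haveI : Fact s.Prime := ⟨hs⟩
  have hGpos : Nat.card G ≠ 0 := Nat.card_pos.ne'
  have hu0 : u ≠ 0 := by
    rintro rfl
    simp at hcard
    exact hGpos hcard
  have hv0 : v ≠ 0 := by
    rintro rfl
    simp at hcard
    exact hGpos hcard
  have ht0 : t ≠ 0 := by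
    rintro rfl
    simp at hcard
    exact hGpos hcard
  have hqv : ¬ q ∣ v := by
    intro h
    have := Nat.dvd_gcd hqu h
    rw [hcop] at this
    exact hq.one_lt.ne' (Nat.dvd_one.mp this)
  have hfv : v.factorization q = 0 := Nat.factorization_eq_zero_of_not_dvd hqv
  obtain ⟨e, he⟩ : ∃ e, e = u.factorization q := ⟨_, rfl⟩
  obtain ⟨f, hf⟩ : ∃ f, f = t.factorization q := ⟨_, rfl⟩
  have he1 : 1 ≤ e := he ▸ (hq.dvd_iff_one_le_factorization hu0).mp hqu
  have hf1 : 1 ≤ f := hf ▸ (hq.dvd_iff_one_le_factorization ht0).mp hqt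
  have hfG : (Nat.card G).factorization q = e + f := by
    rw [hcard, Nat.factorization_mul (mul_ne_zero hu0 hv0) ht0, Nat.factorization_mul hu0 hv0]
    simp [hfv, he, hf]
  -- the fact about elements with `u` dividing the class size
  have hidx : ∀ g : G, g ≠ 1 → u ∣ idx g →
      (Nat.card (centralizer ({g} : Set G))).factorization q = f := by
    intro g hg hug
    have h1 : (idx g).factorization q = e := by
      apply le_antisymm
      · have h2 := (Nat.factorization_le_iff_dvd (Subgroup.index_ne_zero_of_finite)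
          (mul_ne_zero hu0 hv0)).mpr (H g hg).1 q
        rw [Nat.factorization_mul hu0 hv0] at h2
        simpa [hfv, he] using h2
      · have h2 := (Nat.factorization_le_iff_dvd hu0 (Subgroup.index_ne_zero_of_finite)).mpr hug q
        rw [he]
        exact h2
    have h2 := card_mul_idx g
    have h3 : (Nat.card (centralizer ({g} : Set G)) * idx g).factorization q =
        (Nat.card G).factorization q := by rw [h2]
    rw [Nat.factorization_mul Nat.card_pos.ne' (Subgroup.index_ne_zero_of_finite), hfG] at h3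
    simp only [Finsupp.coe_add, Pi.add_apply] at h3
    have h1' : ((centralizer ({g} : Set G)).index).factorization q = e := h1
    omega
  -- an element of the centre of a Sylow `s`-subgroup
  have hsG : s ∣ Nat.card G := by
    rw [hcard]
    exact Dvd.dvd.mul_right (Dvd.dvd.mul_left hsv u) t
  let S : Sylow s G := default
  haveI : Nontrivial (S : Subgroup G) := S.isPGroup'.nontrivial_iff_card.mpr (by
    have h1 := S.card_eq_multiplicity
    have h2 : (Nat.card G).factorization s ≠ 0 := by
      have := (hs.dvd_iff_one_le_factorization hGpos).mp hsG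
      omega
    exact ⟨_, Nat.pos_of_ne_zero h2, h1⟩)
  haveI := S.isPGroup'.center_nontrivial
  obtain ⟨w₀, hw₀⟩ := exists_ne (1 : center (S : Subgroup G))
  let w : G := ((w₀ : (S : Subgroup G)) : G)
  have hw1 : w ≠ 1 := by
    intro h
    apply hw₀
    exact Subtype.ext (Subtype.ext h)
  have hSC : (S : Subgroup G) ≤ centralizer ({w} : Set G) := by
    intro x hx
    rw [Subgroup.mem_centralizer_singleton_iff]
    have := (Subgroup.mem_center_iff.mp w₀.2) ⟨x, hx⟩
    exact congrArg Subtype.val this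
  have hsw : ¬ s ∣ idx w := by
    intro h
    exact S.not_dvd_index (h.trans (Subgroup.index_dvd_of_le hSC))
  have huw : u ∣ idx w := by
    rcases (H w hw1).2 with h | h
    · exact h.1
    · exact absurd (hsv.trans h.1) hsw
  have hCw := hidx w hw1 huw
  -- a Sylow `q`-subgroup of the centralizer
  let C := centralizer ({w} : Set G)
  let P₀ : Sylow q C := default
  obtain ⟨R₀, hR₀⟩ : ∃ R₀, R₀ = (P₀ : Subgroup C).map C.subtype := ⟨_, rfl⟩
  have hR₀p : IsPGroup q R₀ := hR₀ ▸ P₀.isPGroup'.map C.subtype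
  have hR₀c : Nat.card R₀ = q ^ f := by
    rw [hR₀, Nat.card_congr
      ((P₀ : Subgroup C).equivMapOfInjective _ C.subtype_injective).symm.toEquiv,
      P₀.card_eq_multiplicity, hCw]
  have hR₀C : R₀ ≤ C := by
    rw [hR₀]
    rintro _ ⟨y, _, rfl⟩
    exact y.2
  -- elements of `R₀`
  have hy : ∀ y ∈ R₀, y ≠ 1 →
      (Nat.card (centralizer ({y} : Set G))).factorization q = f := by
    intro y hyR hy1
    have hcomm : Commute y w := by
      have := hR₀C hyR
      exact Subgroup.mem_centralizer_singleton_iff.mp this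
    have hcop' : (orderOf y).Coprime (orderOf w) := by
      obtain ⟨a, ha⟩ := (IsPGroup.iff_orderOf.mp hR₀p) ⟨y, hyR⟩
      obtain ⟨b, hb⟩ := (IsPGroup.iff_orderOf.mp S.isPGroup') (w₀ : (S : Subgroup G))
      rw [Subgroup.orderOf_mk] at ha
      have hb' : orderOf w = s ^ b := (Subgroup.orderOf_coe _).trans hb
      rw [ha, hb']
      apply Nat.Coprime.pow
      rw [Nat.coprime_primes hq hs]
      rintro rfl
      exact hqv hsv
    obtain ⟨h1, h2⟩ := idx_mul_of_coprime hcomm hcop'
    have hz1 : y * w ≠ 1 := by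
      intro h
      rw [h] at h2
      rw [idx_one] at h2
      have h3 : idx w = 1 := Nat.dvd_one.mp h2
      exact idx_ne_one hZ hw1 h3
    have hu2 : u ∣ idx (y * w) := huw.trans h2
    have hv2 : ¬ v ∣ idx (y * w) := by
      rcases (H _ hz1).2 with h | h
      · exact h.2
      · exact absurd hu2 h.2
    apply hidx y hy1
    rcases (H y hy1).2 with h | h
    · exact h.1
    · exact absurd (h.1.trans h1) hv2
  -- a Sylow `q`-subgroup of `G`
  obtain ⟨R, hR⟩ := hR₀p.exists_le_sylow
  have hlt : R₀ < (R : Subgroup G) := by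
    refine lt_of_le_of_ne hR ?_
    intro h
    have h1 := R.card_eq_multiplicity
    rw [← h, hR₀c, hfG] at h1
    have := Nat.pow_right_injective hq.two_le h1
    omega
  obtain ⟨x, hxR, hxN, hxR₀⟩ := Cfsg.Agent.Lib.PiHom2.exists_normalizer_step R.isPGroup' hlt
  let B : Subgroup G := (R : Subgroup G) ⊓ normalizer (R₀ : Set G)
  have hBp : IsPGroup q B := R.isPGroup'.to_le inf_le_left
  have hR₀B : R₀ ≤ B := le_inf hR le_normalizer
  haveI hN : (R₀.subgroupOf B).Normal := by
    constructor
    intro n hn g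
    have hg : (g : G) ∈ normalizer (R₀ : Set G) := g.2.2
    rw [Subgroup.mem_normalizer_iff] at hg
    exact (hg n).mp hn
  haveI : Group.IsNilpotent B := hBp.isNilpotent
  have hne : R₀.subgroupOf B ≠ ⊥ := by
    intro h
    have h1 : R₀ = ⊥ := by
      rw [eq_bot_iff]
      intro y hy
      have : (⟨y, hR₀B hy⟩ : B) ∈ R₀.subgroupOf B := hy
      rw [h] at this
      have := congrArg Subtype.val (Subgroup.mem_bot.mp this)
      exact this
    rw [h1, Subgroup.card_bot] at hR₀c
    have : f = 0 := by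
      by_contra hf0
      have h2 := Nat.one_lt_pow hf0 hq.one_lt
      omega
    omega
  have h5 := Cfsg.Agent.Lib.BrolineGT.inf_center_ne_bot (R₀.subgroupOf B) hne
  obtain ⟨y₀, hy₀, hy₀1⟩ := (Subgroup.ne_bot_iff_exists_ne_one.mp h5 |> fun ⟨a, ha⟩ => (⟨a.1, a.2, fun h => ha (Subtype.ext h)⟩ : ∃ y₀ : B, y₀ ∈ R₀.subgroupOf B ⊓ center B ∧ y₀ ≠ 1))
  have hy₁ : (y₀ : G) ∈ R₀ := hy₀.1
  have hy₂ : (y₀ : G) ≠ 1 := fun h => hy₀1 (Subtype.ext h)
  have hBC : B ≤ centralizer ({(y₀ : G)} : Set G) := by
    intro z hz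
    rw [Subgroup.mem_centralizer_singleton_iff]
    have := (Subgroup.mem_center_iff.mp hy₀.2) ⟨z, hz⟩
    exact congrArg Subtype.val this
  have h6 := hy _ hy₁ hy₂
  obtain ⟨m, hm⟩ := IsPGroup.iff_card.mp hBp
  have h7 : Nat.card B ∣ Nat.card (centralizer ({(y₀ : G)} : Set G)) := Subgroup.card_dvd_of_le hBC
  have h8 : m ≤ f := by
    have h9 := (Nat.factorization_le_iff_dvd Nat.card_pos.ne' Nat.card_pos.ne').mpr h7 q
    rw [hm, h6, hq.factorization_pow] at h9
    simpa using h9
  have h9 : Nat.card R₀ < Nat.card B := by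
    have hR₀B' : R₀ < B := by
      refine lt_of_le_of_ne hR₀B ?_
      intro h
      apply hxR₀
      rw [h]
      exact ⟨hxR, hxN⟩
    exact Set.ncard_lt_ncard hR₀B' (Set.toFinite _)
  rw [hR₀c, hm] at h9
  have := (Nat.pow_lt_pow_iff_right hq.one_lt).mp h9
  omega

/-- A Sylow subgroup with order coprime to all class sizes is central. -/
theorem central_of_coprime (hZ : center G = ⊥) {q : ℕ} (hq : q.Prime) (hqG : q ∣ Nat.card G)
    (h : ∀ g : G, ¬ q ∣ idx g) : False := by
  classical
  haveI : Fact q.Prime := ⟨hq⟩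
  let S : Sylow q G := default
  have hD : centralizer ((S : Subgroup G) : Set G) = ⊤ := by
    by_contra hne
    obtain ⟨g, hg⟩ := Cfsg.Agent.Lib.SqfClass.exists_derangement _ hne
    -- the centralizer of `g` contains a Sylow subgroup
    let C := centralizer ({g} : Set G)
    let T₀ : Sylow q C := default
    have hfact : (Nat.card C).factorization q = (Nat.card G).factorization q := by
      have h1 := card_mul_idx g
      have h3 : (Nat.card (centralizer ({g} : Set G)) * idx g).factorization q =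
          (Nat.card G).factorization q := by rw [h1]
      rw [Nat.factorization_mul Nat.card_pos.ne' (Subgroup.index_ne_zero_of_finite)] at h3
      simp only [Finsupp.coe_add, Pi.add_apply] at h3
      rw [Nat.factorization_eq_zero_of_not_dvd (h g)] at h3
      simpa using h3
    have hcard : Nat.card ((T₀ : Subgroup C).map C.subtype) = q ^ (Nat.card G).factorization q := by
      rw [Nat.card_congr ((T₀ : Subgroup C).equivMapOfInjective _ C.subtype_injective).symm.toEquiv,
        T₀.card_eq_multiplicity, hfact]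
    let T : Sylow q G := Sylow.ofCard _ hcard
    obtain ⟨k, hk⟩ := MulAction.exists_smul_eq G T S
    apply hg k⁻¹
    rw [inv_inv, Subgroup.mem_centralizer_iff]
    intro x hx
    have hx' : x ∈ ((k • T : Sylow q G) : Subgroup G) := by rw [hk]; exact hx
    rw [Sylow.coe_subgroup_smul] at hx'
    obtain ⟨t, ht, rfl⟩ := hx'
    have ht' : t ∈ (T₀ : Subgroup C).map C.subtype := ht
    obtain ⟨t', _, rfl⟩ := ht'
    have hcomm : (t' : G) * g = g * t' := by
      have := t'.2
      rw [Subgroup.mem_centralizer_iff] at this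
      exact (this g rfl).symm
    show (k * (t' : G) * k⁻¹) * (k * g * k⁻¹) = (k * g * k⁻¹) * (k * (t' : G) * k⁻¹)
    calc (k * (t' : G) * k⁻¹) * (k * g * k⁻¹) = k * ((t' : G) * g) * k⁻¹ := by group
      _ = k * (g * t') * k⁻¹ := by rw [hcomm]
      _ = _ := by group
  have hS : (S : Subgroup G) ≤ center G := by
    intro x hx
    rw [Subgroup.mem_center_iff]
    intro y
    have h1 : y ∈ centralizer ((S : Subgroup G) : Set G) := hD ▸ mem_top y
    rw [Subgroup.mem_centralizer_iff] at h1
    exact (h1 x hx).symm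
  rw [hZ] at hS
  have h2 : Nat.card (S : Subgroup G) = 1 := by
    rw [le_bot_iff.mp hS, Subgroup.card_bot]
  have h3 := S.card_eq_multiplicity
  rw [h2] at h3
  have h4 : (Nat.card G).factorization q ≠ 0 := by
    have := (hq.dvd_iff_one_le_factorization Nat.card_pos.ne').mp hqG
    omega
  have h5 := Nat.one_lt_pow h4 hq.one_lt
  omega

/-- Class sizes when the centralizer avoids the primes of `v`. -/
theorem size_type {u v : ℕ} (huv : Nat.card G = u * v) (hcop : u.Coprime v) {m : G}
    (hm : ∃ q : ℕ, q.Prime ∧ q ∣ orderOf m)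
    (hC : ∀ r : ℕ, r.Prime → r ∣ Nat.card (centralizer ({m} : Set G)) → ¬ r ∣ v) :
    v ∣ idx m ∧ ¬ u ∣ idx m := by
  obtain ⟨q, hq, hqm⟩ := hm
  have h1 := card_mul_idx m
  have hcv : (Nat.card (centralizer ({m} : Set G))).Coprime v := by
    apply Nat.coprime_of_dvd
    intro r hr h2 h3
    exact hC r hr h2 h3
  have h2 : Nat.card (centralizer ({m} : Set G)) ∣ u := by
    apply hcv.dvd_of_dvd_mul_right
    rw [← huv]
    exact Subgroup.card_subgroup_dvd_card _
  obtain ⟨u', hu'⟩ := h2
  have hcpos : 0 < Nat.card (centralizer ({m} : Set G)) := Nat.card_pos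
  have h3 : idx m = v * u' := by
    apply Nat.eq_of_mul_eq_mul_left hcpos
    rw [h1, huv, hu']
    ring
  have hu0 : u ≠ 0 := by
    rintro rfl
    simp at huv
    exact Nat.card_pos.ne' huv
  have hu'0 : u' ≠ 0 := by
    rintro rfl
    simp at hu'
    exact hu0 hu'
  refine ⟨h3 ▸ dvd_mul_right v u', ?_⟩
  intro h4
  rw [h3] at h4
  have h5 : u ∣ u' := hcop.dvd_of_dvd_mul_left h4
  have h6 : u ≤ u' := Nat.le_of_dvd (Nat.pos_of_ne_zero hu'0) h5
  have h7 : q ∣ Nat.card (centralizer ({m} : Set G)) := by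
    have hmc : m ∈ centralizer ({m} : Set G) := by
      rw [Subgroup.mem_centralizer_singleton_iff]
    exact hqm.trans (Subgroup.orderOf_dvd_natCard _ hmc)
  have h8 : 2 ≤ Nat.card (centralizer ({m} : Set G)) :=
    le_trans hq.two_le (Nat.le_of_dvd hcpos h7)
  rw [hu'] at h6
  nlinarith [Nat.pos_of_ne_zero hu'0]

/-- An element of prime order `q` dividing `orderOf m`, commuting with `m`'s centralizer. -/
theorem exists_order_mul {m c : G} {q r : ℕ} (hq : q.Prime) (hqm : q ∣ orderOf m) (hr : r.Prime)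
    (hqr : q ≠ r) (hc : orderOf c = r) (hmc : Commute c m) :
    ∃ x : G, orderOf x = q * r := by
  obtain ⟨d, hd⟩ := hqm
  have hpos : 0 < orderOf m := orderOf_pos m
  have hx : orderOf (m ^ d) = q := by
    have hd0 : d ≠ 0 := by
      rintro rfl
      rw [mul_zero] at hd
      omega
    rw [orderOf_pow' m hd0, hd, Nat.gcd_mul_left_left]
    exact Nat.mul_div_cancel _ (Nat.pos_of_ne_zero hd0)
  have hcomm : Commute (m ^ d) c := (hmc.pow_right d).symm
  have hcop : (orderOf (m ^ d)).Coprime (orderOf c) := by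
    rw [hx, hc, Nat.coprime_primes hq hr]
    exact hqr
  refine ⟨m ^ d * c, ?_⟩
  rw [hcomm.orderOf_mul_eq_mul_orderOf_of_coprime hcop, hx, hc]

end

/-- Let G and M be finite groups with trivial centres and the same set of conjugacy class sizes, and suppose the prime graph of M is disconnected: the prime divisors of #M split into two non-empty parts such that M has no element of order pq with p in one part and q in the other. Then #G = #M. -/
theorem result {G M : Type*}
    [Group G] [Finite G] [Group M] [Finite M] (hZG : Subgroup.center G = ⊥) (hZM : Subgroup.center M = ⊥)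
    (h : Set.range (fun g : G => (Subgroup.centralizer ({g} : Set G)).index) = Set.range (fun g : M => (Subgroup.centralizer ({g} : Set M)).index))
    (hdisc : ∃ A : Set ℕ, (∃ a ∈ A, a.Prime ∧ a ∣ Nat.card M) ∧ (∃ b ∉ A, b.Prime ∧ b ∣ Nat.card M) ∧
      ∀ a ∈ A, ∀ b ∉ A, a.Prime → b.Prime → a ∣ Nat.card M → b ∣ Nat.card M → ¬ ∃ x : M, orderOf x = a * b) :
    Nat.card G = Nat.card M := by
  classical
  obtain ⟨A, ⟨a, haA, hap, had⟩, ⟨b, hbA, hbp, hbd⟩, hno⟩ := hdisc
  obtain ⟨u, v, huv, hcop, hu, hv⟩ :=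
    Cfsg.Agent.Lib.FrobCount.exists_split (· ∈ A) (Nat.card M) Nat.card_pos
  have huv' : Nat.card M = u * v := huv.symm
  have huv'' : Nat.card M = v * u := by rw [huv', mul_comm]
  -- types of class sizes in `M`
  have htype : ∀ (m : M) (q : ℕ), q.Prime → q ∣ orderOf m →
      (q ∈ A → v ∣ idx m ∧ ¬ u ∣ idx m) ∧ (q ∉ A → u ∣ idx m ∧ ¬ v ∣ idx m) := by
    intro m q hq hqm
    have hqM : q ∣ Nat.card M := hqm.trans (orderOf_dvd_natCard m)
    constructor
    · intro hqA
      refine size_type huv' hcop ⟨q, hq, hqm⟩ ?_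
      intro r hr hrC hrv
      have hrA : r ∉ A := fun hrA => hv r hr hrv hrA
      have hqr : q ≠ r := fun e => hrA (e ▸ hqA)
      haveI : Fact r.Prime := ⟨hr⟩
      obtain ⟨c, hc⟩ := exists_prime_orderOf_dvd_card' (G := centralizer ({m} : Set M)) r hrC
      have hcm : Commute (c : M) m := by
        have := c.2
        exact Subgroup.mem_centralizer_singleton_iff.mp this
      have hc' : orderOf (c : M) = r := by rw [Subgroup.orderOf_coe, hc]
      exact hno q hqA r hrA hq hr hqM (hrC.trans (Subgroup.card_subgroup_dvd_card _))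
        (exists_order_mul hq hqm hr hqr hc' hcm)
    · intro hqA
      refine size_type huv'' hcop.symm ⟨q, hq, hqm⟩ ?_
      intro r hr hrC hru
      have hrA : r ∈ A := hu r hr hru
      have hqr : q ≠ r := fun e => hqA (e ▸ hrA)
      haveI : Fact r.Prime := ⟨hr⟩
      obtain ⟨c, hc⟩ := exists_prime_orderOf_dvd_card' (G := centralizer ({m} : Set M)) r hrC
      have hcm : Commute (c : M) m := by
        have := c.2
        exact Subgroup.mem_centralizer_singleton_iff.mp this
      have hc' : orderOf (c : M) = r := by rw [Subgroup.orderOf_coe, hc]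
      obtain ⟨x, hx⟩ := exists_order_mul hq hqm hr hqr hc' hcm
      exact hno r hrA q hqA hr hq (hrC.trans (Subgroup.card_subgroup_dvd_card _)) hqM
        ⟨x, by rw [hx, mul_comm]⟩
  -- transfer to `G`
  have hmem : ∀ g : G, ∃ m : M, idx m = idx g := by
    intro g
    have : (Subgroup.centralizer ({g} : Set G)).index ∈
        Set.range (fun g : G => (Subgroup.centralizer ({g} : Set G)).index) := ⟨g, rfl⟩
    rw [h] at this
    exact this
  have hmem' : ∀ m : M, ∃ g : G, idx g = idx m := by
    intro m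
    have : (Subgroup.centralizer ({m} : Set M)).index ∈
        Set.range (fun g : M => (Subgroup.centralizer ({g} : Set M)).index) := ⟨m, rfl⟩
    rw [← h] at this
    exact this
  have hidx1 : idx (1 : G) = 1 := idx_one
  have H : ∀ g : G, g ≠ 1 → idx g ∣ u * v ∧
      ((u ∣ idx g ∧ ¬ v ∣ idx g) ∨ (v ∣ idx g ∧ ¬ u ∣ idx g)) := by
    intro g hg
    obtain ⟨m, hm⟩ := hmem g
    have hm1 : m ≠ 1 := by
      rintro rfl
      rw [idx_one] at hm
      exact idx_ne_one hZG hg hm.symm
    rw [← hm]
    refine ⟨huv' ▸ Subgroup.index_dvd_card _, ?_⟩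
    have hord : orderOf m ≠ 1 := fun h => hm1 (orderOf_eq_one_iff.mp h)
    obtain ⟨q, hq, hqm⟩ := Nat.exists_prime_and_dvd hord
    obtain ⟨h1, h2⟩ := htype m q hq hqm
    by_cases hqA : q ∈ A
    · exact Or.inr (h1 hqA)
    · exact Or.inl (h2 hqA)
  -- `u * v` divides the order of `G`
  have hdv : ∀ (r : ℕ), r.Prime → r ∣ Nat.card M → (r ∈ A → v ∣ Nat.card G) ∧ (r ∉ A → u ∣ Nat.card G) := by
    intro r hr hrd
    haveI : Fact r.Prime := ⟨hr⟩
    obtain ⟨m, hm⟩ := exists_prime_orderOf_dvd_card' (G := M) r hrd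
    obtain ⟨g, hg⟩ := hmem' m
    obtain ⟨h1, h2⟩ := htype m r hr (hm ▸ dvd_rfl)
    constructor
    · intro hrA
      exact (h1 hrA).1.trans (hg ▸ Subgroup.index_dvd_card _)
    · intro hrA
      exact (h2 hrA).1.trans (hg ▸ Subgroup.index_dvd_card _)
  have hvG := (hdv a hap had).1 haA
  have huG := (hdv b hbp hbd).2 hbA
  obtain ⟨t, ht⟩ := hcop.mul_dvd_of_dvd_of_dvd huG hvG
  have hau : a ∣ u := by
    rw [huv'] at had
    rcases (Nat.Prime.dvd_mul hap).mp had with h1 | h1
    · exact h1
    · exact absurd haA (hv a hap h1)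
  have hbv : b ∣ v := by
    rw [huv'] at hbd
    rcases (Nat.Prime.dvd_mul hbp).mp hbd with h1 | h1
    · exact absurd (hu b hbp h1) hbA
    · exact h1
  have ht1 : t = 1 := by
    by_contra hne
    obtain ⟨q, hq, hqt⟩ := Nat.exists_prime_and_dvd hne
    by_cases hqu : q ∣ u
    · exact core hZG ht hcop H hq hqt hqu hbp hbv
    by_cases hqv : q ∣ v
    · have ht' : Nat.card G = v * u * t := by rw [ht]; ring
      refine core hZG ht' hcop.symm ?_ hq hqt hqv hap hau
      intro g hg
      obtain ⟨h1, h2⟩ := H g hg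
      exact ⟨by rwa [mul_comm], h2.symm⟩
    · refine central_of_coprime hZG hq ?_ ?_
      · rw [ht]
        exact Dvd.dvd.mul_left hqt _
      · intro g hd
        by_cases hg : g = 1
        · subst hg
          rw [hidx1] at hd
          exact hq.one_lt.ne' (Nat.dvd_one.mp hd)
        · rcases (Nat.Prime.dvd_mul hq).mp (hd.trans (H g hg).1) with h1 | h1
          · exact hqu h1
          · exact hqv h1
  rw [ht, ht1, mul_one, huv']

end Cfsg.Agent.S4184
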