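import Mathlib
import Cfsg.Statements.S4186

set_option autoImplicit false
open Cfsg

namespace Cfsg.Agent.S4186

/-- Let T and X be subgroups of a group with T a finite 2-group normalizing X but not centralizing it. Then some element of T inverts some non-identity element of X under conjugation. -/
theorem result {G : Type*} [Group G] (T X : Subgroup G) [Finite ↥T] (hT : IsPGroup 2 ↥T) (hTN : T ≤ Subgroup.normalizer (X : Set G)) (hTC : ¬ T ≤ Subgroup.centralizer (X : Set G)) : ∃ t ∈ T, ∃ x ∈ X, x ≠ 1 ∧ t * x * t⁻¹ = x⁻¹ := by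
  classical
  -- pick `t ∈ T` not centralizing `X` with `t ^ 2` centralizing `X`
  obtain ⟨t₀, ht₀, ht₀c⟩ := Set.not_subset.mp hTC
  obtain ⟨k, hk⟩ := hT ⟨t₀, ht₀⟩
  have hk' : t₀ ^ (2 ^ k) = 1 := by
    have := congrArg Subtype.val hk
    simpa using this
  -- the least `j` with `t₀ ^ (2 ^ j)` centralizing `X`
  have hex : ∃ j, t₀ ^ (2 ^ j) ∈ Subgroup.centralizer (X : Set G) :=
    ⟨k, by rw [hk']; exact Subgroup.one_mem _⟩
  classical
  let j := Nat.find hex
  have hj : t₀ ^ (2 ^ j) ∈ Subgroup.centralizer (X : Set G) := Nat.find_spec hex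
  have hj0 : j ≠ 0 := by
    intro h0
    have : t₀ ^ (2 ^ j) = t₀ := by simp [h0]
    rw [this] at hj
    exact ht₀c hj
  obtain ⟨i, hi⟩ := Nat.exists_eq_succ_of_ne_zero hj0
  have hmin : t₀ ^ (2 ^ i) ∉ Subgroup.centralizer (X : Set G) := by
    have : i < j := by omega
    exact Nat.find_min hex this
  set t := t₀ ^ (2 ^ i) with ht
  have htT : t ∈ T := T.pow_mem ht₀ _
  have ht2 : t ^ 2 ∈ Subgroup.centralizer (X : Set G) := by
    have : t ^ 2 = t₀ ^ (2 ^ j) := by
      rw [hi, ht, ← pow_mul, pow_succ]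
    rw [this]; exact hj
  -- choose x not commuting
  rw [Subgroup.mem_centralizer_iff] at hmin
  push Not at hmin
  obtain ⟨x, hx, hxt⟩ := hmin
  have hnorm := hTN htT
  rw [Subgroup.mem_normalizer_iff] at hnorm
  have htx : t * x * t⁻¹ ∈ X := (hnorm x).mp hx
  refine ⟨t, htT, x⁻¹ * (t * x * t⁻¹), X.mul_mem (X.inv_mem hx) htx, ?_, ?_⟩
  · intro h
    apply hxt
    have h1 : t * x * t⁻¹ = x := by
      have := congrArg (fun z => x * z) h
      simpa using this
    have h2 : t * x = x * t := by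
      calc t * x = t * x * t⁻¹ * t := by group
        _ = x * t := by rw [h1]
    exact h2.symm
  · have hc : t ^ 2 * x = x * t ^ 2 := by
      have := (Subgroup.mem_centralizer_iff.mp ht2) x hx
      exact this.symm
    have h3 : t * (t * x * t⁻¹) * t⁻¹ = x := by
      calc t * (t * x * t⁻¹) * t⁻¹ = t ^ 2 * x * (t ^ 2)⁻¹ := by
            simp only [pow_two, mul_inv_rev, mul_assoc]
        _ = x * t ^ 2 * (t ^ 2)⁻¹ := by rw [hc]
        _ = x := by group
    calc t * (x⁻¹ * (t * x * t⁻¹)) * t⁻¹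
        = (t * x⁻¹ * t⁻¹) * (t * (t * x * t⁻¹) * t⁻¹) := by group
      _ = (t * x⁻¹ * t⁻¹) * x := by rw [h3]
      _ = (x⁻¹ * (t * x * t⁻¹))⁻¹ := by group

end Cfsg.Agent.S4186
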