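import Mathlib
import Cfsg.Statements.S4188
import Cfsg.Agent.Lib.OddAutTwo

set_option autoImplicit false

open Cfsg

namespace Cfsg.Agent.S4188

/-- Let G be a finite group that is the semidirect product of a normal abelian subgroup N of odd order by a 2-subgroup P, and suppose N is the unique minimal normal subgroup of G. Then the index of the Frattini subgroup of P in P is at most #N − 1. -/
theorem result {G : Type*} [Group G] [Finite G] (N P : Subgroup G) (hN : N.Normal) (hNab : IsMulCommutative ↥N) (hNodd : Odd (Nat.card ↥N)) (hP : IsPGroup 2 ↥P) (hdisj : N ⊓ P = ⊥) (hprod : N ⊔ P = ⊤) (hmin : N ≠ ⊥ ∧ ∀ M : Subgroup G, M.Normal → M ≠ ⊥ → N ≤ M) : (frattini ↥P).index ≤ Nat.card ↥N - 1 := by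
  classical
  letI : CommGroup N :=
    { (inferInstance : Group N) with
      mul_comm := fun a b => mul_comm' a b }
  let ρ : P →* MulAut N := (MulAut.conjNormal (H := N)).comp P.subtype
  have hρapp : ∀ (p : P) (n : N), ((ρ p n : N) : G) = (p : G) * n * (p : G)⁻¹ := fun p n =>
    MulAut.conjNormal_apply (p : G) n
  -- the kernel is trivial
  have hinj : Function.Injective ρ := by
    rw [injective_iff_map_eq_one]
    intro p hp
    -- elements of `P` centralizing `N`
    let T : Subgroup G := P ⊓ Subgroup.centralizer (N : Set G)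
    have hTmem : ∀ x, x ∈ T ↔ x ∈ P ∧ ∀ n ∈ N, n * x = x * n := by
      intro x
      rw [Subgroup.mem_inf, Subgroup.mem_centralizer_iff]
      rfl
    have hTn : T.Normal := by
      constructor
      intro x hx g
      have hg : g ∈ N ⊔ P := by rw [hprod]; exact Subgroup.mem_top g
      obtain ⟨n, hn, q, hq, rfl⟩ := Subgroup.mem_sup_of_normal_left.mp hg
      rw [hTmem] at hx ⊢
      have hy : q * x * q⁻¹ ∈ P := P.mul_mem (P.mul_mem hq hx.1) (P.inv_mem hq)
      have hyc : ∀ m ∈ N, m * (q * x * q⁻¹) = (q * x * q⁻¹) * m := by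
        intro m hm
        have h1 : q⁻¹ * m * q ∈ N := by
          simpa using hN.conj_mem m hm q⁻¹
        have h2 := hx.2 _ h1
        calc m * (q * x * q⁻¹) = q * ((q⁻¹ * m * q) * x) * q⁻¹ := by group
          _ = q * (x * (q⁻¹ * m * q)) * q⁻¹ := by rw [h2]
          _ = (q * x * q⁻¹) * m := by group
      have h3 : n * q * x * (n * q)⁻¹ = q * x * q⁻¹ := by
        have h4 := hyc n hn
        calc n * q * x * (n * q)⁻¹ = n * (q * x * q⁻¹) * n⁻¹ := by group
          _ = q * x * q⁻¹ := by rw [h4]; group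
      rw [h3]
      exact ⟨hy, hyc⟩
    have hTbot : T = ⊥ := by
      by_contra hne
      have hNT : N ≤ T := hmin.2 T hTn hne
      apply hmin.1
      rw [eq_bot_iff, ← hdisj]
      exact le_inf le_rfl (hNT.trans inf_le_left)
    have hpT : (p : G) ∈ T := by
      rw [hTmem]
      refine ⟨p.2, fun n hn => ?_⟩
      have h1 : ((ρ p ⟨n, hn⟩ : N) : G) = n := by
        rw [hp]
        rfl
      rw [hρapp] at h1
      exact (mul_inv_eq_iff_eq_mul.mp h1).symm
    rw [hTbot, Subgroup.mem_bot] at hpT
    exact Subtype.ext hpT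
  have hgood := Lib.OddAutTwo.good_main (Nat.card N) N P ρ hinj hP hNodd rfl
  have hne1 : Nat.card N ≠ 1 := fun h => hmin.1 (Subgroup.card_eq_one.mp h)
  exact hgood.le_sub_one hne1 Nat.card_pos.ne'

end Cfsg.Agent.S4188
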