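import Mathlib
import Cfsg.Statements.S4189
import Cfsg.Agent.Lib.Frat
import Cfsg.Agent.Lib.UniqueSub

set_option autoImplicit false
open Cfsg
open scoped commutatorElement

namespace Cfsg.Agent.S4189

section R
variable {R : Type*} [Group R]

lemma comm_mul_left (hD : commutator R ≤ Subgroup.center R) (a b c : R) :
    ⁅a * b, c⁆ = ⁅a, c⁆ * ⁅b, c⁆ := by
  have hz : ∀ g, g * ⁅b, c⁆ = ⁅b, c⁆ * g := fun g =>
    (Subgroup.mem_center_iff.mp (hD (Subgroup.commutator_mem_commutator trivial trivial)) g)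
  have e1 : ⁅a * b, c⁆ = a * ⁅b, c⁆ * (c * a⁻¹ * c⁻¹) := by
    simp only [commutatorElement_def]; group
  calc ⁅a * b, c⁆ = a * ⁅b, c⁆ * (c * a⁻¹ * c⁻¹) := e1
    _ = ⁅b, c⁆ * a * (c * a⁻¹ * c⁻¹) := by rw [hz a]
    _ = ⁅b, c⁆ * ⁅a, c⁆ := by
      rw [commutatorElement_def a c]; simp only [mul_assoc]
    _ = ⁅a, c⁆ * ⁅b, c⁆ := (hz _).symm

lemma comm_mul_right (hD : commutator R ≤ Subgroup.center R) (a b c : R) :
    ⁅a, b * c⁆ = ⁅a, b⁆ * ⁅a, c⁆ := by
  have hz : ∀ g, g * ⁅a, c⁆ = ⁅a, c⁆ * g := fun g =>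
    (Subgroup.mem_center_iff.mp (hD (Subgroup.commutator_mem_commutator trivial trivial)) g)
  have e1 : ⁅a, b * c⁆ = ⁅a, b⁆ * (b * ⁅a, c⁆ * b⁻¹) := by
    simp only [commutatorElement_def]; group
  rw [e1, hz b]
  group

/-- Lemma R. -/
theorem lemmaR (hD : commutator R ≤ Subgroup.center R) (β : R ≃* R) (x : R)
    (h2 : x * x ∈ commutator R)
    (h3 : (x * β x)⁻¹ * β (β x) ∈ commutator R)
    (h4 : ∀ g, g ∈ commutator R ∨ x⁻¹ * g ∈ commutator R ∨ (β x)⁻¹ * g ∈ commutator R ∨
      (x * β x)⁻¹ * g ∈ commutator R) :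
    (∀ r ∈ commutator R, r = 1 ∨ r = x * x) ∧ (commutator R ≠ ⊥ → x * x ≠ 1) := by
  set y := β x with hy
  set c := ⁅x, y⁆ with hc
  set Z := Subgroup.zpowers c with hZ
  have hcent : ∀ r ∈ commutator R, ∀ g, g * r = r * g := fun r hr g =>
    Subgroup.mem_center_iff.mp (hD hr) g
  have hcL : ∀ r ∈ commutator R, ∀ g : R, ⁅r, g⁆ = 1 := by
    intro r hr g
    rw [commutatorElement_eq_one_iff_mul_comm]
    exact (hcent r hr g).symm
  have hcR : ∀ r ∈ commutator R, ∀ g : R, ⁅g, r⁆ = 1 := by
    intro r hr g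
    rw [commutatorElement_eq_one_iff_mul_comm]
    exact hcent r hr g
  have hcZ : c ∈ Z := Subgroup.mem_zpowers c
  have hyx : ⁅y, x⁆ = c⁻¹ := by rw [hc, commutatorElement_inv]
  have hA : ∀ g : R, ⁅g, x⁆ ∈ Z ∧ ⁅g, y⁆ ∈ Z := by
    have hAx : ⁅x, x⁆ ∈ Z ∧ ⁅x, y⁆ ∈ Z := ⟨by rw [commutatorElement_self]; exact Z.one_mem, hcZ⟩
    have hAy : ⁅y, x⁆ ∈ Z ∧ ⁅y, y⁆ ∈ Z :=
      ⟨by rw [hyx]; exact Z.inv_mem hcZ, by rw [commutatorElement_self]; exact Z.one_mem⟩
    have hAr : ∀ r ∈ commutator R, ⁅r, x⁆ ∈ Z ∧ ⁅r, y⁆ ∈ Z := fun r hr =>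
      ⟨by rw [hcL r hr]; exact Z.one_mem, by rw [hcL r hr]; exact Z.one_mem⟩
    have hmul : ∀ a b : R, (⁅a, x⁆ ∈ Z ∧ ⁅a, y⁆ ∈ Z) → (⁅b, x⁆ ∈ Z ∧ ⁅b, y⁆ ∈ Z) →
        (⁅a * b, x⁆ ∈ Z ∧ ⁅a * b, y⁆ ∈ Z) := by
      intro a b ha hb
      rw [comm_mul_left hD, comm_mul_left hD]
      exact ⟨Z.mul_mem ha.1 hb.1, Z.mul_mem ha.2 hb.2⟩
    intro g
    rcases h4 g with h | h | h | h
    · exact hAr g h
    · have : g = x * (x⁻¹ * g) := by group
      rw [this]
      exact hmul _ _ hAx (hAr _ h)
    · have : g = y * (y⁻¹ * g) := by group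
      rw [this]
      exact hmul _ _ hAy (hAr _ h)
    · have : g = x * y * ((x * y)⁻¹ * g) := by group
      rw [this]
      exact hmul _ _ (hmul _ _ hAx hAy) (hAr _ h)
  have hB : ∀ g h : R, ⁅g, h⁆ ∈ Z := by
    intro g h
    have hBr : ∀ r ∈ commutator R, ⁅g, r⁆ ∈ Z := fun r hr => by
      rw [hcR r hr]; exact Z.one_mem
    have hmul : ∀ a b : R, ⁅g, a⁆ ∈ Z → ⁅g, b⁆ ∈ Z → ⁅g, a * b⁆ ∈ Z := by
      intro a b ha hb
      rw [comm_mul_right hD]
      exact Z.mul_mem ha hb
    rcases h4 h with h' | h' | h' | h'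
    · exact hBr h h'
    · have : h = x * (x⁻¹ * h) := by group
      rw [this]
      exact hmul _ _ (hA g).1 (hBr _ h')
    · have : h = y * (y⁻¹ * h) := by group
      rw [this]
      exact hmul _ _ (hA g).2 (hBr _ h')
    · have : h = x * y * ((x * y)⁻¹ * h) := by group
      rw [this]
      exact hmul _ _ (hmul _ _ (hA g).1 (hA g).2) (hBr _ h')
  have hDZ : commutator R ≤ Z := by
    rw [commutator_def, Subgroup.commutator_le]
    exact fun g _ h _ => hB g h
  have hcc : c * c = 1 := by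
    have h5 := comm_mul_left hD x x y
    rw [hcL _ h2] at h5
    exact h5.symm
  have hr : ∀ r ∈ commutator R, r = 1 ∨ r = c := by
    intro r hr
    obtain ⟨k, rfl⟩ := Subgroup.mem_zpowers_iff.mp (hDZ hr)
    have hc2 : c ^ (2 : ℤ) = 1 := by
      rw [show (2 : ℤ) = ((2 : ℕ) : ℤ) from rfl, zpow_natCast, sq, hcc]
    rcases Int.even_or_odd' k with ⟨m, rfl | rfl⟩
    · left
      rw [zpow_mul, hc2, one_zpow]
    · right
      rw [zpow_add, zpow_mul, hc2, one_zpow, one_mul, zpow_one]
  have hclaim : x * x = 1 → c = 1 := by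
    intro hs
    have hyy : y * y = 1 := by
      rw [hy, ← map_mul, hs, map_one]
    have hzz : β y * β y = 1 := by
      rw [← map_mul, hyy, map_one]
    set r := (x * y)⁻¹ * β y with hrdef
    have hrD : r ∈ commutator R := h3
    have hrr : r * r = 1 := by
      rcases hr r hrD with h | h
      · rw [h, one_mul]
      · rw [h, hcc]
    have hz : β y = x * y * r := by rw [hrdef]; group
    have h6 : (x * y) * (x * y) = 1 := by
      have : (x * y * r) * (x * y * r) = (x * y) * (x * y) * (r * r) := by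
        have e := hcent r hrD (x * y)
        calc (x * y * r) * (x * y * r) = (x * y) * (r * (x * y)) * r := by group
          _ = (x * y) * ((x * y) * r) * r := by rw [← e]
          _ = (x * y) * (x * y) * (r * r) := by group
      rw [hrr, mul_one, ← hz, hzz] at this
      exact this.symm
    -- (xy)(xy) = [y,x]
    have h7 : (x * y) * (x * y) = ⁅y, x⁆ := by
      have e : y * x = ⁅y, x⁆ * x * y := by
        simp only [commutatorElement_def]; group
      have e2 := hcent _ (Subgroup.commutator_mem_commutator (Subgroup.mem_top y)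
        (Subgroup.mem_top x)) x
      calc (x * y) * (x * y) = x * (y * x) * y := by group
        _ = x * (⁅y, x⁆ * x * y) * y := by rw [e]
        _ = (x * ⁅y, x⁆) * x * (y * y) := by group
        _ = ⁅y, x⁆ * (x * x) * (y * y) := by rw [e2]; group
        _ = ⁅y, x⁆ := by rw [hs, hyy]; group
    rw [h7, hyx] at h6
    exact inv_eq_one.mp h6
  constructor
  · intro r hrD
    rcases hr r hrD with h | h
    · exact Or.inl h
    · rcases hr _ h2 with hs | hs
      · left
        rw [h]
        exact hclaim hs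
      · right
        rw [h, hs]
  · intro hne hs
    apply hne
    rw [eq_bot_iff]
    intro r hrD
    rw [Subgroup.mem_bot]
    rcases hr r hrD with h | h
    · exact h
    · rw [h]
      exact hclaim hs

end R

section V
variable {V : Type*} [Group V]

lemma four_elems [Finite V] (hcard : Nat.card V = 4) (a b c d : V) (hab : a ≠ b) (hac : a ≠ c)
    (had : a ≠ d) (hbc : b ≠ c) (hbd : b ≠ d) (hcd : c ≠ d) (g : V) :
    g = a ∨ g = b ∨ g = c ∨ g = d := by
  classical
  haveI := Fintype.ofFinite V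
  have h : ({a, b, c, d} : Finset V) = Finset.univ := by
    apply Finset.eq_univ_of_card
    rw [← Nat.card_eq_fintype_card, hcard]
    simp [hab, hac, had, hbc, hbd, hcd]
  have h1 := Finset.mem_univ g
  rw [← h] at h1
  simpa using h1

lemma V4_aut [Finite V] (hcard : Nat.card V = 4) (β : V ≃* V) (q : ℕ) (hq : Odd q)
    (hβq : ∀ v, (β ^ q) v = v) (hβ : ∃ v, β v ≠ v) :
    ∀ v, v ≠ 1 → v * v = 1 ∧ β v ≠ v ∧ β (β v) = v * β v ∧
      ∀ g, g = 1 ∨ g = v ∨ g = β v ∨ g = v * β v := by
  classical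
  -- β² fixes v ⇒ β fixes v
  have hsq : ∀ v, β (β v) = v → β v = v := by
    intro v hv
    obtain ⟨m, rfl⟩ := hq
    have h1 : ∀ k : ℕ, (β ^ (2 * k)) v = v := by
      intro k
      induction k with
      | zero => simp
      | succ k ih =>
        rw [show 2 * (k + 1) = 2 * k + 2 by ring, pow_add, MulAut.mul_apply, pow_two,
          MulAut.mul_apply, hv, ih]
    have h2 := hβq v
    rw [pow_succ', MulAut.mul_apply, h1 m] at h2
    exact h2
  have hne1 : ∀ v, v ≠ 1 → β v ≠ 1 := fun v hv h =>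
    hv (β.injective (by rw [h, map_one]))
  have hfpf : ∀ v, v ≠ 1 → β v ≠ v := by
    intro v hv hfix
    obtain ⟨g0, hg0⟩ := hβ
    -- every g satisfies β² g = g
    have hall : ∀ g, β (β g) = g := by
      intro g
      by_cases hg1 : g = 1
      · rw [hg1, map_one, map_one]
      by_cases hgv : g = v
      · rw [hgv, hfix, hfix]
      by_cases hfg : β g = g
      · rw [hfg, hfg]
      have hb1 : β g ≠ 1 := hne1 g hg1
      have hbv : β g ≠ v := by
        intro h
        apply hgv
        apply β.injective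
        rw [h, hfix]
      rcases four_elems hcard 1 v g (β g) (Ne.symm hv) (Ne.symm hg1) (Ne.symm hb1)
        (Ne.symm hgv) (Ne.symm hbv) (Ne.symm hfg) (β (β g)) with h | h | h | h
      · exact absurd h (hne1 _ hb1)
      · exfalso
        apply hbv
        apply β.injective
        rw [h, hfix]
      · exact h
      · exfalso
        exact hfg (β.injective h)
    exact hg0 (hsq g0 (hall g0))
  intro v hv
  have h1 : β v ≠ v := hfpf v hv
  have hb1 : β v ≠ 1 := hne1 v hv
  have hbb1 : β (β v) ≠ 1 := hne1 _ hb1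
  have hbbv : β (β v) ≠ v := fun h => h1 (hsq v h)
  have hbbb : β (β v) ≠ β v := fun h => h1 (β.injective h)
  have hall : ∀ g, g = 1 ∨ g = v ∨ g = β v ∨ g = β (β v) :=
    four_elems hcard 1 v (β v) (β (β v)) (Ne.symm hv) (Ne.symm hb1) (Ne.symm hbb1)
      (Ne.symm h1) (Ne.symm hbbv) (Ne.symm hbbb)
  have hprod : β (β v) = v * β v := by
    rcases hall (v * β v) with h | h | h | h
    · exfalso
      have e : β v = v⁻¹ := eq_inv_of_mul_eq_one_right h
      have e2 : β (β v) = v := by
        rw [e, map_inv, e, inv_inv]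
      exact hbbv e2
    · exfalso
      exact hb1 (mul_eq_left.mp h)
    · exfalso
      exact hv (mul_eq_right.mp h)
    · exact h.symm
  have hfour : ∀ w : V, w * w * (w * w) = 1 := by
    intro w
    have : w ^ 4 = 1 := by
      rw [← hcard]; exact pow_card_eq_one'
    calc w * w * (w * w) = w ^ 4 := by simp only [pow_succ, pow_zero, one_mul, mul_assoc]
      _ = 1 := this
  have hvv : v * v = 1 := by
    rcases hall (v * v) with h | h | h | h
    · exact h
    · exfalso
      exact hv (mul_eq_left.mp h)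
    · exfalso
      -- v² = β v : then (β v)² = 1, so v² = 1
      have h5 : β v * β v = 1 := by rw [← h]; exact hfour v
      have h6 : v * v = 1 := by
        apply β.injective
        rw [map_mul, h5, map_one]
      rw [h6] at h
      exact hb1 h.symm
    · exfalso
      have h5 : β (β v) * β (β v) = 1 := by rw [← h]; exact hfour v
      have h6 : v * v = 1 := by
        apply β.injective
        apply β.injective
        rw [map_mul, map_mul, h5, map_one, map_one]
      rw [h6] at h
      exact hbb1 h.symm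
  refine ⟨hvv, h1, hprod, ?_⟩
  rw [← hprod]
  exact hall

end V

section PP
variable {P : Type*} [Group P] [Finite P]

lemma finite_aut : Finite (MulAut P) :=
  Finite.of_injective (fun f : P ≃* P => (f : P → P)) DFunLike.coe_injective

lemma exists_odd_aut (haut : ¬ IsPGroup 2 (MulAut P)) :
    ∃ (q : ℕ) (α : MulAut P), q.Prime ∧ q ≠ 2 ∧ orderOf α = q := by
  classical
  haveI : Finite (MulAut P) := finite_aut
  by_contra hcon
  push Not at hcon
  apply haut
  rw [IsPGroup.iff_card]
  refine ⟨_, Nat.eq_prime_pow_of_unique_prime_dvd Nat.card_pos.ne' ?_⟩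
  intro d hd hdvd
  by_contra hd2
  haveI := Fact.mk hd
  obtain ⟨x, hx⟩ := exists_prime_orderOf_dvd_card' d hdvd
  exact hcon d x hd hd2 hx

lemma aut_trivial (hP : IsPGroup 2 P) (q : ℕ) [hq : Fact q.Prime] (hq2 : q ≠ 2) (α : MulAut P)
    (hα : α ^ q = 1) (hC : ∀ x, x⁻¹ * α x ∈ commutator P) : α = 1 := by
  classical
  let F : Subgroup P :=
    { carrier := {x | α x = x}
      mul_mem' := by
        intro a b ha hb
        show α (a * b) = a * b
        rw [map_mul, show α a = a from ha, show α b = b from hb]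
      one_mem' := by
        show α 1 = 1
        rw [map_one]
      inv_mem' := by
        intro a ha
        show α a⁻¹ = a⁻¹
        rw [map_inv, show α a = a from ha] }
  have hcoset : ∀ x : P, ∃ f ∈ F, x⁻¹ * f ∈ commutator P := by
    intro x
    let X := {g : P // x⁻¹ * g ∈ commutator P}
    haveI : Fintype X := Fintype.ofFinite X
    let f : Function.End X := fun g => ⟨α g.1, by
      have h1 := (commutator P).mul_mem g.2 (hC g.1)
      have e : x⁻¹ * g.1 * (g.1⁻¹ * α g.1) = x⁻¹ * α g.1 := by group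
      rwa [e] at h1⟩
    have hfpow : ∀ n : ℕ, ∀ g : X, ((f ^ n) g).1 = (α ^ n) g.1 := by
      intro n
      induction n with
      | zero => intro g; rfl
      | succ n ih =>
        intro g
        rw [pow_succ', pow_succ']
        show (f ((f ^ n) g)).1 = _
        show α ((f ^ n) g).1 = _
        rw [ih]
        rfl
    have hf : f ^ q ^ 1 = 1 := by
      rw [pow_one]
      funext g
      apply Subtype.ext
      rw [hfpow, hα]
      rfl
    have hmod := Equiv.Perm.card_fixedPoints_modEq (p := q) (n := 1) hf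
    have hXcard : Fintype.card X = Nat.card (commutator P) := by
      rw [← Nat.card_eq_fintype_card]
      apply Nat.card_congr
      exact
        { toFun := fun g => ⟨x⁻¹ * g.1, g.2⟩
          invFun := fun c => ⟨x * c.1, by simpa using c.2⟩
          left_inv := fun g => by apply Subtype.ext; simp
          right_inv := fun c => by apply Subtype.ext; simp }
    obtain ⟨k, hk⟩ := IsPGroup.iff_card.mp (hP.to_subgroup (commutator P))
    rw [hXcard, hk] at hmod
    by_cases hne : Nonempty (Function.fixedPoints f)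
    · obtain ⟨⟨g, hg⟩⟩ := hne
      have h1 : α g.1 = g.1 := congrArg Subtype.val hg
      exact ⟨g.1, h1, g.2⟩
    · exfalso
      rw [not_nonempty_iff] at hne
      rw [Fintype.card_eq_zero (α := Function.fixedPoints f)] at hmod
      have hd : q ∣ 2 ^ k := (Nat.modEq_zero_iff_dvd).mp hmod
      have := (Nat.prime_dvd_prime_iff_eq hq.out Nat.prime_two).mp (hq.out.dvd_of_dvd_pow hd)
      exact hq2 this
  have hsup : F ⊔ frattini P = ⊤ := by
    rw [eq_top_iff]
    intro x _
    obtain ⟨f, hf, hxf⟩ := hcoset x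
    have h1 : f⁻¹ * x ∈ frattini P := by
      apply Cfsg.Agent.Lib.Frat.commutator_le_frattini hP
      have := (commutator P).inv_mem hxf
      simpa using this
    have e : x = f * (f⁻¹ * x) := by group
    rw [e]
    exact Subgroup.mul_mem_sup hf h1
  have hF : F = ⊤ := frattini_nongenerating hsup
  ext x
  have : x ∈ F := by rw [hF]; trivial
  exact this

lemma eq_bot_of_le_comm [Group.IsNilpotent P] (K : Subgroup P) (hK : K ≤ ⁅K, (⊤ : Subgroup P)⁆) :
    K = ⊥ := by
  have h : ∀ n, K ≤ (⊤ : Subgroup P).lowerCentralSeries n := by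
    intro n
    induction n with
    | zero => exact le_top
    | succ n ih =>
      rw [Subgroup.lowerCentralSeries_succ]
      exact hK.trans (Subgroup.commutator_mono ih le_rfl)
  obtain ⟨n, hn⟩ := Subgroup.nilpotent_iff_lowerCentralSeries.mp (inferInstance : Group.IsNilpotent P)
  rw [eq_bot_iff, ← hn]
  exact h n

end PP

theorem result {P : Type*} [Group P] [Finite P] (hP : IsPGroup 2 P) (hna : ¬ IsMulCommutative P) (h4 : (commutator P).index = 4) (haut : ¬ IsPGroup 2 (MulAut P)) : Nonempty (P ≃* QuaternionGroup 2) := by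
  classical
  haveI hnil : Group.IsNilpotent P := hP.isNilpotent
  obtain ⟨q, α, hqp, hq2, hαq⟩ := exists_odd_aut haut
  haveI := Fact.mk hqp
  set C := commutator P with hCdef
  have hαC' : C.map α.toMonoidHom = C :=
    (Subgroup.characteristic_iff_map_eq.mp (inferInstance : C.Characteristic)) α
  have hαne : α ≠ 1 := by
    intro h
    rw [h, orderOf_one] at hαq
    exact hqp.one_lt.ne hαq
  have hαpow : α ^ q = 1 := by rw [← hαq]; exact pow_orderOf_eq_one α
  let β : (P ⧸ C) ≃* (P ⧸ C) := QuotientGroup.congr C C α hαC'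
  have hβmk : ∀ x : P, β (x : P ⧸ C) = ((α x : P) : P ⧸ C) := fun x => rfl
  have hVcard : Nat.card (P ⧸ C) = 4 := h4
  have hβpow : ∀ (n : ℕ) (x : P), (β ^ n) (x : P ⧸ C) = (((α ^ n) x : P) : P ⧸ C) := by
    intro n
    induction n with
    | zero => intro x; rfl
    | succ n ih =>
      intro x
      rw [pow_succ', pow_succ', MulAut.mul_apply, ih, MulAut.mul_apply, hβmk]
  have hβq : ∀ v, (β ^ q) v = v := by
    intro v
    obtain ⟨x, rfl⟩ := QuotientGroup.mk'_surjective C v
    show (β ^ q) (x : P ⧸ C) = (x : P ⧸ C)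
    rw [hβpow, hαpow]
    rfl
  have hβne : ∃ v, β v ≠ v := by
    by_contra hcon
    push Not at hcon
    apply hαne
    apply aut_trivial hP q hq2 α hαpow
    intro x
    have h1 := hcon (x : P ⧸ C)
    rw [hβmk] at h1
    exact QuotientGroup.eq.mp h1.symm
  have key := V4_aut hVcard β q (hqp.odd_of_ne_two hq2) hβq hβne
  have hmk1 : ∀ x : P, (x : P ⧸ C) = 1 ↔ x ∈ C := fun x => QuotientGroup.eq_one_iff x
  have hP1 : ∀ x, x ∉ C → x * x ∈ C ∧ (x * α x)⁻¹ * α (α x) ∈ C ∧
      ∀ g, g ∈ C ∨ x⁻¹ * g ∈ C ∨ (α x)⁻¹ * g ∈ C ∨ (x * α x)⁻¹ * g ∈ C := by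
    intro x hx
    obtain ⟨h1, -, h3, h5⟩ := key (x : P ⧸ C) (fun h => hx ((hmk1 x).mp h))
    refine ⟨?_, ?_, ?_⟩
    · rw [← hmk1]; exact h1
    · rw [hβmk, hβmk] at h3
      exact QuotientGroup.eq.mp h3.symm
    · intro g
      rcases h5 (g : P ⧸ C) with h | h | h | h
      · left; exact (hmk1 g).mp h
      · right; left; exact QuotientGroup.eq.mp h.symm
      · right; right; left
        rw [hβmk] at h
        exact QuotientGroup.eq.mp h.symm
      · right; right; right
        rw [hβmk] at h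
        exact QuotientGroup.eq.mp h.symm
  -- the next layer
  let L2 : Subgroup P := ⁅C, (⊤ : Subgroup P)⁆
  haveI hL2n : L2.Normal := inferInstance
  have hL2C : L2 ≤ C := Subgroup.commutator_le_left C ⊤
  let π : P →* P ⧸ L2 := QuotientGroup.mk' L2
  have hπ : Function.Surjective π := QuotientGroup.mk'_surjective L2
  have hπker : ∀ x : P, π x = 1 ↔ x ∈ L2 := fun x => QuotientGroup.eq_one_iff x
  have hπeq : ∀ x y : P, π x = π y ↔ x⁻¹ * y ∈ L2 := fun x y => QuotientGroup.eq
  have hDR : commutator (P ⧸ L2) = C.map π := by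
    rw [hCdef, commutator_def, commutator_def, Subgroup.map_commutator,
      Subgroup.map_top_of_surjective _ hπ]
  have hDcent : commutator (P ⧸ L2) ≤ Subgroup.center (P ⧸ L2) := by
    rw [hDR]
    rintro _ ⟨p, hp, rfl⟩
    rw [Subgroup.mem_center_iff]
    intro g
    obtain ⟨h, rfl⟩ := hπ g
    have h1 : ⁅p, h⁆ ∈ L2 := Subgroup.commutator_mem_commutator hp trivial
    have h2 := (hπker _).mpr h1
    rw [map_commutatorElement, commutatorElement_eq_one_iff_mul_comm] at h2
    exact h2.symm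
  have hαL2 : L2.map α.toMonoidHom = L2 := by
    show (⁅C, (⊤ : Subgroup P)⁆).map α.toMonoidHom = _
    rw [Subgroup.map_commutator, hαC', Subgroup.map_top_of_surjective _ α.surjective]
  let γ : (P ⧸ L2) ≃* (P ⧸ L2) := QuotientGroup.congr L2 L2 α hαL2
  have hγmk : ∀ x : P, γ (π x) = π (α x) := fun x => rfl
  have hR : ∀ x, x ∉ C → (∀ r ∈ commutator (P ⧸ L2), r = 1 ∨ r = π x * π x) ∧
      (commutator (P ⧸ L2) ≠ ⊥ → π x * π x ≠ 1) := by
    intro x hx
    obtain ⟨h1, h2, h3⟩ := hP1 x hx
    apply lemmaR hDcent γ (π x)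
    · rw [hDR, ← map_mul]
      exact ⟨_, h1, rfl⟩
    · rw [hDR, hγmk, hγmk, ← map_mul, ← map_inv, ← map_mul]
      exact ⟨_, h2, rfl⟩
    · intro g
      obtain ⟨h, rfl⟩ := hπ g
      have e2 : (π x)⁻¹ * π h = π (x⁻¹ * h) := by simp
      have e3 : (π (α x))⁻¹ * π h = π ((α x)⁻¹ * h) := by simp
      have e4 : (π x * π (α x))⁻¹ * π h = π ((x * α x)⁻¹ * h) := by simp
      rw [hDR, hγmk, e2, e3, e4]
      rcases h3 h with h5 | h5 | h5 | h5
      · left; exact ⟨_, h5, rfl⟩
      · right; left; exact ⟨_, h5, rfl⟩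
      · right; right; left; exact ⟨_, h5, rfl⟩
      · right; right; right; exact ⟨_, h5, rfl⟩
  have hb : ∀ x, x ∉ C → ∀ r ∈ C, r ∈ L2 ∨ (x * x)⁻¹ * r ∈ L2 := by
    intro x hx r hr
    have h1 : π r ∈ commutator (P ⧸ L2) := by
      rw [hDR]; exact ⟨r, hr, rfl⟩
    rcases (hR x hx).1 _ h1 with h | h
    · left; exact (hπker r).mp h
    · right
      rw [← map_mul] at h
      exact (hπeq _ _).mp h.symm
  obtain ⟨x0, hx0⟩ : ∃ x0, x0 ∉ C := by
    by_contra hcon
    push Not at hcon
    have : C = ⊤ := eq_top_iff.mpr fun x _ => hcon x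
    rw [this, Subgroup.index_top] at h4
    omega
  have hL3 : L2 ≤ ⁅L2, (⊤ : Subgroup P)⁆ := by
    have h1 : ∀ h, h ∉ C → ∀ g ∈ C, ⁅g, h⁆ ∈ ⁅L2, (⊤ : Subgroup P)⁆ := by
      intro h hh g hg
      rcases hb h hh g hg with h5 | h5
      · exact Subgroup.commutator_mem_commutator h5 trivial
      · set u := (h * h)⁻¹ * g with hu
        have e : ⁅g, h⁆ = (h * h) * ⁅u, h⁆ * (h * h)⁻¹ := by
          rw [hu]
          simp only [commutatorElement_def]
          group
        rw [e]
        exact (inferInstance : (⁅L2, (⊤ : Subgroup P)⁆).Normal).conj_mem _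
          (Subgroup.commutator_mem_commutator h5 trivial) _
    show ⁅C, (⊤ : Subgroup P)⁆ ≤ _
    rw [Subgroup.commutator_le]
    intro g hg h _
    by_cases hh : h ∈ C
    · have hw : x0⁻¹ * h ∉ C := by
        intro hw
        apply hx0
        have := C.mul_mem hh (C.inv_mem hw)
        simpa using this
      have e : ⁅g, h⁆ = ⁅g, x0⁆ * (x0 * ⁅g, x0⁻¹ * h⁆ * x0⁻¹) := by
        simp only [commutatorElement_def]
        group
      rw [e]
      refine Subgroup.mul_mem _ (h1 x0 hx0 g hg) ?_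
      exact (inferInstance : (⁅L2, (⊤ : Subgroup P)⁆).Normal).conj_mem _ (h1 _ hw g hg) _
    · exact h1 h hh g hg
  have hL2bot : L2 = ⊥ := eq_bot_of_le_comm L2 hL3
  have hCne : C ≠ ⊥ := by
    intro hC
    apply hna
    refine ⟨⟨fun a b => ?_⟩⟩
    have h1 : ⁅a, b⁆ ∈ C := Subgroup.commutator_mem_commutator trivial trivial
    rw [hC, Subgroup.mem_bot, commutatorElement_eq_one_iff_mul_comm] at h1
    exact h1
  have hfinal : ∀ x, x ∉ C → x * x ≠ 1 ∧ ∀ r ∈ C, r = 1 ∨ r = x * x := by
    intro x hx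
    constructor
    · intro hxx
      have hne : commutator (P ⧸ L2) ≠ ⊥ := by
        rw [hDR]
        intro h0
        apply hCne
        rw [eq_bot_iff]
        intro r hr
        have h1 : π r ∈ C.map π := ⟨r, hr, rfl⟩
        rw [h0, Subgroup.mem_bot, hπker, hL2bot] at h1
        exact h1
      apply (hR x hx).2 hne
      rw [← map_mul, hxx, map_one]
    · intro r hr
      rcases hb x hx r hr with h | h
      · left
        rw [hL2bot, Subgroup.mem_bot] at h
        exact h
      · right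
        rw [hL2bot, Subgroup.mem_bot] at h
        exact (inv_mul_eq_one.mp h).symm
  set s := x0 * x0 with hs
  have hsne : s ≠ 1 := (hfinal x0 hx0).1
  have hsC : s ∈ C := (hP1 x0 hx0).1
  have hCs : ∀ r ∈ C, r = 1 ∨ r = s := (hfinal x0 hx0).2
  -- unique involution
  have hinv : ∀ h : P, h ≠ 1 → h * h = 1 → h = s := by
    intro h hh hhh
    have h1 : h ∈ C := by
      by_contra hn
      exact (hfinal h hn).1 hhh
    rcases hCs h h1 with h2 | h2
    · exact absurd h2 hh
    · exact h2
  have hsub : ∀ H : Subgroup P, Nat.card H = 2 → s ∈ H ∧ ∀ h ∈ H, h = 1 ∨ h = s := by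
    intro H hH
    have hall : ∀ h ∈ H, h * h = 1 := by
      intro h hh
      have h0 : (⟨h, hh⟩ : H) ^ Nat.card H = 1 := pow_card_eq_one'
      rw [hH, sq] at h0
      exact congrArg Subtype.val h0
    constructor
    · haveI : Nontrivial H := by
        rw [← Finite.one_lt_card_iff_nontrivial, hH]
        omega
      obtain ⟨a, ha⟩ := exists_ne (1 : H)
      have ha' : (a : P) ≠ 1 := fun h => ha (Subtype.ext h)
      rw [← hinv _ ha' (hall _ a.2)]
      exact a.2
    · intro h hh
      by_cases h1 : h = 1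
      · exact Or.inl h1
      · exact Or.inr (hinv h h1 (hall h hh))
  have huniq : ∀ H K : Subgroup P, Nat.card H = 2 → Nat.card K = 2 → H = K := by
    intro H K hH hK
    apply Subgroup.eq_of_le_of_card_ge
    · intro h hh
      rcases (hsub H hH).2 h hh with h1 | h1
      · rw [h1]; exact K.one_mem
      · rw [h1]; exact (hsub K hK).1
    · rw [hH, hK]
  have hcardC : Nat.card C = 2 := by
    rw [Nat.card_eq_two_iff]
    refine ⟨⟨1, C.one_mem⟩, ⟨s, hsC⟩, ?_, ?_⟩
    · intro h
      exact hsne (congrArg Subtype.val h).symm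
    · ext ⟨r, hr⟩
      simp only [Set.mem_insert_iff, Set.mem_singleton_iff, Set.mem_univ, iff_true, Subtype.mk.injEq]
      exact hCs r hr
  have hcardP : Nat.card P = 8 := by
    rw [← Subgroup.card_mul_index C, hcardC, h4]
  rcases Cfsg.Agent.Lib.UniqueSub.main 2 hP huniq with hcyc | ⟨-, n, ⟨e⟩⟩
  · exact absurd hcyc.commutative hna
  · have h1 : Nat.card (QuaternionGroup (2 ^ n)) = 8 := by
      rw [← Nat.card_congr e.toEquiv, hcardP]
    haveI : NeZero (2 ^ n) := ⟨by positivity⟩
    rw [Nat.card_eq_fintype_card, QuaternionGroup.card] at h1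
    have h2 : 2 ^ n = 2 ^ 1 := by omega
    have h3 : n = 1 := Nat.pow_right_injective (le_refl 2) h2
    subst h3
    exact ⟨e⟩

end Cfsg.Agent.S4189
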