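import Mathlib
import Cfsg.Statements.S4194
import Cfsg.Agent.Lib.OddClassSylow

set_option autoImplicit false
open Cfsg

namespace Cfsg.Agent.S4194

/-- A finite group G has commutative Sylow 2-subgroups if and only if every 2-element of G (element of order a power of 2) is 2-central, that is, its centralizer contains a Sylow 2-subgroup of G. -/
theorem result {G : Type*} [Group G] [Finite G] (P : Sylow 2 G) :
    IsMulCommutative (P : Subgroup G) ↔ ∀ x : G, (∃ k : ℕ, orderOf x = 2 ^ k) → (∃ Q : Sylow 2 G, (Q : Subgroup G) ≤ Subgroup.centralizer ({x} : Set G)) := by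
  classical
  haveI : Fact (Nat.Prime 2) := ⟨Nat.prime_two⟩
  constructor
  · intro hcomm x hx
    have hz : IsPGroup 2 (Subgroup.zpowers x) := by
      obtain ⟨k, hk⟩ := hx
      rw [IsPGroup.iff_card, Nat.card_zpowers, hk]
      exact ⟨k, rfl⟩
    obtain ⟨Q, hQ⟩ := hz.exists_le_sylow
    refine ⟨Q, ?_⟩
    obtain ⟨g, hg⟩ := MulAction.exists_smul_eq G P Q
    have hxQ : x ∈ (Q : Subgroup G) := hQ (Subgroup.mem_zpowers x)
    intro q hq
    rw [Subgroup.mem_centralizer_singleton_iff]
    rw [← hg, Sylow.smul_def, Sylow.pointwise_smul_def, Subgroup.mem_pointwise_smul_iff_inv_smul_mem] at hq hxQ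
    have hc := hcomm.is_comm.comm ⟨_, hq⟩ ⟨_, hxQ⟩
    have hc' := congrArg Subtype.val hc
    simp only [Subgroup.coe_mul] at hc'
    simp only [MulAut.smul_def, map_inv, MulAut.conj_inv_apply] at hc'
    have h1 : g⁻¹ * q * g * (g⁻¹ * x * g) = g⁻¹ * (q * x) * g := by group
    have h2 : g⁻¹ * x * g * (g⁻¹ * q * g) = g⁻¹ * (x * q) * g := by group
    rw [h1, h2] at hc'
    exact mul_left_cancel (mul_right_cancel hc')
  · intro h
    have H : ∀ x : G, (∃ k : ℕ, orderOf x = 2 ^ k) →
        ¬ 2 ∣ (Subgroup.centralizer ({x} : Set G)).index := by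
      intro x hx hd
      obtain ⟨Q, hQ⟩ := h x hx
      exact Q.not_dvd_index (hd.trans (Subgroup.index_dvd_of_le hQ))
    have key := Cfsg.Agent.Lib.OddClassSylow.comm_of_odd H (P : Subgroup G) P.isPGroup'
    exact ⟨⟨fun a b => Subtype.ext (key a a.2 b b.2)⟩⟩

end Cfsg.Agent.S4194
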