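import Mathlib
import Cfsg.Statements.S4195

set_option autoImplicit false
open Cfsg

namespace Cfsg.Agent.S4195

/-- Let x be a non-identity element of a finite group G whose centralizer contains a Sylow 2-subgroup of G. If x is conjugate to its inverse, then x has order 2. -/
theorem result {G : Type*} [Group G] [Finite G] (x : G) (hx : x ≠ 1) (P : Sylow 2 G) (hP : (P : Subgroup G) ≤ Subgroup.centralizer ({x} : Set G)) (hreal : IsConj x x⁻¹) : orderOf x = 2 := by
  classical
  -- the centralizer C has odd index
  set C := Subgroup.centralizer ({x} : Set G) with hC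
  have hodd : ¬ 2 ∣ C.index := by
    have : (P : Subgroup G) ≤ C := hP
    intro h2
    have hidx : C.index ∣ (P : Subgroup G).index := Subgroup.index_dvd_of_le this
    have hnd := P.not_dvd_index
    exact hnd (h2.trans hidx)
  -- the stabilizer of the set {x, x⁻¹}
  by_contra hne
  have hxx : x⁻¹ ≠ x := by
    intro h
    apply hne
    have h2 : x ^ 2 = 1 := by
      rw [pow_two]
      nth_rewrite 1 [← h]
      simp
    exact orderOf_eq_prime h2 hx
  obtain ⟨g, hg⟩ := isConj_iff.mp hreal
  -- define the subgroup A of elements conjugating x to x or x⁻¹; the class of x under A has 2 elements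
  let A : Subgroup G :=
    { carrier := {a | a * x * a⁻¹ = x ∨ a * x * a⁻¹ = x⁻¹}
      one_mem' := by simp
      mul_mem' := by
        intro a b ha hb
        simp only [Set.mem_ofPred_eq] at ha hb ⊢
        have e : a * b * x * (a * b)⁻¹ = a * (b * x * b⁻¹) * a⁻¹ := by group
        have e' : a * x⁻¹ * a⁻¹ = (a * x * a⁻¹)⁻¹ := by group
        rcases hb with hb | hb <;> rcases ha with ha | ha <;> rw [e, hb]
        · exact Or.inl ha
        · exact Or.inr ha
        · right; rw [e', ha]
        · left; rw [e', ha]; simp
      inv_mem' := by
        intro a ha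
        simp only [Set.mem_ofPred_eq] at ha ⊢
        rcases ha with ha | ha
        · left
          have : a⁻¹ * (a * x * a⁻¹) * a = x := by group
          rw [ha] at this
          simpa using this
        · right
          have : a⁻¹ * (a * x * a⁻¹) * a = x := by group
          rw [ha] at this
          have h2 : a⁻¹ * x⁻¹ * a = (a⁻¹ * x * a)⁻¹ := by group
          rw [h2] at this
          have h3 := congrArg (·⁻¹) this
          simpa using h3 }
  have hCA : C ≤ A := by
    intro a ha
    left
    have : a * x = x * a := by
      have := Subgroup.mem_centralizer_iff.mp ha x (by simp)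
      exact this.symm
    rw [this]; group
  have hgA : g ∈ A := Or.inr hg
  have hgC : g ∉ C := by
    intro h
    have h1 : g * x = x * g := (Subgroup.mem_centralizer_iff.mp h x (by simp)).symm
    rw [h1] at hg
    apply hxx
    rw [← hg]; group
  -- index of C in A is exactly 2
  have memC : ∀ a : G, a ∈ C ↔ a * x * a⁻¹ = x := by
    intro a
    constructor
    · intro ha
      have : a * x = x * a := (Subgroup.mem_centralizer_iff.mp ha x (by simp)).symm
      rw [this]; group
    · intro ha
      rw [hC, Subgroup.mem_centralizer_iff]
      intro y hy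
      have hy' : y = x := by simpa using hy
      subst hy'
      calc y * a = (a * y * a⁻¹) * a := by rw [ha]
        _ = a * y := by group
  have hindex : C.relIndex A = 2 := by
    unfold Subgroup.relIndex
    rw [Subgroup.index_eq_two_iff]
    refine ⟨⟨g, hgA⟩, ?_⟩
    rintro ⟨b, hb⟩
    have hmem : ∀ a : A, a ∈ C.subgroupOf A ↔ (a : G) * x * (a : G)⁻¹ = x := by
      intro a
      rw [Subgroup.mem_subgroupOf]
      exact memC _
    rw [hmem, hmem]
    have e : b * g * x * (b * g)⁻¹ = (b * x * b⁻¹)⁻¹ := by
      have : b * g * x * (b * g)⁻¹ = b * (g * x * g⁻¹) * b⁻¹ := by group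
      rw [this, hg]; group
    simp only [Subgroup.coe_mul]
    rw [e]
    rcases hb with hb | hb
    · right
      refine ⟨hb, ?_⟩
      rw [hb]
      exact hxx
    · left
      refine ⟨?_, ?_⟩
      · rw [hb]; simp
      · rw [hb]; exact hxx
  have h2 : 2 ∣ C.index := by
    rw [← Subgroup.relIndex_mul_index hCA, hindex]
    exact dvd_mul_right _ _
  exact hodd h2

end Cfsg.Agent.S4195
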