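import Mathlib
import Cfsg.Statements.S4196

set_option autoImplicit false
open Cfsg

namespace Cfsg.Agent.S4196

/-- The size of a conjugacy class is the index of the centralizer. -/
lemma card_class_eq_index {G : Type*} [Group G] [Finite G] (x : G) :
    Nat.card {y : G // IsConj x y} = (Subgroup.centralizer ({x} : Set G)).index := by
  have h1 := Subgroup.index_comap_of_surjective (MulAction.stabilizer (ConjAct G) x)
    (f := (ConjAct.toConjAct (G := G)).toMonoidHom) (ConjAct.toConjAct (G := G)).surjective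
  have h3 : (Subgroup.centralizer ({x} : Set G)).index = (MulAction.stabilizer (ConjAct G) x).index := by
    rw [Subgroup.centralizer_eq_comap_stabilizer]; exact h1
  rw [h3, MulAction.index_stabilizer, ← Nat.card_coe_set_eq]
  apply Nat.card_congr
  apply Equiv.subtypeEquivRight
  intro y
  rw [ConjAct.mem_orbit_conjAct, isConj_comm]

lemma key {G : Type*} [Group G] [Finite G] (x : G) (Q : Sylow 2 G)
    (hQ : (Q : Subgroup G) ≤ Subgroup.centralizer ({x} : Set G)) (hc : IsConj x x⁻¹) :
    x ^ 2 = 1 := by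
  classical
  by_contra hne
  have hodd : ¬ 2 ∣ Nat.card {y : G // IsConj x y} := by
    rw [card_class_eq_index]
    intro h
    exact Q.not_dvd_index (h.trans (Subgroup.index_dvd_of_le hQ))
  letI : Fintype {y : G // IsConj x y} := Fintype.ofFinite _
  apply hodd
  rw [Nat.card_eq_fintype_card]
  -- inversion is a fixed-point free involution on the class
  let f : Function.End {y : G // IsConj x y} := fun y => ⟨(y : G)⁻¹, by
    have h1 : IsConj x⁻¹ (y : G)⁻¹ := by
      obtain ⟨c, hc'⟩ := isConj_iff.mp y.2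
      refine isConj_iff.mpr ⟨c, ?_⟩
      rw [← hc']
      group
    exact hc.trans h1⟩
  have hf : f ^ 2 ^ 1 = 1 := by
    funext y
    apply Subtype.ext
    show ((((y : G))⁻¹)⁻¹) = y
    simp
  have hmod := Equiv.Perm.card_fixedPoints_modEq (p := 2) (n := 1) hf
  have hempty : IsEmpty f.fixedPoints := by
    constructor
    rintro ⟨y, hy⟩
    have h2 : (y : G)⁻¹ = y := congrArg Subtype.val hy
    have h3 : (y : G) ^ 2 = 1 := by
      rw [pow_two]
      nth_rewrite 1 [← h2]
      simp
    obtain ⟨c, hc'⟩ := isConj_iff.mp y.2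
    apply hne
    rw [← hc'] at h3
    have h4 : (c * x * c⁻¹) ^ 2 = c * x ^ 2 * c⁻¹ := by
      rw [pow_two, pow_two]; group
    rw [h4] at h3
    have h5 : x ^ 2 = c⁻¹ * (c * x ^ 2 * c⁻¹) * c := by group
    rw [h5, h3]; group
  have h0 : Fintype.card f.fixedPoints = 0 := Fintype.card_eq_zero_iff.mpr hempty
  rw [h0] at hmod
  exact (Nat.modEq_zero_iff_dvd.mp hmod)

/-- A finite group G has elementary abelian Sylow 2-subgroups (commutative with every element squaring to the identity) if and only if every 2-element of G has a Sylow 2-subgroup in its centralizer and is conjugate to its inverse. -/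
theorem result {G : Type*} [Group G] [Finite G] (P : Sylow 2 G) :
    (IsMulCommutative (P : Subgroup G) ∧ ∀ x ∈ (P : Subgroup G), x ^ 2 = 1) ↔
      ∀ x : G, (∃ k : ℕ, orderOf x = 2 ^ k) → (∃ Q : Sylow 2 G, (Q : Subgroup G) ≤ Subgroup.centralizer ({x} : Set G)) ∧ IsConj x x⁻¹ := by
  constructor
  · rintro ⟨hcomm, hsq⟩ x ⟨k, hk⟩
    -- `x` lies in a conjugate of `P`
    have hpg : IsPGroup 2 (Subgroup.zpowers x) := by
      rw [IsPGroup.iff_card]
      refine ⟨k, ?_⟩
      rw [Nat.card_zpowers, hk]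
    obtain ⟨Q, hQ⟩ := hpg.exists_le_sylow
    have hxQ : x ∈ (Q : Subgroup G) := hQ (Subgroup.mem_zpowers x)
    obtain ⟨g, hg⟩ := MulAction.exists_smul_eq G P Q
    have hQP : ∀ y ∈ (Q : Subgroup G), ∃ z ∈ (P : Subgroup G), y = g * z * g⁻¹ := by
      intro y hy
      rw [← hg] at hy
      rw [Sylow.coe_subgroup_smul, Subgroup.mem_pointwise_smul_iff_inv_smul_mem] at hy
      refine ⟨_, hy, ?_⟩
      simp [MulAut.smul_def]
      group
    refine ⟨⟨Q, ?_⟩, ?_⟩
    · intro y hy
      rw [Subgroup.mem_centralizer_iff]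
      intro w hw
      rw [Set.mem_singleton_iff] at hw
      subst hw
      obtain ⟨y', hy', rfl⟩ := hQP y hy
      obtain ⟨w', hw', rfl⟩ := hQP w hxQ
      have hc : w' * y' = y' * w' := by
        have := hcomm.is_comm.comm (⟨w', hw'⟩ : (P : Subgroup G)) ⟨y', hy'⟩
        exact congrArg Subtype.val this
      calc g * w' * g⁻¹ * (g * y' * g⁻¹) = g * (w' * y') * g⁻¹ := by group
        _ = g * (y' * w') * g⁻¹ := by rw [hc]
        _ = g * y' * g⁻¹ * (g * w' * g⁻¹) := by group
    · obtain ⟨w', hw', hxe⟩ := hQP x hxQ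
      have : x ^ 2 = 1 := by
        rw [hxe]
        have : (g * w' * g⁻¹) ^ 2 = g * w' ^ 2 * g⁻¹ := by
          rw [pow_two, pow_two]; group
        rw [this, hsq w' hw']
        group
      have hinv : x⁻¹ = x := by
        rw [inv_eq_iff_mul_eq_one, ← pow_two, this]
      rw [hinv]
  · intro h
    have hsq : ∀ x ∈ (P : Subgroup G), x ^ 2 = 1 := by
      intro x hx
      have hp : IsPGroup 2 (Subgroup.zpowers x) :=
        P.isPGroup'.to_le (Subgroup.zpowers_le.mpr hx)
      obtain ⟨k, hk⟩ := IsPGroup.iff_card.mp hp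
      rw [Nat.card_zpowers] at hk
      obtain ⟨⟨Q, hQ⟩, hc⟩ := h x ⟨k, hk⟩
      exact key x Q hQ hc
    refine ⟨⟨⟨?_⟩⟩, hsq⟩
    intro a b
    have h2 : ∀ y : (P : Subgroup G), y * y = 1 := by
      intro y
      have := hsq y y.2
      apply Subtype.ext
      simpa [pow_two] using this
    have h3 : ∀ y : (P : Subgroup G), y⁻¹ = y := fun y => inv_eq_of_mul_eq_one_left (h2 y)
    calc a * b = (a * b)⁻¹ := (h3 _).symm
      _ = b⁻¹ * a⁻¹ := by group
      _ = b * a := by rw [h3, h3]

end Cfsg.Agent.S4196
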