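import Mathlib
import Cfsg.Statements.S4230

set_option autoImplicit false
open Cfsg

namespace Cfsg.Agent.S4230

open Polynomial

lemma dvd_iff (p q f : ℕ) [Fact p.Prime] :
    ((p : ℤ) ∣ (Polynomial.cyclotomic f ℤ).eval (q : ℤ)) ↔
      (Polynomial.cyclotomic f (ZMod p)).eval (q : ZMod p) = 0 := by
  rw [← ZMod.intCast_zmod_eq_zero_iff_dvd, ← map_cyclotomic_int f (ZMod p), eval_map]
  have : ((q : ℤ) : ZMod p) = (q : ZMod p) := by simp
  have h := Polynomial.hom_eval₂ (cyclotomic f ℤ) (RingHom.id ℤ) (Int.castRingHom (ZMod p)) (q : ℤ)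
  simp only [eval₂_id, RingHom.comp_id] at h
  have h2 : eval (q : ℤ) (cyclotomic f ℤ) = eval₂ (RingHom.id ℤ) (q : ℤ) (cyclotomic f ℤ) := by
    simp [eval₂_id]
  rw [h2]
  simp only [eval₂_id]
  simpa using h

lemma root_iff (p q m : ℕ) [hp : Fact p.Prime] (hm : ¬ p ∣ m) :
    (Polynomial.cyclotomic m (ZMod p)).eval (q : ZMod p) = 0 ↔ m = orderOf (q : ZMod p) := by
  haveI : NeZero (m : ZMod p) := ⟨by
    rw [Ne, ZMod.natCast_eq_zero_iff]
    exact hm⟩
  rw [← IsRoot.def, isRoot_cyclotomic_iff]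
  constructor
  · intro h
    exact h.eq_orderOf
  · intro h
    rw [h]
    exact IsPrimitiveRoot.orderOf _

lemma root_mul_iff (p q k m : ℕ) [hp : Fact p.Prime] (hm : ¬ p ∣ m) :
    (Polynomial.cyclotomic (p ^ k * m) (ZMod p)).eval (q : ZMod p) = 0 ↔
      (Polynomial.cyclotomic m (ZMod p)).eval (q : ZMod p) = 0 := by
  cases k with
  | zero => simp
  | succ k =>
    have hm0 : 0 < m := Nat.pos_of_ne_zero (fun h => hm (by simp [h]))
    have h2 : p ^ k < p ^ (k + 1) := Nat.pow_lt_pow_right hp.out.one_lt (Nat.lt_succ_self k)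
    have h3 : p ^ (k + 1) - p ^ (k + 1 - 1) ≠ 0 := by
      simp only [Nat.add_sub_cancel]
      omega
    rw [cyclotomic_mul_prime_pow_eq (ZMod p) hm (Nat.succ_pos k), eval_pow, pow_eq_zero_iff h3]

/-- Let p be an odd prime, q a natural number not divisible by p, and e the multiplicative order of q modulo p. For a natural number f, p divides the value at q of the f-th cyclotomic polynomial if and only if f = e·p^j for some j ≥ 0. -/
theorem result (p q f : ℕ) (hp : p.Prime) (hp2 : p ≠ 2) (hpq : ¬ p ∣ q) :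
    ((p : ℤ) ∣ (Polynomial.cyclotomic f ℤ).eval (q : ℤ)) ↔ ∃ j : ℕ, f = orderOf (q : ZMod p) * p ^ j := by
  haveI : Fact p.Prime := ⟨hp⟩
  have hq0 : (q : ZMod p) ≠ 0 := by
    rw [Ne, ZMod.natCast_eq_zero_iff]
    exact hpq
  have hord : ¬ p ∣ orderOf (q : ZMod p) := by
    intro h
    have h1 : orderOf (q : ZMod p) ∣ p - 1 := ZMod.orderOf_dvd_card_sub_one hq0
    have h2 : p ∣ p - 1 := h.trans h1
    have h3 := Nat.le_of_dvd (Nat.sub_pos_of_lt hp.one_lt) h2
    have := hp.one_lt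
    omega
  rw [dvd_iff]
  constructor
  · intro h
    rcases Nat.eq_zero_or_pos f with rfl | hf
    · simp at h
    · obtain ⟨k, m, hm, rfl⟩ := Nat.exists_eq_pow_mul_and_not_dvd hf.ne' p hp.ne_one
      rw [root_mul_iff p q k m hm, root_iff p q m hm] at h
      exact ⟨k, by rw [← h]; ring⟩
  · rintro ⟨j, rfl⟩
    rw [mul_comm, root_mul_iff p q j _ hord, root_iff p q _ hord]

end Cfsg.Agent.S4230
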