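import Mathlib
import Cfsg.Agent.Lib.AltOdd

set_option autoImplicit false
open Cfsg

namespace Cfsg.Agent.S4231


open Equiv Equiv.Perm

/-- An `r`-group of permutations of fewer than `r ^ 2` points is abelian. -/
theorem comm_of_small {Ω : Type*} [Fintype Ω] [DecidableEq Ω] {r : ℕ} (hr : r.Prime)
    (hn : Fintype.card Ω < r ^ 2) (R : Subgroup (Perm Ω)) (hR : IsPGroup r R) :
    ∀ x ∈ R, ∀ y ∈ R, x * y = y * x := by
  classical
  haveI : Fact r.Prime := ⟨hr⟩
  -- action on an orbit
  have key : ∀ (ω : Ω) (x y : R), ((x * y : R) : Perm Ω) ω = ((y * x : R) : Perm Ω) ω := by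
    intro ω x y
    let O := MulAction.orbit R ω
    have hOc : Nat.card O ∣ Nat.card R := by
      have h1 := MulAction.card_orbit_mul_card_stabilizer_eq_card_group R ω
      rw [← Nat.card_eq_fintype_card, ← Nat.card_eq_fintype_card, ← Nat.card_eq_fintype_card] at h1
      exact ⟨_, h1.symm⟩
    obtain ⟨a, ha⟩ := IsPGroup.iff_card.mp hR
    obtain ⟨i, -, hi⟩ := (Nat.dvd_prime_pow hr).mp (ha ▸ hOc)
    have hOle : Nat.card O ≤ Fintype.card Ω := by
      rw [← Nat.card_eq_fintype_card]
      exact Finite.card_subtype_le _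
    have hi1 : i ≤ 1 := by
      by_contra hlt
      have h2 : r ^ 2 ≤ r ^ i := Nat.pow_le_pow_right hr.pos (by omega)
      rw [hi] at hOle
      omega
    let ρ : R →* Perm O := MulAction.toPermHom R O
    have hrange : Nat.card ρ.range ∣ (Nat.card O).factorial := by
      rw [← Nat.card_perm]
      exact Subgroup.card_subgroup_dvd_card _
    have hrangeP : IsPGroup r ρ.range := IsPGroup.of_surjective hR ρ.rangeRestrict ρ.rangeRestrict_surjective
    obtain ⟨b, hb⟩ := IsPGroup.iff_card.mp hrangeP
    have hb1 : b ≤ 1 := by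
      by_contra hlt
      have h2 : r ^ 2 ∣ (Nat.card O).factorial := by
        refine dvd_trans (pow_dvd_pow r (by omega : 2 ≤ b)) ?_
        rw [← hb]
        exact hrange
      have h3 : Nat.card O ∣ r := by
        rw [hi]
        exact pow_dvd_pow r hi1 |>.trans (by simp)
      have h4 : (Nat.card O).factorial ∣ r.factorial := Nat.factorial_dvd_factorial (Nat.le_of_dvd hr.pos h3)
      have h5 : r ^ 2 ∣ r.factorial := h2.trans h4
      obtain ⟨r', hr'⟩ : ∃ r', r = r' + 1 := ⟨r - 1, by have := hr.pos; omega⟩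
      rw [hr', Nat.factorial_succ, pow_two, ← hr'] at h5
      have h6 : r ∣ (r - 1).factorial := by
        have : r * r ∣ r * r'.factorial := h5
        have h7 := Nat.dvd_of_mul_dvd_mul_left hr.pos this
        have : r - 1 = r' := by omega
        rwa [this]
      have h8 := (Nat.Prime.dvd_factorial hr).mp h6
      have := hr.pos
      omega
    have hcomm : ρ x * ρ y = ρ y * ρ x := by
      have hcop : ∀ u v : ρ.range, u * v = v * u := by
        rcases Nat.le_one_iff_eq_zero_or_eq_one.mp hb1 with rfl | rfl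
        · have h1 : Nat.card ρ.range = 1 := by simpa using hb
          have : Subsingleton ρ.range := (Nat.card_eq_one_iff_unique.mp h1).1
          intro u v
          exact Subsingleton.elim _ _
        · have h1 : Nat.card ρ.range = r := by simpa using hb
          haveI : IsCyclic ρ.range := isCyclic_of_prime_card h1
          intro u v
          letI : CommGroup ρ.range := IsCyclic.commGroup
          exact mul_comm u v
      exact congrArg Subtype.val (hcop ⟨ρ x, x, rfl⟩ ⟨ρ y, y, rfl⟩)
    have h1 := DFunLike.congr_fun hcomm (⟨ω, MulAction.mem_orbit_self ω⟩ : O)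
    exact congrArg Subtype.val h1
  intro x hx y hy
  ext ω
  exact key ω ⟨x, hx⟩ ⟨y, hy⟩

/-- Elements of prescribed order in the alternating group. -/
theorem exists_order (n : ℕ) (m : Multiset ℕ) (hm : m.sum ≤ n) (h2 : ∀ a ∈ m, 2 ≤ a)
    (hs : Even (m.sum + Multiset.card m)) :
    ∃ σ : alternatingGroup (Fin n), orderOf σ = m.lcm := by
  obtain ⟨g, hg⟩ := (Equiv.Perm.exists_with_cycleType_iff (α := Fin n) (m := m)).mpr ⟨by simpa using hm, h2⟩
  refine ⟨⟨g, ?_⟩, ?_⟩
  · rw [Equiv.Perm.mem_alternatingGroup, Equiv.Perm.sign_of_cycleType, hg, hs.neg_one_pow]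
  · rw [Subgroup.orderOf_mk, ← Equiv.Perm.lcm_cycleType, hg]

theorem exists_two_odd (n q : ℕ) (hq : q.Prime) (hq2 : q ≠ 2) (hn : q ^ 2 ≤ n) :
    ∃ σ : alternatingGroup (Fin n), orderOf σ = 2 * q := by
  have hq3 : 3 ≤ q := by
    have := hq.two_le
    omega
  have hqo : Odd q := hq.odd_of_ne_two hq2
  obtain ⟨σ, hσ⟩ := exists_order n ({q, 2, 2} : Multiset ℕ) (by
    simp
    nlinarith) (by
    intro a ha
    simp at ha
    have := hq.two_le
    omega) (by
    obtain ⟨k, rfl⟩ := hqo
    simp
    exact ⟨k + 4, by ring⟩)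
  refine ⟨σ, hσ.trans ?_⟩
  have h3 : Nat.Coprime q 2 := (Nat.coprime_primes hq Nat.prime_two).mpr hq2
  have : Nat.lcm q 2 = 2 * q := by
    rw [h3.lcm_eq_mul, mul_comm]
  simp
  exact this

theorem exists_odd_odd (n p q : ℕ) (hp : p.Prime) (hq : q.Prime) (hp2 : p ≠ 2) (hq2 : q ≠ 2) (hpq : p ≠ q)
    (hpn : p ^ 2 ≤ n) (hqn : q ^ 2 ≤ n) :
    ∃ σ : alternatingGroup (Fin n), orderOf σ = p * q := by
  have hp3 : 3 ≤ p := by
    have := hp.two_le
    omega
  have hq3 : 3 ≤ q := by
    have := hq.two_le
    omega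
  have hpo : Odd p := hp.odd_of_ne_two hp2
  have hqo : Odd q := hq.odd_of_ne_two hq2
  obtain ⟨σ, hσ⟩ := exists_order n ({p, q} : Multiset ℕ) (by
    simp
    rcases le_total p q with hle | hle <;> nlinarith) (by
    intro a ha
    simp at ha
    have := hq.two_le
    have := hp.two_le
    omega) (by
    obtain ⟨k, rfl⟩ := hpo
    obtain ⟨l, rfl⟩ := hqo
    simp
    exact ⟨k + l + 2, by ring⟩)
  refine ⟨σ, hσ.trans ?_⟩
  have h3 : Nat.Coprime p q := (Nat.coprime_primes hp hq).mpr hpq
  simp
  exact h3.lcm_eq_mul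

/-- Let n ≥ 5 and let G be a group of automorphisms of the alternating group of degree n containing all inner automorphisms. If p ≠ q are primes and G has no element of order pq, then every Sylow p-subgroup of G is abelian or every Sylow q-subgroup of G is abelian. -/
theorem result (n : ℕ) (hn : 5 ≤ n) (G : Subgroup (MulAut (alternatingGroup (Fin n))))
    (hG : (MulAut.conj : alternatingGroup (Fin n) →* MulAut (alternatingGroup (Fin n))).range ≤ G)
    (p q : ℕ) [Fact p.Prime] [Fact q.Prime] (hpq : p ≠ q) (h : ∀ g : G, orderOf g ≠ p * q) :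
    (∀ P : Sylow p G, IsMulCommutative (P : Subgroup G)) ∨ (∀ Q : Sylow q G, IsMulCommutative (Q : Subgroup G)) := by
  classical
  have hcard : 4 ≤ Fintype.card (Fin n) := by
    rw [Fintype.card_fin]
    omega
  -- the embedding of the alternating group in `G`
  let ι₀ : alternatingGroup (Fin n) →* MulAut (alternatingGroup (Fin n)) := MulAut.conj
  have hι₀ : Function.Injective ι₀ := by
    rw [injective_iff_map_eq_one]
    intro a ha
    have h1 : (MulAut.conjNormal (a : Perm (Fin n)) : MulAut (alternatingGroup (Fin n))) = 1 := by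
      apply MulEquiv.ext
      intro g
      apply Subtype.ext
      rw [MulAut.conjNormal_apply]
      have := DFunLike.congr_fun ha g
      exact congrArg Subtype.val this
    have h2 := Cfsg.Agent.S2119.conjNormal_injective hcard (h1.trans (map_one _).symm)
    exact Subtype.ext h2
  let ι : alternatingGroup (Fin n) →* G := ι₀.codRestrict G (fun a => hG ⟨a, rfl⟩)
  have hι : Function.Injective ι := fun a b hab => hι₀ (congrArg Subtype.val hab)
  -- odd Sylow subgroups
  have hodd : ∀ (r : ℕ) [Fact r.Prime], r ≠ 2 → n < r ^ 2 → ∀ P : Sylow r G, IsMulCommutative (P : Subgroup G) := by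
    intro r _ hr2 hnr P
    have hrp : r.Prime := Fact.out
    have hrodd : Odd r := hrp.odd_of_ne_two hr2
    have hin : ∀ x ∈ (P : Subgroup G), ∃ a, ι a = x := by
      intro x hx
      obtain ⟨k, hk⟩ := P.isPGroup' ⟨x, hx⟩
      have h1 : (x : MulAut (alternatingGroup (Fin n))) ^ r ^ k = 1 := by
        have := congrArg Subtype.val (congrArg Subtype.val hk)
        simpa using this
      obtain ⟨a, ha⟩ := Cfsg.Agent.Lib.AltOdd.exists_eq_conj_of_odd hn _ (hrodd.pow (n := k)) h1
      exact ⟨a, Subtype.ext ha.symm⟩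
    let R : Subgroup (Perm (Fin n)) := ((P : Subgroup G).comap ι).map (alternatingGroup (Fin n)).subtype
    have hRp : IsPGroup r R := by
      apply IsPGroup.map
      exact IsPGroup.comap_of_injective P.isPGroup' ι hι
    have hc := comm_of_small hrp (by simpa using hnr) R hRp
    refine ⟨⟨fun x y => ?_⟩⟩
    obtain ⟨a, ha⟩ := hin x x.2
    obtain ⟨b, hb⟩ := hin y y.2
    have haR : (a : Perm (Fin n)) ∈ R := ⟨a, by
      show ι a ∈ (P : Subgroup G)
      rw [ha]; exact x.2, rfl⟩
    have hbR : (b : Perm (Fin n)) ∈ R := ⟨b, by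
      show ι b ∈ (P : Subgroup G)
      rw [hb]; exact y.2, rfl⟩
    have h1 : a * b = b * a := Subtype.ext (hc _ haR _ hbR)
    apply Subtype.ext
    show (x : G) * (y : G) = (y : G) * (x : G)
    rw [← ha, ← hb, ← map_mul, ← map_mul, h1]
  -- an element of order `p q` rules out both being nonabelian
  have hno : ∀ σ : alternatingGroup (Fin n), orderOf σ ≠ p * q := by
    intro σ hσ
    apply h (ι σ)
    rw [orderOf_injective ι hι, hσ]
  have hpp : p.Prime := Fact.out
  have hqp : q.Prime := Fact.out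
  by_contra hcon
  push Not at hcon
  obtain ⟨⟨P, hP⟩, ⟨Q, hQ⟩⟩ := hcon
  have hpsq : p = 2 ∨ p ^ 2 ≤ n := by
    by_contra hc
    push Not at hc
    exact hP (hodd p hc.1 hc.2 P)
  have hqsq : q = 2 ∨ q ^ 2 ≤ n := by
    by_contra hc
    push Not at hc
    exact hQ (hodd q hc.1 hc.2 Q)
  rcases eq_or_ne p 2 with hp | hp
  · have hq2 : q ≠ 2 := by
      rintro rfl
      exact hpq hp
    rcases hqsq with hq | hq
    · exact hq2 hq
    obtain ⟨σ, hσ⟩ := exists_two_odd n q hqp hq2 hq
    apply hno σ
    rw [hσ, hp]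
  · rcases hpsq with h1 | hpn
    · exact hp h1
    rcases eq_or_ne q 2 with hq2 | hq2
    · obtain ⟨σ, hσ⟩ := exists_two_odd n p hpp hp hpn
      apply hno σ
      rw [hσ, hq2, mul_comm]
    · rcases hqsq with h1 | hqn
      · exact hq2 h1
      obtain ⟨σ, hσ⟩ := exists_odd_odd n p q hpp hqp hp hq2 hpq hpn hqn
      exact hno σ hσ

end Cfsg.Agent.S4231
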