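-- Statement S4234: normalizers of non-normal subgroups in PSL(2,13) × S and SL(2,13) × S.
import Mathlib
import Cfsg.Statements.S4234
import Cfsg.Agent.S0799
import Cfsg.Agent.Lib.PSL2Coat
import Cfsg.Agent.Lib.PSL2Std

set_option autoImplicit false
set_option linter.unusedVariables false
set_option linter.style.haveILetI false
set_option linter.unusedSectionVars false
open Cfsg

namespace Cfsg.Agent.S4234

open Matrix Subgroup
open Cfsg.Agent.Lib.SL2Core Cfsg.Agent.Lib.DicksonAbs Cfsg.Agent.Lib.DicksonMat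
open Cfsg.Agent.Lib.DicksonStruct Cfsg.Agent.Lib.DicksonTT Cfsg.Agent.Lib.PSL2Sub
open Cfsg.Agent.Lib.DicksonRed Cfsg.Agent.Lib.PSL2Max Cfsg.Agent.Lib.PSL2Cnt Cfsg.Agent.Lib.PSL2Coat

/-- Every non-normal subgroup has a maximal normalizer. -/
def Good (K : Type*) [Group K] : Prop :=
  ∀ H : Subgroup K, ¬ H.Normal → IsCoatom (normalizer (H : Set K))

lemma Good.of_equiv {K K' : Type*} [Group K] [Group K'] (e : K ≃* K') (h : Good K') : Good K := by
  intro H hH
  have h1 : ¬ (H.map e.toMonoidHom).Normal := by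
    intro hn
    apply hH
    have h0 : H = (H.map e.toMonoidHom).comap e.toMonoidHom :=
      (Subgroup.comap_map_eq_self_of_injective e.injective H).symm
    rw [h0]
    exact hn.comap _
  have h2 := h _ h1
  rw [← Subgroup.map_equiv_normalizer_eq] at h2
  exact (e.mapSubgroup.isCoatom_iff _).mp h2

/-! ### The product with a coprime abelian group -/

section product

variable {K S : Type*} [Group K] [CommGroup S] [Finite K] [Finite S]

lemma split_mem (hKS : (Nat.card K).Coprime (Nat.card S)) (H : Subgroup (K × S)) {k : K} {s : S}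
    (h : (k, s) ∈ H) : (k, (1 : S)) ∈ H ∧ ((1 : K), s) ∈ H := by
  obtain ⟨n, hn1, hn2⟩ := Nat.chineseRemainder hKS 1 0
  obtain ⟨m, hm1, hm2⟩ := Nat.chineseRemainder hKS 0 1
  have h1 : k ^ n = k := by
    have : k ^ n = k ^ (n % Nat.card K) := pow_mod_natCard k n |>.symm
    rw [this]
    have h3 : n % Nat.card K = 1 % Nat.card K := hn1
    rw [h3, pow_mod_natCard, pow_one]
  have h2 : s ^ n = 1 := by
    have : s ^ n = s ^ (n % Nat.card S) := pow_mod_natCard s n |>.symm
    rw [this]
    have h3 : n % Nat.card S = 0 % Nat.card S := hn2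
    rw [h3, pow_mod_natCard, pow_zero]
  have h3 : k ^ m = 1 := by
    have : k ^ m = k ^ (m % Nat.card K) := pow_mod_natCard k m |>.symm
    rw [this]
    have h3 : m % Nat.card K = 0 % Nat.card K := hm1
    rw [h3, pow_mod_natCard, pow_zero]
  have h4 : s ^ m = s := by
    have : s ^ m = s ^ (m % Nat.card S) := pow_mod_natCard s m |>.symm
    rw [this]
    have h3 : m % Nat.card S = 1 % Nat.card S := hm2
    rw [h3, pow_mod_natCard, pow_one]
  constructor
  · have := H.pow_mem h n
    rwa [Prod.pow_mk, h1, h2] at this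
  · have := H.pow_mem h m
    rwa [Prod.pow_mk, h3, h4] at this

lemma eq_prod (hKS : (Nat.card K).Coprime (Nat.card S)) (H : Subgroup (K × S)) :
    H = (H.map (MonoidHom.fst K S)).prod (H.map (MonoidHom.snd K S)) := by
  ext ⟨k, s⟩
  rw [Subgroup.mem_prod]
  constructor
  · intro h
    exact ⟨⟨_, h, rfl⟩, ⟨_, h, rfl⟩⟩
  · rintro ⟨⟨⟨k', s'⟩, h1, h2⟩, ⟨⟨k'', s''⟩, h3, h4⟩⟩
    have h1' := (split_mem hKS H h1).1
    have h3' := (split_mem hKS H h3).2
    have hk : k' = k := h2
    have hs : s'' = s := h4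
    subst hk hs
    have := H.mul_mem h1' h3'
    simpa using this

lemma coatom_prod {M : Subgroup K} (hM : IsCoatom M) : IsCoatom (M.prod (⊤ : Subgroup S)) := by
  refine ⟨?_, fun L hL => ?_⟩
  · intro h
    apply hM.1
    rw [eq_top_iff]
    intro x _
    have : (x, (1 : S)) ∈ M.prod (⊤ : Subgroup S) := by rw [h]; trivial
    exact (Subgroup.mem_prod.mp this).1
  · obtain ⟨hle, x, hxL, hx⟩ := SetLike.lt_iff_le_and_exists.mp hL
    have hx1 : x.1 ∉ M := fun h => hx (Subgroup.mem_prod.mpr ⟨h, trivial⟩)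
    have hlt : M < L.map (MonoidHom.fst K S) := by
      refine SetLike.lt_iff_le_and_exists.mpr ⟨?_, x.1, Subgroup.mem_map.mpr ⟨x, hxL, rfl⟩, hx1⟩
      intro y hy
      exact ⟨(y, 1), hle (Subgroup.mem_prod.mpr ⟨hy, trivial⟩), rfl⟩
    have htop := hM.2 _ hlt
    rw [eq_top_iff]
    rintro ⟨c, d⟩ -
    have hc : c ∈ L.map (MonoidHom.fst K S) := by rw [htop]; trivial
    obtain ⟨⟨c', e⟩, he, hc'⟩ := hc
    have hc'' : c' = c := hc'
    subst hc''
    have h1 : ((1 : K), e⁻¹ * d) ∈ L := hle (Subgroup.mem_prod.mpr ⟨M.one_mem, trivial⟩)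
    have := L.mul_mem he h1
    simpa using this

lemma good_prod (hK : Good K) (hKS : (Nat.card K).Coprime (Nat.card S)) : Good (K × S) := by
  intro H hH
  set H₁ := H.map (MonoidHom.fst K S) with hH₁
  set H₂ := H.map (MonoidHom.snd K S) with hH₂
  have hprod : H = H₁.prod H₂ := eq_prod hKS H
  have hn : ¬ H₁.Normal := by
    intro hn
    apply hH
    rw [hprod]
    exact Subgroup.prod_normal H₁ H₂
  have hc := hK H₁ hn
  have hnorm : normalizer (H : Set (K × S)) = (normalizer (H₁ : Set K)).prod (⊤ : Subgroup S) := by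
    ext ⟨a, b⟩
    rw [Subgroup.mem_prod, Subgroup.mem_normalizer_iff, Subgroup.mem_normalizer_iff]
    constructor
    · intro h
      refine ⟨fun x => ?_, trivial⟩
      have h1 := h (x, 1)
      rw [hprod, Subgroup.mem_prod, Subgroup.mem_prod] at h1
      simpa using h1
    · rintro ⟨h, -⟩ ⟨x, y⟩
      rw [hprod, Subgroup.mem_prod, Subgroup.mem_prod]
      simp only [Prod.fst_mul, Prod.snd_mul, Prod.fst_inv, Prod.snd_inv]
      rw [← h x]
      have : b * y * b⁻¹ = y := by rw [mul_comm b y]; simp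
      rw [this]
  rw [hnorm]
  exact coatom_prod hc

end product

/-! ### The group `PSL₂(13)` -/

section psl13

instance fact13 : Fact (Nat.Prime 13) := ⟨by norm_num⟩

abbrev G13 := PSL2 (ZMod 13)

lemma card_F : Fintype.card (ZMod 13) = 13 := ZMod.card 13

lemma card_G : Nat.card G13 = 1092 := by
  have h := card_PSL2_form (K := ZMod 13)
  rw [card_F, show Nat.gcd 2 (13 - 1) = 2 by norm_num, show 13 * (13 ^ 2 - 1) = 2184 by norm_num] at h
  have h' : 2 * Nat.card G13 = 2184 := h
  omega

instance simpleG13 : IsSimpleGroup G13 :=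
  Matrix.ProjectiveSpecialLinearGroup.rank_two_simple (by rw [Nat.card_eq_fintype_card, card_F]; norm_num)

lemma card_N_par {A : SL2 (ZMod 13)} (hA : A ∉ center (SL2 (ZMod 13))) (ht : tr A * tr A = 4) :
    Nat.card (normalizer ((MM (proj A) : Subgroup G13) : Set G13)) = 78 := by
  have h := card_normalizer_parabolic (F := ZMod 13) 13 hA ht
  rw [card_F, show Nat.gcd 2 (13 - 1) = 2 by norm_num, show 13 * (13 - 1) = 156 by norm_num] at h
  have h' : 2 * Nat.card (normalizer ((MM (proj A) : Subgroup G13) : Set G13)) = 156 := h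
  omega

lemma card_MM_ss {A : SL2 (ZMod 13)} (hA : A ∉ center (SL2 (ZMod 13))) (ht : tr A * tr A ≠ 4) :
    Nat.card (MM (proj A)) = 6 ∨ Nat.card (MM (proj A)) = 7 := by
  have h := card_MM_cases A hA ht
  rw [card_F, show Nat.gcd 2 (13 - 1) = 2 by norm_num] at h
  omega

lemma card_N_ss {A : SL2 (ZMod 13)} (hA : A ∉ center (SL2 (ZMod 13))) (ht : tr A * tr A ≠ 4) :
    Nat.card (normalizer ((MM (proj A) : Subgroup G13) : Set G13)) = 12 ∨
    Nat.card (normalizer ((MM (proj A) : Subgroup G13) : Set G13)) = 14 := by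
  have h : Nat.card (normalizer ((MM (proj A) : Subgroup G13) : Set G13)) = 2 * Nat.card (MM (proj A)) :=
    card_normalizer_ss (F := ZMod 13) 13 hA ht
  rcases card_MM_ss hA ht with h1 | h1 <;> rw [h1] at h <;> omega

lemma order13_par {A : SL2 (ZMod 13)} (h : orderOf (proj A) = 13) :
    A ∉ center (SL2 (ZMod 13)) ∧ tr A * tr A = 4 := by
  have hx1 : proj A ≠ 1 := by
    intro h1
    rw [h1, orderOf_one] at h
    omega
  have hA := not_center_of_proj_ne_one hx1
  refine ⟨hA, ?_⟩
  by_contra ht
  have hss := isSS_of (F := ZMod 13) 13 hA ht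
  have h1 : proj A ∈ MM (proj A) := mem_MM_proj.mpr rfl
  have h2 : orderOf (⟨proj A, h1⟩ : MM (proj A)) ∣ Nat.card (MM (proj A)) := orderOf_dvd_natCard _
  rw [Subgroup.orderOf_mk, h] at h2
  have h3 := hss.coprime
  have h4 := Nat.Coprime.coprime_dvd_left h2 h3
  norm_num at h4

lemma ss_of_not13 {A : SL2 (ZMod 13)} (h1 : proj A ≠ 1) (h : ¬ 13 ∣ orderOf (proj A)) :
    A ∉ center (SL2 (ZMod 13)) ∧ tr A * tr A ≠ 4 := by
  have hA := not_center_of_proj_ne_one h1
  refine ⟨hA, fun ht => h ?_⟩
  have hp := ptype_parabolic (F := ZMod 13) 13 hA ht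
  have h2 : proj A ∈ MM (proj A) := mem_MM_proj.mpr rfl
  obtain ⟨k, hk⟩ := (IsPGroup.iff_orderOf.mp hp) ⟨proj A, h2⟩
  rw [Subgroup.orderOf_mk] at hk
  rw [hk]
  rcases k with _ | k
  · rw [pow_zero, orderOf_eq_one_iff] at hk
    exact absurd hk h1
  · exact dvd_pow_self _ (by omega)

lemma N_eq {A : SL2 (ZMod 13)} (hA : A ∉ center (SL2 (ZMod 13))) (ht : tr A * tr A ≠ 4)
    (C : Subgroup G13) (hC : C ≠ ⊥) (hle : C ≤ MM (proj A)) :
    normalizer (C : Set G13) = normalizer ((MM (proj A) : Subgroup G13) : Set G13) := by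
  have hss := isSS_of (F := ZMod 13) 13 hA ht
  have hx1 : proj A ≠ 1 := by
    intro h
    exact hA ((proj_eq_one_iff A).mp h)
  apply le_antisymm
  · intro y hy
    obtain ⟨c, hc1⟩ := (Subgroup.ne_bot_iff_exists_ne_one.mp hC)
    have hc1' : (c : G13) ≠ 1 := fun h => hc1 (Subtype.ext h)
    have hc := hle c.2
    have hMM : MM (c : G13) = MM (proj A) := dpart.eq_of_mem _ _ hx1 hc1' hc
    rw [← hMM]
    apply mem_normalizer_of_conj_mem hc1'
    rw [hMM]
    apply hle
    exact (Subgroup.mem_normalizer_iff.mp hy _).mp c.2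
  · intro y hy
    apply Subgroup.mem_normalizer_fintype
    intro c hc
    haveI := hss.cyclic
    by_cases hyM : y ∈ MM (proj A)
    · have h1 := (IsCyclic.isMulCommutative (α := MM (proj A))).is_comm.comm ⟨y, hyM⟩ ⟨c, hle hc⟩
      have h2 : y * c = c * y := congrArg Subtype.val h1
      rw [h2, mul_assoc, mul_inv_cancel, mul_one]
      exact hc
    · have h1 := (hss.outer y hy hyM).2 c (hle hc)
      rw [h1]
      exact C.inv_mem hc

lemma sylow_ne (P : Sylow 13 G13) : (P : Subgroup G13) ≠ ⊥ := sylow_ne_bot (F := ZMod 13) P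

lemma card_sylow (P : Sylow 13 G13) : Nat.card P = 13 := by
  obtain ⟨k, hk⟩ := IsPGroup.iff_card.mp P.isPGroup'
  have hd : Nat.card P ∣ 1092 := by
    rw [← card_G]
    exact Subgroup.card_subgroup_dvd_card _
  rcases k with _ | _ | k
  · exfalso
    apply sylow_ne P
    apply Subgroup.eq_bot_of_card_eq
    simpa using hk
  · simpa using hk
  · exfalso
    rw [hk, pow_succ, pow_succ] at hd
    have h1 : 13 * 13 ∣ 1092 := dvd_trans (by simp [mul_assoc]) hd
    omega

lemma exists_order13 (H : Subgroup G13) (h : 13 ∣ Nat.card H) : ∃ x ∈ H, orderOf x = 13 := by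
  obtain ⟨x, hx⟩ := exists_prime_orderOf_dvd_card' 13 h
  refine ⟨x, x.2, ?_⟩
  rwa [Subgroup.orderOf_coe]

lemma eq_zpowers_of_card {H : Subgroup G13} {x : G13} (hx : x ∈ H) (h : orderOf x = Nat.card H) :
    H = zpowers x := by
  symm
  apply Subgroup.eq_of_le_of_card_ge ((Subgroup.zpowers_le).mpr hx)
  rw [Nat.card_zpowers, h]

lemma card_N_sylow (P : Sylow 13 G13) :
    Nat.card (normalizer ((P : Subgroup G13) : Set G13)) = 78 := by
  have hc := card_sylow P
  obtain ⟨x, hx, hord⟩ := exists_order13 (P : Subgroup G13) (by rw [hc])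
  obtain ⟨A, rfl⟩ := proj_surjective x
  obtain ⟨hA, ht⟩ := order13_par hord
  have h1 : (P : Subgroup G13) = zpowers (proj A) := eq_zpowers_of_card hx (by rw [hord, hc])
  have h2 : (P : Subgroup G13) ≤ MM (proj A) := by
    rw [h1, Subgroup.zpowers_le]
    exact mem_MM_proj.mpr rfl
  have h3 := P.is_maximal' (ptype_parabolic (F := ZMod 13) 13 hA ht) h2
  change MM (proj A) = (P : Subgroup G13) at h3
  rw [← h3]
  exact card_N_par hA ht

/-- The possible orders of proper subgroups. -/
theorem card_list (H : Subgroup G13) (hH : H ≠ ⊤) :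
    Nat.card H = 1 ∨ Nat.card H = 2 ∨ Nat.card H = 3 ∨ Nat.card H = 4 ∨ Nat.card H = 6 ∨ Nat.card H = 7 ∨
    Nat.card H = 12 ∨ Nat.card H = 13 ∨ Nat.card H = 14 ∨ Nat.card H = 26 ∨ Nat.card H = 39 ∨
    Nat.card H = 78 := by
  have hd : Nat.card H ∣ 1092 := by
    rw [← card_G]
    exact Subgroup.card_subgroup_dvd_card _
  rcases Cfsg.Agent.S0799.result (q := 13) (F := ZMod 13) (ZMod.card 13) 13 H with
    ⟨k, hk, h | h⟩ | ⟨P, K, hK, ⟨e⟩⟩ | ⟨⟨e⟩⟩ | ⟨⟨e⟩⟩ | ⟨⟨e⟩⟩ | ⟨K, _, _, m, hm, h | h⟩
  · have h7 : (13 + 1) / Nat.gcd 2 (13 - 1) = 7 := by norm_num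
    have h6 : (13 - 1) / Nat.gcd 2 (13 - 1) = 6 := by norm_num
    rw [h7, h6] at hk
    have hk' : k ≤ 7 := by
      rcases hk with hk | hk
      · exact Nat.le_of_dvd (by norm_num) hk
      · have := Nat.le_of_dvd (by norm_num) hk
        omega
    rw [h.2]
    interval_cases k <;> omega
  · obtain ⟨e⟩ := h
    have h7 : (13 + 1) / Nat.gcd 2 (13 - 1) = 7 := by norm_num
    have h6 : (13 - 1) / Nat.gcd 2 (13 - 1) = 6 := by norm_num
    rw [h7, h6] at hk
    have hk' : k ≤ 7 := by
      rcases hk with hk | hk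
      · exact Nat.le_of_dvd (by norm_num) hk
      · have := Nat.le_of_dvd (by norm_num) hk
        omega
    have hc : Nat.card H = 2 * k := by
      rw [Nat.card_congr e.toEquiv, DihedralGroup.nat_card]
    rw [hc]
    interval_cases k <;> omega
  · have hc : Nat.card H = Nat.card K := Nat.card_congr e.toEquiv
    have h1 : Nat.card K ∣ 78 := by
      rw [← card_N_sylow P]
      exact Subgroup.card_dvd_of_le hK
    rw [hc]
    have h2 : Nat.card K ≤ 78 := Nat.le_of_dvd (by norm_num) h1
    have h3 : Nat.card K ∈ Nat.divisors 78 := Nat.mem_divisors.mpr ⟨h1, by norm_num⟩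
    have h4 : Nat.divisors 78 = {1, 2, 3, 6, 13, 26, 39, 78} := by decide +kernel
    rw [h4] at h3
    simp only [Finset.mem_insert, Finset.mem_singleton] at h3
    omega
  · have hc : Nat.card H = 12 := by rw [Nat.card_congr e.toEquiv, card_alt4]
    omega
  · have hc : Nat.card H = 24 := by rw [Nat.card_congr e.toEquiv, card_perm4]
    rw [hc] at hd
    omega
  · have hc : Nat.card H = 60 := by rw [Nat.card_congr e.toEquiv, card_alt5]
    rw [hc] at hd
    omega
  all_goals
    have hK1 : 1 < Fintype.card K := Fintype.one_lt_card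
    have hm0 : m ≠ 0 := by
      rintro rfl
      simp at hm
    have hK13 : Fintype.card K ∣ 13 := by
      rw [← hm]
      exact dvd_pow_self _ hm0
    have hK2 : Fintype.card K = 13 := by
      rcases (Nat.dvd_prime (by norm_num)).mp hK13 with h' | h'
      · omega
      · exact h'
  · obtain ⟨e⟩ := h
    exfalso
    apply hH
    apply Subgroup.eq_top_of_card_eq
    rw [Nat.card_congr e.toEquiv, card_G]
    have h1 := card_PSL2_form (K := K)
    rw [hK2, show Nat.gcd 2 (13 - 1) = 2 by norm_num, show 13 * (13 ^ 2 - 1) = 2184 by norm_num] at h1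
    have h' : 2 * Nat.card (ProjectiveSpecialLinearGroup (Fin 2) K) = 2184 := h1
    omega
  · obtain ⟨e⟩ := h
    exfalso
    have h1 := card_PGL2_form (K := K)
    rw [hK2, show 13 * (13 ^ 2 - 1) = 2184 by norm_num] at h1
    rw [Nat.card_congr e.toEquiv, h1] at hd
    omega

lemma coatom_card (M : Subgroup G13) (hM : Nat.card M = 12 ∨ Nat.card M = 14 ∨ Nat.card M = 78) :
    IsCoatom M := by
  have hne : M ≠ ⊤ := by
    rintro rfl
    rw [Subgroup.card_top, card_G] at hM
    omega
  apply coatom_of_card M hne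
  intro L hL
  by_cases hT : L = ⊤
  · right
    rw [hT, Subgroup.card_top]
  · left
    have h1 := card_list L hT
    have h2 := Subgroup.card_dvd_of_le hL
    rcases hM with h | h | h <;> rw [h] at h2 ⊢ <;> rcases h1 with h1 | h1 | h1 | h1 | h1 | h1 | h1 | h1 | h1 | h1 | h1 | h1 <;>
      rw [h1] at h2 ⊢ <;> omega

lemma coatom_N_ss {A : SL2 (ZMod 13)} (hA : A ∉ center (SL2 (ZMod 13))) (ht : tr A * tr A ≠ 4) :
    IsCoatom (normalizer ((MM (proj A) : Subgroup G13) : Set G13)) := by
  apply coatom_card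
  rcases card_N_ss hA ht with h | h
  · exact Or.inl h
  · exact Or.inr (Or.inl h)

lemma coatom_N_par {A : SL2 (ZMod 13)} (hA : A ∉ center (SL2 (ZMod 13))) (ht : tr A * tr A = 4) :
    IsCoatom (normalizer ((MM (proj A) : Subgroup G13) : Set G13)) :=
  coatom_card _ (Or.inr (Or.inr (card_N_par hA ht)))

lemma case_cyc {H : Subgroup G13} {A : SL2 (ZMod 13)} (h1 : H ≠ ⊥) (hA : A ∉ center (SL2 (ZMod 13)))
    (ht : tr A * tr A ≠ 4) (hle : H ≤ MM (proj A)) : IsCoatom (normalizer (H : Set G13)) := by
  rw [N_eq hA ht H h1 hle]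
  exact coatom_N_ss hA ht

lemma case_prime {H : Subgroup G13} {r : ℕ} (hr : r.Prime) (hr13 : r ≠ 13) (hc : Nat.card H = r) :
    IsCoatom (normalizer (H : Set G13)) := by
  haveI : Fact r.Prime := ⟨hr⟩
  obtain ⟨x, hx⟩ := exists_prime_orderOf_dvd_card' r (G := H) (by rw [hc])
  have hx' : orderOf (x : G13) = r := by rwa [Subgroup.orderOf_coe]
  obtain ⟨A, hA⟩ := proj_surjective (x : G13)
  have h0 : proj A ≠ 1 := by
    rw [hA]
    intro h
    rw [h, orderOf_one] at hx'
    exact hr.one_lt.ne hx'
  have hnd : ¬ 13 ∣ orderOf (proj A) := by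
    rw [hA, hx']
    intro h
    exact hr13 ((Nat.prime_dvd_prime_iff_eq (by norm_num) hr).mp h).symm
  obtain ⟨hA', ht⟩ := ss_of_not13 h0 hnd
  have hH : H = zpowers (proj A) := eq_zpowers_of_card (by rw [hA]; exact x.2) (by rw [hA, hx', hc])
  have hle : H ≤ MM (proj A) := by
    rw [hH, Subgroup.zpowers_le]
    exact mem_MM_proj.mpr rfl
  have h1 : H ≠ ⊥ := by
    rintro rfl
    rw [Subgroup.card_bot] at hc
    exact hr.one_lt.ne hc
  exact case_cyc h1 hA' ht hle

lemma le_normalizer_of_double {G : Type*} [Group G] [Finite G] {A B : Subgroup G} (hle : A ≤ B)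
    (h : Nat.card B = 2 * Nat.card A) : B ≤ normalizer (A : Set G) := by
  have hi : (A.subgroupOf B).index = 2 := by
    have h1 := Subgroup.card_mul_index (A.subgroupOf B)
    rw [Nat.card_congr (Subgroup.subgroupOfEquivOfLe hle).toEquiv, h] at h1
    have h2 : 0 < Nat.card A := Nat.card_pos
    nlinarith
  have hn := Subgroup.normal_of_index_eq_two hi
  intro y hy
  apply Subgroup.mem_normalizer_fintype
  intro a ha
  have h1 := hn.conj_mem ⟨a, hle ha⟩ (Subgroup.mem_subgroupOf.mpr ha) ⟨y, hy⟩
  exact Subgroup.mem_subgroupOf.mp h1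

lemma case_six {H : Subgroup G13} (hc : Nat.card H = 6) : IsCoatom (normalizer (H : Set G13)) := by
  obtain ⟨x, hx⟩ := exists_prime_orderOf_dvd_card' 3 (G := H) (by rw [hc]; norm_num)
  have hx' : orderOf (x : G13) = 3 := by rwa [Subgroup.orderOf_coe]
  obtain ⟨A, hA⟩ := proj_surjective (x : G13)
  have h0 : proj A ≠ 1 := by
    rw [hA]
    intro h
    rw [h, orderOf_one] at hx'
    omega
  have hnd : ¬ 13 ∣ orderOf (proj A) := by
    rw [hA, hx']
    norm_num
  obtain ⟨hA', ht⟩ := ss_of_not13 h0 hnd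
  have hxH : proj A ∈ H := by rw [hA]; exact x.2
  have hord : orderOf (proj A) = 3 := by rw [hA, hx']
  set C : Subgroup G13 := zpowers (proj A) with hC
  have hCH : C ≤ H := by rw [hC, Subgroup.zpowers_le]; exact hxH
  have hC3 : Nat.card C = 3 := by rw [hC, Nat.card_zpowers, hord]
  have hCbot : C ≠ ⊥ := by
    intro h
    rw [h, Subgroup.card_bot] at hC3
    omega
  have hCM : C ≤ MM (proj A) := by
    rw [hC, Subgroup.zpowers_le]
    exact mem_MM_proj.mpr rfl
  have hi : (C.subgroupOf H).index = 2 := by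
    have h1 := Subgroup.card_mul_index (C.subgroupOf H)
    rw [Nat.card_congr (Subgroup.subgroupOfEquivOfLe hCH).toEquiv, hC3, hc] at h1
    omega
  have hstar : ∀ h ∈ H, h ^ 3 = 1 → h ∈ C := by
    intro h hh h3
    have h2 := Subgroup.mul_self_mem_of_index_two hi ⟨h, hh⟩
    have h2' : h * h ∈ C := Subgroup.mem_subgroupOf.mp h2
    have h4 : h = (h * h)⁻¹ := by
      rw [eq_inv_iff_mul_eq_one]
      calc h * (h * h) = h ^ 3 := by rw [pow_three]
        _ = 1 := h3
    rw [h4]
    exact C.inv_mem h2'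
  have hcube : ∀ c ∈ C, c ^ 3 = 1 := by
    intro c hc'
    have h1 := pow_card_eq_one' (G := C) (x := ⟨c, hc'⟩)
    rw [hC3] at h1
    exact congrArg Subtype.val h1
  have hNle : normalizer (H : Set G13) ≤ normalizer (C : Set G13) := by
    intro y hy
    apply Subgroup.mem_normalizer_fintype
    intro c hc'
    apply hstar
    · exact (Subgroup.mem_normalizer_iff.mp hy _).mp (hCH hc')
    · rw [conj_pow, hcube c hc']
      group
  have hHle : H ≤ normalizer (C : Set G13) := Subgroup.le_normalizer.trans hNle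
  have hNN := N_eq hA' ht C hCbot hCM
  have hN := card_N_ss hA' ht
  rw [← hNN] at hN
  have h6 : 6 ∣ Nat.card (normalizer (C : Set G13)) := by
    rw [← hc]
    exact Subgroup.card_dvd_of_le hHle
  have h12 : Nat.card (normalizer (C : Set G13)) = 12 := by
    rcases hN with h | h
    · exact h
    · rw [h] at h6
      omega
  have hge : normalizer (C : Set G13) ≤ normalizer (H : Set G13) :=
    le_normalizer_of_double hHle (by rw [h12, hc])
  rw [le_antisymm hNle hge, hNN]
  exact coatom_N_ss hA' ht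

lemma norm_ne_top {H : Subgroup G13} (h1 : H ≠ ⊥) (h2 : H ≠ ⊤) : normalizer (H : Set G13) ≠ ⊤ := by
  intro h
  have hn : H.Normal := Subgroup.normalizer_eq_top_iff.mp h
  rcases hn.eq_bot_or_eq_top with h' | h'
  · exact h1 h'
  · exact h2 h'

lemma case_four {H : Subgroup G13} (hc : Nat.card H = 4) : IsCoatom (normalizer (H : Set G13)) := by
  have h1 : H ≠ ⊥ := by
    rintro rfl
    rw [Subgroup.card_bot] at hc
    omega
  have h2 : H ≠ ⊤ := by
    rintro rfl
    rw [Subgroup.card_top, card_G] at hc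
    omega
  have hp : IsPGroup 2 H := IsPGroup.of_card (n := 2) (by rw [hc]; norm_num)
  haveI : Fact (Nat.Prime 2) := ⟨Nat.prime_two⟩
  obtain ⟨P, hP⟩ := hp.exists_le_sylow
  have hPH : (P : Subgroup G13) = H := by
    obtain ⟨k, hk⟩ := IsPGroup.iff_card.mp P.isPGroup'
    have hd : Nat.card P ∣ 1092 := by
      rw [← card_G]
      exact Subgroup.card_subgroup_dvd_card _
    have hk2 : k < 3 := by
      by_contra hk3
      push Not at hk3
      obtain ⟨j, rfl⟩ : ∃ j, k = 3 + j := ⟨k - 3, by omega⟩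
      rw [hk, pow_add] at hd
      have h8 : 2 ^ 3 ∣ 1092 := dvd_trans (dvd_mul_right _ _) hd
      omega
    have hle : Nat.card P ≤ 4 := by
      rw [hk]
      interval_cases k <;> norm_num
    exact (Subgroup.eq_of_le_of_card_ge hP (by rw [hc]; exact hle)).symm
  have hcomm : ∀ x ∈ H, ∀ y ∈ H, x * y = y * x := by
    intro x hx y hy
    have h22 : Nat.card H = 2 ^ 2 := by rw [hc]; norm_num
    have hab := IsPGroup.isMulCommutative_of_card_eq_prime_sq h22
    have := hab.is_comm.comm ⟨x, hx⟩ ⟨y, hy⟩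
    exact congrArg Subtype.val this
  have hNT := norm_ne_top h1 h2
  have hN4 : Nat.card (normalizer (H : Set G13)) ≠ 4 := by
    intro h4
    have hNH : normalizer (H : Set G13) = H :=
      (Subgroup.eq_of_le_of_card_ge Subgroup.le_normalizer (by rw [h4, hc])).symm
    have hPN : normalizer ((P : Subgroup G13) : Set G13) ≤ centralizer ((P : Subgroup G13) : Set G13) := by
      rw [hPH, hNH]
      intro x hx
      rw [Subgroup.mem_centralizer_iff]
      intro y hy
      exact hcomm y hy x hx
    have hcomp := MonoidHom.ker_transferSylow_isComplement' P hPN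
    have hcard := hcomp.card_mul_card
    have hnorm : (MonoidHom.transferSylow P hPN).ker.Normal := MonoidHom.normal_ker _
    have hP4 : Nat.card (P : Subgroup G13) = 4 := by rw [hPH]; exact hc
    rw [card_G, hP4] at hcard
    rcases hnorm.eq_bot_or_eq_top with h' | h'
    · rw [h', Subgroup.card_bot] at hcard
      omega
    · rw [h', Subgroup.card_top, card_G] at hcard
      omega
  have hlist := card_list _ hNT
  have hd4 : 4 ∣ Nat.card (normalizer (H : Set G13)) := by
    rw [← hc]
    exact Subgroup.card_dvd_of_le Subgroup.le_normalizer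
  apply coatom_card
  left
  rcases hlist with h | h | h | h | h | h | h | h | h | h | h | h <;> rw [h] at hd4 hN4 ⊢ <;> omega

lemma case_13 {H : Subgroup G13} (hd : 13 ∣ Nat.card H) (hd2 : Nat.card H ∣ 78) :
    IsCoatom (normalizer (H : Set G13)) := by
  obtain ⟨x, hx, hord⟩ := exists_order13 H hd
  obtain ⟨A, rfl⟩ := proj_surjective x
  obtain ⟨hA, ht⟩ := order13_par hord
  have hpP : IsPGroup 13 (MM (proj A)) := ptype_parabolic (F := ZMod 13) 13 hA ht
  have hcardN := card_N_par hA ht
  set P : Subgroup G13 := MM (proj A) with hP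
  have hAP : proj A ∈ P := mem_MM_proj.mpr rfl
  have h13P : 13 ∣ Nat.card P := by
    have h1 := orderOf_dvd_natCard (⟨proj A, hAP⟩ : P)
    rwa [Subgroup.orderOf_mk, hord] at h1
  have hPc : Nat.card P = 13 := by
    obtain ⟨k, hk⟩ := IsPGroup.iff_card.mp hpP
    have hdvd : Nat.card P ∣ 78 := by
      rw [← hcardN]
      exact Subgroup.card_dvd_of_le Subgroup.le_normalizer
    rcases k with _ | _ | k
    · rw [hk] at h13P
      norm_num at h13P
    · simpa using hk
    · exfalso
      rw [hk, pow_add, pow_add] at hdvd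
      have h1 : 13 ^ 1 * 13 ^ 1 ∣ 78 := dvd_trans (by simp [mul_assoc]) hdvd
      omega
  have hPz : P = zpowers (proj A) := eq_zpowers_of_card hAP (by rw [hord, hPc])
  have hPH : P ≤ H := by
    rw [hPz, Subgroup.zpowers_le]
    exact hx
  have hdiv : Nat.divisors 78 = {1, 2, 3, 6, 13, 26, 39, 78} := by decide +kernel
  have hn : Nat.card (Sylow 13 H) = 1 := by
    obtain ⟨S⟩ : Nonempty (Sylow 13 H) := Sylow.nonempty
    have h1 := card_sylow_modEq_one 13 H
    have h2 : Nat.card (Sylow 13 H) ∣ Nat.card H := by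
      rw [S.card_eq_index_normalizer]
      exact Subgroup.index_dvd_card _
    have h3 : Nat.card (Sylow 13 H) ∈ Nat.divisors 78 :=
      Nat.mem_divisors.mpr ⟨h2.trans hd2, by norm_num⟩
    rw [hdiv] at h3
    simp only [Finset.mem_insert, Finset.mem_singleton] at h3
    have h4 : Nat.card (Sylow 13 H) % 13 = 1 % 13 := h1
    omega
  haveI hsub : Subsingleton (Sylow 13 H) := (Nat.card_eq_one_iff_unique.mp hn).1
  obtain ⟨S⟩ : Nonempty (Sylow 13 H) := Sylow.nonempty
  have hSn : (S : Subgroup H).Normal := Sylow.normal_of_subsingleton S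
  have hQp : IsPGroup 13 (P.subgroupOf H) := hpP.comap_of_injective H.subtype H.subtype_injective
  have hQS : P.subgroupOf H ≤ (S : Subgroup H) := by
    obtain ⟨S', hS'⟩ := hQp.exists_le_sylow
    rwa [Subsingleton.elim S' S] at hS'
  have hQc : Nat.card (P.subgroupOf H) = 13 := by
    rw [Nat.card_congr (Subgroup.subgroupOfEquivOfLe hPH).toEquiv, hPc]
  have hSc : Nat.card S ≤ 13 := by
    obtain ⟨k, hk⟩ := IsPGroup.iff_card.mp S.isPGroup'
    have h1 : Nat.card S ∣ 78 := (Subgroup.card_subgroup_dvd_card _).trans hd2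
    rcases k with _ | _ | k
    · rw [hk]; norm_num
    · rw [hk]; norm_num
    · exfalso
      rw [hk, pow_add, pow_add] at h1
      have h2 : 13 ^ 1 * 13 ^ 1 ∣ 78 := dvd_trans (by simp [mul_assoc]) h1
      omega
  have hQeq : P.subgroupOf H = (S : Subgroup H) :=
    Subgroup.eq_of_le_of_card_ge hQS (by rw [hQc]; exact hSc)
  have hstar : ∀ w ∈ H, w ^ 13 = 1 → w ∈ P := by
    intro w hw h13
    have h1 : (⟨w, hw⟩ : H) ∈ (S : Subgroup H) := by
      apply mem_sylow_of_pow_eq_one S
      · rw [Subgroup.normalizer_eq_top_iff.mpr hSn]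
        trivial
      · exact Subtype.ext h13
    rw [← hQeq] at h1
    exact Subgroup.mem_subgroupOf.mp h1
  have hexp : ∀ c ∈ P, c ^ 13 = 1 := by
    intro c hc'
    have h1 := pow_card_eq_one' (G := P) (x := ⟨c, hc'⟩)
    rw [hPc] at h1
    exact congrArg Subtype.val h1
  have hNle : normalizer (H : Set G13) ≤ normalizer (P : Set G13) := by
    intro y hy
    apply Subgroup.mem_normalizer_fintype
    intro c hc'
    apply hstar
    · exact (Subgroup.mem_normalizer_iff.mp hy _).mp (hPH hc')
    · rw [conj_pow, hexp c hc']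
      group
  have hHle : H ≤ normalizer (P : Set G13) := Subgroup.le_normalizer.trans hNle
  have hcyc := pt2_aux (F := ZMod 13) hA ht
  have hge : normalizer (P : Set G13) ≤ normalizer (H : Set G13) := by
    intro y hy
    apply Subgroup.mem_normalizer_fintype
    intro h hh
    have hcomm := (IsCyclic.isMulCommutative (α := (normalizer (P : Set G13)) ⧸ (P.subgroupOf (normalizer (P : Set G13))))).is_comm.comm
      (QuotientGroup.mk (⟨y⁻¹, Subgroup.inv_mem _ hy⟩ : normalizer (P : Set G13)))
      (QuotientGroup.mk (⟨h, hHle hh⟩ : normalizer (P : Set G13)))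
    rw [← QuotientGroup.mk_mul, ← QuotientGroup.mk_mul, QuotientGroup.eq] at hcomm
    have h1 : (y⁻¹ * h)⁻¹ * (h * y⁻¹) ∈ P := Subgroup.mem_subgroupOf.mp hcomm
    have h2 : y * h * y⁻¹ = h * ((y⁻¹ * h)⁻¹ * (h * y⁻¹)) := by group
    rw [h2]
    exact H.mul_mem hh (hPH h1)
  rw [le_antisymm hNle hge]
  exact coatom_N_par hA ht

/-- **The main fact on `PSL₂(13)`.** -/
theorem psl_main (H : Subgroup G13) (h1 : H ≠ ⊥) (h2 : H ≠ ⊤) : IsCoatom (normalizer (H : Set G13)) := by
  have hNT := norm_ne_top h1 h2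
  have hself : ∀ (hc : IsCoatom H), IsCoatom (normalizer (H : Set G13)) := by
    intro hc
    rcases hc.le_iff.mp (Subgroup.le_normalizer (H := H)) with h | h
    · exact absurd h hNT
    · rw [h]
      exact hc
  rcases card_list H h2 with h | h | h | h | h | h | h | h | h | h | h | h
  · exact absurd (Subgroup.eq_bot_of_card_eq H h) h1
  · exact case_prime Nat.prime_two (by norm_num) h
  · exact case_prime Nat.prime_three (by norm_num) h
  · exact case_four h
  · exact case_six h
  · exact case_prime (by norm_num) (by norm_num) h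
  · exact hself (coatom_card H (Or.inl h))
  · exact case_13 (by rw [h]) (by rw [h]; norm_num)
  · exact hself (coatom_card H (Or.inr (Or.inl h)))
  · exact case_13 (by rw [h]; norm_num) (by rw [h]; norm_num)
  · exact case_13 (by rw [h]; norm_num) (by rw [h]; norm_num)
  · exact case_13 (by rw [h]; norm_num) (by rw [h])

theorem good_G13 : Good G13 := by
  intro H hH
  apply psl_main
  · rintro rfl
    exact hH inferInstance
  · rintro rfl
    exact hH inferInstance

end psl13

/-! ### The group `SL₂(13)` -/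

section sl13

abbrev S13 := SL2 (ZMod 13)

lemma two_ne : (2 : ZMod 13) ≠ 0 := by decide

lemma negS_ne : negS (1 : S13) ≠ 1 := by
  intro h
  have h1 := congrArg (fun A : S13 => (A : Matrix (Fin 2) (Fin 2) (ZMod 13)) 0 0) h
  simp at h1
  revert h1
  decide

lemma negS_center : negS (1 : S13) ∈ center S13 := by
  rw [← proj_eq_one_iff, proj_negS, map_one]

lemma negS_mul (A : S13) : negS A = A * negS 1 := by
  apply Subtype.ext
  simp

lemma invol_eq {x : S13} (h : x * x = 1) : x = 1 ∨ x = negS 1 := by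
  by_cases hc : x ∈ center S13
  · exact center_eq x hc
  · exact absurd h (Cfsg.Agent.Lib.PSL2Std.mul_self_ne_one' two_ne hc)

lemma negS_pow_odd {m : ℕ} (hm : Odd m) : negS (1 : S13) ^ m = negS 1 := by
  obtain ⟨k, rfl⟩ := hm
  have h1 : negS (1 : S13) * negS 1 = 1 := by
    apply Subtype.ext
    simp
  rw [pow_succ, pow_mul, pow_two, h1, one_pow, one_mul]

lemma isCoatom_comap_aux {A B : Type*} [Group A] [Group B] (f : A →* B) (hf : Function.Surjective f)
    {M : Subgroup B} (hM : IsCoatom M) : IsCoatom (M.comap f) := by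
  refine ⟨?_, fun L hL => ?_⟩
  · intro h
    apply hM.1
    rw [eq_top_iff]
    intro y _
    obtain ⟨x, rfl⟩ := hf y
    have : x ∈ M.comap f := by rw [h]; trivial
    exact this
  · obtain ⟨hle, x, hxL, hx⟩ := SetLike.lt_iff_le_and_exists.mp hL
    have hlt : M < L.map f := by
      refine SetLike.lt_iff_le_and_exists.mpr ⟨?_, f x, Subgroup.mem_map.mpr ⟨x, hxL, rfl⟩, hx⟩
      intro y hy
      obtain ⟨z, rfl⟩ := hf y
      exact Subgroup.mem_map.mpr ⟨z, hle hy, rfl⟩
    have htop := hM.2 _ hlt
    rw [eq_top_iff]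
    intro c _
    have hc : f c ∈ L.map f := by rw [htop]; trivial
    obtain ⟨c', hc', he⟩ := hc
    have h1 : c'⁻¹ * c ∈ M.comap f := by
      rw [Subgroup.mem_comap, map_mul, map_inv, he, inv_mul_cancel]
      exact M.one_mem
    have := L.mul_mem hc' (hle h1)
    simpa using this

theorem good_S13 : Good S13 := by
  intro H hH
  have hb1 : H.map (proj : S13 →* G13) ≠ ⊥ := by
    intro h
    apply hH
    constructor
    intro n hn g
    have hz : n ∈ center S13 := by
      rw [← proj_eq_one_iff]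
      have : proj n ∈ H.map (proj : S13 →* G13) := ⟨n, hn, rfl⟩
      rw [h] at this
      exact Subgroup.mem_bot.mp this
    have h1 : g * n * g⁻¹ = n := by
      rw [Subgroup.mem_center_iff.mp hz g, mul_assoc, mul_inv_cancel, mul_one]
    rw [h1]
    exact hn
  have hb2 : H.map (proj : S13 →* G13) ≠ ⊤ := by
    intro h
    apply hH
    constructor
    intro n hn g
    have h0 : proj g ∈ H.map (proj : S13 →* G13) := by rw [h]; trivial
    obtain ⟨h', hh', he⟩ := h0
    have hz : h'⁻¹ * g ∈ center S13 := by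
      rw [← proj_eq_one_iff, map_mul, map_inv, he, inv_mul_cancel]
    have hz' := Subgroup.mem_center_iff.mp hz n
    have h1 : g * n * g⁻¹ = h' * n * h'⁻¹ := by
      have hg : g = h' * (h'⁻¹ * g) := by group
      have h2 : g * n = h' * n * (h'⁻¹ * g) := by
        calc g * n = h' * ((h'⁻¹ * g) * n) := by group
          _ = h' * (n * (h'⁻¹ * g)) := by rw [← hz']
          _ = h' * n * (h'⁻¹ * g) := by group
      calc g * n * g⁻¹ = h' * n * (h'⁻¹ * g) * g⁻¹ := by rw [h2]
        _ = h' * n * h'⁻¹ := by group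
    rw [h1]
    exact H.mul_mem (H.mul_mem hh' hn) (H.inv_mem hh')
  have hc := psl_main _ hb1 hb2
  have hN : normalizer (H : Set S13) =
      (normalizer ((H.map (proj : S13 →* G13) : Subgroup G13) : Set G13)).comap (proj : S13 →* G13) := by
    ext y
    rw [Subgroup.mem_comap]
    constructor
    · intro hy
      exact Subgroup.le_normalizer_map proj ⟨y, hy, rfl⟩
    · intro hy
      apply Subgroup.mem_normalizer_fintype
      intro h hh
      have h1 : proj (y * h * y⁻¹) ∈ H.map (proj : S13 →* G13) := by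
        rw [map_mul, map_mul, map_inv]
        exact (Subgroup.mem_normalizer_iff.mp hy (proj h)).mp ⟨h, hh, rfl⟩
      obtain ⟨h', hh', he⟩ := h1
      rcases (proj_eq_proj_iff' h' (y * h * y⁻¹)).mp he with h2 | h2
      · rw [h2]
        exact hh'
      · rw [h2, negS_mul]
        by_cases hm : negS (1 : S13) ∈ H
        · exact H.mul_mem hh' hm
        · exfalso
          have hodd : Odd (Nat.card H) := by
            by_contra hev
            rw [Nat.not_odd_iff_even] at hev
            haveI : Fact (Nat.Prime 2) := ⟨Nat.prime_two⟩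
            obtain ⟨x, hx⟩ := exists_prime_orderOf_dvd_card' 2 (G := H) hev.two_dvd
            have hx1 : (x : S13) ^ 2 = 1 := by
              have := pow_orderOf_eq_one (x : S13)
              rwa [Subgroup.orderOf_coe, hx] at this
            have hx2 : (x : S13) ≠ 1 := by
              intro h3
              have h4 : x = 1 := Subtype.ext h3
              rw [h4, orderOf_one] at hx
              omega
            rcases invol_eq (by rw [← pow_two]; exact hx1) with h3 | h3
            · exact hx2 h3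
            · exact hm (h3 ▸ x.2)
          set m := Nat.card H with hmdef
          have h3 : h ^ m = 1 := by
            have h4 := pow_card_eq_one' (G := H) (x := ⟨h, hh⟩)
            exact congrArg Subtype.val h4
          have h3' : h' ^ m = 1 := by
            have h4 := pow_card_eq_one' (G := H) (x := ⟨h', hh'⟩)
            exact congrArg Subtype.val h4
          have h5 : (y * h * y⁻¹) ^ m = 1 := by
            rw [conj_pow, h3]
            group
          rw [h2, negS_mul] at h5
          have hcm : Commute h' (negS 1) := Subgroup.mem_center_iff.mp negS_center h'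
          rw [hcm.mul_pow, h3', one_mul, negS_pow_odd hodd] at h5
          exact negS_ne h5
  rw [hN]
  exact isCoatom_comap_aux _ proj_surjective hc

end sl13

/-- Let K be isomorphic to PSL(2, 13) or to SL(2, 13) and let S be a finite abelian group of order coprime to the order of K. Then in the direct product K × S every subgroup that is not normal has a normalizer that is a maximal subgroup. -/
theorem result {K S : Type*} [Group K] [CommGroup S] [Finite K] [Finite S]
    (hK : Nonempty (K ≃* Matrix.ProjectiveSpecialLinearGroup (Fin 2) (ZMod 13)) ∨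
      Nonempty (K ≃* Matrix.SpecialLinearGroup (Fin 2) (ZMod 13)))
    (hKS : (Nat.card K).Coprime (Nat.card S)) (H : Subgroup (K × S)) (hH : ¬ H.Normal) :
    IsCoatom (Subgroup.normalizer (H : Set (K × S))) := by
  rcases hK with ⟨⟨e⟩⟩ | ⟨⟨e⟩⟩
  · exact good_prod (Good.of_equiv e good_G13) hKS H hH
  · exact good_prod (Good.of_equiv e good_S13) hKS H hH

end Cfsg.Agent.S4234
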