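import Mathlib
import Cfsg.Statements.S4237
import Cfsg.Agent.Lib.KulakoffSylow

set_option autoImplicit false
open Cfsg

namespace Cfsg.Agent.S4237

open Cfsg.Agent.Lib.KulakoffOdd Cfsg.Agent.Lib.KulakoffSylow

/-- Let G be a finite group, p a prime and a a natural number such that p^(a+1) divides the order of G. Then the number of subgroups of G of order p^a is congruent to 1 or to 1 + p modulo p². -/
theorem result {G : Type*} [Group G] [Finite G] (p a : ℕ) (hp : p.Prime) (hdvd : p ^ (a + 1) ∣ Nat.card G) :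
    Nat.card {H : Subgroup G // Nat.card H = p ^ a} ≡ 1 [MOD p ^ 2] ∨
      Nat.card {H : Subgroup G // Nat.card H = p ^ a} ≡ 1 + p [MOD p ^ 2] := by
  have : Fact p.Prime := ⟨hp⟩
  by_cases hp2 : p = 2
  · subst hp2
    have h1 : cnt G (2 ^ a) ≡ 1 [MOD 2] :=
      cnt_modEq_one G ((pow_dvd_pow 2 (by omega)).trans hdvd)
    show cnt G (2 ^ a) ≡ 1 [MOD 2 ^ 2] ∨ cnt G (2 ^ a) ≡ 1 + 2 [MOD 2 ^ 2]
    unfold Nat.ModEq at h1 ⊢
    omega
  · obtain ⟨P⟩ : Nonempty (Sylow p G) := inferInstance
    have h1 := cnt_modEq_sylow P a hdvd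
    show cnt G (p ^ a) ≡ 1 [MOD p ^ 2] ∨ cnt G (p ^ a) ≡ 1 + p [MOD p ^ 2]
    have hfac : a + 1 ≤ (Nat.card G).factorization p :=
      (Nat.Prime.pow_dvd_iff_le_factorization hp Nat.card_pos.ne').mp hdvd
    have hPcard := P.card_eq_multiplicity
    by_cases hc : IsCyclic P
    · left
      have h2 : cnt P (p ^ a) = 1 := cnt_cyclic (p := p) (by
        rw [hPcard]
        exact pow_dvd_pow p (by omega))
      rwa [h2] at h1
    · rcases Nat.eq_zero_or_pos a with rfl | ha
      · left
        have h2 : cnt P (p ^ 0) = 1 := by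
          unfold cnt
          rw [Nat.card_eq_one_iff_unique]
          refine ⟨⟨?_⟩, ⟨⟨⊥, by simp⟩⟩⟩
          rintro ⟨A, hA⟩ ⟨B, hB⟩
          apply Subtype.ext
          have e1 : A = ⊥ := Subgroup.card_eq_one.mp (by simpa using hA)
          have e2 : B = ⊥ := Subgroup.card_eq_one.mp (by simpa using hB)
          exact e1.trans e2.symm
        rwa [h2] at h1
      · right
        exact h1.trans (kulakoff_odd hp2 _ P hPcard hc a ha (by omega))

end Cfsg.Agent.S4237
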