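import Mathlib
import Cfsg.Statements.S4238
import Cfsg.Agent.Lib.FrobNPC
import Cfsg.Agent.Lib.NPCBasic
import Cfsg.Agent.Lib.PCore
import Cfsg.Agent.Lib.PSolv
import Cfsg.Agent.Lib.RegularP

set_option autoImplicit false
set_option linter.style.haveILetI false
open Cfsg

namespace Cfsg.Agent.S4238

universe u

open Cfsg.Agent.Lib.FrobNPC

/-- the property of a section -/
def Good (p : ℕ) (K : Type*) [Group K] : Prop :=
  pPrimeCore p K = ⊥ → ∃ k : K, orderOf k = Monoid.exponent K

lemma good_congr {p : ℕ} {K K' : Type*} [Group K] [Group K'] (e : K ≃* K') (h : Good p K) :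
    Good p K' := by
  intro hK'
  have h1 : pPrimeCore p K = ⊥ := by
    have h2 := Cfsg.Agent.Lib.PSolv.map_pPrimeCore_equiv p e
    rw [hK'] at h2
    exact (Subgroup.map_eq_bot_iff_of_injective _ e.injective).1 h2
  obtain ⟨k, hk⟩ := h h1
  exact ⟨e k, by rw [MulEquiv.orderOf_eq, hk, Monoid.exponent_eq_of_mulEquiv e]⟩

/-- the hereditary form of the section property -/
def PP (p : ℕ) (X : Type u) [Group X] : Prop :=
  ∀ (H : Subgroup X) (K : Type u) [Group K] (f : H →* K), Function.Surjective f → Good p K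

lemma PP_of_sections {p : ℕ} {G : Type u} [Group G]
    (h : ∀ (H : Subgroup G) (N : Subgroup H) [N.Normal], Good p (H ⧸ N)) : PP p G := by
  intro H K _ f hf
  exact good_congr (QuotientGroup.quotientKerEquivOfSurjective f hf) (h H f.ker)

lemma PP.subgroup {p : ℕ} {X : Type u} [Group X] (h : PP p X) (L : Subgroup X) : PP p L := by
  intro H K _ f hf
  let e : H ≃* (H.map L.subtype) := H.equivMapOfInjective L.subtype L.subtype_injective
  exact h (H.map L.subtype) K (f.comp e.symm.toMonoidHom) (hf.comp e.symm.surjective)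

lemma PP.quotient {p : ℕ} {X Y : Type u} [Group X] [Group Y] (h : PP p X) (π : X →* Y)
    (hπ : Function.Surjective π) : PP p Y := by
  intro H K _ f hf
  let φ : (H.comap π) →* H := (π.comp (H.comap π).subtype).codRestrict H (fun x => x.2)
  have hφ : Function.Surjective φ := by
    rintro ⟨y, hy⟩
    obtain ⟨x, rfl⟩ := hπ y
    exact ⟨⟨x, hy⟩, rfl⟩
  exact h (H.comap π) K (f.comp φ) (hf.comp hφ)

theorem frob_of_PP {p : ℕ} [hp : Fact p.Prime] (n : ℕ) : ∀ (X : Type u) [Group X] [Finite X],
    Nat.card X = n → PP p X → FrobHyp p X := by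
  induction n using Nat.strong_induction_on with
  | _ n ih =>
  intro X _ _ hcard hPP Q hQ g hgN hgc
  by_contra hgC
  classical
  -- induction hypothesis for proper subgroups
  have ihSub : ∀ (L : Subgroup X), L ≠ ⊤ → ∀ (R : Subgroup X), R ≤ L → IsPGroup p R →
      ∀ h ∈ L, h ∈ Subgroup.normalizer (R : Set X) → (orderOf h).Coprime p →
      h ∈ Subgroup.centralizer (R : Set X) := by
    intro L hL R hRL hR h hhL hhN hhc
    have hlt : Nat.card L < n := hcard ▸ Cfsg.Agent.Lib.RegularP.card_lt_of_ne_top L hL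
    have hF := ih _ hlt L rfl (hPP.subgroup L)
    have h1 := hF (R.subgroupOf L) (hR.comap_of_injective L.subtype L.subtype_injective)
      ⟨h, hhL⟩ (by
        rw [Subgroup.mem_normalizer_iff]
        intro y
        exact Subgroup.mem_normalizer_iff.1 hhN y) (by rwa [Subgroup.orderOf_mk])
    refine Subgroup.mem_centralizer_iff.2 fun r hr => ?_
    exact congrArg Subtype.val (Subgroup.mem_centralizer_iff.1 h1 ⟨r, hRL hr⟩ hr)
  -- induction hypothesis for proper quotients
  have ihQuo : ∀ (T : Subgroup X) [T.Normal], T ≠ ⊥ → ∀ (R : Subgroup X), IsPGroup p R →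
      ∀ h ∈ Subgroup.normalizer (R : Set X), (orderOf h).Coprime p →
      ∀ y ∈ R, h * y * h⁻¹ * y⁻¹ ∈ T := by
    intro T _ hT R hR h hhN hhc y hy
    have hlt : Nat.card (X ⧸ T) < n := by
      rw [← hcard, Subgroup.card_eq_card_quotient_mul_card_subgroup T]
      have h1 : 1 < Nat.card T := by
        have h2 : Nat.card T ≠ 1 := fun h3 => hT (Subgroup.eq_bot_of_card_eq T h3)
        have h3 : 0 < Nat.card T := Nat.card_pos
        omega
      have h4 : 0 < Nat.card (X ⧸ T) := Nat.card_pos
      nlinarith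
    have hF := ih _ hlt (X ⧸ T) rfl
      (hPP.quotient (QuotientGroup.mk' T) (QuotientGroup.mk'_surjective T))
    have h1 := hF (R.map (QuotientGroup.mk' T)) (hR.map _) (h : X ⧸ T)
      (Subgroup.le_normalizer_map _ ⟨h, hhN, rfl⟩)
      (Nat.Coprime.coprime_dvd_left (orderOf_map_dvd (QuotientGroup.mk' T) h) hhc)
    have h2 := Subgroup.mem_centralizer_iff.1 h1 (y : X ⧸ T) ⟨y, hy, rfl⟩
    rw [← QuotientGroup.eq_one_iff]
    simp only [QuotientGroup.mk_mul, QuotientGroup.mk_inv]
    rw [← h2]
    group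
  -- elements of `Q`
  have hQelt : ∀ y ∈ Q, ∃ k : ℕ, y ^ p ^ k = 1 := by
    intro y hy
    obtain ⟨k, hk⟩ := hQ ⟨y, hy⟩
    exact ⟨k, by simpa using congrArg Subtype.val hk⟩
  have hcop_elt : ∀ (c y : X), (orderOf c).Coprime p → (∃ k : ℕ, y ^ p ^ k = 1) → y ∈ Subgroup.zpowers c →
      y = 1 := by
    rintro c y hc ⟨k, hk⟩ hy
    have h1 : orderOf y ∣ orderOf c := orderOf_dvd_of_mem_zpowers hy
    have h2 : orderOf y ∣ p ^ k := orderOf_dvd_of_pow_eq_one hk
    exact orderOf_eq_one_iff.1 (Nat.eq_one_of_dvd_coprimes (hc.pow_right k) h1 h2)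
  have hQne : Q ≠ ⊥ := by
    rintro rfl
    apply hgC
    rw [Subgroup.mem_centralizer_iff]
    intro y hy
    have : y = 1 := by simpa using hy
    rw [this]
    simp
  have hg1 : g ≠ 1 := by
    rintro rfl
    apply hgC
    exact Subgroup.one_mem _
  -- Step 1: `X = Q ⟨g⟩`
  have hX : Q ⊔ Subgroup.zpowers g = ⊤ := by
    by_contra hne
    exact hgC (ihSub _ hne Q le_sup_left hQ g (le_sup_right (a := Q) (Subgroup.mem_zpowers g)) hgN hgc)
  -- Step 2: `Q` is normal
  haveI hQn : Q.Normal := by
    apply Subgroup.normalizer_eq_top_iff.1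
    rw [eq_top_iff, ← hX]
    exact sup_le Subgroup.le_normalizer ((Subgroup.zpowers_le).2 hgN)
  -- Step 3: `Q` is a minimal normal subgroup
  have hmin : ∀ R : Subgroup X, R ≤ Q → R.Normal → R = ⊥ ∨ R = Q := by
    intro R hRQ hRn
    by_contra hcon
    simp only [not_or] at hcon
    obtain ⟨hR1, hR2⟩ := hcon
    have hne : R ⊔ Subgroup.zpowers g ≠ ⊤ := by
      intro htop
      have h1 := Cfsg.Agent.Lib.PCore.card_sup_dvd (Subgroup.zpowers g) R
      rw [sup_comm, htop, Subgroup.card_top, Nat.card_zpowers] at h1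
      have h2 : Nat.card Q ∣ Nat.card X := Subgroup.card_subgroup_dvd_card _
      have h3 : Nat.Coprime (Nat.card Q) (orderOf g) := by
        obtain ⟨k, hk⟩ := IsPGroup.iff_card.1 hQ
        rw [hk]
        exact Nat.Coprime.pow_left k hgc.symm
      have h4 : Nat.card Q ∣ Nat.card R := h3.dvd_of_dvd_mul_left (h2.trans h1)
      exact hR2 (Subgroup.eq_of_le_of_card_ge hRQ (Nat.le_of_dvd Nat.card_pos h4))
    have hgR := ihSub _ hne R le_sup_left (hQ.to_le hRQ) g
      (le_sup_right (a := R) (Subgroup.mem_zpowers g))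
      (by
        rw [Subgroup.normalizer_eq_top_iff.2 hRn]
        trivial) hgc
    have hgQ := ihQuo R hR1 Q hQ g hgN hgc
    apply hgC
    rw [Subgroup.mem_centralizer_iff]
    intro y hy
    obtain ⟨r, hr⟩ : ∃ r, r = g * y * g⁻¹ * y⁻¹ := ⟨_, rfl⟩
    have hrR : r ∈ R := hr ▸ hgQ y hy
    have hgr : r * g = g * r := Subgroup.mem_centralizer_iff.1 hgR r hrR
    have hpow : ∀ k : ℕ, g ^ k * y * (g ^ k)⁻¹ = r ^ k * y := by
      intro k
      induction k with
      | zero => simp
      | succ k ih2 =>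
        have hgrk : ∀ m : ℕ, g * r ^ m * g⁻¹ = r ^ m := by
          intro m
          have : Commute g (r ^ m) := (show Commute g r from hgr.symm).pow_right m
          rw [this.eq]
          group
        have h5 : g ^ (k + 1) * y * (g ^ (k + 1))⁻¹ = g * (g ^ k * y * (g ^ k)⁻¹) * g⁻¹ := by
          rw [pow_succ']
          group
        rw [h5, ih2]
        have h6 : g * (r ^ k * y) * g⁻¹ = (g * r ^ k * g⁻¹) * (g * y * g⁻¹) := by group
        rw [h6, hgrk, pow_succ]
        have h7 : g * y * g⁻¹ = r * y := by rw [hr]; group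
        rw [h7, mul_assoc]
    have h8 := hpow (orderOf g)
    rw [pow_orderOf_eq_one] at h8
    simp only [one_mul, inv_one, mul_one] at h8
    have h9 : r ^ orderOf g = 1 := by
      have : r ^ orderOf g * y = 1 * y := by rw [← h8, one_mul]
      exact mul_right_cancel this
    obtain ⟨k, hk⟩ := hQelt r (hRQ hrR)
    have h10 : orderOf r = 1 := Nat.eq_one_of_dvd_coprimes (hgc.pow_right k)
      (orderOf_dvd_of_pow_eq_one h9) (orderOf_dvd_of_pow_eq_one hk)
    have h11 : r = 1 := orderOf_eq_one_iff.1 h10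
    rw [hr] at h11
    have h12 : g * y * g⁻¹ = y := by
      have := mul_inv_eq_one.1 h11
      exact this
    calc y * g = (g * y * g⁻¹) * g := by rw [h12]
      _ = g * y := by group
  -- Step 4: `Q` is abelian
  have hQab : ∀ a ∈ Q, ∀ b ∈ Q, a * b = b * a := by
    let Z : Subgroup X := Q ⊓ Subgroup.centralizer (Q : Set X)
    have hZQ : Z ≤ Q := inf_le_left
    have hZn : Z.Normal := by
      constructor
      intro z hz x
      refine ⟨hQn.conj_mem z hz.1 x, ?_⟩
      show x * z * x⁻¹ ∈ Subgroup.centralizer (Q : Set X)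
      rw [Subgroup.mem_centralizer_iff]
      intro y hy
      have h1 := Subgroup.mem_centralizer_iff.1 hz.2 (x⁻¹ * y * x) (by
        have := hQn.conj_mem y hy x⁻¹
        simpa using this)
      have h2 : y * (x * z * x⁻¹) = x * ((x⁻¹ * y * x) * z) * x⁻¹ := by group
      have h3 : x * z * x⁻¹ * y = x * (z * (x⁻¹ * y * x)) * x⁻¹ := by group
      rw [h2, h3, h1]
    have hZne : Z ≠ ⊥ := by
      haveI : Nontrivial Q := by
        rw [Subgroup.nontrivial_iff_ne_bot]
        exact hQne
      haveI := hQ.center_nontrivial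
      obtain ⟨z, hz⟩ := exists_ne (1 : Subgroup.center Q)
      intro hbot
      have h1 : ((z : Q) : X) ∈ Z := by
        refine ⟨(z : Q).2, ?_⟩
        show ((z : Q) : X) ∈ Subgroup.centralizer (Q : Set X)
        rw [Subgroup.mem_centralizer_iff]
        intro y hy
        have h2 := (Subgroup.mem_center_iff.1 z.2) ⟨y, hy⟩
        exact congrArg Subtype.val h2
      rw [hbot, Subgroup.mem_bot] at h1
      apply hz
      apply Subtype.ext
      apply Subtype.ext
      exact h1
    have hZeq : Z = Q := (hmin Z hZQ hZn).resolve_left hZne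
    intro a ha b hb
    have h1 : a ∈ Z := hZeq ▸ ha
    exact (Subgroup.mem_centralizer_iff.1 h1.2 b hb).symm
  -- decomposition of elements
  have hdec : ∀ x : X, ∃ y ∈ Q, ∃ c ∈ Subgroup.zpowers g, y * c = x := by
    intro x
    have hx : x ∈ Q ⊔ Subgroup.zpowers g := by
      rw [hX]
      trivial
    exact Subgroup.mem_sup_of_normal_left.1 hx
  have hzcomm : ∀ a ∈ Subgroup.zpowers g, ∀ b ∈ Subgroup.zpowers g, a * b = b * a := by
    rintro _ ⟨i, rfl⟩ _ ⟨j, rfl⟩
    simp only
    rw [← zpow_add, ← zpow_add, add_comm]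
  have hzN : ∀ c ∈ Subgroup.zpowers g, (orderOf c).Coprime p := by
    intro c hc
    exact Nat.Coprime.coprime_dvd_left (orderOf_dvd_of_mem_zpowers hc) hgc
  -- Step 5, 6: nontrivial elements of `⟨g⟩` act fixed point freely
  have hfix : ∀ c ∈ Subgroup.zpowers g, c ≠ 1 → ∀ y ∈ Q, c * y * c⁻¹ = y → y = 1 := by
    intro c hc hc1 y hy hcy
    let R : Subgroup X := Q ⊓ Subgroup.centralizer ({c} : Set X)
    have hRn : R.Normal := by
      constructor
      intro r hr x
      obtain ⟨a, ha, b, hb, rfl⟩ := hdec x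
      have hrc : r * c = c * r := by
        have := Subgroup.mem_centralizer_iff.1 hr.2 c rfl
        exact this.symm
      have hbc : b * c = c * b := hzcomm b hb c hc
      refine ⟨hQn.conj_mem r hr.1 _, ?_⟩
      show a * b * r * (a * b)⁻¹ ∈ Subgroup.centralizer ({c} : Set X)
      rw [Subgroup.mem_centralizer_iff]
      intro c' hc'
      rw [Set.mem_singleton_iff] at hc'
      rw [hc']
      have hbr : b * r * b⁻¹ ∈ Q := hQn.conj_mem r hr.1 b
      have e1 : a * b * r * (a * b)⁻¹ = b * r * b⁻¹ := by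
        have := hQab a ha _ hbr
        calc a * b * r * (a * b)⁻¹ = (a * (b * r * b⁻¹)) * a⁻¹ := by group
          _ = b * r * b⁻¹ := by rw [this]; group
      rw [e1]
      -- `c` commutes with `b r b⁻¹`
      calc c * (b * r * b⁻¹) = (c * b) * r * b⁻¹ := by group
        _ = b * (c * r) * b⁻¹ := by rw [← hbc]; group
        _ = b * (r * c) * b⁻¹ := by rw [hrc]
        _ = b * r * (c * b⁻¹) := by group
        _ = b * r * (b⁻¹ * c) := by
          rw [hzcomm c hc b⁻¹ ((Subgroup.zpowers g).inv_mem hb)]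
        _ = b * r * b⁻¹ * c := by group
    rcases hmin R inf_le_left hRn with h1 | h1
    · have h2 : y ∈ R := by
        refine ⟨hy, ?_⟩
        show y ∈ Subgroup.centralizer ({c} : Set X)
        rw [Subgroup.mem_centralizer_iff]
        intro c' hc'
        rw [Set.mem_singleton_iff] at hc'
        rw [hc']
        have := mul_inv_eq_iff_eq_mul.1 hcy
        exact this
      rw [h1, Subgroup.mem_bot] at h2
      exact h2
    · -- `c` is central
      exfalso
      have hcQ : ∀ a ∈ Q, a * c = c * a := by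
        intro a ha
        have h2 : a ∈ R := h1 ▸ ha
        exact Subgroup.mem_centralizer_iff.1 h2.2 c rfl |>.symm
      have hcent : ∀ x : X, x * c = c * x := by
        intro x
        obtain ⟨a, ha, b, hb, rfl⟩ := hdec x
        rw [mul_assoc, hzcomm b hb c hc, ← mul_assoc, hcQ a ha, mul_assoc]
      let T : Subgroup X := Subgroup.zpowers c
      haveI hTn : T.Normal := by
        constructor
        rintro _ ⟨i, rfl⟩ x
        refine ⟨i, ?_⟩
        simp only
        have hcomm : Commute x (c ^ i) := (show Commute x c from hcent x).zpow_right i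
        rw [hcomm.eq]
        group
      have hTne : T ≠ ⊥ := by
        intro hbot
        have : c ∈ T := Subgroup.mem_zpowers c
        rw [hbot, Subgroup.mem_bot] at this
        exact hc1 this
      have hq := ihQuo T hTne Q hQ g hgN hgc
      apply hgC
      rw [Subgroup.mem_centralizer_iff]
      intro a ha
      have h3 : g * a * g⁻¹ * a⁻¹ ∈ T := hq a ha
      have h4 : g * a * g⁻¹ * a⁻¹ ∈ Q := by
        have h5 := hQn.conj_mem a ha g
        exact Q.mul_mem h5 (Q.inv_mem ha)
      have h5 : g * a * g⁻¹ * a⁻¹ = 1 :=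
        hcop_elt c _ (hzN c hc) (hQelt _ h4) h3
      have h6 : g * a * g⁻¹ = a := mul_inv_eq_one.1 h5
      calc a * g = (g * a * g⁻¹) * g := by rw [h6]
        _ = g * a := by group
  -- Step 7: elements outside `Q` are conjugate into `⟨g⟩`
  have hconj : ∀ c ∈ Subgroup.zpowers g, c ≠ 1 → ∀ y ∈ Q, orderOf (y * c) = orderOf c := by
    intro c hc hc1 y hy
    let θ : Q → Q := fun z => ⟨(z : X)⁻¹ * (c * z * c⁻¹), Q.mul_mem (Q.inv_mem z.2) (hQn.conj_mem _ z.2 c)⟩
    have hθ : Function.Injective θ := by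
      intro a b hab
      have h1 : (a : X)⁻¹ * (c * a * c⁻¹) = (b : X)⁻¹ * (c * b * c⁻¹) := congrArg Subtype.val hab
      have h2 : c * (b * (a : X)⁻¹) * c⁻¹ = b * (a : X)⁻¹ := by
        have h3 : (a : X)⁻¹ * c * a = (b : X)⁻¹ * c * b := by
          have h4 : ((a : X)⁻¹ * (c * a * c⁻¹)) * c = ((b : X)⁻¹ * (c * b * c⁻¹)) * c := by rw [h1]
          simpa [mul_assoc] using h4
        have h5 : c * (b * (a : X)⁻¹) = (b * (a : X)⁻¹) * c := by
          have h6 : (b : X) * ((a : X)⁻¹ * c * a) * (a : X)⁻¹ = b * ((b : X)⁻¹ * c * b) * (a : X)⁻¹ := by rw [h3]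
          have e1 : (b : X) * ((a : X)⁻¹ * c * a) * (a : X)⁻¹ = (b * (a : X)⁻¹) * c := by group
          have e2 : (b : X) * ((b : X)⁻¹ * c * b) * (a : X)⁻¹ = c * (b * (a : X)⁻¹) := by group
          rw [e1, e2] at h6
          exact h6.symm
        rw [h5]
        group
      have h7 := hfix c hc hc1 _ (Q.mul_mem b.2 (Q.inv_mem a.2)) h2
      have h8 : (b : X) = a := mul_inv_eq_one.1 h7
      exact (Subtype.ext h8).symm
    obtain ⟨z, hz⟩ := (Finite.injective_iff_surjective.1 hθ) ⟨y, hy⟩
    have h1 : (z : X)⁻¹ * (c * z * c⁻¹) = y := congrArg Subtype.val hz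
    have h2 : y * c = (z : X)⁻¹ * c * z := by
      rw [← h1]
      group
    rw [h2]
    have h3 := MulEquiv.orderOf_eq (MulAut.conj (z : X)⁻¹) c
    rw [← h3]
    congr 1
    simp [MulAut.conj_apply]
  -- Step 9: `O_{p'}(X) = 1`
  have hcore : pPrimeCore p X = ⊥ := by
    rw [eq_bot_iff]
    intro t ht
    rw [Subgroup.mem_bot]
    have hTn : (pPrimeCore p X).Normal := by infer_instance
    have hTc := Cfsg.Agent.Lib.PCore.card_pPrimeCore_coprime (G := X) p
    have hdis : Disjoint (pPrimeCore p X) Q := by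
      rw [Subgroup.disjoint_def]
      intro u hu hu2
      obtain ⟨k, hk⟩ := hQelt u hu2
      have h1 : orderOf u ∣ Nat.card (pPrimeCore p X) := Subgroup.orderOf_dvd_natCard _ hu
      exact orderOf_eq_one_iff.1 (Nat.eq_one_of_dvd_coprimes (hTc.pow_right k) h1
        (orderOf_dvd_of_pow_eq_one hk))
    obtain ⟨y, hy, c, hc, rfl⟩ := hdec t
    have hcomm : ∀ a ∈ Q, y * c * a = a * (y * c) := fun a ha =>
      Subgroup.commute_of_normal_of_disjoint _ _ hTn hQn hdis _ a ht ha
    have hcQ : ∀ a ∈ Q, c * a * c⁻¹ = a := by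
      intro a ha
      have h1 := hcomm a ha
      have h2 : y * (c * a) = y * (a * c) := by
        calc y * (c * a) = y * c * a := by group
          _ = a * (y * c) := h1
          _ = (a * y) * c := by group
          _ = (y * a) * c := by rw [hQab a ha y hy]
          _ = y * (a * c) := by group
      have h3 := mul_left_cancel h2
      rw [h3]
      group
    have hc1 : c = 1 := by
      by_contra hc1
      apply hQne
      rw [eq_bot_iff]
      intro a ha
      exact Subgroup.mem_bot.2 (hfix c hc hc1 a ha (hcQ a ha))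
    rw [hc1, mul_one] at ht ⊢
    exact Subgroup.disjoint_def.1 hdis ht hy
  -- Step 8: the final contradiction
  obtain ⟨x, hx⟩ := hPP ⊤ X (Subgroup.topEquiv : (⊤ : Subgroup X) ≃* X).toMonoidHom
    (Subgroup.topEquiv : (⊤ : Subgroup X) ≃* X).surjective hcore
  obtain ⟨y, hy, c, hc, rfl⟩ := hdec x
  by_cases hc1 : c = 1
  · rw [hc1, mul_one] at hx
    obtain ⟨k, hk⟩ := hQelt y hy
    have h1 : orderOf g ∣ orderOf y := by
      rw [hx]
      exact Monoid.order_dvd_exponent g
    have h2 : orderOf g = 1 := Nat.eq_one_of_dvd_coprimes (hgc.pow_right k) dvd_rfl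
      (h1.trans (orderOf_dvd_of_pow_eq_one hk))
    exact hg1 (orderOf_eq_one_iff.1 h2)
  · rw [hconj c hc hc1 y hy] at hx
    -- `p` divides the exponent
    obtain ⟨a, ha⟩ : ∃ a : Q, a ≠ 1 := by
      haveI : Nontrivial Q := by
        rw [Subgroup.nontrivial_iff_ne_bot]
        exact hQne
      exact exists_ne 1
    obtain ⟨k, hk⟩ := hQelt a a.2
    have h1 : orderOf (a : X) ∣ p ^ k := orderOf_dvd_of_pow_eq_one hk
    have h2 : orderOf (a : X) ∣ orderOf c := by
      rw [hx]
      exact Monoid.order_dvd_exponent _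
    have h3 : orderOf (a : X) = 1 := Nat.eq_one_of_dvd_coprimes ((hzN c hc).pow_right k) h2 h1
    apply ha
    apply Subtype.ext
    exact orderOf_eq_one_iff.1 h3

/-- In a finite `p`-group, some element has order the exponent. -/
lemma exists_order_exponent {K : Type*} [Group K] [Finite K] {p : ℕ} [hp : Fact p.Prime]
    (hK : IsPGroup p K) : ∃ k : K, orderOf k = Monoid.exponent K := by
  classical
  obtain ⟨a, ha⟩ : ∃ a : K, ∀ b : K, orderOf b ≤ orderOf a := by
    have := Finite.exists_max (fun x : K => orderOf x)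
    exact this
  refine ⟨a, Nat.dvd_antisymm (Monoid.order_dvd_exponent a) ?_⟩
  rw [Monoid.exponent_dvd]
  intro b
  obtain ⟨k, hk⟩ := hK b
  obtain ⟨k', hk'⟩ := hK a
  obtain ⟨i, -, hi⟩ := (Nat.dvd_prime_pow hp.out).1 (orderOf_dvd_of_pow_eq_one hk)
  obtain ⟨j, -, hj⟩ := (Nat.dvd_prime_pow hp.out).1 (orderOf_dvd_of_pow_eq_one hk')
  have h1 := ha b
  rw [hi, hj] at h1 ⊢
  exact Nat.pow_dvd_pow p ((Nat.pow_le_pow_iff_right hp.out.one_lt).1 h1)

/-- Let G be a finite group and p a prime. Then G has a normal p-complement if and only if every section K = H/N of G (N a normal subgroup of a subgroup H) whose largest normal subgroup of order prime to p is trivial contains an element whose order equals the exponent of K. -/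
theorem result {G : Type*} [Group G] [Finite G] (p : ℕ) [Fact p.Prime] :
    Cfsg.HasNormalPComplement p G ↔
      ∀ (H : Subgroup G) (N : Subgroup H) [N.Normal], Cfsg.pPrimeCore p (H ⧸ N) = ⊥ →
        ∃ k : H ⧸ N, orderOf k = Monoid.exponent (H ⧸ N) := by
  constructor
  · intro h H N _ hcore
    have h1 := Cfsg.Agent.Lib.NPCBasic.hasNPC_of_injective H.subtype H.subtype_injective h
    have h2 := Cfsg.Agent.Lib.NPCBasic.hasNPC_of_surjective (QuotientGroup.mk' N)
      (QuotientGroup.mk'_surjective N) h1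
    obtain ⟨T, hTn, hTc, k, hk⟩ := Cfsg.Agent.Lib.NPCBasic.hasNPC_iff.1 h2
    have hT : T = ⊥ := by
      rw [eq_bot_iff, ← hcore]
      exact Cfsg.Agent.Lib.PCore.le_pPrimeCore hTn hTc
    rw [hT, Subgroup.index_bot] at hk
    exact exists_order_exponent (IsPGroup.of_card hk)
  · intro h
    have hPP := PP_of_sections (p := p) (G := G) h
    have hF := frob_of_PP (p := p) _ G rfl hPP
    obtain ⟨N, hNn, hNc, k, hk⟩ := Cfsg.Agent.Lib.FrobNPC.exists_normal_complement hF
    exact Cfsg.Agent.Lib.NPCBasic.hasNPC_iff.2 ⟨N, hNn, hNc, k, hk⟩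

end Cfsg.Agent.S4238
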