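import Mathlib
import Cfsg.Statements.S4242
import Cfsg.Agent.Lib.FrobNPC
import Cfsg.Agent.Lib.PComplement
import Cfsg.Agent.Lib.CoprimeHyper
import Cfsg.Agent.Lib.PCore

set_option autoImplicit false
set_option linter.style.haveILetI false
open Cfsg

namespace Cfsg.Agent.S4242

variable {G : Type*} [Group G]

lemma nil_of_le {H K : Subgroup G} (h : H ≤ K) (hK : Group.IsNilpotent K) : Group.IsNilpotent H := by
  haveI := hK
  exact Group.nilpotent_of_mulEquiv (Subgroup.subgroupOfEquivOfLe h)

lemma commute_in [Finite G] {H : Subgroup G} {p : ℕ} [Fact p.Prime] (hH : Group.IsNilpotent H)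
    {x g : G} (hx : x ∈ H) (hg : g ∈ H) (hxp : ∃ k : ℕ, x ^ p ^ k = 1)
    (hgc : (orderOf g).Coprime p) : x * g = g * x := by
  haveI := hH
  have := Cfsg.Agent.Lib.PComplement.commute_of_isNilpotent (G := H) (p := p) (x := ⟨x, hx⟩)
    (g := ⟨g, hg⟩) (by
      obtain ⟨k, hk⟩ := hxp
      exact ⟨k, Subtype.ext (by simpa using hk)⟩) (by rwa [Subgroup.orderOf_mk])
  exact congrArg Subtype.val this

lemma nil_sup {A B : Subgroup G} (hA : Group.IsNilpotent A) (hB : Group.IsNilpotent B)
    (hcomm : ∀ a ∈ A, ∀ b ∈ B, a * b = b * a) : Group.IsNilpotent ↥(A ⊔ B) := by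
  haveI := hA
  haveI := hB
  let φ : A × B →* G := MonoidHom.noncommCoprod A.subtype B.subtype
    (fun a b => show Commute (A.subtype a) (B.subtype b) from hcomm a a.2 b b.2)
  have hr : φ.range = A ⊔ B := by
    simp only [φ]
    rw [MonoidHom.noncommCoprod_range]
    simp
  haveI h1 : Group.IsNilpotent φ.range := Group.nilpotent_of_surjective φ.rangeRestrict φ.rangeRestrict_surjective
  rwa [hr] at h1

lemma backward [Finite G] {p : ℕ} [hp : Fact p.Prime]
    (h : Group.IsNilpotent G ∨ Cfsg.IsMinimalNonNilpotent G ∨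
        ∃ Z K : Subgroup G, Z.Normal ∧ K.Normal ∧ Z ⊓ K = ⊥ ∧ Z ⊔ K = ⊤ ∧ Nat.card Z = p ∧
          Cfsg.IsMinimalNonNilpotent K ∧ ¬ p ∣ Nat.card K)
    (M : Subgroup G) (hM : IsCoatom M) (hpM : p ∣ Nat.card M) : Group.IsNilpotent M := by
  rcases h with hnil | hmin | ⟨Z, K, hZ, hK, hinf, hsup, hcardZ, hKmin, hpK⟩
  · haveI := hnil
    infer_instance
  · exact hmin.2 M hM.1
  · have hdis : Disjoint Z K := by
      rw [disjoint_iff]
      exact hinf
    have hcomm : ∀ z ∈ Z, ∀ k ∈ K, z * k = k * z := fun z hz k hk =>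
      Subgroup.commute_of_normal_of_disjoint Z K hZ hK hdis z k hz hk
    have hdec : ∀ x : G, ∃ z ∈ Z, ∃ k ∈ K, z * k = x := by
      intro x
      have hx : x ∈ Z ⊔ K := by rw [hsup]; trivial
      exact Subgroup.mem_sup_of_normal_right.1 hx
    -- `Z ≤ M`
    obtain ⟨x, hx⟩ := exists_prime_orderOf_dvd_card' (G := M) p hpM
    have hx' : orderOf (x : G) = p := by rwa [Subgroup.orderOf_coe]
    obtain ⟨z, hz, k, hk, hzk⟩ := hdec x
    have hzp : z ^ p = 1 := by
      have h1 := pow_card_eq_one' (x := (⟨z, hz⟩ : Z))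
      rw [hcardZ] at h1
      simpa using congrArg Subtype.val h1
    have hkp : k ^ p = 1 := by
      have h1 : (z * k) ^ p = z ^ p * k ^ p := (show Commute z k from hcomm z hz k hk).mul_pow p
      rw [hzk, ← hx', pow_orderOf_eq_one, hx', hzp, one_mul] at h1
      exact h1.symm
    have hk1 : k = 1 := by
      have h1 : orderOf k ∣ p := orderOf_dvd_of_pow_eq_one hkp
      have h2 : orderOf k ∣ Nat.card K := Subgroup.orderOf_dvd_natCard K hk
      rcases (Nat.dvd_prime hp.out).1 h1 with h3 | h3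
      · exact orderOf_eq_one_iff.1 h3
      · rw [h3] at h2
        exact absurd h2 hpK
    have hxZ : (x : G) ∈ Z := by
      rw [← hzk, hk1, mul_one]
      exact hz
    have hZM : Z ≤ M := by
      have h1 : Subgroup.zpowers (x : G) ≤ Z := (Subgroup.zpowers_le).2 hxZ
      have h2 : Subgroup.zpowers (x : G) = Z := by
        apply Subgroup.eq_of_le_of_card_ge h1
        rw [Nat.card_zpowers, hx', hcardZ]
      rw [← h2]
      exact (Subgroup.zpowers_le).2 x.2
    -- `M = Z (M ∩ K)`
    have hMeq : M = Z ⊔ (M ⊓ K) := by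
      apply le_antisymm
      · intro y hy
        obtain ⟨z, hz, k, hk, rfl⟩ := hdec y
        have hkM : k ∈ M := by
          have := M.mul_mem (M.inv_mem (hZM hz)) hy
          simpa using this
        exact Subgroup.mul_mem_sup hz ⟨hkM, hk⟩
      · exact sup_le hZM inf_le_left
    have hX : (M ⊓ K).subgroupOf K ≠ ⊤ := by
      intro h1
      have h2 : K ≤ M ⊓ K := Subgroup.subgroupOf_eq_top.1 h1
      have h3 : K ≤ M := h2.trans inf_le_left
      apply hM.1
      rw [eq_top_iff, ← hsup]
      exact sup_le hZM h3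
    have hnilX := hKmin.2 _ hX
    have hnilMK : Group.IsNilpotent ↥(M ⊓ K) := by
      haveI := hnilX
      exact Group.nilpotent_of_mulEquiv (Subgroup.subgroupOfEquivOfLe inf_le_right)
    have hnilZ : Group.IsNilpotent Z := by
      have h1 : IsPGroup p Z := IsPGroup.of_card (n := 1) (by rw [hcardZ, pow_one])
      exact h1.isNilpotent
    have h4 := nil_sup hnilZ hnilMK (fun a ha b hb => hcomm a ha b hb.2)
    rwa [← hMeq] at h4

lemma forward [Finite G] {p : ℕ} [hp : Fact p.Prime] (hpG : p ∣ Nat.card G)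
    (h : ∀ M : Subgroup G, IsCoatom M → p ∣ Nat.card M → Group.IsNilpotent M) :
    Group.IsNilpotent G ∨ Cfsg.IsMinimalNonNilpotent G ∨
        ∃ Z K : Subgroup G, Z.Normal ∧ K.Normal ∧ Z ⊓ K = ⊥ ∧ Z ⊔ K = ⊤ ∧ Nat.card Z = p ∧
          Cfsg.IsMinimalNonNilpotent K ∧ ¬ p ∣ Nat.card K := by
  classical
  by_contra hcon
  simp only [not_or] at hcon
  obtain ⟨hnil, hmin, hthird⟩ := hcon
  have hkey : ∀ H : Subgroup G, H ≠ ⊤ → p ∣ Nat.card H → Group.IsNilpotent H := by
    intro H hH hpH
    obtain ⟨M, hM, hHM⟩ := (eq_top_or_exists_le_coatom H).resolve_left hH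
    exact nil_of_le hHM (h M hM (hpH.trans (Subgroup.card_dvd_of_le hHM)))
  have hkey2 : ∀ H : Subgroup G, H ≠ ⊤ → p ∣ Nat.card H → ∀ x ∈ H, ∀ g ∈ H,
      (∃ k : ℕ, x ^ p ^ k = 1) → (orderOf g).Coprime p → x * g = g * x :=
    fun H hH hpH x hx g hg hxp hgc => commute_in (hkey H hH hpH) hx hg hxp hgc
  -- a non-nilpotent maximal subgroup
  obtain ⟨H₀, hH₀, hH₀n⟩ : ∃ H : Subgroup G, H ≠ ⊤ ∧ ¬ Group.IsNilpotent H := by
    by_contra hall
    push Not at hall
    exact hmin ⟨hnil, hall⟩
  obtain ⟨M, hM, hH₀M⟩ := (eq_top_or_exists_le_coatom H₀).resolve_left hH₀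
  have hMn : ¬ Group.IsNilpotent M := fun hh => hH₀n (nil_of_le hH₀M hh)
  have hpM : ¬ p ∣ Nat.card M := fun hh => hMn (h M hM hh)
  have hMord : ∀ x ∈ M, (orderOf x).Coprime p := by
    intro x hx
    have h1 : orderOf x ∣ Nat.card M := Subgroup.orderOf_dvd_natCard M hx
    exact Nat.Coprime.coprime_dvd_left h1 ((Nat.Prime.coprime_iff_not_dvd hp.out).2 hpM).symm
  let P : Sylow p G := default
  have hpP : p ∣ Nat.card (P : Subgroup G) := P.dvd_card_of_dvd_card hpG
  have hPelt : ∀ y ∈ (P : Subgroup G), ∃ k : ℕ, y ^ p ^ k = 1 := by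
    intro y hy
    obtain ⟨k, hk⟩ := P.isPGroup' ⟨y, hy⟩
    exact ⟨k, by simpa using congrArg Subtype.val hk⟩
  -- `M ⊔ P = ⊤`
  have hsup : M ⊔ (P : Subgroup G) = ⊤ := by
    by_contra hne
    have h1 : M ⊔ (P : Subgroup G) = M := by
      rcases eq_or_lt_of_le (le_sup_left : M ≤ M ⊔ (P : Subgroup G)) with h2 | h2
      · exact h2.symm
      · exact absurd (hM.2 _ h2) hne
    have h2 : (P : Subgroup G) ≤ M := by
      rw [← h1]
      exact le_sup_right
    exact hpM (hpP.trans (Subgroup.card_dvd_of_le h2))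
  have hPn : (P : Subgroup G).Normal := by
    by_contra hPn
    have hF : Cfsg.Agent.Lib.FrobNPC.FrobHyp p G := by
      intro Q hQ g hgN hgc
      rw [Subgroup.mem_centralizer_iff]
      intro q hq
      by_cases hQbot : Q = ⊥
      · have hq1 : q = 1 := by
          rw [hQbot] at hq
          simpa using hq
        subst hq1
        simp
      have hpQ : p ∣ Nat.card Q := by
        obtain ⟨k, hk⟩ := IsPGroup.iff_card.1 hQ
        rcases Nat.eq_zero_or_pos k with rfl | hk0
        · exfalso
          apply hQbot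
          rw [pow_zero] at hk
          exact Subgroup.eq_bot_of_card_eq Q hk
        · rw [hk]
          exact dvd_pow_self p hk0.ne'
      let H : Subgroup G := Q ⊔ Subgroup.zpowers g
      by_cases hH : H = ⊤
      · exfalso
        have hNQ : H ≤ Subgroup.normalizer (Q : Set G) :=
          sup_le Subgroup.le_normalizer ((Subgroup.zpowers_le).2 hgN)
        haveI hQn : Q.Normal := by
          rw [hH] at hNQ
          exact Subgroup.normalizer_eq_top_iff.1 (top_le_iff.1 hNQ)
        have hdvd := Cfsg.Agent.Lib.PCore.card_sup_dvd (Subgroup.zpowers g) Q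
        rw [sup_comm] at hdvd
        have hH' : Q ⊔ Subgroup.zpowers g = ⊤ := hH
        rw [hH', Subgroup.card_top, Nat.card_zpowers] at hdvd
        obtain ⟨T, hT⟩ := hQ.exists_le_sylow
        have hT0 : Nat.card (T : Subgroup G) ∣ Nat.card G := Subgroup.card_subgroup_dvd_card _
        have hTp : Nat.Coprime (Nat.card (T : Subgroup G)) (orderOf g) := by
          obtain ⟨k, hk⟩ := IsPGroup.iff_card.1 T.isPGroup'
          rw [hk]
          exact Nat.Coprime.pow_left k hgc.symm
        have hT1 : Nat.card (T : Subgroup G) ∣ Nat.card Q :=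
          hTp.dvd_of_dvd_mul_left (hT0.trans hdvd)
        have hQT : Q = T := Subgroup.eq_of_le_of_card_ge hT (Nat.le_of_dvd Nat.card_pos hT1)
        apply hPn
        obtain ⟨a, ha⟩ := MulAction.exists_smul_eq G T P
        haveI hTn : (T : Subgroup G).Normal := hQT ▸ hQn
        rw [← ha, Sylow.smul_eq_of_normal]
        exact hTn
      · have hpH : p ∣ Nat.card H := hpQ.trans (Subgroup.card_dvd_of_le le_sup_left)
        refine hkey2 H hH hpH q (le_sup_left (a := Q) hq) g
          (le_sup_right (a := Q) (Subgroup.mem_zpowers g)) ?_ hgc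
        obtain ⟨k, hk⟩ := hQ ⟨q, hq⟩
        exact ⟨k, by simpa using congrArg Subtype.val hk⟩
    obtain ⟨N, hNn, hNc, k, hk⟩ := Cfsg.Agent.Lib.FrobNPC.exists_normal_complement hF
    have hMN : M ≤ N := by
      intro x hx
      have h1 : orderOf (x : G ⧸ N) ∣ orderOf x := orderOf_map_dvd (QuotientGroup.mk' N) x
      have h2 : orderOf (x : G ⧸ N) ∣ p ^ k := by
        rw [← hk]
        exact orderOf_dvd_natCard _
      have h3 : orderOf (x : G ⧸ N) = 1 :=
        Nat.eq_one_of_dvd_coprimes (Nat.Coprime.pow_right k (hMord x hx)) h1 h2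
      exact (QuotientGroup.eq_one_iff x).1 (orderOf_eq_one_iff.1 h3)
    have hNtop : N ≠ ⊤ := by
      rintro rfl
      rw [Subgroup.card_top] at hNc
      exact (Nat.Prime.coprime_iff_not_dvd hp.out).1 hNc.symm hpG
    have hMeq : M = N := by
      rcases eq_or_lt_of_le hMN with h1 | h1
      · exact h1
      · exact absurd (hM.2 _ h1) hNtop
    subst hMeq
    -- `P` centralizes `M`
    let C : Subgroup M := (Subgroup.centralizer ((P : Subgroup G) : Set G)).subgroupOf M
    have hCtop : C = ⊤ := by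
      apply Cfsg.Agent.Lib.PCore.eq_top_of_forall_sylow_le
      intro q _
      obtain ⟨Qs, hQs⟩ := Cfsg.Agent.Lib.CoprimeHyper.exists_invariant_sylow (q := q)
        (P : Subgroup G) M P.isPGroup' hpM (by
          rw [Subgroup.normalizer_eq_top_iff.2 hNn]
          exact le_top)
      refine ⟨Qs, ?_⟩
      set Qg : Subgroup G := (Qs : Subgroup M).map M.subtype with hQg
      let H : Subgroup G := Qg ⊔ (P : Subgroup G)
      have hH : H ≠ ⊤ := by
        intro hH
        have hNQ : H ≤ Subgroup.normalizer (Qg : Set G) := by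
          refine sup_le Subgroup.le_normalizer ?_
          intro a ha
          rw [Subgroup.mem_normalizer_iff]
          intro x
          refine ⟨hQs a ha x, fun hx => ?_⟩
          have h1 := hQs a⁻¹ ((P : Subgroup G).inv_mem ha) _ hx
          have e : a⁻¹ * (a * x * a⁻¹) * a⁻¹⁻¹ = x := by group
          rwa [e] at h1
        haveI hQgn : Qg.Normal := by
          rw [hH] at hNQ
          exact Subgroup.normalizer_eq_top_iff.1 (top_le_iff.1 hNQ)
        have hdvd := Cfsg.Agent.Lib.PCore.card_sup_dvd (P : Subgroup G) Qg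
        rw [sup_comm] at hdvd
        have hH' : Qg ⊔ (P : Subgroup G) = ⊤ := hH
        rw [hH', Subgroup.card_top] at hdvd
        have hM0 : Nat.card M ∣ Nat.card G := Subgroup.card_subgroup_dvd_card _
        have hcop : Nat.Coprime (Nat.card M) (Nat.card (P : Subgroup G)) := by
          obtain ⟨k, hk⟩ := IsPGroup.iff_card.1 P.isPGroup'
          rw [hk]
          exact Nat.Coprime.pow_right k ((Nat.Prime.coprime_iff_not_dvd hp.out).2 hpM).symm
        have hM1 : Nat.card M ∣ Nat.card Qg := hcop.dvd_of_dvd_mul_left (hM0.trans hdvd)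
        have hQgM : Qg = M := Subgroup.eq_of_le_of_card_ge (Subgroup.map_subtype_le _)
          (Nat.le_of_dvd Nat.card_pos hM1)
        apply hMn
        rw [← hQgM]
        have h1 : IsPGroup q Qg := Qs.isPGroup'.map M.subtype
        exact h1.isNilpotent
      have hpH : p ∣ Nat.card H := hpP.trans (Subgroup.card_dvd_of_le le_sup_right)
      intro x hx
      rw [Subgroup.mem_subgroupOf, Subgroup.mem_centralizer_iff]
      intro y hy
      exact hkey2 H hH hpH y (le_sup_right (a := Qg) hy) x (le_sup_left (a := Qg) ⟨x, hx, rfl⟩)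
        (hPelt y hy) (hMord x x.2)
    have hMcent : ∀ x ∈ M, ∀ y ∈ (P : Subgroup G), y * x = x * y := by
      intro x hx y hy
      have h1 : (⟨x, hx⟩ : M) ∈ C := by
        rw [hCtop]
        trivial
      have h2 := (Subgroup.mem_centralizer_iff.1 (Subgroup.mem_subgroupOf.1 h1)) y hy
      exact h2
    apply hPn
    apply Subgroup.normalizer_eq_top_iff.1
    rw [eq_top_iff, ← hsup]
    refine sup_le ?_ Subgroup.le_normalizer
    intro x hx
    rw [Subgroup.mem_normalizer_iff]
    intro y
    constructor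
    · intro hy
      have e : x * y * x⁻¹ = y := by
        rw [← hMcent x hx y hy]
        group
      rw [e]
      exact hy
    · intro hy
      have h1 := hMcent x hx _ hy
      have e : y = x * y * x⁻¹ := mul_left_cancel (a := x) (by rw [← h1]; group)
      rw [e]
      exact hy
  have hinf : M ⊓ (P : Subgroup G) = ⊥ := by
    rw [eq_bot_iff]
    rintro x ⟨hx1, hx2⟩
    obtain ⟨k, hk⟩ := hPelt x hx2
    have h1 : orderOf x = 1 := Nat.eq_one_of_dvd_coprimes (Nat.Coprime.pow_right k (hMord x hx1))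
      dvd_rfl (orderOf_dvd_of_pow_eq_one hk)
    exact Subgroup.mem_bot.2 (orderOf_eq_one_iff.1 h1)
  have hcop : Nat.Coprime (Nat.card M) (Nat.card (P : Subgroup G)) := by
    obtain ⟨k, hk⟩ := IsPGroup.iff_card.1 P.isPGroup'
    rw [hk]
    exact Nat.Coprime.pow_right k ((Nat.Prime.coprime_iff_not_dvd hp.out).2 hpM).symm
  have hcardG : Nat.card G = Nat.card M * Nat.card (P : Subgroup G) := by
    apply Nat.dvd_antisymm
    · have h1 := Cfsg.Agent.Lib.PCore.card_sup_dvd M (P : Subgroup G)
      rwa [hsup, Subgroup.card_top] at h1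
    · exact hcop.mul_dvd_of_dvd_of_dvd (Subgroup.card_subgroup_dvd_card _)
        (Subgroup.card_subgroup_dvd_card _)
  have hProper : ∀ X : Subgroup G, X ≤ M → X ≠ M → X ⊔ (P : Subgroup G) ≠ ⊤ := by
    intro X hXM hne htop
    have h1 := Cfsg.Agent.Lib.PCore.card_sup_dvd X (P : Subgroup G)
    rw [htop, Subgroup.card_top, hcardG] at h1
    have h2 : Nat.card M ∣ Nat.card X := Nat.dvd_of_mul_dvd_mul_right Nat.card_pos h1
    exact hne (Subgroup.eq_of_le_of_card_ge hXM (Nat.le_of_dvd Nat.card_pos h2))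
  have hMcent : ∀ x ∈ M, ∀ y ∈ (P : Subgroup G), y * x = x * y := by
    by_contra hcon
    push Not at hcon
    obtain ⟨x, hx, y, hy, hne⟩ := hcon
    by_cases hX : Subgroup.zpowers x = M
    · apply hMn
      rw [← hX]
      letI : CommGroup (Subgroup.zpowers x) := IsCyclic.commGroup
      exact CommGroup.isNilpotent
    · exact hne (hkey2 (Subgroup.zpowers x ⊔ (P : Subgroup G))
        (hProper _ ((Subgroup.zpowers_le).2 hx) hX) (hpP.trans (Subgroup.card_dvd_of_le le_sup_right))
        y (le_sup_right (a := Subgroup.zpowers x) hy) x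
        (le_sup_left (a := Subgroup.zpowers x) (Subgroup.mem_zpowers x)) (hPelt y hy) (hMord x hx))
  have hMnormal : M.Normal := by
    apply Subgroup.normalizer_eq_top_iff.1
    rw [eq_top_iff, ← hsup]
    refine sup_le Subgroup.le_normalizer ?_
    intro y hy
    rw [Subgroup.mem_normalizer_iff]
    intro x
    constructor
    · intro hx
      have e : y * x * y⁻¹ = x := by
        rw [hMcent x hx y hy]
        group
      rw [e]
      exact hx
    · intro hx
      have h1 := hMcent _ hx y hy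
      have e : x = y * x * y⁻¹ := mul_left_cancel (a := y) (by rw [h1]; group)
      rw [e]
      exact hx
  obtain ⟨z, hz⟩ := exists_prime_orderOf_dvd_card' (G := (P : Subgroup G)) p hpP
  have hz' : orderOf (z : G) = p := by rwa [Subgroup.orderOf_coe]
  have hzM : (z : G) ∉ M := by
    intro hzM
    have h1 : (z : G) ∈ M ⊓ (P : Subgroup G) := ⟨hzM, z.2⟩
    rw [hinf, Subgroup.mem_bot] at h1
    rw [h1, orderOf_one] at hz'
    exact hp.out.one_lt.ne hz'
  have hZsup : Subgroup.zpowers (z : G) ⊔ M = ⊤ := by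
    apply hM.2
    refine lt_of_le_of_ne le_sup_right (fun h1 => hzM ?_)
    rw [h1]
    exact le_sup_left (a := Subgroup.zpowers (z : G)) (Subgroup.mem_zpowers _)
  have hcardP : Nat.card (P : Subgroup G) = p := by
    have h1 := Cfsg.Agent.Lib.PCore.card_sup_dvd (Subgroup.zpowers (z : G)) M
    rw [hZsup, Subgroup.card_top, Nat.card_zpowers, hz', hcardG, mul_comm] at h1
    have h2 : Nat.card (P : Subgroup G) ∣ p := Nat.dvd_of_mul_dvd_mul_right Nat.card_pos h1
    exact Nat.dvd_antisymm h2 hpP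
  refine hthird ⟨P, M, hPn, hMnormal, by rwa [inf_comm], by rwa [sup_comm], hcardP, ⟨hMn, ?_⟩, hpM⟩
  intro X hX
  have hX' : X.map M.subtype ≠ M := by
    intro h1
    apply hX
    rw [eq_top_iff]
    intro x _
    have h2 : (x : G) ∈ X.map M.subtype := by
      rw [h1]
      exact x.2
    obtain ⟨y, hy, hyx⟩ := h2
    have : y = x := Subtype.ext hyx
    rwa [← this]
  have h3 := hProper _ (Subgroup.map_subtype_le X) hX'
  have h4 := hkey _ h3 (hpP.trans (Subgroup.card_dvd_of_le le_sup_right))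
  have h5 := nil_of_le le_sup_left h4
  haveI := h5
  exact Group.nilpotent_of_mulEquiv (X.equivMapOfInjective M.subtype M.subtype_injective).symm

theorem result {G : Type*} [Group G] [Finite G] (p : ℕ) (hp : p.Prime) (hpG : p ∣ Nat.card G) :
    (∀ M : Subgroup G, IsCoatom M → p ∣ Nat.card M → Group.IsNilpotent M) ↔
      (Group.IsNilpotent G ∨ Cfsg.IsMinimalNonNilpotent G ∨
        ∃ Z K : Subgroup G, Z.Normal ∧ K.Normal ∧ Z ⊓ K = ⊥ ∧ Z ⊔ K = ⊤ ∧ Nat.card Z = p ∧
          Cfsg.IsMinimalNonNilpotent K ∧ ¬ p ∣ Nat.card K) := by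
  haveI : Fact p.Prime := ⟨hp⟩
  exact ⟨forward hpG, fun h M hM hpM => backward h M hM hpM⟩

end Cfsg.Agent.S4242
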