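import Mathlib
import Cfsg.Statements.S4244

set_option autoImplicit false
open Cfsg

namespace Cfsg.Agent.S4244

/-- if `A` is normal then `|A : A ∩ B|` divides `|G : B|` -/
lemma step_normal {G : Type*} [Group G] [Finite G] (A B : Subgroup G) [A.Normal] :
    B.relIndex A ∣ B.index := by
  have h1 : A.relIndex (B ⊔ A) = A.relIndex B := Subgroup.relIndex_sup_right B A
  have c1 : A.relIndex (B ⊔ A) * Nat.card A = Nat.card (B ⊔ A : Subgroup G) := by
    have := Subgroup.relIndex_mul_relIndex (⊥ : Subgroup G) A (B ⊔ A) bot_le le_sup_right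
    simp only [Subgroup.relIndex_bot_left] at this
    rw [mul_comm]; exact this
  have c2 : A.relIndex B * Nat.card (A ⊓ B : Subgroup G) = Nat.card B := by
    have := Subgroup.relIndex_mul_relIndex (⊥ : Subgroup G) (A ⊓ B) B bot_le inf_le_right
    simp only [Subgroup.relIndex_bot_left, Subgroup.inf_relIndex_right] at this
    rw [mul_comm]; exact this
  have c3 : B.relIndex A * Nat.card (A ⊓ B : Subgroup G) = Nat.card A := by
    have := Subgroup.relIndex_mul_relIndex (⊥ : Subgroup G) (A ⊓ B) A bot_le inf_le_left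
    simp only [Subgroup.relIndex_bot_left, Subgroup.inf_relIndex_left] at this
    rw [mul_comm]; exact this
  have c4 : B.relIndex (B ⊔ A) * Nat.card B = Nat.card (B ⊔ A : Subgroup G) := by
    have := Subgroup.relIndex_mul_relIndex (⊥ : Subgroup G) B (B ⊔ A) bot_le le_sup_left
    simp only [Subgroup.relIndex_bot_left] at this
    rw [mul_comm]; exact this
  have hpos : 0 < Nat.card (A ⊓ B : Subgroup G) := Nat.card_pos
  have hposB : 0 < Nat.card B := Nat.card_pos
  have key : B.relIndex (B ⊔ A) = B.relIndex A := by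
    apply Nat.eq_of_mul_eq_mul_right (Nat.mul_pos hpos hposB)
    calc B.relIndex (B ⊔ A) * (Nat.card (A ⊓ B : Subgroup G) * Nat.card B)
        = (B.relIndex (B ⊔ A) * Nat.card B) * Nat.card (A ⊓ B : Subgroup G) := by ring
      _ = Nat.card (B ⊔ A : Subgroup G) * Nat.card (A ⊓ B : Subgroup G) := by rw [c4]
      _ = (A.relIndex B * Nat.card A) * Nat.card (A ⊓ B : Subgroup G) := by rw [← c1, h1]
      _ = Nat.card A * (A.relIndex B * Nat.card (A ⊓ B : Subgroup G)) := by ring
      _ = Nat.card A * Nat.card B := by rw [c2]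
      _ = (B.relIndex A * Nat.card (A ⊓ B : Subgroup G)) * Nat.card B := by rw [c3]
      _ = B.relIndex A * (Nat.card (A ⊓ B : Subgroup G) * Nat.card B) := by ring
  rw [← key]
  exact Subgroup.relIndex_dvd_index_of_le le_sup_left

/-- normal step: if `H` is normal in `L` and `K ≤ L`, then `|H : H ∩ K|` divides `|L : K|` -/
lemma step {G : Type*} [Group G] [Finite G] (H L K : Subgroup G) (hHL : H ≤ L) (hKL : K ≤ L)
    (hN : (H.subgroupOf L).Normal) : (H ⊓ K).relIndex H ∣ K.relIndex L := by
  rw [Subgroup.inf_relIndex_left, ← Subgroup.relIndex_subgroupOf (H := K) (K := H) hHL]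
  exact step_normal (H.subgroupOf L) (K.subgroupOf L)

/-- Let H be a subnormal subgroup of a finite group G. Then for every subgroup K of G the index of H ∩ K in H divides the index of K in G. -/
theorem result {G : Type*} [Group G] [Finite G] (H : Subgroup G) (hH : H.IsSubnormal) (K : Subgroup G) :
    (H ⊓ K).relIndex H ∣ K.index := by
  induction hH with
  | top => simp
  | step H L hHL hL hN ih =>
    -- `|H : H ∩ K| = |H : H ∩ (L ∩ K)|` divides `|L : L ∩ K|`
    have h1 : (H ⊓ (L ⊓ K)).relIndex H ∣ (L ⊓ K).relIndex L := step H L (L ⊓ K) hHL inf_le_left hN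
    have h2 : H ⊓ (L ⊓ K) = H ⊓ K := by
      rw [← inf_assoc, inf_eq_left.mpr hHL]
    rw [h2] at h1
    exact h1.trans ih

end Cfsg.Agent.S4244
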