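import Mathlib
import Cfsg.Statements.S4245
import Cfsg.Agent.S0564
import Cfsg.Agent.Lib.BurnsidePQ
import Cfsg.Agent.Lib.InvolutionIndexTwo

set_option autoImplicit false
set_option linter.style.haveILetI false
open Cfsg

namespace Cfsg.Agent.S4245

universe u

open Subgroup

/-- The inductive hypothesis. -/
def Hyp (G : Type u) [Group G] : Prop :=
  ∃ (A : Subgroup G) (p s : ℕ) (C : Type u) (_ : CommGroup C) (_ : Finite C) (φ : A →* C),
    p.Prime ∧ A.index ∣ p ^ s ∧ IsCyclic C ∧ IsPGroup 2 C ∧ IsCyclic φ.ker

section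
variable {G : Type u} [Group G] [Finite G]

theorem prod_of_index {H : Subgroup G} {p s : ℕ} [hp : Fact p.Prime] (P : Sylow p G)
    (h : H.index ∣ p ^ s) : ∀ g : G, ∃ a ∈ H, ∃ b ∈ (P : Subgroup G), g = a * b := by
  -- the map of coset spaces
  let F : (P : Subgroup G) ⧸ (H.subgroupOf (P : Subgroup G)) → G ⧸ H :=
    Quotient.map' (fun x => (x : G)) (by
      intro x y hxy
      rw [QuotientGroup.leftRel_apply] at hxy ⊢
      simpa [Subgroup.mem_subgroupOf] using hxy)
  have hFinj : Function.Injective F := by
    intro x y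
    induction x using QuotientGroup.induction_on with
    | H x =>
    induction y using QuotientGroup.induction_on with
    | H y =>
    intro hxy
    have h1 : ((x : G) : G ⧸ H) = ((y : G) : G ⧸ H) := hxy
    rw [QuotientGroup.eq] at h1
    rw [QuotientGroup.eq]
    simpa [Subgroup.mem_subgroupOf] using h1
  -- cardinalities
  set c := Nat.card (H.subgroupOf (P : Subgroup G)) with hc
  set j := (H.subgroupOf (P : Subgroup G)).index with hj
  set i := H.index with hi
  have h1 : c * j = Nat.card (P : Subgroup G) := Subgroup.card_mul_index _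
  have hcpos : 0 < c := Nat.card_pos
  have hjpos : 0 < j := by
    by_contra h0
    have : j = 0 := by omega
    rw [this, mul_zero] at h1
    exact Nat.card_pos.ne h1
  have hcp : ∃ u, c = p ^ u := by
    have h2 : IsPGroup p (H.subgroupOf (P : Subgroup G)) :=
      (P.isPGroup').to_subgroup _
    exact (IsPGroup.iff_card).1 h2
  obtain ⟨u, hu⟩ := hcp
  obtain ⟨t, -, ht⟩ := (Nat.dvd_prime_pow hp.out).1 h
  have hcH : c ∣ Nat.card H := by
    have h2 : (H.subgroupOf (P : Subgroup G)).map (P : Subgroup G).subtype ≤ H := by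
      rintro _ ⟨x, hx, rfl⟩
      exact hx
    have h3 := Subgroup.card_dvd_of_le h2
    rwa [Subgroup.card_map_of_injective (Subgroup.subtype_injective _)] at h3
  have h2 : i * c ∣ Nat.card (P : Subgroup G) * (P : Subgroup G).index := by
    rw [Subgroup.card_mul_index, ← H.index_mul_card]
    exact Nat.mul_dvd_mul_left _ hcH
  have h3 : i * c ∣ Nat.card (P : Subgroup G) := by
    have hcop : Nat.Coprime (i * c) (P : Subgroup G).index := by
      rw [ht, hu, ← pow_add]
      exact Nat.Coprime.pow_left _ ((Nat.Prime.coprime_iff_not_dvd hp.out).2 P.not_dvd_index)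
    exact hcop.dvd_of_dvd_mul_right h2
  rw [← h1, mul_comm i c] at h3
  have h4 : i ∣ j := Nat.dvd_of_mul_dvd_mul_left hcpos h3
  have h5 : i ≤ j := Nat.le_of_dvd hjpos h4
  have hFbij : Function.Bijective F := by
    apply hFinj.bijective_of_nat_card_le
    exact h5
  intro g
  obtain ⟨x, hx⟩ := hFbij.2 ((g⁻¹ : G) : G ⧸ H)
  induction x using QuotientGroup.induction_on with
  | H x =>
  have h6 : ((x : G) : G ⧸ H) = ((g⁻¹ : G) : G ⧸ H) := hx
  rw [QuotientGroup.eq] at h6
  refine ⟨_, H.inv_mem h6, (x : G)⁻¹, (P : Subgroup G).inv_mem x.2, ?_⟩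
  group

theorem simple_case [IsSimpleGroup G] (hnc : ¬ IsMulCommutative G) (h : Hyp G) : False := by
  classical
  obtain ⟨A, p, s, C, _, _, φ, hp, hA, hCc, hC2, hK⟩ := h
  haveI : Fact p.Prime := ⟨hp⟩
  have hns : ¬ Group.IsSolvable G := by
    intro hs
    apply hnc
    have := (IsSimpleGroup.comm_iff_isSolvable (G := G)).2 (by simpa using hs)
    exact ⟨⟨fun a b => this a b⟩⟩
  -- the lemma for products
  have hfinal : ∀ (H : Subgroup A) (t : ℕ), IsCyclic H →
      (H.map A.subtype).index ∣ p ^ t → False := by
    intro H t hH ht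
    apply hns
    obtain ⟨P⟩ := (inferInstance : Nonempty (Sylow p G))
    have h1 := prod_of_index P ht
    refine Cfsg.Agent.S0564.result (H.map A.subtype) (P : Subgroup G) ?_ P.isPGroup'.isNilpotent h1
    have : IsCyclic (H.map A.subtype) :=
      isCyclic_of_surjective (A.subtype.subgroupMap H) (A.subtype.subgroupMap_surjective H)
    letI := IsCyclic.commGroup (α := H.map A.subtype)
    infer_instance
  set K : Subgroup A := φ.ker with hKdef
  have hK2 : ¬ Even (Nat.card K) := by
    intro heven
    -- the involution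
    obtain ⟨z, hz⟩ := exists_prime_orderOf_dvd_card' (G := K) 2 (even_iff_two_dvd.1 heven)
    have hz1 : z ≠ 1 := by
      intro h
      rw [h, orderOf_one] at hz
      omega
    have huniq : ∀ w : K, orderOf w = 2 → w = z := by
      intro w hw
      by_contra hne
      haveI := Fintype.ofFinite K
      have hc := IsCyclic.card_pow_eq_one_le (α := K) (n := 2) (by norm_num)
      have hsub : ({1, z, w} : Finset K) ⊆ Finset.univ.filter (fun a : K => a ^ 2 = 1) := by
        intro x hx
        simp only [Finset.mem_insert, Finset.mem_singleton] at hx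
        simp only [Finset.mem_filter, Finset.mem_univ, true_and]
        rcases hx with rfl | rfl | rfl
        · exact one_pow _
        · rw [← hz]; exact pow_orderOf_eq_one _
        · rw [← hw]; exact pow_orderOf_eq_one _
      have hcard : ({1, z, w} : Finset K).card = 3 := by
        rw [Finset.card_eq_three]
        refine ⟨1, z, w, hz1.symm, ?_, Ne.symm hne, rfl⟩
        intro h
        apply hne
        rw [← h] at hw
        rw [orderOf_one] at hw
        omega
      have := Finset.card_le_card hsub
      omega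
    -- the centraliser contains `A`
    set zG : G := ((z : A) : G) with hzG
    have hzG1 : zG ≠ 1 := by
      intro h
      apply hz1
      apply Subtype.ext
      apply Subtype.ext
      exact h
    have hle : A ≤ centralizer ({zG} : Set G) := by
      intro x hx
      rw [Subgroup.mem_centralizer_singleton_iff]
      have hnormal : K.Normal := MonoidHom.normal_ker φ
      have hw : (⟨x, hx⟩ : A) * (z : A) * (⟨x, hx⟩ : A)⁻¹ ∈ K := hnormal.conj_mem _ z.2 _
      have ho : orderOf (⟨_, hw⟩ : K) = 2 := by
        have h1 : orderOf (⟨_, hw⟩ : K) = orderOf ((⟨x, hx⟩ : A) * (z : A) * (⟨x, hx⟩ : A)⁻¹) := by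
          exact Subgroup.orderOf_mk _ _
        rw [h1, ← hz]
        have h2 := orderOf_injective (MulAut.conj (⟨x, hx⟩ : A)).toMonoidHom
          (MulAut.conj (⟨x, hx⟩ : A)).injective (z : A)
        have h3 : orderOf (z : A) = orderOf z := Subgroup.orderOf_coe z
        rw [← h3]
        simpa [MulAut.conj_apply] using h2
      have h2 := huniq _ ho
      have h3 : ((⟨x, hx⟩ : A) * (z : A) * (⟨x, hx⟩ : A)⁻¹ : A) = z := congrArg Subtype.val h2
      have h4 : x * zG * x⁻¹ = zG := congrArg Subtype.val h3
      have h5 : x * zG = zG * x := by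
        calc x * zG = (x * zG * x⁻¹) * x := by group
          _ = zG * x := by rw [h4]
      exact h5
    have hidx : (centralizer ({zG} : Set G)).index ∣ p ^ s :=
      (Subgroup.index_dvd_of_le hle).trans hA
    obtain ⟨k, -, hk⟩ := (Nat.dvd_prime_pow hp).1 hidx
    have h1 := Cfsg.Agent.Lib.BurnsidePQ.prime_card_of_class_prime_pow p k hp zG hzG1 hk
    apply hnc
    haveI : IsCyclic G := isCyclic_of_prime_card (p := Nat.card G) (hp := ⟨h1⟩) rfl
    exact ⟨⟨fun a b => (IsCyclic.commGroup.mul_comm a b)⟩⟩
  -- `C` has order a power of two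
  obtain ⟨n, hn⟩ := (IsPGroup.iff_card).1 hC2
  have hKidx : K.index ∣ 2 ^ n := by
    rw [hKdef, Subgroup.index_ker, ← hn]
    exact Subgroup.card_subgroup_dvd_card _
  have hmapidx : (K.map A.subtype).index = K.index * A.index := Subgroup.index_map_subtype K
  by_cases heven : Even (Nat.card G)
  · by_cases hp2 : p = 2
    · subst hp2
      refine hfinal K (n + s) hK ?_
      rw [hmapidx, pow_add]
      exact Nat.mul_dvd_mul hKidx hA
    · -- the Sylow 2-subgroup is cyclic
      haveI : Fact (Nat.Prime 2) := ⟨Nat.prime_two⟩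
      obtain ⟨T⟩ := (inferInstance : Nonempty (Sylow 2 A))
      have hTK : ∀ x : A, x ∈ (T : Subgroup A) → φ x = 1 → x = 1 := by
        intro x hxT hx
        have h1 : x ∈ K := hx
        have h2 : orderOf x ∣ Nat.card K := by
          have := orderOf_dvd_natCard (⟨x, h1⟩ : K)
          rwa [Subgroup.orderOf_mk] at this
        obtain ⟨m, hm⟩ := (IsPGroup.iff_orderOf.1 T.isPGroup') ⟨x, hxT⟩
        have h3 : orderOf x = 2 ^ m := by
          rw [← hm]
          exact (Subgroup.orderOf_mk x hxT).symm
        by_contra hne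
        have h4 : m ≠ 0 := by
          intro h0
          rw [h0, pow_zero, orderOf_eq_one_iff] at h3
          exact hne h3
        apply hK2
        rw [even_iff_two_dvd]
        exact (dvd_pow_self 2 h4).trans (h3 ▸ h2)
      have hTcyc : IsCyclic (T : Subgroup A) := by
        refine isCyclic_of_injective (φ.comp (T : Subgroup A).subtype) ?_
        rw [injective_iff_map_eq_one]
        intro x hx
        apply Subtype.ext
        exact hTK x.1 x.2 hx
      set M : Subgroup G := (T : Subgroup A).map A.subtype with hM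
      have hMcard : Nat.card M = Nat.card (T : Subgroup A) :=
        Subgroup.card_map_of_injective (Subgroup.subtype_injective _)
      have hMcyc : IsCyclic M :=
        isCyclic_of_surjective (A.subtype.subgroupMap (T : Subgroup A))
          (A.subtype.subgroupMap_surjective (T : Subgroup A))
      have hMp : IsPGroup 2 M := by
        rw [IsPGroup.iff_card]
        obtain ⟨m, hm⟩ := (IsPGroup.iff_card).1 T.isPGroup'
        exact ⟨m, by rw [hMcard, hm]⟩
      obtain ⟨S, hS⟩ := hMp.exists_le_sylow
      -- the orders agree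
      have hodd : ¬ 2 ∣ A.index := by
        intro h2
        have h3 := h2.trans hA
        have h4 := (Nat.prime_two.dvd_of_dvd_pow h3)
        exact hp2 (((Nat.prime_dvd_prime_iff_eq Nat.prime_two hp).1 h4).symm)
      have hMS : M = S := by
        apply Subgroup.eq_of_le_of_card_ge hS
        -- `S` has the size of the Sylow subgroup of `A`
        obtain ⟨m, hm⟩ := (IsPGroup.iff_card).1 S.isPGroup'
        have h1 : Nat.card (S : Subgroup G) ∣ Nat.card A * A.index := by
          rw [Subgroup.card_mul_index]
          exact Subgroup.card_subgroup_dvd_card _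
        have h2 : Nat.card (S : Subgroup G) ∣ Nat.card A := by
          have hcop : Nat.Coprime (Nat.card (S : Subgroup G)) A.index := by
            rw [hm]
            exact Nat.Coprime.pow_left _ ((Nat.Prime.coprime_iff_not_dvd Nat.prime_two).2 hodd)
          exact hcop.dvd_of_dvd_mul_right h1
        have h3 : Nat.card A = Nat.card (T : Subgroup A) * (T : Subgroup A).index :=
          (Subgroup.card_mul_index _).symm
        rw [h3] at h2
        have h4 : Nat.card (S : Subgroup G) ∣ Nat.card (T : Subgroup A) := by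
          have hcop : Nat.Coprime (Nat.card (S : Subgroup G)) (T : Subgroup A).index := by
            rw [hm]
            exact Nat.Coprime.pow_left _
              ((Nat.Prime.coprime_iff_not_dvd Nat.prime_two).2 T.not_dvd_index)
          exact hcop.dvd_of_dvd_mul_right h2
        rw [hMcard]
        exact Nat.le_of_dvd Nat.card_pos h4
      have hScyc : IsCyclic (S : Subgroup G) := by
        rw [← hMS]
        exact hMcyc
      obtain ⟨H, hH⟩ := Cfsg.Agent.Lib.InvolutionIndexTwo.exists_index_two_of_isCyclic_sylow heven S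
        hScyc
      have hHn : H.Normal := Subgroup.normal_of_index_eq_two hH
      rcases (inferInstance : IsSimpleGroup G).eq_bot_or_eq_top_of_normal H hHn with hb | ht
      · apply hnc
        have h1 : Nat.card G = 2 := by
          have := H.card_mul_index
          rw [hH, hb] at this
          simpa using this.symm
        haveI : IsCyclic G := isCyclic_of_prime_card (p := 2) (hp := ⟨Nat.prime_two⟩) h1
        exact ⟨⟨fun a b => (IsCyclic.commGroup.mul_comm a b)⟩⟩
      · rw [ht, Subgroup.index_top] at hH
        omega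
  · -- odd order
    have hAodd : ¬ 2 ∣ Nat.card A := by
      intro h2
      apply heven
      rw [even_iff_two_dvd]
      exact h2.trans (Subgroup.card_subgroup_dvd_card A)
    have hK1 : K.index = 1 := by
      have h1 : K.index ∣ Nat.card A := Subgroup.index_dvd_card K
      obtain ⟨l, -, hl⟩ := (Nat.dvd_prime_pow Nat.prime_two).1 hKidx
      rw [hl] at h1 ⊢
      rcases l with _ | l
      · simp
      · exfalso
        apply hAodd
        exact (dvd_pow_self 2 (Nat.succ_ne_zero l)).trans h1
    refine hfinal K s hK ?_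
    rw [hmapidx, hK1, one_mul]
    exact hA

theorem card_inf_mul_relIndex (H K : Subgroup G) : Nat.card (H ⊓ K : Subgroup G) * H.relIndex K = Nat.card K := by
  have h1 := (H.subgroupOf K).card_mul_index
  have h2 : Nat.card (H.subgroupOf K) = Nat.card (H ⊓ K : Subgroup G) := by
    rw [← Subgroup.subgroupOf_map_subtype H K]
    exact (Subgroup.card_map_of_injective (Subgroup.subtype_injective _)).symm
  rw [h2] at h1
  exact h1

theorem relIndex_eq_of_normal (A N : Subgroup G) [N.Normal] : A.relIndex N = A.relIndex (A ⊔ N) := by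
  have h1 := card_inf_mul_relIndex A (A ⊔ N)
  have h2 := card_inf_mul_relIndex N (A ⊔ N)
  have h3 := card_inf_mul_relIndex N A
  have h4 := card_inf_mul_relIndex A N
  rw [inf_eq_left.2 (le_sup_left : A ≤ A ⊔ N)] at h1
  rw [inf_eq_left.2 (le_sup_right : N ≤ A ⊔ N), Subgroup.relIndex_sup_right] at h2
  rw [inf_comm] at h3
  set x := A.relIndex (A ⊔ N)
  set y := N.relIndex A
  set z := A.relIndex N
  set m := Nat.card (A ⊓ N : Subgroup G)
  have hm : 0 < m := Nat.card_pos
  have hy : 0 < y := by
    by_contra h0
    have : y = 0 := by omega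
    rw [this, mul_zero] at h3
    exact Nat.card_pos.ne h3
  have h5 : (m * y) * z = (m * y) * x := by
    calc (m * y) * z = (m * z) * y := by ring
      _ = Nat.card N * y := by rw [h4]
      _ = Nat.card (A ⊔ N : Subgroup G) := h2
      _ = Nat.card A * x := h1.symm
      _ = (m * y) * x := by rw [h3]
  exact Nat.eq_of_mul_eq_mul_left (Nat.mul_pos hm hy) h5

theorem hyp_sub (N : Subgroup G) [N.Normal] (h : Hyp G) : Hyp N := by
  obtain ⟨A, p, s, C, _, _, φ, hp, hA, hCc, hC2, hK⟩ := h
  let incl : (A.subgroupOf N) →* A :=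
    MonoidHom.mk' (fun x => ⟨x.1.1, Subgroup.mem_subgroupOf.1 x.2⟩) (fun _ _ => rfl)
  refine ⟨A.subgroupOf N, p, s, C, inferInstance, inferInstance, φ.comp incl, hp, ?_, hCc, hC2, ?_⟩
  · have h1 : (A.subgroupOf N).index = A.relIndex (A ⊔ N) := relIndex_eq_of_normal A N
    rw [h1]
    exact (Subgroup.relIndex_dvd_index_of_le le_sup_left).trans hA
  · let f : ↥(φ.comp incl).ker →* ↥φ.ker :=
      MonoidHom.mk' (fun x => ⟨incl x.1, x.2⟩) (fun _ _ => rfl)
    refine isCyclic_of_injective f ?_
    intro x y hxy
    have h1 : (x.1.1.1 : G) = y.1.1.1 := congrArg (fun w : ↥φ.ker => ((w : A) : G)) hxy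
    exact Subtype.ext (Subtype.ext (Subtype.ext h1))

theorem hyp_quot (N : Subgroup G) [N.Normal] (h : Hyp G) : Hyp (G ⧸ N) := by
  obtain ⟨A, p, s, C, _, _, φ, hp, hA, hCc, hC2, hK⟩ := h
  set π := QuotientGroup.mk' N with hπ
  have hπs : Function.Surjective π := QuotientGroup.mk'_surjective N
  let f : A →* (A.map π) := π.subgroupMap A
  have hfs : Function.Surjective f := π.subgroupMap_surjective A
  let D : Subgroup C := (f.ker).map φ
  let g : A →* (C ⧸ D) := (QuotientGroup.mk' D).comp φ
  have hle : f.ker ≤ g.ker := by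
    intro x hx
    rw [MonoidHom.mem_ker]
    show QuotientGroup.mk' D (φ x) = 1
    rw [QuotientGroup.mk'_apply, QuotientGroup.eq_one_iff]
    exact ⟨x, hx, rfl⟩
  let h' : (A.map π) →* (C ⧸ D) := (MonoidHom.liftOfSurjective f hfs) ⟨g, hle⟩
  have hh' : ∀ x, h' (f x) = g x := fun x =>
    MonoidHom.liftOfRightInverse_comp_apply f _ _ ⟨g, hle⟩ x
  refine ⟨A.map π, p, s, C ⧸ D, inferInstance, inferInstance, h', hp, ?_,
    isCyclic_of_surjective (QuotientGroup.mk' D) (QuotientGroup.mk'_surjective D),
    hC2.to_quotient D, ?_⟩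
  · exact (Subgroup.index_map_dvd A hπs).trans hA
  · let ψ : ↥φ.ker →* ↥h'.ker := MonoidHom.mk' (fun x => ⟨f x.1, by
        rw [MonoidHom.mem_ker, hh']
        show QuotientGroup.mk' D (φ x.1) = 1
        rw [x.2, map_one]⟩) (fun a b => by
          apply Subtype.ext
          show f ((a * b : ↥φ.ker) : A) = f a * f b
          rw [Subgroup.coe_mul, map_mul])
    refine isCyclic_of_surjective ψ ?_
    rintro ⟨y, hy⟩
    obtain ⟨x, rfl⟩ := hfs y
    rw [MonoidHom.mem_ker, hh'] at hy
    have h1 : φ x ∈ D := by
      have : QuotientGroup.mk' D (φ x) = 1 := hy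
      rwa [QuotientGroup.mk'_apply, QuotientGroup.eq_one_iff] at this
    obtain ⟨u, hu, hux⟩ := h1
    have hxu : x * u⁻¹ ∈ φ.ker := by
      rw [MonoidHom.mem_ker, map_mul, map_inv, hux, mul_inv_cancel]
    refine ⟨⟨x * u⁻¹, hxu⟩, ?_⟩
    apply Subtype.ext
    show f (x * u⁻¹) = f x
    rw [map_mul, map_inv, hu, inv_one, mul_one]

end

theorem solvable_main : ∀ (n : ℕ) (G : Type u) [Group G] [Finite G], Nat.card G = n → Hyp G →
    Group.IsSolvable G := by
  intro n
  induction n using Nat.strong_induction_on with
  | _ n ih =>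
  intro G _ _ hn h
  by_cases hsimple : IsSimpleGroup G
  · by_contra hs
    have hnc : ¬ IsMulCommutative G := by
      intro hc
      apply hs
      have : ∀ a b : G, a * b = b * a := fun a b => mul_comm' a b
      exact (IsSimpleGroup.comm_iff_isSolvable (G := G)).1 this
    exact simple_case hnc h
  · by_cases hnon : Nontrivial G
    · -- a proper nontrivial normal subgroup
      have hex : ∃ N : Subgroup G, N.Normal ∧ N ≠ ⊥ ∧ N ≠ ⊤ := by
        by_contra hcon
        push Not at hcon
        apply hsimple
        refine ⟨fun H hH => ?_⟩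
        by_cases hb : H = ⊥
        · exact Or.inl hb
        · exact Or.inr (hcon H hH hb)
      obtain ⟨N, hNn, hNb, hNt⟩ := hex
      have h1 : Nat.card N < n := by
        rw [← hn]
        exact lt_of_le_of_ne (Subgroup.card_le_card_group N) (fun e => hNt (Subgroup.eq_top_of_card_eq N e))
      have h2 : Nat.card (G ⧸ N) < n := by
        have h3 := N.card_mul_index
        have h4 : 1 < Nat.card N := by
          rw [Finite.one_lt_card_iff_nontrivial]
          exact (Subgroup.nontrivial_iff_ne_bot N).2 hNb
        have h5 : 0 < N.index := Nat.pos_of_ne_zero Subgroup.FiniteIndex.index_ne_zero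
        rw [← hn, ← h3]
        show N.index < _
        nlinarith
      haveI := ih _ h1 N rfl (hyp_sub N h)
      haveI := ih _ h2 (G ⧸ N) rfl (hyp_quot N h)
      exact Group.isSolvable_of_ker_le_range N.subtype (QuotientGroup.mk' N) (by
        intro x hx
        rw [MonoidHom.mem_ker, QuotientGroup.mk'_apply, QuotientGroup.eq_one_iff] at hx
        exact ⟨⟨x, hx⟩, rfl⟩)
    · rw [not_nontrivial_iff_subsingleton] at hnon
      infer_instance

/-- Let G be a finite group with a subgroup A of prime-power index. Suppose A has a normal cyclic subgroup B such that A/B is cyclic of order a power of 2. Then G is solvable. -/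
theorem result {G : Type*} [Group G] [Finite G] (A : Subgroup G) (p s : ℕ) (hp : p.Prime) (hA : A.index = p ^ s)
    (B : Subgroup A) [B.Normal] (hB : IsCyclic B) (hAB : IsCyclic (A ⧸ B)) (r : ℕ) (hr : Nat.card (A ⧸ B) = 2 ^ r) :
    Group.IsSolvable G := by
  refine solvable_main (Nat.card G) G rfl ?_
  letI : CommGroup (A ⧸ B) := IsCyclic.commGroup
  refine ⟨A, p, s, A ⧸ B, inferInstance, inferInstance, QuotientGroup.mk' B, hp, hA.dvd, hAB,
    (IsPGroup.iff_card).2 ⟨r, hr⟩, ?_⟩
  rw [QuotientGroup.ker_mk']
  exact hB

end Cfsg.Agent.S4245
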