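import Mathlib
import Cfsg.Agent.Lib.TameChain
import Cfsg.Agent.Lib.PComplement
import Cfsg.Agent.Lib.TransferCore

set_option autoImplicit false
open Cfsg

namespace Cfsg.Agent.S4250

open Subgroup Cfsg.Agent.Lib.AlperinControl Cfsg.Agent.Lib.TameChain
open scoped commutatorElement

variable {G : Type*} [Group G] [Finite G] {p : ℕ} [hp : Fact p.Prime]

/-- The generators of the focal subgroup, for any subgroup `R`. -/
def F (p : ℕ) [Fact p.Prime] (R : Subgroup G) : Subgroup G :=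
  ⁅R, normalizer (R : Set G)⁆ ⊔
    ⨆ (Q : Sylow p G) (_ : Tame p R (Q : Subgroup G)) (x : G)
      (_ : x ∈ normalizer ((R ⊓ (Q : Subgroup G) : Subgroup G) : Set G) ∧ ∃ k : ℕ, orderOf x = p ^ k),
        ⁅R ⊓ (Q : Subgroup G), zpowers x⁆

theorem le_F (R : Subgroup G) (Q : Sylow p G) (hT : Tame p R (Q : Subgroup G)) (x : G)
    (hx : x ∈ normalizer ((R ⊓ (Q : Subgroup G) : Subgroup G) : Set G) ∧ ∃ k : ℕ, orderOf x = p ^ k) :
    ⁅R ⊓ (Q : Subgroup G), zpowers x⁆ ≤ F p R := by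
  refine le_trans ?_ le_sup_right
  exact le_iSup_of_le Q (le_iSup_of_le hT (le_iSup_of_le x (le_iSup_of_le hx le_rfl)))

theorem conj_commutator (a g₁ g₂ : G) : a * ⁅g₁, g₂⁆ * a⁻¹ = ⁅a * g₁ * a⁻¹, a * g₂ * a⁻¹⁆ := by
  simp only [commutatorElement_def]
  group

theorem F_conj (R : Subgroup G) (a : G) {z : G} (hz : z ∈ F p R) : a * z * a⁻¹ ∈ F p (cj a R) := by
  have key : F p R ≤ (F p (cj a R)).comap (MulAut.conj a).toMonoidHom := by
    apply sup_le
    · rw [commutator_le]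
      intro g₁ h₁ g₂ h₂
      show a * ⁅g₁, g₂⁆ * a⁻¹ ∈ F p (cj a R)
      rw [conj_commutator]
      apply (le_sup_left : _ ≤ F p (cj a R))
      apply commutator_mem_commutator (conj_mem_cj h₁)
      have e0 : normalizer ((cj a R : Subgroup G) : Set G) = cj a (NN R) := (cj_NN a R).symm
      rw [e0]
      exact conj_mem_cj h₂
    · refine iSup_le fun Q => iSup_le fun hQ => iSup_le fun x => iSup_le fun hx => ?_
      rw [commutator_le]
      intro g₁ h₁ g₂ h₂
      show a * ⁅g₁, g₂⁆ * a⁻¹ ∈ F p (cj a R)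
      rw [conj_commutator]
      have hcoe := coe_smul a Q
      have hD : cj a R ⊓ ((a • Q : Sylow p G) : Subgroup G) = cj a (R ⊓ (Q : Subgroup G)) := by
        rw [hcoe, cj_inf]
      have hT : Tame p (cj a R) ((a • Q : Sylow p G) : Subgroup G) := by
        rw [hcoe]
        exact hQ.conj a
      have hx' : a * x * a⁻¹ ∈ normalizer ((cj a R ⊓ ((a • Q : Sylow p G) : Subgroup G) : Subgroup G) : Set G) ∧
          ∃ k : ℕ, orderOf (a * x * a⁻¹) = p ^ k := by
        refine ⟨?_, ?_⟩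
        · have e0 : normalizer ((cj a (R ⊓ (Q : Subgroup G)) : Subgroup G) : Set G) =
              cj a (NN (R ⊓ (Q : Subgroup G))) := (cj_NN a _).symm
          rw [hD, e0]
          exact conj_mem_cj hx.1
        · obtain ⟨k, hk⟩ := hx.2
          refine ⟨k, ?_⟩
          rw [← hk]
          exact orderOf_injective (MulAut.conj a).toMonoidHom (MulAut.conj a).injective x
      apply le_F (cj a R) (a • Q) hT (a * x * a⁻¹) hx'
      apply commutator_mem_commutator
      · rw [hD]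
        exact conj_mem_cj h₁
      · obtain ⟨e, rfl⟩ := mem_zpowers_iff.1 h₂
        refine mem_zpowers_iff.2 ⟨e, ?_⟩
        exact conj_zpow
  exact key hz

/-- The linking relation. -/
def Link (R₁ R₂ : Sylow p G) (A : Subgroup G) : Prop :=
  ∃ u : G, u • R₂ = R₁ ∧ ∀ x ∈ A, x⁻¹ * (u * x * u⁻¹) ∈ F p (R₁ : Subgroup G)

theorem link_all (R₁ R₂ : Sylow p G) (hb : (R₁ : Subgroup G) ⊓ R₂ ≠ ⊥) :
    Link R₁ R₂ ((R₁ : Subgroup G) ⊓ R₂) := by
  refine chain Link ?_ ?_ ?_ ?_ R₁ R₂ hb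
  · intro R A
    refine ⟨1, one_smul _ _, fun x _ => ?_⟩
    have : x⁻¹ * (1 * x * 1⁻¹) = 1 := by group
    rw [this]
    exact one_mem _
  · rintro R₁ R₂ R₃ A ⟨u₁, h₁, H₁⟩ ⟨u₂, h₂, H₂⟩
    refine ⟨u₁ * u₂, by rw [mul_smul, h₂, h₁], fun x hx => ?_⟩
    have h3 : u₁ * (x⁻¹ * (u₂ * x * u₂⁻¹)) * u₁⁻¹ ∈ F p (R₁ : Subgroup G) := by
      have h4 := F_conj (p := p) (R₂ : Subgroup G) u₁ (H₂ x hx)
      rw [← coe_smul, h₁] at h4
      exact h4
    have h5 := mul_mem (H₁ x hx) h3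
    convert h5 using 1
    group
  · rintro R₁ R₂ A B hBA ⟨u, hu, H⟩
    exact ⟨u, hu, fun x hx => H x (hBA hx)⟩
  · intro Q₁ Q₂ hb htm
    set D : Subgroup G := (Q₁ : Subgroup G) ⊓ Q₂ with hD
    set N : Subgroup G := normalizer (D : Set G) with hN
    obtain ⟨a, ha, haT⟩ := exists_conj_in_sup N ((Q₁ : Subgroup G) ⊓ N) ((Q₂ : Subgroup G) ⊓ N)
      inf_le_right inf_le_right (Q₁.isPGroup'.to_le inf_le_left) (Q₂.isPGroup'.to_le inf_le_left)
      htm.1 htm.2
    have hle : ((Q₁ : Subgroup G) ⊓ N) ⊔ ((Q₂ : Subgroup G) ⊓ N) ≤ N :=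
      sup_le inf_le_right inf_le_right
    have haN : a ∈ N := hle ha
    -- the subgroup `E`
    let E : Subgroup G := closure {z | ∃ x ∈ D, ∃ y ∈ N, (∃ k : ℕ, orderOf y = p ^ k) ∧
      z = x⁻¹ * (y * x * y⁻¹)}
    have hEn : ∀ n ∈ N, ∀ z ∈ E, n * z * n⁻¹ ∈ E := by
      intro n hn z hz
      induction hz using Subgroup.closure_induction with
      | mem z hz =>
        obtain ⟨x, hx, y, hy, ⟨k, hk⟩, rfl⟩ := hz
        refine subset_closure ⟨n * x * n⁻¹, (mem_normalizer_iff.1 hn x).1 hx, n * y * n⁻¹,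
          mul_mem (mul_mem hn hy) (inv_mem hn), ⟨k, ?_⟩, ?_⟩
        · rw [← hk]
          exact orderOf_injective (MulAut.conj n).toMonoidHom (MulAut.conj n).injective y
        · group
      | one =>
        simp only [mul_one, mul_inv_cancel]
        exact one_mem _
      | mul a b _ _ ha hb =>
        have h1 : n * (a * b) * n⁻¹ = (n * a * n⁻¹) * (n * b * n⁻¹) := by group
        rw [h1]
        exact mul_mem ha hb
      | inv a _ ha =>
        have h1 : n * a⁻¹ * n⁻¹ = (n * a * n⁻¹)⁻¹ := by group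
        rw [h1]
        exact inv_mem ha
    have hpel : ∀ y ∈ ((Q₁ : Subgroup G) ⊓ N) ⊔ ((Q₂ : Subgroup G) ⊓ N), y ∈ N ∧
        ∀ x ∈ D, x⁻¹ * (y * x * y⁻¹) ∈ E := by
      have hpE : ∀ y ∈ N, (∃ k : ℕ, y ^ p ^ k = 1) → ∀ x ∈ D, x⁻¹ * (y * x * y⁻¹) ∈ E := by
        rintro y hy ⟨k, hk⟩ x hx
        obtain ⟨j, -, hj⟩ := (Nat.dvd_prime_pow hp.out).1 (orderOf_dvd_of_pow_eq_one hk)
        exact subset_closure ⟨x, hx, y, hy, ⟨j, hj⟩, rfl⟩
      intro y hy
      rw [sup_eq_closure] at hy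
      induction hy using Subgroup.closure_induction with
      | mem y hy =>
        rcases hy with hy | hy
        · refine ⟨hy.2, hpE y hy.2 ?_⟩
          obtain ⟨k, hk⟩ := Q₁.isPGroup' ⟨y, hy.1⟩
          exact ⟨k, congrArg Subtype.val hk⟩
        · refine ⟨hy.2, hpE y hy.2 ?_⟩
          obtain ⟨k, hk⟩ := Q₂.isPGroup' ⟨y, hy.1⟩
          exact ⟨k, congrArg Subtype.val hk⟩
      | one =>
        refine ⟨one_mem _, fun x _ => ?_⟩
        have : x⁻¹ * (1 * x * 1⁻¹) = 1 := by group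
        rw [this]
        exact one_mem _
      | mul b₁ b₂ _ _ h₁ h₂ =>
        refine ⟨mul_mem h₁.1 h₂.1, fun x hx => ?_⟩
        have h3 := mul_mem (h₁.2 x hx) (hEn b₁ h₁.1 _ (h₂.2 x hx))
        convert h3 using 1
        group
      | inv b _ h =>
        refine ⟨inv_mem h.1, fun x hx => ?_⟩
        have hx' : b⁻¹ * x * b ∈ D := by
          have := (mem_normalizer_iff.1 (inv_mem h.1) x).1 hx
          simpa using this
        have h3 := inv_mem (h.2 _ hx')
        convert h3 using 1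
        group
    refine ⟨a • Q₂, ?_, a, rfl, fun x hx => ?_⟩
    · rw [coe_smul, ← haT]
      exact Subgroup.map_mono inf_le_left
    · -- `E ≤ F(Q₃)`
      have hQ₃ : ((a • Q₂ : Sylow p G) : Subgroup G) ⊓ ((a • Q₁ : Sylow p G) : Subgroup G) = D := by
        rw [coe_smul, coe_smul, ← cj_inf, inf_comm, ← hD]
        exact cj_eq_of_mem_NN haN
      have htm' : Tame p ((a • Q₂ : Sylow p G) : Subgroup G) ((a • Q₁ : Sylow p G) : Subgroup G) := by
        rw [coe_smul, coe_smul]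
        exact htm.symm.conj a
      have hEF : E ≤ F p ((a • Q₂ : Sylow p G) : Subgroup G) := by
        rw [closure_le]
        rintro _ ⟨x, hx, y, hy, hk, rfl⟩
        have hy' : y ∈ normalizer ((((a • Q₂ : Sylow p G) : Subgroup G) ⊓
            ((a • Q₁ : Sylow p G) : Subgroup G) : Subgroup G) : Set G) ∧ ∃ k : ℕ, orderOf y = p ^ k := by
          refine ⟨?_, hk⟩
          rw [hQ₃]
          exact hy
        apply le_F _ (a • Q₁) htm' y hy'
        have h3 : x⁻¹ * (y * x * y⁻¹) = ⁅x⁻¹, y⁆ := by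
          simp only [commutatorElement_def, inv_inv]
          group
        rw [h3]
        apply commutator_mem_commutator
        · rw [hQ₃]
          exact inv_mem hx
        · exact mem_zpowers y
      exact hEF ((hpel a ha).2 x hx)

/-- Let P be a Sylow p-subgroup of a finite group G. Call an intersection H = P ∩ Q with a Sylow p-subgroup Q tame when N_P(H) and N_Q(H) are Sylow p-subgroups of N_G(H). Then P ∩ G′ is generated by [P, N_G(P)] together with the commutator subgroups [P ∩ Q, ⟨x⟩] for all tame intersections P ∩ Q and all p-elements x of N_G(P ∩ Q). -/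
theorem result {G : Type*} [Group G] [Finite G] (p : ℕ) [Fact p.Prime] (P : Sylow p G) :
    (P : Subgroup G) ⊓ commutator G =
      ⁅(P : Subgroup G), Subgroup.normalizer ((P : Subgroup G) : Set G)⁆ ⊔
        ⨆ (Q : Sylow p G) (_ : (¬ p ∣ ((P : Subgroup G) ⊓ Subgroup.normalizer (((P : Subgroup G) ⊓ (Q : Subgroup G) : Subgroup G) : Set G)).relIndex (Subgroup.normalizer (((P : Subgroup G) ⊓ (Q : Subgroup G) : Subgroup G) : Set G)) ∧ ¬ p ∣ ((Q : Subgroup G) ⊓ Subgroup.normalizer (((P : Subgroup G) ⊓ (Q : Subgroup G) : Subgroup G) : Set G)).relIndex (Subgroup.normalizer (((P : Subgroup G) ⊓ (Q : Subgroup G) : Subgroup G) : Set G))))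
          (x : G) (_ : x ∈ Subgroup.normalizer (((P : Subgroup G) ⊓ (Q : Subgroup G) : Subgroup G) : Set G) ∧ ∃ k : ℕ, orderOf x = p ^ k),
          ⁅(P : Subgroup G) ⊓ (Q : Subgroup G), Subgroup.zpowers x⁆ := by
  change (P : Subgroup G) ⊓ commutator G = F p (P : Subgroup G)
  apply le_antisymm
  · rw [inf_comm, Subgroup.commutator_inf_eq_focalSubgroup, focalSubgroup_def, closure_le]
    rintro y ⟨hy, x, hx, u, rfl⟩
    show ⁅x, u⁆ ∈ F p (P : Subgroup G)
    have hw : u * x⁻¹ * u⁻¹ ∈ (P : Subgroup G) := by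
      have h2 := mul_mem (inv_mem hx) hy
      have h3 : x⁻¹ * ⁅x, u⁆ = u * x⁻¹ * u⁻¹ := by
        simp only [commutatorElement_def]
        group
      rwa [h3] at h2
    set w : G := x⁻¹ with hwd
    have hw1 : ⁅x, u⁆ = w⁻¹ * (u * w * u⁻¹) := by
      simp only [commutatorElement_def, hwd]
      group
    rw [hw1]
    have hwP : w ∈ (P : Subgroup G) := inv_mem hx
    by_cases hw2 : w = 1
    · rw [hw2]
      have : (1 : G)⁻¹ * (u * 1 * u⁻¹) = 1 := by group
      rw [this]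
      exact one_mem _
    have hwR : w ∈ ((u⁻¹ • P : Sylow p G) : Subgroup G) := by
      rw [coe_smul, mem_cj]
      simpa using hw
    have hb : (P : Subgroup G) ⊓ ((u⁻¹ • P : Sylow p G) : Subgroup G) ≠ ⊥ := by
      intro hbot
      have h4 : w ∈ (P : Subgroup G) ⊓ ((u⁻¹ • P : Sylow p G) : Subgroup G) := ⟨hwP, hwR⟩
      rw [hbot, Subgroup.mem_bot] at h4
      exact hw2 h4
    obtain ⟨v, hv, hF⟩ := link_all P (u⁻¹ • P) hb
    have h5 := hF w ⟨hwP, hwR⟩
    have hw' : v * w * v⁻¹ ∈ (P : Subgroup G) := by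
      have h6 : v * w * v⁻¹ ∈ v • (u⁻¹ • P) := Cfsg.Agent.Lib.TransferCore.mem_smul_sylow'.2 hwR
      rw [hv] at h6
      exact h6
    have hn : (v * u⁻¹)⁻¹ ∈ normalizer ((P : Subgroup G) : Set G) := by
      apply inv_mem
      have : (v * u⁻¹) • P = P := by rw [mul_smul, hv]
      exact Sylow.smul_eq_iff_mem_normalizer.1 this
    have h7 : (v * w * v⁻¹)⁻¹ * ((v * u⁻¹)⁻¹ * (v * w * v⁻¹) * ((v * u⁻¹)⁻¹)⁻¹) ∈ F p (P : Subgroup G) := by
      have h8 : (v * w * v⁻¹)⁻¹ * ((v * u⁻¹)⁻¹ * (v * w * v⁻¹) * ((v * u⁻¹)⁻¹)⁻¹) =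
          ⁅(v * w * v⁻¹)⁻¹, (v * u⁻¹)⁻¹⁆ := by
        simp only [commutatorElement_def, inv_inv]
        group
      rw [h8]
      apply (le_sup_left : _ ≤ F p (P : Subgroup G))
      exact commutator_mem_commutator (inv_mem hw') hn
    have h9 := mul_mem h5 h7
    convert h9 using 1
    group
  · apply sup_le
    · rw [commutator_le]
      intro g₁ h₁ g₂ h₂
      refine ⟨?_, commutator_mem_commutator (mem_top _) (mem_top _)⟩
      have h3 : ⁅g₁, g₂⁆ = g₁ * (g₂ * g₁⁻¹ * g₂⁻¹) := by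
        simp only [commutatorElement_def]
        group
      rw [h3]
      exact mul_mem h₁ ((mem_normalizer_iff.1 h₂ _).1 (inv_mem h₁))
    · refine iSup_le fun Q => iSup_le fun hQ => iSup_le fun x => iSup_le fun hx => ?_
      rw [commutator_le]
      intro g₁ h₁ g₂ h₂
      refine ⟨?_, commutator_mem_commutator (mem_top _) (mem_top _)⟩
      have h3 : ⁅g₁, g₂⁆ = g₁ * (g₂ * g₁⁻¹ * g₂⁻¹) := by
        simp only [commutatorElement_def]
        group
      rw [h3]
      have hg₂ : g₂ ∈ normalizer (((P : Subgroup G) ⊓ (Q : Subgroup G) : Subgroup G) : Set G) :=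
        (zpowers_le.2 hx.1) h₂
      exact (mul_mem h₁ ((mem_normalizer_iff.1 hg₂ _).1 (inv_mem h₁))).1

end Cfsg.Agent.S4250
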