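import Mathlib
import Cfsg.Prelude.Def_Transfer
import Cfsg.Agent.Lib.TameChain
import Cfsg.Agent.Lib.PComplement

set_option autoImplicit false
open Cfsg

namespace Cfsg.Agent.S4251

open Subgroup Cfsg.Agent.Lib.AlperinControl Cfsg.Agent.Lib.TameChain

variable {G : Type*} [Group G] [Finite G] {p : ℕ} [hp : Fact p.Prime]

/-- `N(R ∩ Q) = N_R(R ∩ Q) C(R ∩ Q)`. -/
def Good (R Q : Subgroup G) : Prop :=
  ∀ n ∈ normalizer ((R ⊓ Q : Subgroup G) : Set G),
    ∃ t ∈ R ⊓ normalizer ((R ⊓ Q : Subgroup G) : Set G),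
      ∃ c ∈ centralizer ((R ⊓ Q : Subgroup G) : Set G), n = t * c

omit hp [Finite G] in
theorem Good.conj [Finite G] {R Q : Subgroup G} (h : Good R Q) (a : G) : Good (cj a R) (cj a Q) := by
  intro n hn
  have e0 : normalizer ((cj a R ⊓ cj a Q : Subgroup G) : Set G) = cj a (NN (R ⊓ Q)) := by
    rw [← cj_inf]
    exact (cj_NN a _).symm
  rw [e0] at hn ⊢
  rw [mem_cj] at hn
  obtain ⟨t, ⟨ht₁, ht₂⟩, c, hc, hn'⟩ := h _ hn
  refine ⟨a * t * a⁻¹, ⟨conj_mem_cj ht₁, conj_mem_cj ht₂⟩, a * c * a⁻¹, ?_, ?_⟩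
  · rw [mem_centralizer_iff]
    rintro d ⟨hd₁, hd₂⟩
    have hd₁' : a⁻¹ * d * a ∈ R := mem_cj.1 hd₁
    have hd₂' : a⁻¹ * d * a ∈ Q := mem_cj.1 hd₂
    have h1 := mem_centralizer_iff.1 hc (a⁻¹ * d * a) ⟨hd₁', hd₂'⟩
    calc d * (a * c * a⁻¹) = a * ((a⁻¹ * d * a) * c) * a⁻¹ := by group
      _ = a * (c * (a⁻¹ * d * a)) * a⁻¹ := by rw [h1]
      _ = a * c * a⁻¹ * d := by group
  · have h2 : n = a * (a⁻¹ * n * a) * a⁻¹ := by group
    rw [h2, hn']
    group

/-- From `N / C` a `p`-group. -/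
theorem good_of_isPGroup {R Q : Subgroup G}
    (hT : ¬ p ∣ (R ⊓ normalizer ((R ⊓ Q : Subgroup G) : Set G)).relIndex
      (normalizer ((R ⊓ Q : Subgroup G) : Set G)))
    (hq : IsPGroup p (normalizer ((R ⊓ Q : Subgroup G) : Set G) ⧸
      (centralizer ((R ⊓ Q : Subgroup G) : Set G)).subgroupOf
        (normalizer ((R ⊓ Q : Subgroup G) : Set G)))) : Good R Q := by
  intro n hn
  set N : Subgroup G := normalizer ((R ⊓ Q : Subgroup G) : Set G) with hN
  set C' : Subgroup N := (centralizer ((R ⊓ Q : Subgroup G) : Set G)).subgroupOf N with hC'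
  have hC'n : C'.Normal := normal_subgroupOf_centralizer_normalizer _
  set T' : Subgroup N := (R ⊓ N).subgroupOf N with hT'
  have hX : T' ⊔ C' = ⊤ := by
    have h1 : (T' ⊔ C').index ∣ T'.index := Subgroup.index_dvd_of_le le_sup_left
    have h2 : (T' ⊔ C').index ∣ C'.index := Subgroup.index_dvd_of_le le_sup_right
    obtain ⟨m, hm⟩ := IsPGroup.iff_card.1 hq
    rw [← Subgroup.index_eq_card] at hm
    rw [hm] at h2
    obtain ⟨k, -, hk⟩ := (Nat.dvd_prime_pow hp.out).1 h2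
    rcases Nat.eq_zero_or_pos k with rfl | hk0
    · rw [pow_zero, Subgroup.index_eq_one] at hk
      exact hk
    · exfalso
      apply hT
      apply Dvd.dvd.trans _ h1
      rw [hk]
      exact dvd_pow_self p hk0.ne'
  have hn' : (⟨n, hn⟩ : N) ∈ T' ⊔ C' := by
    rw [hX]
    trivial
  obtain ⟨t, ht, c, hc, htc⟩ := mem_sup_of_normal_right.1 hn'
  refine ⟨t, ht, c, hc, ?_⟩
  exact (congrArg Subtype.val htc).symm

/-- The linking relation: Sylow subgroups conjugate by an element centralizing `A`. -/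
def Link (R₁ R₂ : Sylow p G) (A : Subgroup G) : Prop :=
  ∃ c ∈ centralizer (A : Set G), c • R₂ = R₁

theorem link_all (hG : ∀ Q₁ Q₂ : Sylow p G, (Q₁ : Subgroup G) ⊓ Q₂ ≠ ⊥ →
      Tame p (Q₁ : Subgroup G) Q₂ → Good (Q₁ : Subgroup G) Q₂) (R₁ R₂ : Sylow p G)
    (hb : (R₁ : Subgroup G) ⊓ R₂ ≠ ⊥) : Link R₁ R₂ ((R₁ : Subgroup G) ⊓ R₂) := by
  refine chain Link ?_ ?_ ?_ ?_ R₁ R₂ hb
  · intro R A
    exact ⟨1, one_mem _, one_smul _ _⟩
  · rintro R₁ R₂ R₃ A ⟨c₁, hc₁, h₁⟩ ⟨c₂, hc₂, h₂⟩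
    refine ⟨c₁ * c₂, mul_mem hc₁ hc₂, ?_⟩
    rw [mul_smul, h₂, h₁]
  · rintro R₁ R₂ A B hBA ⟨c, hc, h⟩
    exact ⟨c, centralizer_le hBA hc, h⟩
  · intro Q₁ Q₂ hb htm
    set D : Subgroup G := (Q₁ : Subgroup G) ⊓ Q₂ with hD
    set N : Subgroup G := normalizer (D : Set G) with hN
    obtain ⟨a, ha, haT⟩ := exists_conj_in_sup N ((Q₁ : Subgroup G) ⊓ N) ((Q₂ : Subgroup G) ⊓ N)
      inf_le_right inf_le_right (Q₁.isPGroup'.to_le inf_le_left) (Q₂.isPGroup'.to_le inf_le_left)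
      htm.1 htm.2
    have hle : ((Q₁ : Subgroup G) ⊓ N) ⊔ ((Q₂ : Subgroup G) ⊓ N) ≤ N := sup_le inf_le_right inf_le_right
    have haN : a ∈ N := hle ha
    obtain ⟨t, ht, c, hc, rfl⟩ := hG Q₁ Q₂ hb htm a haN
    have hcT : cj c ((Q₂ : Subgroup G) ⊓ N) = (Q₁ : Subgroup G) ⊓ N := by
      rw [cj_mul] at haT
      have h1 := congrArg (cj t⁻¹) haT
      rw [← cj_mul, inv_mul_cancel, cj_one] at h1
      rw [h1]
      apply cj_eq_of_mem_NN
      apply le_normalizer
      exact inv_mem ht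
    refine ⟨c • Q₂, ?_, c, hc, rfl⟩
    rw [coe_smul, ← hcT]
    exact Subgroup.map_mono inf_le_left

/-- Let P be a Sylow p-subgroup of a finite group G. Call an intersection H = P ∩ Q with a Sylow p-subgroup Q tame when N_P(H) and N_Q(H) are Sylow p-subgroups of N_G(H). If N_G(H)/C_G(H) is a p-group for every nontrivial tame intersection H = P ∩ Q, then G has a normal p-complement. -/
theorem result {G : Type*} [Group G] [Finite G] (p : ℕ) [Fact p.Prime] (P : Sylow p G)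
    (h : ∀ Q : Sylow p G, (P : Subgroup G) ⊓ (Q : Subgroup G) ≠ ⊥ → (¬ p ∣ ((P : Subgroup G) ⊓ Subgroup.normalizer (((P : Subgroup G) ⊓ (Q : Subgroup G) : Subgroup G) : Set G)).relIndex (Subgroup.normalizer (((P : Subgroup G) ⊓ (Q : Subgroup G) : Subgroup G) : Set G)) ∧ ¬ p ∣ ((Q : Subgroup G) ⊓ Subgroup.normalizer (((P : Subgroup G) ⊓ (Q : Subgroup G) : Subgroup G) : Set G)).relIndex (Subgroup.normalizer (((P : Subgroup G) ⊓ (Q : Subgroup G) : Subgroup G) : Set G))) →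
      IsPGroup p (Subgroup.normalizer (((P : Subgroup G) ⊓ (Q : Subgroup G) : Subgroup G) : Set G) ⧸
        (Subgroup.centralizer (((P : Subgroup G) ⊓ (Q : Subgroup G) : Subgroup G) : Set G)).subgroupOf
          (Subgroup.normalizer (((P : Subgroup G) ⊓ (Q : Subgroup G) : Subgroup G) : Set G)))) :
    Cfsg.HasNormalPComplement p G := by
  have hPgood : ∀ Q : Sylow p G, (P : Subgroup G) ⊓ Q ≠ ⊥ → Tame p (P : Subgroup G) Q →
      Good (P : Subgroup G) Q := fun Q hb htm =>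
    good_of_isPGroup htm.1 (h Q hb htm)
  have hG : ∀ Q₁ Q₂ : Sylow p G, (Q₁ : Subgroup G) ⊓ Q₂ ≠ ⊥ →
      Tame p (Q₁ : Subgroup G) Q₂ → Good (Q₁ : Subgroup G) Q₂ := by
    intro Q₁ Q₂ hb htm
    obtain ⟨y, hy⟩ := MulAction.exists_smul_eq G P Q₁
    have h1 : (Q₁ : Subgroup G) = cj y (P : Subgroup G) := by
      rw [← hy, coe_smul]
    have h2 : ((y⁻¹ • Q₂ : Sylow p G) : Subgroup G) = cj y⁻¹ (Q₂ : Subgroup G) := coe_smul _ _
    have h3 : cj y (cj y⁻¹ (Q₂ : Subgroup G)) = Q₂ := by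
      rw [← cj_mul, mul_inv_cancel, cj_one]
    have h4 : cj y⁻¹ (Q₁ : Subgroup G) = P := by
      rw [h1, ← cj_mul, inv_mul_cancel, cj_one]
    have hgood : Good (P : Subgroup G) (y⁻¹ • Q₂ : Sylow p G) := by
      apply hPgood
      · rw [h2, ← h4, ← cj_inf]
        intro hbot
        apply hb
        have := congrArg (cj y) hbot
        rw [← cj_mul, mul_inv_cancel, cj_one] at this
        rw [this]
        exact Subgroup.map_bot _
      · have := htm.conj y⁻¹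
        rw [h4] at this
        rw [h2]
        exact this
    have := hgood.conj y
    rw [h2, h3, ← h1] at this
    exact this
  have hL := link_all hG
  obtain ⟨N, hN, hc⟩ := Cfsg.Agent.Lib.PComplement.exists_complement_of_control P (by
    intro x hx g hg
    by_cases hx1 : x = 1
    · refine ⟨1, one_mem _, ?_⟩
      rw [hx1]
      group
    have hxg : x ∈ g • P := Cfsg.Agent.Lib.TransferCore.mem_smul_sylow.2 hg
    have hb : (P : Subgroup G) ⊓ ((g • P : Sylow p G) : Subgroup G) ≠ ⊥ := by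
      intro hbot
      have : x ∈ (P : Subgroup G) ⊓ ((g • P : Sylow p G) : Subgroup G) := ⟨hx, hxg⟩
      rw [hbot, Subgroup.mem_bot] at this
      exact hx1 this
    obtain ⟨c, hcc, hcs⟩ := hL P (g • P) hb
    have hcx : x * c = c * x := mem_centralizer_iff.1 hcc x ⟨hx, hxg⟩
    have hn : c * g ∈ normalizer ((P : Subgroup G) : Set G) := by
      have : (c * g) • P = P := by rw [mul_smul, hcs]
      exact Sylow.smul_eq_iff_mem_normalizer.1 this
    have hPP : (P : Subgroup G) ⊓ P = P := inf_idem _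
    have htm : Tame p (P : Subgroup G) P := by
      unfold Tame
      rw [hPP, inf_of_le_left le_normalizer]
      have h2 : ¬ p ∣ (P : Subgroup G).relIndex (normalizer ((P : Subgroup G) : Set G)) := by
        intro h3
        apply P.not_dvd_index
        rw [← Subgroup.relIndex_mul_index (le_normalizer (H := (P : Subgroup G)))]
        exact Dvd.dvd.mul_right h3 _
      exact ⟨h2, h2⟩
    have hgoodP := hPgood P (by
      rw [hPP]
      intro hbot
      have hx' : x ∈ (P : Subgroup G) := hx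
      rw [hbot, Subgroup.mem_bot] at hx'
      exact hx1 hx') htm
    have hn' : c * g ∈ normalizer (((P : Subgroup G) ⊓ P : Subgroup G) : Set G) := by
      rw [hPP]
      exact hn
    obtain ⟨t, ht, c₀, hc₀, hnt⟩ := hgoodP _ hn'
    refine ⟨t, ht.1, ?_⟩
    have hxt : t⁻¹ * x * t ∈ (P : Subgroup G) ⊓ P := by
      rw [hPP]
      exact mul_mem (mul_mem (inv_mem ht.1) hx) ht.1
    have h5 := mem_centralizer_iff.1 hc₀ _ hxt
    have h6 : g = c⁻¹ * (t * c₀) := by
      rw [← hnt]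
      group
    have h7 : g⁻¹ * x * g = c₀⁻¹ * t⁻¹ * (c * x * c⁻¹) * t * c₀ := by
      rw [h6]
      group
    have h8 : c * x * c⁻¹ = x := by
      rw [← hcx]
      group
    rw [h7, h8]
    calc t⁻¹ * x * t = c₀⁻¹ * (c₀ * (t⁻¹ * x * t)) := by group
      _ = c₀⁻¹ * ((t⁻¹ * x * t) * c₀) := by rw [h5]
      _ = c₀⁻¹ * t⁻¹ * x * t * c₀ := by group)
  exact ⟨P, N, hN, hc⟩

end Cfsg.Agent.S4251
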