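import Mathlib
import Cfsg.Statements.S4252
import Cfsg.Agent.Lib.PCore

set_option autoImplicit false
open Cfsg
open scoped Pointwise

namespace Cfsg.Agent.S4252

open Cfsg.Agent.Lib.PCore

/-- Let a finite group G act on a finite set Ω with more than one point, transitively but not regularly, so that no non-identity element of G fixes two distinct points. Then the stabilizer H of any point is a Frobenius complement in G (nontrivial, proper, meeting its other conjugates trivially), and the Frobenius kernel of G with respect to H (the identity together with the elements lying in no conjugate of H) is exactly the set consisting of the identity and the elements fixing no point. -/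
theorem result {G Ω : Type*} [Group G] [Finite G] [Fintype Ω] [MulAction G Ω] (hΩ : 1 < Fintype.card Ω)
    (htrans : ∀ α β : Ω, ∃ g : G, g • α = β) (hnreg : ∃ g : G, g ≠ 1 ∧ ∃ α : Ω, g • α = α)
    (hfix : ∀ g : G, g ≠ 1 → ∀ α β : Ω, g • α = α → g • β = β → α = β) (α : Ω) :
    Cfsg.IsFrobeniusComplement (MulAction.stabilizer G α) ∧
      Cfsg.frobeniusKernel (MulAction.stabilizer G α) = {g : G | g = 1 ∨ ∀ ω : Ω, g • ω ≠ ω} := by
  have hconj : ∀ (x g : G), x ∈ MulAut.conj g • MulAction.stabilizer G α ↔ x • (g • α) = g • α := by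
    intro x g
    rw [mem_conj_smul_iff, MulAction.mem_stabilizer_iff]
    constructor
    · intro h
      have h' : g⁻¹ • (x • (g • α)) = α := by
        simpa [mul_smul] using h
      have h2 := congrArg (fun w => g • w) h'
      simpa using h2
    · intro h
      simp only [mul_smul]
      rw [h]; simp
  refine ⟨⟨?_, ?_, ?_⟩, ?_⟩
  · obtain ⟨g, hg, β, hβ⟩ := hnreg
    obtain ⟨h, hh⟩ := htrans β α
    intro hbot
    have : h * g * h⁻¹ ∈ MulAction.stabilizer G α := by
      rw [MulAction.mem_stabilizer_iff]
      simp only [mul_smul]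
      rw [← hh]; simp [hβ]
    rw [hbot, Subgroup.mem_bot] at this
    apply hg
    have h2 : g = h⁻¹ * (h * g * h⁻¹) * h := by group
    rw [h2, this]; group
  · intro htop
    obtain ⟨β, hβ⟩ := Fintype.exists_ne_of_one_lt_card hΩ α
    obtain ⟨g, hg⟩ := htrans α β
    have : g ∈ MulAction.stabilizer G α := by rw [htop]; trivial
    rw [MulAction.mem_stabilizer_iff, hg] at this
    exact hβ this
  · intro g hg
    rw [MulAction.mem_stabilizer_iff] at hg
    rw [eq_bot_iff]
    intro x hx0
    obtain ⟨hx1, hx2⟩ := Subgroup.mem_inf.mp hx0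
    rw [MulAction.mem_stabilizer_iff] at hx1
    rw [hconj] at hx2
    by_contra hx
    exact hg (hfix x hx α (g • α) hx1 hx2).symm
  · ext x
    show (x = 1 ∨ ∀ g : G, x ∉ MulAut.conj g • MulAction.stabilizer G α) ↔ (x = 1 ∨ ∀ ω : Ω, x • ω ≠ ω)
    refine or_congr Iff.rfl ?_
    constructor
    · intro h ω hω
      obtain ⟨g, rfl⟩ := htrans α ω
      exact h g ((hconj x g).mpr hω)
    · intro h g hg
      exact h _ ((hconj x g).mp hg)

end Cfsg.Agent.S4252
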