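import Mathlib
import Cfsg.Statements.S4253
import Cfsg.Agent.Lib.PCore

set_option autoImplicit false
open Cfsg
open scoped Pointwise

namespace Cfsg.Agent.S4253

open Cfsg.Agent.Lib.PCore

/-- Let H be a Frobenius complement in a finite group G (a nontrivial proper subgroup meeting each conjugate gHg⁻¹ with g outside H trivially). Then in the action of G on the left cosets of H by left multiplication, no non-identity element of G fixes two distinct cosets. -/
theorem result {G : Type*} [Group G] [Finite G] (H : Subgroup G) (hH : Cfsg.IsFrobeniusComplement H)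
    (g : G) (hg : g ≠ 1) (a b : G ⧸ H) (ha : g • a = a) (hb : g • b = b) : a = b := by
  obtain ⟨u, rfl⟩ := QuotientGroup.mk_surjective a
  obtain ⟨v, rfl⟩ := QuotientGroup.mk_surjective b
  have h1 : u⁻¹ * (g * u) ∈ H := by
    have : ((g * u : G) : G ⧸ H) = (u : G ⧸ H) := ha
    exact QuotientGroup.eq.mp this.symm
  have h2 : v⁻¹ * (g * v) ∈ H := by
    have : ((g * v : G) : G ⧸ H) = (v : G ⧸ H) := hb
    exact QuotientGroup.eq.mp this.symm
  by_contra hne
  have hw : u⁻¹ * v ∉ H := by
    intro h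
    exact hne (QuotientGroup.eq.mpr h)
  have hinf := hH.2.2 (u⁻¹ * v) hw
  have hmem : u⁻¹ * (g * u) ∈ H ⊓ (MulAut.conj (u⁻¹ * v) • H) := by
    refine Subgroup.mem_inf.mpr ⟨h1, ?_⟩
    rw [mem_conj_smul_iff]
    have : (u⁻¹ * v)⁻¹ * (u⁻¹ * (g * u)) * (u⁻¹ * v) = v⁻¹ * (g * v) := by group
    rw [this]
    exact h2
  rw [hinf, Subgroup.mem_bot] at hmem
  apply hg
  have : g = u * (u⁻¹ * (g * u)) * u⁻¹ := by group
  rw [this, hmem]
  group

end Cfsg.Agent.S4253
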