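import Mathlib
import Cfsg.Statements.S4260

set_option autoImplicit false
open Cfsg

namespace Cfsg.Agent.S4260

/-- Let H be a Hall subgroup of a finite group G (the order of H is coprime to its index) such that x^[G : H] lies in H for every x in G. Then H is normal in G. -/
theorem result {G : Type*} [Group G] [Finite G] (H : Subgroup G) (hHall : (Nat.card H).Coprime H.index)
    (hexp : ∀ x : G, x ^ H.index ∈ H) : H.Normal := by
  constructor
  intro x hx g
  set y := g * x * g⁻¹ with hy
  have h1 : y ^ Nat.card H = 1 := by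
    have h2 : x ^ Nat.card H = 1 := by
      have h := pow_card_eq_one' (x := (⟨x, hx⟩ : H))
      have h' : ((⟨x, hx⟩ : H) ^ Nat.card H : H).1 = 1 := by rw [h]; rfl
      exact h'
    rw [hy, conj_pow, h2]; simp
  have h3 : y ^ H.index ∈ H := hexp y
  have h4 : y ^ ((Nat.gcd (Nat.card H) H.index : ℕ) : ℤ) =
      (y ^ Nat.card H) ^ (Nat.gcdA (Nat.card H) H.index) *
        (y ^ H.index) ^ (Nat.gcdB (Nat.card H) H.index) := by
    rw [Nat.gcd_eq_gcd_ab, zpow_add, zpow_mul, zpow_mul, zpow_natCast, zpow_natCast]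
  rw [hHall, Nat.cast_one, zpow_one, h1, one_zpow, one_mul] at h4
  rw [h4]
  exact H.zpow_mem h3 _

end Cfsg.Agent.S4260
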