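import Mathlib
import Cfsg.Statements.S4261

set_option autoImplicit false
open Cfsg
open scoped Pointwise commutatorElement

namespace Cfsg.Agent.S4261

variable {G : Type*} [Group G] [Finite G]

/-- The clean case: `K` abelian minimal normal, `M` a complement. -/
theorem normal_of_complement (K M : Subgroup G) (hKn : K.Normal)
    (hKab : ∀ a ∈ K, ∀ b ∈ K, a * b = b * a) (hdis : Disjoint K M) (hsup : K ⊔ M = ⊤)
    (hmin : ∀ L : Subgroup G, L.Normal → L ≤ K → L ≠ ⊥ → L = K) (hK : K ≠ ⊥)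
    (hexp : ∀ x : G, x ^ M.index ∈ M) : M.Normal := by
  classical
  have hmul : (K : Set G) * (M : Set G) = Set.univ := by
    rw [← Subgroup.normal_mul K M, hsup]; rfl
  have hcompl : Subgroup.IsComplement' K M :=
    Subgroup.isComplement'_of_disjoint_and_mul_eq_univ hdis hmul
  have hidx : M.index = Nat.card K := hcompl.index_eq_card
  have hdecomp : ∀ g : G, ∃ k ∈ K, ∃ m ∈ M, k * m = g := fun g => by
    have : g ∈ (K : Set G) * (M : Set G) := by rw [hmul]; trivial
    obtain ⟨k, hk, m, hm, h⟩ := this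
    exact ⟨k, hk, m, hm, h⟩
  -- Step 1: K is a p-group
  have hne1 : Nat.card K ≠ 1 := fun h => hK (Subgroup.card_eq_one.mp h)
  obtain ⟨p, hp, hpd⟩ := Nat.exists_prime_and_dvd hne1
  have : Fact p.Prime := ⟨hp⟩
  let L : Subgroup G :=
    { carrier := {k | k ∈ K ∧ k ^ p = 1}
      mul_mem' := by
        rintro a b ⟨ha, ha'⟩ ⟨hb, hb'⟩
        refine ⟨K.mul_mem ha hb, ?_⟩
        have hc : Commute a b := hKab a ha b hb
        rw [hc.mul_pow, ha', hb', one_mul]
      one_mem' := ⟨K.one_mem, one_pow p⟩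
      inv_mem' := by
        rintro a ⟨ha, ha'⟩
        exact ⟨K.inv_mem ha, by rw [inv_pow, ha', inv_one]⟩ }
  have hLn : L.Normal := ⟨fun n hn g => ⟨hKn.conj_mem n hn.1 g, by
    rw [conj_pow, hn.2]; simp⟩⟩
  have hLne : L ≠ ⊥ := by
    obtain ⟨x, hx⟩ := exists_prime_orderOf_dvd_card' p hpd
    intro hbot
    have hxL : (x : G) ∈ L := by
      refine ⟨x.2, ?_⟩
      have h1 : x ^ p = 1 := by rw [← hx]; exact pow_orderOf_eq_one x
      simpa using congrArg Subtype.val h1
    rw [hbot, Subgroup.mem_bot] at hxL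
    have hx1 : x = 1 := Subtype.ext hxL
    rw [hx1, orderOf_one] at hx
    exact hp.one_lt.ne hx
  have hLK := hmin L hLn (fun x hx => hx.1) hLne
  have hexpK : ∀ k ∈ K, k ^ p = 1 := fun k hk => by
    rw [← hLK] at hk; exact hk.2
  have hKp : IsPGroup p K := fun k => ⟨1, by
    rw [pow_one]; exact Subtype.ext (hexpK k k.2)⟩
  obtain ⟨a, ha⟩ := IsPGroup.iff_card.mp hKp
  have hKnormal : K.Normal := hKn
  -- Step 2
  have hcomm : ∀ m ∈ M, ∀ k ∈ K, m ^ M.index * k = k * m ^ M.index := by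
    intro m hm k hk
    set n := M.index
    set x := k * m with hx
    have h1 : x ^ n * (m ^ n)⁻¹ ∈ K := by
      have hk1 : QuotientGroup.mk' K k = 1 := (QuotientGroup.eq_one_iff k).mpr hk
      rw [← QuotientGroup.ker_mk' K, MonoidHom.mem_ker, map_mul, map_inv, map_pow, map_pow, hx,
        map_mul, hk1, one_mul, mul_inv_cancel]
    have h2 : x ^ n * (m ^ n)⁻¹ ∈ M := M.mul_mem (hexp x) (M.inv_mem (pow_mem hm _))
    have h3 : x ^ n * (m ^ n)⁻¹ = 1 := (Subgroup.disjoint_def.mp hdis) h1 h2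
    have h4 : x ^ n = m ^ n := mul_inv_eq_one.mp h3
    have h5 : x * x ^ n = x ^ n * x := ((Commute.refl x).pow_right n).eq
    rw [h4, hx] at h5
    have h6 : (m ^ n * k) * m = (k * m ^ n) * m := by
      have h7 : m * m ^ n = m ^ n * m := ((Commute.refl m).pow_right n).eq
      calc (m ^ n * k) * m = m ^ n * (k * m) := by group
        _ = k * m * m ^ n := h5.symm
        _ = k * (m * m ^ n) := by group
        _ = k * (m ^ n * m) := by rw [h7]
        _ = (k * m ^ n) * m := by group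
    exact mul_right_cancel h6
  -- Step 3
  let ψ : G →* MulAut K := MulAut.conjNormal
  let Γ : Subgroup (MulAut K) := (ψ.comp M.subtype).range
  have hΓ : IsPGroup p Γ := by
    rintro ⟨γ, m, rfl⟩
    refine ⟨a, ?_⟩
    apply Subtype.ext
    show (ψ m) ^ p ^ a = 1
    rw [← map_pow]
    ext k
    have h8 : ((ψ ((m : G) ^ p ^ a)) k : G) = ((m : G) ^ p ^ a) * k * ((m : G) ^ p ^ a)⁻¹ := rfl
    rw [h8, ← ha, ← hidx, hcomm m m.2 k k.2, mul_inv_cancel_right]
    rfl
  have hfix1 : (1 : K) ∈ MulAction.fixedPoints Γ K := by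
    rintro ⟨γ, hγ⟩
    exact map_one γ
  have hpK : p ∣ Nat.card K := hpd
  obtain ⟨b, hbfix, hb⟩ := hΓ.exists_fixed_point_of_prime_dvd_card_of_fixed_point K hpK hfix1
  have hbM : ∀ m ∈ M, m * (b : G) * m⁻¹ = b := by
    intro m hm
    have h9 := hbfix ⟨ψ m, ⟨⟨m, hm⟩, rfl⟩⟩
    exact congrArg Subtype.val h9
  let L2 : Subgroup G := K ⊓ Subgroup.centralizer (M : Set G)
  have hL2n : L2.Normal := by
    constructor
    intro c hc g
    obtain ⟨hc1, hc2⟩ := Subgroup.mem_inf.mp hc
    obtain ⟨k, hk, m, hm, rfl⟩ := hdecomp g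
    have h10 : (k * m) * c * (k * m)⁻¹ = c := by
      have h11 : m * c = c * m := (Subgroup.mem_centralizer_iff.mp hc2 m hm)
      have h12 : k * c = c * k := hKab k hk c hc1
      calc (k * m) * c * (k * m)⁻¹ = k * (m * c) * m⁻¹ * k⁻¹ := by group
        _ = (k * c) * m * m⁻¹ * k⁻¹ := by rw [h11]; group
        _ = c := by rw [h12]; group
    rw [h10]
    exact hc
  have hL2ne : L2 ≠ ⊥ := by
    intro hbot
    have hb2 : (b : G) ∈ L2 := by
      refine Subgroup.mem_inf.mpr ⟨b.2, ?_⟩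
      rw [Subgroup.mem_centralizer_iff]
      intro m hm
      have := hbM m hm
      exact mul_inv_eq_iff_eq_mul.mp this
    rw [hbot, Subgroup.mem_bot] at hb2
    exact hb (Subtype.ext hb2).symm
  have hL2K := hmin L2 hL2n inf_le_left hL2ne
  have hcen : ∀ k ∈ K, ∀ m ∈ M, m * k = k * m := by
    intro k hk m hm
    rw [← hL2K] at hk
    exact Subgroup.mem_centralizer_iff.mp (Subgroup.mem_inf.mp hk).2 m hm
  -- Step 4
  constructor
  intro n hn g
  obtain ⟨k, hk, m, hm, rfl⟩ := hdecomp g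
  have h13 : (k * m) * n * (k * m)⁻¹ = m * n * m⁻¹ := by
    have h14 : m * n * m⁻¹ ∈ M := M.mul_mem (M.mul_mem hm hn) (M.inv_mem hm)
    have h15 := hcen k hk _ h14
    calc (k * m) * n * (k * m)⁻¹ = k * (m * n * m⁻¹) * k⁻¹ := by group
      _ = (m * n * m⁻¹) * k * k⁻¹ := by rw [h15]
      _ = m * n * m⁻¹ := by group
  rw [h13]
  exact M.mul_mem (M.mul_mem hm hn) (M.inv_mem hm)

/-- Let M be a maximal subgroup of a finite solvable group G such that x^[G : M] lies in M for every x in G. Then M is normal in G. -/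
theorem result {G : Type*} [Group G] [Finite G] (hG : Group.IsSolvable G) (M : Subgroup G) (hM : IsCoatom M)
    (hexp : ∀ x : G, x ^ M.index ∈ M) : M.Normal := by
  classical
  let S : Set (Subgroup G) := {K | K.Normal ∧ ¬ K ≤ M}
  have hSne : S.Nonempty := ⟨⊤, inferInstance, fun h => hM.1 (top_le_iff.mp h)⟩
  obtain ⟨K, hK⟩ := S.toFinite.exists_minimal hSne
  have hKn : K.Normal := hK.1.1
  have hKM : ¬ K ≤ M := hK.1.2
  have hKne : K ≠ ⊥ := by
    rintro rfl
    exact hKM bot_le
  have hKmin : ∀ L : Subgroup G, L.Normal → L ≤ K → ¬ L ≤ M → L = K := by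
    intro L hL hLK hLM
    exact le_antisymm hLK (hK.2 ⟨hL, hLM⟩ hLK)
  have hcomm : ⁅K, K⁆ ≤ M := by
    by_contra hc
    have h1 : ⁅K, K⁆ = K := hKmin _ (Subgroup.commutator_normal K K) (Subgroup.commutator_le_left K K) hc
    exact absurd h1 (Group.IsSolvable.commutator_lt_of_ne_bot hKne).ne
  have hsup : K ⊔ M = ⊤ := by
    have h1 : M < K ⊔ M := by
      refine lt_of_le_of_ne le_sup_right ?_
      intro h
      exact hKM (h ▸ le_sup_left)
    exact hM.2 _ h1
  have hmul : (K : Set G) * (M : Set G) = Set.univ := by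
    rw [← Subgroup.normal_mul K M, hsup]; rfl
  have hdecomp : ∀ g : G, ∃ k ∈ K, ∃ m ∈ M, k * m = g := fun g => by
    have : g ∈ (K : Set G) * (M : Set G) := by rw [hmul]; trivial
    obtain ⟨k, hk, m, hm, h⟩ := this
    exact ⟨k, hk, m, hm, h⟩
  set D : Subgroup G := K ⊓ M with hD
  have hcommD : ⁅K, K⁆ ≤ D := le_inf (Subgroup.commutator_le_left K K) hcomm
  have hDn : D.Normal := by
    constructor
    intro d hd g
    obtain ⟨hd1, hd2⟩ := Subgroup.mem_inf.mp hd
    obtain ⟨k, hk, m, hm, rfl⟩ := hdecomp g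
    set d' := m * d * m⁻¹ with hd'
    have hd'K : d' ∈ K := hKn.conj_mem d hd1 m
    have hd'M : d' ∈ M := M.mul_mem (M.mul_mem hm hd2) (M.inv_mem hm)
    have h2 : ⁅k, d'⁆ ∈ D := hcommD (Subgroup.commutator_mem_commutator hk hd'K)
    have h3 : (k * m) * d * (k * m)⁻¹ = ⁅k, d'⁆ * d' := by
      rw [commutatorElement_def, hd']; group
    rw [h3]
    exact D.mul_mem h2 (Subgroup.mem_inf.mpr ⟨hd'K, hd'M⟩)
  have hDM : D ≤ M := inf_le_right
  have hDK : D ≤ K := inf_le_left
  let π : G →* G ⧸ D := QuotientGroup.mk' D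
  have hπs : Function.Surjective π := QuotientGroup.mk'_surjective D
  have hker : π.ker = D := QuotientGroup.ker_mk' D
  have hKbarn : (K.map π).Normal := Subgroup.Normal.map hKn π hπs
  have hab : ∀ a ∈ K.map π, ∀ b ∈ K.map π, a * b = b * a := by
    rintro _ ⟨a, ha, rfl⟩ _ ⟨b, hb, rfl⟩
    rw [← map_mul, ← map_mul]
    have h4 : ⁅a, b⁆ ∈ D := hcommD (Subgroup.commutator_mem_commutator ha hb)
    have h5 : π ⁅a, b⁆ = 1 := by rw [← MonoidHom.mem_ker, hker]; exact h4
    rw [commutatorElement_def, map_mul, map_mul, map_mul, map_inv, map_inv] at h5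
    have h6 : π a * π b = π b * π a := by
      have := h5
      calc π a * π b = (π a * π b * (π a)⁻¹ * (π b)⁻¹) * (π b * π a) := by group
        _ = π b * π a := by rw [this, one_mul]
    rw [map_mul, map_mul, h6]
  have hdis : Disjoint (K.map π) (M.map π) := by
    rw [Subgroup.disjoint_def]
    rintro _ ⟨k, hk, rfl⟩ ⟨m, hm, hmk⟩
    have hm' : π m = π k := hmk
    have h7 : m⁻¹ * k ∈ D := by
      rw [← hker, MonoidHom.mem_ker, map_mul, map_inv, hm', inv_mul_cancel]
    have h8 : k ∈ M := by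
      have := M.mul_mem hm (hDM h7)
      simpa using this
    have h9 : k ∈ D := Subgroup.mem_inf.mpr ⟨hk, h8⟩
    rw [← hker, MonoidHom.mem_ker] at h9
    exact h9
  have hsup' : K.map π ⊔ M.map π = ⊤ := by
    rw [← Subgroup.map_sup, hsup, ← MonoidHom.range_eq_map]
    exact MonoidHom.range_eq_top.mpr hπs
  have hmin' : ∀ L : Subgroup (G ⧸ D), L.Normal → L ≤ K.map π → L ≠ ⊥ → L = K.map π := by
    intro L hLn hLK hLne
    have hcomapn : (L.comap π).Normal := Subgroup.Normal.comap hLn π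
    have hcomapK : L.comap π ≤ K := by
      intro x hx
      obtain ⟨k, hk, hkx⟩ := hLK hx
      have h10 : k⁻¹ * x ∈ D := by
        rw [← hker, MonoidHom.mem_ker, map_mul, map_inv, hkx, inv_mul_cancel]
      have := K.mul_mem hk (hDK h10)
      simpa using this
    have hcomapM : ¬ L.comap π ≤ M := by
      intro h
      apply hLne
      rw [eq_bot_iff]
      intro y hy
      obtain ⟨x, rfl⟩ := hπs y
      have hx : x ∈ L.comap π := hy
      have hxD : x ∈ D := Subgroup.mem_inf.mpr ⟨hcomapK hx, h hx⟩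
      rw [← hker, MonoidHom.mem_ker] at hxD
      rw [hxD]; exact Subgroup.mem_bot.mpr rfl
    have hh := hKmin _ hcomapn hcomapK hcomapM
    rw [← hh, Subgroup.map_comap_eq_self_of_surjective hπs]
  have hKbarne : K.map π ≠ ⊥ := by
    intro h
    have : K ≤ D := by
      intro k hk
      have h11 : π k ∈ K.map π := Subgroup.mem_map_of_mem π hk
      rw [h, Subgroup.mem_bot] at h11
      rw [← hker, MonoidHom.mem_ker]; exact h11
    exact hKM (this.trans hDM)
  have hkerM : π.ker ≤ M := by rw [hker]; exact hDM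
  have hindex : (M.map π).index = M.index := by
    rw [Subgroup.index_map, sup_eq_left.mpr hkerM, MonoidHom.range_eq_top.mpr hπs,
      Subgroup.index_top, mul_one]
  have hexp' : ∀ x : G ⧸ D, x ^ (M.map π).index ∈ M.map π := by
    intro x
    obtain ⟨y, rfl⟩ := hπs x
    rw [hindex, ← map_pow]
    exact Subgroup.mem_map_of_mem π (hexp y)
  have hMn := normal_of_complement (K.map π) (M.map π) hKbarn hab hdis hsup' hmin' hKbarne hexp'
  have h12 : (M.map π).comap π = M := Subgroup.comap_map_eq_self hkerM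
  rw [← h12]
  exact Subgroup.Normal.comap hMn π

end Cfsg.Agent.S4261
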