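import Mathlib
import Cfsg.Statements.S4262
import Cfsg.Agent.Lib.FrobeniusThm
import Cfsg.Agent.Lib.Frobenius
import Cfsg.Agent.Lib.FrobNPC
import Cfsg.Agent.Lib.FrobAction
import Cfsg.Agent.Lib.Glauberman2
import Cfsg.Agent.Lib.CoprimeInv
import Cfsg.Agent.Lib.SmallGroups2

set_option autoImplicit false
open Cfsg
open scoped Pointwise

namespace Cfsg.Agent.S4262

open Cfsg.Agent.Lib.FrobNPC (FrobHyp)

universe u

section Basic

variable {G : Type*} [Group G]

/-- Centralizer of an element. -/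
abbrev Cn (g : G) : Subgroup G := Subgroup.centralizer ({g} : Set G)

theorem mem_Cn {g x : G} : x ∈ Cn g ↔ x * g = g * x := by
  rw [Subgroup.mem_centralizer_singleton_iff]

theorem quot_prop (h : ∀ g : G, g ∉ Subgroup.center G → IsCoatom (Cn g)) (N : Subgroup G)
    [N.Normal] : ∀ q : G ⧸ N, q ∉ Subgroup.center (G ⧸ N) → IsCoatom (Cn q) := by
  intro q hq
  obtain ⟨x, rfl⟩ := QuotientGroup.mk_surjective q
  have hx : x ∉ Subgroup.center G := by
    intro hc
    apply hq
    rw [Subgroup.mem_center_iff] at hc ⊢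
    intro y
    obtain ⟨y, rfl⟩ := QuotientGroup.mk_surjective y
    rw [← QuotientGroup.mk_mul, ← QuotientGroup.mk_mul, hc y]
  have hM := h x hx
  have hNM : N ≤ Cn x := by
    by_contra hn
    have hsup : Cn x ⊔ N = ⊤ :=
      hM.2 _ (lt_of_le_of_ne le_sup_left (fun e => hn (e ▸ le_sup_right)))
    apply hq
    rw [Subgroup.mem_center_iff]
    intro y
    obtain ⟨y, rfl⟩ := QuotientGroup.mk_surjective y
    have hy : y ∈ ((Cn x ⊔ N : Subgroup G) : Set G) := by rw [hsup]; trivial
    rw [Subgroup.mul_normal] at hy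
    obtain ⟨m, hm, n, hn', rfl⟩ := Set.mem_mul.mp hy
    have e : ((m * n : G) : G ⧸ N) = (m : G ⧸ N) := by
      rw [QuotientGroup.mk_mul]
      have : (n : G ⧸ N) = 1 := (QuotientGroup.eq_one_iff n).mpr hn'
      rw [this, mul_one]
    rw [e, ← QuotientGroup.mk_mul, ← QuotientGroup.mk_mul, mem_Cn.mp hm]
  refine ⟨?_, ?_⟩
  · intro htop
    apply hq
    rw [Subgroup.mem_center_iff]
    intro y
    have : y ∈ Cn (x : G ⧸ N) := by rw [htop]; trivial
    exact mem_Cn.mp this
  · intro K hK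
    obtain ⟨k, hkK, hkC⟩ := SetLike.exists_of_lt hK
    obtain ⟨y, rfl⟩ := QuotientGroup.mk_surjective k
    have h1 : ∀ c ∈ Cn x, (c : G ⧸ N) ∈ Cn (x : G ⧸ N) := by
      intro c hc
      rw [mem_Cn, ← QuotientGroup.mk_mul, ← QuotientGroup.mk_mul, mem_Cn.mp hc]
    have hlt : Cn x < K.comap (QuotientGroup.mk' N) := by
      refine lt_of_le_of_ne ?_ ?_
      · intro c hc
        exact hK.le (h1 c hc)
      · intro e
        have : y ∈ K.comap (QuotientGroup.mk' N) := hkK
        rw [← e] at this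
        exact hkC (h1 y this)
    have htop := hM.2 _ hlt
    rw [eq_top_iff]
    intro z _
    obtain ⟨z, rfl⟩ := QuotientGroup.mk_surjective z
    have : z ∈ K.comap (QuotientGroup.mk' N) := by rw [htop]; trivial
    exact this

end Basic

section Core

variable {G : Type*} [Group G] [Finite G]

theorem Cn_eq_of_le (h : ∀ g : G, g ≠ 1 → IsCoatom (Cn g)) {x y : G} (hx : x ≠ 1) (hy : y ≠ 1)
    (hle : Cn x ≤ Cn y) : Cn x = Cn y :=
  (((h x hx).le_iff).mp hle).resolve_left (h y hy).1 |>.symm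

theorem Cn_le_pow (x : G) (k : ℕ) : Cn x ≤ Cn (x ^ k) := by
  intro c hc
  have h1 : Commute c x := mem_Cn.mp hc
  exact mem_Cn.mpr (h1.pow_right k)

theorem Cn_pow_eq (h : ∀ g : G, g ≠ 1 → IsCoatom (Cn g)) {x : G} {k : ℕ} (hk : x ^ k ≠ 1) :
    Cn (x ^ k) = Cn x := by
  have hx : x ≠ 1 := by
    rintro rfl
    exact hk (one_pow k)
  exact (Cn_eq_of_le h hx hk (Cn_le_pow x k)).symm

theorem pow_prime_eq_one (h : ∀ g : G, g ≠ 1 → IsCoatom (Cn g)) {u v : G} (hu : u ≠ 1) (hv : v ≠ 1)
    (huv : Commute u v) (hne : Cn u ≠ Cn v) {p : ℕ} (hp : p.Prime) (hpd : p ∣ orderOf v) :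
    u ^ p = 1 := by
  by_contra hup
  have ho : orderOf v ≠ 0 := (orderOf_pos v).ne'
  set v₁ := v ^ (orderOf v / p) with hv₁def
  have hv₁o : orderOf v₁ = p := orderOf_pow_orderOf_div ho hpd
  have hv₁ : v₁ ≠ 1 := by
    intro e
    rw [e, orderOf_one] at hv₁o
    exact hp.one_lt.ne hv₁o
  have hCv₁ : Cn v₁ = Cn v := Cn_pow_eq h hv₁
  have hc : Commute u v₁ := huv.pow_right _
  set w := u * v₁ with hw
  have hwp : w ^ p = u ^ p := by
    rw [hw, hc.mul_pow, ← hv₁o, pow_orderOf_eq_one, mul_one, hv₁o]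
  have e1 : Cn w = Cn u := by
    have h1 : Cn (w ^ p) = Cn w := Cn_pow_eq h (by rwa [hwp])
    rw [← h1, hwp, Cn_pow_eq h hup]
  apply hne
  apply Cn_eq_of_le h hu hv
  rw [← hCv₁]
  intro c hc'
  have h1 : c * u = u * c := mem_Cn.mp hc'
  have h2 : c * w = w * c := mem_Cn.mp (e1 ▸ hc')
  rw [mem_Cn]
  have h3 : u * (c * v₁) = u * (v₁ * c) := by
    calc u * (c * v₁) = (u * c) * v₁ := by group
      _ = (c * u) * v₁ := by rw [h1]
      _ = c * w := by rw [hw]; group
      _ = w * c := h2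
      _ = u * (v₁ * c) := by rw [hw]; group
  exact mul_left_cancel h3

theorem order_eq (h : ∀ g : G, g ≠ 1 → IsCoatom (Cn g)) {u v : G} (hu : u ≠ 1) (hv : v ≠ 1)
    (huv : Commute u v) (hne : Cn u ≠ Cn v) : (orderOf u).Prime ∧ orderOf v = orderOf u := by
  have hp : ((orderOf v).minFac).Prime := Nat.minFac_prime (orderOf_eq_one_iff.not.mpr hv)
  haveI : Fact ((orderOf v).minFac).Prime := ⟨hp⟩
  have hu' : u ^ (orderOf v).minFac = 1 :=
    pow_prime_eq_one h hu hv huv hne hp (Nat.minFac_dvd _)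
  have ou : orderOf u = (orderOf v).minFac := orderOf_eq_prime hu' hu
  have hv' : v ^ (orderOf v).minFac = 1 :=
    pow_prime_eq_one h hv hu huv.symm hne.symm hp (by rw [ou])
  have ov : orderOf v = (orderOf v).minFac := orderOf_eq_prime hv' hv
  exact ⟨ou ▸ hp, by omega⟩

theorem dichotomy (h : ∀ g : G, g ≠ 1 → IsCoatom (Cn g)) (x : G) (hx : x ≠ 1) :
    (∀ a ∈ Cn x, ∀ b ∈ Cn x, a * b = b * a) ∨
      ((orderOf x).Prime ∧ ∀ z ∈ Cn x, z ≠ 1 → orderOf z = orderOf x) := by
  by_cases hab : ∀ a ∈ Cn x, ∀ b ∈ Cn x, a * b = b * a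
  · exact Or.inl hab
  · right
    push Not at hab
    obtain ⟨a, ha, b, hb, hne⟩ := hab
    have ha1 : a ≠ 1 := by
      rintro rfl
      apply hne
      group
    have hCa : Cn a ≠ Cn x := by
      intro e
      have : b ∈ Cn a := by rw [e]; exact hb
      exact hne (mem_Cn.mp this).symm
    have hax : Commute a x := mem_Cn.mp ha
    obtain ⟨hp, hxa⟩ := order_eq h ha1 hx hax hCa
    refine ⟨hxa ▸ hp, ?_⟩
    intro z hz hz1
    by_cases hCz : Cn z = Cn x
    · have hza : Commute z a := (mem_Cn.mp (hCz.symm ▸ ha : a ∈ Cn z)).symm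
      have hCza : Cn z ≠ Cn a := by rw [hCz]; exact hCa.symm
      have := (order_eq h hz1 ha1 hza hCza).2
      rw [hxa]
      exact this.symm
    · have hzx : Commute z x := mem_Cn.mp hz
      exact (order_eq h hz1 hx hzx hCz).2.symm

/-- Coprimality from fixed point free action. -/
theorem coprime_of_fpf (M K : Subgroup G) [K.Normal]
    (hf : ∀ c ∈ M, c ≠ 1 → ∀ k ∈ K, c * k = k * c → k = 1) :
    (Nat.card M).Coprime (Nat.card K) := by
  apply Nat.Coprime.symm
  apply Nat.coprime_of_dvd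
  intro r hr hr1 hr2
  haveI : Fact r.Prime := ⟨hr⟩
  obtain ⟨c, hc⟩ := exists_prime_orderOf_dvd_card' (G := M) r hr2
  have hc1 : (c : G) ≠ 1 := by
    intro e
    have : c = 1 := Subtype.ext e
    rw [this, orderOf_one] at hc
    exact hr.one_lt.ne hc
  let Z : Subgroup G := Subgroup.zpowers (c : G)
  have hZ : IsPGroup r Z := by
    rw [IsPGroup.iff_card, Nat.card_zpowers, Subgroup.orderOf_coe, hc]
    exact ⟨1, by simp⟩
  letI : MulAction Z K := MulAction.compHom K ((MulAut.conjNormal (H := K)).comp Z.subtype)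
  have hmod := hZ.card_modEq_card_fixedPoints K
  have hfix : Nat.card (MulAction.fixedPoints Z K) = 1 := by
    have hone : (1 : K) ∈ MulAction.fixedPoints Z K := by
      intro z
      show (MulAut.conjNormal (H := K) (z : G)) 1 = 1
      exact map_one _
    rw [Nat.card_eq_one_iff_unique]
    refine ⟨⟨?_⟩, ⟨⟨1, hone⟩⟩⟩
    rintro ⟨a, ha⟩ ⟨b, hb⟩
    have key : ∀ k ∈ MulAction.fixedPoints Z K, k = 1 := by
      intro k hk
      have h1 := hk ⟨(c : G), Subgroup.mem_zpowers _⟩
      have h2 : (MulAut.conjNormal (H := K) (c : G)) k = k := h1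
      have h3 : (c : G) * (k : G) * (c : G)⁻¹ = k := by
        have := congrArg Subtype.val h2
        rwa [MulAut.conjNormal_apply] at this
      have h4 : (c : G) * (k : G) = k * c := by
        calc (c : G) * (k : G) = ((c : G) * (k : G) * (c : G)⁻¹) * c := by group
          _ = k * c := by rw [h3]
      have := hf c c.2 hc1 k k.2 h4
      exact Subtype.ext this
    exact Subtype.ext ((key a ha).trans (key b hb).symm)
  rw [hfix] at hmod
  have h5 : r ∣ 1 := by
    have h6 : Nat.card K ≡ 0 [MOD r] := (Nat.modEq_zero_iff_dvd).mpr hr1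
    have h7 : 1 ≡ 0 [MOD r] := hmod.symm.trans h6
    exact (Nat.modEq_zero_iff_dvd).mp h7
  exact hr.one_lt.ne' (Nat.dvd_one.mp h5)

/-- End game: a solvable coatom with a normal complement of coprime order. -/
theorem solvable_of_complement (M K : Subgroup G) (hM : IsCoatom M) (hMs : Group.IsSolvable M)
    [hKn : K.Normal] (hKM : Subgroup.IsComplement' K M)
    (hco : (Nat.card M).Coprime (Nat.card K)) : Group.IsSolvable G := by
  classical
  have hsupKM : K ⊔ M = ⊤ := hKM.sup_eq_top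
  have hinf : K ⊓ M = ⊥ := hKM.disjoint.eq_bot
  have hcard : Nat.card K * Nat.card M = Nat.card G := hKM.card_mul_card
  have hK1 : Nat.card K ≠ 1 := by
    intro h1
    have e : K = ⊥ := Subgroup.eq_bot_of_card_eq _ h1
    rw [e, bot_sup_eq] at hsupKM
    exact hM.1 hsupKM
  obtain ⟨r, hr, hrK⟩ := Nat.exists_prime_and_dvd hK1
  haveI : Fact r.Prime := ⟨hr⟩
  have hKN : M ≤ Subgroup.normalizer (K : Set G) := by
    rw [Subgroup.normalizer_eq_top]; exact le_top
  obtain ⟨S, hS⟩ := Cfsg.Agent.Lib.Glauberman2.exists_invariant_sylow hKN hco (Or.inl hMs) r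
  set S' : Subgroup G := (S : Subgroup K).map K.subtype with hS'
  have hS'K : S' ≤ K := Subgroup.map_subtype_le _
  have hcS' : Nat.card S' = Nat.card (S : Subgroup K) :=
    Subgroup.card_map_of_injective K.subtype_injective
  have hS1 : (S : Subgroup K) ≠ ⊥ := S.ne_bot_of_dvd_card hrK
  have hS'ne : S' ≠ ⊥ := by
    intro e
    rw [e, Subgroup.card_bot] at hcS'
    exact hS1 (Subgroup.eq_bot_of_card_eq _ hcS'.symm)
  have hS'M : M ⊓ S' = ⊥ := by
    rw [eq_bot_iff]
    intro y hy
    obtain ⟨h1, h2⟩ := Subgroup.mem_inf.mp hy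
    have : y ∈ K ⊓ M := Subgroup.mem_inf.mpr ⟨hS'K h2, h1⟩
    rwa [hinf] at this
  have hlt : M < M ⊔ S' := by
    refine lt_of_le_of_ne le_sup_left ?_
    intro e
    have hle : S' ≤ M := by rw [e]; exact le_sup_right
    apply hS'ne
    rw [eq_bot_iff, ← hS'M]
    exact le_inf hle le_rfl
  have htop : M ⊔ S' = ⊤ := hM.2 _ hlt
  have h3 := Cfsg.Agent.Lib.CoprimeInv.card_sup_mul_card_inf hS
  rw [htop, hS'M, Subgroup.card_bot, mul_one, Subgroup.card_top, ← hcard, mul_comm (Nat.card K)] at h3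
  have hpos : 0 < Nat.card M := Nat.card_pos
  have h4 : Nat.card K = Nat.card S' := Nat.eq_of_mul_eq_mul_left hpos h3
  have h5 : S' = K := Subgroup.eq_of_le_of_card_ge hS'K (le_of_eq h4)
  have hKp : IsPGroup r K := by
    rw [← h5]
    exact S.isPGroup'.map K.subtype
  have hKs : Group.IsSolvable K := by
    haveI := hKp.isNilpotent
    infer_instance
  have hsurj : Function.Surjective ((QuotientGroup.mk' K).comp M.subtype) := by
    intro q
    obtain ⟨y, rfl⟩ := QuotientGroup.mk_surjective q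
    have hy : y ∈ ((M ⊔ K : Subgroup G) : Set G) := by
      rw [sup_comm, hsupKM]; trivial
    rw [Subgroup.mul_normal] at hy
    obtain ⟨m, hm, k, hk, rfl⟩ := Set.mem_mul.mp hy
    refine ⟨⟨m, hm⟩, ?_⟩
    simp only [MonoidHom.comp_apply, Subgroup.coe_subtype, QuotientGroup.mk'_apply]
    rw [QuotientGroup.mk_mul]
    have : (k : G ⧸ K) = 1 := (QuotientGroup.eq_one_iff k).mpr hk
    rw [this, mul_one]
  have hQ : Group.IsSolvable (G ⧸ K) := Group.isSolvable_of_surjective hsurj
  refine Group.isSolvable_of_ker_le_range K.subtype (QuotientGroup.mk' K) ?_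
  intro y hy
  have : y ∈ K := (QuotientGroup.eq_one_iff y).mp hy
  exact ⟨⟨y, this⟩, rfl⟩

theorem solvable_of_normal_coatom (M : Subgroup G) [hMn : M.Normal] (hM : IsCoatom M)
    (hMs : Group.IsSolvable M) : Group.IsSolvable G := by
  have hQ : Group.IsSolvable (G ⧸ M) := by
    by_cases hq : ∃ q : G ⧸ M, q ≠ 1
    · obtain ⟨q, hq⟩ := hq
      obtain ⟨y, rfl⟩ := QuotientGroup.mk_surjective q
      have hyM : y ∉ M := fun h => hq ((QuotientGroup.eq_one_iff y).mpr h)
      have hlt : M < (Subgroup.zpowers (y : G ⧸ M)).comap (QuotientGroup.mk' M) := by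
        refine lt_of_le_of_ne ?_ ?_
        · intro c hc
          have : (c : G ⧸ M) = 1 := (QuotientGroup.eq_one_iff c).mpr hc
          show (c : G ⧸ M) ∈ Subgroup.zpowers (y : G ⧸ M)
          rw [this]
          exact one_mem _
        · intro e
          have : y ∈ (Subgroup.zpowers (y : G ⧸ M)).comap (QuotientGroup.mk' M) :=
            Subgroup.mem_zpowers (y : G ⧸ M)
          rw [← e] at this
          exact hyM this
      have htop := hM.2 _ hlt
      have hcyc : IsCyclic (G ⧸ M) := by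
        refine ⟨⟨(y : G ⧸ M), ?_⟩⟩
        intro z
        obtain ⟨z, rfl⟩ := QuotientGroup.mk_surjective z
        have : z ∈ (Subgroup.zpowers (y : G ⧸ M)).comap (QuotientGroup.mk' M) := by
          rw [htop]; trivial
        exact this
      exact Group.isSolvable_of_comm (IsCyclic.commGroup (α := G ⧸ M)).mul_comm
    · push Not at hq
      have : Subsingleton (G ⧸ M) := ⟨fun a b => (hq a).trans (hq b).symm⟩
      infer_instance
  refine Group.isSolvable_of_ker_le_range M.subtype (QuotientGroup.mk' M) ?_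
  intro y hy
  have : y ∈ M := (QuotientGroup.eq_one_iff y).mp hy
  exact ⟨⟨y, this⟩, rfl⟩

theorem frob_case (h : ∀ g : G, g ≠ 1 → IsCoatom (Cn g)) {x : G} (hx : x ≠ 1)
    (hab : ∀ a ∈ Cn x, ∀ b ∈ Cn x, a * b = b * a) (hnn : ¬ (Cn x).Normal) :
    Group.IsSolvable G := by
  classical
  set M := Cn x with hMdef
  have hMco : IsCoatom M := h x hx
  have hNM : Subgroup.normalizer (M : Set G) = M := by
    have := (hMco.le_iff).mp (Subgroup.le_normalizer (H := M))
    rcases this with h1 | h1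
    · exact absurd (Subgroup.normalizer_eq_top_iff.mp h1) hnn
    · exact h1
  have hy : ∀ y ∈ M, y ≠ 1 → Cn y = M := by
    intro y hyM hy1
    exact (Cn_eq_of_le h hx hy1 (fun c hc => mem_Cn.mpr (hab c hc y hyM))).symm
  have hF : IsFrobeniusComplement M := by
    refine ⟨?_, hMco.1, ?_⟩
    · intro e
      have hxM : x ∈ M := mem_Cn.mpr rfl
      rw [e] at hxM
      exact hx (Subgroup.mem_bot.mp hxM)
    · intro g hg
      rw [eq_bot_iff]
      intro y hy'
      obtain ⟨hy1, hy2⟩ := Subgroup.mem_inf.mp hy'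
      by_contra hyne
      rw [Subgroup.mem_bot] at hyne
      have hC := hy y hy1 hyne
      rw [Cfsg.Agent.Lib.Frobenius.mem_conj_iff] at hy2
      apply hg
      rw [← hNM, Subgroup.mem_normalizer_iff]
      have hconj : ∀ m ∈ M, g * m * g⁻¹ ∈ M := by
        intro m hm
        rw [← hC, mem_Cn]
        have h1 : m * (g⁻¹ * y * g) = (g⁻¹ * y * g) * m := hab m hm _ hy2
        calc g * m * g⁻¹ * y = g * (m * (g⁻¹ * y * g)) * g⁻¹ := by group
          _ = g * ((g⁻¹ * y * g) * m) * g⁻¹ := by rw [h1]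
          _ = y * (g * m * g⁻¹) := by group
      intro m
      refine ⟨hconj m, ?_⟩
      intro hm
      let f : M → M := fun m => ⟨g * m * g⁻¹, hconj m m.2⟩
      have hfi : Function.Injective f := by
        intro a b hab'
        have h1 : g * (a : G) * g⁻¹ = g * (b : G) * g⁻¹ := congrArg Subtype.val hab'
        apply Subtype.ext
        simpa using h1
      have hfs := Finite.injective_iff_surjective.mp hfi
      obtain ⟨m', hm'⟩ := hfs ⟨g * m * g⁻¹, hm⟩
      have h1 : g * (m' : G) * g⁻¹ = g * m * g⁻¹ := congrArg Subtype.val hm'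
      have h2 : (m' : G) = m := by simpa using h1
      rw [← h2]
      exact m'.2
  obtain ⟨N, -, hNn, hNc⟩ := Cfsg.Agent.Lib.FrobeniusThm.exists_kernel_subgroup hF
  have hfpf : ∀ c ∈ M, c ≠ 1 → ∀ k ∈ N, c * k = k * c → k = 1 := by
    intro c hc hc1 k hk hck
    have h1 : k ∈ Cn c := mem_Cn.mpr hck.symm
    rw [hy c hc hc1] at h1
    have h2 : k ∈ N ⊓ M := Subgroup.mem_inf.mpr ⟨hk, h1⟩
    rw [hNc.disjoint.eq_bot] at h2
    exact Subgroup.mem_bot.mp h2
  have hMs : Group.IsSolvable M := Group.isSolvable_of_comm (by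
    intro a b
    exact Subtype.ext (hab a a.2 b b.2))
  exact solvable_of_complement M N hMco hMs hNc (coprime_of_fpf M N hfpf)

/-- The remaining case: all centralizers are nonabelian of prime exponent. -/
structure CaseB (G : Type*) [Group G] : Prop where
  coat : ∀ g : G, g ≠ 1 → IsCoatom (Cn g)
  norm : ∀ x : G, x ≠ 1 → Subgroup.normalizer (Cn x : Set G) = Cn x
  prime : ∀ x : G, x ≠ 1 → (orderOf x).Prime
  order : ∀ x z : G, x ≠ 1 → z ≠ 1 → z * x = x * z → orderOf z = orderOf x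

theorem order_of_mem_pgroup (hB : CaseB G) (W : Subgroup G) {q : ℕ} (hq : q.Prime) (hW : IsPGroup q W)
    {t : G} (ht : t ∈ W) (ht1 : t ≠ 1) : orderOf t = q := by
  obtain ⟨k, hk⟩ := hW ⟨t, ht⟩
  have h1 : t ^ q ^ k = 1 := congrArg Subtype.val hk
  have h2 : orderOf t ∣ q ^ k := orderOf_dvd_of_pow_eq_one h1
  have h3 := hB.prime t ht1
  exact (Nat.prime_dvd_prime_iff_eq h3 hq).mp (h3.dvd_of_dvd_pow h2)

theorem mem_Cn_of_conj_mem_zpowers (hB : CaseB G) {y g : G} (hy : y ≠ 1)
    (hg : g * y * g⁻¹ ∈ Subgroup.zpowers y) : g ∈ Cn y := by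
  have hy' : g * y * g⁻¹ ≠ 1 := by
    intro e
    apply hy
    have h1 : y = g⁻¹ * (g * y * g⁻¹) * g := by group
    rw [h1, e]
    group
  have hle : Cn y ≤ Cn (g * y * g⁻¹) := by
    intro c hc
    obtain ⟨k, hk⟩ := hg
    have h1 : Commute c y := mem_Cn.mp hc
    have h2 : Commute c (y ^ k) := h1.zpow_right k
    rw [mem_Cn, ← hk]
    exact h2
  have heq := Cn_eq_of_le hB.coat hy hy' hle
  have hn : g ∈ Subgroup.normalizer (Cn y : Set G) := by
    rw [Subgroup.mem_normalizer_iff]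
    intro h
    have e : (g * h * g⁻¹) * (g * y * g⁻¹) = g * (h * y) * g⁻¹ := by group
    have e2 : (g * y * g⁻¹) * (g * h * g⁻¹) = g * (y * h) * g⁻¹ := by group
    constructor
    · intro hh
      have h1 : g * h * g⁻¹ ∈ Cn (g * y * g⁻¹) := by
        rw [mem_Cn, e, e2, mem_Cn.mp hh]
      rwa [← heq] at h1
    · intro hh
      rw [heq, mem_Cn, e, e2] at hh
      have h1 : h * y = y * h := by simpa using hh
      exact mem_Cn.mpr h1
  rwa [hB.norm y hy] at hn

theorem pow_eq_one_of_pair (V : Subgroup G) (hVc : ∀ x ∈ V, ∀ y ∈ V, x * y = y * x) (a b : G)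
    (ha : a ∈ Subgroup.normalizer (V : Set G)) (hb : b ∈ Subgroup.normalizer (V : Set G))
    (hab : Commute a b) {t : ℕ} (ht : t.Prime) (hat : a ^ t = 1) (hbt : b ^ t = 1)
    (hbo : orderOf b = t)
    (hfb : ∀ w ∈ V, b * w = w * b → w = 1)
    (hfc : ∀ y ∈ Subgroup.zpowers b, ∀ w ∈ V, (a * y) * w = w * (a * y) → w = 1)
    {v : G} (hv : v ∈ V) : v ^ t = 1 := by
  let W : Subgroup G := Subgroup.normalizer (V : Set G)
  let V₁ : Subgroup W := V.subgroupOf W
  haveI hV₁ : V₁.Normal := Subgroup.normal_in_normalizer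
  let ρ : W →* MulAut V₁ := MulAut.conjNormal
  let a' : W := ⟨a, ha⟩
  let b' : W := ⟨b, hb⟩
  have hcomm : ∀ x y : V₁, x * y = y * x := by
    intro x y
    apply Subtype.ext
    apply Subtype.ext
    exact hVc _ x.2 _ y.2
  have hab' : Commute a' b' := by
    apply Subtype.ext
    exact hab
  have hρ : ∀ (c : W) (w : V₁), ρ c w = w → ((c : W) : G) * ((w : W) : G) = ((w : W) : G) * (c : G) := by
    intro c w hw
    have h1 : (c : W) * (w : W) * (c : W)⁻¹ = w := by
      have := congrArg Subtype.val hw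
      rwa [MulAut.conjNormal_apply] at this
    have h2 : ((c : W) : G) * ((w : W) : G) * ((c : W) : G)⁻¹ = ((w : W) : G) := congrArg Subtype.val h1
    calc ((c : W) : G) * ((w : W) : G) = (((c : W) : G) * ((w : W) : G) * ((c : W) : G)⁻¹) * (c : G) := by group
      _ = _ := by rw [h2]
  have key := Cfsg.Agent.Lib.FrobAction.pow_card_eq_one_of_commuting_pair (G := W) (V := V₁) hcomm ρ
    a' b' hab' t ht (Subtype.ext hat) (Subtype.ext hbt)
    (by
      intro w hw
      have h1 := hρ b' w hw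
      have h2 := hfb _ w.2 h1
      apply Subtype.ext
      apply Subtype.ext
      exact h2)
    (by
      intro y hy w hw
      have h1 := hρ (a' * y) w hw
      have hy' : (y : G) ∈ Subgroup.zpowers b := by
        obtain ⟨k, hk⟩ := hy
        refine ⟨k, ?_⟩
        rw [← hk]
        simp [b']
      have h2 := hfc _ hy' _ w.2 h1
      apply Subtype.ext
      apply Subtype.ext
      exact h2)
    ⟨⟨v, Subgroup.le_normalizer hv⟩, hv⟩
  have hcard : Nat.card (Subgroup.zpowers b') = t := by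
    rw [Nat.card_zpowers, Subgroup.orderOf_mk, hbo]
  rw [hcard] at key
  have := congrArg (fun x : V₁ => ((x : W) : G)) key
  simpa using this

theorem frobHyp_normalizer (hB : CaseB G) {p r : ℕ} (hp : p.Prime) (hr : r.Prime) (hrp : r ≠ p)
    (U : Subgroup G) (hU : IsPGroup p U) (hUne : U ≠ ⊥) :
    FrobHyp r (Subgroup.normalizer (U : Set G)) := by
  classical
  set H := Subgroup.normalizer (U : Set G) with hH
  intro Q hQ g hg hco
  by_cases hg1 : g = 1
  · rw [hg1]; exact one_mem _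
  by_cases hQ1 : Q = ⊥
  · rw [Subgroup.mem_centralizer_iff]
    intro h hh
    have h1 : h = 1 := by
      rw [hQ1] at hh
      exact Subgroup.mem_bot.mp hh
    rw [h1, one_mul, mul_one]
  exfalso
  haveI : Fact r.Prime := ⟨hr⟩
  haveI : Fact p.Prime := ⟨hp⟩
  haveI : Nontrivial Q := (Subgroup.nontrivial_iff_ne_bot Q).mpr hQ1
  haveI := hQ.center_nontrivial
  obtain ⟨a₀, ha₀⟩ := exists_ne (1 : Subgroup.center Q)
  set a : H := ((a₀ : Q) : H) with haH
  have haQ : a ∈ Q := (a₀ : Q).2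
  have ha1 : a ≠ 1 := by
    intro e
    apply ha₀
    apply Subtype.ext
    apply Subtype.ext
    exact e
  have hacen : ∀ c ∈ Q, c * a = a * c := by
    intro c hc
    have h1 := Subgroup.mem_center_iff.mp a₀.2 ⟨c, hc⟩
    exact congrArg Subtype.val h1
  set b : H := g * a * g⁻¹ with hb
  have hbQ : b ∈ Q := (Subgroup.mem_normalizer_iff.mp hg a).mp haQ
  have hb1 : b ≠ 1 := by
    intro e
    apply ha1
    have h1 : a = g⁻¹ * b * g := by rw [hb]; group
    rw [h1, e]
    group
  have hbcen : ∀ c ∈ Q, c * b = b * c := by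
    intro c hc
    have h1 : g⁻¹ * c * g ∈ Q := by
      have h2 := (Subgroup.mem_normalizer_iff.mp hg (g⁻¹ * c * g))
      apply h2.mpr
      have e : g * (g⁻¹ * c * g) * g⁻¹ = c := by group
      rwa [e]
    have h3 := hacen _ h1
    calc c * b = g * ((g⁻¹ * c * g) * a) * g⁻¹ := by rw [hb]; group
      _ = g * (a * (g⁻¹ * c * g)) * g⁻¹ := by rw [h3]
      _ = b * c := by rw [hb]; group
  -- move to G
  set Q' : Subgroup G := Q.map H.subtype with hQ'
  have hQ'p : IsPGroup r Q' := hQ.map H.subtype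
  have hmemQ' : ∀ c ∈ Q, (c : G) ∈ Q' := fun c hc => ⟨c, hc, rfl⟩
  have haG1 : (a : G) ≠ 1 := fun e => ha1 (Subtype.ext e)
  have hbG1 : (b : G) ≠ 1 := fun e => hb1 (Subtype.ext e)
  have hgG1 : (g : G) ≠ 1 := fun e => hg1 (Subtype.ext e)
  have hoa : orderOf (a : G) = r := order_of_mem_pgroup hB Q' hr hQ'p (hmemQ' a haQ) haG1
  have hob : orderOf (b : G) = r := order_of_mem_pgroup hB Q' hr hQ'p (hmemQ' b hbQ) hbG1
  have hab : Commute (a : G) (b : G) := by
    have h1 := hacen b hbQ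
    have h2 : (b : G) * (a : G) = (a : G) * (b : G) := congrArg Subtype.val h1
    exact h2.symm
  -- the group V
  haveI : Nontrivial U := (Subgroup.nontrivial_iff_ne_bot U).mpr hUne
  haveI := hU.center_nontrivial
  obtain ⟨v₀, hv₀⟩ := exists_ne (1 : Subgroup.center U)
  set V : Subgroup G := U ⊓ Subgroup.centralizer (U : Set G) with hV
  have hVU : V ≤ U := inf_le_left
  set v : G := ((v₀ : U) : G) with hv
  have hvV : v ∈ V := by
    refine Subgroup.mem_inf.mpr ⟨(v₀ : U).2, ?_⟩
    rw [Subgroup.mem_centralizer_iff]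
    intro u hu
    have h1 := Subgroup.mem_center_iff.mp v₀.2 ⟨u, hu⟩
    exact congrArg Subtype.val h1
  have hv1 : v ≠ 1 := by
    intro e
    apply hv₀
    apply Subtype.ext
    apply Subtype.ext
    exact e
  have hVc : ∀ x ∈ V, ∀ y ∈ V, x * y = y * x := by
    intro x hx y hy
    have h1 := (Subgroup.mem_inf.mp hx).2
    rw [Subgroup.mem_centralizer_iff] at h1
    exact (h1 y (Subgroup.mem_inf.mp hy).1).symm
  have hVorder : ∀ w ∈ V, w ≠ 1 → orderOf w = p := fun w hw hw1 =>
    order_of_mem_pgroup hB U hp hU (hVU hw) hw1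
  have hconjV : ∀ t ∈ H, ∀ x ∈ V, t * x * t⁻¹ ∈ V := by
    intro t ht x hx
    obtain ⟨hx1, hx2⟩ := Subgroup.mem_inf.mp hx
    rw [Subgroup.mem_centralizer_iff] at hx2
    refine Subgroup.mem_inf.mpr ⟨(Subgroup.mem_normalizer_iff.mp ht x).mp hx1, ?_⟩
    rw [Subgroup.mem_centralizer_iff]
    intro u hu
    have h1 : t⁻¹ * u * t ∈ U := by
      apply (Subgroup.mem_normalizer_iff.mp ht _).mpr
      have e : t * (t⁻¹ * u * t) * t⁻¹ = u := by group
      rwa [e]
    have h2 := hx2 _ h1
    calc u * (t * x * t⁻¹) = t * ((t⁻¹ * u * t) * x) * t⁻¹ := by group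
      _ = t * (x * (t⁻¹ * u * t)) * t⁻¹ := by rw [h2]
      _ = (t * x * t⁻¹) * u := by group
  have hNV : ∀ t ∈ H, t ∈ Subgroup.normalizer (V : Set G) := by
    intro t ht
    rw [Subgroup.mem_normalizer_iff]
    intro x
    refine ⟨hconjV t ht x, ?_⟩
    intro hx
    have := hconjV t⁻¹ (inv_mem ht) _ hx
    have e : t⁻¹ * (t * x * t⁻¹) * t⁻¹⁻¹ = x := by group
    rwa [e] at this
  by_cases hbz : (b : G) ∈ Subgroup.zpowers (a : G)
  · have h1 : (g : G) ∈ Cn (a : G) := mem_Cn_of_conj_mem_zpowers hB haG1 hbz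
    have h2 := hB.order (a : G) (g : G) haG1 hgG1 (mem_Cn.mp h1)
    rw [hoa, ← Subgroup.orderOf_coe] at *
    rw [h2] at hco
    rw [Nat.coprime_self] at hco
    exact hr.one_lt.ne' hco
  · have hvr : v ^ r = 1 := by
      refine pow_eq_one_of_pair V hVc (a : G) (b : G) (hNV _ a.2) (hNV _ b.2) hab hr
        (by rw [← hoa]; exact pow_orderOf_eq_one _) (by rw [← hob]; exact pow_orderOf_eq_one _)
        hob ?_ ?_ hvV
      · intro w hw hbw
        by_contra hw1
        have h1 := hB.order w (b : G) hw1 hbG1 hbw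
        rw [hob, hVorder w hw hw1] at h1
        exact hrp h1
      · intro y hy w hw hyw
        by_contra hw1
        have hyQ : y ∈ Q' := by
          have : Subgroup.zpowers (b : G) ≤ Q' := by
            rw [Subgroup.zpowers_le]; exact hmemQ' b hbQ
          exact this hy
        have htQ : (a : G) * y ∈ Q' := mul_mem (hmemQ' a haQ) hyQ
        have ht1 : (a : G) * y ≠ 1 := by
          intro e
          apply hbz
          have h1 : (a : G) = y⁻¹ := eq_inv_of_mul_eq_one_left e
          have h2 : (a : G) ∈ Subgroup.zpowers (b : G) := by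
            rw [h1]; exact inv_mem hy
          have h3 : Subgroup.zpowers (a : G) ≤ Subgroup.zpowers (b : G) := by
            rw [Subgroup.zpowers_le]; exact h2
          have h4 := Subgroup.eq_of_le_of_card_ge h3 (by
            rw [Nat.card_zpowers, Nat.card_zpowers, hoa, hob])
          rw [h4]
          exact Subgroup.mem_zpowers _
        have h5 := order_of_mem_pgroup hB Q' hr hQ'p htQ ht1
        have h6 := hB.order w _ hw1 ht1 hyw
        rw [h5, hVorder w hw hw1] at h6
        exact hrp h6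
    have h1 : orderOf v ∣ r := orderOf_dvd_of_pow_eq_one hvr
    rw [hVorder v hvV hv1] at h1
    exact hrp ((Nat.prime_dvd_prime_iff_eq hp hr).mp h1).symm

theorem exists_normal_pgroup {H : Type*} [Group H] [Finite H] {p : ℕ} [hp : Fact p.Prime]
    (hF : ∀ r : ℕ, r.Prime → r ≠ p → FrobHyp r H) :
    ∃ L : Subgroup H, L.Normal ∧ IsPGroup p L ∧ ∀ x : H, ∀ k : ℕ, x ^ (p ^ k) = 1 → x ∈ L := by
  classical
  have hex : ∀ r (hr : r.Prime) (hrp : r ≠ p), ∃ N : Subgroup H, N.Normal ∧ (Nat.card N).Coprime r ∧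
      ∃ k : ℕ, N.index = r ^ k := by
    intro r hr hrp
    haveI : Fact r.Prime := ⟨hr⟩
    exact Cfsg.Agent.Lib.FrobNPC.exists_normal_complement (hF r hr hrp)
  choose K hKn hKc hKi using hex
  let L : Subgroup H := ⨅ (r : ℕ) (hr : r.Prime) (hrp : r ≠ p), K r hr hrp
  have hmemL : ∀ x, x ∈ L ↔ ∀ (r : ℕ) (hr : r.Prime) (hrp : r ≠ p), x ∈ K r hr hrp := by
    intro x
    simp only [L, Subgroup.mem_iInf]
  refine ⟨L, ?_, ?_, ?_⟩
  · constructor
    intro n hn g
    rw [hmemL] at hn ⊢
    intro r hr hrp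
    exact (hKn r hr hrp).conj_mem _ (hn r hr hrp) g
  · rw [IsPGroup.iff_card]
    refine ⟨_, Nat.eq_prime_pow_of_unique_prime_dvd Nat.card_pos.ne' ?_⟩
    intro d hd hdL
    by_contra hdp
    have hle : L ≤ K d hd hdp := by
      intro x hx
      exact (hmemL x).mp hx d hd hdp
    have h1 : d ∣ Nat.card (K d hd hdp) := hdL.trans (Subgroup.card_dvd_of_le hle)
    have h2 := Nat.Coprime.eq_one_of_dvd ((hKc d hd hdp).symm) h1
    exact hd.one_lt.ne' h2
  · intro x k hx
    rw [hmemL]
    intro r hr hrp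
    haveI : Fact r.Prime := ⟨hr⟩
    haveI := hKn r hr hrp
    obtain ⟨j, hj⟩ := hKi r hr hrp
    refine Cfsg.Agent.Lib.FrobNPC.mem_of_coprime_of_index hj ?_
    have h1 : orderOf x ∣ p ^ k := orderOf_dvd_of_pow_eq_one hx
    have h2 : (p ^ k).Coprime r := Nat.Coprime.pow_left k
      ((Nat.coprime_primes hp.out hr).mpr (Ne.symm hrp))
    exact Nat.Coprime.coprime_dvd_left h1 h2

theorem sylow_eq_Cn (hB : CaseB G) {p : ℕ} [hp : Fact p.Prime] (P : Sylow p G)
    (hP : (P : Subgroup G) ≠ ⊥) : ∃ z : G, z ≠ 1 ∧ (P : Subgroup G) = Cn z := by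
  haveI : Nontrivial (P : Subgroup G) := (Subgroup.nontrivial_iff_ne_bot _).mpr hP
  haveI := P.isPGroup'.center_nontrivial
  obtain ⟨z₀, hz₀⟩ := exists_ne (1 : Subgroup.center (P : Subgroup G))
  set z : G := (((z₀ : (P : Subgroup G)) : G)) with hz
  have hzP : z ∈ (P : Subgroup G) := (z₀ : (P : Subgroup G)).2
  have hz1 : z ≠ 1 := by
    intro e
    apply hz₀
    apply Subtype.ext
    apply Subtype.ext
    exact e
  refine ⟨z, hz1, ?_⟩
  have hoz : orderOf z = p := order_of_mem_pgroup hB P hp.out P.isPGroup' hzP hz1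
  have hle : (P : Subgroup G) ≤ Cn z := by
    intro c hc
    have h1 := Subgroup.mem_center_iff.mp z₀.2 ⟨c, hc⟩
    rw [mem_Cn]
    exact congrArg Subtype.val h1
  have hCp : IsPGroup p (Cn z) := by
    intro c
    by_cases hc1 : (c : G) = 1
    · refine ⟨0, ?_⟩
      apply Subtype.ext
      simp [hc1]
    · have h1 := hB.order z c hz1 hc1 (mem_Cn.mp c.2)
      refine ⟨1, ?_⟩
      apply Subtype.ext
      simp only [pow_one, Subgroup.coe_pow, Subgroup.coe_one]
      rw [← hoz, ← h1]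
      exact pow_orderOf_eq_one _
  exact (P.is_maximal' hCp hle).symm

theorem frobHyp_G (hB : CaseB G) {p : ℕ} [hp : Fact p.Prime] : FrobHyp p G := by
  classical
  by_contra hcon
  have hcon' : ∃ Q : Subgroup G, IsPGroup p Q ∧ ∃ g ∈ Subgroup.normalizer (Q : Set G),
      (orderOf g).Coprime p ∧ g ∉ Subgroup.centralizer (Q : Set G) := by
    unfold FrobHyp at hcon
    push Not at hcon
    exact hcon
  obtain ⟨Q, hQ, g, hgN, hgco, hgC⟩ := hcon'
  let F : Set (Subgroup G) := {U | U ≠ ⊥ ∧ IsPGroup p U ∧ ∃ g : G, g ≠ 1 ∧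
    g ∈ Subgroup.normalizer (U : Set G) ∧ (orderOf g).Coprime p}
  have hQF : Q ∈ F := by
    refine ⟨?_, hQ, g, ?_, hgN, hgco⟩
    · rintro rfl
      apply hgC
      rw [Subgroup.mem_centralizer_iff]
      intro h hh
      have h1 : h = 1 := Subgroup.mem_bot.mp hh
      rw [h1, one_mul, mul_one]
    · rintro rfl
      exact hgC (one_mem _)
  obtain ⟨U, hU⟩ := F.toFinite.exists_maximal ⟨Q, hQF⟩
  obtain ⟨hUne, hUp, g₀, hg₀1, hg₀N, hg₀co⟩ := hU.1
  set H := Subgroup.normalizer (U : Set G) with hH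
  obtain ⟨L, hLn, hLp, hLmem⟩ := exists_normal_pgroup (H := H) (p := p)
    (fun r hr hrp => frobHyp_normalizer hB hp.out hr hrp U hUp hUne)
  set R' : Subgroup G := L.map H.subtype with hR'
  have hR'p : IsPGroup p R' := hLp.map H.subtype
  have hmemR : ∀ t ∈ H, ∀ k : ℕ, t ^ (p ^ k) = 1 → t ∈ R' := by
    intro t ht k hk
    refine ⟨⟨t, ht⟩, hLmem _ k (Subtype.ext hk), rfl⟩
  have hUR : U ≤ R' := by
    intro u hu
    obtain ⟨k, hk⟩ := hUp ⟨u, hu⟩
    exact hmemR u (Subgroup.le_normalizer hu) k (congrArg Subtype.val hk)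
  have hR'ne : R' ≠ ⊥ := by
    intro e
    apply hUne
    rw [eq_bot_iff, ← e]
    exact hUR
  have hg₀R : g₀ ∈ Subgroup.normalizer (R' : Set G) := by
    rw [Subgroup.mem_normalizer_iff]
    intro x
    constructor
    · rintro ⟨l, hl, rfl⟩
      exact ⟨⟨g₀, hg₀N⟩ * l * ⟨g₀, hg₀N⟩⁻¹, hLn.conj_mem l hl _, rfl⟩
    · rintro ⟨l, hl, hlx⟩
      have h1 := hLn.conj_mem l hl (⟨g₀, hg₀N⟩⁻¹ : H)
      refine ⟨_, h1, ?_⟩
      have hlx' : (l : G) = g₀ * x * g₀⁻¹ := hlx
      simp only [Subgroup.coe_subtype, Subgroup.coe_mul, Subgroup.coe_inv, inv_inv]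
      rw [hlx']
      group
  have hR'F : R' ∈ F := ⟨hR'ne, hR'p, g₀, hg₀1, hg₀R, hg₀co⟩
  have hRU : R' ≤ U := hU.2 hR'F hUR
  obtain ⟨P₀, hP₀⟩ := hUp.exists_le_sylow
  have hUneP : U ≠ (P₀ : Subgroup G) := by
    intro e
    have hP₀ne : (P₀ : Subgroup G) ≠ ⊥ := e ▸ hUne
    obtain ⟨z, hz1, hPz⟩ := sylow_eq_Cn hB P₀ hP₀ne
    have h1 : g₀ ∈ (P₀ : Subgroup G) := by
      rw [← e] at hPz
      have h2 := hB.norm z hz1
      rw [← hPz] at h2
      rw [← e, ← h2]
      exact hg₀N
    obtain ⟨k, hk⟩ := P₀.isPGroup' ⟨g₀, h1⟩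
    have h3 : g₀ ^ p ^ k = 1 := congrArg Subtype.val hk
    have h4 : orderOf g₀ ∣ p ^ k := orderOf_dvd_of_pow_eq_one h3
    have h5 := Nat.Coprime.coprime_dvd_left h4 (Nat.Coprime.pow_left k (Nat.Coprime.symm hg₀co))
    have h6 : orderOf g₀ = 1 := by
      simpa using h5
    exact hg₀1 (orderOf_eq_one_iff.mp h6)
  obtain ⟨t, htP, htU, htN⟩ := Cfsg.Agent.Lib.FrobNPC.exists_normalizer_step P₀.isPGroup' hP₀ hUneP
  obtain ⟨k, hk⟩ := P₀.isPGroup' ⟨t, htP⟩
  exact htU (hRU (hmemR t htN k (congrArg Subtype.val hk)))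

theorem caseB_solvable (hB : CaseB G) {x : G} (hx : x ≠ 1) : Group.IsSolvable G := by
  classical
  have hp := hB.prime x hx
  set p := orderOf x with hpdef
  haveI : Fact p.Prime := ⟨hp⟩
  obtain ⟨K, hKn, hKc, k, hKi⟩ := Cfsg.Agent.Lib.FrobNPC.exists_normal_complement (frobHyp_G hB (p := p))
  obtain ⟨P⟩ : Nonempty (Sylow p G) := inferInstance
  have hpdvd : p ∣ Nat.card G := orderOf_dvd_natCard x
  have hPne : (P : Subgroup G) ≠ ⊥ := P.ne_bot_of_dvd_card hpdvd
  obtain ⟨z, hz1, hPz⟩ := sylow_eq_Cn hB P hPne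
  have hPco : IsCoatom (P : Subgroup G) := hPz ▸ hB.coat z hz1
  have hcardG : Nat.card G = p ^ k * Nat.card K := by
    rw [← hKi, mul_comm]
    exact (K.card_mul_index).symm
  have hnd : ¬ p ∣ Nat.card K := by
    intro h
    have := Nat.Coprime.eq_one_of_dvd hKc.symm h
    exact hp.one_lt.ne' this
  have hcP := Cfsg.Agent.Lib.SmallGroups2.sylow_card_of_card_eq hcardG hnd P
  have hco : (Nat.card (P : Subgroup G)).Coprime (Nat.card K) := by
    rw [hcP]
    exact Nat.Coprime.pow_left k hKc.symm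
  have hcompl : Subgroup.IsComplement' K (P : Subgroup G) :=
    Subgroup.isComplement'_of_coprime (by rw [hcP, mul_comm, ← hcardG]) hco.symm
  have hPs : Group.IsSolvable (P : Subgroup G) := by
    haveI := P.isPGroup'.isNilpotent
    infer_instance
  exact solvable_of_complement P K hPco hPs hcompl hco

theorem solvable_of_center_trivial (h : ∀ g : G, g ≠ 1 → IsCoatom (Cn g)) :
    Group.IsSolvable G := by
  classical
  by_cases htriv : ∃ x : G, x ≠ 1
  swap
  · push Not at htriv
    have : Subsingleton G := ⟨fun a b => (htriv a).trans (htriv b).symm⟩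
    infer_instance
  obtain ⟨x₀, hx₀⟩ := htriv
  by_cases hnorm : ∃ x : G, x ≠ 1 ∧ (Cn x).Normal
  · obtain ⟨x, hx, hn⟩ := hnorm
    have hs : Group.IsSolvable (Cn x) := by
      rcases dichotomy h x hx with hab | ⟨hp, hord⟩
      · exact Group.isSolvable_of_comm (by
          intro a b
          exact Subtype.ext (hab a a.2 b b.2))
      · haveI : Fact (orderOf x).Prime := ⟨hp⟩
        have hpg : IsPGroup (orderOf x) (Cn x) := by
          intro c
          by_cases hc1 : (c : G) = 1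
          · refine ⟨0, ?_⟩
            apply Subtype.ext
            simp [hc1]
          · refine ⟨1, ?_⟩
            apply Subtype.ext
            simp only [pow_one, Subgroup.coe_pow, Subgroup.coe_one]
            rw [← hord c c.2 hc1]
            exact pow_orderOf_eq_one _
        haveI := hpg.isNilpotent
        infer_instance
    exact solvable_of_normal_coatom (Cn x) (h x hx) hs
  push Not at hnorm
  by_cases habs : ∃ x : G, x ≠ 1 ∧ ∀ a ∈ Cn x, ∀ b ∈ Cn x, a * b = b * a
  · obtain ⟨x, hx, hab⟩ := habs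
    exact frob_case h hx hab (hnorm x hx)
  have hd : ∀ x : G, x ≠ 1 → ((orderOf x).Prime ∧ ∀ z ∈ Cn x, z ≠ 1 → orderOf z = orderOf x) := by
    intro x hx
    refine (dichotomy h x hx).resolve_left ?_
    intro hab
    exact habs ⟨x, hx, hab⟩
  refine caseB_solvable ⟨h, ?_, fun x hx => (hd x hx).1, ?_⟩ hx₀
  · intro x hx
    rcases ((h x hx).le_iff).mp (Subgroup.le_normalizer (H := Cn x)) with h1 | h1
    · exact absurd (Subgroup.normalizer_eq_top_iff.mp h1) (hnorm x hx)
    · exact h1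
  · intro x z hx hz hzx
    exact (hd x hx).2 z (mem_Cn.mpr hzx) hz

end Core

theorem aux (n : ℕ) : ∀ (G : Type u) [Group G] [Finite G], Nat.card G = n →
    (∀ g : G, g ∉ Subgroup.center G → IsCoatom (Cn g)) → Group.IsSolvable G := by
  induction n using Nat.strong_induction_on with
  | _ n ih =>
    intro G _ _ hn h
    by_cases hZ : Subgroup.center G = ⊥
    · apply solvable_of_center_trivial
      intro g hg
      apply h
      rw [hZ]
      simpa using hg
    · have hlt : Nat.card (G ⧸ Subgroup.center G) < n := by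
        have h1 := Subgroup.card_eq_card_quotient_mul_card_subgroup (Subgroup.center G)
        have h2 : 1 < Nat.card (Subgroup.center G) := by
          have h3 : Nat.card (Subgroup.center G) ≠ 1 := fun e =>
            hZ (Subgroup.eq_bot_of_card_eq _ e)
          have h4 : 0 < Nat.card (Subgroup.center G) := Nat.card_pos
          omega
        have h5 : 0 < Nat.card (G ⧸ Subgroup.center G) := Nat.card_pos
        rw [← hn, h1]
        nlinarith
      have hQ := ih _ hlt (G ⧸ Subgroup.center G) rfl (quot_prop h _)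
      haveI : Group.IsSolvable (Subgroup.center G) := Group.isSolvable_of_comm (by
        intro a b
        exact Subtype.ext (Subgroup.mem_center_iff.mp b.2 a))
      refine Group.isSolvable_of_ker_le_range (Subgroup.center G).subtype
        (QuotientGroup.mk' (Subgroup.center G)) ?_
      intro y hy
      have : y ∈ Subgroup.center G := (QuotientGroup.eq_one_iff y).mp hy
      exact ⟨⟨y, this⟩, rfl⟩

/-- Let G be a finite group in which the centralizer of every non-central element is a maximal subgroup of G. Then G is solvable. -/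
theorem result {G : Type*} [Group G] [Finite G]
    (h : ∀ g : G, g ∉ Subgroup.center G → IsCoatom (Subgroup.centralizer ({g} : Set G))) :
    Group.IsSolvable G :=
  aux _ G rfl h

end Cfsg.Agent.S4262
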