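import Mathlib
import Cfsg.Statements.S4263
import Cfsg.Agent.Lib.PCore

set_option autoImplicit false
open Cfsg

namespace Cfsg.Agent.S4263

open Cfsg.Agent.Lib.PCore

variable {G : Type*} [Group G]

theorem pow_gcd_mem (H : Subgroup G) (y : G) {a b : ℕ} (ha : y ^ a ∈ H) (hb : y ^ b ∈ H) :
    y ^ (Nat.gcd a b) ∈ H := by
  have h : (y : G) ^ ((Nat.gcd a b : ℕ) : ℤ) =
      (y ^ a) ^ (Nat.gcdA a b) * (y ^ b) ^ (Nat.gcdB a b) := by
    rw [Nat.gcd_eq_gcd_ab, zpow_add, zpow_mul, zpow_mul, zpow_natCast, zpow_natCast]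
  rw [← zpow_natCast, h]
  exact H.mul_mem (H.zpow_mem ha _) (H.zpow_mem hb _)

theorem mem_of_forall_prime (H : Subgroup G) (y : G) {m : ℕ} (hm0 : m ≠ 0) (hm : y ^ m = 1)
    (h : ∀ p : ℕ, p.Prime → y ^ (ordCompl[p] m) ∈ H) : y ∈ H := by
  classical
  have hex : ∃ d : ℕ, 0 < d ∧ y ^ d ∈ H :=
    ⟨m, Nat.pos_of_ne_zero hm0, by rw [hm]; exact H.one_mem⟩
  obtain ⟨hdpos, hdmem⟩ := Nat.find_spec hex
  set d := Nat.find hex with hd
  have hdvd : ∀ k, 0 < k → y ^ k ∈ H → d ∣ k := by
    intro k hk hkm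
    have hg := pow_gcd_mem H y hdmem hkm
    have hgpos : 0 < Nat.gcd d k := Nat.gcd_pos_of_pos_left _ hdpos
    have h1 : d ≤ Nat.gcd d k := Nat.find_min' hex ⟨hgpos, hg⟩
    have hle : Nat.gcd d k ≤ d := Nat.gcd_le_left _ hdpos
    have h2 : Nat.gcd d k = d := le_antisymm hle h1
    exact h2 ▸ Nat.gcd_dvd_right d k
  by_cases hd1 : d = 1
  · rw [hd1, pow_one] at hdmem; exact hdmem
  · exfalso
    obtain ⟨p, hp, hpd⟩ := Nat.exists_prime_and_dvd hd1
    have h1 := hdvd _ (Nat.ordCompl_pos p hm0) (h p hp)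
    exact Nat.not_dvd_ordCompl hp hm0 (hpd.trans h1)

theorem mem_fitting_of_forall [Finite G] (x : G) (h : ∀ H : Subgroup G, x ^ H.index ∈ H) :
    x ∈ fittingSubgroup G := by
  have hm0 := (orderOf_pos x).ne'
  refine mem_of_forall_prime _ x hm0 (pow_orderOf_eq_one x) ?_
  intro p hp
  have : Fact p.Prime := ⟨hp⟩
  apply pCore_le_fittingSubgroup p
  rw [pCore_eq_iInf_sylow, Subgroup.mem_iInf]
  intro P
  set z := x ^ ordCompl[p] (orderOf x) with hzdef
  have hz : z ^ (ordProj[p] (orderOf x)) = 1 := by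
    rw [hzdef, ← pow_mul, mul_comm, Nat.ordProj_mul_ordCompl_eq_self, pow_orderOf_eq_one]
  have h1 : z ^ (P : Subgroup G).index ∈ (P : Subgroup G) := by
    rw [hzdef, ← pow_mul, mul_comm, pow_mul]
    exact Subgroup.pow_mem _ (h P) _
  have h2 : z ^ (ordProj[p] (orderOf x)) ∈ (P : Subgroup G) := by
    rw [hz]; exact one_mem _
  have h3 := pow_gcd_mem _ z h1 h2
  have hcop : Nat.gcd (P : Subgroup G).index (ordProj[p] (orderOf x)) = 1 := by
    apply Nat.Coprime.pow_right
    exact ((Nat.Prime.coprime_iff_not_dvd hp).mpr P.not_dvd_index).symm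
  rwa [hcop, pow_one] at h3

/-- A `p`-element of the Fitting subgroup lies in the `p`-core. -/
theorem mem_pCore_of_mem_fitting [Finite G] (p : ℕ) [hp : Fact p.Prime] (z : G)
    (hzF : z ∈ fittingSubgroup G) (k : ℕ) (hz : z ^ p ^ k = 1) : z ∈ pCore p G := by
  have hsup := fittingSubgroup_le_sup (G := G) p hzF
  have hM : ∀ b ∈ pPrimeCore p G, ∀ j : ℕ, b ^ p ^ j = 1 → b = 1 := by
    intro b hb j hbj
    have h1 : orderOf b ∣ p ^ j := orderOf_dvd_of_pow_eq_one hbj
    have h2 : orderOf b ∣ Nat.card (pPrimeCore p G) := by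
      have : orderOf (⟨b, hb⟩ : pPrimeCore p G) ∣ Nat.card (pPrimeCore p G) :=
        orderOf_dvd_natCard _
      simpa [Subgroup.orderOf_mk] using this
    have h3 : Nat.Coprime (p ^ j) (Nat.card (pPrimeCore p G)) :=
      Nat.Coprime.pow_left _ (card_pPrimeCore_coprime (G := G) p).symm
    have h4 : orderOf b = 1 := Nat.eq_one_of_dvd_coprimes h3 h1 h2
    exact orderOf_eq_one_iff.mp h4
  have hdis : Disjoint (pCore p G) (pPrimeCore p G) := by
    rw [Subgroup.disjoint_def]
    intro y hy1 hy2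
    obtain ⟨j, hj⟩ := (IsPGroup.iff_orderOf.mp (isPGroup_pCore (G := G) p)) ⟨y, hy1⟩
    have : y ^ p ^ j = 1 := by
      have h5 := pow_orderOf_eq_one (⟨y, hy1⟩ : pCore p G)
      rw [hj] at h5
      simpa using congrArg Subtype.val h5
    exact hM y hy2 j this
  obtain ⟨a, ha, b, hb, rfl⟩ := Subgroup.mem_sup_of_normal_right.mp hsup
  have hcomm : Commute a b := Subgroup.commute_of_normal_of_disjoint _ _ inferInstance inferInstance hdis a b ha hb
  rw [hcomm.mul_pow] at hz
  have hb1 : b ^ p ^ k = (a ^ p ^ k)⁻¹ := eq_inv_of_mul_eq_one_right hz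
  have hb2 : b ^ p ^ k = 1 := by
    have h6 : b ^ p ^ k ∈ pCore p G := by
      rw [hb1]; exact inv_mem (pow_mem ha _)
    exact (Subgroup.disjoint_def.mp hdis) h6 (pow_mem hb _)
  rw [hM b hb k hb2, mul_one]
  exact ha

/-- In a `p`-subgroup `P`, `z ^ [P : U] ∈ U` for `z ∈ P`, `U ≤ P`. -/
theorem pow_relIndex_mem [Finite G] (p : ℕ) [hp : Fact p.Prime] (P U : Subgroup G)
    (hP : IsPGroup p P) (z : G) (hz : z ∈ P) :
    z ^ U.relIndex P ∈ U := by
  have hC : Subgroup.zpowers z ≤ P := by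
    rw [Subgroup.zpowers_le]; exact hz
  have hne : U.relIndex P ≠ 0 := by
    show (U.subgroupOf P).index ≠ 0
    exact Subgroup.index_ne_zero_of_finite
  have hle : U.relIndex (Subgroup.zpowers z) ≤ U.relIndex P :=
    Subgroup.relIndex_le_of_le_right hC hne
  set V := U.subgroupOf (Subgroup.zpowers z) with hV
  have hVn : V.Normal := by
    constructor
    intro n hn g
    have : g * n * g⁻¹ = n := by
      have hcomm : g * n = n * g := mul_comm' g n
      rw [hcomm, mul_inv_cancel_right]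
    rw [this]; exact hn
  have h1 : (⟨z, Subgroup.mem_zpowers z⟩ : Subgroup.zpowers z) ^ V.index ∈ V :=
    Subgroup.pow_index_mem V _
  have h2 : z ^ V.index ∈ U := by
    have := Subgroup.mem_subgroupOf.mp h1
    simpa using this
  have hPz : IsPGroup p (Subgroup.zpowers z) := hP.to_le hC
  obtain ⟨j, hj⟩ := IsPGroup.iff_card.mp hPz
  obtain ⟨j', hj'⟩ := IsPGroup.iff_card.mp hP
  have hVd : V.index ∣ p ^ j := by
    rw [← hj]
    exact Subgroup.relIndex_dvd_card U (Subgroup.zpowers z)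
  have hRd : U.relIndex P ∣ p ^ j' := by
    rw [← hj']
    exact Subgroup.relIndex_dvd_card U P
  obtain ⟨b, -, hb⟩ := (Nat.dvd_prime_pow hp.out).mp hVd
  obtain ⟨a, -, ha⟩ := (Nat.dvd_prime_pow hp.out).mp hRd
  have hle' : p ^ b ≤ p ^ a := by
    rw [← hb, ← ha]; exact hle
  have hba : b ≤ a := (Nat.pow_le_pow_iff_right hp.out.one_lt).mp hle'
  have hdvd : V.index ∣ U.relIndex P := by
    rw [hb, ha]; exact pow_dvd_pow p hba
  obtain ⟨c, hc⟩ := hdvd
  rw [hc, pow_mul]
  exact Subgroup.pow_mem _ h2 _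

theorem pow_index_mem_of_mem_pCore [Finite G] (p : ℕ) [hp : Fact p.Prime] (H : Subgroup G) (z : G)
    (hz : z ∈ pCore p G) : z ^ H.index ∈ H := by
  obtain ⟨P₀⟩ : Nonempty (Sylow p H) := inferInstance
  set U : Subgroup G := (P₀ : Subgroup H).map H.subtype with hU
  have hUp : IsPGroup p U := P₀.isPGroup'.map H.subtype
  obtain ⟨P, hP⟩ := hUp.exists_le_sylow
  have hzP : z ∈ (P : Subgroup G) := pCore_le_sylow p P hz
  have h1 := pow_relIndex_mem p (P : Subgroup G) U P.isPGroup' z hzP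
  have hUH : U ≤ H := Subgroup.map_subtype_le _
  -- arithmetic
  have hcardU : Nat.card U = Nat.card P₀ :=
    Nat.card_congr ((P₀ : Subgroup H).equivMapOfInjective H.subtype H.subtype_injective).toEquiv.symm
  have hcardP : U.relIndex P * Nat.card U = Nat.card (P : Subgroup G) := by
    have h3 : (U.subgroupOf (P : Subgroup G)).index * Nat.card (U.subgroupOf (P : Subgroup G)) =
        Nat.card (P : Subgroup G) := Subgroup.index_mul_card _
    have h4 : Nat.card (U.subgroupOf (P : Subgroup G)) = Nat.card U :=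
      Nat.card_congr (Subgroup.subgroupOfEquivOfLe hP).toEquiv
    rw [h4] at h3
    exact h3
  have hG : H.index * Nat.card H = Nat.card G := Subgroup.index_mul_card H
  have hH : (P₀ : Subgroup H).index * Nat.card P₀ = Nat.card H := Subgroup.index_mul_card _
  have hPG : Nat.card (P : Subgroup G) ∣ Nat.card G := Subgroup.card_subgroup_dvd_card _
  have hUpos : 0 < Nat.card U := Nat.card_pos
  have hdvd : U.relIndex P ∣ H.index * (P₀ : Subgroup H).index := by
    have h5 : U.relIndex P * Nat.card U ∣ (H.index * (P₀ : Subgroup H).index) * Nat.card U := by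
      rw [hcardP, hcardU]
      have : (H.index * (P₀ : Subgroup H).index) * Nat.card P₀ = Nat.card G := by
        rw [mul_assoc, hH, hG]
      rw [this]; exact hPG
    exact Nat.dvd_of_mul_dvd_mul_right hUpos h5
  have hrp : U.relIndex P ∣ Nat.card (P : Subgroup G) := Subgroup.relIndex_dvd_card U _
  obtain ⟨j', hj'⟩ := IsPGroup.iff_card.mp P.isPGroup'
  have hcop : Nat.Coprime (U.relIndex P) (P₀ : Subgroup H).index := by
    have hc1 : Nat.Coprime (p ^ j') (P₀ : Subgroup H).index :=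
      Nat.Coprime.pow_left _ ((Nat.Prime.coprime_iff_not_dvd hp.out).mpr P₀.not_dvd_index)
    rw [hj'] at hrp
    exact Nat.Coprime.coprime_dvd_left hrp hc1
  have hfinal : U.relIndex P ∣ H.index := hcop.dvd_of_dvd_mul_right hdvd
  obtain ⟨c, hc⟩ := hfinal
  rw [hc, pow_mul]
  exact Subgroup.pow_mem _ (hUH h1) _

/-- Let G be a finite group. An element x lies in the Fitting subgroup F(G) if and only if, for every subgroup H of G, the power x^[G : H] lies in H. -/
theorem result {G : Type*} [Group G] [Finite G] (x : G) :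
    x ∈ Cfsg.fittingSubgroup G ↔ ∀ H : Subgroup G, x ^ H.index ∈ H := by
  constructor
  · intro hx H
    have hm0 := (orderOf_pos x).ne'
    refine mem_of_forall_prime H (x ^ H.index) hm0 ?_ ?_
    · rw [← pow_mul, mul_comm, pow_mul, pow_orderOf_eq_one, one_pow]
    · intro p hp
      have : Fact p.Prime := ⟨hp⟩
      set z := x ^ ordCompl[p] (orderOf x) with hzdef
      have hzF : z ∈ fittingSubgroup G := Subgroup.pow_mem _ hx _
      have hz : z ^ p ^ ((orderOf x).factorization p) = 1 := by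
        rw [hzdef, ← pow_mul, mul_comm, Nat.ordProj_mul_ordCompl_eq_self, pow_orderOf_eq_one]
      have hzc := mem_pCore_of_mem_fitting p z hzF _ hz
      have := pow_index_mem_of_mem_pCore p H z hzc
      rw [hzdef, ← pow_mul, mul_comm, pow_mul] at this
      exact this
  · exact mem_fitting_of_forall x

end Cfsg.Agent.S4263
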