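import Mathlib
import Cfsg.Statements.S4269

set_option autoImplicit false
open Cfsg
open scoped commutatorElement

namespace Cfsg.Agent.S4269

variable {G : Type*} [Group G]

theorem mem_conj {H : Subgroup G} {g x : G} :
    x ∈ H.map (MulAut.conj g).toMonoidHom ↔ g⁻¹ * x * g ∈ H := by
  constructor
  · rintro ⟨y, hy, rfl⟩
    simpa [MulAut.conj_apply, mul_assoc] using hy
  · intro h
    exact ⟨_, h, by simp [MulAut.conj_apply, mul_assoc]⟩

theorem map_conj_of_mem {H : Subgroup G} {h : G} (hh : h ∈ H) :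
    H.map (MulAut.conj h).toMonoidHom = H := by
  ext x
  rw [mem_conj]
  constructor
  · intro hx
    have := H.mul_mem (H.mul_mem hh hx) (H.inv_mem hh)
    simpa [mul_assoc] using this
  · intro hx
    exact H.mul_mem (H.mul_mem (H.inv_mem hh) hx) hh

theorem map_conj_of_normalizer {H : Subgroup G} {n : G}
    (hn : n ∈ Subgroup.normalizer (H : Set G)) : H.map (MulAut.conj n).toMonoidHom = H := by
  ext x
  rw [mem_conj]
  rw [Subgroup.mem_normalizer_iff] at hn
  have h1 := hn (n⁻¹ * x * n)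
  have h2 : n * (n⁻¹ * x * n) * n⁻¹ = x := by group
  rw [h2] at h1
  exact h1

theorem mem_normalizer_of_map {H : Subgroup G} {n : G}
    (h : H.map (MulAut.conj n).toMonoidHom = H) : n ∈ Subgroup.normalizer (H : Set G) := by
  rw [Subgroup.mem_normalizer_iff]
  intro x
  constructor
  · intro hx
    rw [← h]
    rw [mem_conj]
    simpa [mul_assoc] using hx
  · intro hx
    rw [← h, mem_conj] at hx
    simpa [mul_assoc] using hx

theorem map_conj_mul (H : Subgroup G) (a b : G) :
    H.map (MulAut.conj (a * b)).toMonoidHom =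
      (H.map (MulAut.conj b).toMonoidHom).map (MulAut.conj a).toMonoidHom := by
  ext x
  rw [mem_conj, mem_conj, mem_conj]
  have : (a * b)⁻¹ * x * (a * b) = b⁻¹ * (a⁻¹ * x * a) * b := by group
  rw [this]

/-- Let G be a finite group, V an abelian normal subgroup and H a subgroup with HV = G. Then H is pronormal in G (H and gHg⁻¹ are conjugate inside the subgroup they generate, for every g) if and only if every H-invariant subgroup U of V satisfies U = N_U(H)·[H, U], that is, U is the join of U ∩ N_G(H) and the commutator subgroup [H, U]. -/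
theorem result {G : Type*} [Group G] [Finite G]
    (V : Subgroup G) [V.Normal] (hV : IsMulCommutative ↥V) (H : Subgroup G) (hHV : H ⊔ V = ⊤) :
    Cfsg.IsPronormal H ↔
      ∀ U : Subgroup G, U ≤ V → (∀ h ∈ H, U.map (MulAut.conj h).toMonoidHom = U) →
        U = (U ⊓ Subgroup.normalizer (H : Set G)) ⊔ ⁅H, U⁆ := by
  have hcomm : ∀ a ∈ V, ∀ b ∈ V, a * b = b * a := by
    intro a ha b hb
    have := hV.is_comm.comm ⟨a, ha⟩ ⟨b, hb⟩
    exact congrArg Subtype.val this
  constructor
  · intro hP U hUV hUinv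
    set C := ⁅H, U⁆ with hCdef
    have hUconj : ∀ h ∈ H, ∀ u ∈ U, h * u * h⁻¹ ∈ U := by
      intro h hh u hu
      rw [← hUinv h hh]
      exact ⟨u, hu, rfl⟩
    have hCU : C ≤ U := by
      rw [hCdef, Subgroup.commutator_le]
      intro h hh u hu
      rw [commutatorElement_def]
      exact U.mul_mem (hUconj h hh u hu) (U.inv_mem hu)
    have hCconj : ∀ h ∈ H, ∀ c ∈ C, h * c * h⁻¹ ∈ C := by
      intro h hh c hc
      have h1 : C.map (MulAut.conj h).toMonoidHom = C := by
        rw [hCdef, Subgroup.map_commutator, map_conj_of_mem hh, hUinv h hh]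
      rw [← h1]
      exact ⟨c, hc, rfl⟩
    let T : Subgroup G :=
      { carrier := {x | ∃ c ∈ C, ∃ h ∈ H, x = c * h}
        one_mem' := ⟨1, C.one_mem, 1, H.one_mem, by simp⟩
        mul_mem' := by
          rintro _ _ ⟨c₁, hc₁, h₁, hh₁, rfl⟩ ⟨c₂, hc₂, h₂, hh₂, rfl⟩
          refine ⟨c₁ * (h₁ * c₂ * h₁⁻¹), C.mul_mem hc₁ (hCconj h₁ hh₁ c₂ hc₂), h₁ * h₂,
            H.mul_mem hh₁ hh₂, by group⟩
        inv_mem' := by
          rintro _ ⟨c, hc, h, hh, rfl⟩
          refine ⟨h⁻¹ * c⁻¹ * h⁻¹⁻¹, hCconj _ (H.inv_mem hh) _ (C.inv_mem hc), h⁻¹, H.inv_mem hh,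
            by group⟩ }
    apply le_antisymm
    · intro u hu
      obtain ⟨x, hx, hxe⟩ := hP u
      have hle : H ⊔ H.map (MulAut.conj u).toMonoidHom ≤ T := by
        apply sup_le
        · intro h hh
          exact ⟨1, C.one_mem, h, hh, by simp⟩
        · rintro _ ⟨k, hk, rfl⟩
          refine ⟨⁅u, k⁆, ?_, k, hk, ?_⟩
          · rw [← inv_mem_iff, commutatorElement_inv]
            exact Subgroup.commutator_mem_commutator hk hu
          · simp [commutatorElement_def, MulAut.conj_apply]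
      obtain ⟨c, hc, h₀, hh₀, rfl⟩ := hle hx
      have h2 : H.map (MulAut.conj u).toMonoidHom = H.map (MulAut.conj c).toMonoidHom := by
        rw [hxe, map_conj_mul, map_conj_of_mem hh₀]
      have h3 : c⁻¹ * u ∈ Subgroup.normalizer (H : Set G) := by
        apply mem_normalizer_of_map
        rw [map_conj_mul, h2, ← map_conj_mul]
        ext y
        rw [mem_conj]
        simp
      have h4 : c⁻¹ * u ∈ U := U.mul_mem (U.inv_mem (hCU hc)) hu
      have h5 : u = c * (c⁻¹ * u) := by group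
      rw [h5]
      exact Subgroup.mul_mem _ (Subgroup.mem_sup_right hc) (Subgroup.mem_sup_left ⟨h4, h3⟩)
    · exact sup_le inf_le_left hCU
  · intro hcrit g
    -- decomposition
    have hg : ∃ v ∈ V, ∃ h ∈ H, g = v * h := by
      have h1 : g ∈ ((V ⊔ H : Subgroup G) : Set G) := by rw [sup_comm, hHV]; trivial
      rw [Subgroup.normal_mul] at h1
      obtain ⟨v, hv, h, hh, rfl⟩ := Set.mem_mul.mp h1
      exact ⟨v, hv, h, hh, rfl⟩
    obtain ⟨v, hv, h, hh, rfl⟩ := hg
    have hmapg : H.map (MulAut.conj (v * h)).toMonoidHom = H.map (MulAut.conj v).toMonoidHom := by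
      rw [map_conj_mul, map_conj_of_mem hh]
    set J := H ⊔ H.map (MulAut.conj (v * h)).toMonoidHom with hJ
    have hHJ : H ≤ J := le_sup_left
    have hvJ : ∀ k ∈ H, v * k * v⁻¹ ∈ J := by
      intro k hk
      apply Subgroup.mem_sup_right
      rw [hmapg]
      exact ⟨k, hk, rfl⟩
    -- the `H`-invariant subgroup generated by `v`
    let U : Subgroup G := Subgroup.closure {x | ∃ a ∈ H, x = a * v * a⁻¹}
    have hUV : U ≤ V := by
      rw [Subgroup.closure_le]
      rintro _ ⟨a, _, rfl⟩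
      exact ‹V.Normal›.conj_mem v hv a
    have hvU : v ∈ U := Subgroup.subset_closure ⟨1, H.one_mem, by simp⟩
    have hUinv : ∀ a ∈ H, U.map (MulAut.conj a).toMonoidHom = U := by
      intro a ha
      have hle : ∀ a ∈ H, U.map (MulAut.conj a).toMonoidHom ≤ U := by
        intro a ha
        rw [Subgroup.map_le_iff_le_comap, Subgroup.closure_le]
        rintro _ ⟨b, hb, rfl⟩
        apply Subgroup.subset_closure
        refine ⟨a * b, H.mul_mem ha hb, ?_⟩
        simp [MulAut.conj_apply, mul_assoc]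
      apply le_antisymm (hle a ha)
      intro x hx
      refine ⟨a⁻¹ * x * a, ?_, by simp [MulAut.conj_apply, mul_assoc]⟩
      have := hle a⁻¹ (H.inv_mem ha) ⟨x, hx, rfl⟩
      simpa [MulAut.conj_apply] using this
    -- `[H, U]` lies in `J`
    have hCJ : ⁅H, U⁆ ≤ J := by
      rw [Subgroup.commutator_le]
      intro a ha u hu
      induction hu using Subgroup.closure_induction with
      | mem x hx =>
        obtain ⟨b, hb, rfl⟩ := hx
        have h1 : ⁅v, b⁻¹ * a * b⁆ ∈ J := by
          rw [commutatorElement_def]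
          have hk : b⁻¹ * a * b ∈ H := H.mul_mem (H.mul_mem (H.inv_mem hb) ha) hb
          exact J.mul_mem (hvJ _ hk) (J.inv_mem (hHJ hk))
        have h2 : ⁅a, b * v * b⁻¹⁆ = b * ⁅v, b⁻¹ * a * b⁆⁻¹ * b⁻¹ := by
          simp only [commutatorElement_def]
          group
        rw [h2]
        exact J.mul_mem (J.mul_mem (hHJ hb) (J.inv_mem h1)) (J.inv_mem (hHJ hb))
      | one => simp
      | mul x y hx hy ihx ihy =>
        have hxV := hUV hx
        have hyV := hUV hy
        have h1 : ⁅a, x * y⁆ = ⁅a, x⁆ * ⁅a, y⁆ := by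
          simp only [commutatorElement_def]
          have hc := hcomm (a * y * a⁻¹ * y⁻¹)
            (V.mul_mem (‹V.Normal›.conj_mem y hyV a) (V.inv_mem hyV)) x⁻¹ (V.inv_mem hxV)
          calc a * (x * y) * a⁻¹ * (x * y)⁻¹ = (a * x * a⁻¹) * ((a * y * a⁻¹ * y⁻¹) * x⁻¹) := by
                group
            _ = (a * x * a⁻¹) * (x⁻¹ * (a * y * a⁻¹ * y⁻¹)) := by rw [hc]
            _ = a * x * a⁻¹ * x⁻¹ * (a * y * a⁻¹ * y⁻¹) := by group
        rw [h1]
        exact J.mul_mem ihx ihy
      | inv x hx ih =>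
        have hxV := hUV hx
        have h1 : ⁅a, x⁻¹⁆ = ⁅a, x⁆⁻¹ := by
          simp only [commutatorElement_def]
          have hc := hcomm (a * x⁻¹ * a⁻¹) (‹V.Normal›.conj_mem _ (V.inv_mem hxV) a) x hxV
          calc a * x⁻¹ * a⁻¹ * x⁻¹⁻¹ = a * x⁻¹ * a⁻¹ * x := by rw [inv_inv]
            _ = x * (a * x⁻¹ * a⁻¹) := hc
            _ = (a * x * a⁻¹ * x⁻¹)⁻¹ := by group
        rw [h1]
        exact J.inv_mem ih
    -- decomposition of `v`
    have hv2 : ∃ n ∈ U ⊓ Subgroup.normalizer (H : Set G), ∃ c ∈ ⁅H, U⁆, v = c * n := by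
      have hCU : ⁅H, U⁆ ≤ U := by
        rw [Subgroup.commutator_le]
        intro a ha u hu
        rw [commutatorElement_def]
        refine U.mul_mem ?_ (U.inv_mem hu)
        rw [← hUinv a ha]
        exact ⟨u, hu, rfl⟩
      let T : Subgroup G :=
        { carrier := {x | ∃ n ∈ U ⊓ Subgroup.normalizer (H : Set G), ∃ c ∈ ⁅H, U⁆, x = c * n}
          one_mem' := ⟨1, Subgroup.one_mem _, 1, Subgroup.one_mem _, by simp⟩
          mul_mem' := by
            rintro _ _ ⟨n₁, hn₁, c₁, hc₁, rfl⟩ ⟨n₂, hn₂, c₂, hc₂, rfl⟩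
            refine ⟨n₁ * n₂, Subgroup.mul_mem _ hn₁ hn₂, c₁ * c₂, Subgroup.mul_mem _ hc₁ hc₂, ?_⟩
            have := hcomm n₁ (hUV hn₁.1) c₂ (hUV (hCU hc₂))
            calc c₁ * n₁ * (c₂ * n₂) = c₁ * (n₁ * c₂) * n₂ := by group
              _ = c₁ * (c₂ * n₁) * n₂ := by rw [this]
              _ = _ := by group
          inv_mem' := by
            rintro _ ⟨n, hn, c, hc, rfl⟩
            refine ⟨n⁻¹, Subgroup.inv_mem _ hn, c⁻¹, Subgroup.inv_mem _ hc, ?_⟩
            rw [mul_inv_rev]
            exact hcomm _ (V.inv_mem (hUV hn.1)) _ (V.inv_mem (hUV (hCU hc))) }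
      have hle : (U ⊓ Subgroup.normalizer (H : Set G)) ⊔ ⁅H, U⁆ ≤ T := by
        apply sup_le
        · intro n hn
          exact ⟨n, hn, 1, Subgroup.one_mem _, by simp⟩
        · intro c hc
          exact ⟨1, Subgroup.one_mem _, c, hc, by simp⟩
      have hvW : v ∈ (U ⊓ Subgroup.normalizer (H : Set G)) ⊔ ⁅H, U⁆ := by
        rw [← hcrit U hUV hUinv]
        exact hvU
      exact hle hvW
    obtain ⟨n, hn, c, hc, hvc⟩ := hv2
    refine ⟨c, hCJ hc, ?_⟩
    rw [hmapg, hvc, map_conj_mul, map_conj_of_normalizer hn.2]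

end Cfsg.Agent.S4269
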