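import Cfsg.Statements.S4330
import Cfsg.Agent.H28.VecD
import Cfsg.Agent.Lib.PCore
import Cfsg.Agent.Lib.BGFit2

set_option autoImplicit false
set_option linter.style.haveILetI false
open Pointwise
open Cfsg

namespace Cfsg.Agent.S4330

open Cfsg.Agent.Lib.PCore Cfsg.Agent.Lib.BGFit2 Subgroup
open scoped commutatorElement

universe u

theorem pCore_normal' (X : Type*) [Group X] (p : ℕ) : (pCore p X).Normal := by
  haveI := pCore_characteristic (G := X) p
  exact Subgroup.normal_of_characteristic _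

theorem card_quot_lt' {X : Type*} [Group X] [Finite X] (N : Subgroup X) [N.Normal] (hN : N ≠ ⊥) :
    Nat.card (X ⧸ N) < Nat.card X := by
  have h1 := Subgroup.card_eq_card_quotient_mul_card_subgroup N
  have h2 : 1 < Nat.card N := by
    have h3 : Nat.card N ≠ 1 := fun h => hN ((Subgroup.card_eq_one).mp h)
    have h4 : 0 < Nat.card N := Nat.card_pos
    omega
  have h5 : 0 < Nat.card (X ⧸ N) := Nat.card_pos
  rw [h1]
  nlinarith

/-- A normal `p`-subgroup of a subnormal subgroup lies in the `p`-core. -/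
theorem le_pCore_sub {X : Type*} [Group X] [Finite X] (p : ℕ) [Fact p.Prime] {H : Subgroup X}
    (hH : H.IsSubnormal) :
    ∀ {Q : Subgroup X}, Q ≤ H → H ≤ normalizer (Q : Set X) → IsPGroup p Q → Q ≤ pCore p X := by
  induction hH with
  | top =>
    intro Q _ h2 h3
    apply le_pCore _ h3
    constructor
    intro n hn g
    exact (mem_normalizer_iff.mp (h2 (mem_top g)) n).mp hn
  | step H K₀ h_le _ hN ih =>
    intro Q h1 h2 h3
    have hK₀ : K₀ ≤ normalizer (H : Set X) := by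
      haveI := hN
      exact le_normalizer_of_normal_subgroupOf h_le
    have h4 : Q ≤ pCoreOf p H := le_pCoreOf h1 h2 h3
    refine h4.trans (ih ((pCoreOf_le p H).trans h_le) ?_ (isPGroup_pCoreOf p H))
    exact hK₀.trans (normalizer_le_normalizer_pCoreOf p H)

/-- The hypothesis of the theorem. -/
def Hyp {G : Type*} [Group G] (A : Subgroup G) : Prop :=
  ∀ c : G, ∃ g : G, IsConj c g ∧ (A.subgroupOf (A ⊔ MulAut.conj g • A)).IsSubnormal

theorem sub_map {G G' : Type*} [Group G] [Group G'] (π : G →* G') {A K : Subgroup G} (hAK : A ≤ K)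
    (hs : (A.subgroupOf K).IsSubnormal) {K' : Subgroup G'} (hK : K.map π = K') :
    ((A.map π).subgroupOf K').IsSubnormal := by
  subst hK
  have h1 := hs.map (π.subgroupMap_surjective K)
  convert h1 using 1
  ext ⟨y, hy⟩
  rw [Subgroup.mem_subgroupOf, Subgroup.mem_map]
  constructor
  · rintro ⟨x, hx, hxy⟩
    refine ⟨⟨x, hAK hx⟩, ?_, Subtype.ext hxy⟩
    exact Subgroup.mem_subgroupOf.mpr hx
  · rintro ⟨⟨x, hxK⟩, hx, hxy⟩
    refine ⟨x, Subgroup.mem_subgroupOf.mp hx, ?_⟩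
    exact congrArg Subtype.val hxy

theorem conj_smul_map {G G' : Type*} [Group G] [Group G'] (π : G →* G') (g : G) (A : Subgroup G) :
    (MulAut.conj g • A).map π = MulAut.conj (π g) • A.map π := by
  ext y
  constructor
  · rintro ⟨x, hx, rfl⟩
    obtain ⟨a, ha, rfl⟩ := hx
    refine ⟨π a, ⟨a, ha, rfl⟩, ?_⟩
    simp [MulAut.smul_def]
  · rintro ⟨_, ⟨a, ha, rfl⟩, rfl⟩
    refine ⟨g * a * g⁻¹, ⟨a, ha, rfl⟩, ?_⟩
    simp [MulAut.smul_def]

theorem Hyp.map {G G' : Type*} [Group G] [Group G'] {A : Subgroup G} (h : Hyp A) (π : G →* G')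
    (hπ : Function.Surjective π) : Hyp (A.map π) := by
  intro c'
  obtain ⟨c, rfl⟩ := hπ c'
  obtain ⟨g, hg, hs⟩ := h c
  refine ⟨π g, (π.map_isConj hg), ?_⟩
  exact sub_map π le_sup_left hs (by rw [Subgroup.map_sup, conj_smul_map])

variable {p : ℕ} [hp : Fact p.Prime]

/-- A `p`-element centralizing `V₀` and in `O_p` modulo `V₀` is trivial when `O_p(G) = 1`. -/
theorem eq_one_of_centralizes {G : Type u} [Group G] [Finite G] (hcore : pCore p G = ⊥) (V₀ : Subgroup G) [hVn : V₀.Normal]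
    (hV₀c : ∀ x ∈ V₀, ∀ y ∈ V₀, Commute x y) {a : G} (han : ∃ m : ℕ, a ^ p ^ m = 1)
    (hac : ∀ v ∈ V₀, Commute a v)
    (haK : QuotientGroup.mk' V₀ a ∈ pCore p (G ⧸ V₀)) : a = 1 := by
  classical
  let π := QuotientGroup.mk' V₀
  let K : Subgroup G := (pCore p (G ⧸ V₀)).comap π
  have hKn : K.Normal := Subgroup.Normal.comap (pCore_normal' _ p) π
  have hZn : (centralizer (V₀ : Set G)).Normal := Subgroup.normal_centralizer
  let C : Subgroup G := K ⊓ centralizer (V₀ : Set G)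
  have hCn : C.Normal := Subgroup.normal_inf_normal K _
  have hV₀C : V₀ ≤ C := by
    intro x hx
    refine ⟨?_, mem_centralizer_iff.mpr fun g hg => hV₀c g hg x hx⟩
    show π x ∈ pCore p (G ⧸ V₀)
    have : π x = 1 := (QuotientGroup.eq_one_iff x).mpr hx
    rw [this]
    exact one_mem _
  have haC : a ∈ C := ⟨haK, mem_centralizer_iff.mpr fun g hg => (hac g hg).symm⟩
  -- the Sylow subgroup
  let a' : C := ⟨a, haC⟩
  have hzp : IsPGroup p (zpowers a') := by
    obtain ⟨m, hm⟩ := han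
    rintro ⟨x, i, rfl⟩
    refine ⟨m, Subtype.ext ?_⟩
    have : (a' ^ p ^ m) = 1 := Subtype.ext hm
    show (a' ^ i) ^ p ^ m = 1
    rw [← zpow_natCast, zpow_comm, zpow_natCast, this, one_zpow]
  obtain ⟨S, hS⟩ := hzp.exists_le_sylow
  let V₁ : Subgroup C := V₀.subgroupOf C
  have hV₁n : V₁.Normal := Subgroup.Normal.subgroupOf hVn C
  -- `C / V₁` is a `p`-group
  have hquot : IsPGroup p (C ⧸ V₁) := by
    intro x
    obtain ⟨c, rfl⟩ := QuotientGroup.mk_surjective x
    have h1 : IsPGroup p (pCore p (G ⧸ V₀)) := isPGroup_pCore p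
    obtain ⟨n, hn⟩ := h1 ⟨π c.1, c.2.1⟩
    refine ⟨n, ?_⟩
    have h2 : π c.1 ^ p ^ n = 1 := congrArg Subtype.val hn
    have h3 : c.1 ^ p ^ n ∈ V₀ := by
      rw [← map_pow] at h2
      exact (QuotientGroup.eq_one_iff _).mp h2
    rw [← QuotientGroup.mk_pow]
    refine (QuotientGroup.eq_one_iff _).mpr ?_
    exact Subgroup.mem_subgroupOf.mpr h3
  have hsup : (S : Subgroup C) ⊔ V₁ = ⊤ := by
    have h1 : ((S : Subgroup C) ⊔ V₁).index ∣ V₁.index := Subgroup.index_dvd_of_le le_sup_right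
    have h2 : ((S : Subgroup C) ⊔ V₁).index ∣ (S : Subgroup C).index :=
      Subgroup.index_dvd_of_le le_sup_left
    have h3 : ¬ p ∣ (S : Subgroup C).index := S.not_dvd_index
    obtain ⟨k, hk⟩ := IsPGroup.iff_card.mp hquot
    have h4 : V₁.index = p ^ k := by
      rw [Subgroup.index_eq_card]
      exact hk
    rw [h4] at h1
    obtain ⟨j, -, hj⟩ := (Nat.dvd_prime_pow hp.out).mp h1
    rcases j with _ | j
    · rw [pow_zero] at hj
      exact Subgroup.index_eq_one.mp hj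
    · exfalso
      apply h3
      refine dvd_trans ?_ h2
      rw [hj, pow_succ]
      exact dvd_mul_left _ _
  have hSn : (S : Subgroup C).Normal := by
    have h1 : V₁ ≤ normalizer ((S : Subgroup C) : Set C) := by
      intro v hv
      refine mem_normalizer_iff.mpr fun s => ?_
      have h2 : v * s * v⁻¹ = s := by
        have h3 : v * s = s * v := Subtype.ext (mem_centralizer_iff.mp s.2.2 v.1 hv)
        rw [h3, mul_inv_cancel_right]
      rw [h2]
    have h5 : ⊤ ≤ normalizer ((S : Subgroup C) : Set C) := by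
      rw [← hsup]
      exact sup_le le_normalizer h1
    exact Subgroup.normalizer_eq_top_iff.mp (top_le_iff.mp h5)
  have h6 : (S : Subgroup C) ≤ pCore p C := le_pCore hSn S.isPGroup'
  have h7 : (pCore p C).map C.subtype = ⊥ := by
    rw [map_pCore_of_normal, hcore, inf_bot_eq]
  have h8 : a ∈ (pCore p C).map C.subtype := ⟨a', h6 (hS (mem_zpowers a')), rfl⟩
  rw [h7] at h8
  exact h8

/-- **The main induction.** -/
theorem main (hp2 : p ≠ 2) : ∀ (n : ℕ) (G : Type u) [Group G] [Finite G], Nat.card G = n →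
    Group.IsSolvable G → ∀ A : Subgroup G, IsPGroup p A → Hyp A → A ≤ pCore p G := by
  intro n
  induction n using Nat.strong_induction_on with
  | _ n ih =>
  intro G _ _ hn hsol A hA hyp
  classical
  have hpp : p.Prime := hp.out
  by_cases hcore : pCore p G = ⊥
  swap
  · -- pass to the quotient by the core
    let N := pCore p G
    haveI hNn : N.Normal := (pCore_normal' _ p)
    let π := QuotientGroup.mk' N
    have hcard : Nat.card (G ⧸ N) < n := by
      rw [← hn]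
      exact card_quot_lt' N hcore
    have h1 := ih _ hcard (G ⧸ N) rfl inferInstance (A.map π) (hA.map π)
      (hyp.map π (QuotientGroup.mk'_surjective N))
    rw [pCore_quotient_pCore, ] at h1
    intro a ha
    have h2 : π a ∈ (⊥ : Subgroup (G ⧸ N)) := h1 ⟨a, ha, rfl⟩
    exact (QuotientGroup.eq_one_iff a).mp h2
  -- now `O_p(G) = 1`
  rw [hcore]
  by_contra hAbot
  obtain ⟨a, haA, ha1⟩ : ∃ a ∈ A, a ≠ 1 := by
    by_contra hcon
    push Not at hcon
    exact hAbot fun a ha => hcon a ha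
  haveI : Nontrivial G := ⟨⟨a, 1, ha1⟩⟩
  obtain ⟨q, hqpr, hqcore⟩ := exists_pCore_ne_bot (G := G)
  haveI hqf : Fact q.Prime := ⟨hqpr⟩
  have hqp : q ≠ p := by
    rintro rfl
    exact hqcore hcore
  -- a minimal normal subgroup
  let 𝓝 : Set (Subgroup G) := {N | N.Normal ∧ N ≠ ⊥ ∧ N ≤ pCore q G ∧ ⁅N, N⁆ = ⊥}
  obtain ⟨N₀, hN₀n, hN₀ne, hN₀le, hN₀ab⟩ :=
    exists_abelian_normal_le (pCore q G) (pCore_normal' _ q) hqcore
  have hN₀𝓝 : N₀ ∈ 𝓝 := ⟨hN₀n, hN₀ne, hN₀le, hN₀ab⟩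
  obtain ⟨V₀, -, hV₀min⟩ := (Set.toFinite 𝓝).exists_le_minimal hN₀𝓝
  obtain ⟨hV₀n, hV₀ne, hV₀le, hV₀ab⟩ := hV₀min.1
  haveI := hV₀n
  have hV₀irr : ∀ U : Subgroup G, U.Normal → U ≤ V₀ → U = ⊥ ∨ U = V₀ := by
    intro U hUn hUle
    by_cases hU : U = ⊥
    · exact Or.inl hU
    right
    have h1 : U ∈ 𝓝 := by
      refine ⟨hUn, hU, hUle.trans hV₀le, ?_⟩
      exact le_bot_iff.mp (hV₀ab ▸ Subgroup.commutator_mono hUle hUle)
    exact le_antisymm hUle (hV₀min.2 h1 hUle)
  have hV₀q : IsPGroup q V₀ := (isPGroup_pCore q).to_le hV₀le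
  have hV₀c : ∀ x ∈ V₀, ∀ y ∈ V₀, Commute x y := by
    intro x hx y hy
    have h1 : ⁅x, y⁆ ∈ ⁅V₀, V₀⁆ := Subgroup.commutator_mem_commutator hx hy
    rw [hV₀ab, Subgroup.mem_bot] at h1
    exact commutatorElement_eq_one_iff_commute.mp h1
  have hcop : p.Coprime (Nat.card V₀) := by
    obtain ⟨k, hk⟩ := IsPGroup.iff_card.mp hV₀q
    rw [hk]
    exact Nat.Coprime.pow_right k ((Nat.coprime_primes hpp hqpr).mpr hqp.symm)
  -- the quotient
  let π := QuotientGroup.mk' V₀
  have hcard : Nat.card (G ⧸ V₀) < n := by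
    rw [← hn]
    exact card_quot_lt' V₀ hV₀ne
  have hIH := ih _ hcard (G ⧸ V₀) rfl inferInstance (A.map π) (hA.map π)
    (hyp.map π (QuotientGroup.mk'_surjective V₀))
  let K : Subgroup G := (pCore p (G ⧸ V₀)).comap π
  have hKn : K.Normal := Subgroup.Normal.comap (pCore_normal' _ p) π
  have hAK : A ≤ K := fun x hx => hIH ⟨x, hx, rfl⟩
  letI : CommGroup V₀ :=
    { (inferInstance : Group V₀) with
      mul_comm := fun x y => Subtype.ext (hV₀c x.1 x.2 y.1 y.2).eq }
  let ρ : G →* MulAut V₀ := MulAut.conjNormal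
  have hρ : ∀ (g : G) (v : V₀), ((ρ g v : V₀) : G) = g * v * g⁻¹ := fun g v =>
    MulAut.conjNormal_apply g v
  have hρV : ∀ x ∈ V₀, ρ x = 1 := by
    intro x hx
    ext v
    show ((ρ x v : V₀) : G) = v
    rw [hρ, (hV₀c x hx v.1 v.2).eq, mul_inv_cancel_right]
  -- `K` acts as a `p`-group
  have hKp : ∀ k ∈ K, ∃ m : ℕ, ρ k ^ p ^ m = 1 := by
    intro k hk
    have h1 : IsPGroup p (pCore p (G ⧸ V₀)) := isPGroup_pCore p
    obtain ⟨m, hm⟩ := h1 ⟨π k, hk⟩
    have h2 : π k ^ p ^ m = 1 := congrArg Subtype.val hm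
    have h3 : k ^ p ^ m ∈ V₀ := by
      rw [← map_pow] at h2
      exact (QuotientGroup.eq_one_iff _).mp h2
    refine ⟨m, ?_⟩
    rw [← map_pow]
    exact hρV _ h3
  let P₁ : Subgroup ρ.range := K.map ρ.rangeRestrict
  have hP₁n : P₁.Normal := Subgroup.Normal.map hKn _ ρ.rangeRestrict_surjective
  have hP₁ : IsPGroup p P₁ := by
    rintro ⟨_, k, hk, rfl⟩
    obtain ⟨m, hm⟩ := hKp k hk
    refine ⟨m, Subtype.ext (Subtype.ext ?_)⟩
    exact hm
  have hirr : ∀ W : Subgroup V₀, (∀ h : ρ.range, ∀ w ∈ W, (ρ.range.subtype h) w ∈ W) →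
      W = ⊥ ∨ W = ⊤ := by
    intro W hW
    have hUn : (W.map V₀.subtype).Normal := by
      constructor
      rintro _ ⟨w, hw, rfl⟩ g
      refine ⟨ρ g w, hW (ρ.rangeRestrict g) w hw, ?_⟩
      exact hρ g w
    rcases hV₀irr _ hUn (Subgroup.map_subtype_le W) with h1 | h1
    · left
      exact (Subgroup.map_eq_bot_iff_of_injective _ V₀.subtype_injective).mp h1
    · right
      refine (Subgroup.eq_top_iff' _).mpr fun v => ?_
      have h2 : v.1 ∈ W.map V₀.subtype := by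
        rw [h1]
        exact v.2
      obtain ⟨w, hw, hwv⟩ := h2
      have : w = v := Subtype.ext hwv
      exact this ▸ hw
  -- `a` acts nontrivially
  have hanil : ∃ m : ℕ, a ^ p ^ m = 1 := by
    obtain ⟨m, hm⟩ := hA ⟨a, haA⟩
    exact ⟨m, congrArg Subtype.val hm⟩
  have haρ : ρ a ≠ 1 := by
    intro h
    apply ha1
    refine eq_one_of_centralizes hcore V₀ hV₀c hanil ?_ (hAK haA)
    intro v hv
    have h1 : ((ρ a ⟨v, hv⟩ : V₀) : G) = v := by rw [h]; rfl
    rw [hρ] at h1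
    exact mul_inv_eq_iff_eq_mul.mp h1
  have ha₁ : ρ.rangeRestrict a ∈ P₁ := ⟨a, hAK haA, rfl⟩
  have ha₁ne : ρ.range.subtype (ρ.rangeRestrict a) ≠ 1 := haρ
  obtain ⟨v, hv⟩ := Cfsg.Agent.H28.VecD.core hp2 _ V₀ rfl ρ.range ρ.range.subtype P₁ hP₁n hP₁ hcop
    hirr _ ha₁ ha₁ne
  -- use the hypothesis
  obtain ⟨g, hgc, hsub⟩ := hyp v.1
  obtain ⟨s, hs⟩ := isConj_iff.mp hgc
  have hgV : g ∈ V₀ := by
    rw [← hs]
    exact hV₀n.conj_mem _ v.2 s
  -- `K₁` is a `p`-group
  let K₁ : Subgroup G := A ⊔ MulAut.conj g • A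
  have hAK₁ : A ≤ K₁ := le_sup_left
  have hBK₁ : MulAut.conj g • A ≤ K₁ := le_sup_right
  have hO : A.subgroupOf K₁ ≤ pCore p K₁ := by
    refine le_pCore_sub p hsub le_rfl le_normalizer (IsPGroup.comap_subtype hA)
  have hBp : IsPGroup p ((MulAut.conj g • A).subgroupOf K₁) := by
    have h1 : IsPGroup p (MulAut.conj g • A : Subgroup G) := by
      have h2 : IsPGroup p (A.map (MulAut.conj g).toMonoidHom) := hA.map _
      exact h2
    exact IsPGroup.comap_subtype h1
  have hK₁p : IsPGroup p K₁ := by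
    haveI : (pCore p K₁).Normal := (pCore_normal' _ p)
    have h1 : IsPGroup p ((pCore p K₁ ⊔ (MulAut.conj g • A).subgroupOf K₁ : Subgroup K₁)) :=
      IsPGroup.to_sup_of_normal_left (isPGroup_pCore p) hBp
    have h2 : (pCore p K₁ ⊔ (MulAut.conj g • A).subgroupOf K₁ : Subgroup K₁) = ⊤ := by
      refine top_le_iff.mp ?_
      have h3 : (⊤ : Subgroup K₁) = A.subgroupOf K₁ ⊔ (MulAut.conj g • A).subgroupOf K₁ := by
        rw [← Subgroup.subgroupOf_sup hAK₁ hBK₁]
        exact (Subgroup.subgroupOf_self K₁).symm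
      rw [h3]
      exact sup_le_sup_right hO _
    rw [h2] at h1
    exact (IsPGroup.of_equiv h1 Subgroup.topEquiv)
  -- the commutator
  have hcomm : Commute g a := by
    let x : G := a⁻¹ * (g * a * g⁻¹)
    have hxK₁ : x ∈ K₁ := by
      refine K₁.mul_mem (K₁.inv_mem (hAK₁ haA)) (hBK₁ ?_)
      exact ⟨a, haA, rfl⟩
    have hxV : x ∈ V₀ := by
      have h1 : x = (a⁻¹ * g * a⁻¹⁻¹) * g⁻¹ := by
        simp only [x]
        group
      rw [h1]
      exact V₀.mul_mem (hV₀n.conj_mem g hgV a⁻¹) (V₀.inv_mem hgV)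
    obtain ⟨m, hm⟩ := hK₁p ⟨x, hxK₁⟩
    have h2 : x ^ p ^ m = 1 := congrArg Subtype.val hm
    obtain ⟨l, hl⟩ := hV₀q ⟨x, hxV⟩
    have h3 : x ^ q ^ l = 1 := congrArg Subtype.val hl
    have h4 : orderOf x ∣ Nat.gcd (p ^ m) (q ^ l) :=
      Nat.dvd_gcd (orderOf_dvd_of_pow_eq_one h2) (orderOf_dvd_of_pow_eq_one h3)
    have h5 : Nat.gcd (p ^ m) (q ^ l) = 1 :=
      Nat.Coprime.pow m l ((Nat.coprime_primes hpp hqpr).mpr hqp.symm)
    rw [h5, Nat.dvd_one] at h4
    have h6 : x = 1 := orderOf_eq_one_iff.mp h4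
    have h7 : g * a * g⁻¹ = a := by
      simpa [x, mul_assoc, inv_mul_eq_iff_eq_mul] using h6
    exact mul_inv_eq_iff_eq_mul.mp h7
  -- the contradiction
  apply hv (ρ.rangeRestrict s⁻¹)
  apply Subtype.ext
  have hfinal : ρ.range.subtype (ρ.rangeRestrict s⁻¹ * ρ.rangeRestrict a * (ρ.rangeRestrict s⁻¹)⁻¹) =
      ρ (s⁻¹ * a * s⁻¹⁻¹) := by
    simp only [map_mul, map_inv]
    rfl
  rw [hfinal, hρ]
  have h1 : s * (v : G) = g * s := by
    rw [← hs]
    group
  have hfin : Commute (s⁻¹ * a * s) (v : G) := by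
    show s⁻¹ * a * s * (v : G) = (v : G) * (s⁻¹ * a * s)
    have h2 : (v : G) = s⁻¹ * g * s := by
      rw [← hs]
      group
    rw [h2]
    have h3 := hcomm.eq
    calc s⁻¹ * a * s * (s⁻¹ * g * s) = s⁻¹ * (a * g) * s := by group
      _ = s⁻¹ * (g * a) * s := by rw [h3]
      _ = s⁻¹ * g * s * (s⁻¹ * a * s) := by group
  rw [inv_inv, hfin.eq, mul_inv_cancel_right]


/-- Let G be a finite solvable group, p an odd prime and A a p-subgroup of G such that every conjugacy class of G contains an element g for which A is subnormal in the subgroup generated by A and its conjugate by g. Then A is contained in O_p(G). (The hypothesis that p is odd is needed.) -/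
theorem result {G : Type*} [Group G] [Finite G]
    (hG : Group.IsSolvable G) (p : ℕ) [Fact p.Prime] (hp : p ≠ 2) (A : Subgroup G) (hA : IsPGroup p A)
    (h : ∀ c : G, ∃ g : G, IsConj c g ∧ (A.subgroupOf (A ⊔ MulAut.conj g • A)).IsSubnormal) :
    A ≤ Cfsg.pCore p G :=
  main hp _ G rfl hG A hA h

end Cfsg.Agent.S4330
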