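import Mathlib
import Cfsg.Statements.S4331
import Cfsg.Agent.Lib.PCore
import Cfsg.Agent.Lib.Subnormal2
-- import your own Cfsg.Agent.* helpers here

set_option autoImplicit false
open Cfsg

namespace Cfsg.Agent.S4331


open Equiv

set_option linter.style.haveILetI false

/-- The field with nine elements. -/
abbrev F9 : Type := GaloisField 3 2

noncomputable instance : Fintype F9 := Fintype.ofFinite _

theorem card_F9 : Fintype.card F9 = 9 := by
  rw [← Nat.card_eq_fintype_card, GaloisField.card 3 2 (by norm_num)]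
  norm_num

theorem pow9 (x : F9) : x ^ 9 = x := by
  have := FiniteField.pow_card x
  rwa [card_F9] at this

theorem pow8 (x : F9) (hx : x ≠ 0) : x ^ 8 = 1 := by
  have := FiniteField.pow_card_sub_one_eq_one x hx
  rwa [card_F9] at this

theorem three_eq : (3 : F9) = 0 := by
  have := CharP.cast_eq_zero F9 3
  exact_mod_cast this

/-- The Frobenius map of `F9`. -/
noncomputable def frob : F9 →+* F9 := frobenius F9 3

theorem frob_apply (x : F9) : frob x = x ^ 3 := frobenius_def 3 x

theorem frob_frob (x : F9) : frob (frob x) = x := by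
  rw [frob_apply, frob_apply, ← pow_mul]
  exact pow9 x

theorem exists_not_fixed : ∃ i : F9, frob i ≠ i := by
  classical
  by_contra hcon
  push Not at hcon
  have hle : Fintype.card F9 ≤ 3 := by
    have hroots : ∀ x : F9, x ∈ (Polynomial.X ^ 3 - Polynomial.X : Polynomial F9).roots := by
      intro x
      rw [Polynomial.mem_roots]
      · simp [Polynomial.IsRoot, ← frob_apply, hcon x]
      · intro h
        have h1 := congrArg (fun p => Polynomial.coeff p 3) h
        simp [Polynomial.coeff_X] at h1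
    have h2 : (Finset.univ : Finset F9) ⊆ (Polynomial.X ^ 3 - Polynomial.X : Polynomial F9).roots.toFinset := by
      intro x _
      exact Multiset.mem_toFinset.2 (hroots x)
    have h3 := Finset.card_le_card h2
    have h4 := Multiset.toFinset_card_le (Polynomial.X ^ 3 - Polynomial.X : Polynomial F9).roots
    have h5 := Polynomial.card_roots' (Polynomial.X ^ 3 - Polynomial.X : Polynomial F9)
    have h6 : (Polynomial.X ^ 3 - Polynomial.X : Polynomial F9).natDegree = 3 := by
      compute_degree!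
    rw [Finset.card_univ] at h3
    omega
  rw [card_F9] at hle
  omega

/-- The two elements of the Galois group. -/
noncomputable def sg : Bool → F9 →+* F9
  | true => frob
  | false => RingHom.id F9

theorem sg_sg (e₁ e₂ : Bool) (x : F9) : sg e₁ (sg e₂ x) = sg (xor e₁ e₂) x := by
  cases e₁ <;> cases e₂ <;> simp [sg, frob_frob]

theorem sg_self (e : Bool) (x : F9) : sg e (sg e x) = x := by
  cases e <;> simp [sg, frob_frob]

/-- The group of affine semilinear maps of `F9`. -/
noncomputable def AG : Subgroup (Perm F9) where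
  carrier := {π | ∃ (c : F9) (e : Bool) (v : F9), c ≠ 0 ∧ ∀ x, π x = c * sg e x + v}
  mul_mem' := by
    rintro π₁ π₂ ⟨c₁, e₁, v₁, h₁, H₁⟩ ⟨c₂, e₂, v₂, h₂, H₂⟩
    refine ⟨c₁ * sg e₁ c₂, xor e₁ e₂, c₁ * sg e₁ v₂ + v₁,
      mul_ne_zero h₁ ((map_ne_zero _).2 h₂), fun x => ?_⟩
    rw [Perm.coe_mul, Function.comp_apply, H₂, H₁, map_add, map_mul, sg_sg]
    ring
  one_mem' := ⟨1, false, 0, one_ne_zero, fun x => by simp [sg]⟩
  inv_mem' := by
    rintro π ⟨c, e, v, h, H⟩
    refine ⟨sg e c⁻¹, e, - sg e (v * c⁻¹), (map_ne_zero _).2 (inv_ne_zero h), fun x => ?_⟩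
    rw [Perm.inv_eq_iff_eq, H, map_add, map_mul, sg_self, sg_self, map_neg, sg_self]
    field_simp
    ring

theorem AG_form (π : AG) : ∃ (c : F9) (e : Bool) (v : F9), c ≠ 0 ∧ ∀ x, (π : Perm F9) x = c * sg e x + v :=
  π.2

/-- Affine maps as permutations. -/
noncomputable def affP (c : F9) (hc : c ≠ 0) (e : Bool) (v : F9) : Perm F9 where
  toFun x := c * sg e x + v
  invFun y := sg e ((y - v) * c⁻¹)
  left_inv x := by
    have : (c * sg e x + v - v) * c⁻¹ = sg e x := by field_simp; ring
    simp only [this, sg_self]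
  right_inv y := by
    simp only [sg_self]
    field_simp
    ring

/-- Affine maps as elements of the group. -/
noncomputable def aff (c : F9) (hc : c ≠ 0) (e : Bool) (v : F9) : AG :=
  ⟨affP c hc e v, c, e, v, hc, fun _ => rfl⟩

theorem aff_apply (c : F9) (hc : c ≠ 0) (e : Bool) (v x : F9) :
    ((aff c hc e v : AG) : Perm F9) x = c * sg e x + v := rfl

theorem coe_mul_apply (a b : AG) (x : F9) : ((a * b : AG) : Perm F9) x = (a : Perm F9) ((b : Perm F9) x) := rfl

/-- The Frobenius as an element of the group. -/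
noncomputable def t : AG := aff 1 one_ne_zero true 0

theorem t_apply (x : F9) : (t : Perm F9) x = frob x := by
  show 1 * sg true x + 0 = _
  simp [sg]

/-- translations -/
noncomputable def tr (w : F9) : AG := aff 1 one_ne_zero false w

theorem tr_apply (w x : F9) : (tr w : Perm F9) x = x + w := by
  show 1 * sg false x + w = _
  simp [sg]

/-- scalings -/
noncomputable def sc (d : F9) (hd : d ≠ 0) : AG := aff d hd false 0

theorem sc_apply (d : F9) (hd : d ≠ 0) (x : F9) : (sc d hd : Perm F9) x = d * x := by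
  show d * sg false x + 0 = _
  simp [sg]

theorem ext_AG {a b : AG} (h : ∀ x, (a : Perm F9) x = (b : Perm F9) x) : a = b :=
  Subtype.ext (Equiv.ext h)

theorem tr_inv (w : F9) : (tr w)⁻¹ = tr (-w) := by
  rw [inv_eq_iff_mul_eq_one]
  apply ext_AG
  intro x
  rw [coe_mul_apply, tr_apply, tr_apply]
  simp

theorem sc_inv (d : F9) (hd : d ≠ 0) : (sc d hd)⁻¹ = sc d⁻¹ (inv_ne_zero hd) := by
  rw [inv_eq_iff_mul_eq_one]
  apply ext_AG
  intro x
  rw [coe_mul_apply, sc_apply, sc_apply]
  show d * (d⁻¹ * x) = x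
  field_simp

/-- powers of a map `x ↦ d x + w` -/
theorem pow_affine (ψ : Perm F9) (d w : F9) (h : ∀ x, ψ x = d * x + w) (n : ℕ) :
    ∃ w', ∀ x, (ψ ^ n) x = d ^ n * x + w' := by
  induction n with
  | zero => exact ⟨0, fun x => by simp⟩
  | succ n ih =>
    obtain ⟨w', hw'⟩ := ih
    refine ⟨d * w' + w, fun x => ?_⟩
    rw [pow_succ', Perm.coe_mul, Function.comp_apply, hw', h]
    ring

/-- Sixteenth powers are translations. -/
theorem pow16 (π : AG) : ∃ w, ∀ x, ((π ^ 16 : AG) : Perm F9) x = x + w := by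
  obtain ⟨c, e, v, hc, H⟩ := AG_form π
  set d : F9 := c * sg e c with hd
  have hd0 : d ≠ 0 := mul_ne_zero hc ((map_ne_zero _).2 hc)
  have h2 : ∀ x, ((π : Perm F9) ^ 2) x = d * x + (c * sg e v + v) := by
    intro x
    rw [pow_two, Perm.coe_mul, Function.comp_apply, H, H, map_add, map_mul, sg_self]
    ring
  obtain ⟨w, hw⟩ := pow_affine _ d _ h2 8
  refine ⟨w, fun x => ?_⟩
  have h3 : ((π ^ 16 : AG) : Perm F9) = ((π : Perm F9) ^ 2) ^ 8 := by
    rw [← pow_mul]
    simp
  rw [h3, hw, pow8 d hd0, one_mul]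

theorem pow16_of_fix (π : AG) (h0 : (π : Perm F9) 0 = 0) : π ^ 16 = 1 := by
  obtain ⟨w, hw⟩ := pow16 π
  have h1 : w = 0 := by
    have h2 := hw 0
    have h3 : ((π ^ 16 : AG) : Perm F9) 0 = 0 := by
      have : ∀ n : ℕ, ((π ^ n : AG) : Perm F9) 0 = 0 := by
        intro n
        induction n with
        | zero => simp
        | succ n ih =>
          rw [pow_succ, coe_mul_apply, h0, ih]
      exact this 16
    rw [h3] at h2
    simpa using h2.symm
  apply ext_AG
  intro x
  rw [hw, h1]
  simp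

/-- The translation subgroup. -/
noncomputable def T : Subgroup AG where
  carrier := {π | ∃ w, ∀ x, (π : Perm F9) x = x + w}
  mul_mem' := by
    rintro a b ⟨w₁, h₁⟩ ⟨w₂, h₂⟩
    exact ⟨w₂ + w₁, fun x => by rw [coe_mul_apply, h₂, h₁, add_assoc]⟩
  one_mem' := ⟨0, fun x => by simp⟩
  inv_mem' := by
    rintro a ⟨w, h⟩
    refine ⟨-w, fun x => ?_⟩
    have h1 : ((a⁻¹ : AG) : Perm F9) = (a : Perm F9)⁻¹ := rfl
    rw [h1, Perm.inv_eq_iff_eq, h]
    ring

theorem T_normal : T.Normal := by
  refine ⟨?_⟩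
  rintro n ⟨w, hw⟩ g
  obtain ⟨c, e, v, hc, H⟩ := AG_form g
  refine ⟨c * sg e w, fun x => ?_⟩
  rw [coe_mul_apply, coe_mul_apply, hw]
  set y := ((g⁻¹ : AG) : Perm F9) x with hy
  have hgy : (g : Perm F9) y = x := by
    rw [hy, ← coe_mul_apply, mul_inv_cancel]
    rfl
  rw [← hgy]
  rw [H, H, map_add]
  ring

theorem isSolvable_AG : Group.IsSolvable AG := by
  haveI : Finite AG := inferInstance
  haveI hn : T.Normal := T_normal
  haveI : Group.IsSolvable T := Group.isSolvable_of_comm (fun a b => by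
    obtain ⟨w₁, h₁⟩ := a.2
    obtain ⟨w₂, h₂⟩ := b.2
    apply Subtype.ext
    apply ext_AG
    intro x
    show (a.1 : Perm F9) ((b.1 : Perm F9) x) = (b.1 : Perm F9) ((a.1 : Perm F9) x)
    rw [h₁, h₂, h₁, h₂]
    ring)
  have hp : IsPGroup 2 (AG ⧸ T) := by
    intro q
    induction q using QuotientGroup.induction_on with
    | H π =>
      refine ⟨4, ?_⟩
      rw [← QuotientGroup.mk_pow, QuotientGroup.eq_one_iff]
      exact pow16 π
  haveI : Group.IsNilpotent (AG ⧸ T) := hp.isNilpotent
  haveI : Group.IsSolvable (AG ⧸ T) := inferInstance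
  refine Group.isSolvable_of_ker_le_range T.subtype (QuotientGroup.mk' T) ?_
  rw [QuotientGroup.ker_mk', Subgroup.range_subtype]

theorem comm_of_form (g : AG) (e : Bool) (v : F9) (h : ∀ x, (g : Perm F9) x = sg e x + v)
    (hv : frob v = v) : g * t = t * g := by
  apply ext_AG
  intro x
  rw [coe_mul_apply, coe_mul_apply, t_apply, t_apply, h, h, map_add, hv]
  cases e <;> simp [sg]

/-- Every element is conjugate to one fixing `0` or commuting with the Frobenius. -/
theorem exists_conj (c : AG) :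
    ∃ g : AG, IsConj c g ∧ ((g : Perm F9) 0 = 0 ∨ g * t = t * g) := by
  by_cases hfix : ∃ x, (c : Perm F9) x = x
  · obtain ⟨x₀, hx₀⟩ := hfix
    refine ⟨tr (-x₀) * c * (tr (-x₀))⁻¹, isConj_iff.2 ⟨_, rfl⟩, Or.inl ?_⟩
    rw [tr_inv, coe_mul_apply, coe_mul_apply, tr_apply, tr_apply]
    simp [hx₀]
  push Not at hfix
  obtain ⟨c₀, e, v, hc₀, H⟩ := AG_form c
  -- a nonzero fixed vector of the linear part
  obtain ⟨w, hw0, hw⟩ : ∃ w : F9, w ≠ 0 ∧ c₀ * sg e w = w := by
    let φ : F9 → F9 := fun x => x - c₀ * sg e x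
    have hφ : ¬ Function.Surjective φ := by
      intro hs
      obtain ⟨x, hx⟩ := hs v
      apply hfix x
      rw [H]
      have : x - c₀ * sg e x = v := hx
      rw [← this]
      ring
    have hφ2 : ¬ Function.Injective φ := fun hi => hφ (Finite.injective_iff_surjective.1 hi)
    rw [Function.Injective] at hφ2
    push Not at hφ2
    obtain ⟨x, y, hxy, hne⟩ := hφ2
    refine ⟨x - y, sub_ne_zero.2 hne, ?_⟩
    have : x - c₀ * sg e x = y - c₀ * sg e y := hxy
    rw [map_sub]
    linear_combination -this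
  -- first conjugation
  let d : F9 := w⁻¹
  have hd : d ≠ 0 := inv_ne_zero hw0
  let g₁ : AG := sc d hd * c * (sc d hd)⁻¹
  have hg₁ : IsConj c g₁ := isConj_iff.2 ⟨_, rfl⟩
  have hg₁x : ∀ x, (g₁ : Perm F9) x = sg e x + d * v := by
    intro x
    have hinv : d⁻¹ = w := inv_inv w
    have hdw : d * w = 1 := inv_mul_cancel₀ hw0
    show ((sc d hd * c * (sc d hd)⁻¹ : AG) : Perm F9) x = _
    rw [sc_inv, coe_mul_apply, coe_mul_apply, sc_apply, sc_apply, H, map_mul]
    simp only [hinv]
    linear_combination (d * sg e x) * hw + (sg e x) * hdw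
  cases e with
  | true =>
    set v₁ := d * v with hv₁
    let u : F9 := frob v₁ - v₁
    let g₂ : AG := tr u * g₁ * (tr u)⁻¹
    refine ⟨g₂, hg₁.trans (isConj_iff.2 ⟨_, rfl⟩), Or.inr ?_⟩
    apply comm_of_form g₂ true (- frob v₁ - v₁)
    · intro x
      show ((tr u * g₁ * (tr u)⁻¹ : AG) : Perm F9) x = _
      rw [tr_inv, coe_mul_apply, coe_mul_apply, tr_apply, tr_apply, hg₁x]
      have hsg : sg true (x + -u) = frob x - frob u := by
        show frob (x + -u) = _
        rw [map_add, map_neg]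
        ring
      have hfu : frob u = v₁ - frob v₁ := by
        show frob (frob v₁ - v₁) = _
        rw [map_sub, frob_frob]
      rw [hsg, hfu]
      have hsx : sg true x = frob x := rfl
      rw [hsx]
      show frob x - (v₁ - frob v₁) + v₁ + (frob v₁ - v₁) = _
      linear_combination (frob v₁) * three_eq
    · rw [map_sub, map_neg, frob_frob]
      ring
  | false =>
    by_cases hv : d * v = 0
    · refine ⟨g₁, hg₁, Or.inr ?_⟩
      apply comm_of_form g₁ false 0
      · intro x
        rw [hg₁x, hv]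
      · simp
    · let a : F9 := (d * v)⁻¹
      have ha : a ≠ 0 := inv_ne_zero hv
      let g₂ : AG := sc a ha * g₁ * (sc a ha)⁻¹
      refine ⟨g₂, hg₁.trans (isConj_iff.2 ⟨_, rfl⟩), Or.inr ?_⟩
      apply comm_of_form g₂ false 1
      · intro x
        show ((sc a ha * g₁ * (sc a ha)⁻¹ : AG) : Perm F9) x = _
        rw [sc_inv, coe_mul_apply, coe_mul_apply, sc_apply, sc_apply, hg₁x]
        have hsx : ∀ y, sg false y = y := fun _ => rfl
        rw [hsx, hsx]
        have h1 : a * (d * v) = 1 := inv_mul_cancel₀ hv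
        have h2 : a * a⁻¹ = 1 := mul_inv_cancel₀ ha
        linear_combination x * h2 + h1
      · simp

/-- The stabilizer of `0`. -/
noncomputable def Fix0 : Subgroup AG where
  carrier := {π | (π : Perm F9) 0 = 0}
  mul_mem' := by
    intro a b (ha : (a : Perm F9) 0 = 0) (hb : (b : Perm F9) 0 = 0)
    show ((a * b : AG) : Perm F9) 0 = 0
    rw [coe_mul_apply, hb, ha]
  one_mem' := rfl
  inv_mem' := by
    intro a (ha : (a : Perm F9) 0 = 0)
    show (a : Perm F9)⁻¹ 0 = 0
    rw [Perm.inv_eq_iff_eq, ha]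

theorem t_sq : t ^ 2 = 1 := by
  rw [pow_two]
  apply ext_AG
  intro x
  rw [coe_mul_apply, t_apply, t_apply, frob_frob]
  rfl

theorem t_ne_one : t ≠ 1 := by
  obtain ⟨i, hi⟩ := exists_not_fixed
  intro h
  apply hi
  rw [← t_apply, h]
  rfl

theorem t_fix : (t : Perm F9) 0 = 0 := by
  rw [t_apply, map_zero]

theorem mem_normalizer_of_commute {G : Type*} [Group G] (σ τ : G) (h : Commute τ σ) :
    τ ∈ Subgroup.normalizer (Subgroup.zpowers σ : Set G) := by
  apply Subgroup.centralizer_le_normalizer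
  rw [Subgroup.mem_centralizer_iff]
  rintro a ⟨k, rfl⟩
  exact (h.symm.zpow_left k).eq

theorem not_mem_pCore : ¬ Subgroup.zpowers t ≤ Cfsg.pCore 2 AG := by
  intro hle
  have ht : t ∈ Cfsg.pCore 2 AG := hle (Subgroup.mem_zpowers t)
  haveI hc : (Cfsg.pCore 2 AG).Characteristic := Cfsg.Agent.Lib.PCore.pCore_characteristic 2
  haveI hn : (Cfsg.pCore 2 AG).Normal := inferInstance
  obtain ⟨i, hi⟩ := exists_not_fixed
  have hz := hn.conj_mem t ht (tr i)
  have hy := (Cfsg.pCore 2 AG).mul_mem ht hz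
  set y : AG := t * (tr i * t * (tr i)⁻¹) with hydef
  have hyx : ∀ x, (y : Perm F9) x = x + (frob i - i) := by
    intro x
    rw [hydef, tr_inv, coe_mul_apply, coe_mul_apply, coe_mul_apply, t_apply, t_apply, tr_apply, tr_apply,
      map_add, frob_frob]
    ring
  have hy3 : y ^ 3 = 1 := by
    apply ext_AG
    intro x
    rw [pow_succ, pow_two, coe_mul_apply, coe_mul_apply, hyx, hyx, hyx]
    show _ = x
    linear_combination (frob i - i) * three_eq
  obtain ⟨k, hk⟩ := Cfsg.Agent.Lib.PCore.isPGroup_pCore (G := AG) 2 ⟨y, hy⟩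
  have hk' : y ^ 2 ^ k = 1 := congrArg Subtype.val hk
  have h1 := pow_gcd_eq_one.2 ⟨hy3, hk'⟩
  have hgcd : Nat.gcd 3 (2 ^ k) = 1 := Nat.Coprime.pow_right k (by norm_num)
  rw [hgcd, pow_one] at h1
  have h0 := hyx 0
  rw [h1] at h0
  apply hi
  have h2 : (0 : F9) = 0 + (frob i - i) := h0
  rw [zero_add] at h2
  exact (sub_eq_zero.1 h2.symm)

/-- There is a finite solvable group G with a subgroup A of order 2 such that every conjugacy class of G contains an element g for which A is subnormal in the subgroup generated by A and g, and yet A is not contained in O_2(G). (So the corresponding criteria for odd primes fail at the prime 2, even for solvable groups.) -/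
theorem result :
    ∃ (G : Type) (_ : Group G) (_ : Finite G) (A : Subgroup G), Group.IsSolvable G ∧ Nat.card A = 2 ∧
      (∀ c : G, ∃ g : G, IsConj c g ∧ (A.subgroupOf (A ⊔ Subgroup.zpowers g)).IsSubnormal) ∧
      ¬ A ≤ Cfsg.pCore 2 G := by
  refine ⟨AG, inferInstance, inferInstance, Subgroup.zpowers t, isSolvable_AG, ?_, ?_, not_mem_pCore⟩
  · rw [Nat.card_zpowers]
    haveI : Fact (Nat.Prime 2) := ⟨Nat.prime_two⟩
    exact orderOf_eq_prime t_sq t_ne_one
  · intro c
    obtain ⟨g, hg, h⟩ := exists_conj c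
    refine ⟨g, hg, ?_⟩
    rcases h with h | h
    · have hle : Subgroup.zpowers t ⊔ Subgroup.zpowers g ≤ Fix0 := by
        apply sup_le
        · rw [Subgroup.zpowers_le]
          exact t_fix
        · rw [Subgroup.zpowers_le]
          exact h
      have hp : IsPGroup 2 ↥(Subgroup.zpowers t ⊔ Subgroup.zpowers g) := by
        rintro ⟨x, hx⟩
        refine ⟨4, Subtype.ext ?_⟩
        exact pow16_of_fix x (hle hx)
      haveI := hp.isNilpotent
      exact Cfsg.Agent.Lib.Subnormal2.isSubnormal_of_isNilpotent _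
    · apply Subgroup.Normal.isSubnormal
      rw [Subgroup.normal_subgroupOf_iff_le_normalizer le_sup_left]
      apply sup_le Subgroup.le_normalizer
      rw [Subgroup.zpowers_le]
      exact mem_normalizer_of_commute t g h

end Cfsg.Agent.S4331
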