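import Mathlib
import Cfsg.Statements.S4332
import Cfsg.Agent.Lib.SwapOrbits
import Cfsg.Agent.Lib.PCore
-- import your own Cfsg.Agent.* helpers here

set_option autoImplicit false
open Pointwise
open Cfsg

namespace Cfsg.Agent.S4332


open Equiv

theorem indep_T (c : Perm (Fin 8)) (x y z : Fin 8) (hxy : x ≠ y) (hxz : x ≠ z) (hyz : y ≠ z)
    (h1 : c x ≠ x) (h2 : c x ≠ y) (h3 : c x ≠ z)
    (h4 : c y ≠ x) (h5 : c y ≠ y) (h6 : c y ≠ z)
    (h7 : c z ≠ x) (h8 : c z ≠ y) (h9 : c z ≠ z) :
    ∃ T : Finset (Fin 8), T.card = 3 ∧ (T.image c = T ∨ Disjoint (T.image c) T) := by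
  refine ⟨{x, y, z}, Finset.card_eq_three.2 ⟨x, y, z, hxy, hxz, hyz, rfl⟩, Or.inr ?_⟩
  rw [Finset.disjoint_left]
  intro a ha hb
  simp only [Finset.mem_image, Finset.mem_insert, Finset.mem_singleton] at ha hb
  obtain ⟨b, hb', rfl⟩ := ha
  rcases hb' with rfl | rfl | rfl <;> rcases hb with hb | hb | hb <;> simp_all

theorem pick (N S : Finset (Fin 8)) (h : S.card < N.card) : ∃ z ∈ N, z ∉ S :=
  Finset.exists_mem_notMem_of_card_lt_card h

theorem exists_T (c : Perm (Fin 8)) :
    ∃ T : Finset (Fin 8), T.card = 3 ∧ (T.image c = T ∨ Disjoint (T.image c) T) := by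
  classical
  by_cases hF : 3 ≤ (Finset.univ.filter fun x => c x = x).card
  · obtain ⟨T, hT, hT3⟩ := Finset.exists_subset_card_eq hF
    refine ⟨T, hT3, Or.inl ?_⟩
    ext a
    simp only [Finset.mem_image]
    constructor
    · rintro ⟨b, hb, rfl⟩
      have : c b = b := (Finset.mem_filter.1 (hT hb)).2
      rwa [this]
    · intro ha
      exact ⟨a, ha, (Finset.mem_filter.1 (hT ha)).2⟩
  set N : Finset (Fin 8) := Finset.univ.filter fun x => ¬ c x = x with hNdef
  have hN : 6 ≤ N.card := by
    have := Finset.card_filter_add_card_filter_not (s := (Finset.univ : Finset (Fin 8))) (fun x => c x = x)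
    simp only [Finset.card_univ, Fintype.card_fin] at this
    rw [← hNdef] at this
    omega
  have hNm : ∀ x, x ∈ N ↔ c x ≠ x := by intro x; simp [hNdef]
  have hc1 : ∀ x y : Fin 8, c x = c y → x = y := fun x y h => c.injective h
  have hcinv : ∀ x y : Fin 8, c x = y → x = c⁻¹ y := fun x y h => by rw [← h]; simp
  obtain ⟨x, hx, -⟩ := pick N ∅ (by simp only [Finset.card_empty]; omega)
  have hxc := (hNm x).1 hx
  by_cases h2 : c (c x) = x
  · obtain ⟨y, hy, hyS⟩ := pick N {x, c x} (lt_of_le_of_lt (Finset.card_le_two) (by omega))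
    have hyc := (hNm y).1 hy
    simp only [Finset.mem_insert, Finset.mem_singleton, not_or] at hyS
    obtain ⟨z, hz, hzS⟩ := pick N {x, c x, y, c y, c⁻¹ y}
      (lt_of_le_of_lt (Finset.card_le_five) (by omega))
    have hzc := (hNm z).1 hz
    simp only [Finset.mem_insert, Finset.mem_singleton, not_or] at hzS
    refine indep_T c x y z (Ne.symm hyS.1) (Ne.symm hzS.1) (Ne.symm hzS.2.2.1) hxc (Ne.symm hyS.2)
      (Ne.symm hzS.2.1) ?_ hyc (Ne.symm hzS.2.2.2.1) ?_ ?_ hzc
    · intro h
      apply hyS.2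
      apply hc1
      rw [h, h2]
    · intro h
      apply hzS.2.1
      apply hc1
      rw [h, h2]
    · intro h
      apply hzS.2.2.2.2
      exact hcinv _ _ h
  by_cases h3 : c (c (c x)) = x
  · refine ⟨{x, c x, c (c x)}, Finset.card_eq_three.2 ⟨x, c x, c (c x), Ne.symm hxc, Ne.symm h2, ?_, rfl⟩, Or.inl ?_⟩
    · intro h; exact hxc (hc1 _ _ h.symm)
    · ext a
      simp only [Finset.mem_image, Finset.mem_insert, Finset.mem_singleton]
      constructor
      · rintro ⟨b, hb, rfl⟩
        rcases hb with rfl | rfl | rfl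
        · simp
        · simp
        · simp [h3]
      · rintro (rfl | rfl | rfl)
        · exact ⟨c (c a), by simp, h3⟩
        · exact ⟨x, by simp, rfl⟩
        · exact ⟨c x, by simp, rfl⟩
  obtain ⟨z, hz, hzS⟩ := pick N {x, c x, c⁻¹ x, c (c x), c (c (c x))}
      (lt_of_le_of_lt (Finset.card_le_five) (by omega))
  have hzc := (hNm z).1 hz
  simp only [Finset.mem_insert, Finset.mem_singleton, not_or] at hzS
  refine indep_T c x (c (c x)) z (Ne.symm h2) (Ne.symm hzS.1) (Ne.symm hzS.2.2.2.1) hxc ?_ (Ne.symm hzS.2.1)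
    h3 ?_ (Ne.symm hzS.2.2.2.2) ?_ ?_ hzc
  · intro h
    exact hxc (hc1 _ _ h.symm)
  · intro h
    exact hxc (hc1 _ _ (hc1 _ _ h))
  · intro h
    exact hzS.2.2.1 (hcinv _ _ h)
  · intro h
    exact hzS.2.1 (hc1 _ _ h)

theorem vals (ρ : Perm (Fin 8)) (a b d : Fin 8) (hab : a ≠ b) (had : a ≠ d) (hbd : b ≠ d)
    (h : ρ.support = {a, b, d}) :
    (ρ a = b ∧ ρ b = d ∧ ρ d = a) ∨ (ρ a = d ∧ ρ d = b ∧ ρ b = a) := by
  have hm : ∀ x ∈ ({a, b, d} : Finset (Fin 8)), (ρ x ∈ ({a, b, d} : Finset (Fin 8))) ∧ ρ x ≠ x := by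
    intro x hx
    rw [← h] at hx ⊢
    exact ⟨Perm.apply_mem_support.2 hx, Perm.mem_support.1 hx⟩
  have h1 := hm a (by simp)
  have h2 := hm b (by simp)
  have h3 := hm d (by simp)
  simp only [Finset.mem_insert, Finset.mem_singleton] at h1 h2 h3
  have hinj : ∀ x y : Fin 8, ρ x = ρ y → x = y := fun x y h => ρ.injective h
  obtain ⟨h1, h1'⟩ := h1
  obtain ⟨h2, h2'⟩ := h2
  obtain ⟨h3, h3'⟩ := h3
  have e1 : ρ a ≠ ρ b := fun e => hab (hinj _ _ e)
  have e2 : ρ a ≠ ρ d := fun e => had (hinj _ _ e)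
  have e3 : ρ b ≠ ρ d := fun e => hbd (hinj _ _ e)
  rcases h1 with h1 | h1 | h1
  · exact absurd h1 h1'
  · left
    rw [h1] at e1 e2
    rcases h2 with h2 | h2 | h2
    · rcases h3 with h3 | h3 | h3
      · exact absurd (h2.trans h3.symm) e3
      · exact absurd h3.symm e2
      · exact absurd h3 h3'
    · exact absurd h2 h2'
    · rcases h3 with h3 | h3 | h3
      · exact ⟨h1, h2, h3⟩
      · exact absurd h3.symm e2
      · exact absurd h3 h3'
  · right
    rw [h1] at e1 e2
    rcases h3 with h3 | h3 | h3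
    · rcases h2 with h2 | h2 | h2
      · exact absurd (h2.trans h3.symm) e3
      · exact absurd h2 h2'
      · exact absurd h2.symm e1
    · rcases h2 with h2 | h2 | h2
      · exact ⟨h1, h3, h2⟩
      · exact absurd h2 h2'
      · exact absurd h2.symm e1
    · exact absurd h3 h3'

/-- Two three-cycles with the same support: the second lies in the cyclic group of the first. -/
theorem mem_zpowers_of_support_eq (σ τ : Perm (Fin 8)) (hσ : σ.IsThreeCycle)
    (h : τ.support = σ.support) : τ ∈ Subgroup.zpowers σ := by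
  classical
  obtain ⟨a, b, d, hab, had, hbd, hS⟩ := Finset.card_eq_three.1 hσ.card_support
  have ha : ∀ x, x ∉ ({a, b, d} : Finset (Fin 8)) → σ x = x ∧ τ x = x := by
    intro x hx
    rw [← hS] at hx
    have hx' := hx
    rw [← h] at hx'
    exact ⟨Perm.notMem_support.1 hx, Perm.notMem_support.1 hx'⟩
  have hall : ∀ x, x = a ∨ x = b ∨ x = d ∨ x ∉ ({a, b, d} : Finset (Fin 8)) := by
    intro x
    by_cases hx : x ∈ ({a, b, d} : Finset (Fin 8))
    · simp only [Finset.mem_insert, Finset.mem_singleton] at hx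
      rcases hx with rfl | rfl | rfl <;> simp
    · exact Or.inr (Or.inr (Or.inr hx))
  rcases vals σ a b d hab had hbd hS with ⟨s1, s2, s3⟩ | ⟨s1, s2, s3⟩ <;>
  rcases vals τ a b d hab had hbd (h.trans hS) with ⟨t1, t2, t3⟩ | ⟨t1, t2, t3⟩
  · have : τ = σ := by
      ext x
      rcases hall x with rfl | rfl | rfl | hx
      · rw [s1, t1]
      · rw [s2, t2]
      · rw [s3, t3]
      · rw [(ha x hx).1, (ha x hx).2]
    rw [this]; exact Subgroup.mem_zpowers σ
  · have : σ * τ = 1 := by
      ext x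
      rcases hall x with rfl | rfl | rfl | hx
      · simp [t1, t2, t3, s1, s2, s3]
      · simp [t1, t2, t3, s1, s2, s3]
      · simp [t1, t2, t3, s1, s2, s3]
      · simp [(ha x hx).1, (ha x hx).2]
    rw [eq_inv_of_mul_eq_one_right this]
    exact inv_mem (Subgroup.mem_zpowers σ)
  · have : σ * τ = 1 := by
      ext x
      rcases hall x with rfl | rfl | rfl | hx
      · simp [t1, t2, t3, s1, s2, s3]
      · simp [t1, t2, t3, s1, s2, s3]
      · simp [t1, t2, t3, s1, s2, s3]
      · simp [(ha x hx).1, (ha x hx).2]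
    rw [eq_inv_of_mul_eq_one_right this]
    exact inv_mem (Subgroup.mem_zpowers σ)
  · have : τ = σ := by
      ext x
      rcases hall x with rfl | rfl | rfl | hx
      · rw [s1, t1]
      · rw [s3, t3]
      · rw [s2, t2]
      · rw [(ha x hx).1, (ha x hx).2]
    rw [this]; exact Subgroup.mem_zpowers σ

theorem mem_normalizer_of_commute {G : Type*} [Group G] (σ τ : G) (h : Commute τ σ) :
    τ ∈ Subgroup.normalizer (Subgroup.zpowers σ : Set G) := by
  apply Subgroup.centralizer_le_normalizer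
  rw [Subgroup.mem_centralizer_iff]
  rintro a ⟨k, rfl⟩
  exact (h.symm.zpow_left k).eq

/-- In the symmetric group of degree 8, let A be the subgroup generated by a 3-cycle. Then every conjugacy class contains an element g for which A is subnormal in the subgroup generated by A and its conjugate by g, although O_3 of the symmetric group of degree 8 is trivial. -/
theorem result
    (σ : Equiv.Perm (Fin 8)) (hσ : σ.IsThreeCycle) :
    (∀ c : Equiv.Perm (Fin 8), ∃ g : Equiv.Perm (Fin 8), IsConj c g ∧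
      ((Subgroup.zpowers σ).subgroupOf (Subgroup.zpowers σ ⊔ MulAut.conj g • Subgroup.zpowers σ)).IsSubnormal) ∧
    Cfsg.pCore 3 (Equiv.Perm (Fin 8)) = ⊥ := by
  classical
  refine ⟨fun c => ?_, ?_⟩
  · obtain ⟨T, hT3, hT⟩ := exists_T c
    have hS3 := hσ.card_support
    let e : {x // x ∈ σ.support} ≃ {x // x ∈ T} := Finset.equivOfCardEq (hS3.trans hT3.symm)
    let h : Perm (Fin 8) := e.extendSubtype
    have hh : ∀ x ∈ σ.support, h x ∈ T := by
      intro x hx
      have : h x = e ⟨x, hx⟩ := Equiv.extendSubtype_apply_of_mem e x hx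
      rw [this]
      exact (e ⟨x, hx⟩).2
    have hmap : σ.support.image h = T := by
      apply Finset.eq_of_subset_of_card_le
      · intro y hy
        obtain ⟨x, hx, rfl⟩ := Finset.mem_image.1 hy
        exact hh x hx
      · rw [Finset.card_image_of_injective _ h.injective, hT3, hS3]
    have hmap' : T.image (⇑(h⁻¹)) = σ.support := by
      rw [← hmap, Finset.image_image]
      simp
    let g : Perm (Fin 8) := h⁻¹ * c * h
    refine ⟨g, isConj_iff.2 ⟨h⁻¹, by simp [g, mul_assoc]⟩, ?_⟩
    let τ : Perm (Fin 8) := g * σ * g⁻¹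
    have hconj : MulAut.conj g • Subgroup.zpowers σ = Subgroup.zpowers τ := by
      rw [Subgroup.pointwise_smul_def]
      exact MonoidHom.map_zpowers _ _
    have hsupp : τ.support = (T.image c).image (⇑(h⁻¹)) := by
      have h1 : τ.support = Finset.map (Equiv.toEmbedding g) σ.support := Equiv.Perm.support_conj
      rw [h1, Finset.map_eq_image, ← hmap, Finset.image_image, Finset.image_image]
      apply Finset.image_congr
      intro x _
      simp [g]
    have hτ : τ ∈ Subgroup.normalizer (Subgroup.zpowers σ : Set (Perm (Fin 8))) := by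
      rcases hT with hT | hT
      · apply Subgroup.le_normalizer
        apply mem_zpowers_of_support_eq σ τ hσ
        rw [hsupp, hT, hmap']
      · apply mem_normalizer_of_commute
        apply Equiv.Perm.Disjoint.commute
        rw [Equiv.Perm.disjoint_iff_disjoint_support, hsupp, ← hmap']
        exact (Finset.disjoint_image (h⁻¹).injective).2 hT
    rw [hconj]
    apply Subgroup.Normal.isSubnormal
    rw [Subgroup.normal_subgroupOf_iff_le_normalizer le_sup_left]
    apply sup_le Subgroup.le_normalizer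
    rw [Subgroup.zpowers_le]
    exact hτ
  · by_contra hne
    haveI hc : (Cfsg.pCore 3 (Perm (Fin 8))).Characteristic := Cfsg.Agent.Lib.PCore.pCore_characteristic 3
    haveI hn : (Cfsg.pCore 3 (Perm (Fin 8))).Normal := inferInstance
    have h8 := Cfsg.Agent.Lib.SwapOrbits.card_dvd_of_normal _ hne
    obtain ⟨k, hk⟩ := IsPGroup.iff_card.1 (Cfsg.Agent.Lib.PCore.isPGroup_pCore (G := Perm (Fin 8)) 3)
    rw [hk] at h8
    simp only [Nat.card_eq_fintype_card, Fintype.card_fin] at h8
    have h2 : 2 ∣ 3 ^ k := dvd_trans (by norm_num) h8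
    have := (Nat.Prime.dvd_of_dvd_pow Nat.prime_two h2)
    omega

end Cfsg.Agent.S4332
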