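import Mathlib
import Cfsg.Statements.S4333
import Cfsg.Agent.Lib.Subnormal2
-- import your own Cfsg.Agent.* helpers here

set_option autoImplicit false
open Pointwise
open Cfsg

namespace Cfsg.Agent.S4333


open Subgroup
open scoped Pointwise
open Cfsg.Agent.Lib.Subnormal Cfsg.Agent.Lib.Subnormal2

universe u

theorem subnormal_down {G : Type*} [Group G] {A X : Subgroup G} {H : Subgroup G}
    {X' : Subgroup H} (hX : ∀ x ∈ X', (x : G) ∈ X) (h : (A.subgroupOf X).IsSubnormal) :
    ((A.subgroupOf H).subgroupOf X').IsSubnormal := by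
  let f : X' →* X :=
    { toFun := fun x => ⟨x.1.1, hX _ x.2⟩, map_one' := rfl, map_mul' := fun _ _ => rfl }
  have h1 := h.comap f
  convert h1 using 1
  ext y
  rfl


theorem subnormal_incl {G : Type*} [Group G] {A X D : Subgroup G} (hD : D ≤ X)
    (h : (A.subgroupOf X).IsSubnormal) : (A.subgroupOf D).IsSubnormal := by
  have h1 := h.comap (Subgroup.inclusion hD)
  convert h1 using 1
  ext y
  rfl

theorem subnormal_conj {G : Type*} [Group G] {A X : Subgroup G} (g : G)
    (h : (A.subgroupOf X).IsSubnormal) :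
    ((MulAut.conj g • A).subgroupOf (MulAut.conj g • X)).IsSubnormal := by
  let f : ↥(MulAut.conj g • X) →* X :=
    { toFun := fun y => ⟨g⁻¹ * y.1 * g, by
        have := y.2
        rw [mem_conj_smul] at this
        exact this⟩
      map_one' := by ext; simp
      map_mul' := fun x y => by ext; simp [mul_assoc] }
  have h1 := h.comap f
  convert h1 using 1
  ext y
  simp only [Subgroup.mem_comap, Subgroup.mem_subgroupOf]
  rw [mem_conj_smul]
  rfl

theorem subnormal_of_normal_over {G : Type*} [Group G] {A N : Subgroup G} (hN : N.Normal) (hA : A ≤ N)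
    (h : (A.subgroupOf N).IsSubnormal) : A.IsSubnormal :=
  Subgroup.IsSubnormal.trans hA h hN.isSubnormal

theorem main : ∀ (n : ℕ) (G : Type u) [Group G] [Finite G], Nat.card G = n → ∀ A : Subgroup G,
    (∀ a ∈ A, ∀ g : G, (A.subgroupOf (A ⊔ MulAut.conj (g⁻¹ * a * g) • A)).IsSubnormal) →
    A.IsSubnormal := by
  intro n
  induction n using Nat.strong_induction_on with
  | _ n ih =>
  intro G _ _ hn A hyp
  by_contra hnot
  -- subnormality in proper overgroups
  have hover : ∀ V : Subgroup G, V ≠ ⊤ → A ≤ V → (A.subgroupOf V).IsSubnormal := by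
    intro V hV hAV
    have hlt : Nat.card V < n := by
      rw [← hn]
      exact Cfsg.Agent.Lib.Subnormal.card_lt_of_ne_top hV
    refine ih _ hlt V rfl (A.subgroupOf V) ?_
    intro a ha g
    have ha' : (a : G) ∈ A := ha
    have h1 := hyp a ha' g
    refine subnormal_down ?_ h1
    intro x hx
    have hle : (A.subgroupOf V) ⊔ MulAut.conj (g⁻¹ * a * g) • (A.subgroupOf V) ≤
        ((A ⊔ MulAut.conj ((g : G)⁻¹ * (a : G) * (g : G)) • A)).subgroupOf V := by
      apply sup_le
      · intro y hy
        exact (le_sup_left : A ≤ _) hy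
      · intro y hy
        rw [mem_conj_smul] at hy
        have hy' : ((g⁻¹ * a * g : V)⁻¹ * y * (g⁻¹ * a * g) : V).1 ∈ A := hy
        rw [Subgroup.mem_subgroupOf]
        apply (le_sup_right : MulAut.conj ((g : G)⁻¹ * (a : G) * (g : G)) • A ≤ _)
        rw [mem_conj_smul]
        exact hy'
    exact hle hx
  let U : Set (Subgroup G) := {V | V ≠ ⊤ ∧ A ≤ V}
  have hAtop : A ≠ ⊤ := by
    rintro rfl
    exact hnot Subgroup.IsSubnormal.top
  have hU : U.Nonempty := ⟨A, hAtop, le_refl A⟩
  let S : Subgroup G → Set (Subgroup G) := fun V =>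
    {B | (∃ g : G, B = MulAut.conj g • A) ∧ B ≤ V ∧ (B.subgroupOf V).IsSubnormal}
  have hconjback : ∀ (g : G) (V : Subgroup G), MulAut.conj g • (MulAut.conj g)⁻¹ • V = V := by
    intro g V
    exact smul_inv_smul _ _
  obtain ⟨M, ⟨hMtop, hAM⟩, hM⟩ := zipper A U hU S (fun _ _ => Iff.rfl) (by
      rintro V ⟨hV, hAV⟩ W - B ⟨⟨g, rfl⟩, -, -⟩ hB
      refine ⟨⟨g, rfl⟩, hB, ?_⟩
      have hX : (MulAut.conj g)⁻¹ • V ≠ ⊤ := by
        intro h
        apply hV
        rw [← hconjback g V, h]
        exact Subgroup.Normal.conj_smul_eq_self g ⊤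
      have hAX : A ≤ (MulAut.conj g)⁻¹ • V := by
        intro x hx
        have := hB (Subgroup.smul_mem_pointwise_smul _ (MulAut.conj g) _ hx)
        exact (Subgroup.mem_inv_pointwise_smul_iff).2 this
      have h1 := subnormal_conj g (hover _ hX hAX)
      rwa [hconjback] at h1)
    (by
      rintro V ⟨hV, hAV⟩ W ⟨hW, hAW⟩
      set D := sSup (S V ∩ S W) with hD
      have hAD : A ≤ D := by
        apply le_sSup
        have hconj1 : MulAut.conj (1 : G) • A = A := by simp
        exact ⟨⟨⟨1, hconj1.symm⟩, hAV, hover V hV hAV⟩, ⟨⟨1, hconj1.symm⟩, hAW, hover W hW hAW⟩⟩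
      have hDV : D ≤ V := sSup_le fun B hB => hB.1.2.1
      refine ⟨Subgroup.normalizer (D : Set G), ⟨?_, hAD.trans Subgroup.le_normalizer⟩, le_refl _⟩
      intro htop
      have hDn : D.Normal := Subgroup.normalizer_eq_top_iff.1 htop
      exact hnot (subnormal_of_normal_over hDn hAD (subnormal_incl hDV (hover V hV hAV))))
  -- conjugates of elements of `A` normalize `M`
  have hnorm : ∀ a ∈ A, ∀ g : G, g⁻¹ * a * g ∈ Subgroup.normalizer (M : Set G) := by
    intro a ha g
    set h := g⁻¹ * a * g with hh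
    have hX1 : A ⊔ MulAut.conj h • A ≠ ⊤ := by
      intro htop
      have h1 := hyp a ha g
      rw [← hh, htop] at h1
      exact hnot (Subgroup.IsSubnormal.trans le_top h1 Subgroup.IsSubnormal.top)
    have hle1 : MulAut.conj h • A ≤ M :=
      le_sup_right.trans (hM _ ⟨hX1, le_sup_left⟩)
    have hV1 : (MulAut.conj h)⁻¹ • M ≠ ⊤ := by
      intro hx
      apply hMtop
      rw [← hconjback h M, hx]
      exact Subgroup.Normal.conj_smul_eq_self h ⊤
    have hAV1 : A ≤ (MulAut.conj h)⁻¹ • M := by
      intro x hx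
      exact (Subgroup.mem_inv_pointwise_smul_iff).2
        (hle1 (Subgroup.smul_mem_pointwise_smul _ (MulAut.conj h) _ hx))
    have hVM := hM _ ⟨hV1, hAV1⟩
    have hcard : Nat.card M ≤ Nat.card ↥((MulAut.conj h)⁻¹ • M) :=
      (Nat.card_congr (Subgroup.equivSMul ((MulAut.conj h)⁻¹) M).toEquiv).le
    have hV2 : (MulAut.conj h)⁻¹ • M = M := Subgroup.eq_of_le_of_card_ge hVM hcard
    have hV3 := hconjback h M
    rw [hV2] at hV3
    exact Subgroup.mem_normalizer_iff_map_conj_eq.2 hV3
  have hN : Subgroup.normalClosure (A : Set G) ≤ Subgroup.normalizer (M : Set G) := by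
    rw [Subgroup.normalClosure, Subgroup.closure_le]
    intro x hx
    obtain ⟨a, ha, hax⟩ := Group.mem_conjugatesOfSet_iff.1 hx
    obtain ⟨c, hc⟩ := isConj_iff.1 hax
    have := hnorm a ha c⁻¹
    simpa [hc] using this
  by_cases htop : Subgroup.normalClosure (A : Set G) = ⊤
  · have hMn : M.Normal := Subgroup.normalizer_eq_top_iff.1 (top_le_iff.1 (htop ▸ hN))
    exact hnot (subnormal_of_normal_over hMn hAM (hover M hMtop hAM))
  · have hnc : (Subgroup.normalClosure (A : Set G)).Normal := inferInstance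
    have hAN : A ≤ Subgroup.normalClosure (A : Set G) := Subgroup.subset_normalClosure
    exact hnot (subnormal_of_normal_over hnc hAN (hover _ htop hAN))

/-- Let A be a subgroup of a finite group G. If A is subnormal in the subgroup generated by A and its conjugate by g⁻¹ a g, for every a ∈ A and every g ∈ G, then A is subnormal in G. (A sharpening of Wielandt's subnormality criterion: only conjugates of A by conjugates of elements of A are needed.) -/
theorem result {G : Type*} [Group G] [Finite G]
    (A : Subgroup G)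
    (h : ∀ a ∈ A, ∀ g : G, (A.subgroupOf (A ⊔ MulAut.conj (g⁻¹ * a * g) • A)).IsSubnormal) :
    A.IsSubnormal := by
  exact main _ G rfl A h

end Cfsg.Agent.S4333
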