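import Mathlib
import Cfsg.Prelude.Def_OddOrderLocal
import Cfsg.Prelude.Def_HallClasses
import Cfsg.Prelude.Def_Transfer
import Cfsg.Agent.S0581
import Cfsg.Agent.Lib.AlperinControl
import Cfsg.Agent.Lib.PComplement
import Cfsg.Agent.Lib.PCore
import Cfsg.Agent.Lib.PResid
import Cfsg.Agent.Lib.FusionExt
import Cfsg.Agent.Lib.TransferCore

set_option autoImplicit false
open Cfsg

namespace Cfsg.Agent.S4334

open Cfsg.Agent.Lib.AlperinControl Cfsg.Agent.Lib.PComplement Cfsg.Agent.Lib.FusionExt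
open scoped Pointwise

variable {G : Type*} [Group G] [Finite G]

theorem card_sup_dvd' (A B : Subgroup G) (h : B ≤ NN A) :
    Nat.card ↥(B ⊔ A) ∣ Nat.card B * Nat.card A := by
  have hA' : (A.subgroupOf (NN A)).Normal := Subgroup.normal_in_normalizer
  have h1 := Cfsg.Agent.Lib.PCore.card_sup_dvd (B.subgroupOf (NN A)) (A.subgroupOf (NN A))
  have h2 : Nat.card ↥(B.subgroupOf (NN A)) = Nat.card B :=
    Nat.card_congr (Subgroup.subgroupOfEquivOfLe h).toEquiv
  have h3 : Nat.card ↥(A.subgroupOf (NN A)) = Nat.card A :=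
    Nat.card_congr (Subgroup.subgroupOfEquivOfLe Subgroup.le_normalizer).toEquiv
  have h4 : ((B.subgroupOf (NN A)) ⊔ (A.subgroupOf (NN A))).map (NN A).subtype = B ⊔ A := by
    rw [Subgroup.map_sup, Subgroup.subgroupOf_map_subtype, Subgroup.subgroupOf_map_subtype,
      inf_eq_left.mpr h, inf_eq_left.mpr Subgroup.le_normalizer]
  have h5 : Nat.card ↥((B.subgroupOf (NN A)) ⊔ (A.subgroupOf (NN A))) = Nat.card ↥(B ⊔ A) := by
    rw [← h4]
    exact (Subgroup.card_map_of_injective (NN A).subtype_injective).symm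
  rw [h2, h3, h5] at h1
  exact h1

/-- Elements of `p`-power order of `H` commute with elements of order prime to `p` of `H`. -/
def Star (σ : Set ℕ) (H : Subgroup G) : Prop :=
  ∀ p : ℕ, p.Prime → p ∈ σ → ∀ a ∈ H, (∃ k : ℕ, a ^ p ^ k = 1) → ∀ b ∈ H, (orderOf b).Coprime p →
    a * b = b * a

theorem coprime_order {σ τ : Set ℕ} (hd : Disjoint σ τ) {Hs Ht : Subgroup G}
    (hs : Cfsg.IsPiSubgroup σ Hs) (ht : Cfsg.IsPiSubgroup τ Ht) {s t : G} (hsm : s ∈ Hs) (htm : t ∈ Ht) :
    (orderOf s).Coprime (orderOf t) := by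
  apply Nat.Coprime.symm
  apply Nat.coprime_of_dvd
  intro r hr h1 h2
  have h3 : r ∈ τ := ht r hr (h1.trans (Subgroup.orderOf_dvd_natCard Ht htm))
  have h4 : r ∈ σ := hs r hr (h2.trans (Subgroup.orderOf_dvd_natCard Hs hsm))
  exact Set.disjoint_left.mp hd h4 h3

theorem star_holds {σ τ : Set ℕ} (hd : Disjoint σ τ) {H Hs Ht : Subgroup G}
    (hs : Cfsg.IsPiSubgroup σ Hs) (ht : Cfsg.IsPiSubgroup τ Ht) (hsn : Group.IsNilpotent Hs)
    (hjoin : Hs ⊔ Ht = H) (hcomm : ∀ a ∈ Hs, ∀ b ∈ Ht, a * b = b * a) : Star σ H := by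
  intro p hp hpσ a ha ⟨k, hk⟩ b hb hc
  have hN : Hs ≤ NN Ht := by
    intro s hs'
    apply mem_NN_of_forall
    intro x hx
    rw [hcomm s hs' x hx, mul_inv_cancel_right]
    exact hx
  rw [← hjoin] at ha hb
  obtain ⟨s, hsm, t, htm, rfl⟩ := mem_sup_mul hN ha
  obtain ⟨s', hsm', t', htm', rfl⟩ := mem_sup_mul hN hb
  have ht1 : t = 1 := by
    by_contra hne
    have h1 : orderOf t ≠ 1 := fun h => hne (orderOf_eq_one_iff.mp h)
    obtain ⟨r, hr, hrd⟩ := Nat.exists_prime_and_dvd h1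
    have hrτ : r ∈ τ := ht r hr (hrd.trans (Subgroup.orderOf_dvd_natCard Ht htm))
    have h2 : orderOf (s * t) = orderOf s * orderOf t :=
      (show Commute s t from hcomm s hsm t htm).orderOf_mul_eq_mul_orderOf_of_coprime
        (coprime_order hd hs ht hsm htm)
    have h3 : orderOf (s * t) ∣ p ^ k := orderOf_dvd_of_pow_eq_one hk
    have h4 : r ∣ p ^ k := by
      refine dvd_trans ?_ h3
      rw [h2]
      exact hrd.trans (dvd_mul_left _ _)
    have h5 : r = p := (Nat.prime_dvd_prime_iff_eq hr hp).mp (hr.dvd_of_dvd_pow h4)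
    exact Set.disjoint_left.mp hd (h5 ▸ hpσ) hrτ
  subst ht1
  rw [mul_one] at hk ⊢
  have hco : (orderOf s').Coprime p := by
    have h2 : orderOf (s' * t') = orderOf s' * orderOf t' :=
      (show Commute s' t' from hcomm s' hsm' t' htm').orderOf_mul_eq_mul_orderOf_of_coprime
        (coprime_order hd hs ht hsm' htm')
    rw [h2] at hc
    exact Nat.Coprime.coprime_dvd_left (dvd_mul_right _ _) hc
  haveI : Fact p.Prime := ⟨hp⟩
  haveI := hsn
  have h1 : (⟨s, hsm⟩ : ↥Hs) * ⟨s', hsm'⟩ = ⟨s', hsm'⟩ * ⟨s, hsm⟩ := by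
    apply commute_of_isNilpotent (p := p)
    · exact ⟨k, Subtype.ext hk⟩
    · rwa [Subgroup.orderOf_mk]
  have h2 : s * s' = s' * s := congrArg Subtype.val h1
  calc s * (s' * t') = s' * (s * t') := by rw [← mul_assoc, h2, mul_assoc]
    _ = s' * (t' * s) := by rw [hcomm s hsm t' htm']
    _ = s' * t' * s := by rw [mul_assoc]

section

variable {π : Set ℕ} {H : Subgroup G}

theorem exists_sylow_le (hH : Cfsg.IsPiHall π H) {r : ℕ} (hr : r.Prime) (hrπ : r ∈ π) :
    ∃ T : Subgroup G, T ≤ H ∧ IsPGroup r T ∧ ¬ r ∣ T.index := by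
  haveI : Fact r.Prime := ⟨hr⟩
  obtain ⟨S⟩ : Nonempty (Sylow r ↥H) := inferInstance
  refine ⟨(S : Subgroup ↥H).map H.subtype, Subgroup.map_subtype_le _, S.isPGroup'.map _, ?_⟩
  rw [Subgroup.index_map_subtype]
  intro hd
  rcases (Nat.Prime.dvd_mul hr).mp hd with h | h
  · exact S.not_dvd_index h
  · exact hH.2 r hr hrπ h

theorem dvd_card_of_index {T : Subgroup G} {r : ℕ} (hr : r.Prime) (hT : ¬ r ∣ T.index)
    (hd : r ∣ Nat.card G) : r ∣ Nat.card T := by
  rw [← T.card_mul_index] at hd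
  rcases (Nat.Prime.dvd_mul hr).mp hd with h | h
  · exact h
  · exact absurd h hT

theorem pow_of_isPGroup {T : Subgroup G} {r : ℕ} (hT : IsPGroup r T) {a : G} (ha : a ∈ T) :
    ∃ k : ℕ, a ^ r ^ k = 1 := by
  obtain ⟨k, hk⟩ := hT ⟨a, ha⟩
  exact ⟨k, congrArg Subtype.val hk⟩

theorem orderOf_eq_pow_of_isPGroup {T : Subgroup G} {r : ℕ} (hr : r.Prime) (hT : IsPGroup r T) {a : G}
    (ha : a ∈ T) : ∃ k : ℕ, orderOf a = r ^ k := by
  obtain ⟨k, hk⟩ := pow_of_isPGroup hT ha
  haveI : Fact r.Prime := ⟨hr⟩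
  obtain ⟨j, _, hj⟩ := (Nat.dvd_prime_pow hr).mp (orderOf_dvd_of_pow_eq_one hk)
  exact ⟨j, hj⟩

theorem coprime_of_isPGroup {T : Subgroup G} {q p : ℕ} (hq : q.Prime) (hp : p.Prime) (hne : q ≠ p)
    (hT : IsPGroup q T) {a : G} (ha : a ∈ T) : (orderOf a).Coprime p := by
  obtain ⟨k, hk⟩ := orderOf_eq_pow_of_isPGroup hq hT ha
  rw [hk]
  exact Nat.Coprime.pow_left k ((Nat.coprime_primes hq hp).mpr hne)

/-- `{p,q}`-subgroups are conjugate into `H`. -/
theorem pq_conj {σ : Set ℕ} (hσπ : σ ⊆ π) (hH : Cfsg.IsPiHall π H) (hstar : Star σ H) {p q : ℕ}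
    (hp : p.Prime) (hpσ : p ∈ σ) (hq : q.Prime) (hqπ : q ∈ π) (hne : q ≠ p) (W : Subgroup G)
    (hW : ∀ r : ℕ, r.Prime → r ∣ Nat.card W → r = p ∨ r = q) :
    ∃ x : G, ∀ w ∈ W, x * w * x⁻¹ ∈ H := by
  haveI : Fact p.Prime := ⟨hp⟩
  haveI : Fact q.Prime := ⟨hq⟩
  obtain ⟨Hp, hHpH, hHpp, hHpi⟩ := exists_sylow_le hH hp (hσπ hpσ)
  obtain ⟨Hq, hHqH, hHqq, hHqi⟩ := exists_sylow_le hH hq hqπ
  have hcomm : ∀ a ∈ Hp, ∀ b ∈ Hq, a * b = b * a := fun a ha b hb =>
    hstar p hp hpσ a (hHpH ha) (pow_of_isPGroup hHpp ha) b (hHqH hb)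
      (coprime_of_isPGroup hq hp hne hHqq hb)
  set Hpq := Hp ⊔ Hq with hHpq
  have hnil : Group.IsNilpotent ↥Hpq := by
    let f : ↥Hp × ↥Hq →* G := MonoidHom.noncommCoprod Hp.subtype Hq.subtype
      (fun a b => hcomm a a.2 b b.2)
    have hr : f.range = Hpq := by
      apply le_antisymm
      · rintro _ ⟨⟨a, b⟩, rfl⟩
        show (a : G) * (b : G) ∈ Hpq
        exact Subgroup.mul_mem_sup a.2 b.2
      · apply sup_le
        · intro a ha
          exact ⟨(⟨a, ha⟩, 1), by
            show a * ((1 : ↥Hq) : G) = a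
            simp⟩
        · intro b hb
          exact ⟨(1, ⟨b, hb⟩), by
            show ((1 : ↥Hp) : G) * b = b
            simp⟩
    haveI : Group.IsNilpotent ↥Hp := hHpp.isNilpotent
    haveI : Group.IsNilpotent ↥Hq := hHqq.isNilpotent
    have h1 : Group.IsNilpotent ↥f.range :=
      nilpotent_of_surjective f.rangeRestrict f.rangeRestrict_surjective
    rw [hr] at h1
    exact h1
  have hcard : Nat.card ↥Hpq ∣ Nat.card Hp * Nat.card Hq := by
    rw [mul_comm]
    rw [hHpq, sup_comm]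
    apply card_sup_dvd'
    intro b hb
    apply mem_NN_of_forall
    intro a ha
    rw [← hcomm a ha b hb, mul_inv_cancel_right]
    exact ha
  have hprimes : ∀ r : ℕ, r.Prime → r ∣ Nat.card ↥Hpq → r = p ∨ r = q := by
    intro r hr hd
    rcases (Nat.Prime.dvd_mul hr).mp (hd.trans hcard) with h | h
    · left
      obtain ⟨k, hk⟩ := IsPGroup.iff_card.mp hHpp
      rw [hk] at h
      exact (Nat.prime_dvd_prime_iff_eq hr hp).mp (hr.dvd_of_dvd_pow h)
    · right
      obtain ⟨k, hk⟩ := IsPGroup.iff_card.mp hHqq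
      rw [hk] at h
      exact (Nat.prime_dvd_prime_iff_eq hr hq).mp (hr.dvd_of_dvd_pow h)
  have hidx1 : Hpq.index ∣ Hp.index := Subgroup.index_dvd_of_le le_sup_left
  have hidx2 : Hpq.index ∣ Hq.index := Subgroup.index_dvd_of_le le_sup_right
  have hcop : (Nat.card ↥Hpq).Coprime Hpq.index := by
    apply Nat.coprime_of_dvd
    intro r hr h1 h2
    rcases hprimes r hr h1 with rfl | rfl
    · exact hHpi (h2.trans hidx1)
    · exact hHqi (h2.trans hidx2)
  obtain ⟨x, hx⟩ := Cfsg.Agent.S0581.result Hpq W hnil hcop (by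
    intro r hr hd
    have hrG : r ∣ Nat.card G := hd.trans (Subgroup.card_subgroup_dvd_card W)
    rcases hW r hr hd with rfl | rfl
    · exact (dvd_card_of_index hr hHpi hrG).trans (Subgroup.card_dvd_of_le le_sup_left)
    · exact (dvd_card_of_index hr hHqi hrG).trans (Subgroup.card_dvd_of_le le_sup_right))
  refine ⟨x⁻¹, fun w hw => ?_⟩
  have h1 := hx hw
  rw [Subgroup.mem_pointwise_smul_iff_inv_smul_mem] at h1
  have h2 : x⁻¹ * w * x⁻¹⁻¹ ∈ Hpq := by
    have : (MulAut.conj x)⁻¹ • w = x⁻¹ * w * x⁻¹⁻¹ := by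
      simp [MulAut.smul_def, MulAut.conj_inv_apply]
    rw [← this]
    exact h1
  exact (sup_le hHpH hHqH) h2

/-- Prime power order elements normalizing a `p`-subgroup centralize it. -/
theorem centr {σ : Set ℕ} (hσπ : σ ⊆ π) (hH : Cfsg.IsPiHall π H) (hstar : Star σ H) {p q : ℕ}
    (hp : p.Prime) (hpσ : p ∈ σ) (hq : q.Prime) (hqπ : q ∈ π) (hne : q ≠ p)
    (Q : Subgroup G) (hQ : IsPGroup p Q) {g : G} (hg : g ∈ NN Q) {n : ℕ} (hgn : g ^ q ^ n = 1) :
    g ∈ Subgroup.centralizer (Q : Set G) := by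
  haveI : Fact p.Prime := ⟨hp⟩
  set W := Subgroup.zpowers g ⊔ Q with hW
  have hord : ∃ j, orderOf g = q ^ j := by
    obtain ⟨j, _, hj⟩ := (Nat.dvd_prime_pow hq).mp (orderOf_dvd_of_pow_eq_one hgn)
    exact ⟨j, hj⟩
  have hle : Subgroup.zpowers g ≤ NN Q := (Subgroup.zpowers_le).mpr hg
  have hWp : ∀ r : ℕ, r.Prime → r ∣ Nat.card W → r = p ∨ r = q := by
    intro r hr hd
    rcases (Nat.Prime.dvd_mul hr).mp (hd.trans (card_sup_dvd' Q _ hle)) with h | h
    · right
      rw [Nat.card_zpowers] at h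
      obtain ⟨j, hj⟩ := hord
      rw [hj] at h
      exact (Nat.prime_dvd_prime_iff_eq hr hq).mp (hr.dvd_of_dvd_pow h)
    · left
      obtain ⟨k, hk⟩ := IsPGroup.iff_card.mp hQ
      rw [hk] at h
      exact (Nat.prime_dvd_prime_iff_eq hr hp).mp (hr.dvd_of_dvd_pow h)
  obtain ⟨x, hx⟩ := pq_conj hσπ hH hstar hp hpσ hq hqπ hne W hWp
  rw [Subgroup.mem_centralizer_iff]
  intro a ha
  have ha' : a ∈ Q := ha
  have h1 : x * a * x⁻¹ ∈ H := hx a ((le_sup_right : Q ≤ W) ha')
  have h2 : x * g * x⁻¹ ∈ H := hx g ((le_sup_left : Subgroup.zpowers g ≤ W) (Subgroup.mem_zpowers g))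
  have h3 : ∃ k : ℕ, (x * a * x⁻¹) ^ p ^ k = 1 := by
    obtain ⟨k, hk⟩ := pow_of_isPGroup hQ ha'
    refine ⟨k, ?_⟩
    rw [conj_pow, hk]
    simp
  have h4 : (orderOf (x * g * x⁻¹)).Coprime p := by
    have : orderOf (x * g * x⁻¹) = orderOf g := MulEquiv.orderOf_eq (MulAut.conj x) g
    rw [this]
    obtain ⟨j, hj⟩ := hord
    rw [hj]
    exact Nat.Coprime.pow_left j ((Nat.coprime_primes hq hp).mpr hne)
  have h5 := hstar p hp hpσ _ h1 h3 _ h2 h4
  have h6 : x * (a * g) * x⁻¹ = x * (g * a) * x⁻¹ := by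
    calc x * (a * g) * x⁻¹ = (x * a * x⁻¹) * (x * g * x⁻¹) := by group
      _ = (x * g * x⁻¹) * (x * a * x⁻¹) := h5
      _ = x * (g * a) * x⁻¹ := by group
  have h7 : a * g = g * a := by simpa using h6
  exact h7

/-- `p'`-elements normalizing a `p`-subgroup centralize it. -/
theorem centr' {σ : Set ℕ} (hσπ : σ ⊆ π) (hH : Cfsg.IsPiHall π H) (hstar : Star σ H) {p : ℕ}
    (hp : p.Prime) (hpσ : p ∈ σ) (Q : Subgroup G) (hQ : IsPGroup p Q) :
    ∀ (m : ℕ) (g : G), orderOf g = m → g ∈ NN Q → (orderOf g).Coprime p →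
      (∀ r : ℕ, r.Prime → r ∣ orderOf g → r ∈ π) → g ∈ Subgroup.centralizer (Q : Set G) := by
  intro m
  induction m using Nat.strong_induction_on with
  | _ m ih =>
    intro g hm hg hc hπg
    by_cases h1 : orderOf g = 1
    · rw [orderOf_eq_one_iff.mp h1]
      exact one_mem _
    obtain ⟨q, hq, hqd⟩ := Nat.exists_prime_and_dvd h1
    haveI : Fact q.Prime := ⟨hq⟩
    have hne : q ≠ p := by
      rintro rfl
      exact hq.one_lt.ne' (Nat.Coprime.eq_one_of_dvd hc.symm hqd)
    obtain ⟨a, b, e, _, ⟨n, hn⟩, hb, ha', hb'⟩ := Cfsg.Agent.Lib.PResid.exists_decomp (p := q) g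
    by_cases hb1 : b = 1
    · have hga : g = a := by rw [e, hb1, mul_one]
      rw [hga]
      exact centr hσπ hH hstar hp hpσ hq (hπg q hq hqd) hne Q hQ (hga ▸ hg) hn
    · have hda : orderOf a ∣ orderOf g := orderOf_dvd_of_mem_zpowers ha'
      have hdb : orderOf b ∣ orderOf g := orderOf_dvd_of_mem_zpowers hb'
      have hmem : ∀ y ∈ Subgroup.zpowers g, y ∈ NN Q := fun y hy => (Subgroup.zpowers_le.mpr hg) hy
      have hbq : orderOf b < orderOf g := by
        refine lt_of_le_of_ne (Nat.le_of_dvd (orderOf_pos g) hdb) fun he => ?_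
        rw [he] at hb
        exact hq.one_lt.ne' (Nat.Coprime.eq_one_of_dvd hb.symm hqd)
      have hab : orderOf a < orderOf g := by
        refine lt_of_le_of_ne (Nat.le_of_dvd (orderOf_pos g) hda) fun he => ?_
        have h2 : orderOf g ∣ q ^ n := he ▸ orderOf_dvd_of_pow_eq_one hn
        have h4 : orderOf b = 1 := Nat.Coprime.eq_one_of_dvd (hb.pow_right n) (hdb.trans h2)
        exact hb1 (orderOf_eq_one_iff.mp h4)
      have h3 := ih _ (hm ▸ hab) a rfl (hmem a ha') (Nat.Coprime.coprime_dvd_left hda hc)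
        (fun r hr hd => hπg r hr (hd.trans hda))
      have h4 := ih _ (hm ▸ hbq) b rfl (hmem b hb') (Nat.Coprime.coprime_dvd_left hdb hc)
        (fun r hr hd => hπg r hr (hd.trans hdb))
      rw [e]
      exact mul_mem h3 h4

/-- The main claim: `π`-subgroups are conjugate into `H`. -/
theorem claim {σ τ : Set ℕ} (hπ : π = σ ∪ τ) (hd : Disjoint σ τ) {Hs Ht : Subgroup G}
    (hH : Cfsg.IsPiHall π H) (hs : Cfsg.IsPiSubgroup σ Hs) (ht : Cfsg.IsPiSubgroup τ Ht)
    (hjoin : Hs ⊔ Ht = H) (hstar : Star σ H) (hcomm : ∀ a ∈ Hs, ∀ b ∈ Ht, a * b = b * a)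
    (hD : Cfsg.IsDPiGroup τ G) :
    ∀ (n : ℕ) (U : Subgroup G), Nat.card U = n → Cfsg.IsPiSubgroup π U →
      ∃ x : G, ∀ u ∈ U, x * u * x⁻¹ ∈ H := by
  have hσπ : σ ⊆ π := by rw [hπ]; exact Set.subset_union_left
  have hτπ : τ ⊆ π := by rw [hπ]; exact Set.subset_union_right
  intro n
  induction n using Nat.strong_induction_on with
  | _ n ih =>
    intro U hUn hU
    by_cases hex : ∃ p : ℕ, p.Prime ∧ p ∈ σ ∧ p ∣ Nat.card U
    · obtain ⟨p, hp, hpσ, hpU⟩ := hex
      haveI : Fact p.Prime := ⟨hp⟩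
      have hN : Cfsg.HasNormalPComplement p ↥U := by
        rw [hasNormalPComplement_iff_forall]
        intro Q hQ g hg hgc
        have hQ' : IsPGroup p ↥(Q.map U.subtype) := hQ.map _
        have h1 : (g : G) ∈ NN (Q.map U.subtype) := by
          apply mem_NN_of_forall
          rintro _ ⟨a, ha, rfl⟩
          have h2 := (Subgroup.mem_normalizer_iff.mp hg a).mp ha
          exact ⟨_, h2, rfl⟩
        have h3 : orderOf (g : G) = orderOf g := Subgroup.orderOf_coe g
        have h4 := centr' hσπ hH hstar hp hpσ (Q.map U.subtype) hQ' _ (g : G) rfl h1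
          (by rw [h3]; exact hgc)
          (fun r hr hdr => hU r hr (hdr.trans (Subgroup.orderOf_dvd_natCard U g.2)))
        rw [Subgroup.mem_centralizer_iff] at h4 ⊢
        intro a ha
        exact Subtype.ext (h4 a ⟨a, ha, rfl⟩)
      obtain ⟨P, N, hNn, hNc⟩ := hN
      have hNco : (Nat.card N).Coprime p :=
        Cfsg.Agent.Lib.TransferCore.coprime_card_of_complement hNc
      have hcardN : Nat.card N * Nat.card (P : Subgroup ↥U) = Nat.card ↥U := hNc.card_mul_card
      have hPgt : 1 < Nat.card (P : Subgroup ↥U) := by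
        have h1 : p ∣ Nat.card (P : Subgroup ↥U) := by
          rw [P.card_eq_multiplicity]
          exact dvd_pow_self p (by
            exact (hp.factorization_pos_of_dvd Nat.card_pos.ne' hpU).ne')
        exact lt_of_lt_of_le hp.one_lt (Nat.le_of_dvd Nat.card_pos h1)
      set K : Subgroup G := N.map U.subtype with hK
      have hcardK : Nat.card K = Nat.card N := Subgroup.card_map_of_injective U.subtype_injective
      have hKlt : Nat.card K < n := by
        rw [hcardK, ← hUn, ← hcardN]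
        exact lt_mul_of_one_lt_right Nat.card_pos hPgt
      have hKπ : Cfsg.IsPiSubgroup π K := by
        intro r hr hdr
        apply hU r hr
        rw [hcardK] at hdr
        exact hdr.trans (Subgroup.card_subgroup_dvd_card N)
      obtain ⟨x, hx⟩ := ih _ hKlt K rfl hKπ
      set K₁ : Subgroup G := cj x K with hK₁
      have hK₁H : K₁ ≤ H := by
        rintro _ ⟨k, hk, rfl⟩
        exact hx k hk
      have hK₁co : ∀ k ∈ K₁, (orderOf k).Coprime p := by
        intro k hk
        have h1 : orderOf k ∣ Nat.card K₁ := Subgroup.orderOf_dvd_natCard K₁ hk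
        have h2 : Nat.card K₁ = Nat.card N := by rw [hK₁, card_cj, hcardK]
        rw [h2] at h1
        exact Nat.Coprime.coprime_dvd_left h1 hNco
      obtain ⟨Hp, hHpH, hHpp, hHpi⟩ := exists_sylow_le hH hp (hσπ hpσ)
      have hHpN : Hp ≤ NN K₁ := by
        intro h hh
        apply mem_NN_of_forall
        intro k hk
        have h1 := hstar p hp hpσ h (hHpH hh) (pow_of_isPGroup hHpp hh) k (hK₁H hk) (hK₁co k hk)
        rw [h1, mul_inv_cancel_right]
        exact hk
      obtain ⟨T, hT, hHpT⟩ := exists_isSyl_ge hHpN hHpp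
      have hTeq : T = Hp := by
        have h1 : Hp.relIndex T * T.index = Hp.index := Subgroup.relIndex_mul_index hHpT
        have h2 : Hp.relIndex T = 1 := by
          obtain ⟨k, hk⟩ := IsPGroup.iff_card.mp hT.pgrp
          have h3 : Hp.relIndex T ∣ p ^ k := hk ▸ Subgroup.relIndex_dvd_card Hp T
          obtain ⟨j, hj, hj'⟩ := (Nat.dvd_prime_pow hp).mp h3
          rcases Nat.eq_zero_or_pos j with rfl | hjpos
          · simpa using hj'
          · exfalso
            apply hHpi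
            rw [← h1, hj']
            exact (dvd_pow_self p hjpos.ne').trans (dvd_mul_right _ _)
        exact le_antisymm (Subgroup.relIndex_eq_one.mp h2) hHpT
      rw [hTeq] at hT
      set P₀ : Subgroup G := (P : Subgroup ↥U).map U.subtype with hP₀
      have hP₁N : cj x P₀ ≤ NN K₁ := by
        rintro _ ⟨s, ⟨s', hs', rfl⟩, rfl⟩
        apply mem_NN_of_forall
        rintro _ ⟨k, ⟨k', hk', rfl⟩, rfl⟩
        refine ⟨_, ⟨_, hNn.conj_mem k' hk' s', rfl⟩, ?_⟩
        show x * ((s' : G) * (k' : G) * (s' : G)⁻¹) * x⁻¹ =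
          x * (s' : G) * x⁻¹ * (x * (k' : G) * x⁻¹) * (x * (s' : G) * x⁻¹)⁻¹
        group
      obtain ⟨m, hm, hmc⟩ := hT.conj (cj x P₀) hP₁N (isPGroup_cj (P.isPGroup'.map _) x)
      refine ⟨m * x, fun u hu => ?_⟩
      have hmem : (⟨u, hu⟩ : ↥U) ∈ ((N : Set ↥U) * ((P : Subgroup ↥U) : Set ↥U)) := by
        rw [hNc.mul_eq]; trivial
      obtain ⟨k, hk, s, hs, hks⟩ := Set.mem_mul.mp hmem
      have hu' : u = (k : G) * (s : G) := (congrArg Subtype.val hks).symm
      have e1 : m * x * u * (m * x)⁻¹ =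
          (m * (x * (k : G) * x⁻¹) * m⁻¹) * (m * (x * (s : G) * x⁻¹) * m⁻¹) := by
        rw [hu']; group
      rw [e1]
      apply H.mul_mem
      · apply hK₁H
        exact conj_mem_of_mem_NN hm ⟨k, ⟨k, hk, rfl⟩, rfl⟩
      · exact hHpH (hmc _ ⟨s, ⟨s, hs, rfl⟩, rfl⟩)
    · -- `U` is a `τ`-group
      have hUτ : Cfsg.IsPiSubgroup τ U := by
        intro r hr hdr
        have h1 := hU r hr hdr
        rw [hπ] at h1
        rcases h1 with h1 | h1
        · exact absurd ⟨r, hr, h1, hdr⟩ hex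
        · exact h1
      obtain ⟨M, hUM, hM⟩ := (Set.toFinite {X : Subgroup G | Cfsg.IsPiSubgroup τ X}).exists_le_maximal hUτ
      have hHtH : Ht ≤ H := hjoin ▸ le_sup_right
      have hHtmax : Maximal (Cfsg.IsPiSubgroup τ) Ht := by
        refine ⟨ht, fun T hT hle => ?_⟩
        have h1 : Ht.relIndex T * T.index = Ht.index := Subgroup.relIndex_mul_index hle
        have h2 : Ht.relIndex H * H.index = Ht.index := Subgroup.relIndex_mul_index hHtH
        have h3 : Nat.card ↥H ∣ Nat.card Hs * Nat.card Ht := by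
          rw [← hjoin]
          apply card_sup_dvd'
          intro s hs'
          apply mem_NN_of_forall
          intro x hx
          rw [hcomm s hs' x hx, mul_inv_cancel_right]
          exact hx
        have h4 : Ht.relIndex H * Nat.card Ht = Nat.card ↥H := by
          have h7 := Subgroup.index_mul_card (Ht.subgroupOf H)
          have h8 : Nat.card ↥(Ht.subgroupOf H) = Nat.card Ht :=
            Nat.card_congr (Subgroup.subgroupOfEquivOfLe hHtH).toEquiv
          rw [h8] at h7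
          exact h7
        have h5 : Ht.relIndex H ∣ Nat.card Hs := by
          rw [← h4] at h3
          exact Nat.dvd_of_mul_dvd_mul_right Nat.card_pos h3
        have h6 : Ht.relIndex T = 1 := by
          by_contra hne
          obtain ⟨r, hr, hrd⟩ := Nat.exists_prime_and_dvd hne
          have hrτ : r ∈ τ := hT r hr (hrd.trans (Subgroup.relIndex_dvd_card Ht T))
          have hrt : r ∣ Ht.index := by
            rw [← h1]
            exact hrd.trans (dvd_mul_right _ _)
          rw [← h2] at hrt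
          rcases (Nat.Prime.dvd_mul hr).mp hrt with h7 | h7
          · exact Set.disjoint_left.mp hd (hs r hr (h7.trans h5)) hrτ
          · exact hH.2 r hr (hτπ hrτ) h7
        exact Subgroup.relIndex_eq_one.mp h6
      obtain ⟨g, hg⟩ := hD Ht M hHtmax hM
      refine ⟨g⁻¹, fun u hu => ?_⟩
      have h1 : u ∈ Ht.map (MulAut.conj g).toMonoidHom := hg ▸ hUM hu
      obtain ⟨t, ht', rfl⟩ := h1
      apply hHtH
      have : g⁻¹ * (MulAut.conj g).toMonoidHom t * g⁻¹⁻¹ = t := by
        show g⁻¹ * (g * t * g⁻¹) * g⁻¹⁻¹ = t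
        group
      rw [this]
      exact ht'

end

/-- Let σ and τ be disjoint sets of primes with union π. Suppose a finite group G has a Hall π-subgroup H which is the direct product of a nilpotent σ-subgroup and a τ-subgroup (two elementwise-commuting subgroups generating H), and that the maximal τ-subgroups of G are pairwise conjugate. Then the maximal π-subgroups of G are pairwise conjugate. -/
theorem result {G : Type*} [Group G] [Finite G]
    (σ τ π : Set ℕ) (hπ : π = σ ∪ τ) (hd : Disjoint σ τ) (H Hs Ht : Subgroup G) (hH : Cfsg.IsPiHall π H)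
    (hs : Cfsg.IsPiSubgroup σ Hs) (ht : Cfsg.IsPiSubgroup τ Ht) (hsn : Group.IsNilpotent Hs)
    (hjoin : Hs ⊔ Ht = H) (hcomm : ∀ a ∈ Hs, ∀ b ∈ Ht, a * b = b * a) (hD : Cfsg.IsDPiGroup τ G) :
    Cfsg.IsDPiGroup π G := by
  have hstar := star_holds hd hs ht hsn hjoin hcomm
  have key : ∀ A : Subgroup G, Maximal (Cfsg.IsPiSubgroup π) A → ∃ x : G, A = cj x H := by
    intro A hA
    obtain ⟨x, hx⟩ := claim hπ hd hH hs ht hjoin hstar hcomm hD _ A rfl hA.prop
    refine ⟨x⁻¹, hA.eq_of_le ?_ ?_⟩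
    · intro r hr hdr
      rw [card_cj] at hdr
      exact hH.1 r hr hdr
    · intro a ha
      rw [mem_cj, inv_inv]
      exact hx a ha
  intro A B hA hB
  obtain ⟨x, rfl⟩ := key A hA
  obtain ⟨y, rfl⟩ := key B hB
  refine ⟨y * x⁻¹, ?_⟩
  show cj y H = cj (y * x⁻¹) (cj x H)
  rw [← cj_mul]
  simp

end Cfsg.Agent.S4334
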