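import Mathlib
import Cfsg.Statements.S4342
import Cfsg.Agent.Lib.SylowNum
-- import your own Cfsg.Agent.* helpers here

set_option autoImplicit false
open Cfsg

namespace Cfsg.Agent.S4342


/-- Let H be a normal subgroup of a finite group G and p a prime not dividing the index of H. Then the number of Sylow p-subgroups of H/Z(H) equals the number of Sylow p-subgroups of G. -/
theorem result {G : Type*} [Group G] [Finite G]
    (p : ℕ) [Fact p.Prime] (H : Subgroup G) [H.Normal] (hp : ¬ p ∣ H.index) :
    Nat.card (Sylow p (H ⧸ Subgroup.center H)) = Nat.card (Sylow p G) := by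
  have h1 : Nat.card (Sylow p H) = Nat.card (Sylow p G) :=
    Cfsg.Agent.Lib.SylowNum.card_sylow_of_forall_le H
      (fun P => Cfsg.Agent.Lib.SylowNum.sylow_le_of_not_dvd_index H hp P)
  rw [← h1]
  exact Cfsg.Agent.Lib.SylowNum.card_sylow_quotient_central (Subgroup.center H) le_rfl

end Cfsg.Agent.S4342
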