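import Mathlib
import Cfsg.Statements.S4343
import Cfsg.Agent.Lib.SylowNum2
import Cfsg.Agent.Lib.PCore
-- import your own Cfsg.Agent.* helpers here

set_option autoImplicit false
open Cfsg

namespace Cfsg.Agent.S4343

open Cfsg.Agent.Lib.SylowNum Cfsg.Agent.Lib.SylowNum2

variable {S : Type*} [Group S] [Finite S] {p : ℕ} [Fact p.Prime]

theorem isPGroup_of_top (h : IsPGroup p (⊤ : Subgroup S)) : IsPGroup p S := fun g => by
  obtain ⟨k, hk⟩ := h ⟨g, Subgroup.mem_top g⟩
  exact ⟨k, by simpa using congrArg Subtype.val hk⟩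

/-- Two distinct Sylow subgroups meet in index `p` when there are fewer than `p ^ 2` Sylows. -/
theorem relIndex_eq_p (hn : Nat.card (Sylow p S) < p ^ 2) (P Q : Sylow p S) (hne : P ≠ Q) :
    (Q : Subgroup S).relIndex (P : Subgroup S) = p := by
  have hpp : p.Prime := Fact.out
  let T : Subgroup S := (P : Subgroup S)
  have hst : MulAction.stabilizer T Q = (Q : Subgroup S).subgroupOf T := by
    ext u
    rw [MulAction.mem_stabilizer_iff, Subgroup.mem_subgroupOf, Subgroup.smul_def]
    constructor
    · intro h
      have h1 : (u : S) ∈ Subgroup.normalizer ((Q : Subgroup S) : Set S) :=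
        Sylow.smul_eq_iff_mem_normalizer.1 h
      exact mem_sylow_of_normalizes Q u (pelt_of_mem P u u.2) h1
    · intro h
      exact Sylow.smul_eq_iff_mem_normalizer.2 (Subgroup.le_normalizer h)
  have h1 : (Q : Subgroup S).relIndex T = (MulAction.orbit T Q).ncard := by
    rw [← MulAction.index_stabilizer, hst]
    rfl
  have hni : P ∉ MulAction.orbit T Q := by
    rintro ⟨u, hu⟩
    apply hne
    have hu' : (u : S) • Q = P := hu
    have h3 : (u : S) • P = P :=
      Sylow.smul_eq_iff_mem_normalizer.2 (Subgroup.le_normalizer u.2)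
    have h4 : (u : S) • Q = (u : S) • P := by rw [hu', h3]
    exact (MulAction.injective (u : S) h4).symm
  have h2 : (MulAction.orbit T Q).ncard + 1 ≤ Nat.card (Sylow p S) := by
    rw [← Set.ncard_insert_of_notMem hni (Set.toFinite _)]
    exact Set.ncard_le_card _
  obtain ⟨m, hm⟩ := IsPGroup.iff_card.1 P.isPGroup'
  have h3 : (Q : Subgroup S).relIndex T ∣ p ^ m := by
    have := Subgroup.relIndex_dvd_card (Q : Subgroup S) T
    rwa [hm] at this
  obtain ⟨j, -, hj⟩ := (Nat.dvd_prime_pow hpp).1 h3
  have h4 : p ^ j < p ^ 2 := by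
    rw [← hj, h1]
    omega
  have h5 : j < 2 := (Nat.pow_lt_pow_iff_right hpp.one_lt).1 h4
  interval_cases j
  · exfalso
    have h6 : (Q : Subgroup S).relIndex T = 1 := by simpa using hj
    have h7 : T ≤ Q := Subgroup.relIndex_eq_one.1 h6
    exact hne (sylow_eq_of_le P Q h7)
  · simpa using hj

/-- Order of the intersection of two distinct Sylows, in a form independent of the pair. -/
theorem card_inf_mul_p (hn : Nat.card (Sylow p S) < p ^ 2) (P Q : Sylow p S) (hne : P ≠ Q) :
    Nat.card ((P : Subgroup S) ⊓ Q : Subgroup S) * p = p ^ (Nat.card S).factorization p := by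
  have h1 := card_mul_relIndex ((P : Subgroup S) ⊓ Q) P inf_le_left
  rw [Subgroup.inf_relIndex_left, relIndex_eq_p hn P Q hne] at h1
  rw [h1]
  exact P.card_eq_multiplicity

/-- Intersections of pairs of distinct Sylows all have the same order. -/
theorem inf_eq_of_le (hn : Nat.card (Sylow p S) < p ^ 2) (R T U V : Sylow p S) (h1 : R ≠ T) (h2 : U ≠ V)
    (hle : (R : Subgroup S) ⊓ T ≤ (U : Subgroup S) ⊓ V) :
    (R : Subgroup S) ⊓ T = (U : Subgroup S) ⊓ V := by
  apply Subgroup.eq_of_le_of_card_ge hle
  have hpp : p.Prime := Fact.out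
  have a := card_inf_mul_p hn R T h1
  have b := card_inf_mul_p hn U V h2
  exact (Nat.eq_of_mul_eq_mul_right hpp.pos (b.trans a.symm)).le

/-- At least `p + 1` Sylow subgroups contain the intersection of two distinct ones. -/
theorem succ_le_card_line (hn : Nat.card (Sylow p S) < p ^ 2) (P Q : Sylow p S) (hne : P ≠ Q) :
    p + 1 ≤ Nat.card {R : Sylow p S // (P : Subgroup S) ⊓ Q ≤ (R : Subgroup S)} := by
  have hpp : p.Prime := Fact.out
  set D : Subgroup S := (P : Subgroup S) ⊓ Q with hD
  let Y : Subgroup S := Subgroup.normalizer (D : Set S)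
  have hDp : IsPGroup p D := P.isPGroup'.to_le inf_le_left
  -- D is normal in P and in Q
  have hnorm : ∀ R W : Sylow p S, R ≠ W → (R : Subgroup S) ≤ Subgroup.normalizer
      (((R : Subgroup S) ⊓ W : Subgroup S) : Set S) := by
    intro R W hRW
    set E : Subgroup ↥(R : Subgroup S) := (W : Subgroup S).subgroupOf (R : Subgroup S) with hE
    have h0 : E.index = p := relIndex_eq_p hn R W hRW
    obtain ⟨m, hm⟩ := IsPGroup.iff_card.1 R.isPGroup'
    have hm0 : m ≠ 0 := by
      rintro rfl
      have : E.index = 1 := by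
        have h1 : Nat.card (R : Subgroup S) = 1 := by simpa using hm
        have := Subgroup.index_dvd_card E
        rw [h1] at this
        exact Nat.dvd_one.1 this
      rw [h0] at this
      exact hpp.one_lt.ne' this
    have hmin : E.index = (Nat.card (R : Subgroup S)).minFac := by
      rw [h0, hm, Nat.Prime.pow_minFac hpp hm0]
    have hEn : E.Normal := Subgroup.normal_of_index_eq_minFac_card hmin
    intro r hr
    rw [Subgroup.mem_normalizer_iff]
    intro z
    simp only [Subgroup.mem_inf]
    constructor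
    · rintro ⟨h1, h2⟩
      have h3 := hEn.conj_mem ⟨z, h1⟩ (Subgroup.mem_subgroupOf.2 h2) ⟨r, hr⟩
      have h4 := Subgroup.mem_subgroupOf.1 h3
      exact ⟨(R : Subgroup S).mul_mem ((R : Subgroup S).mul_mem hr h1) ((R : Subgroup S).inv_mem hr), h4⟩
    · rintro ⟨h1, h2⟩
      have e : z = r⁻¹ * (r * z * r⁻¹) * r := by group
      have hzR : z ∈ (R : Subgroup S) := by
        rw [e]
        exact (R : Subgroup S).mul_mem ((R : Subgroup S).mul_mem ((R : Subgroup S).inv_mem hr) h1) hr
      have h3 := hEn.conj_mem ⟨r * z * r⁻¹, h1⟩ (Subgroup.mem_subgroupOf.2 h2) ⟨r⁻¹, (R : Subgroup S).inv_mem hr⟩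
      have h4 := Subgroup.mem_subgroupOf.1 h3
      refine ⟨hzR, ?_⟩
      have e2 : ((⟨r⁻¹, (R : Subgroup S).inv_mem hr⟩ : (R : Subgroup S)) * ⟨r * z * r⁻¹, h1⟩ *
          (⟨r⁻¹, (R : Subgroup S).inv_mem hr⟩ : (R : Subgroup S))⁻¹ : (R : Subgroup S)).1 = z := by
        simp only [Subgroup.coe_mul, Subgroup.coe_inv]
        group
      rwa [e2] at h4
  have hPY : (P : Subgroup S) ≤ Y := hnorm P Q hne
  have hQY : (Q : Subgroup S) ≤ Y := by
    have := hnorm Q P hne.symm
    rwa [inf_comm] at this
  -- count the Sylows of Y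
  have hc := card_sylow_subgroup (p := p) Y P hPY
  have hmod := card_sylow_modEq_one p Y
  have h2 : 2 ≤ Nat.card (Sylow p Y) := by
    have hA : (P.subtype hPY) ≠ (Q.subtype hQY) := fun h => hne (Sylow.subtype_injective h)
    have : Nontrivial (Sylow p Y) := ⟨⟨_, _, hA⟩⟩
    exact Finite.one_lt_card
  have h3 : p + 1 ≤ Nat.card (Sylow p Y) := by
    have h4 := (Nat.modEq_iff_dvd' (by omega)).1 hmod.symm
    obtain ⟨k, hk⟩ := h4
    have hk0 : k ≠ 0 := by
      rintro rfl
      omega
    have : p * 1 ≤ p * k := Nat.mul_le_mul_left _ (Nat.pos_of_ne_zero hk0)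
    omega
  rw [hc] at h3
  refine le_trans h3 ?_
  -- inject
  let f : {Q' : Sylow p S // (Q' : Subgroup S) ≤ Y} → {R : Sylow p S // D ≤ (R : Subgroup S)} :=
    fun Q' => ⟨Q'.1, by
      -- D is a normal p-subgroup of Y
      have hDY : D ≤ Y := Subgroup.le_normalizer
      let Q'' : Sylow p Y := Q'.1.subtype Q'.2
      let D' : Subgroup Y := D.subgroupOf Y
      have hD'n : D'.Normal := by
        constructor
        intro n hn m
        rw [Subgroup.mem_subgroupOf] at hn ⊢
        exact (Subgroup.mem_normalizer_iff.1 m.2 n).1 hn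
      have hD'p : IsPGroup p D' := hDp.comap_of_injective Y.subtype Y.subtype_injective
      have h1 := hD'p.le_sylow_of_normal Q''
      intro y hy
      have h2 : (⟨y, hDY hy⟩ : Y) ∈ D' := Subgroup.mem_subgroupOf.2 hy
      have h3 := h1 h2
      rw [Sylow.coe_subtype, Subgroup.mem_subgroupOf] at h3
      exact h3⟩
  apply Nat.card_le_card_of_injective f
  intro a b hab
  apply Subtype.ext
  exact congrArg (fun x => x.1) hab


/-- Let S be a finite non-abelian simple group and p a prime dividing its order. If S has fewer than p² Sylow p-subgroups, then its Sylow p-subgroups have order p. -/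
theorem result {S : Type*} [Group S] [Finite S]
    [IsSimpleGroup S] (hS : ¬ IsMulCommutative S) (p : ℕ) [Fact p.Prime] (hp : p ∣ Nat.card S)
    (hn : Nat.card (Sylow p S) < p ^ 2) (P : Sylow p S) : Nat.card P = p := by
  classical
  have hpp : p.Prime := Fact.out
  have := Fintype.ofFinite (Sylow p S)
  have hnotp : ¬ IsPGroup p S := by
    intro hpg
    have : Nontrivial S := IsSimpleGroup.toNontrivial
    have hct : Nontrivial (Subgroup.center S) := hpg.center_nontrivial
    have hne : Subgroup.center S ≠ ⊥ := (Subgroup.nontrivial_iff_ne_bot _).1 hct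
    have htop : Subgroup.center S = ⊤ := (IsSimpleGroup.eq_bot_or_eq_top_of_normal _ inferInstance).resolve_left hne
    apply hS
    apply IsMulCommutative.of_comm
    intro a b
    have hac : a ∈ Subgroup.center S := by rw [htop]; trivial
    exact (Subgroup.mem_center_iff.1 hac b).symm
  -- a second Sylow
  obtain ⟨Q, hne⟩ : ∃ Q : Sylow p S, P ≠ Q := by
    by_contra hcon
    have hall : ∀ Q : Sylow p S, P = Q := by
      intro Q
      by_contra h
      exact hcon ⟨Q, h⟩
    have hsub : Subsingleton (Sylow p S) := ⟨fun a b => (hall a).symm.trans (hall b)⟩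
    have hnorm : (P : Subgroup S).Normal := Sylow.normal_of_subsingleton P
    rcases IsSimpleGroup.eq_bot_or_eq_top_of_normal _ hnorm with h | h
    · exact (P.ne_bot_of_dvd_card hp) h
    · apply hnotp
      have := P.isPGroup'
      rw [h] at this
      exact isPGroup_of_top this
  -- the intersection is trivial
  have hD : (P : Subgroup S) ⊓ Q = ⊥ := by
    by_contra hDne
    set D : Subgroup S := (P : Subgroup S) ⊓ Q with hDdef
    -- some Sylow misses D
    obtain ⟨R, hR⟩ : ∃ R : Sylow p S, ¬ D ≤ (R : Subgroup S) := by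
      by_contra hcon
      have hall : ∀ R : Sylow p S, D ≤ (R : Subgroup S) := by
        intro R
        by_contra h
        exact hcon ⟨R, h⟩
      have h1 : D ≤ Cfsg.pCore p S := by
        rw [Cfsg.Agent.Lib.PCore.pCore_eq_iInf_sylow]
        exact le_iInf hall
      rcases IsSimpleGroup.eq_bot_or_eq_top_of_normal (Cfsg.pCore p S) inferInstance with h | h
      · rw [h] at h1
        exact hDne (le_bot_iff.1 h1)
      · apply hnotp
        have := Cfsg.Agent.Lib.PCore.isPGroup_pCore (G := S) p
        rw [h] at this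
        exact isPGroup_of_top this
    -- the lines through R
    let F : Finset (Sylow p S) := Finset.univ.filter (fun T => D ≤ (T : Subgroup S))
    have hFcard : p + 1 ≤ F.card := by
      have := succ_le_card_line hn P Q hne
      rw [Nat.card_eq_fintype_card, Fintype.card_subtype] at this
      exact this
    have hRT : ∀ T ∈ F, R ≠ T := by
      intro T hT h
      rw [← h] at hT
      exact hR (Finset.mem_filter.1 hT).2
    let L : Sylow p S → Finset (Sylow p S) := fun T =>
      Finset.univ.filter (fun U => U ≠ R ∧ (R : Subgroup S) ⊓ T ≤ (U : Subgroup S))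
    have hLcard : ∀ T ∈ F, p ≤ (L T).card := by
      intro T hT
      have h1 := succ_le_card_line hn R T (hRT T hT)
      rw [Nat.card_eq_fintype_card, Fintype.card_subtype] at h1
      have h2 : (Finset.univ.filter (fun U : Sylow p S => (R : Subgroup S) ⊓ T ≤ (U : Subgroup S)))
          ⊆ insert R (L T) := by
        intro U hU
        by_cases hUR : U = R
        · simp [hUR]
        · refine Finset.mem_insert_of_mem (Finset.mem_filter.2 ⟨Finset.mem_univ _, hUR, ?_⟩)
          exact (Finset.mem_filter.1 hU).2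
      have h3 := Finset.card_le_card h2
      have h4 := Finset.card_insert_le R (L T)
      omega
    have hdisj : (F : Set (Sylow p S)).PairwiseDisjoint L := by
      intro T hT T' hT' hTT'
      rw [Function.onFun, Finset.disjoint_left]
      intro U hU hU'
      obtain ⟨-, hUR, hU1⟩ := Finset.mem_filter.1 hU
      obtain ⟨-, -, hU2⟩ := Finset.mem_filter.1 hU'
      have hT1 : D ≤ (T : Subgroup S) := (Finset.mem_filter.1 hT).2
      have hT2 : D ≤ (T' : Subgroup S) := (Finset.mem_filter.1 hT').2
      have e1 : (R : Subgroup S) ⊓ T = (R : Subgroup S) ⊓ U :=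
        inf_eq_of_le hn R T R U (hRT T hT) (Ne.symm hUR) (le_inf inf_le_left hU1)
      have e2 : (R : Subgroup S) ⊓ T' = (R : Subgroup S) ⊓ U :=
        inf_eq_of_le hn R T' R U (hRT T' hT') (Ne.symm hUR) (le_inf inf_le_left hU2)
      have e3 : (R : Subgroup S) ⊓ T = (T : Subgroup S) ⊓ T' := by
        apply inf_eq_of_le hn R T T T' (hRT T hT) hTT'
        refine le_inf inf_le_right ?_
        rw [e1, ← e2]
        exact inf_le_right
      have e4 : D = (T : Subgroup S) ⊓ T' :=
        inf_eq_of_le hn P Q T T' hne hTT' (le_inf hT1 hT2)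
      apply hR
      rw [e4, ← e3]
      exact inf_le_left
    have hsub : F.biUnion L ⊆ Finset.univ.erase R := by
      intro U hU
      obtain ⟨T, -, hUT⟩ := Finset.mem_biUnion.1 hU
      exact Finset.mem_erase.2 ⟨(Finset.mem_filter.1 hUT).2.1, Finset.mem_univ _⟩
    have hcard := Finset.card_le_card hsub
    rw [Finset.card_biUnion hdisj, Finset.card_erase_of_mem (Finset.mem_univ _), Finset.card_univ,
      ← Nat.card_eq_fintype_card] at hcard
    have hsum : F.card * p ≤ ∑ T ∈ F, (L T).card := by
      have := Finset.card_nsmul_le_sum F (fun T => (L T).card) p hLcard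
      simpa using this
    have hmul : (p + 1) * p ≤ F.card * p := Nat.mul_le_mul_right _ hFcard
    have hpos : 0 < Nat.card (Sylow p S) := Nat.card_pos
    have hp2 : p ^ 2 = p * p := by ring
    have hlin : p * p + p ≤ Nat.card (Sylow p S) - 1 := by
      calc p * p + p = (p + 1) * p := by ring
        _ ≤ F.card * p := hmul
        _ ≤ ∑ T ∈ F, (L T).card := hsum
        _ ≤ _ := hcard
    omega
  -- conclude
  have h1 := card_mul_relIndex ((P : Subgroup S) ⊓ Q) P inf_le_left
  rw [Subgroup.inf_relIndex_left, relIndex_eq_p hn P Q hne, hD] at h1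
  simpa using h1.symm

end Cfsg.Agent.S4343
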