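import Mathlib
import Cfsg.Statements.S4344
import Cfsg.Agent.Lib.SylowNum
-- import your own Cfsg.Agent.* helpers here

set_option autoImplicit false
open Cfsg

namespace Cfsg.Agent.S4344

open Cfsg.Agent.Lib.SylowNum


/-- Let S be a finite non-abelian simple group, M a maximal subgroup of S and C a cyclic normal subgroup of M. If a Sylow p-subgroup P of S (for a prime p dividing the order of S) is contained in C, then the number of Sylow p-subgroups of S equals the index of M. -/
theorem result {S : Type*} [Group S] [Finite S]
    [IsSimpleGroup S] (hS : ¬ IsMulCommutative S) (p : ℕ) [Fact p.Prime] (hp : p ∣ Nat.card S)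
    (M : Subgroup S) (hM : IsCoatom M) (C : Subgroup S) (hCM : C ≤ M) (hCn : (C.subgroupOf M).Normal)
    (hC : IsCyclic C) (P : Sylow p S) (hP : (P : Subgroup S) ≤ C) :
    Nat.card (Sylow p S) = M.index := by
  have hCc : ∀ a b : S, a ∈ C → b ∈ C → a * b = b * a := by
    intro a b ha hb
    have := IsCyclic.isMulCommutative (α := C)
    have h := mul_comm' (⟨a, ha⟩ : C) ⟨b, hb⟩
    exact congrArg Subtype.val h
  -- P is normalised by M
  have hMP : M ≤ Subgroup.normalizer ((P : Subgroup S) : Set S) := by
    intro m hm
    -- m • P is contained in C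
    have hle : ((m • P : Sylow p S) : Subgroup S) ≤ C := by
      intro y hy
      have h1 : m⁻¹ * y * m ∈ P := (mem_smul_sylow P m y).1 hy
      have h2 := hP h1
      have hnC : ∀ c ∈ C, m * c * m⁻¹ ∈ C := by
        intro c hc
        have h3 : (⟨c, hCM hc⟩ : M) ∈ C.subgroupOf M := Subgroup.mem_subgroupOf.2 hc
        have h4 := hCn.conj_mem _ h3 ⟨m, hm⟩
        exact Subgroup.mem_subgroupOf.1 h4
      have := hnC _ h2
      have e : m * (m⁻¹ * y * m) * m⁻¹ = y := by group
      rwa [e] at this
    -- two Sylows in abelian C are equal
    let A : Sylow p C := P.subtype hP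
    let B : Sylow p C := (m • P).subtype hle
    obtain ⟨c, hc⟩ := MulAction.exists_smul_eq C A B
    have hAB : A = B := by
      rw [← hc]
      apply Sylow.ext
      ext y
      rw [Sylow.coe_subgroup_smul, Subgroup.mem_pointwise_smul_iff_inv_smul_mem]
      have : (MulAut.conj c)⁻¹ • y = y := by
        simp only [MulAut.smul_def, map_inv, MulAut.inv_def, MulAut.conj_symm_apply]
        apply Subtype.ext
        have := hCc (c : S)⁻¹ (y : S) (C.inv_mem c.2) y.2
        simp only [Subgroup.coe_mul, Subgroup.coe_inv]
        calc (c : S)⁻¹ * (y : S) * (c : S) = (y : S) * (c : S)⁻¹ * (c : S) := by rw [this]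
          _ = (y : S) := by group
      rw [this]
    have hPm : m • P = P := by
      have := Sylow.subtype_injective hAB
      exact this.symm
    exact Sylow.smul_eq_iff_mem_normalizer.1 hPm
  -- normaliser is proper
  have hne : Subgroup.normalizer ((P : Subgroup S) : Set S) ≠ ⊤ := by
    intro htop
    have hnorm : (P : Subgroup S).Normal := Subgroup.normalizer_eq_top_iff.1 htop
    rcases hnorm.eq_bot_or_eq_top with h | h
    · exact (P.ne_bot_of_dvd_card hp) h
    · apply hS
      apply IsMulCommutative.of_comm
      intro a b
      apply hCc a b <;> exact hP (by rw [h]; trivial)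
  have hMeq : M = Subgroup.normalizer ((P : Subgroup S) : Set S) := by
    rcases lt_or_eq_of_le hMP with h | h
    · exact absurd (hM.2 _ h) hne
    · exact h
  rw [hMeq]
  exact Sylow.card_eq_index_normalizer P

end Cfsg.Agent.S4344
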