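import Mathlib
import Cfsg.Statements.S4345
import Cfsg.Agent.Lib.SylowNum2
import Cfsg.Agent.Lib.PCore
-- import your own Cfsg.Agent.* helpers here

set_option autoImplicit false
open Cfsg

namespace Cfsg.Agent.S4345

universe u

open Cfsg.Agent.Lib.SylowNum Cfsg.Agent.Lib.SylowNum2

theorem key {G : Type u} [Group G] [Finite G] (p : ℕ) [Fact p.Prime] (q : ℕ) [Fact q.Prime]
    (K : Subgroup G) [K.Normal] (hK : IsPGroup q K) :
    ∃ c : ℕ, Nat.card (Sylow p G) = Nat.card (Sylow p (G ⧸ K)) * c ∧ c ≡ 1 [MOD p] ∧
      ∃ f : ℕ, c = q ^ f := by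
  have hpp : p.Prime := Fact.out
  have hqq : q.Prime := Fact.out
  obtain ⟨P⟩ : Nonempty (Sylow p G) := inferInstance
  have h1 := card_sylow_eq_quot_mul K P
  rw [← card_sylow_subgroup _ P le_sup_left] at h1
  refine ⟨_, h1, ?_, ?_⟩
  · exact card_sylow_modEq_one p _
  · -- c divides [P K : P] = [K : P ∩ K]
    let X : Subgroup G := (P : Subgroup G) ⊔ K
    let P' : Sylow p X := P.subtype le_sup_left
    have h2 : Nat.card (Sylow p X) ∣ (P' : Subgroup X).index := P'.card_dvd_index
    have h3 : (P' : Subgroup X).index = (P : Subgroup G).relIndex X := by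
      simp [P', Subgroup.relIndex]
    have h4 : (P : Subgroup G).relIndex X = (P : Subgroup G).relIndex K := by
      have a1 : K.relIndex ((P : Subgroup G) ⊔ K) = K.relIndex (P : Subgroup G) :=
        Subgroup.relIndex_sup_right _ K
      have a2 := card_mul_relIndex ((P : Subgroup G) ⊓ K) K inf_le_right
      rw [Subgroup.inf_relIndex_right] at a2
      have a3 := card_mul_relIndex ((P : Subgroup G) ⊓ K) (P : Subgroup G) inf_le_left
      rw [Subgroup.inf_relIndex_left] at a3
      have a4 := card_mul_relIndex K ((P : Subgroup G) ⊔ K) le_sup_right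
      rw [a1] at a4
      have a5 := card_mul_relIndex (P : Subgroup G) ((P : Subgroup G) ⊔ K) le_sup_left
      have ha : 0 < Nat.card ((P : Subgroup G) ⊓ K : Subgroup G) := Nat.card_pos
      have hb : 0 < Nat.card (P : Subgroup G) := Nat.card_pos
      have hc : 0 < Nat.card ((P : Subgroup G) ⊔ K : Subgroup G) := Nat.card_pos
      have hr : 0 < K.relIndex (P : Subgroup G) := by
        rcases Nat.eq_zero_or_pos (K.relIndex (P : Subgroup G)) with h | h
        · rw [h] at a3; omega
        · exact h
      have : Nat.card ((P : Subgroup G) ⊓ K : Subgroup G) * K.relIndex (P : Subgroup G) * (P : Subgroup G).relIndex ((P : Subgroup G) ⊔ K)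
          = Nat.card ((P : Subgroup G) ⊓ K : Subgroup G) * K.relIndex (P : Subgroup G) * (P : Subgroup G).relIndex K := by
        rw [a3, a5, ← a4, ← a2]
        have : Nat.card ((P : Subgroup G) ⊓ K : Subgroup G) * (P : Subgroup G).relIndex K * K.relIndex (P : Subgroup G)
            = (Nat.card ((P : Subgroup G) ⊓ K : Subgroup G) * K.relIndex (P : Subgroup G)) * (P : Subgroup G).relIndex K := by ring
        rw [this, a3]
      exact Nat.eq_of_mul_eq_mul_left (Nat.mul_pos ha hr) this
    have h5 : (P : Subgroup G).relIndex K ∣ Nat.card K := Subgroup.relIndex_dvd_card _ _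
    obtain ⟨e, he⟩ := (IsPGroup.iff_card).1 hK
    have h6 : Nat.card (Sylow p X) ∣ q ^ e := by
      rw [← he]
      exact dvd_trans h2 (by rw [h3, h4]; exact h5)
    obtain ⟨f, -, hf⟩ := (Nat.dvd_prime_pow hqq).1 h6
    exact ⟨f, hf⟩

theorem main (p ℓ : ℕ) [Fact p.Prime] (hℓ : ℓ.Prime) (n : ℕ) :
    ∀ (G : Type u) [Group G] [Finite G], Nat.card G = n → Group.IsSolvable G →
      ℓ ^ (Nat.card (Sylow p G)).factorization ℓ ≡ 1 [MOD p] := by
  induction n using Nat.strong_induction_on with
  | _ n ih =>
    intro G _ _ hn hsolv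
    by_cases hnt : Nontrivial G
    · obtain ⟨q, hq, hne⟩ := Cfsg.Agent.Lib.PCore.exists_pCore_ne_bot (G := G)
      have : Fact q.Prime := ⟨hq⟩
      let K : Subgroup G := Cfsg.pCore q G
      have hKp : IsPGroup q K := Cfsg.Agent.Lib.PCore.isPGroup_pCore q
      have hKn : K.Normal := inferInstance
      obtain ⟨c, hc, hc1, f, hf⟩ := key p q K hKp
      have hlt : Nat.card (G ⧸ K) < n := by
        rw [← hn]
        have h1 := Subgroup.card_mul_index K
        have h2 : 1 < Nat.card K := by
          have : Nontrivial K := (Subgroup.nontrivial_iff_ne_bot K).2 hne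
          exact Finite.one_lt_card
        rw [Subgroup.index_eq_card] at h1
        have h3 : 0 < Nat.card (G ⧸ K) := Nat.card_pos
        nlinarith
      have hih := ih _ hlt (G ⧸ K) rfl inferInstance
      have hn0 : Nat.card (Sylow p (G ⧸ K)) ≠ 0 := Nat.card_pos.ne'
      have hc0 : c ≠ 0 := by
        rw [hf]; exact pow_ne_zero _ hq.ne_zero
      rw [hc, Nat.factorization_mul hn0 hc0]
      simp only [Finsupp.add_apply]
      rw [pow_add]
      have : ℓ ^ c.factorization ℓ ≡ 1 [MOD p] := by
        by_cases hqℓ : q = ℓ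
        · subst hqℓ
          rw [hf, Nat.Prime.factorization_pow hℓ]
          simp only [Finsupp.single_eq_same]
          rw [← hf]
          exact hc1
        · have : c.factorization ℓ = 0 := by
            rw [hf, Nat.Prime.factorization_pow hq]
            simp [Finsupp.single_apply, hqℓ]
          rw [this, pow_zero]
      simpa using hih.mul this
    · rw [not_nontrivial_iff_subsingleton] at hnt
      have : Nat.card (Sylow p G) = 1 := by
        have : Subsingleton (Sylow p G) :=
          ⟨fun a b => Sylow.ext (Subsingleton.elim _ _)⟩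
        exact Nat.card_unique
      rw [this]
      simp [Nat.ModEq]


/-- Let G be a finite solvable group and p, ℓ primes. Then the largest power of ℓ dividing the number of Sylow p-subgroups of G is congruent to 1 modulo p. -/
theorem result {G : Type*} [Group G] [Finite G]
    (hG : Group.IsSolvable G) (p ℓ : ℕ) [Fact p.Prime] (hℓ : ℓ.Prime) :
    ℓ ^ (Nat.card (Sylow p G)).factorization ℓ ≡ 1 [MOD p] := by
  exact main p ℓ hℓ _ G rfl hG

end Cfsg.Agent.S4345
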