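-- Statement S4346: 22 is never the number of Sylow 3-subgroups.
import Mathlib
import Cfsg.Statements.S4346
import Cfsg.Agent.S4303
import Cfsg.Agent.Lib.N22C

set_option autoImplicit false
open Cfsg

namespace Cfsg.Agent.S4346

/-- No finite group has exactly 22 Sylow 3-subgroups. -/
theorem result {G : Type*} [Group G] [Finite G] : Nat.card (Sylow 3 G) ≠ 22 := by
  intro h22
  obtain ⟨l, hprod, hl⟩ := Cfsg.Agent.S4303.result (G := G) 3
  have hall : ∀ m ∈ l, m = 1 := by
    intro m hm
    have hdvd : m ∣ 22 := by
      rw [← h22, ← hprod]; exact List.dvd_prod hm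
    have hmem : m ∈ Nat.divisors 22 := Nat.mem_divisors.mpr ⟨hdvd, by norm_num⟩
    have hd : Nat.divisors 22 = {1, 2, 11, 22} := by decide
    rw [hd] at hmem
    simp only [Finset.mem_insert, Finset.mem_singleton] at hmem
    rcases hl m hm with ⟨hpp, hmod⟩ | ⟨S, _, _, hS, hc⟩
    · rcases hmem with rfl | rfl | rfl | rfl
      · rfl
      · norm_num at hmod
      · norm_num at hmod
      · exfalso
        have : ¬ IsPrimePow 22 := by
          rw [isPrimePow_nat_iff_bounded]
          decide
        exact this hpp
    · have hmod : m % 3 = 1 := by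
        rw [hc]
        have := Cfsg.Agent.Lib.SmallGroups2.card_sylow_mod (G := S) (p := 3)
        rw [this]
      rcases hmem with rfl | rfl | rfl | rfl
      · rfl
      · norm_num at hmod
      · norm_num at hmod
      · exact (Cfsg.Agent.Lib.N22.no_simple (S := S) hc.symm).elim
  have h1 : l.prod = 1 := List.prod_eq_one hall
  rw [h1] at hprod
  omega

end Cfsg.Agent.S4346
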