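import Mathlib
import Cfsg.Statements.S4354
import Cfsg.Agent.Lib.SylowConjLemmas

set_option autoImplicit false
open Cfsg

namespace Cfsg.Agent.S4354

variable {G : Type*} [Group G] [Finite G] {p : ℕ} [Fact p.Prime]

/-- Every `p`-element has conjugacy class size prime to `p`. -/
def RP (p : ℕ) (G : Type*) [Group G] : Prop :=
  ∀ x : G, (∃ k : ℕ, orderOf x = p ^ k) → ¬ p ∣ (Subgroup.centralizer ({x} : Set G)).index

theorem card_mul_relIndex (T K : Subgroup G) (h : T ≤ K) :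
    Nat.card T * T.relIndex K = Nat.card K := by
  have := Subgroup.relIndex_mul_relIndex (⊥ : Subgroup G) T K bot_le h
  simpa [Subgroup.relIndex_bot_left] using this

theorem relIndex_normal_dvd_index (C N : Subgroup G) [N.Normal] : C.relIndex N ∣ C.index := by
  have h1 : N.relIndex (C ⊔ N) = N.relIndex C := Subgroup.relIndex_sup_right C N
  have h2 := card_mul_relIndex (C ⊓ N) N inf_le_right
  rw [Subgroup.inf_relIndex_right] at h2
  have h3 := card_mul_relIndex (C ⊓ N) C inf_le_left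
  rw [Subgroup.inf_relIndex_left] at h3
  have h4 := card_mul_relIndex N (C ⊔ N) le_sup_right
  rw [h1] at h4
  have h5 := card_mul_relIndex C (C ⊔ N) le_sup_left
  have h6 : C.relIndex N = C.relIndex (C ⊔ N) := by
    have ha : 0 < Nat.card (C ⊓ N : Subgroup G) := Nat.card_pos
    have hc : 0 < Nat.card C := Nat.card_pos
    have hb : 0 < Nat.card (C ⊔ N : Subgroup G) := Nat.card_pos
    have hr : 0 < N.relIndex C := by
      rcases Nat.eq_zero_or_pos (N.relIndex C) with h | h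
      · rw [h] at h3; omega
      · exact h
    have : Nat.card (C ⊓ N : Subgroup G) * N.relIndex C * C.relIndex N
        = Nat.card (C ⊓ N : Subgroup G) * N.relIndex C * C.relIndex (C ⊔ N) := by
      calc Nat.card (C ⊓ N : Subgroup G) * N.relIndex C * C.relIndex N
          = (Nat.card (C ⊓ N : Subgroup G) * C.relIndex N) * N.relIndex C := by ring
        _ = Nat.card (C ⊔ N : Subgroup G) := by rw [h2, h4]
        _ = Nat.card C * C.relIndex (C ⊔ N) := h5.symm
        _ = _ := by rw [h3]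
    exact Nat.eq_of_mul_eq_mul_left (Nat.mul_pos ha hr) this
  rw [h6]
  exact Subgroup.relIndex_dvd_index_of_le le_sup_left

/-- `RP` passes to normal subgroups. -/
theorem rp_normal (N : Subgroup G) [N.Normal] (h : RP p G) : RP p N := by
  intro x hx hdvd
  have hx' : ∃ k : ℕ, orderOf (x : G) = p ^ k := by
    obtain ⟨k, hk⟩ := hx
    exact ⟨k, by rw [Subgroup.orderOf_coe]; exact hk⟩
  apply h (x : G) hx'
  have e : Subgroup.centralizer ({x} : Set N)
      = (Subgroup.centralizer ({(x : G)} : Set G)).subgroupOf N := by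
    ext y
    simp [Subgroup.mem_centralizer_singleton_iff, Subgroup.mem_subgroupOf, Subtype.ext_iff]
  rw [e] at hdvd
  exact dvd_trans hdvd (relIndex_normal_dvd_index _ N)

/-- A `p`-element of a quotient lifts to a `p`-element. -/
theorem exists_lift_pelt (N : Subgroup G) [N.Normal] (z : G ⧸ N) (hz : ∃ k : ℕ, orderOf z = p ^ k) :
    ∃ y : G, (∃ b : ℕ, orderOf y = p ^ b) ∧ (y : G ⧸ N) = z := by
  have hp : p.Prime := Fact.out
  obtain ⟨x, rfl⟩ := QuotientGroup.mk_surjective z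
  obtain ⟨k, hk⟩ := hz
  have hn0 : orderOf x ≠ 0 := (orderOf_pos x).ne'
  obtain ⟨a, m, hm, hn⟩ := Nat.exists_eq_pow_mul_and_not_dvd hn0 p hp.ne_one
  rcases Nat.eq_zero_or_pos k with rfl | hkpos
  · refine ⟨1, ⟨0, by simp⟩, ?_⟩
    have : orderOf ((x : G ⧸ N)) = 1 := by simpa using hk
    rw [orderOf_eq_one_iff] at this
    rw [this]
    rfl
  have hcop : m.Coprime (p ^ k) := ((Nat.Prime.coprime_iff_not_dvd hp).2 hm).symm.pow_right k
  have h1 : 1 < p ^ k := Nat.one_lt_pow (by omega) hp.one_lt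
  obtain ⟨u, -, hu⟩ := Nat.exists_mul_mod_eq_one_of_coprime hcop h1
  refine ⟨x ^ (m * u), ?_, ?_⟩
  · have : (x ^ (m * u)) ^ (p ^ a) = 1 := by
      rw [← pow_mul]
      have e : m * u * p ^ a = orderOf x * u := by rw [hn]; ring
      rw [e, pow_mul, pow_orderOf_eq_one, one_pow]
    have hd := orderOf_dvd_of_pow_eq_one this
    obtain ⟨b, -, hb⟩ := (Nat.dvd_prime_pow hp).1 hd
    exact ⟨b, hb⟩
  · have e : ((x ^ (m * u) : G) : G ⧸ N) = ((x : G) : G ⧸ N) ^ (m * u) := rfl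
    rw [e, ← pow_mod_orderOf, hk, hu, pow_one]

/-- `RP` passes to quotients. -/
theorem rp_quotient (N : Subgroup G) [N.Normal] (h : RP p G) : RP p (G ⧸ N) := by
  intro z hz hdvd
  obtain ⟨y, hy, rfl⟩ := exists_lift_pelt N z hz
  apply h y hy
  have hle : Subgroup.centralizer ({y} : Set G) ≤
      (Subgroup.centralizer ({(y : G ⧸ N)} : Set (G ⧸ N))).comap (QuotientGroup.mk' N) := by
    intro g hg
    rw [Subgroup.mem_centralizer_singleton_iff] at hg
    rw [Subgroup.mem_comap, Subgroup.mem_centralizer_singleton_iff]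
    show ((g * y : G) : G ⧸ N) = ((y * g : G) : G ⧸ N)
    rw [hg]
  have := Subgroup.index_dvd_of_le hle
  rw [Subgroup.index_comap_of_surjective _ (QuotientGroup.mk'_surjective N)] at this
  exact dvd_trans hdvd this

/-- For `N` normal and `S` Sylow in `G`, `S ∩ N` is Sylow in `N`. -/
theorem exists_sylow_subgroupOf (N : Subgroup G) [N.Normal] (S : Sylow p G) :
    ∃ R : Sylow p N, (R : Subgroup N) = (S : Subgroup G).subgroupOf N := by
  obtain ⟨Q₀, hQ₀⟩ := Sylow.exists_comap_subtype_eq (default : Sylow p N)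
  obtain ⟨g, hg⟩ := MulAction.exists_smul_eq G Q₀ S
  let φ : MulAut N := MulAut.conjNormal g
  refine ⟨φ • (default : Sylow p N), ?_⟩
  ext ⟨n, hn⟩
  rw [Sylow.pointwise_smul_def, ← hQ₀, Subgroup.mem_pointwise_smul_iff_inv_smul_mem,
    Subgroup.mem_comap, Subgroup.mem_subgroupOf]
  have h1 : N.subtype (φ⁻¹ • (⟨n, hn⟩ : N)) = g⁻¹ * n * g := by
    show ((φ⁻¹ (⟨n, hn⟩ : N) : N) : G) = _
    simp [φ, ← map_inv, MulAut.conjNormal_apply]
  rw [h1, ← hg, Sylow.coe_subgroup_smul, Subgroup.mem_pointwise_smul_iff_inv_smul_mem]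
  simp [MulAut.smul_def]

/-- A `p`-element normalising a Sylow subgroup lies in it. -/
theorem mem_sylow_of_normalizes (S : Sylow p G) (w : G) (hw : ∃ k : ℕ, orderOf w = p ^ k)
    (hn : w ∈ Subgroup.normalizer (S : Set G)) : w ∈ S := by
  have hp : IsPGroup p (Subgroup.zpowers w) := by
    obtain ⟨k, hk⟩ := hw
    rw [IsPGroup.iff_card, Nat.card_zpowers, hk]
    exact ⟨k, rfl⟩
  have := hp.inf_normalizer_sylow S
  have hmem : w ∈ Subgroup.zpowers w ⊓ Subgroup.normalizer (S : Set G) :=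
    ⟨Subgroup.mem_zpowers w, hn⟩
  rw [this] at hmem
  exact hmem.2

theorem mem_smul_sylow (Q : Sylow p G) (g w : G) : w ∈ g • Q ↔ g⁻¹ * w * g ∈ Q := by
  show w ∈ ((g • Q : Sylow p G) : Subgroup G) ↔ g⁻¹ * w * g ∈ (Q : Subgroup G)
  rw [Sylow.coe_subgroup_smul, Subgroup.mem_pointwise_smul_iff_inv_smul_mem]
  simp [MulAut.smul_def]

/-- A subgroup of index prime to `p` contains a Sylow `p`-subgroup. -/
theorem exists_sylow_le (C : Subgroup G) (h : ¬ p ∣ C.index) :
    ∃ Q : Sylow p G, (Q : Subgroup G) ≤ C := by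
  obtain ⟨S⟩ : Nonempty (Sylow p G) := inferInstance
  have hfix : (MulAction.fixedPoints (S : Subgroup G) (G ⧸ C)).Nonempty := by
    apply S.isPGroup'.nonempty_fixed_point_of_prime_not_dvd_card
    exact h
  obtain ⟨q, hq⟩ := hfix
  obtain ⟨g, rfl⟩ := QuotientGroup.mk_surjective q
  refine ⟨g⁻¹ • S, ?_⟩
  intro y hy
  rw [Sylow.coe_subgroup_smul, Subgroup.mem_pointwise_smul_iff_inv_smul_mem] at hy
  have h1 : (MulAut.conj g⁻¹)⁻¹ • y = g * y * g⁻¹ := by simp [MulAut.smul_def]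
  rw [h1] at hy
  have h2 := hq ⟨_, hy⟩
  have h3 : ((g * y * g⁻¹ * g : G) : G ⧸ C) = (g : G ⧸ C) := h2
  rw [QuotientGroup.eq] at h3
  have e : (g * y * g⁻¹ * g)⁻¹ * g = y⁻¹ := by group
  rw [e] at h3
  simpa using h3

/-- Elements of Sylow subgroups are `p`-elements. -/
theorem pelt_of_mem (P : Sylow p G) (x : G) (hx : x ∈ P) : ∃ k : ℕ, orderOf x = p ^ k := by
  have hpp : p.Prime := Fact.out
  obtain ⟨k, hk⟩ := P.isPGroup' ⟨x, hx⟩
  have h1 : x ^ (p ^ k) = 1 := by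
    have := congrArg Subtype.val hk
    simpa using this
  obtain ⟨b, -, hb⟩ := (Nat.dvd_prime_pow hpp).1 (orderOf_dvd_of_pow_eq_one h1)
  exact ⟨b, hb⟩

/-- Step 1: in the situation of the theorem, `P ∩ N` is central in `P`. -/
theorem step1 (N : Subgroup G) [N.Normal] (hrp : RP p G)
    (hab : ∀ Q : Sylow p N, IsMulCommutative Q) (P : Sylow p G) (x : G) (hx : x ∈ P)
    (a : G) (haP : a ∈ P) (haN : a ∈ N) : x * a = a * x := by
  have hpp : p.Prime := Fact.out
  obtain ⟨k, hk⟩ := pelt_of_mem P x hx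
  -- C(x) contains a Sylow subgroup
  obtain ⟨Q, hQ⟩ := exists_sylow_le (Subgroup.centralizer ({x} : Set G)) (hrp x ⟨k, hk⟩)
  obtain ⟨A', hA'⟩ := exists_sylow_subgroupOf N P
  obtain ⟨Q', hQ'⟩ := exists_sylow_subgroupOf N Q
  obtain ⟨n, hn⟩ := MulAction.exists_smul_eq N Q' A'
  have hn' : ∀ b : G, b ∈ P → b ∈ N → (n : G)⁻¹ * b * n ∈ (Q : Subgroup G) := by
    intro b hbP hbN
    have h1 : (⟨b, hbN⟩ : N) ∈ (A' : Subgroup N) := by
      rw [hA', Subgroup.mem_subgroupOf]; exact hbP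
    rw [← hn, Sylow.coe_subgroup_smul, Subgroup.mem_pointwise_smul_iff_inv_smul_mem, hQ',
      Subgroup.mem_subgroupOf] at h1
    simpa [MulAut.smul_def] using h1
  -- y = n x n⁻¹ centralises P ∩ N
  set y : G := n * x * (n : G)⁻¹ with hy
  have hyc : ∀ b : G, b ∈ P → b ∈ N → y * b = b * y := by
    intro b hbP hbN
    have h1 := hQ (hn' b hbP hbN)
    rw [Subgroup.mem_centralizer_singleton_iff] at h1
    -- h1 : n⁻¹ b n * x = x * n⁻¹ b n
    calc y * b = n * (x * ((n : G)⁻¹ * b * n)) * (n : G)⁻¹ := by simp only [hy]; group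
      _ = n * (((n : G)⁻¹ * b * n) * x) * (n : G)⁻¹ := by rw [h1]
      _ = b * y := by simp only [hy]; group
  -- n' = y⁻¹ x lies in N
  set n' : G := y⁻¹ * x with hn'def
  have hn'N : n' ∈ N := by
    have e : n' = n * (x⁻¹ * (n : G)⁻¹ * x) := by simp only [hn'def, hy]; group
    rw [e]
    exact N.mul_mem n.2 (by
      have := ‹N.Normal›.conj_mem _ (N.inv_mem n.2) x⁻¹
      simpa using this)
  have hconj_x : ∀ b : G, b ∈ N → x * b * x⁻¹ ∈ N := fun b hb => ‹N.Normal›.conj_mem b hb x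
  have hconj_P : ∀ b : G, b ∈ P ↔ x * b * x⁻¹ ∈ P := by
    intro b
    constructor
    · intro hb
      exact (P : Subgroup G).mul_mem ((P : Subgroup G).mul_mem hx hb) ((P : Subgroup G).inv_mem hx)
    · intro hb
      have := (P : Subgroup G).mul_mem ((P : Subgroup G).mul_mem ((P : Subgroup G).inv_mem hx) hb) hx
      have e : x⁻¹ * (x * b * x⁻¹) * x = b := by group
      rwa [e] at this
  -- conjugation by n' agrees with conjugation by x on P ∩ N
  have hagree : ∀ b : G, b ∈ P → b ∈ N → n' * b * n'⁻¹ = x * b * x⁻¹ := by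
    intro b hbP hbN
    have h1 := hyc (x * b * x⁻¹) ((hconj_P b).1 hbP) (hconj_x b hbN)
    calc n' * b * n'⁻¹ = y⁻¹ * (x * b * x⁻¹) * y := by simp only [hn'def]; group
      _ = y⁻¹ * (y * (x * b * x⁻¹)) := by rw [mul_assoc, ← h1]
      _ = x * b * x⁻¹ := by group
  -- n' normalises A'
  let nn : N := ⟨n', hn'N⟩
  have hnorm : nn ∈ Subgroup.normalizer ((A' : Subgroup N) : Set N) := by
    rw [Subgroup.mem_normalizer_iff]
    intro h
    have hmem : ∀ u : N, u ∈ (A' : Subgroup N) ↔ (u : G) ∈ P := by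
      intro u; rw [hA', Subgroup.mem_subgroupOf]; rfl
    rw [hmem, hmem]
    show (h : G) ∈ P ↔ n' * (h : G) * n'⁻¹ ∈ P
    constructor
    · intro hh
      rw [hagree _ hh h.2]
      exact (hconj_P _).1 hh
    · intro hh
      have hN : n' * (h : G) * n'⁻¹ ∈ N :=
        N.mul_mem (N.mul_mem hn'N h.2) (N.inv_mem hn'N)
      have h1 := hyc _ hh hN
      have e : x * (h : G) * x⁻¹ = n' * (h : G) * n'⁻¹ := by
        calc x * (h : G) * x⁻¹ = y * (n' * (h : G) * n'⁻¹) * y⁻¹ := by simp only [hn'def]; group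
          _ = (n' * (h : G) * n'⁻¹) * y * y⁻¹ := by rw [h1]
          _ = _ := by group
      exact (hconj_P _).2 (e ▸ hh)
  -- the p'-part of n'
  have hn0 : orderOf nn ≠ 0 := (orderOf_pos nn).ne'
  obtain ⟨e, m, hm, hnm⟩ := Nat.exists_eq_pow_mul_and_not_dvd hn0 p hpp.ne_one
  set w : N := nn ^ m with hw
  have hwp : ∃ b : ℕ, orderOf w = p ^ b := by
    have : w ^ (p ^ e) = 1 := by
      rw [hw, ← pow_mul]
      have e' : m * p ^ e = orderOf nn := by rw [hnm]; ring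
      rw [e', pow_orderOf_eq_one]
    obtain ⟨b, -, hb⟩ := (Nat.dvd_prime_pow hpp).1 (orderOf_dvd_of_pow_eq_one this)
    exact ⟨b, hb⟩
  have hwA : w ∈ (A' : Subgroup N) :=
    mem_sylow_of_normalizes A' w hwp (Subgroup.pow_mem _ hnorm m)
  -- powers agree
  have hpow : ∀ (j : ℕ) (b : G), b ∈ P → b ∈ N →
      (n' ^ j * b * (n' ^ j)⁻¹ = x ^ j * b * (x ^ j)⁻¹) ∧ x ^ j * b * (x ^ j)⁻¹ ∈ P ∧
        x ^ j * b * (x ^ j)⁻¹ ∈ N := by
    intro j
    induction j with
    | zero => intro b hbP hbN; simp [hbP, hbN]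
    | succ j ih =>
      intro b hbP hbN
      obtain ⟨h1, h2, h3⟩ := ih b hbP hbN
      have e1 : n' ^ (j + 1) * b * (n' ^ (j + 1))⁻¹ = n' * (n' ^ j * b * (n' ^ j)⁻¹) * n'⁻¹ := by
        rw [pow_succ']; group
      have e2 : x ^ (j + 1) * b * (x ^ (j + 1))⁻¹ = x * (x ^ j * b * (x ^ j)⁻¹) * x⁻¹ := by
        rw [pow_succ']; group
      refine ⟨?_, ?_, ?_⟩
      · rw [e1, e2, h1, hagree _ h2 h3]
      · rw [e2]; exact (hconj_P _).1 h2
      · rw [e2]; exact hconj_x _ h3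
  -- x^m commutes with a
  have hwG : (w : G) = n' ^ m := by simp [hw, nn]
  have hcomm : x ^ m * a * (x ^ m)⁻¹ = a := by
    rw [← (hpow m a haP haN).1, ← hwG]
    have hab' := hab A'
    have h1 : w * ⟨a, haN⟩ = ⟨a, haN⟩ * w := by
      have ha' : (⟨a, haN⟩ : N) ∈ (A' : Subgroup N) := by
        rw [hA', Subgroup.mem_subgroupOf]; exact haP
      have := mul_comm' (⟨w, hwA⟩ : (A' : Subgroup N)) ⟨⟨a, haN⟩, ha'⟩
      exact congrArg Subtype.val this
    have h2 : (w : G) * a = a * (w : G) := congrArg Subtype.val h1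
    rw [h2]; group
  have hcomm' : Commute (x ^ m) a := by
    show x ^ m * a = a * x ^ m
    calc x ^ m * a = (x ^ m * a * (x ^ m)⁻¹) * x ^ m := by group
      _ = a * x ^ m := by rw [hcomm]
  -- x is a power of x^m
  rcases Nat.eq_zero_or_pos k with rfl | hkpos
  · have : x = 1 := by simpa using hk
    rw [this]; simp
  have hcop : m.Coprime (p ^ k) := ((Nat.Prime.coprime_iff_not_dvd hpp).2 hm).symm.pow_right k
  have h1 : 1 < p ^ k := Nat.one_lt_pow (by omega) hpp.one_lt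
  obtain ⟨u, -, hu⟩ := Nat.exists_mul_mod_eq_one_of_coprime hcop h1
  have hxu : x = (x ^ m) ^ u := by
    rw [← pow_mul, ← pow_mod_orderOf, hk, hu, pow_one]
  rw [hxu]
  exact (hcomm'.pow_left u)

/-- Step 2: `P` is abelian. -/
theorem step2 (N : Subgroup G) [N.Normal] (hrp : RP p G)
    (hab : ∀ Q : Sylow p N, IsMulCommutative Q)
    (hab' : ∀ Q : Sylow p (G ⧸ N), IsMulCommutative Q) (P : Sylow p G) (x z : G)
    (hx : x ∈ P) (hz : z ∈ P) : x * z = z * x := by
  obtain ⟨k, hk⟩ := pelt_of_mem P x hx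
  obtain ⟨Q, hQ⟩ := exists_sylow_le (Subgroup.centralizer ({x} : Set G)) (hrp x ⟨k, hk⟩)
  have hxQ : x ∈ Q := by
    apply mem_sylow_of_normalizes Q x ⟨k, hk⟩
    show x ∈ Subgroup.normalizer (((Q : Subgroup G) : Set G))
    rw [Subgroup.mem_normalizer_iff]
    intro h
    constructor
    · intro hh
      have := hQ hh
      rw [Subgroup.mem_centralizer_singleton_iff] at this
      rw [← this]
      simpa using hh
    · intro hh
      have h1 : x * h * x⁻¹ ∈ (Q : Subgroup G) := hh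
      have := hQ h1
      rw [Subgroup.mem_centralizer_singleton_iff] at this
      have h2 : h = x * h * x⁻¹ := by
        have h3 : x * (x * h * x⁻¹) = x * h := by
          have := congrArg (fun t => t) this
          calc x * (x * h * x⁻¹) = (x * h * x⁻¹) * x := this.symm
            _ = x * h := by group
        exact (mul_left_cancel h3).symm
      rw [h2]; exact h1
  obtain ⟨g, hg⟩ := MulAction.exists_smul_eq G Q P
  have hgmem : ∀ w : G, w ∈ Q → g * w * g⁻¹ ∈ P := by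
    intro w hw
    rw [← hg, mem_smul_sylow]
    have e : g⁻¹ * (g * w * g⁻¹) * g = w := by group
    rwa [e]
  have hgmem' : ∀ w : G, w ∈ P → g⁻¹ * w * g ∈ Q := by
    intro w hw
    rwa [← hg, mem_smul_sylow] at hw
  set y : G := g * x * g⁻¹ with hy
  have hyP : y ∈ P := hgmem x hxQ
  have hyc : ∀ w : G, w ∈ P → y * w = w * y := by
    intro w hw
    have h1 := hQ (hgmem' w hw)
    rw [Subgroup.mem_centralizer_singleton_iff] at h1
    calc y * w = g * (x * (g⁻¹ * w * g)) * g⁻¹ := by simp only [hy]; group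
      _ = g * ((g⁻¹ * w * g) * x) * g⁻¹ := by rw [h1]
      _ = w * y := by simp only [hy]; group
  -- pass to the quotient
  let Pb : Sylow p (G ⧸ N) := P.mapSurjective (QuotientGroup.mk'_surjective N)
  have hPb : ∀ w : G ⧸ N, w ∈ (Pb : Subgroup (G ⧸ N)) ↔ ∃ t ∈ (P : Subgroup G), (t : G ⧸ N) = w := by
    intro w
    show w ∈ (P : Subgroup G).map (QuotientGroup.mk' N) ↔ _
    rw [Subgroup.mem_map]
    rfl
  have hxb : (x : G ⧸ N) ∈ (Pb : Subgroup (G ⧸ N)) := (hPb _).2 ⟨x, hx, rfl⟩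
  have hyb : (y : G ⧸ N) ∈ (Pb : Subgroup (G ⧸ N)) := (hPb _).2 ⟨y, hyP, rfl⟩
  have hcomm : ∀ u ∈ (Pb : Subgroup (G ⧸ N)), u ∈ Subgroup.centralizer ((Pb : Subgroup (G ⧸ N)) : Set (G ⧸ N)) := by
    intro u hu v hv
    have hc := hab' Pb
    have := mul_comm' (⟨v, hv⟩ : (Pb : Subgroup (G ⧸ N))) ⟨u, hu⟩
    exact congrArg Subtype.val this
  have hy' : ((g⁻¹ : G) : G ⧸ N)⁻¹ * (x : G ⧸ N) * ((g⁻¹ : G) : G ⧸ N) = (y : G ⧸ N) := by
    rw [hy]
    simp only [QuotientGroup.mk_mul, QuotientGroup.mk_inv, inv_inv]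
  obtain ⟨nb, hnb, hnbe⟩ := Sylow.conj_eq_normalizer_conj_of_mem_centralizer Pb (x : G ⧸ N)
    ((g⁻¹ : G) : G ⧸ N) (hcomm _ hxb) (by rw [hy']; exact hcomm _ hyb)
  rw [hy'] at hnbe
  obtain ⟨n₀, rfl⟩ := QuotientGroup.mk_surjective nb
  -- n₀ P n₀⁻¹ ≤ P N
  let S : Sylow p G := n₀ • P
  have hSle : (S : Subgroup G) ≤ (P : Subgroup G) ⊔ N := by
    intro s hs
    have hs' : n₀⁻¹ * s * n₀ ∈ (P : Subgroup G) := by
      exact (mem_smul_sylow P n₀ s).1 hs
    have h1 : ((n₀⁻¹ * s * n₀ : G) : G ⧸ N) ∈ (Pb : Subgroup (G ⧸ N)) := (hPb _).2 ⟨_, hs', rfl⟩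
    have h2 : ((n₀ : G) : G ⧸ N) * ((n₀⁻¹ * s * n₀ : G) : G ⧸ N) * ((n₀ : G) : G ⧸ N)⁻¹
        ∈ (Pb : Subgroup (G ⧸ N)) := ((Subgroup.mem_normalizer_iff.1 hnb) _).1 h1
    have h3 : ((n₀ : G) : G ⧸ N) * ((n₀⁻¹ * s * n₀ : G) : G ⧸ N) * ((n₀ : G) : G ⧸ N)⁻¹
        = ((s : G) : G ⧸ N) := by
      rw [← QuotientGroup.mk_inv, ← QuotientGroup.mk_mul, ← QuotientGroup.mk_mul]
      congr 1
      group
    rw [h3] at h2
    obtain ⟨t, ht, hts⟩ := (hPb _).1 h2
    rw [QuotientGroup.eq] at hts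
    have : s = t * (t⁻¹ * s) := by group
    rw [this]
    exact (P : Subgroup G).mul_mem_sup ht hts
  obtain ⟨t, htN, ht⟩ := Cfsg.Agent.Lib.SylowConjLemmas.exists_conj_mem_of_le_sup P N
    (S : Subgroup G) S.isPGroup' hSle
  -- h = t n₀ normalises P
  set h : G := t * n₀ with hh
  have hhP : ∀ w : G, w ∈ P → h * w * h⁻¹ ∈ P := by
    intro w hw
    have h1 : n₀ * w * n₀⁻¹ ∈ (S : Subgroup G) := by
      show n₀ * w * n₀⁻¹ ∈ (n₀ • P : Sylow p G)
      rw [mem_smul_sylow]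
      have e : n₀⁻¹ * (n₀ * w * n₀⁻¹) * n₀ = w := by group
      rwa [e]
    have h2 := ht _ h1
    have e : t * (n₀ * w * n₀⁻¹) * t⁻¹ = h * w * h⁻¹ := by simp only [hh]; group
    rwa [e] at h2
  have hhS : h • P = P := by
    have hle : ((h • P : Sylow p G) : Subgroup G) ≤ (P : Subgroup G) := by
      intro w hw
      have h1 : h⁻¹ * w * h ∈ P := (mem_smul_sylow P h w).1 hw
      have h2 := hhP _ h1
      have e : h * (h⁻¹ * w * h) * h⁻¹ = w := by group
      rwa [e] at h2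
    exact Sylow.ext ((h • P).is_maximal' P.isPGroup' hle).symm
  have hhP' : ∀ w : G, w ∈ P → h⁻¹ * w * h ∈ P := by
    intro w hw
    rw [← hhS, mem_smul_sylow] at hw
    exact hw
  -- y'' = h y h⁻¹
  set y2 : G := h * y * h⁻¹ with hy2
  have hy2P : y2 ∈ P := hhP y hyP
  have hy2c : ∀ w : G, w ∈ P → y2 * w = w * y2 := by
    intro w hw
    have h1 := hyc _ (hhP' w hw)
    calc y2 * w = h * (y * (h⁻¹ * w * h)) * h⁻¹ := by simp only [hy2]; group
      _ = h * ((h⁻¹ * w * h) * y) * h⁻¹ := by rw [h1]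
      _ = w * y2 := by simp only [hy2]; group
  -- y2 ≡ x modulo N
  have hmod : (y2 : G ⧸ N) = (x : G ⧸ N) := by
    have ht0 : ((t : G) : G ⧸ N) = 1 := (QuotientGroup.eq_one_iff t).2 htN
    have e1 : ((h : G) : G ⧸ N) = ((n₀ : G) : G ⧸ N) := by
      show ((t : G) : G ⧸ N) * ((n₀ : G) : G ⧸ N) = _
      rw [ht0, one_mul]
    have e2 : (y2 : G ⧸ N) = ((h : G) : G ⧸ N) * (y : G ⧸ N) * ((h : G) : G ⧸ N)⁻¹ := rfl
    rw [e2, e1, hnbe]
    group
  have ha : x⁻¹ * y2 ∈ N := by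
    have := QuotientGroup.eq.1 hmod.symm
    exact this
  have haP : x⁻¹ * y2 ∈ (P : Subgroup G) :=
    (P : Subgroup G).mul_mem ((P : Subgroup G).inv_mem hx) hy2P
  have hac := step1 N hrp hab P z hz _ haP ha
  -- conclude
  have hy2z := hy2c z hz
  have hxe : x = y2 * (x⁻¹ * y2)⁻¹ := by group
  have hc1 : Commute y2 z := hy2z
  have hc2 : Commute (x⁻¹ * y2) z := hac.symm
  have hc3 : Commute x z := by
    rw [hxe]
    exact hc1.mul_left hc2.inv_left
  exact hc3

/-- Let G be a finite group and p a prime such that the Sylow p-subgroups of G are non-abelian while every element of p-power order has conjugacy class size prime to p, and suppose no nontrivial proper normal subgroup N of G has this property and no quotient G/N by such an N has it. Then G is simple. -/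
theorem result {G : Type*} [Group G] [Finite G]
    (p : ℕ) [Fact p.Prime] (h : ((∃ P : Sylow p G, ¬ IsMulCommutative P) ∧ ∀ x : G, (∃ k : ℕ, orderOf x = p ^ k) → ¬ p ∣ (Subgroup.centralizer ({x} : Set G)).index))
    (hmin : ∀ (N : Subgroup G) [N.Normal], N ≠ ⊥ → N ≠ ⊤ →
      ¬ ((∃ P : Sylow p N, ¬ IsMulCommutative P) ∧ ∀ x : N, (∃ k : ℕ, orderOf x = p ^ k) → ¬ p ∣ (Subgroup.centralizer ({x} : Set N)).index) ∧
      ¬ ((∃ P : Sylow p (G ⧸ N), ¬ IsMulCommutative P) ∧ ∀ x : (G ⧸ N), (∃ k : ℕ, orderOf x = p ^ k) → ¬ p ∣ (Subgroup.centralizer ({x} : Set (G ⧸ N))).index)) :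
    IsSimpleGroup G := by
  obtain ⟨⟨P, hP⟩, hrp⟩ := h
  have hnt : Nontrivial G := by
    by_contra hnt
    rw [not_nontrivial_iff_subsingleton] at hnt
    exact hP (IsMulCommutative.of_comm (fun a b => Subsingleton.elim _ _))
  refine ⟨fun N hN => ?_⟩
  by_contra hcon
  rw [not_or] at hcon
  obtain ⟨hb, ht⟩ := hcon
  obtain ⟨h1, h2⟩ := hmin N hb ht
  have hab : ∀ Q : Sylow p N, IsMulCommutative Q := by
    intro Q
    by_contra hQ
    exact h1 ⟨⟨Q, hQ⟩, rp_normal N hrp⟩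
  have hab' : ∀ Q : Sylow p (G ⧸ N), IsMulCommutative Q := by
    intro Q
    by_contra hQ
    exact h2 ⟨⟨Q, hQ⟩, rp_quotient N hrp⟩
  apply hP
  apply IsMulCommutative.of_comm
  intro a b
  apply Subtype.ext
  exact step2 N hrp hab hab' P a b a.2 b.2

end Cfsg.Agent.S4354
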