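import Mathlib
import Cfsg.Statements.S4355
import Cfsg.Agent.Lib.OddClassSylow

set_option autoImplicit false
open Cfsg

namespace Cfsg.Agent.S4355

/-- If every element of 2-power order of a finite group has a conjugacy class of odd size, then the Sylow 2-subgroups of the group are abelian. -/
theorem result {G : Type*} [Group G] [Finite G]
    (h : ∀ x : G, (∃ k : ℕ, orderOf x = 2 ^ k) → ¬ 2 ∣ (Subgroup.centralizer ({x} : Set G)).index) (P : Sylow 2 G) :
    IsMulCommutative P := by
  have key := Cfsg.Agent.Lib.OddClassSylow.comm_of_odd h (P : Subgroup G) P.isPGroup'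
  exact ⟨⟨fun a b => Subtype.ext (key a a.2 b b.2)⟩⟩

end Cfsg.Agent.S4355
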