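import Mathlib
import Cfsg.Statements.S4359

set_option autoImplicit false
open Cfsg
open Pointwise
open scoped commutatorElement

namespace Cfsg.Agent.S4359

section general

variable {G : Type*} [Group G]

/-- Intersection of the `Q i` for `a ≤ i ≤ b`. -/
def I (Q : ℤ → Subgroup G) (a b : ℤ) : Subgroup G := ⨅ i : ℤ, ⨅ _ : a ≤ i ∧ i ≤ b, Q i

theorem mem_I {Q : ℤ → Subgroup G} {a b : ℤ} {x : G} :
    x ∈ I Q a b ↔ ∀ i : ℤ, a ≤ i → i ≤ b → x ∈ Q i := by
  simp [I, Subgroup.mem_iInf, and_imp]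

theorem I_mono {Q : ℤ → Subgroup G} {a b a' b' : ℤ} (h1 : a' ≤ a) (h2 : b ≤ b') :
    I Q a' b' ≤ I Q a b := by
  intro x hx
  rw [mem_I] at hx ⊢
  intro i h3 h4
  exact hx i (by omega) (by omega)

theorem I_congr {Q : ℤ → Subgroup G} {a b a' b' : ℤ} (h1 : a = a') (h2 : b = b') :
    I Q a b = I Q a' b' := by
  rw [h1, h2]

/-- The chain property. -/
def IsChain (p t : ℕ) (Q : ℤ → Subgroup G) : Prop :=
  ∀ (a : ℤ) (k : ℕ), k ≤ t → Nat.card (I Q a (a + k)) = p ^ (t - k)

/-- Root subgroups. -/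
def root (Q : ℤ → Subgroup G) (t : ℕ) (x : ℤ) : Subgroup G := I Q x (x + t - 1)

theorem exists_mul_of_card [Finite G] {K S H : Subgroup G} (hS : S ≤ K) (hH : H ≤ K)
    (hd : S ⊓ H = ⊥) (hc : Nat.card S * Nat.card H = Nat.card K) {c : G} (hcK : c ∈ K) :
    ∃ s ∈ S, ∃ h ∈ H, c = s * h := by
  let f : S × H → K := fun x => ⟨x.1 * x.2, K.mul_mem (hS x.1.2) (hH x.2.2)⟩
  have hf : Function.Bijective f := by
    rw [Nat.bijective_iff_injective_and_card]
    refine ⟨?_, by rw [Nat.card_prod, hc]⟩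
    rintro ⟨s, h⟩ ⟨s', h'⟩ hE
    have h1 : (s : G) * h = s' * h' := congrArg Subtype.val hE
    have h2 : (s' : G)⁻¹ * s = h' * (h : G)⁻¹ := by
      rw [inv_mul_eq_iff_eq_mul, ← mul_assoc, ← h1, mul_assoc, mul_inv_cancel, mul_one]
    have h3 : (s' : G)⁻¹ * s ∈ S ⊓ H :=
      ⟨S.mul_mem (S.inv_mem s'.2) s.2, by rw [h2]; exact H.mul_mem h'.2 (H.inv_mem h.2)⟩
    rw [hd, Subgroup.mem_bot] at h3
    have h4 : (s : G) = s' := by
      rw [inv_mul_eq_one] at h3
      exact h3.symm
    have h5 : (h : G) = h' := by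
      rw [h4] at h1
      exact mul_left_cancel h1
    exact Prod.ext (Subtype.ext h4) (Subtype.ext h5)
  obtain ⟨⟨s, h⟩, hx⟩ := hf.2 ⟨c, hcK⟩
  exact ⟨s, s.2, h, h.2, (congrArg Subtype.val hx).symm⟩

theorem normal_of_card [Finite G] {p : ℕ} [hp : Fact p.Prime] {X H : Subgroup G} {m : ℕ} (hHX : H ≤ X)
    (hX : Nat.card X = p ^ (m + 1)) (hH : Nat.card H = p ^ m) {x y : G} (hx : x ∈ X) (hy : y ∈ H) :
    x * y * x⁻¹ ∈ H := by
  let H' := H.subgroupOf X
  have hcard : Nat.card H' = p ^ m := by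
    rw [← hH]
    exact Nat.card_congr (Subgroup.subgroupOfEquivOfLe hHX).toEquiv
  have hidx : H'.index = p := by
    have := Subgroup.card_mul_index H'
    rw [hcard, hX, pow_succ] at this
    exact Nat.eq_of_mul_eq_mul_left (pow_pos hp.out.pos _) this
  have hN : H'.Normal := by
    apply Subgroup.normal_of_index_eq_minFac_card
    rw [hidx, hX, Nat.Prime.pow_minFac hp.out (by omega)]
  have h1 : (⟨y, hHX hy⟩ : X) ∈ H' := by
    simpa [H', Subgroup.mem_subgroupOf] using hy
  have := hN.conj_mem _ h1 ⟨x, hx⟩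
  simpa [H', Subgroup.mem_subgroupOf] using this

variable {p t : ℕ} [hp : Fact p.Prime] {Q : ℤ → Subgroup G}

theorem I_long [Finite G] (hQ : IsChain p t Q) {a b : ℤ} (h : a + t ≤ b) : I Q a b = ⊥ := by
  have h1 := hQ a t le_rfl
  rw [Nat.sub_self, pow_zero] at h1
  have h2 : I Q a (a + t) = ⊥ := Subgroup.eq_bot_of_card_eq _ h1
  apply le_antisymm _ bot_le
  rw [← h2]
  exact I_mono le_rfl h

theorem card_root [Finite G] (hQ : IsChain p t Q) (ht : 1 ≤ t) (x : ℤ) : Nat.card (root Q t x) = p := by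
  have h1 := hQ x (t - 1) (by omega)
  have h2 : t - (t - 1) = 1 := by omega
  rw [h2, pow_one] at h1
  rw [← h1, root]
  congr 2
  push_cast [ht]
  ring

theorem decomp [Finite G] (hQ : IsChain p t Q) (ht : 1 ≤ t) {y r : ℤ} (h1 : r - t + 1 ≤ y) (h2 : y ≤ r)
    {c : G} (hc : c ∈ I Q y r) : ∃ s ∈ root Q t (r - t + 1), ∃ h ∈ I Q y (r + 1), c = s * h := by
  obtain ⟨k, rfl⟩ : ∃ k : ℕ, r = y + k := ⟨(r - y).toNat, by omega⟩
  have hk : k + 1 ≤ t := by omega
  refine exists_mul_of_card ?_ ?_ ?_ ?_ hc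
  · exact I_mono h1 (by omega)
  · exact I_mono le_rfl (by omega)
  · apply le_antisymm _ bot_le
    have h3 : I Q (y + k - t + 1) (y + k + 1) = ⊥ := I_long hQ (by omega)
    rw [← h3]
    intro z hz
    have h4 := mem_I.1 hz.1
    have h5 := mem_I.1 hz.2
    rw [mem_I]
    intro i h6 h7
    by_cases h8 : i ≤ y + k
    · exact h4 i h6 (by omega)
    · exact h5 i (by omega) h7
  · rw [card_root hQ ht, hQ y k (by omega)]
    have h3 : y + (k : ℤ) + 1 = y + ((k + 1 : ℕ) : ℤ) := by
      push_cast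
      ring
    rw [h3, hQ y (k + 1) hk, ← pow_succ']
    congr 1
    omega

theorem comm_U [Finite G] (hQ : IsChain p t Q) (ht : 1 ≤ t) (z : G) :
    ∀ L : ℕ, L ≤ t → ∀ w : ℤ, (∀ v : ℤ, w ≤ v → v < w + L → ∀ x ∈ root Q t v, z * x = x * z) →
      ∀ x ∈ I Q (w + L - 1) (w + t - 1), z * x = x * z := by
  intro L
  induction L with
  | zero =>
    intro _ w _ x hx
    have h1 : I Q (w + (0 : ℕ) - 1) (w + t - 1) = ⊥ := I_long hQ (by push_cast; omega)
    rw [h1, Subgroup.mem_bot] at hx
    rw [hx, mul_one, one_mul]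
  | succ L ih =>
    intro hL w hv x hx
    have h1 := decomp hQ ht (y := w + ((L + 1 : ℕ) : ℤ) - 1) (r := w + t - 1) (by push_cast; omega)
      (by omega) hx
    have e1 : w + (t : ℤ) - 1 - t + 1 = w := by ring
    rw [e1] at h1
    obtain ⟨s, hs, h, hh, rfl⟩ := h1
    have a1 := hv w le_rfl (by push_cast; omega) s hs
    have a2 := ih (by omega) (w + 1) (fun v h3 h4 x hx => hv v (by omega) (by push_cast; omega) x hx) h
      (by
        have e2 : I Q (w + 1 + (L : ℤ) - 1) (w + 1 + t - 1) = I Q (w + ((L + 1 : ℕ) : ℤ) - 1) (w + t - 1 + 1) :=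
          I_congr (by push_cast; ring) (by ring)
        rw [e2]
        exact hh)
    rw [← mul_assoc, a1, mul_assoc, a2, mul_assoc]

theorem comm_le [Finite G] (hQ : IsChain p t Q) {x y : ℤ} (h1 : x < y) (h2 : y ≤ x + t - 1) {u v : G}
    (hu : u ∈ root Q t x) (hv : v ∈ root Q t y) : ⁅u, v⁆ ∈ I Q (y - 1) (x + t) := by
  obtain ⟨k, hk⟩ : ∃ k : ℕ, x + t - 1 = y + k := ⟨(x + t - 1 - y).toNat, by omega⟩
  have hk1 : k + 1 < t := by omega
  obtain ⟨m, hm⟩ : ∃ m : ℕ, t - k = m + 1 := ⟨t - k - 1, by omega⟩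
  have hW : Nat.card (I Q y (x + t - 1)) = p ^ (m + 1) := by
    rw [hk, hQ y k (by omega), hm]
  have hW1 : Nat.card (I Q y (x + t)) = p ^ m := by
    have e : x + (t : ℤ) = y + ((k + 1 : ℕ) : ℤ) := by
      push_cast
      omega
    rw [e, hQ y (k + 1) (by omega)]
    congr 1
    omega
  have hW2 : Nat.card (I Q (y - 1) (x + t - 1)) = p ^ m := by
    have e : x + (t : ℤ) - 1 = (y - 1) + ((k + 1 : ℕ) : ℤ) := by
      push_cast
      omega
    rw [e, hQ (y - 1) (k + 1) (by omega)]
    congr 1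
    omega
  have l1 : I Q y (x + t) ≤ I Q y (x + t - 1) := I_mono le_rfl (by omega)
  have l2 : I Q (y - 1) (x + t - 1) ≤ I Q y (x + t - 1) := I_mono (by omega) le_rfl
  have hu2 : u ∈ I Q (y - 1) (x + t - 1) := I_mono (Q := Q) (a' := x) (b' := x + t - 1) (by omega) (by omega) hu
  have hv1 : v ∈ I Q y (x + t) := I_mono (Q := Q) (a' := y) (b' := y + t - 1) (by omega) (by omega) hv
  have a1 : ⁅u, v⁆ ∈ I Q (y - 1) (x + t - 1) := by
    rw [commutatorElement_def, mul_assoc, mul_assoc, ← mul_assoc v]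
    exact (I Q (y - 1) (x + t - 1)).mul_mem hu2
      (normal_of_card l2 hW hW2 (l1 hv1) ((I Q (y - 1) (x + t - 1)).inv_mem hu2))
  have a2 : ⁅u, v⁆ ∈ I Q y (x + t) := by
    rw [commutatorElement_def]
    exact (I Q y (x + t)).mul_mem (normal_of_card l1 hW hW1 (l2 hu2) hv1) ((I Q y (x + t)).inv_mem hv1)
  rw [mem_I] at a1 a2 ⊢
  intro i h3 h4
  by_cases h5 : i ≤ x + t - 1
  · exact a1 i h3 h5
  · exact a2 i (by omega) h4

theorem comm_bot {A B : Subgroup G} (h : ∀ u ∈ A, ∀ v ∈ B, u * v = v * u) : ⁅A, B⁆ = ⊥ := by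
  rw [Subgroup.commutator_eq_bot_iff_le_centralizer]
  intro u hu
  rw [Subgroup.mem_centralizer_iff]
  intro v hv
  exact (h u hu v hv).symm

theorem mem_zpowers_of_card [Finite G] {S : Subgroup G} (hS : Nat.card S = p) {s u : G} (hs : s ∈ S) (hs1 : s ≠ 1)
    (hu : u ∈ S) : u ∈ Subgroup.zpowers s := by
  have h1 : Subgroup.zpowers s ≤ S := by
    rw [Subgroup.zpowers_le]
    exact hs
  have h2 : Nat.card (Subgroup.zpowers s) ∣ Nat.card S := Subgroup.card_dvd_of_le h1
  rw [hS, Nat.card_zpowers] at h2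
  have h3 : orderOf s ≠ 1 := by
    rwa [Ne, orderOf_eq_one_iff]
  have h4 := (Nat.dvd_prime hp.out).1 h2
  have h5 : orderOf s = p := h4.resolve_left h3
  have h6 : Subgroup.zpowers s = S := Subgroup.eq_of_le_of_card_ge h1 (by rw [hS, Nat.card_zpowers, h5])
  rw [h6]
  exact hu

theorem claimA [Finite G] (hQ : IsChain p t Q) (ht : 1 ≤ t) {d : ℕ} (hd1 : 1 ≤ d) (hdt : d + 1 ≤ t)
    (hcomm : ∀ w w' : ℤ, w - w' < d → w' - w < d → ∀ u ∈ root Q t w, ∀ v ∈ root Q t w', u * v = v * u)
    (hnc : ∀ a : ℤ, ¬ ∀ u ∈ root Q t a, ∀ v ∈ root Q t (a + d), u * v = v * u)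
    (x : ℤ) {c : G} (hc : c ∈ ⁅root Q t x, root Q t (x + d)⁆) : c ∈ I Q (x + d - 1) (x + 2 * t - d - 1) := by
  have base : c ∈ I Q (x + d - 1) (x + t) :=
    (Subgroup.commutator_le.2 fun u hu v hv =>
      comm_le hQ (x := x) (y := x + d) (by omega) (by omega) hu hv) hc
  have step : ∀ m : ℕ, (m : ℤ) ≤ t - d - 1 → c ∈ I Q (x + d - 1) (x + t + m) := by
    intro m
    induction m with
    | zero =>
      intro _
      simpa using base
    | succ m ih =>
      intro hm
      have hm' : (m : ℤ) + 1 ≤ t - d - 1 := by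
        push_cast at hm
        exact hm
      have hc1 := ih (by omega)
      have e0 : x + (t : ℤ) + ((m + 1 : ℕ) : ℤ) = x + t + m + 1 := by
        push_cast
        ring
      rw [e0]
      by_cases hmd : (d : ℤ) ≤ m + 1
      · have h1 : I Q (x + d - 1) (x + t + m) = ⊥ := I_long hQ (by omega)
        rw [h1, Subgroup.mem_bot] at hc1
        rw [hc1]
        exact Subgroup.one_mem _
      push Not at hmd
      obtain ⟨s, hs, c', hc', hcs⟩ := decomp hQ ht (y := x + d - 1) (r := x + t + m) (by omega) (by omega) hc1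
      have ea : x + (t : ℤ) + m - t + 1 = x + m + 1 := by ring
      rw [ea] at hs
      set e : ℤ := x + m + 1 + d with he
      have h3 : ⁅⁅root Q t x, root Q t (x + d)⁆, root Q t e⁆ = ⊥ := by
        apply Subgroup.commutator_commutator_eq_bot_of_rotate
        · rw [comm_bot (fun u hu v hv => hcomm (x + d) e (by omega) (by omega) u hu v hv),
            Subgroup.commutator_bot_left]
        · apply comm_bot
          intro w hw v hv
          rw [Subgroup.commutator_comm] at hw
          have hw' : w ∈ I Q (e - 1) (x + t) :=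
            (Subgroup.commutator_le.2 fun u hu v hv =>
              comm_le hQ (x := x) (y := e) (by omega) (by omega) hu hv) hw
          have h5 := comm_U hQ ht v (m + d) (by omega) (x + 1)
            (fun v' h6 h7 y hy => hcomm (x + d) v' (by omega) (by push_cast at h7; omega) v hv y hy) w
            (by
              have e2 : I Q (x + 1 + ((m + d : ℕ) : ℤ) - 1) (x + 1 + t - 1) = I Q (e - 1) (x + t) :=
                I_congr (by push_cast; omega) (by ring)
              rw [e2]
              exact hw')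
          exact h5.symm
      have hv : ∀ v ∈ root Q t e, c * v = v * c := by
        intro v hv
        have h4 := (Subgroup.commutator_eq_bot_iff_le_centralizer.1 h3) hc
        rw [Subgroup.mem_centralizer_iff] at h4
        exact (h4 v hv).symm
      have hv' : ∀ v ∈ root Q t e, c' * v = v * c' := by
        intro v hv
        have h5 := comm_U hQ ht v (d - m - 2) (by omega) (x + m + 2)
          (fun v' h6 h7 y hy => hcomm e v' (by omega) (by omega) v hv y hy) c'
          (by
            have e2 : I Q (x + m + 2 + ((d - m - 2 : ℕ) : ℤ) - 1) (x + m + 2 + t - 1)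
                = I Q (x + d - 1) (x + t + m + 1) :=
              I_congr (by omega) (by ring)
            rw [e2]
            exact hc')
        exact h5.symm
      have hsv : ∀ v ∈ root Q t e, s * v = v * s := by
        intro v hv1
        have h4 := hv v hv1
        have h5 := hv' v hv1
        rw [hcs] at h4
        have h6 : s * c' * v = s * v * c' := by
          rw [mul_assoc, h5, mul_assoc]
        rw [h6] at h4
        have h7 : v * (s * c') = v * s * c' := by
          rw [mul_assoc]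
        rw [h7] at h4
        exact mul_right_cancel h4
      have hs1 : s = 1 := by
        by_contra hs1
        apply hnc (x + m + 1)
        intro u hu v hv1
        have h8 := mem_zpowers_of_card (card_root hQ ht _) hs hs1 hu
        obtain ⟨k, rfl⟩ := Subgroup.mem_zpowers_iff.1 h8
        exact ((show Commute s v from hsv v hv1).zpow_left k)
      rw [hcs, hs1, one_mul]
      exact hc'
  have h1 := step (t - d - 1) (by omega)
  have e2 : I Q (x + d - 1) (x + t + ((t - d - 1 : ℕ) : ℤ)) = I Q (x + d - 1) (x + 2 * t - d - 1) :=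
    I_congr rfl (by omega)
  rw [e2] at h1
  exact h1

/-- The reversed family. -/
def rev (Q : ℤ → Subgroup G) : ℤ → Subgroup G := fun i => Q (-i)

theorem I_rev (Q : ℤ → Subgroup G) (a b : ℤ) : I (rev Q) a b = I Q (-b) (-a) := by
  ext x
  rw [mem_I, mem_I]
  constructor
  · intro h i h1 h2
    have := h (-i) (by omega) (by omega)
    simpa [rev] using this
  · intro h i h1 h2
    exact h (-i) (by omega) (by omega)

theorem IsChain.rev (hQ : IsChain p t Q) : IsChain p t (rev Q) := by
  intro a k hk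
  rw [I_rev]
  have := hQ (-a - k) k hk
  rw [← this]
  congr 2
  ring_nf

theorem root_rev (Q : ℤ → Subgroup G) (x : ℤ) : root (rev Q) t x = root Q t (-x - t + 1) := by
  unfold root
  rw [I_rev]
  exact I_congr (by ring) (by ring)

theorem claimB [Finite G] (hQ : IsChain p t Q) (ht : 1 ≤ t) {d : ℕ} (hd1 : 1 ≤ d) (hdt : d + 1 ≤ t)
    (hcomm : ∀ w w' : ℤ, w - w' < d → w' - w < d → ∀ u ∈ root Q t w, ∀ v ∈ root Q t w', u * v = v * u)
    (hnc : ∀ a : ℤ, ¬ ∀ u ∈ root Q t a, ∀ v ∈ root Q t (a + d), u * v = v * u)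
    (x : ℤ) {c : G} (hc : c ∈ ⁅root Q t x, root Q t (x + d)⁆) : c ∈ I Q (x + 2 * d - t) (x + t) := by
  have hcomm' : ∀ w w' : ℤ, w - w' < d → w' - w < d → ∀ u ∈ root (rev Q) t w, ∀ v ∈ root (rev Q) t w',
      u * v = v * u := by
    intro w w' h1 h2 u hu v hv
    rw [root_rev] at hu hv
    exact hcomm _ _ (by omega) (by omega) u hu v hv
  have hnc' : ∀ a : ℤ, ¬ ∀ u ∈ root (rev Q) t a, ∀ v ∈ root (rev Q) t (a + d), u * v = v * u := by
    intro a h
    apply hnc (-a - d - t + 1)
    intro u hu v hv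
    have e1 : root Q t (-a - d - t + 1) = root (rev Q) t (a + d) := by
      rw [root_rev]
      congr 1
      ring
    have e2 : root Q t (-a - d - t + 1 + d) = root (rev Q) t a := by
      rw [root_rev]
      congr 1
      ring
    rw [e1] at hu
    rw [e2] at hv
    exact (h v hv u hu).symm
  have hc' : c ∈ ⁅root (rev Q) t (-(x + d) - t + 1), root (rev Q) t (-(x + d) - t + 1 + d)⁆ := by
    have e1 : root (rev Q) t (-(x + d) - t + 1) = root Q t (x + d) := by
      rw [root_rev]
      congr 1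
      ring
    have e2 : root (rev Q) t (-(x + d) - t + 1 + d) = root Q t x := by
      rw [root_rev]
      congr 1
      ring
    rw [e1, e2, Subgroup.commutator_comm]
    exact hc
  have h1 := claimA hQ.rev ht hd1 hdt hcomm' hnc' _ hc'
  rw [I_rev] at h1
  have e : I Q (-(-(x + d) - t + 1 + 2 * t - d - 1)) (-(-(x + d) - t + 1 + d - 1)) = I Q (x + 2 * d - t) (x + t) :=
    I_congr (by ring) (by ring)
  rw [e] at h1
  exact h1

/-- The key inequality. -/
theorem two_t_le [Finite G] (hQ : IsChain p t Q) (ht : 1 ≤ t) {d : ℕ} (hd1 : 1 ≤ d) (hdt : d + 1 ≤ t)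
    (hcomm : ∀ w w' : ℤ, w - w' < d → w' - w < d → ∀ u ∈ root Q t w, ∀ v ∈ root Q t w', u * v = v * u)
    (hnc : ∀ a : ℤ, ¬ ∀ u ∈ root Q t a, ∀ v ∈ root Q t (a + d), u * v = v * u) : 2 * t ≤ 3 * d := by
  by_contra hcon
  push Not at hcon
  apply hnc 0
  intro u hu v hv
  have hc : ⁅u, v⁆ ∈ ⁅root Q t 0, root Q t (0 + d)⁆ := Subgroup.commutator_mem_commutator hu hv
  have h1 := claimA hQ ht hd1 hdt hcomm hnc 0 hc
  have h2 := claimB hQ ht hd1 hdt hcomm hnc 0 hc
  have h3 : ⁅u, v⁆ ∈ I Q (0 + 2 * d - t) (0 + 2 * t - d - 1) := by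
    rw [mem_I] at h1 h2 ⊢
    intro i h4 h5
    by_cases h6 : i ≤ 0 + t
    · exact h2 i h4 h6
    · exact h1 i (by omega) h5
  rw [I_long hQ (by omega), Subgroup.mem_bot] at h3
  exact commutatorElement_eq_one_iff_mul_comm.1 h3

theorem comm_root_self [Finite G] (hQ : IsChain p t Q) (ht : 1 ≤ t) (x : ℤ) {u v : G} (hu : u ∈ root Q t x)
    (hv : v ∈ root Q t x) : u * v = v * u := by
  by_cases h : u = 1
  · rw [h, one_mul, mul_one]
  have h8 := mem_zpowers_of_card (card_root hQ ht x) hu h hv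
  obtain ⟨k, rfl⟩ := Subgroup.mem_zpowers_iff.1 h8
  exact (Commute.zpow_right (Commute.refl u) k)

end general

section main

variable {G : Type*} [Group G] [Finite G] {p : ℕ} [hp : Fact p.Prime]

/-- The conjugates of `P`. -/
def Qf (σ : MulAut G) (P : Subgroup G) : ℤ → Subgroup G := fun i => (σ ^ i) • P

theorem Qf_add (σ : MulAut G) (P : Subgroup G) (i c : ℤ) : Qf σ P (i + c) = (σ ^ c) • Qf σ P i := by
  simp only [Qf]
  rw [← mul_smul, ← zpow_add, add_comm]

theorem I_shift (σ : MulAut G) (P : Subgroup G) (a b c : ℤ) :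
    I (Qf σ P) (a + c) (b + c) = (σ ^ c) • I (Qf σ P) a b := by
  ext x
  rw [Subgroup.mem_pointwise_smul_iff_inv_smul_mem, mem_I, mem_I]
  constructor
  · intro h i h1 h2
    have h3 := h (i + c) (by omega) (by omega)
    rw [Qf_add, Subgroup.mem_pointwise_smul_iff_inv_smul_mem] at h3
    exact h3
  · intro h i h1 h2
    have h3 := h (i - c) (by omega) (by omega)
    have e : i = i - c + c := by ring
    rw [e, Qf_add, Subgroup.mem_pointwise_smul_iff_inv_smul_mem]
    exact h3

theorem card_smul' (τ : MulAut G) (H : Subgroup G) : Nat.card (τ • H : Subgroup G) = Nat.card H :=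
  Subgroup.card_map_of_injective (MulEquiv.injective τ)

theorem card_I_shift (σ : MulAut G) (P : Subgroup G) (a : ℤ) (k : ℕ) :
    Nat.card (I (Qf σ P) a (a + k)) = Nat.card (I (Qf σ P) 0 k) := by
  have h := I_shift σ P 0 k a
  have e1 : (0 : ℤ) + a = a := by ring
  have e2 : (k : ℤ) + a = a + k := by ring
  rw [e1, e2] at h
  rw [h, card_smul']

theorem chain_of_hyps (σ : MulAut G) (P : Subgroup G)
    (hnorm : ∀ x ∈ (σ • P : Subgroup G), ∀ y ∈ P ⊓ (σ • P : Subgroup G), x * y * x⁻¹ ∈ P ⊓ (σ • P : Subgroup G))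
    (hidx : (P ⊓ (σ • P : Subgroup G)).relIndex (σ • P : Subgroup G) = p)
    (hinv : ∀ D : Subgroup G, D ≤ P → (∀ x ∈ P, ∀ y ∈ D, x * y * x⁻¹ ∈ D) → (σ • D : Subgroup G) = D → D = ⊥) :
    ∃ t : ℕ, Nat.card P = p ^ t ∧ IsChain p t (Qf σ P) := by
  set Q := Qf σ P with hQdef
  have hQ0 : Q 0 = P := by simp [hQdef, Qf]
  have hQ1 : Q 1 = (σ • P : Subgroup G) := by simp [hQdef, Qf]
  -- the shifted normality
  have hF0 : ∀ a : ℤ, ∀ x ∈ Q (a + 1), ∀ y ∈ Q a, y ∈ Q (a + 1) → x * y * x⁻¹ ∈ Q a := by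
    intro a x hx y hy hy1
    have e1 : Q a = (σ ^ a) • P := rfl
    have e2 : Q (a + 1) = (σ ^ a) • (σ • P : Subgroup G) := by
      have := Qf_add σ P 1 a
      rw [add_comm] at this
      simp only [hQdef]
      rw [this, ← hQdef, hQ1]
    rw [e1, Subgroup.mem_pointwise_smul_iff_inv_smul_mem] at hy ⊢
    rw [e2, Subgroup.mem_pointwise_smul_iff_inv_smul_mem] at hx hy1
    have h1 := hnorm _ hx _ ⟨hy, hy1⟩
    have h2 := h1.1
    simpa [MulAut.smul_def, map_mul, map_inv] using h2
  have hNorm : ∀ (a : ℤ) (k : ℕ), ∀ x ∈ I Q a (a + k), ∀ y ∈ I Q (a - 1) (a + k), x * y * x⁻¹ ∈ I Q (a - 1) (a + k) := by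
    intro a k x hx y hy
    rw [mem_I] at hx hy ⊢
    intro i h1 h2
    by_cases h3 : i = a - 1
    · subst h3
      have e : a - 1 + 1 = a := by ring
      apply hF0 (a - 1)
      · rw [e]
        exact hx a le_rfl (by omega)
      · exact hy _ le_rfl (by omega)
      · rw [e]
        exact hy a (by omega) (by omega)
    · have h4 := hx i (by omega) h2
      have h5 := hy i h1 h2
      exact (Q i).mul_mem ((Q i).mul_mem h4 h5) ((Q i).inv_mem h4)
  set s : ℕ → ℕ := fun k => Nat.card (I Q 0 k) with hs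
  have hc : ∀ (a : ℤ) (k : ℕ), Nat.card (I Q a (a + k)) = s k := fun a k => card_I_shift σ P a k
  -- one step
  have hstep : ∀ k : ℕ, s (k + 1) = s k ∨ s (k + 1) * p = s k := by
    intro k
    set A : Subgroup G := P ⊓ (σ • P : Subgroup G) with hA
    set X : Subgroup G := I Q 1 (1 + k) with hX
    have hX1 : X ≤ (σ • P : Subgroup G) := by
      intro z hz
      rw [← hQ1]
      exact (mem_I.1 hz) 1 le_rfl (by omega)
    have hY : I Q 0 ((k + 1 : ℕ) : ℤ) = A ⊓ X := by
      ext z
      rw [mem_I, Subgroup.mem_inf, hA, Subgroup.mem_inf, mem_I, ← hQ1, ← hQ0]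
      push_cast
      constructor
      · intro h
        exact ⟨⟨h 0 le_rfl (by omega), h 1 (by omega) (by omega)⟩, fun i h1 h2 => h i (by omega) (by omega)⟩
      · rintro ⟨⟨h1, _⟩, h3⟩ i h4 h5
        by_cases h6 : i = 0
        · rw [h6]
          exact h1
        · exact h3 i (by omega) (by omega)
    have hd : A.relIndex X ∣ p := by
      have hn : (A.subgroupOf (σ • P : Subgroup G)).Normal := by
        constructor
        intro n hn g
        rw [Subgroup.mem_subgroupOf] at hn ⊢
        exact hnorm _ g.2 _ hn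
      have h1 := Subgroup.relIndex_dvd_index_of_normal (A.subgroupOf (σ • P : Subgroup G)) (X.subgroupOf (σ • P : Subgroup G))
      rw [Subgroup.relIndex_subgroupOf hX1] at h1
      have h2 : (A.subgroupOf (σ • P : Subgroup G)).index = p := hidx
      rwa [h2] at h1
    have hle : A ⊓ X ≤ X := inf_le_right
    have hcard : Nat.card (A ⊓ X : Subgroup G) * A.relIndex X = Nat.card X := by
      have h1 := Subgroup.card_mul_index ((A ⊓ X).subgroupOf X)
      have h2 : Nat.card ((A ⊓ X).subgroupOf X) = Nat.card (A ⊓ X : Subgroup G) :=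
        Nat.card_congr (Subgroup.subgroupOfEquivOfLe hle).toEquiv
      rw [h2] at h1
      have h3 : ((A ⊓ X).subgroupOf X).index = A.relIndex X := Subgroup.inf_relIndex_right A X
      rwa [h3] at h1
    have e1 : s (k + 1) = Nat.card (A ⊓ X : Subgroup G) := by
      simp only [hs]
      rw [hY]
    have e2 : s k = Nat.card X := (hc 1 k).symm
    rcases (Nat.dvd_prime hp.out).1 hd with h | h
    · left
      rw [e1, e2, ← hcard, h, mul_one]
    · right
      rw [e1, e2, ← hcard, h]
  have hspos : ∀ k, 0 < s k := fun k => Nat.card_pos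
  have hstab : ∃ k, s (k + 1) = s k := by
    by_contra hcon
    push Not at hcon
    have h1 : ∀ k, s k * p ^ k = s 0 := by
      intro k
      induction k with
      | zero => simp
      | succ k ih =>
        have h2 := (hstep k).resolve_left (hcon k)
        have h3 : s (k + 1) * p ^ (k + 1) = (s (k + 1) * p) * p ^ k := by ring
        rw [h3, h2, ih]
    have h2 := h1 (s 0)
    have h3 : s 0 < p ^ (s 0) := Nat.lt_pow_self hp.out.one_lt
    have h4 := hspos (s 0)
    nlinarith
  classical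
  set k₀ := Nat.find hstab with hk₀
  have hk₀1 : s (k₀ + 1) = s k₀ := Nat.find_spec hstab
  have hmin : ∀ k, k < k₀ → s (k + 1) * p = s k := fun k hk =>
    (hstep k).resolve_left (Nat.find_min hstab hk)
  have hp0 : ∀ k, k ≤ k₀ → s k * p ^ k = s 0 := by
    intro k
    induction k with
    | zero => simp
    | succ k ih =>
      intro hk
      have h2 := hmin k (by omega)
      have h3 : s (k + 1) * p ^ (k + 1) = (s (k + 1) * p) * p ^ k := by ring
      rw [h3, h2, ih (by omega)]
  set D := I Q 0 k₀ with hDdef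
  have hD1 : ∀ a : ℤ, I Q a (a + k₀) = I Q (a + 1) (a + 1 + k₀) := by
    intro a
    have h1 : I Q a (a + ((k₀ + 1 : ℕ) : ℤ)) ≤ I Q a (a + k₀) := I_mono le_rfl (by push_cast; omega)
    have h2 : I Q a (a + ((k₀ + 1 : ℕ) : ℤ)) ≤ I Q (a + 1) (a + 1 + k₀) := I_mono (by omega) (by push_cast; omega)
    have h3 := Subgroup.eq_of_le_of_card_ge h1 (by rw [hc, hc, hk₀1])
    have h4 := Subgroup.eq_of_le_of_card_ge h2 (by rw [hc, hc, hk₀1])
    rw [← h3, h4]
  have hDall : ∀ a : ℤ, I Q a (a + k₀) = D := by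
    intro a
    induction a using Int.induction_on with
    | zero => simp [hDdef]
    | succ i ih => rw [← hD1, ih]
    | pred i ih =>
      rw [← ih]
      have := hD1 (-(i : ℤ) - 1)
      rw [this]
      congr 1 <;> ring
  have hσ : (σ • D : Subgroup G) = D := by
    have h1 := I_shift σ P 0 k₀ 1
    rw [zpow_one, ← hQdef] at h1
    calc (σ • D : Subgroup G) = I Q (0 + 1) (k₀ + 1) := h1.symm
      _ = I Q 1 (1 + k₀) := I_congr (by ring) (by ring)
      _ = D := hDall 1
  have hN : ∀ j : ℕ, j ≤ k₀ → ∀ a : ℤ, I Q a (a + ((k₀ - j : ℕ) : ℤ)) ≤ Subgroup.normalizer (D : Set G) := by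
    intro j
    induction j with
    | zero =>
      intro _ a
      rw [Nat.sub_zero, hDall]
      exact Subgroup.le_normalizer
    | succ j ih =>
      intro hj a
      obtain ⟨k, hk⟩ : ∃ k, k₀ - (j + 1) = k := ⟨_, rfl⟩
      have hk1 : k₀ - j = k + 1 := by omega
      rw [hk]
      have hX₁ := ih (by omega) a
      have hX₂ := ih (by omega) (a - 1)
      rw [hk1] at hX₁ hX₂
      set X := I Q a (a + (k : ℤ)) with hX
      set X₁ := I Q a (a + ((k + 1 : ℕ) : ℤ)) with hX₁def
      set X₂ := I Q (a - 1) (a - 1 + ((k + 1 : ℕ) : ℤ)) with hX₂def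
      have l1 : X₁ ≤ X := I_mono le_rfl (by push_cast; omega)
      have l2 : X₂ ≤ X := I_mono (by omega) (by push_cast; omega)
      have c0 : Nat.card X = s k := hc a k
      have c1 : Nat.card X₁ = s (k + 1) := hc a (k + 1)
      have c2 : Nat.card X₂ = s (k + 1) := hc (a - 1) (k + 1)
      have hps : s (k + 1) * p = s k := hmin k (by omega)
      by_cases heq : X₁ = X₂
      · -- the two subgroups coincide
        have h3 : I Q (a - 1) (a - 1 + ((k + 2 : ℕ) : ℤ)) = X₁ := by
          apply le_antisymm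
          · exact I_mono (by omega) (by push_cast; omega)
          · intro z hz
            rw [mem_I]
            intro i h4 h5
            push_cast at h5
            by_cases h6 : i = a - 1
            · rw [heq] at hz
              exact (mem_I.1 hz) i h4 (by push_cast; omega)
            · exact (mem_I.1 hz) i (by omega) (by push_cast; omega)
        have h4 : s (k + 2) = s (k + 1) := by
          rw [← hc (a - 1) (k + 2), h3, c1]
        have h5 : k + 1 = k₀ := by
          by_contra h6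
          exact Nat.find_min hstab (m := k + 1) (by omega) h4
        have h6 : X₂ = D := by
          rw [hX₂def, h5]
          exact hDall (a - 1)
        intro x hx
        apply Subgroup.mem_normalizer_fintype
        intro y hy
        have hy' : y ∈ I Q (a - 1) (a + k) := by
          have e : I Q (a - 1) (a + (k : ℤ)) = X₂ := I_congr rfl (by push_cast; ring)
          rw [e, h6]
          exact hy
        have h7 := hNorm a k x hx y hy'
        have e : I Q (a - 1) (a + (k : ℤ)) = X₂ := I_congr rfl (by push_cast; ring)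
        rw [e, h6] at h7
        exact h7
      · -- they generate
        have hsup : X₁ ⊔ X₂ = X := by
          have h1 : X₁ ⊔ X₂ ≤ X := sup_le l1 l2
          have h2 : Nat.card X₁ ∣ Nat.card (X₁ ⊔ X₂ : Subgroup G) := Subgroup.card_dvd_of_le le_sup_left
          have h3 : Nat.card (X₁ ⊔ X₂ : Subgroup G) ∣ Nat.card X := Subgroup.card_dvd_of_le h1
          obtain ⟨q, hq⟩ := h2
          rw [hq, c0, c1, ← hps] at h3
          have h4 : q ∣ p := Nat.dvd_of_mul_dvd_mul_left (hspos _) h3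
          rcases (Nat.dvd_prime hp.out).1 h4 with h5 | h5
          · exfalso
            rw [h5, mul_one] at hq
            have h6 : X₁ = X₁ ⊔ X₂ := Subgroup.eq_of_le_of_card_ge le_sup_left (by rw [hq])
            have h7 : X₂ = X₁ ⊔ X₂ := Subgroup.eq_of_le_of_card_ge le_sup_right (by rw [hq, c1, c2])
            exact heq (h6.trans h7.symm)
          · apply Subgroup.eq_of_le_of_card_ge h1
            rw [hq, h5, c0, c1, hps]
        rw [← hsup]
        exact sup_le hX₁ hX₂
  have hDbot : D = ⊥ := by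
    apply hinv D
    · intro z hz
      rw [← hQ0]
      exact (mem_I.1 hz) 0 le_rfl (by omega)
    · intro x hx y hy
      have h1 := hN k₀ le_rfl 0
      have h2 : x ∈ I Q 0 (0 + ((k₀ - k₀ : ℕ) : ℤ)) := by
        rw [mem_I]
        intro i h3 h4
        have h5 : i = 0 := by
          simp at h4
          omega
        rw [h5, hQ0]
        exact hx
      have h3 := h1 h2
      rw [Subgroup.mem_normalizer_iff] at h3
      exact (h3 y).1 hy
    · exact hσ
  have hs1 : s k₀ = 1 := by
    show Nat.card (I Q 0 k₀) = 1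
    rw [← hDdef, hDbot]
    exact Nat.card_unique
  refine ⟨k₀, ?_, ?_⟩
  · have h1 := hp0 k₀ le_rfl
    rw [hs1, one_mul] at h1
    rw [h1]
    show Nat.card P = Nat.card (I Q 0 ((0 : ℕ) : ℤ))
    have e : I Q 0 ((0 : ℕ) : ℤ) = P := by
      ext z
      rw [mem_I, ← hQ0]
      constructor
      · intro h
        exact h 0 le_rfl (by simp)
      · intro h i h3 h4
        have h5 : i = 0 := by
          simp at h4
          omega
        rw [h5]
        exact h
    rw [e]
  · intro a k hk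
    rw [hc]
    have h1 := hp0 k hk
    have h2 := hp0 k₀ le_rfl
    rw [hs1, one_mul] at h2
    apply Nat.eq_of_mul_eq_mul_right (pow_pos hp.out.pos k)
    rw [h1, ← h2, ← pow_add]
    congr 1
    omega

theorem root_shift (σ : MulAut G) (P : Subgroup G) (t : ℕ) (x c : ℤ) :
    root (Qf σ P) t (x + c) = (σ ^ c) • root (Qf σ P) t x := by
  unfold root
  rw [← I_shift]
  exact I_congr rfl (by ring)

theorem comm_shift (σ : MulAut G) (P : Subgroup G) (t : ℕ) {x y : ℤ} (c : ℤ)
    (h : ∀ u ∈ root (Qf σ P) t x, ∀ v ∈ root (Qf σ P) t y, u * v = v * u) :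
    ∀ u ∈ root (Qf σ P) t (x + c), ∀ v ∈ root (Qf σ P) t (y + c), u * v = v * u := by
  intro u hu v hv
  rw [root_shift, Subgroup.mem_pointwise_smul_iff_inv_smul_mem] at hu hv
  have h1 := h _ hu _ hv
  have h2 : (σ ^ c)⁻¹ • (u * v) = (σ ^ c)⁻¹ • (v * u) := by
    simpa [MulAut.smul_def, map_mul] using h1
  exact smul_left_cancel _ h2

end main

/-- Let P be a subgroup of a finite group G and g an element such that P ∩ g⁻¹Pg is a normal subgroup of prime index p in g⁻¹Pg. Let n ≥ 1 and let K be the subgroup generated by P and its conjugates g⁻ⁱPgⁱ for i ≤ n. Suppose that g normalizes no non-identity normal subgroup of P and that P meets the center of K trivially. Then the order of P is pᵗ for some t with 1 ≤ t ≤ 3n and t ≠ 3n - 1. -/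
theorem result {G : Type*} [Group G] [Finite G]
    (P : Subgroup G) (g : G) (p : ℕ) (hp : p.Prime)
    (hN : ((P ⊓ MulAut.conj g⁻¹ • P).subgroupOf (MulAut.conj g⁻¹ • P)).Normal)
    (hidx : (P ⊓ MulAut.conj g⁻¹ • P).relIndex (MulAut.conj g⁻¹ • P) = p)
    (n : ℕ) (hn : 1 ≤ n) (K : Subgroup G) (hK : K = ⨆ i ∈ Finset.range (n + 1), MulAut.conj (g ^ i)⁻¹ • P)
    (h1 : ∀ Q : Subgroup G, Q ≤ P → (Q.subgroupOf P).Normal → MulAut.conj g • Q = Q → Q = ⊥)
    (h2 : P ⊓ (Subgroup.center K).map K.subtype = ⊥) :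
    ∃ t : ℕ, Nat.card P = p ^ t ∧ 1 ≤ t ∧ t ≤ 3 * n ∧ t ≠ 3 * n - 1 := by
  haveI : Fact p.Prime := ⟨hp⟩
  set σ : MulAut G := MulAut.conj g⁻¹ with hσ
  obtain ⟨t, hcard, hQ⟩ := chain_of_hyps (p := p) σ P
    (by
      intro x hx y hy
      have h3 := hN.conj_mem ⟨y, hy.2⟩ (by rw [Subgroup.mem_subgroupOf]; exact hy) ⟨x, hx⟩
      rw [Subgroup.mem_subgroupOf] at h3
      exact h3)
    hidx
    (by
      intro D hD hnorm hs
      apply h1 D hD
      · constructor
        intro y hy x
        rw [Subgroup.mem_subgroupOf] at hy ⊢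
        exact hnorm _ x.2 _ hy
      · have h3 : MulAut.conj g = σ⁻¹ := by
          rw [hσ, map_inv, inv_inv]
        rw [h3, inv_smul_eq_iff, hs])
  set Q := Qf σ P with hQdef
  have hQ0 : Q 0 = P := by simp [hQdef, Qf]
  have ht : 1 ≤ t := by
    by_contra h
    have h3 : t = 0 := by omega
    rw [h3, pow_zero] at hcard
    have h4 : P = ⊥ := Subgroup.eq_bot_of_card_eq _ hcard
    rw [h4] at hidx
    have h5 : (MulAut.conj g⁻¹ • (⊥ : Subgroup G) : Subgroup G) = ⊥ := Subgroup.smul_bot _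
    rw [h5] at hidx
    simp at hidx
    exact hp.one_lt.ne hidx
  classical
  let R : ℕ → Prop := fun δ => t ≤ δ ∨ (1 ≤ δ ∧ ¬ ∀ u ∈ root Q t 0, ∀ v ∈ root Q t δ, u * v = v * u)
  have hex : ∃ δ, R δ := ⟨t, Or.inl le_rfl⟩
  set d := Nat.find hex with hd
  have hRd : R d := Nat.find_spec hex
  have hdmin : ∀ δ, δ < d → ¬ R δ := fun δ h => Nat.find_min hex h
  have hdt : d ≤ t := Nat.find_min' hex (Or.inl le_rfl)
  have hd1 : 1 ≤ d := by
    by_contra h
    have h3 : d = 0 := by omega
    rw [h3] at hRd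
    rcases hRd with h4 | ⟨h4, _⟩ <;> omega
  have hbase : ∀ δ : ℕ, 1 ≤ δ → δ < d → ∀ u ∈ root Q t 0, ∀ v ∈ root Q t δ, u * v = v * u := by
    intro δ h3 h4
    by_contra h5
    exact hdmin δ h4 (Or.inr ⟨h3, h5⟩)
  have hlt : ∀ w w' : ℤ, w < w' → w' - w < d → ∀ u ∈ root Q t w, ∀ v ∈ root Q t w', u * v = v * u := by
    intro w w' h3 h4
    obtain ⟨δ, hδ⟩ : ∃ δ : ℕ, w' = w + δ := ⟨(w' - w).toNat, by omega⟩
    have h5 := comm_shift σ P t w (hbase δ (by omega) (by omega))
    have e1 : (0 : ℤ) + w = w := by ring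
    have e2 : (δ : ℤ) + w = w' := by omega
    rw [e1, e2] at h5
    exact h5
  have hcomm : ∀ w w' : ℤ, w - w' < d → w' - w < d → ∀ u ∈ root Q t w, ∀ v ∈ root Q t w', u * v = v * u := by
    intro w w' h3 h4 u hu v hv
    rcases lt_trichotomy w w' with h5 | h5 | h5
    · exact hlt w w' h5 h4 u hu v hv
    · subst h5
      exact comm_root_self hQ ht w hu hv
    · exact (hlt w' w h5 h3 v hv u hu).symm
  have h23 : 2 * t ≤ 3 * d := by
    by_cases hdlt : d < t
    · have hnc0 : ¬ ∀ u ∈ root Q t 0, ∀ v ∈ root Q t d, u * v = v * u := by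
        rcases hRd with h3 | ⟨_, h3⟩
        · omega
        · exact h3
      refine two_t_le hQ ht hd1 (by omega) hcomm ?_
      intro a h3
      apply hnc0
      have h4 := comm_shift σ P t (-a) h3
      have e1 : a + (-a) = 0 := by ring
      have e2 : a + (d : ℤ) + (-a) = d := by ring
      rw [e1, e2] at h4
      exact h4
    · omega
  have hcen : 2 * d ≤ t + n := by
    by_contra hcon
    push Not at hcon
    set r : ℤ := (d : ℤ) - t with hr
    have hr1 : root Q t r ≠ ⊥ := by
      intro h3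
      have h4 := card_root hQ ht r
      rw [h3] at h4
      simp at h4
      exact hp.one_lt.ne h4
    obtain ⟨⟨z, hz⟩, hz1⟩ := Subgroup.ne_bot_iff_exists_ne_one.1 hr1
    have hz2 : z ≠ 1 := fun h3 => hz1 (Subtype.ext h3)
    have hzP : z ∈ P := by
      rw [← hQ0]
      exact (mem_I.1 hz) 0 (by omega) (by omega)
    have hzc : ∀ i : ℕ, i ≤ n → ∀ x ∈ Q i, z * x = x * z := by
      intro i hi x hx
      refine comm_U hQ ht z t le_rfl ((i : ℤ) - t + 1)
        (fun v h3 h4 y hy => hcomm r v (by omega) (by omega) z hz y hy) x ?_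
      rw [mem_I]
      intro j h5 h6
      have h7 : j = i := by omega
      rw [h7]
      exact hx
    have hQi : ∀ i : ℕ, (MulAut.conj (g ^ i)⁻¹ • P : Subgroup G) = Q i := by
      intro i
      have e : MulAut.conj (g ^ i)⁻¹ = σ ^ i := by
        rw [← inv_pow, map_pow]
      rw [e]
      simp only [hQdef, Qf, zpow_natCast]
    have hzK : z ∈ K := by
      rw [hK]
      refine Subgroup.mem_iSup_of_mem 0 (Subgroup.mem_iSup_of_mem (by simp) ?_)
      simpa using hzP
    have hKc : K ≤ Subgroup.centralizer {z} := by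
      rw [hK]
      refine iSup₂_le ?_
      intro i hi x hx
      rw [hQi] at hx
      rw [Subgroup.mem_centralizer_singleton_iff]
      exact (hzc i (by simpa [Nat.lt_succ_iff] using hi) x hx).symm
    have hzcen : (⟨z, hzK⟩ : K) ∈ Subgroup.center K := by
      rw [Subgroup.mem_center_iff]
      intro k
      apply Subtype.ext
      have h3 := hKc k.2
      rw [Subgroup.mem_centralizer_singleton_iff] at h3
      exact h3
    have h3 : z ∈ P ⊓ (Subgroup.center K).map K.subtype := ⟨hzP, ⟨⟨z, hzK⟩, hzcen, rfl⟩⟩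
    rw [h2, Subgroup.mem_bot] at h3
    exact hz2 h3
  refine ⟨t, hcard, ht, by omega, by omega⟩

end Cfsg.Agent.S4359
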