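import Mathlib
import Cfsg.Statements.S4370
import Cfsg.Agent.Lib.PCore
import Cfsg.Agent.Lib.UniqueSub
-- import your own Cfsg.Agent.* helpers here

set_option autoImplicit false
open Cfsg

namespace Cfsg.Agent.S4370


open Cfsg.Agent.Lib.PCore
open QuaternionGroup

set_option linter.style.haveILetI false

theorem cyc_uniq {C : Type*} [Group C] [Finite C] [IsCyclic C] (H K : Subgroup C)
    (h : Nat.card H = Nat.card K) : H = K := by
  classical
  haveI := Fintype.ofFinite C
  set n := Nat.card H with hn
  have hn0 : 0 < n := Nat.card_pos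
  have key : ∀ L : Subgroup C, Nat.card L = n →
      (L : Set C).toFinset = Finset.univ.filter (fun a : C => a ^ n = 1) := by
    intro L hL
    apply Finset.eq_of_subset_of_card_le
    · intro x hx
      rw [Set.mem_toFinset] at hx
      rw [Finset.mem_filter]
      refine ⟨Finset.mem_univ _, ?_⟩
      have : (⟨x, hx⟩ : L) ^ n = 1 := by
        rw [← hL]
        exact pow_card_eq_one'
      exact congrArg Subtype.val this
    · have h1 := IsCyclic.card_pow_eq_one_le (α := C) hn0
      have h2 : (L : Set C).toFinset.card = n := by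
        rw [Set.toFinset_card, ← hL, Nat.card_eq_fintype_card]
        rfl
      omega
  have h1 := key H rfl
  have h2 := key K h.symm
  have h3 : (H : Set C).toFinset = (K : Set C).toFinset := h1.trans h2.symm
  have h4 : (H : Set C) = (K : Set C) := Set.toFinset_inj.1 h3
  exact SetLike.coe_injective h4

theorem cyc_uniq' {G : Type*} [Group G] [Finite G] (C A B : Subgroup G) [IsCyclic C] (hA : A ≤ C)
    (hB : B ≤ C) (h : Nat.card A = Nat.card B) : A = B := by
  have h1 : A.subgroupOf C = B.subgroupOf C := by
    apply cyc_uniq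
    rw [Nat.card_congr (Subgroup.subgroupOfEquivOfLe hA).toEquiv,
      Nat.card_congr (Subgroup.subgroupOfEquivOfLe hB).toEquiv, h]
  rw [Subgroup.subgroupOf_inj, inf_eq_left.2 hA, inf_eq_left.2 hB] at h1
  exact h1

theorem two_mul_zero (n : ℕ) [NeZero n] (j : ZMod (2 * n)) (h : 2 * j = 0) :
    j = 0 ∨ j = (n : ZMod (2 * n)) := by
  have hn : 0 < n := NeZero.pos n
  haveI : NeZero (2 * n) := ⟨by omega⟩
  have hv : j.val < 2 * n := ZMod.val_lt j
  have h1 : ((2 * j.val : ℕ) : ZMod (2 * n)) = 0 := by
    push_cast
    rw [ZMod.natCast_zmod_val]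
    exact h
  rw [ZMod.natCast_eq_zero_iff] at h1
  have h2 : n ∣ j.val := Nat.dvd_of_mul_dvd_mul_left (by norm_num) h1
  obtain ⟨c, hc⟩ := h2
  have hc2 : c < 2 := by
    by_contra hcon
    have : n * 2 ≤ n * c := Nat.mul_le_mul_left n (by omega)
    omega
  have hj : (j.val : ZMod (2 * n)) = j := ZMod.natCast_zmod_val j
  interval_cases c
  · left
    rw [← hj, hc]
    simp
  · right
    rw [← hj, hc]
    simp

theorem quat_cent (n : ℕ) [NeZero n] (q : QuaternionGroup n)
    (hq : ∃ y : QuaternionGroup n, y * q ≠ q * y) :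
    ∃ w : QuaternionGroup n, ∀ y : QuaternionGroup n, y * q = q * y → y ∈ Subgroup.zpowers w := by
  have hn : 0 < n := NeZero.pos n
  haveI : NeZero (2 * n) := ⟨by omega⟩
  have hself : ∀ j : ZMod (2 * n), (a j : QuaternionGroup n) ∈ Subgroup.zpowers (a 1 : QuaternionGroup n) := by
    intro j
    refine ⟨(j.val : ℤ), ?_⟩
    simp only [zpow_natCast]
    rw [a_one_pow, ZMod.natCast_zmod_val]
  cases q with
  | a i =>
    have hi : 2 * i ≠ 0 := by
      intro h2
      obtain ⟨y, hy⟩ := hq
      apply hy
      cases y with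
      | a j => simp [add_comm]
      | xa j =>
        simp only [xa_mul_a, a_mul_xa]
        congr 1
        linear_combination h2
    refine ⟨a 1, ?_⟩
    intro y hy
    cases y with
    | a j => exact hself j
    | xa j =>
      simp only [xa_mul_a, a_mul_xa, QuaternionGroup.xa.injEq] at hy
      exact absurd (by linear_combination hy) hi
  | xa i =>
    refine ⟨xa i, ?_⟩
    intro y hy
    cases y with
    | a j =>
      simp only [xa_mul_a, a_mul_xa, QuaternionGroup.xa.injEq] at hy
      have h2 : 2 * j = 0 := by linear_combination -hy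
      rcases two_mul_zero n j h2 with rfl | rfl
      · exact one_mem _
      · have : (xa i : QuaternionGroup n) ^ 2 = a n := xa_sq i
        rw [← this]
        exact pow_mem (Subgroup.mem_zpowers _) 2
    | xa j =>
      simp only [xa_mul_xa, QuaternionGroup.a.injEq] at hy
      have h2 : 2 * (j - i) = 0 := by linear_combination -hy
      rcases two_mul_zero n _ h2 with h3 | h3
      · have : j = i := sub_eq_zero.1 h3
        rw [this]
        exact Subgroup.mem_zpowers _
      · have hj : j = i + n := by linear_combination h3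
        have h5 : (xa i : QuaternionGroup n) ^ 3 = xa (i + (n : ZMod (2 * n))) := by
          rw [pow_succ, xa_sq, a_mul_xa]
          congr 1
          have h6 : ((2 * n : ℕ) : ZMod (2 * n)) = 0 := ZMod.natCast_self _
          push_cast at h6
          linear_combination -h6
        rw [hj, ← h5]
        exact pow_mem (Subgroup.mem_zpowers _) 3

theorem back {k m : ℕ} {G : Type*} [Group G] (hm : Odd m)
    (e : G ≃* QuaternionGroup (2 ^ k) × Multiplicative (ZMod m)) (x : G)
    (hx : x ∉ Subgroup.center G) : IsCyclic (Subgroup.centralizer ({x} : Set G)) := by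
  have hm0 : m ≠ 0 := by
    rintro rfl
    simp at hm
  haveI : NeZero m := ⟨hm0⟩
  haveI : NeZero (2 ^ k) := ⟨by positivity⟩
  have hq : ∃ y : QuaternionGroup (2 ^ k), y * (e x).1 ≠ (e x).1 * y := by
    by_contra hcon
    push Not at hcon
    apply hx
    rw [Subgroup.mem_center_iff]
    intro g
    apply e.injective
    rw [map_mul, map_mul]
    ext
    · exact hcon _
    · show (e g).2 * (e x).2 = (e x).2 * (e g).2
      exact mul_comm _ _
  obtain ⟨w, hw⟩ := quat_cent _ _ hq
  let f : Subgroup.centralizer ({x} : Set G) →* (Subgroup.zpowers w) × Multiplicative (ZMod m) :=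
    { toFun := fun y => (⟨(e y.1).1, hw _ (by
          have h1 : y.1 * x = x * y.1 := by
            have := Subgroup.mem_centralizer_singleton_iff.1 y.2
            exact this
          have h2 := congrArg (fun z => (e z).1) h1
          simpa using h2)⟩, (e y.1).2)
      map_one' := by
        ext <;> simp
      map_mul' := fun a b => by
        ext <;> simp }
  have hf : Function.Injective f := by
    intro y z hyz
    apply Subtype.ext
    apply e.injective
    have h1 := congrArg Prod.fst hyz
    have h2 := congrArg Prod.snd hyz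
    ext
    · exact congrArg Subtype.val h1
    · exact h2
  haveI : IsCyclic ((Subgroup.zpowers w) × Multiplicative (ZMod m)) := by
    rw [Group.isCyclic_prod_iff]
    refine ⟨inferInstance, inferInstance, ?_⟩
    have h1 : Nat.card (Subgroup.zpowers w) ∣ 2 ^ (k + 2) := by
      have h2 : Nat.card (Subgroup.zpowers w) ∣ Nat.card (QuaternionGroup (2 ^ k)) := Subgroup.card_subgroup_dvd_card _
      have h3 : Nat.card (QuaternionGroup (2 ^ k)) = 2 ^ (k + 2) := by
        rw [Nat.card_eq_fintype_card, QuaternionGroup.card]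
        ring
      rwa [h3] at h2
    have h4 : Nat.card (Multiplicative (ZMod m)) = m := by
      simp [Nat.card_eq_fintype_card, ZMod.card]
    rw [h4]
    exact Nat.Coprime.coprime_dvd_left h1 (Nat.Coprime.pow_left _ (Nat.coprime_two_left.2 hm))
  exact isCyclic_of_injective f hf

theorem forward {G : Type*} [Group G] [Finite G] (hG : Group.IsNilpotent G)
    (hna : ¬ IsMulCommutative G)
    (h : ∀ x : G, x ∉ Subgroup.center G → IsCyclic (Subgroup.centralizer ({x} : Set G))) :
    ∃ (k m : ℕ), 1 ≤ k ∧ Odd m ∧ Nonempty (G ≃* QuaternionGroup (2 ^ k) × Multiplicative (ZMod m)) := by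
  classical
  have hfit : ∀ q : ℕ, [Fact q.Prime] → (pCore q G ⊔ pPrimeCore q G) = ⊤ := by
    intro q _
    rw [eq_top_iff, ← fittingSubgroup_eq_top_of_nilpotent]
    exact fittingSubgroup_le_sup q
  have hcomm : ∀ q : ℕ, [Fact q.Prime] → ∀ u ∈ pCore q G, ∀ v ∈ pPrimeCore q G, u * v = v * u := by
    intro q _ u hu v hv
    refine Subgroup.commute_of_normal_of_disjoint _ _ inferInstance inferInstance ?_ u v hu hv
    rw [Subgroup.disjoint_def]
    intro x hx1 hx2
    have hb : pCore q G ⊓ pPrimeCore q G = ⊥ := by
      apply eq_bot_of_isPGroup_of_coprime (p := q)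
      · exact (isPGroup_pCore (G := G) q).to_le inf_le_left
      · exact Nat.Coprime.coprime_dvd_left
          (Subgroup.card_dvd_of_le inf_le_right) (card_pPrimeCore_coprime q)
    have : x ∈ pCore q G ⊓ pPrimeCore q G := ⟨hx1, hx2⟩
    rw [hb] at this
    exact this
  -- a prime with a nonabelian core
  obtain ⟨p, hp, u, hu, u', hu', huu⟩ : ∃ p : ℕ, p.Prime ∧ ∃ u ∈ pCore p G, ∃ u' ∈ pCore p G,
      u * u' ≠ u' * u := by
    by_contra hcon
    push Not at hcon
    have hcen : ∀ q : Nat.Primes, pCore (q : ℕ) G ≤ Subgroup.center G := by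
      intro q x hx
      haveI : Fact (q : ℕ).Prime := ⟨q.2⟩
      rw [Subgroup.mem_center_iff]
      intro g
      have hg : g ∈ pCore (q : ℕ) G ⊔ pPrimeCore (q : ℕ) G := by
        rw [hfit]
        exact Subgroup.mem_top g
      obtain ⟨y, hy, z, hz, rfl⟩ := Subgroup.mem_sup_of_normal_right.1 hg
      have h1 := hcon q q.2 x hx y hy
      have h2 := hcomm q x hx z hz
      calc y * z * x = y * (z * x) := mul_assoc _ _ _
        _ = y * (x * z) := by rw [h2]
        _ = (y * x) * z := (mul_assoc _ _ _).symm
        _ = (x * y) * z := by rw [h1]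
        _ = x * (y * z) := mul_assoc _ _ _
    have htop : (⊤ : Subgroup G) ≤ Subgroup.center G := by
      rw [← fittingSubgroup_eq_top_of_nilpotent, fittingSubgroup_eq_iSup_pCore]
      exact iSup_le hcen
    apply hna
    refine ⟨⟨fun a b => ?_⟩⟩
    have : b ∈ Subgroup.center G := htop (Subgroup.mem_top b)
    exact Subgroup.mem_center_iff.1 this a
  haveI hpf : Fact p.Prime := ⟨hp⟩
  have hPp : IsPGroup p (pCore p G) := isPGroup_pCore p
  -- noncentral elements of the core have cyclic centralizers
  have hnc : ∀ v ∈ pCore p G, (∃ w ∈ pCore p G, w * v ≠ v * w) →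
      IsCyclic (Subgroup.centralizer ({v} : Set G)) := by
    rintro v _ ⟨w, _, hw⟩
    apply h
    intro hv
    exact hw (Subgroup.mem_center_iff.1 hv w)
  have hu1 : ∃ w ∈ pCore p G, w * u ≠ u * w := ⟨u', hu', fun e => huu e.symm⟩
  haveI hCu : IsCyclic (Subgroup.centralizer ({u} : Set G)) := hnc u hu hu1
  have hKC : pPrimeCore p G ≤ Subgroup.centralizer ({u} : Set G) := by
    intro v hv
    rw [Subgroup.mem_centralizer_singleton_iff]
    exact (hcomm p u hu v hv).symm
  have hKcyc : IsCyclic (pPrimeCore p G) :=
    isCyclic_of_injective (Subgroup.inclusion hKC) (Subgroup.inclusion_injective hKC)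
  -- central element of order `p`
  haveI hPnt : Nontrivial (pCore p G) := by
    refine ⟨⟨⟨u, hu⟩, 1, fun e => ?_⟩⟩
    have : u = 1 := congrArg Subtype.val e
    apply huu
    rw [this]
    simp
  haveI hcent := hPp.center_nontrivial
  have hdvd : p ∣ Nat.card (Subgroup.center (pCore p G)) := by
    rcases (hPp.to_subgroup (Subgroup.center (pCore p G))).card_eq_or_dvd with h1 | h1
    · exact absurd h1 Finite.one_lt_card.ne'
    · exact h1
  obtain ⟨z, hz⟩ := exists_prime_orderOf_dvd_card' p hdvd
  set E₀ : Subgroup (pCore p G) := Subgroup.zpowers (z : pCore p G) with hE₀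
  have hE₀card : Nat.card E₀ = p := by
    rw [hE₀, Nat.card_zpowers, Subgroup.orderOf_coe, hz]
  have hzc : ∀ w : pCore p G, (z : pCore p G) * w = w * z :=
    fun w => (Subgroup.mem_center_iff.1 z.2 w).symm
  have hE₀c : ∀ x ∈ E₀, ∀ w : pCore p G, x * w = w * x := by
    rintro x ⟨k, rfl⟩ w
    exact (((show Commute (z : pCore p G) w from hzc w)).zpow_left k).eq
  have huniq0 : ∀ H : Subgroup (pCore p G), Nat.card H = p → H = E₀ := by
    intro H hH
    -- a noncentral element commuting with `H`
    obtain ⟨v, hvm, hvn, hvH⟩ : ∃ v ∈ pCore p G, (∃ w ∈ pCore p G, w * v ≠ v * w) ∧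
        ∀ x ∈ H, (x : G) * v = v * x := by
      by_cases hcn : ∀ y ∈ H, ∀ w : pCore p G, y * w = w * y
      · refine ⟨u, hu, hu1, fun x hx => ?_⟩
        have := hcn x hx ⟨u, hu⟩
        exact congrArg Subtype.val this
      · push Not at hcn
        obtain ⟨y, hy, w, hw⟩ := hcn
        refine ⟨y, y.2, ⟨w, w.2, ?_⟩, fun x hx => ?_⟩
        · intro e
          apply hw
          apply Subtype.ext
          exact e.symm
        · haveI : Fact (Nat.card H).Prime := ⟨by rw [hH]; exact hp⟩
          haveI := isCyclic_of_prime_card (α := H) (p := Nat.card H) rfl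
          have := IsCyclic.commGroup.mul_comm (⟨x, hx⟩ : H) ⟨y, hy⟩
          exact congrArg (fun t : H => ((t : pCore p G) : G)) this
    haveI hCv := hnc v hvm hvn
    have hA : H.map (pCore p G).subtype ≤ Subgroup.centralizer ({v} : Set G) := by
      rintro _ ⟨x, hx, rfl⟩
      rw [Subgroup.mem_centralizer_singleton_iff]
      exact hvH x hx
    have hB : E₀.map (pCore p G).subtype ≤ Subgroup.centralizer ({v} : Set G) := by
      rintro _ ⟨x, hx, rfl⟩
      rw [Subgroup.mem_centralizer_singleton_iff]
      exact congrArg Subtype.val (hE₀c x hx ⟨v, hvm⟩)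
    have hcardeq : Nat.card (H.map (pCore p G).subtype) = Nat.card (E₀.map (pCore p G).subtype) := by
      rw [Subgroup.card_map_of_injective (pCore p G).subtype_injective,
        Subgroup.card_map_of_injective (pCore p G).subtype_injective, hH, hE₀card]
    exact Subgroup.map_injective (pCore p G).subtype_injective
      (cyc_uniq' _ _ _ hA hB hcardeq)
  have huniq : ∀ H K : Subgroup (pCore p G), Nat.card H = p → Nat.card K = p → H = K :=
    fun H K hH hK => (huniq0 H hH).trans (huniq0 K hK).symm
  rcases Cfsg.Agent.Lib.UniqueSub.main p hPp huniq with hcyc | ⟨rfl, n, ⟨eP⟩⟩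
  · exfalso
    have := IsCyclic.commGroup.mul_comm (⟨u, hu⟩ : pCore p G) ⟨u', hu'⟩
    exact huu (congrArg Subtype.val this)
  rcases n with _ | n
  · exfalso
    have hQ : IsCyclic (QuaternionGroup (2 ^ 0)) := by
      exact QuaternionGroup.quaternionGroup_one_isCyclic
    have hPc : IsCyclic (pCore 2 G) := isCyclic_of_injective eP.toMonoidHom eP.injective
    have := hPc.commGroup.mul_comm (⟨u, hu⟩ : pCore 2 G) ⟨u', hu'⟩
    exact huu (congrArg Subtype.val this)
  refine ⟨n + 1, Nat.card (pPrimeCore 2 G), by omega, Nat.coprime_two_right.1 (card_pPrimeCore_coprime 2), ?_⟩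
  let φ : pCore 2 G × pPrimeCore 2 G →* G :=
    MonoidHom.noncommCoprod (pCore 2 G).subtype (pPrimeCore 2 G).subtype
      (fun x y => hcomm 2 x x.2 y y.2)
  have hφ : Function.Bijective φ := by
    constructor
    · rw [injective_iff_map_eq_one]
      rintro ⟨x, y⟩ hxy
      have h1 : (x : G) * y = 1 := hxy
      have hb : pCore 2 G ⊓ pPrimeCore 2 G = ⊥ := by
        apply eq_bot_of_isPGroup_of_coprime (p := 2)
        · exact (isPGroup_pCore (G := G) 2).to_le inf_le_left
        · exact Nat.Coprime.coprime_dvd_left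
            (Subgroup.card_dvd_of_le inf_le_right) (card_pPrimeCore_coprime 2)
      have h2 : (x : G) ∈ pCore 2 G ⊓ pPrimeCore 2 G := by
        refine ⟨x.2, ?_⟩
        rw [eq_inv_of_mul_eq_one_left h1]
        exact Subgroup.inv_mem _ y.2
      rw [hb, Subgroup.mem_bot] at h2
      have h3 : (y : G) = 1 := by
        rw [h2, one_mul] at h1
        exact h1
      ext
      · exact h2
      · exact h3
    · intro g
      have hg : g ∈ pCore 2 G ⊔ pPrimeCore 2 G := by
        rw [hfit]
        exact Subgroup.mem_top g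
      obtain ⟨y, hy, z, hz, rfl⟩ := Subgroup.mem_sup_of_normal_right.1 hg
      exact ⟨(⟨y, hy⟩, ⟨z, hz⟩), rfl⟩
  exact ⟨(MulEquiv.ofBijective φ hφ).symm.trans
    (MulEquiv.prodCongr eP (zmodCyclicMulEquiv hKcyc).symm)⟩


/-- Let G be a finite non-abelian nilpotent group. Then the centralizer of every non-central element of G is cyclic if and only if G is isomorphic to the direct product of a generalized quaternion group and a cyclic group of odd order. -/
theorem result {G : Type*} [Group G] [Finite G] (hG : Group.IsNilpotent G)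
    (hna : ¬ IsMulCommutative G) :
    (∀ x : G, x ∉ Subgroup.center G → IsCyclic (Subgroup.centralizer ({x} : Set G))) ↔
      ∃ (k m : ℕ), 1 ≤ k ∧ Odd m ∧ Nonempty (G ≃* QuaternionGroup (2 ^ k) × Multiplicative (ZMod m)) := by
  constructor
  · exact forward hG hna
  · rintro ⟨k, m, -, hm, ⟨e⟩⟩ x hx
    exact back hm e x hx

end Cfsg.Agent.S4370
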