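import Mathlib
import Cfsg.Statements.S4376
import Cfsg.Agent.Lib.OrderType

set_option autoImplicit false
open Cfsg

namespace Cfsg.Agent.S4376

open Matrix Cfsg.Agent.Lib.OrderType

/-- The list of atoms with given multiplicities. -/
def mkL (c3 x y z : ℕ) : List Atom :=
  List.replicate c3 (true, Chi.c) ++ List.replicate x (false, Chi.a) ++
    List.replicate y (false, Chi.b) ++ List.replicate z (false, Chi.c)

/-- The groups `N ⋊ D₈` used. -/
abbrev XY (c3 x y z : ℕ) := XX (mkL c3 x y z)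

/-- The solvable group. -/
abbrev GG := AG × XY 0 0 0 0 × XY 1 0 0 0 × XY 2 0 0 0 × XY 2 0 0 0 × XY 1 1 0 0 × XY 0 1 0 1 × XY 0 0 0 2 × XY 3 0 1 0 × XY 0 1 0 2 × XY 0 1 0 2 × XY 2 0 1 1 × XY 2 0 1 1 × XY 2 0 1 1 × XY 1 0 3 1

/-- The non-solvable group. -/
abbrev HH := SL3 × C2 × C2 × C2 × C3 × XY 0 1 0 0 × XY 0 0 0 1 × XY 0 0 0 1 × XY 2 1 0 0 × XY 2 1 0 0 × XY 2 1 0 0 × XY 2 0 1 0 × XY 2 0 0 1 × XY 1 0 1 1 × XY 0 0 1 2 × XY 1 1 2 0 × XY 3 0 2 0 × XY 0 0 1 3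

theorem final : ∀ d ∈ DD,
    tabAG d * (FF (mkL 0 0 0 0) d * (FF (mkL 1 0 0 0) d * (FF (mkL 2 0 0 0) d * (FF (mkL 2 0 0 0) d * (FF (mkL 1 1 0 0) d * (FF (mkL 0 1 0 1) d * (FF (mkL 0 0 0 2) d * (FF (mkL 3 0 1 0) d * (FF (mkL 0 1 0 2) d * (FF (mkL 0 1 0 2) d * (FF (mkL 2 0 1 1) d * (FF (mkL 2 0 1 1) d * (FF (mkL 2 0 1 1) d * (FF (mkL 1 0 3 1) d)))))))))))))) =
    tabSL d * (tab2 d * (tab2 d * (tab2 d * (tab3 d * (FF (mkL 0 1 0 0) d * (FF (mkL 0 0 0 1) d * (FF (mkL 0 0 0 1) d * (FF (mkL 2 1 0 0) d * (FF (mkL 2 1 0 0) d * (FF (mkL 2 1 0 0) d * (FF (mkL 2 0 1 0) d * (FF (mkL 2 0 0 1) d * (FF (mkL 1 0 1 1) d * (FF (mkL 0 0 1 2) d * (FF (mkL 1 1 2 0) d * (FF (mkL 3 0 2 0) d * (FF (mkL 0 0 1 3) d))))))))))))))))) := by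
  decide +kernel

theorem fc_GH_div (d : ℕ) (hd : d ∈ DD) : fc GG d = fc HH d := by
  simp only [GG, HH, fc_prod, fc_XX_eval _ d hd, fc_SL d hd, fc_AG d hd, fc_C2, fc_C3]
  exact final d hd

theorem gcd_mem (n : ℕ) : Nat.gcd n 84 ∈ DD := by
  have h1 : Nat.gcd n 84 ∣ 84 := Nat.gcd_dvd_right n 84
  have h2 : Nat.gcd n 84 ≤ 84 := Nat.le_of_dvd (by norm_num) h1
  have h3 : ∀ d : Fin 85, (d : ℕ) ∣ 84 → (d : ℕ) ∈ DD := by decide
  exact h3 ⟨_, Nat.lt_succ_of_le h2⟩ h1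

theorem fc_GH (n : ℕ) : fc GG n = fc HH n := by
  rw [fc_gcd (X := GG) Exp84.exp n, fc_gcd (X := HH) Exp84.exp n]
  exact fc_GH_div _ (gcd_mem n)

theorem solv_fst {A B : Type} [Group A] [Group B] (h : Group.IsSolvable (A × B)) :
    Group.IsSolvable A :=
  Group.isSolvable_of_surjective (f := MonoidHom.fst A B) (fun x => ⟨(x, 1), rfl⟩)

set_option synthInstance.maxSize 1000 in
set_option synthInstance.maxHeartbeats 0 in
theorem finite_GG : Finite GG := inferInstance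

set_option synthInstance.maxSize 1000 in
set_option synthInstance.maxHeartbeats 0 in
theorem finite_HH : Finite HH := inferInstance

set_option synthInstance.maxSize 1000 in
set_option synthInstance.maxHeartbeats 0 in
theorem solvable_GG : Group.IsSolvable GG := inferInstance

/-- There are finite groups G and H having the same number of elements of each order (the same order type) with G solvable and H not solvable. -/
theorem result :
    ∃ (G : Type) (_ : Group G) (_ : Finite G) (H : Type) (_ : Group H) (_ : Finite H),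
      Group.IsSolvable G ∧ ¬ Group.IsSolvable H ∧ ∀ n : ℕ, Nat.card {g : G // orderOf g = n} = Nat.card {h : H // orderOf h = n} := by
  haveI := finite_GG
  haveI := finite_HH
  refine ⟨GG, inferInstance, finite_GG, HH, inferInstance, finite_HH, solvable_GG,
    fun h => not_solvable_SL3 (solv_fst h), card_orderOf_eq fc_GH⟩

end Cfsg.Agent.S4376
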