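import Mathlib
import Cfsg.Statements.S4377
-- import your own Cfsg.Agent.* helpers here

set_option autoImplicit false
open Cfsg

namespace Cfsg.Agent.S4377

variable {G : Type*} [Group G] [Finite G]

theorem card_pow_eq_one (n : ℕ) (hn : n ≠ 0) :
    Nat.card {g : G // g ^ n = 1} = ∑ d ∈ n.divisors, Nat.card {g : G // orderOf g = d} := by
  classical
  haveI := Fintype.ofFinite G
  simp only [Nat.card_eq_fintype_card, Fintype.card_subtype]
  rw [Finset.card_eq_sum_card_fiberwise (f := orderOf) (t := n.divisors)]
  · apply Finset.sum_congr rfl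
    intro d hd
    congr 1
    ext g
    simp only [Finset.mem_filter, Finset.mem_univ, true_and]
    constructor
    · rintro ⟨_, h⟩; exact h
    · intro h
      refine ⟨?_, h⟩
      rw [← orderOf_dvd_iff_pow_eq_one, h]
      exact Nat.dvd_of_mem_divisors hd
  · intro g hg
    have hg' : g ^ n = 1 := by simpa using hg
    have : orderOf g ∈ n.divisors := Nat.mem_divisors.2 ⟨orderOf_dvd_of_pow_eq_one hg', hn⟩
    exact this

theorem card_order_zero : Nat.card {g : G // orderOf g = 0} = 0 := by
  haveI : IsEmpty {g : G // orderOf g = 0} := ⟨fun g => (orderOf_pos g.1).ne' g.2⟩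
  exact Nat.card_of_isEmpty

theorem card_pow_zero : Nat.card {g : G // g ^ 0 = 1} = Nat.card G := by
  exact Nat.card_congr (Equiv.subtypeUnivEquiv (fun g => pow_zero g))

theorem card_pow_eq_top (n : ℕ) (h : Nat.card G ∣ n) : Nat.card {g : G // g ^ n = 1} = Nat.card G := by
  refine Nat.card_congr (Equiv.subtypeUnivEquiv (fun g => ?_))
  obtain ⟨k, rfl⟩ := h
  rw [pow_mul, pow_card_eq_one', one_pow]


/-- Two finite groups have the same number of elements of each order if and only if, for every n, they have the same number of elements g with gⁿ = 1. -/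
theorem result {G H : Type*} [Group G] [Finite G] [Group H] [Finite H] :
    (∀ n : ℕ, Nat.card {g : G // orderOf g = n} = Nat.card {h : H // orderOf h = n}) ↔
      ∀ n : ℕ, Nat.card {g : G // g ^ n = 1} = Nat.card {h : H // h ^ n = 1} := by
  constructor
  · intro h n
    have key : ∀ m : ℕ, m ≠ 0 → Nat.card {g : G // g ^ m = 1} = Nat.card {h : H // h ^ m = 1} := by
      intro m hm
      rw [card_pow_eq_one m hm, card_pow_eq_one m hm]
      exact Finset.sum_congr rfl (fun d _ => h d)
    rcases Nat.eq_zero_or_pos n with rfl | hn
    · have hN : Nat.card G * Nat.card H ≠ 0 := by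
        exact Nat.mul_ne_zero Nat.card_pos.ne' Nat.card_pos.ne'
      have := key _ hN
      rw [card_pow_eq_top _ (Dvd.intro _ rfl), card_pow_eq_top _ (Dvd.intro_left _ rfl)] at this
      rw [card_pow_zero, card_pow_zero, this]
    · exact key n hn.ne'
  · intro h n
    induction n using Nat.strong_induction_on with
    | _ n ih =>
      rcases Nat.eq_zero_or_pos n with rfl | hn
      · rw [card_order_zero, card_order_zero]
      · have h1 := h n
        rw [card_pow_eq_one n hn.ne', card_pow_eq_one n hn.ne',
          ← Nat.insert_self_properDivisors hn.ne',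
          Finset.sum_insert Nat.self_notMem_properDivisors,
          Finset.sum_insert Nat.self_notMem_properDivisors] at h1
        have h2 : ∑ d ∈ n.properDivisors, Nat.card {g : G // orderOf g = d}
            = ∑ d ∈ n.properDivisors, Nat.card {h : H // orderOf h = d} :=
          Finset.sum_congr rfl (fun d hd => ih d (Nat.mem_properDivisors.1 hd).2)
        omega

end Cfsg.Agent.S4377
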