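import Mathlib
import Cfsg.Statements.S4379
import Cfsg.Agent.Lib.MaxPNilp
-- import your own Cfsg.Agent.* helpers here

set_option autoImplicit false
open Cfsg

namespace Cfsg.Agent.S4379


/-- Let p be an odd prime and G a finite p-solvable group in which every maximal subgroup either has a normal p-complement or has prime index. Then G has a chain of normal subgroups 1 ≤ A ≤ B ≤ C ≤ D ≤ G in which A, C/B and G/D have order prime to p and B/A and D/C are p-groups (so the p-length of G is at most 2). -/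
theorem result {G : Type*} [Group G] [Finite G]
    (p : ℕ) [Fact p.Prime] (hp : p ≠ 2) (hG : Cfsg.IsPSolvable p G)
    (hmax : ∀ M : Subgroup G, IsCoatom M → (∃ K : Subgroup ↥M, K.Normal ∧ ¬ p ∣ Nat.card K ∧ ∃ k : ℕ, K.index = p ^ k) ∨ (M.index).Prime) :
    ∃ A B C D : Subgroup G, A.Normal ∧ B.Normal ∧ C.Normal ∧ D.Normal ∧ A ≤ B ∧ B ≤ C ∧ C ≤ D ∧ ¬ p ∣ Nat.card A ∧
      (∃ k : ℕ, A.relIndex B = p ^ k) ∧ ¬ p ∣ B.relIndex C ∧ (∃ k : ℕ, C.relIndex D = p ^ k) ∧ ¬ p ∣ D.index := by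
  obtain ⟨A, B, C, hA, hB, hC, hAB, hBC, hAc, h1, h2, k, h3⟩ := Cfsg.Agent.Lib.MaxPNilp.main p hG hmax
  refine ⟨A, B, C, ⊤, hA, hB, hC, inferInstance, hAB, hBC, le_top, hAc, h1, h2, ⟨k, ?_⟩, ?_⟩
  · rw [Subgroup.relIndex_top_right]
    exact h3
  · rw [Subgroup.index_top]
    exact fun h => (Fact.out : p.Prime).one_lt.ne' (Nat.dvd_one.mp h)

end Cfsg.Agent.S4379
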