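import Mathlib
import Cfsg.Statements.S4381
import Cfsg.Agent.Lib.CoprimeAct
-- import your own Cfsg.Agent.* helpers here

set_option autoImplicit false
open Pointwise
open Cfsg

namespace Cfsg.Agent.S4381


open scoped Pointwise
open Cfsg.Agent.Lib.CoprimeAct

variable {A G : Type*} [Group A] [Group G] [MulDistribMulAction A G]

/-- `A`-invariant subgroups -/
def Inv (A : Type*) [Group A] {G : Type*} [Group G] [MulDistribMulAction A G] (L : Subgroup G) : Prop :=
  ∀ a : A, ∀ x ∈ L, a • x ∈ L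

/-- maximal `A`-invariant subgroups -/
def MaxI (A : Type*) [Group A] {G : Type*} [Group G] [MulDistribMulAction A G] (M : Subgroup G) : Prop :=
  M ≠ ⊤ ∧ Inv A M ∧ ∀ L : Subgroup G, M < L → Inv A L → L = ⊤

theorem inv_frattini : Inv A (frattini G) := fun a x hx => frattini_invariant a x hx

theorem inv_sup {M N : Subgroup G} (hM : Inv A M) (hN : Inv A N) : Inv A (M ⊔ N) := by
  intro a x hx
  have h : M ⊔ N ≤ (M ⊔ N).comap (MulDistribMulAction.toMonoidHom G a) := by
    apply sup_le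
    · intro y hy
      exact (le_sup_left : M ≤ M ⊔ N) (hM a y hy)
    · intro y hy
      exact (le_sup_right : N ≤ M ⊔ N) (hN a y hy)
  exact h hx

theorem frattini_le_of_maxI [Finite G] {M : Subgroup G} (hM : MaxI A M) : frattini G ≤ M := by
  by_contra hne
  have hlt : M < M ⊔ frattini G := by
    refine lt_of_le_of_ne le_sup_left ?_
    intro h
    exact hne (left_eq_sup.1 h)
  have h1 := hM.2.2 _ hlt (inv_sup hM.2.1 inv_frattini)
  exact hM.1 (frattini_nongenerating h1)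

theorem exists_maxI_ge [Finite G] {L : Subgroup G} (hL : L ≠ ⊤) (hi : Inv A L) :
    ∃ M, MaxI A M ∧ L ≤ M := by
  let s : Set (Subgroup G) := {K | Inv A K ∧ K ≠ ⊤}
  have hs : s.Finite := Set.toFinite _
  obtain ⟨M, hLM, hM⟩ := hs.exists_le_maximal (a := L) ⟨hi, hL⟩
  refine ⟨M, ⟨hM.prop.2, hM.prop.1, ?_⟩, hLM⟩
  intro K hK hKi
  by_contra hKt
  exact absurd (hM.le_of_ge ⟨hKi, hKt⟩ hK.le) (not_le_of_gt hK)

theorem isPGroup_of_conj [Finite A] [Finite G] (hcop : (Nat.card A).Coprime (Nat.card G))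
    (hsol : Group.IsSolvable A ∨ Group.IsSolvable G)
    (hc : ∀ M N : Subgroup G, MaxI A M → MaxI A N →
      ∃ c : G, (∀ a : A, a • c = c) ∧ N = MulAut.conj c • M) :
    ∃ p : ℕ, p.Prime ∧ IsPGroup p G := by
  classical
  by_contra hcon
  by_cases hbot : (⊥ : Subgroup G) = ⊤
  · apply hcon
    have hcard : Nat.card G = 1 := by
      have := Subgroup.card_top (G := G)
      rw [← hbot, Subgroup.card_bot] at this
      exact this.symm
    exact ⟨2, Nat.prime_two, IsPGroup.of_card (n := 0) (by simpa using hcard)⟩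
  obtain ⟨M, hM, -⟩ := exists_maxI_ge (A := A) hbot (fun a x hx => by
    rw [Subgroup.mem_bot] at hx ⊢
    rw [hx, smul_one])
  have hidx : M.index ≠ 1 := fun h => hM.1 (Subgroup.index_eq_one.1 h)
  obtain ⟨r, hr, hrd⟩ := Nat.exists_prime_and_dvd hidx
  haveI : Fact r.Prime := ⟨hr⟩
  obtain ⟨S, hS⟩ := exists_invariant_sylow (A := A) hcop hsol r
  have hStop : (S : Subgroup G) ≠ ⊤ := by
    intro h
    apply hcon
    refine ⟨r, hr, ?_⟩
    have := S.isPGroup'
    rw [h] at this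
    intro g
    obtain ⟨k, hk⟩ := this ⟨g, Subgroup.mem_top g⟩
    exact ⟨k, congrArg Subtype.val hk⟩
  obtain ⟨N, hN, hSN⟩ := exists_maxI_ge (A := A) hStop hS
  obtain ⟨c, -, hcN⟩ := hc M N hM hN
  have h1 : M.index = N.index := by
    rw [hcN]
    exact (Subgroup.index_map_equiv (H := M) (MulAut.conj c)).symm
  have h2 : N.index ∣ (S : Subgroup G).index := Subgroup.index_dvd_of_le hSN
  rw [h1] at hrd
  exact S.not_dvd_index (hrd.trans h2)

theorem frat_of_conj [Finite A] [Finite G] {p : ℕ} [Fact p.Prime] (hG : IsPGroup p G)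
    (hcop : (Nat.card A).Coprime p)
    (hc : ∀ M N : Subgroup G, MaxI A M → MaxI A N →
      ∃ c : G, (∀ a : A, a • c = c) ∧ N = MulAut.conj c • M)
    (L : Subgroup G) (hL : frattini G < L) (hLi : Inv A L) : L = ⊤ := by
  by_contra hne
  obtain ⟨M, hM, hLM⟩ := exists_maxI_ge (A := A) hne hLi
  have hlt : frattini G < M := lt_of_lt_of_le hL hLM
  obtain ⟨C, hC, hsup, hinf⟩ := exists_invariant_supplement hG hcop M hM.2.1 hlt.le
  have hCt : C ≠ ⊤ := by
    rintro rfl
    rw [inf_top_eq] at hinf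
    exact hlt.ne hinf.symm
  obtain ⟨N, hN, hCN⟩ := exists_maxI_ge (A := A) hCt hC
  obtain ⟨c, -, hcN⟩ := hc M N hM hN
  haveI hMn : M.Normal := Cfsg.Agent.Lib.Frat.normal_of_commutator_le
    ((Cfsg.Agent.Lib.Frat.commutator_le_frattini hG).trans hlt.le)
  have hNM : N = M := by
    rw [hcN]
    exact Subgroup.Normal.conj_smul_eq_self c M
  rw [hNM] at hCN
  apply hM.1
  rw [← hsup]
  exact (sup_eq_left.2 hCN).symm

/-- Let the finite group A act by automorphisms on the finite group G with the orders of A and G coprime, and assume that A or G is solvable. Call a proper A-invariant subgroup of G maximal A-invariant when no A-invariant subgroup lies strictly between it and G. Then all maximal A-invariant subgroups of G are conjugate under elements of the fixed-point subgroup C_G(A) if and only if G is a p-group for some prime p and A leaves invariant no subgroup strictly between the Frattini subgroup of G and G. In that case, if G is nontrivial,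 the Frattini subgroup is the only maximal A-invariant subgroup (a trivial G has none). -/
theorem result {A G : Type*} [Group A] [Finite A]
    [Group G] [Finite G] [MulDistribMulAction A G] (hcop : (Nat.card A).Coprime (Nat.card G)) (hsol : Group.IsSolvable A ∨ Group.IsSolvable G) :
    ((∀ M N : Subgroup G, (M ≠ ⊤ ∧ (∀ a : A, ∀ x ∈ M, a • x ∈ M) ∧ ∀ L : Subgroup G, M < L → (∀ a : A, ∀ x ∈ L, a • x ∈ L) → L = ⊤) → (N ≠ ⊤ ∧ (∀ a : A, ∀ x ∈ N, a • x ∈ N) ∧ ∀ L : Subgroup G, N < L → (∀ a : A, ∀ x ∈ L, a • x ∈ L) → L = ⊤) →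
        ∃ c : G, (∀ a : A, a • c = c) ∧ N = MulAut.conj c • M) ↔
      ((∃ p : ℕ, p.Prime ∧ IsPGroup p G) ∧ ∀ L : Subgroup G, frattini G < L → (∀ a : A, ∀ x ∈ L, a • x ∈ L) → L = ⊤)) ∧
    (((∃ p : ℕ, p.Prime ∧ IsPGroup p G) ∧ ∀ L : Subgroup G, frattini G < L → (∀ a : A, ∀ x ∈ L, a • x ∈ L) → L = ⊤) →
      ∀ M : Subgroup G, (M ≠ ⊤ ∧ (∀ a : A, ∀ x ∈ M, a • x ∈ M) ∧ ∀ L : Subgroup G, M < L → (∀ a : A, ∀ x ∈ L, a • x ∈ L) → L = ⊤) ↔ (M = frattini G ∧ M ≠ ⊤)) := by
  classical
  have hmax : ∀ M : Subgroup G, (M ≠ ⊤ ∧ (∀ a : A, ∀ x ∈ M, a • x ∈ M) ∧ ∀ L : Subgroup G, M < L → (∀ a : A, ∀ x ∈ L, a • x ∈ L) → L = ⊤) ↔ MaxI A M := fun _ => Iff.rfl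
  simp only [hmax]
  have hR : ((∃ p : ℕ, p.Prime ∧ IsPGroup p G) ∧ ∀ L : Subgroup G, frattini G < L → (∀ a : A, ∀ x ∈ L, a • x ∈ L) → L = ⊤) →
      ∀ M : Subgroup G, MaxI A M ↔ (M = frattini G ∧ M ≠ ⊤) := by
    rintro ⟨-, hL⟩ M
    constructor
    · intro hM
      refine ⟨?_, hM.1⟩
      by_contra hne
      have hlt : frattini G < M := lt_of_le_of_ne (frattini_le_of_maxI hM) (Ne.symm hne)
      exact hM.1 (hL M hlt hM.2.1)
    · rintro ⟨rfl, htop⟩
      exact ⟨htop, inv_frattini, fun L hlt hi => hL L hlt hi⟩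
  refine ⟨⟨fun hc => ?_, fun h M N hM hN => ?_⟩, hR⟩
  · obtain ⟨p, hp, hpG⟩ := isPGroup_of_conj hcop hsol hc
    haveI : Fact p.Prime := ⟨hp⟩
    refine ⟨⟨p, hp, hpG⟩, fun L hL hLi => ?_⟩
    by_cases hd : p ∣ Nat.card G
    · exact frat_of_conj hpG (Nat.Coprime.coprime_dvd_right hd hcop) hc L hL hLi
    · have hG1 : Nat.card G = 1 := by
        obtain ⟨k, hk⟩ := IsPGroup.iff_card.1 hpG
        rcases k with _ | k
        · simpa using hk
        · exact absurd (by rw [hk, pow_succ]; exact dvd_mul_left _ _) hd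
      have : Subsingleton G := (Nat.card_eq_one_iff_unique.1 hG1).1
      exact Subsingleton.elim _ _
  · refine ⟨1, fun a => smul_one a, ?_⟩
    rw [((hR h) N).1 hN |>.1, ((hR h) M).1 hM |>.1]
    simp

end Cfsg.Agent.S4381
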