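import Mathlib
import Cfsg.Statements.S4383
import Cfsg.Agent.Lib.TwoMax

set_option autoImplicit false
open Pointwise
open Cfsg

namespace Cfsg.Agent.S4383

/-- A finite group with exactly two conjugacy classes of maximal subgroups is solvable and its order has exactly two prime divisors. -/
theorem result {G : Type*} [Group G] [Finite G]
    (M₁ M₂ : Subgroup G) (h1 : IsCoatom M₁) (h2 : IsCoatom M₂) (hne : ∀ g : G, M₂ ≠ MulAut.conj g • M₁)
    (hall : ∀ M : Subgroup G, IsCoatom M → ∃ g : G, M = MulAut.conj g • M₁ ∨ M = MulAut.conj g • M₂) :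
    Group.IsSolvable G ∧ (Nat.card G).primeFactors.card = 2 := by
  exact Cfsg.Agent.Lib.TwoMax.main M₁ M₂ h1 h2 hne hall

end Cfsg.Agent.S4383
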