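import Mathlib
import Cfsg.Statements.S4385
import Cfsg.Agent.Lib.PCore
import Cfsg.Agent.Lib.TutteDih6

set_option autoImplicit false
open Pointwise
open Cfsg

namespace Cfsg.Agent.S4385

open Cfsg.Agent.Lib.PCore Cfsg.Agent.Lib.TutteDih DihedralGroup

theorem arith_two {a b m k : ℕ} (hm : Odd m) (hk : Odd k) (h : 2 ^ b * m = 2 ^ a * k) : b = a := by
  have h1 : Nat.Coprime (2 ^ a) m := Nat.Coprime.pow_left a ((Nat.coprime_two_left).2 hm)
  have h2 : Nat.Coprime (2 ^ b) k := Nat.Coprime.pow_left b ((Nat.coprime_two_left).2 hk)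
  have h3 : 2 ^ a ∣ 2 ^ b := h1.dvd_of_dvd_mul_right ⟨k, h⟩
  have h4 : 2 ^ b ∣ 2 ^ a := h2.dvd_of_dvd_mul_right ⟨m, h.symm⟩
  have h5 := (Nat.pow_dvd_pow_iff_le_right (by norm_num : 1 < 2)).1 h3
  have h6 := (Nat.pow_dvd_pow_iff_le_right (by norm_num : 1 < 2)).1 h4
  omega

theorem two_odd {G : Type*} [Group G] {P : Subgroup G} (hP : IsPGroup 2 P) {x : G} (hx : x ∈ P)
    {N : ℕ} (hN : Odd N) (h : x ^ N = 1) : x = 1 := by
  obtain ⟨k, hk⟩ := hP ⟨x, hx⟩
  have h3 : x ^ (2 ^ k) = 1 := by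
    have := congrArg Subtype.val hk
    simpa using this
  have h5 : orderOf x ∣ 2 ^ k := orderOf_dvd_of_pow_eq_one h3
  have h6 : orderOf x ∣ N := orderOf_dvd_of_pow_eq_one h
  have h7 : Nat.Coprime (2 ^ k) N := Nat.Coprime.pow_left k ((Nat.coprime_two_left).2 hN)
  have h8 : orderOf x = 1 := Nat.eq_one_of_dvd_coprimes h7 h5 h6
  exact orderOf_eq_one_iff.1 h8

/-- A dihedral quotient by the `2`-core has odd degree. -/
theorem n_odd {K : Type*} [Group K] [Finite K] {n : ℕ} (hn : 2 ≤ n) (π : K →* DihedralGroup n)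
    (hπs : Function.Surjective π) (hker : ∀ x, π x = 1 ↔ x ∈ pCore 2 K) : Odd n := by
  haveI : Fact (Nat.Prime 2) := ⟨Nat.prime_two⟩
  haveI : NeZero n := ⟨by omega⟩
  by_contra hev
  rw [Nat.not_odd_iff_even] at hev
  obtain ⟨m, hm⟩ := hev
  have h2m : (m : ZMod n) + (m : ZMod n) = 0 := by
    have : ((m + m : ℕ) : ZMod n) = 0 := by rw [← hm]; exact ZMod.natCast_self n
    simpa using this
  let c : DihedralGroup n := r (m : ZMod n)
  have hcc : c ^ 2 = 1 := by
    rw [pow_two]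
    show r _ * r _ = _
    rw [r_mul_r, h2m, r_zero]
  have hc1 : c ≠ 1 := by
    intro h
    have h1 : r (m : ZMod n) = r 0 := by rw [r_zero]; exact h
    have h2 : (m : ZMod n) = 0 := r.inj h1
    have h3 := (ZMod.natCast_eq_zero_iff m n).1 h2
    have h4 := Nat.le_of_dvd (by omega) h3
    omega
  have hcen : ∀ g : DihedralGroup n, g * c = c * g := by
    intro g
    rcases g with i | i
    · show r i * r _ = r _ * r i
      rw [r_mul_r, r_mul_r, add_comm]
    · show sr i * r _ = r _ * sr i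
      rw [sr_mul_r, r_mul_sr]
      congr 1
      linear_combination h2m
  have hord : orderOf c = 2 := orderOf_eq_prime hcc hc1
  have hZn : (Subgroup.zpowers c).Normal := by
    refine ⟨fun x hx g => ?_⟩
    obtain ⟨j, rfl⟩ := Subgroup.mem_zpowers_iff.1 hx
    have h1 : Commute g (c ^ j) := Commute.zpow_right (hcen g) j
    rw [h1.eq, mul_inv_cancel_right]
    exact hx
  have hZp : IsPGroup 2 (Subgroup.zpowers c) := by
    apply IsPGroup.of_card (n := 1)
    rw [Nat.card_zpowers, hord, pow_one]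
  have hkerP : IsPGroup 2 π.ker := by
    have h1 : π.ker ≤ pCore 2 K := fun x hx => (hker x).1 hx
    exact (isPGroup_pCore (G := K) 2).to_le h1
  have hcomp : IsPGroup 2 ((Subgroup.zpowers c).comap π) := hZp.comap_of_ker_isPGroup π hkerP
  have hle := le_pCore (hZn.comap π) hcomp
  obtain ⟨g, hg⟩ := hπs c
  have h1 : g ∈ (Subgroup.zpowers c).comap π := by
    rw [Subgroup.mem_comap, hg]
    exact Subgroup.mem_zpowers _
  have h2 := (hker g).2 (hle h1)
  rw [hg] at h2
  exact hc1 h2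

/-- Conjugation by elements with `y²` in `P C(P)`. -/
theorem sup_act {G : Type*} [Group G] {P : Subgroup G} {g : G}
    (hg : g ∈ P ⊔ Subgroup.centralizer (P : Set G)) : ∃ p ∈ P, ∀ x ∈ P, cj g x = cj p x := by
  rw [Subgroup.sup_eq_closure] at hg
  induction hg using Subgroup.closure_induction with
  | mem g hg =>
    rcases hg with hg | hg
    · exact ⟨g, hg, fun _ _ => rfl⟩
    · refine ⟨1, P.one_mem, fun x hx => ?_⟩
      rw [cj_one_left]
      exact cj_eq_self.2 ((Subgroup.mem_centralizer_iff.1 hg x hx).symm)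
  | one => exact ⟨1, P.one_mem, fun _ _ => rfl⟩
  | mul a b _ _ ha hb =>
    obtain ⟨p₁, h₁, e₁⟩ := ha
    obtain ⟨p₂, h₂, e₂⟩ := hb
    refine ⟨p₁ * p₂, P.mul_mem h₁ h₂, fun x hx => ?_⟩
    have hm : cj p₂ x ∈ P := P.mul_mem (P.mul_mem h₂ hx) (P.inv_mem h₂)
    rw [cj_mul_left, e₂ x hx, e₁ _ hm, cj_mul_left]
  | inv a _ ha =>
    obtain ⟨p, h, e⟩ := ha
    refine ⟨p⁻¹, P.inv_mem h, fun x hx => ?_⟩
    have hm : cj p⁻¹ x ∈ P := P.mul_mem (P.mul_mem (P.inv_mem h) hx) (by simpa using h)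
    have h1 := e _ hm
    rw [cj_cj_inv] at h1
    rw [cj_eq_iff, inv_inv]
    exact h1.symm

/-- Construction of the context. -/
theorem build {G : Type*} [Group G] [Finite G]
    (H : Subgroup G) (hO : Cfsg.pCore 2 ↥H ≠ ⊥) (n : ℕ) (hn : 2 ≤ n)
    (hdih : Nonempty (↥H ⧸ Cfsg.pCore 2 ↥H ≃* DihedralGroup n))
    (P : Subgroup G) (hPH : P ≤ H) (hP : IsPGroup 2 P) (hPsyl : ¬ 2 ∣ P.relIndex H) (y : G)
    (hy2 : y ^ 2 ∈ P ⊔ Subgroup.centralizer (P : Set G)) (hyN : MulAut.conj y • P = P)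
    (hyQ : ∀ Q : Subgroup G, Q ≤ P → (Q.subgroupOf H).Normal → MulAut.conj y • Q = Q → Q = ⊥) :
    ∃ X : Ctx G, X.H = H ∧ X.P = P ∧ orderOf X.u = X.N ∧
      Nat.card X.H = Nat.card X.A * (2 * X.N) ∧ Nat.card X.P = 2 * Nat.card X.A := by
  classical
  haveI : Fact (Nat.Prime 2) := ⟨Nat.prime_two⟩
  haveI : NeZero n := ⟨by omega⟩
  obtain ⟨φ⟩ := hdih
  set O2 := pCore 2 ↥H with hO2
  haveI hO2n : O2.Normal := pCore_normal 2 ↥H
  let π : ↥H →* DihedralGroup n := φ.toMonoidHom.comp (QuotientGroup.mk' O2)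
  have hπs : Function.Surjective π := φ.surjective.comp (QuotientGroup.mk'_surjective O2)
  have hker : ∀ x, π x = 1 ↔ x ∈ O2 := by
    intro x
    constructor
    · intro h
      have h1 : φ (QuotientGroup.mk' O2 x) = 1 := h
      have h2 : QuotientGroup.mk' O2 x = 1 := by
        have := congrArg φ.symm h1
        simpa using this
      exact (QuotientGroup.eq_one_iff _).1 h2
    · intro h
      have h2 : QuotientGroup.mk' O2 x = 1 := (QuotientGroup.eq_one_iff _).2 h
      show φ (QuotientGroup.mk' O2 x) = 1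
      rw [h2, map_one]
  have hnodd : Odd n := n_odd hn π hπs hker
  let A : Subgroup G := O2.map H.subtype
  have hA : ∀ {a : G}, a ∈ A ↔ ∃ h : a ∈ H, (⟨a, h⟩ : ↥H) ∈ O2 := by
    intro a
    constructor
    · rintro ⟨x, hx, rfl⟩
      exact ⟨x.2, hx⟩
    · rintro ⟨h, hx⟩
      exact ⟨_, hx, rfl⟩
  have hAH : A ≤ H := fun a ha => (hA.1 ha).1
  have hO2p : IsPGroup 2 O2 := isPGroup_pCore 2
  -- `A` is inside `P`
  have hPe : Nat.card (P.subgroupOf H) = Nat.card P :=
    Nat.card_congr (Subgroup.subgroupOfEquivOfLe hPH).toEquiv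
  obtain ⟨b, hb⟩ := IsPGroup.iff_card.1 hP
  have hP' : IsPGroup 2 (P.subgroupOf H) := by
    apply IsPGroup.of_card (n := b)
    rw [hPe, hb]
  have hAP : A ≤ P := by
    intro a ha
    obtain ⟨h, hx⟩ := hA.1 ha
    have h1 := pCore_le_sylow 2 (hP'.toSylow hPsyl) hx
    have h2 : (⟨a, h⟩ : ↥H) ∈ P.subgroupOf H := (IsPGroup.mem_toSylow hP' hPsyl).1 h1
    exact h2
  -- orders
  have hcardH : Nat.card H = Nat.card O2 * (2 * n) := by
    have h1 := Subgroup.card_eq_card_quotient_mul_card_subgroup O2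
    rw [Nat.card_congr φ.toEquiv, DihedralGroup.nat_card] at h1
    rw [h1, mul_comm]
  have hcardA : Nat.card A = Nat.card O2 :=
    Nat.card_congr (O2.equivMapOfInjective H.subtype H.subtype_injective).toEquiv.symm
  obtain ⟨a, ha⟩ := IsPGroup.iff_card.1 hO2p
  have hApos : 0 < Nat.card A := Nat.card_pos
  have hPcard : Nat.card P = 2 * Nat.card A := by
    have h1 := Subgroup.card_mul_index (P.subgroupOf H)
    rw [hPe, hb, hcardH, ha] at h1
    have h2 : Odd (P.subgroupOf H).index := by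
      rw [← Nat.not_even_iff_odd, even_iff_two_dvd]
      exact hPsyl
    have h3 := arith_two (a := a + 1) h2 hnodd (by rw [h1, pow_succ]; ring)
    rw [hb, hcardA, ha, h3, pow_succ]
    ring
  have hidx : (A.subgroupOf P).index = 2 := by
    have h1 := Subgroup.card_mul_index (A.subgroupOf P)
    have h2 : Nat.card (A.subgroupOf P) = Nat.card A :=
      Nat.card_congr (Subgroup.subgroupOfEquivOfLe hAP).toEquiv
    rw [h2, hPcard] at h1
    have h3 : Nat.card A * (A.subgroupOf P).index = Nat.card A * 2 := by rw [h1, mul_comm]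
    exact Nat.eq_of_mul_eq_mul_left hApos h3
  have hmemsub : ∀ {p : G} (hp : p ∈ P), (⟨p, hp⟩ : P) ∈ A.subgroupOf P ↔ p ∈ A := fun _ => Iff.rfl
  have hidxp : ∀ p ∈ P, p ∉ A → ∀ q ∈ P, q ∉ A → p * q⁻¹ ∈ A := by
    intro p hp hpA q hq hqA
    have h1 := (Subgroup.mul_mem_iff_of_index_two hidx (a := ⟨p, hp⟩) (b := (⟨q, hq⟩ : P)⁻¹)).2 (by
      constructor
      · intro h; exact absurd h hpA
      · intro h
        exact absurd (by simpa using A.inv_mem h) hqA)
    exact h1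
  have hsq : ∀ p ∈ P, p * p ∈ A := by
    intro p hp
    have h1 := (Subgroup.mul_mem_iff_of_index_two hidx (a := ⟨p, hp⟩) (b := (⟨p, hp⟩ : P))).2 Iff.rfl
    exact h1
  -- the element `t`
  obtain ⟨t, ht, htA⟩ : ∃ t ∈ P, t ∉ A := by
    by_contra hno
    push Not at hno
    have h1 := Subgroup.card_le_of_le (show P ≤ A from hno)
    omega
  have htH := hPH ht
  obtain ⟨i₀, hi₀⟩ : ∃ i₀, π ⟨t, htH⟩ = sr i₀ := by
    cases hx : π ⟨t, htH⟩ with
    | sr i => exact ⟨i, rfl⟩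
    | r i =>
      exfalso
      have h1 := hsq t ht
      obtain ⟨_, h2⟩ := hA.1 h1
      have h3 := (hker _).2 h2
      have h4 : π (⟨t, htH⟩ * ⟨t, htH⟩) = 1 := h3
      rw [map_mul, hx, r_mul_r] at h4
      have h5 : i + i = 0 := by
        have : r (i + i) = (r 0 : DihedralGroup n) := by rw [r_zero]; exact h4
        exact r.inj this
      obtain ⟨m, hm⟩ := hnodd
      have h6 : ((2 * m + 1 : ℕ) : ZMod n) = 0 := by rw [← hm]; exact ZMod.natCast_self n
      push_cast at h6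
      have h7 : i = 0 := by
        linear_combination (m + 1 : ZMod n) * h5 - i * h6
      apply htA
      apply hA.2
      refine ⟨htH, (hker _).1 ?_⟩
      rw [hx, h7, r_zero]
  -- the element `u`
  obtain ⟨u₀, hu₀⟩ := hπs (r 1)
  have hM0 : orderOf u₀ ≠ 0 := (orderOf_pos u₀).ne'
  obtain ⟨c, m₀, hm₀, hM⟩ := Nat.exists_eq_two_pow_mul_odd hM0
  have hcop : Nat.Coprime (2 ^ c) n := Nat.Coprime.pow_left c ((Nat.coprime_two_left).2 hnodd)
  obtain ⟨e, -, he⟩ := Nat.exists_mul_mod_eq_one_of_coprime hcop (by omega : 1 < n)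
  let u' : ↥H := u₀ ^ (2 ^ c * e)
  have hπu : π u' = r 1 := by
    show π (u₀ ^ _) = _
    rw [map_pow, hu₀, r_one_pow]
    congr 1
    rw [← ZMod.natCast_mod, he]
    simp
  have hum : u' ^ m₀ = 1 := by
    show (u₀ ^ (2 ^ c * e)) ^ m₀ = 1
    rw [← pow_mul]
    have : 2 ^ c * e * m₀ = (2 ^ c * m₀) * e := by ring
    rw [this, ← hM, pow_mul, pow_orderOf_eq_one, one_pow]
  have hπpow : ∀ k : ℕ, π (u' ^ k) = r (k : ZMod n) := by
    intro k
    rw [map_pow, hπu, r_one_pow]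
  have hordu : orderOf u' = n := by
    have h1 : Odd (orderOf u') := Odd.of_dvd_nat hm₀ (orderOf_dvd_of_pow_eq_one hum)
    apply Nat.dvd_antisymm
    · apply orderOf_dvd_of_pow_eq_one
      have h2 : u' ^ n ∈ O2 := by
        rw [← hker, hπpow]
        simp
      have h3 : ((u' ^ n : H) : G) ∈ P := hAP (hA.2 ⟨_, h2⟩)
      have h4 := two_odd hP h3 h1 (by
        rw [← Subgroup.coe_pow, ← pow_mul, mul_comm, pow_mul, pow_orderOf_eq_one, one_pow]
        rfl)
      exact Subtype.ext h4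
    · have h2 := hπpow (orderOf u')
      rw [pow_orderOf_eq_one, map_one] at h2
      have h3 : r ((orderOf u' : ℕ) : ZMod n) = (r 0 : DihedralGroup n) := by
        rw [← h2, r_zero]
      have h4 : ((orderOf u' : ℕ) : ZMod n) = 0 := r.inj h3
      exact (ZMod.natCast_eq_zero_iff _ _).1 h4
  set u : G := (u' : G) with hu
  have hordu' : orderOf u = n := by
    rw [hu, Subgroup.orderOf_coe, hordu]
  have huH : u ∈ H := u'.2
  have hu'e : u' = ⟨u, huH⟩ := rfl
  have hun : u ^ n = 1 := by rw [← hordu']; exact pow_orderOf_eq_one u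
  -- relations
  have hrel : cj t u * u ∈ A := by
    apply hA.2
    have hm : cj t u * u ∈ H := H.mul_mem (H.mul_mem (H.mul_mem htH huH) (H.inv_mem htH)) huH
    refine ⟨hm, (hker _).1 ?_⟩
    have e1 : (⟨cj t u * u, hm⟩ : ↥H) = ⟨t, htH⟩ * u' * (⟨t, htH⟩ : ↥H)⁻¹ * u' := rfl
    rw [e1, map_mul, map_mul, map_mul, map_inv, hi₀, hπu, sr_mul_r, inv_sr, sr_mul_sr, r_mul_r]
    have : i₀ - (i₀ + 1) + 1 = 0 := by ring
    rw [this, r_zero]
  have hgen : ∀ h ∈ H, ∃ i : ℕ, ∃ a ∈ A, h = a * u ^ i ∨ h = a * u ^ i * t := by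
    intro h hh
    have hr : ∀ (x : ↥H) (i : ZMod n), π x = r i → ∃ a ∈ A, (x : G) = a * u ^ i.val := by
      intro x i hx
      refine ⟨((x * (u' ^ i.val)⁻¹ : ↥H) : G), hA.2 ⟨Subtype.property _, (hker _).1 ?_⟩, ?_⟩
      · rw [Subtype.coe_eta, map_mul, map_inv, hπpow, hx, ZMod.natCast_zmod_val, inv_r, r_mul_r]
        simp
      · simp [hu]
    cases hx : π ⟨h, hh⟩ with
    | r i =>
      obtain ⟨a, ha, e⟩ := hr _ i hx
      exact ⟨i.val, a, ha, Or.inl e⟩
    | sr i =>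
      have h1 : π (⟨h, hh⟩ * (⟨t, htH⟩ : ↥H)⁻¹) = r (i₀ - i) := by
        rw [map_mul, map_inv, hx, hi₀, inv_sr, sr_mul_sr]
      obtain ⟨a, ha, e⟩ := hr _ _ h1
      refine ⟨(i₀ - i).val, a, ha, Or.inr ?_⟩
      have e2 : h * t⁻¹ = a * u ^ (i₀ - i).val := e
      rw [← e2]
      group
  -- `y`
  have hyP : ∀ p ∈ P, cj y p ∈ P := by
    intro p hp
    have h1 : cj y p ∈ MulAut.conj y • P := by
      rw [mem_conj_smul_iff]
      have : y⁻¹ * cj y p * y = p := by unfold cj; group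
      rw [this]
      exact hp
    rw [hyN] at h1
    exact h1
  have hyP' : ∀ p ∈ P, cj y⁻¹ p ∈ P := by
    intro p hp
    have h1 : p ∈ MulAut.conj y • P := by rw [hyN]; exact hp
    rw [mem_conj_smul_iff] at h1
    have : cj y⁻¹ p = y⁻¹ * p * y := by unfold cj; group
    rw [this]
    exact h1
  obtain ⟨p₀, hp₀, hp₀e⟩ := sup_act hy2
  refine ⟨{ H := H, A := A, P := P, y := y, t := t, u := u, N := n, AP := hAP, PH := hPH,
            An := ?_, P2 := hP, A_ne := ?_, tP := ht, tA := htA, idx := hidxp, uH := huH,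
            Nodd := hnodd, uN := hun, rel := hrel, gen := hgen, yP := hyP, yP' := hyP',
            p0 := p₀, p0P := hp₀, y2 := ?_, hQ := ?_ }, rfl, rfl, hordu', ?_, hPcard⟩
  · -- `A` is normal
    intro h hh a ha
    obtain ⟨ha', hx⟩ := hA.1 ha
    exact hA.2 ⟨H.mul_mem (H.mul_mem hh ha') (H.inv_mem hh), hO2n.conj_mem _ hx ⟨h, hh⟩⟩
  · intro h
    apply hO
    rw [eq_bot_iff]
    intro x hx
    have h1 : (x : G) ∈ A := hA.2 ⟨x.2, hx⟩
    rw [h, Subgroup.mem_bot] at h1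
    exact (Subgroup.mem_bot).2 (Subtype.ext h1)
  · intro x hx
    rw [cj_cj, ← pow_two]
    exact hp₀e x hx
  · intro Q hQP hQH hQy
    apply hyQ Q hQP
    · refine ⟨fun x hx g => ?_⟩
      exact hQH g g.2 x hx
    · have hle : MulAut.conj y • Q ≤ Q := by
        intro x hx
        rw [mem_conj_smul_iff] at hx
        have h1 := hQy _ hx
        have e1 : cj y (y⁻¹ * x * y) = x := by unfold cj; group
        rwa [e1] at h1
      refine Subgroup.eq_of_le_of_card_ge hle ?_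
      exact (Nat.card_congr (Subgroup.equivSMul (MulAut.conj y) Q).toEquiv).le
  · show Nat.card H = Nat.card A * (2 * n)
    rw [hcardH, hcardA]

/-- Let H be a subgroup of a finite group G whose largest normal 2-subgroup O_2(H) is nontrivial and such that H/O_2(H) is a dihedral group of order at least 4. Let P be a Sylow 2-subgroup of H and S a Sylow 2-subgroup of G containing P. Suppose y ∈ S lies outside P, normalizes P, has y² in the product of P with the centralizer of P in G, and normalizes no non-identity normal subgroup of H contained in P. Then P has order 4, 8 or 16, and H modulo its largest normal subgroup of odd order is isomorphic to the four-group, to the symmetric group of degree 4, or to the direct product of the symmetric group of degree 4 with a group of order 2. -/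
theorem result {G : Type*} [Group G] [Finite G]
    (H : Subgroup G) (hO : Cfsg.pCore 2 ↥H ≠ ⊥) (n : ℕ) (hn : 2 ≤ n) (hdih : Nonempty (↥H ⧸ Cfsg.pCore 2 ↥H ≃* DihedralGroup n))
    (P : Subgroup G) (hPH : P ≤ H) (hP : IsPGroup 2 P) (hPsyl : ¬ 2 ∣ P.relIndex H)
    (S : Sylow 2 G) (hPS : P ≤ (S : Subgroup G)) (y : G) (hyS : y ∈ (S : Subgroup G)) (hyP : y ∉ P)
    (hy2 : y ^ 2 ∈ P ⊔ Subgroup.centralizer (P : Set G)) (hyN : MulAut.conj y • P = P)
    (hyQ : ∀ Q : Subgroup G, Q ≤ P → (Q.subgroupOf H).Normal → MulAut.conj y • Q = Q → Q = ⊥) :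
    (Nat.card P = 4 ∨ Nat.card P = 8 ∨ Nat.card P = 16) ∧
    (Nonempty (↥H ⧸ Cfsg.oddCore ↥H ≃* Multiplicative (ZMod 2) × Multiplicative (ZMod 2)) ∨
     Nonempty (↥H ⧸ Cfsg.oddCore ↥H ≃* Equiv.Perm (Fin 4)) ∨
     Nonempty (↥H ⧸ Cfsg.oddCore ↥H ≃* Equiv.Perm (Fin 4) × Multiplicative (ZMod 2))) := by
  obtain ⟨X, rfl, rfl, h1, h2, h3⟩ := build H hO n hn hdih P hPH hP hPsyl y hy2 hyN hyQ
  by_cases hC : X.CC
  · obtain ⟨h4, h5⟩ := X.finish_II hC h1 h2 h3
    refine ⟨Or.inr h4, Or.inr h5⟩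
  · obtain ⟨h4, h5⟩ := X.finish_I hC h3
    exact ⟨Or.inl h4, Or.inl h5⟩

end Cfsg.Agent.S4385
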