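import Mathlib
import Cfsg.Statements.S4387

set_option autoImplicit false
open Cfsg
open Pointwise

namespace Cfsg.Agent.S4387

private lemma mem_conj_smul {G : Type*} [Group G] (M : Subgroup G) (g x : G) :
    x ∈ MulAut.conj g • M ↔ g⁻¹ * x * g ∈ M := by
  rw [Subgroup.mem_pointwise_smul_iff_inv_smul_mem]
  simp [MulAut.smul_def]

/-- Jordan: a finite group is not the union of the conjugates of a proper subgroup. -/
private lemma jordan {G : Type*} [Group G] [Finite G] (M : Subgroup G)
    (h : ∀ x : G, ∃ g : G, g⁻¹ * x * g ∈ M) : M = ⊤ := by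
  classical
  let f : (G ⧸ M) × {m : M // m ≠ 1} → {x : G // x ≠ 1} := fun c =>
    ⟨c.1.out * (c.2.1 : G) * c.1.out⁻¹, by
      intro h1
      have h2 : (c.2.1 : G) = 1 := by
        have := congrArg (fun y => c.1.out⁻¹ * y * c.1.out) h1
        simpa [mul_assoc] using this
      exact c.2.2 (Subtype.ext h2)⟩
  have hsurj : Function.Surjective f := by
    rintro ⟨x, hx⟩
    obtain ⟨g, hg⟩ := h x
    obtain ⟨k, hk⟩ := QuotientGroup.mk_out_eq_mul M g
    refine ⟨⟨(g : G ⧸ M), ⟨⟨(k : G)⁻¹ * (g⁻¹ * x * g) * k, M.mul_mem (M.mul_mem (M.inv_mem k.2) hg) k.2⟩, ?_⟩⟩, ?_⟩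
    · intro h1
      apply hx
      have h2 : (k : G)⁻¹ * (g⁻¹ * x * g) * k = 1 := congrArg Subtype.val h1
      have h3 : g⁻¹ * x * g = 1 := by
        have := congrArg (fun y => (k : G) * y * (k : G)⁻¹) h2
        simpa [mul_assoc] using this
      have := congrArg (fun y => g * y * g⁻¹) h3
      simpa [mul_assoc] using this
    · apply Subtype.ext
      simp only [f, hk]
      group
  have hcard := Nat.card_le_card_of_surjective f hsurj
  rw [Nat.card_prod] at hcard
  have h1 : ∀ (X : Type _) [Group X] [Finite X], Nat.card {x : X // x ≠ 1} = Nat.card X - 1 := by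
    intro X _ _
    have := Fintype.ofFinite X
    rw [Nat.card_eq_fintype_card, Nat.card_eq_fintype_card, Fintype.card_subtype_compl]
    simp
  rw [h1, h1] at hcard
  have h2 := Subgroup.card_mul_index M
  have hn : M.index ≠ 0 := Subgroup.index_ne_zero_of_finite
  have hM : 0 < Nat.card M := Nat.card_pos
  have h3 : M.index ≤ 1 := by
    have hm1 : Nat.card M - 1 + 1 = Nat.card M := Nat.sub_add_cancel hM
    have h4 : Nat.card G = M.index * (Nat.card M - 1) + M.index := by
      rw [← h2]
      nth_rewrite 1 [← hm1]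
      ring
    have hG : 0 < Nat.card G := Nat.card_pos
    have h6 : Nat.card (G ⧸ M) = M.index := rfl
    rw [h6] at hcard
    omega
  have h5 : M.index = 1 := by omega
  exact Subgroup.index_eq_one.1 h5

private lemma coatom_of_index_prime {G : Type*} [Group G] [Finite G] (H : Subgroup G)
    (hp : H.index.Prime) : IsCoatom H := by
  constructor
  · rintro rfl
    simp at hp
    exact Nat.not_prime_one hp
  · intro K hK
    have hd : K.index ∣ H.index := Subgroup.index_dvd_of_le hK.le
    rcases (Nat.dvd_prime hp).1 hd with h1 | h2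
    · exact Subgroup.index_eq_one.1 h1
    · exfalso
      have := Subgroup.relIndex_mul_index hK.le
      rw [h2] at this
      have h3 : H.relIndex K = 1 := by
        have hp' := hp.pos
        nlinarith
      exact hK.not_ge (Subgroup.relIndex_eq_one.1 h3)

/-- Let G be a non-trivial finite group in which any two maximal subgroups are conjugate. Then G is cyclic of prime-power order. -/
theorem result {G : Type*} [Group G] [Finite G] [Nontrivial G]
    (h : ∀ M N : Subgroup G, IsCoatom M → IsCoatom N → ∃ g : G, N = MulAut.conj g • M) :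
    IsCyclic G ∧ IsPrimePow (Nat.card G) := by
  classical
  obtain ⟨M, hM⟩ : ∃ M : Subgroup G, IsCoatom M := by
    rcases IsCoatomic.eq_top_or_exists_le_coatom (⊥ : Subgroup G) with h' | ⟨B, hB, -⟩
    · exact absurd h' bot_ne_top
    · exact ⟨B, hB⟩
  have hcyc : IsCyclic G := by
    by_contra hnc
    apply hM.1
    apply jordan
    intro x
    have hne : Subgroup.zpowers x ≠ ⊤ := by
      intro htop
      apply hnc
      exact ⟨x, fun y => by
        have : y ∈ Subgroup.zpowers x := by rw [htop]; trivial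
        exact this⟩
    rcases IsCoatomic.eq_top_or_exists_le_coatom (Subgroup.zpowers x) with h' | ⟨N, hN, hle⟩
    · exact absurd h' hne
    · obtain ⟨g, rfl⟩ := h M N hM hN
      refine ⟨g, (mem_conj_smul M g x).1 (hle (Subgroup.mem_zpowers x))⟩
  refine ⟨hcyc, ?_⟩
  obtain ⟨g, hg⟩ := hcyc.exists_generator
  have hcomm : ∀ a b : G, a * b = b * a := by
    have := IsCyclic.isMulCommutative (α := G)
    exact fun a b => this.is_comm.comm a b
  have hordg : orderOf g = Nat.card G := orderOf_eq_card_of_forall_mem_zpowers hg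
  have hkey : ∀ p : ℕ, p.Prime → p ∣ Nat.card G → IsCoatom (Subgroup.zpowers (g ^ p)) ∧
      Nat.card (Subgroup.zpowers (g ^ p)) = Nat.card G / p := by
    intro p hp hd
    have hcard : Nat.card (Subgroup.zpowers (g ^ p)) = Nat.card G / p := by
      rw [Nat.card_zpowers, orderOf_pow' g hp.ne_zero, hordg, Nat.gcd_eq_right hd]
    refine ⟨coatom_of_index_prime _ ?_, hcard⟩
    have h2 := Subgroup.card_mul_index (Subgroup.zpowers (g ^ p))
    rw [hcard] at h2
    obtain ⟨k, hk⟩ := hd
    have hk0 : 0 < k := by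
      rcases Nat.eq_zero_or_pos k with h0 | h0
      · subst h0
        have : 0 < Nat.card G := Nat.card_pos
        simp at hk
        omega
      · exact h0
    have h3 : Nat.card G / p = k := by
      rw [hk]; exact Nat.mul_div_cancel_left _ hp.pos
    rw [h3, hk] at h2
    have h4 : k * (Subgroup.zpowers (g ^ p)).index = k * p := by rw [h2]; ring
    rw [Nat.eq_of_mul_eq_mul_left hk0 h4]
    exact hp
  rw [isPrimePow_iff_unique_prime_dvd]
  have hne1 : Nat.card G ≠ 1 := Finite.one_lt_card.ne'
  refine ⟨(Nat.card G).minFac, ⟨Nat.minFac_prime hne1, Nat.minFac_dvd _⟩, ?_⟩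
  rintro q ⟨hq, hqd⟩
  set p := (Nat.card G).minFac with hpdef
  have hp : p.Prime := Nat.minFac_prime hne1
  have hpd : p ∣ Nat.card G := Nat.minFac_dvd _
  obtain ⟨hc1, hc2⟩ := hkey p hp hpd
  obtain ⟨hc3, hc4⟩ := hkey q hq hqd
  obtain ⟨c, hc⟩ := h _ _ hc1 hc3
  have heq : Subgroup.zpowers (g ^ q) = Subgroup.zpowers (g ^ p) := by
    rw [hc]
    ext x
    rw [mem_conj_smul]
    have : c⁻¹ * x * c = x := by
      rw [hcomm c⁻¹ x, mul_assoc, inv_mul_cancel, mul_one]
    rw [this]
  have hcards : Nat.card G / q = Nat.card G / p := by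
    rw [← hc2, ← hc4, heq]
  obtain ⟨k, hk⟩ := hpd
  obtain ⟨l, hl⟩ := hqd
  have hG : 0 < Nat.card G := Nat.card_pos
  have e1 : Nat.card G / p = k := by rw [hk]; exact Nat.mul_div_cancel_left _ hp.pos
  have e2 : Nat.card G / q = l := by rw [hl]; exact Nat.mul_div_cancel_left _ hq.pos
  rw [e1, e2] at hcards
  subst hcards
  have hl0 : 0 < l := by
    rcases Nat.eq_zero_or_pos l with h0 | h0
    · subst h0
      simp at hl
      omega
    · exact h0
  have : q * l = p * l := by rw [← hl, ← hk]
  exact Nat.eq_of_mul_eq_mul_right hl0 this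

end Cfsg.Agent.S4387
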