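import Mathlib
import Cfsg.Statements.S4396
import Cfsg.Agent.Lib.FreeFrob
import Cfsg.Agent.Lib.HallParts
import Cfsg.Agent.Lib.Frobenius

set_option autoImplicit false

open Cfsg

namespace Cfsg.Agent.S4396

open Cfsg.Agent.Lib.FreeFrob Cfsg.Agent.Lib.HallParts

theorem fpf_of_frob {A : Type*} [Group A] {Fk Hc : Subgroup A} (hHc : Cfsg.IsFrobeniusComplement Hc)
    (hker : Cfsg.frobeniusKernel Hc = (Fk : Set A)) :
    ∀ h ∈ Hc, h ≠ 1 → ∀ x ∈ Fk, h * x * h⁻¹ = x → x = 1 := by
  intro h hh hh1 x hx hfix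
  have hxk : x ∈ Cfsg.frobeniusKernel Hc := by
    rw [hker]; exact hx
  by_contra hx1
  have hxH : x ∉ Hc := fun hxH => hx1 (Cfsg.Agent.Lib.Frobenius.eq_one_of_mem_kernel_of_mem hxk hxH)
  apply hh1
  refine Cfsg.Agent.Lib.Frobenius.ti hHc hxH hh ?_
  have : x⁻¹ * h * x = h := by
    rw [mul_inv_eq_iff_eq_mul] at hfix
    rw [mul_assoc, hfix, inv_mul_cancel_left]
  rw [this]
  exact hh

/-- The statement. -/
theorem result {k V A : Type*} [Field k] [AddCommGroup V] [Module k V] [FiniteDimensional k V] [Group A] [Finite A] [DecidableEq A]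
    (ρ : Representation k A V) (hρ : Function.Injective ρ)
    (Fk Hc : Subgroup A) [Fk.Normal] (hHc : Cfsg.IsFrobeniusComplement Hc) (hker : Cfsg.frobeniusKernel Hc = (Fk : Set A)) (hnil : Group.IsNilpotent ↥Fk)
    (hCF : ∀ v : V, (∀ f ∈ Fk, ρ f v = v) → v = 0) :
    ∃ W : Submodule k V, DirectSum.IsInternal (fun h : ↥Hc => W.map (ρ (h : A))) := by
  classical
  have hfpf := fpf_of_frob (Fk := Fk) hHc hker
  have hmain : IsFreeSub ρ Hc ⊤ := by
    have hHF : ∀ h ∈ Hc, ∀ x ∈ Fk, h * x * h⁻¹ ∈ Fk := fun h _ x hx => ‹Fk.Normal›.conj_mem x hx h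
    by_cases hc : ((Nat.card Fk : ℕ) : k) = 0
    · -- pass to the part prime to the characteristic
      have hnF : Nat.card Fk ≠ 0 := Nat.card_pos.ne'
      obtain ⟨p, hpc⟩ := CharP.exists k
      have hpn : p ∣ Nat.card Fk := (CharP.cast_eq_zero_iff k p _).1 hc
      have hp0 : p ≠ 0 := by
        rintro rfl
        exact hnF (Nat.eq_zero_of_zero_dvd hpn)
      have hpp : p.Prime := (CharP.char_is_prime_or_zero k p).resolve_right hp0
      haveI : Fact p.Prime := ⟨hpp⟩
      set n := Nat.card Fk with hn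
      let m := ordCompl[p] n
      let q := ordProj[p] n
      have hcopm : Nat.Coprime p m := Nat.coprime_ordCompl hpp hnF
      have hcop : Nat.Coprime m q := by
        apply Nat.Coprime.symm
        exact Nat.Coprime.pow_left _ hcopm
      have hcard : Nat.card Fk ∣ m * q := by
        rw [mul_comm]
        exact (Nat.ordProj_mul_ordCompl_eq_self n p).symm ▸ dvd_rfl
      let E₀ : Subgroup Fk := killed hcop hcard
      let P₀ : Subgroup Fk := killed' hcop hcard
      have hE₀mem : ∀ x : Fk, x ∈ E₀ ↔ x ^ m = 1 := fun _ => Iff.rfl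
      have hP₀mem : ∀ x : Fk, x ∈ P₀ ↔ x ^ q = 1 := fun _ => Iff.rfl
      let E : Subgroup A := E₀.map Fk.subtype
      have hEmem : ∀ x : A, x ∈ E ↔ x ∈ Fk ∧ x ^ m = 1 := by
        intro x
        constructor
        · rintro ⟨y, hy, rfl⟩
          refine ⟨y.2, ?_⟩
          have := (hE₀mem y).1 hy
          rw [← map_pow, this, map_one]
        · rintro ⟨hx, hx1⟩
          refine ⟨⟨x, hx⟩, (hE₀mem _).2 (Subtype.ext ?_), rfl⟩
          rw [Subgroup.coe_pow]
          exact hx1
      have hEF : E ≤ Fk := fun x hx => ((hEmem x).1 hx).1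
      have hcardE : ((Nat.card E : ℕ) : k) ≠ 0 := by
        have h1 : Nat.card E = Nat.card E₀ := Nat.card_congr (Subgroup.equivMapOfInjective E₀ _ Fk.subtype_injective).symm.toEquiv
        have h2 : Nat.card E₀ ∣ m := card_killed'_dvd (m := q) (n := m) hcop.symm (by rwa [mul_comm])
        rw [h1]
        intro h0
        have h3 : p ∣ Nat.card E₀ := (CharP.cast_eq_zero_iff k p _).1 h0
        have h4 : p ∣ m := h3.trans h2
        exact hpp.one_lt.ne' (Nat.dvd_one.1 (hcopm ▸ Nat.dvd_gcd dvd_rfl h4))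
      have hsolE : Group.IsSolvable E :=
        Group.isSolvable_of_isSolvable_injective (f := Subgroup.inclusion hEF) (Subgroup.inclusion_injective hEF)
      have hfixE : ∀ v : V, (∀ x ∈ E, ρ x v = v) → v = 0 := by
        intro v hv
        by_contra hv0
        let U : Submodule k V :=
          { carrier := {w | ∀ x ∈ E, ρ x w = w}
            add_mem' := fun {a b} ha hb x hx => by rw [map_add, ha x hx, hb x hx]
            zero_mem' := fun x _ => map_zero _
            smul_mem' := fun c w hw x hx => by rw [map_smul, hw x hx] }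
        have hUmem : ∀ w, w ∈ U ↔ ∀ x ∈ E, ρ x w = w := fun _ => Iff.rfl
        have hmul : ∀ (x y : A) (w : V), ρ x (ρ y w) = ρ (x * y) w := fun x y w => by rw [map_mul]; rfl
        have hP : IsPGroup p P₀ := by
          intro g
          refine ⟨n.factorization p, ?_⟩
          apply Subtype.ext
          exact (hP₀mem g).1 g.2
        let r : Representation k P₀ V := ρ.comp (Fk.subtype.comp P₀.subtype)
        have hrU : ∀ g : P₀, ∀ w ∈ U, r g w ∈ U := by
          intro g w hw x hx
          show ρ x (ρ ((g : Fk) : A) w) = ρ ((g : Fk) : A) w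
          have hgF : (((g : Fk) : A)) ∈ Fk := (g : Fk).2
          have h1 : x * ((g : Fk) : A) = ((g : Fk) : A) * (((g : Fk) : A)⁻¹ * x * ((g : Fk) : A)) := by group
          have h2 : ((g : Fk) : A)⁻¹ * x * ((g : Fk) : A) ∈ E := by
            obtain ⟨hx1, hx2⟩ := (hEmem x).1 hx
            refine (hEmem _).2 ⟨mul_mem (mul_mem (inv_mem hgF) hx1) hgF, ?_⟩
            have h3 : ((g : Fk) : A)⁻¹ * x * ((g : Fk) : A) = (MulAut.conj ((g : Fk) : A)⁻¹) x := by
              simp [MulAut.conj_apply]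
            rw [h3, ← map_pow, hx2, map_one]
          rw [hmul, h1, ← hmul, hw _ h2]
        obtain ⟨w, hwU, hw0, hwfix⟩ := exists_fixed_vec p hP r U hrU ((hUmem v).2 hv) hv0
        apply hw0
        apply hCF
        intro f hf
        obtain ⟨e, e', h1, h2, h3, h4⟩ := exists_exps m q hcop
        have hftot : (⟨f, hf⟩ : Fk) ^ (m * q) = 1 := pow_total hcard _
        have hparts := parts_mul hcop h1 h2 h3 h4 hftot
        have hE1 : ((⟨f, hf⟩ : Fk) ^ e : Fk) ∈ E₀ := part_pow_left h2 hftot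
        have hP1 : ((⟨f, hf⟩ : Fk) ^ e' : Fk) ∈ P₀ := part_pow_right h3 hftot
        have hf' : f = (((⟨f, hf⟩ : Fk) ^ e : Fk) : A) * (((⟨f, hf⟩ : Fk) ^ e' : Fk) : A) := by
          have := congrArg Subtype.val hparts
          exact this.symm
        rw [hf', map_mul]
        show ρ _ (ρ _ w) = w
        have h5 : ρ (((⟨f, hf⟩ : Fk) ^ e' : Fk) : A) w = w := hwfix ⟨_, hP1⟩
        rw [h5]
        exact (hUmem w).1 hwU _ ⟨_, hE1, rfl⟩
      refine free_solvable ρ Hc _ E rfl hsolE ?_ hcardE ?_ ⊤ ?_ ?_ ?_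
      · intro h hh x hx
        obtain ⟨hx1, hx2⟩ := (hEmem x).1 hx
        refine (hEmem _).2 ⟨hHF h hh x hx1, ?_⟩
        have h3 : h * x * h⁻¹ = (MulAut.conj h) x := by
          simp [MulAut.conj_apply]
        rw [h3, ← map_pow, hx2, map_one]
      · exact fun h hh hh1 x hx => hfpf h hh hh1 x (hEF hx)
      · exact fun _ _ _ _ => Submodule.mem_top
      · exact fun _ _ _ _ => Submodule.mem_top
      · exact fun v _ hv => hfixE v hv
    · refine free_solvable ρ Hc _ Fk rfl inferInstance hHF hc hfpf ⊤ ?_ ?_ ?_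
      · exact fun _ _ _ _ => Submodule.mem_top
      · exact fun _ _ _ _ => Submodule.mem_top
      · exact fun v _ hv => hCF v hv
  obtain ⟨W, h1, h2⟩ := hmain
  exact ⟨W, DirectSum.isInternal_submodule_of_iSupIndep_of_iSup_eq_top h1 h2⟩

end Cfsg.Agent.S4396
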