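import Mathlib
import Cfsg.Statements.S4397
import Cfsg.Agent.Lib.SectRank
import Cfsg.Agent.Lib.Frat
import Cfsg.Agent.Lib.PGroupAct
import Cfsg.Agent.Lib.Replacement
import Cfsg.Agent.Lib.Coprime

set_option autoImplicit false
open Cfsg

namespace Cfsg.Agent.S4397

universe u

open Cfsg.Agent.Lib.SectRank Cfsg.Agent.Lib.Replacement
open scoped commutatorElement

variable {S : Type u} [Group S]

/-- Normality and cyclic quotient from two generators. -/
lemma metacyclic_of_two_gens [Finite S] (x y : S) (hgen : Subgroup.closure {x, y} = ⊤)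
    (hc : ⁅x, y⁆ ∈ Subgroup.zpowers x) : IsMetacyclic S := by
  have hyn : y ∈ Subgroup.normalizer ((Subgroup.zpowers x : Subgroup S) : Set S) := by
    apply mem_normalizer_of_forall
    intro t ht
    obtain ⟨i, rfl⟩ := Subgroup.mem_zpowers_iff.1 ht
    have e1 : y * x ^ i * y⁻¹ = (y * x * y⁻¹) ^ i := by
      rw [conj_zpow]
    rw [e1]
    apply zpow_mem
    have e2 : y * x * y⁻¹ = ⁅x, y⁆⁻¹ * x := by
      rw [commutatorElement_def]; group
    rw [e2]
    exact mul_mem (inv_mem hc) (Subgroup.mem_zpowers x)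
  have hxn : x ∈ Subgroup.normalizer ((Subgroup.zpowers x : Subgroup S) : Set S) := by
    apply mem_normalizer_of_forall
    intro t ht
    exact mul_mem (mul_mem (Subgroup.mem_zpowers x) ht) (inv_mem (Subgroup.mem_zpowers x))
  have hn : Subgroup.normalizer ((Subgroup.zpowers x : Subgroup S) : Set S) = ⊤ := by
    rw [eq_top_iff, ← hgen, Subgroup.closure_le]
    rintro t (rfl | rfl)
    · exact hxn
    · exact hyn
  have hN : (Subgroup.zpowers x).Normal := Subgroup.normalizer_eq_top_iff.1 hn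
  refine ⟨Subgroup.zpowers x, hN, inferInstance, ?_⟩
  rw [isCyclic_iff_exists_zpowers_eq_top]
  refine ⟨QuotientGroup.mk y, ?_⟩
  rw [eq_top_iff]
  rintro t -
  obtain ⟨g, rfl⟩ := QuotientGroup.mk_surjective t
  have hk : (⊤ : Subgroup S) ≤ (Subgroup.zpowers (QuotientGroup.mk y : S ⧸ Subgroup.zpowers x)).comap
      (QuotientGroup.mk' (Subgroup.zpowers x)) := by
    rw [← hgen, Subgroup.closure_le]
    rintro t (rfl | rfl)
    · change (QuotientGroup.mk t : S ⧸ Subgroup.zpowers t) ∈
        Subgroup.zpowers (QuotientGroup.mk y : S ⧸ Subgroup.zpowers t)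
      rw [(QuotientGroup.eq_one_iff t).2 (Subgroup.mem_zpowers t)]
      exact one_mem _
    · exact Subgroup.mem_zpowers _
  exact hk (Subgroup.mem_top g)

/-- Blackburn's reduction step. -/
lemma blackburn_step [Finite S] (h2 : IsPGroup 2 S) (z : S) (hzc : z ∈ Subgroup.center S)
    (hz2 : z ^ 2 = 1) (hN : (Subgroup.zpowers z).Normal) (hm : IsMetacyclic (S ⧸ Subgroup.zpowers z))
    (hzM : ∀ W : Subgroup S, W.Normal → (∀ u v w : S, ⁅⁅u, v⁆, w⁆ ∈ W) → (∀ u v : S, ⁅u, v⁆ ^ 2 ∈ W) →
      z ∈ W) :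
    IsMetacyclic S := by
  classical
  obtain ⟨Ab, hAb, hc1, hc2⟩ := hm
  obtain ⟨⟨a0, ha0⟩, ha0g⟩ := hc1.exists_generator
  obtain ⟨a, rfl⟩ := QuotientGroup.mk_surjective a0
  obtain ⟨t, htg⟩ := hc2.exists_generator
  obtain ⟨t0, rfl⟩ := QuotientGroup.mk_surjective t
  obtain ⟨b, rfl⟩ := QuotientGroup.mk_surjective t0
  let A : Subgroup S := Ab.comap (QuotientGroup.mk' (Subgroup.zpowers z))
  have hAn : A.Normal := Subgroup.Normal.comap hAb _
  have hmemA : ∀ y, y ∈ A ↔ (QuotientGroup.mk y : S ⧸ Subgroup.zpowers z) ∈ Ab := fun y => Iff.rfl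
  have haA : a ∈ A := ha0
  have hzA : z ∈ A := by
    rw [hmemA, (QuotientGroup.eq_one_iff z).2 (Subgroup.mem_zpowers z)]
    exact one_mem _
  -- decomposition of the group
  have hgen : ∀ g : S, ∃ i : ℤ, ∃ y ∈ A, g = b ^ i * y := by
    intro g
    obtain ⟨i, hi⟩ := Subgroup.mem_zpowers_iff.1 (htg (QuotientGroup.mk (QuotientGroup.mk g)))
    refine ⟨i, b⁻¹ ^ i * g, ?_, ?_⟩
    · rw [hmemA]
      have h1 : (QuotientGroup.mk (QuotientGroup.mk b ^ i) : (S ⧸ Subgroup.zpowers z) ⧸ Ab) =
          QuotientGroup.mk (QuotientGroup.mk g) := hi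
      have h2 := (QuotientGroup.eq (s := Ab)).1 h1
      have h3 : (QuotientGroup.mk (b⁻¹ ^ i * g) : S ⧸ Subgroup.zpowers z) =
          (QuotientGroup.mk b ^ i)⁻¹ * QuotientGroup.mk g := by
        simp
      rw [h3]
      exact h2
    · rw [inv_zpow, mul_inv_cancel_left]
  -- decomposition of `A`
  have hzpow : ∀ n ∈ Subgroup.zpowers z, n = 1 ∨ n = z := by
    intro n hn
    obtain ⟨i, rfl⟩ := Subgroup.mem_zpowers_iff.1 hn
    have hi : i % 2 = 0 ∨ i % 2 = 1 := by omega
    have e : z ^ i = z ^ (i % 2) := by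
      conv_lhs => rw [← Int.mul_ediv_add_emod i 2]
      rw [zpow_add, zpow_mul]
      have : z ^ (2 : ℤ) = 1 := by exact_mod_cast hz2
      rw [this, one_zpow, one_mul]
    rcases hi with hi | hi
    · left; rw [e, hi, zpow_zero]
    · right; rw [e, hi, zpow_one]
  have hA : ∀ y ∈ A, ∃ i : ℤ, y = a ^ i ∨ y = a ^ i * z := by
    intro y hy
    obtain ⟨i, hi⟩ := Subgroup.mem_zpowers_iff.1 (ha0g ⟨_, hy⟩)
    have hi' : (QuotientGroup.mk a : S ⧸ Subgroup.zpowers z) ^ i = QuotientGroup.mk y := by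
      have := congrArg Subtype.val hi
      simpa using this
    have h2 : (a ^ i)⁻¹ * y ∈ Subgroup.zpowers z := by
      rw [← QuotientGroup.eq]
      rw [← hi']
      simp
    refine ⟨i, ?_⟩
    rcases hzpow _ h2 with h3 | h3
    · left
      have := mul_eq_one_iff_eq_inv.1 h3
      rw [inv_inj] at this
      exact this.symm
    · right
      rw [← h3, mul_inv_cancel_left]
  have hzcomm : ∀ g : S, z * g = g * z := by
    intro g
    exact ((Subgroup.mem_center_iff.1 hzc) g).symm
  have hAcomm : ∀ y ∈ A, ∀ y' ∈ A, y * y' = y' * y := by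
    intro y hy y' hy'
    obtain ⟨i, hi⟩ := hA y hy
    obtain ⟨j, hj⟩ := hA y' hy'
    have h1 : Commute (a ^ i) (a ^ j) := (Commute.refl a).zpow_zpow i j
    have h2 : ∀ g : S, Commute z g := hzcomm
    rcases hi with rfl | rfl <;> rcases hj with rfl | rfl
    · exact h1
    · exact (h1.mul_right (h2 _).symm)
    · exact (h1.mul_left (h2 _))
    · exact ((h1.mul_left (h2 _)).mul_right ((h2 _).symm.mul_left (Commute.refl z)))
  by_cases hzin : z ∈ Subgroup.zpowers a
  · -- the preimage is cyclic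
    have hAeq : A = Subgroup.zpowers a := by
      apply le_antisymm
      · intro y hy
        obtain ⟨i, hi⟩ := hA y hy
        rcases hi with rfl | rfl
        · exact zpow_mem (Subgroup.mem_zpowers a) i
        · exact mul_mem (zpow_mem (Subgroup.mem_zpowers a) i) hzin
      · exact (Subgroup.zpowers_le).2 haA
    refine ⟨A, hAn, hAeq ▸ inferInstance, ?_⟩
    rw [isCyclic_iff_exists_zpowers_eq_top]
    refine ⟨QuotientGroup.mk b, ?_⟩
    rw [eq_top_iff]
    rintro t -
    obtain ⟨g, rfl⟩ := QuotientGroup.mk_surjective t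
    obtain ⟨i, y, hy, rfl⟩ := hgen g
    rw [Subgroup.mem_zpowers_iff]
    refine ⟨i, ?_⟩
    rw [QuotientGroup.mk_mul, (QuotientGroup.eq_one_iff y).2 hy, mul_one, QuotientGroup.mk_zpow]
  · exfalso
    set c := ⁅a, b⁆ with hc
    have hcdef : c = a * (b * a⁻¹ * b⁻¹) := by rw [hc, commutatorElement_def]; group
    have hconjA : ∀ y ∈ A, b * y⁻¹ * b⁻¹ ∈ A := fun y hy => hAn.conj_mem _ (inv_mem hy) b
    have hcA : c ∈ A := by
      rw [hcdef]
      exact mul_mem haA (hconjA a haA)
    have hcomm_zpow : ∀ i : ℤ, ⁅a ^ i, b⁆ = c ^ i := by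
      intro i
      have e : Commute a (b * a⁻¹ * b⁻¹) := hAcomm a haA _ (hconjA a haA)
      rw [hcdef, e.mul_zpow, commutatorElement_def, conj_zpow, inv_zpow]
      group
    have hW1 : ∀ y ∈ A, ⁅y, b⁆ ∈ Subgroup.zpowers c := by
      intro y hy
      obtain ⟨i, hi⟩ := hA y hy
      have e : ⁅y, b⁆ = ⁅a ^ i, b⁆ := by
        rcases hi with rfl | rfl
        · rfl
        · rw [commutatorElement_def, commutatorElement_def]
          have : a ^ i * z * b * (a ^ i * z)⁻¹ * b⁻¹ = a ^ i * (z * b * z⁻¹) * (a ^ i)⁻¹ * b⁻¹ := by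
            group
          rw [this, hzcomm b]
          group
      rw [e, hcomm_zpow]
      exact zpow_mem (Subgroup.mem_zpowers c) i
    have hbW : b ∈ Subgroup.normalizer ((Subgroup.zpowers c : Subgroup S) : Set S) := by
      apply mem_normalizer_of_forall
      intro t ht
      obtain ⟨i, rfl⟩ := Subgroup.mem_zpowers_iff.1 ht
      rw [← conj_zpow]
      apply zpow_mem
      have : b * c * b⁻¹ = ⁅b * a * b⁻¹, b⁆ := by
        rw [hc, commutatorElement_def, commutatorElement_def]
        group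
      rw [this]
      exact hW1 _ (hAn.conj_mem _ haA b)
    have hAW : ∀ y ∈ A, y ∈ Subgroup.normalizer ((Subgroup.zpowers c : Subgroup S) : Set S) := by
      intro y hy
      apply mem_normalizer_of_forall
      intro t ht
      obtain ⟨i, rfl⟩ := Subgroup.mem_zpowers_iff.1 ht
      have : y * c ^ i * y⁻¹ = c ^ i := by
        rw [hAcomm y hy (c ^ i) (zpow_mem hcA i)]
        group
      rw [this]
      exact ht
    have hWn : (Subgroup.zpowers c).Normal := by
      apply Subgroup.normalizer_eq_top_iff.1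
      rw [eq_top_iff]
      rintro g -
      obtain ⟨i, y, hy, rfl⟩ := hgen g
      exact mul_mem (zpow_mem hbW i) (hAW y hy)
    -- the commutator subgroup lies in `⟨c⟩`
    have hS' : ∀ u v : S, ⁅u, v⁆ ∈ Subgroup.zpowers c := by
      have hby : ∀ y ∈ A, Commute (QuotientGroup.mk y : S ⧸ Subgroup.zpowers c) (QuotientGroup.mk b) := by
        intro y hy
        have h1 : (QuotientGroup.mk ⁅y, b⁆ : S ⧸ Subgroup.zpowers c) = 1 :=
          (QuotientGroup.eq_one_iff _).2 (hW1 y hy)
        have h2 : y * b = ⁅y, b⁆ * (b * y) := by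
          rw [commutatorElement_def]; group
        change (QuotientGroup.mk y : S ⧸ Subgroup.zpowers c) * QuotientGroup.mk b =
          QuotientGroup.mk b * QuotientGroup.mk y
        rw [← QuotientGroup.mk_mul, h2, QuotientGroup.mk_mul, h1, one_mul, QuotientGroup.mk_mul]
      have hyy : ∀ y ∈ A, ∀ y' ∈ A,
          Commute (QuotientGroup.mk y : S ⧸ Subgroup.zpowers c) (QuotientGroup.mk y') := by
        intro y hy y' hy'
        change (QuotientGroup.mk y : S ⧸ Subgroup.zpowers c) * QuotientGroup.mk y' =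
          QuotientGroup.mk y' * QuotientGroup.mk y
        rw [← QuotientGroup.mk_mul, hAcomm y hy y' hy', QuotientGroup.mk_mul]
      have key : ∀ u v : S, Commute (QuotientGroup.mk u : S ⧸ Subgroup.zpowers c) (QuotientGroup.mk v) := by
        intro u v
        obtain ⟨i, y, hy, rfl⟩ := hgen u
        obtain ⟨j, y', hy', rfl⟩ := hgen v
        rw [QuotientGroup.mk_mul, QuotientGroup.mk_mul, QuotientGroup.mk_zpow, QuotientGroup.mk_zpow]
        refine Commute.mul_left (Commute.mul_right ((Commute.refl _).zpow_zpow i j) ?_)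
          (Commute.mul_right ?_ (hyy y hy y' hy'))
        · exact ((hby y' hy').symm).zpow_left i
        · exact (hby y hy).zpow_right j
      intro u v
      rw [← QuotientGroup.eq_one_iff]
      have e : (QuotientGroup.mk ⁅u, v⁆ : S ⧸ Subgroup.zpowers c) =
          (QuotientGroup.mk u) * QuotientGroup.mk v * (QuotientGroup.mk u)⁻¹ * (QuotientGroup.mk v)⁻¹ := by
        rw [commutatorElement_def]
        rfl
      rw [e, (key u v).eq]
      group
    -- conjugates of `c` are odd powers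
    have hodd : ∀ g : S, ∃ m : ℤ, g * c * g⁻¹ = c ^ (1 + 2 * m) := by
      intro g
      by_cases hc1 : c = 1
      · exact ⟨0, by simp [hc1]⟩
      obtain ⟨k, hk⟩ := Subgroup.mem_zpowers_iff.1 (hWn.conj_mem c (Subgroup.mem_zpowers c) g)
      by_cases hk2 : k % 2 = 0
      · exfalso
        obtain ⟨n, hn⟩ := IsPGroup.iff_orderOf.1 h2 c
        have hn0 : n ≠ 0 := by
          rintro rfl
          exact hc1 (orderOf_eq_one_iff.1 (by simpa using hn))
        obtain ⟨n', rfl⟩ : ∃ n', n = n' + 1 := ⟨n - 1, by omega⟩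
        have hord : orderOf (g * c * g⁻¹) = orderOf c :=
          orderOf_injective (MulAut.conj g).toMonoidHom (MulAut.conj g).injective c
        have h3 : (g * c * g⁻¹) ^ (2 ^ n') = 1 := by
          rw [← hk]
          have hkk : k = 2 * (k / 2) := by omega
          rw [hkk, ← zpow_natCast, ← zpow_mul]
          have e : (2 * (k / 2)) * ((2 ^ n' : ℕ) : ℤ) = ((2 ^ (n' + 1) : ℕ) : ℤ) * (k / 2) := by
            push_cast; ring
          rw [e, zpow_mul, zpow_natCast, ← hn, pow_orderOf_eq_one, one_zpow]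
        have h4 := orderOf_dvd_of_pow_eq_one h3
        rw [hord, hn] at h4
        have := (Nat.pow_dvd_pow_iff_le_right (by norm_num : 1 < 2)).1 h4
        omega
      · refine ⟨k / 2, ?_⟩
        rw [← hk]
        congr 1
        omega
    have hconjzpow : ∀ (g : S) (n m : ℤ), g * c * g⁻¹ = c ^ (1 + 2 * m) →
        ⁅c ^ n, g⁆ = (c ^ 2) ^ (- m * n) := by
      intro g n m hm
      have e1 : g * (c ^ n)⁻¹ * g⁻¹ = (g * c * g⁻¹) ^ (-n) := by
        rw [conj_zpow, zpow_neg]
      have e2 : ⁅c ^ n, g⁆ = c ^ n * (g * (c ^ n)⁻¹ * g⁻¹) := by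
        rw [commutatorElement_def]; group
      rw [e2, e1, hm, ← zpow_mul, ← zpow_add, ← zpow_natCast c 2, ← zpow_mul]
      congr 1
      push_cast
      ring
    have hWW : (Subgroup.zpowers (c ^ 2)).Normal := by
      constructor
      intro t ht g
      obtain ⟨i, rfl⟩ := Subgroup.mem_zpowers_iff.1 ht
      obtain ⟨m, hm⟩ := hodd g
      rw [Subgroup.mem_zpowers_iff]
      refine ⟨(1 + 2 * m) * i, ?_⟩
      rw [← conj_zpow, ← conj_pow, hm]
      rw [← zpow_natCast (c ^ (1 + 2 * m)) 2, ← zpow_natCast c 2, ← zpow_mul, ← zpow_mul, ← zpow_mul]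
      congr 1
      ring
    have hzW : z ∈ Subgroup.zpowers (c ^ 2) := by
      apply hzM _ hWW
      · intro u v w
        obtain ⟨n, hn⟩ := Subgroup.mem_zpowers_iff.1 (hS' u v)
        obtain ⟨m, hm⟩ := hodd w
        rw [← hn, hconjzpow w n m hm]
        exact zpow_mem (Subgroup.mem_zpowers _) _
      · intro u v
        obtain ⟨n, hn⟩ := Subgroup.mem_zpowers_iff.1 (hS' u v)
        have e : (c ^ n) ^ 2 = (c ^ 2) ^ n := by
          rw [← zpow_natCast, ← zpow_natCast c 2, ← zpow_mul, ← zpow_mul, mul_comm]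
        rw [← hn, e]
        exact zpow_mem (Subgroup.mem_zpowers _) _
    apply hzin
    refine (Subgroup.zpowers_le.2 ?_) hzW
    obtain ⟨k, hk⟩ := hA c hcA
    rcases hk with hk | hk
    · rw [hk, ← zpow_natCast, ← zpow_mul]
      exact zpow_mem (Subgroup.mem_zpowers a) _
    · have e : c ^ 2 = a ^ (k * 2) := by
        have hz' : Commute (a ^ k) z := (hzcomm _).symm
        rw [hk, hz'.mul_pow 2, hz2, mul_one, zpow_mul]
        exact (zpow_natCast _ 2).symm
      rw [e]
      exact zpow_mem (Subgroup.mem_zpowers a) _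

/-- The abstract combinatorics in the quotient `Z / Z²`. -/
lemma V_lemma {V : Type*} [Group V] [Finite V] (hexp : ∀ t : V, t ^ 2 = 1) (hcard : Nat.card V ≤ 4)
    (q₁ q₂ q₃ w : V) (hw : w ≠ 1) (h3 : (q₁ = 1 ∨ q₂ = 1 ∨ q₃ = 1) → Nat.card V ≤ 2)
    (h4 : q₁ = 1 → q₂ = 1 → q₃ = 1 → ∀ t : V, t = 1)
    (h6 : q₁ * q₂ * q₃ ≠ 1 → w = q₁ * q₂ * q₃) : w = q₁ ∨ w = q₂ ∨ w = q₃ := by
  classical
  have hcomm : ∀ x y : V, x * y = y * x := comm_of_exp_two hexp
  by_contra hcon
  push Not at hcon
  obtain ⟨h₁, h₂, h₃⟩ := hcon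
  by_cases hu : ∃ u : V, u ≠ 1 ∧ u ≠ w
  · obtain ⟨u, hu1, huw⟩ := hu
    have hc3 : 2 < Nat.card V := by
      have : Fintype V := Fintype.ofFinite V
      rw [Nat.card_eq_fintype_card]
      have hs : ({1, w, u} : Finset V).card = 3 := by
        rw [Finset.card_eq_three]
        exact ⟨1, w, u, hw.symm, hu1.symm, huw.symm, rfl⟩
      have := Finset.card_le_univ ({1, w, u} : Finset V)
      omega
    have hq : ∀ q : V, q ≠ 1 → q ≠ w → q = u ∨ q = u * w := by
      intro q hq1 hqw
      by_contra hq2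
      push Not at hq2
      obtain ⟨hqu, hquw⟩ := hq2
      have : Fintype V := Fintype.ofFinite V
      have hs : ({1, w, u, u * w, q} : Finset V).card = 5 := by
        have huw1 : u * w ≠ 1 := by
          intro h
          have : u = w := by
            have h5 := hexp w
            rw [sq] at h5
            calc u = u * (w * w) := by rw [h5, mul_one]
              _ = (u * w) * w := by group
              _ = w := by rw [h, one_mul]
          exact huw this
        have huw2 : u * w ≠ w := fun h => hu1 (by simpa using h)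
        have huw3 : u * w ≠ u := fun h => hw (by simpa using h)
        rw [Finset.card_insert_of_notMem, Finset.card_insert_of_notMem, Finset.card_insert_of_notMem,
          Finset.card_insert_of_notMem, Finset.card_singleton]
        · simp only [Finset.mem_singleton]; exact hquw.symm
        · simp only [Finset.mem_insert, Finset.mem_singleton, not_or]
          exact ⟨huw3.symm, hqu.symm⟩
        · simp only [Finset.mem_insert, Finset.mem_singleton, not_or]
          exact ⟨huw.symm, huw2.symm, hqw.symm⟩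
        · simp only [Finset.mem_insert, Finset.mem_singleton, not_or]
          exact ⟨hw.symm, hu1.symm, huw1.symm, hq1.symm⟩
      have := Finset.card_le_univ ({1, w, u, u * w, q} : Finset V)
      rw [Nat.card_eq_fintype_card] at hcard
      omega
    have hq1 : q₁ ≠ 1 := fun h => by have := h3 (Or.inl h); omega
    have hq2 : q₂ ≠ 1 := fun h => by have := h3 (Or.inr (Or.inl h)); omega
    have hq3 : q₃ ≠ 1 := fun h => by have := h3 (Or.inr (Or.inr h)); omega
    have huu : u * u = 1 := by rw [← sq, hexp]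
    have hww : w * w = 1 := by rw [← sq, hexp]
    have huwuw : (u * w) * (u * w) = 1 := by rw [← sq, hexp]
    have hprod : q₁ * q₂ * q₃ = u ∨ q₁ * q₂ * q₃ = u * w := by
      rcases hq q₁ hq1 h₁.symm with e1 | e1 <;> rcases hq q₂ hq2 h₂.symm with e2 | e2 <;>
        rcases hq q₃ hq3 h₃.symm with e3 | e3 <;> rw [e1, e2, e3]
      · left; rw [huu, one_mul]
      · right; rw [huu, one_mul]
      · right
        have : u * (u * w) * u = (u * u) * (w * u) := by group
        rw [this, huu, one_mul, hcomm]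
      · left
        have : u * (u * w) * (u * w) = u * ((u * w) * (u * w)) := by group
        rw [this, huwuw, mul_one]
      · right
        have : u * w * u * u = u * w * (u * u) := by group
        rw [this, huu, mul_one]
      · left
        have : u * w * u * (u * w) = u * w * (u * u) * w := by group
        rw [this, huu, mul_one, mul_assoc, hww, mul_one]
      · left
        rw [huwuw, one_mul]
      · right
        rw [huwuw, one_mul]
    have hw6 : w = u ∨ w = u * w := by
      rcases hprod with h | h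
      · left
        rw [h6 (by rw [h]; exact hu1), h]
      · right
        have hne : q₁ * q₂ * q₃ ≠ 1 := by
          rw [h]
          intro h7
          apply huw
          calc u = u * (w * w) := by rw [hww, mul_one]
            _ = (u * w) * w := by group
            _ = w := by rw [h7, one_mul]
        rw [← h]
        exact h6 hne
    rcases hw6 with h | h
    · exact huw h.symm
    · exact hu1 (by simpa using h.symm)
  · push Not at hu
    have hq : ∀ q : V, q ≠ w → q = 1 := by
      intro q hqw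
      by_contra hq1
      exact hqw (hu q hq1)
    exact hw (h4 (hq q₁ h₁.symm) (hq q₂ h₂.symm) (hq q₃ h₃.symm) w)

/-- Commutator identities in a group of class two with commutators of order two, and the structure
in the base case of the induction. -/
lemma sq_mul_of_central {u v : S} (hc : ⁅v, u⁆ ∈ Subgroup.center S) :
    (u * v) ^ 2 = ⁅v, u⁆ * (u ^ 2 * v ^ 2) := by
  have h1 : v * u = ⁅v, u⁆ * (u * v) := by
    rw [commutatorElement_def]; group
  have h2 : ∀ g : S, ⁅v, u⁆ * g = g * ⁅v, u⁆ := fun g => ((Subgroup.mem_center_iff.1 hc) g).symm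
  calc (u * v) ^ 2 = u * (v * u) * v := by rw [sq]; group
    _ = u * (⁅v, u⁆ * (u * v)) * v := by rw [← h1]
    _ = (u * ⁅v, u⁆) * (u * v) * v := by group
    _ = (⁅v, u⁆ * u) * (u * v) * v := by rw [h2 u]
    _ = _ := by rw [sq, sq]; group

/-- Quotient by a normal subgroup containing the commutator of two generators is commutative. -/
lemma commutator_mem_of_gens {a b : S} (hgen : Subgroup.closure {a, b} = ⊤) (W : Subgroup S) (hW : W.Normal)
    (hc : ⁅a, b⁆ ∈ W) (u v : S) : ⁅u, v⁆ ∈ W := by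
  have hab : Commute (QuotientGroup.mk a : S ⧸ W) (QuotientGroup.mk b) := by
    have h1 : (QuotientGroup.mk ⁅a, b⁆ : S ⧸ W) = 1 := (QuotientGroup.eq_one_iff _).2 hc
    have h2 : a * b = ⁅a, b⁆ * (b * a) := by
      rw [commutatorElement_def]; group
    change (QuotientGroup.mk a : S ⧸ W) * QuotientGroup.mk b = QuotientGroup.mk b * QuotientGroup.mk a
    rw [← QuotientGroup.mk_mul, h2, QuotientGroup.mk_mul, h1, one_mul, QuotientGroup.mk_mul]
  let C : Set (S ⧸ W) := {QuotientGroup.mk a, QuotientGroup.mk b}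
  have hC : ∀ x ∈ C, ∀ y ∈ C, x * y = y * x := by
    rintro x (rfl | rfl) y (rfl | rfl)
    · rfl
    · exact hab
    · exact hab.symm
    · rfl
  have hall : ∀ t : S, (QuotientGroup.mk t : S ⧸ W) ∈ Subgroup.closure C := by
    intro t
    have htop : (⊤ : Subgroup S) ≤ (Subgroup.closure C).comap (QuotientGroup.mk' W) := by
      rw [← hgen, Subgroup.closure_le]
      rintro t (rfl | rfl)
      · exact Subgroup.subset_closure (Or.inl rfl)
      · exact Subgroup.subset_closure (Or.inr rfl)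
    exact htop (Subgroup.mem_top t)
  let _ := Subgroup.closureCommGroupOfComm hC
  have hk : (QuotientGroup.mk u : S ⧸ W) * QuotientGroup.mk v = QuotientGroup.mk v * QuotientGroup.mk u := by
    have := mul_comm (⟨QuotientGroup.mk u, hall u⟩ : Subgroup.closure C) ⟨QuotientGroup.mk v, hall v⟩
    exact congrArg Subtype.val this
  rw [← QuotientGroup.eq_one_iff]
  have e : (QuotientGroup.mk ⁅u, v⁆ : S ⧸ W) =
      (QuotientGroup.mk u) * QuotientGroup.mk v * (QuotientGroup.mk u)⁻¹ * (QuotientGroup.mk v)⁻¹ := by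
    rw [commutatorElement_def]
    rfl
  rw [e, hk]
  group

/-- The base case: class at most two with commutators of order at most two. -/
lemma base_case [Finite S] (h2 : IsPGroup 2 S) (hb : SqBound 2 S)
    (hcen : ∀ u v : S, ⁅u, v⁆ ∈ Subgroup.center S) (hsq : ∀ u v : S, ⁅u, v⁆ ^ 2 = 1) :
    IsMetacyclic S := by
  classical
  have hf2 : Fact (Nat.Prime 2) := ⟨Nat.prime_two⟩
  have hpowF : ∀ s : S, s ^ 2 ∈ frattini S := fun s => Cfsg.Agent.Lib.Frat.pow_mem_frattini h2 s
  -- two generators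
  obtain ⟨a, b, hgen⟩ : ∃ a b : S, Subgroup.closure {a, b} = ⊤ := by
    have h1 : (frattini S).index ≤ 2 ^ 2 := by
      have := hb ⊤ (frattini S) le_top (fun h _ => hpowF h)
      rwa [Subgroup.relIndex_top_right] at this
    obtain ⟨n, hn⟩ : ∃ n, (frattini S).index = 2 ^ n :=
      IsPGroup.iff_card.1 (h2.to_quotient (frattini S))
    have hn2 : n ≤ 2 := by
      rw [hn] at h1
      exact (Nat.pow_le_pow_iff_right (by norm_num)).1 h1
    have : Fintype S := Fintype.ofFinite S
    obtain ⟨T, -, hTc, hT⟩ := (Cfsg.Agent.Lib.Frat.burnside_basis h2 hn).1 Finset.univ (by simp)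
    have hsub : ∃ a b : S, (T : Set S) ⊆ {a, b} := by
      have : n = 0 ∨ n = 1 ∨ n = 2 := by omega
      rcases this with rfl | rfl | rfl
      · rw [Finset.card_eq_zero] at hTc
        subst hTc
        exact ⟨1, 1, by simp⟩
      · obtain ⟨x, rfl⟩ := Finset.card_eq_one.1 hTc
        exact ⟨x, x, by simp⟩
      · obtain ⟨x, y, -, rfl⟩ := Finset.card_eq_two.1 hTc
        exact ⟨x, y, by simp⟩
    obtain ⟨a, b, hab⟩ := hsub
    refine ⟨a, b, ?_⟩
    rw [eq_top_iff, ← hT]
    exact Subgroup.closure_mono hab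
  by_cases hc1 : ⁅a, b⁆ = 1
  · exact metacyclic_of_two_gens a b hgen (by rw [hc1]; exact one_mem _)
  set c := ⁅a, b⁆ with hc
  have hcent : ∀ u v g : S, ⁅u, v⁆ * g = g * ⁅u, v⁆ :=
    fun u v g => ((Subgroup.mem_center_iff.1 (hcen u v)) g).symm
  -- squares are central
  have hsqcen : ∀ s : S, s ^ 2 ∈ Subgroup.center S := by
    intro s
    rw [Subgroup.mem_center_iff]
    intro g
    have h1 : s * g = ⁅s, g⁆ * (g * s) := by
      rw [commutatorElement_def]; group
    have h3 : ⁅s, g⁆ * ⁅s, g⁆ = 1 := by rw [← sq, hsq]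
    have hd := hcent s g
    generalize ⁅s, g⁆ = d at h1 h3 hd
    symm
    calc s ^ 2 * g = s * (s * g) := by rw [sq]; group
      _ = s * (d * (g * s)) := by rw [h1]
      _ = d * (s * g) * s := by rw [← mul_assoc s d, ← hd s]; group
      _ = d * (d * (g * s)) * s := by rw [h1]
      _ = (d * d) * (g * s * s) := by group
      _ = g * s ^ 2 := by rw [h3, one_mul, sq]; group
  -- the subgroup generated by squares
  let Z : Subgroup S := Subgroup.closure {x | ∃ s : S, s ^ 2 = x}
  have hZcen : Z ≤ Subgroup.center S := by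
    rw [Subgroup.closure_le]
    rintro _ ⟨s, rfl⟩
    exact hsqcen s
  have hzc : ∀ z ∈ Z, ∀ g : S, z * g = g * z := fun z hz g =>
    ((Subgroup.mem_center_iff.1 (hZcen hz)) g).symm
  have hsqZ : ∀ s : S, s ^ 2 ∈ Z := fun s => Subgroup.subset_closure ⟨s, rfl⟩
  have hZF : Z ≤ frattini S := by
    rw [Subgroup.closure_le]
    rintro _ ⟨s, rfl⟩
    exact hpowF s
  let Z₂ : Subgroup S :=
    { carrier := {u | ∃ t ∈ Z, t ^ 2 = u}
      mul_mem' := by
        rintro _ _ ⟨t, ht, rfl⟩ ⟨t', ht', rfl⟩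
        refine ⟨t * t', mul_mem ht ht', ?_⟩
        exact (show Commute t t' from hzc t ht t').mul_pow 2
      one_mem' := ⟨1, one_mem _, by simp⟩
      inv_mem' := by
        rintro _ ⟨t, ht, rfl⟩
        exact ⟨t⁻¹, inv_mem ht, by simp⟩ }
  have hZ₂mem : ∀ u, u ∈ Z₂ ↔ ∃ t ∈ Z, t ^ 2 = u := fun u => Iff.rfl
  have hZ₂Z : Z₂ ≤ Z := by
    rintro _ ⟨t, ht, rfl⟩
    exact hsqZ t
  have hZ₂n : Z₂.Normal := by
    constructor
    intro n hn g
    have h1 := hzc n (hZ₂Z hn) g
    have : g * n * g⁻¹ = n := by rw [← h1]; group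
    rw [this]
    exact hn
  let V := ↥Z ⧸ Z₂.subgroupOf Z
  have hmk1 : ∀ (x : S) (hx : x ∈ Z), (QuotientGroup.mk ⟨x, hx⟩ : V) = 1 ↔ x ∈ Z₂ := by
    intro x hx
    rw [QuotientGroup.eq_one_iff]
    exact Iff.rfl
  have hmkeq : ∀ (x y : S) (hx : x ∈ Z) (hy : y ∈ Z),
      (QuotientGroup.mk ⟨x, hx⟩ : V) = QuotientGroup.mk ⟨y, hy⟩ ↔ x⁻¹ * y ∈ Z₂ := by
    intro x y hx hy
    rw [QuotientGroup.eq]
    exact Iff.rfl
  have hexpV : ∀ t : V, t ^ 2 = 1 := by
    intro t
    obtain ⟨⟨z, hz⟩, rfl⟩ := QuotientGroup.mk_surjective t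
    rw [← QuotientGroup.mk_pow, QuotientGroup.eq_one_iff]
    exact ⟨z, hz, rfl⟩
  have hcardV : Nat.card V ≤ 4 := by
    have := hb Z Z₂ hZ₂Z (fun h hh => ⟨h, hh, rfl⟩)
    exact this
  -- sections through elements outside `Z`
  have hsec : ∀ x : S, x ∉ Z → x ^ 2 ∈ Z₂ → Nat.card V ≤ 2 := by
    intro x hxZ hx2
    let H : Subgroup S := Z ⊔ Subgroup.zpowers x
    have hZH : Z ≤ H := le_sup_left
    have hxH : x ∈ H := (le_sup_right : Subgroup.zpowers x ≤ H) (Subgroup.mem_zpowers x)
    have hZ₂H : Z₂ ≤ H := hZ₂Z.trans hZH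
    have hsq' : ∀ h ∈ H, h ^ 2 ∈ Z₂ := by
      intro h hh
      have hZn : Z.Normal := by
        constructor
        intro n hn g
        have h1 := hzc n hn g
        have : g * n * g⁻¹ = n := by rw [← h1]; group
        rw [this]
        exact hn
      have hh' : h ∈ ((Z ⊔ Subgroup.zpowers x : Subgroup S) : Set S) := hh
      rw [Subgroup.normal_mul] at hh'
      obtain ⟨z, hz, y, hy, rfl⟩ := Set.mem_mul.1 hh'
      obtain ⟨i, rfl⟩ := Subgroup.mem_zpowers_iff.1 hy
      have h1 : Commute z (x ^ i) := hzc z hz _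
      rw [h1.mul_pow 2]
      refine mul_mem ⟨z, hz, rfl⟩ ?_
      have e : (x ^ i) ^ 2 = (x ^ 2) ^ i := by
        rw [← zpow_natCast, ← zpow_natCast x 2, ← zpow_mul, ← zpow_mul, mul_comm]
      rw [e]
      exact zpow_mem hx2 i
    have h3 := hb H Z₂ hZ₂H hsq'
    have h4 := Subgroup.relIndex_mul_relIndex Z₂ Z H hZ₂Z hZH
    have h5 : Z.relIndex H ≠ 1 := by
      intro h6
      exact hxZ ((Subgroup.relIndex_eq_one.1 h6) hxH)
    have h6 : Z.relIndex H ≠ 0 := Subgroup.index_ne_zero_of_finite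
    have h7 : 2 ≤ Z.relIndex H := by omega
    have h8 : Z₂.relIndex Z * 2 ≤ 4 := by
      calc Z₂.relIndex Z * 2 ≤ Z₂.relIndex Z * Z.relIndex H := Nat.mul_le_mul_left _ h7
        _ = Z₂.relIndex H := h4
        _ ≤ 4 := h3
    have h9 : Z₂.relIndex Z ≤ 2 := by omega
    exact h9
  -- commutators lie in `Z`
  have hcomZ : ∀ u v : S, ⁅u, v⁆ ∈ Z := by
    intro u v
    have h1 := sq_mul_of_central (hcen u v)
    have h2 : ⁅u, v⁆ = (v * u) ^ 2 * (v ^ 2 * u ^ 2)⁻¹ := by
      rw [h1]; group
    rw [h2]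
    exact mul_mem (hsqZ _) (inv_mem (mul_mem (hsqZ _) (hsqZ _)))
  have hcZ : c ∈ Z := hcomZ a b
  have hc2 : c * c = 1 := by rw [← sq, hc, hsq]
  have hcinv : c⁻¹ = c := inv_eq_of_mul_eq_one_left hc2
  have hba : ⁅b, a⁆ = c := by
    rw [← commutatorElement_inv, ← hc, hcinv]
  have hab2 : (a * b) ^ 2 = c * (a ^ 2 * b ^ 2) := by
    rw [sq_mul_of_central (hcen b a), hba]
  -- the three square classes
  let q₁ : V := QuotientGroup.mk ⟨a ^ 2, hsqZ a⟩
  let q₂ : V := QuotientGroup.mk ⟨b ^ 2, hsqZ b⟩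
  let q₃ : V := QuotientGroup.mk ⟨(a * b) ^ 2, hsqZ (a * b)⟩
  have hprod : q₁ * q₂ * q₃ = QuotientGroup.mk ⟨c, hcZ⟩ := by
    symm
    simp only [q₁, q₂, q₃]
    refine (hmkeq c (a ^ 2 * b ^ 2 * (a * b) ^ 2) hcZ (mul_mem (mul_mem (hsqZ a) (hsqZ b)) (hsqZ (a * b)))).2 ?_
    refine ⟨a ^ 2 * b ^ 2, mul_mem (hsqZ a) (hsqZ b), ?_⟩
    rw [hab2]
    have h1 : a ^ 2 * b ^ 2 * c = c * (a ^ 2 * b ^ 2) := hcent a b _ |>.symm
    calc (a ^ 2 * b ^ 2) ^ 2 = c⁻¹ * (c * (a ^ 2 * b ^ 2)) * (a ^ 2 * b ^ 2) := by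
          rw [sq]; group
      _ = c⁻¹ * (a ^ 2 * b ^ 2 * c) * (a ^ 2 * b ^ 2) := by rw [h1]
      _ = _ := by group
  have habc : ⁅a * b, a⁆ = c := by
    have h1 : ⁅a * b, a⁆ = a * ⁅b, a⁆ * a⁻¹ := by
      rw [commutatorElement_def, commutatorElement_def]; group
    rw [h1, hba]
    have := hcent a b a
    rw [← hc] at this
    rw [← this]
    group
  have hnotZ : ∀ u v : S, ⁅u, v⁆ = c → u ∉ Z := by
    intro u v huv hu
    apply hc1
    rw [← huv, commutatorElement_eq_one_iff_mul_comm]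
    exact hzc u hu v
  have hnotZ' : ∀ u v : S, ⁅u, v⁆ = c → v ∉ Z := by
    intro u v huv hv
    apply hc1
    rw [← huv, commutatorElement_eq_one_iff_mul_comm]
    exact (hzc v hv u).symm
  have ha3 : a ∉ Z := hnotZ a b rfl
  have hb3 : b ∉ Z := hnotZ b a hba
  have hab3 : a * b ∉ Z := hnotZ _ _ habc
  have h3 : (q₁ = 1 ∨ q₂ = 1 ∨ q₃ = 1) → Nat.card V ≤ 2 := by
    rintro (h | h | h)
    · exact hsec a ha3 ((hmk1 _ _).1 h)
    · exact hsec b hb3 ((hmk1 _ _).1 h)
    · exact hsec _ hab3 ((hmk1 _ _).1 h)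
  have h4 : q₁ = 1 → q₂ = 1 → q₃ = 1 → ∀ t : V, t = 1 := by
    intro h₁ h₂ h₃ t
    have hcZ₂ : c ∈ Z₂ := by
      rw [← hmk1 c hcZ, ← hprod, h₁, h₂, h₃, one_mul, one_mul]
    have hcom : ∀ u v : S, ⁅u, v⁆ ∈ Z₂ := commutator_mem_of_gens hgen Z₂ hZ₂n hcZ₂
    have hall : ∀ s ∈ Subgroup.closure ({a, b} : Set S), s ^ 2 ∈ Z₂ := by
      intro s hs
      induction hs using Subgroup.closure_induction with
      | mem x hx =>
        rcases hx with rfl | rfl
        · exact (hmk1 _ _).1 h₁
        · exact (hmk1 _ _).1 h₂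
      | one => simp
      | mul x y _ _ hx hy =>
        rw [sq_mul_of_central (hcen y x)]
        exact mul_mem (hcom y x) (mul_mem hx hy)
      | inv x _ hx =>
        rw [inv_pow]
        exact inv_mem hx
    have hZZ : Z ≤ Z₂ := by
      rw [Subgroup.closure_le]
      rintro _ ⟨s, rfl⟩
      exact hall s (hgen ▸ Subgroup.mem_top s)
    obtain ⟨⟨z, hz⟩, rfl⟩ := QuotientGroup.mk_surjective t
    exact (hmk1 _ _).2 (hZZ hz)
  -- the root of `c`
  obtain ⟨w, hwZ, hcw, hwZ₂, hwc⟩ : ∃ w ∈ Z, c ∈ Subgroup.zpowers w ∧ w ∉ Z₂ ∧ (c ∉ Z₂ → w = c) := by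
    by_cases hcZ₂ : c ∈ Z₂
    · let X := {u : S // u ∈ Z ∧ c ∈ Subgroup.zpowers u}
      have hXne : Nonempty X := ⟨⟨c, hcZ, Subgroup.mem_zpowers c⟩⟩
      obtain ⟨⟨u, huZ, hcu⟩, hmax⟩ := Finite.exists_max (fun u : X => orderOf u.1)
      refine ⟨u, huZ, hcu, ?_, fun h => absurd hcZ₂ h⟩
      rintro ⟨t, htZ, rfl⟩
      have hct : c ∈ Subgroup.zpowers t :=
        (Subgroup.zpowers_le.2 (pow_mem (Subgroup.mem_zpowers t) 2)) hcu
      have h5 := hmax ⟨t, htZ, hct⟩
      simp only at h5
      have ht1 : t ≠ 1 := by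
        rintro rfl
        apply hc1
        simpa using hct
      obtain ⟨n, hn⟩ := IsPGroup.iff_orderOf.1 h2 t
      have hn0 : n ≠ 0 := by
        rintro rfl
        exact ht1 (orderOf_eq_one_iff.1 (by simpa using hn))
      obtain ⟨n', rfl⟩ : ∃ n', n = n' + 1 := ⟨n - 1, by omega⟩
      have h6 : (t ^ 2) ^ (2 ^ n') = 1 := by
        rw [← pow_mul, ← pow_succ']
        rw [← hn, pow_orderOf_eq_one]
      have h7 := Nat.le_of_dvd (by positivity) (orderOf_dvd_of_pow_eq_one h6)
      rw [hn] at h5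
      have h8 : 2 ^ n' < 2 ^ (n' + 1) := Nat.pow_lt_pow_right (by norm_num) (by omega)
      omega
    · exact ⟨c, hcZ, Subgroup.mem_zpowers c, hcZ₂, fun _ => rfl⟩
  have hV := V_lemma hexpV hcardV q₁ q₂ q₃ (QuotientGroup.mk ⟨w, hwZ⟩)
    (fun h => hwZ₂ ((hmk1 _ _).1 h)) h3 h4 (by
      rw [hprod]
      intro hne
      have hcn : c ∉ Z₂ := fun h => hne ((hmk1 _ _).2 h)
      have := hwc hcn
      subst this
      rfl)
  -- the final step
  have finish : ∀ x₀ y : S, Subgroup.closure {x₀, y} = ⊤ → ⁅x₀, y⁆ = c →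
      (QuotientGroup.mk ⟨w, hwZ⟩ : V) = QuotientGroup.mk ⟨x₀ ^ 2, hsqZ x₀⟩ → IsMetacyclic S := by
    intro x₀ y hgen' hxy hmk
    obtain ⟨t, ht, ht2⟩ := (hmkeq _ _ _ _).1 hmk
    have htc : ∀ g : S, t * g = g * t := hzc t ht
    let x := x₀ * t⁻¹
    have hx2 : x ^ 2 = w := by
      have h1 : Commute x₀ t⁻¹ := (show Commute t x₀ from htc x₀).symm.inv_right
      have h2 : x ^ 2 = x₀ ^ 2 * (t ^ 2)⁻¹ := by
        rw [h1.mul_pow 2, inv_pow]
      rw [h2, ht2]
      group
    have hcx : ⁅x, y⁆ = c := by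
      rw [← hxy, commutatorElement_def, commutatorElement_def]
      have e : x₀ * t⁻¹ * y * (x₀ * t⁻¹)⁻¹ * y⁻¹ = x₀ * (t⁻¹ * y * t) * x₀⁻¹ * y⁻¹ := by group
      change x₀ * t⁻¹ * y * (x₀ * t⁻¹)⁻¹ * y⁻¹ = _
      have e2 : t⁻¹ * y * t = y := by rw [mul_assoc, ← htc y]; group
      rw [e, e2]
    have hcmem : ⁅x, y⁆ ∈ Subgroup.zpowers x := by
      rw [hcx]
      have h1 : Subgroup.zpowers w ≤ Subgroup.zpowers x := by
        rw [Subgroup.zpowers_le, ← hx2]
        exact pow_mem (Subgroup.mem_zpowers x) 2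
      exact h1 hcw
    have hgen'' : Subgroup.closure {x, y} = ⊤ := by
      apply frattini_nongenerating
      rw [eq_top_iff, ← hgen', Subgroup.closure_le]
      rintro g (hg | hg)
      · rw [hg]
        have h5 : x * t ∈ Subgroup.closure {x, y} ⊔ frattini S :=
          mul_mem (Subgroup.mem_sup_left (Subgroup.subset_closure (Or.inl rfl)))
            (Subgroup.mem_sup_right (hZF ht))
        have h1 : x * t = x₀ := by simp [x]
        rwa [h1] at h5
      · rw [hg]
        exact Subgroup.mem_sup_left (Subgroup.subset_closure (Or.inr rfl))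
    exact metacyclic_of_two_gens x y hgen'' hcmem
  rcases hV with h | h | h
  · exact finish a b hgen rfl h
  · exact finish b a (by rw [Set.pair_comm]; exact hgen) hba h
  · refine finish (a * b) a ?_ habc h
    rw [eq_top_iff, ← hgen, Subgroup.closure_le]
    rintro g (rfl | rfl)
    · exact Subgroup.subset_closure (Or.inr rfl)
    · have h5 : a⁻¹ * (a * g) ∈ Subgroup.closure {a * g, a} :=
        mul_mem (inv_mem (Subgroup.subset_closure (Or.inr rfl)))
          (Subgroup.subset_closure (Or.inl rfl))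
      simpa using h5

/-- Sectional rank at most two implies metacyclic: induction. -/
theorem main : ∀ (n : ℕ) (S : Type u) [Group S] [Finite S], Nat.card S = n → IsPGroup 2 S →
    SqBound 2 S → IsMetacyclic S := by
  intro n
  induction n using Nat.strong_induction_on with
  | _ n ih =>
    intro S _ _ hn h2 hb
    by_cases hM : (∀ u v : S, ⁅u, v⁆ ∈ Subgroup.center S) ∧ (∀ u v : S, ⁅u, v⁆ ^ 2 = 1)
    · exact base_case h2 hb hM.1 hM.2
    · have hf2 : Fact (Nat.Prime 2) := ⟨Nat.prime_two⟩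
      let X : Set S := {x | (∃ u v w : S, x = ⁅⁅u, v⁆, w⁆) ∨ (∃ u v : S, x = ⁅u, v⁆ ^ 2)}
      let M : Subgroup S := Subgroup.normalClosure X
      have hMn : M.Normal := Subgroup.normalClosure_normal
      have hMne : M ≠ ⊥ := by
        intro hbot
        apply hM
        have hX : ∀ x ∈ X, x = 1 := by
          intro x hx
          have : x ∈ M := Subgroup.subset_normalClosure hx
          rw [hbot] at this
          exact this
        constructor
        · intro u v
          rw [Subgroup.mem_center_iff]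
          intro g
          have := hX ⁅⁅u, v⁆, g⁆ (Or.inl ⟨u, v, g, rfl⟩)
          rw [commutatorElement_eq_one_iff_mul_comm] at this
          exact this.symm
        · intro u v
          exact hX _ (Or.inr ⟨u, v, rfl⟩)
      obtain ⟨w₀, hw₀M, hw₀1, hw₀c⟩ := Cfsg.Agent.Lib.PGroupAct.exists_central_elt (⊤ : Subgroup S) M
        (h2.to_subgroup ⊤) le_top (fun a _ w hw => hMn.conj_mem w hw a) hMne
      -- a central involution in `M`
      obtain ⟨k, hk⟩ := IsPGroup.iff_orderOf.1 h2 w₀
      have hk0 : k ≠ 0 := by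
        rintro rfl
        exact hw₀1 (orderOf_eq_one_iff.1 (by simpa using hk))
      obtain ⟨k', rfl⟩ : ∃ k', k = k' + 1 := ⟨k - 1, by omega⟩
      let z := w₀ ^ (2 ^ k')
      have hz2 : z ^ 2 = 1 := by
        simp only [z]
        rw [← pow_mul, ← pow_succ, ← hk, pow_orderOf_eq_one]
      have hz1 : z ≠ 1 := by
        intro h
        have := orderOf_dvd_of_pow_eq_one h
        rw [hk] at this
        have := (Nat.pow_dvd_pow_iff_le_right (by norm_num : 1 < 2)).1 this
        omega
      have hzM : z ∈ M := pow_mem hw₀M _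
      have hzc : z ∈ Subgroup.center S := by
        apply pow_mem
        rw [Subgroup.mem_center_iff]
        intro g
        exact hw₀c g (Subgroup.mem_top g)
      have hNn : (Subgroup.zpowers z).Normal := by
        constructor
        intro t ht g
        have h1 : (Subgroup.zpowers z) ≤ Subgroup.center S := Subgroup.zpowers_le.2 hzc
        have h3 := (Subgroup.mem_center_iff.1 (h1 ht)) g
        have : g * t * g⁻¹ = t := by rw [h3]; group
        rw [this]
        exact ht
      have hNne : Subgroup.zpowers z ≠ ⊥ := by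
        intro h
        exact hz1 (Subgroup.zpowers_eq_bot.1 h)
      have hlt : Nat.card (S ⧸ Subgroup.zpowers z) < n := hn ▸ Cfsg.Agent.Lib.Coprime.card_quotient_lt hNne
      have hmeta := ih _ hlt (S ⧸ Subgroup.zpowers z) rfl (h2.to_quotient _)
        (hb.of_surjective (QuotientGroup.mk' _) (QuotientGroup.mk'_surjective _))
      refine blackburn_step h2 z hzc hz2 hNn hmeta ?_
      intro W hW h1 h3
      have hle : M ≤ W := by
        apply Subgroup.normalClosure_le_normal
        rintro x (⟨u, v, w, rfl⟩ | ⟨u, v, rfl⟩)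
        · exact h1 u v w
        · exact h3 u v
      exact hle hzM

/-- A finite 2-group of sectional 2-rank at most 2 (every section has no elementary abelian subgroup of order 8) is metacyclic: it has a cyclic normal subgroup with cyclic quotient. -/
theorem result {S : Type*} [Group S] [Finite S] (h2 : IsPGroup 2 S) (hr : Cfsg.SectionalPRankLE 2 2 S) : Cfsg.IsMetacyclic S :=
  main _ S rfl h2 (sqBound_of_sectional hr)

end Cfsg.Agent.S4397
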