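import Mathlib
import Cfsg.Statements.S4398
import Cfsg.Agent.S4397
import Cfsg.Agent.Lib.CycMax2

set_option autoImplicit false
open Cfsg

namespace Cfsg.Agent.S4398

open Cfsg.Agent.Lib.CycMax2

variable {S : Type*} [Group S]

/-- A metacyclic `2`-group containing a nonabelian subgroup of order `8` has a cyclic subgroup of
index two with the right action. -/
theorem of_metacyclic [Finite S] (h2 : IsPGroup 2 S) (hm : IsMetacyclic S) (H : Subgroup S)
    (hH8 : Nat.card H = 8) (p q : S) (hp : p ∈ H) (hq : q ∈ H) (hpq : p * q ≠ q * p) : Concl S := by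
  classical
  obtain ⟨N, hN, hc1, hc2⟩ := hm
  obtain ⟨⟨x, hx⟩, hxg⟩ := hc1.exists_generator
  have hNx : ∀ y ∈ N, y ∈ Subgroup.zpowers x := by
    intro y hy
    obtain ⟨i, hi⟩ := Subgroup.mem_zpowers_iff.1 (hxg ⟨y, hy⟩)
    have := congrArg Subtype.val hi
    simp only [SubgroupClass.coe_zpow] at this
    rw [← this]
    exact zpow_mem (Subgroup.mem_zpowers x) i
  have hNcomm : ∀ y ∈ N, ∀ y' ∈ N, y * y' = y' * y := by
    intro y hy y' hy'
    obtain ⟨i, rfl⟩ := Subgroup.mem_zpowers_iff.1 (hNx y hy)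
    obtain ⟨j, rfl⟩ := Subgroup.mem_zpowers_iff.1 (hNx y' hy')
    exact (Commute.refl x).zpow_zpow i j
  -- the image of `H` in the quotient is cyclic
  obtain ⟨h₀, hh₀, hh₀g⟩ : ∃ h₀ ∈ H, ∀ h ∈ H, ∃ i : ℤ, h₀⁻¹ ^ i * h ∈ N := by
    have hc3 : IsCyclic ↥(H.map (QuotientGroup.mk' N)) := Subgroup.isCyclic _
    obtain ⟨⟨t, ht⟩, htg⟩ := hc3.exists_generator
    obtain ⟨h₀, hh₀, rfl⟩ := Subgroup.mem_map.1 ht
    refine ⟨h₀, hh₀, ?_⟩
    intro h hh
    obtain ⟨i, hi⟩ := Subgroup.mem_zpowers_iff.1 (htg ⟨_, Subgroup.mem_map_of_mem _ hh⟩)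
    refine ⟨i, ?_⟩
    have hi' := congrArg Subtype.val hi
    simp only [SubgroupClass.coe_zpow] at hi'
    rw [← QuotientGroup.eq_one_iff]
    have e : (QuotientGroup.mk (h₀⁻¹ ^ i * h) : S ⧸ N) =
        ((QuotientGroup.mk' N h₀) ^ i)⁻¹ * QuotientGroup.mk' N h := by
      simp
    rw [e, hi']
    exact inv_mul_cancel _
  -- `H` is not commutative modulo central parts of `H ∩ N`
  have hnotcen : ¬ ∀ y ∈ H ⊓ N, ∀ h ∈ H, y * h = h * y := by
    intro hcen
    apply hpq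
    obtain ⟨i, hi⟩ := hh₀g p hp
    obtain ⟨j, hj⟩ := hh₀g q hq
    have hpH : h₀⁻¹ ^ i * p ∈ H := mul_mem (zpow_mem (inv_mem hh₀) i) hp
    have hqH : h₀⁻¹ ^ j * q ∈ H := mul_mem (zpow_mem (inv_mem hh₀) j) hq
    have e1 : p = h₀ ^ i * (h₀⁻¹ ^ i * p) := by
      rw [inv_zpow, mul_inv_cancel_left]
    have e2 : q = h₀ ^ j * (h₀⁻¹ ^ j * q) := by
      rw [inv_zpow, mul_inv_cancel_left]
    generalize h₀⁻¹ ^ i * p = y at e1 hi hpH
    generalize h₀⁻¹ ^ j * q = y' at e2 hj hqH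
    have hy : Commute y (h₀ ^ j) := hcen y ⟨hpH, hi⟩ _ (zpow_mem hh₀ j)
    have hy' : Commute y' (h₀ ^ i) := hcen y' ⟨hqH, hj⟩ _ (zpow_mem hh₀ i)
    have hyy : Commute y y' := hcen y ⟨hpH, hi⟩ _ hqH
    have hh : Commute (h₀ ^ i) (h₀ ^ j) := (Commute.refl h₀).zpow_zpow i j
    rw [e1, e2]
    exact ((hh.mul_right hy'.symm).mul_left (hy.mul_right hyy) : Commute _ _)
  -- the size of `H ∩ N`
  have hH₀dvd : Nat.card ↥(H ⊓ N) ∣ 2 ^ 3 := by
    have := Subgroup.card_dvd_of_le (inf_le_left : H ⊓ N ≤ H)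
    rw [hH8] at this
    exact this
  obtain ⟨e, he, hcardH₀⟩ := (Nat.dvd_prime_pow Nat.prime_two).1 hH₀dvd
  have hconjH₀ : ∀ y ∈ H ⊓ N, ∀ h ∈ H, h * y * h⁻¹ ∈ H ⊓ N := by
    intro y hy h hh
    exact Subgroup.mem_inf.2 ⟨mul_mem (mul_mem hh (Subgroup.mem_inf.1 hy).1) (inv_mem hh),
      hN.conj_mem y (Subgroup.mem_inf.1 hy).2 h⟩
  have hcard4 : Nat.card ↥(H ⊓ N) = 4 := by
    have he' : e = 0 ∨ e = 1 ∨ e = 2 ∨ e = 3 := by omega
    rcases he' with rfl | rfl | rfl | rfl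
    · exfalso
      apply hnotcen
      have hbot : H ⊓ N = ⊥ := Subgroup.card_eq_one.1 (by simpa using hcardH₀)
      intro y hy h _
      rw [hbot, Subgroup.mem_bot] at hy
      rw [hy, one_mul, mul_one]
    · exfalso
      apply hnotcen
      intro y hy h hh
      by_cases hy1 : y = 1
      · rw [hy1, one_mul, mul_one]
      have h2' : Nat.card ↥(H ⊓ N) = 2 := by simpa using hcardH₀
      obtain ⟨y₀, -, huniq⟩ := (Nat.card_eq_two_iff' (1 : ↥(H ⊓ N))).1 h2'
      have e1 : (⟨y, hy⟩ : ↥(H ⊓ N)) ≠ 1 := fun h5 => hy1 (congrArg Subtype.val h5)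
      have e2 : (⟨h * y * h⁻¹, hconjH₀ y hy h hh⟩ : ↥(H ⊓ N)) ≠ 1 := by
        intro h5
        apply hy1
        have h6 : h * y * h⁻¹ = 1 := congrArg Subtype.val h5
        have : y = h⁻¹ * (h * y * h⁻¹) * h := by group
        rw [this, h6]
        group
      have h7 := (huniq _ e1).trans (huniq _ e2).symm
      have h8 : y = h * y * h⁻¹ := congrArg Subtype.val h7
      calc y * h = (h * y * h⁻¹) * h := by rw [← h8]
        _ = h * y := by group
    · simpa using hcardH₀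
    · exfalso
      have h5 : H ⊓ N = H := by
        apply Subgroup.eq_of_le_of_card_ge inf_le_left
        rw [hH8, hcardH₀]
        norm_num
      have hp' : p ∈ H ⊓ N := by rw [h5]; exact hp
      have hq' : q ∈ H ⊓ N := by rw [h5]; exact hq
      exact hpq (hNcomm p hp'.2 q hq'.2)
  -- a generator of `H ∩ N`
  have hc₀ : IsCyclic ↥(H ⊓ N) := by
    have : IsCyclic ↥((H ⊓ N).subgroupOf N) := Subgroup.isCyclic _
    have e : ↥((H ⊓ N).subgroupOf N) ≃* ↥(H ⊓ N) :=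
      Subgroup.subgroupOfEquivOfLe inf_le_right
    exact isCyclic_of_surjective e e.surjective
  obtain ⟨⟨u, hu⟩, hug⟩ := hc₀.exists_generator
  have hug' : ∀ y ∈ H ⊓ N, ∃ i : ℤ, u ^ i = y := by
    intro y hy
    obtain ⟨i, hi⟩ := Subgroup.mem_zpowers_iff.1 (hug ⟨y, hy⟩)
    exact ⟨i, by simpa using congrArg Subtype.val hi⟩
  have hu4 : orderOf u = 4 := by
    have h5 := orderOf_eq_card_of_forall_mem_zpowers hug
    rw [hcard4] at h5
    rwa [Subgroup.orderOf_mk] at h5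
  have huN : u ∈ N := hu.2
  have huH : u ∈ H := hu.1
  have hu4' : u ^ 4 = 1 := by rw [← hu4, pow_orderOf_eq_one]
  have hu2 : u ^ 2 ≠ 1 := by
    intro h5
    have := orderOf_dvd_of_pow_eq_one h5
    rw [hu4] at this
    omega
  -- index two in `H`
  have hidx : ((H ⊓ N).subgroupOf H).index = 2 := by
    have h5 := Cfsg.Agent.Lib.SectRank.card_eq_relIndex_mul (inf_le_left : H ⊓ N ≤ H)
    rw [hH8, hcard4] at h5
    change (H ⊓ N).relIndex H = 2
    omega
  obtain ⟨v, hvH, hvH₀⟩ : ∃ v ∈ H, v ∉ H ⊓ N := by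
    by_contra hcon
    push Not at hcon
    have h5 : Nat.card H ≤ Nat.card ↥(H ⊓ N) := Subgroup.card_le_of_le hcon
    omega
  have hvN : v ∉ N := fun h5 => hvH₀ ⟨hvH, h5⟩
  have hvv : v * v ∈ H ⊓ N :=
    Subgroup.mul_self_mem_of_index_two hidx (⟨v, hvH⟩ : H)
  have hcases : ∀ h ∈ H, h ∈ H ⊓ N ∨ v⁻¹ * h ∈ H ⊓ N := by
    intro h hh
    by_cases h5 : h ∈ H ⊓ N
    · exact Or.inl h5
    · right
      have h6 := Subgroup.mul_mem_iff_of_index_two hidx (a := (⟨v⁻¹, inv_mem hvH⟩ : H)) (b := ⟨h, hh⟩)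
      have h7 : (⟨v⁻¹, inv_mem hvH⟩ : H) ∉ (H ⊓ N).subgroupOf H := by
        intro h8
        apply hvH₀
        have h9 : v⁻¹ ∈ H ⊓ N := h8
        simpa using inv_mem h9
      have h8 : (⟨h, hh⟩ : H) ∉ (H ⊓ N).subgroupOf H := h5
      exact h6.2 (by simp only [h7, h8])
  -- `v` inverts `u`
  have hinv : v * u * v⁻¹ = u⁻¹ := by
    obtain ⟨k, hk⟩ := hug' _ (hconjH₀ u hu v hvH)
    have hmod : k % 4 = 0 ∨ k % 4 = 1 ∨ k % 4 = 2 ∨ k % 4 = 3 := by omega
    have hred : u ^ k = u ^ (k % 4) := by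
      conv_lhs => rw [← Int.mul_ediv_add_emod k 4]
      rw [zpow_add, zpow_mul]
      have : u ^ (4 : ℤ) = 1 := by exact_mod_cast hu4'
      rw [this, one_zpow, one_mul]
    have hsqconj : (v * u * v⁻¹) ^ 2 ≠ 1 := by
      rw [conj_pow]
      intro h5
      apply hu2
      have : u ^ 2 = v⁻¹ * (v * u ^ 2 * v⁻¹) * v := by group
      rw [this, h5]
      group
    rcases hmod with h5 | h5 | h5 | h5
    · exfalso
      rw [← hk, hred, h5] at hsqconj
      simp at hsqconj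
    · exfalso
      rw [hred, h5, zpow_one] at hk
      apply hnotcen
      have hvu : Commute v u := by
        have : v * u = u * v := by
          calc v * u = (v * u * v⁻¹) * v := by group
            _ = u * v := by rw [← hk]
        exact this
      intro y hy h hh
      obtain ⟨i, rfl⟩ := hug' y hy
      rcases hcases h hh with h6 | h6
      · obtain ⟨j, rfl⟩ := hug' h h6
        exact (Commute.refl u).zpow_zpow i j
      · obtain ⟨j, hj⟩ := hug' _ h6
        have e : h = v * u ^ j := by rw [hj]; group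
        rw [e]
        exact Commute.mul_right (hvu.zpow_right i).symm ((Commute.refl u).zpow_zpow i j)
    · exfalso
      rw [← hk, hred, h5] at hsqconj
      apply hsqconj
      have : (u ^ (2 : ℤ)) ^ 2 = u ^ 4 := by
        rw [← zpow_natCast, ← zpow_mul, ← zpow_natCast]
        rfl
      rw [this, hu4']
    · rw [← hk, hred, h5]
      have h3 : u ^ (3 : ℤ) * u = 1 := by
        rw [← zpow_add_one]
        exact_mod_cast hu4'
      exact eq_inv_of_mul_eq_one_left h3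
  -- the action of the group on `N`
  have hx1 : x ≠ 1 := by
    rintro rfl
    have h5 := hNx u huN
    simp only [Subgroup.zpowers_one_eq_bot, Subgroup.mem_bot] at h5
    rw [h5] at hu4
    simp at hu4
  obtain ⟨m, hm⟩ := IsPGroup.iff_orderOf.1 h2 x
  have hact : ∀ g : S, ∃ s : ℕ, s % 2 = 1 ∧ g * x * g⁻¹ = x ^ s := by
    intro g
    have h5 := hNx _ (hN.conj_mem x hx g)
    rw [← (isOfFinOrder_of_finite x).mem_powers_iff_mem_zpowers] at h5
    obtain ⟨s, hs⟩ := (Submonoid.mem_powers_iff _ _).1 h5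
    refine ⟨s, ?_, hs.symm⟩
    by_contra h6
    have hm0 : m ≠ 0 := by
      rintro rfl
      exact hx1 (orderOf_eq_one_iff.1 (by simpa using hm))
    obtain ⟨m', rfl⟩ : ∃ m', m = m' + 1 := ⟨m - 1, by omega⟩
    have hord : orderOf (g * x * g⁻¹) = orderOf x :=
      orderOf_injective (MulAut.conj g).toMonoidHom (MulAut.conj g).injective x
    have h7 : (g * x * g⁻¹) ^ (2 ^ m') = 1 := by
      rw [← hs]
      obtain ⟨s', rfl⟩ : ∃ s', s = 2 * s' := ⟨s / 2, by omega⟩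
      rw [← pow_mul]
      have e : 2 * s' * 2 ^ m' = 2 ^ (m' + 1) * s' := by ring
      rw [e, pow_mul, ← hm, pow_orderOf_eq_one, one_pow]
    have h8 := orderOf_dvd_of_pow_eq_one h7
    rw [hord, hm] at h8
    have := (Nat.pow_dvd_pow_iff_le_right (by norm_num : 1 < 2)).1 h8
    omega
  obtain ⟨j, hj⟩ := Subgroup.mem_zpowers_iff.1 (hNx u huN)
  have hgu : ∀ (g : S) (s : ℕ), g * x * g⁻¹ = x ^ s → g * u * g⁻¹ = u ^ s := by
    intro g s hs
    rw [← hj, ← conj_zpow, hs, ← zpow_natCast x s, ← zpow_natCast, ← zpow_mul, ← zpow_mul, mul_comm]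
  have hsqfix : ∀ g : S, (g * g) * u * (g * g)⁻¹ = u := by
    intro g
    obtain ⟨s, hs, hgs⟩ := hact g
    have h5 : (g * g) * u * (g * g)⁻¹ = g * (g * u * g⁻¹) * g⁻¹ := by group
    rw [h5, hgu g s hgs, ← conj_pow, hgu g s hgs, ← pow_mul]
    obtain ⟨t, rfl⟩ : ∃ t, s = 2 * t + 1 := ⟨s / 2, by omega⟩
    have e : (2 * t + 1) * (2 * t + 1) = 4 * (t * t + t) + 1 := by ring
    rw [e, pow_succ, pow_mul, hu4', one_pow, one_mul]
  have hcontra : ∀ g n : S, n ∈ N → v = g * g * n → False := by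
    intro g n hn hv
    apply hu2
    have h5 : v * u * v⁻¹ = u := by
      rw [hv]
      have e : g * g * n * u * (g * g * n)⁻¹ = (g * g) * (n * u * n⁻¹) * (g * g)⁻¹ := by group
      have e2 : n * u * n⁻¹ = u := by
        rw [hNcomm n hn u huN]
        group
      rw [e, e2, hsqfix]
    rw [hinv] at h5
    rw [sq]
    nth_rewrite 1 [← h5]
    group
  -- the quotient has order two
  obtain ⟨t, htg⟩ := hc2.exists_generator
  obtain ⟨g₀, rfl⟩ := QuotientGroup.mk_surjective t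
  obtain ⟨i, hi⟩ := Subgroup.mem_zpowers_iff.1 (htg (QuotientGroup.mk v))
  have hmkv : (QuotientGroup.mk v : S ⧸ N) ≠ 1 := fun h5 => hvN ((QuotientGroup.eq_one_iff v).1 h5)
  have hmkvv : (QuotientGroup.mk g₀ : S ⧸ N) ^ (2 * i) = 1 := by
    rw [mul_comm, zpow_mul, hi]
    have : (QuotientGroup.mk v : S ⧸ N) * QuotientGroup.mk v = 1 :=
      (QuotientGroup.eq_one_iff (v * v)).2 hvv.2
    rw [← this]
    exact zpow_two _
  have hieven : i % 2 = 1 := by
    by_contra h5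
    obtain ⟨i', rfl⟩ : ∃ i', i = 2 * i' := ⟨i / 2, by omega⟩
    refine hcontra (g₀ ^ i') ((g₀ ^ i' * g₀ ^ i')⁻¹ * v) ?_ (by group)
    rw [← QuotientGroup.eq_one_iff]
    have e : (QuotientGroup.mk ((g₀ ^ i' * g₀ ^ i')⁻¹ * v) : S ⧸ N) =
        ((QuotientGroup.mk g₀ : S ⧸ N) ^ (2 * i'))⁻¹ * QuotientGroup.mk v := by
      rw [QuotientGroup.mk_mul, QuotientGroup.mk_inv, QuotientGroup.mk_mul, QuotientGroup.mk_zpow,
        two_mul, zpow_add]
    rw [e, hi]
    exact inv_mul_cancel _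
  have ht2 : (QuotientGroup.mk g₀ : S ⧸ N) ^ 2 = 1 := by
    obtain ⟨l, hl⟩ := IsPGroup.iff_orderOf.1 (h2.to_quotient N) ((QuotientGroup.mk g₀ : S ⧸ N) ^ 2)
    have h5 : ((QuotientGroup.mk g₀ : S ⧸ N) ^ 2) ^ i = 1 := by
      rw [← zpow_natCast, ← zpow_mul]
      exact hmkvv
    have h6 := orderOf_dvd_iff_zpow_eq_one.2 h5
    rw [hl] at h6
    by_cases hl0 : l = 0
    · subst hl0
      exact orderOf_eq_one_iff.1 (by simpa using hl)
    · exfalso
      have h7 : (2 : ℤ) ∣ i := by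
        refine dvd_trans ?_ h6
        have : 2 ∣ 2 ^ l := dvd_pow_self 2 hl0
        exact_mod_cast this
      omega
  have ht1 : (QuotientGroup.mk g₀ : S ⧸ N) ≠ 1 := by
    intro h5
    apply hmkv
    rw [← hi, h5, one_zpow]
  have hcardq : Nat.card (S ⧸ N) = 2 := by
    rw [← orderOf_eq_card_of_forall_mem_zpowers htg]
    exact orderOf_eq_prime ht2 ht1
  -- conclusion
  have hNeq : N = Subgroup.zpowers x := by
    apply le_antisymm
    · exact hNx
    · exact Subgroup.zpowers_le.2 hx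
  have hm2 : 2 ≤ m := by
    have h5 : orderOf u ∣ orderOf x := orderOf_dvd_of_mem_zpowers (hNx u huN)
    rw [hu4, hm, show 4 = 2 ^ 2 from rfl] at h5
    exact (Nat.pow_dvd_pow_iff_le_right (by norm_num : 1 < 2)).1 h5
  have hcardS : Nat.card S = 2 ^ (m + 1) := by
    have h5 := Subgroup.card_mul_index N
    rw [hNeq] at h5
    rw [Nat.card_zpowers, hm] at h5
    have h6 : (Subgroup.zpowers x).index = 2 := by
      rw [← hNeq]; exact hcardq
    rw [h6] at h5
    rw [← h5, pow_succ]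
  obtain ⟨r, hr, hvr⟩ := hact v
  have hr4 : r % 4 = 3 := by
    by_contra h5
    obtain ⟨r', rfl⟩ : ∃ r', r = 4 * r' + 1 := ⟨r / 4, by omega⟩
    have h6 := hgu v _ hvr
    rw [pow_succ, pow_mul, hu4', one_pow, one_mul, hinv] at h6
    apply hu2
    rw [sq]
    nth_rewrite 1 [← h6]
    group
  exact classify m hm2 x v hm hcardS (hNeq ▸ hvN) r hr4 hvr

/-- Statement. -/
theorem result {S : Type*} [Group S] [Finite S] (h2 : IsPGroup 2 S) (hr : Cfsg.SectionalPRankLE 2 2 S)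
    (hsub : ∃ H : Subgroup S, Nonempty (↥H ≃* DihedralGroup 4) ∨ Nonempty (↥H ≃* QuaternionGroup 2)) :
    ((∃ k : ℕ, Nonempty (S ≃* DihedralGroup (2 ^ (k + 2)))) ∨
      (∃ k : ℕ, Nat.card S = 2 ^ (k + 4) ∧ ∃ a b : S, orderOf a = 2 ^ (k + 3) ∧ orderOf b = 2 ∧ b * a * b⁻¹ = a ^ (2 ^ (k + 2) - 1)) ∨
      (∃ k : ℕ, Nonempty (S ≃* QuaternionGroup (2 ^ (k + 1))))) := by
  have hm := Cfsg.Agent.S4397.result h2 hr
  obtain ⟨H, ⟨⟨e⟩⟩ | ⟨⟨e⟩⟩⟩ := hsub
  · refine of_metacyclic h2 hm H ?_ (e.symm (DihedralGroup.r 1)) (e.symm (DihedralGroup.sr 0)) (SetLike.coe_mem _) (SetLike.coe_mem _) ?_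
    · rw [Nat.card_congr e.toEquiv, DihedralGroup.nat_card]
    · intro h
      have h1 : e.symm (DihedralGroup.r 1) * e.symm (DihedralGroup.sr 0) =
          e.symm (DihedralGroup.sr 0) * e.symm (DihedralGroup.r 1) := Subtype.ext h
      rw [← map_mul, ← map_mul] at h1
      have h3 := e.symm.injective h1
      exact absurd h3 (by decide)
  · refine of_metacyclic h2 hm H ?_ (e.symm (QuaternionGroup.a 1)) (e.symm (QuaternionGroup.xa 0)) (SetLike.coe_mem _) (SetLike.coe_mem _) ?_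
    · rw [Nat.card_congr e.toEquiv, Nat.card_eq_fintype_card, QuaternionGroup.card]
    · intro h
      have h1 : e.symm (QuaternionGroup.a 1) * e.symm (QuaternionGroup.xa 0) =
          e.symm (QuaternionGroup.xa 0) * e.symm (QuaternionGroup.a 1) := Subtype.ext h
      rw [← map_mul, ← map_mul] at h1
      have h3 := e.symm.injective h1
      exact absurd h3 (by decide)

end Cfsg.Agent.S4398
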