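import Mathlib
import Cfsg.Statements.S4399
import Cfsg.Agent.S4397
import Cfsg.Agent.Lib.CycMax2
import Cfsg.Agent.Lib.PGroupAct
import Cfsg.Agent.Lib.SectRank

set_option autoImplicit false
open Cfsg

namespace Cfsg.Agent.S4399

universe u

open Cfsg.Agent.Lib.CycMax2 Cfsg.Agent.Lib.Replacement
open scoped commutatorElement

variable {S : Type u} [Group S]

/-- If `A` is an abelian normal subgroup generated by `a` and a central involution, with cyclic quotient
generated by `b`, then the commutator subgroup is generated by `[a, b]`. -/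
lemma commutators_in_zpowers [Finite S] (a b z : S) (A : Subgroup S) (hAn : A.Normal) (haA : a ∈ A)
    (hA : ∀ y ∈ A, ∃ i : ℤ, y = a ^ i ∨ y = a ^ i * z)
    (hzcomm : ∀ g : S, z * g = g * z)
    (hAcomm : ∀ y ∈ A, ∀ y' ∈ A, y * y' = y' * y)
    (hgen : ∀ g : S, ∃ i : ℤ, ∃ y ∈ A, g = b ^ i * y) (u v : S) :
    ⁅u, v⁆ ∈ Subgroup.zpowers ⁅a, b⁆ := by
  set c := ⁅a, b⁆ with hc
  have hcdef : c = a * (b * a⁻¹ * b⁻¹) := by rw [hc, commutatorElement_def]; group
  have hconjA : ∀ y ∈ A, b * y⁻¹ * b⁻¹ ∈ A := fun y hy => hAn.conj_mem _ (inv_mem hy) b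
  have hcA : c ∈ A := by
    rw [hcdef]
    exact mul_mem haA (hconjA a haA)
  have hcomm_zpow : ∀ i : ℤ, ⁅a ^ i, b⁆ = c ^ i := by
    intro i
    have e : Commute a (b * a⁻¹ * b⁻¹) := hAcomm a haA _ (hconjA a haA)
    rw [hcdef, e.mul_zpow, commutatorElement_def, conj_zpow, inv_zpow]
    group
  have hW1 : ∀ y ∈ A, ⁅y, b⁆ ∈ Subgroup.zpowers c := by
    intro y hy
    obtain ⟨i, hi⟩ := hA y hy
    have e : ⁅y, b⁆ = ⁅a ^ i, b⁆ := by
      rcases hi with rfl | rfl
      · rfl
      · rw [commutatorElement_def, commutatorElement_def]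
        have : a ^ i * z * b * (a ^ i * z)⁻¹ * b⁻¹ = a ^ i * (z * b * z⁻¹) * (a ^ i)⁻¹ * b⁻¹ := by
          group
        rw [this, hzcomm b]
        group
    rw [e, hcomm_zpow]
    exact zpow_mem (Subgroup.mem_zpowers c) i
  have hbW : b ∈ Subgroup.normalizer ((Subgroup.zpowers c : Subgroup S) : Set S) := by
    apply mem_normalizer_of_forall
    intro t ht
    obtain ⟨i, rfl⟩ := Subgroup.mem_zpowers_iff.1 ht
    rw [← conj_zpow]
    apply zpow_mem
    have : b * c * b⁻¹ = ⁅b * a * b⁻¹, b⁆ := by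
      rw [hc, commutatorElement_def, commutatorElement_def]
      group
    rw [this]
    exact hW1 _ (hAn.conj_mem _ haA b)
  have hAW : ∀ y ∈ A, y ∈ Subgroup.normalizer ((Subgroup.zpowers c : Subgroup S) : Set S) := by
    intro y hy
    apply mem_normalizer_of_forall
    intro t ht
    obtain ⟨i, rfl⟩ := Subgroup.mem_zpowers_iff.1 ht
    have : y * c ^ i * y⁻¹ = c ^ i := by
      rw [hAcomm y hy (c ^ i) (zpow_mem hcA i)]
      group
    rw [this]
    exact ht
  have hWn : (Subgroup.zpowers c).Normal := by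
    apply Subgroup.normalizer_eq_top_iff.1
    rw [eq_top_iff]
    rintro g -
    obtain ⟨i, y, hy, rfl⟩ := hgen g
    exact mul_mem (zpow_mem hbW i) (hAW y hy)
  have hby : ∀ y ∈ A, Commute (QuotientGroup.mk y : S ⧸ Subgroup.zpowers c) (QuotientGroup.mk b) := by
    intro y hy
    have h1 : (QuotientGroup.mk ⁅y, b⁆ : S ⧸ Subgroup.zpowers c) = 1 :=
      (QuotientGroup.eq_one_iff _).2 (hW1 y hy)
    have h2 : y * b = ⁅y, b⁆ * (b * y) := by
      rw [commutatorElement_def]; group
    change (QuotientGroup.mk y : S ⧸ Subgroup.zpowers c) * QuotientGroup.mk b =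
      QuotientGroup.mk b * QuotientGroup.mk y
    rw [← QuotientGroup.mk_mul, h2, QuotientGroup.mk_mul, h1, one_mul, QuotientGroup.mk_mul]
  have hyy : ∀ y ∈ A, ∀ y' ∈ A,
      Commute (QuotientGroup.mk y : S ⧸ Subgroup.zpowers c) (QuotientGroup.mk y') := by
    intro y hy y' hy'
    change (QuotientGroup.mk y : S ⧸ Subgroup.zpowers c) * QuotientGroup.mk y' =
      QuotientGroup.mk y' * QuotientGroup.mk y
    rw [← QuotientGroup.mk_mul, hAcomm y hy y' hy', QuotientGroup.mk_mul]
  have key : ∀ u v : S, Commute (QuotientGroup.mk u : S ⧸ Subgroup.zpowers c) (QuotientGroup.mk v) := by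
    intro u v
    obtain ⟨i, y, hy, rfl⟩ := hgen u
    obtain ⟨j, y', hy', rfl⟩ := hgen v
    rw [QuotientGroup.mk_mul, QuotientGroup.mk_mul, QuotientGroup.mk_zpow, QuotientGroup.mk_zpow]
    refine Commute.mul_left (Commute.mul_right ((Commute.refl _).zpow_zpow i j) ?_)
      (Commute.mul_right ?_ (hyy y hy y' hy'))
    · exact ((hby y' hy').symm).zpow_left i
    · exact (hby y hy).zpow_right j
  rw [← QuotientGroup.eq_one_iff]
  have e : (QuotientGroup.mk ⁅u, v⁆ : S ⧸ Subgroup.zpowers c) =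
      (QuotientGroup.mk u) * QuotientGroup.mk v * (QuotientGroup.mk u)⁻¹ * (QuotientGroup.mk v)⁻¹ := by
    rw [commutatorElement_def]
    rfl
  rw [e, (key u v).eq]
  group

lemma commutator_eq_bot_of_comm (h : ∀ x y : S, x * y = y * x) : commutator S = ⊥ := by
  rw [commutator_def, eq_bot_iff, Subgroup.commutator_le]
  intro g₁ _ g₂ _
  rw [Subgroup.mem_bot, commutatorElement_eq_one_iff_mul_comm]
  exact h g₁ g₂

/-- Nonabelian groups of order eight have a cyclic subgroup of index two. -/
lemma exists_of_card_eight [Finite S] (h2 : IsPGroup 2 S) (hc : Nat.card S = 8)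
    (hne : commutator S ≠ ⊥) : ∃ a : S, (Subgroup.zpowers a).index = 2 := by
  obtain ⟨x, hx⟩ : ∃ x : S, x ^ 2 ≠ 1 := by
    by_contra hcon
    push Not at hcon
    exact hne (commutator_eq_bot_of_comm (Cfsg.Agent.Lib.SectRank.comm_of_exp_two hcon))
  obtain ⟨k, hk⟩ := IsPGroup.iff_orderOf.1 h2 x
  have hdvd : orderOf x ∣ 2 ^ 3 := by
    have := orderOf_dvd_natCard x
    rwa [hc] at this
  have hk3 : k ≤ 3 := by
    rw [hk] at hdvd
    exact (Nat.pow_dvd_pow_iff_le_right (by norm_num : 1 < 2)).1 hdvd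
  have hcases : k = 0 ∨ k = 1 ∨ k = 2 ∨ k = 3 := by omega
  rcases hcases with rfl | rfl | rfl | rfl
  · exfalso
    apply hx
    have h1 : x = 1 := orderOf_eq_one_iff.1 (by simpa using hk)
    rw [h1]
    simp
  · exfalso
    apply hx
    have : orderOf x = 2 := by simpa using hk
    rw [← this, pow_orderOf_eq_one]
  · refine ⟨x, ?_⟩
    have h1 := Subgroup.card_mul_index (Subgroup.zpowers x)
    rw [Nat.card_zpowers, hk, hc] at h1
    omega
  · exfalso
    apply hne
    have hcyc : IsCyclic S := by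
      apply isCyclic_of_orderOf_eq_card x
      rw [hk, hc]
      rfl
    exact commutator_eq_bot_of_comm (fun u v => by
      obtain ⟨i, rfl⟩ := Subgroup.mem_zpowers_iff.1 ((hcyc.exists_generator.choose_spec) u)
      obtain ⟨j, rfl⟩ := Subgroup.mem_zpowers_iff.1 ((hcyc.exists_generator.choose_spec) v)
      exact (Commute.refl _).zpow_zpow i j)

/-- Existence of a cyclic subgroup of index two. -/
theorem exists_cyclic_max : ∀ (n : ℕ) (S : Type u) [Group S] [Finite S], Nat.card S = n → IsPGroup 2 S →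
    (commutator S).index = 4 → (∀ x : S, x ^ 2 ∈ commutator S) → 8 ≤ n →
    ∃ a : S, (Subgroup.zpowers a).index = 2 := by
  intro n
  induction n using Nat.strong_induction_on with
  | _ n ih =>
    intro S _ _ hn h2 hI hE h8
    have hf2 : Fact (Nat.Prime 2) := ⟨Nat.prime_two⟩
    have hne : commutator S ≠ ⊥ := by
      intro h
      rw [h, Subgroup.index_bot, hn] at hI
      omega
    obtain ⟨w₀, hw₀M, hw₀1, hw₀c⟩ := Cfsg.Agent.Lib.PGroupAct.exists_central_elt (⊤ : Subgroup S)
      (commutator S) (h2.to_subgroup ⊤) le_top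
      (fun a _ w hw => (inferInstance : (commutator S).Normal).conj_mem w hw a) hne
    obtain ⟨k, hk⟩ := IsPGroup.iff_orderOf.1 h2 w₀
    have hk0 : k ≠ 0 := by
      rintro rfl
      exact hw₀1 (orderOf_eq_one_iff.1 (by simpa using hk))
    obtain ⟨k', rfl⟩ : ∃ k', k = k' + 1 := ⟨k - 1, by omega⟩
    let z := w₀ ^ (2 ^ k')
    have hz2 : z ^ 2 = 1 := by
      simp only [z]
      rw [← pow_mul, ← pow_succ, ← hk, pow_orderOf_eq_one]
    have hz1 : z ≠ 1 := by
      intro h
      have := orderOf_dvd_of_pow_eq_one h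
      rw [hk] at this
      have := (Nat.pow_dvd_pow_iff_le_right (by norm_num : 1 < 2)).1 this
      omega
    have hzM : z ∈ commutator S := pow_mem hw₀M _
    have hzcen : ∀ g : S, z * g = g * z := by
      intro g
      have : Commute w₀ g := (hw₀c g (Subgroup.mem_top g)).symm
      exact (this.pow_left _).eq
    have hNn : (Subgroup.zpowers z).Normal := by
      constructor
      intro t ht g
      obtain ⟨i, rfl⟩ := Subgroup.mem_zpowers_iff.1 ht
      have h3 : Commute z g := hzcen g
      have : g * z ^ i * g⁻¹ = z ^ i := by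
        rw [← (h3.zpow_left i).eq]
        group
      rw [this]
      exact ht
    have hozz : orderOf z = 2 := orderOf_eq_prime hz2 hz1
    let π := QuotientGroup.mk' (Subgroup.zpowers z)
    have hπ : Function.Surjective π := QuotientGroup.mk'_surjective _
    have hcomm' : commutator (S ⧸ Subgroup.zpowers z) = (commutator S).map π := by
      rw [map_commutator_eq, MonoidHom.range_eq_top.2 hπ, commutator_def]
    have hker : π.ker ≤ commutator S := by
      rw [QuotientGroup.ker_mk']
      exact Subgroup.zpowers_le.2 hzM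
    have hI' : (commutator (S ⧸ Subgroup.zpowers z)).index = 4 := by
      rw [hcomm', Subgroup.index_map_eq _ hπ hker, hI]
    have hE' : ∀ x : S ⧸ Subgroup.zpowers z, x ^ 2 ∈ commutator (S ⧸ Subgroup.zpowers z) := by
      intro x
      obtain ⟨y, rfl⟩ := hπ x
      rw [hcomm', ← map_pow]
      exact Subgroup.mem_map_of_mem _ (hE y)
    have hcardS : Nat.card S = 2 * Nat.card (S ⧸ Subgroup.zpowers z) := by
      have h1 := Subgroup.card_mul_index (Subgroup.zpowers z)
      rw [Nat.card_zpowers, hozz] at h1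
      exact h1.symm
    have hdvd4 : 4 ∣ Nat.card (S ⧸ Subgroup.zpowers z) := by
      rw [← hI']
      exact Subgroup.index_dvd_card _
    obtain ⟨l, hl⟩ := IsPGroup.iff_card.1 (h2.to_quotient (Subgroup.zpowers z))
    by_cases hq4 : Nat.card (S ⧸ Subgroup.zpowers z) = 4
    · exact exists_of_card_eight h2 (by rw [hcardS, hq4]) hne
    have hq8 : 8 ≤ Nat.card (S ⧸ Subgroup.zpowers z) := by
      obtain ⟨q, hq⟩ := hdvd4
      rw [hl] at hq hq4 ⊢
      have hl3 : 3 ≤ l := by
        by_contra hcon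
        have hl2 : l = 0 ∨ l = 1 ∨ l = 2 := by omega
        rcases hl2 with rfl | rfl | rfl
        · omega
        · omega
        · omega
      calc 8 = 2 ^ 3 := rfl
        _ ≤ 2 ^ l := Nat.pow_le_pow_right (by norm_num) hl3
    have hlt : Nat.card (S ⧸ Subgroup.zpowers z) < n := by
      rw [← hn, hcardS]
      omega
    obtain ⟨ā, hā⟩ := ih _ hlt (S ⧸ Subgroup.zpowers z) rfl (h2.to_quotient _) hI' hE' hq8
    obtain ⟨a, ha⟩ := hπ ā
    subst ha
    let A : Subgroup S := (Subgroup.zpowers (π a)).comap π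
    have hAn : A.Normal :=
      Subgroup.Normal.comap (Subgroup.normal_of_index_eq_two hā) π
    have hAidx : A.index = 2 := by
      rw [Subgroup.index_comap_of_surjective _ hπ, hā]
    have haA : a ∈ A := Subgroup.mem_zpowers (π a)
    have hzpow : ∀ y ∈ Subgroup.zpowers z, y = 1 ∨ y = z := by
      intro y hy
      obtain ⟨i, rfl⟩ := Subgroup.mem_zpowers_iff.1 hy
      have hi : i % 2 = 0 ∨ i % 2 = 1 := by omega
      have e : z ^ i = z ^ (i % 2) := by
        conv_lhs => rw [← Int.mul_ediv_add_emod i 2]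
        rw [zpow_add, zpow_mul]
        have : z ^ (2 : ℤ) = 1 := by exact_mod_cast hz2
        rw [this, one_zpow, one_mul]
      rcases hi with hi | hi
      · left; rw [e, hi, zpow_zero]
      · right; rw [e, hi, zpow_one]
    have hA : ∀ y ∈ A, ∃ i : ℤ, y = a ^ i ∨ y = a ^ i * z := by
      intro y hy
      obtain ⟨i, hi⟩ := Subgroup.mem_zpowers_iff.1 hy
      have h2' : (a ^ i)⁻¹ * y ∈ Subgroup.zpowers z := by
        have hi' : π (a ^ i) = π y := by
          rw [map_zpow]; exact hi
        exact QuotientGroup.eq.1 hi'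
      refine ⟨i, ?_⟩
      rcases hzpow _ h2' with h3 | h3
      · left
        have := mul_eq_one_iff_eq_inv.1 h3
        rw [inv_inj] at this
        exact this.symm
      · right
        rw [← h3, mul_inv_cancel_left]
    have hA' : ∀ y ∈ A, ∃ (i : ℤ) (w : S), w * w = 1 ∧ (∀ g : S, w * g = g * w) ∧ y = a ^ i * w := by
      intro y hy
      obtain ⟨i, hi | hi⟩ := hA y hy
      · exact ⟨i, 1, by simp, by simp, by simp [hi]⟩
      · exact ⟨i, z, by rw [← sq, hz2], hzcen, hi⟩
    have hAcomm : ∀ y ∈ A, ∀ y' ∈ A, y * y' = y' * y := by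
      intro y hy y' hy'
      obtain ⟨i, w, -, hw, rfl⟩ := hA' y hy
      obtain ⟨j, w', -, hw', rfl⟩ := hA' y' hy'
      have h1 : Commute (a ^ i) (a ^ j) := (Commute.refl a).zpow_zpow i j
      have hw1 : ∀ g : S, Commute w g := hw
      have hw2 : ∀ g : S, Commute w' g := hw'
      exact ((h1.mul_right (hw2 _).symm).mul_left ((hw1 _).mul_right (hw1 _)))
    by_cases hzin : z ∈ Subgroup.zpowers a
    · have hAeq : A = Subgroup.zpowers a := by
        apply le_antisymm
        · intro y hy
          obtain ⟨i, hi⟩ := hA y hy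
          rcases hi with rfl | rfl
          · exact zpow_mem (Subgroup.mem_zpowers a) i
          · exact mul_mem (zpow_mem (Subgroup.mem_zpowers a) i) hzin
        · exact (Subgroup.zpowers_le).2 haA
      exact ⟨a, hAeq ▸ hAidx⟩
    exfalso
    obtain ⟨b, hb⟩ : ∃ b, b ∉ A := by
      by_contra hcon
      push Not at hcon
      have : A = ⊤ := eq_top_iff.2 (fun x _ => hcon x)
      rw [this, Subgroup.index_top] at hAidx
      omega
    have hgen : ∀ g : S, ∃ i : ℤ, ∃ y ∈ A, g = b ^ i * y := by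
      intro g
      by_cases hg : g ∈ A
      · exact ⟨0, g, hg, by simp⟩
      · refine ⟨1, b⁻¹ * g, ?_, by simp⟩
        have hb' : b⁻¹ ∉ A := fun h => hb (by simpa using inv_mem h)
        exact (Subgroup.mul_mem_iff_of_index_two hAidx).2 (by simp only [hb', hg])
    -- orders
    obtain ⟨m, hm⟩ := IsPGroup.iff_orderOf.1 h2 a
    have hord : orderOf (π a) = orderOf a := by
      rw [orderOf_eq_orderOf_iff]
      intro t
      constructor
      · intro h5
        rw [← map_pow] at h5
        have h6 : a ^ t ∈ Subgroup.zpowers z := (QuotientGroup.eq_one_iff (a ^ t)).1 h5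
        rcases hzpow _ h6 with h7 | h7
        · exact h7
        · exact absurd (h7 ▸ pow_mem (Subgroup.mem_zpowers a) t) hzin
      · intro h5
        rw [← map_pow, h5, map_one]
    have hcardq : Nat.card (S ⧸ Subgroup.zpowers z) = 2 ^ m * 2 := by
      have h1 := Subgroup.card_mul_index (Subgroup.zpowers (π a))
      rw [Nat.card_zpowers, hord, hm, hā] at h1
      exact h1.symm
    have hm2 : 2 ≤ m := by
      rw [hcardq] at hq8
      by_contra hcon
      have : m = 0 ∨ m = 1 := by omega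
      rcases this with rfl | rfl <;> omega
    obtain ⟨m', rfl⟩ : ∃ m', m = m' + 2 := ⟨m - 2, by omega⟩
    have hcardS' : Nat.card S = 2 ^ (m' + 4) := by
      rw [hcardS, hcardq]
      ring
    -- the commutator
    have hS' := commutators_in_zpowers a b z A hAn haA hA hzcen hAcomm hgen
    set c := ⁅a, b⁆ with hc
    have hcdef : c = a * (b * a * b⁻¹)⁻¹ := by rw [hc, commutatorElement_def]; group
    obtain ⟨r, w, hww, hwc, hr⟩ := hA' _ (hAn.conj_mem a haA b)
    have hw2m : ∀ t : ℕ, w ^ (2 ^ (t + 1)) = 1 := by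
      intro t
      rw [pow_succ', pow_mul, sq, hww, one_pow]
    have hrodd : r % 2 = 1 := by
      by_contra h5
      obtain ⟨r', rfl⟩ : ∃ r', r = 2 * r' := ⟨r / 2, by omega⟩
      have hordc : orderOf (b * a * b⁻¹) = orderOf a :=
        orderOf_injective (MulAut.conj b).toMonoidHom (MulAut.conj b).injective a
      have h6 : (b * a * b⁻¹) ^ (2 ^ (m' + 1)) = 1 := by
        rw [hr]
        have hcw : Commute (a ^ (2 * r')) w := (hwc _).symm
        rw [hcw.mul_pow, hw2m, mul_one, ← zpow_natCast, ← zpow_mul]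
        have e : 2 * r' * ((2 ^ (m' + 1) : ℕ) : ℤ) = ((2 ^ (m' + 2) : ℕ) : ℤ) * r' := by
          push_cast; ring
        rw [e, zpow_mul, zpow_natCast, ← hm, pow_orderOf_eq_one, one_zpow]
      have h7 := orderOf_dvd_of_pow_eq_one h6
      rw [hordc, hm] at h7
      have := (Nat.pow_dvd_pow_iff_le_right (by norm_num : 1 < 2)).1 h7
      omega
    obtain ⟨t, rfl⟩ : ∃ t, r = 2 * t + 1 := ⟨r / 2, by omega⟩
    have hcpow : c ^ (2 ^ (m' + 1)) = 1 := by
      have hwinv : w⁻¹ = w := inv_eq_of_mul_eq_one_left hww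
      have hcform : c = (a ^ (2 * t))⁻¹ * w := by
        rw [hcdef, hr, mul_inv_rev, hwinv, zpow_add_one, mul_inv_rev, hwc]
        group
      have hcw : Commute (a ^ (2 * t))⁻¹ w := ((hwc _).symm : Commute _ _)
      rw [hcform, hcw.mul_pow, hw2m, mul_one, inv_pow, ← zpow_natCast, ← zpow_mul]
      have e : 2 * t * ((2 ^ (m' + 1) : ℕ) : ℤ) = ((2 ^ (m' + 2) : ℕ) : ℤ) * t := by
        push_cast; ring
      rw [e, zpow_mul, zpow_natCast, ← hm, pow_orderOf_eq_one, one_zpow, inv_one]
    have hle : commutator S ≤ Subgroup.zpowers c := by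
      rw [commutator_def, Subgroup.commutator_le]
      intro g₁ _ g₂ _
      exact hS' g₁ g₂
    have hc1 : Nat.card (commutator S) ≤ 2 ^ (m' + 1) := by
      have h5 := Subgroup.card_le_of_le hle
      rw [Nat.card_zpowers] at h5
      exact h5.trans (Nat.le_of_dvd (by positivity) (orderOf_dvd_of_pow_eq_one hcpow))
    have h6 := Subgroup.card_mul_index (commutator S)
    rw [hI, hcardS'] at h6
    have h7 : (2 : ℕ) ^ (m' + 4) = 2 ^ (m' + 1) * 8 := by ring
    omega

/-- Statement. -/
theorem result {S : Type*} [Group S] [Finite S] (h2 : IsPGroup 2 S) (hab : Nat.card (Abelianization S) = 4)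
    (hexp : ∀ x : Abelianization S, x ^ 2 = 1) :
    Nat.card S = 4 ∨
    ((∃ k : ℕ, Nonempty (S ≃* DihedralGroup (2 ^ (k + 2)))) ∨
      (∃ k : ℕ, Nat.card S = 2 ^ (k + 4) ∧ ∃ a b : S, orderOf a = 2 ^ (k + 3) ∧ orderOf b = 2 ∧ b * a * b⁻¹ = a ^ (2 ^ (k + 2) - 1)) ∨
      (∃ k : ℕ, Nonempty (S ≃* QuaternionGroup (2 ^ (k + 1))))) := by
  have hI : (commutator S).index = 4 := hab
  have hE : ∀ x : S, x ^ 2 ∈ commutator S := by
    intro x
    have h1 := hexp (Abelianization.of x)
    rw [← map_pow] at h1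
    exact (QuotientGroup.eq_one_iff _).1 h1
  have hcS := Subgroup.card_mul_index (commutator S)
  rw [hI] at hcS
  by_cases hbot : commutator S = ⊥
  · left
    rw [hbot, Subgroup.card_bot, one_mul] at hcS
    exact hcS.symm
  right
  have hc8 : 8 ≤ Nat.card S := by
    obtain ⟨l, hl⟩ := IsPGroup.iff_card.1 (h2.to_subgroup (commutator S))
    have hl0 : l ≠ 0 := by
      rintro rfl
      exact hbot (Subgroup.card_eq_one.1 (by simpa using hl))
    have : 2 ≤ Nat.card (commutator S) := by
      rw [hl]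
      calc 2 = 2 ^ 1 := rfl
        _ ≤ 2 ^ l := Nat.pow_le_pow_right (by norm_num) (by omega)
    omega
  obtain ⟨a, ha⟩ := exists_cyclic_max _ S rfl h2 hI hE hc8
  obtain ⟨m, hm⟩ := IsPGroup.iff_orderOf.1 h2 a
  have hcardS : Nat.card S = 2 ^ (m + 1) := by
    have h1 := Subgroup.card_mul_index (Subgroup.zpowers a)
    rw [Nat.card_zpowers, hm, ha] at h1
    rw [← h1, pow_succ]
  have hm2 : 2 ≤ m := by
    rw [hcardS] at hc8
    by_contra hcon
    have : m = 0 ∨ m = 1 := by omega
    rcases this with rfl | rfl <;> omega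
  obtain ⟨m', rfl⟩ : ∃ m', m = m' + 2 := ⟨m - 2, by omega⟩
  obtain ⟨b, hb⟩ : ∃ b, b ∉ Subgroup.zpowers a := by
    by_contra hcon
    push Not at hcon
    have : Subgroup.zpowers a = ⊤ := eq_top_iff.2 (fun x _ => hcon x)
    rw [this, Subgroup.index_top] at ha
    omega
  have hNa : (Subgroup.zpowers a).Normal := Subgroup.normal_of_index_eq_two ha
  have hfin : IsOfFinOrder a := isOfFinOrder_of_finite a
  obtain ⟨r, hr⟩ : ∃ r : ℕ, a ^ r = b * a * b⁻¹ := by
    have h1 := hNa.conj_mem a (Subgroup.mem_zpowers a) b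
    rw [← hfin.mem_powers_iff_mem_zpowers] at h1
    exact (Submonoid.mem_powers_iff _ _).1 h1
  have hrodd : r % 2 = 1 := by
    by_contra h5
    obtain ⟨r', rfl⟩ : ∃ r', r = 2 * r' := ⟨r / 2, by omega⟩
    have hordc : orderOf (b * a * b⁻¹) = orderOf a :=
      orderOf_injective (MulAut.conj b).toMonoidHom (MulAut.conj b).injective a
    have h6 : (b * a * b⁻¹) ^ (2 ^ (m' + 1)) = 1 := by
      rw [← hr, ← pow_mul]
      have e : 2 * r' * 2 ^ (m' + 1) = 2 ^ (m' + 2) * r' := by ring
      rw [e, pow_mul, ← hm, pow_orderOf_eq_one, one_pow]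
    have h7 := orderOf_dvd_of_pow_eq_one h6
    rw [hordc, hm] at h7
    have := (Nat.pow_dvd_pow_iff_le_right (by norm_num : 1 < 2)).1 h7
    omega
  have hr4 : r % 4 = 3 := by
    by_contra h5
    obtain ⟨q, rfl⟩ : ∃ q, r = 4 * q + 1 := ⟨r / 4, by omega⟩
    -- generation
    have hgen : Subgroup.closure {a, b} = ⊤ := by
      rw [eq_top_iff]
      rintro g -
      have haC : a ∈ Subgroup.closure {a, b} := Subgroup.subset_closure (Or.inl rfl)
      have hbC : b ∈ Subgroup.closure {a, b} := Subgroup.subset_closure (Or.inr rfl)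
      have hsub : Subgroup.zpowers a ≤ Subgroup.closure {a, b} := Subgroup.zpowers_le.2 haC
      by_cases hg : g ∈ Subgroup.zpowers a
      · exact hsub hg
      · have hb' : b⁻¹ ∉ Subgroup.zpowers a := fun h => hb (by simpa using inv_mem h)
        have h6 : b⁻¹ * g ∈ Subgroup.zpowers a :=
          (Subgroup.mul_mem_iff_of_index_two ha).2 (by simp only [hb', hg])
        have h7 : g = b * (b⁻¹ * g) := by group
        rw [h7]
        exact mul_mem hbC (hsub h6)
    have hWn : (Subgroup.zpowers (a ^ 4)).Normal := by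
      constructor
      intro t ht g
      obtain ⟨i, rfl⟩ := Subgroup.mem_zpowers_iff.1 ht
      obtain ⟨k, hk⟩ := Subgroup.mem_zpowers_iff.1 (hNa.conj_mem a (Subgroup.mem_zpowers a) g)
      rw [Subgroup.mem_zpowers_iff]
      refine ⟨k * i, ?_⟩
      rw [← conj_zpow, ← conj_pow, ← hk, zpow_mul]
      congr 1
      rw [← zpow_natCast, ← zpow_natCast, ← zpow_mul, ← zpow_mul, mul_comm]
    have hcW : ⁅a, b⁆ ∈ Subgroup.zpowers (a ^ 4) := by
      have e : ⁅a, b⁆ = (a ^ 4) ^ (-(q : ℤ)) := by
        have e1 : ⁅a, b⁆ = a * (b * a * b⁻¹)⁻¹ := by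
          rw [commutatorElement_def]; group
        rw [e1, ← hr, pow_succ, pow_mul, mul_inv_rev, mul_inv_cancel_left, zpow_neg, zpow_natCast]
      rw [e]
      exact zpow_mem (Subgroup.mem_zpowers _) _
    have hS' := Cfsg.Agent.S4397.commutator_mem_of_gens hgen _ hWn hcW
    have hle : commutator S ≤ Subgroup.zpowers (a ^ 4) := by
      rw [commutator_def, Subgroup.commutator_le]
      intro g₁ _ g₂ _
      exact hS' g₁ g₂
    have hpow : (a ^ 4) ^ (2 ^ m') = 1 := by
      rw [← pow_mul]
      have e : 4 * 2 ^ m' = 2 ^ (m' + 2) := by ring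
      rw [e, ← hm, pow_orderOf_eq_one]
    have hc1 : Nat.card (commutator S) ≤ 2 ^ m' := by
      have h6 := Subgroup.card_le_of_le hle
      rw [Nat.card_zpowers] at h6
      exact h6.trans (Nat.le_of_dvd (by positivity) (orderOf_dvd_of_pow_eq_one hpow))
    have h7 : (2 : ℕ) ^ (m' + 2 + 1) = 2 ^ m' * 8 := by ring
    have h8 : 0 < 2 ^ m' := by positivity
    rw [hcardS, h7] at hcS
    omega
  exact classify (m' + 2) hm2 a b hm hcardS hb r hr4 hr.symm

end Cfsg.Agent.S4399
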