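import Mathlib
import Cfsg.Statements.S4400
import Cfsg.Agent.Lib.SectRank
import Cfsg.Agent.Lib.PGroupAct
import Cfsg.Agent.Lib.Frat
import Cfsg.Agent.Lib.Replacement

set_option autoImplicit false
open Cfsg
open Cfsg.Agent.Lib
open scoped commutatorElement

namespace Cfsg.Agent.S4400

section lemmas
variable {S : Type*} [Group S]

/-- A noncommutative finite 2-group has Frattini index at least 4. -/
theorem four_le_index_frattini [Finite S] (h2 : IsPGroup 2 S) (hnc : ¬ IsMulCommutative S) :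
    4 ≤ (frattini S).index := by
  classical
  have : Fact (Nat.Prime 2) := ⟨Nat.prime_two⟩
  have := Fintype.ofFinite S
  obtain ⟨m, hm⟩ := IsPGroup.iff_card.1 h2
  have hd : (frattini S).index ∣ 2 ^ m := by
    rw [← hm]; exact Subgroup.index_dvd_card _
  obtain ⟨n, -, hn⟩ := (Nat.dvd_prime_pow Nat.prime_two).1 hd
  by_contra hlt
  have hn1 : n ≤ 1 := by
    by_contra hcon
    have : 2 ^ 2 ≤ 2 ^ n := Nat.pow_le_pow_right (by norm_num) (by omega)
    omega
  obtain ⟨T, -, hTc, hT⟩ := (Frat.burnside_basis h2 hn).1 Finset.univ (by simp)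
  obtain ⟨x, hx⟩ : ∃ x, T ⊆ {x} := by
    have : T.card ≤ 1 := by omega
    exact (Finset.card_le_one_iff_subset_singleton).1 this
  apply hnc
  have hz : Subgroup.zpowers x = ⊤ := by
    rw [eq_top_iff, ← hT, Subgroup.closure_le]
    intro y hy
    have : y ∈ ({x} : Finset S) := hx hy
    rw [Finset.mem_singleton] at this
    rw [this]
    exact Subgroup.mem_zpowers x
  have hc : IsCyclic S := ⟨x, fun y => by
    have : y ∈ Subgroup.zpowers x := by rw [hz]; trivial
    exact this⟩
  exact hc.isMulCommutative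

/-- In a noncommutative finite 2-group whose centre has order 2, the centre lies in the Frattini
subgroup. -/
theorem center_le_frattini [Finite S] (h2 : IsPGroup 2 S) (hnc : ¬ IsMulCommutative S)
    (hZ : Nat.card (Subgroup.center S) = 2) : Subgroup.center S ≤ frattini S := by
  have : Fact (Nat.Prime 2) := ⟨Nat.prime_two⟩
  have hne : commutator S ≠ ⊥ := by
    intro h
    apply hnc
    rw [commutator_eq_bot_iff_center_eq_top] at h
    refine ⟨⟨fun a b => ?_⟩⟩
    have : a ∈ Subgroup.center S := by rw [h]; trivial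
    exact (Subgroup.mem_center_iff.1 this b).symm
  obtain ⟨w, hw, hw1, hwc⟩ := PGroupAct.exists_central_elt (⊤ : Subgroup S) (commutator S)
    (h2.to_subgroup ⊤) le_top (fun a _ b hb => (inferInstance : (commutator S).Normal).conj_mem b hb a) hne
  have hwZ : w ∈ Subgroup.center S := Subgroup.mem_center_iff.2 fun g => hwc g trivial
  obtain ⟨u, -, huniq⟩ := (Nat.card_eq_two_iff' (1 : Subgroup.center S)).1 hZ
  intro y hy
  by_cases hy1 : y = 1
  · rw [hy1]; exact Subgroup.one_mem _
  · have h1 : (⟨y, hy⟩ : Subgroup.center S) = u :=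
      huniq _ (fun h => hy1 (congrArg Subtype.val h))
    have h3 : (⟨w, hwZ⟩ : Subgroup.center S) = u :=
      huniq _ (fun h => hw1 (congrArg Subtype.val h))
    have h4 : y = w := congrArg Subtype.val (h1.trans h3.symm)
    rw [h4]
    exact Frat.commutator_le_frattini h2 hw

/-- If `K` has centre of order 2 and contains a non-identity element `w` central in `S`, then the
centre of `K` consists of `1` and `w`. -/
theorem mem_center_map_of_central (K : Subgroup S) (hZ : Nat.card (Subgroup.center K) = 2)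
    {w : S} (hwK : w ∈ K) (hw1 : w ≠ 1) (hwc : ∀ g : S, g * w = w * g) (y : S) :
    y ∈ (Subgroup.center K).map K.subtype ↔ y = 1 ∨ y = w := by
  have hwZ : (⟨w, hwK⟩ : K) ∈ Subgroup.center K :=
    Subgroup.mem_center_iff.2 fun g => Subtype.ext (hwc g)
  obtain ⟨u, -, huniq⟩ := (Nat.card_eq_two_iff' (1 : Subgroup.center K)).1 hZ
  have hu : (⟨⟨w, hwK⟩, hwZ⟩ : Subgroup.center K) = u :=
    huniq _ (fun h => hw1 (congrArg (fun z : Subgroup.center K => ((z : K) : S)) h))
  constructor
  · rintro ⟨k, hk, rfl⟩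
    by_cases hk1 : k = 1
    · left; simp [hk1]
    · right
      have h1 : (⟨k, hk⟩ : Subgroup.center K) = u :=
        huniq _ (fun h => hk1 (congrArg Subtype.val h))
      have h2 := h1.trans hu.symm
      exact congrArg (fun z : Subgroup.center K => ((z : K) : S)) h2
  · rintro (rfl | rfl)
    · exact Subgroup.one_mem _
    · exact ⟨⟨y, hwK⟩, hwZ, rfl⟩

/-- In a finite 2-group, an element outside a subgroup has a power outside the subgroup whose square
lies in the subgroup. -/
theorem exists_pow_not_mem_sq_mem [Finite S] (h2 : IsPGroup 2 S) (T : Subgroup S) {c : S}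
    (hc : c ∉ T) : ∃ k : ℕ, c ^ k ∉ T ∧ (c ^ k) ^ 2 ∈ T := by
  classical
  obtain ⟨m, hm⟩ := h2 c
  have hex : ∃ n, c ^ (2 ^ n) ∈ T := ⟨m, by rw [hm]; exact T.one_mem⟩
  have h0 : Nat.find hex ≠ 0 := by
    intro h
    have := Nat.find_spec hex
    rw [h] at this
    simp at this
    exact hc this
  obtain ⟨n, hn⟩ := Nat.exists_eq_succ_of_ne_zero h0
  refine ⟨2 ^ n, ?_, ?_⟩
  · have := Nat.find_min hex (m := n) (by omega)
    exact this
  · have := Nat.find_spec hex
    rw [hn, Nat.succ_eq_add_one, pow_succ, pow_mul] at this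
    exact this

end lemmas

/-- Let S be a finite 2-group of sectional 2-rank at most 4, and let P and Q be normal non-abelian subgroups of S whose centres have order 2 and are different. Then P and Q commute elementwise and intersect trivially, and PQ contains its own centralizer in S. -/
theorem result {S : Type*} [Group S] [Finite S] (h2 : IsPGroup 2 S) (hr : Cfsg.SectionalPRankLE 2 4 S)
    (P Q : Subgroup S) [P.Normal] [Q.Normal] (hP : ¬ IsMulCommutative ↥P) (hQ : ¬ IsMulCommutative ↥Q)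
    (hZP : Nat.card ↥(Subgroup.center ↥P) = 2) (hZQ : Nat.card ↥(Subgroup.center ↥Q) = 2)
    (hne : (Subgroup.center ↥P).map P.subtype ≠ (Subgroup.center ↥Q).map Q.subtype) :
    ⁅P, Q⁆ = ⊥ ∧ P ⊓ Q = ⊥ ∧ Subgroup.centralizer ((P ⊔ Q : Subgroup S) : Set S) ≤ P ⊔ Q := by
  have : Fact (Nat.Prime 2) := ⟨Nat.prime_two⟩
  have hinf : P ⊓ Q = ⊥ := by
    by_contra hne'
    obtain ⟨w, hw, hw1, hwc⟩ := PGroupAct.exists_central_elt (⊤ : Subgroup S) (P ⊓ Q)
      (h2.to_subgroup ⊤) le_top
      (fun a _ b hb => (inferInstance : (P ⊓ Q).Normal).conj_mem b hb a) hne'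
    have hwc' : ∀ g : S, g * w = w * g := fun g => hwc g trivial
    apply hne
    ext y
    rw [mem_center_map_of_central P hZP hw.1 hw1 hwc', mem_center_map_of_central Q hZQ hw.2 hw1 hwc']
  have hcomm : ⁅P, Q⁆ = ⊥ := by
    rw [eq_bot_iff, ← hinf]
    exact Subgroup.commutator_le_inf P Q
  have hPQ : ∀ p ∈ P, ∀ q ∈ Q, p * q = q * p := by
    intro p hp q hq
    have h1 : ⁅p, q⁆ ∈ ⁅P, Q⁆ := Subgroup.commutator_mem_commutator hp hq
    rw [hcomm, Subgroup.mem_bot] at h1
    exact commutatorElement_eq_one_iff_mul_comm.1 h1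
  refine ⟨hcomm, hinf, ?_⟩
  intro c hc
  by_contra hcT
  set T : Subgroup S := P ⊔ Q with hT
  have hTn : T.Normal := inferInstance
  obtain ⟨k, hk1, hk2⟩ := exists_pow_not_mem_sq_mem h2 T hcT
  set x := c ^ k with hx
  have hxC : x ∈ Subgroup.centralizer (T : Set S) := Subgroup.pow_mem _ hc k
  have hxT : ∀ t ∈ T, t * x = x * t := fun t ht => (Subgroup.mem_centralizer_iff.1 hxC) t ht
  set Pf : Subgroup S := (frattini P).map P.subtype with hPf
  set Qf : Subgroup S := (frattini Q).map Q.subtype with hQf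
  have hPfP : Pf ≤ P := by
    rintro _ ⟨y, -, rfl⟩; exact y.2
  have hQfQ : Qf ≤ Q := by
    rintro _ ⟨y, -, rfl⟩; exact y.2
  have h2P : IsPGroup 2 P := h2.to_subgroup P
  have h2Q : IsPGroup 2 Q := h2.to_subgroup Q
  have hpPf : ∀ p ∈ P, p ^ 2 ∈ Pf := by
    intro p hp
    exact ⟨(⟨p, hp⟩ : P) ^ 2, Frat.pow_mem_frattini h2P _, by simp⟩
  have hpQf : ∀ p ∈ Q, p ^ 2 ∈ Qf := by
    intro p hp
    exact ⟨(⟨p, hp⟩ : Q) ^ 2, Frat.pow_mem_frattini h2Q _, by simp⟩
  set N : Subgroup S := Pf ⊔ Qf with hN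
  set H : Subgroup S := T ⊔ Subgroup.zpowers x with hH
  have hx2N : x ^ 2 ∈ N := by
    obtain ⟨p₀, hp₀, q₀, hq₀, hpq⟩ := Subgroup.mem_sup_of_normal_left.1 hk2
    have hx2c : ∀ t ∈ T, t * x ^ 2 = x ^ 2 * t := by
      intro t ht
      simp only [pow_two]
      rw [← mul_assoc, hxT t ht, mul_assoc, hxT t ht, mul_assoc]
    have h1 : p₀ ∈ Pf := by
      refine ⟨⟨p₀, hp₀⟩, ?_, rfl⟩
      apply center_le_frattini h2P hP hZP
      refine Subgroup.mem_center_iff.2 fun y => Subtype.ext ?_
      show (y : S) * p₀ = p₀ * y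
      have h3 := hx2c y (Subgroup.mem_sup_left y.2)
      rw [← hpq] at h3
      have h4 := hPQ y y.2 q₀ hq₀
      have h5 : (y : S) * p₀ * q₀ = p₀ * y * q₀ := by
        calc (y : S) * p₀ * q₀ = y * (p₀ * q₀) := by group
          _ = p₀ * q₀ * y := h3
          _ = p₀ * (q₀ * y) := by group
          _ = p₀ * (y * q₀) := by rw [h4]
          _ = p₀ * y * q₀ := by group
      exact mul_right_cancel h5
    have h6 : q₀ ∈ Qf := by
      refine ⟨⟨q₀, hq₀⟩, ?_, rfl⟩
      apply center_le_frattini h2Q hQ hZQ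
      refine Subgroup.mem_center_iff.2 fun y => Subtype.ext ?_
      show (y : S) * q₀ = q₀ * y
      have h3 := hx2c y (Subgroup.mem_sup_right y.2)
      rw [← hpq] at h3
      have h4 := hPQ p₀ hp₀ y y.2
      have h5 : p₀ * (y * q₀) = p₀ * (q₀ * y) := by
        calc p₀ * (y * q₀) = p₀ * y * q₀ := by group
          _ = y * p₀ * q₀ := by rw [h4]
          _ = y * (p₀ * q₀) := by group
          _ = p₀ * q₀ * y := h3
          _ = p₀ * (q₀ * y) := by group
      exact mul_left_cancel h5
    rw [← hpq]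
    exact N.mul_mem (Subgroup.mem_sup_left h1) (Subgroup.mem_sup_right h6)
  have hsq : ∀ h ∈ H, h ^ 2 ∈ N := by
    intro h hh
    obtain ⟨t, ht, z, hz, rfl⟩ := Subgroup.mem_sup_of_normal_left.1 hh
    obtain ⟨p, hp, q, hq, rfl⟩ := Subgroup.mem_sup_of_normal_left.1 ht
    obtain ⟨i, rfl⟩ := Subgroup.mem_zpowers_iff.1 hz
    have hc1 : Commute (p * q) (x ^ i) :=
      Commute.zpow_right (show Commute (p * q) x from hxT _ ht) i
    have hc2 : Commute p q := hPQ p hp q hq
    have e : (x ^ i) ^ 2 = (x ^ 2) ^ i := by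
      rw [← zpow_natCast (x ^ i) 2, ← zpow_natCast x 2, ← zpow_mul, ← zpow_mul, mul_comm]
    rw [hc1.mul_pow, hc2.mul_pow, e]
    exact N.mul_mem (N.mul_mem (Subgroup.mem_sup_left (hpPf p hp)) (Subgroup.mem_sup_right (hpQf q hq)))
      (N.zpow_mem hx2N i)
  have hNT : N ≤ T := sup_le_sup hPfP hQfQ
  have hTH : T ≤ H := le_sup_left
  have hNH : N ≤ H := hNT.trans hTH
  have hbound := SectRank.sqBound_of_sectional hr H N hNH hsq
  -- cardinalities
  have hcT1 : Nat.card T = Nat.card P * Nat.card Q := by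
    have h1 := Replacement.card_sup_mul_card_inf P Q (by
      rw [Subgroup.normalizer_eq_top]; exact le_top)
    rw [hinf] at h1
    simpa using h1
  have hcN : Nat.card N ≤ Nat.card Pf * Nat.card Qf := by
    have h1 := Replacement.card_sup_mul_card_inf Pf Qf (by
      intro a ha
      apply Replacement.mem_normalizer_of_forall
      intro b hb
      rw [hPQ a (hPfP ha) b (hQfQ hb), mul_assoc, mul_inv_cancel, mul_one]
      exact hb)
    rw [← h1]
    exact Nat.le_mul_of_pos_right _ Nat.card_pos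
  have hcPf : Nat.card Pf = Nat.card (frattini P) :=
    Subgroup.card_map_of_injective P.subtype_injective
  have hcQf : Nat.card Qf = Nat.card (frattini Q) :=
    Subgroup.card_map_of_injective Q.subtype_injective
  have h4P := four_le_index_frattini h2P hP
  have h4Q := four_le_index_frattini h2Q hQ
  have hP1 : Nat.card P = Nat.card Pf * (frattini P).index := by
    rw [hcPf, Subgroup.card_mul_index]
  have hQ1 : Nat.card Q = Nat.card Qf * (frattini Q).index := by
    rw [hcQf, Subgroup.card_mul_index]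
  have hc1 := SectRank.card_eq_relIndex_mul hNH
  have hc2 := SectRank.card_eq_relIndex_mul hTH
  have hrel : 2 ≤ T.relIndex H := by
    have h0 : T.relIndex H ≠ 0 := by
      intro h0
      rw [h0, zero_mul] at hc2
      exact Nat.card_pos.ne' hc2
    have h1 : T.relIndex H ≠ 1 := by
      intro h1
      rw [Subgroup.relIndex_eq_one] at h1
      exact hk1 (h1 (Subgroup.mem_sup_right (Subgroup.mem_zpowers x)))
    omega
  have hNpos : 0 < Nat.card N := Nat.card_pos
  have hPfpos : 0 < Nat.card Pf := Nat.card_pos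
  have hQfpos : 0 < Nat.card Qf := Nat.card_pos
  have hT16 : 16 * Nat.card N ≤ Nat.card T := by
    rw [hcT1, hP1, hQ1]
    calc 16 * Nat.card N ≤ 16 * (Nat.card Pf * Nat.card Qf) := Nat.mul_le_mul_left _ hcN
      _ = (Nat.card Pf * 4) * (Nat.card Qf * 4) := by ring
      _ ≤ _ := Nat.mul_le_mul (Nat.mul_le_mul_left _ h4P) (Nat.mul_le_mul_left _ h4Q)
  have hfinal : Nat.card H ≤ 16 * Nat.card N := by
    rw [hc1]
    exact Nat.mul_le_mul_right _ (by simpa using hbound)
  have hH2 : 2 * Nat.card T ≤ Nat.card H := by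
    rw [hc2]
    exact Nat.mul_le_mul_right _ hrel
  omega

end Cfsg.Agent.S4400
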