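import Mathlib
import Cfsg.Statements.S4401
import Cfsg.Agent.S4400
import Cfsg.Agent.Lib.SectRank
import Cfsg.Agent.Lib.PGroupAct
import Cfsg.Agent.Lib.Frat

set_option autoImplicit false
open Cfsg

namespace Cfsg.Agent.S4401

open Cfsg.Agent.Lib Cfsg.Agent.Lib.SectRank
open scoped commutatorElement

variable {S : Type*} [Group S]

/-- Conjugate of a subgroup. -/
def cj (h : S) (K : Subgroup S) : Subgroup S := K.map (MulAut.conj h).toMonoidHom

lemma mem_cj {h x : S} {K : Subgroup S} : x ∈ cj h K ↔ h⁻¹ * x * h ∈ K := by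
  constructor
  · rintro ⟨y, hy, rfl⟩
    simpa [mul_assoc] using hy
  · intro hx
    exact ⟨_, hx, by simp [mul_assoc]⟩

lemma conj_mem_cj {h x : S} {K : Subgroup S} (hx : x ∈ K) : h * x * h⁻¹ ∈ cj h K :=
  ⟨x, hx, rfl⟩

lemma relIndex_cj (h : S) {A B : Subgroup S} : (cj h B).relIndex (cj h A) = B.relIndex A :=
  Subgroup.relIndex_map_map_of_injective _ _ (MulAut.conj h).injective

/-- Rank bound for a commuting product of three subgroups. -/
lemma rank_three [Finite S] {k : ℕ} (hb : SqBound k S) (A₁ A₂ A₃ B₁ B₂ B₃ : Subgroup S)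
    (h12 : ∀ a ∈ A₁, ∀ b ∈ A₂, a * b = b * a) (h13 : ∀ a ∈ A₁, ∀ b ∈ A₃, a * b = b * a)
    (h23 : ∀ a ∈ A₂, ∀ b ∈ A₃, a * b = b * a)
    (hsq₁ : ∀ a ∈ A₁, a ^ 2 ∈ B₁) (hsq₂ : ∀ a ∈ A₂, a ^ 2 ∈ B₂) (hsq₃ : ∀ a ∈ A₃, a ^ 2 ∈ B₃)
    (hker : ∀ a ∈ A₁, ∀ b ∈ A₂, ∀ c ∈ A₃, a * b * c = 1 → a ∈ B₁ ∧ b ∈ B₂ ∧ c ∈ B₃) :
    B₁.relIndex A₁ * (B₂.relIndex A₂ * B₃.relIndex A₃) ≤ 2 ^ k := by
  let f : ↥A₁ × ↥A₂ × ↥A₃ →* S :=
    { toFun := fun x => (x.1 : S) * (x.2.1 : S) * (x.2.2 : S)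
      map_one' := by simp
      map_mul' := by
        rintro ⟨⟨a, ha⟩, ⟨b, hb⟩, ⟨c, hc⟩⟩ ⟨⟨a', ha'⟩, ⟨b', hb'⟩, ⟨c', hc'⟩⟩
        simp only [Prod.mk_mul_mk, MulMemClass.mk_mul_mk]
        have e1 : b * a' = a' * b := (h12 a' ha' b hb).symm
        have e2 : c * a' = a' * c := (h13 a' ha' c hc).symm
        have e3 : c * b' = b' * c := (h23 b' hb' c hc).symm
        calc a * a' * (b * b') * (c * c') = a * (a' * b) * b' * (c * c') := by group
          _ = a * (b * a') * b' * (c * c') := by rw [e1]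
          _ = a * b * (a' * (b' * c)) * c' := by group
          _ = a * b * (a' * (c * b')) * c' := by rw [e3]
          _ = a * b * ((a' * c) * b') * c' := by group
          _ = a * b * ((c * a') * b') * c' := by rw [e2]
          _ = a * b * c * (a' * b' * c') := by group }
  let E : Subgroup (↥A₁ × ↥A₂ × ↥A₃) :=
    (B₁.subgroupOf A₁).prod ((B₂.subgroupOf A₂).prod (B₃.subgroupOf A₃))
  have hkerE : f.ker ≤ E := by
    rintro ⟨⟨a, ha⟩, ⟨b, hb⟩, ⟨c, hc⟩⟩ hx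
    have := hker a ha b hb c hc hx
    exact ⟨this.1, this.2.1, this.2.2⟩
  have hN : E.map f ≤ f.range := Subgroup.map_le_range _ _
  have hsq : ∀ h ∈ f.range, h ^ 2 ∈ E.map f := by
    rintro _ ⟨x, rfl⟩
    refine ⟨x ^ 2, ?_, by simp⟩
    obtain ⟨⟨a, ha⟩, ⟨b, hb⟩, ⟨c, hc⟩⟩ := x
    exact ⟨hsq₁ a ha, hsq₂ b hb, hsq₃ c hc⟩
  have h1 := hb f.range (E.map f) hN hsq
  have h2 : (E.map f).relIndex f.range = E.index := by
    have h3 := Subgroup.relIndex_comap (E.map f) f ⊤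
    rw [Subgroup.comap_map_eq, sup_of_le_left hkerE, Subgroup.relIndex_top_right] at h3
    rw [h3, MonoidHom.range_eq_map]
  rw [h2] at h1
  have h3 : E.index = B₁.relIndex A₁ * (B₂.relIndex A₂ * B₃.relIndex A₃) := by
    simp only [E, Subgroup.index_prod]
    rfl
  rwa [h3] at h1

/-- Trivial intersection and commutation. -/
lemma inf_eq_bot_of_center [Finite S] (h2 : IsPGroup 2 S) (S₀ P₁ P₂ : Subgroup S) (z₁ z₂ : S)
    (hP₁ : P₁ ≤ S₀) (hP₂ : P₂ ≤ S₀) (hn₁ : ∀ s ∈ S₀, ∀ x ∈ P₁, s * x * s⁻¹ ∈ P₁)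
    (hn₂ : ∀ s ∈ S₀, ∀ x ∈ P₂, s * x * s⁻¹ ∈ P₂)
    (hz₁ : ∀ y ∈ P₁, (∀ w ∈ P₁, w * y = y * w) → y = 1 ∨ y = z₁)
    (hz₂ : ∀ y ∈ P₂, (∀ w ∈ P₂, w * y = y * w) → y = 1 ∨ y = z₂)
    (hc₁ : ∀ s ∈ S₀, s * z₁ = z₁ * s) (hne : z₁ ≠ z₂) (hz1 : z₁ ≠ 1) :
    P₁ ⊓ P₂ = ⊥ ∧ ∀ a ∈ P₁, ∀ b ∈ P₂, a * b = b * a := by
  have hinf : P₁ ⊓ P₂ = ⊥ := by
    by_contra hne'
    obtain ⟨w, hw, hw1, hwc⟩ := PGroupAct.exists_central_elt P₁ (P₁ ⊓ P₂) (h2.to_subgroup _) inf_le_left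
      (fun a ha b hb => ⟨hn₁ a (hP₁ ha) b hb.1, hn₂ a (hP₁ ha) b hb.2⟩) hne'
    rcases hz₁ w (Subgroup.mem_inf.1 hw).1 (fun a ha => hwc a ha) with h | h
    · exact hw1 h
    · subst h
      have h5 : w ∈ P₂ := (Subgroup.mem_inf.1 hw).2
      rcases hz₂ w h5 (fun a ha => hc₁ a (hP₂ ha)) with h6 | h6
      · exact hw1 h6
      · exact hne h6
  refine ⟨hinf, ?_⟩
  intro a ha b hb
  have hcom : a * b * a⁻¹ * b⁻¹ ∈ P₁ ⊓ P₂ := by
    rw [Subgroup.mem_inf]
    constructor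
    · have : a * b * a⁻¹ * b⁻¹ = a * (b * a⁻¹ * b⁻¹) := by group
      rw [this]
      exact mul_mem ha (hn₁ b (hP₂ hb) _ (inv_mem ha))
    · exact mul_mem (hn₂ a (hP₁ ha) b hb) (inv_mem hb)
  rw [hinf, Subgroup.mem_bot] at hcom
  calc a * b = (a * b * a⁻¹ * b⁻¹) * (b * a) := by group
    _ = b * a := by rw [hcom, one_mul]


/-- The configuration attached to a proper subgroup with centre of order 2. -/
structure Data (P S₀ B : Subgroup S) (z : S) : Prop where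
  z_ne : z ≠ 1
  z_sq : z * z = 1
  z_mem : z ∈ P
  z_comm : ∀ w ∈ P, w * z = z * w
  z_uniq : ∀ y ∈ P, (∀ w ∈ P, w * y = y * w) → y = 1 ∨ y = z
  mem_iff : ∀ s, s ∈ S₀ ↔ s * z = z * s
  nrm : ∀ s ∈ S₀, ∀ x ∈ P, s * x * s⁻¹ ∈ P
  sq : ∀ a ∈ P, a ^ 2 ∈ B
  z_B : z ∈ B
  four : 4 ≤ B.relIndex P

lemma Data.le {P S₀ B : Subgroup S} {z : S} (d : Data P S₀ B z) : P ≤ S₀ := fun w hw =>
  (d.mem_iff w).2 (d.z_comm w hw)

lemma Data.central_mem {P S₀ B : Subgroup S} {z : S} (d : Data P S₀ B z) {y : S} (hy : y ∈ P)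
    (hc : ∀ w ∈ P, w * y = y * w) : y ∈ B := by
  rcases d.z_uniq y hy hc with rfl | rfl
  · exact one_mem _
  · exact d.z_B

lemma Data.conj {P S₀ B : Subgroup S} {z : S} (d : Data P S₀ B z) (h : S) :
    Data (cj h P) (cj h S₀) (cj h B) (h * z * h⁻¹) where
  z_ne := by
    intro hc
    apply d.z_ne
    have : z = h⁻¹ * (h * z * h⁻¹) * h := by group
    rw [this, hc]; group
  z_sq := by
    have : h * z * h⁻¹ * (h * z * h⁻¹) = h * (z * z) * h⁻¹ := by group
    rw [this, d.z_sq]; group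
  z_mem := conj_mem_cj d.z_mem
  z_comm := by
    intro w hw
    have h1 := d.z_comm _ (mem_cj.1 hw)
    have e1 : w * (h * z * h⁻¹) = h * (h⁻¹ * w * h * z) * h⁻¹ := by group
    have e2 : h * z * h⁻¹ * w = h * (z * (h⁻¹ * w * h)) * h⁻¹ := by group
    rw [e1, e2, h1]
  z_uniq := by
    intro y hy hc
    have hc' : ∀ w ∈ P, w * (h⁻¹ * y * h) = (h⁻¹ * y * h) * w := by
      intro w hw
      have h2 := hc (h * w * h⁻¹) (conj_mem_cj hw)
      have e1 : w * (h⁻¹ * y * h) = h⁻¹ * (h * w * h⁻¹ * y) * h := by group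
      have e2 : h⁻¹ * y * h * w = h⁻¹ * (y * (h * w * h⁻¹)) * h := by group
      rw [e1, e2, h2]
    rcases d.z_uniq _ (mem_cj.1 hy) hc' with h1 | h1
    · left
      have : y = h * (h⁻¹ * y * h) * h⁻¹ := by group
      rw [this, h1]; group
    · right
      have : y = h * (h⁻¹ * y * h) * h⁻¹ := by group
      rw [this, h1]
  mem_iff := by
    intro s
    rw [mem_cj, d.mem_iff]
    constructor
    · intro h1
      have e1 : s * (h * z * h⁻¹) = h * (h⁻¹ * s * h * z) * h⁻¹ := by group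
      have e2 : h * z * h⁻¹ * s = h * (z * (h⁻¹ * s * h)) * h⁻¹ := by group
      rw [e1, e2, h1]
    · intro h1
      have e1 : h⁻¹ * s * h * z = h⁻¹ * (s * (h * z * h⁻¹)) * h := by group
      have e2 : z * (h⁻¹ * s * h) = h⁻¹ * (h * z * h⁻¹ * s) * h := by group
      rw [e1, e2, h1]
  nrm := by
    intro s hs x hx
    rw [mem_cj] at hs hx ⊢
    have := d.nrm _ hs _ hx
    have e : h⁻¹ * (s * x * s⁻¹) * h = h⁻¹ * s * h * (h⁻¹ * x * h) * (h⁻¹ * s * h)⁻¹ := by group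
    rw [e]; exact this
  sq := by
    intro a ha
    rw [mem_cj] at ha ⊢
    have := d.sq _ ha
    have e : h⁻¹ * a ^ 2 * h = (h⁻¹ * a * h) ^ 2 := by rw [pow_two, pow_two]; group
    rw [e]; exact this
  z_B := conj_mem_cj d.z_B
  four := by rw [relIndex_cj]; exact d.four

lemma cj_eq_of_normalizes {S₀ : Subgroup S} {h : S} (hh : h ∈ Subgroup.normalizer (S₀ : Set S)) :
    cj h S₀ = S₀ := by
  ext x
  rw [mem_cj]
  have := (Subgroup.mem_normalizer_iff.1 hh) (h⁻¹ * x * h)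
  rw [this]
  have e : h * (h⁻¹ * x * h) * h⁻¹ = x := by group
  rw [e]

lemma Data.conj' {P S₀ B : Subgroup S} {z : S} (d : Data P S₀ B z) {h : S}
    (hh : h ∈ Subgroup.normalizer (S₀ : Set S)) :
    Data (cj h P) S₀ (cj h B) (h * z * h⁻¹) := by
  have := d.conj h
  rwa [cj_eq_of_normalizes hh] at this

/-- Pairwise: trivial intersection and commutation. -/
lemma Data.pair [Finite S] (h2 : IsPGroup 2 S) {P₁ P₂ S₀ B₁ B₂ : Subgroup S} {z₁ z₂ : S}
    (d₁ : Data P₁ S₀ B₁ z₁) (d₂ : Data P₂ S₀ B₂ z₂) (hne : z₁ ≠ z₂) :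
    P₁ ⊓ P₂ = ⊥ ∧ ∀ a ∈ P₁, ∀ b ∈ P₂, a * b = b * a :=
  inf_eq_bot_of_center h2 S₀ P₁ P₂ z₁ z₂ d₁.le d₂.le d₁.nrm d₂.nrm d₁.z_uniq d₂.z_uniq
    (fun s hs => (d₁.mem_iff s).1 hs) hne d₁.z_ne

/-- Three commuting copies contradict sectional rank 4. -/
lemma Data.three [Finite S] (h2 : IsPGroup 2 S) (hb : SqBound 4 S) {P₁ P₂ P₃ S₀ B₁ B₂ B₃ : Subgroup S}
    {z₁ z₂ z₃ : S} (d₁ : Data P₁ S₀ B₁ z₁) (d₂ : Data P₂ S₀ B₂ z₂) (d₃ : Data P₃ S₀ B₃ z₃)
    (h12 : z₁ ≠ z₂) (h13 : z₁ ≠ z₃) (h23 : z₂ ≠ z₃) : False := by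
  obtain ⟨-, c12⟩ := d₁.pair h2 d₂ h12
  obtain ⟨-, c13⟩ := d₁.pair h2 d₃ h13
  obtain ⟨-, c23⟩ := d₂.pair h2 d₃ h23
  have key := rank_three hb P₁ P₂ P₃ B₁ B₂ B₃ c12 c13 c23 d₁.sq d₂.sq d₃.sq ?_
  · have h4 := Nat.mul_le_mul d₁.four (Nat.mul_le_mul d₂.four d₃.four)
    have := h4.trans key
    norm_num at this
  · intro a ha b hb' c hc habc
    have ea : a = (b * c)⁻¹ := eq_inv_of_mul_eq_one_left (by rw [← mul_assoc]; exact habc)
    have ec : c = (a * b)⁻¹ := eq_inv_of_mul_eq_one_right habc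
    have eb : b = a⁻¹ * c⁻¹ := by
      have : b = a⁻¹ * (a * b * c) * c⁻¹ := by group
      rw [this, habc]; group
    refine ⟨d₁.central_mem ha ?_, d₂.central_mem hb' ?_, d₃.central_mem hc ?_⟩
    · intro w hw
      have c1 : Commute w b := c12 w hw b hb'
      have c2 : Commute w c := c13 w hw c hc
      rw [ea]
      exact ((c1.mul_right c2).inv_right).eq
    · intro w hw
      have c1 : Commute w a := (c12 a ha w hw).symm
      have c2 : Commute w c := c23 w hw c hc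
      rw [eb]
      exact ((c1.inv_right).mul_right (c2.inv_right)).eq
    · intro w hw
      have c1 : Commute w a := (c13 a ha w hw).symm
      have c2 : Commute w b := (c23 b hb' w hw).symm
      rw [ec]
      exact ((c1.mul_right c2).inv_right).eq

/-- Two commuting copies bound the sectional rank of `P`. -/
lemma Data.sqBound_two [Finite S] (h2 : IsPGroup 2 S) (hb : SqBound 4 S) {P S₀ B : Subgroup S} {z h : S}
    (d : Data P S₀ B z) (hh : h ∈ Subgroup.normalizer (S₀ : Set S)) (hne : z ≠ h * z * h⁻¹) :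
    SqBound 2 ↥P := by
  intro H N hNH hsq
  obtain ⟨hinf, hcomm⟩ := d.pair h2 (d.conj' hh) hne
  have hA₁ : H.map P.subtype ≤ P := Subgroup.map_subtype_le H
  have hA₂ : cj h (H.map P.subtype) ≤ cj h P := Subgroup.map_mono hA₁
  have hsq₁ : ∀ a ∈ H.map P.subtype, a ^ 2 ∈ N.map P.subtype := by
    rintro _ ⟨a, ha, rfl⟩
    exact ⟨a ^ 2, hsq a ha, by simp⟩
  have key := rank_three hb (H.map P.subtype) (cj h (H.map P.subtype)) ⊥ (N.map P.subtype)
    (cj h (N.map P.subtype)) ⊥ (fun a ha b hb => hcomm a (hA₁ ha) b (hA₂ hb))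
    (fun a _ b hb => by rw [Subgroup.mem_bot] at hb; simp [hb])
    (fun a _ b hb => by rw [Subgroup.mem_bot] at hb; simp [hb]) hsq₁ ?_
    (fun a ha => by rw [Subgroup.mem_bot] at ha; simp [ha]) ?_
  · rw [relIndex_cj, Subgroup.relIndex_self, Subgroup.relIndex_map_map_of_injective _ _ P.subtype_injective,
      mul_one] at key
    by_contra hcon
    have h5 : 5 ≤ N.relIndex H := by
      have : 2 ^ 2 < N.relIndex H := not_le.1 hcon
      omega
    have := Nat.mul_le_mul h5 h5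
    omega
  · intro a ha
    rw [mem_cj] at ha ⊢
    have := hsq₁ _ ha
    have e : h⁻¹ * a ^ 2 * h = (h⁻¹ * a * h) ^ 2 := by rw [pow_two, pow_two]; group
    rw [e]; exact this
  · intro a ha b hb c hc habc
    rw [Subgroup.mem_bot] at hc
    subst hc
    rw [mul_one] at habc
    have ea : a = b⁻¹ := eq_inv_of_mul_eq_one_left habc
    have ha1 : a ∈ P ⊓ cj h P := Subgroup.mem_inf.2 ⟨hA₁ ha, by rw [ea]; exact inv_mem (hA₂ hb)⟩
    rw [hinf, Subgroup.mem_bot] at ha1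
    have hb1 : b = 1 := by rw [ha1, one_mul] at habc; exact habc
    subst ha1 hb1
    exact ⟨one_mem _, one_mem _, one_mem _⟩

/-- An involution centralising two commuting copies is central in `S₀`. -/
lemma Data.central_of_centralizes [Finite S] (h2 : IsPGroup 2 S) (hb : SqBound 4 S)
    {P₁ P₂ S₀ B₁ B₂ : Subgroup S} {z₁ z₂ : S} (d₁ : Data P₁ S₀ B₁ z₁) (d₂ : Data P₂ S₀ B₂ z₂)
    (hne : z₁ ≠ z₂) (y : S) (hy1 : y ≠ 1) (hysq : y * y = 1)
    (hyc₁ : ∀ a ∈ P₁, a * y = y * a) (hyc₂ : ∀ a ∈ P₂, a * y = y * a) :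
    ∀ s ∈ S₀, s * y = y * s := by
  obtain ⟨hinf, c12⟩ := d₁.pair h2 d₂ hne
  by_cases hex : ∃ a ∈ P₁, ∃ b ∈ P₂, y = a * b
  · obtain ⟨a, ha, b, hb', rfl⟩ := hex
    have ha1 : ∀ w ∈ P₁, w * a = a * w := by
      intro w hw
      have h3 := hyc₁ w hw
      have h4 : w * b = b * w := c12 w hw b hb'
      have e : w * (a * b) = w * a * b := by group
      have e2 : a * b * w = a * w * b := by
        rw [mul_assoc, ← h4, ← mul_assoc]
      rw [e, e2] at h3
      exact mul_right_cancel h3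
    have hb1 : ∀ w ∈ P₂, w * b = b * w := by
      intro w hw
      have h3 := hyc₂ w hw
      have h4 : a * w = w * a := c12 a ha w hw
      have e : w * (a * b) = a * (w * b) := by
        rw [← mul_assoc, ← h4, mul_assoc]
      have e2 : a * b * w = a * (b * w) := by group
      rw [e, e2] at h3
      exact mul_left_cancel h3
    intro s hs
    have hsa : s * a = a * s := by
      rcases d₁.z_uniq a ha ha1 with rfl | rfl
      · simp
      · exact (d₁.mem_iff s).1 hs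
    have hsb : s * b = b * s := by
      rcases d₂.z_uniq b hb' hb1 with rfl | rfl
      · simp
      · exact (d₂.mem_iff s).1 hs
    calc s * (a * b) = (s * a) * b := by group
      _ = a * (s * b) := by rw [hsa]; group
      _ = a * (b * s) := by rw [hsb]
      _ = a * b * s := by group
  · exfalso
    have hzp : ∀ c ∈ Subgroup.zpowers y, c = 1 ∨ c = y := by
      rintro c ⟨k, rfl⟩
      have hy2 : y ^ (2 : ℤ) = 1 := by rw [zpow_two]; exact hysq
      rcases Int.even_or_odd' k with ⟨m, rfl | rfl⟩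
      · left; simp only [zpow_mul, hy2, one_zpow]
      · right; simp only [zpow_add, zpow_mul, hy2, one_zpow, one_mul, zpow_one]
    have key := rank_three hb P₁ P₂ (Subgroup.zpowers y) B₁ B₂ ⊥ c12 ?_ ?_ d₁.sq d₂.sq ?_ ?_
    · rw [Subgroup.relIndex_bot_left, Nat.card_zpowers,
        orderOf_eq_prime (by rw [pow_two]; exact hysq) hy1] at key
      have h4 := Nat.mul_le_mul d₁.four (Nat.mul_le_mul d₂.four (le_refl 2))
      have := h4.trans key
      norm_num at this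
    · intro a ha b hb'
      rcases hzp b hb' with rfl | rfl
      · simp
      · exact hyc₁ a ha
    · intro a ha b hb'
      rcases hzp b hb' with rfl | rfl
      · simp
      · exact hyc₂ a ha
    · intro c hc
      rw [Subgroup.mem_bot]
      rcases hzp c hc with rfl | rfl
      · simp
      · rw [pow_two]; exact hysq
    · intro a ha b hb' c hc habc
      rcases hzp c hc with rfl | rfl
      · rw [mul_one] at habc
        have ea : a = b⁻¹ := eq_inv_of_mul_eq_one_left habc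
        have ha1 : a ∈ P₁ ⊓ P₂ := Subgroup.mem_inf.2 ⟨ha, by rw [ea]; exact inv_mem hb'⟩
        rw [hinf, Subgroup.mem_bot] at ha1
        have hb1 : b = 1 := by rw [ha1, one_mul] at habc; exact habc
        subst ha1 hb1
        exact ⟨one_mem _, one_mem _, (Subgroup.mem_bot).2 rfl⟩
      · exfalso
        apply hex
        refine ⟨a⁻¹, inv_mem ha, b⁻¹, inv_mem hb', ?_⟩
        have e1 : c = (a * b)⁻¹ := eq_inv_of_mul_eq_one_right habc
        rw [e1, mul_inv_rev]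
        exact (c12 _ (inv_mem ha) _ (inv_mem hb')).symm

/-- Commutators land in a subgroup of index at most two. -/
lemma comm_mem (N S₀ : Subgroup S) (hnorm : ∀ u ∈ N, ∀ s ∈ S₀, u * s * u⁻¹ ∈ S₀)
    (hidx : ∀ u ∈ N, ∀ v ∈ N, u ∉ S₀ → v ∉ S₀ → u⁻¹ * v ∈ S₀) :
    ∀ u ∈ N, ∀ v ∈ N, u * v * u⁻¹ * v⁻¹ ∈ S₀ := by
  intro u hu v hv
  by_cases hu1 : u ∈ S₀
  · have e : u * v * u⁻¹ * v⁻¹ = u * (v * u⁻¹ * v⁻¹) := by group
    rw [e]
    exact mul_mem hu1 (hnorm v hv _ (inv_mem hu1))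
  by_cases hv1 : v ∈ S₀
  · exact mul_mem (hnorm u hu v hv1) (inv_mem hv1)
  have hs := hidx u hu v hv hu1 hv1
  have e : u * v * u⁻¹ * v⁻¹ = u * ((u * (u⁻¹ * v) * u⁻¹) * (u⁻¹ * v)⁻¹) * u⁻¹ := by group
  rw [e]
  exact hnorm u hu _ (mul_mem (hnorm u hu _ hs) (inv_mem hs))

/-- The main theorem on the configuration. -/
lemma Data.main [Finite S] (h2 : IsPGroup 2 S) (hb : SqBound 4 S) {P S₀ B : Subgroup S} {z : S}
    (d : Data P S₀ B z) (hne : S₀ ≠ ⊤) :
    SqBound 2 ↥P ∧ S₀.index = 2 := by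
  have hnil : Group.IsNilpotent S := h2.isNilpotent
  set N : Subgroup S := Subgroup.normalizer (S₀ : Set S) with hN
  have hS₀N : S₀ ≤ N := Subgroup.le_normalizer
  have hcond := Group.normalizerCondition_of_isNilpotent (G := S)
  have hlt : S₀ < N := hcond S₀ (lt_top_iff_ne_top.2 hne)
  obtain ⟨h, hhN, hhS⟩ := SetLike.exists_of_lt hlt
  have hzne : ∀ u, u ∉ S₀ → z ≠ u * z * u⁻¹ := by
    intro u hu hc
    apply hu
    rw [d.mem_iff]
    calc u * z = (u * z * u⁻¹) * u := by group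
      _ = z * u := by rw [← hc]
  have hnormS : ∀ u ∈ N, ∀ s ∈ S₀, u * s * u⁻¹ ∈ S₀ := fun u hu s hs =>
    (Subgroup.mem_normalizer_iff.1 hu s).1 hs
  have hidx : ∀ u ∈ N, ∀ v ∈ N, u ∉ S₀ → v ∉ S₀ → u⁻¹ * v ∈ S₀ := by
    intro u hu v hv hu1 hv1
    by_contra hc
    refine Data.three h2 hb d (d.conj' hu) (d.conj' hv) (hzne u hu1) (hzne v hv1) ?_
    intro he
    apply hc
    rw [d.mem_iff]
    have : u⁻¹ * v * z * (u⁻¹ * v)⁻¹ = z := by
      calc u⁻¹ * v * z * (u⁻¹ * v)⁻¹ = u⁻¹ * (v * z * v⁻¹) * u := by group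
        _ = u⁻¹ * (u * z * u⁻¹) * u := by rw [he]
        _ = z := by group
    calc u⁻¹ * v * z = (u⁻¹ * v * z * (u⁻¹ * v)⁻¹) * (u⁻¹ * v) := by group
      _ = z * (u⁻¹ * v) := by rw [this]
  have hcomm := comm_mem N S₀ hnormS hidx
  have hb2 : SqBound 2 ↥P := d.sqBound_two h2 hb hhN (hzne h hhS)
  refine ⟨hb2, ?_⟩
  have hNtop : N = ⊤ := by
    by_contra hNne
    have hlt' : N < Subgroup.normalizer (N : Set S) := hcond N (lt_top_iff_ne_top.2 hNne)
    obtain ⟨h', hh'N, hh'⟩ := SetLike.exists_of_lt hlt'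
    have hN1 : ∀ u ∈ N, h' * u * h'⁻¹ ∈ N := fun u hu =>
      (Subgroup.mem_normalizer_iff.1 hh'N u).1 hu
    have hN2 : ∀ u ∈ N, h'⁻¹ * u * h' ∈ N := fun u hu => by
      rw [(Subgroup.mem_normalizer_iff.1 hh'N _)]
      have e : h' * (h'⁻¹ * u * h') * h'⁻¹ = u := by group
      rw [e]; exact hu
    have d' := d.conj h'
    have hS₀'N : cj h' S₀ ≤ N := by
      intro x hx
      have := hN1 _ (hS₀N (mem_cj.1 hx))
      have e : h' * (h'⁻¹ * x * h') * h'⁻¹ = x := by group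
      rwa [e] at this
    have hnorm' : ∀ u ∈ N, ∀ s ∈ cj h' S₀, u * s * u⁻¹ ∈ cj h' S₀ := by
      intro u hu s hs
      rw [mem_cj] at hs ⊢
      have := hnormS _ (hN2 u hu) _ hs
      have e : h'⁻¹ * (u * s * u⁻¹) * h' = h'⁻¹ * u * h' * (h'⁻¹ * s * h') * (h'⁻¹ * u * h')⁻¹ := by group
      rw [e]; exact this
    have hidx' : ∀ u ∈ N, ∀ v ∈ N, u ∉ cj h' S₀ → v ∉ cj h' S₀ → u⁻¹ * v ∈ cj h' S₀ := by
      intro u hu v hv hu1 hv1
      rw [mem_cj] at hu1 hv1 ⊢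
      have := hidx _ (hN2 u hu) _ (hN2 v hv) hu1 hv1
      have e : h'⁻¹ * (u⁻¹ * v) * h' = (h'⁻¹ * u * h')⁻¹ * (h'⁻¹ * v * h') := by group
      rw [e]; exact this
    have hcomm' := comm_mem N (cj h' S₀) hnorm' hidx'
    set z' : S := h' * z * h'⁻¹ with hz'
    have hP'N : cj h' P ≤ N := fun x hx => hS₀'N (d'.le hx)
    -- z' lies in S₀
    have hz'S : z' ∈ S₀ := by
      have hW : (cj h' P) ⊓ S₀ ≠ ⊥ := by
        intro hW
        have hab : ∀ y ∈ cj h' P, y ∈ cj h' B := by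
          intro y hy
          refine d'.central_mem hy fun w hw => ?_
          have : w * y * w⁻¹ * y⁻¹ ∈ (cj h' P) ⊓ S₀ := by
            exact Subgroup.mem_inf.2 ⟨mul_mem (d'.nrm w (d'.le hw) y hy) (inv_mem hy), hcomm w (hP'N hw) y (hP'N hy)⟩
          rw [hW, Subgroup.mem_bot] at this
          calc w * y = (w * y * w⁻¹ * y⁻¹) * (y * w) := by group
            _ = y * w := by rw [this, one_mul]
        have : cj h' P ≤ cj h' B := hab
        have h1 : (cj h' B).relIndex (cj h' P) = 1 := Subgroup.relIndex_eq_one.2 this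
        have := d'.four
        omega
      obtain ⟨w, hw, hw1, hwc⟩ := PGroupAct.exists_central_elt (cj h' P) ((cj h' P) ⊓ S₀)
        (h2.to_subgroup _) inf_le_left
        (fun a ha b hb' => ⟨d'.nrm a (d'.le ha) b hb'.1, hnormS a (hP'N ha) b hb'.2⟩) hW
      rcases d'.z_uniq w hw.1 (fun a ha => hwc a ha) with h1 | h1
      · exact absurd h1 hw1
      · rw [← h1]; exact hw.2
    have d₂ := d.conj' hhN
    obtain ⟨hinf, hc2⟩ := d.pair h2 d₂ (hzne h hhS)
    have hPz' : ∀ x ∈ P, x * z' = z' * x ∧ (h * x * h⁻¹) * z' = z' * (h * x * h⁻¹) := by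
      intro x hx
      have hxN : x ∈ N := hS₀N (d.le hx)
      have hx₂ : h * x * h⁻¹ ∈ cj h P := conj_mem_cj hx
      have hu : x⁻¹ * (h * x * h⁻¹) ∈ cj h' S₀ := by
        have := hcomm' x⁻¹ (inv_mem hxN) h hhN
        have e : x⁻¹ * (h * x * h⁻¹) = x⁻¹ * h * x⁻¹⁻¹ * h⁻¹ := by group
        rw [e]; exact this
      have huc := (d'.mem_iff _).1 hu
      have hc : z' * x * z'⁻¹ * x⁻¹ ∈ P ⊓ cj h P := by
        refine Subgroup.mem_inf.2 ⟨mul_mem (d.nrm z' hz'S x hx) (inv_mem hx), ?_⟩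
        have hc₂ := mul_mem (d₂.nrm z' hz'S _ hx₂) (inv_mem hx₂)
        set u := x⁻¹ * (h * x * h⁻¹) with hu_def
        have hx₂e : h * x * h⁻¹ = x * u := by rw [hu_def]; group
        rw [hx₂e] at hc₂
        have e : z' * (x * u) * z'⁻¹ * (x * u)⁻¹ = z' * x * z'⁻¹ * x⁻¹ := by
          have hu' : u * z'⁻¹ = z'⁻¹ * u := by
            have : z'⁻¹ * (u * z') * z'⁻¹ = z'⁻¹ * (z' * u) * z'⁻¹ := by rw [huc]
            calc u * z'⁻¹ = z'⁻¹ * (z' * u) * z'⁻¹ := by group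
              _ = z'⁻¹ * (u * z') * z'⁻¹ := by rw [huc]
              _ = z'⁻¹ * u := by group
          calc z' * (x * u) * z'⁻¹ * (x * u)⁻¹ = z' * x * (u * z'⁻¹) * u⁻¹ * x⁻¹ := by group
            _ = z' * x * (z'⁻¹ * u) * u⁻¹ * x⁻¹ := by rw [hu']
            _ = z' * x * z'⁻¹ * x⁻¹ := by group
        rwa [e] at hc₂
      rw [hinf, Subgroup.mem_bot] at hc
      have hxz : x * z' = z' * x := by
        have : z' * x = (z' * x * z'⁻¹ * x⁻¹) * (x * z') := by group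
        rw [this, hc, one_mul]
      refine ⟨hxz, ?_⟩
      set u := x⁻¹ * (h * x * h⁻¹) with hu_def
      have hx₂e : h * x * h⁻¹ = x * u := by rw [hu_def]; group
      rw [hx₂e]
      calc x * u * z' = x * (u * z') := by group
        _ = x * (z' * u) := by rw [huc]
        _ = (x * z') * u := by group
        _ = (z' * x) * u := by rw [hxz]
        _ = z' * (x * u) := by group
    have hcz : ∀ s ∈ S₀, s * z' = z' * s := by
      refine Data.central_of_centralizes h2 hb d d₂ (hzne h hhS) z' d'.z_ne d'.z_sq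
        (fun a ha => (hPz' a ha).1) ?_
      intro a ha
      have := (hPz' _ (mem_cj.1 ha)).2
      have e : h * (h⁻¹ * a * h) * h⁻¹ = a := by group
      rwa [e] at this
    have hle : S₀ ≤ cj h' S₀ := fun s hs => (d'.mem_iff s).2 (hcz s hs)
    have hcard : Nat.card (cj h' S₀) = Nat.card S₀ :=
      Subgroup.card_map_of_injective (MulAut.conj h').injective
    have heq : S₀ = cj h' S₀ := Subgroup.eq_of_le_of_card_ge hle (le_of_eq hcard)
    apply hh'
    rw [hN, Subgroup.mem_normalizer_iff]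
    intro x
    constructor
    · intro hx
      rw [heq]
      exact conj_mem_cj hx
    · intro hx
      rw [heq] at hx
      have := mem_cj.1 hx
      have e : h'⁻¹ * (h' * x * h'⁻¹) * h' = x := by group
      rwa [e] at this
  have hall : ∀ g, g ∈ N := fun g => by rw [hNtop]; trivial
  rw [Subgroup.index_eq_two_iff]
  refine ⟨h, fun b => ?_⟩
  by_cases hb1 : b ∈ S₀
  · right
    refine ⟨hb1, fun hc => hhS ?_⟩
    have : h = b⁻¹ * (b * h) := by group
    rw [this]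
    exact mul_mem (inv_mem hb1) hc
  · left
    refine ⟨?_, hb1⟩
    have h3 := hidx b⁻¹ (hall _) h (hall _) (fun hc => hb1 (by simpa using inv_mem hc)) hhS
    rw [inv_inv] at h3
    exact h3

theorem result {S : Type*} [Group S] [Finite S] (h2 : IsPGroup 2 S) (hr : Cfsg.SectionalPRankLE 2 4 S)
    (P : Subgroup S) (hPlt : P ≠ ⊤) (hP : ¬ IsMulCommutative ↥P) (hZP : Nat.card ↥(Subgroup.center ↥P) = 2)
    (S₀ : Subgroup S) (hS₀ : S₀ = Subgroup.centralizer (((Subgroup.center ↥P).map P.subtype : Subgroup S) : Set S))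
    (hPn : ∀ s ∈ S₀, ∀ x ∈ P, s * x * s⁻¹ ∈ P) :
    S₀ = ⊤ ∨ (Cfsg.SectionalPRankLE 2 2 ↥P ∧ S₀.index = 2) := by
  have : Fact (Nat.Prime 2) := ⟨Nat.prime_two⟩
  have hP2 : IsPGroup 2 ↥P := h2.to_subgroup P
  obtain ⟨u, hu1, huniq⟩ := (Nat.card_eq_two_iff' (1 : Subgroup.center ↥P)).1 hZP
  have hcent : ∀ y : P, (∀ w : P, w * y = y * w) → y = 1 ∨ y = (u : P) := by
    intro y hy
    by_cases h1 : y = 1
    · exact Or.inl h1
    · right
      have hyZ : y ∈ Subgroup.center ↥P := Subgroup.mem_center_iff.2 hy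
      have h3 : (⟨y, hyZ⟩ : Subgroup.center ↥P) = u :=
        huniq _ (fun h => h1 (congrArg Subtype.val h))
      rw [← h3]
  have hmemS₀ : ∀ s, s ∈ S₀ ↔ s * ((u : P) : S) = ((u : P) : S) * s := by
    intro s
    rw [hS₀, Subgroup.mem_centralizer_iff]
    constructor
    · intro h1
      exact (h1 _ ⟨u, u.2, rfl⟩).symm
    · rintro h1 _ ⟨y, hy, rfl⟩
      rcases hcent y (fun w => (Subgroup.mem_center_iff.1 hy w)) with rfl | rfl
      · simp
      · exact h1.symm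
  have hune : ((u : P) : S) ≠ 1 := by
    intro h1
    apply hu1
    exact Subtype.ext (Subtype.ext h1)
  have husq : ((u : P) : S) * ((u : P) : S) = 1 := by
    have h3 : u ^ 2 = 1 := by
      have := pow_card_eq_one' (x := u)
      rwa [hZP] at this
    have h4 := congrArg (fun t : Subgroup.center ↥P => ((t : P) : S)) h3
    simpa [pow_two] using h4
  have hb := sqBound_of_sectional hr
  have d : Data P S₀ ((frattini ↥P).map P.subtype) ((u : P) : S) :=
    { z_ne := hune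
      z_sq := husq
      z_mem := (u : P).2
      z_comm := fun w hw => by
        have := Subgroup.mem_center_iff.1 u.2 ⟨w, hw⟩
        exact congrArg Subtype.val this
      z_uniq := by
        intro y hy hc
        rcases hcent ⟨y, hy⟩ (fun w => Subtype.ext (hc w w.2)) with h1 | h1
        · left; exact congrArg Subtype.val h1
        · right; exact congrArg Subtype.val h1
      mem_iff := hmemS₀
      nrm := hPn
      sq := by
        intro a ha
        refine ⟨⟨a, ha⟩ ^ 2, Frat.pow_mem_frattini hP2 _, by simp⟩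
      z_B := ⟨(u : P), S4400.center_le_frattini hP2 hP hZP u.2, rfl⟩
      four := by
        show 4 ≤ (((frattini ↥P).map P.subtype).subgroupOf P).index
        rw [Subgroup.subgroupOf, Subgroup.comap_map_eq_self_of_injective P.subtype_injective]
        exact S4400.four_le_index_frattini hP2 hP }
  by_cases hne : S₀ = ⊤
  · exact Or.inl hne
  · obtain ⟨h1, h3⟩ := d.main h2 hb hne
    exact Or.inr ⟨sectional_of_sqBound h1, h3⟩

end Cfsg.Agent.S4401
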