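import Mathlib
import Cfsg.Statements.S4404
import Cfsg.Agent.Lib.CmRankTwoB

set_option autoImplicit false
set_option linter.style.haveILetI false
open Cfsg

namespace Cfsg.Agent.S4404

open Cfsg.Agent.Lib.CmRankTwo Cfsg.Agent.Lib.CmRankTwoB
open scoped commutatorElement

/-- Let S be a finite solvable group and M a normal elementary abelian 2-subgroup of S. Suppose S contains an elementary abelian subgroup of order p³ for some odd prime p, and a cyclic 3-subgroup Q such that the cubes of the elements of Q centralize M and the commutator subgroup [Q, M] has order 4 (a four-group inside M). Then S contains an elementary abelian subgroup F of order r³, for some odd prime r, whose centralizer of [Q, M] in F — the subgroup C_F([Q, M]) — is not cyclic. -/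
theorem result {S : Type*} [Group S] [Finite S]
    [Group.IsSolvable S] (M : Subgroup S) [M.Normal] (hM : Cfsg.IsElementaryAbelian 2 M)
    (p : ℕ) (hp : p.Prime) (hp2 : p ≠ 2) (E : Subgroup S) (hE : Cfsg.IsElementaryAbelian p E) (hE3 : Nat.card ↥E = p ^ 3)
    (Q : Subgroup S) (hQc : IsCyclic ↥Q) (hQ3 : IsPGroup 3 ↥Q)
    (hQ1 : ∀ x ∈ Q, x ^ 3 ∈ Subgroup.centralizer (M : Set S)) (hQM : Nat.card ↥⁅Q, M⁆ = 4) :
    ∃ (r : ℕ) (F : Subgroup S), r.Prime ∧ r ≠ 2 ∧ Cfsg.IsElementaryAbelian r F ∧ Nat.card F = r ^ 3 ∧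
      ¬ IsCyclic ↥(F ⊓ Subgroup.centralizer ((⁅Q, M⁆ : Subgroup S) : Set S)) := by
  classical
  obtain ⟨x₀, hx₀⟩ := hQc.exists_generator
  set x : S := x₀.1 with hx
  have hxQ : x ∈ Q := x₀.2
  letI cg : CommGroup ↥M :=
    { (inferInstance : Group ↥M) with mul_comm := fun a b => hM.1.is_comm.comm a b }
  let φ : S →* MulAut ↥M := MulAut.conjNormal
  have hφ : ∀ (g : S) (a : ↥M), ((φ g a : ↥M) : S) = g * a * g⁻¹ := fun g a => MulAut.conjNormal_apply g a
  have hA : ∀ a : ↥M, a ^ 2 = 1 := fun a => Subtype.ext (by simpa using hM.2 a.1 a.2)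
  have hx3 : (φ x) ^ 3 = 1 := by
    rw [← map_pow]
    apply MulEquiv.ext
    intro a
    apply Subtype.ext
    rw [hφ]
    have h1 := (Subgroup.mem_centralizer_iff.mp (hQ1 x hxQ)) a.1 a.2
    change x ^ 3 * a.1 * (x ^ 3)⁻¹ = a.1
    rw [← h1]
    group
  have hCle : ∀ g ∈ Q, Cm φ g ≤ Cm φ x := by
    intro g hg
    obtain ⟨k, hk⟩ := hx₀ ⟨g, hg⟩
    have hk' : g = x ^ k := by
      have := congrArg Subtype.val hk
      simpa using this.symm
    rw [hk']
    exact Cm_zpow_le φ x k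
  have hV : (Cm φ x).map M.subtype = ⁅Q, M⁆ := by
    apply le_antisymm
    · rintro _ ⟨_, ⟨a, rfl⟩, rfl⟩
      have h1 : ((dl φ x a : ↥M) : S) = ⁅x, (a : S)⁆ := by
        have h2 : ((φ x a * a⁻¹ : ↥M) : S) = ((φ x a : ↥M) : S) * ((a : S))⁻¹ := rfl
        change ((φ x a * a⁻¹ : ↥M) : S) = _
        rw [h2, hφ, commutatorElement_def]
      change ((dl φ x a : ↥M) : S) ∈ _
      rw [h1]
      exact Subgroup.commutator_mem_commutator hxQ a.2
    · rw [Subgroup.commutator_le]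
      intro g hg m hm
      refine ⟨dl φ g ⟨m, hm⟩, hCle g hg ⟨⟨m, hm⟩, rfl⟩, ?_⟩
      have h2 : ((φ g ⟨m, hm⟩ * (⟨m, hm⟩ : ↥M)⁻¹ : ↥M) : S) = ((φ g ⟨m, hm⟩ : ↥M) : S) * m⁻¹ := rfl
      change ((φ g ⟨m, hm⟩ * (⟨m, hm⟩ : ↥M)⁻¹ : ↥M) : S) = _
      rw [h2, hφ, commutatorElement_def]
  have hx4 : Nat.card (Cm φ x) = 4 := by
    rw [← hQM, ← hV, Subgroup.card_map_of_injective M.subtype_injective]
  have hxo : ∃ k : ℕ, x ^ (3 ^ k) = 1 := by
    obtain ⟨k, hk⟩ := hQ3 x₀
    exact ⟨k, by simpa using congrArg Subtype.val hk⟩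
  obtain ⟨r, F, hr, hr2, hFe, hFc, hcard⟩ := abstract_main hA hx3 hx4 hxo hp hp2 E hE hE3
  refine ⟨r, F, hr, hr2, hFe, hFc, ?_⟩
  have heq : F ⊓ Subgroup.centralizer ((⁅Q, M⁆ : Subgroup S) : Set S) = F ⊓ Cen φ x := by
    ext e
    simp only [Subgroup.mem_inf]
    refine and_congr_right fun _ => ?_
    rw [Subgroup.mem_centralizer_iff, mem_Cen]
    constructor
    · intro h c hc
      apply Subtype.ext
      rw [hφ]
      have h1 : (c : S) ∈ ⁅Q, M⁆ := by
        rw [← hV]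
        exact ⟨c, hc, rfl⟩
      have h2 := h c.1 h1
      rw [← h2]
      group
    · intro h v hv
      rw [← hV] at hv
      obtain ⟨c, hc, rfl⟩ := hv
      have h1 := congrArg Subtype.val (h c hc)
      rw [hφ] at h1
      have h2 : e * (c : S) * e⁻¹ = c := h1
      calc M.subtype c * e = e * (c : S) * e⁻¹ * e := by rw [h2]; rfl
        _ = e * M.subtype c := by simp
  rw [heq]
  intro hcyc
  obtain ⟨g, hg⟩ := hcyc.exists_generator
  have h1 : orderOf g = Nat.card ↥(F ⊓ Cen φ x) := orderOf_eq_card_of_forall_mem_zpowers hg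
  have h2 : g ^ r = 1 := by
    apply Subtype.ext
    simpa using hFe.2 g.1 g.2.1
  have h3 : orderOf g ≤ r := Nat.le_of_dvd hr.pos (orderOf_dvd_of_pow_eq_one h2)
  rw [h1] at h3
  have h4 : r < r ^ 2 := by
    have := hr.two_le
    nlinarith
  omega

end Cfsg.Agent.S4404
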