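import Mathlib
import Cfsg.Statements.S4405
import Cfsg.Agent.Lib.PCore
import Cfsg.Agent.Lib.BurnsidePQ
import Cfsg.Agent.Lib.Frat
import Cfsg.Agent.Lib.SectRank

set_option autoImplicit false
open Cfsg
open Cfsg.Agent.Lib

namespace Cfsg.Agent.S4405

section abstract_part
variable {Q : Type*} [Group Q]

/-- Fixed points of an automorphism. -/
def Fx (f : MulAut Q) : Subgroup Q where
  carrier := {u | f u = u}
  mul_mem' := by
    intro a b ha hb
    simp only [Set.mem_ofPred_eq] at *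
    rw [map_mul, ha, hb]
  one_mem' := map_one f
  inv_mem' := by
    intro a ha
    simp only [Set.mem_ofPred_eq] at *
    rw [map_inv, ha]

lemma mem_Fx {f : MulAut Q} {u : Q} : u ∈ Fx f ↔ f u = u := Iff.rfl

lemma card_mod [Finite Q] (ξ : MulAut Q) (h5 : ξ ^ 5 = 1) (A : Subgroup Q) (hA : ∀ a ∈ A, ξ a ∈ A) :
    Nat.card A ≡ Nat.card ↥(A ⊓ Fx ξ) [MOD 5] := by
  classical
  have : Fact (Nat.Prime 5) := ⟨by norm_num⟩
  let F : Function.End ↥A := fun a => ⟨ξ a, hA a a.2⟩
  have hFn : ∀ (n : ℕ) (a : ↥A), (((F ^ n) a : ↥A) : Q) = (ξ ^ n) (a : Q) := by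
    intro n
    induction n with
    | zero => intro a; rfl
    | succ n ih =>
      intro a
      rw [pow_succ, pow_succ]
      change (((F ^ n) (F a) : ↥A) : Q) = (ξ ^ n) (ξ (a : Q))
      exact ih (F a)
  have hF1 : F ^ (5 ^ 1) = 1 := by
    funext a
    apply Subtype.ext
    rw [pow_one, hFn, h5]
    rfl
  have : Fintype ↥A := Fintype.ofFinite _
  have hmod := Equiv.Perm.card_fixedPoints_modEq (f := F) hF1
  have hcE : Nat.card ↥(A ⊓ Fx ξ) = Nat.card (Function.fixedPoints F) := by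
    refine Nat.card_congr ⟨fun a => ⟨⟨a, a.2.1⟩, Subtype.ext a.2.2⟩,
      fun a => ⟨a.1, a.1.2, congrArg Subtype.val a.2⟩, fun a => rfl, fun a => rfl⟩
  rw [hcE]
  simpa only [Nat.card_eq_fintype_card] using hmod

theorem fx_card_le [Finite Q] (hQ16 : Nat.card Q = 16) (hQ2 : ∀ u : Q, u * u = 1)
    (hc : ∀ u v : Q, u * v = v * u) (ξ σ : MulAut Q) (h5 : ξ ^ 5 = 1) (hξ : ξ ≠ 1) (hσ2 : σ ^ 2 = 1)
    (hσ : σ ≠ 1) (j : ℤ) (hj : σ * ξ * σ⁻¹ = ξ ^ j) (hne : Fx σ ≠ ⊥) : Nat.card (Fx σ) ≤ 4 := by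
  have hdvd16 : ∀ A : Subgroup Q, Nat.card A ∣ 16 := fun A => hQ16 ▸ Subgroup.card_subgroup_dvd_card A
  have hcases : ∀ A : Subgroup Q, Nat.card A ≡ 1 [MOD 5] → A = ⊥ ∨ A = ⊤ := by
    intro A hA
    have h1 := hdvd16 A
    have h2 : Nat.card A ∈ Nat.divisors 16 := Nat.mem_divisors.2 ⟨h1, by norm_num⟩
    have h3 : Nat.divisors 16 = {1, 2, 4, 8, 16} := by decide
    rw [h3] at h2
    simp only [Finset.mem_insert, Finset.mem_singleton] at h2
    rcases h2 with h | h | h | h | h
    · left; exact Subgroup.eq_bot_of_card_eq A h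
    · rw [h] at hA; exact absurd hA (by decide)
    · rw [h] at hA; exact absurd hA (by decide)
    · rw [h] at hA; exact absurd hA (by decide)
    · right; exact Subgroup.eq_top_of_card_eq A (h.trans hQ16.symm)
  -- the fixed points of ξ are trivial
  have hfix : ∀ u, ξ u = u → u = 1 := by
    have h1 := card_mod ξ h5 ⊤ (fun a _ => Subgroup.mem_top _)
    have h2 : Nat.card (⊤ : Subgroup Q) = 16 := by rw [Subgroup.card_top, hQ16]
    rw [top_inf_eq, h2] at h1
    have h3 : Nat.card (Fx ξ) ≡ 1 [MOD 5] := h1.symm.trans (by decide)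
    rcases hcases _ h3 with h | h
    · intro u hu
      have : u ∈ Fx ξ := hu
      rw [h] at this
      exact this
    · exfalso
      apply hξ
      ext u
      have : u ∈ Fx ξ := by rw [h]; trivial
      exact this
  have : Fact (Nat.Prime 5) := ⟨by norm_num⟩
  have hord : orderOf ξ = 5 := orderOf_eq_prime h5 hξ
  -- j is ± 1 mod 5
  have hj2 : ξ ^ (j * j) = ξ := by
    have h1 : σ * (ξ ^ j) * σ⁻¹ = (σ * ξ * σ⁻¹) ^ j := by
      rw [← conj_zpow]
    have h2 : σ * (σ * ξ * σ⁻¹) * σ⁻¹ = ξ := by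
      have : σ * (σ * ξ * σ⁻¹) * σ⁻¹ = σ ^ 2 * ξ * (σ ^ 2)⁻¹ := by rw [pow_two]; group
      rw [this, hσ2]; group
    rw [hj] at h2
    rw [h1, hj, ← zpow_mul] at h2
    exact h2
  have hdvd : (5 : ℤ) ∣ j * j - 1 := by
    have h3 : ξ ^ (j * j - 1) = 1 := by
      rw [zpow_sub, hj2, zpow_one, mul_inv_cancel]
    have := orderOf_dvd_iff_zpow_eq_one.2 h3
    rwa [hord] at this
  have hcase : (5 : ℤ) ∣ j - 1 ∨ (5 : ℤ) ∣ j + 1 := by
    have hp : Prime (5 : ℤ) := by norm_num
    have : j * j - 1 = (j - 1) * (j + 1) := by ring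
    rw [this] at hdvd
    exact hp.dvd_or_dvd hdvd
  rcases hcase with h1 | h1
  · -- σ commutes with ξ
    exfalso
    have hjξ : ξ ^ j = ξ := by
      obtain ⟨k, hk⟩ := h1
      have : j = 1 + 5 * k := by linarith
      rw [this, zpow_add, zpow_one, zpow_mul]
      have h55 : ξ ^ (5 : ℤ) = 1 := by exact_mod_cast h5
      rw [h55, one_zpow, mul_one]
    rw [hjξ] at hj
    have hcomm : σ * ξ = ξ * σ := by
      calc σ * ξ = (σ * ξ * σ⁻¹) * σ := by group
        _ = ξ * σ := by rw [hj]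
    have hinv : ∀ a ∈ Fx σ, ξ a ∈ Fx σ := by
      intro a ha
      rw [mem_Fx] at ha ⊢
      have := congrArg (fun f : MulAut Q => f a) hcomm
      simp only [MulAut.mul_apply, ha] at this
      exact this
    have h2 := card_mod ξ h5 (Fx σ) hinv
    have h3 : Fx σ ⊓ Fx ξ = ⊥ := by
      rw [eq_bot_iff]
      intro u hu
      exact hfix u hu.2
    rw [h3, Subgroup.card_bot] at h2
    rcases hcases _ h2 with h | h
    · exact hne h
    · apply hσ
      ext u
      have : u ∈ Fx σ := by rw [h]; trivial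
      exact this
  · -- σ inverts ξ
    have hjξ : ξ ^ j = ξ⁻¹ := by
      obtain ⟨k, hk⟩ := h1
      have : j = -1 + 5 * k := by linarith
      rw [this, zpow_add, zpow_neg, zpow_one, zpow_mul]
      have h55 : ξ ^ (5 : ℤ) = 1 := by exact_mod_cast h5
      rw [h55, one_zpow, mul_one]
    rw [hjξ] at hj
    have hcomm : ∀ u, σ (ξ u) = ξ⁻¹ (σ u) := by
      intro u
      have : σ * ξ = ξ⁻¹ * σ := by
        calc σ * ξ = (σ * ξ * σ⁻¹) * σ := by group
          _ = ξ⁻¹ * σ := by rw [hj]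
      exact congrArg (fun f : MulAut Q => f u) this
    -- key: ξ w ∈ Fx σ with w ∈ Fx σ forces w = 1
    have hkey : ∀ w ∈ Fx σ, ξ w ∈ Fx σ → w = 1 := by
      intro w hw hw2
      rw [mem_Fx] at hw hw2
      rw [hcomm, hw] at hw2
      have h3 : ξ (ξ w) = w := by
        have := congrArg ξ hw2
        rw [show ξ (ξ⁻¹ w) = w from by simp] at this
        exact this.symm
      have h4 : (ξ ^ 2) w = w := by
        rw [pow_two]; exact h3
      have h5' : (ξ ^ 5) w = ξ w := by
        have : ξ ^ 5 = ξ * ξ ^ 2 * ξ ^ 2 := by group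
        rw [this]
        simp only [MulAut.mul_apply, h4]
      rw [h5] at h5'
      exact hfix w h5'.symm
    let g : ↥(Fx σ) × ↥(Fx σ) → Q := fun p => (p.1 : Q) * ξ (p.2 : Q)
    have hg : Function.Injective g := by
      rintro ⟨⟨a, ha⟩, ⟨b, hb⟩⟩ ⟨⟨c, hc'⟩, ⟨d, hd⟩⟩ he
      simp only [g] at he
      have e1 : ξ (b * d⁻¹) = c * a⁻¹ := by
        rw [map_mul, map_inv]
        have h6 : ξ b = a⁻¹ * (c * ξ d) := by
          rw [← he]; group
        rw [h6]
        calc a⁻¹ * (c * ξ d) * (ξ d)⁻¹ = a⁻¹ * c := by group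
          _ = c * a⁻¹ := hc _ _
      have h7 : b * d⁻¹ = 1 := by
        apply hkey _ (mul_mem hb (inv_mem hd))
        rw [e1]
        exact mul_mem hc' (inv_mem ha)
      have e2 : b = d := mul_inv_eq_one.1 h7
      subst e2
      have e3 : a = c := mul_right_cancel he
      subst e3
      rfl
    have hcard := Nat.card_le_card_of_injective g hg
    rw [Nat.card_prod, hQ16] at hcard
    by_contra hlt
    have h5 : 5 ≤ Nat.card (Fx σ) := by omega
    have := Nat.mul_le_mul h5 h5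
    omega

theorem fx_range [Finite Q] (hQ16 : Nat.card Q = 16) (hQ2 : ∀ u : Q, u * u = 1)
    (hc : ∀ u v : Q, u * v = v * u) (σ : MulAut Q) (hσ2 : σ ^ 2 = 1)
    (h4 : Nat.card (Fx σ) = 4) : ∀ u ∈ Fx σ, ∃ y, u = σ y * y⁻¹ := by
  let θ : Q →* Q := MonoidHom.mk' (fun y => σ y * y⁻¹) (by
    intro a b
    simp only [map_mul, mul_inv_rev]
    calc σ a * σ b * (b⁻¹ * a⁻¹) = σ a * (σ b * b⁻¹) * a⁻¹ := by group
      _ = σ a * (σ b * b⁻¹ * a⁻¹) := by group
      _ = σ a * (a⁻¹ * (σ b * b⁻¹)) := by rw [hc _ a⁻¹]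
      _ = σ a * a⁻¹ * (σ b * b⁻¹) := by group)
  have hθ : ∀ y, θ y = σ y * y⁻¹ := fun y => rfl
  have hker : θ.ker = Fx σ := by
    ext y
    rw [MonoidHom.mem_ker, hθ, mem_Fx, mul_inv_eq_one]
  have hrange : θ.range ≤ Fx σ := by
    rintro _ ⟨y, rfl⟩
    rw [mem_Fx, hθ, map_mul, map_inv]
    have h1 : σ (σ y) = y := by
      have := congrArg (fun f : MulAut Q => f y) hσ2
      simpa [pow_two] using this
    rw [h1]
    -- y * (σ y)⁻¹ = σ y * y⁻¹
    have hinv : ∀ u : Q, u⁻¹ = u := fun u => inv_eq_of_mul_eq_one_left (hQ2 u)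
    rw [hinv, hinv, hc]
  have hcardr : Nat.card θ.range = 4 := by
    have h1 := Subgroup.card_mul_index θ.ker
    rw [hker, h4, hQ16] at h1
    have h2 : θ.ker.index = Nat.card θ.range := Subgroup.index_ker θ
    rw [hker] at h2
    omega
  have heq : θ.range = Fx σ := Subgroup.eq_of_le_of_card_ge hrange (by rw [h4, hcardr])
  intro u hu
  rw [← heq] at hu
  obtain ⟨y, rfl⟩ := hu
  exact ⟨y, rfl⟩

end abstract_part


section concrete
variable {G : Type*} [Group G]

/-- The action on `H / Z(H)`. -/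
noncomputable def rho (H : Subgroup G) [H.Normal] : G →* MulAut (↥H ⧸ Subgroup.center ↥H) where
  toFun g := QuotientGroup.congr (Subgroup.center ↥H) (Subgroup.center ↥H) (MulAut.conjNormal g)
    (Subgroup.characteristic_iff_map_eq.1 inferInstance (MulAut.conjNormal g))
  map_one' := by
    ext u
    obtain ⟨y, rfl⟩ := QuotientGroup.mk_surjective u
    simp [QuotientGroup.congr_mk]
  map_mul' := by
    intro a b
    ext u
    obtain ⟨y, rfl⟩ := QuotientGroup.mk_surjective u
    simp [QuotientGroup.congr_mk]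
    rfl

lemma rho_mk (H : Subgroup G) [H.Normal] (g : G) (y : ↥H) :
    rho H g (QuotientGroup.mk y) = QuotientGroup.mk (MulAut.conjNormal g y) := rfl

end concrete

theorem result {G : Type*} [Group G] [Finite G]
    (hG : Nat.card G = 320) (hHF : Cfsg.pCore 2 G = Cfsg.fittingSubgroup G)
    (hex : Cfsg.IsExtraspecial 2 ↥(Cfsg.pCore 2 G)) (h32 : Nat.card ↥(Cfsg.pCore 2 G) = 32)
    (hminus : ∀ A : Subgroup G, A ≤ Cfsg.pCore 2 G → Cfsg.IsElementaryAbelian 2 A → Nat.card ↥A ≤ 4)
    (T : G) (hT : orderOf T = 2) (hTH : T ∉ Cfsg.pCore 2 G)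
    (V : Subgroup G) (hV : V ≤ Cfsg.pCore 2 G ⊓ Subgroup.centralizer ({T} : Set G)) (hV4 : Nat.card ↥V = 4) (hVe : Cfsg.IsElementaryAbelian 2 V) :
    Nat.card ↥(Cfsg.pCore 2 G ⊓ Subgroup.centralizer ({T} : Set G)) = 4 ∧
      Cfsg.IsElementaryAbelian 2 (Cfsg.pCore 2 G ⊓ Subgroup.centralizer ({T} : Set G)) := by
  classical
  have f2 : Fact (Nat.Prime 2) := ⟨Nat.prime_two⟩
  have f5 : Fact (Nat.Prime 5) := ⟨by norm_num⟩
  have hsolv : Group.IsSolvable G :=
    BurnsidePQ.isSolvable_of_card_eq 2 5 Nat.prime_two (by norm_num) 320 G hG ⟨6, 1, by norm_num⟩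
  set H := pCore 2 G with hH
  have hHn : H.Normal := PCore.pCore_normal 2
  obtain ⟨⟨hp, hfr, hcomm⟩, hz2⟩ := hex
  have hCH : Subgroup.centralizer (H : Set G) ≤ H := by
    rw [hHF]; exact PCore.centralizer_fittingSubgroup_le
  let Z : Subgroup ↥H := Subgroup.center ↥H
  let Q := ↥H ⧸ Subgroup.center ↥H
  have hQ16 : Nat.card Q = 16 := by
    have h1 := Subgroup.card_eq_card_quotient_mul_card_subgroup (Subgroup.center ↥H)
    rw [h32, hz2] at h1
    change 32 = Nat.card Q * 2 at h1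
    omega
  have hQ2' : ∀ u : Q, u ^ 2 = 1 := by
    intro u
    obtain ⟨y, rfl⟩ := QuotientGroup.mk_surjective u
    rw [← QuotientGroup.mk_pow, QuotientGroup.eq_one_iff, ← hfr]
    exact Frat.pow_mem_frattini hp y
  have hQ2 : ∀ u : Q, u * u = 1 := fun u => by rw [← pow_two]; exact hQ2' u
  have hQc : ∀ u v : Q, u * v = v * u := SectRank.comm_of_exp_two hQ2'
  have hZsq : ∀ ζ ∈ Subgroup.center ↥H, ζ ^ 2 = 1 := by
    intro ζ hζ
    have := pow_card_eq_one' (x := (⟨ζ, hζ⟩ : Subgroup.center ↥H))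
    rw [hz2] at this
    exact congrArg Subtype.val this
  obtain ⟨u₀, hu₀, huniq⟩ := (Nat.card_eq_two_iff' (1 : Subgroup.center ↥H)).1 hz2
  have hZc : ∀ ζ ∈ Subgroup.center ↥H, ∀ g : G, g * (ζ : G) = (ζ : G) * g := by
    intro ζ hζ g
    by_cases h1 : ζ = 1
    · subst h1; simp
    · have hcζ : (MulAut.conjNormal g ζ) ∈ Subgroup.center ↥H := by
        have hc : (Subgroup.center ↥H).Characteristic := inferInstance
        have := (Subgroup.characteristic_iff_le_comap.1 hc (MulAut.conjNormal g)) hζ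
        exact this
      have h2 : (⟨ζ, hζ⟩ : Subgroup.center ↥H) = u₀ :=
        huniq _ (fun h => h1 (congrArg Subtype.val h))
      have h3 : (⟨_, hcζ⟩ : Subgroup.center ↥H) = u₀ := huniq _ (fun h => h1 (by
        have h4 : MulAut.conjNormal g ζ = 1 := congrArg Subtype.val h
        exact (map_eq_one_iff _ (MulEquiv.injective _)).1 h4))
      have h4 : MulAut.conjNormal g ζ = ζ := congrArg Subtype.val (h3.trans h2.symm)
      have h5 : g * (ζ : G) * g⁻¹ = ζ := by
        have := congrArg Subtype.val h4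
        rwa [MulAut.conjNormal_apply] at this
      calc g * (ζ : G) = g * (ζ : G) * g⁻¹ * g := by group
        _ = (ζ : G) * g := by rw [h5]
  set ρ := rho H with hρ
  have hρH : ∀ h ∈ H, ρ h = 1 := by
    intro h hh
    ext u
    obtain ⟨y, rfl⟩ := QuotientGroup.mk_surjective u
    rw [hρ, rho_mk]
    have e : MulAut.conjNormal h y = ⟨h, hh⟩ * y * (⟨h, hh⟩ : ↥H)⁻¹ := by
      apply Subtype.ext
      rw [MulAut.conjNormal_apply]
      rfl
    rw [e, QuotientGroup.mk_mul, QuotientGroup.mk_mul, QuotientGroup.mk_inv, hQc _ (QuotientGroup.mk y)]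
    simp
  -- elements of order 5 act nontrivially
  have h_ker : ∀ x : G, x ^ 5 = 1 → ρ x = 1 → x = 1 := by
    intro x hx5 hρx
    have hcent : x ∈ Subgroup.centralizer (H : Set G) := by
      rw [Subgroup.mem_centralizer_iff]
      intro y hy
      have h1 : (QuotientGroup.mk (MulAut.conjNormal x ⟨y, hy⟩) : Q) = QuotientGroup.mk ⟨y, hy⟩ := by
        rw [← rho_mk, ← hρ, hρx]; rfl
      have h2 : (⟨y, hy⟩ : ↥H)⁻¹ * MulAut.conjNormal x ⟨y, hy⟩ ∈ Subgroup.center ↥H :=
        QuotientGroup.eq.1 h1.symm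
      set ζ : ↥H := (⟨y, hy⟩ : ↥H)⁻¹ * MulAut.conjNormal x ⟨y, hy⟩ with hζ
      have h3 : x * y * x⁻¹ = y * (ζ : G) := by
        rw [hζ]
        simp [MulAut.conjNormal_apply]
      have hzc := hZc ζ h2
      have h4 : ∀ n : ℕ, x ^ n * y * (x ^ n)⁻¹ = y * (ζ : G) ^ n := by
        intro n
        induction n with
        | zero => simp
        | succ n ih =>
          have : x ^ (n + 1) * y * (x ^ (n + 1))⁻¹ = x * (x ^ n * y * (x ^ n)⁻¹) * x⁻¹ := by
            rw [pow_succ']; group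
          rw [this, ih]
          have e : x * (y * (ζ : G) ^ n) * x⁻¹ = (x * y * x⁻¹) * (x * (ζ : G) ^ n * x⁻¹) := by group
          have e2 : x * (ζ : G) ^ n * x⁻¹ = (ζ : G) ^ n := by
            have c : Commute x ((ζ : G) ^ n) := (Commute.pow_right (hzc x) n)
            rw [c.eq]; group
          rw [e, e2, h3, pow_succ']
          group
      have h5 := h4 5
      rw [hx5] at h5
      have h6 : (ζ : G) ^ 5 = 1 := by
        have : y = y * (ζ : G) ^ 5 := by simpa using h5
        exact (mul_eq_left.1 this.symm)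
      have h7 : (ζ : G) ^ 2 = 1 := congrArg Subtype.val (hZsq ζ h2)
      have h8 : (ζ : G) = 1 := by
        have : (ζ : G) = (ζ : G) ^ 5 * ((ζ : G) ^ 2)⁻¹ * ((ζ : G) ^ 2)⁻¹ := by group
        rw [this, h6, h7]; simp
      rw [h8, mul_one] at h3
      calc y * x = x * y * x⁻¹ * x := by rw [h3]
        _ = x * y := by group
    have hxH := hCH hcent
    have h1 : orderOf x ∣ 32 := by
      rw [← h32]; exact Subgroup.orderOf_dvd_natCard H hxH
    have h2 : orderOf x ∣ 5 := orderOf_dvd_of_pow_eq_one hx5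
    have h3 : orderOf x ∣ 1 := by
      have := Nat.dvd_gcd h1 h2
      simpa using this
    exact orderOf_eq_one_iff.1 (Nat.dvd_one.1 h3)
  have hkerH : ρ.ker ≤ H := by
    apply PCore.le_pCore (inferInstance)
    have hd : Nat.card ρ.ker ∣ 320 := hG ▸ Subgroup.card_subgroup_dvd_card ρ.ker
    have h5 : ¬ 5 ∣ Nat.card ρ.ker := by
      intro h5
      obtain ⟨x, hx⟩ := exists_prime_orderOf_dvd_card' (p := 5) h5
      have h1 : (x : G) = 1 := h_ker x (by
        have := pow_orderOf_eq_one x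
        rw [hx] at this
        exact congrArg Subtype.val this) x.2
      have h2 : x = 1 := Subtype.ext h1
      rw [h2, orderOf_one] at hx
      omega
    have hd2 : Nat.card ρ.ker ∣ 2 ^ 6 := by
      have hc : Nat.Coprime (Nat.card ρ.ker) 5 := ((Nat.Prime.coprime_iff_not_dvd (by norm_num)).2 h5).symm
      have h320 : (320 : ℕ) = 2 ^ 6 * 5 := by norm_num
      rw [h320] at hd
      exact hc.dvd_of_dvd_mul_right hd
    obtain ⟨k, -, hk⟩ := (Nat.dvd_prime_pow Nat.prime_two).1 hd2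
    exact IsPGroup.of_card hk
  obtain ⟨x, hx⟩ := exists_prime_orderOf_dvd_card' (G := G) 5 (by rw [hG]; norm_num)
  have hx5 : x ^ 5 = 1 := by rw [← hx]; exact pow_orderOf_eq_one x
  have hx1 : x ≠ 1 := by
    intro h; rw [h, orderOf_one] at hx; omega
  have hxH : x ∉ H := by
    intro h
    have h1 : orderOf x ∣ 32 := by
      rw [← h32]; exact Subgroup.orderOf_dvd_natCard H h
    rw [hx] at h1
    omega
  set ξ := ρ x with hξ
  set σ := ρ T with hσ
  have hξ5 : ξ ^ 5 = 1 := by rw [hξ, ← map_pow, hx5, map_one]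
  have hξ1 : ξ ≠ 1 := fun h => hxH (hkerH h)
  have hT2 : T ^ 2 = 1 := by rw [← hT]; exact pow_orderOf_eq_one T
  have hσ2 : σ ^ 2 = 1 := by rw [hσ, ← map_pow, hT2, map_one]
  have hσ1 : σ ≠ 1 := fun h => hTH (hkerH h)
  -- the relation between σ and ξ
  obtain ⟨j, hj⟩ : ∃ j : ℤ, σ * ξ * σ⁻¹ = ξ ^ j := by
    let π := QuotientGroup.mk' H
    have hord : orderOf (π x) = 5 := by
      apply orderOf_eq_prime
      · rw [← map_pow, hx5, map_one]
      · intro h
        exact hxH ((QuotientGroup.eq_one_iff x).1 h)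
    have hcardq : Nat.card (G ⧸ H) = 10 := by
      have h1 := Subgroup.card_eq_card_quotient_mul_card_subgroup H
      rw [h32, hG] at h1
      omega
    have hidx : (Subgroup.zpowers (π x)).index = 2 := by
      have h1 := Subgroup.card_mul_index (Subgroup.zpowers (π x))
      rw [Nat.card_zpowers, hord, hcardq] at h1
      omega
    have hn := Subgroup.normal_of_index_eq_two hidx
    have h1 := hn.conj_mem (π x) (Subgroup.mem_zpowers _) (π T)
    obtain ⟨j, hj⟩ := Subgroup.mem_zpowers_iff.1 h1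
    refine ⟨j, ?_⟩
    have h2 : (x ^ j)⁻¹ * (T * x * T⁻¹) ∈ H := by
      apply QuotientGroup.eq.1
      show π (x ^ j) = π (T * x * T⁻¹)
      rw [map_zpow, hj]
      simp
    have h3 := hρH _ h2
    rw [map_mul, map_inv, map_zpow, map_mul, map_mul, map_inv] at h3
    have h4 := (inv_mul_eq_one.1 h3)
    exact h4.symm
  -- fixed points of σ are nontrivial
  have hZmap : Nat.card ((Subgroup.center ↥H).map H.subtype) = 2 := by
    rw [Subgroup.card_map_of_injective H.subtype_injective, hz2]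
  have hFne : Fx σ ≠ ⊥ := by
    have hnle : ¬ V ≤ (Subgroup.center ↥H).map H.subtype := by
      intro hle
      have := Subgroup.card_le_of_le hle
      omega
    obtain ⟨v, hvV, hvZ⟩ := SetLike.not_le_iff_exists.1 hnle
    intro hbot
    have hvH : v ∈ H := (hV hvV).1
    have hvT : v * T = T * v := by
      have := Subgroup.mem_centralizer_iff.1 (hV hvV).2 T (by simp)
      exact this.symm
    have h1 : (QuotientGroup.mk ⟨v, hvH⟩ : Q) ∈ Fx σ := by
      rw [mem_Fx, hσ, hρ, rho_mk]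
      congr 1
      apply Subtype.ext
      rw [MulAut.conjNormal_apply]
      show T * v * T⁻¹ = v
      rw [← hvT]; group
    rw [hbot, Subgroup.mem_bot, QuotientGroup.eq_one_iff] at h1
    exact hvZ ⟨⟨v, hvH⟩, h1, rfl⟩
  have hFle := fx_card_le hQ16 hQ2 hQc ξ σ hξ5 hξ1 hσ2 hσ1 j hj hFne
  set C := H ⊓ Subgroup.centralizer ({T} : Set G) with hC
  have hCT : ∀ w ∈ C, T * w = w * T := by
    intro w hw
    have := Subgroup.mem_centralizer_iff.1 (Subgroup.mem_inf.1 hw).2 T (by simp)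
    exact this
  have hCF : ∀ w (hw : w ∈ C), (QuotientGroup.mk ⟨w, (Subgroup.mem_inf.1 hw).1⟩ : Q) ∈ Fx σ := by
    intro w hw
    rw [mem_Fx, hσ, hρ, rho_mk]
    congr 1
    apply Subtype.ext
    rw [MulAut.conjNormal_apply]
    show T * w * T⁻¹ = w
    rw [hCT w hw]; group
  have hVC : V ≤ C := hV
  have hC4 : Nat.card C ≤ 4 := by
    by_cases hF4 : Nat.card (Fx σ) = 4
    · apply hminus C inf_le_left
      have hsq : ∀ w ∈ C, w ^ 2 = 1 := by
        intro w hw
        have hwH := (Subgroup.mem_inf.1 hw).1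
        obtain ⟨v, hv⟩ := fx_range hQ16 hQ2 hQc σ hσ2 hF4 _ (hCF w hw)
        obtain ⟨y, rfl⟩ := QuotientGroup.mk_surjective v
        rw [hσ, hρ, rho_mk, ← QuotientGroup.mk_inv, ← QuotientGroup.mk_mul] at hv
        have h1 := QuotientGroup.eq.1 hv
        set ζ := (⟨w, hwH⟩ : ↥H)⁻¹ * ((MulAut.conjNormal T) y * y⁻¹) with hζ
        set c : G := T * y * T⁻¹ * (y : G)⁻¹ with hc
        have hcζ : c = w * (ζ : G) := by
          rw [hζ, hc]
          simp [MulAut.conjNormal_apply]
        have hζc := hZc ζ h1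
        have hcT : T * c = c * T := by
          rw [hcζ]
          calc T * (w * (ζ : G)) = (T * w) * (ζ : G) := by group
            _ = (w * T) * (ζ : G) := by rw [hCT w hw]
            _ = w * (T * (ζ : G)) := by group
            _ = w * ((ζ : G) * T) := by rw [hζc T]
            _ = w * (ζ : G) * T := by group
        have hTi : T⁻¹ = T := by
          rw [inv_eq_iff_mul_eq_one, ← pow_two, hT2]
        have hcc : c * c = 1 := by
          have h2 : T * c * T⁻¹ = c := by rw [hcT]; group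
          have h3 : T * c * T⁻¹ = c⁻¹ := by
            rw [hc]
            have : T * (T * y * T⁻¹ * (y : G)⁻¹) * T⁻¹ = (T * T) * y * T⁻¹ * (y : G)⁻¹ * T⁻¹ := by group
            rw [this, ← pow_two, hT2, hTi]
            simp only [mul_inv_rev, inv_inv, hTi, one_mul, mul_assoc]
          rw [h2] at h3
          calc c * c = c * c⁻¹ := by rw [← h3]
            _ = 1 := by group
        have hζ2 : (ζ : G) ^ 2 = 1 := congrArg Subtype.val (hZsq ζ h1)
        have hwe : w = c * (ζ : G)⁻¹ := by rw [hcζ]; group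
        have hcom : (ζ : G)⁻¹ * c = c * (ζ : G)⁻¹ := by
          have := (hζc c)
          have h5 : Commute c (ζ : G) := this
          exact (h5.inv_right).eq.symm
        rw [pow_two]
        rw [hwe]
        calc c * (ζ : G)⁻¹ * (c * (ζ : G)⁻¹) = c * ((ζ : G)⁻¹ * c) * (ζ : G)⁻¹ := by group
          _ = c * (c * (ζ : G)⁻¹) * (ζ : G)⁻¹ := by rw [hcom]
          _ = (c * c) * ((ζ : G) ^ 2)⁻¹ := by rw [pow_two]; group
          _ = 1 := by rw [hcc, hζ2]; simp
      refine ⟨⟨⟨fun a b => ?_⟩⟩, hsq⟩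
      exact SectRank.comm_of_exp_two (fun u : ↥C => Subtype.ext (hsq u u.2)) a b
    · -- image in Fx σ has at most three elements
      have hF3 : Nat.card (Fx σ) ≤ 3 := Nat.le_of_lt_succ (lt_of_le_of_ne hFle hF4)
      let g : ↥C →* Q := (QuotientGroup.mk' (Subgroup.center ↥H)).comp
        (Subgroup.inclusion (inf_le_left : C ≤ H))
      have hg1 : Nat.card g.range ≤ 3 := by
        refine le_trans (Subgroup.card_le_of_le ?_) hF3
        rintro _ ⟨⟨w, hw⟩, rfl⟩
        exact hCF w hw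
      have hg2 : Nat.card g.ker ≤ 2 := by
        rw [← hz2]
        refine Nat.card_le_card_of_injective
          (fun c => (⟨Subgroup.inclusion (inf_le_left : C ≤ H) c.1, (QuotientGroup.eq_one_iff _).1 c.2⟩ :
            Subgroup.center ↥H)) ?_
        intro a b hab
        have := congrArg (fun t : Subgroup.center ↥H => ((t : ↥H) : G)) hab
        exact Subtype.ext (Subtype.ext this)
      have h6 := Subgroup.card_mul_index g.ker
      rw [Subgroup.index_ker] at h6
      have h7 : Nat.card C ≤ 6 := by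
        rw [← h6]
        exact Nat.mul_le_mul hg2 hg1
      have h8 : Nat.card V ∣ Nat.card C := Subgroup.card_dvd_of_le hVC
      rw [hV4] at h8
      obtain ⟨k, hk⟩ := h8
      have hCpos : 0 < Nat.card C := Nat.card_pos
      have : k ≤ 1 := by omega
      omega
  have hCV : V = C := Subgroup.eq_of_le_of_card_ge hVC (by rw [hV4]; exact hC4)
  rw [← hCV]
  exact ⟨hV4, hVe⟩

end Cfsg.Agent.S4405
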