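import Mathlib
import Cfsg.Statements.S4406

set_option autoImplicit false
open Cfsg

namespace Cfsg.Agent.S4406

private abbrev A := ↥(alternatingGroup (Fin 4))

private theorem L0 : ∀ a : A, a ^ 2 = 1 ∨ a ^ 3 = 1 := by decide +kernel
private theorem L1 : Nat.card A = 12 := by
  rw [Nat.card_eq_fintype_card]; decide +kernel
private theorem Lord2 : ∀ a : A, a ^ 4 = 1 → a ^ 2 = 1 := by decide +kernel
private theorem L2 : ∀ α v : A, α ^ 3 = 1 → α ≠ 1 → v ^ 2 = 1 → v ≠ 1 → α * v * α⁻¹ ≠ v := by decide +kernel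
set_option synthInstance.maxHeartbeats 2000000 in
set_option synthInstance.maxSize 2000 in
private theorem L3 : ∀ β w : A, β ^ 3 = 1 ∧ β ≠ 1 ∧ w ^ 2 = 1 ∧ w ≠ 1 → ∀ w' : A, w' ^ 2 = 1 ∧ w' ≠ 1 ∧ w' ≠ w → β * w * β⁻¹ = w' ∨ β⁻¹ * w * β = w' := by decide +kernel
private theorem L4 : ∀ α v : A, α ^ 3 = 1 ∧ α ≠ 1 ∧ v ^ 2 = 1 ∧ v ≠ 1 → α * (α * v * α⁻¹) * α⁻¹ = v * (α * v * α⁻¹) := by decide +kernel
set_option synthInstance.maxHeartbeats 2000000 in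
set_option synthInstance.maxSize 2000 in
private theorem L5 : ∀ v w : A, v ^ 2 = 1 ∧ v ≠ 1 ∧ w ^ 2 = 1 ∧ w ≠ 1 ∧ v ≠ w → ∀ u : A, u ^ 2 = 1 → u = 1 ∨ u = v ∨ u = w ∨ u = v * w := by decide +kernel
private theorem L6 : ∀ α v : A, v ^ 2 = 1 → (α * v * α⁻¹) ^ 2 = 1 := by decide +kernel
private theorem L7 : ∃ v : A, v ^ 2 = 1 ∧ v ≠ 1 := by decide +kernel
private theorem L8 : Nat.card {a : A // a ^ 2 = 1} = 4 := by
  rw [Nat.card_eq_fintype_card]; decide +kernel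

private lemma sq_of_two_power (a : A) (k : ℕ) (h : a ^ (2 ^ k) = 1) : a ^ 2 = 1 := by
  rcases L0 a with h2 | h3
  · exact h2
  · have h4 : orderOf a ∣ 2 ^ k := orderOf_dvd_of_pow_eq_one h
    have h5 : orderOf a ∣ 3 := orderOf_dvd_of_pow_eq_one h3
    have h6 : Nat.Coprime (2 ^ k) 3 := Nat.Coprime.pow_left k (by norm_num)
    have h7 : orderOf a = 1 := Nat.eq_one_of_dvd_coprimes h6 h4 h5
    rw [orderOf_eq_one_iff] at h7
    simp [h7]

/-- A subgroup of `A` that is a `3`-group has order at most `3`. -/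
private lemma card_le_three (K : Subgroup A) (hK : IsPGroup 3 K) : Nat.card K ≤ 3 := by
  obtain ⟨k, hk⟩ := IsPGroup.iff_card.1 hK
  have h1 : Nat.card K ∣ 12 := by
    rw [← L1]; exact Subgroup.card_subgroup_dvd_card K
  rw [hk] at h1 ⊢
  have hk1 : k ≤ 1 := by
    by_contra hcon
    have h2 : 3 ^ 2 ∣ 3 ^ k := pow_dvd_pow 3 (by omega)
    have h3 := h2.trans h1
    norm_num at h3
  interval_cases k <;> norm_num

private lemma card_prod_aux (K L : Subgroup A) :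
    Nat.card (Subgroup.prod K L) = Nat.card K * Nat.card L := by
  rw [← Nat.card_prod]
  exact Nat.card_congr (Subgroup.prodEquiv K L).toEquiv

/-- In the direct product P = A₄ × A₄, let X be the Sylow 2-subgroup, X₁ and X₂ its intersections with the two direct factors, Q a Sylow 3-subgroup and Q₁, Q₂ its intersections with the two factors. Then every subgroup B of X of order 4 either meets X₁ or X₂ nontrivially, or is normalized by one of the two subgroups of Q of order 3 other than Q₁ and Q₂. -/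
theorem result
    (X : Sylow 2 (↥(alternatingGroup (Fin 4)) × ↥(alternatingGroup (Fin 4))))
    (Q : Sylow 3 (↥(alternatingGroup (Fin 4)) × ↥(alternatingGroup (Fin 4))))
    (B : Subgroup (↥(alternatingGroup (Fin 4)) × ↥(alternatingGroup (Fin 4)))) (hBX : B ≤ (X : Subgroup _)) (hB4 : Nat.card ↥B = 4) :
    B ⊓ ((X : Subgroup _) ⊓ Subgroup.prod ⊤ ⊥) ≠ ⊥ ∨ B ⊓ ((X : Subgroup _) ⊓ Subgroup.prod ⊥ ⊤) ≠ ⊥ ∨
      ∃ R : Subgroup (↥(alternatingGroup (Fin 4)) × ↥(alternatingGroup (Fin 4))), R ≤ (Q : Subgroup _) ∧ Nat.card ↥R = 3 ∧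
        R ≠ (Q : Subgroup _) ⊓ Subgroup.prod ⊤ ⊥ ∧ R ≠ (Q : Subgroup _) ⊓ Subgroup.prod ⊥ ⊤ ∧ R ≤ Subgroup.normalizer (B : Set _) := by
  by_cases h1 : B ⊓ ((X : Subgroup _) ⊓ Subgroup.prod ⊤ ⊥) ≠ ⊥
  · exact Or.inl h1
  right
  by_cases h2 : B ⊓ ((X : Subgroup _) ⊓ Subgroup.prod ⊥ ⊤) ≠ ⊥
  · exact Or.inl h2
  right
  push Not at h1 h2
  -- elements of `B`
  have hB1 : ∀ x ∈ B, x.2 = 1 → x = 1 := by
    intro x hx hx2
    have : x ∈ B ⊓ ((X : Subgroup _) ⊓ Subgroup.prod ⊤ ⊥) := by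
      refine Subgroup.mem_inf.2 ⟨hx, Subgroup.mem_inf.2 ⟨hBX hx, Subgroup.mem_prod.2 ⟨trivial, hx2⟩⟩⟩
    rw [h1] at this
    exact this
  have hB2 : ∀ x ∈ B, x.1 = 1 → x = 1 := by
    intro x hx hx2
    have : x ∈ B ⊓ ((X : Subgroup _) ⊓ Subgroup.prod ⊥ ⊤) := by
      refine Subgroup.mem_inf.2 ⟨hx, Subgroup.mem_inf.2 ⟨hBX hx, Subgroup.mem_prod.2 ⟨hx2, trivial⟩⟩⟩
    rw [h2] at this
    exact this
  -- squares in `X`
  have hXsq : ∀ x ∈ B, x.1 ^ 2 = 1 ∧ x.2 ^ 2 = 1 := by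
    intro x hx
    obtain ⟨k, hk⟩ := (X.isPGroup' ⟨x, hBX hx⟩)
    have hk' : x ^ (2 ^ k) = 1 := congrArg Subtype.val hk
    have h1 : x.1 ^ (2 ^ k) = 1 := by simpa using congrArg Prod.fst hk'
    have h2 : x.2 ^ (2 ^ k) = 1 := by simpa using congrArg Prod.snd hk'
    exact ⟨sq_of_two_power _ _ h1, sq_of_two_power _ _ h2⟩
  -- the first projection from `B` is onto the involutions
  have hsurj : ∀ v : A, v ^ 2 = 1 → ∃ w : A, (v, w) ∈ B := by
    let f : ↥B → {a : A // a ^ 2 = 1} := fun x => ⟨x.1.1, (hXsq x.1 x.2).1⟩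
    have hf : Function.Injective f := by
      intro x y hxy
      have h3 : x.1.1 = y.1.1 := congrArg Subtype.val hxy
      have h4 := hB2 (x.1 * y.1⁻¹) (B.mul_mem x.2 (B.inv_mem y.2)) (by simp [h3])
      apply Subtype.ext
      exact mul_inv_eq_one.1 h4
    have hfb : Function.Bijective f := by
      apply Function.Injective.bijective_of_nat_card_le hf
      rw [L8, hB4]
    intro v hv
    obtain ⟨x, hx⟩ := hfb.2 ⟨v, hv⟩
    have h3 : x.1.1 = v := congrArg Subtype.val hx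
    refine ⟨x.1.2, ?_⟩
    rw [← h3]
    exact x.2
  -- the Sylow subgroup `Q`
  have hQcard : Nat.card (Q : Subgroup (A × A)) = 9 := by
    have hG : Nat.card (A × A) = 144 := by rw [Nat.card_prod, L1]
    obtain ⟨k, hk⟩ := IsPGroup.iff_card.1 Q.isPGroup'
    have h3 : ¬ 3 ∣ (Q : Subgroup (A × A)).index := Q.not_dvd_index
    have h4 := Subgroup.card_mul_index (Q : Subgroup (A × A))
    rw [hk, hG] at h4
    have hk2 : k ≤ 2 := by
      by_contra hcon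
      have h5 : 3 ^ 3 ∣ 3 ^ k := pow_dvd_pow 3 (by omega)
      have h6 : 3 ^ 3 ∣ 144 := h5.trans ⟨_, h4.symm⟩
      norm_num at h6
    rw [hk]
    interval_cases k
    · exfalso; apply h3; omega
    · exfalso; apply h3; omega
    · norm_num
  set Q1 : Subgroup A := (Q : Subgroup (A × A)).map (MonoidHom.fst A A) with hQ1
  set Q2 : Subgroup A := (Q : Subgroup (A × A)).map (MonoidHom.snd A A) with hQ2
  have hQ1c : Nat.card Q1 ≤ 3 := card_le_three _ (Q.isPGroup'.map _)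
  have hQ2c : Nat.card Q2 ≤ 3 := card_le_three _ (Q.isPGroup'.map _)
  have hle : (Q : Subgroup (A × A)) ≤ Subgroup.prod Q1 Q2 := by
    intro x hx
    exact Subgroup.mem_prod.2 ⟨⟨x, hx, rfl⟩, ⟨x, hx, rfl⟩⟩
  have hcard9 : 9 ≤ Nat.card Q1 * Nat.card Q2 := by
    have := Subgroup.card_le_of_le hle
    rw [hQcard, card_prod_aux] at this
    exact this
  have hQ1e : Nat.card Q1 = 3 := by nlinarith
  have hQ2e : Nat.card Q2 = 3 := by nlinarith
  have hQeq : (Q : Subgroup (A × A)) = Subgroup.prod Q1 Q2 := by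
    apply Subgroup.eq_of_le_of_card_ge hle
    rw [card_prod_aux, hQ1e, hQ2e, hQcard]
  obtain ⟨α, hαQ, hα1⟩ : ∃ α ∈ Q1, α ≠ 1 := by
    by_contra hcon
    push Not at hcon
    have : Q1 = ⊥ := (Subgroup.eq_bot_iff_forall _).2 hcon
    rw [this] at hQ1e
    simp at hQ1e
  obtain ⟨β, hβQ, hβ1⟩ : ∃ β ∈ Q2, β ≠ 1 := by
    by_contra hcon
    push Not at hcon
    have : Q2 = ⊥ := (Subgroup.eq_bot_iff_forall _).2 hcon
    rw [this] at hQ2e
    simp at hQ2e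
  have hα3 : α ^ 3 = 1 := by
    have := pow_card_eq_one' (G := Q1) (x := ⟨α, hαQ⟩)
    rw [hQ1e] at this
    exact congrArg Subtype.val this
  have hβ3 : β ^ 3 = 1 := by
    have := pow_card_eq_one' (G := Q2) (x := ⟨β, hβQ⟩)
    rw [hQ2e] at this
    exact congrArg Subtype.val this
  obtain ⟨v₁, hv₁, hv₁ne⟩ := L7
  obtain ⟨w₁, hw₁⟩ := hsurj v₁ hv₁
  set v₂ := α * v₁ * α⁻¹ with hv₂def
  have hv₂ : v₂ ^ 2 = 1 := L6 α v₁ hv₁
  have hv₂1 : v₂ ≠ 1 := by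
    intro h
    apply hv₁ne
    have := congrArg (fun y => α⁻¹ * y * α) h
    simpa [hv₂def, mul_assoc] using this
  have hv₂ne : v₂ ≠ v₁ := L2 α v₁ hα3 hα1 hv₁ hv₁ne
  obtain ⟨w₂, hw₂⟩ := hsurj v₂ hv₂
  have hw₁1 : w₁ ≠ 1 := by
    intro h
    have := hB1 _ hw₁ h
    exact hv₁ne (congrArg Prod.fst this)
  have hw₂1 : w₂ ≠ 1 := by
    intro h
    have := hB1 _ hw₂ h
    exact hv₂1 (congrArg Prod.fst this)
  have hw₁2 : w₁ ^ 2 = 1 := (hXsq _ hw₁).2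
  have hw₂2 : w₂ ^ 2 = 1 := (hXsq _ hw₂).2
  have hw₁₂ : w₂ ≠ w₁ := by
    intro h
    have h3 := hB1 ((v₂, w₂) * (v₁, w₁)⁻¹) (B.mul_mem hw₂ (B.inv_mem hw₁)) (by simp [h])
    have h4 : v₂ * v₁⁻¹ = 1 := congrArg Prod.fst h3
    exact hv₂ne (mul_inv_eq_one.1 h4)
  -- choose the right power of `β`
  obtain ⟨γ, hγQ, hγ1, hγ3, hγw⟩ : ∃ γ ∈ Q2, γ ≠ 1 ∧ γ ^ 3 = 1 ∧ γ * w₁ * γ⁻¹ = w₂ := by
    rcases L3 β w₁ ⟨hβ3, hβ1, hw₁2, hw₁1⟩ w₂ ⟨hw₂2, hw₂1, hw₁₂⟩ with h3 | h3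
    · exact ⟨β, hβQ, hβ1, hβ3, h3⟩
    · refine ⟨β⁻¹, Q2.inv_mem hβQ, inv_ne_one.2 hβ1, by rw [inv_pow, hβ3, inv_one], ?_⟩
      simpa using h3
  set g : A × A := (α, γ) with hg
  have hgQ : g ∈ (Q : Subgroup (A × A)) := by
    rw [hQeq]; exact Subgroup.mem_prod.2 ⟨hαQ, hγQ⟩
  have hg3 : g ^ 3 = 1 := by
    apply Prod.ext
    · simpa [hg] using hα3
    · simpa [hg] using hγ3
  have hg1 : g ≠ 1 := by
    intro h
    exact hα1 (congrArg Prod.fst h)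
  have hconj1 : g * (v₁, w₁) * g⁻¹ = (v₂, w₂) := by
    apply Prod.ext
    · simp [hg, hv₂def]
    · simpa [hg] using hγw
  have hconj2 : g * (v₂, w₂) * g⁻¹ = (v₁, w₁) * (v₂, w₂) := by
    apply Prod.ext
    · simpa [hg, hv₂def] using L4 α v₁ ⟨hα3, hα1, hv₁, hv₁ne⟩
    · have := L4 γ w₁ ⟨hγ3, hγ1, hw₁2, hw₁1⟩
      rw [hγw] at this
      simpa [hg] using this
  have hgB : ∀ x ∈ B, g * x * g⁻¹ ∈ B := by
    intro x hx
    have hcases : x = 1 ∨ x = (v₁, w₁) ∨ x = (v₂, w₂) ∨ x = (v₁, w₁) * (v₂, w₂) := by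
      have hinj : ∀ y ∈ B, y.1 = x.1 → y = x := by
        intro y hy hyx
        have h4 := hB2 (y * x⁻¹) (B.mul_mem hy (B.inv_mem hx)) (by simp [hyx])
        exact mul_inv_eq_one.1 h4
      rcases L5 v₁ v₂ ⟨hv₁, hv₁ne, hv₂, hv₂1, hv₂ne.symm⟩ x.1 (hXsq x hx).1 with h4 | h4 | h4 | h4
      · left; exact (hinj 1 B.one_mem h4.symm).symm
      · right; left; exact (hinj _ hw₁ h4.symm).symm
      · right; right; left; exact (hinj _ hw₂ h4.symm).symm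
      · right; right; right; exact (hinj _ (B.mul_mem hw₁ hw₂) h4.symm).symm
    rcases hcases with rfl | rfl | rfl | rfl
    · simp [B.one_mem]
    · rw [hconj1]; exact hw₂
    · rw [hconj2]; exact B.mul_mem hw₁ hw₂
    · have : g * ((v₁, w₁) * (v₂, w₂)) * g⁻¹ = (g * (v₁, w₁) * g⁻¹) * (g * (v₂, w₂) * g⁻¹) := by group
      rw [this, hconj1, hconj2]
      exact B.mul_mem hw₂ (B.mul_mem hw₁ hw₂)
  have hgN : g ∈ Subgroup.normalizer (B : Set (A × A)) := by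
    rw [Subgroup.mem_normalizer_iff]
    intro x
    constructor
    · exact hgB x
    · intro hx
      have h3 := hgB _ (hgB _ hx)
      have h4 : g * (g * (g * x * g⁻¹) * g⁻¹) * g⁻¹ = g ^ 3 * x * (g ^ 3)⁻¹ := by
        simp only [pow_succ, pow_zero, one_mul, mul_inv_rev, mul_assoc]
      rw [h4, hg3] at h3
      simpa using h3
  refine ⟨Subgroup.zpowers g, ?_, ?_, ?_, ?_, ?_⟩
  · rw [Subgroup.zpowers_le]; exact hgQ
  · rw [Nat.card_zpowers]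
    have : Fact (Nat.Prime 3) := ⟨by norm_num⟩
    exact orderOf_eq_prime hg3 hg1
  · intro h
    have h3 : g ∈ (Q : Subgroup (A × A)) ⊓ Subgroup.prod ⊤ ⊥ := by
      rw [← h]; exact Subgroup.mem_zpowers g
    exact hγ1 (Subgroup.mem_prod.1 (Subgroup.mem_inf.1 h3).2).2
  · intro h
    have h3 : g ∈ (Q : Subgroup (A × A)) ⊓ Subgroup.prod ⊥ ⊤ := by
      rw [← h]; exact Subgroup.mem_zpowers g
    exact hα1 (Subgroup.mem_prod.1 (Subgroup.mem_inf.1 h3).2).1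
  · rw [Subgroup.zpowers_le]; exact hgN

end Cfsg.Agent.S4406
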