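import Mathlib
import Cfsg.Statements.S4407
-- import your own Cfsg.Agent.* helpers here

set_option autoImplicit false
open Cfsg

namespace Cfsg.Agent.S4407


theorem param_comm {V : Type*} [CommGroup V] (h9 : Nat.card V = 9) (h3 : ∀ x : V, x ^ 3 = 1)
    (p q : V) (hp : p ≠ 1) (hq : q ∉ Subgroup.zpowers p) (e : V) :
    ∃ i j : ℕ, e = p ^ i * q ^ j := by
  have : Finite V := Nat.finite_of_card_ne_zero (by omega)
  have : Fact (Nat.Prime 3) := ⟨by norm_num⟩
  have hpo : orderOf p = 3 := orderOf_eq_prime (h3 p) hp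
  have hcard3 : Nat.card (Subgroup.zpowers p) = 3 := by rw [Nat.card_zpowers, hpo]
  set H : Subgroup V := Subgroup.zpowers p ⊔ Subgroup.zpowers q with hH
  have hle : Subgroup.zpowers p ≤ H := le_sup_left
  have hdvd : Nat.card H ∣ 9 := h9 ▸ Subgroup.card_subgroup_dvd_card H
  have hdvd3 : 3 ∣ Nat.card H := hcard3 ▸ Subgroup.card_dvd_of_le hle
  have hH9 : Nat.card H = 9 := by
    have hle9 : Nat.card H ≤ 9 := Nat.le_of_dvd (by norm_num) hdvd
    have hq' : q ∈ H := (le_sup_right : Subgroup.zpowers q ≤ H) (Subgroup.mem_zpowers q)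
    by_contra hne
    have h3' : Nat.card H = 3 := by
      have hpos : Nat.card H ≠ 0 := Nat.card_pos.ne'
      obtain ⟨c, hc⟩ := hdvd3
      have : c = 1 ∨ c = 2 ∨ c = 3 := by omega
      rcases this with rfl | rfl | rfl
      · omega
      · rw [hc] at hdvd; norm_num at hdvd
      · omega
    exact hq ((Subgroup.eq_of_le_of_card_ge hle (by omega)) ▸ hq')
  have htop : H = ⊤ := Subgroup.eq_top_of_card_eq H (by rw [hH9, h9])
  have he : e ∈ H := htop ▸ Subgroup.mem_top e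
  obtain ⟨y, hy, w, hw, rfl⟩ := Subgroup.mem_sup.1 he
  have hy' := ((isOfFinOrder_of_finite p).mem_powers_iff_mem_zpowers).2 hy
  have hw' := ((isOfFinOrder_of_finite q).mem_powers_iff_mem_zpowers).2 hw
  obtain ⟨i, rfl⟩ := hy'
  obtain ⟨j, rfl⟩ := hw'
  exact ⟨i, j, rfl⟩

theorem exists_fixed {M : Type*} [AddCommGroup M] (h2 : ∀ x : M, x + x = 0) (T : M → M)
    (hTadd : ∀ x y, T (x + y) = T x + T y) (hT : ∀ x, T (T x) = x) (P : M → Prop)
    (hadd : ∀ x y, P x → P y → P (x + y)) (hPT : ∀ x, P x → P (T x))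
    (h : ∃ v, v ≠ 0 ∧ P v) : ∃ v, v ≠ 0 ∧ P v ∧ T v = v := by
  obtain ⟨v, hv, hP⟩ := h
  by_cases hf : T v = v
  · exact ⟨v, hv, hP, hf⟩
  · refine ⟨v + T v, ?_, hadd _ _ hP (hPT _ hP), ?_⟩
    · intro h0
      apply hf
      have : T v = v + (v + T v) := by rw [← add_assoc, h2, zero_add]
      rw [this, h0, add_zero]
    · rw [hTadd, hT, add_comm]

theorem core {S M : Type*} [Group S] [AddCommGroup M] [Module (ZMod 2) M]
    (ρ : Representation (ZMod 2) S M) (a b r s : S)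
    (ha3 : a * a * a = 1) (hb3 : b * b * b = 1) (hab : a * b = b * a)
    (hra : r * a = b * r) (hrb : r * b = a * a * r) (hsa : s * a = a * s)
    (hsb : s * b = b * b * s) (hsr : s * r = r * r * r * s) (hr4 : r * r * r * r = 1)
    (hs2 : s * s = 1)
    (hC : ∀ m, ρ a m = m → ρ b m = m → m = 0)
    (hv0 : ∃ m, m ≠ 0 ∧ ρ a m = m)
    (hirr : ∀ N : Submodule (ZMod 2) M, (∀ m ∈ N, ρ a m ∈ N) → (∀ m ∈ N, ρ b m ∈ N) →
      (∀ m ∈ N, ρ r m ∈ N) → (∀ m ∈ N, ρ s m ∈ N) → N = ⊥ ∨ N = ⊤) :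
    Nat.card M = 16 ∧ Nat.card {m : M // ρ (r * r) m = m ∧ ρ s m = m} = 4 ∧
      Nat.card {m : M // ρ (r * r) m = m ∧ ρ (r * s) m = m} = 2 := by
  classical
  have h2 : ∀ x : M, x + x = 0 := fun x => by
    have : ((2 : ZMod 2)) • x = 0 := by
      rw [show (2 : ZMod 2) = 0 from rfl, zero_smul]
    rwa [two_smul] at this
  have hρ : ∀ (g h : S) (x : M), ρ (g * h) x = ρ g (ρ h x) := fun g h x => by
    rw [map_mul, Module.End.mul_apply]
  have h1ρ : ∀ x : M, ρ 1 x = x := fun x => by simp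
  have RA : ∀ x, ρ r (ρ a x) = ρ b (ρ r x) := fun x => by rw [← hρ, ← hρ, hra]
  have RB : ∀ x, ρ r (ρ b x) = ρ a (ρ a (ρ r x)) := fun x => by
    rw [← hρ, hrb, hρ, hρ]
  have SA : ∀ x, ρ s (ρ a x) = ρ a (ρ s x) := fun x => by rw [← hρ, ← hρ, hsa]
  have SB : ∀ x, ρ s (ρ b x) = ρ b (ρ b (ρ s x)) := fun x => by
    rw [← hρ, hsb, hρ, hρ]
  have SR : ∀ x, ρ s (ρ r x) = ρ r (ρ r (ρ r (ρ s x))) := fun x => by
    rw [← hρ, hsr, hρ, hρ, hρ]
  have AB : ∀ x, ρ a (ρ b x) = ρ b (ρ a x) := fun x => by rw [← hρ, ← hρ, hab]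
  have A3 : ∀ x, ρ a (ρ a (ρ a x)) = x := fun x => by
    rw [← hρ, ← hρ, ha3, h1ρ]
  have B3 : ∀ x, ρ b (ρ b (ρ b x)) = x := fun x => by
    rw [← hρ, ← hρ, hb3, h1ρ]
  have R4 : ∀ x, ρ r (ρ r (ρ r (ρ r x))) = x := fun x => by
    rw [← hρ, ← hρ, ← hρ, hr4, h1ρ]
  have S2 : ∀ x, ρ s (ρ s x) = x := fun x => by rw [← hρ, hs2, h1ρ]
  -- the fixed vector
  obtain ⟨v1, hv1, hav1, hsv1⟩ := exists_fixed h2 (fun x => ρ s x) (fun x y => map_add _ x y) S2
    (fun m => ρ a m = m) (fun x y hx hy => by simp only [map_add, hx, hy])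
    (fun x hx => by rw [← SA, hx]) hv0
  have ZS : ∀ x, ρ s (ρ r (ρ r x)) = ρ r (ρ r (ρ s x)) := fun x => by
    rw [SR, SR, R4]
  obtain ⟨v, hv, ⟨hav, hsv⟩, hzv⟩ := exists_fixed h2 (fun x => ρ r (ρ r x))
    (fun x y => by simp only [map_add]) (fun x => by rw [R4])
    (fun m => ρ a m = m ∧ ρ s m = m)
    (fun x y hx hy => ⟨by simp only [map_add, hx.1, hy.1], by simp only [map_add, hx.2, hy.2]⟩)
    (fun x hx => ⟨by
        have h1 : ρ r (ρ r (ρ a x)) = ρ a (ρ a (ρ r (ρ r x))) := by rw [RA, RB]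
        rw [hx.1] at h1
        conv_lhs => rw [h1]
        rw [A3], by rw [ZS, hx.2]⟩)
    ⟨v1, hv1, hav1, hsv1⟩
  -- the basic relation
  have hbv : ρ b v ≠ v := fun h => hv (hC v hav h)
  have hbb : ρ b (ρ b v) = v + ρ b v := by
    have h0 : v + ρ b v + ρ b (ρ b v) = 0 := by
      apply hC
      · simp only [map_add, AB, hav]
      · simp only [map_add, B3]
        abel
    calc ρ b (ρ b v) = ((v + ρ b v) + (v + ρ b v)) + ρ b (ρ b v) := by rw [h2, zero_add]
      _ = (v + ρ b v) + (v + ρ b v + ρ b (ρ b v)) := by rw [add_assoc]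
      _ = v + ρ b v := by rw [h0, add_zero]
  have Z_B : ρ r (ρ r (ρ b v)) = v + ρ b v := by
    rw [RB, RA, RA, hzv, hbb]
  have A_R : ρ a (ρ r v) = ρ r v + ρ r (ρ b v) := by
    have L1 : ∀ x, ρ a (ρ r (ρ b x)) = ρ r x := fun x => by rw [RB, A3]
    have : ρ r v = ρ r (ρ b (ρ b (ρ b v))) := by rw [B3]
    conv_lhs => rw [this, L1, hbb]
    rw [map_add]
  have A_RB : ρ a (ρ r (ρ b v)) = ρ r v := by rw [RB, A3]
  have B_R : ρ b (ρ r v) = ρ r v := by rw [← RA, hav]
  have B_RB : ρ b (ρ r (ρ b v)) = ρ r (ρ b v) := by rw [← RA, AB, hav]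
  have A_B : ρ a (ρ b v) = ρ b v := by rw [AB, hav]
  have S_B : ρ s (ρ b v) = v + ρ b v := by rw [SB, hsv, hbb]
  have S_R : ρ s (ρ r v) = ρ r v := by rw [SR, hsv, hzv]
  have S_RB : ρ s (ρ r (ρ b v)) = ρ r (ρ b v) := by
    rw [SR, S_B, map_add, map_add, map_add, hzv, Z_B, map_add, ← add_assoc, h2, zero_add]
  have hsc : ∀ x y : ZMod 2, x • v + y • ρ b v = 0 → x = 0 ∧ y = 0 := by
    intro x y h
    have hx : ∀ t : ZMod 2, t = 0 ∨ t = 1 := by decide
    rcases hx x with rfl | rfl <;> rcases hx y with rfl | rfl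
    · exact ⟨rfl, rfl⟩
    · simp only [zero_smul, one_smul, zero_add] at h
      exact absurd (by rw [← B3 v, h]; simp) hv
    · simp only [zero_smul, one_smul, add_zero] at h
      exact absurd h hv
    · simp only [one_smul] at h
      exfalso
      apply hbv
      have : ρ b v = (v + ρ b v) + v := by
        rw [add_comm v, add_assoc, h2, add_zero]
      rw [this, h, zero_add]
  let f : ZMod 2 × ZMod 2 × ZMod 2 × ZMod 2 → M := fun t =>
    t.1 • v + t.2.1 • ρ b v + t.2.2.1 • ρ r v + t.2.2.2 • ρ r (ρ b v)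
  have fdef : ∀ x y u w, f (x, y, u, w) = x • v + y • ρ b v + u • ρ r v + w • ρ r (ρ b v) :=
    fun x y u w => rfl
  have fA : ∀ x y u w, ρ a (f (x, y, u, w)) = f (x, y, u + w, u) := fun x y u w => by
    simp only [fdef, map_add, map_smul, hav, A_B, A_R, A_RB]
    module
  have fB : ∀ x y u w, ρ b (f (x, y, u, w)) = f (y, x + y, u, w) := fun x y u w => by
    simp only [fdef, map_add, map_smul, hbb, B_R, B_RB]
    module
  have fR : ∀ x y u w, ρ r (f (x, y, u, w)) = f (u + w, w, x, y) := fun x y u w => by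
    simp only [fdef, map_add, map_smul, hzv, Z_B]
    module
  have fS : ∀ x y u w, ρ s (f (x, y, u, w)) = f (x + y, y, u, w) := fun x y u w => by
    simp only [fdef, map_add, map_smul, hsv, S_B, S_R, S_RB]
    module
  have fadd : ∀ t t', f (t + t') = f t + f t' := fun t t' => by
    obtain ⟨x, y, u, w⟩ := t
    obtain ⟨x', y', u', w'⟩ := t'
    show f (x + x', y + y', u + u', w + w') = _
    simp only [fdef]
    module
  have fsmul : ∀ (c : ZMod 2) t, f (c • t) = c • f t := fun c t => by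
    obtain ⟨x, y, u, w⟩ := t
    show f (c • x, c • y, c • u, c • w) = _
    simp only [fdef, smul_eq_mul]
    module
  have f0 : f 0 = 0 := by
    show f (0, 0, 0, 0) = 0
    simp only [fdef, zero_smul, add_zero]
  let N : Submodule (ZMod 2) M :=
    { carrier := Set.range f
      add_mem' := by
        rintro _ _ ⟨t, rfl⟩ ⟨t', rfl⟩
        exact ⟨t + t', fadd t t'⟩
      zero_mem' := ⟨0, f0⟩
      smul_mem' := by
        rintro c _ ⟨t, rfl⟩
        exact ⟨c • t, fsmul c t⟩ }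
  have hN : N = ⊤ := by
    have hst : N = ⊥ ∨ N = ⊤ := by
      apply hirr N
      · rintro _ ⟨⟨x, y, u, w⟩, rfl⟩
        exact ⟨_, (fA x y u w).symm⟩
      · rintro _ ⟨⟨x, y, u, w⟩, rfl⟩
        exact ⟨_, (fB x y u w).symm⟩
      · rintro _ ⟨⟨x, y, u, w⟩, rfl⟩
        exact ⟨_, (fR x y u w).symm⟩
      · rintro _ ⟨⟨x, y, u, w⟩, rfl⟩
        exact ⟨_, (fS x y u w).symm⟩
    rcases hst with h | h
    · exfalso
      have hm : v ∈ N := ⟨(1, 0, 0, 0), by simp [fdef]⟩
      rw [h] at hm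
      exact hv (by simpa using hm)
    · exact h
  have fsurj : Function.Surjective f := fun m => by
    have : m ∈ N := hN ▸ Submodule.mem_top
    exact this
  have fker : ∀ t, f t = 0 → t = 0 := by
    rintro ⟨x, y, u, w⟩ h
    rw [fdef] at h
    set m₁ := x • v + y • ρ b v with hm₁
    set m₂ := u • ρ r v + w • ρ r (ρ b v) with hm₂
    have hm : m₁ = m₂ := by
      have h3 : m₁ + m₂ = 0 := by rw [hm₂, ← add_assoc]; exact h
      have : m₁ = (m₁ + m₂) + m₂ := by rw [add_assoc, h2, add_zero]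
      rw [this, h3, zero_add]
    have ham : ρ a m₁ = m₁ := by
      simp only [hm₁, map_add, map_smul, hav, A_B]
    have hbm : ρ b m₂ = m₂ := by
      simp only [hm₂, map_add, map_smul, B_R, B_RB]
    have hm0 : m₁ = 0 := hC _ ham (by rw [hm]; exact hbm)
    have hm0' : m₂ = 0 := hm ▸ hm0
    have h1 := hsc x y hm0
    have h4 : ρ r (u • v + w • ρ b v) = 0 := by
      rw [map_add, map_smul, map_smul]; exact hm0'
    have h5 : u • v + w • ρ b v = 0 := by
      have := congrArg (fun z => ρ r (ρ r (ρ r z))) h4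
      simpa only [R4, map_zero] using this
    have h6 := hsc u w h5
    rw [h1.1, h1.2, h6.1, h6.2]
    rfl
  have finj : Function.Injective f := fun t t' h => by
    have h7 : f (t + t') = 0 := by rw [fadd, h, h2]
    have h8 := fker _ h7
    have h9 : ∀ t : ZMod 2 × ZMod 2 × ZMod 2 × ZMod 2, t + t = 0 := by decide
    have h10 : t' = (t + t) + t' := by rw [h9, zero_add]
    rw [add_assoc, h8, add_zero] at h10
    exact h10.symm
  have fbij : Function.Bijective f := ⟨finj, fsurj⟩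
  have hZ : ∀ x y u w, ρ (r * r) (f (x, y, u, w)) = f (x + y, y, u + w, w) := fun x y u w => by
    rw [hρ, fR, fR]
  have hRS : ∀ x y u w, ρ (r * s) (f (x, y, u, w)) = f (u + w, w, x + y, y) := fun x y u w => by
    rw [hρ, fS, fR]
  refine ⟨?_, ?_, ?_⟩
  · rw [← Nat.card_congr (Equiv.ofBijective f fbij)]
    simp
  · have e : {t : ZMod 2 × ZMod 2 × ZMod 2 × ZMod 2 // (t.1 + t.2.1, t.2.1, t.2.2.1 + t.2.2.2, t.2.2.2) = t ∧ (t.1 + t.2.1, t.2.1, t.2.2.1, t.2.2.2) = t} ≃ {m : M // ρ (r * r) m = m ∧ ρ s m = m} :=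
      Equiv.subtypeEquiv (Equiv.ofBijective f fbij) (by
        rintro ⟨x, y, u, w⟩
        show _ ↔ ρ (r * r) (f (x, y, u, w)) = f (x, y, u, w) ∧ ρ s (f (x, y, u, w)) = f (x, y, u, w)
        rw [hZ, fS, finj.eq_iff, finj.eq_iff])
    rw [← Nat.card_congr e, Nat.card_eq_fintype_card]
    decide
  · have e : {t : ZMod 2 × ZMod 2 × ZMod 2 × ZMod 2 // (t.1 + t.2.1, t.2.1, t.2.2.1 + t.2.2.2, t.2.2.2) = t ∧ (t.2.2.1 + t.2.2.2, t.2.2.2, t.1 + t.2.1, t.2.1) = t} ≃ {m : M // ρ (r * r) m = m ∧ ρ (r * s) m = m} :=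
      Equiv.subtypeEquiv (Equiv.ofBijective f fbij) (by
        rintro ⟨x, y, u, w⟩
        show _ ↔ ρ (r * r) (f (x, y, u, w)) = f (x, y, u, w) ∧ ρ (r * s) (f (x, y, u, w)) = f (x, y, u, w)
        rw [hZ, hRS, finj.eq_iff, finj.eq_iff])
    rw [← Nat.card_congr e, Nat.card_eq_fintype_card]
    decide


theorem group_part {S : Type*} [Group S] (A : Subgroup S) [A.Normal]
    (hA : Cfsg.IsElementaryAbelian 3 A) (hA9 : Nat.card ↥A = 9) (r s : S)
    (hr4 : r * r * r * r = 1) (hs2 : s * s = 1) (hsr : s * r = r * r * r * s)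
    (hz : ∃ u ∈ A, (r * r) * u ≠ u * (r * r))
    (hsz : ∃ u ∈ A, (s * (r * r)) * u ≠ u * (s * (r * r))) :
    ∃ a b : S, a ∈ A ∧ b ∈ A ∧ a ≠ 1 ∧ a * a * a = 1 ∧ b * b * b = 1 ∧ a * b = b * a ∧
      r * a = b * r ∧ r * b = a * a * r ∧ s * a = a * s ∧ s * b = b * b * s ∧
      ∀ e ∈ A, ∃ i j : ℕ, e = a ^ i * b ^ j := by
  have : Finite A := Nat.finite_of_card_ne_zero (by omega)
  have hcomm : ∀ x ∈ A, ∀ y ∈ A, x * y = y * x := fun x hx y hy => by
    have := hA.1.is_comm.comm (⟨x, hx⟩ : A) ⟨y, hy⟩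
    simpa [Subtype.ext_iff] using this
  have hexp : ∀ x ∈ A, x ^ 3 = 1 := hA.2
  have hexp' : ∀ x ∈ A, x * x * x = 1 := fun x hx => (pow_three' x).symm.trans (hexp x hx)
  have hcA : ∀ g, ∀ x ∈ A, MulAut.conj g x ∈ A := fun g x hx => by
    rw [MulAut.conj_apply]
    exact Subgroup.Normal.conj_mem inferInstance x hx g
  have param : ∀ p ∈ A, ∀ q ∈ A, p ≠ 1 → (∀ i : ℕ, q ≠ p ^ i) →
      ∀ e ∈ A, ∃ i j : ℕ, e = p ^ i * q ^ j := by
    intro p hp q hq hp1 hne e he
    letI : CommGroup A :=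
      { (inferInstance : Group A) with mul_comm := fun x y => Subtype.ext (hcomm x x.2 y y.2) }
    have hq' : (⟨q, hq⟩ : A) ∉ Subgroup.zpowers (⟨p, hp⟩ : A) := by
      intro hmem
      have h1 := ((isOfFinOrder_of_finite (⟨p, hp⟩ : A)).mem_powers_iff_mem_zpowers).2 hmem
      obtain ⟨i, hi⟩ := h1
      exact hne i (by simpa using (congrArg Subtype.val hi).symm)
    obtain ⟨i, j, hij⟩ := param_comm hA9 (fun x => Subtype.ext (hexp x x.2)) ⟨p, hp⟩ ⟨q, hq⟩
      (by simpa [Subtype.ext_iff] using hp1) hq' ⟨e, he⟩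
    exact ⟨i, j, by simpa using congrArg Subtype.val hij⟩
  have h3 : ∀ x ∈ A, x * x = 1 → x = 1 := fun x hx h => by
    have := hexp' x hx
    rwa [h, one_mul] at this
  have hz2' : (r * r) * (r * r) = 1 := by simpa [mul_assoc] using hr4
  set z := r * r with hzdef
  have hz2 : z * z = 1 := hz2'
  have hconj_mul : ∀ g h x : S, MulAut.conj (g * h) x = MulAut.conj g (MulAut.conj h x) :=
    fun g h x => by rw [map_mul, MulAut.mul_apply]
  have hconj_one : ∀ x : S, MulAut.conj (1 : S) x = x := fun x => by simp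
  have hcz2 : ∀ x, MulAut.conj z (MulAut.conj z x) = x := fun x => by
    rw [← hconj_mul, hz2, hconj_one]
  have hcs2 : ∀ x, MulAut.conj s (MulAut.conj s x) = x := fun x => by
    rw [← hconj_mul, hs2, hconj_one]
  have hcrz : ∀ x, MulAut.conj r (MulAut.conj z x) = MulAut.conj z (MulAut.conj r x) := fun x => by
    rw [← hconj_mul, ← hconj_mul, hzdef, mul_assoc]
  have hcr2 : ∀ x, MulAut.conj r (MulAut.conj r x) = MulAut.conj z x := fun x => by
    rw [← hconj_mul]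
  have hcsr : ∀ x, MulAut.conj s (MulAut.conj r x) = MulAut.conj r (MulAut.conj z (MulAut.conj s x)) :=
    fun x => by
      rw [← hconj_mul, ← hconj_mul, ← hconj_mul, hsr, hzdef, mul_assoc r r, mul_assoc r (r * r)]
  have hnot : ∀ g u : S, MulAut.conj g u = u → g * u = u * g := fun g u h => by
    rw [MulAut.conj_apply] at h
    calc g * u = g * u * g⁻¹ * g := by group
      _ = u * g := by rw [h]
  -- `z` inverts `A`
  have hinv : ∀ x ∈ A, MulAut.conj z x = x⁻¹ := by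
    by_contra hcon
    push Not at hcon
    obtain ⟨x₀, hx₀, hne⟩ := hcon
    obtain ⟨u, hu, hune⟩ := hz
    set y := x₀ * MulAut.conj z x₀ with hy
    have hyA : y ∈ A := A.mul_mem hx₀ (hcA z x₀ hx₀)
    have hy1 : y ≠ 1 := fun h => hne (eq_inv_of_mul_eq_one_right h)
    have hzy : MulAut.conj z y = y := by
      rw [hy, map_mul, hcz2]
      exact hcomm _ (hcA z x₀ hx₀) _ hx₀
    set w := u * (MulAut.conj z u)⁻¹ with hw
    have hwA : w ∈ A := A.mul_mem hu (A.inv_mem (hcA z u hu))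
    have hw1 : w ≠ 1 := fun h => hune (hnot z u (by
      have := mul_inv_eq_one.1 h
      exact this.symm))
    have hzw : MulAut.conj z w = w⁻¹ := by
      rw [hw, map_mul, map_inv, hcz2, mul_inv_rev, inv_inv]
    set e := MulAut.conj r w with he
    have heA : e ∈ A := hcA r w hwA
    have hze : MulAut.conj z e = e⁻¹ := by
      rw [he, ← hcrz, hzw, map_inv]
    have hT : ∀ i j : ℕ, MulAut.conj z (w ^ i * e ^ j) = (w ^ i * e ^ j)⁻¹ := fun i j => by
      rw [map_mul, map_pow, map_pow, hzw, hze, inv_pow, inv_pow, mul_inv_rev]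
      exact hcomm _ (A.inv_mem (A.pow_mem hwA i)) _ (A.inv_mem (A.pow_mem heA j))
    have hei : ∃ i : ℕ, e = w ^ i := by
      by_contra hcon
      push Not at hcon
      obtain ⟨i, j, hij⟩ := param w hwA e heA hw1 hcon y hyA
      have h1 := hT i j
      rw [← hij, hzy] at h1
      have h2 : y * y = 1 := by
        nth_rewrite 1 [h1]
        simp
      exact hy1 (h3 y hyA h2)
    obtain ⟨i, hi⟩ := hei
    have h4 : MulAut.conj z w = w ^ (i * i) := by
      rw [← hcr2, ← he, hi, map_pow, ← he, hi, pow_mul]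
    have hw3 : w ^ 3 = 1 := hexp w hwA
    rw [hzw, pow_eq_pow_mod _ hw3] at h4
    have h5 : (i * i) % 3 = 0 ∨ (i * i) % 3 = 1 := by
      have : i % 3 = 0 ∨ i % 3 = 1 ∨ i % 3 = 2 := by omega
      rcases this with h | h | h <;> simp [Nat.mul_mod, h]
    rcases h5 with h | h
    · rw [h, pow_zero, inv_eq_one] at h4
      exact hw1 h4
    · rw [h, pow_one] at h4
      apply hw1
      apply h3 w hwA
      nth_rewrite 1 [← h4]
      simp
  -- `s` does not invert `A`
  have hs : ∃ x ∈ A, x * MulAut.conj s x ≠ 1 := by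
    by_contra hcon
    push Not at hcon
    obtain ⟨u, hu, hune⟩ := hsz
    apply hune
    apply hnot
    rw [hconj_mul, hinv u hu, map_inv, eq_inv_of_mul_eq_one_right (hcon u hu), inv_inv]
  obtain ⟨x, hx, hxne⟩ := hs
  set a := x * MulAut.conj s x with ha
  have haA : a ∈ A := A.mul_mem hx (hcA s x hx)
  have hsa : MulAut.conj s a = a := by
    rw [ha, map_mul, hcs2]
    exact hcomm _ (hcA s x hx) _ hx
  set b := MulAut.conj r a with hb
  have hbA : b ∈ A := hcA r a haA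
  have hrb : MulAut.conj r b = a⁻¹ := by
    rw [hb, hcr2, hinv a haA]
  have hsb : MulAut.conj s b = b⁻¹ := by
    rw [hb, hcsr, hsa, hinv a haA, map_inv]
  have hconv : ∀ g u v : S, MulAut.conj g u = v → g * u = v * g := fun g u v h => by
    rw [MulAut.conj_apply] at h
    rw [← h]; group
  have hainv : a⁻¹ = a * a := (eq_inv_of_mul_eq_one_left (hexp' a haA)).symm
  have hbinv : b⁻¹ = b * b := (eq_inv_of_mul_eq_one_left (hexp' b hbA)).symm
  refine ⟨a, b, haA, hbA, hxne, hexp' a haA, hexp' b hbA, hcomm a haA b hbA,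
    hconv r a b hb.symm, hconv r b (a * a) (hainv ▸ hrb), hconv s a a hsa,
    hconv s b (b * b) (hbinv ▸ hsb), ?_⟩
  apply param a haA b hbA hxne
  intro i hi
  have h1 : MulAut.conj s b = b := by
    rw [hi, map_pow, hsa]
  rw [hsb] at h1
  have h2 : b * b = 1 := by
    nth_rewrite 1 [← h1]
    simp
  have h4 : b = 1 := h3 b hbA h2
  rw [hb, map_eq_one_iff _ (MulEquiv.injective _)] at h4
  exact hxne h4

theorem core2 {S M : Type*} [Group S] [AddCommGroup M] [Module (ZMod 2) M]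
    (ρ : Representation (ZMod 2) S M) (a b r s : S)
    (ha3 : a * a * a = 1) (hb3 : b * b * b = 1) (hab : a * b = b * a)
    (hra : r * a = b * r) (hrb : r * b = a * a * r) (hsa : s * a = a * s)
    (hsb : s * b = b * b * s) (hsr : s * r = r * r * r * s) (hr4 : r * r * r * r = 1)
    (hs2 : s * s = 1)
    (hC : ∀ m, ρ a m = m → ρ b m = m → m = 0)
    (hv0 : ∃ m, m ≠ 0 ∧ ρ (a * b) m = m)
    (hirr : ∀ N : Submodule (ZMod 2) M, (∀ m ∈ N, ρ a m ∈ N) → (∀ m ∈ N, ρ b m ∈ N) →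
      (∀ m ∈ N, ρ r m ∈ N) → (∀ m ∈ N, ρ s m ∈ N) → N = ⊥ ∨ N = ⊤) :
    Nat.card M = 16 ∧ Nat.card {m : M // ρ (r * r) m = m ∧ ρ (r * s) m = m} = 4 ∧
      Nat.card {m : M // ρ (r * r) m = m ∧ ρ (r * (r * s)) m = m} = 2 := by
  have r1 : ∀ x, b * (a * x) = a * (b * x) := fun x => by rw [← mul_assoc, ← hab, mul_assoc]
  have r1' : b * a = a * b := hab.symm
  have r2 : ∀ x, r * (a * x) = b * (r * x) := fun x => by rw [← mul_assoc, hra, mul_assoc]
  have r2' : r * a = b * r := hra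
  have r3 : ∀ x, r * (b * x) = a * (a * (r * x)) := fun x => by
    rw [← mul_assoc, hrb, mul_assoc, mul_assoc]
  have r3' : r * b = a * (a * r) := by rw [hrb, mul_assoc]
  have r4 : ∀ x, s * (a * x) = a * (s * x) := fun x => by rw [← mul_assoc, hsa, mul_assoc]
  have r4' : s * a = a * s := hsa
  have r5 : ∀ x, s * (b * x) = b * (b * (s * x)) := fun x => by
    rw [← mul_assoc, hsb, mul_assoc, mul_assoc]
  have r5' : s * b = b * (b * s) := by rw [hsb, mul_assoc]
  have r6 : ∀ x, s * (r * x) = r * (r * (r * (s * x))) := fun x => by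
    rw [← mul_assoc, hsr]; simp only [mul_assoc]
  have r6' : s * r = r * (r * (r * s)) := by rw [hsr]; simp only [mul_assoc]
  have r7 : ∀ x, a * (a * (a * x)) = x := fun x => by
    rw [← mul_assoc, ← mul_assoc, ha3, one_mul]
  have r7' : a * (a * a) = 1 := by rw [← mul_assoc, ha3]
  have r8 : ∀ x, b * (b * (b * x)) = x := fun x => by
    rw [← mul_assoc, ← mul_assoc, hb3, one_mul]
  have r8' : b * (b * b) = 1 := by rw [← mul_assoc, hb3]
  have r9 : ∀ x, r * (r * (r * (r * x))) = x := fun x => by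
    rw [← mul_assoc, ← mul_assoc, ← mul_assoc, hr4, one_mul]
  have r9' : r * (r * (r * r)) = 1 := by simpa only [mul_assoc] using hr4
  have r10 : ∀ x, s * (s * x) = x := fun x => by rw [← mul_assoc, hs2, one_mul]
  have hρ : ∀ (g h : S) (x : M), ρ (g * h) x = ρ g (ρ h x) := fun g h x => by
    rw [map_mul, Module.End.mul_apply]
  have eA : a = (a * b) * (a * b) * (b * a * a) := by
    simp only [mul_assoc, r1, r1', r7, r7', r8, r8', mul_one]
  have eB : b = (a * b) * (b * a * a) * (a * b) * (b * a * a) := by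
    simp only [mul_assoc, r1, r1', r7, r7', r8, r8', mul_one]
  have eS : s = r * r * r * (r * s) := by
    simp only [mul_assoc, r9]
  have hfixA : ∀ m, ρ (a * b) m = m → ρ (b * a * a) m = m → ρ a m = m := fun m h1 h2 => by
    rw [eA, hρ, hρ, h2, h1, h1]
  have hfixB : ∀ m, ρ (a * b) m = m → ρ (b * a * a) m = m → ρ b m = m := fun m h1 h2 => by
    rw [eB, hρ, hρ, hρ, h2, h1, h2, h1]
  refine core ρ (a * b) (b * a * a) r (r * s) ?_ ?_ ?_ ?_ ?_ ?_ ?_ ?_ hr4 ?_
    (fun m h1 h2 => hC m (hfixA m h1 h2) (hfixB m h1 h2)) hv0 ?_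
  · simp only [mul_assoc, r1, r1', r7, r7', r8, r8', mul_one]
  · simp only [mul_assoc, r1, r1', r7, r7', r8, r8', mul_one]
  · simp only [mul_assoc, r1, r1', r7, r7', r8, r8', mul_one]
  · simp only [mul_assoc, r1, r1', r2, r2', r3, r3', r7, r7', r8, r8', mul_one]
  · simp only [mul_assoc, r1, r1', r2, r2', r3, r3', r7, r7', r8, r8', mul_one]
  · simp only [mul_assoc, r1, r1', r2, r2', r3, r3', r4, r4', r5, r5', r7, r7', r8, r8', mul_one]
  · simp only [mul_assoc, r1, r1', r2, r2', r3, r3', r4, r4', r5, r5', r7, r7', r8, r8', mul_one]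
  · simp only [mul_assoc, r6, r6', r9, r9', r10, mul_one]
  · simp only [mul_assoc, r6, r6', r9, r9', r10, hs2, mul_one]
  · intro N h1 h2 h3 h4
    apply hirr N
    · intro m hm
      rw [eA, hρ, hρ]
      exact h1 _ (h1 _ (h2 _ hm))
    · intro m hm
      rw [eB, hρ, hρ, hρ]
      exact h1 _ (h2 _ (h1 _ (h2 _ hm)))
    · exact h3
    · intro m hm
      rw [eS, hρ, hρ, hρ]
      exact h3 _ (h3 _ (h3 _ (h4 _ hm)))

open DihedralGroup in
def Fs : Subgroup (DihedralGroup 4) where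
  carrier := {g | g = r 0 ∨ g = r 2 ∨ g = sr 0 ∨ g = sr 2}
  mul_mem' := by
    have : ∀ g h : DihedralGroup 4, (g = r 0 ∨ g = r 2 ∨ g = sr 0 ∨ g = sr 2) →
      (h = r 0 ∨ h = r 2 ∨ h = sr 0 ∨ h = sr 2) →
      (g * h = r 0 ∨ g * h = r 2 ∨ g * h = sr 0 ∨ g * h = sr 2) := by decide
    exact fun {g h} hg hh => this g h hg hh
  one_mem' := by
    show (1 : DihedralGroup 4) = r 0 ∨ _
    exact Or.inl rfl
  inv_mem' := by
    have : ∀ g : DihedralGroup 4, (g = r 0 ∨ g = r 2 ∨ g = sr 0 ∨ g = sr 2) →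
      (g⁻¹ = r 0 ∨ g⁻¹ = r 2 ∨ g⁻¹ = sr 0 ∨ g⁻¹ = sr 2) := by decide
    exact fun {g} hg => this g hg

open DihedralGroup in
def Ft : Subgroup (DihedralGroup 4) where
  carrier := {g | g = r 0 ∨ g = r 2 ∨ g = sr 1 ∨ g = sr 3}
  mul_mem' := by
    have : ∀ g h : DihedralGroup 4, (g = r 0 ∨ g = r 2 ∨ g = sr 1 ∨ g = sr 3) →
      (h = r 0 ∨ h = r 2 ∨ h = sr 1 ∨ h = sr 3) →
      (g * h = r 0 ∨ g * h = r 2 ∨ g * h = sr 1 ∨ g * h = sr 3) := by decide
    exact fun {g h} hg hh => this g h hg hh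
  one_mem' := by
    show (1 : DihedralGroup 4) = r 0 ∨ _
    exact Or.inl rfl
  inv_mem' := by
    have : ∀ g : DihedralGroup 4, (g = r 0 ∨ g = r 2 ∨ g = sr 1 ∨ g = sr 3) →
      (g⁻¹ = r 0 ∨ g⁻¹ = r 2 ∨ g⁻¹ = sr 1 ∨ g⁻¹ = sr 3) := by decide
    exact fun {g} hg => this g hg

open DihedralGroup in
theorem mem_Fs (g : DihedralGroup 4) : g ∈ Fs ↔ (g = r 0 ∨ g = r 2 ∨ g = sr 0 ∨ g = sr 2) := Iff.rfl

open DihedralGroup in
theorem mem_Ft (g : DihedralGroup 4) : g ∈ Ft ↔ (g = r 0 ∨ g = r 2 ∨ g = sr 1 ∨ g = sr 3) := Iff.rfl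

instance : DecidablePred (· ∈ Fs) := fun g => decidable_of_iff _ (mem_Fs g).symm
instance : DecidablePred (· ∈ Ft) := fun g => decidable_of_iff _ (mem_Ft g).symm

theorem card_Fs : Nat.card Fs = 4 := by
  rw [Nat.card_eq_fintype_card]
  decide

theorem card_Ft : Nat.card Ft = 4 := by
  rw [Nat.card_eq_fintype_card]
  decide

theorem exp_Fs : ∀ g ∈ Fs, g ^ 2 = 1 := by decide
theorem exp_Ft : ∀ g ∈ Ft, g ^ 2 = 1 := by decide

theorem F_dich (F : Subgroup (DihedralGroup 4)) (h : ∀ g ∈ F, g ^ 2 = 1) : F ≤ Fs ∨ F ≤ Ft := by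
  by_contra hcon
  push Not at hcon
  obtain ⟨h1, h2⟩ := hcon
  obtain ⟨g, hg, hgs⟩ := SetLike.not_le_iff_exists.1 h1
  obtain ⟨k, hk, hkt⟩ := SetLike.not_le_iff_exists.1 h2
  have key : ∀ g k : DihedralGroup 4, g ^ 2 = 1 → k ^ 2 = 1 → (g * k) ^ 2 = 1 → g ∉ Fs → k ∉ Ft → False := by
    decide
  exact key g k (h g hg) (h k hk) (h _ (F.mul_mem hg hk)) hgs hkt

theorem main_thm {S : Type*} [Group S] [Finite S]
    (A : Subgroup S) [A.Normal] (hA : Cfsg.IsElementaryAbelian 3 A) (hA9 : Nat.card ↥A = 9)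
    (hAC : Subgroup.centralizer (A : Set S) = A) (X : Subgroup S) (hX : Nonempty (↥X ≃* DihedralGroup 4)) (hAX : A ⊔ X = ⊤)
    {M : Type*} [AddCommGroup M] [Module (ZMod 2) M] [Finite M] (ρ : Representation (ZMod 2) S M)
    (hfaith : Function.Injective ρ)
    (hirr : ∀ N : Submodule (ZMod 2) M, (∀ s : S, ∀ m ∈ N, ρ s m ∈ N) → N = ⊥ ∨ N = ⊤) (hM : Nontrivial M) :
    Nat.card M = 16 ∧
      ∃! B : Subgroup S, B ≤ X ∧ Nat.card ↥B = 4 ∧ (∀ b ∈ B, b ^ 2 = 1) ∧
        Nat.card {m : M // ∀ b ∈ B, ρ b m = m} = 2 := by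
  classical
  obtain ⟨φ⟩ := hX
  let ι : DihedralGroup 4 →* S := X.subtype.comp φ.symm.toMonoidHom
  have ιinj : Function.Injective ι := Subtype.val_injective.comp φ.symm.injective
  have ιX : ∀ d, ι d ∈ X := fun d => (φ.symm d).2
  have ιsurj : ∀ x ∈ X, ∃ d, ι d = x := fun x hx => ⟨φ ⟨x, hx⟩, by simp [ι]⟩
  have hXA : ∀ x ∈ X, x ∈ A → x = 1 := by
    have hcop : Nat.Coprime (Nat.card A) (Nat.card X) := by
      rw [hA9, Nat.card_congr φ.toEquiv, DihedralGroup.nat_card]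
      norm_num
    intro x hxX hxA
    have h1 : x ∈ A ⊓ X := ⟨hxA, hxX⟩
    rw [Subgroup.inf_eq_bot_of_coprime hcop] at h1
    simpa using h1
  have hnc : ∀ d, d ≠ 1 → ∃ u ∈ A, ι d * u ≠ u * ι d := by
    intro d hd
    by_contra hcon
    push Not at hcon
    have h1 : ι d ∈ Subgroup.centralizer (A : Set S) :=
      Subgroup.mem_centralizer_iff.2 (fun u hu => (hcon u hu).symm)
    rw [hAC] at h1
    exact hd (ιinj (by rw [hXA _ (ιX d) h1, map_one]))
  set r : S := ι (DihedralGroup.r 1) with hr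
  set s : S := ι (DihedralGroup.sr 0) with hs
  have hr4 : r * r * r * r = 1 := by
    simp only [hr, ← map_mul]
    rw [show (DihedralGroup.r 1 * DihedralGroup.r 1 * DihedralGroup.r 1 * DihedralGroup.r 1 : DihedralGroup 4) = 1 by decide, map_one]
  have hs2 : s * s = 1 := by
    simp only [hs, ← map_mul]
    rw [show (DihedralGroup.sr 0 * DihedralGroup.sr 0 : DihedralGroup 4) = 1 by decide, map_one]
  have hsr : s * r = r * r * r * s := by
    simp only [hs, hr, ← map_mul]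
    rw [show (DihedralGroup.sr 0 * DihedralGroup.r 1 : DihedralGroup 4) = DihedralGroup.r 1 * DihedralGroup.r 1 * DihedralGroup.r 1 * DihedralGroup.sr 0 by decide]
  have hz' : ∃ u ∈ A, (r * r) * u ≠ u * (r * r) := by
    have := hnc (DihedralGroup.r 1 * DihedralGroup.r 1) (by decide)
    simpa only [map_mul] using this
  have hsz' : ∃ u ∈ A, (s * (r * r)) * u ≠ u * (s * (r * r)) := by
    have := hnc (DihedralGroup.sr 0 * (DihedralGroup.r 1 * DihedralGroup.r 1)) (by decide)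
    simpa only [map_mul] using this
  obtain ⟨a, b, haA, hbA, ha1, ha3, hb3, hab, hra, hrb, hsa, hsb, hpar⟩ :=
    group_part A hA hA9 r s hr4 hs2 hsr hz' hsz'
  have hρ : ∀ (g h : S) (x : M), ρ (g * h) x = ρ g (ρ h x) := fun g h x => by
    rw [map_mul, Module.End.mul_apply]
  have h2 : ∀ x : M, x + x = 0 := fun x => by
    have : ((2 : ZMod 2)) • x = 0 := by
      rw [show (2 : ZMod 2) = 0 from rfl, zero_smul]
    rwa [two_smul] at this
  have hword : ∀ g : S, ∃ i j k l : ℕ, g = a ^ i * b ^ j * r ^ k * s ^ l := by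
    intro g
    have hg : g ∈ (A ⊔ X : Subgroup S) := hAX ▸ Subgroup.mem_top g
    rw [← SetLike.mem_coe, Subgroup.normal_mul] at hg
    obtain ⟨x, hx, y, hy, rfl⟩ := Set.mem_mul.1 hg
    obtain ⟨i, j, rfl⟩ := hpar x hx
    obtain ⟨d, rfl⟩ := ιsurj y hy
    have hd : ∀ d : DihedralGroup 4, ∃ k : Fin 4, ∃ l : Fin 2,
        d = (DihedralGroup.r 1) ^ (k : ℕ) * (DihedralGroup.sr 0) ^ (l : ℕ) := by decide
    obtain ⟨k, l, rfl⟩ := hd d
    exact ⟨i, j, k, l, by simp only [map_mul, map_pow, mul_assoc, hr, hs]⟩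
  have hstab : ∀ N : Submodule (ZMod 2) M, (∀ m ∈ N, ρ a m ∈ N) → (∀ m ∈ N, ρ b m ∈ N) →
      (∀ m ∈ N, ρ r m ∈ N) → (∀ m ∈ N, ρ s m ∈ N) → N = ⊥ ∨ N = ⊤ := by
    intro N h1 h2 h3 h4
    apply hirr N
    intro g m hm
    obtain ⟨i, j, k, l, rfl⟩ := hword g
    have hp : ∀ g : S, (∀ m ∈ N, ρ g m ∈ N) → ∀ n : ℕ, ∀ m ∈ N, ρ (g ^ n) m ∈ N := by
      intro g hg n
      induction n with
      | zero => intro m hm; simpa using hm
      | succ n ih =>
        intro m hm
        rw [pow_succ, hρ]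
        exact ih _ (hg _ hm)
    simp only [hρ]
    exact hp a h1 i _ (hp b h2 j _ (hp r h3 k _ (hp s h4 l _ hm)))
  have RA : ∀ x, ρ r (ρ a x) = ρ b (ρ r x) := fun x => by rw [← hρ, ← hρ, hra]
  have RB : ∀ x, ρ r (ρ b x) = ρ a (ρ a (ρ r x)) := fun x => by
    rw [← hρ, hrb, hρ, hρ]
  have SA : ∀ x, ρ s (ρ a x) = ρ a (ρ s x) := fun x => by rw [← hρ, ← hρ, hsa]
  have SB : ∀ x, ρ s (ρ b x) = ρ b (ρ b (ρ s x)) := fun x => by
    rw [← hρ, hsb, hρ, hρ]
  have AB : ∀ x, ρ a (ρ b x) = ρ b (ρ a x) := fun x => by rw [← hρ, ← hρ, hab]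
  have A3 : ∀ x, ρ a (ρ a (ρ a x)) = x := fun x => by
    rw [← hρ, ← hρ, ha3]; simp
  have B3 : ∀ x, ρ b (ρ b (ρ b x)) = x := fun x => by
    rw [← hρ, ← hρ, hb3]; simp
  have hC : ∀ m, ρ a m = m → ρ b m = m → m = 0 := by
    let N : Submodule (ZMod 2) M :=
      { carrier := {m | ρ a m = m ∧ ρ b m = m}
        add_mem' := by
          rintro x y ⟨h1, h2⟩ ⟨h3, h4⟩
          exact ⟨by rw [map_add, h1, h3], by rw [map_add, h2, h4]⟩
        zero_mem' := ⟨map_zero _, map_zero _⟩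
        smul_mem' := by
          rintro c x ⟨h1, h2⟩
          exact ⟨by rw [map_smul, h1], by rw [map_smul, h2]⟩ }
    have hN : N = ⊥ := by
      have hst : N = ⊥ ∨ N = ⊤ := by
        apply hstab N
        · rintro m ⟨h1, h2⟩
          exact ⟨by rw [h1, h1], by rw [h1, h2]⟩
        · rintro m ⟨h1, h2⟩
          exact ⟨by rw [h2, h1], by rw [h2, h2]⟩
        · rintro m ⟨h1, h2⟩
          refine ⟨?_, ?_⟩
          · have h3 := RB m
            rw [h2] at h3
            conv_lhs => rw [h3]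
            rw [A3]
          · rw [← RA, h1]
        · rintro m ⟨h1, h2⟩
          refine ⟨?_, ?_⟩
          · rw [← SA, h1]
          · have h3 := SB m
            rw [h2] at h3
            conv_lhs => rw [h3]
            rw [B3]
      rcases hst with h | h
      · exact h
      · exfalso
        apply ha1
        apply hfaith
        ext m
        have hm : m ∈ N := h ▸ Submodule.mem_top
        rw [map_one]
        exact hm.1
    intro m h1 h2
    have hm : m ∈ N := ⟨h1, h2⟩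
    rw [hN] at hm
    simpa using hm
  -- one of the four lines has nonzero fixed points
  have hline : ∀ g : S, g * g * g = 1 → ∀ m : M, m + ρ g m + ρ g (ρ g m) ≠ 0 → ∃ v, v ≠ 0 ∧ ρ g v = v := by
    intro g hg m hm
    refine ⟨_, hm, ?_⟩
    have h3 : ρ g (ρ g (ρ g m)) = m := by
      rw [← hρ, ← hρ, hg]; simp
    simp only [map_add, h3]
    abel
  have hrinv : ∀ x, ρ a (ρ r⁻¹ x) = ρ r⁻¹ (ρ b x) := fun x => by
    rw [← hρ, ← hρ]
    congr 2
    calc a * r⁻¹ = r⁻¹ * (r * a) * r⁻¹ := by group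
      _ = r⁻¹ * (b * r) * r⁻¹ := by rw [hra]
      _ = r⁻¹ * b := by group
  have hcomm3 : (a * b) * (a * b) * (a * b) = 1 := by
    calc (a * b) * (a * b) * (a * b) = (a * a * a) * (b * b * b) := by
          have h1 : b * a = a * b := hab.symm
          have h3 : ∀ x, b * (a * x) = a * (b * x) := fun x => by rw [← mul_assoc, h1, mul_assoc]
          simp only [mul_assoc, h1, h3]
      _ = 1 := by rw [ha3, hb3, one_mul]
  have hrinv0 : ∀ x, x ≠ 0 → ρ r⁻¹ x ≠ 0 := fun x hx h0 => by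
    apply hx
    have h1 := congrArg (ρ r) h0
    rw [← hρ] at h1
    simpa using h1
  have hrinv2 : ∀ x, ρ (a * b) (ρ r⁻¹ x) = ρ r⁻¹ (ρ (b * a * a) x) := fun x => by
    rw [← hρ, ← hρ]
    congr 2
    have h1 : r * (a * b) = b * a * a * r := by
      rw [← mul_assoc, hra, mul_assoc, hrb]
      simp only [mul_assoc]
    calc a * b * r⁻¹ = r⁻¹ * (r * (a * b)) * r⁻¹ := by group
      _ = r⁻¹ * (b * a * a * r) * r⁻¹ := by rw [h1]
      _ = r⁻¹ * (b * a * a) := by group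
  have hc3 : (b * a * a) * (b * a * a) * (b * a * a) = 1 := by
    have h1 : b * a = a * b := hab.symm
    have h3 : ∀ x, b * (a * x) = a * (b * x) := fun x => by rw [← mul_assoc, h1, mul_assoc]
    have r7 : ∀ x, a * (a * (a * x)) = x := fun x => by
      rw [← mul_assoc, ← mul_assoc, ha3, one_mul]
    have r8' : b * (b * b) = 1 := by rw [← mul_assoc, hb3]
    simp only [mul_assoc, h1, h3, r7, r8']
  have hcases : (∃ v, v ≠ 0 ∧ ρ a v = v) ∨ (∃ v, v ≠ 0 ∧ ρ (a * b) v = v) := by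
    obtain ⟨m, hm⟩ := exists_ne (0 : M)
    by_contra hcon
    push Not at hcon
    obtain ⟨hc1, hc2⟩ := hcon
    have e1 : m + ρ a m + ρ a (ρ a m) = 0 := by
      by_contra h
      obtain ⟨v, hv, hv2⟩ := hline a ha3 m h
      exact hc1 v hv hv2
    have e2 : m + ρ b m + ρ b (ρ b m) = 0 := by
      by_contra h
      obtain ⟨v, hv, hv2⟩ := hline b hb3 m h
      exact hc1 _ (hrinv0 v hv) (by rw [hrinv, hv2])
    have e5 : m + ρ (a * b) m + ρ (a * b) (ρ (a * b) m) = 0 := by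
      by_contra h
      obtain ⟨v, hv, hv2⟩ := hline (a * b) hcomm3 m h
      exact hc2 v hv hv2
    have e6 : m + ρ (b * a * a) m + ρ (b * a * a) (ρ (b * a * a) m) = 0 := by
      by_contra h
      obtain ⟨v, hv, hv2⟩ := hline (b * a * a) hc3 m h
      exact hc2 _ (hrinv0 v hv) (by rw [hrinv2, hv2])
    have BA : ∀ x, ρ b (ρ a x) = ρ a (ρ b x) := fun x => (AB x).symm
    simp only [hρ, BA, A3] at e5 e6
    have e3 := congrArg (ρ a) e2
    have e4 := congrArg (fun x => ρ a (ρ a x)) e2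
    simp only [map_add, map_zero] at e3 e4
    have hsum : (m + ρ a m + ρ a (ρ a m)) + (ρ a m + ρ a (ρ b m) + ρ a (ρ b (ρ b m))) +
        (ρ a (ρ a m) + ρ a (ρ a (ρ b m)) + ρ a (ρ a (ρ b (ρ b m)))) +
        (m + ρ a (ρ b m) + ρ a (ρ a (ρ b (ρ b m)))) +
        (m + ρ a (ρ a (ρ b m)) + ρ a (ρ b (ρ b m))) =
        m + (m + m) + (ρ a m + ρ a m) + (ρ a (ρ a m) + ρ a (ρ a m)) +
        (ρ a (ρ b m) + ρ a (ρ b m)) + (ρ a (ρ a (ρ b m)) + ρ a (ρ a (ρ b m))) +
        (ρ a (ρ b (ρ b m)) + ρ a (ρ b (ρ b m))) +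
        (ρ a (ρ a (ρ b (ρ b m))) + ρ a (ρ a (ρ b (ρ b m)))) := by abel
    rw [e1, e3, e4, e5, e6] at hsum
    simp only [h2, add_zero] at hsum
    exact hm hsum.symm
  have hcount : (Nat.card M = 16 ∧ Nat.card {m : M // ρ (r * r) m = m ∧ ρ s m = m} = 4 ∧
        Nat.card {m : M // ρ (r * r) m = m ∧ ρ (r * s) m = m} = 2) ∨
      (Nat.card M = 16 ∧ Nat.card {m : M // ρ (r * r) m = m ∧ ρ (r * s) m = m} = 4 ∧
        Nat.card {m : M // ρ (r * r) m = m ∧ ρ s m = m} = 2) := by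
    rcases hcases with h | h
    · exact Or.inl (core ρ a b r s ha3 hb3 hab hra hrb hsa hsb hsr hr4 hs2 hC h hstab)
    · obtain ⟨h1, h3, h4⟩ := core2 ρ a b r s ha3 hb3 hab hra hrb hsa hsb hsr hr4 hs2 hC h hstab
      refine Or.inr ⟨h1, h3, ?_⟩
      refine Eq.trans ?_ h4
      refine Nat.card_congr (Equiv.subtypeEquivRight fun m => ?_)
      constructor
      · rintro ⟨h5, h6⟩
        refine ⟨h5, ?_⟩
        rw [← mul_assoc, hρ, h6, h5]
      · rintro ⟨h5, h6⟩
        refine ⟨h5, ?_⟩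
        rw [← mul_assoc, hρ] at h6
        have h7 : ρ (r * r) (ρ (r * r) (ρ s m)) = ρ s m := by
          rw [← hρ, show r * r * (r * r) = 1 by simpa only [mul_assoc] using hr4]
          simp
        rw [← h7, h6, h5]
  -- the two subgroups
  set Bs : Subgroup S := Fs.map ι with hBs
  set Bt : Subgroup S := Ft.map ι with hBt
  have hBsX : Bs ≤ X := by
    rintro _ ⟨d, -, rfl⟩
    exact ιX d
  have hBtX : Bt ≤ X := by
    rintro _ ⟨d, -, rfl⟩
    exact ιX d
  have cBs : Nat.card Bs = 4 := by rw [hBs, Subgroup.card_map_of_injective ιinj, card_Fs]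
  have cBt : Nat.card Bt = 4 := by rw [hBt, Subgroup.card_map_of_injective ιinj, card_Ft]
  have eBs : ∀ b ∈ Bs, b ^ 2 = 1 := by
    rintro _ ⟨d, hd, rfl⟩
    have := exp_Fs d hd
    rw [← map_pow, this, map_one]
  have eBt : ∀ b ∈ Bt, b ^ 2 = 1 := by
    rintro _ ⟨d, hd, rfl⟩
    have := exp_Ft d hd
    rw [← map_pow, this, map_one]
  have ι2 : ι (DihedralGroup.r 2) = r * r := by
    rw [show (DihedralGroup.r 2 : DihedralGroup 4) = DihedralGroup.r 1 * DihedralGroup.r 1 by decide, map_mul]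
  have fixS : ∀ m, (∀ b ∈ Bs, ρ b m = m) ↔ (ρ (r * r) m = m ∧ ρ s m = m) := by
    intro m
    constructor
    · intro h
      refine ⟨?_, h _ ⟨DihedralGroup.sr 0, Or.inr (Or.inr (Or.inl rfl)), rfl⟩⟩
      rw [← ι2]
      exact h _ ⟨DihedralGroup.r 2, Or.inr (Or.inl rfl), rfl⟩
    · rintro ⟨h1, h3⟩ _ ⟨d, hd, rfl⟩
      rcases hd with rfl | rfl | rfl | rfl
      · rw [show (DihedralGroup.r 0 : DihedralGroup 4) = 1 from rfl, map_one, map_one]
        rfl
      · show ρ (ι (DihedralGroup.r 2)) m = m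
        rw [ι2, h1]
      · exact h3
      · show ρ (ι (DihedralGroup.sr 2)) m = m
        rw [show (DihedralGroup.sr 2 : DihedralGroup 4) = DihedralGroup.sr 0 * DihedralGroup.r 2 by decide,
          map_mul, ι2, hρ, h1, h3]
  have fixT : ∀ m, (∀ b ∈ Bt, ρ b m = m) ↔ (ρ (r * r) m = m ∧ ρ (r * s) m = m) := by
    intro m
    have ι3 : ι (DihedralGroup.sr 3) = r * s := by
      rw [show (DihedralGroup.sr 3 : DihedralGroup 4) = DihedralGroup.r 1 * DihedralGroup.sr 0 by decide, map_mul]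
    constructor
    · intro h
      refine ⟨?_, ?_⟩
      · rw [← ι2]
        exact h _ ⟨DihedralGroup.r 2, Or.inr (Or.inl rfl), rfl⟩
      · rw [← ι3]
        exact h _ ⟨DihedralGroup.sr 3, Or.inr (Or.inr (Or.inr rfl)), rfl⟩
    · rintro ⟨h1, h3⟩ _ ⟨d, hd, rfl⟩
      rcases hd with rfl | rfl | rfl | rfl
      · rw [show (DihedralGroup.r 0 : DihedralGroup 4) = 1 from rfl, map_one, map_one]
        rfl
      · show ρ (ι (DihedralGroup.r 2)) m = m
        rw [ι2, h1]
      · show ρ (ι (DihedralGroup.sr 1)) m = m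
        rw [show (DihedralGroup.sr 1 : DihedralGroup 4) = DihedralGroup.r 2 * DihedralGroup.sr 3 by decide,
          map_mul, ι2, ι3, hρ, h3, h1]
      · show ρ (ι (DihedralGroup.sr 3)) m = m
        rw [ι3, h3]
  have cntS : Nat.card {m : M // ∀ b ∈ Bs, ρ b m = m} = Nat.card {m : M // ρ (r * r) m = m ∧ ρ s m = m} :=
    Nat.card_congr (Equiv.subtypeEquivRight fixS)
  have cntT : Nat.card {m : M // ∀ b ∈ Bt, ρ b m = m} = Nat.card {m : M // ρ (r * r) m = m ∧ ρ (r * s) m = m} :=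
    Nat.card_congr (Equiv.subtypeEquivRight fixT)
  have hdich : ∀ B : Subgroup S, B ≤ X → Nat.card B = 4 → (∀ b ∈ B, b ^ 2 = 1) → B = Bs ∨ B = Bt := by
    intro B hB hc he
    have hmap : (B.comap ι).map ι = B := by
      apply Subgroup.map_comap_eq_self
      intro x hx
      obtain ⟨d, hd⟩ := ιsurj x (hB hx)
      exact ⟨d, hd⟩
    have hcF : Nat.card (B.comap ι) = 4 := by
      refine Eq.trans ?_ hc
      conv_rhs => rw [← hmap]
      rw [Subgroup.card_map_of_injective ιinj]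
    have hF : ∀ g ∈ B.comap ι, g ^ 2 = 1 := fun g hg => by
      apply ιinj
      rw [map_pow, map_one]
      exact he _ hg
    rcases F_dich _ hF with h | h
    · left
      have : B.comap ι = Fs := Subgroup.eq_of_le_of_card_ge h (by rw [card_Fs, hcF])
      rw [hBs, ← this, hmap]
    · right
      have : B.comap ι = Ft := Subgroup.eq_of_le_of_card_ge h (by rw [card_Ft, hcF])
      rw [hBt, ← this, hmap]
  rcases hcount with ⟨h16, h4, h2'⟩ | ⟨h16, h4, h2'⟩
  · refine ⟨h16, Bt, ⟨hBtX, cBt, eBt, by rw [cntT, h2']⟩, ?_⟩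
    rintro B ⟨hB, hc, he, hcnt⟩
    rcases hdich B hB hc he with rfl | rfl
    · rw [cntS, h4] at hcnt
      norm_num at hcnt
    · rfl
  · refine ⟨h16, Bs, ⟨hBsX, cBs, eBs, by rw [cntS, h2']⟩, ?_⟩
    rintro B ⟨hB, hc, he, hcnt⟩
    rcases hdich B hB hc he with rfl | rfl
    · rfl
    · rw [cntT, h4] at hcnt
      norm_num at hcnt


/-- Let S be a finite group with a normal elementary abelian subgroup A of order 9 that is self-centralizing (C_S(A) = A), and a dihedral subgroup X of order 8 with S = AX. Let M be a finite-dimensional module for S over the field with two elements that is faithful and irreducible. Then M has 16 elements, and X contains exactly one subgroup B of order 4 and exponent 2 whose fixed points on M form a subspace with exactly 2 elements (equivalently, M is free of rank one over the group algebra of B). -/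
theorem result {S : Type*} [Group S] [Finite S]
    (A : Subgroup S) [A.Normal] (hA : Cfsg.IsElementaryAbelian 3 A) (hA9 : Nat.card ↥A = 9)
    (hAC : Subgroup.centralizer (A : Set S) = A) (X : Subgroup S) (hX : Nonempty (↥X ≃* DihedralGroup 4)) (hAX : A ⊔ X = ⊤)
    {M : Type*} [AddCommGroup M] [Module (ZMod 2) M] [Finite M] (ρ : Representation (ZMod 2) S M)
    (hfaith : Function.Injective ρ)
    (hirr : ∀ N : Submodule (ZMod 2) M, (∀ s : S, ∀ m ∈ N, ρ s m ∈ N) → N = ⊥ ∨ N = ⊤) (hM : Nontrivial M) :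
    Nat.card M = 16 ∧
      ∃! B : Subgroup S, B ≤ X ∧ Nat.card ↥B = 4 ∧ (∀ b ∈ B, b ^ 2 = 1) ∧
        Nat.card {m : M // ∀ b ∈ B, ρ b m = m} = 2 := by
  exact main_thm A hA hA9 hAC X hX hAX ρ hfaith hirr hM

end Cfsg.Agent.S4407
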