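import Mathlib
import Cfsg.Statements.S4408
import Cfsg.Agent.Lib.PCore
import Cfsg.Agent.Lib.Replacement

set_option autoImplicit false
open Cfsg
open Cfsg.Agent.Lib
open scoped commutatorElement

namespace Cfsg.Agent.S4408

/-- A commuting family of involutive endomorphisms of a finite abelian group of odd order has a common
eigenvector, with eigenvalues `±1`. -/
lemma eig₀ {X : Type*} [Group X] [Finite X] (hc : ∀ a b : X, a * b = b * a)
    (hodd : ∀ x : X, x ^ 2 = 1 → x = 1) (𝓢 : Set (X →* X))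
    (hinv : ∀ σ ∈ 𝓢, ∀ x, σ (σ x) = x) (hcomm : ∀ σ ∈ 𝓢, ∀ τ ∈ 𝓢, ∀ x, σ (τ x) = τ (σ x))
    (hne : ∃ x : X, x ≠ 1) : ∃ x, x ≠ 1 ∧ ∀ σ ∈ 𝓢, σ x = x ∨ σ x = x⁻¹ := by
  let 𝒴 : Set (Subgroup X) := {Y | Y ≠ ⊥ ∧ ∀ σ ∈ 𝓢, ∀ y ∈ Y, σ y ∈ Y}
  have htop : (⊤ : Subgroup X) ∈ 𝒴 := by
    refine ⟨?_, fun _ _ _ _ => trivial⟩
    obtain ⟨x, hx⟩ := hne
    intro h
    have hx' : x ∈ (⊤ : Subgroup X) := trivial
    rw [h, Subgroup.mem_bot] at hx'
    exact hx hx'
  obtain ⟨Y, hYm⟩ := (𝒴.toFinite).exists_minimal ⟨⊤, htop⟩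
  have hYmem : Y ∈ 𝒴 := hYm.1
  have hmin : ∀ Z ∈ 𝒴, Z ≤ Y → Y ≤ Z := fun Z hZ hle => hYm.2 hZ hle
  have hkey : ∀ σ ∈ 𝓢, (∀ y ∈ Y, σ y = y) ∨ (∀ y ∈ Y, σ y = y⁻¹) := by
    intro σ hσ
    let Yp : Subgroup X :=
      { carrier := {y | y ∈ Y ∧ σ y = y}
        one_mem' := ⟨Y.one_mem, map_one σ⟩
        mul_mem' := by
          rintro a b ⟨ha, ha'⟩ ⟨hb, hb'⟩
          exact ⟨Y.mul_mem ha hb, by rw [map_mul, ha', hb']⟩
        inv_mem' := by
          rintro a ⟨ha, ha'⟩
          exact ⟨Y.inv_mem ha, by rw [map_inv, ha']⟩ }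
    let Ym : Subgroup X :=
      { carrier := {y | y ∈ Y ∧ σ y = y⁻¹}
        one_mem' := ⟨Y.one_mem, by simp⟩
        mul_mem' := by
          rintro a b ⟨ha, ha'⟩ ⟨hb, hb'⟩
          exact ⟨Y.mul_mem ha hb, by rw [map_mul, ha', hb', mul_inv_rev, hc]⟩
        inv_mem' := by
          rintro a ⟨ha, ha'⟩
          exact ⟨Y.inv_mem ha, by rw [map_inv, ha']⟩ }
    by_cases hp : Yp = ⊥
    · by_cases hm : Ym = ⊥
      · exfalso
        apply hYmem.1
        rw [eq_bot_iff]
        intro y hy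
        have hσy : σ y ∈ Y := hYmem.2 σ hσ y hy
        have hu : y * σ y ∈ Yp := by
          refine ⟨Y.mul_mem hy hσy, ?_⟩
          rw [map_mul, hinv σ hσ, hc]
        have hv : y * (σ y)⁻¹ ∈ Ym := by
          refine ⟨Y.mul_mem hy (Y.inv_mem hσy), ?_⟩
          rw [map_mul, map_inv, hinv σ hσ, mul_inv_rev, inv_inv]
        rw [hp, Subgroup.mem_bot] at hu
        rw [hm, Subgroup.mem_bot] at hv
        have h1 : y ^ 2 = 1 := by
          have : y ^ 2 = (y * σ y) * (y * (σ y)⁻¹) := by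
            rw [pow_two, mul_assoc, ← mul_assoc (σ y), hc (σ y) y, mul_assoc y (σ y), mul_inv_cancel,
              mul_one]
          rw [this, hu, hv, one_mul]
        rw [Subgroup.mem_bot]
        exact hodd y h1
      · right
        have hY : Y ≤ Ym := by
          apply hmin Ym ⟨hm, ?_⟩ (fun y hy => hy.1)
          rintro τ hτ y ⟨hy, hy'⟩
          exact ⟨hYmem.2 τ hτ y hy, by rw [hcomm σ hσ τ hτ, hy', map_inv]⟩
        exact fun y hy => (hY hy).2
    · left
      have hY : Y ≤ Yp := by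
        apply hmin Yp ⟨hp, ?_⟩ (fun y hy => hy.1)
        rintro τ hτ y ⟨hy, hy'⟩
        exact ⟨hYmem.2 τ hτ y hy, by rw [hcomm σ hσ τ hτ, hy']⟩
      exact fun y hy => (hY hy).2
  obtain ⟨x, hx, hx1⟩ : ∃ x ∈ Y, x ≠ 1 := by
    by_contra hcon
    push Not at hcon
    exact hYmem.1 ((Subgroup.eq_bot_iff_forall _).2 hcon)
  refine ⟨x, hx1, fun σ hσ => ?_⟩
  rcases hkey σ hσ with h | h
  · exact Or.inl (h x hx)
  · exact Or.inr (h x hx)

/-- Ambient form of `eig₀`, relative to a subgroup `A` normal in `W` with `W/A` abelian of odd order. -/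
lemma eig {G : Type*} [Group G] [Finite G] (I : Subgroup G) (hIc : ∀ a ∈ I, ∀ b ∈ I, a * b = b * a)
    (hI2 : ∀ a ∈ I, a ^ 2 = 1) (A W : Subgroup G) (hAW : A ≤ W) (hne : ¬ W ≤ A)
    (hAn : ∀ w ∈ W, ∀ a ∈ A, w * a * w⁻¹ ∈ A) (hWab : ∀ x ∈ W, ∀ y ∈ W, x * y * x⁻¹ * y⁻¹ ∈ A)
    (hodd : ∀ w ∈ W, w ^ 2 ∈ A → w ∈ A)
    (hIA : ∀ s ∈ I, ∀ a ∈ A, s * a * s⁻¹ ∈ A) (hIW : ∀ s ∈ I, ∀ w ∈ W, s * w * s⁻¹ ∈ W) :
    ∃ w ∈ W, w ∉ A ∧ ∀ s ∈ I, s * w * s⁻¹ * w⁻¹ ∈ A ∨ s * w * s⁻¹ * w ∈ A := by
  let A' : Subgroup W := A.subgroupOf W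
  have hA'n : A'.Normal := by
    constructor
    rintro ⟨a, ha⟩ ha' ⟨g, hg⟩
    exact hAn g hg a ha'
  let conjW : ∀ s : G, s ∈ I → (W →* W) := fun s hs =>
    { toFun := fun x => ⟨s * x * s⁻¹, hIW s hs x x.2⟩
      map_one' := by
        apply Subtype.ext
        simp
      map_mul' := by
        intro x y
        apply Subtype.ext
        simp [mul_assoc] }
  have hle : ∀ s (hs : s ∈ I), A' ≤ A'.comap (conjW s hs) := by
    rintro s hs ⟨a, _⟩ ha'
    exact hIA s hs a ha'
  let conjQ : ∀ s : G, s ∈ I → ((W ⧸ A') →* (W ⧸ A')) := fun s hs =>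
    QuotientGroup.map A' A' (conjW s hs) (hle s hs)
  have hcQ : ∀ s (hs : s ∈ I) (x : W), conjQ s hs (x : W ⧸ A') = ((conjW s hs x : W) : W ⧸ A') :=
    fun s hs x => rfl
  have hcQ' : ∀ a b : W ⧸ A', a * b = b * a := by
    intro a b
    induction a using QuotientGroup.induction_on with
    | H x =>
      induction b using QuotientGroup.induction_on with
      | H y =>
        rw [← QuotientGroup.mk_mul, ← QuotientGroup.mk_mul, QuotientGroup.eq]
        rw [Subgroup.mem_subgroupOf]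
        have h1 := hWab _ (W.inv_mem y.2) _ (W.inv_mem x.2)
        simp only [inv_inv] at h1
        have e : (((x * y)⁻¹ * (y * x) : W) : G) = (y : G)⁻¹ * (x : G)⁻¹ * y * x := by
          simp [mul_assoc]
        rw [e]
        exact h1
  have hoddQ : ∀ q : W ⧸ A', q ^ 2 = 1 → q = 1 := by
    intro q hq
    induction q using QuotientGroup.induction_on with
    | H x =>
      rw [← QuotientGroup.mk_pow, QuotientGroup.eq_one_iff, Subgroup.mem_subgroupOf] at hq
      rw [QuotientGroup.eq_one_iff, Subgroup.mem_subgroupOf]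
      exact hodd x x.2 (by simpa using hq)
  let 𝓢 : Set ((W ⧸ A') →* (W ⧸ A')) := {σ | ∃ (s : G) (hs : s ∈ I), σ = conjQ s hs}
  have hinvQ : ∀ σ ∈ 𝓢, ∀ x, σ (σ x) = x := by
    rintro _ ⟨s, hs, rfl⟩ x
    induction x using QuotientGroup.induction_on with
    | H x =>
      rw [hcQ s hs, hcQ s hs]
      congr 1
      apply Subtype.ext
      have hs2 : s * s = 1 := by rw [← pow_two]; exact hI2 s hs
      have hsi : s⁻¹ = s := inv_eq_of_mul_eq_one_left hs2
      show s * (s * (x : G) * s⁻¹) * s⁻¹ = x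
      rw [hsi]
      calc s * (s * (x : G) * s) * s = (s * s) * x * (s * s) := by group
        _ = x := by rw [hs2, one_mul, mul_one]
  have hcommQ : ∀ σ ∈ 𝓢, ∀ τ ∈ 𝓢, ∀ x, σ (τ x) = τ (σ x) := by
    rintro _ ⟨s, hs, rfl⟩ _ ⟨t, ht, rfl⟩ x
    induction x using QuotientGroup.induction_on with
    | H x =>
      rw [hcQ t ht, hcQ s hs, hcQ s hs, hcQ t ht]
      congr 1
      apply Subtype.ext
      show s * (t * (x : G) * t⁻¹) * s⁻¹ = t * (s * (x : G) * s⁻¹) * t⁻¹
      have h1 : s * t = t * s := hIc s hs t ht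
      calc s * (t * (x : G) * t⁻¹) * s⁻¹ = (s * t) * x * (s * t)⁻¹ := by group
        _ = (t * s) * x * (t * s)⁻¹ := by rw [h1]
        _ = _ := by group
  have hneQ : ∃ x : W ⧸ A', x ≠ 1 := by
    obtain ⟨w, hw, hwA⟩ := Set.not_subset.1 hne
    refine ⟨((⟨w, hw⟩ : W) : W ⧸ A'), ?_⟩
    rw [Ne, QuotientGroup.eq_one_iff]
    exact hwA
  obtain ⟨q, hq1, hq⟩ := eig₀ hcQ' hoddQ 𝓢 hinvQ hcommQ hneQ
  induction q using QuotientGroup.induction_on with
  | H w =>
    refine ⟨w, w.2, ?_, ?_⟩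
    · intro h
      apply hq1
      rw [QuotientGroup.eq_one_iff]
      exact h
    · intro s hs
      rcases hq _ ⟨s, hs, rfl⟩ with h | h
      · left
        rw [hcQ s hs] at h
        have h2 : (((conjW s hs w * w⁻¹ : W)) : W ⧸ A') = 1 := by
          rw [QuotientGroup.mk_mul, h, QuotientGroup.mk_inv, mul_inv_cancel]
        rw [QuotientGroup.eq_one_iff] at h2
        exact h2
      · right
        rw [hcQ s hs] at h
        have h2 : (((conjW s hs w * w : W)) : W ⧸ A') = 1 := by
          rw [QuotientGroup.mk_mul, h, inv_mul_cancel]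
        rw [QuotientGroup.eq_one_iff] at h2
        exact h2

section main

variable {S : Type*} [Group S] [Finite S]

/-- Existence of a self-centralising invariant abelian subgroup of the nilpotent group `F`. -/
lemma exists_selfcent (F I : Subgroup S) [hFn : F.Normal] (hnil : Group.IsNilpotent F)
    (hIc : ∀ a ∈ I, ∀ b ∈ I, a * b = b * a) (hI2 : ∀ a ∈ I, a ^ 2 = 1)
    (hodd : Odd (Nat.card F)) :
    ∃ A : Subgroup S, A ≤ F ∧ (∀ a ∈ A, ∀ b ∈ A, a * b = b * a) ∧
      (∀ g ∈ F, ∀ a ∈ A, g * a * g⁻¹ ∈ A) ∧ (∀ s ∈ I, ∀ a ∈ A, s * a * s⁻¹ ∈ A) ∧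
      (∀ x ∈ F, (∀ a ∈ A, x * a = a * x) → x ∈ A) := by
  classical
  let 𝒜 : Set (Subgroup S) := {A | A ≤ F ∧ (∀ a ∈ A, ∀ b ∈ A, a * b = b * a) ∧
      (∀ g ∈ F, ∀ a ∈ A, g * a * g⁻¹ ∈ A) ∧ (∀ s ∈ I, ∀ a ∈ A, s * a * s⁻¹ ∈ A)}
  have hbot : (⊥ : Subgroup S) ∈ 𝒜 := by
    refine ⟨bot_le, ?_, ?_, ?_⟩
    · intro a ha b hb
      rw [Subgroup.mem_bot] at ha hb
      rw [ha, hb]
    · intro g _ a ha
      rw [Subgroup.mem_bot] at ha ⊢
      simp [ha]
    · intro g _ a ha
      rw [Subgroup.mem_bot] at ha ⊢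
      simp [ha]
  obtain ⟨A, hAm⟩ := (𝒜.toFinite).exists_maximal ⟨⊥, hbot⟩
  obtain ⟨hAF, hAc, hAF', hAI⟩ := hAm.1
  have hAmax : ∀ B ∈ 𝒜, A ≤ B → B ≤ A := fun B hB hle => hAm.2 hB hle
  refine ⟨A, hAF, hAc, hAF', hAI, ?_⟩
  -- `C = C_F(A)`
  let C : Subgroup S :=
    { carrier := {x | x ∈ F ∧ ∀ a ∈ A, x * a = a * x}
      one_mem' := ⟨F.one_mem, by simp⟩
      mul_mem' := by
        rintro x y ⟨hx, hx'⟩ ⟨hy, hy'⟩
        refine ⟨F.mul_mem hx hy, fun a ha => ?_⟩
        rw [mul_assoc, hy' a ha, ← mul_assoc, hx' a ha, mul_assoc]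
      inv_mem' := by
        rintro x ⟨hx, hx'⟩
        refine ⟨F.inv_mem hx, fun a ha => ?_⟩
        have := hx' a ha
        rw [inv_mul_eq_iff_eq_mul, ← mul_assoc, this, mul_assoc, mul_inv_cancel, mul_one] }
  have hCconj : ∀ g ∈ F, ∀ x ∈ C, g * x * g⁻¹ ∈ C := by
    rintro g hg x ⟨hx, hx'⟩
    refine ⟨hFn.conj_mem x hx g, fun a ha => ?_⟩
    have h1 := hx' _ (hAF' _ (F.inv_mem hg) a ha)
    rw [inv_inv] at h1
    calc g * x * g⁻¹ * a = g * (x * (g⁻¹ * a * g)) * g⁻¹ := by group
      _ = g * (g⁻¹ * a * g * x) * g⁻¹ := by rw [h1]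
      _ = a * (g * x * g⁻¹) := by group
  intro x hx hxc
  by_contra hxA
  let W : Subgroup S :=
    { carrier := {w | w ∈ C ∧ ∀ g ∈ F, g * w * g⁻¹ * w⁻¹ ∈ A}
      one_mem' := ⟨C.one_mem, fun g _ => by simp [A.one_mem]⟩
      mul_mem' := by
        rintro u v ⟨hu, hu'⟩ ⟨hv, hv'⟩
        refine ⟨C.mul_mem hu hv, fun g hg => ?_⟩
        have e : g * (u * v) * g⁻¹ * (u * v)⁻¹
            = (g * u * g⁻¹ * u⁻¹) * (u * (g * v * g⁻¹ * v⁻¹) * u⁻¹) := by group
        rw [e]
        exact A.mul_mem (hu' g hg) (hAF' u hu.1 _ (hv' g hg))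
      inv_mem' := by
        rintro u ⟨hu, hu'⟩
        refine ⟨C.inv_mem hu, fun g hg => ?_⟩
        have e : g * u⁻¹ * g⁻¹ * u⁻¹⁻¹ = u⁻¹ * (g * u * g⁻¹ * u⁻¹)⁻¹ * u⁻¹⁻¹ := by group
        rw [e]
        exact hAF' _ (F.inv_mem hu.1) _ (A.inv_mem (hu' g hg)) }
  have hAW : A ≤ W := by
    intro a ha
    refine ⟨⟨hAF ha, fun b hb => hAc a ha b hb⟩, fun g hg => ?_⟩
    exact A.mul_mem (hAF' g hg a ha) (A.inv_mem ha)
  have hWA : ¬ W ≤ A := by
    intro hWA
    obtain ⟨m, hm⟩ := Subgroup.nilpotent_iff_lowerCentralSeries.1 hnil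
    let Z : ℕ → Prop := fun i => ∀ y : F, y ∈ (⊤ : Subgroup F).lowerCentralSeries i → (y : S) ∈ C → (y : S) ∈ A
    have hstep : ∀ i, Z (i + 1) → Z i := by
      intro i hZ y hy hyC
      apply hWA
      refine ⟨hyC, fun g hg => ?_⟩
      let g' : F := ⟨g, hg⟩
      have h1 : ⁅y, g'⁆ ∈ (⊤ : Subgroup F).lowerCentralSeries (i + 1) :=
        Subgroup.commutator_mem_commutator hy (Subgroup.mem_top g')
      have h2 : ⁅g', y⁆ ∈ (⊤ : Subgroup F).lowerCentralSeries (i + 1) := by
        rw [← commutatorElement_inv]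
        exact Subgroup.inv_mem _ h1
      have h3 : ((⁅g', y⁆ : F) : S) = g * y * g⁻¹ * (y : S)⁻¹ := rfl
      apply h3 ▸ hZ _ h2
      exact C.mul_mem (hCconj g hg y hyC) (C.inv_mem hyC)
    have hdown : ∀ m, Z m → Z 0 := by
      intro m
      induction m with
      | zero => exact id
      | succ m ih => exact fun h => ih (hstep m h)
    have hZm : Z m := by
      intro y hy _
      rw [hm, Subgroup.mem_bot] at hy
      rw [hy]
      exact A.one_mem
    have hZ0 := hdown m hZm
    exact hxA (hZ0 ⟨x, hx⟩ (by rw [Subgroup.lowerCentralSeries_zero]; trivial) ⟨hx, hxc⟩)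
  -- odd-order facts
  have hoddF : ∀ w ∈ F, w ^ 2 ∈ A → w ∈ A := by
    intro w hw hw2
    obtain ⟨l, hl⟩ := hodd
    have h1 : w ^ Nat.card F = 1 := by
      have := pow_card_eq_one' (G := F) (x := ⟨w, hw⟩)
      exact congrArg Subtype.val this
    have h2 : w = (w ^ 2) ^ (l + 1) := by
      rw [← pow_mul]
      have : 2 * (l + 1) = Nat.card F + 1 := by omega
      rw [this, pow_succ, h1, one_mul]
    rw [h2]
    exact A.pow_mem hw2 _
  have hIinv : ∀ s ∈ I, s⁻¹ ∈ I := fun s hs => I.inv_mem hs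
  obtain ⟨w, hwW, hwA, hwI⟩ := eig I hIc hI2 A W hAW hWA
    (fun w hw a ha => hAF' w hw.1.1 a ha)
    (fun u hu v hv => hv.2 u hu.1.1 |> fun h => by
      have e : u * v * u⁻¹ * v⁻¹ = u * v * u⁻¹ * v⁻¹ := rfl
      exact h)
    (fun w hw h => hoddF w hw.1.1 h) hAI
    (by
      rintro s hs u ⟨⟨huF, huc⟩, hu'⟩
      refine ⟨⟨hFn.conj_mem u huF s, fun a ha => ?_⟩, fun g hg => ?_⟩
      · have h1 := huc _ (hAI _ (hIinv s hs) a ha)
        rw [inv_inv] at h1
        calc s * u * s⁻¹ * a = s * (u * (s⁻¹ * a * s)) * s⁻¹ := by group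
          _ = s * (s⁻¹ * a * s * u) * s⁻¹ := by rw [h1]
          _ = a * (s * u * s⁻¹) := by group
      · have hg' : s⁻¹ * g * s ∈ F := by
          have := hFn.conj_mem g hg s⁻¹
          rwa [inv_inv] at this
        have h1 := hAI s hs _ (hu' _ hg')
        have e : s * ((s⁻¹ * g * s) * u * (s⁻¹ * g * s)⁻¹ * u⁻¹) * s⁻¹
            = g * (s * u * s⁻¹) * g⁻¹ * (s * u * s⁻¹)⁻¹ := by group
        rwa [e] at h1)
  -- the larger subgroup
  let D : Subgroup S := A ⊔ Subgroup.zpowers w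
  have hwD : w ∈ D := Subgroup.mem_sup_right (Subgroup.mem_zpowers w)
  have hconjD : ∀ g : S, (∀ a ∈ A, g * a * g⁻¹ ∈ D) → g * w * g⁻¹ ∈ D →
      ∀ y ∈ D, g * y * g⁻¹ ∈ D := by
    intro g h1 h2 y hy
    have hle : D ≤ D.comap (MulAut.conj g).toMonoidHom := by
      refine sup_le (fun a ha => ?_) ?_
      · exact h1 a ha
      · rw [Subgroup.zpowers_le]
        exact h2
    exact hle hy
  have hDmem : D ∈ 𝒜 := by
    refine ⟨sup_le hAF (by rw [Subgroup.zpowers_le]; exact hwW.1.1), ?_, ?_, ?_⟩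
    · -- commutativity
      have hwc : w ∈ C := hwW.1
      have h1 : ∀ a ∈ A, D ≤ Subgroup.centralizer ({a} : Set S) := by
        intro a ha
        refine sup_le (fun b hb => ?_) ?_
        · rw [Subgroup.mem_centralizer_singleton_iff]
          exact hAc b hb a ha
        · rw [Subgroup.zpowers_le, Subgroup.mem_centralizer_singleton_iff]
          exact hwc.2 a ha
      have h2 : D ≤ Subgroup.centralizer ({w} : Set S) := by
        refine sup_le (fun b hb => ?_) ?_
        · rw [Subgroup.mem_centralizer_singleton_iff]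
          exact (hwc.2 b hb).symm
        · rw [Subgroup.zpowers_le, Subgroup.mem_centralizer_singleton_iff]
      have h3 : D ≤ Subgroup.centralizer (D : Set S) := by
        refine sup_le (fun a ha => ?_) ?_
        · rw [Subgroup.mem_centralizer_iff]
          intro y hy
          exact Subgroup.mem_centralizer_singleton_iff.1 (h1 a ha hy)
        · rw [Subgroup.zpowers_le, Subgroup.mem_centralizer_iff]
          intro y hy
          exact Subgroup.mem_centralizer_singleton_iff.1 (h2 hy)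
      intro a ha b hb
      exact (Subgroup.mem_centralizer_iff.1 (h3 ha) b hb).symm
    · intro g hg
      refine hconjD g (fun a ha => Subgroup.mem_sup_left (hAF' g hg a ha)) ?_
      have h1 := hwW.2 g hg
      have e : g * w * g⁻¹ = (g * w * g⁻¹ * w⁻¹) * w := by group
      rw [e]
      exact D.mul_mem (Subgroup.mem_sup_left h1) hwD
    · intro s hs
      refine hconjD s (fun a ha => Subgroup.mem_sup_left (hAI s hs a ha)) ?_
      rcases hwI s hs with h1 | h1
      · have e : s * w * s⁻¹ = (s * w * s⁻¹ * w⁻¹) * w := by group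
        rw [e]
        exact D.mul_mem (Subgroup.mem_sup_left h1) hwD
      · have e : s * w * s⁻¹ = (s * w * s⁻¹ * w) * w⁻¹ := by group
        rw [e]
        exact D.mul_mem (Subgroup.mem_sup_left h1) (D.inv_mem hwD)
  exact hwA (hAmax D hDmem le_sup_left hwD)

end main

lemma odd_sq {S : Type*} [Group S] [Finite S] (F : Subgroup S) (hodd : Odd (Nat.card F)) {w : S}
    (hw : w ∈ F) (h2 : w ^ 2 = 1) : w = 1 := by
  obtain ⟨l, hl⟩ := hodd
  have h1 : w ^ Nat.card F = 1 := by
    have := pow_card_eq_one' (G := F) (x := ⟨w, hw⟩)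
    exact congrArg Subtype.val this
  have h3 : w = (w ^ 2) ^ (l + 1) := by
    rw [← pow_mul]
    have : 2 * (l + 1) = Nat.card F + 1 := by omega
    rw [this, pow_succ, h1, one_mul]
  rw [h3, h2, one_pow]

/-- Let S be a finite solvable group whose Fitting subgroup F(S) has odd order, and let I be an elementary abelian 2-subgroup of S of order 2ⁿ with n ≥ 1. Then F(S) contains subgroups A₁, …, Aₙ of prime order, each normalized by I, pairwise commuting and generating a subgroup A of order |A₁|⋯|Aₙ| (their internal direct product), such that no non-identity element of I centralizes A. -/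
theorem result {S : Type*} [Group S] [Finite S]
    [Group.IsSolvable S] (hF : Odd (Nat.card ↥(Cfsg.fittingSubgroup S)))
    (I : Subgroup S) (hI : Cfsg.IsElementaryAbelian 2 I) (n : ℕ) (hn : 1 ≤ n) (hIn : Nat.card ↥I = 2 ^ n) :
    ∃ f : Fin n → Subgroup S, (∀ i, (Nat.card ↥(f i)).Prime) ∧ (∀ i, f i ≤ Cfsg.fittingSubgroup S) ∧
      (∀ i, I ≤ Subgroup.normalizer ((f i) : Set S)) ∧ (∀ i j, i ≠ j → ∀ a ∈ f i, ∀ b ∈ f j, a * b = b * a) ∧
      Nat.card ↥(⨆ i, f i) = ∏ i, Nat.card ↥(f i) ∧ I ⊓ Subgroup.centralizer ((⨆ i, f i : Subgroup S) : Set S) = ⊥ := by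
  classical
  set F := Cfsg.fittingSubgroup S with hFdef
  have hnil : Group.IsNilpotent F := PCore.isNilpotent_fittingSubgroup
  have hIc : ∀ a ∈ I, ∀ b ∈ I, a * b = b * a := by
    intro a ha b hb
    have := hI.1
    have := IsMulCommutative.is_comm.comm (⟨a, ha⟩ : I) ⟨b, hb⟩
    exact congrArg Subtype.val this
  have hI2 : ∀ a ∈ I, a ^ 2 = 1 := hI.2
  have hInv : ∀ a ∈ I, a * a = 1 := fun a ha => by rw [← pow_two]; exact hI2 a ha
  obtain ⟨A, hAF, hAc, hAF', hAI, hAself⟩ := exists_selfcent F I hnil hIc hI2 hF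
  -- faithful action on `A`
  have hfaith : ∀ s ∈ I, (∀ a ∈ A, s * a * s⁻¹ = a) → s = 1 := by
    intro s hs hsA
    have hsi : s⁻¹ = s := inv_eq_of_mul_eq_one_left (hInv s hs)
    have hcent : ∀ x ∈ F, s * x = x * s := by
      intro x hx
      have hy : s * x * s⁻¹ ∈ F := (inferInstance : F.Normal).conj_mem x hx s
      set c := x⁻¹ * (s * x * s⁻¹) with hc
      have hcF : c ∈ F := F.mul_mem (F.inv_mem hx) hy
      have hcA : c ∈ A := by
        apply hAself c hcF
        intro a ha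
        have h1 := hsA _ (hAF' x hx a ha)
        have h2 := hsA a ha
        have h3 : s * (x * a * x⁻¹) * s⁻¹ = (s * x * s⁻¹) * (s * a * s⁻¹) * (s * x * s⁻¹)⁻¹ := by group
        rw [h3, h2] at h1
        have h4 : (s * x * s⁻¹) * a = x * a * x⁻¹ * (s * x * s⁻¹) := by
          rw [← h1]; group
        calc c * a = x⁻¹ * ((s * x * s⁻¹) * a) := by rw [hc]; group
          _ = x⁻¹ * (x * a * x⁻¹ * (s * x * s⁻¹)) := by rw [h4]
          _ = a * c := by rw [hc]; group
      have h5 := hsA c hcA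
      have h6 : s * c * s⁻¹ = c⁻¹ := by
        have hsy : s * (s * x * s⁻¹) * s⁻¹ = x := by
          rw [hsi]
          calc s * (s * x * s) * s = (s * s) * x * (s * s) := by group
            _ = x := by rw [hInv s hs, one_mul, mul_one]
        calc s * c * s⁻¹ = (s * x⁻¹ * s⁻¹) * (s * (s * x * s⁻¹) * s⁻¹) := by rw [hc]; group
          _ = (s * x⁻¹ * s⁻¹) * x := by rw [hsy]
          _ = c⁻¹ := by rw [hc]; group
      rw [h6] at h5
      have h7 : c ^ 2 = 1 := by
        rw [pow_two]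
        nth_rewrite 1 [← h5]
        exact inv_mul_cancel c
      have h8 : c = 1 := odd_sq F hF hcF h7
      have h9 : s * x * s⁻¹ = x := by
        have : x⁻¹ * (s * x * s⁻¹) = 1 := by rw [← hc]; exact h8
        exact (inv_mul_eq_one.1 this).symm
      rw [mul_inv_eq_iff_eq_mul] at h9
      exact h9
    have hsF : s ∈ F := by
      apply PCore.centralizer_fittingSubgroup_le
      rw [Subgroup.mem_centralizer_iff]
      intro x hx
      exact (hcent x hx).symm
    exact odd_sq F hF hsF (hI2 s hs)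
  -- induction
  have hmain : ∀ k, k ≤ n → ∃ f : Fin k → Subgroup S, (∀ i, (Nat.card ↥(f i)).Prime) ∧
      (∀ i, f i ≤ A) ∧ (∀ i, ∀ s ∈ I, ∀ x ∈ f i, s * x * s⁻¹ ∈ f i) ∧
      Nat.card ↥(⨆ i, f i) = ∏ i, Nat.card ↥(f i) ∧
      Nat.card ↥(I ⊓ Subgroup.centralizer ((⨆ i, f i : Subgroup S) : Set S)) = 2 ^ (n - k) := by
    intro k
    induction k with
    | zero =>
      intro _
      refine ⟨fun i => i.elim0, fun i => i.elim0, fun i => i.elim0, fun i => i.elim0, ?_, ?_⟩
      · simp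
      · have h0 : (⨆ i : Fin 0, (Fin.elim0 i : Subgroup S)) = ⊥ := iSup_of_empty _
        rw [h0]
        have h1 : I ⊓ Subgroup.centralizer (((⊥ : Subgroup S)) : Set S) = I := by
          apply inf_eq_left.2
          intro x _
          rw [Subgroup.mem_centralizer_iff]
          intro y hy
          have : y = 1 := hy
          rw [this, one_mul, mul_one]
        rw [h1, hIn, Nat.sub_zero]
    | succ k ih =>
      intro hk
      obtain ⟨f, hf1, hf2, hf3, hf4, hf5⟩ := ih (by omega)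
      set B : Subgroup S := ⨆ i, f i with hB
      have hBA : B ≤ A := iSup_le hf2
      set I₀ := I ⊓ Subgroup.centralizer (B : Set S) with hI₀
      obtain ⟨m, hm⟩ : ∃ m, n - k = m + 1 := ⟨n - k - 1, by omega⟩
      have hm' : n - (k + 1) = m := by omega
      rw [hm] at hf5
      obtain ⟨t, htI₀, ht1⟩ : ∃ t ∈ I₀, t ≠ 1 := by
        by_contra hcon
        push Not at hcon
        have : I₀ = ⊥ := (Subgroup.eq_bot_iff_forall _).2 hcon
        rw [this] at hf5
        have h2 : 2 ≤ 2 ^ (m + 1) := by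
          rw [pow_succ]; have := Nat.one_le_two_pow (n := m); omega
        simp at hf5
        omega
      have htI : t ∈ I := htI₀.1
      have htB : ∀ b ∈ B, t * b * t⁻¹ = b := by
        intro b hb
        have := Subgroup.mem_centralizer_iff.1 htI₀.2 b hb
        rw [← this, mul_inv_cancel_right]
      have hti : t⁻¹ = t := inv_eq_of_mul_eq_one_left (hInv t htI)
      have hoddA : ∀ x ∈ A, x ^ 2 = 1 → x = 1 := fun x hx h => odd_sq F hF (hAF hx) h
      -- the inverted subgroup
      let X : Subgroup S :=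
        { carrier := {x | x ∈ A ∧ t * x * t⁻¹ = x⁻¹}
          one_mem' := ⟨A.one_mem, by simp⟩
          mul_mem' := by
            rintro x y ⟨hx, hx'⟩ ⟨hy, hy'⟩
            refine ⟨A.mul_mem hx hy, ?_⟩
            have : t * (x * y) * t⁻¹ = (t * x * t⁻¹) * (t * y * t⁻¹) := by group
            rw [this, hx', hy', mul_inv_rev, ← mul_inv_rev, ← mul_inv_rev, hAc x hx y hy]
          inv_mem' := by
            rintro x ⟨hx, hx'⟩
            refine ⟨A.inv_mem hx, ?_⟩
            have : t * x⁻¹ * t⁻¹ = (t * x * t⁻¹)⁻¹ := by group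
            rw [this, hx'] }
      have hXne : ¬ X ≤ ⊥ := by
        have hex : ∃ a ∈ A, t * a * t⁻¹ ≠ a := by
          by_contra hcon
          push Not at hcon
          exact ht1 (hfaith t htI hcon)
        obtain ⟨a, ha, hta⟩ := hex
        have hta' : t * a * t⁻¹ ∈ A := hAI t htI a ha
        intro hle
        have hmem : a⁻¹ * (t * a * t⁻¹) ∈ X := by
          refine ⟨A.mul_mem (A.inv_mem ha) hta', ?_⟩
          rw [hti] at hta' ⊢
          have htt := hInv t htI
          calc t * (a⁻¹ * (t * a * t)) * t = t * a⁻¹ * t * a * (t * t) := by group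
            _ = t * a⁻¹ * t * a := by rw [htt, mul_one]
            _ = (t * a * t)⁻¹ * a := by
              simp only [mul_inv_rev, hti, mul_assoc]
            _ = _ := by group
        have h2 := hle hmem
        rw [Subgroup.mem_bot] at h2
        apply hta
        exact (inv_mul_eq_one.1 h2).symm
      obtain ⟨w, hwX, hw1, hwI⟩ := eig I hIc hI2 ⊥ X bot_le hXne
        (fun w _ a ha => by
          rw [Subgroup.mem_bot] at ha ⊢
          simp [ha])
        (fun x hx y hy => by
          rw [Subgroup.mem_bot]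
          rw [hAc x hx.1 y hy.1]
          group)
        (fun w hw h => by
          rw [Subgroup.mem_bot] at h ⊢
          exact hoddA w hw.1 h)
        (fun s _ a ha => by
          rw [Subgroup.mem_bot] at ha ⊢
          simp [ha])
        (by
          rintro s hs x ⟨hx, hx'⟩
          refine ⟨hAI s hs x hx, ?_⟩
          have hst : s * t = t * s := hIc s hs t htI
          calc t * (s * x * s⁻¹) * t⁻¹ = (t * s) * x * (t * s)⁻¹ := by group
            _ = (s * t) * x * (s * t)⁻¹ := by rw [hst]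
            _ = s * (t * x * t⁻¹) * s⁻¹ := by group
            _ = (s * x * s⁻¹)⁻¹ := by rw [hx']; group)
      have hw1' : w ≠ 1 := fun h => hw1 (by rw [h]; exact Subgroup.one_mem _)
      have hwI' : ∀ s ∈ I, s * w * s⁻¹ = w ∨ s * w * s⁻¹ = w⁻¹ := by
        intro s hs
        rcases hwI s hs with h | h
        · left
          rw [Subgroup.mem_bot] at h
          exact mul_inv_eq_one.1 h
        · right
          rw [Subgroup.mem_bot] at h
          exact eq_inv_of_mul_eq_one_left h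
      -- a power of prime order
      have hord : orderOf w ≠ 1 := fun h => hw1' (orderOf_eq_one_iff.1 h)
      have hordne : orderOf w ≠ 0 := (orderOf_pos w).ne'
      set p := (orderOf w).minFac with hp
      have hpp : p.Prime := Nat.minFac_prime hord
      set w₁ := w ^ (orderOf w / p) with hw₁
      have hw₁ord : orderOf w₁ = p := orderOf_pow_orderOf_div hordne (Nat.minFac_dvd _)
      have hw₁A : w₁ ∈ A := A.pow_mem hwX.1 _
      have hw₁ne : w₁ ≠ 1 := by
        intro h
        rw [h, orderOf_one] at hw₁ord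
        exact hpp.one_lt.ne hw₁ord
      have hw₁I : ∀ s ∈ I, s * w₁ * s⁻¹ = w₁ ∨ s * w₁ * s⁻¹ = w₁⁻¹ := by
        intro s hs
        rw [hw₁, ← conj_pow]
        rcases hwI' s hs with h | h
        · left; rw [h]
        · right; rw [h, inv_pow]
      have hw₁t : t * w₁ * t⁻¹ = w₁⁻¹ := by
        rw [hw₁, ← conj_pow, hwX.2, inv_pow]
      have hw₁inv : w₁ ≠ w₁⁻¹ := by
        intro h
        apply hw₁ne
        apply hoddA w₁ hw₁A
        rw [pow_two]
        nth_rewrite 1 [h]
        exact inv_mul_cancel w₁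
      set Y := Subgroup.zpowers w₁ with hY
      have hYA : Y ≤ A := by rw [hY, Subgroup.zpowers_le]; exact hw₁A
      have hYcard : Nat.card Y = p := by rw [hY, Nat.card_zpowers, hw₁ord]
      have hYinv : ∀ s ∈ I, ∀ x ∈ Y, s * x * s⁻¹ ∈ Y := by
        rintro s hs x hx
        obtain ⟨j, rfl⟩ := Subgroup.mem_zpowers_iff.1 hx
        rw [← conj_zpow]
        apply Subgroup.zpow_mem
        rcases hw₁I s hs with h | h
        · rw [h]; exact Subgroup.mem_zpowers _
        · rw [h]; exact Subgroup.inv_mem _ (Subgroup.mem_zpowers _)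
      have hYt : ∀ x ∈ Y, t * x * t⁻¹ = x⁻¹ := by
        rintro x hx
        obtain ⟨j, rfl⟩ := Subgroup.mem_zpowers_iff.1 hx
        rw [← conj_zpow, hw₁t, inv_zpow]
      have hBY : B ⊓ Y = ⊥ := by
        rw [eq_bot_iff]
        intro y hy
        have h1 := htB y hy.1
        have h2 := hYt y hy.2
        rw [h1] at h2
        rw [Subgroup.mem_bot]
        apply hoddA y (hBA hy.1)
        rw [pow_two]
        nth_rewrite 1 [h2]
        exact inv_mul_cancel y
      have hcard₁ : Nat.card ↥(B ⊔ Y) = Nat.card B * Nat.card Y := by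
        have h1 := Replacement.card_sup_mul_card_inf B Y (by
          intro b hb
          apply Replacement.mem_normalizer_of_forall
          intro y hy
          rw [hAc b (hBA hb) y (hYA hy), mul_inv_cancel_right]
          exact hy)
        rw [hBY] at h1
        simpa using h1
      -- the new family
      let f' : Fin (k + 1) → Subgroup S := Fin.snoc (α := fun _ => Subgroup S) f Y
      have hf'c : ∀ i : Fin k, f' i.castSucc = f i := fun i => by simp [f']
      have hf'l : f' (Fin.last k) = Y := by simp [f']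
      have hsup : (⨆ i, f' i) = B ⊔ Y := by
        apply le_antisymm
        · refine iSup_le fun i => ?_
          refine Fin.lastCases ?_ (fun j => ?_) i
          · rw [hf'l]; exact le_sup_right
          · rw [hf'c]; exact (le_iSup f j).trans le_sup_left
        · refine sup_le (iSup_le fun i => ?_) ?_
          · rw [← hf'c]; exact le_iSup f' _
          · rw [← hf'l]; exact le_iSup f' _
      refine ⟨f', ?_, ?_, ?_, ?_, ?_⟩
      · intro i
        refine Fin.lastCases ?_ (fun j => ?_) i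
        · rw [hf'l, hYcard]; exact hpp
        · rw [hf'c]; exact hf1 j
      · intro i
        refine Fin.lastCases ?_ (fun j => ?_) i
        · rw [hf'l]; exact hYA
        · rw [hf'c]; exact hf2 j
      · intro i
        refine Fin.lastCases ?_ (fun j => ?_) i
        · rw [hf'l]; exact hYinv
        · rw [hf'c]; exact hf3 j
      · rw [hsup, hcard₁, Fin.prod_univ_castSucc, hf4]
        congr 1
        · apply Finset.prod_congr rfl
          intro i _
          rw [hf'c]
        · rw [hf'l]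
      · rw [hsup, hm']
        -- halving
        set I₁ := I ⊓ Subgroup.centralizer ((B ⊔ Y : Subgroup S) : Set S) with hI₁
        have hI₁₀ : I₁ ≤ I₀ := by
          refine le_inf inf_le_left (inf_le_right.trans ?_)
          exact Subgroup.centralizer_le (by exact_mod_cast (le_sup_left : B ≤ B ⊔ Y))
        have hmemI₁ : ∀ b ∈ I₀, b ∈ I₁ ↔ b * w₁ * b⁻¹ = w₁ := by
          intro b hb
          constructor
          · intro h
            have := Subgroup.mem_centralizer_iff.1 h.2 w₁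
              (Subgroup.mem_sup_right (Subgroup.mem_zpowers w₁))
            rw [← this, mul_inv_cancel_right]
          · intro h
            refine ⟨hb.1, ?_⟩
            have hle : B ⊔ Y ≤ Subgroup.centralizer ({b} : Set S) := by
              refine sup_le (fun y hy => ?_) ?_
              · rw [Subgroup.mem_centralizer_singleton_iff]
                exact Subgroup.mem_centralizer_iff.1 hb.2 y hy
              · rw [hY, Subgroup.zpowers_le, Subgroup.mem_centralizer_singleton_iff]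
                rw [mul_inv_eq_iff_eq_mul] at h
                exact h.symm
            show b ∈ Subgroup.centralizer _
            rw [Subgroup.mem_centralizer_iff]
            intro y hy
            exact Subgroup.mem_centralizer_singleton_iff.1 (hle hy)
        have hidx : I₁.relIndex I₀ = 2 := by
          show (I₁.subgroupOf I₀).index = 2
          rw [Subgroup.index_eq_two_iff]
          refine ⟨⟨t, htI₀⟩, fun b => ?_⟩
          rw [xor_iff_or_and_not_and]
          have hbI : (b : S) ∈ I := b.2.1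
          have h1 : ((b * ⟨t, htI₀⟩ : I₀) : S) * w₁ * ((b * ⟨t, htI₀⟩ : I₀) : S)⁻¹
              = ((b : S) * w₁ * (b : S)⁻¹)⁻¹ := by
            have : ((b * ⟨t, htI₀⟩ : I₀) : S) = (b : S) * t := rfl
            rw [this]
            calc (b : S) * t * w₁ * ((b : S) * t)⁻¹ = (b : S) * (t * w₁ * t⁻¹) * (b : S)⁻¹ := by group
              _ = _ := by rw [hw₁t]; group
          have h2 : (b * ⟨t, htI₀⟩ : I₀) ∈ I₁.subgroupOf I₀ ↔ ((b : S) * w₁ * (b : S)⁻¹)⁻¹ = w₁ := by
            rw [Subgroup.mem_subgroupOf, hmemI₁ _ (b * ⟨t, htI₀⟩ : I₀).2, h1]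
          have h3 : b ∈ I₁.subgroupOf I₀ ↔ (b : S) * w₁ * (b : S)⁻¹ = w₁ := by
            rw [Subgroup.mem_subgroupOf, hmemI₁ _ b.2]
          rw [h2, h3]
          rcases hw₁I b hbI with h | h
          · rw [h]
            refine ⟨Or.inr rfl, fun hh => hw₁inv hh.1.symm⟩
          · rw [h, inv_inv]
            refine ⟨Or.inl rfl, fun hh => hw₁inv hh.2.symm⟩
        have hc₁ : Nat.card I₀ = I₁.relIndex I₀ * Nat.card I₁ := by
          have h1 := Subgroup.card_mul_index (I₁.subgroupOf I₀)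
          have h2 : Nat.card (I₁.subgroupOf I₀) = Nat.card I₁ :=
            Nat.card_congr (Subgroup.subgroupOfEquivOfLe hI₁₀).toEquiv
          rw [h2] at h1
          rw [← h1, mul_comm]
          rfl
        rw [hidx, hf5, pow_succ, mul_comm] at hc₁
        omega
  obtain ⟨f, hf1, hf2, hf3, hf4, hf5⟩ := hmain n le_rfl
  refine ⟨f, hf1, fun i => (hf2 i).trans hAF, fun i s hs => ?_, fun i j _ a ha b hb => ?_, hf4, ?_⟩
  · exact Replacement.mem_normalizer_of_forall (fun x hx => hf3 i s hs x hx)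
  · exact hAc a (hf2 i ha) b (hf2 j hb)
  · rw [Nat.sub_self, pow_zero] at hf5
    exact Subgroup.card_eq_one.1 hf5

end Cfsg.Agent.S4408
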