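import Mathlib
import Cfsg.Statements.S4409
import Cfsg.Agent.Lib.SmallB79
import Cfsg.Agent.Lib.HallExist
import Cfsg.Agent.Lib.PCore

set_option autoImplicit false
open Cfsg

namespace Cfsg.Agent.S4409

open Cfsg.Agent.Lib.SmallA879 Cfsg.Agent.Lib.SmallQ879 Cfsg.Agent.Lib.SmallB79
open Cfsg.Agent.Lib.PCore
open scoped Pointwise

/-- A normal 2-subgroup containing its centraliser which is a four-group or quaternion group leaves
no room for a non-cyclic abelian subgroup of order eight. -/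
lemma no_A_of_small {S : Type*} [Group S] [Finite S] {T : Subgroup S} [hTn : T.Normal]
    (hT2 : IsPGroup 2 T) (hCT : Subgroup.centralizer (T : Set S) ≤ T)
    (hsm : (Nat.card T = 4 ∧ ¬ IsCyclic T) ∨ Nonempty (T ≃* Q8)) (hA : AmbA8 (⊤ : Subgroup S)) :
    False := by
  obtain ⟨A, -, hAc, hAnc, hA8⟩ := hA
  have hA2 : IsPGroup 2 A := by
    apply IsPGroup.of_card (n := 3)
    rw [hA8]
    norm_num
  obtain ⟨P, hPdef⟩ : ∃ P, P = T ⊔ A := ⟨_, rfl⟩
  have hTP : T ≤ P := by rw [hPdef]; exact le_sup_left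
  have hAP : A ≤ P := by rw [hPdef]; exact le_sup_right
  have hP2 : IsPGroup 2 P := by
    rw [hPdef, sup_comm]
    exact IsPGroup.to_sup_of_normal_right hA2 hT2
  haveI hWn : (T.subgroupOf P).Normal := inferInstance
  have hHas : HasA8 P := hasA8_of_amb ⟨A, hAP, hAc, hAnc, hA8⟩
  have hcen : Subgroup.centralizer ((T.subgroupOf P : Subgroup P) : Set P) ≤ T.subgroupOf P := by
    intro x hx
    rw [Subgroup.mem_subgroupOf]
    apply hCT
    refine Subgroup.mem_centralizer_iff.mpr ?_
    intro t ht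
    have h1 := Subgroup.mem_centralizer_iff.mp hx ⟨t, hTP ht⟩ (Subgroup.mem_subgroupOf.mpr ht)
    exact congrArg Subtype.val h1
  rcases hsm with ⟨hc, hnc⟩ | ⟨⟨e⟩⟩
  · refine noA_v4 hP2 (T.subgroupOf P) ?_ ?_ hcen hHas
    · rw [← hc]
      exact Nat.card_congr (Subgroup.subgroupOfEquivOfLe hTP).toEquiv
    · intro h
      exact hnc (isCyclic_of_surjective (Subgroup.subgroupOfEquivOfLe hTP) (MulEquiv.surjective _))
  · exact noA_q8 hP2 (T.subgroupOf P) ((Subgroup.subgroupOfEquivOfLe hTP).trans e) hcen hHas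

/-- Let S be a finite solvable group with O_{2'}(S) = 1 that contains a non-cyclic abelian subgroup of order 8, while no proper subgroup of S of 2-power index contains one. Then a Sylow 2-subgroup X of S is normal in S, and one of the following holds: X is abelian; X is extraspecial of order at least 32; X has a generalized quaternion subgroup X₀ of index 2 with X = X₀·C_X(X₀); or X is special with centre of order 4. -/
theorem result {S : Type*} [Group S] [Finite S]
    [Group.IsSolvable S] (hO : Cfsg.pPrimeCore 2 S = ⊥)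
    (h8 : ∃ A : Subgroup S, IsMulCommutative ↥A ∧ ¬ IsCyclic ↥A ∧ Nat.card ↥A = 8)
    (hmin : ∀ R : Subgroup S, R ≠ ⊤ → (∃ k : ℕ, R.index = 2 ^ k) →
      ¬ ∃ A : Subgroup S, A ≤ R ∧ IsMulCommutative ↥A ∧ ¬ IsCyclic ↥A ∧ Nat.card ↥A = 8)
    (X : Sylow 2 S) :
    (X : Subgroup S).Normal ∧
      (IsMulCommutative ↥X ∨
        (Cfsg.IsExtraspecial 2 ↥X ∧ 32 ≤ Nat.card ↥X) ∨
        (∃ (X₀ : Subgroup S) (k : ℕ), X₀ ≤ (X : Subgroup S) ∧ X₀.relIndex (X : Subgroup S) = 2 ∧
          Nonempty (↥X₀ ≃* QuaternionGroup (2 ^ (k + 1))) ∧ X₀ ⊔ ((X : Subgroup S) ⊓ Subgroup.centralizer (X₀ : Set S)) = (X : Subgroup S)) ∨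
        (Cfsg.IsSpecial 2 ↥X ∧ Nat.card ↥(Subgroup.center ↥X) = 4)) := by
  classical
  haveI : Fact (Nat.Prime 2) := ⟨Nat.prime_two⟩
  obtain ⟨Y, hY1, hY2⟩ := Cfsg.Agent.Lib.HallExist.exists_hall (· ≠ 2) S
  have hYodd : Odd (Nat.card Y) := by
    rw [← Nat.not_even_iff_odd, even_iff_two_dvd]
    intro h
    exact hY1 2 Nat.prime_two h rfl
  obtain ⟨a, haY⟩ : ∃ a, Y.index = 2 ^ a := by
    refine ⟨_, Nat.eq_prime_pow_of_unique_prime_dvd Subgroup.index_ne_zero_of_finite ?_⟩
    intro d hd hdvd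
    by_contra hne
    exact hY2 d hd hdvd hne
  have hcardS : Nat.card Y * 2 ^ a = Nat.card S := by
    rw [← haY]
    exact Subgroup.card_mul_index Y
  have hidxof : ∀ R : Subgroup S, Y ≤ R → ∃ k, R.index = 2 ^ k := by
    intro R hR
    have h1 : R.index ∣ Y.index := Subgroup.index_dvd_of_le hR
    rw [haY] at h1
    obtain ⟨k, -, hk⟩ := (Nat.dvd_prime_pow Nat.prime_two).mp h1
    exact ⟨k, hk⟩
  obtain ⟨T, hTdef⟩ : ∃ T, T = pCore 2 S := ⟨_, rfl⟩
  haveI hTn : T.Normal := by rw [hTdef]; infer_instance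
  have hT2 : IsPGroup 2 T := by rw [hTdef]; exact isPGroup_pCore 2
  have hCT : Subgroup.centralizer (T : Set S) ≤ T := by
    rw [hTdef]
    exact centralizer_pCore_le 2 hO
  have hAtop : AmbA8 (⊤ : Subgroup S) := by
    obtain ⟨A, hA⟩ := h8
    exact ⟨A, le_top, hA⟩
  have hR₀ : T ⊔ Y = ⊤ := by
    by_contra hne
    have hno := hmin _ hne (hidxof _ le_sup_right)
    have hsT : ¬ HasA8 T := fun h => hno (ambA8_mono le_sup_left (ambA8_of_sub h))
    by_cases hact : ∃ y ∈ Y, ∃ t ∈ T, y * t * y⁻¹ ≠ t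
    · obtain ⟨y, hy, t, ht, ht1⟩ := hact
      have hTinv : ∀ x, MulAut.conj y x ∈ T ↔ x ∈ T :=
        conj_mem_iff (Y := Y) (fun y _ w hw => hTn.conj_mem w hw y) hy
      have hne1 : rConj y T hTinv ≠ 1 := by
        intro h
        apply ht1
        have h3 := congrArg (fun γ : MulAut T => ((γ ⟨t, ht⟩ : T) : S)) h
        simpa [rConj_apply] using h3
      exact no_A_of_small hT2 hCT (small_odd_aut hT2 hsT _ (Lib.SmallA879.resAut_odd _ T _ (odd_conj hYodd hy)) hne1) hAtop
    · push Not at hact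
      have hYT : Y ≤ T := by
        intro y hy
        apply hCT
        refine Subgroup.mem_centralizer_iff.mpr ?_
        intro t ht
        have h1 := hact y hy t ht
        calc t * y = (y * t * y⁻¹) * y := by rw [h1]
          _ = y * t := by group
      have hYbot : Nat.card Y = 1 := by
        obtain ⟨k, hk⟩ := IsPGroup.iff_card.mp (IsPGroup.to_le hT2 hYT)
        have h1 : Nat.Coprime (Nat.card Y) (2 ^ k) :=
          Nat.Coprime.pow_right k (Nat.coprime_two_right.mpr hYodd)
        rw [← hk] at h1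
        exact Nat.coprime_self _ |>.mp h1
      have hS2 : IsPGroup 2 S := by
        apply IsPGroup.of_card (n := a)
        rw [← hcardS, hYbot, one_mul]
      apply hne
      rw [eq_top_iff, hTdef, (pCore_eq_top_iff 2).mpr hS2]
      exact le_sup_left
  have hTX : T ≤ (X : Subgroup S) := by
    rw [hTdef]
    exact pCore_le_sylow 2 X
  have h2aT : 2 ^ a ∣ Nat.card T := by
    have h1 := card_sup_dvd Y T
    rw [sup_comm, hR₀, Subgroup.card_top, ← hcardS, mul_comm (Nat.card Y), mul_comm (Nat.card Y)] at h1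
    exact Nat.dvd_of_mul_dvd_mul_right Nat.card_pos h1
  have hSylow : ∀ Z : Sylow 2 S, (Z : Subgroup S) = T ∧ Nat.card Z = 2 ^ a := by
    intro Z
    have hTZ : T ≤ (Z : Subgroup S) := by
      rw [hTdef]
      exact pCore_le_sylow 2 Z
    obtain ⟨b, hb⟩ := IsPGroup.iff_card.mp Z.isPGroup'
    have h1 : Nat.card Z ∣ Nat.card Y * 2 ^ a := by
      rw [hcardS]
      exact Subgroup.card_subgroup_dvd_card (Z : Subgroup S)
    have h3 : Nat.Coprime (Nat.card Z) (Nat.card Y) := by
      rw [hb]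
      exact Nat.Coprime.pow_left b (Nat.coprime_two_left.mpr hYodd)
    have h4 : Nat.card Z ∣ 2 ^ a := h3.dvd_of_dvd_mul_left h1
    have h5 : Nat.card Z ∣ Nat.card T := h4.trans h2aT
    have h6 : Nat.card Z ≤ Nat.card T := Nat.le_of_dvd Nat.card_pos h5
    have h7 : (Z : Subgroup S) = T := (Subgroup.eq_of_le_of_card_ge hTZ h6).symm
    refine ⟨h7, ?_⟩
    apply Nat.dvd_antisymm h4
    have h8' : Nat.card T = Nat.card Z := by
      show Nat.card T = Nat.card (Z : Subgroup S)
      rw [h7]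
    rw [← h8']
    exact h2aT
  obtain ⟨hXT, hXcard⟩ := hSylow X
  have hXn : (X : Subgroup S).Normal := by
    rw [hXT]
    exact hTn
  refine ⟨hXn, ?_⟩
  have hB : BSetup (X : Subgroup S) Y := by
    refine ⟨hXn, X.isPGroup', hYodd, ?_, ?_⟩
    · intro W hWX hW hne hA
      have hYW : Y ≤ Subgroup.normalizer (W : Set S) := by
        intro y hy
        rw [Subgroup.mem_normalizer_iff]
        intro w
        exact (conj_mem_iff hW hy w).symm
      have hne2 : W ⊔ Y ≠ ⊤ := by
        intro h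
        have h1 : ((W ⊔ Y : Subgroup S) : Set S) = (W : Set S) * (Y : Set S) :=
          Subgroup.coe_mul_of_right_le_normalizer_left W Y hYW
        have h2 : Nat.card S ≤ Nat.card W * Nat.card Y := by
          have h3 : Nat.card ((W : Set S) * (Y : Set S) : Set S) ≤ Nat.card (W : Set S) * Nat.card (Y : Set S) :=
            Set.natCard_mul_le
          rw [← h1, h] at h3
          simpa using h3
        rw [← hcardS, mul_comm] at h2
        have h3 : 2 ^ a ≤ Nat.card W := Nat.le_of_mul_le_mul_right h2 Nat.card_pos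
        have h4 : W = (X : Subgroup S) := by
          apply Subgroup.eq_of_le_of_card_ge hWX
          show Nat.card X ≤ _
          rw [hXcard]
          exact h3
        exact hne h4
      exact hmin _ hne2 (hidxof _ le_sup_right) (ambA8_mono le_sup_left hA)
    · obtain ⟨A, hAc, hAnc, hA8⟩ := h8
      have hA2 : IsPGroup 2 A := by
        apply IsPGroup.of_card (n := 3)
        rw [hA8]
        norm_num
      obtain ⟨Z, hZ⟩ := hA2.exists_le_sylow
      refine ⟨A, ?_, hAc, hAnc, hA8⟩
      rw [hXT, ← (hSylow Z).1]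
      exact hZ
  exact hB.struct

end Cfsg.Agent.S4409
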