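import Mathlib
import Cfsg.Statements.S4410
import Cfsg.Agent.Lib.PCore

set_option autoImplicit false
open Cfsg
open Cfsg.Agent.Lib

namespace Cfsg.Agent.S4410

section tv
variable {V : Type*} [AddCommGroup V] [Module (ZMod 2) V]

lemma add_self' (a : V) : a + a = 0 := by
  rw [← two_smul (ZMod 2) a, show (2 : ZMod 2) = 0 from rfl, zero_smul]

lemma mul_ap (d e : V ≃ₗ[ZMod 2] V) (v : V) : (d * e) v = d (e v) := rfl

lemma ap_inv (g : V ≃ₗ[ZMod 2] V) (v : V) : g (g⁻¹ v) = v := by
  rw [← mul_ap, mul_inv_cancel]; rfl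

lemma inv_ap (g : V ≃ₗ[ZMod 2] V) (v : V) : g⁻¹ (g v) = v := by
  rw [← mul_ap, inv_mul_cancel]; rfl

/-- `d` is a transvection with centre `a`. -/
def IsTv (d : V ≃ₗ[ZMod 2] V) (a : V) : Prop :=
  a ≠ 0 ∧ d ≠ 1 ∧ ∀ v, d v = v ∨ d v = v + a

lemma IsTv.fix_center {d : V ≃ₗ[ZMod 2] V} {a : V} (h : IsTv d a) : d a = a := by
  rcases h.2.2 a with h1 | h1
  · exact h1
  · exfalso
    rw [add_self', map_eq_zero_iff _ d.injective] at h1
    exact h.1 h1

lemma IsTv.sq {d : V ≃ₗ[ZMod 2] V} {a : V} (h : IsTv d a) : d * d = 1 := by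
  apply LinearEquiv.ext
  intro v
  rw [mul_ap]
  show d (d v) = v
  rcases h.2.2 v with h1 | h1
  · rw [h1, h1]
  · rw [h1, map_add, h1, h.fix_center, add_assoc, add_self', add_zero]

lemma IsTv.inv {d : V ≃ₗ[ZMod 2] V} {a : V} (h : IsTv d a) : d⁻¹ = d :=
  inv_eq_of_mul_eq_one_left h.sq

lemma IsTv.conj {d : V ≃ₗ[ZMod 2] V} {a : V} (h : IsTv d a) (g : V ≃ₗ[ZMod 2] V) :
    IsTv (g * d * g⁻¹) (g a) := by
  refine ⟨?_, ?_, ?_⟩
  · intro h0
    rw [map_eq_zero_iff _ g.injective] at h0
    exact h.1 h0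
  · intro h1
    apply h.2.1
    have := congrArg (fun y => g⁻¹ * y * g) h1
    simpa [mul_assoc] using this
  · intro v
    rw [mul_ap, mul_ap]
    rcases h.2.2 (g⁻¹ v) with h1 | h1
    · left; rw [h1, ap_inv]
    · right; rw [h1, map_add, ap_inv]

/-- If the transvection `e` fixes the centre of the transvection `d`, the product `d * e` has fourth
power `1`. -/
lemma prod_pow_four {d e : V ≃ₗ[ZMod 2] V} {a b : V} (hd : IsTv d a) (he : IsTv e b)
    (hfix : e a = a) : (d * e) ^ 4 = 1 := by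
  set x := d * e with hx
  have hxa : x a = a := by rw [hx, mul_ap, hfix, hd.fix_center]
  have hxb : x b = b ∨ x b = b + a := by
    rw [hx, mul_ap, he.fix_center]
    exact hd.2.2 b
  have hxv : ∀ v, x v = v ∨ x v = v + a ∨ x v = v + b ∨ x v = v + (a + b) := by
    intro v
    rw [hx, mul_ap]
    rcases he.2.2 v with h1 | h1 <;> rw [h1]
    · rcases hd.2.2 v with h2 | h2
      · left; exact h2
      · right; left; exact h2
    · rw [map_add]
      rcases hd.2.2 v with h2 | h2 <;> rcases hd.2.2 b with h3 | h3 <;> rw [h2, h3]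
      · right; right; left; rfl
      · right; right; right; abel
      · right; right; right; abel
      · right; right; left
        have : v + a + (b + a) = v + b + (a + a) := by abel
        rw [this, add_self', add_zero]
  have hu : ∀ v, x v + v = 0 ∨ x v + v = a ∨ x v + v = b ∨ x v + v = a + b := by
    intro v
    have e0 : v + v = 0 := add_self' v
    rcases hxv v with h1 | h1 | h1 | h1 <;> rw [h1]
    · left; exact e0
    · right; left
      have : v + a + v = (v + v) + a := by abel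
      rw [this, e0, zero_add]
    · right; right; left
      have : v + b + v = (v + v) + b := by abel
      rw [this, e0, zero_add]
    · right; right; right
      have : v + (a + b) + v = (v + v) + (a + b) := by abel
      rw [this, e0, zero_add]
  have hU : ∀ u, (u = 0 ∨ u = a ∨ u = b ∨ u = a + b) → u + x u = 0 ∨ u + x u = a := by
    rintro u (rfl | rfl | rfl | rfl)
    · left; simp
    · left; rw [hxa, add_self']
    · rcases hxb with h1 | h1
      · left; rw [h1, add_self']
      · right; rw [h1, ← add_assoc, add_self', zero_add]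
    · rw [map_add, hxa]
      rcases hxb with h1 | h1
      · left; rw [h1, add_self']
      · right; rw [h1]
        have : a + b + (a + (b + a)) = (a + b) + (a + b) + a := by abel
        rw [this, add_self', zero_add]
  have hx2 : ∀ v, x (x v) = v ∨ x (x v) = v + a := by
    intro v
    have e1 : x v = v + (x v + v) := by
      have : v + (x v + v) = x v + (v + v) := by abel
      rw [this, add_self', add_zero]
    have e2 : x (x v) = v + ((x v + v) + x (x v + v)) := by
      have : x (x v + v) = x (x v) + x v := map_add _ _ _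
      rw [this]
      have : v + (x v + v + (x (x v) + x v)) = x (x v) + (x v + x v) + (v + v) := by abel
      rw [this, add_self', add_self', add_zero, add_zero]
    rcases hU _ (hu v) with h1 | h1 <;> rw [e2, h1]
    · left; exact add_zero _
    · right; rfl
  have hy : ∀ v, x (x (x (x v))) = v := by
    intro v
    rcases hx2 v with h1 | h1
    · rw [h1, h1]
    · rw [h1, map_add, map_add, h1, hxa, hxa, add_assoc, add_self', add_zero]
  apply LinearEquiv.ext
  intro v
  simp only [pow_succ, pow_zero, one_mul, mul_ap]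
  exact hy v

/-- If the product of two transvections has odd order and is nontrivial, then the second moves the
centre of the first. -/
lemma moves_center {d e : V ≃ₗ[ZMod 2] V} {a b : V} (hd : IsTv d a) (he : IsTv e b)
    {k : ℕ} (hk : Odd k) (hx : (d * e) ^ k = 1) (hne : d * e ≠ 1) : e a ≠ a := by
  intro hfix
  have h4 := prod_pow_four hd he hfix
  apply hne
  have h1 : orderOf (d * e) ∣ 4 := orderOf_dvd_of_pow_eq_one h4
  have h2 : orderOf (d * e) ∣ k := orderOf_dvd_of_pow_eq_one hx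
  have h3 : Nat.Coprime 4 k := by
    have : Nat.Coprime 2 k := Nat.coprime_two_left.2 hk
    exact Nat.Coprime.pow_left 2 this
  have h5 : orderOf (d * e) = 1 := Nat.eq_one_of_dvd_coprimes h3 h1 h2
  exact orderOf_eq_one_iff.1 h5

/-- `t * x` is a transvection when `t` is a transvection inverting an element `x` of odd order. -/
lemma tv_of_inverted {t x : V ≃ₗ[ZMod 2] V} {a : V} (ht : IsTv t a)
    (hinv : t * x * t⁻¹ = x⁻¹) {k : ℕ} (hk : Odd k) (hx : x ^ k = 1) : ∃ c, IsTv (t * x) c := by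
  obtain ⟨l, rfl⟩ := hk
  set w := x ^ (l + 1) with hw
  have hw2 : w * w = x := by
    rw [hw, ← pow_add]
    have : l + 1 + (l + 1) = (2 * l + 1) + 1 := by ring
    rw [this, pow_succ, hx, one_mul]
  have hwi : t * w * t⁻¹ = w⁻¹ := by
    rw [hw, ← conj_pow, hinv, inv_pow]
  have ht1 : t⁻¹ = t := ht.inv
  have hc := ht.conj w⁻¹
  refine ⟨w⁻¹ a, ?_⟩
  have e : w⁻¹ * t * w⁻¹⁻¹ = t * x := by
    rw [ht1] at hwi
    rw [inv_inv, ← hw2]
    have h3 : w⁻¹ * t = t * w := by
      rw [← hwi]
      have h4 : t * t = 1 := ht.sq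
      calc t * w * t * t = t * w * (t * t) := by group
        _ = t * w := by rw [h4, mul_one]
    rw [h3]; group
  rw [e] at hc
  exact hc

/-- In the setting of a transvection `t` normalising a subgroup `R` of odd order, the elements of `R`
inverted by `t` are at most `1, x, x⁻¹`. -/
lemma inverted_unique {t x y : V ≃ₗ[ZMod 2] V} {a : V} (ht : IsTv t a)
    (R : Subgroup (V ≃ₗ[ZMod 2] V)) (hodd : ∀ r ∈ R, ∃ k, Odd k ∧ r ^ k = 1)
    (hxR : x ∈ R) (hyR : y ∈ R) (hx : t * x * t⁻¹ = x⁻¹) (hy : t * y * t⁻¹ = y⁻¹)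
    (hx1 : x ≠ 1) (hy1 : y ≠ 1) (hne : y ≠ x) (hne' : y ≠ x⁻¹) : False := by
  have ht1 : t⁻¹ = t := ht.inv
  have htt : t * t = 1 := ht.sq
  rw [ht1] at hx hy
  obtain ⟨kx, hkx, hkx1⟩ := hodd x hxR
  obtain ⟨ky, hky, hky1⟩ := hodd y hyR
  obtain ⟨a₁, hd₁⟩ := tv_of_inverted ht (by rw [ht1]; exact hx) hkx hkx1
  obtain ⟨b₁, he₁⟩ := tv_of_inverted ht (by rw [ht1]; exact hy) hky hky1
  -- `e₂`
  have he₂ := he₁.conj t
  have e₂eq : t * (t * y) * t⁻¹ = t * y⁻¹ := by
    rw [ht1, ← hy]
    calc t * (t * y) * t = (t * t) * y * t := by group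
      _ = y * t := by rw [htt, one_mul]
      _ = (t * t) * y * t := by rw [htt, one_mul]
      _ = t * (t * y * t) := by group
  rw [e₂eq] at he₂
  -- the four moves
  have h1 : (t * x) a ≠ a := by
    obtain ⟨k, hk, hk1⟩ := hodd x hxR
    refine moves_center ht hd₁ hk ?_ ?_ 
    · have : t * (t * x) = x := by rw [← mul_assoc, htt, one_mul]
      rw [this]; exact hk1
    · have : t * (t * x) = x := by rw [← mul_assoc, htt, one_mul]
      rw [this]; exact hx1
  have hprod₁ : (t * y) * (t * x) = y⁻¹ * x := by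
    rw [← hy]; group
  have h2 : (t * x) b₁ ≠ b₁ := by
    have hm : y⁻¹ * x ∈ R := R.mul_mem (R.inv_mem hyR) hxR
    obtain ⟨k, hk, hk1⟩ := hodd _ hm
    refine moves_center he₁ hd₁ hk ?_ ?_
    · rw [hprod₁]; exact hk1
    · rw [hprod₁]
      intro h
      exact hne (inv_mul_eq_one.1 h)
  have hprod₂ : (t * y⁻¹) * (t * x) = y * x := by
    have hy' : t * y⁻¹ * t = y := by
      rw [← hy]
      calc t * (t * y * t) * t = (t * t) * y * (t * t) := by group
        _ = y := by rw [htt, one_mul, mul_one]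
    calc t * y⁻¹ * (t * x) = t * y⁻¹ * t * x := by group
      _ = y * x := by rw [hy']
  have h3 : (t * x) (t b₁) ≠ t b₁ := by
    have hm : y * x ∈ R := R.mul_mem hyR hxR
    obtain ⟨k, hk, hk1⟩ := hodd _ hm
    refine moves_center he₂ hd₁ hk ?_ ?_
    · rw [hprod₂]; exact hk1
    · rw [hprod₂]
      intro h
      exact hne' (eq_inv_of_mul_eq_one_left h)
  have hprod₃ : (t * y) * t = y⁻¹ := by rw [← hy]
  have h4 : t b₁ ≠ b₁ := by
    have hm : y⁻¹ ∈ R := R.inv_mem hyR
    obtain ⟨k, hk, hk1⟩ := hodd _ hm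
    refine moves_center he₁ ht hk ?_ ?_
    · rw [hprod₃]; exact hk1
    · rw [hprod₃]
      exact inv_ne_one.2 hy1
  -- contradiction
  have h5 : t b₁ = b₁ + a := (ht.2.2 b₁).resolve_left h4
  have h6 : (t * x) a = a + a₁ := (hd₁.2.2 a).resolve_left h1
  have h7 : (t * x) b₁ = b₁ + a₁ := (hd₁.2.2 b₁).resolve_left h2
  apply h3
  rw [h5, map_add, h6, h7]
  have : b₁ + a₁ + (a + a₁) = b₁ + a + (a₁ + a₁) := by abel
  rw [this, add_self', add_zero]

/-- The core contradiction: a transvection cannot be the square of an element normalising an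
odd-order subgroup which it does not centralise. -/
lemma core {P : V ≃ₗ[ZMod 2] V} {a : V} (ht : IsTv (P ^ 2) a)
    (R : Subgroup (V ≃ₗ[ZMod 2] V)) (hodd : ∀ r ∈ R, ∃ k, Odd k ∧ r ^ k = 1)
    (hnP : ∀ r ∈ R, P * r * P⁻¹ ∈ R)
    (r : V ≃ₗ[ZMod 2] V) (hr : r ∈ R) (hrt : P ^ 2 * r ≠ r * P ^ 2) : False := by
  set t := P ^ 2 with htdef
  have hnt : ∀ r ∈ R, t * r * t⁻¹ ∈ R := by
    intro r hr
    have := hnP _ (hnP r hr)
    have e : t * r * t⁻¹ = P * (P * r * P⁻¹) * P⁻¹ := by
      rw [htdef, pow_two]; group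
    rw [e]; exact this
  have ht1 : t⁻¹ = t := ht.inv
  have htt : t * t = 1 := ht.sq
  -- the inverted element
  set x := r⁻¹ * (t * r * t⁻¹) with hx
  have hxR : x ∈ R := R.mul_mem (R.inv_mem hr) (hnt r hr)
  have hx1 : x ≠ 1 := by
    intro h
    apply hrt
    have h1 : t * r * t⁻¹ = r := by
      have := congrArg (fun y => r * y) h
      simpa [hx] using this
    exact mul_inv_eq_iff_eq_mul.1 h1
  have hxinv : t * x * t⁻¹ = x⁻¹ := by
    rw [ht1] at hx ⊢
    rw [hx]
    calc t * (r⁻¹ * (t * r * t)) * t = t * r⁻¹ * t * r * (t * t) := by group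
      _ = t * r⁻¹ * t * r := by rw [htt, mul_one]
      _ = (r⁻¹ * (t * r * t))⁻¹ := by
        simp only [mul_inv_rev, inv_inv, ht1, mul_assoc]
  -- conjugating by `P`
  have hPt : P * t = t * P := by
    rw [htdef, pow_two, mul_assoc]
  set x' := P * x * P⁻¹ with hx'
  have hx'R : x' ∈ R := hnP x hxR
  have hx'1 : x' ≠ 1 := by
    intro h
    apply hx1
    have := congrArg (fun y => P⁻¹ * y * P) h
    simpa [hx', mul_assoc] using this
  have hx'inv : t * x' * t⁻¹ = x'⁻¹ := by
    have h1 : t⁻¹ * P⁻¹ = P⁻¹ * t⁻¹ := by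
      rw [← mul_inv_rev, ← mul_inv_rev, hPt]
    calc t * x' * t⁻¹ = (t * P) * x * (P⁻¹ * t⁻¹) := by rw [hx']; group
      _ = (P * t) * x * (t⁻¹ * P⁻¹) := by rw [hPt, h1]
      _ = P * (t * x * t⁻¹) * P⁻¹ := by group
      _ = x'⁻¹ := by rw [hxinv, hx']; group
  have hcases : x' = x ∨ x' = x⁻¹ := by
    by_contra hcon
    push Not at hcon
    exact inverted_unique ht R hodd hxR hx'R hxinv hx'inv hx1 hx'1 hcon.1 hcon.2
  have hfix : t * x * t⁻¹ = x := by
    have e : t * x * t⁻¹ = P * x' * P⁻¹ := by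
      rw [hx', htdef, pow_two]; group
    rw [e]
    rcases hcases with h | h
    · rw [h]; exact h
    · have e2 : P * x⁻¹ * P⁻¹ = (P * x * P⁻¹)⁻¹ := by group
      rw [h, e2, ← hx', h, inv_inv]
  rw [hxinv] at hfix
  have hxx : x * x = 1 := by
    calc x * x = x⁻¹ * x := by rw [hfix]
      _ = 1 := inv_mul_cancel x
  obtain ⟨k, hk, hk1⟩ := hodd x hxR
  obtain ⟨l, rfl⟩ := hk
  apply hx1
  calc x = x ^ (2 * l + 1) := by
        rw [pow_succ, pow_mul, pow_two, hxx, one_pow, one_mul]
    _ = 1 := hk1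

end tv

/-- Let V be a finite-dimensional vector space over the field with two elements and S a solvable group of linear automorphisms of V with O₂(S) = 1. If P ∈ S has order 4 and (P − 1)³ = 0 on V, then the image of (P − 1)² has at least 4 elements; equivalently, in the decomposition of V into indecomposable modules for the cyclic group generated by P, at least two summands have dimension 3. -/
theorem result
    {V : Type*} [AddCommGroup V] [Module (ZMod 2) V] [Finite V]
    (S : Subgroup (V ≃ₗ[ZMod 2] V)) (hS : Group.IsSolvable ↥S) (hO2 : Cfsg.pCore 2 ↥S = ⊥)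
    (P : V ≃ₗ[ZMod 2] V) (hPS : P ∈ S) (hP4 : orderOf P = 4)
    (hcub : ((P : V →ₗ[ZMod 2] V) - LinearMap.id) ^ 3 = 0) :
    4 ≤ Nat.card ↥(LinearMap.range (((P : V →ₗ[ZMod 2] V) - LinearMap.id) ^ 2)) := by
  by_contra hcon
  push Not at hcon
  have : Fact (Nat.Prime 2) := ⟨Nat.prime_two⟩
  have : Finite (V ≃ₗ[ZMod 2] V) := Finite.of_injective (fun f => (f : V → V)) DFunLike.coe_injective
  have : Finite S := inferInstance
  set L : V →ₗ[ZMod 2] V := (P : V →ₗ[ZMod 2] V) - LinearMap.id with hL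
  have hsub : ∀ u w : V, u - w = u + w := by
    intro u w
    rw [sub_eq_iff_eq_add, add_assoc, add_self', add_zero]
  have hL2 : ∀ v, (L ^ 2) v = (P ^ 2) v + v := by
    intro v
    have e1 : (L ^ 2) v = L (L v) := by rw [pow_two]; rfl
    have e2 : ∀ u, L u = P u + u := by
      intro u
      simp only [hL, LinearMap.sub_apply, LinearEquiv.coe_coe, LinearMap.id_apply, hsub]
    have e3 : (P ^ 2) v = P (P v) := by rw [pow_two]; rfl
    rw [e1, e2, e2, e3, map_add]
    have : P (P v) + P v + (P v + v) = P (P v) + (P v + P v) + v := by abel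
    rw [this, add_self', add_zero]
  have hP2ne : P ^ 2 ≠ 1 := pow_ne_one_of_lt_orderOf (by norm_num) (by omega)
  -- the range has one or two elements
  have hcard : Nat.card (LinearMap.range (L ^ 2)) = 2 := by
    obtain ⟨r, hr⟩ : ∃ r, Nat.card (LinearMap.range (L ^ 2)) = 2 ^ r :=
      ⟨_, by
        have := Module.natCard_eq_pow_finrank (K := ZMod 2) (V := LinearMap.range (L ^ 2))
        rw [Nat.card_zmod] at this
        exact this⟩
    rw [hr] at hcon ⊢
    have hr2 : r < 2 := by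
      by_contra h
      have : 2 ^ 2 ≤ 2 ^ r := Nat.pow_le_pow_right (by norm_num) (by omega)
      omega
    interval_cases r
    · exfalso
      apply hP2ne
      rw [pow_zero] at hr
      have h1 : LinearMap.range (L ^ 2) = ⊥ := by
        have h2 := (Nat.card_eq_one_iff_unique.1 hr).1
        exact (Submodule.subsingleton_iff_eq_bot).1 h2
      apply LinearEquiv.ext
      intro v
      have h3 : (L ^ 2) v = 0 := by
        have : (L ^ 2) v ∈ LinearMap.range (L ^ 2) := ⟨v, rfl⟩
        rw [h1] at this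
        simpa using this
      rw [hL2] at h3
      have h4 := congrArg (fun y => y + v) h3
      simp only [add_assoc, add_self', add_zero, zero_add] at h4
      exact h4
    · rfl
  obtain ⟨⟨a, haR⟩, ha0, ha⟩ := (Nat.card_eq_two_iff' (0 : LinearMap.range (L ^ 2))).1 hcard
  have ha0' : a ≠ 0 := fun h => ha0 (Subtype.ext h)
  have ht : IsTv (P ^ 2) a := by
    refine ⟨ha0', hP2ne, fun v => ?_⟩
    have h1 : (L ^ 2) v ∈ LinearMap.range (L ^ 2) := ⟨v, rfl⟩
    by_cases h2 : (L ^ 2) v = 0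
    · left
      rw [hL2] at h2
      have h4 := congrArg (fun y => y + v) h2
      simp only [add_assoc, add_self', add_zero, zero_add] at h4
      exact h4
    · right
      have h3 := ha ⟨_, h1⟩ (fun h => h2 (congrArg Subtype.val h))
      have h4 : (L ^ 2) v = a := congrArg Subtype.val h3
      rw [hL2] at h4
      have h5 := congrArg (fun y => y + v) h4
      simp only [add_assoc, add_self', add_zero] at h5
      rw [h5, add_comm]
  -- the odd normal subgroup
  set F := Cfsg.fittingSubgroup S with hF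
  have hFO : F ≤ Cfsg.pPrimeCore 2 S := by
    have := PCore.fittingSubgroup_le_sup (G := S) 2
    rwa [hO2, bot_sup_eq] at this
  set R : Subgroup (V ≃ₗ[ZMod 2] V) := F.map S.subtype with hR
  have hodd : ∀ r ∈ R, ∃ k, Odd k ∧ r ^ k = 1 := by
    rintro _ ⟨s, hs, rfl⟩
    refine ⟨Nat.card (Cfsg.pPrimeCore 2 S), Nat.coprime_two_right.1 (PCore.card_pPrimeCore_coprime 2), ?_⟩
    have h1 := pow_card_eq_one' (G := Cfsg.pPrimeCore 2 S) (x := ⟨s, hFO hs⟩)
    have h2 : s ^ Nat.card (Cfsg.pPrimeCore 2 S) = 1 := congrArg Subtype.val h1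
    have h3 := congrArg S.subtype h2
    simpa using h3
  have hnP : ∀ r ∈ R, P * r * P⁻¹ ∈ R := by
    rintro _ ⟨s, hs, rfl⟩
    refine ⟨(⟨P, hPS⟩ : S) * s * (⟨P, hPS⟩ : S)⁻¹, ?_, rfl⟩
    exact (inferInstance : F.Normal).conj_mem s hs _
  have htS : P ^ 2 ∈ S := S.pow_mem hPS 2
  have hnotF : (⟨P ^ 2, htS⟩ : S) ∉ F := by
    intro hmem
    obtain ⟨k, hk, hk1⟩ := hodd (P ^ 2) ⟨⟨P ^ 2, htS⟩, hmem, rfl⟩
    have h1 : (P ^ 2) ^ 2 = 1 := by rw [pow_two]; exact ht.sq
    have h2 : orderOf (P ^ 2) ∣ 2 := orderOf_dvd_of_pow_eq_one h1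
    have h3 : orderOf (P ^ 2) ∣ k := orderOf_dvd_of_pow_eq_one hk1
    have h4 : orderOf (P ^ 2) = 1 :=
      Nat.eq_one_of_dvd_coprimes (Nat.coprime_two_left.2 hk) h2 h3
    exact hP2ne (orderOf_eq_one_iff.1 h4)
  have hexr : ∃ r ∈ R, P ^ 2 * r ≠ r * P ^ 2 := by
    by_contra hcon2
    push Not at hcon2
    apply hnotF
    apply PCore.centralizer_fittingSubgroup_le
    rw [Subgroup.mem_centralizer_iff]
    intro s hs
    apply Subtype.ext
    exact (hcon2 s ⟨s, hs, rfl⟩).symm
  obtain ⟨r, hr, hrt⟩ := hexr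
  exact core ht R hodd hnP r hr hrt

end Cfsg.Agent.S4410
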