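import Mathlib
import Cfsg.Statements.S4411
import Cfsg.Agent.Lib.H73Off7

set_option autoImplicit false
open Cfsg

namespace Cfsg.Agent.S4411

open Cfsg.Agent.Lib.H73Off4 Cfsg.Agent.Lib.H73Off7

section Aux

variable {G : Type*} [Group G] {p q : ℕ}

/-- A `q`-element normalizing, but not centralizing, `K`. -/
def QAct (q : ℕ) (K : Subgroup G) : Prop :=
  ∃ y : G, (∃ n : ℕ, y ^ q ^ n = 1) ∧ y ∈ Subgroup.normalizer (K : Set G) ∧
    y ∉ Subgroup.centralizer (K : Set G)

theorem qAct_of_index [Finite G] [hq : Fact q.Prime] (K : Subgroup G)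
    (h : q ∣ ((Subgroup.centralizer (K : Set G)).subgroupOf (Subgroup.normalizer (K : Set G))).index) :
    QAct q K := by
  set N := Subgroup.normalizer (K : Set G) with hN
  set C := (Subgroup.centralizer (K : Set G)).subgroupOf N with hC
  rw [Subgroup.index_eq_card] at h
  obtain ⟨w, hw⟩ := exists_prime_orderOf_dvd_card' q h
  obtain ⟨g, rfl⟩ := QuotientGroup.mk'_surjective C w
  obtain ⟨y, ⟨n, hn⟩, hy⟩ := exists_q_lift (q := q) (QuotientGroup.mk' C) g (n := 1) (by
    rw [pow_one, ← hw, pow_orderOf_eq_one])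
  refine ⟨(y : G), ⟨n, ?_⟩, y.2, ?_⟩
  · have := congrArg Subtype.val hn
    simpa using this
  · intro hc
    have h1 : y ∈ C := Subgroup.mem_subgroupOf.mpr hc
    have h2 : QuotientGroup.mk' C y = 1 := (QuotientGroup.eq_one_iff y).mpr h1
    rw [hy] at h2
    rw [h2, orderOf_one] at hw
    exact hq.out.one_lt.ne hw

theorem index_of_qAct [Finite G] [hq : Fact q.Prime] (K : Subgroup G) (h : QAct q K) :
    q ∣ ((Subgroup.centralizer (K : Set G)).subgroupOf (Subgroup.normalizer (K : Set G))).index := by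
  obtain ⟨y, ⟨n, hn⟩, hy1, hy2⟩ := h
  set N := Subgroup.normalizer (K : Set G) with hN
  set C := (Subgroup.centralizer (K : Set G)).subgroupOf N with hC
  rw [Subgroup.index_eq_card]
  set w := QuotientGroup.mk' C (⟨y, hy1⟩ : N) with hw
  have hw1 : w ≠ 1 := by
    intro h
    apply hy2
    have h1 := (QuotientGroup.eq_one_iff _).mp h
    exact Subgroup.mem_subgroupOf.mp h1
  have h2 : orderOf w ∣ q ^ n := by
    apply orderOf_dvd_of_pow_eq_one
    rw [hw, ← map_pow]
    have : (⟨y, hy1⟩ : N) ^ q ^ n = 1 := Subtype.ext (by simpa using hn)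
    rw [this, map_one]
  obtain ⟨i, _, hi⟩ := (Nat.dvd_prime_pow hq.out).mp h2
  have hi0 : i ≠ 0 := by
    rintro rfl
    rw [pow_zero, orderOf_eq_one_iff] at hi
    exact hw1 hi
  have h3 : q ∣ orderOf w := by
    rw [hi]
    exact dvd_pow_self q hi0
  exact h3.trans (orderOf_dvd_natCard _)

/-- Conjugation transports the conclusion. -/
theorem concl_conj {T : Subgroup G} (g : G) (h : Concl p q T) :
    Concl p q (T.map (MulAut.conj g).toMonoidHom) := by
  obtain ⟨K, hK, y, ⟨n, hn⟩, hy1, hy2⟩ := h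
  set φ : G ≃* G := MulAut.conj g with hφ
  set e : T ≃* T.map φ.toMonoidHom := φ.subgroupMap T with he
  have hev : ∀ t : T, ((e t : T.map φ.toMonoidHom) : G) = g * t * g⁻¹ := fun t => rfl
  set K₁ : Subgroup (T.map φ.toMonoidHom) := K.comap e.symm.toMonoidHom with hK₁
  have hchar : K₁.Characteristic := by
    refine char_comap e.symm.toMonoidHom e.symm.surjective ?_ K hK
    have : e.symm.toMonoidHom.ker = ⊥ := by
      rw [MonoidHom.ker_eq_bot_iff]
      exact e.symm.injective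
    rw [this]
    infer_instance
  have hmem : ∀ x : G, x ∈ K₁.map (T.map φ.toMonoidHom).subtype ↔ g⁻¹ * x * g ∈ K.map T.subtype := by
    intro x
    constructor
    · rintro ⟨t', ht', rfl⟩
      obtain ⟨t, rfl⟩ := e.surjective t'
      have h1 : t ∈ K := by
        have h0 : e.symm (e t) ∈ K := ht'
        rwa [e.symm_apply_apply] at h0
      refine ⟨t, h1, ?_⟩
      show (t : G) = g⁻¹ * ((e t : T.map φ.toMonoidHom) : G) * g
      rw [hev]
      group
    · rintro ⟨t, ht, htx⟩
      refine ⟨e t, ?_, ?_⟩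
      · show e.symm (e t) ∈ K
        rwa [e.symm_apply_apply]
      · show ((e t : T.map φ.toMonoidHom) : G) = x
        rw [hev]
        have h2 : (t : G) = g⁻¹ * x * g := htx
        rw [h2]
        group
  refine ⟨K₁, hchar, g * y * g⁻¹, ⟨n, ?_⟩, ?_, ?_⟩
  · rw [conj_pow, hn]
    group
  · rw [Subgroup.mem_normalizer_iff] at hy1 ⊢
    intro x
    rw [hmem, hmem, hy1]
    have : g⁻¹ * (g * y * g⁻¹ * x * (g * y * g⁻¹)⁻¹) * g = y * (g⁻¹ * x * g) * y⁻¹ := by group
    rw [this]
  · intro hc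
    apply hy2
    rw [Subgroup.mem_centralizer_iff] at hc ⊢
    intro k hk
    have h1 : g * k * g⁻¹ ∈ K₁.map (T.map φ.toMonoidHom).subtype := by
      rw [hmem]
      have h0 : g⁻¹ * (g * k * g⁻¹) * g = k := by group
      rw [h0]
      exact hk
    have h2 := hc _ h1
    have h3 : g⁻¹ * (g * k * g⁻¹ * (g * y * g⁻¹)) * g = g⁻¹ * (g * y * g⁻¹ * (g * k * g⁻¹)) * g := by
      rw [h2]
    calc k * y = g⁻¹ * (g * k * g⁻¹ * (g * y * g⁻¹)) * g := by group
      _ = g⁻¹ * (g * y * g⁻¹ * (g * k * g⁻¹)) * g := h3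
      _ = y * k := by group

theorem qAct_conj {K : Subgroup G} (g : G) (h : QAct q K) : QAct q (K.map (MulAut.conj g).toMonoidHom) := by
  obtain ⟨y, ⟨n, hn⟩, hy1, hy2⟩ := h
  have hmem : ∀ x : G, x ∈ K.map (MulAut.conj g).toMonoidHom ↔ g⁻¹ * x * g ∈ K := by
    intro x
    constructor
    · rintro ⟨k, hk, rfl⟩
      have : g⁻¹ * (MulAut.conj g).toMonoidHom k * g = k := by
        simp [MulAut.conj_apply, mul_assoc]
      rw [this]
      exact hk
    · intro hx
      refine ⟨_, hx, ?_⟩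
      simp [MulAut.conj_apply, mul_assoc]
  refine ⟨g * y * g⁻¹, ⟨n, ?_⟩, ?_, ?_⟩
  · rw [conj_pow, hn]
    group
  · rw [Subgroup.mem_normalizer_iff] at hy1 ⊢
    intro x
    rw [hmem, hmem, hy1]
    have : g⁻¹ * (g * y * g⁻¹ * x * (g * y * g⁻¹)⁻¹) * g = y * (g⁻¹ * x * g) * y⁻¹ := by group
    rw [this]
  · intro hc
    apply hy2
    rw [Subgroup.mem_centralizer_iff] at hc ⊢
    intro k hk
    have h1 : g * k * g⁻¹ ∈ K.map (MulAut.conj g).toMonoidHom := by
      rw [hmem]
      have h0 : g⁻¹ * (g * k * g⁻¹) * g = k := by group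
      rw [h0]
      exact hk
    have h2 := hc _ h1
    have h3 : g⁻¹ * (g * k * g⁻¹ * (g * y * g⁻¹)) * g = g⁻¹ * (g * y * g⁻¹ * (g * k * g⁻¹)) * g := by
      rw [h2]
    calc k * y = g⁻¹ * (g * k * g⁻¹ * (g * y * g⁻¹)) * g := by group
      _ = g⁻¹ * (g * y * g⁻¹ * (g * k * g⁻¹)) * g := h3
      _ = y * k := by group

/-- Characteristic subgroups are normalized by the normalizer. -/
theorem normalizer_le_of_char {T : Subgroup G} {K : Subgroup T} (hK : K.Characteristic) :
    Subgroup.normalizer (T : Set G) ≤ Subgroup.normalizer ((K.map T.subtype : Subgroup G) : Set G) := by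
  intro x hx
  rw [Subgroup.mem_normalizer_iff]
  intro z
  set ψ : T ≃* T := T.normalizerMonoidHom ⟨x, hx⟩ with hψ
  have hψv : ∀ t : T, ((ψ t : T) : G) = x * t * x⁻¹ := fun t => rfl
  have hfix := Subgroup.characteristic_iff_comap_eq.mp hK ψ
  have hmem : ∀ t : T, ψ t ∈ K ↔ t ∈ K := by
    intro t
    conv_rhs => rw [← hfix]
    rfl
  constructor
  · rintro ⟨t, ht, rfl⟩
    exact ⟨ψ t, (hmem t).mpr ht, rfl⟩
  · rintro ⟨t, ht, htz⟩
    obtain ⟨t, rfl⟩ := ψ.surjective t
    refine ⟨t, (hmem t).mp ht, ?_⟩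
    have h1 : x * (t : G) * x⁻¹ = x * z * x⁻¹ := by
      rw [← hψv]
      exact htz
    exact (mul_left_injective x⁻¹ h1 |> mul_right_injective x)

end Aux

/-- Let p and q be distinct primes with {p, q} ≠ {2, 3}, and let G be a finite group such that for every p-subgroup H of G the automizer N_G(H)/C_G(H) is p-solvable. If q divides the order of N_G(H)/C_G(H) for some p-subgroup H, then a Sylow p-subgroup of G has a normal subgroup K (normal in the Sylow subgroup) such that q divides the order of N_G(K)/C_G(K). -/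
theorem result {G : Type*} [Group G] [Finite G]
    (p q : ℕ) [Fact p.Prime] [Fact q.Prime] (hpq : p ≠ q) (h23 : ¬ ((p = 2 ∧ q = 3) ∨ (p = 3 ∧ q = 2)))
    (hsol : ∀ H : Subgroup G, IsPGroup p ↥H →
      Cfsg.IsPSolvable p (↥(Subgroup.normalizer (H : Set G)) ⧸ (Subgroup.centralizer (H : Set G)).subgroupOf (Subgroup.normalizer (H : Set G))))
    (H : Subgroup G) (hH : IsPGroup p ↥H)
    (hq : q ∣ ((Subgroup.centralizer (H : Set G)).subgroupOf (Subgroup.normalizer (H : Set G))).index)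
    (Gp : Sylow p G) :
    ∃ K : Subgroup G, K ≤ (Gp : Subgroup G) ∧ (Gp : Subgroup G) ≤ Subgroup.normalizer (K : Set G) ∧
      q ∣ ((Subgroup.centralizer (K : Set G)).subgroupOf (Subgroup.normalizer (K : Set G))).index := by
  classical
  -- the family
  set F : Set (Subgroup G) := {K | K ≤ (Gp : Subgroup G) ∧ QAct q K} with hF
  have hFne : F.Nonempty := by
    obtain ⟨Q, hQ⟩ := hH.exists_le_sylow
    obtain ⟨g, hg⟩ := MulAction.exists_smul_eq G Q Gp
    refine ⟨H.map (MulAut.conj g).toMonoidHom, ?_, qAct_conj g (qAct_of_index H hq)⟩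
    rw [← hg]
    exact Subgroup.map_mono hQ
  obtain ⟨K₀, hK₀, hmax⟩ := Set.exists_max_image F
    (fun K => Nat.card ↥((Gp : Subgroup G) ⊓ Subgroup.normalizer (K : Set G))) (Set.toFinite F) hFne
  have hK₀p : IsPGroup p K₀ := Gp.isPGroup'.to_le hK₀.1
  set X : Subgroup G := Subgroup.normalizer (K₀ : Set G) with hX
  have hK₀X : K₀ ≤ X := Subgroup.le_normalizer
  set Y : Subgroup X := K₀.subgroupOf X with hY
  haveI hYn : Y.Normal := Subgroup.normal_subgroupOf_of_le_normalizer le_rfl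
  have hYp : IsPGroup p Y := by
    rintro ⟨x, hx⟩
    obtain ⟨k, hk⟩ := hK₀p ⟨_, Subgroup.mem_subgroupOf.mp hx⟩
    refine ⟨k, Subtype.ext (Subtype.ext ?_)⟩
    have := congrArg Subtype.val hk
    simpa using this
  set T₀ : Subgroup X := (Gp : Subgroup G).subgroupOf X with hT₀
  have hT₀p : IsPGroup p T₀ := by
    rintro ⟨x, hx⟩
    obtain ⟨k, hk⟩ := Gp.isPGroup' ⟨_, Subgroup.mem_subgroupOf.mp hx⟩
    refine ⟨k, Subtype.ext (Subtype.ext ?_)⟩
    have := congrArg Subtype.val hk
    simpa using this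
  obtain ⟨S, hS⟩ := hT₀p.exists_le_sylow
  obtain ⟨y₀, ⟨n, hn⟩, hy₁, hy₂⟩ := hK₀.2
  set C : Subgroup X := (Subgroup.centralizer (K₀ : Set G)).subgroupOf X with hC
  have hCe : C = Subgroup.centralizer (Y : Set X) := by
    ext x
    rw [hC, Subgroup.mem_subgroupOf, Subgroup.mem_centralizer_iff, Subgroup.mem_centralizer_iff]
    constructor
    · intro h y hy
      apply Subtype.ext
      exact h _ (Subgroup.mem_subgroupOf.mp hy)
    · intro h k hk
      have h1 := h ⟨k, hK₀X hk⟩ (Subgroup.mem_subgroupOf.mpr hk)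
      exact congrArg Subtype.val h1
  have hyC : (⟨y₀, hy₁⟩ : X) ∉ C := fun h => hy₂ (Subgroup.mem_subgroupOf.mp h)
  have hCS := thm_M hpq h23 Y hYp C hCe (hsol K₀ hK₀p) S ⟨y₀, hy₁⟩ n
    (Subtype.ext (by simpa using hn)) hyC
  -- transport to `G`
  set S' : Subgroup G := (S : Subgroup X).map X.subtype with hS'
  have hS'X : S' ≤ X := Subgroup.map_subtype_le _
  have hS'sub : S'.subgroupOf X = S := by
    rw [hS']
    exact Subgroup.comap_map_eq_self_of_injective X.subtype_injective _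
  have hCS' : Cfsg.Agent.Lib.H73Off4.Concl p q S' := by
    apply concl_of_le hS'X
    rw [hS'sub]
    exact hCS
  have hS'p : IsPGroup p S' := S.isPGroup'.map _
  obtain ⟨Q, hQ⟩ := hS'p.exists_le_sylow
  obtain ⟨g, hg⟩ := MulAction.exists_smul_eq G Q Gp
  set T : Subgroup G := S'.map (MulAut.conj g).toMonoidHom with hT
  have hTG : T ≤ (Gp : Subgroup G) := by
    rw [← hg]
    exact Subgroup.map_mono hQ
  have hCT : Cfsg.Agent.Lib.H73Off4.Concl p q T := concl_conj g hCS'
  obtain ⟨K'', hK'', z, hzq, hz1, hz2⟩ := hCT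
  set K₂ : Subgroup G := K''.map T.subtype with hK₂
  have hK₂T : K₂ ≤ T := Subgroup.map_subtype_le _
  have hK₂F : K₂ ∈ F := ⟨hK₂T.trans hTG, z, hzq, hz1, hz2⟩
  have hcT : Nat.card T = Nat.card S := by
    rw [hT, Subgroup.card_map_of_injective (MulAut.conj g).injective, hS',
      Subgroup.card_map_of_injective X.subtype_injective]
  have hμ₀ : Nat.card ↥((Gp : Subgroup G) ⊓ X) ≤ Nat.card T := by
    rw [hcT]
    have h1 : Nat.card T₀ = Nat.card ↥((Gp : Subgroup G) ⊓ X) := by
      rw [hT₀, Cfsg.Agent.Lib.Replacement.card_subgroupOf, inf_comm]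
    rw [← h1]
    exact Subgroup.card_le_of_le hS
  have hμ := hmax K₂ hK₂F
  have hTN : T ≤ Subgroup.normalizer (K₂ : Set G) :=
    Subgroup.le_normalizer.trans (normalizer_le_of_char hK'')
  have hTeq : T = (Gp : Subgroup G) := by
    by_contra hne
    haveI : Group.IsNilpotent (Gp : Subgroup G) := Gp.isPGroup'.isNilpotent
    set T' : Subgroup (Gp : Subgroup G) := T.subgroupOf (Gp : Subgroup G) with hT'
    have hT'top : T' ≠ ⊤ := by
      intro h
      apply hne
      apply le_antisymm hTG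
      intro x hx
      have h1 : (⟨x, hx⟩ : (Gp : Subgroup G)) ∈ T' := by
        rw [h]
        trivial
      exact Subgroup.mem_subgroupOf.mp h1
    have hlt : T' < Subgroup.normalizer (T' : Set (Gp : Subgroup G)) :=
      Group.normalizerCondition_of_isNilpotent T' (lt_top_iff_ne_top.mpr hT'top)
    obtain ⟨x, hx, hxT⟩ := SetLike.exists_of_lt hlt
    have hxT' : (x : G) ∉ T := fun h => hxT (Subgroup.mem_subgroupOf.mpr h)
    have hxN : (x : G) ∈ Subgroup.normalizer (T : Set G) := by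
      apply Cfsg.Agent.Lib.Replacement.mem_normalizer_of_forall
      intro t ht
      have h1 : (⟨t, hTG ht⟩ : (Gp : Subgroup G)) ∈ T' := Subgroup.mem_subgroupOf.mpr ht
      have h2 := (Subgroup.mem_normalizer_iff.mp hx _).mp h1
      exact Subgroup.mem_subgroupOf.mp h2
    have hxK : (x : G) ∈ Subgroup.normalizer (K₂ : Set G) := normalizer_le_of_char hK'' hxN
    have hle : T ≤ (Gp : Subgroup G) ⊓ Subgroup.normalizer (K₂ : Set G) := le_inf hTG hTN
    have hcard : Nat.card ↥((Gp : Subgroup G) ⊓ Subgroup.normalizer (K₂ : Set G)) ≤ Nat.card T :=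
      hμ.trans hμ₀
    have heq := Subgroup.eq_of_le_of_card_ge hle hcard
    apply hxT'
    rw [heq]
    exact ⟨x.2, hxK⟩
  refine ⟨K₂, hK₂T.trans hTG, ?_, index_of_qAct K₂ ⟨z, hzq, hz1, hz2⟩⟩
  rw [← hTeq]
  exact hTN

end Cfsg.Agent.S4411
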