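import Mathlib
import Cfsg.Statements.S4412
import Cfsg.Agent.Lib.Frat
import Cfsg.Agent.Lib.BurnsideAut

set_option autoImplicit false
open Cfsg
open Cfsg.Agent.Lib
open scoped commutatorElement

namespace Cfsg.Agent.S4412

section generic

variable {P : Type*} [Group P]

lemma lift [Finite P] (T : MulAut P) (hT : T * T = 1) (N : Subgroup P) (hN : ∀ x ∈ N, T x ∈ N)
    (hodd : Odd (Nat.card N)) (u : P) (hu : T u * u⁻¹ ∈ N) : ∃ c, T c = c ∧ c * u⁻¹ ∈ N := by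
  classical
  have f2 : Fact (Nat.Prime 2) := ⟨Nat.prime_two⟩
  let X := {x : P // x * u⁻¹ ∈ N}
  have hcard : Nat.card X = Nat.card N :=
    Nat.card_congr ⟨fun x => ⟨x.1 * u⁻¹, x.2⟩, fun n => ⟨n.1 * u, by simp⟩,
      fun x => by ext; simp, fun n => by ext; simp⟩
  let f : Function.End X := fun x => ⟨T x.1, by
    have e : T x.1 * u⁻¹ = T (x.1 * u⁻¹) * (T u * u⁻¹) := by
      rw [map_mul, map_inv]; group
    rw [e]
    exact mul_mem (hN _ x.2) hu⟩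
  have hTT : ∀ x, T (T x) = x := fun x => by
    have := congrArg (fun S : MulAut P => S x) hT
    simpa using this
  have hf : f ^ 2 ^ 1 = 1 := by
    funext x
    apply Subtype.ext
    rw [pow_one, pow_two]
    exact hTT x.1
  have : Fintype X := Fintype.ofFinite X
  have hmod := Equiv.Perm.card_fixedPoints_modEq hf
  have hoddX : Fintype.card X % 2 = 1 := by
    rw [← Nat.card_eq_fintype_card, hcard]
    exact Nat.odd_iff.1 hodd
  have hne : Fintype.card f.fixedPoints ≠ 0 := by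
    intro h0
    rw [h0] at hmod
    have : Fintype.card X % 2 = 0 % 2 := hmod
    omega
  obtain ⟨⟨x, hx⟩⟩ : Nonempty f.fixedPoints := Fintype.card_pos_iff.1 (Nat.pos_of_ne_zero hne)
  exact ⟨x.1, congrArg Subtype.val hx, x.2⟩


variable {p : ℕ} [hpf : Fact p.Prime]

lemma odd_card_sub [Finite P] (hP : IsPGroup p P) (hp2 : p ≠ 2) (N : Subgroup P) : Odd (Nat.card N) := by
  obtain ⟨k, hk⟩ := IsPGroup.iff_card.1 (hP.to_subgroup N)
  rw [hk]
  exact (hpf.out.odd_of_ne_two hp2).pow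

lemma mem_of_sq_mem [Finite P] (hP : IsPGroup p P) (hp2 : p ≠ 2) (N : Subgroup P) (y : P)
    (h : y ^ 2 ∈ N) : y ∈ N := by
  obtain ⟨k, hk⟩ := IsPGroup.iff_orderOf.1 hP y
  have hodd : Odd (orderOf y) := by
    rw [hk]; exact (hpf.out.odd_of_ne_two hp2).pow
  obtain ⟨m, hm⟩ := hodd
  have e : y = (y ^ 2) ^ (m + 1) := by
    rw [← pow_mul]
    have : 2 * (m + 1) = orderOf y + 1 := by omega
    rw [this, pow_succ, pow_orderOf_eq_one, one_mul]
  rw [e]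
  exact pow_mem h _

lemma sq_eq_one [Finite P] (hP : IsPGroup p P) (hp2 : p ≠ 2) (y : P) (h : y ^ 2 = 1) : y = 1 := by
  have := mem_of_sq_mem hP hp2 (⊥ : Subgroup P) y (by rw [h]; exact one_mem _)
  simpa using this

lemma coprime_of_not_dvd (k : ℤ) (m : ℕ) (h : ¬ (p : ℤ) ∣ k) : IsCoprime k ((p ^ m : ℕ) : ℤ) := by
  have hpi : Prime (p : ℤ) := Nat.prime_iff_prime_int.1 hpf.out
  have h1 : IsCoprime (p : ℤ) k := (hpi.irreducible.coprime_iff_not_dvd).2 h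
  push_cast
  exact (h1.pow_left).symm

lemma sign [Finite P] (hP : IsPGroup p P) (hp2 : p ≠ 2) (T : MulAut P) (hT : T * T = 1) (x : P)
    (hx : T x ∈ Subgroup.zpowers x) : T x = x ∨ T x = x⁻¹ := by
  obtain ⟨a, ha⟩ := Subgroup.mem_zpowers_iff.1 hx
  obtain ⟨m, hm⟩ := IsPGroup.iff_orderOf.1 hP x
  have hTT : T (T x) = x := by
    have := congrArg (fun S : MulAut P => S x) hT
    simpa using this
  have h1 : x ^ (a * a) = x := by
    rw [zpow_mul, ha]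
    have : (T x) ^ a = T (x ^ a) := by rw [map_zpow]
    rw [this, ha, hTT]
  have h2 : ((orderOf x : ℕ) : ℤ) ∣ (a - 1) * (a + 1) := by
    apply orderOf_dvd_iff_zpow_eq_one.2
    have : (a - 1) * (a + 1) = a * a - 1 := by ring
    rw [this, zpow_sub, h1, zpow_one, mul_inv_cancel]
  rw [hm] at h2
  by_cases hd : (p : ℤ) ∣ a + 1
  · right
    have hnd : ¬ (p : ℤ) ∣ a - 1 := by
      intro hd2
      have h3 : (p : ℤ) ∣ 2 := by
        have := dvd_sub hd hd2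
        have e : a + 1 - (a - 1) = 2 := by ring
        rwa [e] at this
      have h4 : p ∣ 2 := by exact_mod_cast h3
      have := (Nat.prime_dvd_prime_iff_eq hpf.out Nat.prime_two).1 h4
      exact hp2 this
    have hc := coprime_of_not_dvd (p := p) (a - 1) m hnd
    have h5 : ((p ^ m : ℕ) : ℤ) ∣ a + 1 := hc.symm.dvd_of_dvd_mul_left h2
    rw [← hm] at h5
    have h6 := orderOf_dvd_iff_zpow_eq_one.1 h5
    rw [zpow_add, zpow_one, ha] at h6
    exact eq_inv_of_mul_eq_one_left h6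
  · left
    have hc := coprime_of_not_dvd (p := p) (a + 1) m hd
    have h5 : ((p ^ m : ℕ) : ℤ) ∣ a - 1 := hc.symm.dvd_of_dvd_mul_right h2
    rw [← hm] at h5
    have h6 := orderOf_dvd_iff_zpow_eq_one.1 h5
    rw [zpow_sub, zpow_one, ha] at h6
    exact mul_inv_eq_one.1 h6

lemma gen_of_not_frat [Finite P] (hP : IsPGroup p P) (g c : P) (hc : c ∈ Subgroup.zpowers g)
    (hcf : c ∉ frattini P) : g ∈ Subgroup.zpowers c := by
  obtain ⟨a, rfl⟩ := Subgroup.mem_zpowers_iff.1 hc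
  have hpa : ¬ (p : ℤ) ∣ a := by
    rintro ⟨k, rfl⟩
    apply hcf
    rw [zpow_mul, zpow_natCast]
    exact zpow_mem (Frat.pow_mem_frattini hP g) k
  obtain ⟨m, hm⟩ := IsPGroup.iff_orderOf.1 hP g
  obtain ⟨r, s, hrs⟩ := coprime_of_not_dvd (p := p) a m hpa
  have hgo : g ^ (((p ^ m : ℕ) : ℤ)) = 1 := by
    rw [zpow_natCast, ← hm]; exact pow_orderOf_eq_one g
  have e : g = (g ^ a) ^ r := by
    have h1 : g ^ (r * a + s * ((p ^ m : ℕ) : ℤ)) = g := by rw [hrs, zpow_one]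
    rw [zpow_add, mul_comm s, zpow_mul _ _ s, hgo, one_zpow, mul_one, mul_comm, zpow_mul] at h1
    exact h1.symm
  have h2 : (g ^ a) ^ r ∈ Subgroup.zpowers (g ^ a) := zpow_mem (Subgroup.mem_zpowers _) r
  rwa [← e] at h2

/-- Commutators of eigen-generators are deep in the lower central series. -/
lemma comm_step [Finite P] (hP : IsPGroup p P) (hp2 : p ≠ 2) (a b c : P) (A B C : MulAut P)
    (hA : A * A = 1) (hB : B * B = 1) (hAB : A * B = B * A)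
    (hAa : A a = a⁻¹) (hAb : A b = b) (hBa : B a = a) (hBb : B b = b⁻¹)
    (hCa : C a = a) (hCb : C b = b) (hCc : C c = c⁻¹)
    (hfix : ∀ x, (A * B) x = x → x ∈ Subgroup.zpowers c) :
    ⁅a, b⁆ ∈ ⁅commutator P, (⊤ : Subgroup P)⁆ := by
  set N : Subgroup P := ⁅commutator P, (⊤ : Subgroup P)⁆ with hN
  have hchar : N.Characteristic := by
    rw [hN]
    infer_instance
  have hNinv : ∀ (T : MulAut P), ∀ x ∈ N, T x ∈ N := fun T x hx =>
    (Subgroup.characteristic_iff_le_comap.1 hchar T) hx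
  set u : P := ⁅a, b⁆ with hu
  have hDD : (A * B) * (A * B) = 1 := by
    calc (A * B) * (A * B) = A * (B * A) * B := by group
      _ = A * (A * B) * B := by rw [hAB]
      _ = (A * A) * (B * B) := by group
      _ = 1 := by rw [hA, hB, one_mul]
  have hDu : (A * B) u * u⁻¹ ∈ N := by
    have e1 : (A * B) u = (b * a)⁻¹ * u * (b * a) := by
      rw [hu, commutatorElement_def]
      simp only [MulAut.mul_apply, map_mul, map_inv, hBa, hBb, hAa, hAb]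
      group
    have h2 : ⁅u, (b * a)⁻¹⁆ ∈ N :=
      Subgroup.commutator_mem_commutator (Subgroup.commutator_mem_commutator trivial trivial) trivial
    have e2 : (A * B) u * u⁻¹ = ⁅u, (b * a)⁻¹⁆⁻¹ := by
      rw [e1, commutatorElement_def]
      group
    rw [e2]
    exact inv_mem h2
  obtain ⟨y, hy1, hy2⟩ := lift (A * B) hDD N (hNinv _) (odd_card_sub hP hp2 N) u hDu
  obtain ⟨k, rfl⟩ := Subgroup.mem_zpowers_iff.1 (hfix y hy1)
  have hCu : C u = u := by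
    rw [hu, commutatorElement_def]
    simp only [map_mul, map_inv, hCa, hCb]
  have h3 : (c ^ k)⁻¹ * u⁻¹ ∈ N := by
    have := hNinv C _ hy2
    rw [map_mul, map_zpow, map_inv, hCu, hCc, inv_zpow] at this
    exact this
  have h4 : (c ^ k) ^ 2 ∈ N := by
    have e : (c ^ k) ^ 2 = (c ^ k * u⁻¹) * ((c ^ k)⁻¹ * u⁻¹)⁻¹ := by
      rw [pow_two]; group
    rw [e]
    exact mul_mem hy2 (inv_mem h3)
  have h5 := mem_of_sq_mem hP hp2 N _ h4
  have e : u = (c ^ k * u⁻¹)⁻¹ * c ^ k := by group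
  rw [e]
  exact mul_mem (inv_mem hy2) h5

/-- A group whose commutator subgroup equals its next term is abelian if nilpotent. -/
lemma comm_of_eq [Finite P] (hP : IsPGroup p P) (h : commutator P ≤ ⁅commutator P, (⊤ : Subgroup P)⁆) :
    commutator P = ⊥ := by
  have hnil : Group.IsNilpotent P := hP.isNilpotent
  obtain ⟨n, hn⟩ := Subgroup.nilpotent_iff_lowerCentralSeries.1 hnil
  have hall : ∀ k, commutator P ≤ (⊤ : Subgroup P).lowerCentralSeries (k + 1) := by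
    intro k
    induction k with
    | zero =>
      rw [Subgroup.top_lowerCentralSeries_one]
    | succ k ih =>
      refine h.trans ?_
      rw [Subgroup.lowerCentralSeries_succ]
      exact Subgroup.commutator_mono ih le_rfl
  rw [eq_bot_iff]
  calc commutator P ≤ (⊤ : Subgroup P).lowerCentralSeries (n + 1) := hall n
    _ ≤ (⊤ : Subgroup P).lowerCentralSeries n := Subgroup.lowerCentralSeries_antitone _ (Nat.le_succ n)
    _ = ⊥ := hn

/-- Pairwise commuting generators modulo a normal subgroup. -/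
lemma commutator_le_of_gens (S : Set P) (hS : Subgroup.closure S = ⊤) (N : Subgroup P) [hN : N.Normal]
    (h : ∀ a ∈ S, ∀ b ∈ S, ⁅a, b⁆ ∈ N) : commutator P ≤ N := by
  let π := QuotientGroup.mk' N
  have hcomm : ∀ a ∈ S, ∀ b ∈ S, π a * π b = π b * π a := by
    intro a ha b hb
    have h1 : π ⁅a, b⁆ = 1 := (QuotientGroup.eq_one_iff _).2 (h a ha b hb)
    rw [commutatorElement_def] at h1
    simp only [map_mul, map_inv] at h1
    calc π a * π b = (π a * π b * (π a)⁻¹ * (π b)⁻¹) * (π b * π a) := by group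
      _ = π b * π a := by rw [h1, one_mul]
  have hS1 : ∀ a ∈ S, ∀ y : P, π a * π y = π y * π a := by
    intro a ha y
    have hy : y ∈ Subgroup.closure S := by rw [hS]; trivial
    induction hy using Subgroup.closure_induction with
    | mem x hx => exact hcomm a ha x hx
    | one => simp
    | mul x y _ _ hx hy =>
      rw [map_mul]
      calc π a * (π x * π y) = (π a * π x) * π y := by group
        _ = (π x * π a) * π y := by rw [hx]
        _ = π x * (π a * π y) := by group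
        _ = π x * (π y * π a) := by rw [hy]
        _ = π x * π y * π a := by group
    | inv x _ hx =>
      rw [map_inv]
      have : Commute (π a) (π x) := hx
      exact (this.inv_right).eq
  have hall : ∀ x y : P, π x * π y = π y * π x := by
    intro x y
    have hx : x ∈ Subgroup.closure S := by rw [hS]; trivial
    induction hx using Subgroup.closure_induction with
    | mem x hx => exact hS1 x hx y
    | one => simp
    | mul u v _ _ hu hv =>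
      rw [map_mul]
      calc π u * π v * π y = π u * (π v * π y) := by group
        _ = π u * (π y * π v) := by rw [hv]
        _ = (π u * π y) * π v := by group
        _ = (π y * π u) * π v := by rw [hu]
        _ = π y * (π u * π v) := by group
    | inv u _ hu =>
      rw [map_inv]
      have : Commute (π u) (π y) := hu
      exact (this.inv_left).eq
  rw [commutator_def, Subgroup.commutator_le]
  intro a _ b _
  apply (QuotientGroup.eq_one_iff _).1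
  show π ⁅a, b⁆ = 1
  rw [commutatorElement_def]
  simp only [map_mul, map_inv]
  rw [hall a b]
  group

/-- Common eigenvectors for commuting involutions. -/
lemma eigen {V : Type*} [Group V] (hc : ∀ u v : V, u * v = v * u) (h2 : ∀ v : V, v * v = 1 → v = 1)
    (T : MulAut V) (s : Finset (MulAut V)) (hs : ∀ S ∈ s, S * S = 1)
    (hcomm : ∀ S ∈ s, ∀ S' ∈ s, S * S' = S' * S) (hTc : ∀ S ∈ s, S * T = T * S)
    (w₀ : V) (hw₀ : w₀ ≠ 1) (hTw₀ : T w₀ = w₀⁻¹) :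
    ∃ w, w ≠ 1 ∧ T w = w⁻¹ ∧ ∀ S ∈ s, S w = w ∨ S w = w⁻¹ := by
  classical
  induction s using Finset.induction_on with
  | empty => exact ⟨w₀, hw₀, hTw₀, by simp⟩
  | insert S₀ s _ ih =>
    obtain ⟨w, hw1, hTw, hw⟩ := ih (fun S hS => hs S (Finset.mem_insert_of_mem hS))
      (fun S hS S' hS' => hcomm S (Finset.mem_insert_of_mem hS) S' (Finset.mem_insert_of_mem hS'))
      (fun S hS => hTc S (Finset.mem_insert_of_mem hS))
    have hS₀ : S₀ * S₀ = 1 := hs S₀ (Finset.mem_insert_self _ _)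
    have hS₀S₀ : ∀ x, S₀ (S₀ x) = x := fun x => by
      have := congrArg (fun S : MulAut V => S x) hS₀
      simpa using this
    have hcommR : ∀ R : MulAut V, R * S₀ = S₀ * R → ∀ x, R (S₀ x) = S₀ (R x) := fun R hR x =>
      congrArg (fun S : MulAut V => S x) hR
    -- behaviour under a commuting `R`
    have hfixcase : ∀ R : MulAut V, R * S₀ = S₀ * R → R w = w →
        R (w * S₀ w) = w * S₀ w ∧ R (w * (S₀ w)⁻¹) = w * (S₀ w)⁻¹ := by
      intro R hR hRw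
      constructor
      · rw [map_mul, hcommR R hR, hRw]
      · rw [map_mul, map_inv, hcommR R hR, hRw]
    have hinvcase : ∀ R : MulAut V, R * S₀ = S₀ * R → R w = w⁻¹ →
        R (w * S₀ w) = (w * S₀ w)⁻¹ ∧ R (w * (S₀ w)⁻¹) = (w * (S₀ w)⁻¹)⁻¹ := by
      intro R hR hRw
      constructor
      · rw [map_mul, hcommR R hR, hRw, map_inv, mul_inv_rev, hc]
      · rw [map_mul, map_inv, hcommR R hR, hRw, map_inv, mul_inv_rev, inv_inv, hc]
    have hS₀a : S₀ (w * S₀ w) = w * S₀ w := by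
      rw [map_mul, hS₀S₀, hc]
    have hS₀b : S₀ (w * (S₀ w)⁻¹) = (w * (S₀ w)⁻¹)⁻¹ := by
      rw [map_mul, map_inv, hS₀S₀, mul_inv_rev, inv_inv, hc]
    have hTS₀ : T * S₀ = S₀ * T := (hTc S₀ (Finset.mem_insert_self _ _)).symm
    have hprod : (w * S₀ w) * (w * (S₀ w)⁻¹) = w * w := by
      calc (w * S₀ w) * (w * (S₀ w)⁻¹) = w * (S₀ w * w) * (S₀ w)⁻¹ := by group
        _ = w * (w * S₀ w) * (S₀ w)⁻¹ := by rw [hc (S₀ w) w]
        _ = w * w := by group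
    have hww : w * w ≠ 1 := fun h => hw1 (h2 w h)
    have hRs : ∀ S ∈ s, S * S₀ = S₀ * S := fun S hS =>
      hcomm S (Finset.mem_insert_of_mem hS) S₀ (Finset.mem_insert_self _ _)
    by_cases ha : w * S₀ w = 1
    · have hb : w * (S₀ w)⁻¹ ≠ 1 := by
        intro hb
        apply hww
        rw [← hprod, ha, hb, one_mul]
      refine ⟨w * (S₀ w)⁻¹, hb, (hinvcase T hTS₀ hTw).2, ?_⟩
      intro S hS
      rcases Finset.mem_insert.1 hS with rfl | hS'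
      · exact Or.inr hS₀b
      · rcases hw S hS' with h | h
        · exact Or.inl (hfixcase S (hRs S hS') h).2
        · exact Or.inr (hinvcase S (hRs S hS') h).2
    · refine ⟨w * S₀ w, ha, (hinvcase T hTS₀ hTw).1, ?_⟩
      intro S hS
      rcases Finset.mem_insert.1 hS with rfl | hS'
      · exact Or.inl hS₀a
      · rcases hw S hS' with h | h
        · exact Or.inl (hfixcase S (hRs S hS') h).1
        · exact Or.inr (hinvcase S (hRs S hS') h).1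

/-- The automorphism induced on the Frattini quotient. -/
noncomputable def fratAut (Q : Type*) [Group Q] : MulAut Q →* MulAut (Q ⧸ frattini Q) where
  toFun φ := QuotientGroup.congr (frattini Q) (frattini Q) φ
    (Subgroup.characteristic_iff_map_eq.1 inferInstance φ)
  map_one' := by
    ext u
    obtain ⟨y, rfl⟩ := QuotientGroup.mk_surjective u
    rfl
  map_mul' := by
    intro a b
    ext u
    obtain ⟨y, rfl⟩ := QuotientGroup.mk_surjective u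
    rfl

lemma fratAut_mk (Q : Type*) [Group Q] (φ : MulAut Q) (y : Q) :
    fratAut Q φ (QuotientGroup.mk y) = QuotientGroup.mk (φ y) := rfl


local notation "bar" => fratAut _

lemma frat_comm [Finite P] (hP : IsPGroup p P) (u v : P ⧸ frattini P) : u * v = v * u := by
  obtain ⟨a, rfl⟩ := QuotientGroup.mk_surjective u
  obtain ⟨b, rfl⟩ := QuotientGroup.mk_surjective v
  rw [← QuotientGroup.mk_mul, ← QuotientGroup.mk_mul, QuotientGroup.eq]
  apply Frat.commutator_le_frattini hP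
  have : (a * b)⁻¹ * (b * a) = ⁅b⁻¹, a⁻¹⁆ := by
    rw [commutatorElement_def]; group
  rw [this]
  exact Subgroup.commutator_mem_commutator trivial trivial

lemma frat_pow [Finite P] (hP : IsPGroup p P) (u : P ⧸ frattini P) : u ^ p = 1 := by
  obtain ⟨a, rfl⟩ := QuotientGroup.mk_surjective u
  rw [← QuotientGroup.mk_pow, QuotientGroup.eq_one_iff]
  exact Frat.pow_mem_frattini hP a

lemma frat_two [Finite P] (hP : IsPGroup p P) (hp2 : p ≠ 2) (v : P ⧸ frattini P) (h : v * v = 1) : v = 1 := by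
  have h1 := frat_pow hP v
  have h2 : v ^ 2 = 1 := by rw [pow_two]; exact h
  have h3 := pow_gcd_eq_one.2 ⟨h1, h2⟩
  have h4 : Nat.gcd p 2 = 1 := by
    rw [← Nat.coprime_iff_gcd_eq_one]
    exact (Nat.coprime_primes hpf.out Nat.prime_two).2 hp2
  rwa [h4, pow_one] at h3

lemma lift_V [Finite P] (hP : IsPGroup p P) (hp2 : p ≠ 2) (t : MulAut P) (ht : t * t = 1)
    (u : P ⧸ frattini P) (hu : fratAut P t u = u) :
    ∃ c : P, t c = c ∧ (QuotientGroup.mk c : P ⧸ frattini P) = u := by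
  obtain ⟨y, rfl⟩ := QuotientGroup.mk_surjective u
  rw [fratAut_mk] at hu
  have h1 : t y * y⁻¹ ∈ frattini P := by
    have := (QuotientGroup.eq_iff_div_mem).1 hu
    rwa [div_eq_mul_inv] at this
  obtain ⟨c, hc, hc2⟩ := lift t ht (frattini P) (fun x hx => by
    have hchar : (frattini P).Characteristic := inferInstance
    exact (Subgroup.characteristic_iff_le_comap.1 hchar t) hx) (odd_card_sub hP hp2 _) y h1
  refine ⟨c, hc, ?_⟩
  exact (QuotientGroup.eq_iff_div_mem).2 (by rwa [div_eq_mul_inv])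

lemma bar_mul (S T : MulAut P) (u : P ⧸ frattini P) : fratAut P (S * T) u = fratAut P S (fratAut P T u) := by
  rw [map_mul]; rfl

/-- Elements which are not broad are not a problem; this shows broadness. -/
lemma broad_of [Finite P] (hP : IsPGroup p P) (hp2 : p ≠ 2) (t t' : MulAut P) (ht : t * t = 1)
    (w w' : P ⧸ frattini P) (hw' : w' ≠ 1) (hw : w ≠ 1)
    (h1 : fratAut P t w = w) (h2 : fratAut P t w' = w') (h3 : fratAut P t' w = w⁻¹)
    (h4 : fratAut P t' w' = w') : ¬ ∃ g : P, ∀ x : P, (t x = x ↔ x ∈ Subgroup.zpowers g) := by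
  rintro ⟨g, hg⟩
  obtain ⟨c, hc1, hc2⟩ := lift_V hP hp2 t ht w h1
  obtain ⟨d, hd1, hd2⟩ := lift_V hP hp2 t ht w' h2
  obtain ⟨a, rfl⟩ := Subgroup.mem_zpowers_iff.1 ((hg c).1 hc1)
  obtain ⟨b, rfl⟩ := Subgroup.mem_zpowers_iff.1 ((hg d).1 hd1)
  set gb : P ⧸ frattini P := QuotientGroup.mk g with hgb
  have hw_eq : w = gb ^ a := by rw [← hc2]; rfl
  have hw'_eq : w' = gb ^ b := by rw [← hd2]; rfl
  have hcom : w ^ b = w' ^ a := by
    rw [hw_eq, hw'_eq, ← zpow_mul, ← zpow_mul, mul_comm]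
  have h5 : (fratAut P t' w) ^ b = (fratAut P t' w') ^ a := by
    rw [← map_zpow, ← map_zpow, hcom]
  rw [h3, h4, ← hcom, inv_zpow] at h5
  have h6 : (w ^ b) * (w ^ b) = 1 := by
    have h60 : (w ^ b)⁻¹ * w ^ b = 1 := inv_mul_cancel _
    rwa [h5] at h60
  have h7 : w ^ b = 1 := frat_two hP hp2 _ h6
  have h8 : orderOf w = p := orderOf_eq_prime (frat_pow hP w) hw
  have h9 : (p : ℤ) ∣ b := by
    rw [← h8]
    exact orderOf_dvd_iff_zpow_eq_one.2 h7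
  obtain ⟨k, rfl⟩ := h9
  apply hw'
  rw [hw'_eq, zpow_mul, zpow_natCast, frat_pow hP gb, one_zpow]

lemma exists_gen [Finite P] (hP : IsPGroup p P) (hp2 : p ≠ 2) (q : MulAut P) (hq : q * q = 1) (g : P)
    (hg : ∀ x : P, (q x = x ↔ x ∈ Subgroup.zpowers g)) (w : P ⧸ frattini P) (hw : w ≠ 1)
    (hqw : fratAut P q w = w) :
    ∃ c : P, (QuotientGroup.mk c : P ⧸ frattini P) = w ∧ ∀ x : P, (q x = x ↔ x ∈ Subgroup.zpowers c) := by
  obtain ⟨c, hc1, hc2⟩ := lift_V hP hp2 q hq w hqw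
  have hcz := (hg c).1 hc1
  have hcf : c ∉ frattini P := fun h => hw (by rw [← hc2]; exact (QuotientGroup.eq_one_iff c).2 h)
  have hgz := gen_of_not_frat hP g c hcz hcf
  refine ⟨c, hc2, fun x => ?_⟩
  rw [hg]
  constructor
  · exact fun h => (Subgroup.zpowers_le.2 hgz) h
  · exact fun h => (Subgroup.zpowers_le.2 hcz) h

lemma act_sign [Finite P] (hP : IsPGroup p P) (hp2 : p ≠ 2) (T q : MulAut P) (hT : T * T = 1)
    (hTq : T * q = q * T) (c : P) (hc : ∀ x : P, (q x = x ↔ x ∈ Subgroup.zpowers c)) :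
    T c = c ∨ T c = c⁻¹ := by
  apply sign hP hp2 T hT c
  rw [← hc]
  have h1 : q c = c := (hc c).2 (Subgroup.mem_zpowers c)
  have h2 : q (T c) = T (q c) := (congrArg (fun S : MulAut P => S c) hTq).symm
  rw [h2, h1]

lemma act_fix [Finite P] (hP : IsPGroup p P) (hp2 : p ≠ 2) (T : MulAut P) (c : P) (hs : T c = c ∨ T c = c⁻¹)
    (w : P ⧸ frattini P) (hcw : (QuotientGroup.mk c : P ⧸ frattini P) = w) (hw : w ≠ 1)
    (h : fratAut P T w = w) : T c = c := by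
  rcases hs with h1 | h1
  · exact h1
  · exfalso
    apply hw
    apply frat_two hP hp2
    subst hcw
    rw [fratAut_mk, h1, QuotientGroup.mk_inv] at h
    have := congrArg (fun v => (QuotientGroup.mk c : P ⧸ frattini P) * v) h
    simp only [mul_inv_cancel] at this
    exact this.symm

lemma act_inv [Finite P] (hP : IsPGroup p P) (hp2 : p ≠ 2) (T : MulAut P) (c : P) (hs : T c = c ∨ T c = c⁻¹)
    (w : P ⧸ frattini P) (hcw : (QuotientGroup.mk c : P ⧸ frattini P) = w) (hw : w ≠ 1)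
    (h : fratAut P T w = w⁻¹) : T c = c⁻¹ := by
  rcases hs with h1 | h1
  · exfalso
    apply hw
    apply frat_two hP hp2
    subst hcw
    rw [fratAut_mk, h1] at h
    have := congrArg (fun v => (QuotientGroup.mk c : P ⧸ frattini P) * v) h
    simp only [mul_inv_cancel] at this
    exact this
  · exact h1

/-- The elementwise identity behind generation by fixed points. -/
lemma v_id {V : Type*} [Group V] (hc : ∀ u v : V, u * v = v * u) (v a b d : V) :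
    (v * a) * (v * b) * (v * d) * (v * a * b * d)⁻¹ = v * v := by
  let _ : CommGroup V := { (inferInstance : Group V) with mul_comm := hc }
  rw [mul_inv_eq_iff_eq_mul]
  ac_rfl

/-- Generation of `P` by the fixed points of the four-group. -/
lemma gen_top [Finite P] (hP : IsPGroup p P) (hp2 : p ≠ 2) (q₁ q₂ q₃ : MulAut P) (c₁ c₂ c₃ : P)
    (h₁ : q₁ * q₁ = 1) (h₂ : q₂ * q₂ = 1) (h₃ : q₃ * q₃ = 1) (h12 : q₁ * q₂ = q₃) (h13 : q₁ * q₃ = q₂)
    (hc₁ : ∀ x : P, (q₁ x = x ↔ x ∈ Subgroup.zpowers c₁))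
    (hc₂ : ∀ x : P, (q₂ x = x ↔ x ∈ Subgroup.zpowers c₂))
    (hc₃ : ∀ x : P, (q₃ x = x ↔ x ∈ Subgroup.zpowers c₃)) :
    Subgroup.closure {c₁, c₂, c₃} = ⊤ := by
  set G' := Subgroup.closure {c₁, c₂, c₃} with hG'
  have hVc := frat_comm hP (P := P)
  have hq : ∀ (q : MulAut P) (c : P), q * q = 1 → (∀ x : P, (q x = x ↔ x ∈ Subgroup.zpowers c)) → c ∈ G' →
      ∀ u : P ⧸ frattini P, fratAut P q u = u → ∃ b ∈ G', (QuotientGroup.mk b : P ⧸ frattini P) = u := by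
    intro q c hqq hc hcG u hu
    obtain ⟨b, hb1, hb2⟩ := lift_V hP hp2 q hqq u hu
    exact ⟨b, (Subgroup.zpowers_le.2 hcG) ((hc b).1 hb1), hb2⟩
  have hm1 : c₁ ∈ G' := Subgroup.subset_closure (by simp)
  have hm2 : c₂ ∈ G' := Subgroup.subset_closure (by simp)
  have hm3 : c₃ ∈ G' := Subgroup.subset_closure (by simp)
  have hbb : ∀ (q : MulAut P), q * q = 1 → ∀ u : P ⧸ frattini P, fratAut P q (fratAut P q u) = u := by
    intro q hqq u
    rw [← bar_mul, hqq, map_one]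
    rfl
  have hsup : G' ⊔ frattini P = ⊤ := by
    rw [eq_top_iff]
    intro y _
    set v : P ⧸ frattini P := QuotientGroup.mk y with hv
    obtain ⟨b₁, hb₁, e₁⟩ := hq q₁ c₁ h₁ hc₁ hm1 (v * fratAut P q₁ v) (by
      rw [map_mul, hbb q₁ h₁, hVc])
    obtain ⟨b₂, hb₂, e₂⟩ := hq q₂ c₂ h₂ hc₂ hm2 (v * fratAut P q₂ v) (by
      rw [map_mul, hbb q₂ h₂, hVc])
    obtain ⟨b₃, hb₃, e₃⟩ := hq q₃ c₃ h₃ hc₃ hm3 (v * fratAut P q₃ v) (by
      rw [map_mul, hbb q₃ h₃, hVc])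
    obtain ⟨b₄, hb₄, e₄⟩ := hq q₁ c₁ h₁ hc₁ hm1 (v * fratAut P q₁ v * fratAut P q₂ v * fratAut P q₃ v) (by
      rw [map_mul, map_mul, map_mul, hbb q₁ h₁, ← bar_mul, ← bar_mul, h12, h13]
      let _ : CommGroup (P ⧸ frattini P) := { (inferInstance : Group (P ⧸ frattini P)) with mul_comm := hVc }
      ac_rfl)
    have hb : b₁ * b₂ * b₃ * b₄⁻¹ ∈ G' :=
      mul_mem (mul_mem (mul_mem hb₁ hb₂) hb₃) (inv_mem hb₄)
    have e : (QuotientGroup.mk (b₁ * b₂ * b₃ * b₄⁻¹) : P ⧸ frattini P) = v * v := by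
      rw [QuotientGroup.mk_mul, QuotientGroup.mk_mul, QuotientGroup.mk_mul, QuotientGroup.mk_inv, e₁, e₂, e₃, e₄]
      exact v_id hVc v _ _ _
    obtain ⟨m, hm⟩ := hpf.out.odd_of_ne_two hp2
    have hy : (QuotientGroup.mk ((b₁ * b₂ * b₃ * b₄⁻¹) ^ (m + 1)) : P ⧸ frattini P) = v := by
      rw [QuotientGroup.mk_pow, e, ← pow_two, ← pow_mul]
      have : 2 * (m + 1) = p + 1 := by omega
      rw [this, pow_succ, frat_pow hP v, one_mul]
    have h5 : ((b₁ * b₂ * b₃ * b₄⁻¹) ^ (m + 1))⁻¹ * y ∈ frattini P := QuotientGroup.eq.1 hy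
    have e5 : y = (b₁ * b₂ * b₃ * b₄⁻¹) ^ (m + 1) * (((b₁ * b₂ * b₃ * b₄⁻¹) ^ (m + 1))⁻¹ * y) := by group
    rw [e5]
    exact mul_mem (Subgroup.mem_sup_left (pow_mem hb _)) (Subgroup.mem_sup_right h5)
  exact frattini_nongenerating hsup


/-- Existence of the dual configuration of eigenvectors. -/
lemma exists_dual [Finite P] (hP : IsPGroup p P) (hp2 : p ≠ 2) (I : Subgroup (MulAut P))
    (hI : IsElementaryAbelian 2 I) (hI8 : Nat.card ↥I = 8) :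
    ∃ t₁ ∈ I, ∃ t₂ ∈ I, ∃ t₃ ∈ I, ∃ w₁ w₂ w₃ : P ⧸ frattini P, w₁ ≠ 1 ∧ w₂ ≠ 1 ∧ w₃ ≠ 1 ∧
      (fratAut P t₁ w₁ = w₁⁻¹ ∧ fratAut P t₁ w₂ = w₂ ∧ fratAut P t₁ w₃ = w₃) ∧
      (fratAut P t₂ w₁ = w₁ ∧ fratAut P t₂ w₂ = w₂⁻¹ ∧ fratAut P t₂ w₃ = w₃) ∧
      (fratAut P t₃ w₁ = w₁ ∧ fratAut P t₃ w₂ = w₂ ∧ fratAut P t₃ w₃ = w₃⁻¹) := by
  classical
  have hVc := frat_comm hP (P := P)
  have hV2 := frat_two hP hp2 (P := P)
  have hTT : ∀ T ∈ I, T * T = 1 := fun T hT => by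
    rw [← pow_two]; exact hI.2 T hT
  have hIc : ∀ S ∈ I, ∀ S' ∈ I, S * S' = S' * S := fun S hS S' hS' =>
    congrArg Subtype.val (hI.1.is_comm.comm ⟨S, hS⟩ ⟨S', hS'⟩)
  have hne_inv : ∀ w : P ⧸ frattini P, w ≠ 1 → w ≠ w⁻¹ := by
    intro w hw h
    apply hw
    apply hV2
    calc w * w = w * w⁻¹ := by rw [← h]
      _ = 1 := mul_inv_cancel w
  -- eigenvectors
  have heig : ∀ T ∈ I, T ≠ 1 → ∃ w : P ⧸ frattini P, w ≠ 1 ∧ fratAut P T w = w⁻¹ ∧
      ∀ S ∈ I, fratAut P S w = w ∨ fratAut P S w = w⁻¹ := by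
    intro T hT hT1
    have hbar : fratAut P T ≠ 1 := by
      intro h
      apply hT1
      refine BurnsideAut.aut_eq_one_of_trivial_on_frattini hP Nat.prime_two hp2.symm T
        (by rw [pow_two]; exact hTT T hT) fun q => ?_
      have h1 : fratAut P T (QuotientGroup.mk q) = QuotientGroup.mk q := by rw [h]; rfl
      rw [fratAut_mk] at h1
      have := (QuotientGroup.eq_iff_div_mem).1 h1
      rwa [div_eq_mul_inv] at this
    obtain ⟨u, hu⟩ : ∃ u, fratAut P T u ≠ u := by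
      by_contra hcon
      push Not at hcon
      apply hbar
      ext u
      exact hcon u
    have hw₀ : u * (fratAut P T u)⁻¹ ≠ 1 := fun h => hu (mul_inv_eq_one.1 h).symm
    have hTw₀ : fratAut P T (u * (fratAut P T u)⁻¹) = (u * (fratAut P T u)⁻¹)⁻¹ := by
      have h2 : fratAut P T (fratAut P T u) = u := by
        rw [← bar_mul, hTT T hT, map_one]; rfl
      rw [map_mul, map_inv, h2, mul_inv_rev, inv_inv, hVc]
    let s : Finset (MulAut (P ⧸ frattini P)) := (Set.toFinite (I : Set (MulAut P))).toFinset.image (fratAut P)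
    have hs : ∀ S ∈ s, ∃ S₀ ∈ I, S = fratAut P S₀ := by
      intro S hS
      obtain ⟨S₀, hS₀, rfl⟩ := Finset.mem_image.1 hS
      exact ⟨S₀, by simpa using hS₀, rfl⟩
    obtain ⟨w, hw1, hTw, hw⟩ := eigen hVc hV2 (fratAut P T) s
      (fun S hS => by
        obtain ⟨S₀, hS₀, rfl⟩ := hs S hS
        rw [← map_mul, hTT S₀ hS₀, map_one])
      (fun S hS S' hS' => by
        obtain ⟨S₀, hS₀, rfl⟩ := hs S hS
        obtain ⟨S₁, hS₁, rfl⟩ := hs S' hS'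
        rw [← map_mul, ← map_mul, hIc S₀ hS₀ S₁ hS₁])
      (fun S hS => by
        obtain ⟨S₀, hS₀, rfl⟩ := hs S hS
        rw [← map_mul, ← map_mul, hIc S₀ hS₀ T hT])
      _ hw₀ hTw₀
    refine ⟨w, hw1, hTw, fun S hS => hw _ (Finset.mem_image.2 ⟨S, by simpa using hS, rfl⟩)⟩
  -- pigeonhole
  have hpig : ∀ w₁ w₂ : P ⧸ frattini P, (∀ S ∈ I, fratAut P S w₁ = w₁ ∨ fratAut P S w₁ = w₁⁻¹) →
      (∀ S ∈ I, fratAut P S w₂ = w₂ ∨ fratAut P S w₂ = w₂⁻¹) →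
      ∃ T ∈ I, T ≠ 1 ∧ fratAut P T w₁ = w₁ ∧ fratAut P T w₂ = w₂ := by
    intro w₁ w₂ h₁ h₂
    have : Fintype ↥I := Fintype.ofFinite _
    let f : ↥I → Bool × Bool := fun S =>
      (decide (fratAut P (S : MulAut P) w₁ = w₁), decide (fratAut P (S : MulAut P) w₂ = w₂))
    have hcard : Fintype.card (Bool × Bool) < Fintype.card ↥I := by
      rw [← Nat.card_eq_fintype_card (α := ↥I), hI8]
      decide
    obtain ⟨S, S', hne, he⟩ := Fintype.exists_ne_map_eq_of_card_lt f hcard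
    have he1 : fratAut P (S : MulAut P) w₁ = w₁ ↔ fratAut P (S' : MulAut P) w₁ = w₁ := by
      have := congrArg Prod.fst he
      simpa [f] using this
    have he2 : fratAut P (S : MulAut P) w₂ = w₂ ↔ fratAut P (S' : MulAut P) w₂ = w₂ := by
      have := congrArg Prod.snd he
      simpa [f] using this
    have hgood : ∀ w : P ⧸ frattini P, (∀ S ∈ I, fratAut P S w = w ∨ fratAut P S w = w⁻¹) →
        (fratAut P (S : MulAut P) w = w ↔ fratAut P (S' : MulAut P) w = w) →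
        fratAut P ((S : MulAut P) * S') w = w := by
      intro w hw hiff
      rw [bar_mul]
      rcases hw S S.2 with h | h
      · rw [hiff.1 h, h]
      · rcases hw S' S'.2 with h' | h'
        · rw [h', hiff.2 h']
        · rw [h', map_inv, h, inv_inv]
    refine ⟨(S : MulAut P) * S', mul_mem S.2 S'.2, ?_, hgood w₁ h₁ he1, hgood w₂ h₂ he2⟩
    intro h
    apply hne
    apply Subtype.ext
    have h3 : (S : MulAut P) * S' = S * S := by rw [h, hTT S S.2]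
    exact (mul_left_cancel h3).symm
  -- the chain
  obtain ⟨T₁, hT₁, hT₁1⟩ : ∃ T ∈ I, T ≠ 1 := by
    rcases Subgroup.bot_or_exists_ne_one I with h | h
    · rw [h] at hI8
      simp at hI8
    · exact h
  obtain ⟨w₁, hw₁, h11, he₁⟩ := heig T₁ hT₁ hT₁1
  obtain ⟨T₂, hT₂, hT₂1, h21, -⟩ := hpig w₁ w₁ he₁ he₁
  obtain ⟨w₂, hw₂, h22, he₂⟩ := heig T₂ hT₂ hT₂1
  obtain ⟨T₃, hT₃, hT₃1, h31, h32⟩ := hpig w₁ w₂ he₁ he₂
  obtain ⟨w₃, hw₃, h33, he₃⟩ := heig T₃ hT₃ hT₃1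
  -- adjust `T₂`
  obtain ⟨t₂, ht₂, a1, a2, a3⟩ : ∃ t₂ ∈ I, fratAut P t₂ w₁ = w₁ ∧ fratAut P t₂ w₂ = w₂⁻¹ ∧
      fratAut P t₂ w₃ = w₃ := by
    rcases he₃ T₂ hT₂ with h | h
    · exact ⟨T₂, hT₂, h21, h22, h⟩
    · refine ⟨T₂ * T₃, mul_mem hT₂ hT₃, ?_, ?_, ?_⟩
      · rw [bar_mul, h31, h21]
      · rw [bar_mul, h32, h22]
      · rw [bar_mul, h33, map_inv, h, inv_inv]
  -- adjust `T₁`
  obtain ⟨t₁', ht₁', b1, b2⟩ : ∃ t₁ ∈ I, fratAut P t₁ w₁ = w₁⁻¹ ∧ fratAut P t₁ w₂ = w₂ := by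
    rcases he₂ T₁ hT₁ with h | h
    · exact ⟨T₁, hT₁, h11, h⟩
    · refine ⟨T₁ * t₂, mul_mem hT₁ ht₂, ?_, ?_⟩
      · rw [bar_mul, a1, h11]
      · rw [bar_mul, a2, map_inv, h, inv_inv]
  obtain ⟨t₁, ht₁, c1, c2, c3⟩ : ∃ t₁ ∈ I, fratAut P t₁ w₁ = w₁⁻¹ ∧ fratAut P t₁ w₂ = w₂ ∧
      fratAut P t₁ w₃ = w₃ := by
    rcases he₃ t₁' ht₁' with h | h
    · exact ⟨t₁', ht₁', b1, b2, h⟩
    · refine ⟨t₁' * T₃, mul_mem ht₁' hT₃, ?_, ?_, ?_⟩
      · rw [bar_mul, h31, b1]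
      · rw [bar_mul, h32, b2]
      · rw [bar_mul, h33, map_inv, h, inv_inv]
  exact ⟨t₁, ht₁, t₂, ht₂, T₃, hT₃, w₁, w₂, w₃, hw₁, hw₂, hw₃, ⟨c1, c2, c3⟩, ⟨a1, a2, a3⟩, ⟨h31, h32, h33⟩⟩

lemma aut_ext (a b c : P) (hgen : Subgroup.closure {a, b, c} = ⊤) (S T : MulAut P) (ha : S a = T a)
    (hb : S b = T b) (hc : S c = T c) : S = T := by
  ext x
  have hx : x ∈ Subgroup.closure ({a, b, c} : Set P) := by rw [hgen]; trivial
  induction hx using Subgroup.closure_induction with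
  | mem y hy =>
    simp only [Set.mem_insert_iff, Set.mem_singleton_iff] at hy
    rcases hy with h | h | h <;> rw [h]
    · exact ha
    · exact hb
    · exact hc
  | one => simp
  | mul u v _ _ hu hv => rw [map_mul, map_mul, hu, hv]
  | inv u _ hu => rw [map_inv, map_inv, hu]

lemma inv_of_gens (hab : ∀ u v : P, u * v = v * u) (a b c : P) (hgen : Subgroup.closure {a, b, c} = ⊤)
    (S : MulAut P) (ha : S a = a⁻¹) (hb : S b = b⁻¹) (hc : S c = c⁻¹) (x : P) : S x = x⁻¹ := by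
  have hx : x ∈ Subgroup.closure ({a, b, c} : Set P) := by rw [hgen]; trivial
  induction hx using Subgroup.closure_induction with
  | mem y hy =>
    simp only [Set.mem_insert_iff, Set.mem_singleton_iff] at hy
    rcases hy with h | h | h <;> rw [h]
    · exact ha
    · exact hb
    · exact hc
  | one => simp
  | mul u v _ _ hu hv => rw [map_mul, hu, hv, mul_inv_rev, hab]
  | inv u _ hu => rw [map_inv, hu]

lemma main_thm [Finite P] (hP : IsPGroup p P) (hp2 : p ≠ 2)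
    (I : Subgroup (MulAut P)) (hI : Cfsg.IsElementaryAbelian 2 I) (hI8 : Nat.card ↥I = 8)
    (I₀ : Subgroup (MulAut P)) (hI₀ : I₀ < I)
    (hdisj : ∀ T ∈ I₀, T ≠ 1 → ∃ g : P, ∀ x : P, (T x = x ↔ x ∈ Subgroup.zpowers g))
    (hprod : ∀ T ∈ I, ∀ T' ∈ I, T ≠ 1 → T' ≠ 1 → (¬ ∃ g : P, ∀ x : P, (T x = x ↔ x ∈ Subgroup.zpowers g)) →
      (¬ ∃ g : P, ∀ x : P, (T' x = x ↔ x ∈ Subgroup.zpowers g)) → T * T' ∈ I₀) :
    IsMulCommutative P ∧ (∃ a b c : P, Subgroup.closure {a, b, c} = ⊤) ∧ (¬ ∃ a b : P, Subgroup.closure {a, b} = ⊤) ∧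
      Nat.card {T : MulAut P // T ∈ I ∧ T ≠ 1 ∧ ¬ ∃ g : P, ∀ x : P, (T x = x ↔ x ∈ Subgroup.zpowers g)} = 3 ∧
      Subgroup.closure {T : MulAut P | T ∈ I ∧ T ≠ 1 ∧ ¬ ∃ g : P, ∀ x : P, (T x = x ↔ x ∈ Subgroup.zpowers g)} = I ∧
      (I₀ : Set (MulAut P)) = {S : MulAut P | ∃ T T' : MulAut P, T ∈ I ∧ T' ∈ I ∧ T ≠ 1 ∧ T' ≠ 1 ∧
        (¬ ∃ g : P, ∀ x : P, (T x = x ↔ x ∈ Subgroup.zpowers g)) ∧ (¬ ∃ g : P, ∀ x : P, (T' x = x ↔ x ∈ Subgroup.zpowers g)) ∧ S = T * T'} := by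
  classical
  have hp : p.Prime := hpf.out
  have hTT : ∀ T ∈ I, T * T = 1 := fun T hT => by rw [← pow_two]; exact hI.2 T hT
  have hIc : ∀ S ∈ I, ∀ S' ∈ I, S * S' = S' * S := fun S hS S' hS' =>
    congrArg Subtype.val (hI.1.is_comm.comm ⟨S, hS⟩ ⟨S', hS'⟩)
  obtain ⟨t₁, ht₁, t₂, ht₂, t₃, ht₃, w₁, w₂, w₃, hw₁, hw₂, hw₃, ⟨a11, a12, a13⟩, ⟨a21, a22, a23⟩,
    ⟨a31, a32, a33⟩⟩ := exists_dual hP hp2 I hI hI8
  have hV2 := frat_two hP hp2 (P := P)
  have hne_inv : ∀ w : P ⧸ frattini P, w ≠ 1 → w ≠ w⁻¹ := by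
    intro w hw h
    apply hw
    apply hV2
    calc w * w = w * w⁻¹ := by rw [← h]
      _ = 1 := mul_inv_cancel w
  have hnot_one : ∀ (T : MulAut P) (w : P ⧸ frattini P), w ≠ 1 → fratAut P T w = w⁻¹ → T ≠ 1 := by
    rintro T w hw h rfl
    rw [map_one] at h
    exact hne_inv w hw h
  have ht₁1 := hnot_one t₁ w₁ hw₁ a11
  have ht₂1 := hnot_one t₂ w₂ hw₂ a22
  have ht₃1 := hnot_one t₃ w₃ hw₃ a33
  have Br₁ := broad_of hP hp2 t₁ t₂ (hTT _ ht₁) w₂ w₃ hw₃ hw₂ a12 a13 a22 a23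
  have Br₂ := broad_of hP hp2 t₂ t₁ (hTT _ ht₂) w₁ w₃ hw₃ hw₁ a21 a23 a11 a13
  have Br₃ := broad_of hP hp2 t₃ t₁ (hTT _ ht₃) w₁ w₂ hw₂ hw₁ a31 a32 a11 a12
  have hq₁ : t₂ * t₃ ∈ I₀ := hprod _ ht₂ _ ht₃ ht₂1 ht₃1 Br₂ Br₃
  have hq₂ : t₁ * t₃ ∈ I₀ := hprod _ ht₁ _ ht₃ ht₁1 ht₃1 Br₁ Br₃
  have hq₃ : t₁ * t₂ ∈ I₀ := hprod _ ht₁ _ ht₂ ht₁1 ht₂1 Br₁ Br₂
  have hq₁1 : t₂ * t₃ ≠ 1 := hnot_one _ w₂ hw₂ (by rw [bar_mul, a32, a22])
  have hq₂1 : t₁ * t₃ ≠ 1 := hnot_one _ w₁ hw₁ (by rw [bar_mul, a31, a11])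
  have hq₃1 : t₁ * t₂ ≠ 1 := hnot_one _ w₁ hw₁ (by rw [bar_mul, a21, a11])
  obtain ⟨g₁, hg₁⟩ := hdisj _ hq₁ hq₁1
  obtain ⟨g₂, hg₂⟩ := hdisj _ hq₂ hq₂1
  obtain ⟨g₃, hg₃⟩ := hdisj _ hq₃ hq₃1
  have hI₀I := hI₀.le
  have sq₁ := hTT _ (hI₀I hq₁)
  have sq₂ := hTT _ (hI₀I hq₂)
  have sq₃ := hTT _ (hI₀I hq₃)
  obtain ⟨c₁, hcw₁, hc₁⟩ := exists_gen hP hp2 _ sq₁ g₁ hg₁ w₁ hw₁ (by rw [bar_mul, a31, a21])
  obtain ⟨c₂, hcw₂, hc₂⟩ := exists_gen hP hp2 _ sq₂ g₂ hg₂ w₂ hw₂ (by rw [bar_mul, a32, a12])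
  obtain ⟨c₃, hcw₃, hc₃⟩ := exists_gen hP hp2 _ sq₃ g₃ hg₃ w₃ hw₃ (by rw [bar_mul, a23, a13])
  have hs₁ : ∀ T ∈ I, T c₁ = c₁ ∨ T c₁ = c₁⁻¹ := fun T hT =>
    act_sign hP hp2 T _ (hTT T hT) (hIc T hT _ (hI₀I hq₁)) c₁ hc₁
  have hs₂ : ∀ T ∈ I, T c₂ = c₂ ∨ T c₂ = c₂⁻¹ := fun T hT =>
    act_sign hP hp2 T _ (hTT T hT) (hIc T hT _ (hI₀I hq₂)) c₂ hc₂
  have hs₃ : ∀ T ∈ I, T c₃ = c₃ ∨ T c₃ = c₃⁻¹ := fun T hT =>
    act_sign hP hp2 T _ (hTT T hT) (hIc T hT _ (hI₀I hq₃)) c₃ hc₃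
  have t11 : t₁ c₁ = c₁⁻¹ := act_inv hP hp2 t₁ c₁ (hs₁ _ ht₁) w₁ hcw₁ hw₁ a11
  have t12 : t₁ c₂ = c₂ := act_fix hP hp2 t₁ c₂ (hs₂ _ ht₁) w₂ hcw₂ hw₂ a12
  have t13 : t₁ c₃ = c₃ := act_fix hP hp2 t₁ c₃ (hs₃ _ ht₁) w₃ hcw₃ hw₃ a13
  have t21 : t₂ c₁ = c₁ := act_fix hP hp2 t₂ c₁ (hs₁ _ ht₂) w₁ hcw₁ hw₁ a21
  have t22 : t₂ c₂ = c₂⁻¹ := act_inv hP hp2 t₂ c₂ (hs₂ _ ht₂) w₂ hcw₂ hw₂ a22
  have t23 : t₂ c₃ = c₃ := act_fix hP hp2 t₂ c₃ (hs₃ _ ht₂) w₃ hcw₃ hw₃ a23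
  have t31 : t₃ c₁ = c₁ := act_fix hP hp2 t₃ c₁ (hs₁ _ ht₃) w₁ hcw₁ hw₁ a31
  have t32 : t₃ c₂ = c₂ := act_fix hP hp2 t₃ c₂ (hs₂ _ ht₃) w₂ hcw₂ hw₂ a32
  have t33 : t₃ c₃ = c₃⁻¹ := act_inv hP hp2 t₃ c₃ (hs₃ _ ht₃) w₃ hcw₃ hw₃ a33
  have h12 : (t₂ * t₃) * (t₁ * t₃) = t₁ * t₂ := by
    rw [mul_assoc, ← mul_assoc t₃, hIc t₃ ht₃ t₁ ht₁, mul_assoc t₁, hTT t₃ ht₃, mul_one, hIc t₂ ht₂ t₁ ht₁]
  have h13 : (t₂ * t₃) * (t₁ * t₂) = t₁ * t₃ := by
    calc (t₂ * t₃) * (t₁ * t₂) = (t₂ * t₃) * (t₂ * t₁) := by rw [hIc t₁ ht₁ t₂ ht₂]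
      _ = t₂ * (t₃ * t₂) * t₁ := by simp only [mul_assoc]
      _ = t₂ * (t₂ * t₃) * t₁ := by rw [hIc t₃ ht₃ t₂ ht₂]
      _ = (t₂ * t₂) * (t₃ * t₁) := by simp only [mul_assoc]
      _ = t₁ * t₃ := by rw [hTT t₂ ht₂, one_mul, hIc t₃ ht₃ t₁ ht₁]
  have hgen : Subgroup.closure {c₁, c₂, c₃} = ⊤ :=
    gen_top hP hp2 _ _ _ c₁ c₂ c₃ sq₁ sq₂ sq₃ h12 h13 hc₁ hc₂ hc₃
  have hst1 := comm_step hP hp2 c₁ c₂ c₃ t₁ t₂ t₃ (hTT _ ht₁) (hTT _ ht₂) (hIc _ ht₁ _ ht₂)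
    t11 t12 t21 t22 t31 t32 t33 (fun x hx => (hc₃ x).1 hx)
  have hst2 := comm_step hP hp2 c₁ c₃ c₂ t₁ t₃ t₂ (hTT _ ht₁) (hTT _ ht₃) (hIc _ ht₁ _ ht₃)
    t11 t13 t31 t33 t21 t23 t22 (fun x hx => (hc₂ x).1 hx)
  have hst3 := comm_step hP hp2 c₂ c₃ c₁ t₂ t₃ t₁ (hTT _ ht₂) (hTT _ ht₃) (hIc _ ht₂ _ ht₃)
    t22 t23 t32 t33 t12 t13 t11 (fun x hx => (hc₁ x).1 hx)
  have hcomm : commutator P = ⊥ := by
    apply comm_of_eq hP
    apply commutator_le_of_gens _ hgen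
    have hsym : ∀ a b : P, ⁅a, b⁆ ∈ ⁅commutator P, (⊤ : Subgroup P)⁆ → ⁅b, a⁆ ∈ ⁅commutator P, (⊤ : Subgroup P)⁆ :=
      fun a b h => by
        rw [← commutatorElement_inv]; exact inv_mem h
    have hself : ∀ a : P, ⁅a, a⁆ ∈ ⁅commutator P, (⊤ : Subgroup P)⁆ := fun a => by
      rw [commutatorElement_self]; exact one_mem _
    intro a ha b hb
    simp only [Set.mem_insert_iff, Set.mem_singleton_iff] at ha hb
    rcases ha with ha | ha | ha <;> rcases hb with hb | hb | hb <;> rw [ha, hb]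
    · exact hself _
    · exact hst1
    · exact hst2
    · exact hsym _ _ hst1
    · exact hself _
    · exact hst3
    · exact hsym _ _ hst2
    · exact hsym _ _ hst3
    · exact hself _
  have hab : ∀ a b : P, a * b = b * a := fun a b => by
    have h1 : ⁅a, b⁆ ∈ commutator P := Subgroup.commutator_mem_commutator trivial trivial
    rw [hcomm, Subgroup.mem_bot] at h1
    exact commutatorElement_eq_one_iff_mul_comm.1 h1
  have hsinv : ∀ x, (t₁ * t₂ * t₃) x = x⁻¹ := inv_of_gens hab c₁ c₂ c₃ hgen _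
    (by simp only [MulAut.mul_apply, t31, t21, t11])
    (by simp only [MulAut.mul_apply, t32, t22, map_inv, t12])
    (by simp only [MulAut.mul_apply, t33, map_inv, t23, t13])
  have hsnb : ∃ g : P, ∀ x : P, ((t₁ * t₂ * t₃) x = x ↔ x ∈ Subgroup.zpowers g) := by
    refine ⟨1, fun x => ?_⟩
    rw [hsinv, Subgroup.zpowers_one_eq_bot, Subgroup.mem_bot]
    constructor
    · intro h
      apply sq_eq_one hP hp2
      rw [pow_two]
      nth_rewrite 1 [← h]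
      exact inv_mul_cancel x
    · rintro rfl
      simp
  have hclass : ∀ T ∈ I, T = 1 ∨ T = t₁ ∨ T = t₂ ∨ T = t₃ ∨ T = t₂ * t₃ ∨ T = t₁ * t₃ ∨ T = t₁ * t₂ ∨
      T = t₁ * t₂ * t₃ := by
    intro T hT
    have ext' := fun S => aut_ext c₁ c₂ c₃ hgen T S
    rcases hs₁ T hT with h1 | h1 <;> rcases hs₂ T hT with h2 | h2 <;> rcases hs₃ T hT with h3 | h3
    · exact Or.inl (ext' 1 h1 h2 h3)
    · exact Or.inr (Or.inr (Or.inr (Or.inl (ext' t₃ (by rw [h1, t31]) (by rw [h2, t32]) (by rw [h3, t33])))))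
    · refine Or.inr (Or.inr (Or.inl (ext' t₂ (by rw [h1, t21]) (by rw [h2, t22]) (by rw [h3, t23]))))
    · refine Or.inr (Or.inr (Or.inr (Or.inr (Or.inl (ext' _ ?_ ?_ ?_))))) <;>
        simp only [MulAut.mul_apply, h1, h2, h3, t31, t21, t32, t22, t33, t23, map_inv]
    · exact Or.inr (Or.inl (ext' t₁ (by rw [h1, t11]) (by rw [h2, t12]) (by rw [h3, t13])))
    · refine Or.inr (Or.inr (Or.inr (Or.inr (Or.inr (Or.inl (ext' _ ?_ ?_ ?_)))))) <;>
        simp only [MulAut.mul_apply, h1, h2, h3, t31, t11, t32, t12, t33, t13, map_inv]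
    · refine Or.inr (Or.inr (Or.inr (Or.inr (Or.inr (Or.inr (Or.inl (ext' _ ?_ ?_ ?_))))))) <;>
        simp only [MulAut.mul_apply, h1, h2, h3, t21, t11, t22, t12, t23, t13, map_inv]
    · refine Or.inr (Or.inr (Or.inr (Or.inr (Or.inr (Or.inr (Or.inr (ext' _ ?_ ?_ ?_))))))) <;>
        simp only [MulAut.mul_apply, h1, h2, h3, t31, t21, t11, t32, t22, t12, t33, t23, t13, map_inv]
  have hBr : ∀ T, (T ∈ I ∧ T ≠ 1 ∧ ¬ ∃ g : P, ∀ x : P, (T x = x ↔ x ∈ Subgroup.zpowers g)) ↔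
      (T = t₁ ∨ T = t₂ ∨ T = t₃) := by
    intro T
    constructor
    · rintro ⟨hT, hT1, hTb⟩
      rcases hclass T hT with h | h | h | h | h | h | h | h
      · exact absurd h hT1
      · exact Or.inl h
      · exact Or.inr (Or.inl h)
      · exact Or.inr (Or.inr h)
      · exact absurd ⟨g₁, by rw [h]; exact hg₁⟩ hTb
      · exact absurd ⟨g₂, by rw [h]; exact hg₂⟩ hTb
      · exact absurd ⟨g₃, by rw [h]; exact hg₃⟩ hTb
      · exact absurd (by rw [h]; exact hsnb) hTb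
    · rintro (h | h | h) <;> rw [h]
      · exact ⟨ht₁, ht₁1, Br₁⟩
      · exact ⟨ht₂, ht₂1, Br₂⟩
      · exact ⟨ht₃, ht₃1, Br₃⟩
  have hcinv₁ : c₁ ≠ c₁⁻¹ := fun h => hne_inv w₁ hw₁ (by rw [← hcw₁, ← QuotientGroup.mk_inv, ← h])
  have hcinv₂ : c₂ ≠ c₂⁻¹ := fun h => hne_inv w₂ hw₂ (by rw [← hcw₂, ← QuotientGroup.mk_inv, ← h])
  have hcinv₃ : c₃ ≠ c₃⁻¹ := fun h => hne_inv w₃ hw₃ (by rw [← hcw₃, ← QuotientGroup.mk_inv, ← h])
  have ht12 : t₁ ≠ t₂ := fun h => hcinv₁ (by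
    have := congrArg (fun S : MulAut P => S c₁) h
    simp only [t11, t21] at this
    exact this.symm)
  have ht13 : t₁ ≠ t₃ := fun h => hcinv₁ (by
    have := congrArg (fun S : MulAut P => S c₁) h
    simp only [t11, t31] at this
    exact this.symm)
  have ht23 : t₂ ≠ t₃ := fun h => hcinv₂ (by
    have := congrArg (fun S : MulAut P => S c₂) h
    simp only [t22, t32] at this
    exact this.symm)
  have hcard : Nat.card {T : MulAut P // T ∈ I ∧ T ≠ 1 ∧ ¬ ∃ g : P, ∀ x : P, (T x = x ↔ x ∈ Subgroup.zpowers g)} = 3 := by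
    rw [Nat.card_congr (Equiv.subtypeEquivRight hBr)]
    change Nat.card ↥({t₁, t₂, t₃} : Set (MulAut P)) = 3
    rw [Nat.card_coe_set_eq, Set.ncard_eq_three]
    exact ⟨t₁, t₂, t₃, ht12, ht13, ht23, rfl⟩
  have hclos : Subgroup.closure {T : MulAut P | T ∈ I ∧ T ≠ 1 ∧ ¬ ∃ g : P, ∀ x : P, (T x = x ↔ x ∈ Subgroup.zpowers g)} = I := by
    apply le_antisymm
    · rw [Subgroup.closure_le]
      rintro T ⟨hT, -, -⟩
      exact hT
    · intro T hT
      have hm : ∀ S, (S = t₁ ∨ S = t₂ ∨ S = t₃) → S ∈ Subgroup.closure {T : MulAut P | T ∈ I ∧ T ≠ 1 ∧ ¬ ∃ g : P, ∀ x : P, (T x = x ↔ x ∈ Subgroup.zpowers g)} :=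
        fun S hS => Subgroup.subset_closure ((hBr S).2 hS)
      have m₁ := hm t₁ (Or.inl rfl)
      have m₂ := hm t₂ (Or.inr (Or.inl rfl))
      have m₃ := hm t₃ (Or.inr (Or.inr rfl))
      rcases hclass T hT with h | h | h | h | h | h | h | h <;> rw [h]
      · exact one_mem _
      · exact m₁
      · exact m₂
      · exact m₃
      · exact mul_mem m₂ m₃
      · exact mul_mem m₁ m₃
      · exact mul_mem m₁ m₂
      · exact mul_mem (mul_mem m₁ m₂) m₃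
  have hprodset : (I₀ : Set (MulAut P)) = {S : MulAut P | ∃ T T' : MulAut P, T ∈ I ∧ T' ∈ I ∧ T ≠ 1 ∧ T' ≠ 1 ∧
        (¬ ∃ g : P, ∀ x : P, (T x = x ↔ x ∈ Subgroup.zpowers g)) ∧ (¬ ∃ g : P, ∀ x : P, (T' x = x ↔ x ∈ Subgroup.zpowers g)) ∧ S = T * T'} := by
    ext S
    constructor
    · intro hS
      have hS' : S ∈ I₀ := hS
      have hSI := hI₀I hS'
      rcases hclass S hSI with h | h | h | h | h | h | h | h
      · exact ⟨t₁, t₁, ht₁, ht₁, ht₁1, ht₁1, Br₁, Br₁, by rw [h, hTT t₁ ht₁]⟩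
      · exact absurd (hdisj t₁ (h ▸ hS') ht₁1) Br₁
      · exact absurd (hdisj t₂ (h ▸ hS') ht₂1) Br₂
      · exact absurd (hdisj t₃ (h ▸ hS') ht₃1) Br₃
      · exact ⟨t₂, t₃, ht₂, ht₃, ht₂1, ht₃1, Br₂, Br₃, h⟩
      · exact ⟨t₁, t₃, ht₁, ht₃, ht₁1, ht₃1, Br₁, Br₃, h⟩
      · exact ⟨t₁, t₂, ht₁, ht₂, ht₁1, ht₂1, Br₁, Br₂, h⟩
      · exfalso
        have h₃ : t₃ ∈ I₀ := by
          have e : t₃ = (t₁ * t₂ * t₃) * (t₁ * t₂) := by
            rw [mul_assoc (t₁ * t₂), hIc t₃ ht₃ _ (hI₀I hq₃), ← mul_assoc, sq₃, one_mul]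
          rw [e]
          exact mul_mem (h ▸ hS') hq₃
        exact Br₃ (hdisj t₃ h₃ ht₃1)
    · rintro ⟨T, T', hT, hT', hT1, hT'1, hb, hb', rfl⟩
      exact hprod T hT T' hT' hT1 hT'1 hb hb'
  have hnot2 : ¬ ∃ a b : P, Subgroup.closure {a, b} = ⊤ := by
    rintro ⟨a, b, hab2⟩
    obtain ⟨n, hn⟩ : ∃ n, (frattini P).index = p ^ n := by
      obtain ⟨k, hk⟩ := IsPGroup.iff_card.1 hP
      have hd : (frattini P).index ∣ p ^ k := hk ▸ Subgroup.index_dvd_card (frattini P)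
      obtain ⟨n, _, hn⟩ := (Nat.dvd_prime_pow hp).1 hd
      exact ⟨n, hn⟩
    obtain ⟨hb1, hb2⟩ := Frat.burnside_basis hP hn
    have hn2 : n ≤ 2 := by
      have h := hb2 {a, b} (by simpa using hab2)
      exact h.trans Finset.card_le_two
    obtain ⟨T, hTS, hTn, hTtop⟩ := hb1 {c₁, c₂, c₃} (by simpa using hgen)
    have hcne12 : c₁ ≠ c₂ := fun h => hcinv₁ (by
      have h' : t₁ c₁ = t₁ c₂ := by rw [h]
      rw [t11, t12] at h'
      exact h.trans h'.symm)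
    have hcne13 : c₁ ≠ c₃ := fun h => hcinv₁ (by
      have h' : t₁ c₁ = t₁ c₃ := by rw [h]
      rw [t11, t13] at h'
      exact h.trans h'.symm)
    have hcne23 : c₂ ≠ c₃ := fun h => hcinv₂ (by
      have h' : t₂ c₂ = t₂ c₃ := by rw [h]
      rw [t22, t23] at h'
      exact h.trans h'.symm)
    have hmiss : c₁ ∉ T ∨ c₂ ∉ T ∨ c₃ ∉ T := by
      by_contra hcon
      push Not at hcon
      obtain ⟨h1, h2, h3⟩ := hcon
      have hsub : ({c₁, c₂, c₃} : Finset P) ⊆ T := by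
        intro x hx
        simp only [Finset.mem_insert, Finset.mem_singleton] at hx
        rcases hx with hx | hx | hx <;> rw [hx] <;> assumption
      have h4 := Finset.card_le_card hsub
      rw [Finset.card_eq_three.2 ⟨c₁, c₂, c₃, hcne12, hcne13, hcne23, rfl⟩] at h4
      omega
    have hfixall : ∀ (t : MulAut P), (∀ x ∈ T, t x = x) → t = 1 := by
      intro t ht
      ext x
      have hx : x ∈ Subgroup.closure (T : Set P) := by rw [hTtop]; trivial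
      induction hx using Subgroup.closure_induction with
      | mem y hy => exact ht y hy
      | one => simp
      | mul u v _ _ hu hv => rw [map_mul, hu, hv]; rfl
      | inv u _ hu => rw [map_inv, hu]; rfl
    have hcases : ∀ x ∈ T, x = c₁ ∨ x = c₂ ∨ x = c₃ := by
      intro x hx
      have h := hTS hx
      simpa only [Finset.mem_insert, Finset.mem_singleton] using h
    rcases hmiss with h | h | h
    · apply ht₁1
      apply hfixall
      intro x hx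
      rcases hcases x hx with e | e | e
      · exact absurd (e ▸ hx) h
      · rw [e, t12]
      · rw [e, t13]
    · apply ht₂1
      apply hfixall
      intro x hx
      rcases hcases x hx with e | e | e
      · rw [e, t21]
      · exact absurd (e ▸ hx) h
      · rw [e, t23]
    · apply ht₃1
      apply hfixall
      intro x hx
      rcases hcases x hx with e | e | e
      · rw [e, t31]
      · rw [e, t32]
      · exact absurd (e ▸ hx) h
  exact ⟨⟨⟨hab⟩⟩, ⟨c₁, c₂, c₃, hgen⟩, hnot2, hcard, hclos, hprodset⟩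

end generic

theorem result.{u} {P : Type u} [Group P] [Finite P] (p : ℕ) (hp : p.Prime) (hp2 : p ≠ 2) (hP : IsPGroup p P)
    (I : Subgroup (MulAut P)) (hI : Cfsg.IsElementaryAbelian 2 I) (hI8 : Nat.card ↥I = 8)
    (I₀ : Subgroup (MulAut P)) (hI₀ : I₀ < I)
    (hdisj : ∀ T ∈ I₀, T ≠ 1 → ∃ g : P, ∀ x : P, (T x = x ↔ x ∈ Subgroup.zpowers g))
    (hprod : ∀ T ∈ I, ∀ T' ∈ I, T ≠ 1 → T' ≠ 1 → (¬ ∃ g : P, ∀ x : P, (T x = x ↔ x ∈ Subgroup.zpowers g)) →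
      (¬ ∃ g : P, ∀ x : P, (T' x = x ↔ x ∈ Subgroup.zpowers g)) → T * T' ∈ I₀) :
    IsMulCommutative P ∧ (∃ a b c : P, Subgroup.closure {a, b, c} = ⊤) ∧ (¬ ∃ a b : P, Subgroup.closure {a, b} = ⊤) ∧
      Nat.card {T : MulAut P // T ∈ I ∧ T ≠ 1 ∧ ¬ ∃ g : P, ∀ x : P, (T x = x ↔ x ∈ Subgroup.zpowers g)} = 3 ∧
      Subgroup.closure {T : MulAut P | T ∈ I ∧ T ≠ 1 ∧ ¬ ∃ g : P, ∀ x : P, (T x = x ↔ x ∈ Subgroup.zpowers g)} = I ∧
      (I₀ : Set (MulAut P)) = {S : MulAut P | ∃ T T' : MulAut P, T ∈ I ∧ T' ∈ I ∧ T ≠ 1 ∧ T' ≠ 1 ∧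
        (¬ ∃ g : P, ∀ x : P, (T x = x ↔ x ∈ Subgroup.zpowers g)) ∧ (¬ ∃ g : P, ∀ x : P, (T' x = x ↔ x ∈ Subgroup.zpowers g)) ∧ S = T * T'} := by
  have hpf : Fact p.Prime := ⟨hp⟩
  exact main_thm hP hp2 I hI hI8 I₀ hI₀ hdisj hprod

end Cfsg.Agent.S4412
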