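import Mathlib
import Cfsg.Statements.S4413
import Cfsg.Agent.Lib.Minus32M79

set_option autoImplicit false
open Cfsg

namespace Cfsg.Agent.S4413

open Cfsg.Agent.Lib.Minus32M79 Cfsg.Agent.Lib.ExtraES2

abbrev M := Mod false

def z : M := zz false

def pt (i : Fin 5) : M :=
  match i.val with
  | 0 => ((true, false, false, false, false) : T)
  | 1 => ((false, true, false, false, false) : T)
  | 2 => ((false, false, true, false, false) : T)
  | 3 => ((false, false, false, true, false) : T)
  | _ => ((true, true, true, true, false) : T)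

def lab (y : M) : Fin 5 :=
  match (y : T) with
  | (true, false, false, false, _) => 0
  | (false, true, false, false, _) => 1
  | (false, false, true, false, _) => 2
  | (false, false, false, true, _) => 3
  | (true, true, true, true, _) => 4
  | _ => 0

theorem invol_cases : ∀ y : M, y * y = 1 → y = 1 ∨ y = z ∨ y = pt (lab y) ∨ y = pt (lab y) * z := by
  decide +kernel

theorem lab_pt : ∀ i, lab (pt i) = i := by decide +kernel

theorem lab_mul_z : ∀ y, lab (y * z) = lab y := by decide +kernel

theorem pt_props : ∀ i, pt i * pt i = 1 ∧ pt i ≠ 1 ∧ pt i ≠ z := by decide +kernel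

theorem lab_conj : ∀ (g : M) (i : Fin 5), lab (g * pt i * g⁻¹) = i := by decide +kernel

/-- The normal form with prescribed images. -/
def lift (y0 y1 y2 y3 : M) (u : M) : M :=
  (if (u : T).1 then y0 else 1) * (if (u : T).2.1 then y1 else 1) * (if (u : T).2.2.1 then y2 else 1) *
    (if (u : T).2.2.2.1 then y3 else 1) * (if (u : T).2.2.2.2 then z else 1)

theorem nf : ∀ y : M, y = lift (pt 0) (pt 1) (pt 2) (pt 3) y := by decide +kernel

theorem solve : ∀ e0 e1 e2 e3 : Bool, ∃ g : M,
    g * pt 0 * g⁻¹ = pt 0 * (if e0 then z else 1) ∧ g * pt 1 * g⁻¹ = pt 1 * (if e1 then z else 1) ∧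
    g * pt 2 * g⁻¹ = pt 2 * (if e2 then z else 1) ∧ g * pt 3 * g⁻¹ = pt 3 * (if e3 then z else 1) := by
  decide +kernel

theorem map_z (φ : MulAut M) : φ z = z := iso_maps_z (es_mod false) (es_mod false) φ

theorem map_pt (φ : MulAut M) (i : Fin 5) :
    φ (pt i) = pt (lab (φ (pt i))) ∨ φ (pt i) = pt (lab (φ (pt i))) * z := by
  obtain ⟨h1, h2, h3⟩ := pt_props i
  rcases invol_cases (φ (pt i)) (by rw [← map_mul, h1, map_one]) with h | h | h | h
  · exact (h2 (φ.injective (by rw [h, map_one]))).elim
  · exact (h3 (φ.injective (by rw [h, map_z]))).elim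
  · exact Or.inl h
  · exact Or.inr h

def f (φ : MulAut M) (i : Fin 5) : Fin 5 := lab (φ (pt i))

theorem f_mul (φ ψ : MulAut M) (i : Fin 5) : f (φ * ψ) i = f φ (f ψ i) := by
  show lab (φ (ψ (pt i))) = lab (φ (pt (lab (ψ (pt i)))))
  rcases map_pt ψ i with h | h
  · rw [← h]
  · conv_lhs => rw [h]
    rw [map_mul, map_z, lab_mul_z]

theorem f_one (i : Fin 5) : f 1 i = i := lab_pt i

/-- The action of `Aut M` on the five pairs of non-central involutions. -/
def θ : MulAut M →* Equiv.Perm (Fin 5) where
  toFun φ :=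
    { toFun := f φ
      invFun := f φ⁻¹
      left_inv := fun i => by rw [← f_mul, inv_mul_cancel, f_one]
      right_inv := fun i => by rw [← f_mul, mul_inv_cancel, f_one] }
  map_one' := Equiv.ext f_one
  map_mul' φ ψ := Equiv.ext (f_mul φ ψ)

theorem θ_apply (φ : MulAut M) (i : Fin 5) : θ φ i = lab (φ (pt i)) := rfl

theorem hom_ext (α β : MulAut M) (h0 : α (pt 0) = β (pt 0)) (h1 : α (pt 1) = β (pt 1))
    (h2 : α (pt 2) = β (pt 2)) (h3 : α (pt 3) = β (pt 3)) : α = β := by
  ext y
  rw [nf y]
  unfold lift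
  simp only [map_mul]
  congr 1
  · congr 1
    · congr 1
      · congr 1
        · split_ifs <;> simp [h0]
        · split_ifs <;> simp [h1]
      · split_ifs <;> simp [h2]
    · split_ifs <;> simp [h3]
  · split_ifs <;> simp [map_z]

theorem ker_θ : θ.ker = (MulAut.conj : M →* MulAut M).range := by
  apply le_antisymm
  · intro φ hφ
    have hf : ∀ i, lab (φ (pt i)) = i := fun i => by
      have := DFunLike.congr_fun (MonoidHom.mem_ker.1 hφ) i
      simpa [θ_apply] using this
    have key : ∀ i, ∃ e : Bool, φ (pt i) = pt i * (if e then z else 1) := by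
      intro i
      rcases map_pt φ i with h | h <;> rw [hf i] at h
      · exact ⟨false, by simpa using h⟩
      · exact ⟨true, by simpa using h⟩
    obtain ⟨e0, h0⟩ := key 0
    obtain ⟨e1, h1⟩ := key 1
    obtain ⟨e2, h2⟩ := key 2
    obtain ⟨e3, h3⟩ := key 3
    obtain ⟨g, g0, g1, g2, g3⟩ := solve e0 e1 e2 e3
    refine ⟨g, hom_ext _ _ ?_ ?_ ?_ ?_⟩
    · rw [h0, ← g0]; rfl
    · rw [h1, ← g1]; rfl
    · rw [h2, ← g2]; rfl
    · rw [h3, ← g3]; rfl
  · rintro φ ⟨g, rfl⟩
    rw [MonoidHom.mem_ker]
    ext i
    rw [θ_apply]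
    show ((lab (g * pt i * g⁻¹) : Fin 5) : ℕ) = _
    rw [lab_conj]
    rfl

def r : M → M := lift (pt 1) (pt 2) (pt 3) (pt 4)

def w : M → M := lift (pt 1) (pt 0) (pt 2) (pt 3)

theorem r_mul : ∀ u v : M, r (u * v) = r u * r v := by decide +kernel

theorem r_inj : ∀ u v : M, r u = r v → u = v := by decide +kernel

theorem r_lab : ∀ i, lab (r (pt i)) = finRotate 5 i := by decide +kernel

theorem w_mul : ∀ u v : M, w (u * v) = w u * w v := by decide +kernel

theorem w_inj : ∀ u v : M, w u = w v → u = v := by decide +kernel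

theorem w_lab : ∀ i, lab (w (pt i)) = Equiv.swap (0 : Fin 5) (finRotate 5 0) i := by decide +kernel

theorem θ_surj : Function.Surjective θ := by
  rw [← MonoidHom.range_eq_top, eq_top_iff]
  have hcl := Equiv.Perm.closure_cycle_adjacent_swap (isCycle_finRotate (n := 3))
    (support_finRotate (n := 3)) 0
  have hcl' : Subgroup.closure ({finRotate 5, Equiv.swap (0 : Fin 5) (finRotate 5 0)} : Set (Equiv.Perm (Fin 5))) = ⊤ := hcl
  rw [← hcl', Subgroup.closure_le]
  rintro σ (rfl | rfl)
  · refine ⟨MulEquiv.ofBijective (MonoidHom.mk' r r_mul)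
      ⟨fun u v h => r_inj u v h, (Finite.injective_iff_surjective.1 (fun u v h => r_inj u v h))⟩, ?_⟩
    ext i
    rw [θ_apply]
    exact congrArg Fin.val (r_lab i)
  · refine ⟨MulEquiv.ofBijective (MonoidHom.mk' w w_mul)
      ⟨fun u v h => w_inj u v h, (Finite.injective_iff_surjective.1 (fun u v h => w_inj u v h))⟩, ?_⟩
    ext i
    rw [θ_apply]
    exact congrArg Fin.val (w_lab i)

/-- Let P be an extraspecial 2-group of order 32 with no elementary abelian subgroup of order 8 (the central product of a dihedral and a quaternion group of order 8). Then the inner automorphism group of P has order 16 and the outer automorphism group Aut(P)/Inn(P) is isomorphic to the symmetric group of degree 5; in particular Aut(P) has order 1920. -/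
theorem result {P : Type*} [Group P] [Finite P]
    (hex : Cfsg.IsExtraspecial 2 P) (h32 : Nat.card P = 32)
    (hminus : ∀ A : Subgroup P, Cfsg.IsElementaryAbelian 2 A → Nat.card ↥A ≤ 4)
    [(MulAut.conj : P →* MulAut P).range.Normal] :
    Nat.card ↥(MulAut.conj : P →* MulAut P).range = 16 ∧ Nat.card (MulAut P) = 1920 ∧
      Nonempty ((MulAut P ⧸ (MulAut.conj : P →* MulAut P).range) ≃* Equiv.Perm (Fin 5)) := by
  obtain ⟨e⟩ := exists_iso hex h32 hminus
  haveI : Finite (MulAut P) := Finite.of_injective (fun a : MulAut P => (a : P → P))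
    (fun a b h => MulEquiv.ext (congrFun h))
  let Θ : MulAut P →* Equiv.Perm (Fin 5) := θ.comp (MulAut.congr e).toMonoidHom
  have hsurj : Function.Surjective Θ := θ_surj.comp (MulAut.congr e).surjective
  have hker : (MulAut.conj : P →* MulAut P).range = Θ.ker := by
    ext α
    rw [MonoidHom.mem_ker]
    show _ ↔ θ (MulAut.congr e α) = 1
    rw [← MonoidHom.mem_ker, ker_θ]
    constructor
    · rintro ⟨p, rfl⟩
      refine ⟨e p, ?_⟩
      ext m
      show e p * m * (e p)⁻¹ = e (p * e.symm m * p⁻¹)
      simp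
    · rintro ⟨g, hg⟩
      refine ⟨e.symm g, ?_⟩
      ext p
      have := DFunLike.congr_fun hg (e p)
      have h2 : g * e p * g⁻¹ = e (α p) := by
        have h3 : (MulAut.congr e α) (e p) = e (α p) := by
          show e (α (e.symm (e p))) = e (α p)
          simp
        rw [← h3, ← this]
        rfl
      show e.symm g * p * (e.symm g)⁻¹ = α p
      apply e.injective
      rw [← h2]
      simp
  have hcenter : (MulAut.conj : P →* MulAut P).ker = Subgroup.center P := by
    ext x
    rw [MonoidHom.mem_ker, Subgroup.mem_center_iff]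
    constructor
    · intro h g
      have := DFunLike.congr_fun h g
      have h2 : x * g * x⁻¹ = g := this
      exact (mul_inv_eq_iff_eq_mul.1 h2).symm
    · intro h
      ext g
      show x * g * x⁻¹ = g
      rw [← h g]
      group
  have h16 : Nat.card ↥(MulAut.conj : P →* MulAut P).range = 16 := by
    rw [← Subgroup.index_ker, hcenter]
    have h1 := Subgroup.card_mul_index (Subgroup.center P)
    rw [hex.2, h32] at h1
    omega
  refine ⟨h16, ?_, ⟨(QuotientGroup.quotientMulEquivOfEq hker).trans
    (QuotientGroup.quotientKerEquivOfSurjective Θ hsurj)⟩⟩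
  have h1 := Subgroup.card_mul_index Θ.ker
  rw [Subgroup.index_ker, MonoidHom.range_eq_top.2 hsurj, ← hker, h16] at h1
  rw [← h1]
  simp [Nat.card_eq_fintype_card, Fintype.card_perm, Nat.factorial]

end Cfsg.Agent.S4413
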