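import Mathlib
import Cfsg.Statements.S4414
-- import your own Cfsg.Agent.* helpers here

set_option autoImplicit false
open Cfsg

namespace Cfsg.Agent.S4414

section Helpers

section galois

variable {K : Type*} [Field K] [Finite K] [Algebra (ZMod 2) K]

theorem galois_lemma (H : Subgroup (K ≃ₐ[ZMod 2] K)) (hH : IsPGroup 2 H)
    (hF : Nat.card (IntermediateField.fixedField H) ≤ 4) (τ : K ≃ₐ[ZMod 2] K) (q : ℕ) (hq : Odd q)
    (hτ : τ ^ q = 1) : τ = 1 := by
  have : Fact (Nat.Prime 2) := ⟨Nat.prime_two⟩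
  have : Module.Finite (ZMod 2) K := Module.Finite.of_finite
  have : IsGalois (ZMod 2) K := inferInstance
  have h1 := IntermediateField.finrank_fixedField_eq_card H
  have h2 := Module.finrank_mul_finrank (ZMod 2) (IntermediateField.fixedField H) K
  have h3 := IsGalois.card_aut_eq_finrank (ZMod 2) K
  have h4 : Nat.card (IntermediateField.fixedField H) =
      2 ^ Module.finrank (ZMod 2) (IntermediateField.fixedField H) := by
    have := Module.natCard_eq_pow_finrank (K := ZMod 2) (V := IntermediateField.fixedField H)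
    rwa [Nat.card_zmod] at this
  set f := Module.finrank (ZMod 2) (IntermediateField.fixedField H) with hf
  obtain ⟨k, hk⟩ := (IsPGroup.iff_card.mp hH)
  have hf0 : f ≠ 0 := Module.finrank_pos.ne'
  have hf2 : f = 1 ∨ f = 2 := by
    have : f < 3 := by
      by_contra hcon
      have h5 : 2 ^ 3 ≤ 2 ^ f := Nat.pow_le_pow_right (by norm_num) (by omega)
      omega
    omega
  have hc2 : ∃ m, Nat.card (K ≃ₐ[ZMod 2] K) = 2 ^ m := by
    rw [h3, ← h2, h1, hk]
    rcases hf2 with h | h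
    · exact ⟨k, by rw [h, one_mul]⟩
    · exact ⟨k + 1, by rw [h, pow_succ, mul_comm]⟩
  obtain ⟨m, hm⟩ := hc2
  have h6 : orderOf τ ∣ 2 ^ m := hm ▸ orderOf_dvd_natCard τ
  have h7 : orderOf τ ∣ q := orderOf_dvd_of_pow_eq_one hτ
  have h8 : Nat.Coprime (2 ^ m) q := Nat.Coprime.pow_left m (Nat.coprime_two_left.2 hq)
  have h9 : orderOf τ = 1 := Nat.eq_one_of_dvd_coprimes h8 h6 h7
  exact orderOf_eq_one_iff.mp h9

end galois

section ring

variable {B : Type*} [CommRing B]

/-- Primitive idempotents. -/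
def Prim (e : B) : Prop := e * e = e ∧ e ≠ 0 ∧ ∀ f : B, f * f = f → e * f = 0 ∨ e * f = e

lemma prim_orth {e e' : B} (h : Prim e) (h' : Prim e') (hne : e ≠ e') : e * e' = 0 := by
  rcases h.2.2 e' h'.1 with h1 | h1
  · exact h1
  · rcases h'.2.2 e h.1 with h2 | h2
    · rw [mul_comm]; exact h2
    · exact absurd (h1.symm.trans ((mul_comm e e').trans h2)) hne

variable (N : ℕ) (hN2 : 2 ≤ N) (hN : ∀ z : B, z ^ N = z)

include hN2 hN

lemma pow_mul_self (z : B) : z ^ (N - 1) * z = z := by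
  rw [← pow_succ, show N - 1 + 1 = N by omega, hN]

lemma pow_idem (z : B) : z ^ (N - 1) * z ^ (N - 1) = z ^ (N - 1) := by
  obtain ⟨m, rfl⟩ : ∃ m, N = m + 2 := ⟨N - 2, by omega⟩
  have h1 := pow_mul_self (m + 2) hN2 hN z
  simp only [show m + 2 - 1 = m + 1 by omega] at h1 ⊢
  calc z ^ (m + 1) * z ^ (m + 1) = (z ^ (m + 1) * z) * z ^ m := by ring
    _ = z ^ (m + 1) := by rw [h1]; ring

/-- Every non-zero element meets a primitive idempotent. -/
lemma exists_prim [Finite B] (z : B) (hz : z ≠ 0) : ∃ e : B, Prim e ∧ e * z ≠ 0 := by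
  classical
  have : Fintype B := Fintype.ofFinite B
  set f := z ^ (N - 1) with hf
  have hff : f * f = f := pow_idem N hN2 hN z
  have hfz : f * z = z := pow_mul_self N hN2 hN z
  have hf0 : f ≠ 0 := fun h => hz (by rw [← hfz, h, zero_mul])
  -- minimal idempotent below `f`
  let P : Finset B := Finset.univ.filter (fun g => g * g = g ∧ g ≠ 0 ∧ g * f = g)
  have hP : P.Nonempty := ⟨f, by simp [P, hff, hf0]⟩
  let μ : B → ℕ := fun g => (Finset.univ.filter (fun w : B => w * g = w)).card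
  obtain ⟨e, heP, hmin⟩ := Finset.exists_min_image P μ hP
  simp only [P, Finset.mem_filter, Finset.mem_univ, true_and] at heP
  obtain ⟨hee, he0, hef⟩ := heP
  have hprim : Prim e := by
    refine ⟨hee, he0, fun g hgg => ?_⟩
    by_cases h0 : e * g = 0
    · exact Or.inl h0
    · right
      have hmem : e * g ∈ P := by
        simp only [P, Finset.mem_filter, Finset.mem_univ, true_and]
        refine ⟨?_, h0, ?_⟩
        · calc e * g * (e * g) = (e * e) * (g * g) := by ring
            _ = e * g := by rw [hee, hgg]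
        · calc e * g * f = (e * f) * g := by ring
            _ = e * g := by rw [hef]
      have h1 := hmin _ hmem
      have hsub : (Finset.univ.filter (fun w : B => w * (e * g) = w)) ⊆
          (Finset.univ.filter (fun w : B => w * e = w)) := by
        intro w hw
        simp only [Finset.mem_filter, Finset.mem_univ, true_and] at hw ⊢
        calc w * e = (w * (e * g)) * e := by rw [hw]
          _ = w * (e * e) * g := by ring
          _ = w * (e * g) := by rw [hee, mul_assoc]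
          _ = w := hw
      have heq := Finset.eq_of_subset_of_card_le hsub h1
      have hm : e ∈ (Finset.univ.filter (fun w : B => w * e = w)) :=
        Finset.mem_filter.2 ⟨Finset.mem_univ _, hee⟩
      rw [← heq] at hm
      simp only [Finset.mem_filter, Finset.mem_univ, true_and] at hm
      calc e * g = (e * (e * g)) := by rw [← mul_assoc, hee]
        _ = e := hm
  refine ⟨e, hprim, fun h0 => he0 ?_⟩
  obtain ⟨m, hm⟩ : ∃ m, N - 1 = m + 1 := ⟨N - 2, by omega⟩
  rw [← hef, hf, hm, pow_succ', ← mul_assoc, h0, zero_mul]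

end ring

section field

variable {B : Type*} [CommRing B]

/-- The kernel of multiplication by an idempotent. -/
def Ie (e : B) : Ideal B := Ideal.span {1 - e}

lemma mem_Ie {e : B} (he : e * e = e) (z : B) : z ∈ Ie e ↔ e * z = 0 := by
  unfold Ie
  rw [Ideal.mem_span_singleton']
  constructor
  · rintro ⟨a, rfl⟩
    calc e * (a * (1 - e)) = a * (e - e * e) := by ring
      _ = 0 := by rw [he]; ring
  · intro h
    exact ⟨z, by linear_combination -h⟩

lemma Ie_max (N : ℕ) (hN2 : 2 ≤ N) (hN : ∀ z : B, z ^ N = z) {e : B} (he : Prim e) :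
    (Ie e).IsMaximal := by
  rw [Ideal.isMaximal_iff]
  refine ⟨fun h => he.2.1 ?_, fun J x hJ hx hxJ => ?_⟩
  · have := (mem_Ie he.1 1).1 h
    simpa using this
  · rw [mem_Ie he.1] at hx
    obtain ⟨m, hm⟩ : ∃ m, N - 1 = m + 1 := ⟨N - 2, by omega⟩
    set h := (e * x) ^ (N - 1) with hh
    have hhh : h * h = h := pow_idem N hN2 hN _
    have heh : e * h = h := by
      rw [hh, hm, pow_succ', mul_pow, ← mul_assoc, ← mul_assoc, ← mul_assoc, he.1]
      ring
    have h1 : h ≠ 0 := fun h0 => hx (by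
      have := pow_mul_self N hN2 hN (e * x)
      rw [← hh, h0, zero_mul] at this
      exact this.symm)
    have hhe : h = e := by
      rcases he.2.2 h hhh with h2 | h2
      · exact absurd (heh.symm.trans h2) h1
      · exact heh.symm.trans h2
    have h2 : e ∈ J := by
      rw [← hhe, hh, hm, pow_succ', mul_comm e x, mul_assoc]
      exact J.mul_mem_right _ hxJ
    have h3 : 1 - e ∈ J := hJ (Ideal.subset_span rfl)
    have := J.add_mem h2 h3
    simpa using this

end field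

section core

variable {B : Type*} [CommRing B] [Algebra (ZMod 2) B]
variable {S : Type*} [Group S] (σ : S →* (B ≃ₐ[ZMod 2] B))

lemma σ_mul (g h : S) (z : B) : σ (g * h) z = σ g (σ h z) := by
  rw [map_mul, AlgEquiv.mul_apply]

lemma σ_one (z : B) : σ 1 z = z := by
  rw [map_one, AlgEquiv.one_apply]

lemma σ_inv (g : S) (z : B) : σ g⁻¹ (σ g z) = z := by
  rw [← σ_mul, inv_mul_cancel, σ_one]

lemma σ_inv' (g : S) (z : B) : σ g (σ g⁻¹ z) = z := by
  rw [← σ_mul, mul_inv_cancel, σ_one]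

variable [Finite B] [Finite S]

lemma prim_map (g : S) {e : B} (h : Prim e) : Prim (σ g e) := by
  refine ⟨by rw [← map_mul, h.1], fun h0 => h.2.1 ?_, fun f hf => ?_⟩
  · have := (σ g).injective (h0.trans (map_zero _).symm)
    exact this
  · have h1 : σ g⁻¹ f * σ g⁻¹ f = σ g⁻¹ f := by rw [← map_mul, hf]
    rcases h.2.2 _ h1 with h2 | h2
    · left
      have := congrArg (σ g) h2
      rwa [map_mul, σ_inv', map_zero] at this
    · right
      have := congrArg (σ g) h2
      rwa [map_mul, σ_inv'] at this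

/-- The orbit of an element under a subgroup, as a finset. -/
lemma exists_orbit (T : Subgroup S) (z : B) : ∃ Im : Finset B, ∀ c, c ∈ Im ↔ ∃ t ∈ T, σ t z = c := by
  refine ⟨(Set.toFinite {c | ∃ t ∈ T, σ t z = c}).toFinset, fun c => ?_⟩
  rw [Set.Finite.mem_toFinset]
  rfl

lemma orbit_sum_fixed (T : Subgroup S) (z : B) (Im : Finset B) (hIm : ∀ c, c ∈ Im ↔ ∃ t ∈ T, σ t z = c)
    (t : S) (ht : t ∈ T) : σ t (∑ c ∈ Im, c) = ∑ c ∈ Im, c := by
  rw [map_sum]
  refine Finset.sum_nbij' (fun c => σ t c) (fun c => σ t⁻¹ c) ?_ ?_ ?_ ?_ (fun _ _ => rfl)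
  · intro c hc
    obtain ⟨u, hu, rfl⟩ := (hIm c).1 hc
    exact (hIm _).2 ⟨t * u, T.mul_mem ht hu, σ_mul σ _ _ _⟩
  · intro c hc
    obtain ⟨u, hu, rfl⟩ := (hIm c).1 hc
    exact (hIm _).2 ⟨t⁻¹ * u, T.mul_mem (T.inv_mem ht) hu, σ_mul σ _ _ _⟩
  · intro c _
    exact σ_inv σ t c
  · intro c _
    exact σ_inv' σ t c

/-- No non-trivial fixed idempotent: transitivity on the primitive ones. -/
lemma transitive_of (T : Subgroup S)
    (hid : ∀ f : B, f * f = f → (∀ t ∈ T, σ t f = f) → f = 0 ∨ f = 1) (e₀ e' : B) (h₀ : Prim e₀)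
    (h' : Prim e') : ∃ t ∈ T, σ t e₀ = e' := by
  classical
  obtain ⟨Im, hIm⟩ := exists_orbit σ T e₀
  have hprim : ∀ c ∈ Im, Prim c := fun c hc => by
    obtain ⟨u, -, rfl⟩ := (hIm c).1 hc
    exact prim_map σ u h₀
  have hmem0 : e₀ ∈ Im := (hIm _).2 ⟨1, T.one_mem, σ_one σ _⟩
  set s := ∑ c ∈ Im, c with hs
  have hmul : ∀ c ∈ Im, c * s = c := fun c hc => by
    rw [hs, Finset.mul_sum, Finset.sum_eq_single_of_mem c hc]
    · exact (hprim c hc).1
    · intro d hd hne
      exact prim_orth (hprim c hc) (hprim d hd) hne.symm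
  have hss : s * s = s := by
    conv_lhs => rw [hs, Finset.sum_mul]
    rw [Finset.sum_congr rfl hmul]
  have hfix := orbit_sum_fixed σ T e₀ Im hIm
  have hs0 : s ≠ 0 := fun h0 => h₀.2.1 (by
    have := hmul e₀ hmem0
    rwa [h0, mul_zero, eq_comm] at this)
  rcases hid s hss hfix with h | h
  · exact absurd h hs0
  · have h1 : e' * s = e' := by rw [h, mul_one]
    rw [hs, Finset.mul_sum] at h1
    by_contra hcon
    push Not at hcon
    apply h'.2.1
    rw [← h1]
    apply Finset.sum_eq_zero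
    intro c hc
    apply prim_orth h' (hprim c hc)
    rintro rfl
    obtain ⟨u, hu, hc'⟩ := (hIm _).1 hc
    exact hcon u hu hc'

/-- Lifting `T₁`-fixed elements of the residue field. -/
lemma lift_fixed (T : Subgroup S) {e : B} (he : Prim e) (y₀ : B)
    (hy : ∀ t ∈ T, σ t e = e → e * σ t y₀ = e * y₀) :
    ∃ s : B, (∀ t ∈ T, σ t s = s) ∧ e * s = e * y₀ := by
  classical
  obtain ⟨Im, hIm⟩ := exists_orbit σ T (e * y₀)
  refine ⟨∑ c ∈ Im, c, orbit_sum_fixed σ T _ Im hIm, ?_⟩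
  have hmem : e * y₀ ∈ Im := (hIm _).2 ⟨1, T.one_mem, σ_one σ _⟩
  rw [Finset.mul_sum, Finset.sum_eq_single_of_mem _ hmem]
  · rw [← mul_assoc, he.1]
  · intro c hc hne
    obtain ⟨u, hu, rfl⟩ := (hIm c).1 hc
    rw [map_mul] at hne ⊢
    by_cases h1 : σ u e = e
    · exfalso
      apply hne
      rw [h1, hy u hu h1]
    · rw [← mul_assoc, prim_orth he (prim_map σ u he) (Ne.symm h1), zero_mul]

/-- The stabiliser of an idempotent. -/
def stabE (e : B) : Subgroup S where
  carrier := {g | σ g e = e}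
  mul_mem' := by
    intro a b ha hb
    show σ (a * b) e = e
    rw [σ_mul, hb, ha]
  one_mem' := σ_one σ e
  inv_mem' := by
    intro a ha
    show σ a⁻¹ e = e
    conv_lhs => rw [← (show σ a e = e from ha)]
    exact σ_inv σ a e

lemma Ie_map (e : B) (g : S) (hg : σ g e = e) :
    Ie e = (Ie e).map ((σ g : B ≃ₐ[ZMod 2] B) : B →+* B) := by
  unfold Ie
  rw [Ideal.map_span, Set.image_singleton]
  congr 2
  show _ = σ g (1 - e)
  rw [map_sub, map_one, hg]

/-- The action of the stabiliser on the residue field. -/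
noncomputable def θ (e : B) : stabE σ e →* ((B ⧸ Ie e) ≃ₐ[ZMod 2] (B ⧸ Ie e)) where
  toFun g := Ideal.quotientEquivAlg (Ie e) (Ie e) (σ g.1) (Ie_map σ e g.1 g.2)
  map_one' := by
    ext y
    obtain ⟨z, rfl⟩ := Ideal.Quotient.mk_surjective y
    show Ideal.Quotient.mk _ (σ 1 z) = _
    rw [σ_one]
    rfl
  map_mul' := by
    intro a b
    ext y
    obtain ⟨z, rfl⟩ := Ideal.Quotient.mk_surjective y
    show Ideal.Quotient.mk _ (σ (a.1 * b.1) z) = _
    rw [σ_mul]
    rfl

lemma θ_mk (e : B) (g : stabE σ e) (z : B) :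
    θ σ e g (Ideal.Quotient.mk _ z) = Ideal.Quotient.mk _ (σ g.1 z) := rfl

theorem core_at (N : ℕ) (hN2 : 2 ≤ N) (hN : ∀ z : B, z ^ N = z) {e : B} (he : Prim e)
    (T : Subgroup S) (hT : IsPGroup 2 T)
    (hcard : Nat.card {z : B // ∀ t ∈ T, σ t z = z} ≤ 4) (x : S) (hx : σ x e = e) (n : ℕ)
    (hn : Odd n) (hxn : x ^ n = 1) (z : B) : e * σ x z = e * z := by
  have hmax := Ie_max N hN2 hN he
  letI : Field (B ⧸ Ie e) := Ideal.Quotient.field (Ie e)
  have hfin : Finite (B ⧸ Ie e) := Finite.of_surjective (Ideal.Quotient.mk _) Ideal.Quotient.mk_surjective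
  let H : Subgroup ((B ⧸ Ie e) ≃ₐ[ZMod 2] (B ⧸ Ie e)) :=
    (T.subgroupOf (stabE σ e)).map (θ σ e)
  have hT1 : IsPGroup 2 (T.subgroupOf (stabE σ e)) := fun g => by
    obtain ⟨k, hk⟩ := hT ⟨g.1.1, g.2⟩
    refine ⟨k, Subtype.ext (Subtype.ext ?_)⟩
    have h := congrArg Subtype.val hk
    exact h
  have hH : IsPGroup 2 H := hT1.map _
  have hlift : ∀ y : IntermediateField.fixedField H, ∃ s : {z : B // ∀ t ∈ T, σ t z = z},
      Ideal.Quotient.mk (Ie e) s.1 = y.1 := by
    intro y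
    obtain ⟨y₀, hy₀⟩ := Ideal.Quotient.mk_surjective y.1
    obtain ⟨s, hs1, hs2⟩ := lift_fixed σ T he y₀ (by
      intro t ht hte
      have h1 : θ σ e ⟨t, hte⟩ ∈ H := ⟨⟨t, hte⟩, ht, rfl⟩
      have h2 := (IntermediateField.mem_fixedField_iff H y.1).1 y.2 _ h1
      rw [← hy₀, θ_mk, Ideal.Quotient.eq, mem_Ie he.1] at h2
      simpa [mul_sub, sub_eq_zero] using h2)
    refine ⟨⟨s, hs1⟩, ?_⟩
    rw [← hy₀, Ideal.Quotient.eq, mem_Ie he.1, mul_sub, hs2, sub_self]
  have hF : Nat.card (IntermediateField.fixedField H) ≤ 4 := by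
    choose f hf using hlift
    refine le_trans (Nat.card_le_card_of_injective f ?_) hcard
    intro a b hab
    apply Subtype.ext
    rw [← hf a, ← hf b, hab]
  have hτ : (θ σ e ⟨x, hx⟩) ^ n = 1 := by
    rw [← map_pow]
    have : (⟨x, hx⟩ : stabE σ e) ^ n = 1 := Subtype.ext hxn
    rw [this, map_one]
  have h1 := galois_lemma H hH hF _ n hn hτ
  have h2 : θ σ e ⟨x, hx⟩ (Ideal.Quotient.mk _ z) = Ideal.Quotient.mk _ z := by
    rw [h1]; rfl
  rw [θ_mk, Ideal.Quotient.eq, mem_Ie he.1] at h2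
  simpa [mul_sub, sub_eq_zero] using h2

/-- The conjugation action on primitive idempotents. -/
def primAct : MulAction S {e : B // Prim e} where
  smul g e := ⟨σ g e.1, prim_map σ g e.2⟩
  one_smul e := Subtype.ext (σ_one σ e.1)
  mul_smul g h e := Subtype.ext (σ_mul σ g h e.1)

theorem abstract_core (N : ℕ) (hN2 : 2 ≤ N) (hN : ∀ z : B, z ^ N = z) [Nontrivial B]
    (T Q : Subgroup S) (hT : IsPGroup 2 T) {q : ℕ} [hqq : Fact q.Prime] (hq2 : q ≠ 2) (hQ : IsPGroup q Q)
    (hid : ∀ f : B, f * f = f → (∀ t ∈ T, σ t f = f) → f = 0 ∨ f = 1)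
    (hcard : Nat.card {z : B // ∀ t ∈ T, σ t z = z} ≤ 4) :
    ∃ e : B, Prim e ∧ (∀ x ∈ Q, ∀ z, e * σ x z = e * z) ∧ (∀ e', Prim e' → ∃ t ∈ T, σ t e = e') := by
  letI := primAct σ
  obtain ⟨e₀, he₀, -⟩ := exists_prim N hN2 hN (1 : B) one_ne_zero
  let x₀ : {e : B // Prim e} := ⟨e₀, he₀⟩
  have horb : MulAction.orbit T x₀ = Set.univ := by
    ext e'
    simp only [Set.mem_univ, iff_true]
    obtain ⟨t, ht, hte⟩ := transitive_of σ T hid e₀ e'.1 he₀ e'.2
    exact ⟨⟨t, ht⟩, Subtype.ext hte⟩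
  have hdvd : Nat.card {e : B // Prim e} ∣ Nat.card T := by
    have h1 := MulAction.index_stabilizer T x₀
    rw [horb, Set.ncard_univ] at h1
    rw [← h1]
    exact Subgroup.index_dvd_card _
  obtain ⟨k, hk⟩ := IsPGroup.iff_card.mp hT
  have hq : ¬ q ∣ Nat.card {e : B // Prim e} := by
    intro h
    have h1 := dvd_trans h hdvd
    rw [hk] at h1
    exact hq2 ((Nat.prime_dvd_prime_iff_eq hqq.out Nat.prime_two).1 (hqq.out.dvd_of_dvd_pow h1))
  obtain ⟨e, he⟩ := hQ.nonempty_fixed_point_of_prime_not_dvd_card {e : B // Prim e} hq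
  refine ⟨e.1, e.2, ?_, fun e' h' => transitive_of σ T hid e.1 e' e.2 h'⟩
  intro x hx z
  have h1 : σ x e.1 = e.1 := congrArg Subtype.val (he ⟨x, hx⟩)
  obtain ⟨m, hm⟩ := hQ ⟨x, hx⟩
  have h2 : x ^ (q ^ m) = 1 := congrArg Subtype.val hm
  have h3 : Odd (q ^ m) := (hqq.out.odd_of_ne_two hq2).pow
  exact core_at σ N hN2 hN e.2 T hT hcard x h1 _ h3 h2 z

end core

section eside

variable {S : Type*} [Group S] {E : Type*} [AddCommGroup E] [Module (ZMod 2) E]
  (ρ : Representation (ZMod 2) S E)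

lemma ρ_mul (g h : S) (x : E) : ρ (g * h) x = ρ g (ρ h x) := by
  rw [map_mul, Module.End.mul_apply]

lemma ρ_one (x : E) : ρ 1 x = x := by
  rw [map_one, Module.End.one_apply]

lemma ρ_inv (g : S) (x : E) : ρ g⁻¹ (ρ g x) = x := by
  rw [← ρ_mul, inv_mul_cancel, ρ_one]

lemma ρ_inv' (g : S) (x : E) : ρ g (ρ g⁻¹ x) = x := by
  rw [← ρ_mul, mul_inv_cancel, ρ_one]

lemma fixed_vec [Finite E] (T : Subgroup S) (hT : IsPGroup 2 T) (W : Submodule (ZMod 2) E)
    (hW : ∀ t ∈ T, ∀ w ∈ W, ρ t w ∈ W) (h0 : ∃ w ∈ W, w ≠ 0) :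
    ∃ v ∈ W, v ≠ 0 ∧ ∀ t ∈ T, ρ t v = v := by
  have : Fact (Nat.Prime 2) := ⟨Nat.prime_two⟩
  letI act : MulAction T W :=
    { smul := fun t w => ⟨ρ t w.1, hW t.1 t.2 w.1 w.2⟩
      one_smul := fun w => Subtype.ext (ρ_one ρ w.1)
      mul_smul := fun a b w => Subtype.ext (ρ_mul ρ a.1 b.1 w.1) }
  obtain ⟨w, hw, hw0⟩ := h0
  have hfix0 : (0 : W) ∈ MulAction.fixedPoints T W := fun t =>
    Subtype.ext (map_zero (ρ t.1))
  have hdvd : 2 ∣ Nat.card W := by
    have h1 : addOrderOf (⟨w, hw⟩ : W) = 2 := by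
      apply addOrderOf_eq_prime
      · apply Subtype.ext
        show (2 : ℕ) • w = 0
        have h3 : ((2 : ZMod 2)) • w = 0 := by
          rw [show (2 : ZMod 2) = 0 from rfl, zero_smul]
        rwa [two_smul, ← two_nsmul] at h3
      · intro h
        exact hw0 (congrArg Subtype.val h)
    have h5 := addOrderOf_dvd_natCard (⟨w, hw⟩ : W)
    rwa [h1] at h5
  obtain ⟨b, hb, hne⟩ := hT.exists_fixed_point_of_prime_dvd_card_of_fixed_point W hdvd hfix0
  refine ⟨b.1, b.2, fun h => hne (Subtype.ext h.symm), fun t ht => ?_⟩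
  exact congrArg Subtype.val (hb ⟨t, ht⟩)

/-- Fixed points of `T`. -/
def E0 (T : Subgroup S) : Submodule (ZMod 2) E where
  carrier := {v | ∀ t ∈ T, ρ t v = v}
  add_mem' := by
    intro a b ha hb t ht
    rw [map_add, ha t ht, hb t ht]
  zero_mem' := fun t _ => map_zero (ρ t)
  smul_mem' := by
    intro c a ha t ht
    rw [map_smul, ha t ht]

variable {B : Type*} [CommRing B] [Algebra (ZMod 2) B]
  (ι : B →ₐ[ZMod 2] Module.End (ZMod 2) E) (hι : Function.Injective ι)
  (σ : S →* (B ≃ₐ[ZMod 2] B))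
  (hσ : ∀ g z, ι (σ g z) = ρ g * ι z * ρ g⁻¹)

include hσ in
lemma ρ_ι (g : S) (z : B) (v : E) : ρ g (ι z v) = ι (σ g z) (ρ g v) := by
  rw [hσ]
  simp only [Module.End.mul_apply]
  rw [ρ_inv]

lemma ι_mul (y z : B) (v : E) : ι (y * z) v = ι y (ι z v) := by
  rw [map_mul, Module.End.mul_apply]

include hσ hι in
/-- A non-zero fixed idempotent has a fixed vector in its image. -/
lemma idem_vec [Finite E] (T : Subgroup S) (hT : IsPGroup 2 T) (f : B) (hff : f * f = f) (hf0 : f ≠ 0)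
    (hfix : ∀ t ∈ T, σ t f = f) : ∃ v ∈ E0 ρ T, v ≠ 0 ∧ ι f v = v := by
  have h1 : ι f ≠ 0 := fun h => hf0 (hι (by rw [h, map_zero]))
  obtain ⟨w, hw⟩ : ∃ w, ι f w ≠ 0 := by
    by_contra hcon
    push Not at hcon
    exact h1 (LinearMap.ext hcon)
  obtain ⟨v, ⟨w', rfl⟩, hv0, hvfix⟩ := fixed_vec ρ T hT (LinearMap.range (ι f)) (by
    rintro t ht _ ⟨w', rfl⟩
    refine ⟨ρ t w', ?_⟩
    show ι f (ρ t w') = ρ t (ι f w')
    rw [ρ_ι ρ ι σ hσ, hfix t ht]) ⟨_, ⟨w, rfl⟩, hw⟩
  refine ⟨_, hvfix, hv0, ?_⟩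
  show ι f (ι f w') = ι f w'
  rw [← ι_mul, hff]

include hσ hι in
lemma card_ge [Finite E] (T : Subgroup S) (hT : IsPGroup 2 T) {n : ℕ} (f : Fin n → B)
    (hff : ∀ i, f i * f i = f i) (horth : ∀ i j, i ≠ j → f i * f j = 0) (hf0 : ∀ i, f i ≠ 0)
    (hfix : ∀ i, ∀ t ∈ T, σ t (f i) = f i) : 2 ^ n ≤ Nat.card (E0 ρ T) := by
  classical
  have hv := fun i => idem_vec ρ ι hι σ hσ T hT (f i) (hff i) (hf0 i) (hfix i)
  choose v hvE hv0 hvf using hv
  let Φ : (Fin n → Bool) → E0 ρ T := fun a =>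
    ∑ i, if a i then ⟨v i, hvE i⟩ else 0
  have hΦ : ∀ a j, ι (f j) (Φ a : E) = if a j then v j else 0 := by
    intro a j
    have h1 : (Φ a : E) = ∑ i, if a i then v i else 0 := by
      simp only [Φ]
      rw [AddSubmonoidClass.coe_finset_sum]
      apply Finset.sum_congr rfl
      intro i _
      split_ifs <;> rfl
    rw [h1, map_sum, Finset.sum_eq_single j]
    · split_ifs <;> simp [hvf]
    · intro i _ hij
      split_ifs
      · rw [← hvf i, ← ι_mul, horth j i (Ne.symm hij), map_zero]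
        rfl
      · exact map_zero _
    · simp
  have hinj : Function.Injective Φ := by
    intro a b hab
    funext j
    have h1 := hΦ a j
    rw [hab, hΦ b j] at h1
    have h0 := hv0 j
    cases ha : a j <;> cases hb : b j
    · rfl
    · rw [ha, hb] at h1
      simp only [Bool.false_eq_true, if_false, if_true] at h1
      exact absurd h1 h0
    · rw [ha, hb] at h1
      simp only [Bool.false_eq_true, if_false, if_true] at h1
      exact absurd h1.symm h0
    · rfl
  have := Nat.card_le_card_of_injective Φ hinj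
  simpa using this

variable (A T Q : Subgroup S) (hT : IsPGroup 2 T) {q : ℕ} [hqq : Fact q.Prime] (hq2 : q ≠ 2)
  (hQ : IsPGroup q Q)
  (hA : ∀ a ∈ A, ∃ b : B, ι b = ρ a)
  (hgen : ∀ N : Submodule (ZMod 2) E, (∀ a ∈ A, ∀ m ∈ N, ρ a m ∈ N) → (∀ t ∈ T, ∀ m ∈ N, ρ t m ∈ N) →
    (∀ x ∈ Q, ∀ m ∈ N, ρ x m ∈ N) → N = ⊥ ∨ N = ⊤)

include hι hσ hT hA hgen

/-- Case of a non-trivial fixed idempotent. -/
lemma case_idem [Finite E] [Nontrivial B] (h2B : ∀ z : B, z + z = 0) (hodd : ∀ x ∈ Q, ∃ n : ℕ, Odd n ∧ x ^ n = 1)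
    (hle : Nat.card (E0 ρ T) < 8) (e : B) (hee : e * e = e)
    (hfix : ∀ t ∈ T, σ t e = e) (he0 : e ≠ 0) (he1 : e ≠ 1)
    (hst : ∀ x ∈ Q, ∀ v ∈ E0 ρ T, ρ x v ∈ E0 ρ T) : False := by
  classical
  -- three orthogonal idempotents are impossible
  have h3 : ∀ g₁ g₂ g₃ : B, g₁ * g₁ = g₁ → g₂ * g₂ = g₂ → g₃ * g₃ = g₃ → g₁ * g₂ = 0 → g₁ * g₃ = 0 →
      g₂ * g₃ = 0 → (∀ t ∈ T, σ t g₁ = g₁) → (∀ t ∈ T, σ t g₂ = g₂) → (∀ t ∈ T, σ t g₃ = g₃) →
      g₁ = 0 ∨ g₂ = 0 ∨ g₃ = 0 := by
    intro g₁ g₂ g₃ h1 h2 h3 h12 h13 h23 f1 f2 f3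
    by_contra hcon
    push Not at hcon
    obtain ⟨n1, n2, n3⟩ := hcon
    have := card_ge ρ ι hι σ hσ T hT (n := 3) ![g₁, g₂, g₃]
      (by intro i; fin_cases i <;> simp [h1, h2, h3])
      (by
        intro i j hij
        fin_cases i <;> fin_cases j <;> simp at hij ⊢ <;>
          simp [h12, h13, h23, mul_comm g₂ g₁, mul_comm g₃ g₁, mul_comm g₃ g₂])
      (by intro i; fin_cases i <;> simp [n1, n2, n3])
      (by intro i t ht; fin_cases i <;> simp [f1 t ht, f2 t ht, f3 t ht])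
    omega
  -- faithful on the fixed points
  obtain ⟨v₀, hv₀E, hv₀0, -⟩ := idem_vec ρ ι hι σ hσ T hT e hee he0 hfix
  have hfaith0 : ∀ y : B, (∀ v ∈ E0 ρ T, ι y v = 0) → y = 0 := by
    intro y hy
    let N' : Submodule (ZMod 2) E := Submodule.span (ZMod 2) {m | ∃ b : B, ∃ v ∈ E0 ρ T, m = ι b v}
    have hN'stab : ∀ g : S, (∀ b : B, ∀ v ∈ E0 ρ T, ρ g (ι b v) ∈ N') → ∀ m ∈ N', ρ g m ∈ N' := by
      intro g hg m hm
      induction hm using Submodule.span_induction with
      | mem m hm =>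
        obtain ⟨b, v, hv, rfl⟩ := hm
        exact hg b v hv
      | zero => rw [map_zero]; exact N'.zero_mem
      | add a b _ _ ha hb => rw [map_add]; exact N'.add_mem ha hb
      | smul c a _ ha => rw [map_smul]; exact N'.smul_mem c ha
    have hmem : ∀ (b : B) (v : E), v ∈ E0 ρ T → ι b v ∈ N' := fun b v hv =>
      Submodule.subset_span ⟨b, v, hv, rfl⟩
    have htop : N' = ⊤ := by
      have hdich : N' = ⊥ ∨ N' = ⊤ := by
        apply hgen N'
        · intro a ha
          apply hN'stab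
          intro b v hv
          obtain ⟨c, hc⟩ := hA a ha
          rw [← hc, ← ι_mul]
          exact hmem _ _ hv
        · intro t ht
          apply hN'stab
          intro b v hv
          rw [ρ_ι ρ ι σ hσ]
          exact hmem _ _ (by rw [hv t ht]; exact hv)
        · intro x hx
          apply hN'stab
          intro b v hv
          rw [ρ_ι ρ ι σ hσ]
          exact hmem _ _ (hst x hx v hv)
      rcases hdich with h | h
      · exfalso
        apply hv₀0
        have h1 : v₀ ∈ N' := by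
          have := hmem 1 v₀ hv₀E
          simpa using this
        rw [h] at h1
        simpa using h1
      · exact h
    apply hι
    rw [map_zero]
    apply LinearMap.ext
    intro m
    have hm : m ∈ N' := htop ▸ Submodule.mem_top
    show ι y m = 0
    induction hm using Submodule.span_induction with
    | mem m hm =>
      obtain ⟨b, v, hv, rfl⟩ := hm
      rw [← ι_mul, mul_comm, ι_mul, hy v hv, map_zero]
    | zero => exact map_zero _
    | add a b _ _ ha hb => rw [map_add, ha, hb, add_zero]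
    | smul c a _ ha => rw [map_smul, ha, smul_zero]
  -- the idempotent is fixed by `Q`
  have hQfix : ∀ x ∈ Q, σ x e = e := by
    intro x hx
    have hzz : σ x e * σ x e = σ x e := by rw [← map_mul, hee]
    have hz0 : σ x e ≠ 0 := fun h => he0 ((σ x).injective (h.trans (map_zero _).symm))
    have hz1 : σ x e ≠ 1 := fun h => he1 ((σ x).injective (h.trans (map_one _).symm))
    set z := σ x e with hz
    have hzE : ∀ v ∈ E0 ρ T, ι z v ∈ E0 ρ T := by
      intro v hv
      have h1 : ι z v = ρ x (ι e (ρ x⁻¹ v)) := by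
        rw [hz, hσ]; rfl
      rw [h1]
      apply hst x hx
      intro t ht
      rw [ρ_ι ρ ι σ hσ, hfix t ht, hst x⁻¹ (Q.inv_mem hx) v hv t ht]
    have hzfix : ∀ t ∈ T, σ t z = z := by
      intro t ht
      apply sub_eq_zero.1
      apply hfaith0
      intro v hv
      rw [map_sub, LinearMap.sub_apply, sub_eq_zero, hσ]
      show ρ t (ι z (ρ t⁻¹ v)) = _
      rw [hv t⁻¹ (T.inv_mem ht), hzE v hv t ht]
    have fz : ∀ t ∈ T, σ t (1 - z) = 1 - z := fun t ht => by rw [map_sub, map_one, hzfix t ht]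
    have fe : ∀ t ∈ T, σ t (1 - e) = 1 - e := fun t ht => by rw [map_sub, map_one, hfix t ht]
    have f1 : ∀ t ∈ T, σ t (e * z) = e * z := fun t ht => by rw [map_mul, hfix t ht, hzfix t ht]
    have f2 : ∀ t ∈ T, σ t (e * (1 - z)) = e * (1 - z) := fun t ht => by rw [map_mul, hfix t ht, fz t ht]
    have f3 : ∀ t ∈ T, σ t ((1 - e) * z) = (1 - e) * z := fun t ht => by rw [map_mul, fe t ht, hzfix t ht]
    have f4 : ∀ t ∈ T, σ t ((1 - e) * (1 - z)) = (1 - e) * (1 - z) := fun t ht => by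
      rw [map_mul, fe t ht, fz t ht]
    have i1 : (e * z) * (e * z) = e * z := by linear_combination (z * z) * hee + e * hzz
    have i2 : (e * (1 - z)) * (e * (1 - z)) = e * (1 - z) := by
      linear_combination ((1 - z) * (1 - z)) * hee + e * hzz
    have i3 : ((1 - e) * z) * ((1 - e) * z) = (1 - e) * z := by
      linear_combination (z * z) * hee + (1 - e) * hzz
    have i4 : ((1 - e) * (1 - z)) * ((1 - e) * (1 - z)) = (1 - e) * (1 - z) := by
      linear_combination ((1 - z) * (1 - z)) * hee + (1 - e) * hzz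
    have o12 : (e * z) * (e * (1 - z)) = 0 := by linear_combination (-(e * e)) * hzz
    have o13 : (e * z) * ((1 - e) * z) = 0 := by linear_combination (-(z * z)) * hee
    have o14 : (e * z) * ((1 - e) * (1 - z)) = 0 := by linear_combination (-((1 - z) * z)) * hee
    have o23 : (e * (1 - z)) * ((1 - e) * z) = 0 := by linear_combination (-((1 - z) * z)) * hee
    have o24 : (e * (1 - z)) * ((1 - e) * (1 - z)) = 0 := by
      linear_combination (-((1 - z) * (1 - z))) * hee
    have o34 : ((1 - e) * z) * ((1 - e) * (1 - z)) = 0 := by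
      linear_combination (-((1 - e) * (1 - e))) * hzz
    have key : z = e ∨ z = 1 - e := by
      by_cases hf1 : e * z = 0
      · right
        have a2 : e * (1 - z) ≠ 0 := by
          intro h
          apply he0
          linear_combination h + hf1
        have a3 : (1 - e) * z ≠ 0 := by
          intro h
          apply hz0
          linear_combination h + hf1
        rcases h3 _ _ _ i2 i3 i4 o23 o24 o34 f2 f3 f4 with h | h | h
        · exact absurd h a2
        · exact absurd h a3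
        · linear_combination -h + hf1
      · left
        rcases h3 _ _ _ i1 i2 i3 o12 o13 o23 f1 f2 f3 with h | h | h
        · exact absurd h hf1
        · have a4 : (1 - e) * (1 - z) ≠ 0 := by
            intro h'
            apply hz1
            linear_combination -h' - h
          rcases h3 _ _ _ i1 i3 i4 o13 o14 o34 f1 f3 f4 with h' | h' | h'
          · exact absurd h' hf1
          · linear_combination h' - h
          · exact absurd h' a4
        · have a4 : (1 - e) * (1 - z) ≠ 0 := by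
            intro h'
            apply he1
            linear_combination -h' - h
          rcases h3 _ _ _ i1 i2 i4 o12 o14 o24 f1 f2 f4 with h' | h' | h'
          · exact absurd h' hf1
          · linear_combination h - h'
          · exact absurd h' a4
    rcases key with h | h
    · exact h
    · exfalso
      obtain ⟨n, ⟨m, rfl⟩, hxn⟩ := hodd x hx
      have hpow : ∀ k : ℕ, σ (x ^ (2 * k)) e = e := by
        intro k
        induction k with
        | zero => simp
        | succ k ih =>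
          rw [show 2 * (k + 1) = 1 + (1 + 2 * k) by ring, pow_add, pow_add, pow_one, σ_mul, σ_mul, ih,
            ← hz, h, map_sub, map_one, ← hz, h]
          ring
      have h5 : σ (x ^ (2 * m + 1)) e = 1 - e := by
        rw [pow_succ', σ_mul, hpow, ← hz, h]
      rw [hxn, σ_one] at h5
      have h6 : (1 : B) = 0 := by
        have h7 := h2B e
        linear_combination h7 - h5
      exact one_ne_zero h6
  -- the image of `e` is a submodule
  have hdich : LinearMap.range (ι e) = ⊥ ∨ LinearMap.range (ι e) = ⊤ := by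
    apply hgen
    · rintro a ha _ ⟨w, rfl⟩
      obtain ⟨c, hc⟩ := hA a ha
      refine ⟨ι c w, ?_⟩
      show ι e (ι c w) = ρ a (ι e w)
      rw [← hc, ← ι_mul, ← ι_mul, mul_comm]
    · rintro t ht _ ⟨w, rfl⟩
      refine ⟨ρ t w, ?_⟩
      show ι e (ρ t w) = ρ t (ι e w)
      rw [ρ_ι ρ ι σ hσ, hfix t ht]
    · rintro x hx _ ⟨w, rfl⟩
      refine ⟨ρ x w, ?_⟩
      show ι e (ρ x w) = ρ x (ι e w)
      rw [ρ_ι ρ ι σ hσ, hQfix x hx]
  rcases hdich with h | h
  · apply he0
    apply hι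
    rw [map_zero]
    exact LinearMap.range_eq_bot.1 h
  · apply he1
    apply hι
    rw [map_one]
    apply LinearMap.ext
    intro w
    obtain ⟨w', rfl⟩ := (LinearMap.range_eq_top.1 h) w
    show ι e (ι e w') = ι e w'
    rw [← ι_mul, hee]

include hq2 hQ

omit hι in
/-- Case of no non-trivial fixed idempotent. -/
lemma case_noidem [Finite S] [Finite E] [Finite B] [Nontrivial B] (N : ℕ) (hN2 : 2 ≤ N)
    (hN : ∀ z : B, z ^ N = z) (hι : Function.Injective ι) [A.Normal]
    (hfaith : ∀ a ∈ A, ρ a = 1 → a = 1) (hcomm : ⁅A, Q⁆ = A)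
    (hle : Nat.card (E0 ρ T) ≤ 4)
    (hid : ∀ f : B, f * f = f → (∀ t ∈ T, σ t f = f) → f = 0 ∨ f = 1) : A = ⊥ := by
  classical
  obtain ⟨v₀, hv₀E, hv₀0, -⟩ := idem_vec ρ ι hι σ hσ T hT (1 : B) (mul_one _) one_ne_zero
    (fun t _ => map_one _)
  -- fixed points act freely
  have hunit : ∀ y : B, (∀ t ∈ T, σ t y = y) → ι y v₀ = 0 → y = 0 := by
    intro y hy hyv
    by_contra hy0
    have hff := pow_idem N hN2 hN y
    have hfy := pow_mul_self N hN2 hN y
    have hf0 : y ^ (N - 1) ≠ 0 := fun h => hy0 (by rw [← hfy, h, zero_mul])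
    rcases hid _ hff (fun t ht => by rw [map_pow, hy t ht]) with h | h
    · exact hf0 h
    · obtain ⟨m, hm⟩ : ∃ m, N - 1 = m + 1 := ⟨N - 2, by omega⟩
      rw [hm, pow_succ] at h
      apply hv₀0
      have h1 : ι (y ^ m * y) v₀ = v₀ := by rw [h, map_one]; rfl
      rw [ι_mul, hyv, map_zero] at h1
      exact h1.symm
  have hcard : Nat.card {z : B // ∀ t ∈ T, σ t z = z} ≤ 4 := by
    refine le_trans (Nat.card_le_card_of_injective
      (fun z => (⟨ι z.1 v₀, fun t ht => by
        rw [ρ_ι ρ ι σ hσ, z.2 t ht, hv₀E t ht]⟩ : E0 ρ T)) ?_) hle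
    intro a b hab
    apply Subtype.ext
    apply sub_eq_zero.1
    apply hunit
    · intro t ht
      rw [map_sub, a.2 t ht, b.2 t ht]
    · rw [map_sub, LinearMap.sub_apply, sub_eq_zero]
      exact congrArg Subtype.val hab
  obtain ⟨e, he, hQe, htrans⟩ := abstract_core σ N hN2 hN T Q hT hq2 hQ hid hcard
  -- the subgroup acting trivially below `e`
  let D : Subgroup S :=
    { carrier := {g | ι e * ρ g = ι e}
      mul_mem' := by
        intro a b ha hb
        show ι e * ρ (a * b) = ι e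
        rw [map_mul, ← mul_assoc, show ι e * ρ a = ι e from ha, show ι e * ρ b = ι e from hb]
      one_mem' := by
        show ι e * ρ 1 = ι e
        rw [map_one, mul_one]
      inv_mem' := by
        intro a ha
        show ι e * ρ a⁻¹ = ι e
        conv_lhs => rw [← (show ι e * ρ a = ι e from ha)]
        rw [mul_assoc, ← map_mul, mul_inv_cancel, map_one, mul_one] }
  have hAD : A ≤ D := by
    have h1 : ⁅A, Q⁆ ≤ D := by
      rw [Subgroup.commutator_le]
      intro a ha x hx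
      obtain ⟨b, hb⟩ := hA a ha
      obtain ⟨z, hz⟩ := hA a⁻¹ (A.inv_mem ha)
      show ι e * ρ (a * x * a⁻¹ * x⁻¹) = ι e
      have h2 : ρ (a * x * a⁻¹ * x⁻¹) = ι b * ι (σ x z) := by
        rw [hσ, hz, hb]
        simp only [map_mul]
        noncomm_ring
      rw [h2, ← map_mul, ← map_mul, ← mul_assoc, mul_comm e b, mul_assoc, hQe x hx z, ← mul_assoc,
        mul_comm b e, mul_assoc, map_mul, map_mul, hb, hz, ← map_mul, mul_inv_cancel, map_one, mul_one]
    rwa [hcomm] at h1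
  apply (Subgroup.eq_bot_iff_forall _).2
  intro a ha
  apply hfaith a ha
  obtain ⟨b, hb⟩ := hA a ha
  have hb1 : b = 1 := by
    by_contra hne
    obtain ⟨e', he', hne'⟩ := exists_prim N hN2 hN (b - 1) (sub_ne_zero.2 hne)
    apply hne'
    obtain ⟨t, ht, rfl⟩ := htrans e' he'
    apply hι
    rw [map_zero, map_mul, map_sub, map_one, hσ, hb]
    have h5 : t⁻¹ * a * t ∈ D := by
      apply hAD
      have := Subgroup.Normal.conj_mem (inferInstance : A.Normal) a ha t⁻¹
      simpa using this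
    have h6 : ι e * ρ (t⁻¹ * a * t) = ι e := h5
    have h7 : ρ t * ι e * ρ t⁻¹ * ρ a = ρ t * (ι e * ρ (t⁻¹ * a * t)) * ρ t⁻¹ := by
      have h8 : ρ t * ρ t⁻¹ = 1 := by rw [← map_mul, mul_inv_cancel, map_one]
      simp only [map_mul]
      calc ρ t * ι e * ρ t⁻¹ * ρ a = ρ t * ι e * ρ t⁻¹ * ρ a * (ρ t * ρ t⁻¹) := by rw [h8, mul_one]
        _ = _ := by simp only [mul_assoc]
    rw [mul_sub, mul_one, h7, h6, sub_self]
  rw [← hb, hb1, map_one]

end eside

section concrete

variable {S : Type*} [Group S] {E : Type*} [AddCommGroup E] [Module (ZMod 2) E]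
  (ρ : Representation (ZMod 2) S E)

/-- Conjugation on a conjugation-stable subalgebra of endomorphisms. -/
def conjAlgFun (D : Subalgebra (ZMod 2) (Module.End (ZMod 2) E))
    (hD : ∀ g : S, ∀ z ∈ D, ρ g * z * ρ g⁻¹ ∈ D) (g : S) : D ≃ₐ[ZMod 2] D where
  toFun z := ⟨ρ g * z * ρ g⁻¹, hD g z z.2⟩
  invFun z := ⟨ρ g⁻¹ * z * ρ g⁻¹⁻¹, hD g⁻¹ z z.2⟩
  left_inv z := by
    apply Subtype.ext
    show ρ g⁻¹ * (ρ g * z * ρ g⁻¹) * ρ g⁻¹⁻¹ = z
    have h1 : ρ g⁻¹ * ρ g = 1 := by rw [← map_mul, inv_mul_cancel, map_one]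
    have h2 : ρ g⁻¹ * ρ g⁻¹⁻¹ = 1 := by rw [← map_mul, mul_inv_cancel, map_one]
    calc ρ g⁻¹ * (ρ g * z * ρ g⁻¹) * ρ g⁻¹⁻¹ = (ρ g⁻¹ * ρ g) * z * (ρ g⁻¹ * ρ g⁻¹⁻¹) := by
          simp only [mul_assoc]
      _ = z := by rw [h1, h2, one_mul, mul_one]
  right_inv z := by
    apply Subtype.ext
    show ρ g * (ρ g⁻¹ * z * ρ g⁻¹⁻¹) * ρ g⁻¹ = z
    have h1 : ρ g * ρ g⁻¹ = 1 := by rw [← map_mul, mul_inv_cancel, map_one]
    have h2 : ρ g⁻¹⁻¹ * ρ g⁻¹ = 1 := by rw [← map_mul, inv_mul_cancel, map_one]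
    calc ρ g * (ρ g⁻¹ * z * ρ g⁻¹⁻¹) * ρ g⁻¹ = (ρ g * ρ g⁻¹) * z * (ρ g⁻¹⁻¹ * ρ g⁻¹) := by
          simp only [mul_assoc]
      _ = z := by rw [h1, h2, one_mul, mul_one]
  map_mul' x y := by
    apply Subtype.ext
    show ρ g * (x.1 * y.1) * ρ g⁻¹ = (ρ g * x.1 * ρ g⁻¹) * (ρ g * y.1 * ρ g⁻¹)
    have h1 : ρ g⁻¹ * ρ g = 1 := by rw [← map_mul, inv_mul_cancel, map_one]
    calc ρ g * (x.1 * y.1) * ρ g⁻¹ = ρ g * x.1 * (ρ g⁻¹ * ρ g) * y.1 * ρ g⁻¹ := by
          rw [h1, mul_one]; simp only [mul_assoc]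
      _ = _ := by simp only [mul_assoc]
  map_add' x y := by
    apply Subtype.ext
    show ρ g * (x.1 + y.1) * ρ g⁻¹ = (ρ g * x.1 * ρ g⁻¹) + (ρ g * y.1 * ρ g⁻¹)
    rw [mul_add, add_mul]
  commutes' c := by
    apply Subtype.ext
    show ρ g * (algebraMap (ZMod 2) (Module.End (ZMod 2) E) c) * ρ g⁻¹ =
      algebraMap (ZMod 2) (Module.End (ZMod 2) E) c
    rw [← Algebra.commutes, mul_assoc, ← map_mul, mul_inv_cancel, map_one, mul_one]

/-- Conjugation as a homomorphism. -/
def conjAlg (D : Subalgebra (ZMod 2) (Module.End (ZMod 2) E))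
    (hD : ∀ g : S, ∀ z ∈ D, ρ g * z * ρ g⁻¹ ∈ D) : S →* (D ≃ₐ[ZMod 2] D) where
  toFun g := conjAlgFun ρ D hD g
  map_one' := by
    ext z
    show (ρ 1 * z.1 * ρ 1⁻¹) _ = _
    simp
  map_mul' a b := by
    ext z
    show (ρ (a * b) * z.1 * ρ (a * b)⁻¹) _ = (ρ a * (ρ b * z.1 * ρ b⁻¹) * ρ a⁻¹) _
    simp [mul_assoc]

lemma adjoin_stable (A : Subgroup S) [A.Normal] (g : S) (z : Module.End (ZMod 2) E)
    (hz : z ∈ Algebra.adjoin (ZMod 2) (ρ '' (A : Set S))) :
    ρ g * z * ρ g⁻¹ ∈ Algebra.adjoin (ZMod 2) (ρ '' (A : Set S)) := by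
  have h1 : ρ g⁻¹ * ρ g = 1 := by rw [← map_mul, inv_mul_cancel, map_one]
  have h2 : ρ g * ρ g⁻¹ = 1 := by rw [← map_mul, mul_inv_cancel, map_one]
  induction hz using Algebra.adjoin_induction with
  | mem x hx =>
    obtain ⟨a, ha, rfl⟩ := hx
    apply Algebra.subset_adjoin
    refine ⟨g * a * g⁻¹, Subgroup.Normal.conj_mem inferInstance a ha g, ?_⟩
    simp only [map_mul]
  | algebraMap c =>
    rw [← Algebra.commutes, mul_assoc, h2, mul_one]
    exact Subalgebra.algebraMap_mem _ c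
  | add x y _ _ hx hy =>
    rw [mul_add, add_mul]
    exact Subalgebra.add_mem _ hx hy
  | mul x y _ _ hx hy =>
    have : ρ g * (x * y) * ρ g⁻¹ = (ρ g * x * ρ g⁻¹) * (ρ g * y * ρ g⁻¹) := by
      calc ρ g * (x * y) * ρ g⁻¹ = ρ g * x * (ρ g⁻¹ * ρ g) * y * ρ g⁻¹ := by
            rw [h1, mul_one]; simp only [mul_assoc]
        _ = _ := by simp only [mul_assoc]
    rw [this]
    exact Subalgebra.mul_mem _ hx hy

end concrete

lemma zmod2_cases : ∀ t : ZMod 2, t = 0 ∨ t = 1 := by decide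

lemma frob_add {R : Type*} [CommRing R] (h2 : ∀ z : R, z + z = 0) (m : ℕ) (x y : R) :
    (x + y) ^ (2 ^ m) = x ^ (2 ^ m) + y ^ (2 ^ m) := by
  induction m with
  | zero => simp
  | succ m ih =>
    rw [pow_succ, pow_mul, ih, pow_mul, pow_mul]
    have h : ∀ a b : R, (a + b) ^ 2 = a ^ 2 + b ^ 2 := fun a b => by
      have := h2 (a * b)
      linear_combination this
    exact h _ _

theorem main_thm {S : Type*} [Group S] [Finite S]
    (p q : ℕ) (hp : p.Prime) (hq : q.Prime) (hp2 : p ≠ 2) (hq2 : q ≠ 2) (hpq : p ≠ q)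
    (hπ : ∀ r : ℕ, r.Prime → r ∣ Nat.card S → r = 2 ∨ r = p ∨ r = q)
    (S₂ : Sylow 2 S) (Sp : Sylow p S) (Sq : Sylow q S)
    (hSpN : (Sp : Subgroup S).Normal)
    (hSpcard : Nat.card ↥Sp = p ∨ Nat.card ↥Sp = p ^ 2)
    (hcomm : ⁅(Sp : Subgroup S), (Sq : Subgroup S)⁆ = (Sp : Subgroup S))
    {E : Type*} [AddCommGroup E] [Module (ZMod 2) E] [Finite E] (ρ : Representation (ZMod 2) S E) (hE : Nontrivial E)
    (hirr : ∀ N : Submodule (ZMod 2) E, (∀ s : S, ∀ m ∈ N, ρ s m ∈ N) → N = ⊥ ∨ N = ⊤)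
    (hfaith : ∀ x ∈ (Sp : Subgroup S), ρ x = 1 → x = 1) :
    8 ≤ Nat.card {v : E // ∀ s ∈ (S₂ : Subgroup S), ρ s v = v} ∨
      (Nat.card {v : E // ∀ s ∈ (S₂ : Subgroup S), ρ s v = v} = 4 ∧
        ∃ x ∈ (Sq : Subgroup S), ∃ v : E, (∀ s ∈ (S₂ : Subgroup S), ρ s v = v) ∧ ¬ ∀ s ∈ (S₂ : Subgroup S), ρ s (ρ x v) = ρ x v) := by
  classical
  have f2 : Fact (Nat.Prime 2) := ⟨Nat.prime_two⟩
  have fp : Fact p.Prime := ⟨hp⟩
  have fq : Fact q.Prime := ⟨hq⟩
  set A : Subgroup S := (Sp : Subgroup S) with hA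
  set T : Subgroup S := (S₂ : Subgroup S) with hT
  set Q : Subgroup S := (Sq : Subgroup S) with hQ
  have hSpcard' : Nat.card A = p ∨ Nat.card A = p ^ 2 := hSpcard
  have hPT : IsPGroup 2 T := S₂.isPGroup'
  have hPQ : IsPGroup q Q := Sq.isPGroup'
  have hPA : IsPGroup p A := Sp.isPGroup'
  -- `A` abelian
  have hAcomm : ∀ a ∈ A, ∀ b ∈ A, a * b = b * a := by
    intro a ha b hb
    have h1 : ∀ x y : A, x * y = y * x := by
      rcases hSpcard' with h | h
      · have : Fact (Nat.card A).Prime := ⟨by rw [h]; exact hp⟩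
        have : IsCyclic A := isCyclic_of_prime_card rfl
        exact fun x y => (IsCyclic.isMulCommutative (α := A)).is_comm.comm x y
      · exact IsPGroup.commutative_of_card_eq_prime_sq h
    exact congrArg Subtype.val (h1 ⟨a, ha⟩ ⟨b, hb⟩)
  -- generation
  have hW : A ⊔ T ⊔ Q = ⊤ := by
    by_contra hne
    have hidx : (A ⊔ T ⊔ Q).index ≠ 1 := fun h => hne (Subgroup.index_eq_one.1 h)
    obtain ⟨r, hr, hrd⟩ := Nat.exists_prime_and_dvd hidx
    have hrS : r ∣ Nat.card S := dvd_trans hrd (Subgroup.index_dvd_card _)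
    rcases hπ r hr hrS with rfl | rfl | rfl
    · exact S₂.not_dvd_index (dvd_trans hrd (Subgroup.index_dvd_of_le
        ((le_sup_right : T ≤ A ⊔ T).trans le_sup_left)))
    · exact Sp.not_dvd_index (dvd_trans hrd (Subgroup.index_dvd_of_le
        ((le_sup_left : A ≤ A ⊔ T).trans le_sup_left)))
    · exact Sq.not_dvd_index (dvd_trans hrd (Subgroup.index_dvd_of_le le_sup_right))
  have hgen : ∀ N : Submodule (ZMod 2) E, (∀ a ∈ A, ∀ m ∈ N, ρ a m ∈ N) → (∀ t ∈ T, ∀ m ∈ N, ρ t m ∈ N) →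
      (∀ x ∈ Q, ∀ m ∈ N, ρ x m ∈ N) → N = ⊥ ∨ N = ⊤ := by
    intro N h1 h2 h3
    let Stb : Subgroup S :=
      { carrier := {g | ∀ m ∈ N, ρ g m ∈ N}
        mul_mem' := fun {a b} ha hb m hm => by
          rw [ρ_mul]; exact ha _ (hb _ hm)
        one_mem' := fun m hm => by
          rw [ρ_one]; exact hm
        inv_mem' := fun {a} ha m hm => by
          let f : N → N := fun y => ⟨ρ a y.1, ha y.1 y.2⟩
          have hf : Function.Injective f := fun y y' h => by
            have h5 := congrArg (fun w : N => ρ a⁻¹ w.1) h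
            simp only [f, ρ_inv] at h5
            exact Subtype.ext h5
          obtain ⟨y, hy⟩ := (Finite.injective_iff_surjective.1 hf) ⟨m, hm⟩
          have h5 : ρ a y.1 = m := congrArg Subtype.val hy
          rw [← h5, ρ_inv]
          exact y.2 }
    have hle : (⊤ : Subgroup S) ≤ Stb := by
      rw [← hW]
      exact sup_le (sup_le (fun a ha => h1 a ha) (fun a ha => h2 a ha)) (fun a ha => h3 a ha)
    exact hirr N (fun s m hm => hle (Subgroup.mem_top s) m hm)
  -- the algebra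
  have hc : ∀ x ∈ ρ '' (A : Set S), ∀ y ∈ ρ '' (A : Set S), x * y = y * x := by
    rintro _ ⟨a, ha, rfl⟩ _ ⟨b, hb, rfl⟩
    rw [← map_mul, hAcomm a ha b hb, map_mul]
  set D : Subalgebra (ZMod 2) (Module.End (ZMod 2) E) := Algebra.adjoin (ZMod 2) (ρ '' (A : Set S)) with hD
  letI iCR : CommRing D := Algebra.adjoinCommRingOfComm (ZMod 2) hc
  have : A.Normal := hSpN
  have hDst : ∀ g : S, ∀ z ∈ D, ρ g * z * ρ g⁻¹ ∈ D := fun g z hz => adjoin_stable ρ A g z hz
  let σ : S →* (D ≃ₐ[ZMod 2] D) := conjAlg ρ D hDst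
  let ι : D →ₐ[ZMod 2] Module.End (ZMod 2) E := D.val
  have hι : Function.Injective ι := Subtype.val_injective
  have hσ : ∀ g z, ι (σ g z) = ρ g * ι z * ρ g⁻¹ := fun g z => rfl
  have hAD : ∀ a ∈ A, ∃ b : D, ι b = ρ a := fun a ha =>
    ⟨⟨ρ a, Algebra.subset_adjoin ⟨a, ha, rfl⟩⟩, rfl⟩
  have hEnd : Finite (Module.End (ZMod 2) E) :=
    Finite.of_injective (fun f : Module.End (ZMod 2) E => (f : E → E)) DFunLike.coe_injective
  have hDfin : Finite D := inferInstance
  have hEndN : Nontrivial (Module.End (ZMod 2) E) := by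
    obtain ⟨v, hv⟩ := exists_ne (0 : E)
    refine ⟨⟨1, 0, fun h => hv ?_⟩⟩
    exact congrArg (fun f : Module.End (ZMod 2) E => f v) h
  have hDnt : Nontrivial D := inferInstance
  have h2B : ∀ z : D, z + z = 0 := fun z => by
    have : ((2 : ZMod 2)) • z = 0 := by
      rw [show (2 : ZMod 2) = 0 from rfl, zero_smul]
    rwa [two_smul] at this
  have hodd : ∀ x ∈ Q, ∃ n : ℕ, Odd n ∧ x ^ n = 1 := by
    intro x hx
    obtain ⟨k, hk⟩ := hPQ ⟨x, hx⟩
    exact ⟨q ^ k, (hq.odd_of_ne_two hq2).pow, congrArg Subtype.val hk⟩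
  -- the power identity
  obtain ⟨N, hN2, hN⟩ : ∃ N : ℕ, 2 ≤ N ∧ ∀ z : D, z ^ N = z := by
    have hcop : Nat.Coprime 2 (Nat.card A) := by
      have hp' : Nat.Coprime 2 p := (Nat.coprime_primes Nat.prime_two hp).2 (Ne.symm hp2)
      rcases hSpcard' with h | h
      · rw [h]; exact hp'
      · rw [h]; exact hp'.pow_right 2
    have hmod := Nat.ModEq.pow_totient hcop
    have hm0 : 0 < Nat.totient (Nat.card A) := Nat.totient_pos.2 Nat.card_pos
    set m := Nat.totient (Nat.card A) with hm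
    have hpowA : ∀ a ∈ A, a ^ (2 ^ m) = a := by
      intro a ha
      have h1 : a ^ Nat.card A = 1 := by
        have := pow_card_eq_one' (x := (⟨a, ha⟩ : A))
        exact congrArg Subtype.val this
      rw [pow_eq_pow_mod _ h1, hmod, ← pow_eq_pow_mod _ h1, pow_one]
    refine ⟨2 ^ m, ?_, ?_⟩
    · calc 2 = 2 ^ 1 := by norm_num
        _ ≤ 2 ^ m := Nat.pow_le_pow_right (by norm_num) hm0
    · rintro ⟨z, hz⟩
      induction hz using Algebra.adjoin_induction with
      | mem x hx =>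
        obtain ⟨a, ha, rfl⟩ := hx
        apply Subtype.ext
        show (ρ a) ^ (2 ^ m) = ρ a
        rw [← map_pow, hpowA a ha]
      | algebraMap c =>
        have hc' := zmod2_cases
        apply Subtype.ext
        show (algebraMap (ZMod 2) (Module.End (ZMod 2) E) c) ^ (2 ^ m) = _
        rw [← map_pow]
        congr 1
        rcases hc' c with rfl | rfl
        · rw [zero_pow (by positivity)]
        · rw [one_pow]
      | add x y hx hy ihx ihy =>
        have h1 : (⟨x + y, Subalgebra.add_mem _ hx hy⟩ : D) = ⟨x, hx⟩ + ⟨y, hy⟩ := rfl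
        rw [h1, frob_add h2B, ihx, ihy]
      | mul x y hx hy ihx ihy =>
        have h1 : (⟨x * y, Subalgebra.mul_mem _ hx hy⟩ : D) = ⟨x, hx⟩ * ⟨y, hy⟩ := rfl
        rw [h1, mul_pow, ihx, ihy]
  -- the cardinality of the fixed points
  have hcardE : Nat.card (E0 ρ T) = Nat.card {v : E // ∀ s ∈ T, ρ s v = v} := rfl
  rw [← hcardE]
  obtain ⟨d, hd⟩ : ∃ d : ℕ, Nat.card (E0 ρ T) = 2 ^ d := by
    refine ⟨Module.finrank (ZMod 2) (E0 ρ T), ?_⟩
    have := Module.natCard_eq_pow_finrank (K := ZMod 2) (V := E0 ρ T)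
    rwa [Nat.card_zmod] at this
  by_cases h8 : 8 ≤ Nat.card (E0 ρ T)
  · exact Or.inl h8
  · right
    have hd2 : d < 3 := by
      by_contra hcon
      have h5 : 2 ^ 3 ≤ 2 ^ d := Nat.pow_le_pow_right (by norm_num) (by omega)
      omega
    have hle4 : Nat.card (E0 ρ T) ≤ 4 := by
      rw [hd]
      interval_cases d <;> norm_num
    by_cases hid : ∀ f : D, f * f = f → (∀ t ∈ T, σ t f = f) → f = 0 ∨ f = 1
    · exfalso
      have hbot := case_noidem ρ ι σ hσ A T Q hPT hq2 hPQ hAD hgen N hN2 hN hι hfaith hcomm hle4 hid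
      have hcA : Nat.card A = 1 := by
        rw [hbot, Subgroup.card_bot]
      rcases hSpcard' with h | h
      · rw [h] at hcA
        exact hp.one_lt.ne' hcA
      · rw [h] at hcA
        have : 1 < p ^ 2 := Nat.one_lt_pow (by norm_num) hp.one_lt
        omega
    · push Not at hid
      obtain ⟨e, hee, hfix, he0, he1⟩ := hid
      have h4 : 4 ≤ Nat.card (E0 ρ T) := by
        have := card_ge ρ ι hι σ hσ T hPT (n := 2) ![e, 1 - e]
          (by
            intro i
            fin_cases i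
            · exact hee
            · show (1 - e) * (1 - e) = 1 - e
              linear_combination hee)
          (by
            intro i j hij
            fin_cases i <;> fin_cases j <;> simp at hij
            · show e * (1 - e) = 0
              linear_combination -hee
            · show (1 - e) * e = 0
              linear_combination -hee)
          (by
            intro i
            fin_cases i
            · exact he0
            · exact sub_ne_zero.2 (Ne.symm he1))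
          (by
            intro i t ht
            fin_cases i
            · exact hfix t ht
            · show σ t (1 - e) = 1 - e
              rw [map_sub, map_one, hfix t ht])
        simpa using this
      refine ⟨le_antisymm hle4 h4, ?_⟩
      by_contra hno
      push Not at hno
      apply case_idem ρ ι hι σ hσ A T Q hPT hAD hgen h2B hodd (by omega) e hee hfix he0 he1
      intro x hx v hv t ht
      exact hno x hx v hv t ht

end Helpers


/-- Let S be a finite solvable group whose order is divisible only by the primes 2, p, q (p, q distinct odd primes), with a Sylow system S₂, S_p, S_q (pairwise permutable Sylow subgroups) such that: S_p is a minimal normal subgroup of S of order p or p²; S_q has order q and [S_p, S_q] = S_p; and O₂(S) = 1. Let E be an irreducible module for S over the field with two elements on which S_p acts faithfully, and E₀ the subspace of fixed points of S₂. Then either E₀ has at least 8 elements, or E₀ has exactly 4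 elements and S_q does not leave E₀ invariant. -/
theorem result {S : Type*} [Group S] [Finite S]
    [Group.IsSolvable S] (p q : ℕ) (hp : p.Prime) (hq : q.Prime) (hp2 : p ≠ 2) (hq2 : q ≠ 2) (hpq : p ≠ q)
    (hπ : ∀ r : ℕ, r.Prime → r ∣ Nat.card S → r = 2 ∨ r = p ∨ r = q)
    (S₂ : Sylow 2 S) (Sp : Sylow p S) (Sq : Sylow q S)
    (h2q : Nat.card ↥((S₂ : Subgroup S) ⊔ (Sq : Subgroup S)) = Nat.card ↥S₂ * Nat.card ↥Sq)
    (h2p : Nat.card ↥((S₂ : Subgroup S) ⊔ (Sp : Subgroup S)) = Nat.card ↥S₂ * Nat.card ↥Sp)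
    (hpq' : Nat.card ↥((Sp : Subgroup S) ⊔ (Sq : Subgroup S)) = Nat.card ↥Sp * Nat.card ↥Sq)
    (hSpN : (Sp : Subgroup S).Normal) (hSpmin : ∀ N : Subgroup S, N.Normal → N ≤ (Sp : Subgroup S) → N = ⊥ ∨ N = (Sp : Subgroup S))
    (hSpcard : Nat.card ↥Sp = p ∨ Nat.card ↥Sp = p ^ 2)
    (hSq : Nat.card ↥Sq = q) (hcomm : ⁅(Sp : Subgroup S), (Sq : Subgroup S)⁆ = (Sp : Subgroup S))
    (hO2 : Cfsg.pCore 2 S = ⊥)
    {E : Type*} [AddCommGroup E] [Module (ZMod 2) E] [Finite E] (ρ : Representation (ZMod 2) S E) (hE : Nontrivial E)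
    (hirr : ∀ N : Submodule (ZMod 2) E, (∀ s : S, ∀ m ∈ N, ρ s m ∈ N) → N = ⊥ ∨ N = ⊤)
    (hfaith : ∀ x ∈ (Sp : Subgroup S), ρ x = 1 → x = 1) :
    8 ≤ Nat.card {v : E // ∀ s ∈ (S₂ : Subgroup S), ρ s v = v} ∨
      (Nat.card {v : E // ∀ s ∈ (S₂ : Subgroup S), ρ s v = v} = 4 ∧
        ∃ x ∈ (Sq : Subgroup S), ∃ v : E, (∀ s ∈ (S₂ : Subgroup S), ρ s v = v) ∧ ¬ ∀ s ∈ (S₂ : Subgroup S), ρ s (ρ x v) = ρ x v) := by
  exact main_thm p q hp hq hp2 hq2 hpq hπ S₂ Sp Sq hSpN hSpcard hcomm ρ hE hirr hfaith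

end Cfsg.Agent.S4414
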