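import Cfsg.Statements.S4415
import Cfsg.Agent.Lib.CubN

set_option autoImplicit false
open Cfsg

namespace Cfsg.Agent.S4415

open Cfsg.Agent.Lib.CubA Cfsg.Agent.Lib.CubB Cfsg.Agent.Lib.CubC Cfsg.Agent.Lib.CubC.Sett
  Cfsg.Agent.Lib.CubD Cfsg.Agent.Lib.CubE Cfsg.Agent.Lib.CubF Cfsg.Agent.Lib.CubG
  Cfsg.Agent.Lib.CubH Cfsg.Agent.Lib.CubI Cfsg.Agent.Lib.CubJ Cfsg.Agent.Lib.CubK
  Cfsg.Agent.Lib.CubL Cfsg.Agent.Lib.CubM Cfsg.Agent.Lib.CubN Cfsg.Agent.Lib.PCore
open scoped commutatorElement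

/-- A four-group normalized and not centralized by an element of order three: the third involution. -/
theorem four_shape {S : Type*} [Group S] [Finite S] {Q : Subgroup S} {b q : S}
    (hQcomm : ∀ x ∈ Q, ∀ y ∈ Q, x * y = y * x) (hQsq : ∀ x ∈ Q, x * x = 1)
    (hQ4 : Nat.card Q = 4) (hbQ : ∀ x ∈ Q, b * x * b⁻¹ ∈ Q) (hb3 : b * b * b = 1)
    (hq : q ∈ Q) (hne : b * q * b⁻¹ ≠ q) :
    q * (b * q * b⁻¹) = b * (b * q * b⁻¹) * b⁻¹ ∧ q ≠ 1 := by
  classical
  have hq1 : q ≠ 1 := by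
    rintro rfl
    apply hne
    group
  refine ⟨?_, hq1⟩
  set t₂ := b * q * b⁻¹ with ht₂
  set t₃ := b * t₂ * b⁻¹ with ht₃
  have ht₂Q : t₂ ∈ Q := hbQ q hq
  have ht₃Q : t₃ ∈ Q := hbQ t₂ ht₂Q
  have hbt3 : b * t₃ * b⁻¹ = q := by
    calc b * t₃ * b⁻¹ = (b * b * b) * q * (b * b * b)⁻¹ := by simp only [ht₃, ht₂]; group
      _ = q := by rw [hb3]; simp
  have ht21 : t₂ ≠ 1 := by
    intro h
    apply hq1
    have h2 : b * q * b⁻¹ = 1 := h
    have h3 : q = b⁻¹ * (b * q * b⁻¹) * b := by group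
    rw [h3, h2]
    group
  have ht31 : t₃ ≠ 1 := by
    intro h
    apply ht21
    have h2 : b * t₂ * b⁻¹ = 1 := h
    have h3 : t₂ = b⁻¹ * (b * t₂ * b⁻¹) * b := by group
    rw [h3, h2]
    group
  have ht32 : t₃ ≠ t₂ := by
    intro h
    apply hne
    have h2 : b * t₂ * b⁻¹ = t₂ := h
    have h3 : b⁻¹ * t₂ * b = t₂ := by
      nth_rewrite 1 [← h2]
      group
    have h4 : q = b⁻¹ * t₂ * b := by
      simp only [ht₂]; group
    rw [h3] at h4
    exact h4.symm
  have ht3q : t₃ ≠ q := by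
    intro h
    rw [h] at hbt3
    exact hne hbt3
  have hmul1 : q * t₂ ≠ 1 := by
    intro h
    have h2 : q = t₂⁻¹ := eq_inv_of_mul_eq_one_left h
    have h3 : t₂⁻¹ = t₂ := by
      rw [inv_eq_iff_mul_eq_one]
      exact hQsq t₂ ht₂Q
    rw [h3] at h2
    exact hne h2.symm
  have hmulq : q * t₂ ≠ q := by
    intro h
    exact ht21 (mul_eq_left.mp h)
  have hmul2 : q * t₂ ≠ t₂ := by
    intro h
    exact hq1 (mul_eq_right.mp h)
  have hcardF : (({1, q, t₂, q * t₂} : Finset S)).card = 4 := by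
    rw [Finset.card_insert_of_notMem, Finset.card_insert_of_notMem, Finset.card_insert_of_notMem,
      Finset.card_singleton]
    · simpa using hmul2.symm
    · simp only [Finset.mem_insert, Finset.mem_singleton, not_or]
      exact ⟨fun h => hne h.symm, hmulq.symm⟩
    · simp only [Finset.mem_insert, Finset.mem_singleton, not_or]
      exact ⟨hq1.symm, ht21.symm, hmul1.symm⟩
  have hsub : ((({1, q, t₂, q * t₂} : Finset S) : Set S)) ⊆ (Q : Set S) := by
    intro x hx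
    simp only [Finset.coe_insert, Finset.coe_singleton, Set.mem_insert_iff, Set.mem_singleton_iff] at hx
    rcases hx with rfl | rfl | rfl | rfl
    · exact Q.one_mem
    · exact hq
    · exact ht₂Q
    · exact Q.mul_mem hq ht₂Q
  have hcardQ : (Q : Set S).ncard = 4 := by
    rw [← Nat.card_coe_set_eq]
    exact hQ4
  have heq : ((({1, q, t₂, q * t₂} : Finset S) : Set S)) = (Q : Set S) := by
    apply Set.eq_of_subset_of_ncard_le hsub
    rw [hcardQ, Set.ncard_coe_finset, hcardF]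
  have hmem : t₃ ∈ ((({1, q, t₂, q * t₂} : Finset S) : Set S)) := by
    rw [heq]
    exact ht₃Q
  simp only [Finset.coe_insert, Finset.coe_singleton, Set.mem_insert_iff, Set.mem_singleton_iff] at hmem
  rcases hmem with h | h | h | h
  · exact absurd h ht31
  · exact absurd h ht3q
  · exact absurd h ht32
  · exact h.symm

/-- Acting through a product of an element of `R` with an element of order three. -/
theorem triv_of_mul {G : Type*} [Group G] [Finite G] {E : Type*} [AddCommGroup E]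
    [Module (ZMod 3) E] [Finite E] {ρ : Representation (ZMod 3) G E} {R : Subgroup G} {b : G}
    (h : Sett ρ R b) {c u : G} (hcW : ∀ w ∈ W ρ R, ρ c w ∈ W ρ R) (hc3 : c * c * c = 1)
    (hu : u ∈ R) (htriv : ∀ w ∈ W ρ R, ρ (u * c) w = w) : ∀ w ∈ W ρ R, ρ c w = w := by
  have hr : u⁻¹ ∈ R := R.inv_mem hu
  have h1 : ∀ w ∈ W ρ R, ρ c w = ρ u⁻¹ w := by
    intro w hw
    have h2 := htriv w hw
    rw [act_mul] at h2
    nth_rewrite 2 [← h2]
    rw [act_inv_act]
  have h3 : u⁻¹ * u⁻¹ * u⁻¹ = 1 := by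
    apply h.eq_one_of
    · intro w hw
      simp only [act_mul]
      rw [← h1 w hw, ← h1 _ (hcW w hw), ← h1 _ (hcW _ (hcW w hw))]
      have h4 : ρ (c * c * c) w = w := by rw [hc3, act_one]
      simpa only [act_mul] using h4
    · intro f hf
      exact hf _ (R.mul_mem (R.mul_mem hr hr) hr)
  have h5 : u⁻¹ = 1 := by
    have h6 : orderOf u⁻¹ ∣ 3 := by
      apply orderOf_dvd_of_pow_eq_one
      rw [pow_succ, pow_two]
      exact h3
    rcases (Nat.dvd_prime (by norm_num : Nat.Prime 3)).mp h6 with h7 | h7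
    · exact orderOf_eq_one_iff.mp h7
    · exact absurd (by rw [h7]) (h.cop _ hr)
  intro w hw
  rw [h1 w hw, h5, act_one]

/-- Let S be a finite solvable group acting faithfully on a finite-dimensional space E over the field with three elements, with O₃(S) = 1. Let B ≤ S have order 3 and suppose: E = E₀ ⊕ E₁ with B fixing E₁ pointwise, E₀ B-invariant of order 27 and indecomposable under B (a generator of B has a single Jordan block on E₀); B normalizes but does not centralize some subgroup Q of S that is elementary abelian of order 4; and B is the centre of a Sylow 3-subgroup of S. Put R = [O_{3'}(S), B]. Then R is elementary abelian of order 4 or extraspecial of order 32 containing an elementary abelian subgroup of order 8 (a central product of two quaternion groups), and E is the direct sum of a subspace fixed pointwise by R and an RB-invariant subspace on which the subgroup RB acts faithfully and irreducibly. -/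
theorem result {S : Type*} [Group S] [Finite S]
    [Group.IsSolvable S] {E : Type*} [AddCommGroup E] [Module (ZMod 3) E] [Finite E] (ρ : Representation (ZMod 3) S E)
    (hfaith : Function.Injective ρ) (hO3 : Cfsg.pCore 3 S = ⊥)
    (B : Subgroup S) (hB : Nat.card ↥B = 3) (b : S) (hb : Subgroup.zpowers b = B)
    (E₀ E₁ : Submodule (ZMod 3) E) (hE01 : E₀ ⊓ E₁ = ⊥) (hE01' : E₀ ⊔ E₁ = ⊤)
    (hE1 : ∀ v ∈ E₁, ρ b v = v) (hE0inv : ∀ v ∈ E₀, ρ b v ∈ E₀) (hE0 : Nat.card ↥E₀ = 27)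
    (hind : ∃ v ∈ E₀, ρ b (ρ b v - v) - (ρ b v - v) ≠ 0)
    (Q : Subgroup S) (hQ : Cfsg.IsElementaryAbelian 2 Q) (hQ4 : Nat.card ↥Q = 4)
    (hBQ : B ≤ Subgroup.normalizer (Q : Set S)) (hBQ' : ¬ B ≤ Subgroup.centralizer (Q : Set S))
    (P : Sylow 3 S) (hBZ : (Subgroup.center ↥(P : Subgroup S)).map (P : Subgroup S).subtype = B) :
    ((Cfsg.IsElementaryAbelian 2 ⁅Cfsg.pPrimeCore 3 S, B⁆ ∧ Nat.card ↥⁅Cfsg.pPrimeCore 3 S, B⁆ = 4) ∨
      (Cfsg.IsExtraspecial 2 ↥⁅Cfsg.pPrimeCore 3 S, B⁆ ∧ Nat.card ↥⁅Cfsg.pPrimeCore 3 S, B⁆ = 32 ∧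
        ∃ A : Subgroup S, A ≤ ⁅Cfsg.pPrimeCore 3 S, B⁆ ∧ Cfsg.IsElementaryAbelian 2 A ∧ Nat.card ↥A = 8)) ∧
    ∃ F₀ F₁ : Submodule (ZMod 3) E, F₀ ⊓ F₁ = ⊥ ∧ F₀ ⊔ F₁ = ⊤ ∧
      (∀ r ∈ ⁅Cfsg.pPrimeCore 3 S, B⁆, ∀ v ∈ F₁, ρ r v = v) ∧ (∀ r ∈ ⁅Cfsg.pPrimeCore 3 S, B⁆ ⊔ B, ∀ v ∈ F₀, ρ r v ∈ F₀) ∧
      (∀ r ∈ ⁅Cfsg.pPrimeCore 3 S, B⁆ ⊔ B, (∀ v ∈ F₀, ρ r v = v) → r = 1) ∧
      (∀ N : Submodule (ZMod 3) E, N ≤ F₀ → (∀ r ∈ ⁅Cfsg.pPrimeCore 3 S, B⁆ ⊔ B, ∀ v ∈ N, ρ r v ∈ N) → N = ⊥ ∨ N = F₀) := by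
  classical
  have hF3 : Fact (Nat.Prime 3) := ⟨by norm_num⟩
  have hbB : b ∈ B := hb ▸ Subgroup.mem_zpowers b
  have hord : orderOf b = 3 := by rw [← Nat.card_zpowers, hb, hB]
  have hb3' : b ^ 3 = 1 := by rw [← hord]; exact pow_orderOf_eq_one b
  have hb3 : b * b * b = 1 := by
    rw [pow_succ, pow_two] at hb3'
    exact hb3'
  set H := pPrimeCore 3 S with hH
  set R := ⁅H, B⁆ with hR
  have hRH : R ≤ H := Subgroup.commutator_le_left H B
  have hRcard : ¬ 3 ∣ Nat.card R := by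
    intro hd
    exact not_dvd_card_pPrimeCore (G := S) 3 (hd.trans (Subgroup.card_dvd_of_le hRH))
  have hcop : ∀ r ∈ R, ¬ 3 ∣ orderOf r := by
    intro r hr hd
    apply hRcard
    have h1 : orderOf (⟨r, hr⟩ : R) ∣ Nat.card R := orderOf_dvd_natCard _
    rw [Subgroup.orderOf_mk] at h1
    exact hd.trans h1
  have h : Sett ρ R b :=
    { faith := hfaith
      b3 := hb3
      nb := fun r hr => nb_comm hbB hr
      cop := hcop
      gen := fun L hL => gen_comm hb3 hb hRcard L hL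
      rank := rank_le ρ hb3 hE01' hE1 hE0inv hE0 hind
      j3 := by
        obtain ⟨v, _, hv⟩ := hind
        exact ⟨v, hv⟩ }
  -- the four-group
  obtain ⟨hQc, hQs⟩ := hQ
  have hQcomm : ∀ x ∈ Q, ∀ y ∈ Q, x * y = y * x := by
    intro x hx y hy
    have := hQc.is_comm.comm (⟨x, hx⟩ : Q) ⟨y, hy⟩
    exact congrArg Subtype.val this
  have hQsq : ∀ x ∈ Q, x * x = 1 := by
    intro x hx
    have := hQs x hx
    rwa [pow_two] at this
  have hbQ : ∀ x ∈ Q, b * x * b⁻¹ ∈ Q := fun x hx =>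
    (Subgroup.mem_normalizer_iff.mp (hBQ hbB) x).mp hx
  obtain ⟨q, hq, hne⟩ : ∃ q ∈ Q, b * q * b⁻¹ ≠ q := by
    by_contra hall
    push Not at hall
    apply hBQ'
    rw [← hb, Subgroup.zpowers_le, Subgroup.mem_centralizer_iff]
    intro x hx
    have h1 := hall x hx
    rw [mul_inv_eq_iff_eq_mul] at h1
    exact h1.symm
  obtain ⟨h12, hq1⟩ := four_shape hQcomm hQsq hQ4 hbQ hb3 hq hne
  set t₂ := b * q * b⁻¹ with ht₂
  set t₃ := b * t₂ * b⁻¹ with ht₃
  have ht₂Q : t₂ ∈ Q := hbQ q hq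
  have ht₃Q : t₃ ∈ Q := hbQ t₂ ht₂Q
  have hbt3 : b * t₃ * b⁻¹ = q := by
    calc b * t₃ * b⁻¹ = (b * b * b) * q * (b * b * b)⁻¹ := by simp only [ht₃, ht₂]; group
      _ = q := by rw [hb3]; simp
  -- `t₂` lies in the core
  have ht₂H : t₂ ∈ H := by
    have hbcore := b_mem_core P hBZ hb hord
    have hn : (pCore 3 (S ⧸ H)).Normal := inferInstance
    have hc : t₃ * b * t₃⁻¹ * b⁻¹ = t₂ := by
      have hq' : t₃ * b * t₃⁻¹ * b⁻¹ = t₃ * (b * t₃ * b⁻¹)⁻¹ := by group
      rw [hq', hbt3, ← h12, hQcomm q hq t₂ ht₂Q]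
      group
    have hy : ((t₂ : S) : S ⧸ H) ∈ pCore 3 (S ⧸ H) := by
      rw [← hc]
      simp only [QuotientGroup.mk_mul, QuotientGroup.mk_inv]
      exact (pCore 3 _).mul_mem (hn.conj_mem _ hbcore _) ((pCore 3 _).inv_mem hbcore)
    obtain ⟨k, hk⟩ := isPGroup_pCore (G := S ⧸ H) 3 ⟨_, hy⟩
    have hk' : ((t₂ : S) : S ⧸ H) ^ (3 ^ k) = 1 := by
      simpa using congrArg Subtype.val hk
    have hsq : ((t₂ : S) : S ⧸ H) ^ 2 = 1 := by
      rw [pow_two, ← QuotientGroup.mk_mul, hQsq t₂ ht₂Q]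
      rfl
    have hg := (pow_gcd_eq_one (a := ((t₂ : S) : S ⧸ H))).mpr ⟨hsq, hk'⟩
    have hgcd : Nat.gcd 2 (3 ^ k) = 1 := Nat.Coprime.pow_right k (by norm_num)
    rw [hgcd, pow_one] at hg
    exact (QuotientGroup.eq_one_iff t₂).mp hg
  have ht1 : q ∈ R := by
    have hc2 : ⁅t₂, b⁆ = q := by
      rw [commutatorElement_def]
      have hq' : t₂ * b * t₂⁻¹ * b⁻¹ = t₂ * (b * t₂ * b⁻¹)⁻¹ := by group
      rw [hq', ← ht₃, ← h12]
      have hqi : q⁻¹ = q := by
        rw [inv_eq_iff_mul_eq_one]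
        exact hQsq q hq
      calc t₂ * (q * t₂)⁻¹ = t₂ * (t₂⁻¹ * q⁻¹) := by rw [mul_inv_rev]
        _ = q⁻¹ := mul_inv_cancel_left t₂ q⁻¹
        _ = q := hqi
    rw [← hc2]
    exact Subgroup.commutator_mem_commutator ht₂H hbB
  obtain ⟨e₁, e₂, e₃, hD⟩ := exists_FG' h (hQsq q hq) h12 rfl rfl hq1
  have : Group.IsSolvable ↥R := inferInstance
  have hcore := core_trivial h hD ht1
  have hT := tt_core h hcore
  have hW := card_W_main h hD ht1 hT
  have hP := isP2 h hD ht1 hW hcore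
  have part1 := final_structure h hD ht1 hW hP
  refine ⟨part1, W ρ R, F1 ρ R, W_inf_F1 h, W_sup_F1 h, fun r hr v hv => hv r hr, ?_, ?_, ?_⟩
  · -- invariance
    let L₁ : Subgroup S :=
      { carrier := {g | ∀ v, v ∈ W ρ R ↔ ρ g v ∈ W ρ R}
        mul_mem' := by
          intro x y hx hy v
          rw [act_mul, hy v]
          exact hx _
        one_mem' := by
          intro v
          rw [act_one]
        inv_mem' := by
          intro x hx v
          have := hx (ρ x⁻¹ v)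
          rw [act_act_inv] at this
          exact this.symm }
    have hRL : R ≤ L₁ := by
      intro r hr v
      refine ⟨W_act hr, fun hv => ?_⟩
      have := W_act (R.inv_mem hr) hv
      rwa [act_inv_act] at this
    have hBL : B ≤ L₁ := by
      rw [← hb, Subgroup.zpowers_le]
      intro v
      refine ⟨W_b h, fun hv => ?_⟩
      have h1 := W_b h (W_b h hv)
      have h2 : ρ (b * b * b) v = ρ b (ρ b (ρ b v)) := by simp only [act_mul]
      rw [← h2, hb3, act_one] at h1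
      exact h1
    intro r hr v hv
    exact ((sup_le hRL hBL) hr v).mp hv
  · -- faithful action
    have hnbn : ∀ (n : ℕ), ∀ r ∈ R, b ^ n * r * (b ^ n)⁻¹ ∈ R := by
      intro n
      induction n with
      | zero =>
        intro r hr
        simpa using hr
      | succ n ih =>
        intro r hr
        have h1 := h.nb _ (ih r hr)
        have e : b ^ (n + 1) * r * (b ^ (n + 1))⁻¹ = b * (b ^ n * r * (b ^ n)⁻¹) * b⁻¹ := by
          rw [pow_succ']
          group
        rw [e]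
        exact h1
    let T₁ : Subgroup S :=
      { carrier := {g | ∃ u ∈ R, ∃ n : ℕ, g = u * b ^ n}
        mul_mem' := by
          rintro x y ⟨u, hu, n, rfl⟩ ⟨u', hu', m, rfl⟩
          refine ⟨u * (b ^ n * u' * (b ^ n)⁻¹), R.mul_mem hu (hnbn n u' hu'), n + m, ?_⟩
          rw [pow_add]
          group
        one_mem' := ⟨1, R.one_mem, 0, by simp⟩
        inv_mem' := by
          rintro x ⟨u, hu, n, rfl⟩
          refine ⟨(b ^ (2 * n)) * u⁻¹ * (b ^ (2 * n))⁻¹, hnbn _ _ (R.inv_mem hu), 2 * n, ?_⟩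
          have h1 : b ^ (2 * n) = (b ^ n)⁻¹ := by
            rw [eq_inv_iff_mul_eq_one, ← pow_add]
            have h2 : 2 * n + n = 3 * n := by ring
            rw [h2, pow_mul, hb3', one_pow]
          rw [h1]
          group }
    have hRT : R ≤ T₁ := fun r hr => ⟨r, hr, 0, by simp⟩
    have hBT : B ≤ T₁ := by
      rw [← hb, Subgroup.zpowers_le]
      exact ⟨1, R.one_mem, 1, by simp⟩
    intro g hg htriv
    obtain ⟨u, hu, n, rfl⟩ := (sup_le hRT hBT) hg
    have hbn : b ^ n = b ^ (n % 3) := by rw [← hord, pow_mod_orderOf]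
    have hlt : n % 3 < 3 := Nat.mod_lt _ (by norm_num)
    rw [hbn] at htriv ⊢
    generalize n % 3 = m at htriv hlt ⊢
    have he1 : e₁ ∈ W ρ R := (e_mem_W h hD ht1).1
    interval_cases m
    · simp only [pow_zero, mul_one] at htriv ⊢
      exact h.eq_one_of htriv (fun f hf => hf u hu)
    · simp only [pow_one] at htriv
      have h1 := triv_of_mul h (fun w hw => W_b h hw) hb3 hu htriv e₁ he1
      rw [hD.be1] at h1
      exact absurd h1 (e2_ne hD).1
    · rw [pow_two] at htriv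
      have hc3 : (b * b) * (b * b) * (b * b) = 1 := by
        calc (b * b) * (b * b) * (b * b) = (b * b * b) * (b * b * b) := by group
          _ = 1 := by rw [hb3, one_mul]
      have hcW : ∀ w ∈ W ρ R, ρ (b * b) w ∈ W ρ R := by
        intro w hw
        rw [act_mul]
        exact W_b h (W_b h hw)
      have h1 := triv_of_mul h hcW hc3 hu htriv e₁ he1
      rw [act_mul, hD.be1, hD.be2] at h1
      exact absurd h1 (e3_ne hD).1
  · intro N hNW hN'
    by_cases hN : N = ⊥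
    · exact Or.inl hN
    · exact Or.inr (le_antisymm hNW (irred h hD ht1 hNW
        (fun r hr v hv => hN' r (Subgroup.mem_sup_left hr) v hv)
        (fun v hv => hN' b (Subgroup.mem_sup_right hbB) v hv) hN))

end Cfsg.Agent.S4415
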