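import Mathlib
import Cfsg.Statements.S4420

set_option autoImplicit false
open Cfsg

namespace Cfsg.Agent.S4420

variable {H : Type*} [Group H]

/-- A group of exponent two is commutative. -/
private lemma comm_of_exp_two (h : ∀ x : H, x ^ 2 = 1) (a b : H) : a * b = b * a := by
  have h1 : a * b * (a * b) = 1 := by rw [← pow_two]; exact h _
  have ha : a * a = 1 := by rw [← pow_two]; exact h _
  have hb : b * b = 1 := by rw [← pow_two]; exact h _
  calc a * b = a * b * (a * b) * (b * a) := by
        have : a * b * (b * a) = 1 := by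
          calc a * b * (b * a) = a * (b * b) * a := by group
            _ = 1 := by rw [hb, mul_one, ha]
        calc a * b = a * b * 1 := by rw [mul_one]
          _ = a * b * (a * b * (b * a)) := by rw [this]
          _ = a * b * (a * b) * (b * a) := by group
    _ = b * a := by rw [h1, one_mul]

private lemma isMulComm_of_comm (K : Subgroup H) (h : ∀ a ∈ K, ∀ b ∈ K, a * b = b * a) :
    IsMulCommutative K :=
  ⟨⟨fun a b => Subtype.ext (h a a.2 b b.2)⟩⟩

private lemma comm_of_isMulComm (K : Subgroup H) [hK : IsMulCommutative K] {a b : H}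
    (ha : a ∈ K) (hb : b ∈ K) : a * b = b * a := by
  have := hK.is_comm.comm ⟨a, ha⟩ ⟨b, hb⟩
  simpa using congrArg Subtype.val this

/-- A nontrivial finite group of exponent two has a subgroup of index two. -/
private lemma exists_index_two [Finite H] [Nontrivial H] (h : ∀ x : H, x ^ 2 = 1) :
    ∃ B : Subgroup H, B.index = 2 := by
  have hc := comm_of_exp_two h
  obtain ⟨B, hB⟩ : ∃ B : Subgroup H, IsCoatom B := by
    obtain h' := IsCoatomic.eq_top_or_exists_le_coatom (⊥ : Subgroup H)
    rcases h' with h' | ⟨B, hB, -⟩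
    · exact absurd h' bot_ne_top
    · exact ⟨B, hB⟩
  refine ⟨B, ?_⟩
  obtain ⟨x, hx⟩ : ∃ x, x ∉ B := by
    by_contra hcon
    push Not at hcon
    exact hB.1 (eq_top_iff.2 fun y _ => hcon y)
  have hmul : ∀ b, b ∉ B → x * b ∈ B := by
    intro b hb
    let K : Subgroup H :=
      { carrier := {y | y ∈ B ∨ y * b ∈ B}
        one_mem' := Or.inl B.one_mem
        mul_mem' := by
          rintro u v (hu | hu) (hv | hv)
          · exact Or.inl (B.mul_mem hu hv)
          · right; rw [mul_assoc]; exact B.mul_mem hu hv
          · right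
            have : u * v * b = u * b * v := by
              rw [mul_assoc, hc v b, ← mul_assoc]
            rw [this]; exact B.mul_mem hu hv
          · left
            have hbb : b * b = 1 := by rw [← pow_two]; exact h b
            have : u * v = u * b * (v * b) := by
              calc u * v = u * (b * b) * v := by rw [hbb, mul_one]
                _ = u * b * (b * v) := by group
                _ = u * b * (v * b) := by rw [hc b v]
            rw [this]; exact B.mul_mem hu hv
        inv_mem' := by
          rintro u (hu | hu)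
          · exact Or.inl (B.inv_mem hu)
          · right
            have hbb : b * b = 1 := by rw [← pow_two]; exact h b
            have : u⁻¹ * b = (u * b)⁻¹ := by
              rw [mul_inv_rev, hc]
              congr 1
              exact (inv_eq_of_mul_eq_one_left hbb).symm
            rw [this]; exact B.inv_mem hu }
    have hKtop : K = ⊤ := by
      apply hB.2
      refine lt_of_le_of_ne (fun y hy => Or.inl hy) ?_
      intro heq
      have : b ∈ K := Or.inr (by
        rw [← pow_two, h b]; exact B.one_mem)
      rw [← heq] at this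
      exact hb this
    have hxK : x ∈ K := by rw [hKtop]; trivial
    rcases hxK with hx' | hx'
    · exact absurd hx' hx
    · exact hx'
  rw [Subgroup.index_eq_two_iff']
  refine ⟨x, fun b => ?_⟩
  rw [xor_iff_or_and_not_and]
  by_cases hb : b ∈ B
  · refine ⟨Or.inr hb, ?_⟩
    rintro ⟨h1, -⟩
    apply hx
    have := B.mul_mem h1 (B.inv_mem hb)
    simpa using this
  · refine ⟨Or.inl (hmul b hb), ?_⟩
    rintro ⟨-, h2⟩
    exact hb h2

/-- Uniqueness: two subgroups with the stated property are equal unless the group has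
exponent two. -/
private lemma uniq [Finite H] (B B' : Subgroup H) [hB : IsMulCommutative B]
    (h2 : B.index = 2) (h2' : B'.index = 2)
    (hB1 : ∀ x : H, x ∉ B → x ^ 2 = 1 ∧ ∀ b ∈ B, x * b * x⁻¹ = b⁻¹)
    (hB1' : ∀ x : H, x ∉ B' → x ^ 2 = 1 ∧ ∀ b ∈ B', x * b * x⁻¹ = b⁻¹)
    (hne : B' ≠ B) : ∀ x : H, x ^ 2 = 1 := by
  obtain ⟨b, hbB, hbB'⟩ : ∃ b, b ∈ B ∧ b ∉ B' := by
    by_contra hcon
    push Not at hcon
    have hle : B ≤ B' := hcon
    have := Subgroup.relIndex_mul_index hle
    rw [h2, h2'] at this
    have h1 : B.relIndex B' = 1 := by omega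
    exact hne (le_antisymm (Subgroup.relIndex_eq_one.1 h1) hle)
  intro z
  by_cases hz : z ∈ B
  · by_cases hz' : z ∈ B'
    · have h3 := (hB1' b hbB').2 z hz'
      have h4 : b * z * b⁻¹ = z := by
        rw [comm_of_isMulComm B hbB hz]; group
      rw [h4] at h3
      have : z * z = 1 := by
        nth_rewrite 1 [h3]
        group
      rwa [pow_two]
    · exact (hB1' z hz').1
  · exact (hB1 z hz).1

/-- Structure of groups in which every element outside some proper subgroup has square 1. Let H be a finite group with a proper subgroup A such that every element outside A has square 1. Then H has an abelian normal subgroup B of index 2 such that every element outside B is an involution inverting every element of B; and if H is not an elementary abelian 2-group, B is the only abelian normal subgroup of index 2 with this property. -/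
theorem result {H : Type*} [Group H] [Finite H] (A : Subgroup H) (hA : A ≠ ⊤) (hD : ∀ x : H, x ∉ A → x ^ 2 = 1) :
    ∃ B : Subgroup H, B.Normal ∧ IsMulCommutative ↥B ∧ B.index = 2 ∧
      (∀ x : H, x ∉ B → x ^ 2 = 1 ∧ ∀ b ∈ B, x * b * x⁻¹ = b⁻¹) ∧
      (¬ (IsMulCommutative H ∧ ∀ x : H, x ^ 2 = 1) →
        ∀ B' : Subgroup H, B'.Normal → IsMulCommutative ↥B' → B'.index = 2 →
          (∀ x : H, x ∉ B' → x ^ 2 = 1 ∧ ∀ b ∈ B', x * b * x⁻¹ = b⁻¹) → B' = B) := by
  obtain ⟨x, hx⟩ : ∃ x, x ∉ A := by
    by_contra hcon
    push Not at hcon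
    exact hA (eq_top_iff.2 fun y _ => hcon y)
  by_cases hexp : ∀ y : H, y ^ 2 = 1
  · -- exponent two
    have hc := comm_of_exp_two hexp
    have : Nontrivial H := by
      refine ⟨⟨x, 1, ?_⟩⟩
      rintro rfl
      exact hx A.one_mem
    obtain ⟨B, hB⟩ := exists_index_two hexp
    refine ⟨B, Subgroup.normal_of_index_eq_two hB, isMulComm_of_comm B fun a _ b _ => hc a b, hB, ?_, ?_⟩
    · intro y _
      refine ⟨hexp y, fun b _ => ?_⟩
      rw [hc y b, mul_inv_cancel_right]
      have : b * b = 1 := by rw [← pow_two]; exact hexp b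
      exact eq_inv_of_mul_eq_one_left this
    · intro hn
      exact absurd ⟨⟨⟨hc⟩⟩, hexp⟩ hn
  · -- some element has square different from one
    have hx2 : x * x = 1 := by rw [← pow_two]; exact hD x hx
    have hxinv : x⁻¹ = x := inv_eq_of_mul_eq_one_left hx2
    have hinv : ∀ z, z ∉ A → ∀ a ∈ A, z * a * z⁻¹ = a⁻¹ := by
      intro z hz a ha
      have hza : z * a ∉ A := by
        intro h
        apply hz
        have := A.mul_mem h (A.inv_mem ha)
        simpa using this
      have h1 : z * a * (z * a) = 1 := by rw [← pow_two]; exact hD _ hza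
      have h2 : z * z = 1 := by rw [← pow_two]; exact hD _ hz
      have h3 : z⁻¹ = z := inv_eq_of_mul_eq_one_left h2
      rw [h3]
      exact eq_inv_of_mul_eq_one_left (by rw [mul_assoc (z * a) z a] at *; exact h1)
    have hcomm : ∀ a ∈ A, ∀ b ∈ A, a * b = b * a := by
      intro a ha b hb
      have h1 := hinv x hx (a * b) (A.mul_mem ha hb)
      have h2 : x * (a * b) * x⁻¹ = (x * a * x⁻¹) * (x * b * x⁻¹) := by group
      rw [h2, hinv x hx a ha, hinv x hx b hb, mul_inv_rev] at h1
      have h3 : (a⁻¹ * b⁻¹)⁻¹ = (b⁻¹ * a⁻¹)⁻¹ := by rw [h1]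
      simpa using h3.symm
    have hmul : ∀ z, z ∉ A → z * x ∈ A := by
      intro z hz
      by_contra hzx
      apply hexp
      have h4 : ∀ a ∈ A, a * a = 1 := by
        intro a ha
        have h5 := hinv _ hzx a ha
        have h6 : z * x * a * (z * x)⁻¹ = z * (x * a * x⁻¹) * z⁻¹ := by group
        rw [h6, hinv x hx a ha, hinv z hz a⁻¹ (A.inv_mem ha), inv_inv] at h5
        nth_rewrite 1 [h5]
        group
      intro y
      by_cases hy : y ∈ A
      · rw [pow_two]; exact h4 y hy
      · exact hD y hy
    have hindex : A.index = 2 := by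
      rw [Subgroup.index_eq_two_iff]
      refine ⟨x, fun b => ?_⟩
      rw [xor_iff_or_and_not_and]
      by_cases hb : b ∈ A
      · refine ⟨Or.inr hb, ?_⟩
        rintro ⟨h1, -⟩
        apply hx
        have := A.mul_mem (A.inv_mem hb) h1
        simpa using this
      · refine ⟨Or.inl (hmul b hb), ?_⟩
        rintro ⟨-, h2⟩
        exact hb h2
    have hAc : IsMulCommutative A := isMulComm_of_comm A hcomm
    have hOut : ∀ y : H, y ∉ A → y ^ 2 = 1 ∧ ∀ b ∈ A, y * b * y⁻¹ = b⁻¹ :=
      fun y hy => ⟨hD y hy, hinv y hy⟩
    refine ⟨A, Subgroup.normal_of_index_eq_two hindex, hAc, hindex, hOut, ?_⟩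
    intro _ B' _ _ h2' hB' 
    by_contra hne
    exact hexp (uniq A B' hindex h2' hOut hB' hne)

end Cfsg.Agent.S4420
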