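import Mathlib
import Cfsg.Statements.S4492
import Cfsg.Agent.Lib.FongExt
import Cfsg.Agent.Lib.BlockOrtho
import Cfsg.Agent.Lib.BlockDefect
import Cfsg.Agent.Lib.CharClifford
import Cfsg.Agent.S4571
import Cfsg.Agent.Lib.GenChar
import Cfsg.Agent.Lib.CharCoprime

set_option autoImplicit false
set_option linter.style.haveILetI false
set_option linter.unusedVariables false
set_option linter.unusedSectionVars false

open Cfsg

namespace Cfsg.Agent.S4492

open Cfsg Cfsg.Agent.Lib.CharBasic Cfsg.Agent.Lib.CharInd Cfsg.Agent.Lib.CharInduction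
open Cfsg.Agent.Lib.CosetAvg Cfsg.Agent.Lib.Clifford
open Cfsg.Agent.Lib.BlockLocal Cfsg.Agent.Lib.BlockIdem Cfsg.Agent.Lib.BlockNormal
open Cfsg.Agent.Lib.BlockOrtho Cfsg.Agent.Lib.BlockDefect Cfsg.Agent.Lib.FongExt Cfsg.Agent.Lib
open scoped ComplexConjugate

universe u

variable {G : Type u} [Group G] [Fintype G] {p : ℕ} [hp : Fact p.Prime] {M : Ideal AlgInt}

/-- **The key: class sums outside `N` vanish on characters over `θ`.** -/
theorem memLocalIdeal_centralChar_over (hM : IsPModular p M) (N : Subgroup G) [hN : N.Normal] [Fintype N]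
    (hsol : IsPSolvable p (G ⧸ N)) (h0 : pPrimeCore p (G ⧸ N) = ⊥) (hNp : ¬ p ∣ Nat.card N) {k : ℕ}
    (ρ : Representation ℂ N (Fin k → ℂ)) (hρ : ρ.IsIrreducible)
    (hinv : ∀ (g : G) (n : N), ρ.character ⟨g * n * g⁻¹, hN.conj_mem (n : G) n.2 g⟩ = ρ.character n)
    (χ : IrrCharacter G) (hover : classInner (fun n : N => (χ : G → ℂ) n) ρ.character ≠ 0)
    (x : G) (hx : ¬ p ∣ orderOf x) (hxN : x ∉ N) : MemLocalIdeal M (centralChar (χ : G → ℂ) x) := by
  classical
  haveI := isPrime_of_isPModular hM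
  have hirrθ : IsIrrCharacter N ρ.character := ⟨k, ρ, hρ, rfl⟩
  have hk : 0 < k := by
    obtain ⟨d, hd0, hd⟩ := irr_degree_pos hirrθ
    rw [char_one_eq_rep] at hd
    have : k = d := by exact_mod_cast hd
    omega
  have hkdvd : k ∣ Nat.card N := by
    have h1 := CharKernel.charDegree_dvd_card hirrθ
    have h2 := CharKernel.one_eq_charDegree (IsIrrCharacter.isCharacter hirrθ)
    rw [char_one_eq_rep] at h2
    have h3 : k = charDegree ρ.character := by exact_mod_cast h2
    rw [h3]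
    exact h1
  have hkp : ¬ p ∣ k := fun h => hNp (h.trans hkdvd)
  have hm : ¬ p ∣ k * Nat.card N := fun h => (hp.out.dvd_mul.mp h).elim hkp hNp
  obtain ⟨Γ, _, _, π, hat, R, hπ, hπhat, hRhat, hAn, hker⟩ := exists_ext N ρ hρ hk hinv
  letI : Fintype Γ := Fintype.ofFinite _
  let A : Subgroup Γ := hat.range
  haveI : A.Normal := hAn
  letI : Fintype A := Fintype.ofFinite _
  have hinj : Function.Injective hat := by
    intro a b hab
    apply Subtype.ext
    have := congrArg π hab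
    rwa [hπhat, hπhat] at this
  let ε : N ≃* A := MonoidHom.ofInjective hinj
  have hε : ∀ n : N, ((ε n : A) : Γ) = hat n := fun n => rfl
  let θ : Γ → ℂ := R.character
  let ψ : Γ → ℂ := (χ : G → ℂ) ∘ π
  have hθ : IsCharacter Γ θ := isCharacter_of_rep' _
  have hψ : IsIrrCharacter Γ ψ := isIrrCharacter_comp_of_surjective _ hπ χ.2
  have hθε : (fun a : A => θ a) ∘ ε = ρ.character := by
    funext n
    show LinearMap.trace ℂ _ (R (hat n)) = LinearMap.trace ℂ _ (ρ n)
    rw [hRhat]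
  have hψε : (fun a : A => ψ a) ∘ ε = fun n : N => (χ : G → ℂ) n := by
    funext n
    show (χ : G → ℂ) (π (hat n)) = _
    rw [hπhat]
  have hθA : IsIrrCharacter A (fun a : A => θ a) := by
    have h1 : (fun a : A => θ a) = ρ.character ∘ ε.symm := by
      rw [← hθε]
      funext a
      simp
    rw [h1]
    exact isIrrCharacter_comp_of_surjective ε.symm.toMonoidHom ε.symm.surjective hirrθ
  have he : classInner (fun a : A => ψ a) (fun a : A => θ a) ≠ 0 := by
    rw [← classInner_comp_mulEquiv ε, hθε, hψε]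
    exact hover
  let β : Γ → ℂ := cosetAvg A ψ θ
  have hβ : IsIrrCharacter Γ β := isIrr_cosetAvg A hθ hθA hψ he
  have hψeq : ψ = β * θ := eq_cosetAvg_mul A hθ hθA hψ he
  have hβker : ∀ a ∈ A, β a = β 1 := by
    intro a ha
    have := cosetAvg_mul_left A ψ θ ⟨a, ha⟩ 1
    rwa [mul_one] at this
  obtain ⟨β₁, hβ₁, hβ₁val⟩ := CharKernel.exists_quotient_irr A hβ hβker
  letI : Fintype (Γ ⧸ A) := Fintype.ofFinite _
  let κ : Γ →* Γ ⧸ A := QuotientGroup.mk' A
  have hκ : Function.Surjective κ := QuotientGroup.mk'_surjective A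
  let τ : Γ ⧸ A →* G ⧸ N := QuotientGroup.lift A ((QuotientGroup.mk' N).comp π) (by
    rintro _ ⟨n, rfl⟩
    show ((π (hat n) : G) : G ⧸ N) = 1
    rw [hπhat]
    exact (QuotientGroup.eq_one_iff _).mpr n.2)
  have hτκ : ∀ y, τ (κ y) = ((π y : G) : G ⧸ N) := fun y => rfl
  have hτ : Function.Surjective τ := by
    intro u
    obtain ⟨g, rfl⟩ := QuotientGroup.mk'_surjective N u
    obtain ⟨y, rfl⟩ := hπ g
    exact ⟨κ y, rfl⟩
  have hτc : ∀ u, τ u = 1 → ∀ w, u * w = w * u := by
    intro u hu w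
    obtain ⟨y, rfl⟩ := hκ u
    obtain ⟨w, rfl⟩ := hκ w
    have h1 : π y ∈ N := (QuotientGroup.eq_one_iff _).mp hu
    let n : N := ⟨π y, h1⟩
    let z : Γ := (hat n)⁻¹ * y
    have hz : π z = 1 := by
      show π ((hat n)⁻¹ * y) = 1
      rw [map_mul, map_inv, hπhat]
      simp [n]
    have hκn : κ (hat n) = 1 := (QuotientGroup.eq_one_iff _).mpr ⟨n, rfl⟩
    have hy : y = hat n * z := by simp [z]
    rw [hy, map_mul, hκn, one_mul, ← map_mul, ← map_mul, (hker z hz).1 w]
  obtain ⟨xh, rfl⟩ := hπ x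
  -- `x̃` does not centralize `O_p`
  have hnot : κ xh ∉ Subgroup.centralizer (pCore p (Γ ⧸ A) : Set (Γ ⧸ A)) := by
    intro hc
    have hC := PSolv.centralizer_pCore_le_of_pSolvable hsol h0
    have h1 : τ (κ xh) ∈ Subgroup.centralizer (pCore p (G ⧸ N) : Set (G ⧸ N)) := by
      rw [Subgroup.mem_centralizer_iff]
      intro q hq
      obtain ⟨u, hu, rfl⟩ := pCore_le_map_of_central τ hτ hτc hq
      have h2 := Subgroup.mem_centralizer_iff.mp hc u hu
      rw [← map_mul, h2, map_mul]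
    have h2 := hC h1
    obtain ⟨j, hj⟩ := (IsPGroup.iff_orderOf.mp (PCore.isPGroup_pCore (G := G ⧸ N) p)) ⟨_, h2⟩
    have hj' : orderOf (τ (κ xh)) = p ^ j := by
      rw [← hj]
      exact (Subgroup.orderOf_mk _ _).symm
    have h3 : orderOf (τ (κ xh)) ∣ orderOf (π xh) := by
      rw [hτκ]
      exact orderOf_map_dvd (QuotientGroup.mk' N) (π xh)
    have h4 : τ (κ xh) = 1 := by
      rcases Nat.eq_zero_or_pos j with rfl | hjpos
      · rw [pow_zero] at hj'
        exact orderOf_eq_one_iff.mp hj'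
      · exfalso
        apply hx
        rw [hj'] at h3
        exact (dvd_pow_self p hjpos.ne').trans h3
    exact hxN ((QuotientGroup.eq_one_iff _).mp h4)
  letI : Fintype (pCore p (Γ ⧸ A)) := Fintype.ofFinite _
  have hmain : MemLocalIdeal M (centralChar β₁ (κ xh)) :=
    memLocalIdeal_centralChar_of_not_mem (pCore p (Γ ⧸ A)) (PCore.isPGroup_pCore p) hM ⟨β₁, hβ₁⟩
      (κ xh) hnot
  obtain ⟨c, hcp, hc⟩ := centralChar_comp_ext π hπ hker hm (χ : G → ℂ) xh
  obtain ⟨c', hc'⟩ := centralChar_comp_surj κ hκ β₁ xh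
  have hβeq : β₁ ∘ κ = β := funext hβ₁val
  rw [hβeq] at hc'
  have hβ1 : β 1 ≠ 0 := irr_one_ne_zero' hβ
  have hθ1 : θ 1 = k := char_one_eq_rep R
  have hk0 : (k : ℂ) ≠ 0 := by exact_mod_cast hk.ne'
  have hψval : centralChar ψ xh = θ xh * (k : ℂ)⁻¹ * centralChar β xh := by
    unfold centralChar
    rw [hψeq]
    simp only [Pi.mul_apply, hθ1]
    field_simp
  have hc0 : (c : ℂ) ≠ 0 := by
    intro h
    have : c = 0 := by exact_mod_cast h
    exact hcp (this ▸ dvd_zero p)
  have hfinal : centralChar (χ : G → ℂ) (π xh) =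
      (c : ℂ)⁻¹ * (θ xh * (k : ℂ)⁻¹ * ((c' : ℂ) * centralChar β₁ (κ xh))) := by
    rw [← hc', ← hψval]
    change _ = (c : ℂ)⁻¹ * centralChar ((χ : G → ℂ) ∘ π) xh
    rw [hc]
    field_simp
  rw [hfinal]
  have hlc : MemLocalRing M (c : ℂ)⁻¹ := memLocalRing_inv_natCast hM hcp
  have hlk : MemLocalRing M (k : ℂ)⁻¹ := memLocalRing_inv_natCast hM hkp
  have hlθ : MemLocalRing M (θ xh) := memLocalRing_of_isIntegral (GenChar.char_isIntegral hθ xh)
  exact memLocalIdeal_mul_left hlc (memLocalIdeal_mul_left (memLocalRing_mul hlθ hlk)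
    (memLocalIdeal_mul_left (memLocalRing_natCast _) hmain))

/-- Restriction to `N` for invariant `θ`. -/
theorem restrict_eq_smul (N : Subgroup G) [hN : N.Normal] [Fintype N] {θ : N → ℂ}
    (hθ : IsIrrCharacter N θ)
    (hinv : ∀ (g : G) (n : N), θ ⟨g * n * g⁻¹, hN.conj_mem (n : G) n.2 g⟩ = θ n)
    {χ : G → ℂ} (hχ : IsIrrCharacter G χ) (h1 : classInner (fun n : N => χ n) θ ≠ 0) :
    (fun n : N => χ n) = classInner (fun n : N => χ n) θ • θ := by
  classical
  have h2 := CharClifford.restrict_eq_smul_sum N hN hχ hθ h1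
  have hc : ∀ g : G, conjBy N hN g θ = θ := fun g => funext (hinv g)
  have h3 : Finset.univ.image (fun g : G => conjBy N hN g θ) = {θ} := by
    ext ψ
    simp only [Finset.mem_image, Finset.mem_univ, true_and, Finset.mem_singleton, hc]
    exact ⟨fun ⟨_, h⟩ => h.symm, fun h => ⟨1, h.symm⟩⟩
  rw [h3, Finset.sum_singleton] at h2
  exact h2

/-- The value of the central character on `N`. -/
theorem centralChar_of_mem (N : Subgroup G) [hN : N.Normal] [Fintype N] {θ : N → ℂ}
    (hθ : IsIrrCharacter N θ)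
    (hinv : ∀ (g : G) (n : N), θ ⟨g * n * g⁻¹, hN.conj_mem (n : G) n.2 g⟩ = θ n)
    {χ : G → ℂ} (hχ : IsIrrCharacter G χ) (h1 : classInner (fun n : N => χ n) θ ≠ 0) (n : N) :
    centralChar χ n = ((Subgroup.centralizer ({(n : G)} : Set G)).index : ℂ) * θ n / θ 1 := by
  have h2 := restrict_eq_smul N hθ hinv hχ h1
  set e := classInner (fun n : N => χ n) θ with he
  have h3 : χ n = e * θ n := congrFun h2 n
  have h4 : χ 1 = e * θ 1 := congrFun h2 1
  unfold centralChar
  rw [h3, h4]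
  have hθ1 := irr_one_ne_zero' hθ
  field_simp

/-- The coefficients of the sum of the idempotents of the characters over `θ`. -/
theorem blockCoeff_over (N : Subgroup G) [hN : N.Normal] [Fintype N] {θ : N → ℂ}
    (hθ : IsIrrCharacter N θ)
    (hinv : ∀ (g : G) (n : N), θ ⟨g * n * g⁻¹, hN.conj_mem (n : G) n.2 g⟩ = θ n) (g : G) :
    blockCoeff {χ : IrrCharacter G | classInner (fun n : N => (χ : G → ℂ) n) θ ≠ 0} g =
      (Nat.card G : ℂ)⁻¹ * (θ 1 * conj (indFun N θ g)) := by
  classical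
  set B : Set (IrrCharacter G) := {χ | classInner (fun n : N => (χ : G → ℂ) n) θ ≠ 0} with hB
  unfold blockCoeff
  congr 1
  rw [finsum_mem_eq_sum_indB]
  have hcl := indFun_isClassFunction N θ
  have h1 := congrFun (classFunction_eq_sum hcl) g
  rw [h1]
  simp only [Finset.sum_apply, Pi.smul_apply, smul_eq_mul, map_sum, map_mul]
  rw [Finset.mul_sum]
  refine Finset.sum_congr rfl fun χ _ => ?_
  have he : classInner (indFun N θ) (χ : G → ℂ) = classInner (fun n : N => (χ : G → ℂ) n) θ :=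
    classInner_indFun_eq N hθ (IsIrrCharacter.isCharacter χ.2)
  obtain ⟨e, hen⟩ := classInner_char_irr (isCharacter_restrict N (IsIrrCharacter.isCharacter χ.2)) hθ
  rw [he, hen, Complex.conj_natCast]
  by_cases hχ : χ ∈ B
  · rw [indB_of_mem hχ, one_mul]
    have h2 : classInner (fun n : N => (χ : G → ℂ) n) θ ≠ 0 := hχ
    have h3 := restrict_eq_smul N hθ hinv χ.2 h2
    rw [hen] at h3
    have h4 : (χ : G → ℂ) 1 = e * θ 1 := congrFun h3 1
    rw [h4]
    ring
  · rw [indB_of_not_mem hχ, zero_mul]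
    have h2 : classInner (fun n : N => (χ : G → ℂ) n) θ = 0 := by
      by_contra h
      exact hχ h
    rw [hen] at h2
    rw [h2]
    ring

theorem result' (p : ℕ) [Fact p.Prime] (M : Ideal Cfsg.AlgInt) (hM : Cfsg.IsPModular p M)
    (hsolv : Cfsg.IsPSolvable p G) (N : Subgroup G) [hN : N.Normal] [Fintype N]
    (hNdef : N = Cfsg.pPrimeCore p G) (θ : Cfsg.IrrCharacter N)
    (hinv : ∀ (g : G) (n : N), (θ : N → ℂ) ⟨g * n * g⁻¹, hN.conj_mem n n.2 g⟩ = (θ : N → ℂ) n) :
    ∃ B : Set (Cfsg.IrrCharacter G), Cfsg.IsPBlock M B ∧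
      (∀ χ : Cfsg.IrrCharacter G, χ ∈ B ↔ Cfsg.classInner (fun n : N => (χ : G → ℂ) n) (θ : N → ℂ) ≠ 0) ∧
      (∀ P : Sylow p G, Cfsg.IsDefectGroup p M B (P : Subgroup G)) ∧
      ∀ D : Subgroup G, Cfsg.IsDefectGroup p M B D → ∃ P : Sylow p G, D = (P : Subgroup G) := by
  classical
  haveI := isPrime_of_isPModular hM
  obtain ⟨θf, hθ⟩ := θ
  have hθ' := hθ
  obtain ⟨k, ρ, hρ, rfl⟩ := hθ
  simp only at hinv ⊢
  have h0 : pPrimeCore p (G ⧸ N) = ⊥ :=
    PSolv.pPrimeCore_eq_bot_of_surjective p (QuotientGroup.mk' N) (QuotientGroup.mk'_surjective N)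
      (by rw [QuotientGroup.ker_mk', hNdef])
  have hsol' : IsPSolvable p (G ⧸ N) := PSolv.isPSolvable_quotient hsolv N
  have hNp : ¬ p ∣ Nat.card N := by
    have := PCore.not_dvd_card_pPrimeCore (G := G) (p := p)
    rwa [← hNdef] at this
  set B : Set (IrrCharacter G) := {χ | classInner (fun n : N => (χ : G → ℂ) n) ρ.character ≠ 0}
    with hBdef
  obtain ⟨χ₀, hχ₀, hχ₀B⟩ := CharCoprime.exists_over N hθ'
  let c₀ : IrrCharacter G := ⟨χ₀, hχ₀⟩
  have hc₀ : c₀ ∈ B := hχ₀B
  have hover := memLocalIdeal_centralChar_over hM N hsol' h0 hNp ρ hρ hinv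
  -- characters over `θ` lie in one block
  have hsame : ∀ χ ∈ B, ∀ ψ ∈ B, SameBlock M (χ : G → ℂ) (ψ : G → ℂ) := by
    intro χ hχ ψ hψ
    apply Cfsg.Agent.S4571.sameBlock_of_reg hM
    intro x hx
    by_cases hxN : x ∈ N
    · have h1 := centralChar_of_mem N hθ' hinv χ.2 hχ ⟨x, hxN⟩
      have h2 := centralChar_of_mem N hθ' hinv ψ.2 hψ ⟨x, hxN⟩
      simp only at h1 h2
      rw [h1, h2, sub_self]
      exact memLocalIdeal_zero
    · exact memLocalIdeal_sub (hover χ hχ x hx hxN) (hover ψ hψ x hx hxN)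
  -- the coefficients
  have hcoef := blockCoeff_over N hθ' hinv (G := G)
  have hcoef0 : ∀ g, g ∉ N → blockCoeff B g = 0 := by
    intro g hg
    rw [hBdef, hcoef, indFun_eq_zero_of_not_mem N hN _ hg]
    simp
  have hcard : (Nat.card G : ℂ) = (Nat.card N : ℂ) * (N.index : ℂ) := by
    rw [← Subgroup.card_mul_index N]
    push_cast
    ring
  have hNne : (Nat.card N : ℂ) ≠ 0 := natCard_subgroup_ne_zero N
  have hidx0 : (N.index : ℂ) ≠ 0 := by
    have := Subgroup.index_ne_zero_of_finite (H := N)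
    exact_mod_cast this
  have hθ1 : ρ.character 1 = k := char_one_eq_rep ρ
  have hkN : k ∣ Nat.card N := by
    have h6 := CharKernel.charDegree_dvd_card hθ'
    have h7 := CharKernel.one_eq_charDegree (IsIrrCharacter.isCharacter hθ')
    rw [hθ1] at h7
    have h8 : k = charDegree ρ.character := by exact_mod_cast h7
    rw [h8]
    exact h6
  have hloc : ∀ g, MemLocalRing M (blockCoeff B g) := by
    intro g
    by_cases hg : g ∈ N
    · have h1 : blockCoeff B g = (Nat.card N : ℂ)⁻¹ * ((k : ℂ) * conj (ρ.character ⟨g, hg⟩)) := by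
        have h2 : indFun N ρ.character g = (N.index : ℂ) * ρ.character ⟨g, hg⟩ :=
          indFun_of_invariant N hN hinv ⟨g, hg⟩
        rw [hBdef, hcoef, h2, hθ1, hcard]
        simp only [map_mul, Complex.conj_natCast]
        field_simp
      rw [h1]
      have h2 : IsIntegral ℤ (conj (ρ.character ⟨g, hg⟩)) :=
        GenChar.char_isIntegral (RealChars.isCharacter_conj (IsIrrCharacter.isCharacter hθ')) _
      exact memLocalRing_mul (memLocalRing_inv_natCast hM hNp)
        (memLocalRing_mul (memLocalRing_natCast _) (memLocalRing_of_isIntegral h2))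
    · rw [hcoef0 g hg]
      exact memLocalRing_zero
  have hZc : indB B ∈ Zc M := by
    rw [mem_Zc]
    intro g
    have h1 := congrFun (blockCoeff_eq_invF B) g
    have h2 : invF (indB B) g = blockCoeff B g := h1.symm
    rw [h2]
    exact hloc g
  have hclosed : ∀ χ ∈ B, ∀ ψ : IrrCharacter G, SameBlock M (χ : G → ℂ) (ψ : G → ℂ) → ψ ∈ B := by
    intro χ hχ ψ h
    by_contra hψ
    have h1 := memLocalIdeal_sub_of_mem_Zc hZc h
    rw [indB_of_mem hχ, indB_of_not_mem hψ, sub_zero] at h1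
    exact not_memLocalIdeal_one h1
  have hBeq : B = blockOf M (c₀ : G → ℂ) := by
    ext ψ
    exact ⟨fun h => hsame c₀ hc₀ ψ h, fun h => hclosed c₀ hc₀ ψ h⟩
  have hBblock : IsPBlock M B := ⟨c₀, hBeq⟩
  -- defect groups are Sylow
  have hSyl : ∀ D : Subgroup G, IsDefectGroup p M B D → ∃ P : Sylow p G, D = (P : Subgroup G) := by
    rintro D ⟨g, ⟨-, h2, h3⟩, P, rfl⟩
    have hgN : g ∈ N := by
      by_contra hg
      apply h2
      rw [hcoef0 g hg]
      exact memLocalIdeal_zero
    have h4 := h3 c₀ hc₀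
    have h5 := centralChar_of_mem N hθ' hinv c₀.2 hc₀ ⟨g, hgN⟩
    simp only at h5
    rw [h5] at h4
    have hnd : ¬ p ∣ (Subgroup.centralizer ({g} : Set G)).index := by
      intro hd
      apply h4
      rw [mul_div_assoc]
      refine memLocalIdeal_mul_right (memLocalIdeal_natCast_of_dvd hM hd) ?_
      rw [div_eq_mul_inv, hθ1]
      exact memLocalRing_mul (memLocalRing_of_isIntegral
        (GenChar.char_isIntegral (IsIrrCharacter.isCharacter hθ') _))
        (memLocalRing_inv_natCast hM (fun h => hNp (h.trans hkN)))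
    have hPp : IsPGroup p ((P : Subgroup (Subgroup.centralizer ({g} : Set G))).map
        (Subgroup.centralizer ({g} : Set G)).subtype) := P.isPGroup'.map _
    have hPi : ¬ p ∣ ((P : Subgroup (Subgroup.centralizer ({g} : Set G))).map
        (Subgroup.centralizer ({g} : Set G)).subtype).index := by
      rw [Subgroup.index_map_subtype, (Fact.out : p.Prime).dvd_mul]
      rintro (h | h)
      · exact P.not_dvd_index h
      · exact hnd h
    exact ⟨hPp.toSylow hPi, rfl⟩
  refine ⟨B, hBblock, fun χ => Iff.rfl, ?_, hSyl⟩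
  intro P
  obtain ⟨D₀, hD₀⟩ := exists_isDefectGroup hM hBblock
  obtain ⟨P₀, rfl⟩ := hSyl D₀ hD₀
  obtain ⟨t, rfl⟩ := MulAction.exists_smul_eq G P₀ P
  have h1 := Cfsg.Agent.Lib.BlockDefect.IsDefectGroup.conj hD₀ t
  have h2 : ((t • P₀ : Sylow p G) : Subgroup G) =
      (P₀ : Subgroup G).map (MulAut.conj t).toMonoidHom := rfl
  rw [h2]
  exact h1

/-- Let G be a finite p-solvable group, N = O_{p'}(G) its largest normal subgroup of order prime to p, and θ an irreducible character of N invariant under conjugation by G; fix a maximal ideal M of the algebraic integers containing p. Then the irreducible characters of G lying over θ (those whose restriction to N contains θ) form a single p-block of G, and the defect groups of that block are exactly the Sylow p-subgroups of G. -/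
theorem result {G : Type*} [Group G] [Fintype G] (p : ℕ) [Fact p.Prime] (M : Ideal Cfsg.AlgInt) (hM : Cfsg.IsPModular p M) (hsolv : Cfsg.IsPSolvable p G) (N : Subgroup G) [hN : N.Normal] [Fintype N] (hNdef : N = Cfsg.pPrimeCore p G) (θ : Cfsg.IrrCharacter N) (hinv : ∀ (g : G) (n : N), (θ : N → ℂ) ⟨g * n * g⁻¹, hN.conj_mem n n.2 g⟩ = (θ : N → ℂ) n) : ∃ B : Set (Cfsg.IrrCharacter G), Cfsg.IsPBlock M B ∧ (∀ χ : Cfsg.IrrCharacter G, χ ∈ B ↔ Cfsg.classInner (fun n : N => (χ : G → ℂ) n) (θ : N → ℂ) ≠ 0) ∧ (∀ P : Sylow p G, Cfsg.IsDefectGroup p M B (P : Subgroup G)) ∧ ∀ D : Subgroup G, Cfsg.IsDefectGroup p M B D → ∃ P : Sylow p G, D = (P : Subgroup G) := by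
  exact result' p M hM hsolv N hNdef θ hinv

end Cfsg.Agent.S4492
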