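import Mathlib
import Cfsg.Statements.S4440
import Cfsg.Agent.Lib.RegSupport
import Cfsg.Agent.S4492
import Cfsg.Agent.Lib.BlkNormalSub

set_option autoImplicit false
set_option linter.style.haveILetI false
set_option linter.unusedVariables false
set_option linter.unusedSectionVars false

open Cfsg

namespace Cfsg.Agent.S4440

open Cfsg Cfsg.Agent.Lib.CharBasic Cfsg.Agent.Lib.CharInd Cfsg.Agent.Lib.CharInduction
open Cfsg.Agent.Lib.CosetAvg Cfsg.Agent.Lib.Clifford
open Cfsg.Agent.Lib.BlockLocal Cfsg.Agent.Lib.BlockIdem Cfsg.Agent.Lib.BlockNormal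
open Cfsg.Agent.Lib.BlockOrtho Cfsg.Agent.Lib.BlockDefect Cfsg.Agent.Lib.FongExt Cfsg.Agent.Lib
open Cfsg.Agent.Lib.RegSupport Cfsg.Agent.Lib.BlkBasic Cfsg.Agent.Lib.FongReynolds
open scoped ComplexConjugate

universe u

variable {G : Type u} [Group G] [Fintype G] {p : ℕ} [hp : Fact p.Prime]

/-- The function `∑_{χ ∈ U} χ(1) χ`. -/
noncomputable def Fu (U : Set (IrrCharacter G)) (x : G) : ℂ :=
  ∑ χ : IrrCharacter G, blkInd U χ * ((χ : G → ℂ) 1 * (χ : G → ℂ) x)

theorem blockCoeff_eq_Fu (U : Set (IrrCharacter G)) (x : G) :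
    blockCoeff U x = (Nat.card G : ℂ)⁻¹ * Fu U x⁻¹ := by
  unfold blockCoeff Fu
  rw [finsum_mem_eq_sum_blkInd]
  congr 1
  refine Finset.sum_congr rfl fun χ _ => ?_
  rw [char_conj_eq_inv (IsIrrCharacter.isCharacter χ.2) x]

theorem blockCoeff_eq_zero_of_Fu {U : Set (IrrCharacter G)}
    (hU : ∀ x : G, p ∣ orderOf x → Fu U x = 0) (x : G) (hx : p ∣ orderOf x) : blockCoeff U x = 0 := by
  rw [blockCoeff_eq_Fu, hU x⁻¹ (by rwa [orderOf_inv]), mul_zero]

/-- The invariant case: the support of the idempotent lies in `N`. -/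
theorem support_of_invariant (N : Subgroup G) [hN : N.Normal] [Fintype N]
    (hsol : IsPSolvable p (G ⧸ N)) (h0 : pPrimeCore p (G ⧸ N) = ⊥) (hNp : ¬ p ∣ Nat.card N) {k : ℕ}
    (ρ : Representation ℂ N (Fin k → ℂ)) (hρ : ρ.IsIrreducible)
    (hinv : ∀ (g : G) (n : N), ρ.character ⟨g * n * g⁻¹, hN.conj_mem (n : G) n.2 g⟩ = ρ.character n)
    (U : Set (IrrCharacter G))
    (hover : ∀ χ ∈ U, classInner (fun n : N => (χ : G → ℂ) n) ρ.character ≠ 0)
    (hU : ∀ x : G, p ∣ orderOf x → blockCoeff U x = 0)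
    (g : G) (hgN : g ∉ N) : blockCoeff U g = 0 := by
  classical
  by_contra hne
  have hx : ¬ p ∣ orderOf g := fun h => hne (hU g h)
  have hirrθ : IsIrrCharacter N ρ.character := ⟨k, ρ, hρ, rfl⟩
  have hk : 0 < k := by
    obtain ⟨d, hd0, hd⟩ := irr_degree_pos hirrθ
    rw [char_one_eq_rep] at hd
    have : k = d := by exact_mod_cast hd
    omega
  have hkdvd : k ∣ Nat.card N := by
    have h1 := CharKernel.charDegree_dvd_card hirrθ
    have h2 := CharKernel.one_eq_charDegree (IsIrrCharacter.isCharacter hirrθ)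
    rw [char_one_eq_rep] at h2
    have h3 : k = charDegree ρ.character := by exact_mod_cast h2
    rw [h3]
    exact h1
  have hkp : ¬ p ∣ k := fun h => hNp (h.trans hkdvd)
  have hm : ¬ p ∣ k * Nat.card N := fun h => (hp.out.dvd_mul.mp h).elim hkp hNp
  obtain ⟨Γ, _, _, π, hat, R, hπ, hπhat, hRhat, hAn, hker⟩ := exists_ext N ρ hρ hk hinv
  letI : Fintype Γ := Fintype.ofFinite _
  let A : Subgroup Γ := hat.range
  haveI : A.Normal := hAn
  letI : Fintype A := Fintype.ofFinite _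
  have hinj : Function.Injective hat := by
    intro a b hab
    apply Subtype.ext
    have := congrArg π hab
    rwa [hπhat, hπhat] at this
  let ε : N ≃* A := MonoidHom.ofInjective hinj
  have hε : ∀ n : N, ((ε n : A) : Γ) = hat n := fun n => rfl
  let θ : Γ → ℂ := R.character
  have hθ : IsCharacter Γ θ := isCharacter_of_rep' _
  have hθε : (fun a : A => θ a) ∘ ε = ρ.character := by
    funext n
    show LinearMap.trace ℂ _ (R (hat n)) = LinearMap.trace ℂ _ (ρ n)
    rw [hRhat]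
  have hθA : IsIrrCharacter A (fun a : A => θ a) := by
    have h1 : (fun a : A => θ a) = ρ.character ∘ ε.symm := by
      rw [← hθε]
      funext a
      simp
    rw [h1]
    exact isIrrCharacter_comp_of_surjective ε.symm.toMonoidHom ε.symm.surjective hirrθ
  letI : Fintype (Γ ⧸ A) := Fintype.ofFinite _
  let κ : Γ →* Γ ⧸ A := QuotientGroup.mk' A
  have hκ : Function.Surjective κ := QuotientGroup.mk'_surjective A
  -- the characters of `Γ / A` attached to `U`
  have hex : ∀ χ : U, ∃ ξ : IrrCharacter (Γ ⧸ A), (∀ y : Γ,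
      (ξ : Γ ⧸ A → ℂ) (κ y) = cosetAvg A (((χ : IrrCharacter G) : G → ℂ) ∘ π) θ y) ∧
      ∀ y : Γ, ((χ : IrrCharacter G) : G → ℂ) (π y) = (ξ : Γ ⧸ A → ℂ) (κ y) * θ y := by
    intro χ
    have hψ : IsIrrCharacter Γ (((χ : IrrCharacter G) : G → ℂ) ∘ π) :=
      isIrrCharacter_comp_of_surjective _ hπ (χ : IrrCharacter G).2
    have hψε : (fun a : A => (((χ : IrrCharacter G) : G → ℂ) ∘ π) a) ∘ ε =
        fun n : N => ((χ : IrrCharacter G) : G → ℂ) n := by
      funext n
      show ((χ : IrrCharacter G) : G → ℂ) (π (hat n)) = _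
      rw [hπhat]
    have he : classInner (fun a : A => (((χ : IrrCharacter G) : G → ℂ) ∘ π) a) (fun a : A => θ a) ≠ 0 := by
      rw [← classInner_comp_mulEquiv ε, hθε, hψε]
      exact hover _ χ.2
    have hβ := isIrr_cosetAvg A hθ hθA hψ he
    have hβker : ∀ a ∈ A, cosetAvg A (((χ : IrrCharacter G) : G → ℂ) ∘ π) θ a =
        cosetAvg A (((χ : IrrCharacter G) : G → ℂ) ∘ π) θ 1 := by
      intro a ha
      have := cosetAvg_mul_left A (((χ : IrrCharacter G) : G → ℂ) ∘ π) θ ⟨a, ha⟩ 1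
      rwa [mul_one] at this
    obtain ⟨β₁, hβ₁, hβ₁val⟩ := CharKernel.exists_quotient_irr A hβ hβker
    refine ⟨⟨β₁, hβ₁⟩, hβ₁val, fun y => ?_⟩
    have h1 := congrFun (eq_cosetAvg_mul A hθ hθA hψ he) y
    show ((χ : IrrCharacter G) : G → ℂ) (π y) = β₁ (κ y) * θ y
    rw [show β₁ (κ y) = cosetAvg A (((χ : IrrCharacter G) : G → ℂ) ∘ π) θ y from hβ₁val y]
    exact h1
  choose B hB hBeq using hex
  have hθ1 : θ 1 = k := char_one_eq_rep R
  have hk0 : (k : ℂ) ≠ 0 := by exact_mod_cast hk.ne'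
  have hBinj : Function.Injective B := by
    intro χ χ' h
    apply Subtype.ext
    apply Subtype.ext
    funext z
    obtain ⟨y, rfl⟩ := hπ z
    rw [hBeq χ y, hBeq χ' y, h]
  set UX : Set (IrrCharacter (Γ ⧸ A)) := Set.range B with hUXdef
  letI : Fintype U := Fintype.ofFinite _
  set S : Γ → ℂ := fun y => ∑ χ : U, (B χ : Γ ⧸ A → ℂ) 1 * conj ((B χ : Γ ⧸ A → ℂ) (κ y)) with hS
  have hfin : ∀ (V : Set (IrrCharacter G)) [Fintype V] (f : IrrCharacter G → ℂ),
      ∑ᶠ χ ∈ V, f χ = ∑ χ : V, f χ := by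
    intro V _ f
    rw [← finsum_subtype_eq_finsum_cond, finsum_eq_sum_of_fintype]
  have hcU : ∀ z : G, blockCoeff U z =
      (Nat.card G : ℂ)⁻¹ * ∑ χ : U, ((χ : IrrCharacter G) : G → ℂ) 1 * conj (((χ : IrrCharacter G) : G → ℂ) z) := by
    intro z
    unfold blockCoeff
    rw [hfin]
  have hcX : ∀ y : Γ, blockCoeff UX (κ y) = (Nat.card (Γ ⧸ A) : ℂ)⁻¹ * S y := by
    intro y
    unfold blockCoeff
    rw [hUXdef, finsum_mem_range hBinj, finsum_eq_sum_of_fintype]
  have hone : ∀ χ : U, ((χ : IrrCharacter G) : G → ℂ) 1 = (B χ : Γ ⧸ A → ℂ) 1 * k := by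
    intro χ
    have h1 := hBeq χ 1
    rw [map_one, map_one, hθ1] at h1
    exact h1
  -- from `S` to the coefficients of `U`
  have hGS : ∀ y : Γ, blockCoeff U (π y) = (Nat.card G : ℂ)⁻¹ * ((k : ℂ) * conj (θ y) * S y) := by
    intro y
    rw [hcU, hS]
    congr 1
    rw [Finset.mul_sum]
    refine Finset.sum_congr rfl fun χ _ => ?_
    rw [hone χ, hBeq χ y, map_mul]
    ring
  -- from the coefficients of `U` to `S`
  have hSG : ∀ y : Γ, (∀ a : A, blockCoeff U (π ((a : Γ) * y)) = 0) → S y = 0 := by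
    intro y hy
    have h1 : ∀ a : A, ∑ χ : U, ((χ : IrrCharacter G) : G → ℂ) 1 *
        conj (((χ : IrrCharacter G) : G → ℂ) (π ((a : Γ) * y))) = 0 := by
      intro a
      have h2 := hy a
      rw [hcU] at h2
      exact (mul_eq_zero.mp h2).resolve_left (inv_ne_zero natCard_ne_zero')
    have h3 : ∀ χ : U, (B χ : Γ ⧸ A → ℂ) 1 * conj ((B χ : Γ ⧸ A → ℂ) (κ y)) =
        (k : ℂ)⁻¹ * (Nat.card A : ℂ)⁻¹ * ∑ a : A, θ ((a : Γ) * y) *
          (((χ : IrrCharacter G) : G → ℂ) 1 * conj (((χ : IrrCharacter G) : G → ℂ) (π ((a : Γ) * y)))) := by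
      intro χ
      rw [hB χ y, cosetAvg_apply, map_mul, map_sum, map_inv₀, Complex.conj_natCast, hone χ]
      have h5 : ∑ a : A, θ ((a : Γ) * y) * (((B χ : Γ ⧸ A → ℂ) 1 * (k : ℂ)) *
            conj (((χ : IrrCharacter G) : G → ℂ) (π ((a : Γ) * y)))) =
          ((B χ : Γ ⧸ A → ℂ) 1 * (k : ℂ)) * ∑ a : A, conj ((((χ : IrrCharacter G) : G → ℂ) ∘ π) ((a : Γ) * y) *
            conj (θ ((a : Γ) * y))) := by
        rw [Finset.mul_sum]
        refine Finset.sum_congr rfl fun a _ => ?_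
        simp only [Function.comp_apply, map_mul, Complex.conj_conj]
        ring
      rw [h5]
      field_simp
    rw [hS]
    simp_rw [h3]
    have h4 : ∑ χ : U, ∑ a : A, θ ((a : Γ) * y) *
          (((χ : IrrCharacter G) : G → ℂ) 1 * conj (((χ : IrrCharacter G) : G → ℂ) (π ((a : Γ) * y)))) = 0 := by
      rw [Finset.sum_comm]
      refine Finset.sum_eq_zero fun a _ => ?_
      rw [← Finset.mul_sum, h1 a, mul_zero]
    rw [← Finset.mul_sum, h4, mul_zero]
  let τ : Γ ⧸ A →* G ⧸ N := QuotientGroup.lift A ((QuotientGroup.mk' N).comp π) (by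
    rintro _ ⟨n, rfl⟩
    show ((π (hat n) : G) : G ⧸ N) = 1
    rw [hπhat]
    exact (QuotientGroup.eq_one_iff _).mpr n.2)
  have hτκ : ∀ y, τ (κ y) = ((π y : G) : G ⧸ N) := fun y => rfl
  have hτ : Function.Surjective τ := by
    intro u
    obtain ⟨g, rfl⟩ := QuotientGroup.mk'_surjective N u
    obtain ⟨y, rfl⟩ := hπ g
    exact ⟨κ y, rfl⟩
  have hτker : ∀ u, τ u = 1 → ∃ z : Γ, π z = 1 ∧ κ z = u := by
    intro u hu
    obtain ⟨y, rfl⟩ := hκ u
    have h1 : π y ∈ N := (QuotientGroup.eq_one_iff _).mp hu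
    let n : N := ⟨π y, h1⟩
    refine ⟨(hat n)⁻¹ * y, ?_, ?_⟩
    · rw [map_mul, map_inv, hπhat]
      simp [n]
    · have hκn : κ (hat n) = 1 := (QuotientGroup.eq_one_iff _).mpr ⟨n, rfl⟩
      rw [map_mul, map_inv, hκn, inv_one, one_mul]
  have hτc : ∀ u, τ u = 1 → ∀ w, u * w = w * u := by
    intro u hu w
    obtain ⟨z, hz, rfl⟩ := hτker u hu
    obtain ⟨w, rfl⟩ := hκ w
    rw [← map_mul, ← map_mul, (hker z hz).1 w]
  have hτord : ∀ x, p ∣ orderOf x → p ∣ orderOf (τ x) := by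
    intro x hx'
    by_contra hnd
    have h1 : τ (x ^ orderOf (τ x)) = 1 := by
      rw [map_pow, pow_orderOf_eq_one]
    obtain ⟨z, hz, hzx⟩ := hτker _ h1
    have h2 : x ^ (orderOf (τ x) * (k * Nat.card N)) = 1 := by
      rw [pow_mul, ← hzx, ← map_pow, (hker z hz).2, map_one]
    have h3 := hx'.trans (orderOf_dvd_of_pow_eq_one h2)
    exact (hp.out.dvd_mul.mp h3).elim hnd hm
  -- `U_X` vanishes on `p`-singular elements
  have hUX : ∀ x : Γ ⧸ A, p ∣ orderOf x → blockCoeff UX x = 0 := by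
    intro x hx'
    obtain ⟨y, rfl⟩ := hκ x
    rw [hcX, hSG y, mul_zero]
    intro a
    apply hU
    have h1 := hτord _ hx'
    have h2 : τ (κ y) = ((π ((a : Γ) * y) : G) : G ⧸ N) := by
      rw [← hτκ, map_mul]
      have hκa : κ (a : Γ) = 1 := (QuotientGroup.eq_one_iff _).mpr a.2
      rw [hκa, one_mul]
    rw [h2] at h1
    exact h1.trans (orderOf_map_dvd (QuotientGroup.mk' N) _)
  obtain ⟨y, rfl⟩ := hπ g
  have hS0 : S y ≠ 0 := by
    intro h
    apply hne
    rw [hGS, h]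
    simp
  have hcXne : blockCoeff UX (κ y) ≠ 0 := by
    rw [hcX]
    exact mul_ne_zero (inv_ne_zero natCard_ne_zero') hS0
  letI : Fintype (pCore p (Γ ⧸ A)) := Fintype.ofFinite _
  have hmem := mem_centralizer_of_blockCoeff_ne_zero (pCore p (Γ ⧸ A)) (PCore.isPGroup_pCore p) hUX hcXne
  -- a contradiction
  have hC := PSolv.centralizer_pCore_le_of_pSolvable hsol h0
  have h1 : τ (κ y) ∈ Subgroup.centralizer (pCore p (G ⧸ N) : Set (G ⧸ N)) := by
    rw [Subgroup.mem_centralizer_iff]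
    intro q hq
    obtain ⟨u, hu, rfl⟩ := pCore_le_map_of_central τ hτ hτc hq
    have h2 := Subgroup.mem_centralizer_iff.mp hmem u hu
    rw [← map_mul, h2, map_mul]
  have h2 := hC h1
  obtain ⟨j, hj⟩ := (IsPGroup.iff_orderOf.mp (PCore.isPGroup_pCore (G := G ⧸ N) p)) ⟨_, h2⟩
  have hj' : orderOf (τ (κ y)) = p ^ j := by
    rw [← hj]
    exact (Subgroup.orderOf_mk _ _).symm
  have h3 : orderOf (τ (κ y)) ∣ orderOf (π y) := by
    rw [hτκ]
    exact orderOf_map_dvd (QuotientGroup.mk' N) (π y)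
  have h4 : τ (κ y) = 1 := by
    rcases Nat.eq_zero_or_pos j with rfl | hjpos
    · rw [pow_zero] at hj'
      exact orderOf_eq_one_iff.mp hj'
    · exfalso
      apply hx
      rw [hj'] at h3
      exact (dvd_pow_self p hjpos.ne').trans h3
  exact hgN ((QuotientGroup.eq_one_iff _).mp h4)

/-- The invariant case: a nonempty set over an invariant `θ` contains everything over `θ`. -/
theorem mem_of_invariant (N : Subgroup G) [hN : N.Normal] [Fintype N] {θ : N → ℂ}
    (hθ : IsIrrCharacter N θ)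
    (hinv : ∀ (g : G) (n : N), θ ⟨g * n * g⁻¹, hN.conj_mem (n : G) n.2 g⟩ = θ n)
    (U : Set (IrrCharacter G)) (hover : ∀ χ ∈ U, classInner (fun n : N => (χ : G → ℂ) n) θ ≠ 0)
    (hsupp : ∀ g : G, g ∉ N → blockCoeff U g = 0) {χ₀ : IrrCharacter G} (hχ₀ : χ₀ ∈ U)
    (ψ : IrrCharacter G) (hψ : classInner (fun n : N => (ψ : G → ℂ) n) θ ≠ 0) : ψ ∈ U := by
  classical
  have hex : ∀ χ : IrrCharacter G, ∃ e : ℕ, classInner (fun n : N => (χ : G → ℂ) n) θ = e := fun χ =>
    classInner_char_irr (isCharacter_restrict N (IsIrrCharacter.isCharacter χ.2)) hθ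
  choose e he using hex
  have hval : ∀ χ : IrrCharacter G, classInner (fun n : N => (χ : G → ℂ) n) θ ≠ 0 →
      ∀ n : N, (χ : G → ℂ) n = e χ * θ n := by
    intro χ hχ n
    have h1 := congrFun (Cfsg.Agent.S4492.restrict_eq_smul N hθ hinv χ.2 hχ) n
    rw [he χ] at h1
    simpa using h1
  set K : ℕ := ∑ χ : IrrCharacter G, if χ ∈ U then e χ ^ 2 else 0 with hK
  have hKpos : K ≠ 0 := by
    have h1 : e χ₀ ≠ 0 := by
      intro h
      apply hover χ₀ hχ₀
      rw [he, h]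
      simp
    have h2 : (if χ₀ ∈ U then e χ₀ ^ 2 else 0) ≤ K := by
      rw [hK]
      exact Finset.single_le_sum (f := fun χ : IrrCharacter G => if χ ∈ U then e χ ^ 2 else 0)
        (fun _ _ => Nat.zero_le _) (Finset.mem_univ χ₀)
    rw [if_pos hχ₀] at h2
    have h3 : 0 < e χ₀ ^ 2 := by positivity
    omega
  have hθ1 : θ 1 ≠ 0 := irr_one_ne_zero' hθ
  have hθ1conj : conj (θ 1) = θ 1 := by
    rw [char_conj_eq_inv (IsIrrCharacter.isCharacter hθ) 1, inv_one]
  have hcN : ∀ n : N, blockCoeff U n = (Nat.card G : ℂ)⁻¹ * ((K : ℂ) * θ 1 * conj (θ n)) := by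
    intro n
    unfold blockCoeff
    rw [finsum_mem_eq_sum_blkInd]
    congr 1
    rw [hK]
    push_cast
    rw [Finset.sum_mul, Finset.sum_mul]
    refine Finset.sum_congr rfl fun χ _ => ?_
    by_cases hχ : χ ∈ U
    · rw [blkInd_of_mem hχ, if_pos hχ, one_mul]
      have h1 := hval χ (hover χ hχ) n
      have h2 := hval χ (hover χ hχ) 1
      have h3 : (χ : G → ℂ) 1 = e χ * θ 1 := h2
      rw [h3, h1, map_mul, Complex.conj_natCast]
      ring
    · rw [blkInd_of_not_mem hχ, if_neg hχ]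
      simp
  have hψv := hval ψ hψ
  have hLHS : ∑ m : G, blockCoeff U m * (ψ : G → ℂ) m =
      (Nat.card G : ℂ)⁻¹ * ((K : ℂ) * θ 1 * (e ψ : ℂ) * (Nat.card N : ℂ)) := by
    rw [← sum_subgroup_eq_sum N (fun m : G => blockCoeff U m * (ψ : G → ℂ) m)
      (fun y hy => by simp [hsupp y hy])]
    have h1 : ∀ n : N, blockCoeff U (n : G) * (ψ : G → ℂ) n =
        (Nat.card G : ℂ)⁻¹ * ((K : ℂ) * θ 1 * (e ψ : ℂ)) * (θ n * conj (θ n)) := by
      intro n
      rw [hcN n, hψv n]
      ring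
    simp_rw [h1]
    rw [← Finset.mul_sum]
    have h2 := classInner_irr_self hθ
    unfold classInner at h2
    have hNne : (Nat.card N : ℂ) ≠ 0 := natCard_ne_zero'
    have h3 : ∑ n : N, θ n * conj (θ n) = (Nat.card N : ℂ) := by
      field_simp at h2
      exact h2
    rw [h3]
    ring
  have hRHS : ∑ m : G, blockCoeff U m * (ψ : G → ℂ) m = blkInd U ψ * (ψ : G → ℂ) 1 := by
    rw [sum_blockCoeff_mul, Finset.sum_eq_single ψ]
    · rw [classInner_irr_self ψ.2, mul_one]
    · intro ξ _ hξ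
      rw [classInner_irr_ne ψ.2 ξ.2 (fun h => hξ (Subtype.ext h.symm)), mul_zero]
    · simp
  by_contra hnot
  rw [blkInd_of_not_mem hnot, zero_mul] at hRHS
  rw [hRHS] at hLHS
  have he0 : (e ψ : ℂ) ≠ 0 := by
    intro h
    apply hψ
    rw [he, h]
  have hK0 : (K : ℂ) ≠ 0 := by exact_mod_cast hKpos
  have hNne : (Nat.card N : ℂ) ≠ 0 := natCard_ne_zero'
  have hGne : (Nat.card G : ℂ)⁻¹ ≠ 0 := inv_ne_zero natCard_ne_zero'
  exact (mul_ne_zero hGne (mul_ne_zero (mul_ne_zero (mul_ne_zero hK0 hθ1) he0) hNne)) hLHS.symm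

/-- In a group of order prime to `p` every block is a singleton. -/
theorem eq_of_sameBlock {A : Type*} [Group A] [Fintype A] {M : Ideal AlgInt} (hM : IsPModular p M)
    (hA : ¬ p ∣ Nat.card A) {θ θ' : IrrCharacter A} (h : SameBlock M (θ : A → ℂ) (θ' : A → ℂ)) :
    θ' = θ := by
  classical
  haveI := hM.2.1.isPrime
  by_contra hne
  have hcl : IsClassFunction A (blockCoeff ({θ} : Set (IrrCharacter A))) :=
    Cfsg.Agent.Lib.BlockOrth.blockCoeff_isClassFunction _
  have hR : ∀ g, MemLocalRing M (blockCoeff ({θ} : Set (IrrCharacter A)) g) := by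
    intro g
    unfold blockCoeff
    rw [finsum_mem_singleton]
    have h2 : IsIntegral ℤ (conj ((θ : A → ℂ) g)) :=
      GenChar.char_isIntegral (RealChars.isCharacter_conj (IsIrrCharacter.isCharacter θ.2)) _
    exact memLocalRing_mul (memLocalRing_inv_natCast hM hA)
      (memLocalRing_mul (memLocalRing_of_isIntegral
        (GenChar.char_isIntegral (IsIrrCharacter.isCharacter θ.2) _)) (memLocalRing_of_isIntegral h2))
  have hZ := mem_Zc_of_classFunction (M := M) hcl hR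
  have h3 := memLocalIdeal_sub_of_mem_Zc hZ h
  simp only [omega_blockCoeff] at h3
  rw [blkInd_of_mem (Set.mem_singleton θ), blkInd_of_not_mem (by simpa using hne), sub_zero] at h3
  exact not_memLocalIdeal_one h3

theorem isPBlock_singleton {A : Type*} [Group A] [Fintype A] {M : Ideal AlgInt} (hM : IsPModular p M)
    (hA : ¬ p ∣ Nat.card A) (θ : IrrCharacter A) : IsPBlock M ({θ} : Set (IrrCharacter A)) := by
  haveI := hM.2.1.isPrime
  refine ⟨θ, ?_⟩
  ext ξ
  constructor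
  · intro h
    rw [Set.mem_singleton_iff.mp h]
    exact sameBlock_refl _
  · intro h
    exact Set.mem_singleton_iff.mpr (eq_of_sameBlock hM hA h)

/-- Multiplying by an element of a normal `p'`-subgroup keeps `p`-singular elements `p`-singular. -/
theorem dvd_orderOf_mul (N : Subgroup G) [hN : N.Normal] (hNp : ¬ p ∣ Nat.card N) {x n : G} (hn : n ∈ N)
    (hx : p ∣ orderOf x) : p ∣ orderOf (x * n) := by
  classical
  by_contra hnd
  have h1 : ((x * n : G) : G ⧸ N) = (x : G ⧸ N) := by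
    rw [QuotientGroup.eq]
    simpa using hn
  have h2 : (x ^ orderOf (x * n) : G) ∈ N := by
    rw [← QuotientGroup.eq_one_iff]
    have h3 : ((x ^ orderOf (x * n) : G) : G ⧸ N) = ((x : G) : G ⧸ N) ^ orderOf (x * n) := rfl
    rw [h3, ← h1]
    have h4 : ((x * n : G) : G ⧸ N) ^ orderOf (x * n) = (((x * n) ^ orderOf (x * n) : G) : G ⧸ N) := rfl
    rw [h4, pow_orderOf_eq_one]
    rfl
  have h3 : (x ^ orderOf (x * n)) ^ Nat.card N = 1 := by
    have := pow_card_eq_one' (x := (⟨_, h2⟩ : N))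
    exact congrArg Subtype.val this
  rw [← pow_mul] at h3
  have h4 := hx.trans (orderOf_dvd_of_pow_eq_one h3)
  exact (hp.out.dvd_mul.mp h4).elim hnd hNp

section Over

variable (N : Subgroup G) [hN : N.Normal] [Fintype N]

/-- The part of `U` over an invariant character. -/
theorem sum_Fu_invariant (θ : IrrCharacter N)
    (hinv : ∀ (g : G) (n : N), (θ : N → ℂ) ⟨g * n * g⁻¹, hN.conj_mem (n : G) n.2 g⟩ = (θ : N → ℂ) n)
    (U : Set (IrrCharacter G)) (y : G) :
    ∑ n : N, blockCoeff ({θ} : Set (IrrCharacter N)) n * Fu U (y * n) =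
      Fu (U ∩ {χ | classInner (fun n : N => (χ : G → ℂ) n) (θ : N → ℂ) ≠ 0}) y := by
  classical
  unfold Fu
  simp_rw [Finset.mul_sum]
  rw [Finset.sum_comm]
  refine Finset.sum_congr rfl fun χ _ => ?_
  have hχc := IsIrrCharacter.isCharacter χ.2
  have h1 : ∀ n : N, blockCoeff ({θ} : Set (IrrCharacter N)) n *
      (blkInd U χ * ((χ : G → ℂ) 1 * (χ : G → ℂ) (y * n))) =
      (blkInd U χ * (χ : G → ℂ) 1) * (blockCoeff ({θ} : Set (IrrCharacter N)) n * (χ : G → ℂ) (y * N.subtype n)) := by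
    intro n
    simp only [Subgroup.subtype_apply]
    ring
  simp_rw [h1]
  rw [← Finset.mul_sum]
  by_cases hov : classInner (fun n : N => (χ : G → ℂ) n) (θ : N → ℂ) ≠ 0
  · have h2 := Cfsg.Agent.S4492.restrict_eq_smul N θ.2 hinv χ.2 hov
    have h3 : ∑ m : N, blockCoeff ({θ} : Set (IrrCharacter N)) m * (χ : G → ℂ) (y * N.subtype m) = (χ : G → ℂ) y := by
      refine sum_blockCoeff_char_mul_eq_self N.subtype hχc (c := {θ}) ?_ y
      intro θ' hθ'
      have h4 : ((χ : G → ℂ) ∘ N.subtype) = fun n : N => (χ : G → ℂ) n := rfl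
      rw [h4, h2, classInner_smul_left,
        classInner_irr_ne θ.2 θ'.2 (fun h => hθ' (Set.mem_singleton_iff.mpr (Subtype.ext h.symm))), mul_zero]
    rw [h3]
    by_cases hχU : χ ∈ U
    · have hW : χ ∈ U ∩ {χ | classInner (fun n : N => (χ : G → ℂ) n) (θ : N → ℂ) ≠ 0} := ⟨hχU, hov⟩
      rw [blkInd_of_mem hχU, blkInd_of_mem hW]
      ring
    · have hW : χ ∉ U ∩ {χ | classInner (fun n : N => (χ : G → ℂ) n) (θ : N → ℂ) ≠ 0} := fun h => hχU h.1
      rw [blkInd_of_not_mem hχU, blkInd_of_not_mem hW]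
      ring
  · have h3 : ∑ m : N, blockCoeff ({θ} : Set (IrrCharacter N)) m * (χ : G → ℂ) (y * N.subtype m) = 0 := by
      refine sum_blockCoeff_char_mul_eq_zero N.subtype hχc (c := {θ}) ?_ y
      intro θ' hθ'
      rw [Set.mem_singleton_iff.mp hθ']
      by_contra hc
      exact hov hc
    have hW : χ ∉ U ∩ {χ | classInner (fun n : N => (χ : G → ℂ) n) (θ : N → ℂ) ≠ 0} := fun h => hov h.2
    rw [h3, blkInd_of_not_mem hW]
    ring

variable {b : Set (IrrCharacter N)} {T : Subgroup G} [Fintype T] (hNT : N ≤ T)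

/-- The set of characters of the stabilizer attached to `U`. -/
def UT (b : Set (IrrCharacter N)) (U : Set (IrrCharacter G)) : Set (IrrCharacter T) :=
  {τ | OverB hNT b (τ : T → ℂ) ∧ ∃ χ ∈ U, (χ : G → ℂ) = indFun T (τ : T → ℂ)}

theorem sum_Fu_stab (hT : IsStab b T) {M : Ideal AlgInt} [M.IsPrime] (hb : IsPBlock M b)
    {θ₀ : IrrCharacter N} (hθ₀ : θ₀ ∈ b) (hbs : b = {θ₀}) (U : Set (IrrCharacter G)) (t : T) :
    ∑ n : N, blockCoeff b n * Fu U ((t : G) * n) = (T.index : ℂ) * Fu (UT N hNT b U) t := by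
  classical
  subst hbs
  set g : IrrCharacter G → ℂ := fun χ => ∑ n : N, blockCoeff ({θ₀} : Set (IrrCharacter N)) n * (χ : G → ℂ) ((t : G) * n)
    with hg
  have hLHS : ∑ n : N, blockCoeff ({θ₀} : Set (IrrCharacter N)) n * Fu U ((t : G) * n) =
      ∑ χ : IrrCharacter G, blkInd U χ * ((χ : G → ℂ) 1 * g χ) := by
    unfold Fu
    simp_rw [Finset.mul_sum]
    rw [Finset.sum_comm]
    refine Finset.sum_congr rfl fun χ _ => ?_
    rw [hg]
    simp only
    rw [Finset.mul_sum, Finset.mul_sum]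
    refine Finset.sum_congr rfl fun n _ => ?_
    ring
  rw [hLHS]
  unfold Fu
  rw [Finset.mul_sum]
  have hg0 : ∀ χ : IrrCharacter G, classInner (fun n : N => (χ : G → ℂ) n) (θ₀ : N → ℂ) = 0 → g χ = 0 := by
    intro χ hχ
    refine sum_blockCoeff_char_mul_eq_zero N.subtype (IsIrrCharacter.isCharacter χ.2) (c := {θ₀}) ?_ (t : G)
    intro θ' hθ'
    rw [Set.mem_singleton_iff.mp hθ']
    exact hχ
  have hO : ∀ τ : IrrCharacter T, (T.index : ℂ) * (blkInd (UT N hNT ({θ₀} : Set (IrrCharacter N)) U) τ *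
      ((τ : T → ℂ) 1 * (τ : T → ℂ) t)) ≠ 0 → τ ∈ UT N hNT ({θ₀} : Set (IrrCharacter N)) U := by
    intro τ h
    by_contra hn
    apply h
    rw [blkInd_of_not_mem hn]
    ring
  have hgτ : ∀ (τ : IrrCharacter T) (hτ : OverB hNT ({θ₀} : Set (IrrCharacter N)) (τ : T → ℂ)),
      g ⟨indFun T (τ : T → ℂ), isIrrCharacter_indFun_of_over hNT hT hb τ.2 hτ⟩ = (τ : T → ℂ) t := by
    intro τ hτ
    exact sum_blockCoeff_indFun hNT hT hb (IsIrrCharacter.isCharacter τ.2) hτ t
  symm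
  refine Finset.sum_bij_ne_zero
    (fun τ _ hne => (⟨indFun T (τ : T → ℂ), isIrrCharacter_indFun_of_over hNT hT hb τ.2 (hO τ hne).1⟩ : IrrCharacter G))
    (fun _ _ _ => Finset.mem_univ _) ?_ ?_ ?_
  · intro τ₁ _ h₁ τ₂ _ h₂ h
    have hO₁ := (hO τ₁ h₁).1
    have hO₂ := (hO τ₂ h₂).1
    have h3 : indFun T (τ₁ : T → ℂ) = indFun T (τ₂ : T → ℂ) := congrArg Subtype.val h
    by_contra hne
    have h4 := classInner_indFun_indFun_of_over hNT hT hb (IsIrrCharacter.isCharacter τ₁.2)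
      (IsIrrCharacter.isCharacter τ₂.2) hO₁ hO₂
    rw [← h3, classInner_irr_self (isIrrCharacter_indFun_of_over hNT hT hb τ₁.2 hO₁),
      classInner_irr_ne τ₁.2 τ₂.2 (fun h => hne (Subtype.ext h))] at h4
    exact one_ne_zero h4
  · intro χ _ hχ
    have hχU : χ ∈ U := by
      by_contra hn
      apply hχ
      rw [blkInd_of_not_mem hn, zero_mul]
    have hov : classInner (fun n : N => (χ : G → ℂ) n) (θ₀ : N → ℂ) ≠ 0 := by
      intro h0
      apply hχ
      rw [hg0 χ h0]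
      ring
    obtain ⟨τ, h1, h2⟩ := exists_constituent hNT (IsIrrCharacter.isCharacter χ.2) θ₀.2 hov
    have hOτ := over_of_cover hNT hT τ.2 hθ₀ h1
    have h3 := eq_indFun_of_constituent hNT hT hb χ.2 τ.2 hOτ h2
    have hτU : τ ∈ UT N hNT ({θ₀} : Set (IrrCharacter N)) U := ⟨hOτ, χ, hχU, h3⟩
    have hχeq : χ = ⟨indFun T (τ : T → ℂ), isIrrCharacter_indFun_of_over hNT hT hb τ.2 hOτ⟩ := Subtype.ext h3
    have hval : blkInd U χ * ((χ : G → ℂ) 1 * g χ) = (T.index : ℂ) * ((τ : T → ℂ) 1 * (τ : T → ℂ) t) := by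
      rw [blkInd_of_mem hχU, one_mul]
      have h5 : g χ = (τ : T → ℂ) t := by
        rw [hχeq]
        exact hgτ τ hOτ
      rw [h5, h3, indFun_one]
      ring
    have hne : (T.index : ℂ) * (blkInd (UT N hNT ({θ₀} : Set (IrrCharacter N)) U) τ *
        ((τ : T → ℂ) 1 * (τ : T → ℂ) t)) ≠ 0 := by
      rw [blkInd_of_mem hτU, one_mul, ← hval]
      exact hχ
    exact ⟨τ, Finset.mem_univ _, hne, hχeq.symm⟩
  · intro τ _ hne
    have hτ := hO τ hne
    obtain ⟨χ, hχU, hχ⟩ := hτ.2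
    have hχeq : χ = ⟨indFun T (τ : T → ℂ), isIrrCharacter_indFun_of_over hNT hT hb τ.2 hτ.1⟩ := Subtype.ext hχ
    rw [blkInd_of_mem hτ, one_mul, ← hχeq, blkInd_of_mem hχU, one_mul]
    have h5 : g χ = (τ : T → ℂ) t := by
      rw [hχeq]
      exact hgτ τ hτ.1
    rw [h5, hχ, indFun_one]
    ring

end Over

/-- The main induction. -/
theorem main {M : Ideal AlgInt} (hM : IsPModular p M) :
    ∀ (n : ℕ) (G : Type u) [Group G] [Fintype G], Nat.card G = n → IsPSolvable p G →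
    ∀ U : Set (IrrCharacter G), (∀ x : G, p ∣ orderOf x → Fu U x = 0) →
    ∀ χ ∈ U, ∀ ψ : IrrCharacter G, SameBlock M (χ : G → ℂ) (ψ : G → ℂ) → ψ ∈ U := by
  intro n
  induction n using Nat.strong_induction_on with
  | _ n IH =>
  intro G _ _ hn hsol U hU χ hχ ψ hS
  classical
  haveI := hM.2.1.isPrime
  set N : Subgroup G := pPrimeCore p G with hNdef
  letI : Fintype N := Fintype.ofFinite _
  have hNp : ¬ p ∣ Nat.card N := PCore.not_dvd_card_pPrimeCore (G := G) p
  obtain ⟨θ, hov⟩ := Cfsg.Agent.Lib.BlkNormalSub.exists_constituent (N := N) χ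
  have hNn : N.Normal := inferInstance
  by_cases hinv : ∀ (g : G) (n : N), (θ : N → ℂ) ⟨g * n * g⁻¹, hNn.conj_mem (n : G) n.2 g⟩ = (θ : N → ℂ) n
  · -- the invariant case
    have h0 : pPrimeCore p (G ⧸ N) = ⊥ :=
      PSolv.pPrimeCore_eq_bot_of_surjective p (QuotientGroup.mk' N) (QuotientGroup.mk'_surjective N)
        (by rw [QuotientGroup.ker_mk', hNdef])
    have hsol' : IsPSolvable p (G ⧸ N) := PSolv.isPSolvable_quotient hsol N
    set U' : Set (IrrCharacter G) := U ∩ {χ | classInner (fun n : N => (χ : G → ℂ) n) (θ : N → ℂ) ≠ 0} with hU'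
    have hU'F : ∀ x : G, p ∣ orderOf x → Fu U' x = 0 := by
      intro x hx
      rw [hU', ← sum_Fu_invariant N θ hinv U x]
      refine Finset.sum_eq_zero fun m _ => ?_
      rw [hU _ (dvd_orderOf_mul N hNp m.2 hx), mul_zero]
    have hU'c := blockCoeff_eq_zero_of_Fu hU'F
    obtain ⟨θf, k, ρ, hρ, hθf⟩ := θ
    subst hθf
    have hsupp := support_of_invariant N hsol' h0 hNp ρ hρ hinv U' (fun χ h => h.2) hU'c
    obtain ⟨B, hB, hmem, -, -⟩ := Cfsg.Agent.S4492.result' p M hM hsol N rfl ⟨_, k, ρ, hρ, rfl⟩ hinv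
    have hχB : χ ∈ B := (hmem χ).mpr hov
    have hψB : ψ ∈ B := by
      obtain ⟨χ₀, rfl⟩ := hB
      exact sameBlock_trans hχB hS
    have hψov := (hmem ψ).mp hψB
    exact (mem_of_invariant N ⟨k, ρ, hρ, rfl⟩ hinv U' (fun χ h => h.2) hsupp (χ₀ := χ) ⟨hχ, hov⟩ ψ hψov).1
  · -- the stabilizer is proper
    let T : Subgroup G :=
      { carrier := {g | cjE N g θ = θ}
        mul_mem' := by
          intro a b ha hb
          show cjE N (a * b) θ = θ
          rw [← cjE_cjE, show cjE N a θ = θ from ha, show cjE N b θ = θ from hb]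
        one_mem' := by
          show cjE N 1 θ = θ
          apply Subtype.ext
          exact conjBy_one N hNn θ
        inv_mem' := by
          intro a ha
          show cjE N a⁻¹ θ = θ
          have h1 : cjE N a⁻¹ (cjE N a θ) = θ := cjE_inv_cjE N a θ
          rwa [show cjE N a θ = θ from ha] at h1 }
    have hTmem : ∀ g : G, g ∈ T ↔ cjE N g θ = θ := fun g => Iff.rfl
    have hT : IsStab ({θ} : Set (IrrCharacter N)) T := by
      intro g
      rw [hTmem]
      constructor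
      · intro h θ' hθ'
        rw [Set.mem_singleton_iff.mp hθ', h]
        exact Set.mem_singleton θ
      · intro h
        exact Set.mem_singleton_iff.mp (h θ (Set.mem_singleton θ))
    have hNT : N ≤ T := by
      intro m hm
      rw [hTmem]
      apply Subtype.ext
      funext a
      rw [cjE_apply]
      have h1 := isClassFunction_of_isCharacter (IsIrrCharacter.isCharacter θ.2) a ⟨m, hm⟩
      exact h1
    have hTne : T ≠ ⊤ := by
      intro h
      apply hinv
      intro g a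
      have h1 : g ∈ T := by
        rw [h]
        exact Subgroup.mem_top g
      have h2 := congrFun (congrArg Subtype.val ((hTmem g).mp h1)) a
      rw [cjE_apply] at h2
      exact h2
    letI : Fintype T := Fintype.ofFinite _
    have hlt : Nat.card T < n := by
      rw [← hn]
      refine lt_of_le_of_ne (Subgroup.card_le_card_group T) ?_
      intro h
      exact hTne ((Subgroup.card_eq_iff_eq_top T).mp h)
    have hb : IsPBlock M ({θ} : Set (IrrCharacter N)) := isPBlock_singleton hM hNp θ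
    have hUT : ∀ x : T, p ∣ orderOf x → Fu (UT N hNT ({θ} : Set (IrrCharacter N)) U) x = 0 := by
      intro x hx
      have h1 := sum_Fu_stab N hNT hT hb (Set.mem_singleton θ) rfl U x
      have h2 : ∑ m : N, blockCoeff ({θ} : Set (IrrCharacter N)) m * Fu U ((x : G) * m) = 0 := by
        refine Finset.sum_eq_zero fun m _ => ?_
        have h3 : p ∣ orderOf (x : G) := by
          rwa [Subgroup.orderOf_coe]
        rw [hU _ (dvd_orderOf_mul N hNp m.2 h3), mul_zero]
      rw [h2] at h1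
      exact (mul_eq_zero.mp h1.symm).resolve_left (index_ne_zero' T)
    have hθb : θ ∈ ({θ} : Set (IrrCharacter N)) := Set.mem_singleton θ
    obtain ⟨τ₁, h1, h2⟩ := exists_constituent hNT (IsIrrCharacter.isCharacter χ.2) θ.2 hov
    have hO₁ := over_of_cover hNT hT τ₁.2 hθb h1
    have hχτ := eq_indFun_of_constituent hNT hT hb χ.2 τ₁.2 hO₁ h2
    obtain ⟨θ', hθ', hne'⟩ := cover_of_sameBlock_G hNT hT hb (IsIrrCharacter.isCharacter τ₁.2)
      (irr_one_ne_zero' τ₁.2) hO₁ hχτ hS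
    obtain ⟨τ₂, h3, h4⟩ := exists_constituent hNT (IsIrrCharacter.isCharacter ψ.2) θ'.2 hne'
    have hO₂ := over_of_cover hNT hT τ₂.2 hθ' h3
    have hψτ := eq_indFun_of_constituent hNT hT hb ψ.2 τ₂.2 hO₂ h4
    have hSτ := sameBlock_of_sameBlock_indFun hNT hT hb hO₁ hO₂ hχτ hψτ hS
    have hτ₁ : τ₁ ∈ UT N hNT ({θ} : Set (IrrCharacter N)) U := ⟨hO₁, χ, hχ, hχτ⟩
    have hτ₂ := IH _ hlt T rfl (PSolv.isPSolvable_subgroup hsol T) _ hUT τ₁ hτ₁ τ₂ hSτ
    obtain ⟨-, χ', hχ', hχ'τ⟩ := hτ₂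
    have : ψ = χ' := Subtype.ext (hψτ.trans hχ'τ.symm)
    rw [this]
    exact hχ'

/-- Let G be a finite p-solvable group and fix a maximal ideal M of the algebraic integers containing p. Let U be a set of irreducible characters of G such that the class function Σ_{χ ∈ U} χ(1)·χ vanishes at every p-singular element of G. Then U is a union of p-blocks: if χ ∈ U and ψ lies in the same block as χ, then ψ ∈ U. -/
theorem result {G : Type*} [Group G] [Finite G] (p : ℕ) [Fact p.Prime] (M : Ideal Cfsg.AlgInt) (hM : Cfsg.IsPModular p M) (hsolv : Cfsg.IsPSolvable p G) (U : Set (Cfsg.IrrCharacter G)) (hU : ∀ x : G, p ∣ orderOf x → ∑ᶠ χ ∈ U, (χ : G → ℂ) 1 * (χ : G → ℂ) x = 0) (χ : Cfsg.IrrCharacter G) (hχ : χ ∈ U) (ψ : Cfsg.IrrCharacter G) (hψ : Cfsg.SameBlock M (χ : G → ℂ) (ψ : G → ℂ)) : ψ ∈ U := by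
  classical
  letI : Fintype G := Fintype.ofFinite G
  refine main hM _ G rfl hsolv U (fun x hx => ?_) χ hχ ψ hψ
  have h1 := hU x hx
  rw [finsum_mem_eq_sum_blkInd] at h1
  exact h1

end Cfsg.Agent.S4440
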