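import Mathlib
import Cfsg.Statements.S4471
import Cfsg.Agent.Lib.PNonlinearRep
import Cfsg.Agent.Lib.EigenEngel

set_option autoImplicit false
set_option linter.style.haveILetI false
set_option linter.unusedSectionVars false

namespace Cfsg.Agent.S4471

open Cfsg Cfsg.Agent.Lib.CharBasic Cfsg.Agent.Lib.CharWeight Cfsg.Agent.Lib.PNonlinearRep
open Module

universe u v

section Main

variable {G : Type u} [Group G] [Finite G] {V : Type v} [AddCommGroup V] [Module ℂ V]
  [FiniteDimensional ℂ V]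

theorem two_not_factorial {p n : ℕ} (hp : p.Prime) (hn : n < 2 * p) : ¬ p ^ 2 ∣ n.factorial := by
  have h3 : 2 ≤ p := hp.two_le
  have hlog : Nat.log p n < 2 := by
    apply Nat.log_lt_of_lt_pow'
    · norm_num
    · rw [pow_two]
      calc n < 2 * p := hn
        _ ≤ p * p := Nat.mul_le_mul_right _ h3
  rw [hp.pow_dvd_factorial_iff hlog]
  have h1 : Finset.Ico 1 2 = {1} := by decide
  rw [h1, Finset.sum_singleton, pow_one]
  have : n / p < 2 := Nat.div_lt_of_lt_mul (by rwa [mul_comm] at hn)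
  omega

/-- A normal `p`-subgroup is abelian when `p` does not divide the degree. -/
theorem normal_pgroup_comm (ρ : Representation ℂ G V) (hρ : ρ.IsIrreducible)
    (hinj : Function.Injective ρ) {p : ℕ} [Fact p.Prime] (N : Subgroup G) (hN : N.Normal)
    (hNp : IsPGroup p N) (hpn : ¬ p ∣ finrank ℂ V) : ∀ a ∈ N, ∀ b ∈ N, a * b = b * a := by
  classical
  by_contra hne
  push Not at hne
  obtain ⟨a, ha, b, hb, hab⟩ := hne
  obtain ⟨z', hzc, hzZ, hz1, hzp⟩ := exists_central_commutator hNp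
    ⟨⟨a, ha⟩, ⟨b, hb⟩, fun h => hab (congrArg Subtype.val h)⟩
  let B : Subgroup G := N ⊓ Subgroup.centralizer (N : Set G)
  haveI hCn : (Subgroup.centralizer (N : Set G)).Normal := Subgroup.normal_centralizer
  have hB : B.Normal := Subgroup.normal_inf_normal _ _
  have hcomm : ∀ x ∈ B, ∀ y ∈ B, x * y = y * x := by
    intro x hx y hy
    exact (Subgroup.mem_centralizer_iff.mp hy.2) x hx.1
  have hz0B : (z' : G) ∈ B := by
    refine ⟨z'.2, ?_⟩
    change (z' : G) ∈ Subgroup.centralizer (N : Set G)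
    rw [Subgroup.mem_centralizer_iff]
    intro h hh
    have := (Subgroup.mem_center_iff.mp hzZ) ⟨h, hh⟩
    exact congrArg Subtype.val this
  haveI : Fintype B := Fintype.ofFinite _
  obtain ⟨ν, hν, hνz⟩ := exists_weight_ne_one ρ hρ hinj hB hcomm ⟨(z' : G), hz0B⟩
    (fun h => hz1 (Subtype.ext (by
      have := congrArg Subtype.val h
      simpa using this)))
  have hinv : ∀ h ∈ N, ∀ u ∈ weightSpace ρ B ν, ρ h u ∈ weightSpace ρ B ν := by
    intro h hh u hu a
    have hah : (a : G) * h = h * a := by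
      exact ((Subgroup.mem_centralizer_iff.mp a.2.2) h hh).symm
    rw [← Module.End.mul_apply, ← map_mul, hah, map_mul, Module.End.mul_apply, hu a, map_smul]
  have hdvd : p ∣ finrank ℂ (weightSpace ρ B ν) :=
    dvd_finrank_of_invariant ρ N hNp _ hinv hzc hνz (fun u hu => hu ⟨(z' : G), hz0B⟩)
  apply hpn
  rw [finrank_eq_index_mul ρ hρ hB ν hν]
  exact Dvd.dvd.mul_left hdvd _

/-- The normal core of the inertia group is abelian, when the weight space is a line. -/
theorem core_comm (ρ : Representation ℂ G V) (hρ : ρ.IsIrreducible)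
    (hinj : Function.Injective ρ) {A : Subgroup G} (hA : A.Normal) (ν : A →* ℂ)
    (he : finrank ℂ (weightSpace ρ A ν) = 1) :
    ∀ a ∈ (inertia hA ν).normalCore, ∀ b ∈ (inertia hA ν).normalCore, a * b = b * a := by
  classical
  let I := inertia hA ν
  let T := I.normalCore
  have hT : T.Normal := Subgroup.normalCore_normal _
  obtain ⟨v₀', hv₀'⟩ : ∃ v : weightSpace ρ A ν, v ≠ 0 := by
    haveI : Nontrivial (weightSpace ρ A ν) := Module.nontrivial_of_finrank_pos (R := ℂ) (by omega)
    exact exists_ne 0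
  have hline := (finrank_eq_one_iff_of_nonzero' v₀' hv₀').mp he
  let v₀ : V := v₀'
  have hv₀ : v₀ ≠ 0 := fun h => hv₀' (Subtype.ext h)
  have hscal : ∀ t ∈ T, ∀ g : G, ∃ c : ℂ, ρ t (ρ g v₀) = c • ρ g v₀ := by
    intro t ht g
    have h1 : g⁻¹ * t * g ∈ T := by
      have := hT.conj_mem t ht g⁻¹
      rwa [inv_inv] at this
    have h2 : g⁻¹ * t * g ∈ I := Subgroup.normalCore_le _ h1
    have h3 : ρ (g⁻¹ * t * g) v₀ ∈ weightSpace ρ A ν := by
      have h := map_mem_weightSpace ρ hA (g⁻¹ * t * g) v₀'.2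
      rwa [show twist hA (g⁻¹ * t * g) ν = ν from h2] at h
    obtain ⟨c, hc⟩ := hline ⟨_, h3⟩
    have hc' : c • v₀ = ρ (g⁻¹ * t * g) v₀ := congrArg Subtype.val hc
    refine ⟨c, ?_⟩
    rw [← map_smul, hc', ← Module.End.mul_apply, ← Module.End.mul_apply, ← map_mul, ← map_mul]
    congr 2
    group
  let S : Submodule ℂ V := Submodule.span ℂ (Set.range fun g : G => ρ g v₀)
  have hS : S = ⊤ := by
    obtain ⟨_, hirr⟩ := (isIrreducible_iff ρ).mp hρ
    have hinv : ∀ (g : G), ∀ v ∈ S, ρ g v ∈ S := by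
      intro g v hv
      have : S ≤ S.comap (ρ g) := by
        refine Submodule.span_le.mpr ?_
        rintro _ ⟨h, rfl⟩
        refine Submodule.subset_span ⟨g * h, ?_⟩
        simp only [map_mul, Module.End.mul_apply]
      exact this hv
    rcases hirr S (fun g v hv => hinv g v hv) with h | h
    · exfalso
      have h1 : ρ 1 v₀ ∈ S := Submodule.subset_span ⟨1, rfl⟩
      rw [h, map_one, Module.End.one_apply] at h1
      exact hv₀ ((Submodule.mem_bot _).mp h1)
    · exact h
  intro a ha b hb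
  apply hinj
  rw [map_mul, map_mul]
  refine LinearMap.ext_on hS ?_
  rintro _ ⟨g, rfl⟩
  obtain ⟨c, hc⟩ := hscal a ha g
  obtain ⟨d, hd⟩ := hscal b hb g
  simp only [Module.End.mul_apply]
  rw [hc, hd, map_smul, map_smul, hc, hd, smul_comm]

/-- The main part. -/
theorem main_part (ρ : Representation ℂ G V) (hρ : ρ.IsIrreducible)
    (hinj : Function.Injective ρ) {p : ℕ} [hp : Fact p.Prime] (h7 : 7 ≤ p)
    (hn2 : finrank ℂ V < 2 * p) (hnp : finrank ℂ V ≠ p) (P : Sylow p G)
    (hP : ∃ x ∈ (P : Subgroup G), ∃ y ∈ (P : Subgroup G), x * y ≠ y * x) :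
    ¬ p ^ 2 ∣ (pCore p G).index := by
  classical
  haveI : Nontrivial V := ((isIrreducible_iff ρ).mp hρ).1
  set N := pCore p G with hNdef
  haveI hNchar : N.Characteristic := Cfsg.Agent.Lib.PCore.pCore_characteristic p
  haveI hN : N.Normal := Subgroup.normal_of_characteristic _
  have hNp : IsPGroup p N := Cfsg.Agent.Lib.PCore.isPGroup_pCore p
  have hNP : N ≤ (P : Subgroup G) := Cfsg.Agent.Lib.PCore.pCore_le_sylow p P
  have hPp : IsPGroup p (P : Subgroup G) := P.isPGroup'
  obtain ⟨x, hx, y, hy, hxy⟩ := hP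
  obtain ⟨z, hzc, hzZ, hz1, hzp⟩ := exists_central_commutator hPp
    ⟨⟨x, hx⟩, ⟨y, hy⟩, fun h => hxy (congrArg Subtype.val h)⟩
  have hz0 : (z : G) ≠ 1 := fun h => hz1 (Subtype.ext h)
  have hz0p : (z : G) ^ p = 1 := by
    have := congrArg Subtype.val hzp
    simpa using this
  let W : ℂ → Submodule ℂ V := fun μ => Module.End.eigenspace (ρ (z : G)) μ
  have hWmem : ∀ μ v, v ∈ W μ ↔ ρ (z : G) v = μ • v := fun μ v => Module.End.mem_eigenspace_iff
  have hWinv : ∀ μ, ∀ h ∈ (P : Subgroup G), ∀ u ∈ W μ, ρ h u ∈ W μ := by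
    intro μ h hh u hu
    rw [hWmem] at hu ⊢
    have hc : (z : G) * h = h * z := by
      have := (Subgroup.mem_center_iff.mp hzZ) ⟨h, hh⟩
      exact (congrArg Subtype.val this).symm
    rw [← Module.End.mul_apply, ← map_mul, hc, map_mul, Module.End.mul_apply, hu, map_smul]
  have hUdvd : ∀ μ, μ ≠ 1 → ∀ U : Submodule ℂ V, U ≤ W μ →
      (∀ h ∈ (P : Subgroup G), ∀ u ∈ U, ρ h u ∈ U) → p ∣ finrank ℂ U := by
    intro μ hμ U hUW hU
    exact dvd_finrank_of_invariant ρ P hPp U hU hzc hμ (fun u hu => (hWmem μ u).mp (hUW hu))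
  have hWfin : ∀ μ, μ ≠ 1 → ∀ v : V, v ≠ 0 → ρ (z : G) v = μ • v → finrank ℂ (W μ) = p := by
    intro μ hμ v hv hvμ
    obtain ⟨c, hc⟩ := hUdvd μ hμ (W μ) le_rfl (hWinv μ)
    have hpos : 0 < finrank ℂ (W μ) := by
      haveI : Nontrivial (W μ) := Submodule.nontrivial_iff_ne_bot.mpr (by
        intro h
        have h1 : v ∈ W μ := (hWmem μ v).mpr hvμ
        rw [h] at h1
        exact hv ((Submodule.mem_bot _).mp h1))
      exact Module.finrank_pos
    have hle : finrank ℂ (W μ) ≤ finrank ℂ V := Submodule.finrank_le _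
    have hp0 := hp.out.pos
    have hc1 : c = 1 := by
      have h1 : c ≠ 0 := by
        rintro rfl
        omega
      have h2 : c < 2 := by
        by_contra h3
        have : 2 * p ≤ p * c := by
          rw [mul_comm]
          exact Nat.mul_le_mul_left _ (by omega)
        omega
      omega
    rw [hc, hc1, mul_one]
  have huniq : ∀ μ μ' : ℂ, μ ≠ 1 → μ' ≠ 1 → ∀ v v' : V, v ≠ 0 → v' ≠ 0 →
      ρ (z : G) v = μ • v → ρ (z : G) v' = μ' • v' → μ = μ' := by
    intro μ μ' hμ hμ' v v' hv hv' hvμ hvμ'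
    by_contra hne
    have hdisj : Disjoint (W μ) (W μ') := by
      rw [Submodule.disjoint_def]
      intro x hx hx'
      rw [hWmem] at hx hx'
      have h1 : (μ - μ') • x = 0 := by
        rw [sub_smul, ← hx, ← hx', sub_self]
      rcases smul_eq_zero.mp h1 with h | h
      · exact absurd (sub_eq_zero.mp h) hne
      · exact h
    have h1 := Submodule.finrank_add_finrank_le_of_disjoint hdisj
    rw [hWfin μ hμ v hv hvμ, hWfin μ' hμ' v' hv' hvμ'] at h1
    omega
  -- an eigenvalue different from one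
  have hρz : (ρ (z : G)) ^ p = 1 := by
    rw [← map_pow, hz0p, map_one]
  have hρz1 : ρ (z : G) ≠ 1 := by
    intro h
    apply hz0
    apply hinj
    rw [h, map_one]
  obtain ⟨l, hl, vl, hvl, hvll⟩ := exists_eigenvalue_ne_one hp.out.ne_zero hρz hρz1
  -- `z` lies in the Fitting subgroup
  have hzF : (z : G) ∈ fittingSubgroup G := by
    refine Cfsg.Agent.Lib.EigenEngel.mem_fitting_of_few ρ hinj hp.out hz0p {l, 1} ?_ ?_
    · rw [Finset.card_pair hl]
      norm_num
      omega
    · intro μ v hv hμ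
      by_cases h1 : μ = 1
      · simp [h1]
      · have := huniq μ l h1 hl v vl hv hvl hμ hvll
        simp [this]
  have hzN : (z : G) ∈ N := mem_pCore_of_mem_fitting hzF ⟨1, by simpa using hz0p⟩
  -- the degree is not divisible by `p`
  have hple : p ≤ finrank ℂ V := by
    rw [← hWfin l hl vl hvl hvll]
    exact Submodule.finrank_le _
  have hpn : ¬ p ∣ finrank ℂ V := by
    rintro ⟨c, hc⟩
    have hp0 := hp.out.pos
    have h1 : c < 2 := by
      by_contra h3
      have : 2 * p ≤ p * c := by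
        rw [mul_comm]
        exact Nat.mul_le_mul_left _ (by omega)
      omega
    have h2 : c ≠ 0 := by
      rintro rfl
      omega
    have h3 : c = 1 := by omega
    rw [h3, mul_one] at hc
    exact hnp hc
  have hNcomm := normal_pgroup_comm ρ hρ hinj N hN hNp hpn
  -- a weight of `N` not trivial on `z`
  haveI : Fintype N := Fintype.ofFinite _
  obtain ⟨ν, hν, hνz⟩ := exists_weight_ne_one ρ hρ hinj hN hNcomm ⟨(z : G), hzN⟩
    (fun h => hz1 (Subtype.ext (by
      have := congrArg Subtype.val h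
      simpa using this)))
  set lam : ℂ := ν ⟨(z : G), hzN⟩ with hlam
  have hXW : weightSpace ρ N ν ≤ W lam := by
    intro v hv
    rw [hWmem]
    exact hv ⟨(z : G), hzN⟩
  obtain ⟨v₁, hv₁, hv₁0⟩ := Submodule.exists_mem_ne_zero_of_ne_bot hν
  have hWlam : finrank ℂ (W lam) = p := hWfin lam hνz v₁ hv₁0 (hv₁ ⟨(z : G), hzN⟩)
  -- the eigenspace is an irreducible representation of `P`
  let σ := subRep ρ (P : Subgroup G) (W lam) (hWinv lam)
  have hσ : σ.IsIrreducible := by
    rw [isIrreducible_iff]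
    haveI hWnt : Nontrivial (W lam) := Module.nontrivial_of_finrank_pos (R := ℂ) (by
      rw [hWlam]; exact hp.out.pos)
    refine ⟨hWnt, fun U hU => ?_⟩
    by_cases hU0 : U = ⊥
    · exact Or.inl hU0
    · right
      let U' : Submodule ℂ V := U.map (W lam).subtype
      have hfr : finrank ℂ U' = finrank ℂ U := Submodule.finrank_map_subtype_eq _ _
      have hU'W : U' ≤ W lam := by
        rintro _ ⟨u, -, rfl⟩
        exact u.2
      have hU'inv : ∀ h ∈ (P : Subgroup G), ∀ u ∈ U', ρ h u ∈ U' := by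
        rintro h hh _ ⟨u, hu, rfl⟩
        exact ⟨σ ⟨h, hh⟩ u, hU ⟨h, hh⟩ u hu, rfl⟩
      have hdvd := hUdvd lam hνz U' hU'W hU'inv
      rw [hfr] at hdvd
      have hUpos : 0 < finrank ℂ U := by
        haveI : Nontrivial U := Submodule.nontrivial_iff_ne_bot.mpr hU0
        exact Module.finrank_pos
      apply Submodule.eq_top_of_finrank_eq
      have h1 : p ≤ finrank ℂ U := Nat.le_of_dvd hUpos hdvd
      have h2 : finrank ℂ U ≤ finrank ℂ (W lam) := Submodule.finrank_le _
      omega
  -- the weights of `N` on the eigenspace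
  let A : Subgroup (P : Subgroup G) := N.subgroupOf (P : Subgroup G)
  haveI hA : A.Normal := Subgroup.normal_subgroupOf
  haveI : Fintype A := Fintype.ofFinite _
  let ι : A →* N :=
    { toFun := fun a => ⟨((a : (P : Subgroup G)) : G), a.2⟩
      map_one' := rfl
      map_mul' := fun _ _ => rfl }
  have hweq : weightSpace σ A (ν.comp ι) = (weightSpace ρ N ν).comap (W lam).subtype := by
    ext w
    constructor
    · intro hw a
      have h1 := hw ⟨⟨a, hNP a.2⟩, a.2⟩
      exact congrArg Subtype.val h1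
    · intro hw a
      apply Subtype.ext
      exact hw (ι a)
  have hwfr : finrank ℂ (weightSpace σ A (ν.comp ι)) = finrank ℂ (weightSpace ρ N ν) := by
    rw [hweq]
    exact (Submodule.comapSubtypeEquivOfLe hXW).finrank_eq
  have hwne : weightSpace σ A (ν.comp ι) ≠ ⊥ := by
    intro h
    rw [h, finrank_bot] at hwfr
    haveI : Nontrivial (weightSpace ρ N ν) := Submodule.nontrivial_iff_ne_bot.mpr hν
    have : 0 < finrank ℂ (weightSpace ρ N ν) := Module.finrank_pos
    omega
  have hedvd : finrank ℂ (weightSpace ρ N ν) ∣ p := by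
    have h1 := finrank_eq_index_mul σ hσ hA (ν.comp ι) hwne
    rw [hWlam, hwfr] at h1
    rw [h1]
    exact Dvd.intro_left _ rfl
  have hn1 := finrank_eq_index_mul ρ hρ hN ν hν
  have he1 : finrank ℂ (weightSpace ρ N ν) = 1 := by
    rcases (Nat.dvd_prime hp.out).mp hedvd with h | h
    · exact h
    · exfalso
      apply hpn
      rw [hn1, h]
      exact Dvd.intro_left _ rfl
  rw [he1, mul_one] at hn1
  -- the kernel of the action on the weights
  let I := inertia hN ν
  let T : Subgroup G := I.normalCore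
  haveI hT : T.Normal := Subgroup.normalCore_normal _
  have hTcomm := core_comm ρ hρ hinj hN ν he1
  have hTindex : T.index ∣ (finrank ℂ V).factorial := by
    rw [hn1]
    have h1 : T = (MulAction.toPermHom G (G ⧸ I)).ker := Subgroup.normalCore_eq_ker _
    rw [h1, Subgroup.index_ker, Subgroup.index_eq_card, ← Nat.card_perm]
    exact Subgroup.card_subgroup_dvd_card _
  have hTnil : Group.IsNilpotent T := by
    letI : CommGroup T :=
      { (inferInstance : Group T) with
        mul_comm := fun a b => Subtype.ext (hTcomm a a.2 b b.2) }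
    exact CommGroup.isNilpotent
  have hTF : T ≤ fittingSubgroup G := Cfsg.Agent.Lib.PCore.le_fittingSubgroup hT hTnil
  have hle : T ⊓ (P : Subgroup G) ≤ N := by
    rintro x ⟨hxT, hxP⟩
    obtain ⟨k, hk⟩ := hPp ⟨x, hxP⟩
    refine mem_pCore_of_mem_fitting (hTF hxT) ⟨k, ?_⟩
    have := congrArg Subtype.val hk
    simpa using this
  intro hdvd
  have h1 : N.relIndex (P : Subgroup G) * (P : Subgroup G).index = N.index :=
    Subgroup.relIndex_mul_index hNP
  rw [← h1] at hdvd
  have hcop : Nat.Coprime (p ^ 2) (P : Subgroup G).index :=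
    Nat.Coprime.pow_left _ ((Nat.Prime.coprime_iff_not_dvd hp.out).mpr P.not_dvd_index)
  have h2 : p ^ 2 ∣ N.relIndex (P : Subgroup G) := hcop.dvd_of_dvd_mul_right hdvd
  have h3 : N.relIndex (P : Subgroup G) ∣ T.relIndex (P : Subgroup G) := by
    have := Subgroup.relIndex_dvd_of_le_left (P : Subgroup G) hle
    rwa [Subgroup.inf_relIndex_right] at this
  have h4 : T.relIndex (P : Subgroup G) ∣ T.index := Subgroup.relIndex_dvd_index_of_normal _ _
  exact two_not_factorial hp.out hn2 (h2.trans (h3.trans (h4.trans hTindex)))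

end Main

open scoped ComplexConjugate in
/-- **S4471** -/
theorem result {G : Type*} [Group G] [Finite G] (χ : Cfsg.IrrCharacter G) (hfaith : ∀ g : G, (χ : G → ℂ) g = (χ : G → ℂ) 1 → g = 1) (n : ℕ) (hn : Cfsg.charDegree (χ : G → ℂ) = n) (p : ℕ) (hp : p.Prime) (h7 : 7 ≤ p) (hn2 : n < 2 * p) (hnp : n ≠ p) : ((∃ P : Sylow p G, ∃ x ∈ (P : Subgroup G), ∃ y ∈ (P : Subgroup G), x * y ≠ y * x) → ¬ p ^ 2 ∣ (Cfsg.pCore p G).index) ∧ ∀ Q : Sylow p (G ⧸ Cfsg.pCore p G), ∀ x ∈ (Q : Subgroup (G ⧸ Cfsg.pCore p G)), ∀ y ∈ (Q : Subgroup (G ⧸ Cfsg.pCore p G)), x * y = y * x := by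
  classical
  haveI : Fact p.Prime := ⟨hp⟩
  obtain ⟨χ, m, ρ, hρ, hχ⟩ := χ
  subst hχ
  have hm : m = n := by
    rw [← hn]
    have h1 := Cfsg.Agent.Lib.CharKernel.one_eq_charDegree (χ := ρ.character) ⟨m, ρ, rfl⟩
    rw [char_one_eq_rep] at h1
    exact_mod_cast h1
  subst hm
  have hfr : Module.finrank ℂ (Fin m → ℂ) = m := Module.finrank_fin_fun ℂ
  have hinj : Function.Injective ρ := by
    intro a b hab
    have h1 : ρ (a⁻¹ * b) = 1 := by
      rw [map_mul, ← hab, ← map_mul, inv_mul_cancel, map_one]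
    have h1' : ρ (a⁻¹ * b) = ρ 1 := by rw [h1, map_one]
    have h2 : ρ.character (a⁻¹ * b) = ρ.character 1 := by
      show LinearMap.trace ℂ _ (ρ (a⁻¹ * b)) = LinearMap.trace ℂ _ (ρ 1)
      rw [h1']
    have h3 := hfaith _ h2
    exact inv_mul_eq_one.mp h3
  have hmain : (∃ P : Sylow p G, ∃ x ∈ (P : Subgroup G), ∃ y ∈ (P : Subgroup G), x * y ≠ y * x) →
      ¬ p ^ 2 ∣ (Cfsg.pCore p G).index := by
    rintro ⟨P, hP⟩
    exact main_part ρ hρ hinj h7 (by rwa [hfr]) (by rwa [hfr]) P hP
  refine ⟨hmain, fun Q => ?_⟩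
  haveI hNchar : (pCore p G).Characteristic := Cfsg.Agent.Lib.PCore.pCore_characteristic p
  haveI hN : (pCore p G).Normal := Subgroup.normal_of_characteristic _
  by_cases hex : ∃ P : Sylow p G, ∃ x ∈ (P : Subgroup G), ∃ y ∈ (P : Subgroup G), x * y ≠ y * x
  · have h1 := hmain hex
    have hQp : IsPGroup p (Q : Subgroup (G ⧸ pCore p G)) := Q.isPGroup'
    obtain ⟨k, hk⟩ := IsPGroup.iff_card.mp hQp
    have hdvd : Nat.card (Q : Subgroup (G ⧸ pCore p G)) ∣ (pCore p G).index := by
      rw [Subgroup.index_eq_card]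
      exact Subgroup.card_subgroup_dvd_card _
    rw [hk] at hdvd
    have hk1 : k ≤ 1 := by
      by_contra h
      apply h1
      exact (pow_dvd_pow p (by omega)).trans hdvd
    have hcy : IsCyclic (Q : Subgroup (G ⧸ pCore p G)) := by
      apply isCyclic_of_card_dvd_prime (p := p)
      rw [hk]
      exact pow_dvd_pow p hk1 |>.trans (by simp)
    intro x hx y hy
    have := (IsCyclic.isMulCommutative (α := (Q : Subgroup (G ⧸ pCore p G)))).is_comm.comm ⟨x, hx⟩ ⟨y, hy⟩
    exact congrArg Subtype.val this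
  · push Not at hex
    obtain ⟨P, rfl⟩ := Sylow.mapSurjective_surjective (QuotientGroup.mk'_surjective (pCore p G)) p Q
    intro x hx y hy
    have hx' : x ∈ (P : Subgroup G).map (QuotientGroup.mk' (pCore p G)) := hx
    have hy' : y ∈ (P : Subgroup G).map (QuotientGroup.mk' (pCore p G)) := hy
    obtain ⟨a, ha, rfl⟩ := hx'
    obtain ⟨b, hb, rfl⟩ := hy'
    rw [← map_mul, ← map_mul, hex P a ha b hb]

end Cfsg.Agent.S4471
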