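import Mathlib
import Cfsg.Statements.S4484
import Cfsg.Agent.Lib.EigenEngel
import Cfsg.Agent.Lib.BlockOrtho
import Cfsg.Agent.Lib.ClassPPow

set_option autoImplicit false
set_option linter.unusedSectionVars false
set_option linter.unusedVariables false
set_option linter.style.haveILetI false

open Cfsg

namespace Cfsg.Agent.S4484

open Cfsg.Agent.Lib.CharBasic Cfsg.Agent.Lib.CharKernel Cfsg.Agent.Lib.BlockLocal
open Cfsg.Agent.Lib.BlockOrtho Cfsg.Agent.Lib.BlockVal Cfsg.Agent.Lib.EigenEngel
open scoped ComplexConjugate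

universe u

section Chars

variable {G : Type u} [Group G] [Fintype G] {M : Ideal AlgInt} {p q : ℕ}

/-- Brauer's trick: the principal `p`-block has a nonprincipal member of degree prime to `q`. -/
theorem exists_nonprincipal (hM : IsPModular p M) (hq : q.Prime) {x : G} (hx : p ∣ orderOf x) :
    ∃ χ : IrrCharacter G, χ ∈ principalBlock M G ∧ (χ : G → ℂ) ≠ (fun _ => 1) ∧
      ¬ q ∣ charDegree (χ : G → ℂ) := by
  classical
  by_contra hcon
  push Not at hcon
  obtain ⟨M', hM'⟩ := exists_isPModular hq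
  haveI : M'.IsPrime := isPrime_of_isPModular hM'
  haveI : M.IsPrime := isPrime_of_isPModular hM
  let i₀ : IrrCharacter G := ⟨fun _ => 1, isIrrCharacter_one⟩
  let B := principalBlock M G
  have hB : IsPBlock M B := ⟨i₀, rfl⟩
  have hi₀ : i₀ ∈ B := fun g => by
    change MemLocalIdeal M (centralChar _ g - centralChar _ g)
    rw [sub_self]
    exact memLocalIdeal_zero
  have h0 := blockCoeff_eq_zero hM hB hx
  unfold blockCoeff at h0
  have hG : ((Nat.card G : ℂ))⁻¹ ≠ 0 := inv_ne_zero natCard_ne_zero'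
  have h1 := (mul_eq_zero.mp h0).resolve_left hG
  rw [finsum_mem_eq_sum_indB, ← Finset.add_sum_erase _ _ (Finset.mem_univ i₀)] at h1
  have h2 : indB B i₀ * ((i₀ : G → ℂ) 1 * conj ((i₀ : G → ℂ) x)) = 1 := by
    rw [indB_of_mem hi₀]
    simp [i₀]
  rw [h2] at h1
  have h3 : MemLocalIdeal M' (∑ χ ∈ Finset.univ.erase i₀,
      indB B χ * ((χ : G → ℂ) 1 * conj ((χ : G → ℂ) x))) := by
    refine memLocalIdeal_sum _ _ fun χ hχ => ?_
    by_cases hχB : χ ∈ B
    · rw [indB_of_mem hχB, one_mul]
      have hne : (χ : G → ℂ) ≠ fun _ => 1 := fun h => (Finset.mem_erase.mp hχ).1 (Subtype.ext h)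
      have hdvd := hcon χ hχB hne
      refine memLocalIdeal_mul_right ?_ ?_
      · rw [one_eq_charDegree (IsIrrCharacter.isCharacter χ.2)]
        exact (memLocalIdeal_natCast_iff hM').mpr hdvd
      · obtain ⟨n, ρ, -, hc⟩ := χ.2
        rw [← hc, ← Cfsg.Agent.Lib.CharValues.character_inv]
        exact memLocalRing_of_isIntegral (Cfsg.Agent.Lib.CharValues.isIntegral_character ρ _)
    · rw [indB_of_not_mem hχB, zero_mul]
      exact memLocalIdeal_zero
  have h4 : (1 : ℂ) = -∑ χ ∈ Finset.univ.erase i₀, indB B χ * ((χ : G → ℂ) 1 * conj ((χ : G → ℂ) x)) :=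
    eq_neg_of_add_eq_zero_left h1
  have h5 := memLocalIdeal_neg h3
  rw [← h4] at h5
  exact not_memLocalIdeal_one h5

/-- The number-theoretic core of the multiplicity bound. -/
theorem pow_dvd_of_memLocalIdeal (hM : IsPModular p M) {κ a c d : ℕ} (hκ : ¬ p ∣ κ) (hd : d ≠ 0)
    (h : MemLocalIdeal M ((κ : ℂ) * p * a / ((p ^ c * d : ℕ) : ℂ))) : p ^ c ∣ a := by
  haveI : M.IsPrime := isPrime_of_isPModular hM
  by_contra hcon
  have hp := hM.1
  have ha : a ≠ 0 := fun h0 => hcon (h0 ▸ dvd_zero _)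
  obtain ⟨e, a', hne, rfl⟩ := Nat.exists_eq_pow_mul_and_not_dvd ha p hp.ne_one
  have hec : e < c := by
    by_contra hle
    exact hcon (Dvd.dvd.mul_right (pow_dvd_pow p (not_lt.mp hle)) _)
  have hp0 : (p : ℂ) ≠ 0 := by exact_mod_cast hp.ne_zero
  have hd0 : (d : ℂ) ≠ 0 := by exact_mod_cast hd
  have h2 : (κ : ℂ) * p * ((p ^ e * a' : ℕ) : ℂ) / ((p ^ c * d : ℕ) : ℂ) * (((p ^ (c - 1 - e) * d : ℕ)) : ℂ) =
      ((κ * a' : ℕ) : ℂ) := by
    have e1 : c = (c - 1 - e) + e + 1 := by omega
    push_cast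
    conv_lhs => rw [e1]
    have e2 : c - 1 - e + e + 1 - 1 - e = c - 1 - e := by omega
    rw [e2]
    generalize c - 1 - e = s
    have hps : (p : ℂ) ^ s ≠ 0 := pow_ne_zero _ hp0
    have hpe : (p : ℂ) ^ e ≠ 0 := pow_ne_zero _ hp0
    field_simp
    ring
  have h3 := memLocalIdeal_mul_right h (memLocalRing_natCast (M := M) (p ^ (c - 1 - e) * d))
  rw [h2, memLocalIdeal_natCast_iff hM] at h3
  exact (hp.dvd_mul.mp h3).elim hκ hne

end Chars

section Index

variable {G : Type u} [Group G] [Finite G]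

theorem centralizer_pow_eq {p : ℕ} (hp : p.Prime) {x : G} (hxp : x ^ p = 1) {k : ℕ} (hk0 : 0 < k)
    (hkp : k < p) : Subgroup.centralizer ({x ^ k} : Set G) = Subgroup.centralizer ({x} : Set G) := by
  have hcop : Nat.Coprime k p :=
    ((Nat.Prime.coprime_iff_not_dvd hp).mpr (Nat.not_dvd_of_pos_of_lt hk0 hkp)).symm
  obtain ⟨j, -, hj⟩ := Nat.exists_mul_mod_eq_one_of_coprime hcop hp.one_lt
  have hxz : (x ^ k) ^ j = x := by
    rw [← pow_mul, pow_eq_pow_mod (k * j) hxp, hj, pow_one]
  ext g
  simp only [Subgroup.mem_centralizer_singleton_iff]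
  constructor
  · intro h
    have hc : Commute g (x ^ k) := h
    have := hc.pow_right j
    rw [hxz] at this
    exact this
  · intro h
    have hc : Commute g x := h
    exact hc.pow_right k

end Index

section Mult

variable {G : Type u} [Group G] [Fintype G] {M : Ideal AlgInt} {p : ℕ}

/-- In the principal block, the multiplicities of eigenvalues of a central element of a Sylow subgroup
are divisible by the `p`-part of the degree. -/
theorem pow_dvd_mult (hM : IsPModular p M) {n : ℕ} (ρ : Representation ℂ G (Fin n → ℂ))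
    (hχ : IsIrrCharacter G ρ.character)
    (hB : (⟨ρ.character, hχ⟩ : IrrCharacter G) ∈ principalBlock M G) {x : G} (hxp : x ^ p = 1)
    (hκ : ¬ p ∣ (Subgroup.centralizer ({x} : Set G)).index) {c d : ℕ} (hd : d ≠ 0) (hn : n = p ^ c * d)
    {ι : Type*} [Fintype ι] [DecidableEq ι] (b : Module.Basis ι ℂ (Fin n → ℂ)) (μ : ι → ℂ)
    (hb : ∀ i, ρ x (b i) = μ i • b i) (ν : ℂ) (hν : ν ^ p = 1) :
    p ^ c ∣ (Finset.univ.filter fun i => μ i = ν).card := by
  classical
  haveI : M.IsPrime := isPrime_of_isPModular hM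
  have hp := hM.1
  set κ := (Subgroup.centralizer ({x} : Set G)).index with hκdef
  set a := (Finset.univ.filter fun i => μ i = ν).card with ha
  refine pow_dvd_of_memLocalIdeal hM hκ hd ?_
  rw [← hn]
  have hn0 : n ≠ 0 := by
    rw [hn]
    exact mul_ne_zero (pow_ne_zero _ hp.ne_zero) hd
  have hnC : (n : ℂ) ≠ 0 := by exact_mod_cast hn0
  set χ := ρ.character with hχdef
  have hχ1 : χ 1 = n := char_one_eq_rep ρ
  have hν0 : ν ≠ 0 := by
    rintro rfl
    rw [zero_pow hp.ne_zero] at hν
    exact zero_ne_one hν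
  set τ := ν⁻¹ with hτ
  have hτp : τ ^ p = 1 := by rw [hτ, inv_pow, hν, inv_one]
  have hτint : ∀ k : ℕ, MemLocalRing M (τ ^ k) := fun k =>
    memLocalRing_of_isIntegral (IsIntegral.pow (IsIntegral.of_pow hp.pos (by rw [hτp]; exact isIntegral_one)) k)
  -- the values of the character at powers
  have hval : ∀ k : ℕ, χ (x ^ k) = ∑ i, μ i ^ k := by
    intro k
    refine Cfsg.Agent.Lib.CharValues.trace_eq_sum_of_eigenbasis (ρ (x ^ k)) b (fun i => μ i ^ k) ?_
    intro i
    induction k with
    | zero => simp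
    | succ k ih =>
      rw [pow_succ, map_mul, Module.End.mul_apply, hb, map_smul, ih, smul_smul, pow_succ, mul_comm]
  -- the eigenvalues are `p`-th roots of unity
  have hμp : ∀ i, μ i ^ p = 1 := by
    intro i
    have h1 : ρ (x ^ p) (b i) = μ i ^ p • b i := by
      have : ∀ k : ℕ, ρ (x ^ k) (b i) = μ i ^ k • b i := by
        intro k
        induction k with
        | zero => simp
        | succ k ih =>
          rw [pow_succ, map_mul, Module.End.mul_apply, hb, map_smul, ih, smul_smul, pow_succ, mul_comm]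
      exact this p
    rw [hxp, map_one, Module.End.one_apply] at h1
    have h2 : (μ i ^ p - 1) • b i = 0 := by
      rw [sub_smul, one_smul, ← h1, sub_self]
    exact sub_eq_zero.mp ((smul_eq_zero.mp h2).resolve_right (b.ne_zero i))
  -- the projection formula
  have hgeom : ∀ ξ : ℂ, ξ ^ p = 1 → ξ ≠ 1 → ∑ k ∈ Finset.range p, ξ ^ k = 0 := by
    intro ξ h1 h2
    have h3 := mul_geom_sum ξ p
    rw [h1, sub_self] at h3
    exact (mul_eq_zero.mp h3).resolve_left (sub_ne_zero.mpr h2)
  have hproj : ∑ k ∈ Finset.range p, τ ^ k * χ (x ^ k) = (p : ℂ) * a := by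
    simp only [hval, Finset.mul_sum]
    rw [Finset.sum_comm]
    have hin : ∀ i, ∑ k ∈ Finset.range p, τ ^ k * μ i ^ k = if μ i = ν then (p : ℂ) else 0 := by
      intro i
      by_cases h : μ i = ν
      · simp only [h, if_true, ← mul_pow, hτ, inv_mul_cancel₀ hν0, one_pow, Finset.sum_const,
          Finset.card_range, nsmul_eq_mul, mul_one]
      · rw [if_neg h]
        simp only [← mul_pow]
        refine hgeom _ ?_ ?_
        · rw [mul_pow, hτp, hμp, one_mul]
        · intro h1
          apply h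
          rw [hτ, inv_mul_eq_div, div_eq_one_iff_eq hν0] at h1
          exact h1
    simp only [hin, Finset.sum_ite, Finset.sum_const_zero, add_zero, Finset.sum_const, nsmul_eq_mul]
    rw [mul_comm, ha]
  -- the terms are in the local ideal
  have hterm : ∀ k ∈ Finset.range p, MemLocalIdeal M (τ ^ k * ((κ : ℂ) * χ (x ^ k) / n - κ)) := by
    intro k hk
    rcases Nat.eq_zero_or_pos k with rfl | hk0
    · simp only [pow_zero, one_mul, hχ1]
      rw [mul_div_assoc, div_self hnC, mul_one, sub_self]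
      exact memLocalIdeal_zero
    · refine memLocalIdeal_mul_left (hτint k) ?_
      have hkp := Finset.mem_range.mp hk
      have hcen := centralizer_pow_eq hp hxp hk0 hkp
      have h1 := hB (x ^ k)
      rw [Cfsg.Agent.Lib.ClassPPow.centralChar_one, hcen] at h1
      have h2 : centralChar (χ : G → ℂ) (x ^ k) = (κ : ℂ) * χ (x ^ k) / n := by
        unfold centralChar
        rw [hcen, hχ1]
      change MemLocalIdeal M (_ - centralChar χ (x ^ k)) at h1
      rw [h2] at h1
      have h3 := memLocalIdeal_neg h1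
      rwa [neg_sub] at h3
  have hT : MemLocalIdeal M ((κ : ℂ) * ∑ k ∈ Finset.range p, τ ^ k) := by
    by_cases h : τ = 1
    · simp only [h, one_pow, Finset.sum_const, Finset.card_range, nsmul_eq_mul, mul_one]
      exact memLocalIdeal_mul_left (memLocalRing_natCast _)
        ((memLocalIdeal_natCast_iff hM).mpr dvd_rfl)
    · rw [hgeom τ hτp h, mul_zero]
      exact memLocalIdeal_zero
  have hfinal : (κ : ℂ) * p * a / n = ∑ k ∈ Finset.range p, τ ^ k * ((κ : ℂ) * χ (x ^ k) / n - κ) +
      (κ : ℂ) * ∑ k ∈ Finset.range p, τ ^ k := by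
    have e1 : ∑ k ∈ Finset.range p, τ ^ k * ((κ : ℂ) * χ (x ^ k) / n - κ) =
        (κ : ℂ) / n * ∑ k ∈ Finset.range p, τ ^ k * χ (x ^ k) - (κ : ℂ) * ∑ k ∈ Finset.range p, τ ^ k := by
      rw [Finset.mul_sum, Finset.mul_sum, ← Finset.sum_sub_distrib]
      refine Finset.sum_congr rfl fun k _ => ?_
      ring
    rw [e1, hproj]
    ring
  rw [hfinal]
  exact memLocalIdeal_add (memLocalIdeal_sum _ _ hterm) hT

end Mult

section Final

variable {G : Type u} [Group G] [Finite G] [IsSimpleGroup G]

theorem card_prime_of_mem_fitting {x : G} (hx1 : x ≠ 1) (hx : x ∈ Cfsg.fittingSubgroup G) :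
    (Nat.card G).Prime := by
  have hex : ∃ N : Subgroup G, N.Normal ∧ Group.IsNilpotent N ∧ N ≠ ⊥ := by
    by_contra hcon
    push Not at hcon
    have h1 : Cfsg.fittingSubgroup G ≤ ⊥ := by
      refine sSup_le ?_
      rintro N ⟨hN1, hN2⟩
      exact (hcon N hN1 hN2).le
    exact hx1 (by simpa using h1 hx)
  obtain ⟨N, hN1, hN2, hN3⟩ := hex
  have hNt : N = ⊤ := (IsSimpleGroup.eq_bot_or_eq_top_of_normal N hN1).resolve_left hN3
  subst hNt
  haveI hnil : Group.IsNilpotent G := (Group.isNilpotent_congr Subgroup.topEquiv).mp hN2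
  have hne : commutator G ≠ ⊤ := by
    intro htop
    obtain ⟨k, hk⟩ := (Subgroup.nilpotent_iff_lowerCentralSeries (G := G)).mp hnil
    have hall : ∀ i, (⊤ : Subgroup G).lowerCentralSeries i = ⊤ := by
      intro i
      induction i with
      | zero => rfl
      | succ i ih =>
        rw [Subgroup.lowerCentralSeries_succ, ih]
        simpa [commutator_def] using htop
    rw [hall k] at hk
    exact top_ne_bot hk
  have hcb : commutator G = ⊥ :=
    (IsSimpleGroup.eq_bot_or_eq_top_of_normal _ inferInstance).resolve_right hne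
  letI cg : CommGroup G := { (inferInstance : Group G) with
    mul_comm := fun a b => by
      have h1 : a * b * a⁻¹ * b⁻¹ ∈ commutator G := by
        rw [commutator_def]
        exact Subgroup.commutator_mem_commutator (Subgroup.mem_top a) (Subgroup.mem_top b)
      rw [hcb, Subgroup.mem_bot] at h1
      exact mul_inv_eq_one.mp (by simpa [mul_assoc] using h1) }
  exact IsSimpleGroup.prime_card (α := G)

end Final

/-- A refinement of Burnside's result on simple groups of order divisible by only two primes. -/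
theorem result {G : Type*} [Group G] [Finite G] [IsSimpleGroup G] (p q a b g₀ : ℕ) (hp : p.Prime) (hq : q.Prime) (hpq : p ≠ q) (ha : 0 < a) (hg : Nat.card G = p ^ a * q ^ b * g₀) (hcop : ¬ p ∣ g₀) (hcoq : ¬ q ∣ g₀) (hne : Nat.card G ≠ p) : p < 6 ^ (g₀ - 1) := by
  classical
  letI : Fintype G := Fintype.ofFinite G
  by_contra hcon
  have hge : 6 ^ (g₀ - 1) ≤ p := not_lt.mp hcon
  haveI : Fact p.Prime := ⟨hp⟩
  have hpG : p ∣ Nat.card G := by
    rw [hg]
    exact Dvd.dvd.mul_right (Dvd.dvd.mul_right (dvd_pow_self p ha.ne') _) _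
  -- an element of order `p` in the centre of a Sylow subgroup
  let P : Sylow p G := default
  have hPbot : (P : Subgroup G) ≠ ⊥ := P.ne_bot_of_dvd_card hpG
  haveI hPnt : Nontrivial (P : Subgroup G) := (Subgroup.nontrivial_iff_ne_bot _).mpr hPbot
  have hPp : IsPGroup p (P : Subgroup G) := P.isPGroup'
  haveI hZnt : Nontrivial (Subgroup.center (P : Subgroup G)) := hPp.center_nontrivial
  have hZp : IsPGroup p (Subgroup.center (P : Subgroup G)) := hPp.to_subgroup _
  obtain ⟨m, hm0, hm⟩ := (hZp.nontrivial_iff_card).mp hZnt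
  have hpZ : p ∣ Nat.card (Subgroup.center (P : Subgroup G)) := by
    rw [hm]
    exact dvd_pow_self p hm0.ne'
  obtain ⟨z, hz⟩ := exists_prime_orderOf_dvd_card' p hpZ
  let x : G := ((z : (P : Subgroup G)) : G)
  have hxord : orderOf x = p :=
    (Subgroup.orderOf_coe (z : (P : Subgroup G))).trans ((Subgroup.orderOf_coe z).trans hz)
  have hx1 : x ≠ 1 := by
    intro h
    rw [h, orderOf_one] at hxord
    exact hp.ne_one hxord.symm
  have hxp : x ^ p = 1 := by
    rw [← hxord]
    exact pow_orderOf_eq_one x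
  have hPC : (P : Subgroup G) ≤ Subgroup.centralizer ({x} : Set G) := by
    intro y hy
    rw [Subgroup.mem_centralizer_singleton_iff]
    exact congrArg Subtype.val (Subgroup.mem_center_iff.mp z.2 ⟨y, hy⟩)
  have hκ : ¬ p ∣ (Subgroup.centralizer ({x} : Set G)).index := by
    intro h
    exact P.not_dvd_index (h.trans (Subgroup.index_dvd_of_le hPC))
  obtain ⟨M, hM⟩ := exists_isPModular hp
  obtain ⟨⟨χ, n, ρ, hρ, rfl⟩, hχB, hχ1, hχq⟩ := exists_nonprincipal hM hq (x := x) (by rw [hxord])
  have hdeg : charDegree (ρ.character) = n := by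
    unfold charDegree
    rw [char_one_eq_rep]
    simp
  rw [hdeg] at hχq
  -- the arithmetic of the degree
  have hn0 : n ≠ 0 := by
    rintro rfl
    have := Cfsg.Agent.Lib.CharKernel.charDegree_pos (isIrrCharacter_of_rep ρ hρ)
    rw [hdeg] at this
    exact lt_irrefl _ this
  have hnG : n ∣ Nat.card G := by
    have := Cfsg.Agent.Lib.CharIntegrality.finrank_dvd_card ρ hρ
    simpa using this
  obtain ⟨c, d, hpd, hnd⟩ := Nat.exists_eq_pow_mul_and_not_dvd hn0 p hp.ne_one
  have hg0 : g₀ ≠ 0 := by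
    rintro rfl
    rw [mul_zero] at hg
    exact Nat.card_pos.ne' hg
  have hd0 : d ≠ 0 := by
    rintro rfl
    exact hn0 (by rw [hnd, mul_zero])
  have hdg : d ∣ g₀ := by
    have h1 : d ∣ p ^ a * q ^ b * g₀ := by
      rw [← hg]
      exact (Dvd.intro_left _ hnd.symm).trans hnG
    have h2 : Nat.Coprime d (p ^ a * q ^ b) := by
      refine Nat.Coprime.mul_right (Nat.Coprime.pow_right _ ?_) (Nat.Coprime.pow_right _ ?_)
      · exact ((Nat.Prime.coprime_iff_not_dvd hp).mpr hpd).symm
      · refine ((Nat.Prime.coprime_iff_not_dvd hq).mpr ?_).symm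
        intro h
        exact hχq (h.trans (Dvd.intro_left _ hnd.symm))
    exact h2.dvd_of_dvd_mul_left h1
  have hdle : d ≤ g₀ := Nat.le_of_dvd (Nat.pos_of_ne_zero hg0) hdg
  -- the eigenvalues
  obtain ⟨b', μ, hb, -, hμ1, -⟩ := Cfsg.Agent.Lib.CharValues.exists_eigenbasis_rep ρ x
  set S : Finset ℂ := Finset.univ.image μ with hS
  have hμp : ∀ ν ∈ S, ν ^ p = 1 := by
    intro ν hν
    obtain ⟨i, -, rfl⟩ := Finset.mem_image.mp hν
    have : ∀ k : ℕ, ρ (x ^ k) (b' i) = μ i ^ k • b' i := by
      intro k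
      induction k with
      | zero => simp
      | succ k ih =>
        rw [pow_succ, map_mul, Module.End.mul_apply, hb, map_smul, ih, smul_smul, pow_succ, mul_comm]
    have h1 := this p
    rw [hxp, map_one, Module.End.one_apply] at h1
    have h2 : (μ i ^ p - 1) • b' i = 0 := by
      rw [sub_smul, one_smul, ← h1, sub_self]
    exact sub_eq_zero.mp ((smul_eq_zero.mp h2).resolve_right (b'.ne_zero i))
  have hmult : ∀ ν ∈ S, p ^ c ∣ (Finset.univ.filter fun i => μ i = ν).card := fun ν hν =>
    pow_dvd_mult hM ρ (isIrrCharacter_of_rep ρ hρ) hχB hxp hκ hd0 hnd b' μ hb ν (hμp ν hν)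
  have hcount : S.card ≤ d := by
    have h1 : (Finset.univ : Finset (Fin (Module.finrank ℂ (Fin n → ℂ)))).card =
        ∑ ν ∈ S, (Finset.univ.filter fun i => μ i = ν).card :=
      Finset.card_eq_sum_card_image μ _
    have h2 : ∀ ν ∈ S, p ^ c ≤ (Finset.univ.filter fun i => μ i = ν).card := by
      intro ν hν
      refine Nat.le_of_dvd ?_ (hmult ν hν)
      obtain ⟨i, -, rfl⟩ := Finset.mem_image.mp hν
      exact Finset.card_pos.mpr ⟨i, by simp⟩
    have h3 : S.card * p ^ c ≤ n := by
      calc S.card * p ^ c = ∑ ν ∈ S, p ^ c := by simp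
        _ ≤ ∑ ν ∈ S, (Finset.univ.filter fun i => μ i = ν).card := Finset.sum_le_sum h2
        _ = _ := h1.symm
        _ = n := by simp
    rw [hnd, mul_comm (p ^ c)] at h3
    exact Nat.le_of_mul_le_mul_right h3 (pow_pos hp.pos c)
  -- all eigenvalues lie in `S`
  have hev : ∀ (ν : ℂ) (v : Fin n → ℂ), v ≠ 0 → ρ x v = ν • v → ν ∈ S := by
    intro ν v hv hνv
    have hr : ∀ i, b'.repr (ρ x v) i = μ i * b'.repr v i := by
      intro i
      have h1 : ρ x v = ∑ j, (b'.repr v j * μ j) • b' j := by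
        conv_lhs => rw [← b'.sum_repr v, map_sum]
        refine Finset.sum_congr rfl fun j _ => ?_
        rw [map_smul, hb, smul_smul]
      rw [h1, Module.Basis.repr_sum_self, mul_comm]
    have hne : ∃ i, b'.repr v i ≠ 0 := by
      by_contra hall
      push Not at hall
      apply hv
      rw [← b'.sum_repr v]
      simp [hall]
    obtain ⟨i, hi⟩ := hne
    have h2 := hr i
    rw [hνv, map_smul, Finsupp.smul_apply, smul_eq_mul] at h2
    have h3 : ν = μ i := mul_right_cancel₀ hi h2
    rw [h3]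
    exact Finset.mem_image_of_mem _ (Finset.mem_univ i)
  -- the exponent
  have h6 : 6 ^ (S.card - 1) < p := by
    have h1 : 6 ^ (S.card - 1) ≤ p :=
      (Nat.pow_le_pow_right (by norm_num) (by omega)).trans hge
    refine lt_of_le_of_ne h1 ?_
    intro h
    rcases Nat.eq_zero_or_pos (S.card - 1) with h0 | h0
    · rw [h0, pow_zero] at h
      exact hp.ne_one h.symm
    · have h2 : 6 ∣ p := by
        rw [← h]
        exact dvd_pow_self 6 h0.ne'
      rcases (Nat.dvd_prime hp).mp h2 with h3 | h3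
      · omega
      · rw [← h3] at hp
        exact absurd hp (by norm_num)
  -- faithfulness
  have hker : MonoidHom.ker ρ = ⊥ := by
    refine (IsSimpleGroup.eq_bot_or_eq_top_of_normal _ (MonoidHom.normal_ker ρ)).resolve_right ?_
    intro htop
    have hall : ∀ g, ρ g = 1 := fun g => by
      have : g ∈ MonoidHom.ker ρ := by rw [htop]; trivial
      exact MonoidHom.mem_ker.mp this
    have hn1 : n = 1 := Cfsg.Agent.Lib.ClassPPow.degree_eq_one_of_scalar ρ hρ fun g =>
      ⟨1, by rw [hall g, one_smul]; rfl⟩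
    apply hχ1
    funext g
    change ρ.character g = 1
    rw [Representation.character, hall g]
    simp [LinearMap.trace_one, hn1]
  have hinj : Function.Injective ρ := by
    intro u v huv
    have h1 : u⁻¹ * v ∈ MonoidHom.ker ρ := by
      rw [MonoidHom.mem_ker, map_mul]
      rw [← huv, ← map_mul, inv_mul_cancel, map_one]
    rw [hker, Subgroup.mem_bot] at h1
    exact (inv_mul_eq_one.mp h1)
  have hfit := mem_fitting_of_few ρ hinj hp hxp S h6 hev
  have hprime := card_prime_of_mem_fitting hx1 hfit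
  exact hne ((Nat.prime_dvd_prime_iff_eq hp hprime).mp hpG).symm

end Cfsg.Agent.S4484
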