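import Mathlib
import Cfsg.Statements.S4517
import Cfsg.Agent.Lib.RealBlock

set_option autoImplicit false

open Cfsg

namespace Cfsg.Agent.S4517

theorem result {G : Type*} [Group G] [Finite G] (M : Ideal Cfsg.AlgInt) (hM : Cfsg.IsPModular 2 M) (k : ℕ) (hk : Nat.Coprime k (Nat.card G)) (hk₂ : ∀ g : G, Odd (orderOf g) → g ^ k = g⁻¹) (B : Set (Cfsg.IrrCharacter G)) (hB : Cfsg.IsPBlock M B) (hdef : Cfsg.blockDefect 2 B = (Nat.card G).factorization 2) (hstab : ∀ χ ∈ B, ∃ ψ ∈ B, ∀ g : G, (ψ : G → ℂ) g = (χ : G → ℂ) (g ^ k)) : B = Cfsg.principalBlock M G := by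
  classical
  letI := Fintype.ofFinite G
  letI : Fintype ↥B := Fintype.ofFinite _
  choose ψ hψB hψ using hstab
  let τ : ↥B → ↥B := fun χ => ⟨ψ χ.1 χ.2, hψB χ.1 χ.2⟩
  have hsurj : Function.Surjective (fun g : G => g ^ k) := by
    exact (powCoprime hk.symm).surjective
  have hτ : Function.Injective τ := by
    intro χ χ' h
    apply Subtype.ext
    apply Subtype.ext
    funext g
    obtain ⟨y, rfl⟩ := hsurj g
    have h1 : ((τ χ).1 : G → ℂ) y = ((τ χ').1 : G → ℂ) y := by rw [h]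
    have h2 := hψ χ.1 χ.2 y
    have h3 := hψ χ'.1 χ'.2 y
    show (χ.1 : G → ℂ) (y ^ k) = (χ'.1 : G → ℂ) (y ^ k)
    rw [← h2, ← h3]
    exact h1
  refine Cfsg.Agent.Lib.RealBlock.eq_principal_of_stable hM hB hdef τ hτ ?_
  intro χ x hx
  have hodd : Odd (orderOf x) := by
    rwa [← Nat.not_even_iff_odd, even_iff_two_dvd]
  show (ψ χ.1 χ.2 : G → ℂ) x = _
  rw [hψ χ.1 χ.2 x, hk₂ x hodd]

end Cfsg.Agent.S4517
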