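import Mathlib
import Cfsg.Statements.S4518
import Cfsg.Agent.Lib.CharPow
import Cfsg.Agent.Lib.CharClifford

set_option autoImplicit false
set_option linter.style.haveILetI false
open Cfsg

namespace Cfsg.Agent.S4518

open Subgroup Cfsg.Agent.Lib.CharBasic Cfsg.Agent.Lib.CharInd Cfsg.Agent.Lib.CharInduction
open Cfsg.Agent.Lib.CharClifford Cfsg.Agent.Lib.CharPow
open scoped ComplexConjugate

universe u

variable {G : Type u} [Group G] [Fintype G] (N : Subgroup G) [hN : N.Normal] [Fintype N]

/-- The irreducible constituents of the restriction of `χ` to `N`. -/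
abbrev Cons (χ : G → ℂ) : Type u :=
  {η : N → ℂ // IsIrrCharacter N η ∧ classInner (fun n : N => χ n) η ≠ 0}

instance Cons.finite (χ : G → ℂ) : Finite (Cons N χ) := by
  apply Finite.of_injective (fun a : Cons N χ => (⟨a.1, a.2.1⟩ : IrrCharacter N))
  intro a b hab
  apply Subtype.ext
  simpa using hab

/-- The conjugation action on constituents. -/
def Cons.action {χ : G → ℂ} (hχ : IsClassFunction G χ) : MulAction G (Cons N χ) where
  smul g η := ⟨conjBy N hN g⁻¹ η.1, isIrrCharacter_conjBy N hN g⁻¹ η.2.1, by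
    rw [classInner_restrict_conjBy N hN g⁻¹ hχ]
    exact η.2.2⟩
  one_smul η := by
    apply Subtype.ext
    show conjBy N hN 1⁻¹ η.1 = η.1
    rw [inv_one, conjBy_one]
  mul_smul a b η := by
    apply Subtype.ext
    show conjBy N hN (a * b)⁻¹ η.1 = conjBy N hN a⁻¹ (conjBy N hN b⁻¹ η.1)
    rw [conjBy_conjBy, mul_inv_rev]

/-- The number of constituents divides the index. -/
theorem Cons.card_dvd {χ : G → ℂ} (hχ : IsIrrCharacter G χ) (η₀ : Cons N χ) :
    Nat.card (Cons N χ) ∣ N.index := by
  classical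
  have hcl := isClassFunction_of_isCharacter (IsIrrCharacter.isCharacter hχ)
  letI := Cons.action N hcl
  have htrans : MulAction.orbit G η₀ = Set.univ := by
    ext b
    simp only [Set.mem_univ, iff_true]
    obtain ⟨g, hg⟩ := exists_conj_of_constituents N hN hχ η₀.2.1 b.2.1 η₀.2.2 b.2.2
    refine ⟨g⁻¹, ?_⟩
    apply Subtype.ext
    show conjBy N hN g⁻¹⁻¹ η₀.1 = b.1
    rw [inv_inv, hg]
  have h1 : Nat.card (Cons N χ) = (MulAction.stabilizer G η₀).index := by
    rw [MulAction.index_stabilizer, htrans, Set.ncard_univ]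
  rw [h1]
  apply Subgroup.index_dvd_of_le
  intro x hx
  rw [MulAction.mem_stabilizer_iff]
  apply Subtype.ext
  funext n
  show η₀.1 ⟨x⁻¹ * n * x⁻¹⁻¹, _⟩ = η₀.1 n
  have h2 := char_apply_conj (IsIrrCharacter.isCharacter η₀.2.1) n (⟨x⁻¹, N.inv_mem hx⟩ : N)
  exact h2

/-- Let N be a normal subgroup of the finite group G whose index is not divisible by the prime p, and let k be coprime to the order of G with k ^ (p ^ e) ≡ 1 modulo the order of G for some e (so g ↦ g ^ k induces a field automorphism of p-power order on character values). If an irreducible character χ of G satisfies χ (g ^ k) = χ g for all g, then every irreducible constituent θ of the restriction of χ to N satisfies θ (n ^ k) = θ n for all n. -/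
theorem result {G : Type*} [Group G] [Fintype G] (p : ℕ) [Fact p.Prime] (N : Subgroup G) [N.Normal] [Fintype N] (hidx : ¬ p ∣ N.index) (k e : ℕ) (hk : Nat.Coprime k (Nat.card G)) (hke : k ^ (p ^ e) ≡ 1 [MOD Nat.card G]) (χ : Cfsg.IrrCharacter G) (hχ : ∀ g : G, (χ : G → ℂ) (g ^ k) = (χ : G → ℂ) g) (θ : Cfsg.IrrCharacter N) (hθ : Cfsg.classInner (fun n : N => (χ : G → ℂ) n) (θ : N → ℂ) ≠ 0) : ∀ n : N, (θ : N → ℂ) (n ^ k) = (θ : N → ℂ) n := by
  classical
  have hkN : (Nat.card N).Coprime k :=
    Nat.Coprime.coprime_dvd_left (Subgroup.card_subgroup_dvd_card N) hk.symm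
  obtain ⟨χ, hχirr⟩ := χ
  simp only at hχ hθ
  let X := Cons N χ
  haveI : Fintype X := Fintype.ofFinite _
  let θ₀ : X := ⟨θ, θ.2, hθ⟩
  have hpX : ¬ p ∣ Fintype.card X := by
    intro hd
    apply hidx
    rw [← Nat.card_eq_fintype_card] at hd
    exact hd.trans (Cons.card_dvd N hχirr θ₀)
  -- the power map
  have hcons : ∀ η : X, classInner (fun n : N => χ n) (fun n => η.1 (n ^ k)) ≠ 0 := by
    intro η h3
    apply η.2.2
    unfold classInner at h3 ⊢
    have h4 := Equiv.sum_comp (powCoprime hkN) (fun n : N => χ n * conj (η.1 n))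
    have h5 : ∀ n : N, χ ((powCoprime hkN n : N) : G) * conj (η.1 (powCoprime hkN n))
        = χ n * conj (η.1 (n ^ k)) := by
      intro n
      have h6 : ((powCoprime hkN n : N) : G) = (n : G) ^ k := by
        simp [powCoprime]
      have h7 : (powCoprime hkN n : N) = n ^ k := rfl
      rw [h6, hχ (n : G), h7]
    simp only [h5] at h4
    rw [← h4]
    exact h3
  let f : Function.End X := fun η => ⟨fun n => η.1 (n ^ k), isIrr_pow η.2.1 hkN, hcons η⟩
  have hf : ∀ (m : ℕ) (η : X) (n : N), ((f ^ m) η).1 n = η.1 (n ^ (k ^ m)) := by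
    intro m
    induction m with
    | zero =>
      intro η n
      show η.1 n = η.1 (n ^ (k ^ 0))
      simp
    | succ m ih =>
      intro η n
      rw [pow_succ]
      show ((f ^ m) (f η)).1 n = _
      rw [ih (f η) n]
      show η.1 ((n ^ k ^ m) ^ k) = _
      rw [← pow_mul, pow_succ]
  have hfp : f ^ p ^ e = 1 := by
    funext η
    apply Subtype.ext
    funext n
    rw [hf]
    show η.1 _ = η.1 n
    congr 1
    have h1 : (n : N) ^ (k ^ p ^ e) = n ^ 1 := by
      rw [pow_eq_pow_iff_modEq]
      apply Nat.ModEq.of_dvd _ hke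
      exact (orderOf_dvd_natCard n).trans (Subgroup.card_subgroup_dvd_card N)
    rw [h1, pow_one]
  have hcard := Equiv.Perm.card_fixedPoints_modEq hfp
  obtain ⟨η₁, hη₁⟩ : ∃ η : X, f η = η := by
    by_contra hall
    push Not at hall
    have h0 : Fintype.card f.fixedPoints = 0 := by
      rw [Fintype.card_eq_zero_iff]
      exact ⟨fun x => hall x.1 x.2⟩
    rw [h0] at hcard
    exact hpX (Nat.dvd_of_mod_eq_zero hcard)
  obtain ⟨g, hg⟩ := exists_conj_of_constituents N inferInstance hχirr η₁.2.1 θ.2 η₁.2.2 hθ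
  intro n
  have h1 : ∀ m : N, η₁.1 (m ^ k) = η₁.1 m := fun m => congrFun (congrArg Subtype.val hη₁) m
  rw [hg, conjBy_apply, conjBy_apply]
  refine Eq.trans ?_ (h1 _)
  apply congrArg
  ext
  simp [conj_pow]

end Cfsg.Agent.S4518
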