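import Cfsg.Statements.S4538
import Cfsg.Agent.Lib.SLnUnique50

set_option autoImplicit false
open Cfsg

namespace Cfsg.Agent.S4538

/-- Let F be a finite field of characteristic p and n ≥ 2. Relative to a maximal ideal M of the algebraic integers containing p, the group SL(n, F) has exactly one p-block of defect zero, and every other p-block has full defect (its defect equals the exponent of p in the order of the group, so its defect groups are Sylow p-subgroups). -/
theorem result {F : Type*} [Field F] [Fintype F] (n : ℕ) (hn : 2 ≤ n) (p : ℕ) [Fact p.Prime] [CharP F p] (M : Ideal Cfsg.AlgInt) (hM : Cfsg.IsPModular p M) : Nat.card {B : Set (Cfsg.IrrCharacter (Matrix.SpecialLinearGroup (Fin n) F)) // Cfsg.IsPBlock M B ∧ Cfsg.blockDefect p B = 0} = 1 ∧ ∀ B : Set (Cfsg.IrrCharacter (Matrix.SpecialLinearGroup (Fin n) F)), Cfsg.IsPBlock M B → Cfsg.blockDefect p B = 0 ∨ Cfsg.blockDefect p B = (Nat.card (Matrix.SpecialLinearGroup (Fin n) F)).factorization p := by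
    classical
  have hpp : p.Prime := Fact.out
  haveI := hM.2.1.isPrime
  letI : Fintype (Matrix.SpecialLinearGroup (Fin n) F) := Fintype.ofFinite _
  obtain ⟨χ₀, hχ₀⟩ := Cfsg.Agent.Lib.SLnSteinberg50.exists_defect_zero (F := F) p (n := n) (by omega)
  have hB₀s : Cfsg.blockOf M (χ₀ : Matrix.SpecialLinearGroup (Fin n) F → ℂ) = {χ₀} :=
    (Cfsg.Agent.S0914.result p M hM χ₀).mp hχ₀
  have hB₀b : Cfsg.IsPBlock M (Cfsg.blockOf M (χ₀ : Matrix.SpecialLinearGroup (Fin n) F → ℂ)) := ⟨χ₀, rfl⟩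
  have hv : ∀ χ : Cfsg.IrrCharacter (Matrix.SpecialLinearGroup (Fin n) F),
      ¬ p ∣ Nat.card (Matrix.SpecialLinearGroup (Fin n) F) /
        Cfsg.charDegree (χ : Matrix.SpecialLinearGroup (Fin n) F → ℂ) →
      (Nat.card (Matrix.SpecialLinearGroup (Fin n) F)).factorization p ≤
        (Cfsg.charDegree (χ : Matrix.SpecialLinearGroup (Fin n) F → ℂ)).factorization p := by
    intro χ hχ
    have hdeg := Cfsg.Agent.Lib.CharKernel.charDegree_ne_zero χ.2
    obtain ⟨k, hk⟩ := Cfsg.Agent.Lib.CharKernel.charDegree_dvd_card χ.2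
    have hkne : k ≠ 0 := by
      rintro rfl
      simp at hk
    rw [hk, Nat.mul_div_cancel_left _ (Nat.pos_of_ne_zero hdeg)] at hχ
    rw [hk, Nat.factorization_mul hdeg hkne]
    simp only [Finsupp.coe_add, Pi.add_apply]
    rw [Nat.factorization_eq_zero_of_not_dvd hχ, add_zero]
  have hB₀0 : Cfsg.blockDefect p (Cfsg.blockOf M (χ₀ : Matrix.SpecialLinearGroup (Fin n) F → ℂ)) = 0 := by
    have h1 := Cfsg.Agent.Lib.BlockQ.card_factorization_eq (p := p) hB₀b
    have h2 : Cfsg.Agent.Lib.BlockQ.minExp p (Cfsg.blockOf M (χ₀ : Matrix.SpecialLinearGroup (Fin n) F → ℂ)) =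
        (Cfsg.charDegree (χ₀ : Matrix.SpecialLinearGroup (Fin n) F → ℂ)).factorization p := by
      unfold Cfsg.Agent.Lib.BlockQ.minExp
      rw [hB₀s, Set.image_singleton, csInf_singleton]
    have h3 := hv χ₀ hχ₀
    omega
  refine ⟨?_, fun B hB => ?_⟩
  · rw [Nat.card_eq_one_iff_unique]
    refine ⟨⟨?_⟩, ⟨⟨_, hB₀b, hB₀0⟩⟩⟩
    rintro ⟨B, hB, hB0⟩ ⟨B', hB', hB0'⟩
    have aux : ∀ B : Set (Cfsg.IrrCharacter (Matrix.SpecialLinearGroup (Fin n) F)), Cfsg.IsPBlock M B →
        Cfsg.blockDefect p B = 0 → B = Cfsg.blockOf M (χ₀ : Matrix.SpecialLinearGroup (Fin n) F → ℂ) := by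
      intro B hB hB0
      obtain ⟨χ, hχB, hχ⟩ := Cfsg.Agent.Lib.BlockQ.exists_minExp (p := p) hB
      have h1 := Cfsg.Agent.Lib.BlockQ.card_factorization_eq (p := p) hB
      rw [hB0, zero_add, ← hχ] at h1
      have hnd : ¬ p ∣ Nat.card (Matrix.SpecialLinearGroup (Fin n) F) /
          Cfsg.charDegree (χ : Matrix.SpecialLinearGroup (Fin n) F → ℂ) := by
        have hdeg := Cfsg.Agent.Lib.CharKernel.charDegree_ne_zero χ.2
        obtain ⟨k, hk⟩ := Cfsg.Agent.Lib.CharKernel.charDegree_dvd_card χ.2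
        have hkne : k ≠ 0 := by
          rintro rfl
          simp at hk
        rw [hk, Nat.mul_div_cancel_left _ (Nat.pos_of_ne_zero hdeg)]
        rw [hk, Nat.factorization_mul hdeg hkne] at h1
        simp only [Finsupp.coe_add, Pi.add_apply] at h1
        have h2 : k.factorization p = 0 := by omega
        intro hd
        have := (hpp.dvd_iff_one_le_factorization hkne).mp hd
        omega
      have e := Cfsg.Agent.Lib.SLnUnique50.unique_defect_zero hn χ χ₀ hnd hχ₀
      subst e
      obtain ⟨χ₁, rfl⟩ := id hB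
      exact (Cfsg.Agent.Lib.BlockIdem.blockOf_eq_of_mem hχB).symm
    apply Subtype.ext
    exact (aux B hB hB0).trans (aux B' hB' hB0').symm
  · obtain ⟨D, hD⟩ := Cfsg.Agent.Lib.BlockDefect.exists_isDefectGroup hM hB
    have hc := Cfsg.Agent.Lib.BlockDefect.card_isDefectGroup hM hB hD
    by_cases hDb : D = ⊥
    · left
      subst hDb
      by_contra h
      have h1 : 1 < p ^ Cfsg.blockDefect p B := Nat.one_lt_pow h hpp.one_lt
      rw [← hc] at h1
      simp at h1
    · right
      obtain ⟨h1, h2⟩ := Cfsg.Agent.Lib.SLnBlocks50.defect_dichotomy hM B hB D hD hDb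
      let Q : Sylow p (Matrix.SpecialLinearGroup (Fin n) F) := h1.toSylow h2
      have h3 : Nat.card D = p ^ (Nat.card (Matrix.SpecialLinearGroup (Fin n) F)).factorization p :=
        Q.card_eq_multiplicity
      rw [hc] at h3
      exact Nat.pow_right_injective hpp.two_le h3

end Cfsg.Agent.S4538
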