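import Mathlib
import Cfsg.Statements.S4539
import Cfsg.Agent.Lib.BlockMajorForm
import Cfsg.Agent.Lib.BlockDefect
import Cfsg.Agent.S4710

set_option autoImplicit false
open Cfsg

namespace Cfsg.Agent.S4539

/-- Let B be a p-block of the finite group G (relative to a maximal ideal M of the algebraic integers containing p) of defect d with defect group D. Let z be an element of D commuting with every element of D, and let b be a block of the centralizer C of z with defect group D that induces B (a major subsection (z, b)). If b has p-regular rank at most two, then B contains at most p ^ d irreducible characters. -/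
theorem result {G : Type*} [Group G] [Finite G] (p : ℕ) [Fact p.Prime] (M : Ideal Cfsg.AlgInt) (hM : Cfsg.IsPModular p M) (B : Set (Cfsg.IrrCharacter G)) (hB : Cfsg.IsPBlock M B) (D : Subgroup G) (hD : Cfsg.IsDefectGroup p M B D) (z : G) (hzD : z ∈ D) (hzc : ∀ d ∈ D, d * z = z * d) (b : Set (Cfsg.IrrCharacter ↥(Subgroup.centralizer ({z} : Set G)))) (hb : Cfsg.IsInducedBlock M (Subgroup.centralizer ({z} : Set G)) b B) (hbD : Cfsg.IsDefectGroup p M b (D.subgroupOf (Subgroup.centralizer ({z} : Set G)))) (hl : Cfsg.blockRank p b ≤ 2) : Nat.card B ≤ p ^ Cfsg.blockDefect p B := by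
  classical
  letI : Fintype G := Fintype.ofFinite G
  letI : Fintype (Subgroup.centralizer ({z} : Set G)) := Fintype.ofFinite _
  have hp : p.Prime := Fact.out
  have hcard := Cfsg.Agent.Lib.BlockDefect.card_isDefectGroup hM hB hD
  have hcard' := Cfsg.Agent.Lib.BlockDefect.card_isDefectGroup hM hb.1 hbD
  have hle : D ≤ Subgroup.centralizer ({z} : Set G) := by
    intro d hd
    rw [Subgroup.mem_centralizer_singleton_iff]
    exact hzc d hd
  have hsub : Nat.card (D.subgroupOf (Subgroup.centralizer ({z} : Set G))) = Nat.card D :=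
    Nat.card_congr (Subgroup.subgroupOfEquivOfLe hle).toEquiv
  have hd : Cfsg.blockDefect p b = Cfsg.blockDefect p B := by
    rw [hsub, hcard] at hcard'
    exact Nat.pow_right_injective hp.two_le hcard'.symm
  have hy : ∃ k : ℕ, orderOf z = p ^ k := by
    have h1 : orderOf z ∣ p ^ Cfsg.blockDefect p B := by
      rw [← hcard]
      have h2 := Subgroup.orderOf_dvd_natCard D hzD
      exact h2
    obtain ⟨k, -, hk⟩ := (Nat.dvd_prime_pow hp).mp h1
    exact ⟨k, hk⟩
  have h := Cfsg.Agent.Lib.BlockMajorForm.card_le hM hy rfl hb hd hl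
  rw [Cfsg.Agent.S4710.card_eq_bF]
  exact h

end Cfsg.Agent.S4539
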