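import Mathlib
import Cfsg.Statements.S4540
import Cfsg.Agent.Lib.BlockMajorR
import Cfsg.Agent.Lib.BlockDefect

set_option autoImplicit false
open Cfsg

namespace Cfsg.Agent.S4540

open Cfsg.Agent.Lib.BlockQ

/-- Let B be a 2-block of the finite group G (relative to a maximal ideal M of the algebraic integers containing 2) of defect d with defect group D. Let z be an element of D commuting with every element of D, and let b be a block of the centralizer C of z with defect group D that induces B (a major subsection (z, b)). If b has 2-regular rank at most three, then 3·k(B) ≤ 3·k₀(B) + 2·Σ 2 ^ h(χ), where k(B) is the number of members of B, k₀(B) the number of members of height zero, and the sum runs over the members χ of B of positive height h(χ); this bound is at most 3·2 ^ d, so in particular B contains at most 2 ^ d irreducible characters. -/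
theorem result {G : Type*} [Group G] [Finite G] (M : Ideal Cfsg.AlgInt) (hM : Cfsg.IsPModular 2 M) (B : Set (Cfsg.IrrCharacter G)) (hB : Cfsg.IsPBlock M B) (D : Subgroup G) (hD : Cfsg.IsDefectGroup 2 M B D) (z : G) (hzD : z ∈ D) (hzc : ∀ d ∈ D, d * z = z * d) (b : Set (Cfsg.IrrCharacter ↥(Subgroup.centralizer ({z} : Set G)))) (hb : Cfsg.IsInducedBlock M (Subgroup.centralizer ({z} : Set G)) b B) (hbD : Cfsg.IsDefectGroup 2 M b (D.subgroupOf (Subgroup.centralizer ({z} : Set G)))) (hl : Cfsg.blockRank 2 b ≤ 3) : 3 * Nat.card B ≤ 3 * Nat.card {χ : Cfsg.IrrCharacter G // χ ∈ B ∧ Cfsg.blockHeight 2 B (χ : G → ℂ) = 0} + 2 * (∑ᶠ χ ∈ {χ : Cfsg.IrrCharacter G | χ ∈ B ∧ 1 ≤ Cfsg.blockHeight 2 B (χ : G → ℂ)}, 2 ^ Cfsg.blockHeight 2 B (χ : G → ℂ)) ∧ 3 * Nat.card {χ : Cfsg.IrrCharacter G // χ ∈ B ∧ Cfsg.blockHeight 2 B (χ : G → ℂ) = 0} + 2 * (∑ᶠ χ ∈ {χ : Cfsg.IrrCharacter G | χ ∈ B ∧ 1 ≤ Cfsg.blockHeight 2 B (χ : G → ℂ)}, 2 ^ Cfsg.blockHeight 2 B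 (χ : G → ℂ)) ≤ 3 * 2 ^ Cfsg.blockDefect 2 B := by
  classical
  let _ : Fintype G := Fintype.ofFinite G
  let _ : Fintype (Subgroup.centralizer ({z} : Set G)) := Fintype.ofFinite _
  have hp : Nat.Prime 2 := Nat.prime_two
  have hcard := Cfsg.Agent.Lib.BlockDefect.card_isDefectGroup hM hB hD
  have hcard' := Cfsg.Agent.Lib.BlockDefect.card_isDefectGroup hM hb.1 hbD
  have hle : D ≤ Subgroup.centralizer ({z} : Set G) := by
    intro d hd
    rw [Subgroup.mem_centralizer_singleton_iff]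
    exact hzc d hd
  have hsub : Nat.card (D.subgroupOf (Subgroup.centralizer ({z} : Set G))) = Nat.card D :=
    Nat.card_congr (Subgroup.subgroupOfEquivOfLe hle).toEquiv
  have hd : Cfsg.blockDefect 2 b = Cfsg.blockDefect 2 B := by
    rw [hsub, hcard] at hcard'
    exact Nat.pow_right_injective hp.two_le hcard'.symm
  have hy : ∃ k : ℕ, orderOf z = 2 ^ k := by
    have h1 : orderOf z ∣ 2 ^ Cfsg.blockDefect 2 B := by
      rw [← hcard]
      exact Subgroup.orderOf_dvd_natCard D hzD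
    obtain ⟨k, -, hk⟩ := (Nat.dvd_prime_pow hp).mp h1
    exact ⟨k, hk⟩
  have hmain := Cfsg.Agent.Lib.BlockMajorR.main_A hM hy rfl hb hd hl
  set F₀ := (bF B).filter fun ψ : IrrCharacter G => blockHeight 2 B (ψ : G → ℂ) = 0 with hF₀
  set F₁ := (bF B).filter fun ψ : IrrCharacter G => 1 ≤ blockHeight 2 B (ψ : G → ℂ) with hF₁
  have hc0 : Nat.card {χ : Cfsg.IrrCharacter G // χ ∈ B ∧ Cfsg.blockHeight 2 B (χ : G → ℂ) = 0} = F₀.card := by
    rw [Nat.card_eq_fintype_card, Fintype.card_subtype]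
    congr 1
    ext χ
    simp [hF₀]
  have hs1 : ∑ᶠ χ ∈ {χ : Cfsg.IrrCharacter G | χ ∈ B ∧ 1 ≤ Cfsg.blockHeight 2 B (χ : G → ℂ)},
      2 ^ Cfsg.blockHeight 2 B (χ : G → ℂ) = ∑ χ ∈ F₁, 2 ^ blockHeight 2 B (χ : G → ℂ) := by
    have hset : {χ : Cfsg.IrrCharacter G | χ ∈ B ∧ 1 ≤ Cfsg.blockHeight 2 B (χ : G → ℂ)} =
        (F₁ : Set (IrrCharacter G)) := by
      ext χ
      simp [hF₁]
    rw [hset, finsum_mem_coe_finset]
  rw [hc0, hs1]
  refine ⟨?_, hmain⟩
  have hcB : Nat.card B = F₀.card + F₁.card := by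
    rw [Cfsg.Agent.S4710.card_eq_bF, hF₀, hF₁]
    rw [← Finset.card_filter_add_card_filter_not (s := bF B)
      (fun ψ : IrrCharacter G => blockHeight 2 B (ψ : G → ℂ) = 0)]
    congr 2
    refine Finset.filter_congr fun ψ _ => ?_
    omega
  have h1 : 3 * F₁.card ≤ 2 * ∑ χ ∈ F₁, 2 ^ blockHeight 2 B (χ : G → ℂ) := by
    rw [Finset.mul_sum, mul_comm]
    rw [← smul_eq_mul, ← Finset.sum_const]
    refine Finset.sum_le_sum fun χ hχ => ?_
    have h2 := (Finset.mem_filter.mp hχ).2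
    have h3 : 2 ^ 1 ≤ 2 ^ blockHeight 2 B (χ : G → ℂ) := Nat.pow_le_pow_right (by norm_num) h2
    omega
  rw [hcB]
  omega

end Cfsg.Agent.S4540
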