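import Mathlib
import Cfsg.Statements.S4541
import Cfsg.Agent.Lib.BlockK0Two

set_option autoImplicit false
open Cfsg

namespace Cfsg.Agent.S4541

open Cfsg.Agent.Lib.BlockQ Cfsg.Agent.Lib.BlockK0Two

/-- The arithmetic. -/
theorem arith {ι : Type*} (F : Finset ι) (m : ι → ℤ) (N l s : ℤ) (hN : 0 < N) (hs0 : 0 ≤ s)
    (hs1 : s * s ≤ l) (hs2 : l < (s + 1) * (s + 1)) (hodd : ∀ i ∈ F, Odd (m i))
    (hle : ∀ i ∈ F, (F.card : ℤ) ≤ N * m i) (hsum : ∑ i ∈ F, m i ≤ l * N) :
    (Odd s → (F.card : ℤ) ≤ s * N) ∧ (¬ Odd s → (s + 1) * (F.card : ℤ) ≤ l * N) := by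
  constructor
  · intro hsO
    by_contra hcon
    push Not at hcon
    have h1 : ∀ i ∈ F, s + 2 ≤ m i := by
      intro i hi
      have h2 := hle i hi
      have h3 : s * N < N * m i := lt_of_lt_of_le hcon h2
      have h4 : s < m i := by
        rw [mul_comm] at h3
        exact lt_of_mul_lt_mul_left h3 hN.le
      obtain ⟨a, ha⟩ := hsO
      obtain ⟨b, hb⟩ := hodd i hi
      omega
    have h2 : (F.card : ℤ) * (s + 2) ≤ ∑ i ∈ F, m i := by
      have := Finset.card_nsmul_le_sum F m (s + 2) h1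
      simpa using this
    have h3 : s * N * (s + 2) < (F.card : ℤ) * (s + 2) :=
      mul_lt_mul_of_pos_right hcon (by omega)
    have h4 : N * (s * (s + 2)) < N * l := by nlinarith
    have h5 : s * (s + 2) < l := lt_of_mul_lt_mul_left h4 hN.le
    nlinarith
  · intro hsE
    by_cases h1 : ∀ i ∈ F, s + 1 ≤ m i
    · have h2 : (F.card : ℤ) * (s + 1) ≤ ∑ i ∈ F, m i := by
        have := Finset.card_nsmul_le_sum F m (s + 1) h1
        simpa using this
      nlinarith
    · push Not at h1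
      obtain ⟨i, hi, h2⟩ := h1
      have h3 : m i ≤ s - 1 := by
        have h4 := hodd i hi
        have h5 : m i ≠ s := fun h => hsE (h ▸ h4)
        omega
      have h4 := hle i hi
      have h5 : (F.card : ℤ) ≤ N * (s - 1) := le_trans h4 (mul_le_mul_of_nonneg_left h3 hN.le)
      have h6 : (s + 1) * (F.card : ℤ) ≤ (s + 1) * (N * (s - 1)) :=
        mul_le_mul_of_nonneg_left h5 (by omega)
      nlinarith

/-- Let B be a 2-block of the finite group G (relative to a maximal ideal M of the algebraic integers containing 2), u a 2-element, and b a block of the centralizer of u inducing B (a subsection (u, b)), of defect q and 2-regular rank l; write s for the integer square root of l and k₀(B) for the number of members of B of height zero. If s is odd then k₀(B) ≤ s·2 ^ q, and otherwise (s + 1)·k₀(B) ≤ l·2 ^ q; in particular k₀(B) ≤ 2 ^ q when l ≤ 3. -/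
theorem result {G : Type*} [Group G] [Finite G] (M : Ideal Cfsg.AlgInt) (hM : Cfsg.IsPModular 2 M) (B : Set (Cfsg.IrrCharacter G)) (hB : Cfsg.IsPBlock M B) (u : G) (hu : ∃ j : ℕ, orderOf u = 2 ^ j) (b : Set (Cfsg.IrrCharacter ↥(Subgroup.centralizer ({u} : Set G)))) (hb : Cfsg.IsInducedBlock M (Subgroup.centralizer ({u} : Set G)) b B) : (Odd (Nat.sqrt (Cfsg.blockRank 2 b)) → Nat.card {χ : Cfsg.IrrCharacter G // χ ∈ B ∧ Cfsg.blockHeight 2 B (χ : G → ℂ) = 0} ≤ Nat.sqrt (Cfsg.blockRank 2 b) * 2 ^ Cfsg.blockDefect 2 b) ∧ (¬ Odd (Nat.sqrt (Cfsg.blockRank 2 b)) → (Nat.sqrt (Cfsg.blockRank 2 b) + 1) * Nat.card {χ : Cfsg.IrrCharacter G // χ ∈ B ∧ Cfsg.blockHeight 2 B (χ : G → ℂ) = 0} ≤ Cfsg.blockRank 2 b * 2 ^ Cfsg.blockDefect 2 b) ∧ (Cfsg.blockRank 2 b ≤ 3 → Nat.card {χ : Cfsg.IrrCharacter G // χ ∈ B ∧ Cfsg.blockHeight 2 B (χ : G → ℂ) = 0} ≤ 2 ^ Cfsg.blockDefect 2 b) := by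
  classical
  let _ : Fintype G := Fintype.ofFinite G
  let _ : Fintype (Subgroup.centralizer ({u} : Set G)) := Fintype.ofFinite _
  obtain ⟨h1, h2, h3⟩ := main_tt hM hu rfl hb
  set F := (bF B).filter fun ψ : IrrCharacter G =>
    (charDegree (ψ : G → ℂ)).factorization 2 = minExp 2 B with hF
  have hcard : Nat.card {χ : Cfsg.IrrCharacter G // χ ∈ B ∧ Cfsg.blockHeight 2 B (χ : G → ℂ) = 0} =
      F.card := by
    rw [Nat.card_eq_fintype_card, Fintype.card_subtype]
    congr 1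
    ext χ
    simp only [Finset.mem_filter, Finset.mem_univ, true_and, hF, mem_bF]
    refine and_congr_right fun hχ => ?_
    have := charDegree_factorization_eq (p := 2) hχ
    constructor
    · intro h
      omega
    · intro h
      omega
  rw [hcard]
  set l := blockRank 2 b with hl
  set s := Nat.sqrt l with hs
  set N : ℤ := 2 ^ blockDefect 2 b with hN
  have hN0 : 0 < N := by positivity
  have hs1 : ((s : ℤ)) * s ≤ l := by exact_mod_cast Nat.sqrt_le l
  have hs2 : (l : ℤ) < ((s : ℤ) + 1) * (s + 1) := by exact_mod_cast Nat.lt_succ_sqrt l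
  have hsum : ∑ i ∈ F, Cfsg.Agent.Lib.BlockK0Two.tt rfl b i ≤ (l : ℤ) * N := by
    rw [← h1]
    exact Finset.sum_le_sum_of_subset_of_nonneg (Finset.filter_subset _ _) (fun χ hχ _ => h2 χ hχ)
  have hodd : ∀ i ∈ F, Odd (Cfsg.Agent.Lib.BlockK0Two.tt rfl b i) := fun i hi =>
    (h3 i (Finset.mem_filter.mp hi).1 (Finset.mem_filter.mp hi).2).1
  have hle : ∀ i ∈ F, (F.card : ℤ) ≤ N * Cfsg.Agent.Lib.BlockK0Two.tt rfl b i := fun i hi =>
    (h3 i (Finset.mem_filter.mp hi).1 (Finset.mem_filter.mp hi).2).2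
  obtain ⟨ha, hb'⟩ := arith F _ N l s hN0 (by positivity) hs1 hs2 hodd hle hsum
  have hP1 : Odd s → F.card ≤ s * 2 ^ blockDefect 2 b := by
    intro h
    have h4 := ha (by exact_mod_cast h)
    rw [hN] at h4
    exact_mod_cast h4
  have hP2 : ¬ Odd s → (s + 1) * F.card ≤ l * 2 ^ blockDefect 2 b := by
    intro h
    have h4 := hb' (by exact_mod_cast h)
    rw [hN] at h4
    exact_mod_cast h4
  refine ⟨hP1, hP2, fun hl3 => ?_⟩
  by_cases hl0 : l = 0
  · have h5 : s = 0 := by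
      rw [hs, hl0]
      rfl
    have h6 := hP2 (by rw [h5]; decide)
    rw [hl0, h5] at h6
    simp at h6
    rw [h6]
    simp
  · have h5 : s = 1 := by
      rw [hs]
      exact (Nat.eq_sqrt.mpr ⟨by omega, by omega⟩).symm
    have h6 := hP1 (by rw [h5]; decide)
    rwa [h5, one_mul] at h6

end Cfsg.Agent.S4541
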