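import Mathlib
import Cfsg.Statements.S4639
import Cfsg.Agent.Lib.BFCount
import Cfsg.Agent.Lib.BFGram
import Cfsg.Agent.Lib.KleinDefect
import Cfsg.Agent.Lib.DcSetup
import Cfsg.Agent.Lib.BrauerLift
import Cfsg.Agent.Lib.BlockSection

set_option autoImplicit false
set_option linter.style.haveILetI false
open Cfsg

namespace Cfsg.Agent.S4639

/-- Let B be a block of the finite group G relative to a maximal ideal M of the algebraic integers containing the prime p, with a nontrivial commutative defect group P. Let c be a block of C_G(P) inducing B, T the stabilizer of c in N_G(P) and e the index of C_G(P) in T. Suppose that T/C_G(P) is commutative (all commutators of elements of T lie in C_G(P)) and acts freely on the non-identity elements of P (an element of T fixing a non-identity element of P under conjugation lies in C_G(P)). Then B has at most e + (#P − 1)/e irreducible characters and p-regular rank at most e; equality holds in the first bound exactly when it holds in the second;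 and both equalities hold when e ≤ 3. -/
theorem result {G : Type*} [Group G] [Finite G] (p : ℕ) [Fact p.Prime] (M : Ideal Cfsg.AlgInt) (hM : Cfsg.IsPModular p M) (B : Set (Cfsg.IrrCharacter G)) (hB : Cfsg.IsPBlock M B) (P : Subgroup G) (hPD : Cfsg.IsDefectGroup p M B P) (hP1 : P ≠ ⊥) (hPab : ∀ x ∈ P, ∀ y ∈ P, x * y = y * x) (c : Set (Cfsg.IrrCharacter (Subgroup.centralizer (P : Set G)))) (hc : Cfsg.IsInducedBlock M (Subgroup.centralizer (P : Set G)) c B) (T : Subgroup G) (hT : ∀ g : G, g ∈ T ↔ (g ∈ Subgroup.normalizer (P : Set G) ∧ Cfsg.StabilizesBlock (Subgroup.centralizer (P : Set G)) c g)) (e : ℕ) (he : (Subgroup.centralizer (P : Set G)).relIndex T = e) (hEab : ∀ g ∈ T, ∀ h ∈ T, g * h * g⁻¹ * h⁻¹ ∈ Subgroup.centralizer (P : Set G)) (hfree : ∀ g ∈ T, ∀ x ∈ P, x ≠ 1 → g * x * g⁻¹ = x → g ∈ Subgroup.centralizer (P : Set G)) : Nat.card B ≤ e + (Nat.card P - 1) / e ∧ Cfsg.blockRank p B ≤ e ∧ (Nat.card B = e + (Nat.card P - 1) / e ↔ Cfsg.blockRank p B = e) ∧ (e ≤ 3 → Nat.card B = e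 + (Nat.card P - 1) / e ∧ Cfsg.blockRank p B = e) := by
  classical
  letI : Fintype G := Fintype.ofFinite G
  haveI hMp : M.IsPrime := Cfsg.Agent.Lib.BlockLocal.isPrime_of_isPModular hM
  have hPp : IsPGroup p P := Cfsg.Agent.Lib.BlockTrans.isPGroup_of_isDefectGroup hPD
  letI : Fintype (Subgroup.centralizer (P : Set G)) := Fintype.ofFinite _
  have hcB := Cfsg.Agent.Lib.BlockSection.isBrauerPairOf_of_isInducedBlock hM hPp hc
  have hmax := Cfsg.Agent.Lib.BrauerLift.isMaximal_of_isDefectGroup hM hcB hPD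
  have h : Cfsg.Agent.Lib.BFLevel.FS p M B P (⟨c, hcB.1.2⟩ : Cfsg.Agent.Lib.BrauerPair.BlockT M (Subgroup.centralizer (P : Set G))) T :=
    ⟨hM, hPD, hmax, hPab, hT, hfree⟩
  letI : Fintype B := Fintype.ofFinite B
  obtain ⟨R, x, hR, hGram, hrow, hcount⟩ := Cfsg.Agent.Lib.BFData.final_counts h hP1
  have he0 : 0 < e := by
    rw [← he]
    exact Nat.pos_of_ne_zero Subgroup.index_ne_zero_of_finite
  rw [he] at hR hGram
  have hGram' : ∀ i j, ∑ χ, x i χ * x j χ = (if i = j then 1 else 0) + (e : ℤ) := by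
    intro i j
    convert hGram i j
  have hP2 : 2 ≤ Nat.card P := by
    obtain ⟨⟨w, hw⟩, hw1⟩ := (Subgroup.ne_bot_iff_exists_ne_one).1 hP1
    have h1 : 1 < Nat.card P := Finite.one_lt_card_iff_nontrivial.2 ⟨⟨⟨w, hw⟩, 1, hw1⟩⟩
    exact h1
  have hs : 0 < R.card := by
    rcases Nat.eq_zero_or_pos R.card with h0 | h0
    · rw [h0, zero_mul] at hR
      omega
    · exact h0
  have hdiv : (Nat.card P - 1) / e = R.card := by
    rw [← hR]
    exact Nat.mul_div_cancel _ he0
  have hk : Nat.card B = Cfsg.blockRank p B + R.card := by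
    rw [Nat.card_eq_fintype_card]
    exact hcount
  have hl : 1 ≤ Cfsg.blockRank p B := Cfsg.Agent.Lib.KleinDefect.blockRank_pos hM hB
  have hle : Nat.card B ≤ R.card + e := by
    have h1 := Cfsg.Agent.Lib.BFGram.gram_count x e hGram' hrow (by simpa using hs)
    rw [Nat.card_eq_fintype_card]
    simpa using h1
  rw [hdiv]
  refine ⟨by omega, by omega, by omega, fun he3 => ?_⟩
  suffices hfin : Cfsg.blockRank p B = e by
    refine ⟨by omega, hfin⟩
  by_cases he1 : e = 1
  · omega
  have he2 : 2 ≤ e := by omega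
  have hsm := Cfsg.Agent.Lib.BFGram.gram_small x e he2 he3 hGram' hrow (by simpa using hs) (by
    have h1 : R.card + 1 ≤ Fintype.card B := by
      rw [← Nat.card_eq_fintype_card]
      omega
    simpa using h1)
  rw [← Nat.card_eq_fintype_card (α := B)] at hsm
  simp only [Fintype.card_coe] at hsm
  rcases hsm with h1 | ⟨h1, h2⟩
  · omega
  -- the exceptional cases: `P` has prime order, or ten elements
  obtain ⟨m, hm⟩ := IsPGroup.iff_card.1 hPp
  have hpp : p.Prime := Fact.out
  have hcyc : ∀ q : ℕ, q.Prime → Nat.card P = q → Cfsg.blockRank p B = e := by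
    intro q hq hPq
    haveI : Fact q.Prime := ⟨hq⟩
    have hm' : p ^ m = q := by rw [← hm, hPq]
    obtain ⟨rfl, rfl⟩ := (Nat.Prime.pow_eq_iff hq).1 hm'
    have hD : IsCyclic P := isCyclic_of_prime_card hPq
    exact (Cfsg.Agent.Lib.DcSetup.dade_main hM hD (le_refl 1) (by simpa using hPq) hB hPD hc hT he).2.1
  have hPe : Nat.card P = R.card * e + 1 := by omega
  have hcases : (e = 2 ∧ R.card = 3) ∨ (e = 3 ∧ R.card = 3) ∨ (e = 3 ∧ R.card = 4) := by omega
  rcases hcases with ⟨h3, h4⟩ | ⟨h3, h4⟩ | ⟨h3, h4⟩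
  · exact hcyc 7 (by norm_num) (by rw [hPe, h3, h4])
  · exfalso
    have h10 : p ^ m = 10 := by rw [← hm, hPe, h3, h4]
    have h2d : 2 ∣ p ^ m := by rw [h10]; norm_num
    have h5d : 5 ∣ p ^ m := by rw [h10]; norm_num
    have h2p := (Nat.prime_dvd_prime_iff_eq Nat.prime_two hpp).1 (Nat.prime_two.dvd_of_dvd_pow h2d)
    have h5p := (Nat.prime_dvd_prime_iff_eq (by norm_num) hpp).1 ((by norm_num : Nat.Prime 5).dvd_of_dvd_pow h5d)
    omega
  · exact hcyc 13 (by norm_num) (by rw [hPe, h3, h4])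

end Cfsg.Agent.S4639
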