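import Mathlib
import Cfsg.Statements.S4552
import Cfsg.Agent.S4639
import Cfsg.Agent.S4683
import Cfsg.Agent.Lib.BFOdd
import Cfsg.Agent.Lib.BFHomo
import Cfsg.Agent.Lib.BrauerCorr

set_option autoImplicit false
set_option linter.style.haveILetI false
open Cfsg

namespace Cfsg.Agent.S4552

/-- Let B be a 2-block of the finite group G (relative to a maximal ideal M of the algebraic integers containing 2) whose defect group D is the direct product of two cyclic groups of the same order 2 ^ m, m ≥ 2. Then either B has 2-regular rank one and exactly 4 ^ m irreducible characters, or B has 2-regular rank three and exactly (4 ^ m + 8) / 3 irreducible characters. -/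
theorem result {G : Type*} [Group G] [Finite G] (M : Ideal Cfsg.AlgInt) (hM : Cfsg.IsPModular 2 M) (B : Set (Cfsg.IrrCharacter G)) (hB : Cfsg.IsPBlock M B) (D : Subgroup G) (hD : Cfsg.IsDefectGroup 2 M B D) (m : ℕ) (hm : 2 ≤ m) (hiso : Nonempty (D ≃* Multiplicative (ZMod (2 ^ m) × ZMod (2 ^ m)))) : (Cfsg.blockRank 2 B = 1 ∧ Nat.card B = 4 ^ m) ∨ (Cfsg.blockRank 2 B = 3 ∧ 3 * Nat.card B = 4 ^ m + 8) := by
  classical
  letI : Fintype G := Fintype.ofFinite G
  haveI hF : Fact (Nat.Prime 2) := ⟨Nat.prime_two⟩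
  haveI hMp : M.IsPrime := Cfsg.Agent.Lib.BlockLocal.isPrime_of_isPModular hM
  obtain ⟨φ⟩ := hiso
  have hab : ∀ x ∈ D, ∀ y ∈ D, x * y = y * x := by
    intro x hx y hy
    have h1 : φ (⟨x, hx⟩ * ⟨y, hy⟩) = φ (⟨y, hy⟩ * ⟨x, hx⟩) := by
      rw [map_mul, map_mul, mul_comm]
    exact congrArg Subtype.val (φ.injective h1)
  obtain ⟨c, hmax⟩ := Cfsg.Agent.Lib.BrauerCorr.exists_maximal_of_isDefectGroup hM hB hD
  have hind : Cfsg.IsInducedBlock M (Subgroup.centralizer (D : Set G)) c B :=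
    Cfsg.Agent.S4683.isInducedBlock_of_isBrauerPairOf hM hmax.1
  let T : Subgroup G := Subgroup.normalizer (D : Set G) ⊓
    Cfsg.Agent.Lib.BrauerCen.stabSub (Subgroup.centralizer (D : Set G)) c hmax.1.1.2
  have hT : ∀ g : G, g ∈ T ↔ (g ∈ Subgroup.normalizer (D : Set G) ∧
      Cfsg.StabilizesBlock (Subgroup.centralizer (D : Set G)) c g) := fun g => Iff.rfl
  have hodd := Cfsg.Agent.Lib.BFOdd.not_dvd_relIndex hM hmax hab hT
  have hTN : T ≤ Subgroup.normalizer (D : Set G) := inf_le_left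
  letI cg : CommGroup D := { (inferInstance : Group D) with
    mul_comm := fun a b => Subtype.ext (hab _ a.2 _ b.2) }
  have hH : Cfsg.Agent.Lib.BFHomo.Homo D m := Cfsg.Agent.Lib.BFHomo.homo_of_equiv (by omega) φ
  let θ := Cfsg.Agent.Lib.BrauerSat.theta hTN
  have hker : θ.ker = (Subgroup.centralizer (D : Set G)).subgroupOf T := by
    ext t
    rw [Cfsg.Agent.Lib.BrauerSat.mem_ker_theta, Subgroup.mem_subgroupOf]
  have hidx : θ.ker.index = (Subgroup.centralizer (D : Set G)).relIndex T := by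
    rw [hker]
    rfl
  obtain ⟨hcases, hfree'⟩ := Cfsg.Agent.Lib.BFHomo.main_abs hH θ (by rw [hidx]; exact hodd)
  have hfree : ∀ g ∈ T, ∀ x ∈ D, x ≠ 1 → g * x * g⁻¹ = x → g ∈ Subgroup.centralizer (D : Set G) := by
    intro g hg x hx hx1 hgx
    have h1 := hfree' ⟨g, hg⟩ ⟨x, hx⟩ (fun h => hx1 (congrArg Subtype.val h))
      (Subtype.ext (by rw [Cfsg.Agent.Lib.BrauerSat.coe_theta]; exact hgx))
    exact (Cfsg.Agent.Lib.BrauerSat.mem_ker_theta hTN ⟨g, hg⟩).1 h1
  have hEab : ∀ g ∈ T, ∀ h ∈ T, g * h * g⁻¹ * h⁻¹ ∈ Subgroup.centralizer (D : Set G) := by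
    intro g hg h hh
    have hcard : Nat.card θ.range = 1 ∨ Nat.card θ.range = 3 := by
      rw [← Subgroup.index_ker]
      exact hcases
    have hcyc : IsCyclic θ.range := by
      rcases hcard with h1 | h3
      · haveI : Subsingleton θ.range := (Nat.card_eq_one_iff_unique.1 h1).1
        exact isCyclic_of_subsingleton
      · haveI : Fact (Nat.Prime 3) := ⟨by norm_num⟩
        exact isCyclic_of_prime_card h3
    letI := hcyc.commGroup
    have h1 : θ.rangeRestrict ⟨g, hg⟩ * θ.rangeRestrict ⟨h, hh⟩ =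
        θ.rangeRestrict ⟨h, hh⟩ * θ.rangeRestrict ⟨g, hg⟩ := mul_comm _ _
    have h2 : (⟨g, hg⟩ * ⟨h, hh⟩ * (⟨g, hg⟩ : T)⁻¹ * (⟨h, hh⟩ : T)⁻¹ : T) ∈ θ.ker := by
      rw [MonoidHom.mem_ker]
      have h3 : θ ⟨g, hg⟩ * θ ⟨h, hh⟩ = θ ⟨h, hh⟩ * θ ⟨g, hg⟩ := congrArg Subtype.val h1
      rw [map_mul, map_mul, map_mul, h3, map_inv, map_inv]
      group
    rw [hker, Subgroup.mem_subgroupOf] at h2
    exact h2
  have hcardD : Nat.card D = 4 ^ m := by
    rw [Nat.card_congr φ.toEquiv, Nat.card_congr Multiplicative.toAdd, Nat.card_prod, Nat.card_zmod,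
      ← mul_pow]
    norm_num
  have hP1 : D ≠ ⊥ := by
    rintro rfl
    have h1 : Nat.card (⊥ : Subgroup G) = 1 := Subgroup.card_bot
    rw [h1] at hcardD
    have h2 : 4 ^ m ≥ 4 ^ 1 := Nat.pow_le_pow_right (by norm_num) (by omega)
    omega
  have hres := Cfsg.Agent.S4639.result 2 M hM B hB D hD hP1 hab c hind T hT _ rfl hEab hfree
  obtain ⟨-, -, -, h4⟩ := hres
  rw [← hidx] at h4
  rcases hcases with h1 | h3
  · rw [h1] at h4
    obtain ⟨h5, h6⟩ := h4 (by norm_num)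
    left
    refine ⟨h6, ?_⟩
    rw [h5, hcardD]
    have : 1 ≤ 4 ^ m := Nat.one_le_pow _ _ (by norm_num)
    omega
  · rw [h3] at h4
    obtain ⟨h5, h6⟩ := h4 (by norm_num)
    right
    refine ⟨h6, ?_⟩
    rw [h5, hcardD]
    have h7 : 4 - 1 ∣ 4 ^ m - 1 ^ m := Nat.sub_dvd_pow_sub_pow 4 1 m
    rw [one_pow] at h7
    have h8 : 1 ≤ 4 ^ m := Nat.one_le_pow _ _ (by norm_num)
    obtain ⟨q, hq⟩ := h7
    have h9 : (4 ^ m - 1) / 3 = q := by
      rw [hq]
      simp
    rw [h9]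
    omega

end Cfsg.Agent.S4552
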