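import Mathlib
import Cfsg.Statements.S4560
import Cfsg.Agent.Lib.TwoTrans
import Cfsg.Agent.Lib.GenChar

set_option autoImplicit false
set_option linter.style.haveILetI false
set_option linter.unusedVariables false
set_option linter.unusedSectionVars false
open Cfsg

namespace Cfsg.Agent.S4560

open Cfsg.Agent.Lib.CharBasic Cfsg.Agent.Lib.TwoTrans Cfsg.Agent.Lib.GenChar
open scoped ComplexConjugate

universe u v

section Twisted

variable {G : Type u} [Group G] [Fintype G] {α : Type v} [Fintype α] [DecidableEq α] [MulAction G α]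

/-- Twisted Burnside counting. -/
theorem sum_twisted (k : ℕ) [MulAction.IsPretransitive G (Fin k ↪ α)] (hne : Nonempty (Fin k ↪ α))
    (σ : Equiv.Perm (Fin k)) :
    ∑ g : G, Nat.card {u : Fin k ↪ α // ∀ i, g • u i = u (σ i)} = Nat.card G := by
  classical
  have h1 : ∀ (τ : Equiv.Perm (Fin k)) (g : G), Nat.card {u : Fin k ↪ α // ∀ i, g • u i = u (τ i)} =
      (Finset.univ.filter (fun u : Fin k ↪ α => ∀ i, g • u i = u (τ i))).card := by
    intro τ g
    rw [Nat.card_eq_fintype_card, Fintype.card_subtype]
  have h2 : ∀ τ : Equiv.Perm (Fin k), ∑ g : G, Nat.card {u : Fin k ↪ α // ∀ i, g • u i = u (τ i)} =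
      ∑ u : Fin k ↪ α, (Finset.univ.filter (fun g : G => ∀ i, g • u i = u (τ i))).card := by
    intro τ
    simp_rw [h1]
    exact Finset.sum_card_bipartiteAbove_eq_sum_card_bipartiteBelow
      (fun (g : G) (u : Fin k ↪ α) => ∀ i, g • u i = u (τ i))
  have h3 : ∀ u : Fin k ↪ α, (Finset.univ.filter (fun g : G => ∀ i, g • u i = u (σ i))).card =
      (Finset.univ.filter (fun g : G => ∀ i, g • u i = u ((1 : Equiv.Perm (Fin k)) i))).card := by
    intro u
    obtain ⟨h, hh⟩ := MulAction.exists_smul_eq G u ((Equiv.toEmbedding σ).trans u)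
    have hh' : ∀ i, h • u i = u (σ i) := fun i => DFunLike.congr_fun hh i
    symm
    refine Finset.card_bij (fun g _ => h * g) (fun g hg => ?_) (fun a _ b _ hab => mul_left_cancel hab) ?_
    · rw [Finset.mem_filter] at hg ⊢
      refine ⟨Finset.mem_univ _, fun i => ?_⟩
      rw [mul_smul, hg.2 i]
      exact hh' i
    · intro g hg
      rw [Finset.mem_filter] at hg
      refine ⟨h⁻¹ * g, ?_, by group⟩
      rw [Finset.mem_filter]
      refine ⟨Finset.mem_univ _, fun i => ?_⟩
      rw [mul_smul, hg.2 i, ← hh', inv_smul_smul]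
      rfl
  rw [h2 σ, Finset.sum_congr rfl (fun u _ => h3 u), ← h2 1]
  have h4 := sum_card_fixedBy (G := G) (Y := (Fin k ↪ α))
  have h5 : Nat.card (MulAction.orbitRel.Quotient G (Fin k ↪ α)) = 1 := by
    obtain ⟨u⟩ := (MulAction.pretransitive_iff_unique_quotient_of_nonempty G (Fin k ↪ α)).mp inferInstance
    exact Nat.card_unique
  rw [h5, one_mul] at h4
  rw [← h4]
  refine Finset.sum_congr rfl fun g _ => ?_
  refine Nat.card_congr (Equiv.subtypeEquivRight fun u => ?_)
  rw [MulAction.mem_fixedBy]
  constructor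
  · intro h
    ext i
    rw [Function.Embedding.smul_apply]
    exact h i
  · intro h i
    have := DFunLike.congr_fun h i
    rw [Function.Embedding.smul_apply] at this
    simpa using this

/-- The moved points of order two. -/
def movedInv (g : G) : Type v := {a : α // g • a ≠ a ∧ g • g • a = a}

noncomputable instance (g : G) : Fintype (movedInv (α := α) g) := by
  unfold movedInv; exact Fintype.ofFinite _

/-- The number of moved points of order two. -/
noncomputable def tw (α : Type v) [Fintype α] [DecidableEq α] [MulAction G α] (g : G) : ℕ :=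
  Nat.card (movedInv (α := α) g)


/-- Fixed tuples. -/
theorem card_fixed_emb (k : ℕ) (g : G) :
    Nat.card {u : Fin k ↪ α // ∀ i, g • u i = u ((1 : Equiv.Perm (Fin k)) i)} =
      (fix α g).descFactorial k := by
  classical
  have e : {u : Fin k ↪ α // ∀ i, g • u i = u ((1 : Equiv.Perm (Fin k)) i)} ≃
      (Fin k ↪ MulAction.fixedBy α g) :=
    { toFun := fun f => ⟨fun i => ⟨f.1 i, f.2 i⟩, fun i j hij => f.1.injective (Subtype.ext_iff.mp hij)⟩
      invFun := fun f => ⟨⟨fun i => (f i : α), fun i j hij => f.injective (Subtype.ext hij)⟩,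
        fun i => (f i).2⟩
      left_inv := fun f => by
        apply Subtype.ext
        ext i
        rfl
      right_inv := fun f => by
        ext i
        rfl }
  rw [Nat.card_congr e, Nat.card_eq_fintype_card, Fintype.card_embedding_eq]
  simp only [Fintype.card_fin]
  unfold fix
  rw [← Nat.card_eq_fintype_card]

/-- Tuples with a swapped first pair. -/
theorem card_swap_emb (j : ℕ) (g : G) :
    Nat.card {u : Fin (j + 2) ↪ α // ∀ i, g • u i = u (Equiv.swap 0 1 i)} =
      tw α g * (fix α g).descFactorial j := by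
  classical
  have hcard : (fix α g).descFactorial j = Nat.card (Fin j ↪ MulAction.fixedBy α g) := by
    rw [Nat.card_eq_fintype_card, Fintype.card_embedding_eq]
    simp only [Fintype.card_fin]
    unfold fix
    rw [← Nat.card_eq_fintype_card]
  have h10 : (1 : Fin (j + 2)) ≠ 0 := by simp
  have hs0 : ∀ i : Fin j, i.succ.succ ≠ (0 : Fin (j + 2)) := fun i => Fin.succ_ne_zero _
  have hs1 : ∀ i : Fin j, i.succ.succ ≠ (1 : Fin (j + 2)) := fun i h => by
    have := congrArg Fin.val h
    simp at this
  let e : {u : Fin (j + 2) ↪ α // ∀ i, g • u i = u (Equiv.swap 0 1 i)} ≃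
      (movedInv (α := α) g) × (Fin j ↪ MulAction.fixedBy α g) :=
    { toFun := fun u =>
        (⟨u.1 0, by
            have h0 := u.2 0
            rw [Equiv.swap_apply_left] at h0
            rw [h0]
            exact fun h => h10 (u.1.injective h), by
            have h0 := u.2 0
            have h1 := u.2 1
            rw [Equiv.swap_apply_left] at h0
            rw [Equiv.swap_apply_right] at h1
            rw [h0, h1]⟩,
          ⟨fun i => ⟨u.1 i.succ.succ, by
            have h := u.2 i.succ.succ
            rw [Equiv.swap_apply_of_ne_of_ne (hs0 i) (hs1 i)] at h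
            exact h⟩, fun i i' hii => by
            have := u.1.injective (Subtype.ext_iff.mp hii)
            exact Fin.succ_injective _ (Fin.succ_injective _ this)⟩)
      invFun := fun p =>
        ⟨⟨Fin.cons (p.1.1) (Fin.cons (g • p.1.1) (fun i => (p.2 i : α))), by
            have hfix : ∀ i, g • (p.2 i : α) = p.2 i := fun i => (p.2 i).2
            have hmov := p.1.2.1
            have hmov2 := p.1.2.2
            rw [Fin.cons_injective_iff]
            constructor
            · rintro ⟨i, hi⟩
              revert hi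
              refine Fin.cases ?_ (fun i => ?_) i
              · simp only [Fin.cons_zero]
                exact hmov
              · simp only [Fin.cons_succ]
                intro h
                apply hmov
                have := hfix i
                rw [h] at this
                exact this
            · rw [Fin.cons_injective_iff]
              constructor
              · rintro ⟨i, hi⟩
                have hi' : (p.2 i : α) = g • p.1.1 := hi
                have := hfix i
                rw [hi', hmov2] at this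
                exact hmov this.symm
              · intro i i' h
                exact p.2.injective (Subtype.ext h)⟩, by
            have hfix : ∀ i, g • (p.2 i : α) = p.2 i := fun i => (p.2 i).2
            have hmov2 := p.1.2.2
            intro i
            refine Fin.cases ?_ (fun i => ?_) i
            · rw [Equiv.swap_apply_left]
              rfl
            · refine Fin.cases ?_ (fun i => ?_) i
              · have : (Fin.succ (0 : Fin (j + 1))) = (1 : Fin (j + 2)) := rfl
                rw [this, Equiv.swap_apply_right]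
                exact hmov2
              · rw [Equiv.swap_apply_of_ne_of_ne (hs0 i) (hs1 i)]
                exact hfix i⟩
      left_inv := fun u => by
        apply Subtype.ext
        ext i
        revert i
        refine fun i => Fin.cases ?_ (fun i => ?_) i
        · rfl
        · refine Fin.cases ?_ (fun i => ?_) i
          · have h0 := u.2 0
            rw [Equiv.swap_apply_left] at h0
            exact h0
          · rfl
      right_inv := fun p => by
        ext i
        · rfl
        · rfl }
  rw [Nat.card_congr e, Nat.card_prod, hcard]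
  rfl


/-- Tuples with two swapped pairs. -/
theorem card_dswap_emb (g : G) :
    Nat.card {u : Fin 4 ↪ α // ∀ i, g • u i = u ((Equiv.swap 0 1 * Equiv.swap 2 3 : Equiv.Perm (Fin 4)) i)} + 2 * tw α g =
      tw α g * tw α g := by
  classical
  set σ : Equiv.Perm (Fin 4) := Equiv.swap 0 1 * Equiv.swap 2 3 with hσ
  have s0 : σ 0 = 1 := by decide
  have s1 : σ 1 = 0 := by decide
  have s2 : σ 2 = 3 := by decide
  have s3 : σ 3 = 2 := by decide
  let Q := {p : (movedInv (α := α) g) × (movedInv (α := α) g) // p.2.1 ≠ p.1.1 ∧ p.2.1 ≠ g • p.1.1}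
  let e : {u : Fin 4 ↪ α // ∀ i, g • u i = u (σ i)} ≃ Q :=
    { toFun := fun u => by
        have h0 := u.2 0
        have h1 := u.2 1
        have h2 := u.2 2
        have h3 := u.2 3
        rw [s0] at h0
        rw [s1] at h1
        rw [s2] at h2
        rw [s3] at h3
        refine ⟨(⟨u.1 0, ?_, ?_⟩, ⟨u.1 2, ?_, ?_⟩), ?_, ?_⟩
        · rw [h0]; exact fun h => absurd (u.1.injective h) (by decide)
        · rw [h0, h1]
        · rw [h2]; exact fun h => absurd (u.1.injective h) (by decide)
        · rw [h2, h3]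
        · exact fun h => absurd (u.1.injective h) (by decide)
        · show u.1 2 ≠ g • u.1 0
          rw [h0]
          exact fun h => absurd (u.1.injective h) (by decide)
      invFun := fun p => by
        refine ⟨⟨![p.1.1.1, g • p.1.1.1, p.1.2.1, g • p.1.2.1], ?_⟩, ?_⟩
        · have a1 : p.1.1.1 ≠ g • p.1.1.1 := fun h => p.1.1.2.1 h.symm
          have a2 : p.1.2.1 ≠ g • p.1.2.1 := fun h => p.1.2.2.1 h.symm
          have a3 : p.1.2.1 ≠ p.1.1.1 := p.2.1
          have a4 : p.1.2.1 ≠ g • p.1.1.1 := p.2.2
          have a5 : g • p.1.2.1 ≠ p.1.1.1 := fun h => a4 (by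
            have := congrArg (fun x => g • x) h
            simp only [p.1.2.2.2] at this
            exact this)
          have a6 : g • p.1.2.1 ≠ g • p.1.1.1 := fun h => a3 (smul_left_cancel g h)
          intro i j hij
          fin_cases i <;> fin_cases j <;> first
            | rfl
            | exact absurd hij (by simpa using a1)
            | exact absurd hij (by simpa using a1.symm)
            | exact absurd hij (by simpa using a2)
            | exact absurd hij (by simpa using a2.symm)
            | exact absurd hij (by simpa using a3)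
            | exact absurd hij (by simpa using a3.symm)
            | exact absurd hij (by simpa using a4)
            | exact absurd hij (by simpa using a4.symm)
            | exact absurd hij (by simpa using a5)
            | exact absurd hij (by simpa using a5.symm)
            | exact absurd hij (by simpa using a6)
            | exact absurd hij (by simpa using a6.symm)
        · intro i
          rcases (by decide : ∀ i : Fin 4, i = 0 ∨ i = 1 ∨ i = 2 ∨ i = 3) i with rfl | rfl | rfl | rfl
          · rw [s0]; rfl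
          · rw [s1]; exact p.1.1.2.2
          · rw [s2]; rfl
          · rw [s3]; exact p.1.2.2.2
      left_inv := fun u => by
        apply Subtype.ext
        ext i
        have h0 := u.2 0
        have h2 := u.2 2
        rw [s0] at h0
        rw [s2] at h2
        fin_cases i
        · rfl
        · exact h0
        · rfl
        · exact h2
      right_inv := fun p => by
        rfl }
  have h1 : Nat.card {u : Fin 4 ↪ α // ∀ i, g • u i = u (σ i)} = Nat.card Q := Nat.card_congr e
  rw [h1]
  -- count `Q`
  have hsig : Q ≃ Σ a : movedInv (α := α) g, {c : movedInv (α := α) g // c.1 ≠ a.1 ∧ c.1 ≠ g • a.1} :=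
    Equiv.subtypeProdEquivSigmaSubtype (fun (a c : movedInv (α := α) g) => c.1 ≠ a.1 ∧ c.1 ≠ g • a.1)
  have hinner : ∀ a : movedInv (α := α) g,
      Fintype.card {c : movedInv (α := α) g // c.1 ≠ a.1 ∧ c.1 ≠ g • a.1} + 2 = tw α g := by
    intro a
    classical
    have hDX : DecidableEq (movedInv (α := α) g) := Classical.decEq _
    let a' : movedInv (α := α) g := ⟨g • a.1, fun h => a.2.1 (smul_left_cancel g h), by
      rw [a.2.2]⟩
    have hne : a ≠ a' := fun h => a.2.1 (congrArg Subtype.val h).symm
    unfold tw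
    rw [Nat.card_eq_fintype_card, Fintype.card_subtype]
    have hcompl : Finset.univ.filter (fun c : movedInv (α := α) g => c.1 ≠ a.1 ∧ c.1 ≠ g • a.1) =
        Finset.univ \ {a, a'} := by
      ext c
      simp only [Finset.mem_filter, Finset.mem_univ, true_and, Finset.mem_sdiff, Finset.mem_insert,
        Finset.mem_singleton, not_or]
      constructor
      · rintro ⟨h1, h2⟩
        exact ⟨fun h => h1 (congrArg Subtype.val h), fun h => h2 (congrArg Subtype.val h)⟩
      · rintro ⟨h1, h2⟩
        exact ⟨fun h => h1 (Subtype.ext h), fun h => h2 (Subtype.ext h)⟩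
    rw [hcompl, Finset.card_sdiff_of_subset (Finset.subset_univ _), Finset.card_univ, Finset.card_pair hne]
    have : 2 ≤ Fintype.card (movedInv (α := α) g) := by
      rw [← Finset.card_pair hne]
      exact Finset.card_le_univ _
    omega
  rw [Nat.card_congr hsig, Nat.card_eq_fintype_card, Fintype.card_sigma]
  have hT : Finset.univ.card (α := movedInv (α := α) g) = tw α g := by
    unfold tw
    rw [Nat.card_eq_fintype_card, Finset.card_univ]
  calc ∑ a : movedInv (α := α) g, Fintype.card {c : movedInv (α := α) g // c.1 ≠ a.1 ∧ c.1 ≠ g • a.1} + 2 * tw α g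
      = ∑ a : movedInv (α := α) g, (Fintype.card {c : movedInv (α := α) g // c.1 ≠ a.1 ∧ c.1 ≠ g • a.1} + 2) := by
        rw [Finset.sum_add_distrib, Finset.sum_const, hT, smul_eq_mul, mul_comm 2]
    _ = ∑ a : movedInv (α := α) g, tw α g := Finset.sum_congr rfl fun a _ => hinner a
    _ = tw α g * tw α g := by rw [Finset.sum_const, hT, smul_eq_mul]

end Twisted

section Sym

variable {G : Type u} [Group G] {α : Type v} [MulAction G α]

/-- The action on unordered pairs. -/
instance symAction : MulAction G (Sym2 α) where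
  smul g s := s.map (g • ·)
  one_smul s := by
    induction s with
    | _ a b =>
      show Sym2.map _ _ = _
      simp
  mul_smul g h s := by
    induction s with
    | _ a b =>
      show Sym2.map _ _ = Sym2.map _ (Sym2.map _ _)
      simp [mul_smul]

theorem sym_smul_mk (g : G) (a b : α) : g • s(a, b) = s(g • a, g • b) := rfl

variable [Fintype α] [DecidableEq α]

omit [Fintype α] [DecidableEq α] in
theorem sym_smul_eq_iff (g : G) (a b : α) :
    g • s(a, b) = s(a, b) ↔ (g • a = a ∧ g • b = b) ∨ (g • a = b ∧ g • b = a) := by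
  rw [sym_smul_mk, Sym2.eq_iff]

/-- Fixed points on unordered pairs. -/
theorem two_mul_fix_sym (g : G) :
    2 * fix (Sym2 α) g = fix α g ^ 2 + fix α g + tw α g := by
  classical
  set A : Finset (α × α) := Finset.univ.filter (fun p => (g • p.1 = p.1 ∧ g • p.2 = p.2) ∨ (g • p.1 = p.2 ∧ g • p.2 = p.1)) with hA
  set Fx : Finset (Sym2 α) := Finset.univ.filter (fun x => g • x = x) with hFx
  set F : Finset α := Finset.univ.filter (fun a => g • a = a) with hF
  have hcardFx : Fx.card = fix (Sym2 α) g := by
    unfold fix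
    rw [hFx, Nat.card_eq_fintype_card]
    rw [← Fintype.card_subtype]
    exact Fintype.card_congr (Equiv.subtypeEquivRight fun x => by rw [MulAction.mem_fixedBy])
  have hcardF : F.card = fix α g := by
    unfold fix
    rw [hF, Nat.card_eq_fintype_card]
    rw [← Fintype.card_subtype]
    exact Fintype.card_congr (Equiv.subtypeEquivRight fun x => by rw [MulAction.mem_fixedBy])
  -- the fibres
  have hmaps : ∀ p ∈ A, (s(p.1, p.2) : Sym2 α) ∈ Fx := by
    intro p hp
    rw [hA, Finset.mem_filter] at hp
    rw [hFx, Finset.mem_filter]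
    exact ⟨Finset.mem_univ _, (sym_smul_eq_iff g p.1 p.2).mpr hp.2⟩
  have hfib := Finset.card_eq_sum_card_fiberwise (f := fun p : α × α => (s(p.1, p.2) : Sym2 α)) (s := A) (t := Fx) hmaps
  have hterm : ∀ x ∈ Fx, (A.filter (fun p => (s(p.1, p.2) : Sym2 α) = x)).card +
      (if x.IsDiag then 1 else 0) = 2 := by
    intro x hx
    induction x with
    | _ a b =>
      rw [hFx, Finset.mem_filter] at hx
      have hab := (sym_smul_eq_iff g a b).mp hx.2
      have hfil : A.filter (fun p => (s(p.1, p.2) : Sym2 α) = s(a, b)) = {(a, b), (b, a)} := by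
        ext ⟨c, d⟩
        simp only [Finset.mem_filter, Finset.mem_insert, Finset.mem_singleton, hA, Finset.mem_univ, true_and,
          Sym2.eq_iff, Prod.mk.injEq]
        constructor
        · exact fun h => h.2
        · intro h
          refine ⟨?_, h⟩
          rcases h with ⟨rfl, rfl⟩ | ⟨rfl, rfl⟩
          · exact hab
          · rcases hab with ⟨h1, h2⟩ | ⟨h1, h2⟩
            · exact Or.inl ⟨h2, h1⟩
            · exact Or.inr ⟨h2, h1⟩
      rw [hfil]
      by_cases h : a = b
      · subst h
        simp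
      · have hne : (a, b) ≠ (b, a) := fun h' => h (congrArg Prod.fst h')
        rw [Finset.card_pair hne]
        simp [h]
  have hdiag : (Fx.filter (fun x => x.IsDiag)).card = F.card := by
    symm
    refine Finset.card_bij (fun a _ => (s(a, a) : Sym2 α)) ?_ ?_ ?_
    · intro a ha
      rw [hF, Finset.mem_filter] at ha
      rw [Finset.mem_filter, hFx, Finset.mem_filter]
      refine ⟨⟨Finset.mem_univ _, (sym_smul_eq_iff g a a).mpr (Or.inl ⟨ha.2, ha.2⟩)⟩, ?_⟩
      simp
    · intro a _ b _ h
      simpa using h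
    · intro x hx
      induction x with
      | _ a b =>
        rw [Finset.mem_filter, hFx, Finset.mem_filter] at hx
        have hab : a = b := by simpa using hx.2
        subst hab
        have := (sym_smul_eq_iff g a a).mp hx.1.2
        refine ⟨a, ?_, rfl⟩
        rw [hF, Finset.mem_filter]
        rcases this with h | h
        · exact ⟨Finset.mem_univ _, h.1⟩
        · exact ⟨Finset.mem_univ _, h.1⟩
  have hsum : A.card + F.card = 2 * Fx.card := by
    rw [hfib, ← hdiag, Finset.card_filter, ← Finset.sum_add_distrib, Finset.sum_congr rfl hterm]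
    simp [mul_comm]
  -- counting `A`
  have hAcard : A.card = F.card ^ 2 + tw α g := by
    let B : Finset (α × α) := Finset.univ.filter (fun p => g • p.1 = p.2 ∧ g • p.2 = p.1 ∧ g • p.1 ≠ p.1)
    have hAB : A = (F ×ˢ F) ∪ B := by
      ext ⟨c, d⟩
      simp only [hA, hF, B, Finset.mem_filter, Finset.mem_univ, true_and, Finset.mem_union, Finset.mem_product]
      constructor
      · rintro (h | ⟨h1, h2⟩)
        · exact Or.inl h
        · by_cases h : g • c = c
          · left
            have hcd : c = d := h.symm.trans h1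
            subst hcd
            exact ⟨h, h⟩
          · right
            exact ⟨h1, h2, h⟩
      · rintro (h | ⟨h1, h2, _⟩)
        · exact Or.inl h
        · exact Or.inr ⟨h1, h2⟩
    have hdisj : Disjoint (F ×ˢ F) B := by
      rw [Finset.disjoint_left]
      rintro ⟨c, d⟩ h1 h2
      simp only [hF, B, Finset.mem_filter, Finset.mem_univ, true_and, Finset.mem_product] at h1 h2
      exact h2.2.2 h1.1
    have hB : B.card = tw α g := by
      unfold tw
      rw [Nat.card_eq_fintype_card, ← Finset.card_univ]
      refine Finset.card_bij' (fun p hp => ⟨p.1, ?_⟩) (fun a _ => (a.1, g • a.1)) ?_ ?_ ?_ ?_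
      · simp only [B, Finset.mem_filter, Finset.mem_univ, true_and] at hp
        refine ⟨hp.2.2, ?_⟩
        rw [hp.1, hp.2.1]
      · intro p hp
        exact Finset.mem_univ _
      · intro a _
        simp only [B, Finset.mem_filter, Finset.mem_univ, true_and]
        exact ⟨a.2.2, a.2.1⟩
      · intro p hp
        simp only [B, Finset.mem_filter, Finset.mem_univ, true_and] at hp
        ext
        · rfl
        · exact hp.1
      · intro a _
        rfl
    rw [hAB, Finset.card_union_of_disjoint hdisj, Finset.card_product, hB, sq]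
  rw [hcardFx, hcardF] at hsum
  rw [hcardF] at hAcard
  omega

end Sym


section Irr

variable {G : Type u} [Group G] [Fintype G] {α : Type v} [Fintype α] [DecidableEq α] [MulAction G α]

theorem cast_descFactorial_succ (n k : ℕ) :
    ((n.descFactorial (k + 1) : ℕ) : ℂ) = ((n : ℂ) - k) * (n.descFactorial k : ℂ) := by
  rw [Nat.descFactorial_succ]
  by_cases h : k ≤ n
  · push_cast [Nat.cast_sub h]
    ring
  · have : n.descFactorial k = 0 := Nat.descFactorial_of_lt (by omega)
    simp [this]

theorem sum_fixed (k : ℕ) [MulAction.IsPretransitive G (Fin k ↪ α)] (hne : Nonempty (Fin k ↪ α)) :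
    ∑ g : G, (((fix α g).descFactorial k : ℕ) : ℂ) = (Nat.card G : ℂ) := by
  have h := sum_twisted (G := G) k hne 1
  simp_rw [card_fixed_emb] at h
  exact_mod_cast h

theorem sum_swap (j : ℕ) [MulAction.IsPretransitive G (Fin (j + 2) ↪ α)] (hne : Nonempty (Fin (j + 2) ↪ α)) :
    ∑ g : G, ((tw α g : ℂ) * (((fix α g).descFactorial j : ℕ) : ℂ)) = (Nat.card G : ℂ) := by
  have h := sum_twisted (G := G) (j + 2) hne (Equiv.swap 0 1)
  simp_rw [card_swap_emb] at h
  exact_mod_cast h

theorem sum_dswap [MulAction.IsPretransitive G (Fin 4 ↪ α)] (hne : Nonempty (Fin 4 ↪ α)) :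
    ∑ g : G, ((tw α g : ℂ) * (tw α g : ℂ) - 2 * (tw α g : ℂ)) = (Nat.card G : ℂ) := by
  have h := sum_twisted (G := G) 4 hne (Equiv.swap 0 1 * Equiv.swap 2 3)
  have h2 : ∀ g : G, (tw α g : ℂ) * (tw α g : ℂ) - 2 * (tw α g : ℂ) =
      ((Nat.card {u : Fin 4 ↪ α // ∀ i, g • u i = u ((Equiv.swap 0 1 * Equiv.swap 2 3 : Equiv.Perm (Fin 4)) i)} : ℕ) : ℂ) := by
    intro g
    have := card_dswap_emb (α := α) g
    have h3 : ((Nat.card {u : Fin 4 ↪ α // ∀ i, g • u i = u ((Equiv.swap 0 1 * Equiv.swap 2 3 : Equiv.Perm (Fin 4)) i)} + 2 * tw α g : ℕ) : ℂ) = ((tw α g * tw α g : ℕ) : ℂ) := by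
      rw [this]
    rw [Nat.cast_add, Nat.cast_mul, Nat.cast_mul, Nat.cast_ofNat] at h3
    linear_combination -h3
  simp_rw [h2]
  exact_mod_cast h

theorem fix_sym_cast (g : G) :
    (fix (Sym2 α) g : ℂ) = ((fix α g : ℂ) ^ 2 + (fix α g : ℂ) + (tw α g : ℂ)) / 2 := by
  have h := two_mul_fix_sym (α := α) g
  have h3 : ((2 * fix (Sym2 α) g : ℕ) : ℂ) = ((fix α g ^ 2 + fix α g + tw α g : ℕ) : ℂ) := by rw [h]
  push_cast at h3
  rw [← h3]
  ring

/-- The first character. -/
noncomputable def th1 (α : Type v) [Fintype α] [DecidableEq α] [MulAction G α] (g : G) : ℂ :=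
  (fix α g : ℂ) - 1

/-- The second character. -/
noncomputable def th2 (α : Type v) [Fintype α] [DecidableEq α] [MulAction G α] (g : G) : ℂ :=
  (fix (Sym2 α) g : ℂ) - 2 * (fix α g : ℂ)

/-- The third character. -/
noncomputable def th3 (α : Type v) [Fintype α] [DecidableEq α] [MulAction G α] (g : G) : ℂ :=
  (fix α g : ℂ) * (fix α g : ℂ) - (fix (Sym2 α) g : ℂ) - (fix α g : ℂ) + 1

theorem th2_eq (g : G) : th2 α g = ((fix α g : ℂ) ^ 2 - 3 * (fix α g : ℂ) + (tw α g : ℂ)) / 2 := by
  unfold th2
  rw [fix_sym_cast]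
  ring

theorem th3_eq (g : G) : th3 α g = ((fix α g : ℂ) ^ 2 - 3 * (fix α g : ℂ) + 2 - (tw α g : ℂ)) / 2 := by
  unfold th3
  rw [fix_sym_cast]
  ring

theorem isGen_th1 : IsGeneralizedCharacter G (th1 (G := G) α) :=
  isGen_sub (isGen_of_isChar (isCharacter_fix α)) (isGen_of_isChar isCharacter_one)


theorem isGen_th2 : IsGeneralizedCharacter G (th2 (G := G) α) := by
  have h := isGen_sub (isGen_of_isChar (isCharacter_fix (G := G) (Sym2 α)))
    (isGen_nsmul (isGen_of_isChar (isCharacter_fix (G := G) α)) 2)
  convert h using 1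
  funext g
  simp [th2]

theorem isGen_th3 : IsGeneralizedCharacter G (th3 (G := G) α) := by
  have h := isGen_add (isGen_sub (isGen_sub (isGen_of_isChar (isCharacter_mul (isCharacter_fix (G := G) α) (isCharacter_fix (G := G) α)))
    (isGen_of_isChar (isCharacter_fix (G := G) (Sym2 α))))
    (isGen_of_isChar (isCharacter_fix (G := G) α))) (isGen_of_isChar (isCharacter_one (G := G)))
  convert h using 1
  funext g
  rfl

theorem irr_of_norm_one {θ : G → ℂ} (hgen : IsGeneralizedCharacter G θ)
    (hnorm : classInner θ θ = 1) {x : ℝ} (hx : θ 1 = x) (hpos : 0 < x) : IsIrrCharacter G θ := by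
  rcases gen_norm_one hgen hnorm with h | h
  · exact h
  · exfalso
    obtain ⟨d, hd, hd2⟩ := isIrr_one_pos h
    have h3 : -θ 1 = d := hd2
    rw [hx] at h3
    have h4 := congrArg Complex.re h3
    simp at h4
    have : (0 : ℝ) < d := by exact_mod_cast hd
    linarith

variable [MulAction.IsMultiplyPretransitive G α 4]

theorem fix_one : fix α (1 : G) = Nat.card α := by
  unfold fix
  apply Nat.card_congr
  exact (Equiv.subtypeUnivEquiv fun a => by simp [MulAction.mem_fixedBy])

theorem tw_one : tw α (1 : G) = 0 := by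
  unfold tw
  haveI : IsEmpty (movedInv (α := α) (1 : G)) := ⟨fun a => a.2.1 (one_smul _ _)⟩
  exact Nat.card_of_isEmpty

/-- All the moments. -/
theorem moments (hn : 4 ≤ Nat.card α) :
    (∑ g : G, (fix α g : ℂ) = Nat.card G) ∧
    (∑ g : G, ((fix α g : ℂ) * ((fix α g : ℂ) - 1)) = Nat.card G) ∧
    (∑ g : G, ((fix α g : ℂ) * ((fix α g : ℂ) - 1) * ((fix α g : ℂ) - 2) * ((fix α g : ℂ) - 3)) = Nat.card G) ∧
    (∑ g : G, (tw α g : ℂ) = Nat.card G) ∧
    (∑ g : G, ((tw α g : ℂ) * (fix α g : ℂ)) = Nat.card G) ∧
    (∑ g : G, ((tw α g : ℂ) * ((fix α g : ℂ) * ((fix α g : ℂ) - 1))) = Nat.card G) ∧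
    (∑ g : G, ((tw α g : ℂ) * (tw α g : ℂ) - 2 * (tw α g : ℂ)) = Nat.card G) := by
  have htr : ∀ k ≤ 4, MulAction.IsPretransitive G (Fin k ↪ α) := fun k hk =>
    MulAction.isMultiplyPretransitive_of_le (n := 4) hk hn
  have hne : ∀ k ≤ 4, Nonempty (Fin k ↪ α) := fun k hk =>
    Function.Embedding.nonempty_of_card_le (by
      rw [Fintype.card_fin, ← Nat.card_eq_fintype_card]; omega)
  have hdf : ∀ n : ℕ, ((n.descFactorial 1 : ℕ) : ℂ) = (n : ℂ) ∧
      ((n.descFactorial 2 : ℕ) : ℂ) = (n : ℂ) * ((n : ℂ) - 1) ∧
      ((n.descFactorial 4 : ℕ) : ℂ) = (n : ℂ) * ((n : ℂ) - 1) * ((n : ℂ) - 2) * ((n : ℂ) - 3) := by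
    intro n
    have h1 := cast_descFactorial_succ n 0
    have h2 := cast_descFactorial_succ n 1
    have h3 := cast_descFactorial_succ n 2
    have h4 := cast_descFactorial_succ n 3
    simp only [Nat.descFactorial_zero, Nat.cast_one, Nat.cast_zero, sub_zero, mul_one, zero_add, Nat.reduceAdd] at h1 h2 h3 h4
    refine ⟨h1, ?_, ?_⟩
    · rw [h2, h1]; ring
    · rw [h4, h3, h2, h1]; push_cast; ring
  haveI := htr 1 (by omega)
  haveI := htr 2 (by omega)
  haveI := htr 3 (by omega)
  haveI := htr 4 (by omega)
  refine ⟨?_, ?_, ?_, ?_, ?_, ?_, ?_⟩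
  · have := sum_fixed (G := G) (α := α) 1 (hne 1 (by omega))
    simp_rw [(hdf _).1] at this
    exact this
  · have := sum_fixed (G := G) (α := α) 2 (hne 2 (by omega))
    simp_rw [(hdf _).2.1] at this
    exact this
  · have := sum_fixed (G := G) (α := α) 4 (hne 4 (by omega))
    simp_rw [(hdf _).2.2] at this
    exact this
  · have := sum_swap (G := G) (α := α) 0 (hne 2 (by omega))
    simpa using this
  · have := sum_swap (G := G) (α := α) 1 (hne 3 (by omega))
    simp_rw [(hdf _).1] at this
    exact this
  · have := sum_swap (G := G) (α := α) 2 (hne 4 (by omega))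
    simp_rw [(hdf _).2.1] at this
    exact this
  · exact sum_dswap (hne 4 (by omega))

theorem natCard_ne_zero_G : (Nat.card G : ℂ) ≠ 0 := by
  exact_mod_cast Nat.card_pos.ne'

theorem irr_th1 (hn : 4 ≤ Nat.card α) : IsIrrCharacter G (th1 (G := G) α) := by
  obtain ⟨h1, h2, h4, t0, t1, t2, tt⟩ := moments (G := G) (α := α) hn
  have hnorm : classInner (th1 (G := G) α) (th1 (G := G) α) = 1 := by
    unfold classInner
    have hs : ∑ g : G, th1 (G := G) α g * conj (th1 (G := G) α g) = Nat.card G := by
      have : ∀ g : G, th1 (G := G) α g * conj (th1 (G := G) α g) =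
          (fix α g : ℂ) * ((fix α g : ℂ) - 1) - (fix α g : ℂ) + 1 := by
        intro g
        simp only [th1, map_sub, map_natCast, map_one]
        ring
      simp_rw [this]
      rw [Finset.sum_add_distrib, Finset.sum_sub_distrib, h1, h2]
      simp [Nat.card_eq_fintype_card]
    rw [hs, inv_mul_cancel₀ natCard_ne_zero_G]
  refine irr_of_norm_one isGen_th1 hnorm (x := (Nat.card α : ℝ) - 1) ?_ ?_
  · simp [th1, fix_one]
  · have : (4 : ℝ) ≤ Nat.card α := by exact_mod_cast hn
    linarith

theorem irr_th2 (hn : 4 ≤ Nat.card α) : IsIrrCharacter G (th2 (G := G) α) := by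
  obtain ⟨h1, h2, h4, t0, t1, t2, tt⟩ := moments (G := G) (α := α) hn
  have hnorm : classInner (th2 (G := G) α) (th2 (G := G) α) = 1 := by
    unfold classInner
    have hs : ∑ g : G, th2 (G := G) α g * conj (th2 (G := G) α g) = Nat.card G := by
      have : ∀ g : G, th2 (G := G) α g * conj (th2 (G := G) α g) =
          (1 / 4) * (((fix α g : ℂ) * ((fix α g : ℂ) - 1) * ((fix α g : ℂ) - 2) * ((fix α g : ℂ) - 3)) -
            2 * ((fix α g : ℂ) * ((fix α g : ℂ) - 1)) + 4 * (fix α g : ℂ) +
            2 * ((tw α g : ℂ) * ((fix α g : ℂ) * ((fix α g : ℂ) - 1))) -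
            4 * ((tw α g : ℂ) * (fix α g : ℂ)) + ((tw α g : ℂ) * (tw α g : ℂ) - 2 * (tw α g : ℂ)) +
            2 * (tw α g : ℂ)) := by
        intro g
        have hc : conj (th2 (G := G) α g) = th2 (G := G) α g := by
          simp only [th2, map_sub, map_mul, map_natCast, map_ofNat]
        rw [hc, th2_eq]
        ring
      simp_rw [this]
      rw [← Finset.mul_sum]
      simp only [Finset.sum_add_distrib, Finset.sum_sub_distrib, ← Finset.mul_sum, h1, h2, h4, t0, t1, t2, tt]
      ring
    rw [hs, inv_mul_cancel₀ natCard_ne_zero_G]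
  refine irr_of_norm_one isGen_th2 hnorm (x := ((Nat.card α : ℝ) ^ 2 - 3 * (Nat.card α : ℝ)) / 2) ?_ ?_
  · rw [th2_eq, fix_one, tw_one]
    push_cast
    ring
  · have : (4 : ℝ) ≤ Nat.card α := by exact_mod_cast hn
    nlinarith

theorem irr_th3 (hn : 4 ≤ Nat.card α) : IsIrrCharacter G (th3 (G := G) α) := by
  obtain ⟨h1, h2, h4, t0, t1, t2, tt⟩ := moments (G := G) (α := α) hn
  have hnorm : classInner (th3 (G := G) α) (th3 (G := G) α) = 1 := by
    unfold classInner
    have hs : ∑ g : G, th3 (G := G) α g * conj (th3 (G := G) α g) = Nat.card G := by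
      have : ∀ g : G, th3 (G := G) α g * conj (th3 (G := G) α g) =
          (1 / 4) * (((fix α g : ℂ) * ((fix α g : ℂ) - 1) * ((fix α g : ℂ) - 2) * ((fix α g : ℂ) - 3)) +
            2 * ((fix α g : ℂ) * ((fix α g : ℂ) - 1)) - 4 * (fix α g : ℂ) + 4 -
            2 * ((tw α g : ℂ) * ((fix α g : ℂ) * ((fix α g : ℂ) - 1))) +
            4 * ((tw α g : ℂ) * (fix α g : ℂ)) + ((tw α g : ℂ) * (tw α g : ℂ) - 2 * (tw α g : ℂ)) -
            2 * (tw α g : ℂ)) := by
        intro g
        have hc : conj (th3 (G := G) α g) = th3 (G := G) α g := by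
          simp [th3]
        rw [hc, th3_eq]
        ring
      simp_rw [this]
      rw [← Finset.mul_sum]
      simp only [Finset.sum_add_distrib, Finset.sum_sub_distrib, ← Finset.mul_sum, h1, h2, h4, t0, t1, t2, tt]
      simp only [Finset.sum_const, Finset.card_univ, nsmul_eq_mul, Nat.card_eq_fintype_card]
      ring
    rw [hs, inv_mul_cancel₀ natCard_ne_zero_G]
  refine irr_of_norm_one isGen_th3 hnorm (x := ((Nat.card α : ℝ) ^ 2 - 3 * (Nat.card α : ℝ) + 2) / 2) ?_ ?_
  · rw [th3_eq, fix_one, tw_one]
    push_cast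
    ring
  · have : (4 : ℝ) ≤ Nat.card α := by exact_mod_cast hn
    nlinarith

end Irr


section Elements

open Equiv.Perm

variable {n : ℕ}

theorem fix_add_sum (x : Equiv.Perm (Fin n)) : fix (Fin n) x + x.cycleType.sum = n := by
  have h1 := card_fixedPoints x
  have h2 := sum_cycleType_le x
  have h3 : fix (Fin n) x = Fintype.card (Function.fixedPoints x) := by
    unfold fix
    rw [Nat.card_eq_fintype_card]
    exact Fintype.card_congr (Equiv.setCongr rfl)
  rw [h3, h1]
  simp only [Fintype.card_fin] at h2 ⊢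
  omega

theorem tw_eq_zero (x : Equiv.Perm (Fin n)) (h : 2 ∉ x.cycleType) : tw (Fin n) x = 0 := by
  unfold tw
  haveI : IsEmpty (movedInv (α := Fin n) x) := ⟨fun a => by
    obtain ⟨a, ha, ha2⟩ := a
    have ha' : x a ≠ a := ha
    have ha2' : x (x a) = a := ha2
    have hc := isCycle_cycleOf x ha'
    have hmem : x.cycleOf a ∈ x.cycleFactorsFinset := cycleOf_mem_cycleFactorsFinset_iff.mpr
      (mem_support.mpr ha')
    have hpow : (x.cycleOf a) ^ 2 = 1 := by
      rw [hc.pow_eq_one_iff]
      refine ⟨a, ?_, ?_⟩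
      · rw [cycleOf_apply_self]; exact ha'
      · rw [cycleOf_pow_apply_self, sq]; exact ha2'
    have hord : orderOf (x.cycleOf a) = 2 := by
      have h1 : orderOf (x.cycleOf a) ∣ 2 := orderOf_dvd_of_pow_eq_one hpow
      rcases (Nat.dvd_prime Nat.prime_two).mp h1 with h2 | h2
      · exact absurd (orderOf_eq_one_iff.mp h2) hc.ne_one
      · exact h2
    apply h
    rw [cycleType_def]
    refine Multiset.mem_map.mpr ⟨x.cycleOf a, hmem, ?_⟩
    rw [Function.comp_apply, ← hc.orderOf, hord]⟩
  exact Nat.card_of_isEmpty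

theorem exists_elt (m : Multiset ℕ) (hsum : m.sum ≤ n) (h2 : ∀ a ∈ m, 2 ≤ a)
    (heven : Even (m.sum + Multiset.card m)) :
    ∃ x : alternatingGroup (Fin n), (x : Equiv.Perm (Fin n)).cycleType = m := by
  obtain ⟨x, hx⟩ := (exists_with_cycleType_iff (α := Fin n)).mpr ⟨by simpa using hsum, h2⟩
  refine ⟨⟨x, ?_⟩, hx⟩
  rw [mem_alternatingGroup, sign_of_cycleType, hx, heven.neg_one_pow]

theorem mk1 (m : Multiset ℕ) (hsum : m.sum ≤ n) (h2 : ∀ a ∈ m, 2 ≤ a)
    (heven : Even (m.sum + Multiset.card m)) (h8 : ∀ a ∈ m, a ∣ 8) :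
    ∃ x : alternatingGroup (Fin n), (∃ j, orderOf x = 2 ^ j) ∧ fix (Fin n) x + m.sum = n ∧
      (2 ∉ m → tw (Fin n) x = 0) := by
  obtain ⟨x, hx⟩ := exists_elt m hsum h2 heven
  refine ⟨x, ?_, ?_, ?_⟩
  · have h3 : orderOf (x : Equiv.Perm (Fin n)) ∣ 2 ^ 3 := by
      rw [← lcm_cycleType, hx, Multiset.lcm_dvd]
      exact h8
    obtain ⟨j, _, hj⟩ := (Nat.dvd_prime_pow Nat.prime_two).mp h3
    exact ⟨j, by rw [← Subgroup.orderOf_coe, hj]⟩
  · have := fix_add_sum (x : Equiv.Perm (Fin n))
    rw [hx] at this
    exact this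
  · intro h
    exact tw_eq_zero (x : Equiv.Perm (Fin n)) (by rwa [hx])

theorem mk3 (k : ℕ) (hk : 3 * k ≤ n) (hk0 : 0 < k) :
    ∃ y : alternatingGroup (Fin n), orderOf y = 3 ∧ fix (Fin n) y + 3 * k = n ∧ tw (Fin n) y = 0 := by
  have hs : (Multiset.replicate k 3).sum = 3 * k := by
    simp [Multiset.sum_replicate, mul_comm]
  obtain ⟨x, hx⟩ := exists_elt (n := n) (Multiset.replicate k 3) (by rw [hs]; exact hk)
    (fun a ha => by rw [Multiset.eq_of_mem_replicate ha]; norm_num)
    (by
      rw [hs, Multiset.card_replicate, Nat.even_iff]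
      omega)
  refine ⟨x, ?_, ?_, ?_⟩
  · have h3 : orderOf (x : Equiv.Perm (Fin n)) ∣ 3 := by
      rw [← lcm_cycleType, hx, Multiset.lcm_dvd]
      intro a ha
      rw [Multiset.eq_of_mem_replicate ha]
    rw [← Subgroup.orderOf_coe]
    rcases (Nat.dvd_prime Nat.prime_three).mp h3 with h4 | h4
    · exfalso
      have h5 := orderOf_eq_one_iff.mp h4
      rw [h5, cycleType_one] at hx
      have := congrArg Multiset.card hx
      simp at this
      omega
    · exact h4
  · have := fix_add_sum (x : Equiv.Perm (Fin n))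
    rw [hx, hs] at this
    exact this
  · refine tw_eq_zero (x : Equiv.Perm (Fin n)) ?_
    rw [hx]
    intro h
    have := Multiset.eq_of_mem_replicate h
    omega

theorem combine (hn : 6 ≤ n) (P : alternatingGroup (Fin n) → Prop)
    (h : (∃ x, P x ∧ fix (Fin n) x = 1) ∨ (∃ x, P x ∧ fix (Fin n) x = 0 ∧ tw (Fin n) x = 0) ∨
      (∃ x, P x ∧ fix (Fin n) x = 2 ∧ tw (Fin n) x = 0)) :
    ∃ χ : IrrCharacter (alternatingGroup (Fin n)), (∃ x, P x ∧ (χ : alternatingGroup (Fin n) → ℂ) x = 0) ∧
      ∃ ψ : IrrCharacter (Equiv.Perm (Fin n)), ∀ x : alternatingGroup (Fin n),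
        (ψ : Equiv.Perm (Fin n) → ℂ) x = (χ : alternatingGroup (Fin n) → ℂ) x := by
  have hcard : Nat.card (Fin n) = n := by simp
  haveI hA : MulAction.IsMultiplyPretransitive (alternatingGroup (Fin n)) (Fin n) 4 := by
    haveI := alternatingGroup.isMultiplyPretransitive (Fin n)
    exact MulAction.isMultiplyPretransitive_of_le (n := Nat.card (Fin n) - 2) (by omega) (by omega)
  haveI hS : MulAction.IsMultiplyPretransitive (Equiv.Perm (Fin n)) (Fin n) 4 :=
    Equiv.Perm.isMultiplyPretransitive (Fin n) 4
  have h4 : 4 ≤ Nat.card (Fin n) := by omega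
  rcases h with ⟨x, hP, hx⟩ | ⟨x, hP, hx, hx2⟩ | ⟨x, hP, hx, hx2⟩
  · refine ⟨⟨_, irr_th1 h4⟩, ⟨x, hP, ?_⟩, ⟨_, irr_th1 h4⟩, fun x => rfl⟩
    show th1 (Fin n) x = 0
    simp [th1, hx]
  · refine ⟨⟨_, irr_th2 h4⟩, ⟨x, hP, ?_⟩, ⟨_, irr_th2 h4⟩, fun x => rfl⟩
    show th2 (Fin n) x = 0
    rw [th2_eq, hx, hx2]
    simp
  · refine ⟨⟨_, irr_th3 h4⟩, ⟨x, hP, ?_⟩, ⟨_, irr_th3 h4⟩, fun x => rfl⟩
    show th3 (Fin n) x = 0
    rw [th3_eq, hx, hx2]
    norm_num

end Elements

/-- For n ≥ 7 the alternating group on n letters has an irreducible character that vanishes at some 2-element and is the restriction of an irreducible character of the symmetric group, and an irreducible character that vanishes at some element of order 3 and is the restriction of an irreducible character of the symmetric group. -/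
theorem result (n : ℕ) (hn : 7 ≤ n) : (∃ χ : Cfsg.IrrCharacter (alternatingGroup (Fin n)), (∃ x : alternatingGroup (Fin n), (∃ j : ℕ, orderOf x = 2 ^ j) ∧ (χ : alternatingGroup (Fin n) → ℂ) x = 0) ∧ ∃ ψ : Cfsg.IrrCharacter (Equiv.Perm (Fin n)), ∀ x : alternatingGroup (Fin n), (ψ : Equiv.Perm (Fin n) → ℂ) x = (χ : alternatingGroup (Fin n) → ℂ) x) ∧ (∃ χ : Cfsg.IrrCharacter (alternatingGroup (Fin n)), (∃ y : alternatingGroup (Fin n), orderOf y = 3 ∧ (χ : alternatingGroup (Fin n) → ℂ) y = 0) ∧ ∃ ψ : Cfsg.IrrCharacter (Equiv.Perm (Fin n)), ∀ x : alternatingGroup (Fin n), (ψ : Equiv.Perm (Fin n) → ℂ) x = (χ : alternatingGroup (Fin n) → ℂ) x) := by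
  constructor
  · refine combine (by omega) _ ?_
    have hcases : n % 4 = 1 ∨ n % 4 = 3 ∨ n % 8 = 2 ∨ n % 8 = 6 ∨ n % 8 = 0 ∨ n % 8 = 4 := by omega
    have hsr (k a : ℕ) : (Multiset.replicate k a).sum = k * a := by
      simp [Multiset.sum_replicate]
    rcases hcases with h | h | h | h | h | h
    · -- transpositions
      obtain ⟨x, hx, hf, _⟩ := mk1 (n := n) (Multiset.replicate ((n - 1) / 2) 2)
        (by rw [hsr]; omega)
        (fun a ha => by rw [Multiset.eq_of_mem_replicate ha])
        (by rw [hsr, Multiset.card_replicate, Nat.even_iff]; omega)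
        (fun a ha => by rw [Multiset.eq_of_mem_replicate ha]; norm_num)
      refine Or.inl ⟨x, hx, ?_⟩
      rw [hsr] at hf
      omega
    · obtain ⟨x, hx, hf, _⟩ := mk1 (n := n) (4 ::ₘ Multiset.replicate ((n - 5) / 2) 2)
        (by rw [Multiset.sum_cons, hsr]; omega)
        (fun a ha => by
          rcases Multiset.mem_cons.mp ha with rfl | ha
          · norm_num
          · rw [Multiset.eq_of_mem_replicate ha])
        (by rw [Multiset.sum_cons, hsr, Multiset.card_cons, Multiset.card_replicate, Nat.even_iff]; omega)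
        (fun a ha => by
          rcases Multiset.mem_cons.mp ha with rfl | ha
          · norm_num
          · rw [Multiset.eq_of_mem_replicate ha]; norm_num)
      refine Or.inl ⟨x, hx, ?_⟩
      rw [Multiset.sum_cons, hsr] at hf
      omega
    · obtain ⟨x, hx, hf, ht⟩ := mk1 (n := n) (Multiset.replicate ((n - 2) / 4) 4)
        (by rw [hsr]; omega)
        (fun a ha => by rw [Multiset.eq_of_mem_replicate ha]; norm_num)
        (by rw [hsr, Multiset.card_replicate, Nat.even_iff]; omega)
        (fun a ha => by rw [Multiset.eq_of_mem_replicate ha]; norm_num)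
      refine Or.inr (Or.inr ⟨x, hx, ?_, ht fun h' => ?_⟩)
      · rw [hsr] at hf
        omega
      · have := Multiset.eq_of_mem_replicate h'
        omega
    · obtain ⟨x, hx, hf, ht⟩ := mk1 (n := n) (8 ::ₘ Multiset.replicate ((n - 2) / 4 - 2) 4)
        (by rw [Multiset.sum_cons, hsr]; omega)
        (fun a ha => by
          rcases Multiset.mem_cons.mp ha with rfl | ha
          · norm_num
          · rw [Multiset.eq_of_mem_replicate ha]; norm_num)
        (by rw [Multiset.sum_cons, hsr, Multiset.card_cons, Multiset.card_replicate, Nat.even_iff]; omega)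
        (fun a ha => by
          rcases Multiset.mem_cons.mp ha with rfl | ha
          · norm_num
          · rw [Multiset.eq_of_mem_replicate ha]; norm_num)
      refine Or.inr (Or.inr ⟨x, hx, ?_, ht fun h' => ?_⟩)
      · rw [Multiset.sum_cons, hsr] at hf
        omega
      · rcases Multiset.mem_cons.mp h' with h2 | h2
        · omega
        · have := Multiset.eq_of_mem_replicate h2
          omega
    · obtain ⟨x, hx, hf, ht⟩ := mk1 (n := n) (Multiset.replicate (n / 4) 4)
        (by rw [hsr]; omega)
        (fun a ha => by rw [Multiset.eq_of_mem_replicate ha]; norm_num)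
        (by rw [hsr, Multiset.card_replicate, Nat.even_iff]; omega)
        (fun a ha => by rw [Multiset.eq_of_mem_replicate ha]; norm_num)
      refine Or.inr (Or.inl ⟨x, hx, ?_, ht fun h' => ?_⟩)
      · rw [hsr] at hf
        omega
      · have := Multiset.eq_of_mem_replicate h'
        omega
    · obtain ⟨x, hx, hf, ht⟩ := mk1 (n := n) (8 ::ₘ Multiset.replicate (n / 4 - 2) 4)
        (by rw [Multiset.sum_cons, hsr]; omega)
        (fun a ha => by
          rcases Multiset.mem_cons.mp ha with rfl | ha
          · norm_num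
          · rw [Multiset.eq_of_mem_replicate ha]; norm_num)
        (by rw [Multiset.sum_cons, hsr, Multiset.card_cons, Multiset.card_replicate, Nat.even_iff]; omega)
        (fun a ha => by
          rcases Multiset.mem_cons.mp ha with rfl | ha
          · norm_num
          · rw [Multiset.eq_of_mem_replicate ha]; norm_num)
      refine Or.inr (Or.inl ⟨x, hx, ?_, ht fun h' => ?_⟩)
      · rw [Multiset.sum_cons, hsr] at hf
        omega
      · rcases Multiset.mem_cons.mp h' with h2 | h2
        · omega
        · have := Multiset.eq_of_mem_replicate h2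
          omega
  · refine combine (by omega) _ ?_
    have hcases : n % 3 = 0 ∨ n % 3 = 1 ∨ n % 3 = 2 := by omega
    rcases hcases with h | h | h
    · obtain ⟨y, hy, hf, ht⟩ := mk3 (n := n) (n / 3) (by omega) (by omega)
      exact Or.inr (Or.inl ⟨y, hy, by omega, ht⟩)
    · obtain ⟨y, hy, hf, ht⟩ := mk3 (n := n) (n / 3) (by omega) (by omega)
      exact Or.inl ⟨y, hy, by omega⟩
    · obtain ⟨y, hy, hf, ht⟩ := mk3 (n := n) (n / 3) (by omega) (by omega)
      exact Or.inr (Or.inr ⟨y, hy, by omega, ht⟩)

end Cfsg.Agent.S4560
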