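import Cfsg.Statements.S4561
import Mathlib
import Cfsg.Agent.Lib.CentralTypeEmb2

set_option autoImplicit false
universe u
open Cfsg

namespace Cfsg.Agent.S4561

open Cfsg.Agent.Lib.CentralTypeEmb

/-- For every finite solvable group G there is a finite group H with a faithful irreducible character χ whose degree squared equals the index of the centre Z(H) (so χ is fully ramified over the centre), such that G is isomorphic to a subgroup of H/Z(H), the primes dividing the orders of H, of Z(H) and of G are the same, and the order of Z(H) is squarefree. -/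
theorem result {G : Type u} [Group G] [Finite G] (hsolv : Group.IsSolvable G) : ∃ (H : Type u) (_ : Group H) (_ : Finite H) (χ : Cfsg.IrrCharacter H), (∀ h : H, (χ : H → ℂ) h = (χ : H → ℂ) 1 → h = 1) ∧ (Cfsg.charDegree (χ : H → ℂ)) ^ 2 = (Subgroup.center H).index ∧ (∃ f : G →* H ⧸ Subgroup.center H, Function.Injective f) ∧ (∀ p : ℕ, p.Prime → ((p ∣ Nat.card H ↔ p ∣ Nat.card G) ∧ (p ∣ Nat.card (Subgroup.center H) ↔ p ∣ Nat.card G))) ∧ Squarefree (Nat.card (Subgroup.center H)) := by
  obtain ⟨T, _, _, f, hf, hpr, A, _, _, π, hb, hc, hm⟩ := exists_embedding (Nat.card G) G hsolv rfl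
  obtain ⟨H, iG, iF, χ, h1, h2, ⟨g, hg⟩, h3, h4⟩ :=
    exists_central_type hc hm hb (rad_pos (Nat.card G))
  have hG0 : Nat.card G ≠ 0 := Nat.card_pos.ne'
  refine ⟨H, iG, iF, χ, h1, h2, ⟨g.comp f, hg.comp hf⟩, ?_, ?_⟩
  · intro p hp
    rw [h3, h4, hp.dvd_mul, hp.dvd_mul, hpr p hp, prime_dvd_rad_iff hG0 hp]
    simp
  · rw [h4]
    exact rad_squarefree _

end Cfsg.Agent.S4561
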