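import Mathlib
import Cfsg.Statements.S4563
import Cfsg.Agent.Lib.FullyRam
import Cfsg.Agent.Lib.CharDecomp
import Cfsg.Agent.Lib.HallConverse

set_option autoImplicit false
set_option linter.style.haveILetI false
open Cfsg

namespace Cfsg.Agent.S4563

open Subgroup Cfsg.Agent.Lib.FullyRam Cfsg.Agent.Lib.FullyRamGroup Cfsg.Agent.Lib.CharBasic
open Cfsg.Agent.Lib.CharInd Cfsg.Agent.Lib.CharInduction Cfsg.Agent.Lib.Clifford
open Cfsg.Agent.Lib.CosetAvg Cfsg.Agent.Lib.CharDecomp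
open scoped ComplexConjugate

universe u

section GT

variable {H : Type u} [Group H] [Finite H]

/-- A large orbit forces regularity. -/
theorem reg_of_card (K Q N₀ : Subgroup H) [K.Normal] (hQN : Q ≤ N₀) {X : Type*} [Finite X]
    [MulAction N₀ X] (htrans : ∀ a b : X, ∃ q : N₀, (q : H) ∈ Q ∧ q • a = b)
    (hK1 : ∀ (a : X) (q : N₀), (q : H) ∈ Q ⊓ K → q • a = a)
    (hcard : Nat.card (Q.map (QuotientGroup.mk' K)) ≤ Nat.card X) (a : X) (q : N₀)
    (hq : (q : H) ∈ Q) (hfix : q • a = a) : (q : H) ∈ K := by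
  classical
  let π : H →* H ⧸ K := QuotientGroup.mk' K
  have hπ1 : ∀ x, x ∈ K ↔ π x = 1 := fun x => (QuotientGroup.eq_one_iff x).symm
  let Q₀ : Subgroup N₀ := Q.subgroupOf N₀
  let f : Q₀ →* H ⧸ K := π.comp (N₀.subtype.comp Q₀.subtype)
  have h1 : f.range = (Q.map π).comap (MonoidHom.id _) := by
    ext y
    simp only [MonoidHom.mem_range, comap_id, mem_map]
    constructor
    · rintro ⟨q, rfl⟩
      exact ⟨_, q.2, rfl⟩
    · rintro ⟨q, hq, rfl⟩
      exact ⟨⟨⟨q, hQN hq⟩, hq⟩, rfl⟩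
  have hle : f.ker ≤ MulAction.stabilizer Q₀ a := by
    intro x hx
    rw [MulAction.mem_stabilizer_iff]
    apply hK1
    refine ⟨x.2, ?_⟩
    exact (hπ1 _).mpr hx
  have h3 : Nat.card X = (MulAction.stabilizer Q₀ a).index := by
    rw [MulAction.index_stabilizer]
    have : MulAction.orbit Q₀ a = Set.univ := by
      ext b
      simp only [Set.mem_univ, iff_true]
      obtain ⟨q, hq, rfl⟩ := htrans a b
      exact ⟨⟨q, hq⟩, rfl⟩
    rw [this, Set.ncard_univ]
  have h4 : f.ker.index = Nat.card (Q.map π) := by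
    rw [index_ker, h1]
    rfl
  have h5 := relIndex_mul_index hle
  rw [h4, ← h3] at h5
  have hXpos : 0 < Nat.card X := by
    haveI : Nonempty X := ⟨a⟩
    exact Nat.card_pos
  have h6 : f.ker.relIndex (MulAction.stabilizer Q₀ a) = 1 := by
    have hr0 : f.ker.relIndex (MulAction.stabilizer Q₀ a) ≠ 0 := Subgroup.index_ne_zero_of_finite
    have : Nat.card (Q.map π) ≤ Nat.card X := hcard
    rw [← h5] at this
    have h7 : f.ker.relIndex (MulAction.stabilizer Q₀ a) ≤ 1 := by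
      by_contra hgt
      have hgt' : 2 ≤ f.ker.relIndex (MulAction.stabilizer Q₀ a) := by omega
      nlinarith
    omega
  rw [relIndex_eq_one] at h6
  have hmem : (⟨q, hq⟩ : Q₀) ∈ MulAction.stabilizer Q₀ a := hfix
  have h7 := h6 hmem
  exact (hπ1 _).mpr h7

end GT

section Char

variable {H : Type u} [Group H] [Fintype H] {K : Subgroup H} [K.Normal] [Fintype K]

/-- A character inducing an irreducible character is irreducible. -/
theorem irr_of_ind_irr {φ : K → ℂ} (hφ : IsCharacter K φ) (hind : IsIrrCharacter H (indFun K φ)) :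
    IsIrrCharacter K φ := by
  classical
  obtain ⟨m, hm⟩ := exists_nat_decomp hφ
  have hne : φ 1 ≠ 0 := by
    intro h0
    have h1 := congrFun (congrArg (fun f => f) (rfl : indFun K φ = indFun K φ)) 1
    have h2 : indFun K φ 1 = 0 := by
      rw [indFun_one, h0, mul_zero]
    exact irr_degree_ne_zero hind h2
  obtain ⟨i, hi⟩ : ∃ i : IrrCharacter K, m i ≠ 0 := by
    by_contra hall
    push Not at hall
    apply hne
    rw [hm]
    simp [hall]
  have hin : classInner φ (i : K → ℂ) ≠ 0 := by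
    rw [hm, classInner_nat_decomp m _ i.2]
    exact_mod_cast hi
  obtain ⟨ψ', hψ', heq⟩ := exists_char_add hφ i.2 hin
  have h1 : indFun K φ = indFun K (i : K → ℂ) + indFun K ψ' := by
    rw [heq, indFun_add]
  have h2 := irr_add hind (indFun_isCharacter K (IsIrrCharacter.isCharacter i.2))
    (indFun_isCharacter K hψ') h1
  have hidx : (K.index : ℂ) ≠ 0 := by
    exact_mod_cast Subgroup.index_ne_zero_of_finite
  rcases h2 with h3 | h3
  · exfalso
    have h4 := congrFun h3 1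
    rw [indFun_one] at h4
    exact (mul_ne_zero hidx (irr_degree_ne_zero i.2)) h4
  · have h4 := congrFun h3 1
    rw [indFun_one] at h4
    have h5 : ψ' 1 = 0 := (mul_eq_zero.mp h4).resolve_left hidx
    have h6 := char_eq_zero_of_one hψ' h5
    rw [heq, h6, add_zero]
    exact i.2

end Char

section Main

variable {H : Type u} [Group H] [Fintype H] {Z : Subgroup H} [hZ : Z.Normal] [Fintype Z]
  {K : Subgroup H} [hK : K.Normal] [Fintype K] {χ : H → ℂ} {θ : Z → ℂ} {e : ℕ}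

theorem over_smul (h : FR Z χ θ e) {K₁ : Subgroup H} [Fintype K₁] (hZK₁ : Z ≤ K₁)
    (n : normalizer (K₁ : Set H)) (g : K₁ → ℂ) :
    classInner ((g ∘ cc n) ∘ Subgroup.inclusion hZK₁) θ = classInner (g ∘ Subgroup.inclusion hZK₁) θ := by
  let τ : Z ≃* Z := conjAut Z hZ (n : H)⁻¹
  have h1 : (g ∘ cc n) ∘ Subgroup.inclusion hZK₁ = (g ∘ Subgroup.inclusion hZK₁) ∘ τ := by
    funext z
    simp only [Function.comp_apply]
    congr 1
  have h2 : θ ∘ τ = θ := by
    funext z
    exact h.inv (n : H)⁻¹ z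
  have h3 := classInner_comp_mulEquiv τ (g ∘ Subgroup.inclusion hZK₁) θ
  rw [h2] at h3
  rw [h1, h3]

/-- The main step. -/
theorem complement_of_ind (h : FR Z χ θ e) (hZK : Z ≤ K) (φ : K → ℂ) (hφ : IsCharacter K φ)
    (hind : indFun K φ = χ) (p : ℕ) [Fact p.Prime] (P : Sylow p (H ⧸ K)) :
    ∃ M : Subgroup (H ⧸ K), M.IsComplement' (P : Subgroup (H ⧸ K)) := by
  classical
  have hχ := h.hχ
  have hφirr : IsIrrCharacter K φ := irr_of_ind_irr hφ (by rw [hind]; exact hχ)
  let j : Z →* K := Subgroup.inclusion hZK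
  have hχφ : classInner (fun x : K => χ x) φ = 1 := by
    have h1 : classInner (indFun K φ) χ = 1 := by rw [hind]; exact classInner_irr_self hχ
    rwa [classInner_indFun_eq K hφirr (IsIrrCharacter.isCharacter hχ)] at h1
  have hover : classInner (φ ∘ j) θ ≠ 0 := by
    obtain ⟨m, hm⟩ := exists_nat_decomp (isCharacter_comp j hφ)
    have h1 : (φ ∘ j) 1 ≠ 0 := by
      simpa using irr_degree_ne_zero hφirr
    obtain ⟨η, hη⟩ : ∃ η : IrrCharacter Z, m η ≠ 0 := by
      by_contra hall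
      push Not at hall
      apply h1
      rw [hm]
      simp [hall]
    have hin : classInner (φ ∘ j) (η : Z → ℂ) ≠ 0 := by
      rw [hm, classInner_nat_decomp m _ η.2]
      exact_mod_cast hη
    have h2 := over_trans j (isCharacter_restrict K (IsIrrCharacter.isCharacter hχ)) hφirr η.2
      (by rw [hχφ]; exact one_ne_zero) hin
    have h3 : ((fun x : K => χ x) ∘ j) = (e : ℂ) • θ := h.hres
    rw [h3, classInner_smul_left] at h2
    have h4 := right_ne_zero_of_mul h2
    have h5 : θ = η := by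
      by_contra hne
      exact h4 (classInner_irr_ne h.hθ η.2 hne)
    rw [h5]
    exact hin
  obtain ⟨e₁, he₁⟩ := classInner_char_irr (isCharacter_comp j hφ) h.hθ
  have he₁0 : e₁ ≠ 0 := by
    rintro rfl
    apply hover
    rw [he₁]
    simp
  -- values
  haveI : Fintype (Z.subgroupOf K) := Fintype.ofFinite _
  haveI hZ2n : (Z.subgroupOf K).Normal := Subgroup.normal_subgroupOf
  let ε₂ : Z.subgroupOf K ≃* Z := Subgroup.subgroupOfEquivOfLe hZK
  have hθ₂ : IsIrrCharacter (Z.subgroupOf K) (θ ∘ ε₂) :=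
    isIrrCharacter_comp_of_surjective ε₂.toMonoidHom ε₂.surjective h.hθ
  have hinv₂ : ∀ (g : K) (n : Z.subgroupOf K), (θ ∘ ε₂) ⟨g * n * g⁻¹, hZ2n.conj_mem _ n.2 g⟩ = (θ ∘ ε₂) n := by
    intro g n
    have h1 := h.inv g (ε₂ n)
    rw [Function.comp_apply, Function.comp_apply, ← h1]
    rfl
  have hover₂ : classInner (fun n : Z.subgroupOf K => φ n) (θ ∘ ε₂) ≠ 0 := by
    have h1 : (fun n : Z.subgroupOf K => φ n) = (φ ∘ j) ∘ ε₂ := rfl
    rw [h1, classInner_comp_mulEquiv]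
    exact hover
  obtain ⟨e', -, hres₂, hval₂⟩ := restrict_eq_smul_of_invariant (Z.subgroupOf K) hθ₂ hinv₂ hφirr hover₂
  have he' : e' = e₁ := by
    have h1 : (fun n : Z.subgroupOf K => φ n) = (φ ∘ j) ∘ ε₂ := rfl
    rw [h1, classInner_comp_mulEquiv, he₁] at hval₂
    exact_mod_cast hval₂.symm
  have hθ1 : θ 1 ≠ 0 := irr_degree_ne_zero h.hθ
  have hφ1 : φ 1 = (e₁ : ℂ) * θ 1 := by
    have h1 := congrFun hres₂ 1
    simp only [Pi.smul_apply, smul_eq_mul] at h1
    rw [he'] at h1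
    exact h1
  have hχ1 : χ 1 = (e : ℂ) * θ 1 := by
    have h1 := congrFun h.hres 1
    simp only [Pi.smul_apply, smul_eq_mul] at h1
    exact h1
  have het : e = K.index * e₁ := by
    have h1 : indFun K φ 1 = (K.index : ℂ) * φ 1 := indFun_one K φ
    rw [hind, hχ1, hφ1, ← mul_assoc] at h1
    have h2 := mul_right_cancel₀ hθ1 h1
    exact_mod_cast h2
  have htpos : 0 < K.index := Nat.pos_of_ne_zero Subgroup.index_ne_zero_of_finite
  have hz₁ : (Z.subgroupOf K).index = K.index * e₁ ^ 2 := by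
    have h1 : (Z.subgroupOf K).index * K.index = e ^ 2 := by
      rw [h.he]
      exact relIndex_mul_index hZK
    apply Nat.eq_of_mul_eq_mul_right htpos
    rw [h1, het]
    ring
  -- the lift
  obtain ⟨Q, hZQ, ⟨a, ha⟩, hnd, hmap, hidx, hFr⟩ := exists_lift Z K hZK p P
  have hp : p.Prime := Fact.out
  have hcop : Nat.Coprime (Z.subgroupOf Q).index Q.index := by
    rw [ha]
    exact Nat.Coprime.pow_left a ((Nat.Prime.coprime_iff_not_dvd hp).mpr hnd)
  obtain ⟨β, f, hβ⟩ := exists_FR_of_coprime h Q hZQ hcop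
  haveI : Fintype (Q ⊓ K : Subgroup H) := Fintype.ofFinite _
  refine exists_complement h hZK p P Q hZQ hmap hidx hFr hβ ?_
  intro hZK₁ b₀ q hq hfix
  letI := XX.action (K₁ := Q ⊓ K) (hZK₁ := hZK₁) h
  have htrans : ∀ a b : XX θ (Q ⊓ K) hZK₁, ∃ q : normalizer ((Q ⊓ K : Subgroup H) : Set H),
      (q : H) ∈ Q ∧ q • a = b := fun a b => XX.trans h Q hZQ hZK₁ hβ a b
  have hK1 : ∀ (a : XX θ (Q ⊓ K) hZK₁) (q : normalizer ((Q ⊓ K : Subgroup H) : Set H)),
      (q : H) ∈ Q ⊓ K → q • a = a := by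
    intro a q hq
    apply Subtype.ext
    funext k
    show a.1 (cc q k) = a.1 k
    have h1 := char_apply_conj (IsIrrCharacter.isCharacter a.2.1) k (⟨(q : H)⁻¹, (Q ⊓ K).inv_mem hq⟩)
    rw [← h1]
    apply congrArg
    ext
    rw [cc_coe]
    simp
  refine reg_of_card K Q _ (le_normalizer_inf Q K) htrans hK1 ?_ b₀ q hq hfix
  rw [hmap]
  -- the count
  let K₁ : Subgroup H := Q ⊓ K
  let incl : Z →* K₁ := Subgroup.inclusion hZK₁
  haveI : Fintype (Z.subgroupOf K₁) := Fintype.ofFinite _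
  haveI hZ3n : (Z.subgroupOf K₁).Normal := Subgroup.normal_subgroupOf
  let ε₃ : Z.subgroupOf K₁ ≃* Z := Subgroup.subgroupOfEquivOfLe hZK₁
  have hθ₃ : IsIrrCharacter (Z.subgroupOf K₁) (θ ∘ ε₃) :=
    isIrrCharacter_comp_of_surjective ε₃.toMonoidHom ε₃.surjective h.hθ
  have hinv₃ : ∀ (g : K₁) (n : Z.subgroupOf K₁), (θ ∘ ε₃) ⟨g * n * g⁻¹, hZ3n.conj_mem _ n.2 g⟩ = (θ ∘ ε₃) n := by
    intro g n
    have h1 := h.inv g (ε₃ n)
    rw [Function.comp_apply, Function.comp_apply, ← h1]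
    rfl
  obtain ⟨b, hb, hsum⟩ := sum_sq_mult (Z.subgroupOf K₁) hθ₃ hinv₃
  have hbval : ∀ ξ : IrrCharacter K₁, classInner ((ξ : K₁ → ℂ) ∘ incl) θ = b ξ := by
    intro ξ
    rw [← hb ξ]
    have h1 : (fun n : Z.subgroupOf K₁ => (ξ : K₁ → ℂ) n) = ((ξ : K₁ → ℂ) ∘ incl) ∘ ε₃ := rfl
    rw [h1, classInner_comp_mulEquiv]
  set c := b ⟨b₀.1, b₀.2.1⟩ with hc
  have hc0 : c ≠ 0 := by
    intro h0
    apply b₀.2.2
    have := hbval ⟨b₀.1, b₀.2.1⟩
    rw [← hc, h0] at this
    simpa using this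
  have hconst : ∀ ξ : IrrCharacter K₁, b ξ ≠ 0 → b ξ = c := by
    intro ξ hξ
    have hξover : classInner ((ξ : K₁ → ℂ) ∘ incl) θ ≠ 0 := by
      rw [hbval]
      exact_mod_cast hξ
    obtain ⟨q', -, hq'⟩ := htrans b₀ ⟨ξ, ξ.2, hξover⟩
    have h1 : (ξ : K₁ → ℂ) = b₀.1 ∘ cc q' := (congrArg Subtype.val hq').symm
    have h2 : classInner ((ξ : K₁ → ℂ) ∘ incl) θ = classInner (b₀.1 ∘ incl) θ := by
      rw [h1]
      exact over_smul h hZK₁ q' b₀.1
    have h3 := hbval ⟨b₀.1, b₀.2.1⟩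
    simp only at h3
    rw [hbval ξ, h3] at h2
    exact_mod_cast h2
  -- the count of `X`
  let S : Finset (IrrCharacter K₁) := Finset.univ.filter (fun ξ => b ξ ≠ 0)
  have hcardX : Nat.card (XX θ (Q ⊓ K) hZK₁) = S.card := by
    rw [← Fintype.card_coe S, ← Nat.card_eq_fintype_card]
    apply Nat.card_congr
    refine ⟨fun a => ⟨⟨a.1, a.2.1⟩, ?_⟩, fun ξ => ⟨ξ.1.1, ξ.1.2, ?_⟩, fun a => rfl, fun ξ => rfl⟩
    · simp only [S, Finset.mem_filter, Finset.mem_univ, true_and]
      intro h0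
      apply a.2.2
      have := hbval ⟨a.1, a.2.1⟩
      rw [h0] at this
      simpa using this
    · have h1 : b ξ.1 ≠ 0 := (Finset.mem_filter.mp ξ.2).2
      have h2 := hbval ξ.1
      intro h3
      apply h1
      have h4 : classInner ((ξ.1 : K₁ → ℂ) ∘ incl) θ = 0 := h3
      rw [h4] at h2
      exact_mod_cast h2.symm
  have hsum2 : S.card * c ^ 2 = (Z.subgroupOf K₁).index := by
    rw [← hsum]
    have h1 : ∑ ξ, b ξ ^ 2 = ∑ ξ ∈ S, b ξ ^ 2 := by
      symm
      apply Finset.sum_subset (Finset.subset_univ _)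
      intro ξ _ hξ
      have : b ξ = 0 := by
        by_contra hne
        exact hξ (Finset.mem_filter.mpr ⟨Finset.mem_univ _, hne⟩)
      rw [this]
      simp
    rw [h1, Finset.sum_congr rfl (g := fun _ => c ^ 2), Finset.sum_const, smul_eq_mul]
    intro ξ hξ
    rw [hconst ξ (Finset.mem_filter.mp hξ).2]
  -- `c` divides `e₁`
  have hdvd : c ∣ e₁ := by
    let φ₁ : K₁ → ℂ := fun x => φ ⟨(x : H), (inf_le_right : Q ⊓ K ≤ K) x.2⟩
    have hφ₁ : IsCharacter K₁ φ₁ := isCharacter_comp (Subgroup.inclusion (inf_le_right : Q ⊓ K ≤ K)) hφ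
    obtain ⟨m, hm⟩ := exists_nat_decomp hφ₁
    have h1 : φ₁ ∘ incl = φ ∘ j := rfl
    have h2 : (φ₁ ∘ incl) = ∑ i, (m i : ℂ) • ((i : K₁ → ℂ) ∘ incl) := by
      rw [hm]
      funext n
      simp [Finset.sum_apply]
    have h3 : (e₁ : ℂ) = ((∑ i, m i * b i : ℕ) : ℂ) := by
      rw [← he₁, ← h1, h2, classInner_sum_left]
      push_cast
      refine Finset.sum_congr rfl fun i _ => ?_
      rw [classInner_smul_left, hbval]
    have h4 : e₁ = ∑ i, m i * b i := by exact_mod_cast h3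
    rw [h4]
    apply Finset.dvd_sum
    intro i _
    by_cases hi : b i = 0
    · rw [hi]; simp
    · rw [hconst i hi]
      exact dvd_mul_left _ _
  -- arithmetic
  obtain ⟨d, hd⟩ := hdvd
  have hu : (Z.subgroupOf K₁).index * Q.relIndex K = K.index * e₁ ^ 2 := by
    rw [← hz₁, ← inf_relIndex_right Q K]
    exact relIndex_mul_relIndex Z K₁ K hZK₁ inf_le_right
  obtain ⟨v, hv⟩ : Nat.card P ∣ K.index := by
    rw [Subgroup.index_eq_card]
    exact Subgroup.card_subgroup_dvd_card _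
  obtain ⟨k, hk⟩ := IsPGroup.iff_card.mp P.isPGroup'
  have hcopsu : Nat.Coprime (Nat.card P) (Q.relIndex K) := by
    have h1 : Nat.card P = Nat.card (P : Subgroup (H ⧸ K)) := rfl
    rw [h1, hk]
    exact Nat.Coprime.pow_left k ((Nat.Prime.coprime_iff_not_dvd hp).mpr hidx)
  have hmain : S.card * Q.relIndex K = Nat.card P * (v * d ^ 2) := by
    have hc2 : 0 < c ^ 2 := pow_pos (Nat.pos_of_ne_zero hc0) 2
    apply Nat.eq_of_mul_eq_mul_left hc2
    calc c ^ 2 * (S.card * Q.relIndex K) = (S.card * c ^ 2) * Q.relIndex K := by ring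
      _ = K.index * e₁ ^ 2 := by rw [hsum2, hu]
      _ = c ^ 2 * (Nat.card P * (v * d ^ 2)) := by rw [hv, hd]; ring
  have hdvdS : Nat.card P ∣ S.card :=
    hcopsu.dvd_of_dvd_mul_right ⟨_, hmain⟩
  have hSpos : 0 < S.card := by
    apply Finset.card_pos.mpr
    refine ⟨⟨b₀.1, b₀.2.1⟩, Finset.mem_filter.mpr ⟨Finset.mem_univ _, hc0⟩⟩
  rw [hcardX]
  exact Nat.le_of_dvd hSpos hdvdS

end Main

/-- Let χ be an irreducible character of the finite group H that is fully ramified over the normal subgroup Z: the restriction of χ to Z is e times an irreducible character of Z with e ^ 2 equal to the index of Z. If K is a proper normal subgroup of H containing Z and χ is induced from a character of K, then H/K is solvable; in particular, if K is solvable then so is H. -/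
theorem result {H : Type*} [Group H] [Fintype H] (Z : Subgroup H) [Z.Normal] (χ : Cfsg.IrrCharacter H) (hfr : ∃ (θ : Cfsg.IrrCharacter ↥Z) (e : ℕ), e ^ 2 = Z.index ∧ ∀ z : ↥Z, (χ : H → ℂ) z = (e : ℂ) * (θ : ↥Z → ℂ) z) (K : Subgroup H) [K.Normal] [Fintype K] (hZK : Z ≤ K) (hK : K ≠ ⊤) (φ : ↥K → ℂ) (hφ : Cfsg.IsCharacter ↥K φ) (hind : Cfsg.indFun K φ = (χ : H → ℂ)) : Group.IsSolvable (H ⧸ K) ∧ (Group.IsSolvable ↥K → Group.IsSolvable H) := by
  classical
  haveI : Fintype Z := Fintype.ofFinite _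
  obtain ⟨⟨θ, hθ⟩, e, he, hres⟩ := hfr
  have h : FR Z (χ : H → ℂ) θ e := ⟨χ.2, hθ, by
    funext n
    simp only [Pi.smul_apply, smul_eq_mul]
    exact hres n, he⟩
  have hsol : Group.IsSolvable (H ⧸ K) := by
    apply Cfsg.Agent.Lib.HallConverse.isSolvable_of_hall_complements _ _ rfl
    intro p hp
    haveI : Fact p.Prime := ⟨hp⟩
    obtain ⟨P⟩ := (inferInstance : Nonempty (Sylow p (H ⧸ K)))
    obtain ⟨M, hM⟩ := complement_of_ind h hZK φ hφ hind p P
    refine ⟨M, ?_⟩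
    have h1 : M.index = Nat.card (P : Subgroup (H ⧸ K)) := hM.symm.index_eq_card
    rw [h1]
    exact Sylow.card_eq_multiplicity P
  refine ⟨hsol, fun hKs => ?_⟩
  haveI := hsol
  haveI := hKs
  exact solvable_of_ker_le_range K.subtype (QuotientGroup.mk' K) (by
    rw [QuotientGroup.ker_mk', Subgroup.range_subtype])

end Cfsg.Agent.S4563
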