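import Mathlib
import Cfsg.Statements.S4564
import Cfsg.Agent.Lib.FullyRam

set_option autoImplicit false
open Cfsg

namespace Cfsg.Agent.S4564

open Subgroup Cfsg.Agent.Lib.FullyRam Cfsg.Agent.Lib.FullyRamGroup

/-- Let χ be an irreducible character of the finite group H that is fully ramified over the normal subgroup Z: the restriction of χ to Z is e times an irreducible character of Z with e ^ 2 equal to the index of Z. Let K be a normal subgroup of H containing Z and P a cyclic Sylow p-subgroup of H/K. Then P has a complement in H/K: a subgroup meeting P trivially whose product with P is the whole group. -/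
theorem result {H : Type*} [Group H] [Finite H] (Z : Subgroup H) [Z.Normal] (χ : Cfsg.IrrCharacter H) (hfr : ∃ (θ : Cfsg.IrrCharacter ↥Z) (e : ℕ), e ^ 2 = Z.index ∧ ∀ z : ↥Z, (χ : H → ℂ) z = (e : ℂ) * (θ : ↥Z → ℂ) z) (K : Subgroup H) [K.Normal] (hZK : Z ≤ K) (p : ℕ) [Fact p.Prime] (P : Sylow p (H ⧸ K)) (hcyc : IsCyclic P) : ∃ M : Subgroup (H ⧸ K), M.IsComplement' (P : Subgroup (H ⧸ K)) := by
  classical
  haveI := Fintype.ofFinite H
  haveI : Fintype Z := Fintype.ofFinite _
  obtain ⟨⟨θ, hθ⟩, e, he, hres⟩ := hfr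
  have h : FR Z (χ : H → ℂ) θ e := ⟨χ.2, hθ, by
    funext n
    simp only [Pi.smul_apply, smul_eq_mul]
    exact hres n, he⟩
  obtain ⟨Q, hZQ, ⟨a, ha⟩, hnd, hmap, hidx, hFr⟩ := exists_lift Z K hZK p P
  have hp : p.Prime := Fact.out
  have hcop : Nat.Coprime (Z.subgroupOf Q).index Q.index := by
    rw [ha]
    exact Nat.Coprime.pow_left a ((Nat.Prime.coprime_iff_not_dvd hp).mpr hnd)
  obtain ⟨β, f, hβ⟩ := exists_FR_of_coprime h Q hZQ hcop
  haveI : Fintype (Q ⊓ K : Subgroup H) := Fintype.ofFinite _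
  refine exists_complement h hZK p P Q hZQ hmap hidx hFr hβ ?_
  intro hZK₁ b q hq hfix
  refine XX.reg_cyc h Q hZQ hZK₁ hβ ?_ b q hq hfix
  intro hn
  have hmem : ∀ x : Q, QuotientGroup.mk' K (x : H) ∈ (P : Subgroup (H ⧸ K)) := by
    intro x
    rw [← hmap]
    exact ⟨x, x.2, rfl⟩
  let φ : Q →* (P : Subgroup (H ⧸ K)) := ((QuotientGroup.mk' K).comp Q.subtype).codRestrict _ hmem
  have hle : ∀ x ∈ (Q ⊓ K).subgroupOf Q, φ x = 1 := by
    intro x hx
    apply Subtype.ext
    exact (QuotientGroup.eq_one_iff _).mpr (Subgroup.mem_subgroupOf.mp hx).2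
  haveI : IsCyclic (P : Subgroup (H ⧸ K)) := hcyc
  apply isCyclic_of_injective (QuotientGroup.lift ((Q ⊓ K).subgroupOf Q) φ hle)
  rw [injective_iff_map_eq_one]
  intro y hy
  obtain ⟨x, rfl⟩ := QuotientGroup.mk_surjective y
  rw [QuotientGroup.eq_one_iff, Subgroup.mem_subgroupOf]
  have h1 : φ x = 1 := hy
  exact ⟨x.2, (QuotientGroup.eq_one_iff _).mp (congrArg Subtype.val h1)⟩

end Cfsg.Agent.S4564
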