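import Mathlib
import Cfsg.Statements.S4565
import Cfsg.Agent.S0900
import Cfsg.Agent.S0886
import Cfsg.Agent.Lib.CosetAvg
import Cfsg.Agent.Lib.IndFunBasic

set_option autoImplicit false
open Cfsg

namespace Cfsg.Agent.S4565

open Subgroup Cfsg.Agent.Lib.CharBasic Cfsg.Agent.Lib.CharInd Cfsg.Agent.Lib.CharInduction
open Cfsg.Agent.Lib.Clifford Cfsg.Agent.Lib.CosetAvg
open scoped ComplexConjugate

universe u

/-- Let χ be an irreducible character of the finite group H that is fully ramified over the normal subgroup Z: the restriction of χ to Z is e times an irreducible character of Z with e ^ 2 equal to the index of Z. If Z ≠ H, then H/Z has no cyclic subgroup that is its own centralizer. -/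
theorem result {H : Type*} [Group H] [Finite H] (Z : Subgroup H) [Z.Normal] (χ : Cfsg.IrrCharacter H) (hfr : ∃ (θ : Cfsg.IrrCharacter ↥Z) (e : ℕ), e ^ 2 = Z.index ∧ ∀ z : ↥Z, (χ : H → ℂ) z = (e : ℂ) * (θ : ↥Z → ℂ) z) (hZ : Z ≠ ⊤) (C : Subgroup (H ⧸ Z)) (hC : IsCyclic C) : Subgroup.centralizer (C : Set (H ⧸ Z)) ≠ C := by
  classical
  haveI := Fintype.ofFinite H
  haveI : Fintype Z := Fintype.ofFinite _
  obtain ⟨⟨θ, hθ⟩, e, he, hres⟩ := hfr
  obtain ⟨χ, hχ⟩ := χ
  simp only at hres
  have hresf : (fun n : Z => χ n) = (e : ℂ) • θ := by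
    funext n
    simp [hres n]
  have hvan := Cfsg.Agent.S0900.vanish_of_a Z hχ hθ e hresf he
  have hinv := Cfsg.Agent.S0900.invariant_of_a Z hχ e hresf he
  intro hcen
  let π : H →* H ⧸ Z := QuotientGroup.mk' Z
  have hπ : ∀ h, π h = (h : H ⧸ Z) := fun _ => rfl
  let L : Subgroup H := C.comap π
  have hZL : Z ≤ L := by
    intro z hz
    change π z ∈ C
    have : π z = 1 := (QuotientGroup.eq_one_iff z).mpr hz
    rw [this]
    exact one_mem _
  obtain ⟨c₀, hc₀⟩ := IsCyclic.exists_generator (α := C)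
  set c : H ⧸ Z := (c₀ : H ⧸ Z) with hcdef
  have hcC : c ∈ C := c₀.2
  have hgenC : ∀ y ∈ C, y ∈ zpowers c := by
    intro y hy
    obtain ⟨k, hk⟩ := mem_zpowers_iff.mp (hc₀ ⟨y, hy⟩)
    refine mem_zpowers_iff.mpr ⟨k, ?_⟩
    have := congrArg Subtype.val hk
    simpa using this
  have hcomm : ∀ y ∈ C, y * c = c * y := by
    intro y hy
    obtain ⟨k, rfl⟩ := mem_zpowers_iff.mp (hgenC y hy)
    exact ((Commute.refl c).zpow_left k).eq
  have hc1 : c ≠ 1 := by
    intro h1
    have hbot : C = ⊥ := by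
      rw [eq_bot_iff]
      intro y hy
      have := hgenC y hy
      rw [h1, zpowers_one_eq_bot] at this
      exact this
    rw [hbot] at hcen
    have htop : centralizer ((⊥ : Subgroup (H ⧸ Z)) : Set (H ⧸ Z)) = ⊤ := by
      simp
    rw [htop] at hcen
    apply hZ
    rw [eq_top_iff]
    intro h _
    have h2 : (h : H ⧸ Z) ∈ (⊥ : Subgroup (H ⧸ Z)) := by
      rw [← hcen]; trivial
    exact (QuotientGroup.eq_one_iff h).mp h2
  -- the centralizer condition
  have hcent : ∀ y : H ⧸ Z, y * c = c * y → y ∈ C := by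
    intro y hy
    rw [← hcen, mem_centralizer_iff]
    intro w hw
    obtain ⟨k, rfl⟩ := mem_zpowers_iff.mp (hgenC w hw)
    exact ((Commute.zpow_left hy.symm k).symm).eq.symm ▸ rfl
  obtain ⟨g, hg⟩ := QuotientGroup.mk_surjective c
  have hgL : g ∈ L := by
    change π g ∈ C
    rw [hπ, hg]; exact hcC
  -- the subgroup of `L`
  let Z' : Subgroup L := Z.subgroupOf L
  haveI hZ'n : Z'.Normal := Subgroup.normal_subgroupOf
  haveI : Fintype Z' := Fintype.ofFinite _
  let ε : Z' ≃* Z := Subgroup.subgroupOfEquivOfLe hZL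
  have hε : ∀ n : Z', ((ε n : Z) : H) = ((n : L) : H) := fun n => rfl
  have hθ' : IsIrrCharacter Z' (θ ∘ ε) :=
    isIrrCharacter_comp_of_surjective ε.toMonoidHom ε.surjective hθ
  have hinv' : ∀ (g : L) (n : Z'), (θ ∘ ε) ⟨g * n * g⁻¹, hZ'n.conj_mem _ n.2 g⟩ = (θ ∘ ε) n := by
    intro g n
    have h1 := hinv g (ε n)
    rw [Function.comp_apply, Function.comp_apply, ← h1]
    rfl
  have hcyc : IsCyclic (L ⧸ Z') := by
    refine ⟨⟨((⟨g, hgL⟩ : L) : L ⧸ Z'), ?_⟩⟩
    intro x
    obtain ⟨l, rfl⟩ := QuotientGroup.mk_surjective x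
    obtain ⟨k, hk⟩ := mem_zpowers_iff.mp (hgenC _ l.2)
    refine mem_zpowers_iff.mpr ⟨k, ?_⟩
    rw [← QuotientGroup.mk_zpow, QuotientGroup.eq, Subgroup.mem_subgroupOf]
    have h1 : (((g ^ k : H)) : H ⧸ Z) = ((l : H) : H ⧸ Z) := by
      rw [QuotientGroup.mk_zpow, hg]
      exact hk
    have h2 := QuotientGroup.eq.mp h1
    simpa using h2
  obtain ⟨τ, hτ, hτres⟩ := Cfsg.Agent.S0886.result Z' hcyc (θ ∘ ε) hθ' hinv'
  have hτc := IsIrrCharacter.isCharacter hτ
  have hτZ : IsIrrCharacter Z' (fun n : Z' => τ n) := by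
    have : (fun n : Z' => τ n) = θ ∘ ε := funext hτres
    rw [this]; exact hθ'
  haveI : Fintype L := Fintype.ofFinite _
  obtain ⟨n, hn⟩ : ∃ n : Z', τ (n * ⟨g, hgL⟩) ≠ 0 := by
    by_contra hall
    push Not at hall
    have h1 := avg_norm_sq_eq_one Z' hτc hτZ ⟨g, hgL⟩
    simp [hall] at h1
  set g₁ : L := n * ⟨g, hgL⟩ with hg₁
  have hπg₁ : π g₁ = c := by
    have h1 : ((n : L) : H) ∈ Z := n.2
    have h2 : π ((n : L) : H) = 1 := (QuotientGroup.eq_one_iff _).mpr h1
    rw [hg₁]
    change π (((n : L) : H) * g) = c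
    rw [map_mul, h2, one_mul, hπ, hg]
  let bb : L → ℂ := fun l => if π l = c then 1 else 0
  let β : L → ℂ := fun l => τ l * bb l
  have hbb : ∀ (n : Z') (l : L), bb (n * l) = bb l := by
    intro n l
    have h1 : ((n : L) : H) ∈ Z := n.2
    have h2 : π ((n : L) : H) = 1 := (QuotientGroup.eq_one_iff _).mpr h1
    have h3 : π (((n : L) * l : L) : H) = π (l : H) := by
      change π (((n : L) : H) * l) = _
      rw [map_mul, h2, one_mul]
    simp only [bb, h3]
  have horth : ∀ ξ : IrrCharacter H, classInner (indFun L β) (ξ : H → ℂ) = 0 := by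
    intro ξ
    have hξc := IsIrrCharacter.isCharacter ξ.2
    rw [frobenius L β (isClassFunction_of_isCharacter hξc)]
    unfold classInner
    by_cases hξ : (ξ : H → ℂ) = χ
    · rw [Finset.sum_eq_zero, mul_zero]
      intro l _
      by_cases hl : π l = c
      · have hlZ : (l : H) ∉ Z := by
          intro h1
          apply hc1
          rw [← hl]
          exact (QuotientGroup.eq_one_iff _).mpr h1
        show β l * conj ((ξ : H → ℂ) l) = 0
        rw [hξ, hvan _ hlZ]
        simp
      · simp [β, bb, hl]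
    · have h0 : cosetAvg Z' τ (fun l : L => (ξ : H → ℂ) l) = 0 := by
        apply eq_zero_of_one_eq_zero (isCharacter_cosetAvg Z' hτc (isCharacter_restrict L hξc))
        rw [cosetAvg_one]
        have h1 : (fun n : Z' => τ n) = θ ∘ ε := funext hτres
        have h2 : (fun n : Z' => (fun l : L => (ξ : H → ℂ) l) n) = (fun n : Z => (ξ : H → ℂ) n) ∘ ε :=
          rfl
        rw [h1, h2, classInner_comp_mulEquiv, ← classInner_conj_symm]
        have h3 : classInner (fun n : Z => (ξ : H → ℂ) n) θ = 0 := by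
          by_contra hne
          apply hξ
          apply Cfsg.Agent.S0900.c_of_a Z hχ hθ e hresf he ξ.2
          rw [classInner_indFun_eq Z hθ hξc]
          exact hne
        rw [h3, map_zero]
      have h1 : ∑ l : L, β l * conj ((ξ : H → ℂ) l) =
          ∑ l : L, (τ l * conj ((ξ : H → ℂ) l)) * bb l := by
        refine Finset.sum_congr rfl fun l _ => ?_
        simp only [β]
        ring
      rw [h1, sum_mul_invariant Z' (fun l : L => τ l * conj ((ξ : H → ℂ) l)) bb hbb]
      rw [Finset.sum_eq_zero, mul_zero]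
      intro l _
      have h2 := congrFun h0 l
      rw [cosetAvg_apply] at h2
      simp only [Pi.zero_apply] at h2
      simp only [h2, zero_mul]
  have hf0 : indFun L β = 0 :=
    eq_zero_of_orthogonal (Cfsg.Agent.Lib.IndFunBasic.indFun_isClassFunction L β) horth
  have hfg : indFun L β g₁ = τ g₁ := by
    rw [indFun_apply]
    have hterm : ∀ x : H, extendByZero L β (x⁻¹ * (g₁ : H) * x) = if x ∈ L then τ g₁ else 0 := by
      intro x
      by_cases hx : x ∈ L
      · rw [if_pos hx]
        have hm : x⁻¹ * (g₁ : H) * x ∈ L := L.mul_mem (L.mul_mem (L.inv_mem hx) g₁.2) hx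
        rw [Cfsg.Agent.Lib.CharInd.extendByZero_of_mem L β hm]
        have h1 : π (x⁻¹ * (g₁ : H) * x) = c := by
          rw [map_mul, map_mul, map_inv, hπg₁, mul_assoc, ← hcomm _ hx, ← mul_assoc, inv_mul_cancel,
            one_mul]
        simp only [β, bb, h1, if_true, mul_one]
        have h2 := char_apply_conj hτc g₁ (⟨x, hx⟩ : L)⁻¹
        rw [← h2]
        congr 1
        apply Subtype.ext
        simp
      · rw [if_neg hx]
        by_cases hm : x⁻¹ * (g₁ : H) * x ∈ L
        · rw [Cfsg.Agent.Lib.CharInd.extendByZero_of_mem L β hm]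
          have h1 : π (x⁻¹ * (g₁ : H) * x) ≠ c := by
            intro h2
            apply hx
            change π x ∈ C
            apply hcent
            rw [map_mul, map_mul, map_inv, hπg₁] at h2
            have h3 : π x * ((π x)⁻¹ * c * π x) = π x * c := by rw [h2]
            rw [← h3]
            group
          have h4 : bb ⟨_, hm⟩ = 0 := if_neg h1
          show τ _ * bb _ = 0
          rw [h4, mul_zero]
        · exact Cfsg.Agent.Lib.CharInd.extendByZero_of_not_mem L β hm
    simp only [hterm]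
    rw [Cfsg.Agent.Lib.IndFunBasic.sum_ite_mem L (τ g₁), ← mul_assoc,
      inv_mul_cancel₀ (natCard_subgroup_ne_zero L), one_mul]
  rw [hf0] at hfg
  exact hn hfg.symm

end Cfsg.Agent.S4565
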