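import Mathlib
import Cfsg.Statements.S4566
import Cfsg.Agent.Lib.CharBasic

set_option autoImplicit false
open Cfsg

namespace Cfsg.Agent.S4566

open Cfsg.Agent.Lib.CharBasic

theorem char_mul_scalar {H : Type*} [Group H] {n : ℕ} (ρ : Representation ℂ H (Fin n → ℂ)) {z : H} {c : ℂ}
    (hz : ρ z = c • LinearMap.id) (h : H) : ρ.character (h * z) = c * ρ.character h := by
  simp only [Representation.character, map_mul, hz]
  have : ρ h * (c • LinearMap.id) = c • ρ h := by
    ext v
    simp
  rw [this, map_smul, smul_eq_mul]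

/-- Let N be a central subgroup of the finite group G, ψ a faithful irreducible (hence degree-one) character of N, and χ an irreducible character of G whose restriction to N contains ψ. If g ∈ G and some x ∈ G has commutator x⁻¹ g⁻¹ x g in N but different from 1, then χ g = 0. -/
theorem result {G : Type*} [Group G] [Fintype G] (N : Subgroup G) [Fintype N] (hN : N ≤ Subgroup.center G) (ψ : Cfsg.IrrCharacter ↥N) (hfaith : ∀ n : ↥N, (ψ : ↥N → ℂ) n = (ψ : ↥N → ℂ) 1 → n = 1) (χ : Cfsg.IrrCharacter G) (hover : Cfsg.classInner (fun n : ↥N => (χ : G → ℂ) n) (ψ : ↥N → ℂ) ≠ 0) (g x : G) (hcomm : x⁻¹ * g⁻¹ * x * g ∈ N) (hne : x⁻¹ * g⁻¹ * x * g ≠ 1) : (χ : G → ℂ) g = 0 := by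
  obtain ⟨χ, n, ρ, hρ, rfl⟩ := χ
  obtain ⟨ψ, m, σ, hσ, rfl⟩ := ψ
  simp only at hfaith hover ⊢
  set z₀ : N := ⟨x⁻¹ * g⁻¹ * x * g, hcomm⟩ with hz₀
  have hcen : ∀ z : N, ∀ h : G, (z : G) * h = h * z := fun z h =>
    ((Subgroup.mem_center_iff.mp (hN z.2)) h).symm
  obtain ⟨c, hc⟩ := schur_scalar hρ (ρ (z₀ : G)) (by
    intro h
    change ρ (z₀ : G) * ρ h = ρ h * ρ (z₀ : G)
    rw [← map_mul, ← map_mul, hcen])
  obtain ⟨d, hd⟩ := schur_scalar hσ (σ z₀) (by
    intro h
    change σ z₀ * σ h = σ h * σ z₀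
    rw [← map_mul, ← map_mul]
    congr 1
    exact Subtype.ext (hcen z₀ h))
  -- the sum
  set S : ℂ := ∑ z : N, ρ.character (z : G) * (starRingEnd ℂ) (σ.character z) with hS
  have hSne : S ≠ 0 := by
    intro h0
    apply hover
    rw [classInner]
    change _ * S = 0
    rw [h0, mul_zero]
  have hS2 : S = c * (starRingEnd ℂ) d * S := by
    conv_lhs => rw [hS]
    rw [← Fintype.sum_equiv (Equiv.mulRight z₀) (fun z : N => ρ.character ((z * z₀ : N) : G) * (starRingEnd ℂ) (σ.character (z * z₀)))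
      (fun z : N => ρ.character (z : G) * (starRingEnd ℂ) (σ.character z)) (fun _ => rfl)]
    rw [hS, Finset.mul_sum]
    apply Finset.sum_congr rfl
    intro z _
    rw [Subgroup.coe_mul, char_mul_scalar ρ hc, char_mul_scalar σ hd, map_mul]
    ring
  have hone : c * (starRingEnd ℂ) d = 1 := by
    have : (c * (starRingEnd ℂ) d - 1) * S = 0 := by
      rw [sub_mul, ← hS2, one_mul, sub_self]
    rcases mul_eq_zero.mp this with h | h
    · exact sub_eq_zero.mp h
    · exact absurd h hSne
  have hc1 : c ≠ 1 := by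
    intro hc1
    rw [hc1, one_mul] at hone
    have hd1 : d = 1 := by
      have := congrArg (starRingEnd ℂ) hone
      simpa using this
    apply hne
    have h1 := hfaith z₀ (by
      have := char_mul_scalar σ hd 1
      rw [one_mul, hd1, one_mul] at this
      exact this)
    exact congrArg Subtype.val h1
  have hg : g = (x⁻¹ * g * x) * (x⁻¹ * g⁻¹ * x * g) := by group
  have h2 : ρ.character g = c * ρ.character g := by
    conv_lhs => rw [hg]
    rw [char_mul_scalar ρ hc]
    have := char_apply_conj (isCharacter_of_rep ρ) g x⁻¹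
    rw [inv_inv] at this
    rw [this]
  have h3 : (1 - c) * ρ.character g = 0 := by
    rw [sub_mul, one_mul, ← h2, sub_self]
  rcases mul_eq_zero.mp h3 with h | h
  · exact absurd (sub_eq_zero.mp h).symm hc1
  · exact h

end Cfsg.Agent.S4566
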