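import Mathlib
import Cfsg.Statements.S4567
import Cfsg.Agent.Lib.CharBasic
import Cfsg.Agent.Lib.CharCodegP

set_option autoImplicit false
open Cfsg

namespace Cfsg.Agent.S4567

open Subgroup Module Cfsg.Agent.Lib.CharBasic
open scoped ComplexConjugate

universe u

variable {G : Type u} [Group G]

/-- Central elements act by scalars in an irreducible representation. -/
theorem exists_central_hom_rep [Finite G] (N : Subgroup G) (hN : N ≤ center G)
    {V : Type*} [AddCommGroup V] [Module ℂ V] [FiniteDimensional ℂ V]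
    (ρ : Representation ℂ G V) (hρ : ρ.IsIrreducible) :
    ∃ l : N →* ℂˣ, ∀ z : N, ρ (z : G) = (l z : ℂ) • LinearMap.id := by
  classical
  have hnt := ((isIrreducible_iff ρ).mp hρ).1
  have hsc : ∀ z : N, ∃ c : ℂ, ρ (z : G) = c • LinearMap.id := by
    intro z
    apply schur_scalar hρ
    intro g
    have hz : (z : G) * g = g * z := (mem_center_iff.mp (hN z.2) g).symm
    rw [← Module.End.mul_eq_comp, ← Module.End.mul_eq_comp, ← map_mul, ← map_mul, hz]
  choose c hc using hsc
  have hsmul : ∀ a b : ℂ, a • (LinearMap.id : V →ₗ[ℂ] V) = b • LinearMap.id → a = b := by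
    intro a b hab
    obtain ⟨v, hv⟩ := exists_ne (0 : V)
    have h1 := LinearMap.congr_fun hab v
    simp only [LinearMap.smul_apply, LinearMap.id_apply] at h1
    exact smul_left_injective ℂ hv h1
  let f : N →* ℂ :=
    { toFun := c
      map_one' := by
        apply hsmul
        rw [← hc, one_smul]
        simp
        rfl
      map_mul' := by
        intro a b
        apply hsmul
        rw [← hc]
        have : ((a * b : N) : G) = (a : G) * b := rfl
        rw [this, map_mul, hc a, hc b]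
        ext v
        simp [smul_smul, mul_comm] }
  refine ⟨f.toHomUnits, fun z => ?_⟩
  rw [MonoidHom.coe_toHomUnits]
  exact hc z

theorem exists_central_hom [Finite G] (N : Subgroup G) (hN : N ≤ center G) {χ : G → ℂ}
    (hχ : IsIrrCharacter G χ) :
    ∃ l : N →* ℂˣ, ∀ (g : G) (z : N), χ (g * z) = (l z : ℂ) * χ g := by
  classical
  obtain ⟨n, ρ, hρ, rfl⟩ := hχ
  obtain ⟨l, hl⟩ := exists_central_hom_rep N hN ρ hρ
  refine ⟨l, fun g z => ?_⟩
  show LinearMap.trace ℂ _ (ρ (g * z)) = (l z : ℂ) * LinearMap.trace ℂ _ (ρ g)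
  rw [map_mul, hl z, Module.End.mul_eq_comp, LinearMap.comp_smul, map_smul, LinearMap.comp_id]
  rfl

section Main

variable [Fintype G] (N : Subgroup G) [N.Normal] [Fintype N]

/-- The space of class functions transforming by `ψ` under the central subgroup. -/
def W (ψ : N → ℂ) : Submodule ℂ (G → ℂ) where
  carrier := {f | (∀ g h : G, f (h * g * h⁻¹) = f g) ∧ ∀ (g : G) (z : N), f (g * z) = ψ z * f g}
  zero_mem' := by simp
  add_mem' := by
    rintro a b ⟨ha1, ha2⟩ ⟨hb1, hb2⟩
    refine ⟨fun g h => ?_, fun g z => ?_⟩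
    · simp only [Pi.add_apply, ha1, hb1]
    · simp only [Pi.add_apply, ha2, hb2]; ring
  smul_mem' := by
    rintro c a ⟨ha1, ha2⟩
    refine ⟨fun g h => ?_, fun g z => ?_⟩
    · simp only [Pi.smul_apply, smul_eq_mul, ha1]
    · simp only [Pi.smul_apply, smul_eq_mul, ha2]; ring

variable {N}

theorem norm_hom (l : N →* ℂˣ) (z : N) : ‖((l z : ℂˣ) : ℂ)‖ = 1 := by
  have h1 : ((l z : ℂˣ) : ℂ) ^ (Fintype.card N) = 1 := by
    rw [← Units.val_pow_eq_pow_val, ← map_pow, pow_card_eq_one]
    simp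
  exact Complex.norm_eq_one_of_pow_eq_one h1 Fintype.card_ne_zero

/-- Inner product with a function transforming differently vanishes. -/
theorem inner_zero_of_ne {f χ : G → ℂ} {ψ : N → ℂ} (l : N →* ℂˣ)
    (hf : ∀ (g : G) (z : N), f (g * z) = ψ z * f g)
    (hχ : ∀ (g : G) (z : N), χ (g * z) = (l z : ℂ) * χ g)
    (z : N) (hz : ψ z ≠ (l z : ℂ)) : classInner f χ = 0 := by
  rw [classInner]
  have h1 : ∑ g : G, f g * conj (χ g) = ψ z * conj ((l z : ℂ)) * ∑ g : G, f g * conj (χ g) := by
    rw [Finset.mul_sum]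
    rw [← Equiv.sum_comp (Equiv.mulRight (z : G))]
    refine Finset.sum_congr rfl fun g _ => ?_
    simp only [Equiv.coe_mulRight, hf, hχ, map_mul]
    ring
  have hc : ψ z * conj ((l z : ℂ)) ≠ 1 := by
    intro h2
    apply hz
    have h3 : (l z : ℂ) * conj ((l z : ℂ)) = 1 := by
      rw [Complex.mul_conj, Complex.normSq_eq_norm_sq, norm_hom]; norm_num
    have hne : conj ((l z : ℂ)) ≠ 0 := by
      intro h4
      rw [h4, mul_zero] at h3
      exact zero_ne_one h3
    exact mul_right_cancel₀ hne (h2.trans h3.symm)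
  have h2 : (1 - ψ z * conj ((l z : ℂ))) * ∑ g : G, f g * conj (χ g) = 0 := by
    rw [sub_mul, one_mul, ← h1, sub_self]
  rw [(mul_eq_zero.mp h2).resolve_left (sub_ne_zero.mpr hc.symm), mul_zero]


theorem irr_one_ne_zero' {H : Type*} [Group H] {χ : H → ℂ} (hχ : IsIrrCharacter H χ) : χ 1 ≠ 0 := by
  obtain ⟨n, ρ, hρ, rfl⟩ := hχ
  rw [char_one_eq_rep]
  have hnt := ((isIrreducible_iff ρ).mp hρ).1
  have hn : n ≠ 0 := by
    rintro rfl
    exact not_subsingleton _ (inferInstance : Subsingleton (Fin 0 → ℂ))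
  exact_mod_cast hn

/-- The criterion for lying over `ψ`. -/
theorem inner_ne_zero_iff {χ : G → ℂ} {ψ : N → ℂ} (hχ : IsIrrCharacter G χ) (hψ : IsIrrCharacter N ψ)
    (l : N →* ℂˣ) (hl : ∀ (g : G) (z : N), χ (g * z) = (l z : ℂ) * χ g) :
    classInner (fun n : N => χ n) ψ ≠ 0 ↔ ∀ z, ψ z = (l z : ℂ) := by
  classical
  have h1 : (fun n : N => χ n) = χ 1 • (fun n : N => ((l n : ℂˣ) : ℂ)) := by
    funext n
    have := hl 1 n
    rw [one_mul] at this
    simp only [Pi.smul_apply, smul_eq_mul]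
    rw [this, mul_comm]
  have hirr : IsIrrCharacter N (fun n : N => ((l n : ℂˣ) : ℂ)) := isIrrCharacter_of_hom l
  rw [h1, classInner_smul_left]
  constructor
  · intro h2 z
    by_contra hz
    apply h2
    have hne : (fun n : N => ((l n : ℂˣ) : ℂ)) ≠ ψ := by
      intro he
      exact hz (congrFun he z).symm
    rw [classInner_irr_ne hirr hψ hne, mul_zero]
  · intro h2
    have he : (fun n : N => ((l n : ℂˣ) : ℂ)) = ψ := by
      funext n; exact (h2 n).symm
    rw [he, classInner_irr_self hψ, mul_one]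
    exact irr_one_ne_zero' hχ

/-- The irreducible characters over `ψ` are a basis of `W`. -/
theorem finrank_W (hN : N ≤ center G) (ψ : IrrCharacter N) :
    finrank ℂ (W N (ψ : N → ℂ)) =
      Nat.card {χ : IrrCharacter G // classInner (fun n : N => (χ : G → ℂ) n) (ψ : N → ℂ) ≠ 0} := by
  classical
  let X := {χ : IrrCharacter G // classInner (fun n : N => (χ : G → ℂ) n) (ψ : N → ℂ) ≠ 0}
  let b : X → (G → ℂ) := fun χ => (χ.1 : G → ℂ)
  have hli : LinearIndependent ℂ b :=
    (linearIndependent_irr (G := G)).comp (Subtype.val) Subtype.val_injective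
  have hspan : Submodule.span ℂ (Set.range b) = W N (ψ : N → ℂ) := by
    apply le_antisymm
    · rw [Submodule.span_le]
      rintro _ ⟨χ, rfl⟩
      refine ⟨fun g h => ?_, fun g z => ?_⟩
      · exact char_apply_conj (IsIrrCharacter.isCharacter χ.1.2) g h
      · obtain ⟨l, hl⟩ := exists_central_hom N hN χ.1.2
        have := (inner_ne_zero_iff χ.1.2 ψ.2 l hl).mp χ.2 z
        show (χ.1 : G → ℂ) (g * z) = _ * (χ.1 : G → ℂ) g
        rw [hl g z, ← this]
    · intro f hf
      have hf1 : IsClassFunction G f := hf.1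
      rw [classFunction_eq_sum hf1]
      apply Submodule.sum_mem
      intro χ _
      by_cases hχ : classInner (fun n : N => (χ : G → ℂ) n) (ψ : N → ℂ) ≠ 0
      · exact Submodule.smul_mem _ _ (Submodule.subset_span ⟨⟨χ, hχ⟩, rfl⟩)
      · obtain ⟨l, hl⟩ := exists_central_hom N hN χ.2
        have h2 : ¬ ∀ z, (ψ : N → ℂ) z = (l z : ℂ) := fun h3 =>
          hχ ((inner_ne_zero_iff χ.2 ψ.2 l hl).mpr h3)
        push Not at h2
        obtain ⟨z, hz⟩ := h2
        rw [inner_zero_of_ne l hf.2 hl z hz, zero_smul]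
        exact Submodule.zero_mem _
  rw [← hspan, finrank_span_eq_card hli, Nat.card_eq_fintype_card]

variable (N)

/-- Good elements. -/
def Good (g : G) : Prop := ∀ x : G, x⁻¹ * g⁻¹ * x * g ∈ N → x * g = g * x

/-- The good classes. -/
abbrev YY := {C : ConjClasses (G ⧸ N) // ∃ g : G, ConjClasses.mk (g : G ⧸ N) = C ∧
  ∀ x : G, x⁻¹ * g⁻¹ * x * g ∈ N → x * g = g * x}

variable {N}

/-- The chosen representative of a good class. -/
noncomputable def gC (C : YY N) : G := C.2.choose

theorem gC_mk (C : YY N) : ConjClasses.mk ((gC (N := N) C : G) : G ⧸ N) = C.1 := C.2.choose_spec.1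

theorem gC_good (C : YY N) : Good N (gC (N := N) C) := C.2.choose_spec.2

/-- The function supported on a good class. -/
noncomputable def delta (ψ : N → ℂ) (g₀ g : G) : ℂ := by
  classical
  exact ∑ x : G, ∑ z : N, if g = x⁻¹ * g₀ * x * z then ψ z else 0

theorem delta_mem (hN : N ≤ center G) {ψ : N → ℂ} (hψ : ∀ a b, ψ (a * b) = ψ a * ψ b) (g₀ : G) :
    delta ψ g₀ ∈ W N ψ := by
  classical
  refine ⟨fun g h => ?_, fun g w => ?_⟩
  · simp only [delta]
    rw [← Equiv.sum_comp (Equiv.mulRight h⁻¹)]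
    refine Finset.sum_congr rfl fun x _ => Finset.sum_congr rfl fun z _ => ?_
    have hz : h * (z : G) = z * h := (mem_center_iff.mp (hN z.2) h)
    have : (h * g * h⁻¹ = (Equiv.mulRight h⁻¹ x)⁻¹ * g₀ * (Equiv.mulRight h⁻¹ x) * z) ↔
        g = x⁻¹ * g₀ * x * z := by
      simp only [Equiv.coe_mulRight]
      constructor
      · intro e
        have e2 : g = h⁻¹ * ((x * h⁻¹)⁻¹ * g₀ * (x * h⁻¹) * z) * h := by
          rw [← e]; group
        rw [e2]
        have hz' : (z : G) * h = h * z := hz.symm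
        calc h⁻¹ * ((x * h⁻¹)⁻¹ * g₀ * (x * h⁻¹) * z) * h
            = h⁻¹ * ((x * h⁻¹)⁻¹ * g₀ * (x * h⁻¹)) * ((z : G) * h) := by group
          _ = h⁻¹ * ((x * h⁻¹)⁻¹ * g₀ * (x * h⁻¹)) * (h * z) := by rw [hz']
          _ = x⁻¹ * g₀ * x * z := by group
      · rintro rfl
        calc h * (x⁻¹ * g₀ * x * z) * h⁻¹ = h * (x⁻¹ * g₀ * x) * ((z : G) * h⁻¹) := by group
          _ = h * (x⁻¹ * g₀ * x) * (h⁻¹ * z) := by
              have : (z : G) * h⁻¹ = h⁻¹ * z := by
                have := (mem_center_iff.mp (hN z.2) h⁻¹)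
                exact this.symm
              rw [this]
          _ = (x * h⁻¹)⁻¹ * g₀ * (x * h⁻¹) * z := by group
    simp only [this]
  · simp only [delta]
    rw [Finset.mul_sum]
    refine Finset.sum_congr rfl fun x _ => ?_
    rw [← Equiv.sum_comp (Equiv.mulRight w), Finset.mul_sum]
    refine Finset.sum_congr rfl fun z _ => ?_
    simp only [Equiv.coe_mulRight]
    have : (g * (w : G) = x⁻¹ * g₀ * x * ((z * w : N) : G)) ↔ g = x⁻¹ * g₀ * x * z := by
      push_cast
      rw [← mul_assoc]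
      exact mul_left_inj _
    simp only [this, hψ]
    split_ifs <;> ring

theorem delta_self {ψ : N → ℂ} (hψ1 : ψ 1 = 1) {g₀ : G} (hg : Good N g₀) :
    delta ψ g₀ g₀ ≠ 0 := by
  classical
  have h1 : ∀ x : G, (∑ z : N, if g₀ = x⁻¹ * g₀ * x * z then ψ z else 0) =
      if x * g₀ = g₀ * x then 1 else 0 := by
    intro x
    split_ifs with hc
    · rw [Finset.sum_eq_single (1 : N)]
      · have : g₀ = x⁻¹ * g₀ * x * ((1 : N) : G) := by
          simp only [OneMemClass.coe_one, mul_one]
          rw [mul_assoc, ← hc]; group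
        rw [if_pos this, hψ1]
      · intro z _ hz
        rw [if_neg]
        intro e
        apply hz
        have e2 : x⁻¹ * g₀ * x = g₀ := by
          rw [mul_assoc, ← hc]; group
        rw [e2] at e
        have := mul_left_cancel (a := g₀) (b := 1) (c := (z : G)) (by rw [mul_one]; exact e)
        exact Subtype.ext this.symm
      · intro h0; exact absurd (Finset.mem_univ _) h0
    · apply Finset.sum_eq_zero
      intro z _
      rw [if_neg]
      intro e
      apply hc
      apply hg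
      have : x⁻¹ * g₀⁻¹ * x * g₀ = (z : G) := by
        have e2 : (x⁻¹ * g₀ * x)⁻¹ * (x⁻¹ * g₀ * x * z) = (z : G) := by group
        rw [← e] at e2
        rw [← e2]
        group
      rw [this]
      exact z.2
  simp only [delta]
  simp_rw [h1]
  rw [Finset.sum_ite, Finset.sum_const_zero, add_zero, Finset.sum_const, nsmul_eq_mul, mul_one]
  have : (Finset.univ.filter fun x : G => x * g₀ = g₀ * x).card ≠ 0 := by
    apply Finset.card_ne_zero.mpr
    exact ⟨1, by simp⟩
  exact_mod_cast this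

theorem delta_other {ψ : N → ℂ} {g₀ g : G}
    (hne : ConjClasses.mk (g : G ⧸ N) ≠ ConjClasses.mk (g₀ : G ⧸ N)) :
    delta ψ g₀ g = 0 := by
  classical
  simp only [delta]
  apply Finset.sum_eq_zero
  intro x _
  apply Finset.sum_eq_zero
  intro z _
  rw [if_neg]
  intro e
  apply hne
  rw [ConjClasses.mk_eq_mk_iff_isConj, isConj_iff]
  refine ⟨((x : G) : G ⧸ N), ?_⟩
  rw [e]
  have hz : (((z : G)) : G ⧸ N) = 1 := (QuotientGroup.eq_one_iff _).mpr z.2
  push_cast
  rw [QuotientGroup.mk_mul, hz, mul_one]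
  simp only [QuotientGroup.mk_mul, QuotientGroup.mk_inv]
  group

theorem W_inj (ψ : N → ℂ) (hψ1 : ψ 1 = 1) (hfaith : ∀ n : N, ψ n = ψ 1 → n = 1) {f : G → ℂ} (hf : f ∈ W N ψ)
    (h0 : ∀ C : YY N, f (gC (N := N) C) = 0) : f = 0 := by
  classical
  funext g
  by_cases hg : Good N g
  · let C : YY N := ⟨ConjClasses.mk (g : G ⧸ N), g, rfl, hg⟩
    have h1 : ConjClasses.mk ((gC (N := N) C : G) : G ⧸ N) = ConjClasses.mk (g : G ⧸ N) := gC_mk C
    rw [ConjClasses.mk_eq_mk_iff_isConj, isConj_iff] at h1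
    obtain ⟨c, hc⟩ := h1
    obtain ⟨c, rfl⟩ := QuotientGroup.mk_surjective c
    have h2 : (c * gC C * c⁻¹)⁻¹ * g ∈ N := by
      rw [← QuotientGroup.eq]
      exact hc
    have h3 : f g = ψ ⟨_, h2⟩ * f (c * gC C * c⁻¹) := by
      rw [← hf.2]
      congr 1
      group
    rw [h3, hf.1, h0, mul_zero]
    rfl
  · simp only [Good] at hg
    push Not at hg
    obtain ⟨x, hx, hne⟩ := hg
    let z : N := ⟨_, hx⟩
    have h1 : f g = ψ z⁻¹ * f g := by
      rw [← hf.2]
      have : g * ((z⁻¹ : N) : G) = x⁻¹ * g * x⁻¹⁻¹ := by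
        simp only [InvMemClass.coe_inv, z]
        group
      rw [this, hf.1]
    by_contra h2
    have h3 : ψ z⁻¹ = 1 := by
      have h4 : (1 - ψ z⁻¹) * f g = 0 := by rw [sub_mul, one_mul, ← h1, sub_self]
      have h5 := (mul_eq_zero.mp h4).resolve_right h2
      exact (sub_eq_zero.mp h5).symm
    have h6 := hfaith z⁻¹ (by rw [h3, hψ1])
    have h7 : z = 1 := by simpa using h6
    have h8 : x⁻¹ * g⁻¹ * x * g = 1 := congrArg Subtype.val h7
    apply hne
    have h9 : x * (x⁻¹ * g⁻¹ * x * g) = x := by rw [h8, mul_one]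
    have h10 : g⁻¹ * x * g = x := by simpa [mul_assoc] using h9
    calc x * g = (g * (g⁻¹ * x * g)) * g⁻¹ * g := by group
      _ = g * x := by rw [h10]; group

end Main

/-- Let N be a central subgroup of the finite group G and ψ a faithful irreducible (hence degree-one) character of N. Call a coset g N special when every x ∈ G whose commutator x⁻¹ g⁻¹ x g lies in N actually commutes with g (this depends only on the coset). Then the number of irreducible characters of G whose restriction to N contains ψ equals the number of conjugacy classes of G/N consisting of special cosets. -/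
theorem result {G : Type*} [Group G] [Fintype G] (N : Subgroup G) [N.Normal] [Fintype N] (hN : N ≤ Subgroup.center G) (ψ : Cfsg.IrrCharacter ↥N) (hfaith : ∀ n : ↥N, (ψ : ↥N → ℂ) n = (ψ : ↥N → ℂ) 1 → n = 1) : Nat.card {χ : Cfsg.IrrCharacter G // Cfsg.classInner (fun n : ↥N => (χ : G → ℂ) n) (ψ : ↥N → ℂ) ≠ 0} = Nat.card {C : ConjClasses (G ⧸ N) // ∃ g : G, ConjClasses.mk (g : G ⧸ N) = C ∧ ∀ x : G, x⁻¹ * g⁻¹ * x * g ∈ N → x * g = g * x} := by
  classical
  rw [← finrank_W hN ψ]
  -- `ψ` is a homomorphism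
  have hcomm : ∀ a b : N, a * b = b * a := by
    intro a b
    apply Subtype.ext
    exact (mem_center_iff.mp (hN b.2) (a : G))
  have hψ1 : (ψ : N → ℂ) 1 = 1 :=
    Cfsg.Agent.Lib.CharCodegP.irr_one_of_comm hcomm ψ.2
  obtain ⟨f, hf⟩ := exists_hom_of_degree_one (IsIrrCharacter.isCharacter ψ.2) hψ1
  have hψm : ∀ a b, (ψ : N → ℂ) (a * b) = (ψ : N → ℂ) a * (ψ : N → ℂ) b := by
    intro a b
    rw [hf, hf, hf, map_mul]
    rfl
  -- the evaluation map
  haveI : Fintype (YY N) := Fintype.ofFinite _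
  let E : W N (ψ : N → ℂ) →ₗ[ℂ] (YY N → ℂ) :=
    (LinearMap.funLeft ℂ ℂ (fun C : YY N => gC (N := N) C)).comp (W N (ψ : N → ℂ)).subtype
  have hE : ∀ (f : W N (ψ : N → ℂ)) (C : YY N), E f C = (f : G → ℂ) (gC (N := N) C) := fun _ _ => rfl
  have hinj : Function.Injective E := by
    rw [injective_iff_map_eq_zero]
    intro f hf0
    apply Subtype.ext
    apply W_inj (ψ : N → ℂ) hψ1 hfaith f.2
    intro C
    rw [← hE, hf0]
    rfl
  have hsurj : Function.Surjective E := by
    intro d
    have hne : ∀ C : YY N, delta (ψ : N → ℂ) (gC (N := N) C) (gC (N := N) C) ≠ 0 := fun C =>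
      delta_self hψ1 (gC_good C)
    refine ⟨⟨∑ C : YY N, (d C / delta (ψ : N → ℂ) (gC (N := N) C) (gC (N := N) C)) •
      delta (ψ : N → ℂ) (gC (N := N) C), ?_⟩, ?_⟩
    · exact Submodule.sum_mem _ fun C _ =>
        Submodule.smul_mem _ _ (delta_mem hN hψm _)
    · funext D
      rw [hE]
      simp only [Finset.sum_apply, Pi.smul_apply, smul_eq_mul]
      rw [Finset.sum_eq_single D]
      · rw [div_mul_cancel₀ _ (hne D)]
      · intro C _ hC
        have hd : delta (ψ : N → ℂ) (gC (N := N) C) (gC (N := N) D) = 0 := by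
          apply delta_other
          intro hcl
          apply hC
          apply Subtype.ext
          rw [← gC_mk C, ← gC_mk D, hcl]
        rw [hd, mul_zero]
      · intro h0; exact absurd (Finset.mem_univ _) h0
  have hb := LinearEquiv.finrank_eq (LinearEquiv.ofBijective E ⟨hinj, hsurj⟩)
  rw [hb, Module.finrank_fintype_fun_eq_card, Nat.card_eq_fintype_card]

end Cfsg.Agent.S4567
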