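import Mathlib
import Cfsg.Statements.S4574
import Cfsg.Agent.Lib.CharGalois
import Cfsg.Agent.Lib.CharAvg

set_option autoImplicit false
open Cfsg

namespace Cfsg.Agent.S4574

open Cfsg.Agent.Lib

open scoped ComplexConjugate

variable {G : Type*} [Group G] [Fintype G]

theorem norm_pow_eq {n : ℕ} (ρ : Representation ℂ G (Fin n → ℂ)) (y : G)
    (hy : ‖ρ.character y‖ = n) (m : ℕ) : ‖ρ.character (y ^ m)‖ = n := by
  have h1 := (CharValues.norm_character_eq_iff ρ y).1 (by simpa using hy)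
  obtain ⟨ω, hω⟩ := h1
  have h2 : ρ (y ^ m) = (ω ^ m) • (LinearMap.id : (Fin n → ℂ) →ₗ[ℂ] (Fin n → ℂ)) := by
    induction m with
    | zero => ext; simp
    | succ m ih =>
      rw [pow_succ, map_mul, ih, hω]
      ext v i
      simp [pow_succ]
      ring
  have h3 := (CharValues.norm_character_eq_iff ρ (y ^ m)).2 ⟨_, h2⟩
  simpa using h3

theorem exists_inverse_pow (x : G) (k : ℕ) (hk : k.Coprime (Nat.card G)) :
    ∃ a : ℕ, (x ^ k) ^ a = x := by
  have hk' : k.Coprime (orderOf x) := Nat.Coprime.coprime_dvd_right (orderOf_dvd_natCard x) hk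
  by_cases ho : 1 < orderOf x
  · obtain ⟨a, ha⟩ := Nat.exists_mul_mod_eq_one_of_coprime hk' ho
    refine ⟨a, ?_⟩
    rw [← pow_mul, ← pow_mod_orderOf, ha.2, pow_one]
  · have h1 : orderOf x = 1 := by
      have := orderOf_pos x
      omega
    have hx : x = 1 := orderOf_eq_one_iff.1 h1
    exact ⟨0, by simp [hx]⟩

/-- Let χ be an irreducible character of the finite group G, of degree d, and let Z(χ) be the set of elements g with |χ g| = d (the centre of χ). Then χ vanishes on at least (d ^ 2 - 1) · |Z(χ)| elements of G, with equality when every value |χ g| is 0, 1 or d. -/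
theorem result {G : Type*} [Group G] [Fintype G] [DecidableEq G] (χ : G → ℂ) (hχ : Cfsg.IsIrrCharacter G χ) : (Cfsg.charDegree χ ^ 2 - 1) * (Finset.univ.filter (fun g : G => ‖χ g‖ = (Cfsg.charDegree χ : ℝ))).card ≤ (Finset.univ.filter (fun g : G => χ g = 0)).card ∧ ((∀ g : G, ‖χ g‖ = 0 ∨ ‖χ g‖ = 1 ∨ ‖χ g‖ = (Cfsg.charDegree χ : ℝ)) → (Cfsg.charDegree χ ^ 2 - 1) * (Finset.univ.filter (fun g : G => ‖χ g‖ = (Cfsg.charDegree χ : ℝ))).card = (Finset.univ.filter (fun g : G => χ g = 0)).card) := by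
  classical
  obtain ⟨d, hd0, hd1⟩ := CharAvg.irr_one_eq hχ
  have hcd : Cfsg.charDegree χ = d := by
    unfold Cfsg.charDegree
    rw [hd1]
    simp
  rw [hcd]
  obtain ⟨n, ρ, hρ, hρχ⟩ := id hχ
  have hnd : n = d := by
    have h1 := CharBasic.char_one_eq_rep ρ
    rw [hρχ, hd1] at h1
    exact_mod_cast h1.symm
  subst hnd
  have hstab : ∀ y : G, ‖χ y‖ = n → ∀ m : ℕ, ‖χ (y ^ m)‖ = n := by
    intro y hy m
    rw [← hρχ] at hy ⊢
    exact norm_pow_eq ρ y hy m
  let Z := Finset.univ.filter (fun g : G => ‖χ g‖ = (n : ℝ))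
  let N0 := Finset.univ.filter (fun g : G => χ g = 0)
  let Ω := Finset.univ.filter (fun g : G => χ g ≠ 0 ∧ ‖χ g‖ ≠ (n : ℝ))
  have hχchar : IsCharacter G χ := CharBasic.IsIrrCharacter.isCharacter hχ
  have hΩ1 : (Ω.card : ℝ) ≤ ∑ x ∈ Ω, ‖χ x‖ ^ 2 := by
    apply CharGalois.card_le_sum_norm_sq hχchar
    · intro x hx k hk
      simp only [Ω, Finset.mem_filter, Finset.mem_univ, true_and] at hx ⊢
      refine ⟨CharGalois.char_pow_ne_zero hχchar hx.1 hk, ?_⟩
      intro hcon
      obtain ⟨a, ha⟩ := exists_inverse_pow x k hk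
      apply hx.2
      rw [← ha]
      exact hstab _ hcon a
    · intro x hx
      simp only [Ω, Finset.mem_filter, Finset.mem_univ, true_and] at hx
      exact hx.1
  -- the sum
  have hsum : ∑ g : G, ‖χ g‖ ^ 2 = (Nat.card G : ℝ) := by
    have h1 := CharBasic.classInner_irr_self hχ
    unfold Cfsg.classInner at h1
    have hne : (Nat.card G : ℂ) ≠ 0 := by exact_mod_cast Nat.card_pos.ne'
    have h2 : ∑ g : G, χ g * conj (χ g) = (Nat.card G : ℂ) := by
      field_simp at h1
      linear_combination h1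
    have h3 : ∑ g : G, χ g * conj (χ g) = ((∑ g : G, ‖χ g‖ ^ 2 : ℝ) : ℂ) := by
      push_cast
      refine Finset.sum_congr rfl fun g _ => ?_
      rw [Complex.mul_conj, Complex.normSq_eq_norm_sq]
      push_cast; rfl
    rw [h3] at h2
    exact_mod_cast h2
  have hn0 : (n : ℝ) ≠ 0 := by exact_mod_cast hd0.ne'
  have hsplit : ∑ g : G, ‖χ g‖ ^ 2 = (n : ℝ) ^ 2 * Z.card + ∑ x ∈ Ω, ‖χ x‖ ^ 2 := by
    have h1 : ∑ g : G, ‖χ g‖ ^ 2 = ∑ g ∈ Z, ‖χ g‖ ^ 2 + ∑ g ∈ Finset.univ.filter (fun g : G => ¬ ‖χ g‖ = (n : ℝ)), ‖χ g‖ ^ 2 :=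
      (Finset.sum_filter_add_sum_filter_not _ _ _).symm
    have h2 : ∑ g ∈ Z, ‖χ g‖ ^ 2 = (n : ℝ) ^ 2 * Z.card := by
      rw [Finset.sum_congr rfl (g := fun _ => (n : ℝ) ^ 2)]
      · simp [mul_comm]
      · intro g hg
        simp only [Z, Finset.mem_filter, Finset.mem_univ, true_and] at hg
        rw [hg]
    have h3 : ∑ g ∈ Finset.univ.filter (fun g : G => ¬ ‖χ g‖ = (n : ℝ)), ‖χ g‖ ^ 2 = ∑ x ∈ Ω, ‖χ x‖ ^ 2 := by
      symm
      apply Finset.sum_subset
      · intro g hg
        simp only [Ω, Finset.mem_filter, Finset.mem_univ, true_and] at hg ⊢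
        exact hg.2
      · intro g hg hg2
        simp only [Ω, Finset.mem_filter, Finset.mem_univ, true_and, not_and, not_not] at hg hg2
        have : χ g = 0 := by
          by_contra hne
          exact hg (hg2 hne)
        simp [this]
    rw [h1, h2, h3]
  -- cardinalities
  have hcard : Nat.card G = Z.card + N0.card + Ω.card := by
    rw [Nat.card_eq_fintype_card, ← Finset.card_univ]
    have h1 : (Finset.univ : Finset G).card = Z.card + (Finset.univ.filter (fun g : G => ¬ ‖χ g‖ = (n : ℝ))).card := by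
      exact (Finset.card_filter_add_card_filter_not _).symm
    have h2 : (Finset.univ.filter (fun g : G => ¬ ‖χ g‖ = (n : ℝ))).card = N0.card + Ω.card := by
      rw [← Finset.card_union_of_disjoint]
      · congr 1
        ext g
        simp only [N0, Ω, Finset.mem_filter, Finset.mem_univ, true_and, Finset.mem_union]
        constructor
        · intro hg
          by_cases h0 : χ g = 0
          · exact Or.inl h0
          · exact Or.inr ⟨h0, hg⟩
        · rintro (h0 | h0)
          · rw [h0, norm_zero]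
            exact fun h => hn0 h.symm
          · exact h0.2
      · rw [Finset.disjoint_left]
        intro g hg1 hg2
        simp only [N0, Ω, Finset.mem_filter, Finset.mem_univ, true_and] at hg1 hg2
        exact hg2.1 hg1
    omega
  have hd2 : 1 ≤ n ^ 2 := Nat.one_le_pow _ _ hd0
  have hnat : n ^ 2 * Z.card ≤ Z.card + N0.card := by
    have h1 : ((n : ℝ) ^ 2 * Z.card) + Ω.card ≤ (Z.card : ℝ) + N0.card + Ω.card := by
      have h2 : (Nat.card G : ℝ) = Z.card + N0.card + Ω.card := by exact_mod_cast hcard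
      rw [← h2, ← hsum, hsplit]
      linarith
    have h3 : ((n : ℝ) ^ 2 * Z.card) ≤ (Z.card : ℝ) + N0.card := by linarith
    exact_mod_cast h3
  have hsubmul : (n ^ 2 - 1) * Z.card + Z.card = n ^ 2 * Z.card := by
    rw [Nat.sub_mul, one_mul]
    have : Z.card ≤ n ^ 2 * Z.card := Nat.le_mul_of_pos_left _ (by omega)
    omega
  constructor
  · change (n ^ 2 - 1) * Z.card ≤ N0.card
    omega
  · intro hall
    change (n ^ 2 - 1) * Z.card = N0.card
    have hΩeq : ∑ x ∈ Ω, ‖χ x‖ ^ 2 = (Ω.card : ℝ) := by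
      rw [Finset.sum_congr rfl (g := fun _ => (1 : ℝ))]
      · simp
      · intro g hg
        simp only [Ω, Finset.mem_filter, Finset.mem_univ, true_and] at hg
        rcases hall g with h1 | h1 | h1
        · exact absurd (norm_eq_zero.1 h1) hg.1
        · rw [h1]; norm_num
        · exact absurd h1 hg.2
    have h2 : (Nat.card G : ℝ) = Z.card + N0.card + Ω.card := by exact_mod_cast hcard
    have h3 : (n : ℝ) ^ 2 * Z.card = (Z.card : ℝ) + N0.card := by
      have := hsum
      rw [hsplit, hΩeq, h2] at this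
      linarith
    have h4 : n ^ 2 * Z.card = Z.card + N0.card := by exact_mod_cast h3
    omega

end Cfsg.Agent.S4574
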