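import Mathlib
import Cfsg.Statements.S4580
import Cfsg.Agent.Lib.RealBlock
import Cfsg.Agent.Lib.RealChars
import Cfsg.Agent.Lib.FongExt
import Cfsg.Agent.Lib.BlockOsima
import Cfsg.Agent.Lib.CharTwist
import Cfsg.Agent.Lib.CharKernel

set_option autoImplicit false
set_option linter.style.haveILetI false
set_option linter.unusedVariables false
set_option linter.unusedSectionVars false

open Cfsg

namespace Cfsg.Agent.S4580

open Cfsg.Agent.Lib Cfsg.Agent.Lib.CharBasic Cfsg.Agent.Lib.CharKernel Cfsg.Agent.Lib.CosetAvg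
open Cfsg.Agent.Lib.BlockLocal Cfsg.Agent.Lib.BlockIdem Cfsg.Agent.Lib.BlockQ
open scoped ComplexConjugate

universe u

variable {G : Type u} [Group G] [Fintype G] {M : Ideal AlgInt}

/-- The product of a character with a linear character. -/
noncomputable def lin (χ : G → ℂ) (f : G →* ℂˣ) : G → ℂ := fun g => χ g * ((f g : ℂˣ) : ℂ)

theorem isIrr_lin {χ : G → ℂ} (hχ : IsIrrCharacter G χ) (f : G →* ℂˣ) : IsIrrCharacter G (lin χ f) := by
  apply isIrrCharacter_of_norm_one (isCharacter_mul (IsIrrCharacter.isCharacter hχ)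
    (IsIrrCharacter.isCharacter (isIrrCharacter_of_hom f)))
  have h1 : classInner ((χ * fun g => ((f g : ℂˣ) : ℂ))) (χ * fun g => ((f g : ℂˣ) : ℂ)) = classInner χ χ := by
    unfold classInner
    congr 1
    refine Finset.sum_congr rfl fun g _ => ?_
    have h := CharTwist.hom_mul_conj f g
    simp only [Pi.mul_apply, map_mul]
    linear_combination (χ g * conj (χ g)) * h
  rw [h1, classInner_irr_self hχ]

/-- The complex conjugate of an irreducible character. -/
theorem isIrr_conj {χ : G → ℂ} (hχ : IsIrrCharacter G χ) : IsIrrCharacter G (fun g => conj (χ g)) := by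
  apply isIrrCharacter_of_norm_one (RealChars.isCharacter_conj (IsIrrCharacter.isCharacter hχ))
  have h1 := classInner_irr_self hχ
  have h2 : classInner (fun g => conj (χ g)) (fun g => conj (χ g)) = conj (classInner χ χ) := by
    unfold classInner
    simp only [map_mul, map_sum, map_inv₀, Complex.conj_natCast, Complex.conj_conj]
  rw [h2, h1, map_one]

/-- Conjugation preserves the block relation. -/
theorem sameBlock_conj {χ ψ : IrrCharacter G} (h : SameBlock M (χ : G → ℂ) (ψ : G → ℂ)) :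
    SameBlock M (fun g => conj ((χ : G → ℂ) g)) (fun g => conj ((ψ : G → ℂ) g)) := by
  intro g
  have hc : ∀ ξ : IrrCharacter G, centralChar (fun g => conj ((ξ : G → ℂ) g)) g =
      centralChar (ξ : G → ℂ) g⁻¹ := by
    intro ξ
    have hξ := IsIrrCharacter.isCharacter ξ.2
    unfold centralChar
    beta_reduce
    rw [char_conj_eq_inv hξ, char_conj_eq_inv hξ, inv_one, RealBlock.centralizer_inv_eq]
  rw [hc, hc]
  exact h _

/-- A twist by a linear character of `2`-power order stays in the block. -/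
theorem sameBlock_lin (hM : IsPModular 2 M) (χ : IrrCharacter G) (f : G →* ℂˣ) {b : ℕ}
    (hf : ∀ g, (f g) ^ (2 ^ b) = 1) :
    SameBlock M (χ : G → ℂ) (lin (χ : G → ℂ) f) := by
  intro g
  haveI := isPrime_of_isPModular hM
  have h1 : centralChar (lin (χ : G → ℂ) f) g = ((f g : ℂˣ) : ℂ) * centralChar (χ : G → ℂ) g := by
    unfold centralChar lin
    simp only [map_one, Units.val_one, mul_one]
    ring
  rw [h1]
  have h2 : ((f g : ℂˣ) : ℂ) ^ (2 ^ b) = 1 := by
    rw [← Units.val_pow_eq_pow_val, hf, Units.val_one]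
  have h4 := BlockOsima.memLocalIdeal_sub_one_of_pow hM h2
  have h5 : centralChar (χ : G → ℂ) g - ((f g : ℂˣ) : ℂ) * centralChar (χ : G → ℂ) g =
      -(((f g : ℂˣ) : ℂ) - 1) * centralChar (χ : G → ℂ) g := by ring
  rw [h5]
  exact memLocalIdeal_mul_right (memLocalIdeal_neg h4) (memLocalRing_of_isIntegral (isIntegral_centralChar χ g))

/-- Let N be a normal subgroup of the finite group G, M a maximal ideal of the algebraic integers containing 2, and θ a real-valued irreducible character of N of odd degree that extends to G (some irreducible character of G restricts to θ). Then θ has an extension to G lying in the principal 2-block of G. -/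
theorem result {G : Type*} [Group G] [Finite G] (N : Subgroup G) [N.Normal] (M : Ideal Cfsg.AlgInt) (hM : Cfsg.IsPModular 2 M) (θ : Cfsg.IrrCharacter N) (hreal : ∀ n : N, ((θ : N → ℂ) n).im = 0) (hodd : Odd (Cfsg.charDegree (θ : N → ℂ))) (hext : ∃ η : Cfsg.IrrCharacter G, ∀ n : N, (η : G → ℂ) n = (θ : N → ℂ) n) :
    ∃ η : Cfsg.IrrCharacter G, (∀ n : N, (η : G → ℂ) n = (θ : N → ℂ) n) ∧ η ∈ Cfsg.principalBlock M G := by
  classical
  letI : Fintype G := Fintype.ofFinite G
  letI : Fintype N := Fintype.ofFinite N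
  haveI := isPrime_of_isPModular hM
  obtain ⟨η, hη⟩ := hext
  have hηc := IsIrrCharacter.isCharacter η.2
  have hθres : (fun n : N => (η : G → ℂ) n) = (θ : N → ℂ) := funext hη
  have hconjθ : ∀ n : N, conj ((θ : N → ℂ) n) = (θ : N → ℂ) n := fun n =>
    Complex.conj_eq_iff_im.mpr (hreal n)
  -- the conjugate of `η` is another extension
  set ηb : G → ℂ := fun g => conj ((η : G → ℂ) g) with hηb
  have hηbirr : IsIrrCharacter G ηb := isIrr_conj η.2
  have hηbres : (fun n : N => ηb n) = (θ : N → ℂ) := by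
    funext n
    simp only [hηb]
    rw [hη, hconjθ]
  have hθN : IsIrrCharacter N (fun n : N => (η : G → ℂ) n) := by
    rw [hθres]
    exact θ.2
  have h0 : classInner (fun n : N => ηb n) (fun n : N => (η : G → ℂ) n) ≠ 0 := by
    rw [hθres, hηbres, classInner_irr_self θ.2]
    exact one_ne_zero
  have hmul := FongExt.eq_cosetAvg_mul N hηc hθN hηbirr h0
  set β := cosetAvg N ηb (η : G → ℂ) with hβ
  have hβirr : IsIrrCharacter G β := isIrr_cosetAvg N hηc hθN hηbirr h0
  have hβN : ∀ (m : N) (g : G), β (m * g) = β g := cosetAvg_mul_left N ηb (η : G → ℂ)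
  have hη1 : (η : G → ℂ) 1 ≠ 0 := irr_one_ne_zero' η.2
  have hβ1 : β 1 = 1 := by
    have h1 := congrFun hmul 1
    simp only [Pi.mul_apply] at h1
    have h2 : ηb 1 = (η : G → ℂ) 1 := by
      simp only [hηb]
      rw [char_conj_eq_inv hηc, inv_one]
    rw [h2] at h1
    have h3 : 1 * (η : G → ℂ) 1 = β 1 * (η : G → ℂ) 1 := by
      rw [one_mul]
      exact h1
    exact (mul_right_cancel₀ hη1 h3).symm
  obtain ⟨f, hf⟩ := exists_hom_of_degree_one (IsIrrCharacter.isCharacter hβirr) hβ1
  have hfN : ∀ n : N, f n = 1 := by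
    intro n
    apply Units.ext
    rw [← hf]
    have h1 := hβN n 1
    rw [mul_one] at h1
    rw [h1, hβ1, Units.val_one]
  -- the order of `f`
  have hfpow : ∀ g, (f g) ^ (Nat.card G) = 1 := by
    intro g
    rw [← map_pow, pow_card_eq_one', map_one]
  obtain ⟨a, m, hm, han⟩ := Nat.exists_eq_two_pow_mul_odd (Nat.card_pos (α := G)).ne'
  obtain ⟨c, hc⟩ : ∃ c, 2 * c = m + 1 := by
    obtain ⟨e, he⟩ := hm
    exact ⟨e + 1, by omega⟩
  let γ : G →* ℂˣ := (powMonoidHom c).comp f
  let δ' : G →* ℂˣ := (powMonoidHom m).comp f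
  let δ : G →* ℂˣ := invMonoidHom.comp δ'
  have hγ : ∀ g, γ g = (f g) ^ c := fun g => rfl
  have hδ' : ∀ g, δ' g = (f g) ^ m := fun g => rfl
  have hδ : ∀ g, δ g = ((f g) ^ m)⁻¹ := fun g => rfl
  have hδ'pow : ∀ g, (δ' g) ^ (2 ^ a) = 1 := by
    intro g
    rw [hδ', ← pow_mul, mul_comm, ← han, hfpow]
  have hδpow : ∀ g, (δ g) ^ (2 ^ a) = 1 := by
    intro g
    rw [hδ, inv_pow, ← hδ' g, hδ'pow, inv_one]
  have hfact : ∀ g, f g = δ g * γ g * γ g := by
    intro g
    rw [hδ, hγ, mul_assoc, ← pow_add, ← two_mul, hc, pow_succ]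
    group
  -- the new extension
  set η' : IrrCharacter G := ⟨lin (η : G → ℂ) γ, isIrr_lin η.2 γ⟩ with hη'
  have hη'res : ∀ n : N, (η' : G → ℂ) n = (θ : N → ℂ) n := by
    intro n
    show (η : G → ℂ) n * ((γ (n : G) : ℂˣ) : ℂ) = _
    have h1 : γ (n : G) = 1 := by
      rw [hγ, hfN, one_pow]
    rw [h1, Units.val_one, mul_one, hη]
  have hconjη' : ∀ g : G, conj ((η' : G → ℂ) g) = (lin (η' : G → ℂ) δ) g := by
    intro g
    show conj ((η : G → ℂ) g * ((γ g : ℂˣ) : ℂ)) = (η : G → ℂ) g * ((γ g : ℂˣ) : ℂ) * ((δ g : ℂˣ) : ℂ)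
    have h1 : conj ((η : G → ℂ) g) = ((f g : ℂˣ) : ℂ) * (η : G → ℂ) g := by
      have := congrFun hmul g
      simp only [Pi.mul_apply] at this
      rw [← hf]
      exact this
    have h2 := CharTwist.hom_mul_conj γ g
    have h3 : f g = δ g * γ g * γ g := hfact g
    rw [map_mul, h1, h3]
    push_cast
    linear_combination (-(η : G → ℂ) g * ((δ g : ℂˣ) : ℂ) * ((γ g : ℂˣ) : ℂ)) * h2 * (-1) + 0
  -- the block of `η'`
  set B : Set (IrrCharacter G) := blockOf M (η' : G → ℂ) with hB
  have hBb : IsPBlock M B := ⟨η', rfl⟩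
  have hη'B : η' ∈ B := mem_blockOf_self η'
  have hoddη' : ¬ 2 ∣ charDegree (η' : G → ℂ) := by
    have h1 : charDegree (η' : G → ℂ) = charDegree (θ : N → ℂ) := by
      unfold charDegree
      have := hη'res 1
      simp only [OneMemClass.coe_one] at this
      rw [this]
    rw [h1]
    exact hodd.not_two_dvd_nat
  have hdef : blockDefect 2 B = (Nat.card G).factorization 2 := by
    have h1 := card_factorization_eq (M := M) (p := 2) hBb
    have h2 := minExp_le (p := 2) hη'B
    have h3 : (charDegree (η' : G → ℂ)).factorization 2 = 0 :=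
      Nat.factorization_eq_zero_of_not_dvd hoddη'
    omega
  letI : Fintype ↥B := Fintype.ofFinite _
  -- the involution
  have hlin_conj : ∀ χ : IrrCharacter G, IsIrrCharacter G (lin (fun g => conj ((χ : G → ℂ) g)) δ') :=
    fun χ => isIrr_lin (isIrr_conj χ.2) _
  have hτB : ∀ χ : ↥B, (⟨_, hlin_conj χ.1⟩ : IrrCharacter G) ∈ B := by
    rintro ⟨χ, hχ⟩
    have h1 : SameBlock M (η' : G → ℂ) (χ : G → ℂ) := hχ
    have h2 := sameBlock_conj h1
    let ηc : IrrCharacter G := ⟨_, isIrr_conj η'.2⟩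
    let χc : IrrCharacter G := ⟨_, isIrr_conj χ.2⟩
    have h3 : SameBlock M (ηc : G → ℂ) (χc : G → ℂ) := h2
    have h4 : SameBlock M (χc : G → ℂ) (lin (χc : G → ℂ) δ') := sameBlock_lin hM χc _ hδ'pow
    have h5 : SameBlock M (η' : G → ℂ) (ηc : G → ℂ) := by
      have h6 : (ηc : G → ℂ) = lin (η' : G → ℂ) δ := funext hconjη'
      rw [h6]
      exact sameBlock_lin hM η' _ (b := a) hδpow
    exact sameBlock_trans h5 (sameBlock_trans h3 h4)
  let τ : ↥B → ↥B := fun χ => ⟨⟨_, hlin_conj χ.1⟩, hτB χ⟩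
  have hτinj : Function.Injective τ := by
    rintro ⟨χ, hχ⟩ ⟨ψ, hψ⟩ h
    have h1 : lin (fun g => conj ((χ : G → ℂ) g)) δ' = lin (fun g => conj ((ψ : G → ℂ) g)) δ' := by
      have := congrArg (fun x : ↥B => ((x : IrrCharacter G) : G → ℂ)) h
      exact this
    apply Subtype.ext
    apply Subtype.ext
    funext g
    have h2 := congrFun h1 g
    simp only [lin] at h2
    have h3 := mul_right_cancel₀ (Units.ne_zero _) h2
    have h4 := congrArg conj h3
    simpa using h4
  have hv : ∀ (χ : ↥B) (x : G), ¬ 2 ∣ orderOf x → ((τ χ).1 : G → ℂ) x = (χ.1 : G → ℂ) x⁻¹ := by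
    intro χ x hx
    show conj ((χ.1 : G → ℂ) x) * ((δ' x : ℂˣ) : ℂ) = _
    have h1 : δ' x = 1 := by
      have h2 := hδ'pow x
      have h3 : (δ' x) ^ (orderOf x) = 1 := by
        rw [← map_pow, pow_orderOf_eq_one, map_one]
      have h4 := Nat.dvd_gcd (orderOf_dvd_of_pow_eq_one h2) (orderOf_dvd_of_pow_eq_one h3)
      have h5 : Nat.Coprime (2 ^ a) (orderOf x) :=
        Nat.Coprime.pow_left _ ((Nat.Prime.coprime_iff_not_dvd Nat.prime_two).mpr hx)
      rw [h5] at h4
      exact orderOf_eq_one_iff.mp (Nat.dvd_one.mp h4)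
    rw [h1, Units.val_one, mul_one, char_conj_eq_inv (IsIrrCharacter.isCharacter χ.1.2)]
  have hprin := RealBlock.eq_principal_of_stable hM hBb hdef τ hτinj hv
  refine ⟨η', hη'res, ?_⟩
  rw [← hprin]
  exact hη'B

end Cfsg.Agent.S4580
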