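import Mathlib
import Cfsg.Statements.S4582

set_option autoImplicit false
open Cfsg

namespace Cfsg.Agent.S4582

open MulAction Subgroup

/-- The key congruence: conjugates of powers inside `P` agree with the power modulo `P ⊓ N`. -/
theorem conj_pow_congr {X : Type*} [Group X] (N P : Subgroup X) [N.Normal] (hNP : N ⊔ P = ⊤)
    (x : X) (hx : x ∈ P) (g : X) (k : ℕ) (ht : g⁻¹ * x ^ k * g ∈ P) :
    ∃ q : P, (q : X) ∈ N ∧
      (Abelianization.of (⟨g⁻¹ * x ^ k * g, ht⟩ : P)) = Abelianization.of q * (Abelianization.of (⟨x, hx⟩ : P)) ^ k := by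
  have hg : g ∈ ((N ⊔ P : Subgroup X) : Set X) := by rw [hNP]; trivial
  rw [Subgroup.normal_mul] at hg
  obtain ⟨n, hn, y, hy, rfl⟩ := Set.mem_mul.1 hg
  have hxk : x ^ k ∈ P := P.pow_mem hx k
  set u : X := n⁻¹ * x ^ k * n with hu
  have hu' : u = y * ((n * y)⁻¹ * x ^ k * (n * y)) * y⁻¹ := by
    simp only [hu]; group
  have huP : u ∈ P := by
    rw [hu']
    exact P.mul_mem (P.mul_mem hy ht) (P.inv_mem hy)
  have hqP : u * (x ^ k)⁻¹ ∈ P := P.mul_mem huP (P.inv_mem hxk)
  have hqN : u * (x ^ k)⁻¹ ∈ N := by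
    have h1 : u * (x ^ k)⁻¹ = n⁻¹ * (x ^ k * n * (x ^ k)⁻¹) := by
      simp only [hu]; group
    rw [h1]
    exact N.mul_mem (N.inv_mem hn) (‹N.Normal›.conj_mem n hn _)
  refine ⟨⟨_, hqP⟩, hqN, ?_⟩
  have h2 : (⟨(n * y)⁻¹ * x ^ k * (n * y), ht⟩ : P) =
      (⟨y, hy⟩ : P)⁻¹ * (⟨u, huP⟩ : P) * (⟨y, hy⟩ : P) := by
    apply Subtype.ext
    simp only [hu, Subgroup.coe_mul, Subgroup.coe_inv]
    group
  have h3 : (⟨u, huP⟩ : P) = (⟨u * (x ^ k)⁻¹, hqP⟩ : P) * (⟨x, hx⟩ : P) ^ k := by
    apply Subtype.ext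
    simp only [Subgroup.coe_mul, Subgroup.coe_pow]
    group
  rw [h2, map_mul, map_mul, map_inv, h3, map_mul, map_pow]
  rw [mul_comm, mul_inv_cancel_left]

theorem core {X : Type*} [Group X] [Finite X] (N P : Subgroup X) [N.Normal] (hNP : N ⊔ P = ⊤)
    (h2 : IsPGroup 2 P) (hidx : ¬ 2 ∣ P.index)
    (hP : ∀ x ∈ P, x ^ 2 ∈ (P ⊓ N) ⊔ commutator X)
    (hQ : ∀ x ∈ P ⊓ N, x ^ 2 ∈ ⁅P, P⁆)
    (k : ℕ) (hk : Odd k) (hN : ∀ n ∈ N, n ^ k ∈ commutator X) :
    ∀ x ∈ P, x ^ 2 ∈ ⁅P, P⁆ := by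
  classical
  intro x hx
  let ϕ : P →* Abelianization P := Abelianization.of
  let V : X →* Abelianization P := ϕ.transfer
  have hA2 : IsPGroup 2 (Abelianization P) :=
    h2.of_surjective Abelianization.of (fun a => QuotientGroup.mk_surjective a)
  have hVc : commutator X ≤ V.ker := Abelianization.commutator_subset_ker V
  -- (a) `V` kills `N`
  have hVN : ∀ n ∈ N, V n = 1 := by
    intro n hn
    have h1 : V n ^ k = 1 := by
      rw [← map_pow]
      exact hVc (hN n hn)
    obtain ⟨j, hj⟩ := hA2 (V n)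
    have h3 : orderOf (V n) ∣ k := orderOf_dvd_of_pow_eq_one h1
    have h4 : orderOf (V n) ∣ 2 ^ j := orderOf_dvd_of_pow_eq_one hj
    have h5 : Nat.Coprime k (2 ^ j) := (Nat.coprime_two_right.2 hk).pow_right j
    have h6 : orderOf (V n) = 1 := Nat.eq_one_of_dvd_coprimes h5 h3 h4
    exact orderOf_eq_one_iff.1 h6
  -- (b) `V x = b * [x]^m`
  let xp : P := ⟨x, hx⟩
  let B : Subgroup (Abelianization P) := (N.subgroupOf P).map (Abelianization.of : P →* Abelianization P)
  have hb : V x * (Abelianization.of xp) ^ (-(P.index : ℤ)) ∈ B := by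
    have : Fintype (Quotient (orbitRel (zpowers x) (X ⧸ P))) := Fintype.ofFinite _
    have hV := MonoidHom.transfer_eq_prod_quotient_orbitRel_zpowers_quot ϕ x
    have hidx' := Subgroup.index_eq_sum_minimalPeriod P x
    have hterm : ∀ q : Quotient (orbitRel (zpowers x) (X ⧸ P)),
        ϕ ⟨q.out.out⁻¹ * x ^ Function.minimalPeriod (x • ·) q.out * q.out.out,
            QuotientGroup.out_conj_pow_minimalPeriod_mem P x q.out⟩ *
          (Abelianization.of xp) ^ (-(Function.minimalPeriod (x • ·) q.out : ℤ)) ∈ B := by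
      intro q
      obtain ⟨r, hrN, hr⟩ := conj_pow_congr N P hNP x hx q.out.out
        (Function.minimalPeriod (x • ·) q.out) (QuotientGroup.out_conj_pow_minimalPeriod_mem P x q.out)
      have : ϕ ⟨q.out.out⁻¹ * x ^ Function.minimalPeriod (x • ·) q.out * q.out.out,
            QuotientGroup.out_conj_pow_minimalPeriod_mem P x q.out⟩ *
          (Abelianization.of xp) ^ (-(Function.minimalPeriod (x • ·) q.out : ℤ)) = Abelianization.of r := by
        change Abelianization.of _ * _ = _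
        rw [hr, zpow_neg, zpow_natCast]
        simp [xp]
      rw [this]
      exact ⟨r, hrN, rfl⟩
    have hprod := Subgroup.prod_mem B (t := Finset.univ) (fun q _ => hterm q)
    rw [Finset.prod_mul_distrib, ← hV] at hprod
    have hsum : ∏ q : Quotient (orbitRel (zpowers x) (X ⧸ P)),
        (Abelianization.of xp) ^ (-(Function.minimalPeriod (x • ·) q.out : ℤ)) =
        (Abelianization.of xp) ^ (-(P.index : ℤ)) := by
      simp_rw [zpow_neg, zpow_natCast]
      rw [Finset.prod_inv_distrib, Finset.prod_pow_eq_pow_sum, ← hidx']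
    rw [hsum] at hprod
    exact hprod
  -- (c) `V x ^ 2 = 1`
  have hVx2 : V x ^ 2 = 1 := by
    rw [← map_pow]
    have hle : (P ⊓ N) ⊔ commutator X ≤ V.ker := by
      refine sup_le ?_ hVc
      intro y hy
      exact hVN y hy.2
    exact hle (hP x hx)
  -- (d) squares of `B` are trivial
  have hof : ∀ r : P, (r : X) ∈ ⁅P, P⁆ → Abelianization.of r = 1 := by
    intro r hr
    rw [← Subgroup.map_subtype_commutator] at hr
    obtain ⟨c, hc, hcr⟩ := hr
    have hcr' : c = r := Subtype.ext hcr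
    rw [← hcr']
    have : c ∈ (Abelianization.of : P →* Abelianization P).ker := by
      rw [Abelianization.ker_of]; exact hc
    exact this
  have hofrev : ∀ r : P, Abelianization.of r = 1 → (r : X) ∈ ⁅P, P⁆ := by
    intro r hr
    rw [← Subgroup.map_subtype_commutator]
    refine ⟨r, ?_, rfl⟩
    have : r ∈ (Abelianization.of : P →* Abelianization P).ker := hr
    rwa [Abelianization.ker_of] at this
  have hB2 : (V x * (Abelianization.of xp) ^ (-(P.index : ℤ))) ^ 2 = 1 := by
    obtain ⟨r, hrN, hr⟩ := hb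
    rw [← hr, ← map_pow]
    apply hof
    have : (r : X) ∈ P ⊓ N := ⟨r.2, hrN⟩
    simpa using hQ _ this
  -- (e) conclusion
  rw [mul_pow, hVx2, one_mul, ← zpow_natCast, ← zpow_mul] at hB2
  have hm : Odd P.index := Nat.odd_iff.2 (by
    rcases Nat.mod_two_eq_zero_or_one P.index with h | h
    · exact absurd (Nat.dvd_of_mod_eq_zero h) hidx
    · exact h)
  have h5 : ((Abelianization.of xp) ^ 2) ^ P.index = 1 := by
    have h6 : (Abelianization.of xp) ^ (-(P.index : ℤ) * ((2 : ℕ) : ℤ)) = ((((Abelianization.of xp) ^ 2) ^ P.index))⁻¹ := by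
      rw [← pow_mul, ← zpow_natCast, ← zpow_neg]
      congr 1
      push_cast
      ring
    rw [h6] at hB2
    simpa using hB2
  obtain ⟨j, hj⟩ := hA2 ((Abelianization.of xp) ^ 2)
  have h7 : orderOf ((Abelianization.of xp) ^ 2) = 1 := by
    apply Nat.eq_one_of_dvd_coprimes (a := P.index) (b := 2 ^ j)
    · exact (Nat.coprime_two_right.2 hm).pow_right j
    · exact orderOf_dvd_of_pow_eq_one h5
    · exact orderOf_dvd_of_pow_eq_one hj
  have h8 : (Abelianization.of xp) ^ 2 = 1 := orderOf_eq_one_iff.1 h7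
  have h9 := hofrev (xp ^ 2) (by rw [map_pow]; exact h8)
  simpa [xp] using h9

/-- Let N be a normal subgroup of the finite group G, P a Sylow 2-subgroup of G and Q = P ∩ N. Suppose that P/QP' and Q/Q' are elementary abelian (every square of an element of P lies in the subgroup generated by Q and the derived subgroup of P, and every square of an element of Q lies in the derived subgroup of Q), and that the commutator factor group N/N' has odd order. Then P/P' is elementary abelian. -/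
theorem result {G : Type*} [Group G] [Finite G] (N : Subgroup G) [N.Normal] (P : Sylow 2 G)
    (hP : ∀ x ∈ (P : Subgroup G), x ^ 2 ∈ ((P : Subgroup G) ⊓ N) ⊔ ⁅(P : Subgroup G), (P : Subgroup G)⁆)
    (hQ : ∀ x ∈ (P : Subgroup G) ⊓ N, x ^ 2 ∈ ⁅(P : Subgroup G) ⊓ N, (P : Subgroup G) ⊓ N⁆)
    (hodd : Odd (Nat.card (Abelianization N))) :
    ∀ x ∈ (P : Subgroup G), x ^ 2 ∈ ⁅(P : Subgroup G), (P : Subgroup G)⁆ := by
  intro x hx
  let X : Subgroup G := N ⊔ (P : Subgroup G)
  have hNX : N ≤ X := le_sup_left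
  have hPX : (P : Subgroup G) ≤ X := le_sup_right
  let NX : Subgroup X := N.subgroupOf X
  let PX : Subgroup X := (P : Subgroup G).subgroupOf X
  have hnormal : NX.Normal := inferInstance
  have hinj : Function.Injective X.subtype := X.subtype_injective
  have mapN : NX.map X.subtype = N := Subgroup.map_subgroupOf_eq_of_le hNX
  have mapP : PX.map X.subtype = (P : Subgroup G) := Subgroup.map_subgroupOf_eq_of_le hPX
  have hNP : NX ⊔ PX = ⊤ := by
    apply Subgroup.map_injective hinj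
    rw [Subgroup.map_sup, mapN, mapP, ← MonoidHom.range_eq_map, Subgroup.range_subtype]
  have h2 : IsPGroup 2 PX := (P.isPGroup').of_equiv (Subgroup.subgroupOfEquivOfLe hPX).symm
  have hidx : ¬ 2 ∣ PX.index := by
    intro h
    apply P.not_dvd_index
    have h3 : (P : Subgroup G).relIndex X * X.index = (P : Subgroup G).index :=
      Subgroup.relIndex_mul_index hPX
    rw [← h3]
    exact Dvd.dvd.mul_right h _
  have mapC : (⁅PX, PX⁆).map X.subtype = ⁅(P : Subgroup G), (P : Subgroup G)⁆ := by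
    rw [Subgroup.map_commutator, mapP]
  have hP' : ∀ y ∈ PX, y ^ 2 ∈ (PX ⊓ NX) ⊔ commutator X := by
    intro y hy
    have h3 := hP (y : G) hy
    have h4 : ((PX ⊓ NX) ⊔ ⁅PX, PX⁆).map X.subtype = ((P : Subgroup G) ⊓ N) ⊔ ⁅(P : Subgroup G), (P : Subgroup G)⁆ := by
      rw [Subgroup.map_sup, mapC, Subgroup.map_inf _ _ _ hinj, mapP, mapN]
    rw [← h4] at h3
    have h5 : y ^ 2 ∈ (PX ⊓ NX) ⊔ ⁅PX, PX⁆ := (Subgroup.mem_map_iff_mem hinj).1 (by simpa using h3)
    exact (sup_le_sup_left (Subgroup.commutator_mono le_top le_top) _) h5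
  have hQ' : ∀ y ∈ PX ⊓ NX, y ^ 2 ∈ ⁅PX, PX⁆ := by
    intro y hy
    have h3 := hQ (y : G) ⟨hy.1, hy.2⟩
    have h4 := Subgroup.commutator_mono (inf_le_left : (P : Subgroup G) ⊓ N ≤ P) (inf_le_left : (P : Subgroup G) ⊓ N ≤ P) h3
    rw [← mapC] at h4
    exact (Subgroup.mem_map_iff_mem hinj).1 (by simpa using h4)
  have hN' : ∀ n ∈ NX, n ^ (Nat.card (Abelianization N)) ∈ commutator X := by
    intro n hn
    have hnN : (n : G) ∈ N := hn
    have h3 : (Abelianization.of (⟨n, hnN⟩ : N)) ^ (Nat.card (Abelianization N)) = 1 :=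
      pow_card_eq_one'
    rw [← map_pow] at h3
    have h4 : (⟨n, hnN⟩ : N) ^ (Nat.card (Abelianization N)) ∈ (Abelianization.of : N →* Abelianization N).ker := h3
    rw [Abelianization.ker_of] at h4
    have h5 : ((n : G)) ^ (Nat.card (Abelianization N)) ∈ ⁅N, N⁆ := by
      rw [← Subgroup.map_subtype_commutator]
      exact ⟨_, h4, by simp⟩
    have h6 : (⁅NX, NX⁆).map X.subtype = ⁅N, N⁆ := by
      rw [Subgroup.map_commutator, mapN]
    rw [← h6] at h5
    have h7 : n ^ (Nat.card (Abelianization N)) ∈ ⁅NX, NX⁆ :=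
      (Subgroup.mem_map_iff_mem hinj).1 (by simpa using h5)
    exact Subgroup.commutator_mono le_top le_top h7
  have hcore := core NX PX hNP h2 hidx hP' hQ' _ hodd hN'
  have hxX : x ∈ X := hPX hx
  have h8 := hcore ⟨x, hxX⟩ hx
  rw [← mapC]
  exact ⟨_, h8, by simp⟩

end Cfsg.Agent.S4582
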