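import Mathlib
import Cfsg.Statements.S4583
import Cfsg.Agent.Lib.BlockPrincOver

set_option autoImplicit false

open Cfsg

namespace Cfsg.Agent.S4583

theorem result {G : Type*} [Group G] [Finite G] (N : Subgroup G) [N.Normal] (p : ℕ) [Fact p.Prime] (M : Ideal Cfsg.AlgInt) (hM : Cfsg.IsPModular p M) (P : Sylow p G)
    (θ : Cfsg.IrrCharacter N) (hθ : θ ∈ Cfsg.principalBlock M N) (hdeg : ¬ p ∣ Cfsg.charDegree (θ : N → ℂ))
    (hext : ∃ η : Cfsg.IrrCharacter ↥(N ⊔ (P : Subgroup G)), ∀ n : N, (η : ↥(N ⊔ (P : Subgroup G)) → ℂ) (Subgroup.inclusion le_sup_left n) = (θ : N → ℂ) n) :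
    ∃ χ : Cfsg.IrrCharacter G, χ ∈ Cfsg.principalBlock M G ∧ ¬ p ∣ Cfsg.charDegree (χ : G → ℂ) ∧
      haveI := Fintype.ofFinite N; Cfsg.classInner (fun n : N => (χ : G → ℂ) n) (θ : N → ℂ) ≠ 0 := by
  classical
  letI : Fintype G := Fintype.ofFinite G
  letI : Fintype N := Fintype.ofFinite N
  letI : Fintype ↥(N ⊔ (P : Subgroup G)) := Fintype.ofFinite _
  obtain ⟨η, hη⟩ := hext
  exact Cfsg.Agent.Lib.BlockPrincOver.exists_principal_over hM N P θ hθ hdeg _ le_sup_left le_sup_right rfl η hη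

end Cfsg.Agent.S4583
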