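import Mathlib
import Cfsg.Statements.S4584

set_option autoImplicit false
open Cfsg

namespace Cfsg.Agent.S4584

open Subgroup
open scoped commutatorElement

set_option linter.unusedSectionVars false
set_option linter.style.haveILetI false
set_option linter.deprecated false

variable {P : Type*} [Group P] [Finite P]

theorem comm_of_center_index (h : (center P).index = 1 ∨ (center P).index.Prime) (a b : P) :
    a * b = b * a := by
  rcases h with h | h
  · have : center P = ⊤ := Subgroup.index_eq_one.1 h
    have hb : b ∈ center P := by rw [this]; trivial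
    exact ((Subgroup.mem_center_iff.1 hb) a)
  · haveI : Fact (center P).index.Prime := ⟨h⟩
    haveI : IsCyclic (P ⧸ center P) := isCyclic_of_prime_card (p := (center P).index) rfl
    exact commutative_of_cyclic_center_quotient (QuotientGroup.mk' (center P))
      (by rw [QuotientGroup.ker_mk']) a b

theorem index_centralizer_le (x : P) :
    (centralizer ({x} : Set P)).index ≤ Nat.card (commutator P) := by
  classical
  rw [Subgroup.index_eq_card]
  let f : P ⧸ centralizer ({x} : Set P) → commutator P := fun q =>
    ⟨⁅q.out, x⁆, Subgroup.commutator_mem_commutator (Subgroup.mem_top _) (Subgroup.mem_top _)⟩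
  apply Nat.card_le_card_of_injective f
  intro q₁ q₂ h
  have h1 : ⁅q₁.out, x⁆ = ⁅q₂.out, x⁆ := congrArg Subtype.val h
  have h2 : q₁.out * x * q₁.out⁻¹ = q₂.out * x * q₂.out⁻¹ := by
    simp only [commutatorElement_def] at h1
    exact mul_right_cancel h1
  have h3 : q₂.out⁻¹ * q₁.out ∈ centralizer ({x} : Set P) := by
    rw [Subgroup.mem_centralizer_singleton_iff]
    have : q₁.out * x = q₂.out * x * q₂.out⁻¹ * q₁.out := by
      rw [← h2]; group
    calc q₂.out⁻¹ * q₁.out * x = q₂.out⁻¹ * (q₁.out * x) := by group
      _ = x * (q₂.out⁻¹ * q₁.out) := by rw [this]; group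
  have h4 : (q₂.out : P ⧸ centralizer ({x} : Set P)) = q₁.out :=
    QuotientGroup.eq.2 h3
  simpa using h4.symm

theorem eq_top_of_lt {p : ℕ} (hp : p.Prime) (K D : Subgroup P) (hK : K.index = p) (hle : K ≤ D)
    (hne : K ≠ D) : D = ⊤ := by
  have h1 : K.relIndex D * D.index = K.index := Subgroup.relIndex_mul_index hle
  have h2 : D.index ∣ p := by rw [← hK, ← h1]; exact Dvd.intro_left _ rfl
  rcases (Nat.dvd_prime hp).1 h2 with h3 | h3
  · exact Subgroup.index_eq_one.1 h3
  · exfalso
    rw [h3, hK] at h1
    have h4 : K.relIndex D = 1 := by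
      have := hp.pos
      nlinarith
    exact hne (le_antisymm hle (Subgroup.relIndex_eq_one.1 h4))

theorem index_eq_of_between {p : ℕ} (hp : p.Prime) (Z T : Subgroup P) (hZ : Z.index = p ^ 2)
    (hle : Z ≤ T) (hne : Z ≠ T) (htop : T ≠ ⊤) : T.index = p := by
  have h1 : Z.relIndex T * T.index = Z.index := Subgroup.relIndex_mul_index hle
  have h2 : T.index ∣ p ^ 2 := by rw [← hZ, ← h1]; exact Dvd.intro_left _ rfl
  obtain ⟨k, hk, hk2⟩ := (Nat.dvd_prime_pow hp).1 h2
  interval_cases k
  · exact absurd (Subgroup.index_eq_one.1 (by simpa using hk2)) htop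
  · simpa using hk2
  · exfalso
    rw [hk2, hZ] at h1
    have h4 : Z.relIndex T = 1 := by
      have := pow_pos hp.pos 2
      nlinarith
    exact hne (le_antisymm hle (Subgroup.relIndex_eq_one.1 h4))

theorem commutator_pow_of_central (x y : P) (hc : ⁅x, y⁆ ∈ center P) (k : ℕ) :
    ⁅x ^ k, y⁆ = ⁅x, y⁆ ^ k := by
  induction k with
  | zero => simp
  | succ k ih =>
    have h1 : ⁅x ^ (k + 1), y⁆ = x * ⁅x ^ k, y⁆ * x⁻¹ * ⁅x, y⁆ := by
      simp only [commutatorElement_def, pow_succ', mul_inv_rev]
      group
    have hk : ⁅x ^ k, y⁆ ∈ center P := by rw [ih]; exact pow_mem hc k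
    have h4 := (Subgroup.mem_center_iff.1 hk) x
    rw [h1, h4, mul_inv_cancel_right, ih, pow_succ]

/-- `⟸` : index of the centre `p^2` gives derived subgroup of order `p`. -/
theorem card_commutator_of_index {p : ℕ} [Fact p.Prime] (h : (center P).index = p ^ 2) :
    Nat.card (commutator P) = p := by
  have hp : p.Prime := Fact.out
  have hcard : Nat.card (P ⧸ center P) = p ^ 2 := h
  have hcomm : IsMulCommutative (P ⧸ center P) := IsPGroup.isMulCommutative_of_card_eq_prime_sq hcard
  have hPZ : commutator P ≤ center P := Subgroup.Normal.quotient_commutative_iff_commutator_le.1 hcomm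
  -- non-commuting elements
  have hex : ∃ x y : P, x * y ≠ y * x := by
    by_contra hcon
    push Not at hcon
    have : center P = ⊤ := by
      rw [eq_top_iff]
      intro g _
      rw [Subgroup.mem_center_iff]
      intro h
      exact hcon h g
    rw [this, Subgroup.index_top] at h
    have := hp.one_lt
    have h3 : 1 < p ^ 2 := by nlinarith
    omega
  obtain ⟨x, y, hxy⟩ := hex
  have hcomm' : ∀ a b : P, ⁅a, b⁆ ∈ center P := fun a b =>
    hPZ (Subgroup.commutator_mem_commutator (Subgroup.mem_top _) (Subgroup.mem_top _))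
  let c : P := ⁅x, y⁆
  have hc1 : c ≠ 1 := by
    intro hc
    apply hxy
    exact commutatorElement_eq_one_iff_mul_comm.1 hc
  have hxZ : x ∉ center P := fun hx => hxy ((Subgroup.mem_center_iff.1 hx) y).symm
  have hyZ : y ∉ center P := fun hy => hxy ((Subgroup.mem_center_iff.1 hy) x)
  -- centralizers have index p
  have hcent : ∀ u : P, u ∉ center P → (centralizer ({u} : Set P)).index = p := by
    intro u hu
    apply index_eq_of_between hp (center P) _ h
    · intro z hz
      rw [Subgroup.mem_centralizer_singleton_iff]
      exact ((Subgroup.mem_center_iff.1 hz) u).symm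
    · intro he
      apply hu
      rw [he, Subgroup.mem_centralizer_singleton_iff]
    · intro he
      apply hu
      rw [Subgroup.mem_center_iff]
      intro g
      have : g ∈ centralizer ({u} : Set P) := by rw [he]; trivial
      exact ((Subgroup.mem_centralizer_singleton_iff).1 this)
  let C : Subgroup P := zpowers c
  have hCZ : C ≤ center P := by
    rw [Subgroup.zpowers_le]
    exact hcomm' x y
  haveI hCn : C.Normal := ⟨fun n hn g => by
    have := (Subgroup.mem_center_iff.1 (hCZ hn)) g
    rw [this]
    simpa using hn⟩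
  let π : P →* P ⧸ C := QuotientGroup.mk' C
  have hπ : ∀ a b : P, π a * π b = π b * π a ↔ ⁅a, b⁆ ∈ C := by
    intro a b
    rw [← map_mul, ← map_mul]
    change ((a * b : P) : P ⧸ C) = ((b * a : P) : P ⧸ C) ↔ _
    rw [QuotientGroup.eq]
    have : (a * b)⁻¹ * (b * a) = b⁻¹ * a⁻¹ * b * a := by group
    rw [this]
    -- `⁅a⁻¹, b⁻¹⁆ ∈ C` iff `⁅a, b⁆ ∈ C`; use normality
    constructor
    · intro h0
      have h1 := hCn.conj_mem _ h0 (a * b)
      have h2 : a * b * (b⁻¹ * a⁻¹ * b * a) * (a * b)⁻¹ = ⁅a, b⁆⁻¹ := by
        simp only [commutatorElement_def]; group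
      rw [h2] at h1
      simpa using C.inv_mem h1
    · intro h0
      have h1 := hCn.conj_mem _ (C.inv_mem h0) (a * b)⁻¹
      have h2 : (a * b)⁻¹ * ⁅a, b⁆⁻¹ * ((a * b)⁻¹)⁻¹ = b⁻¹ * a⁻¹ * b * a := by
        simp only [commutatorElement_def]; group
      rwa [h2] at h1
  -- central images
  have hcentral : ∀ u v : P, u ∉ center P → v ∉ centralizer ({u} : Set P) → ⁅u, v⁆ ∈ C →
      ∀ w : P, ⁅u, w⁆ ∈ C := by
    intro u v hu hv huv w
    let D : Subgroup P := Subgroup.comap π (Subgroup.centralizer ({π u} : Set (P ⧸ C)))
    have hD : ∀ t : P, t ∈ D ↔ ⁅u, t⁆ ∈ C := by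
      intro t
      change π t ∈ Subgroup.centralizer ({π u} : Set (P ⧸ C)) ↔ _
      rw [Subgroup.mem_centralizer_singleton_iff, ← hπ u t]
      exact eq_comm
    have hle : centralizer ({u} : Set P) ≤ D := by
      intro t ht
      rw [hD]
      have ht' : t * u = u * t := Subgroup.mem_centralizer_singleton_iff.1 ht
      have : ⁅u, t⁆ = 1 := commutatorElement_eq_one_iff_mul_comm.2 ht'.symm
      rw [this]
      exact C.one_mem
    have hne : centralizer ({u} : Set P) ≠ D := by
      intro he
      apply hv
      rw [he, hD]
      exact huv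
    have htop := eq_top_of_lt hp _ D (hcent u hu) hle hne
    rw [← hD, htop]
    trivial
  have hx_all : ∀ w : P, ⁅x, w⁆ ∈ C := by
    apply hcentral x y hxZ
    · intro hy
      exact hxy (Subgroup.mem_centralizer_singleton_iff.1 hy).symm
    · exact Subgroup.mem_zpowers c
  have hy_all : ∀ w : P, ⁅y, w⁆ ∈ C := by
    apply hcentral y x hyZ
    · intro hx
      exact hxy (Subgroup.mem_centralizer_singleton_iff.1 hx)
    · have : ⁅y, x⁆ = c⁻¹ := by simp [c, commutatorElement_inv]
      rw [this]
      exact C.inv_mem (Subgroup.mem_zpowers c)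
  let Y : Subgroup P := Subgroup.comap π (Subgroup.center (P ⧸ C))
  have hY : ∀ t : P, t ∈ Y ↔ ∀ w : P, ⁅t, w⁆ ∈ C := by
    intro t
    change π t ∈ Subgroup.center (P ⧸ C) ↔ _
    rw [Subgroup.mem_center_iff]
    constructor
    · intro h0 w
      rw [← hπ]
      exact (h0 (π w)).symm
    · intro h0 g
      obtain ⟨w, rfl⟩ := QuotientGroup.mk'_surjective C g
      exact ((hπ t w).2 (h0 w)).symm
  let T : Subgroup P := center P ⊔ zpowers x
  have hTC : T ≤ centralizer ({x} : Set P) := by
    apply sup_le
    · intro z hz
      rw [Subgroup.mem_centralizer_singleton_iff]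
      exact ((Subgroup.mem_center_iff.1 hz) x).symm
    · rw [Subgroup.zpowers_le, Subgroup.mem_centralizer_singleton_iff]
  have hTne : center P ≠ T := by
    intro he
    apply hxZ
    rw [he]
    exact (le_sup_right : zpowers x ≤ T) (Subgroup.mem_zpowers x)
  have hTtop : T ≠ ⊤ := by
    intro he
    have : y ∈ centralizer ({x} : Set P) := hTC (by rw [he]; trivial)
    exact hxy (Subgroup.mem_centralizer_singleton_iff.1 this).symm
  have hTidx : T.index = p := index_eq_of_between hp (center P) T h le_sup_left hTne hTtop
  have hTY : T ≤ Y := by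
    apply sup_le
    · intro z hz
      rw [hY]
      intro w
      have : ⁅z, w⁆ = 1 := commutatorElement_eq_one_iff_mul_comm.2 ((Subgroup.mem_center_iff.1 hz) w).symm
      rw [this]
      exact C.one_mem
    · rw [Subgroup.zpowers_le, hY]
      exact hx_all
  have hyY : y ∈ Y := (hY y).2 hy_all
  have hTneY : T ≠ Y := by
    intro he
    rw [← he] at hyY
    have := hTC hyY
    exact hxy (Subgroup.mem_centralizer_singleton_iff.1 this).symm
  have hYtop : Y = ⊤ := eq_top_of_lt hp T Y hTidx hTY hTneY
  have hcC : commutator P ≤ C := by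
    rw [_root_.commutator_def, Subgroup.commutator_le]
    intro a _ b _
    exact (hY a).1 (by rw [hYtop]; trivial) b
  -- `c ^ p = 1`
  have hcy : (centralizer ({y} : Set P)).Normal := ⟨fun n hn g => by
    have h1 : g * n * g⁻¹ = ⁅g, n⁆ * n := by
      simp only [commutatorElement_def]; group
    rw [h1]
    apply Subgroup.mul_mem _ _ hn
    rw [Subgroup.mem_centralizer_singleton_iff]
    exact ((Subgroup.mem_center_iff.1 (hcomm' g n)) y).symm⟩
  have hxp : x ^ p ∈ centralizer ({y} : Set P) := by
    have := Subgroup.pow_index_mem (centralizer ({y} : Set P)) x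
    rwa [hcent y hyZ] at this
  have hcp : c ^ p = 1 := by
    change ⁅x, y⁆ ^ p = 1
    rw [← commutator_pow_of_central x y (hcomm' x y) p]
    exact commutatorElement_eq_one_iff_mul_comm.2 (Subgroup.mem_centralizer_singleton_iff.1 hxp)
  have hord : orderOf c = p := orderOf_eq_prime hcp hc1
  have hCcard : Nat.card C = p := by
    change Nat.card (zpowers c) = p
    rw [Nat.card_zpowers, hord]
  have hdvd : Nat.card (commutator P) ∣ p := by
    rw [← hCcard]
    exact Subgroup.card_dvd_of_le hcC
  rcases (Nat.dvd_prime hp).1 hdvd with h1 | h1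
  · exfalso
    have : commutator P = ⊥ := (Subgroup.card_eq_one).1 h1
    have h2 : c ∈ commutator P := Subgroup.commutator_mem_commutator (Subgroup.mem_top _) (Subgroup.mem_top _)
    rw [this] at h2
    exact hc1 (Subgroup.mem_bot.1 h2)
  · exact h1

theorem commutator_card_one_of_comm (h : ∀ a b : P, a * b = b * a) :
    Nat.card (commutator P) = 1 := by
  rw [Subgroup.card_eq_one, eq_bot_iff, _root_.commutator_def, Subgroup.commutator_le]
  intro a _ b _
  rw [Subgroup.mem_bot]
  exact commutatorElement_eq_one_iff_mul_comm.2 (h a b)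

/-- `⟹` : derived subgroup of order `p` gives index of centre `p^2`. -/
theorem index_of_card_commutator {p : ℕ} [Fact p.Prime] (hP : Nat.card P = p ^ 4)
    (h : Nat.card (commutator P) = p) : (center P).index = p ^ 2 := by
  classical
  have hp : p.Prime := Fact.out
  have hp1 : p ≠ 1 := hp.ne_one
  have hnotcomm : ¬ ∀ a b : P, a * b = b * a := fun hc => by
    rw [commutator_card_one_of_comm hc] at h
    exact hp1 h.symm
  -- the derived subgroup is central
  have hPZ : commutator P ≤ center P := by
    intro z hz
    by_cases hz1 : z = 1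
    · rw [hz1]; exact Subgroup.one_mem _
    have hnormal : (commutator P).Normal := inferInstance
    have hidx : (centralizer ({z} : Set P)).index < p := by
      rw [← h, Subgroup.index_eq_card]
      let f : P ⧸ centralizer ({z} : Set P) → commutator P := fun q =>
        ⟨q.out * z * q.out⁻¹, hnormal.conj_mem z hz _⟩
      have hf : Function.Injective f := by
        intro q₁ q₂ hq
        have h2 : q₁.out * z * q₁.out⁻¹ = q₂.out * z * q₂.out⁻¹ := congrArg Subtype.val hq
        have h3 : q₂.out⁻¹ * q₁.out ∈ centralizer ({z} : Set P) := by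
          rw [Subgroup.mem_centralizer_singleton_iff]
          have : q₁.out * z = q₂.out * z * q₂.out⁻¹ * q₁.out := by
            rw [← h2]; group
          calc q₂.out⁻¹ * q₁.out * z = q₂.out⁻¹ * (q₁.out * z) := by group
            _ = z * (q₂.out⁻¹ * q₁.out) := by rw [this]; group
        have h4 : (q₂.out : P ⧸ centralizer ({z} : Set P)) = q₁.out :=
          QuotientGroup.eq.2 h3
        simpa using h4.symm
      have hnot : (1 : commutator P) ∉ Set.range f := by
        rintro ⟨q, hq⟩
        have h2 : q.out * z * q.out⁻¹ = 1 := congrArg Subtype.val hq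
        apply hz1
        have h3 : q.out * z = q.out := by
          have := congrArg (· * q.out) h2
          simpa using this
        simpa using h3
      haveI := Fintype.ofFinite (P ⧸ centralizer ({z} : Set P))
      haveI := Fintype.ofFinite (commutator P)
      rw [Nat.card_eq_fintype_card, Nat.card_eq_fintype_card]
      exact Fintype.card_lt_of_injective_of_notMem f hf hnot
    have hdvd : (centralizer ({z} : Set P)).index ∣ p ^ 4 := hP ▸ Subgroup.index_dvd_card _
    obtain ⟨k, hk, hk2⟩ := (Nat.dvd_prime_pow hp).1 hdvd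
    have hk0 : k = 0 := by
      by_contra hk0
      have h3 : p ^ 1 ≤ p ^ k := Nat.pow_le_pow_right hp.pos (Nat.one_le_iff_ne_zero.2 hk0)
      rw [hk2] at hidx
      simp at h3
      omega
    rw [hk0, pow_zero, Subgroup.index_eq_one] at hk2
    rw [Subgroup.mem_center_iff]
    intro g
    have : g ∈ centralizer ({z} : Set P) := by rw [hk2]; trivial
    exact (Subgroup.mem_centralizer_singleton_iff.1 this)
  have hdvd : (center P).index ∣ p ^ 4 := hP ▸ Subgroup.index_dvd_card _
  obtain ⟨k, hk, hk2⟩ := (Nat.dvd_prime_pow hp).1 hdvd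
  have hmul : Nat.card (center P) * (center P).index = p ^ 4 := by
    rw [Subgroup.card_mul_index, hP]
  have hZdvd : p ∣ Nat.card (center P) := by
    rw [← h]
    exact Subgroup.card_dvd_of_le hPZ
  interval_cases k
  · exfalso
    apply hnotcomm
    apply comm_of_center_index
    left; simpa using hk2
  · exfalso
    apply hnotcomm
    apply comm_of_center_index
    right; rw [hk2, pow_one]; exact hp
  · exact hk2
  · exfalso
    rw [hk2] at hmul
    have hZcard : Nat.card (center P) = p := by
      have hp3 : 0 < p ^ 3 := pow_pos hp.pos 3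
      have : Nat.card (center P) * p ^ 3 = p * p ^ 3 := by rw [hmul]; ring
      exact Nat.eq_of_mul_eq_mul_right hp3 this
    push Not at hnotcomm
    obtain ⟨x, y, hxy⟩ := hnotcomm
    let A : Subgroup P := centralizer ({x} : Set P) ⊓ centralizer ({y} : Set P)
    have hAidx : A.index ≤ p * p := by
      have h1 : A.index ≤ _ := Subgroup.index_inf_le
      have h2 := index_centralizer_le x
      have h3 := index_centralizer_le y
      rw [h] at h2 h3
      exact h1.trans (Nat.mul_le_mul h2 h3)
    have hAcard : p * p ≤ Nat.card A := by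
      have hm : Nat.card A * A.index = p ^ 4 := by rw [Subgroup.card_mul_index, hP]
      by_contra hlt
      push Not at hlt
      have h1 : Nat.card A * A.index < p * p * (p * p) := by
        calc Nat.card A * A.index ≤ Nat.card A * (p * p) := Nat.mul_le_mul_left _ hAidx
          _ < p * p * (p * p) := Nat.mul_lt_mul_of_pos_right hlt (Nat.mul_pos hp.pos hp.pos)
      rw [hm] at h1
      have : p ^ 4 = p * p * (p * p) := by ring
      omega
    have hAnot : ¬ A ≤ center P := by
      intro hle
      have h1 := Subgroup.card_le_of_le hle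
      rw [hZcard] at h1
      have := hp.one_lt
      nlinarith
    obtain ⟨a, haA, haZ⟩ := SetLike.not_le_iff_exists.1 hAnot
    let T : Subgroup P := centralizer ({a} : Set P)
    have hTne : T ≠ ⊤ := by
      intro he
      apply haZ
      rw [Subgroup.mem_center_iff]
      intro g
      have : g ∈ T := by rw [he]; trivial
      exact (Subgroup.mem_centralizer_singleton_iff.1 this)
    have hxT : x ∈ T := by
      have := Subgroup.mem_centralizer_singleton_iff.1 haA.1
      exact Subgroup.mem_centralizer_singleton_iff.2 this.symm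
    have hyT : y ∈ T := by
      have := Subgroup.mem_centralizer_singleton_iff.1 haA.2
      exact Subgroup.mem_centralizer_singleton_iff.2 this.symm
    have haT : a ∈ T := Subgroup.mem_centralizer_singleton_iff.2 rfl
    have hZT : center P ≤ T := by
      intro z hz
      exact Subgroup.mem_centralizer_singleton_iff.2 ((Subgroup.mem_center_iff.1 hz) a).symm
    -- order of `T`
    have hTdvd : Nat.card T ∣ p ^ 4 := hP ▸ Subgroup.card_subgroup_dvd_card T
    obtain ⟨j, hj, hj2⟩ := (Nat.dvd_prime_pow hp).1 hTdvd
    have hj3 : j ≤ 3 := by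
      by_contra hj4
      have : j = 4 := by omega
      subst this
      apply hTne
      exact Subgroup.eq_top_of_card_eq _ (by rw [hj2, hP])
    -- centre of `T`
    have hcT : Nat.card (center T) ∣ p ^ j := by
      rw [← hj2]; exact Subgroup.card_subgroup_dvd_card _
    obtain ⟨m, hm, hm2⟩ := (Nat.dvd_prime_pow hp).1 hcT
    have hZtle : (center P).subgroupOf T ≤ center T := by
      intro z hz
      rw [Subgroup.mem_center_iff]
      intro g
      apply Subtype.ext
      have := (Subgroup.mem_center_iff.1 (Subgroup.mem_subgroupOf.1 hz)) (g : P)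
      simpa using this
    have hZtcard : Nat.card ((center P).subgroupOf T) = p := by
      rw [← hZcard]
      exact Nat.card_congr (Subgroup.subgroupOfEquivOfLe hZT).toEquiv
    have haCenter : (⟨a, haT⟩ : T) ∈ center T := by
      rw [Subgroup.mem_center_iff]
      intro g
      apply Subtype.ext
      exact Subgroup.mem_centralizer_singleton_iff.1 g.2
    have hlt : p < Nat.card (center T) := by
      by_contra hle
      push Not at hle
      rw [← hZtcard] at hle
      have he := Subgroup.eq_of_le_of_card_ge hZtle hle
      rw [← he] at haCenter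
      exact haZ (Subgroup.mem_subgroupOf.1 haCenter)
    have hm2' : 2 ≤ m := by
      rw [hm2] at hlt
      by_contra hm3
      have : m = 0 ∨ m = 1 := by omega
      rcases this with rfl | rfl
      · simp at hlt; have := hp.one_lt; omega
      · simp at hlt
    have hidxT : Nat.card (center T) * (center T).index = p ^ j := by
      rw [Subgroup.card_mul_index, hj2]
    rw [hm2] at hidxT
    have hidxT2 : (center T).index = p ^ (j - m) := by
      have h1 : p ^ j = p ^ m * p ^ (j - m) := by
        rw [← pow_add]; congr 1; omega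
      rw [h1] at hidxT
      exact Nat.eq_of_mul_eq_mul_left (pow_pos hp.pos m) hidxT
    have hjm : j - m ≤ 1 := by omega
    have hcommT := comm_of_center_index (P := T) (by
      have : j - m = 0 ∨ j - m = 1 := by omega
      rcases this with h0 | h0
      · left; rw [hidxT2, h0, pow_zero]
      · right; rw [hidxT2, h0, pow_one]; exact hp) (⟨x, hxT⟩ : T) (⟨y, hyT⟩ : T)
    exact hxy (congrArg Subtype.val hcommT)
  · exfalso
    rw [hk2] at hmul
    have : Nat.card (center P) = 1 := by
      have hp4 : 0 < p ^ 4 := pow_pos hp.pos 4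
      have : Nat.card (center P) * p ^ 4 = 1 * p ^ 4 := by rw [hmul]; ring
      exact Nat.eq_of_mul_eq_mul_right hp4 this
    rw [this] at hZdvd
    exact hp1 (Nat.dvd_one.1 hZdvd)

/-- Let p be a prime and P a group of order p^4. Then the derived subgroup P' has order p if and only if the centre Z(P) has index p^2 in P. -/
theorem result {P : Type*} [Group P] [Finite P] (p : ℕ) [Fact p.Prime] (hP : Nat.card P = p ^ 4) :
    Nat.card (commutator P) = p ↔ (Subgroup.center P).index = p ^ 2 :=
  ⟨index_of_card_commutator hP, card_commutator_of_index⟩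

end Cfsg.Agent.S4584
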