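import Mathlib
import Cfsg.Statements.S4585
import Cfsg.Agent.S4584

set_option autoImplicit false
open Cfsg

namespace Cfsg.Agent.S4585

open Subgroup
open scoped commutatorElement

set_option linter.unusedSectionVars false
set_option linter.style.haveILetI false

variable {P : Type*} [Group P] [Finite P]


theorem lcs_const (n : ℕ) (h : ((⊤ : Subgroup P).lowerCentralSeries) (n + 1) = ((⊤ : Subgroup P).lowerCentralSeries) n) (k : ℕ) : ((⊤ : Subgroup P).lowerCentralSeries) (n + k) = ((⊤ : Subgroup P).lowerCentralSeries) n := by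
  induction k with
  | zero => rfl
  | succ k ih =>
    rw [← add_assoc, Subgroup.lowerCentralSeries_succ, ih, ← Subgroup.lowerCentralSeries_succ, h]

theorem lcs_strict [Group.IsNilpotent P] (n : ℕ) (hn : ((⊤ : Subgroup P).lowerCentralSeries) n ≠ ⊥) : ((⊤ : Subgroup P).lowerCentralSeries) (n + 1) ≠ ((⊤ : Subgroup P).lowerCentralSeries) n := by
  intro h
  apply hn
  obtain ⟨m, hm⟩ := Subgroup.nilpotent_iff_lowerCentralSeries.1 (inferInstance : Group.IsNilpotent P)
  rw [← lcs_const n h m, eq_bot_iff, ← hm]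
  exact Subgroup.lowerCentralSeries_antitone _ (Nat.le_add_left _ _)

theorem le_L (n : ℕ) : ((⊤ : Subgroup P).lowerCentralSeries) (n + 1) ≤ ((⊤ : Subgroup P).lowerCentralSeries) n :=
  Subgroup.lowerCentralSeries_antitone _ (Nat.le_succ n)

theorem normal_L (n : ℕ) : (((⊤ : Subgroup P).lowerCentralSeries) n).Normal := by
  have : (((⊤ : Subgroup P).lowerCentralSeries) n).Characteristic := inferInstance
  infer_instance

theorem comm_of_index_prime {p : ℕ} (hp : p.Prime) (hidx : (((⊤ : Subgroup P).lowerCentralSeries) 1).index = p) : ((⊤ : Subgroup P).lowerCentralSeries) 1 ≤ ((⊤ : Subgroup P).lowerCentralSeries) 2 := by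
  haveI : Fact p.Prime := ⟨hp⟩
  haveI hL1 := normal_L (P := P) 1
  haveI hL2 := normal_L (P := P) 2
  haveI : IsCyclic (P ⧸ ((⊤ : Subgroup P).lowerCentralSeries) 1) := isCyclic_of_prime_card (p := p) hidx
  let f : P ⧸ ((⊤ : Subgroup P).lowerCentralSeries) 2 →* P ⧸ ((⊤ : Subgroup P).lowerCentralSeries) 1 := QuotientGroup.map (((⊤ : Subgroup P).lowerCentralSeries) 2) (((⊤ : Subgroup P).lowerCentralSeries) 1) (MonoidHom.id P) (by
    intro x hx
    exact le_L 1 hx)
  have hker : f.ker ≤ center (P ⧸ ((⊤ : Subgroup P).lowerCentralSeries) 2) := by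
    intro q hq
    obtain ⟨g, rfl⟩ := QuotientGroup.mk_surjective q
    have hg : g ∈ ((⊤ : Subgroup P).lowerCentralSeries) 1 := by
      have : f (g : P ⧸ ((⊤ : Subgroup P).lowerCentralSeries) 2) = 1 := hq
      exact (QuotientGroup.eq_one_iff g).1 this
    rw [Subgroup.mem_center_iff]
    intro q'
    obtain ⟨h, rfl⟩ := QuotientGroup.mk_surjective q'
    rw [← QuotientGroup.mk_mul, ← QuotientGroup.mk_mul, QuotientGroup.eq]
    have h1 : ⁅g, h⁆ ∈ ((⊤ : Subgroup P).lowerCentralSeries) 2 := by
      rw [Subgroup.lowerCentralSeries_succ]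
      exact Subgroup.commutator_mem_commutator hg (Subgroup.mem_top _)
    have h2 : (h * g)⁻¹ * (g * h) = (h * g)⁻¹ * ⁅g, h⁆ * (h * g) := by
      simp only [commutatorElement_def]; group
    rw [h2]
    simpa using hL2.conj_mem _ h1 (h * g)⁻¹
  have hc : IsMulCommutative (P ⧸ ((⊤ : Subgroup P).lowerCentralSeries) 2) := MonoidHom.isMulCommutative_of_isCyclic_of_ker_le_center f hker
  have := Subgroup.Normal.quotient_commutative_iff_commutator_le.1 hc
  rwa [← Subgroup.top_lowerCentralSeries_one] at this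

/-- Let p be a prime and P a group of order p^4. Then P' has index p^2 in P if and only if P has maximal nilpotency class, that is, nilpotency class exactly 3. -/
theorem result {P : Type*} [Group P] [Finite P] (p : ℕ) [Fact p.Prime] (hP : Nat.card P = p ^ 4) :
    (commutator P).index = p ^ 2 ↔ Group.nilpotencyClass P = 3 := by
  have hp : p.Prime := Fact.out
  have hpg : IsPGroup p P := IsPGroup.of_card hP
  haveI hnil : Group.IsNilpotent P := hpg.isNilpotent
  have hcls : Group.nilpotencyClass P = 3 ↔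
      ((⊤ : Subgroup P).lowerCentralSeries 3 = ⊥ ∧ (⊤ : Subgroup P).lowerCentralSeries 2 ≠ ⊥) := by
    rw [Subgroup.lowerCentralSeries_eq_bot_iff_nilpotencyClass_le,
      Ne, Subgroup.lowerCentralSeries_eq_bot_iff_nilpotencyClass_le]
    omega
  rw [hcls, ← Subgroup.top_lowerCentralSeries_one]
  have hpow : ∀ K : Subgroup P, ∃ k ≤ 4, Nat.card K = p ^ k := fun K => by
    have : Nat.card K ∣ p ^ 4 := hP ▸ Subgroup.card_subgroup_dvd_card K
    exact (Nat.dvd_prime_pow hp).1 this
  have hstep : ∀ K K' : Subgroup P, K' ≤ K → K' ≠ K → p * Nat.card K' ≤ Nat.card K := by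
    intro K K' hle hne
    have h1 : Nat.card K' ∣ Nat.card K := Subgroup.card_dvd_of_le hle
    obtain ⟨k, _, hk⟩ := hpow K
    obtain ⟨k', _, hk'⟩ := hpow K'
    rw [hk, hk'] at h1 ⊢
    have h2 : k' ≤ k := (Nat.pow_dvd_pow_iff_le_right hp.one_lt).1 h1
    have h3 : k' ≠ k := by
      intro he
      apply hne
      apply Subgroup.eq_of_le_of_card_ge hle
      rw [hk, hk', he]
    have h4 : k' + 1 ≤ k := by omega
    calc p * p ^ k' = p ^ (k' + 1) := by ring
      _ ≤ p ^ k := Nat.pow_le_pow_right hp.pos h4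
  have hmul1 : Nat.card ((⊤ : Subgroup P).lowerCentralSeries 1) * ((⊤ : Subgroup P).lowerCentralSeries 1).index = p ^ 4 := by
    rw [Subgroup.card_mul_index, hP]
  constructor
  · intro h
    have hcard1 : Nat.card ((⊤ : Subgroup P).lowerCentralSeries 1) = p ^ 2 := by
      rw [h] at hmul1
      have : Nat.card ((⊤ : Subgroup P).lowerCentralSeries 1) * p ^ 2 = p ^ 2 * p ^ 2 := by
        rw [hmul1]; ring
      exact Nat.eq_of_mul_eq_mul_right (pow_pos hp.pos 2) this
    have h2ne : (⊤ : Subgroup P).lowerCentralSeries 2 ≠ ⊥ := by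
      intro h2
      have hZ : (⊤ : Subgroup P).lowerCentralSeries 1 ≤ center P := by
        intro z hz
        rw [Subgroup.mem_center_iff]
        intro g
        have h3 : ⁅z, g⁆ ∈ (⊤ : Subgroup P).lowerCentralSeries 2 := by
          rw [Subgroup.lowerCentralSeries_succ]
          exact Subgroup.commutator_mem_commutator hz (Subgroup.mem_top _)
        rw [h2, Subgroup.mem_bot] at h3
        exact (commutatorElement_eq_one_iff_mul_comm.1 h3).symm
      have hZidx : (center P).index ∣ p ^ 2 := by
        rw [← h]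
        exact Subgroup.index_dvd_of_le hZ
      obtain ⟨k, hk, hk2⟩ := (Nat.dvd_prime_pow hp).1 hZidx
      have hne1 : Nat.card ((⊤ : Subgroup P).lowerCentralSeries 1) ≠ 1 := by
        rw [hcard1]
        exact (Nat.one_lt_pow (by norm_num) hp.one_lt).ne'
      interval_cases k
      · apply hne1
        rw [Subgroup.top_lowerCentralSeries_one]
        apply Cfsg.Agent.S4584.commutator_card_one_of_comm
        apply Cfsg.Agent.S4584.comm_of_center_index
        left; simpa using hk2
      · apply hne1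
        rw [Subgroup.top_lowerCentralSeries_one]
        apply Cfsg.Agent.S4584.commutator_card_one_of_comm
        apply Cfsg.Agent.S4584.comm_of_center_index
        right; rw [hk2, pow_one]; exact hp
      · have := Cfsg.Agent.S4584.card_commutator_of_index hk2
        rw [← Subgroup.top_lowerCentralSeries_one, hcard1] at this
        have h3 : p ^ 2 = p ^ 1 := by simpa using this
        have := Nat.pow_right_injective hp.two_le h3
        omega
    refine ⟨?_, h2ne⟩
    have h2lt : p * Nat.card ((⊤ : Subgroup P).lowerCentralSeries 2) ≤ p ^ 2 := by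
      rw [← hcard1]
      exact hstep _ _ (le_L 1) (lcs_strict 1 (by
        intro h1
        rw [h1, Subgroup.card_bot] at hcard1
        exact (Nat.one_lt_pow (by norm_num) hp.one_lt).ne hcard1))
    have h3lt : p * Nat.card ((⊤ : Subgroup P).lowerCentralSeries 3) ≤ Nat.card ((⊤ : Subgroup P).lowerCentralSeries 2) :=
      hstep _ _ (le_L 2) (lcs_strict 2 h2ne)
    have h3card : Nat.card ((⊤ : Subgroup P).lowerCentralSeries 3) ≤ 1 := by
      have h4 : p * (p * Nat.card ((⊤ : Subgroup P).lowerCentralSeries 3)) ≤ p ^ 2 :=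
        (Nat.mul_le_mul_left p h3lt).trans h2lt
      have h5 : p ^ 2 = p * (p * 1) := by ring
      rw [h5] at h4
      exact Nat.le_of_mul_le_mul_left (Nat.le_of_mul_le_mul_left h4 hp.pos) hp.pos
    have : Nat.card ((⊤ : Subgroup P).lowerCentralSeries 3) = 1 := le_antisymm h3card Nat.card_pos
    exact (Subgroup.card_eq_one).1 this
  · rintro ⟨h3, h2⟩
    have h32 : p * Nat.card ((⊤ : Subgroup P).lowerCentralSeries 3) ≤ Nat.card ((⊤ : Subgroup P).lowerCentralSeries 2) :=
      hstep _ _ (le_L 2) (lcs_strict 2 h2)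
    rw [h3, Subgroup.card_bot, mul_one] at h32
    have h1ne : (⊤ : Subgroup P).lowerCentralSeries 1 ≠ ⊥ := by
      intro h1
      apply h2
      rw [eq_bot_iff, ← h1]
      exact le_L 1
    have h21 : p * Nat.card ((⊤ : Subgroup P).lowerCentralSeries 2) ≤ Nat.card ((⊤ : Subgroup P).lowerCentralSeries 1) :=
      hstep _ _ (le_L 1) (lcs_strict 1 h1ne)
    have hcard1 : p ^ 2 ≤ Nat.card ((⊤ : Subgroup P).lowerCentralSeries 1) := by
      calc p ^ 2 = p * p := by ring
        _ ≤ p * Nat.card ((⊤ : Subgroup P).lowerCentralSeries 2) := Nat.mul_le_mul_left _ h32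
        _ ≤ _ := h21
    -- index is a power of `p`, at most `p^2`
    have hidxdvd : ((⊤ : Subgroup P).lowerCentralSeries 1).index ∣ p ^ 4 := by
      rw [← hmul1]; exact Dvd.intro_left _ rfl
    obtain ⟨b, hb, hb2⟩ := (Nat.dvd_prime_pow hp).1 hidxdvd
    have hble : b ≤ 2 := by
      by_contra hb3
      have h5 : p ^ 3 ≤ p ^ b := Nat.pow_le_pow_right hp.pos (by omega)
      have h6 : p ^ 2 * p ^ 3 ≤ p ^ 4 := by
        calc p ^ 2 * p ^ 3 ≤ Nat.card ((⊤ : Subgroup P).lowerCentralSeries 1) * p ^ b :=
              Nat.mul_le_mul hcard1 h5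
          _ = p ^ 4 := by rw [← hb2, hmul1]
      have h7 : p ^ 2 * p ^ 3 = p ^ 4 * p := by ring
      rw [h7] at h6
      have h8 : p ^ 4 * p ≤ p ^ 4 * 1 := by simpa using h6
      have := Nat.le_of_mul_le_mul_left h8 (pow_pos hp.pos 4)
      have := hp.one_lt
      omega
    interval_cases b
    · exfalso
      have h0 : (⊤ : Subgroup P).lowerCentralSeries 1 = ⊤ := Subgroup.index_eq_one.1 (by simpa using hb2)
      have hne0 : (⊤ : Subgroup P).lowerCentralSeries 0 ≠ ⊥ := fun he =>
        h1ne (le_bot_iff.1 ((le_L 0).trans he.le))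
      apply lcs_strict (P := P) 0 hne0
      rw [h0]; rfl
    · exfalso
      apply lcs_strict (P := P) 1 h1ne
      exact le_antisymm (le_L 1) (comm_of_index_prime hp (by simpa using hb2))
    · exact hb2

end Cfsg.Agent.S4585
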