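import Mathlib
import Cfsg.Statements.S4586

set_option autoImplicit false
open Cfsg

namespace Cfsg.Agent.S4586

open Subgroup
open scoped commutatorElement

set_option linter.unusedSectionVars false
set_option linter.style.haveILetI false

variable {P : Type*} [Group P] [Finite P]

theorem eq_top_of_not_le {p : ℕ} (hp : p.Prime) (N D : Subgroup P) (hN : N.index = p) (hle : N ≤ D)
    (x : P) (hx : x ∉ N) (hxD : x ∈ D) : D = ⊤ := by
  have h1 : N.relIndex D * D.index = N.index := Subgroup.relIndex_mul_index hle
  have h2 : D.index ∣ p := by rw [← hN, ← h1]; exact Dvd.intro_left _ rfl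
  rcases (Nat.dvd_prime hp).1 h2 with h3 | h3
  · exact Subgroup.index_eq_one.1 h3
  · exfalso
    rw [h3, hN] at h1
    have h4 : N.relIndex D = 1 := by
      have := hp.pos
      nlinarith
    exact hx ((Subgroup.relIndex_eq_one.1 h4) hxD)

/-- The twisted map `n ↦ [x, n]` mod `N'`. -/
noncomputable def twist (N : Subgroup P) [N.Normal] (x : P) : N →* Abelianization N where
  toFun n := Abelianization.of (MulAut.conjNormal x n) * (Abelianization.of n)⁻¹
  map_one' := by simp
  map_mul' a b := by
    simp only [map_mul, mul_inv]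
    rw [mul_mul_mul_comm]

theorem twist_apply (N : Subgroup P) [N.Normal] (x : P) (n : N) :
    twist N x n = Abelianization.of (MulAut.conjNormal x n) * (Abelianization.of n)⁻¹ := rfl

theorem twist_eq_of (N : Subgroup P) [N.Normal] (x : P) (n : N) (hc : x * n * x⁻¹ * (n : P)⁻¹ ∈ N) :
    twist N x n = Abelianization.of (⟨x * n * x⁻¹ * (n : P)⁻¹, hc⟩ : N) := by
  rw [twist_apply, ← map_inv, ← map_mul]
  congr 1

theorem mem_of_conj (N : Subgroup P) [hN : N.Normal] (x : P) (n : N) : x * n * x⁻¹ * (n : P)⁻¹ ∈ N :=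
  N.mul_mem (hN.conj_mem n n.2 x) (N.inv_mem n.2)

/-- The preimage of the range of the twist, inside `N`. -/
noncomputable def lowerN (N : Subgroup P) [N.Normal] (x : P) : Subgroup N :=
  (twist N x).range.comap (Abelianization.of : N →* Abelianization N)

theorem commutator_le_lowerN (N : Subgroup P) [N.Normal] (x : P) : commutator N ≤ lowerN N x := by
  intro n hn
  have : n ∈ (Abelianization.of : N →* Abelianization N).ker := by
    rw [Abelianization.ker_of]; exact hn
  change Abelianization.of n ∈ (twist N x).range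
  rw [this]
  exact one_mem _

theorem commutator_mem_lowerN (N : Subgroup P) [N.Normal] (x : P) (n : N) :
    (⟨x * n * x⁻¹ * (n : P)⁻¹, mem_of_conj N x n⟩ : N) ∈ lowerN N x := by
  change Abelianization.of _ ∈ (twist N x).range
  rw [← twist_eq_of]
  exact ⟨n, rfl⟩

theorem index_lowerN_mul (N : Subgroup P) [N.Normal] (x : P) :
    (lowerN N x).index * Nat.card (commutator N) = Nat.card (twist N x).ker := by
  have hsurj : Function.Surjective (Abelianization.of : N →* Abelianization N) :=
    fun a => QuotientGroup.mk_surjective a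
  have h1 : (lowerN N x).index = ((twist N x).range).index :=
    Subgroup.index_comap_of_surjective _ hsurj
  have h2 : Nat.card (twist N x).range * ((twist N x).range).index = Nat.card (Abelianization N) :=
    Subgroup.card_mul_index _
  have h3 : Nat.card (twist N x).ker * (twist N x).ker.index = Nat.card N := Subgroup.card_mul_index _
  have h4 : (twist N x).ker.index = Nat.card (twist N x).range := Subgroup.index_ker _
  have h5 : Nat.card (commutator N) * (commutator N).index = Nat.card N := Subgroup.card_mul_index _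
  have h6 : (commutator N).index = Nat.card (Abelianization N) := rfl
  rw [h1]
  have hr : 0 < Nat.card (twist N x).range := Nat.card_pos
  apply Nat.eq_of_mul_eq_mul_right hr
  calc ((twist N x).range).index * Nat.card (commutator N) * Nat.card (twist N x).range
      = Nat.card (commutator N) * (Nat.card (twist N x).range * ((twist N x).range).index) := by ring
    _ = Nat.card (commutator N) * Nat.card (Abelianization N) := by rw [h2]
    _ = Nat.card N := by rw [← h6, h5]
    _ = Nat.card (twist N x).ker * Nat.card (twist N x).range := by rw [← h4, h3]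

theorem card_ker_eq (N : Subgroup P) [N.Normal] (x : P) :
    Nat.card (twist N x).ker =
      Nat.card {n : N // x * n * x⁻¹ * (n : P)⁻¹ ∈ (commutator N).map N.subtype} := by
  apply Nat.card_congr
  apply Equiv.subtypeEquivRight
  intro n
  rw [MonoidHom.mem_ker, twist_eq_of N x n (mem_of_conj N x n)]
  change Abelianization.of _ = 1 ↔ _
  constructor
  · intro h
    have : (⟨x * n * x⁻¹ * (n : P)⁻¹, mem_of_conj N x n⟩ : N) ∈ (Abelianization.of : N →* Abelianization N).ker := h
    rw [Abelianization.ker_of] at this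
    exact ⟨_, this, rfl⟩
  · rintro ⟨c, hc, hcn⟩
    have hc2 : c = (⟨x * n * x⁻¹ * (n : P)⁻¹, mem_of_conj N x n⟩ : N) := Subtype.ext hcn
    rw [← hc2]
    have : c ∈ (Abelianization.of : N →* Abelianization N).ker := by
      rw [Abelianization.ker_of]; exact hc
    exact this

/-- `M_P`: the image of `lowerN` in `P`. -/
noncomputable def lowerP (N : Subgroup P) [N.Normal] (x : P) : Subgroup P :=
  (lowerN N x).map N.subtype

theorem mem_lowerP_iff (N : Subgroup P) [N.Normal] (x : P) (y : P) :
    y ∈ lowerP N x ↔ ∃ h : y ∈ N, (⟨y, h⟩ : N) ∈ lowerN N x := by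
  constructor
  · rintro ⟨n, hn, rfl⟩
    exact ⟨n.2, hn⟩
  · rintro ⟨h, hy⟩
    exact ⟨⟨y, h⟩, hy, rfl⟩

theorem commutator_N_mem (N : Subgroup P) [N.Normal] (x : P) (a b : P) (ha : a ∈ N) (hb : b ∈ N) :
    a * b * a⁻¹ * b⁻¹ ∈ lowerP N x := by
  refine ⟨(⟨a, ha⟩ : N) * ⟨b, hb⟩ * (⟨a, ha⟩ : N)⁻¹ * (⟨b, hb⟩ : N)⁻¹, ?_, rfl⟩
  apply commutator_le_lowerN
  exact Subgroup.commutator_mem_commutator (Subgroup.mem_top _) (Subgroup.mem_top _)

theorem twist_mem (N : Subgroup P) [N.Normal] (x : P) (a : P) (ha : a ∈ N) :
    x * a * x⁻¹ * a⁻¹ ∈ lowerP N x := by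
  exact ⟨_, commutator_mem_lowerN N x ⟨a, ha⟩, rfl⟩

theorem lowerP_le_commutator (N : Subgroup P) [N.Normal] (x : P) : lowerP N x ≤ commutator P := by
  rintro _ ⟨n, hn, rfl⟩
  -- `of n = twist m`
  obtain ⟨m, hm⟩ := hn
  rw [twist_eq_of N x m (mem_of_conj N x m)] at hm
  have h1 := (QuotientGroup.eq (s := commutator N)).1 hm
  have h2 : (⟨x * m * x⁻¹ * (m : P)⁻¹, mem_of_conj N x m⟩ : N)⁻¹ * n ∈ commutator N := h1
  have h3 : ((⟨x * m * x⁻¹ * (m : P)⁻¹, mem_of_conj N x m⟩ : N)⁻¹ * n : N).1 ∈ commutator P := by
    have h31 : ((⟨x * m * x⁻¹ * (m : P)⁻¹, mem_of_conj N x m⟩ : N)⁻¹ * n : N).1 ∈ (commutator N).map N.subtype :=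
      ⟨_, h2, rfl⟩
    rw [Subgroup.map_subtype_commutator] at h31
    exact Subgroup.commutator_mono le_top le_top h31
  have h4 : x * m * x⁻¹ * (m : P)⁻¹ ∈ commutator P :=
    Subgroup.commutator_mem_commutator (Subgroup.mem_top x) (Subgroup.mem_top (m : P))
  have h5 : (n : P) = (x * m * x⁻¹ * (m : P)⁻¹) * ((⟨x * m * x⁻¹ * (m : P)⁻¹, mem_of_conj N x m⟩ : N)⁻¹ * n : N).1 := by
    rw [Subgroup.coe_mul, Subgroup.coe_inv]
    exact (mul_inv_cancel_left _ _).symm
  simp only [Subgroup.subtype_apply]
  rw [h5]
  exact mul_mem h4 h3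

theorem conj_mem_lowerP {p : ℕ} [Fact p.Prime] (N : Subgroup P) [N.Normal] (hN : N.index = p) (x : P) (hx : x ∉ N) :
    (lowerP N x).Normal := by
  have hp : p.Prime := Fact.out
  have hxconj : ∀ (k : ℕ), ∀ y ∈ lowerP N x, x ^ k * y * (x ^ k)⁻¹ ∈ lowerP N x := by
    intro k
    induction k with
    | zero => intro y hy; simpa using hy
    | succ k ih =>
      intro y hy
      have hyN : y ∈ N := ((mem_lowerP_iff N x y).1 hy).1
      have h1 : x * y * x⁻¹ ∈ lowerP N x := by
        have h2 := twist_mem N x y hyN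
        have h3 := mul_mem h2 hy
        simpa using h3
      have := ih _ h1
      have h4 : x ^ k * (x * y * x⁻¹) * (x ^ k)⁻¹ = x ^ (k + 1) * y * (x ^ (k + 1))⁻¹ := by
        rw [pow_succ]; group
      rwa [h4] at this
  have hD : Subgroup.normalizer (lowerP N x : Set P) = ⊤ := by
    apply eq_top_of_not_le (Fact.out : p.Prime) N _ hN _ x hx
    · rw [Subgroup.mem_normalizer_iff]
      intro y
      constructor
      · intro hy
        simpa using hxconj 1 y hy
      · intro hy
        have hfin : x⁻¹ = x ^ (orderOf x - 1) := by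
          have h1 : 0 < orderOf x := orderOf_pos x
          rw [eq_comm, ← mul_eq_one_iff_eq_inv]
          rw [← pow_succ, Nat.sub_add_cancel h1, pow_orderOf_eq_one]
        have := hxconj (orderOf x - 1) _ hy
        rw [← hfin] at this
        simpa [mul_assoc] using this
    · intro n hn
      rw [Subgroup.mem_normalizer_iff]
      intro y
      constructor
      · intro hy
        have hyN : y ∈ N := ((mem_lowerP_iff N x y).1 hy).1
        have h2 := commutator_N_mem N x n y hn hyN
        have h3 := mul_mem h2 hy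
        simpa using h3
      · intro hy
        have hyN' : n * y * n⁻¹ ∈ N := ((mem_lowerP_iff N x _).1 hy).1
        have hyN : y ∈ N := by
          have := N.mul_mem (N.mul_mem (N.inv_mem hn) hyN') hn
          simpa [mul_assoc] using this
        have h2 := commutator_N_mem N x n⁻¹ (n * y * n⁻¹) (N.inv_mem hn) hyN'
        have h3 := mul_mem h2 hy
        simpa [mul_assoc] using h3
  exact Subgroup.normalizer_eq_top_iff.1 hD

theorem commutator_le_lowerP {p : ℕ} [Fact p.Prime] (N : Subgroup P) [hNn : N.Normal] (hN : N.index = p) (x : P)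
    (hx : x ∉ N) : commutator P ≤ lowerP N x := by
  have hp : p.Prime := Fact.out
  haveI hM : (lowerP N x).Normal := conj_mem_lowerP N hN x hx
  haveI : IsCyclic (P ⧸ N) := isCyclic_of_prime_card (p := p) hN
  have hMN : lowerP N x ≤ N := by
    rintro _ ⟨n, _, rfl⟩
    exact n.2
  let f : P ⧸ lowerP N x →* P ⧸ N := QuotientGroup.map (lowerP N x) N (MonoidHom.id P) hMN
  have hker : f.ker ≤ center (P ⧸ lowerP N x) := by
    intro q hq
    obtain ⟨n, rfl⟩ := QuotientGroup.mk_surjective q
    have hn : n ∈ N := by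
      have : f (n : P ⧸ lowerP N x) = 1 := hq
      exact (QuotientGroup.eq_one_iff n).1 this
    -- `D` : the elements commuting with `n` modulo `lowerP`
    let π : P →* P ⧸ lowerP N x := QuotientGroup.mk' (lowerP N x)
    let D : Subgroup P := Subgroup.comap π (Subgroup.centralizer ({π n} : Set (P ⧸ lowerP N x)))
    have hcomm : ∀ g : P, g ∈ D ↔ π n * π g = π g * π n := by
      intro g
      change π g ∈ Subgroup.centralizer ({π n} : Set (P ⧸ lowerP N x)) ↔ _
      rw [Subgroup.mem_centralizer_singleton_iff]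
      exact eq_comm
    have hquot : ∀ a b : P, a * b * a⁻¹ * b⁻¹ ∈ lowerP N x → π a * π b = π b * π a := by
      intro a b hab
      have h1 : π (a * b * a⁻¹ * b⁻¹) = 1 := (QuotientGroup.eq_one_iff _).2 hab
      simp only [map_mul, map_inv] at h1
      have h2 : π a * π b = (π a * π b * (π a)⁻¹ * (π b)⁻¹) * (π b * π a) := by group
      rw [h2, h1, one_mul]
    have hD : D = ⊤ := by
      apply eq_top_of_not_le hp N D hN _ x hx
      · rw [hcomm]
        have h1 := twist_mem N x n hn
        exact (hquot x n h1).symm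
      · intro m hm
        rw [hcomm]
        exact hquot n m (commutator_N_mem N x n m hn hm)
    rw [Subgroup.mem_center_iff]
    intro q'
    obtain ⟨g, rfl⟩ := QuotientGroup.mk_surjective q'
    have : g ∈ D := by rw [hD]; trivial
    exact ((hcomm g).1 this).symm
  have hc : IsMulCommutative (P ⧸ lowerP N x) := MonoidHom.isMulCommutative_of_isCyclic_of_ker_le_center f hker
  exact Subgroup.Normal.quotient_commutative_iff_commutator_le.1 hc

theorem formula {p : ℕ} [Fact p.Prime] (N : Subgroup P) [N.Normal] (hN : N.index = p) (x : P) (hx : x ∉ N) :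
    (commutator P).index * Nat.card (commutator N) =
      p * Nat.card {n : N // x * n * x⁻¹ * (n : P)⁻¹ ∈ (commutator N).map N.subtype} := by
  have h1 : commutator P = lowerP N x :=
    le_antisymm (commutator_le_lowerP N hN x hx) (lowerP_le_commutator N x)
  have h2 : (lowerP N x).index = (lowerN N x).index * N.index := Subgroup.index_map_subtype _
  rw [h1, h2, hN, ← card_ker_eq, ← index_lowerN_mul]
  ring

/-- Let p be a prime, P a finite p-group and N a normal subgroup of P of index p. For x ∈ P write c(x) for the number of elements n of N whose commutator x n x⁻¹ n⁻¹ lies in the derived subgroup N' (so c(x)/#N' is the order of the centralizer of x acting on N/N'). Then [P : P'] = p² if and only if c(x) = p·#N' for every x ∈ P outside N, and also if and only if c(x) = p·#N' for some x ∈ P outside N. -/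
theorem result {P : Type*} [Group P] [Finite P] (p : ℕ) [Fact p.Prime] (hP : IsPGroup p P) (N : Subgroup P) [N.Normal] (hN : N.index = p) :
    ((commutator P).index = p ^ 2 ↔ ∀ x : P, x ∉ N →
        Nat.card {n : N // x * n * x⁻¹ * (n : P)⁻¹ ∈ (commutator N).map N.subtype} = p * Nat.card (commutator N)) ∧
    ((commutator P).index = p ^ 2 ↔ ∃ x : P, x ∉ N ∧
        Nat.card {n : N // x * n * x⁻¹ * (n : P)⁻¹ ∈ (commutator N).map N.subtype} = p * Nat.card (commutator N)) := by
  have hp : p.Prime := Fact.out
  have hkey : ∀ x : P, x ∉ N → ((commutator P).index = p ^ 2 ↔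
      Nat.card {n : N // x * n * x⁻¹ * (n : P)⁻¹ ∈ (commutator N).map N.subtype} = p * Nat.card (commutator N)) := by
    intro x hx
    have hf := formula N hN x hx
    have hc : 0 < Nat.card (commutator N) := Nat.card_pos
    constructor
    · intro h
      rw [h] at hf
      apply Nat.eq_of_mul_eq_mul_left hp.pos
      rw [← hf]
      ring
    · intro h
      rw [h] at hf
      apply Nat.eq_of_mul_eq_mul_right hc
      rw [hf]
      ring
  have hex : ∃ x : P, x ∉ N := by
    by_contra hcon
    push Not at hcon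
    have : N = ⊤ := eq_top_iff.2 (fun x _ => hcon x)
    rw [this, Subgroup.index_top] at hN
    exact hp.ne_one hN.symm
  obtain ⟨x₀, hx₀⟩ := hex
  refine ⟨⟨fun h x hx => (hkey x hx).1 h, fun h => (hkey x₀ hx₀).2 (h x₀ hx₀)⟩,
    ⟨fun h => ⟨x₀, hx₀, (hkey x₀ hx₀).1 h⟩, ?_⟩⟩
  rintro ⟨x, hx, hc⟩
  exact (hkey x hx).2 hc

end Cfsg.Agent.S4586
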