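import Mathlib
import Cfsg.Statements.S4587
import Cfsg.Agent.Lib.AbelPSq
import Cfsg.Agent.Lib.Tate
import Cfsg.Agent.Lib.MinNormalPrim
import Cfsg.Agent.Lib.PCore
import Cfsg.Agent.Lib.PResid
import Cfsg.Agent.Lib.TransferEval
import Cfsg.Agent.Lib.SylowConjLemmas

set_option autoImplicit false
open Cfsg

namespace Cfsg.Agent.S4587

open scoped commutatorElement
open Cfsg.Agent.Lib.AbelPSq Cfsg.Agent.Lib.MinNormalPrim

variable {G : Type*} [Group G] [Finite G] {p : ℕ} [hp : Fact p.Prime]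

theorem comm_eq (P : Subgroup G) : (⁅P, P⁆).subgroupOf P = commutator P := by
  rw [← Subgroup.map_subtype_commutator]
  exact Subgroup.comap_map_eq_self_of_injective P.subtype_injective _

theorem lemZ_G (P : Sylow p G) (hc : (⁅(P : Subgroup G), (P : Subgroup G)⁆).relIndex P = p ^ 2)
    (N : Subgroup G) (hNP : ∀ x ∈ (P : Subgroup G), ∀ n ∈ N, x * n * x⁻¹ ∈ N)
    (hN : ¬ N ⊓ P ≤ ⁅(P : Subgroup G), (P : Subgroup G)⁆) :
    ⁅(P : Subgroup G), (P : Subgroup G)⁆ ≤ N ∧ (N.subgroupOf P).index ∣ p := by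
  have hc' : (commutator (P : Subgroup G)).index = p ^ 2 := by rw [← comm_eq]; exact hc
  haveI hKn : (N.subgroupOf P).Normal := ⟨fun n hn g => by
    rw [Subgroup.mem_subgroupOf] at hn ⊢
    exact hNP g g.2 n hn⟩
  have hK : ¬ N.subgroupOf P ≤ commutator (P : Subgroup G) := by
    intro h
    apply hN
    rintro x ⟨hx1, hx2⟩
    have := h (show (⟨x, hx2⟩ : (P : Subgroup G)) ∈ N.subgroupOf P from hx1)
    rw [← comm_eq, Subgroup.mem_subgroupOf] at this
    exact this
  obtain ⟨h1, h2⟩ := lemZ P.2 hc' _ hK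
  refine ⟨?_, h2⟩
  intro x hx
  have hxP : x ∈ (P : Subgroup G) := Subgroup.commutator_le_self _ hx
  have h3 : (⟨x, hxP⟩ : (P : Subgroup G)) ∈ commutator (P : Subgroup G) := by
    rw [← comm_eq, Subgroup.mem_subgroupOf]; exact hx
  have := h1 h3
  exact Subgroup.mem_subgroupOf.1 this

theorem center_bot_of_simple {S : Type*} [Group S] (hs : IsSimpleGroup S)
    (hc : ¬ IsMulCommutative S) : Subgroup.center S = ⊥ := by
  rcases hs.eq_bot_or_eq_top_of_normal (Subgroup.center S) inferInstance with h | h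
  · exact h
  · exfalso
    apply hc
    exact ⟨⟨fun a b => (Subgroup.mem_center_iff.1 (h ▸ Subgroup.mem_top a) b).symm⟩⟩

theorem notFrat (P : Sylow p G) (N T : Subgroup G)
    (hNP : (P : Subgroup G) ≤ Subgroup.normalizer (N : Set G)) (hTN : T ≤ N)
    (hTs : IsSimpleGroup T) (hTc : ¬ IsMulCommutative T) (hpT : p ∣ Nat.card T) :
    ¬ N ⊓ P ≤ ⁅(P : Subgroup G), (P : Subgroup G)⁆ := by
  intro h
  have hF : N ⊓ (P : Subgroup G) ≤ (frattini P).map (P : Subgroup G).subtype := by
    refine h.trans ?_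
    rw [← Subgroup.map_subtype_commutator]
    exact Subgroup.map_mono (Cfsg.Agent.Lib.Frat.commutator_le_frattini P.2)
  obtain ⟨L, hLN, hLc, hL⟩ := Cfsg.Agent.Lib.Tate.tate_aux P _ N rfl hNP hF
  let T₁ : Subgroup T := L.subgroupOf T
  have hordL : ∀ x ∈ L, Nat.Coprime p (orderOf x) := fun x hx => by
    have h1 : orderOf x ∣ Nat.card L := by
      have := orderOf_dvd_natCard (⟨x, hx⟩ : L)
      simpa [Subgroup.orderOf_mk] using this
    exact (Nat.Coprime.coprime_dvd_left h1 hLc).symm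
  haveI hT₁n : T₁.Normal := ⟨by
    intro x hx t
    rw [Subgroup.mem_subgroupOf] at hx ⊢
    set y : G := ((t * x * t⁻¹ : T) : G) with hy
    have hyT : y ∈ T := (t * x * t⁻¹).2
    obtain ⟨k, hk⟩ := hL y (hTN hyT)
    have hord : orderOf y = orderOf (x : G) := by
      have : y = (t : G) * x * (t : G)⁻¹ := by simp [hy]
      rw [this]
      rw [← MulAut.conj_apply]
      exact MulEquiv.orderOf_eq _ _
    refine Cfsg.Agent.Lib.Tate.mem_of_pow_mem_of_coprime (n := p ^ k) ?_ hk
    rw [hord]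
    exact Nat.Coprime.pow_left k (hordL _ hx)⟩
  rcases hTs.eq_bot_or_eq_top_of_normal T₁ hT₁n with hb | ht
  · have hTp : IsPGroup p T := by
      intro x
      obtain ⟨k, hk⟩ := hL x (hTN x.2)
      refine ⟨k, ?_⟩
      have : x ^ (p ^ k) ∈ T₁ := by
        rw [Subgroup.mem_subgroupOf]; simpa using hk
      rw [hb, Subgroup.mem_bot] at this
      exact this
    haveI : Nontrivial T := hTs.toNontrivial
    have hZ := hTp.center_nontrivial
    have hbot := center_bot_of_simple hTs hTc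
    exact (Subgroup.nontrivial_iff_ne_bot _).1 hZ hbot
  · have hle : T ≤ L := fun x hx => by
      have : (⟨x, hx⟩ : T) ∈ T₁ := by rw [ht]; trivial
      exact Subgroup.mem_subgroupOf.1 this
    have h1 : Nat.card T ∣ Nat.card L := Subgroup.card_dvd_of_le hle
    have h2 : p ∣ Nat.card L := hpT.trans h1
    have := Nat.Coprime.eq_one_of_dvd hLc.symm h2
    exact hp.out.one_lt.ne' this

/-- Basic facts on `T` for `O_p(G) = O_{p'}(G) = 1`. -/
theorem minIn_props (h0 : pPrimeCore p G = ⊥) (h1 : pCore p G = ⊥) {M T : Subgroup G}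
    (hM : IsMinNormal M) (hT : MinIn T M) :
    IsSimpleGroup T ∧ ¬ IsMulCommutative T ∧ p ∣ Nat.card T := by
  classical
  have hs := hT.isSimple hM
  refine ⟨hs, ?_, ?_⟩
  · intro hc
    have habM := hT.comm_of_comm hM (fun x hx y hy => by
      have := (hc.is_comm.comm (⟨x, hx⟩ : T) ⟨y, hy⟩)
      exact congrArg Subtype.val this)
    obtain ⟨r, hr, hexp⟩ := hM.exists_prime_pow_eq_one habM
    haveI : Fact r.Prime := ⟨hr⟩
    have hMr : IsPGroup r M := fun x => ⟨1, by
      apply Subtype.ext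
      simpa using hexp x x.2⟩
    by_cases hrp : r = p
    · subst hrp
      have := Cfsg.Agent.Lib.PCore.le_pCore hM.1 hMr
      rw [h1] at this
      exact hM.2.1 (le_bot_iff.1 this)
    · obtain ⟨n, hn⟩ := IsPGroup.iff_card.1 hMr
      have hcop : (Nat.card M).Coprime p := by
        rw [hn]
        exact Nat.Coprime.pow_left n ((Nat.coprime_primes hr hp.out).2 hrp)
      have := Cfsg.Agent.Lib.PCore.le_pPrimeCore hM.1 hcop
      rw [h0] at this
      exact hM.2.1 (le_bot_iff.1 this)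
  · by_contra hnd
    have hcop : (Nat.card T).Coprime p :=
      (Nat.Coprime.symm ((Nat.Prime.coprime_iff_not_dvd hp.out).2 hnd))
    haveI := hM.1
    let T₀ : Subgroup M := T.subgroupOf M
    haveI hT₀n : T₀.Normal := ⟨by
      intro x hx g
      rw [Subgroup.mem_subgroupOf] at hx ⊢
      exact hT.nz g g.2 x hx⟩
    have hT₀c : (Nat.card T₀).Coprime p := by
      have : Nat.card T₀ = Nat.card T :=
        Nat.card_congr (Subgroup.subgroupOfEquivOfLe hT.le).toEquiv
      rwa [this]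
    have hle := Cfsg.Agent.Lib.PCore.le_pPrimeCore hT₀n hT₀c
    have hmap := Cfsg.Agent.Lib.PCore.map_pPrimeCore_of_normal (G := G) p M
    rw [h0, inf_bot_eq] at hmap
    apply hT.ne_bot
    rw [eq_bot_iff]
    intro x hx
    have h2 : (⟨x, hT.le hx⟩ : M) ∈ pPrimeCore p M := hle (Subgroup.mem_subgroupOf.2 hx)
    have h3 : x ∈ (pPrimeCore p M).map M.subtype := ⟨_, h2, rfl⟩
    rwa [hmap] at h3


theorem cj_mul (a b : G) (T : Subgroup G) : cj (a * b) T = cj a (cj b T) := by
  ext x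
  rw [mem_cj, mem_cj, mem_cj]
  have : (a * b)⁻¹ * x * (a * b) = b⁻¹ * (a⁻¹ * x * a) * b := by group
  rw [this]

theorem cj_one (T : Subgroup G) : cj (1 : G) T = T := by
  ext x
  rw [mem_cj]
  simp

theorem cj_eq_iff (g : G) (T : Subgroup G) : cj g T = T ↔ g ∈ Subgroup.normalizer (T : Set G) := by
  rw [Subgroup.mem_normalizer_iff]
  constructor
  · intro h x
    constructor
    · intro hx
      have : g * x * g⁻¹ ∈ cj g T := by
        rw [mem_cj]; simpa [mul_assoc] using hx
      rwa [h] at this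
    · intro hx
      have : g * x * g⁻¹ ∈ cj g T := by rw [h]; exact hx
      rw [mem_cj] at this
      simpa [mul_assoc] using this
  · intro h
    ext x
    rw [mem_cj]
    have := h (g⁻¹ * x * g)
    have e : g * (g⁻¹ * x * g) * g⁻¹ = x := by group
    rw [e] at this
    exact this

theorem cj_cases {M T : Subgroup G} (hM : IsMinNormal M) (hT : MinIn T M) (g h : G) :
    cj g T = cj h T ∨ ∀ x ∈ cj g T, ∀ y ∈ cj h T, x * y = y * x := by
  rcases hT.cj_dichotomy hM.1 (g⁻¹ * h) with hd | hd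
  · left
    have : cj h T = cj g (cj (g⁻¹ * h) T) := by
      rw [← cj_mul]; simp
    rw [this, hd]
  · right
    intro x hx y hy
    have hx' := mem_cj.1 hx
    have hy' : g⁻¹ * y * g ∈ cj (g⁻¹ * h) T := by
      rw [mem_cj]
      have e : (g⁻¹ * h)⁻¹ * (g⁻¹ * y * g) * (g⁻¹ * h) = h⁻¹ * y * h := by group
      rw [e]
      exact mem_cj.1 hy
    have h1 := hd _ hx' _ hy'
    have h2 : g⁻¹ * (x * y) * g = g⁻¹ * (y * x) * g := by
      calc g⁻¹ * (x * y) * g = (g⁻¹ * x * g) * (g⁻¹ * y * g) := by group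
        _ = (g⁻¹ * y * g) * (g⁻¹ * x * g) := h1
        _ = g⁻¹ * (y * x) * g := by group
    have h3 := mul_right_cancel h2
    exact mul_left_cancel h3

theorem cj_props (g : G) {T : Subgroup G} (hs : IsSimpleGroup T) (hc : ¬ IsMulCommutative T)
    (hd : p ∣ Nat.card T) :
    IsSimpleGroup (cj g T) ∧ ¬ IsMulCommutative (cj g T) ∧ p ∣ Nat.card (cj g T) := by
  let e : T ≃* cj g T := (MulAut.conj g).subgroupMap T
  refine ⟨e.symm.isSimpleGroup, ?_, ?_⟩
  · intro hcomm
    apply hc
    refine ⟨⟨fun a b => e.injective ?_⟩⟩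
    rw [map_mul, map_mul]
    exact hcomm.is_comm.comm _ _
  · rw [card_cj]; exact hd

/-- Orbit closure. -/
def Orb (P T : Subgroup G) (g : G) : Subgroup G :=
  Subgroup.closure {u | ∃ x ∈ P, u ∈ cj (x * g) T}

theorem cj_le_Orb (P T : Subgroup G) (g x : G) (hx : x ∈ P) : cj (x * g) T ≤ Orb P T g := fun u hu =>
  Subgroup.subset_closure ⟨x, hx, hu⟩

theorem Orb_le {P T M : Subgroup G} (g : G) (hM : M.Normal) (hTM : T ≤ M) : Orb P T g ≤ M := by
  refine (Subgroup.closure_le _).2 ?_
  rintro u ⟨x, -, hu⟩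
  have := hM.conj_mem _ (hTM (mem_cj.1 hu)) (x * g)
  simpa [mul_assoc] using this

theorem Orb_conj {P T : Subgroup G} (g : G) (y : G) (hy : y ∈ P) (u : G) (hu : u ∈ Orb P T g) :
    y * u * y⁻¹ ∈ Orb P T g := by
  induction hu using Subgroup.closure_induction with
  | mem u hu =>
    obtain ⟨x, hx, hu⟩ := hu
    apply Subgroup.subset_closure
    refine ⟨y * x, P.mul_mem hy hx, ?_⟩
    rw [mem_cj] at hu ⊢
    have e : (y * x * g)⁻¹ * (y * u * y⁻¹) * (y * x * g) = (x * g)⁻¹ * u * (x * g) := by group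
    rw [e]
    exact hu
  | one => simp
  | mul a b _ _ ha hb =>
    have e : y * (a * b) * y⁻¹ = (y * a * y⁻¹) * (y * b * y⁻¹) := by group
    rw [e]
    exact Subgroup.mul_mem _ ha hb
  | inv a _ ha =>
    have e : y * a⁻¹ * y⁻¹ = (y * a * y⁻¹)⁻¹ := by group
    rw [e]
    exact Subgroup.inv_mem _ ha

theorem Orb_norm {P T : Subgroup G} (g : G) : P ≤ Subgroup.normalizer (Orb P T g : Set G) := by
  intro y hy
  rw [Subgroup.mem_normalizer_iff]
  intro u
  constructor
  · exact Orb_conj g y hy u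
  · intro hu
    have := Orb_conj g y⁻¹ (P.inv_mem hy) _ hu
    have e : y⁻¹ * (y * u * y⁻¹) * y⁻¹⁻¹ = u := by group
    rwa [e] at this

theorem Orb_comm {P T M : Subgroup G} (hM : IsMinNormal M) (hT : MinIn T M) (g h : G)
    (hne : ∀ x ∈ P, cj h T ≠ cj (x * g) T) (w : G) (hw : w ∈ Orb P T g) (y : G) (hy : y ∈ cj h T) :
    w * y = y * w := by
  induction hw using Subgroup.closure_induction with
  | mem u hu =>
    obtain ⟨x, hx, hu⟩ := hu
    rcases cj_cases hM hT h (x * g) with h1 | h1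
    · exact absurd h1 (hne x hx)
    · exact (h1 y hy u hu).symm
  | one => simp
  | mul a b _ _ ha hb =>
    calc a * b * y = a * (b * y) := by group
      _ = a * (y * b) := by rw [hb]
      _ = (a * y) * b := by group
      _ = y * a * b := by rw [ha]
      _ = y * (a * b) := by group
  | inv a _ ha =>
    calc a⁻¹ * y = a⁻¹ * (y * a) * a⁻¹ := by group
      _ = a⁻¹ * (a * y) * a⁻¹ := by rw [ha]
      _ = y * a⁻¹ := by group

theorem center_triv {M T : Subgroup G} (hM : IsMinNormal M) (hT : MinIn T M)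
    (hc : ¬ IsMulCommutative T) (x : G) (hx : x ∈ M) (hxc : ∀ y ∈ M, x * y = y * x) : x = 1 := by
  haveI := hM.1
  have hZn : (M ⊓ Subgroup.centralizer (M : Set G)).Normal := Subgroup.normal_inf_normal _ _
  rcases hM.2.2 _ hZn inf_le_left with h | h
  · have : x ∈ M ⊓ Subgroup.centralizer (M : Set G) :=
      ⟨hx, Subgroup.mem_centralizer_iff.2 fun y hy => (hxc y hy).symm⟩
    rw [h, Subgroup.mem_bot] at this
    exact this
  · exfalso
    apply hc
    refine ⟨⟨fun a b => Subtype.ext ?_⟩⟩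
    have h1 : (a : G) ∈ M ⊓ Subgroup.centralizer (M : Set G) := by rw [h]; exact hT.le a.2
    exact (Subgroup.mem_centralizer_iff.1 h1.2 _ (hT.le b.2)).symm

/-- `P` permutes the conjugates of `T` transitively. -/
theorem transitive (P : Sylow p G) (hc : (⁅(P : Subgroup G), (P : Subgroup G)⁆).relIndex P = p ^ 2)
    (hne : ⁅(P : Subgroup G), (P : Subgroup G)⁆ ≠ ⊥)
    {M T : Subgroup G} (hM : IsMinNormal M) (hT : MinIn T M)
    (hs : IsSimpleGroup T) (hnc : ¬ IsMulCommutative T) (hd : p ∣ Nat.card T) (g : G) :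
    ∃ x ∈ (P : Subgroup G), cj g T = cj x T := by
  by_contra hn
  push Not at hn
  have hZ : ∀ g' : G, ⁅(P : Subgroup G), (P : Subgroup G)⁆ ≤ Orb P T g' := by
    intro g'
    have h1 := cj_props (1 * g') hs hnc hd
    have h2 := notFrat P (Orb P T g') (cj (1 * g') T) (Orb_norm g') (cj_le_Orb _ _ _ _ P.1.one_mem) h1.1 h1.2.1 h1.2.2
    refine (lemZ_G P hc _ ?_ h2).1
    intro x hx n hn
    exact Orb_conj g' x hx n hn
  rcases Subgroup.bot_or_exists_ne_one (⁅(P : Subgroup G), (P : Subgroup G)⁆) with hb | ⟨w, hw, hw1⟩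
  · exact hne hb
  apply hw1
  have hwM : w ∈ M := Orb_le (1 : G) hM.1 hT.le (hZ 1 hw)
  refine center_triv hM hT hnc w hwM ?_
  apply hT.induction hM (Q := fun y => w * y = y * w)
  · intro h y hy
    by_cases hh : ∃ x ∈ (P : Subgroup G), cj h T = cj (x * 1) T
    · obtain ⟨x, hx, hxe⟩ := hh
      refine Orb_comm hM hT g h ?_ w (hZ g hw) y hy
      intro x' hx' he
      apply hn (x'⁻¹ * x) (P.1.mul_mem (P.1.inv_mem hx') hx)
      rw [hxe, mul_one] at he
      rw [cj_mul, he, ← cj_mul]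
      simp
    · push Not at hh
      exact Orb_comm hM hT 1 h hh w (hZ 1 hw) y hy
  · simp
  · intro a b ha hb
    calc w * (a * b) = (w * a) * b := by group
      _ = a * (w * b) := by rw [ha]; group
      _ = a * b * w := by rw [hb]; group
  · intro a ha
    calc w * a⁻¹ = a⁻¹ * (a * w) * a⁻¹ := by group
      _ = a⁻¹ * (w * a) * a⁻¹ := by rw [ha]
      _ = a⁻¹ * w := by group



/-- Decomposition of the Sylow subgroup of `M = T × C_M(T)`. -/
theorem decomp (P : Sylow p G) {M T : Subgroup G} (hM : IsMinNormal M) (hT : MinIn T M)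
    (hs : IsSimpleGroup T) (hnc : ¬ IsMulCommutative T) (k : G) (hkM : k ∈ M)
    (hkP : k ∈ (P : Subgroup G)) :
    ∃ x ∈ T, x ∈ (P : Subgroup G) ∧ ∃ d ∈ M, d ∈ (P : Subgroup G) ∧
      d ∈ Subgroup.centralizer (T : Set G) ∧ k = x * d := by
  classical
  haveI := hM.1
  obtain ⟨S₀, hS₀⟩ := Cfsg.Agent.Lib.PResid.exists_sylow_inf_of_normal P M
  let T₀ : Subgroup M := T.subgroupOf M
  let C₀ : Subgroup M := (Subgroup.centralizer (T : Set G)).subgroupOf M
  haveI hT₀n : T₀.Normal := ⟨by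
    intro x hx g
    rw [Subgroup.mem_subgroupOf] at hx ⊢
    exact hT.nz g g.2 x hx⟩
  haveI hC₀n : C₀.Normal := ⟨by
    intro x hx g
    rw [Subgroup.mem_subgroupOf, Subgroup.mem_centralizer_iff] at hx ⊢
    intro t ht
    have h1 := hT.nz (g : M)⁻¹ (M.inv_mem g.2) t ht
    have h2 := hx _ (by simpa using h1)
    simp only [Subgroup.coe_mul, Subgroup.coe_inv]
    calc t * ((g : G) * x * (g : G)⁻¹) = (g : G) * ((g : G)⁻¹ * t * (g : G)) * x * (g : G)⁻¹ := by group
      _ = (g : G) * (((g : G)⁻¹ * t * (g : G)) * x) * (g : G)⁻¹ := by group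
      _ = (g : G) * (x * ((g : G)⁻¹ * t * (g : G))) * (g : G)⁻¹ := by
          rw [show ((g : G)⁻¹ * t * (g : G)) * (x : G) = (x : G) * ((g : G)⁻¹ * t * (g : G)) from h2]
      _ = (g : G) * x * (g : G)⁻¹ * t := by group⟩
  have hcenter : ∀ x ∈ T, x ∈ Subgroup.centralizer (T : Set G) → x = 1 := by
    intro x hx hxc
    have h1 : (⟨x, hx⟩ : T) ∈ Subgroup.center T := by
      rw [Subgroup.mem_center_iff]
      intro y
      apply Subtype.ext
      exact Subgroup.mem_centralizer_iff.1 hxc y y.2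
    rw [center_bot_of_simple hs hnc, Subgroup.mem_bot] at h1
    exact congrArg Subtype.val h1
  have hcompl : T₀.IsComplement' C₀ := by
    apply Subgroup.isComplement'_of_disjoint_and_mul_eq_univ
    · rw [Subgroup.disjoint_def]
      intro x hx1 hx2
      rw [Subgroup.mem_subgroupOf] at hx1 hx2
      exact Subtype.ext (hcenter _ hx1 hx2)
    · rw [Set.eq_univ_iff_forall]
      intro n
      obtain ⟨u, hu, hnu⟩ := hT.conj_inner hM n n.2
      refine Set.mem_mul.2 ⟨⟨u, hT.le hu⟩, Subgroup.mem_subgroupOf.2 hu, ⟨u, hT.le hu⟩⁻¹ * n, ?_, by simp⟩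
      show _ ∈ C₀
      rw [Subgroup.mem_subgroupOf, Subgroup.mem_centralizer_iff]
      intro y hy
      have hy' : y ∈ T := hy
      have h1 := hnu (u * y * u⁻¹) (T.mul_mem (T.mul_mem hu hy') (T.inv_mem hu))
      simp only [Subgroup.coe_mul, Subgroup.coe_inv]
      have e1 : u⁻¹ * (u * y * u⁻¹) * u = y := by group
      rw [e1] at h1
      have h2 : (u⁻¹ * (n : G))⁻¹ * y * (u⁻¹ * (n : G)) = y := by
        calc (u⁻¹ * (n : G))⁻¹ * y * (u⁻¹ * (n : G)) = (n : G)⁻¹ * (u * y * u⁻¹) * (n : G) := by group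
          _ = y := h1
      calc y * (u⁻¹ * (n : G)) = (u⁻¹ * (n : G)) * ((u⁻¹ * (n : G))⁻¹ * y * (u⁻¹ * (n : G))) := by group
        _ = (u⁻¹ * (n : G)) * y := by rw [h2]
  obtain ⟨S₁, hS₁⟩ := Cfsg.Agent.Lib.PResid.exists_sylow_inf_of_normal S₀ T₀
  obtain ⟨S₂, hS₂⟩ := Cfsg.Agent.Lib.PResid.exists_sylow_inf_of_normal S₀ C₀
  have hcard : Nat.card T₀ * Nat.card C₀ = Nat.card M := hcompl.card_mul_card
  have c₀ := S₀.card_eq_multiplicity
  have c₁ := S₁.card_eq_multiplicity
  have c₂ := S₂.card_eq_multiplicity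
  have hfact : Nat.factorization (Nat.card M) p =
      Nat.factorization (Nat.card T₀) p + Nat.factorization (Nat.card C₀) p := by
    rw [← hcard, Nat.factorization_mul Nat.card_pos.ne' Nat.card_pos.ne']
    rfl
  have hcc : Nat.card S₀ = Nat.card S₁ * Nat.card S₂ := by
    rw [c₀, c₁, c₂, hfact, pow_add]
  have hS₁' : ∀ a : S₁, ((a : T₀) : M) ∈ (S₀ : Subgroup M) := by
    intro a
    have : ((a : T₀) : M) ∈ (S₁ : Subgroup T₀).map T₀.subtype := ⟨a, a.2, rfl⟩
    rw [hS₁] at this
    exact this.1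
  have hS₂' : ∀ a : S₂, ((a : C₀) : M) ∈ (S₀ : Subgroup M) := by
    intro a
    have : ((a : C₀) : M) ∈ (S₂ : Subgroup C₀).map C₀.subtype := ⟨a, a.2, rfl⟩
    rw [hS₂] at this
    exact this.1
  have hS₀' : ∀ z : M, z ∈ (S₀ : Subgroup M) → (z : G) ∈ (P : Subgroup G) := by
    intro z hz
    have : (z : G) ∈ (S₀ : Subgroup M).map M.subtype := ⟨z, hz, rfl⟩
    rw [hS₀] at this
    exact this.1
  let F : S₁ × S₂ → (S₀ : Subgroup M) := fun ab =>
    ⟨((ab.1 : T₀) : M) * ((ab.2 : C₀) : M), Subgroup.mul_mem _ (hS₁' ab.1) (hS₂' ab.2)⟩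
  have hFinj : Function.Injective F := by
    rintro ⟨a, b⟩ ⟨a', b'⟩ h
    have h1 : ((a : T₀) : M) * ((b : C₀) : M) = ((a' : T₀) : M) * ((b' : C₀) : M) :=
      congrArg Subtype.val h
    have h2 : ((a' : T₀) : M)⁻¹ * ((a : T₀) : M) = ((b' : C₀) : M) * ((b : C₀) : M)⁻¹ := by
      calc ((a' : T₀) : M)⁻¹ * ((a : T₀) : M)
          = ((a' : T₀) : M)⁻¹ * (((a : T₀) : M) * ((b : C₀) : M)) * ((b : C₀) : M)⁻¹ := by group
        _ = ((a' : T₀) : M)⁻¹ * (((a' : T₀) : M) * ((b' : C₀) : M)) * ((b : C₀) : M)⁻¹ := by rw [h1]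
        _ = _ := by group
    have hmem1 : (((a' : T₀) : M)⁻¹ * ((a : T₀) : M)) ∈ T₀ :=
      T₀.mul_mem (T₀.inv_mem (a' : T₀).2) (a : T₀).2
    have hmem2 : (((a' : T₀) : M)⁻¹ * ((a : T₀) : M)) ∈ C₀ := by
      rw [h2]; exact C₀.mul_mem (b' : C₀).2 (C₀.inv_mem (b : C₀).2)
    rw [Subgroup.mem_subgroupOf] at hmem1 hmem2
    have h3 := hcenter _ hmem1 hmem2
    have h4 : ((a' : T₀) : M)⁻¹ * ((a : T₀) : M) = 1 := Subtype.ext h3
    have h5 : ((a : T₀) : M) = ((a' : T₀) : M) := by
      rw [inv_mul_eq_one] at h4; exact h4.symm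
    have h6 : ((b : C₀) : M) = ((b' : C₀) : M) := by
      rw [h5] at h1; exact mul_left_cancel h1
    have ea : a = a' := Subtype.ext (Subtype.ext h5)
    have eb : b = b' := Subtype.ext (Subtype.ext h6)
    rw [ea, eb]
  have hFsurj : Function.Surjective F := by
    refine (Function.Injective.bijective_of_nat_card_le hFinj ?_).2
    rw [Nat.card_prod]
    exact hcc.le
  have hk₀ : (⟨k, hkM⟩ : M) ∈ (S₀ : Subgroup M) := by
    have : k ∈ (S₀ : Subgroup M).map M.subtype := by rw [hS₀]; exact ⟨hkP, hkM⟩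
    obtain ⟨z, hz, hze⟩ := this
    have : z = ⟨k, hkM⟩ := Subtype.ext hze
    rwa [← this]
  obtain ⟨⟨a, b⟩, hab⟩ := hFsurj ⟨_, hk₀⟩
  have hab' : ((a : T₀) : M) * ((b : C₀) : M) = ⟨k, hkM⟩ := congrArg Subtype.val hab
  refine ⟨(((a : T₀) : M) : G), Subgroup.mem_subgroupOf.1 (a : T₀).2, hS₀' _ (hS₁' a),
    (((b : C₀) : M) : G), ((b : C₀) : M).2, hS₀' _ (hS₂' b), Subgroup.mem_subgroupOf.1 (b : C₀).2, ?_⟩
  have := congrArg Subtype.val hab'
  exact this.symm


/-- The case `O_p(G) = 1`. -/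
theorem exists_M_caseB (P : Sylow p G) (hc : (⁅(P : Subgroup G), (P : Subgroup G)⁆).relIndex P = p ^ 2)
    (hne : ⁅(P : Subgroup G), (P : Subgroup G)⁆ ≠ ⊥) (h0 : pPrimeCore p G = ⊥) (h1 : pCore p G = ⊥)
    (hnas : ¬ ∃ S : Subgroup G, S.Normal ∧ IsSimpleGroup S ∧ ¬ IsMulCommutative S ∧
      Subgroup.centralizer (S : Set G) = ⊥) :
    ∃ M : Subgroup G, M.Normal ∧ (∀ x ∈ M, x ∈ (P : Subgroup G) → ∀ y ∈ M, y ∈ (P : Subgroup G) → x * y = y * x) ∧
      (M.subgroupOf P).index = p := by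
  classical
  haveI : Nontrivial G := by
    by_contra hnt
    rw [not_nontrivial_iff_subsingleton] at hnt
    exact hne (Subsingleton.elim _ _)
  obtain ⟨M, hM⟩ := exists_minNormal (G := G)
  obtain ⟨T, hT⟩ := exists_minIn M hM.2.1
  obtain ⟨hs, hnc, hd⟩ := minIn_props h0 h1 hM hT
  have htrans := transitive P hc hne hM hT hs hnc hd
  haveI hMn := hM.1
  have hPM : (P : Subgroup G) ≤ Subgroup.normalizer (M : Set G) := by
    rw [Subgroup.normalizer_eq_top_iff.2 hMn]; exact le_top
  have hnotM := notFrat P M T hPM hT.le hs hnc hd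
  obtain ⟨hPd, hidx⟩ := lemZ_G P hc M (fun x _ n hn => hMn.conj_mem n hn x) hnotM
  by_cases hall : ∀ x ∈ (P : Subgroup G), cj x T = T
  · -- `T` is normal in `G`
    exfalso
    have hTn : T.Normal := ⟨by
      intro n hn g
      obtain ⟨x, hx, hxe⟩ := htrans g
      rw [hall x hx] at hxe
      have : g * n * g⁻¹ ∈ cj g T := by
        rw [mem_cj]; simpa [mul_assoc] using hn
      rwa [hxe] at this⟩
    have hC : Subgroup.centralizer (T : Set G) ≠ ⊥ := fun hb => hnas ⟨T, hTn, hs, hnc, hb⟩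
    haveI := hTn
    obtain ⟨M₂, hM₂C, hM₂⟩ := exists_minNormal_le (Subgroup.centralizer (T : Set G)) inferInstance hC
    obtain ⟨T₂, hT₂⟩ := exists_minIn M₂ hM₂.2.1
    obtain ⟨hs₂, hnc₂, hd₂⟩ := minIn_props h0 h1 hM₂ hT₂
    haveI hM₂n := hM₂.1
    have hPM₂ : (P : Subgroup G) ≤ Subgroup.normalizer (M₂ : Set G) := by
      rw [Subgroup.normalizer_eq_top_iff.2 hM₂n]; exact le_top
    have hPT : (P : Subgroup G) ≤ Subgroup.normalizer (T : Set G) := by
      rw [Subgroup.normalizer_eq_top_iff.2 hTn]; exact le_top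
    have h2 := notFrat P M₂ T₂ hPM₂ hT₂.le hs₂ hnc₂ hd₂
    have h3 := notFrat P T T hPT le_rfl hs hnc hd
    have h4 := (lemZ_G P hc M₂ (fun x _ n hn => hM₂n.conj_mem n hn x) h2).1
    have h5 := (lemZ_G P hc T (fun x _ n hn => hTn.conj_mem n hn x) h3).1
    apply hne
    rw [eq_bot_iff]
    intro w hw
    have h6 : (⟨w, h5 hw⟩ : T) ∈ Subgroup.center T := by
      rw [Subgroup.mem_center_iff]
      intro y
      apply Subtype.ext
      exact Subgroup.mem_centralizer_iff.1 (hM₂C (h4 hw)) y y.2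
    rw [center_bot_of_simple hs hnc, Subgroup.mem_bot] at h6
    exact congrArg Subtype.val h6
  push Not at hall
  obtain ⟨a, haP, haT⟩ := hall
  have haM : a ∉ M := by
    intro ham
    apply haT
    rw [cj_eq_iff, Subgroup.mem_normalizer_iff]
    intro y
    constructor
    · exact fun hy => hT.nz a ham y hy
    · intro hy
      have := hT.nz a⁻¹ (M.inv_mem ham) _ hy
      simpa [mul_assoc] using this
  let a₀ : (P : Subgroup G) := ⟨a, haP⟩
  have ha₀ : a₀ ∉ M.subgroupOf P := fun h => haM (Subgroup.mem_subgroupOf.1 h)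
  have hindex : (M.subgroupOf P).index = p := by
    rcases (Nat.dvd_prime hp.out).1 hidx with h2 | h2
    · exfalso
      rw [Subgroup.index_eq_one] at h2
      exact ha₀ (h2 ▸ Subgroup.mem_top _)
    · exact h2
  refine ⟨M, hMn, ?_, hindex⟩
  -- the main point: the Sylow subgroup of `M` is abelian
  have hc' : (commutator (P : Subgroup G)).index = p ^ 2 := by rw [← comm_eq]; exact hc
  haveI hK₀n : (M.subgroupOf P).Normal := inferInstance
  have hnz : ∀ m ∈ M, ∀ z ∈ Subgroup.centralizer (T : Set G), m * z * m⁻¹ ∈ Subgroup.centralizer (T : Set G) := by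
    intro m hm z hz
    rw [Subgroup.mem_centralizer_iff] at hz ⊢
    intro t ht
    have h2 := hT.nz m⁻¹ (M.inv_mem hm) t ht
    have h3 := hz _ h2
    simp only [inv_inv] at h3
    calc t * (m * z * m⁻¹) = m * (m⁻¹ * t * m * z) * m⁻¹ := by group
      _ = m * (z * (m⁻¹ * t * m)) * m⁻¹ := by rw [h3]
      _ = m * z * m⁻¹ * t := by group
  have hcomm := comm_le_of_norm P.2 hc' (M.subgroupOf P) hindex a₀ ha₀
    ((M ⊓ Subgroup.centralizer (T : Set G)).subgroupOf P)
    (by
      intro x hx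
      rw [Subgroup.mem_subgroupOf] at hx ⊢
      exact hx.1)
    (by
      intro k hk d hd'
      rw [Subgroup.mem_subgroupOf] at hk hd' ⊢
      have e : ((k * d * k⁻¹ : (P : Subgroup G)) : G) = (k : G) * d * (k : G)⁻¹ := by simp
      rw [e]
      exact ⟨M.mul_mem (M.mul_mem hk hd'.1) (M.inv_mem hk), hnz k hk d hd'.2⟩)
    {x | (x : G) ∈ T}
    (by
      intro k hk
      rw [Subgroup.mem_subgroupOf] at hk
      obtain ⟨x, hxT, hxP, d, hdM, hdP, hdC, hkd⟩ := decomp P hM hT hs hnc k hk k.2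
      refine ⟨⟨x, hxP⟩, hxT, Subgroup.mem_subgroupOf.2 (hT.le hxT), ⟨d, hdP⟩, ?_, Subtype.ext hkd⟩
      rw [Subgroup.mem_subgroupOf]
      exact ⟨hdM, hdC⟩)
    (by
      intro x hxT hxK i hi0 hip
      rw [Subgroup.mem_subgroupOf]
      have hxT' : (x : G) ∈ T := hxT
      have hz : ((a₀ ^ i * x * (a₀ ^ i)⁻¹ : (P : Subgroup G)) : G) = a ^ i * (x : G) * (a ^ i)⁻¹ := by
        simp [a₀]
      rw [hz]
      refine ⟨hMn.conj_mem _ (hT.le hxT') _, ?_⟩
      -- `cj (a ^ i) T ≠ T`
      have hne' : cj (a ^ i) T ≠ cj 1 T := by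
        rw [cj_one]
        intro he
        apply haT
        rw [cj_eq_iff] at he ⊢
        have hap : a₀ ^ p ∈ M.subgroupOf P := by
          have hcard : Nat.card ((P : Subgroup G) ⧸ M.subgroupOf P) = p := by
            rw [← Subgroup.index_eq_card]; exact hindex
          have h1 : ((a₀ : (P : Subgroup G)) : (P : Subgroup G) ⧸ M.subgroupOf P) ^
              Nat.card ((P : Subgroup G) ⧸ M.subgroupOf P) = 1 := pow_card_eq_one'
          rw [hcard, ← QuotientGroup.mk_pow] at h1
          exact (QuotientGroup.eq_one_iff _).1 h1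
        have hapM : a ^ p ∈ M := by
          rw [Subgroup.mem_subgroupOf] at hap
          simpa [a₀] using hap
        have hapN : a ^ p ∈ Subgroup.normalizer (T : Set G) := by
          rw [Subgroup.mem_normalizer_iff]
          intro y
          constructor
          · exact fun hy => hT.nz _ hapM y hy
          · intro hy
            have := hT.nz _ (M.inv_mem hapM) _ hy
            simpa [mul_assoc] using this
        have hcop : Nat.Coprime i p :=
          (Nat.coprime_of_lt_prime (by omega) hip hp.out).symm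
        obtain ⟨m, n, hmn⟩ : ∃ m n : ℤ, (i : ℤ) * m + (p : ℤ) * n = 1 := by
          have := Nat.gcd_eq_gcd_ab i p
          rw [hcop] at this
          exact ⟨_, _, by simpa using this.symm⟩
        have : a = (a ^ i) ^ m * (a ^ p) ^ n := by
          rw [← zpow_natCast, ← zpow_natCast, ← zpow_mul, ← zpow_mul, ← zpow_add, hmn, zpow_one]
        rw [this]
        exact Subgroup.mul_mem _ (Subgroup.zpow_mem _ he _) (Subgroup.zpow_mem _ hapN _)
      rcases cj_cases hM hT (a ^ i) 1 with h2 | h2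
      · exact absurd h2 hne'
      · show _ ∈ Subgroup.centralizer (T : Set G)
        rw [Subgroup.mem_centralizer_iff]
        intro t ht
        refine (h2 _ ?_ t ?_).symm
        · rw [mem_cj]; simpa [mul_assoc] using hxT'
        · rw [cj_one]; exact ht)
  have key : ∀ u ∈ M, u ∈ (P : Subgroup G) → ∀ v ∈ M, v ∈ (P : Subgroup G) →
      ⁅u, v⁆ ∈ Subgroup.centralizer (T : Set G) := by
    intro u hu huP v hv hvP
    have := hcomm ⟨u, huP⟩ (Subgroup.mem_subgroupOf.2 hu) ⟨v, hvP⟩ (Subgroup.mem_subgroupOf.2 hv)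
    rw [Subgroup.mem_subgroupOf] at this
    exact this.2
  intro x hxM hxP y hyM hyP
  have hw1 : ⁅x, y⁆ = 1 := by
    refine center_triv hM hT hnc _ ?_ ?_
    · exact M.mul_mem (M.mul_mem (M.mul_mem hxM hyM) (M.inv_mem hxM)) (M.inv_mem hyM)
    · apply hT.induction hM (Q := fun z => ⁅x, y⁆ * z = z * ⁅x, y⁆)
      · intro g z hz
        obtain ⟨b, hb, hbe⟩ := htrans g
        rw [hbe, mem_cj] at hz
        have hxb : b⁻¹ * x * b ∈ M := by simpa using hMn.conj_mem x hxM b⁻¹
        have hyb : b⁻¹ * y * b ∈ M := by simpa using hMn.conj_mem y hyM b⁻¹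
        have hxbP : b⁻¹ * x * b ∈ (P : Subgroup G) := P.1.mul_mem (P.1.mul_mem (P.1.inv_mem hb) hxP) hb
        have hybP : b⁻¹ * y * b ∈ (P : Subgroup G) := P.1.mul_mem (P.1.mul_mem (P.1.inv_mem hb) hyP) hb
        have h2 := key _ hxb hxbP _ hyb hybP
        rw [Subgroup.mem_centralizer_iff] at h2
        have h3 := h2 _ hz
        have e : ⁅b⁻¹ * x * b, b⁻¹ * y * b⁆ = b⁻¹ * ⁅x, y⁆ * b := by
          simp only [commutatorElement_def]; group
        rw [e] at h3
        have h4 : b⁻¹ * (z * ⁅x, y⁆) * b = b⁻¹ * (⁅x, y⁆ * z) * b := by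
          calc b⁻¹ * (z * ⁅x, y⁆) * b = (b⁻¹ * z * b) * (b⁻¹ * ⁅x, y⁆ * b) := by group
            _ = (b⁻¹ * ⁅x, y⁆ * b) * (b⁻¹ * z * b) := h3
            _ = _ := by group
        have h5 := mul_right_cancel h4
        exact (mul_left_cancel h5).symm
      · simp
      · intro c d hc' hd'
        calc ⁅x, y⁆ * (c * d) = (⁅x, y⁆ * c) * d := by group
          _ = c * (⁅x, y⁆ * d) := by rw [hc']; group
          _ = c * d * ⁅x, y⁆ := by rw [hd']; group
      · intro c hc'
        calc ⁅x, y⁆ * c⁻¹ = c⁻¹ * (c * ⁅x, y⁆) * c⁻¹ := by group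
          _ = c⁻¹ * (⁅x, y⁆ * c) * c⁻¹ := by rw [hc']
          _ = c⁻¹ * ⁅x, y⁆ := by group
  exact commutatorElement_eq_one_iff_mul_comm.1 hw1


/-- The case `O_p(G) ≠ 1`. -/
theorem exists_M_caseA (P : Sylow p G) (hc : (⁅(P : Subgroup G), (P : Subgroup G)⁆).relIndex P = p ^ 2)
    (hne : ⁅(P : Subgroup G), (P : Subgroup G)⁆ ≠ ⊥)
    (hcore' : (⁅(P : Subgroup G), (P : Subgroup G)⁆).normalCore = ⊥) (h1 : pCore p G ≠ ⊥) :
    ∃ M : Subgroup G, M.Normal ∧ (∀ x ∈ M, x ∈ (P : Subgroup G) → ∀ y ∈ M, y ∈ (P : Subgroup G) → x * y = y * x) ∧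
      (M.subgroupOf P).index = p := by
  classical
  let O := pCore p G
  have hOp : IsPGroup p O := Cfsg.Agent.Lib.PCore.isPGroup_pCore p
  haveI hOn : O.Normal := Cfsg.Agent.Lib.PCore.pCore_normal p
  let M : Subgroup G := O ⊓ Subgroup.centralizer (O : Set G)
  haveI hMn : M.Normal := Subgroup.normal_inf_normal _ _
  have hMP : M ≤ (P : Subgroup G) := inf_le_left.trans (Cfsg.Agent.Lib.PCore.pCore_le_sylow p P)
  have hMcomm : ∀ x ∈ M, ∀ y ∈ M, x * y = y * x := by
    intro x hx y hy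
    exact (Subgroup.mem_centralizer_iff.1 hy.2 x hx.1)
  have hMne : M ≠ ⊥ := by
    haveI : Nontrivial O := (Subgroup.nontrivial_iff_ne_bot _).2 h1
    have hZ := hOp.center_nontrivial
    obtain ⟨z, hz⟩ := exists_ne (1 : Subgroup.center O)
    intro hb
    have hzM : ((z : O) : G) ∈ M := by
      refine ⟨(z : O).2, Subgroup.mem_centralizer_iff.2 ?_⟩
      intro y hy
      have := Subgroup.mem_center_iff.1 z.2 ⟨y, hy⟩
      exact congrArg Subtype.val this
    rw [hb, Subgroup.mem_bot] at hzM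
    exact hz (Subtype.ext (Subtype.ext hzM))
  have hnot : ¬ M ⊓ (P : Subgroup G) ≤ ⁅(P : Subgroup G), (P : Subgroup G)⁆ := by
    intro h
    rw [inf_eq_left.2 hMP] at h
    have := Subgroup.normal_le_normalCore.2 h
    rw [hcore'] at this
    exact hMne (le_bot_iff.1 this)
  obtain ⟨-, hidx⟩ := lemZ_G P hc M (fun x _ n hn => hMn.conj_mem n hn x) hnot
  refine ⟨M, hMn, fun x hx _ y hy _ => hMcomm x hx y hy, ?_⟩
  rcases (Nat.dvd_prime hp.out).1 hidx with h2 | h2
  · exfalso
    rw [Subgroup.index_eq_one] at h2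
    apply hne
    rw [eq_bot_iff, Subgroup.commutator_le]
    intro x hx y hy
    have hxM : x ∈ M := by
      have : (⟨x, hx⟩ : (P : Subgroup G)) ∈ M.subgroupOf P := h2 ▸ Subgroup.mem_top _
      exact Subgroup.mem_subgroupOf.1 this
    have hyM : y ∈ M := by
      have : (⟨y, hy⟩ : (P : Subgroup G)) ∈ M.subgroupOf P := h2 ▸ Subgroup.mem_top _
      exact Subgroup.mem_subgroupOf.1 this
    rw [commutatorElement_eq_one_iff_mul_comm.2 (hMcomm x hxM y hyM)]
    exact Subgroup.one_mem _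
  · exact h2

/-- The final step: from a normal subgroup `M` meeting `P` in an abelian subgroup of index `p`. -/
theorem final_of_M (P : Sylow p G) (hc : (⁅(P : Subgroup G), (P : Subgroup G)⁆).relIndex P = p ^ 2)
    (M : Subgroup G) [hMn : M.Normal]
    (hKab : ∀ x ∈ M, x ∈ (P : Subgroup G) → ∀ y ∈ M, y ∈ (P : Subgroup G) → x * y = y * x)
    (hidx : (M.subgroupOf P).index = p) :
    ∃ x : G, (∃ k : ℕ, orderOf x = p ^ k) ∧
      (Nat.card (Subgroup.centralizer ({x} : Set G))).factorization p = 2 := by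
  classical
  have hc' : (commutator (P : Subgroup G)).index = p ^ 2 := by rw [← comm_eq]; exact hc
  -- an element of `P` outside `M`
  have hex : ∃ a ∈ (P : Subgroup G), a ∉ M := by
    by_contra hn
    push Not at hn
    have : M.subgroupOf P = ⊤ := by
      rw [eq_top_iff]
      intro x _
      exact Subgroup.mem_subgroupOf.2 (hn x x.2)
    rw [this, Subgroup.index_top] at hidx
    exact hp.out.one_lt.ne hidx
  obtain ⟨a, haP, haM⟩ := hex
  obtain ⟨h, hh1, hh2⟩ := Cfsg.Agent.Lib.TransferEval.exists_fully_centralized P {a}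
    (Set.singleton_subset_iff.2 haP)
  have hbP : h⁻¹ * a * h ∈ (P : Subgroup G) := hh1 a rfl
  set b : G := h⁻¹ * a * h with hb
  have hbM : b ∉ M := by
    intro hbm
    apply haM
    have := hMn.conj_mem b hbm h
    have e : h * b * h⁻¹ = a := by rw [hb]; group
    rwa [e] at this
  have himg : (fun a => h⁻¹ * a * h) '' ({a} : Set G) = {b} := by simp [hb]
  rw [himg] at hh2
  refine ⟨b, ?_, ?_⟩
  · obtain ⟨k, hk⟩ := P.2 ⟨b, hbP⟩
    have h1 : b ^ p ^ k = 1 := congrArg Subtype.val hk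
    obtain ⟨j, -, hj⟩ := (Nat.dvd_prime_pow hp.out).1 (orderOf_dvd_of_pow_eq_one h1)
    exact ⟨j, hj⟩
  -- the centralizer in `P`
  let b₀ : (P : Subgroup G) := ⟨b, hbP⟩
  haveI hK₀ : (M.subgroupOf P).Normal := inferInstance
  have hcard := card_centralizer hc' (M.subgroupOf P) (by
    intro x hx y hy
    rw [Subgroup.mem_subgroupOf] at hx hy
    exact Subtype.ext (hKab x hx x.2 y hy y.2)) hidx b₀
    (fun hm => hbM (Subgroup.mem_subgroupOf.1 hm))
  set C := Subgroup.centralizer ({b} : Set G) with hC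
  -- `P ⊓ C` has order `p ^ 2`
  let W : Subgroup G := (Subgroup.centralizer ({b₀} : Set (P : Subgroup G))).map (P : Subgroup G).subtype
  have hWcard : Nat.card W = p ^ 2 := by
    rw [← hcard]
    exact Nat.card_congr (Subgroup.equivMapOfInjective _ _ (P : Subgroup G).subtype_injective).symm.toEquiv
  have hWP : W ≤ (P : Subgroup G) := Subgroup.map_subtype_le _
  have hWC : W ≤ C := by
    rintro _ ⟨x, hx, rfl⟩
    rw [hC, SetLike.mem_coe, Subgroup.mem_centralizer_singleton_iff] at *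
    exact congrArg Subtype.val hx
  have hPCW : ∀ x ∈ (P : Subgroup G), x ∈ C → x ∈ W := by
    intro x hx hxC
    refine ⟨⟨x, hx⟩, ?_, rfl⟩
    rw [SetLike.mem_coe, Subgroup.mem_centralizer_singleton_iff]
    rw [hC, Subgroup.mem_centralizer_singleton_iff] at hxC
    exact Subtype.ext hxC
  have hlow : p ^ 2 ∣ Nat.card C := by
    rw [← hWcard]; exact Subgroup.card_dvd_of_le hWC
  obtain ⟨S⟩ : Nonempty (Sylow p C) := inferInstance
  have hSc := S.card_eq_multiplicity
  let S' : Subgroup G := (S : Subgroup C).map C.subtype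
  have hS'card : Nat.card S' = Nat.card S :=
    Nat.card_congr (Subgroup.equivMapOfInjective _ _ C.subtype_injective).symm.toEquiv
  have hS'p : IsPGroup p S' := S.2.map _
  have hS'C : S' ≤ C := Subgroup.map_subtype_le _
  obtain ⟨c, hcC, hcS⟩ := hh2 S' hS'p hS'C
  have hup : Nat.card S' ≤ p ^ 2 := by
    rw [← hWcard]
    let F : S' → W := fun t => ⟨c * t * c⁻¹, hPCW _ (hcS t t.2)
      (C.mul_mem (C.mul_mem hcC (hS'C t.2)) (C.inv_mem hcC))⟩
    apply Nat.card_le_card_of_injective F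
    intro t t' ht
    have h1 : c * (t : G) * c⁻¹ = c * (t' : G) * c⁻¹ := congrArg Subtype.val ht
    have h2 : (t : G) = t' := by
      have := mul_right_cancel h1
      exact mul_left_cancel this
    exact Subtype.ext h2
  rw [hS'card, hSc] at hup
  have h2le : Nat.factorization (Nat.card C) p ≤ 2 :=
    (Nat.pow_le_pow_iff_right hp.out.one_lt).1 hup
  have h2ge : 2 ≤ Nat.factorization (Nat.card C) p :=
    (hp.out.pow_dvd_iff_le_factorization Nat.card_pos.ne').1 hlow
  exact le_antisymm h2le h2ge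

/-- The converse direction. -/
theorem backward (P : Sylow p G) (hbig : p ^ 2 ∣ Nat.card G) (x : G) (hx : ∃ k : ℕ, orderOf x = p ^ k)
    (hf : (Nat.card (Subgroup.centralizer ({x} : Set G))).factorization p = 2) :
    (⁅(P : Subgroup G), (P : Subgroup G)⁆).relIndex (P : Subgroup G) = p ^ 2 := by
  classical
  show ((⁅(P : Subgroup G), (P : Subgroup G)⁆).subgroupOf P).index = p ^ 2
  rw [comm_eq]
  obtain ⟨k, hk⟩ := hx
  have hxp : IsPGroup p (Subgroup.zpowers x) := by
    rw [IsPGroup.iff_card, Nat.card_zpowers, hk]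
    exact ⟨k, rfl⟩
  obtain ⟨g, hg⟩ := Cfsg.Agent.Lib.SylowConjLemmas.exists_conj_mem P _ hxp
  have hbP : g * x * g⁻¹ ∈ (P : Subgroup G) := hg x (Subgroup.mem_zpowers x)
  set b : G := g * x * g⁻¹ with hb
  -- same centralizer order
  have hcc : Nat.card (Subgroup.centralizer ({b} : Set G)) = Nat.card (Subgroup.centralizer ({x} : Set G)) := by
    let F : Subgroup.centralizer ({x} : Set G) → Subgroup.centralizer ({b} : Set G) := fun c =>
      ⟨g * c * g⁻¹, by
        rw [Subgroup.mem_centralizer_singleton_iff]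
        have := Subgroup.mem_centralizer_singleton_iff.1 c.2
        rw [hb]
        calc g * (c : G) * g⁻¹ * (g * x * g⁻¹) = g * ((c : G) * x) * g⁻¹ := by group
          _ = g * (x * c) * g⁻¹ := by rw [this]
          _ = _ := by group⟩
    let F' : Subgroup.centralizer ({b} : Set G) → Subgroup.centralizer ({x} : Set G) := fun c =>
      ⟨g⁻¹ * c * g, by
        rw [Subgroup.mem_centralizer_singleton_iff]
        have this : (c : G) * (g * x * g⁻¹) = (g * x * g⁻¹) * c :=
          Subgroup.mem_centralizer_singleton_iff.1 c.2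
        have h2 : g⁻¹ * ((c : G) * (g * x * g⁻¹)) * g = g⁻¹ * ((g * x * g⁻¹) * c) * g := by rw [this]
        calc g⁻¹ * (c : G) * g * x = g⁻¹ * ((c : G) * (g * x * g⁻¹)) * g := by group
          _ = _ := h2
          _ = _ := by group⟩
    refine Nat.card_congr ⟨F', F, ?_, ?_⟩
    · intro c; apply Subtype.ext; show g * (g⁻¹ * c * g) * g⁻¹ = c; group
    · intro c; apply Subtype.ext; show g⁻¹ * (g * c * g⁻¹) * g = c; group
  rw [← hcc] at hf
  let b₀ : (P : Subgroup G) := ⟨b, hbP⟩
  let C₀ := Subgroup.centralizer ({b₀} : Set (P : Subgroup G))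
  -- `|C₀|` divides `p ^ 2`
  have hC₀map : Nat.card C₀ ∣ Nat.card (Subgroup.centralizer ({b} : Set G)) := by
    have hle : C₀.map (P : Subgroup G).subtype ≤ Subgroup.centralizer ({b} : Set G) := by
      rintro _ ⟨y, hy, rfl⟩
      rw [SetLike.mem_coe, Subgroup.mem_centralizer_singleton_iff] at hy
      rw [Subgroup.mem_centralizer_singleton_iff]
      exact congrArg Subtype.val hy
    have := Subgroup.card_dvd_of_le hle
    rwa [Nat.card_congr (Subgroup.equivMapOfInjective _ _ (P : Subgroup G).subtype_injective).symm.toEquiv] at this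
  have hC₀p : IsPGroup p C₀ := P.2.to_subgroup C₀
  obtain ⟨j, hj⟩ := IsPGroup.iff_card.1 hC₀p
  have hC₀le : j ≤ 2 := by
    have h1 : p ^ j ∣ Nat.card (Subgroup.centralizer ({b} : Set G)) := hj ▸ hC₀map
    have := (hp.out.pow_dvd_iff_le_factorization Nat.card_pos.ne').1 h1
    omega
  have hPcard := P.card_eq_multiplicity
  have hPbig : p ^ 2 ∣ Nat.card (P : Subgroup G) := by
    rw [hPcard]
    exact pow_dvd_pow p ((hp.out.pow_dvd_iff_le_factorization Nat.card_pos.ne').1 hbig)
  by_cases hcen : C₀ = ⊤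
  · -- `P` has order `p ^ 2`
    have h1 : Nat.card (P : Subgroup G) = p ^ j := by
      rw [← hj, hcen]
      exact (Nat.card_congr (Subgroup.topEquiv).toEquiv).symm
    have h2 : Nat.card (P : Subgroup G) = p ^ 2 := by
      apply Nat.dvd_antisymm
      · rw [h1]; exact pow_dvd_pow p hC₀le
      · exact hPbig
    have h3 := IsPGroup.commutative_of_card_eq_prime_sq h2
    have h4 : commutator (P : Subgroup G) = ⊥ := by
      rw [eq_bot_iff, commutator_def, Subgroup.commutator_le]
      intro u _ v _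
      rw [commutatorElement_eq_one_iff_mul_comm.2 (h3 u v)]
      exact Subgroup.one_mem _
    rw [h4, Subgroup.index_bot, h2]
  · -- `b₀` is not central
    haveI : Nontrivial (P : Subgroup G) := by
      by_contra hnt
      rw [not_nontrivial_iff_subsingleton] at hnt
      exact hcen (Subsingleton.elim _ _)
    have hZnt := P.2.center_nontrivial
    have hZp : IsPGroup p (Subgroup.center (P : Subgroup G)) := P.2.to_subgroup _
    obtain ⟨m, hm⟩ := IsPGroup.iff_card.1 hZp
    have hm0 : m ≠ 0 := by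
      rintro rfl
      rw [pow_zero] at hm
      exact (Finite.one_lt_card (α := Subgroup.center (P : Subgroup G))).ne' hm
    have hZle : Subgroup.center (P : Subgroup G) ≤ C₀ := by
      intro z hz
      rw [Subgroup.mem_centralizer_singleton_iff]
      exact (Subgroup.mem_center_iff.1 hz b₀).symm
    have hb₀C : b₀ ∈ C₀ := by
      rw [Subgroup.mem_centralizer_singleton_iff]
    have hb₀Z : b₀ ∉ Subgroup.center (P : Subgroup G) := by
      intro hz
      apply hcen
      rw [eq_top_iff]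
      intro y _
      rw [Subgroup.mem_centralizer_singleton_iff]
      exact (Subgroup.mem_center_iff.1 hz y)
    have hlt : Nat.card (Subgroup.center (P : Subgroup G)) < Nat.card C₀ := by
      refine lt_of_le_of_ne (Subgroup.card_le_of_le hZle) (fun e => hb₀Z ?_)
      rw [Subgroup.eq_of_le_of_card_ge hZle e.ge]
      exact hb₀C
    rw [hm, hj] at hlt
    have hmj : m < j := (Nat.pow_lt_pow_iff_right hp.out.one_lt).1 hlt
    have hj2 : j = 2 := by omega
    have hC₀card : Nat.card C₀ = p ^ 2 := by rw [hj, hj2]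
    have h1 := index_centralizer_le b₀
    have h2 := Subgroup.card_mul_index C₀
    have h3 := Subgroup.card_mul_index (commutator (P : Subgroup G))
    obtain ⟨n, hn⟩ := IsPGroup.iff_card.1 P.2
    have h4 : (commutator (P : Subgroup G)).index ∣ p ^ n := by
      rw [← hn]; exact Subgroup.index_dvd_card _
    obtain ⟨i, -, hi⟩ := (Nat.dvd_prime_pow hp.out).1 h4
    have hcpos : 0 < Nat.card (commutator (P : Subgroup G)) := Nat.card_pos
    have h5 : (commutator (P : Subgroup G)).index ≤ p ^ 2 := by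
      have h6 : Nat.card (commutator (P : Subgroup G)) * (commutator (P : Subgroup G)).index ≤
          Nat.card (commutator (P : Subgroup G)) * p ^ 2 := by
        rw [h3, ← h2, hC₀card, mul_comm (Nat.card (commutator (P : Subgroup G)))]
        exact Nat.mul_le_mul_left _ h1
      exact Nat.le_of_mul_le_mul_left h6 hcpos
    rw [hi] at h5
    have hi2 : i ≤ 2 := (Nat.pow_le_pow_iff_right hp.out.one_lt).1 h5
    have hi1 : i ≠ 0 ∧ i ≠ 1 := by
      have key : ¬ (commutator (P : Subgroup G)).index ∣ p := by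
        intro hd
        have hbot := comm_of_index_dvd P.2 hd
        apply hcen
        rw [eq_top_iff]
        intro y _
        rw [Subgroup.mem_centralizer_singleton_iff]
        have h7 : ⁅y, b₀⁆ ∈ commutator (P : Subgroup G) :=
          Subgroup.commutator_mem_commutator (Subgroup.mem_top _) (Subgroup.mem_top _)
        rw [hbot, Subgroup.mem_bot] at h7
        exact commutatorElement_eq_one_iff_mul_comm.1 h7
      constructor
      · rintro rfl
        apply key
        rw [hi]; simp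
      · rintro rfl
        apply key
        rw [hi]; simp
    have hi3 : i = 2 := by omega
    rw [hi, hi3]


theorem result {G : Type*} [Group G] [Finite G] (p : ℕ) [Fact p.Prime] (P : Sylow p G) (hbig : p ^ 2 ∣ Nat.card G) (hcore : Cfsg.pPrimeCore p G = ⊥)
    (hcore' : (⁅(P : Subgroup G), (P : Subgroup G)⁆).normalCore = ⊥) (hnas : ¬ ∃ S : Subgroup G, S.Normal ∧ IsSimpleGroup S ∧ ¬ IsMulCommutative S ∧ Subgroup.centralizer (S : Set G) = ⊥) :
    (⁅(P : Subgroup G), (P : Subgroup G)⁆).relIndex (P : Subgroup G) = p ^ 2 ↔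
      ∃ x : G, (∃ k : ℕ, orderOf x = p ^ k) ∧ (Nat.card (Subgroup.centralizer ({x} : Set G))).factorization p = 2 := by
  constructor
  · intro hc
    by_cases hne : ⁅(P : Subgroup G), (P : Subgroup G)⁆ = ⊥
    · refine ⟨1, ⟨0, by simp⟩, ?_⟩
      have h1 : Nat.card (P : Subgroup G) = p ^ 2 := by
        rw [hne] at hc
        have e : ((⊥ : Subgroup G).subgroupOf (P : Subgroup G)) = ⊥ := Subgroup.bot_subgroupOf _
        have h2 : ((⊥ : Subgroup G).subgroupOf (P : Subgroup G)).index = p ^ 2 := hc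
        rw [e, Subgroup.index_bot] at h2
        exact h2
      have h3 := P.card_eq_multiplicity
      rw [h1] at h3
      have h4 : Subgroup.centralizer ({1} : Set G) = ⊤ := by
        rw [eq_top_iff]
        intro y _
        rw [Subgroup.mem_centralizer_singleton_iff]
        simp
      rw [h4, Subgroup.card_top]
      exact (Nat.pow_right_injective (Nat.Prime.two_le Fact.out) h3).symm
    · by_cases h1 : pCore p G = ⊥
      · obtain ⟨M, hM, hab, hidx⟩ := exists_M_caseB P hc hne hcore h1 hnas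
        haveI := hM
        exact final_of_M P hc M hab hidx
      · obtain ⟨M, hM, hab, hidx⟩ := exists_M_caseA P hc hne hcore' h1
        haveI := hM
        exact final_of_M P hc M hab hidx
  · rintro ⟨x, hx, hf⟩
    exact backward P hbig x hx hf

end Cfsg.Agent.S4587
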