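import Mathlib
import Cfsg.Statements.S4588
import Cfsg.Agent.Lib.K0Form
import Cfsg.Agent.Lib.RegLattice
import Cfsg.Agent.Lib.GramP1

set_option autoImplicit false
open Cfsg

namespace Cfsg.Agent.S4588

open Cfsg.Agent.Lib.CharBasic Cfsg.Agent.Lib.BlockLocal Cfsg.Agent.Lib.BlockIdem
open Cfsg.Agent.Lib.BlockQ Cfsg.Agent.Lib.BlockOrtho Cfsg.Agent.Lib.BlockMajor
open Cfsg.Agent.Lib.K0Form Cfsg.Agent.Lib.RegLattice Cfsg.Agent.Lib.GramP1
open Cfsg.Agent.Lib.BlkQuot (infl)
open scoped ComplexConjugate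

universe u

section Form

variable {X : Type u} [Group X] [Fintype X] {p : ℕ} [hpF : Fact p.Prime] {M : Ideal AlgInt}
variable (U : Subgroup X) [hUn : U.Normal] [Fintype (X ⧸ U)]

/-- Coordinates in the lattice. -/
theorem exists_coord (hM : IsPModular p M) (hUZ : U ≤ Subgroup.center X) (hUp : IsPGroup p U)
    {F : Finset (IrrCharacter (X ⧸ U))}
    (hlat : ∀ ψ ∈ bF (principalBlock M (X ⧸ U)), ∃ c : IrrCharacter (X ⧸ U) → ℤ,
      ∀ g : X ⧸ U, ¬ p ∣ orderOf g → (ψ : X ⧸ U → ℂ) g = ∑ χ ∈ F, (c χ : ℂ) * (χ : X ⧸ U → ℂ) g)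
    {ξ : IrrCharacter X} (hξ : ξ ∈ principalBlock M X) :
    ∃ x : IrrCharacter (X ⧸ U) → ℤ, ∀ s : X, ¬ p ∣ orderOf s →
      (ξ : X → ℂ) s = ∑ χ ∈ F, (x χ : ℂ) * (infl U χ : X → ℂ) s := by
  classical
  obtain ⟨a, ha⟩ := exists_lattice_block U hM hUZ hUp hξ
  choose! c hc using hlat
  refine ⟨fun χ => ∑ ψ ∈ bF (principalBlock M (X ⧸ U)), a ψ * c ψ χ, fun s hs => ?_⟩
  rw [ha s hs]
  have hs' : ¬ p ∣ orderOf (s : X ⧸ U) := Cfsg.Agent.Lib.BlockCentral.not_dvd_orderOf_mk U hs
  rw [Finset.sum_congr rfl (fun ψ hψ => by rw [hc ψ hψ _ hs'])]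
  simp_rw [Finset.mul_sum]
  rw [Finset.sum_comm]
  refine Finset.sum_congr rfl fun χ _ => ?_
  push_cast
  rw [Finset.sum_mul]
  refine Finset.sum_congr rfl fun ψ _ => ?_
  simp only [Cfsg.Agent.Lib.BlkQuot.infl_apply]
  ring

/-- The value of the form. -/
theorem Q_eq_form (hM : IsPModular p M) (hUZ : U ≤ Subgroup.center X) (hUp : IsPGroup p U)
    {F : Finset (IrrCharacter (X ⧸ U))} {ε : IrrCharacter (X ⧸ U) → ℤ} {m τ : ℕ}
    (hgram : ∀ χ ∈ F, ∀ χ' ∈ F, (τ : ℂ) * classInner (pRegularPart p (χ : X ⧸ U → ℂ)) (χ' : X ⧸ U → ℂ) =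
      (if χ = χ' then (τ : ℂ) else 0) - (m : ℂ) * (ε χ : ℂ) * (ε χ' : ℂ))
    (hτ : p ^ blockDefect p (principalBlock M X) = τ * Nat.card U)
    {ξ ξ' : IrrCharacter X} (hξ' : ξ' ∈ principalBlock M X) {x x' : IrrCharacter (X ⧸ U) → ℤ}
    (hx : ∀ s : X, ¬ p ∣ orderOf s → (ξ : X → ℂ) s = ∑ χ ∈ F, (x χ : ℂ) * (infl U χ : X → ℂ) s)
    (hx' : ∀ s : X, ¬ p ∣ orderOf s → (ξ' : X → ℂ) s = ∑ χ ∈ F, (x' χ : ℂ) * (infl U χ : X → ℂ) s) :
    Q p (principalBlock M X) ξ ξ' = (τ : ℤ) * ∑ χ ∈ F, x χ * x' χ -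
      (m : ℤ) * ((∑ χ ∈ F, ε χ * x χ) * (∑ χ ∈ F, ε χ * x' χ)) := by
  classical
  have hB := Cfsg.Agent.Lib.BlockNormal.isPBlock_principalBlock (G := X) M
  have h1 := Q_spec hM hB ξ hξ'
  have h2 : (p : ℂ) ^ blockDefect p (principalBlock M X) = (τ : ℂ) * (Nat.card U : ℂ) := by
    exact_mod_cast hτ
  have h3 : ∀ χ ∈ F, ∀ χ' ∈ F, (p : ℂ) ^ blockDefect p (principalBlock M X) *
      classInner (pRegularPart p (infl U χ : X → ℂ)) (infl U χ' : X → ℂ) =
      (if χ = χ' then (τ : ℂ) else 0) - (m : ℂ) * (ε χ : ℂ) * (ε χ' : ℂ) := by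
    intro χ hχ χ' hχ'
    rw [← hgram χ hχ χ' hχ', ← classInner_reg_infl U hUZ hUp χ χ', h2]
    ring
  have h4 : classInner (pRegularPart p (ξ : X → ℂ)) (ξ' : X → ℂ) =
      ∑ χ ∈ F, ∑ χ' ∈ F, (x χ : ℂ) * (x' χ' : ℂ) *
        classInner (pRegularPart p (infl U χ : X → ℂ)) (infl U χ' : X → ℂ) := by
    rw [classInner_pReg_eq_sum]
    simp_rw [classInner_pReg_eq_sum]
    simp_rw [Finset.mul_sum]
    have h5 : ∀ s ∈ Finset.univ.filter (fun s : X => ¬ p ∣ orderOf s),
        (Nat.card X : ℂ)⁻¹ * ((ξ : X → ℂ) s * conj ((ξ' : X → ℂ) s)) =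
        ∑ χ ∈ F, ∑ χ' ∈ F, (x χ : ℂ) * (x' χ' : ℂ) * ((Nat.card X : ℂ)⁻¹ *
          ((infl U χ : X → ℂ) s * conj ((infl U χ' : X → ℂ) s))) := by
      intro s hs
      have hs' := (Finset.mem_filter.mp hs).2
      rw [hx s hs', hx' s hs', map_sum, Finset.sum_mul_sum, Finset.mul_sum]
      refine Finset.sum_congr rfl fun χ _ => ?_
      rw [Finset.mul_sum]
      refine Finset.sum_congr rfl fun χ' _ => ?_
      rw [map_mul, map_intCast]
      ring
    rw [Finset.sum_congr rfl h5, Finset.sum_comm]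
    refine Finset.sum_congr rfl fun χ _ => ?_
    rw [Finset.sum_comm]
  apply Int.cast_injective (α := ℂ)
  rw [← h1, h4, Finset.mul_sum]
  have h6 : ∀ χ ∈ F, (p : ℂ) ^ blockDefect p (principalBlock M X) *
      ∑ χ' ∈ F, (x χ : ℂ) * (x' χ' : ℂ) *
        classInner (pRegularPart p (infl U χ : X → ℂ)) (infl U χ' : X → ℂ) =
      ∑ χ' ∈ F, (x χ : ℂ) * (x' χ' : ℂ) *
        ((if χ = χ' then (τ : ℂ) else 0) - (m : ℂ) * (ε χ : ℂ) * (ε χ' : ℂ)) := by
    intro χ hχ
    rw [Finset.mul_sum]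
    refine Finset.sum_congr rfl fun χ' hχ' => ?_
    rw [← h3 χ hχ χ' hχ']
    ring
  rw [Finset.sum_congr rfl h6]
  push_cast
  have h7 : ∀ χ ∈ F, ∑ χ' ∈ F, (x χ : ℂ) * (x' χ' : ℂ) *
        ((if χ = χ' then (τ : ℂ) else 0) - (m : ℂ) * (ε χ : ℂ) * (ε χ' : ℂ)) =
      (τ : ℂ) * ((x χ : ℂ) * (x' χ : ℂ)) - (m : ℂ) * (((ε χ : ℂ) * (x χ : ℂ)) *
        ∑ χ' ∈ F, (ε χ' : ℂ) * (x' χ' : ℂ)) := by
    intro χ hχ
    simp_rw [mul_sub]
    rw [Finset.sum_sub_distrib]
    congr 1
    · rw [Finset.sum_eq_single χ]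
      · simp only [if_true]
        ring
      · intro b _ hb
        rw [if_neg (Ne.symm hb), mul_zero]
      · intro h
        exact absurd hχ h
    · rw [Finset.mul_sum, Finset.mul_sum]
      refine Finset.sum_congr rfl fun χ' _ => ?_
      ring
  rw [Finset.sum_congr rfl h7, Finset.sum_sub_distrib, ← Finset.mul_sum, ← Finset.mul_sum,
    ← Finset.sum_mul]

end Form

section Main

variable {G : Type u} [Group G] [Fintype G] {p : ℕ} [hpF : Fact p.Prime] {M : Ideal AlgInt}

/-- The defect of the principal block. -/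
theorem blockDefect_principal (hM : IsPModular p M) {X : Type u} [Group X] [Fintype X] :
    blockDefect p (principalBlock M X) = (Nat.card X).factorization p := by
  have hMp := hM.2.1.isPrime
  have h1 := card_factorization_eq (p := p) (Cfsg.Agent.Lib.BlockNormal.isPBlock_principalBlock (G := X) M)
  have h2 := minExp_le (p := p) (Cfsg.Agent.Lib.BlockNormal.irrOne_mem_principalBlock (G := X) M)
  have h3 : charDegree (Cfsg.Agent.Lib.BlockNormal.irrOne X : X → ℂ) = 1 := by
    simp [charDegree, Cfsg.Agent.Lib.BlockNormal.irrOne]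
  rw [h3] at h2
  simp at h2
  omega

/-- The main case. -/
theorem main_of_ne_one (hM : IsPModular p M) {y : G} (hy : ∃ k : ℕ, orderOf y = p ^ k) (hy1 : y ≠ 1)
    {H : Subgroup G} [Fintype H] (hH : H = Subgroup.centralizer ({y} : Set G))
    (hd : (Nat.card H).factorization p ≤ 2) :
    ((bF (principalBlock M G)).filter (fun χ => th hH (principalBlock M H) χ 1 ≠ 0)).card ≤ p ^ 2 := by
  classical
  have hp := hpF.out
  have hMp := hM.2.1.isPrime
  set z : H := yH hH with hz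
  have hzc : ∀ c : H, z * c = c * z := yH_central hH
  set U : Subgroup H := Subgroup.zpowers z with hU
  have hUZ : U ≤ Subgroup.center H := by
    rw [hU, Subgroup.zpowers_le, Subgroup.mem_center_iff]
    exact fun c => (hzc c).symm
  haveI hUn : U.Normal := Cfsg.Agent.Lib.BlockCentral.normal_of_le_center U hUZ
  obtain ⟨k, hk⟩ := hy
  have hzo : orderOf z = p ^ k := by
    rw [← hk, hz]
    exact Subgroup.orderOf_mk y _
  have hUcard : Nat.card U = p ^ k := by rw [hU, Nat.card_zpowers, hzo]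
  have hUp : IsPGroup p U := IsPGroup.of_card hUcard
  have hk1 : 1 ≤ k := by
    rcases Nat.eq_zero_or_pos k with h | h
    · exfalso
      apply hy1
      rw [h, pow_zero] at hk
      exact orderOf_eq_one_iff.mp hk
    · exact h
  letI : Fintype (H ⧸ U) := Fintype.ofFinite _
  set f := (Nat.card (H ⧸ U)).factorization p with hf
  have hcard : Nat.card H = Nat.card (H ⧸ U) * Nat.card U :=
    Subgroup.card_eq_card_quotient_mul_card_subgroup U
  have hfact : (Nat.card H).factorization p = f + k := by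
    rw [hcard, Nat.factorization_mul Nat.card_pos.ne' Nat.card_pos.ne', hUcard]
    simp [hf, hp.factorization_self, Nat.factorization_pow]
  have hf1 : f ≤ 1 := by omega
  have hgram : GramData p M (H ⧸ U) (p ^ f) := by
    interval_cases h : f
    · rw [pow_zero]
      apply gramData_one hM
      intro hdvd
      have h0 : (Nat.card (H ⧸ U)).factorization p ≠ 0 := by
        intro h1
        have := (Nat.factorization_eq_zero_iff _ _).mp h1
        rcases this with h2 | h2 | h2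
        · exact h2 hp
        · exact h2 hdvd
        · exact Nat.card_pos.ne' h2
      exact h0 hf.symm
    · rw [pow_one]
      obtain ⟨P⟩ : Nonempty (Sylow p (H ⧸ U)) := inferInstance
      apply gramData_p hM P
      rw [Sylow.card_eq_multiplicity, ← hf, pow_one]
  obtain ⟨F, ε, m, hFsub, hF0, hε, hτ, hm', hlat, hgr⟩ := hgram
  set τ := p ^ f with hτdef
  set b := principalBlock M H with hb
  have hbB : IsPBlock M b := Cfsg.Agent.Lib.BlockNormal.isPBlock_principalBlock M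
  have hcoord : ∀ ξ ∈ b, ∃ x : IrrCharacter (H ⧸ U) → ℤ, ∀ s : H, ¬ p ∣ orderOf s →
      (ξ : H → ℂ) s = ∑ χ ∈ F, (x χ : ℂ) * (infl U χ : H → ℂ) s :=
    fun ξ hξ => exists_coord U hM hUZ hUp hlat hξ
  choose! x hx using hcoord
  have hdef : p ^ blockDefect p b = τ * Nat.card U := by
    rw [hb, blockDefect_principal hM, hfact, hUcard, hτdef, pow_add]
  have hQ : ∀ ξ ∈ bF b, ∀ ξ' ∈ bF b, Q p b ξ ξ' =
      ((1 + Fintype.card F * m : ℕ) : ℤ) * ∑ j : F, x ξ j.1 * x ξ' j.1 -
        (m : ℤ) * ((∑ j : F, ε j.1 * x ξ j.1) * (∑ j : F, ε j.1 * x ξ' j.1)) := by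
    intro ξ hξ ξ' hξ'
    rw [Fintype.card_coe, ← hτ, Finset.sum_coe_sort F (fun χ => x ξ χ * x ξ' χ),
      Finset.sum_coe_sort F (fun χ => ε χ * x ξ χ), Finset.sum_coe_sort F (fun χ => ε χ * x ξ' χ)]
    exact Q_eq_form U hM hUZ hUp hgr hdef (mem_bF.mp hξ') (hx ξ (mem_bF.mp hξ)) (hx ξ' (mem_bF.mp hξ'))
  have hrank : blockRank p b ≤ Fintype.card F := by
    have h1 : Submodule.span ℂ ((fun χ : IrrCharacter H => pRegularPart p (χ : H → ℂ)) '' b) ≤
        Submodule.span ℂ (Set.range (fun j : F => pRegularPart p (infl U j.1 : H → ℂ))) := by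
      rw [Submodule.span_le]
      rintro _ ⟨ξ, hξ, rfl⟩
      have h2 : pRegularPart p (ξ : H → ℂ) = ∑ j : F, (x ξ j.1 : ℂ) • pRegularPart p (infl U j.1 : H → ℂ) := by
        funext s
        rw [Finset.sum_apply]
        simp only [Pi.smul_apply, smul_eq_mul]
        by_cases hs : p ∣ orderOf s
        · simp [pRegularPart_of_sing _ hs]
        · simp only [pRegularPart_of_reg _ hs]
          rw [hx ξ hξ s hs, Finset.sum_coe_sort F (fun χ => (x ξ χ : ℂ) * (infl U χ : H → ℂ) s)]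
      show pRegularPart p (ξ : H → ℂ) ∈ _
      rw [h2]
      exact Submodule.sum_mem _ fun j _ => Submodule.smul_mem _ _
        (Submodule.subset_span ⟨j, rfl⟩)
    refine (Submodule.finrank_mono h1).trans ?_
    exact finrank_range_le_card _
  have hmain := card_filter_le hM ⟨k, hk⟩ hH
    (Cfsg.Agent.Lib.BlockSection.isInducedBlock_principal hM ⟨k, hk⟩ hH)
    (J := F) (by rw [Fintype.card_coe]; exact hF0) (fun j => ε j.1) (fun j => hε j.1 j.2) m
    (by rw [Fintype.card_coe]; exact hm') (fun j ξ => x ξ j.1) hQ hrank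
  refine hmain.trans ?_
  rw [blockDefect_principal hM]
  exact Nat.pow_le_pow_right hp.pos hd

end Main

/-- Let G be a finite group, p a prime and M a maximal ideal of the algebraic integers containing p. If some p-element x of G (possibly x = 1) has centralizer whose order has p-part at most p², then the principal p-block of G contains at most p² irreducible characters of degree prime to p. -/
theorem result {G : Type*} [Group G] [Finite G] (p : ℕ) [Fact p.Prime] (M : Ideal Cfsg.AlgInt) (hM : Cfsg.IsPModular p M)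
    (hx : ∃ x : G, (∃ k : ℕ, orderOf x = p ^ k) ∧ (Nat.card (Subgroup.centralizer ({x} : Set G))).factorization p ≤ 2) :
    Nat.card {χ : Cfsg.IrrCharacter G // χ ∈ Cfsg.principalBlock M G ∧ ¬ p ∣ Cfsg.charDegree (χ : G → ℂ)} ≤ p ^ 2 := by
  classical
  letI : Fintype G := Fintype.ofFinite G
  have hp : p.Prime := Fact.out
  have hMp := hM.2.1.isPrime
  have hcount : ∀ {y : G}, (∃ k : ℕ, orderOf y = p ^ k) → y ≠ 1 →
      (Nat.card (Subgroup.centralizer ({y} : Set G))).factorization p ≤ 2 →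
      Nat.card {χ : Cfsg.IrrCharacter G // χ ∈ Cfsg.principalBlock M G ∧
        ¬ p ∣ Cfsg.charDegree (χ : G → ℂ)} ≤ p ^ 2 := by
    intro y hy hy1 hd
    letI : Fintype (Subgroup.centralizer ({y} : Set G)) := Fintype.ofFinite _
    have h1 := main_of_ne_one hM hy hy1 (H := Subgroup.centralizer ({y} : Set G)) rfl hd
    refine le_trans ?_ h1
    rw [Nat.card_eq_fintype_card, Fintype.card_subtype]
    apply Finset.card_le_card
    intro χ hχ
    have h2 := (Finset.mem_filter.mp hχ).2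
    exact Finset.mem_filter.mpr ⟨mem_bF.mpr h2.1, th_one_ne_zero hM hy rfl h2.1 h2.2⟩
  obtain ⟨x, hx1, hx2⟩ := hx
  by_cases hx3 : x = 1
  · by_cases hpG : p ∣ Nat.card G
    · obtain ⟨u, hu⟩ := exists_prime_orderOf_dvd_card' p hpG
      refine hcount ⟨1, by rw [hu, pow_one]⟩ (fun h => ?_) ?_
      · rw [h, orderOf_one] at hu
        exact hp.one_lt.ne hu
      · have h1 : (Nat.card G).factorization p ≤ 2 := by
          subst hx3
          have h2 : Subgroup.centralizer ({(1 : G)} : Set G) = ⊤ := by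
            ext g
            simp [Subgroup.mem_centralizer_singleton_iff]
          rw [h2] at hx2
          rwa [Nat.card_congr Subgroup.topEquiv.toEquiv] at hx2
        refine le_trans ?_ h1
        apply (Nat.factorization_le_iff_dvd Nat.card_pos.ne' Nat.card_pos.ne').mpr
        exact Subgroup.card_subgroup_dvd_card _ |>.trans (by rfl)
    · -- a `p'`-group
      have h1 : ∀ χ : Cfsg.IrrCharacter G, χ ∈ Cfsg.principalBlock M G →
          χ = Cfsg.Agent.Lib.BlockNormal.irrOne G := by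
        intro χ hχ
        by_contra hne
        have hN : ¬ p ∣ Nat.card (⊤ : Subgroup G) := by
          rwa [Nat.card_congr Subgroup.topEquiv.toEquiv]
        have h2 := Cfsg.Agent.Lib.BlockNormal.eq_of_mem_principalBlock hM (⊤ : Subgroup G) hN χ hχ
        have h3 := classInner_irr_ne χ.2 (Cfsg.Agent.Lib.BlockNormal.irrOne G).2
          (fun h => hne (Subtype.ext h))
        unfold classInner at h3
        have h4 : ∑ g : G, (χ : G → ℂ) g * conj ((Cfsg.Agent.Lib.BlockNormal.irrOne G : G → ℂ) g) =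
            (Nat.card G : ℂ) * (χ : G → ℂ) 1 := by
          have h7 : ∑ g : G, (χ : G → ℂ) g * conj ((Cfsg.Agent.Lib.BlockNormal.irrOne G : G → ℂ) g) =
              ∑ g : G, (χ : G → ℂ) 1 := Finset.sum_congr rfl (fun g _ => by
            rw [h2 g (Subgroup.mem_top g)]
            simp [Cfsg.Agent.Lib.BlockNormal.irrOne])
          rw [h7]
          simp [Nat.card_eq_fintype_card]
        rw [h4] at h3
        have h5 := irr_one_ne_zero' χ.2
        have h6 : (Nat.card G : ℂ) ≠ 0 := natCard_ne_zero'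
        exact (mul_ne_zero (inv_ne_zero h6) (mul_ne_zero h6 h5)) h3
      have h2 : Nat.card {χ : Cfsg.IrrCharacter G // χ ∈ Cfsg.principalBlock M G ∧
          ¬ p ∣ Cfsg.charDegree (χ : G → ℂ)} ≤ 1 := by
        rw [Nat.card_eq_fintype_card, Fintype.card_le_one_iff]
        intro a b
        apply Subtype.ext
        rw [h1 a.1 a.2.1, h1 b.1 b.2.1]
      exact h2.trans (Nat.one_le_pow _ _ hp.pos)
  · exact hcount hx1 hx3 hx2

end Cfsg.Agent.S4588
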