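import Mathlib
import Cfsg.Statements.S4601
import Cfsg.Agent.Lib.PSolv
import Cfsg.Agent.Lib.PCore
import Cfsg.Agent.Lib.Glauberman2
import Cfsg.Agent.Lib.SylowNum
import Cfsg.Agent.Lib.SuperSolv2

set_option autoImplicit false
open Cfsg

namespace Cfsg.Agent.S4601

set_option linter.unusedSectionVars false
set_option linter.style.haveILetI false

open Cfsg.Agent.Lib

section

variable {G : Type*} [Group G] [Finite G] {p q : ℕ} [Fact p.Prime] [Fact q.Prime]

theorem mem_normalizer_of_centralizes {X : Subgroup G} {y : G} (h : ∀ r ∈ X, y * r = r * y) :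
    y ∈ Subgroup.normalizer (X : Set G) := by
  rw [Subgroup.mem_normalizer_iff]
  intro r
  constructor
  · intro hr
    have e : y * r * y⁻¹ = r := by rw [h r hr]; group
    rwa [e]
  · intro hr
    have h1 := h _ hr
    have e : y * r * y⁻¹ = r := by
      have h2 : y * (y * r * y⁻¹) = y * r := by rw [h1]; group
      exact mul_left_cancel h2
    rwa [e] at hr

theorem frattini_step (M : Subgroup G) (Q₀ : Sylow q G) (hQ : (Q₀ : Subgroup G) ≤ M) (a : G)
    (ha : a ∈ Subgroup.normalizer (M : Set G)) :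
    ∃ m ∈ M, m * a ∈ Subgroup.normalizer ((Q₀ : Subgroup G) : Set G) := by
  have hnorm : ∀ w, w ∈ M ↔ a * w * a⁻¹ ∈ M := Subgroup.mem_normalizer_iff.1 ha
  let Q₂ : Sylow q G := a • Q₀
  have hQ₂mem : ∀ w, w ∈ Q₂ ↔ a⁻¹ * w * a ∈ Q₀ := fun w => SylowNum.mem_smul_sylow Q₀ a w
  have hQ₂ : (Q₂ : Subgroup G) ≤ M := by
    intro w hw
    have h1 : a⁻¹ * w * a ∈ M := hQ ((hQ₂mem w).1 hw)
    have h2 := (hnorm _).1 h1
    have e : a * (a⁻¹ * w * a) * a⁻¹ = w := by group
    rwa [e] at h2
  let Q₁' : Sylow q M := Q₀.subtype hQ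
  let Q₂' : Sylow q M := Q₂.subtype hQ₂
  obtain ⟨m, hm⟩ := MulAction.exists_smul_eq M Q₂' Q₁'
  have hmem1 : ∀ w : M, w ∈ Q₁' ↔ (w : G) ∈ Q₀ := by
    intro w
    change w ∈ ((Q₀.subtype hQ : Sylow q M) : Subgroup M) ↔ _
    rw [Sylow.coe_subtype, Subgroup.mem_subgroupOf]
    rfl
  have hmem2 : ∀ w : M, w ∈ Q₂' ↔ (w : G) ∈ Q₂ := by
    intro w
    change w ∈ ((Q₂.subtype hQ₂ : Sylow q M) : Subgroup M) ↔ _
    rw [Sylow.coe_subtype, Subgroup.mem_subgroupOf]
    rfl
  have key : ∀ y : G, y ∈ M → (y ∈ Q₀ ↔ (m.1 * a)⁻¹ * y * (m.1 * a) ∈ Q₀) := by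
    intro y hy
    have h1 : y ∈ Q₀ ↔ (⟨y, hy⟩ : M) ∈ Q₁' := (hmem1 ⟨y, hy⟩).symm
    rw [h1, ← hm, SylowNum.mem_smul_sylow, hmem2, hQ₂mem]
    simp only [Subgroup.coe_mul, InvMemClass.coe_inv]
    have e : a⁻¹ * (m.1⁻¹ * y * m.1) * a = (m.1 * a)⁻¹ * y * (m.1 * a) := by group
    rw [e]
  refine ⟨m.1, m.2, ?_⟩
  rw [Subgroup.mem_normalizer_iff]
  intro h
  have e : (m.1 * a)⁻¹ * (m.1 * a * h * (m.1 * a)⁻¹) * (m.1 * a) = h := by group
  constructor
  · intro hh
    have hyM : m.1 * a * h * (m.1 * a)⁻¹ ∈ M := by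
      have h1 : a * h * a⁻¹ ∈ M := (hnorm h).1 (hQ hh)
      have h2 := M.mul_mem (M.mul_mem m.2 h1) (M.inv_mem m.2)
      convert h2 using 1
      group
    change _ ∈ Q₀
    rw [key _ hyM, e]
    exact hh
  · intro hh
    have hyM : m.1 * a * h * (m.1 * a)⁻¹ ∈ M := hQ hh
    have hh' : m.1 * a * h * (m.1 * a)⁻¹ ∈ Q₀ := hh
    rw [key _ hyM, e] at hh'
    exact hh'

theorem core (N : Subgroup G) [N.Normal] (P₀ : Sylow p G) (Q₀ : Sylow q G)
    (hP : (P₀ : Subgroup G) ≤ Subgroup.normalizer (((Q₀ : Subgroup G) ⊔ N : Subgroup G) : Set G))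
    (hnd : ¬ p ∣ (Subgroup.normalizer ((Q₀ : Subgroup G) : Set G)).relIndex N) :
    ∃ P : Sylow p G, (P : Subgroup G) ≤ Subgroup.normalizer ((Q₀ : Subgroup G) : Set G) := by
  set T := Subgroup.normalizer ((Q₀ : Subgroup G) : Set G) with hT
  have hQT : (Q₀ : Subgroup G) ≤ T := Subgroup.le_normalizer
  have hP₀ : (P₀ : Subgroup G) ≤ T ⊔ N := by
    intro a ha
    obtain ⟨m, hm, hma⟩ := frattini_step ((Q₀ : Subgroup G) ⊔ N) Q₀ le_sup_left a (hP ha)
    have h1 : m ∈ T ⊔ N := (sup_le_sup_right hQT N) hm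
    have h2 : m * a ∈ T ⊔ N := (le_sup_left : T ≤ T ⊔ N) hma
    have h3 := (T ⊔ N).mul_mem ((T ⊔ N).inv_mem h1) h2
    simpa using h3
  have hidx : T.relIndex (T ⊔ N) = T.relIndex N := by
    have h1 := SuperSolv2.card_sup_mul_card_inf T N
    have h2 := SylowNum.card_mul_relIndex T (T ⊔ N) le_sup_left
    have h3 := SylowNum.card_mul_relIndex (T ⊓ N) N inf_le_right
    rw [Subgroup.inf_relIndex_right] at h3
    have hpos1 : 0 < Nat.card T := Nat.card_pos
    have hpos2 : 0 < Nat.card (T ⊓ N : Subgroup G) := Nat.card_pos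
    have h4 : Nat.card T * Nat.card (T ⊓ N : Subgroup G) * T.relIndex (T ⊔ N) =
        Nat.card T * Nat.card (T ⊓ N : Subgroup G) * T.relIndex N := by
      calc _ = (Nat.card T * T.relIndex (T ⊔ N)) * Nat.card (T ⊓ N : Subgroup G) := by ring
        _ = Nat.card T * (Nat.card (T ⊓ N : Subgroup G) * T.relIndex N) := by rw [h2, h1, h3]
        _ = _ := by ring
    exact Nat.eq_of_mul_eq_mul_left (Nat.mul_pos hpos1 hpos2) h4
  have hT_idx : ¬ p ∣ T.index := by
    have h1 : T.relIndex (T ⊔ N) * (T ⊔ N).index = T.index :=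
      Subgroup.relIndex_mul_index le_sup_left
    rw [← h1, hidx]
    intro hd
    rcases (Nat.Prime.dvd_mul (Fact.out : p.Prime)).1 hd with h | h
    · exact hnd h
    · exact P₀.not_dvd_index (h.trans (Subgroup.index_dvd_of_le hP₀))
  exact SylowNum.exists_sylow_le T hT_idx

/-- Every `q`-element centralizes some Sylow `p`. -/
theorem exists_sylow_le_centralizer
    (h : ∀ y : G, (∃ k : ℕ, orderOf y = q ^ k) → ¬ p ∣ (Subgroup.centralizer ({y} : Set G)).index)
    (Q₀ : Sylow q G) (y : G) (hy : y ∈ Q₀) :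
    ∃ P : Sylow p G, (P : Subgroup G) ≤ Subgroup.centralizer ({y} : Set G) :=
  SylowNum.exists_sylow_le _ (h y (SylowNum.pelt_of_mem Q₀ y hy))

theorem not_dvd_relIndex (N : Subgroup G) [N.Normal] (Q₀ : Sylow q G)
    (h : ∀ y : G, (∃ k : ℕ, orderOf y = q ^ k) → ¬ p ∣ (Subgroup.centralizer ({y} : Set G)).index)
    (hN : IsPGroup q N ∨ (Nat.card N).Coprime q ∨ IsPGroup p N ∨ (Nat.card N).Coprime p) :
    ¬ p ∣ (Subgroup.normalizer ((Q₀ : Subgroup G) : Set G)).relIndex N := by
  have hp : p.Prime := Fact.out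
  set T := Subgroup.normalizer ((Q₀ : Subgroup G) : Set G) with hT
  have hQT : (Q₀ : Subgroup G) ≤ T := Subgroup.le_normalizer
  have hone : N ≤ T → ¬ p ∣ T.relIndex N := by
    intro hle
    rw [Subgroup.relIndex_eq_one.2 hle]
    exact hp.one_lt.ne' ∘ Nat.dvd_one.1
  rcases hN with hN | hN | hN | hN
  · exact hone ((hN.le_sylow_of_normal Q₀).trans hQT)
  · -- `N` a `q'`-group
    have hnorm : (Q₀ : Subgroup G) ≤ Subgroup.normalizer (N : Set G) := by
      rw [Subgroup.normalizer_eq_top]; exact le_top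
    have hcop : (Nat.card (Q₀ : Subgroup G)).Coprime (Nat.card N) := by
      obtain ⟨k, hk⟩ := IsPGroup.iff_card.1 Q₀.isPGroup'
      rw [hk]
      exact (Nat.Coprime.pow_right _ hN).symm
    obtain ⟨R, hR⟩ := Lib.Glauberman2.exists_invariant_sylow hnorm hcop
      (Or.inl (by
        haveI := Q₀.isPGroup'.isNilpotent
        infer_instance)) p
    have hRcent : ∀ y ∈ (Q₀ : Subgroup G), ∀ r ∈ (R : Subgroup N).map N.subtype, y * r = r * y := by
      intro y hy
      obtain ⟨P₁, hP₁⟩ := exists_sylow_le_centralizer h Q₀ y hy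
      obtain ⟨R₁, hR₁⟩ := SylowNum.exists_sylow_subgroupOf N P₁
      have hR₁le : (R₁ : Subgroup N).map N.subtype ≤ Subgroup.centralizer ({y} : Set G) := by
        rintro _ ⟨u, hu, rfl⟩
        have hu' : u ∈ (R₁ : Subgroup N) := hu
        rw [hR₁, Subgroup.mem_subgroupOf] at hu'
        exact hP₁ hu'
      let A : Subgroup G := Subgroup.zpowers y
      have hAQ : A ≤ (Q₀ : Subgroup G) := (Subgroup.zpowers_le).2 hy
      have hAN : A ≤ Subgroup.normalizer (N : Set G) := hAQ.trans hnorm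
      have hcopA : (Nat.card A).Coprime (Nat.card N) :=
        Nat.Coprime.coprime_dvd_left (Subgroup.card_dvd_of_le hAQ) hcop
      have hsA : Group.IsSolvable A ∨ Group.IsSolvable N := Or.inl (by
        haveI : IsCyclic A := Subgroup.isCyclic_zpowers y
        infer_instance)
      have hR1A : A ≤ Subgroup.normalizer (((R₁ : Subgroup N).map N.subtype : Subgroup G) : Set G) := by
        rw [Subgroup.zpowers_le]
        apply mem_normalizer_of_centralizes
        intro r hr
        have h3 := hR₁le hr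
        rw [Subgroup.mem_centralizer_iff] at h3
        exact h3 y (Set.mem_singleton _)
      have hRA : A ≤ Subgroup.normalizer (((R : Subgroup N).map N.subtype : Subgroup G) : Set G) :=
        hAQ.trans hR
      obtain ⟨c, hc1, hc2⟩ := Lib.Glauberman2.exists_centralizer_conj_sylow hAN hcopA hsA p R₁ R hR1A hRA
      rintro _ ⟨u, hu, rfl⟩
      have hu' : c⁻¹ * u * c ∈ R₁ :=
        (SylowNum.mem_smul_sylow R₁ c u).1 (by rw [show c • R₁ = R from hc2]; exact hu)
      have h3 := hR₁le (Subgroup.mem_map_of_mem N.subtype hu')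
      rw [Subgroup.mem_centralizer_iff] at h3
      have h4 := h3 y (Set.mem_singleton _)
      rw [Subgroup.mem_centralizer_iff] at hc1
      have h5 : y * (c : G) = c * y := hc1 y (Subgroup.mem_zpowers y)
      have e : (u : G) = c * (((c⁻¹ * u * c : N) : G)) * (c : G)⁻¹ := by
        simp only [Subgroup.coe_mul, InvMemClass.coe_inv]
        group
      simp only [Subgroup.subtype_apply] at h4 ⊢
      have c1 : Commute y (c : G) := h5
      have c2 : Commute y ((c⁻¹ * u * c : N) : G) := h4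
      rw [e]
      exact ((c1.mul_right c2).mul_right c1.inv_right).eq
    have hRT : (R : Subgroup N).map N.subtype ≤ T := by
      intro r hr
      exact mem_normalizer_of_centralizes fun z hz => (hRcent z hz r hr).symm
    have hdvd : T.relIndex N ∣ (R : Subgroup N).index := by
      apply Subgroup.index_dvd_of_le
      intro u hu
      rw [Subgroup.mem_subgroupOf]
      exact hRT (Subgroup.mem_map_of_mem N.subtype hu)
    exact fun hd => R.not_dvd_index (hd.trans hdvd)
  · -- `N` a `p`-group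
    apply hone
    intro n hn
    apply mem_normalizer_of_centralizes
    intro y hy
    obtain ⟨P₁, hP₁⟩ := exists_sylow_le_centralizer h Q₀ y hy
    have h3 := hP₁ (hN.le_sylow_of_normal P₁ hn)
    rw [Subgroup.mem_centralizer_iff] at h3
    exact (h3 y (Set.mem_singleton _)).symm
  · intro hd
    have h1 : T.relIndex N ∣ Nat.card N := Subgroup.index_dvd_card _
    have h2 := Nat.dvd_gcd (hd.trans h1) (dvd_refl p)
    rw [hN] at h2
    exact hp.one_lt.ne' (Nat.dvd_one.1 h2)

end

theorem exists_normal {G : Type*} [Group G] [Finite G] [Nontrivial G] (r : ℕ) [Fact r.Prime]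
    (hG : Cfsg.IsPSolvable r G) :
    ∃ N : Subgroup G, N.Normal ∧ N ≠ ⊥ ∧ (IsPGroup r N ∨ (Nat.card N).Coprime r) := by
  obtain ⟨n, H, h0, hlast, hmono, hnorm, hidx⟩ := hG
  by_cases hall : ∀ i : Fin n, H i.castSucc = ⊥ → H i.succ = ⊥
  · exfalso
    have hbot : ∀ i : Fin (n + 1), H i = ⊥ := by
      intro i
      induction i using Fin.induction with
      | zero => exact h0
      | succ i ih => exact hall i ih
    have := hbot (Fin.last n)
    rw [hlast] at this
    exact top_ne_bot this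
  · push Not at hall
    obtain ⟨i, hi1, hi2⟩ := hall
    refine ⟨H i.succ, hnorm _, hi2, ?_⟩
    have h1 := hidx i
    rw [hi1, Subgroup.relIndex_bot_left] at h1
    rcases h1 with ⟨m, hm⟩ | h1
    · exact Or.inl (IsPGroup.of_card hm)
    · exact Or.inr h1

universe u

theorem main (p q : ℕ) [Fact p.Prime] [Fact q.Prime] (n : ℕ) :
    ∀ (G : Type u) [Group G] [Finite G], Nat.card G = n →
      (Cfsg.IsPSolvable p G ∨ Cfsg.IsPSolvable q G) →
      (∀ y : G, (∃ k : ℕ, orderOf y = q ^ k) → ¬ p ∣ (Subgroup.centralizer ({y} : Set G)).index) →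
      ∃ (P : Sylow p G) (Q : Sylow q G), (P : Subgroup G) ≤ Subgroup.normalizer ((Q : Subgroup G) : Set G) := by
  induction n using Nat.strong_induction_on with
  | _ n ih =>
    intro G _ _ hn hsolv h
    by_cases hG : Nontrivial G
    · obtain ⟨N, hNn, hNb, hN⟩ : ∃ N : Subgroup G, N.Normal ∧ N ≠ ⊥ ∧
          (IsPGroup q N ∨ (Nat.card N).Coprime q ∨ IsPGroup p N ∨ (Nat.card N).Coprime p) := by
        rcases hsolv with hs | hs
        · obtain ⟨N, h1, h2, h3⟩ := exists_normal p hs
          exact ⟨N, h1, h2, Or.inr (Or.inr h3)⟩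
        · obtain ⟨N, h1, h2, h3⟩ := exists_normal q hs
          refine ⟨N, h1, h2, ?_⟩
          tauto
      haveI := hNn
      let π : G →* G ⧸ N := QuotientGroup.mk' N
      have hπ : Function.Surjective π := QuotientGroup.mk'_surjective N
      have hcard : Nat.card (G ⧸ N) < n := by
        have h1 := Subgroup.card_eq_card_quotient_mul_card_subgroup N
        have h2 : 1 < Nat.card N := by
          haveI : Nontrivial N := (Subgroup.nontrivial_iff_ne_bot N).2 hNb
          exact Finite.one_lt_card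
        have h3 : 0 < Nat.card (G ⧸ N) := Nat.card_pos
        rw [hn] at h1
        rw [h1]
        nlinarith
      have hsolv' : Cfsg.IsPSolvable p (G ⧸ N) ∨ Cfsg.IsPSolvable q (G ⧸ N) := by
        rcases hsolv with hs | hs
        · exact Or.inl (PSolv.isPSolvable_quotient hs N)
        · exact Or.inr (PSolv.isPSolvable_quotient hs N)
      have h' : ∀ y : G ⧸ N, (∃ k : ℕ, orderOf y = q ^ k) →
          ¬ p ∣ (Subgroup.centralizer ({y} : Set (G ⧸ N))).index := by
        intro y hy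
        obtain ⟨Qb, hQb⟩ := SylowNum.exists_sylow_of_pelt y hy
        obtain ⟨Q₁, rfl⟩ := Sylow.mapSurjective_surjective hπ q Qb
        obtain ⟨x, hx, rfl⟩ := hQb
        have h1 := h x (SylowNum.pelt_of_mem Q₁ x hx)
        intro hd
        apply h1
        refine hd.trans ((Subgroup.index_dvd_of_le ?_).trans (Subgroup.index_map_dvd _ hπ))
        rintro _ ⟨u, hu, rfl⟩
        have hu' : u ∈ Subgroup.centralizer ({x} : Set G) := hu
        rw [Subgroup.mem_centralizer_iff] at hu' ⊢
        intro z hz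
        rw [Set.mem_singleton_iff] at hz
        subst hz
        rw [← map_mul, ← map_mul, hu' x (Set.mem_singleton _)]
      obtain ⟨Pb, Qb, hPQ⟩ := ih _ hcard (G ⧸ N) rfl hsolv' h'
      obtain ⟨P₀, rfl⟩ := Sylow.mapSurjective_surjective hπ p Pb
      obtain ⟨Q₀, rfl⟩ := Sylow.mapSurjective_surjective hπ q Qb
      have hP : (P₀ : Subgroup G) ≤ Subgroup.normalizer (((Q₀ : Subgroup G) ⊔ N : Subgroup G) : Set G) := by
        have e : (Q₀ : Subgroup G) ⊔ N = ((Q₀ : Subgroup G).map π).comap π := by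
          rw [Subgroup.comap_map_eq, QuotientGroup.ker_mk']
        rw [e]
        refine le_trans ?_ (Subgroup.le_normalizer_comap π)
        intro a ha
        rw [Subgroup.mem_comap]
        exact hPQ ⟨a, ha, rfl⟩
      obtain ⟨P, hP2⟩ := core N P₀ Q₀ hP (not_dvd_relIndex N Q₀ h hN)
      exact ⟨P, Q₀, hP2⟩
    · rw [not_nontrivial_iff_subsingleton] at hG
      obtain ⟨P⟩ : Nonempty (Sylow p G) := inferInstance
      obtain ⟨Q⟩ : Nonempty (Sylow q G) := inferInstance
      refine ⟨P, Q, ?_⟩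
      intro x _
      rw [Subsingleton.elim x 1]
      exact Subgroup.one_mem _

/-- Let p and q be primes and G a finite group that is p-solvable or q-solvable, in which no q-element has conjugacy class size divisible by p. Then some Sylow p-subgroup of G normalizes some Sylow q-subgroup of G. -/
theorem result {G : Type*} [Group G] [Finite G] (p q : ℕ) [Fact p.Prime] [Fact q.Prime] (hsolv : Cfsg.IsPSolvable p G ∨ Cfsg.IsPSolvable q G)
    (h : ∀ y : G, (∃ k : ℕ, orderOf y = q ^ k) → ¬ p ∣ (Subgroup.centralizer ({y} : Set G)).index) :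
    ∃ (P : Sylow p G) (Q : Sylow q G), (P : Subgroup G) ≤ Subgroup.normalizer ((Q : Subgroup G) : Set G) :=
  main p q (Nat.card G) G rfl hsolv h

end Cfsg.Agent.S4601
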