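import Mathlib
import Cfsg.Statements.S4602
import Cfsg.Agent.Lib.PSolv
import Cfsg.Agent.Lib.PCore
import Cfsg.Agent.Lib.Glauberman2

set_option autoImplicit false
open Cfsg

namespace Cfsg.Agent.S4602

set_option linter.unusedSectionVars false
set_option linter.style.haveILetI false

/-- Let G be a finite p-solvable group and q a prime different from p. Some Sylow p-subgroup of G normalizes some Sylow q-subgroup of G if and only if q does not divide the order of G/O_{p'}(G), the quotient by the largest normal subgroup of order prime to p. -/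
theorem result {G : Type*} [Group G] [Finite G] (p q : ℕ) [Fact p.Prime] [Fact q.Prime] (hpq : p ≠ q) (hsolv : Cfsg.IsPSolvable p G) :
    (∃ (P : Sylow p G) (Q : Sylow q G), (P : Subgroup G) ≤ Subgroup.normalizer ((Q : Subgroup G) : Set G)) ↔ ¬ q ∣ (Cfsg.pPrimeCore p G).index := by
  classical
  have hp : p.Prime := Fact.out
  have hq : q.Prime := Fact.out
  set K := Cfsg.pPrimeCore p G with hK
  haveI hKn : K.Normal := inferInstance
  have hcopK : ∀ P : Sylow p G, (Nat.card (P : Subgroup G)).Coprime (Nat.card K) := by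
    intro P
    have h1 : (Nat.card K).Coprime p := Lib.PCore.card_pPrimeCore_coprime p
    obtain ⟨k, hk⟩ := (IsPGroup.iff_card.1 P.isPGroup')
    rw [hk]
    exact (Nat.Coprime.pow_right _ h1).symm
  constructor
  · rintro ⟨P, Q, hPQ⟩ hdvd
    let π : G →* G ⧸ K := QuotientGroup.mk' K
    have hπ : Function.Surjective π := QuotientGroup.mk'_surjective K
    let L : Subgroup (G ⧸ K) := Cfsg.pCore p (G ⧸ K)
    have h0 : Cfsg.pPrimeCore p (G ⧸ K) = ⊥ :=
      Lib.PSolv.pPrimeCore_eq_bot_of_surjective p π hπ (QuotientGroup.ker_mk' K)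
    have hsol : Cfsg.IsPSolvable p (G ⧸ K) := Lib.PSolv.isPSolvable_quotient hsolv K
    have hcent := Lib.PSolv.centralizer_pCore_le_of_pSolvable hsol h0
    let P' : Sylow p (G ⧸ K) := P.mapSurjective hπ
    have hLP : L ≤ (P' : Subgroup (G ⧸ K)) := Lib.PCore.pCore_le_sylow p P'
    let Q' : Subgroup (G ⧸ K) := (Q : Subgroup G).map π
    have hQ'p : IsPGroup q Q' := Q.isPGroup'.map π
    have hLp : IsPGroup p L := Lib.PCore.isPGroup_pCore p
    have hdisj : Disjoint L Q' := IsPGroup.disjoint_of_ne p q hpq L Q' hLp hQ'p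
    have hLn : L.Normal := inferInstance
    have hcomm : Q' ≤ Subgroup.centralizer (L : Set (G ⧸ K)) := by
      intro x hx
      rw [Subgroup.mem_centralizer_iff]
      intro y hy
      obtain ⟨b, hb, rfl⟩ := hx
      obtain ⟨a, ha, hay⟩ := hLP hy
      have h1 : y * π b * y⁻¹ ∈ Q' := by
        refine ⟨a * b * a⁻¹, ?_, ?_⟩
        · exact (Subgroup.mem_normalizer_iff.1 (hPQ ha) b).1 hb
        · rw [← hay]
          simp
      have h2 : y * π b * y⁻¹ * (π b)⁻¹ ∈ Q' := Q'.mul_mem h1 (Q'.inv_mem ⟨b, hb, rfl⟩)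
      have h3 : y * π b * y⁻¹ * (π b)⁻¹ ∈ L := by
        have h4 : π b * y⁻¹ * (π b)⁻¹ ∈ L := hLn.conj_mem _ (L.inv_mem hy) _
        have h5 : y * (π b * y⁻¹ * (π b)⁻¹) ∈ L := L.mul_mem hy h4
        convert h5 using 1
        group
      have h6 : y * π b * y⁻¹ * (π b)⁻¹ = 1 :=
        (Subgroup.disjoint_def.1 hdisj) h3 h2
      have h7 : y * π b * y⁻¹ = π b := by
        exact eq_of_mul_inv_eq_one h6
      exact mul_inv_eq_iff_eq_mul.1 h7
    have hQL : Q' ≤ L := hcomm.trans hcent
    have hQbot : Q' = ⊥ := by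
      rw [eq_bot_iff]
      intro x hx
      rw [Subgroup.mem_bot]
      exact (Subgroup.disjoint_def.1 hdisj) (hQL hx) hx
    have hQK : (Q : Subgroup G) ≤ K := by
      intro b hb
      have h1 : π b ∈ Q' := ⟨b, hb, rfl⟩
      rw [hQbot, Subgroup.mem_bot] at h1
      rw [← QuotientGroup.ker_mk' K]
      exact h1
    apply Q.not_dvd_index
    exact hdvd.trans (Subgroup.index_dvd_of_le hQK)
  · intro hnd
    obtain ⟨P⟩ : Nonempty (Sylow p G) := inferInstance
    have hnorm : (P : Subgroup G) ≤ Subgroup.normalizer (K : Set G) := by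
      intro x _
      rw [Subgroup.mem_normalizer_iff]
      intro h
      constructor
      · exact fun hh => hKn.conj_mem h hh x
      · intro hh
        have := hKn.conj_mem _ hh x⁻¹
        simpa [mul_assoc] using this
    obtain ⟨Q₀, hQ₀⟩ := Lib.Glauberman2.exists_invariant_sylow hnorm (hcopK P)
      (Or.inl (by
        haveI := P.isPGroup'.isNilpotent
        infer_instance)) q
    have hQp : IsPGroup q ((Q₀ : Subgroup K).map K.subtype) := Q₀.isPGroup'.map _
    have hnd2 : ¬ q ∣ ((Q₀ : Subgroup K).map K.subtype).index := by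
      rw [Subgroup.index_map_subtype]
      intro hd
      rcases (Nat.Prime.dvd_mul hq).1 hd with h | h
      · exact Q₀.not_dvd_index h
      · exact hnd h
    exact ⟨P, hQp.toSylow hnd2, hQ₀⟩

end Cfsg.Agent.S4602
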