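import Mathlib
import Cfsg.Statements.S4604
import Cfsg.Agent.Lib.CharGalois
import Cfsg.Agent.Lib.CharInd
import Cfsg.Agent.Lib.CharIntegrality
import Cfsg.Agent.Lib.CharTable

set_option autoImplicit false
open Cfsg

namespace Cfsg.Agent.S4604

open Cfsg.Agent.Lib
open scoped ComplexConjugate

set_option linter.unusedSectionVars false
set_option linter.style.haveILetI false

theorem sum_pow_congr {A : Type*} [CommRing A] {p : ℕ} (hp : p.Prime) {ι : Type*} (s : Finset ι)
    (a : ι → A) (n : ℕ) : ∃ γ : A, (∑ i ∈ s, a i) ^ (p ^ n) = ∑ i ∈ s, a i ^ (p ^ n) + (p : A) * γ := by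
  classical
  induction s using Finset.induction_on with
  | empty =>
    refine ⟨0, ?_⟩
    have : p ^ n ≠ 0 := pow_ne_zero _ hp.ne_zero
    simp [zero_pow this]
  | insert i s his ih =>
    obtain ⟨γ, hγ⟩ := ih
    obtain ⟨r, hr⟩ := exists_add_pow_prime_pow_eq hp (a i) (∑ j ∈ s, a j) n
    refine ⟨γ + a i * (∑ j ∈ s, a j) * r, ?_⟩
    rw [Finset.sum_insert his, Finset.sum_insert his, hr, hγ]
    ring

theorem frob_char {G : Type*} [Group G] [Finite G] {χ : G → ℂ} (hχ : IsCharacter G χ) (z : G) {p : ℕ}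
    (hp : p.Prime) (n : ℕ) :
    ∃ γ : ℂ, IsIntegral ℤ γ ∧ χ z ^ (p ^ n) - χ (z ^ (p ^ n)) = (p : ℂ) * γ := by
  obtain ⟨m, μ, h1, h2⟩ := CharGalois.exists_roots hχ z
  have hint : ∀ i, IsIntegral ℤ (μ i) := fun i =>
    IsIntegral.of_pow (n := Nat.card G) Nat.card_pos (by rw [h1]; exact isIntegral_one)
  let a : Fin m → AlgInt := fun i => ⟨μ i, hint i⟩
  obtain ⟨γ, hγ⟩ := sum_pow_congr hp Finset.univ a n
  refine ⟨γ, γ.2, ?_⟩
  have h3 := congrArg (AlgInt.val) hγ
  simp only [map_pow, map_sum, map_add, map_mul, map_natCast] at h3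
  have h4 : χ z = ∑ i, μ i := by simpa using h2 1
  rw [h4, h2 (p ^ n)]
  have h5 : ∑ i, AlgInt.val (a i) = ∑ i, μ i := rfl
  have h6 : ∑ i, AlgInt.val (a i) ^ p ^ n = ∑ i, μ i ^ p ^ n := rfl
  rw [h5, h6] at h3
  rw [h3]
  simp

theorem isIntegral_trace {V : Type*} [AddCommGroup V] [Module ℂ V] [FiniteDimensional ℂ V]
    (A : Module.End ℂ V) (o : ℕ) (ho : 0 < o) (hA : A ^ (o + 1) = A) :
    IsIntegral ℤ (LinearMap.trace ℂ V A) := by
  rw [Module.End.trace_eq_sum_roots_charpoly_of_splits (IsAlgClosed.splits _)]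
  apply IsIntegral.multiset_sum
  intro r hr
  have hroot : A.charpoly.IsRoot r := (Polynomial.mem_roots'.1 hr).2
  have hev : A.HasEigenvalue r := (Module.End.hasEigenvalue_iff_isRoot_charpoly A r).2 hroot
  obtain ⟨v, hv⟩ := hev.exists_hasEigenvector
  have h1 : (A ^ (o + 1)) v = r ^ (o + 1) • v := hv.pow_apply (o + 1)
  rw [hA, hv.apply_eq_smul] at h1
  have h2 : r = r ^ (o + 1) := smul_left_injective ℂ hv.2 h1
  by_cases hr0 : r = 0
  · rw [hr0]; exact isIntegral_zero
  · have h3 : r ^ o = 1 := by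
      have : r * r ^ o = r * 1 := by rw [mul_one, ← pow_succ']; exact h2.symm
      exact mul_left_cancel₀ hr0 this
    exact IsIntegral.of_pow ho (by rw [h3]; exact isIntegral_one)

section sylow

variable {G : Type*} [Group G] [Fintype G] {p : ℕ} [Fact p.Prime]

/-- The element `b χ = (1/|S|) ∑_{u ∈ S} χ (s u)` is an algebraic integer. -/
theorem isIntegral_avg {n : ℕ} (ρ : Representation ℂ G (Fin n → ℂ)) (s : G)
    (S : Subgroup G) [Fintype S] (hS : ∀ u ∈ S, Commute s u) :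
    IsIntegral ℤ ((Nat.card S : ℂ)⁻¹ * ∑ u : S, ρ.character (s * u)) := by
  classical
  have hcard : (Nat.card S : ℂ) ≠ 0 := by exact_mod_cast Nat.card_pos.ne'
  let π : Module.End ℂ (Fin n → ℂ) := (Nat.card S : ℂ)⁻¹ • ∑ u : S, ρ u
  have hπu : ∀ v : S, ρ v * π = π := by
    intro v
    change ρ v * ((Nat.card S : ℂ)⁻¹ • ∑ u : S, ρ u) = _
    rw [mul_smul_comm, Finset.mul_sum]
    congr 1
    refine Fintype.sum_equiv (Equiv.mulLeft v) _ _ ?_
    intro u
    simp [map_mul]
  have hπ2 : π * π = π := by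
    calc π * π = (Nat.card S : ℂ)⁻¹ • ∑ u : S, ρ u * π := by
          change ((Nat.card S : ℂ)⁻¹ • ∑ u : S, ρ u) * π = _
          rw [smul_mul_assoc, Finset.sum_mul]
      _ = (Nat.card S : ℂ)⁻¹ • ∑ u : S, π := by simp only [hπu]
      _ = π := by
          rw [Finset.sum_const, Finset.card_univ, ← Nat.card_eq_fintype_card, ← Nat.cast_smul_eq_nsmul ℂ,
            smul_smul, inv_mul_cancel₀ hcard, one_smul]
  have hcomm : Commute (ρ s) π := by
    change ρ s * ((Nat.card S : ℂ)⁻¹ • ∑ u : S, ρ u) = ((Nat.card S : ℂ)⁻¹ • ∑ u : S, ρ u) * ρ s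
    rw [mul_smul_comm, smul_mul_assoc, Finset.mul_sum, Finset.sum_mul]
    congr 1
    refine Finset.sum_congr rfl fun u _ => ?_
    rw [← map_mul, ← map_mul, (hS u u.2).eq]
  let A : Module.End ℂ (Fin n → ℂ) := ρ s * π
  have hpowπ : ∀ k : ℕ, π ^ (k + 1) = π := by
    intro k
    induction k with
    | zero => simp
    | succ k ih => rw [pow_succ, ih, hπ2]
  have hA : A ^ (orderOf s + 1) = A := by
    have h1 : A ^ (orderOf s + 1) = (ρ s) ^ (orderOf s + 1) * π ^ (orderOf s + 1) := hcomm.mul_pow _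
    rw [h1, hpowπ, ← map_pow, pow_succ, pow_orderOf_eq_one, one_mul]
  have htr := isIntegral_trace A (orderOf s) (orderOf_pos s) hA
  have heq : LinearMap.trace ℂ (Fin n → ℂ) A = (Nat.card S : ℂ)⁻¹ * ∑ u : S, ρ.character (s * u) := by
    change LinearMap.trace ℂ (Fin n → ℂ) (ρ s * ((Nat.card S : ℂ)⁻¹ • ∑ u : S, ρ u)) = _
    rw [mul_smul_comm, map_smul, Finset.mul_sum, map_sum, smul_eq_mul]
    congr 1
    refine Finset.sum_congr rfl fun u _ => ?_
    rw [← map_mul]
    rfl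
  rwa [heq] at htr

end sylow

theorem pow_eq_of_part {G : Type*} [Group G] [Finite G] {p : ℕ} (hp : p.Prime) (x x' : G)
    (hx : (∃ k : ℕ, orderOf (x * x'⁻¹) = p ^ k) ∧ Commute (x * x'⁻¹) x' ∧ ¬ p ∣ orderOf x') :
    x ^ (p ^ (Nat.card G).factorization p) = x' ^ (p ^ (Nat.card G).factorization p) := by
  obtain ⟨⟨k, hk⟩, hc, _⟩ := hx
  have hN : Nat.card G ≠ 0 := Nat.card_pos.ne'
  have h1 : p ^ k ∣ Nat.card G := by
    rw [← hk]; exact orderOf_dvd_natCard _
  have h2 : k ≤ (Nat.card G).factorization p := (hp.pow_dvd_iff_le_factorization hN).1 h1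
  have h3 : (x * x'⁻¹) ^ (p ^ (Nat.card G).factorization p) = 1 := by
    apply orderOf_dvd_iff_pow_eq_one.1
    rw [hk]
    exact pow_dvd_pow p h2
  have h4 : x = (x * x'⁻¹) * x' := by group
  conv_lhs => rw [h4]
  rw [hc.mul_pow, h3, one_mul]

theorem not_dvd_order_pow {G : Type*} [Group G] {p : ℕ} (z : G) (h : ¬ p ∣ orderOf z) (q : ℕ) :
    ¬ p ∣ orderOf (z ^ q) := fun h2 => h (h2.trans (orderOf_pow_dvd _))


theorem core {G : Type*} [Group G] [Fintype G] (p : ℕ) [Fact p.Prime] (s t : G)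
    (hs : ¬ p ∣ orderOf s) (ht : ¬ p ∣ orderOf t)
    (hdiff : ∀ χ : Cfsg.IrrCharacter G, ∃ γ : ℂ, IsIntegral ℤ γ ∧
      (χ : G → ℂ) s - (χ : G → ℂ) t = (p : ℂ) * γ) : IsConj s t := by
  classical
  by_contra hnst
  have hp : p.Prime := Fact.out
  let C : Subgroup G := Subgroup.centralizer ({s} : Set G)
  let S : Sylow p C := default
  let T : Subgroup G := (S : Subgroup C).map C.subtype
  have hTcomm : ∀ u ∈ T, Commute s u := by
    intro u hu
    obtain ⟨v, _, rfl⟩ := hu
    have h2 := v.2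
    rw [Subgroup.mem_centralizer_iff] at h2
    exact h2 s (Set.mem_singleton _)
  have hTp : IsPGroup p T := S.isPGroup'.map _
  have hcardT : Nat.card T = Nat.card (S : Subgroup C) :=
    Nat.card_congr (Subgroup.equivMapOfInjective _ _ C.subtype_injective).toEquiv.symm
  have hone : ∀ u : T, ∀ g : G, ¬ p ∣ orderOf g → IsConj (s * (u : G)) g → u = 1 := by
    intro u g hg hconj
    by_contra hu
    have huord : ∃ k, orderOf u = p ^ k := (IsPGroup.iff_orderOf.1 hTp) u
    obtain ⟨k, hk⟩ := huord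
    have hk0 : k ≠ 0 := by
      rintro rfl
      apply hu
      simpa using hk
    have huord' : orderOf (u : G) = p ^ k := by
      rw [← hk]
      simp
    have hcop : Nat.Coprime (orderOf s) (orderOf (u : G)) := by
      rw [huord']
      exact Nat.Coprime.pow_right _ ((Nat.Prime.coprime_iff_not_dvd hp).2 hs).symm
    have h3 : orderOf (s * (u : G)) = orderOf s * orderOf (u : G) :=
      (hTcomm u u.2).orderOf_mul_eq_mul_orderOf_of_coprime hcop
    have h4 : orderOf (s * (u : G)) = orderOf g := by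
      obtain ⟨c, hc⟩ := isConj_iff.1 hconj
      rw [← hc]
      have : c * (s * (u : G)) * c⁻¹ = MulAut.conj c (s * (u : G)) := by simp
      rw [this, MulEquiv.orderOf_eq]
    apply hg
    rw [← h4, h3, huord']
    exact Dvd.dvd.mul_left (dvd_pow_self p hk0) _
  let b : Cfsg.IrrCharacter G → ℂ := fun χ =>
    (Nat.card T : ℂ)⁻¹ * ∑ u : T, (χ : G → ℂ) (s * (u : G))
  have hbint : ∀ χ, IsIntegral ℤ (b χ) := by
    rintro ⟨χ, n, ρ, _, rfl⟩
    exact isIntegral_avg ρ s T hTcomm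
  have hsum : ∀ g : G, ¬ p ∣ orderOf g → ∑ χ : Cfsg.IrrCharacter G, b χ * conj ((χ : G → ℂ) g) =
      (Nat.card T : ℂ)⁻¹ * (if IsConj s g then (Nat.card (Subgroup.centralizer ({g} : Set G)) : ℂ) else 0) := by
    intro g hg
    calc ∑ χ : Cfsg.IrrCharacter G, b χ * conj ((χ : G → ℂ) g)
        = (Nat.card T : ℂ)⁻¹ * ∑ χ : Cfsg.IrrCharacter G, ∑ u : T, (χ : G → ℂ) (s * (u : G)) * conj ((χ : G → ℂ) g) := by
          rw [Finset.mul_sum]
          refine Finset.sum_congr rfl fun χ _ => ?_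
          simp only [b, mul_assoc, Finset.sum_mul]
      _ = (Nat.card T : ℂ)⁻¹ * ∑ u : T, ∑ χ : Cfsg.IrrCharacter G, (χ : G → ℂ) (s * (u : G)) * conj ((χ : G → ℂ) g) := by
          rw [Finset.sum_comm]
      _ = (Nat.card T : ℂ)⁻¹ * ∑ u : T, (if IsConj (s * (u : G)) g then (Nat.card (Subgroup.centralizer ({g} : Set G)) : ℂ) else 0) := by
          congr 1
          refine Finset.sum_congr rfl fun u _ => ?_
          convert CharInd.sum_irr_mul_conj (s * (u : G)) g
      _ = _ := by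
          congr 1
          rw [Finset.sum_eq_single (1 : T)]
          · simp
          · intro u _ hu
            rw [if_neg]
            exact fun hc => hu (hone u g hg hc)
          · simp
  have h1 := hsum s hs
  have h2 := hsum t ht
  rw [if_pos (IsConj.refl s)] at h1
  rw [if_neg hnst, mul_zero] at h2
  choose γ hγ hγ2 using hdiff
  -- the index
  let idx : ℕ := (S : Subgroup C).index
  have hidx : (Nat.card T : ℂ)⁻¹ * (Nat.card C : ℂ) = idx := by
    have h3 : Nat.card (S : Subgroup C) * idx = Nat.card C := Subgroup.card_mul_index _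
    rw [← h3, hcardT]
    push_cast
    have h4 : (Nat.card (S : Subgroup C) : ℂ) ≠ 0 := by exact_mod_cast Nat.card_pos.ne'
    field_simp
  have hidxp : ¬ p ∣ idx := S.not_dvd_index
  have hkey : (idx : ℂ) = (p : ℂ) * ∑ χ : Cfsg.IrrCharacter G, b χ * conj (γ χ) := by
    rw [← hidx]
    change (Nat.card T : ℂ)⁻¹ * (Nat.card (Subgroup.centralizer ({s} : Set G)) : ℂ) = _
    rw [← h1]
    have h5 : ∑ χ : Cfsg.IrrCharacter G, b χ * conj ((χ : G → ℂ) s) =
        ∑ χ : Cfsg.IrrCharacter G, b χ * conj ((χ : G → ℂ) s) - ∑ χ : Cfsg.IrrCharacter G, b χ * conj ((χ : G → ℂ) t) := by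
      rw [h2, sub_zero]
    rw [h5, ← Finset.sum_sub_distrib, Finset.mul_sum]
    refine Finset.sum_congr rfl fun χ _ => ?_
    rw [← mul_sub, ← map_sub, hγ2 χ, map_mul, Complex.conj_natCast]
    ring
  have hint : IsIntegral ℤ (∑ χ : Cfsg.IrrCharacter G, b χ * conj (γ χ)) := by
    apply IsIntegral.sum
    intro χ _
    refine (hbint χ).mul ?_
    obtain ⟨f, hf, hf2⟩ := hγ χ
    refine ⟨f, hf, ?_⟩
    have h6 := congrArg (starRingEnd ℂ) hf2
    rw [map_zero] at h6
    rw [← h6, Polynomial.eval₂_eq_sum_range, Polynomial.eval₂_eq_sum_range, map_sum]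
    refine Finset.sum_congr rfl fun i _ => ?_
    simp
  have hpC : (p : ℂ) ≠ 0 := by exact_mod_cast hp.ne_zero
  have hdiv : (idx : ℂ) / (p : ℂ) = ∑ χ : Cfsg.IrrCharacter G, b χ * conj (γ χ) := by
    rw [hkey]
    field_simp
  apply hidxp
  apply CharIntegrality.dvd_of_isIntegral_div hp.ne_zero
  rw [hdiv]
  exact hint

/-- Let G be a finite group, p a prime and p^a the p-part of the order of G. Let x, y ∈ G and let x′, y′ be their p-regular parts: x′ has order prime to p, commutes with x·x′⁻¹, and x·x′⁻¹ has p-power order (likewise for y). Then x′ and y′ are conjugate in G if and only if for every irreducible character χ of G the algebraic integer χ(x)^(p^a) − χ(y)^(p^a) is p times an algebraic integer. -/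
theorem result {G : Type*} [Group G] [Finite G] (p : ℕ) [Fact p.Prime] (x y x' y' : G)
    (hx : (∃ k : ℕ, orderOf (x * x'⁻¹) = p ^ k) ∧ Commute (x * x'⁻¹) x' ∧ ¬ p ∣ orderOf x')
    (hy : (∃ k : ℕ, orderOf (y * y'⁻¹) = p ^ k) ∧ Commute (y * y'⁻¹) y' ∧ ¬ p ∣ orderOf y') :
    IsConj x' y' ↔ ∀ χ : Cfsg.IrrCharacter G, ∃ γ : Cfsg.AlgInt,
      (χ : G → ℂ) x ^ (p ^ (Nat.card G).factorization p) - (χ : G → ℂ) y ^ (p ^ (Nat.card G).factorization p) = (p : ℂ) * (γ : ℂ) := by
  classical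
  haveI : Fintype G := Fintype.ofFinite G
  have hp : p.Prime := Fact.out
  set a := (Nat.card G).factorization p with ha
  set q := p ^ a with hq
  set s := x' ^ q with hs
  set t := y' ^ q with ht
  have hxs : x ^ q = s := pow_eq_of_part hp x x' hx
  have hyt : y ^ q = t := pow_eq_of_part hp y y' hy
  have hfrobx : ∀ χ : Cfsg.IrrCharacter G, ∃ γ : ℂ, IsIntegral ℤ γ ∧ (χ : G → ℂ) x ^ q - (χ : G → ℂ) s = (p : ℂ) * γ := by
    intro χ
    have := frob_char (CharBasic.IsIrrCharacter.isCharacter χ.2) x hp a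
    rwa [← hq, hxs] at this
  have hfroby : ∀ χ : Cfsg.IrrCharacter G, ∃ γ : ℂ, IsIntegral ℤ γ ∧ (χ : G → ℂ) y ^ q - (χ : G → ℂ) t = (p : ℂ) * γ := by
    intro χ
    have := frob_char (CharBasic.IsIrrCharacter.isCharacter χ.2) y hp a
    rwa [← hq, hyt] at this
  constructor
  · intro hconj χ
    have hst : IsConj s t := hconj.pow q
    obtain ⟨c, hc⟩ := isConj_iff.1 hst
    have hχ : (χ : G → ℂ) t = (χ : G → ℂ) s := by
      rw [← hc]
      exact CharBasic.isClassFunction_of_isCharacter (CharBasic.IsIrrCharacter.isCharacter χ.2) s c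
    obtain ⟨γ1, hγ1, h1⟩ := hfrobx χ
    obtain ⟨γ2, hγ2, h2⟩ := hfroby χ
    refine ⟨⟨γ1 - γ2, hγ1.sub hγ2⟩, ?_⟩
    have h3 : ((⟨γ1 - γ2, hγ1.sub hγ2⟩ : Cfsg.AlgInt) : ℂ) = γ1 - γ2 := rfl
    rw [h3]
    rw [hχ] at h2
    linear_combination h1 - h2
  · intro hall
    -- difference of values at `s`, `t`
    have hdiff : ∀ χ : Cfsg.IrrCharacter G, ∃ γ : ℂ, IsIntegral ℤ γ ∧ (χ : G → ℂ) s - (χ : G → ℂ) t = (p : ℂ) * γ := by
      intro χ
      obtain ⟨γ, hγ⟩ := hall χ
      obtain ⟨γ1, hγ1, h1⟩ := hfrobx χ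
      obtain ⟨γ2, hγ2, h2⟩ := hfroby χ
      refine ⟨(γ : ℂ) - γ1 + γ2, ((γ.2).sub hγ1).add hγ2, ?_⟩
      linear_combination hγ - h1 + h2
    -- `x'`, `y'` are common powers of `s`, `t`
    have hconj_of : IsConj s t → IsConj x' y' := by
      intro hst
      have hN : Nat.card G ≠ 0 := Nat.card_pos.ne'
      have hNe : p ^ a * ordCompl[p] (Nat.card G) = Nat.card G :=
        Nat.ordProj_mul_ordCompl_eq_self _ _
      set e := ordCompl[p] (Nat.card G) with he
      have hpe : Nat.Coprime p e := (Nat.Prime.coprime_iff_not_dvd hp).2 (Nat.not_dvd_ordCompl hp hN)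
      have hqe : Nat.Coprime q e := Nat.Coprime.pow_left _ hpe
      have hdv : ∀ z : G, ¬ p ∣ orderOf z → orderOf z ∣ e := by
        intro z hz
        have h1 : orderOf z ∣ p ^ a * e := by rw [hNe]; exact orderOf_dvd_natCard z
        have h2 : Nat.Coprime (orderOf z) (p ^ a) :=
          Nat.Coprime.pow_right _ ((Nat.Prime.coprime_iff_not_dvd hp).2 hz).symm
        exact h2.dvd_of_dvd_mul_left h1
      obtain ⟨m, hm⟩ : ∃ m, q * m ≡ 1 [MOD e] := by
        by_cases h1 : e = 1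
        · exact ⟨1, by rw [h1]; exact Nat.modEq_one⟩
        · have he0 : e ≠ 0 := Nat.pos_iff_ne_zero.1 (Nat.ordCompl_pos p hN)
          have h1e : 1 < e := by
            rcases e with _ | _ | e
            · exact absurd rfl he0
            · exact absurd rfl h1
            · omega
          obtain ⟨m, _, hm⟩ := Nat.exists_mul_mod_eq_one_of_coprime hqe h1e
          refine ⟨m, ?_⟩
          change (q * m) % e = 1 % e
          rw [hm, Nat.mod_eq_of_lt h1e]
      have hback : ∀ z : G, ¬ p ∣ orderOf z → (z ^ q) ^ m = z := by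
        intro z hz
        rw [← pow_mul]
        have h3 : q * m ≡ 1 [MOD orderOf z] := hm.of_dvd (hdv z hz)
        have := pow_eq_pow_iff_modEq.2 h3
        rwa [pow_one] at this
      have h4 := hst.pow m
      rwa [hs, ht, hback x' hx.2.2, hback y' hy.2.2] at h4
    apply hconj_of
    exact core p s t (not_dvd_order_pow x' hx.2.2 q) (not_dvd_order_pow y' hy.2.2 q) hdiff

end Cfsg.Agent.S4604
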