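import Mathlib
import Cfsg.Statements.S4607
import Cfsg.Agent.Lib.BlockBrandt
import Cfsg.Agent.Lib.BlockUniform
import Cfsg.Agent.Lib.BlockInvol
import Cfsg.Agent.Lib.BlockDefect
import Cfsg.Agent.Lib.BlockOrtho

set_option autoImplicit false
open Cfsg

namespace Cfsg.Agent.S4607

open Cfsg.Agent.Lib.CharBasic Cfsg.Agent.Lib.BlockLocal Cfsg.Agent.Lib.BlockIdem
open Cfsg.Agent.Lib.BlockQ Cfsg.Agent.Lib.BlockOrtho Cfsg.Agent.Lib.BlockDefect
open Cfsg.Agent.Lib.CharKernel
open scoped ComplexConjugate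

/-- A member of a block of full rank vanishes off the regular elements. -/
theorem vanish_of_rank {G : Type*} [Group G] [Fintype G] {p : ℕ} {M : Ideal Cfsg.AlgInt}
    (hM : Cfsg.IsPModular p M) {B : Set (Cfsg.IrrCharacter G)} (hB : Cfsg.IsPBlock M B)
    (hr : blockRank p B = (bF B).card) (g : G) (hg : p ∣ orderOf g) (χ : Cfsg.IrrCharacter G)
    (hχ : χ ∈ B) : (χ : G → ℂ) g = 0 := by
  classical
  let H : G → ℝ := fun g => ∑ ξ ∈ bF B, Complex.normSq ((ξ : G → ℂ) g)
  have hH : ∀ g, (H g : ℂ) = ∑ ξ ∈ bF B, (ξ : G → ℂ) g * conj ((ξ : G → ℂ) g) := by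
    intro g
    simp only [H]
    push_cast
    refine Finset.sum_congr rfl fun ξ _ => ?_
    rw [Complex.mul_conj]
  have h1 : ∑ g : G, (H g : ℂ) = (Nat.card G : ℂ) * ((bF B).card : ℂ) := by
    simp only [hH]
    rw [Finset.sum_comm]
    have h2 : ∀ χ ∈ bF B, ∑ g : G, (χ : G → ℂ) g * conj ((χ : G → ℂ) g) = (Nat.card G : ℂ) := by
      intro χ _
      have h3 := classInner_irr_self χ.2
      unfold classInner at h3
      have hne : (Nat.card G : ℂ) ≠ 0 := natCard_ne_zero'
      field_simp at h3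
      exact h3
    rw [Finset.sum_congr rfl h2, Finset.sum_const, nsmul_eq_mul, mul_comm]
  have h2 : (Nat.card G : ℂ) * (blockRank p B : ℂ) =
      ∑ g : G, if ¬ p ∣ orderOf g then (H g : ℂ) else 0 := by
    rw [card_mul_blockRank hM hB]
    refine Finset.sum_congr rfl fun g _ => ?_
    by_cases hg : ¬ p ∣ orderOf g
    · rw [if_pos hg, hH]
      rw [← finsum_mem_eq_sum_bF, finsum_mem_eq_sum_indB]
      refine Finset.sum_congr rfl fun χ _ => ?_
      rw [pRegularPart_of_reg _ hg]
    · rw [if_neg hg]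
      apply Finset.sum_eq_zero
      intro χ _
      rw [pRegularPart_of_sing _ (not_not.mp hg)]
      simp
  have h3 : ∑ g : G, (if p ∣ orderOf g then (H g : ℂ) else 0) = 0 := by
    have h4 : ∀ g : G, (H g : ℂ) = (if p ∣ orderOf g then (H g : ℂ) else 0) +
        (if ¬ p ∣ orderOf g then (H g : ℂ) else 0) := by
      intro g
      by_cases hg : p ∣ orderOf g <;> simp [hg]
    have h5 := h1
    rw [Finset.sum_congr rfl fun g _ => h4 g, Finset.sum_add_distrib, ← hr, h2] at h5
    simpa using h5
  have h4 : ∑ g : G, (if p ∣ orderOf g then H g else 0) = 0 := by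
    have : ((∑ g : G, (if p ∣ orderOf g then H g else 0) : ℝ) : ℂ) = 0 := by
      push_cast
      rw [← h3]
      refine Finset.sum_congr rfl fun g _ => ?_
      split_ifs <;> simp
    exact_mod_cast this
  have hHnn : ∀ g, 0 ≤ H g := fun g =>
    Finset.sum_nonneg fun ξ _ => Complex.normSq_nonneg _
  have h5 := (Finset.sum_eq_zero_iff_of_nonneg (fun g _ => by
    split_ifs
    · exact hHnn g
    · exact le_rfl)).1 h4 g (Finset.mem_univ _)
  rw [if_pos hg] at h5
  have h6 := (Finset.sum_eq_zero_iff_of_nonneg (fun ξ _ => Complex.normSq_nonneg _)).1 h5 χ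
    (mem_bF.2 hχ)
  exact Complex.normSq_eq_zero.1 h6

/-- Let G be a finite group, p a prime, M a maximal ideal of the algebraic integers containing p, and B a p-block of G with defect group D. Then B contains exactly two irreducible characters if and only if D has order 2. -/
theorem result {G : Type*} [Group G] [Finite G] (p : ℕ) [Fact p.Prime] (M : Ideal Cfsg.AlgInt) (hM : Cfsg.IsPModular p M) (B : Set (Cfsg.IrrCharacter G)) (hB : Cfsg.IsPBlock M B) (D : Subgroup G) (hD : Cfsg.IsDefectGroup p M B D) : Nat.card B = 2 ↔ Nat.card D = 2 := by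
  classical
  letI : Fintype G := Fintype.ofFinite G
  have hMp := hM.2.1.isPrime
  have hp : p.Prime := Fact.out
  have hcard := card_isDefectGroup hM hB hD
  constructor
  · intro h2
    obtain ⟨χ₁, χ₂, hne, hB2⟩ : ∃ χ₁ χ₂ : Cfsg.IrrCharacter G, χ₁ ≠ χ₂ ∧ B = {χ₁, χ₂} := by
      rw [Nat.card_coe_set_eq] at h2
      exact Set.ncard_eq_two.1 h2
    have hχ₁ : χ₁ ∈ B := by rw [hB2]; simp
    have hχ₂ : χ₂ ∈ B := by rw [hB2]; simp
    obtain ⟨V, hV1, hV2⟩ := Cfsg.Agent.Lib.BlockResidue.exists_val M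
    have hdeg := Cfsg.Agent.Lib.BlockBrandt.charDegree_eq hV1 hV2 hB hne hB2
    have hbF : (bF B).card = 2 := by
      have : bF B = {χ₁, χ₂} := by
        ext ψ
        rw [mem_bF, hB2]
        simp
      rw [this, Finset.card_pair hne]
    have h1 : (χ₁ : G → ℂ) 1 = (χ₂ : G → ℂ) 1 := by
      rw [one_eq_charDegree (IsIrrCharacter.isCharacter χ₁.2),
        one_eq_charDegree (IsIrrCharacter.isCharacter χ₂.2), hdeg]
    have h1ne : (χ₂ : G → ℂ) 1 ≠ 0 := irr_one_ne_zero' χ₂.2
    have hreg1 : ¬ p ∣ orderOf (1 : G) := by simp [hp.one_lt.ne']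
    -- the regular parts are dependent
    have hdep : ¬ LinearIndependent ℂ ![pRegularPart p (χ₁ : G → ℂ), pRegularPart p (χ₂ : G → ℂ)] := by
      intro hind
      have hr : blockRank p B = 2 := by
        unfold blockRank
        have himg : (fun χ : Cfsg.IrrCharacter G => pRegularPart p (χ : G → ℂ)) '' B =
            Set.range ![pRegularPart p (χ₁ : G → ℂ), pRegularPart p (χ₂ : G → ℂ)] := by
          rw [hB2, Set.image_pair, Matrix.range_cons, Matrix.range_cons, Matrix.range_empty,
            Set.union_empty, Set.singleton_union]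
        rw [himg, finrank_span_eq_card hind]
        simp
      have hv : ∀ g, p ∣ orderOf g → (χ₁ : G → ℂ) g = 0 := fun g hg =>
        vanish_of_rank hM hB (by rw [hr, hbF]) g hg χ₁ hχ₁
      have hdvd := dvd_charDegree_of_vanish hp (IsIrrCharacter.isCharacter χ₁.2) hv
      have hmem : χ₂ ∈ blockOf M (χ₁ : G → ℂ) := by
        have hBeq : B = blockOf M (χ₁ : G → ℂ) := by
          obtain ⟨χ, rfl⟩ := hB
          exact (blockOf_eq_of_mem hχ₁).symm
        rw [← hBeq]
        exact hχ₂
      exact hne (eq_of_mem_blockOf_of_dvd hM hdvd hmem).symm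
    have hagree : ∀ s : G, ¬ p ∣ orderOf s → (χ₂ : G → ℂ) s = (χ₁ : G → ℂ) s := by
      rw [LinearIndependent.pair_iff] at hdep
      push Not at hdep
      obtain ⟨a, b, hab, hnz⟩ := hdep
      have hab1 := congrFun hab 1
      simp only [Pi.add_apply, Pi.smul_apply, smul_eq_mul, Pi.zero_apply,
        pRegularPart_of_reg _ hreg1] at hab1
      rw [h1, ← add_mul] at hab1
      have hab2 : a + b = 0 := (mul_eq_zero.1 hab1).resolve_right h1ne
      have hb : b ≠ 0 := by
        intro hb
        apply hnz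
        · rw [hb, add_zero] at hab2; exact hab2
        · exact hb
      intro s hs
      have hab3 := congrFun hab s
      simp only [Pi.add_apply, Pi.smul_apply, smul_eq_mul, Pi.zero_apply,
        pRegularPart_of_reg _ hs] at hab3
      have ha : a = -b := by linear_combination hab2
      rw [ha] at hab3
      have : b * ((χ₂ : G → ℂ) s - (χ₁ : G → ℂ) s) = 0 := by linear_combination hab3
      exact sub_eq_zero.1 ((mul_eq_zero.1 this).resolve_left hb)
    have hreg : ∀ ξ ∈ B, ∀ s : G, ¬ p ∣ orderOf s → (ξ : G → ℂ) s = (χ₁ : G → ℂ) s := by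
      intro ξ hξ s hs
      rw [hB2] at hξ
      rcases hξ with rfl | hξ
      · rfl
      · rw [Set.mem_singleton_iff.1 hξ]
        exact hagree s hs
    have hu := (Cfsg.Agent.Lib.BlockUniform.uniform hM hB hχ₁ hreg).2
    rw [hcard, ← hu, hbF]
  · intro h2
    have hp2 : p = 2 := by
      have h3 : p ^ blockDefect p B = 2 := hcard.symm.trans h2
      have h4 : p ∣ 2 := by
        rw [← h3]
        refine dvd_pow_self p ?_
        intro h0
        rw [h0, pow_zero] at h3
        omega
      exact (Nat.prime_dvd_prime_iff_eq hp Nat.prime_two).1 h4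
    subst hp2
    exact (Cfsg.Agent.Lib.BlockInvol.agree_of_card_two hM hB hD h2).1

end Cfsg.Agent.S4607
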