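import Mathlib
import Cfsg.Statements.S4611
import Cfsg.Agent.Lib.BlockNormal

set_option autoImplicit false
open Cfsg

namespace Cfsg.Agent.S4611

open Cfsg.Agent.Lib Cfsg.Agent.Lib.BlockIdem Cfsg.Agent.Lib.BlockLocal Cfsg.Agent.Lib.BlockNormal

set_option linter.style.haveILetI false

/-- Let G be a finite solvable group and π a nonempty set of primes, each dividing the order of G; fix for each p in π a maximal ideal M p of the algebraic integers containing p. Then the only irreducible character lying in the principal p-block for every p in π is the principal character if and only if G is generated by the subgroups O_{p'}(G), p in π (the largest normal subgroups of order prime to p). -/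
theorem result {G : Type*} [Group G] [Finite G] [Group.IsSolvable G] (π : Set ℕ) (hπ : ∀ p ∈ π, p.Prime ∧ p ∣ Nat.card G) (hne : π.Nonempty) (M : ℕ → Ideal Cfsg.AlgInt) (hM : ∀ p ∈ π, Cfsg.IsPModular p (M p)) :
    (∀ χ : Cfsg.IrrCharacter G, (∀ p ∈ π, χ ∈ Cfsg.principalBlock (M p) G) → (χ : G → ℂ) = fun _ => 1) ↔
      ⨆ p ∈ π, Cfsg.pPrimeCore p G = ⊤ := by
  classical
  letI : Fintype G := Fintype.ofFinite G
  constructor
  · intro h
    by_contra hL
    set L : Subgroup G := ⨆ p ∈ π, Cfsg.pPrimeCore p G with hLdef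
    haveI hLn : L.Normal := Subgroup.biSup_normal π _ (fun p _ => inferInstance)
    have hnt : Nontrivial (G ⧸ L) := by
      apply QuotientGroup.nontrivial_iff.2 ?_
      exact hL
    obtain ⟨z, hz⟩ := exists_ne (1 : G ⧸ L)
    have hex : ∃ θ : IrrCharacter (G ⧸ L), (θ : G ⧸ L → ℂ) z ≠ (θ : G ⧸ L → ℂ) 1 := by
      by_contra hcon
      push Not at hcon
      have := CharAvg.isConj_of_forall_irr hcon
      exact hz (isConj_one_right.1 this.symm)
    obtain ⟨θ, hθ⟩ := hex
    let χ : IrrCharacter G := ⟨(θ : G ⧸ L → ℂ) ∘ QuotientGroup.mk' L,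
      CharBasic.isIrrCharacter_comp_of_surjective _ (QuotientGroup.mk'_surjective L) θ.2⟩
    have hmem : ∀ p ∈ π, χ ∈ principalBlock (M p) G := by
      intro p hp
      haveI : Fact p.Prime := ⟨(hπ p hp).1⟩
      apply mem_principalBlock_of_pSolvable (hM p hp)
      · exact isPSolvable_of_isSolvable p _ G rfl
      · intro x hx
        have h1 : x ∈ L := (le_iSup₂_of_le (f := fun p (_ : p ∈ π) => Cfsg.pPrimeCore p G) p hp le_rfl) hx
        have h2 : (QuotientGroup.mk' L) x = 1 := by
          rw [← MonoidHom.mem_ker, QuotientGroup.ker_mk']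
          exact h1
        change (θ : G ⧸ L → ℂ) (QuotientGroup.mk' L x) = (θ : G ⧸ L → ℂ) (QuotientGroup.mk' L 1)
        rw [h2, map_one]
    have h1 := h χ hmem
    apply hθ
    obtain ⟨x, rfl⟩ := QuotientGroup.mk'_surjective L z
    have h2 := congrFun h1 x
    have h3 := congrFun h1 1
    change (θ : G ⧸ L → ℂ) (QuotientGroup.mk' L x) = 1 at h2
    change (θ : G ⧸ L → ℂ) (QuotientGroup.mk' L 1) = 1 at h3
    rw [map_one] at h3
    rw [h2, h3]
  · intro h χ hχ
    have hc := CharBasic.IsIrrCharacter.isCharacter χ.2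
    have hle : (⨆ p ∈ π, Cfsg.pPrimeCore p G) ≤ CharKernel.charKer hc := by
      refine iSup₂_le fun p hp x hx => ?_
      haveI : Fact p.Prime := ⟨(hπ p hp).1⟩
      exact eq_of_mem_principalBlock (hM p hp) (Cfsg.pPrimeCore p G)
        (PCore.not_dvd_card_pPrimeCore p) χ (hχ p hp) x hx
    rw [h] at hle
    have hval : ∀ g : G, (χ : G → ℂ) g = (χ : G → ℂ) 1 := fun g => hle (Subgroup.mem_top g)
    obtain ⟨n, hn, hn1⟩ := CharAvg.irr_one_eq χ.2
    have h1 := CharBasic.classInner_irr_self χ.2
    unfold classInner at h1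
    simp_rw [hval] at h1
    rw [Finset.sum_const, Finset.card_univ, ← Nat.card_eq_fintype_card, nsmul_eq_mul, hn1,
      Complex.conj_natCast] at h1
    have hG : (Nat.card G : ℂ) ≠ 0 := by exact_mod_cast Nat.card_pos.ne'
    have h2 : ((n * n : ℕ) : ℂ) = 1 := by
      push_cast
      field_simp at h1
      linear_combination h1
    have h3 : n * n = 1 := by exact_mod_cast h2
    have h4 : n = 1 := Nat.eq_one_of_mul_eq_one_right h3
    funext g
    rw [hval g, hn1, h4]
    simp

end Cfsg.Agent.S4611
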