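import Mathlib
import Cfsg.Statements.S4619

set_option autoImplicit false
open scoped Pointwise
open Cfsg

namespace Cfsg.Agent.S4619

/-- Let P be a Sylow p-subgroup of the finite group G that is a trivial-intersection set: P meets each conjugate g P g⁻¹ with g outside N_G(P) trivially. Then for every nontrivial subgroup Q of P the normalizer of Q lies in the normalizer of P, and any g ∈ G conjugating Q into P lies in N_G(P). -/
theorem result {G : Type*} [Group G] [Finite G] (p : ℕ) [Fact p.Prime] (P : Sylow p G) (hTI : (∀ g : G, g ∉ Subgroup.normalizer ((P : Subgroup G) : Set G) → (P : Subgroup G) ⊓ (MulAut.conj g • (P : Subgroup G)) = ⊥)) (Q : Subgroup G) (hQ : Q ≤ (P : Subgroup G)) (hQ1 : Q ≠ ⊥) :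
    Subgroup.normalizer (Q : Set G) ≤ Subgroup.normalizer ((P : Subgroup G) : Set G) ∧
      ∀ g : G, MulAut.conj g • Q ≤ (P : Subgroup G) → g ∈ Subgroup.normalizer ((P : Subgroup G) : Set G) := by
  have key : ∀ g : G, MulAut.conj g • Q ≤ (P : Subgroup G) → g ∈ Subgroup.normalizer ((P : Subgroup G) : Set G) := by
    intro g hg
    by_contra hgn
    have h := hTI g hgn
    apply hQ1
    rw [eq_bot_iff]
    intro x hx
    have h1 : MulAut.conj g • x ∈ MulAut.conj g • Q := Subgroup.smul_mem_pointwise_smul _ _ _ hx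
    have h2 : MulAut.conj g • x ∈ MulAut.conj g • (P : Subgroup G) :=
      Subgroup.smul_mem_pointwise_smul _ _ _ (hQ hx)
    have h3 : MulAut.conj g • x ∈ (P : Subgroup G) ⊓ (MulAut.conj g • (P : Subgroup G)) :=
      ⟨hg h1, h2⟩
    rw [h] at h3
    have h4 : MulAut.conj g • x = 1 := (Subgroup.mem_bot).1 h3
    have h5 : x = 1 := by
      have : g * x * g⁻¹ = 1 := by simpa [MulAut.smul_def] using h4
      have h6 : g * x = g := by
        have := congrArg (· * g) this
        simpa using this
      simpa using h6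
    simp [h5]
  refine ⟨?_, key⟩
  intro g hg
  apply key
  intro y hy
  obtain ⟨x, hx, rfl⟩ := (Subgroup.mem_pointwise_smul_iff_inv_smul_mem.1 hy |> fun h => (⟨(MulAut.conj g)⁻¹ • y, h, smul_inv_smul _ _⟩ : ∃ x, x ∈ Q ∧ MulAut.conj g • x = y))
  have hxQ : (MulAut.conj g) • x ∈ Q := by
    have := (Subgroup.mem_normalizer_iff.1 hg x).1 hx
    simpa [MulAut.smul_def] using this
  exact hQ hxQ

end Cfsg.Agent.S4619
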