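import Mathlib
import Cfsg.Statements.S4620
import Cfsg.Agent.Lib.PCore

set_option autoImplicit false
open scoped Pointwise
open Cfsg

namespace Cfsg.Agent.S4620

open Cfsg.Agent.Lib.PCore

set_option linter.unusedSectionVars false
set_option linter.style.haveILetI false

variable {H : Type*} [Group H] [Finite H]

/-- Trivial intersection, as a property of a subgroup. -/
def TIS (S : Subgroup H) : Prop := ∀ g : H, g ∉ Subgroup.normalizer (S : Set H) →
  S ⊓ (MulAut.conj g • S) = ⊥

theorem mem_normalizer_of_commute {S : Subgroup H} (hTI : TIS S) {x y : H} (hx : x ∈ S) (hx1 : x ≠ 1)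
    (hxy : x * y = y * x) : y ∈ Subgroup.normalizer (S : Set H) := by
  by_contra hy
  have h := hTI y hy
  have h1 : x ∈ MulAut.conj y • S := by
    rw [Subgroup.mem_pointwise_smul_iff_inv_smul_mem]
    have : (MulAut.conj y)⁻¹ • x = x := by
      rw [inv_smul_eq_iff, MulAut.smul_def, MulAut.conj_apply, ← hxy]
      simp
    rwa [this]
  have h2 : x ∈ S ⊓ (MulAut.conj y • S) := ⟨hx, h1⟩
  rw [h, Subgroup.mem_bot] at h2
  exact hx1 h2

theorem conj_inv_smul (g y : H) : (MulAut.conj g)⁻¹ • y = g⁻¹ * y * g := by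
  rw [MulAut.smul_def, MulAut.conj_inv_apply]

theorem mem_normalizer_iff_conj {S : Subgroup H} {g : H} :
    g ∈ Subgroup.normalizer (S : Set H) ↔ MulAut.conj g • S = S := by
  rw [Subgroup.mem_normalizer_iff]
  constructor
  · intro h
    ext y
    rw [Subgroup.mem_pointwise_smul_iff_inv_smul_mem]
    rw [conj_inv_smul, h (g⁻¹ * y * g)]
    have h3 : g * (g⁻¹ * y * g) * g⁻¹ = y := by group
    rw [h3]
  · intro h y
    constructor
    · intro hy
      have h2 : MulAut.conj g • y ∈ MulAut.conj g • S := Subgroup.smul_mem_pointwise_smul _ _ _ hy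
      rw [h] at h2
      simpa [MulAut.smul_def] using h2
    · intro hy
      have h2 : g * y * g⁻¹ ∈ MulAut.conj g • S := by rw [h]; exact hy
      have h3 := Subgroup.mem_pointwise_smul_iff_inv_smul_mem.1 h2
      have h4 : (MulAut.conj g)⁻¹ • (g * y * g⁻¹) = y := by
        rw [inv_smul_eq_iff]; simp [MulAut.smul_def]
      rwa [h4] at h3

theorem TIS.conj {S : Subgroup H} (hS : TIS S) (a : H) : TIS (MulAut.conj a • S) := by
  intro g hg
  have h1 : a⁻¹ * g * a ∉ Subgroup.normalizer (S : Set H) := by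
    intro hmem
    apply hg
    rw [mem_normalizer_iff_conj] at hmem ⊢
    have h2 : MulAut.conj g * MulAut.conj a = MulAut.conj a * MulAut.conj (a⁻¹ * g * a) := by
      rw [← map_mul, ← map_mul]; congr 1; group
    rw [smul_smul, h2, ← smul_smul, hmem]
  have h2 := hS _ h1
  have h3 : MulAut.conj g • MulAut.conj a • S = MulAut.conj a • (MulAut.conj (a⁻¹ * g * a) • S) := by
    rw [smul_smul, smul_smul, ← map_mul, ← map_mul]; congr 2; group
  rw [h3, ← Subgroup.smul_inf, h2, Subgroup.smul_bot]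

/-! Normal-in-`A` subgroups for a normal subgroup `A`. -/

/-- `R` is a nontrivial subgroup of `A`, normalized by `A`. -/
structure QQ (A R : Subgroup H) : Prop where
  le : R ≤ A
  norm : A ≤ Subgroup.normalizer (R : Set H)
  ne : R ≠ ⊥

theorem eq_bot_of_isPGroup {p : ℕ} [Fact p.Prime] (hOp : pCore p H = ⊥) (A : Subgroup H) [hA : A.Normal]
    (X : Subgroup H) (hle : X ≤ A) (hnorm : A ≤ Subgroup.normalizer (X : Set H)) (hX : IsPGroup p X) :
    X = ⊥ := by
  let X' : Subgroup A := X.subgroupOf A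
  have hX'normal : X'.Normal := by
    constructor
    intro n hn g
    have h1 : (n : H) ∈ X := hn
    have h2 := (Subgroup.mem_normalizer_iff.1 (hnorm g.2) n).1 h1
    exact h2
  have hX'p : IsPGroup p X' := hX.of_equiv (Subgroup.subgroupOfEquivOfLe hle).symm
  have h1 : X' ≤ pCore p A := le_pCore hX'normal hX'p
  have hmapn : ((pCore p A).map A.subtype).Normal := by
    constructor
    rintro _ ⟨k, hk, rfl⟩ g
    have h : k ∈ (pCore p A).comap (MulAut.conjNormal g : MulAut A).toMonoidHom := by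
      rw [(inferInstance : (pCore p A).Characteristic).fixed]; exact hk
    refine ⟨_, h, ?_⟩
    simp [MulAut.conjNormal_apply]
  have hmapp : IsPGroup p ((pCore p A).map A.subtype) := (isPGroup_pCore p).map A.subtype
  have h2 : (pCore p A).map A.subtype ≤ pCore p H := le_pCore hmapn hmapp
  rw [hOp] at h2
  rw [eq_bot_iff]
  intro x hx
  have h3 : (⟨x, hle hx⟩ : A) ∈ pCore p A := h1 hx
  have h4 := h2 ⟨_, h3, rfl⟩
  simpa using h4

theorem eq_bot_of_coprime {p : ℕ} [Fact p.Prime] (hOp' : pPrimeCore p H = ⊥) (A : Subgroup H) [hA : A.Normal]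
    (X : Subgroup H) (hle : X ≤ A) (hnorm : A ≤ Subgroup.normalizer (X : Set H))
    (hX : (Nat.card X).Coprime p) : X = ⊥ := by
  let X' : Subgroup A := X.subgroupOf A
  have hX'normal : X'.Normal := by
    constructor
    intro n hn g
    have h1 : (n : H) ∈ X := hn
    have h2 := (Subgroup.mem_normalizer_iff.1 (hnorm g.2) n).1 h1
    exact h2
  have hX'p : (Nat.card X').Coprime p := by
    have : Nat.card X' = Nat.card X := Nat.card_congr (Subgroup.subgroupOfEquivOfLe hle).toEquiv
    rwa [this]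
  have h1 : X' ≤ pPrimeCore p A := le_pPrimeCore hX'normal hX'p
  have hmapn : ((pPrimeCore p A).map A.subtype).Normal := by
    constructor
    rintro _ ⟨k, hk, rfl⟩ g
    have h : k ∈ (pPrimeCore p A).comap (MulAut.conjNormal g : MulAut A).toMonoidHom := by
      rw [(inferInstance : (pPrimeCore p A).Characteristic).fixed]; exact hk
    refine ⟨_, h, ?_⟩
    simp [MulAut.conjNormal_apply]
  have hmapp : (Nat.card ((pPrimeCore p A).map A.subtype)).Coprime p := by
    have : Nat.card ((pPrimeCore p A).map A.subtype) = Nat.card (pPrimeCore p A) :=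
      Nat.card_congr (Subgroup.equivMapOfInjective _ _ A.subtype_injective).symm.toEquiv
    rw [this]
    exact card_pPrimeCore_coprime p
  have h2 : (pPrimeCore p A).map A.subtype ≤ pPrimeCore p H := le_pPrimeCore hmapn hmapp
  rw [hOp'] at h2
  rw [eq_bot_iff]
  intro x hx
  have h3 : (⟨x, hle hx⟩ : A) ∈ pPrimeCore p A := h1 hx
  have h4 := h2 ⟨_, h3, rfl⟩
  simpa using h4

section main

variable {p : ℕ} [Fact p.Prime]

theorem QQ.dvd (hOp' : pPrimeCore p H = ⊥) {A R : Subgroup H} [A.Normal] (hR : QQ A R) : p ∣ Nat.card R := by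
  by_contra hdvd
  have hc : (Nat.card R).Coprime p := ((Nat.Prime.coprime_iff_not_dvd Fact.out).2 hdvd).symm
  exact hR.ne (eq_bot_of_coprime hOp' A R hR.le hR.norm hc)

/-- `R` contains an element of order `p`. -/
theorem QQ.exists_order (hOp' : pPrimeCore p H = ⊥) {A R : Subgroup H} [A.Normal] (hR : QQ A R) :
    ∃ x ∈ R, x ≠ 1 ∧ orderOf x = p := by
  obtain ⟨x, hx⟩ := exists_prime_orderOf_dvd_card' p (hR.dvd hOp')
  refine ⟨x, x.2, ?_, ?_⟩
  · intro h1
    have : x = 1 := Subtype.ext h1
    rw [this, orderOf_one] at hx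
    exact (Fact.out : p.Prime).ne_one hx.symm
  · simpa using hx

theorem mem_sylow_of_mem_normalizer (S : Sylow p H) {y : H} {k : ℕ} (hy : orderOf y = p ^ k)
    (hyn : y ∈ Subgroup.normalizer ((S : Subgroup H) : Set H)) : y ∈ (S : Subgroup H) := by
  have hz : IsPGroup p (Subgroup.zpowers y) := by
    rw [IsPGroup.iff_card, Nat.card_zpowers, hy]
    exact ⟨k, rfl⟩
  have h1 := hz.inf_normalizer_sylow S
  have h2 := h1.le ⟨Subgroup.mem_zpowers y, hyn⟩
  exact h2.2

theorem orderOf_pow_of_isPGroup {X : Subgroup H} (hX : IsPGroup p X) {y : H} (hy : y ∈ X) :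
    ∃ k, orderOf y = p ^ k := by
  obtain ⟨k, hk⟩ := hX ⟨y, hy⟩
  have h1 : y ^ (p ^ k) = 1 := by simpa using congrArg Subtype.val hk
  have h2 := orderOf_dvd_of_pow_eq_one h1
  obtain ⟨j, _, hj⟩ := (Nat.dvd_prime_pow Fact.out).1 h2
  exact ⟨j, hj⟩

/-- A nontrivial `A`-normalized subgroup cannot normalize a Sylow subgroup. -/
theorem QQ.not_le_normalizer (hOp : pCore p H = ⊥) (hOp' : pPrimeCore p H = ⊥) {A R : Subgroup H} [A.Normal]
    (hR : QQ A R) (S : Sylow p H) : ¬ R ≤ Subgroup.normalizer ((S : Subgroup H) : Set H) := by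
  intro hle
  obtain ⟨x, hxR, hx1, hxo⟩ := hR.exists_order hOp'
  have hxS : x ∈ (S : Subgroup H) :=
    mem_sylow_of_mem_normalizer S (k := 1) (by simpa using hxo) (hle hxR)
  have hbot : R ⊓ (S : Subgroup H) = ⊥ := by
    apply eq_bot_of_isPGroup hOp A
    · exact inf_le_left.trans hR.le
    · intro a ha
      rw [Subgroup.mem_normalizer_iff]
      have key : ∀ b ∈ A, ∀ t, t ∈ (R ⊓ (S : Subgroup H)) → b * t * b⁻¹ ∈ (R ⊓ (S : Subgroup H)) := by
        intro b hb t ht
        have h1 : b * t * b⁻¹ ∈ R := (Subgroup.mem_normalizer_iff.1 (hR.norm hb) t).1 ht.1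
        refine ⟨h1, ?_⟩
        obtain ⟨k, hk⟩ := orderOf_pow_of_isPGroup (p := p) (S.isPGroup') ht.2
        apply mem_sylow_of_mem_normalizer S (k := k)
        · have h3 : orderOf (b * t * b⁻¹) = orderOf t := by
            rw [← MulAut.conj_apply]
            exact MulEquiv.orderOf_eq _ _
          rw [h3, hk]
        · exact hle h1
      intro t
      refine ⟨key a ha t, ?_⟩
      intro ht
      have := key a⁻¹ (A.inv_mem ha) _ ht
      simpa [mul_assoc] using this
    · exact S.isPGroup'.to_le inf_le_right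
  have : x ∈ R ⊓ (S : Subgroup H) := ⟨hxR, hxS⟩
  rw [hbot, Subgroup.mem_bot] at this
  exact hx1 this

theorem exists_sylow_mem {x : H} {k : ℕ} (hx : orderOf x = p ^ k) : ∃ S : Sylow p H, x ∈ (S : Subgroup H) := by
  have hz : IsPGroup p (Subgroup.zpowers x) := by
    rw [IsPGroup.iff_card, Nat.card_zpowers, hx]
    exact ⟨k, rfl⟩
  obtain ⟨S, hS⟩ := hz.exists_le_sylow
  exact ⟨S, hS (Subgroup.mem_zpowers x)⟩

/-- Two nontrivial `A`-normalized subgroups meet. -/
theorem QQ.inf_ne_bot (hTI : ∀ S : Sylow p H, TIS (S : Subgroup H)) (hOp : pCore p H = ⊥)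
    (hOp' : pPrimeCore p H = ⊥) {A R R' : Subgroup H} [A.Normal] (hR : QQ A R) (hR' : QQ A R') :
    R ⊓ R' ≠ ⊥ := by
  intro hbot
  obtain ⟨x, hxR, hx1, hxo⟩ := hR.exists_order hOp'
  obtain ⟨S, hxS⟩ := exists_sylow_mem (p := p) (k := 1) (x := x) (by simpa using hxo)
  apply hR'.not_le_normalizer hOp hOp' S
  intro y hy
  apply mem_normalizer_of_commute (hTI S) hxS hx1
  have h1 : x * y * x⁻¹ ∈ R' := (Subgroup.mem_normalizer_iff.1 (hR'.norm (hR.le hxR)) y).1 hy
  have h2 : y * x⁻¹ * y⁻¹ ∈ R := by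
    have := (Subgroup.mem_normalizer_iff.1 (hR.norm (hR'.le hy)) _).1 (R.inv_mem hxR)
    exact this
  have h3 : x * y * x⁻¹ * y⁻¹ ∈ R ⊓ R' := by
    refine ⟨?_, R'.mul_mem h1 (R'.inv_mem hy)⟩
    have := R.mul_mem hxR h2
    simpa [mul_assoc] using this
  rw [hbot, Subgroup.mem_bot] at h3
  have h4 : x * y * x⁻¹ = y := by
    have := congrArg (· * y) h3
    simpa using this
  have := congrArg (· * x) h4
  simpa using this

end main

/-- Let H be a finite group with no nontrivial normal p-subgroup and no nontrivial normal subgroup of order prime to p, whose Sylow p-subgroup P is nontrivial and a trivial-intersection set (P meets its conjugates by elements outside N_H(P) trivially). Then H has a unique minimal normal subgroup N; N is non-abelian simple with trivial centralizer in H (so H embeds in Aut(N)), and a Sylow p-subgroup of N is again a nontrivial trivial-intersection set in N. -/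
theorem result {H : Type*} [Group H] [Finite H] (p : ℕ) [Fact p.Prime] (hOp : Cfsg.pCore p H = ⊥) (hOp' : Cfsg.pPrimeCore p H = ⊥) (P : Sylow p H) (hP1 : (P : Subgroup H) ≠ ⊥)
    (hTI : ∀ g : H, g ∉ Subgroup.normalizer ((P : Subgroup H) : Set H) → (P : Subgroup H) ⊓ (MulAut.conj g • (P : Subgroup H)) = ⊥) :
    ∃ N : Subgroup H, N.Normal ∧ N ≠ ⊥ ∧ (∀ K : Subgroup H, K.Normal → K ≠ ⊥ → N ≤ K) ∧
      IsSimpleGroup N ∧ ¬ IsMulCommutative N ∧ Subgroup.centralizer (N : Set H) = ⊥ ∧
      ∀ Q : Sylow p N, (Q : Subgroup N) ≠ ⊥ ∧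
        ∀ n : N, n ∉ Subgroup.normalizer ((Q : Subgroup N) : Set N) → (Q : Subgroup N) ⊓ (MulAut.conj n • (Q : Subgroup N)) = ⊥ := by
  classical
  -- TI for all Sylow subgroups
  have hTIall : ∀ S : Sylow p H, TIS (S : Subgroup H) := by
    intro S
    obtain ⟨a, rfl⟩ := MulAction.exists_smul_eq H P S
    rw [Sylow.coe_subgroup_smul]
    exact TIS.conj (S := (P : Subgroup H)) hTI a
  have htop : (⊤ : Subgroup H).Normal := inferInstance
  have hQnormal : ∀ K : Subgroup H, K.Normal → K ≠ ⊥ → QQ (⊤ : Subgroup H) K := by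
    intro K hK hne
    exact ⟨le_top, fun g _ => Subgroup.mem_normalizer_iff.2 (fun y => by
      constructor
      · intro hy; exact hK.conj_mem y hy g
      · intro hy
        have := hK.conj_mem _ hy g⁻¹
        simpa [mul_assoc] using this), hne⟩
  -- a minimal normal subgroup
  have hset : ({K : Subgroup H | K.Normal ∧ K ≠ ⊥}).Nonempty := by
    refine ⟨⊤, htop, ?_⟩
    intro h
    apply hP1
    rw [eq_bot_iff, ← h]
    exact le_top
  obtain ⟨N, hNmin⟩ := (Set.toFinite {K : Subgroup H | K.Normal ∧ K ≠ ⊥}).exists_minimal hset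
  have hNn : N.Normal := hNmin.1.1
  have hN1 : N ≠ ⊥ := hNmin.1.2
  have hNle : ∀ K : Subgroup H, K.Normal → K ≠ ⊥ → N ≤ K := by
    intro K hK hne
    have h1 := (hQnormal K hK hne).inf_ne_bot hTIall hOp hOp' (hQnormal N hNn hN1)
    have h2 : (K ⊓ N).Normal := inferInstance
    have h3 := hNmin.2 ⟨h2, h1⟩ inf_le_right
    exact h3.trans inf_le_left
  have hQN : QQ (⊤ : Subgroup H) N := hQnormal N hNn hN1
  obtain ⟨x₀, hx₀N, hx₀1, hx₀o⟩ := hQN.exists_order hOp'
  obtain ⟨S₀, hx₀S⟩ := exists_sylow_mem (p := p) (k := 1) (x := x₀) (by simpa using hx₀o)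
  -- the centralizer of `N` is trivial
  have hC : Subgroup.centralizer (N : Set H) = ⊥ := by
    by_contra hne
    have hCn : (Subgroup.centralizer (N : Set H)).Normal := inferInstance
    apply (hQnormal _ hCn hne).not_le_normalizer hOp hOp' S₀
    intro y hy
    apply mem_normalizer_of_commute (hTIall S₀) hx₀S hx₀1
    exact ((Subgroup.mem_centralizer_iff.1 hy) x₀ hx₀N)
  -- `N` is not commutative
  have hNnc : ¬ IsMulCommutative N := by
    intro hc
    apply hQN.not_le_normalizer hOp hOp' S₀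
    intro y hy
    apply mem_normalizer_of_commute (hTIall S₀) hx₀S hx₀1
    have := hc.is_comm.comm (⟨x₀, hx₀N⟩ : N) (⟨y, hy⟩ : N)
    exact congrArg Subtype.val this
  -- `N` is simple
  haveI : N.Normal := hNn
  have hNsimple : IsSimpleGroup N := by
    haveI : Nontrivial N := (Subgroup.nontrivial_iff_ne_bot N).2 hN1
    refine ⟨?_⟩
    intro R hR
    by_cases hR1 : R = ⊥
    · exact Or.inl hR1
    right
    -- the family of `N`-normalized subgroups of `N`
    have hset2 : ({K : Subgroup H | QQ N K}).Nonempty :=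
      ⟨N, le_rfl, fun n hn => Subgroup.mem_normalizer_iff.2 (fun y => by
        constructor
        · intro hy; exact N.mul_mem (N.mul_mem hn hy) (N.inv_mem hn)
        · intro hy
          have := N.mul_mem (N.mul_mem (N.inv_mem hn) hy) hn
          simpa [mul_assoc] using this), hN1⟩
    obtain ⟨K, hKmin⟩ := (Set.toFinite {K : Subgroup H | QQ N K}).exists_minimal hset2
    have hKle : ∀ R' : Subgroup H, QQ N R' → K ≤ R' := by
      intro R' hR'
      have h1 := QQ.inf_ne_bot hTIall hOp hOp' hKmin.1 hR'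
      have h2 : QQ N (K ⊓ R') := by
        refine ⟨inf_le_left.trans hKmin.1.le, ?_, h1⟩
        intro n hn
        rw [Subgroup.mem_normalizer_iff]
        intro y
        have h3 := Subgroup.mem_normalizer_iff.1 (hKmin.1.norm hn) y
        have h4 := Subgroup.mem_normalizer_iff.1 (hR'.norm hn) y
        simp only [Subgroup.mem_inf, h3, h4]
      have h3 := hKmin.2 h2 inf_le_left
      exact h3.trans inf_le_right
    have hKnormal : K.Normal := by
      constructor
      intro t ht g
      -- `K ≤ g⁻¹ • K` ...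
      have hconj : QQ N (MulAut.conj g⁻¹ • K) := by
        refine ⟨?_, ?_, ?_⟩
        · intro y hy
          have h1 := Subgroup.mem_pointwise_smul_iff_inv_smul_mem.1 hy
          have h2 := hKmin.1.le h1
          have h3 : (MulAut.conj g⁻¹)⁻¹ • y = g * y * g⁻¹ := by
            rw [conj_inv_smul, inv_inv]
          rw [h3] at h2
          have := hNn.conj_mem _ h2 g⁻¹
          simpa [mul_assoc] using this
        · intro n hn
          rw [Subgroup.mem_normalizer_iff]
          intro y
          have hconjform : ∀ z : H, z ∈ MulAut.conj g⁻¹ • K ↔ g * z * g⁻¹ ∈ K := by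
            intro z
            rw [Subgroup.mem_pointwise_smul_iff_inv_smul_mem]
            have h3 : (MulAut.conj g⁻¹)⁻¹ • z = g * z * g⁻¹ := by
              rw [conj_inv_smul, inv_inv]
            rw [h3]
          rw [hconjform, hconjform]
          have hn' : g * n * g⁻¹ ∈ N := hNn.conj_mem n hn g
          have := Subgroup.mem_normalizer_iff.1 (hKmin.1.norm hn') (g * y * g⁻¹)
          rw [this]
          have h5 : g * n * g⁻¹ * (g * y * g⁻¹) * (g * n * g⁻¹)⁻¹ = g * (n * y * n⁻¹) * g⁻¹ := by group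
          rw [h5]
        · intro h
          apply hKmin.1.ne
          have : K = (MulAut.conj g⁻¹)⁻¹ • (MulAut.conj g⁻¹ • K) := by rw [inv_smul_smul]
          rw [this, h, Subgroup.smul_bot]
      have h1 := hKle _ hconj ht
      have h2 := Subgroup.mem_pointwise_smul_iff_inv_smul_mem.1 h1
      have h3 : (MulAut.conj g⁻¹)⁻¹ • t = g * t * g⁻¹ := by
        rw [conj_inv_smul, inv_inv]
      rwa [h3] at h2
    have hNK : N ≤ K := hNle K hKnormal hKmin.1.ne
    have hRQ : QQ N (R.map N.subtype) := by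
      refine ⟨Subgroup.map_subtype_le R, ?_, ?_⟩
      · intro n hn
        rw [Subgroup.mem_normalizer_iff]
        intro y
        constructor
        · rintro ⟨r, hr, rfl⟩
          exact ⟨⟨n, hn⟩ * r * (⟨n, hn⟩ : N)⁻¹, hR.conj_mem r hr _, by simp⟩
        · rintro ⟨r, hr, hry⟩
          have hy : y ∈ N := by
            have h1 : n * y * n⁻¹ ∈ N := by rw [← hry]; exact r.2
            have := N.mul_mem (N.mul_mem (N.inv_mem hn) h1) hn
            simpa [mul_assoc] using this
          refine ⟨⟨y, hy⟩, ?_, rfl⟩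
          have h2 := hR.conj_mem r hr (⟨n, hn⟩ : N)⁻¹
          have h3 : (⟨n, hn⟩ : N)⁻¹ * r * (⟨n, hn⟩ : N)⁻¹⁻¹ = ⟨y, hy⟩ := by
            apply Subtype.ext
            simp only [Subgroup.coe_mul, Subgroup.coe_inv, inv_inv, Subgroup.subtype_apply] at hry ⊢
            rw [hry]
            group
          rwa [h3] at h2
      · intro h
        apply hR1
        rw [Subgroup.map_eq_bot_iff_of_injective _ N.subtype_injective] at h
        exact h
    have h5 := hKle _ hRQ
    rw [eq_top_iff]
    intro r _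
    obtain ⟨r', hr', hrr⟩ := h5 (hNK r.2)
    have : r' = r := Subtype.ext hrr
    rwa [← this]
  refine ⟨N, hNn, hN1, hNle, hNsimple, hNnc, hC, ?_⟩
  -- Sylow subgroups of `N`
  intro Q
  have hpN : p ∣ Nat.card N := hQN.dvd hOp'
  refine ⟨Q.ne_bot_of_dvd_card hpN, ?_⟩
  intro n hn
  have hQ'p : IsPGroup p ((Q : Subgroup N).map N.subtype) := Q.isPGroup'.map N.subtype
  obtain ⟨S, hS⟩ := hQ'p.exists_le_sylow
  have hQS : (Q : Subgroup N) ≤ (S : Subgroup H).subgroupOf N := by
    intro z hz
    exact hS ⟨z, hz, rfl⟩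
  have hTp : IsPGroup p ((S : Subgroup H).subgroupOf N) :=
    (S.isPGroup').comap_of_injective N.subtype N.subtype_injective |>.to_le le_rfl
  have hQeq : (S : Subgroup H).subgroupOf N = (Q : Subgroup N) := Q.is_maximal' hTp hQS
  rw [eq_bot_iff]
  intro y hy
  by_contra hy1
  have hy1' : (y : H) ≠ 1 := by
    intro h
    apply hy1
    rw [Subgroup.mem_bot]
    exact Subtype.ext h
  have h1 : (y : H) ∈ (S : Subgroup H) := hS ⟨y, hy.1, rfl⟩
  have h2 := Subgroup.mem_pointwise_smul_iff_inv_smul_mem.1 hy.2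
  rw [conj_inv_smul] at h2
  have h3 : ((n⁻¹ * y * n : N) : H) ∈ (S : Subgroup H) := hS ⟨_, h2, rfl⟩
  have h4 : (y : H) ∈ MulAut.conj (n : H) • (S : Subgroup H) := by
    rw [Subgroup.mem_pointwise_smul_iff_inv_smul_mem, conj_inv_smul]
    simpa using h3
  have h5 : (n : H) ∈ Subgroup.normalizer ((S : Subgroup H) : Set H) := by
    by_contra hcon
    have h6 := hTIall S _ hcon
    have h7 : (y : H) ∈ (S : Subgroup H) ⊓ (MulAut.conj (n : H) • (S : Subgroup H)) := ⟨h1, h4⟩
    rw [h6, Subgroup.mem_bot] at h7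
    exact hy1' h7
  apply hn
  rw [Subgroup.mem_normalizer_iff]
  intro z
  have hzz : ∀ w : N, w ∈ (Q : Subgroup N) ↔ (w : H) ∈ (S : Subgroup H) := by
    intro w
    change w ∈ ((Q : Subgroup N) : Set N) ↔ _
    rw [← hQeq]
    exact Subgroup.mem_subgroupOf
  change z ∈ (Q : Subgroup N) ↔ n * z * n⁻¹ ∈ (Q : Subgroup N)
  rw [hzz, hzz]
  simpa using Subgroup.mem_normalizer_iff.1 h5 (z : H)

end Cfsg.Agent.S4620
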