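-- Statement S4625: `P/P'` is elementary abelian for Sylow 2-subgroups of Lie type groups in characteristic 2.
import Cfsg.Statements.S4625
import Cfsg.Agent.Lib.SqSyl.Linear
import Cfsg.Agent.Lib.SqSyl.PolarSyl
import Cfsg.Agent.Lib.SqSyl.TwInst
import Cfsg.Agent.Lib.Chev.Core

set_option autoImplicit false
open Cfsg

namespace Cfsg.Agent.S4625

open Cfsg.Agent.Lib.SqSyl

theorem of_char2 {F : Type*} [Field F] [Fintype F] [CharP F 2] : Even (Fintype.card F) := by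
  haveI : Fact (Nat.Prime 2) := ⟨Nat.prime_two⟩
  obtain ⟨n, _, hn⟩ := FiniteField.card F 2
  rw [hn]
  exact Nat.even_pow.2 ⟨even_two, n.pos.ne'⟩

theorem transfer {G Q : Type*} [Group G] [Group Q] [Finite G] (e : G ≃* Q) (h : AllSC 2 Q)
    [Fact (Nat.Prime 2)] : AllSC 2 G := by
  haveI : Finite Q := Finite.of_equiv G e.toEquiv
  exact AllSC.of_equiv e.symm h

theorem transfer_eq {F : Type*} [Field F] {ι : Type} [Fintype ι] [DecidableEq ι] {Q₁ Q₂ : (ι → F) → F} (h : Q₁ = Q₂)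
    [Fact (Nat.Prime 2)] (H : AllSC 2 (Cfsg.POmega F Q₂)) : AllSC 2 (Cfsg.POmega F Q₁) := by
  subst h
  exact H

theorem main {G : Type*} [Group G] [Finite G] [Fact (Nat.Prime 2)] (hG : Cfsg.IsLieTypeChar 2 G) : AllSC 2 G := by
  rcases hG with hG | hG | hG | hG | hG | hG | hG | hG | hG | hG | hG
  · obtain ⟨F, _, _, _, n, hn, -, ⟨e⟩⟩ := hG
    exact transfer e (allSC_PSL (by omega))
  · obtain ⟨F, _, _, _, m, hm, -, ⟨e⟩⟩ := hG
    exact transfer e (allSC_PSp m)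
  · obtain ⟨F, _, _, _, n, q, hF, hn, -, ⟨e⟩⟩ := hG
    exact transfer e (allSC_PSU (by omega) hF)
  · obtain ⟨F, _, _, _, m, hm, hodd, -⟩ := hG
    exact absurd hodd (Nat.not_odd_iff_even.2 of_char2)
  · obtain ⟨F, _, _, _, m, hm, ⟨e⟩⟩ := hG
    have hq : Cfsg.quadFormPlus m F = ⇑(Cfsg.Agent.Lib.OrthoCount.qPlus m F) :=
      funext fun v => (Cfsg.Agent.Lib.OrthoCount.qPlus_apply m v).symm
    haveI : Nonempty (Fin m) := ⟨⟨0, by omega⟩⟩
    have hOG : Cfsg.Agent.Lib.OrthGroup.O (Cfsg.Agent.Lib.OrthoCount.qPlus m F) ≤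
        Cfsg.Agent.Lib.OrthGroup.G (Cfsg.Agent.Lib.OrthoCount.qPlus m F) := by
      refine Cfsg.Agent.Lib.OrthGroup.O_le_G (Cfsg.Agent.Lib.ClOrth.odPlus F m).nd
        (Cfsg.Agent.Lib.OrthMatrix.hF_of (n := 2 * m) ?_ ?_)
      · by_cases h : Fintype.card F = 2
        · right
          intro h4
          omega
        · exact Or.inl h
      · simp
        ring
    exact transfer e (transfer_eq hq (allSC_plus hOG ⟨m - 1, by omega⟩ (by
      show m - 1 + 1 = m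
      omega)))
  · obtain ⟨F, _, _, _, m, a, b, hm, hab, ⟨e⟩⟩ := hG
    have hq : Cfsg.quadFormMinus (m - 1) F a b = ⇑(Cfsg.Agent.Lib.OrthoCount.qMinus (m - 1) a b) :=
      funext fun v => (Cfsg.Agent.Lib.OrthoCount.qMinus_apply (m - 1) a b v).symm
    exact transfer e (transfer_eq hq (allSC_minus a b hab))
  · obtain ⟨F, _, _, _, h⟩ := hG
    rcases h with ⟨-, ⟨e⟩⟩ | ⟨⟨e⟩⟩ | ⟨⟨e⟩⟩ | ⟨⟨e⟩⟩ | ⟨⟨e⟩⟩
    · obtain ⟨T, X, R, hF⟩ := Cfsg.Agent.Lib.Chev.exists_full Lie.chevG2 (by simp)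
      exact transfer e (allSC_chev hF)
    · obtain ⟨T, X, R, hF⟩ := Cfsg.Agent.Lib.Chev.exists_full Lie.chevF4 (by simp)
      exact transfer e (allSC_chev hF)
    · obtain ⟨T, X, R, hF⟩ := Cfsg.Agent.Lib.Chev.exists_full Lie.chevE6 (by simp)
      exact transfer e (allSC_chev hF)
    · obtain ⟨T, X, R, hF⟩ := Cfsg.Agent.Lib.Chev.exists_full Lie.chevE7 (by simp)
      exact transfer e (allSC_chev hF)
    · obtain ⟨T, X, R, hF⟩ := Cfsg.Agent.Lib.Chev.exists_full Lie.chevE8 (by simp)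
      exact transfer e (allSC_chev hF)
  · obtain ⟨K, _, _, _, q, hq, h⟩ := hG
    rcases h with ⟨hK, ⟨e⟩⟩ | ⟨hK, ⟨e⟩⟩
    · exact transfer e (allSC_E6 hq hK)
    · exact transfer e (allSC_D4 hq hK)
  · obtain ⟨-, F, _, _, m, hm, hF, ⟨e⟩⟩ := hG
    haveI : Cfsg.Agent.Lib.Suzuki.SzHyp F m := ⟨hm, hF⟩
    haveI : CharP F 2 := Cfsg.Agent.Lib.Suzuki.charP_two F m
    exact transfer e allSC_Sz
  · obtain ⟨-, K, _, _, m, hm, hK, ⟨e⟩⟩ := hG
    exact transfer e (allSC_F4 hm hK)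
  · exact absurd hG.1 (by norm_num)

/-- Let G be a finite simple group of Lie type in characteristic 2, not counting the Tits group ²F₄(2)′. Then a Sylow 2-subgroup P of G has P/P' elementary abelian: the square of every element of P lies in the derived subgroup of P. -/
theorem result {G : Type*} [Group G] [Finite G] [IsSimpleGroup G] (hG : Cfsg.IsLieTypeChar 2 G) (P : Sylow 2 G) :
    ∀ x : (P : Subgroup G), x ^ 2 ∈ commutator (P : Subgroup G) := by
  haveI : Fact (Nat.Prime 2) := ⟨Nat.prime_two⟩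
  exact main hG P

end Cfsg.Agent.S4625
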