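import Mathlib
import Cfsg.Statements.S4742
import Cfsg.Agent.Lib.BlockPi
import Cfsg.Agent.Lib.CharKernel

set_option autoImplicit false
set_option linter.unusedVariables false
set_option linter.style.haveILetI false

namespace Cfsg.Agent.S4742

open Cfsg Cfsg.Agent.Lib.CharBasic Cfsg.Agent.Lib.CharInd Cfsg.Agent.Lib.CharAvg
open Cfsg.Agent.Lib.BlockLocal Cfsg.Agent.Lib.BlockVal Cfsg.Agent.Lib.CharKernel
open Cfsg.Agent.Lib.BlockPi
open scoped ComplexConjugate

/-- Core of the argument. -/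
theorem core {G : Type*} [Group G] [Finite G] (p : ℕ) (hp : p.Prime) (z : G)
    (hz : ¬ p ∣ Nat.card (Subgroup.centralizer ({z} : Set G)))
    (hno : ∀ b c : G, b * z * b⁻¹ ≠ c * z * c⁻¹ →
      ¬ ∃ k : ℕ, orderOf ((b * z * b⁻¹) * (c * z⁻¹ * c⁻¹)) = p ^ k) :
    ∃ χ : Cfsg.IrrCharacter G, (Cfsg.charDegree (χ : G → ℂ)).factorization p =
      (Nat.card G).factorization p := by
  classical
  letI := Fintype.ofFinite G
  by_contra hcon
  push Not at hcon
  obtain ⟨M, hM⟩ := exists_isPModular hp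
  have := hM.2.1.isPrime
  have hne : (Nat.card G : ℂ) ≠ 0 := natCard_ne_zero'
  have hC0 : Nat.card (Subgroup.centralizer ({z} : Set G)) ≠ 0 := Nat.card_pos.ne'
  have hne2 : (Nat.card (Subgroup.centralizer ({z} : Set G)) : ℂ) ≠ 0 := by exact_mod_cast hC0
  -- the values of `π` on the pairs
  have h1 : ∀ b c : G, piFun p ((b * z * b⁻¹) * (c * z⁻¹ * c⁻¹)) =
      if c⁻¹ * b ∈ Subgroup.centralizer ({z} : Set G) then 1 else 0 := by
    intro b c
    have h2 : c⁻¹ * b ∈ Subgroup.centralizer ({z} : Set G) ↔ b * z * b⁻¹ = c * z * c⁻¹ := by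
      rw [Subgroup.mem_centralizer_singleton_iff]
      constructor
      · intro h
        have : b = c * (c⁻¹ * b) := by group
        calc b * z * b⁻¹ = c * ((c⁻¹ * b) * z) * (c⁻¹ * b)⁻¹ * c⁻¹ := by group
          _ = c * (z * (c⁻¹ * b)) * (c⁻¹ * b)⁻¹ * c⁻¹ := by rw [h]
          _ = c * z * c⁻¹ := by group
      · intro h
        have h3 : c⁻¹ * (b * z * b⁻¹) * c = z := by
          rw [h]
          group
        calc c⁻¹ * b * z = (c⁻¹ * (b * z * b⁻¹) * c) * (c⁻¹ * b) := by group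
          _ = z * (c⁻¹ * b) := by rw [h3]
    by_cases h3 : b * z * b⁻¹ = c * z * c⁻¹
    · rw [if_pos (h2.mpr h3)]
      have h4 : (b * z * b⁻¹) * (c * z⁻¹ * c⁻¹) = 1 := by
        rw [h3]
        group
      rw [h4]
      exact piFun_of ⟨0, by simp⟩
    · rw [if_neg (fun h => h3 (h2.mp h))]
      exact piFun_of_not (hno b c h3)
  have h2 : ∑ b : G, ∑ c : G, piFun p ((b * z * b⁻¹) * (c * z⁻¹ * c⁻¹)) =
      (Nat.card G : ℂ) * (Nat.card (Subgroup.centralizer ({z} : Set G)) : ℂ) := by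
    have h3 : ∀ b : G, ∑ c : G, piFun p ((b * z * b⁻¹) * (c * z⁻¹ * c⁻¹)) =
        (Nat.card (Subgroup.centralizer ({z} : Set G)) : ℂ) := by
      intro b
      simp_rw [h1]
      rw [Finset.sum_boole]
      congr 1
      rw [Nat.card_eq_fintype_card, Fintype.card_subtype]
      -- bijection `c ↦ c⁻¹ * b`
      symm
      refine Finset.card_bij' (fun x _ => b * x⁻¹) (fun c _ => c⁻¹ * b) ?_ ?_ ?_ ?_
      · intro x hx
        simp only [Finset.mem_filter, Finset.mem_univ, true_and] at hx ⊢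
        have : (b * x⁻¹)⁻¹ * b = x := by group
        rwa [this]
      · intro c hc
        simpa using hc
      · intro x _
        group
      · intro c _
        group
    simp only [h3, Finset.sum_const, Finset.card_univ, nsmul_eq_mul, ← Nat.card_eq_fintype_card]
  -- expand
  have h3 : ∀ w : G, piFun p w = ∑ χ : IrrCharacter G, classInner (piFun p : G → ℂ) χ * (χ : G → ℂ) w := by
    intro w
    conv_lhs => rw [classFunction_eq_sum (piFun_isClassFunction (G := G) p)]
    simp [Finset.sum_apply]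
  have h4 : (Nat.card G : ℂ) * (Nat.card (Subgroup.centralizer ({z} : Set G)) : ℂ) =
      (Nat.card G : ℂ) ^ 2 * ∑ χ : IrrCharacter G, classInner (piFun p : G → ℂ) χ *
        ((χ : G → ℂ) z * (χ : G → ℂ) z⁻¹ / (χ : G → ℂ) 1) := by
    rw [← h2]
    simp_rw [h3]
    rw [Finset.mul_sum]
    have h5 : ∀ b : G, ∑ c : G, ∑ χ : IrrCharacter G, classInner (piFun p : G → ℂ) χ *
        (χ : G → ℂ) ((b * z * b⁻¹) * (c * z⁻¹ * c⁻¹)) = ∑ χ : IrrCharacter G,
        classInner (piFun p : G → ℂ) χ * ∑ c : G, (χ : G → ℂ) ((b * z * b⁻¹) * (c * z⁻¹ * c⁻¹)) := by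
      intro b
      rw [Finset.sum_comm]
      simp_rw [Finset.mul_sum]
    simp_rw [h5]
    rw [Finset.sum_comm]
    refine Finset.sum_congr rfl fun χ _ => ?_
    rw [← Finset.mul_sum, sum_sum_irr χ.2]
    ring
  -- the contradiction
  have h5 : (1 : ℂ) = ∑ χ : IrrCharacter G, classInner (piFun p : G → ℂ) χ *
      ((χ : G → ℂ) z * (χ : G → ℂ) z⁻¹) *
        ((Nat.card G : ℂ) / ((charDegree (χ : G → ℂ) : ℂ) * (Nat.card (Subgroup.centralizer ({z} : Set G)) : ℂ))) := by
    have h6 : ∀ χ : IrrCharacter G, classInner (piFun p : G → ℂ) χ *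
      ((χ : G → ℂ) z * (χ : G → ℂ) z⁻¹) *
        ((Nat.card G : ℂ) / ((charDegree (χ : G → ℂ) : ℂ) * (Nat.card (Subgroup.centralizer ({z} : Set G)) : ℂ))) =
        ((Nat.card G : ℂ) / (Nat.card (Subgroup.centralizer ({z} : Set G)) : ℂ)) *
        (classInner (piFun p : G → ℂ) χ * ((χ : G → ℂ) z * (χ : G → ℂ) z⁻¹ / (χ : G → ℂ) 1)) := by
      intro χ
      rw [one_eq_charDegree (IsIrrCharacter.isCharacter χ.2)]
      have h7 : (charDegree (χ : G → ℂ) : ℂ) ≠ 0 := by exact_mod_cast charDegree_ne_zero χ.2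
      field_simp
    simp_rw [h6]
    rw [← Finset.mul_sum]
    generalize (∑ χ : IrrCharacter G, classInner (piFun p : G → ℂ) χ *
        ((χ : G → ℂ) z * (χ : G → ℂ) z⁻¹ / (χ : G → ℂ) 1)) = S at h4 ⊢
    have h7 : (Nat.card (Subgroup.centralizer ({z} : Set G)) : ℂ) = (Nat.card G : ℂ) * S :=
      mul_left_cancel₀ hne (by rw [h4]; ring)
    rw [eq_comm, div_mul_eq_mul_div, div_eq_one_iff_eq hne2]
    exact h7.symm
  apply not_memLocalIdeal_one (M := M)
  rw [h5]
  refine memLocalIdeal_sum _ _ fun χ _ => ?_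
  refine memLocalIdeal_mul_left (memLocalRing_mul ?_ (memLocalRing_mul ?_ ?_)) ?_
  · exact memLocalRing_classInner_piFun hM (IsIrrCharacter.isCharacter χ.2)
  · exact memLocalRing_of_isIntegral (isIntegral_irr χ _)
  · exact memLocalRing_of_isIntegral (isIntegral_irr χ _)
  · have hd0 : charDegree (χ : G → ℂ) ≠ 0 := charDegree_ne_zero χ.2
    have hprod : charDegree (χ : G → ℂ) * Nat.card (Subgroup.centralizer ({z} : Set G)) ≠ 0 :=
      mul_ne_zero hd0 hC0
    have h6 : ((Nat.card G : ℕ) : ℂ) / ((charDegree (χ : G → ℂ) : ℂ) * (Nat.card (Subgroup.centralizer ({z} : Set G)) : ℂ)) =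
        ((Nat.card G : ℕ) : ℂ) / ((charDegree (χ : G → ℂ) * Nat.card (Subgroup.centralizer ({z} : Set G)) : ℕ) : ℂ) := by
      push_cast
      rfl
    rw [h6]
    apply memLocalIdeal_natCast_div_of_dvd hM hprod
    rw [Nat.factorization_mul hd0 hC0, Finsupp.add_apply,
      Nat.factorization_eq_zero_of_not_dvd hz, add_zero]
    have h7 := hcon χ
    have h8 : (charDegree (χ : G → ℂ)).factorization p ≤ (Nat.card G).factorization p :=
      (Nat.factorization_le_iff_dvd hd0 Nat.card_pos.ne').mpr (charDegree_dvd_card χ.2) p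
    have h9 : (charDegree (χ : G → ℂ)).factorization p + 1 ≤ (Nat.card G).factorization p := by
      omega
    exact (pow_dvd_pow p h9).trans (Nat.ordProj_dvd _ _)

theorem result {G : Type*} [Group G] [Finite G] (p q : ℕ) [Fact p.Prime] [Fact q.Prime] (hppq : p ≠ q) (hpG : p ∣ Nat.card G) (hqG : q ∣ Nat.card G) (hC : ∀ g : G, g ≠ 1 → (∃ k : ℕ, orderOf g = p ^ k) → ¬ q ∣ Nat.card ↥(Subgroup.centralizer ({g} : Set G))) : (∃ χ : Cfsg.IrrCharacter G, (Cfsg.charDegree (χ : G → ℂ)).factorization p = (Nat.card G).factorization p) ∨ ∀ z : G, z ≠ 1 → (∃ k : ℕ, orderOf z = q ^ k) → ∃ g h : G, IsConj z g ∧ IsConj z h ∧ g * h⁻¹ ≠ 1 ∧ ∃ k : ℕ, orderOf (g * h⁻¹) = p ^ k := by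
  classical
  have hp : p.Prime := Fact.out
  have hq : q.Prime := Fact.out
  by_contra hcon
  push Not at hcon
  obtain ⟨hcon1, z, hz1, hzq, hcon2⟩ := hcon
  have hz : ¬ p ∣ Nat.card (Subgroup.centralizer ({z} : Set G)) := by
    intro hdvd
    obtain ⟨u, hu⟩ := exists_prime_orderOf_dvd_card' p hdvd
    have hu1 : ((u : G)) ≠ 1 := by
      intro h
      have : u = 1 := Subtype.ext h
      rw [this, orderOf_one] at hu
      exact hp.one_lt.ne hu
    have hord : orderOf (u : G) = p := by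
      rw [Subgroup.orderOf_coe, hu]
    apply hC (u : G) hu1 ⟨1, by rw [pow_one, hord]⟩
    -- `z` lies in the centralizer of `u`
    have hzu : z ∈ Subgroup.centralizer ({(u : G)} : Set G) := by
      rw [Subgroup.mem_centralizer_singleton_iff]
      have := Subgroup.mem_centralizer_singleton_iff.mp u.2
      exact this.symm
    have h1 : orderOf z ∣ Nat.card (Subgroup.centralizer ({(u : G)} : Set G)) := by
      have h2 := Subgroup.orderOf_dvd_natCard (Subgroup.centralizer ({(u : G)} : Set G)) hzu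
      exact h2
    obtain ⟨k, hk⟩ := hzq
    have hk0 : k ≠ 0 := by
      rintro rfl
      apply hz1
      rw [pow_zero, orderOf_eq_one_iff] at hk
      exact hk
    rw [hk] at h1
    exact (dvd_pow_self q hk0).trans h1
  obtain ⟨χ, hχ⟩ := core p hp z hz (by
    rintro b c hbc ⟨k, hk⟩
    have hb : IsConj z (b * z * b⁻¹) := isConj_iff.mpr ⟨b, rfl⟩
    have hc : IsConj z (c * z * c⁻¹) := isConj_iff.mpr ⟨c, rfl⟩
    have h1 : (b * z * b⁻¹) * (c * z * c⁻¹)⁻¹ = (b * z * b⁻¹) * (c * z⁻¹ * c⁻¹) := by group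
    have h2 : (b * z * b⁻¹) * (c * z * c⁻¹)⁻¹ ≠ 1 := by
      intro h
      exact hbc (eq_of_mul_inv_eq_one h)
    apply hcon2 _ _ hb hc h2 k
    rw [h1]
    exact hk)
  exact hcon1 χ hχ

end Cfsg.Agent.S4742
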