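import Mathlib
import Cfsg.Statements.S4743
import Cfsg.Agent.S4742

set_option autoImplicit false
set_option linter.unusedVariables false
set_option linter.style.haveILetI false

namespace Cfsg.Agent.S4743

open Cfsg

/-- Chain argument: a normal series with factors `r`-groups or `r'`-groups gives a normal subgroup
separating the primes `r` and `s`. -/
theorem chain_aux {G : Type*} [Group G] [Finite G] (r s : ℕ) (hr : r.Prime) (hs : s.Prime) (hrs : r ≠ s)
    (hrG : r ∣ Nat.card G) (hsol : IsPSolvable r G)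
    (P : ∀ N : Subgroup G, N.Normal → r ∣ Nat.card N → s ∣ Nat.card N)
    (P' : ∀ N : Subgroup G, N.Normal → s ∣ Nat.card N → r ∣ Nat.card N) : False := by
  obtain ⟨n, H, h0, hlast, hmono, hnorm, hfac⟩ := hsol
  have key : ∀ i : Fin (n + 1), ¬ r ∣ Nat.card (H i) := by
    intro i
    induction i using Fin.induction with
    | zero =>
      rw [h0, Subgroup.card_bot]
      exact fun h => hr.one_lt.ne' (Nat.dvd_one.mp h)
    | succ i ih =>
      intro hdvd
      have hle : H i.castSucc ≤ H i.succ := hmono (Fin.castSucc_le_succ i)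
      have hcard : Nat.card (H i.succ) =
          Nat.card (H i.castSucc) * (H i.castSucc).relIndex (H i.succ) := by
        have h5 := Subgroup.card_mul_index ((H i.castSucc).subgroupOf (H i.succ))
        rw [Nat.card_congr (Subgroup.subgroupOfEquivOfLe hle).toEquiv] at h5
        exact h5.symm
      have hs1 : ¬ s ∣ Nat.card (H i.castSucc) := fun h => ih (P' _ (hnorm _) h)
      rcases hfac i with ⟨m, hm⟩ | hcop
      · have hs2 := P _ (hnorm _) hdvd
        rw [hcard, hm] at hs2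
        rcases (Nat.Prime.dvd_mul hs).mp hs2 with h | h
        · exact hs1 h
        · exact hrs ((Nat.prime_dvd_prime_iff_eq hs hr).mp (hs.dvd_of_dvd_pow h)).symm
      · rw [hcard] at hdvd
        rcases (Nat.Prime.dvd_mul hr).mp hdvd with h | h
        · exact ih h
        · have h3 : r ∣ Nat.gcd ((H i.castSucc).relIndex (H i.succ)) r := Nat.dvd_gcd h dvd_rfl
          rw [hcop] at h3
          exact hr.one_lt.ne' (Nat.dvd_one.mp h3)
  have h1 := key (Fin.last n)
  rw [hlast, Nat.card_congr Subgroup.topEquiv.toEquiv] at h1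
  exact h1 hrG

/-- From conjugate pairs to divisibility. -/
theorem dvd_aux {G : Type*} [Group G] [Finite G] (p q : ℕ) (hp : p.Prime) (hq : q.Prime)
    (H : ∀ z : G, z ≠ 1 → (∃ k : ℕ, orderOf z = q ^ k) → ∃ g h : G, IsConj z g ∧ IsConj z h ∧
      g * h⁻¹ ≠ 1 ∧ ∃ k : ℕ, orderOf (g * h⁻¹) = p ^ k) (N : Subgroup G) (hN : N.Normal)
    (hqN : q ∣ Nat.card N) : p ∣ Nat.card N := by
  haveI : Fact q.Prime := ⟨hq⟩
  obtain ⟨u, hu⟩ := exists_prime_orderOf_dvd_card' q hqN
  have hu1 : (u : G) ≠ 1 := by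
    intro h
    have : u = 1 := Subtype.ext h
    rw [this, orderOf_one] at hu
    exact hq.one_lt.ne hu
  obtain ⟨g, h, hg, hh, hne, k, hk⟩ := H u hu1 ⟨1, by rw [pow_one, Subgroup.orderOf_coe, hu]⟩
  have hgN : g ∈ N := by
    obtain ⟨c, hc⟩ := isConj_iff.mp hg
    rw [← hc]
    exact hN.conj_mem _ u.2 c
  have hhN : h ∈ N := by
    obtain ⟨c, hc⟩ := isConj_iff.mp hh
    rw [← hc]
    exact hN.conj_mem _ u.2 c
  have hw : g * h⁻¹ ∈ N := N.mul_mem hgN (N.inv_mem hhN)
  have h1 : orderOf (g * h⁻¹) ∣ Nat.card N := Subgroup.orderOf_dvd_natCard N hw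
  rw [hk] at h1
  have hk0 : k ≠ 0 := by
    rintro rfl
    apply hne
    rw [pow_zero, orderOf_eq_one_iff] at hk
    exact hk
  exact (dvd_pow_self p hk0).trans h1

theorem result {G : Type*} [Group G] [Finite G] (p q : ℕ) [Fact p.Prime] [Fact q.Prime] (hppq : p ≠ q) (hpG : p ∣ Nat.card G) (hqG : q ∣ Nat.card G) (hC : ∀ g : G, g ≠ 1 → (∃ k : ℕ, orderOf g = p ^ k) → ¬ q ∣ Nat.card ↥(Subgroup.centralizer ({g} : Set G))) (hsolv : Cfsg.IsPSolvable p G ∨ Cfsg.IsPSolvable q G) : (∃ χ : Cfsg.IrrCharacter G, (Cfsg.charDegree (χ : G → ℂ)).factorization p = (Nat.card G).factorization p) ∨ (∃ χ : Cfsg.IrrCharacter G, (Cfsg.charDegree (χ : G → ℂ)).factorization q = (Nat.card G).factorization q) := by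
  classical
  have hp : p.Prime := Fact.out
  have hq : q.Prime := Fact.out
  -- the symmetric hypothesis
  have hC' : ∀ g : G, g ≠ 1 → (∃ k : ℕ, orderOf g = q ^ k) →
      ¬ p ∣ Nat.card ↥(Subgroup.centralizer ({g} : Set G)) := by
    intro z hz1 hzq hdvd
    obtain ⟨u, hu⟩ := exists_prime_orderOf_dvd_card' p hdvd
    have hu1 : ((u : G)) ≠ 1 := by
      intro h
      have : u = 1 := Subtype.ext h
      rw [this, orderOf_one] at hu
      exact hp.one_lt.ne hu
    have hord : orderOf (u : G) = p := by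
      rw [Subgroup.orderOf_coe, hu]
    apply hC (u : G) hu1 ⟨1, by rw [pow_one, hord]⟩
    have hzu : z ∈ Subgroup.centralizer ({(u : G)} : Set G) := by
      rw [Subgroup.mem_centralizer_singleton_iff]
      have := Subgroup.mem_centralizer_singleton_iff.mp u.2
      exact this.symm
    have h1 : orderOf z ∣ Nat.card (Subgroup.centralizer ({(u : G)} : Set G)) :=
      Subgroup.orderOf_dvd_natCard (Subgroup.centralizer ({(u : G)} : Set G)) hzu
    obtain ⟨k, hk⟩ := hzq
    have hk0 : k ≠ 0 := by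
      rintro rfl
      apply hz1
      rw [pow_zero, orderOf_eq_one_iff] at hk
      exact hk
    rw [hk] at h1
    exact (dvd_pow_self q hk0).trans h1
  by_contra hcon
  push Not at hcon
  obtain ⟨hcon1, hcon2⟩ := hcon
  have H1 := Cfsg.Agent.S4742.result p q hppq hpG hqG hC
  have H2 := Cfsg.Agent.S4742.result q p hppq.symm hqG hpG hC'
  have H1' : ∀ z : G, z ≠ 1 → (∃ k : ℕ, orderOf z = q ^ k) → ∃ g h : G, IsConj z g ∧ IsConj z h ∧
      g * h⁻¹ ≠ 1 ∧ ∃ k : ℕ, orderOf (g * h⁻¹) = p ^ k := by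
    rcases H1 with ⟨χ, hχ⟩ | H1
    · exact absurd hχ (hcon1 χ)
    · exact H1
  have H2' : ∀ z : G, z ≠ 1 → (∃ k : ℕ, orderOf z = p ^ k) → ∃ g h : G, IsConj z g ∧ IsConj z h ∧
      g * h⁻¹ ≠ 1 ∧ ∃ k : ℕ, orderOf (g * h⁻¹) = q ^ k := by
    rcases H2 with ⟨χ, hχ⟩ | H2
    · exact absurd hχ (hcon2 χ)
    · exact H2
  have P := dvd_aux p q hp hq H1'
  have P' := dvd_aux q p hq hp H2'
  rcases hsolv with h | h
  · exact chain_aux p q hp hq hppq hpG h P' P
  · exact chain_aux q p hq hp hppq.symm hqG h P P'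

end Cfsg.Agent.S4743
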