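import Cfsg.Statements.S4748
import Cfsg.Agent.Lib.CharDecomp
import Cfsg.Agent.Lib.CharCentral
import Cfsg.Agent.Lib.CharAut
import Cfsg.Agent.Lib.Glauberman2
import Cfsg.Agent.Lib.Clifford
import Cfsg.Agent.Lib.PResid

set_option autoImplicit false

open Cfsg

namespace Cfsg.Agent.S4748

open Cfsg.Agent.Lib.CharBasic Cfsg.Agent.Lib.CharDecomp Cfsg.Agent.Lib.CharCentral
  Cfsg.Agent.Lib.CharKernel Cfsg.Agent.Lib.Glauberman
open scoped commutatorElement ComplexConjugate Pointwise

universe u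

variable {G : Type u} [Group G] [Finite G]

/-- Minimal coprime action with free action off the centralizer. -/
structure MinAct (p r : ℕ) (P L : Subgroup G) : Prop where
  hp : p.Prime
  hr : r.Prime
  hpr : p ≠ r
  hP : IsPGroup p P
  hL : IsPGroup r L
  hnorm : P ≤ Subgroup.normalizer (L : Set G)
  hne : ¬ ∀ u ∈ P, ∀ x ∈ L, u * x = x * u
  hmin : ∀ M : Subgroup G, M < L → P ≤ Subgroup.normalizer (M : Set G) →
    ∀ u ∈ P, ∀ x ∈ M, u * x = x * u
  hfree : ∀ u ∈ P, u ≠ 1 → ∀ x ∈ L, u * x = x * u → ∀ v ∈ P, v * x = x * v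

namespace MinAct

variable {p r : ℕ} {P L : Subgroup G}

theorem coprime (h : MinAct p r P L) : (Nat.card P).Coprime (Nat.card L) := by
  haveI := Fact.mk h.hp
  haveI := Fact.mk h.hr
  obtain ⟨a, ha⟩ := (IsPGroup.iff_card (p := p) (G := P)).mp h.hP
  obtain ⟨b, hb⟩ := (IsPGroup.iff_card (p := r) (G := L)).mp h.hL
  rw [ha, hb]
  exact Nat.Coprime.pow _ _ ((Nat.coprime_primes h.hp h.hr).mpr h.hpr)

theorem solv (h : MinAct p r P L) : Group.IsSolvable P ∨ Group.IsSolvable L := by
  haveI := Fact.mk h.hp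
  have : Group.IsNilpotent P := h.hP.isNilpotent
  exact Or.inl inferInstance

theorem comm_eq_of_mem {x y : G} (hc : ⁅x, y⁆ = 1) : x * y = y * x := by
  rwa [commutatorElement_eq_one_iff_mul_comm] at hc

/-- `[L,P] = L` -/
theorem comm_eq (h : MinAct p r P L) : ⁅L, P⁆ = L := by
  have hle : ⁅L, P⁆ ≤ L := commutator_le_of_le_normalizer h.hnorm
  by_contra hne
  have hlt : ⁅L, P⁆ < L := lt_of_le_of_ne hle hne
  have h1 := h.hmin _ hlt (le_normalizer_commutator h.hnorm)
  have h2 : ⁅⁅L, P⁆, P⁆ = ⊥ := by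
    rw [eq_bot_iff, Subgroup.commutator_le]
    intro x hx u hu
    rw [Subgroup.mem_bot, commutatorElement_eq_one_iff_mul_comm]
    exact (h1 u hu x hx).symm
  rw [commutator_commutator_eq h.hnorm h.coprime h.solv] at h2
  apply h.hne
  intro u hu x hx
  have : ⁅x, u⁆ = 1 := by
    rw [← Subgroup.mem_bot, ← h2]
    exact Subgroup.commutator_mem_commutator hx hu
  rw [commutatorElement_eq_one_iff_mul_comm] at this
  exact this.symm

theorem L_ne_bot (h : MinAct p r P L) : L ≠ ⊥ := by
  rintro rfl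
  apply h.hne
  intro u _ x hx
  rw [Subgroup.mem_bot] at hx
  simp [hx]

theorem solv_L (h : MinAct p r P L) : Group.IsSolvable L := by
  haveI := Fact.mk h.hr
  have : Group.IsNilpotent L := h.hL.isNilpotent
  infer_instance

/-- `P` centralizes `[L,L]`. -/
theorem comm_L (h : MinAct p r P L) : ∀ u ∈ P, ∀ c ∈ ⁅L, L⁆, u * c = c * u := by
  have hlt : ⁅L, L⁆ < L := Cfsg.Agent.Lib.Coprime.commutator_lt_of_solvable h.solv_L h.L_ne_bot
  apply h.hmin _ hlt
  intro a ha
  rw [Subgroup.mem_normalizer_iff_map_conj_eq, Subgroup.map_commutator]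
  have h1 := Subgroup.mem_normalizer_iff_map_conj_eq.mp (h.hnorm ha)
  rw [h1]

/-- The fixed points of `P` on `L` are central in `L`. -/
theorem central (h : MinAct p r P L) {z : G} (hz : z ∈ L) (hzP : ∀ u ∈ P, u * z = z * u) :
    ∀ y ∈ L, z * y = y * z := by
  let Z : Subgroup G := L ⊓ Subgroup.centralizer (P : Set G)
  have hZ : z ∈ Z := ⟨hz, Subgroup.mem_centralizer_iff.mpr hzP⟩
  have h1 : ⁅⁅P, Z⁆, L⁆ = ⊥ := by
    have : ⁅P, Z⁆ = ⊥ := by
      rw [eq_bot_iff, Subgroup.commutator_le]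
      intro u hu w hw
      rw [Subgroup.mem_bot, commutatorElement_eq_one_iff_mul_comm]
      exact Subgroup.mem_centralizer_iff.mp hw.2 u hu
    rw [this, Subgroup.commutator_bot_left]
  have h2 : ⁅⁅Z, L⁆, P⁆ = ⊥ := by
    rw [eq_bot_iff, Subgroup.commutator_le]
    intro c hc u hu
    rw [Subgroup.mem_bot, commutatorElement_eq_one_iff_mul_comm]
    have hc' : c ∈ ⁅L, L⁆ := Subgroup.commutator_mono inf_le_left le_rfl hc
    exact (h.comm_L u hu c hc').symm
  have h3 : ⁅⁅L, P⁆, Z⁆ = ⊥ := Subgroup.commutator_commutator_eq_bot_of_rotate h1 h2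
  rw [h.comm_eq] at h3
  intro y hy
  have : ⁅y, z⁆ = 1 := by
    rw [← Subgroup.mem_bot, ← h3]
    exact Subgroup.commutator_mem_commutator hy hZ
  rw [commutatorElement_eq_one_iff_mul_comm] at this
  exact this.symm

/-- power law -/
theorem conj_pow {w x c : G} (hc : w * c = c * w) (hw : w * x * w⁻¹ = x * c) (k : ℕ) :
    w ^ k * x * (w ^ k)⁻¹ = x * c ^ k := by
  induction k with
  | zero => simp
  | succ k ih =>
    have h1 : w ^ (k + 1) * x * (w ^ (k + 1))⁻¹ = w * (w ^ k * x * (w ^ k)⁻¹) * w⁻¹ := by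
      rw [pow_succ']
      group
    rw [h1, ih]
    have h2 : w * (x * c ^ k) * w⁻¹ = (w * x * w⁻¹) * (w * c ^ k * w⁻¹) := by group
    have h3 : w * c ^ k * w⁻¹ = c ^ k := by
      have : Commute w (c ^ k) := Commute.pow_right hc k
      rw [this.eq]
      group
    rw [h2, h3, hw, pow_succ']
    group

/-- Freeness on cosets of the fixed points. -/
theorem commute_of_conj_eq (h : MinAct p r P L) {w x c : G} (hwP : w ∈ P) (hc : c ∈ L)
    (hcw : w * c = c * w) (hw : w * x * w⁻¹ = x * c) : c = 1 := by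
  haveI := Fact.mk h.hp
  haveI := Fact.mk h.hr
  obtain ⟨n, hn⟩ := (IsPGroup.iff_orderOf (p := p)).mp h.hP ⟨w, hwP⟩
  obtain ⟨m, hm⟩ := (IsPGroup.iff_orderOf (p := r)).mp h.hL ⟨c, hc⟩
  have hn' : orderOf w = p ^ n := by
    rw [← hn, Subgroup.orderOf_mk]
  have hm' : orderOf c = r ^ m := by
    rw [← hm, Subgroup.orderOf_mk]
  have h1 := conj_pow hcw hw (p ^ n)
  have h2 : w ^ (p ^ n) = 1 := by rw [← hn', pow_orderOf_eq_one]
  rw [h2] at h1
  simp only [one_mul, inv_one, mul_one] at h1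
  have h3 : c ^ (p ^ n) = 1 := by
    have : x * c ^ p ^ n = x * 1 := by rw [mul_one]; exact h1.symm
    exact mul_left_cancel this
  have h4 : c ^ (r ^ m) = 1 := by rw [← hm', pow_orderOf_eq_one]
  have hco : (p ^ n).Coprime (r ^ m) :=
    Nat.Coprime.pow _ _ ((Nat.coprime_primes h.hp h.hr).mpr h.hpr)
  have h5 := orderOf_dvd_of_pow_eq_one h3
  have h6 := orderOf_dvd_of_pow_eq_one h4
  have h7 := Nat.Coprime.eq_one_of_dvd (Nat.Coprime.coprime_dvd_left h5 hco) h6
  exact orderOf_eq_one_iff.mp h7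

/-- Counting: `(|P|+1) |C_L(P)| ≤ |L|`. -/
theorem card_bound (h : MinAct p r P L) :
    (Nat.card P + 1) * Nat.card (L ⊓ Subgroup.centralizer (P : Set G) : Subgroup G) ≤ Nat.card L := by
  classical
  set Z : Subgroup G := L ⊓ Subgroup.centralizer (P : Set G) with hZdef
  have hzcomm : ∀ z ∈ Z, ∀ u ∈ P, u * z = z * u := fun z hz u hu =>
    Subgroup.mem_centralizer_iff.mp hz.2 u hu
  -- a point of `L` not fixed
  have hex : ∃ x ∈ L, x ∉ Z := by
    by_contra hno
    push Not at hno
    apply h.hne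
    intro u hu x hx
    exact hzcomm x (hno x hx) u hu
  obtain ⟨x, hxL, hxZ⟩ := hex
  have hxC : ¬ ∀ v ∈ P, v * x = x * v := by
    intro hv
    exact hxZ ⟨hxL, Subgroup.mem_centralizer_iff.mpr hv⟩
  letI : Fintype G := Fintype.ofFinite G
  let f : (↥P × ↥Z) → ↥L := fun a =>
    ⟨(a.1 : G) * x * (a.1 : G)⁻¹ * (a.2 : G),
      L.mul_mem (Subgroup.le_normalizer_iff.mp h.hnorm _ a.1.2 x hxL) (inf_le_left (a := L) a.2.2)⟩
  have hf : Function.Injective f := by
    rintro ⟨⟨u, hu⟩, ⟨z, hz⟩⟩ ⟨⟨v, hv⟩, ⟨z', hz'⟩⟩ heq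
    have heq' : u * x * u⁻¹ * z = v * x * v⁻¹ * z' := congrArg Subtype.val heq
    set w := v⁻¹ * u with hw
    have hwP : w ∈ P := P.mul_mem (P.inv_mem hv) hu
    set c := z' * z⁻¹ with hc
    have hcZ : c ∈ Z := Z.mul_mem hz' (Z.inv_mem hz)
    have hw1 : w * x * w⁻¹ = x * c := by
      have h1 : u * x * u⁻¹ = v * x * v⁻¹ * c := by
        rw [hc]
        calc u * x * u⁻¹ = (u * x * u⁻¹ * z) * z⁻¹ := by group
          _ = _ := by rw [heq']; group
      have h2 : v⁻¹ * c * v = c := by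
        have := hzcomm c hcZ v hv
        calc v⁻¹ * c * v = v⁻¹ * (c * v) := by group
          _ = v⁻¹ * (v * c) := by rw [this]
          _ = c := by group
      calc w * x * w⁻¹ = v⁻¹ * (u * x * u⁻¹) * v := by rw [hw]; group
        _ = v⁻¹ * (v * x * v⁻¹ * c) * v := by rw [h1]
        _ = x * (v⁻¹ * c * v) := by group
        _ = x * c := by rw [h2]
    have hc1 : c = 1 := h.commute_of_conj_eq hwP hcZ.1 (hzcomm c hcZ w hwP) hw1
    have hw2 : w * x = x * w := by
      have : w * x * w⁻¹ = x := by rw [hw1, hc1, mul_one]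
      calc w * x = (w * x * w⁻¹) * w := by group
        _ = x * w := by rw [this]
    have hw3 : w = 1 := by
      by_contra hne
      exact hxC (h.hfree w hwP hne x hxL hw2)
    have huv : u = v := by
      have : v * w = u := by rw [hw]; group
      rw [← this, hw3, mul_one]
    have hzz : z = z' := by
      have : z' * z⁻¹ = 1 := hc1
      have h5 : z' = z := by
        calc z' = z' * z⁻¹ * z := by group
          _ = z := by rw [this, one_mul]
      exact h5.symm
    subst huv
    subst hzz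
    rfl
  let g : (↥P × ↥Z) ⊕ ↥Z → ↥L := fun a => match a with
    | Sum.inl a => f a
    | Sum.inr z => ⟨z, inf_le_left (a := L) z.2⟩
  have hg : Function.Injective g := by
    rintro (a | z) (b | z')
    · intro e
      exact congrArg Sum.inl (hf e)
    · intro e
      exfalso
      have e' : (a.1 : G) * x * (a.1 : G)⁻¹ * (a.2 : G) = z' := congrArg Subtype.val e
      have h1 : (a.1 : G) * x * (a.1 : G)⁻¹ ∈ Z := by
        have : (a.1 : G) * x * (a.1 : G)⁻¹ = (z' : G) * (a.2 : G)⁻¹ := by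
          rw [← e']; group
        rw [this]
        exact Z.mul_mem z'.2 (Z.inv_mem a.2.2)
      have h2 := hzcomm _ h1 (a.1 : G)⁻¹ (P.inv_mem a.1.2)
      apply hxZ
      have h3 : x = (a.1 : G)⁻¹ * ((a.1 : G) * x * (a.1 : G)⁻¹) * (a.1 : G) := by group
      have h4 : x = (a.1 : G) * x * (a.1 : G)⁻¹ := by
        rw [h2] at h3
        calc x = _ := h3
          _ = _ := by group
      rw [h4]
      exact h1
    · intro e
      exfalso
      have e' : (z : G) = (b.1 : G) * x * (b.1 : G)⁻¹ * (b.2 : G) := congrArg Subtype.val e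
      have h1 : (b.1 : G) * x * (b.1 : G)⁻¹ ∈ Z := by
        have : (b.1 : G) * x * (b.1 : G)⁻¹ = (z : G) * (b.2 : G)⁻¹ := by
          rw [e']; group
        rw [this]
        exact Z.mul_mem z.2 (Z.inv_mem b.2.2)
      have h2 := hzcomm _ h1 (b.1 : G)⁻¹ (P.inv_mem b.1.2)
      apply hxZ
      have h3 : x = (b.1 : G)⁻¹ * ((b.1 : G) * x * (b.1 : G)⁻¹) * (b.1 : G) := by group
      have h4 : x = (b.1 : G) * x * (b.1 : G)⁻¹ := by
        rw [h2] at h3
        calc x = _ := h3
          _ = _ := by group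
      rw [h4]
      exact h1
    · intro e
      have e' : (z : G) = z' := by
        have := congrArg (Subtype.val : ↥L → G) e
        exact this
      exact congrArg Sum.inr (Subtype.ext e')
  have hcard := Nat.card_le_card_of_injective g hg
  rw [Nat.card_sum, Nat.card_prod] at hcard
  calc (Nat.card P + 1) * Nat.card Z = Nat.card P * Nat.card Z + Nat.card Z := by ring
    _ ≤ _ := hcard


/-! ### Abelian case -/

section abelian

variable (h : MinAct p r P L) (hab : ⁅L, L⁆ = ⊥)
include h hab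

theorem comm_of_ab {x y : G} (hx : x ∈ L) (hy : y ∈ L) : x * y = y * x := by
  have : ⁅x, y⁆ = 1 := by
    rw [← Subgroup.mem_bot, ← hab]
    exact Subgroup.commutator_mem_commutator hx hy
  rwa [commutatorElement_eq_one_iff_mul_comm] at this

/-- The image of the map `x ↦ x⁻¹ u(x)`. -/
def imgSub (u : G) (hu : u ∈ P) : Subgroup G where
  carrier := {y | ∃ x ∈ L, y = x⁻¹ * (u * x * u⁻¹)}
  one_mem' := ⟨1, L.one_mem, by simp⟩
  mul_mem' := by
    rintro a b ⟨x, hx, rfl⟩ ⟨y, hy, rfl⟩
    refine ⟨x * y, L.mul_mem hx hy, ?_⟩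
    have hux := Subgroup.le_normalizer_iff.mp h.hnorm u hu x hx
    have huy := Subgroup.le_normalizer_iff.mp h.hnorm u hu y hy
    have e1 := h.comm_of_ab hab hux (L.inv_mem hy)
    have e2 := h.comm_of_ab hab (L.inv_mem hx) (L.inv_mem hy)
    calc x⁻¹ * (u * x * u⁻¹) * (y⁻¹ * (u * y * u⁻¹))
        = x⁻¹ * ((u * x * u⁻¹) * y⁻¹) * (u * y * u⁻¹) := by group
      _ = x⁻¹ * (y⁻¹ * (u * x * u⁻¹)) * (u * y * u⁻¹) := by rw [e1]
      _ = (x⁻¹ * y⁻¹) * (u * x * u⁻¹) * (u * y * u⁻¹) := by group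
      _ = (y⁻¹ * x⁻¹) * (u * x * u⁻¹) * (u * y * u⁻¹) := by rw [e2]
      _ = (x * y)⁻¹ * (u * (x * y) * u⁻¹) := by group
  inv_mem' := by
    rintro a ⟨x, hx, rfl⟩
    refine ⟨x⁻¹, L.inv_mem hx, ?_⟩
    have hux := Subgroup.le_normalizer_iff.mp h.hnorm u hu x hx
    have e1 := h.comm_of_ab hab hx (L.inv_mem hux)
    calc (x⁻¹ * (u * x * u⁻¹))⁻¹ = (u * x * u⁻¹)⁻¹ * x := by group
      _ = x * (u * x * u⁻¹)⁻¹ := e1.symm
      _ = x⁻¹⁻¹ * (u * x⁻¹ * u⁻¹) := by group

theorem imgSub_le (u : G) (hu : u ∈ P) : h.imgSub hab u hu ≤ L := by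
  rintro _ ⟨x, hx, rfl⟩
  exact L.mul_mem (L.inv_mem hx) (Subgroup.le_normalizer_iff.mp h.hnorm u hu x hx)

/-- `c = x⁻¹ u(x)` fixed by `u` is trivial. -/
theorem eq_one_of_fixed_img {u x c : G} (hu : u ∈ P) (hx : x ∈ L) (hc : c = x⁻¹ * (u * x * u⁻¹))
    (hcu : u * c = c * u) : c = 1 := by
  have hcL : c ∈ L := by
    rw [hc]
    exact L.mul_mem (L.inv_mem hx) (Subgroup.le_normalizer_iff.mp h.hnorm u hu x hx)
  apply h.commute_of_conj_eq hu hcL hcu (x := x)
  rw [hc]
  group

/-- There is a central element `u ≠ 1` of `P`, and `x ↦ x⁻¹ u(x)` is onto `L`. -/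
theorem fix_trivial {z : G} (hz : z ∈ L) (hzP : ∀ u ∈ P, u * z = z * u) : z = 1 := by
  haveI := Fact.mk h.hp
  have hPne : Nontrivial P := by
    rw [Subgroup.nontrivial_iff_ne_bot]
    rintro rfl
    apply h.hne
    intro u hu x _
    rw [Subgroup.mem_bot] at hu
    simp [hu]
  have hcen : Nontrivial (Subgroup.center P) := h.hP.center_nontrivial
  obtain ⟨⟨⟨u, huP⟩, huc⟩, hu1⟩ := exists_ne (1 : Subgroup.center P)
  have hune : u ≠ 1 := by
    intro h1
    apply hu1
    apply Subtype.ext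
    apply Subtype.ext
    exact h1
  have huc' : ∀ v ∈ P, u * v = v * u := by
    intro v hv
    have := Subgroup.mem_center_iff.mp huc ⟨v, hv⟩
    exact (congrArg Subtype.val this).symm
  set I := h.imgSub hab u huP with hI
  have hIL : I ≤ L := h.imgSub_le hab u huP
  have hIn : P ≤ Subgroup.normalizer (I : Set G) := by
    rw [Subgroup.le_normalizer_iff]
    rintro v hv _ ⟨x, hx, rfl⟩
    refine ⟨v * x * v⁻¹, Subgroup.le_normalizer_iff.mp h.hnorm v hv x hx, ?_⟩
    have e : u * v = v * u := huc' v hv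
    calc v * (x⁻¹ * (u * x * u⁻¹)) * v⁻¹ = (v * x * v⁻¹)⁻¹ * ((v * u) * x * (v * u)⁻¹) := by group
      _ = (v * x * v⁻¹)⁻¹ * ((u * v) * x * (u * v)⁻¹) := by rw [e]
      _ = _ := by group
  have hIeq : I = L := by
    by_contra hne
    have hlt : I < L := lt_of_le_of_ne hIL hne
    have hc := h.hmin I hlt hIn
    have htriv : ∀ x ∈ L, u * x = x * u := by
      intro x hx
      have h1 : x⁻¹ * (u * x * u⁻¹) ∈ I := ⟨x, hx, rfl⟩
      have h2 := h.eq_one_of_fixed_img hab huP hx rfl (hc u huP _ h1)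
      have h3 : u * x * u⁻¹ = x := by
        calc u * x * u⁻¹ = x * (x⁻¹ * (u * x * u⁻¹)) := by group
          _ = x := by rw [h2, mul_one]
      calc u * x = (u * x * u⁻¹) * u := by group
        _ = x * u := by rw [h3]
    apply h.hne
    intro v hv x hx
    exact h.hfree u huP hune x hx (htriv x hx) v hv
  have hzI : z ∈ I := by rw [hIeq]; exact hz
  obtain ⟨x, hx, hzx⟩ := hzI
  exact h.eq_one_of_fixed_img hab huP hx hzx (hzP u huP)

/-- `x ↦ x⁻¹ u(x)` is onto `L` for `u ≠ 1` in `P`. -/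
theorem exists_img {u y : G} (hu : u ∈ P) (hu1 : u ≠ 1) (hy : y ∈ L) :
    ∃ x ∈ L, y = x⁻¹ * (u * x * u⁻¹) := by
  let f : ↥L → ↥L := fun x => ⟨(x : G)⁻¹ * (u * x * u⁻¹),
    L.mul_mem (L.inv_mem x.2) (Subgroup.le_normalizer_iff.mp h.hnorm u hu x x.2)⟩
  have hf : Function.Injective f := by
    rintro ⟨a, ha⟩ ⟨b, hb⟩ e
    have e' : a⁻¹ * (u * a * u⁻¹) = b⁻¹ * (u * b * u⁻¹) := congrArg Subtype.val e
    have hba : b * a⁻¹ ∈ L := L.mul_mem hb (L.inv_mem ha)
    have hfix : u * (b * a⁻¹) = (b * a⁻¹) * u := by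
      -- `u b u⁻¹ = b a⁻¹ (u a u⁻¹)`
      have h1 : u * b * u⁻¹ = b * (a⁻¹ * (u * a * u⁻¹)) := by rw [e']; group
      have hua := Subgroup.le_normalizer_iff.mp h.hnorm u hu a ha
      have h2 := h.comm_of_ab hab (L.inv_mem ha) hua
      calc u * (b * a⁻¹) = (u * b * u⁻¹) * (u * a⁻¹ * u⁻¹) * u := by group
        _ = b * (a⁻¹ * (u * a * u⁻¹)) * (u * a⁻¹ * u⁻¹) * u := by rw [h1]
        _ = b * a⁻¹ * u := by group
    have h3 := h.fix_trivial hab hba (h.hfree u hu hu1 _ hba hfix)
    apply Subtype.ext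
    show a = b
    have : b = a := by
      calc b = b * a⁻¹ * a := by group
        _ = a := by rw [h3, one_mul]
    exact this.symm
  obtain ⟨x, hx⟩ := (Finite.injective_iff_surjective.mp hf) ⟨y, hy⟩
  exact ⟨x, x.2, (congrArg Subtype.val hx).symm⟩

end abelian

/-- degree bound: the multiplicities' support is at most the degree. -/
theorem card_le_degree {X : Type*} [Group X] [Finite X] {ψ : X → ℂ} (hψ : IsCharacter X ψ)
    (m : IrrCharacter X → ℕ) (hm : ψ = ∑ i, m i • (i : X → ℂ)) (S : Finset (IrrCharacter X))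
    (hS : ∀ i ∈ S, m i ≠ 0) : S.card ≤ charDegree ψ := by
  classical
  letI := Fintype.ofFinite X
  have h1 : ψ 1 = ((∑ i, m i * charDegree (i : X → ℂ) : ℕ) : ℂ) := by
    rw [hm, Finset.sum_apply]
    push_cast
    refine Finset.sum_congr rfl fun i _ => ?_
    rw [Pi.smul_apply, nsmul_eq_mul, one_eq_charDegree (IsIrrCharacter.isCharacter i.2)]
  have h2 : charDegree ψ = ∑ i, m i * charDegree (i : X → ℂ) := by
    have := one_eq_charDegree hψ
    rw [h1] at this
    exact_mod_cast this.symm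
  rw [h2]
  calc S.card = ∑ i ∈ S, 1 := by simp
    _ ≤ ∑ i ∈ S, m i * charDegree (i : X → ℂ) := by
        refine Finset.sum_le_sum fun i hi => ?_
        have h3 := charDegree_pos i.2
        have h4 := Nat.pos_of_ne_zero (hS i hi)
        exact Nat.mul_pos h4 h3
    _ ≤ _ := Finset.sum_le_sum_of_subset (Finset.subset_univ _)

/-- the conjugation automorphism of `L` -/
noncomputable def conjL (h : P ≤ Subgroup.normalizer (L : Set G)) (u : P) : MulAut L :=
  Subgroup.normalizerMonoidHom L ⟨u, h u.2⟩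

theorem conjL_apply (h : P ≤ Subgroup.normalizer (L : Set G)) (u : P) (x : L) :
    ((conjL h u x : L) : G) = u * x * (u : G)⁻¹ := rfl

theorem conjL_symm_apply (h : P ≤ Subgroup.normalizer (L : Set G)) (u : P) (x : L) :
    (((conjL h u).symm x : L) : G) = (u : G)⁻¹ * x * u := by
  have h1 : conjL h u ((conjL h u).symm x) = x := (conjL h u).apply_symm_apply x
  have h2 := congrArg (Subtype.val : ↥L → G) h1
  rw [conjL_apply] at h2
  rw [← h2]
  group

/-- Some constituent moves a given element. -/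
theorem exists_constituent {X : Type*} [Group X] [Finite X] {ψ : X → ℂ}
    (m : IrrCharacter X → ℕ) (hm : ψ = ∑ i, m i • (i : X → ℂ)) {x : X} (hx : ψ x ≠ ψ 1) :
    ∃ τ : IrrCharacter X, m τ ≠ 0 ∧ (τ : X → ℂ) x ≠ (τ : X → ℂ) 1 := by
  classical
  letI := Fintype.ofFinite X
  by_contra hno
  push Not at hno
  apply hx
  rw [hm]
  simp only [Finset.sum_apply, Pi.smul_apply]
  refine Finset.sum_congr rfl fun i _ => ?_
  by_cases h0 : m i = 0
  · simp [h0]
  · rw [hno i h0]

/-- The abelian case: the degree is at least `|P|`. -/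
theorem abelian_bound (h : MinAct p r P L) (hab : ⁅L, L⁆ = ⊥) {χ : G → ℂ} (hχ : IsCharacter G χ)
    (hfaith : ∀ g : G, χ g = χ 1 → g = 1) : Nat.card P ≤ charDegree χ := by
  classical
  letI : Fintype G := Fintype.ofFinite G
  letI : Fintype L := Fintype.ofFinite L
  letI : Fintype P := Fintype.ofFinite P
  set ψ : L → ℂ := fun x => χ x with hψdef
  have hψ : IsCharacter L ψ := isCharacter_restrict L hχ
  obtain ⟨m, hm⟩ := exists_nat_decomp hψ
  have hLne : ∃ x : L, x ≠ 1 := by
    by_contra hno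
    push Not at hno
    apply h.L_ne_bot
    rw [eq_bot_iff]
    intro x hx
    have := hno ⟨x, hx⟩
    rw [Subgroup.mem_bot]
    exact congrArg Subtype.val this
  obtain ⟨x₀, hx₀⟩ := hLne
  have hψx : ψ x₀ ≠ ψ 1 := by
    intro e
    apply hx₀
    apply Subtype.ext
    exact hfaith _ e
  obtain ⟨τ, hτm, hτx⟩ := exists_constituent m hm hψx
  let T : P → IrrCharacter L := fun u => Cfsg.Agent.Lib.CharAut.irrAut (conjL h.hnorm u) τ
  have hTm : ∀ u, m (T u) ≠ 0 := by
    intro u
    have h1 : classInner ψ (T u : L → ℂ) = classInner ψ (τ : L → ℂ) := by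
      have h2 := Cfsg.Agent.Lib.Clifford.classInner_comp_mulEquiv (conjL h.hnorm u) ψ (T u : L → ℂ)
      rw [← h2]
      congr 1
      · funext y
        show χ _ = χ _
        rw [show ((conjL h.hnorm u y : L) : G) = u * y * (u : G)⁻¹ from rfl]
        exact isClassFunction_of_isCharacter hχ _ _
      · funext y
        show (τ : L → ℂ) ((conjL h.hnorm u).symm (conjL h.hnorm u y)) = _
        rw [MulEquiv.symm_apply_apply]
    have h3 : classInner ψ (T u : L → ℂ) = m (T u) := by
      rw [hm]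
      exact classInner_nat_decomp m _ (T u).2
    have h4 : classInner ψ (τ : L → ℂ) = m τ := by
      rw [hm]
      exact classInner_nat_decomp m _ τ.2
    rw [h3, h4] at h1
    have h5 : m (T u) = m τ := by exact_mod_cast h1
    rw [h5]
    exact hτm
  have hτmul : ∀ a b : L, (τ : L → ℂ) 1 * (τ : L → ℂ) (a * b) = (τ : L → ℂ) a * (τ : L → ℂ) b := by
    intro a b
    apply central_mul τ.2
    intro g
    apply Subtype.ext
    exact h.comm_of_ab hab a.2 g.2
  have hτ1 : (τ : L → ℂ) 1 ≠ 0 := by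
    have := charDegree_pos τ.2
    rw [one_eq_charDegree (IsIrrCharacter.isCharacter τ.2)]
    exact_mod_cast this.ne'
  have hTinj : Function.Injective T := by
    intro u v e
    by_contra hne
    -- `w = v⁻¹ u ≠ 1` fixes `τ`
    set w : P := u⁻¹ * v with hw
    have hw1 : (w : G) ≠ 1 := by
      intro e1
      apply hne
      have : w = 1 := Subtype.ext e1
      rw [hw] at this
      exact (inv_mul_eq_one.mp this)
    have hfix : ∀ y : L, (τ : L → ℂ) ((conjL h.hnorm w) y) = (τ : L → ℂ) y := by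
      intro y
      have h1 : (T u : L → ℂ) (conjL h.hnorm u (conjL h.hnorm w y)) = (τ : L → ℂ) (conjL h.hnorm w y) := by
        show (τ : L → ℂ) ((conjL h.hnorm u).symm (conjL h.hnorm u (conjL h.hnorm w y))) = _
        rw [MulEquiv.symm_apply_apply]
      have h2 : (T v : L → ℂ) (conjL h.hnorm v y) = (τ : L → ℂ) y := by
        show (τ : L → ℂ) ((conjL h.hnorm v).symm (conjL h.hnorm v y)) = _
        rw [MulEquiv.symm_apply_apply]
      have h3 : conjL h.hnorm u (conjL h.hnorm w y) = conjL h.hnorm v y := by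
        apply Subtype.ext
        rw [conjL_apply, conjL_apply, conjL_apply, hw]
        push_cast
        group
      rw [← h1, h3, e, h2]
    -- now `τ` is trivial
    obtain ⟨a, ha, hxa⟩ := h.exists_img hab w.2 hw1 x₀.2
    have hx₀eq : x₀ = (⟨a, ha⟩ : L)⁻¹ * conjL h.hnorm w ⟨a, ha⟩ := by
      apply Subtype.ext
      rw [hxa]
      rfl
    apply hτx
    have h4 := hτmul (⟨a, ha⟩ : L)⁻¹ (conjL h.hnorm w ⟨a, ha⟩)
    rw [← hx₀eq, hfix] at h4
    have h5 := hτmul (⟨a, ha⟩ : L)⁻¹ ⟨a, ha⟩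
    rw [inv_mul_cancel] at h5
    have h6 : (τ : L → ℂ) 1 * (τ : L → ℂ) x₀ = (τ : L → ℂ) 1 * (τ : L → ℂ) 1 := by
      rw [h4, ← h5]
    exact mul_left_cancel₀ hτ1 h6
  let S : Finset (IrrCharacter L) := Finset.univ.image T
  have hS : S.card = Nat.card P := by
    rw [Finset.card_image_of_injective _ hTinj, Finset.card_univ, Nat.card_eq_fintype_card]
  have hdeg : charDegree ψ = charDegree χ := rfl
  rw [← hS, ← hdeg]
  apply card_le_degree hψ m hm S
  intro i hi
  obtain ⟨u, _, rfl⟩ := Finset.mem_image.mp hi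
  exact hTm u


/-- Every constituent has at most the degree. -/
theorem degree_le_degree {X : Type*} [Group X] [Finite X] {ψ : X → ℂ} (hψ : IsCharacter X ψ)
    (m : IrrCharacter X → ℕ) (hm : ψ = ∑ i, m i • (i : X → ℂ)) (τ : IrrCharacter X)
    (hτ : m τ ≠ 0) : charDegree (τ : X → ℂ) ≤ charDegree ψ := by
  classical
  letI := Fintype.ofFinite X
  have h1 : ψ 1 = ((∑ i, m i * charDegree (i : X → ℂ) : ℕ) : ℂ) := by
    rw [hm, Finset.sum_apply]
    push_cast
    refine Finset.sum_congr rfl fun i _ => ?_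
    rw [Pi.smul_apply, nsmul_eq_mul, one_eq_charDegree (IsIrrCharacter.isCharacter i.2)]
  have h2 : charDegree ψ = ∑ i, m i * charDegree (i : X → ℂ) := by
    have := one_eq_charDegree hψ
    rw [h1] at this
    exact_mod_cast this.symm
  rw [h2]
  calc charDegree (τ : X → ℂ) ≤ m τ * charDegree (τ : X → ℂ) :=
        Nat.le_mul_of_pos_left _ (Nat.pos_of_ne_zero hτ)
    _ ≤ _ := Finset.single_le_sum (f := fun i => m i * charDegree (i : X → ℂ))
        (fun _ _ => Nat.zero_le _) (Finset.mem_univ τ)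

/-- The subgroup of elements of `X` central modulo the subgroup `T`. -/
def radSub {X : Type*} [Group X] (T : Subgroup X) [hT : T.Normal] : Subgroup X where
  carrier := {x | ∀ y, ⁅x, y⁆ ∈ T}
  one_mem' := by intro y; simp [T.one_mem]
  mul_mem' := by
    intro a b ha hb y
    have h1 : ⁅a * b, y⁆ = a * ⁅b, y⁆ * a⁻¹ * ⁅a, y⁆ := by
      simp only [commutatorElement_def]
      group
    rw [h1]
    exact T.mul_mem (hT.conj_mem _ (hb y) a) (ha y)
  inv_mem' := by
    intro a ha y
    have h1 : ⁅a⁻¹, y⁆ = a⁻¹ * (⁅a, y⁆)⁻¹ * (a⁻¹)⁻¹ := by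
      simp only [commutatorElement_def]
      group
    rw [h1]
    exact hT.conj_mem _ (T.inv_mem (ha y)) a⁻¹

/-- The non-abelian case: a constituent nontrivial on `[L,L]` has `τ(1)² |C_L(P)| = |L|`. -/
theorem deg_sq (h : MinAct p r P L) {τ : L → ℂ} (hτ : IsIrrCharacter L τ) {c : L}
    (hc : (c : G) ∈ ⁅L, L⁆) (hcτ : τ c ≠ τ 1) :
    charDegree τ ^ 2 * Nat.card (L ⊓ Subgroup.centralizer (P : Set G) : Subgroup G) = Nat.card L := by
  classical
  letI : Fintype L := Fintype.ofFinite L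
  have hτc := IsIrrCharacter.isCharacter hτ
  set T : Subgroup L := charKer hτc with hT
  haveI hTn : T.Normal := charKer_normal hτc
  set Rs : Subgroup L := radSub T with hRs
  set R : Subgroup G := Rs.map L.subtype with hR
  have hRL : R ≤ L := Subgroup.map_subtype_le _
  have hRne : R ≠ L := by
    intro e
    have hle : ⁅L, L⁆ ≤ T.map L.subtype := by
      rw [Subgroup.commutator_le]
      intro x hx y hy
      have hxR : x ∈ R := by rw [e]; exact hx
      obtain ⟨a, ha, rfl⟩ := hxR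
      exact ⟨⁅a, (⟨y, hy⟩ : L)⁆, ha ⟨y, hy⟩, rfl⟩
    obtain ⟨c', hc', hcc⟩ := hle hc
    have : c' = c := Subtype.ext hcc
    rw [this] at hc'
    exact hcτ hc'
  have hRlt : R < L := lt_of_le_of_ne hRL hRne
  have hRnorm : P ≤ Subgroup.normalizer (R : Set G) := by
    rw [Subgroup.le_normalizer_iff]
    rintro u hu _ ⟨a, ha, rfl⟩
    refine ⟨conjL h.hnorm ⟨u, hu⟩ a, ?_, rfl⟩
    intro y
    set y' : L := (conjL h.hnorm ⟨u, hu⟩).symm y with hy'
    have e1 : y = conjL h.hnorm ⟨u, hu⟩ y' := by rw [hy']; simp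
    have e2 : ⁅conjL h.hnorm ⟨u, hu⟩ a, y⁆ = conjL h.hnorm ⟨u, hu⟩ ⁅a, y'⁆ := by
      rw [e1, map_commutatorElement]
    rw [e2]
    have e3 : conjL h.hnorm ⟨u, hu⟩ ⁅a, y'⁆ = ⁅a, y'⁆ := by
      apply Subtype.ext
      rw [conjL_apply]
      have hmem : ((⁅a, y'⁆ : L) : G) ∈ ⁅L, L⁆ :=
        Subgroup.commutator_mem_commutator a.2 y'.2
      have := h.comm_L u hu _ hmem
      show u * _ * u⁻¹ = _
      rw [this]
      group
    rw [e3]
    exact ha y'
  have hRcent := h.hmin R hRlt hRnorm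
  -- vanishing off the fixed points
  have hvanish : ∀ x : L, (¬ ∀ u ∈ P, u * (x : G) = x * u) → τ x = 0 := by
    intro x hx
    have hxR : x ∉ Rs := by
      intro hmem
      apply hx
      intro u hu
      exact hRcent u hu x ⟨x, hmem, rfl⟩
    have hex : ∃ y : L, ⁅x, y⁆ ∉ T := by
      by_contra hno
      push Not at hno
      exact hxR hno
    obtain ⟨y, hy⟩ := hex
    set k : L := ⁅x, y⁆ with hk
    have hkL : (k : G) ∈ ⁅L, L⁆ := Subgroup.commutator_mem_commutator x.2 y.2
    have hkcent : ∀ g : L, k * g = g * k := by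
      intro g
      apply Subtype.ext
      exact h.central k.2 (fun u hu => h.comm_L u hu _ hkL) g g.2
    have hkne : τ k ≠ τ 1 := hy
    have h1 := central_mul hτ hkcent (y * x * y⁻¹)
    have h2 : k * (y * x * y⁻¹) = x := by
      rw [hk, commutatorElement_def]
      group
    rw [h2, isClassFunction_of_isCharacter hτc x y] at h1
    have h3 : (τ 1 - τ k) * τ x = 0 := by linear_combination h1
    rcases mul_eq_zero.mp h3 with h4 | h4
    · exact absurd (sub_eq_zero.mp h4).symm hkne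
    · exact h4
  -- the sum
  set Z : Subgroup G := L ⊓ Subgroup.centralizer (P : Set G) with hZ
  have hinner := classInner_irr_self hτ
  unfold classInner at hinner
  have hcardne : (Nat.card L : ℂ) ≠ 0 := natCard_ne_zero'
  have hsum : ∑ g : L, τ g * conj (τ g) =
      ∑ g : L, if (g : G) ∈ Z then τ 1 * τ 1 else 0 := by
    refine Finset.sum_congr rfl fun g _ => ?_
    by_cases hg : (g : G) ∈ Z
    · rw [if_pos hg]
      apply central_norm hτ
      intro y
      apply Subtype.ext
      exact h.central g.2 (fun u hu => Subgroup.mem_centralizer_iff.mp hg.2 u hu) y y.2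
    · rw [if_neg hg, hvanish g, zero_mul]
      intro hcomm
      exact hg ⟨g.2, Subgroup.mem_centralizer_iff.mpr hcomm⟩
  rw [hsum, Finset.sum_ite, Finset.sum_const_zero, add_zero, Finset.sum_const, nsmul_eq_mul] at hinner
  have hcardZ : (Finset.univ.filter fun g : L => (g : G) ∈ Z).card = Nat.card Z := by
    rw [← Fintype.card_subtype, ← Nat.card_eq_fintype_card]
    apply Nat.card_congr
    exact
      { toFun := fun a => ⟨a.1.1, a.2⟩
        invFun := fun a => ⟨⟨a.1, inf_le_left (a := L) a.2⟩, a.2⟩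
        left_inv := fun _ => rfl
        right_inv := fun _ => rfl }
  rw [hcardZ, one_eq_charDegree hτc] at hinner
  have hfin : ((charDegree τ ^ 2 * Nat.card Z : ℕ) : ℂ) = Nat.card L := by
    push_cast
    field_simp at hinner
    linear_combination hinner
  exact_mod_cast hfin

/-- The main degree bound. -/
theorem main_bound (h : MinAct p r P L) {χ : G → ℂ} (hχ : IsCharacter G χ)
    (hfaith : ∀ g : G, χ g = χ 1 → g = 1) : Nat.card P < charDegree χ ^ 2 := by
  classical
  by_cases hab : ⁅L, L⁆ = ⊥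
  · have h1 := h.abelian_bound hab hχ hfaith
    have hP2 : 2 ≤ Nat.card P := by
      have hne : Nontrivial P := by
        rw [Subgroup.nontrivial_iff_ne_bot]
        rintro rfl
        apply h.hne
        intro u hu x _
        rw [Subgroup.mem_bot] at hu
        simp [hu]
      exact Finite.one_lt_card
    nlinarith
  · obtain ⟨c, hc, hc1⟩ : ∃ c ∈ ⁅L, L⁆, c ≠ 1 := by
      by_contra hno
      push Not at hno
      apply hab
      rw [eq_bot_iff]
      intro c hc
      rw [Subgroup.mem_bot]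
      exact hno c hc
    have hcL : c ∈ L := by
      have hle : ⁅L, L⁆ ≤ L := by
        rw [Subgroup.commutator_le]
        intro x hx y hy
        rw [commutatorElement_def]
        exact L.mul_mem (L.mul_mem (L.mul_mem hx hy) (L.inv_mem hx)) (L.inv_mem hy)
      exact hle hc
    set ψ : L → ℂ := fun x => χ x with hψdef
    have hψ : IsCharacter L ψ := isCharacter_restrict L hχ
    obtain ⟨m, hm⟩ := exists_nat_decomp hψ
    have hψx : ψ ⟨c, hcL⟩ ≠ ψ 1 := by
      intro e
      exact hc1 (hfaith _ e)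
    obtain ⟨τ, hτm, hτx⟩ := exists_constituent m hm hψx
    have h1 := h.deg_sq τ.2 (c := ⟨c, hcL⟩) hc hτx
    have h2 := degree_le_degree hψ m hm τ hτm
    have h3 := h.card_bound
    have h4 : charDegree ψ = charDegree χ := rfl
    rw [h4] at h2
    set z := Nat.card (L ⊓ Subgroup.centralizer (P : Set G) : Subgroup G) with hz
    have hzpos : 0 < z := Nat.card_pos
    have h5 : (Nat.card P + 1) * z ≤ charDegree (τ : L → ℂ) ^ 2 * z := by
      rw [h1]; exact h3
    have h6 := Nat.le_of_mul_le_mul_right h5 hzpos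
    calc Nat.card P < Nat.card P + 1 := Nat.lt_succ_self _
      _ ≤ charDegree (τ : L → ℂ) ^ 2 := h6
      _ ≤ _ := Nat.pow_le_pow_left h2 2

end MinAct

/-! ### Reductions -/

theorem exists_chain {p : ℕ} [Fact p.Prime] (hsolv : IsPSolvable p G) (hp : p ∣ Nat.card G) :
    ∃ K Q : Subgroup G, K.Normal ∧ Q.Normal ∧ K ≤ Q ∧ ¬ p ∣ Nat.card K ∧
      (∃ m, K.relIndex Q = p ^ m) ∧ p ∣ Nat.card Q := by
  obtain ⟨n, H, h0, hn, hmono, hnorm, hstep⟩ := hsolv
  have key : ∀ i : Fin (n + 1), p ∣ Nat.card (H i) → ∃ K Q : Subgroup G, K.Normal ∧ Q.Normal ∧ K ≤ Q ∧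
      ¬ p ∣ Nat.card K ∧ (∃ m, K.relIndex Q = p ^ m) ∧ p ∣ Nat.card Q := by
    intro i
    induction i using Fin.induction with
    | zero =>
      intro h
      rw [h0] at h
      simp only [Subgroup.card_bot] at h
      exact absurd (Nat.dvd_one.mp h) (Fact.out : p.Prime).ne_one
    | succ i ih =>
      intro h
      by_cases hd : p ∣ Nat.card (H i.castSucc)
      · exact ih hd
      · refine ⟨H i.castSucc, H i.succ, hnorm _, hnorm _, hmono (Fin.castSucc_le_succ i), hd, ?_, h⟩
        rcases hstep i with h1 | h1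
        · exact h1
        · exfalso
          have h2 : Nat.card (H i.succ) =
              (H i.castSucc).relIndex (H i.succ) * Nat.card (H i.castSucc) := by
            rw [Subgroup.relIndex, ← Subgroup.card_mul_index ((H i.castSucc).subgroupOf (H i.succ))]
            rw [mul_comm]
            congr 1
            rw [Nat.card_congr (Subgroup.subgroupOfEquivOfLe (hmono (Fin.castSucc_le_succ i))).toEquiv]
          rw [h2] at h
          rcases (Fact.out : p.Prime).dvd_mul.mp h with h3 | h3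
          · have := Nat.Coprime.eq_one_of_dvd h1.symm h3
            exact (Fact.out : p.Prime).ne_one this
          · exact hd h3
  apply key (Fin.last n)
  rw [hn]
  simpa using hp

/-- Frattini step. -/
theorem exists_factor {p : ℕ} [Fact p.Prime] (P : Sylow p G) {K Q : Subgroup G} (hK : K.Normal)
    (hQ : Q.Normal) (hKQ : K ≤ Q) (hm : ∃ m, K.relIndex Q = p ^ m) (hpQ : p ∣ Nat.card Q) :
    ∃ P₀ : Subgroup G, P₀ ≤ (P : Subgroup G) ∧ P₀ ≠ ⊥ ∧
      ∀ g : G, ∃ n ∈ Subgroup.normalizer (P₀ : Set G), ∃ k ∈ K, g = n * k := by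
  classical
  haveI := hQ
  haveI := hK
  obtain ⟨S, hS⟩ := Cfsg.Agent.Lib.PResid.exists_sylow_inf_of_normal P Q
  set P₀ : Subgroup G := (P : Subgroup G) ⊓ Q with hP₀
  have hP₀Q : P₀ ≤ Q := inf_le_right
  have hne : P₀ ≠ ⊥ := by
    rw [← hS]
    intro e
    have h1 : (S : Subgroup Q) = ⊥ := by
      rwa [Subgroup.map_eq_bot_iff_of_injective _ Q.subtype_injective] at e
    have h2 := S.ne_bot_of_dvd_card (G := Q) hpQ
    exact h2 h1
  refine ⟨P₀, inf_le_left, hne, ?_⟩
  -- `Q ≤ P₀ K`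
  have hA : Q ≤ P₀ ⊔ K := by
    set A := P₀ ⊔ K with hAdef
    have hrel : A.relIndex Q = 1 := by
      obtain ⟨m, hm⟩ := hm
      have h1 : A.relIndex Q ∣ p ^ m := by
        rw [← hm]
        exact Subgroup.relIndex_dvd_of_le_left Q (le_sup_right : K ≤ A)
      have h2 : A.relIndex Q ∣ P₀.relIndex Q := Subgroup.relIndex_dvd_of_le_left Q (le_sup_left : P₀ ≤ A)
      have h3 : ¬ p ∣ P₀.relIndex Q := by
        have h4 : P₀.subgroupOf Q = (S : Subgroup Q) := by
          rw [← hS]
          exact Subgroup.comap_map_eq_self_of_injective Q.subtype_injective _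
        rw [Subgroup.relIndex, h4]
        exact S.not_dvd_index
      obtain ⟨k, -, hk⟩ := (Nat.dvd_prime_pow (Fact.out : p.Prime)).mp h1
      rw [hk] at h2 ⊢
      rcases k with _ | k
      · simp
      · exact absurd ((dvd_pow_self p (Nat.succ_ne_zero k)).trans h2) h3
    exact Subgroup.relIndex_eq_one.mp hrel
  intro g
  have h1 := Sylow.normalizer_sup_eq_top S
  have h2 : ((S.map Q.subtype : Subgroup G)) = P₀ := hS
  have hg : g ∈ (Subgroup.normalizer (P₀ : Set G) ⊔ Q : Subgroup G) := by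
    have h3 : Subgroup.normalizer (((S : Subgroup Q).map Q.subtype : Subgroup G) : Set G) ⊔ Q = ⊤ := h1
    rw [hS] at h3
    rw [h3]
    trivial
  have hg' : g ∈ ((Subgroup.normalizer (P₀ : Set G) ⊔ Q : Subgroup G) : Set G) := hg
  rw [Subgroup.mul_normal] at hg'
  obtain ⟨n, hn, y, hy, rfl⟩ := hg'
  have hy' : y ∈ ((P₀ ⊔ K : Subgroup G) : Set G) := hA hy
  rw [Subgroup.mul_normal] at hy'
  obtain ⟨a, ha, k, hk, rfl⟩ := hy'
  refine ⟨n * a, Subgroup.mul_mem _ hn (Subgroup.le_normalizer ha), k, hk, ?_⟩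
  group

/-- The main theorem. -/
theorem main {p : ℕ} [Fact p.Prime] (hsolv : IsPSolvable p G) (P : Sylow p G)
    (hTI : ∀ g : G, g ∉ Subgroup.normalizer ((P : Subgroup G) : Set G) →
      (P : Subgroup G) ⊓ (MulAut.conj g • (P : Subgroup G)) = ⊥)
    {χ : G → ℂ} (hχ : IsCharacter G χ) (hfaith : ∀ g : G, χ g = χ 1 → g = 1)
    (hdeg : charDegree χ ^ 2 ≤ Nat.card ↥(P : Subgroup G)) : (P : Subgroup G).Normal := by
  classical
  by_contra hN
  set A : Subgroup G := (P : Subgroup G) with hA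
  have hAp : IsPGroup p A := P.isPGroup'
  -- `p` divides `|G|`
  have hpG : p ∣ Nat.card G := by
    by_contra hnd
    apply hN
    have h1 : A = ⊥ := by
      have h2 : (Nat.card A).Coprime (Nat.card G) := by
        obtain ⟨k, hk⟩ := (IsPGroup.iff_card).mp hAp
        rw [hk]
        exact Nat.Coprime.pow_left _ (((Fact.out : p.Prime).coprime_iff_not_dvd).mpr hnd)
      have h3 : Nat.card A ∣ Nat.card G := Subgroup.card_subgroup_dvd_card A
      have h4 : Nat.card A = 1 := Nat.Coprime.eq_one_of_dvd h2 h3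
      exact Subgroup.eq_bot_of_card_eq A h4
    rw [h1]
    infer_instance
  obtain ⟨K, Q, hK, hQ, hKQ, hpK, hm, hpQ⟩ := exists_chain hsolv hpG
  obtain ⟨P₀, hP₀, hP₀ne, hfac⟩ := exists_factor P hK hQ hKQ hm hpQ
  haveI := hK
  -- normalizer control
  have hnormP₀ : Subgroup.normalizer (P₀ : Set G) ≤ Subgroup.normalizer (A : Set G) := by
    intro n hn
    by_contra hnP
    have h1 := hTI n hnP
    apply hP₀ne
    rw [eq_bot_iff, ← h1]
    intro x hx
    refine ⟨hP₀ hx, ?_⟩
    show x ∈ MulAut.conj n • A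
    rw [Subgroup.mem_pointwise_smul_iff_inv_smul_mem]
    have h2 := (Subgroup.mem_normalizer_iff.mp (Subgroup.inv_mem _ hn) x).mp hx
    apply hP₀
    simpa using h2
  have hcop : (Nat.card A).Coprime (Nat.card K) := by
    obtain ⟨k, hk⟩ := (IsPGroup.iff_card).mp hAp
    rw [hk]
    exact Nat.Coprime.pow_left _ (((Fact.out : p.Prime).coprime_iff_not_dvd).mpr hpK)
  have hAK : A ≤ Subgroup.normalizer (K : Set G) := by
    rw [Subgroup.normalizer_eq_top_iff.mpr hK]
    exact le_top
  have hAinf : A ⊓ K = ⊥ := disjoint_iff.mp (Subgroup.disjoint_of_coprime_natCard hcop)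
  -- `K` does not centralize `A`
  have hKne : ¬ ∀ u ∈ A, ∀ x ∈ K, u * x = x * u := by
    intro hc
    apply hN
    rw [← Subgroup.normalizer_eq_top_iff, eq_top_iff]
    intro g _
    obtain ⟨n, hn, k, hk, rfl⟩ := hfac g
    refine Subgroup.mul_mem _ (hnormP₀ hn) ?_
    rw [Subgroup.mem_normalizer_iff]
    intro y
    have hcomm : ∀ y ∈ A, k * y * k⁻¹ = y := by
      intro y hy
      rw [← hc y hy k hk]
      group
    constructor
    · intro hy
      rw [hcomm y hy]
      exact hy
    · intro hy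
      have := hcomm _ hy
      have h1 : y = k * y * k⁻¹ := by
        have h2 := hc (k * y * k⁻¹) hy k hk
        have h3 : k * y * k⁻¹ * k = k * y := by group
        rw [h3] at h2
        exact mul_left_cancel h2
      rw [h1]
      exact hy
  have hAsolv : Group.IsSolvable A ∨ Group.IsSolvable K := by
    have : Group.IsNilpotent A := hAp.isNilpotent
    exact Or.inl inferInstance
  -- an invariant Sylow subgroup not centralized
  have hsyl : ∃ (r : ℕ) (_ : Fact r.Prime) (R : Sylow r K),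
      A ≤ Subgroup.normalizer (((R : Subgroup K).map K.subtype : Subgroup G) : Set G) ∧
      ¬ ∀ u ∈ A, ∀ x ∈ (R : Subgroup K).map K.subtype, u * x = x * u := by
    by_contra hno
    push Not at hno
    apply hKne
    -- the centralizer in `K` has index prime to every prime
    set C : Subgroup G := K ⊓ Subgroup.centralizer (A : Set G) with hC
    have hidx : C.relIndex K = 1 := by
      by_contra hne1
      obtain ⟨r, hr, hrd⟩ := Nat.exists_prime_and_dvd hne1
      haveI : Fact r.Prime := ⟨hr⟩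
      obtain ⟨R, hR⟩ := Cfsg.Agent.Lib.Glauberman2.exists_invariant_sylow hAK hcop hAsolv r
      have h1 := hno r ⟨hr⟩ R hR
      have hle : (R : Subgroup K).map K.subtype ≤ C := by
        intro x hx
        refine ⟨Subgroup.map_subtype_le _ hx, Subgroup.mem_centralizer_iff.mpr ?_⟩
        intro u hu
        exact h1 u hu x hx
      have h2 : C.relIndex K ∣ ((R : Subgroup K).map K.subtype).relIndex K :=
        Subgroup.relIndex_dvd_of_le_left K hle
      have h3 : ((R : Subgroup K).map K.subtype).relIndex K = (R : Subgroup K).index := by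
        rw [Subgroup.relIndex]
        congr 1
        exact Subgroup.comap_map_eq_self_of_injective K.subtype_injective _
      rw [h3] at h2
      exact R.not_dvd_index (hrd.trans h2)
    have hKC : K ≤ C := Subgroup.relIndex_eq_one.mp hidx
    intro u hu x hx
    exact Subgroup.mem_centralizer_iff.mp (hKC hx).2 u hu
  obtain ⟨r, hrF, R, hRn, hRne⟩ := hsyl
  haveI := hrF
  set R' : Subgroup G := (R : Subgroup K).map K.subtype with hR'
  have hR'K : R' ≤ K := Subgroup.map_subtype_le _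
  have hR'p : IsPGroup r R' := R.isPGroup'.map _
  have hrp : p ≠ r := by
    rintro rfl
    apply hRne
    have h1 : R' = ⊥ := by
      have h2 : (Nat.card R').Coprime (Nat.card K) ∨ True := Or.inr trivial
      have h3 : Nat.card R' ∣ Nat.card K := Subgroup.card_dvd_of_le hR'K
      obtain ⟨k, hk⟩ := (IsPGroup.iff_card).mp hR'p
      rw [hk] at h3
      rcases k with _ | k
      · exact Subgroup.eq_bot_of_card_eq R' (by simpa using hk)
      · exact absurd ((dvd_pow_self p (Nat.succ_ne_zero k)).trans h3) hpK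
    rw [h1]
    intro u _ x hx
    rw [Subgroup.mem_bot] at hx
    simp [hx]
  -- minimal choice
  let F : Set (Subgroup G) := {M | M ≤ R' ∧ A ≤ Subgroup.normalizer (M : Set G) ∧
    ¬ ∀ u ∈ A, ∀ x ∈ M, u * x = x * u}
  have hFne : F.Nonempty := ⟨R', le_rfl, hRn, hRne⟩
  obtain ⟨L, hLmin⟩ := (Set.toFinite F).exists_minimal hFne
  have hLF : L ∈ F := hLmin.1
  obtain ⟨hLR, hLn, hLne⟩ := hLF
  have hLK : L ≤ K := hLR.trans hR'K
  have hact : MinAct p r A L := by
    refine ⟨Fact.out, Fact.out, hrp, hAp, hR'p.to_le hLR, hLn, hLne, ?_, ?_⟩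
    · intro M hM hMn
      by_contra hc
      have hMF : M ∈ F := ⟨hM.le.trans hLR, hMn, hc⟩
      exact absurd (hLmin.2 hMF hM.le) (not_le_of_gt hM)
    · intro u hu hu1 x hxL huc v hv
      have hxK := hLK hxL
      have hxN : x ∈ Subgroup.normalizer (A : Set G) := by
        by_contra hnot
        have h1 := hTI x hnot
        apply hu1
        have h2 : u ∈ A ⊓ (MulAut.conj x • A) := by
          refine ⟨hu, ?_⟩
          show u ∈ MulAut.conj x • A
          rw [Subgroup.mem_pointwise_smul_iff_inv_smul_mem]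
          have h3 : (MulAut.conj x)⁻¹ • u = x⁻¹ * u * x := by
            simp [MulAut.smul_def]
          rw [h3]
          have h4 : x⁻¹ * u * x = u := by
            rw [mul_assoc, huc]
            group
          rw [h4]
          exact hu
        rw [h1] at h2
        exact h2
      have hin : x * v * x⁻¹ ∈ A := (Subgroup.mem_normalizer_iff.mp hxN v).mp hv
      have hc1 : x * v * x⁻¹ * v⁻¹ ∈ A := A.mul_mem hin (A.inv_mem hv)
      have hc2 : x * v * x⁻¹ * v⁻¹ ∈ K := by
        have : x * v * x⁻¹ * v⁻¹ = x * (v * x⁻¹ * v⁻¹) := by group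
        rw [this]
        exact K.mul_mem hxK (hK.conj_mem _ (K.inv_mem hxK) v)
      have hc3 : x * v * x⁻¹ * v⁻¹ ∈ A ⊓ K := ⟨hc1, hc2⟩
      rw [hAinf, Subgroup.mem_bot] at hc3
      have : x * v * x⁻¹ = v := by
        calc x * v * x⁻¹ = x * v * x⁻¹ * v⁻¹ * v := by group
          _ = v := by rw [hc3, one_mul]
      calc v * x = (x * v * x⁻¹) * x := by rw [this]
        _ = x * v := by group
  have h1 := hact.main_bound hχ hfaith
  exact absurd hdeg (not_le_of_gt h1)

/-- Let G be a finite p-solvable group whose Sylow p-subgroup P meets each conjugate g P g⁻¹ with g outside N_G(P) trivially, and let χ be a faithful character of G (χ g = χ 1 only for g = 1) whose degree d satisfies d² ≤ |P|. Then P is normal in G. -/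
theorem result {G : Type*} [Group G] [Finite G] (p : ℕ) [Fact p.Prime] (hsolv : Cfsg.IsPSolvable p G) (P : Sylow p G) (hTI : ∀ g : G, g ∉ Subgroup.normalizer ((P : Subgroup G) : Set G) → (P : Subgroup G) ⊓ (MulAut.conj g • (P : Subgroup G)) = ⊥) (χ : G → ℂ) (hχ : Cfsg.IsCharacter G χ) (hfaith : ∀ g : G, χ g = χ 1 → g = 1) (hdeg : Cfsg.charDegree χ ^ 2 ≤ Nat.card ↥(P : Subgroup G)) : (P : Subgroup G).Normal := by
  exact main hsolv P hTI hχ hfaith hdeg


end Cfsg.Agent.S4748
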