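import Mathlib
import Cfsg.Statements.S4754
import Cfsg.Agent.Lib.CharAvg

set_option autoImplicit false
open Cfsg

namespace Cfsg.Agent.S4754

open Cfsg.Agent.Lib.CharBasic Cfsg.Agent.Lib.CharAvg

/-- For elements x, y of a finite group G, the conjugacy class of x y equals the set of all products of a conjugate of x with a conjugate of y if and only if χ(1) χ(a x a⁻¹ b y b⁻¹) = χ(x) χ(y) for all a, b ∈ G and every irreducible character χ. -/
theorem result {G : Type*} [Group G] [Finite G] (x y : G) : (∀ z : G, IsConj (x * y) z ↔ ∃ a b : G, z = a * x * a⁻¹ * (b * y * b⁻¹)) ↔ ∀ (a b : G) (χ : Cfsg.IrrCharacter G), (χ : G → ℂ) 1 * (χ : G → ℂ) (a * x * a⁻¹ * (b * y * b⁻¹)) = (χ : G → ℂ) x * (χ : G → ℂ) y := by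
  classical
  constructor
  · intro H a b χ
    have hcl := isClassFunction_of_isCharacter (IsIrrCharacter.isCharacter χ.2)
    have hprod : ∀ a b : G, (χ : G → ℂ) (a * x * a⁻¹ * (b * y * b⁻¹)) = (χ : G → ℂ) (x * y) := by
      intro a b
      obtain ⟨c, hc⟩ := isConj_iff.mp ((H _).mpr ⟨a, b, rfl⟩)
      rw [← hc, hcl]
    rw [hprod a b]
    apply irr_mul_of_const χ.2 x y
    intro b
    have := hprod 1 b
    simpa using this
  · intro H z
    constructor
    · intro hz
      obtain ⟨c, rfl⟩ := isConj_iff.mp hz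
      refine ⟨c, c, ?_⟩
      group
    · rintro ⟨a, b, rfl⟩
      apply isConj_of_forall_irr
      intro χ
      have h1 := H a b χ
      have h2 := H 1 1 χ
      simp only [one_mul, inv_one, mul_one] at h2
      exact mul_left_cancel₀ (irr_one_ne_zero χ.2) (h2.trans h1.symm)

end Cfsg.Agent.S4754
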