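import Mathlib
import Cfsg.Statements.S4755
import Cfsg.Agent.Lib.CharAvg
import Cfsg.Agent.S0154

set_option autoImplicit false
open Cfsg

namespace Cfsg.Agent.S4755

open Cfsg.Agent.Lib.CharBasic Cfsg.Agent.Lib.CharAvg Cfsg.Agent.Lib.CharInd
open scoped ComplexConjugate commutatorElement

/-- A linear character has values of norm one. -/
theorem norm_linear {G : Type*} [Group G] [Finite G] {χ : G → ℂ} (hχ : IsCharacter G χ)
    (h1 : χ 1 = 1) (g : G) : χ g * conj (χ g) = 1 := by
  obtain ⟨f, hf⟩ := exists_hom_of_degree_one hχ h1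
  have h2 : ((f g : ℂˣ) : ℂ) ^ Nat.card G = 1 := by
    rw [← Units.val_pow_eq_pow_val, ← map_pow, pow_card_eq_one']
    simp
  have h3 : ‖((f g : ℂˣ) : ℂ)‖ = 1 :=
    Complex.norm_eq_one_of_pow_eq_one h2 Nat.card_pos.ne'
  rw [hf g, Complex.mul_conj, Complex.normSq_eq_norm_sq, h3]
  simp

/-- Let x, y be non-identity elements of the finite group G such that χ(x' y') = χ(x') χ(y') for all conjugates x' of x, y' of y and every irreducible character χ. Then the conjugacy class of x y is the set of all products of a conjugate of x with a conjugate of y; every irreducible character of degree greater than 1 vanishes at x y; and the conjugacy class of x y is the coset of the commutator subgroup containing x y. -/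
theorem result {G : Type*} [Group G] [Finite G] (x y : G) (hx : x ≠ 1) (hy : y ≠ 1) (h : ∀ (a b : G) (χ : Cfsg.IrrCharacter G), (χ : G → ℂ) (a * x * a⁻¹ * (b * y * b⁻¹)) = (χ : G → ℂ) (a * x * a⁻¹) * (χ : G → ℂ) (b * y * b⁻¹)) : (∀ z : G, IsConj (x * y) z ↔ ∃ a b : G, z = a * x * a⁻¹ * (b * y * b⁻¹)) ∧ (∀ χ : Cfsg.IrrCharacter G, (χ : G → ℂ) 1 ≠ 1 → (χ : G → ℂ) (x * y) = 0) ∧ (∀ z : G, IsConj (x * y) z ↔ (x * y)⁻¹ * z ∈ commutator G) := by
  classical
  haveI := Fintype.ofFinite G
  have hcl : ∀ (χ : IrrCharacter G) (g c : G), (χ : G → ℂ) (c * g * c⁻¹) = (χ : G → ℂ) g := fun χ g c =>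
    isClassFunction_of_isCharacter (IsIrrCharacter.isCharacter χ.2) g c
  have hprod : ∀ (a b : G) (χ : IrrCharacter G),
      (χ : G → ℂ) (a * x * a⁻¹ * (b * y * b⁻¹)) = (χ : G → ℂ) x * (χ : G → ℂ) y := by
    intro a b χ
    rw [h, hcl, hcl]
  have hxy : ∀ χ : IrrCharacter G, (χ : G → ℂ) (x * y) = (χ : G → ℂ) x * (χ : G → ℂ) y := by
    intro χ
    have := hprod 1 1 χ
    simpa using this
  have hmul : ∀ χ : IrrCharacter G, (χ : G → ℂ) 1 * (χ : G → ℂ) (x * y) = (χ : G → ℂ) x * (χ : G → ℂ) y := by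
    intro χ
    apply irr_mul_of_const χ.2 x y
    intro b
    have := hprod 1 b χ
    simp only [one_mul, inv_one, mul_one] at this
    rw [this, hxy]
  have h2 : ∀ χ : IrrCharacter G, (χ : G → ℂ) 1 ≠ 1 → (χ : G → ℂ) (x * y) = 0 := by
    intro χ hχ
    have h3 := hmul χ
    rw [← hxy χ] at h3
    have h4 : ((χ : G → ℂ) 1 - 1) * (χ : G → ℂ) (x * y) = 0 := by
      linear_combination h3
    rcases mul_eq_zero.mp h4 with h5 | h5
    · exact absurd (sub_eq_zero.mp h5) hχ
    · exact h5
  have h1 : ∀ z : G, IsConj (x * y) z ↔ ∃ a b : G, z = a * x * a⁻¹ * (b * y * b⁻¹) := by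
    intro z
    constructor
    · intro hz
      obtain ⟨c, rfl⟩ := isConj_iff.mp hz
      exact ⟨c, c, by group⟩
    · rintro ⟨a, b, rfl⟩
      apply isConj_of_forall_irr
      intro χ
      rw [hprod, hxy]
  -- the class of `x * y` has size `|G'|`.
  set w := x * y with hw
  have hcent : (Nat.card (Subgroup.centralizer ({w} : Set G))) = (commutator G).index := by
    have h3 := sum_irr_mul_conj w w
    rw [if_pos (IsConj.refl _)] at h3
    have h4 : ∑ χ : IrrCharacter G, (χ : G → ℂ) w * conj ((χ : G → ℂ) w) =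
        ∑ χ : IrrCharacter G, if (χ : G → ℂ) 1 = 1 then (1 : ℂ) else 0 := by
      refine Finset.sum_congr rfl fun χ _ => ?_
      split_ifs with hc
      · exact norm_linear (IsIrrCharacter.isCharacter χ.2) hc w
      · rw [h2 χ hc, zero_mul]
    have h5 : ∑ χ : IrrCharacter G, (if (χ : G → ℂ) 1 = 1 then (1 : ℂ) else 0) =
        (Nat.card {χ : IrrCharacter G // (χ : G → ℂ) 1 = 1} : ℂ) := by
      rw [Finset.sum_boole, Nat.card_eq_fintype_card, Fintype.card_subtype]
    rw [h4, h5, Cfsg.Agent.S0154.result] at h3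
    exact_mod_cast h3.symm
  have hcard : Nat.card {z : G // IsConj w z} = Nat.card (commutator G) := by
    have h3 := card_conj_mul_card_centralizer w
    have h4 := Subgroup.card_mul_index (commutator G)
    rw [hcent] at h3
    have h5 : 0 < (commutator G).index := Nat.pos_of_ne_zero Subgroup.index_ne_zero_of_finite
    exact Nat.eq_of_mul_eq_mul_right h5 (h3.trans h4.symm)
  refine ⟨h1, h2, ?_⟩
  have hsub : ∀ z : G, IsConj w z → w⁻¹ * z ∈ commutator G := by
    intro z hz
    obtain ⟨c, rfl⟩ := isConj_iff.mp hz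
    have : w⁻¹ * (c * w * c⁻¹) = ⁅w⁻¹, c⁆ := by
      rw [commutatorElement_def]
      group
    rw [this]
    exact Subgroup.commutator_mem_commutator (Subgroup.mem_top _) (Subgroup.mem_top _)
  intro z
  refine ⟨hsub z, ?_⟩
  -- cardinalities
  let φ : {z : G // IsConj w z} → (commutator G) := fun z => ⟨w⁻¹ * z.1, hsub z.1 z.2⟩
  have hinj : Function.Injective φ := by
    intro a b hab
    have : w⁻¹ * a.1 = w⁻¹ * b.1 := congrArg Subtype.val hab
    exact Subtype.ext (mul_left_cancel this)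
  have hbij : Function.Bijective φ := (Nat.bijective_iff_injective_and_card φ).mpr ⟨hinj, hcard⟩
  intro hz
  obtain ⟨a, ha⟩ := hbij.2 ⟨w⁻¹ * z, hz⟩
  have : w⁻¹ * a.1 = w⁻¹ * z := congrArg Subtype.val ha
  have h6 : a.1 = z := mul_left_cancel this
  rw [← h6]
  exact a.2

end Cfsg.Agent.S4755
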