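import Mathlib
import Cfsg.Statements.S4762
import Cfsg.Agent.Lib.CharCentral
import Cfsg.Agent.Lib.CharProduct
import Cfsg.Agent.Lib.Frat
import Cfsg.Agent.Lib.PComplement

set_option autoImplicit false

open Cfsg

namespace Cfsg.Agent.S4762

open Cfsg.Agent.Lib.CharBasic Cfsg.Agent.Lib.CharInd Cfsg.Agent.Lib.CharKernel
  Cfsg.Agent.Lib.CharCentral Cfsg.Agent.Lib.CharProduct
open scoped ComplexConjugate commutatorElement

universe u

variable {G : Type u} [Group G] [Finite G]

/-- An element of a subgroup of order two: all nontrivial elements coincide. -/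
theorem eq_of_card_two {H : Subgroup G} (h2 : Nat.card H = 2) {a b : G} (ha : a ∈ H) (hb : b ∈ H)
    (ha1 : a ≠ 1) (hb1 : b ≠ 1) : a = b := by
  classical
  obtain ⟨x, y, hxy, huniv⟩ := Nat.card_eq_two_iff.mp h2
  have hall : ∀ z : H, z = x ∨ z = y := by
    intro z
    have : z ∈ ({x, y} : Set H) := by rw [huniv]; trivial
    simpa using this
  have h1 : (1 : H) = x ∨ (1 : H) = y := hall 1
  have hA := hall ⟨a, ha⟩
  have hB := hall ⟨b, hb⟩
  have ha1' : (⟨a, ha⟩ : H) ≠ 1 := fun h => ha1 (congrArg Subtype.val h)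
  have hb1' : (⟨b, hb⟩ : H) ≠ 1 := fun h => hb1 (congrArg Subtype.val h)
  have : (⟨a, ha⟩ : H) = ⟨b, hb⟩ := by
    rcases h1 with h1 | h1 <;> rcases hA with hA | hA <;> rcases hB with hB | hB <;>
      first
      | exact hA.trans hB.symm
      | exact absurd (hA.trans h1.symm) ha1'
      | exact absurd (hB.trans h1.symm) hb1'
  exact congrArg Subtype.val this

/-- A normal subgroup of order two is central. -/
theorem le_center_of_card_two {H : Subgroup G} [hH : H.Normal] (h2 : Nat.card H = 2) :
    H ≤ Subgroup.center G := by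
  intro a ha
  rw [Subgroup.mem_center_iff]
  intro g
  by_cases ha1 : a = 1
  · rw [ha1]; simp
  · have h3 : g * a * g⁻¹ ∈ H := hH.conj_mem a ha g
    have h4 : g * a * g⁻¹ ≠ 1 := by
      intro h
      apply ha1
      have : a = g⁻¹ * (g * a * g⁻¹) * g := by group
      rw [this, h]
      simp
    have h5 := eq_of_card_two h2 h3 ha h4 ha1
    exact mul_inv_eq_iff_eq_mul.mp h5

/-- The `p`-group case of the forward direction. -/
theorem forward_pGroup {p : ℕ} [hp : Fact p.Prime] (hG : IsPGroup p G)
    {χ : IrrCharacter G} (hχ : p ∣ charDegree (χ : G → ℂ))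
    (huniq : ∀ ψ : IrrCharacter G, p ∣ charDegree (ψ : G → ℂ) → ψ = χ) :
    p = 2 ∧ IsExtraspecial 2 G := by
  classical
  have hsum := pGroup_sum hG
  have hfilter : Finset.univ.filter (fun ψ : IrrCharacter G => p ∣ charDegree (ψ : G → ℂ)) = {χ} := by
    ext ψ
    simp only [Finset.mem_filter, Finset.mem_univ, true_and, Finset.mem_singleton]
    exact ⟨huniq ψ, fun h => h ▸ hχ⟩
  rw [hfilter, Finset.sum_singleton] at hsum
  set d := charDegree (χ : G → ℂ) with hd
  have hd0 : 0 < d := charDegree_pos χ.2
  set a := (commutator G).index with ha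
  set m := Nat.card (commutator G) with hm
  have hma : m * a = Nat.card G := Subgroup.card_mul_index _
  have hapos : 0 < a := Nat.pos_of_ne_zero (Subgroup.index_ne_zero_of_finite)
  -- `d` and `m` are powers of `p`
  obtain ⟨n, hn⟩ := IsPGroup.iff_card.mp hG
  have hddvd : d ∣ p ^ n := hn ▸ charDegree_dvd_card χ.2
  obtain ⟨e, -, he⟩ := (Nat.dvd_prime_pow hp.out).mp hddvd
  have hmdvd : m ∣ p ^ n := by
    rw [← hn, ← hma]
    exact dvd_mul_right _ _
  obtain ⟨k, -, hk⟩ := (Nat.dvd_prime_pow hp.out).mp hmdvd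
  have hmpos : 0 < m := Nat.card_pos
  -- the basic equation
  have heq : d ^ 2 = a * (m - 1) := by
    have h1 : m * a = d ^ 2 + a := by rw [hma, hsum]
    have h2 : a * (m - 1) + a = a * m := by
      conv_lhs => rw [← Nat.mul_succ]
      congr 1
      omega
    have h3 : a * m = m * a := mul_comm _ _
    omega
  have hm1 : m ≠ 1 := by
    intro h
    rw [h] at heq
    simp at heq
    omega
  have hk0 : k ≠ 0 := by
    rintro rfl
    apply hm1
    simpa using hk
  -- `m - 1` divides a power of `p` and is prime to `p`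
  have hdvd : m - 1 ∣ p ^ (2 * e) := by
    rw [pow_mul', ← he, heq]
    exact dvd_mul_left _ _
  obtain ⟨j, -, hj⟩ := (Nat.dvd_prime_pow hp.out).mp hdvd
  have hj0 : j = 0 := by
    by_contra hj0
    have h1 : p ∣ m - 1 := by rw [hj]; exact dvd_pow_self p hj0
    have h2 : p ∣ m := by rw [hk]; exact dvd_pow_self p hk0
    have h3 : p ∣ m - (m - 1) := Nat.dvd_sub h2 h1
    have h4 : m - (m - 1) = 1 := by omega
    rw [h4] at h3
    exact hp.out.one_lt.ne' (Nat.dvd_one.mp h3)
  rw [hj0, pow_zero] at hj
  have hm2 : m = 2 := by omega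
  have hp2 : p = 2 := by
    rw [hm2] at hk
    have h2 : p ∣ 2 := by rw [hk]; exact dvd_pow_self p hk0
    exact (Nat.prime_dvd_prime_iff_eq hp.out Nat.prime_two).mp h2
  subst hp2
  refine ⟨rfl, ?_⟩
  rw [hj, mul_one] at heq
  -- the centre
  have hcardG : Nat.card G = 2 * d ^ 2 := by
    rw [← hma, hm2, heq]
  have hle : commutator G ≤ Subgroup.center G := le_center_of_card_two hm2
  have hZ := card_center_mul_sq_le χ.2
  rw [hcardG, ← hd] at hZ
  have hd2 : 0 < d ^ 2 := by positivity
  have hZ2 : Nat.card (Subgroup.center G) ≤ 2 := Nat.le_of_mul_le_mul_right hZ hd2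
  have hZeq : commutator G = Subgroup.center G :=
    Subgroup.eq_of_le_of_card_ge hle (by rw [← hm, hm2]; exact hZ2)
  have hZcard : Nat.card (Subgroup.center G) = 2 := by rw [← hZeq]; exact hm2
  have hΦ : frattini G = Subgroup.center G := by
    apply le_antisymm
    · apply Cfsg.Agent.Lib.Frat.frattini_le_of_commutator_pow (p := 2) _ hle
      intro x
      rw [Subgroup.mem_center_iff]
      intro y
      -- `c = y x y⁻¹ x⁻¹` is central of order dividing two
      set c := y * x * y⁻¹ * x⁻¹ with hc
      have hcm : c ∈ commutator G := by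
        rw [commutator_def]
        exact Subgroup.commutator_mem_commutator (Subgroup.mem_top y) (Subgroup.mem_top x)
      have hc2 : c * c = 1 := by
        have := pow_card_eq_one' (G := commutator G) (x := ⟨c, hcm⟩)
        rw [← hm, hm2] at this
        have h5 := congrArg Subtype.val this
        simpa [sq] using h5
      have hcz := Subgroup.mem_center_iff.mp (hle hcm)
      have h6 : y * x = c * x * y := by
        rw [hc]
        group
      have h7 : y * x ^ 2 = x ^ 2 * y := by
        calc y * x ^ 2 = y * x * x := by rw [sq, mul_assoc]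
          _ = c * x * y * x := by rw [h6]
          _ = c * x * (y * x) := by group
          _ = c * x * (c * x * y) := by rw [h6]
          _ = c * (x * c) * x * y := by group
          _ = c * (c * x) * x * y := by rw [hcz x]
          _ = (c * c) * x * x * y := by group
          _ = x ^ 2 * y := by rw [hc2, one_mul, sq]
      exact h7
    · rw [← hZeq]
      exact Cfsg.Agent.Lib.Frat.commutator_le_frattini hG
  exact ⟨⟨hG, hΦ, hZeq⟩, hZcard⟩

/-- A non-linear irreducible character of an extraspecial `2`-group has degree squared `|G|/2`. -/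
theorem nonlinear_degree (hE : IsExtraspecial 2 G) {ψ : G → ℂ} (hψ : IsIrrCharacter G ψ)
    (h1 : charDegree ψ ≠ 1) : 2 * charDegree ψ ^ 2 = Nat.card G := by
  classical
  letI := Fintype.ofFinite G
  obtain ⟨⟨hG, -, hZeq⟩, hZ⟩ := hE
  have hcomm2 : Nat.card (commutator G) = 2 := by rw [hZeq]; exact hZ
  -- the nontrivial central element
  have hex : ∃ z ∈ commutator G, z ≠ 1 := by
    by_contra hno
    push Not at hno
    have : commutator G = ⊥ := by
      rw [eq_bot_iff]
      intro x hx
      exact Subgroup.mem_bot.mpr (hno x hx)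
    rw [this, Subgroup.card_bot] at hcomm2
    omega
  obtain ⟨z, hz, hz1⟩ := hex
  have hzall : ∀ c ∈ commutator G, c = 1 ∨ c = z := by
    intro c hc
    by_cases h : c = 1
    · exact Or.inl h
    · exact Or.inr (eq_of_card_two hcomm2 hc hz h hz1)
  have hzcentral : ∀ g, z * g = g * z := by
    intro g
    have : z ∈ Subgroup.center G := by rw [← hZeq]; exact hz
    exact (Subgroup.mem_center_iff.mp this g).symm
  have hz2 : z * z = 1 := by
    have := pow_card_eq_one' (G := commutator G) (x := ⟨z, hz⟩)
    rw [hcomm2] at this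
    have h5 := congrArg Subtype.val this
    simpa [sq] using h5
  have hψc := IsIrrCharacter.isCharacter hψ
  have hdeg := one_eq_charDegree hψc
  have hψ1 : ψ 1 ≠ 0 := Cfsg.Agent.Lib.CharAvg.irr_one_ne_zero hψ
  -- `z` is not in the kernel
  have hzker : ψ z ≠ ψ 1 := by
    intro h
    apply h1
    have hker : ∀ x ∈ commutator G, ψ x = ψ 1 := by
      intro x hx
      rcases hzall x hx with rfl | rfl
      · rfl
      · exact h
    obtain ⟨ψ', hψ', hlift⟩ := exists_quotient_irr (commutator G) hψ hker
    have hcomm : ∀ a b : G ⧸ commutator G, a * b = b * a := by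
      intro a b
      obtain ⟨x, rfl⟩ := QuotientGroup.mk_surjective a
      obtain ⟨y, rfl⟩ := QuotientGroup.mk_surjective b
      rw [← QuotientGroup.mk_mul, ← QuotientGroup.mk_mul, QuotientGroup.eq]
      have h2 : (x * y)⁻¹ * (y * x) = ⁅y⁻¹, x⁻¹⁆ := by
        rw [commutatorElement_def]
        group
      rw [h2, commutator_def]
      exact Subgroup.commutator_mem_commutator (Subgroup.mem_top _) (Subgroup.mem_top _)
    have h3 := Cfsg.Agent.Lib.CharCodegP.irr_one_of_comm hcomm hψ'
    have h4 := hlift 1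
    rw [QuotientGroup.mk_one, h3] at h4
    rw [hdeg] at h4
    exact_mod_cast h4.symm
  have hzval : ψ z = - ψ 1 := by
    have h2 := central_mul hψ hzcentral z
    rw [hz2] at h2
    have h3 : (ψ z - ψ 1) * (ψ z + ψ 1) = 0 := by linear_combination -h2
    rcases mul_eq_zero.mp h3 with h4 | h4
    · exact absurd (sub_eq_zero.mp h4) hzker
    · linear_combination h4
  have hzmul : ∀ y, ψ (z * y) = - ψ y := by
    intro y
    have h2 := central_mul hψ hzcentral y
    rw [hzval] at h2
    apply mul_left_cancel₀ hψ1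
    linear_combination h2
  have hvanish : ∀ g, g ∉ Subgroup.center G → ψ g = 0 := by
    intro g hg
    rw [Subgroup.mem_center_iff] at hg
    push Not at hg
    obtain ⟨x, hx⟩ := hg
    have hc : x * g * x⁻¹ * g⁻¹ ∈ commutator G := by
      rw [commutator_def]
      exact Subgroup.commutator_mem_commutator (Subgroup.mem_top x) (Subgroup.mem_top g)
    have hc1 : x * g * x⁻¹ * g⁻¹ ≠ 1 := by
      intro h
      apply hx
      rw [mul_inv_eq_one, mul_inv_eq_iff_eq_mul] at h
      exact h
    have hcz : x * g * x⁻¹ * g⁻¹ = z := (hzall _ hc).resolve_left hc1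
    have h2 : x * g * x⁻¹ = z * g := by
      rw [← hcz]
      group
    have h3 : ψ g = ψ (x * g * x⁻¹) := (isClassFunction_of_isCharacter hψc g x).symm
    rw [h2, hzmul] at h3
    linear_combination (1 / 2 : ℂ) * h3
  have hnorm := classInner_irr_self hψ
  unfold classInner at hnorm
  have hG : (Nat.card G : ℂ) ≠ 0 := natCard_ne_zero'
  have hsum : ∑ g : G, ψ g * conj (ψ g) = (Nat.card G : ℂ) := by
    field_simp at hnorm
    exact hnorm
  have hsub : ∑ g ∈ ({1, z} : Finset G), ψ g * conj (ψ g) = ∑ g : G, ψ g * conj (ψ g) := by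
    apply Finset.sum_subset (Finset.subset_univ _)
    intro g _ hg
    have hgZ : g ∉ Subgroup.center G := by
      intro h
      rw [← hZeq] at h
      rcases hzall g h with rfl | rfl <;> simp at hg
    rw [hvanish g hgZ]
    simp
  rw [hsum, Finset.sum_pair (Ne.symm hz1), hzval, hdeg] at hsub
  have h5 : ((2 * charDegree ψ ^ 2 : ℕ) : ℂ) = (Nat.card G : ℂ) := by
    rw [← hsub]
    simp only [map_neg, map_natCast]
    push_cast
    ring
  exact_mod_cast h5

/-- The reverse direction. -/
theorem backward (hE : IsExtraspecial 2 G) :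
    Nat.card {χ : IrrCharacter G // 2 ∣ charDegree (χ : G → ℂ)} = 1 := by
  classical
  haveI : Fact (Nat.Prime 2) := ⟨Nat.prime_two⟩
  have hG := hE.1.1
  have hsum := pGroup_sum hG
  have hidx : 2 * (commutator G).index = Nat.card G := by
    have h1 := Subgroup.card_mul_index (commutator G)
    have h2 : Nat.card (commutator G) = 2 := by
      rw [hE.1.2.2]
      exact hE.2
    rw [h2] at h1
    exact h1
  have hval : ∀ χ ∈ Finset.univ.filter (fun χ : IrrCharacter G => 2 ∣ charDegree (χ : G → ℂ)),
      charDegree (χ : G → ℂ) ^ 2 = (commutator G).index := by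
    intro χ hχ
    have h2 : 2 ∣ charDegree (χ : G → ℂ) := by simpa using hχ
    have h3 : charDegree (χ : G → ℂ) ≠ 1 := by
      intro h
      rw [h] at h2
      omega
    have h4 := nonlinear_degree hE χ.2 h3
    omega
  rw [Finset.sum_congr rfl hval, Finset.sum_const, smul_eq_mul] at hsum
  have hpos : 0 < (commutator G).index := Nat.pos_of_ne_zero Subgroup.index_ne_zero_of_finite
  have h5 : (Finset.univ.filter (fun χ : IrrCharacter G => 2 ∣ charDegree (χ : G → ℂ))).card = 1 := by
    have h6 : ((Finset.univ.filter (fun χ : IrrCharacter G => 2 ∣ charDegree (χ : G → ℂ))).card + 1) *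
        (commutator G).index = 2 * (commutator G).index := by
      rw [add_mul, one_mul, hsum, hidx]
    have h7 := Nat.eq_of_mul_eq_mul_right hpos h6
    omega
  rw [Nat.card_eq_fintype_card, Fintype.card_subtype]
  exact h5

/-- The reduction of the forward direction to `p`-groups. -/
theorem isPGroup_of_unique [Group.IsNilpotent G] {p : ℕ} [hp : Fact p.Prime]
    {χ : IrrCharacter G} (hχ : p ∣ charDegree (χ : G → ℂ))
    (huniq : ∀ ψ : IrrCharacter G, p ∣ charDegree (ψ : G → ℂ) → ψ = χ) : IsPGroup p G := by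
  classical
  obtain ⟨S⟩ : Nonempty (Sylow p G) := inferInstance
  have hSn : (S : Subgroup G).Normal := by
    have hN := (Group.isNilpotent_of_finite_tfae (G := G)).out 0 3 rfl rfl
    exact hN.1 inferInstance p hp S
  have hcop : (Nat.card (S : Subgroup G)).Coprime (S : Subgroup G).index := S.card_coprime_index
  obtain ⟨Q, hQ⟩ := Subgroup.exists_right_complement'_of_coprime hcop
  have hQcard : Nat.card Q = (S : Subgroup G).index := by
    have h1 := hQ.card_mul_card
    have h2 := Subgroup.card_mul_index (S : Subgroup G)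
    exact Nat.eq_of_mul_eq_mul_left Nat.card_pos (h1.trans h2.symm)
  have hQp : (Nat.card Q).Coprime p := by
    rw [hQcard]
    exact ((Nat.Prime.coprime_iff_not_dvd hp.out).mpr S.not_dvd_index).symm
  have hc : ∀ x ∈ (S : Subgroup G), ∀ y ∈ Q, x * y = y * x := by
    intro x hx y hy
    apply Cfsg.Agent.Lib.PComplement.commute_of_isNilpotent (p := p)
    · obtain ⟨k, hk⟩ := S.isPGroup' ⟨x, hx⟩
      refine ⟨k, ?_⟩
      have := congrArg Subtype.val hk
      simpa using this
    · have h1 : orderOf y ∣ Nat.card Q := by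
        have := Subgroup.orderOf_dvd_natCard Q hy
        exact this
      exact Nat.Coprime.coprime_dvd_left h1 hQp
  obtain ⟨θ, μ, hθ, hμ, hχ2⟩ := exists_factor hc hQ χ.2
  have hone : (χ : G → ℂ) 1 = θ 1 * μ 1 := by
    have := hχ2 1 1
    simpa using this
  have hdegs : charDegree (χ : G → ℂ) = charDegree θ * charDegree μ := by
    have h1 := one_eq_charDegree (IsIrrCharacter.isCharacter χ.2)
    have h2 := one_eq_charDegree (IsIrrCharacter.isCharacter hθ)
    have h3 := one_eq_charDegree (IsIrrCharacter.isCharacter hμ)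
    rw [h1, h2, h3] at hone
    exact_mod_cast hone
  have hμdvd : charDegree μ ∣ Nat.card Q := charDegree_dvd_card hμ
  have hpμ : ¬ p ∣ charDegree μ := by
    intro h
    have h2 : p ∣ Nat.card Q := h.trans hμdvd
    have h3 := Nat.Coprime.eq_one_of_dvd hQp.symm h2
    exact hp.out.one_lt.ne' h3
  have hpθ : p ∣ charDegree θ := by
    rw [hdegs] at hχ
    exact (hp.out.dvd_mul.mp hχ).resolve_right hpμ
  have hallμ : ∀ μ' : IrrCharacter Q, (μ' : ↥Q → ℂ) = μ := by
    intro μ'
    obtain ⟨χ', hχ', hχ'2⟩ := exists_of_factors hc hQ hθ μ'.2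
    have hone' : χ' 1 = θ 1 * (μ' : ↥Q → ℂ) 1 := by
      have := hχ'2 1 1
      simpa using this
    have hdegs' : charDegree χ' = charDegree θ * charDegree (μ' : ↥Q → ℂ) := by
      have h1 := one_eq_charDegree (IsIrrCharacter.isCharacter hχ')
      have h2 := one_eq_charDegree (IsIrrCharacter.isCharacter hθ)
      have h3 := one_eq_charDegree (IsIrrCharacter.isCharacter μ'.2)
      rw [h1, h2, h3] at hone'
      exact_mod_cast hone'
    have h4 : (⟨χ', hχ'⟩ : IrrCharacter G) = χ := huniq _ (by
      show p ∣ charDegree χ'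
      rw [hdegs']
      exact hpθ.mul_right _)
    have h5 : χ' = (χ : G → ℂ) := congrArg Subtype.val h4
    funext y
    have h6 := hχ'2 1 y
    have h7 := hχ2 1 y
    rw [h5, h7] at h6
    exact (mul_left_cancel₀ (Cfsg.Agent.Lib.CharAvg.irr_one_ne_zero hθ) h6).symm
  have hQ1 : Nat.card Q = 1 := by
    have h := sum_charDegree_sq (G := Q)
    have hsub : Subsingleton (IrrCharacter Q) :=
      ⟨fun a b => Subtype.ext ((hallμ a).trans (hallμ b).symm)⟩
    let one : IrrCharacter Q := ⟨fun _ => 1, isIrrCharacter_one⟩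
    rw [Fintype.sum_subsingleton _ one] at h
    have h8 : charDegree ((one : IrrCharacter Q) : ↥Q → ℂ) = 1 := by
      simp [charDegree, one]
    rw [h8] at h
    simpa using h.symm
  have hStop : (S : Subgroup G) = ⊤ := by
    have h1 := Subgroup.card_mul_index (S : Subgroup G)
    rw [← hQcard, hQ1, mul_one] at h1
    exact Subgroup.eq_top_of_card_eq _ h1
  intro g
  have hg : g ∈ (S : Subgroup G) := by rw [hStop]; trivial
  obtain ⟨k, hk⟩ := S.isPGroup' ⟨g, hg⟩
  refine ⟨k, ?_⟩
  have := congrArg Subtype.val hk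
  simpa using this

/-- The statement. -/
theorem result {G : Type*} [Group G] [Finite G] [Group.IsNilpotent G] (p : ℕ) [Fact p.Prime] : Nat.card {χ : Cfsg.IrrCharacter G // p ∣ Cfsg.charDegree (χ : G → ℂ)} = 1 ↔ (p = 2 ∧ Cfsg.IsExtraspecial 2 G) := by
  constructor
  · intro h
    obtain ⟨hsub, ⟨⟨χ, hχ⟩⟩⟩ := Nat.card_eq_one_iff_unique.mp h
    have huniq : ∀ ψ : IrrCharacter G, p ∣ charDegree (ψ : G → ℂ) → ψ = χ := by
      intro ψ hψ
      have := hsub.elim ⟨ψ, hψ⟩ ⟨χ, hχ⟩
      exact congrArg Subtype.val this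
    exact forward_pGroup (isPGroup_of_unique hχ huniq) hχ huniq
  · rintro ⟨rfl, hE⟩
    exact backward hE

end Cfsg.Agent.S4762
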