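import Mathlib
import Cfsg.Statements.S4765
import Cfsg.Agent.Lib.PSL2Deg

set_option autoImplicit false
open Cfsg

namespace Cfsg.Agent.S4765

open Cfsg.Agent.Lib.PSL2Deg Cfsg.Agent.Lib.SL2Char Cfsg.Agent.Lib.SL2Odd Cfsg.Agent.Lib.SL2Count

/-- Let F be a finite field of characteristic p with at least 4 elements. Then PSL(2,F) has exactly one irreducible complex character of degree divisible by p, and its degree is the order of F. -/
theorem result (p : ℕ) [Fact p.Prime] (F : Type*) [Field F] [Fintype F] [CharP F p] (hF : 4 ≤ Fintype.card F) : Nat.card {χ : Cfsg.IrrCharacter (Matrix.ProjectiveSpecialLinearGroup (Fin 2) F) // p ∣ Cfsg.charDegree (χ : Matrix.ProjectiveSpecialLinearGroup (Fin 2) F → ℂ)} = 1 ∧ ∀ χ : Cfsg.IrrCharacter (Matrix.ProjectiveSpecialLinearGroup (Fin 2) F), p ∣ Cfsg.charDegree (χ : Matrix.ProjectiveSpecialLinearGroup (Fin 2) F → ℂ) → Cfsg.charDegree (χ : Matrix.ProjectiveSpecialLinearGroup (Fin 2) F → ℂ) = Fintype.card F := by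
  classical
  have hp : p.Prime := Fact.out
  obtain ⟨n, hn1, hn⟩ := FiniteField.card F p
  have hpq : p ∣ Fintype.card F := by
    rw [hn]
    exact dvd_pow_self p n.pos.ne'
  -- degrees divisible by `p`
  have hq1 : ∀ φ : IrrCharacter (Matrix.SpecialLinearGroup (Fin 2) F), p ∣ degS φ →
      degS φ = Fintype.card F := by
    intro φ h
    have hnd1 : ¬ p ∣ Fintype.card F + 1 := by
      intro h2
      have := (Nat.dvd_add_right hpq).mp h2
      exact hp.one_lt.ne' (Nat.dvd_one.mp this)
    have hnd2 : ¬ p ∣ Fintype.card F - 1 := by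
      intro h2
      have h3 : p ∣ (Fintype.card F - 1) + 1 := by
        rw [Nat.sub_add_cancel (by omega)]
        exact hpq
      have := (Nat.dvd_add_right h2).mp h3
      exact hp.one_lt.ne' (Nat.dvd_one.mp this)
    rcases deg_table φ with h1 | h1 | h1 | h1 | h1 | h1 <;> have h2 := h1.2
    · rw [h2] at h
      exact absurd (Nat.dvd_one.mp h) hp.one_lt.ne'
    · exact h2
    · rw [h2] at h
      exact absurd h hnd1
    · exfalso
      exact hnd1 (by rw [← h2]; exact h.trans (dvd_mul_left _ _))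
    · exfalso
      apply hnd2
      have : Fintype.card F - 1 = degS φ := by omega
      rw [this]
      exact h
    · exfalso
      apply hnd2
      have : Fintype.card F - 1 = 2 * degS φ := by omega
      rw [this]
      exact h.trans (dvd_mul_left _ _)
  have hall : ∀ χ : Cfsg.IrrCharacter (Matrix.ProjectiveSpecialLinearGroup (Fin 2) F),
      p ∣ Cfsg.charDegree (χ : Matrix.ProjectiveSpecialLinearGroup (Fin 2) F → ℂ) →
      Cfsg.charDegree (χ : Matrix.ProjectiveSpecialLinearGroup (Fin 2) F → ℂ) = Fintype.card F := by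
    intro χ h
    rw [charDegree_inflate] at h ⊢
    exact hq1 _ h
  refine ⟨?_, hall⟩
  rw [Nat.card_eq_one_iff_unique]
  constructor
  · constructor
    rintro ⟨χ, h1⟩ ⟨ψ, h2⟩
    apply Subtype.ext
    apply inflate_injective
    have e1 := hall χ h1
    have e2 := hall ψ h2
    rw [charDegree_inflate] at e1 e2
    have e3 := eq_stS_of_deg (inflate χ).2 ((degS_eq_iff _ _).mp e1)
    have e4 := eq_stS_of_deg (inflate ψ).2 ((degS_eq_iff _ _).mp e2)
    exact Subtype.ext (e3.trans e4.symm)
  · obtain ⟨χ, hχ⟩ := q_mem_charDegrees (F := F)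
    exact ⟨⟨χ, by rw [hχ]; exact hpq⟩⟩

end Cfsg.Agent.S4765
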