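import Mathlib
import Cfsg.Statements.S4774
import Cfsg.Agent.Lib.PSL2Deg

set_option autoImplicit false
open Cfsg

namespace Cfsg.Agent.S4774

open Cfsg.Agent.Lib.PSL2Deg

/-- Let F be a finite field of odd characteristic t with q > 5 elements and let S be isomorphic to PSL(2,F) or to SL(2,F). Then the vertices of the character degree graph of S are the primes dividing q(q²−1); the prime t is adjacent to no vertex; two distinct primes dividing q² − 1 are adjacent exactly when one of them is 2, or both divide q + 1, or both divide q − 1. -/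
theorem result (F : Type*) [Field F] [Fintype F] (t : ℕ) [Fact t.Prime] [CharP F t] (ht : t ≠ 2) (q : ℕ) (hq : Fintype.card F = q) (h5 : 5 < q) {S : Type*} [Group S] [Finite S] (hS : Nonempty (S ≃* Matrix.ProjectiveSpecialLinearGroup (Fin 2) F) ∨ Nonempty (S ≃* Matrix.SpecialLinearGroup (Fin 2) F)) : Cfsg.degreePrimes S = {r : ℕ | r.Prime ∧ r ∣ q * (q ^ 2 - 1)} ∧ ∀ r s : ℕ, (Cfsg.degreeGraph S).Adj r s ↔ (r ≠ s ∧ r.Prime ∧ s.Prime ∧ r ∣ q ^ 2 - 1 ∧ s ∣ q ^ 2 - 1 ∧ (r = 2 ∨ s = 2 ∨ (r ∣ q + 1 ∧ s ∣ q + 1) ∨ (r ∣ q - 1 ∧ s ∣ q - 1))) := by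
  classical
  subst hq
  have htp : t.Prime := Fact.out
  obtain ⟨n, hn1, hn⟩ := FiniteField.card F t
  have hodd : Odd (Fintype.card F) := by
    rw [hn]
    exact (htp.odd_of_ne_two ht).pow
  have h7 : 7 ≤ Fintype.card F := by
    obtain ⟨m, hm⟩ := hodd
    omega
  have hP1 : Fintype.card F ∈ charDegrees (Matrix.ProjectiveSpecialLinearGroup (Fin 2) F) :=
    q_mem_charDegrees
  have hP2 := q_add_one_mem (F := F) hodd h7
  have hP3 := q_sub_one_mem (F := F) hodd h7
  have hsub := charDegrees_psl_subset (F := F)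
  have hT : (∀ d ∈ charDegrees S, d = 1 ∨ d = Fintype.card F ∨ d = Fintype.card F + 1 ∨
      d = Fintype.card F - 1 ∨ d = (Fintype.card F + 1) / 2 ∨ d = (Fintype.card F - 1) / 2) ∧
      Fintype.card F ∈ charDegrees S ∧
      Fintype.card F + 1 ∈ charDegrees S ∧ Fintype.card F - 1 ∈ charDegrees S := by
    rcases hS with ⟨⟨e⟩⟩ | ⟨⟨e⟩⟩
    · rw [charDegrees_congr e]
      exact ⟨fun d hd => charDegrees_sl_odd (hsub hd), hP1, hP2, hP3⟩
    · rw [charDegrees_congr e]
      exact ⟨fun d hd => charDegrees_sl_odd hd, hsub hP1, hsub hP2, hsub hP3⟩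
  obtain ⟨hD, h1, h2, h3⟩ := hT
  have e : Fintype.card F ^ 2 - 1 = (Fintype.card F + 1) * (Fintype.card F - 1) := by
    rw [← Nat.sq_sub_sq (Fintype.card F) 1]
  refine ⟨degreePrimes_eq_of ?_ h1 h2 h3, adj_odd htp hn hodd hD h2 h3⟩
  intro d hd
  rw [e]
  have hplus : (Fintype.card F + 1) / 2 ∣ Fintype.card F + 1 := Nat.div_dvd_of_dvd (by
    obtain ⟨m, hm⟩ := hodd
    exact ⟨m + 1, by omega⟩)
  have hminus : (Fintype.card F - 1) / 2 ∣ Fintype.card F - 1 := Nat.div_dvd_of_dvd (by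
    obtain ⟨m, hm⟩ := hodd
    exact ⟨m, by omega⟩)
  rcases hD d hd with rfl | rfl | rfl | rfl | rfl | rfl
  · exact one_dvd _
  · exact dvd_mul_right _ _
  · exact (dvd_mul_right _ _).trans (dvd_mul_left _ _)
  · exact (dvd_mul_left _ _).trans (dvd_mul_left _ _)
  · exact hplus.trans ((dvd_mul_right _ _).trans (dvd_mul_left _ _))
  · exact hminus.trans ((dvd_mul_left _ _).trans (dvd_mul_left _ _))

end Cfsg.Agent.S4774
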