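import Mathlib
import Cfsg.Statements.S4775
import Cfsg.Agent.Lib.SzCharD
import Cfsg.Agent.Lib.SuzukiIso
import Cfsg.Agent.Lib.PSL2Deg

set_option autoImplicit false
open Cfsg

namespace Cfsg.Agent.S4775

/-- Let F be a finite field with q = 2^(2m+1) ≥ 8 elements and let S be isomorphic to the Suzuki group over F. Then the vertices of the character degree graph of S are 2 and the primes dividing (q − 1)(q² + 1); the primes dividing (q − 1)(q² + 1) are pairwise adjacent, and 2 is adjacent exactly to the primes dividing q − 1. -/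
theorem result (F : Type*) [Field F] [Fintype F] (m : ℕ) (hm : 1 ≤ m) (q : ℕ) (hq : Fintype.card F = q) (hqm : q = 2 ^ (2 * m + 1)) {S : Type*} [Group S] [Finite S] (hS : Nonempty (S ≃* ↥(Cfsg.Lie.Sz F (2 ^ (m + 1))))) : Cfsg.degreePrimes S = {r : ℕ | r.Prime ∧ (r = 2 ∨ r ∣ (q - 1) * (q ^ 2 + 1))} ∧ ∀ r s : ℕ, (Cfsg.degreeGraph S).Adj r s ↔ (r ≠ s ∧ r.Prime ∧ s.Prime ∧ ((r ∣ (q - 1) * (q ^ 2 + 1) ∧ s ∣ (q - 1) * (q ^ 2 + 1)) ∨ (r = 2 ∧ s ∣ q - 1) ∨ (s = 2 ∧ r ∣ q - 1))) := by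
  classical
  obtain ⟨e⟩ := hS
  haveI : Cfsg.Agent.Lib.Suzuki.SzHyp F m := ⟨hm, by rw [hq, hqm]⟩
  haveI : CharP F 2 := Cfsg.Agent.Lib.Suzuki.charP_two F m
  let e' : S ≃* Cfsg.Sz F m := e.trans (Cfsg.Agent.Lib.SuzukiIso.szEquiv (F := F) (m := m)).symm
  have hT := Cfsg.Agent.Lib.SzChar.charDegrees_Sz (F := F) (m := m)
  rw [hq] at hT
  obtain ⟨hall, h1, h2, h3, h4⟩ := hT
  rw [Cfsg.Agent.Lib.PSL2Deg.degreePrimes_congr e']
  have hadj : ∀ r s : ℕ, (Cfsg.degreeGraph S).Adj r s ↔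
      (Cfsg.degreeGraph (Cfsg.Sz F m)).Adj r s :=
    Cfsg.Agent.Lib.PSL2Deg.degreeGraph_adj_congr e'
  simp only [hadj]
  obtain ⟨q', s', hq', hs', h8, h4s, h2s, hss, -, -⟩ := Cfsg.Agent.Lib.SzTorus.ar_base hm
  have hqq : q' = q := by rw [hq', hqm]
  subst hqq
  have hmul := Cfsg.Agent.Lib.SzTorus.ar_mul h2s hss
  have ht2 : q' + 1 - 2 ^ (m + 1) = q' - s' + 1 := by
    rw [← hs']
    omega
  have ht1 : q' + 2 ^ (m + 1) + 1 = q' + s' + 1 := by rw [hs']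
  rw [ht2] at h2 hall
  rw [ht1] at h3 hall
  set t₁ := q' + s' + 1 with ht₁
  set t₂ := q' - s' + 1 with ht₂
  have hd1 : t₁ ∣ q' ^ 2 + 1 := ⟨t₂, hmul.symm⟩
  have hd2 : t₂ ∣ q' ^ 2 + 1 := ⟨t₁, by rw [← hmul, mul_comm]⟩
  have h2q : ∀ r : ℕ, r.Prime → r ∣ q' → r = 2 := by
    intro r hr h
    rw [hq'] at h
    exact (Nat.prime_dvd_prime_iff_eq hr Nat.prime_two).1 (hr.dvd_of_dvd_pow h)
  have h2m : ∀ r : ℕ, r.Prime → r ∣ 2 ^ m → r = 2 := by
    intro r hr h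
    exact (Nat.prime_dvd_prime_iff_eq hr Nat.prime_two).1 (hr.dvd_of_dvd_pow h)
  have h22m : 2 ∣ 2 ^ m := dvd_pow_self 2 (by omega)
  have hP1 : ∀ r : ℕ, r ∣ q' - 1 → r ∣ (q' - 1) * (q' ^ 2 + 1) := fun r h => h.trans (dvd_mul_right _ _)
  have hP2 : ∀ r : ℕ, r ∣ q' ^ 2 + 1 → r ∣ (q' - 1) * (q' ^ 2 + 1) := fun r h => h.trans (dvd_mul_left _ _)
  refine ⟨?_, ?_⟩
  · ext r
    simp only [Cfsg.degreePrimes, Set.mem_setOf_eq]
    constructor
    · rintro ⟨hr, d, hd, hrd⟩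
      refine ⟨hr, ?_⟩
      rcases hall d hd with rfl | rfl | rfl | rfl | rfl | rfl
      · exact absurd (Nat.dvd_one.1 hrd) hr.ne_one
      · exact Or.inl (h2q r hr (hr.dvd_of_dvd_pow hrd))
      · exact Or.inr (hP2 r hrd)
      · rcases hr.dvd_mul.1 hrd with h | h
        · exact Or.inr (hP1 r h)
        · exact Or.inr (hP2 r (h.trans hd2))
      · rcases hr.dvd_mul.1 hrd with h | h
        · exact Or.inr (hP1 r h)
        · exact Or.inr (hP2 r (h.trans hd1))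
      · rcases hr.dvd_mul.1 hrd with h | h
        · exact Or.inr (hP1 r h)
        · exact Or.inl (h2m r hr h)
    · rintro ⟨hr, rfl | h⟩
      · exact ⟨hr, _, h4, h22m.trans (dvd_mul_left _ _)⟩
      · rcases hr.dvd_mul.1 h with h | h
        · exact ⟨hr, _, h4, h.trans (dvd_mul_right _ _)⟩
        · exact ⟨hr, _, h1, h⟩
  · intro r s
    show (r ≠ s ∧ r.Prime ∧ s.Prime ∧ ∃ d ∈ Cfsg.charDegrees (Cfsg.Sz F m), r * s ∣ d) ↔ _
    constructor
    · rintro ⟨hne, hr, hs, d, hd, hrs⟩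
      refine ⟨hne, hr, hs, ?_⟩
      have hrd : r ∣ d := (dvd_mul_right r s).trans hrs
      have hsd : s ∣ d := (dvd_mul_left s r).trans hrs
      rcases hall d hd with rfl | rfl | rfl | rfl | rfl | rfl
      · exact absurd (Nat.dvd_one.1 hrd) hr.ne_one
      · exact absurd ((h2q r hr (hr.dvd_of_dvd_pow hrd)).trans (h2q s hs (hs.dvd_of_dvd_pow hsd)).symm) hne
      · exact Or.inl ⟨hP2 r hrd, hP2 s hsd⟩
      · have h5 : (q' - 1) * t₂ ∣ (q' - 1) * (q' ^ 2 + 1) := mul_dvd_mul_left _ hd2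
        exact Or.inl ⟨hrd.trans h5, hsd.trans h5⟩
      · have h5 : (q' - 1) * t₁ ∣ (q' - 1) * (q' ^ 2 + 1) := mul_dvd_mul_left _ hd1
        exact Or.inl ⟨hrd.trans h5, hsd.trans h5⟩
      · rcases hr.dvd_mul.1 hrd with h5 | h5 <;> rcases hs.dvd_mul.1 hsd with h6 | h6
        · exact Or.inl ⟨hP1 r h5, hP1 s h6⟩
        · exact Or.inr (Or.inr ⟨h2m s hs h6, h5⟩)
        · exact Or.inr (Or.inl ⟨h2m r hr h5, h6⟩)
        · exact absurd ((h2m r hr h5).trans (h2m s hs h6).symm) hne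
    · rintro ⟨hne, hr, hs, h⟩
      refine ⟨hne, hr, hs, ?_⟩
      have hcop : Nat.Coprime r s := (Nat.coprime_primes hr hs).2 hne
      rcases h with ⟨h5, h6⟩ | ⟨rfl, h6⟩ | ⟨rfl, h6⟩
      · rcases hr.dvd_mul.1 h5 with h7 | h7 <;> rcases hs.dvd_mul.1 h6 with h8 | h8
        · exact ⟨_, h4, (hcop.mul_dvd_of_dvd_of_dvd h7 h8).trans (dvd_mul_right _ _)⟩
        · rw [← hmul] at h8
          rcases hs.dvd_mul.1 h8 with h9 | h9
          · exact ⟨_, h3, mul_dvd_mul h7 h9⟩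
          · exact ⟨_, h2, mul_dvd_mul h7 h9⟩
        · rw [← hmul] at h7
          rcases hr.dvd_mul.1 h7 with h9 | h9
          · refine ⟨_, h3, ?_⟩
            rw [mul_comm r s]
            exact mul_dvd_mul h8 h9
          · refine ⟨_, h2, ?_⟩
            rw [mul_comm r s]
            exact mul_dvd_mul h8 h9
        · exact ⟨_, h1, hcop.mul_dvd_of_dvd_of_dvd h7 h8⟩
      · refine ⟨_, h4, ?_⟩
        rw [mul_comm 2 s]
        exact mul_dvd_mul h6 h22m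
      · exact ⟨_, h4, mul_dvd_mul h6 h22m⟩

end Cfsg.Agent.S4775
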