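import Cfsg.Statements.S4782
import Mathlib
import Cfsg.Agent.Lib.ThreeDeg31Base
import Cfsg.Agent.Lib.BurnsidePQ
import Cfsg.Agent.Lib.GlaubAbove

set_option autoImplicit false
set_option linter.style.haveILetI false
set_option linter.unusedVariables false
set_option linter.unusedSectionVars false
open Cfsg

namespace Cfsg.Agent.S4782

open Cfsg.Agent.Lib.CharBasic Cfsg.Agent.Lib.CharKernel Cfsg.Agent.Lib.CliffDvd
open Cfsg.Agent.Lib.TwoDeg Cfsg.Agent.Lib.ThreeDeg31 Cfsg.Agent.Lib.BurnsidePQ
open Module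

universe u

/-- All irreducible degrees of `G` are `{p, q}`-numbers. -/
def PQ (G : Type u) [Group G] (p q : ℕ) : Prop :=
  ∀ χ : IrrCharacter G, ∀ r : ℕ, r.Prime → r ∣ charDegree (χ : G → ℂ) → r = p ∨ r = q

/-- A nonabelian simple group has a degree involving a third prime. -/
theorem comm_of_simple {T : Type u} [Group T] [Finite T] [IsSimpleGroup T] {p q : ℕ}
    (hp : p.Prime) (hq : q.Prime) (h : PQ T p q) : ∀ a b : T, a * b = b * a := by
  classical
  haveI : Fintype T := Fintype.ofFinite T
  by_contra hcomm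
  -- a prime dividing the order
  have hex : ∃ χ : IrrCharacter T, (χ : T → ℂ) 1 ≠ 1 := by
    by_contra hno
    push Not at hno
    exact hcomm (Cfsg.Agent.Lib.CliffDvd.comm_of_all_linear hno)
  obtain ⟨χ₀, hχ₀⟩ := hex
  have hd₀ : charDegree (χ₀ : T → ℂ) ≠ 1 := by
    intro h1
    apply hχ₀
    rw [one_eq_charDegree (IsIrrCharacter.isCharacter χ₀.2), h1]
    simp
  obtain ⟨r, hr, hrd⟩ := Nat.exists_prime_and_dvd hd₀
  have hrT : r ∣ Nat.card T := hrd.trans (charDegree_dvd_card χ₀.2)
  -- the other prime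
  obtain ⟨s, hs, hrs⟩ : ∃ s : ℕ, s.Prime ∧ ∀ t : ℕ, t.Prime → (t = p ∨ t = q) → t = r ∨ t = s := by
    rcases h χ₀ r hr hrd with rfl | rfl
    · exact ⟨q, hq, fun t _ ht => ht⟩
    · exact ⟨p, hp, fun t _ ht => ht.symm⟩
  haveI : Fact r.Prime := ⟨hr⟩
  obtain ⟨P⟩ : Nonempty (Sylow r T) := inferInstance
  have hPne : (P : Subgroup T) ≠ ⊥ := P.ne_bot_of_dvd_card hrT
  have hPnt : Nontrivial (P : Subgroup T) := (Subgroup.nontrivial_iff_ne_bot _).mpr hPne
  have hPp : IsPGroup r (P : Subgroup T) := P.isPGroup'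
  have hcn := hPp.center_nontrivial
  obtain ⟨z, hz⟩ := exists_ne (1 : Subgroup.center (P : Subgroup T))
  let g : T := ((z : (P : Subgroup T)) : T)
  have hg : g ≠ 1 := by
    intro h1
    apply hz
    apply Subtype.ext
    apply Subtype.ext
    exact h1
  have hPC : (P : Subgroup T) ≤ Subgroup.centralizer ({g} : Set T) := by
    intro x hx
    rw [Subgroup.mem_centralizer_singleton_iff]
    have h1 := (Subgroup.mem_center_iff.mp z.2) ⟨x, hx⟩
    exact (congrArg Subtype.val h1)
  have hidx : ¬ r ∣ (Subgroup.centralizer ({g} : Set T)).index := by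
    intro h1
    have h2 : (Subgroup.centralizer ({g} : Set T)).index ∣ (P : Subgroup T).index :=
      Subgroup.index_dvd_of_le hPC
    exact P.not_dvd_index (h1.trans h2)
  have hcenter : Subgroup.center T = ⊥ := by
    refine (inferInstance : (Subgroup.center T).Normal).eq_bot_or_eq_top.resolve_right fun h1 => ?_
    apply hcomm
    intro a b
    have : a ∈ Subgroup.center T := by rw [h1]; trivial
    exact (Subgroup.mem_center_iff.mp this b).symm
  obtain ⟨χ, hne, h0, hdvd⟩ := exists_irr_not_dvd s hs g hg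
  obtain ⟨n, ρ, hρ, hχ⟩ := χ.2
  have hdeg : (χ : T → ℂ) 1 = n := by
    rw [← hχ, Representation.char_one]
    simp
  have hcd : charDegree (χ : T → ℂ) = n := charDegree_of_one hdeg
  have hnd := hdvd n hdeg
  have hcop : Nat.Coprime (finrank ℂ (Fin n → ℂ))
      (Subgroup.centralizer ({g} : Set T)).index := by
    rw [finrank_fin_fun]
    apply Nat.coprime_of_dvd
    intro t ht htn htc
    have h3 := h χ t ht (by rw [hcd]; exact htn)
    rcases hrs t ht h3 with rfl | rfl
    · exact hidx htc
    · exact hnd htn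
  have hB := Cfsg.Agent.Lib.CharIntegrality.character_eq_zero_or_norm_eq ρ hρ g hcop
  rw [hχ] at hB
  have hB' := hB.resolve_left h0
  rw [← hχ] at hB'
  obtain ⟨ω, hω⟩ := (Cfsg.Agent.Lib.CharValues.norm_character_eq_iff ρ g).mp hB'
  have hker := ker_eq_bot_of_simple ρ hρ (by rw [hχ]; exact hne)
  have hinj : Function.Injective ρ := (MonoidHom.ker_eq_bot_iff ρ).mp hker
  apply hg
  have hgc : g ∈ Subgroup.center T := by
    rw [Subgroup.mem_center_iff]
    intro x
    apply hinj
    rw [map_mul, map_mul, hω]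
    ext v
    simp
  rw [hcenter] at hgc
  exact hgc

theorem solvable_of_PQ {p q : ℕ} (hp : p.Prime) (hq : q.Prime) :
    ∀ (n : ℕ) (G : Type u) [Group G] [Finite G], Nat.card G = n → PQ G p q →
      Group.IsSolvable G := by
  intro n
  induction n using Nat.strong_induction_on with
  | _ n ih =>
    intro G _ _ hn h
    classical
    haveI : Fintype G := Fintype.ofFinite G
    by_cases htriv : Subsingleton G
    · infer_instance
    rw [not_subsingleton_iff_nontrivial] at htriv
    by_cases hsimple : IsSimpleGroup G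
    · exact Group.isSolvable_of_comm (comm_of_simple hp hq h)
    · have hex : ∃ N : Subgroup G, N.Normal ∧ N ≠ ⊥ ∧ N ≠ ⊤ := by
        by_contra hno
        push Not at hno
        apply hsimple
        refine { toNontrivial := htriv, eq_bot_or_eq_top_of_normal := fun N hN => ?_ }
        by_cases h1 : N = ⊥
        · exact Or.inl h1
        · exact Or.inr (hno N hN h1)
      obtain ⟨N, hN, hNb, hNt⟩ := hex
      haveI := hN
      haveI : Fintype N := Fintype.ofFinite N
      have hcard : Nat.card N * N.index = Nat.card G := Subgroup.card_mul_index N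
      have hNcard : 1 < Nat.card N := by
        haveI := (Subgroup.nontrivial_iff_ne_bot N).mpr hNb
        exact Finite.one_lt_card
      have hidx : 1 < N.index := by
        have h1 : N.index ≠ 1 := fun h2 => hNt (Subgroup.index_eq_one.mp h2)
        have h2 : N.index ≠ 0 := Subgroup.index_ne_zero_of_finite
        omega
      have hlt1 : Nat.card N < n := by
        rw [← hn, ← hcard]
        nlinarith
      have hlt2 : Nat.card (G ⧸ N) < n := by
        have h4 : Nat.card (G ⧸ N) = N.index := rfl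
        rw [h4, ← hn, ← hcard]
        nlinarith
      have hsN : Group.IsSolvable N := ih _ hlt1 N rfl (by
        intro θ r hr hrd
        obtain ⟨χ, hχ⟩ := Cfsg.Agent.Lib.GlaubAbove.exists_irr_over N θ
        exact h χ r hr (hrd.trans (degree_dvd N θ.2 χ.2 hχ)))
      have hq' : Function.Surjective (QuotientGroup.mk' N) := QuotientGroup.mk'_surjective N
      have hsQ : Group.IsSolvable (G ⧸ N) := ih _ hlt2 (G ⧸ N) rfl (by
        intro θ r hr hrd
        have h1 := h ⟨_, isIrrCharacter_comp_of_surjective (QuotientGroup.mk' N) hq' θ.2⟩ r hr (by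
          show r ∣ charDegree ((θ : G ⧸ N → ℂ) ∘ (QuotientGroup.mk' N))
          rw [charDegree_comp]
          exact hrd)
        exact h1)
      exact Group.isSolvable_of_ker_le_range N.subtype (QuotientGroup.mk' N) (by
        intro x hx
        have h3 : x ∈ N := by
          rw [MonoidHom.mem_ker] at hx
          exact (QuotientGroup.eq_one_iff x).mp hx
        exact ⟨⟨x, h3⟩, rfl⟩)

/-- If the finite group G is not solvable, then at least three distinct primes each divide some irreducible complex character degree of G. -/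
theorem result {G : Type*} [Group G] [Finite G] (hG : ¬ Group.IsSolvable G) : ∃ p q r : ℕ, p ≠ q ∧ q ≠ r ∧ p ≠ r ∧ p ∈ Cfsg.degreePrimes G ∧ q ∈ Cfsg.degreePrimes G ∧ r ∈ Cfsg.degreePrimes G := by
  by_contra hno
  push Not at hno
  have hmem : ∀ (χ : IrrCharacter G) (r : ℕ), r.Prime → r ∣ charDegree (χ : G → ℂ) →
      r ∈ Cfsg.degreePrimes G := fun χ r hr hd => ⟨hr, _, ⟨χ, rfl⟩, hd⟩
  have key : ∃ p q : ℕ, p.Prime ∧ q.Prime ∧ PQ G p q := by
    by_cases h1 : (Cfsg.degreePrimes G).Nonempty
    · obtain ⟨p, hp⟩ := h1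
      by_cases h2 : ∃ q ∈ Cfsg.degreePrimes G, q ≠ p
      · obtain ⟨q, hq, hqp⟩ := h2
        refine ⟨p, q, hp.1, hq.1, fun χ r hr hd => ?_⟩
        by_contra h3
        push Not at h3
        exact h3.1 (by_contra fun h4 => hno p q r (Ne.symm hqp) (Ne.symm h3.2) (Ne.symm h3.1)
          hp hq (hmem χ r hr hd) |> False.elim) |> False.elim
      · push Not at h2
        exact ⟨p, p, hp.1, hp.1, fun χ r hr hd => Or.inl (h2 r (hmem χ r hr hd))⟩
    · refine ⟨2, 2, Nat.prime_two, Nat.prime_two, fun χ r hr hd => ?_⟩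
      exact absurd ⟨r, hmem χ r hr hd⟩ h1
  obtain ⟨p, q, hp, hq, h⟩ := key
  exact hG (solvable_of_PQ hp hq _ G rfl h)

end Cfsg.Agent.S4782
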