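import Mathlib
import Cfsg.Statements.S4784
import Cfsg.Agent.Lib.CharKernel
import Cfsg.Agent.Lib.CharDecomp
import Cfsg.Agent.Lib.FrobeniusSchur
import Cfsg.Agent.Lib.RealChars
import Cfsg.Agent.Lib.GenChar

set_option autoImplicit false

open Cfsg

namespace Cfsg.Agent.S4784

open Cfsg.Agent.Lib.CharBasic Cfsg.Agent.Lib.CharInd Cfsg.Agent.Lib.CharKernel
  Cfsg.Agent.Lib.CharDecomp

variable {G : Type*} [Group G] [Fintype G]

/-- The average over squares. -/
noncomputable def nu (f : G → ℂ) : ℂ := (Nat.card G : ℂ)⁻¹ * ∑ g : G, f (g * g)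

/-- The average over squares of a permutation character. -/
theorem nu_ind (H : Subgroup G) [DecidablePred (· ∈ H)] :
    nu (indFun H (fun _ : H => (1 : ℂ))) =
      ((Finset.univ.filter (fun g : G => g * g ∈ H)).card : ℂ) / (Nat.card H : ℂ) := by
  have hG : (Nat.card G : ℂ) ≠ 0 := natCard_ne_zero'
  have hH := natCard_subgroup_ne_zero H
  have hfun : ∀ g : G, extendByZero H (fun _ : H => (1 : ℂ)) g = if g ∈ H then 1 else 0 := by
    intro g
    split_ifs with h
    · exact extendByZero_of_mem H _ h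
    · exact extendByZero_of_not_mem H _ h
  unfold nu
  simp only [indFun_apply, hfun]
  rw [← Finset.mul_sum, Finset.sum_comm]
  have h1 : ∀ x : G, ∑ g : G, (if x⁻¹ * (g * g) * x ∈ H then (1 : ℂ) else 0) =
      ((Finset.univ.filter (fun g : G => g * g ∈ H)).card : ℂ) := by
    intro x
    rw [Finset.card_filter]
    push_cast
    refine Finset.sum_bij (fun g _ => x⁻¹ * g * x) (by simp) ?_ ?_ ?_
    · intro a _ b _ hab
      simpa using hab
    · intro b _
      exact ⟨x * b * x⁻¹, Finset.mem_univ _, by group⟩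
    · intro a _
      have : x⁻¹ * a * x * (x⁻¹ * a * x) = x⁻¹ * (a * a) * x := by group
      rw [this]
  simp only [h1, Finset.sum_const, Finset.card_univ, nsmul_eq_mul, ← Nat.card_eq_fintype_card]
  field_simp

theorem nu_add (f₁ f₂ : G → ℂ) : nu (f₁ + f₂) = nu f₁ + nu f₂ := by
  unfold nu
  simp only [Pi.add_apply, Finset.sum_add_distrib, mul_add]

theorem nu_smul (n : ℕ) (f : G → ℂ) : nu (n • f) = n * nu f := by
  unfold nu
  simp only [Pi.smul_apply, nsmul_eq_mul, ← Finset.mul_sum]
  ring

theorem nu_sum {ι : Type*} (s : Finset ι) (f : ι → G → ℂ) :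
    nu (∑ i ∈ s, f i) = ∑ i ∈ s, nu (f i) := by
  classical
  induction s using Finset.induction_on with
  | empty =>
    simp [nu]
  | insert a s ha ih =>
    rw [Finset.sum_insert ha, Finset.sum_insert ha, nu_add, ih]

/-- The Frobenius-Schur trichotomy for irreducible characters. -/
theorem nu_irr {χ : G → ℂ} (hχ : IsIrrCharacter G χ) :
    (nu χ = 0 ∨ nu χ = 1 ∨ nu χ = -1) ∧ (nu χ = 1 → ∀ g, (starRingEnd ℂ) (χ g) = χ g) := by
  obtain ⟨n, ρ, hρ, rfl⟩ := hχ
  obtain ⟨h1, h2⟩ := Cfsg.Agent.Lib.FrobeniusSchur.frobeniusSchur ρ hρ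
  refine ⟨h1, ?_⟩
  intro h3 g
  have h4 : ¬ ∃ s : G, (ρ.character s).im ≠ 0 := by
    intro h5
    have h6 := h2.mpr h5
    have h7 : (1 : ℂ) = 0 := h3.symm.trans h6
    exact one_ne_zero h7
  push Not at h4
  exact Complex.conj_eq_iff_im.mpr (h4 g)

/-- The normal core lies in the kernel of the permutation character. -/
theorem perm_core (H : Subgroup G) {c : G} (hc : c ∈ H.normalCore) :
    indFun H (fun _ : H => (1 : ℂ)) c = indFun H (fun _ : H => (1 : ℂ)) 1 := by
  have hfun : ∀ x : G, extendByZero H (fun _ : H => (1 : ℂ)) (x⁻¹ * c * x) = 1 := by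
    intro x
    apply extendByZero_of_mem H
    have : x⁻¹ * c * x⁻¹⁻¹ ∈ H := hc x⁻¹
    simpa using this
  have hfun1 : ∀ x : G, extendByZero H (fun _ : H => (1 : ℂ)) (x⁻¹ * 1 * x) = 1 := by
    intro x
    apply extendByZero_of_mem H
    have : x⁻¹ * 1 * x = 1 := by group
    rw [this]
    exact H.one_mem
  simp only [indFun_apply, hfun, hfun1]

/-- A constituent of the permutation character has the core in its kernel. -/
theorem core_le_ker (H : Subgroup G) {χ : G → ℂ} (hχ : IsIrrCharacter G χ)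
    (h : classInner (indFun H (fun _ : H => (1 : ℂ))) χ ≠ 0) {c : G} (hc : c ∈ H.normalCore) :
    χ c = χ 1 := by
  classical
  have hπ : IsCharacter G (indFun H (fun _ : H => (1 : ℂ))) :=
    indFun_isCharacter H isCharacter_one
  obtain ⟨A, hA, hπA⟩ := exists_char_add hπ hχ h
  have h1 := perm_core H hc
  rw [hπA] at h1
  simp only [Pi.add_apply] at h1
  have hχc := IsIrrCharacter.isCharacter hχ
  obtain ⟨d₁, hd₁⟩ := isCharacter_one_eq hχc
  obtain ⟨d₂, hd₂⟩ := isCharacter_one_eq hA
  have n1 := Cfsg.Agent.Lib.GenChar.char_norm_le hχc c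
  have n2 := Cfsg.Agent.Lib.GenChar.char_norm_le hA c
  rw [hd₁] at n1
  rw [hd₂] at n2
  simp only [Complex.norm_natCast] at n1 n2
  have r1 := (Complex.abs_re_le_norm (χ c)).trans n1
  have r2 := (Complex.abs_re_le_norm (A c)).trans n2
  have hre := congrArg Complex.re h1
  simp only [Complex.add_re, hd₁, hd₂, Complex.natCast_re] at hre
  apply Cfsg.Agent.Lib.GenChar.char_eq_one_of_re hχc
  rw [hd₁, Complex.natCast_re]
  have a1 := (abs_le.mp r1).2
  have a2 := (abs_le.mp r2).2
  linarith

/-- The inner product of the permutation character with the principal character is one. -/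
theorem inner_perm_one (H : Subgroup G) :
    classInner (indFun H (fun _ : H => (1 : ℂ))) (fun _ : G => (1 : ℂ)) = 1 := by
  classical
  haveI : Fintype H := Fintype.ofFinite H
  rw [frobenius H _ (isClassFunction_of_isCharacter isCharacter_one)]
  exact classInner_irr_self isIrrCharacter_one

/-- If all squares in `H`-closure hold, then the `2`-elements lie in `H`. -/
theorem two_element_mem (H : Subgroup G) (hsq : ∀ g : G, g * g ∈ H → g ∈ H) (k : ℕ) :
    ∀ g : G, g ^ 2 ^ k = 1 → g ∈ H := by
  induction k with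
  | zero =>
    intro g hg
    have : g = 1 := by simpa using hg
    rw [this]
    exact H.one_mem
  | succ k ih =>
    intro g hg
    apply hsq
    apply ih
    rw [← sq, ← pow_mul, ← pow_succ']
    exact hg

/-- If all `2`-elements lie in `H`, then the core of `H` has odd index. -/
theorem odd_index_of_two_elements (H : Subgroup G) (h2 : ∀ (k : ℕ) (g : G), g ^ 2 ^ k = 1 → g ∈ H) :
    Odd H.normalCore.index := by
  haveI : Fact (Nat.Prime 2) := ⟨Nat.prime_two⟩
  obtain ⟨T⟩ : Nonempty (Sylow 2 G) := inferInstance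
  have hT : (T : Subgroup G) ≤ H.normalCore := by
    intro t ht b
    obtain ⟨k, hk⟩ := T.isPGroup' ⟨t, ht⟩
    apply h2 k
    have hk' : t ^ 2 ^ k = 1 := by
      have := congrArg Subtype.val hk
      simpa using this
    rw [conj_pow, hk']
    simp
  have h3 := Subgroup.index_dvd_of_le hT
  have h4 := Sylow.not_dvd_index T
  rw [← Nat.not_even_iff_odd, even_iff_two_dvd]
  intro h5
  exact h4 (h5.trans h3)

/-- The main inequality: if only the principal character among the constituents has indicator one,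
then `H` is closed under square roots. -/
theorem sq_closed_of_unique (H : Subgroup G)
    (huniq : ∀ χ : IrrCharacter G, classInner (indFun H (fun _ : H => (1 : ℂ))) (χ : G → ℂ) ≠ 0 →
      nu (χ : G → ℂ) = 1 → (χ : G → ℂ) = fun _ => 1) :
    ∀ g : G, g * g ∈ H → g ∈ H := by
  classical
  have hπ : IsCharacter G (indFun H (fun _ : H => (1 : ℂ))) :=
    indFun_isCharacter H isCharacter_one
  obtain ⟨m, hm⟩ := exists_nat_decomp hπ
  let one : IrrCharacter G := ⟨fun _ => 1, isIrrCharacter_one⟩
  have hinner : ∀ i : IrrCharacter G, classInner (indFun H (fun _ : H => (1 : ℂ))) (i : G → ℂ) =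
      (m i : ℂ) := by
    intro i
    rw [hm]
    exact classInner_nat_decomp m i i.2
  have hnu : nu (indFun H (fun _ : H => (1 : ℂ))) = ∑ i : IrrCharacter G, (m i : ℂ) * nu (i : G → ℂ) := by
    conv_lhs => rw [hm]
    rw [nu_sum]
    exact Finset.sum_congr rfl fun i _ => nu_smul _ _
  have hm1 : m one = 1 := by
    have h1 := hinner one
    have h2 := inner_perm_one H
    have h3 : ((m one : ℕ) : ℂ) = ((1 : ℕ) : ℂ) := by
      rw [← h1]
      simpa [one] using h2
    exact_mod_cast h3
  -- the real parts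
  have hre : ∀ i : IrrCharacter G, ((m i : ℂ) * nu (i : G → ℂ)).re ≤ if i = one then 1 else 0 := by
    intro i
    obtain ⟨h1, -⟩ := nu_irr i.2
    split_ifs with hi
    · subst hi
      rw [hm1]
      rcases h1 with h1 | h1 | h1 <;> rw [h1] <;> norm_num
    · have h0 : (m i : ℝ) ≥ 0 := Nat.cast_nonneg _
      rcases h1 with h1 | h1 | h1
      · rw [h1]; simp
      · by_cases hmi : m i = 0
        · rw [hmi]; simp
        · exfalso
          apply hi
          apply Subtype.ext
          apply huniq i _ h1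
          rw [hinner]
          exact_mod_cast hmi
      · rw [h1]; simp
  have hsum : (∑ i : IrrCharacter G, (m i : ℂ) * nu (i : G → ℂ)).re ≤ 1 := by
    rw [Complex.re_sum]
    calc _ ≤ ∑ i : IrrCharacter G, (if i = one then (1 : ℝ) else 0) :=
          Finset.sum_le_sum fun i _ => hre i
      _ = 1 := by simp
  rw [← hnu, nu_ind] at hsum
  have hHpos : (0 : ℝ) < (Nat.card H : ℝ) := by exact_mod_cast Nat.card_pos
  have hre2 : (((Finset.univ.filter (fun g : G => g * g ∈ H)).card : ℂ) / (Nat.card H : ℂ)).re =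
      ((Finset.univ.filter (fun g : G => g * g ∈ H)).card : ℝ) / (Nat.card H : ℝ) := by
    have : ((Finset.univ.filter (fun g : G => g * g ∈ H)).card : ℂ) / (Nat.card H : ℂ) =
        (((Finset.univ.filter (fun g : G => g * g ∈ H)).card : ℝ) / (Nat.card H : ℝ) : ℝ) := by
      push_cast
      rfl
    rw [this, Complex.ofReal_re]
  rw [hre2, div_le_one hHpos] at hsum
  have hle : (Finset.univ.filter (fun g : G => g * g ∈ H)).card ≤ Nat.card H := by
    exact_mod_cast hsum
  have hsub : (Finset.univ.filter (fun g : G => g ∈ H)) ⊆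
      (Finset.univ.filter (fun g : G => g * g ∈ H)) := by
    intro g hg
    simp only [Finset.mem_filter, Finset.mem_univ, true_and] at hg ⊢
    exact H.mul_mem hg hg
  have hcard : (Finset.univ.filter (fun g : G => g ∈ H)).card = Nat.card H := by
    rw [Nat.card_eq_fintype_card, Fintype.card_subtype]
  have heq := Finset.eq_of_subset_of_card_le hsub (by rw [hcard]; exact hle)
  intro g hg
  have h1 : g ∈ Finset.univ.filter (fun g : G => g * g ∈ H) := by simpa using hg
  rw [← heq] at h1
  simpa using h1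

/-- The statement. -/
theorem result {G : Type*} [Group G] [Fintype G] (H : Subgroup G) : Nat.card {χ : Cfsg.IrrCharacter G // Cfsg.classInner (Cfsg.indFun H (fun _ : H => (1 : ℂ))) (χ : G → ℂ) ≠ 0 ∧ (∀ g : G, (starRingEnd ℂ) ((χ : G → ℂ) g) = (χ : G → ℂ) g) ∧ (Nat.card G : ℂ)⁻¹ * ∑ g : G, (χ : G → ℂ) (g * g) = 1} = 1 ↔ Odd H.normalCore.index := by
  classical
  let one : IrrCharacter G := ⟨fun _ => 1, isIrrCharacter_one⟩
  have hone : classInner (indFun H (fun _ : H => (1 : ℂ))) ((one : IrrCharacter G) : G → ℂ) ≠ 0 ∧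
      (∀ g : G, (starRingEnd ℂ) (((one : IrrCharacter G) : G → ℂ) g) = ((one : IrrCharacter G) : G → ℂ) g) ∧
      (Nat.card G : ℂ)⁻¹ * ∑ g : G, ((one : IrrCharacter G) : G → ℂ) (g * g) = 1 := by
    refine ⟨?_, ?_, ?_⟩
    · have := inner_perm_one H
      simp only [one]
      rw [this]
      exact one_ne_zero
    · intro g
      simp [one]
    · have hG : (Nat.card G : ℂ) ≠ 0 := natCard_ne_zero'
      simp only [one, Finset.sum_const, Finset.card_univ, nsmul_eq_mul, mul_one,
        ← Nat.card_eq_fintype_card]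
      field_simp
  rw [Nat.card_eq_one_iff_unique]
  constructor
  · rintro ⟨hsub, -⟩
    apply odd_index_of_two_elements
    apply fun hsq k g hg => two_element_mem H hsq k g hg
    apply sq_closed_of_unique
    intro χ hχ1 hχ2
    have hreal := (nu_irr χ.2).2 hχ2
    have := hsub.elim ⟨χ, hχ1, hreal, hχ2⟩ ⟨one, hone⟩
    have h2 := congrArg (fun y => ((y.1 : IrrCharacter G) : G → ℂ)) this
    exact h2
  · intro hodd
    refine ⟨⟨?_⟩, ⟨⟨one, hone⟩⟩⟩
    have key : ∀ χ : IrrCharacter G,
        classInner (indFun H (fun _ : H => (1 : ℂ))) (χ : G → ℂ) ≠ 0 →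
        (∀ g : G, (starRingEnd ℂ) ((χ : G → ℂ) g) = (χ : G → ℂ) g) → χ = one := by
      intro χ h1 h2
      obtain ⟨χ', hχ', hlift⟩ := exists_quotient_irr H.normalCore χ.2
        (fun c hc => core_le_ker H χ.2 h1 hc)
      have hoddQ : Odd (Nat.card (G ⧸ H.normalCore)) := hodd
      have h3 := Cfsg.Agent.Lib.RealChars.eq_one_of_real hoddQ ⟨χ', hχ'⟩ (by
        intro g
        obtain ⟨x, rfl⟩ := QuotientGroup.mk_surjective g
        show (χ' (x : G ⧸ H.normalCore)).im = 0
        rw [hlift]
        exact Complex.conj_eq_iff_im.mp (h2 x))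
      apply Subtype.ext
      funext g
      rw [← hlift g]
      exact congrFun h3 _
    rintro ⟨χ₁, h1, h2, -⟩ ⟨χ₂, h3, h4, -⟩
    apply Subtype.ext
    show χ₁ = χ₂
    rw [key χ₁ h1 h2, key χ₂ h3 h4]

end Cfsg.Agent.S4784
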