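import Mathlib
import Cfsg.Statements.S4796
import Cfsg.Agent.Lib.CharCodegP

set_option autoImplicit false

open Cfsg

namespace Cfsg.Agent.S4796

theorem result {G : Type*} [Group G] [Finite G] (χ : Cfsg.IrrCharacter G) (hfaith : ∀ g : G, (χ : G → ℂ) g = (χ : G → ℂ) 1 → g = 1) (p : ℕ) (hp : p.Prime) (hcod : Nat.card G = p * Cfsg.charDegree (χ : G → ℂ)) : (IsCyclic G ∧ Nat.card G = p) ∨ ∃ H : Subgroup G, Cfsg.IsFrobeniusComplement H ∧ Nat.card ↥(Cfsg.frobeniusKernel H) = p := by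
  obtain ⟨hlt, P, hPn, hcard, hC⟩ := Cfsg.Agent.Lib.CharCodegP.core χ.2 hfaith hp hcod
  have hd0 := Cfsg.Agent.Lib.CharKernel.charDegree_pos χ.2
  by_cases hd1 : charDegree (χ : G → ℂ) = 1
  · left
    rw [hd1, mul_one] at hcod
    exact ⟨isCyclic_of_prime_card (hp := Fact.mk hp) hcod, hcod⟩
  · right
    have hidx : P.index = charDegree (χ : G → ℂ) := by
      have h := Subgroup.card_mul_index P
      rw [hcard, hcod] at h
      exact Nat.eq_of_mul_eq_mul_left hp.pos h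
    haveI := hPn
    refine Cfsg.Agent.Lib.CharCodegP.frobenius_of_selfCentralizing hp hcard hC ?_ ?_
    · rw [hidx]
      exact (Nat.Prime.coprime_iff_not_dvd hp).mpr (Nat.not_dvd_of_pos_of_lt hd0 hlt)
    · rw [hidx]; exact hd1

end Cfsg.Agent.S4796
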