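import Mathlib
import Cfsg.Statements.S4797
import Cfsg.Agent.Lib.CharCodegP

set_option autoImplicit false

open Cfsg

namespace Cfsg.Agent.S4797

open Cfsg.Agent.Lib.CharBasic Cfsg.Agent.Lib.CharKernel Cfsg.Agent.Lib.CharCodegP

theorem result {G : Type*} [Group G] [Finite G] [Nontrivial G] : commutator G = ⊤ ↔ ∀ χ : Cfsg.IrrCharacter G, ¬ ((Nat.card G / (Nat.card {g : G // (χ : G → ℂ) g = (χ : G → ℂ) 1} * Cfsg.charDegree (χ : G → ℂ)))).Prime := by
  classical
  constructor
  · intro hperf χ hq
    set q := Nat.card G / (Nat.card {g : G // (χ : G → ℂ) g = (χ : G → ℂ) 1} * Cfsg.charDegree (χ : G → ℂ)) with hqdef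
    have hmul := codegree_mul χ.2
    rw [← hqdef] at hmul
    have hc := IsIrrCharacter.isCharacter χ.2
    let K := charKer hc
    haveI : K.Normal := charKer_normal hc
    obtain ⟨χ', hχ', hlift⟩ := exists_quotient_irr K χ.2 (fun x hx => hx)
    have hdeg : charDegree χ' = charDegree (χ : G → ℂ) := by
      simp only [charDegree]
      have := hlift 1
      rw [QuotientGroup.mk_one] at this
      rw [this]
    have hcardQ : Nat.card (G ⧸ K) = q * charDegree χ' := by
      rw [hdeg]
      have h1 := Subgroup.card_mul_index K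
      have h2 : Nat.card K = Nat.card {g : G // (χ : G → ℂ) g = (χ : G → ℂ) 1} := rfl
      have h3 : Nat.card (G ⧸ K) = K.index := rfl
      rw [h3]
      have h4 : 0 < Nat.card K := Nat.card_pos
      apply Nat.eq_of_mul_eq_mul_left h4
      rw [h1, h2, ← hmul]
      ring
    have hfaith : ∀ g : G ⧸ K, χ' g = χ' 1 → g = 1 := by
      intro g hg
      obtain ⟨x, rfl⟩ := QuotientGroup.mk_surjective g
      have h1 : (χ : G → ℂ) x = (χ : G → ℂ) 1 := by
        have h2 := hlift 1
        rw [QuotientGroup.mk_one] at h2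
        rw [← hlift x, hg, h2]
      exact (QuotientGroup.eq_one_iff x).mpr h1
    obtain ⟨-, P, hPn, hPcard, hC⟩ := core hχ' hfaith hq hcardQ
    haveI := hPn
    have hle := commutator_le_of_selfCentralizing hq hPcard hC
    have htop : commutator (G ⧸ K) = ⊤ := by
      have hs : Function.Surjective (QuotientGroup.mk' K) := QuotientGroup.mk'_surjective K
      have h5 : Subgroup.map (QuotientGroup.mk' K) ⁅(⊤ : Subgroup G), ⊤⁆ = ⁅(⊤ : Subgroup (G ⧸ K)), ⊤⁆ := by
        rw [Subgroup.map_commutator, ← MonoidHom.range_eq_map, MonoidHom.range_eq_top.mpr hs]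
      rw [commutator_def, ← h5, ← commutator_def, hperf, ← MonoidHom.range_eq_map,
        MonoidHom.range_eq_top.mpr hs]
    have hPtop : P = ⊤ := by
      rw [eq_top_iff, ← htop]
      exact hle
    have hcardQ2 : Nat.card (G ⧸ K) = q := by
      rw [← hPcard, hPtop, Subgroup.card_top]
    haveI : Fact q.Prime := Fact.mk hq
    haveI hcyc : IsCyclic (G ⧸ K) := isCyclic_of_prime_card hcardQ2
    letI := IsCyclic.commGroup (α := G ⧸ K)
    have hbot : commutator (G ⧸ K) = ⊥ := by
      rw [eq_bot_iff, commutator_def, Subgroup.commutator_le]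
      intro a _ b _
      rw [commutatorElement_def, Subgroup.mem_bot]
      rw [mul_comm a b]
      group
    rw [hbot] at htop
    have h6 : Nat.card (⊥ : Subgroup (G ⧸ K)) = Nat.card (⊤ : Subgroup (G ⧸ K)) := by rw [htop]
    rw [Subgroup.card_bot, Subgroup.card_top, hcardQ2] at h6
    exact hq.one_lt.ne h6
  · intro hall
    by_contra hne
    obtain ⟨F, q, hq, hidx⟩ := exists_hom_prime_index hne
    have hirr := isIrrCharacter_of_hom F
    let χ : IrrCharacter G := ⟨fun g => ((F g : ℂˣ) : ℂ), hirr⟩
    apply hall χ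
    have hdeg : charDegree (χ : G → ℂ) = 1 := by
      simp [charDegree, χ]
    have hker : Nat.card {g : G // (χ : G → ℂ) g = (χ : G → ℂ) 1} = Nat.card F.ker := by
      apply Nat.card_congr
      apply Equiv.subtypeEquivRight
      intro x
      simp [χ, MonoidHom.mem_ker, Units.val_eq_one]
    rw [hdeg, hker, mul_one]
    have h1 := Subgroup.card_mul_index F.ker
    rw [← h1, Nat.mul_div_cancel_left _ Nat.card_pos, hidx]
    exact hq

end Cfsg.Agent.S4797
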