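import Mathlib
import Cfsg.Statements.S4798
import Cfsg.Agent.Lib.CharDecomp

set_option autoImplicit false
open Cfsg

namespace Cfsg.Agent.S4798

open Cfsg.Agent.Lib.CharBasic Cfsg.Agent.Lib.CharAvg Cfsg.Agent.Lib.CharInd Cfsg.Agent.Lib.CharKernel
  Cfsg.Agent.Lib.CharDecomp

/-- Degrees of irreducible characters of `p`-groups are `p`-powers. -/
theorem deg_pow {P : Type*} [Group P] [Finite P] {p a : ℕ} (hp : p.Prime) (hcard : Nat.card P = p ^ a)
    {θ : P → ℂ} (hθ : IsIrrCharacter P θ) : ∃ b, b ≤ a ∧ charDegree θ = p ^ b := by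
  have h := charDegree_dvd_card hθ
  rw [hcard] at h
  obtain ⟨b, hb, h1⟩ := (Nat.dvd_prime_pow hp).mp h
  exact ⟨b, hb, h1⟩

/-- Let p be a prime and χ a faithful irreducible complex character of the finite group G (χ(g) = χ(1) only for g = 1), so that its codegree is #G / χ(1). Then #G / χ(1) is a power of p if and only if χ is induced from a character of a Sylow p-subgroup of G. -/
theorem result {G : Type*} [Group G] [Fintype G] (p : ℕ) [Fact p.Prime] (χ : Cfsg.IrrCharacter G) (hfaith : ∀ g : G, (χ : G → ℂ) g = (χ : G → ℂ) 1 → g = 1) : (∃ k : ℕ, Nat.card G = p ^ k * Cfsg.charDegree (χ : G → ℂ)) ↔ ∃ (P : Sylow p G) (θ : ↥(P : Subgroup G) → ℂ), Cfsg.IsCharacter ↥(P : Subgroup G) θ ∧ (χ : G → ℂ) = Cfsg.indFun (P : Subgroup G) θ := by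
  classical
  have hp : p.Prime := Fact.out
  constructor
  · rintro ⟨k, hk⟩
    obtain ⟨P⟩ : Nonempty (Sylow p G) := inferInstance
    haveI : Fintype (P : Subgroup G) := Fintype.ofFinite _
    obtain ⟨a, ha⟩ := IsPGroup.iff_card.mp P.isPGroup'
    have hidx : ¬ p ∣ (P : Subgroup G).index := P.not_dvd_index
    have hcardG := Subgroup.card_mul_index (P : Subgroup G)
    rw [ha] at hcardG
    set m := (P : Subgroup G).index with hm
    set d := charDegree (χ : G → ℂ) with hd
    have hd0 : d ≠ 0 := charDegree_ne_zero χ.2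
    have hm0 : m ≠ 0 := fun h => hidx (h ▸ dvd_zero p)
    have hk2 : p ^ k * d = p ^ a * m := by rw [← hk, hcardG]
    -- `k ≤ a`
    have hka : k ≤ a := by
      by_contra hlt
      push Not at hlt
      obtain ⟨j, rfl⟩ : ∃ j, k = a + 1 + j := ⟨k - (a + 1), by omega⟩
      have h1 : p ^ (a + 1 + j) * d = p ^ a * (p ^ (1 + j) * d) := by ring
      rw [h1] at hk2
      have h2 := Nat.eq_of_mul_eq_mul_left (pow_pos hp.pos a) hk2
      apply hidx
      rw [← h2, pow_add, pow_one, mul_assoc]
      exact dvd_mul_right _ _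
    obtain ⟨D, rfl⟩ : ∃ D, a = k + D := ⟨a - k, by omega⟩
    have hdm : d = p ^ D * m := by
      have h1 : p ^ (k + D) * m = p ^ k * (p ^ D * m) := by ring
      rw [h1] at hk2
      exact Nat.eq_of_mul_eq_mul_left (pow_pos hp.pos k) hk2
    -- decomposition of the restriction
    have hcl := IsIrrCharacter.isCharacter χ.2
    have hres := isCharacter_restrict (P : Subgroup G) hcl
    obtain ⟨c, hc⟩ := exists_nat_decomp hres
    -- a small constituent
    have hex : ∃ θ : IrrCharacter (P : Subgroup G), c θ ≠ 0 ∧ charDegree (θ : ↥(P : Subgroup G) → ℂ) ≤ p ^ D := by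
      by_contra hno
      push Not at hno
      have hdvd : ∀ θ : IrrCharacter (P : Subgroup G), p ^ (D + 1) ∣ c θ * charDegree (θ : ↥(P : Subgroup G) → ℂ) := by
        intro θ
        by_cases h0 : c θ = 0
        · rw [h0, zero_mul]; exact dvd_zero _
        · have h1 := hno θ h0
          obtain ⟨b, _, hb⟩ := deg_pow hp ha θ.2
          rw [hb] at h1 ⊢
          have h2 : D < b := (Nat.pow_lt_pow_iff_right hp.one_lt).mp h1
          exact Dvd.dvd.mul_left (pow_dvd_pow p h2) _
      have hsum : d = ∑ θ : IrrCharacter (P : Subgroup G), c θ * charDegree (θ : ↥(P : Subgroup G) → ℂ) := by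
        have h1 := congrFun hc 1
        simp only [Finset.sum_apply, Pi.smul_apply] at h1
        have h2 : ((χ : G → ℂ) ((1 : (P : Subgroup G)) : G)) = (d : ℂ) := by
          rw [Subgroup.coe_one, one_eq_charDegree hcl]
        rw [h2] at h1
        have h3 : ∀ θ : IrrCharacter (P : Subgroup G), c θ • (θ : ↥(P : Subgroup G) → ℂ) 1 =
            ((c θ * charDegree (θ : ↥(P : Subgroup G) → ℂ) : ℕ) : ℂ) := by
          intro θ
          rw [one_eq_charDegree (IsIrrCharacter.isCharacter θ.2)]
          simp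
        simp only [h3] at h1
        exact_mod_cast h1
      have h5 : p ^ (D + 1) ∣ d := by
        rw [hsum]
        exact Finset.dvd_sum fun θ _ => hdvd θ
      rw [hdm, pow_succ] at h5
      have h6 := Nat.dvd_of_mul_dvd_mul_left (pow_pos hp.pos D) h5
      exact hidx h6
    obtain ⟨θ, hθc, hθd⟩ := hex
    refine ⟨P, θ, IsIrrCharacter.isCharacter θ.2, ?_⟩
    have hind := indFun_isCharacter (P : Subgroup G) (IsIrrCharacter.isCharacter θ.2)
    symm
    apply eq_of_inner_ne_zero_of_le hind χ.2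
    · rw [frobenius (P : Subgroup G) _ (isClassFunction_of_isCharacter hcl)]
      have h1 : classInner (fun h : (P : Subgroup G) => (χ : G → ℂ) h) (θ : ↥(P : Subgroup G) → ℂ) = (c θ : ℂ) := by
        rw [hc, classInner_nat_decomp c θ θ.2]
      intro h2
      have h3 := classInner_conj_symm (θ : ↥(P : Subgroup G) → ℂ) (fun h : (P : Subgroup G) => (χ : G → ℂ) h)
      rw [h2, h1] at h3
      simp only [map_zero] at h3
      exact hθc (by exact_mod_cast h3.symm)
    · have h1 := one_eq_charDegree hind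
      rw [indFun_one, one_eq_charDegree (IsIrrCharacter.isCharacter θ.2)] at h1
      have h2 : charDegree (indFun (P : Subgroup G) (θ : ↥(P : Subgroup G) → ℂ)) = m * charDegree (θ : ↥(P : Subgroup G) → ℂ) := by
        exact_mod_cast h1.symm
      rw [h2]
      show m * charDegree (θ : ↥(P : Subgroup G) → ℂ) ≤ d
      rw [hdm, mul_comm]
      exact Nat.mul_le_mul_right _ hθd
  · rintro ⟨P, θ, hθ, hχ⟩
    have hirr : IsIrrCharacter G (indFun (P : Subgroup G) θ) := hχ ▸ χ.2
    have hθirr := irr_of_indFun_irr (P : Subgroup G) hθ hirr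
    obtain ⟨a, ha⟩ := IsPGroup.iff_card.mp P.isPGroup'
    obtain ⟨b, hba, hb⟩ := deg_pow hp ha hθirr
    refine ⟨a - b, ?_⟩
    have h1 : (χ : G → ℂ) 1 = ((P : Subgroup G).index : ℂ) * θ 1 := by
      rw [hχ, indFun_one]
    rw [one_eq_charDegree (IsIrrCharacter.isCharacter χ.2), one_eq_charDegree hθ, hb] at h1
    have h2 : charDegree (χ : G → ℂ) = (P : Subgroup G).index * p ^ b := by
      exact_mod_cast h1
    rw [h2, ← Subgroup.card_mul_index (P : Subgroup G), ha]
    obtain ⟨c, rfl⟩ : ∃ c, a = b + c := ⟨a - b, by omega⟩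
    rw [add_tsub_cancel_left, pow_add]
    ring

end Cfsg.Agent.S4798
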