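import Mathlib
import Cfsg.Statements.S4801
import Cfsg.Agent.Lib.CharKernel

set_option autoImplicit false
open Cfsg

namespace Cfsg.Agent.S4801

open Cfsg.Agent.Lib.CharBasic Cfsg.Agent.Lib.CharAvg Cfsg.Agent.Lib.CharInd Cfsg.Agent.Lib.CharKernel

/-- The codegree of an irreducible complex character χ of a finite group G is [G : ker χ] / χ(1), where ker χ is the set of elements at which χ takes the value χ(1). Let S be a finite simple group and G a finite group such that every codegree of an irreducible character of S is a codegree of an irreducible character of G. Then the order of S divides the order of G. -/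
theorem result {S : Type*} [Group S] [Finite S] (hS : IsSimpleGroup S) {G : Type*} [Group G] [Finite G] (hsub : ∀ χ : Cfsg.IrrCharacter S, ∃ ψ : Cfsg.IrrCharacter G, (Nat.card S / (Nat.card {g : S // (χ : S → ℂ) g = (χ : S → ℂ) 1} * Cfsg.charDegree (χ : S → ℂ))) = (Nat.card G / (Nat.card {g : G // (ψ : G → ℂ) g = (ψ : G → ℂ) 1} * Cfsg.charDegree (ψ : G → ℂ)))) : Nat.card S ∣ Nat.card G := by
  classical
  letI : Fintype S := Fintype.ofFinite S
  have hn0 : Nat.card S ≠ 0 := Nat.card_pos.ne'
  have hG0 : Nat.card G ≠ 0 := Nat.card_pos.ne'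
  let χ₀ : IrrCharacter S := ⟨fun _ => 1, isIrrCharacter_one⟩
  apply (Nat.factorization_prime_le_iff_dvd hn0 hG0).mp
  intro r hr
  by_cases hrn : r ∣ Nat.card S
  · -- a nonprincipal character of degree prime to `r`
    have hex : ∃ χ : IrrCharacter S, χ ≠ χ₀ ∧ ¬ r ∣ charDegree (χ : S → ℂ) := by
      by_contra hno
      push Not at hno
      have h1 := sum_charDegree_sq (G := S)
      rw [← Finset.add_sum_erase _ _ (Finset.mem_univ χ₀)] at h1
      have h2 : charDegree (χ₀ : S → ℂ) = 1 := by
        simp [charDegree, χ₀]
      rw [h2] at h1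
      have h3 : r ∣ ∑ χ ∈ Finset.univ.erase χ₀, (charDegree (χ : S → ℂ)) ^ 2 := by
        refine Finset.dvd_sum fun χ hχ => ?_
        exact dvd_pow (hno χ (Finset.ne_of_mem_erase hχ)) two_ne_zero
      have h4 : r ∣ 1 := by
        have := (Nat.dvd_add_left h3).mp (h1 ▸ hrn)
        simpa using this
      exact hr.one_lt.ne' (Nat.dvd_one.mp h4)
    obtain ⟨χ, hχ0, hχr⟩ := hex
    have hc := IsIrrCharacter.isCharacter χ.2
    -- kernel is trivial
    have hker : Nat.card {g : S // (χ : S → ℂ) g = (χ : S → ℂ) 1} = 1 := by
      rw [card_ker_subtype hc]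
      rcases (inferInstance : (charKer hc).Normal).eq_bot_or_eq_top with h | h
      · rw [h]; simp
      · exfalso
        apply hχ0
        apply Subtype.ext
        by_contra hne
        have h1 := classInner_irr_ne χ.2 χ₀.2 hne
        have h2 : ∀ g : S, (χ : S → ℂ) g = (χ : S → ℂ) 1 := by
          intro g
          have : g ∈ charKer hc := by rw [h]; trivial
          exact this
        unfold classInner at h1
        have h3 : ∀ g : S, (χ : S → ℂ) g * (starRingEnd ℂ) ((χ₀ : S → ℂ) g) = (χ : S → ℂ) 1 := by
          intro g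
          rw [h2 g]
          simp [χ₀]
        simp only [h3, Finset.sum_const, Finset.card_univ, nsmul_eq_mul] at h1
        rw [← Nat.card_eq_fintype_card] at h1
        have hS0 : (Nat.card S : ℂ) ≠ 0 := by exact_mod_cast hn0
        rw [inv_mul_cancel_left₀ hS0] at h1
        exact irr_one_ne_zero χ.2 h1
    obtain ⟨ψ, hψ⟩ := hsub χ
    have hdvd := codegree_dvd_card ψ.2
    rw [← hψ, hker, one_mul] at hdvd
    have hmul := Nat.div_mul_cancel (charDegree_dvd_card χ.2)
    have hc0 : Nat.card S / charDegree (χ : S → ℂ) ≠ 0 := by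
      intro h
      rw [h, zero_mul] at hmul
      exact hn0 hmul.symm
    have hd0 := charDegree_ne_zero χ.2
    calc (Nat.card S).factorization r
        = (Nat.card S / charDegree (χ : S → ℂ) * charDegree (χ : S → ℂ)).factorization r := by rw [hmul]
      _ = (Nat.card S / charDegree (χ : S → ℂ)).factorization r + (charDegree (χ : S → ℂ)).factorization r := by
          rw [Nat.factorization_mul hc0 hd0]; rfl
      _ = (Nat.card S / charDegree (χ : S → ℂ)).factorization r := by
          rw [Nat.factorization_eq_zero_of_not_dvd hχr, add_zero]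
      _ ≤ (Nat.card G).factorization r := (Nat.factorization_le_iff_dvd hc0 hG0).mpr hdvd r
  · rw [Nat.factorization_eq_zero_of_not_dvd hrn]
    exact Nat.zero_le _

end Cfsg.Agent.S4801
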