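import Mathlib
import Cfsg.Statements.S4802
import Cfsg.Agent.Lib.CharNormal

set_option autoImplicit false
open Cfsg

namespace Cfsg.Agent.S4802

open Cfsg.Agent.Lib.CharBasic Cfsg.Agent.Lib.CharAvg Cfsg.Agent.Lib.CharInd Cfsg.Agent.Lib.CharNormal
open scoped ComplexConjugate

/-- Let N < M be normal subgroups of the finite group G and g ∈ M ∖ N. Then the conjugacy class of g is exactly M ∖ N if and only if every irreducible complex character of G whose kernel contains N takes the same value at all elements of M ∖ N, and every irreducible complex character of G whose kernel does not contain N vanishes at g. -/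
theorem result {G : Type*} [Group G] [Finite G] (N M : Subgroup G) [N.Normal] [M.Normal] (hNM : N < M) (g : G) (hgM : g ∈ M) (hgN : g ∉ N) : {h : G | IsConj g h} = (M : Set G) \ (N : Set G) ↔ ((∀ χ : Cfsg.IrrCharacter G, (∀ x ∈ N, (χ : G → ℂ) x = (χ : G → ℂ) 1) → ∀ x ∈ M, x ∉ N → ∀ y ∈ M, y ∉ N → (χ : G → ℂ) x = (χ : G → ℂ) y) ∧ (∀ χ : Cfsg.IrrCharacter G, (∃ x ∈ N, (χ : G → ℂ) x ≠ (χ : G → ℂ) 1) → (χ : G → ℂ) g = 0)) := by
  classical
  haveI := Fintype.ofFinite G
  have hcl : ∀ (χ : IrrCharacter G) (a c : G), (χ : G → ℂ) (c * a * c⁻¹) = (χ : G → ℂ) a := fun χ a c =>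
    isClassFunction_of_isCharacter (IsIrrCharacter.isCharacter χ.2) a c
  have hconj : ∀ (χ : IrrCharacter G) (a : G), IsConj g a → (χ : G → ℂ) a = (χ : G → ℂ) g := by
    intro χ a ha
    obtain ⟨c, rfl⟩ := isConj_iff.mp ha
    exact hcl χ g c
  have hsub : {h : G | IsConj g h} ⊆ (M : Set G) \ (N : Set G) := by
    intro h hh
    obtain ⟨c, rfl⟩ := isConj_iff.mp hh
    refine ⟨(inferInstance : M.Normal).conj_mem g hgM c, fun hc => hgN ?_⟩
    have := (inferInstance : N.Normal).conj_mem _ hc c⁻¹
    simpa [mul_assoc] using this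
  constructor
  · intro hEq
    have hmem : ∀ x ∈ M, x ∉ N → IsConj g x := by
      intro x hxM hxN
      have : x ∈ {h : G | IsConj g h} := by
        rw [hEq]
        exact ⟨hxM, hxN⟩
      exact this
    refine ⟨?_, ?_⟩
    · intro χ _ x hxM hxN y hyM hyN
      rw [hconj χ x (hmem x hxM hxN), hconj χ y (hmem y hyM hyN)]
    · intro χ hχ
      have h0 := sum_mul_normal_eq_zero χ.2 N hχ g
      have h1 : ∀ n : N, (χ : G → ℂ) (g * n) = (χ : G → ℂ) g := by
        intro n
        apply hconj
        apply hmem
        · exact M.mul_mem hgM (hNM.le n.2)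
        · intro hc
          apply hgN
          have := N.mul_mem hc (N.inv_mem n.2)
          simpa using this
      simp only [h1, Finset.sum_const, Finset.card_univ, nsmul_eq_mul] at h0
      have h2 : (Fintype.card N : ℂ) ≠ 0 := by
        exact_mod_cast Fintype.card_pos.ne'
      exact (mul_eq_zero.mp h0).resolve_left h2
  · rintro ⟨hA, hB⟩
    -- the set T
    let T : Finset G := Finset.univ.filter (fun x => x ∈ M ∧ x ∉ N)
    have hT : ∀ x, x ∈ T ↔ x ∈ M ∧ x ∉ N := by
      intro x; simp [T]
    let f : G → ℂ := fun x => if x ∈ T then 1 else 0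
    have hf : IsClassFunction G f := by
      intro a c
      have : c * a * c⁻¹ ∈ T ↔ a ∈ T := by
        rw [hT, hT]
        constructor
        · rintro ⟨h1, h2⟩
          refine ⟨?_, fun hc => h2 ((inferInstance : N.Normal).conj_mem a hc c)⟩
          have := (inferInstance : M.Normal).conj_mem _ h1 c⁻¹
          simpa [mul_assoc] using this
        · rintro ⟨h1, h2⟩
          refine ⟨(inferInstance : M.Normal).conj_mem a h1 c, fun hc => h2 ?_⟩
          have := (inferInstance : N.Normal).conj_mem _ hc c⁻¹
          simpa [mul_assoc] using this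
      simp only [f, this]
    have hGne : (Nat.card G : ℂ) ≠ 0 := natCard_ne_zero'
    have hgT : g ∈ T := (hT g).mpr ⟨hgM, hgN⟩
    have hinner : ∀ χ : IrrCharacter G, classInner f χ * (χ : G → ℂ) g =
        (Nat.card G : ℂ)⁻¹ * (T.card : ℂ) * ((χ : G → ℂ) g * conj ((χ : G → ℂ) g)) := by
      intro χ
      by_cases hχ : ∃ x ∈ N, (χ : G → ℂ) x ≠ (χ : G → ℂ) 1
      · rw [hB χ hχ]
        ring
      · push Not at hχ
        have hval : ∀ x ∈ T, (χ : G → ℂ) x = (χ : G → ℂ) g := by
          intro x hx
          obtain ⟨h1, h2⟩ := (hT x).mp hx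
          exact hA χ hχ x h1 h2 g hgM hgN
        have h3 : classInner f χ = (Nat.card G : ℂ)⁻¹ * ((T.card : ℂ) * conj ((χ : G → ℂ) g)) := by
          unfold classInner
          congr 1
          have : ∀ x : G, f x * conj ((χ : G → ℂ) x) = if x ∈ T then conj ((χ : G → ℂ) g) else 0 := by
            intro x
            simp only [f]
            split_ifs with hx
            · rw [hval x hx, one_mul]
            · rw [zero_mul]
          simp only [this]
          rw [Finset.sum_ite_mem, Finset.univ_inter, Finset.sum_const, nsmul_eq_mul]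
        rw [h3]
        ring
    have hval := congrFun (classFunction_eq_sum hf) g
    simp only [Finset.sum_apply, Pi.smul_apply, smul_eq_mul] at hval
    have hfg : f g = 1 := by simp [f, hgT]
    rw [hfg] at hval
    simp only [hinner] at hval
    rw [← Finset.mul_sum, sum_irr_mul_conj g g, if_pos (IsConj.refl _)] at hval
    have hcard := card_conj_mul_card_centralizer g
    have hnat : T.card * Nat.card (Subgroup.centralizer ({g} : Set G)) = Nat.card G := by
      have : (Nat.card G : ℂ) = (T.card : ℂ) * (Nat.card (Subgroup.centralizer ({g} : Set G)) : ℂ) := by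
        field_simp at hval
        linear_combination hval
      exact_mod_cast this.symm
    have hcardEq : Nat.card {x : G // IsConj g x} = T.card := by
      have hpos : 0 < Nat.card (Subgroup.centralizer ({g} : Set G)) := Nat.card_pos
      exact Nat.eq_of_mul_eq_mul_right hpos (hcard.trans hnat.symm)
    -- conclude
    let C : Finset G := Finset.univ.filter (fun x => IsConj g x)
    have hC : C ⊆ T := by
      intro x hx
      rw [hT]
      have hx' : IsConj g x := by simpa [C] using hx
      exact hsub hx'
    have hCcard : C.card = T.card := by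
      rw [← hcardEq, Nat.card_eq_fintype_card, Fintype.card_subtype]
    have hCT : C = T := Finset.eq_of_subset_of_card_le hC hCcard.ge
    ext x
    constructor
    · intro hx
      exact hsub hx
    · intro hx
      have : x ∈ T := (hT x).mpr ⟨hx.1, hx.2⟩
      rw [← hCT] at this
      simpa [C] using this

end Cfsg.Agent.S4802
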