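import Mathlib
import Cfsg.Statements.S4808
import Cfsg.Agent.Lib.CharKernel

set_option autoImplicit false
open Cfsg

namespace Cfsg.Agent.S4808

open Cfsg.Agent.Lib.CharBasic Cfsg.Agent.Lib.CharAvg Cfsg.Agent.Lib.CharInd Cfsg.Agent.Lib.CharKernel

/-- The codegree of an irreducible complex character χ of a finite group G is [G : ker χ] / χ(1), where ker χ is the set of elements at which χ takes the value χ(1). A prime divides the order of G if and only if it divides the codegree of some irreducible complex character of G. -/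
theorem result {G : Type*} [Group G] [Finite G] (p : ℕ) (hp : p.Prime) : p ∣ Nat.card G ↔ ∃ χ : Cfsg.IrrCharacter G, p ∣ (Nat.card G / (Nat.card {g : G // (χ : G → ℂ) g = (χ : G → ℂ) 1} * Cfsg.charDegree (χ : G → ℂ))) := by
  classical
  letI : Fintype G := Fintype.ofFinite G
  haveI : Fact p.Prime := ⟨hp⟩
  constructor
  swap
  · rintro ⟨χ, hχ⟩
    exact hχ.trans (codegree_dvd_card χ.2)
  intro hpG
  by_contra hno
  push Not at hno
  -- maximal normal subgroup of index divisible by `p`
  obtain ⟨N, -, hN⟩ := Finite.exists_le_maximal (α := Subgroup G)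
    (p := fun N => N.Normal ∧ p ∣ N.index) (a := ⊥)
    ⟨inferInstance, by rwa [Subgroup.index_bot]⟩
  obtain ⟨hNn, hNp⟩ := hN.prop
  have hmax : ∀ M : Subgroup G, M.Normal → N ≤ M → M ≠ N → ¬ p ∣ M.index := by
    intro M hMn hNM hne hdvd
    exact hne (le_antisymm (hN.le_of_ge ⟨hMn, hdvd⟩ hNM) hNM)
  -- element of order `p` modulo `N`
  obtain ⟨y, hy⟩ := exists_prime_orderOf_dvd_card' (G := G ⧸ N) p (by rwa [← Subgroup.index_eq_card])
  obtain ⟨x, rfl⟩ := QuotientGroup.mk_surjective y
  have hxN : x ∉ N := by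
    intro hx
    have : ((x : G ⧸ N)) = 1 := (QuotientGroup.eq_one_iff x).mpr hx
    rw [this, orderOf_one] at hy
    exact hp.one_lt.ne hy
  have hxp : x ^ p ∈ N := by
    rw [← QuotientGroup.eq_one_iff, QuotientGroup.mk_pow, ← hy]
    exact pow_orderOf_eq_one _
  -- the normal subgroup `L`
  let L : Subgroup G := N ⊔ Subgroup.normalClosure {x}
  haveI hLn : L.Normal := Subgroup.sup_normal _ _
  have hxL : x ∈ L := Subgroup.mem_sup_right (Subgroup.subset_normalClosure rfl)
  have hNL : N ≤ L := le_sup_left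
  have hLp : ¬ p ∣ L.index := by
    apply hmax L hLn hNL
    intro h
    exact hxN (h ▸ hxL)
  -- characters with `N` in the kernel, not `L`
  have hdeg : ∀ χ : IrrCharacter G, (∀ n ∈ N, (χ : G → ℂ) n = (χ : G → ℂ) 1) →
      ¬ (∀ l ∈ L, (χ : G → ℂ) l = (χ : G → ℂ) 1) → p ∣ charDegree (χ : G → ℂ) := by
    intro χ hP hQ
    have hc := IsIrrCharacter.isCharacter χ.2
    have hNK : N ≤ charKer hc := hP
    have hKN : charKer hc = N := by
      by_contra hne
      have hKp := hmax _ inferInstance hNK hne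
      apply hQ
      -- `x` lies in the kernel
      have hx1 : ((x : G ⧸ charKer hc)) ^ p = 1 := by
        rw [← QuotientGroup.mk_pow, QuotientGroup.eq_one_iff]
        exact hNK hxp
      have hx2 : ((x : G ⧸ charKer hc)) ^ (charKer hc).index = 1 := by
        rw [Subgroup.index_eq_card]
        exact pow_card_eq_one'
      have hx3 := pow_gcd_eq_one.mpr ⟨hx1, hx2⟩
      have hcop : Nat.gcd p (charKer hc).index = 1 := (Nat.Prime.coprime_iff_not_dvd hp).mpr hKp
      rw [hcop, pow_one, QuotientGroup.eq_one_iff] at hx3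
      have hLK : L ≤ charKer hc := by
        apply sup_le hNK
        exact Subgroup.normalClosure_le_normal (by simpa using hx3)
      intro l hl
      exact hLK hl
    -- the codegree relation
    have hk : Nat.card {g : G // (χ : G → ℂ) g = (χ : G → ℂ) 1} = Nat.card N := by
      rw [card_ker_subtype hc, hKN]
    have hc0 := hno χ
    have h1 := codegree_mul χ.2
    set c := Nat.card G / (Nat.card {g : G // (χ : G → ℂ) g = (χ : G → ℂ) 1} * charDegree (χ : G → ℂ)) with hcdef
    rw [hk] at h1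
    have hcard := Subgroup.card_mul_index N
    have h2 : c * charDegree (χ : G → ℂ) = N.index := by
      have hNpos : 0 < Nat.card N := Nat.card_pos
      apply Nat.eq_of_mul_eq_mul_left hNpos
      rw [hcard, ← h1]
      ring
    have h3 : p ∣ c * charDegree (χ : G → ℂ) := h2 ▸ hNp
    exact (hp.dvd_mul.mp h3).resolve_left hc0
  -- the orthogonality sum
  have hsum := sum_ker_deg_mul N x
  rw [if_neg hxN] at hsum
  have hNne : (Nat.card N : ℂ) ≠ 0 := by exact_mod_cast Nat.card_pos.ne'
  have hsum0 := (mul_eq_zero.mp hsum).resolve_left hNne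
  have hsq := sum_ker_deg_sq L
  set A := ∑ χ : IrrCharacter G, (if ∀ n ∈ L, (χ : G → ℂ) n = (χ : G → ℂ) 1 then
        (charDegree (χ : G → ℂ)) ^ 2 else 0) with hA
  have hAindex : A = L.index := by
    have hLpos : 0 < Nat.card L := Nat.card_pos
    apply Nat.eq_of_mul_eq_mul_left hLpos
    rw [hsq, Subgroup.card_mul_index]
  let b : IrrCharacter G → ℂ := fun χ =>
    if (∀ n ∈ N, (χ : G → ℂ) n = (χ : G → ℂ) 1) ∧ ¬ (∀ l ∈ L, (χ : G → ℂ) l = (χ : G → ℂ) 1) then
      ((charDegree (χ : G → ℂ) / p : ℕ) : ℂ) * (χ : G → ℂ) x else 0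
  have hpt : ∀ χ : IrrCharacter G, (if ∀ n ∈ N, (χ : G → ℂ) n = (χ : G → ℂ) 1 then
        (χ : G → ℂ) 1 * (χ : G → ℂ) x else 0) =
      ((if ∀ n ∈ L, (χ : G → ℂ) n = (χ : G → ℂ) 1 then (charDegree (χ : G → ℂ)) ^ 2 else 0 : ℕ) : ℂ) +
        (p : ℂ) * b χ := by
    intro χ
    have hone := one_eq_charDegree (IsIrrCharacter.isCharacter χ.2)
    by_cases hQ : ∀ l ∈ L, (χ : G → ℂ) l = (χ : G → ℂ) 1
    · have hP : ∀ n ∈ N, (χ : G → ℂ) n = (χ : G → ℂ) 1 := fun n hn => hQ n (hNL hn)
      simp only [b]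
      rw [if_pos hP, if_pos hQ, if_neg (by tauto), hQ x hxL, hone]
      push_cast
      ring
    · by_cases hP : ∀ n ∈ N, (χ : G → ℂ) n = (χ : G → ℂ) 1
      · simp only [b]
        rw [if_pos hP, if_neg hQ, if_pos ⟨hP, hQ⟩, hone]
        have hd := hdeg χ hP hQ
        have h4 : (charDegree (χ : G → ℂ) : ℂ) = (p : ℂ) * ((charDegree (χ : G → ℂ) / p : ℕ) : ℂ) := by
          exact_mod_cast (Nat.mul_div_cancel' hd).symm
        rw [Nat.cast_zero, zero_add, ← mul_assoc, ← h4]
      · simp only [b]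
        rw [if_neg hP, if_neg hQ, if_neg (by tauto)]
        simp
  simp only [hpt] at hsum0
  rw [Finset.sum_add_distrib, ← Finset.mul_sum] at hsum0
  rw [← Nat.cast_sum, ← hA] at hsum0
  have hint : IsIntegral ℤ (∑ χ : IrrCharacter G, b χ) := by
    refine IsIntegral.sum _ fun χ _ => ?_
    simp only [b]
    split_ifs
    · obtain ⟨n, ρ, hρ, hρχ⟩ := χ.2
      refine IsIntegral.mul (isIntegral_natCast _) ?_
      rw [← hρχ]
      exact Cfsg.Agent.Lib.CharValues.isIntegral_character ρ x
    · exact isIntegral_zero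
  have hp0 : (p : ℂ) ≠ 0 := by exact_mod_cast hp.ne_zero
  have hdiv : (A : ℂ) / (p : ℂ) = - ∑ χ : IrrCharacter G, b χ := by
    field_simp
    linear_combination hsum0
  have hint2 : IsIntegral ℤ ((A : ℂ) / (p : ℂ)) := by
    rw [hdiv]
    exact hint.neg
  have hfinal := Cfsg.Agent.Lib.CharIntegrality.dvd_of_isIntegral_div hp.ne_zero hint2
  rw [hAindex] at hfinal
  exact hLp hfinal

end Cfsg.Agent.S4808
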