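import Mathlib
import Cfsg.Prelude.Def_DegreeGraph
import Cfsg.Agent.Lib.CharTwist
import Cfsg.Agent.Lib.CliffDvd
import Cfsg.Agent.Lib.CharCoprime
import Cfsg.Agent.Lib.NonlinPrime
import Cfsg.Agent.Lib.LinTwist
import Cfsg.Agent.Lib.DegreeDiv
import Cfsg.Agent.Lib.RealChars

set_option autoImplicit false
set_option linter.style.haveILetI false
set_option linter.unusedSectionVars false
open Cfsg
open Cfsg.Agent.Lib.CharBasic Cfsg.Agent.Lib.CharInd Cfsg.Agent.Lib.CharKernel
  Cfsg.Agent.Lib.CharInduction Cfsg.Agent.Lib.CharClifford Cfsg.Agent.Lib.CharTwist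
open scoped ComplexConjugate

namespace Cfsg.Agent.S4813

universe u v

section Expand

variable {G : Type u} [Group G] [Fintype G] {Q : Type v} [CommGroup Q] [Finite Q] (π : G →* Q)

theorem card_eq_mul (hπ : Function.Surjective π) (N : Subgroup G) (hN : ∀ g, π g = 1 ↔ g ∈ N) :
    Nat.card G = Nat.card N * Nat.card Q := by
  have h5 : Nat.card N = Nat.card π.ker := by
    congr 2
    ext g
    rw [MonoidHom.mem_ker, hN]
  rw [h5]
  have h6 := Subgroup.card_mul_index π.ker
  rw [Subgroup.index_ker, MonoidHom.range_eq_top.mpr hπ, Subgroup.card_top] at h6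
  exact h6.symm

/-- If `|ψ|²` is constant on cosets of `N` then it is the sum of the characters in the twist
stabilizer. -/
theorem sq_expand (hπ : Function.Surjective π) (N : Subgroup G) (hN : ∀ g, π g = 1 ↔ g ∈ N)
    [Fintype N] [Fintype (Q →* ℂˣ)] {ψ : G → ℂ} (hψ : IsIrrCharacter G ψ)
    (hK : ∀ g, ∀ n ∈ N, ψ (n * g) * conj (ψ (n * g)) = ψ g * conj (ψ g)) (g : G)
    [DecidablePred (· ∈ twistStab π ψ)] :
    ψ g * conj (ψ g) = ∑ l : Q →* ℂˣ, if l ∈ twistStab π ψ then ((l (π g) : ℂˣ) : ℂ) else 0 := by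
  classical
  have h1 : ∀ l : Q →* ℂˣ, classInner (twist π ψ l) ψ = if l ∈ twistStab π ψ then 1 else 0 := by
    intro l
    rw [classInner_irr (isIrrCharacter_twist π hψ l) hψ]
    simp only [mem_twistStab]
  -- reindex
  have h2 : (∑ l : Q →* ℂˣ, if l ∈ twistStab π ψ then ((l (π g) : ℂˣ) : ℂ) else 0) =
      ∑ l : Q →* ℂˣ, classInner (twist π ψ l) ψ * ((l (π g⁻¹) : ℂˣ) : ℂ) := by
    refine Fintype.sum_equiv (Equiv.inv (Q →* ℂˣ)) _ _ (fun l => ?_)
    have h3 : l⁻¹ ∈ twistStab π ψ ↔ l ∈ twistStab π ψ := (twistStab π ψ).inv_mem_iff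
    simp only [Equiv.inv_apply]
    rw [h1]
    by_cases hl : l ∈ twistStab π ψ
    · rw [if_pos hl, if_pos (h3.2 hl), one_mul]
      simp
    · rw [if_neg hl, if_neg (fun h => hl (h3.1 h)), zero_mul]
  rw [h2]
  have h4 : ∀ l : Q →* ℂˣ, classInner (twist π ψ l) ψ * ((l (π g⁻¹) : ℂˣ) : ℂ) =
      (Nat.card G : ℂ)⁻¹ * ∑ x : G, ψ x * conj (ψ x) * ((l (π (x * g⁻¹)) : ℂˣ) : ℂ) := by
    intro l
    unfold classInner
    rw [mul_assoc, Finset.sum_mul]
    congr 1
    refine Finset.sum_congr rfl fun x _ => ?_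
    rw [twist_apply, map_mul, map_mul, Units.val_mul]
    ring
  simp_rw [h4]
  rw [← Finset.mul_sum, Finset.sum_comm]
  have h5 : ∀ x : G, ∑ l : Q →* ℂˣ, ψ x * conj (ψ x) * ((l (π (x * g⁻¹)) : ℂˣ) : ℂ) =
      ψ x * conj (ψ x) * (if π (x * g⁻¹) = 1 then (Nat.card Q : ℂ) else 0) := by
    intro x
    rw [← Finset.mul_sum, sum_hom]
  simp_rw [h5]
  -- reindex by `x = n * g`
  have h6 : ∑ x : G, ψ x * conj (ψ x) * (if π (x * g⁻¹) = 1 then (Nat.card Q : ℂ) else 0) =
      ∑ y : G, ψ (y * g) * conj (ψ (y * g)) * (if π y = 1 then (Nat.card Q : ℂ) else 0) := by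
    refine (Fintype.sum_equiv (Equiv.mulRight g) _ _ (fun y => ?_)).symm
    simp
  rw [h6]
  have h7 : ∑ y : G, ψ (y * g) * conj (ψ (y * g)) * (if π y = 1 then (Nat.card Q : ℂ) else 0) =
      ∑ y : G, if y ∈ N then ψ g * conj (ψ g) * (Nat.card Q : ℂ) else 0 := by
    refine Finset.sum_congr rfl fun y _ => ?_
    by_cases hy : y ∈ N
    · rw [if_pos hy, if_pos ((hN y).2 hy), hK g y hy]
    · rw [if_neg hy, if_neg (fun h => hy ((hN y).1 h)), mul_zero]
  rw [h7, Finset.sum_ite, Finset.sum_const_zero, add_zero, Finset.sum_const, nsmul_eq_mul]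
  have h8 : ((Finset.univ.filter fun y : G => y ∈ N).card : ℕ) = Nat.card N := by
    rw [Nat.card_eq_fintype_card, Fintype.card_subtype]
  rw [h8, card_eq_mul π hπ N hN]
  have hN0 : (Nat.card N : ℂ) ≠ 0 := by exact_mod_cast Nat.card_pos.ne'
  have hQ0 : (Nat.card Q : ℂ) ≠ 0 := by exact_mod_cast Nat.card_pos.ne'
  push_cast
  field_simp

/-- The norm of a product. -/
theorem inner_mul (hπ : Function.Surjective π) (N : Subgroup G) (hN : ∀ g, π g = 1 ↔ g ∈ N)
    [Fintype N] {ψ φ : G → ℂ} (hψ : IsIrrCharacter G ψ) (hφ : IsIrrCharacter G φ)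
    (hK : ∀ g, ∀ n ∈ N, ψ (n * g) * conj (ψ (n * g)) = ψ g * conj (ψ g)) :
    classInner (fun g => ψ g * φ g) (fun g => ψ g * φ g) =
      (Nat.card ↥(twistStab π ψ ⊓ twistStab π φ) : ℂ) := by
  classical
  letI : Fintype (Q →* ℂˣ) := Fintype.ofFinite _
  have h1 : ∀ l : Q →* ℂˣ, classInner (twist π φ l) φ = if l ∈ twistStab π φ then 1 else 0 := by
    intro l
    rw [classInner_irr (isIrrCharacter_twist π hφ l) hφ]
    simp only [mem_twistStab]
  have h2 : (Nat.card ↥(twistStab π ψ ⊓ twistStab π φ) : ℂ) =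
      ∑ l : Q →* ℂˣ, if l ∈ twistStab π ψ then classInner (twist π φ l) φ else 0 := by
    simp only [h1]
    rw [Nat.card_eq_fintype_card, Fintype.card_subtype]
    rw [Finset.card_filter]
    push_cast
    refine Finset.sum_congr rfl fun l _ => ?_
    by_cases h3 : l ∈ twistStab π ψ <;> by_cases h4 : l ∈ twistStab π φ <;>
      simp [Subgroup.mem_inf, h3, h4]
  rw [h2]
  unfold classInner
  have h3 : ∀ g : G, ψ g * φ g * conj (ψ g * φ g) =
      ∑ l : Q →* ℂˣ, if l ∈ twistStab π ψ then φ g * ((l (π g) : ℂˣ) : ℂ) * conj (φ g) else 0 := by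
    intro g
    have h4 := sq_expand π hπ N hN hψ hK g
    rw [map_mul]
    calc ψ g * φ g * (conj (ψ g) * conj (φ g)) = (ψ g * conj (ψ g)) * (φ g * conj (φ g)) := by ring
      _ = _ := by
        rw [h4, Finset.sum_mul]
        refine Finset.sum_congr rfl fun l _ => ?_
        split_ifs
        · ring
        · ring
  simp_rw [h3]
  rw [Finset.sum_comm, Finset.mul_sum]
  refine Finset.sum_congr rfl fun l _ => ?_
  by_cases hl : l ∈ twistStab π ψ
  · simp only [hl, if_true, twist_apply]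
  · simp [hl]

end Expand

section Classify

variable {G : Type u} [Group G] [Fintype G] {Q : Type v} [CommGroup Q] [Finite Q] (π : G →* Q)

theorem nat_triple {e t c d : ℕ} (hd : d.Prime) (h : d = e * t * c) :
    (e = 1 ∧ t = 1 ∧ c = d) ∨ (e = 1 ∧ t = d ∧ c = 1) ∨ (e = d ∧ t = 1 ∧ c = 1) := by
  have h1 : e * (t * c) = d := by rw [h]; ring
  rcases (Nat.dvd_prime hd).1 ⟨t * c, h1.symm⟩ with h2 | h2
  · subst h2
    rw [one_mul] at h1
    rcases (Nat.dvd_prime hd).1 ⟨c, h1.symm⟩ with h3 | h3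
    · subst h3
      left
      simpa using h1
    · subst h3
      right; left
      have : c = 1 := by
        have h4 : t * c = t * 1 := by rw [h1, mul_one]
        exact Nat.eq_of_mul_eq_mul_left hd.pos h4
      exact ⟨rfl, rfl, this⟩
  · subst h2
    have h4 : e * (t * c) = e * 1 := by rw [h1, mul_one]
    have h5 : t * c = 1 := Nat.eq_of_mul_eq_mul_left hd.pos h4
    right; right
    exact ⟨rfl, Nat.eq_one_of_mul_eq_one_right h5, Nat.eq_one_of_mul_eq_one_left h5⟩

theorem exists_constituent (N : Subgroup G) [Fintype N] {χ : G → ℂ} (hχ : IsIrrCharacter G χ) :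
    ∃ θ : N → ℂ, IsIrrCharacter N θ ∧ classInner (fun n : N => χ n) θ ≠ 0 := by
  have hc := IsIrrCharacter.isCharacter hχ
  obtain ⟨m, hm⟩ := exists_nat_decomp (isCharacter_restrict N hc)
  have hex : ∃ i : IrrCharacter N, m i ≠ 0 := by
    by_contra hall
    push Not at hall
    have h0 : (fun h : N => χ h) = 0 := by
      rw [hm]
      simp [hall]
    have := congrFun h0 1
    simp only [OneMemClass.coe_one, Pi.zero_apply] at this
    exact Cfsg.Agent.Lib.CharAvg.irr_one_ne_zero hχ this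
  obtain ⟨i, hi⟩ := hex
  refine ⟨i, i.2, ?_⟩
  rw [hm, classInner_nat_decomp m i i.2]
  exact_mod_cast hi

/-- The three types of an irreducible character of prime degree. -/
theorem classify (hπ : Function.Surjective π) (N : Subgroup G) (hNn : N.Normal) [Fintype N]
    (hN : ∀ g, π g = 1 ↔ g ∈ N) [DecidableEq (N → ℂ)] {χ : G → ℂ} (hχ : IsIrrCharacter G χ)
    (hd : (charDegree χ).Prime) :
    ∃ θ : N → ℂ, IsIrrCharacter N θ ∧ classInner (fun n : N => χ n) θ ≠ 0 ∧
      ((charDegree θ = charDegree χ ∧ Nat.card (twistStab π χ) = 1) ∨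
       (charDegree θ = 1 ∧ (Finset.univ.image (fun g : G => conjBy N hNn g θ)).card = charDegree χ ∧
          Nat.card (twistStab π χ) = charDegree χ) ∨
       (charDegree θ = 1 ∧ (Finset.univ.image (fun g : G => conjBy N hNn g θ)).card = 1 ∧
          Nat.card (twistStab π χ) = (charDegree χ) ^ 2 ∧
          classInner (fun n : N => χ n) θ = (charDegree χ : ℂ))) := by
  obtain ⟨θ, hθ, hc⟩ := exists_constituent N hχ
  refine ⟨θ, hθ, hc, ?_⟩
  obtain ⟨e, he0, hinner, hdeg, hnorm⟩ := clifford_numeric N hNn hχ hθ hc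
  have hcard := card_twistStab π hπ N hN hχ
  rw [hnorm] at hcard
  have hcard' : Nat.card (twistStab π χ) =
      e ^ 2 * (Finset.univ.image (fun g : G => conjBy N hNn g θ)).card := by exact_mod_cast hcard
  rcases nat_triple hd hdeg with ⟨h1, h2, h3⟩ | ⟨h1, h2, h3⟩ | ⟨h1, h2, h3⟩
  · left
    refine ⟨h3, ?_⟩
    rw [hcard', h1, h2]
    norm_num
  · right; left
    refine ⟨h3, h2, ?_⟩
    rw [hcard', h1, h2]
    norm_num
  · right; right
    refine ⟨h3, h2, ?_, ?_⟩
    · rw [hcard', h1, h2, mul_one]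
    · rw [hinner, h1]

end Classify

section Orbit

variable {G : Type u} [Group G] [Fintype G]

open Cfsg.Agent.Lib.DegreeDiv in
theorem card_orbit_eq_index (N : Subgroup G) (hN : N.Normal) [DecidableEq (N → ℂ)] (ψ : N → ℂ) :
    (Finset.univ.image (fun g : G => conjBy N hN g ψ)).card = (inertia N hN ψ).index := by
  classical
  have hT : Nat.card (inertia N hN ψ) = Nat.card {g : G // conjBy N hN g ψ = ψ} := by
    refine Nat.card_congr (Equiv.subtypeEquivRight fun g => ?_)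
    rw [mem_inertia]
    constructor
    · intro h
      funext n
      rw [conjBy_apply]
      exact h n
    · intro h n
      have := congrFun h n
      rwa [conjBy_apply] at this
  have hfib : ∀ a ∈ Finset.univ.image (fun g : G => conjBy N hN g ψ),
      (Finset.univ.filter fun y : G => conjBy N hN y ψ = a).card =
        Nat.card {g : G // conjBy N hN g ψ = ψ} := by
    intro a ha
    obtain ⟨x, -, rfl⟩ := Finset.mem_image.mp ha
    have := card_filter_conjBy_eq N hN ψ x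
    have h2 : (Finset.univ.filter fun y : G => conjBy N hN y ψ = conjBy N hN x ψ) =
        (Finset.univ.filter fun y : G => conjBy N hN x ψ = conjBy N hN y ψ) := by
      ext y
      simp [eq_comm]
    rw [h2, this]
  have hcard := Finset.card_eq_sum_card_image (fun g : G => conjBy N hN g ψ) Finset.univ
  rw [Finset.sum_congr rfl hfib, Finset.sum_const, smul_eq_mul, Finset.card_univ,
    ← Nat.card_eq_fintype_card, ← hT] at hcard
  have h1 := Subgroup.index_mul_card (inertia N hN ψ)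
  rw [hcard] at h1
  have h3 : 0 < Nat.card (inertia N hN ψ) := Nat.card_pos
  exact (Nat.eq_of_mul_eq_mul_right h3 h1).symm

theorem mem_of_pow_mem {H : Subgroup G} {x : G} {a b : ℕ} (hab : Nat.Coprime a b) (ha : x ^ a ∈ H)
    (hb : x ^ b ∈ H) : x ∈ H := by
  have h1 : x = (x ^ a) ^ (Nat.gcdA a b) * (x ^ b) ^ (Nat.gcdB a b) := by
    rw [← zpow_natCast, ← zpow_natCast, ← zpow_mul, ← zpow_mul, ← zpow_add, ← Nat.gcd_eq_gcd_ab, hab]
    simp
  rw [h1]
  exact H.mul_mem (H.zpow_mem ha _) (H.zpow_mem hb _)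

end Orbit

section Main

variable {G : Type u} [Group G] [Finite G]

/-- The hypothesis: all irreducible characters have degree one or a prime. -/
def Hyp (G : Type u) [Group G] : Prop :=
  ∀ χ : G → ℂ, IsIrrCharacter G χ → charDegree χ = 1 ∨ (charDegree χ).Prime

theorem hyp_normal (h : Hyp G) (N : Subgroup G) [hN : N.Normal] : Hyp N := by
  classical
  letI := Fintype.ofFinite G
  letI : Fintype N := Fintype.ofFinite _
  intro θ hθ
  obtain ⟨χ, hχ, hc⟩ := Cfsg.Agent.Lib.CharCoprime.exists_over N hθ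
  have hd := Cfsg.Agent.Lib.CliffDvd.degree_dvd N hθ hχ hc
  rcases h χ hχ with h1 | h1
  · left
    rw [h1] at hd
    exact Nat.dvd_one.1 hd
  · rcases (Nat.dvd_prime h1).1 hd with h2 | h2
    · exact Or.inl h2
    · right
      rw [h2]
      exact h1

theorem invariant_of_nonlinear (h : Hyp G) (N : Subgroup G) (hN : N.Normal) {θ : N → ℂ}
    (hθ : IsIrrCharacter N θ) (hθ1 : charDegree θ ≠ 1) (g : G) : conjBy N hN g θ = θ := by
  classical
  letI := Fintype.ofFinite G
  letI : Fintype N := Fintype.ofFinite _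
  obtain ⟨χ, hχ, hc⟩ := Cfsg.Agent.Lib.CharCoprime.exists_over N hθ
  haveI := hN
  have hd := Cfsg.Agent.Lib.CliffDvd.degree_dvd N hθ hχ hc
  have hpr : (charDegree χ).Prime := by
    rcases h χ hχ with h1 | h1
    · exfalso
      rw [h1] at hd
      exact hθ1 (Nat.dvd_one.1 hd)
    · exact h1
  have hde : charDegree θ = charDegree χ := by
    rcases (Nat.dvd_prime hpr).1 hd with h2 | h2
    · exact absurd h2 hθ1
    · exact h2
  obtain ⟨e, he0, -, hdeg, -⟩ := clifford_numeric N hN hχ hθ hc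
  rw [← hde] at hdeg
  have h3 : e * (Finset.univ.image (fun g : G => conjBy N hN g θ)).card = 1 := by
    have h4 : charDegree θ * 1 = charDegree θ *
        (e * (Finset.univ.image (fun g : G => conjBy N hN g θ)).card) := by
      rw [mul_one]
      conv_lhs => rw [hdeg]
      ring
    have hpos : 0 < charDegree θ := by
      rw [hde]
      exact hpr.pos
    exact (Nat.eq_of_mul_eq_mul_left hpos h4).symm
  have h5 := Nat.eq_one_of_mul_eq_one_left h3
  have h6 := Finset.card_le_one.1 h5.le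
  have m1 : conjBy N hN g θ ∈ Finset.univ.image (fun g : G => conjBy N hN g θ) :=
    Finset.mem_image.2 ⟨g, Finset.mem_univ _, rfl⟩
  have m2 : θ ∈ Finset.univ.image (fun g : G => conjBy N hN g θ) :=
    Finset.mem_image.2 ⟨1, Finset.mem_univ _, conjBy_one N hN θ⟩
  exact h6 _ m1 _ m2

theorem charDegree_mul_of_prime {ψ φ : G → ℂ} (hψ : IsCharacter G ψ) (hφ : IsCharacter G φ) :
    charDegree (fun g => ψ g * φ g) = charDegree ψ * charDegree φ := by
  apply Cfsg.Agent.Lib.LinTwist.charDegree_eq_of_one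
  show ψ 1 * φ 1 = _
  rw [one_eq_charDegree hψ, one_eq_charDegree hφ]
  push_cast
  ring

theorem coprime_of_trichotomy {a b x y : ℕ} (ha : a.Prime) (hb : b.Prime) (hab : a ≠ b)
    (hx : x = 1 ∨ x = a ∨ x = a ^ 2) (hy : y = 1 ∨ y = b ∨ y = b ^ 2) : Nat.Coprime x y := by
  have h1 : Nat.Coprime a b := (Nat.coprime_primes ha hb).2 hab
  rcases hx with rfl | rfl | rfl <;> rcases hy with rfl | rfl | rfl <;>
    first
      | exact Nat.coprime_one_left _
      | exact Nat.coprime_one_right _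
      | exact h1
      | exact Nat.Coprime.pow_left _ h1
      | exact Nat.Coprime.pow_right _ h1
      | exact Nat.Coprime.pow _ _ h1

theorem stab_card_trichotomy {Q : Type v} [CommGroup Q] [Finite Q] (π : G →* Q)
    (hπ : Function.Surjective π) (N : Subgroup G) (hNn : N.Normal) (hN : ∀ g, π g = 1 ↔ g ∈ N)
    {χ : G → ℂ} (hχ : IsIrrCharacter G χ) (hd : (charDegree χ).Prime) :
    Nat.card (twistStab π χ) = 1 ∨ Nat.card (twistStab π χ) = charDegree χ ∨
      Nat.card (twistStab π χ) = charDegree χ ^ 2 := by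
  classical
  letI := Fintype.ofFinite G
  letI : Fintype N := Fintype.ofFinite _
  obtain ⟨θ, -, -, h | h | h⟩ := classify π hπ N hNn hN hχ hd
  · exact Or.inl h.2
  · exact Or.inr (Or.inl h.2.2)
  · exact Or.inr (Or.inr h.2.2.1)

/-- Type III is impossible next to a character of another prime degree. -/
theorem no_typeIII (h : Hyp G) {Q : Type v} [CommGroup Q] [Finite Q] (π : G →* Q)
    (hπ : Function.Surjective π) (N : Subgroup G) (hNn : N.Normal) (hN : ∀ g, π g = 1 ↔ g ∈ N)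
    [Fintype G] [Fintype N] [DecidableEq (N → ℂ)] {ψ φ : G → ℂ} (hψ : IsIrrCharacter G ψ)
    (hφ : IsIrrCharacter G φ) (hψd : (charDegree ψ).Prime) (hφd : (charDegree φ).Prime)
    (hne : charDegree ψ ≠ charDegree φ) {θ : N → ℂ} (hθ : IsIrrCharacter N θ)
    (hc : classInner (fun n : N => ψ n) θ ≠ 0) (h1 : charDegree θ = 1)
    (h2 : (Finset.univ.image (fun g : G => conjBy N hNn g θ)).card = 1)
    (h3 : Nat.card (twistStab π ψ) = (charDegree ψ) ^ 2)
    (h4 : classInner (fun n : N => ψ n) θ = (charDegree ψ : ℂ)) : False := by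
  classical
  have hψc := IsIrrCharacter.isCharacter hψ
  have hφc := IsIrrCharacter.isCharacter hφ
  have hsum := restrict_eq_smul_sum N hNn hψ hθ hc
  obtain ⟨a, ha⟩ := Finset.card_eq_one.1 h2
  have hθm : θ ∈ Finset.univ.image (fun g : G => conjBy N hNn g θ) :=
    Finset.mem_image.2 ⟨1, Finset.mem_univ _, conjBy_one N hNn θ⟩
  have ha' : a = θ := by
    rw [ha] at hθm
    exact (Finset.mem_singleton.1 hθm).symm
  rw [ha, ha', Finset.sum_singleton, h4] at hsum
  have hval : ∀ n : N, ψ n = (charDegree ψ : ℂ) * θ n := fun n => by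
    simpa using congrFun hsum n
  obtain ⟨f, hf⟩ := Cfsg.Agent.Lib.LinTwist.exists_hom_of_charDegree hθ h1
  have hξ : IsCharacter G (fun g => ψ g * conj (ψ g)) :=
    isCharacter_mul hψc (Cfsg.Agent.Lib.RealChars.isCharacter_conj hψc)
  have hone : ψ 1 = (charDegree ψ : ℂ) := one_eq_charDegree hψc
  have hK : ∀ g, ∀ n ∈ N, ψ (n * g) * conj (ψ (n * g)) = ψ g * conj (ψ g) := by
    intro g n hn
    apply char_mul_of_mem_ker' hξ
    have h5 := hval ⟨n, hn⟩
    have h6 := hom_mul_conj f ⟨n, hn⟩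
    rw [← hf] at h6
    show ψ n * conj (ψ n) = ψ 1 * conj (ψ 1)
    simp only at h5
    rw [h5, hone, map_mul, map_natCast]
    linear_combination ((charDegree ψ : ℂ) * (charDegree ψ : ℂ)) * h6
  have hinner := inner_mul π hπ N hN hψ hφ hK
  have hcop : Nat.Coprime (Nat.card (twistStab π ψ)) (Nat.card (twistStab π φ)) := by
    apply coprime_of_trichotomy hψd hφd hne
    · exact Or.inr (Or.inr h3)
    · exact stab_card_trichotomy π hπ N hNn hN hφ hφd
  have hbot := Subgroup.inf_eq_bot_of_coprime hcop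
  rw [hbot] at hinner
  have hcard : Nat.card (⊥ : Subgroup (Q →* ℂˣ)) = 1 := Subgroup.card_bot
  rw [hcard] at hinner
  have hirr : IsIrrCharacter G (fun g => ψ g * φ g) :=
    isIrrCharacter_of_norm_one (isCharacter_mul hψc hφc) (by rw [hinner]; simp)
  rcases h _ hirr with h5 | h5
  · rw [charDegree_mul_of_prime hψc hφc] at h5
    have := Nat.eq_one_of_mul_eq_one_right h5
    exact hψd.one_lt.ne' this
  · rw [charDegree_mul_of_prime hψc hφc] at h5
    exact Nat.not_prime_mul hψd.one_lt.ne' hφd.one_lt.ne' h5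

open Cfsg.Agent.Lib.DegreeDiv in
/-- Two non-invariant linear characters with orbits of different prime sizes do not exist. -/
theorem no_two_typeII (h : Hyp G) (N : Subgroup G) (hNn : N.Normal) (hcomm : commutator G ≤ N)
    [Fintype G] [Fintype N] [DecidableEq (N → ℂ)] {θ₁ θ₂ : N → ℂ} (hθ₁ : IsIrrCharacter N θ₁)
    (hθ₂ : IsIrrCharacter N θ₂) (h1 : charDegree θ₁ = 1) (h2 : charDegree θ₂ = 1) {p q : ℕ}
    (hp : p.Prime) (hq : q.Prime) (hpq : p ≠ q)
    (hO₁ : (Finset.univ.image (fun g : G => conjBy N hNn g θ₁)).card = p)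
    (hO₂ : (Finset.univ.image (fun g : G => conjBy N hNn g θ₂)).card = q) : False := by
  classical
  obtain ⟨f₁, hf₁⟩ := Cfsg.Agent.Lib.LinTwist.exists_hom_of_charDegree hθ₁ h1
  obtain ⟨f₂, hf₂⟩ := Cfsg.Agent.Lib.LinTwist.exists_hom_of_charDegree hθ₂ h2
  set θ₃ : N → ℂ := fun n => (((f₁ * f₂) n : ℂˣ) : ℂ) with hθ₃def
  have hθ₃ : IsIrrCharacter N θ₃ := isIrrCharacter_of_hom (f₁ * f₂)
  have hval₃ : ∀ n, θ₃ n = θ₁ n * θ₂ n := fun n => by
    simp [hθ₃def, hf₁, hf₂, MonoidHom.mul_apply]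
  have hne₁ : ∀ n, θ₁ n ≠ 0 := fun n => by rw [hf₁]; exact Units.ne_zero _
  have hne₂ : ∀ n, θ₂ n ≠ 0 := fun n => by rw [hf₂]; exact Units.ne_zero _
  have hidx₁ : (inertia N hNn θ₁).index = p := by rw [← card_orbit_eq_index, hO₁]
  have hidx₂ : (inertia N hNn θ₂).index = q := by rw [← card_orbit_eq_index, hO₂]
  haveI hn₁ : (inertia N hNn θ₁).Normal :=
    Subgroup.Normal.of_commutator_le (G := G)
      (hcomm.trans (le_inertia N hNn (IsIrrCharacter.isCharacter hθ₁)))
  haveI hn₂ : (inertia N hNn θ₂).Normal :=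
    Subgroup.Normal.of_commutator_le (G := G)
      (hcomm.trans (le_inertia N hNn (IsIrrCharacter.isCharacter hθ₂)))
  have hstep₁ : ∀ x, x ∈ inertia N hNn θ₃ → x ∈ inertia N hNn θ₂ → x ∈ inertia N hNn θ₁ := by
    intro x hx3 hx2
    rw [mem_inertia] at hx3 hx2 ⊢
    intro n
    have h3 := hx3 n
    rw [hval₃, hval₃, hx2 n] at h3
    exact mul_right_cancel₀ (hne₂ n) h3
  have hstep₂ : ∀ x, x ∈ inertia N hNn θ₃ → x ∈ inertia N hNn θ₁ → x ∈ inertia N hNn θ₂ := by
    intro x hx3 hx1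
    rw [mem_inertia] at hx3 hx1 ⊢
    intro n
    have h3 := hx3 n
    rw [hval₃, hval₃, hx1 n] at h3
    exact mul_left_cancel₀ (hne₁ n) h3
  have hcop : Nat.Coprime p q := (Nat.coprime_primes hp hq).2 hpq
  have hle₁ : inertia N hNn θ₃ ≤ inertia N hNn θ₁ := by
    intro x hx
    have h3 : x ^ q ∈ inertia N hNn θ₂ := by
      have := Subgroup.pow_index_mem (inertia N hNn θ₂) x
      rwa [hidx₂] at this
    have h4 : x ^ q ∈ inertia N hNn θ₁ := hstep₁ _ (Subgroup.pow_mem _ hx q) h3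
    have h5 : x ^ p ∈ inertia N hNn θ₁ := by
      have := Subgroup.pow_index_mem (inertia N hNn θ₁) x
      rwa [hidx₁] at this
    exact mem_of_pow_mem hcop h5 h4
  have hle₂ : inertia N hNn θ₃ ≤ inertia N hNn θ₂ := fun x hx => hstep₂ x hx (hle₁ hx)
  have hd₁ : p ∣ (inertia N hNn θ₃).index := by
    rw [← hidx₁]
    exact Subgroup.index_dvd_of_le hle₁
  have hd₂ : q ∣ (inertia N hNn θ₃).index := by
    rw [← hidx₂]
    exact Subgroup.index_dvd_of_le hle₂
  obtain ⟨χ, hχ, hc⟩ := Cfsg.Agent.Lib.CharCoprime.exists_over N hθ₃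
  obtain ⟨e, -, -, hdeg, -⟩ := clifford_numeric N hNn hχ hθ₃ hc
  rw [card_orbit_eq_index] at hdeg
  have hdvd₁ : p ∣ charDegree χ := by
    rw [hdeg]
    exact Dvd.dvd.mul_right (Dvd.dvd.mul_left hd₁ _) _
  have hdvd₂ : q ∣ charDegree χ := by
    rw [hdeg]
    exact Dvd.dvd.mul_right (Dvd.dvd.mul_left hd₂ _) _
  rcases h χ hχ with h5 | h5
  · rw [h5] at hdvd₁
    exact hp.one_lt.ne' (Nat.dvd_one.1 hdvd₁)
  · have e1 := (Nat.prime_dvd_prime_iff_eq hp h5).1 hdvd₁
    have e2 := (Nat.prime_dvd_prime_iff_eq hq h5).1 hdvd₂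
    exact hpq (e1.trans e2.symm)

/-- Two nonlinear characters of the normal subgroup of coprime prime degrees force every linear
character of the subgroup to be invariant. -/
theorem linear_invariant (h : Hyp G) (N : Subgroup G) (hNn : N.Normal) {θa θb lam : N → ℂ}
    (hθa : IsIrrCharacter N θa) (hθb : IsIrrCharacter N θb) (hlam : IsIrrCharacter N lam)
    (hap : (charDegree θa).Prime) (hbp : (charDegree θb).Prime)
    (hab : charDegree θa ≠ charDegree θb) (hlam1 : charDegree lam = 1) (g : G) :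
    conjBy N hNn g lam = lam := by
  classical
  letI := Fintype.ofFinite G
  letI : Fintype N := Fintype.ofFinite _
  have hsurj : Function.Surjective (Abelianization.of : N →* Abelianization N) :=
    QuotientGroup.mk'_surjective _
  haveI : Finite (Abelianization N) := Finite.of_surjective _ hsurj
  have hker : ∀ x : N, (Abelianization.of x = 1) ↔ x ∈ commutator N := by
    intro x
    rw [← MonoidHom.mem_ker, Abelianization.ker_of]
  obtain ⟨f, hf⟩ := Cfsg.Agent.Lib.LinTwist.exists_hom_of_charDegree hlam hlam1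
  set fg : N →* ℂˣ := f.comp (conjAut N hNn g).toMonoidHom with hfg
  set m : N →* ℂˣ := fg * f⁻¹ with hm
  set l : Abelianization N →* ℂˣ := Abelianization.lift m with hl
  have hlof : ∀ x : N, l (Abelianization.of x) = fg x * (f x)⁻¹ := by
    intro x
    simp [hl, hm, MonoidHom.mul_apply]
  have hmem : ∀ θ : N → ℂ, IsIrrCharacter N θ → charDegree θ ≠ 1 →
      l ∈ twistStab (Abelianization.of : N →* Abelianization N) θ := by
    intro θ hθ hθ1
    set l₀ : Abelianization N →* ℂˣ := Abelianization.lift f with hl₀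
    have hl₀of : ∀ x : N, l₀ (Abelianization.of x) = f x := by
      intro x
      simp [hl₀]
    have hirr := isIrrCharacter_twist (Abelianization.of : N →* Abelianization N) hθ l₀
    have hdeg : charDegree (twist (Abelianization.of : N →* Abelianization N) θ l₀) ≠ 1 := by
      rw [charDegree_twist]
      exact hθ1
    have hinv1 := invariant_of_nonlinear h N hNn hirr hdeg g
    have hinv2 := invariant_of_nonlinear h N hNn hθ hθ1 g
    rw [mem_twistStab]
    funext n
    have h1 := congrFun hinv1 n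
    have h2 := congrFun hinv2 n
    rw [conjBy_apply] at h1 h2
    rw [twist_apply, hl₀of] at h1
    rw [twist_apply, hl₀of, h2] at h1
    rw [twist_apply, hlof]
    have hconj : fg n = f ⟨g * n * g⁻¹, hNn.conj_mem n n.2 g⟩ := rfl
    rw [Units.val_mul, hconj]
    have hu : ((f n : ℂˣ) : ℂ) * (((f n)⁻¹ : ℂˣ) : ℂ) = 1 := by simp
    linear_combination ((((f n)⁻¹ : ℂˣ) : ℂ)) * h1 + θ n * hu
  have hcop : Nat.Coprime (Nat.card (twistStab (Abelianization.of : N →* Abelianization N) θa))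
      (Nat.card (twistStab (Abelianization.of : N →* Abelianization N) θb)) :=
    coprime_of_trichotomy hap hbp hab
      (stab_card_trichotomy _ hsurj (commutator N) inferInstance hker hθa hap)
      (stab_card_trichotomy _ hsurj (commutator N) inferInstance hker hθb hbp)
  have hbot := Subgroup.inf_eq_bot_of_coprime hcop
  have hl1 : l = 1 := by
    have : l ∈ twistStab (Abelianization.of : N →* Abelianization N) θa ⊓
        twistStab (Abelianization.of : N →* Abelianization N) θb :=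
      ⟨hmem θa hθa hap.one_lt.ne', hmem θb hθb hbp.one_lt.ne'⟩
    rw [hbot] at this
    exact this
  funext n
  rw [conjBy_apply, hf, hf]
  have h3 := hlof n
  rw [hl1] at h3
  have h4 : fg n = f n := by
    have h5 : (1 : ℂˣ) = fg n * (f n)⁻¹ := by simpa using h3
    exact (eq_of_mul_inv_eq_one h5.symm)
  rw [← h4]
  rfl

/-- No three distinct primes occur as degrees. -/
theorem no_three_aux (h : Hyp G) (hcard : ∀ (H : Type u) [Group H] [Finite H], Nat.card H < Nat.card G → Hyp H →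
      ∀ ψ₁ ψ₂ ψ₃ : H → ℂ, IsIrrCharacter H ψ₁ → IsIrrCharacter H ψ₂ → IsIrrCharacter H ψ₃ →
      (charDegree ψ₁).Prime → (charDegree ψ₂).Prime → (charDegree ψ₃).Prime →
      charDegree ψ₁ ≠ charDegree ψ₂ → charDegree ψ₁ ≠ charDegree ψ₃ → charDegree ψ₂ ≠ charDegree ψ₃ → False)
    (χ₁ χ₂ χ₃ : G → ℂ) (h₁ : IsIrrCharacter G χ₁) (h₂ : IsIrrCharacter G χ₂)
    (h₃ : IsIrrCharacter G χ₃) (p₁ : (charDegree χ₁).Prime) (p₂ : (charDegree χ₂).Prime)
    (p₃ : (charDegree χ₃).Prime) (n₁₂ : charDegree χ₁ ≠ charDegree χ₂)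
    (n₁₃ : charDegree χ₁ ≠ charDegree χ₃) (n₂₃ : charDegree χ₂ ≠ charDegree χ₃) : False := by
  classical
  letI := Fintype.ofFinite G
  have hsol : Group.IsSolvable G := Cfsg.Agent.Lib.NonlinPrime.isSolvable_of_prime_degrees _ G rfl
    (fun χ hχ => (h χ χ.2).resolve_left hχ)
  have hnt : Nontrivial G := by
    by_contra hnt
    rw [not_nontrivial_iff_subsingleton] at hnt
    have h5 := charDegree_dvd_card h₁
    rw [Nat.card_of_subsingleton (1 : G)] at h5
    exact p₁.one_lt.ne' (Nat.dvd_one.1 h5)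
  set K : Subgroup G := commutator G with hK
  have hKn : K.Normal := inferInstance
  have hKlt : K < ⊤ := Group.IsSolvable.commutator_lt_top_of_nontrivial G
  have hKcard : Nat.card K < Nat.card G := by
    have h1 := K.card_mul_index
    have h2 : K.index ≠ 1 := fun h => hKlt.ne (Subgroup.index_eq_one.mp h)
    have h3 : K.index ≠ 0 := Subgroup.index_ne_zero_of_finite
    have h4 : 0 < Nat.card K := Nat.card_pos
    have h5 : 2 ≤ K.index := by omega
    nlinarith
  letI : Fintype K := Fintype.ofFinite _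
  have hπ : Function.Surjective (Abelianization.of : G →* Abelianization G) :=
    QuotientGroup.mk'_surjective _
  haveI : Finite (Abelianization G) := Finite.of_surjective _ hπ
  have hker : ∀ x : G, (Abelianization.of x = 1) ↔ x ∈ K := by
    intro x
    rw [← MonoidHom.mem_ker, Abelianization.ker_of]
  have hK' := hyp_normal h K
  have hIH := hcard K hKcard hK'
  have hne : ∀ {ψ φ : G → ℂ}, IsIrrCharacter G ψ → IsIrrCharacter G φ → (charDegree ψ).Prime →
      (charDegree φ).Prime → charDegree ψ ≠ charDegree φ → ∀ {θ : K → ℂ}, IsIrrCharacter K θ →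
      classInner (fun n : K => ψ n) θ ≠ 0 → ¬ (charDegree θ = 1 ∧
          (Finset.univ.image (fun g : G => conjBy K hKn g θ)).card = 1 ∧
          Nat.card (twistStab (Abelianization.of : G →* Abelianization G) ψ) = (charDegree ψ) ^ 2 ∧
          classInner (fun n : K => ψ n) θ = (charDegree ψ : ℂ)) := by
    intro ψ φ hψ hφ hψp hφp hnee θ hθ hc ⟨a, b, c, d⟩
    exact no_typeIII h _ hπ K hKn hker hψ hφ hψp hφp hnee hθ hc a b c d
  obtain ⟨θ₁, t₁, c₁, s₁⟩ := classify _ hπ K hKn hker h₁ p₁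
  obtain ⟨θ₂, t₂, c₂, s₂⟩ := classify _ hπ K hKn hker h₂ p₂
  obtain ⟨θ₃, t₃, c₃, s₃⟩ := classify _ hπ K hKn hker h₃ p₃
  -- Eliminate type III
  replace s₁ := s₁.imp_right (Or.resolve_right · (hne h₁ h₂ p₁ p₂ n₁₂ t₁ c₁))
  replace s₂ := s₂.imp_right (Or.resolve_right · (hne h₂ h₁ p₂ p₁ n₁₂.symm t₂ c₂))
  replace s₃ := s₃.imp_right (Or.resolve_right · (hne h₃ h₁ p₃ p₁ n₁₃.symm t₃ c₃))
  -- helper
  have orbit_contra : ∀ {θ : K → ℂ}, IsIrrCharacter K θ → charDegree θ = 1 →
      ∀ {d : ℕ}, d.Prime → (Finset.univ.image (fun g : G => conjBy K hKn g θ)).card = d →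
      ∀ {a b : K → ℂ}, IsIrrCharacter K a → IsIrrCharacter K b → (charDegree a).Prime →
      (charDegree b).Prime → charDegree a ≠ charDegree b → False := by
    intro θ hθ hθ1 d hd hcrd a b ha hb hap hbp hab
    have hinv := linear_invariant h K hKn ha hb hθ hap hbp hab hθ1
    have h6 : Finset.univ.image (fun g : G => conjBy K hKn g θ) ⊆ {θ} := by
      intro x hx
      obtain ⟨g, -, rfl⟩ := Finset.mem_image.1 hx
      exact Finset.mem_singleton.2 (hinv g)
    have h7 := Finset.card_le_card h6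
    rw [hcrd, Finset.card_singleton] at h7
    exact absurd hd.one_lt (not_lt.2 h7)
  rcases s₁ with ⟨d₁, -⟩ | ⟨l₁, o₁, -⟩ <;> rcases s₂ with ⟨d₂, -⟩ | ⟨l₂, o₂, -⟩ <;>
    rcases s₃ with ⟨d₃, -⟩ | ⟨l₃, o₃, -⟩
  · apply hIH θ₁ θ₂ θ₃ t₁ t₂ t₃
    · rwa [d₁]
    · rwa [d₂]
    · rwa [d₃]
    · rwa [d₁, d₂]
    · rwa [d₁, d₃]
    · rwa [d₂, d₃]
  · exact orbit_contra t₃ l₃ p₃ o₃ t₁ t₂ (by rwa [d₁]) (by rwa [d₂]) (by rwa [d₁, d₂])
  · exact orbit_contra t₂ l₂ p₂ o₂ t₁ t₃ (by rwa [d₁]) (by rwa [d₃]) (by rwa [d₁, d₃])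
  · exact no_two_typeII h K hKn le_rfl t₂ t₃ l₂ l₃ p₂ p₃ n₂₃ o₂ o₃
  · exact orbit_contra t₁ l₁ p₁ o₁ t₂ t₃ (by rwa [d₂]) (by rwa [d₃]) (by rwa [d₂, d₃])
  · exact no_two_typeII h K hKn le_rfl t₁ t₃ l₁ l₃ p₁ p₃ n₁₃ o₁ o₃
  · exact no_two_typeII h K hKn le_rfl t₁ t₂ l₁ l₂ p₁ p₂ n₁₂ o₁ o₂
  · exact no_two_typeII h K hKn le_rfl t₁ t₂ l₁ l₂ p₁ p₂ n₁₂ o₁ o₂

theorem no_three : ∀ (n : ℕ) (G : Type u) [Group G] [Finite G], Nat.card G = n → Hyp G →
      ∀ χ₁ χ₂ χ₃ : G → ℂ, IsIrrCharacter G χ₁ → IsIrrCharacter G χ₂ → IsIrrCharacter G χ₃ →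
      (charDegree χ₁).Prime → (charDegree χ₂).Prime → (charDegree χ₃).Prime →
      charDegree χ₁ ≠ charDegree χ₂ → charDegree χ₁ ≠ charDegree χ₃ → charDegree χ₂ ≠ charDegree χ₃ → False := by
  intro n
  induction n using Nat.strong_induction_on with
  | _ n ih =>
    intro G _ _ hn h χ₁ χ₂ χ₃ h₁ h₂ h₃ p₁ p₂ p₃ n₁₂ n₁₃ n₂₃
    refine no_three_aux h ?_ χ₁ χ₂ χ₃ h₁ h₂ h₃ p₁ p₂ p₃ n₁₂ n₁₃ n₂₃
    intro H _ _ hlt hH
    exact ih (Nat.card H) (hn ▸ hlt) H rfl hH

end Main

theorem result {G : Type*} [Group G] [Finite G]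
    (hprime : ∀ d ∈ Cfsg.charDegrees G, d = 1 ∨ d.Prime) :
    Nat.card ↥(Cfsg.charDegrees G) ≤ 3 := by
  classical
  letI := Fintype.ofFinite G
  have hH : Hyp G := fun χ hχ => hprime (charDegree χ) ⟨⟨χ, hχ⟩, rfl⟩
  have hfin : (Cfsg.charDegrees G).Finite := by
    have := Cfsg.Agent.Lib.CharBasic.finite_irrCharacter (G := G)
    exact Set.finite_range _
  rw [Nat.card_coe_set_eq]
  by_contra hcon
  push Not at hcon
  have h4 : 2 < ((Cfsg.charDegrees G) \ {1}).ncard := by
    have h5 := Set.ncard_le_ncard_sdiff_add_ncard (Cfsg.charDegrees G) {1} (Set.finite_singleton 1)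
    rw [Set.ncard_singleton] at h5
    omega
  obtain ⟨a, b, c, ha, hb, hc, hab, hac, hbc⟩ := (Set.two_lt_ncard_iff (hfin.subset Set.sdiff_subset)).1 h4
  obtain ⟨⟨χa, hχa⟩, rfl⟩ := ha.1
  obtain ⟨⟨χb, hχb⟩, rfl⟩ := hb.1
  obtain ⟨⟨χc, hχc⟩, rfl⟩ := hc.1
  have pa := (hprime _ ⟨⟨χa, hχa⟩, rfl⟩).resolve_left ha.2
  have pb := (hprime _ ⟨⟨χb, hχb⟩, rfl⟩).resolve_left hb.2
  have pc := (hprime _ ⟨⟨χc, hχc⟩, rfl⟩).resolve_left hc.2
  exact no_three _ G rfl hH χa χb χc hχa hχb hχc pa pb pc hab hac hbc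

end Cfsg.Agent.S4813
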