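import Mathlib
import Cfsg.Statements.S4814
import Cfsg.Agent.Lib.CharCommutator

set_option autoImplicit false
open Cfsg

namespace Cfsg.Agent.S4814

open Cfsg.Agent.Lib.CharBasic Cfsg.Agent.Lib.CharAvg Cfsg.Agent.Lib.CharInd Cfsg.Agent.Lib.CharCommutator
open scoped ComplexConjugate

theorem norm_irr_le {G : Type*} [Group G] [Finite G] {χ : G → ℂ} (hχ : IsIrrCharacter G χ) (g : G) :
    ‖χ g‖ ≤ ‖χ 1‖ := by
  obtain ⟨n, ρ, hρ, rfl⟩ := hχ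
  rw [char_one_eq_rep]
  have := Cfsg.Agent.Lib.CharValues.norm_character_le ρ g
  simpa using this

/-- Let G be a finite group such that the sum, over the irreducible complex characters χ of G, of 1/χ(1)² is less than 2. Then every element of G is a product of two commutators. -/
theorem result {G : Type*} [Group G] [Finite G]
    (h : ∑ᶠ χ : Cfsg.IrrCharacter G, 1 / ‖(χ : G → ℂ) 1‖ ^ 2 < (2 : ℝ)) (g : G) :
    ∃ a b c d : G, (a * b * a⁻¹ * b⁻¹) * (c * d * c⁻¹ * d⁻¹) = g := by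
  classical
  letI := Fintype.ofFinite G
  by_contra hno
  push Not at hno
  have hnc : ∀ a b c d : G, ¬ IsConj g ((a * b * a⁻¹ * b⁻¹) * (c * d * c⁻¹ * d⁻¹)) := by
    intro a b c d hc
    obtain ⟨x, hx⟩ := isConj_iff.mp hc.symm
    apply hno (x * a * x⁻¹) (x * b * x⁻¹) (x * c * x⁻¹) (x * d * x⁻¹)
    rw [← hx]
    group
  have h1 : ∀ χ : IrrCharacter G, ∑ a : G, ∑ b : G, ∑ c : G, ∑ d : G,
      conj ((χ : G → ℂ) ((a * b * a⁻¹ * b⁻¹) * (c * d * c⁻¹ * d⁻¹))) =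
      (Nat.card G : ℂ) ^ 4 / ((χ : G → ℂ) 1) ^ 3 := by
    intro χ
    have h2 := sum_two_commutators χ.2
    obtain ⟨n, hn, hn1⟩ := irr_one_eq χ.2
    have hn0 : (n : ℂ) ≠ 0 := by exact_mod_cast hn.ne'
    rw [hn1] at h2 ⊢
    have h3 : ∑ a : G, ∑ b : G, ∑ c : G, ∑ d : G,
        (χ : G → ℂ) ((a * b * a⁻¹ * b⁻¹) * (c * d * c⁻¹ * d⁻¹)) = (Nat.card G : ℂ) ^ 4 / (n : ℂ) ^ 3 := by
      field_simp
      rw [mul_comm]
      exact h2
    have h4 := congrArg conj h3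
    simp only [map_sum] at h4
    rw [h4]
    simp
  have h2 : ∑ χ : IrrCharacter G, (χ : G → ℂ) g * ((Nat.card G : ℂ) ^ 4 / ((χ : G → ℂ) 1) ^ 3) = 0 := by
    have h3 : ∀ χ : IrrCharacter G, (χ : G → ℂ) g * ((Nat.card G : ℂ) ^ 4 / ((χ : G → ℂ) 1) ^ 3) =
        ∑ a : G, ∑ b : G, ∑ c : G, ∑ d : G, (χ : G → ℂ) g *
          conj ((χ : G → ℂ) ((a * b * a⁻¹ * b⁻¹) * (c * d * c⁻¹ * d⁻¹))) := by
      intro χ
      rw [← h1 χ]
      simp only [Finset.mul_sum]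
    simp only [h3]
    rw [Finset.sum_comm]
    refine Finset.sum_eq_zero fun a _ => ?_
    rw [Finset.sum_comm]
    refine Finset.sum_eq_zero fun b _ => ?_
    rw [Finset.sum_comm]
    refine Finset.sum_eq_zero fun c _ => ?_
    rw [Finset.sum_comm]
    refine Finset.sum_eq_zero fun d _ => ?_
    rw [sum_irr_mul_conj, if_neg (hnc a b c d)]
  have hG : (Nat.card G : ℂ) ≠ 0 := natCard_ne_zero'
  have h3 : ∑ χ : IrrCharacter G, (χ : G → ℂ) g / ((χ : G → ℂ) 1) ^ 3 = 0 := by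
    have h4 : ∑ χ : IrrCharacter G, (χ : G → ℂ) g * ((Nat.card G : ℂ) ^ 4 / ((χ : G → ℂ) 1) ^ 3) =
        (Nat.card G : ℂ) ^ 4 * ∑ χ : IrrCharacter G, (χ : G → ℂ) g / ((χ : G → ℂ) 1) ^ 3 := by
      rw [Finset.mul_sum]
      refine Finset.sum_congr rfl fun χ _ => ?_
      ring
    rw [h4] at h2
    exact (mul_eq_zero.mp h2).resolve_left (pow_ne_zero _ hG)
  let χ₀ : IrrCharacter G := ⟨fun _ => 1, isIrrCharacter_one⟩
  rw [finsum_eq_sum_of_fintype] at h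
  rw [← Finset.add_sum_erase _ _ (Finset.mem_univ χ₀)] at h h3
  have hχ₀ : (χ₀ : G → ℂ) g / ((χ₀ : G → ℂ) 1) ^ 3 = 1 := by simp [χ₀]
  have hχ₀' : 1 / ‖(χ₀ : G → ℂ) 1‖ ^ 2 = 1 := by simp [χ₀]
  rw [hχ₀] at h3
  rw [hχ₀'] at h
  have hB : ‖∑ χ ∈ Finset.univ.erase χ₀, (χ : G → ℂ) g / ((χ : G → ℂ) 1) ^ 3‖ ≤
      ∑ χ ∈ Finset.univ.erase χ₀, 1 / ‖(χ : G → ℂ) 1‖ ^ 2 := by
    refine (norm_sum_le _ _).trans (Finset.sum_le_sum fun χ _ => ?_)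
    rw [norm_div, norm_pow]
    have h5 := norm_irr_le χ.2 g
    have h6 : 0 < ‖(χ : G → ℂ) 1‖ := norm_pos_iff.mpr (irr_one_ne_zero χ.2)
    rw [div_le_div_iff₀ (by positivity) (by positivity)]
    nlinarith [pow_pos h6 2]
  have h7 : ∑ χ ∈ Finset.univ.erase χ₀, (χ : G → ℂ) g / ((χ : G → ℂ) 1) ^ 3 = -1 := by
    linear_combination h3
  rw [h7] at hB
  simp only [norm_neg, norm_one] at hB
  linarith

end Cfsg.Agent.S4814
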