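import Mathlib
import Cfsg.Statements.S4825
import Cfsg.Agent.Lib.Tate
import Cfsg.Agent.Lib.CharClifford
import Cfsg.Agent.Lib.BlockNormal
import Cfsg.Agent.Lib.BlockOrtho
import Cfsg.Agent.Lib.BlockIdem

set_option autoImplicit false
set_option linter.unusedSectionVars false
set_option linter.unusedVariables false
set_option linter.style.haveILetI false

open Cfsg Cfsg.Agent.Lib.CharBasic Cfsg.Agent.Lib.BlockLocal Cfsg.Agent.Lib.BlockOrtho
open Cfsg.Agent.Lib.CharClifford Cfsg.Agent.Lib.CharInduction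
open scoped ComplexConjugate

namespace Cfsg.Agent.S4825

universe u

section

variable {G : Type u} [Group G] [Fintype G] {p : ℕ} [hp : Fact p.Prime] {M : Ideal AlgInt}

/-- The weighted sum over the block is a multiple of the index in the local ring. -/
theorem memLocal_sum (hM : IsPModular p M) {B : Set (IrrCharacter G)} (hB : IsPBlock M B)
    (N : Subgroup G) [N.Normal] [Fintype N] (hpN : p ∣ N.index) (θ : IrrCharacter N) :
    MemLocalIdeal M (∑ χ : IrrCharacter G, indB B χ *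
      (classInner (fun n : N => (χ : G → ℂ) n) (θ : N → ℂ) * (χ : G → ℂ) 1)) := by
  classical
  haveI := hM.2.1.isPrime
  have h1 : ∑ χ : IrrCharacter G, indB B χ *
      (classInner (fun n : N => (χ : G → ℂ) n) (θ : N → ℂ) * (χ : G → ℂ) 1) =
      (N.index : ℂ) * ∑ n : N, conj ((θ : N → ℂ) n) * blockCoeff B (n : G)⁻¹ := by
    have hc : (Nat.card G : ℂ) = (N.index : ℂ) * (Nat.card N : ℂ) := by
      rw [← Subgroup.index_mul_card N]
      push_cast
      ring
    have hNne : (Nat.card N : ℂ) ≠ 0 := Cfsg.Agent.Lib.CharInd.natCard_subgroup_ne_zero N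
    have hGne : (Nat.card G : ℂ) ≠ 0 := natCard_ne_zero'
    have h2 : ∀ n : N, blockCoeff B (n : G)⁻¹ = (Nat.card G : ℂ)⁻¹ *
        ∑ χ : IrrCharacter G, indB B χ * ((χ : G → ℂ) 1 * (χ : G → ℂ) n) := by
      intro n
      unfold blockCoeff
      rw [finsum_mem_eq_sum_indB]
      congr 1
      refine Finset.sum_congr rfl fun χ _ => ?_
      rw [char_conj_eq_inv (IsIrrCharacter.isCharacter χ.2), inv_inv]
    simp_rw [h2]
    have hinv : (N.index : ℂ) * (Nat.card G : ℂ)⁻¹ = (Nat.card N : ℂ)⁻¹ := by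
      rw [hc]
      have hidx : (N.index : ℂ) ≠ 0 := by
        intro h0
        rw [h0, zero_mul] at hc
        exact hGne hc
      field_simp
    unfold classInner
    rw [← hinv]
    simp only [Finset.mul_sum, Finset.sum_mul]
    rw [Finset.sum_comm]
    refine Finset.sum_congr rfl fun n _ => Finset.sum_congr rfl fun χ _ => ?_
    ring
  rw [h1]
  apply memLocalIdeal_mul_right ((memLocalIdeal_natCast_iff hM).mpr hpN)
  apply memLocalRing_sum
  intro n _
  apply memLocalRing_mul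
  · apply memLocalRing_of_isIntegral
    rw [char_conj_eq_inv (IsIrrCharacter.isCharacter θ.2)]
    exact Cfsg.Agent.Lib.BlockVal.isIntegral_char (IsIrrCharacter.isCharacter θ.2) _
  · exact Cfsg.Agent.Lib.BlockIdem.memLocalRing_blockCoeff hB _

theorem dvd_index_of_not_le (P : Sylow p G) (N : Subgroup G) [hN : N.Normal]
    (hPN : ¬ (P : Subgroup G) ≤ N) : p ∣ N.index := by
  by_contra hcon
  apply hPN
  intro x hx
  obtain ⟨j, hj⟩ := IsPGroup.iff_orderOf.mp P.isPGroup' ⟨x, hx⟩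
  rw [Subgroup.orderOf_mk] at hj
  apply Cfsg.Agent.Lib.Tate.mem_of_pow_mem_of_coprime (n := N.index)
  · rw [hj]
    exact Nat.Coprime.pow_right _ ((Nat.Prime.coprime_iff_not_dvd hp.out).mpr hcon).symm
  · exact Subgroup.pow_index_mem N x

end

theorem sq2 : ∀ z : ZMod 2, z ≠ 0 → z ^ 2 = 1 := by decide

theorem sq3 : ∀ z : ZMod 3, z ≠ 0 → z ^ 2 = 1 := by decide

theorem result {G : Type*} [Group G] [Fintype G] (p : ℕ) [Fact p.Prime] (P : Sylow p G) (M : Ideal Cfsg.AlgInt) (hM : Cfsg.IsPModular p M) (B : Set (Cfsg.IrrCharacter G)) (hB : Cfsg.IsPBlock M B) (hBP : Cfsg.IsDefectGroup p M B P) (N : Subgroup G) [N.Normal] [Fintype N] (hPN : ¬ (P : Subgroup G) ≤ N) (θ : Cfsg.IrrCharacter N) :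
    (Nat.card {χ : Cfsg.IrrCharacter G // χ ∈ B ∧ ¬ p ∣ Cfsg.charDegree (χ : G → ℂ) ∧ Cfsg.classInner (fun n : N => (χ : G → ℂ) n) (θ : N → ℂ) ≠ 0} = 0 ∨
      2 ≤ Nat.card {χ : Cfsg.IrrCharacter G // χ ∈ B ∧ ¬ p ∣ Cfsg.charDegree (χ : G → ℂ) ∧ Cfsg.classInner (fun n : N => (χ : G → ℂ) n) (θ : N → ℂ) ≠ 0}) ∧
    (p ≤ 3 → p ∣ Nat.card {χ : Cfsg.IrrCharacter G // χ ∈ B ∧ ¬ p ∣ Cfsg.charDegree (χ : G → ℂ) ∧ Cfsg.classInner (fun n : N => (χ : G → ℂ) n) (θ : N → ℂ) ≠ 0}) := by
  classical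
  haveI := hM.2.1.isPrime
  have hp' : Nat.Prime p := Fact.out
  -- multiplicities
  have hmul : ∀ χ : IrrCharacter G, ∃ a : ℕ,
      classInner (fun n : N => (χ : G → ℂ) n) (θ : N → ℂ) = a :=
    fun χ => classInner_char_irr (isCharacter_restrict _ (IsIrrCharacter.isCharacter χ.2)) θ.2
  choose a ha using hmul
  -- the number `D`
  let O : Finset (N → ℂ) := Finset.univ.image (fun g : G => conjBy N inferInstance g (θ : N → ℂ))
  have hOirr : ∀ ψ ∈ O, IsCharacter N ψ := by
    intro ψ hψ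
    obtain ⟨g, -, rfl⟩ := Finset.mem_image.mp hψ
    exact IsIrrCharacter.isCharacter (isIrrCharacter_conjBy N inferInstance g θ.2)
  obtain ⟨D, hD⟩ : ∃ D : ℕ, ∑ ψ ∈ O, ψ 1 = D :=
    isCharacter_one_eq (isCharacter_sum O _ hOirr) |>.imp fun D h => by
      rw [← h, Finset.sum_apply]
  have hdeg : ∀ χ : IrrCharacter G, a χ ≠ 0 → charDegree (χ : G → ℂ) = a χ * D := by
    intro χ hχ
    have h1 := restrict_eq_smul_sum N inferInstance χ.2 θ.2 (by
      rw [ha]
      exact_mod_cast hχ)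
    have h2 := congrFun h1 1
    simp only [Pi.smul_apply, Finset.sum_apply, smul_eq_mul] at h2
    have h3 : (χ : G → ℂ) ((1 : N) : G) = (χ : G → ℂ) 1 := rfl
    rw [h3, hD, ha, Cfsg.Agent.Lib.CharKernel.one_eq_charDegree (IsIrrCharacter.isCharacter χ.2)] at h2
    exact_mod_cast h2
  -- the key congruence
  let T : Finset (IrrCharacter G) := Finset.univ.filter (fun χ => χ ∈ B)
  have hpN := dvd_index_of_not_le P N hPN
  have hW : p ∣ ∑ χ ∈ T, a χ * charDegree (χ : G → ℂ) := by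
    rw [← memLocalIdeal_natCast_iff hM]
    have h1 := memLocal_sum hM hB N hpN θ
    convert h1 using 1
    push_cast
    simp only [T]
    rw [Finset.sum_filter]
    refine Finset.sum_congr rfl fun χ _ => ?_
    by_cases h : χ ∈ B
    · rw [if_pos h, indB_of_mem h, ha, one_mul,
        Cfsg.Agent.Lib.CharKernel.one_eq_charDegree (IsIrrCharacter.isCharacter χ.2)]
    · rw [if_neg h, indB_of_not_mem h, zero_mul]
  let S : Finset (IrrCharacter G) := T.filter (fun χ : IrrCharacter G => ¬ p ∣ charDegree (χ : G → ℂ) ∧ a χ ≠ 0)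
  have hcard : Nat.card {χ : Cfsg.IrrCharacter G // χ ∈ B ∧ ¬ p ∣ Cfsg.charDegree (χ : G → ℂ) ∧
      Cfsg.classInner (fun n : N => (χ : G → ℂ) n) (θ : N → ℂ) ≠ 0} = S.card := by
    rw [Nat.card_eq_fintype_card, Fintype.card_subtype]
    congr 1
    ext χ
    simp only [Finset.mem_filter, Finset.mem_univ, true_and, S, T]
    rw [ha]
    simp
  simp only [hcard]
  -- reduction to `S`
  have hS0 : S.Nonempty → ¬ p ∣ D ∧ p ∣ ∑ χ ∈ S, a χ ^ 2 := by
    intro ⟨χ₀, hχ₀⟩
    obtain ⟨h01, h02, h03⟩ := Finset.mem_filter.mp hχ₀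
    have hD0 : ¬ p ∣ D := fun h => h02 (by rw [hdeg χ₀ h03]; exact Dvd.dvd.mul_left h _)
    refine ⟨hD0, ?_⟩
    have h1 : ∑ χ ∈ T, a χ * charDegree (χ : G → ℂ) = D * ∑ χ ∈ T, a χ ^ 2 := by
      rw [Finset.mul_sum]
      refine Finset.sum_congr rfl fun χ _ => ?_
      by_cases h : a χ = 0
      · simp [h]
      · rw [hdeg χ h]
        ring
    rw [h1] at hW
    have h2 := (hp'.dvd_mul.mp hW).resolve_left hD0
    have h3 : ∑ χ ∈ T, a χ ^ 2 = ∑ χ ∈ S, a χ ^ 2 +
        ∑ χ ∈ T.filter (fun χ : IrrCharacter G => ¬ (¬ p ∣ charDegree (χ : G → ℂ) ∧ a χ ≠ 0)), a χ ^ 2 :=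
      (Finset.sum_filter_add_sum_filter_not T _ _).symm
    have h4 : p ∣ ∑ χ ∈ T.filter (fun χ : IrrCharacter G => ¬ (¬ p ∣ charDegree (χ : G → ℂ) ∧ a χ ≠ 0)), a χ ^ 2 := by
      apply Finset.dvd_sum
      intro χ hχ
      have h5 := (Finset.mem_filter.mp hχ).2
      by_cases h6 : a χ = 0
      · simp [h6]
      · have h7 : p ∣ charDegree (χ : G → ℂ) := by
          by_contra h8
          exact h5 ⟨h8, h6⟩
        rw [hdeg χ h6] at h7
        have h8 := (hp'.dvd_mul.mp h7).resolve_right hD0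
        exact dvd_pow h8 two_ne_zero
    rw [h3] at h2
    exact (Nat.dvd_add_left h4).mp h2
  have hSa : ∀ χ ∈ S, ¬ p ∣ a χ := by
    intro χ hχ h
    obtain ⟨h01, h02, h03⟩ := Finset.mem_filter.mp hχ
    exact h02 (by rw [hdeg χ h03]; exact Dvd.dvd.mul_right h _)
  constructor
  · by_cases h0 : S.card = 0
    · exact Or.inl h0
    · right
      by_contra hlt
      have h1 : S.card = 1 := by omega
      obtain ⟨χ, hχ⟩ := Finset.card_eq_one.mp h1
      have hne : S.Nonempty := by rw [hχ]; exact Finset.singleton_nonempty χ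
      have h2 := (hS0 hne).2
      rw [hχ, Finset.sum_singleton] at h2
      exact hSa χ (by rw [hχ]; exact Finset.mem_singleton_self χ) (hp'.dvd_of_dvd_pow h2)
  · intro hp3
    by_cases hne : S.Nonempty
    · have h2 := (hS0 hne).2
      have h3 : ((∑ χ ∈ S, a χ ^ 2 : ℕ) : ZMod p) = (S.card : ZMod p) := by
        rw [Nat.cast_sum, Finset.card_eq_sum_ones, Nat.cast_sum]
        refine Finset.sum_congr rfl fun χ hχ => ?_
        have h4 := hSa χ hχ
        have h5 : ((a χ : ℕ) : ZMod p) ≠ 0 := by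
          rwa [Ne, ZMod.natCast_eq_zero_iff]
        have hp23 : p = 2 ∨ p = 3 := by
          have := hp'.two_le
          omega
        push_cast
        rcases hp23 with rfl | rfl
        · exact sq2 _ h5
        · exact sq3 _ h5
      rw [(ZMod.natCast_eq_zero_iff _ p).mpr h2] at h3
      exact (ZMod.natCast_eq_zero_iff _ p).mp h3.symm
    · rw [Finset.not_nonempty_iff_eq_empty.mp hne, Finset.card_empty]
      exact dvd_zero p

end Cfsg.Agent.S4825
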