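import Mathlib
import Cfsg.Statements.S4835
import Cfsg.Agent.Lib.Gagola

set_option autoImplicit false
open Cfsg

namespace Cfsg.Agent.S4835

open Cfsg.Agent.Lib.Gagola

theorem result {G : Type*} [Group G] [Finite G] (hG : 2 < Nat.card G) (χ : Cfsg.IrrCharacter G) (hχ : Nat.card {C : ConjClasses G // ∃ g ∈ C.carrier, (χ : G → ℂ) g ≠ 0} = 2) :
    ∃ N : Subgroup G, N.Normal ∧ N ≠ ⊥ ∧ (∀ K : Subgroup G, K.Normal → K ≠ ⊥ → N ≤ K) ∧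
      (∃ p : ℕ, p.Prime ∧ Cfsg.IsElementaryAbelian p N) ∧
      (∀ g : G, (χ : G → ℂ) g ≠ 0 ↔ g ∈ N) ∧
      (∀ x ∈ N, ∀ y ∈ N, x ≠ 1 → y ≠ 1 → ∃ g : G, g * x * g⁻¹ = y) := by
  classical
  haveI : Fintype G := Fintype.ofFinite G
  obtain ⟨N, D⟩ := exists_data hG χ.2 hχ
  obtain ⟨p, hp, -, hpow⟩ := D.exists_prime
  refine ⟨N, D.normal, D.ne_bot, fun K hK hK1 => D.le_of_normal hK hK1, ⟨p, hp, D.comm, hpow⟩,
    fun g => (D.mem g).symm, ?_⟩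
  intro x hx y hy hx1 hy1
  exact isConj_iff.mp (D.isConj x hx y hy hx1 hy1)

end Cfsg.Agent.S4835
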