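import Mathlib
import Cfsg.Statements.S4836
import Cfsg.Agent.Lib.Gagola

set_option autoImplicit false
open Cfsg

namespace Cfsg.Agent.S4836

open Cfsg.Agent.Lib.Gagola

theorem result {G : Type*} [Group G] [Finite G] (hG : 2 < Nat.card G) (χ : Cfsg.IrrCharacter G) (hχ : Nat.card {C : ConjClasses G // ∃ g ∈ C.carrier, (χ : G → ℂ) g ≠ 0} = 2) :
    (∀ g : G, (χ : G → ℂ) g = (χ : G → ℂ) 1 → g = 1) ∧
      (∀ ψ : Cfsg.IrrCharacter G, (∀ g : G, (ψ : G → ℂ) g = (ψ : G → ℂ) 1 → g = 1) → ψ = χ) ∧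
      (∀ ψ : Cfsg.IrrCharacter G, Nat.card {C : ConjClasses G // ∃ g ∈ C.carrier, (ψ : G → ℂ) g ≠ 0} = 2 → ψ = χ) := by
  classical
  haveI : Fintype G := Fintype.ofFinite G
  obtain ⟨N, D⟩ := exists_data hG χ.2 hχ
  have h2 : ∀ ψ : Cfsg.IrrCharacter G, (∀ g : G, (ψ : G → ℂ) g = (ψ : G → ℂ) 1 → g = 1) → ψ = χ := by
    intro ψ hψ
    by_contra hne
    obtain ⟨x, hx, hx1⟩ := D.exists_x₀
    exact hx1 (hψ x (D.other ψ.2 (fun h => hne (Subtype.ext h)) hx))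
  refine ⟨fun g hg => D.faithful hg, h2, ?_⟩
  intro ψ hψ
  obtain ⟨N', D'⟩ := exists_data hG ψ.2 hψ
  exact h2 ψ fun g hg => D'.faithful hg

end Cfsg.Agent.S4836
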