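import Mathlib
import Cfsg.Statements.S4837
import Cfsg.Agent.Lib.Gagola2

set_option autoImplicit false
open Cfsg

namespace Cfsg.Agent.S4837

open Cfsg.Agent.Lib.Gagola Cfsg.Agent.Lib.Gagola2

theorem result {G : Type*} [Group G] [Finite G] (hG : 2 < Nat.card G) (χ : Cfsg.IrrCharacter G) (hχ : Nat.card {C : ConjClasses G // ∃ g ∈ C.carrier, (χ : G → ℂ) g ≠ 0} = 2) (p : ℕ) [Fact p.Prime] (N : Subgroup G) [N.Normal] (hN : ∀ g : G, g ∈ N ↔ (χ : G → ℂ) g ≠ 0) (hNp : IsPGroup p N) (hN1 : N ≠ ⊥) :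
    (∀ x ∈ N, x ≠ 1 → ∃ P : Sylow p G, Subgroup.centralizer ({x} : Set G) = P) ∧
      (∀ μ : Cfsg.IrrCharacter N, (μ : N → ℂ) ≠ (fun _ => (1 : ℂ)) → ∃ P : Sylow p G, ∀ g : G, g ∈ (P : Subgroup G) ↔ ∀ n n' : N, (n' : G) = g * n * g⁻¹ → (μ : N → ℂ) n' = (μ : N → ℂ) n) := by
  classical
  haveI : Fintype G := Fintype.ofFinite G
  obtain ⟨N₀, D₀⟩ := exists_data hG χ.2 hχ
  have hNN : N = N₀ := by
    ext g
    rw [hN, D₀.mem]
  subst hNN
  have D := D₀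
  constructor
  · intro x hx hx1
    have h1 := Data.centralizer_isPGroup D p hNp hx hx1
    have h2 := Data.not_dvd_index_of_card D p hNp (D.card_centralizer hx hx1)
    exact ⟨h1.toSylow h2, by simp⟩
  · intro μ hμ
    have h1 := Data.inertia_isPGroup D p hNp μ.2 hμ
    have h2 := Data.not_dvd_index_of_card D p hNp (Data.card_inertia D μ.2 hμ)
    refine ⟨h1.toSylow h2, ?_⟩
    intro g
    exact mem_inertia

end Cfsg.Agent.S4837
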