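import Mathlib
import Cfsg.Statements.S4838
import Cfsg.Agent.Lib.Gagola3

set_option autoImplicit false
open Cfsg

namespace Cfsg.Agent.S4838

open Cfsg.Agent.Lib.Gagola Cfsg.Agent.Lib.Gagola3

theorem result {G : Type*} [Group G] [Finite G] (hG : 2 < Nat.card G) (χ : Cfsg.IrrCharacter G) (hχ : Nat.card {C : ConjClasses G // ∃ g ∈ C.carrier, (χ : G → ℂ) g ≠ 0} = 2) (p : ℕ) [Fact p.Prime] (N : Subgroup G) [N.Normal] (hN : ∀ g : G, g ∈ N ↔ (χ : G → ℂ) g ≠ 0) (hNp : IsPGroup p N) (hN1 : N ≠ ⊥) (P : Sylow p G) :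
    (∀ x : G, x ∉ N → Nat.card (Subgroup.centralizer ({x} : Set G)) = Nat.card (Subgroup.centralizer ({(x : G ⧸ N)} : Set (G ⧸ N)))) ∧
      ((Subgroup.center ↥(P : Subgroup G)).map (P : Subgroup G).subtype ≤ N ∧
        ((Subgroup.center ↥(P : Subgroup G)).map (P : Subgroup G).subtype = N ↔ (P : Subgroup G).Normal)) ∧
      (∃ i : ℕ, Subgroup.upperCentralSeries ↥(P : Subgroup G) i = N.subgroupOf (P : Subgroup G)) := by
  classical
  haveI : Fintype G := Fintype.ofFinite G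
  obtain ⟨N₀, D₀⟩ := exists_data hG χ.2 hχ
  have hNN : N = N₀ := by
    ext g
    rw [hN, D₀.mem]
  subst hNN
  have D := D₀
  refine ⟨fun x hx => card_centralizer_quotient D hx, ⟨center_le D p hNp P, center_eq_iff D p hNp P⟩,
    exists_upper D p hNp P⟩

end Cfsg.Agent.S4838
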