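import Mathlib
import Cfsg.Statements.S4840
import Cfsg.Agent.Lib.Gagola2
import Cfsg.Agent.Lib.GagolaSolv

set_option autoImplicit false
set_option linter.style.haveILetI false
open Cfsg

namespace Cfsg.Agent.S4840

open Cfsg.Agent.Lib.Gagola Cfsg.Agent.Lib.Gagola2 Cfsg.Agent.Lib.GagolaSolv Cfsg.Agent.Lib.PCore

theorem result {G : Type*} [Group G] [Finite G] [hs : Group.IsSolvable G] (hG : 2 < Nat.card G) (χ : Cfsg.IrrCharacter G) (hχ : Nat.card {C : ConjClasses G // ∃ g ∈ C.carrier, (χ : G → ℂ) g ≠ 0} = 2) :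
    ∃ p : ℕ, p.Prime ∧ (∀ q : ℕ, q.Prime → (Cfsg.pCore q G ≠ ⊥ ↔ q = p)) ∧
      Cfsg.HasNormalPComplement p (G ⧸ Cfsg.pCore p G) ∧ ∀ Q : Sylow p (G ⧸ Cfsg.pCore p G), IsMulCommutative (Q : Subgroup (G ⧸ Cfsg.pCore p G)) := by
  classical
  haveI : Fintype G := Fintype.ofFinite G
  obtain ⟨N, D⟩ := exists_data hG χ.2 hχ
  obtain ⟨p, hp, hNp, hpow⟩ := D.exists_prime
  haveI : Fact p.Prime := ⟨hp⟩
  haveI hNn : N.Normal := D.normal
  haveI hNc : IsMulCommutative N := D.comm
  refine ⟨p, hp, ?_, ?_⟩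
  · intro q hq
    haveI : Fact q.Prime := ⟨hq⟩
    constructor
    · intro hne
      by_contra hqp
      have h1 : N ≤ pCore q G := D.le_of_normal inferInstance hne
      have h2 : IsPGroup q N := (isPGroup_pCore q).to_le h1
      apply D.ne_bot
      exact eq_bot_of_isPGroup_of_coprime hNp (by
        obtain ⟨k, hk⟩ := IsPGroup.iff_card.mp h2
        rw [hk]
        exact Nat.Coprime.pow_left k ((Nat.coprime_primes hq hp).mpr hqp))
    · rintro rfl
      intro h
      have h1 : N ≤ pCore q G := le_pCore hNn hNp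
      rw [h] at h1
      exact D.ne_bot (le_bot_iff.mp h1)
  -- the action on `N`
  set K := pCore p G with hK
  let θ : G →* MulAut N := MulAut.conjNormal
  have hθ : ∀ (g : G) (n : N), ((θ g n : N) : G) = g * n * g⁻¹ :=
    fun g n => MulAut.conjNormal_apply g n
  have hCp : ∀ x ∈ N, x ≠ 1 → IsPGroup p (Subgroup.centralizer ({x} : Set G)) :=
    fun x hx hx1 => Data.centralizer_isPGroup D p hNp hx hx1
  have hKC : ∀ x ∈ N, x ≠ 1 → K ≤ Subgroup.centralizer ({x} : Set G) := by
    intro x hx hx1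
    have h1 := Data.not_dvd_index_of_card D p hNp (D.card_centralizer hx hx1)
    have h2 := pCore_le_sylow p ((hCp x hx hx1).toSylow h1)
    exact h2
  have hθK : K ≤ θ.ker := by
    intro k hk
    rw [MonoidHom.mem_ker]
    ext n
    rw [hθ]
    by_cases hn : (n : G) = 1
    · rw [hn]
      simp [hn]
    · have h1 := hKC n n.2 hn hk
      rw [Subgroup.mem_centralizer_singleton_iff] at h1
      rw [h1]
      simp
  let φ : G ⧸ K →* MulAut N := QuotientGroup.lift K θ hθK
  have hφ : ∀ (g : G) (n : N), ((φ (g : G ⧸ K) n : N) : G) = g * n * g⁻¹ := fun g n => hθ g n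
  letI cg : CommGroup N := { (inferInstance : Group N) with mul_comm := hNc.is_comm.comm }
  have hyp : Hyp (V := N) p φ := by
    refine ⟨?_, ?_, hNp, ?_, ?_⟩
    · rw [injective_iff_map_eq_one]
      intro t ht
      induction t using QuotientGroup.induction_on with
      | H g =>
        have hg : θ g = 1 := ht
        obtain ⟨x₀, hx₀, hx₀1⟩ := D.exists_x₀
        have hle : θ.ker ≤ Subgroup.centralizer ({x₀} : Set G) := by
          intro k hk
          have h1 := hθ k ⟨x₀, hx₀⟩
          rw [(MonoidHom.mem_ker).mp hk] at h1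
          rw [Subgroup.mem_centralizer_singleton_iff]
          have h2 : x₀ = k * x₀ * k⁻¹ := h1
          rw [eq_mul_inv_iff_mul_eq] at h2
          exact h2.symm
        have hp2 : IsPGroup p θ.ker := (hCp x₀ hx₀ hx₀1).to_le hle
        have h3 : θ.ker ≤ K := le_pCore (MonoidHom.normal_ker θ) hp2
        exact (QuotientGroup.eq_one_iff g).mpr (h3 hg)
    · obtain ⟨x₀, hx₀, hx₀1⟩ := D.exists_x₀
      exact ⟨⟨x₀, hx₀⟩, fun e => hx₀1 (congrArg Subtype.val e)⟩
    · intro v w hv hw
      have hv' : (v : G) ≠ 1 := fun e => hv (Subtype.ext e)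
      have hw' : (w : G) ≠ 1 := fun e => hw (Subtype.ext e)
      obtain ⟨g, hg⟩ := isConj_iff.mp (D.isConj v v.2 w w.2 hv' hw')
      refine ⟨(g : G ⧸ K), Subtype.ext ?_⟩
      rw [hφ, hg]
    · intro v hv t ht
      induction t using QuotientGroup.induction_on with
      | H g =>
        have hv' : (v : G) ≠ 1 := fun e => hv (Subtype.ext e)
        have h1 := congrArg Subtype.val ht
        rw [hφ] at h1
        have h2 : g ∈ Subgroup.centralizer ({(v : G)} : Set G) := by
          rw [Subgroup.mem_centralizer_singleton_iff]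
          rw [mul_inv_eq_iff_eq_mul] at h1
          exact h1
        obtain ⟨k, hk⟩ := hCp v v.2 hv' ⟨g, h2⟩
        refine ⟨k, ?_⟩
        have h3 : g ^ p ^ k = 1 := congrArg Subtype.val hk
        rw [← QuotientGroup.mk_pow, h3]
        rfl
  exact complement_of_not_dvd hyp.not_dvd

end Cfsg.Agent.S4840
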