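import Mathlib
import Cfsg.Statements.S4850
import Cfsg.Agent.Lib.NVChar
import Cfsg.Agent.Lib.NVTwo
import Cfsg.Agent.Lib.Glauberman
import Cfsg.Agent.Lib.FrobCompl
import Cfsg.Agent.Lib.Subnormal2

set_option autoImplicit false
set_option linter.unusedSectionVars false
set_option linter.unusedVariables false
set_option linter.style.haveILetI false
open Cfsg

namespace Cfsg.Agent.S4850

open Cfsg.Agent.Lib.NVChar Cfsg.Agent.Lib.PCore Cfsg.Agent.Lib.CharBasic
open scoped commutatorElement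

/-- `a` is a power of `a * b` when `a`, `b` commute and have coprime orders. -/
theorem mem_zpowers_mul_of_coprime {G : Type*} [Group G] [Finite G] {a b : G} (hc : a * b = b * a)
    (hcop : (orderOf a).Coprime (orderOf b)) : a ∈ Subgroup.zpowers (a * b) := by
  have hbez := Nat.gcd_eq_gcd_ab (orderOf b) (orderOf a)
  rw [Nat.Coprime.symm hcop] at hbez
  set A := (orderOf b).gcdA (orderOf a)
  set B := (orderOf b).gcdB (orderOf a)
  refine Subgroup.mem_zpowers_iff.2 ⟨(orderOf b : ℤ) * A, ?_⟩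
  have hcm : Commute a b := hc
  rw [hcm.mul_zpow]
  have h1 : b ^ ((orderOf b : ℤ) * A) = 1 := by
    rw [zpow_mul, zpow_natCast, pow_orderOf_eq_one, one_zpow]
  have h2 : a ^ ((orderOf b : ℤ) * A) = a := by
    have h3 : (orderOf b : ℤ) * A = 1 - (orderOf a : ℤ) * B := by
      push_cast at hbez
      linarith
    rw [h3, zpow_sub, zpow_one, zpow_mul, zpow_natCast, pow_orderOf_eq_one, one_zpow, inv_one, mul_one]
  rw [h1, h2, mul_one]


/-- The odd prime case of cyclicity. -/
theorem cyclic_of_odd {G : Type*} [Group G] [Finite G] [hs : Group.IsSolvable G] (p : ℕ) [Fact p.Prime]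
    (hp : p ≠ 2) (b : ℕ) (hV : ∀ x : G, (∃ χ : Cfsg.IrrCharacter G, (χ : G → ℂ) x = 0) → p ∣ orderOf x →
      orderOf x = b) (P : Sylow p G) :
    IsCyclic ↥((P : Subgroup G).map (QuotientGroup.mk' (Cfsg.pCore p G))) := by
  classical
  have hpp : p.Prime := Fact.out
  haveI hOn : (pCore p G).Normal := inferInstance
  have hA : ∀ x y : G, y ∈ Subgroup.zpowers x → (∃ k : ℕ, y ^ (p ^ k) = 1) → y ∉ pCore p G →
      orderOf x = b := by
    intro x y hy hyk hyO
    refine hV x (exists_irr_zero' hp hy hyk hyO) ?_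
    have hy1 : y ≠ 1 := fun h => hyO (h ▸ (pCore p G).one_mem)
    obtain ⟨k, hk⟩ := hyk
    have h2 : orderOf y ∣ p ^ k := orderOf_dvd_of_pow_eq_one hk
    obtain ⟨m, -, hm⟩ := (Nat.dvd_prime_pow hpp).1 h2
    have hm0 : m ≠ 0 := by
      rintro rfl
      exact hy1 (orderOf_eq_one_iff.1 (by simpa using hm))
    have h3 : p ∣ orderOf y := by
      rw [hm]
      exact dvd_pow_self p hm0
    exact h3.trans (orderOf_dvd_of_mem_zpowers hy)
  have hConj : ∀ x y x' y' : G, y ∈ Subgroup.zpowers x → (∃ k : ℕ, y ^ (p ^ k) = 1) → y ∉ pCore p G →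
      y' ∈ Subgroup.zpowers x' → (∃ k : ℕ, y' ^ (p ^ k) = 1) → y' ∉ pCore p G → orderOf x = orderOf x' := by
    intro x y x' y' h1 h2 h3 h4 h5 h6
    rw [hA x y h1 h2 h3, hA x' y' h4 h5 h6]
  -- commuting `p'`-elements are trivial
  have hC : ∀ c m : G, (∃ k : ℕ, c ^ (p ^ k) = 1) → c ∉ pCore p G → c * m = m * c →
      (orderOf m).Coprime p → m = 1 := by
    intro c m hck hcO hcomm hmcop
    obtain ⟨k, hk⟩ := hck
    have hcop : (orderOf c).Coprime (orderOf m) := by
      have h2 : orderOf c ∣ p ^ k := orderOf_dvd_of_pow_eq_one hk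
      exact Nat.Coprime.coprime_dvd_left h2 (Nat.Coprime.pow_left k hmcop.symm)
    have h3 := mem_zpowers_mul_of_coprime hcomm hcop
    have h4 := hConj (c * m) c c c h3 ⟨k, hk⟩ hcO (Subgroup.mem_zpowers c) ⟨k, hk⟩ hcO
    have h5 : Commute c m := hcomm
    rw [h5.orderOf_mul_eq_mul_orderOf_of_coprime hcop] at h4
    have hpos : 0 < orderOf c := orderOf_pos c
    have h6 : orderOf m = 1 := by
      have : orderOf c * orderOf m = orderOf c * 1 := by rw [h4, mul_one]
      exact Nat.eq_of_mul_eq_mul_left hpos this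
    exact orderOf_eq_one_iff.1 h6
  have hOP : pCore p G ≤ (P : Subgroup G) := pCore_le_sylow p P
  by_cases hPO : (P : Subgroup G) ≤ pCore p G
  · have h2 : (P : Subgroup G).map (QuotientGroup.mk' (pCore p G)) = ⊥ := by
      rw [eq_bot_iff]
      rintro _ ⟨g, hg, rfl⟩
      rw [Subgroup.mem_bot]
      exact (QuotientGroup.eq_one_iff g).2 (hPO hg)
    rw [h2]
    infer_instance
  -- elements of `P`
  have hPk : ∀ g ∈ (P : Subgroup G), ∃ k : ℕ, g ^ (p ^ k) = 1 := by
    intro g hg
    obtain ⟨k, hk⟩ := P.isPGroup' ⟨g, hg⟩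
    exact ⟨k, by simpa using congrArg Subtype.val hk⟩
  -- the quotient
  let π := QuotientGroup.mk' (pCore p G)
  have hπsurj : Function.Surjective π := QuotientGroup.mk'_surjective _
  have hπ1 : ∀ g : G, π g = 1 ↔ g ∈ pCore p G := fun g => QuotientGroup.eq_one_iff g
  let Pb : Subgroup (G ⧸ pCore p G) := (P : Subgroup G).map π
  have hPbp : IsPGroup p Pb := P.isPGroup'.map π
  have hOb : pCore p (G ⧸ pCore p G) = ⊥ := pCore_quotient_pCore p
  -- a nontrivial abelian normal subgroup of the quotient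
  obtain ⟨x₀, hx₀P, hx₀O⟩ : ∃ x ∈ (P : Subgroup G), x ∉ pCore p G := by
    by_contra hn
    push Not at hn
    exact hPO hn
  have hGnt : (⊤ : Subgroup (G ⧸ pCore p G)) ≠ ⊥ := by
    intro h
    have h2 : π x₀ ∈ (⊤ : Subgroup (G ⧸ pCore p G)) := trivial
    rw [h, Subgroup.mem_bot, hπ1] at h2
    exact hx₀O h2
  obtain ⟨M, hMn, hMbot, -, hMab⟩ := exists_abelian_normal_le (⊤ : Subgroup (G ⧸ pCore p G))
    inferInstance hGnt
  haveI := hMn
  have hMcomm : ∀ a ∈ M, ∀ b ∈ M, a * b = b * a := by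
    intro a ha b hb
    have h2 : ⁅a, b⁆ ∈ ⁅M, M⁆ := Subgroup.commutator_mem_commutator ha hb
    rw [hMab, Subgroup.mem_bot] at h2
    exact commutatorElement_eq_one_iff_mul_comm.1 h2
  have hMcop : (Nat.card M).Coprime p := coprime_card_of_abelian_normal M hMn hMcomm hOb
  -- fixed-point-free action
  have hfpf : ∀ a ∈ Pb, a ≠ 1 → M ⊓ Subgroup.centralizer {a} = ⊥ := by
    rintro _ ⟨x, hxP, rfl⟩ ha1
    rw [eq_bot_iff]
    rintro mb ⟨hmb, hmbc⟩
    rw [Subgroup.mem_bot]
    have hmbc' : mb * π x = π x * mb := by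
      have hmbc'' : mb ∈ Subgroup.centralizer {π x} := hmbc
      rw [Subgroup.mem_centralizer_singleton_iff] at hmbc''
      exact hmbc''
    have hxO : x ∉ pCore p G := fun h => ha1 ((hπ1 x).2 h)
    -- a lift of `mb` of order prime to `p`
    obtain ⟨m₁, hm₁⟩ := hπsurj mb
    have hmbord : (orderOf mb).Coprime p := by
      have h2 : orderOf mb = orderOf (⟨mb, hmb⟩ : M) := (Subgroup.orderOf_mk _ _).symm
      rw [h2]
      exact Nat.Coprime.coprime_dvd_left (orderOf_dvd_natCard _) hMcop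
    obtain ⟨m₀, hm₀π, hm₀c⟩ : ∃ m₀ : G, π m₀ = mb ∧ (orderOf m₀).Coprime p := by
      -- write the order of `m₁` as `p ^ a * b`
      obtain ⟨a, b, hb, hab⟩ := Nat.exists_eq_pow_mul_and_not_dvd (orderOf_pos m₁).ne' p hpp.ne_one
      have hcop1 : (p ^ a).Coprime (orderOf mb) := (Nat.Coprime.pow_left a hmbord.symm)
      have hbez := Nat.gcd_eq_gcd_ab (p ^ a) (orderOf mb)
      rw [hcop1] at hbez
      set A := (p ^ a).gcdA (orderOf mb)
      set B := (p ^ a).gcdB (orderOf mb)
      refine ⟨m₁ ^ (((p ^ a : ℕ) : ℤ) * A), ?_, ?_⟩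
      · rw [map_zpow, hm₁]
        have h3 : ((p ^ a : ℕ) : ℤ) * A = 1 - (orderOf mb : ℤ) * B := by
          push_cast at hbez ⊢
          linarith
        rw [h3, zpow_sub, zpow_one, zpow_mul, zpow_natCast, pow_orderOf_eq_one, one_zpow, inv_one,
          mul_one]
      · have h4 : (m₁ ^ (((p ^ a : ℕ) : ℤ) * A)) ^ b = 1 := by
          rw [← zpow_natCast, ← zpow_mul, mul_comm, ← mul_assoc]
          have h5 : ((b : ℤ) * ((p ^ a : ℕ) : ℤ)) = (orderOf m₁ : ℤ) := by
            rw [hab]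
            push_cast
            ring
          rw [h5, zpow_mul, zpow_natCast, pow_orderOf_eq_one, one_zpow]
        have h6 : orderOf (m₁ ^ (((p ^ a : ℕ) : ℤ) * A)) ∣ b := orderOf_dvd_of_pow_eq_one h4
        exact Nat.Coprime.coprime_dvd_left h6 ((Nat.Prime.coprime_iff_not_dvd hpp).2 hb).symm
    -- the coprime action
    let A : Subgroup G := Subgroup.zpowers m₀
    let K : Subgroup G := pCore p G ⊔ Subgroup.zpowers x
    have hxk : IsPGroup p (Subgroup.zpowers x) := by
      rw [IsPGroup.iff_card, Nat.card_zpowers]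
      obtain ⟨k, hk⟩ := hPk x hxP
      obtain ⟨m, -, hm⟩ := (Nat.dvd_prime_pow hpp).1 (orderOf_dvd_of_pow_eq_one hk)
      exact ⟨m, hm⟩
    have hKp : IsPGroup p K := (isPGroup_pCore p).to_sup_of_normal_left hxk
    obtain ⟨j, hj⟩ := IsPGroup.iff_card.1 hKp
    have hAK : (Nat.card A).Coprime (Nat.card K) := by
      rw [hj, Nat.card_zpowers]
      exact Nat.Coprime.pow_right j hm₀c
    have hnorm : ∀ S : Subgroup G, S ≤ Subgroup.normalizer ((pCore p G : Subgroup G) : Set G) := by
      intro S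
      rw [Subgroup.normalizer_eq_top]
      exact le_top
    have hfix : ∀ a ∈ A, a * x * a⁻¹ * x⁻¹ ∈ pCore p G := by
      intro a ha
      obtain ⟨i, rfl⟩ := Subgroup.mem_zpowers_iff.1 ha
      rw [← hπ1]
      simp only [map_mul, map_inv, map_zpow, hm₀π]
      have hcm : Commute mb (π x) := hmbc'
      have h7 : mb ^ i * π x = π x * mb ^ i := (hcm.zpow_left i).eq
      rw [h7]
      group
    obtain ⟨c, ⟨hcK, hcA⟩, hxc⟩ := Cfsg.Agent.Lib.Glauberman.exists_mem_centralizer_of_coset_fixed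
      hAK (Or.inr inferInstance) (le_sup_left : pCore p G ≤ K) (hnorm K) (hnorm A) x
      (Subgroup.mem_sup_right (Subgroup.mem_zpowers x)) hfix
    have hcO : c ∉ pCore p G := by
      intro h
      apply hxO
      have h8 : x = c * (x⁻¹ * c)⁻¹ := by group
      rw [h8]
      exact (pCore p G).mul_mem h ((pCore p G).inv_mem hxc)
    have hck : ∃ k : ℕ, c ^ (p ^ k) = 1 := by
      obtain ⟨k, hk⟩ := hKp ⟨c, hcK⟩
      exact ⟨k, by simpa using congrArg Subtype.val hk⟩
    have hcomm : c * m₀ = m₀ * c := by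
      have h9 : c ∈ Subgroup.centralizer (A : Set G) := hcA
      rw [Subgroup.mem_centralizer_iff] at h9
      exact (h9 m₀ (Subgroup.mem_zpowers m₀)).symm
    have hm01 := hC c m₀ hck hcO hcomm hm₀c
    rw [← hm₀π, hm01, map_one]
  -- `Pb` is cyclic
  haveI : Nontrivial M := (Subgroup.nontrivial_iff_ne_bot M).2 hMbot
  letI instM : CommGroup M :=
    { (inferInstance : Group M) with mul_comm := fun a b => Subtype.ext (hMcomm a a.2 b b.2) }
  have hPbM : Pb ≤ Subgroup.normalizer (M : Set (G ⧸ pCore p G)) := by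
    rw [Subgroup.normalizer_eq_top]
    exact le_top
  have hcyc : IsCyclic Pb := by
    rcases Cfsg.Agent.Lib.FrobCompl.cyclic_or_quaternion_of_fpf hPbp
      (Cfsg.Agent.Lib.FpfNorm.conjHom_fpf Pb M hPbM hfpf) with h | h
    · exact h
    · exact absurd h.1 hp

  exact hcyc

/-- Let p be a prime and G a finite solvable group whose vanishing elements (elements at which some irreducible character is zero) of order divisible by p all have the same order, with at least one such element. Let P be a Sylow p-subgroup of G. Then the derived subgroup of P is subnormal in G and the image of P in G/O_p(G) is cyclic. -/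
theorem result {G : Type*} [Group G] [Finite G] [hs : Group.IsSolvable G] (p : ℕ) [Fact p.Prime] (b : ℕ) (hvo : {n : ℕ | p ∣ n ∧ ∃ (g : G) (χ : Cfsg.IrrCharacter G), orderOf g = n ∧ (χ : G → ℂ) g = 0} = {b}) (P : Sylow p G) :
    ((commutator ↥(P : Subgroup G)).map (P : Subgroup G).subtype).IsSubnormal ∧ IsCyclic ↥((P : Subgroup G).map (QuotientGroup.mk' (Cfsg.pCore p G))) := by
  classical
  have hpp : p.Prime := Fact.out
  have hV : ∀ x : G, (∃ χ : Cfsg.IrrCharacter G, (χ : G → ℂ) x = 0) → p ∣ orderOf x →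
      orderOf x = b := by
    rintro x ⟨χ, hχ⟩ hx
    have h1 : orderOf x ∈ {n : ℕ | p ∣ n ∧ ∃ (g : G) (χ : Cfsg.IrrCharacter G), orderOf g = n ∧ (χ : G → ℂ) g = 0} :=
      ⟨hx, x, χ, rfl, hχ⟩
    rw [hvo] at h1
    exact h1
  have hcyc : IsCyclic ↥((P : Subgroup G).map (QuotientGroup.mk' (Cfsg.pCore p G))) := by
    by_cases hp : p = 2
    · subst hp
      have hPG : Cfsg.Agent.Lib.NVTwo.PropP G := by
        rintro q m h1 ⟨χ₂, hχ₂⟩ h3
        have h4 : m ≠ 0 := by
          rintro rfl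
          rw [pow_zero, orderOf_one] at h3
          omega
        have h5 := hV (q ^ m) ⟨χ₂, hχ₂⟩ h3
        have h6 : 2 ∣ orderOf q := h3.trans (orderOf_dvd_of_mem_zpowers (Subgroup.npow_mem_zpowers q m))
        have h7 := hV q h1 h6
        rw [orderOf_pow' q h4, ← h7] at h5
        have hpos : 0 < orderOf q := orderOf_pos q
        have hd : Nat.gcd (orderOf q) m ∣ orderOf q := Nat.gcd_dvd_left _ _
        have h8 : Nat.gcd (orderOf q) m * (orderOf q / Nat.gcd (orderOf q) m) = orderOf q :=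
          Nat.mul_div_cancel' hd
        rw [h5] at h8
        have h9 : Nat.gcd (orderOf q) m = 1 := by
          have h10 : Nat.gcd (orderOf q) m * orderOf q = 1 * orderOf q := by rw [h8, one_mul]
          exact Nat.eq_of_mul_eq_mul_right hpos h10
        rw [Nat.Coprime, Nat.gcd_comm]
        exact h9
      let Q := G ⧸ pCore 2 G
      have hPQ : Cfsg.Agent.Lib.NVTwo.PropP Q :=
        hPG.of_surjective (QuotientGroup.mk' (pCore 2 G)) (QuotientGroup.mk'_surjective _)
      have hO : pCore 2 Q = ⊥ := pCore_quotient_pCore 2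
      have hmap : IsPGroup 2 ((P : Subgroup G).map (QuotientGroup.mk' (Cfsg.pCore 2 G))) :=
        P.isPGroup'.map _
      obtain ⟨T, hT⟩ := hmap.exists_le_sylow
      have hT2 := Cfsg.Agent.Lib.NVTwo.sylow_two_card_le (Nat.card Q) Q le_rfl hPQ hO T
      have h2 : Nat.card ((P : Subgroup G).map (QuotientGroup.mk' (Cfsg.pCore 2 G))) ≤ 2 :=
        (Subgroup.card_le_of_le hT).trans hT2
      have h3 : 0 < Nat.card ((P : Subgroup G).map (QuotientGroup.mk' (Cfsg.pCore 2 G))) := Nat.card_pos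
      have h4 : Nat.card ((P : Subgroup G).map (QuotientGroup.mk' (Cfsg.pCore 2 G))) = 1 ∨
          Nat.card ((P : Subgroup G).map (QuotientGroup.mk' (Cfsg.pCore 2 G))) = 2 := by omega
      rcases h4 with h4 | h4
      · haveI := (Nat.card_eq_one_iff_unique.1 h4).1
        infer_instance
      · haveI : Fact (Nat.Prime (Nat.card ((P : Subgroup G).map (QuotientGroup.mk' (Cfsg.pCore 2 G))))) :=
          ⟨by rw [h4]; exact Nat.prime_two⟩
        exact isCyclic_of_prime_card rfl
    · exact cyclic_of_odd p hp b hV P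
  refine ⟨?_, hcyc⟩
  -- the derived subgroup lies in `O_p(G)`
  have hD : (commutator ↥(P : Subgroup G)).map (P : Subgroup G).subtype ≤ pCore p G := by
    rw [Subgroup.map_le_iff_le_comap, commutator_def, Subgroup.commutator_le]
    intro a _ b _
    letI instC := IsCyclic.commGroup (α := ↥((P : Subgroup G).map (QuotientGroup.mk' (Cfsg.pCore p G))))
    have h1 : QuotientGroup.mk' (Cfsg.pCore p G) (a : G) ∈ (P : Subgroup G).map (QuotientGroup.mk' (Cfsg.pCore p G)) :=
      Subgroup.mem_map_of_mem _ a.2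
    have h2 : QuotientGroup.mk' (Cfsg.pCore p G) (b : G) ∈ (P : Subgroup G).map (QuotientGroup.mk' (Cfsg.pCore p G)) :=
      Subgroup.mem_map_of_mem _ b.2
    have h3 := congrArg Subtype.val (instC.mul_comm ⟨_, h1⟩ ⟨_, h2⟩)
    have h4 : QuotientGroup.mk' (Cfsg.pCore p G) (a : G) * QuotientGroup.mk' (Cfsg.pCore p G) (b : G) =
        QuotientGroup.mk' (Cfsg.pCore p G) (b : G) * QuotientGroup.mk' (Cfsg.pCore p G) (a : G) := h3
    show (⁅a, b⁆ : ↥(P : Subgroup G)).1 ∈ pCore p G
    rw [← QuotientGroup.eq_one_iff, ← QuotientGroup.mk'_apply]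
    have h5 : ((⁅a, b⁆ : ↥(P : Subgroup G)) : G) = (a : G) * b * (a : G)⁻¹ * (b : G)⁻¹ := rfl
    rw [h5]
    simp only [map_mul, map_inv]
    rw [h4]
    group
  refine Subgroup.IsSubnormal.trans hD ?_ (inferInstance : (pCore p G).Normal).isSubnormal
  haveI : Group.IsNilpotent (pCore p G) := (isPGroup_pCore p).isNilpotent
  exact Cfsg.Agent.Lib.Subnormal2.isSubnormal_of_isNilpotent _

end Cfsg.Agent.S4850
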