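import Mathlib
import Cfsg.Prelude.Def_Blocks
import Cfsg.Agent.Lib.CharCommutator

namespace Cfsg.Agent.S4856

open Cfsg Cfsg.Agent.Lib.CharBasic Cfsg.Agent.Lib.CharInd Cfsg.Agent.Lib.CharCommutator Cfsg.Agent.Lib.CharAvg
open scoped ComplexConjugate

universe u

variable {G : Type u} [Group G] [Fintype G] [DecidableEq G]

/-- the number of pairs with commutator `z`. -/
noncomputable def cnt (z : G) : ℂ :=
  ((Finset.univ.filter (fun xy : G × G => xy.1 * xy.2 * xy.1⁻¹ * xy.2⁻¹ = z)).card : ℂ)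

omit [Fintype G] in
theorem comm_conj (c a b : G) :
    (c * a * c⁻¹) * (c * b * c⁻¹) * (c * a * c⁻¹)⁻¹ * (c * b * c⁻¹)⁻¹ = c * (a * b * a⁻¹ * b⁻¹) * c⁻¹ := by
  group

theorem cnt_class : IsClassFunction G (cnt : G → ℂ) := by
  intro z h
  unfold cnt
  congr 1
  apply Finset.card_bij' (fun xy _ => (h⁻¹ * xy.1 * h, h⁻¹ * xy.2 * h))
    (fun xy _ => (h * xy.1 * h⁻¹, h * xy.2 * h⁻¹))
  · rintro ⟨a, b⟩ hab
    simp only [Finset.mem_filter, Finset.mem_univ, true_and] at hab ⊢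
    have := comm_conj h⁻¹ a b
    simp only [inv_inv] at this
    rw [this, hab]; group
  · rintro ⟨a, b⟩ hab
    simp only [Finset.mem_filter, Finset.mem_univ, true_and] at hab ⊢
    rw [comm_conj, hab]
  · rintro ⟨a, b⟩ _; simp only [Prod.mk.injEq]; constructor <;> group
  · rintro ⟨a, b⟩ _; simp only [Prod.mk.injEq]; constructor <;> group

theorem sum_cnt_mul (f : G → ℂ) :
    ∑ z : G, cnt z * f z = ∑ a : G, ∑ b : G, f (a * b * a⁻¹ * b⁻¹) := by
  classical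
  rw [← Finset.sum_product', Finset.univ_product_univ]
  have := Finset.sum_fiberwise (Finset.univ : Finset (G × G))
    (fun xy : G × G => xy.1 * xy.2 * xy.1⁻¹ * xy.2⁻¹) (fun xy => f (xy.1 * xy.2 * xy.1⁻¹ * xy.2⁻¹))
  rw [← this]
  refine Finset.sum_congr rfl fun z _ => ?_
  unfold cnt
  rw [Finset.sum_congr rfl (g := fun _ => f z)]
  · simp
  · intro xy hxy
    simp only [Finset.mem_filter, Finset.mem_univ, true_and] at hxy
    rw [hxy]

theorem sum_char_commutator {χ : G → ℂ} (hχ : IsIrrCharacter G χ) :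
    ∑ a : G, ∑ b : G, χ (a * b * a⁻¹ * b⁻¹) = (Nat.card G : ℂ) ^ 2 / χ 1 := by
  obtain ⟨n, ρ, hρ, rfl⟩ := hχ
  have hn : (n : ℂ) ≠ 0 := by
    have h := irr_one_ne_zero (χ := ρ.character) ⟨n, ρ, hρ, rfl⟩
    rwa [char_one_eq_rep] at h
  have hfr : Module.finrank ℂ (Fin n → ℂ) = n := by simp
  have hT := sum_commutator hρ
  rw [hfr] at hT
  have h1 := congrArg (LinearMap.trace ℂ (Fin n → ℂ)) hT
  simp only [map_sum, map_smul, LinearMap.trace_id, hfr, smul_eq_mul] at h1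
  rw [char_one_eq_rep]
  have h2 : ∑ a : G, ∑ b : G, ρ.character (a * b * a⁻¹ * b⁻¹) = ((Nat.card G : ℂ) / n) ^ 2 * n := by
    rw [← h1]; rfl
  rw [h2]
  field_simp

theorem cnt_inner (χ : IrrCharacter G) :
    classInner (cnt : G → ℂ) (χ : G → ℂ) = (Nat.card G : ℂ) / (χ : G → ℂ) 1 := by
  have hG : (Nat.card G : ℂ) ≠ 0 := natCard_ne_zero'
  obtain ⟨d, hd, hd1⟩ := irr_one_eq χ.2
  have hd0 : ((χ : G → ℂ) 1) ≠ 0 := irr_one_ne_zero χ.2
  unfold classInner
  have h1 := sum_cnt_mul (fun z : G => conj ((χ : G → ℂ) z))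
  rw [h1]
  have h2 := sum_char_commutator χ.2
  have h3 : ∑ a : G, ∑ b : G, conj ((χ : G → ℂ) (a * b * a⁻¹ * b⁻¹)) = (Nat.card G : ℂ) ^ 2 / (χ : G → ℂ) 1 := by
    have := congrArg conj h2
    simp only [map_sum, map_div₀, map_pow, Complex.conj_natCast, hd1] at this
    rw [hd1]
    exact this
  rw [h3]
  field_simp

theorem cnt_eq (z : G) :
    cnt z = (Nat.card G : ℂ) * ∑ χ : IrrCharacter G, (χ : G → ℂ) z / (χ : G → ℂ) 1 := by
  have h := congrFun (classFunction_eq_sum (cnt_class (G := G))) z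
  rw [h]
  simp only [Finset.sum_apply, Pi.smul_apply, smul_eq_mul, cnt_inner, Finset.mul_sum]
  refine Finset.sum_congr rfl fun χ _ => ?_
  ring

theorem result {G : Type*} [Group G] [Finite G] (z : G) : (Nat.card {xy : G × G // xy.1 * xy.2 * xy.1⁻¹ * xy.2⁻¹ = z} : ℂ) = (Nat.card G : ℂ) * ∑ᶠ χ : Cfsg.IrrCharacter G, (χ : G → ℂ) z / (χ : G → ℂ) 1 := by
  classical
  letI : Fintype G := Fintype.ofFinite G
  rw [finsum_eq_sum_of_fintype, ← cnt_eq]
  unfold cnt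
  rw [Nat.card_eq_fintype_card, Fintype.card_subtype]

end Cfsg.Agent.S4856
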