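import Mathlib
import Cfsg.Statements.S4861
import Cfsg.Agent.Lib.RealCore

set_option autoImplicit false

open Cfsg

namespace Cfsg.Agent.S4861

theorem result {G : Type*} [Group G] [Finite G] (p : ℕ) [Fact p.Prime] (hsolv : Group.IsSolvable ↥(Subgroup.closure {g : G | ∃ k : ℕ, orderOf g = p ^ k})) (hreal : ∀ χ : Cfsg.IrrCharacter G, (∀ g : G, ((χ : G → ℂ) g).im = 0) → ¬ p ∣ Cfsg.charDegree (χ : G → ℂ)) (Q : Sylow p ↥(Subgroup.closure {g : G | ∃ k : ℕ, orderOf g = 2 ^ k})) : (Q : Subgroup ↥(Subgroup.closure {g : G | ∃ k : ℕ, orderOf g = 2 ^ k})).Normal := by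
  refine Cfsg.Agent.Lib.RealCore.sylow_normal p hsolv hreal _ (Cfsg.Agent.Lib.RealCore.gen_normal 2) le_rfl ?_ Q
  intro x hx
  exact ⟨0, by simpa using hx⟩

end Cfsg.Agent.S4861
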