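import Mathlib
import Cfsg.Statements.S4862
import Cfsg.Agent.Lib.RealComm

set_option autoImplicit false

open Cfsg

namespace Cfsg.Agent.S4862

theorem result {G : Type*} [Group G] [Finite G] (p : ℕ) [Fact p.Prime] (hp : p ≠ 2) (hsolv : Group.IsSolvable ↥(Subgroup.closure {g : G | ∃ k : ℕ, orderOf g = p ^ k})) (hreal : ∀ χ : Cfsg.IrrCharacter G, (∀ g : G, ((χ : G → ℂ) g).im = 0) → ¬ p ∣ Cfsg.charDegree (χ : G → ℂ)) (P : Sylow p G) (M : Subgroup G) (hM : M.Normal) (hMK : M ≤ (Subgroup.closure {g : G | ∃ k : ℕ, orderOf g = 2 ^ k})) (hMP : M ≤ ⁅(P : Subgroup G), (P : Subgroup G)⁆) : (Subgroup.closure {g : G | ∃ k : ℕ, orderOf g = 2 ^ k}) ≤ Subgroup.centralizer (M : Set G) := by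
  rw [Subgroup.closure_le]
  rintro t ⟨k, hk⟩
  have ht : t ^ (2 ^ k) = 1 := by rw [← hk]; exact pow_orderOf_eq_one t
  have h := Cfsg.Agent.Lib.RealComm.main p hp _ G rfl hreal (P : Subgroup G) P.isPGroup' M hM hMP t ⟨k, ht⟩
  show t ∈ Subgroup.centralizer (M : Set G)
  rw [Subgroup.mem_centralizer_iff]
  intro m hm
  have h2 := h m hm
  rw [mul_inv_eq_iff_eq_mul] at h2
  exact h2.symm

end Cfsg.Agent.S4862
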