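import Mathlib
import Cfsg.Statements.S4863
import Cfsg.Agent.Lib.RealCore

set_option autoImplicit false

open Cfsg

namespace Cfsg.Agent.S4863

theorem result {G : Type*} [Group G] [Finite G] (p : ℕ) [Fact p.Prime] (hsolv : Group.IsSolvable ↥(Subgroup.closure {g : G | ∃ k : ℕ, orderOf g = p ^ k})) (hreal : ∀ χ : Cfsg.IrrCharacter G, (∀ g : G, ((χ : G → ℂ) g).im = 0) → ¬ p ∣ Cfsg.charDegree (χ : G → ℂ)) (U : Subgroup G) (hU : U.Normal) (hKU : (Subgroup.closure {g : G | ∃ k : ℕ, orderOf g = 2 ^ k}) ≤ U) (hUp : ∃ a : ℕ, (Subgroup.closure {g : G | ∃ k : ℕ, orderOf g = 2 ^ k}).relIndex U = p ^ a) (hmax : ∀ V : Subgroup G, V.Normal → (Subgroup.closure {g : G | ∃ k : ℕ, orderOf g = 2 ^ k}) ≤ V → (∃ b : ℕ, (Subgroup.closure {g : G | ∃ k : ℕ, orderOf g = 2 ^ k}).relIndex V = p ^ b) → V ≤ U) (Q : Sylow p ↥U) : (Q : Subgroup ↥U).Normal := by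
  refine Cfsg.Agent.Lib.RealCore.sylow_normal p hsolv hreal U hU hKU ?_ Q
  intro x hx
  obtain ⟨a, ha⟩ := hUp
  refine ⟨a, ?_⟩
  have hK : (Cfsg.Agent.Lib.RealCore.gen 2 G).Normal := Cfsg.Agent.Lib.RealCore.gen_normal 2
  haveI : ((Cfsg.Agent.Lib.RealCore.gen 2 G).subgroupOf U).Normal := Subgroup.Normal.subgroupOf hK U
  have h1 : (⟨x, hx⟩ : U) ^ ((Cfsg.Agent.Lib.RealCore.gen 2 G).subgroupOf U).index ∈ (Cfsg.Agent.Lib.RealCore.gen 2 G).subgroupOf U :=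
    Subgroup.pow_index_mem _ _
  have h2 : ((Cfsg.Agent.Lib.RealCore.gen 2 G).subgroupOf U).index = p ^ a := ha
  rw [h2, Subgroup.mem_subgroupOf] at h1
  simpa using h1

end Cfsg.Agent.S4863
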