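import Mathlib
import Cfsg.Statements.S4864
import Cfsg.Agent.Lib.RealOrbit
import Cfsg.Agent.Lib.H73Hom

set_option autoImplicit false
set_option linter.unusedVariables false
set_option linter.style.haveILetI false

open Cfsg Cfsg.Agent.Lib.CharBasic Cfsg.Agent.Lib.RealCore Cfsg.Agent.Lib.RealChars

namespace Cfsg.Agent.S4864

universe u

theorem result {G : Type*} [Group G] [Finite G] (p : ℕ) [Fact p.Prime] (hsolv : Group.IsSolvable ↥(Subgroup.closure {g : G | ∃ k : ℕ, orderOf g = p ^ k})) (hreal : ∀ χ : Cfsg.IrrCharacter G, (∀ g : G, ((χ : G → ℂ) g).im = 0) → ¬ p ∣ Cfsg.charDegree (χ : G → ℂ)) (P : Sylow p G) (x : G) (hx : IsConj x x⁻¹) : ∃ y ∈ Subgroup.normalizer ((P : Subgroup G) : Set G), IsConj x y := by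
  classical
  have hp : Nat.Prime p := Fact.out
  set K₀ : Subgroup G := gen 2 G with hK₀def
  have hK₀ : K₀.Normal := gen_normal 2
  obtain ⟨R, hRU, hRp, hRall⟩ := core p (Nat.card G) G rfl hsolv hreal K₀ hK₀ le_rfl
    (fun x hx => ⟨0, by simpa using hx⟩)
  have hRn : R.Normal := by
    constructor
    intro y hy g
    obtain ⟨k, hk⟩ := IsPGroup.iff_orderOf.mp hRp ⟨y, hy⟩
    have hy' : y ^ (p ^ k) = 1 := by
      have h1 := pow_orderOf_eq_one (⟨y, hy⟩ : R)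
      rw [hk] at h1
      simpa using congrArg Subtype.val h1
    apply hRall _ (hK₀.conj_mem y (hRU hy) g)
    refine ⟨k, ?_⟩
    rw [conj_pow, hy', mul_one, mul_inv_cancel]
  haveI := hRn
  let π : G →* G ⧸ R := QuotientGroup.mk' R
  have hπ : Function.Surjective π := QuotientGroup.mk'_surjective R
  let K : Subgroup (G ⧸ R) := K₀.map π
  haveI hKn : K.Normal := hK₀.map π hπ
  have hodd₀ : Odd K₀.index := by
    obtain ⟨Q⟩ : Nonempty (Sylow 2 G) := by
      haveI : Fact (Nat.Prime 2) := ⟨Nat.prime_two⟩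
      infer_instance
    haveI : Fact (Nat.Prime 2) := ⟨Nat.prime_two⟩
    have hQK : (Q : Subgroup G) ≤ K₀ := by
      intro y hy
      obtain ⟨k, hk⟩ := IsPGroup.iff_orderOf.mp Q.isPGroup' ⟨y, hy⟩
      apply Subgroup.subset_closure
      exact ⟨k, by rw [← hk, Subgroup.orderOf_mk]⟩
    rw [← Nat.not_even_iff_odd, even_iff_two_dvd]
    intro h2
    exact Q.not_dvd_index (h2.trans (Subgroup.index_dvd_of_le hQK))
  have hodd : Odd K.index := by
    have h1 : K.index ∣ K₀.index := Subgroup.index_map_dvd K₀ hπ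
    exact Odd.of_dvd_nat hodd₀ h1
  have hpK : ¬ p ∣ Nat.card K := by
    intro hdvd
    haveI : Fact p.Prime := ⟨hp⟩
    obtain ⟨k, hk⟩ := exists_prime_orderOf_dvd_card' p hdvd
    obtain ⟨y, hy, hye⟩ := k.2
    have h1 : (k : G ⧸ R) ^ p = 1 := by
      have := pow_orderOf_eq_one k
      rw [hk] at this
      simpa using congrArg Subtype.val this
    rw [← hye, ← map_pow] at h1
    have h2 : y ^ p ∈ R := (QuotientGroup.eq_one_iff _).mp h1
    obtain ⟨a, ha⟩ := IsPGroup.iff_orderOf.mp hRp ⟨y ^ p, h2⟩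
    have h3 : (y ^ p) ^ (p ^ a) = 1 := by
      have h4 := pow_orderOf_eq_one (⟨y ^ p, h2⟩ : R)
      rw [ha] at h4
      simpa using congrArg Subtype.val h4
    have h5 : y ∈ R := by
      apply hRall y hy
      refine ⟨a + 1, ?_⟩
      rw [pow_succ', pow_mul]
      exact h3
    have h6 : k = 1 := by
      apply Subtype.ext
      rw [← hye]
      exact (QuotientGroup.eq_one_iff _).mpr h5
    rw [h6, orderOf_one] at hk
    exact hp.one_lt.ne hk
  -- the Sylow subgroup of the quotient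
  let Pb : Sylow p (G ⧸ R) := P.mapSurjective hπ
  have hreal' : ∀ χ : IrrCharacter (G ⧸ R), conjIrr χ = χ → ¬ p ∣ charDegree (χ : G ⧸ R → ℂ) := by
    intro χ hχ
    have hχ' := (conjIrr_eq_iff χ).mp hχ
    let χ' : IrrCharacter G := ⟨fun g => (χ : G ⧸ R → ℂ) (π g),
      isIrrCharacter_comp_of_surjective π hπ χ.2⟩
    have h1 := hreal χ' (fun g => hχ' (π g))
    have h2 : charDegree (χ' : G → ℂ) = charDegree (χ : G ⧸ R → ℂ) := by
      unfold charDegree
      show ⌊((χ : G ⧸ R → ℂ) (π 1)).re⌋₊ = _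
      rw [map_one]
    rwa [h2] at h1
  -- `x` lies in `K₀`, inverted by a `2`-element
  obtain ⟨c, hc⟩ := isConj_iff.mp hx
  obtain ⟨a, m, hm, ham⟩ := Nat.exists_eq_two_pow_mul_odd (orderOf_pos c).ne'
  have hcsq : ∀ j : ℕ, c ^ (2 * j) * x * (c ^ (2 * j))⁻¹ = x := by
    intro j
    induction j with
    | zero => simp
    | succ j ih =>
      have e : 2 * (j + 1) = 2 * j + 2 := by ring
      have h1 : c * (c * x * c⁻¹) * c⁻¹ = x := by
        rw [hc]
        have := congrArg (fun z => z⁻¹) hc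
        simp only [mul_inv_rev, inv_inv, mul_assoc] at this
        simpa [mul_assoc] using this
      rw [e, pow_add, pow_two]
      calc c ^ (2 * j) * (c * c) * x * (c ^ (2 * j) * (c * c))⁻¹
          = c ^ (2 * j) * (c * (c * x * c⁻¹) * c⁻¹) * (c ^ (2 * j))⁻¹ := by group
        _ = x := by rw [h1, ih]
  set t := c ^ m with ht
  have htx : t * x * t⁻¹ = x⁻¹ := by
    obtain ⟨j, rfl⟩ := hm
    rw [ht, pow_succ]
    calc c ^ (2 * j) * c * x * (c ^ (2 * j) * c)⁻¹ = c ^ (2 * j) * (c * x * c⁻¹) * (c ^ (2 * j))⁻¹ := by group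
      _ = (c ^ (2 * j) * x * (c ^ (2 * j))⁻¹)⁻¹ := by rw [hc]; group
      _ = x⁻¹ := by rw [hcsq]
  have htK : t ∈ K₀ := by
    apply mem_gen Nat.prime_two (k := a)
    rw [ht, ← pow_mul, mul_comm, ← ham, pow_orderOf_eq_one]
  have hx2 : x ^ 2 ∈ K₀ := by
    have h1 : t⁻¹ ∈ K₀ := K₀.inv_mem htK
    have h2 := K₀.mul_mem (hK₀.conj_mem _ h1 x) htK
    have h3 : x * t⁻¹ * x⁻¹ * t = x ^ 2 := by
      have h4 : t⁻¹ * x⁻¹ * t = x := by
        have h5 : x⁻¹ = t * x * t⁻¹ := htx.symm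
        rw [h5]
        group
      calc x * t⁻¹ * x⁻¹ * t = x * (t⁻¹ * x⁻¹ * t) := by group
        _ = x ^ 2 := by rw [h4, pow_two]
    rwa [h3] at h2
  have hxK : x ∈ K₀ := by
    obtain ⟨j, hj⟩ := hodd₀
    have h1 : x ^ K₀.index ∈ K₀ := Subgroup.pow_index_mem K₀ x
    have h2 : x = ((x ^ 2) ^ j)⁻¹ * x ^ K₀.index := by
      rw [hj, pow_succ x (2 * j), pow_mul x 2 j]
      group
    rw [h2]
    exact K₀.mul_mem (K₀.inv_mem (K₀.pow_mem hx2 j)) h1
  let x' : K := ⟨π x, x, hxK, rfl⟩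
  have hx' : IsConj x' x'⁻¹ := by
    refine isConj_iff.mpr ⟨⟨π t, t, htK, rfl⟩, ?_⟩
    apply Subtype.ext
    show π t * π x * (π t)⁻¹ = (π x)⁻¹
    rw [← map_inv, ← map_inv, ← map_mul, ← map_mul, htx, map_inv]
  obtain ⟨g, hg⟩ := Cfsg.Agent.Lib.RealOrbit.exists_centralized K hodd hpK Pb hreal' x' hx'
  obtain ⟨h, rfl⟩ := hπ g
  have hRP : R ≤ (P : Subgroup G) := by
    have h1 := P.is_maximal' (P.isPGroup'.to_sup_of_normal_right hRp) le_sup_left
    rw [← h1]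
    exact le_sup_right
  refine ⟨h * x * h⁻¹, ?_, isConj_iff.mpr ⟨h, rfl⟩⟩
  apply Cfsg.Agent.Lib.H73Hom.mem_normalizer_of_conj_mem
  intro u hu
  have h1 := hg (π u) (by
    show π u ∈ ((P.mapSurjective hπ : Sylow p (G ⧸ R)) : Subgroup (G ⧸ R))
    rw [Sylow.coe_mapSurjective]
    exact ⟨u, hu, rfl⟩)
  have h2 : π (u * (h * x * h⁻¹) * u⁻¹ * (h * x * h⁻¹)⁻¹) = 1 := by
    simp only [map_mul, map_inv]
    show π u * (π h * (π x) * (π h)⁻¹) * (π u)⁻¹ * (π h * (π x) * (π h)⁻¹)⁻¹ = 1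
    rw [mul_inv_eq_one]
    exact h1
  have h3 : u * (h * x * h⁻¹) * u⁻¹ * (h * x * h⁻¹)⁻¹ ∈ R := (QuotientGroup.eq_one_iff _).mp h2
  have h4 := (P : Subgroup G).inv_mem (hRP h3)
  have h5 := (P : Subgroup G).mul_mem h4 hu
  have h6 : (u * (h * x * h⁻¹) * u⁻¹ * (h * x * h⁻¹)⁻¹)⁻¹ * u = h * x * h⁻¹ * u * (h * x * h⁻¹)⁻¹ := by
    group
  rwa [h6] at h5

end Cfsg.Agent.S4864
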