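import Mathlib
import Cfsg.Statements.S4865
import Cfsg.Agent.Lib.RealOdd

set_option autoImplicit false
set_option linter.unusedVariables false
set_option linter.style.haveILetI false

open Cfsg Cfsg.Agent.Lib.CharBasic Cfsg.Agent.Lib.RealCore Cfsg.Agent.Lib.RealChars Cfsg.Agent.Lib.RealOdd

namespace Cfsg.Agent.S4865

/-- Let p be a prime and G a finite group such that the subgroup generated by the p-elements of G is solvable and every real-valued irreducible complex character of G has degree prime to p. Let N be the normalizer of a Sylow p-subgroup of G. Then there is a bijection from the real-valued irreducible characters of G onto the real-valued irreducible characters of N of degree prime to p under which corresponding degrees are congruent modulo p up to sign. -/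
theorem result {G : Type*} [Group G] [Finite G] (p : ℕ) [Fact p.Prime] (hsolv : Group.IsSolvable ↥(Subgroup.closure {g : G | ∃ k : ℕ, orderOf g = p ^ k})) (hreal : ∀ χ : Cfsg.IrrCharacter G, (∀ g : G, ((χ : G → ℂ) g).im = 0) → ¬ p ∣ Cfsg.charDegree (χ : G → ℂ)) (P : Sylow p G) : ∃ f : {χ : Cfsg.IrrCharacter G // ∀ g : G, ((χ : G → ℂ) g).im = 0} → {ξ : Cfsg.IrrCharacter ↥(Subgroup.normalizer ((P : Subgroup G) : Set G)) // (∀ n, ((ξ : ↥(Subgroup.normalizer ((P : Subgroup G) : Set G)) → ℂ) n).im = 0) ∧ ¬ p ∣ Cfsg.charDegree (ξ : ↥(Subgroup.normalizer ((P : Subgroup G) : Set G)) → ℂ)}, Function.Bijective f ∧ ∀ χ, ((Cfsg.charDegree ((f χ).1 : ↥(Subgroup.normalizer ((P : Subgroup G) : Set G)) → ℂ) : ZMod p) = (Cfsg.charDegree (χ.1 : G → ℂ) : ZMod p) ∨ (Cfsg.charDegree ((f χ).1 : ↥(Subgroup.normalizer ((P : Subgroup G) : Set G)) → ℂ) : ZMod p) = -(Cfsg.charDegree (χ.1 : G → ℂ) : ZMod p)) := by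
  have hp : Nat.Prime p := Fact.out
  set K : Subgroup G := gen 2 G with hKdef
  haveI hK : K.Normal := gen_normal 2
  have hodd : Odd K.index := by
    obtain ⟨Q⟩ : Nonempty (Sylow 2 G) := by
      haveI : Fact (Nat.Prime 2) := ⟨Nat.prime_two⟩
      infer_instance
    haveI : Fact (Nat.Prime 2) := ⟨Nat.prime_two⟩
    have hQK : (Q : Subgroup G) ≤ K := by
      intro y hy
      obtain ⟨k, hk⟩ := IsPGroup.iff_orderOf.mp Q.isPGroup' ⟨y, hy⟩
      apply Subgroup.subset_closure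
      exact ⟨k, by rw [← hk, Subgroup.orderOf_mk]⟩
    rw [← Nat.not_even_iff_odd, even_iff_two_dvd]
    intro h2
    exact Q.not_dvd_index (h2.trans (Subgroup.index_dvd_of_le hQK))
  have hrealc : ∀ χ : IrrCharacter G, conjIrr χ = χ → ¬ p ∣ charDegree (χ : G → ℂ) :=
    fun χ hχ => hreal χ ((conjIrr_eq_iff χ).mp hχ)
  -- the normal Sylow subgroup of `K`
  obtain ⟨Q₁⟩ : Nonempty (Sylow p K) := inferInstance
  have hQ₁ : (Q₁ : Subgroup K).Normal :=
    sylow_normal p hsolv hreal _ (gen_normal 2) le_rfl (fun x hx => ⟨0, by simpa using hx⟩) Q₁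
  have hi₁ : ¬ p ∣ (Q₁ : Subgroup K).index := Q₁.not_dvd_index
  have hmem : ∀ {x : K} {k : ℕ}, x ^ p ^ k = 1 → x ∈ (Q₁ : Subgroup K) := fun hx =>
    Cfsg.Agent.Lib.GlaubSyl7.mem_of_pow_mem p _ hi₁ hx
  let R : Subgroup G := (Q₁ : Subgroup K).map K.subtype
  have hRp : IsPGroup p R := Q₁.isPGroup'.map K.subtype
  have hRn : R.Normal := by
    constructor
    rintro _ ⟨x, hx, rfl⟩ g
    obtain ⟨k, hk⟩ := Q₁.isPGroup' ⟨x, hx⟩
    have h1 : x ^ p ^ k = 1 := by
      simpa using congrArg (fun z : (Q₁ : Subgroup K) => (z : K)) hk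
    have h2 : g * (x : G) * g⁻¹ ∈ K := hK.conj_mem _ x.2 g
    have h3 : ((⟨g * (x : G) * g⁻¹, h2⟩ : K)) ^ p ^ k = 1 := by
      apply Subtype.ext
      have h4 : (x : G) ^ p ^ k = 1 := by
        simpa using congrArg (fun z : K => (z : G)) h1
      show (g * (x : G) * g⁻¹) ^ p ^ k = 1
      rw [conj_pow, h4, mul_one, mul_inv_cancel]
    exact ⟨⟨g * (x : G) * g⁻¹, h2⟩, hmem h3, rfl⟩
  have hRP : R ≤ (P : Subgroup G) := by
    haveI := hRn
    have h1 := P.is_maximal' (P.isPGroup'.to_sup_of_normal_right hRp) le_sup_left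
    rw [← h1]
    exact le_sup_right
  have hQe : (P : Subgroup G).subgroupOf K = (Q₁ : Subgroup K) := by
    apply le_antisymm
    · intro x hx
      obtain ⟨k, hk⟩ := P.isPGroup' ⟨(x : G), hx⟩
      refine hmem (k := k) (Subtype.ext ?_)
      simpa using congrArg (fun z : (P : Subgroup G) => (z : G)) hk
    · intro x hx
      exact hRP ⟨x, hx, rfl⟩
  have hn : ((P : Subgroup G).subgroupOf K).Normal := by rw [hQe]; exact hQ₁
  have hi : ¬ p ∣ ((P : Subgroup G).subgroupOf K).index := by rw [hQe]; exact hi₁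
  obtain ⟨g, hg, hconj, hact, hdeg⟩ := glaub_pkg P K hn hi
  have hoddL : Odd (K.subgroupOf (Subgroup.normalizer ((P : Subgroup G) : Set G))).index :=
    Odd.of_dvd_nat hodd (Subgroup.relIndex_dvd_index_of_normal K _)
  obtain ⟨f, hf, hfd⟩ := assemble P K hodd _ hoddL hrealc g hg hconj hact hdeg
  let e₁ : {χ : IrrCharacter G // ∀ g : G, ((χ : G → ℂ) g).im = 0} ≃ {χ : IrrCharacter G // conjIrr χ = χ} :=
    Equiv.subtypeEquivRight (fun χ => (conjIrr_eq_iff χ).symm)
  let e₂ : {ξ : IrrCharacter ↥(Subgroup.normalizer ((P : Subgroup G) : Set G)) // conjIrr ξ = ξ ∧ ¬ p ∣ charDegree (ξ : ↥(Subgroup.normalizer ((P : Subgroup G) : Set G)) → ℂ)} ≃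
      {ξ : Cfsg.IrrCharacter ↥(Subgroup.normalizer ((P : Subgroup G) : Set G)) // (∀ n, ((ξ : ↥(Subgroup.normalizer ((P : Subgroup G) : Set G)) → ℂ) n).im = 0) ∧ ¬ p ∣ Cfsg.charDegree (ξ : ↥(Subgroup.normalizer ((P : Subgroup G) : Set G)) → ℂ)} :=
    Equiv.subtypeEquivRight (fun ξ => and_congr_left' (conjIrr_eq_iff ξ))
  refine ⟨fun χ => e₂ (f (e₁ χ)), e₂.bijective.comp (hf.comp e₁.bijective), fun χ => ?_⟩
  exact hfd (e₁ χ)

end Cfsg.Agent.S4865
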