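import Mathlib
import Cfsg.Statements.S4866
import Cfsg.Agent.Lib.CharAut

set_option autoImplicit false
open Cfsg

namespace Cfsg.Agent.S4866

open Cfsg.Agent.Lib.CharAut Cfsg.Agent.Lib.CharBasic Cfsg.Agent.Lib.RealChars

theorem result {G : Type*} [Group G] [Finite G] (K : Subgroup G) [K.Normal] (hodd : Odd K.index) : Nat.card (Quot (fun θ η : {θ : Cfsg.IrrCharacter ↥K // (∀ k : ↥K, ((θ : ↥K → ℂ) k).im = 0)} => ∃ g : G, ∀ k k' : ↥K, (k' : G) = g * (k : G) * g⁻¹ → (η.1 : ↥K → ℂ) k' = (θ.1 : ↥K → ℂ) k)) = Nat.card (Quot (fun x y : {x : ↥K // IsConj x x⁻¹} => ∃ g : G, (y.1 : G) = g * x.1 * g⁻¹)) := by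
  classical
  let φ : G →* MulAut K := MulAut.conjNormal
  have htriv : ∀ a : G, ∃ k : K, φ (a ^ K.index) = MulAut.conj k := by
    intro a
    refine ⟨⟨a ^ K.index, Subgroup.pow_index_mem K a⟩, ?_⟩
    ext n
    rfl
  have h := card_quot_real_eq φ K.index hodd htriv
  have hsymm : ∀ (g : G) (k : K), (φ g).symm ((φ g) k) = k := fun g k => by simp
  have hval : ∀ (g : G) (k : K), (((φ g) k : K) : G) = g * k * g⁻¹ := fun g k => rfl
  -- left-hand side
  let e₁ : {θ : IrrCharacter K // ∀ k : K, ((θ : K → ℂ) k).im = 0} ≃ {θ : IrrCharacter K // conjIrr θ = θ} :=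
    Equiv.subtypeEquivRight (fun θ => (conjIrr_eq_iff θ).symm)
  have hL : Nat.card (Quot (fun θ η : {θ : Cfsg.IrrCharacter ↥K // (∀ k : ↥K, ((θ : ↥K → ℂ) k).im = 0)} => ∃ g : G, ∀ k k' : ↥K, (k' : G) = g * (k : G) * g⁻¹ → (η.1 : ↥K → ℂ) k' = (θ.1 : ↥K → ℂ) k)) =
      Nat.card (Quot fun θ η : {θ : IrrCharacter K // conjIrr θ = θ} => ∃ g, irrAut (φ g) θ.1 = η.1) := by
    apply Nat.card_congr
    apply Quot.congr e₁
    intro θ η
    constructor
    · rintro ⟨g, hg⟩
      refine ⟨g, ?_⟩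
      apply Subtype.ext
      funext n
      show (θ.1 : K → ℂ) ((φ g).symm n) = (η.1 : K → ℂ) n
      have h1 := hg ((φ g).symm n) n (by
        have := hval g ((φ g).symm n)
        rw [MulEquiv.apply_symm_apply] at this
        exact this)
      exact h1.symm
    · rintro ⟨g, hg⟩
      refine ⟨g, ?_⟩
      intro k k' hk
      have hk' : k' = (φ g) k := Subtype.ext hk
      have h2 : (irrAut (φ g) θ.1 : K → ℂ) k' = (η.1 : K → ℂ) k' := by
        have : irrAut (φ g) θ.1 = η.1 := hg
        rw [this]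
      rw [← h2, irrAut_apply, hk', hsymm]
  -- right-hand side
  let F : Quot (fun x y : {x : K // IsConj x x⁻¹} => ∃ g : G, (y.1 : G) = g * x.1 * g⁻¹) →
      Quot (fun C D : {C : ConjClasses K // classInv C = C} => ∃ g, classAut (φ g) C.1 = D.1) :=
    Quot.map (fun x => ⟨ConjClasses.mk x.1, (classInv_mk_eq_iff x.1).mpr x.2⟩) (by
      rintro x y ⟨g, hg⟩
      refine ⟨g, ?_⟩
      show classAut (φ g) (ConjClasses.mk x.1) = ConjClasses.mk y.1
      rw [classAut_mk]
      congr 1
      exact Subtype.ext hg.symm)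
  have hout : ∀ C : {C : ConjClasses K // classInv C = C}, IsConj (Quotient.out C.1) (Quotient.out C.1)⁻¹ := by
    intro C
    rw [← classInv_mk_eq_iff]
    have : ConjClasses.mk (Quotient.out C.1) = C.1 := Quotient.out_eq C.1
    rw [this]
    exact C.2
  have hmkout : ∀ C : ConjClasses K, ConjClasses.mk (Quotient.out C) = C := fun C => Quotient.out_eq C
  let F' : Quot (fun C D : {C : ConjClasses K // classInv C = C} => ∃ g, classAut (φ g) C.1 = D.1) →
      Quot (fun x y : {x : K // IsConj x x⁻¹} => ∃ g : G, (y.1 : G) = g * x.1 * g⁻¹) :=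
    Quot.lift (fun C => Quot.mk _ ⟨Quotient.out C.1, hout C⟩) (by
      rintro C D ⟨g, hg⟩
      apply Quot.sound
      have h1 : ConjClasses.mk ((φ g) (Quotient.out C.1)) = ConjClasses.mk (Quotient.out D.1) := by
        rw [← classAut_mk, hmkout, hmkout, hg]
      rw [ConjClasses.mk_eq_mk_iff_isConj] at h1
      obtain ⟨k, hk⟩ := isConj_iff.mp h1
      refine ⟨k * g, ?_⟩
      have h2 := congrArg Subtype.val hk
      simp only [Subgroup.coe_mul, InvMemClass.coe_inv, hval] at h2
      simp only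
      rw [← h2]
      group)
  have hFF' : Function.LeftInverse F' F := by
    intro q
    induction q using Quot.ind with
    | _ x =>
      apply Quot.sound
      have h1 : IsConj (Quotient.out (ConjClasses.mk x.1)) x.1 := by
        rw [← ConjClasses.mk_eq_mk_iff_isConj, hmkout]
      obtain ⟨k, hk⟩ := isConj_iff.mp h1
      refine ⟨k, ?_⟩
      have h2 := congrArg Subtype.val hk
      simp only [Subgroup.coe_mul, InvMemClass.coe_inv] at h2
      exact h2.symm
  have hF'F : Function.RightInverse F' F := by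
    intro q
    induction q using Quot.ind with
    | _ C =>
      show Quot.mk _ _ = Quot.mk _ _
      congr 1
      exact Subtype.ext (hmkout C.1)
  have hR : Nat.card (Quot (fun x y : {x : ↥K // IsConj x x⁻¹} => ∃ g : G, (y.1 : G) = g * x.1 * g⁻¹)) =
      Nat.card (Quot fun C D : {C : ConjClasses K // classInv C = C} => ∃ g, classAut (φ g) C.1 = D.1) :=
    Nat.card_congr ⟨F, F', hFF', hF'F⟩
  rw [hL, hR, h]

end Cfsg.Agent.S4866
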