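import Mathlib
import Cfsg.Statements.S4870
import Cfsg.Agent.Lib.LinTwist

set_option autoImplicit false

open Cfsg Cfsg.Agent.Lib.CharInd

namespace Cfsg.Agent.S4870

theorem result {G : Type*} [Group G] [Finite G] (N : Subgroup G) (hN : N.Normal) (hN1 : N ≠ ⊥) (hmin : ∀ M : Subgroup G, M.Normal → M ≤ N → M = ⊥ ∨ M = N) (hna : ¬ IsMulCommutative ↥N) (φ : Cfsg.IrrCharacter ↥N) (I : Subgroup G) (hI : ∀ g : G, g ∈ I ↔ ∀ n n' : ↥N, (n' : G) = g * (n : G) * g⁻¹ → (φ : ↥N → ℂ) n' = (φ : ↥N → ℂ) n) (hNI : N ≤ I) (hext : ∃ ψ : Cfsg.IrrCharacter ↥I, ∀ n : ↥N, (ψ : ↥I → ℂ) (Subgroup.inclusion hNI n) = (φ : ↥N → ℂ) n) : Nat.card {χ : Cfsg.IrrCharacter G // Cfsg.charDegree (χ : G → ℂ) = 1} ≤ I.index * Nat.card {χ : Cfsg.IrrCharacter G // Cfsg.charDegree (χ : G → ℂ) = Cfsg.charDegree (φ : ↥N → ℂ) * I.index} := by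
  classical
  haveI := Fintype.ofFinite G
  haveI : Fintype N := Fintype.ofFinite _
  haveI : Fintype I := Fintype.ofFinite _
  haveI := hN
  obtain ⟨ψ, hres⟩ := hext
  apply Cfsg.Agent.Lib.LinTwist.card_le_mul φ.2 hmin hna hI hNI ψ.2 hres
  · intro χ h
    exact h
  · intro χ hχ h
    show charDegree ((χ : G → ℂ) * indFun I (ψ : I → ℂ)) = _
    obtain ⟨d, hd⟩ := Cfsg.Agent.Lib.CharBasic.isCharacter_one_eq (Cfsg.Agent.Lib.CharBasic.IsIrrCharacter.isCharacter φ.2)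
    have h1 : (χ : G → ℂ) 1 = 1 := by
      obtain ⟨β, hβ⟩ := Cfsg.Agent.Lib.LinTwist.exists_hom_of_charDegree χ.2 hχ
      rw [hβ, map_one, Units.val_one]
    have h2 : (ψ : I → ℂ) 1 = (φ : N → ℂ) 1 := by
      have := hres 1
      rwa [map_one] at this
    rw [Cfsg.Agent.Lib.LinTwist.charDegree_eq_of_one hd]
    apply Cfsg.Agent.Lib.LinTwist.charDegree_eq_of_one
    rw [Pi.mul_apply, h1, one_mul, indFun_one, h2, hd]
    push_cast
    ring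

end Cfsg.Agent.S4870
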