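import Mathlib
import Cfsg.Statements.S4871
import Cfsg.Agent.Lib.MonoNu
import Cfsg.Agent.Lib.RealCore

set_option autoImplicit false
set_option linter.unusedSectionVars false
set_option linter.unusedVariables false
set_option linter.style.haveILetI false

open Cfsg Cfsg.Agent.Lib.CharInd Cfsg.Agent.Lib.CharBasic Cfsg.Agent.Lib.MonoNu Cfsg.Agent.Lib.Gagola2
open Cfsg.Agent.Lib.LinTwist

namespace Cfsg.Agent.S4871

universe u

section Lemmas

variable {G : Type u} [Group G]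

theorem exists_central_inv [Finite G] {P : Subgroup G} (hP : IsPGroup 2 P) (hP1 : P ≠ ⊥) :
    ∃ s ∈ P, s ≠ 1 ∧ s * s = 1 ∧ ∀ h ∈ P, s * h = h * s := by
  classical
  haveI : Fact (Nat.Prime 2) := ⟨Nat.prime_two⟩
  haveI : Nontrivial P := (Subgroup.nontrivial_iff_ne_bot P).mpr hP1
  haveI : Nontrivial (Subgroup.center P) := hP.center_nontrivial
  have hZ : IsPGroup 2 (Subgroup.center P) := hP.to_subgroup _
  obtain ⟨k, hk, hcard⟩ := (hZ.nontrivial_iff_card).mp inferInstance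
  have h2 : 2 ∣ Nat.card (Subgroup.center P) := by
    rw [hcard]
    exact dvd_pow_self 2 hk.ne'
  obtain ⟨x, hx⟩ := exists_prime_orderOf_dvd_card' 2 h2
  refine ⟨((x : P) : G), (x : P).2, ?_, ?_, ?_⟩
  · intro h
    have : x = 1 := by
      apply Subtype.ext
      apply Subtype.ext
      exact h
    rw [this, orderOf_one] at hx
    omega
  · have := pow_orderOf_eq_one x
    rw [hx, sq] at this
    have h3 := congrArg (fun y : Subgroup.center P => ((y : P) : G)) this
    simpa using h3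
  · intro h hh
    have := (Subgroup.mem_center_iff.mp x.2) ⟨h, hh⟩
    exact (congrArg Subtype.val this).symm

theorem inverts (N P : Subgroup G) (hN : N.Normal) (hab : ∀ a ∈ N, ∀ b ∈ N, a * b = b * a)
    (hdisj : N ⊓ P = ⊥) (hsup : ∀ g : G, ∃ n ∈ N, ∃ h ∈ P, g = n * h)
    (hmin : N ≠ ⊥ ∧ ∀ M : Subgroup G, M.Normal → M ≠ ⊥ → N ≤ M)
    {s : G} (hsP : s ∈ P) (hs1 : s ≠ 1) (hss : s * s = 1) (hcomm : ∀ h ∈ P, s * h = h * s) :
    ∀ n ∈ N, s * n * s⁻¹ = n⁻¹ := by
  have hsinv : s⁻¹ = s := by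
    rw [inv_eq_iff_mul_eq_one]
    exact hss
  have hnormal : ∀ M : Subgroup G, M ≤ N → (∀ h ∈ P, ∀ m ∈ M, h * m * h⁻¹ ∈ M) → M.Normal := by
    intro M hMN hMP
    constructor
    intro m hm g
    obtain ⟨n, hn, h, hh, rfl⟩ := hsup g
    have h1 := hMP h hh m hm
    have h2 : n * (h * m * h⁻¹) * n⁻¹ = h * m * h⁻¹ := by
      rw [hab n hn _ (hMN h1)]
      simp
    have h3 : n * h * m * (n * h)⁻¹ = n * (h * m * h⁻¹) * n⁻¹ := by group
    rw [h3, h2]
    exact h1
  let C : Subgroup G := N ⊓ Subgroup.centralizer {s}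
  have hC : C.Normal := by
    apply hnormal C inf_le_left
    rintro h hh m ⟨hm1, hm2⟩
    refine ⟨hN.conj_mem m hm1 h, ?_⟩
    show _ ∈ Subgroup.centralizer {s}
    rw [Subgroup.mem_centralizer_iff]
    intro y hy
    rw [Set.mem_singleton_iff.mp hy]
    have h1 : s * m = m * s := by
      have := Subgroup.mem_centralizer_iff.mp hm2 s rfl
      exact this
    have h2 := hcomm h hh
    have h3 : s * h⁻¹ = h⁻¹ * s := by
      have := hcomm h⁻¹ (P.inv_mem hh)
      exact this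
    calc s * (h * m * h⁻¹) = (s * h) * m * h⁻¹ := by group
      _ = h * (s * m) * h⁻¹ := by rw [h2]; group
      _ = h * m * (s * h⁻¹) := by rw [h1]; group
      _ = h * m * h⁻¹ * s := by rw [h3]; group
  have hC0 : C = ⊥ := by
    by_contra hne
    have hNC : N ≤ C := hmin.2 C hC hne
    let Z : Subgroup G := Subgroup.centralizer (N : Set G) ⊓ P
    have hZ : Z.Normal := by
      constructor
      rintro z ⟨hz1, hz2⟩ g
      obtain ⟨n, hn, h, hh, rfl⟩ := hsup g
      have hz1' : ∀ x ∈ N, x * z = z * x := fun x hx => Subgroup.mem_centralizer_iff.mp hz1 x hx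
      have hc : h * z * h⁻¹ ∈ Z := by
        refine ⟨?_, P.mul_mem (P.mul_mem hh hz2) (P.inv_mem hh)⟩
        show _ ∈ Subgroup.centralizer (N : Set G)
        rw [Subgroup.mem_centralizer_iff]
        intro x hx
        have h1 := hz1' (h⁻¹ * x * h) (by simpa using hN.conj_mem x hx h⁻¹)
        calc x * (h * z * h⁻¹) = h * ((h⁻¹ * x * h) * z) * h⁻¹ := by group
          _ = h * (z * (h⁻¹ * x * h)) * h⁻¹ := by rw [h1]
          _ = h * z * h⁻¹ * x := by group
      have h3 : n * h * z * (n * h)⁻¹ = n * (h * z * h⁻¹) * n⁻¹ := by group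
      rw [h3]
      have h4 : n * (h * z * h⁻¹) = (h * z * h⁻¹) * n :=
        Subgroup.mem_centralizer_iff.mp hc.1 n hn
      rw [h4]
      simpa using hc
    have hsZ : s ∈ Z := by
      refine ⟨?_, hsP⟩
      show _ ∈ Subgroup.centralizer (N : Set G)
      rw [Subgroup.mem_centralizer_iff]
      intro x hx
      have h1 := (hNC hx).2
      have := Subgroup.mem_centralizer_iff.mp h1 s rfl
      exact this.symm
    have hZne : Z ≠ ⊥ := by
      intro h
      rw [h, Subgroup.mem_bot] at hsZ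
      exact hs1 hsZ
    have hNZ := hmin.2 Z hZ hZne
    apply hmin.1
    rw [eq_bot_iff, ← hdisj]
    intro x hx
    exact ⟨hx, (hNZ hx).2⟩
  intro n hn
  have h1 : n * (s * n * s⁻¹) ∈ C := by
    refine ⟨N.mul_mem hn (hN.conj_mem n hn s), ?_⟩
    show _ ∈ Subgroup.centralizer {s}
    rw [Subgroup.mem_centralizer_iff]
    intro y hy
    rw [Set.mem_singleton_iff.mp hy]
    rw [hsinv]
    have h2 := hab (s * n * s) (by simpa [hsinv] using hN.conj_mem n hn s) n hn
    calc s * (n * (s * n * s)) = (s * n * s) * n * s := by group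
      _ = n * (s * n * s) * s := by rw [h2]
  rw [hC0, Subgroup.mem_bot] at h1
  exact eq_inv_of_mul_eq_one_right h1

/-- Elements of exponent dividing two and an odd number vanish. -/
theorem eq_one_of_sq_of_odd {A : Type*} [Group A] {z : A} {q : ℕ} (hq : Odd q) (h2 : z * z = 1)
    (hq' : z ^ q = 1) : z = 1 := by
  obtain ⟨k, rfl⟩ := hq
  rw [pow_succ, pow_mul, sq, h2, one_pow, one_mul] at hq'
  exact hq'

end Lemmas

theorem result {G : Type*} [Group G] [Finite G] (N P : Subgroup G) (hN : N.Normal) (q : ℕ) [Fact q.Prime] (hq : q ≠ 2) (hNel : Cfsg.IsElementaryAbelian q N) (hP : IsPGroup 2 ↥P) (hP1 : P ≠ ⊥) (hdisj : N ⊓ P = ⊥) (hprod : N ⊔ P = ⊤) (hmin : N ≠ ⊥ ∧ ∀ M : Subgroup G, M.Normal → M ≠ ⊥ → N ≤ M) : 4 * Nat.card {χ : Cfsg.IrrCharacter G // (Cfsg.charDegree (χ : G → ℂ) = 1 ∨ 2 ∣ Cfsg.charDegree (χ : G → ℂ)) ∧ (Nat.card G : ℂ)⁻¹ * ∑ᶠ g : G, (χ : G → ℂ) (g * g) = 1} ≤ 3 * (∑ᶠ χ : {χ : Cfsg.IrrCharacter G // (Cfsg.charDegree (χ : G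 → ℂ) = 1 ∨ 2 ∣ Cfsg.charDegree (χ : G → ℂ)) ∧ (Nat.card G : ℂ)⁻¹ * ∑ᶠ g : G, (χ : G → ℂ) (g * g) = 1}, Cfsg.charDegree (χ.1 : G → ℂ)) := by
  classical
  haveI := Fintype.ofFinite G
  haveI : Fintype N := Fintype.ofFinite _
  haveI := hN
  obtain ⟨hNcomm, hNq⟩ := hNel
  have hNab : ∀ a ∈ N, ∀ b ∈ N, a * b = b * a := fun a ha b hb =>
    congrArg Subtype.val ((IsMulCommutative.is_comm (M := N)).comm ⟨a, ha⟩ ⟨b, hb⟩)
  have hqodd : Odd q := (Fact.out : q.Prime).odd_of_ne_two hq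
  have hsup : ∀ g : G, ∃ n ∈ N, ∃ h ∈ P, g = n * h := by
    intro g
    have h1 : g ∈ ((N ⊔ P : Subgroup G) : Set G) := by rw [hprod]; trivial
    rw [Subgroup.normal_mul] at h1
    obtain ⟨n, hn, h, hh, rfl⟩ := Set.mem_mul.mp h1
    exact ⟨n, hn, h, hh, rfl⟩
  obtain ⟨s, hsP, hs1, hss, hcomm⟩ := exists_central_inv hP hP1
  have hsinv := inverts N P hN hNab hdisj hsup hmin hsP hs1 hss hcomm
  obtain ⟨n₀, hn₀⟩ := (Subgroup.ne_bot_iff_exists_ne_one).mp hmin.1
  obtain ⟨lam, hlam⟩ := Cfsg.Agent.Lib.RealCore.exists_hom_ne_one hNab n₀ hn₀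
  obtain ⟨f, hf⟩ := exists_ext N P hN hNab hdisj hsup lam
  let T : Subgroup G := stab N hN lam
  haveI : Fintype T := Fintype.ofFinite _
  have hNT : N ≤ T := le_stab N hN hNab lam
  have hlamq : ∀ n : N, lam n ^ q = 1 := by
    intro n
    rw [← map_pow]
    have : n ^ q = 1 := Subtype.ext (hNq n n.2)
    rw [this, map_one]
  have hsT : s ∉ T := by
    intro h
    apply hlam
    have h1 := lam_conj_of_mem N hN lam h n₀
    have h2 : (⟨s * n₀ * s⁻¹, hN.conj_mem n₀ n₀.2 s⟩ : N) = n₀⁻¹ := Subtype.ext (hsinv n₀ n₀.2)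
    rw [h2, map_inv] at h1
    apply eq_one_of_sq_of_odd hqodd _ (hlamq n₀)
    have h3 : lam n₀ * (lam n₀)⁻¹ = 1 := mul_inv_cancel _
    rw [h1] at h3
    exact h3
  -- the index is even
  have hmeven : 2 ∣ T.index := by
    haveI : Fact (Nat.Prime 2) := ⟨Nat.prime_two⟩
    have h1 : Function.Surjective ((QuotientGroup.mk' N).comp P.subtype) := by
      intro x
      obtain ⟨g, rfl⟩ := QuotientGroup.mk_surjective x
      obtain ⟨n, hn, h, hh, rfl⟩ := hsup g
      refine ⟨⟨h, hh⟩, ?_⟩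
      show ((h : G) : G ⧸ N) = _
      rw [QuotientGroup.eq]
      have : h⁻¹ * (n * h) = h⁻¹ * n * h⁻¹⁻¹ := by group
      rw [this]
      exact hN.conj_mem n hn h⁻¹
    have h2 : IsPGroup 2 (G ⧸ N) := hP.of_surjective _ h1
    obtain ⟨k, hk⟩ := IsPGroup.iff_card.mp h2
    have h3 : T.index ∣ N.index := Subgroup.index_dvd_of_le hNT
    rw [Subgroup.index_eq_card (H := N), hk] at h3
    obtain ⟨j, -, hj⟩ := (Nat.dvd_prime_pow Nat.prime_two).mp h3
    rw [hj]
    apply dvd_pow_self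
    rintro rfl
    rw [pow_zero, Subgroup.index_eq_one] at hj
    apply hsT
    rw [hj]
    trivial
  have hm0 : T.index ≠ 0 := Subgroup.index_ne_zero_of_finite
  have hm2 : 2 ≤ T.index := Nat.le_of_dvd (Nat.pos_of_ne_zero hm0) hmeven
  -- the induced character
  let θ : N → ℂ := fun n => ((lam n : ℂˣ) : ℂ)
  have hθ : IsIrrCharacter N θ := isIrrCharacter_of_hom lam
  let ψ : T → ℂ := fun t => ((f t : ℂˣ) : ℂ)
  have hψ : IsIrrCharacter T ψ := isIrrCharacter_of_hom f
  have hres : ∀ n : N, ψ (Subgroup.inclusion hNT n) = θ n := by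
    intro n
    have h1 : (n : G) * 1 ∈ T := by
      rw [mul_one]
      exact hNT n.2
    have h2 := hf n 1 n.2 P.one_mem h1
    show ((f ⟨n, hNT n.2⟩ : ℂˣ) : ℂ) = _
    have h3 : (⟨n, hNT n.2⟩ : T) = ⟨(n : G) * 1, h1⟩ := Subtype.ext (by simp)
    rw [h3, h2]
  have hIT : ∀ g : G, g ∈ T ↔ ∀ n n' : N, (n' : G) = g * (n : G) * g⁻¹ → θ n' = θ n := by
    intro g
    exact mem_inertia
  have hνχ₀ : (Nat.card G : ℂ)⁻¹ * ∑ g : G, indFun T ψ (g * g) = 1 := by
    rw [nu_indFun_eq T ψ]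
    have h1 := sum_sq_eq N P hN hNab hdisj hsup lam f hf hsP hss hcomm hsinv
    have h2 : ∑ g : G, extendByZero T ψ (g * g) = Nat.card T := h1
    rw [h2]
    exact inv_mul_cancel₀ (natCard_subgroup_ne_zero T)
  have hψ1 : ψ 1 = 1 := by
    show ((f 1 : ℂˣ) : ℂ) = 1
    simp
  have hχ₀1 : indFun T ψ 1 = (T.index : ℂ) := by
    rw [indFun_one, hψ1, mul_one]
  -- the count
  let S : IrrCharacter G → Prop := fun χ => charDegree (χ : G → ℂ) = 1 ∧
    (Nat.card G : ℂ)⁻¹ * ∑ᶠ g : G, (χ : G → ℂ) (g * g) = 1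
  let R : IrrCharacter G → Prop := fun χ => charDegree (χ : G → ℂ) = T.index ∧
    (Nat.card G : ℂ)⁻¹ * ∑ᶠ g : G, (χ : G → ℂ) (g * g) = 1
  have hcount : Nat.card {χ // S χ} ≤ T.index * Nat.card {χ // R χ} := by
    apply card_le_mul_of_trivial hθ hIT hNT hψ hres S R
    · intro χ h
      exact h.1
    · intro χ h n
      obtain ⟨β, hβ⟩ := exists_hom_of_charDegree χ.2 h.1
      rw [hβ]
      have h1 : β n ^ q = 1 := by
        rw [← map_pow, hNq n n.2, map_one]
      have h2 : β n * β n = 1 := by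
        have h3 : β (s * n * s⁻¹) = β n := by
          simp [map_mul, mul_comm]
        rw [hsinv n n.2, map_inv] at h3
        have h4 : β n * (β n)⁻¹ = 1 := mul_inv_cancel _
        rw [h3] at h4
        exact h4
      rw [eq_one_of_sq_of_odd hqodd h2 h1, Units.val_one]
    · intro χ h hirr
      obtain ⟨hχ1, hχν⟩ := h
      rw [finsum_eq_sum_of_fintype] at hχν
      have hχr : ∀ a : G, ((χ : G → ℂ) a).im = 0 := by
        apply real_of_nu_ne_zero χ.2
        rw [hχν]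
        exact one_ne_zero
      obtain ⟨β, hβ⟩ := exists_hom_of_charDegree χ.2 hχ1
      have h1 : (χ : G → ℂ) 1 = 1 := by
        rw [hβ, map_one, Units.val_one]
      constructor
      · show charDegree ((χ : G → ℂ) * indFun T ψ) = _
        apply charDegree_eq_of_one
        rw [Pi.mul_apply, h1, one_mul, hχ₀1]
      · show (Nat.card G : ℂ)⁻¹ * ∑ᶠ g : G, ((χ : G → ℂ) * indFun T ψ) (g * g) = 1
        rw [finsum_eq_sum_of_fintype]
        have h3 : ∀ g : G, ((χ : G → ℂ) * indFun T ψ) (g * g) = indFun T ψ (g * g) := by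
          intro g
          rw [Pi.mul_apply, hβ, map_mul, Units.val_mul]
          have h4 := hχr g
          rw [hβ] at h4
          rw [sq_eq_one_of_real β g h4, one_mul]
        simp only [h3]
        exact hνχ₀
  -- arithmetic
  let cond : IrrCharacter G → Prop := fun χ => (charDegree (χ : G → ℂ) = 1 ∨ 2 ∣ charDegree (χ : G → ℂ)) ∧
    (Nat.card G : ℂ)⁻¹ * ∑ᶠ g : G, (χ : G → ℂ) (g * g) = 1
  let A : Finset (IrrCharacter G) := Finset.univ.filter cond
  have hA : Nat.card {χ // cond χ} = A.card := by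
    rw [Nat.card_eq_fintype_card, Fintype.card_subtype]
  have hsum : ∑ᶠ χ : {χ // cond χ}, charDegree (χ.1 : G → ℂ) = ∑ χ ∈ A, charDegree (χ : G → ℂ) := by
    rw [finsum_eq_sum_of_fintype]
    exact (Finset.sum_subtype A (p := cond) (fun χ => by simp [A]) (fun χ => charDegree (χ : G → ℂ))).symm
  have hS : Nat.card {χ // S χ} = (A.filter fun χ : IrrCharacter G => charDegree (χ : G → ℂ) = 1).card := by
    rw [Nat.card_eq_fintype_card, Fintype.card_subtype]
    apply congrArg Finset.card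
    ext χ
    simp only [A, cond, S, Finset.mem_filter, Finset.mem_univ, true_and]
    constructor
    · rintro ⟨h1, h2⟩
      exact ⟨⟨Or.inl h1, h2⟩, h1⟩
    · rintro ⟨⟨-, h2⟩, h1⟩
      exact ⟨h1, h2⟩
  have hR : Nat.card {χ // R χ} = (A.filter fun χ : IrrCharacter G => charDegree (χ : G → ℂ) = T.index).card := by
    rw [Nat.card_eq_fintype_card, Fintype.card_subtype]
    apply congrArg Finset.card
    ext χ
    simp only [A, cond, R, Finset.mem_filter, Finset.mem_univ, true_and]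
    constructor
    · rintro ⟨h1, h2⟩
      exact ⟨⟨Or.inr (h1 ▸ hmeven), h2⟩, h1⟩
    · rintro ⟨⟨-, h2⟩, h1⟩
      exact ⟨h1, h2⟩
  rw [hA, hsum]
  rw [hS, hR] at hcount
  set a₁ := (A.filter fun χ : IrrCharacter G => charDegree (χ : G → ℂ) = 1).card with ha₁
  set b := (A.filter fun χ : IrrCharacter G => charDegree (χ : G → ℂ) = T.index).card with hb
  set m := T.index with hm
  have hpoint : ∀ χ ∈ A, (3 * (charDegree (χ : G → ℂ) : ℤ) - 4) ≥
      (if charDegree (χ : G → ℂ) = 1 then (-1 : ℤ) else 0) +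
        (if charDegree (χ : G → ℂ) = m then (3 * (m : ℤ) - 4) else 0) := by
    intro χ hχ
    have hχ' : charDegree (χ : G → ℂ) = 1 ∨ 2 ∣ charDegree (χ : G → ℂ) :=
      (Finset.mem_filter.mp hχ).2.1
    have hpos : 0 < charDegree (χ : G → ℂ) := by
      rcases hχ' with h | h
      · omega
      · obtain ⟨d, hd⟩ := Cfsg.Agent.Lib.CharAvg.irr_one_eq χ.2 |>.imp fun d hd => hd
        rw [Cfsg.Agent.Lib.LinTwist.charDegree_eq_of_one hd.2]
        exact hd.1
    by_cases h1 : charDegree (χ : G → ℂ) = 1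
    · have h2 : charDegree (χ : G → ℂ) ≠ m := by omega
      rw [if_pos h1, if_neg h2, h1]
      norm_num
    · by_cases h2 : charDegree (χ : G → ℂ) = m
      · rw [if_neg h1, if_pos h2, h2]
        omega
      · rw [if_neg h1, if_neg h2]
        rcases hχ' with h | h
        · exact absurd h h1
        · have := Nat.le_of_dvd hpos h
          have h3 : (2 : ℤ) ≤ charDegree (χ : G → ℂ) := by exact_mod_cast this
          omega
  have hsumZ := Finset.sum_le_sum hpoint
  rw [Finset.sum_add_distrib, Finset.sum_ite, Finset.sum_ite] at hsumZ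
  simp only [Finset.sum_const, Finset.sum_const_zero, nsmul_eq_mul, smul_zero, add_zero] at hsumZ
  rw [← ha₁, ← hb, Finset.sum_sub_distrib] at hsumZ
  simp only [Finset.sum_const, nsmul_eq_mul, ← Finset.mul_sum] at hsumZ
  have hA2 : (3 * (∑ χ ∈ A, (charDegree (χ : G → ℂ) : ℤ))) = ((3 * ∑ χ ∈ A, charDegree (χ : G → ℂ) : ℕ) : ℤ) := by
    push_cast
    ring
  have hm2' : (2 : ℤ) ≤ m := by exact_mod_cast hm2
  have hc' : (a₁ : ℤ) ≤ m * b := by exact_mod_cast hcount
  have hb0 : (0 : ℤ) ≤ b := by positivity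
  have hfinal : ((4 * A.card : ℕ) : ℤ) ≤ ((3 * ∑ χ ∈ A, charDegree (χ : G → ℂ) : ℕ) : ℤ) := by
    rw [← hA2]
    push_cast at hsumZ ⊢
    nlinarith
  exact_mod_cast hfinal

end Cfsg.Agent.S4871
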