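import Mathlib
import Cfsg.Statements.S4873
import Cfsg.Agent.Lib.RealExt
import Cfsg.Agent.Lib.Gagola2
import Cfsg.Agent.Lib.CosetAvg
import Cfsg.Agent.Lib.CharKernel
import Cfsg.Agent.Lib.RealChars

set_option autoImplicit false
set_option linter.unusedSectionVars false
set_option linter.unusedVariables false
set_option linter.style.haveILetI false

open Cfsg Cfsg.Agent.Lib.CharInd Cfsg.Agent.Lib.CharBasic Cfsg.Agent.Lib.Gagola2
open Cfsg.Agent.Lib.LinTwist Cfsg.Agent.Lib.CosetAvg Cfsg.Agent.Lib.Clifford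
open scoped ComplexConjugate

namespace Cfsg.Agent.S4873

universe u

section Lemmas

variable {G : Type u} [Group G] [Fintype G]

/-- Uniqueness: a real irreducible character over `φ` with `ψ` a real extension to the stabilizer
is induced from `ψ`. -/
theorem eq_of_real {N T : Subgroup G} [hN : N.Normal] [Fintype N] [Fintype T]
    {φ : N → ℂ} (hφ : IsIrrCharacter N φ)
    (hT : ∀ g : G, g ∈ T ↔ ∀ n n' : N, (n' : G) = g * (n : G) * g⁻¹ → φ n' = φ n)
    (hNT : N ≤ T) {ψ : T → ℂ} (hψ : IsIrrCharacter T ψ)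
    (hres : ∀ n : N, ψ (Subgroup.inclusion hNT n) = φ n) (hψreal : ∀ t, (ψ t).im = 0)
    (hodd : Odd (N.subgroupOf T).index)
    {χ : G → ℂ} (hχ : IsIrrCharacter G χ) (hχreal : ∀ g, (χ g).im = 0)
    (hcon : classInner (fun n : N => χ n) φ ≠ 0) : χ = indFun T ψ := by
  classical
  obtain ⟨ψ', hψ'irr, hind, hmult⟩ := exists_inertia_char N T hφ (stab_iff N T hT) hNT hχ hcon
  rw [← hind]
  congr 1
  let N' : Subgroup T := N.subgroupOf T
  haveI : N'.Normal := Subgroup.Normal.subgroupOf hN T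
  haveI : Fintype N' := Fintype.ofFinite _
  let e : N' ≃* N := Subgroup.subgroupOfEquivOfLe hNT
  have hψc := IsIrrCharacter.isCharacter hψ
  have hψ'c := IsIrrCharacter.isCharacter hψ'irr
  let c : T → ℂ := fun t => χ t
  have hcc : IsCharacter T c := isCharacter_restrict T (IsIrrCharacter.isCharacter hχ)
  -- restrictions to `N'`
  have hψN' : (fun n : N' => ψ n) = fun n : N' => φ (e n) := by
    funext n
    exact hres (e n)
  have hφ' : IsIrrCharacter N' (fun n : N' => φ (e n)) :=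
    isIrrCharacter_comp_of_surjective e.toMonoidHom e.surjective hφ
  have hψN'irr : IsIrrCharacter N' (fun n : N' => ψ n) := by
    rw [hψN']
    exact hφ'
  have htrans : ∀ (a : T → ℂ), classInner (fun n : N' => a n) (fun n : N' => ψ n) =
      classInner (fun n : N => a ⟨(n : G), hNT n.2⟩) φ := by
    intro a
    rw [hψN']
    exact classInner_comp_mulEquiv e (fun n : N => a ⟨(n : G), hNT n.2⟩) φ
  -- the coset averages
  have hh1 : classInner (fun n : N' => ψ' n) (fun n : N' => ψ n) ≠ 0 := by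
    rw [htrans, hmult]
    exact hcon
  have hfirr : IsIrrCharacter T (cosetAvg N' ψ' ψ) := isIrr_cosetAvg N' hψc hψN'irr hψ'irr hh1
  -- `c - ψ'` is a character
  have hinner : classInner c ψ' = 1 := by
    have h3 := classInner_irr_self hχ
    rw [← hind] at h3
    have h4 := frobenius T ψ' (ψ := indFun T ψ') (indFun_isClassFunction T ψ')
    rw [h3] at h4
    have h5 := classInner_conj_symm ψ' (fun h : T => indFun T ψ' h)
    rw [← h4, map_one] at h5
    rw [h5.trans (by rw [hind])]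
  have hrc : IsCharacter T (c - ψ') := by
    apply isCharacter_of_classInner_nat
    · intro a b
      have h1 := isClassFunction_of_isCharacter hcc a b
      have h2 := isClassFunction_of_isCharacter hψ'c a b
      simp only [Pi.sub_apply]
      rw [h1, h2]
    · intro η
      rw [classInner_sub_left]
      by_cases hη : (η : T → ℂ) = ψ'
      · rw [hη, hinner, classInner_irr_self hψ'irr]
        exact ⟨0, by simp⟩
      · obtain ⟨m, hm⟩ := classInner_char_irr hcc η.2
        rw [hm, classInner_irr_ne hψ'irr η.2 (fun h => hη h.symm), sub_zero]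
        exact ⟨m, rfl⟩
  have hr0 : cosetAvg N' (c - ψ') ψ = 0 := by
    apply eq_zero_of_one_eq_zero (isCharacter_cosetAvg N' hrc hψc)
    rw [cosetAvg_one]
    have h3 : (fun n : N' => (c - ψ') n) = (fun n : N' => c n) - (fun n : N' => ψ' n) := rfl
    rw [h3, classInner_sub_left, htrans, htrans]
    show classInner (fun n : N => χ n) φ - _ = 0
    rw [hmult, sub_self]
  have hff : cosetAvg N' ψ' ψ = cosetAvg N' c ψ := by
    funext x
    have h3 := congrFun hr0 x
    simp only [cosetAvg_apply, Pi.sub_apply, Pi.zero_apply, sub_mul] at h3 ⊢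
    rw [Finset.sum_sub_distrib, mul_sub, sub_eq_zero] at h3
    exact h3.symm
  have hfreal : ∀ x, (cosetAvg N' ψ' ψ x).im = 0 := by
    intro x
    rw [hff, ← Complex.conj_eq_iff_im, cosetAvg_apply, map_mul, map_sum, map_inv₀, Complex.conj_natCast]
    congr 1
    refine Finset.sum_congr rfl fun n _ => ?_
    rw [map_mul, Complex.conj_conj, Complex.conj_eq_iff_im.mpr (hψreal _),
      Complex.conj_eq_iff_im.mpr (hχreal _), mul_comm]
  -- descend to the odd quotient
  have hfN : ∀ x ∈ N', cosetAvg N' ψ' ψ x = cosetAvg N' ψ' ψ 1 := by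
    intro x hx
    have h3 := cosetAvg_mul_left N' ψ' ψ ⟨x, hx⟩ 1
    rwa [mul_one] at h3
  obtain ⟨fb, hfb, hfbv⟩ := Cfsg.Agent.Lib.CharKernel.exists_quotient_irr N' hfirr hfN
  have hfb1 : fb = fun _ => 1 := by
    have h3 := Cfsg.Agent.Lib.RealChars.eq_one_of_real (G := T ⧸ N') (by
      rw [← Subgroup.index_eq_card]
      exact hodd) ⟨fb, hfb⟩ (by
      intro g
      obtain ⟨t, rfl⟩ := QuotientGroup.mk_surjective g
      show (fb (t : T ⧸ N')).im = 0
      rw [hfbv]
      exact hfreal t)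
    exact h3
  have hf1 : cosetAvg N' ψ' ψ = fun _ => 1 := by
    funext t
    rw [← hfbv, hfb1]
  by_contra hne
  have h3 := classInner_irr_ne hψ'irr hψ hne
  have h4 := classInner_cosetAvg N' (ψ := ψ') (χ := ψ) (β := fun _ => (1 : ℂ)) (fun _ _ => rfl)
  have h5 : ((fun _ => (1 : ℂ)) * ψ) = ψ := by
    funext a
    simp
  rw [h5, h3, hf1, classInner_irr_self isIrrCharacter_one] at h4
  exact zero_ne_one h4

end Lemmas

theorem result {G : Type*} [Group G] [Finite G] (N : Subgroup G) [N.Normal] (hodd : Odd N.index) (φ : Cfsg.IrrCharacter ↥N) (hφ : (Nat.card ↥N : ℂ)⁻¹ * ∑ᶠ g : ↥N, (φ : ↥N → ℂ) (g * g) = 1) : ∃! χ : Cfsg.IrrCharacter G, (Nat.card G : ℂ)⁻¹ * ∑ᶠ g : G, (χ : G → ℂ) (g * g) = 1 ∧ (∑ᶠ n : ↥N, (χ : G → ℂ) n * (starRingEnd ℂ) ((φ : ↥N → ℂ) n)) ≠ 0 := by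
  classical
  haveI := Fintype.ofFinite G
  haveI : Fintype N := Fintype.ofFinite _
  have hN : N.Normal := inferInstance
  rw [finsum_eq_sum_of_fintype] at hφ
  let T : Subgroup G := inertia N hN (φ : N → ℂ)
  haveI : Fintype T := Fintype.ofFinite _
  have hφcl := isClassFunction_of_isCharacter (IsIrrCharacter.isCharacter φ.2)
  have hT : ∀ g : G, g ∈ T ↔ ∀ n n' : N, (n' : G) = g * (n : G) * g⁻¹ → (φ : N → ℂ) n' = (φ : N → ℂ) n :=
    fun g => mem_inertia
  have hNT : N ≤ T := by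
    intro x hx
    rw [hT]
    intro n n' hn
    have h1 := hφcl n ⟨x, hx⟩
    have h2 : n' = ⟨x, hx⟩ * n * (⟨x, hx⟩ : N)⁻¹ := Subtype.ext hn
    rw [h2, h1]
  let N' : Subgroup T := N.subgroupOf T
  haveI : N'.Normal := Subgroup.Normal.subgroupOf hN T
  haveI : Fintype N' := Fintype.ofFinite _
  let e : N' ≃* N := Subgroup.subgroupOfEquivOfLe hNT
  have hφ' : IsIrrCharacter N' (fun n : N' => (φ : N → ℂ) (e n)) :=
    isIrrCharacter_comp_of_surjective e.toMonoidHom e.surjective φ.2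
  have hν' : (Nat.card N' : ℂ)⁻¹ * ∑ n : N', (φ : N → ℂ) (e (n * n)) = 1 := by
    rw [Nat.card_congr e.toEquiv, ← hφ]
    congr 1
    exact Fintype.sum_equiv e.toEquiv _ _ fun n => by simp
  have hodd' : Odd N'.index := by
    have h1 : N'.index ∣ N.index := Subgroup.relIndex_dvd_index_of_normal N T
    exact Odd.of_dvd_nat hodd h1
  have hinv' : ∀ (t : T) (n : N'), (φ : N → ℂ) (e (MulAut.conjNormal t n)) = (φ : N → ℂ) (e n) := by
    intro t n
    apply (hT t).mp t.2 (e n)
    show (((MulAut.conjNormal t n : N') : T) : G) = _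
    rw [MulAut.conjNormal_apply]
    rfl
  obtain ⟨ψ, hψ, hψres, hψreal, hψν⟩ := Cfsg.Agent.Lib.RealExt.exists_real_extension N' hodd' hφ' hν' hinv'
  have hres : ∀ n : N, ψ (Subgroup.inclusion hNT n) = (φ : N → ℂ) n := by
    intro n
    exact hψres (e.symm n) |>.trans (by simp)
  have hover : (fun n : N => ψ ⟨(n : G), hNT n.2⟩) = (φ : N → ℂ) := funext hres
  have hover1 : classInner (fun n : N => ψ ⟨(n : G), hNT n.2⟩) (φ : N → ℂ) = 1 := by
    rw [hover]
    exact classInner_irr_self φ.2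
  obtain ⟨hχ₀, hmult⟩ := indFun_irr_of_over N T φ.2 (stab_iff N T hT) hNT hψ
    (by rw [hover1]; exact one_ne_zero)
  rw [hover1] at hmult
  have hNne : (Nat.card N : ℂ) ≠ 0 := natCard_subgroup_ne_zero N
  have hconv : ∀ χ : G → ℂ, (∑ᶠ n : N, χ n * conj ((φ : N → ℂ) n)) = (Nat.card N : ℂ) * classInner (fun n : N => χ n) (φ : N → ℂ) := by
    intro χ
    rw [finsum_eq_sum_of_fintype]
    unfold classInner
    field_simp
  refine ⟨⟨indFun T ψ, hχ₀⟩, ⟨?_, ?_⟩, ?_⟩
  · rw [finsum_eq_sum_of_fintype]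
    rw [Cfsg.Agent.Lib.FSInd.nu_indFun T hψ hψreal hχ₀, hψν]
  · show (∑ᶠ n : N, indFun T ψ n * conj ((φ : N → ℂ) n)) ≠ 0
    rw [hconv, hmult, mul_one]
    exact hNne
  · rintro χ' ⟨hν', hcon'⟩
    rw [finsum_eq_sum_of_fintype] at hν'
    rw [hconv] at hcon'
    apply Subtype.ext
    apply eq_of_real φ.2 hT hNT hψ hres hψreal hodd' χ'.2
    · apply real_of_nu_ne_zero χ'.2
      rw [hν']
      exact one_ne_zero
    · exact right_ne_zero_of_mul hcon'

end Cfsg.Agent.S4873
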