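import Cfsg.Statements.S4885
import Mathlib
import Cfsg.Agent.Lib.SylowCommute4

set_option autoImplicit false
set_option linter.style.haveILetI false
open Cfsg

namespace Cfsg.Agent.S4885

/-- Let p and q be primes dividing the order of the finite group G, and suppose G is p-solvable and q-solvable. Fix maximal ideals of the algebraic integers containing p and q, defining the principal p-block and the principal q-block. If the irreducible characters of degree prime to p in the principal p-block are exactly the irreducible characters of degree prime to q in the principal q-block, then p = q. -/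
theorem result {G : Type*} [Group G] [Finite G] (p q : ℕ) [Fact p.Prime] [Fact q.Prime] (hp : p ∣ Nat.card G) (hq : q ∣ Nat.card G) (hps : Cfsg.IsPSolvable p G) (hqs : Cfsg.IsPSolvable q G) (Mp Mq : Ideal Cfsg.AlgInt) (hMp : Cfsg.IsPModular p Mp) (hMq : Cfsg.IsPModular q Mq) (h : ∀ χ : Cfsg.IrrCharacter G, (χ ∈ Cfsg.principalBlock Mp G ∧ ¬ p ∣ Cfsg.charDegree (χ : G → ℂ)) ↔ (χ ∈ Cfsg.principalBlock Mq G ∧ ¬ q ∣ Cfsg.charDegree (χ : G → ℂ))) : p = q := by
  classical
  by_contra hne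
  letI : Fintype G := Fintype.ofFinite _
  letI : Fintype (Sylow p G) := Fintype.ofFinite _
  have hA : ∀ χ : Cfsg.IrrCharacter G, χ ∈ Cfsg.principalBlock Mp G → ¬ p ∣ Cfsg.charDegree (χ : G → ℂ) →
      ¬ q ∣ Cfsg.charDegree (χ : G → ℂ) := fun χ h1 h2 => ((h χ).mp ⟨h1, h2⟩).2
  have hB : ∀ χ : Cfsg.IrrCharacter G, χ ∈ Cfsg.principalBlock Mq G → ¬ q ∣ Cfsg.charDegree (χ : G → ℂ) →
      ¬ p ∣ Cfsg.charDegree (χ : G → ℂ) := fun χ h1 h2 => ((h χ).mpr ⟨h1, h2⟩).2
  obtain ⟨P, Q, hc⟩ := Cfsg.Agent.Lib.SylowCommute4.exists_commuting hne _ G rfl hps hqs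
    (Cfsg.Agent.Lib.SylowCommute4.degImpCore_of_block hMp hps hA)
    (Cfsg.Agent.Lib.SylowCommute4.degImpCore_of_block hMq hqs hB)
  have hPle : (P : Subgroup G) ≤ pPrimeCore q G :=
    Cfsg.Agent.Lib.SylowCommute.le_pPrimeCore_of_commute (Ne.symm hne) hqs Q P.isPGroup'
      (fun y hy x hx => (hc x hx y hy).symm)
  letI : Fintype (P : Subgroup G) := Fintype.ofFinite _
  have hpr : p.Prime := Fact.out
  haveI hPnt : Nontrivial (P : Subgroup G) := by
    rw [← Finite.one_lt_card_iff_nontrivial, Sylow.card_eq_multiplicity]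
    have h1 : 0 < (Nat.card G).factorization p :=
      hpr.factorization_pos_of_dvd Nat.card_pos.ne' hp
    exact Nat.one_lt_pow h1.ne' hpr.one_lt
  have hP : IsPGroup p (P : Subgroup G) := P.isPGroup'
  obtain ⟨M, hM, -⟩ : ∃ M : Subgroup (P : Subgroup G), IsCoatom M ∧ ⊥ ≤ M :=
    (eq_top_or_exists_le_coatom (⊥ : Subgroup (P : Subgroup G))).resolve_left bot_ne_top
  have hcomm : commutator (P : Subgroup G) ≤ M :=
    (Cfsg.Agent.Lib.Frat.commutator_le_frattini hP).trans (frattini_le_coatom hM)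
  obtain ⟨x₀, hx₀⟩ : ∃ x₀, x₀ ∉ M := by
    by_contra hcon
    push Not at hcon
    exact hM.1 (eq_top_iff.mpr fun x _ => hcon x)
  have hx₁ : Abelianization.of x₀ ≠ 1 := fun h2 => hx₀ (hcomm ((QuotientGroup.eq_one_iff _).mp h2))
  obtain ⟨l, hl⟩ := CommGroup.exists_apply_ne_one_of_hasEnoughRootsOfUnity
    (Abelianization (P : Subgroup G)) ℂ hx₁
  let μ : (P : Subgroup G) →* ℂˣ := l.comp Abelianization.of
  obtain ⟨χ, hker, hχp, hcon⟩ := Cfsg.Agent.Lib.SylowCommute2.exists_char_over_linear P μ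
  have hχB : χ ∈ Cfsg.principalBlock Mp G :=
    Cfsg.Agent.Lib.BlockNormal.mem_principalBlock_of_pSolvable hMp hps χ hker
  have hχBq : χ ∈ Cfsg.principalBlock Mq G := ((h χ).mp ⟨hχB, hχp⟩).1
  have hkerq := Cfsg.Agent.Lib.SylowCommute4.ker_of_block hMq χ hχBq
  have e : (fun x : (P : Subgroup G) => (χ : G → ℂ) x) = fun _ => (χ : G → ℂ) 1 :=
    funext fun x => hkerq x (hPle x.2)
  rw [e] at hcon
  apply hcon
  have h1 : Cfsg.classInner (fun _ : (P : Subgroup G) => (χ : G → ℂ) 1) (fun x => ((μ x : ℂˣ) : ℂ)) =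
      (χ : G → ℂ) 1 * Cfsg.classInner (fun _ : (P : Subgroup G) => (1 : ℂ)) (fun x => ((μ x : ℂˣ) : ℂ)) := by
    unfold Cfsg.classInner
    simp only [one_mul]
    rw [← Finset.mul_sum]
    ring
  have h2 : Cfsg.classInner (fun _ : (P : Subgroup G) => (1 : ℂ)) (fun x => ((μ x : ℂˣ) : ℂ)) = 0 := by
    have h3 := Cfsg.Agent.Lib.CharBasic.isIrrCharacter_of_hom (1 : (P : Subgroup G) →* ℂˣ)
    have h4 := Cfsg.Agent.Lib.CharBasic.isIrrCharacter_of_hom μ
    have h5 := Cfsg.Agent.Lib.CharBasic.classInner_irr_ne h3 h4 (by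
      intro h6
      have h7 := congrFun h6 x₀
      apply hl
      apply Units.ext
      exact h7.symm)
    simpa using h5
  rw [h1, h2, mul_zero]

end Cfsg.Agent.S4885
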