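import Cfsg.Statements.S4886
import Mathlib
import Cfsg.Agent.Lib.SylowCommute4

set_option autoImplicit false
open Cfsg

namespace Cfsg.Agent.S4886

/-- Let p ≠ q be primes and G a finite group that is p-solvable and q-solvable. Fix maximal ideals of the algebraic integers containing p and q, defining the principal p-block and the principal q-block. Then every irreducible character of degree prime to p in the principal p-block has degree prime to q and every irreducible character of degree prime to q in the principal q-block has degree prime to p, if and only if some Sylow p-subgroup of G commutes elementwise with some Sylow q-subgroup. -/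
theorem result {G : Type*} [Group G] [Finite G] (p q : ℕ) [Fact p.Prime] [Fact q.Prime] (hpq : p ≠ q) (Mp Mq : Ideal Cfsg.AlgInt) (hMp : Cfsg.IsPModular p Mp) (hMq : Cfsg.IsPModular q Mq) (hps : Cfsg.IsPSolvable p G) (hqs : Cfsg.IsPSolvable q G) : ((∀ χ : Cfsg.IrrCharacter G, χ ∈ Cfsg.principalBlock Mp G → ¬ p ∣ Cfsg.charDegree (χ : G → ℂ) → ¬ q ∣ Cfsg.charDegree (χ : G → ℂ)) ∧ (∀ χ : Cfsg.IrrCharacter G, χ ∈ Cfsg.principalBlock Mq G → ¬ q ∣ Cfsg.charDegree (χ : G → ℂ) → ¬ p ∣ Cfsg.charDegree (χ : G → ℂ))) ↔ ∃ (P : Sylow p G) (Q : Sylow q G), ∀ x ∈ (P : Subgroup G), ∀ y ∈ (Q : Subgroup G), x * y = y * x := by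
  constructor
  · rintro ⟨h1, h2⟩
    exact Cfsg.Agent.Lib.SylowCommute4.exists_commuting hpq _ G rfl hps hqs
      (Cfsg.Agent.Lib.SylowCommute4.degImpCore_of_block hMp hps h1)
      (Cfsg.Agent.Lib.SylowCommute4.degImpCore_of_block hMq hqs h2)
  · rintro ⟨P, Q, hc⟩
    exact ⟨fun χ hχ _ => Cfsg.Agent.Lib.SylowCommute4.not_dvd_of_commuting hpq hMp hps P Q hc χ hχ,
      fun χ hχ _ => Cfsg.Agent.Lib.SylowCommute4.not_dvd_of_commuting hpq.symm hMq hqs Q P
        (fun y hy x hx => (hc x hx y hy).symm) χ hχ⟩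

end Cfsg.Agent.S4886
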