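import Mathlib
import Cfsg.Statements.S4888
import Cfsg.Agent.Lib.Tate
import Cfsg.Agent.Lib.Frat
import Cfsg.Agent.Lib.BlockNormal
import Cfsg.Agent.Lib.BlockOrtho
import Cfsg.Agent.Lib.BlockOsima
import Cfsg.Agent.Lib.LinTwist

set_option autoImplicit false
set_option linter.unusedSectionVars false
set_option linter.unusedVariables false
set_option linter.style.haveILetI false

open Cfsg Cfsg.Agent.Lib.CharBasic Cfsg.Agent.Lib.BlockLocal Cfsg.Agent.Lib.BlockOrtho
open scoped ComplexConjugate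

namespace Cfsg.Agent.S4888

universe u

section

variable {G : Type u} [Group G] [Fintype G] {p : ℕ} [hp : Fact p.Prime] {M : Ideal AlgInt}

/-- Weak orthogonality summed against a linear character of a Sylow subgroup. -/
theorem sum_eq (hM : IsPModular p M) (P : Sylow p G) [Fintype (P : Subgroup G)] {B : Set (IrrCharacter G)}
    (hB : IsPBlock M B) (lam : (P : Subgroup G) →* ℂˣ) :
    ∑ χ : IrrCharacter G, indB B χ *
        (classInner (fun y : (P : Subgroup G) => (χ : G → ℂ) y) (fun y => ((lam y : ℂˣ) : ℂ)) * (χ : G → ℂ) 1) =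
      (Nat.card (P : Subgroup G) : ℂ)⁻¹ * ∑ χ : IrrCharacter G, indB B χ * ((χ : G → ℂ) 1 * (χ : G → ℂ) 1) := by
  classical
  unfold classInner
  have h1 : ∀ χ : IrrCharacter G, indB B χ *
      ((Nat.card (P : Subgroup G) : ℂ)⁻¹ * (∑ y : (P : Subgroup G), (χ : G → ℂ) y * conj ((lam y : ℂˣ) : ℂ)) * (χ : G → ℂ) 1) =
      (Nat.card (P : Subgroup G) : ℂ)⁻¹ * ∑ y : (P : Subgroup G), conj ((lam y : ℂˣ) : ℂ) *
        (indB B χ * ((χ : G → ℂ) y * (χ : G → ℂ) 1)) := by
    intro χ
    simp only [Finset.mul_sum, Finset.sum_mul]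
    refine Finset.sum_congr rfl fun y _ => ?_
    ring
  simp_rw [h1]
  rw [← Finset.mul_sum, Finset.sum_comm]
  congr 1
  have h2 : ∀ y : (P : Subgroup G), ∑ χ : IrrCharacter G, conj ((lam y : ℂˣ) : ℂ) *
      (indB B χ * ((χ : G → ℂ) y * (χ : G → ℂ) 1)) = conj ((lam y : ℂˣ) : ℂ) *
      ∑ χ : IrrCharacter G, indB B χ * ((χ : G → ℂ) y * (χ : G → ℂ) 1) := by
    intro y
    rw [Finset.mul_sum]
  simp_rw [h2]
  rw [Finset.sum_eq_single (1 : (P : Subgroup G))]
  · simp
  · intro y _ hy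
    have hh : p ∣ orderOf (y : G) := by
      obtain ⟨j, hj⟩ := IsPGroup.iff_orderOf.mp P.isPGroup' y
      rw [Subgroup.orderOf_coe, hj]
      apply dvd_pow_self
      rintro rfl
      rw [pow_zero] at hj
      exact hy (orderOf_eq_one_iff.mp hj)
    have hx : ¬ p ∣ orderOf (1 : G) := by
      rw [orderOf_one]
      exact fun h1 => hM.1.one_lt.ne' (Nat.dvd_one.mp h1)
    have h3 := sum_block_sing_reg hM hB hx hh
    have h4 : ∀ χ : IrrCharacter G, conj ((χ : G → ℂ) 1) = (χ : G → ℂ) 1 := by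
      intro χ
      rw [char_conj_eq_inv (IsIrrCharacter.isCharacter χ.2), inv_one]
    simp_rw [h4] at h3
    rw [h3, mul_zero]
  · intro h
    exact absurd (Finset.mem_univ _) h

/-- The local condition for a homomorphism to lie in the principal block. -/
theorem mem_principal_iff (μ : G →* ℂˣ) :
    (⟨fun g => ((μ g : ℂˣ) : ℂ), isIrrCharacter_of_hom μ⟩ : IrrCharacter G) ∈ principalBlock M G ↔
      ∀ g : G, MemLocalIdeal M (((Subgroup.centralizer ({g} : Set G)).index : ℂ) *
        (1 - ((μ g : ℂˣ) : ℂ))) := by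
  show (∀ g : G, MemLocalIdeal M (centralChar (fun _ : G => (1 : ℂ)) g -
    centralChar (fun g => ((μ g : ℂˣ) : ℂ)) g)) ↔ _
  have h1 : ∀ g : G, centralChar (fun _ : G => (1 : ℂ)) g -
      centralChar (fun g => ((μ g : ℂˣ) : ℂ)) g =
      ((Subgroup.centralizer ({g} : Set G)).index : ℂ) * (1 - ((μ g : ℂˣ) : ℂ)) := by
    intro g
    simp only [centralChar, map_one, Units.val_one]
    ring
  simp_rw [h1]

theorem memLocalRing_hom [M.IsPrime] (μ : G →* ℂˣ) (g : G) : MemLocalRing M ((μ g : ℂˣ) : ℂ) := by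
  refine Cfsg.Agent.Lib.BlockOsima.memLocalRing_of_pow_eq_one (N := Nat.card G) Nat.card_pos ?_
  rw [← Units.val_pow_eq_pow_val, ← map_pow, pow_card_eq_one', map_one, Units.val_one]

/-- The group of homomorphisms in the principal block with `P` in the kernel. -/
def AA (P : Subgroup G) (M : Ideal AlgInt) [M.IsPrime] : Subgroup (G →* ℂˣ) where
  carrier := {μ | (∀ g : G, MemLocalIdeal M (((Subgroup.centralizer ({g} : Set G)).index : ℂ) *
        (1 - ((μ g : ℂˣ) : ℂ)))) ∧ ∀ y ∈ P, μ y = 1}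
  mul_mem' := by
    rintro μ ν ⟨h1, h2⟩ ⟨h3, h4⟩
    refine ⟨fun g => ?_, fun y hy => ?_⟩
    · have e : ((Subgroup.centralizer ({g} : Set G)).index : ℂ) * (1 - (((μ * ν) g : ℂˣ) : ℂ)) =
          ((Subgroup.centralizer ({g} : Set G)).index : ℂ) * (1 - ((μ g : ℂˣ) : ℂ)) +
          ((μ g : ℂˣ) : ℂ) * (((Subgroup.centralizer ({g} : Set G)).index : ℂ) *
            (1 - ((ν g : ℂˣ) : ℂ))) := by
        simp only [MonoidHom.mul_apply, Units.val_mul]
        ring
      rw [e]
      exact memLocalIdeal_add (h1 g) (memLocalIdeal_mul_left (memLocalRing_hom μ g) (h3 g))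
    · simp only [MonoidHom.mul_apply, h2 y hy, h4 y hy, mul_one]
  one_mem' := by
    refine ⟨fun g => ?_, fun y hy => rfl⟩
    simp only [MonoidHom.one_apply, Units.val_one, sub_self, mul_zero]
    exact memLocalIdeal_zero
  inv_mem' := by
    rintro μ ⟨h1, h2⟩
    refine ⟨fun g => ?_, fun y hy => ?_⟩
    · have e : ((Subgroup.centralizer ({g} : Set G)).index : ℂ) * (1 - ((μ⁻¹ g : ℂˣ) : ℂ)) =
          (-((μ⁻¹ g : ℂˣ) : ℂ)) * (((Subgroup.centralizer ({g} : Set G)).index : ℂ) *
            (1 - ((μ g : ℂˣ) : ℂ))) := by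
        have h3 : ((μ⁻¹ g : ℂˣ) : ℂ) * ((μ g : ℂˣ) : ℂ) = 1 := by
          rw [← Units.val_mul, MonoidHom.inv_apply, inv_mul_cancel, Units.val_one]
        linear_combination (-((Subgroup.centralizer ({g} : Set G)).index : ℂ)) * h3
      rw [e]
      exact memLocalIdeal_mul_left (memLocalRing_neg (memLocalRing_hom μ⁻¹ g)) (h1 g)
    · simp only [MonoidHom.inv_apply, h2 y hy, inv_one]

/-- A homomorphism to `ℂˣ` killing a Sylow `p`-subgroup with `p`-th power one is trivial. -/
theorem eq_one_of_pow (P : Sylow p G) (μ : G →* ℂˣ) (hμ : ∀ y ∈ (P : Subgroup G), μ y = 1)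
    (hpow : μ ^ p = 1) : μ = 1 := by
  ext g
  have h1 : (P : Subgroup G) ≤ μ.ker := fun y hy => hμ y hy
  have h2 : ¬ p ∣ μ.ker.index := fun h => P.not_dvd_index (h.trans (Subgroup.index_dvd_of_le h1))
  have h3 : (μ g) ^ p = 1 := by
    have := congrArg (fun f : G →* ℂˣ => f g) hpow
    simpa using this
  have h4 : orderOf (μ g) ∣ p := orderOf_dvd_of_pow_eq_one h3
  have h5 : orderOf (μ g) ∣ μ.ker.index := by
    rw [Subgroup.index_ker]
    have := Subgroup.orderOf_dvd_natCard μ.range (x := μ g) ⟨g, rfl⟩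
    exact this
  have h6 : orderOf (μ g) = 1 := by
    rcases (Nat.dvd_prime hp.out).mp h4 with h | h
    · exact h
    · rw [h] at h5
      exact absurd h5 h2
  rw [orderOf_eq_one_iff.mp h6]
  simp

/-- Every linear character of a Sylow subgroup extends. -/
theorem exists_ext (hM : IsPModular p M) (P : Sylow p G)
    (hd : ∀ χ : IrrCharacter G, χ ∈ principalBlock M G → ¬ p ∣ charDegree (χ : G → ℂ) →
      charDegree (χ : G → ℂ) = 1)
    (lam : (P : Subgroup G) →* ℂˣ) : ∃ μ : G →* ℂˣ, ∀ y : (P : Subgroup G), μ y = lam y := by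
  classical
  haveI := hM.2.1.isPrime
  haveI : Fintype (P : Subgroup G) := Fintype.ofFinite _
  set B := principalBlock M G with hBdef
  have hB : IsPBlock M B := Cfsg.Agent.Lib.BlockNormal.isPBlock_principalBlock M
  -- multiplicities
  have hmul : ∀ (l : (P : Subgroup G) →* ℂˣ) (χ : IrrCharacter G), ∃ a : ℕ,
      classInner (fun y : (P : Subgroup G) => (χ : G → ℂ) y) (fun y => ((l y : ℂˣ) : ℂ)) = a :=
    fun l χ => classInner_char_irr (isCharacter_restrict _ (IsIrrCharacter.isCharacter χ.2))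
      (isIrrCharacter_of_hom l)
  choose a ha using hmul
  let S : Finset (IrrCharacter G) := Finset.univ.filter (fun χ => χ ∈ B)
  let F : ((P : Subgroup G) →* ℂˣ) → ℕ := fun l => ∑ χ ∈ S, a l χ * charDegree (χ : G → ℂ)
  have hF : ∀ l, ((F l : ℕ) : ℂ) = (Nat.card (P : Subgroup G) : ℂ)⁻¹ *
      ∑ χ : IrrCharacter G, indB B χ * ((χ : G → ℂ) 1 * (χ : G → ℂ) 1) := by
    intro l
    rw [← sum_eq hM P hB l]
    simp only [F, S]
    push_cast
    rw [Finset.sum_filter]
    refine Finset.sum_congr rfl fun χ _ => ?_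
    by_cases h : χ ∈ B
    · rw [if_pos h, indB_of_mem h, ha, one_mul,
        Cfsg.Agent.Lib.CharKernel.one_eq_charDegree (IsIrrCharacter.isCharacter χ.2)]
    · rw [if_neg h, indB_of_not_mem h, zero_mul]
  have hFeq : ∀ l, F l = F 1 := by
    intro l
    have : ((F l : ℕ) : ℂ) = ((F 1 : ℕ) : ℂ) := by rw [hF, hF]
    exact_mod_cast this
  -- irreducible with degree one: evaluation of the multiplicities
  have hval0 : ∀ (l : (P : Subgroup G) →* ℂˣ) (χ : IrrCharacter G), charDegree (χ : G → ℂ) = 1 →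
      (¬ ∀ y : (P : Subgroup G), (χ : G → ℂ) y = ((l y : ℂˣ) : ℂ)) → a l χ = 0 := by
    intro l χ h1 h2
    obtain ⟨β, hβ⟩ := Cfsg.Agent.Lib.LinTwist.exists_hom_of_charDegree χ.2 h1
    have h3 : (fun y : (P : Subgroup G) => (χ : G → ℂ) y) =
        fun y => (((β.comp (P : Subgroup G).subtype) y : ℂˣ) : ℂ) := by
      funext y
      rw [hβ]
      rfl
    have h4 := ha l χ
    rw [classInner_irr_ne (h3 ▸ isIrrCharacter_of_hom _) (isIrrCharacter_of_hom l)
      (fun h => h2 (fun y => congrFun h y))] at h4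
    exact_mod_cast h4.symm
  have hval1 : ∀ (l : (P : Subgroup G) →* ℂˣ) (χ : IrrCharacter G),
      (∀ y : (P : Subgroup G), (χ : G → ℂ) y = ((l y : ℂˣ) : ℂ)) → a l χ = 1 := by
    intro l χ h2
    have h3 : (fun y : (P : Subgroup G) => (χ : G → ℂ) y) = fun y => ((l y : ℂˣ) : ℂ) := funext h2
    have h4 := ha l χ
    rw [h3, classInner_irr_self (isIrrCharacter_of_hom l)] at h4
    exact_mod_cast h4.symm
  by_contra hno
  push Not at hno
  -- the sum for `lam` is divisible by `p`
  have hdvd1 : p ∣ F lam := by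
    apply Finset.dvd_sum
    intro χ hχ
    have hχB : χ ∈ B := (Finset.mem_filter.mp hχ).2
    by_cases hpd : p ∣ charDegree (χ : G → ℂ)
    · exact Dvd.dvd.mul_left hpd _
    · have hdeg := hd χ hχB hpd
      have h0 : a lam χ = 0 := by
        apply hval0 lam χ hdeg
        intro hall
        obtain ⟨β, hβ⟩ := Cfsg.Agent.Lib.LinTwist.exists_hom_of_charDegree χ.2 hdeg
        obtain ⟨y, hy⟩ := hno β
        apply hy
        have := hall y
        rw [hβ] at this
        exact Units.ext this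
      rw [h0, zero_mul]
      exact dvd_zero p
  rw [hFeq] at hdvd1
  -- the set `X`
  let Q : IrrCharacter G → Prop := fun χ => charDegree (χ : G → ℂ) = 1 ∧
    ∀ y : (P : Subgroup G), (χ : G → ℂ) y = 1
  let X : Finset (IrrCharacter G) := S.filter Q
  have hdvd2 : p ∣ X.card := by
    have h1 : F 1 = ∑ χ ∈ S.filter Q, a 1 χ * charDegree (χ : G → ℂ) +
        ∑ χ ∈ S.filter (fun χ => ¬ Q χ), a 1 χ * charDegree (χ : G → ℂ) :=
      (Finset.sum_filter_add_sum_filter_not S Q _).symm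
    have h2 : ∑ χ ∈ S.filter Q, a 1 χ * charDegree (χ : G → ℂ) = X.card := by
      rw [Finset.card_eq_sum_ones]
      refine Finset.sum_congr rfl fun χ hχ => ?_
      obtain ⟨h3, h4, h5⟩ := Finset.mem_filter.mp hχ
      rw [h4, hval1 1 χ (fun y => by rw [h5 y]; simp)]
    have h3 : p ∣ ∑ χ ∈ S.filter (fun χ => ¬ Q χ), a 1 χ * charDegree (χ : G → ℂ) := by
      apply Finset.dvd_sum
      intro χ hχ
      obtain ⟨h3, h4⟩ := Finset.mem_filter.mp hχ
      have hχB : χ ∈ B := (Finset.mem_filter.mp h3).2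
      by_cases hpd : p ∣ charDegree (χ : G → ℂ)
      · exact Dvd.dvd.mul_left hpd _
      · have hdeg := hd χ hχB hpd
        have h0 : a 1 χ = 0 := by
          apply hval0 1 χ hdeg
          intro hall
          apply h4
          refine ⟨hdeg, fun y => ?_⟩
          rw [hall y]
          simp
        rw [h0, zero_mul]
        exact dvd_zero p
    rw [h1, h2] at hdvd1
    exact (Nat.dvd_add_left h3).mp hdvd1
  -- bijection
  let φ : AA (P : Subgroup G) M → IrrCharacter G := fun μ =>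
    ⟨fun g => (((μ : G →* ℂˣ) g : ℂˣ) : ℂ), isIrrCharacter_of_hom _⟩
  have hφinj : Function.Injective φ := by
    intro μ ν h
    apply Subtype.ext
    ext g
    have := congrFun (congrArg Subtype.val h) g
    exact this
  haveI : Finite (AA (P : Subgroup G) M) := Finite.of_injective φ hφinj
  haveI : Fintype (AA (P : Subgroup G) M) := Fintype.ofFinite _
  have hXeq : X = Finset.univ.image φ := by
    ext χ
    simp only [Finset.mem_image, Finset.mem_univ, true_and]
    constructor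
    · intro hχ
      obtain ⟨h3, h4, h5⟩ := Finset.mem_filter.mp hχ
      have hχB : χ ∈ B := (Finset.mem_filter.mp h3).2
      obtain ⟨β, hβ⟩ := Cfsg.Agent.Lib.LinTwist.exists_hom_of_charDegree χ.2 h4
      have hχe : χ = ⟨fun g => ((β g : ℂˣ) : ℂ), isIrrCharacter_of_hom β⟩ :=
        Subtype.ext (funext hβ)
      rw [hχe] at hχB
      refine ⟨⟨β, (mem_principal_iff β).mp hχB, fun y hy => ?_⟩, hχe.symm⟩
      have := h5 ⟨y, hy⟩
      rw [hβ] at this
      exact Units.ext this
    · rintro ⟨μ, rfl⟩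
      refine Finset.mem_filter.mpr ⟨Finset.mem_filter.mpr ⟨Finset.mem_univ _, ?_⟩, ?_, ?_⟩
      · exact (mem_principal_iff (μ : G →* ℂˣ)).mpr μ.2.1
      · show ⌊(((((μ : G →* ℂˣ) 1 : ℂˣ) : ℂ))).re⌋₊ = 1
        simp
      · intro y
        show (((μ : G →* ℂˣ) y : ℂˣ) : ℂ) = 1
        rw [μ.2.2 y y.2, Units.val_one]
  have hcard : X.card = Nat.card (AA (P : Subgroup G) M) := by
    rw [hXeq, Finset.card_image_of_injective _ hφinj, Finset.card_univ, Fintype.card_eq_nat_card]
  rw [hcard] at hdvd2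
  obtain ⟨μ, hμ⟩ := exists_prime_orderOf_dvd_card' p hdvd2
  have h1 : μ ^ p = 1 := by
    have := pow_orderOf_eq_one μ
    rwa [hμ] at this
  have h2 : (μ : G →* ℂˣ) = 1 := by
    apply eq_one_of_pow P _ μ.2.2
    have := congrArg Subtype.val h1
    simpa using this
  have h3 : μ = 1 := Subtype.ext h2
  rw [h3, orderOf_one] at hμ
  exact hp.out.one_lt.ne hμ

/-- Forward direction. -/
theorem forward (hM : IsPModular p M)
    (hd : ∀ χ : IrrCharacter G, χ ∈ principalBlock M G → ¬ p ∣ charDegree (χ : G → ℂ) →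
      charDegree (χ : G → ℂ) = 1) : HasNormalPComplement p G := by
  classical
  obtain ⟨P⟩ : Nonempty (Sylow p G) := inferInstance
  obtain ⟨n, hn⟩ := IsPGroup.iff_card.mp P.isPGroup'
  set k := (P : Subgroup G).index with hk
  have hkc : Nat.Coprime k (p ^ n) :=
    Nat.Coprime.pow_right _ ((Nat.Prime.coprime_iff_not_dvd hp.out).mpr P.not_dvd_index).symm
  have hG : Nat.card G = p ^ n * k := by
    rw [← hn, hk, Subgroup.card_mul_index]
  let N : Subgroup G :=
    { carrier := {g | ∀ μ : G →* ℂˣ, (∀ h, μ h ^ (p ^ n) = 1) → μ g = 1}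
      mul_mem' := fun {a b} ha hb μ hμ => by rw [map_mul, ha μ hμ, hb μ hμ, one_mul]
      one_mem' := fun μ _ => map_one μ
      inv_mem' := fun {a} ha μ hμ => by rw [map_inv, ha μ hμ, inv_one] }
  haveI hNn : N.Normal := by
    constructor
    intro x hx g μ hμ
    rw [map_mul, map_mul, map_inv, hx μ hμ, mul_one, mul_inv_cancel]
  have hpowN : ∀ g : G, g ^ (p ^ n) ∈ N := by
    intro g μ hμ
    rw [map_pow]
    exact hμ g
  have hcomm : N ⊓ (P : Subgroup G) ≤ (frattini (P : Subgroup G)).map (P : Subgroup G).subtype := by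
    rintro x ⟨hxN, hxP⟩
    refine ⟨⟨x, hxP⟩, ?_, rfl⟩
    apply Cfsg.Agent.Lib.Frat.commutator_le_frattini P.isPGroup'
    by_contra hxc
    have hne : (Abelianization.of (⟨x, hxP⟩ : (P : Subgroup G))) ≠ 1 := by
      intro h
      exact hxc ((QuotientGroup.eq_one_iff _).mp h)
    obtain ⟨φ, hφ⟩ := CommGroup.exists_apply_ne_one_of_hasEnoughRootsOfUnity
      (Abelianization (P : Subgroup G)) ℂ hne
    let lam : (P : Subgroup G) →* ℂˣ := (φ : Abelianization (P : Subgroup G) →* ℂˣ).comp Abelianization.of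
    obtain ⟨μ, hμ⟩ := exists_ext hM P hd lam
    let e := k ^ Nat.totient (p ^ n)
    have he : e ≡ 1 [MOD p ^ n] := Nat.ModEq.pow_totient hkc
    have hke : k ∣ e := dvd_pow_self k (Nat.totient_pos.mpr (pow_pos hp.out.pos n)).ne'
    obtain ⟨e', he'⟩ := hke
    have h1 : ∀ h : G, (μ ^ e) h ^ (p ^ n) = 1 := by
      intro h
      have he2 : e * p ^ n = Nat.card G * e' := by
        rw [he', hG]
        ring
      rw [MonoidHom.pow_apply, ← pow_mul, he2, pow_mul, ← map_pow, pow_card_eq_one', map_one, one_pow]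
    have h2 := hxN (μ ^ e) h1
    rw [MonoidHom.pow_apply] at h2
    have h3 : μ x = lam ⟨x, hxP⟩ := hμ ⟨x, hxP⟩
    have h4 : lam ⟨x, hxP⟩ ^ (p ^ n) = 1 := by
      rw [← map_pow, ← hn, pow_card_eq_one', map_one]
    rw [h3] at h2
    have h5 : orderOf (lam ⟨x, hxP⟩) ∣ p ^ n := orderOf_dvd_of_pow_eq_one h4
    have h6 : lam ⟨x, hxP⟩ ^ e = lam ⟨x, hxP⟩ ^ 1 := pow_eq_pow_iff_modEq.mpr (he.of_dvd h5)
    rw [h6, pow_one] at h2
    exact hφ h2
  have hnorm : (P : Subgroup G) ≤ Subgroup.normalizer (N : Set G) := by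
    intro g _
    rw [Subgroup.mem_set_normalizer_iff]
    intro x
    exact ⟨fun hx => hNn.conj_mem x hx g, fun hx => by
      have := hNn.conj_mem _ hx g⁻¹
      have e : g⁻¹ * (g * x * g⁻¹) * g⁻¹⁻¹ = x := by group
      rwa [e] at this⟩
  obtain ⟨L, hLN, hLc, hL⟩ := Cfsg.Agent.Lib.Tate.tate_aux P _ N rfl hnorm hcomm
  apply Cfsg.Agent.Lib.Tate.hasNormalPComplement_of_pow L hLc
  intro g
  obtain ⟨j, hj⟩ := hL _ (hpowN g)
  refine ⟨n + j, ?_⟩
  rw [pow_add, pow_mul]
  exact hj

/-- Backward direction. -/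
theorem backward (hM : IsPModular p M) (h : HasNormalPComplement p G) (χ : IrrCharacter G)
    (hχ : χ ∈ principalBlock M G) (h0 : ¬ p ∣ charDegree (χ : G → ℂ)) :
    charDegree (χ : G → ℂ) = 1 := by
  classical
  obtain ⟨Q, K, hK, hc⟩ := h
  have hcard : Nat.card K * Nat.card Q = Nat.card G := hc.card_mul_card
  have hKp : ¬ p ∣ Nat.card K := by
    intro hdvd
    apply Q.not_dvd_index
    have : (Q : Subgroup G).index = Nat.card K := by
      have h1 := Subgroup.card_mul_index (Q : Subgroup G)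
      rw [← hcard, mul_comm] at h1
      exact Nat.eq_of_mul_eq_mul_right Nat.card_pos h1
    rw [this]
    exact hdvd
  have hker := Cfsg.Agent.Lib.BlockNormal.eq_of_mem_principalBlock hM K hKp χ hχ
  obtain ⟨χ', hirr, hval⟩ := Cfsg.Agent.Lib.CharKernel.exists_quotient_irr K χ.2 hker
  have hdeg : charDegree χ' = charDegree (χ : G → ℂ) := by
    unfold charDegree
    rw [← hval 1]
    rfl
  have hdvd := Cfsg.Agent.Lib.CharKernel.charDegree_dvd_card hirr
  have hqc : Nat.card (G ⧸ K) = Nat.card Q := by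
    have h1 := Subgroup.card_eq_card_quotient_mul_card_subgroup K
    rw [← hcard, mul_comm] at h1
    exact (Nat.eq_of_mul_eq_mul_right Nat.card_pos h1).symm
  obtain ⟨n, hn⟩ := IsPGroup.iff_card.mp Q.isPGroup'
  rw [hqc, hn, hdeg] at hdvd
  obtain ⟨j, -, hj⟩ := (Nat.dvd_prime_pow hp.out).mp hdvd
  rw [hj] at h0 ⊢
  rcases Nat.eq_zero_or_pos j with hj0 | hj0
  · rw [hj0, pow_zero]
  · exact absurd (dvd_pow_self p hj0.ne') h0

end

theorem result {G : Type*} [Group G] [Finite G] (p : ℕ) [Fact p.Prime] (M : Ideal Cfsg.AlgInt) (hM : Cfsg.IsPModular p M) : (∃ d : ℕ, ∀ χ : Cfsg.IrrCharacter G, χ ∈ (Cfsg.principalBlock M G) → Cfsg.blockHeight p (Cfsg.principalBlock M G) (χ : G → ℂ) = 0 → Cfsg.charDegree (χ : G → ℂ) = d) ↔ Cfsg.HasNormalPComplement p G := by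
  classical
  haveI := Fintype.ofFinite G
  haveI := hM.2.1.isPrime
  have hone := Cfsg.Agent.Lib.BlockNormal.irrOne_mem_principalBlock (G := G) M
  have hinf : sInf ((fun ψ : IrrCharacter G => (charDegree (ψ : G → ℂ)).factorization p) '' principalBlock M G) = 0 := by
    have h1 : (0 : ℕ) ∈ ((fun ψ : IrrCharacter G => (charDegree (ψ : G → ℂ)).factorization p) '' principalBlock M G) := by
      refine ⟨_, hone, ?_⟩
      have : charDegree ((Cfsg.Agent.Lib.BlockNormal.irrOne G : IrrCharacter G) : G → ℂ) = 1 := by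
        show ⌊((1 : ℂ)).re⌋₊ = 1
        simp
      simp only [this]
      simp
    exact Nat.le_zero.mp (Nat.sInf_le h1)
  have hheight : ∀ χ : IrrCharacter G, blockHeight p (principalBlock M G) (χ : G → ℂ) =
      (charDegree (χ : G → ℂ)).factorization p := by
    intro χ
    unfold blockHeight
    rw [hinf, Nat.sub_zero]
  constructor
  · rintro ⟨d, hd⟩
    apply forward hM
    have hd1 : d = 1 := by
      rw [← hd _ hone (by
        rw [hheight]
        have : charDegree ((Cfsg.Agent.Lib.BlockNormal.irrOne G : IrrCharacter G) : G → ℂ) = 1 := by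
          show ⌊((1 : ℂ)).re⌋₊ = 1
          simp
        rw [this]
        simp)]
      show ⌊((1 : ℂ)).re⌋₊ = 1
      simp
    intro χ hχ hp0
    rw [hd χ hχ (by rw [hheight]; exact Nat.factorization_eq_zero_of_not_dvd hp0), hd1]
  · intro h
    refine ⟨1, fun χ hχ h0 => ?_⟩
    rw [hheight] at h0
    apply backward hM h χ hχ
    intro hdvd
    have hne : charDegree (χ : G → ℂ) ≠ 0 := by
      have := Cfsg.Agent.Lib.CharKernel.charDegree_dvd_card χ.2
      intro h00
      rw [h00] at this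
      exact Nat.card_pos.ne' (Nat.zero_dvd.mp this)
    have := (Nat.Prime.dvd_iff_one_le_factorization (Fact.out) hne).mp hdvd
    omega

end Cfsg.Agent.S4888
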