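import Mathlib
import Cfsg.Statements.S4911
import Cfsg.Agent.Lib.CharAutP

set_option autoImplicit false
open Cfsg

namespace Cfsg.Agent.S4911

open Cfsg.Agent.Lib.CharBasic Cfsg.Agent.Lib.CharInd Cfsg.Agent.Lib.CharAut Cfsg.Agent.Lib.CharAutP Cfsg.Agent.Lib.RealChars

universe u

variable {G : Type u} [Group G]

/-- Conjugation by `P` on `K` if `P` normalizes `K`. -/
def conjHom (P K : Subgroup G) (hPK : P ≤ Subgroup.normalizer (K : Set G)) : P →* MulAut K where
  toFun y :=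
    { toFun := fun k => ⟨(y : G) * k * (y : G)⁻¹, by
        have := Subgroup.mem_normalizer_iff.mp (hPK y.2) k
        exact this.mp k.2⟩
      invFun := fun k => ⟨(y : G)⁻¹ * k * (y : G), by
        have := Subgroup.mem_normalizer_iff.mp (hPK y.2) ((y : G)⁻¹ * k * (y : G))
        apply this.mpr
        simpa [mul_assoc] using k.2⟩
      left_inv := fun k => by
        apply Subtype.ext
        simp [mul_assoc]
      right_inv := fun k => by
        apply Subtype.ext
        simp [mul_assoc]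
      map_mul' := fun a b => by
        apply Subtype.ext
        simp [mul_assoc] }
  map_one' := by
    ext k
    simp
  map_mul' := fun a b => by
    ext k
    simp [mul_assoc]

theorem result {G : Type*} [Group G] [Finite G] (p : ℕ) [Fact p.Prime] (P K : Subgroup G) (hP : IsPGroup p ↥P) (hK : ¬ p ∣ Nat.card ↥K) (hPK : P ≤ Subgroup.normalizer (K : Set G)) : Nat.card {θ : Cfsg.IrrCharacter ↥K // (∀ k : ↥K, ((θ : ↥K → ℂ) k).im = 0) ∧ (∀ x ∈ P, ∀ k k' : ↥K, (k' : G) = x * (k : G) * x⁻¹ → (θ : ↥K → ℂ) k' = (θ : ↥K → ℂ) k)} = Nat.card {c : ConjClasses ↥K // (∀ k : ↥K, ConjClasses.mk k = c → IsConj k k⁻¹) ∧ ∀ k : ↥K, ConjClasses.mk k = c → ∀ x ∈ P, ∀ k' : ↥K, (k' : G) = x * (k : G) * x⁻¹ → ConjClasses.mk k' = c} ∧ ((∀ θ : Cfsg.IrrCharacter ↥K, (∀ k : ↥K, ((θ : ↥K → ℂ) k).im = 0) → (∀ x ∈ P, ∀ k k' : ↥K, (k' : G) = x * (k : G) * x⁻¹ → (θ : ↥K → ℂ) k' = (θ : ↥K → ℂ) k)) → ∀ k : ↥K, IsConj k k⁻¹ → ∃ k' : ↥K, IsConj k k' ∧ ∀ x ∈ P, x * (k' :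 G) * x⁻¹ = (k' : G)) := by
  classical
  haveI : Finite (ConjClasses K) := Quotient.finite _
  haveI : Fintype K := Fintype.ofFinite K
  let φ : P →* MulAut K := conjHom P K hPK
  have hφ : ∀ (a : P) (k : K), (((φ a) k : K) : G) = (a : G) * k * (a : G)⁻¹ := fun a k => rfl
  have hinvIrr : ∀ θ : IrrCharacter K, (∀ x ∈ P, ∀ k k' : K, (k' : G) = x * (k : G) * x⁻¹ → (θ : K → ℂ) k' = (θ : K → ℂ) k) ↔
      ∀ a : P, irrAut (φ a) θ = θ := by
    intro θ
    constructor
    · intro h a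
      apply Subtype.ext
      funext n
      rw [irrAut_apply]
      symm
      apply h a a.2
      rw [← hφ, MulEquiv.apply_symm_apply]
    · intro h x hx k k' hk
      have h1 : k' = φ ⟨x, hx⟩ k := Subtype.ext hk
      have h2 := congrArg (fun η : IrrCharacter K => (η : K → ℂ) k') (h ⟨x, hx⟩)
      simp only [irrAut_apply] at h2
      rw [← h2, h1, MulEquiv.symm_apply_apply]
  have hrealIrr : ∀ θ : IrrCharacter K, (∀ k : K, ((θ : K → ℂ) k).im = 0) ↔ conjIrr θ = θ :=
    fun θ => (conjIrr_eq_iff θ).symm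
  have hrealCl : ∀ c : ConjClasses K, (∀ k : K, ConjClasses.mk k = c → IsConj k k⁻¹) ↔ classInv c = c := by
    intro c
    constructor
    · intro h
      obtain ⟨k, rfl⟩ := ConjClasses.mk_surjective c
      exact (classInv_mk_eq_iff k).mpr (h k rfl)
    · intro h k hk
      subst hk
      exact (classInv_mk_eq_iff k).mp h
  have hinvCl : ∀ c : ConjClasses K, (∀ k : K, ConjClasses.mk k = c → ∀ x ∈ P, ∀ k' : K, (k' : G) = x * (k : G) * x⁻¹ → ConjClasses.mk k' = c) ↔
      ∀ a : P, classAut (φ a) c = c := by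
    intro c
    constructor
    · intro h a
      obtain ⟨k, rfl⟩ := ConjClasses.mk_surjective c
      rw [classAut_mk]
      exact h k rfl a a.2 _ (hφ a k)
    · intro h k hk x hx k' hk'
      subst hk
      have h1 : k' = φ ⟨x, hx⟩ k := Subtype.ext hk'
      rw [h1, ← classAut_mk, h]
  have hmain := card_fixIrr_real_eq φ p hP hK
  have e₁ : Nat.card {θ : IrrCharacter K // (∀ k : K, ((θ : K → ℂ) k).im = 0) ∧ (∀ x ∈ P, ∀ k k' : K, (k' : G) = x * (k : G) * x⁻¹ → (θ : K → ℂ) k' = (θ : K → ℂ) k)} =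
      Nat.card {θ : FixIrr φ // conjIrr θ.1 = θ.1} := by
    apply Nat.card_congr
    refine ⟨fun θ => ⟨⟨θ.1, (hinvIrr _).mp θ.2.2⟩, (hrealIrr _).mp θ.2.1⟩,
      fun θ => ⟨θ.1.1, (hrealIrr _).mpr θ.2, (hinvIrr _).mpr θ.1.2⟩, ?_, ?_⟩
    · intro θ; rfl
    · intro θ; rfl
  have e₂ : Nat.card {c : ConjClasses K // (∀ k : K, ConjClasses.mk k = c → IsConj k k⁻¹) ∧ ∀ k : K, ConjClasses.mk k = c → ∀ x ∈ P, ∀ k' : K, (k' : G) = x * (k : G) * x⁻¹ → ConjClasses.mk k' = c} =
      Nat.card {C : FixCl φ // classInv C.1 = C.1} := by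
    apply Nat.card_congr
    refine ⟨fun C => ⟨⟨C.1, (hinvCl _).mp C.2.2⟩, (hrealCl _).mp C.2.1⟩,
      fun C => ⟨C.1.1, (hrealCl _).mpr C.2, (hinvCl _).mpr C.1.2⟩, ?_, ?_⟩
    · intro θ; rfl
    · intro θ; rfl
  refine ⟨by rw [e₁, e₂, hmain], ?_⟩
  intro hall k hk
  -- every real class is invariant
  have hcardAll : Nat.card {θ : IrrCharacter K // conjIrr θ = θ} = Nat.card {C : ConjClasses K // classInv C = C} := by
    have := card_fixed_twist (1 : MulAut K)
    simp only [irrAut_one, classAut_one] at this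
    exact this
  have hcardFix : Nat.card {θ : IrrCharacter K // conjIrr θ = θ} = Nat.card {θ : FixIrr φ // conjIrr θ.1 = θ.1} := by
    apply Nat.card_congr
    refine ⟨fun θ => ⟨⟨θ.1, (hinvIrr _).mp (hall θ.1 ((hrealIrr _).mpr θ.2))⟩, θ.2⟩,
      fun θ => ⟨θ.1.1, θ.2⟩, ?_, ?_⟩
    · intro θ; rfl
    · intro θ; rfl
  have hcardCl : Nat.card {C : FixCl φ // classInv C.1 = C.1} = Nat.card {C : ConjClasses K // classInv C = C} := by
    rw [← hmain, ← hcardFix, hcardAll]
  let ι : {C : FixCl φ // classInv C.1 = C.1} → {C : ConjClasses K // classInv C = C} := fun C => ⟨C.1.1, C.2⟩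
  have hι : Function.Injective ι := by
    intro a b hab
    have : a.1.1 = b.1.1 := congrArg (fun z : {C : ConjClasses K // classInv C = C} => z.1) hab
    exact Subtype.ext (Subtype.ext this)
  have hιb : Function.Bijective ι := (Nat.bijective_iff_injective_and_card ι).mpr ⟨hι, hcardCl⟩
  obtain ⟨⟨C, hC⟩, hιC⟩ := hιb.2 ⟨ConjClasses.mk k, (classInv_mk_eq_iff k).mpr hk⟩
  have hfixk : ∀ a : P, classAut (φ a) (ConjClasses.mk k) = ConjClasses.mk k := by
    have h1 : C.1 = ConjClasses.mk k := congrArg Subtype.val hιC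
    rw [← h1]
    exact C.2
  -- a fixed point on the class
  let Ω := {n : K // IsConj k n}
  letI : MulAction P Ω :=
    { smul := fun a n => ⟨φ a n.1, by
        rw [← ConjClasses.mk_eq_mk_iff_isConj, ← classAut_mk,
          ConjClasses.mk_eq_mk_iff_isConj.mpr n.2.symm, hfixk]⟩
      one_smul := fun n => Subtype.ext (by
        show φ 1 n.1 = n.1
        simp)
      mul_smul := fun a b n => Subtype.ext (by
        show φ (a * b) n.1 = φ a (φ b n.1)
        simp) }
  have hΩ : ¬ p ∣ Nat.card Ω := by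
    intro h
    apply hK
    exact h.trans (Dvd.intro _ (card_conj_mul_card_centralizer k))
  obtain ⟨n, hn⟩ := hP.nonempty_fixed_point_of_prime_not_dvd_card Ω hΩ
  refine ⟨n.1, n.2, ?_⟩
  intro x hx
  have h1 : (⟨x, hx⟩ : P) • n = n := hn ⟨x, hx⟩
  have h2 : φ ⟨x, hx⟩ n.1 = n.1 := congrArg Subtype.val h1
  exact congrArg Subtype.val h2

end Cfsg.Agent.S4911
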