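import Mathlib
import Cfsg.Statements.S4912
import Cfsg.Agent.Lib.LinTwist

set_option autoImplicit false

open Cfsg Cfsg.Agent.Lib.CharInd

namespace Cfsg.Agent.S4912

theorem result {G : Type*} [Group G] [Finite G] (N : Subgroup G) (hN : N.Normal) (hN1 : N ≠ ⊥) (hmin : ∀ M : Subgroup G, M.Normal → M ≤ N → M = ⊥ ∨ M = N) (hna : ¬ IsMulCommutative ↥N) (φ : Cfsg.IrrCharacter ↥N) (I : Subgroup G) (hI : ∀ g : G, g ∈ I ↔ ∀ n n' : ↥N, (n' : G) = g * (n : G) * g⁻¹ → (φ : ↥N → ℂ) n' = (φ : ↥N → ℂ) n) (hNI : N ≤ I) (hext : ∃ ψ : Cfsg.IrrCharacter ↥I, (Nat.card ↥I : ℂ)⁻¹ * ∑ᶠ g : ↥I, (ψ : ↥I → ℂ) (g * g) = 1 ∧ ∀ n : ↥N, (ψ : ↥I → ℂ) (Subgroup.inclusion hNI n) = (φ : ↥N → ℂ) n) : Nat.card {χ : Cfsg.IrrCharacter G // Cfsg.charDegree (χ : G → ℂ) = 1 ∧ (Nat.card G : ℂ)⁻¹ * ∑ᶠ g : G, (χ : G → ℂ) (g * g) = 1} ≤ I.index * Nat.card {χ : Cfsg.IrrCharacter G // Cfsg.charDegree (χ : G → ℂ)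 = Cfsg.charDegree (φ : ↥N → ℂ) * I.index ∧ (Nat.card G : ℂ)⁻¹ * ∑ᶠ g : G, (χ : G → ℂ) (g * g) = 1} := by
  classical
  haveI := Fintype.ofFinite G
  haveI : Fintype N := Fintype.ofFinite _
  haveI : Fintype I := Fintype.ofFinite _
  haveI := hN
  obtain ⟨ψ, hν, hres⟩ := hext
  rw [finsum_eq_sum_of_fintype] at hν
  have hψr : ∀ a : I, ((ψ : I → ℂ) a).im = 0 := by
    apply Cfsg.Agent.Lib.LinTwist.real_of_nu_ne_zero ψ.2
    rw [hν]
    exact one_ne_zero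
  apply Cfsg.Agent.Lib.LinTwist.card_le_mul φ.2 hmin hna hI hNI ψ.2 hres
  · intro χ h
    exact h.1
  · intro χ hχ h
    obtain ⟨hχ1, hχν⟩ := hχ
    rw [finsum_eq_sum_of_fintype] at hχν
    have hχr : ∀ a : G, ((χ : G → ℂ) a).im = 0 := by
      apply Cfsg.Agent.Lib.LinTwist.real_of_nu_ne_zero χ.2
      rw [hχν]
      exact one_ne_zero
    obtain ⟨β, hβ⟩ := Cfsg.Agent.Lib.LinTwist.exists_hom_of_charDegree χ.2 hχ1
    have h1 : (χ : G → ℂ) 1 = 1 := by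
      rw [hβ, map_one, Units.val_one]
    constructor
    · show charDegree ((χ : G → ℂ) * indFun I (ψ : I → ℂ)) = _
      obtain ⟨d, hd⟩ := Cfsg.Agent.Lib.CharBasic.isCharacter_one_eq (Cfsg.Agent.Lib.CharBasic.IsIrrCharacter.isCharacter φ.2)
      have h2 : (ψ : I → ℂ) 1 = (φ : N → ℂ) 1 := by
        have := hres 1
        rwa [map_one] at this
      rw [Cfsg.Agent.Lib.LinTwist.charDegree_eq_of_one hd]
      apply Cfsg.Agent.Lib.LinTwist.charDegree_eq_of_one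
      rw [Pi.mul_apply, h1, one_mul, indFun_one, h2, hd]
      push_cast
      ring
    · show (Nat.card G : ℂ)⁻¹ * ∑ᶠ g : G, ((χ : G → ℂ) * indFun I (ψ : I → ℂ)) (g * g) = 1
      rw [finsum_eq_sum_of_fintype]
      have h3 : ∀ g : G, ((χ : G → ℂ) * indFun I (ψ : I → ℂ)) (g * g) = indFun I (ψ : I → ℂ) (g * g) := by
        intro g
        rw [Pi.mul_apply, hβ, map_mul, Units.val_mul]
        have h4 := hχr g
        rw [hβ] at h4
        rw [Cfsg.Agent.Lib.LinTwist.sq_eq_one_of_real β g h4, one_mul]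
      simp only [h3]
      have hover : (fun n : N => (ψ : I → ℂ) ⟨(n : G), hNI n.2⟩) = (φ : N → ℂ) := funext hres
      have hover1 : Cfsg.classInner (fun n : N => (ψ : I → ℂ) ⟨(n : G), hNI n.2⟩) (φ : N → ℂ) = 1 := by
        rw [hover]
        exact Cfsg.Agent.Lib.CharBasic.classInner_irr_self φ.2
      obtain ⟨hirr, -⟩ := Cfsg.Agent.Lib.Clifford.indFun_irr_of_over N I φ.2 (Cfsg.Agent.Lib.LinTwist.stab_iff N I hI) hNI ψ.2
        (by rw [hover1]; exact one_ne_zero)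
      rw [Cfsg.Agent.Lib.FSInd.nu_indFun I ψ.2 hψr hirr, hν]

end Cfsg.Agent.S4912
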