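import Cfsg.Statements.S4916
import Mathlib
import Cfsg.Agent.Lib.BlockIdem
import Cfsg.Agent.Lib.CharKernel

set_option autoImplicit false
open Cfsg

namespace Cfsg.Agent.S4916

open Cfsg.Agent.Lib.BlockIdem Cfsg.Agent.Lib.BlockLocal Cfsg.Agent.Lib.CharBasic
open scoped ComplexConjugate

/-- Let G be a finite group, p a prime and M a maximal ideal of the algebraic integers containing p. Then the principal character is the only irreducible character of degree prime to p in the principal p-block of G if and only if p does not divide the order of G. -/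
theorem result {G : Type*} [Group G] [Finite G] (p : ℕ) [Fact p.Prime] (M : Ideal Cfsg.AlgInt) (hM : Cfsg.IsPModular p M) : (∀ χ : Cfsg.IrrCharacter G, χ ∈ Cfsg.principalBlock M G → ¬ p ∣ Cfsg.charDegree (χ : G → ℂ) → (χ : G → ℂ) = fun _ => (1 : ℂ)) ↔ ¬ p ∣ Nat.card G := by
  classical
  letI : Fintype G := Fintype.ofFinite G
  haveI hprime : M.IsPrime := isPrime_of_isPModular hM
  let χ₁ : IrrCharacter G := ⟨fun _ => 1, isIrrCharacter_one⟩
  have hχ₁ : (χ₁ : G → ℂ) = fun _ => 1 := rfl
  have hB₁ : IsPBlock M (principalBlock M G) := ⟨χ₁, rfl⟩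
  have hself : χ₁ ∈ principalBlock M G := mem_blockOf_self χ₁
  constructor
  · intro hall hdvd
    have hloc := memLocalRing_blockCoeff hB₁ (1 : G)
    unfold blockCoeff at hloc
    rw [finsum_mem_eq_finite_toFinset_sum _ (Set.toFinite _)] at hloc
    set S := (Set.toFinite (principalBlock M G)).toFinset with hS
    have hmemS : χ₁ ∈ S := by simpa [hS] using hself
    have hcard : (Nat.card G : ℂ) ≠ 0 := by
      exact_mod_cast (Nat.card_pos (α := G)).ne'
    set s := ∑ χ ∈ S, (χ : G → ℂ) 1 * conj ((χ : G → ℂ) 1) with hs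
    have h1 : MemLocalIdeal M s := by
      have : s = (Nat.card G : ℂ) * ((Nat.card G : ℂ)⁻¹ * s) := by
        rw [mul_inv_cancel_left₀ hcard]
      rw [this]
      exact memLocalIdeal_mul_right (memLocalIdeal_natCast_of_dvd hM hdvd) hloc
    have h2 : MemLocalIdeal M (s - 1) := by
      rw [hs, ← Finset.add_sum_erase S _ hmemS]
      have : (χ₁ : G → ℂ) 1 * conj ((χ₁ : G → ℂ) 1) = 1 := by simp [hχ₁]
      rw [this, add_sub_cancel_left]
      apply memLocalIdeal_sum
      intro χ hχ
      have hχm : χ ∈ principalBlock M G := by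
        have := (Finset.mem_erase.1 hχ).2
        simpa [hS] using this
      have hne : χ ≠ χ₁ := (Finset.mem_erase.1 hχ).1
      have hdeg := Lib.CharKernel.one_eq_charDegree (IsIrrCharacter.isCharacter χ.2)
      have hpd : p ∣ charDegree (χ : G → ℂ) := by
        by_contra hcon
        exact hne (Subtype.ext (hall χ hχm hcon))
      rw [hdeg, Complex.conj_natCast]
      exact memLocalIdeal_mul_left (memLocalRing_natCast _) (memLocalIdeal_natCast_of_dvd hM hpd)
    have h3 : MemLocalIdeal M (1 : ℂ) := by
      have := memLocalIdeal_sub h1 h2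
      simpa using this
    exact not_memLocalIdeal_one h3
  · intro hp χ hχ _
    by_contra hne
    have hne' : (χ : G → ℂ) ≠ (χ₁ : G → ℂ) := hne
    let f : G → ℂ := fun _ => 1
    have hf : IsClassFunction G f := fun _ _ => rfl
    have hc := mem_Zc_of_classFunction (M := M) hf (fun _ => memLocalRing_one)
    have h1 := memLocalIdeal_sub_of_mem_Zc hc (χ := χ₁) (ψ := χ) hχ
    have h2 : omega (χ₁ : G → ℂ) f = (Nat.card G : ℂ) := by
      simp [omega, f, hχ₁, Nat.card_eq_fintype_card]
    have h3 : omega (χ : G → ℂ) f = 0 := by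
      have h4 := classInner_irr_ne χ.2 χ₁.2 hne'
      unfold classInner at h4
      have hcard : (Fintype.card G : ℂ) ≠ 0 := by
        exact_mod_cast Fintype.card_ne_zero
      simp only [hχ₁, map_one, mul_one] at h4
      have h5 : ∑ g : G, (χ : G → ℂ) g = 0 := by
        rcases mul_eq_zero.1 h4 with h | h
        · exfalso
          simp [hcard] at h
        · exact h
      simp [omega, f, h5]
    rw [h2, h3, sub_zero] at h1
    exact hp ((memLocalIdeal_natCast_iff hM).1 h1)

end Cfsg.Agent.S4916
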