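import Mathlib
import Cfsg.Agent.Lib.MaxClassField2
import Cfsg.Statements.S4923

set_option autoImplicit false
open Cfsg

namespace Cfsg.Agent.S4923

/-- Let G be a finite group with Sylow 2-subgroup P of order 2^n ≥ 8, and let ζ be a primitive 2^(n−1)-th root of unity in ℂ. Then the commutator subgroup of P has index 4 in P if and only if there is an element g of P whose conjugacy class in G has even size and such that the field generated over ℚ by the values at g of all irreducible complex characters of G equals ℚ(ζ + ζ⁻¹) or ℚ(ζ − ζ⁻¹). -/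
theorem result {G : Type*} [Group G] [Finite G] (P : Sylow 2 G) (n : ℕ) (hn : 3 ≤ n) (hP : Nat.card P = 2 ^ n) (ζ : ℂ) (hζ : IsPrimitiveRoot ζ (2 ^ (n - 1))) :
    (commutator ↥P).index = 4 ↔
      ∃ g : G, g ∈ (P : Subgroup G) ∧ 2 ∣ (Subgroup.centralizer ({g} : Set G)).index ∧
        (IntermediateField.adjoin ℚ {z : ℂ | ∃ χ : Cfsg.IrrCharacter G, (χ : G → ℂ) g = z} = IntermediateField.adjoin ℚ ({ζ + ζ⁻¹} : Set ℂ) ∨
          IntermediateField.adjoin ℚ {z : ℂ | ∃ χ : Cfsg.IrrCharacter G, (χ : G → ℂ) g = z} = IntermediateField.adjoin ℚ ({ζ - ζ⁻¹} : Set ℂ)) := by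
  constructor
  · intro h4
    obtain ⟨g, hg, heven, ε, hε, hF⟩ :=
      Cfsg.Agent.Lib.MaxClassField2.field_of_index_eq_four P n hn hP ζ hζ h4
    refine ⟨g, hg, heven, ?_⟩
    rcases hε with rfl | rfl
    · left
      rw [hF, one_mul]
    · right
      rw [hF, neg_one_mul, ← sub_eq_add_neg]
  · rintro ⟨g, hg, heven, hF | hF⟩
    · refine Cfsg.Agent.Lib.MaxClassField2.index_eq_four_of_field P n hn hP ζ hζ hg heven (ε := 1) (Or.inl rfl) ?_
      rw [hF, one_mul]
    · refine Cfsg.Agent.Lib.MaxClassField2.index_eq_four_of_field P n hn hP ζ hζ hg heven (ε := -1) (Or.inr rfl) ?_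
      rw [hF, neg_one_mul, ← sub_eq_add_neg]


end Cfsg.Agent.S4923
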