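import Mathlib
-- Template for statement S4931 (row 4931; see /opt/grader/pristine/manifest.json for weights).
-- Copy to Cfsg/Agent/S4931.lean and replace the sorry. The statement below is byte-identical to the frozen
-- statement Cfsg.CfsgFrozen.S4931 (Cfsg/Statements/S4931.lean; the theorem Cfsg.chr12_p_prime_degree_characters_of_sylow_normalizer_extend_iff_normal_complement);
-- the grader kernel-checks Cfsg.Agent.S4931.result against that frozen type. Keep the theorem IN THIS FILE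
-- (a `result` declared elsewhere and merely imported here is not credited); helpers may live anywhere
-- under Cfsg/Agent/.
import Cfsg.Statements.S4931
import Cfsg.Agent.Lib.OddDegSum71b

set_option autoImplicit false
open Cfsg

namespace Cfsg.Agent.S4931

namespace Aux

open Cfsg.Agent.Lib.OddDegSum71 Cfsg.Agent.Lib.CharKernel Cfsg.Agent.Lib.CharBasic

universe u

variable {G : Type u} [Group G] [Finite G] {p : ℕ} [hp : Fact p.Prime] (P : Sylow p G)

/-- The group-theoretic core. -/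
theorem exists_complement_of_L (L : Subgroup G) [hLn : L.Normal]
    (h2 : ⁅(P : Subgroup G), (P : Subgroup G)⁆ ≤ L)
    (h3 : ∀ x ∈ L, x ∈ nor P → x ∈ ⁅(P : Subgroup G), (P : Subgroup G)⁆)
    (h4 : ∀ y ∈ nor P, y ∈ Subgroup.normalClosure ((P : Subgroup G) : Set G) ⊔ L → y ∈ (P : Subgroup G)) :
    ∃ K : Subgroup G, K.Normal ∧ K ⊔ nor P = ⊤ ∧ K ⊓ nor P = ⊥ := by
  classical
  let M : Subgroup G := Subgroup.normalClosure ((P : Subgroup G) : Set G) ⊔ L
  haveI hMn : M.Normal := Subgroup.sup_normal _ _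
  have hPM : (P : Subgroup G) ≤ M := le_trans Subgroup.le_normalClosure le_sup_left
  have hLM : L ≤ M := le_sup_right
  let π : G →* G ⧸ L := QuotientGroup.mk' L
  have hπ : Function.Surjective π := QuotientGroup.mk'_surjective L
  let Pb : Sylow p (G ⧸ L) := P.mapSurjective hπ
  have hPb : (Pb : Subgroup (G ⧸ L)) = (P : Subgroup G).map π := rfl
  let Mb : Subgroup (G ⧸ L) := M.map π
  haveI hMbn : Mb.Normal := Subgroup.Normal.map hMn π hπ
  have hle : (Pb : Subgroup (G ⧸ L)) ≤ Mb := Subgroup.map_mono hPM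
  -- `Pb` is abelian
  have hcomm : ∀ a ∈ (Pb : Subgroup (G ⧸ L)), ∀ b ∈ (Pb : Subgroup (G ⧸ L)), a * b = b * a := by
    rintro _ ⟨s, hs, rfl⟩ _ ⟨u, hu, rfl⟩
    have h1 : s * u * s⁻¹ * u⁻¹ ∈ L := h2 (Subgroup.commutator_mem_commutator hs hu)
    have h5 : π (s * u * s⁻¹ * u⁻¹) = 1 := (QuotientGroup.eq_one_iff _).mpr h1
    rw [map_mul, map_mul, map_mul, map_inv, map_inv] at h5
    exact mul_inv_eq_one.mp (by
      rw [mul_inv_rev, ← mul_assoc]
      exact h5)
  -- elements of `Mb` normalizing `Pb` lie in `Pb`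
  have hMem : ∀ z ∈ Mb, z ∈ Subgroup.normalizer ((Pb : Subgroup (G ⧸ L)) : Set (G ⧸ L)) →
      z ∈ (Pb : Subgroup (G ⧸ L)) := by
    rintro _ ⟨x, hx1, rfl⟩ hz2
    have hx2 : ∀ t ∈ (P : Subgroup G), x * t * x⁻¹ ∈ (P : Subgroup G) ⊔ L := by
      intro t ht
      apply mem_sup_of_mk_mem
      have h1 : π t ∈ (Pb : Subgroup (G ⧸ L)) := ⟨t, ht, rfl⟩
      have h5 := (Subgroup.mem_normalizer_iff.mp hz2 (π t)).mp h1
      have h6 : π (x * t * x⁻¹) = π x * π t * (π x)⁻¹ := by simp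
      exact h6 ▸ h5
    obtain ⟨h, hh, hy⟩ := frattini_step P L x hx2
    have hyM : h * x ∈ M := M.mul_mem (hLM hh) hx1
    have hyP := h4 _ hy hyM
    refine ⟨h * x, hyP, ?_⟩
    have h7 : π h = 1 := (QuotientGroup.eq_one_iff _).mpr hh
    rw [map_mul, h7, one_mul]
  -- Burnside's theorem in `Mb`
  let Qb : Sylow p Mb := Pb.subtype hle
  have hQb : ∀ a : Mb, a ∈ (Qb : Subgroup Mb) ↔ (a : G ⧸ L) ∈ (Pb : Subgroup (G ⧸ L)) := by
    intro a
    rw [Sylow.coe_subtype]
    exact Subgroup.mem_subgroupOf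
  have hNC : Subgroup.normalizer ((Qb : Subgroup Mb) : Set Mb) ≤
      Subgroup.centralizer ((Qb : Subgroup Mb) : Set Mb) := by
    intro z hz
    have hz2 : (z : G ⧸ L) ∈ Subgroup.normalizer ((Pb : Subgroup (G ⧸ L)) : Set (G ⧸ L)) := by
      apply Cfsg.Agent.Lib.Subnormal.mem_normalizer_of_conj_mem
      intro d hd
      have h1 : (⟨d, hle hd⟩ : Mb) ∈ (Qb : Subgroup Mb) := (hQb _).mpr hd
      have h5 := (Subgroup.mem_normalizer_iff.mp hz _).mp h1
      exact (hQb _).mp h5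
    have hz3 := hMem _ z.2 hz2
    rw [Subgroup.mem_centralizer_iff]
    intro a ha
    apply Subtype.ext
    exact hcomm _ ((hQb _).mp ha) _ hz3
  have hcompl := MonoidHom.ker_transferSylow_isComplement' Qb hNC
  have hRp := MonoidHom.not_dvd_card_ker_transferSylow Qb hNC
  set R : Subgroup Mb := (MonoidHom.transferSylow Qb hNC).ker with hR
  haveI hRn : R.Normal := inferInstance
  obtain ⟨k, hk⟩ : ∃ k, R.index = p ^ k := by
    obtain ⟨k, hk⟩ := IsPGroup.iff_card.mp Qb.2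
    exact ⟨k, by rw [hcompl.symm.index_eq_card, hk]⟩
  let Rb : Subgroup (G ⧸ L) := R.map Mb.subtype
  haveI hRbn : Rb.Normal := map_normal_of_hall (p := p) Mb R hRp hk
  let Y : Subgroup G := Rb.comap π
  haveI hYn : Y.Normal := Subgroup.Normal.comap hRbn π
  have hRbM : Rb ≤ Mb := Subgroup.map_subtype_le _
  have hYM : Y ≤ M := by
    intro y hy
    obtain ⟨w, hw, hwy⟩ := hRbM hy
    have h5 : w⁻¹ * y ∈ L := QuotientGroup.eq.mp hwy
    have h6 : y = w * (w⁻¹ * y) := by group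
    rw [h6]
    exact M.mul_mem hw (hLM h5)
  have hLY : L ≤ Y := by
    intro l hl
    show π l ∈ Rb
    have h5 : π l = 1 := (QuotientGroup.eq_one_iff _).mpr hl
    rw [h5]
    exact Rb.one_mem
  -- `Rb` meets `Pb` trivially
  have hRP : ∀ z ∈ Rb, z ∈ (Pb : Subgroup (G ⧸ L)) → z = 1 := by
    rintro z ⟨r, hr, rfl⟩ hz2
    obtain ⟨a, ha⟩ := Pb.2 ⟨_, hz2⟩
    have h1 : (r : G ⧸ L) ^ (p ^ a) = 1 := by
      simpa using congrArg Subtype.val ha
    have h5 : ¬ p ∣ orderOf r := not_dvd_orderOf_of_mem R hRp hr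
    rw [← Subgroup.orderOf_coe] at h5
    exact eq_one_of_pow_of_not_dvd h1 h5
  have hF : Y ⊓ (P : Subgroup G) ≤ (frattini (P : Subgroup G)).map (P : Subgroup G).subtype := by
    rintro x ⟨hxY, hxP⟩
    have h1 := hRP (π x) hxY ⟨x, hxP, rfl⟩
    have hxL : x ∈ L := (QuotientGroup.eq_one_iff _).mp h1
    have h5 := h3 x hxL (Subgroup.le_normalizer hxP)
    rw [← Subgroup.map_subtype_commutator] at h5
    obtain ⟨y, hy, rfl⟩ := h5
    exact ⟨y, Cfsg.Agent.Lib.Frat.commutator_le_frattini P.2 hy, rfl⟩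
  obtain ⟨S, T, hTn, hTc⟩ := Cfsg.Agent.Lib.Tate.tate P Y hF
  haveI := hTn
  have hT1 : ¬ p ∣ Nat.card T := by
    rw [← hTc.index_eq_card]
    exact S.not_dvd_index
  obtain ⟨k', hk'⟩ : ∃ k, T.index = p ^ k := by
    obtain ⟨k, hk⟩ := IsPGroup.iff_card.mp S.2
    exact ⟨k, by rw [hTc.symm.index_eq_card, hk]⟩
  haveI hKn : (T.map Y.subtype).Normal := map_normal_of_hall (p := p) Y T hT1 hk'
  let K : Subgroup G := T.map Y.subtype
  have hKbot : K ⊓ nor P = ⊥ := by
    rw [eq_bot_iff]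
    rintro z ⟨⟨r, hr, rfl⟩, hz2⟩
    have hrY : (r : G) ∈ Y := r.2
    have h2' : (r : G) ∈ (P : Subgroup G) := h4 _ hz2 (hYM hrY)
    obtain ⟨a, ha⟩ := P.2 ⟨_, h2'⟩
    have h5 : (r : G) ^ (p ^ a) = 1 := by simpa using congrArg Subtype.val ha
    have h6 : ¬ p ∣ orderOf r := not_dvd_orderOf_of_mem T hT1 hr
    rw [← Subgroup.orderOf_coe] at h6
    exact Subgroup.mem_bot.mpr (eq_one_of_pow_of_not_dvd h5 h6)
  refine ⟨K, hKn, ?_, hKbot⟩
  -- `Y ≤ K P`
  have hYsup : Y ≤ K ⊔ (P : Subgroup G) := by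
    intro x hxL
    let ρ : G →* G ⧸ K := QuotientGroup.mk' K
    have hρ : Function.Surjective ρ := QuotientGroup.mk'_surjective K
    let Ph : Sylow p (G ⧸ K) := P.mapSurjective hρ
    have hLp : IsPGroup p (Y.map ρ) := by
      rintro ⟨_, y, hy, rfl⟩
      refine ⟨k', Subtype.ext ?_⟩
      have h1 := Subgroup.pow_index_mem T (⟨y, hy⟩ : Y)
      rw [hk'] at h1
      have h5 : y ^ (p ^ k') ∈ K := ⟨_, h1, by simp⟩
      have h6 : ρ (y ^ (p ^ k')) = 1 := (QuotientGroup.eq_one_iff _).mpr h5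
      simpa using h6
    haveI hLmn : (Y.map ρ).Normal := Subgroup.Normal.map hYn ρ hρ
    have h1 : Y.map ρ ≤ (Ph : Subgroup (G ⧸ K)) := hLp.le_sylow_of_normal Ph
    have h5 : ρ x ∈ (P : Subgroup G).map ρ := h1 ⟨x, hxL, rfl⟩
    have h6 : x ∈ (P : Subgroup G) ⊔ K := by
      apply mem_sup_of_mk_mem
      exact h5
    rwa [sup_comm] at h6
  -- `M ≤ Y P`
  have hMsup : M ≤ Y ⊔ (P : Subgroup G) := by
    intro x hx
    have h1 : (⟨π x, ⟨x, hx, rfl⟩⟩ : Mb) ∈ (⊤ : Subgroup Mb) := Subgroup.mem_top _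
    have hc2 := hcompl.sup_eq_top
    rw [← hc2] at h1
    obtain ⟨r, hr, q, hq, hrq⟩ := Subgroup.mem_sup_of_normal_left.mp h1
    have h5 : π x = (r : G ⧸ L) * (q : G ⧸ L) := congrArg Subtype.val hrq.symm
    have hqP : (q : G ⧸ L) ∈ (Pb : Subgroup (G ⧸ L)) := (hQb q).mp hq
    obtain ⟨t, ht, htq⟩ := hqP
    have hrR : (r : G ⧸ L) ∈ Rb := ⟨r, hr, rfl⟩
    obtain ⟨y, hy⟩ := hπ (r : G ⧸ L)
    have hyY : y ∈ Y := by
      show π y ∈ Rb
      rw [hy]
      exact hrR
    have h6 : π x = π (y * t) := by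
      rw [h5, map_mul, hy, htq]
    have h7 : (y * t)⁻¹ * x ∈ L := by
      have := (QuotientGroup.eq (s := L) (a := y * t) (b := x)).mp h6.symm
      exact this
    have h8 : x = y * t * ((y * t)⁻¹ * x) := by group
    rw [h8]
    exact (Y ⊔ (P : Subgroup G)).mul_mem ((Y ⊔ (P : Subgroup G)).mul_mem (Subgroup.mem_sup_left hyY)
      (Subgroup.mem_sup_right ht)) (Subgroup.mem_sup_left (hLY h7))
  rw [eq_top_iff]
  intro x _
  -- Frattini
  have hxconj : ∀ t ∈ (P : Subgroup G), x * t * x⁻¹ ∈ (P : Subgroup G) ⊔ M := by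
    intro t ht
    exact Subgroup.mem_sup_right (hMn.conj_mem _ (hPM ht) x)
  obtain ⟨h, hh, hy⟩ := frattini_step P M x hxconj
  have h5 : x = h⁻¹ * (h * x) := by group
  rw [h5]
  refine Subgroup.mul_mem _ ?_ (Subgroup.mem_sup_right hy)
  have h6 := hMsup (M.inv_mem hh)
  have h7 : Y ⊔ (P : Subgroup G) ≤ K ⊔ nor P :=
    sup_le (hYsup.trans (sup_le_sup_left Subgroup.le_normalizer K))
      (Subgroup.le_normalizer.trans le_sup_right)
  exact h7 h6

/-- The extension direction. -/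
theorem ext_of_complement (K : Subgroup G) [hK : K.Normal] (h1 : K ⊔ nor P = ⊤) (h2 : K ⊓ nor P = ⊥)
    (θ : IrrCharacter (nor P)) :
    ∃ χ : IrrCharacter G, ∀ x : nor P, (χ : G → ℂ) x = (θ : nor P → ℂ) x := by
  classical
  let f : nor P →* G ⧸ K := (QuotientGroup.mk' K).comp (nor P).subtype
  have hinj : Function.Injective f := by
    rw [injective_iff_map_eq_one]
    intro x hx
    have h3 : (x : G) ∈ K := (QuotientGroup.eq_one_iff _).mp hx
    have h4 : (x : G) ∈ K ⊓ nor P := ⟨h3, x.2⟩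
    rw [h2] at h4
    exact Subtype.ext (Subgroup.mem_bot.mp h4)
  have hsurj : Function.Surjective f := by
    intro q
    obtain ⟨g, rfl⟩ := QuotientGroup.mk_surjective q
    have hg : g ∈ K ⊔ nor P := by
      rw [h1]
      exact Subgroup.mem_top g
    obtain ⟨k, hk, n, hn, rfl⟩ := Subgroup.mem_sup_of_normal_left.mp hg
    refine ⟨⟨n, hn⟩, ?_⟩
    show ((n : G) : G ⧸ K) = ((k * n : G) : G ⧸ K)
    rw [QuotientGroup.mk_mul]
    have : ((k : G) : G ⧸ K) = 1 := (QuotientGroup.eq_one_iff _).mpr hk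
    rw [this, one_mul]
  let e : nor P ≃* G ⧸ K := MulEquiv.ofBijective f ⟨hinj, hsurj⟩
  let F : G →* nor P := e.symm.toMonoidHom.comp (QuotientGroup.mk' K)
  have hF : Function.Surjective F := e.symm.surjective.comp (QuotientGroup.mk'_surjective K)
  have hFx : ∀ x : nor P, F x = x := by
    intro x
    show e.symm (f x) = x
    exact e.symm_apply_apply x
  refine ⟨⟨(θ : nor P → ℂ) ∘ F, isIrrCharacter_comp_of_surjective F hF θ.2⟩, fun x => ?_⟩
  show (θ : nor P → ℂ) (F x) = _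
  rw [hFx]

/-- The extension hypothesis gives the complement. -/
theorem complement_of_ext (hext : ∀ θ : IrrCharacter (nor P), ¬ p ∣ charDegree (θ : nor P → ℂ) →
      ∃ χ : IrrCharacter G, ∀ x : nor P, (χ : G → ℂ) x = (θ : nor P → ℂ) x) :
    ∃ K : Subgroup G, K.Normal ∧ K ⊔ nor P = ⊤ ∧ K ⊓ nor P = ⊥ := by
  classical
  choose ext hextspec using hext
  let I := {θ : IrrCharacter (nor P) // ¬ p ∣ charDegree (θ : nor P → ℂ)}
  let X : I → IrrCharacter G := fun θ => ext θ.1 θ.2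
  have hXc : ∀ θ : I, IsCharacter G (X θ : G → ℂ) := fun θ => IsIrrCharacter.isCharacter (X θ).2
  let L : Subgroup G := ⨅ θ : I, charKer (hXc θ)
  haveI hLn : L.Normal := by
    apply Subgroup.normal_iInf_normal
    intro θ
    exact charKer_normal (hXc θ)
  have hmemL : ∀ x, x ∈ L ↔ ∀ θ : I, (X θ : G → ℂ) x = (X θ : G → ℂ) 1 := by
    intro x
    simp only [L, Subgroup.mem_iInf]
    rfl
  have hXval : ∀ (θ : I) (x : nor P), (X θ : G → ℂ) x = (θ.1 : nor P → ℂ) x :=
    fun θ x => hextspec θ.1 θ.2 x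
  have hX1 : ∀ θ : I, (X θ : G → ℂ) 1 = (θ.1 : nor P → ℂ) 1 := fun θ => hXval θ 1
  let Q : Subgroup (nor P) := ((QQ P : Sylow p (nor P)) : Subgroup (nor P))
  apply exists_complement_of_L P L
  · -- `P' ≤ L`
    intro u hu
    rw [hmemL]
    intro θ
    rw [← map_comm_QQ P] at hu
    obtain ⟨u', hu', rfl⟩ := hu
    have h1 := commutator_le_ker (QQ P) θ.1 θ.2 hu'
    have h2 := hXval θ u'
    rw [hX1]
    exact h2.trans h1
  · -- `L ⊓ N ≤ P'`
    intro x hxL hxN
    rw [← map_comm_QQ P]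
    refine ⟨⟨x, hxN⟩, ?_, rfl⟩
    haveI : (⁅Q, Q⁆ : Subgroup (nor P)).Normal := Subgroup.commutator_normal _ _
    apply mem_of_forall_ker
    intro ψ hψ
    have hd := not_dvd_of_commutator_le_ker (QQ P) ψ hψ
    have h1 := (hmemL x).mp hxL ⟨ψ, hd⟩
    have h2 := hXval ⟨ψ, hd⟩ ⟨x, hxN⟩
    have h3 := hX1 ⟨ψ, hd⟩
    rw [← h2, ← h3]
    exact h1
  · -- the third condition
    intro y hyN hy
    have h1 : (⟨y, hyN⟩ : nor P) ∈ Q := by
      haveI : Q.Normal := QQ_normal P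
      apply mem_of_forall_ker
      intro ψ hψ
      have hψc : ∀ u ∈ (⁅Q, Q⁆ : Subgroup (nor P)), (ψ : nor P → ℂ) u = (ψ : nor P → ℂ) 1 := fun u hu =>
        hψ u (Subgroup.commutator_le_left _ _ hu)
      have hd := not_dvd_of_commutator_le_ker (QQ P) ψ hψc
      have hc := hXc ⟨ψ, hd⟩
      have h2 := hXval ⟨ψ, hd⟩ ⟨y, hyN⟩
      have h3 := hX1 ⟨ψ, hd⟩
      rw [← h2, ← h3]
      have hle : Subgroup.normalClosure ((P : Subgroup G) : Set G) ⊔ L ≤ charKer hc := by
        refine sup_le (Subgroup.normalClosure_le_normal ?_) ?_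
        · intro t ht
          have h4 : (⟨t, Subgroup.le_normalizer ht⟩ : nor P) ∈ Q := by
            show _ ∈ ((QQ P : Sylow p (nor P)) : Subgroup (nor P))
            rw [Sylow.coe_subtype]
            exact Subgroup.mem_subgroupOf.mpr ht
          have h5 := hψ _ h4
          have h6 := hXval ⟨ψ, hd⟩ ⟨t, Subgroup.le_normalizer ht⟩
          show (X ⟨ψ, hd⟩ : G → ℂ) t = (X ⟨ψ, hd⟩ : G → ℂ) 1
          rw [h3]
          exact h6.trans h5
        · intro l hl
          exact (hmemL l).mp hl ⟨ψ, hd⟩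
      exact hle hy
    have h2 : (⟨y, hyN⟩ : nor P) ∈ ((QQ P : Sylow p (nor P)) : Subgroup (nor P)) := h1
    rw [Sylow.coe_subtype] at h2
    exact Subgroup.mem_subgroupOf.mp h2

end Aux

/-- Let G be a finite group, p a prime and P a Sylow p-subgroup of G with normalizer N. Then every irreducible complex character of N of degree not divisible by p is the restriction of an irreducible character of G if and only if there is a normal subgroup K of G with KN = G and K ∩ N = 1. -/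
theorem result {G : Type*} [Group G] [Finite G] (p : ℕ) [Fact p.Prime] (P : Sylow p G) :
    (∀ θ : Cfsg.IrrCharacter ↥(Subgroup.normalizer ((P : Subgroup G) : Set G)), ¬ p ∣ Cfsg.charDegree (θ : ↥(Subgroup.normalizer ((P : Subgroup G) : Set G)) → ℂ) →
        ∃ χ : Cfsg.IrrCharacter G, ∀ x : ↥(Subgroup.normalizer ((P : Subgroup G) : Set G)), (χ : G → ℂ) x = (θ : ↥(Subgroup.normalizer ((P : Subgroup G) : Set G)) → ℂ) x) ↔
      ∃ K : Subgroup G, K.Normal ∧ K ⊔ Subgroup.normalizer ((P : Subgroup G) : Set G) = ⊤ ∧ K ⊓ Subgroup.normalizer ((P : Subgroup G) : Set G) = ⊥ := by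
  constructor
  · exact Aux.complement_of_ext P
  · rintro ⟨K, hK, h1, h2⟩ θ _
    haveI := hK
    exact Aux.ext_of_complement P K h1 h2 θ

end Cfsg.Agent.S4931
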