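import Mathlib
import Cfsg.Statements.S4969
import Cfsg.Agent.Lib.CharInd

set_option autoImplicit false
open Cfsg

namespace Cfsg.Agent.S4969

open Cfsg.Agent.Lib.CharBasic Cfsg.Agent.Lib.CharInd
open scoped ComplexConjugate

/-- Let G be a finite group with k conjugacy classes, g ∈ G, and N > 0. Then the sum over the irreducible complex characters χ of G with χ(1) ≥ N of |χ(g)|/χ(1) is at most √(k · #C_G(g)) / N. -/
theorem result {G : Type*} [Group G] [Finite G] (g : G) (N : ℝ) (hN : 0 < N) :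
    ∑ᶠ χ : Cfsg.IrrCharacter G, (if N ≤ ‖(χ : G → ℂ) 1‖ then ‖(χ : G → ℂ) g‖ / ‖(χ : G → ℂ) 1‖ else 0) ≤
      Real.sqrt ((Nat.card (ConjClasses G) : ℝ) * (Nat.card ↥(Subgroup.centralizer ({g} : Set G)) : ℝ)) / N := by
  classical
  letI := Fintype.ofFinite G
  rw [finsum_eq_sum_of_fintype]
  have hterm : ∀ χ : IrrCharacter G, (if N ≤ ‖(χ : G → ℂ) 1‖ then ‖(χ : G → ℂ) g‖ / ‖(χ : G → ℂ) 1‖ else 0)
      ≤ ‖(χ : G → ℂ) g‖ / N := by
    intro χ
    split_ifs with h
    · exact div_le_div_of_nonneg_left (norm_nonneg _) hN h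
    · positivity
  have hsum := Finset.sum_le_sum (s := Finset.univ) fun χ _ => hterm χ
  refine hsum.trans ?_
  rw [← Finset.sum_div]
  apply div_le_div_of_nonneg_right _ hN.le
  apply Real.le_sqrt_of_sq_le
  have hcs := sq_sum_le_card_mul_sum_sq (s := (Finset.univ : Finset (IrrCharacter G)))
    (f := fun χ : IrrCharacter G => ‖(χ : G → ℂ) g‖)
  refine hcs.trans_eq ?_
  have h1 : ((Finset.univ : Finset (IrrCharacter G)).card : ℝ) = (Nat.card (ConjClasses G) : ℝ) := by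
    rw [← card_irr_eq_card_conjClasses, Nat.card_eq_fintype_card, Finset.card_univ]
  have h2 : ∑ χ : IrrCharacter G, ‖(χ : G → ℂ) g‖ ^ 2 =
      (Nat.card ↥(Subgroup.centralizer ({g} : Set G)) : ℝ) := by
    have h3 := sum_irr_mul_conj g g
    rw [if_pos (IsConj.refl g)] at h3
    have h4 : ∀ χ : IrrCharacter G, (χ : G → ℂ) g * conj ((χ : G → ℂ) g) = ((‖(χ : G → ℂ) g‖ ^ 2 : ℝ) : ℂ) := by
      intro χ
      rw [Complex.mul_conj, Complex.normSq_eq_norm_sq]
    simp_rw [h4] at h3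
    exact_mod_cast h3
  rw [h1, h2]

end Cfsg.Agent.S4969
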