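import Mathlib
import Cfsg.Statements.S4989
import Cfsg.Agent.Lib.CharGalois
import Cfsg.Agent.Lib.CharBasic

set_option autoImplicit false
open Cfsg

namespace Cfsg.Agent.S4989

open Cfsg.Agent.Lib.CharBasic Cfsg.Agent.Lib.CharGalois
open scoped ComplexConjugate

/-- Let H be a subgroup of the finite group G and χ an irreducible complex character of G. Then the inner product of the restriction of χ to H with itself, (1/#H)·Σ_{h ∈ H} |χ(h)|², is at most 1 + #(Z ∖ H)/#H, where Z is the set of zeros of χ in G. -/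
theorem result {G : Type*} [Group G] [Finite G] (H : Subgroup G) (χ : Cfsg.IrrCharacter G) : (Nat.card ↥H : ℝ)⁻¹ * ∑ᶠ h : ↥H, ‖(χ : G → ℂ) h‖ ^ 2 ≤ 1 + (Set.ncard ({x : G | (χ : G → ℂ) x = 0} \ (H : Set G)) : ℝ) / (Nat.card ↥H : ℝ) := by
  classical
  have := Fintype.ofFinite G
  have hχ : IsCharacter G (χ : G → ℂ) := IsIrrCharacter.isCharacter χ.2
  let S1 : Finset G := Finset.univ.filter (· ∈ H)
  let S2 : Finset G := Finset.univ.filter (fun x => x ∉ H ∧ (χ : G → ℂ) x ≠ 0)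
  let S3 : Finset G := Finset.univ.filter (fun x => x ∉ H ∧ (χ : G → ℂ) x = 0)
  have hcard1 : (S1.card : ℝ) = Nat.card H := by
    have : S1.card = Nat.card H := by
      rw [Nat.card_eq_fintype_card, Fintype.card_subtype]
    exact_mod_cast this
  have hcard3 : (S3.card : ℝ) = (Set.ncard ({x : G | (χ : G → ℂ) x = 0} \ (H : Set G)) : ℝ) := by
    have : ({x : G | (χ : G → ℂ) x = 0} \ (H : Set G)) = (S3 : Set G) := by
      ext x
      simp [S3, and_comm]
    rw [this, Set.ncard_coe_finset]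
  have hpart : ∀ f : G → ℝ, ∑ x, f x = ∑ x ∈ S1, f x + ∑ x ∈ S2, f x + ∑ x ∈ S3, f x := by
    intro f
    have h1 : ∑ x ∈ S1, f x + ∑ x ∈ Finset.univ.filter (· ∉ H), f x = ∑ x, f x :=
      Finset.sum_filter_add_sum_filter_not _ _ _
    have h2 : ∑ x ∈ S2, f x + ∑ x ∈ S3, f x = ∑ x ∈ Finset.univ.filter (· ∉ H), f x := by
      rw [← Finset.sum_filter_add_sum_filter_not (Finset.univ.filter (· ∉ H)) (fun x => (χ : G → ℂ) x ≠ 0)]
      congr 1
      · apply Finset.sum_congr _ fun _ _ => rfl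
        ext x; simp [S2]
      · apply Finset.sum_congr _ fun _ _ => rfl
        ext x; simp [S3]
    linarith
  have hstable : ∀ x ∈ S2, ∀ k : ℕ, k.Coprime (Nat.card G) → x ^ k ∈ S2 := by
    intro x hx k hk
    simp only [S2, Finset.mem_filter, Finset.mem_univ, true_and] at hx ⊢
    exact ⟨fun hxk => hx.1 (mem_of_pow_mem H hk hxk), char_pow_ne_zero hχ hx.2 hk⟩
  have hAMGM := card_le_sum_norm_sq hχ S2 hstable (by
    intro x hx
    simp only [S2, Finset.mem_filter, Finset.mem_univ, true_and] at hx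
    exact hx.2)
  have hnorm : ∑ x, ‖(χ : G → ℂ) x‖ ^ 2 = (Nat.card G : ℝ) := by
    have h := classInner_irr_self χ.2
    unfold classInner at h
    have hne : (Nat.card G : ℂ) ≠ 0 := natCard_ne_zero'
    have h2 : ∑ g : G, (χ : G → ℂ) g * conj ((χ : G → ℂ) g) = (Nat.card G : ℂ) := by
      field_simp at h
      exact h
    have h4 : ∀ g : G, (χ : G → ℂ) g * conj ((χ : G → ℂ) g) = ((‖(χ : G → ℂ) g‖ ^ 2 : ℝ) : ℂ) := by
      intro g
      rw [Complex.mul_conj, Complex.normSq_eq_norm_sq]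
    simp_rw [h4] at h2
    exact_mod_cast h2
  have hS3zero : ∑ x ∈ S3, ‖(χ : G → ℂ) x‖ ^ 2 = 0 := by
    apply Finset.sum_eq_zero
    intro x hx
    simp only [S3, Finset.mem_filter, Finset.mem_univ, true_and] at hx
    simp [hx.2]
  have hcards : (Nat.card G : ℝ) = S1.card + S2.card + S3.card := by
    have h := hpart (fun _ => (1 : ℝ))
    simp only [Finset.sum_const, nsmul_eq_mul, mul_one, Finset.card_univ] at h
    rw [Nat.card_eq_fintype_card]
    exact h
  have hsum := hpart (fun x => ‖(χ : G → ℂ) x‖ ^ 2)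
  rw [hnorm, hS3zero] at hsum
  have hH : ∑ x ∈ S1, ‖(χ : G → ℂ) x‖ ^ 2 ≤ (S1.card : ℝ) + S3.card := by linarith
  have hfin : ∑ᶠ h : ↥H, ‖(χ : G → ℂ) h‖ ^ 2 = ∑ x ∈ S1, ‖(χ : G → ℂ) x‖ ^ 2 := by
    rw [finsum_eq_sum_of_fintype]
    symm
    apply Finset.sum_subtype
    intro x
    simp [S1]
  rw [hfin]
  have hpos : (0 : ℝ) < Nat.card H := by exact_mod_cast Nat.card_pos
  rw [← hcard3, ← hcard1] at *
  rw [inv_mul_le_iff₀ hpos]
  rw [mul_add, mul_one, mul_div_cancel₀ _ hpos.ne']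
  exact hH

end Cfsg.Agent.S4989
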