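import Mathlib
import Cfsg.Agent.Lib.PrimMetaC
import Cfsg.Statements.S4993

set_option autoImplicit false
open Cfsg

set_option linter.all false

namespace Cfsg.Agent.S4993

open Cfsg.Agent.Lib.CharKernel Cfsg.Agent.Lib.PrimMetaC

/-- Let G be a group of odd order whose order has exactly two prime divisors and whose quotient by its Fitting subgroup is nilpotent (G is metanilpotent), and let χ be a primitive irreducible complex character of G (not induced from a character of any proper subgroup). Then χ(1) divides the size of some conjugacy class of G. -/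
theorem result {G : Type*} [Group G] [Fintype G] (hodd : Odd (Nat.card G)) (h2 : (Nat.card G).primeFactors.card = 2) [hF : (Cfsg.fittingSubgroup G).Normal] (hmeta : Group.IsNilpotent (G ⧸ Cfsg.fittingSubgroup G)) (χ : Cfsg.IrrCharacter G) (hprim : ¬ ∃ (H : Subgroup G), H ≠ ⊤ ∧ ∃ θ : ↥H → ℂ, Cfsg.IsCharacter ↥H θ ∧ Cfsg.indFun H θ = (χ : G → ℂ)) : ∃ g : G, Cfsg.charDegree (χ : G → ℂ) ∣ (Subgroup.centralizer ({g} : Set G)).index := by
    classical
  obtain ⟨p, q, hpq, hpf⟩ := Finset.card_eq_two.mp h2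
  have hpm : p ∈ (Nat.card G).primeFactors := by rw [hpf]; simp
  have hqm : q ∈ (Nat.card G).primeFactors := by rw [hpf]; simp
  haveI hpF : Fact p.Prime := ⟨Nat.prime_of_mem_primeFactors hpm⟩
  haveI hqF : Fact q.Prime := ⟨Nat.prime_of_mem_primeFactors hqm⟩
  have hprimesG : ∀ r : ℕ, r.Prime → r ∣ Nat.card G → r = p ∨ r = q := by
    intro r hr hrd
    have : r ∈ (Nat.card G).primeFactors :=
      Nat.mem_primeFactors.mpr ⟨hr, hrd, Nat.card_pos.ne'⟩
    rw [hpf] at this
    simpa using this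
  have hχc := Cfsg.Agent.Lib.CharBasic.IsIrrCharacter.isCharacter χ.2
  let K : Subgroup G := charKer hχc
  haveI hKn : K.Normal := inferInstance
  letI hHf : Fintype (G ⧸ K) := Fintype.ofFinite _
  obtain ⟨χ', hχ', hrel⟩ := exists_quotient_irr K χ.2 (fun x hx => (mem_charKer hχc).mp hx)
  let π : G →* G ⧸ K := QuotientGroup.mk' K
  have hπ : Function.Surjective π := QuotientGroup.mk'_surjective K
  have hrel' : ∀ g, χ' (π g) = (χ : G → ℂ) g := hrel
  have hone : χ' 1 = (χ : G → ℂ) 1 := by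
    have := hrel' 1
    rwa [map_one] at this
  have hfaith : ∀ h, χ' h = χ' 1 → h = 1 := by
    intro h hh
    obtain ⟨g, rfl⟩ := hπ h
    rw [hrel', hone] at hh
    exact (QuotientGroup.eq_one_iff g).mpr ((mem_charKer hχc).mpr hh)
  have hom := hom_of_prim χ.2 hprim
  have homH := hom_quot π hπ hχ' hrel' hom
  let F₀ : Subgroup G := Cfsg.fittingSubgroup G
  have hF₀nil : Group.IsNilpotent F₀ := Cfsg.Agent.Lib.PCore.isNilpotent_fittingSubgroup
  let F : Subgroup (G ⧸ K) := F₀.map π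
  haveI hFn : F.Normal := hF.map π hπ
  have hFnil : Group.IsNilpotent F :=
    nilpotent_of_surjective (π.subgroupMap F₀) (π.subgroupMap_surjective F₀)
  have hQnil : Group.IsNilpotent ((G ⧸ K) ⧸ F) :=
    nilpotent_of_surjective (QuotientGroup.map F₀ F π (Subgroup.le_comap_map π F₀)) (by
      intro y
      induction y using QuotientGroup.induction_on with
      | H y =>
        obtain ⟨g, rfl⟩ := hπ y
        exact ⟨(g : G ⧸ F₀), rfl⟩)
  have hprimesH : ∀ r : ℕ, r.Prime → r ∣ Nat.card (G ⧸ K) → r = p ∨ r = q := by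
    intro r hr hrd
    exact hprimesG r hr (hrd.trans (Subgroup.card_quotient_dvd_card K))
  -- the Sylow subgroups of `F`
  obtain ⟨A, B, hAc, hBc, hAp, hBq, hAB⟩ := exists_split hFnil (p := p) (q := q) (by
    intro r hr hrd
    exact hprimesH r hr (hrd.trans (Subgroup.card_subgroup_dvd_card F)))
  let P : Subgroup (G ⧸ K) := A.map F.subtype
  let Q : Subgroup (G ⧸ K) := B.map F.subtype
  haveI hPn : P.Normal := inferInstance
  haveI hQn : Q.Normal := inferInstance
  have hP : IsPGroup p P := hAp.map F.subtype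
  have hQ : IsPGroup q Q := hBq.map F.subtype
  have hPF : P ≤ F := by
    rintro _ ⟨x, -, rfl⟩
    exact x.2
  have hQF : Q ≤ F := by
    rintro _ ⟨x, -, rfl⟩
    exact x.2
  have hF' : ∀ f ∈ F, ∃ a ∈ P, ∃ b ∈ Q, f = a * b := by
    intro f hf
    obtain ⟨a, ha, b, hb, hab⟩ := hAB ⟨f, hf⟩
    refine ⟨a, ⟨a, ha, rfl⟩, b, ⟨b, hb, rfl⟩, ?_⟩
    exact congrArg Subtype.val hab
  have hdisj : Disjoint P Q := IsPGroup.disjoint_of_ne p q hpq P Q hP hQ
  have hPQ : ∀ a ∈ P, ∀ b ∈ Q, a * b = b * a := by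
    intro a ha b hb
    exact Subgroup.commute_of_normal_of_disjoint P Q hPn hQn hdisj a b ha hb
  -- the pieces of the quotient
  obtain ⟨A', B', hA'c, hB'c, hA'q, hB'p, hAB'⟩ := exists_split hQnil (p := q) (q := p) (by
    intro r hr hrd
    have := hprimesH r hr (hrd.trans (Subgroup.card_quotient_dvd_card F))
    exact this.symm)
  let Rq : Subgroup (G ⧸ K) := A'.comap (QuotientGroup.mk' F)
  let Rp : Subgroup (G ⧸ K) := B'.comap (QuotientGroup.mk' F)
  haveI hRqn : Rq.Normal := Subgroup.Normal.comap inferInstance _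
  haveI hRpn : Rp.Normal := Subgroup.Normal.comap inferInstance _
  have hRR : ∀ h : G ⧸ K, ∃ a ∈ Rq, ∃ b ∈ Rp, h = a * b := by
    intro h
    obtain ⟨a, ha, b, hb, hab⟩ := hAB' ((h : (G ⧸ K) ⧸ F))
    obtain ⟨a₀, rfl⟩ := QuotientGroup.mk_surjective a
    refine ⟨a₀, ha, a₀⁻¹ * h, ?_, by group⟩
    show ((a₀⁻¹ * h : G ⧸ K) : (G ⧸ K) ⧸ F) ∈ B'
    rw [QuotientGroup.mk_mul, QuotientGroup.mk_inv, hab]
    simpa using hb
  have hRp : ∀ x ∈ Rp, ∃ k : ℕ, x ^ p ^ k ∈ F := by
    intro x hx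
    obtain ⟨k, hk⟩ := hB'p ⟨_, hx⟩
    refine ⟨k, ?_⟩
    have h1 := congrArg Subtype.val hk
    simp only [SubmonoidClass.coe_pow, OneMemClass.coe_one] at h1
    rw [← QuotientGroup.eq_one_iff, QuotientGroup.mk_pow]
    exact h1
  have hRq : ∀ x ∈ Rq, ∃ k : ℕ, x ^ q ^ k ∈ F := by
    intro x hx
    obtain ⟨k, hk⟩ := hA'q ⟨_, hx⟩
    refine ⟨k, ?_⟩
    have h1 := congrArg Subtype.val hk
    simp only [SubmonoidClass.coe_pow, OneMemClass.coe_one] at h1
    rw [← QuotientGroup.eq_one_iff, QuotientGroup.mk_pow]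
    exact h1
  have hirr := irr_restrict_nilp F hQnil hχ' homH _ F hFn le_rfl rfl
  obtain ⟨g, hg⟩ := Cfsg.Agent.Lib.PrimMetaB.main_faithful hpq hχ' hfaith homH F P Q Rp Rq hPF hQF
    hP hQ hF' hPQ hRR hRp hRq hirr
  obtain ⟨g₀, rfl⟩ := hπ g
  refine ⟨g₀, ?_⟩
  have hdeg : Cfsg.charDegree χ' = Cfsg.charDegree (χ : G → ℂ) := by
    unfold Cfsg.charDegree
    rw [hone]
  rw [hdeg] at hg
  refine hg.trans ?_
  have hle : Subgroup.centralizer ({g₀} : Set G) ≤
      (Subgroup.centralizer ({π g₀} : Set (G ⧸ K))).comap π := by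
    intro x hx
    have h1 : g₀ * x = x * g₀ := Subgroup.mem_centralizer_iff.mp hx g₀ rfl
    rw [Subgroup.mem_comap, Subgroup.mem_centralizer_iff]
    intro y hy
    rw [Set.mem_singleton_iff] at hy
    rw [hy, ← map_mul, ← map_mul, h1]
  have h3 := Subgroup.index_dvd_of_le hle
  rwa [Subgroup.index_comap_of_surjective _ hπ] at h3


end Cfsg.Agent.S4993
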