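import Mathlib
import Cfsg.Statements.S4996
import Cfsg.Agent.Lib.CharNormalProj
import Cfsg.Agent.Lib.CharTable

set_option autoImplicit false
open Cfsg

namespace Cfsg.Agent.S4996

open Cfsg.Agent.Lib.CharBasic Cfsg.Agent.Lib.CharGalois Cfsg.Agent.Lib.CharNormalProj
open scoped ComplexConjugate

/-- Let N be a normal subgroup of the finite group G and χ an irreducible complex character of G. Then the restriction of χ to N is not irreducible if and only if χ vanishes on some whole coset Nx of N in G. -/
theorem result {G : Type*} [Group G] [Finite G] (N : Subgroup G) [N.Normal] (χ : Cfsg.IrrCharacter G) : ¬ Cfsg.IsIrrCharacter ↥N (fun n : ↥N => (χ : G → ℂ) n) ↔ ∃ x : G, ∀ n : ↥N, (χ : G → ℂ) ((n : G) * x) = 0 := by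
  classical
  have := Fintype.ofFinite G
  have := Fintype.ofFinite N
  set c : G → ℂ := (χ : G → ℂ) with hcdef
  have hc : IsCharacter G c := IsIrrCharacter.isCharacter χ.2
  have hψ : IsCharacter G (fun g => c g * conj (c g)) :=
    isCharacter_mul hc (Cfsg.Agent.Lib.CharTable.isCharacter_conj hc)
  have hf := isCharacter_proj hψ N
  set f : G → ℂ := fun x => (Nat.card N : ℂ)⁻¹ * ∑ n : N, (fun g => c g * conj (c g)) ((n : G) * x) with hfdef
  let r : G → ℝ := fun x => (Nat.card N : ℝ)⁻¹ * ∑ n : N, ‖c ((n : G) * x)‖ ^ 2
  have hfr : ∀ x, f x = (r x : ℂ) := by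
    intro x
    simp only [hfdef, r, Complex.ofReal_mul, Complex.ofReal_inv, Complex.ofReal_natCast,
      Complex.ofReal_sum, Complex.ofReal_pow]
    congr 1
    refine Finset.sum_congr rfl fun n _ => ?_
    rw [Complex.mul_conj, Complex.normSq_eq_norm_sq]
    push_cast
    rfl
  have hNpos : (0 : ℝ) < Nat.card N := by exact_mod_cast Nat.card_pos
  have hGpos : (0 : ℝ) < Nat.card G := by exact_mod_cast Nat.card_pos
  have hrnonneg : ∀ x, 0 ≤ r x := fun x => by
    apply mul_nonneg (by positivity)
    exact Finset.sum_nonneg fun _ _ => by positivity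
  have hrzero : ∀ x, r x = 0 → ∀ n : N, c ((n : G) * x) = 0 := by
    intro x hx n
    have h1 : ∑ n : N, ‖c ((n : G) * x)‖ ^ 2 = 0 := by
      have := (mul_eq_zero.mp hx).resolve_left (by positivity)
      exact this
    have h2 := (Finset.sum_eq_zero_iff_of_nonneg (fun _ _ => by positivity)).mp h1 n (Finset.mem_univ _)
    simpa using h2
  -- the sum
  have hnorm : ∑ x, ‖c x‖ ^ 2 = (Nat.card G : ℝ) := by
    have h := classInner_irr_self χ.2
    unfold classInner at h
    have hne : (Nat.card G : ℂ) ≠ 0 := natCard_ne_zero'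
    have h2 : ∑ g : G, c g * conj (c g) = (Nat.card G : ℂ) := by
      field_simp at h
      exact h
    have h4 : ∀ g : G, c g * conj (c g) = ((‖c g‖ ^ 2 : ℝ) : ℂ) := by
      intro g
      rw [Complex.mul_conj, Complex.normSq_eq_norm_sq]
    simp_rw [h4] at h2
    exact_mod_cast h2
  have htotal : ∑ x, r x = (Nat.card G : ℝ) := by
    simp only [r]
    rw [← Finset.mul_sum, Finset.sum_comm]
    have h1 : ∀ n : N, ∑ x : G, ‖c ((n : G) * x)‖ ^ 2 = (Nat.card G : ℝ) := by
      intro n
      rw [← hnorm]
      exact Fintype.sum_equiv (Equiv.mulLeft (n : G)) _ _ (fun _ => rfl)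
    simp only [h1, Finset.sum_const, Finset.card_univ, nsmul_eq_mul]
    rw [← Nat.card_eq_fintype_card]
    field_simp
  have hf1 : f 1 = classInner (fun n : N => c n) (fun n : N => c n) := by
    simp only [hfdef, classInner, mul_one]
  constructor
  · intro hnot
    by_contra hne
    push Not at hne
    have hrpos : ∀ x, 0 < r x := by
      intro x
      rcases (hrnonneg x).lt_or_eq with h | h
      · exact h
      · obtain ⟨n, hn⟩ := hne x
        exact absurd (hrzero x h.symm n) hn
    obtain ⟨m, hm⟩ := classInner_char_char (isCharacter_restrict N hc) (isCharacter_restrict N hc)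
    have hr1 : r 1 = m := by
      have h1 : (r 1 : ℂ) = m := by rw [← hfr, hf1, hm]
      exact_mod_cast h1
    have hm1 : m ≠ 1 := by
      intro h1
      apply hnot
      apply isIrrCharacter_of_norm_one (isCharacter_restrict N hc)
      rw [hm, h1]
      simp
    have hm0 : m ≠ 0 := by
      intro h0
      have := hrpos 1
      rw [hr1, h0] at this
      simp at this
    have hm2 : (2 : ℝ) ≤ m := by
      have : 2 ≤ m := by omega
      exact_mod_cast this
    have hAM := card_le_sum_re hf (Finset.univ.erase (1 : G))
      (fun x hx k hk => by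
        simp only [Finset.mem_erase, Finset.mem_univ, and_true, ne_eq] at hx ⊢
        intro hxk
        exact hx ((powCoprime hk.symm).injective (hxk.trans (one_pow k).symm)))
      (fun x _ => by
        rw [hfr x]
        simp [hrpos x])
    have hre : ∀ x, (f x).re = r x := fun x => by rw [hfr x]; simp
    simp only [hre] at hAM
    have h2 := Finset.add_sum_erase Finset.univ r (Finset.mem_univ (1 : G))
    rw [htotal] at h2
    rw [Finset.card_erase_of_mem (Finset.mem_univ _), Finset.card_univ,
      Nat.cast_sub Fintype.card_pos, ← Nat.card_eq_fintype_card] at hAM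
    push_cast at hAM
    rw [hr1] at h2
    linarith
  · rintro ⟨x, hx⟩ hirr
    have h1 : f 1 = 1 := by
      rw [hf1]
      exact classInner_irr_self hirr
    obtain ⟨lam, hlam⟩ := exists_hom_of_degree_one hf h1
    have h2 : f x = 0 := by
      simp only [hfdef, hx, zero_mul]
      simp
    rw [hlam x] at h2
    exact (lam x).ne_zero h2

end Cfsg.Agent.S4996
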