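import Mathlib
import Cfsg.Statements.S5001
import Cfsg.Agent.Lib.BlockDefect
import Cfsg.Agent.Lib.BlockQ
import Cfsg.Agent.Lib.CharCentral
import Cfsg.Agent.Lib.CharKernel
import Cfsg.Agent.Lib.CharTwist

set_option autoImplicit false
set_option linter.style.haveILetI false
set_option linter.unusedVariables false
set_option linter.unusedSectionVars false

open Cfsg

namespace Cfsg.Agent.S5001

open Cfsg.Agent.Lib Cfsg.Agent.Lib.CharBasic Cfsg.Agent.Lib.CharCentral Cfsg.Agent.Lib.CharKernel
open Cfsg.Agent.Lib.BlockLocal Cfsg.Agent.Lib.BlockIdem Cfsg.Agent.Lib.BlockDefect Cfsg.Agent.Lib.BlockQ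
open scoped ComplexConjugate

universe u

/-- Degrees of constituents over a `p`-subgroup all of whose constituents have degree divisible by `p`. -/
theorem dvd_of_no_linear {C : Type u} [Group C] [Fintype C] {p : ℕ} [hp : Fact p.Prime]
    {D : Type u} [Group D] [Fintype D] (j : D →* C)
    {m : IrrCharacter C → ℕ}
    (hno : ∀ τ : IrrCharacter D, classInner (fun d : D => (∑ i, m i • (i : C → ℂ)) (j d)) (τ : D → ℂ) ≠ 0 →
      p ∣ charDegree (τ : D → ℂ))
    (φ : IrrCharacter C) (hφ : m φ ≠ 0) : p ∣ charDegree (φ : C → ℂ) := by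
  classical
  -- restriction of `φ` to `D`
  have hn : ∀ (φ : IrrCharacter C) (τ : IrrCharacter D),
      ∃ n : ℕ, classInner (fun d : D => (φ : C → ℂ) (j d)) (τ : D → ℂ) = n := fun φ τ =>
    classInner_char_irr (isCharacter_comp j (IsIrrCharacter.isCharacter φ.2)) τ.2
  choose n hn using hn
  have hres : ∀ τ : IrrCharacter D, classInner (fun d : D => (∑ i, m i • (i : C → ℂ)) (j d)) (τ : D → ℂ) =
      ((∑ φ : IrrCharacter C, m φ * n φ τ : ℕ) : ℂ) := by
    intro τ
    have h1 : (fun d : D => (∑ i, m i • (i : C → ℂ)) (j d)) =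
        ∑ φ : IrrCharacter C, (m φ : ℂ) • (fun d : D => (φ : C → ℂ) (j d)) := by
      funext d
      simp [Finset.sum_apply]
    rw [h1, classInner_sum_left]
    push_cast
    refine Finset.sum_congr rfl fun φ _ => ?_
    rw [classInner_smul_left, hn]
  -- the degree of `φ`
  have h2 : charDegree (φ : C → ℂ) = ∑ τ : IrrCharacter D, n φ τ * charDegree (τ : D → ℂ) := by
    have h3 : (fun d : D => (φ : C → ℂ) (j d)) = ∑ τ : IrrCharacter D,
        classInner (fun d : D => (φ : C → ℂ) (j d)) (τ : D → ℂ) • (τ : D → ℂ) :=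
      classFunction_eq_sum (isClassFunction_of_isCharacter
        (isCharacter_comp j (IsIrrCharacter.isCharacter φ.2)))
    have h4 := congrFun h3 1
    simp only [Finset.sum_apply, Pi.smul_apply, smul_eq_mul, hn] at h4
    have h5 : ((charDegree (φ : C → ℂ) : ℕ) : ℂ) =
        ((∑ τ : IrrCharacter D, n φ τ * charDegree (τ : D → ℂ) : ℕ) : ℂ) := by
      rw [← one_eq_charDegree (IsIrrCharacter.isCharacter φ.2)]
      push_cast
      rw [map_one] at h4
      rw [h4]
      refine Finset.sum_congr rfl fun τ _ => ?_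
      rw [one_eq_charDegree (IsIrrCharacter.isCharacter τ.2)]
    exact_mod_cast h5
  rw [h2]
  refine Finset.dvd_sum fun τ _ => ?_
  by_cases h0 : n φ τ = 0
  · rw [h0, zero_mul]
    exact dvd_zero p
  · refine Dvd.dvd.mul_left (hno τ ?_) _
    rw [hres]
    have h5 : m φ * n φ τ ≤ ∑ φ : IrrCharacter C, m φ * n φ τ :=
      Finset.single_le_sum (f := fun φ => m φ * n φ τ) (fun _ _ => Nat.zero_le _) (Finset.mem_univ φ)
    have h6 : 0 < m φ * n φ τ := Nat.mul_pos (Nat.pos_of_ne_zero hφ) (Nat.pos_of_ne_zero h0)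
    exact_mod_cast (by omega : (∑ φ : IrrCharacter C, m φ * n φ τ) ≠ 0)

/-- Let p be a prime, G a finite group and B a p-block of G (relative to a maximal ideal M of the algebraic integers containing p) with defect group D. Let Z be a central p-subgroup of G contained in D and λ a linear character of Z (a homomorphism to the nonzero complex numbers). Say an irreducible character χ of G lies over λ when χ(z) = χ(1)λ(z) for all z ∈ Z. If some irreducible character in B lying over λ has height zero, then λ extends to a linear character of D. -/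
theorem result {G : Type*} [Group G] [Finite G] (p : ℕ) [Fact p.Prime] (M : Ideal Cfsg.AlgInt) (hM : Cfsg.IsPModular p M) (B : Set (Cfsg.IrrCharacter G)) (hB : Cfsg.IsPBlock M B) (D : Subgroup G) (hD : Cfsg.IsDefectGroup p M B D) (Z : Subgroup G) (hZc : Z ≤ Subgroup.center G) (hZp : IsPGroup p ↥Z) (hZD : Z ≤ D) (lam : ↥Z →* ℂˣ) (χ : Cfsg.IrrCharacter G) (hχ : χ ∈ B) (hover : (∀ z : ↥Z, (χ : G → ℂ) z = (χ : G → ℂ) 1 * (lam z : ℂ))) (h0 : Cfsg.blockHeight p B (χ : G → ℂ) = 0) : (∃ μ : ↥D →* ℂˣ, ∀ z : ↥Z, μ ⟨(z : G), hZD z.2⟩ = lam z) := by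
  classical
  letI : Fintype G := Fintype.ofFinite G
  letI : Fintype D := Fintype.ofFinite D
  haveI := isPrime_of_isPModular hM
  have hχ1 : (χ : G → ℂ) 1 ≠ 0 := irr_one_ne_zero' χ.2
  have hDp : IsPGroup p D := by
    have := card_isDefectGroup hM hB hD
    exact IsPGroup.of_card this
  obtain ⟨μ₀, hμ₀⟩ : ∃ τ : IrrCharacter D, classInner (fun d : D => (χ : G → ℂ) d) (τ : D → ℂ) ≠ 0 ∧
      charDegree (τ : D → ℂ) = 1 := by
    by_contra hcon
    push Not at hcon
    -- all constituents over `D` have degree divisible by `p`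
    have hdvd : ∀ τ : IrrCharacter D, classInner (fun d : D => (χ : G → ℂ) d) (τ : D → ℂ) ≠ 0 →
        p ∣ charDegree (τ : D → ℂ) := by
      intro τ hτ
      exact (CharCentral.pGroup_degree_one_or_dvd hDp τ.2).resolve_left (hcon τ hτ)
    obtain ⟨g, hgC, hDC, hDcard⟩ := isDefectGroup_iff.mp hD
    let C : Subgroup G := Subgroup.centralizer ({g} : Set G)
    letI : Fintype C := Fintype.ofFinite C
    have hχc := IsIrrCharacter.isCharacter χ.2
    obtain ⟨m, hm⟩ := exists_nat_decomp (isCharacter_restrict C hχc)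
    have hgmem : g ∈ C := by
      rw [Subgroup.mem_centralizer_singleton_iff]
    let gC : C := ⟨g, hgmem⟩
    have hgz : ∀ c : C, gC * c = c * gC := by
      intro c
      apply Subtype.ext
      have := (Subgroup.mem_centralizer_singleton_iff.mp c.2)
      exact this.symm
    have hdeg : ∀ φ : IrrCharacter C, m φ ≠ 0 → p ∣ charDegree (φ : C → ℂ) := by
      refine dvd_of_no_linear (Subgroup.inclusion hDC) (fun τ hτ => hdvd τ ?_)
      have h1 : (fun d : D => (∑ i, m i • (i : C → ℂ)) (Subgroup.inclusion hDC d)) =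
          (fun d : D => (χ : G → ℂ) d) := by
        funext d
        rw [← hm]
        rfl
      rwa [h1] at hτ
    -- the value at `g`
    have hval : MemLocalIdeal M ((χ : G → ℂ) g) := by
      have h1 : (χ : G → ℂ) g = (∑ i, m i • (i : C → ℂ)) gC := by
        rw [← hm]
      rw [h1, Finset.sum_apply]
      refine memLocalIdeal_sum _ _ fun φ _ => ?_
      rw [Pi.smul_apply]
      by_cases h0 : m φ = 0
      · rw [h0, zero_smul]
        exact memLocalIdeal_zero
      · have h2 : (φ : C → ℂ) gC = (charDegree (φ : C → ℂ) : ℂ) * centralChar (φ : C → ℂ) gC := by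
          rw [← one_eq_charDegree (IsIrrCharacter.isCharacter φ.2)]
          have h3 : (Subgroup.centralizer ({gC} : Set C)) = ⊤ := by
            rw [eq_top_iff]
            intro c _
            rw [Subgroup.mem_centralizer_singleton_iff]
            exact (hgz c).symm
          unfold centralChar
          rw [h3, Subgroup.index_top]
          have h4 := irr_one_ne_zero' φ.2
          field_simp
          simp
        rw [h2, nsmul_eq_mul, ← mul_assoc, mul_comm ((m φ : ℕ) : ℂ), mul_assoc]
        exact memLocalIdeal_mul_right (memLocalIdeal_natCast_of_dvd hM (hdeg φ h0))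
          (memLocalRing_mul (memLocalRing_natCast _) (memLocalRing_of_isIntegral (isIntegral_centralChar φ gC)))
    -- arithmetic of the index
    have hD' := card_isDefectGroup hM hB hD
    have hpp : p.Prime := Fact.out
    have hCfac : (Nat.card C).factorization p = blockDefect p B := by
      rw [hDcard] at hD'
      exact Nat.pow_right_injective hpp.two_le hD'
    have hGfac := card_factorization_eq (M := M) (p := p) hB
    have hχfac := charDegree_factorization_eq (p := p) hχ
    rw [show blockHeight p B (χ : G → ℂ) = 0 from h0, add_zero] at hχfac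
    have hidx : Nat.card C * C.index = Nat.card G := Subgroup.card_mul_index C
    have hC0 : Nat.card C ≠ 0 := Nat.card_pos.ne'
    have hI0 : C.index ≠ 0 := Subgroup.index_ne_zero_of_finite
    have hIfac : C.index.factorization p = minExp p B := by
      have h1 := congrArg (fun n => n.factorization p) hidx
      show C.index.factorization p = minExp p B
      beta_reduce at h1
      rw [Nat.factorization_mul hC0 hI0, Finsupp.add_apply, hCfac, hGfac] at h1
      omega
    have hd0 := charDegree_ne_zero χ.2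
    obtain ⟨u, hu⟩ : p ^ minExp p B ∣ C.index := by
      rw [← hIfac]
      exact Nat.ordProj_dvd _ _
    have hdv : charDegree (χ : G → ℂ) = p ^ minExp p B * (charDegree (χ : G → ℂ) / p ^ minExp p B) := by
      rw [← hχfac]
      exact (Nat.ordProj_mul_ordCompl_eq_self _ _).symm
    have hv : ¬ p ∣ (charDegree (χ : G → ℂ) / p ^ minExp p B) := by
      rw [← hχfac]
      exact Nat.not_dvd_ordCompl hpp hd0
    set v := charDegree (χ : G → ℂ) / p ^ minExp p B with hvdef
    have hpe : ((p ^ minExp p B : ℕ) : ℂ) ≠ 0 := by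
      exact_mod_cast (pow_pos hpp.pos _).ne'
    have hv0 : (v : ℂ) ≠ 0 := by
      intro h
      have h2 : v = 0 := by exact_mod_cast h
      rw [h2] at hv
      exact hv (dvd_zero p)
    have hcc : centralChar (χ : G → ℂ) g = (u : ℂ) * (χ : G → ℂ) g * (v : ℂ)⁻¹ := by
      unfold centralChar
      rw [one_eq_charDegree hχc]
      change ((C.index : ℕ) : ℂ) * _ / _ = _
      rw [hu, hdv]
      push_cast
      have hpe' : ((p : ℂ) ^ minExp p B) ≠ 0 := by
        simpa using hpe
      field_simp
    apply hgC.2.2 χ hχ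
    rw [hcc]
    exact memLocalIdeal_mul_right (memLocalIdeal_mul_left (memLocalRing_natCast _) hval)
      (memLocalRing_inv_natCast hM hv)
  obtain ⟨hc, hτ1⟩ := hμ₀
  have hτc := IsIrrCharacter.isCharacter μ₀.2
  obtain ⟨μ, hμ⟩ := exists_hom_of_degree_one hτc (by
    rw [one_eq_charDegree hτc, hτ1]
    simp)
  refine ⟨μ, fun z => ?_⟩
  set zD : D := ⟨(z : G), hZD z.2⟩ with hzD
  have hzc : ∀ y : G, (z : G) * y = y * z := by
    intro y
    exact (Subgroup.mem_center_iff.mp (hZc z.2) y).symm
  have hmul : ∀ y : G, (χ : G → ℂ) ((z : G) * y) = (lam z : ℂ) * (χ : G → ℂ) y := by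
    intro y
    have h1 := CharCentral.central_mul χ.2 hzc y
    rw [hover z] at h1
    have h2 : (χ : G → ℂ) 1 * (χ : G → ℂ) ((z : G) * y) = (χ : G → ℂ) 1 * ((lam z : ℂ) * (χ : G → ℂ) y) := by
      rw [h1]
      ring
    exact mul_left_cancel₀ hχ1 h2
  have hS : ∑ d : D, (χ : G → ℂ) d * conj ((μ₀ : D → ℂ) d) ≠ 0 := by
    intro h
    apply hc
    unfold classInner
    rw [h, mul_zero]
  have hshift := Equiv.sum_comp (Equiv.mulLeft zD) (fun d : D => (χ : G → ℂ) d * conj ((μ₀ : D → ℂ) d))
  have hterm : ∀ d : D, (χ : G → ℂ) ((Equiv.mulLeft zD d : D) : G) * conj ((μ₀ : D → ℂ) (Equiv.mulLeft zD d)) =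
      ((lam z : ℂ) * conj ((μ zD : ℂˣ) : ℂ)) * ((χ : G → ℂ) d * conj ((μ₀ : D → ℂ) d)) := by
    intro d
    have h1 : ((Equiv.mulLeft zD d : D) : G) = (z : G) * d := rfl
    rw [h1, hmul, hμ, hμ]
    have h2 : (Equiv.mulLeft zD d : D) = zD * d := rfl
    rw [h2, map_mul, Units.val_mul, map_mul]
    ring
  simp only [hterm] at hshift
  rw [← Finset.mul_sum] at hshift
  have h3 : (lam z : ℂ) * conj ((μ zD : ℂˣ) : ℂ) = 1 := by
    have h4 := mul_right_cancel₀ hS (a := (lam z : ℂ) * conj ((μ zD : ℂˣ) : ℂ)) (c := 1)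
      (by rw [one_mul]; exact hshift)
    exact h4
  have h5 := CharTwist.hom_mul_conj μ zD
  apply Units.ext
  have h6 : conj ((μ zD : ℂˣ) : ℂ) ≠ 0 := by
    intro h0
    rw [h0, mul_zero] at h3
    exact zero_ne_one h3
  exact mul_right_cancel₀ h6 (by rw [h5, h3])

end Cfsg.Agent.S5001
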