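import Mathlib
import Cfsg.Statements.S5011

set_option autoImplicit false
open Cfsg

namespace Cfsg.Agent.S5011

/-- Let G be a finite non-abelian simple group and ρ an irreducible complex representation of G on a space of dimension greater than one (irreducible in the sense that the only subspaces invariant under every ρ(x) are 0 and the whole space). Then for every non-identity element g of G, the centralizer of g does not act irreducibly: there is a non-zero proper subspace invariant under ρ(c) for every c commuting with g. -/
theorem result {G : Type*} [Group G] [Finite G] [IsSimpleGroup G]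
    (hG : ¬ IsMulCommutative G) {V : Type*} [AddCommGroup V] [Module ℂ V] [FiniteDimensional ℂ V]
    (ρ : Representation ℂ G V)
    (hirr : ∀ W : Submodule ℂ V, (∀ x : G, ∀ v ∈ W, ρ x v ∈ W) → W = ⊥ ∨ W = ⊤)
    (hdim : 1 < Module.finrank ℂ V) (g : G) (hg : g ≠ 1) :
    ∃ W : Submodule ℂ V, W ≠ ⊥ ∧ W ≠ ⊤ ∧ ∀ c ∈ Subgroup.centralizer ({g} : Set G), ∀ v ∈ W, ρ c v ∈ W := by
  classical
  have : Nontrivial V := by
    apply Module.nontrivial_of_finrank_pos (R := ℂ)
    omega
  -- An eigenspace of ρ g
  obtain ⟨μ, hμ⟩ := Module.End.exists_eigenvalue (ρ g)
  set E := Module.End.eigenspace (ρ g) μ with hE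
  have hEne : E ≠ ⊥ := hμ
  have hinv : ∀ c ∈ Subgroup.centralizer ({g} : Set G), ∀ v ∈ E, ρ c v ∈ E := by
    intro c hc v hv
    rw [hE, Module.End.mem_eigenspace_iff] at hv ⊢
    have hcg : c * g = g * c := by
      have := Subgroup.mem_centralizer_iff.mp hc g (by simp)
      exact this.symm
    have h1 : ρ g (ρ c v) = ρ (g * c) v := by simp [map_mul]
    rw [h1, ← hcg, map_mul, Module.End.mul_apply, hv, map_smul]
  by_cases hEtop : E = ⊤
  · -- ρ g is scalar; derive a contradiction
    exfalso
    have hscal : ∀ v, ρ g v = μ • v := by
      intro v
      have : v ∈ E := by rw [hEtop]; trivial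
      rwa [hE, Module.End.mem_eigenspace_iff] at this
    -- kernel of ρ is normal
    let K : Subgroup G := (ρ : G →* Module.End ℂ V).ker
    have hKn : K.Normal := MonoidHom.normal_ker _
    rcases hKn.eq_bot_or_eq_top with hK | hK
    · -- ρ injective: g central
      have hinj : ∀ a b : G, ρ a = ρ b → a = b := by
        intro a b hab
        have : a * b⁻¹ ∈ K := by
          rw [MonoidHom.mem_ker, map_mul, hab, ← map_mul, mul_inv_cancel, map_one]
        rw [hK, Subgroup.mem_bot] at this
        exact mul_inv_eq_one.mp this
      have hcentral : g ∈ Subgroup.center G := by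
        rw [Subgroup.mem_center_iff]
        intro x
        apply hinj
        ext v
        simp only [map_mul, Module.End.mul_apply, hscal, map_smul]
      -- center is normal so ⊥ or ⊤
      rcases (inferInstance : (Subgroup.center G).Normal).eq_bot_or_eq_top with hZ | hZ
      · rw [hZ, Subgroup.mem_bot] at hcentral
        exact hg hcentral
      · apply hG
        refine ⟨⟨fun a b => ?_⟩⟩
        have : a ∈ Subgroup.center G := by rw [hZ]; trivial
        exact (Subgroup.mem_center_iff.mp this b).symm
    · -- ρ trivial : any line is invariant
      have htriv : ∀ x : G, ∀ v, ρ x v = v := by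
        intro x v
        have : x ∈ K := by rw [hK]; trivial
        rw [MonoidHom.mem_ker] at this
        rw [this]; rfl
      obtain ⟨v, hv⟩ := exists_ne (0 : V)
      have := hirr (ℂ ∙ v) (by
        intro x u hu
        rw [htriv]; exact hu)
      rcases this with h | h
      · rw [Submodule.span_singleton_eq_bot] at h
        exact hv h
      · have hfr := finrank_span_singleton (K := ℂ) hv
        rw [h, finrank_top] at hfr
        omega
  · exact ⟨E, hEne, hEtop, hinv⟩

end Cfsg.Agent.S5011
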