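import Cfsg.Statements.S5066
import Cfsg.Agent.Lib.QPH39Bridge
import Cfsg.Agent.Lib.QPH39Stmts
-- import your own Cfsg.Agent.* helpers here

set_option autoImplicit false
universe u
open Cfsg

namespace Cfsg.Agent.S5066

/-- Let k be a field of characteristic not 2 with k not of order 3, M a finite-dimensional k-vector space and G ≤ GL(M) such that (G, M) is a quadratic pair (M irreducible for G, and G generated by its quadratically acting elements σ whose scalar family 1 + c(σ − 1), c ∈ k, lies in G). Write 𝒬_d for the quadratic elements of G of minimal commutator rank, E(σ) for the subgroup generated by the members of 𝒬_d with the same fixed space and commutator space as σ, and Σ for the set of these subgroups. Let E, F ∈ Σ generate a subgroup that is nilpotent of class exactly two. Then D = ⁅E, F⁆ belongs to Σ, equals the subgroup generated by the commutators of e with F, and also of E with f, for every non-identity e ∈ E, f ∈ F, and ⟨E, F⟩ lies in U(D), the set of elements g of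 G normalizing D with (g − 1)M inside the fixed space of D, (g − 1) mapping that fixed space into the commutator space of D, and g acting trivially on the commutator space of D. -/
theorem result {k : Type u} [Field k] (hk2 : ringChar k ≠ 2) (hk3 : Nat.card k ≠ 3)
    {M : Type u} [AddCommGroup M] [Module k M] [FiniteDimensional k M]
    {G : Subgroup (LinearMap.GeneralLinearGroup k M)} (hG : Cfsg.IsQuadraticPair G)
    {E F : Subgroup (LinearMap.GeneralLinearGroup k M)} (hE : E ∈ Cfsg.quadraticRootSubgroups G) (hF : F ∈ Cfsg.quadraticRootSubgroups G)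
    (h2 : ⁅E ⊔ F, E ⊔ F⁆ ≠ ⊥ ∧ ⁅⁅E ⊔ F, E ⊔ F⁆, E ⊔ F⁆ = ⊥) :
    ⁅E, F⁆ ∈ Cfsg.quadraticRootSubgroups G ∧
    (∀ e ∈ E, e ≠ 1 → Subgroup.closure ((fun f : LinearMap.GeneralLinearGroup k M => e * f * e⁻¹ * f⁻¹) '' (F : Set (LinearMap.GeneralLinearGroup k M))) = ⁅E, F⁆) ∧
    (∀ f ∈ F, f ≠ 1 → Subgroup.closure ((fun e : LinearMap.GeneralLinearGroup k M => e * f * e⁻¹ * f⁻¹) '' (E : Set (LinearMap.GeneralLinearGroup k M))) = ⁅E, F⁆) ∧
    ((E ⊔ F : Subgroup (LinearMap.GeneralLinearGroup k M)) : Set (LinearMap.GeneralLinearGroup k M)) ⊆ Cfsg.quadraticUnipotentCore G ⁅E, F⁆ := by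
  have hk : (2 : k) ≠ 0 := Ring.two_ne_zero hk2
  obtain ⟨σ, hσ, rfl⟩ := hE
  obtain ⟨τ, hτ, rfl⟩ := hF
  have hDI := Cfsg.Agent.Lib.QPH39.DI_of_thmF (G := G) hk hk3
  have hc : ⁅sameActionSubgroup G σ, sameActionSubgroup G τ⁆ ≠ ⊥ := by
    intro hc
    apply h2.1
    rw [eq_bot_iff]
    refine Cfsg.Agent.Lib.QPH39.comm_sup_le ?_ ?_ hc.le ?_
    · intro a ha b hb
      exact Cfsg.Agent.RootSub.comm_of_isMulCommutative (Cfsg.Agent.RootSub.s5059_main hσ).2.1 ha hb
    · intro a ha b hb
      exact Cfsg.Agent.RootSub.comm_of_isMulCommutative (Cfsg.Agent.RootSub.s5059_main hτ).2.1 ha hb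
    · intro c hc' g _
      rw [Subgroup.mem_bot] at hc'
      rw [hc', one_mul, mul_one]
  obtain ⟨a1, a2, a3, -, -, a6, -⟩ := Cfsg.Agent.Lib.QPH39.noncomm_main hDI hG.1 hσ hτ
    (Cfsg.Agent.Lib.QPH39.s5066_core hDI hσ hτ h2.2) hc
  exact ⟨a1, a2, a3, a6⟩

end Cfsg.Agent.S5066
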