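import Mathlib
import Cfsg.Statements.S5125
import Cfsg.Agent.Lib.FusionNormalCrit
import Cfsg.Agent.Lib.FusionNormal

set_option autoImplicit false
open Cfsg

namespace Cfsg.Agent.S5125

/-- A chain `⊤ ≥ A ≥ B ≥ B ≥ ...`. -/
def chainA {X : Type*} [Group X] (A B : Subgroup X) : ℕ → Subgroup X
  | 0 => ⊤
  | 1 => A
  | _ + 2 => B

/-- A chain `⊤ ≥ A ≥ B ≥ 1`. -/
def chainB {X : Type*} [Group X] (A B : Subgroup X) : ℕ → Subgroup X
  | 0 => ⊤
  | 1 => A
  | 2 => B
  | _ + 3 => ⊥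

/-- Let F be a saturated fusion system over a finite p-group S and Q a subgroup strongly closed in F. If Q has a subgroup Q₁ that is normal in F, with Q/Q₁ abelian and Aut_F(Q₁) a p-group, then Q is normal in F. -/
theorem result {Ω : Type*} [Group Ω] {S : Subgroup Ω} [Finite S] (p : ℕ) [Fact p.Prime] (hS : IsPGroup p S) (F : Cfsg.FusionSystem S) (hF : F.IsSaturated p) (Q Q₁ : Subgroup Ω) (hQ : F.StronglyClosed Q) (hQ₁Q : Q₁ ≤ Q) (hQ₁ : F.IsNormal Q₁) (hab : ⁅Q, Q⁆ ≤ Q₁) (hAut : IsPGroup p ↥(F.autGroup Q₁)) : F.IsNormal Q := by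
  classical
  open Cfsg.Agent.Lib.FusionAlperin Cfsg.Agent.Lib.FusionNormalSys Cfsg.Agent.Lib.FusionNormalCrit in
  refine isNormal_of_exists_pgroup hS hF hQ (fun X hXS hFA hrec hC hQX => ?_)
  have hfinX : Finite X := Cfsg.Agent.Lib.FusionAlperin.finite_of_le hXS
  have hQ₁sc : F.StronglyClosed Q₁ := Cfsg.Agent.Lib.FusionNormal.IsNormal.stronglyClosed hQ₁
  have hn : ∀ s ∈ S, ∀ q ∈ Q, s * q * s⁻¹ ∈ Q :=
    fun s hs q hq => Cfsg.Agent.Lib.FusionNormalSys.StronglyClosed_conj_mem hQ hs hq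
  have hn₁ : ∀ s ∈ S, ∀ q ∈ Q₁, s * q * s⁻¹ ∈ Q₁ :=
    fun s hs q hq => Cfsg.Agent.Lib.FusionNormalSys.StronglyClosed_conj_mem hQ₁sc hs hq
  by_cases hQ₁X : Q₁ ≤ X
  · -- the stability chain
    obtain ⟨t, htQ, htN, htX⟩ :=
      Cfsg.Agent.Lib.FusionNormalSys.exists_mem_normalizer_not_mem hS hXS hQ.1 hn hQX
    let C : ℕ → Subgroup X := chainA (Q.subgroupOf X) (Q₁.subgroupOf X)
    have hinv : ∀ δ ∈ F.autGroup X, ∀ i, ∀ x ∈ C i, δ x ∈ C i := by
      intro δ hδ i x hx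
      obtain _ | _ | i := i
      · trivial
      · exact Subgroup.mem_subgroupOf.mpr
          (Cfsg.Agent.Lib.FusionNormalCrit.aut_val_mem hXS hQ hδ x (Subgroup.mem_subgroupOf.mp hx))
      · exact Subgroup.mem_subgroupOf.mpr
          (Cfsg.Agent.Lib.FusionNormalCrit.aut_val_mem hXS hQ₁sc hδ x (Subgroup.mem_subgroupOf.mp hx))
    have hanti : ∀ i, C (i + 1) ≤ C i := by
      intro i x hx
      obtain _ | _ | i := i
      · trivial
      · exact Subgroup.mem_subgroupOf.mpr (hQ₁Q (Subgroup.mem_subgroupOf.mp hx))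
      · exact hx
    refine ⟨t, hQ.1 htQ, htN, htX, Cfsg.Agent.Lib.FusionAlperin.chainStab (F.autGroup X) C hinv hanti,
      inferInstance, ?_, fun h => ?_⟩
    · -- a `p`-group
      refine Cfsg.Agent.Lib.FusionNormalSys.isPGroup_of_coprime_eq_one fun γ hγ => ?_
      set m := orderOf γ with hm
      set c : MulAut X := ((γ : F.autGroup X) : MulAut X) with hc
      have hcm : c ^ m = 1 := by
        have h1 : γ ^ m = 1 := pow_orderOf_eq_one γ
        have h2 := congrArg (fun a : Cfsg.Agent.Lib.FusionAlperin.chainStab (F.autGroup X) C hinv hanti =>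
          ((a : F.autGroup X) : MulAut X)) h1
        simpa using h2
      have hγF : c ∈ F.autGroup X := (γ : F.autGroup X).2
      have hγst : ∀ i, ∀ x ∈ C i, x⁻¹ * c x ∈ C (i + 1) := γ.2
      -- restriction to `Q₁`
      have hQ₁c : ∀ x : X, (x : Ω) ∈ Q₁ → ((c x : X) : Ω) ∈ Q₁ :=
        fun x hx => Cfsg.Agent.Lib.FusionNormalCrit.aut_val_mem hXS hQ₁sc hγF x hx
      have hcH : X.subtype.comp c.toMonoidHom ∈ F.Hom X :=
        (Cfsg.Agent.Lib.FusionAlperin.mem_autGroup_iff hXS).mp hγF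
      let φ : Q₁ →* Ω := (X.subtype.comp c.toMonoidHom).comp (Subgroup.inclusion hQ₁X)
      have hφ : φ ∈ F.Hom Q₁ := Cfsg.Agent.Lib.FusionAlperin.restrict_mem hcH hQ₁X
      have hfinQ₁ : Finite Q₁ := Cfsg.Agent.Lib.FusionAlperin.finite_of_le hQ₁sc.1
      have hr : φ.range = Q₁ := by
        apply le_antisymm
        · rintro _ ⟨x, rfl⟩
          exact hQ₁c _ x.2
        · intro y hy
          obtain ⟨x, hxQ, hxy⟩ := Cfsg.Agent.Lib.FusionNormal.surj_on_of_le hQ₁X hcH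
            (fun x hx => hQ₁c x hx) hy
          exact ⟨⟨x, hxQ⟩, hxy⟩
      let ρ : MulAut Q₁ := Cfsg.Agent.Lib.FusionAlperin.autOfHom φ (F.injective_of_mem hφ) hr
      have hρ : ρ ∈ F.autGroup Q₁ := Cfsg.Agent.Lib.FusionAlperin.autOfHom_mem hφ hr
      have hρpow : ∀ k : ℕ, ∀ x : Q₁, (((ρ ^ k) x : Q₁) : Ω) =
          (((c ^ k) (Subgroup.inclusion hQ₁X x) : X) : Ω) := by
        intro k
        induction k with
        | zero => intro x; rfl
        | succ k ih =>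
          intro x
          rw [pow_succ', MulAut.mul_apply, pow_succ', MulAut.mul_apply]
          have h1 : ((ρ ((ρ ^ k) x) : Q₁) : Ω) =
              ((c (Subgroup.inclusion hQ₁X ((ρ ^ k) x)) : X) : Ω) := rfl
          rw [h1]
          have h2 : Subgroup.inclusion hQ₁X ((ρ ^ k) x) = (c ^ k) (Subgroup.inclusion hQ₁X x) :=
            Subtype.ext (ih x)
          rw [h2]
      have hρm : ρ ^ m = 1 := by
        ext x
        rw [hρpow, hcm]
        rfl
      obtain ⟨k, hk⟩ := hAut ⟨ρ, hρ⟩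
      have hk' : ρ ^ p ^ k = 1 := by
        have := congrArg Subtype.val hk
        simpa using this
      have hρ1 : ρ = 1 := Cfsg.Agent.Lib.FusionNormalSys.eq_one_of_pow_eq_one_of_coprime hρm hk' hγ
      have hfixQ₁ : ∀ x : X, (x : Ω) ∈ Q₁ → c x = x := by
        intro x hx
        have h1 := hρpow 1 ⟨x, hx⟩
        rw [pow_one, pow_one, hρ1] at h1
        exact Subtype.ext h1.symm
      -- a proper chain
      let C' : ℕ → Subgroup X := chainB (Q.subgroupOf X) (Q₁.subgroupOf X)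
      have hanti' : ∀ i, C' (i + 1) ≤ C' i := by
        intro i x hx
        obtain _ | _ | _ | i := i
        · trivial
        · exact Subgroup.mem_subgroupOf.mpr (hQ₁Q (Subgroup.mem_subgroupOf.mp hx))
        · have : x = 1 := Subgroup.mem_bot.mp hx
          rw [this]; exact Subgroup.one_mem _
        · exact hx
      have hst' : ∀ i, ∀ x ∈ C' i, x⁻¹ * c x ∈ C' (i + 1) := by
        intro i x hx
        obtain _ | _ | _ | i := i
        · exact hγst 0 x trivial
        · exact hγst 1 x hx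
        · have h2 : x⁻¹ * c x = 1 := by
            rw [hfixQ₁ x (Subgroup.mem_subgroupOf.mp hx)]; simp
          rw [h2]; exact Subgroup.one_mem _
        · have : x = 1 := Subgroup.mem_bot.mp hx
          rw [this]; simp [(C' (i + 3 + 1)).one_mem]
      obtain ⟨b, hb⟩ := Cfsg.Agent.Lib.FusionAlperin.pow_eq_one_of_chain (hS.to_le hXS) hanti'
        (m := 3) rfl rfl c hst'
      have hc1 : c = 1 := Cfsg.Agent.Lib.FusionNormalSys.eq_one_of_pow_eq_one_of_coprime hcm hb hγ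
      apply Subtype.ext
      apply Subtype.ext
      exact hc1
    · -- the conjugation by `t`
      intro i x hx
      have hx0 : (t * (x : Ω) * t⁻¹) ∈ X := (Subgroup.mem_normalizer_iff.mp htN x).mp x.2
      have hcom : (x : Ω)⁻¹ * (t * (x : Ω) * t⁻¹) ∈ Q := by
        have h2 : (x : Ω)⁻¹ * t * (x : Ω) ∈ Q := by
          have := hn ((x : Ω)⁻¹) (S.inv_mem (hXS x.2)) t htQ
          simpa using this
        have h3 : (x : Ω)⁻¹ * (t * (x : Ω) * t⁻¹) = ((x : Ω)⁻¹ * t * (x : Ω)) * t⁻¹ := by group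
        rw [h3]
        exact Q.mul_mem h2 (Q.inv_mem htQ)
      obtain _ | _ | i := i
      · exact Subgroup.mem_subgroupOf.mpr hcom
      · have hxQ : (x : Ω) ∈ Q := Subgroup.mem_subgroupOf.mp hx
        refine Subgroup.mem_subgroupOf.mpr ?_
        have h5 := hab (Subgroup.commutator_mem_commutator (Q.inv_mem hxQ) htQ)
        rw [commutatorElement_def] at h5
        show (x : Ω)⁻¹ * (t * (x : Ω) * t⁻¹) ∈ Q₁
        have h6 : (x : Ω)⁻¹ * (t * (x : Ω) * t⁻¹) = (x : Ω)⁻¹ * t * (x : Ω)⁻¹⁻¹ * t⁻¹ := by group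
        rw [h6]
        exact h5
      · have hxQ : (x : Ω) ∈ Q₁ := Subgroup.mem_subgroupOf.mp hx
        refine Subgroup.mem_subgroupOf.mpr ?_
        show (x : Ω)⁻¹ * (t * (x : Ω) * t⁻¹) ∈ Q₁
        exact Q₁.mul_mem (Q₁.inv_mem hxQ) (hn₁ t (hQ.1 htQ) _ hxQ)
  · -- `Q₁` not contained in `X`
    obtain ⟨t, htQ, htN, htX⟩ :=
      Cfsg.Agent.Lib.FusionNormalSys.exists_mem_normalizer_not_mem hS hXS hQ₁sc.1 hn₁ hQ₁X
    refine ⟨t, hQ₁sc.1 htQ, htN, htX, (autInducedBy Q₁ X).subgroupOf (F.autGroup X), ⟨?_⟩, ?_, fun h => ?_⟩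
    · intro β hβ α
      obtain ⟨g, hgQ, hgβ⟩ := Cfsg.Agent.Lib.FusionAlperin.mem_autInducedBy_iff.mp
        (Subgroup.mem_subgroupOf.mp hβ)
      have hgN : g ∈ Subgroup.normalizer (X : Set Ω) :=
        Cfsg.Agent.Lib.FusionAlperin.mem_normalizer_of_induces hgβ
      have hαH : X.subtype.comp (α : MulAut X).toMonoidHom ∈ F.Hom X :=
        (Cfsg.Agent.Lib.FusionAlperin.mem_autGroup_iff hXS).mp α.2
      obtain ⟨ψ, hψ, hψe, hψQ⟩ := hQ₁.2 X _ hαH
      have hg' : g ∈ X ⊔ Q₁ := (le_sup_right : Q₁ ≤ X ⊔ Q₁) hgQ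
      refine Subgroup.mem_subgroupOf.mpr (Cfsg.Agent.Lib.FusionAlperin.mem_autInducedBy_iff.mpr
        ⟨ψ ⟨g, hg'⟩, ?_, fun x => ?_⟩)
      · exact Cfsg.Agent.Lib.FusionNormal.map_mem_of_map_eq hψQ ⟨g, hg'⟩ hgQ
      · set y : X := (α : MulAut X)⁻¹ x with hy
        have hαy : (α : MulAut X) y = x := by simp [hy]
        have h1 : (((α * β * α⁻¹ : F.autGroup X) : MulAut X) x : X) =
            (α : MulAut X) (((β : F.autGroup X) : MulAut X) y) := rfl
        rw [h1]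
        have h2 : ∀ z : X, (((α : MulAut X) z : X) : Ω) = ψ (Subgroup.inclusion le_sup_left z) :=
          fun z => (hψe z).symm
        rw [h2, ← hαy, h2]
        have h3 : Subgroup.inclusion (le_sup_left : X ≤ X ⊔ Q₁) (((β : F.autGroup X) : MulAut X) y) =
            (⟨g, hg'⟩ : ↥(X ⊔ Q₁)) * Subgroup.inclusion le_sup_left y * (⟨g, hg'⟩ : ↥(X ⊔ Q₁))⁻¹ :=
          Subtype.ext (hgβ y)
        rw [h3]
        simp
    · have h1 : IsPGroup p (autInducedBy Q₁ X) :=
        Cfsg.Agent.Lib.FusionSat.isPGroup_autInducedBy (hS.to_le hQ₁sc.1) X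
      let f : ↥((autInducedBy Q₁ X).subgroupOf (F.autGroup X)) →* ↥(autInducedBy Q₁ X) :=
        { toFun := fun a => ⟨(a : F.autGroup X), Subgroup.mem_subgroupOf.mp a.2⟩
          map_one' := rfl
          map_mul' := fun _ _ => rfl }
      refine h1.of_injective f ?_
      intro a b hab
      have := congrArg Subtype.val hab
      exact Subtype.ext (Subtype.ext this)
    · exact Subgroup.mem_subgroupOf.mpr (Cfsg.Agent.Lib.FusionAlperin.conjAut_mem_autInducedBy htQ htN)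

end Cfsg.Agent.S5125
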