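import Mathlib
import Cfsg.Statements.S5126
import Cfsg.Agent.Lib.FusionSatNorm
import Cfsg.Agent.Lib.FusionNormal
import Cfsg.Agent.Lib.PCore
import Cfsg.Agent.Lib.FusionQuotSat
import Cfsg.Agent.S5098

set_option autoImplicit false
open Cfsg

namespace Cfsg.Agent.S5126

open Cfsg.FusionSystem Cfsg.Agent.Lib.FusionSatBasic Cfsg.Agent.Lib.FusionSat

variable {Ω : Type*} [Group Ω] {S : Subgroup Ω} {F : Cfsg.FusionSystem S}

/-- `R` is normal in its normalizer system. -/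
theorem isNormal_in_normalizerSystem [Finite S] {R : Subgroup Ω} (hRS : R ≤ S)
    {E : Cfsg.FusionSystem (normalizerIn S R)} (hE : F.IsNormalizerSystem R E) : E.IsNormal R := by
  have hRN : R ≤ normalizerIn S R := le_inf hRS Subgroup.le_normalizer
  have : Finite R := finite_of_le hRS
  refine ⟨hRN, fun P φ hφ => ?_⟩
  rw [hE P] at hφ
  obtain ⟨hφF, hPN, hφN, ψ, hψ, hψe, hψR⟩ := hφ
  refine ⟨ψ, ?_, hψe, hψR⟩
  rw [hE]
  have hsupN : P ⊔ R ≤ normalizerIn S R := sup_le hPN hRN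
  have hmapR : ∀ x : ↥(P ⊔ R), (x : Ω) ∈ R → ψ x ∈ R :=
    fun x hx => Cfsg.Agent.Lib.FusionNormal.map_mem_of_map_eq hψR x hx
  have hvals : ∀ x : ↥(P ⊔ R), ψ x ∈ normalizerIn S R := by
    intro x
    refine ⟨val_mem F hψ x, ?_⟩
    have key : ∀ x : ↥(P ⊔ R), ∀ y ∈ R, ψ x * y * (ψ x)⁻¹ ∈ R := by
      intro x y hy
      have hy' : y ∈ (R.subgroupOf (P ⊔ R)).map ψ := by rw [hψR]; exact hy
      obtain ⟨z, hz, rfl⟩ := hy'
      have hz' : (z : Ω) ∈ R := Subgroup.mem_subgroupOf.mp hz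
      have h1 : (x * z * x⁻¹ : ↥(P ⊔ R)).1 ∈ R :=
        ((hsupN x.2).2 _).mp hz'
      have h2 := hmapR _ h1
      rwa [map_mul, map_mul, map_inv] at h2
    refine mem_normalizer_of_conj (key x) (fun y hy => ?_)
    have := key x⁻¹ y hy
    rwa [map_inv, inv_inv] at this
  refine ⟨hψ, hsupN, hvals, ?_⟩
  have := Cfsg.Agent.Lib.FusionNormal.ext_of_le (le_sup_right : R ≤ P ⊔ R) hψ (fun x hx => hmapR x hx)
  exact this

end Cfsg.Agent.S5126

namespace Cfsg.Agent.S5126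

open Cfsg.FusionSystem Cfsg.Agent.Lib.FusionSatBasic Cfsg.Agent.Lib.FusionSat

/-- In a saturated fusion system over a finite p-group S, the normalizer system of a fully normalized, centric, radical subgroup R is constrained, and in every model of that normalizer system the largest normal p-subgroup is the image of R. -/
theorem result {Ω : Type*} [Group Ω] {S : Subgroup Ω} [Finite S] (p : ℕ) [Fact p.Prime] (hS : IsPGroup p S) (F : Cfsg.FusionSystem S) (hF : F.IsSaturated p) (R : Subgroup Ω) (hRn : F.IsFullyNormalized R) (hRc : F.IsCentric R) (hRr : F.IsRadical p R) (E : Cfsg.FusionSystem (Cfsg.FusionSystem.normalizerIn S R)) (hE : F.IsNormalizerSystem R E) {G : Type*} [Group G] (ι : ↥(Cfsg.FusionSystem.normalizerIn S R) →* G) : E.IsConstrained p ∧ (E.IsModel p G ι → (Cfsg.pCore p G : Subgroup G) = (R.subgroupOf (Cfsg.FusionSystem.normalizerIn S R)).map ι) := by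
  have hRS : R ≤ S := hRn.1
  have hNfin : Finite (normalizerIn S R) := finite_of_le inf_le_left
  have hRN : R ≤ normalizerIn S R := le_inf hRS Subgroup.le_normalizer
  have hfinR : Finite R := finite_of_le hRS
  have hRE : E.IsNormal R := isNormal_in_normalizerSystem hRS hE
  have hRsc : E.StronglyClosed R := Cfsg.Agent.Lib.FusionNormal.IsNormal.stronglyClosed hRE
  have hEsat : E.IsSaturated p := Cfsg.Agent.S5098.result p hS F hF R hRn E hE
  have hCR : centralizerIn S R ≤ R := hRc.2 R (Cfsg.Agent.Lib.FusionSat.IsConj.refl hRS)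
  refine ⟨⟨hEsat, R, hRE, hRN, fun Q' hQ' => ?_⟩, ?_⟩
  · obtain ⟨φ, hφ, hr⟩ := hQ'
    have h1 := Cfsg.Agent.Lib.FusionQuotSat.range_eq_of_maps_into (E.injective_of_mem hφ)
      (fun x => hRsc.2 R le_rfl φ hφ x)
    rw [← hr, h1]
    exact fun g hg => hCR ⟨hg.1.1, hg.2⟩
  rintro ⟨hfinG, ⟨hinj, hreal⟩, ⟨T, hT⟩, hcent⟩
  -- the core
  have hOT : (Cfsg.pCore p G : Subgroup G) ≤ ι.range := by
    rw [← hT]
    exact Cfsg.Agent.Lib.PCore.pCore_le_sylow p T
  have hOn : (Cfsg.pCore p G).Normal := by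
    have := Cfsg.Agent.Lib.PCore.pCore_characteristic (G := G) p
    exact Subgroup.normal_of_characteristic _
  -- transport of elements through `ι`
  have htrans : ∀ (P : Subgroup Ω) (hP : P ≤ normalizerIn S R) (g : G),
      (∀ x : P, g * ι ⟨x, hP x.2⟩ * g⁻¹ ∈ ι.range) →
      ∃ φ : P →* Ω, ∃ hφ : ∀ x, φ x ∈ normalizerIn S R, φ ∈ E.Hom P ∧
        ∀ x, ι ⟨φ x, hφ x⟩ = g * ι ⟨x, hP x.2⟩ * g⁻¹ := by
    intro P hP g h
    let ιe := MonoidHom.ofInjective hinj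
    let f : P → normalizerIn S R := fun x => ιe.symm ⟨_, h x⟩
    have hf : ∀ x, ι (f x) = g * ι ⟨x, hP x.2⟩ * g⁻¹ := by
      intro x
      have : ιe (f x) = ⟨_, h x⟩ := by simp [f]
      exact congrArg Subtype.val this
    let φ : P →* Ω :=
      { toFun := fun x => (f x : Ω)
        map_one' := by
          have h1 : ι (f 1) = ι 1 := by
            rw [hf]
            have : (⟨((1 : P) : Ω), hP (1 : P).2⟩ : normalizerIn S R) = 1 := rfl
            rw [this]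
            simp
          rw [hinj h1]
          rfl
        map_mul' := by
          intro a b
          have h1 : ι (f (a * b)) = ι (f a * f b) := by
            rw [map_mul, hf, hf, hf]
            have : (⟨((a * b : P) : Ω), hP (a * b).2⟩ : normalizerIn S R) =
                ⟨a, hP a.2⟩ * ⟨b, hP b.2⟩ := rfl
            rw [this, map_mul]
            group
          rw [hinj h1]
          rfl }
    have hφN : ∀ x, φ x ∈ normalizerIn S R := fun x => (f x).2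
    refine ⟨φ, hφN, ?_, fun x => hf x⟩
    exact (hreal P hP φ hφN).mpr ⟨g, fun x => hf x⟩
  -- the preimage of the core
  obtain ⟨P₀, hP₀⟩ : ∃ P₀, P₀ = preimageAlong ι (Cfsg.pCore p G) := ⟨_, rfl⟩
  have hP₀N : P₀ ≤ normalizerIn S R := by
    rw [hP₀]
    exact Cfsg.Agent.Lib.FusionFactor.preimageAlong_le ι _
  have hmemP₀ : ∀ x : normalizerIn S R, (x : Ω) ∈ P₀ ↔ ι x ∈ Cfsg.pCore p G := by
    intro x
    rw [hP₀, Cfsg.Agent.Lib.FusionFactor.mem_preimageAlong]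
    exact ⟨fun ⟨_, h⟩ => h, fun h => ⟨x.2, h⟩⟩
  -- Step A: `ι R` is normal
  have hRnormal : ∀ (g : G) (r : normalizerIn S R), (r : Ω) ∈ R →
      ∃ r' : normalizerIn S R, (r' : Ω) ∈ R ∧ ι r' = g * ι r * g⁻¹ := by
    intro g r hr
    have hin : ∀ x : P₀, g * ι ⟨x, hP₀N x.2⟩ * g⁻¹ ∈ ι.range := by
      intro x
      apply hOT
      exact hOn.conj_mem _ ((hmemP₀ ⟨x, hP₀N x.2⟩).mp x.2) g
    obtain ⟨φ, hφN, hφ, hφι⟩ := htrans P₀ hP₀N g hin
    obtain ⟨ψ, hψ, hψe, hψR⟩ := hRE.2 P₀ φ hφ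
    have hsupN : P₀ ⊔ R ≤ normalizerIn S R := sup_le hP₀N hRN
    have hψN : ∀ x, ψ x ∈ normalizerIn S R := fun x => val_mem E hψ x
    obtain ⟨h, hh⟩ := (hreal _ hsupN ψ hψN).mp hψ
    -- `h⁻¹ g` centralizes the core
    have hcen : h⁻¹ * g ∈ Subgroup.centralizer ((Cfsg.pCore p G : Subgroup G) : Set G) := by
      rw [Subgroup.mem_centralizer_iff]
      intro c hc
      obtain ⟨x, rfl⟩ := hOT hc
      have hxP : (x : Ω) ∈ P₀ := (hmemP₀ x).mpr hc
      have h1 := hφι ⟨x, hxP⟩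
      have h2 := hh (Subgroup.inclusion le_sup_left ⟨x, hxP⟩)
      have h3 : ψ (Subgroup.inclusion le_sup_left ⟨x, hxP⟩) = φ ⟨x, hxP⟩ := hψe ⟨x, hxP⟩
      have h4 : ι ⟨φ ⟨x, hxP⟩, hφN _⟩ = h * ι x * h⁻¹ := by
        have h5 : (⟨φ ⟨x, hxP⟩, hφN _⟩ : normalizerIn S R) =
            ⟨ψ (Subgroup.inclusion le_sup_left ⟨x, hxP⟩), hψN _⟩ := Subtype.ext h3.symm
        rw [h5, h2]
        rfl
      have h6 : g * ι x * g⁻¹ = h * ι x * h⁻¹ := by
        have h7 : ι ⟨φ ⟨x, hxP⟩, hφN _⟩ = g * ι x * g⁻¹ := h1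
        rw [← h7, h4]
      have h8 : ι x * (h⁻¹ * g) = (h⁻¹ * g) * ι x := by
        calc ι x * (h⁻¹ * g) = h⁻¹ * (h * ι x * h⁻¹) * g := by group
          _ = h⁻¹ * (g * ι x * g⁻¹) * g := by rw [h6]
          _ = (h⁻¹ * g) * ι x := by group
      exact h8
    have hmemO := hcent hcen
    obtain ⟨x₀, hx₀⟩ := hOT hmemO
    have hg : g = h * ι x₀ := by
      rw [hx₀]
      group
    -- conjugate `r`
    have hr1 : (x₀ : Ω) * r * (x₀ : Ω)⁻¹ ∈ R := (x₀.2.2 _).mp hr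
    have hr2 : (⟨(x₀ : Ω) * r * (x₀ : Ω)⁻¹, hRN hr1⟩ : normalizerIn S R) = x₀ * r * x₀⁻¹ := rfl
    have hin2 : (x₀ : Ω) * r * (x₀ : Ω)⁻¹ ∈ P₀ ⊔ R := (le_sup_right : R ≤ P₀ ⊔ R) hr1
    have hψr := Cfsg.Agent.Lib.FusionNormal.map_mem_of_map_eq hψR ⟨_, hin2⟩ hr1
    refine ⟨⟨_, hψN ⟨_, hin2⟩⟩, hψr, ?_⟩
    have h9 := hh ⟨_, hin2⟩
    rw [h9]
    have h10 : (⟨(x₀ : Ω) * r * (x₀ : Ω)⁻¹, hsupN hin2⟩ : normalizerIn S R) = x₀ * r * x₀⁻¹ := rfl
    rw [h10, hg, map_mul, map_mul, map_inv]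
    group
  have hle1 : (R.subgroupOf (normalizerIn S R)).map ι ≤ Cfsg.pCore p G := by
    refine Cfsg.Agent.Lib.PCore.le_pCore ⟨?_⟩ ?_
    · rintro _ ⟨r, hr, rfl⟩ g
      obtain ⟨r', hr', hrr⟩ := hRnormal g r (Subgroup.mem_subgroupOf.mp hr)
      exact ⟨r', Subgroup.mem_subgroupOf.mpr hr', hrr⟩
    · have h1 : IsPGroup p (R.subgroupOf (normalizerIn S R)) := by
        exact IsPGroup.of_injective (hS.to_le hRS) (Subgroup.subgroupOfEquivOfLe hRN).toMonoidHom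
          (Subgroup.subgroupOfEquivOfLe hRN).injective
      exact h1.map ι
  refine le_antisymm ?_ hle1
  -- Step B
  have hP₀R : P₀ ≤ R := by
    obtain ⟨-, hrad⟩ := hRr
    have hP₀p : IsPGroup p P₀ := hS.to_le (hP₀N.trans inf_le_left)
    have hKp : IsPGroup p ((autInducedBy P₀ R).subgroupOf (F.autGroup R)) :=
      (isPGroup_autInducedBy hP₀p R).comap_of_injective _ (Subgroup.subtype_injective _)
    have hKn : ((autInducedBy P₀ R).subgroupOf (F.autGroup R)).Normal := by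
      constructor
      intro β hβ α
      obtain ⟨x, hx, hxβ⟩ := (mem_autInducedBy P₀ R _).mp (Subgroup.mem_subgroupOf.mp hβ)
      -- `α` is realized in `G`
      have hαF : R.subtype.comp (α : MulAut R).toMonoidHom ∈ F.Hom R :=
        (mem_autGroup F hRS _).mp α.2
      have hαE : R.subtype.comp (α : MulAut R).toMonoidHom ∈ E.Hom R := by
        rw [hE]
        refine ⟨hαF, hRN, fun y => hRN (α.1 y).2, ?_⟩
        exact Cfsg.Agent.Lib.FusionNormal.ext_of_le le_rfl hαF (fun y _ => (α.1 y).2)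
      obtain ⟨g, hg⟩ := (hreal R hRN _ (fun y => hRN (α.1 y).2)).mp hαE
      have hxO := (hmemP₀ ⟨x, hP₀N hx⟩).mp hx
      have hcO := hOn.conj_mem _ hxO g
      obtain ⟨x', hx'⟩ := hOT hcO
      have hx'P : (x' : Ω) ∈ P₀ := by
        rw [hmemP₀, hx']
        exact hcO
      refine Subgroup.mem_subgroupOf.mpr ((mem_autInducedBy P₀ R _).mpr ⟨x', hx'P, fun y => ?_⟩)
      have hιinj : ∀ a b : normalizerIn S R, ι a = ι b → (a : Ω) = b :=
        fun a b h => congrArg Subtype.val (hinj h)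
      -- `z = β (α⁻¹ y)`
      set u : R := (α : MulAut R)⁻¹ y with hu
      have hαu : (α : MulAut R) u = y := by simp [hu]
      have h1 : ((((α * β * α⁻¹ : F.autGroup R) : MulAut R) y : R) : Ω) =
          (((α : MulAut R) ((β : MulAut R) u) : R) : Ω) := rfl
      rw [h1]
      have h2 := hg ((β : MulAut R) u)
      have h3 : ι ⟨y, hRN y.2⟩ = g * ι ⟨u, hRN u.2⟩ * g⁻¹ := by
        have e : (⟨(R.subtype.comp (α : MulAut R).toMonoidHom) u, hRN (α.1 u).2⟩ : normalizerIn S R) =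
            ⟨y, hRN y.2⟩ := by
          apply Subtype.ext
          exact congrArg (fun z : R => (z : Ω)) hαu
        rw [← e]
        exact hg u
      have h4 : (⟨(((β : MulAut R) u : R) : Ω), hRN ((β : MulAut R) u).2⟩ : normalizerIn S R) =
          ⟨x, hP₀N hx⟩ * ⟨u, hRN u.2⟩ * ⟨x, hP₀N hx⟩⁻¹ := Subtype.ext (hxβ u)
      refine hιinj ⟨_, hRN ((α : MulAut R) ((β : MulAut R) u)).2⟩ ⟨(x' : Ω) * y * (x' : Ω)⁻¹, hRN ?_⟩ ?_
      · exact (x'.2.2 _).mp y.2
      · have h5 : (⟨(x' : Ω) * y * (x' : Ω)⁻¹, hRN ((x'.2.2 _).mp y.2)⟩ : normalizerIn S R) =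
            x' * ⟨y, hRN y.2⟩ * x'⁻¹ := rfl
        rw [h5, map_mul, map_mul, map_inv, hx']
        have h6 : ι ⟨((α : MulAut R) ((β : MulAut R) u) : R), hRN ((α : MulAut R) ((β : MulAut R) u)).2⟩ =
            g * ι ⟨(((β : MulAut R) u : R) : Ω), hRN ((β : MulAut R) u).2⟩ * g⁻¹ := h2
        rw [h6, h4, map_mul, map_mul, map_inv]
        have h7 : ι ⟨y, hRN y.2⟩ = g * ι ⟨u, hRN u.2⟩ * g⁻¹ := h3
        rw [h7]
        group
    have hle := Cfsg.Agent.Lib.PCore.le_pCore hKn hKp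
    intro x hx
    have hxN := hP₀N hx
    let c : MulAut R := R.normalizerMonoidHom ⟨x, hxN.2⟩
    have hc : c ∈ autInducedBy P₀ R := (mem_autInducedBy P₀ R _).mpr ⟨x, hx, fun y => rfl⟩
    have hcF : c ∈ F.autGroup R :=
      autInducedBy_le_autGroup F hRS ((mem_autInducedBy S R _).mpr ⟨x, hxN.1, fun y => rfl⟩)
    have h1 : (⟨c, hcF⟩ : F.autGroup R) ∈ Cfsg.pCore p (F.autGroup R) :=
      hle (Subgroup.mem_subgroupOf.mpr hc)
    have h2 : c ∈ Inn R := by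
      rw [← hrad]
      exact ⟨_, h1, rfl⟩
    obtain ⟨r₀, hr₀⟩ := h2
    have hcen : (r₀ : Ω)⁻¹ * x ∈ centralizerIn S R := by
      refine ⟨S.mul_mem (S.inv_mem (hRS r₀.2)) hxN.1, Subgroup.mem_centralizer_iff.mpr fun y hy => ?_⟩
      have h3 : ((c ⟨y, hy⟩ : R) : Ω) = x * y * x⁻¹ := rfl
      rw [← hr₀] at h3
      have h4 : (r₀ : Ω) * y * (r₀ : Ω)⁻¹ = x * y * x⁻¹ := h3
      have h5 : y * ((r₀ : Ω)⁻¹ * x) = (r₀ : Ω)⁻¹ * ((r₀ : Ω) * y * (r₀ : Ω)⁻¹) * x := by group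
      rw [h5, h4]
      group
    have h6 := R.mul_mem r₀.2 (hCR hcen)
    simpa using h6
  intro c hc
  obtain ⟨x, rfl⟩ := hOT hc
  exact ⟨x, Subgroup.mem_subgroupOf.mpr (hP₀R ((hmemP₀ x).mpr hc)), rfl⟩

end Cfsg.Agent.S5126
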