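import Mathlib
import Cfsg.Agent.Lib.FusionFactor
import Cfsg.Agent.Lib.SylowConjLemmas
import Cfsg.Statements.S5135
-- import your own Cfsg.Agent.* helpers here

set_option autoImplicit false
open Cfsg

namespace Cfsg.Agent.S5135

open Cfsg.FusionSystem Cfsg.Agent.Lib.FusionFactor Cfsg.Agent.Lib.SylowConjLemmas

/-- Let G be a finite group, S a Sylow p-subgroup and H a normal subgroup of G. Then the fusion system of G/H on the image SH/H of S is the factor system of the fusion system of G on S modulo S ∩ H, read through the quotient map restricted to S: for each subgroup P' of SH/H, the conjugation maps by elements of G/H defined on P' with values in SH/H are exactly the homomorphisms induced by the conjugation maps by elements of G defined on the full preimage of P' in S with values in S. -/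
theorem result {G : Type*} [Group G] [Finite G] (p : ℕ) [Fact p.Prime] (S : Sylow p G) (H : Subgroup G) [H.Normal] : (Cfsg.groupFusionSystem (S : Subgroup G)).IsFactorSystem ((S : Subgroup G) ⊓ H) ((QuotientGroup.mk' H).comp (S : Subgroup G).subtype) (Cfsg.groupFusionSystem ((S : Subgroup G).map (QuotientGroup.mk' H))) := by
  classical
  set Sb : Subgroup G := (S : Subgroup G) with hSb
  let θ : Sb →* G ⧸ H := (QuotientGroup.mk' H).comp Sb.subtype
  refine ⟨inf_le_left, fun s => ?_, ?_, fun P' φ' => ?_⟩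
  · show (QuotientGroup.mk' H) (s : G) = 1 ↔ (s : G) ∈ Sb ⊓ H
    rw [QuotientGroup.mk'_apply, QuotientGroup.eq_one_iff]
    exact ⟨fun h => ⟨s.2, h⟩, fun h => h.2⟩
  · rw [MonoidHom.range_comp, Subgroup.range_subtype]
  · constructor
    · rintro ⟨hP', hval, g', hg'⟩
      obtain ⟨g, rfl⟩ := QuotientGroup.mk'_surjective H g'
      refine ⟨hP', ?_⟩
      set P := preimageAlong θ P' with hPdef
      have hPS : P ≤ Sb := preimageAlong_le θ P'
      have hmemP : ∀ x : P, θ ⟨x, hPS x.2⟩ ∈ P' := fun x => by
        obtain ⟨_, h⟩ := (mem_preimageAlong θ P' _).mp x.2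
        exact h
      have hPp : IsPGroup p P := S.isPGroup'.to_le hPS
      have hT : IsPGroup p (P.map (MulAut.conj g).toMonoidHom) := hPp.map _
      have hTK : P.map (MulAut.conj g).toMonoidHom ≤ (S : Subgroup G) ⊔ H := by
        rintro _ ⟨x, hx, rfl⟩
        have h1 := hval ⟨θ ⟨x, hPS hx⟩, hmemP ⟨x, hx⟩⟩
        rw [hg'] at h1
        obtain ⟨s, hs, hs2⟩ := h1
        have h2 : (QuotientGroup.mk' H) s = (QuotientGroup.mk' H) (g * x * g⁻¹) := by
          rw [hs2]; simp [θ]
        rw [QuotientGroup.mk'_apply, QuotientGroup.mk'_apply, QuotientGroup.eq] at h2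
        have h3 : g * x * g⁻¹ = s * (s⁻¹ * (g * x * g⁻¹)) := by group
        show g * x * g⁻¹ ∈ _
        rw [h3]
        exact Subgroup.mul_mem _ (Subgroup.mem_sup_left hs) (Subgroup.mem_sup_right h2)
      obtain ⟨h, hh, hconj⟩ := exists_conj_mem_of_le_sup S H _ hT hTK
      have hmem : ∀ x : P, (h * g) * (x : G) * (h * g)⁻¹ ∈ Sb := fun x => by
        have := hconj _ ⟨x, x.2, rfl⟩
        have e : (MulAut.conj g).toMonoidHom (x : G) = g * x * g⁻¹ := rfl
        rw [e] at this
        have e2 : (h * g) * (x : G) * (h * g)⁻¹ = h * (g * x * g⁻¹) * h⁻¹ := by group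
        rw [e2]
        exact this
      refine ⟨Cfsg.conjHom P (h * g), ⟨hPS, hmem, h * g, fun x => rfl⟩, hPS, hmem, hmemP, fun x => ?_⟩
      rw [hg']
      have hh' : (QuotientGroup.mk' H) h = 1 := by
        rw [QuotientGroup.mk'_apply, QuotientGroup.eq_one_iff]
        exact hh
      show (QuotientGroup.mk' H) g * (QuotientGroup.mk' H) (x : G) * ((QuotientGroup.mk' H) g)⁻¹ =
        (QuotientGroup.mk' H) ((h * g) * (x : G) * (h * g)⁻¹)
      rw [map_mul, map_mul, map_inv, map_mul, hh']
      simp
    · rintro ⟨hP', φ, ⟨hP, hφS, g, hg⟩, hP0, hφS', hP1, hind⟩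
      have hkey : ∀ x : P', ∃ s : preimageAlong θ P', θ ⟨s, hP0 s.2⟩ = x := by
        intro x
        obtain ⟨s, hs⟩ := exists_lift (θ := θ) (S' := Sb.map (QuotientGroup.mk' H))
          (by rw [MonoidHom.range_comp, Subgroup.range_subtype]) hP' x
        refine ⟨⟨s, (mem_preimageAlong θ P' _).mpr ⟨s.2, ?_⟩⟩, hs⟩
        show θ s ∈ P'
        rw [hs]; exact x.2
      refine ⟨hP', ?_, QuotientGroup.mk' H g, ?_⟩
      · intro x
        obtain ⟨s, hs⟩ := hkey x
        have h1 := hind s
        have e : (⟨θ ⟨s, hP0 s.2⟩, hP1 s⟩ : P') = x := Subtype.ext hs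
        rw [e] at h1
        rw [h1]
        exact ⟨_, hφS' s, rfl⟩
      · intro x
        obtain ⟨s, hs⟩ := hkey x
        have h1 := hind s
        have e : (⟨θ ⟨s, hP0 s.2⟩, hP1 s⟩ : P') = x := Subtype.ext hs
        rw [e] at h1
        rw [h1, ← hs]
        show (QuotientGroup.mk' H) (φ s) = _
        rw [hg s]
        simp [θ]

end Cfsg.Agent.S5135
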