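import Mathlib
import Cfsg.Statements.S5148
import Cfsg.Agent.Lib.FusionAbelian
import Cfsg.Agent.Lib.FusionStrongClosed
import Cfsg.Agent.S5144

set_option autoImplicit false
open Cfsg

namespace Cfsg.Agent.S5148

/-- A quasisimple fusion system over a finite p-group S (saturated, equal to its p-residual subsystem, with simple — in particular nontrivial — factor system modulo its centre) has S nonabelian. -/
theorem result {Ω : Type*} [Group Ω] {S : Subgroup Ω} [Finite S] (p : ℕ) [Fact p.Prime] (hS : IsPGroup p S) (F : Cfsg.FusionSystem S) (hq : F.Quasisimple p) : ¬ IsMulCommutative S := by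
  open Cfsg.FusionSystem Cfsg.Agent.Lib.FusionSatBasic in
  intro hcomm
  obtain ⟨hF, hhyp, hsimple⟩ := hq
  have hab : ∀ x ∈ S, ∀ y ∈ S, x * y = y * x := by
    intro x hx y hy
    have := hcomm.is_comm.comm (⟨x, hx⟩ : S) ⟨y, hy⟩
    exact congrArg Subtype.val this
  have hZc : F.IsCentral F.center := Cfsg.Agent.S5144.result F
  have hZS : F.center ≤ S := hZc.1
  -- the centre is strongly closed
  have hZsc : F.StronglyClosed F.center := by
    refine ⟨hZS, fun R hR φ hφ x => ?_⟩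
    obtain ⟨ψ, -, h1, h2⟩ := hZc.2 R φ hφ
    have h3 := h1 x
    have h4 := h2 ⟨x, hR x.2⟩
    have h5 : Subgroup.inclusion (le_sup_left : R ≤ R ⊔ F.center) x =
        Subgroup.inclusion (le_sup_right : F.center ≤ R ⊔ F.center) ⟨x, hR x.2⟩ := rfl
    rw [h5, h4] at h3
    rw [← h3]
    exact hR x.2
  let K := F.center.subgroupOf S
  have hθk : ∀ s : S, QuotientGroup.mk' K s = 1 ↔ (s : Ω) ∈ F.center := by
    intro s
    rw [QuotientGroup.mk'_apply, QuotientGroup.eq_one_iff, Subgroup.mem_subgroupOf]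
  have hθr : (QuotientGroup.mk' K).range = ⊤ := by
    rw [MonoidHom.range_eq_top]
    exact QuotientGroup.mk'_surjective K
  obtain ⟨E, hE⟩ := Cfsg.Agent.Lib.FusionFactor.exists_factorSystem F hZsc hθk hθr
  have hEs := hsimple E hE
  obtain ⟨hEsat, hEne, hEn⟩ := id hEs
  have : Finite (S ⧸ K) := inferInstance
  have : Finite (⊤ : Subgroup (S ⧸ K)) := inferInstance
  have hpT : IsPGroup p (⊤ : Subgroup (S ⧸ K)) := by
    have h1 : IsPGroup p (S ⧸ K) := hS.to_quotient K
    exact h1.to_subgroup ⊤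
  have habT : ∀ x ∈ (⊤ : Subgroup (S ⧸ K)), ∀ y ∈ (⊤ : Subgroup (S ⧸ K)), x * y = y * x := by
    intro x _ y _
    obtain ⟨a, rfl⟩ := QuotientGroup.mk'_surjective K x
    obtain ⟨b, rfl⟩ := QuotientGroup.mk'_surjective K y
    rw [← map_mul, ← map_mul]
    congr 1
    exact Subtype.ext (hab _ a.2 _ b.2)
  have hnorm := Cfsg.Agent.Lib.FusionAbelian.inner_isNormalIn_of_abelian hpT hEsat habT
  have hall : ∀ (P : Subgroup (S ⧸ K)) (φ : P →* (S ⧸ K)), φ ∈ E.Hom P → ∀ x : P, φ x = x := by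
    intro P φ hφ x
    rcases hEn _ _ hnorm with h | ⟨-, h⟩
    · exact absurd h hEne
    · rw [← h] at hφ
      exact Cfsg.Agent.Lib.FusionAbelian.inner_hom_eq habT hφ x
  -- the maps of `F` are trivial modulo the centre
  have hm := Cfsg.Agent.Lib.FusionStrongClosed.isSurjectiveMorphism_of_isFactorSystem hS hF hZsc hE
  have hmod : ∀ (P : Subgroup Ω) (φ : P →* Ω), φ ∈ F.Hom P → ∀ x : P, (x : Ω)⁻¹ * φ x ∈ F.center := by
    intro P φ hφ x
    obtain ⟨φ', hφ', hP, hφS, hP', hind⟩ := hm.1.2 P φ hφ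
    have h1 := hind x
    rw [hall _ φ' hφ'] at h1
    have h2 : QuotientGroup.mk' K ((⟨x, hP x.2⟩ : S)⁻¹ * ⟨φ x, hφS x⟩) = 1 := by
      rw [map_mul, map_inv, ← h1]
      simp
    exact (hθk _).mp h2
  -- hence `S ≤ Z(F)`
  have hle : F.hyperfocalSubgroup p ≤ F.center := by
    unfold hyperfocalSubgroup
    rw [Subgroup.closure_le]
    rintro _ ⟨P, α, x, hP, -, rfl⟩
    exact hmod P _ ((mem_autGroup F hP _).mp α.2) x
  rw [hhyp] at hle
  apply hEne
  rw [eq_bot_iff]
  intro y _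
  obtain ⟨s, rfl⟩ := QuotientGroup.mk'_surjective K y
  exact Subgroup.mem_bot.mpr ((hθk s).mpr (hle s.2))

end Cfsg.Agent.S5148
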