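import Mathlib
import Cfsg.Statements.S5198
import Cfsg.Agent.Lib.FusionNormal
import Cfsg.Agent.Lib.PResid

set_option autoImplicit false
open Cfsg

namespace Cfsg.Agent.S5198

open Cfsg.Agent.Lib.FusionAlperin Cfsg.Agent.Lib.FusionNormal Cfsg.Agent.Lib.PResid

/-- Let F be a saturated fusion system over a finite p-group S and T a subgroup of S strongly closed in F (so T is normal in S). Then every element x of the hyperfocal subgroup of F acts on T by conjugation as an element of O^p(Aut_F(T))·Inn(T): there is an automorphism of T in the subgroup generated by the elements of Aut_F(T) of order prime to p together with the inner automorphisms of T that agrees with conjugation by x. -/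
theorem result {Ω : Type*} [Group Ω] {S : Subgroup Ω} [Finite S] (p : ℕ) [Fact p.Prime] (hS : IsPGroup p S) (F : Cfsg.FusionSystem S) (hF : F.IsSaturated p) (T : Subgroup Ω) (hT : F.StronglyClosed T) : ∀ x ∈ F.hyperfocalSubgroup p, ∃ α ∈ ((Cfsg.pResidual p ↥(F.autGroup T)).map (F.autGroup T).subtype ⊔ Cfsg.Inn ↥T : Subgroup (MulAut ↥T)), ∀ t : ↥T, ((α t : ↥T) : Ω) = x * (t : Ω) * x⁻¹ := by
  classical
  have hTS : T ≤ S := hT.1
  have hTn : S ≤ Subgroup.normalizer (T : Set Ω) := StronglyClosed.le_normalizer hT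
  have hfT : Finite T := finite_of_le hTS
  -- the conjugation action of `S` on `T`
  let c₀ : S →* MulAut T := T.normalizerMonoidHom.comp (Subgroup.inclusion hTn)
  have hc₀ : ∀ (s : S) (t : T), ((c₀ s t : T) : Ω) = (s : Ω) * (t : Ω) * (s : Ω)⁻¹ := fun s t => rfl
  have hc₀D : ∀ s : S, c₀ s ∈ F.autGroup T := by
    intro s
    refine autInducedBy_le_autGroup hTS (mem_autInducedBy_iff.mpr ⟨s, s.2, fun x => rfl⟩)
  let c : S →* F.autGroup T := c₀.codRestrict (F.autGroup T) hc₀D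
  have hcval : ∀ (s : S) (t : T), (((c s : MulAut T) t : T) : Ω) = (s : Ω) * (t : Ω) * (s : Ω)⁻¹ :=
    fun s t => rfl
  let B : Subgroup (F.autGroup T) :=
    Cfsg.pResidual p (F.autGroup T) ⊔ (Cfsg.Inn T).subgroupOf (F.autGroup T)
  have hBn : B.Normal := Subgroup.sup_normal _ _
  let G := F.autGroup T ⧸ B
  let π : F.autGroup T →* G := QuotientGroup.mk' B
  let ρ : S →* G := π.comp c
  have hGp : IsPGroup p G := by
    intro y
    obtain ⟨d, rfl⟩ := QuotientGroup.mk'_surjective B y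
    obtain ⟨a, b, rfl, ⟨n, hn⟩, hb⟩ := exists_mul_mem_pResidual (p := p) d
    refine ⟨n, ?_⟩
    have hb2 : QuotientGroup.mk' B b = 1 :=
      (QuotientGroup.eq_one_iff b).mpr ((le_sup_left : _ ≤ B) hb)
    rw [map_mul, hb2, mul_one, ← map_pow, hn, map_one]
  -- elements of `T` act as inner automorphisms, so they die
  have hρT : ∀ (u : S), (u : Ω) ∈ T → ρ u = 1 := by
    intro u hu
    refine (QuotientGroup.eq_one_iff _).mpr ((le_sup_right : _ ≤ B) ?_)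
    refine Subgroup.mem_subgroupOf.mpr ⟨⟨u, hu⟩, ?_⟩
    ext t
    rfl
  -- the good maps
  let good : ∀ P : Subgroup Ω, (P →* Ω) → Prop := fun P φ => ∃ g : G, ∀ (x : P) (h1 : (x : Ω) ∈ S)
    (h2 : φ x ∈ S), ρ ⟨φ x, h2⟩ = g * ρ ⟨x, h1⟩ * g⁻¹
  let E : Cfsg.FusionSystem S := goodSystem F good
    (by
      intro P g₀ hP hg₀
      refine ⟨ρ ⟨g₀, hg₀⟩, fun x h1 h2 => ?_⟩
      rw [← map_inv, ← map_mul, ← map_mul]
      rfl)
    (by
      rintro P Q φ ψ hφ hψ ⟨g₁, hg₁⟩ ⟨g₂, hg₂⟩ h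
      refine ⟨g₂ * g₁, fun x h1 h2 => ?_⟩
      have h3 := hg₁ x h1 (hom_val hφ x)
      have h4 := hg₂ ⟨φ x, h x⟩ (hom_val hφ x) h2
      calc ρ ⟨(ψ.comp (φ.codRestrict Q h)) x, h2⟩ = g₂ * ρ ⟨φ x, hom_val hφ x⟩ * g₂⁻¹ := h4
        _ = g₂ * (g₁ * ρ ⟨x, h1⟩ * g₁⁻¹) * g₂⁻¹ := by rw [h3]
        _ = g₂ * g₁ * ρ ⟨x, h1⟩ * (g₂ * g₁)⁻¹ := by group)
    (by
      rintro P φ ψ hφ hψ hψφ ⟨g, hg⟩
      refine ⟨g⁻¹, ?_⟩
      rintro ⟨_, x, rfl⟩ h1 h2
      have h3 := hg x (hom_le hφ x.2) (hom_val hφ x)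
      have h4 : ψ ⟨φ x, ⟨x, rfl⟩⟩ = (x : Ω) := hψφ x
      have h5 : (⟨ψ ⟨φ x, ⟨x, rfl⟩⟩, h2⟩ : S) = ⟨x, hom_le hφ x.2⟩ := Subtype.ext h4
      rw [h5]
      show ρ ⟨x, hom_le hφ x.2⟩ = g⁻¹ * ρ ⟨φ x, h1⟩ * g⁻¹⁻¹
      rw [h3]
      group)
  have key : ∀ P : Subgroup Ω, F.Hom P ⊆ E.Hom P := by
    refine alperin hS hF (fun P _ h => h.1) ?_
    intro R hRS hFA hRec _ IH φ hφ hr
    by_cases hTR : T ≤ R
    · -- restrict to `T`
      have hmapT : ∀ y : R, (y : Ω) ∈ T → φ y ∈ T := fun y hy => StronglyClosed.map_mem hT hφ y hy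
      let φT : T →* Ω := φ.comp (Subgroup.inclusion hTR)
      have hφT : φT ∈ F.Hom T := restrict_mem hφ hTR
      have hφTr : φT.range = T := by
        apply le_antisymm
        · rintro _ ⟨x, rfl⟩
          exact hmapT _ x.2
        · intro y hy
          obtain ⟨z, hz, hzy⟩ := surj_on_of_le hTR hφ hmapT hy
          exact ⟨⟨z, hz⟩, hzy⟩
      let d : F.autGroup T := ⟨autOfHom φT (hom_inj hφT) hφTr, autOfHom_mem hφT hφTr⟩
      have hdval : ∀ (u : T), (((d : MulAut T) u : T) : Ω) = φ ⟨u, hTR u.2⟩ := fun u => rfl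
      refine ⟨hφ, π d, fun x h1 h2 => ?_⟩
      have hcd : c ⟨φ x, h2⟩ = d * c ⟨x, h1⟩ * d⁻¹ := by
        apply Subtype.ext
        ext u
        show φ x * (u : Ω) * (φ x)⁻¹ = (((d : MulAut T) ((c ⟨x, h1⟩ : MulAut T) ((d : MulAut T)⁻¹ u)) : T) : Ω)
        rw [hdval]
        have h3 : (⟨(((c ⟨x, h1⟩ : MulAut T) ((d : MulAut T)⁻¹ u) : T) : Ω), hTR (((c ⟨x, h1⟩ : MulAut T) ((d : MulAut T)⁻¹ u) : T)).2⟩ : R)
            = x * ⟨(((d : MulAut T)⁻¹ u : T) : Ω), hTR ((d : MulAut T)⁻¹ u).2⟩ * x⁻¹ := rfl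
        rw [h3, map_mul, map_mul, map_inv]
        have h4 : φ ⟨(((d : MulAut T)⁻¹ u : T) : Ω), hTR ((d : MulAut T)⁻¹ u).2⟩ = (u : Ω) := by
          rw [← hdval]
          simp
        rw [h4]
      show π (c ⟨φ x, h2⟩) = π d * π (c ⟨x, h1⟩) * (π d)⁻¹
      rw [hcd, map_mul, map_mul, map_inv]
    · obtain ⟨t, ht, htN, htR⟩ := exists_mem_normalizer_not_mem hS hTS hRS (hRS.trans hTn) hTR
      refine aut_mem_of_sections hFA hRec IH T ?_ ?_ (hTS ht) htN htR ?_ φ hφ hr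
      · intro δ hδ x hx
        exact stronglyClosed_inf_normal hT hδ hRS x hx
      · intro α hα hαT
        refine ⟨(mem_autGroup_iff hRS).mp hα, 1, fun x h1 h2 => ?_⟩
        have h3 : ρ ⟨((α x : R) : Ω), h2⟩ = ρ ⟨x, h1⟩ * ρ ⟨(x : Ω)⁻¹ * ((α x : R) : Ω), S.mul_mem (S.inv_mem h1) h2⟩ := by
          rw [← map_mul]
          congr 1
          apply Subtype.ext
          show ((α x : R) : Ω) = (x : Ω) * ((x : Ω)⁻¹ * ((α x : R) : Ω))
          group
        rw [one_mul, inv_one, mul_one]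
        show ρ ⟨((α x : R) : Ω), h2⟩ = _
        rw [h3, hρT ⟨(x : Ω)⁻¹ * ((α x : R) : Ω), S.mul_mem (S.inv_mem h1) h2⟩ (hαT x), mul_one]
      · intro x
        have h1 : (x : Ω)⁻¹ * t * (x : Ω) ∈ T := by
          have := StronglyClosed.conj_mem hT (S.inv_mem (hRS x.2)) ht
          simpa using this
        have h2 : (x : Ω)⁻¹ * (t * (x : Ω) * t⁻¹) = ((x : Ω)⁻¹ * t * (x : Ω)) * t⁻¹ := by group
        rw [h2]
        exact T.mul_mem h1 (T.inv_mem ht)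
  -- automorphisms of order prime to `p`
  have hgen : ∀ (P : Subgroup Ω) (hP : P ≤ S) (α₀ : MulAut P), α₀ ∈ F.autGroup P →
      (orderOf α₀).Coprime p → ∀ (x : P), ρ ⟨((α₀ x : P) : Ω), hP (α₀ x).2⟩ = ρ ⟨x, hP x.2⟩ := by
    intro P hP α₀ hα₀ hcop x
    have hφ := (mem_autGroup_iff hP).mp hα₀
    obtain ⟨-, g, hg⟩ := key P hφ
    have hg' : ∀ y : P, ρ ⟨((α₀ y : P) : Ω), hP (α₀ y).2⟩ = g * ρ ⟨y, hP y.2⟩ * g⁻¹ :=
      fun y => hg y (hP y.2) (hP (α₀ y).2)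
    obtain ⟨a, ha⟩ := hGp g
    have hpow : ∀ (k : ℕ) (y : P), ρ ⟨(((α₀ ^ k) y : P) : Ω), hP ((α₀ ^ k) y).2⟩ = g ^ k * ρ ⟨y, hP y.2⟩ * (g ^ k)⁻¹ := by
      intro k
      induction k with
      | zero => intro y; simp
      | succ k ih =>
        intro y
        have h1 : (α₀ ^ (k + 1)) y = α₀ ((α₀ ^ k) y) := by
          rw [pow_succ']; rfl
        rw [h1, hg', ih, pow_succ']
        group
    have hfix : ∀ y : P, ρ ⟨(((α₀ ^ p ^ a) y : P) : Ω), hP ((α₀ ^ p ^ a) y).2⟩ = ρ ⟨y, hP y.2⟩ := by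
      intro y
      rw [hpow, ha]
      group
    have hfix2 : ∀ (m : ℕ) (y : P), ρ ⟨((((α₀ ^ p ^ a) ^ m) y : P) : Ω), hP (((α₀ ^ p ^ a) ^ m) y).2⟩ = ρ ⟨y, hP y.2⟩ := by
      intro m
      induction m with
      | zero => intro y; simp
      | succ m ih =>
        intro y
        have h1 : ((α₀ ^ p ^ a) ^ (m + 1)) y = (α₀ ^ p ^ a) (((α₀ ^ p ^ a) ^ m) y) := by
          rw [pow_succ']; rfl
        rw [h1, hfix, ih]
    obtain ⟨m, hm⟩ := exists_pow_eq_self_of_coprime (x := α₀) (n := p ^ a)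
      (Nat.Coprime.pow_left a hcop.symm)
    have h2 := hfix2 m x
    rw [hm] at h2
    exact h2
  have hresid : ∀ (P : Subgroup Ω) (hP : P ≤ S) (α : F.autGroup P), α ∈ Cfsg.pResidual p (F.autGroup P) →
      ∀ (x : P), ρ ⟨(((α : MulAut P) x : P) : Ω), hP ((α : MulAut P) x).2⟩ = ρ ⟨x, hP x.2⟩ := by
    intro P hP α hα
    induction hα using Subgroup.closure_induction with
    | mem a ha =>
      refine hgen P hP a a.2 ?_
      have : orderOf (a : MulAut P) = orderOf a := Subgroup.orderOf_coe a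
      rw [this]
      exact ha
    | one => intro x; rfl
    | mul a b _ _ iha ihb =>
      intro x
      show ρ ⟨(((a : MulAut P) ((b : MulAut P) x) : P) : Ω), _⟩ = _
      rw [iha, ihb]
    | inv a _ iha =>
      intro x
      have h1 := iha ((a : MulAut P)⁻¹ x)
      have h2 : (a : MulAut P) ((a : MulAut P)⁻¹ x) = x := by simp
      rw [h2] at h1
      exact h1.symm
  -- the hyperfocal subgroup dies
  have hhyp : F.hyperfocalSubgroup p ≤ (ρ.ker).map S.subtype := by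
    refine (Subgroup.closure_le _).mpr ?_
    rintro y ⟨P, α, x, hP, hα, rfl⟩
    have hx1 : (x : Ω) ∈ S := hP x.2
    have hx2 : (((α : MulAut P) x : P) : Ω) ∈ S := hP ((α : MulAut P) x).2
    refine ⟨⟨(x : Ω)⁻¹ * (((α : MulAut P) x : P) : Ω), S.mul_mem (S.inv_mem hx1) hx2⟩, ?_, rfl⟩
    have h1 := hresid P hP α hα x
    show ρ _ = 1
    have h2 : (⟨(x : Ω)⁻¹ * (((α : MulAut P) x : P) : Ω), S.mul_mem (S.inv_mem hx1) hx2⟩ : S) =
        (⟨x, hx1⟩ : S)⁻¹ * ⟨_, hx2⟩ := rfl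
    rw [h2, map_mul, map_inv, h1, inv_mul_cancel]
  intro x hx
  obtain ⟨s, hs, rfl⟩ := hhyp hx
  refine ⟨(c s : MulAut T), ?_, fun t => rfl⟩
  have hsB : c s ∈ B := (QuotientGroup.eq_one_iff _).mp hs
  have h3 : (c s : MulAut T) ∈ B.map (F.autGroup T).subtype := ⟨_, hsB, rfl⟩
  have h4 : B.map (F.autGroup T).subtype ≤
      (Cfsg.pResidual p (F.autGroup T)).map (F.autGroup T).subtype ⊔ Cfsg.Inn T := by
    rw [Subgroup.map_sup]
    refine sup_le_sup le_rfl ?_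
    rintro _ ⟨z, hz, rfl⟩
    exact Subgroup.mem_subgroupOf.mp hz
  exact h4 h3

end Cfsg.Agent.S5198
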