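import Mathlib
import Cfsg.Statements.S5199
import Cfsg.Agent.Lib.FusionNormal
import Cfsg.Agent.Lib.PResid

set_option autoImplicit false
open Cfsg

namespace Cfsg.Agent.S5199

open Cfsg.Agent.Lib.FusionAlperin Cfsg.Agent.Lib.FusionNormal Cfsg.Agent.Lib.PResid

/-- Let F be a saturated fusion system over a finite p-group S, E a normal subsystem of F over T, and F₀ a normal subsystem of F over a subgroup U containing both T and the hyperfocal subgroup of F, such that F₀ has p-power index in F. Then E is a subsystem of F₀. -/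
theorem result {Ω : Type*} [Group Ω] {S : Subgroup Ω} [Finite S] (p : ℕ) [Fact p.Prime] (hS : IsPGroup p S) (F : Cfsg.FusionSystem S) (hF : F.IsSaturated p) {T U : Subgroup Ω} (E : Cfsg.FusionSystem T) (hE : E.IsNormalIn F p) (F₀ : Cfsg.FusionSystem U) (hF₀ : F₀.IsNormalIn F p) (hU : T ⊔ F.hyperfocalSubgroup p ≤ U) (hidx : F₀.HasPPowerIndexIn F p) : E.IsSubsystemOf F₀ := by
  classical
  obtain ⟨⟨hEsat, -, hEinv⟩, -⟩ := hE
  have hEF : E.IsSubsystemOf F := hEinv.1
  obtain ⟨hF₀F, -, hres⟩ := hidx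
  have hTS : T ≤ S := hom_le (hEF T (subtype_mem E le_rfl))
  have hTU : T ≤ U := le_sup_left.trans hU
  have hfT : Finite T := finite_of_le hTS
  have hTp : IsPGroup p T := hS.to_le hTS
  -- the common part
  let E₁ : Cfsg.FusionSystem T := goodSystem E (fun P φ => φ ∈ F₀.Hom P)
    (fun P g hP hg => F₀.conj_mem (hP.trans hTU) (hTU hg))
    (fun P Q φ ψ _ _ hφ hψ h => F₀.comp_mem hφ hψ h)
    (by
      intro P φ ψ _ _ hψφ hφ
      obtain ⟨ψ₀, hψ₀, h0⟩ := F₀.inv_mem hφ
      have : ψ = ψ₀ := by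
        ext y
        rcases y with ⟨_, x, rfl⟩
        exact (hψφ x).trans (h0 x).symm
      rw [this]
      exact hψ₀)
  have key : ∀ P : Subgroup Ω, E.Hom P ⊆ E₁.Hom P := by
    refine alperin hTp hEsat (fun P _ h => h.1) ?_
    intro Q hQT hFA _ _ _ φ hφ hr
    refine ⟨hφ, ?_⟩
    have hQU : Q ≤ U := hQT.trans hTU
    have hQS : Q ≤ S := hQT.trans hTS
    have hfQ : Finite Q := finite_of_le hQT
    obtain ⟨-, A, hA⟩ := hFA
    -- every element of `Aut_E(Q)` is a product
    let α : E.autGroup Q := ⟨autOfHom φ (hom_inj hφ) hr, autOfHom_mem hφ hr⟩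
    have hAF₀ : ∀ a ∈ (A : Subgroup (E.autGroup Q)), ((a : E.autGroup Q) : MulAut Q) ∈ F₀.autGroup Q := by
      intro a ha
      rw [hA] at ha
      obtain ⟨g, hg, hga⟩ := mem_autInducedBy_iff.mp (Subgroup.mem_subgroupOf.mp ha)
      exact autInducedBy_le_autGroup hQU (mem_autInducedBy_iff.mpr ⟨g, hTU hg, hga⟩)
    have hEFaut : ∀ β : MulAut Q, β ∈ E.autGroup Q → β ∈ F.autGroup Q := by
      intro β hβ
      rw [mem_autGroup_iff hQS]
      exact hEF _ ((mem_autGroup_iff hQT).mp hβ)
    have hNF₀ : ∀ n ∈ Cfsg.pResidual p (E.autGroup Q), ((n : E.autGroup Q) : MulAut Q) ∈ F₀.autGroup Q := by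
      intro n hn
      induction hn using Subgroup.closure_induction with
      | mem x hx =>
        have hxF := hEFaut _ x.2
        have h1 : (⟨(x : MulAut Q), hxF⟩ : F.autGroup Q) ∈ Cfsg.pResidual p (F.autGroup Q) := by
          apply mem_pResidual_of_coprime
          have h2 : orderOf (⟨(x : MulAut Q), hxF⟩ : F.autGroup Q) = orderOf x := by
            rw [← Subgroup.orderOf_coe, ← Subgroup.orderOf_coe]
          rw [h2]
          exact hx
        exact hres Q hQU ⟨_, h1, rfl⟩
      | one => exact Subgroup.one_mem _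
      | mul x y _ _ ihx ihy => exact Subgroup.mul_mem _ ihx ihy
      | inv x _ ihx => exact Subgroup.inv_mem _ ihx
    obtain ⟨a, ha, n, hn, hαan⟩ := exists_sylow_mul_pResidual A α
    have hαF₀ : (autOfHom φ (hom_inj hφ) hr) ∈ F₀.autGroup Q := by
      have h1 : ((α : E.autGroup Q) : MulAut Q) = (a : MulAut Q) * (n : MulAut Q) := by
        rw [hαan]; rfl
      show ((α : E.autGroup Q) : MulAut Q) ∈ F₀.autGroup Q
      rw [h1]
      exact Subgroup.mul_mem _ (hAF₀ a ha) (hNF₀ n hn)
    have h2 := (mem_autGroup_iff hQU).mp hαF₀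
    rwa [subtype_comp_autOfHom] at h2
  intro P φ hφ
  exact (key P hφ).2

end Cfsg.Agent.S5199
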