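import Mathlib
import Cfsg.Statements.S5223
import Cfsg.Agent.Lib.FusionAlperin

set_option autoImplicit false
open Cfsg

namespace Cfsg.Agent.S5223

open Cfsg.Agent.Lib.FusionAlperin

variable {Ω : Type*} [Group Ω] {S : Subgroup Ω}

/-- The iterated focal subgroups. -/
def foc (F : Cfsg.FusionSystem S) : ℕ → Subgroup Ω
  | 0 => S
  | i + 1 => Subgroup.closure {y : Ω | ∃ x ∈ foc F i, ∃ φ ∈ F.Hom (Subgroup.zpowers x),
      y = x⁻¹ * φ ⟨x, Subgroup.mem_zpowers x⟩}

theorem foc_anti (F : Cfsg.FusionSystem S) (i : ℕ) : foc F (i + 1) ≤ foc F i := by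
  induction i with
  | zero =>
    refine (Subgroup.closure_le _).mpr ?_
    rintro y ⟨x, hx, φ, hφ, rfl⟩
    exact S.mul_mem (S.inv_mem hx) (hom_val hφ _)
  | succ i ih =>
    refine (Subgroup.closure_le _).mpr ?_
    rintro y ⟨x, hx, φ, hφ, rfl⟩
    exact Subgroup.subset_closure ⟨x, ih hx, φ, hφ, rfl⟩


/-- Let F be a saturated fusion system over a finite p-group S. Suppose there are subgroups Q₀ = S, Q₁, …, Qₙ = 1 (not required to be nested) such that for each i < n the focal subgroup of Qᵢ (generated by the elements x⁻¹φ(x), x ∈ Qᵢ, φ a map of F defined on the cyclic group generated by x) lies in Qᵢ₊₁. Then F is the inner fusion system of S. -/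
theorem result {Ω : Type*} [Group Ω] {S : Subgroup Ω} [Finite S] (p : ℕ) [Fact p.Prime] (hS : IsPGroup p S) (F : Cfsg.FusionSystem S) (hF : F.IsSaturated p) (n : ℕ) (Q : Fin (n + 1) → Subgroup Ω) (hQ0 : Q 0 = S) (hQn : Q (Fin.last n) = ⊥) (hstep : ∀ i : Fin n, Subgroup.closure {y : Ω | ∃ x ∈ Q i.castSucc, ∃ φ ∈ F.Hom (Subgroup.zpowers x), y = x⁻¹ * φ ⟨x, Subgroup.mem_zpowers x⟩} ≤ Q i.succ) : ∀ P : Subgroup Ω, F.Hom P = (Cfsg.innerFusionSystem S).Hom P := by
  -- the iterated focal subgroups die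
  have hle : ∀ (i : ℕ) (hi : i < n + 1), foc F i ≤ Q ⟨i, hi⟩ := by
    intro i
    induction i with
    | zero =>
      intro hi
      have : Q ⟨0, hi⟩ = S := hQ0
      rw [this]; exact le_rfl
    | succ i ih =>
      intro hi
      have hi' : i < n := by omega
      have h1 := hstep ⟨i, hi'⟩
      refine le_trans ?_ h1
      refine Subgroup.closure_mono ?_
      rintro y ⟨x, hx, φ, hφ, rfl⟩
      exact ⟨x, ih (by omega) hx, φ, hφ, rfl⟩
  have hbot : foc F n = ⊥ := by
    have := hle n (by omega)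
    have h2 : Q ⟨n, by omega⟩ = ⊥ := hQn
    rw [h2] at this
    exact le_bot_iff.mp this
  refine frobenius_inner hS hF ?_
  intro R hRS
  have hfin : Finite R := finite_of_le hRS
  have hRp : IsPGroup p R := hS.to_le hRS
  intro β
  let C : ℕ → Subgroup R := fun i => (foc F i).subgroupOf R
  have hanti : ∀ i, C (i + 1) ≤ C i := fun i x hx => Subgroup.mem_subgroupOf.mpr (foc_anti F i (Subgroup.mem_subgroupOf.mp hx))
  have h0 : C 0 = ⊤ := Subgroup.subgroupOf_eq_top.mpr hRS
  have hm : C n = ⊥ := by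
    show (foc F n).subgroupOf R = ⊥
    rw [hbot]; exact Subgroup.bot_subgroupOf _
  obtain ⟨k, hk⟩ := pow_eq_one_of_chain hRp hanti hm h0 (β : MulAut R) (by
    intro i x hx
    have hxi : (x : Ω) ∈ foc F i := Subgroup.mem_subgroupOf.mp hx
    refine Subgroup.mem_subgroupOf.mpr ?_
    have hmap := (mem_autGroup_iff hRS).mp β.2
    have hz : Subgroup.zpowers (x : Ω) ≤ R := (Subgroup.zpowers_le).mpr x.2
    have hres := restrict_mem hmap hz
    refine Subgroup.subset_closure ⟨x, hxi, _, hres, ?_⟩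
    rfl)
  refine ⟨k, ?_⟩
  apply Subtype.ext
  simpa using hk

end Cfsg.Agent.S5223
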