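import Mathlib
import Cfsg.Statements.S5225
import Cfsg.Agent.Lib.FusionYoshida

set_option autoImplicit false
open Cfsg
open Cfsg.Agent.Lib.FusionCore Cfsg.Agent.Lib.FusionBiset Cfsg.Agent.Lib.FusionTransfer Cfsg.Agent.Lib.FusionTrfApps Cfsg.Agent.Lib.FusionYoshida

namespace Cfsg.Agent.S5225

/-- Yoshida's Theorem for fusion systems. Let F be a saturated fusion system over a finite p-group S and N the normalizer fusion system of S in F. If the focal subgroups of F and N differ (N does not control transfer in F), then S has a quotient isomorphic to the wreath product C_p ≀ C_p (realised as a Sylow p-subgroup of the symmetric group of degree p²). -/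
theorem result {Ω : Type*} [Group Ω] {S : Subgroup Ω} [Finite S] (p : ℕ) [Fact p.Prime] (hS : IsPGroup p S) (F : Cfsg.FusionSystem S) (hF : F.IsSaturated p) (N : Cfsg.FusionSystem (Cfsg.FusionSystem.normalizerIn S S)) (hN : F.IsNormalizerSystem S N) (hne : N.focalSubgroup ≠ F.focalSubgroup) : ∃ (W : Sylow p (Equiv.Perm (Fin (p ^ 2)))) (f : ↥S →* ↥(W : Subgroup (Equiv.Perm (Fin (p ^ 2))))), Function.Surjective f := by
  classical
  by_contra hnq
  have hnw : ∀ (l : ↥S →* Multiplicative (ZMod p)) (s x : ↥S) (ν : ↥S → Multiplicative (ZMod p)), l s ≠ 1 → l x = 1 →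
      (∀ a b, l a = 1 → l b = 1 → ν (a * b) = ν a * ν b) →
      ∏ k ∈ Finset.range p, ν ((s ^ k)⁻¹ * x * s ^ k) = 1 := by
    intro l s x ν hs hx hν
    by_contra hcon
    exact hnq (Cfsg.Agent.Lib.WreathQuot.exists_surj_of_norm hS l hs ν hν hx hcon)
  obtain ⟨X, i1, i2, hX, hm, hn⟩ := exists_transfer hS hF
  have hnS : (S : Subgroup Ω) ≤ Cfsg.FusionSystem.normalizerIn S S := le_normalizerIn le_rfl
  have hgen : ∀ (φ : Ω → Ω) (a : Ω), Maps F S φ → a ∈ S → a⁻¹ * φ a ∈ N.focalSubgroup := by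
    intro φ a hφ ha
    have himg : ∀ y ∈ S, ∃ x ∈ S, φ x = y := by
      have h1 : img φ S = S := img_eq_of_card hφ le_rfl le_rfl (fun x hx => hφ.mem hx) le_rfl
      intro y hy
      rw [← h1] at hy
      exact hφ.mem_img.1 hy
    have hmem : hφ.hom ∈ N.Hom S := by
      rw [hN S]
      refine ⟨hφ.hom_mem, hnS, fun x => ?_, ?_⟩
      · rw [hφ.hom_apply]
        exact hnS (hφ.mem x.2)
      · have hsup : Maps F (S ⊔ S) φ := hφ.restrict (sup_le le_rfl le_rfl)
        refine ⟨hsup.hom, hsup.hom_mem, fun x => ?_, ?_⟩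
        · rw [hsup.hom_apply, hφ.hom_apply]
          rfl
        · ext y
          constructor
          · rintro ⟨z, -, rfl⟩
            rw [hsup.hom_apply]
            exact hφ.mem ((sup_le le_rfl le_rfl : S ⊔ S ≤ S) z.2)
          · intro hy
            obtain ⟨x, hx, rfl⟩ := himg y hy
            refine ⟨⟨x, le_sup_left (a := S) hx⟩, hx, ?_⟩
            rw [hsup.hom_apply]
    refine Subgroup.subset_closure ⟨S, hφ.hom, ⟨a, ha⟩, hmem, ?_⟩
    rw [hφ.hom_apply]
  have hcomm : ⁅S, S⁆ ≤ N.focalSubgroup :=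
    (Subgroup.commutator_mono hnS hnS).trans commutator_le_focal
  -- the quotient
  set D' : Subgroup ↥S := (N.focalSubgroup).subgroupOf S with hD'
  have hcD : commutator ↥S ≤ D' := by
    intro c hc
    have h6 : (c : Ω) ∈ (commutator ↥S).map S.subtype := ⟨c, hc, rfl⟩
    rw [commutator_def, Subgroup.map_commutator, ← MonoidHom.range_eq_map, Subgroup.range_subtype] at h6
    exact hcomm h6
  let q : Abelianization ↥S →* Abelianization ↥S ⧸ (D'.map (Abelianization.of (G := ↥S))) := QuotientGroup.mk' _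
  let π : ↥S →* Abelianization ↥S ⧸ (D'.map (Abelianization.of (G := ↥S))) := q.comp Abelianization.of
  have hπ : ∀ a, π a = 1 ↔ a ∈ D' := by
    intro a
    have h1 : π a = 1 ↔ Abelianization.of a ∈ D'.map (Abelianization.of (G := ↥S)) :=
      QuotientGroup.eq_one_iff _
    rw [h1]
    constructor
    · rintro ⟨b, hb, hba⟩
      have h2 : b⁻¹ * a ∈ commutator ↥S := by
        rw [← Abelianization.ker_of, MonoidHom.mem_ker, map_mul, map_inv, hba, inv_mul_cancel]
      have h3 := D'.mul_mem hb (hcD h2)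
      simpa using h3
    · intro h
      exact ⟨a, h, rfl⟩
  have hsurj : Function.Surjective π :=
    (QuotientGroup.mk'_surjective _).comp (QuotientGroup.mk'_surjective _)
  have hAp := IsPGroup.of_surjective hS π hsurj
  haveI : Finite (Abelianization ↥S ⧸ (D'.map (Abelianization.of (G := ↥S)))) := Finite.of_surjective π hsurj
  have hst := stable_of_char hX hm hn (fun a b => ∃ φ : Ω → Ω, Maps F S φ ∧ (b : Ω) = φ a)
    (fun a b ⟨φ, hφ, hb⟩ => ⟨S, φ, hφ, a.2, hb⟩)
    (fun f hf => stable_of_norm hS hX hm hn hnw f (fun φ a b hφ hb => hf a b ⟨φ, hφ, hb⟩))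
    _ hAp rfl π (fun a b ⟨φ, hφ, hb⟩ => by
      have h1 : a⁻¹ * b ∈ D' := by
        show ((a⁻¹ * b : ↥S) : Ω) ∈ N.focalSubgroup
        push_cast
        rw [hb]
        exact hgen φ a hφ a.2
      have h2 := (hπ _).2 h1
      rw [map_mul, map_inv] at h2
      exact inv_mul_eq_one.1 h2)
  apply hne
  apply le_antisymm
  · refine (Subgroup.closure_le _).2 ?_
    rintro _ ⟨P, φ, x, hφ, rfl⟩
    rw [hN P] at hφ
    exact Subgroup.subset_closure ⟨P, φ, x, hφ.1, rfl⟩
  · refine (Subgroup.closure_le _).2 ?_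
    rintro _ ⟨P, φ, x, hφ, rfl⟩
    have hf : Maps F P (fn φ) := Maps.of_mem hφ
    have hxS : (x : Ω) ∈ S := hf.le x.2
    have h1 := hst ⟨x, hxS⟩ ⟨fn φ x, hf.mem x.2⟩ ⟨P, fn φ, hf, x.2, rfl⟩
    have h2 : π ((⟨x, hxS⟩ : ↥S)⁻¹ * ⟨fn φ x, hf.mem x.2⟩) = 1 := by
      rw [map_mul, map_inv, h1, inv_mul_cancel]
    have h3 := (hπ _).1 h2
    have h4 : (x : Ω)⁻¹ * fn φ x ∈ N.focalSubgroup := h3
    rw [fn_coe] at h4
    exact h4

end Cfsg.Agent.S5225
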