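import Mathlib
import Cfsg.Agent.Lib.FusionAbCore2
import Cfsg.Statements.S5244

set_option autoImplicit false
open Cfsg

namespace Cfsg.Agent.S5244

open Cfsg Cfsg.FusionSystem Cfsg.Agent.Lib.FusionCore Cfsg.Agent.Lib.FusionCore2 Cfsg.Agent.Lib.FusionCore3 Cfsg.Agent.Lib.FusionAbIdx Cfsg.Agent.Lib.FusionAbEss Cfsg.Agent.Lib.FusionAbEss2 Cfsg.Agent.Lib.FusionAbCore1 Cfsg.Agent.Lib.FusionAbCore2

section Aux

variable {Ω : Type*} [Group Ω] {S A : Subgroup Ω} [Finite S] {F : FusionSystem S} {P : Subgroup Ω}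
variable {p : ℕ} [Fact p.Prime]

theorem Z_inv_S {α : MulAut S} (hα : α ∈ F.autGroup S) {z : Ω} (hz : z ∈ Zc S) : afn α z ∈ Zc S := by
  have hm := Maps_of_mem_autGroup le_rfl hα
  refine mem_Zc.2 ⟨afn_mem α hz.1, fun g hg => ?_⟩
  have hg' := afn_afn_inv α hg
  rw [← hg', ← hm.map_mul (afn_mem _ hg) hz.1, ← hm.map_mul hz.1 (afn_mem _ hg),
    (mem_Zc.1 hz).2 _ (afn_mem _ hg)]

theorem Z_inv_center (hPS : P ≤ S) (hZP : Zc S ≤ P) (hcen : ∀ u ∈ P, (∀ v ∈ P, u * v = v * u) → u ∈ Zc S)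
    {α : MulAut P} (hα : α ∈ F.autGroup P) {z : Ω} (hz : z ∈ Zc S) : afn α z ∈ Zc S := by
  have hm := Maps_of_mem_autGroup hPS hα
  apply hcen _ (afn_mem α (hZP hz))
  intro v hv
  have hv' := afn_afn_inv α hv
  rw [← hv', ← hm.map_mul (hZP hz) (afn_mem _ hv), ← hm.map_mul (afn_mem _ hv) (hZP hz),
    ← (mem_Zc.1 hz).2 _ (hPS (afn_mem _ hv))]

theorem img_eq_of_inv (hPS : P ≤ S) {Y : Subgroup Ω} (hYP : Y ≤ P) {α : MulAut P} (hα : α ∈ F.autGroup P)
    (h : ∀ y ∈ Y, afn α y ∈ Y) : img (afn α) Y = Y :=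
  img_eq_of_card ((Maps_of_mem_autGroup hPS hα).restrict hYP) (hYP.trans hPS) (hYP.trans hPS) h le_rfl

/-- Restricting to `Z(S)` an automorphism of `P` that stabilizes it. -/
theorem exists_res (hPS : P ≤ S) (hZP : Zc S ≤ P) {α : MulAut P} (hα : α ∈ F.autGroup P)
    (h : ∀ z ∈ Zc S, afn α z ∈ Zc S) :
    ∃ γ : MulAut (Zc S), γ ∈ F.autGroup (Zc S) ∧ ∀ z ∈ Zc S, afn γ z = afn α z := by
  have hm := (Maps_of_mem_autGroup hPS hα).restrict hZP
  have himg : img (afn α) (Zc S) = Zc S := img_eq_of_card hm (Zc_le S) (Zc_le S) h le_rfl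
  exact ⟨hm.toAut himg, hm.toAut_mem himg, fun z hz => hm.afn_toAut himg hz⟩

theorem lcs_ne_bot (h : AbIdx S A p) (hZc : Nat.card (Zc S) = p) (hD : ((Zc S).subgroupOf (Dc S A)).index = p) (n : ℕ)
    (hn : Nat.card S = p ^ n) (h3 : 3 ≤ n) : S.lowerCentralSeries (n - 2) ≠ ⊥ := by
  intro hbot
  obtain ⟨c, hc, hcA⟩ := h.ne
  haveI : Finite A := Finite.of_injective (Subgroup.inclusion h.le) (Subgroup.inclusion_injective h.le)
  have htop : h.NN hc (n - 3) = ⊤ := by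
    rw [eq_top_iff]
    intro a _
    refine (h.mem_NN hc _ a).2 ?_
    refine (h.dd_ker hc hcA _).1 ?_
    have h1 := h.iter_mem_lcs hc (n - 2) a
    rw [hbot] at h1
    have e : n - 2 = (n - 3) + 1 := by omega
    rw [e, Function.iterate_succ_apply'] at h1
    exact Subtype.ext (Subgroup.mem_bot.1 h1)
  have hcard := h.card_NN_le hc hcA hD (n - 3)
  rw [htop, hZc] at hcard
  have h1 : Nat.card (⊤ : Subgroup ↥A) = Nat.card A := Nat.card_congr Subgroup.topEquiv.toEquiv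
  rw [h1] at hcard
  have e3 := Subgroup.relIndex_mul_relIndex (⊥ : Subgroup Ω) _ _ (bot_le (a := A)) h.le
  have hs : A.relIndex S = p := h.idx
  rw [Subgroup.relIndex_bot_left, Subgroup.relIndex_bot_left, hs, hn] at e3
  have hp := (Fact.out : p.Prime)
  have h4 : Nat.card A = p ^ (n - 1) := by
    obtain ⟨k, rfl⟩ : ∃ k, n = k + 1 := ⟨n - 1, by omega⟩
    rw [pow_succ] at e3
    exact Nat.eq_of_mul_eq_mul_right hp.pos e3
  rw [h4, ← pow_succ] at hcard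
  have h5 := (Nat.pow_le_pow_iff_right hp.one_lt).1 hcard
  omega

end Aux

/-- Let p be an odd prime, S a finite nonabelian p-group with a unique abelian subgroup A of index p, and F a saturated fusion system over S with no nontrivial normal subgroup (O_p(F) = 1) in which A is not F-essential. Then some subgroup Z(S)⟨x⟩ with x ∈ S outside A is F-essential, the centre Z(S) is contained in the commutator subgroup of S, and S has maximal nilpotency class (if S has order pⁿ with n ≥ 3, the term of index n − 2 of its lower central series, counting S itself as the term of index 0, is nontrivial). -/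
theorem result {Ω : Type*} [Group Ω] {S : Subgroup Ω} [Finite S] (p : ℕ) [Fact p.Prime] (hS : IsPGroup p S) (F : Cfsg.FusionSystem S) (hF : F.IsSaturated p) (hp : p ≠ 2) (hna : ¬ IsMulCommutative ↥S) (A : Subgroup Ω) (hA : A ≤ S ∧ IsMulCommutative ↥A ∧ (A.subgroupOf S).index = p) (huniq : ∀ B : Subgroup Ω, B ≤ S → IsMulCommutative ↥B → (B.subgroupOf S).index = p → B = A) (hcore : F.core = ⊥) (hAe : ¬ F.IsEssential p A) : (∃ x ∈ S, x ∉ A ∧ F.IsEssential p ((S ⊓ Subgroup.centralizer (S : Set Ω)) ⊔ Subgroup.zpowers x)) ∧ (S ⊓ Subgroup.centralizer (S : Set Ω)) ≤ (commutator ↥S).map S.subtype ∧ ∀ n : ℕ, Nat.card S = p ^ n → 3 ≤ n → Subgroup.lowerCentralSeries S (n - 2) ≠ ⊥ := by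
  have h := AbIdx.of hS hna hA
  have hess : ∀ P, F.IsEssential p P → P ≠ A := fun P hP e => hAe (e ▸ hP)
  have hZS := Zc_le S
  have hnormcore : ∀ Y : Subgroup Ω, F.IsNormal Y → Y = ⊥ := by
    intro Y hY
    have : Y ≤ F.core := le_sSup hY
    rw [hcore] at this
    exact le_bot_iff.1 this
  -- the essential subgroups which are nonabelian have centre `Z(S)`
  have hnon : ∀ P, F.IsEssential p P → (∃ u ∈ P, ∃ v ∈ P, u * v ≠ v * u) →
      ∀ α ∈ F.autGroup P, ∀ z ∈ Zc S, afn α z ∈ Zc S := by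
    intro P hP hnab α hα z hz
    obtain ⟨x, hx, hxA⟩ := exists_out h hP.1 (hess P hP)
    obtain ⟨-, -, -, hcen⟩ := nonabelian_case h hF hP hx hxA hnab
    exact Z_inv_center hP.1.1 (Zc_le_of_centric hP.1) hcen hα hz
  -- the existence of an abelian essential subgroup
  obtain ⟨P₀, x₀, hP₀, hx₀, hx₀A, hP₀c⟩ : ∃ P x, F.IsEssential p P ∧ x ∈ P ∧ x ∉ A ∧ ∀ u ∈ P, ∀ v ∈ P, u * v = v * u := by
    by_contra hcon
    push Not at hcon
    have hZn : F.IsNormal (Zc S) := by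
      apply isNormal_of_AG hS hF
      rintro P (rfl | hP)
      · refine ⟨hZS, fun α hα => img_eq_of_inv le_rfl hZS hα (fun y hy => Z_inv_S hα hy)⟩
      · obtain ⟨x, hx, hxA⟩ := exists_out h hP.1 (hess P hP)
        have hnab := hcon P x hP hx hxA
        refine ⟨Zc_le_of_centric hP.1, fun α hα =>
          img_eq_of_inv hP.1.1 (Zc_le_of_centric hP.1) hα (fun y hy => hnon P hP hnab α hα y hy)⟩
    have hZb := hnormcore _ hZn
    -- a nontrivial `p`-group has a nontrivial centre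
    have hnt : Nontrivial ↥S := by
      obtain ⟨u, hu, v, hv, huv⟩ := h.nab
      refine ⟨⟨⟨u, hu⟩, ⟨v, hv⟩, fun e => ?_⟩⟩
      have e1 : u = v := congrArg Subtype.val e
      exact huv (by rw [e1])
    haveI := hS.center_nontrivial
    obtain ⟨⟨z, hz⟩, hz1⟩ := exists_ne (1 : Subgroup.center ↥S)
    have hz' : (z : Ω) ∈ Zc S := by
      refine mem_Zc.2 ⟨z.2, fun g hg => ?_⟩
      have := Subgroup.mem_center_iff.1 hz ⟨g, hg⟩
      exact congrArg Subtype.val this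
    rw [hZb] at hz'
    apply hz1
    exact Subtype.ext (Subtype.ext (Subgroup.mem_bot.1 hz'))
  -- data
  have hD := D_index h hF hP₀ (hess P₀ hP₀)
  obtain ⟨c, hc, hcA⟩ := h.ne
  have hLc : Nat.card (Lc S) = p := by
    rw [h.card_inf hc hcA]
    exact hD
  have hP₀S : P₀ ≤ S := hP₀.1.1
  haveI := finite_of_le hP₀S
  obtain ⟨hBZ₀, hi₀, -, hT₀⟩ := abelian_case h hF hP₀ hx₀ hx₀A hP₀c
  have hZP₀ : Zc S ≤ P₀ := Zc_le_of_centric hP₀.1
  obtain ⟨g₀, hg₀, hg₀P⟩ := exists_outside hS hF hP₀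
  obtain ⟨α₀, hα₀, z₀, hz₀, hmv₀⟩ := exists_move hS hP₀ hZP₀ hg₀ hg₀P (hT₀.one g₀ hg₀) (hT₀.two g₀ hg₀)
  obtain ⟨β₀, hβ₀, hfix₀⟩ := exists_T h hF hp hP₀ hx₀ hx₀A hP₀c hLc hα₀ hz₀ hmv₀
  -- the group of fixed points
  set Y : Subgroup Ω := Zc S ⊓ img (afn α₀) (Zc S) with hY
  have hYZ : Y ≤ Zc S := inf_le_left
  have hYfix : ∀ y ∈ Zc S, y ∈ Y ↔ afn β₀ y = y := by
    intro y hy
    rw [hfix₀ y hy]
    exact ⟨fun h1 => h1.2, fun h1 => ⟨hy, h1⟩⟩
  -- invariance under automorphisms which stabilize the centre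
  have hinv1 : ∀ P, P ≤ S → Zc S ≤ P → ∀ α ∈ F.autGroup P, (∀ z ∈ Zc S, afn α z ∈ Zc S) → ∀ y ∈ Y, afn α y ∈ Y := by
    intro P hPS hZP α hα hst y hy
    obtain ⟨γ, hγ, hγα⟩ := exists_res hPS hZP hα hst
    rw [← hγα y (hYZ hy)]
    refine (hYfix _ (afn_mem γ (hYZ hy))).2 ?_
    exact hβ₀.fix_aut hS hF hp hγ (hYZ hy) ((hYfix y (hYZ hy)).1 hy)
  have hinv : ∀ P, F.IsEssential p P → ∀ α ∈ F.autGroup P, ∀ y ∈ Y, afn α y ∈ Y := by
    intro P hP α hα y hy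
    have hPS := hP.1.1
    haveI := finite_of_le hPS
    have hZP := Zc_le_of_centric hP.1
    by_cases hPc : ∀ u ∈ P, ∀ v ∈ P, u * v = v * u
    · by_cases hst : ∀ z ∈ Zc S, afn α z ∈ Zc S
      · exact hinv1 P hPS hZP α hα hst y hy
      · push Not at hst
        obtain ⟨z₁, hz₁, hz₁'⟩ := hst
        obtain ⟨x, hx, hxA⟩ := exists_out h hP.1 (hess P hP)
        obtain ⟨β₁, hβ₁, hfix₁⟩ := exists_T h hF hp hP hx hxA hPc hLc hα hz₁ hz₁'
        -- `α⁻¹` also moves `Z`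
        have hst' : ¬ ∀ z ∈ Zc S, afn α⁻¹ z ∈ Zc S := by
          intro hcon
          obtain ⟨z', hz', e⟩ := exists_pre_of_stab hZP hPS hcon hz₁
          apply hz₁'
          rw [← e, afn_afn_inv α (hZP hz')]
          exact hz'
        push Not at hst'
        obtain ⟨z₂, hz₂, hz₂'⟩ := hst'
        obtain ⟨β₂, hβ₂, hfix₂⟩ := exists_T h hF hp hP hx hxA hPc hLc (Subgroup.inv_mem _ hα) hz₂ hz₂'
        have hm := Maps_of_mem_autGroup hPS hα
        have hmi := Maps_of_mem_autGroup hPS (Subgroup.inv_mem _ hα)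
        have hyZ := hYZ hy
        have hy0 := (hYfix y hyZ).1 hy
        -- `y ∈ α⁻¹(Z)`
        have hy2 := (hfix₂ y hyZ).1 (hβ₀.fix_eq hS hF hp hβ₂ hyZ hy0)
        obtain ⟨z₃, hz₃, e₃⟩ := (hmi.restrict hZP).mem_img.1 hy2
        have hαy : afn α y ∈ Zc S := by
          rw [← e₃, afn_afn_inv α (hZP hz₃)]
          exact hz₃
        refine (hYfix _ hαy).2 ?_
        apply hβ₁.fix_eq hS hF hp hβ₀ hαy
        refine (hfix₁ _ hαy).2 ?_
        exact (hm.restrict hZP).mem_img_of_mem hyZ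
    · push Not at hPc
      exact hinv1 P hPS hZP α hα (hnon P hP hPc α hα) y hy
  have hYn : F.IsNormal Y := by
    apply isNormal_of_AG hS hF
    rintro P (rfl | hP)
    · exact ⟨hYZ.trans hZS, fun α hα => img_eq_of_inv le_rfl (hYZ.trans hZS) hα
        (hinv1 _ le_rfl hZS α hα (fun z hz => Z_inv_S hα hz))⟩
    · have hle : Y ≤ P := hYZ.trans (Zc_le_of_centric hP.1)
      exact ⟨hle, fun α hα => img_eq_of_inv hP.1.1 hle hα (hinv P hP α hα)⟩
  have hYb : Y = ⊥ := hnormcore Y hYn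
  -- hence `Z ≤ L`
  have hZL : Zc S ≤ Lc S := by
    intro z hz
    set ℓ := z⁻¹ * afn β₀ z with hℓ
    have hℓL : ℓ ∈ Lc S := hβ₀.quo z hz
    have hℓZ : ℓ ∈ Zc S := Lc_le_Zc hℓL
    have hℓp : ℓ ^ p = 1 := pow_card_of_card hLc hℓL
    obtain ⟨m, hm⟩ : ∃ m, 2 * m = p + 1 := by
      have hodd : Odd p := (Fact.out : p.Prime).odd_of_ne_two hp
      obtain ⟨k, hk⟩ := hodd
      exact ⟨k + 1, by omega⟩
    have hmap := Maps_of_mem_autGroup hZS hβ₀.mem
    have hbz : afn β₀ z = z * ℓ := by rw [hℓ]; group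
    have hfixy : afn β₀ (z * ℓ ^ m) = z * ℓ ^ m := by
      rw [hmap.map_mul hz ((Zc S).pow_mem hℓZ m), hmap.map_pow hℓZ, hβ₀.inv ℓ hℓL, hbz, inv_pow]
      have e1 : ℓ ^ m * ℓ ^ m = ℓ := by
        rw [← pow_add, ← two_mul, hm, pow_succ, hℓp, one_mul]
      have e2 : ℓ * (ℓ ^ m)⁻¹ = ℓ ^ m := by
        nth_rw 1 [← e1]
        group
      rw [mul_assoc, e2]
    have hyY : z * ℓ ^ m ∈ Y := (hYfix _ ((Zc S).mul_mem hz ((Zc S).pow_mem hℓZ m))).2 hfixy
    rw [hYb] at hyY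
    have e3 : z = (ℓ ^ m)⁻¹ := eq_inv_of_mul_eq_one_left (Subgroup.mem_bot.1 hyY)
    rw [e3]
    exact (Lc S).inv_mem ((Lc S).pow_mem hℓL m)
  have hZcard : Nat.card (Zc S) = p := by
    have : Zc S = Lc S := le_antisymm hZL Lc_le_Zc
    rw [this]
    exact hLc
  refine ⟨⟨x₀, hP₀S hx₀, hx₀A, ?_⟩, fun z hz => (hZL hz).2, fun n hn h3 => lcs_ne_bot h hZcard hD n hn h3⟩
  have hZi : ((Zc S).subgroupOf P₀).index = p := by
    rw [← hBZ₀]
    exact inf_index h hP₀S hx₀ hx₀A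
  have := eq_sup_zpowers (hS.to_le hP₀S) hZP₀ hZi hx₀ (fun h1 => hx₀A (h.Z_le h1))
  rw [← this]
  exact hP₀
end Cfsg.Agent.S5244
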