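import Mathlib
import Cfsg.Agent.Lib.FusionNormal
import Cfsg.Agent.Lib.FusionAutSys
import Cfsg.Agent.Lib.PResid
import Cfsg.Statements.S5245

set_option autoImplicit false
open Cfsg

namespace Cfsg.Agent.S5245

open Cfsg.FusionSystem
open Cfsg.Agent.Lib.FusionAlperin Cfsg.Agent.Lib.FusionNormal Cfsg.Agent.Lib.FusionAutSys

section Aux

variable {Ω₀ : Type*} [Group Ω₀] {S₀ : Subgroup Ω₀} {F₀ : Cfsg.FusionSystem S₀} {p₀ : ℕ} [Fact p₀.Prime]

/-- `Inn(Q) ⊔ ⟨β⟩` consists of elements of `Aut_F(Q)`. -/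
theorem sup_le_autGroup {Q : Subgroup Ω₀} (hQS : Q ≤ S₀) {β : MulAut Q} (hβ : β ∈ F₀.autGroup Q) :
    Cfsg.Inn Q ⊔ Subgroup.zpowers β ≤ F₀.autGroup Q := by
  refine sup_le ?_ ?_
  · rintro _ ⟨g, rfl⟩
    rw [mem_autGroup_iff hQS]
    have : Q.subtype.comp (MulAut.conj g).toMonoidHom = Cfsg.conjHom Q (g : Ω₀) := MonoidHom.ext fun x => rfl
    rw [this]
    exact F₀.conj_mem hQS (hQS g.2)
  · rwa [Subgroup.zpowers_le]

omit [Fact p₀.Prime] in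
/-- A nontrivial element of order prime to `p` is not inner. -/
theorem not_inner {Q : Subgroup Ω₀} (hQ : IsPGroup p₀ Q) {β : MulAut Q} {m : ℕ} (hm : m.Coprime p₀)
    (hβm : β ^ m = 1) (hne : β ≠ 1) (g : Q) : β ≠ MulAut.conj g := by
  rintro rfl
  obtain ⟨k, hk⟩ := hQ g
  have h1 : (MulAut.conj g) ^ p₀ ^ k = 1 := by
    rw [← map_pow, hk, map_one]
  apply hne
  have h2 := orderOf_dvd_of_pow_eq_one h1
  have h3 := orderOf_dvd_of_pow_eq_one hβm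
  have h4 : Nat.Coprime m (p₀ ^ k) := Nat.Coprime.pow_right k hm
  have h5 := Nat.Coprime.eq_one_of_dvd (Nat.Coprime.coprime_dvd_left h3 h4) h2
  exact orderOf_eq_one_iff.mp h5

/-- The main step: `Q` must be `S` and the system the one given by `Inn(Q) ⊔ ⟨β⟩`. -/
theorem key_step [Finite S₀] (hS : IsPGroup p₀ S₀)
    (hxs2 : ∀ (T : Subgroup Ω₀) (E : Cfsg.FusionSystem T), E.IsSaturated p₀ → E.IsSubsystemOf F₀ →
      (T = S₀ ∧ ∀ P : Subgroup Ω₀, E.Hom P = F₀.Hom P) ∨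
        (∀ P : Subgroup Ω₀, E.Hom P = (Cfsg.innerFusionSystem T).Hom P))
    {Q : Subgroup Ω₀} (hQS : Q ≤ S₀) {β : MulAut Q} (hβ : β ∈ F₀.autGroup Q) {m : ℕ} (hm : m.Coprime p₀)
    (hβm : β ^ m = 1) (hne : β ≠ 1) :
    Q = S₀ ∧ ∀ (P : Subgroup Ω₀) (φ : P →* Ω₀), φ ∈ F₀.Hom P →
      ∃ h : P ≤ Q, ∃ b ∈ Cfsg.Inn Q ⊔ Subgroup.zpowers β, ∀ x : P, φ x = ((b ⟨x, h x.2⟩ : Q) : Ω₀) := by
  have hfQ : Finite Q := finite_of_le hQS
  have hQp : IsPGroup p₀ Q := hS.to_le hQS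
  let D := Cfsg.Inn Q ⊔ Subgroup.zpowers β
  have hD : Cfsg.Inn Q ≤ D := le_sup_left
  let E := autSystem Q D hD
  have hsat : E.IsSaturated p₀ := autSystem_isSaturated hQp hm (pow_mem_inn_of_sup hβm)
  have hDF := sup_le_autGroup (F₀ := F₀) hQS hβ
  have hsub : E.IsSubsystemOf F₀ := by
    rintro P φ ⟨h, b, hb, hφ⟩
    have h1 := (mem_autGroup_iff hQS).mp (hDF hb)
    exact of_restrict h1 h (fun x => hφ x)
  rcases hxs2 Q E hsat hsub with ⟨hQ, hE⟩ | hinn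
  · refine ⟨hQ, fun P φ hφ => ?_⟩
    rw [← hE P] at hφ
    exact hφ
  · exfalso
    have h1 : Q.subtype.comp β.toMonoidHom ∈ E.Hom Q :=
      ⟨le_rfl, β, (le_sup_right : Subgroup.zpowers β ≤ D) (Subgroup.mem_zpowers β), fun x => rfl⟩
    rw [hinn Q] at h1
    obtain ⟨_, g, hg, hgφ⟩ := h1
    apply not_inner hQp hm hβm hne ⟨g, hg⟩
    ext x
    exact hgφ x

/-- The conclusion, once `Q = S`. -/
theorem main_of [Finite S₀] (hS : IsPGroup p₀ S₀)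
    (hxs2 : ∀ (T : Subgroup Ω₀) (E : Cfsg.FusionSystem T), E.IsSaturated p₀ → E.IsSubsystemOf F₀ →
      (T = S₀ ∧ ∀ P : Subgroup Ω₀, E.Hom P = F₀.Hom P) ∨
        (∀ P : Subgroup Ω₀, E.Hom P = (Cfsg.innerFusionSystem T).Hom P))
    {β : MulAut S₀} (hβ : β ∈ F₀.autGroup S₀) {q : ℕ} (hq : q.Prime) (hqp : q ≠ p₀) (ho : orderOf β = q)
    (hmaps : ∀ (P : Subgroup Ω₀) (φ : P →* Ω₀), φ ∈ F₀.Hom P →
      ∃ h : P ≤ S₀, ∃ b ∈ Cfsg.Inn S₀ ⊔ Subgroup.zpowers β, ∀ x : P, φ x = ((b ⟨x, h x.2⟩ : S₀) : Ω₀)) :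
    F₀.IsNormal S₀ ∧ F₀.focalSubgroup = S₀ ∧ F₀.hyperfocalSubgroup p₀ = S₀ ∧
      ∃ (q : ℕ) (β : MulAut ↥S₀), q.Prime ∧ q ≠ p₀ ∧ β ∈ F₀.autGroup S₀ ∧ orderOf β = q ∧
        (F₀.autGroup S₀ : Subgroup (MulAut ↥S₀)) = Cfsg.Inn ↥S₀ ⊔ Subgroup.zpowers β := by
  have hcop : q.Coprime p₀ := (Nat.coprime_primes hq Fact.out).mpr hqp
  have hDF := sup_le_autGroup (F₀ := F₀) le_rfl hβ
  have hβq : β ^ q = 1 := by rw [← ho]; exact pow_orderOf_eq_one β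
  -- the subgroup `[S, β]`
  let H₀ : Subgroup Ω₀ := Subgroup.closure {y | ∃ x : S₀, y = (x : Ω₀)⁻¹ * ((β x : S₀) : Ω₀)}
  have hH₀S : H₀ ≤ S₀ := by
    rw [Subgroup.closure_le]
    rintro _ ⟨x, rfl⟩
    exact S₀.mul_mem (S₀.inv_mem x.2) (β x).2
  have hgen : ∀ x : S₀, (x : Ω₀)⁻¹ * ((β x : S₀) : Ω₀) ∈ H₀ := fun x => Subgroup.subset_closure ⟨x, rfl⟩
  have hinv : ∀ y ∈ H₀, ∃ h : y ∈ S₀, ((β ⟨y, h⟩ : S₀) : Ω₀) ∈ H₀ := by
    intro y hy
    induction hy using Subgroup.closure_induction with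
    | mem y hy =>
      obtain ⟨x, rfl⟩ := hy
      refine ⟨S₀.mul_mem (S₀.inv_mem x.2) (β x).2, ?_⟩
      have h1 := hgen (β x)
      have h2 : (⟨(x : Ω₀)⁻¹ * ((β x : S₀) : Ω₀), S₀.mul_mem (S₀.inv_mem x.2) (β x).2⟩ : S₀) = x⁻¹ * β x := rfl
      rw [h2, map_mul, map_inv]
      exact h1
    | one =>
      refine ⟨S₀.one_mem, ?_⟩
      have : (⟨1, S₀.one_mem⟩ : S₀) = 1 := rfl
      rw [this, map_one]
      exact H₀.one_mem
    | mul a b _ _ ha hb =>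
      obtain ⟨ha1, ha2⟩ := ha
      obtain ⟨hb1, hb2⟩ := hb
      refine ⟨S₀.mul_mem ha1 hb1, ?_⟩
      have : (⟨a * b, S₀.mul_mem ha1 hb1⟩ : S₀) = ⟨a, ha1⟩ * ⟨b, hb1⟩ := rfl
      rw [this, map_mul]
      exact H₀.mul_mem ha2 hb2
    | inv a _ ha =>
      obtain ⟨ha1, ha2⟩ := ha
      refine ⟨S₀.inv_mem ha1, ?_⟩
      have : (⟨a⁻¹, S₀.inv_mem ha1⟩ : S₀) = ⟨a, ha1⟩⁻¹ := rfl
      rw [this, map_inv]
      exact H₀.inv_mem ha2
  -- the restriction of `β` to `H₀`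
  have hβH : S₀.subtype.comp β.toMonoidHom ∈ F₀.Hom S₀ := (mem_autGroup_iff le_rfl).mp hβ
  let φ₀ : H₀ →* Ω₀ := (S₀.subtype.comp β.toMonoidHom).comp (Subgroup.inclusion hH₀S)
  have hφ₀ : φ₀ ∈ F₀.Hom H₀ := restrict_mem hβH hH₀S
  have hfH : Finite H₀ := finite_of_le hH₀S
  have hr : φ₀.range = H₀ := by
    refine eq_of_le_of_card_eq ?_ (card_range_of_mem hφ₀).symm.le
    rintro _ ⟨y, rfl⟩
    exact (hinv y y.2).2
  let β₀ : MulAut H₀ := autOfHom φ₀ (hom_inj hφ₀) hr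
  have hβ₀F : β₀ ∈ F₀.autGroup H₀ := autOfHom_mem hφ₀ hr
  have hβ₀v : ∀ y : H₀, ((β₀ y : H₀) : Ω₀) = ((β (Subgroup.inclusion hH₀S y) : S₀) : Ω₀) := fun y => rfl
  have hpowv : ∀ n : ℕ, ∀ y : H₀, (((β₀ ^ n) y : H₀) : Ω₀) = (((β ^ n) (Subgroup.inclusion hH₀S y) : S₀) : Ω₀) := by
    intro n
    induction n with
    | zero => intro y; rfl
    | succ n ih =>
      intro y
      rw [pow_succ, pow_succ]
      show (((β₀ ^ n) (β₀ y) : H₀) : Ω₀) = (((β ^ n) (β (Subgroup.inclusion hH₀S y)) : S₀) : Ω₀)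
      rw [ih]
      congr 2
  have hβ₀q : β₀ ^ q = 1 := by
    ext y
    rw [hpowv, hβq]
    rfl
  have hβne : β ≠ 1 := by
    intro h
    rw [h, orderOf_one] at ho
    exact hq.one_lt.ne ho
  have hβ₀ne : β₀ ≠ 1 := by
    intro h1
    apply hβne
    ext x
    set z : H₀ := ⟨_, hgen x⟩ with hz
    have hfix : ((β (Subgroup.inclusion hH₀S z) : S₀) : Ω₀) = z := by
      rw [← hβ₀v, h1]
      rfl
    set w : S₀ := Subgroup.inclusion hH₀S z with hw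
    have hβw : β w = w := Subtype.ext hfix
    have hβx : β x = x * w := by
      apply Subtype.ext
      show ((β x : S₀) : Ω₀) = (x : Ω₀) * ((x : Ω₀)⁻¹ * ((β x : S₀) : Ω₀))
      group
    have hpowx : ∀ n : ℕ, (β ^ n) x = x * w ^ n := by
      intro n
      induction n with
      | zero => simp
      | succ n ih =>
        rw [pow_succ', MulAut.mul_apply, ih, map_mul, hβx, map_pow, hβw, pow_succ']
        group
    have h2 := hpowx q
    rw [hβq] at h2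
    have h3 : w ^ q = 1 := by
      have h4 : x = x * w ^ q := h2
      simpa using h4.symm
    obtain ⟨k, hk⟩ := hS w
    have h4 : w = 1 := by
      have h5 := orderOf_dvd_of_pow_eq_one h3
      have h6 := orderOf_dvd_of_pow_eq_one hk
      have h7 : Nat.Coprime q (p₀ ^ k) := Nat.Coprime.pow_right k hcop
      have h8 := Nat.Coprime.eq_one_of_dvd (Nat.Coprime.coprime_dvd_left h5 h7) h6
      exact orderOf_eq_one_iff.mp h8
    rw [hβx, h4, mul_one]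
    rfl
  obtain ⟨hH₀, -⟩ := key_step hS hxs2 hH₀S hβ₀F hcop hβ₀q hβ₀ne
  -- focal and hyperfocal subgroups
  have hcl1 : H₀ ≤ F₀.hyperfocalSubgroup p₀ := by
    rw [Subgroup.closure_le]
    rintro _ ⟨x, rfl⟩
    refine Subgroup.subset_closure ⟨S₀, ⟨β, hβ⟩, x, le_rfl, ?_, rfl⟩
    apply Cfsg.Agent.Lib.PResid.mem_pResidual_of_coprime
    rw [Subgroup.orderOf_mk, ho]
    exact hcop
  have hcl2 : F₀.hyperfocalSubgroup p₀ ≤ F₀.focalSubgroup := by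
    apply Subgroup.closure_mono
    rintro y ⟨P, α, x, hP, -, rfl⟩
    exact ⟨P, P.subtype.comp (α : MulAut P).toMonoidHom, x, (mem_autGroup_iff hP).mp α.2, rfl⟩
  have hcl3 : F₀.focalSubgroup ≤ S₀ := by
    rw [focalSubgroup, Subgroup.closure_le]
    rintro y ⟨P, φ, x, hφ, rfl⟩
    exact S₀.mul_mem (S₀.inv_mem (hom_le hφ x.2)) (hom_val hφ x)
  have hfoc : F₀.focalSubgroup = S₀ := le_antisymm hcl3 (hH₀.symm.le.trans (hcl1.trans hcl2))
  have hhyp : F₀.hyperfocalSubgroup p₀ = S₀ :=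
    le_antisymm (hcl2.trans hcl3) (hH₀.symm.le.trans hcl1)
  refine ⟨⟨le_rfl, ?_⟩, hfoc, hhyp, q, β, hq, hqp, hβ, ho, ?_⟩
  · -- normality of `S`
    intro P φ hφ
    obtain ⟨h, b, hb, hφb⟩ := hmaps P φ hφ
    have hle : P ⊔ S₀ ≤ S₀ := sup_le h le_rfl
    have hbF := (mem_autGroup_iff le_rfl).mp (hDF hb)
    refine ⟨(S₀.subtype.comp b.toMonoidHom).comp (Subgroup.inclusion hle), restrict_mem hbF hle, ?_, ?_⟩
    · intro x
      rw [hφb]
      rfl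
    · apply le_antisymm
      · rintro _ ⟨z, -, rfl⟩
        exact (b _).2
      · intro y hy
        refine ⟨⟨((b⁻¹ ⟨y, hy⟩ : S₀) : Ω₀), (le_sup_right : S₀ ≤ P ⊔ S₀) (b⁻¹ ⟨y, hy⟩).2⟩,
          Subgroup.mem_subgroupOf.mpr (b⁻¹ ⟨y, hy⟩).2, ?_⟩
        show ((b (Subgroup.inclusion hle ⟨((b⁻¹ ⟨y, hy⟩ : S₀) : Ω₀), _⟩) : S₀) : Ω₀) = y
        have : Subgroup.inclusion hle ⟨((b⁻¹ ⟨y, hy⟩ : S₀) : Ω₀), (le_sup_right : S₀ ≤ P ⊔ S₀) (b⁻¹ ⟨y, hy⟩).2⟩ =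
            b⁻¹ ⟨y, hy⟩ := rfl
        rw [this]
        simp
  · apply le_antisymm _ hDF
    intro α hα
    have h1 := (mem_autGroup_iff le_rfl).mp hα
    obtain ⟨_, b, hb, hbα⟩ := hmaps S₀ _ h1
    have : α = b := by
      ext x
      exact hbα x
    rwa [this]

end Aux

/-- Let F be an extremely sparse fusion system over a finite p-group S (saturated, not the inner system, and every saturated fusion system over any subgroup T of S contained in F is F itself or the inner system of T). Then S is normal in F, the focal and hyperfocal subgroups of F are both S, and Aut_F(S) is generated by the inner automorphisms of S together with a single automorphism of prime order q ≠ p (F is the fusion system of the semidirect product of S by a cyclic group of prime order). -/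
theorem result {Ω : Type*} [Group Ω] {S : Subgroup Ω} [Finite S] (p : ℕ) [Fact p.Prime] (hS : IsPGroup p S) (F : Cfsg.FusionSystem S) (hF : F.IsSaturated p) (hxs : ¬ (∀ P : Subgroup Ω, F.Hom P = (Cfsg.innerFusionSystem S).Hom P) ∧ ∀ (T : Subgroup Ω) (E : Cfsg.FusionSystem T), E.IsSaturated p → E.IsSubsystemOf F → (T = S ∧ ∀ P : Subgroup Ω, E.Hom P = F.Hom P) ∨ (∀ P : Subgroup Ω, E.Hom P = (Cfsg.innerFusionSystem T).Hom P)) : F.IsNormal S ∧ F.focalSubgroup = S ∧ F.hyperfocalSubgroup p = S ∧ ∃ (q : ℕ) (β : MulAut ↥S), q.Prime ∧ q ≠ p ∧ β ∈ F.autGroup S ∧ orderOf β = q ∧ (F.autGroup S : Subgroup (MulAut ↥S)) = Cfsg.Inn ↥S ⊔ Subgroup.zpowers β := by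
  classical
  obtain ⟨hni, hxs2⟩ := hxs
  have hex : ∃ Q : Subgroup Ω, Q ≤ S ∧ ¬ IsPGroup p (F.autGroup Q) := by
    by_contra hcon
    push Not at hcon
    exact hni (frobenius_inner hS hF hcon)
  obtain ⟨Q, hQS, hQ⟩ := hex
  have hfQ : Finite Q := finite_of_le hQS
  have hfA : Finite (MulAut Q) := Cfsg.Agent.Lib.FusionSat.finite_mulAut
  -- an element of prime order `q ≠ p`
  have hex2 : ∃ q : ℕ, q.Prime ∧ q ≠ p ∧ q ∣ Nat.card (F.autGroup Q) := by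
    by_contra hcon
    push Not at hcon
    apply hQ
    have hn : Nat.card (F.autGroup Q) ≠ 0 := Nat.card_pos.ne'
    have h1 : Nat.card (F.autGroup Q) = p ^ (Nat.card (F.autGroup Q)).primeFactorsList.length :=
      Nat.eq_prime_pow_of_unique_prime_dvd hn (fun {d} hd hdv => by
        by_contra hne
        exact hcon d hd hne hdv)
    exact IsPGroup.of_card h1
  obtain ⟨q, hq, hqp, hqd⟩ := hex2
  have : Fact q.Prime := ⟨hq⟩
  obtain ⟨x, hx⟩ := exists_prime_orderOf_dvd_card' q hqd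
  have hxo : orderOf (x : MulAut Q) = q := by rw [Subgroup.orderOf_coe]; exact hx
  have hcop : q.Coprime p := (Nat.coprime_primes hq Fact.out).mpr hqp
  have hβq : (x : MulAut Q) ^ q = 1 := by rw [← hxo]; exact pow_orderOf_eq_one _
  have hβne : (x : MulAut Q) ≠ 1 := by
    intro h
    rw [h, orderOf_one] at hxo
    exact hq.one_lt.ne hxo
  obtain ⟨hQeq, hmaps⟩ := key_step hS hxs2 hQS x.2 hcop hβq hβne
  subst hQeq
  exact main_of hS hxs2 x.2 hq hqp hxo hmaps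
end Cfsg.Agent.S5245
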