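import Mathlib
import Cfsg.Agent.Lib.FusionNormal
import Cfsg.Agent.Lib.FusionSat
import Cfsg.Agent.Lib.PCore
import Cfsg.Agent.Lib.CosetGraph2
import Cfsg.Statements.S5247

set_option autoImplicit false
open Cfsg

namespace Cfsg.Agent.S5247

open Cfsg.FusionSystem
open Cfsg.Agent.Lib.FusionAlperin Cfsg.Agent.Lib.FusionNormal

section Aux

variable {Ω₀ : Type*} [Group Ω₀] {S₀ : Subgroup Ω₀}

theorem pcore_congr {p₀ : ℕ} {Q : Type*} [Group Q] {D₁ D₂ : Subgroup (MulAut Q)} (h : D₁ = D₂) {x : MulAut Q}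
    (hx : x ∈ ((Cfsg.pCore p₀ ↥D₁).map D₁.subtype : Subgroup (MulAut Q))) :
    x ∈ ((Cfsg.pCore p₀ ↥D₂).map D₂.subtype : Subgroup (MulAut Q)) := by
  subst h
  exact hx

/-- A quadratic automorphism of a `p`-group has `p`-power order. -/
theorem pow_eq_one_of_quad {p₀ : ℕ} [Fact p₀.Prime] {Q : Type*} [Group Q] [Finite Q] (hQ : IsPGroup p₀ Q)
    (χ : MulAut Q) (h : ∀ a : Q, (χ a⁻¹) * a * (χ a⁻¹) * (χ (χ a)) = 1) :
    ∃ k : ℕ, χ ^ p₀ ^ k = 1 := by
  obtain ⟨k, hk⟩ := IsPGroup.iff_card.mp hQ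
  refine ⟨k, ?_⟩
  ext a
  set y := a⁻¹ * χ a with hy
  have hfix : χ y = y := by
    have h1 := h a
    rw [hy, map_mul, map_inv]
    rw [map_inv] at h1
    have h2 : a * (χ a)⁻¹ * χ (χ a) = χ a := by
      have e : a * (χ a)⁻¹ * χ (χ a) = χ a * ((χ a)⁻¹ * a * (χ a)⁻¹ * χ (χ a)) := by group
      rw [e, h1, mul_one]
    calc (χ a)⁻¹ * χ (χ a) = a⁻¹ * (a * (χ a)⁻¹ * χ (χ a)) := by group
      _ = a⁻¹ * χ a := by rw [h2]
  have hχa : χ a = a * y := by rw [hy]; group
  have hpow : ∀ n : ℕ, (χ ^ n) a = a * y ^ n := by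
    intro n
    induction n with
    | zero => simp
    | succ n ih =>
      rw [pow_succ', MulAut.mul_apply, ih, map_mul, hχa, map_pow, hfix, pow_succ']
      group
  rw [hpow]
  have : y ^ p₀ ^ k = 1 := by
    rw [← hk]
    exact pow_card_eq_one'
  rw [this, mul_one]
  rfl

variable {F₀ : Cfsg.FusionSystem S₀}

/-- Transport of `O_p` along an isomorphism of the system. -/
theorem mem_pCore_of_transport {p₀ : ℕ} {Q R : Subgroup Ω₀}
    {e : Q ≃* R} (he : Cfsg.Agent.Lib.FusionSat.IsFIso F₀ e) {χ : MulAut Q} (hχ : χ ∈ F₀.autGroup Q)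
    (h : MulAut.congr e χ ∈ ((Cfsg.pCore p₀ ↥(F₀.autGroup R)).map (F₀.autGroup R).subtype : Subgroup (MulAut R))) :
    χ ∈ ((Cfsg.pCore p₀ ↥(F₀.autGroup Q)).map (F₀.autGroup Q).subtype : Subgroup (MulAut Q)) := by
  let E : F₀.autGroup Q ≃* F₀.autGroup R :=
    { toFun := fun α => ⟨MulAut.congr e α, Cfsg.Agent.Lib.FusionSat.congr_mem_autGroup he α.2⟩
      invFun := fun α => ⟨MulAut.congr e.symm α, Cfsg.Agent.Lib.FusionSat.congr_mem_autGroup he.symm α.2⟩
      left_inv := fun α => by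
        apply Subtype.ext
        ext x
        simp [Cfsg.Agent.Lib.FusionSat.congr_apply]
      right_inv := fun α => by
        apply Subtype.ext
        ext x
        simp [Cfsg.Agent.Lib.FusionSat.congr_apply]
      map_mul' := fun a b => by
        apply Subtype.ext
        exact map_mul (MulAut.congr e) _ _ }
  obtain ⟨β, hβ, hβe⟩ := h
  have h1 : E ⟨χ, hχ⟩ = β := by
    apply Subtype.ext
    exact hβe.symm
  have h2 := (Cfsg.Agent.Lib.CosetGraph2.mem_pCore_equiv_iff p₀ E ⟨χ, hχ⟩).mp (by rw [h1]; exact hβ)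
  exact ⟨⟨χ, hχ⟩, h2, rfl⟩

end Aux

/-- Let p be an odd prime and F a saturated fusion system over a finite p-group S. Call a fusion system E (over any subgroup) p-stable when, for every fully E-normalized subgroup Q and every χ ∈ Aut_E(Q) with χ(a⁻¹)·a·χ(a⁻¹)·χ(χ(a)) = 1 for all a ∈ Q (χ acts quadratically), χ lies in O_p(Aut_E(Q)). Then F is p-stable if and only if every normalizer fusion system N_F(R) of every non-cyclic fully F-normalized subgroup R of S is p-stable. -/
theorem result {Ω : Type*} [Group Ω] {S : Subgroup Ω} [Finite S] (p : ℕ) [Fact p.Prime] (hS : IsPGroup p S) (F : Cfsg.FusionSystem S) (hF : F.IsSaturated p) (hp : p ≠ 2) : (∀ Q : Subgroup Ω, F.IsFullyNormalized Q → ∀ χ : MulAut ↥Q, χ ∈ F.autGroup Q → (∀ a : ↥Q, (χ a⁻¹) * a * (χ a⁻¹) * (χ (χ a)) = 1) → χ ∈ ((Cfsg.pCore p ↥(F.autGroup Q)).map (F.autGroup Q).subtype : Subgroup (MulAut ↥Q))) ↔ ∀ R : Subgroup Ω, F.IsFullyNormalized R → ¬ IsCyclic ↥R → ∀ N : Cfsg.FusionSystem (Cfsg.FusionSystem.normalizerIn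 S R), F.IsNormalizerSystem R N → (∀ Q : Subgroup Ω, N.IsFullyNormalized Q → ∀ χ : MulAut ↥Q, χ ∈ N.autGroup Q → (∀ a : ↥Q, (χ a⁻¹) * a * (χ a⁻¹) * (χ (χ a)) = 1) → χ ∈ ((Cfsg.pCore p ↥(N.autGroup Q)).map (N.autGroup Q).subtype : Subgroup (MulAut ↥Q))) := by
  classical
  constructor
  · -- forward
    intro hst R _ _ N hN Q hQ χ hχ hquad
    have hQN : Q ≤ normalizerIn S R := hQ.1
    have hQS : Q ≤ S := hQN.trans inf_le_left
    have hsub : ∀ P, N.Hom P ⊆ F.Hom P := by
      intro P φ hφ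
      rw [hN P] at hφ
      exact hφ.1
    have hle : N.autGroup Q ≤ F.autGroup Q := by
      intro α hα
      rw [mem_autGroup_iff hQN] at hα
      rw [mem_autGroup_iff hQS]
      exact hsub Q hα
    have hχF := hle hχ
    -- a fully normalized conjugate
    obtain ⟨R', hQR', hfn⟩ := Cfsg.Agent.Lib.FusionSat.exists_fullyNormalized_conj (F := F) hQS
    obtain ⟨e, he⟩ := Cfsg.Agent.Lib.FusionSat.exists_iso_of_isConj hQR'
    have h1 : MulAut.congr e χ ∈ ((Cfsg.pCore p ↥(F.autGroup R')).map (F.autGroup R').subtype :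
        Subgroup (MulAut R')) := by
      refine hst R' hfn _ (Cfsg.Agent.Lib.FusionSat.congr_mem_autGroup he hχF) ?_
      intro a
      have h2 := hquad (e.symm a)
      have h3 := congrArg e h2
      rw [map_one] at h3
      simpa [Cfsg.Agent.Lib.FusionSat.congr_apply] using h3
    have h2 := mem_pCore_of_transport he hχF h1
    -- intersect with `Aut_N(Q)`
    obtain ⟨β, hβ, hβe⟩ := h2
    have hχβ : (β : MulAut Q) = χ := hβe
    let ι : N.autGroup Q →* F.autGroup Q := Subgroup.inclusion hle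
    have hιinj : Function.Injective ι := Subgroup.inclusion_injective hle
    have hK : ((Cfsg.pCore p ↥(F.autGroup Q)).comap ι) ≤ Cfsg.pCore p ↥(N.autGroup Q) := by
      apply Cfsg.Agent.Lib.PCore.le_pCore
      · exact Subgroup.Normal.comap inferInstance ι
      · have hfQ : Finite Q := finite_of_le hQS
        have hfA : Finite (MulAut Q) := Cfsg.Agent.Lib.FusionSat.finite_mulAut
        exact (Cfsg.Agent.Lib.PCore.isPGroup_pCore p).comap_of_injective _ hιinj
    refine ⟨⟨χ, hχ⟩, hK ?_, rfl⟩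
    show ι ⟨χ, hχ⟩ ∈ Cfsg.pCore p ↥(F.autGroup Q)
    have : ι ⟨χ, hχ⟩ = β := by
      apply Subtype.ext
      exact hχβ.symm
    rw [this]
    exact hβ
  · -- backward
    intro hst Q hQ χ hχ hquad
    have hQS : Q ≤ S := hQ.1
    have hfQ : Finite Q := finite_of_le hQS
    have hfA : Finite (MulAut Q) := Cfsg.Agent.Lib.FusionSat.finite_mulAut
    by_cases hcyc : IsCyclic Q
    · -- the cyclic case
      have hQp : IsPGroup p Q := hS.to_le hQS
      obtain ⟨k, hk⟩ := pow_eq_one_of_quad hQp χ hquad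
      obtain ⟨x, hx⟩ := hcyc.exists_generator
      have hcomm : ∀ α β : MulAut Q, α * β = β * α := by
        intro α β
        obtain ⟨a, ha⟩ := hx (α x)
        obtain ⟨b, hb⟩ := hx (β x)
        simp only at ha hb
        ext y
        obtain ⟨n, hn⟩ := hx y
        simp only at hn
        rw [← hn, MulAut.mul_apply, MulAut.mul_apply, map_zpow, map_zpow, map_zpow, map_zpow, ← ha, ← hb, map_zpow,
          map_zpow, ← ha, ← hb, ← zpow_mul, ← zpow_mul, ← zpow_mul, ← zpow_mul]
        congr 1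
        ring
      let X : Subgroup (F.autGroup Q) := Subgroup.zpowers ⟨χ, hχ⟩
      have hXn : X.Normal := ⟨fun n hn g => by
        have : g * n * g⁻¹ = n := by
          apply Subtype.ext
          show (g : MulAut Q) * (n : MulAut Q) * (g : MulAut Q)⁻¹ = n
          rw [hcomm (g : MulAut Q) (n : MulAut Q)]
          simp
        rwa [this]⟩
      have hXp : IsPGroup p X := by
        rintro ⟨y, m, rfl⟩
        refine ⟨k, Subtype.ext ?_⟩
        show ((⟨χ, hχ⟩ : F.autGroup Q) ^ m) ^ p ^ k = 1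
        rw [← zpow_natCast, ← zpow_mul, mul_comm, zpow_mul, zpow_natCast]
        have : (⟨χ, hχ⟩ : F.autGroup Q) ^ p ^ k = 1 := Subtype.ext hk
        rw [this, one_zpow]
      have hle := Cfsg.Agent.Lib.PCore.le_pCore hXn hXp
      exact ⟨⟨χ, hχ⟩, hle (Subgroup.mem_zpowers _), rfl⟩
    · -- the non-cyclic case
      let N := normSystem F Q (normalizerIn S Q) hQS le_rfl
      have hN : F.IsNormalizerSystem Q N := normSystem_isNormalizerSystem F Q hQS
      have hQN : Q ≤ normalizerIn S Q := le_inf hQS Subgroup.le_normalizer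
      have hAut : N.autGroup Q = F.autGroup Q := by
        ext α
        rw [mem_autGroup_iff hQN, mem_autGroup_iff hQS]
        constructor
        · intro h
          exact h.1
        · intro h
          refine ⟨h, hQN, fun x => hQN (α x).2, ?_⟩
          exact ext_of_le le_rfl h (fun x _ => (α x).2)
      have hfn : N.IsFullyNormalized Q := by
        refine ⟨hQN, fun Q' hQ' => ?_⟩
        obtain ⟨φ, hφ, hφr⟩ := hQ'
        obtain ⟨-, -, -, ψ, -, h1, h2⟩ := hφ
        have h3 : φ.range = Q := by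
          apply le_antisymm
          · rintro _ ⟨x, rfl⟩
            rw [← h1 x]
            exact map_mem_of_map_eq h2 _ x.2
          · intro y hy
            obtain ⟨x, hx, hxy⟩ := exists_of_map_eq h2 hy
            refine ⟨⟨x, hx⟩, ?_⟩
            rw [← h1 ⟨x, hx⟩]
            exact hxy
        have : Q' = Q := hφr.symm.trans h3
        rw [this]
      have h1 := hst Q hQ hcyc N hN Q hfn χ (by rw [hAut]; exact hχ) hquad
      exact pcore_congr hAut h1
end Cfsg.Agent.S5247
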