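import Mathlib
import Cfsg.Agent.Lib.FusionNormal
import Cfsg.Agent.Lib.FusionSat
import Cfsg.Agent.Lib.PCore
import Cfsg.Statements.S5251

set_option autoImplicit false
open Cfsg

namespace Cfsg.Agent.S5251

open Cfsg.FusionSystem
open Cfsg.Agent.Lib.FusionAlperin Cfsg.Agent.Lib.FusionNormal

variable {Ω₀ : Type*} [Group Ω₀] {S₀ : Subgroup Ω₀} {F₀ : Cfsg.FusionSystem S₀}

/-- An element of `Aut_F(R)` centralizing `R ∩ T` and acting trivially modulo `T` lies in `O_p(Aut_F(R))`. -/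
theorem mem_pCore_of_stab {p : ℕ} [Fact p.Prime] [Finite S₀] (hS : IsPGroup p S₀) {T R : Subgroup Ω₀}
    (hT : F₀.StronglyClosed T) (hR : R ≤ S₀) {β : MulAut R} (hβ : β ∈ F₀.autGroup R)
    (h1 : ∀ x : R, (x : Ω₀) ∈ T → ((β x : R) : Ω₀) = x)
    (h2 : ∀ x : R, (x : Ω₀)⁻¹ * ((β x : R) : Ω₀) ∈ T) :
    β ∈ ((Cfsg.pCore p ↥(F₀.autGroup R)).map (F₀.autGroup R).subtype : Subgroup (MulAut ↥R)) := by
  have hfR : Finite R := finite_of_le hR
  have hRp : IsPGroup p R := hS.to_le hR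
  let C : ℕ → Subgroup R := fun i => match i with
    | 0 => ⊤
    | 1 => T.subgroupOf R
    | _ => ⊥
  have hinv : ∀ δ ∈ F₀.autGroup R, ∀ i, ∀ x ∈ C i, δ x ∈ C i := by
    intro δ hδ i x hx
    match i, hx with
    | 0, _ => trivial
    | 1, hx =>
      exact Subgroup.mem_subgroupOf.mpr (stronglyClosed_inf_normal hT hδ hR x (Subgroup.mem_subgroupOf.mp hx))
    | (n + 2), hx =>
      have hx' : x = 1 := Subgroup.mem_bot.mp hx
      rw [hx', map_one]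
      exact Subgroup.one_mem _
  have hanti : ∀ i, C (i + 1) ≤ C i := by
    intro i x hx
    match i, hx with
    | 0, _ => trivial
    | 1, hx =>
      have hx' : x = 1 := Subgroup.mem_bot.mp hx
      rw [hx']
      exact Subgroup.one_mem _
    | (n + 2), hx => exact hx
  have hKp := chainStab_isPGroup (p := p) hRp (F₀.autGroup R) C hinv hanti (m := 2) rfl rfl
  have hKn := chainStab_normal (F₀.autGroup R) C hinv hanti
  have hle := Cfsg.Agent.Lib.PCore.le_pCore hKn hKp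
  refine ⟨⟨β, hβ⟩, hle ?_, rfl⟩
  intro i x hx
  match i, hx with
  | 0, _ => exact Subgroup.mem_subgroupOf.mpr (by simpa using h2 x)
  | 1, hx =>
    have h3 : ((β x : R) : Ω₀) = x := h1 x (Subgroup.mem_subgroupOf.mp hx)
    have h4 : β x = x := Subtype.ext h3
    show x⁻¹ * β x ∈ (⊥ : Subgroup R)
    rw [h4]
    simp
  | (n + 2), hx =>
    have hx' : x = 1 := Subgroup.mem_bot.mp hx
    rw [hx']
    simp

/-- Let F be a saturated fusion system over a finite p-group S, E a normal subsystem of F over T, and P an F-centric subgroup of S such that P ∩ T is not E-centric. Then some F-conjugate P* of P satisfies Out_S(P*) ∩ O_p(Out_F(P*)) ≠ 1: there is an element of N_S(P*) outside P* whose conjugation action on P* lies in O_p(Aut_F(P*)). In particular P is not both centric and radical in F. -/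
theorem result {Ω : Type*} [Group Ω] {S : Subgroup Ω} [Finite S] (p : ℕ) [Fact p.Prime] (hS : IsPGroup p S) (F : Cfsg.FusionSystem S) (hF : F.IsSaturated p) {T : Subgroup Ω} (E : Cfsg.FusionSystem T) (hE : E.IsNormalIn F p) (P : Subgroup Ω) (hP : F.IsCentric P) (hPT : ¬ E.IsCentric (P ⊓ T)) : (∃ φ ∈ F.Hom P, ∃ x ∈ S ⊓ Subgroup.normalizer (φ.range : Set Ω), x ∉ φ.range ∧ ∃ α ∈ ((Cfsg.pCore p ↥(F.autGroup φ.range)).map (F.autGroup φ.range).subtype : Subgroup (MulAut ↥φ.range)), ∀ y : ↥φ.range, ((α y : ↥φ.range) : Ω) = x * (y : Ω) * x⁻¹) ∧ ¬ F.IsRadical p P := by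
  classical
  have hEF : E.IsSubsystemOf F := hE.1.2.2.1
  have hT : F.StronglyClosed T := hE.1.2.2.2.1
  have hTS : T ≤ S := hT.1
  have hTn : S ≤ Subgroup.normalizer (T : Set Ω) := StronglyClosed.le_normalizer hT
  have hPS : P ≤ S := hP.1
  -- a witness for failure of centricity
  have hex : ∃ Q : Subgroup Ω, E.IsConj (P ⊓ T) Q ∧ ¬ centralizerIn T Q ≤ Q := by
    by_contra hcon
    push Not at hcon
    exact hPT ⟨inf_le_right, hcon⟩
  obtain ⟨Q, ⟨ε, hε, hεr⟩, hCQ⟩ := hex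
  have hεF := hEF _ hε
  have hQT : Q ≤ T := by
    rw [← hεr]
    rintro _ ⟨x, rfl⟩
    exact (E.le_of_mem hε).2 x
  have hQS : Q ≤ S := hQT.trans hTS
  obtain ⟨Qs, hQQs, hFA, hRec⟩ := hF Q hQS
  obtain ⟨e, χ, he, hχ, hχe, hχv⟩ := Cfsg.Agent.Lib.FusionSat.exists_normalizer_map hS hQQs hFA hRec
  have hQsS : Qs ≤ S := hFA.1
  -- Qs lies in T
  have hQsT : Qs ≤ T := by
    intro y hy
    have h1 : ((e (e.symm ⟨y, hy⟩) : Qs) : Ω) = y := by simp
    rw [← h1, ← hχe _ (⟨hQS (e.symm ⟨y, hy⟩).2, Subgroup.le_normalizer (e.symm ⟨y, hy⟩).2⟩)]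
    exact StronglyClosed.map_mem hT hχ _ (hQT (e.symm ⟨y, hy⟩).2)
  -- transport the centralizer element
  obtain ⟨c, hc, hcQ⟩ := SetLike.not_le_iff_exists.mp hCQ
  have hcT : c ∈ T := hc.1
  have hcC : c ∈ Subgroup.centralizer (Q : Set Ω) := hc.2
  have hcN : c ∈ normalizerIn S Q := ⟨hTS hcT, by
    apply Subgroup.mem_normalizer_iff.mpr
    intro z
    constructor
    · intro hz
      have := Subgroup.mem_centralizer_iff.mp hcC z hz
      rw [← this]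
      simpa using hz
    · intro hz
      have h1 : z = c⁻¹ * (c * z * c⁻¹) * c := by group
      have h2 := Subgroup.mem_centralizer_iff.mp hcC _ hz
      rw [h1, ← mul_assoc c⁻¹, ← mul_assoc c⁻¹]
      have h3 : c⁻¹ * (c * z * c⁻¹) * c = c * z * c⁻¹ := by
        calc c⁻¹ * (c * z * c⁻¹) * c = c⁻¹ * ((c * z * c⁻¹) * c) := by group
          _ = c⁻¹ * (c * (c * z * c⁻¹)) := by rw [h2]
          _ = c * z * c⁻¹ := by group
      rw [show c⁻¹ * c * z * c⁻¹ * c = c⁻¹ * (c * z * c⁻¹) * c by group, h3]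
      exact hz⟩
  have hQN : Q ≤ normalizerIn S Q := le_inf hQS Subgroup.le_normalizer
  set d : Ω := χ ⟨c, hcN⟩ with hd
  have hdT : d ∈ T := StronglyClosed.map_mem hT hχ _ hcT
  have hdC : d ∈ Subgroup.centralizer (Qs : Set Ω) := by
    rw [Subgroup.mem_centralizer_iff]
    intro y hy
    have h1 : ((e (e.symm ⟨y, hy⟩) : Qs) : Ω) = y := by simp
    rw [← h1, ← hχe _ (hQN (e.symm ⟨y, hy⟩).2), hd, ← map_mul, ← map_mul]
    congr 1
    apply Subtype.ext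
    exact (Subgroup.mem_centralizer_iff.mp hcC _ (e.symm ⟨y, hy⟩).2)
  have hdQs : d ∉ Qs := by
    intro hdQ
    have h1 : ((e (e.symm ⟨d, hdQ⟩) : Qs) : Ω) = d := by simp
    rw [← hχe _ (hQN (e.symm ⟨d, hdQ⟩).2)] at h1
    have h2 := hom_inj hχ h1
    have h3 : ((e.symm ⟨d, hdQ⟩ : Q) : Ω) = c := congrArg Subtype.val h2
    exact hcQ (h3 ▸ (e.symm ⟨d, hdQ⟩).2)
  -- extend a map from `P ⊓ T` to `Qs` to all of `P`
  have hP₀Qs : F.IsConj (P ⊓ T) Qs := by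
    exact Cfsg.Agent.Lib.FusionSat.IsConj.trans ⟨ε, hεF, hεr⟩ hQQs
  obtain ⟨e', χ', he', hχ', hχ'e, hχ'v⟩ := Cfsg.Agent.Lib.FusionSat.exists_normalizer_map hS hP₀Qs hFA hRec
  have hPN : P ≤ normalizerIn S (P ⊓ T) := by
    intro g hg
    refine ⟨hPS hg, ?_⟩
    apply Subgroup.mem_normalizer_iff.mpr
    intro z
    have hg2 := (Subgroup.mem_normalizer_iff.mp (hTn (hPS hg))) z
    have hg3 := (Subgroup.mem_normalizer_iff.mp (Subgroup.le_normalizer hg)) z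
    exact ⟨fun hz => ⟨hg3.mp hz.1, hg2.mp hz.2⟩, fun hz => ⟨hg3.mpr hz.1, hg2.mpr hz.2⟩⟩
  let φ : P →* Ω := χ'.comp (Subgroup.inclusion hPN)
  have hφ : φ ∈ F.Hom P := restrict_mem hχ' hPN
  have hP₀le : P ⊓ T ≤ normalizerIn S (P ⊓ T) := le_inf (inf_le_left.trans hPS) Subgroup.le_normalizer
  set Ps := φ.range with hPs
  have hφr : φ.range = Ps := rfl
  have hPsS : Ps ≤ S := by
    rintro _ ⟨x, rfl⟩
    exact hom_val hφ x
  obtain ⟨ψ, hψ, hψφ⟩ := exists_inv hφ hφr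
  -- `φ z ∈ T` iff `z ∈ T`
  have hφT : ∀ z : P, φ z ∈ T → (z : Ω) ∈ T := by
    intro z hz
    have h1 := StronglyClosed.map_mem hT hψ ⟨φ z, ⟨z, rfl⟩⟩ hz
    rw [hψφ z ⟨z, rfl⟩] at h1
    exact h1
  have hφT' : ∀ z : P, (z : Ω) ∈ T → φ z ∈ T := fun z hz => StronglyClosed.map_mem hT hφ z hz
  -- the intersection with `T`
  have hPsT : Ps ⊓ T = Qs := by
    apply le_antisymm
    · rintro y ⟨⟨z, rfl⟩, hy⟩
      have hzT := hφT z hy
      have h1 := hχ'e ⟨z, z.2, hzT⟩ (hP₀le ⟨z.2, hzT⟩)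
      show χ' _ ∈ Qs
      have h2 : (Subgroup.inclusion hPN z) = ⟨(z : Ω), hP₀le ⟨z.2, hzT⟩⟩ := rfl
      rw [h2, h1]
      exact (e' _).2
    · intro y hy
      refine ⟨?_, hQsT hy⟩
      have h1 : ((e' (e'.symm ⟨y, hy⟩) : Qs) : Ω) = y := by simp
      rw [← h1, ← hχ'e _ (hP₀le (e'.symm ⟨y, hy⟩).2)]
      exact ⟨⟨_, (e'.symm ⟨y, hy⟩).2.1⟩, rfl⟩
  -- the element `x`
  let U : Subgroup Ω := T ⊓ Subgroup.centralizer (Qs : Set Ω)
  have hPsNQs : ∀ g ∈ Ps, ∀ y ∈ Qs, g * y * g⁻¹ ∈ Qs := by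
    intro g hg y hy
    rw [← hPsT] at hy ⊢
    exact ⟨Ps.mul_mem (Ps.mul_mem hg hy.1) (Ps.inv_mem hg), StronglyClosed.conj_mem hT (hPsS hg) hy.2⟩
  have hPsNU : Ps ≤ Subgroup.normalizer (U : Set Ω) := by
    intro g hg
    have key : ∀ g ∈ Ps, ∀ z ∈ U, g * z * g⁻¹ ∈ U := by
      intro g hg z hz
      refine ⟨StronglyClosed.conj_mem hT (hPsS hg) hz.1, ?_⟩
      apply Subgroup.mem_centralizer_iff.mpr
      intro y hy
      have h1 : g⁻¹ * y * g⁻¹⁻¹ ∈ Qs := hPsNQs g⁻¹ (Ps.inv_mem hg) y hy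
      have h2 := Subgroup.mem_centralizer_iff.mp hz.2 _ h1
      simp only [inv_inv] at h1 h2
      calc y * (g * z * g⁻¹) = g * ((g⁻¹ * y * g) * z) * g⁻¹ := by group
        _ = g * (z * (g⁻¹ * y * g)) * g⁻¹ := by rw [h2]
        _ = g * z * g⁻¹ * y := by group
    rw [Subgroup.mem_normalizer_iff]
    intro z
    refine ⟨fun hz => key g hg z hz, fun hz => ?_⟩
    have h1 := key g⁻¹ (Ps.inv_mem hg) _ hz
    have h2 : g⁻¹ * (g * z * g⁻¹) * g⁻¹⁻¹ = z := by group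
    rwa [h2] at h1
  have hUPs : ¬ U ≤ Ps := by
    intro h
    have h1 : d ∈ Ps := h ⟨hdT, hdC⟩
    apply hdQs
    rw [← hPsT]
    exact ⟨h1, hdT⟩
  obtain ⟨x, hxU, hxN, hxPs⟩ := exists_mem_normalizer_not_mem hS
    (inf_le_left.trans hTS : U ≤ S) hPsS hPsNU hUPs
  have hxT : x ∈ T := hxU.1
  have hxS : x ∈ S := hTS hxT
  let α : MulAut Ps := conjAut Ps x hxN
  have hαF : α ∈ F.autGroup Ps := autInducedBy_le_autGroup hPsS (conjAut_mem_autInducedBy hxS hxN)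
  have hα : ∀ y : Ps, ((α y : Ps) : Ω) = x * (y : Ω) * x⁻¹ := fun y => rfl
  have hαfix : ∀ y : Ps, (y : Ω) ∈ T → ((α y : Ps) : Ω) = y := by
    intro y hy
    rw [hα]
    have h1 : (y : Ω) ∈ Qs := by
      rw [← hPsT]
      exact ⟨y.2, hy⟩
    have h2 := Subgroup.mem_centralizer_iff.mp hxU.2 _ h1
    rw [← h2]
    group
  have hαT : ∀ y : Ps, (y : Ω)⁻¹ * ((α y : Ps) : Ω) ∈ T := by
    intro y
    rw [hα]
    have h1 := StronglyClosed.conj_mem hT (S.inv_mem (hPsS y.2)) hxT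
    have e1 : (y : Ω)⁻¹ * (x * (y : Ω) * x⁻¹) = (y : Ω)⁻¹ * x * ((y : Ω)⁻¹)⁻¹ * x⁻¹ := by group
    rw [e1]
    exact T.mul_mem h1 (T.inv_mem hxT)
  refine ⟨⟨φ, hφ, x, ⟨hxS, hxN⟩, hxPs, α, mem_pCore_of_stab hS hT hPsS hαF hαfix hαT, hα⟩, ?_⟩
  -- not radical
  intro hrad
  set e₁ : P ≃* Ps := equivOfHom φ (hom_inj hφ) hφr with he₁
  let β : MulAut P := MulAut.congr e₁.symm α
  have hβe : ∀ y : P, ((α (e₁ y) : Ps) : Ω) = φ (β y) := by
    intro y
    have h1 : β y = e₁.symm (α (e₁ y)) := rfl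
    rw [h1]
    exact (equivOfHom_symm_apply φ (hom_inj hφ) hφr _).symm
  have he₁val : ∀ y : P, ((e₁ y : Ps) : Ω) = φ y := fun y => rfl
  have hβF : β ∈ F.autGroup P := by
    rw [mem_autGroup_iff hPS]
    -- `β = ψ ∘ α ∘ φ`
    have h1 : (Ps.subtype.comp α.toMonoidHom).comp e₁.toMonoidHom = φ.comp β.toMonoidHom := by
      ext y
      exact hβe y
    have hαH : Ps.subtype.comp α.toMonoidHom ∈ F.Hom Ps := (mem_autGroup_iff hPsS).mp hαF
    have h2 : φ.comp β.toMonoidHom ∈ F.Hom P := by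
      rw [← h1]
      exact of_comp hφ hαH (fun y => (e₁ y).2) (fun y => by
        show ((α (e₁ y) : Ps) : Ω) = _
        exact congrArg (fun z => ((α z : Ps) : Ω)) (Subtype.ext rfl))
    refine of_comp h2 hψ (fun y => ⟨_, rfl⟩) (fun y => ?_)
    have := hψφ (β y) ⟨_, rfl⟩
    exact this.symm
  have hβmem : β ∈ ((Cfsg.pCore p ↥(F.autGroup P)).map (F.autGroup P).subtype : Subgroup (MulAut ↥P)) := by
    refine mem_pCore_of_stab hS hT hPS hβF ?_ ?_
    · intro y hy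
      have hy' := hφT' y hy
      have h1 := hαfix (e₁ y) hy'
      rw [hβe, he₁val] at h1
      exact congrArg Subtype.val (hom_inj hφ h1)
    · intro y
      have h1 := hφT ((y : P)⁻¹ * β y) (by
        rw [map_mul, map_inv, ← hβe, ← he₁val]
        exact hαT (e₁ y))
      exact h1
  rw [hrad.2] at hβmem
  obtain ⟨g, hg⟩ := hβmem
  have hβg : ∀ y : P, ((β y : P) : Ω) = (g : Ω) * y * (g : Ω)⁻¹ := by
    intro y
    rw [← hg]
    rfl
  have hCs : centralizerIn S Ps ≤ Ps := hP.2 Ps ⟨φ, hφ, hφr⟩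
  apply hxPs
  have hcent : (φ g)⁻¹ * x ∈ centralizerIn S Ps := by
    refine ⟨S.mul_mem (S.inv_mem (hom_val hφ g)) hxS, ?_⟩
    apply Subgroup.mem_centralizer_iff.mpr
    rintro y ⟨z, rfl⟩
    have h1 := hβe z
    rw [hα, he₁val] at h1
    have h2 : (β z) = g * z * g⁻¹ := Subtype.ext (hβg z)
    rw [h2, map_mul, map_mul, map_inv] at h1
    have h3 : x * φ z = φ g * φ z * (φ g)⁻¹ * x := by
      rw [← h1]
      group
    calc φ z * ((φ g)⁻¹ * x) = (φ g)⁻¹ * (φ g * φ z * (φ g)⁻¹ * x) := by group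
      _ = (φ g)⁻¹ * (x * φ z) := by rw [h3]
      _ = (φ g)⁻¹ * x * φ z := by group
  have h4 := hCs hcent
  have h5 : φ g ∈ Ps := ⟨g, rfl⟩
  have h6 := Ps.mul_mem h5 h4
  simpa using h6
end Cfsg.Agent.S5251
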