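import Mathlib
import Cfsg.Agent.Lib.FusionAbEss2
import Cfsg.Statements.S5254

set_option autoImplicit false
open Cfsg

namespace Cfsg.Agent.S5254

open Cfsg Cfsg.FusionSystem Cfsg.Agent.Lib.FusionCore Cfsg.Agent.Lib.FusionCore2 Cfsg.Agent.Lib.FusionAbIdx Cfsg.Agent.Lib.FusionAbEss Cfsg.Agent.Lib.FusionAbEss2



/-- Let p be an odd prime, S a finite nonabelian p-group with a unique abelian subgroup A of index p, and F a saturated fusion system over S. Then every F-essential subgroup P is A, or Z(S)⟨x⟩ for some x ∈ S outside A, or (when the second centre Z₂(S) lies in A) Z₂(S)⟨x⟩ for some x ∈ S outside A; and P has index p in its normalizer in S. -/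
theorem result {Ω : Type*} [Group Ω] {S : Subgroup Ω} [Finite S] (p : ℕ) [Fact p.Prime] (hS : IsPGroup p S) (F : Cfsg.FusionSystem S) (hF : F.IsSaturated p) (hp : p ≠ 2) (hna : ¬ IsMulCommutative ↥S) (A : Subgroup Ω) (hA : A ≤ S ∧ IsMulCommutative ↥A ∧ (A.subgroupOf S).index = p) (huniq : ∀ B : Subgroup Ω, B ≤ S → IsMulCommutative ↥B → (B.subgroupOf S).index = p → B = A) (P : Subgroup Ω) (hP : F.IsEssential p P) : (P = A ∨ (∃ x ∈ S, x ∉ A ∧ P = (S ⊓ Subgroup.centralizer (S : Set Ω)) ⊔ Subgroup.zpowers x) ∨ (((upperCentralSeries ↥S 2).map S.subtype) ≤ A ∧ ∃ x ∈ S, x ∉ A ∧ P = ((upperCentralSeries ↥S 2).map S.subtype) ⊔ Subgroup.zpowers x)) ∧ (P.subgroupOf (S ⊓ Subgroup.normalizer (P : Set Ω))).index = p := by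
  have h := AbIdx.of hS hna hA
  have hpn : ∀ (Q : Subgroup Ω), IsPGroup p ↥S → True := fun _ _ => trivial
  by_cases hPA : P = A
  · subst hPA
    refine ⟨Or.inl rfl, ?_⟩
    have e : S ⊓ Subgroup.normalizer (P : Set Ω) = S := by
      apply inf_eq_left.2
      intro g hg
      haveI := finite_of_le h.le
      exact mem_normalizer_of_conj_mem (fun x hx => h.nor g hg x hx)
    rw [e]
    exact h.idx
  · obtain ⟨x, hx, hxA⟩ := exists_out h hP.1 hPA
    have hPS : P ≤ S := hP.1.1
    haveI := finite_of_le hPS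
    have hZP := Zc_le_of_centric hP.1
    by_cases hPc : ∀ u ∈ P, ∀ v ∈ P, u * v = v * u
    · obtain ⟨hBZ, hi, -, -⟩ := abelian_case h hF hP hx hxA hPc
      refine ⟨Or.inr (Or.inl ⟨x, hPS hx, hxA, ?_⟩), hi⟩
      have hZi : ((Zc S).subgroupOf P).index = p := by
        rw [← hBZ]
        exact inf_index h hPS hx hxA
      exact eq_sup_zpowers (hS.to_le hPS) hZP hZi hx (fun h1 => hxA (h.Z_le h1))
    · push Not at hPc
      obtain ⟨hBD, hi, hD, -⟩ := nonabelian_case h hF hP hx hxA hPc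
      have hZ2 := h.Z2_le huniq hD
      have hD2 : Dc S A = Z2c S := inf_eq_left.2 hZ2
      refine ⟨Or.inr (Or.inr ⟨hZ2, x, hPS hx, hxA, ?_⟩), hi⟩
      have hBi : ((Z2c S).subgroupOf P).index = p := by
        rw [← hD2, ← hBD]
        exact inf_index h hPS hx hxA
      have hle : Z2c S ≤ P := by
        rw [← hD2, ← hBD]
        exact inf_le_left
      exact eq_sup_zpowers (hS.to_le hPS) hle hBi hx (fun h1 => hxA (hZ2 h1))
end Cfsg.Agent.S5254
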