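import Mathlib
import Cfsg.Statements.S5255
import Cfsg.Agent.Lib.FusionNormal

set_option autoImplicit false
open Cfsg

namespace Cfsg.Agent.S5255

open Cfsg.Agent.Lib.FusionAlperin Cfsg.Agent.Lib.FusionNormal
open scoped Pointwise

/-- Let F be a saturated fusion system over a finite p-group S and T a subgroup of S strongly closed in F. Then T·C_S(T) is strongly closed in F. -/
theorem result {Ω : Type*} [Group Ω] {S : Subgroup Ω} [Finite S] (p : ℕ) [Fact p.Prime] (hS : IsPGroup p S) (F : Cfsg.FusionSystem S) (hF : F.IsSaturated p) (T : Subgroup Ω) (hT : F.StronglyClosed T) : F.StronglyClosed (T ⊔ Cfsg.FusionSystem.centralizerIn S T) := by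
  classical
  set C := Cfsg.FusionSystem.centralizerIn S T with hCdef
  set X := T ⊔ C with hXdef
  have hTS : T ≤ S := hT.1
  have hTn : S ≤ Subgroup.normalizer (T : Set Ω) := StronglyClosed.le_normalizer hT
  have hCS : C ≤ S := inf_le_left
  have hXS : X ≤ S := sup_le hTS hCS
  have hfT : Finite T := finite_of_le hTS
  have hmul : (X : Set Ω) = (T : Set Ω) * (C : Set Ω) :=
    Subgroup.coe_mul_of_right_le_normalizer_left T C (hCS.trans hTn)
  have hXmem : ∀ x : Ω, x ∈ X ↔ ∃ t ∈ T, ∃ c ∈ C, t * c = x := by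
    intro x
    have : x ∈ (X : Set Ω) ↔ x ∈ (T : Set Ω) * (C : Set Ω) := by rw [hmul]
    simpa [Set.mem_mul] using this
  -- `X` is normalized by `S`
  have hfw : ∀ g ∈ S, ∀ x ∈ X, g * x * g⁻¹ ∈ X := by
    intro g hg x hx
    obtain ⟨t, ht, c, hc, rfl⟩ := (hXmem x).mp hx
    refine (hXmem _).mpr ⟨g * t * g⁻¹, StronglyClosed.conj_mem hT hg ht, g * c * g⁻¹, ⟨?_, ?_⟩, by group⟩
    · exact S.mul_mem (S.mul_mem hg hc.1) (S.inv_mem hg)
    · show g * c * g⁻¹ ∈ Subgroup.centralizer (T : Set Ω)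
      rw [Subgroup.mem_centralizer_iff]
      intro y hy
      have h1 : g⁻¹ * y * g ∈ T := by
        have := StronglyClosed.conj_mem hT (S.inv_mem hg) hy
        simpa using this
      have h2 := Subgroup.mem_centralizer_iff.mp hc.2 _ h1
      calc y * (g * c * g⁻¹) = g * ((g⁻¹ * y * g) * c) * g⁻¹ := by group
        _ = g * (c * (g⁻¹ * y * g)) * g⁻¹ := by rw [h2]
        _ = g * c * g⁻¹ * y := by group
  have hX : ∀ g ∈ S, ∀ x : Ω, x ∈ S → (x ∈ X ↔ g * x * g⁻¹ ∈ X) := by
    intro g hg x _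
    refine ⟨fun hx => hfw g hg x hx, fun hx => ?_⟩
    have h1 := hfw g⁻¹ (S.inv_mem hg) _ hx
    have h2 : g⁻¹ * (g * x * g⁻¹) * g⁻¹⁻¹ = x := by group
    rwa [h2] at h1
  have key : ∀ P : Subgroup Ω, F.Hom P ⊆ (presSystem F X hX).Hom P := by
    refine alperin hS hF (fun P _ h => h.1) ?_
    intro R hRS hFA hRec _ IH φ hφ hr
    by_cases hTR : T ≤ R
    · -- forward direction for maps with range `R`
      have hforward : ∀ χ ∈ F.Hom R, χ.range = R → ∀ x : R, (x : Ω) ∈ X → χ x ∈ X := by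
        intro χ hχ hχr x hx
        obtain ⟨t, ht, c, hc, htc⟩ := (hXmem _).mp hx
        have hcR : c ∈ R := by
          have h1 : c = t⁻¹ * (x : Ω) := by rw [← htc]; group
          rw [h1]
          exact R.mul_mem (R.inv_mem (hTR ht)) x.2
        have h1 : χ x = χ ⟨t, hTR ht⟩ * χ ⟨c, hcR⟩ := by
          rw [← map_mul]
          congr 1
          exact Subtype.ext htc.symm
        rw [h1]
        have hmapT : ∀ y : R, (y : Ω) ∈ T → χ y ∈ T := fun y hy => StronglyClosed.map_mem hT hχ y hy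
        refine X.mul_mem ((le_sup_left : T ≤ X) (hmapT _ ht)) ((le_sup_right : C ≤ X) ⟨hom_val hχ _, ?_⟩)
        show χ ⟨c, hcR⟩ ∈ Subgroup.centralizer (T : Set Ω)
        rw [Subgroup.mem_centralizer_iff]
        intro y hy
        obtain ⟨y', hy', rfl⟩ := surj_on_of_le hTR hχ hmapT hy
        have h2 := Subgroup.mem_centralizer_iff.mp hc.2 _ hy'
        rw [← map_mul, ← map_mul]
        congr 1
        exact Subtype.ext h2
      refine ⟨hφ, fun x => ⟨hforward φ hφ hr x, fun hx => ?_⟩⟩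
      obtain ⟨ψ, hψ, hψφ⟩ := exists_inv hφ hr
      have hψr : ψ.range = R := by
        apply le_antisymm
        · rintro _ ⟨y, rfl⟩
          obtain ⟨z, hz⟩ := exists_of_mem_range hr y.2
          have h1 : y = ⟨φ z, mem_of_range_eq hr z⟩ := Subtype.ext hz.symm
          rw [h1, hψφ]
          exact z.2
        · intro y hy
          exact ⟨⟨φ ⟨y, hy⟩, mem_of_range_eq hr _⟩, hψφ ⟨y, hy⟩ _⟩
      have h1 := hforward ψ hψ hψr ⟨φ x, mem_of_range_eq hr x⟩ hx
      rwa [hψφ] at h1
    · obtain ⟨t, ht, htN, htR⟩ := exists_mem_normalizer_not_mem hS hTS hRS (hRS.trans hTn) hTR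
      refine aut_mem_of_sections hFA hRec IH T ?_ ?_ (hTS ht) htN htR ?_ φ hφ hr
      · intro δ hδ x hx
        exact stronglyClosed_inf_normal hT hδ hRS x hx
      · intro α hα hαT
        refine ⟨(mem_autGroup_iff hRS).mp hα, fun x => ?_⟩
        have hu : (x : Ω)⁻¹ * ((α x : R) : Ω) ∈ X := (le_sup_left : T ≤ X) (hαT x)
        show (x : Ω) ∈ X ↔ ((α x : R) : Ω) ∈ X
        constructor
        · intro hx
          have h1 : ((α x : R) : Ω) = (x : Ω) * ((x : Ω)⁻¹ * ((α x : R) : Ω)) := by group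
          rw [h1]
          exact X.mul_mem hx hu
        · intro hx
          have h1 : (x : Ω) = ((α x : R) : Ω) * ((x : Ω)⁻¹ * ((α x : R) : Ω))⁻¹ := by group
          rw [h1]
          exact X.mul_mem hx (X.inv_mem hu)
      · intro x
        have h1 : (x : Ω)⁻¹ * t * (x : Ω) ∈ T := by
          have := StronglyClosed.conj_mem hT (S.inv_mem (hRS x.2)) ht
          simpa using this
        have h2 : (x : Ω)⁻¹ * (t * (x : Ω) * t⁻¹) = ((x : Ω)⁻¹ * t * (x : Ω)) * t⁻¹ := by group
        rw [h2]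
        exact T.mul_mem h1 (T.inv_mem ht)
  exact ⟨hXS, fun R hRX φ hφ x => ((key R hφ).2 x).mp (hRX x.2)⟩

end Cfsg.Agent.S5255
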