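import Mathlib
import Cfsg.Agent.Lib.FusionQuotSat
import Cfsg.Agent.Lib.FusionStrongClosed
import Cfsg.Agent.Lib.FusionAlperin
import Cfsg.Agent.Lib.FusionHyperfocal
import Cfsg.Agent.Lib.PResid
import Cfsg.Statements.S5256

set_option autoImplicit false
open Cfsg

namespace Cfsg.Agent.S5256

open Cfsg.FusionSystem
open Cfsg.Agent.Lib.FusionAlperin Cfsg.Agent.Lib.FusionQuotSat Cfsg.Agent.Lib.PResid Cfsg.Agent.Lib.FusionHyperfocal

/-- A property of the elements `x⁻¹ α x` holds for `O^p` as soon as it holds for elements of order prime to `p`. -/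
theorem forall_pResidual_mem {p₀ : ℕ} {Ω₀ : Type*} [Group Ω₀] {P : Subgroup Ω₀} {D : Subgroup (MulAut P)} {U : Subgroup Ω₀}
    (h : ∀ α : D, (orderOf α).Coprime p₀ → ∀ x : P, (x : Ω₀)⁻¹ * (((α : MulAut P) x : P) : Ω₀) ∈ U) :
    ∀ α ∈ Cfsg.pResidual p₀ D, ∀ x : P, (x : Ω₀)⁻¹ * (((α : MulAut P) x : P) : Ω₀) ∈ U := by
  intro α hα
  induction hα using Subgroup.closure_induction with
  | mem α hα => exact h α hα
  | one =>
    intro x
    simp
  | mul a b _ _ ha hb =>
    intro x
    have h1 := hb x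
    have h2 := ha ((b : MulAut P) x)
    have e : (x : Ω₀)⁻¹ * ((((a * b : D) : MulAut P) x : P) : Ω₀) =
        ((x : Ω₀)⁻¹ * (((b : MulAut P) x : P) : Ω₀)) *
          ((((b : MulAut P) x : P) : Ω₀)⁻¹ * (((a : MulAut P) ((b : MulAut P) x) : P) : Ω₀)) := by
      show (x : Ω₀)⁻¹ * (((a : MulAut P) ((b : MulAut P) x) : P) : Ω₀) = _
      group
    rw [e]
    exact Subgroup.mul_mem _ h1 h2
  | inv a _ ha =>
    intro x
    set y := ((a⁻¹ : D) : MulAut P) x with hy
    have h1 := ha y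
    have h2 : (((a : MulAut P) y : P) : Ω₀) = x := by
      rw [hy]
      show (((a : MulAut P) ((a : MulAut P)⁻¹ x) : P) : Ω₀) = x
      simp
    rw [h2] at h1
    have h3 := Subgroup.inv_mem _ h1
    simpa using h3

/-- Let F be a saturated fusion system over a finite p-group S, T a subgroup of S strongly closed in F, and E a factor system F/T realised along a homomorphism θ of S with kernel T. Then the hyperfocal subgroup of E is the image under θ of the hyperfocal subgroup of F (hyp(F/T) = T·hyp(F)/T). -/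
theorem result {Ω : Type*} [Group Ω] {S : Subgroup Ω} [Finite S] (p : ℕ) [Fact p.Prime] (hS : IsPGroup p S) (F : Cfsg.FusionSystem S) (hF : F.IsSaturated p) (T : Subgroup Ω) (hT : F.StronglyClosed T) {Ω' : Type*} [Group Ω'] {S' : Subgroup Ω'} (θ : ↥S →* Ω') (E : Cfsg.FusionSystem S') (hE : F.IsFactorSystem T θ E) : E.hyperfocalSubgroup p = ((F.hyperfocalSubgroup p).subgroupOf S).map θ := by
  classical
  have hpp : p.Prime := Fact.out
  have hm : F.IsSurjectiveMorphism E θ :=
    Cfsg.Agent.Lib.FusionStrongClosed.isSurjectiveMorphism_of_isFactorSystem hS hF hT hE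
  obtain ⟨hle, hk, hr, hiff⟩ := id hE
  have hkT : kerAlong θ = T := by
    ext z
    constructor
    · rintro ⟨s, hs, rfl⟩
      exact (hk s).mp hs
    · intro hz
      exact ⟨⟨z, hle hz⟩, (hk ⟨z, hle hz⟩).mpr hz, rfl⟩
  have hsc : F.StronglyClosed (kerAlong θ) := by rw [hkT]; exact hT
  apply le_antisymm
  · -- `hyp(E) ≤ θ(hyp(F))`
    rw [hyperfocalSubgroup, Subgroup.closure_le]
    rintro _ ⟨P', β, y, hP', hβ, rfl⟩
    obtain ⟨Q, hQS, hK, rfl⟩ : ∃ Q : Subgroup Ω, Q ≤ S ∧ kerAlong θ ≤ Q ∧ imageAlong θ Q = P' := by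
      refine ⟨preimageAlong θ P', Cfsg.Agent.Lib.FusionFactor.preimageAlong_le θ P', ?_,
        imageAlong_preimageAlong hr hP'⟩
      rw [hkT]
      intro z hz
      refine (Cfsg.Agent.Lib.FusionFactor.mem_preimageAlong θ P' z).mpr ⟨hle hz, ?_⟩
      rw [(hk ⟨z, hle hz⟩).mpr hz]
      exact Subgroup.one_mem _
    refine forall_pResidual_mem ?_ β hβ y
    intro β hβc y
    have hfQ : Finite Q := finite_of_le hQS
    have hfA : Finite (MulAut Q) := Cfsg.Agent.Lib.FusionSat.finite_mulAut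
    obtain ⟨γ, hγ⟩ := piAut_surj hm hsc hQS hK β β.2
    obtain ⟨a, b, hab, hcomm, ⟨n, hn⟩, hbc, -, -⟩ := exists_decomp (p := p) γ
    set π := piAut (α := θ) hsc hQS with hπ
    have hπab : (β : MulAut (imageAlong θ Q)) = π a * π b := by
      rw [← hγ, hab, map_mul]
    have hc1 : Commute (π a) (π b) := hcomm.map π
    have hβo : (orderOf (β : MulAut (imageAlong θ Q))).Coprime p := by
      rw [Subgroup.orderOf_coe]
      exact hβc
    have hπbo : (π b) ^ orderOf b = 1 := by
      rw [← map_pow, pow_orderOf_eq_one, map_one]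
    -- `π a` is trivial
    have hπa : π a = 1 := by
      have h1 : (π a) ^ (orderOf (β : MulAut (imageAlong θ Q)) * orderOf b) = 1 := by
        have e1 : π a = (β : MulAut (imageAlong θ Q)) * (π b)⁻¹ := by
          rw [hπab]
          group
        have hc2 : Commute (β : MulAut (imageAlong θ Q)) (π b)⁻¹ := by
          rw [hπab]
          exact ((hc1.mul_left (Commute.refl _)).inv_right)
        rw [e1, hc2.mul_pow, pow_mul, pow_orderOf_eq_one, one_pow, one_mul, mul_comm, pow_mul, inv_pow, hπbo]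
        simp
      have h2 : (π a) ^ p ^ n = 1 := by
        rw [← map_pow, hn, map_one]
      have h3 := orderOf_dvd_of_pow_eq_one h1
      have h4 := orderOf_dvd_of_pow_eq_one h2
      have h5 : Nat.Coprime (orderOf (β : MulAut (imageAlong θ Q)) * orderOf b) (p ^ n) :=
        Nat.Coprime.pow_right n (Nat.Coprime.mul_left hβo hbc)
      exact orderOf_eq_one_iff.mp (Nat.Coprime.eq_one_of_dvd (Nat.Coprime.coprime_dvd_left h3 h5) h4)
    have hβb : (β : MulAut (imageAlong θ Q)) = π b := by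
      rw [hπab, hπa, one_mul]
    obtain ⟨x, rfl⟩ := resAlong_surjective hQS y
    rw [hβb, hπ, piAut_apply, coe_resAlong]
    have hbres : b ∈ Cfsg.pResidual p (F.autGroup Q) := mem_pResidual_of_coprime hbc
    have hgen := Cfsg.Agent.Lib.FusionHyperfocal.gen_mem_hyperfocal hQS hbres x
    refine ⟨⟨_, S.mul_mem (S.inv_mem (hQS x.2)) (hQS ((b : MulAut Q) x).2)⟩,
      Subgroup.mem_subgroupOf.mpr hgen, ?_⟩
    have e1 : (⟨(x : Ω)⁻¹ * (((b : MulAut Q) x : Q) : Ω), S.mul_mem (S.inv_mem (hQS x.2)) (hQS ((b : MulAut Q) x).2)⟩ : S) =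
        (⟨x, hQS x.2⟩ : S)⁻¹ * ⟨((b : MulAut Q) x : Q), hQS ((b : MulAut Q) x).2⟩ := rfl
    rw [e1, map_mul, map_inv]
  · -- `θ(hyp(F)) ≤ hyp(E)`
    rw [Subgroup.map_le_iff_le_comap]
    let W : Subgroup Ω := ((E.hyperfocalSubgroup p).comap θ).map S.subtype
    have hW : F.hyperfocalSubgroup p ≤ W := by
      rw [hyperfocalSubgroup, Subgroup.closure_le]
      rintro _ ⟨P, α, x, hP, hα, rfl⟩
      refine forall_pResidual_mem ?_ α hα x
      intro α hαc x
      have hfP : Finite P := finite_of_le hP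
      have hfA : Finite (MulAut P) := Cfsg.Agent.Lib.FusionSat.finite_mulAut
      refine ⟨⟨_, S.mul_mem (S.inv_mem (hP x.2)) (hP ((α : MulAut P) x).2)⟩, ?_, rfl⟩
      set π := piAut (α := θ) hsc hP with hπ
      have hmem := piAut_mem hm.1 hr hsc hP α
      have hord : (orderOf (⟨π α, hmem⟩ : E.autGroup (imageAlong θ P))).Coprime p := by
        rw [Subgroup.orderOf_mk]
        exact Nat.Coprime.coprime_dvd_left (orderOf_map_dvd π α) hαc
      have hgen := Cfsg.Agent.Lib.FusionHyperfocal.gen_mem_hyperfocal (imageAlong_le hr P)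
        (mem_pResidual_of_coprime hord) (resAlong θ hP x)
      show θ _ ∈ E.hyperfocalSubgroup p
      have e1 : (⟨(x : Ω)⁻¹ * (((α : MulAut P) x : P) : Ω), S.mul_mem (S.inv_mem (hP x.2)) (hP ((α : MulAut P) x).2)⟩ : S) =
          (⟨x, hP x.2⟩ : S)⁻¹ * ⟨((α : MulAut P) x : P), hP ((α : MulAut P) x).2⟩ := rfl
      rw [e1, map_mul, map_inv]
      have h2 := piAut_apply (α := θ) hsc hP α x
      rw [← h2, ← coe_resAlong hP x]
      exact hgen
    intro s hs
    obtain ⟨t, ht, hts⟩ := hW (Subgroup.mem_subgroupOf.mp hs)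
    have : t = s := Subtype.ext hts
    rw [← this]
    exact ht
end Cfsg.Agent.S5256
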