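import Mathlib
import Cfsg.Statements.S5284
import Cfsg.Agent.Lib.FusionAutSys
import Cfsg.Agent.Lib.FusionAbelian

set_option autoImplicit false
open Cfsg

namespace Cfsg.Agent.S5284

section chain

variable {A : Type*} [CommGroup A]

/-- Elements of exponent dividing `p ^ k`. -/
def Om (p k : ℕ) : Subgroup A := (powMonoidHom (p ^ k) : A →* A).ker

/-- The `p ^ l`-th powers. -/
def Ag (p l : ℕ) : Subgroup A := (powMonoidHom (p ^ l) : A →* A).range

/-- The steps of the characteristic filtration. -/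
def VV (p k l : ℕ) : Subgroup A := (Om p (k + 1) ⊓ Ag p l) ⊔ Om p k

/-- Invariance under all automorphisms. -/
def IsCh (C : Subgroup A) : Prop := ∀ α : MulAut A, ∀ x ∈ C, α x ∈ C

theorem mem_Om {p k : ℕ} {x : A} : x ∈ Om p k ↔ x ^ p ^ k = 1 := Iff.rfl

theorem mem_Ag {p l : ℕ} {x : A} : x ∈ Ag p l ↔ ∃ y : A, y ^ p ^ l = x := Iff.rfl

theorem isCh_Om (p k : ℕ) : IsCh (Om (A := A) p k) := by
  intro α x hx
  rw [mem_Om] at hx ⊢
  rw [← map_pow, hx, map_one]

theorem isCh_Ag (p l : ℕ) : IsCh (Ag (A := A) p l) := by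
  rintro α x ⟨y, rfl⟩
  exact ⟨α y, by simp⟩

theorem isCh_VV (p k l : ℕ) : IsCh (VV (A := A) p k l) := by
  intro α x hx
  have hle : VV (A := A) p k l ≤ (VV (A := A) p k l).comap α.toMonoidHom := by
    refine sup_le ?_ ?_
    · rintro y ⟨h1, h2⟩
      exact (le_sup_left : _ ≤ VV (A := A) p k l) ⟨isCh_Om p (k + 1) α y h1, isCh_Ag p l α y h2⟩
    · intro y hy
      exact (le_sup_right : _ ≤ VV (A := A) p k l) (isCh_Om p k α y hy)
  exact hle hx

/-- `C` is reached from the trivial subgroup by a chain of invariant subgroups with cyclic steps. -/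
def ChainTo (C : Subgroup A) : Prop :=
  ∃ (m : ℕ) (c : Fin (m + 1) → Subgroup A), c 0 = ⊥ ∧ c (Fin.last m) = C ∧ (∀ i, IsCh (c i)) ∧
    ∀ i : Fin m, c i.castSucc ≤ c i.succ ∧ ∃ x : A, c i.succ = c i.castSucc ⊔ Subgroup.zpowers x

theorem chainTo_bot : ChainTo (⊥ : Subgroup A) := by
  refine ⟨0, fun _ => ⊥, rfl, rfl, ?_, ?_⟩
  · intro _ α x hx
    rw [Subgroup.mem_bot] at hx ⊢
    rw [hx, map_one]
  · intro i
    exact i.elim0

theorem ChainTo.step {C C' : Subgroup A} (h : ChainTo C) (hC' : IsCh C') (hle : C ≤ C') (x : A)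
    (hx : C' = C ⊔ Subgroup.zpowers x) : ChainTo C' := by
  obtain ⟨m, c, h0, hl, hch, hst⟩ := h
  refine ⟨m + 1, Fin.snoc (α := fun _ => Subgroup A) c C', ?_, ?_, ?_, ?_⟩
  · have : (0 : Fin (m + 2)) = Fin.castSucc 0 := rfl
    rw [this, Fin.snoc_castSucc, h0]
  · rw [Fin.snoc_last]
  · intro i
    refine Fin.lastCases ?_ (fun j => ?_) i
    · rw [Fin.snoc_last]
      exact hC'
    · rw [Fin.snoc_castSucc]
      exact hch j
  · intro i
    refine Fin.lastCases ?_ (fun j => ?_) i
    · have e1 : (Fin.last m).succ = Fin.last (m + 1) := rfl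
      rw [e1, Fin.snoc_last, Fin.snoc_castSucc, hl]
      exact ⟨hle, x, hx⟩
    · rw [Fin.succ_castSucc, Fin.snoc_castSucc, Fin.snoc_castSucc]
      exact hst j

/-- A decomposition of a finite abelian `p`-group with pairwise distinct invariants. -/
structure Decomp (A : Type*) [CommGroup A] (p : ℕ) (ι : Type*) [Fintype ι] where
  π : ι → A →* A
  b : ι → A
  e : ι → ℕ
  prod : ∀ x, ∏ i, π i x = x
  cyc : ∀ i x, ∃ c : ℕ, π i x = b i ^ c
  ord : ∀ i, orderOf (b i) = p ^ e i
  inj : Function.Injective e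

variable {p : ℕ} {ι : Type*} [Fintype ι]

theorem comp_mem (hp : p.Prime) (d : Decomp A p ι) (k l : ℕ) (y : A) (hy : y ∈ Om p (k + 1) ⊓ Ag p l)
    (i : ι) : d.π i y ∈ VV p k (l + 1) ∨ (d.e i = k + l + 1 ∧ d.π i y ∈ Subgroup.zpowers (d.b i ^ p ^ l)) := by
  obtain ⟨hy1, z, hz⟩ := hy
  replace hy1 : y ^ p ^ (k + 1) = 1 := hy1
  replace hz : z ^ p ^ l = y := hz
  obtain ⟨c, hc⟩ := d.cyc i z
  obtain ⟨c', hc'⟩ := d.cyc i y
  have hyz : d.π i y = (d.b i ^ p ^ l) ^ c := by
    rw [← hz, map_pow, hc, ← pow_mul, ← pow_mul, mul_comm]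
  have hy2 : (d.π i y) ^ p ^ (k + 1) = 1 := by
    rw [← map_pow, hy1, map_one]
  have hord := d.ord i
  rcases lt_trichotomy (d.e i) (k + l + 1) with hlt | heq | hgt
  · -- small invariant
    left
    refine (le_sup_right : _ ≤ VV p k (l + 1)) ?_
    rw [mem_Om, hyz, ← pow_mul, ← pow_mul]
    rw [← orderOf_dvd_iff_pow_eq_one, hord]
    have : p ^ d.e i ∣ p ^ (k + l) := pow_dvd_pow _ (by omega)
    refine this.trans ?_
    rw [pow_add]
    exact ⟨c, by ring⟩
  · right
    exact ⟨heq, by rw [hyz]; exact Subgroup.npow_mem_zpowers _ c⟩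
  · left
    refine (le_sup_left : _ ≤ VV p k (l + 1)) ⟨hy2, ?_⟩
    -- the exponent is divisible by `p ^ (l + 1)`
    rw [hc', ← pow_mul, ← orderOf_dvd_iff_pow_eq_one, hord] at hy2
    have hdvd : p ^ (l + 1) ∣ c' := by
      have h1 : p ^ (l + 1 + (k + 1)) ∣ c' * p ^ (k + 1) :=
        (pow_dvd_pow p (by omega)).trans hy2
      rw [pow_add] at h1
      exact Nat.dvd_of_mul_dvd_mul_right (pow_pos hp.pos _) h1
    obtain ⟨r, rfl⟩ := hdvd
    refine ⟨d.b i ^ r, ?_⟩
    show (d.b i ^ r) ^ p ^ (l + 1) = _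
    rw [hc', ← pow_mul, mul_comm]

theorem step_exists (hp : p.Prime) (d : Decomp A p ι) (k l : ℕ) :
    ∃ x : A, VV p k l = VV p k (l + 1) ⊔ Subgroup.zpowers x := by
  classical
  have hmono : VV (A := A) p k (l + 1) ≤ VV p k l := by
    refine sup_le_sup_right (inf_le_inf_left _ ?_) _
    rintro _ ⟨y, rfl⟩
    refine ⟨y ^ p, ?_⟩
    show (y ^ p) ^ p ^ l = y ^ p ^ (l + 1)
    rw [← pow_mul, pow_succ, mul_comm]
  by_cases h : ∃ i, d.e i = k + l + 1
  · obtain ⟨i₀, hi₀⟩ := h
    refine ⟨d.b i₀ ^ p ^ l, le_antisymm ?_ ?_⟩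
    · refine sup_le ?_ ?_
      · intro y hy
        rw [← d.prod y]
        refine Subgroup.prod_mem _ (fun i _ => ?_)
        rcases comp_mem hp d k l y hy i with h1 | ⟨h1, h2⟩
        · exact (le_sup_left : _ ≤ VV p k (l + 1) ⊔ Subgroup.zpowers (d.b i₀ ^ p ^ l)) h1
        · have : i = i₀ := d.inj (h1.trans hi₀.symm)
          subst this
          exact (le_sup_right : _ ≤ VV p k (l + 1) ⊔ Subgroup.zpowers (d.b i ^ p ^ l)) h2
      · exact le_sup_of_le_left (le_sup_right : _ ≤ VV p k (l + 1))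
    · refine sup_le hmono ?_
      rw [Subgroup.zpowers_le]
      refine (le_sup_left : _ ≤ VV p k l) ⟨?_, ⟨d.b i₀, rfl⟩⟩
      show (d.b i₀ ^ p ^ l) ^ p ^ (k + 1) = 1
      rw [← pow_mul, ← pow_add, ← orderOf_dvd_iff_pow_eq_one, d.ord i₀, hi₀]
      exact pow_dvd_pow _ (by omega)
  · refine ⟨1, ?_⟩
    rw [Subgroup.zpowers_one_eq_bot, sup_bot_eq]
    refine le_antisymm (sup_le ?_ ?_) hmono
    · intro y hy
      rw [← d.prod y]
      refine Subgroup.prod_mem _ (fun i _ => ?_)
      rcases comp_mem hp d k l y hy i with h1 | ⟨h1, h2⟩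
      · exact h1
      · exact absurd ⟨i, h1⟩ h
    · exact le_sup_right

theorem chainTo_top [Finite A] (hp : p.Prime) (hA : IsPGroup p A) (d : Decomp A p ι) :
    ChainTo (⊤ : Subgroup A) := by
  haveI : Fact p.Prime := ⟨hp⟩
  obtain ⟨L, hL⟩ := IsPGroup.iff_card.1 hA
  have hall : ∀ x : A, x ^ p ^ L = 1 := by
    intro x
    rw [← hL]
    exact pow_card_eq_one'
  have hOm : ∀ k, ChainTo (Om (A := A) p k) := by
    intro k
    induction k with
    | zero =>
      have : Om (A := A) p 0 = ⊥ := by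
        ext x
        simp [mem_Om]
      rw [this]
      exact chainTo_bot
    | succ k ih =>
      have h1 : VV (A := A) p k L = Om p k := by
        apply le_antisymm
        · refine sup_le ?_ le_rfl
          rintro x ⟨-, y, rfl⟩
          show y ^ p ^ L ∈ Om p k
          rw [hall]
          exact one_mem _
        · exact le_sup_right
      have h2 : VV (A := A) p k 0 = Om p (k + 1) := by
        apply le_antisymm
        · refine sup_le inf_le_left ?_
          intro x hx
          rw [mem_Om] at hx ⊢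
          rw [pow_succ, pow_mul, hx, one_pow]
        · intro x hx
          refine (le_sup_left : _ ≤ VV p k 0) ⟨hx, x, by simp⟩
      have h3 : ∀ d' : ℕ, d' ≤ L → ChainTo (VV (A := A) p k (L - d')) := by
        intro d' 
        induction d' with
        | zero =>
          intro _
          rw [Nat.sub_zero, h1]
          exact ih
        | succ d' ihd =>
          intro hd
          have ih2 := ihd (by omega)
          have e : L - d' = (L - (d' + 1)) + 1 := by omega
          rw [e] at ih2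
          obtain ⟨x, hx⟩ := step_exists hp d k (L - (d' + 1))
          refine ih2.step (isCh_VV p k _) ?_ x hx
          rw [hx]
          exact le_sup_left
      have h4 := h3 L le_rfl
      rwa [Nat.sub_self, h2] at h4
  have : Om (A := A) p L = ⊤ := by
    ext x
    simp [mem_Om, hall]
  rw [← this]
  exact hOm L

/-- Splitting off two coordinates. -/
noncomputable def piSplit2 {κ : Type*} [DecidableEq κ] (β : κ → Type*) [∀ k, CommGroup (β k)] (i j : κ) (hij : i ≠ j) :
    (∀ k, β k) ≃* (β i × β j) × (∀ k : {k // k ≠ i ∧ k ≠ j}, β k.1) := by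
  classical
  let f : (∀ k, β k) →* (β i × β j) × (∀ k : {k // k ≠ i ∧ k ≠ j}, β k.1) :=
    { toFun := fun x => ((x i, x j), fun k => x k.1)
      map_one' := rfl
      map_mul' := fun _ _ => rfl }
  refine MulEquiv.ofBijective f ⟨?_, ?_⟩
  · intro x y h
    have h1 : x i = y i := congrArg (fun z => z.1.1) h
    have h2 : x j = y j := congrArg (fun z => z.1.2) h
    have h3 : ∀ k : {k // k ≠ i ∧ k ≠ j}, x k.1 = y k.1 := fun k =>
      congrFun (congrArg (fun z => z.2) h) k
    funext k
    by_cases hk : k = i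
    · subst hk; exact h1
    by_cases hk' : k = j
    · subst hk'; exact h2
    exact h3 ⟨k, hk, hk'⟩
  · rintro ⟨⟨u, v⟩, w⟩
    let w' : ∀ k, β k := fun k => if h : k ≠ i ∧ k ≠ j then w ⟨k, h⟩ else 1
    refine ⟨Function.update (Function.update w' i u) j v, ?_⟩
    show ((Function.update (Function.update w' i u) j v i, Function.update (Function.update w' i u) j v j), _) = _
    rw [Function.update_of_ne hij, Function.update_self, Function.update_self]
    congr 1
    funext k
    obtain ⟨k, hk, hk'⟩ := k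
    show Function.update (Function.update w' i u) j v k = _
    rw [Function.update_of_ne hk', Function.update_of_ne hk]
    exact dif_pos ⟨hk, hk'⟩

/-- Changing the modulus along an equality. -/
def zcast {a b : ℕ} (h : a = b) : Multiplicative (ZMod a) ≃* Multiplicative (ZMod b) :=
  h ▸ MulEquiv.refl _

theorem exists_decomp [Finite A] (hp : p.Prime) (hA : IsPGroup p A)
    (h : ¬ ∃ (n : ℕ) (H : Type) (_ : CommGroup H), 0 < n ∧
      Nonempty (A ≃* (Multiplicative (ZMod (p ^ n)) × Multiplicative (ZMod (p ^ n))) × H)) :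
    ∃ (ι : Type) (_ : Fintype ι), Nonempty (Decomp A p ι) := by
  classical
  obtain ⟨ι, _, n, hn, ⟨θ⟩⟩ := CommGroup.equiv_prod_multiplicative_zmod_of_finite A
  let β : ι → Type := fun i => Multiplicative (ZMod (n i))
  let σ : ∀ i, β i →* ∀ k, β k := fun i => MonoidHom.mulSingle β i
  let ev : ∀ i, (∀ k, β k) →* β i := fun i => Pi.evalMonoidHom β i
  let g : ∀ i, β i := fun i => Multiplicative.ofAdd (1 : ZMod (n i))
  let b : ι → A := fun i => θ.symm (σ i (g i))
  have hordg : ∀ i, orderOf (g i) = n i := by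
    intro i
    show orderOf (Multiplicative.ofAdd (1 : ZMod (n i))) = n i
    rw [orderOf_ofAdd_eq_addOrderOf]
    exact ZMod.addOrderOf_one _
  have hordb : ∀ i, orderOf (b i) = n i := by
    intro i
    have h1 : orderOf (b i) = orderOf (σ i (g i)) :=
      orderOf_injective θ.symm.toMonoidHom θ.symm.injective _
    have h2 : orderOf (σ i (g i)) = orderOf (g i) :=
      orderOf_injective (σ i) (Pi.mulSingle_injective i) _
    rw [h1, h2, hordg]
  have hpow : ∀ i, ∃ e : ℕ, n i = p ^ e := by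
    intro i
    obtain ⟨k, hk⟩ := hA (b i)
    have : n i ∣ p ^ k := by
      rw [← hordb i]
      exact orderOf_dvd_of_pow_eq_one hk
    obtain ⟨m, -, hm⟩ := (Nat.dvd_prime_pow hp).1 this
    exact ⟨m, hm⟩
  choose e he using hpow
  refine ⟨ι, inferInstance, ⟨⟨fun i => θ.symm.toMonoidHom.comp ((σ i).comp ((ev i).comp θ.toMonoidHom)),
    b, e, ?_, ?_, ?_, ?_⟩⟩⟩
  · intro x
    show ∏ i, θ.symm (σ i (θ x i)) = x
    rw [← map_prod]
    have : ∏ i, σ i (θ x i) = θ x := Finset.univ_prod_mulSingle _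
    rw [this]
    simp
  · intro i x
    haveI : NeZero (n i) := ⟨by have := hn i; omega⟩
    refine ⟨ZMod.val (Multiplicative.toAdd (θ x i)), ?_⟩
    show θ.symm (σ i (θ x i)) = (θ.symm (σ i (g i))) ^ _
    rw [← map_pow, ← map_pow]
    congr 2
    show θ x i = (Multiplicative.ofAdd (1 : ZMod (n i))) ^ _
    rw [← ofAdd_nsmul, nsmul_one, ZMod.natCast_zmod_val]
    rfl
  · intro i
    rw [hordb, he]
  · intro i j hij
    by_contra hne
    apply h
    have hpos : 0 < e i := by
      have h1 := hn i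
      rw [he i] at h1
      rcases Nat.eq_zero_or_pos (e i) with h0 | h0
      · rw [h0, pow_zero] at h1
        omega
      · exact h0
    refine ⟨e i, (∀ k : {k // k ≠ i ∧ k ≠ j}, β k.1), inferInstance, hpos, ⟨?_⟩⟩
    refine θ.trans ((piSplit2 β i j hne).trans ?_)
    refine MulEquiv.prodCongr (MulEquiv.prodCongr (zcast (he i)) (zcast ((he j).trans ?_))) (MulEquiv.refl _)
    rw [hij]

end chain

section linear

open Matrix

variable {p : ℕ} [Fact p.Prime]

/-- The companion matrix. -/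
def XX (b c : ZMod p) : Matrix (Fin 2) (Fin 2) (ZMod p) := !![0, -c; 1, -b]

theorem exists_irred : ∃ b c : ZMod p, ∀ r : ZMod p, r ^ 2 + b * r + c ≠ 0 := by
  let f : ZMod p × ZMod p → ZMod p × ZMod p := fun q => (-(q.1 + q.2), q.1 * q.2)
  have hnot : ¬ Function.Injective f := by
    intro h
    have : ((0 : ZMod p), (1 : ZMod p)) = (1, 0) := h (by simp [f])
    simp at this
  have hnots : ¬ Function.Surjective f := fun h => hnot (Finite.injective_iff_surjective.2 h)
  simp only [Function.Surjective, not_forall, not_exists] at hnots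
  obtain ⟨⟨b, c⟩, h⟩ := hnots
  refine ⟨b, c, fun r hr => h (r, -b - r) ?_⟩
  simp only [f, Prod.mk.injEq]
  constructor
  · ring
  · linear_combination -hr

theorem no_eigen (b c : ZMod p) (hf : ∀ r : ZMod p, r ^ 2 + b * r + c ≠ 0) (a : ℕ)
    (v : Fin 2 → ZMod p) (hv : v ≠ 0) (t : ZMod p) : ((XX b c) ^ (p ^ a)) *ᵥ v ≠ t • v := by
  intro h
  have hdet : (XX b c - t • (1 : Matrix (Fin 2) (Fin 2) (ZMod p))).det ≠ 0 := by
    have : (XX b c - t • (1 : Matrix (Fin 2) (Fin 2) (ZMod p))).det = t ^ 2 + b * t + c := by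
      simp [XX, Matrix.det_fin_two]
      ring
    rw [this]
    exact hf t
  have hc : Commute (XX b c) (t • (1 : Matrix (Fin 2) (Fin 2) (ZMod p))) :=
    (Commute.one_right _).smul_right t
  have hexp : (XX b c - t • (1 : Matrix (Fin 2) (Fin 2) (ZMod p))) ^ p ^ a =
      XX b c ^ p ^ a - t • (1 : Matrix (Fin 2) (Fin 2) (ZMod p)) := by
    rw [sub_pow_char_pow_of_commute _ _ hc]
    congr 1
    rw [smul_pow, one_pow, ZMod.pow_card_pow]
  have h0 : ((XX b c - t • (1 : Matrix (Fin 2) (Fin 2) (ZMod p))) ^ p ^ a) *ᵥ v = 0 := by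
    rw [hexp, Matrix.sub_mulVec, h, Matrix.smul_mulVec, Matrix.one_mulVec, sub_self]
  have hdet2 : ((XX b c - t • (1 : Matrix (Fin 2) (Fin 2) (ZMod p))) ^ p ^ a).det ≠ 0 := by
    rw [Matrix.det_pow]
    exact pow_ne_zero _ hdet
  exact hv (Matrix.eq_zero_of_mulVec_eq_zero hdet2 h0)

variable {A : Type*} [CommGroup A] {W : Type*} [AddCommGroup W] [Module (ZMod p) W]

theorem mult_of_cyclic (κ : Multiplicative W →* A) (c : Subgroup A) (x : A)
    (hc : ∀ y : W, κ (Multiplicative.ofAdd y) ∈ c → y = 0) (v w : W)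
    (hv : κ (Multiplicative.ofAdd v) ∈ c ⊔ Subgroup.zpowers x)
    (hw : κ (Multiplicative.ofAdd w) ∈ c ⊔ Subgroup.zpowers x) (hv0 : v ≠ 0) :
    ∃ t : ZMod p, w = t • v := by
  let mk : A →* A ⧸ c := QuotientGroup.mk' c
  let f : Multiplicative W →* A ⧸ c := mk.comp κ
  have hL : c ⊔ Subgroup.zpowers x ≤ (Subgroup.zpowers (mk x)).comap mk := by
    refine sup_le ?_ ?_
    · intro y hy
      have : mk y = 1 := (QuotientGroup.eq_one_iff y).2 hy
      rw [Subgroup.mem_comap, this]
      exact one_mem _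
    · rw [Subgroup.zpowers_le]
      exact Subgroup.mem_zpowers _
  have hfinj : Function.Injective f := by
    rw [injective_iff_map_eq_one]
    intro y hy
    have h1 : κ y ∈ c := (QuotientGroup.eq_one_iff _).1 hy
    have h2 := hc (Multiplicative.toAdd y) h1
    exact h2
  let C : Subgroup (Multiplicative W) :=
    Subgroup.closure {Multiplicative.ofAdd v, Multiplicative.ofAdd w}
  have hC : C ≤ (Subgroup.zpowers (mk x)).comap f := by
    rw [Subgroup.closure_le]
    rintro y (rfl | rfl)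
    · exact hL hv
    · exact hL hw
  let g : C →* Subgroup.zpowers (mk x) :=
    (f.comp C.subtype).codRestrict _ (fun y => hC y.2)
  have hg : Function.Injective g := by
    intro y y' h
    have h1 : f y = f y' := congrArg Subtype.val h
    exact Subtype.ext (hfinj h1)
  haveI : IsCyclic C := isCyclic_of_injective g hg
  obtain ⟨g₀, hg₀⟩ := IsCyclic.exists_generator (α := C)
  have hvC : Multiplicative.ofAdd v ∈ C := Subgroup.subset_closure (by simp)
  have hwC : Multiplicative.ofAdd w ∈ C := Subgroup.subset_closure (by simp)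
  obtain ⟨a, ha⟩ := Subgroup.mem_zpowers_iff.1 (hg₀ ⟨_, hvC⟩)
  obtain ⟨d, hd⟩ := Subgroup.mem_zpowers_iff.1 (hg₀ ⟨_, hwC⟩)
  set z : W := Multiplicative.toAdd (g₀ : Multiplicative W) with hz
  have hva : v = a • z := by
    have := congrArg (fun y : C => Multiplicative.toAdd (y : Multiplicative W)) ha
    simpa using this.symm
  have hwd : w = d • z := by
    have := congrArg (fun y : C => Multiplicative.toAdd (y : Multiplicative W)) hd
    simpa using this.symm
  have ha0 : (a : ZMod p) ≠ 0 := by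
    intro h0
    apply hv0
    rw [hva, ← Int.cast_smul_eq_zsmul (ZMod p), h0, zero_smul]
  refine ⟨(d : ZMod p) * (a : ZMod p)⁻¹, ?_⟩
  rw [hwd, hva, ← Int.cast_smul_eq_zsmul (ZMod p), ← Int.cast_smul_eq_zsmul (ZMod p), smul_smul,
    mul_assoc, inv_mul_cancel₀ ha0, mul_one]

theorem no_chain (κ : Multiplicative W →* A) (hκ : Function.Injective κ) (β : MulAut A)
    (Ā : W → W) (hint : ∀ y, β (κ (Multiplicative.ofAdd y)) = κ (Multiplicative.ofAdd (Ā y)))
    (hno : ∀ v : W, v ≠ 0 → ∀ t : ZMod p, Ā v ≠ t • v) (m : ℕ) (c : Fin (m + 1) → Subgroup A)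
    (h0 : c 0 = ⊥) (hl : c (Fin.last m) = ⊤) (hinv : ∀ i, ∀ y ∈ c i, β y ∈ c i)
    (hst : ∀ i : Fin m, ∃ x, c i.succ = c i.castSucc ⊔ Subgroup.zpowers x) (w₀ : W) (hw₀ : w₀ ≠ 0) :
    False := by
  have key : ∀ i : Fin (m + 1), ∀ y : W, κ (Multiplicative.ofAdd y) ∈ c i → y = 0 := by
    intro i
    induction i using Fin.induction with
    | zero =>
      intro y hy
      rw [h0, Subgroup.mem_bot] at hy
      have := hκ (hy.trans (map_one κ).symm)
      exact this
    | succ j ih =>
      intro y hy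
      by_contra hy0
      obtain ⟨x, hx⟩ := hst j
      have h1 : κ (Multiplicative.ofAdd (Ā y)) ∈ c j.succ := by
        rw [← hint]
        exact hinv _ _ hy
      rw [hx] at hy h1
      obtain ⟨t, ht⟩ := mult_of_cyclic (p := p) κ _ x ih y (Ā y) hy h1 hy0
      exact hno y hy0 t ht
  exact hw₀ (key (Fin.last m) w₀ (by rw [hl]; trivial))

end linear

section construction

open Matrix

variable {p : ℕ} [Fact p.Prime]

/-- The embedding of the prime field in the socle of `ZMod (p ^ n)`. -/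
noncomputable def jj (n : ℕ) (hn : 0 < n) : ZMod p →+ ZMod (p ^ n) :=
  ZMod.lift p ⟨zmultiplesHom (ZMod (p ^ n)) ((p : ZMod (p ^ n)) ^ (n - 1)), by
    have : (p : ℤ) • ((p : ZMod (p ^ n)) ^ (n - 1)) = ((p ^ n : ℕ) : ZMod (p ^ n)) := by
      obtain ⟨n, rfl⟩ : ∃ m, n = m + 1 := ⟨n - 1, by omega⟩
      simp [pow_succ']
    simpa [zmultiplesHom] using this.trans (ZMod.natCast_self _)⟩

theorem jj_natCast (n : ℕ) (hn : 0 < n) (x : ℕ) :
    jj (p := p) n hn (x : ZMod p) = (x : ZMod (p ^ n)) * (p : ZMod (p ^ n)) ^ (n - 1) := by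
  have h := ZMod.lift_coe (n := p) ⟨zmultiplesHom (ZMod (p ^ n)) ((p : ZMod (p ^ n)) ^ (n - 1)), by
    have : (p : ℤ) • ((p : ZMod (p ^ n)) ^ (n - 1)) = ((p ^ n : ℕ) : ZMod (p ^ n)) := by
      obtain ⟨n, rfl⟩ : ∃ m, n = m + 1 := ⟨n - 1, by omega⟩
      simp [pow_succ']
    simpa [zmultiplesHom] using this.trans (ZMod.natCast_self _)⟩ (x : ℤ)
  simpa [jj, zmultiplesHom] using h

theorem jj_mul (n : ℕ) (hn : 0 < n) (c a : ZMod p) :
    jj n hn (c * a) = ((c.val : ℕ) : ZMod (p ^ n)) * jj n hn a := by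
  have e : c * a = ((c.val * a.val : ℕ) : ZMod p) := by simp
  have e' : a = (a.val : ZMod p) := by simp
  rw [e, jj_natCast]
  conv_rhs => rw [e', jj_natCast]
  rw [Nat.cast_mul, mul_assoc]

theorem jj_injective (n : ℕ) (hn : 0 < n) : Function.Injective (jj (p := p) n hn) := by
  rw [injective_iff_map_eq_zero]
  intro a ha
  have e' : a = (a.val : ZMod p) := by simp
  rw [e', jj_natCast] at ha
  have h1 : ((a.val * p ^ (n - 1) : ℕ) : ZMod (p ^ n)) = 0 := by
    rw [Nat.cast_mul, Nat.cast_pow]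
    exact ha
  rw [ZMod.natCast_eq_zero_iff] at h1
  have h2 : p ^ n = p * p ^ (n - 1) := by
    obtain ⟨n, rfl⟩ : ∃ m, n = m + 1 := ⟨n - 1, by omega⟩
    simp [pow_succ']
  rw [h2] at h1
  have hpp : 0 < p ^ (n - 1) := pow_pos (Fact.out : p.Prime).pos _
  have h3 : p ∣ a.val := Nat.dvd_of_mul_dvd_mul_right hpp h1
  rw [e', (ZMod.natCast_eq_zero_iff _ _).2 h3]

theorem exists_beta {A : Type*} [CommGroup A] [Finite A] (n : ℕ) (hn : 0 < n) (H : Type*) [CommGroup H]
    (θ : A ≃* (Multiplicative (ZMod (p ^ n)) × Multiplicative (ZMod (p ^ n))) × H) :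
    ∃ (β : MulAut A) (m : ℕ), m.Coprime p ∧ β ^ m = 1 ∧
      ∃ (κ : Multiplicative (Fin 2 → ZMod p) →* A) (Ā : (Fin 2 → ZMod p) → (Fin 2 → ZMod p)),
        Function.Injective κ ∧ (∀ y, β (κ (Multiplicative.ofAdd y)) = κ (Multiplicative.ofAdd (Ā y))) ∧
        ∀ v : Fin 2 → ZMod p, v ≠ 0 → ∀ t : ZMod p, Ā v ≠ t • v := by
  classical
  have hp : p.Prime := Fact.out
  obtain ⟨b, c, hf⟩ := exists_irred (p := p)
  have hc0 : c ≠ 0 := by
    intro h
    apply hf 0
    rw [h]
    ring
  set R := ZMod (p ^ n) with hR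
  let b' : R := ((b.val : ℕ) : R)
  let c' : R := ((c.val : ℕ) : R)
  have hcu : IsUnit c' := by
    refine (ZMod.isUnit_iff_coprime _ _).2 ?_
    refine Nat.Coprime.pow_right _ ?_
    rw [Nat.coprime_comm, hp.coprime_iff_not_dvd]
    intro h
    apply hc0
    have : ((c.val : ℕ) : ZMod p) = 0 := (ZMod.natCast_eq_zero_iff _ _).2 h
    simpa using this
  let T := (Multiplicative R × Multiplicative R) × H
  haveI : Finite T := Finite.of_equiv A θ.toEquiv
  let τ : T →* T :=
    { toFun := fun x => ((Multiplicative.ofAdd (-(c' * Multiplicative.toAdd x.1.2)),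
        Multiplicative.ofAdd (Multiplicative.toAdd x.1.1 - b' * Multiplicative.toAdd x.1.2)), x.2)
      map_one' := by
        refine Prod.ext (Prod.ext ?_ ?_) rfl
        · simp
        · simp
      map_mul' := by
        intro x y
        refine Prod.ext (Prod.ext ?_ ?_) rfl
        · show Multiplicative.ofAdd _ = Multiplicative.ofAdd _ * Multiplicative.ofAdd _
          rw [← ofAdd_add]
          congr 1
          have e2 : Multiplicative.toAdd (x * y).1.2 =
            Multiplicative.toAdd x.1.2 + Multiplicative.toAdd y.1.2 := rfl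
          rw [e2]
          ring
        · show Multiplicative.ofAdd _ = Multiplicative.ofAdd _ * Multiplicative.ofAdd _
          rw [← ofAdd_add]
          congr 1
          have e1 : Multiplicative.toAdd (x * y).1.1 =
            Multiplicative.toAdd x.1.1 + Multiplicative.toAdd y.1.1 := rfl
          have e2 : Multiplicative.toAdd (x * y).1.2 =
            Multiplicative.toAdd x.1.2 + Multiplicative.toAdd y.1.2 := rfl
          rw [e1, e2]
          ring }
  have hτinj : Function.Injective τ := by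
    rw [injective_iff_map_eq_one]
    intro x hx
    have h1 : -(c' * Multiplicative.toAdd x.1.2) = 0 := congrArg (fun z : T => Multiplicative.toAdd z.1.1) hx
    have h2 : Multiplicative.toAdd x.1.1 - b' * Multiplicative.toAdd x.1.2 = 0 :=
      congrArg (fun z : T => Multiplicative.toAdd z.1.2) hx
    have h3 : x.2 = 1 := congrArg (fun z : T => z.2) hx
    have h4 : Multiplicative.toAdd x.1.2 = 0 := by
      have := neg_eq_zero.1 h1
      exact (hcu.mul_right_eq_zero).1 this
    have h5 : Multiplicative.toAdd x.1.1 = 0 := by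
      rw [h4, mul_zero, sub_zero] at h2
      exact h2
    exact Prod.ext (Prod.ext h5 h4) h3
  let τ' : T ≃* T := MulEquiv.ofBijective τ (Finite.injective_iff_bijective.1 hτinj)
  let β₀ : MulAut A := θ.trans (τ'.trans θ.symm)
  have hord : orderOf β₀ ≠ 0 := (orderOf_pos β₀).ne'
  obtain ⟨a, m, hm, ham⟩ := Nat.exists_eq_pow_mul_and_not_dvd hord p hp.ne_one
  let κ : Multiplicative (Fin 2 → ZMod p) →* A :=
    { toFun := fun y => θ.symm ((Multiplicative.ofAdd (jj n hn (Multiplicative.toAdd y 0)),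
        Multiplicative.ofAdd (jj n hn (Multiplicative.toAdd y 1))), 1)
      map_one' := by
        rw [← map_one θ.symm]
        congr 1
        refine Prod.ext (Prod.ext ?_ ?_) rfl
        · show Multiplicative.ofAdd (jj n hn 0) = 1
          rw [map_zero]
          rfl
        · show Multiplicative.ofAdd (jj n hn 0) = 1
          rw [map_zero]
          rfl
      map_mul' := by
        intro x y
        rw [← map_mul]
        congr 1
        refine Prod.ext (Prod.ext ?_ ?_) (by simp)
        · show Multiplicative.ofAdd (jj n hn _) = Multiplicative.ofAdd _ * Multiplicative.ofAdd _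
          rw [← ofAdd_add, ← map_add]
          rfl
        · show Multiplicative.ofAdd (jj n hn _) = Multiplicative.ofAdd _ * Multiplicative.ofAdd _
          rw [← ofAdd_add, ← map_add]
          rfl }
  have hκinj : Function.Injective κ := by
    rw [injective_iff_map_eq_one]
    intro y hy
    have h1 : ((Multiplicative.ofAdd (jj n hn (Multiplicative.toAdd y 0)),
        Multiplicative.ofAdd (jj n hn (Multiplicative.toAdd y 1))), (1 : H)) = 1 := by
      have := congrArg θ hy
      simpa [κ] using this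
    have h2 : jj n hn (Multiplicative.toAdd y 0) = 0 := congrArg (fun z : T => Multiplicative.toAdd z.1.1) h1
    have h3 : jj n hn (Multiplicative.toAdd y 1) = 0 := congrArg (fun z : T => Multiplicative.toAdd z.1.2) h1
    have h4 := (jj_injective n hn) (h2.trans (map_zero _).symm)
    have h5 := (jj_injective n hn) (h3.trans (map_zero _).symm)
    show Multiplicative.toAdd y = 0
    funext i
    fin_cases i
    · exact h4
    · exact h5
  have hκ₀ : ∀ y, β₀ (κ (Multiplicative.ofAdd y)) = κ (Multiplicative.ofAdd (XX b c *ᵥ y)) := by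
    intro y
    show θ.symm (τ (θ (θ.symm _))) = θ.symm _
    rw [MulEquiv.apply_symm_apply]
    congr 1
    refine Prod.ext (Prod.ext ?_ ?_) rfl
    · show Multiplicative.ofAdd (-(c' * jj n hn (y 1))) = Multiplicative.ofAdd (jj n hn ((XX b c *ᵥ y) 0))
      congr 1
      have e : (XX b c *ᵥ y) 0 = -(c * y 1) := by
        simp [XX, Matrix.mulVec, dotProduct, Fin.sum_univ_two]
      rw [e, map_neg, jj_mul]
    · show Multiplicative.ofAdd (jj n hn (y 0) - b' * jj n hn (y 1)) = Multiplicative.ofAdd (jj n hn ((XX b c *ᵥ y) 1))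
      congr 1
      have e : (XX b c *ᵥ y) 1 = y 0 - b * y 1 := by
        simp [XX, Matrix.mulVec, dotProduct, Fin.sum_univ_two, sub_eq_add_neg]
      rw [e, map_sub, jj_mul]
  have hκe : ∀ (e : ℕ) (y : Fin 2 → ZMod p), (β₀ ^ e) (κ (Multiplicative.ofAdd y)) =
      κ (Multiplicative.ofAdd ((XX b c ^ e) *ᵥ y)) := by
    intro e
    induction e with
    | zero => intro y; simp
    | succ e ih =>
      intro y
      rw [pow_succ]
      show (β₀ ^ e) (β₀ (κ (Multiplicative.ofAdd y))) = _
      rw [hκ₀, ih, Matrix.mulVec_mulVec, pow_succ]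
  refine ⟨β₀ ^ p ^ a, m, ?_, ?_, κ, fun y => (XX b c ^ p ^ a) *ᵥ y, hκinj, fun y => hκe _ y, ?_⟩
  · rw [Nat.coprime_comm, hp.coprime_iff_not_dvd]
    exact hm
  · rw [← pow_mul, ← ham]
    exact pow_orderOf_eq_one _
  · intro v hv t
    exact no_eigen b c hf a v hv t

end construction

/-- Let S be a finite abelian p-group. Every saturated fusion system over S is supersoluble (S has a chain of F-strongly closed subgroups from 1 to S with cyclic steps) if and only if the invariants of S are pairwise distinct, that is, S is not isomorphic to a direct product (Z/p^n × Z/p^n) × H with n ≥ 1. -/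
theorem result {Ω : Type*} [Group Ω] {S : Subgroup Ω} [Finite S] (p : ℕ) [Fact p.Prime] (hS : IsPGroup p ↥S) (hab : IsMulCommutative ↥S) : (∀ F : Cfsg.FusionSystem S, F.IsSaturated p → (∃ (m : ℕ) (c : Fin (m + 1) → Subgroup Ω), c 0 = ⊥ ∧ c (Fin.last m) = S ∧ (∀ i : Fin (m + 1), F.StronglyClosed (c i)) ∧ ∀ i : Fin m, c i.castSucc ≤ c i.succ ∧ ∃ x ∈ S, c i.succ = c i.castSucc ⊔ Subgroup.zpowers x)) ↔ ¬ ∃ (n : ℕ) (H : Type) (_ : CommGroup H), 0 < n ∧ Nonempty (↥S ≃* (Multiplicative (ZMod (p ^ n)) × Multiplicative (ZMod (p ^ n))) × H) := by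
  have hp : p.Prime := Fact.out
  have hcomm : ∀ a b : S, a * b = b * a := fun a b => hab.is_comm.comm a b
  letI : CommGroup S := { (inferInstance : Group S) with mul_comm := hcomm }
  have habS : ∀ x ∈ S, ∀ y ∈ S, x * y = y * x := fun x hx y hy =>
    congrArg Subtype.val (hcomm ⟨x, hx⟩ ⟨y, hy⟩)
  constructor
  · rintro hall ⟨n, H, _, hn, ⟨θ⟩⟩
    obtain ⟨β, m, hm, hβ, κ, Ā, hκ, hint, hno⟩ := exists_beta (p := p) n hn H θ
    let D : Subgroup (MulAut S) := Subgroup.zpowers β
    have hInn : Cfsg.Inn S ≤ D := by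
      rintro _ ⟨g, rfl⟩
      have : MulAut.conj g = 1 := by
        ext x
        simp [hcomm g x]
      rw [this]
      exact one_mem _
    have hpow : ∀ b ∈ D, b ^ m ∈ Cfsg.Inn S := by
      intro b hb
      obtain ⟨z, rfl⟩ := Subgroup.mem_zpowers_iff.1 hb
      have : (β ^ z) ^ m = 1 := by
        rw [← zpow_natCast, zpow_comm, zpow_natCast, hβ, one_zpow]
      rw [this]
      exact one_mem _
    have hsat := Cfsg.Agent.Lib.FusionAutSys.autSystem_isSaturated (D := D) (hD := hInn) hS hm hpow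
    obtain ⟨M, c, h0, hl, hsc, hst⟩ := hall _ hsat
    have hcS : ∀ i, c i ≤ S := fun i => (hsc i).1
    have hinv : ∀ i, ∀ y ∈ (c i).subgroupOf S, β y ∈ (c i).subgroupOf S := by
      intro i y hy
      rw [Subgroup.mem_subgroupOf] at hy ⊢
      let φ : c i →* Ω := S.subtype.comp (β.toMonoidHom.comp (Subgroup.inclusion (hcS i)))
      have hφ : φ ∈ (Cfsg.Agent.Lib.FusionAutSys.autSystem S D hInn).Hom (c i) :=
        ⟨hcS i, β, Subgroup.mem_zpowers β, fun x => rfl⟩
      exact (hsc i).2 (c i) le_rfl φ hφ ⟨y, hy⟩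
    have hst' : ∀ i : Fin M, ∃ x : S, (c i.succ).subgroupOf S =
        (c i.castSucc).subgroupOf S ⊔ Subgroup.zpowers x := by
      intro i
      obtain ⟨-, x, hx, hx'⟩ := hst i
      refine ⟨⟨x, hx⟩, ?_⟩
      apply Subgroup.map_injective S.subtype_injective
      rw [Subgroup.map_sup, MonoidHom.map_zpowers, Subgroup.map_subgroupOf_eq_of_le (hcS _),
        Subgroup.map_subgroupOf_eq_of_le (hcS _), hx']
      rfl
    refine no_chain (p := p) κ hκ β Ā hint hno M (fun i => (c i).subgroupOf S) ?_ ?_ hinv hst'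
      (Pi.single 0 1) ?_
    · show (c 0).subgroupOf S = ⊥
      rw [h0, Subgroup.bot_subgroupOf]
    · show (c (Fin.last M)).subgroupOf S = ⊤
      rw [hl, Subgroup.subgroupOf_self]
    · intro h
      have := congrFun h 0
      simp at this
  · intro hno F hF
    obtain ⟨ι, _, ⟨d⟩⟩ := exists_decomp hp hS hno
    obtain ⟨m, c, h0, hl, hch, hst⟩ := chainTo_top hp hS d
    refine ⟨m, fun i => (c i).map S.subtype, ?_, ?_, ?_, ?_⟩
    · show (c 0).map S.subtype = ⊥
      rw [h0, Subgroup.map_bot]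
    · show (c (Fin.last m)).map S.subtype = S
      rw [hl, ← MonoidHom.range_eq_map, Subgroup.range_subtype]
    · intro i
      refine ⟨Subgroup.map_subtype_le _, fun R hR φ hφ x => ?_⟩
      obtain ⟨α, -, hα⟩ := Cfsg.Agent.Lib.FusionAbelian.exists_aut_of_abelian (p := p) hF habS hφ
      obtain ⟨y, hy, hy'⟩ := hR x.2
      rw [← hα x]
      refine ⟨α ⟨x, _⟩, hch i α _ ?_, rfl⟩
      have : (⟨(x : Ω), (Cfsg.FusionSystem.le_of_mem F hφ).1 x.2⟩ : S) = y := Subtype.ext hy'.symm
      rw [this]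
      exact hy
    · intro i
      obtain ⟨hle, x, hx⟩ := hst i
      refine ⟨Subgroup.map_mono hle, x.1, x.2, ?_⟩
      show (c i.succ).map S.subtype = (c i.castSucc).map S.subtype ⊔ Subgroup.zpowers x.1
      rw [hx, Subgroup.map_sup, MonoidHom.map_zpowers]
      rfl

end Cfsg.Agent.S5284
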