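import Mathlib
import Cfsg.Agent.Lib.FusionNormalCrit
import Cfsg.Agent.S5145
import Cfsg.Agent.S5290
import Cfsg.Statements.S5291

set_option autoImplicit false
open Cfsg

namespace Cfsg.Agent.S5291

open Cfsg.FusionSystem Cfsg.Agent.Lib.FusionAlperin Cfsg.Agent.Lib.FusionNormalSys
open Cfsg.Agent.Lib.FusionNormalCrit

variable {Ω : Type*} [Group Ω] {S T : Subgroup Ω}

/-- The image of `A` (intersected with `T`) under an automorphism of `T`. -/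
abbrev img (α : MulAut T) (A : Subgroup Ω) : Subgroup Ω :=
  (A.subgroupOf T).map (T.subtype.comp α.toMonoidHom)

theorem mem_img {α : MulAut T} {A : Subgroup Ω} {y : Ω} :
    y ∈ img α A ↔ ∃ z : T, (z : Ω) ∈ A ∧ ((α z : T) : Ω) = y := by
  constructor
  · rintro ⟨z, hz, rfl⟩
    exact ⟨z, Subgroup.mem_subgroupOf.mp hz, rfl⟩
  · rintro ⟨z, hz, rfl⟩
    exact ⟨z, Subgroup.mem_subgroupOf.mpr hz, rfl⟩

theorem img_le (α : MulAut T) (A : Subgroup Ω) : img α A ≤ T := by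
  intro y hy
  obtain ⟨z, -, rfl⟩ := mem_img.mp hy
  exact (α z).2

variable {E : FusionSystem T} {F : FusionSystem S}

/-- The invariance clause of an invariant subsystem. -/
def Inv (E : FusionSystem T) (F : FusionSystem S) : Prop :=
  ∀ (P : Subgroup Ω) (hPT : P ≤ T) (φ : P →* Ω), φ ∈ E.Hom P → ∀ α ∈ F.autGroup T,
      ∃ χ ∈ E.Hom ((P.subgroupOf T).map (T.subtype.comp α.toMonoidHom)),
        ∀ (x : P) (hφx : φ x ∈ T)
          (hαx : ((α ⟨x, hPT x.2⟩ : T) : Ω) ∈ (P.subgroupOf T).map (T.subtype.comp α.toMonoidHom)),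
          χ ⟨(α ⟨x, hPT x.2⟩ : T), hαx⟩ = ((α ⟨φ x, hφx⟩ : T) : Ω)

theorem isNormal_img (hinv : Inv E F) {R : Subgroup Ω} (hR : E.IsNormal R) {α : MulAut T}
    (hα : α ∈ F.autGroup T) : E.IsNormal (img α R) := by
  have hRT : R ≤ T := hR.1
  refine ⟨img_le α R, fun P φ hφ => ?_⟩
  have hPT : P ≤ T := hom_le hφ
  have hαi : α⁻¹ ∈ F.autGroup T := inv_mem hα
  obtain ⟨χ, hχ, hχe⟩ := hinv P hPT φ hφ α⁻¹ hαi
  have hP'T : img α⁻¹ P ≤ T := img_le _ _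
  obtain ⟨ψ, hψ, hψ1, hψ2⟩ := hR.2 _ χ hχ
  have hDT : img α⁻¹ P ⊔ R ≤ T := sup_le hP'T hRT
  obtain ⟨χ', hχ', hχ'e⟩ := hinv (img α⁻¹ P ⊔ R) hDT ψ hψ α hα
  have hsub : P ⊔ img α R ≤ img α (img α⁻¹ P ⊔ R) := by
    apply sup_le
    · intro x hx
      rw [mem_img]
      refine ⟨α⁻¹ ⟨x, hPT hx⟩, ?_, by simp⟩
      exact Subgroup.mem_sup_left (mem_img.mpr ⟨⟨x, hPT hx⟩, hx, rfl⟩)
    · intro y hy
      obtain ⟨z, hz, rfl⟩ := mem_img.mp hy
      exact mem_img.mpr ⟨z, Subgroup.mem_sup_right hz, rfl⟩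
  -- values of `χ'`
  have hval : ∀ (y : ↥(img α⁻¹ P ⊔ R)) (h : ((α ⟨y, hDT y.2⟩ : T) : Ω) ∈ img α (img α⁻¹ P ⊔ R)),
      χ' ⟨_, h⟩ = ((α ⟨ψ y, (E.le_of_mem hψ).2 y⟩ : T) : Ω) := fun y h => hχ'e y _ h
  refine ⟨χ'.comp (Subgroup.inclusion hsub), restrict_mem hχ' hsub, fun x => ?_, ?_⟩
  · -- agreement on `P`
    have hxT : (x : Ω) ∈ T := hPT x.2
    have hx1 : ((α⁻¹ ⟨x, hxT⟩ : T) : Ω) ∈ img α⁻¹ P := mem_img.mpr ⟨⟨x, hxT⟩, x.2, rfl⟩
    have hx2 : ((α ⟨((α⁻¹ ⟨x, hxT⟩ : T) : Ω), hDT (Subgroup.mem_sup_left hx1)⟩ : T) : Ω) ∈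
        img α (img α⁻¹ P ⊔ R) := mem_img.mpr ⟨_, Subgroup.mem_sup_left hx1, rfl⟩
    have h2 := hval ⟨_, Subgroup.mem_sup_left hx1⟩ hx2
    have h3 := hψ1 ⟨_, hx1⟩
    have h4 := hχe x ((E.le_of_mem hφ).2 x) hx1
    have h5 : (⟨ψ ⟨_, Subgroup.mem_sup_left hx1⟩, (E.le_of_mem hψ).2 _⟩ : T) = α⁻¹ ⟨φ x, (E.le_of_mem hφ).2 x⟩ :=
      Subtype.ext (h3.trans h4)
    rw [h5] at h2
    have e1 : (χ'.comp (Subgroup.inclusion hsub)) (Subgroup.inclusion le_sup_left x) = χ' ⟨_, hx2⟩ := by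
      show χ' _ = _
      congr 1
      apply Subtype.ext
      show (x : Ω) = _
      simp
    rw [e1, h2]
    simp
  · -- the image
    apply le_antisymm
    · rintro _ ⟨z, hz, rfl⟩
      obtain ⟨w, hw, hwz⟩ := mem_img.mp (Subgroup.mem_subgroupOf.mp hz)
      have hw2 : ((α ⟨((w : T) : Ω), hDT (Subgroup.mem_sup_right hw)⟩ : T) : Ω) ∈
        img α (img α⁻¹ P ⊔ R) := mem_img.mpr ⟨_, Subgroup.mem_sup_right hw, rfl⟩
      have h2 := hval ⟨_, Subgroup.mem_sup_right hw⟩ hw2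
      have e1 : (χ'.comp (Subgroup.inclusion hsub)) z = χ' ⟨_, hw2⟩ := by
        show χ' _ = _
        congr 1
        apply Subtype.ext
        exact hwz.symm
      show (χ'.comp (Subgroup.inclusion hsub)) z ∈ _
      rw [e1, h2]
      refine mem_img.mpr ⟨_, ?_, rfl⟩
      refine hψ2.le ⟨_, ?_, rfl⟩
      exact Subgroup.mem_subgroupOf.mpr hw
    · intro y hy
      obtain ⟨w, hw, rfl⟩ := mem_img.mp hy
      have hw' : (w : Ω) ∈ (R.subgroupOf (img α⁻¹ P ⊔ R)).map ψ := by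
        rw [hψ2]; exact hw
      obtain ⟨v, hv, hvw⟩ := hw'
      have hvR : (v : Ω) ∈ R := Subgroup.mem_subgroupOf.mp hv
      have hw2 : ((α ⟨(v : Ω), hDT v.2⟩ : T) : Ω) ∈ img α (img α⁻¹ P ⊔ R) := mem_img.mpr ⟨_, v.2, rfl⟩
      have h2 := hval v hw2
      refine ⟨⟨_, Subgroup.mem_sup_right (mem_img.mpr ⟨⟨v, hDT v.2⟩, hvR, rfl⟩)⟩,
        Subgroup.mem_subgroupOf.mpr (mem_img.mpr ⟨⟨v, hDT v.2⟩, hvR, rfl⟩), ?_⟩
      show χ' _ = _
      refine Eq.trans ?_ (h2.trans ?_)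
      · rfl
      · have : (⟨ψ v, (E.le_of_mem hψ).2 v⟩ : T) = w := Subtype.ext hvw
        rw [this]

/-- Let F be a saturated fusion system over a finite p-group S and E a weakly normal subsystem of F over a subgroup T. Suppose a subgroup R of T is normal in E (E = N_E(R)), and let R* be the subgroup of T generated by the images of R under all maps of F with source R. Then R* is normal in F (F = N_F(R*)). -/
theorem result {Ω : Type*} [Group Ω] {S : Subgroup Ω} [Finite S] (p : ℕ) [Fact p.Prime] (hS : IsPGroup p S)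
    (F : Cfsg.FusionSystem S) (hF : F.IsSaturated p)
    {T : Subgroup Ω} (E : Cfsg.FusionSystem T) (hE : E.IsWeaklyNormalIn F p)
    (R : Subgroup Ω) (hR : E.IsNormal R) :
    F.IsNormal (Subgroup.closure {x : Ω | ∃ φ ∈ F.Hom R, ∃ r : R, x = φ r}) := by
  obtain ⟨hEsat, -, hsub, hTc, hinv, hfr⟩ := hE
  have hTS : T ≤ S := hTc.1
  have hRT : R ≤ T := hR.1
  set Rs := Subgroup.closure {x : Ω | ∃ φ ∈ F.Hom R, ∃ r : R, x = φ r} with hRs
  have : Finite T := finite_of_le hTS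
  have hRsT : Rs ≤ T := by
    apply (Subgroup.closure_le _).mpr
    rintro _ ⟨φ, hφ, r, rfl⟩
    exact hTc.2 R hRT φ hφ r
  have hcomp : ∀ α ∈ F.autGroup T, ∀ φ ∈ F.Hom R, (∀ r : R, φ r ∈ T) → ∀ r (h : φ r ∈ T),
      ((α ⟨φ r, h⟩ : T) : Ω) ∈ Rs := by
    intro α hα φ hφ hT r h
    have h1 : T.subtype.comp α.toMonoidHom ∈ F.Hom T := (mem_autGroup_iff hTS).mp hα
    let θ : R →* Ω := (T.subtype.comp α.toMonoidHom).comp (φ.codRestrict T hT)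
    have h2 : θ ∈ F.Hom R := of_comp hφ h1 hT (fun x => rfl)
    exact Subgroup.subset_closure ⟨θ, h2, r, rfl⟩
  have himg : ∀ α ∈ F.autGroup T, img α R ≤ Rs := by
    intro α hα y hy
    obtain ⟨z, hz, rfl⟩ := mem_img.mp hy
    have h1 : T.subtype.comp α.toMonoidHom ∈ F.Hom T := (mem_autGroup_iff hTS).mp hα
    have h2 := restrict_mem h1 hRT
    exact Subgroup.subset_closure ⟨_, h2, ⟨z, hz⟩, rfl⟩
  have hRsn : E.IsNormal Rs := by
    let C : Set (Subgroup Ω) := {Q | E.IsNormal Q ∧ Q ≤ Rs}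
    have hmem : sSup C ∈ C := Cfsg.Agent.Lib.FusionSatBasic.sSup_mem_of_closed (S := T) C
      (fun Q hQ => hQ.1.1) ⟨Cfsg.Agent.S5145.isNormal_bot E, bot_le⟩
      (fun Q R' hQ hR' => ⟨Cfsg.Agent.S5145.isNormal_sup E Q R' hQ.1 hR'.1, sup_le hQ.2 hR'.2⟩)
    have hle : Rs ≤ sSup C := by
      apply (Subgroup.closure_le _).mpr
      rintro _ ⟨φ, hφ, r, rfl⟩
      obtain ⟨α, hα, φ₀, hφ₀, h⟩ := hfr R hRT φ hφ
      have hr0 : φ₀ r ∈ R := (Cfsg.Agent.S5290.stronglyClosed_of_isNormal hR).2 R le_rfl φ₀ hφ₀ r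
      have h3 : φ r ∈ img α R := mem_img.mpr ⟨⟨φ₀ r, hRT hr0⟩, hr0, (h r _).symm⟩
      exact (le_sSup (⟨isNormal_img hinv hR hα, himg α hα⟩ : img α R ∈ C) : img α R ≤ sSup C) h3
    have h4 : sSup C = Rs := le_antisymm hmem.2 hle
    rw [← h4]
    exact hmem.1
  have hinvRs : ∀ α ∈ F.autGroup T, ∀ x : T, (x : Ω) ∈ Rs → ((α x : T) : Ω) ∈ Rs := by
    intro α hα x hx
    have hle : Rs ≤ (Rs.comap (T.subtype.comp α.toMonoidHom)).map T.subtype := by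
      apply (Subgroup.closure_le _).mpr
      rintro _ ⟨φ, hφ, r, rfl⟩
      exact ⟨⟨φ r, hTc.2 R hRT φ hφ r⟩, hcomp α hα φ hφ (fun r => hTc.2 R hRT φ hφ r) r _, rfl⟩
    obtain ⟨y, hy, hyx⟩ := hle hx
    have : y = x := Subtype.ext hyx
    rw [← this]
    exact hy
  refine isNormal_of_ext hS hF (hRsT.trans hTS) fun P hPQ φ hφ => ?_
  obtain ⟨α, hα, φ₀, hφ₀, h⟩ := hfr P (hPQ.trans hRsT) φ hφ
  obtain ⟨ψ₀, hψ₀, h1, h2⟩ := hRsn.2 P φ₀ hφ₀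
  have hψF : ψ₀.comp (Subgroup.inclusion (le_sup_right : Rs ≤ P ⊔ Rs)) ∈ F.Hom Rs :=
    restrict_mem (hsub _ hψ₀) _
  have hvalT : ∀ x : Rs, (ψ₀.comp (Subgroup.inclusion (le_sup_right : Rs ≤ P ⊔ Rs))) x ∈ T := by
    intro x
    exact (E.le_of_mem hψ₀).2 _
  have hαF : T.subtype.comp α.toMonoidHom ∈ F.Hom T := (mem_autGroup_iff hTS).mp hα
  let θ : Rs →* Ω := (T.subtype.comp α.toMonoidHom).comp
    ((ψ₀.comp (Subgroup.inclusion (le_sup_right : Rs ≤ P ⊔ Rs))).codRestrict T hvalT)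
  have hθ : θ ∈ F.Hom Rs := of_comp hψF hαF hvalT (fun x => rfl)
  have hθv : ∀ x : Rs, θ x ∈ Rs := by
    intro x
    refine hinvRs α hα ⟨_, hvalT x⟩ ?_
    refine h2.le ⟨_, ?_, rfl⟩
    exact Subgroup.mem_subgroupOf.mpr x.2
  have hr : θ.range = Rs := by
    have hfinRs : Finite Rs := finite_of_le (hRsT.trans hTS)
    apply eq_of_le_of_card_eq
    · rintro _ ⟨x, rfl⟩
      exact hθv x
    · exact (card_range_of_mem hθ).ge
  refine ⟨autOfHom θ (hom_inj hθ) hr, autOfHom_mem hθ hr, fun x => ?_⟩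
  rw [autOfHom_apply]
  have hx0 : φ₀ x ∈ T := (E.le_of_mem hφ₀).2 x
  rw [h x hx0]
  have e : (ψ₀.comp (Subgroup.inclusion (le_sup_right : Rs ≤ P ⊔ Rs))).codRestrict T hvalT
      (Subgroup.inclusion hPQ x) = ⟨φ₀ x, hx0⟩ := by
    apply Subtype.ext
    exact h1 x
  show ((α ((ψ₀.comp (Subgroup.inclusion (le_sup_right : Rs ≤ P ⊔ Rs))).codRestrict T hvalT
      (Subgroup.inclusion hPQ x)) : T) : Ω) = _
  rw [e]

end Cfsg.Agent.S5291
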