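import Mathlib
import Cfsg.Agent.Lib.CoprimeMin
import Cfsg.Agent.Lib.FusionNormalCrit
import Cfsg.Statements.S5298

set_option autoImplicit false
open Cfsg

namespace Cfsg.Agent.S5298

open Cfsg.FusionSystem Cfsg.Agent.Lib.FusionAlperin Cfsg.Agent.Lib.FusionNormalSys
open Cfsg.Agent.Lib.CoprimeMin
open scoped commutatorElement

universe u

variable {Ω : Type u} [Group Ω] {S : Subgroup Ω} {p : ℕ} [hp : Fact p.Prime]

/-- An automorphism of `p'`-order which on an invariant subgroup acts by `S`-conjugation, elementwise, is trivial there. -/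
theorem fix_of_S_conj [Finite S] (hS : IsPGroup p S) {Q : Subgroup Ω} (hQS : Q ≤ S) {c : MulAut Q} (hc : IsCop p c)
    {W : Subgroup Q} (hinv : ∀ w ∈ W, c w ∈ W)
    (h : ∀ w ∈ W, ∃ s ∈ S, ((c w : Q) : Ω) = s * (w : Ω) * s⁻¹) : ∀ w ∈ W, c w = w := by
  have hfin : Finite Q := finite_of_le hQS
  have hRp : IsPGroup p Q := hS.to_le hQS
  have hnil : Group.IsNilpotent S := hS.isNilpotent
  obtain ⟨n, hn⟩ := (Subgroup.isNilpotent_iff_lowerCentralSeries S).mp hnil
  have key : ∀ k j : ℕ, j + k = n → ∀ w ∈ W, (w : Ω) ∈ S.lowerCentralSeries j → c w = w := by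
    intro k
    induction k with
    | zero =>
      intro j hj w _ hwl
      have hj' : j = n := by omega
      rw [hj', hn, Subgroup.mem_bot] at hwl
      have h2 : w = 1 := Subtype.ext hwl
      rw [h2, map_one]
    | succ k ih =>
      intro j hj w hw hwl
      obtain ⟨s, hs, hcw⟩ := h w hw
      apply eq_of_fixes_quotient hRp hc
      have hz : w⁻¹ * c w ∈ W := W.mul_mem (W.inv_mem hw) (hinv w hw)
      apply ih (j + 1) (by omega) _ hz
      have hval : ((w⁻¹ * c w : Q) : Ω) = ⁅(w : Ω)⁻¹, s⁆ := by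
        show (w : Ω)⁻¹ * ((c w : Q) : Ω) = _
        rw [hcw, commutatorElement_def]
        group
      rw [hval, Subgroup.mem_lowerCentralSeries_succ_iff]
      apply Subgroup.subset_closure
      exact ⟨_, (S.lowerCentralSeries j).inv_mem hwl, _, hs, rfl⟩
  intro w hw
  refine key n 0 (by omega) w hw ?_
  rw [Subgroup.lowerCentralSeries_zero]
  exact hQS w.2

/-- Orders of nontrivial small elements. -/
theorem card_zpowers_of_small {x : Ω} (hx : SmallExp p x) (hne : x ≠ 1) :
    Nat.card (Subgroup.zpowers x) = p ∨ Nat.card (Subgroup.zpowers x) = 4 := by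
  rw [Nat.card_zpowers]
  by_cases h2 : p = 2
  · subst h2
    have h1 : orderOf x ∣ 2 ^ 2 := orderOf_dvd_of_pow_eq_one (by simpa using hx.2 rfl)
    obtain ⟨k, hk, hk'⟩ := (Nat.dvd_prime_pow Nat.prime_two).mp h1
    interval_cases k
    · simp at hk'
      exact absurd hk' hne
    · left; simpa using hk'
    · right; simpa using hk'
  · left
    exact orderOf_eq_prime (hx.1 h2) hne

/-- The hypothesis, in elementwise form. -/
theorem exists_conj {F : FusionSystem S} [Finite S]
    (h : ∀ A B : Subgroup Ω, A ≤ (F.hyperfocalSubgroup p) → B ≤ (F.hyperfocalSubgroup p) → IsCyclic ↥A → (Nat.card ↥A = p ∨ Nat.card ↥A = 4) → IsCyclic ↥B → (Nat.card ↥B = p ∨ Nat.card ↥B = 4) →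
      F.homSet A B ⊆ (Cfsg.innerFusionSystem S).Hom A)
    {Q : Subgroup Ω} (hQS : Q ≤ S) {c : MulAut Q} (hc : c ∈ F.autGroup Q) {w : Q}
    (hw : (w : Ω) ∈ F.hyperfocalSubgroup p) (hwc : ((c w : Q) : Ω) ∈ F.hyperfocalSubgroup p)
    (hsm : SmallExp p (w : Ω)) (hsmc : SmallExp p ((c w : Q) : Ω)) :
    ∃ s ∈ S, ((c w : Q) : Ω) = s * (w : Ω) * s⁻¹ := by
  by_cases hw1 : (w : Ω) = 1
  · refine ⟨1, S.one_mem, ?_⟩
    have h1 : w = 1 := Subtype.ext hw1
    simp [h1]
  have hwc1 : ((c w : Q) : Ω) ≠ 1 := by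
    intro hcon
    apply hw1
    have h1 : c w = 1 := Subtype.ext hcon
    have h2 : w = 1 := by
      apply c.injective
      rw [h1, map_one]
    rw [h2]
    rfl
  have hAQ : Subgroup.zpowers (w : Ω) ≤ Q := by
    rw [Subgroup.zpowers_le]
    exact w.2
  have h1 : Q.subtype.comp c.toMonoidHom ∈ F.Hom Q := (mem_autGroup_iff hQS).mp hc
  have h2 := restrict_mem h1 hAQ
  have hmem : (Q.subtype.comp c.toMonoidHom).comp (Subgroup.inclusion hAQ) ∈
      F.homSet (Subgroup.zpowers (w : Ω)) (Subgroup.zpowers ((c w : Q) : Ω)) := by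
    refine ⟨h2, ?_⟩
    rintro ⟨y, k, rfl⟩
    refine ⟨k, ?_⟩
    have e : (Subgroup.inclusion hAQ ⟨(w : Ω) ^ k, k, rfl⟩ : Q) = w ^ k := Subtype.ext (by simp)
    show ((c w : Q) : Ω) ^ k = ((c (Subgroup.inclusion hAQ ⟨(w : Ω) ^ k, k, rfl⟩) : Q) : Ω)
    rw [e, map_zpow]
    simp
  obtain ⟨-, s, hs, hsw⟩ := h _ _ ((Subgroup.zpowers_le).mpr hw) ((Subgroup.zpowers_le).mpr hwc)
    inferInstance (card_zpowers_of_small hsm hw1) inferInstance (card_zpowers_of_small hsmc hwc1) hmem
  refine ⟨s, hs, ?_⟩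
  have := hsw ⟨(w : Ω), Subgroup.mem_zpowers _⟩
  exact this

/-- Let F be a saturated fusion system over a finite p-group S. If every map of F between cyclic subgroups of the hyperfocal subgroup of F of order p or 4 is conjugation by an element of S, then F is the inner fusion system of S. -/
theorem result {Ω : Type u} [Group Ω] {S : Subgroup Ω} [Finite S] (p : ℕ) [Fact p.Prime] (hS : IsPGroup p S)
    (F : Cfsg.FusionSystem S) (hF : F.IsSaturated p)
    (h : ∀ A B : Subgroup Ω, A ≤ (F.hyperfocalSubgroup p) → B ≤ (F.hyperfocalSubgroup p) → IsCyclic ↥A → (Nat.card ↥A = p ∨ Nat.card ↥A = 4) → IsCyclic ↥B → (Nat.card ↥B = p ∨ Nat.card ↥B = 4) →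
      F.homSet A B ⊆ (Cfsg.innerFusionSystem S).Hom A) :
    ∀ P : Subgroup Ω, F.Hom P = (Cfsg.innerFusionSystem S).Hom P := by
  refine frobenius_inner hS hF (fun Q hQS => ?_)
  have hfin : Finite Q := finite_of_le hQS
  have hRp : IsPGroup p Q := hS.to_le hQS
  refine isPGroup_of_coprime_eq_one fun γ hγ => ?_
  set c : MulAut Q := (γ : MulAut Q) with hc
  have hcmem : c ∈ F.autGroup Q := γ.2
  set m := orderOf γ with hm
  have hcm : c ^ m = 1 := by
    have h1 : γ ^ m = 1 := pow_orderOf_eq_one γ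
    have h2 := congrArg (fun a : F.autGroup Q => (a : MulAut Q)) h1
    simpa using h2
  have hcop : IsCop p c := ⟨m, hγ, hcm⟩
  by_contra hne
  have hc1 : c ≠ 1 := by
    intro h
    apply hne
    exact Subtype.ext h
  obtain ⟨W, hWinv, ⟨β, hβ, -, x, hx, hβx⟩, hWgen, hWsmall⟩ :=
    exists_small_invariant hRp (Subgroup.zpowers c) (Subgroup.mem_zpowers c) hcop hc1
  have hzle : Subgroup.zpowers c ≤ F.autGroup Q := by
    rw [Subgroup.zpowers_le]
    exact hcmem
  -- `W` is in the hyperfocal subgroup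
  have hWf : ∀ w ∈ W, (w : Ω) ∈ F.hyperfocalSubgroup p := by
    have hle : W ≤ (F.hyperfocalSubgroup p).comap Q.subtype := by
      rw [hWgen]
      refine (Subgroup.closure_le _).mpr ?_
      rintro _ ⟨b, hb, hbc, y, hy, rfl⟩
      have hbF := hzle hb
      obtain ⟨k, hk, hbk⟩ := hbc
      have hres : (⟨b, hbF⟩ : F.autGroup Q) ∈ pResidual p (F.autGroup Q) := by
        apply Subgroup.subset_closure
        show Nat.Coprime (orderOf (⟨b, hbF⟩ : F.autGroup Q)) p
        have h1 : orderOf (⟨b, hbF⟩ : F.autGroup Q) ∣ k := by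
          apply orderOf_dvd_of_pow_eq_one
          exact Subtype.ext (by simpa using hbk)
        exact Nat.Coprime.coprime_dvd_left h1 hk
      show ((y⁻¹ * b y : Q) : Ω) ∈ F.hyperfocalSubgroup p
      exact Subgroup.subset_closure ⟨Q, ⟨b, hbF⟩, y, hQS, hres, by simp⟩
    exact fun w hw => hle hw
  have hsmall : ∀ w ∈ W, SmallExp p (w : Ω) := by
    intro w hw
    have := hWsmall w hw
    rw [smallExp_iff] at this ⊢
    have h2 := congrArg Subtype.val this
    simpa using h2
  have hWc : ∀ w ∈ W, c w ∈ W := fun w hw => hWinv c (Subgroup.mem_zpowers c) w hw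
  have hfix := fix_of_S_conj hS hQS hcop hWc (fun w hw =>
    exists_conj h hQS hcmem (hWf w hw) (hWf _ (hWc w hw)) (hsmall w hw) (hsmall _ (hWc w hw)))
  have hall : ∀ b ∈ Subgroup.zpowers c, ∀ w ∈ W, b w = w := by
    intro b hb w hw
    have hle : Subgroup.zpowers c ≤ MulAction.stabilizer (MulAut Q) w := by
      rw [Subgroup.zpowers_le]
      exact hfix w hw
    exact hle hb
  exact hβx (hall β hβ x hx)

end Cfsg.Agent.S5298
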