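import Mathlib
import Cfsg.Agent.Lib.CoprimeMin
import Cfsg.Agent.Lib.FusionNormalCrit
import Cfsg.Agent.Lib.FusionHyperfocal
import Cfsg.Agent.S5298
import Cfsg.Statements.S5297

set_option autoImplicit false
open Cfsg

namespace Cfsg.Agent.S5297

open Cfsg.FusionSystem Cfsg.Agent.Lib.FusionAlperin Cfsg.Agent.Lib.FusionNormalSys
open Cfsg.Agent.Lib.CoprimeMin
open scoped commutatorElement

universe u

variable {Ω : Type u} [Group Ω] {S : Subgroup Ω} {p : ℕ} [hp : Fact p.Prime]

/-- An automorphism of `p'`-order stabilizing a central chain on an invariant subgroup is trivial there. -/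
theorem fix_of_chain [Finite S] (hS : IsPGroup p S) {Q : Subgroup Ω} (hQS : Q ≤ S) {c : MulAut Q} (hc : IsCop p c)
    {W : Subgroup Q} (hinv : ∀ w ∈ W, c w ∈ W)
    (h : ∀ w ∈ W, ∀ j : ℕ, (w : Ω) ∈ S.lowerCentralSeries j →
      ((w⁻¹ * c w : Q) : Ω) ∈ S.lowerCentralSeries (j + 1)) : ∀ w ∈ W, c w = w := by
  have hfin : Finite Q := finite_of_le hQS
  have hRp : IsPGroup p Q := hS.to_le hQS
  have hnil : Group.IsNilpotent S := hS.isNilpotent
  obtain ⟨n, hn⟩ := (Subgroup.isNilpotent_iff_lowerCentralSeries S).mp hnil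
  have key : ∀ k j : ℕ, j + k = n → ∀ w ∈ W, (w : Ω) ∈ S.lowerCentralSeries j → c w = w := by
    intro k
    induction k with
    | zero =>
      intro j hj w _ hwl
      have hj' : j = n := by omega
      rw [hj', hn, Subgroup.mem_bot] at hwl
      have h2 : w = 1 := Subtype.ext hwl
      rw [h2, map_one]
    | succ k ih =>
      intro j hj w hw hwl
      apply eq_of_fixes_quotient hRp hc
      have hz : w⁻¹ * c w ∈ W := W.mul_mem (W.inv_mem hw) (hinv w hw)
      exact ih (j + 1) (by omega) _ hz (h w hw j hwl)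
  intro w hw
  refine key n 0 (by omega) w hw ?_
  rw [Subgroup.lowerCentralSeries_zero]
  exact hQS w.2

/-- Small elements of the hyperfocal subgroup move along automorphisms of `S`, so their position in the lower central
series of `S` is preserved by `F`-automorphisms. -/
theorem lcs_control {F : FusionSystem S} [Finite S] (hS : IsPGroup p S) (hF : F.IsSaturated p)
    (h : ∀ A B : Subgroup Ω, A ≤ (F.hyperfocalSubgroup p) → B ≤ (F.hyperfocalSubgroup p) → IsCyclic ↥A → (Nat.card ↥A = p ∨ Nat.card ↥A = 4) → IsCyclic ↥B → (Nat.card ↥B = p ∨ Nat.card ↥B = 4) →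
      F.homSet A B ⊆ F.normalizerHom S A)
    {Q : Subgroup Ω} (hQS : Q ≤ S) {c : MulAut Q} (hc : c ∈ F.autGroup Q) {w : Q}
    (hw : (w : Ω) ∈ F.hyperfocalSubgroup p) (hsm : SmallExp p (w : Ω)) (j : ℕ)
    (hwj : (w : Ω) ∈ S.lowerCentralSeries j) :
    ((c w : Q) : Ω) ∈ S.lowerCentralSeries j := by
  by_cases hw1 : (w : Ω) = 1
  · have h1 : w = 1 := Subtype.ext hw1
    rw [h1, map_one]
    exact Subgroup.one_mem _
  have hwc1 : ((c w : Q) : Ω) ≠ 1 := by
    intro hcon
    apply hw1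
    have h1 : c w = 1 := Subtype.ext hcon
    have h2 : w = 1 := by
      apply c.injective
      rw [h1, map_one]
    rw [h2]
    rfl
  have hAQ : Subgroup.zpowers (w : Ω) ≤ Q := by
    rw [Subgroup.zpowers_le]
    exact w.2
  have h1 : Q.subtype.comp c.toMonoidHom ∈ F.Hom Q := (mem_autGroup_iff hQS).mp hc
  have h2 := restrict_mem h1 hAQ
  have hwc : ((c w : Q) : Ω) ∈ F.hyperfocalSubgroup p :=
    (Cfsg.Agent.Lib.FusionHyperfocal.hyperfocal_stronglyClosed hS hF).2 _ ((Subgroup.zpowers_le).mpr hw) _ h2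
      ⟨(w : Ω), Subgroup.mem_zpowers _⟩
  have hsmc : SmallExp p ((c w : Q) : Ω) := by
    rw [smallExp_iff] at hsm ⊢
    have e : ((c w : Q) : Ω) ^ eOf p = ((c (w ^ eOf p) : Q) : Ω) := by simp
    have e2 : w ^ eOf p = 1 := Subtype.ext (by simpa using hsm)
    rw [e, e2, map_one]
    rfl
  have hmem : (Q.subtype.comp c.toMonoidHom).comp (Subgroup.inclusion hAQ) ∈
      F.homSet (Subgroup.zpowers (w : Ω)) (Subgroup.zpowers ((c w : Q) : Ω)) := by
    refine ⟨h2, ?_⟩
    rintro ⟨y, k, rfl⟩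
    refine ⟨k, ?_⟩
    have e : (Subgroup.inclusion hAQ ⟨(w : Ω) ^ k, k, rfl⟩ : Q) = w ^ k := Subtype.ext (by simp)
    show ((c w : Q) : Ω) ^ k = ((c (Subgroup.inclusion hAQ ⟨(w : Ω) ^ k, k, rfl⟩) : Q) : Ω)
    rw [e, map_zpow]
    simp
  obtain ⟨-, -, -, ψ, hψ, hψ1, hψ2⟩ := h _ _ ((Subgroup.zpowers_le).mpr hw) ((Subgroup.zpowers_le).mpr hwc)
    inferInstance (Cfsg.Agent.S5298.card_zpowers_of_small hsm hw1) inferInstance
    (Cfsg.Agent.S5298.card_zpowers_of_small hsmc hwc1) hmem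
  let θ : S →* Ω := ψ.comp (Subgroup.inclusion (le_sup_right : S ≤ Subgroup.zpowers (w : Ω) ⊔ S))
  have hrange : (⊤ : Subgroup S).map θ = S := by
    conv_rhs => rw [← hψ2]
    ext y
    constructor
    · rintro ⟨z, -, rfl⟩
      exact ⟨Subgroup.inclusion le_sup_right z, Subgroup.mem_subgroupOf.mpr z.2, rfl⟩
    · rintro ⟨z, hz, rfl⟩
      exact ⟨⟨z, Subgroup.mem_subgroupOf.mp hz⟩, trivial, rfl⟩
  have hmap := Subgroup.map_lowerCentralSeries (S := (⊤ : Subgroup S)) θ j
  rw [hrange] at hmap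
  rw [← hmap]
  have hwj' : (w : Ω) ∈ ((⊤ : Subgroup S).lowerCentralSeries j).map S.subtype := by
    rw [Subgroup.top_subtype_lowerCentralSeries]
    exact hwj
  obtain ⟨y, hy, hyw⟩ := hwj'
  refine ⟨y, hy, ?_⟩
  have e1 : θ y = ψ (Subgroup.inclusion le_sup_left (⟨(w : Ω), Subgroup.mem_zpowers _⟩ : Subgroup.zpowers (w : Ω))) := by
    show ψ _ = ψ _
    congr 1
    exact Subtype.ext hyw
  rw [e1, hψ1]
  show ((c (Subgroup.inclusion hAQ ⟨(w : Ω), Subgroup.mem_zpowers _⟩) : Q) : Ω) = _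
  rfl

/-- Let F be a saturated fusion system over a finite p-group S. If every map of F between cyclic subgroups of the hyperfocal subgroup of F of order p or 4 is a map of the normalizer system of S (it extends to a map of F defined on all of S), then S is normal in F. -/
theorem result {Ω : Type u} [Group Ω] {S : Subgroup Ω} [Finite S] (p : ℕ) [Fact p.Prime] (hS : IsPGroup p S)
    (F : Cfsg.FusionSystem S) (hF : F.IsSaturated p)
    (h : ∀ A B : Subgroup Ω, A ≤ (F.hyperfocalSubgroup p) → B ≤ (F.hyperfocalSubgroup p) → IsCyclic ↥A → (Nat.card ↥A = p ∨ Nat.card ↥A = 4) → IsCyclic ↥B → (Nat.card ↥B = p ∨ Nat.card ↥B = 4) →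
      F.homSet A B ⊆ F.normalizerHom S A) :
    F.IsNormal S := by
  refine isNormal_of_pgroup hS hF (stronglyClosed_top F) (fun R hRS _ _ _ _ t htS htN _ => ?_)
  have hfin : Finite R := finite_of_le hRS
  have hRp : IsPGroup p R := hS.to_le hRS
  have hfinA : Finite (MulAut R) := Cfsg.Agent.Lib.FusionSat.finite_mulAut
  let s : Set (F.autGroup R) := {a | ∃ g ∈ S, ∀ x : R, (((a : MulAut R) x : R) : Ω) = g * (x : Ω) * g⁻¹}
  let K : Subgroup (F.autGroup R) := Subgroup.normalClosure s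
  refine ⟨K, Subgroup.normalClosure_normal, ?_, fun h' => ?_⟩
  swap
  · exact Subgroup.subset_normalClosure ⟨t, htS, fun x => rfl⟩
  refine isPGroup_of_coprime_eq_one fun γ hγ => ?_
  set c : MulAut R := ((γ : F.autGroup R) : MulAut R) with hc
  set m := orderOf γ with hm
  have hcm : c ^ m = 1 := by
    have h1 : γ ^ m = 1 := pow_orderOf_eq_one γ
    have h2 := congrArg (fun a : K => ((a : F.autGroup R) : MulAut R)) h1
    simpa using h2
  have hcop : IsCop p c := ⟨m, hγ, hcm⟩
  by_contra hne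
  have hc1 : c ≠ 1 := by
    intro h
    apply hne
    apply Subtype.ext
    apply Subtype.ext
    exact h
  let D : Subgroup (MulAut R) := K.map (F.autGroup R).subtype
  have hcD : c ∈ D := ⟨γ, γ.2, rfl⟩
  have hDK : ∀ {b : F.autGroup R}, b ∈ K → ((b : MulAut R)) ∈ D := fun hb => ⟨_, hb, rfl⟩
  obtain ⟨W, hWinv, ⟨β, hβ, hβc, x, hx, hβx⟩, hWgen, hWsmall⟩ :=
    exists_small_invariant hRp D hcD hcop hc1
  -- `W` is in the hyperfocal subgroup
  have hWf : ∀ w ∈ W, (w : Ω) ∈ F.hyperfocalSubgroup p := by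
    have hle : W ≤ (F.hyperfocalSubgroup p).comap R.subtype := by
      rw [hWgen]
      refine (Subgroup.closure_le _).mpr ?_
      rintro _ ⟨b, hb, hbc, y, hy, rfl⟩
      obtain ⟨b', -, rfl⟩ := hb
      obtain ⟨k, hk, hbk⟩ := hbc
      have hres : b' ∈ pResidual p (F.autGroup R) := by
        apply Subgroup.subset_closure
        show Nat.Coprime (orderOf b') p
        have h1 : orderOf b' ∣ k := by
          apply orderOf_dvd_of_pow_eq_one
          exact Subtype.ext (by simpa using hbk)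
        exact Nat.Coprime.coprime_dvd_left h1 hk
      show ((y⁻¹ * (b' : MulAut R) y : R) : Ω) ∈ F.hyperfocalSubgroup p
      exact Subgroup.subset_closure ⟨R, b', y, hRS, hres, by simp⟩
    exact fun w hw => hle hw
  have hsmall : ∀ w ∈ W, SmallExp p (w : Ω) := by
    intro w hw
    have := hWsmall w hw
    rw [smallExp_iff] at this ⊢
    have h2 := congrArg Subtype.val this
    simpa using h2
  -- transport of smallness and hyperfocality along `F`-automorphisms
  have htrans : ∀ (b : MulAut R), b ∈ F.autGroup R → ∀ w : R, (w : Ω) ∈ F.hyperfocalSubgroup p →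
      SmallExp p (w : Ω) → ((b w : R) : Ω) ∈ F.hyperfocalSubgroup p ∧ SmallExp p ((b w : R) : Ω) := by
    intro b hb w hw hsm
    have hAQ : Subgroup.zpowers (w : Ω) ≤ R := by
      rw [Subgroup.zpowers_le]
      exact w.2
    have h1 : R.subtype.comp b.toMonoidHom ∈ F.Hom R := (mem_autGroup_iff hRS).mp hb
    have h2 := restrict_mem h1 hAQ
    refine ⟨(Cfsg.Agent.Lib.FusionHyperfocal.hyperfocal_stronglyClosed hS hF).2 _ ((Subgroup.zpowers_le).mpr hw) _ h2
      ⟨(w : Ω), Subgroup.mem_zpowers _⟩, ?_⟩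
    rw [smallExp_iff] at hsm ⊢
    have e : ((b w : R) : Ω) ^ eOf p = ((b (w ^ eOf p) : R) : Ω) := by simp
    have e2 : w ^ eOf p = 1 := Subtype.ext (by simpa using hsm)
    rw [e, e2, map_one]
    rfl
  -- the chain is preserved by `F`-automorphisms
  have hctl : ∀ (b : MulAut R), b ∈ F.autGroup R → ∀ w : R, (w : Ω) ∈ F.hyperfocalSubgroup p →
      SmallExp p (w : Ω) → ∀ j : ℕ, (w : Ω) ∈ S.lowerCentralSeries j → ((b w : R) : Ω) ∈ S.lowerCentralSeries j :=
    fun b hb w hw hsm j hj => lcs_control hS hF h hRS hb hw hsm j hj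
  -- the key: all of `K` stabilizes the chain on `W`
  have hP : ∀ κ ∈ K, ∀ w ∈ W, ∀ j : ℕ, (w : Ω) ∈ S.lowerCentralSeries j →
      ((w⁻¹ * (κ : MulAut R) w : R) : Ω) ∈ S.lowerCentralSeries (j + 1) := by
    intro κ hκ
    induction hκ using Subgroup.closure_induction with
    | mem y0 hy0 =>
      obtain ⟨a, ⟨g, hg, hga⟩, hconj⟩ := (Group.mem_conjugatesOfSet_iff).mp hy0
      obtain ⟨ξ, rfl⟩ := isConj_iff.mp hconj
      intro w hw j hj
      -- `y = ξ⁻¹ w`
      have hξi : ((ξ⁻¹ : F.autGroup R) : MulAut R) ∈ F.autGroup R := (ξ⁻¹).2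
      have hξ : (ξ : MulAut R) ∈ F.autGroup R := ξ.2
      have hξξ : ∀ u : R, (ξ : MulAut R) (((ξ⁻¹ : F.autGroup R) : MulAut R) u) = u := by
        intro u
        show (ξ : MulAut R) ((ξ : MulAut R)⁻¹ u) = u
        simp
      set y := ((ξ⁻¹ : F.autGroup R) : MulAut R) w with hy
      have hyj : (y : Ω) ∈ S.lowerCentralSeries j :=
        hctl _ hξi w (hWf w hw) (hsmall w hw) j hj
      have hyh := htrans _ hξi w (hWf w hw) (hsmall w hw)
      set τ : F.autGroup R := ξ * a * ξ⁻¹ with hτ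
      have hτK : τ ∈ K := by
        apply Subgroup.normalClosure_normal.conj_mem
        exact Subgroup.subset_normalClosure ⟨g, hg, hga⟩
      have hτw : (τ : MulAut R) w = (ξ : MulAut R) ((a : MulAut R) y) := rfl
      -- `z = w⁻¹ τ w ∈ W`
      have hzW : w⁻¹ * (τ : MulAut R) w ∈ W := W.mul_mem (W.inv_mem hw) (hWinv _ (hDK hτK) w hw)
      -- `y₂ = y⁻¹ a y`
      set y₂ : R := y⁻¹ * (a : MulAut R) y with hy₂
      have hy₂z : y₂ = ((ξ⁻¹ : F.autGroup R) : MulAut R) (w⁻¹ * (τ : MulAut R) w) := by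
        rw [map_mul, map_inv, ← hy, hτw]
        have : ((ξ⁻¹ : F.autGroup R) : MulAut R) ((ξ : MulAut R) ((a : MulAut R) y)) = (a : MulAut R) y := by
          show (ξ : MulAut R)⁻¹ ((ξ : MulAut R) ((a : MulAut R) y)) = _
          simp
        rw [this]
      have hzξ : (ξ : MulAut R) y₂ = w⁻¹ * (τ : MulAut R) w := by
        rw [hy₂z, hξξ]
      have hzh := htrans _ hξi _ (hWf _ hzW) (hsmall _ hzW)
      rw [← hy₂z] at hzh
      have hy₂j : (y₂ : Ω) ∈ S.lowerCentralSeries (j + 1) := by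
        have e : (y₂ : Ω) = ⁅(y : Ω)⁻¹, g⁆ := by
          rw [hy₂, commutatorElement_def]
          show (y : Ω)⁻¹ * (((a : MulAut R) y : R) : Ω) = _
          rw [hga]
          group
        rw [e, Subgroup.mem_lowerCentralSeries_succ_iff]
        apply Subgroup.subset_closure
        exact ⟨_, (S.lowerCentralSeries j).inv_mem hyj, _, hg, rfl⟩
      have := hctl _ hξ y₂ hzh.1 hzh.2 (j + 1) hy₂j
      rw [hzξ] at this
      exact this
    | one =>
      intro w _ j _
      simp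
    | mul a b _ _ iha ihb =>
      intro w hw j hj
      have hbK : b ∈ K := by assumption
      have hbw : (b : MulAut R) w ∈ W := hWinv _ (hDK hbK) w hw
      have hbj := hctl _ b.2 w (hWf w hw) (hsmall w hw) j hj
      have h1 := ihb w hw j hj
      have h2 := iha _ hbw j hbj
      have e : w⁻¹ * ((a * b : F.autGroup R) : MulAut R) w =
          (w⁻¹ * (b : MulAut R) w) * (((b : MulAut R) w)⁻¹ * (a : MulAut R) ((b : MulAut R) w)) := by
        show w⁻¹ * (a : MulAut R) ((b : MulAut R) w) = _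
        group
      rw [e]
      exact Subgroup.mul_mem _ h1 h2
    | inv a _ iha =>
      intro w hw j hj
      have haK : a ∈ K := by assumption
      have haiK : a⁻¹ ∈ K := K.inv_mem haK
      have hw' : ((a⁻¹ : F.autGroup R) : MulAut R) w ∈ W := hWinv _ (hDK haiK) w hw
      have haj := hctl _ (a⁻¹).2 w (hWf w hw) (hsmall w hw) j hj
      have h1 := iha _ hw' j haj
      have e : (a : MulAut R) (((a⁻¹ : F.autGroup R) : MulAut R) w) = w := by
        show (a : MulAut R) ((a : MulAut R)⁻¹ w) = w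
        simp
      rw [e] at h1
      have h2 := Subgroup.inv_mem _ h1
      have e2 : ((w⁻¹ * ((a⁻¹ : F.autGroup R) : MulAut R) w : R) : Ω) =
          (((((a⁻¹ : F.autGroup R) : MulAut R) w)⁻¹ * w : R) : Ω)⁻¹ := by
        simp
      rw [e2]
      exact h2
  obtain ⟨κ, hκ, rfl⟩ := hβ
  exact hβx (fix_of_chain hS hRS hβc (hWinv _ (hDK hκ)) (fun w hw j hj => hP κ hκ w hw j hj) x hx)

end Cfsg.Agent.S5297
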