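import Mathlib
import Cfsg.Agent.Lib.CoprimeMin
import Cfsg.Agent.Lib.FusionNormalCrit
import Cfsg.Statements.S5300

set_option autoImplicit false
open Cfsg

namespace Cfsg.Agent.S5300

open Cfsg.FusionSystem Cfsg.Agent.Lib.FusionAlperin Cfsg.Agent.Lib.FusionNormalSys
open Cfsg.Agent.Lib.CoprimeMin

universe u

variable {Ω : Type u} [Group Ω] {S : Subgroup Ω} {F : FusionSystem S} {p : ℕ} [hp : Fact p.Prime]

/-- The focal subgroup is invariant under `F`-automorphisms. -/
theorem aut_mem_focal {R : Subgroup Ω} (hRS : R ≤ S) {δ : MulAut R} (hδ : δ ∈ F.autGroup R) {x : R}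
    (hx : (x : Ω) ∈ F.focalSubgroup) : ((δ x : R) : Ω) ∈ F.focalSubgroup := by
  have h1 : R.subtype.comp δ.toMonoidHom ∈ F.Hom R := (mem_autGroup_iff hRS).mp hδ
  have h2 : (x : Ω)⁻¹ * ((δ x : R) : Ω) ∈ F.focalSubgroup :=
    Subgroup.subset_closure ⟨R, _, x, h1, rfl⟩
  have h3 := F.focalSubgroup.mul_mem hx h2
  simpa using h3

/-- The normal subgroup of `Aut_F(R)` in the proof. -/
def stab (F : FusionSystem S) (p : ℕ) (R : Subgroup Ω) (hRS : R ≤ S) : Subgroup (F.autGroup R) where
  carrier := {β | ∀ x : R, (x : Ω) ∈ F.focalSubgroup → SmallExp p x →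
    (β : MulAut R) x = x ∨ (p = 2 ∧ (β : MulAut R) x = x⁻¹)}
  mul_mem' := by
    rintro a b ha hb x hx hsm
    rcases hb x hx hsm with h | ⟨h2, h⟩
    · show (a : MulAut R) ((b : MulAut R) x) = x ∨ (p = 2 ∧ (a : MulAut R) ((b : MulAut R) x) = x⁻¹)
      rw [h]
      exact ha x hx hsm
    · show (a : MulAut R) ((b : MulAut R) x) = x ∨ (p = 2 ∧ (a : MulAut R) ((b : MulAut R) x) = x⁻¹)
      rw [h, map_inv]
      rcases ha x hx hsm with h' | ⟨_, h'⟩
      · rw [h']
        exact Or.inr ⟨h2, rfl⟩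
      · rw [h', inv_inv]
        exact Or.inl rfl
  one_mem' := fun x _ _ => Or.inl rfl
  inv_mem' := by
    rintro a ha x hx hsm
    have hinv : ∀ y : R, (a : MulAut R) (((a⁻¹ : F.autGroup R) : MulAut R) y) = y := by
      intro y
      show (a : MulAut R) ((a : MulAut R)⁻¹ y) = y
      simp
    have hinv' : ∀ y : R, ((a⁻¹ : F.autGroup R) : MulAut R) ((a : MulAut R) y) = y := by
      intro y
      show (a : MulAut R)⁻¹ ((a : MulAut R) y) = y
      simp
    rcases ha x hx hsm with h | ⟨h2, h⟩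
    · left
      have h3 := hinv' x
      rw [h] at h3
      exact h3
    · right
      refine ⟨h2, ?_⟩
      have h3 := hinv' x
      rw [h, map_inv] at h3
      exact inv_eq_iff_eq_inv.mp h3

theorem stab_normal (F : FusionSystem S) (p : ℕ) (R : Subgroup Ω) (hRS : R ≤ S) : (stab F p R hRS).Normal where
  conj_mem := by
    rintro β hβ δ x hx hsm
    have hδ : (δ : MulAut R) ∈ F.autGroup R := δ.2
    have hδi : ((δ⁻¹ : F.autGroup R) : MulAut R) ∈ F.autGroup R := (δ⁻¹).2
    have hδδ : (δ : MulAut R) (((δ⁻¹ : F.autGroup R) : MulAut R) x) = x := by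
      show (δ : MulAut R) ((δ : MulAut R)⁻¹ x) = x
      simp
    set y := ((δ⁻¹ : F.autGroup R) : MulAut R) x with hy
    have hval : (((δ * β * δ⁻¹ : F.autGroup R) : MulAut R) x) = (δ : MulAut R) ((β : MulAut R) y) := rfl
    have hyf : (y : Ω) ∈ F.focalSubgroup := aut_mem_focal hRS hδi hx
    have hys : SmallExp p y := by
      rw [smallExp_iff] at hsm ⊢
      rw [hy, ← map_pow, hsm, map_one]
    rw [hval]
    rcases hβ y hyf hys with h | ⟨h2, h⟩
    · left
      rw [h, hδδ]
    · right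
      refine ⟨h2, ?_⟩
      rw [h, map_inv, hδδ]

/-- `stab` is a `p`-group. -/
theorem stab_isPGroup [Finite S] (hS : IsPGroup p S) (R : Subgroup Ω) (hRS : R ≤ S) :
    IsPGroup p (stab F p R hRS) := by
  have hfin : Finite R := finite_of_le hRS
  have hRp : IsPGroup p R := hS.to_le hRS
  refine isPGroup_of_coprime_eq_one fun γ hγ => ?_
  set c : MulAut R := ((γ : F.autGroup R) : MulAut R) with hc
  have hcmem : c ∈ F.autGroup R := (γ : F.autGroup R).2
  set m := orderOf γ with hm
  have hcm : c ^ m = 1 := by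
    have h1 : γ ^ m = 1 := pow_orderOf_eq_one γ
    have h2 := congrArg (fun a : stab F p R hRS => ((a : F.autGroup R) : MulAut R)) h1
    simpa using h2
  have hcop : IsCop p c := ⟨m, hγ, hcm⟩
  by_contra hne
  have hc1 : c ≠ 1 := by
    intro h
    apply hne
    apply Subtype.ext
    apply Subtype.ext
    exact h
  obtain ⟨W, hWinv, ⟨β, hβ, -, x, hx, hβx⟩, hWgen, hWsmall⟩ :=
    exists_small_invariant hRp (Subgroup.zpowers c) (Subgroup.mem_zpowers c) hcop hc1
  have hzle : Subgroup.zpowers c ≤ F.autGroup R := by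
    rw [Subgroup.zpowers_le]
    exact hcmem
  -- `W` is in the focal subgroup
  have hWf : ∀ w ∈ W, (w : Ω) ∈ F.focalSubgroup := by
    have hle : W ≤ (F.focalSubgroup).comap R.subtype := by
      rw [hWgen]
      refine (Subgroup.closure_le _).mpr ?_
      rintro _ ⟨b, hb, -, y, hy, rfl⟩
      have hbF := hzle hb
      have h1 : R.subtype.comp b.toMonoidHom ∈ F.Hom R := (mem_autGroup_iff hRS).mp hbF
      show ((y⁻¹ * b y : R) : Ω) ∈ F.focalSubgroup
      exact Subgroup.subset_closure ⟨R, _, y, h1, by simp⟩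
    exact fun w hw => hle hw
  -- `c` fixes `W`
  have hfix : ∀ w ∈ W, c w = w := by
    intro w hw
    rcases γ.2 w (hWf w hw) (hWsmall w hw) with h | ⟨h2, h⟩
    · exact h
    · -- `c` has odd order
      have hmodd : Odd m := by
        rw [h2] at hγ
        exact Nat.Coprime.odd_of_right hγ
      have hpow : ∀ k : ℕ, (c ^ k) w = if Even k then w else w⁻¹ := by
        intro k
        induction k with
        | zero => simp
        | succ k ih =>
          rw [pow_succ', MulAut.mul_apply, ih]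
          by_cases hk : Even k
          · have hk' : ¬ Even (k + 1) := by
              rw [Nat.even_add_one]; simpa using hk
            simp [hk, hk']
            exact h
          · have hk' : Even (k + 1) := by
              rw [Nat.even_add_one]; exact hk
            simp only [hk, hk', if_false, if_true, map_inv]
            have : c w = w⁻¹ := h
            rw [this, inv_inv]
      have h3 := hpow m
      rw [hcm, if_neg (Nat.not_even_iff_odd.mpr hmodd)] at h3
      have h4 : w = w⁻¹ := h3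
      rw [show c w = w⁻¹ from h, ← h4]
  -- so does all of `⟨c⟩`
  have hall : ∀ b ∈ Subgroup.zpowers c, ∀ w ∈ W, b w = w := by
    intro b hb w hw
    have hle : Subgroup.zpowers c ≤ MulAction.stabilizer (MulAut R) w := by
      rw [Subgroup.zpowers_le]
      exact hfix w hw
    exact hle hb
  exact hβx (hall β hβ x hx)

/-- Conjugation by an element of a finite `p`-group acting as a power on an element of order `p` is trivial. -/
theorem conj_fix [Finite S] (hS : IsPGroup p S) {t x : Ω} (ht : t ∈ S) (hx : x ^ p = 1)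
    (h : t * x * t⁻¹ ∈ Subgroup.zpowers x) : t * x * t⁻¹ = x := by
  obtain ⟨k, hk⟩ := h
  have hk' : t * x * t⁻¹ = x ^ k := hk.symm
  have hpow : ∀ j : ℕ, t ^ j * x * (t ^ j)⁻¹ = x ^ (k ^ j) := by
    intro j
    induction j with
    | zero => simp
    | succ j ih =>
      have h1 : t ^ (j + 1) * x * (t ^ (j + 1))⁻¹ = t * (t ^ j * x * (t ^ j)⁻¹) * t⁻¹ := by
        rw [pow_succ']; group
      rw [h1, ih, ← MulAut.conj_apply, map_zpow, MulAut.conj_apply, hk', ← zpow_mul, pow_succ']
  obtain ⟨a, ha⟩ := hS ⟨t, ht⟩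
  have ha' : t ^ p ^ a = 1 := by
    have := congrArg Subtype.val ha
    simpa using this
  have h1 := hpow (p ^ a)
  rw [ha'] at h1
  simp only [one_mul, inv_one, mul_one] at h1
  have hmod : ((k ^ p ^ a : ℤ) : ZMod p) = ((k : ℤ) : ZMod p) := by
    push_cast
    exact ZMod.pow_card_pow (p := p) (n := a) _
  have hdvd : (p : ℤ) ∣ k ^ p ^ a - k := by
    have := (ZMod.intCast_eq_intCast_iff_dvd_sub k (k ^ p ^ a) p).mp hmod.symm
    exact this
  obtain ⟨c, hc⟩ := hdvd
  have h2 : x ^ (k ^ p ^ a) = x ^ k := by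
    have h3 : k ^ p ^ a = k + p * c := by linarith
    rw [h3, zpow_add, zpow_mul, zpow_natCast, hx, one_zpow, mul_one]
  rw [hk', ← h2, ← h1]

/-- The case `p = 2`. -/
theorem conj_two {t x : Ω} (hx : x ^ 4 = 1) (h : t * x * t⁻¹ ∈ Subgroup.zpowers x) :
    t * x * t⁻¹ = x ∨ t * x * t⁻¹ = x⁻¹ := by
  obtain ⟨k, hk⟩ := h
  have hk' : x ^ k = t * x * t⁻¹ := hk
  have hmod : x ^ k = x ^ (k % 4) := by
    conv_lhs => rw [← Int.emod_add_mul_ediv k 4]
    rw [zpow_add, zpow_mul, show (4 : ℤ) = ((4 : ℕ) : ℤ) by rfl, zpow_natCast, hx, one_zpow, mul_one]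
  have h0 : 0 ≤ k % 4 := Int.emod_nonneg _ (by norm_num)
  have h1 : k % 4 < 4 := Int.emod_lt_of_pos _ (by norm_num)
  have hcases : k % 4 = 0 ∨ k % 4 = 1 ∨ k % 4 = 2 ∨ k % 4 = 3 := by omega
  have hconj1 : ∀ y : Ω, t * y * t⁻¹ = 1 → y = 1 := by
    intro y hy
    have : y = t⁻¹ * (t * y * t⁻¹) * t := by group
    rw [this, hy]; group
  rcases hcases with h2 | h2 | h2 | h2
  · rw [hmod, h2, zpow_zero] at hk'
    have hx1 : x = 1 := hconj1 x hk'.symm
    left
    rw [hx1]; group
  · rw [hmod, h2, zpow_one] at hk'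
    left; exact hk'.symm
  · rw [hmod, h2] at hk'
    have hsq : (t * x * t⁻¹) ^ 2 = 1 := by
      rw [← hk', ← zpow_natCast, ← zpow_mul]
      have : ((2 : ℤ) * ((2 : ℕ) : ℤ)) = ((4 : ℕ) : ℤ) := by norm_num
      rw [this, zpow_natCast, hx]
    have hx2 : x ^ 2 = 1 := by
      apply hconj1
      rw [← conj_pow]
      exact hsq
    have e2 : x ^ (2 : ℤ) = 1 := by
      rw [show (2 : ℤ) = ((2 : ℕ) : ℤ) by rfl, zpow_natCast, hx2]
    rw [e2] at hk'
    have hx1 : x = 1 := hconj1 x hk'.symm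
    left
    rw [hx1]; group
  · rw [hmod, h2] at hk'
    right
    rw [← hk']
    have e3 : x ^ (3 : ℤ) = x ^ (4 : ℤ) * x⁻¹ := by
      rw [show (3 : ℤ) = 4 + (-1) by norm_num, zpow_add, zpow_neg_one]
    rw [e3, show (4 : ℤ) = ((4 : ℕ) : ℤ) by rfl, zpow_natCast, hx, one_mul]

/-- Let F be a saturated fusion system over a finite p-group S. If every cyclic subgroup of the focal subgroup of F of order p (of order 2 or 4 when p = 2) is normal in S, then S is normal in F. -/
theorem result {Ω : Type u} [Group Ω] {S : Subgroup Ω} [Finite S] (p : ℕ) [Fact p.Prime] (hS : IsPGroup p S)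
    (F : Cfsg.FusionSystem S) (hF : F.IsSaturated p)
    (hnorm : ∀ x ∈ F.focalSubgroup, (x ^ p = 1 ∨ (p = 2 ∧ x ^ 4 = 1)) → ∀ s ∈ S, s * x * s⁻¹ ∈ Subgroup.zpowers x) :
    F.IsNormal S := by
  refine isNormal_of_pgroup hS hF (stronglyClosed_top F) (fun R hRS _ _ _ _ t htS htN _ => ?_)
  refine ⟨stab F p R hRS, stab_normal F p R hRS, stab_isPGroup hS R hRS, fun h x hx hsm => ?_⟩
  by_cases hp2 : p = 2
  · subst hp2
    have h4 : (x : Ω) ^ 4 = 1 := by
      have := hsm.2 rfl
      have h2 := congrArg Subtype.val this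
      simpa using h2
    have h1 := hnorm x hx (Or.inr ⟨rfl, h4⟩) t htS
    rcases conj_two h4 h1 with h2 | h2
    · left
      exact Subtype.ext h2
    · right
      exact ⟨rfl, Subtype.ext h2⟩
  · have hxp : (x : Ω) ^ p = 1 := by
      have := hsm.1 hp2
      have h2 := congrArg Subtype.val this
      simpa using h2
    have h1 := hnorm x hx (Or.inl hxp) t htS
    left
    exact Subtype.ext (conj_fix hS htS hxp h1)

end Cfsg.Agent.S5300
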