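import Mathlib
import Cfsg.Statements.S5301
import Cfsg.Agent.Lib.FusionNormalSys
import Cfsg.Agent.Lib.PCore

set_option autoImplicit false
universe u
open Cfsg

namespace Cfsg.Agent.S5301

open Cfsg.FusionSystem Cfsg.Agent.Lib.FusionAlperin Cfsg.Agent.Lib.FusionNormalSys

/-- Let F be a saturated fusion system over a finite p-group S. If for every subgroup P of S that is fully normalized, centric and radical in F the automorphism group that F induces on P has a normal Sylow p-subgroup, then S is normal in F. -/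
theorem result {Ω : Type u} [Group Ω] {S : Subgroup Ω} [Finite S] (p : ℕ) [Fact p.Prime] (hS : IsPGroup p S)
    (F : Cfsg.FusionSystem S) (hF : F.IsSaturated p)
    (hcl : ∀ P : Subgroup Ω, F.IsFullyNormalized P → F.IsCentric P → F.IsRadical p P →
      ∃ R : Sylow p ↥(F.autGroup P), (R : Subgroup ↥(F.autGroup P)).Normal) :
    F.IsNormal S := by
  refine isNormal_of_exists_pgroup hS hF (stronglyClosed_top F) ?_
  intro R hRS hFA hrec hC hSR
  have hfinR : Finite R := finite_of_le hRS
  have hfinA : Finite (MulAut R) := inferInstance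
  obtain ⟨-, A, hA⟩ := id hFA
  -- elements of the Sylow subgroup are conjugations
  have hAconj : ∀ α ∈ (A : Subgroup (F.autGroup R)), ∃ t ∈ S, ∃ htN : t ∈ Subgroup.normalizer (R : Set Ω),
      (α : MulAut R) = conjAut R t htN := by
    intro α hα
    rw [hA] at hα
    obtain ⟨t, htS, ht⟩ := mem_autInducedBy_iff.mp (Subgroup.mem_subgroupOf.mp hα)
    refine ⟨t, htS, mem_normalizer_of_induces ht, ?_⟩
    ext x
    exact ht x
  -- the conjugation by `t`, being inner, forces `t ∈ R`
  have hinner : ∀ t ∈ S, ∀ htN : t ∈ Subgroup.normalizer (R : Set Ω), conjAut R t htN ∈ Inn R → t ∈ R := by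
    rintro t htS htN ⟨r, hr⟩
    have h1 : r⁻¹ * t ∈ centralizerIn S R := by
      refine ⟨S.mul_mem (S.inv_mem (hRS r.2)) htS, Subgroup.mem_centralizer_iff.mpr ?_⟩
      intro y hy
      have h2 : ((conjAut R t htN) ⟨y, hy⟩ : R) = (MulAut.conj r) ⟨y, hy⟩ := by rw [← hr]
      have h3 : t * y * t⁻¹ = r * y * (r : Ω)⁻¹ := congrArg Subtype.val h2
      have h4 : t * y = r * y * (r : Ω)⁻¹ * t := by rw [← h3]; group
      calc y * ((r : Ω)⁻¹ * t) = (r : Ω)⁻¹ * (r * y * (r : Ω)⁻¹ * t) := by group
        _ = (r : Ω)⁻¹ * (t * y) := by rw [h4]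
        _ = (r : Ω)⁻¹ * t * y := by group
    have h5 := R.mul_mem r.2 (hC h1)
    simpa using h5
  -- inner automorphisms lie in the `p`-core
  have hInnF : Inn R ≤ F.autGroup R := by
    rintro _ ⟨r, rfl⟩
    rw [mem_autGroup_iff hRS]
    have : R.subtype.comp (MulAut.conj r).toMonoidHom = conjHom R (r : Ω) := by
      ext x; rfl
    rw [this]
    exact F.conj_mem hRS (hRS r.2)
  have hInnCore : (Inn R).subgroupOf (F.autGroup R) ≤ pCore p (F.autGroup R) := by
    apply Cfsg.Agent.Lib.PCore.le_pCore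
    · exact Subgroup.Normal.subgroupOf inferInstance _
    · have h1 : IsPGroup p (Inn R) := by
        have : IsPGroup p R := hS.to_le hRS
        exact this.of_surjective (MulAut.conj : R →* MulAut R).rangeRestrict
          (MulAut.conj : R →* MulAut R).rangeRestrict_surjective
      exact h1.comap_of_injective _ (Subgroup.subtype_injective _)
  have hcoreA : pCore p (F.autGroup R) ≤ (A : Subgroup (F.autGroup R)) :=
    Cfsg.Agent.Lib.PCore.pCore_le_sylow p A
  by_cases hrad : F.IsRadical p R
  · exfalso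
    have hfn := fullyNormalized_of_spec hS hFA hrec
    have hcen := centric_of_spec hS hFA hrec hC
    obtain ⟨Rs, hRs⟩ := hcl R hfn hcen hrad
    have hle : (Rs : Subgroup (F.autGroup R)) ≤ A := Rs.isPGroup'.le_sylow_of_normal A
    have heq : (A : Subgroup (F.autGroup R)) = Rs := Rs.is_maximal' A.isPGroup' hle
    have hAn : (A : Subgroup (F.autGroup R)).Normal := by rw [heq]; exact hRs
    have hAcore : (A : Subgroup (F.autGroup R)) ≤ pCore p (F.autGroup R) :=
      Cfsg.Agent.Lib.PCore.le_pCore hAn A.isPGroup'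
    have hlt : R < S := lt_of_le_of_ne hRS (fun h => hSR (by rw [h]))
    obtain ⟨t, ht, htR⟩ := SetLike.exists_of_lt (lt_normalizerIn hS hlt)
    have h1 : conjAut R t ht.2 ∈ F.autGroup R :=
      autInducedBy_le_autGroup hRS (conjAut_mem_autInducedBy ht.1 ht.2)
    have h2 : (⟨conjAut R t ht.2, h1⟩ : F.autGroup R) ∈ (A : Subgroup (F.autGroup R)) := by
      rw [hA]
      exact Subgroup.mem_subgroupOf.mpr (conjAut_mem_autInducedBy ht.1 ht.2)
    have h3 := hAcore h2
    have h4 : conjAut R t ht.2 ∈ (pCore p (F.autGroup R)).map (F.autGroup R).subtype :=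
      ⟨_, h3, rfl⟩
    rw [hrad.2] at h4
    exact htR (hinner t ht.1 ht.2 h4)
  · -- `R` is not radical
    have hne : ¬ (pCore p (F.autGroup R)).map (F.autGroup R).subtype ≤ Inn R := by
      intro hle
      apply hrad
      refine ⟨hRS, le_antisymm hle ?_⟩
      intro β hβ
      exact ⟨⟨β, hInnF hβ⟩, hInnCore (Subgroup.mem_subgroupOf.mpr hβ), rfl⟩
    obtain ⟨β, ⟨α, hα, rfl⟩, hβ⟩ := SetLike.not_le_iff_exists.mp hne
    obtain ⟨t, htS, htN, hαt⟩ := hAconj α (hcoreA hα)
    refine ⟨t, htS, htN, ?_, pCore p (F.autGroup R), inferInstance,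
      Cfsg.Agent.Lib.PCore.isPGroup_pCore p, fun h => ?_⟩
    · intro htR
      apply hβ
      show (α : MulAut R) ∈ Inn R
      rw [hαt]
      refine ⟨⟨t, htR⟩, ?_⟩
      ext x
      rfl
    · have : (⟨conjAut R t htN, h⟩ : F.autGroup R) = α := Subtype.ext hαt.symm
      rw [this]
      exact hα

end Cfsg.Agent.S5301
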