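import Mathlib
import Cfsg.Statements.S5329
import Cfsg.Agent.Lib.FusionTrfApps

set_option autoImplicit false
open Cfsg
open Cfsg.Agent.Lib.FusionCore Cfsg.Agent.Lib.FusionBiset Cfsg.Agent.Lib.FusionTransfer Cfsg.Agent.Lib.FusionTrfApps

namespace Cfsg.Agent.S5329

/-- For a saturated fusion system F over a finite p-group S, the focal subgroup and the derived subgroup of S meet the centre Z(F) of the system in the same subgroup: foc(F) ∩ Z(F) = S′ ∩ Z(F). -/
theorem result {Ω : Type*} [Group Ω] {S : Subgroup Ω} [Finite S] (p : ℕ) [Fact p.Prime] (hS : IsPGroup p S) (F : Cfsg.FusionSystem S) (hF : F.IsSaturated p) : F.focalSubgroup ⊓ F.center = ⁅(S : Subgroup Ω), (S : Subgroup Ω)⁆ ⊓ F.center := by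
  classical
  apply le_antisymm
  · rintro z ⟨hz1, hz2⟩
    refine ⟨?_, hz2⟩
    have hzS : z ∈ S := center_le hz2
    obtain ⟨X, i1, i2, hX, hm, hn⟩ := exists_transfer hS hF
    have h1 := tr_focal hX hm (Abelianization.of (G := ↥S)) hz1 hzS
    have h2 := tr_eq_pow hX (Abelianization.of (G := ↥S)) (F.center.subgroupOf S)
      (by
        intro x a b ha hab
        obtain ⟨P, f, hf, haP, hb⟩ := stab_maps hX x a b hab
        have h3 : f a = a := center_fixed ha hf haP
        have h4 : b = a := Subtype.ext (hb.trans h3)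
        rw [h4])
      (z := ⟨z, hzS⟩) hz2
    rw [h1] at h2
    obtain ⟨k, hk⟩ := hS ⟨z, hzS⟩
    have h3 : (Abelianization.of (⟨z, hzS⟩ : ↥S)) ^ p ^ k = 1 := by
      rw [← map_pow, hk, map_one]
    have hc : Nat.Coprime (Nat.card (Cfsg.Agent.Lib.FusionTransfer.OrbI (S := S) X)) (p ^ k) :=
      Nat.Coprime.pow_right k ((Nat.coprime_comm.1 ((Nat.Prime.coprime_iff_not_dvd (Fact.out)).2 hn)))
    have h4 : Abelianization.of (⟨z, hzS⟩ : ↥S) = 1 := by
      have h5 := orderOf_dvd_of_pow_eq_one h3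
      have h6 := orderOf_dvd_of_pow_eq_one h2.symm
      exact orderOf_eq_one_iff.1 (Nat.eq_one_of_dvd_coprimes hc h6 h5)
    have h5 : (⟨z, hzS⟩ : ↥S) ∈ commutator ↥S := by
      rw [← Abelianization.ker_of]
      exact h4
    have h6 : z ∈ (commutator ↥S).map S.subtype := ⟨_, h5, rfl⟩
    rw [commutator_def, Subgroup.map_commutator, ← MonoidHom.range_eq_map, Subgroup.range_subtype] at h6
    exact h6
  · exact inf_le_inf_right _ commutator_le_focal

end Cfsg.Agent.S5329
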