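import Mathlib
import Cfsg.Statements.S5521
import Cfsg.Agent.Lib.GolayChain

set_option autoImplicit false
open Cfsg

namespace Cfsg.Agent.S5521

/-- The Mathieu group M₂₄ in its natural action on the 24 coordinate positions of the binary Golay code has minimal base size exactly 7: every set of at most 6 positions is fixed pointwise by some non-identity element of M₂₄, while some set of 7 positions is fixed pointwise only by the identity. -/
theorem result :
    (∀ B : Finset Cfsg.GolayPt, B.card ≤ 6 → ∃ g ∈ Cfsg.M24, g ≠ 1 ∧ ∀ b ∈ B, g b = b) ∧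
    (∃ B : Finset Cfsg.GolayPt, B.card = 7 ∧ ∀ g ∈ Cfsg.M24, (∀ b ∈ B, g b = b) → g = 1) := by
  constructor
  · intro B hB
    have hcardP : Fintype.card GolayPt = 24 := by decide +kernel
    obtain ⟨B', hBB', hB'⟩ : ∃ B' : Finset GolayPt, B ⊆ B' ∧ B'.card = 6 :=
      Finset.exists_superset_card_eq hB (by
        rw [hcardP]; norm_num)
    obtain ⟨a, t1, ha, rfl, ht1⟩ := Finset.card_eq_succ.mp hB'
    obtain ⟨b, t2, hb, rfl, ht2⟩ := Finset.card_eq_succ.mp ht1
    obtain ⟨c, t3, hc, rfl, ht3⟩ := Finset.card_eq_succ.mp ht2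
    obtain ⟨d, t4, hd, rfl, ht4⟩ := Finset.card_eq_succ.mp ht3
    obtain ⟨e, t5, he, rfl, ht5⟩ := Finset.card_eq_succ.mp ht4
    obtain ⟨f, rfl⟩ := Finset.card_eq_one.mp ht5
    simp only [Finset.mem_insert, Finset.mem_singleton, not_or] at ha hb hc hd he
    obtain ⟨hab, hac, had, hae, haf⟩ := ha
    obtain ⟨hbc, hbd, hbe, hbf⟩ := hb
    obtain ⟨hcd, hce, hcf⟩ := hc
    obtain ⟨hde, hdf⟩ := hd
    obtain ⟨g, hg, h1, h2, h3, h4, h5⟩ :=
      Cfsg.Agent.Lib.Golay.exists_M24_five a b c d e hab hac had hae hbc hbd hbe hcd hce hde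
    set y := g⁻¹ f with hy
    let φ : Cfsg.Agent.Lib.Golay.G [3,2,1,0,23] → GolayPt := fun h => h.1 y
    have hnotinj : ¬ Function.Injective φ := by
      intro hinj
      have := Nat.card_le_card_of_injective φ hinj
      rw [Cfsg.Agent.Lib.Golay.card_G5, Nat.card_eq_fintype_card, hcardP] at this
      omega
    simp only [Function.Injective, not_forall] at hnotinj
    obtain ⟨h₁, h₂, heq, hne⟩ := hnotinj
    set k := (h₁.1)⁻¹ * h₂.1 with hk
    have hkG : k ∈ Cfsg.Agent.Lib.Golay.G [3,2,1,0,23] := mul_mem (inv_mem h₁.2) h₂.2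
    have hky : k y = y := by
      rw [hk, Equiv.Perm.mul_apply, Equiv.Perm.inv_eq_iff_eq]
      exact heq.symm
    have hk1 : k ≠ 1 := by
      intro h
      apply hne
      apply Subtype.ext
      rw [hk, inv_mul_eq_one] at h
      exact h
    have hfix : ∀ i ∈ [3,2,1,0,23], k (Cfsg.Agent.Lib.Golay.pt i) = Cfsg.Agent.Lib.Golay.pt i := hkG.2
    refine ⟨g * k * g⁻¹, mul_mem (mul_mem hg hkG.1) (inv_mem hg), ?_, ?_⟩
    · intro h
      apply hk1
      have : g * k = g := by
        have h' := congrArg (· * g) h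
        simpa using h'
      exact mul_left_cancel (a := g) (by rw [this, mul_one])
    · intro x hx
      have hx' := hBB' hx
      simp only [Finset.mem_insert, Finset.mem_singleton] at hx'
      have key : ∀ i ∈ [3,2,1,0,23], ∀ p, g (Cfsg.Agent.Lib.Golay.pt i) = p → (g * k * g⁻¹) p = p := by
        intro i hi p hp
        subst hp
        simp only [Equiv.Perm.mul_apply]
        rw [show g⁻¹ (g (Cfsg.Agent.Lib.Golay.pt i)) = Cfsg.Agent.Lib.Golay.pt i from by simp, hfix i hi]
      rcases hx' with rfl | rfl | rfl | rfl | rfl | rfl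
      · exact key 23 (by simp) _ h1
      · exact key 0 (by simp) _ h2
      · exact key 1 (by simp) _ h3
      · exact key 2 (by simp) _ h4
      · exact key 3 (by simp) _ h5
      · simp only [Equiv.Perm.mul_apply]
        rw [← hy, hky, hy]
        simp
  · refine ⟨([4,5,3,2,1,0,23] : List ℕ).toFinset.image Cfsg.Agent.Lib.Golay.pt, by decide +kernel, ?_⟩
    intro g hg hfix
    have : g ∈ Cfsg.Agent.Lib.Golay.G [4,5,3,2,1,0,23] := by
      refine ⟨hg, fun i hi => hfix _ ?_⟩
      exact Finset.mem_image_of_mem _ (List.mem_toFinset.mpr hi)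
    rw [Cfsg.Agent.Lib.Golay.G7_eq_bot, Subgroup.mem_bot] at this
    exact this

end Cfsg.Agent.S5521
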