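import Mathlib
import Cfsg.Statements.S5529
import Cfsg.Agent.Lib.M23Gen
import Cfsg.Agent.Lib.ReeFormula
import Cfsg.Agent.Lib.GolayClasses

set_option autoImplicit false
set_option maxRecDepth 100000
open Cfsg

namespace Cfsg.Agent.S5529

open Cfsg Cfsg.Spor Cfsg.Agent.Lib.Golay Cfsg.Agent.Lib.GolaySift Cfsg.Agent.Lib.MathieuSimple
  Cfsg.Agent.Lib.M23Gen Cfsg.Agent.Lib.Ree

/-- A generation witness. -/
structure Wit where
  p : ℕ
  q : ℕ
  r : ℕ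
  x : ℕ
  y : ℕ
  ins : List (ℕ × ℕ)

/-- The witnesses. -/
def table : List Wit := [
  ⟨2,5,11,973581416376418838870392737162889781,968986555863270813189001473882011308,[(1,0),(1,1),(0,3),(2,3),(0,4),(0,5),(3,6),(0,7),(2,9),(0,9),(0,10),(0,12),(4,13),(0,13),(2,14),(0,15),(2,16),(2,18),(0,18),(0,19),(0,21),(5,22),(5,22),(0,24),(3,24),(3,25),(0,27),(2,28),(0,28),(5,29),(0,30),(4,31),(1,32),(4,34),(0,34),(3,35),(4,37),(2,37),(2,39),(2,39),(7,41),(3,42),(1,42),(3,44),(2,44),(2,45),(0,46),(2,48),(0,48),(2,49),(1,50),(1,52),(0,52),(2,53),(1,55),(0,55),(2,56),(0,58),(2,58),(1,59),(21,0),(2,17)]⟩,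
  ⟨2,5,23,959370831769339767586387920663827920,971250598878743688442403260125522193,[(0,0),(1,2),(1,3),(0,3),(0,5),(0,5),(0,6),(0,7),(7,8),(0,9),(0,11),(0,11),(13,12),(1,13),(1,14),(7,16),(2,16),(2,17),(0,19),(0,19),(0,21),(4,21),(6,22),(1,24),(3,24),(2,25),(1,26),(3,27),(2,29),(2,30),(0,30),(0,32),(3,32),(5,33),(0,35),(0,35),(3,37),(1,37),(1,38),(0,40),(0,40),(3,41),(1,42),(0,44),(2,44),(1,45),(14,1),(45,1)]⟩,
  ⟨2,7,7,984271785677613986975440403252656178,979363532704035009548517249199265088,[(1,0),(1,2),(0,2),(0,4),(4,4),(4,5),(1,6),(2,8),(1,9),(0,9),(2,10),(7,11),(0,13),(0,13),(3,14),(9,16),(2,16),(7,17),(3,18),(3,19),(2,21),(0,21),(3,22),(0,23),(7,24),(3,25),(2,26),(0,28),(2,29),(4,29),(0,30),(0,31),(4,32),(13,33),(5,34),(2,35),(1,36),(5,38),(0,38),(2,39),(6,41),(2,42),(6,43),(2,43),(0,44),(0,46),(3,46),(1,47),(6,48),(9,50),(0,50),(3,51),(1,52),(6,53),(0,54),(6,55),(1,57),(0,57),(2,59),(7,59),(0,61),(2,61),(1,62),(10,63),(2,64),(1,65),(3,66),(2,67),(2,68),(2,69),(0,70),(3,71),(1,73),(0,73),(2,74),(1,75),(0,77),(0,77),(3,79),(0,79),(2,81),(12,1),(24,1)]⟩,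
  ⟨2,7,11,970538779416890931423456359391791502,981726409850030038384675571892792371,[(1,0),(1,2),(1,3),(3,3),(0,4),(3,5),(3,6),(1,7),(0,8),(0,9),(3,10),(0,11),(0,13),(8,14),(0,14),(2,15),(1,16),(1,17),(0,19),(9,19),(3,20),(3,21),(3,22),(2,23),(0,24),(0,26),(3,26),(0,27),(6,29),(0,29),(2,31),(0,31),(0,32),(3,33),(1,35),(1,36),(1,36),(1,37),(0,39),(2,39),(14,40),(2,41),(0,42),(3,43),(0,44),(2,46),(0,46),(0,48),(3,48),(0,50),(2,50),(1,51),(0,53),(12,2),(34,1)]⟩,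
  ⟨2,7,23,984595137648923788561440491536746848,959543686654851029744620669803942349,[(0,0),(2,1),(1,2),(1,3),(0,4),(4,6),(1,7),(4,7),(0,9),(2,9),(0,11),(2,11),(6,12),(0,14),(1,14),(1,15),(4,16),(2,18),(2,19),(8,19),(3,20),(1,22),(1,22),(0,23),(2,24),(6,25),(8,26),(3,28),(2,29),(4,29),(3,31),(3,31),(2,32),(0,33),(2,35),(0,35),(0,36),(0,38),(4,38),(1,39),(11,40),(2,41),(2,43),(2,44),(13,44),(3,46),(2,46),(2,48),(0,48),(2,49),(7,50),(1,52),(0,52),(2,53),(0,54),(6,56),(0,56),(2,58),(0,58),(6,59),(3,60),(1,62),(0,62),(4,64),(1,64),(4,65),(1,67),(1,68),(0,68),(0,70),(0,70),(0,72),(0,72),(9,73),(0,75),(0,75),(9,3),(31,1)]⟩,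
  ⟨2,11,11,984815236210785284474902464532940801,971531551731241369308440477770464301,[(0,1),(0,1),(0,2),(3,3),(5,4),(1,5),(0,7),(2,8),(5,9),(2,9),(2,10),(2,11),(0,12),(3,13),(1,15),(1,16),(5,16),(2,17),(1,18),(3,19),(2,20),(2,22),(2,23),(2,23),(1,24),(7,26),(0,26),(3,27),(3,28),(0,29),(3,30),(3,32),(0,32),(3,34),(1,35),(1,35),(1,36),(1,37),(0,39),(17,39),(9,41),(0,41),(3,42),(0,43),(0,44),(8,46),(6,46),(5,47),(2,48),(0,50),(2,50),(1,51),(5,53),(8,54),(2,54),(0,56),(3,56),(1,57),(4,58),(0,59),(3,60),(0,61),(0,62),(0,63),(13,65),(1,66),(8,66),(2,67),(2,68),(1,69),(1,70),(0,71),(0,72),(3,73),(1,74),(1,75),(1,77),(17,1),(11,1)]⟩,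
  ⟨2,11,23,971675204890797218836974603388500008,958231673017407103993820813627741888,[(1,0),(0,1),(0,2),(0,4),(4,4),(0,5),(0,6),(3,7),(5,8),(1,9),(0,11),(2,11),(1,12),(1,14),(1,14),(8,16),(0,16),(0,18),(3,18),(1,19),(1,20),(1,22),(0,22),(2,24),(1,24),(0,25),(6,26),(3,27),(2,29),(1,30),(1,30),(1,31),(5,32),(0,34),(3,35),(0,35),(4,37),(0,37),(0,38),(0,39),(0,41),(0,41),(0,42),(0,43),(10,8),(31,1)]⟩,
  ⟨2,23,23,965854187687885174613743780153906208,958033898662595740878416784886632149,[(0,0),(0,1),(1,3),(3,4),(2,5),(0,5),(2,6),(4,7),(0,8),(0,9),(2,11),(1,11),(0,12),(6,13),(1,14),(1,15),(5,16),(1,17),(12,19),(1,20),(5,21),(1,21),(1,22),(1,23),(1,24),(6,25),(1,26),(10,27),(2,28),(5,29),(0,30),(2,32),(1,32),(5,34),(2,34),(8,35),(1,37),(1,37),(5,38),(5,39),(0,40),(3,41),(3,43),(1,43),(0,44),(4,45),(0,46),(2,47),(0,48),(0,50),(3,50),(1,51),(1,52),(1,53),(1,54),(0,55),(0,56),(3,57),(1,58),(16,0),(23,2)]⟩,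
  ⟨3,3,11,971346746824941266121523911443194466,979211418388458847745394898933960832,[(1,1),(1,1),(3,2),(1,4),(0,5),(2,5),(0,7),(2,7),(7,8),(0,10),(0,11),(3,11),(5,12),(2,13),(2,15),(0,16),(3,17),(1,17),(0,19),(5,20),(0,20),(0,21),(5,22),(0,24),(2,25),(1,25),(1,26),(1,28),(1,29),(0,29),(0,30),(3,32),(1,33),(1,33),(0,35),(0,35),(0,37),(0,37),(5,39),(0,39),(0,40),(0,42),(4,42),(1,44),(0,44),(0,46),(0,47),(4,48),(29,1),(46,1)]⟩,
  ⟨3,3,23,982819184241174554645936351173937714,984803823736155268584564415169377646,[(1,1),(1,1),(0,3),(4,3),(3,4),(2,5),(2,7),(3,7),(0,9),(2,9),(4,11),(6,12),(1,12),(1,14),(4,15),(6,16),(3,16),(2,17),(2,18),(2,20),(2,21),(7,21),(3,23),(3,23),(3,24),(2,26),(0,26),(3,27),(0,29),(2,29),(0,31),(2,32),(0,32),(0,34),(0,34),(0,35),(5,36),(1,38),(13,39),(1,40),(0,40),(0,42),(3,42),(6,43),(2,44),(2,45),(2,47),(2,48),(2,49),(1,49),(3,50),(1,52),(3,52),(2,54),(0,55),(0,55),(4,56),(0,58),(0,58),(6,59),(1,60),(1,62),(6,63),(0,63),(0,65),(43,4),(4,1)]⟩,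
  ⟨3,5,5,981398120186719010281956659691765152,955568547263088509420364156397569474,[(1,0),(2,2),(0,2),(0,3),(0,4),(1,6),(1,7),(1,8),(7,8),(1,9),(0,10),(2,12),(1,12),(1,13),(7,14),(0,15),(5,17),(0,18),(2,19),(5,20),(1,21),(1,21),(4,22),(1,23),(3,24),(0,26),(3,26),(1,28),(15,29),(0,30),(0,30),(7,32),(5,32),(0,34),(3,35),(1,35),(1,37),(5,38),(2,38),(0,40),(12,40),(0,41),(4,42),(3,43),(0,45),(3,46),(1,46),(0,48),(2,48),(1,49),(0,51),(14,0),(9,3)]⟩,
  ⟨3,5,7,969243867008645848132952769578612785,983110758616705736759417187916253320,[(0,0),(0,2),(0,2),(2,3),(4,5),(0,5),(3,7),(0,7),(2,9),(0,9),(2,10),(1,11),(1,12),(1,13),(0,14),(11,15),(0,17),(0,17),(3,19),(6,20),(0,20),(2,21),(0,23),(2,23),(0,25),(2,26),(0,26),(3,27),(1,29),(4,29),(1,30),(3,32),(1,33),(0,33),(4,35),(1,36),(4,36),(0,37),(2,38),(0,40),(2,40),(23,6),(2,1)]⟩,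
  ⟨3,5,11,984117233745048356409066380109257045,956785283712815990898099265694151296,[(0,0),(2,2),(2,3),(0,4),(2,4),(2,5),(2,6),(1,7),(1,9),(4,9),(2,11),(0,11),(3,12),(3,13),(2,14),(14,16),(0,16),(3,18),(5,19),(1,19),(1,21),(0,21),(5,22),(3,24),(9,24),(1,25),(3,27),(2,27),(1,28),(0,29),(4,31),(1,32),(1,33),(0,33),(12,34),(3,35),(0,36),(9,38),(0,38),(0,39),(6,41),(1,42),(0,42),(0,44),(7,44),(1,46),(0,46),(0,48),(7,0),(4,14)]⟩,
  ⟨3,5,23,984278123477267977138206131901576873,962169122247822898757668361942305334,[(0,1),(2,1),(0,2),(0,4),(0,4),(5,5),(1,7),(6,7),(2,8),(2,9),(0,11),(2,11),(4,13),(9,14),(1,14),(1,15),(0,16),(2,17),(1,18),(7,20),(0,21),(2,21),(0,23),(5,24),(0,24),(2,25),(15,27),(1,27),(0,29),(4,30),(0,30),(0,31),(3,32),(1,33),(13,34),(8,35),(2,37),(2,38),(2,39),(1,39),(0,41),(2,41),(1,43),(1,44),(7,44),(0,45),(2,46),(1,48),(0,48),(0,50),(3,50),(0,52),(0,53),(20,3),(11,1)]⟩,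
  ⟨3,7,7,981360078494956675012332867358399789,969121747672901903677108377941068835,[(0,0),(0,1),(0,2),(0,3),(4,5),(1,6),(1,7),(4,8),(2,9),(0,9),(2,10),(4,11),(1,12),(0,14),(2,14),(5,16),(2,16),(1,17),(0,18),(4,20),(3,21),(2,22),(0,23),(0,23),(3,24),(0,25),(2,26),(0,28),(2,28),(4,30),(0,31),(0,31),(4,32),(13,33),(5,35),(3,35),(3,36),(3,37),(0,38),(2,39),(0,41),(5,41),(3,42),(2,43),(2,45),(2,45),(0,46),(2,47),(1,49),(1,49),(0,50),(0,51),(0,52),(0,54),(0,54),(20,6),(12,1)]⟩,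
  ⟨3,7,11,980880450111039407346597200923723873,968902814638778376561640782589807648,[(0,1),(0,2),(1,2),(1,3),(0,4),(0,6),(3,7),(0,7),(2,9),(0,9),(2,11),(1,11),(1,12),(0,13),(2,14),(7,15),(1,16),(1,18),(4,19),(0,19),(2,21),(0,21),(2,23),(6,24),(2,24),(1,26),(13,27),(4,27),(0,28),(0,29),(0,31),(4,31),(1,32),(7,33),(0,34),(3,36),(0,37),(2,37),(5,39),(2,39),(15,40),(2,41),(1,42),(1,43),(0,45),(2,46),(0,46),(0,47),(8,48),(0,49),(0,51),(6,51),(4,52),(0,54),(3,54),(0,56),(2,56),(0,57),(6,0),(21,3)]⟩,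
  ⟨3,7,23,984169127832300220956043435765338189,968463001631420834574772163208486184,[(0,1),(0,1),(0,3),(4,4),(0,4),(2,5),(0,6),(0,8),(3,8),(1,10),(1,11),(0,11),(0,13),(10,14),(1,14),(5,15),(2,16),(0,17),(5,19),(4,19),(2,20),(5,21),(2,23),(1,24),(0,24),(4,25),(0,27),(2,28),(5,29),(2,29),(11,30),(1,32),(4,33),(0,33),(2,34),(6,35),(0,36),(0,38),(0,39),(8,39),(0,41),(0,41),(0,42),(0,43),(0,45),(0,45),(0,47),(0,48),(14,49),(1,49),(15,0),(12,2)]⟩,
  ⟨3,11,11,984048764516102493855649463622816270,977982933422828244905723461568343680,[(0,0),(0,2),(2,3),(0,3),(2,4),(1,6),(1,6),(8,8),(0,8),(3,9),(3,10),(0,12),(0,13),(3,13),(2,14),(6,15),(1,17),(0,18),(5,18),(3,20),(0,20),(3,21),(8,22),(1,23),(3,25),(0,26),(0,26),(4,27),(0,29),(5,29),(3,30),(12,31),(1,32),(4,34),(2,35),(0,36),(6,37),(1,37),(0,38),(5,39),(1,41),(1,42),(9,43),(2,43),(2,45),(0,45),(0,47),(3,48),(11,48),(2,50),(1,50),(0,52),(4,52),(0,53),(2,55),(0,55),(0,57),(7,0),(15,4)]⟩,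
  ⟨3,11,23,971141049072979215209457300093896864,966686276575236663696034563350376674,[(0,1),(1,1),(3,2),(1,3),(3,5),(0,5),(3,7),(0,7),(4,9),(8,9),(2,11),(5,11),(1,12),(3,14),(5,15),(3,16),(2,16),(2,17),(1,18),(3,20),(7,20),(3,21),(3,23),(1,24),(4,24),(2,25),(0,26),(3,27),(7,29),(2,29),(2,31),(2,31),(1,32),(8,33),(0,34),(0,36),(4,36),(7,37),(1,38),(6,39),(1,40),(5,41),(1,42),(0,43),(4,44),(1,46),(1,46),(9,47),(2,48),(2,49),(0,51),(2,51),(4,52),(0,54),(3,54),(13,56),(4,56),(0,57),(2,58),(0,59),(0,60),(0,61),(8,4),(8,1)]⟩,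
  ⟨3,23,23,973073453049388065920810334491936964,975604194714758477475072624227468966,[(1,0),(1,2),(0,3),(0,3),(0,4),(1,6),(0,6),(0,8),(0,8),(0,9),(5,10),(1,12),(0,13),(2,13),(1,14),(0,16),(0,16),(0,17),(0,19),(0,20),(6,21),(1,21),(1,22),(1,23),(1,24),(0,25),(0,26),(0,27),(0,29),(13,0),(29,6)]⟩,
  ⟨5,5,5,983946079912611528528779670725335203,960154388857300047925685872609169810,[(0,1),(2,2),(2,2),(0,3),(0,5),(4,5),(1,7),(0,7),(2,8),(7,10),(9,11),(1,11),(3,12),(2,13),(2,14),(1,16),(8,17),(4,17),(3,19),(3,20),(0,20),(2,22),(5,22),(2,24),(0,25),(7,26),(4,26),(2,27),(1,29),(6,29),(1,30),(0,31),(2,32),(0,34),(2,35),(7,35),(10,37),(1,38),(0,39),(2,39),(5,40),(0,42),(3,43),(1,44),(1,44),(11,46),(1,46),(1,47),(1,48),(1,49),(0,50),(7,52),(3,53),(2,54),(14,55),(3,56),(2,56),(2,57),(1,58),(1,59),(0,61),(0,61),(0,63),(4,7),(11,1)]⟩,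
  ⟨5,5,7,959887874881422454587946016325019056,959697761714145071393395052677281430,[(1,1),(1,1),(3,2),(1,4),(0,4),(0,6),(0,7),(6,7),(2,8),(2,10),(2,11),(8,12),(0,12),(2,13),(1,15),(1,15),(7,17),(0,18),(2,19),(1,20),(1,21),(1,22),(0,22),(2,23),(1,24),(10,26),(16,26),(3,28),(3,28),(0,30),(3,31),(0,32),(4,33),(1,34),(0,34),(2,36),(1,36),(0,38),(8,39),(0,39),(14,40),(1,42),(1,42),(1,43),(1,44),(1,46),(1,46),(1,47),(1,49),(1,50),(1,50),(0,51),(2,52),(17,1),(16,1)]⟩,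
  ⟨5,5,11,974410351530915725315129300302960201,983033308333671725516515596519555426,[(1,1),(1,1),(0,3),(1,3),(3,4),(1,6),(3,6),(2,8),(1,9),(0,10),(0,10),(3,11),(0,12),(2,13),(8,15),(3,16),(2,16),(0,18),(2,19),(6,20),(5,20),(1,22),(3,23),(2,23),(2,24),(7,26),(3,26),(2,27),(0,29),(5,29),(1,30),(1,31),(5,32),(7,33),(2,35),(1,35),(5,36),(1,38),(3,38),(6,40),(0,40),(3,42),(0,42),(0,44),(3,45),(6,46),(0,46),(0,47),(3,48),(5,50),(0,50),(0,51),(3,52),(16,1),(6,1)]⟩,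
  ⟨5,5,23,970370713770387838171428772130073266,982832659929468688582555226948965408,[(0,0),(2,1),(1,2),(1,4),(1,5),(1,6),(5,7),(0,7),(0,9),(3,9),(5,10),(0,11),(3,13),(3,14),(1,14),(3,16),(0,17),(2,17),(4,19),(1,20),(0,20),(4,21),(0,22),(0,23),(4,25),(0,25),(5,27),(1,27),(1,28),(1,29),(1,31),(0,31),(13,33),(3,34),(2,34),(0,36),(2,36),(1,37),(1,38),(6,39),(2,40),(2,42),(2,42),(0,44),(0,45),(3,46),(1,47),(23,0),(7,2)]⟩,
  ⟨5,7,7,984561664983857741991257588064715405,970239550761886619646782815971938624,[(1,0),(0,1),(0,3),(0,3),(4,5),(1,5),(0,7),(2,8),(1,9),(0,10),(2,10),(0,12),(2,12),(9,14),(1,15),(3,15),(6,17),(1,18),(3,18),(5,19),(0,21),(4,21),(0,22),(5,23),(3,25),(6,25),(1,27),(3,27),(5,29),(3,30),(1,30),(3,31),(5,32),(1,34),(0,34),(0,36),(3,36),(1,38),(7,39),(2,39),(10,40),(0,41),(2,43),(5,43),(1,45),(6,46),(1,46),(5,47),(4,48),(3,49),(2,51),(4,51),(2,53),(1,54),(0,54),(0,55),(0,57),(0,57),(0,58),(8,6),(11,1)]⟩,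
  ⟨5,7,11,963480431769040427331213516308196672,971856547927430263521655034802111087,[(0,1),(2,2),(3,2),(0,4),(2,4),(1,5),(0,6),(1,8),(1,9),(8,9),(2,11),(2,11),(1,12),(3,13),(9,14),(3,16),(0,17),(0,17),(5,19),(4,20),(2,20),(0,22),(3,22),(9,24),(0,24),(0,26),(6,27),(0,28),(6,28),(3,30),(2,31),(8,32),(1,32),(0,34),(0,34),(6,36),(0,36),(2,37),(6,39),(1,40),(0,41),(0,42),(5,43),(1,43),(0,45),(6,46),(3,47),(0,47),(0,49),(0,50),(0,51),(5,0),(22,7)]⟩,
  ⟨5,7,23,958574103899925739582154031739618672,983348588137912682719801915413217903,[(1,0),(0,1),(0,2),(2,4),(1,5),(0,5),(1,7),(1,8),(8,9),(2,10),(1,10),(3,11),(0,13),(3,13),(10,14),(1,15),(1,16),(1,18),(1,18),(1,19),(7,20),(0,21),(3,22),(3,23),(2,25),(1,26),(0,27),(0,28),(0,28),(0,30),(7,31),(6,31),(2,32),(1,33),(0,34),(2,36),(1,36),(0,37),(7,2),(28,1)]⟩,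
  ⟨5,11,11,982203199528031903147149832481197355,965170567407915601905048304451490006,[(0,0),(1,2),(1,3),(1,4),(5,5),(2,6),(1,6),(8,7),(4,9),(3,9),(0,11),(4,11),(4,13),(2,13),(1,15),(6,15),(1,16),(0,17),(4,18),(1,19),(8,21),(0,21),(2,22),(1,23),(1,24),(1,25),(0,27),(2,27),(1,28),(1,30),(14,1),(12,1)]⟩,
  ⟨5,11,23,981385436689822748929775687482777968,965908653483430026261820312444378128,[(0,1),(0,1),(2,2),(1,4),(1,4),(1,5),(1,6),(1,7),(7,9),(2,10),(2,11),(2,11),(0,13),(0,14),(3,14),(0,16),(2,16),(0,18),(0,19),(3,19),(0,21),(1,21),(3,22),(2,24),(2,25),(0,26),(3,26),(1,27),(18,29),(0,29),(0,30),(4,31),(1,33),(0,34),(0,35),(3,35),(0,36),(0,38),(3,38),(1,39),(0,41),(2,42),(1,42),(19,1),(16,1)]⟩,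
  ⟨5,23,23,958558535732991341866731239795496992,962709097862450779768165432578971787,[(1,1),(1,1),(2,3),(2,3),(1,4),(2,6),(4,6),(2,7),(2,8),(2,10),(0,10),(7,12),(1,12),(1,13),(6,14),(1,15),(3,16),(2,18),(1,19),(3,20),(11,21),(1,22),(4,22),(1,23),(3,24),(1,25),(0,26),(8,27),(5,29),(0,29),(3,30),(6,32),(1,33),(0,33),(0,35),(7,35),(6,36),(0,37),(3,38),(3,40),(2,41),(2,41),(2,42),(1,44),(0,44),(4,46),(3,47),(2,47),(2,49),(2,50),(0,50),(2,51),(1,52),(0,53),(22,2),(7,1)]⟩,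
  ⟨7,7,7,960920513715913434234168313261444160,962733978716763613730316479779975757,[(0,0),(0,1),(1,3),(4,3),(2,5),(1,6),(0,6),(4,7),(1,8),(4,10),(0,10),(0,12),(6,13),(5,14),(1,15),(0,16),(4,16),(0,17),(0,18),(0,20),(4,20),(1,22),(8,23),(2,23),(1,25),(0,26),(0,26),(3,27),(0,29),(7,29),(1,30),(1,32),(1,32),(0,33),(7,34),(3,35),(1,36),(1,38),(0,39),(0,39),(6,40),(1,41),(5,0),(34,2)]⟩,
  ⟨7,7,11,956076288412318464206145424992733537,979344588036144641223239283029230176,[(0,1),(0,2),(1,2),(0,4),(2,4),(0,6),(0,6),(3,7),(1,9),(5,10),(0,11),(3,11),(0,13),(0,13),(5,14),(0,16),(2,17),(6,17),(1,18),(20,20),(4,21),(1,22),(1,22),(1,23),(5,25),(1,25),(3,27),(1,27),(3,29),(1,29),(3,31),(1,31),(0,33),(4,33),(0,34),(17,35),(0,36),(2,37),(5,38),(1,40),(1,40),(0,42),(5,42),(12,0),(4,2)]⟩,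
  ⟨7,7,23,964691363523677661132070244048079220,975204085471240011884529905195679950,[(0,1),(0,1),(0,2),(0,3),(4,4),(2,6),(0,7),(0,8),(4,9),(0,9),(2,10),(6,12),(2,12),(0,13),(8,14),(0,15),(5,16),(1,18),(0,19),(7,20),(6,20),(2,22),(2,22),(6,23),(2,24),(0,25),(0,26),(0,28),(4,29),(0,29),(0,31),(3,31),(9,33),(0,34),(0,34),(14,36),(1,37),(0,38),(2,39),(0,39),(9,41),(3,42),(0,43),(2,44),(0,44),(0,45),(0,47),(4,48),(0,48),(0,49),(3,51),(11,0),(20,2)]⟩,
  ⟨7,11,11,962053262162363248381891101684947378,977572235863845558937384580579333454,[(0,1),(0,2),(0,3),(4,4),(1,4),(1,5),(1,7),(2,7),(1,9),(1,9),(0,11),(0,12),(6,12),(1,14),(0,15),(2,16),(7,16),(0,17),(2,19),(1,19),(5,20),(1,21),(1,23),(4,24),(2,24),(2,26),(2,26),(1,28),(0,29),(4,30),(0,31),(0,32),(3,32),(1,33),(1,34),(1,36),(1,36),(1,37),(0,39),(12,2),(28,1)]⟩,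
  ⟨7,11,23,984406124192573891612240425349402017,973572541087242809737499149665323494,[(1,0),(1,2),(0,2),(1,4),(3,5),(2,6),(1,7),(1,7),(0,8),(0,10),(3,11),(3,12),(0,13),(9,14),(1,15),(0,16),(2,17),(1,17),(7,19),(1,20),(10,21),(0,22),(2,23),(4,24),(7,25),(2,25),(1,27),(1,28),(0,28),(7,29),(6,30),(0,31),(3,33),(6,33),(0,34),(5,36),(4,36),(1,38),(0,39),(4,39),(1,41),(0,42),(2,42),(1,43),(1,45),(0,46),(0,46),(3,47),(0,49),(12,2),(17,1)]⟩,
  ⟨7,23,23,965873078408165547864006541355095712,955973881461880977656024032454389840,[(0,0),(2,2),(0,3),(2,3),(2,4),(1,5),(1,6),(1,7),(5,8),(1,10),(3,11),(2,12),(0,12),(2,14),(0,14),(5,15),(0,16),(2,18),(1,19),(0,19),(2,21),(0,21),(9,23),(0,24),(13,24),(5,25),(4,27),(2,28),(1,28),(5,30),(0,30),(3,32),(6,32),(2,33),(2,35),(6,35),(3,37),(0,38),(2,38),(5,39),(2,41),(6,42),(2,43),(4,44),(1,45),(3,45),(5,46),(3,48),(2,48),(0,50),(2,50),(1,52),(0,52),(0,53),(0,54),(0,56),(9,5),(12,1)]⟩,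
  ⟨11,11,11,958150547516223821020640841564604593,977938529048168150152285780388826635,[(0,1),(0,1),(0,3),(1,3),(0,5),(0,6),(2,6),(0,8),(5,8),(0,9),(3,10),(3,11),(1,12),(3,14),(1,15),(1,15),(1,17),(0,17),(0,18),(0,20),(0,20),(5,21),(1,22),(0,23),(18,24),(13,26),(0,26),(0,27),(3,29),(1,30),(8,31),(1,31),(1,32),(1,34),(1,34),(6,35),(2,37),(1,38),(0,39),(0,39),(0,41),(6,41),(5,42),(2,43),(0,45),(0,46),(0,47),(4,47),(0,48),(2,50),(0,50),(0,51),(3,53),(11,1),(30,1)]⟩,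
  ⟨11,11,23,962251048235346564534759537410906484,955886658485825573761335382262489295,[(0,1),(2,1),(1,3),(4,4),(2,5),(0,5),(2,7),(4,8),(2,8),(2,9),(1,10),(0,12),(0,13),(3,14),(0,14),(7,16),(1,17),(1,18),(5,18),(2,20),(0,20),(2,21),(1,23),(9,24),(2,24),(0,25),(2,27),(0,28),(0,29),(0,30),(7,30),(1,32),(1,33),(1,33),(0,34),(0,36),(10,0),(19,4)]⟩,
  ⟨11,23,23,958674999499555827061274904980764929,955953306624437988417037055734884648,[(0,0),(0,1),(1,3),(1,4),(5,4),(1,5),(0,6),(2,8),(0,8),(5,10),(1,10),(0,11),(2,12),(6,14),(1,15),(3,15),(13,17),(1,17),(0,19),(4,20),(6,21),(2,21),(5,23),(3,23),(3,25),(0,25),(2,26),(0,28),(0,29),(0,29),(8,31),(1,32),(6,32),(1,34),(0,34),(4,36),(3,36),(2,37),(15,39),(3,39),(1,41),(0,42),(2,42),(5,43),(0,44),(2,46),(0,47),(2,48),(1,48),(0,50),(0,50),(3,51),(15,1),(11,1)]⟩,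
  ⟨23,23,23,958041774397264655036480918920375604,955608629102644500554027184489353542,[(0,1),(0,1),(3,2),(0,3),(0,4),(3,6),(7,7),(1,8),(1,8),(0,10),(5,11),(0,11),(4,12),(3,13),(10,15),(3,16),(3,17),(2,18),(2,18),(1,20),(3,21),(7,22),(1,23),(0,23),(0,24),(3,25),(0,26),(0,27),(0,29),(0,29),(5,31),(1,31),(1,33),(13,1),(15,1)]⟩]

/-- The check of a witness. -/
def Wit.ok (w : Wit) : Bool :=
  isM24 w.x && isM24 w.y && Nat.beq (ap w.x 23) 23 && Nat.beq (ap w.y 23) 23 &&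
  Nat.beq (powC w.x w.p) Cfsg.Agent.Lib.GolaySift.idC && Nat.beq (powC w.y w.q) Cfsg.Agent.Lib.GolaySift.idC &&
  Nat.beq (powC (comp w.x w.y) w.r) Cfsg.Agent.Lib.GolaySift.idC &&
  (idxL.any fun i => !Nat.beq (ap w.x i) i) && (idxL.any fun i => !Nat.beq (ap w.y i) i) &&
  (idxL.any fun i => !Nat.beq (ap (comp w.x w.y) i) i) &&
  (runSLP [w.y, w.x] w.ins).contains ac && (runSLP [w.y, w.x] w.ins).contains bc

theorem table_ok : table.all Wit.ok = true := by decide +kernel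

theorem ne_one_of_any {g : Equiv.Perm GolayPt} {c : ℕ} (h : Rep g c)
    (hc : (idxL.any fun i => !Nat.beq (ap c i) i) = true) : g ≠ 1 := by
  rw [List.any_eq_true] at hc
  obtain ⟨i, hi, h1⟩ := hc
  refine ne_one_of_code h (mem_idxL.1 hi) ?_
  simpa using h1

theorem orderOf_of_code {g : Equiv.Perm GolayPt} {c p : ℕ} (hp : p.Prime) (h : Rep g c)
    (hn : Nat.beq (powC c p) Cfsg.Agent.Lib.GolaySift.idC = true)
    (hc : (idxL.any fun i => !Nat.beq (ap c i) i) = true) : orderOf g = p := by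
  haveI : Fact p.Prime := ⟨hp⟩
  exact orderOf_eq_prime (pow_eq_one_of_code h (Nat.eq_of_beq_eq_true hn)) (ne_one_of_any h hc)

/-- A witness gives a generating triple. -/
theorem Wit.spec {w : Wit} (hw : w.ok = true) (hp : w.p.Prime) (hq : w.q.Prime) (hr : w.r.Prime) :
    ∃ x y z : M23, orderOf x = w.p ∧ orderOf y = w.q ∧ orderOf z = w.r ∧ x * y * z = 1 ∧
      Subgroup.closure {x, y} = ⊤ := by
  simp only [Wit.ok, Bool.and_eq_true] at hw
  obtain ⟨⟨⟨⟨⟨⟨⟨⟨⟨⟨⟨h1, h2⟩, h3⟩, h4⟩, h5⟩, h6⟩, h7⟩, h8⟩, h9⟩, h10⟩, h11⟩, h12⟩ := hw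
  have vx := isM24_valid h1
  have vy := isM24_valid h2
  have rx : Rep (decode w.x) w.x := rep_decode vx
  have ry : Rep (decode w.y) w.y := rep_decode vy
  have mx : decode w.x ∈ M23 := mem_of_code h1 (Nat.eq_of_beq_eq_true h3)
  have my : decode w.y ∈ M23 := mem_of_code h2 (Nat.eq_of_beq_eq_true h4)
  have rxy : Rep (decode w.x * decode w.y) (comp w.x w.y) := rx.mul ry
  let x : M23 := ⟨decode w.x, mx⟩
  let y : M23 := ⟨decode w.y, my⟩
  refine ⟨x, y, (x * y)⁻¹, ?_, ?_, ?_, by group, ?_⟩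
  · rw [← Subgroup.orderOf_coe]
    exact orderOf_of_code hp rx h5 h8
  · rw [← Subgroup.orderOf_coe]
    exact orderOf_of_code hq ry h6 h9
  · rw [orderOf_inv, ← Subgroup.orderOf_coe]
    exact orderOf_of_code hr rxy h7 h10
  · -- generation
    let H : Subgroup (Equiv.Perm GolayPt) := Subgroup.closure {decode w.x, decode w.y}
    have hxH : decode w.x ∈ H := Subgroup.subset_closure (by simp)
    have hyH : decode w.y ∈ H := Subgroup.subset_closure (by simp)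
    have hH : H ≤ M23 := by
      rw [Subgroup.closure_le]
      rintro g (rfl | hg)
      · exact mx
      · rw [Set.mem_singleton_iff] at hg
        rw [hg]
        exact my
    have hT : ∀ c ∈ runSLP [w.y, w.x] w.ins, InH H c := by
      apply runSLP_spec
      intro c hc
      simp only [List.mem_cons, List.not_mem_nil, or_false] at hc
      rcases hc with rfl | rfl
      · exact ⟨_, hyH, ry⟩
      · exact ⟨_, hxH, rx⟩
    have hA : aP ∈ H := by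
      obtain ⟨g, hg, hgr⟩ := hT ac (by simpa using h11)
      rw [rep_unique rep_a hgr]
      exact hg
    have hB : bP ∈ H := by
      obtain ⟨g, hg, hgr⟩ := hT bc (by simpa using h12)
      rw [rep_unique rep_b hgr]
      exact hg
    have hall : M23 ≤ H := sift H (hH.trans fun _ h => h.1) hA hB
    rw [eq_top_iff]
    rintro ⟨g, hg⟩ -
    have h13 : g ∈ H := hall hg
    have h14 : Subgroup.map M23.subtype (Subgroup.closure {x, y}) = H := by
      rw [MonoidHom.map_closure, Set.image_pair]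
      rfl
    rw [← h14] at h13
    obtain ⟨u, hu, hu2⟩ := h13
    have : u = ⟨g, hg⟩ := Subtype.ext hu2
    rw [← this]
    exact hu

/-- `M23` seen in the permutations: a generating pair. -/
theorem exists_orbit {x y : M23} (h : Subgroup.closure {x, y} = ⊤) (a : GolayPt) :
    ∃ s ∈ ({none, pt 0} : Finset GolayPt), ∃ g ∈ Subgroup.closure {(x : Equiv.Perm GolayPt), (y : Equiv.Perm GolayPt)},
      g s = a := by
  by_cases ha : a = none
  · exact ⟨none, by simp, 1, Subgroup.one_mem _, by simp [ha]⟩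
  · obtain ⟨g, hg, hga⟩ := M23_trans ha
    refine ⟨pt 0, by simp, g, ?_, hga⟩
    have h1 : (⟨g, hg⟩ : M23) ∈ Subgroup.closure {x, y} := by
      rw [h]; trivial
    have h2 := Subgroup.mem_map_of_mem M23.subtype h1
    rw [MonoidHom.map_closure, Set.image_pair] at h2
    exact h2

/-- Number of fixed points of an element of `M23` of prime order: at least one. -/
theorem fix_pos {x : M23} : 1 ≤ (Finset.univ.filter (fun a => (x : Equiv.Perm GolayPt) a = a)).card := by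
  apply Finset.card_pos.2
  exact ⟨none, by
    rw [Finset.mem_filter]
    exact ⟨Finset.mem_univ _, x.2.2⟩⟩

theorem cyc_formula {x : M23} {p : ℕ} (hp : p.Prime) (h : orderOf x = p) :
    p * cyc (x : Equiv.Perm GolayPt) = 24 + (p - 1) * (Finset.univ.filter (fun a => (x : Equiv.Perm GolayPt) a = a)).card := by
  have h1 := prime_mul_cyc (g := (x : Equiv.Perm GolayPt)) hp (by rw [Subgroup.orderOf_coe, h])
  rw [h1, card_pt]

theorem x_ne_one {x : M23} {p : ℕ} (hp : p.Prime) (h : orderOf x = p) : (x : Equiv.Perm GolayPt) ≠ 1 := by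
  intro h0
  have h1 : x = 1 := Subtype.ext h0
  rw [h1, orderOf_one] at h
  exact hp.one_lt.ne h

theorem cyc2 {x : M23} (h : orderOf x = 2) : cyc (x : Equiv.Perm GolayPt) = 16 := by
  have h1 := cyc_formula Nat.prime_two h
  have h2 : (x : Equiv.Perm GolayPt) ^ 2 = 1 := by
    rw [← Subgroup.orderOf_coe] at h
    rw [← h, pow_orderOf_eq_one]
  have h3 := order2_fix x.2.1 h2 (x_ne_one Nat.prime_two h)
  have h4 := fix_pos (x := x)
  rcases h3 with h3 | h3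
  · rw [h3] at h1
    omega
  · omega

theorem cyc3 {x : M23} (h : orderOf x = 3) : cyc (x : Equiv.Perm GolayPt) = 12 := by
  have h1 := cyc_formula Nat.prime_three h
  have h2 : (x : Equiv.Perm GolayPt) ^ 3 = 1 := by
    rw [← Subgroup.orderOf_coe] at h
    rw [← h, pow_orderOf_eq_one]
  have h3 := order3_fix x.2.1 h2 (x_ne_one Nat.prime_three h)
  have h4 := fix_pos (x := x)
  rcases h3 with h3 | h3
  · rw [h3] at h1
    omega
  · omega

theorem cyc5 {x : M23} (h : orderOf x = 5) : 8 ≤ cyc (x : Equiv.Perm GolayPt) := by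
  have h1 := cyc_formula (by norm_num) h
  have h4 := fix_pos (x := x)
  simp only [Nat.add_one_sub_one, Nat.reduceSub] at h1
  omega

theorem cyc7 {x : M23} (h : orderOf x = 7) : 6 ≤ cyc (x : Equiv.Perm GolayPt) := by
  have h1 := cyc_formula (by norm_num) h
  have h4 := fix_pos (x := x)
  simp only [Nat.add_one_sub_one, Nat.reduceSub] at h1
  omega

theorem cyc_any {x : M23} {r : ℕ} (hr : r.Prime) (h : orderOf x = r) : 2 ≤ cyc (x : Equiv.Perm GolayPt) := by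
  have h1 := cyc_formula hr h
  have h4 := fix_pos (x := x)
  by_contra hc
  have h5 : cyc (x : Equiv.Perm GolayPt) ≤ 1 := by omega
  have h6 : r * cyc (x : Equiv.Perm GolayPt) ≤ r := by nlinarith
  have h7 : (r - 1) * 1 ≤ (r - 1) * (Finset.univ.filter (fun a => (x : Equiv.Perm GolayPt) a = a)).card :=
    Nat.mul_le_mul_left _ h4
  have h8 := hr.two_le
  omega

theorem ree_bound {x y z : M23} (h : x * y * z = 1) (hc : Subgroup.closure {x, y} = ⊤) :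
    cyc (x : Equiv.Perm GolayPt) + cyc (y : Equiv.Perm GolayPt) + cyc (z : Equiv.Perm GolayPt) ≤ 28 := by
  have h1 := cyc_add_le (x := (x : Equiv.Perm GolayPt)) (y := (y : Equiv.Perm GolayPt)) (z := (z : Equiv.Perm GolayPt))
    (by
      have := congrArg (Subtype.val) h
      simpa using this) ({none, pt 0} : Finset GolayPt) (exists_orbit hc)
  rw [card_pt] at h1
  have h2 : ({none, pt 0} : Finset GolayPt).card ≤ 2 := Finset.card_le_two
  omega

theorem primes_of_dvd {p : ℕ} (hp : p.Prime) (h : p ∣ 10200960) : p ∈ [2,3,5,7,11,23] := by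
  have h1 : (10200960 : ℕ) = 2 ^ 7 * 3 ^ 2 * 5 * 7 * 11 * 23 := by norm_num
  rw [h1] at h
  simp only [hp.dvd_mul] at h
  have hh : ∀ {q n : ℕ}, q.Prime → p ∣ q ^ n → p = q := by
    intro q n hq h2
    exact (Nat.prime_dvd_prime_iff_eq hp hq).1 (hp.dvd_of_dvd_pow h2)
  have p2 : Nat.Prime 2 := by norm_num
  have p3 : Nat.Prime 3 := by norm_num
  have p5 : Nat.Prime 5 := by norm_num
  have p7 : Nat.Prime 7 := by norm_num
  have p11 : Nat.Prime 11 := by norm_num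
  have p23 : Nat.Prime 23 := by norm_num
  rcases h with ((((h | h) | h) | h) | h) | h
  · rw [hh p2 h]; simp
  · rw [hh p3 h]; simp
  · rw [(Nat.prime_dvd_prime_iff_eq hp p5).1 h]; simp
  · rw [(Nat.prime_dvd_prime_iff_eq hp p7).1 h]; simp
  · rw [(Nat.prime_dvd_prime_iff_eq hp p11).1 h]; simp
  · rw [(Nat.prime_dvd_prime_iff_eq hp p23).1 h]; simp

theorem table_cover : ∀ p ∈ [2,3,5,7,11,23], ∀ q ∈ [2,3,5,7,11,23], ∀ r ∈ [2,3,5,7,11,23],
    p ≤ q → q ≤ r → ¬ (p = 2 ∧ q = 2) →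
    ¬ ((p = 2 ∧ q = 3) ∨ (p = 2 ∧ q = 5 ∧ r = 5) ∨ (p = 2 ∧ q = 5 ∧ r = 7) ∨ (p = 3 ∧ q = 3 ∧ r ≤ 7)) →
    ∃ w ∈ table, w.p = p ∧ w.q = q ∧ w.r = r := by
  decide +kernel

theorem result' (p q r : ℕ) (hp : p.Prime) (hq : q.Prime)
    (hr : r.Prime) (hpq : p ≤ q) (hqr : q ≤ r) (hp2 : ¬ (p = 2 ∧ q = 2))
    (hdvd : p ∣ 10200960 ∧ q ∣ 10200960 ∧ r ∣ 10200960) :
    (∃ x y z : Cfsg.Spor.M23, orderOf x = p ∧ orderOf y = q ∧ orderOf z = r ∧ x * y * z = 1 ∧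
        Subgroup.closure {x, y} = ⊤) ↔
      ¬ ((p = 2 ∧ q = 3) ∨ (p = 2 ∧ q = 5 ∧ r = 5) ∨ (p = 2 ∧ q = 5 ∧ r = 7) ∨ (p = 3 ∧ q = 3 ∧ r ≤ 7)) := by
  constructor
  · rintro ⟨x, y, z, hx, hy, hz, hxyz, hc⟩ hex
    have hb := ree_bound hxyz hc
    rcases hex with ⟨rfl, rfl⟩ | ⟨rfl, rfl, rfl⟩ | ⟨rfl, rfl, rfl⟩ | ⟨rfl, rfl, hr7⟩
    · have := cyc2 hx
      have := cyc3 hy
      have := cyc_any hr hz
      omega
    · have := cyc2 hx
      have := cyc5 hy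
      have := cyc5 hz
      omega
    · have := cyc2 hx
      have := cyc5 hy
      have := cyc7 hz
      omega
    · have := cyc3 hx
      have := cyc3 hy
      have h5 : 6 ≤ cyc (z : Equiv.Perm GolayPt) := by
        have h6 := primes_of_dvd hr hdvd.2.2
        simp only [List.mem_cons, List.not_mem_nil, or_false] at h6
        rcases h6 with rfl | rfl | rfl | rfl | rfl | rfl
        · omega
        · have := cyc3 hz; omega
        · have := cyc5 hz; omega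
        · exact cyc7 hz
        · omega
        · omega
      omega
  · intro hne
    obtain ⟨w, hw, rfl, rfl, rfl⟩ := table_cover p (primes_of_dvd hp hdvd.1) q (primes_of_dvd hq hdvd.2.1) r
      (primes_of_dvd hr hdvd.2.2) hpq hqr hp2 hne
    exact Wit.spec (List.all_eq_true.1 table_ok w hw) hp hq hr


/-- Generation of the Mathieu group M₂₃ (the stabiliser of a point in the Mathieu group M₂₄ acting on 24 points) by triples of prime orders. Let p ≤ q ≤ r be primes dividing |M₂₃| = 10200960 = 2⁷·3²·5·7·11·23, not both p and q equal to 2. Then M₂₃ contains elements x, y, z of orders p, q, r with xyz = 1 and ⟨x, y⟩ = M₂₃ if and only if (p, q, r) is none of: (2, 3, r) for any r, (2, 5, 5), (2, 5, 7), (3, 3, 3), (3, 3, 5), (3, 3, 7). -/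
theorem result (p q r : ℕ) (hp : p.Prime) (hq : q.Prime)
    (hr : r.Prime) (hpq : p ≤ q) (hqr : q ≤ r) (hp2 : ¬ (p = 2 ∧ q = 2))
    (hdvd : p ∣ 10200960 ∧ q ∣ 10200960 ∧ r ∣ 10200960) :
    (∃ x y z : Cfsg.Spor.M23, orderOf x = p ∧ orderOf y = q ∧ orderOf z = r ∧ x * y * z = 1 ∧
        Subgroup.closure {x, y} = ⊤) ↔
      ¬ ((p = 2 ∧ q = 3) ∨ (p = 2 ∧ q = 5 ∧ r = 5) ∨ (p = 2 ∧ q = 5 ∧ r = 7) ∨ (p = 3 ∧ q = 3 ∧ r ≤ 7)) := by
  exact result' p q r hp hq hr hpq hqr hp2 hdvd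

end Cfsg.Agent.S5529
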