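import Mathlib
import Cfsg.Statements.S5562

set_option autoImplicit false
open Cfsg

namespace Cfsg.Agent.S5562

theorem conj_sq {G : Type*} [Group G] {d a : G} (hd : d * d = 1) (ha : a ∈ conjugatesOf d) :
    a * a = 1 := by
  obtain ⟨g, rfl⟩ := isConj_iff.mp ha
  calc g * d * g⁻¹ * (g * d * g⁻¹) = g * (d * d) * g⁻¹ := by group
    _ = 1 := by rw [hd]; group

theorem conj_mem {G : Type*} [Group G] {d a : G} (ha : a ∈ conjugatesOf d) (g : G) :
    g * a * g⁻¹ ∈ conjugatesOf d := by
  have h : IsConj d a := ha
  exact h.trans (isConj_iff.mpr ⟨g, rfl⟩)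

/-- `a * a = 1`, `e * e = 1`: the square-free conjugation identity for `r = e * x`. -/
theorem e_pow_e {G : Type*} [Group G] {e x : G} (he : e * e = 1) (hx : x * x = 1) (j : ℕ) :
    e * (e * x) ^ j * e = ((e * x) ^ j)⁻¹ := by
  have hinv : e⁻¹ = e := inv_eq_of_mul_eq_one_left he
  have hr : e * (e * x) * e⁻¹ = (e * x)⁻¹ := by
    have hxinv : x⁻¹ = x := inv_eq_of_mul_eq_one_left hx
    rw [mul_inv_rev, hxinv, hinv, ← mul_assoc, he, one_mul]
  have := conj_pow (a := e) (b := e * x) (i := j)
  rw [hr, inv_pow, hinv] at this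
  exact this.symm

theorem result {G : Type*} [Group G] [Finite G] (d : G) (hd : orderOf d = 2)
    (hodd : ∀ a ∈ conjugatesOf d, ∀ b ∈ conjugatesOf d, Odd (orderOf (a * b)))
    (x : G) (hx : orderOf x = 2) :
    ∀ e ∈ conjugatesOf d,
      ∃! a : G, a ∈ conjugatesOf d ∧ Commute a x ∧ Commute e (a * x) := by
  intro e heD
  have hdd : d * d = 1 := by
    rw [← pow_two, ← hd]; exact pow_orderOf_eq_one d
  have hxx : x * x = 1 := by
    rw [← pow_two, ← hx]; exact pow_orderOf_eq_one x
  have hxne : x ≠ 1 := by
    intro h; rw [h, orderOf_one] at hx; omega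
  have hee : e * e = 1 := conj_sq hdd heD
  have hxinv : x⁻¹ = x := inv_eq_of_mul_eq_one_left hxx
  have heinv : e⁻¹ = e := inv_eq_of_mul_eq_one_left hee
  set r := e * x with hr
  have hrx : r * x = e := by rw [hr, mul_assoc, hxx, mul_one]
  have her : ∀ j : ℕ, e * r ^ j * e = (r ^ j)⁻¹ := fun j => e_pow_e hee hxx j
  have hconj : ∀ j : ℕ, r ^ j * e * (r ^ j)⁻¹ = r ^ (2 * j) * e := by
    intro j
    have : (r ^ j)⁻¹ = e * r ^ j * e := (her j).symm
    rw [this, two_mul, pow_add]
    calc r ^ j * e * (e * r ^ j * e) = r ^ j * (e * e) * r ^ j * e := by group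
      _ = r ^ j * r ^ j * e := by rw [hee, mul_one]
  have hn : 0 < orderOf r := orderOf_pos r
  -- uniqueness
  have huniq : ∀ a a' : G, a ∈ conjugatesOf d → a' ∈ conjugatesOf d → Commute a x → Commute a' x →
      Commute e (a * x) → Commute e (a' * x) → a = a' := by
    intro a a' haD ha'D hax ha'x hea hea'
    have haa : a * a = 1 := conj_sq hdd haD
    have ha'a' : a' * a' = 1 := conj_sq hdd ha'D
    have hy : (a * x) * (a' * x) = a * a' := by
      have : a' * x = x * a' := ha'x.eq
      rw [this]
      calc a * x * (x * a') = a * (x * x) * a' := by group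
        _ = a * a' := by rw [hxx, mul_one]
    have hey : Commute e (a * a') := by
      rw [← hy]; exact hea.mul_right hea'
    set y := a * a' with hydef
    have hainv : a⁻¹ = a := inv_eq_of_mul_eq_one_left haa
    have ha'inv : a'⁻¹ = a' := inv_eq_of_mul_eq_one_left ha'a'
    have hyinv : y⁻¹ = a' * a := by rw [hydef, mul_inv_rev, hainv, ha'inv]
    have hw : (a * e) * y * (a * e)⁻¹ = y⁻¹ := by
      have hey' : e * y = y * e := hey.eq
      rw [mul_inv_rev, hainv, heinv, hyinv]
      calc a * e * y * (e * a) = a * (e * y) * e * a := by group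
        _ = a * (y * e) * e * a := by rw [hey']
        _ = a * y * (e * e) * a := by group
        _ = a * (a * a') * a := by rw [hee, mul_one]
        _ = (a * a) * a' * a := by group
        _ = a' * a := by rw [haa, one_mul]
    have hwodd : Odd (orderOf (a * e)) := hodd a haD e heD
    have hyy : y = y⁻¹ := by
      set w := a * e with hwdef
      have hw' : w * y = y⁻¹ * w := by
        rw [← hw]; group
      have hw'' : w * y⁻¹ = y * w := by
        have h3 : w * y⁻¹ * w⁻¹ = y := by
          have := congrArg (fun t => t⁻¹) hw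
          simpa [mul_assoc] using this
        calc w * y⁻¹ = (w * y⁻¹ * w⁻¹) * w := by group
          _ = y * w := by rw [h3]
      have hcomm2 : Commute (w * w) y := by
        show w * w * y = y * (w * w)
        calc w * w * y = w * (w * y) := by group
          _ = w * (y⁻¹ * w) := by rw [hw']
          _ = (w * y⁻¹) * w := by group
          _ = (y * w) * w := by rw [hw'']
          _ = y * (w * w) := by group
      obtain ⟨k, hk⟩ := hwodd
      have h1 : w * (w * w) ^ k = 1 := by
        have := pow_orderOf_eq_one w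
        rw [hk, pow_succ', pow_mul, pow_two] at this
        exact this
      have hwinv : w = ((w * w) ^ k)⁻¹ := eq_inv_of_mul_eq_one_left h1
      have hcomm : Commute w y := by
        rw [hwinv]
        exact (hcomm2.pow_left k).inv_left
      have := hw'
      rw [hcomm.eq] at this
      exact mul_right_cancel this
    have hyodd : Odd (orderOf y) := hodd a haD a' ha'D
    have hy2 : y ^ 2 = 1 := by
      rw [pow_two]
      nth_rewrite 2 [hyy]
      simp
    have hdvd : orderOf y ∣ 2 := orderOf_dvd_of_pow_eq_one hy2
    have hy1 : orderOf y = 1 := by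
      have := Nat.le_of_dvd (by norm_num) hdvd
      interval_cases h : orderOf y
      · simp at hdvd
      · rfl
      · exact absurd hyodd (by decide)
    have : y = 1 := orderOf_eq_one_iff.mp hy1
    rw [hydef] at this
    have h2 := mul_eq_one_iff_eq_inv.mp this
    rw [ha'inv] at h2
    exact h2
  -- existence
  rcases Nat.even_or_odd (orderOf r) with hev | hodd'
  · -- even order
    obtain ⟨k, hk⟩ := hev
    have hk2 : orderOf r = 2 * k := by omega
    set z := r ^ k with hz
    have hzz : z * z = 1 := by
      rw [hz, ← pow_add, ← two_mul, ← hk2]; exact pow_orderOf_eq_one r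
    have hzne : z ≠ 1 := by
      intro h
      have : orderOf r ∣ k := orderOf_dvd_of_pow_eq_one h
      rw [hk2] at this
      have hkpos : 0 < k := by omega
      have := Nat.le_of_dvd hkpos this
      omega
    have hzinv : z⁻¹ = z := inv_eq_of_mul_eq_one_left hzz
    have hez : e * z * e = z := by rw [hz]; rw [her k]; exact hzinv
    have hez' : Commute e z := by
      show e * z = z * e
      calc e * z = e * z * e * e := by rw [mul_assoc (e * z), hee, mul_one]
        _ = z * e := by rw [hez]
    have hxz' : Commute x z := by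
      -- x = e * r and r commutes with z
      have hxer : x = e * r := by rw [hr, ← mul_assoc, hee, one_mul]
      have hrz : Commute r z := (Commute.refl r).pow_right k
      rw [hxer]
      exact hez'.mul_left hrz
    -- k is odd
    have hkodd : Odd k := by
      by_contra hkev
      rw [Nat.not_odd_iff_even] at hkev
      obtain ⟨j, hj⟩ := hkev
      have hj2 : k = 2 * j := by omega
      have hmem : (r ^ j)⁻¹ * e * ((r ^ j)⁻¹)⁻¹ ∈ conjugatesOf d := conj_mem heD _
      have heq : (r ^ j)⁻¹ * e * ((r ^ j)⁻¹)⁻¹ = e * z := by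
        have h1 : r ^ j * e * (r ^ j)⁻¹ = z * e := by
          rw [hconj j, ← hj2]
        have h2 : (r ^ j)⁻¹ * e * ((r ^ j)⁻¹)⁻¹ = (r ^ (2 * j))⁻¹ * e := by
          have h3 : (r ^ j)⁻¹ = e * r ^ j * e := (her j).symm
          rw [inv_inv, h3, two_mul, pow_add, mul_inv_rev, h3]
          calc e * r ^ j * e * e * r ^ j
              = e * r ^ j * (e * e) * r ^ j := by group
            _ = e * r ^ j * r ^ j := by rw [hee, mul_one]
            _ = e * r ^ j * e * (e * r ^ j * e) * e := by
                calc e * r ^ j * r ^ j = e * r ^ j * (e * e) * r ^ j * (e * e) := by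
                      rw [hee]; group
                  _ = e * r ^ j * e * (e * r ^ j * e) * e := by group
        rw [h2, ← hj2, ← hz, hzinv]
        exact hez'.eq.symm
      have hh := hodd e heD _ hmem
      rw [heq, ← mul_assoc, hee, one_mul] at hh
      have hz2 : orderOf z = 2 := by
        apply orderOf_eq_prime
        · rw [pow_two]; exact hzz
        · exact hzne
      rw [hz2] at hh
      exact absurd hh (by decide)
    obtain ⟨j, hj⟩ := hkodd
    have hamem : x * z ∈ conjugatesOf d := by
      have : x * z = r ^ j * e * (r ^ j)⁻¹ := by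
        rw [hconj j]
        have hxr : x = r⁻¹ * e := by
          rw [hr, mul_inv_rev, heinv, hxinv, mul_assoc, hee, mul_one]
        have hrk : r ^ (2 * j) * r = z := by rw [← pow_succ, hz, hj]
        have hcomm : Commute x z := hxz'
        calc x * z = z * x := hcomm.eq
          _ = r ^ (2 * j) * r * (r⁻¹ * e) := by rw [hrk, ← hxr]
          _ = r ^ (2 * j) * e := by group
      rw [this]
      exact conj_mem heD _
    have hxzx : x * z * x = z := by
      rw [hxz'.eq, mul_assoc, hxx, mul_one]
    refine ⟨x * z, ⟨hamem, ?_, ?_⟩, ?_⟩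
    · exact (Commute.refl x).mul_left hxz'.symm
    · rw [hxzx]
      exact hez'
    · rintro a' ⟨h1, h2, h3⟩
      refine huniq a' (x * z) h1 hamem h2 ?_ h3 ?_
      · exact (Commute.refl x).mul_left hxz'.symm
      · rw [hxzx]
        exact hez'
  · -- odd order
    obtain ⟨k, hk⟩ := hodd'
    have hxmem : x ∈ conjugatesOf d := by
      have : x = r ^ k * e * (r ^ k)⁻¹ := by
        rw [hconj k]
        have h1 : r ^ (2 * k) * r = 1 := by rw [← pow_succ, ← hk]; exact pow_orderOf_eq_one r
        have h2 : r ^ (2 * k) = r⁻¹ := eq_inv_of_mul_eq_one_left h1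
        rw [h2, hr, mul_inv_rev, heinv, hxinv, mul_assoc, hee, mul_one]
      rw [this]
      exact conj_mem heD _
    refine ⟨x, ⟨hxmem, Commute.refl x, ?_⟩, ?_⟩
    · rw [hxx]; exact Commute.one_right e
    · rintro a' ⟨h1, h2, h3⟩
      refine huniq a' x h1 hxmem h2 (Commute.refl x) h3 ?_
      rw [hxx]; exact Commute.one_right e

end Cfsg.Agent.S5562
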