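import Mathlib
import Cfsg.Statements.S5713

set_option autoImplicit false
set_option linter.unusedSectionVars false
set_option linter.unusedVariables false
open Cfsg

namespace Cfsg.Agent.S5713

open Finset MulAction Equiv.Perm
open scoped Classical

section Dist

variable (G : Type*) {Ω : Type*} [Group G] [MulAction G Ω]

/-- `z` does not distinguish `x` and `y`. -/
def ND (z x y : Ω) : Prop := ∃ h : G, h • z = z ∧ h • x = y

variable {G}

theorem ND.rfl' (z x : Ω) : ND G z x x := ⟨1, by simp, by simp⟩

theorem ND.symm {z x y : Ω} (h : ND G z x y) : ND G z y x := by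
  obtain ⟨k, h1, h2⟩ := h
  refine ⟨k⁻¹, ?_, ?_⟩
  · rw [inv_smul_eq_iff, h1]
  · rw [inv_smul_eq_iff, h2]

theorem ND.trans {z x y w : Ω} (h : ND G z x y) (h' : ND G z y w) : ND G z x w := by
  obtain ⟨k, h1, h2⟩ := h
  obtain ⟨k', h3, h4⟩ := h'
  refine ⟨k' * k, ?_, ?_⟩
  · rw [mul_smul, h1, h3]
  · rw [mul_smul, h2, h4]

theorem ND_smul (g : G) (z x y : Ω) : ND G (g • z) (g • x) (g • y) ↔ ND G z x y := by
  constructor
  · rintro ⟨k, h1, h2⟩
    refine ⟨g⁻¹ * k * g, ?_, ?_⟩
    · simp only [mul_smul, h1, inv_smul_smul]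
    · simp only [mul_smul, h2, inv_smul_smul]
  · rintro ⟨k, h1, h2⟩
    refine ⟨g * k * g⁻¹, ?_, ?_⟩
    · simp only [mul_smul, inv_smul_smul, h1]
    · simp only [mul_smul, inv_smul_smul, h2]

variable [Fintype Ω]

variable (G) in
/-- The distinguishing set. -/
noncomputable def Dis (x y : Ω) : Finset Ω := univ.filter (fun z => ¬ ND G z x y)

theorem mem_Dis {x y z : Ω} : z ∈ Dis G x y ↔ ¬ ND G z x y := by simp [Dis]

theorem Dis_comm (x y : Ω) : Dis G x y = Dis G y x := by
  ext z
  rw [mem_Dis, mem_Dis]
  exact not_congr ⟨ND.symm, ND.symm⟩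

theorem Dis_tri (x y w : Ω) : (Dis G x y).card ≤ (Dis G x w).card + (Dis G w y).card := by
  refine (card_le_card ?_).trans (card_union_le _ _)
  intro z hz
  rw [mem_union, mem_Dis, mem_Dis]
  rw [mem_Dis] at hz
  by_contra hcon
  push Not at hcon
  exact hz (hcon.1.trans hcon.2)

theorem card_Dis_smul (g : G) (x y : Ω) : (Dis G (g • x) (g • y)).card = (Dis G x y).card := by
  refine card_equiv (MulAction.toPerm g⁻¹) ?_
  intro z
  rw [mem_Dis, mem_Dis]
  refine not_congr ?_
  show ND G z (g • x) (g • y) ↔ ND G (g⁻¹ • z) x y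
  rw [← ND_smul g (g⁻¹ • z) x y, smul_inv_smul]

variable (G) in
/-- Out-neighbours of `w` in the orbital of `(x, y)`. -/
noncomputable def Nb (x y w : Ω) : Finset Ω := univ.filter (fun v => ∃ g : G, g • x = w ∧ g • y = v)

theorem mem_Nb {x y w v : Ω} : v ∈ Nb G x y w ↔ ∃ g : G, g • x = w ∧ g • y = v := by simp [Nb]

theorem card_Nb_smul (g : G) (x y w : Ω) : (Nb G x y (g • w)).card = (Nb G x y w).card := by
  refine card_equiv (MulAction.toPerm g⁻¹) ?_
  intro v
  rw [mem_Nb, mem_Nb]
  constructor
  · rintro ⟨f, h1, h2⟩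
    refine ⟨g⁻¹ * f, ?_, ?_⟩
    · rw [mul_smul, h1, inv_smul_smul]
    · rw [mul_smul, h2]
      rfl
  · rintro ⟨f, h1, h2⟩
    refine ⟨g * f, ?_, ?_⟩
    · rw [mul_smul, h1]
    · rw [mul_smul, h2]
      show g • (g⁻¹ • v) = v
      rw [smul_inv_smul]

/-- Connectivity of the orbital digraphs of a primitive group. -/
theorem closed_univ [IsPreprimitive G Ω] {x y : Ω} (hxy : x ≠ y) (T : Finset Ω) (hne : T.Nonempty)
    (hc : ∀ w ∈ T, ∀ g : G, g • x = w → g • y ∈ T) : T = univ := by
  let F : Finset (Finset Ω) :=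
    univ.filter (fun S => S.Nonempty ∧ ∀ w ∈ S, ∀ g : G, g • x = w → g • y ∈ S)
  have hTF : T ∈ F := by
    simp only [F, mem_filter, mem_univ, true_and]
    exact ⟨hne, hc⟩
  obtain ⟨S, hS, hmin⟩ := exists_min_image F card ⟨T, hTF⟩
  have hS' : S.Nonempty ∧ ∀ w ∈ S, ∀ g : G, g • x = w → g • y ∈ S := by simpa [F] using hS
  have hblock : IsBlock G (S : Set Ω) := by
    rw [isBlock_iff_smul_eq_of_nonempty]
    intro g hg
    let S' : Finset Ω := S.filter (fun w => g⁻¹ • w ∈ S)
    have hS'F : S' ∈ F := by
      have h1 : S'.Nonempty := by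
        obtain ⟨w, hw1, hw2⟩ := hg
        obtain ⟨u, hu, rfl⟩ := hw1
        refine ⟨g • u, ?_⟩
        simp only [S', mem_filter, inv_smul_smul]
        exact ⟨hw2, hu⟩
      have h2 : ∀ w ∈ S', ∀ f : G, f • x = w → f • y ∈ S' := by
        intro w hw f hf
        simp only [S', mem_filter] at hw ⊢
        refine ⟨hS'.2 w hw.1 f hf, ?_⟩
        rw [← mul_smul]
        refine hS'.2 _ hw.2 _ ?_
        rw [mul_smul, hf]
      simp only [F, mem_filter, mem_univ, true_and]
      exact ⟨h1, h2⟩
    have hcard := hmin S' hS'F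
    have hsub : S' ⊆ S := filter_subset _ _
    have heq : S' = S := eq_of_subset_of_card_le hsub hcard
    have hall : ∀ w ∈ S, g⁻¹ • w ∈ S := by
      intro w hw
      have : w ∈ S' := heq ▸ hw
      exact (mem_filter.mp this).2
    have hinj : Set.InjOn (fun w => g⁻¹ • w) (S : Set Ω) := fun a _ b _ h => by
      simpa using h
    have himg : S.image (fun w => g⁻¹ • w) = S := by
      refine eq_of_subset_of_card_le ?_ ?_
      · intro z hz
        obtain ⟨w, hw, rfl⟩ := mem_image.mp hz
        exact hall w hw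
      · rw [card_image_of_injOn hinj]
    ext z
    constructor
    · rintro ⟨u, hu, rfl⟩
      have h1 : u ∈ S.image (fun w => g⁻¹ • w) := by
        rw [himg]
        exact hu
      obtain ⟨w, hw, rfl⟩ := mem_image.mp h1
      simpa using hw
    · intro hz
      exact ⟨g⁻¹ • z, hall z hz, by simp⟩
  have htriv := IsPreprimitive.isTrivialBlock_of_isBlock (G := G) hblock
  rcases htriv with hsing | huniv
  · exfalso
    obtain ⟨w, hw⟩ := hS'.1
    obtain ⟨g, hg⟩ := MulAction.exists_smul_eq G x w
    have h1 := hS'.2 w hw g hg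
    have h2 : g • y = w := hsing (mem_coe.mpr h1) (mem_coe.mpr hw)
    rw [← hg] at h2
    exact hxy (smul_left_cancel g h2).symm
  · have hSu : S = univ := by
      ext z
      have : z ∈ (S : Set Ω) := by
        rw [huniv]
        trivial
      simpa using this
    have := hmin T hTF
    rw [hSu] at this
    exact eq_univ_of_card T (le_antisymm (card_le_univ T) (by simpa using this))

/-- The counting lemma for one orbital. -/
theorem lemma_one [IsPreprimitive G Ω] {x y : Ω} (hxy : x ≠ y) :
    (Nb G x y x).card + (Fintype.card Ω - 1) ≤ (Nb G x y x).card * (Dis G x y).card := by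
  set V := Nb G x y x with hV
  have h1 : ∀ v ∈ V, (Dis G x v).card = (Dis G x y).card := by
    intro v hv
    obtain ⟨g, hg1, hg2⟩ := mem_Nb.mp hv
    rw [← hg2]
    conv_lhs => rw [← hg1]
    exact card_Dis_smul g x y
  have h2 : ∑ v ∈ V, (Dis G x v).card = V.card * (Dis G x y).card := by
    rw [sum_congr rfl h1, sum_const, smul_eq_mul]
  have h3 : ∑ v ∈ V, (Dis G x v).card = ∑ z : Ω, (V.filter (fun v => ¬ ND G z x v)).card := by
    have := sum_card_bipartiteAbove_eq_sum_card_bipartiteBelow (s := V) (t := (univ : Finset Ω))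
      (fun v z => ¬ ND G z x v)
    simpa [bipartiteAbove, bipartiteBelow, Dis] using this
  have h4 : ∀ z ∈ (univ : Finset Ω).erase x, 1 ≤ (V.filter (fun v => ¬ ND G z x v)).card := by
    intro z hz
    have hzx : z ≠ x := (mem_erase.mp hz).1
    by_contra hcon
    have hempty : V.filter (fun v => ¬ ND G z x v) = ∅ := by
      have : (V.filter (fun v => ¬ ND G z x v)).card = 0 := by omega
      exact card_eq_zero.mp this
    have hall : ∀ v ∈ V, ND G z x v := by
      intro v hv
      by_contra hnd
      have : v ∈ V.filter (fun v => ¬ ND G z x v) := mem_filter.mpr ⟨hv, hnd⟩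
      rw [hempty] at this
      simp at this
    let T : Finset Ω := univ.filter (fun w => ND G z x w)
    have hT : T = univ := by
      refine closed_univ (G := G) hxy T ⟨x, by simp [T, ND.rfl']⟩ ?_
      intro w hw g hg
      have hw' : ND G z x w := by simpa [T] using hw
      obtain ⟨k, hk1, hk2⟩ := hw'
      have hv : (k⁻¹ * g) • y ∈ V := by
        rw [hV, mem_Nb]
        refine ⟨k⁻¹ * g, ?_, rfl⟩
        rw [mul_smul, hg, inv_smul_eq_iff, hk2]
      obtain ⟨k', hk'1, hk'2⟩ := hall _ hv
      have : ND G z x (g • y) := by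
        refine ⟨k * k', ?_, ?_⟩
        · rw [mul_smul, hk'1, hk1]
        · rw [mul_smul, hk'2, ← mul_smul, mul_inv_cancel_left]
      simpa [T] using this
    have hz' : z ∈ T := by
      rw [hT]
      exact mem_univ z
    have hz'' : ND G z x z := by simpa [T] using hz'
    obtain ⟨k, hk1, hk2⟩ := hz''
    exact hzx (smul_left_cancel k (hk1.trans hk2.symm))
  have h5 : (V.filter (fun v => ¬ ND G x x v)).card = V.card := by
    rw [filter_true_of_mem]
    intro v hv
    obtain ⟨g, hg1, hg2⟩ := mem_Nb.mp hv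
    rintro ⟨k, hk1, hk2⟩
    have hvx : v = x := hk2.symm.trans hk1
    rw [hvx, ← hg1] at hg2
    exact hxy (smul_left_cancel g hg2).symm
  have h6 : ∑ z : Ω, (V.filter (fun v => ¬ ND G z x v)).card =
      (V.filter (fun v => ¬ ND G x x v)).card +
        ∑ z ∈ (univ : Finset Ω).erase x, (V.filter (fun v => ¬ ND G z x v)).card :=
    (add_sum_erase _ _ (mem_univ x)).symm
  have h7 : ((univ : Finset Ω).erase x).card ≤
      ∑ z ∈ (univ : Finset Ω).erase x, (V.filter (fun v => ¬ ND G z x v)).card := by
    have := card_nsmul_le_sum _ _ 1 h4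
    simpa using this
  have h8 : ((univ : Finset Ω).erase x).card = Fintype.card Ω - 1 := by
    rw [card_erase_of_mem (mem_univ x), card_univ]
  omega

/-- If the in-valency is larger than `3 t`, any two points are at distinguishing distance `≤ 2 t`. -/
theorem two_bound [IsPreprimitive G Ω] {x y : Ω} (hxy : x ≠ y)
    (h3 : 3 * (Dis G x y).card < (Nb G y x y).card) (u v : Ω) :
    (Dis G u v).card ≤ 2 * (Dis G x y).card := by
  set t := (Dis G x y).card with ht
  have hadj : ∀ g : G, (Dis G (g • x) (g • y)).card = t := fun g => card_Dis_smul g x y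
  have hE : ∀ w, (Nb G y x w).card = (Nb G y x y).card := by
    intro w
    obtain ⟨g, rfl⟩ := MulAction.exists_smul_eq G y w
    exact card_Nb_smul g y x y
  have hdiff : ∀ a b : Ω, (Nb G y x a \ Nb G y x b).card ≤ (Dis G a b).card := by
    intro a b
    refine card_le_card ?_
    intro z hz
    obtain ⟨hz1, hz2⟩ := mem_sdiff.mp hz
    rw [mem_Dis]
    rintro ⟨k, hk1, hk2⟩
    obtain ⟨g, hg1, hg2⟩ := mem_Nb.mp hz1
    apply hz2
    rw [mem_Nb]
    refine ⟨k * g, ?_, ?_⟩
    · rw [mul_smul, hg1, hk2]
    · rw [mul_smul, hg2, hk1]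
  let T : Finset Ω := univ.filter (fun w => ∃ z, z ∈ Nb G y x u ∧ z ∈ Nb G y x w)
  have hne : (Nb G y x u).Nonempty := by
    rw [← card_pos, hE]
    omega
  have hT : T = univ := by
    refine closed_univ (G := G) hxy T ?_ ?_
    · obtain ⟨z, hz⟩ := hne
      exact ⟨u, by simp only [T, mem_filter, mem_univ, true_and]; exact ⟨z, hz, hz⟩⟩
    · intro w hw g hg
      simp only [T, mem_filter, mem_univ, true_and] at hw ⊢
      obtain ⟨z₀, hz1, hz2⟩ := hw
      obtain ⟨g₁, h11, h12⟩ := mem_Nb.mp hz1
      obtain ⟨g₂, h21, h22⟩ := mem_Nb.mp hz2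
      have hb1 : (Dis G u z₀).card ≤ t := by
        rw [Dis_comm, ← h11, ← h12]
        exact (hadj g₁).le
      have hb2 : (Dis G z₀ w).card ≤ t := by
        rw [← h21, ← h22]
        exact (hadj g₂).le
      have hb3 : (Dis G w (g • y)).card ≤ t := by
        rw [← hg]
        exact (hadj g).le
      have hb4 := Dis_tri (G := G) u w z₀
      have hb5 := Dis_tri (G := G) u (g • y) w
      have hb6 := hdiff u (g • y)
      by_contra hcon
      push Not at hcon
      have hb7 : Nb G y x u \ Nb G y x (g • y) = Nb G y x u := by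
        rw [Finset.sdiff_eq_self_iff_disjoint]
        rw [disjoint_left]
        exact hcon
      rw [hb7, hE] at hb6
      omega
  have hv : v ∈ T := by
    rw [hT]
    exact mem_univ v
  simp only [T, mem_filter, mem_univ, true_and] at hv
  obtain ⟨z₀, hz1, hz2⟩ := hv
  obtain ⟨g₁, h11, h12⟩ := mem_Nb.mp hz1
  obtain ⟨g₂, h21, h22⟩ := mem_Nb.mp hz2
  have hb1 : (Dis G u z₀).card ≤ t := by
    rw [Dis_comm, ← h11, ← h12]
    exact (hadj g₁).le
  have hb2 : (Dis G z₀ v).card ≤ t := by
    rw [← h21, ← h22]
    exact (hadj g₂).le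
  have hb4 := Dis_tri (G := G) u v z₀
  omega

/-- Averaging with a second orbit of the point stabilisers. -/
theorem fourth [IsPreprimitive G Ω] (L : ℕ) (hL : ∀ u v : Ω, (Dis G u v).card ≤ L)
    (huni : ∀ z : Ω, ∃ a b : Ω, a ≠ z ∧ b ≠ z ∧ ¬ ND G z a b) (hn : 2 ≤ Fintype.card Ω) :
    ∃ l, L = l + 2 ∧ Fintype.card Ω - 1 ≤ l * (l + 1) := by
  have hne : Nonempty Ω := by
    rw [← Fintype.card_pos_iff]
    omega
  obtain ⟨u⟩ := hne
  have h3 : ∑ v : Ω, (Dis G u v).card = ∑ z : Ω, (univ.filter (fun v => ¬ ND G z u v)).card := by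
    have := sum_card_bipartiteAbove_eq_sum_card_bipartiteBelow (s := (univ : Finset Ω))
      (t := (univ : Finset Ω)) (fun v z => ¬ ND G z u v)
    simpa [bipartiteAbove, bipartiteBelow, Dis] using this
  have h4 : ∑ v : Ω, (Dis G u v).card ≤ (Fintype.card Ω - 1) * L := by
    have e := (add_sum_erase (univ : Finset Ω) (fun v => (Dis G u v).card) (mem_univ u)).symm
    have hzero : (Dis G u u).card = 0 := by
      rw [card_eq_zero, eq_empty_iff_forall_notMem]
      intro z hz
      exact (mem_Dis.mp hz) (ND.rfl' z u)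
    have hle : ∑ v ∈ (univ : Finset Ω).erase u, (Dis G u v).card ≤
        ((univ : Finset Ω).erase u).card • L := sum_le_card_nsmul _ _ _ (fun v _ => hL u v)
    rw [card_erase_of_mem (mem_univ u), card_univ, smul_eq_mul] at hle
    rw [e, hzero]
    omega
  have h5 : (univ.filter (fun v => ¬ ND G u u v)).card = Fintype.card Ω - 1 := by
    have : univ.filter (fun v => ¬ ND G u u v) = (univ : Finset Ω).erase u := by
      ext v
      simp only [mem_filter, mem_univ, true_and, mem_erase, and_true]
      constructor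
      · rintro h rfl
        exact h (ND.rfl' _ _)
      · rintro h ⟨k, hk1, hk2⟩
        exact h (hk2.symm.trans hk1)
    rw [this, card_erase_of_mem (mem_univ u), card_univ]
  have h6 : ∑ z : Ω, (univ.filter (fun v => ¬ ND G z u v)).card =
      (univ.filter (fun v => ¬ ND G u u v)).card +
        ∑ z ∈ (univ : Finset Ω).erase u, (univ.filter (fun v => ¬ ND G z u v)).card :=
    (add_sum_erase _ _ (mem_univ u)).symm
  have hLpos : 1 ≤ L := by
    by_contra h0
    have hL0 : L = 0 := by omega
    have h7 : 1 ≤ Fintype.card Ω - 1 := by omega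
    rw [hL0, mul_zero] at h4
    omega
  -- pigeonhole
  have h7 : ∑ z ∈ (univ : Finset Ω).erase u, (univ.filter (fun v => ¬ ND G z u v)).card ≤
      ((univ : Finset Ω).erase u).card * (L - 1) := by
    rw [card_erase_of_mem (mem_univ u), card_univ]
    have h8 : (Fintype.card Ω - 1) * L = (Fintype.card Ω - 1) * (L - 1) + (Fintype.card Ω - 1) := by
      have : L = (L - 1) + 1 := by omega
      conv_lhs => rw [this, mul_add, mul_one]
    omega
  have hne' : ((univ : Finset Ω).erase u).Nonempty := by
    rw [← card_pos, card_erase_of_mem (mem_univ u), card_univ]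
    omega
  obtain ⟨z, hz, hzle⟩ : ∃ z ∈ (univ : Finset Ω).erase u,
      (univ.filter (fun v => ¬ ND G z u v)).card ≤ L - 1 := by
    apply exists_le_of_sum_le hne'
    rw [sum_const, smul_eq_mul]
    exact h7
  have hzu : z ≠ u := (mem_erase.mp hz).1
  obtain ⟨a, b, ha, hb, hab⟩ := huni z
  obtain ⟨a', ha', hnd⟩ : ∃ a', a' ≠ z ∧ ¬ ND G z u a' := by
    by_cases h : ND G z u a
    · refine ⟨b, hb, fun h' => hab (h.symm.trans h')⟩
    · exact ⟨a, ha, h⟩
  set W := Nb G z a' z with hW
  have hWC : insert z W ⊆ univ.filter (fun v => ¬ ND G z u v) := by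
    intro v hv
    simp only [mem_filter, mem_univ, true_and]
    rcases mem_insert.mp hv with rfl | hv
    · rintro ⟨k, hk1, hk2⟩
      exact hzu (smul_left_cancel k (hk1.trans hk2.symm))
    · obtain ⟨g, hg1, hg2⟩ := mem_Nb.mp hv
      intro h'
      exact hnd (h'.trans (ND.symm ⟨g, hg1, hg2⟩))
  have hzW : z ∉ W := by
    intro hzW
    obtain ⟨g, hg1, hg2⟩ := mem_Nb.mp hzW
    exact ha' (smul_left_cancel g (hg2.trans hg1.symm))
  have hcardW : W.card + 1 ≤ L - 1 := by
    have := card_le_card hWC
    rw [card_insert_of_notMem hzW] at this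
    omega
  have h1 := lemma_one (G := G) (x := z) (y := a') (Ne.symm ha')
  have h2 : W.card * (Dis G z a').card ≤ W.card * L := Nat.mul_le_mul_left _ (hL z a')
  obtain ⟨l, rfl⟩ : ∃ l, L = l + 2 := ⟨L - 2, by omega⟩
  refine ⟨l, rfl, ?_⟩
  have h9 : W.card ≤ l := by omega
  have h10 : W.card + (Fintype.card Ω - 1) ≤ W.card * (l + 2) := h1.trans h2
  have h11 : Fintype.card Ω - 1 ≤ W.card * (l + 1) := by
    have : W.card * (l + 2) = W.card * (l + 1) + W.card := by ring
    omega
  exact h11.trans (Nat.mul_le_mul_right _ h9)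

/-- The uniprimitive case of the inequality. -/
theorem uni_case [IsPreprimitive G Ω] (huni : ∀ z : Ω, ∃ a b : Ω, a ≠ z ∧ b ≠ z ∧ ¬ ND G z a b)
    {x y : Ω} (hxy : x ≠ y) :
    Fintype.card Ω ≤ (2 * (Dis G x y).card + 1) ^ 2 := by
  set t := (Dis G x y).card with ht
  have h1 := lemma_one (G := G) (x := y) (y := x) (Ne.symm hxy)
  rw [Dis_comm, ← ht] at h1
  set k := (Nb G y x y).card with hk
  by_cases hlt : 3 * t < k
  · have hL := two_bound (G := G) hxy hlt
    by_cases hn : 2 ≤ Fintype.card Ω
    · obtain ⟨l, hl, h2⟩ := fourth (G := G) (2 * t) hL huni hn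
      have h3 : l + 1 ≤ 2 * t := by omega
      have h4 : l * (l + 1) ≤ (2 * t) * (2 * t) := Nat.mul_le_mul (by omega) h3
      have h5 : Fintype.card Ω ≤ (2 * t) * (2 * t) + 1 := by omega
      nlinarith
    · have : Fintype.card Ω ≤ 1 := by omega
      nlinarith
  · have h2 : k * t ≤ 3 * t * t := Nat.mul_le_mul_right _ (by omega)
    have h3 : Fintype.card Ω ≤ 3 * t * t + 1 := by omega
    nlinarith

/-- The support of a commutator of two permutations with supports meeting in one point. -/
theorem comm_three_cycle {α : Type*} [Fintype α] [DecidableEq α] (a b : Equiv.Perm α) (p : α)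
    (hpa : a p ≠ p) (hpb : b p ≠ p) (hdisj : ∀ z, a z ≠ z → b z ≠ z → z = p) :
    (a * b * a⁻¹ * b⁻¹).IsThreeCycle := by
  have hA : ∀ z, z ≠ p → a z ≠ z → b z = z := by
    intro z hz h1
    by_contra h2
    exact hz (hdisj z h1 h2)
  have hB : ∀ z, z ≠ p → b z ≠ z → a z = z := by
    intro z hz h1
    by_contra h2
    exact hz (hdisj z h2 h1)
  have hne : ∀ (f : Equiv.Perm α) (z : α), f z ≠ z → f (f z) ≠ f z := by
    intro f z h1 h2
    exact h1 (f.injective h2)
  have hap : b (a p) = a p := hA (a p) hpa (hne a p hpa)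
  have hbp : a (b p) = b p := hB (b p) hpb (hne b p hpb)
  have hinv : ∀ (f : Equiv.Perm α) (z : α), f⁻¹ z ≠ z → f (f⁻¹ z) ≠ f⁻¹ z := by
    intro f z h1
    simpa using h1.symm
  have hfix : ∀ (f : Equiv.Perm α) (z : α), f z = z → f⁻¹ z = z := by
    intro f z h
    rw [Equiv.Perm.inv_eq_iff_eq]
    exact h.symm
  have hab : a p ≠ b p := by
    intro h
    exact hne b p hpb (by rw [← h]; exact hap)
  set c := a * b * a⁻¹ * b⁻¹ with hc
  have hcapp : ∀ z, c z = a (b (a⁻¹ (b⁻¹ z))) := fun z => rfl
  have hsupp : c.support = {p, a p, b p} := by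
    ext z
    simp only [Equiv.Perm.mem_support, mem_insert, mem_singleton]
    constructor
    · intro hz
      by_contra hcon
      push Not at hcon
      obtain ⟨h1, h2, h3⟩ := hcon
      apply hz
      rw [hcapp]
      by_cases hbz : b z = z
      · have e1 : b⁻¹ z = z := hfix b z hbz
        rw [e1]
        by_cases haz : a z = z
        · have e2 : a⁻¹ z = z := hfix a z haz
          rw [e2, hbz, haz]
        · set w := a⁻¹ z with hw
          have hwp : w ≠ p := by
            intro h
            apply h2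
            rw [← h, hw]
            simp
          have haw : a w = z := by simp [hw]
          have hww : a w ≠ w := by
            rw [haw]
            intro h
            apply haz
            have h' : a⁻¹ z = z := h.symm
            exact (Equiv.Perm.inv_eq_iff_eq.mp h').symm
          rw [hA w hwp hww, haw]
      · have e3 : a z = z := hB z h1 hbz
        set w := b⁻¹ z with hw
        have hwp : w ≠ p := by
          intro h
          apply h3
          rw [← h, hw]
          simp
        have hbw : b w = z := by simp [hw]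
        have hww : b w ≠ w := by
          rw [hbw]
          intro h
          apply hbz
          have h' : b⁻¹ z = z := h.symm
          exact (Equiv.Perm.inv_eq_iff_eq.mp h').symm
        have e4 : a⁻¹ w = w := hfix a w (hB w hwp hww)
        rw [e4, hbw, e3]
    · rintro (h | h | h)
      · rw [h, hcapp]
        set w := b⁻¹ p with hw
        have hbw : b w = p := by simp [hw]
        have hwp : w ≠ p := by
          intro h'
          apply hpb
          rw [h'] at hbw
          exact hbw
        have hww : b w ≠ w := by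
          rw [hbw]
          exact hwp.symm
        have e4 : a⁻¹ w = w := hfix a w (hB w hwp hww)
        rw [e4, hbw]
        exact hpa
      · rw [h, hcapp]
        have e1 : b⁻¹ (a p) = a p := hfix b (a p) hap
        rw [e1]
        have e2 : a⁻¹ (a p) = p := by simp
        rw [e2, hbp]
        exact hab.symm
      · rw [h, hcapp]
        have e1 : b⁻¹ (b p) = p := by simp
        rw [e1]
        set w := a⁻¹ p with hw
        have haw : a w = p := by simp [hw]
        have hwp : w ≠ p := by
          intro h'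
          apply hpa
          rw [h'] at haw
          exact haw
        have hww : a w ≠ w := by
          rw [haw]
          exact hwp.symm
        rw [hA w hwp hww, haw]
        exact hpb.symm
  rw [← card_support_eq_three_iff, hsupp, card_insert_of_notMem, card_insert_of_notMem,
    card_singleton]
  · simpa using hab
  · simp only [mem_insert, mem_singleton, not_or]
    exact ⟨hpa.symm, hpb.symm⟩

/-- Fibres of the evaluation map of a transitive action on a subset, counted. -/
theorem fibre_card [Finite G] [Fintype G] (p a b : Ω)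
    (htwo : ∀ a b : Ω, a ≠ p → b ≠ p → ∃ h : G, h • p = p ∧ h • a = b) (ha : a ≠ p) (hb : b ≠ p) :
    (Fintype.card Ω - 1) * (univ.filter (fun h : G => h • p = p ∧ h • a = b)).card =
      (univ.filter (fun h : G => h • p = p)).card := by
  let H : Subgroup G := MulAction.stabilizer G p
  have hH : ∀ h : G, h ∈ H ↔ h • p = p := fun h => Iff.rfl
  -- the stabiliser inside `H`
  let S : Subgroup ↥H := MulAction.stabilizer ↥H a
  have h1 : Nat.card S * S.index = Nat.card ↥H := Subgroup.card_mul_index S
  have h2 : S.index = Fintype.card Ω - 1 := by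
    rw [MulAction.index_stabilizer]
    have : MulAction.orbit ↥H a = {x | x ≠ p} := by
      ext x
      constructor
      · rintro ⟨h, rfl⟩
        intro hx
        have hx' : h.1 • a = p := hx
        have h3 : h.1 • p = p := h.2
        exact ha (smul_left_cancel h.1 (hx'.trans h3.symm))
      · intro hx
        obtain ⟨h, h3, h4⟩ := htwo a x ha hx
        exact ⟨⟨h, h3⟩, h4⟩
    rw [this]
    have h3 : ({x | x ≠ p} : Set Ω) = (((univ : Finset Ω).erase p : Finset Ω) : Set Ω) := by
      ext x
      simp
    rw [h3, Set.ncard_coe_finset, card_erase_of_mem (mem_univ p), card_univ]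
  have h3 : (univ.filter (fun h : G => h • p = p)).card = Nat.card ↥H := by
    rw [Nat.card_eq_fintype_card, Fintype.card_subtype]
    rfl
  obtain ⟨h₀, h₀1, h₀2⟩ := htwo a b ha hb
  have h4 : (univ.filter (fun h : G => h • p = p ∧ h • a = b)).card = Nat.card S := by
    rw [Nat.card_eq_fintype_card, ← Fintype.card_coe]
    refine Fintype.card_congr ?_
    refine
      { toFun := fun h => ⟨⟨h₀⁻¹ * h.1, ?_⟩, ?_⟩
        invFun := fun s => ⟨h₀ * s.1.1, ?_⟩
        left_inv := ?_
        right_inv := ?_ }
    · have h5 := (mem_filter.mp h.2).2.1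
      show (h₀⁻¹ * h.1) • p = p
      rw [mul_smul, h5, inv_smul_eq_iff, h₀1]
    · have h5 := (mem_filter.mp h.2).2.2
      show (h₀⁻¹ * h.1) • a = a
      rw [mul_smul, h5, inv_smul_eq_iff, h₀2]
    · have h5 : s.1.1 • p = p := s.1.2
      have h6 : s.1.1 • a = a := s.2
      refine mem_filter.mpr ⟨mem_univ _, ?_, ?_⟩
      · rw [mul_smul, h5, h₀1]
      · rw [mul_smul, h6, h₀2]
    · intro h
      apply Subtype.ext
      simp
    · intro s
      apply Subtype.ext
      apply Subtype.ext
      simp
  rw [h3, h4, ← h1, h2, mul_comm]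

/-- Separation lemma. -/
theorem separation [Finite G] [Fintype G] (p : Ω)
    (htwo : ∀ a b : Ω, a ≠ p → b ≠ p → ∃ h : G, h • p = p ∧ h • a = b) (A' : Finset Ω)
    (hp : p ∉ A') (hcard : A'.card ^ 2 < Fintype.card Ω - 1) :
    ∃ h : G, h • p = p ∧ ∀ a ∈ A', h • a ∉ A' := by
  by_contra hcon
  push Not at hcon
  set H := univ.filter (fun h : G => h • p = p) with hHdef
  have hHpos : 0 < H.card := card_pos.mpr ⟨1, by simp [H]⟩
  have hne : ∀ a ∈ A', a ≠ p := fun a ha h => hp (h ▸ ha)
  have h1 : ∀ h ∈ H, 1 ≤ ∑ a ∈ A', ∑ b ∈ A', if h • a = b then 1 else 0 := by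
    intro h hh
    obtain ⟨a, ha, hab⟩ := hcon h (mem_filter.mp hh).2
    calc 1 = if h • a = h • a then 1 else 0 := by simp
      _ ≤ ∑ b ∈ A', if h • a = b then 1 else 0 :=
        single_le_sum (f := fun b => if h • a = b then 1 else 0) (fun _ _ => Nat.zero_le _) hab
      _ ≤ _ := single_le_sum (f := fun a => ∑ b ∈ A', if h • a = b then 1 else 0)
        (fun _ _ => Nat.zero_le _) ha
  have h2 : H.card ≤ ∑ h ∈ H, ∑ a ∈ A', ∑ b ∈ A', if h • a = b then 1 else 0 := by
    have := card_nsmul_le_sum H _ 1 h1
    simpa using this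
  have h3 : ∑ h ∈ H, ∑ a ∈ A', ∑ b ∈ A', (if h • a = b then 1 else 0) =
      ∑ a ∈ A', ∑ b ∈ A', (univ.filter (fun h : G => h • p = p ∧ h • a = b)).card := by
    rw [sum_comm]
    refine sum_congr rfl (fun a _ => ?_)
    rw [sum_comm]
    refine sum_congr rfl (fun b _ => ?_)
    rw [hHdef, sum_filter, card_filter]
    refine sum_congr rfl (fun h _ => ?_)
    by_cases h4 : h • p = p <;> simp [h4]
  have h4 : (Fintype.card Ω - 1) * ∑ a ∈ A', ∑ b ∈ A',
      (univ.filter (fun h : G => h • p = p ∧ h • a = b)).card = A'.card ^ 2 * H.card := by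
    rw [mul_sum]
    have h5 : ∀ a ∈ A', (Fintype.card Ω - 1) * ∑ b ∈ A',
        (univ.filter (fun h : G => h • p = p ∧ h • a = b)).card = A'.card * H.card := by
      intro a ha
      rw [mul_sum, sum_congr rfl (fun b hb => fibre_card p a b htwo (hne a ha) (hne b hb)), sum_const,
        smul_eq_mul]
    rw [sum_congr rfl h5, sum_const, smul_eq_mul]
    ring
  rw [h3] at h2
  have h5 : (Fintype.card Ω - 1) * H.card ≤ A'.card ^ 2 * H.card := by
    rw [← h4]
    exact Nat.mul_le_mul_left _ h2
  have h6 := Nat.le_of_mul_le_mul_right h5 hHpos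
  omega

/-- The doubly transitive case. -/
theorem two_case [DecidableEq Ω] [Finite G] [FaithfulSMul G Ω]
    (hprim : IsPreprimitive G Ω)
    (hA : ¬ alternatingGroup Ω ≤ (MulAction.toPermHom G Ω).range)
    (htwo : ∀ p a b : Ω, a ≠ p → b ≠ p → ∃ h : G, h • p = p ∧ h • a = b)
    (g : G) (hg : g ≠ 1) (A : Finset Ω) (hAdef : A = univ.filter (fun z => g • z ≠ z)) :
    Fintype.card Ω ≤ (A.card) ^ 2 + 1 := by
  have hAne : A.Nonempty := by
    by_contra hne
    rw [not_nonempty_iff_eq_empty] at hne
    apply hg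
    apply FaithfulSMul.eq_of_smul_eq_smul (α := Ω)
    intro z
    rw [one_smul]
    by_contra hz
    have : z ∈ A := by
      rw [hAdef]
      simp [hz]
    rw [hne] at this
    simp at this
  obtain ⟨p, hp⟩ := hAne
  have hpg : g • p ≠ p := by
    rw [hAdef] at hp
    simpa using hp
  by_contra hcon
  push Not at hcon
  set A' := A.erase p with hA'
  have hA'card : A'.card + 1 = A.card := by
    rw [hA', card_erase_of_mem hp]
    have := card_pos.mpr ⟨p, hp⟩
    omega
  have hlt : A'.card ^ 2 < Fintype.card Ω - 1 := by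
    have : A'.card ^ 2 ≤ A.card ^ 2 := Nat.pow_le_pow_left (by omega) 2
    omega
  haveI := Fintype.ofFinite G
  obtain ⟨h, hh1, hh2⟩ := separation p (htwo p) A' (notMem_erase p A) hlt
  let a : Equiv.Perm Ω := MulAction.toPermHom G Ω g
  let b : Equiv.Perm Ω := MulAction.toPermHom G Ω (h * g * h⁻¹)
  have haapp : ∀ z, a z = g • z := fun z => rfl
  have hbapp : ∀ z, b z = (h * g * h⁻¹) • z := fun z => rfl
  have hhinv : h⁻¹ • p = p := by rw [inv_smul_eq_iff, hh1]
  have h3 := comm_three_cycle a b p (by rw [haapp]; exact hpg)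
    (by
      rw [hbapp, mul_smul, mul_smul, hhinv]
      intro h4
      apply hpg
      have h5 : h • g • p = h • p := by rw [h4, hh1]
      exact smul_left_cancel h h5)
    (by
      intro z hz1 hz2
      by_contra hzp
      rw [haapp] at hz1
      rw [hbapp, mul_smul, mul_smul] at hz2
      have hz3 : z ∈ A := by
        rw [hAdef]
        simp [hz1]
      have hw : h⁻¹ • z ≠ p := by
        intro h4
        apply hzp
        rw [inv_smul_eq_iff] at h4
        rw [h4, hh1]
      have hw2 : g • (h⁻¹ • z) ≠ h⁻¹ • z := by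
        intro h4
        apply hz2
        rw [h4, smul_inv_smul]
      have hw3 : h⁻¹ • z ∈ A' := by
        rw [hA', mem_erase]
        refine ⟨hw, ?_⟩
        rw [hAdef]
        simp [hw2]
      apply hh2 _ hw3
      rw [smul_inv_smul, hA', mem_erase]
      exact ⟨hzp, hz3⟩)
  apply hA
  have hprim' : IsPreprimitive (MulAction.toPermHom G Ω).range Ω := by
    let φ : G →* (MulAction.toPermHom G Ω).range := (MulAction.toPermHom G Ω).rangeRestrict
    let f : Ω →ₑ[φ] Ω := { toFun := id, map_smul' := fun g x => rfl }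
    exact IsPreprimitive.of_surjective (f := f) Function.surjective_id
  refine Equiv.Perm.alternatingGroup_le_of_isPreprimitive_of_isThreeCycle_mem hprim' h3 ?_
  exact ⟨g * (h * g * h⁻¹) * g⁻¹ * (h * g * h⁻¹)⁻¹, by
    simp only [map_mul, map_inv, a, b]⟩

end Dist

/-- A classification-free minimal-degree bound. Let G be a finite group acting faithfully and primitively on a finite set Ω with n elements, and suppose that the image of G in the symmetric group on Ω does not contain the alternating group on Ω. Then every non-identity element of G moves at least (√n − 1)/2 points of Ω, that is, it fixes at most n − (√n − 1)/2 points. -/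
theorem result {G Ω : Type*} [Group G] [Finite G] [MulAction G Ω] [FaithfulSMul G Ω] [Fintype Ω] [DecidableEq Ω]
    (hprim : MulAction.IsPreprimitive G Ω)
    (hA : ¬ alternatingGroup Ω ≤ (MulAction.toPermHom G Ω).range)
    (g : G) (hg : g ≠ 1) :
    (Real.sqrt (Fintype.card Ω) - 1) / 2 ≤ (Fintype.card Ω : ℝ) - Nat.card (MulAction.fixedBy Ω g) := by
  set A : Finset Ω := univ.filter (fun z : Ω => g • z ≠ z) with hAdef
  have hcardA : (Fintype.card Ω : ℝ) - Nat.card (MulAction.fixedBy Ω g) = (A.card : ℝ) := by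
    have h1 : Nat.card (MulAction.fixedBy Ω g) + A.card = Fintype.card Ω := by
      have h2 : Nat.card (MulAction.fixedBy Ω g) = (univ.filter (fun z : Ω => g • z = z)).card := by
        rw [Nat.card_eq_fintype_card, Fintype.card_subtype]
        rfl
      rw [h2, hAdef]
      have := card_filter_add_card_filter_not (s := (univ : Finset Ω)) (fun z : Ω => g • z = z)
      simpa using this
    have h3 : ((Nat.card (MulAction.fixedBy Ω g) + A.card : ℕ) : ℝ) = (Fintype.card Ω : ℝ) := by
      rw [h1]
    push_cast at h3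
    linarith
  rw [hcardA]
  have hbound : Fintype.card Ω ≤ (2 * A.card + 1) ^ 2 := by
    by_cases huni : ∃ p a b : Ω, a ≠ p ∧ b ≠ p ∧ ¬ ND G p a b
    · -- the uniprimitive case
      obtain ⟨p, a, b, ha, hb, hab⟩ := huni
      have huni' : ∀ z : Ω, ∃ a b : Ω, a ≠ z ∧ b ≠ z ∧ ¬ ND G z a b := by
        intro z
        obtain ⟨f, hf⟩ := MulAction.exists_smul_eq G p z
        refine ⟨f • a, f • b, ?_, ?_, ?_⟩
        · rw [← hf]
          exact fun h => ha (smul_left_cancel f h)
        · rw [← hf]
          exact fun h => hb (smul_left_cancel f h)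
        · rw [← hf, ND_smul]
          exact hab
      have hne : ∃ x : Ω, g • x ≠ x := by
        by_contra hcon
        push Not at hcon
        apply hg
        apply FaithfulSMul.eq_of_smul_eq_smul (α := Ω)
        intro z
        rw [one_smul]
        exact hcon z
      obtain ⟨x, hx⟩ := hne
      have h1 := uni_case (G := G) huni' (x := x) (y := g • x) (Ne.symm hx)
      have h2 : (Dis G x (g • x)).card ≤ A.card := by
        refine card_le_card ?_
        intro z hz
        rw [mem_Dis] at hz
        rw [hAdef]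
        simp only [mem_filter, mem_univ, true_and]
        intro h3
        exact hz ⟨g, h3, rfl⟩
      calc Fintype.card Ω ≤ (2 * (Dis G x (g • x)).card + 1) ^ 2 := h1
        _ ≤ (2 * A.card + 1) ^ 2 := Nat.pow_le_pow_left (by omega) 2
    · push Not at huni
      have h1 := two_case hprim hA (fun p a b ha hb => huni p a b ha hb) g hg A hAdef
      nlinarith [Nat.zero_le A.card, Nat.zero_le (A.card ^ 2)]
  have h2 : Real.sqrt (Fintype.card Ω) ≤ 2 * (A.card : ℝ) + 1 := by
    rw [Real.sqrt_le_left (by positivity)]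
    have : ((Fintype.card Ω : ℕ) : ℝ) ≤ (((2 * A.card + 1) ^ 2 : ℕ) : ℝ) := by
      exact_mod_cast hbound
    push_cast at this
    exact this
  linarith

end Cfsg.Agent.S5713
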