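import Mathlib
import Cfsg.Statements.S5722
import Cfsg.Agent.Lib.CompLenMain

set_option autoImplicit false
open Cfsg

namespace Cfsg.Agent.S5722

open Equiv Cfsg.Agent.Lib.SubnChain

/-- If a finite group G acts faithfully on a finite set with n points and r orbits, then the composition length of G is at most 4(n − r)/3. Here the composition length is expressed through chains: the conclusion bounds the length l of every chain of subgroups 1 = H₀ < H₁ < ⋯ < H_l = G in which each term is normal in the next (the longest such chains are exactly the composition series). -/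
theorem result {G Ω : Type*} [Group G] [Finite G] [MulAction G Ω] [FaithfulSMul G Ω] [Fintype Ω]
    (l : ℕ) (H : Fin (l + 1) → Subgroup G) (h0 : H 0 = ⊥) (hl : H (Fin.last l) = ⊤)
    (hchain : ∀ i : Fin l, H i.castSucc < H i.succ ∧ ((H i.castSucc).subgroupOf (H i.succ)).Normal) :
    3 * l ≤ 4 * (Fintype.card Ω - Nat.card (Quotient (MulAction.orbitRel G Ω))) := by
  classical
  set n := Fintype.card Ω with hn
  set r := Nat.card (Quotient (MulAction.orbitRel G Ω)) with hr
  let e : Ω ≃ Fin n := Fintype.equivFin Ω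
  let e' : Quotient (MulAction.orbitRel G Ω) ≃ Fin r := Finite.equivFinOfCardEq hr.symm
  let ψ : G →* Perm (Fin n) := (Equiv.permCongrHom e).toMonoidHom.comp (MulAction.toPermHom G Ω)
  have hψa : ∀ g x, ψ g x = e (g • e.symm x) := fun g x => rfl
  have hψ : Function.Injective ψ := by
    rw [injective_iff_map_eq_one]
    intro g hg
    apply FaithfulSMul.eq_of_smul_eq_smul (α := Ω)
    intro x
    have h1 := congrArg (fun σ : Perm (Fin n) => σ (e x)) hg
    simp only [hψa, Equiv.symm_apply_apply] at h1
    have h2 : e (g • x) = e x := h1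
    simpa using e.injective h2
  have hch : ∀ (i : ℕ) (hi : i ≤ l),
      SC ⊥ ((H ⟨i, Nat.lt_succ_of_le hi⟩).map ψ) i := by
    intro i
    induction i with
    | zero =>
      intro _
      have : H ⟨0, Nat.lt_succ_of_le (Nat.zero_le l)⟩ = ⊥ := h0
      rw [this, Subgroup.map_bot]
      exact SC.refl
    | succ i ih =>
      intro hi
      have hi' : i < l := hi
      obtain ⟨hlt, hnorm⟩ := hchain ⟨i, hi'⟩
      refine SC.step (ih (by omega)) ?_ ?_
      · have hlt' : H ⟨i, Nat.lt_succ_of_le (by omega)⟩ < H ⟨i + 1, Nat.lt_succ_of_le hi⟩ := hlt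
        exact (Subgroup.map_lt_map_iff_of_injective hψ).2 hlt'
      · rintro _ ⟨c, hc, rfl⟩ _ ⟨b, hb, rfl⟩
        have hle : H ⟨i, Nat.lt_succ_of_le (by omega)⟩ ≤ H ⟨i + 1, Nat.lt_succ_of_le hi⟩ := hlt.le
        refine ⟨c * b * c⁻¹, ?_, by simp⟩
        have h1 := hnorm.conj_mem ⟨b, hle hb⟩ (by simpa [Subgroup.mem_subgroupOf] using hb) ⟨c, hc⟩
        simpa [Subgroup.mem_subgroupOf] using h1
  have htop := hch l le_rfl
  have hlast : H ⟨l, Nat.lt_succ_of_le le_rfl⟩ = ⊤ := hl
  rw [hlast] at htop
  have hclaim := Cfsg.Agent.Lib.CompLenMain.claim_all n (Fin n) ((⊤ : Subgroup G).map ψ) (Fin r)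
    (fun x => e' (Quotient.mk _ (e.symm x))) (by simp) (by
      intro y
      obtain ⟨q, rfl⟩ := e'.surjective y
      obtain ⟨w, rfl⟩ := Quotient.mk_surjective q
      exact ⟨e w, by simp⟩) (by
      rintro _ ⟨g, _, rfl⟩ x
      have h1 : (Quotient.mk (MulAction.orbitRel G Ω) (e.symm (ψ g x))) =
          Quotient.mk (MulAction.orbitRel G Ω) (e.symm x) := by
        apply Quotient.sound
        rw [hψa]
        simp only [Equiv.symm_apply_apply]
        exact ⟨g, rfl⟩
      show e' _ = e' _
      rw [h1]) l htop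
  simp only [Nat.card_eq_fintype_card, Fintype.card_fin] at hclaim
  omega

end Cfsg.Agent.S5722
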