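import Cfsg.Statements.S5729

set_option autoImplicit false
open Cfsg

namespace Cfsg.Agent.S5729

/-- Let a finite group G act faithfully and transitively on a set with n ≥ 3 points. Then either G is a Frobenius permutation group (Frobenius as a permutation group: transitive, some non-identity element fixes a point, and no non-identity element fixes two points) of order n(n − 1) and exactly |G|/n of its elements are derangements (fix no point), or the number of derangements is greater than |G|/n. -/
theorem result {G Ω : Type*} [Group G] [Finite G] [MulAction G Ω] [FaithfulSMul G Ω] [Fintype Ω] (htr : MulAction.IsPretransitive G Ω) (hn : 3 ≤ Fintype.card Ω) :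
    ((MulAction.IsPretransitive G Ω ∧ (∃ g : G, g ≠ 1 ∧ ∃ ω : Ω, g • ω = ω) ∧ ∀ g : G, g ≠ 1 → Nat.card (MulAction.fixedBy Ω g) ≤ 1) ∧ Nat.card G = Fintype.card Ω * (Fintype.card Ω - 1) ∧ Fintype.card Ω * Nat.card {g : G // ∀ ω : Ω, g • ω ≠ ω} = Nat.card G) ∨
    Nat.card G < Fintype.card Ω * Nat.card {g : G // ∀ ω : Ω, g • ω ≠ ω} := by
  classical
  let _ := Fintype.ofFinite G
  set n := Fintype.card Ω with hndef
  set N := Fintype.card G with hNdef
  have hNnat : Nat.card G = N := Nat.card_eq_fintype_card
  have hNpos : 0 < N := Fintype.card_pos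
  let f : G → ℕ := fun g => Fintype.card (MulAction.fixedBy Ω g)
  have hfnat : ∀ g, Nat.card (MulAction.fixedBy Ω g) = f g := fun g => Nat.card_eq_fintype_card
  -- Burnside for Ω
  have hone : Fintype.card (Quotient (MulAction.orbitRel G Ω)) = 1 := by
    have hne : Nonempty Ω := by
      rw [← Fintype.card_pos_iff]; omega
    obtain ⟨ω⟩ := hne
    apply Fintype.card_eq_one_iff.mpr
    refine ⟨⟦ω⟧, fun q => ?_⟩
    induction q using Quotient.inductionOn with
    | _ a =>
      apply Quotient.sound
      show a ∈ MulAction.orbit G ω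
      exact MulAction.mem_orbit_iff.mpr (htr.exists_smul_eq ω a)
  have hsum1 : ∑ g, f g = N := by
    have := MulAction.sum_card_fixedBy_eq_card_orbits_mul_card_group G Ω
    rw [hone, one_mul] at this
    exact this
  -- Burnside for Ω × Ω
  have hcard2 : ∀ g : G, Fintype.card (MulAction.fixedBy (Ω × Ω) g) = f g ^ 2 := by
    intro g
    have e : MulAction.fixedBy (Ω × Ω) g ≃ MulAction.fixedBy Ω g × MulAction.fixedBy Ω g :=
      { toFun := fun p => (⟨p.1.1, by
            have := p.2
            rw [MulAction.mem_fixedBy, Prod.smul_def, Prod.ext_iff] at this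
            exact this.1⟩, ⟨p.1.2, by
            have := p.2
            rw [MulAction.mem_fixedBy, Prod.smul_def, Prod.ext_iff] at this
            exact this.2⟩)
        invFun := fun p => ⟨(p.1.1, p.2.1), by
            rw [MulAction.mem_fixedBy, Prod.smul_def, Prod.ext_iff]
            exact ⟨p.1.2, p.2.2⟩⟩
        left_inv := fun p => by ext <;> rfl
        right_inv := fun p => by ext <;> rfl }
    rw [Fintype.card_congr e, Fintype.card_prod, sq]
  set r := Fintype.card (Quotient (MulAction.orbitRel G (Ω × Ω))) with hrdef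
  have hsum2 : ∑ g, f g ^ 2 = r * N := by
    have := MulAction.sum_card_fixedBy_eq_card_orbits_mul_card_group G (Ω × Ω)
    simp only [hcard2] at this
    exact this
  have hr2 : 2 ≤ r := by
    obtain ⟨ω, ω', hne⟩ : ∃ ω ω' : Ω, ω ≠ ω' := Fintype.one_lt_card_iff.mp (by omega)
    have : 1 < r := by
      apply Fintype.one_lt_card_iff.mpr
      refine ⟨⟦(ω, ω)⟧, ⟦(ω, ω')⟧, fun h => ?_⟩
      have h' := Quotient.exact h
      change (ω, ω) ∈ MulAction.orbit G (ω, ω') at h'
      obtain ⟨g, hg⟩ := h'
      have hg' : g • (ω, ω') = (ω, ω) := hg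
      rw [Prod.smul_mk, Prod.mk.injEq] at hg'
      exact hne (MulAction.injective g (hg'.1.trans hg'.2.symm))
    omega
  -- the derangement count
  let D : Finset G := Finset.univ.filter (fun g => f g = 0)
  have hDnat : Nat.card {g : G // ∀ ω : Ω, g • ω ≠ ω} = D.card := by
    rw [Nat.card_eq_fintype_card, Fintype.card_subtype]
    congr 1
    ext g
    simp only [Finset.mem_filter, Finset.mem_univ, true_and, D, f]
    rw [Fintype.card_eq_zero_iff]
    constructor
    · intro h
      exact ⟨fun x => h x.1 x.2⟩
    · intro h ω hω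
      exact h.false ⟨ω, hω⟩
  have hfle : ∀ g, f g ≤ n := by
    intro g
    exact Fintype.card_subtype_le _
  -- the sum identity, in ℤ
  have hident : ∑ g, (((f g : ℤ) - 1) * ((f g : ℤ) - n)) = ((r : ℤ) - 1) * N := by
    have h1 : ∀ g, (((f g : ℤ) - 1) * ((f g : ℤ) - n)) = ((f g : ℤ) ^ 2 - ((n : ℤ) + 1) * (f g : ℤ) + n) := by
      intro g; ring
    simp only [h1]
    rw [Finset.sum_add_distrib, Finset.sum_sub_distrib, ← Finset.mul_sum]
    have h2 : ∑ g, ((f g : ℤ) ^ 2) = (r : ℤ) * N := by
      exact_mod_cast hsum2
    have h3 : ∑ g, (f g : ℤ) = N := by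
      exact_mod_cast hsum1
    rw [h2, h3, Finset.sum_const, Finset.card_univ, nsmul_eq_mul]
    ring
  have hpoint : ∀ g, (((f g : ℤ) - 1) * ((f g : ℤ) - n)) ≤ (if f g = 0 then (n : ℤ) else 0) := by
    intro g
    by_cases h0 : f g = 0
    · simp [h0]
    · simp only [h0, if_false]
      have h1 : (1 : ℤ) ≤ f g := by
        have := Nat.pos_of_ne_zero h0
        exact_mod_cast this
      have h2 : (f g : ℤ) ≤ n := by exact_mod_cast hfle g
      nlinarith
  have hsumif : ∑ g, (if f g = 0 then (n : ℤ) else 0) = n * D.card := by
    rw [← Finset.sum_filter, Finset.sum_const, nsmul_eq_mul, mul_comm]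
  have hmain : ((r : ℤ) - 1) * N ≤ n * D.card := by
    rw [← hident, ← hsumif]
    exact Finset.sum_le_sum (fun g _ => hpoint g)
  rw [hNnat, hDnat]
  rcases lt_or_ge N (n * D.card) with hlt | hge
  · exact Or.inr hlt
  · left
    have hr2Z : (2 : ℤ) ≤ r := by exact_mod_cast hr2
    have hNZ : (0 : ℤ) < N := by exact_mod_cast hNpos
    have hgeZ : (n : ℤ) * D.card ≤ N := by exact_mod_cast hge
    have hr : r = 2 := by
      have : (r : ℤ) = 2 := by
        by_contra hne
        have h3 : (3 : ℤ) ≤ r := by omega
        nlinarith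
      exact_mod_cast this
    have heq : (N : ℤ) = n * D.card := by
      have : ((r : ℤ) - 1) = 1 := by rw [hr]; norm_num
      rw [this, one_mul] at hmain
      linarith
    have heqN : n * D.card = N := by
      have : (n : ℤ) * D.card = N := heq.symm
      exact_mod_cast this
    -- equality pointwise
    have hsumeq : ∑ g, (((f g : ℤ) - 1) * ((f g : ℤ) - n)) = ∑ g, (if f g = 0 then (n : ℤ) else 0) := by
      rw [hident, hsumif, hr, ← heq]
      norm_num
    have hptw := (Finset.sum_eq_sum_iff_of_le (fun g _ => hpoint g)).mp hsumeq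
    have hfn : ∀ g, f g = n → g = 1 := by
      intro g hg
      apply FaithfulSMul.eq_of_smul_eq_smul (α := Ω)
      intro ω
      rw [one_smul]
      by_contra hne
      have h1 : Fintype.card (MulAction.fixedBy Ω g) = Fintype.card Ω := hg
      have h2 : Fintype.card {x // x ∈ MulAction.fixedBy Ω g} < Fintype.card Ω :=
        Fintype.card_subtype_lt (x := ω) hne
      exact absurd h1 (ne_of_lt h2)
    have hle1 : ∀ g, g ≠ 1 → f g ≤ 1 := by
      intro g hg
      by_cases h0 : f g = 0
      · omega
      · have := hptw g (Finset.mem_univ g)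
        simp only [h0, if_false] at this
        rcases mul_eq_zero.mp this with h | h
        · have : (f g : ℤ) = 1 := by linarith
          have : f g = 1 := by exact_mod_cast this
          omega
        · have : (f g : ℤ) = n := by linarith
          have : f g = n := by exact_mod_cast this
          exact absurd (hfn g this) hg
    have hf1 : f 1 = n := by
      show Fintype.card (MulAction.fixedBy Ω (1 : G)) = n
      rw [Fintype.card_congr (Equiv.subtypeUnivEquiv (fun x => by simp [MulAction.mem_fixedBy]))]
    -- compute N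
    have hN : N = n * (n - 1) := by
      have h1 : ∑ g, (((f g : ℤ) ^ 2) - (f g : ℤ)) = N := by
        rw [Finset.sum_sub_distrib]
        have h2 : ∑ g, ((f g : ℤ) ^ 2) = (r : ℤ) * N := by
          exact_mod_cast hsum2
        have h3 : ∑ g, (f g : ℤ) = N := by
          exact_mod_cast hsum1
        rw [h2, h3, hr]
        push_cast
        ring
      rw [Finset.sum_eq_single (1 : G)] at h1
      · rw [hf1] at h1
        have hn1 : (((n - 1 : ℕ)) : ℤ) = (n : ℤ) - 1 := by
          rw [Nat.cast_sub (by omega)]; simp
        have : (N : ℤ) = n * ((n - 1 : ℕ) : ℤ) := by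
          rw [hn1, ← h1]; ring
        exact_mod_cast this
      · intro g _ hg
        have := hle1 g hg
        interval_cases (f g) <;> simp
      · intro h
        exact absurd (Finset.mem_univ _) h
    refine ⟨⟨htr, ?_, ?_⟩, hN, heqN⟩
    · by_contra hcon
      push Not at hcon
      have h1 : ∀ g, g ≠ 1 → f g = 0 := by
        intro g hg
        rw [Fintype.card_eq_zero_iff]
        exact ⟨fun x => hcon g hg x.1 x.2⟩
      have h2 : ∑ g, f g = f 1 := by
        apply Finset.sum_eq_single
        · intro g _ hg
          exact h1 g hg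
        · intro h
          exact absurd (Finset.mem_univ _) h
      rw [hsum1, hf1, hN] at h2
      have h3 : n - 1 = 1 := by
        have hnpos : 0 < n := by omega
        exact Nat.eq_of_mul_eq_mul_left hnpos (by rw [h2, mul_one])
      omega
    · intro g hg
      rw [hfnat]
      exact hle1 g hg

end Cfsg.Agent.S5729
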