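import Mathlib
import Cfsg.Agent.Lib.DerTwoC
import Cfsg.Statements.S5730

set_option autoImplicit false
open Cfsg Finset MulAction
open Cfsg.Agent.Lib.DerTwoA Cfsg.Agent.Lib.DerTwoB Cfsg.Agent.Lib.DerTwoC

namespace Cfsg.Agent.S5730

section struct
variable {G Ω : Type*} [Group G] [Fintype G] [MulAction G Ω] [Fintype Ω]

theorem three_le_orb {B : Subgroup G} {g h : G} {x : Ω} (hg : g ∈ B) (hh : h ∈ B)
    (h1 : x ≠ g • x) (h2 : x ≠ h • x) (h3 : g • x ≠ h • x) : 3 ≤ (orbF B x).card := by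
  classical
  have hsub : ({x, g • x, h • x} : Finset Ω) ⊆ orbF B x := by
    intro y hy
    simp only [mem_insert, mem_singleton] at hy
    rcases hy with rfl | rfl | rfl
    · exact self_mem_orbF B _
    · exact mem_orbF.2 ⟨g, hg, rfl⟩
    · exact mem_orbF.2 ⟨h, hh, rfl⟩
  have hc : ({x, g • x, h • x} : Finset Ω).card = 3 := by
    rw [Finset.card_eq_three]
    exact ⟨_, _, _, h1, h2, h3, rfl⟩
  have := Finset.card_le_card hsub
  omega

theorem four_le_orb {B : Subgroup G} {g₁ g₂ g₃ : G} {x : Ω} (hg₁ : g₁ ∈ B) (hg₂ : g₂ ∈ B)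
    (hg₃ : g₃ ∈ B) (h12 : x ≠ g₁ • x) (h13 : x ≠ g₂ • x) (h14 : x ≠ g₃ • x)
    (h23 : g₁ • x ≠ g₂ • x) (h24 : g₁ • x ≠ g₃ • x) (h34 : g₂ • x ≠ g₃ • x) :
    4 ≤ (orbF B x).card := by
  classical
  have hsub : ({x, g₁ • x, g₂ • x, g₃ • x} : Finset Ω) ⊆ orbF B x := by
    intro y hy
    simp only [mem_insert, mem_singleton] at hy
    rcases hy with rfl | rfl | rfl | rfl
    · exact self_mem_orbF B _
    · exact mem_orbF.2 ⟨g₁, hg₁, rfl⟩
    · exact mem_orbF.2 ⟨g₂, hg₂, rfl⟩
    · exact mem_orbF.2 ⟨g₃, hg₃, rfl⟩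
  have hc : ({x, g₁ • x, g₂ • x, g₃ • x} : Finset Ω).card = 4 := by
    rw [Finset.card_eq_succ]
    refine ⟨x, {g₁ • x, g₂ • x, g₃ • x}, ?_, rfl, ?_⟩
    · simp [h12, h13, h14]
    · rw [Finset.card_eq_three]
      exact ⟨_, _, _, h23, h24, h34, rfl⟩
  have := Finset.card_le_card hsub
  omega

theorem H2_of_orb (ht : TwoTrans G Ω) {α β : Ω} (hαβ : α ≠ β)
    (h : ∀ x : Ω, (orbF (S2 G α β) x).card ≤ 2) : H2 G Ω := by
  intro a c hac g hg g' hg' x
  obtain ⟨k, rfl, rfl⟩ := ht α β a c hαβ hac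
  by_contra hcon
  push Not at hcon
  obtain ⟨h1, h2, h3⟩ := hcon
  have hu := conj_inv_mem_S2 k hg
  have hv := conj_inv_mem_S2 k hg'
  have e1 : (k⁻¹ * g * k) • (k⁻¹ • x) = k⁻¹ • g • x := by simp [mul_smul]
  have e2 : (k⁻¹ * g' * k) • (k⁻¹ • x) = k⁻¹ • g' • x := by simp [mul_smul]
  have := three_le_orb (x := k⁻¹ • x) hu hv
    (by rw [e1]; intro h4; exact h1 (smul_left_cancel _ h4).symm)
    (by rw [e2]; intro h4; exact h2 (smul_left_cancel _ h4).symm)
    (by rw [e1, e2]; intro h4; exact h3 (smul_left_cancel _ h4))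
  have := h (k⁻¹ • x)
  omega

theorem H3_of_orb (ht : TwoTrans G Ω) {α β : Ω} (hαβ : α ≠ β)
    (h : ∀ x : Ω, (orbF (S2 G α β) x).card ≤ 3) : H3 G Ω := by
  intro a c hac x g₁ hg₁ g₂ hg₂ g₃ hg₃ hcon
  obtain ⟨k, rfl, rfl⟩ := ht α β a c hαβ hac
  obtain ⟨h1, h2, h3, h4, h5, h6⟩ := hcon
  have hu₁ := conj_inv_mem_S2 k hg₁
  have hu₂ := conj_inv_mem_S2 k hg₂
  have hu₃ := conj_inv_mem_S2 k hg₃
  have e1 : (k⁻¹ * g₁ * k) • (k⁻¹ • x) = k⁻¹ • g₁ • x := by simp [mul_smul]
  have e2 : (k⁻¹ * g₂ * k) • (k⁻¹ • x) = k⁻¹ • g₂ • x := by simp [mul_smul]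
  have e3 : (k⁻¹ * g₃ * k) • (k⁻¹ • x) = k⁻¹ • g₃ • x := by simp [mul_smul]
  have := four_le_orb (x := k⁻¹ • x) hu₁ hu₂ hu₃
    (by rw [e1]; intro h7; exact h1 (smul_left_cancel _ h7))
    (by rw [e2]; intro h7; exact h2 (smul_left_cancel _ h7))
    (by rw [e3]; intro h7; exact h3 (smul_left_cancel _ h7))
    (by rw [e1, e2]; intro h7; exact h4 (smul_left_cancel _ h7))
    (by rw [e1, e3]; intro h7; exact h5 (smul_left_cancel _ h7))
    (by rw [e2, e3]; intro h7; exact h6 (smul_left_cancel _ h7))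
  have := h (k⁻¹ • x)
  omega

theorem sum_inv_orb (B : Subgroup G) {μ : ℕ}
    (hW : ∑ g ∈ bs B, fx (Ω := Ω) g = μ * Nat.card B) :
    ∑ x : Ω, (1 : ℚ) / (orbF B x).card = μ := by
  classical
  have hb : (0 : ℚ) < Nat.card B := by exact_mod_cast Nat.card_pos
  have h1 : (∑ x : Ω, ((stF B x : ℕ) : ℚ)) = μ * Nat.card B := by
    rw [sum_fx_bs] at hW
    exact_mod_cast hW
  have h2 : ∀ x : Ω, ((stF B x : ℕ) : ℚ) = Nat.card B * (1 / (orbF B x).card) := by
    intro x
    have h3 := card_orbF_mul_stF B x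
    have h4 : (0 : ℚ) < (orbF B x).card := by exact_mod_cast orbF_pos B x
    rw [← h3]
    push_cast
    field_simp
  simp only [h2, ← Finset.mul_sum] at h1
  have h5 : (Nat.card B : ℚ) * ∑ x : Ω, (1 : ℚ) / (orbF B x).card = Nat.card B * μ := by
    rw [h1]; ring
  exact mul_left_cancel₀ hb.ne' h5

end struct

section Z
variable {G Ω : Type*} [Group G] [Fintype G] [MulAction G Ω] [Fintype Ω]

omit [Fintype G] in
theorem mem_Ln_iff_orb {α β x : Ω} [Fintype G] : x ∈ Ln G α β ↔ (orbF (S2 G α β) x).card = 1 := by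
  classical
  rw [mem_Ln, Finset.card_eq_one]
  constructor
  · intro h
    refine ⟨x, ?_⟩
    ext y
    rw [mem_orbF, mem_singleton]
    constructor
    · rintro ⟨g, hg, rfl⟩
      exact h g hg
    · rintro rfl
      exact ⟨1, Subgroup.one_mem _, one_smul _ _⟩
  · rintro ⟨z, hz⟩ g hg
    have h1 : x ∈ orbF (S2 G α β) x := self_mem_orbF _ _
    have h2 : g • x ∈ orbF (S2 G α β) x := mem_orbF.2 ⟨g, hg, rfl⟩
    rw [hz, mem_singleton] at h1 h2
    exact h2.trans h1.symm

/-- the deficiency sum. -/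
noncomputable def Zsum (G : Type*) {Ω : Type*} [Group G] [Fintype G] [MulAction G Ω] [Fintype Ω]
    (α β : Ω) : ℚ := by
  classical
  exact ∑ x ∈ (Ln G α β)ᶜ, ((1 : ℚ) - 2 / (orbF (S2 G α β) x).card)

theorem Zsum_eq {α β : Ω} {μ : ℕ}
    (hW : ∑ g ∈ bs (S2 G α β), fx (Ω := Ω) g = μ * Nat.card (S2 G α β)) :
    Zsum G α β = (Fintype.card Ω : ℚ) - 2 * μ + (Ln G α β).card := by
  classical
  have h1 := sum_inv_orb (Ω := Ω) (S2 G α β) hW
  have h2 : (∑ x : Ω, ((1 : ℚ) - 2 / (orbF (S2 G α β) x).card)) = (Fintype.card Ω : ℚ) - 2 * μ := by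
    rw [Finset.sum_sub_distrib, Finset.sum_const, Finset.card_univ, nsmul_eq_mul, mul_one]
    congr 1
    rw [← h1, Finset.mul_sum]
    refine Finset.sum_congr rfl fun x _ => ?_
    ring
  have h3 : (∑ x ∈ Ln G α β, ((1 : ℚ) - 2 / (orbF (S2 G α β) x).card)) = -((Ln G α β).card : ℚ) := by
    rw [Finset.sum_congr rfl (g := fun _ => (-1 : ℚ))]
    · simp
    · intro x hx
      rw [mem_Ln_iff_orb.1 hx]
      norm_num
  have h4 := Finset.sum_add_sum_compl (Ln G α β) (fun x => ((1 : ℚ) - 2 / (orbF (S2 G α β) x).card))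
  unfold Zsum
  rw [h3, h2] at h4
  linarith

theorem two_le_orb_of_notMem {α β x : Ω} (hx : x ∉ Ln G α β) : 2 ≤ (orbF (S2 G α β) x).card := by
  have h1 := orbF_pos (S2 G α β) x
  have h2 : (orbF (S2 G α β) x).card ≠ 1 := fun h => hx (mem_Ln_iff_orb.2 h)
  omega

theorem term_nonneg {α β x : Ω} (hx : x ∉ Ln G α β) :
    (0 : ℚ) ≤ (1 : ℚ) - 2 / (orbF (S2 G α β) x).card := by
  have h1 : (2 : ℚ) ≤ (orbF (S2 G α β) x).card := by exact_mod_cast two_le_orb_of_notMem hx
  have h2 : (2 : ℚ) / (orbF (S2 G α β) x).card ≤ 1 := by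
    rw [div_le_one (by linarith)]
    exact h1
  linarith

/-- every orbit outside the line contributes its size minus two -/
theorem orbit_le_Zsum {α β x : Ω} (hx : x ∉ Ln G α β) :
    ((orbF (S2 G α β) x).card : ℚ) - 2 ≤ Zsum G α β := by
  classical
  have hsub : orbF (S2 G α β) x ⊆ (Ln G α β)ᶜ := by
    intro y hy
    rw [mem_compl]
    intro hyL
    apply hx
    rw [mem_Ln_iff_orb] at hyL ⊢
    rwa [orbF_eq_of_mem hy] at hyL
  have h1 : (∑ y ∈ orbF (S2 G α β) x, ((1 : ℚ) - 2 / (orbF (S2 G α β) y).card)) =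
      ((orbF (S2 G α β) x).card : ℚ) - 2 := by
    rw [Finset.sum_congr rfl (g := fun _ => (1 : ℚ) - 2 / (orbF (S2 G α β) x).card)]
    · rw [Finset.sum_const, nsmul_eq_mul]
      have h2 : (0 : ℚ) < (orbF (S2 G α β) x).card := by exact_mod_cast orbF_pos _ x
      field_simp
    · intro y hy
      rw [orbF_eq_of_mem hy]
  rw [← h1]
  unfold Zsum
  refine Finset.sum_le_sum_of_subset_of_nonneg hsub ?_
  intro y hy _
  rw [mem_compl] at hy
  exact term_nonneg hy

end Z

section tcase
variable {G Ω : Type*} [Group G] [Fintype G] [MulAction G Ω] [FaithfulSMul G Ω] [Fintype Ω]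

theorem t_case (ht : TwoTrans G Ω) (hn : 7 ≤ Fintype.card Ω) {α β : Ω} (hαβ : α ≠ β)
    (hZ : Zsum G α β ≤ 1) {x₀ : Ω} (h3 : 3 ≤ (orbF (S2 G α β) x₀).card) : False := by
  classical
  set B := S2 G α β with hB
  have hnot : ∀ x : Ω, 3 ≤ (orbF B x).card → x ∉ Ln G α β := by
    intro x hx hL
    have hL' : (orbF B x).card = 1 := mem_Ln_iff_orb.1 hL
    omega
  have hc3 : ∀ x : Ω, 3 ≤ (orbF B x).card → (orbF B x).card = 3 := by
    intro x hx
    have h1 := orbit_le_Zsum (hnot x hx)
    have h2 : ((orbF B x).card : ℚ) ≤ 3 := by linarith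
    have h4 : (orbF B x).card ≤ 3 := by exact_mod_cast h2
    omega
  have hle : ∀ x : Ω, (orbF B x).card ≤ 3 := by
    intro x
    by_cases hx : 3 ≤ (orbF B x).card
    · exact (hc3 x hx).le
    · omega
  set T : Finset Ω := univ.filter (fun x : Ω => 3 ≤ (orbF B x).card) with hT
  have hTcard : T.card ≤ 3 := by
    have hsub : T ⊆ (Ln G α β)ᶜ := by
      intro x hx
      rw [mem_compl]
      exact hnot x (by simpa [hT] using hx)
    have h1 : (∑ x ∈ T, ((1 : ℚ) - 2 / (orbF B x).card)) = (T.card : ℚ) * (1 / 3) := by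
      rw [Finset.sum_congr rfl (g := fun _ => (1 : ℚ) / 3)]
      · rw [Finset.sum_const, nsmul_eq_mul]
      · intro x hx
        rw [hc3 x (by simpa [hT] using hx)]
        norm_num
    have h2 : (∑ x ∈ T, ((1 : ℚ) - 2 / (orbF B x).card)) ≤ Zsum G α β := by
      unfold Zsum
      refine Finset.sum_le_sum_of_subset_of_nonneg hsub ?_
      intro y hy _
      rw [mem_compl] at hy
      exact term_nonneg hy
    rw [h1] at h2
    have h4 : (T.card : ℚ) ≤ 3 := by linarith
    exact_mod_cast h4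
  have h3T : H3 G Ω := H3_of_orb ht hαβ hle
  have hdvd : 3 ∣ Nat.card B := by
    have := card_orbF_mul_stF B x₀
    rw [hc3 x₀ h3] at this
    exact ⟨_, this.symm⟩
  have : Fact (Nat.Prime 3) := ⟨Nat.prime_three⟩
  obtain ⟨e₀, he₀⟩ := exists_prime_orderOf_dvd_card' (G := ↥B) 3 hdvd
  set e : G := (e₀ : G) with he
  have heB : e ∈ B := e₀.2
  have hord : orderOf e = 3 := by rw [he, Subgroup.orderOf_coe, he₀]
  have he3 : e ^ 3 = 1 := by rw [← hord]; exact pow_orderOf_eq_one e
  have he1 : e ≠ 1 := by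
    intro h
    rw [h, orderOf_one] at hord
    omega
  have hcube : ∀ x : Ω, e • e • e • x = x := by
    intro x
    rw [← mul_smul, ← mul_smul, ← pow_three', he3, one_smul]
  obtain ⟨p, hp⟩ : ∃ p : Ω, e • p ≠ p := by
    by_contra hcon
    push Not at hcon
    apply he1
    apply FaithfulSMul.eq_of_smul_eq_smul (α := Ω)
    intro x
    simp [hcon x]
  have hTmem : ∀ z : Ω, e • z ≠ z → z ∈ T := by
    intro z hz
    have h1 : z ≠ e • z := Ne.symm hz
    have h2 : z ≠ (e * e) • z := by
      intro h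
      apply hz
      have h5 := hcube z
      rw [mul_smul] at h
      rw [← h] at h5
      exact h5
    have h4 : e • z ≠ (e * e) • z := by
      intro h
      rw [mul_smul] at h
      exact hz (smul_left_cancel e h).symm
    have := three_le_orb heB (B.mul_mem heB heB) h1 h2 h4
    simpa [hT] using this
  have hp2 : e • (e • p) ≠ e • p := fun h => hp (smul_left_cancel e h)
  have hp3 : e • (e • e • p) ≠ e • e • p := fun h => hp2 (smul_left_cancel e h)
  have hsubT : ({p, e • p, e • e • p} : Finset Ω) ⊆ T := by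
    intro y hy
    simp only [mem_insert, mem_singleton] at hy
    rcases hy with rfl | rfl | rfl
    · exact hTmem _ hp
    · exact hTmem _ hp2
    · exact hTmem _ hp3
  have hc : ({p, e • p, e • e • p} : Finset Ω).card = 3 := by
    rw [Finset.card_eq_three]
    refine ⟨_, _, _, Ne.symm hp, ?_, Ne.symm hp2, rfl⟩
    intro h
    apply hp
    have h5 := hcube p
    rw [← h] at h5
    exact h5
  have hTeq : ({p, e • p, e • e • p} : Finset Ω) = T :=
    Finset.eq_of_subset_of_card_le hsubT (by omega)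
  refine no_three_cycle ht h3T hn he3 hp ?_
  intro z hz
  have := hTmem z hz
  rw [← hTeq] at this
  simpa using this

theorem no_84 (htr : IsPretransitive G Ω) (ht : TwoTrans G Ω) (hn : Fintype.card Ω = 7)
    {α β : Ω} (hαβ : α ≠ β) (hb : Nat.card (S2 G α β) = 2) : False := by
  classical
  have hG : Nat.card G = 84 := by
    rw [Nat.card_eq_fintype_card, card_G_eq ht hαβ, hn, hb]
  have : Fact (Nat.Prime 7) := ⟨by norm_num⟩
  let P : Sylow 7 G := default
  have hfac : Nat.factorization 84 7 = 1 := by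
    have h84 : (84 : ℕ) = 7 ^ 1 * 12 := by norm_num
    rw [h84, Nat.factorization_mul (by norm_num) (by norm_num),
      Nat.Prime.factorization_pow (by norm_num)]
    have h12 : Nat.factorization 12 7 = 0 :=
      Nat.factorization_eq_zero_of_not_dvd (by norm_num)
    simp [h12]
  have hP : Nat.card (P : Subgroup G) = 7 := by
    rw [Sylow.card_eq_multiplicity, hG, hfac, pow_one]
  have hind : (P : Subgroup G).index = 12 := by
    have h1 := Subgroup.card_mul_index (P : Subgroup G)
    rw [hP, hG] at h1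
    omega
  have h1 : Nat.card (Sylow 7 G) ∣ 12 := by
    rw [← hind]
    exact P.card_dvd_index
  have h2 : Nat.card (Sylow 7 G) ≡ 1 [MOD 7] := card_sylow_modEq_one 7 G
  have h3 : Nat.card (Sylow 7 G) = 1 := by
    have hle := Nat.le_of_dvd (by norm_num) h1
    have hpos : 0 < Nat.card (Sylow 7 G) := Nat.card_pos
    unfold Nat.ModEq at h2
    generalize Nat.card (Sylow 7 G) = m at *
    interval_cases m <;> first | rfl | (exfalso; revert h2; decide) | (exfalso; revert h1; decide)
  have hsub : Subsingleton (Sylow 7 G) := (Nat.card_eq_one_iff_unique.1 h3).1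
  have hnorm : (P : Subgroup G).Normal := Sylow.normal_of_subsingleton P
  -- regular orbit
  have horbP : ∀ ω : Ω, ∃ u ∈ (P : Subgroup G), u • α = ω := by
    have hmul := card_orbF_mul_stF (P : Subgroup G) α
    rw [hP] at hmul
    have hdvd : (orbF (P : Subgroup G) α).card ∣ 7 := ⟨_, hmul.symm⟩
    rcases (Nat.dvd_prime (by norm_num)).1 hdvd with h1' | h7
    · exfalso
      have hαL : ∀ u ∈ (P : Subgroup G), u • α = α := by
        intro u hu
        obtain ⟨z, hz⟩ := Finset.card_eq_one.1 h1'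
        have h5 : α ∈ orbF (P : Subgroup G) α := self_mem_orbF _ _
        have h6 : u • α ∈ orbF (P : Subgroup G) α := mem_orbF.2 ⟨u, hu, rfl⟩
        rw [hz, mem_singleton] at h5 h6
        exact h6.trans h5.symm
      have hall : ∀ u ∈ (P : Subgroup G), u = 1 := by
        intro u hu
        apply FaithfulSMul.eq_of_smul_eq_smul (α := Ω)
        intro ω
        obtain ⟨k, rfl⟩ := htr.exists_smul_eq α ω
        have hconj : k⁻¹ * u * k ∈ (P : Subgroup G) := by
          have := hnorm.conj_mem u hu k⁻¹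
          simpa using this
        have h8 := hαL _ hconj
        rw [one_smul]
        calc u • k • α = (k * (k⁻¹ * u * k)) • α := by
              rw [← mul_smul]; congr 1; group
          _ = k • (k⁻¹ * u * k) • α := mul_smul _ _ _
          _ = k • α := by rw [h8]
      have hbot : (P : Subgroup G) = ⊥ := by
        rw [eq_bot_iff]
        intro u hu
        simpa using hall u hu
      rw [hbot] at hP
      simp at hP
    · have huniv : orbF (P : Subgroup G) α = univ := by
        apply Finset.eq_univ_of_card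
        rw [h7, hn]
      intro ω
      have : ω ∈ orbF (P : Subgroup G) α := by rw [huniv]; exact mem_univ _
      exact mem_orbF.1 this
  -- the stabilizer embeds in Aut(P)
  have hcyc : IsCyclic (P : Subgroup G) := isCyclic_of_prime_card hP
  have haut : Nat.card (MulAut (P : Subgroup G)) = 6 := by
    rw [IsCyclic.card_mulAut, hP]
    rfl
  let φ : stabilizer G α → MulAut (P : Subgroup G) := fun h => MulAut.conjNormal (h : G)
  have hφ : Function.Injective φ := by
    intro h₁ h₂ hh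
    apply Subtype.ext
    have hcomm : ∀ u ∈ (P : Subgroup G), (h₁ : G) * u * (h₁ : G)⁻¹ = (h₂ : G) * u * (h₂ : G)⁻¹ := by
      intro u hu
      have := congrArg (fun f => ((f ⟨u, hu⟩ : (P : Subgroup G)) : G)) hh
      simpa [φ, MulAut.conjNormal_apply] using this
    apply FaithfulSMul.eq_of_smul_eq_smul (α := Ω)
    intro ω
    obtain ⟨u, hu, rfl⟩ := horbP ω
    have h5 := hcomm u hu
    have h6 : (h₁ : G) • α = α := h₁.2
    have h7 : (h₂ : G) • α = α := h₂.2
    have e1 : (h₁ : G) • u • α = ((h₁ : G) * u * (h₁ : G)⁻¹) • α := by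
      rw [mul_smul, mul_smul, inv_smul_eq_iff.2 h6.symm]
    have e2 : (h₂ : G) • u • α = ((h₂ : G) * u * (h₂ : G)⁻¹) • α := by
      rw [mul_smul, mul_smul, inv_smul_eq_iff.2 h7.symm]
    rw [e1, e2, h5]
  have hle : Nat.card (stabilizer G α) ≤ 6 := by
    rw [← haut]
    exact Nat.card_le_card_of_injective φ hφ
  have hst := Subgroup.card_mul_index (stabilizer G α)
  rw [index_stabilizer, orbit_eq_univ, Set.ncard_univ, Nat.card_eq_fintype_card (α := Ω), hn, hG] at hst
  omega

end tcase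

section mainineq
variable {G Ω : Type*} [Group G] [Fintype G] [MulAction G Ω] [FaithfulSMul G Ω] [Fintype Ω]

theorem main_ineq (htr : IsPretransitive G Ω) (ht : TwoTrans G Ω) (hn : 7 ≤ Fintype.card Ω)
    {α β : Ω} (hαβ : α ≠ β) (hb : 2 ≤ Nat.card (S2 G α β)) :
    (2 * Nat.card (S2 G α β) : ℚ) ≤ Fintype.card Ω * sumS G α β := by
  classical
  have hn0 : 0 < Fintype.card Ω := by omega
  set ℓ := (Ln G α β).card with hℓdef
  have hℓ : ∀ a c : Ω, a ≠ c → (Ln G a c).card = ℓ := fun a c h => card_Ln_eq ht h hαβ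
  have h2ℓ : 2 ≤ ℓ := two_le_ell hαβ
  have hbd : ∀ g ∈ S2 G α β, g ≠ 1 → (ℓ - 1) * fx (Ω := Ω) g + 1 ≤ Fintype.card Ω :=
    fun g _ hg => lines_bound ht hg hℓ
  by_cases h4 : 4 ≤ ℓ
  · apply case_ell4 hαβ hb hn0
    intro g hg h1
    have h5 := hbd g hg h1
    have h6 : 3 * fx (Ω := Ω) g ≤ (ℓ - 1) * fx (Ω := Ω) g := Nat.mul_le_mul_right _ (by omega)
    omega
  have hW := sum_fx_bs_eq (Ω := Ω) (S2 G α β)
  set μ := Nat.card (orbitRel.Quotient ↥(S2 G α β) Ω) with hμdef
  by_cases hμ : 2 * μ ≤ Fintype.card Ω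
  · exact case_tangent hαβ hW hn0 hμ
  have hZ := Zsum_eq hW
  by_cases hall : ∀ x : Ω, (orbF (S2 G α β) x).card ≤ 2
  · have hH2 := H2_of_orb ht hαβ hall
    have hb2 : Nat.card (S2 G α β) ≤ 2 := hH2.card_le ht hαβ
    have hb3 : Nat.card (S2 G α β) = 2 := by omega
    apply case_b2 hαβ hb3 hn0
    rcases (show ℓ = 2 ∨ ℓ = 3 by omega) with h | h
    · rw [← hℓdef, h]; omega
    · have hZ0 : Zsum G α β = 0 := by
        unfold Zsum
        apply Finset.sum_eq_zero
        intro x hx
        rw [mem_compl] at hx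
        have h5 := two_le_orb_of_notMem hx
        have h6 := hall x
        have h7 : (orbF (S2 G α β) x).card = 2 := by omega
        rw [h7]
        norm_num
      rw [hZ0] at hZ
      have h8 : (Fintype.card Ω : ℚ) + 3 = 2 * μ := by
        rw [← hℓdef, h] at hZ
        push_cast at hZ
        linarith
      have h9 : Fintype.card Ω + 3 = 2 * μ := by exact_mod_cast h8
      have h10 : Fintype.card Ω ≠ 7 := fun h7 => no_84 htr ht h7 hαβ hb3
      rw [← hℓdef, h]
      omega
  · push Not at hall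
    obtain ⟨x₀, hx₀⟩ := hall
    have hx₀' : 3 ≤ (orbF (S2 G α β) x₀).card := hx₀
    by_cases hZ1 : Zsum G α β ≤ 1
    · exact (t_case ht hn hαβ hZ1 hx₀').elim
    · push Not at hZ1
      rw [hZ, ← hℓdef] at hZ1
      have h8 : 2 * (μ : ℚ) + 1 < (Fintype.card Ω : ℚ) + ℓ := by linarith
      have h9 : 2 * μ + 1 < Fintype.card Ω + ℓ := by exact_mod_cast h8
      have h10 : ℓ = 3 := by omega
      have h11 : 2 * μ = Fintype.card Ω + 1 := by omega
      apply case_titu hαβ hb ?_ hn0 ?_
      · rw [hW, ← mul_assoc, h11]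
      · intro g hg h1
        have h5 := hbd g hg h1
        rw [h10] at h5
        exact h5

end mainineq

/-- Let a finite group G act faithfully and transitively on a set with n ≥ 7 points. Then either G is a Frobenius permutation group (Frobenius as a permutation group: transitive, some non-identity element fixes a point, and no non-identity element fixes two points) of order n(n − 1)/a with a ∈ {1, 2}, in which case exactly a|G|/n of its elements are derangements, or the number of derangements is at least 2|G|/n. (Equality does occur: PSL₃(2) acting on the 7 points of the Fano plane has exactly 2|G|/7 derangements.) -/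
theorem result {G Ω : Type*} [Group G] [Finite G] [MulAction G Ω] [FaithfulSMul G Ω] [Fintype Ω] (htr : MulAction.IsPretransitive G Ω) (hn : 7 ≤ Fintype.card Ω) :
    (∃ a : ℕ, (a = 1 ∨ a = 2) ∧ (MulAction.IsPretransitive G Ω ∧ (∃ g : G, g ≠ 1 ∧ ∃ ω : Ω, g • ω = ω) ∧ ∀ g : G, g ≠ 1 → Nat.card (MulAction.fixedBy Ω g) ≤ 1) ∧ a * Nat.card G = Fintype.card Ω * (Fintype.card Ω - 1) ∧ Fintype.card Ω * Nat.card {g : G // ∀ ω : Ω, g • ω ≠ ω} = a * Nat.card G) ∨
    2 * Nat.card G ≤ Fintype.card Ω * Nat.card {g : G // ∀ ω : Ω, g • ω ≠ ω} := by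
  classical
  letI := Fintype.ofFinite G
  have hne : Nonempty Ω := Fintype.card_pos_iff.1 (by omega)
  by_cases h2 : TwoTrans G Ω
  · obtain ⟨α, β, hαβ⟩ := Fintype.exists_pair_of_one_lt_card (α := Ω) (by omega)
    have hGcard := card_G_eq h2 hαβ
    have hform := derange_formula (G := G) (Ω := Ω) htr
    have hoff : (univ : Finset Ω).offDiag.card = Fintype.card Ω * (Fintype.card Ω - 1) := by
      rw [Finset.offDiag_card, Finset.card_univ, Nat.mul_sub, mul_one]
    have hsum : (∑ p ∈ (univ : Finset Ω).offDiag, sumS G p.1 p.2) =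
        ((Fintype.card Ω * (Fintype.card Ω - 1) : ℕ) : ℚ) * sumS G α β := by
      rw [Finset.sum_congr rfl (g := fun _ => sumS G α β)]
      · rw [Finset.sum_const, hoff, nsmul_eq_mul]
      · intro p hp
        rw [Finset.mem_offDiag] at hp
        exact sumS_eq h2 hp.2.2 hαβ
    rw [hsum] at hform
    rw [card_derange, Nat.card_eq_fintype_card (α := G)]
    by_cases hb : 2 ≤ Nat.card (S2 G α β)
    · right
      have hmain := main_ineq htr h2 hn hαβ hb
      rw [hGcard]
      have hq : ((2 * (Fintype.card Ω * (Fintype.card Ω - 1) * Nat.card (S2 G α β)) : ℕ) : ℚ) ≤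
          ((Fintype.card Ω * (univ.filter (fun g : G => fx (Ω := Ω) g = 0)).card : ℕ) : ℚ) := by
        rw [Nat.cast_mul (Fintype.card Ω), hform]
        have hN : (0 : ℚ) ≤ ((Fintype.card Ω * (Fintype.card Ω - 1) : ℕ) : ℚ) := by positivity
        have := mul_le_mul_of_nonneg_left hmain hN
        push_cast at this ⊢
        nlinarith
      exact_mod_cast hq
    · left
      have hpos : 0 < Nat.card (S2 G α β) := Nat.card_pos
      have hb1 : Nat.card (S2 G α β) = 1 := by omega
      have htriv : ∀ a c : Ω, a ≠ c → ∀ g ∈ S2 G a c, g = 1 := by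
        intro a c hac g hg
        have h1 : Nat.card (S2 G a c) = 1 := by rw [card_S2_eq h2 hac hαβ, hb1]
        have h3 := Subgroup.eq_bot_of_card_eq (S2 G a c) h1
        rw [h3] at hg
        simpa using hg
      refine ⟨1, Or.inl rfl, ⟨htr, ?_, ?_⟩, ?_, ?_⟩
      · obtain ⟨γ, hγ⟩ : ∃ γ : Ω, γ ∉ ({α, β} : Finset Ω) := by
          by_contra hcon
          push Not at hcon
          have : (univ : Finset Ω) ⊆ {α, β} := fun x _ => hcon x
          have h1 := Finset.card_le_card this
          have h3 : ({α, β} : Finset Ω).card ≤ 2 := Finset.card_le_two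
          rw [Finset.card_univ] at h1
          omega
        simp only [mem_insert, mem_singleton, not_or] at hγ
        obtain ⟨k, hk1, hk2⟩ := h2 α β α γ hαβ (Ne.symm hγ.1)
        refine ⟨k, ?_, α, hk1⟩
        rintro rfl
        rw [one_smul] at hk2
        exact hγ.2 hk2.symm
      · intro g hg
        by_contra hcon
        push Not at hcon
        have : Nontrivial (fixedBy Ω g) := (Finite.one_lt_card_iff_nontrivial).1 hcon
        obtain ⟨⟨x, hx⟩, ⟨y, hy⟩, hxy⟩ := exists_pair_ne (fixedBy Ω g)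
        have hxy' : x ≠ y := fun h => hxy (Subtype.ext h)
        exact hg (htriv x y hxy' g (mem_S2.2 ⟨hx, hy⟩))
      · rw [hGcard, hb1]; ring
      · have hS : sumS G α β = 1 / (Fintype.card Ω : ℚ) := by
          rw [sumS_split]
          have : ∑ g ∈ (bs (S2 G α β)).erase 1, (1 : ℚ) / fx (Ω := Ω) g = 0 := by
            apply Finset.sum_eq_zero
            intro g hg
            rw [mem_erase, mem_bs] at hg
            exact absurd (htriv α β hαβ g hg.2) hg.1
          rw [this, add_zero]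
        rw [hS] at hform
        have hn' : (0 : ℚ) < Fintype.card Ω := by
          have : 0 < Fintype.card Ω := by omega
          exact_mod_cast this
        have hq : ((Fintype.card Ω * (univ.filter (fun g : G => fx (Ω := Ω) g = 0)).card : ℕ) : ℚ) =
            ((1 * Fintype.card G : ℕ) : ℚ) := by
          rw [Nat.cast_mul (Fintype.card Ω), hform, hGcard, hb1]
          push_cast
          field_simp
        exact_mod_cast hq
  · right
    exact cameron_cohen htr h2

end Cfsg.Agent.S5730
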