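import Mathlib
import Cfsg.Statements.S5737
import Cfsg.Agent.Lib.SzBinF
import Cfsg.Agent.Lib.SuzukiIso

set_option autoImplicit false
open Cfsg

namespace Cfsg.Agent.S5737

/-- Let G = Sz(q) be a Suzuki group, q = 2^(2a+1) with a ≥ 1 (realised inside Sp₄ over the field with q elements), and let H be a proper subgroup of G. Then the action of G on the cosets of H is binary if and only if H is trivial or H is the centre of a Sylow 2-subgroup of G. Here an action is binary (relational complexity 2) when, for every n ≥ 2 and all n-tuples I, J of points, if for every pair of positions some group element carries the corresponding pair of entries of I to those of J, then a single group element carries I to J. -/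
theorem result {F : Type*} [Field F] [Fintype F] (a : ℕ) (ha : 1 ≤ a) (hF : Fintype.card F = 2 ^ (2 * a + 1))
    (H : Subgroup (Cfsg.Lie.Sz F (2 ^ (a + 1)))) (hH : H ≠ ⊤) :
    (∀ (n : ℕ) (I J : Fin n → (Cfsg.Lie.Sz F (2 ^ (a + 1))) ⧸ H), 2 ≤ n →
        (∀ i j : Fin n, i ≠ j → ∃ g : (Cfsg.Lie.Sz F (2 ^ (a + 1))), g • I i = J i ∧ g • I j = J j) → ∃ g : (Cfsg.Lie.Sz F (2 ^ (a + 1))), ∀ i, g • I i = J i) ↔
      (H = ⊥ ∨ ∃ P : Sylow 2 (Cfsg.Lie.Sz F (2 ^ (a + 1))), H = (Subgroup.center (P : Subgroup (Cfsg.Lie.Sz F (2 ^ (a + 1))))).map (P : Subgroup (Cfsg.Lie.Sz F (2 ^ (a + 1)))).subtype) := by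
  haveI : Cfsg.Agent.Lib.Suzuki.SzHyp F a := ⟨ha, hF⟩
  haveI : CharP F 2 := Cfsg.Agent.Lib.Suzuki.charP_two F a
  let e := (Cfsg.Agent.Lib.SuzukiIso.szEquiv (F := F) (m := a))
  haveI : Finite (Cfsg.Lie.Sz F (2 ^ (a + 1))) := Finite.of_equiv _ e.toEquiv
  let H₀ : Subgroup (Cfsg.Sz F a) := H.map e.symm.toMonoidHom
  have hH₀e : H₀.map e.toMonoidHom = H := by
    ext x
    constructor
    · rintro ⟨y, ⟨z, hz, rfl⟩, rfl⟩
      have : e (e.symm z) = z := e.apply_symm_apply z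
      change e (e.symm z) ∈ H
      rwa [this]
    · intro hx
      refine ⟨e.symm x, ⟨x, hx, rfl⟩, ?_⟩
      exact e.apply_symm_apply x
  have hH₀ : H₀ ≠ ⊤ := by
    intro h
    apply hH
    rw [← hH₀e, h]
    ext x
    constructor
    · intro _; exact Subgroup.mem_top x
    · intro _
      exact ⟨e.symm x, Subgroup.mem_top _, e.apply_symm_apply x⟩
  have key := Cfsg.Agent.Lib.SzBin.isBinary_iff (H := H₀) hH₀
  have h1 : Cfsg.Agent.Lib.SzBin.IsBinary H ↔ Cfsg.Agent.Lib.SzBin.IsBinary H₀ := by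
    constructor
    · intro h
      exact Cfsg.Agent.Lib.SzBin.IsBinary.map_equiv h e.symm
    · intro h
      have := Cfsg.Agent.Lib.SzBin.IsBinary.map_equiv h e
      rwa [hH₀e] at this
  have h2 : H₀ = ⊥ ↔ H = ⊥ := by
    constructor
    · intro h
      rw [← hH₀e, h, Subgroup.map_bot]
    · intro h
      change H.map e.symm.toMonoidHom = ⊥
      rw [h, Subgroup.map_bot]
  have h3 : (∃ P : Sylow 2 (Cfsg.Sz F a), H₀ = (Subgroup.center (P : Subgroup (Cfsg.Sz F a))).map (P : Subgroup (Cfsg.Sz F a)).subtype) ↔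
      (∃ P : Sylow 2 (Cfsg.Lie.Sz F (2 ^ (a + 1))), H = (Subgroup.center (P : Subgroup (Cfsg.Lie.Sz F (2 ^ (a + 1))))).map (P : Subgroup (Cfsg.Lie.Sz F (2 ^ (a + 1)))).subtype) := by
    constructor
    · intro h
      have := Cfsg.Agent.Lib.SzBin.isZ_map_equiv e h
      rwa [hH₀e] at this
    · intro h
      exact Cfsg.Agent.Lib.SzBin.isZ_map_equiv e.symm h
  have h1' : (∀ (n : ℕ) (I J : Fin n → (Cfsg.Lie.Sz F (2 ^ (a + 1))) ⧸ H), 2 ≤ n →
        (∀ i j : Fin n, i ≠ j → ∃ g : (Cfsg.Lie.Sz F (2 ^ (a + 1))), g • I i = J i ∧ g • I j = J j) → ∃ g : (Cfsg.Lie.Sz F (2 ^ (a + 1))), ∀ i, g • I i = J i) ↔ Cfsg.Agent.Lib.SzBin.IsBinary H := Iff.rfl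
  rw [h1', h1, key, h2, h3]

end Cfsg.Agent.S5737
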