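import Cfsg.Statements.S5738

set_option autoImplicit false
open Cfsg

namespace Cfsg.Agent.H97.Singer

variable {F K : Type*} [Field F] [Field K] [Algebra F K]

/-- The Singer group. -/
noncomputable abbrev singer (F K : Type*) [Field F] [Field K] [Algebra F K] : Subgroup (Module.End F K)ˣ :=
  (Units.map ((Algebra.lmul F K : K →ₐ[F] Module.End F K) : K →* Module.End F K)).range

theorem mem_singer_iff (g : (Module.End F K)ˣ) :
    g ∈ singer F K ↔ ∃ a : Kˣ, ∀ x, (g : Module.End F K) x = a * x := by
  constructor
  · rintro ⟨a, rfl⟩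
    exact ⟨a, fun x => rfl⟩
  · rintro ⟨a, ha⟩
    refine ⟨a, Units.ext ?_⟩
    ext x
    exact (ha x).symm

/-- The semilinear map `x ↦ c * σ x` as a unit. -/
noncomputable def semi (c : Kˣ) (σ : K ≃ₐ[F] K) : (Module.End F K)ˣ where
  val :=
    { toFun := fun x => c * σ x
      map_add' := fun x y => by simp [mul_add]
      map_smul' := fun r x => by simp }
  inv :=
    { toFun := fun x => σ.symm (c⁻¹ * x)
      map_add' := fun x y => by simp [mul_add]
      map_smul' := fun r x => by simp }
  val_inv := by
    ext x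
    simp
  inv_val := by
    ext x
    simp

theorem semi_apply (c : Kˣ) (σ : K ≃ₐ[F] K) (x : K) : (semi c σ : Module.End F K) x = c * σ x := rfl

theorem semi_inv_apply (c : Kˣ) (σ : K ≃ₐ[F] K) (x : K) :
    (((semi c σ)⁻¹ : (Module.End F K)ˣ) : Module.End F K) x = σ.symm (c⁻¹ * x) := rfl

theorem semi_inv_semi (c : Kˣ) (σ : K ≃ₐ[F] K) (x : K) :
    (((semi c σ)⁻¹ : (Module.End F K)ˣ) : Module.End F K) ((semi c σ : Module.End F K) x) = x := by
  rw [semi_inv_apply, semi_apply]
  simp

theorem semi_injective : Function.Injective (fun p : Kˣ × (K ≃ₐ[F] K) => semi p.1 p.2) := by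
  rintro ⟨c, σ⟩ ⟨d, τ⟩ h
  have h1 : ∀ x, (c : K) * σ x = d * τ x := fun x => by
    have := congrArg (fun u : (Module.End F K)ˣ => (u : Module.End F K) x) h
    exact this
  have hcd : c = d := by
    have := h1 1
    simp only [map_one, mul_one] at this
    exact Units.ext this
  subst hcd
  have hst : σ = τ := by
    ext x
    exact mul_left_cancel₀ c.ne_zero (h1 x)
  rw [hst]

theorem semi_mem_normalizer (c : Kˣ) (σ : K ≃ₐ[F] K) :
    semi c σ ∈ Subgroup.normalizer ((singer F K : Subgroup (Module.End F K)ˣ) : Set (Module.End F K)ˣ) := by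
  rw [Subgroup.mem_normalizer_iff]
  intro h
  constructor
  · intro hh
    obtain ⟨a, ha⟩ := (mem_singer_iff h).mp hh
    rw [mem_singer_iff]
    refine ⟨Units.map (σ : K →* K) a, fun x => ?_⟩
    show (semi c σ : Module.End F K) ((h : Module.End F K) ((((semi c σ)⁻¹ : (Module.End F K)ˣ) : Module.End F K) x)) = _
    rw [ha, semi_inv_apply, semi_apply]
    simp [mul_comm]
    have hc : (c : K) ≠ 0 := c.ne_zero
    field_simp
  · intro hh
    obtain ⟨a, ha⟩ := (mem_singer_iff _).mp hh
    rw [mem_singer_iff]
    refine ⟨Units.map (σ.symm : K →* K) a, fun x => ?_⟩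
    have h1 := ha ((semi c σ : Module.End F K) x)
    have h2 : ((semi c σ * h * (semi c σ)⁻¹ : (Module.End F K)ˣ) : Module.End F K) ((semi c σ : Module.End F K) x)
        = (semi c σ : Module.End F K) ((h : Module.End F K) x) := by
      show (semi c σ : Module.End F K) ((h : Module.End F K)
        ((((semi c σ)⁻¹ : (Module.End F K)ˣ) : Module.End F K) ((semi c σ : Module.End F K) x))) = _
      rw [semi_inv_semi]
    rw [h2, semi_apply, semi_apply] at h1
    have h3 : σ ((h : Module.End F K) x) = a * σ x := by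
      have := mul_left_cancel₀ c.ne_zero (h1.trans (by ring : _ = (c : K) * ((a : K) * σ x)))
      exact this
    apply σ.injective
    rw [h3]
    simp

theorem normalizer_eq_semi (g : (Module.End F K)ˣ)
    (hg : g ∈ Subgroup.normalizer ((singer F K : Subgroup (Module.End F K)ˣ) : Set (Module.End F K)ˣ))
    [FiniteDimensional F K] :
    ∃ (c : Kˣ) (σ : K ≃ₐ[F] K), g = semi c σ := by
  classical
  rw [Subgroup.mem_normalizer_iff] at hg
  set G : Module.End F K := (g : Module.End F K) with hG
  set Gi : Module.End F K := ((g⁻¹ : (Module.End F K)ˣ) : Module.End F K) with hGi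
  have hGGi : ∀ x, G (Gi x) = x := fun x => by
    have := congrArg (fun u : (Module.End F K)ˣ => (u : Module.End F K) x) (mul_inv_cancel g)
    exact this
  have hGiG : ∀ x, Gi (G x) = x := fun x => by
    have := congrArg (fun u : (Module.End F K)ˣ => (u : Module.End F K) x) (inv_mul_cancel g)
    exact this
  -- the map τ
  let τ : K → K := fun a => G (a * Gi 1)
  have hτ : ∀ a y, G (a * Gi y) = τ a * y := by
    intro a y
    by_cases ha : a = 0
    · simp [ha, τ]
    · let ua : Kˣ := Units.mk0 a ha
      have hmem : (Units.map ((Algebra.lmul F K : K →ₐ[F] Module.End F K) : K →* Module.End F K)) ua ∈ singer F K :=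
        ⟨ua, rfl⟩
      have h1 := (hg _).mp hmem
      obtain ⟨b, hb⟩ := (mem_singer_iff _).mp h1
      have h2 : ∀ y, G (a * Gi y) = b * y := fun y => hb y
      have h3 := h2 1
      rw [mul_one] at h3
      show G (a * Gi y) = G (a * Gi 1) * y
      rw [h2, h3]
  have hτ1 : τ 1 = 1 := by simp [τ, hGGi]
  have hτmul : ∀ a b, τ (a * b) = τ a * τ b := by
    intro a b
    have h1 : τ (a * b) = G (a * (b * Gi 1)) := by simp [τ, mul_assoc]
    have h2 : b * Gi 1 = Gi (τ b) := by
      apply (show Function.Injective G from fun x y h => by rw [← hGiG x, h, hGiG])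
      rw [hGGi]
    rw [h1, h2, hτ]
  have hτadd : ∀ a b, τ (a + b) = τ a + τ b := by
    intro a b
    simp [τ, add_mul]
  have hτsmul : ∀ (r : F) a, τ (r • a) = r • τ a := by
    intro r a
    simp only [τ, smul_mul_assoc, map_smul]
  let τhom : K →ₐ[F] K :=
    { toFun := τ
      map_one' := hτ1
      map_mul' := hτmul
      map_zero' := by simp [τ]
      map_add' := hτadd
      commutes' := fun r => by
        rw [Algebra.algebraMap_eq_smul_one, hτsmul, hτ1] }
  have hτinj : Function.Injective τhom := τhom.toRingHom.injective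
  have hτsurj : Function.Surjective τhom :=
    (LinearMap.injective_iff_surjective (f := τhom.toLinearMap)).mp hτinj
  let σ : K ≃ₐ[F] K := AlgEquiv.ofBijective τhom ⟨hτinj, hτsurj⟩
  have hσ : ∀ x, σ x = τ x := fun x => rfl
  have hG10 : G 1 ≠ 0 := by
    intro h
    have := hGiG 1
    rw [h, map_zero] at this
    exact zero_ne_one this
  refine ⟨Units.mk0 (G 1) hG10, σ, Units.ext ?_⟩
  ext x
  show G x = G 1 * σ x
  have h1 := hτ x (G 1)
  rw [hGiG, mul_one] at h1
  rw [h1, hσ, mul_comm]

end Cfsg.Agent.H97.Singer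

namespace Cfsg.Agent.S5738

/-- Let F ⊆ K be finite fields with |F| = q and [K : F] = n ≥ 2, so |K| = q^n. Regard K as an n-dimensional F-vector space; the multiplications by non-zero elements of K form a cyclic subgroup of GL_F(K) of order q^n − 1 acting regularly on the non-zero vectors (a Singer group). Its normaliser in GL_F(K) has order n·(q^n − 1). -/
theorem result {F K : Type*} [Field F] [Fintype F] [Field K] [Fintype K] [Algebra F K] (n : ℕ) (hn : 2 ≤ n) (hdim : Module.finrank F K = n) :
    Nat.card (Subgroup.normalizer (((Units.map ((Algebra.lmul F K : K →ₐ[F] Module.End F K) : K →* Module.End F K)).range : Subgroup (Module.End F K)ˣ) : Set (Module.End F K)ˣ)) = n * (Fintype.card K - 1) := by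
  classical
  open Cfsg.Agent.H97.Singer in
  let f : Kˣ × (K ≃ₐ[F] K) → Subgroup.normalizer ((singer F K : Subgroup (Module.End F K)ˣ) : Set (Module.End F K)ˣ) :=
    fun p => ⟨semi p.1 p.2, semi_mem_normalizer p.1 p.2⟩
  have hf : Function.Bijective f := by
    constructor
    · intro p q h
      exact Cfsg.Agent.H97.Singer.semi_injective (congrArg Subtype.val h)
    · rintro ⟨g, hg⟩
      obtain ⟨c, σ, rfl⟩ := Cfsg.Agent.H97.Singer.normalizer_eq_semi g hg
      exact ⟨(c, σ), rfl⟩
  have hgal : IsGalois F K := inferInstance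
  rw [← Nat.card_congr (Equiv.ofBijective f hf), Nat.card_prod, IsGalois.card_aut_eq_finrank, hdim,
    Nat.card_eq_fintype_card, Fintype.card_units, mul_comm]

end Cfsg.Agent.S5738
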