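import Cfsg.Statements.S5739

set_option autoImplicit false
open Cfsg

namespace Cfsg.Agent.S5739

/-- Let F ⊆ K be finite fields with |F| = q and [K : F] = n ≥ 2, and let M ≤ GL_F(K) be the Singer group of multiplications by non-zero elements of K. If g ∈ GL_F(K) does not normalise M, then the order of M ∩ gMg⁻¹ divides q^r − 1 for some proper divisor r of n. In particular, when n is prime, that order divides q − 1. -/
theorem result {F K : Type*} [Field F] [Fintype F] [Field K] [Fintype K] [Algebra F K] (n : ℕ) (hn : 2 ≤ n) (hdim : Module.finrank F K = n)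
    (g : (Module.End F K)ˣ) (hg : ((Units.map ((Algebra.lmul F K : K →ₐ[F] Module.End F K) : K →* Module.End F K)).range).map (MulAut.conj g).toMonoidHom ≠ (Units.map ((Algebra.lmul F K : K →ₐ[F] Module.End F K) : K →* Module.End F K)).range) :
    ∃ r : ℕ, 1 ≤ r ∧ r ∣ n ∧ r < n ∧ Nat.card ↥(((Units.map ((Algebra.lmul F K : K →ₐ[F] Module.End F K) : K →* Module.End F K)).range).map (MulAut.conj g).toMonoidHom ⊓ (Units.map ((Algebra.lmul F K : K →ₐ[F] Module.End F K) : K →* Module.End F K)).range) ∣ Fintype.card F ^ r - 1 := by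
  classical
  set L : K →ₐ[F] Module.End F K := Algebra.lmul F K with hL
  set Lu : Kˣ →* (Module.End F K)ˣ := Units.map (L : K →* Module.End F K) with hLu
  set M := Lu.range with hM
  have hLinj : Function.Injective L := Algebra.lmul_injective
  have hLuinj : Function.Injective Lu := by
    intro a b h
    apply Units.ext
    apply hLinj
    exact congrArg (fun u : (Module.End F K)ˣ => (u : Module.End F K)) h
  have hLuval : ∀ u : Kˣ, ((Lu u : (Module.End F K)ˣ) : Module.End F K) = L (u : K) := fun _ => rfl
  let ψ : K → Module.End F K := fun y => (g : Module.End F K) * L y * ((g⁻¹ : (Module.End F K)ˣ) : Module.End F K)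
  have hgg : (g : Module.End F K) * ((g⁻¹ : (Module.End F K)ˣ) : Module.End F K) = 1 := by
    rw [← Units.val_mul, mul_inv_cancel, Units.val_one]
  have hgg' : ((g⁻¹ : (Module.End F K)ˣ) : Module.End F K) * (g : Module.End F K) = 1 := by
    rw [← Units.val_mul, inv_mul_cancel, Units.val_one]
  have hψmul : ∀ x y, ψ (x * y) = ψ x * ψ y := by
    intro x y
    simp only [ψ, map_mul]
    calc (g : Module.End F K) * (L x * L y) * ((g⁻¹ : (Module.End F K)ˣ) : Module.End F K)
        = (g : Module.End F K) * L x * 1 * L y * ((g⁻¹ : (Module.End F K)ˣ) : Module.End F K) := by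
          simp only [mul_one, mul_assoc]
      _ = _ := by rw [← hgg']; simp only [mul_assoc]
  have hψadd : ∀ x y, ψ (x + y) = ψ x + ψ y := by
    intro x y
    simp only [ψ, map_add, mul_add, add_mul]
  have hψinj : Function.Injective ψ := by
    intro x y h
    apply hLinj
    calc L x = ((g⁻¹ : (Module.End F K)ˣ) : Module.End F K) * ψ x * (g : Module.End F K) := by
          simp only [ψ]
          calc L x = 1 * L x * 1 := by simp
            _ = _ := by rw [← hgg']; simp only [mul_assoc]
      _ = _ := by rw [h]
      _ = L y := by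
          simp only [ψ]
          calc _ = (((g⁻¹ : (Module.End F K)ˣ) : Module.End F K) * (g : Module.End F K)) * L y *
                (((g⁻¹ : (Module.End F K)ˣ) : Module.End F K) * (g : Module.End F K)) := by simp only [mul_assoc]
            _ = L y := by rw [hgg']; simp
  let S : Set K := {a | ∃ u : Kˣ, (u : K) = a ∧ Lu u ∈ M.map (MulAut.conj g).toMonoidHom}
  let E : IntermediateField F K := IntermediateField.adjoin F S
  have hP : ∀ x ∈ E, ∃ y, L x = ψ y := by
    intro x hx
    induction hx using IntermediateField.adjoin_induction with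
    | mem x hx =>
      obtain ⟨u, rfl, hu⟩ := hx
      obtain ⟨v, ⟨w, rfl⟩, hv⟩ := hu
      refine ⟨(w : K), ?_⟩
      have := congrArg (fun u : (Module.End F K)ˣ => (u : Module.End F K)) hv
      exact this.symm
    | algebraMap r =>
      refine ⟨algebraMap F K r, ?_⟩
      simp only [ψ, AlgHom.commutes]
      rw [← Algebra.commutes, mul_assoc, hgg, mul_one]
    | add x y _ _ hx hy =>
      obtain ⟨a, ha⟩ := hx
      obtain ⟨b, hb⟩ := hy
      exact ⟨a + b, by rw [map_add, hψadd, ha, hb]⟩
    | inv x _ hx =>
      obtain ⟨y, hy⟩ := hx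
      by_cases hx0 : x = 0
      · refine ⟨0, ?_⟩
        simp [hx0, ψ]
      · refine ⟨y⁻¹, ?_⟩
        have hy0 : y ≠ 0 := by
          rintro rfl
          apply hx0
          apply hLinj
          rw [hy, map_zero]
          simp [ψ]
        have h1 : L x⁻¹ * L x = 1 := by rw [← map_mul, inv_mul_cancel₀ hx0, map_one]
        have h2 : ψ y * ψ y⁻¹ = 1 := by
          rw [← hψmul, mul_inv_cancel₀ hy0]
          simp only [ψ, map_one, mul_one, hgg]
        calc L x⁻¹ = L x⁻¹ * (ψ y * ψ y⁻¹) := by rw [h2, mul_one]
          _ = (L x⁻¹ * L x) * ψ y⁻¹ := by rw [hy]; simp only [mul_assoc]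
          _ = ψ y⁻¹ := by rw [h1, one_mul]
    | mul x y _ _ hx hy =>
      obtain ⟨a, ha⟩ := hx
      obtain ⟨b, hb⟩ := hy
      exact ⟨a * b, by rw [map_mul, hψmul, ha, hb]⟩
  refine ⟨Module.finrank F E, Module.finrank_pos, ?_, ?_, ?_⟩
  · rw [← hdim, ← Module.finrank_mul_finrank F E K]
    exact Dvd.intro _ rfl
  · have hle : Module.finrank F E ≤ n := by
      rw [← hdim]
      exact Submodule.finrank_le (E.toSubalgebra.toSubmodule)
    refine lt_of_le_of_ne hle ?_
    intro heq
    apply hg
    have hEtop : E = ⊤ := by
      apply IntermediateField.eq_of_le_of_finrank_eq le_top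
      rw [heq, IntermediateField.finrank_top', hdim]
    have hP' : ∀ x : K, ∃ y, L x = ψ y := fun x => hP x (by rw [hEtop]; trivial)
    choose t ht using hP'
    have htinj : Function.Injective t := by
      intro a b hab
      apply hLinj
      rw [ht, ht, hab]
    have htsurj : Function.Surjective t := Finite.surjective_of_injective htinj
    have hψL : ∀ u : K, ∃ x, ψ u = L x := by
      intro u
      obtain ⟨x, rfl⟩ := htsurj u
      exact ⟨x, (ht x).symm⟩
    have hle2 : M.map (MulAut.conj g).toMonoidHom ≤ M := by
      rintro _ ⟨_, ⟨u, rfl⟩, rfl⟩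
      obtain ⟨x, hx⟩ := hψL (u : K)
      have hx0 : x ≠ 0 := by
        rintro rfl
        rw [map_zero] at hx
        have := hψinj (a₁ := (u : K)) (a₂ := 0) (by rw [hx]; simp [ψ])
        exact u.ne_zero this
      refine ⟨Units.mk0 x hx0, ?_⟩
      apply Units.ext
      exact hx.symm
    apply Subgroup.eq_of_le_of_card_ge hle2
    rw [Subgroup.card_map_of_injective (MulAut.conj g).injective]
  · -- the order
    set A := M.map (MulAut.conj g).toMonoidHom ⊓ M with hA
    have hAcomap : (A.comap Lu).map Lu = A := by
      rw [Subgroup.map_comap_eq, inf_eq_right.mpr]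
      exact inf_le_right
    have hcard1 : Nat.card A = Nat.card (A.comap Lu) := by
      rw [← hAcomap, Subgroup.card_map_of_injective hLuinj, hAcomap]
    let U : Subgroup Kˣ := (Units.map (E.val : E →ₐ[F] K).toRingHom.toMonoidHom).range
    have hle : A.comap Lu ≤ U := by
      intro u hu
      have hu1 : Lu u ∈ M.map (MulAut.conj g).toMonoidHom := hu.1
      have huE : (u : K) ∈ E := IntermediateField.subset_adjoin _ _ ⟨u, rfl, hu1⟩
      have hne : (⟨u, huE⟩ : E) ≠ 0 := by
        intro h
        exact u.ne_zero (congrArg Subtype.val h)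
      refine ⟨Units.mk0 ⟨u, huE⟩ hne, ?_⟩
      apply Units.ext
      rfl
    have hUcard : Nat.card U = Fintype.card F ^ (Module.finrank F E) - 1 := by
      have hinj : Function.Injective (Units.map (E.val : E →ₐ[F] K).toRingHom.toMonoidHom) := by
        intro a b h
        apply Units.ext
        apply Subtype.ext
        exact congrArg (fun u : Kˣ => (u : K)) h
      have h1 : Nat.card U = Nat.card Eˣ := Nat.card_congr (MonoidHom.ofInjective hinj).symm.toEquiv
      rw [h1, Nat.card_units]
      have h2 := Module.natCard_eq_pow_finrank (K := F) (V := E)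
      rw [h2, Nat.card_eq_fintype_card]
    rw [hcard1, ← hUcard]
    exact Subgroup.card_dvd_of_le hle

end Cfsg.Agent.S5739
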