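import Cfsg.Statements.S5747

set_option autoImplicit false
open Cfsg

namespace Cfsg.Agent.H97.IBIS

variable {G Ω : Type*} [Group G] [MulAction G Ω]

open MulAction

/-- pointwise stabiliser in `H` of a list -/
def stL (H : Subgroup G) : List Ω → Subgroup G
  | [] => H
  | x :: xs => stL (H ⊓ stabilizer G x) xs

/-- irredundance relative to `H` -/
def Irr (H : Subgroup G) : List Ω → Prop
  | [] => True
  | x :: xs => (¬ H ≤ stabilizer G x) ∧ Irr (H ⊓ stabilizer G x) xs

open Classical in
/-- delete redundant points -/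
noncomputable def prune (H : Subgroup G) : List Ω → List Ω
  | [] => []
  | x :: xs => if H ≤ stabilizer G x then prune H xs else x :: prune (H ⊓ stabilizer G x) xs

theorem mem_stL (H : Subgroup G) (l : List Ω) (g : G) :
    g ∈ stL H l ↔ g ∈ H ∧ ∀ x ∈ l, g • x = x := by
  induction l generalizing H with
  | nil => simp [stL]
  | cons x xs ih =>
    simp only [stL, ih, Subgroup.mem_inf, mem_stabilizer_iff, List.mem_cons, forall_eq_or_imp]
    tauto

theorem stL_le (H : Subgroup G) (l : List Ω) : stL H l ≤ H := fun g hg => ((mem_stL H l g).mp hg).1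

theorem stL_append (H : Subgroup G) (l m : List Ω) : stL H (l ++ m) = stL (stL H l) m := by
  induction l generalizing H with
  | nil => rfl
  | cons x xs ih => simpa [stL] using ih _

theorem Irr_append (H : Subgroup G) (l m : List Ω) : Irr H (l ++ m) ↔ Irr H l ∧ Irr (stL H l) m := by
  induction l generalizing H with
  | nil => simp [Irr, stL]
  | cons x xs ih =>
    simp only [List.cons_append, Irr, ih, stL]
    tauto

theorem Irr_mono_moved (H : Subgroup G) (l : List Ω) (h : Irr H l) : ∀ x ∈ l, ¬ H ≤ stabilizer G x := by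
  induction l generalizing H with
  | nil => simp
  | cons y ys ih =>
    intro x hx
    rcases List.mem_cons.mp hx with rfl | hx
    · exact h.1
    · intro hle
      exact ih _ h.2 x hx (inf_le_left.trans hle)

theorem Irr_nodup (H : Subgroup G) (l : List Ω) (h : Irr H l) : l.Nodup := by
  induction l generalizing H with
  | nil => simp
  | cons y ys ih =>
    refine List.nodup_cons.mpr ⟨?_, ih _ h.2⟩
    intro hy
    exact Irr_mono_moved _ _ h.2 y hy inf_le_right

theorem prune_irr (H : Subgroup G) (l : List Ω) : Irr H (prune H l) := by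
  classical
  induction l generalizing H with
  | nil => simp [prune, Irr]
  | cons x xs ih =>
    unfold prune
    split_ifs with h
    · exact ih H
    · exact ⟨h, ih _⟩

theorem stL_eq_of_le (H : Subgroup G) (x : Ω) (h : H ≤ stabilizer G x) :
    H ⊓ stabilizer G x = H := inf_eq_left.mpr h

theorem prune_stL (H : Subgroup G) (l : List Ω) : stL H (prune H l) = stL H l := by
  classical
  induction l generalizing H with
  | nil => simp [prune]
  | cons x xs ih =>
    unfold prune
    split_ifs with h
    · rw [ih, stL, stL_eq_of_le H x h]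
    · simp only [stL]
      exact ih _

theorem prune_length_le (H : Subgroup G) (l : List Ω) : (prune H l).length ≤ l.length := by
  classical
  induction l generalizing H with
  | nil => simp [prune]
  | cons x xs ih =>
    unfold prune
    split_ifs with h
    · exact (ih H).trans (Nat.le_succ _)
    · simpa using ih _

theorem irr_of_prune_length (H : Subgroup G) (l : List Ω) (h : (prune H l).length = l.length) : Irr H l := by
  classical
  induction l generalizing H with
  | nil => simp [Irr]
  | cons x xs ih =>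
    unfold prune at h
    split_ifs at h with hle
    · have := prune_length_le H xs
      simp only [List.length_cons] at h
      omega
    · simp only [List.length_cons, add_left_inj] at h
      exact ⟨hle, ih _ h⟩

theorem stL_perm (H : Subgroup G) {l l' : List Ω} (h : l.Perm l') : stL H l = stL H l' := by
  ext g
  simp only [mem_stL, h.mem_iff]

/-- The Fin version of irredundance. -/
theorem irr_ofFn (H : Subgroup G) {t : ℕ} (f : Fin t → Ω) :
    Irr H (List.ofFn f) ↔ ∀ i : Fin t, ∃ g ∈ H, (∀ j : Fin t, j < i → g • f j = f j) ∧ g • f i ≠ f i := by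
  induction t generalizing H with
  | zero => simp [Irr]
  | succ t ih =>
    rw [List.ofFn_succ, Irr, ih]
    constructor
    · rintro ⟨h0, hs⟩ i
      refine Fin.cases ?_ (fun i' => ?_) i
      · obtain ⟨g, hg, hgx⟩ := Set.not_subset.mp h0
        exact ⟨g, hg, fun j hj => absurd hj (Fin.not_lt_zero j), hgx⟩
      · obtain ⟨g, ⟨hg, hgs⟩, hj, hne⟩ := hs i'
        refine ⟨g, hg, fun j hji => ?_, hne⟩
        cases j using Fin.cases with
        | zero => exact hgs
        | succ j' => exact hj j' (Fin.succ_lt_succ_iff.mp hji)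
    · intro h
      constructor
      · intro hle
        obtain ⟨g, hg, _, hne⟩ := h 0
        exact hne (hle hg)
      · intro i'
        obtain ⟨g, hg, hj, hne⟩ := h i'.succ
        refine ⟨g, ⟨hg, hj 0 (Fin.succ_pos _)⟩, fun j hji => hj j.succ (Fin.succ_lt_succ_iff.mpr hji), hne⟩

/-- irredundant base, list form -/
def Base (l : List Ω) : Prop := Irr (⊤ : Subgroup G) l ∧ ∀ g : G, (∀ x ∈ l, g • x = x) → g = 1

/-- irredundant base, function form -/
def FinBase {t : ℕ} (f : Fin t → Ω) (G : Type*) [Group G] [MulAction G Ω] : Prop :=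
  (∀ g : G, (∀ i : Fin t, g • f i = f i) → g = 1) ∧
    ∀ i : Fin t, ∃ g : G, (∀ j : Fin t, j < i → g • f j = f j) ∧ g • f i ≠ f i

theorem base_ofFn {t : ℕ} (f : Fin t → Ω) : Base (G := G) (List.ofFn f) ↔ FinBase f G := by
  unfold Base FinBase
  rw [irr_ofFn]
  constructor
  · rintro ⟨h1, h2⟩
    refine ⟨fun g hg => h2 g ?_, fun i => ?_⟩
    · intro x hx
      obtain ⟨i, rfl⟩ := (List.mem_ofFn' _ _).mp hx
      exact hg i
    · obtain ⟨g, _, hg⟩ := h1 i
      exact ⟨g, hg⟩
  · rintro ⟨h1, h2⟩
    refine ⟨fun i => ?_, fun g hg => h1 g (fun i => hg _ ((List.mem_ofFn' _ _).mpr ⟨i, rfl⟩))⟩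
    obtain ⟨g, hg⟩ := h2 i
    exact ⟨g, trivial, hg⟩

theorem base_of_perm_nodup {l l' : List Ω} (hB : ∀ (t : ℕ) (f : Fin t → Ω) (σ : Equiv.Perm (Fin t)), FinBase f G → FinBase (f ∘ σ) G)
    (hl : Base (G := G) l) (hperm : l.Perm l') : Base (G := G) l' := by
  classical
  have hnd : l.Nodup := Irr_nodup _ _ hl.1
  have hnd' : l'.Nodup := hperm.nodup_iff.mp hnd
  have hlen : l'.length = l.length := hperm.length_eq.symm
  -- the permutation
  have hex : ∀ i : Fin l.length, ∃ j : Fin l.length, l.get j = l'.get (i.cast hlen.symm) := by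
    intro i
    have hmem : l'.get (i.cast hlen.symm) ∈ l := hperm.mem_iff.mpr (List.get_mem _ _)
    obtain ⟨j, hj⟩ := List.mem_iff_get.mp hmem
    exact ⟨j, hj⟩
  choose τ hτ using hex
  have hτinj : Function.Injective τ := by
    intro a b hab
    have h1 : l'.get (a.cast hlen.symm) = l'.get (b.cast hlen.symm) := by
      rw [← hτ, ← hτ, hab]
    have h2 := (List.Nodup.get_inj_iff hnd').mp h1
    exact Fin.ext (by simpa using congrArg Fin.val h2)
  let σ : Equiv.Perm (Fin l.length) := Equiv.ofBijective τ (Finite.injective_iff_bijective.mp hτinj)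
  have h1 : FinBase l.get G := by
    rw [← base_ofFn, List.ofFn_get]
    exact hl
  have h2 := hB _ _ σ h1
  rw [← base_ofFn] at h2
  have h3 : List.ofFn (l.get ∘ σ) = l' := by
    apply List.ext_get
    · simp [hlen]
    · intro n h₁ h₂
      simp only [List.get_eq_getElem, List.getElem_ofFn, Function.comp_apply]
      have := hτ ⟨n, by simpa using h₁⟩
      simpa [σ] using this
  rwa [h3] at h2

theorem first_fix (H : Subgroup G) (s : Ω) (T : List Ω) (hH : ¬ H ≤ stabilizer G s)
    (hT : stL H T ≤ stabilizer G s) :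
    ∃ T₁ t T₂, T = T₁ ++ t :: T₂ ∧ ¬ stL H T₁ ≤ stabilizer G s ∧ stL H T₁ ⊓ stabilizer G t ≤ stabilizer G s := by
  induction T generalizing H with
  | nil => exact absurd hT hH
  | cons x xs ih =>
    by_cases hx : H ⊓ stabilizer G x ≤ stabilizer G s
    · exact ⟨[], x, xs, rfl, hH, hx⟩
    · obtain ⟨T₁, t, T₂, h1, h2, h3⟩ := ih _ hx hT
      exact ⟨x :: T₁, t, T₂, by rw [h1]; rfl, h2, h3⟩

theorem main_length (hR : ∀ u u' : List Ω, Irr (⊤ : Subgroup G) u → u.Perm u' → Irr (⊤ : Subgroup G) u') :
    ∀ (n : ℕ) (p S T : List Ω), S.length = n → Irr (⊤ : Subgroup G) (p ++ S) → Irr (⊤ : Subgroup G) (p ++ T) →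
      stL (⊤ : Subgroup G) (p ++ S) = stL (⊤ : Subgroup G) (p ++ T) → S.length = T.length := by
  intro n
  induction n with
  | zero =>
    intro p S T hS _ hT heq
    have hS' : S = [] := List.eq_nil_of_length_eq_zero hS
    subst hS'
    cases T with
    | nil => rfl
    | cons t T' =>
      exfalso
      rw [Irr_append] at hT
      have h1 := hT.2.1
      apply h1
      rw [stL_append, stL_append] at heq
      simp only [stL] at heq
      rw [heq]
      exact (stL_le _ _).trans inf_le_right
  | succ n ih =>
    intro p S T hS hSirr hTirr heq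
    cases S with
    | nil => simp at hS
    | cons s S' =>
      have hS'len : S'.length = n := by simpa using hS
      set H := stL (⊤ : Subgroup G) p with hHdef
      have hSirr' := (Irr_append _ _ _).mp hSirr
      have hTirr' := (Irr_append _ _ _).mp hTirr
      have hs : ¬ H ≤ stabilizer G s := hSirr'.2.1
      have heq' : stL H (s :: S') = stL H T := by
        rwa [stL_append, stL_append] at heq
      have hTs : stL H T ≤ stabilizer G s := by
        rw [← heq']
        exact (stL_le (H ⊓ stabilizer G s) S').trans inf_le_right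
      obtain ⟨T₁, t, T₂, rfl, hK1, hK2⟩ := first_fix H s T hs hTs
      set K := stL H T₁ with hK
      have hT12 := (Irr_append _ _ _).mp hTirr'.2
      have hKt : ¬ K ≤ stabilizer G t := hT12.2.1
      have hT₂ : Irr (K ⊓ stabilizer G t) T₂ := hT12.2.2
      -- exchange
      have hKeq : K ⊓ stabilizer G s = K ⊓ stabilizer G t := by
        apply le_antisymm
        · apply le_inf inf_le_left
          by_contra hcon
          have h1 : Irr (⊤ : Subgroup G) ((p ++ T₁) ++ [s, t]) := by
            rw [Irr_append]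
            refine ⟨(Irr_append _ _ _).mpr ⟨hTirr'.1, hT12.1⟩, ?_⟩
            rw [stL_append]
            exact ⟨hK1, hcon, trivial⟩
          have h2 : ((p ++ T₁) ++ [s, t]).Perm ((p ++ T₁) ++ [t, s]) :=
            List.Perm.append_left _ (List.Perm.swap _ _ _)
          have h3 := hR _ _ h1 h2
          rw [Irr_append, stL_append] at h3
          exact h3.2.2.1 hK2
        · exact le_inf inf_le_left hK2
      have hnew : Irr (⊤ : Subgroup G) ((p ++ T₁) ++ s :: T₂) := by
        rw [Irr_append]
        refine ⟨(Irr_append _ _ _).mpr ⟨hTirr'.1, hT12.1⟩, ?_⟩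
        rw [stL_append]
        refine ⟨hK1, ?_⟩
        show Irr (K ⊓ stabilizer G s) T₂
        rw [hKeq]
        exact hT₂
      have hperm : ((p ++ T₁) ++ s :: T₂).Perm ((p ++ [s]) ++ (T₁ ++ T₂)) := by
        simp only [List.append_assoc, List.cons_append, List.nil_append]
        apply List.Perm.append_left
        exact List.perm_middle
      have hnew' := hR _ _ hnew hperm
      have hfinal := ih (p ++ [s]) S' (T₁ ++ T₂) hS'len (by simpa using hSirr) hnew' (by
        rw [← stL_perm _ hperm]
        have h1 : stL (⊤ : Subgroup G) ((p ++ [s]) ++ S') = stL H (s :: S') := by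
          rw [List.append_assoc, stL_append]
          rfl
        rw [h1, heq', stL_append, stL_append, stL_append]
        show stL (K ⊓ stabilizer G t) T₂ = stL (K ⊓ stabilizer G s) T₂
        rw [hKeq])
      simp only [List.length_cons, List.length_append] at hfinal ⊢
      omega

theorem main_iff [Finite G] [Fintype Ω] :
    (∀ (t t' : ℕ) (f : Fin t → Ω) (f' : Fin t' → Ω), FinBase f G → FinBase f' G → t = t') ↔
    (∀ (t : ℕ) (f : Fin t → Ω) (σ : Equiv.Perm (Fin t)), FinBase f G → FinBase (f ∘ σ) G) := by
  classical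
  constructor
  · intro hA t f σ hf
    let l := List.ofFn (f ∘ σ)
    let p := prune (⊤ : Subgroup G) l
    have hpbase : Base (G := G) p := by
      refine ⟨prune_irr _ _, fun g hg => ?_⟩
      have h1 : g ∈ stL (⊤ : Subgroup G) p := (mem_stL _ _ _).mpr ⟨trivial, hg⟩
      rw [prune_stL] at h1
      have h2 := ((mem_stL _ _ _).mp h1).2
      apply hf.1 g
      intro i
      have := h2 (f (σ (σ⁻¹ i))) ((List.mem_ofFn' _ _).mpr ⟨σ⁻¹ i, rfl⟩)
      simpa using this
    have hpfin : FinBase p.get G := by
      rw [← base_ofFn, List.ofFn_get]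
      exact hpbase
    have hlen : t = p.length := hA _ _ f p.get hf hpfin
    have hlen' : (prune (⊤ : Subgroup G) l).length = l.length := by
      show p.length = l.length
      rw [← hlen]
      simp [l]
    have hirr := irr_of_prune_length _ _ hlen'
    rw [← base_ofFn]
    refine ⟨hirr, fun g hg => hf.1 g (fun i => ?_)⟩
    have := hg (f (σ (σ⁻¹ i))) ((List.mem_ofFn' _ _).mpr ⟨σ⁻¹ i, rfl⟩)
    simpa using this
  · intro hB t t' f f' hf hf'
    have hl : Base (G := G) (List.ofFn f) := (base_ofFn f).mpr hf
    have hl' : Base (G := G) (List.ofFn f') := (base_ofFn f').mpr hf'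
    have hfaith : ∀ g : G, (∀ x : Ω, g • x = x) → g = 1 := fun g hg => hl.2 g (fun x _ => hg x)
    have hR : ∀ u u' : List Ω, Irr (⊤ : Subgroup G) u → u.Perm u' → Irr (⊤ : Subgroup G) u' := by
      intro u u' hu hperm
      let v := prune (stL (⊤ : Subgroup G) u) (Finset.univ : Finset Ω).toList
      have h1 : Base (G := G) (u ++ v) := by
        refine ⟨(Irr_append _ _ _).mpr ⟨hu, prune_irr _ _⟩, fun g hg => hfaith g (fun x => ?_)⟩
        have h2 : g ∈ stL (⊤ : Subgroup G) (u ++ v) := (mem_stL _ _ _).mpr ⟨trivial, hg⟩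
        rw [stL_append, prune_stL] at h2
        exact ((mem_stL _ _ _).mp h2).2 x (by simp)
      have h3 := base_of_perm_nodup hB h1 (List.Perm.append_right v hperm)
      exact ((Irr_append _ _ _).mp h3.1).1
    have hstab : ∀ {s : ℕ} (h : Fin s → Ω), FinBase h G →
        stL (⊤ : Subgroup G) (List.ofFn h) = ⊥ := by
      intro s h hh
      rw [eq_bot_iff]
      intro g hg
      have h1 := ((mem_stL _ _ _).mp hg).2
      rw [Subgroup.mem_bot]
      exact hh.1 g (fun i => h1 _ ((List.mem_ofFn' _ _).mpr ⟨i, rfl⟩))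
    have := main_length hR _ [] (List.ofFn f) (List.ofFn f') rfl hl.1 hl'.1 (by
      show stL _ (List.ofFn f) = stL _ (List.ofFn f')
      rw [hstab f hf, hstab f' hf'])
    simpa using this

end Cfsg.Agent.H97.IBIS

namespace Cfsg.Agent.S5747

/-- Let a finite group G act on a finite set Ω. An irredundant base is a sequence of points ω₁, …, ω_t whose pointwise stabiliser is trivial and in which each ω_i is moved by some element fixing ω₁, …, ω_{i−1}. Then all irredundant bases have the same length if and only if every reordering of an irredundant base is again an irredundant base. -/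
theorem result {G Ω : Type*} [Group G] [Finite G] [MulAction G Ω] [Fintype Ω] :
    (∀ (t t' : ℕ) (f : Fin t → Ω) (f' : Fin t' → Ω), ((∀ g : G, (∀ i : Fin t, g • f i = f i) → g = 1) ∧ ∀ i : Fin t, ∃ g : G, (∀ j : Fin t, j < i → g • f j = f j) ∧ g • f i ≠ f i) → ((∀ g : G, (∀ i : Fin t', g • f' i = f' i) → g = 1) ∧ ∀ i : Fin t', ∃ g : G, (∀ j : Fin t', j < i → g • f' j = f' j) ∧ g • f' i ≠ f' i) → t = t') ↔
    (∀ (t : ℕ) (f : Fin t → Ω) (σ : Equiv.Perm (Fin t)), ((∀ g : G, (∀ i : Fin t, g • f i = f i) → g = 1) ∧ ∀ i : Fin t, ∃ g : G, (∀ j : Fin t, j < i → g • f j = f j) ∧ g • f i ≠ f i) → ((∀ g : G, (∀ i : Fin t, g • (f ∘ σ) i = (f ∘ σ) i) → g = 1) ∧ ∀ i : Fin t, ∃ g : G, (∀ j : Fin t, j < i → g • (f ∘ σ) j = (f ∘ σ) j) ∧ g • (f ∘ σ) i ≠ (f ∘ σ) i)) :=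
  Cfsg.Agent.H97.IBIS.main_iff (G := G) (Ω := Ω)

end Cfsg.Agent.S5747
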