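import Mathlib
import Cfsg.Statements.S5751
import Cfsg.Agent.Lib.E8TwoUpper

set_option autoImplicit false
open Cfsg

namespace Cfsg.Agent.S5751

open Cfsg.Agent.Lib.E8Two

/-- An extremal example for iterated cores of conjugate maximal subgroups: there exist a finite group G and two distinct conjugate maximal subgroups M₁, M₂ of G, with M₁ having trivial core in G, such that, if we define two descending sequences of subgroups by A₀ = M₁, B₀ = M₂ and, for every i, A_{i+1} = the core in M₁ of A_i ∩ B_i and B_{i+1} = the core in M₂ of A_i ∩ B_i (the core in M of a subgroup Y ≤ M is the largest normal subgroup of M contained in Y), the subgroup A₆ is trivial while A₅ is not (so the index 6 cannot be lowered to 5). (One example is a maximal parabolic subgroup of the Chevalley group of type E₈ over a finite field and a suitable conjugate of it.) -/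
theorem result :
    ∃ (G : Type) (_ : Group G) (_ : Finite G) (M₁ M₂ : Subgroup G) (g : G) (A B : ℕ → Subgroup G),
      IsCoatom M₁ ∧ M₂ = M₁.map (MulAut.conj g).toMonoidHom ∧ M₁ ≠ M₂ ∧ M₁.normalCore = ⊥ ∧ A 0 = M₁ ∧ B 0 = M₂ ∧
      (∀ i, A (i + 1) = ((A i ⊓ B i).subgroupOf M₁).normalCore.map M₁.subtype) ∧
      (∀ i, B (i + 1) = ((A i ⊓ B i).subgroupOf M₂).normalCore.map M₂.subtype) ∧ A 6 = ⊥ ∧ A 5 ≠ ⊥ := by
  refine ⟨GE, inferInstance, finiteGE, M1, M2, tau, AA, BB, isCoatom_Cn, map_tau_M1.symm, ?_, ?_, rfl, rfl,
    fun _ => rfl, fun _ => rfl, AA_six_eq_bot, AA_five_ne_bot⟩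
  · -- the two maximal subgroups differ
    intro h
    have hr := norm_neg_root (e_root 3)
    have h1 : xq (-(e 3)) ∈ M2 := by
      refine xq_mem_Cn hr ?_
      rw [bf_mu, bf_neg_left, bf_neg_left, bf_varpi, e_apply_same, e_root 3]
      norm_num
    rw [← h] at h1
    exact e3_not_mem h1
  · -- the core is trivial, being contained in every term of the chain
    have key : ∀ k, M1.normalCore ≤ AA k ∧ M1.normalCore ≤ BB k := by
      intro k
      induction k with
      | zero =>
        refine ⟨Subgroup.normalCore_le _, ?_⟩
        intro y hy
        have hn : (M1.normalCore).Normal := inferInstance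
        have h1 : tau * y * tau⁻¹ ∈ M1.normalCore := hn.conj_mem y hy tau
        have h2 := conj_tau_M1 (Subgroup.normalCore_le _ h1)
        rwa [tau_tau_conj] at h2
      | succ k ih =>
        have hn : (M1.normalCore).Normal := inferInstance
        constructor
        · refine le_coreIn (Subgroup.normalCore_le _) (le_inf ih.1 ih.2) ?_
          intro p _ y hy
          exact hn.conj_mem y hy p
        · refine le_coreIn ?_ (le_inf ih.1 ih.2) ?_
          · exact ih.2.trans (by
              cases k with
              | zero => exact le_refl _
              | succ k => exact coreIn_le_left _ _)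
          · intro p _ y hy
            exact hn.conj_mem y hy p
    rw [eq_bot_iff, ← AA_six_eq_bot]
    exact (key 6).1

end Cfsg.Agent.S5751
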