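import Mathlib
import Cfsg.Statements.S5753
import Cfsg.Agent.Lib.BinO

set_option autoImplicit false
open Cfsg

namespace Cfsg.Agent.S5753

/-- The binary primitive permutation groups of affine type (the known proof uses the classification of the finite simple groups). Let a finite group G act faithfully and primitively on a finite set Ω, with a non-trivial abelian normal subgroup, and suppose the action is binary: for every n ≥ 2 and all n-tuples I, J of points, if for every pair of positions some element of G carries the corresponding pair of entries of I to those of J, then a single element carries I to J. Then either Ω has a prime number of points and every point stabilizer has order at most 2, or Ω can be identified with a field E that is a quadratic extension of a subfield F in such a way that the permutations induced by G are exactly the maps x ↦ a·φ(x) + b with a ∈ E of norm 1 over F, φ an automorphism of E over F and b ∈ E (the affine group of the anisotropic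 plane orthogonal group). -/
theorem result {G Ω : Type*} [Group G] [Finite G] [MulAction G Ω] [FaithfulSMul G Ω] [Fintype Ω]
    (hprim : MulAction.IsPreprimitive G Ω)
    (haff : ∃ N : Subgroup G, N.Normal ∧ N ≠ ⊥ ∧ IsMulCommutative ↥N)
    (hbin : ∀ (n : ℕ) (I J : Fin n → Ω), 2 ≤ n →
      (∀ i j : Fin n, i ≠ j → ∃ g : G, g • I i = J i ∧ g • I j = J j) → ∃ g : G, ∀ i, g • I i = J i) :
    ((Fintype.card Ω).Prime ∧ ∀ ω : Ω, Nat.card ↥(MulAction.stabilizer G ω) ≤ 2) ∨
    (∃ (F E : Type) (_ : Field F) (_ : Fintype F) (_ : Field E) (_ : Fintype E) (_ : Algebra F E) (e : Ω ≃ E),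
        Module.finrank F E = 2 ∧
        ∀ σ : Equiv.Perm Ω, σ ∈ (MulAction.toPermHom G Ω).range ↔
          ∃ (a b : E) (φ : E ≃ₐ[F] E), Algebra.norm F a = 1 ∧ ∀ ω : Ω, e (σ ω) = a * φ (e ω) + b) := by
  classical
  obtain ⟨N, hNn, hNne, hNc⟩ := haff
  have hNc' : ∀ x ∈ N, ∀ y ∈ N, x * y = y * x := fun x hx y hy =>
    congrArg Subtype.val (mul_comm' (⟨x, hx⟩ : N) ⟨y, hy⟩)
  have hcardN : Nat.card N ≠ 1 := by
    intro h
    apply hNne
    exact Subgroup.eq_bot_of_card_eq N h
  obtain ⟨p, hpp, hpd⟩ := Nat.exists_prime_and_dvd hcardN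
  haveI hfp : Fact p.Prime := ⟨hpp⟩
  obtain ⟨y, hy⟩ := exists_prime_orderOf_dvd_card' p hpd
  let A : Subgroup G :=
    { carrier := {x | x ∈ N ∧ x ^ p = 1}
      mul_mem' := by
        rintro a b ⟨ha, ha'⟩ ⟨hb, hb'⟩
        refine ⟨N.mul_mem ha hb, ?_⟩
        rw [(show Commute a b from hNc' a ha b hb).mul_pow, ha', hb', one_mul]
      one_mem' := ⟨N.one_mem, one_pow _⟩
      inv_mem' := by
        rintro a ⟨ha, ha'⟩
        exact ⟨N.inv_mem ha, by rw [inv_pow, ha', inv_one]⟩ }
  have hAmem : ∀ {x : G}, x ∈ A ↔ x ∈ N ∧ x ^ p = 1 := Iff.rfl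
  haveI hAn : A.Normal := ⟨fun n hn g => ⟨hNn.conj_mem n hn.1 g, by
    rw [conj_pow, hn.2, mul_one, mul_inv_cancel]⟩⟩
  haveI hAc : IsMulCommutative A := ⟨⟨fun a b => Subtype.ext (hNc' a a.2.1 b b.2.1)⟩⟩
  have hyA : (y : G) ∈ A := ⟨y.2, by
    have h1 := pow_orderOf_eq_one y
    rw [hy] at h1
    exact_mod_cast congrArg Subtype.val h1⟩
  have hy1 : (y : G) ≠ 1 := by
    intro h
    have h1 : y = 1 := Subtype.ext h
    rw [h1, orderOf_one] at hy
    exact hpp.one_lt.ne hy
  obtain ⟨ω₀, hω₀⟩ : ∃ ω : Ω, (y : G) • ω ≠ ω := by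
    by_contra hc
    push Not at hc
    exact hy1 (FaithfulSMul.eq_of_smul_eq_smul (α := Ω) (fun ω => by rw [hc ω, one_smul]))
  haveI := hprim
  have htrA : MulAction.IsPretransitive A Ω :=
    MulAction.IsQuasiPreprimitive.isPretransitive_of_normal (G := G) (X := Ω) (N := A) (by
      intro h
      have h1 : ω₀ ∈ MulAction.fixedPoints A Ω := by rw [h]; trivial
      exact hω₀ (h1 ⟨y, hyA⟩))
  have htr : ∀ ω : Ω, ∃ a ∈ A, a • ω₀ = ω := by
    intro ω
    obtain ⟨a, ha⟩ := htrA.exists_smul_eq ω₀ ω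
    exact ⟨a, a.2, ha⟩
  have hreg : ∀ a ∈ A, a • ω₀ = ω₀ → a = 1 := by
    intro a ha he
    apply FaithfulSMul.eq_of_smul_eq_smul (α := Ω)
    intro ω
    obtain ⟨b, hb, rfl⟩ := htr ω
    have h1 : a * b = b * a := hNc' a ha.1 b hb.1
    rw [one_smul, ← mul_smul, h1, mul_smul, he]
  have hp : ∀ v : Cfsg.Agent.BinAff.VV A, p • v = 0 := by
    intro v
    apply Cfsg.Agent.BinAff.tau_inj
    rw [Cfsg.Agent.BinAff.tau_nsmul, (Cfsg.Agent.BinAff.tau_mem v).2, Cfsg.Agent.BinAff.tau_zero]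
  haveI hfa : FaithfulSMul (MulAction.stabilizer G ω₀) (Cfsg.Agent.BinAff.VV A) :=
    Cfsg.Agent.BinAff.faithful_H htr
  haveI hnt : Nontrivial (Cfsg.Agent.BinAff.VV A) :=
    ⟨⟨Cfsg.Agent.BinAff.mkV (y : G) hyA, 0, fun h => hy1 (by
      have := congrArg Cfsg.Agent.BinAff.tau h
      simpa using this)⟩⟩
  have hbeta : Function.Bijective (fun v : Cfsg.Agent.BinAff.VV A => Cfsg.Agent.BinAff.beta ω₀ v) :=
    ⟨fun _ _ h => Cfsg.Agent.BinAff.beta_inj hreg h, Cfsg.Agent.BinAff.beta_surj htr⟩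
  rcases Cfsg.Agent.BinAff.lin_main (Cfsg.Agent.BinAff.bin_H hreg htr hbin) hp
    (Cfsg.Agent.BinAff.irr_H hreg htr hprim) with ⟨hprime, hs⟩ | ⟨F, E, iF, fF, iE, fE, alg, e, hfin, he1, he2⟩
  · left
    constructor
    · rw [Fintype.card_eq_nat_card, ← Nat.card_congr (Equiv.ofBijective _ hbeta)]
      exact hprime
    · intro ω
      obtain ⟨x, rfl⟩ := Cfsg.Agent.BinAff.beta_surj htr ω
      have h1 : Nat.card (MulAction.stabilizer G (Cfsg.Agent.BinAff.beta ω₀ x)) =
          Nat.card (MulAction.stabilizer G ω₀) := by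
        unfold Cfsg.Agent.BinAff.beta
        rw [MulAction.stabilizer_smul_eq_stabilizer_map_conj]
        exact Subgroup.card_map_of_injective (MulAut.conj _).injective
      rw [h1]
      have h2 : Function.Injective (fun h : MulAction.stabilizer G ω₀ =>
          decide (∀ v : Cfsg.Agent.BinAff.VV A, h • v = v)) := by
        intro a b hab
        have hab' : (∀ v : Cfsg.Agent.BinAff.VV A, a • v = v) ↔ (∀ v : Cfsg.Agent.BinAff.VV A, b • v = v) := by
          simpa using hab
        apply FaithfulSMul.eq_of_smul_eq_smul (α := Cfsg.Agent.BinAff.VV A)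
        intro v
        by_cases h3 : ∀ v : Cfsg.Agent.BinAff.VV A, a • v = v
        · rw [h3 v, hab'.mp h3 v]
        · have h4 : ¬ ∀ v : Cfsg.Agent.BinAff.VV A, b • v = v := fun h => h3 (hab'.mpr h)
          have e3 := (hs a (Subgroup.mem_top _)).resolve_left h3
          have e4 := (hs b (Subgroup.mem_top _)).resolve_left h4
          rw [e3 v, e4 v]
      have h3 := Nat.card_le_card_of_injective _ h2
      simpa using h3
  · right
    let bE : Cfsg.Agent.BinAff.VV A ≃ Ω := Equiv.ofBijective _ hbeta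
    let eΩ : Ω ≃ E := bE.symm.trans e.toEquiv
    have hbe : ∀ x, eΩ (Cfsg.Agent.BinAff.beta ω₀ x) = e x := by
      intro x
      have h1 : bE.symm (Cfsg.Agent.BinAff.beta ω₀ x) = x := bE.symm_apply_apply x
      show e (bE.symm (Cfsg.Agent.BinAff.beta ω₀ x)) = e x
      rw [h1]
    refine ⟨F, E, iF, fF, iE, fE, alg, eΩ, hfin, ?_⟩
    intro σ
    constructor
    · rintro ⟨g, rfl⟩
      obtain ⟨x, h, rfl⟩ := Cfsg.Agent.BinAff.decomp htr g
      obtain ⟨a, φ, hn, hh⟩ := he1 h (Subgroup.mem_top _)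
      refine ⟨a, e x, φ, hn, fun ω => ?_⟩
      obtain ⟨v, rfl⟩ := Cfsg.Agent.BinAff.beta_surj htr ω
      have h1 : (MulAction.toPermHom G Ω) (Cfsg.Agent.BinAff.tau x * (h : G)) (Cfsg.Agent.BinAff.beta ω₀ v) =
          Cfsg.Agent.BinAff.beta ω₀ (x + h • v) := Cfsg.Agent.BinAff.action_formula v
      rw [h1, hbe, hbe, map_add, hh, add_comm]
    · rintro ⟨a, b, φ, hn, hσ⟩
      obtain ⟨h, _, hh⟩ := he2 a φ hn
      refine ⟨Cfsg.Agent.BinAff.tau (e.symm b) * (h : G), Equiv.ext fun ω => ?_⟩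
      apply eΩ.injective
      obtain ⟨v, rfl⟩ := Cfsg.Agent.BinAff.beta_surj htr ω
      have h1 : (MulAction.toPermHom G Ω) (Cfsg.Agent.BinAff.tau (e.symm b) * (h : G))
          (Cfsg.Agent.BinAff.beta ω₀ v) = Cfsg.Agent.BinAff.beta ω₀ (e.symm b + h • v) :=
        Cfsg.Agent.BinAff.action_formula v
      rw [h1, hσ, hbe, hbe, map_add, hh, e.apply_symm_apply, add_comm]

end Cfsg.Agent.S5753
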