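import Cfsg.Statements.S5754

set_option autoImplicit false
open Cfsg

namespace Cfsg.Agent.H97

section Reflection

variable {F V : Type*} [Field F] [AddCommGroup V] [Module F V]

open QuadraticMap in
/-- The reflection along a vector `w` with `Q w ≠ 0`, as a linear map. -/
noncomputable def reflLin (Q : QuadraticForm F V) (w : V) : V →ₗ[F] V where
  toFun x := x - (polar Q x w / Q w) • w
  map_add' x y := by
    rw [polar_add_left, add_div, add_smul]; abel
  map_smul' c x := by
    rw [polar_smul_left, smul_eq_mul, mul_div_assoc, mul_smul, RingHom.id_apply, smul_sub]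

open QuadraticMap in
theorem reflLin_apply (Q : QuadraticForm F V) (w x : V) :
    reflLin Q w x = x - (polar Q x w / Q w) • w := rfl

open QuadraticMap in
theorem polar_self_eq (Q : QuadraticForm F V) (w : V) : polar Q w w = 2 * Q w := by
  rw [QuadraticMap.polar_self, nsmul_eq_mul]
  norm_num

open QuadraticMap in
theorem reflLin_invol (Q : QuadraticForm F V) (w : V) (hw : Q w ≠ 0) (x : V) :
    reflLin Q w (reflLin Q w x) = x := by
  simp only [reflLin_apply]
  rw [polar_sub_left, polar_smul_left, polar_self_eq, smul_eq_mul]
  have : (polar Q x w - polar Q x w / Q w * (2 * Q w)) / Q w = - (polar Q x w / Q w) := by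
    field_simp; ring
  rw [this, neg_smul]
  abel

open QuadraticMap in
theorem reflLin_map (Q : QuadraticForm F V) (w : V) (hw : Q w ≠ 0) (x : V) :
    Q (reflLin Q w x) = Q x := by
  rw [reflLin_apply, sub_eq_add_neg, QuadraticMap.map_add Q x, ← neg_smul, QuadraticMap.map_smul, polar_smul_right,
    smul_eq_mul, smul_eq_mul]
  field_simp
  ring

/-- The reflection as an isometry. -/
noncomputable def reflIso (Q : QuadraticForm F V) (w : V) (hw : Q w ≠ 0) : Q.IsometryEquiv Q where
  toLinearEquiv := LinearEquiv.ofInvolutive (reflLin Q w) (reflLin_invol Q w hw)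
  map_app' x := reflLin_map Q w hw x

theorem reflIso_apply (Q : QuadraticForm F V) (w : V) (hw : Q w ≠ 0) (x : V) :
    reflIso Q w hw x = reflLin Q w x := rfl

end Reflection

end Cfsg.Agent.H97

namespace Cfsg.Agent.S5754

open QuadraticMap in
/-- Let V be a finite-dimensional vector space over a finite field F carrying an anisotropic quadratic form Q (Q(v) = 0 only for v = 0). Then the group of all maps v ↦ φ(v) + c, with φ an isometry of Q and c ∈ V, acts on V as a binary permutation group: given n ≥ 2 and two n-tuples u, u' of vectors such that every pair of corresponding entries of u is carried to that of u' by such a map, one such map carries u to u'. -/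
theorem result {F V : Type*} [Field F] [Finite F] [AddCommGroup V] [Module F V] [Module.Finite F V]
    (Q : QuadraticForm F V) (hQ : Q.Anisotropic) (n : ℕ) (hn : 2 ≤ n) (u u' : Fin n → V)
    (h2 : ∀ i j : Fin n, i ≠ j → ∃ (φ : Q.IsometryEquiv Q) (c : V), φ (u i) + c = u' i ∧ φ (u j) + c = u' j) :
    ∃ (φ : Q.IsometryEquiv Q) (c : V), ∀ i, φ (u i) + c = u' i := by
  classical
  let i₀ : Fin n := ⟨0, by omega⟩
  -- difference preservation
  have hd : ∀ i j : Fin n, Q (u i - u j) = Q (u' i - u' j) := by
    intro i j
    by_cases hij : i = j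
    · subst hij; simp
    · obtain ⟨φ, c, h1, h2⟩ := h2 i j hij
      rw [← h1, ← h2]
      have : φ (u i) + c - (φ (u j) + c) = φ (u i - u j) := by
        rw [map_sub]; abel
      rw [this]
      exact (φ.map_app _).symm
  let v : Fin n → V := fun i => u i - u i₀
  let v' : Fin n → V := fun i => u' i - u' i₀
  have hvQ : ∀ i, Q (v i) = Q (v' i) := fun i => hd i i₀
  have hvsub : ∀ i j, Q (v i - v j) = Q (v' i - v' j) := by
    intro i j
    have h1 : v i - v j = u i - u j := by simp [v]
    have h2 : v' i - v' j = u' i - u' j := by simp [v']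
    rw [h1, h2, hd]
  have hsub_expand : ∀ a b : V, polar Q a b = Q a + Q b - Q (a - b) := by
    intro a b
    have : Q (a - b) = Q a + Q b - polar Q a b := by
      rw [sub_eq_add_neg, QuadraticMap.map_add Q a, QuadraticMap.map_neg, polar_neg_right]
      ring
    rw [this]; ring
  have hvpolar : ∀ i j, polar Q (v i) (v j) = polar Q (v' i) (v' j) := by
    intro i j
    rw [hsub_expand, hsub_expand, hvQ, hvQ, hvsub]
  -- induction
  have key : ∀ k : ℕ, ∃ φ : Q.IsometryEquiv Q, ∀ i : Fin n, i.val < k → φ (v i) = v' i := by
    intro k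
    induction k with
    | zero => exact ⟨QuadraticMap.IsometryEquiv.refl Q, fun i hi => absurd hi (Nat.not_lt_zero _)⟩
    | succ k ih =>
      obtain ⟨φ, hφ⟩ := ih
      by_cases hk : k < n
      · let kk : Fin n := ⟨k, hk⟩
        by_cases ht : φ (v kk) - v' kk = 0
        · refine ⟨φ, fun i hi => ?_⟩
          by_cases hik : i.val < k
          · exact hφ i hik
          · have : i = kk := Fin.ext (by show i.val = k; omega)
            rw [this]
            exact sub_eq_zero.mp ht
        · have hQt : Q (φ (v kk) - v' kk) ≠ 0 := fun h => ht (hQ _ h)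
          refine ⟨(QuadraticMap.IsometryEquiv.trans φ (Cfsg.Agent.H97.reflIso Q _ hQt)), fun i hi => ?_⟩
          show Cfsg.Agent.H97.reflIso Q _ hQt (φ (v i)) = v' i
          rw [Cfsg.Agent.H97.reflIso_apply, Cfsg.Agent.H97.reflLin_apply]
          have hQwk : Q (φ (v kk)) = Q (v' kk) := by
            rw [φ.map_app]; exact hvQ kk
          by_cases hik : i.val < k
          · rw [hφ i hik, polar_sub_right]
            have h0 : polar Q (φ (v i)) (φ (v kk)) = polar Q (v i) (v kk) := by
              simp only [polar, ← map_add, φ.map_app]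
            have h1 : polar Q (v' i) (φ (v kk)) = polar Q (v' i) (v' kk) := by
              calc polar Q (v' i) (φ (v kk)) = polar Q (φ (v i)) (φ (v kk)) := by rw [hφ i hik]
                _ = polar Q (v i) (v kk) := h0
                _ = polar Q (v' i) (v' kk) := hvpolar i kk
            rw [h1, sub_self, zero_div, zero_smul, sub_zero]
          · have heq : i = kk := Fin.ext (by show i.val = k; omega)
            rw [heq]
            have h1 : polar Q (φ (v kk)) (φ (v kk) - v' kk) = Q (φ (v kk) - v' kk) := by
              rw [polar_sub_right, Cfsg.Agent.H97.polar_self_eq, hsub_expand (φ (v kk)) (v' kk), hQwk]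
              ring
            rw [h1, div_self hQt, one_smul, sub_sub_cancel]
      · refine ⟨φ, fun i hi => hφ i ?_⟩
        have := i.isLt
        omega
  obtain ⟨φ, hφ⟩ := key n
  refine ⟨φ, u' i₀ - φ (u i₀), fun i => ?_⟩
  have := hφ i i.isLt
  simp only [v, v', map_sub] at this
  calc φ (u i) + (u' i₀ - φ (u i₀)) = (φ (u i) - φ (u i₀)) + u' i₀ := by abel
    _ = u' i := by rw [this]; abel

end Cfsg.Agent.S5754
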