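import Mathlib

/-!
Any two Sylow 2-subgroups of the symmetric group on 8 letters intersect non-trivially.
The model is the automorphism group `D` of the binary tree on `Fin 8`.
-/

open Equiv

namespace Cfsg.Agent.H97.S8

/-- tree distance on `Fin 8`. -/
def dd (i j : Fin 8) : Nat :=
  if i = j then 0 else if i.val / 2 = j.val / 2 then 1 else if i.val / 4 = j.val / 4 then 2 else 3

/-- tree automorphisms -/
def DD : Subgroup (Perm (Fin 8)) where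
  carrier := {σ | ∀ i j, dd (σ i) (σ j) = dd i j}
  one_mem' := by intro i j; rfl
  mul_mem' := by
    intro a b ha hb i j
    simp only [Perm.mul_apply]
    rw [ha, hb]
  inv_mem' := by
    intro a ha i j
    have := ha (a⁻¹ i) (a⁻¹ j)
    simpa using this.symm

theorem mem_DD {σ : Perm (Fin 8)} : σ ∈ DD ↔ ∀ i j, dd (σ i) (σ j) = dd i j := Iff.rfl

/-- sibling leaf. -/
def flp : Fin 8 → Fin 8 := ![1,0,3,2,5,4,7,6]

theorem flp_flp : ∀ i, flp (flp i) = i := by decide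

def flpE : Perm (Fin 8) := ⟨flp, flp, flp_flp, flp_flp⟩

theorem eq_flp_of_dd : ∀ x y : Fin 8, dd x y = 1 → y = flp x := by decide

theorem eq_of_dd : ∀ x y : Fin 8, dd x y = 0 → x = y := by decide

theorem dd_flp : ∀ x : Fin 8, dd x (flp x) = 1 := by decide

theorem dd_self : ∀ x : Fin 8, dd x x = 0 := by decide

/-- admissible images of `0,2,4,6`. -/
def okQ (q : Fin 8 × Fin 8 × Fin 8 × Fin 8) : Prop :=
  dd q.1 q.2.1 = 2 ∧ dd q.1 q.2.2.1 = 3 ∧ dd q.1 q.2.2.2 = 3 ∧ dd q.2.1 q.2.2.1 = 3 ∧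
    dd q.2.1 q.2.2.2 = 3 ∧ dd q.2.2.1 q.2.2.2 = 2

instance : DecidablePred okQ := by unfold okQ; infer_instance

theorem card_okQ : (Finset.univ.filter okQ).card = 128 := by decide +kernel

def bldF (q : Fin 8 × Fin 8 × Fin 8 × Fin 8) : Fin 8 → Fin 8 :=
  ![q.1, flp q.1, q.2.1, flp q.2.1, q.2.2.1, flp q.2.2.1, q.2.2.2, flp q.2.2.2]

theorem bldF_dd_aux : ∀ a b c e, okQ (a, b, c, e) → ∀ i j, dd (bldF (a, b, c, e) i) (bldF (a, b, c, e) j) = dd i j := by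
  decide +kernel

theorem bldF_dd (q) (h : okQ q) (i j) : dd (bldF q i) (bldF q j) = dd i j :=
  bldF_dd_aux q.1 q.2.1 q.2.2.1 q.2.2.2 h i j

theorem bldF_inj (q) (h : okQ q) : Function.Injective (bldF q) := by
  intro i j hij
  apply eq_of_dd
  rw [← bldF_dd q h, hij, dd_self]

noncomputable def bldE (q) (h : okQ q) : Perm (Fin 8) :=
  Equiv.ofBijective (bldF q) (Finite.injective_iff_bijective.mp (bldF_inj q h))

theorem bldE_apply (q h i) : bldE q h i = bldF q i := rfl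

theorem mem_DD_bld (q h) : bldE q h ∈ DD := fun i j => bldF_dd q h i j

def phiD (σ : DD) : {q // okQ q} :=
  ⟨(σ.1 0, σ.1 2, σ.1 4, σ.1 6), by
    have h := σ.2
    rw [mem_DD] at h
    refine ⟨(h 0 2).trans (by decide), (h 0 4).trans (by decide), (h 0 6).trans (by decide),
      (h 2 4).trans (by decide), (h 2 6).trans (by decide), (h 4 6).trans (by decide)⟩⟩

theorem phiD_eval (σ : DD) : ∀ i, σ.1 i = bldF (phiD σ).1 i := by
  have h := σ.2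
  rw [mem_DD] at h
  have h1 : σ.1 1 = flp (σ.1 0) := eq_flp_of_dd _ _ ((h 0 1).trans (by decide))
  have h3 : σ.1 3 = flp (σ.1 2) := eq_flp_of_dd _ _ ((h 2 3).trans (by decide))
  have h5 : σ.1 5 = flp (σ.1 4) := eq_flp_of_dd _ _ ((h 4 5).trans (by decide))
  have h7 : σ.1 7 = flp (σ.1 6) := eq_flp_of_dd _ _ ((h 6 7).trans (by decide))
  intro i
  fin_cases i
  · rfl
  · exact h1
  · rfl
  · exact h3
  · rfl
  · exact h5
  · rfl
  · exact h7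

theorem bldF_phi (q) (h : okQ q) : (q.1, q.2.1, q.2.2.1, q.2.2.2) = q := rfl

theorem phiD_bij : Function.Bijective phiD := by
  constructor
  · intro σ ρ hh
    apply Subtype.ext
    apply Equiv.ext
    intro i
    rw [phiD_eval σ, phiD_eval ρ, hh]
  · rintro ⟨q, hq⟩
    exact ⟨⟨bldE q hq, mem_DD_bld q hq⟩, rfl⟩

theorem card_DD : Nat.card DD = 128 := by
  rw [Nat.card_congr (Equiv.ofBijective phiD phiD_bij), Nat.card_eq_fintype_card, Fintype.card_subtype,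
    card_okQ]

theorem card_perm8 : Nat.card (Perm (Fin 8)) = 40320 := by
  rw [Nat.card_eq_fintype_card, Fintype.card_perm, Fintype.card_fin]; rfl

theorem fact2 : (40320 : ℕ).factorization 2 = 7 := by
  have : (40320 : ℕ) = 2 ^ 7 * 315 := by norm_num
  rw [this, Nat.factorization_mul (by norm_num) (by norm_num), Nat.factorization_pow]
  have h315 : (315 : ℕ).factorization 2 = 0 :=
    Nat.factorization_eq_zero_of_not_dvd (by norm_num)
  simp [h315, Nat.Prime.factorization_self Nat.prime_two]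

noncomputable def sylD : Sylow 2 (Perm (Fin 8)) :=
  Sylow.ofCard DD (by rw [card_DD, card_perm8, fact2]; norm_num)

theorem sylD_coe : (sylD : Subgroup (Perm (Fin 8))) = DD := rfl

/-- enumeration of the fixed-point-free involutions of `Fin 8`. -/
theorem fpf_enum (P : (Fin 8 → Fin 8) → Prop) (hP : ∀ t0 : Fin 8, t0 ≠ 0 → ∀ t1 : Fin 8, t1 ≠ 1 → (t0 = 1 → t1 = 0) → (t1 = 0 → t0 = 1) → ∀ t2 : Fin 8, t2 ≠ 2 → (t0 = 2 → t2 = 0) → (t2 = 0 → t0 = 2) → (t1 = 2 → t2 = 1) → (t2 = 1 → t1 = 2) → ∀ t3 : Fin 8, t3 ≠ 3 → (t0 = 3 → t3 = 0) → (t3 = 0 → t0 = 3) → (t1 = 3 → t3 = 1) → (t3 = 1 → t1 = 3) → (t2 = 3 → t3 = 2) → (t3 = 2 → t2 = 3) → ∀ t4 : Fin 8, t4 ≠ 4 → (t0 = 4 → t4 = 0) → (t4 = 0 → t0 = 4) → (t1 = 4 → t4 = 1) → (t4 = 1 → t1 = 4) → (t2 = 4 → t4 = 2) → (t4 = 2 → t2 = 4) → (t3 = 4 → t4 = 3) → (t4 = 3 → t3 = 4) → ∀ t5 : Fin 8, t5 ≠ 5 → (t0 = 5 → t5 = 0) → (t5 = 0 → t0 = 5) → (t1 =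 5 → t5 = 1) → (t5 = 1 → t1 = 5) → (t2 = 5 → t5 = 2) → (t5 = 2 → t2 = 5) → (t3 = 5 → t5 = 3) → (t5 = 3 → t3 = 5) → (t4 = 5 → t5 = 4) → (t5 = 4 → t4 = 5) → ∀ t6 : Fin 8, t6 ≠ 6 → (t0 = 6 → t6 = 0) → (t6 = 0 → t0 = 6) → (t1 = 6 → t6 = 1) → (t6 = 1 → t1 = 6) → (t2 = 6 → t6 = 2) → (t6 = 2 → t2 = 6) → (t3 = 6 → t6 = 3) → (t6 = 3 → t3 = 6) → (t4 = 6 → t6 = 4) → (t6 = 4 → t4 = 6) → (t5 = 6 → t6 = 5) → (t6 = 5 → t5 = 6) → ∀ t7 : Fin 8, t7 ≠ 7 → (t0 = 7 → t7 = 0) → (t7 = 0 → t0 = 7) → (t1 = 7 → t7 = 1) → (t7 = 1 → t1 = 7) → (t2 = 7 → t7 = 2) → (t7 = 2 → t2 = 7) → (t3 = 7 → t7 = 3) → (t7 = 3 → t3 = 7) → (t4 = 7 → t7 = 4) → (t7 = 4 → t4 = 7) → (t5 = 7 → t7 = 5) → (t7 = 5 → t5 = 7) → (t6 = 7 → t7 = 6) → (t7 = 6 → t6 = 7) → P ![t0,t1,t2,t3,t4,t5,t6,t7])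
    (t : Fin 8 → Fin 8) (h1 : ∀ i, t (t i) = i) (h2 : ∀ i, t i ≠ i) : P t := by
  have key : ![t 0, t 1, t 2, t 3, t 4, t 5, t 6, t 7] = t := by
    funext i; fin_cases i <;> rfl
  rw [← key]
  exact hP (t 0) (h2 0) (t 1) (h2 1) (fun h => by rw [← h]; exact h1 0) (fun h => by rw [← h]; exact h1 1) (t 2) (h2 2) (fun h => by rw [← h]; exact h1 0) (fun h => by rw [← h]; exact h1 2) (fun h => by rw [← h]; exact h1 1) (fun h => by rw [← h]; exact h1 2) (t 3) (h2 3) (fun h => by rw [← h]; exact h1 0) (fun h => by rw [← h]; exact h1 3) (fun h => by rw [← h]; exact h1 1) (fun h => by rw [← h]; exact h1 3) (fun h => by rw [← h]; exact h1 2) (fun h => by rw [← h]; exact h1 3) (t 4) (h2 4) (fun h => by rw [← h]; exact h1 0) (fun h => by rw [← h]; exact h1 4) (fun h => by rw [← h]; exact h1 1) (fun h => by rw [← h]; exact h1 4) (fun h => by rw [← h]; exact h1 2) (fun h => by rw [← h];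 exact h1 4) (fun h => by rw [← h]; exact h1 3) (fun h => by rw [← h]; exact h1 4) (t 5) (h2 5) (fun h => by rw [← h]; exact h1 0) (fun h => by rw [← h]; exact h1 5) (fun h => by rw [← h]; exact h1 1) (fun h => by rw [← h]; exact h1 5) (fun h => by rw [← h]; exact h1 2) (fun h => by rw [← h]; exact h1 5) (fun h => by rw [← h]; exact h1 3) (fun h => by rw [← h]; exact h1 5) (fun h => by rw [← h]; exact h1 4) (fun h => by rw [← h]; exact h1 5) (t 6) (h2 6) (fun h => by rw [← h]; exact h1 0) (fun h => by rw [← h]; exact h1 6) (fun h => by rw [← h]; exact h1 1) (fun h => by rw [← h]; exact h1 6) (fun h => by rw [← h]; exact h1 2) (fun h => by rw [← h]; exact h1 6) (fun h => by rw [← h]; exact h1 3) (fun h => by rw [← h]; exact h1 6) (fun h => by rw [← h]; exact h1 4) (fun h => by rw [← h]; exact h1 6) (fun h => by rw [← h]; exact h1 5) (fun h => by rw [← h]; exact h1 6) (t 7) (h2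 7) (fun h => by rw [← h]; exact h1 0) (fun h => by rw [← h]; exact h1 7) (fun h => by rw [← h]; exact h1 1) (fun h => by rw [← h]; exact h1 7) (fun h => by rw [← h]; exact h1 2) (fun h => by rw [← h]; exact h1 7) (fun h => by rw [← h]; exact h1 3) (fun h => by rw [← h]; exact h1 7) (fun h => by rw [← h]; exact h1 4) (fun h => by rw [← h]; exact h1 7) (fun h => by rw [← h]; exact h1 5) (fun h => by rw [← h]; exact h1 7) (fun h => by rw [← h]; exact h1 6) (fun h => by rw [← h]; exact h1 7)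

def L12 : List (Fin 8 → Fin 8) :=
  [![2,3,0,1,6,7,4,5], ![3,2,1,0,6,7,4,5], ![2,3,0,1,7,6,5,4], ![3,2,1,0,7,6,5,4],
   ![4,5,6,7,0,1,2,3], ![5,4,6,7,1,0,2,3], ![4,5,7,6,0,1,3,2], ![5,4,7,6,1,0,3,2],
   ![6,7,4,5,2,3,0,1], ![7,6,4,5,2,3,1,0], ![6,7,5,4,3,2,0,1], ![7,6,5,4,3,2,1,0]]

/-- nice elements for `flp` lie in `DD`. -/
def niceP (t : Fin 8 → Fin 8) : Prop :=
  (∀ i, t (flp i) = flp (t i)) → (∀ i, t i ≠ flp i) → ∀ i j, dd (t i) (t j) = dd i j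

instance : DecidablePred niceP := by unfold niceP; infer_instance

set_option synthInstance.maxHeartbeats 0 in
set_option synthInstance.maxSize 100000 in
theorem nice_dd : ∀ t0 : Fin 8, t0 ≠ 0 → ∀ t1 : Fin 8, t1 ≠ 1 → (t0 = 1 → t1 = 0) → (t1 = 0 → t0 = 1) → ∀ t2 : Fin 8, t2 ≠ 2 → (t0 = 2 → t2 = 0) → (t2 = 0 → t0 = 2) → (t1 = 2 → t2 = 1) → (t2 = 1 → t1 = 2) → ∀ t3 : Fin 8, t3 ≠ 3 → (t0 = 3 → t3 = 0) → (t3 = 0 → t0 = 3) → (t1 = 3 → t3 = 1) → (t3 = 1 → t1 = 3) → (t2 = 3 → t3 = 2) → (t3 = 2 → t2 = 3) → ∀ t4 : Fin 8, t4 ≠ 4 → (t0 = 4 → t4 = 0) → (t4 = 0 → t0 = 4) → (t1 = 4 → t4 = 1) → (t4 = 1 → t1 = 4) → (t2 = 4 → t4 = 2) → (t4 = 2 → t2 = 4) → (t3 = 4 → t4 = 3) → (t4 = 3 → t3 = 4) → ∀ t5 : Fin 8, t5 ≠ 5 → (t0 = 5 → t5 = 0) → (t5 = 0 → t0 = 5) → (t1 = 5 → t5 = 1) → (t5 = 1 → t1 = 5) → (t2 = 5 → t5 = 2) → (t5 = 2 → t2 = 5) → (t3 = 5 → t5 = 3) → (t5 = 3 → t3 = 5) → (t4 = 5 → t5 =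 4) → (t5 = 4 → t4 = 5) → ∀ t6 : Fin 8, t6 ≠ 6 → (t0 = 6 → t6 = 0) → (t6 = 0 → t0 = 6) → (t1 = 6 → t6 = 1) → (t6 = 1 → t1 = 6) → (t2 = 6 → t6 = 2) → (t6 = 2 → t2 = 6) → (t3 = 6 → t6 = 3) → (t6 = 3 → t3 = 6) → (t4 = 6 → t6 = 4) → (t6 = 4 → t4 = 6) → (t5 = 6 → t6 = 5) → (t6 = 5 → t5 = 6) → ∀ t7 : Fin 8, t7 ≠ 7 → (t0 = 7 → t7 = 0) → (t7 = 0 → t0 = 7) → (t1 = 7 → t7 = 1) → (t7 = 1 → t1 = 7) → (t2 = 7 → t7 = 2) → (t7 = 2 → t2 = 7) → (t3 = 7 → t7 = 3) → (t7 = 3 → t3 = 7) → (t4 = 7 → t7 = 4) → (t7 = 4 → t4 = 7) → (t5 = 7 → t7 = 5) → (t7 = 5 → t5 = 7) → (t6 = 7 → t7 = 6) → (t7 = 6 → t6 = 7) → niceP ![t0,t1,t2,t3,t4,t5,t6,t7] := by decide +kernel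

/-- the key combinatorial check. -/
def keyP (t : Fin 8 → Fin 8) : Prop :=
  (∃ a, t a = flp a) ∨ ∃ g ∈ L12, (∀ i, g (g i) = i) ∧ (∀ i, g i ≠ i) ∧ (∀ i, g (t i) = t (g i)) ∧
    (∀ i, g i ≠ t i) ∧ (∀ i, g (flp i) = flp (g i)) ∧ (∀ i, g i ≠ flp i)

instance : DecidablePred keyP := by unfold keyP; infer_instance

set_option synthInstance.maxHeartbeats 0 in
set_option synthInstance.maxSize 100000 in
theorem key_chk : ∀ t0 : Fin 8, t0 ≠ 0 → ∀ t1 : Fin 8, t1 ≠ 1 → (t0 = 1 → t1 = 0) → (t1 = 0 → t0 = 1) → ∀ t2 : Fin 8, t2 ≠ 2 → (t0 = 2 → t2 = 0) → (t2 = 0 → t0 = 2) → (t1 = 2 → t2 = 1) → (t2 = 1 → t1 = 2) → ∀ t3 : Fin 8, t3 ≠ 3 → (t0 = 3 → t3 = 0) → (t3 = 0 → t0 = 3) → (t1 = 3 → t3 = 1) → (t3 = 1 → t1 = 3) → (t2 = 3 → t3 = 2) → (t3 = 2 → t2 = 3) → ∀ t4 : Fin 8, t4 ≠ 4 → (t0 = 4 → t4 = 0) → (t4 = 0 → t0 = 4) → (t1 = 4 → t4 = 1) → (t4 = 1 → t1 = 4) → (t2 = 4 → t4 = 2) → (t4 = 2 → t2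 = 4) → (t3 = 4 → t4 = 3) → (t4 = 3 → t3 = 4) → ∀ t5 : Fin 8, t5 ≠ 5 → (t0 = 5 → t5 = 0) → (t5 = 0 → t0 = 5) → (t1 = 5 → t5 = 1) → (t5 = 1 → t1 = 5) → (t2 = 5 → t5 = 2) → (t5 = 2 → t2 = 5) → (t3 = 5 → t5 = 3) → (t5 = 3 → t3 = 5) → (t4 = 5 → t5 = 4) → (t5 = 4 → t4 = 5) → ∀ t6 : Fin 8, t6 ≠ 6 → (t0 = 6 → t6 = 0) → (t6 = 0 → t0 = 6) → (t1 = 6 → t6 = 1) → (t6 = 1 → t1 = 6) → (t2 = 6 → t6 = 2) → (t6 = 2 → t2 = 6) → (t3 = 6 → t6 = 3) → (t6 = 3 → t3 = 6) → (t4 = 6 → t6 = 4) → (t6 = 4 → t4 = 6) → (t5 = 6 → t6 = 5) → (t6 = 5 → t5 = 6) → ∀ t7 : Fin 8, t7 ≠ 7 → (t0 = 7 → t7 = 0) → (t7 = 0 → t0 = 7) → (t1 = 7 → t7 = 1) → (t7 = 1 → t1 = 7) → (t2 = 7 → t7 = 2) → (t7 = 2 → t2 = 7) → (t3 = 7 → t7 = 3) → (t7 = 3 → t3 = 7) → (t4 = 7 → t7 = 4) → (t7 = 4 → t4 = 7) → (t5 = 7 → t7 = 5) → (t7 = 5 → t5 = 7) → (t6 = 7 → t7 = 6) → (t7 = 6 → t6 = 7) → keyP ![t0,t1,t2,t3,t4,t5,t6,t7] := by decide +kernel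

theorem swap_flp_mem : ∀ a i j : Fin 8, dd (swap a (flp a) i) (swap a (flp a) j) = dd i j := by
  decide +kernel

theorem exists_common (y : Perm (Fin 8)) : ∃ σ ∈ DD, σ ≠ 1 ∧ y⁻¹ * σ * y ∈ DD := by
  have hfp : ∀ i, flp i ≠ i := by decide
  have hinv : ∀ i, y (flp (y⁻¹ (y (flp (y⁻¹ i))))) = i := by
    intro i; simp [flp_flp]
  have h := fpf_enum keyP key_chk (fun i => y (flp (y⁻¹ i)))
    (fun i => by simp [flp_flp]) (fun i h => by
      have : flp (y⁻¹ i) = y⁻¹ i := by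
        apply y.injective
        simpa using h
      exact hfp _ this)
  rcases h with ⟨a, ha⟩ | ⟨g, -, g1, g2, g3, g4, g5, g6⟩
  · simp only at ha
    refine ⟨swap a (flp a), fun i j => swap_flp_mem a i j, ?_, ?_⟩
    · intro h
      have := congrArg (fun f : Perm (Fin 8) => f a) h
      simp at this
      exact hfp a this
    · have hb : flp a = y (flp (y⁻¹ a)) := ha.symm
      have e : y⁻¹ * swap a (flp a) * y = swap (y⁻¹ a) (flp (y⁻¹ a)) := by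
        rw [hb]
        ext i
        simp only [Perm.mul_apply]
        by_cases h1 : i = y⁻¹ a
        · subst h1; simp
        · by_cases h2 : i = flp (y⁻¹ a)
          · subst h2; simp
          · rw [swap_apply_of_ne_of_ne h1 h2, swap_apply_of_ne_of_ne]
            · simp
            · intro h; apply h1; rw [← h]; simp
            · intro h; apply h2; apply y.injective; exact h
      rw [e]
      exact fun i j => swap_flp_mem _ i j
  · let gE : Perm (Fin 8) := ⟨g, g, g1, g1⟩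
    have hgE : ∀ i, gE i = g i := fun _ => rfl
    refine ⟨gE, ?_, ?_, ?_⟩
    · intro i j
      have := fpf_enum niceP nice_dd g g1 g2 g5 g6
      exact this i j
    · intro h
      have := congrArg (fun f : Perm (Fin 8) => f 0) h
      exact g2 0 this
    · let t : Fin 8 → Fin 8 := fun i => y⁻¹ (g (y i))
      have ht : ∀ i, (y⁻¹ * gE * y) i = t i := fun _ => rfl
      have := fpf_enum niceP nice_dd t (fun i => by simp [t, g1])
        (fun i h => by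
          simp only [t] at h
          apply g2 (y i)
          apply y⁻¹.injective
          simpa using h)
        (fun i => by
          simp only [t]
          have hyi : y⁻¹ (y i) = i := by simp
          have := g3 (y i)
          simp only [hyi] at this
          rw [this]
          simp)
        (fun i h => by
          simp only [t] at h
          apply g4 (y i)
          have hyi : y⁻¹ (y i) = i := by simp
          simp only [hyi]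
          rw [← h]
          simp)
      intro i j
      rw [ht, ht]
      exact this i j

end Cfsg.Agent.H97.S8

namespace Cfsg.Agent.S5763

open Cfsg.Agent.H97.S8

/-- In the symmetric group on 8 letters any two Sylow 2-subgroups have non-trivial intersection: for a Sylow 2-subgroup H and every element x, H ∩ xHx⁻¹ ≠ 1. -/
theorem result (H : Sylow 2 (Equiv.Perm (Fin 8))) (x : Equiv.Perm (Fin 8)) :
    (H : Subgroup (Equiv.Perm (Fin 8))) ⊓ (H : Subgroup (Equiv.Perm (Fin 8))).map (MulAut.conj x).toMonoidHom ≠ ⊥ := by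
  obtain ⟨g, hg⟩ := MulAction.exists_smul_eq (Equiv.Perm (Fin 8)) sylD H
  have hH : ∀ z, z ∈ (H : Subgroup (Equiv.Perm (Fin 8))) ↔ g⁻¹ * z * g ∈ DD := by
    intro z
    rw [← hg, Sylow.coe_subgroup_smul, sylD_coe, Subgroup.mem_pointwise_smul_iff_inv_smul_mem]
    simp [MulAut.smul_def]
  obtain ⟨σ, hσ, hne, hy⟩ := exists_common (g⁻¹ * x * g)
  intro hbot
  have hmem : g * σ * g⁻¹ ∈ (H : Subgroup (Equiv.Perm (Fin 8))) ⊓
      (H : Subgroup (Equiv.Perm (Fin 8))).map (MulAut.conj x).toMonoidHom := by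
    refine ⟨?_, ?_⟩
    · refine (hH _).2 ?_
      simpa [mul_assoc] using hσ
    · refine ⟨x⁻¹ * (g * σ * g⁻¹) * x, ?_, ?_⟩
      · refine (hH _).2 ?_
        have : g⁻¹ * (x⁻¹ * (g * σ * g⁻¹) * x) * g = (g⁻¹ * x * g)⁻¹ * σ * (g⁻¹ * x * g) := by
          group
        rw [this]
        exact hy
      · simp [MulAut.conj_apply, mul_assoc]
  rw [hbot, Subgroup.mem_bot] at hmem
  apply hne
  have : g⁻¹ * (g * σ * g⁻¹) * g = 1 := by rw [hmem]; simp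
  simpa [mul_assoc] using this

end Cfsg.Agent.S5763
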