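import Cfsg.Statements.S5769
import Cfsg.Agent.Lib.N65.Final
import Cfsg.Agent.Lib.Ord65L
import Cfsg.Agent.Lib.Ord65Sp
import Cfsg.Agent.Lib.Ord65U

set_option autoImplicit false
open Cfsg

namespace Cfsg.Agent.S5769

theorem no_iso {X : Type*} [Group X] (H : Subgroup ↥(Cfsg.Lie.chevE7.group (ZMod 2))) (e : ↥H ≃* X) {y : X}
    (hy : orderOf y = 65) : False := by
  have h1 : orderOf (e.symm y) = 65 := by
    rw [MulEquiv.orderOf_eq, hy]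
  have h2 : orderOf ((e.symm y : ↥H) : ↥(Cfsg.Lie.chevE7.group (ZMod 2))) = 65 := by
    rw [Subgroup.orderOf_coe, h1]
  exact Cfsg.Agent.Lib.N65.no_order_65 _ h2

/-- The Chevalley group of type E₇ over the field with two elements (generated by its root elements in the adjoint representation) has no subgroup isomorphic to any of PSL₂(64), PSp₄(8), PSL₄(8), PSU₄(8) or PSp₆(8). Here F₈ and F₆₄ denote fields with 8 and 64 elements. -/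
theorem result {F₈ F₆₄ : Type*} [Field F₈] [Fintype F₈] (h8 : Fintype.card F₈ = 8) [Field F₆₄] [Fintype F₆₄] (h64 : Fintype.card F₆₄ = 64)
    (H : Subgroup ↥(Cfsg.Lie.chevE7.group (ZMod 2))) :
    IsEmpty (↥H ≃* Matrix.ProjectiveSpecialLinearGroup (Fin 2) F₆₄) ∧ IsEmpty (↥H ≃* Cfsg.PSp 2 F₈) ∧
    IsEmpty (↥H ≃* Matrix.ProjectiveSpecialLinearGroup (Fin 4) F₈) ∧ IsEmpty (↥H ≃* Cfsg.PSU 4 F₆₄ 8) ∧ IsEmpty (↥H ≃* Cfsg.PSp 3 F₈) := by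
  obtain ⟨x1, hx1⟩ := Cfsg.Agent.Lib.Ord65.psl2 h64
  obtain ⟨x2, hx2⟩ := Cfsg.Agent.Lib.Ord65.psp2 h8
  obtain ⟨x3, hx3⟩ := Cfsg.Agent.Lib.Ord65.psl4 h8
  obtain ⟨x4, hx4⟩ := Cfsg.Agent.Lib.Ord65.psu4 h64
  obtain ⟨x5, hx5⟩ := Cfsg.Agent.Lib.Ord65.psp3 h8
  exact ⟨⟨fun e => no_iso H e hx1⟩, ⟨fun e => no_iso H e hx2⟩, ⟨fun e => no_iso H e hx3⟩, ⟨fun e => no_iso H e hx4⟩,
    ⟨fun e => no_iso H e hx5⟩⟩

end Cfsg.Agent.S5769
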