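import Cfsg.Statements.S5883
import Cfsg.Agent.Lib.Fi23Mx3
import Cfsg.Agent.Lib.Fi23Mx4

set_option autoImplicit false
open Cfsg

namespace Cfsg.Agent.S5883

open Cfsg.Agent.Lib.OutTree36 Cfsg.Agent.Lib.TcBits Cfsg.Agent.Lib.TcPres Cfsg.Agent.Lib.PresChain36
open Cfsg.Agent.TcData.Fi23.I31671 Cfsg.Agent.TcData.Fi23 Cfsg.Agent.TcChain36.Fi23 Cfsg.Agent.TcChain36.Out.Fi23
open Cfsg.Agent.Lib.Fi23K24 Cfsg.Agent.Lib.CentFix24 Cfsg.Agent.Lib.Fi23Mx

/-- Two letters which do not commute. -/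
theorem not_comm : evL Lt [0, 1, 0, 1] ≠ 1 := evL_ne_one (by decide +kernel)

theorem exists_noncomm : ∃ x y : Gq, x * y ≠ y * x := by
  refine ⟨Lt 0, Lt 1, ?_⟩
  intro h
  apply not_comm
  have h0 : Lt 0 * Lt 0 = 1 := kit0.sq 0 (by norm_num)
  have h1 : Lt 1 * Lt 1 = 1 := kit0.sq 1 (by norm_num)
  have e : evL Lt [0, 1, 0, 1] = Lt 0 * (Lt 1 * (Lt 0 * Lt 1)) := by simp
  rw [e]
  calc Lt 0 * (Lt 1 * (Lt 0 * Lt 1)) = Lt 0 * (Lt 1 * Lt 0) * Lt 1 := by group
    _ = Lt 0 * (Lt 0 * Lt 1) * Lt 1 := by rw [h]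
    _ = (Lt 0 * Lt 0) * (Lt 1 * Lt 1) := by group
    _ = 1 := by rw [h0, h1, one_mul]

/-- The constant 10 in the statement that H⁽¹⁰⁾ is perfect for every maximal subgroup H of a finite almost simple group cannot be lowered to 9. -/
theorem result :
    ∃ (G : Type) (_ : Group G) (_ : Finite G) (S H : Subgroup G), S.Normal ∧ IsSimpleGroup S ∧ ¬ IsMulCommutative S ∧
      Subgroup.centralizer (S : Set G) = ⊥ ∧ IsCoatom H ∧ derivedSeries H 10 ≠ derivedSeries H 9 := by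
  haveI hfin : Finite Gq := Cfsg.Agent.TcChain36.Fi23.upper.2
  haveI hs : IsSimpleGroup Gq := simpleGq
  obtain ⟨x, y, hxy⟩ := exists_noncomm
  refine ⟨Gq, inferInstance, hfin, ⊤, Kn Um [], inferInstance, ?_, ?_, ?_, coatom_T, ?_⟩
  · exact (Subgroup.topEquiv (G := Gq)).isSimpleGroup
  · intro hc
    apply hxy
    have := hc.is_comm.comm (⟨x, trivial⟩ : (⊤ : Subgroup Gq)) ⟨y, trivial⟩
    exact congrArg Subtype.val this
  · rw [Subgroup.coe_top, Subgroup.centralizer_univ]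
    rcases IsSimpleGroup.eq_bot_or_eq_top_of_normal (Subgroup.center Gq) inferInstance with h | h
    · exact h
    · exfalso
      apply hxy
      have hx : x ∈ Subgroup.center Gq := by rw [h]; trivial
      exact (Subgroup.mem_center_iff.mp hx y).symm
  · haveI : Finite (Kn Um []) := inferInstance
    have hsolv : IsSolvable (Kn Um []) := by
      apply Cfsg.Agent.Lib.BurnsidePQ.isSolvable_of_card_eq 2 3 Nat.prime_two Nat.prime_three _ _ card_T
      exact ⟨11, 13, by norm_num⟩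
    exact derived_ne hsolv d9 a9_ne

end Cfsg.Agent.S5883
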