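import Cfsg.Statements.S5885

set_option autoImplicit false
open Cfsg

namespace Cfsg.Agent.H97

open Equiv in
/-- Every even permutation of `G ⧸ M` is induced by an element of `G`, if all primitive groups of degree `|G : M|`
contain the alternating group. -/
theorem exists_realize_even_perm {G : Type*} [Group G] [Finite G] (n : ℕ)
    (hA : ∀ P : Subgroup (Equiv.Perm (Fin n)), MulAction.IsPreprimitive P (Fin n) → alternatingGroup (Fin n) ≤ P)
    (M : Subgroup G) (hM : IsCoatom M) (hn : M.index = n) [Fintype (G ⧸ M)] [DecidableEq (G ⧸ M)]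
    (σ : Perm (G ⧸ M)) (hσ : Perm.sign σ = 1) : ∃ g : G, ∀ ω : G ⧸ M, g • ω = σ ω := by
  classical
  have hcard : Nat.card (G ⧸ M) = n := hn
  let e : (G ⧸ M) ≃ Fin n := Finite.equivFinOfCardEq hcard
  let φ : G →* Perm (Fin n) :=
    { toFun := fun g => e.permCongr (MulAction.toPerm g)
      map_one' := by ext i; simp [Equiv.permCongr_apply]
      map_mul' := fun a b => by ext i; simp [Equiv.permCongr_apply, mul_smul] }
  have hφ : ∀ g ω, φ g (e ω) = e (g • ω) := by
    intro g ω
    simp [φ, Equiv.permCongr_apply]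
  -- G acts primitively on the cosets
  have hnt : Nontrivial (G ⧸ M) := by
    have := Subgroup.one_lt_index_of_ne_top hM.1
    exact Finite.one_lt_card_iff_nontrivial.mp this
  have hprim : MulAction.IsPreprimitive G (G ⧸ M) := by
    rw [← MulAction.isCoatom_stabilizer_iff_preprimitive G ((1 : G) : G ⧸ M), MulAction.stabilizer_quotient]
    exact hM
  -- the image is primitive
  let P : Subgroup (Perm (Fin n)) := φ.range
  let ψ : G → P := fun g => ⟨φ g, ⟨g, rfl⟩⟩
  let f : (G ⧸ M) →ₑ[ψ] Fin n :=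
    { toFun := e
      map_smul' := fun g ω => (hφ g ω).symm }
  have hP : MulAction.IsPreprimitive P (Fin n) :=
    MulAction.IsPreprimitive.of_surjective (f := f) e.surjective
  have halt := hA P hP
  have hmem : e.permCongr σ ∈ alternatingGroup (Fin n) := by
    rw [Equiv.Perm.mem_alternatingGroup, Equiv.Perm.sign_permCongr, hσ]
  obtain ⟨g, hg⟩ := halt hmem
  refine ⟨g, fun ω => ?_⟩
  apply e.injective
  rw [← hφ, hg, Equiv.permCongr_apply, Equiv.symm_apply_apply]

open Equiv in
/-- The 3-cycle. -/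
def cyc3 {Ω : Type*} [DecidableEq Ω] (x y z : Ω) : Perm Ω := swap x y * swap y z

open Equiv in
theorem cyc3_sign {Ω : Type*} [DecidableEq Ω] [Fintype Ω] {x y z : Ω} (hxy : x ≠ y) (hyz : y ≠ z) :
    Perm.sign (cyc3 x y z) = 1 := by
  simp [cyc3, Perm.sign_swap hxy, Perm.sign_swap hyz]

theorem cyc3_x {Ω : Type*} [DecidableEq Ω] {x y z : Ω} (hxy : x ≠ y) (hxz : x ≠ z) : cyc3 x y z x = y := by
  simp [cyc3, Equiv.swap_apply_of_ne_of_ne hxy hxz]

theorem cyc3_y {Ω : Type*} [DecidableEq Ω] {x y z : Ω} (hxz : x ≠ z) (hyz : y ≠ z) : cyc3 x y z y = z := by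
  simp [cyc3, Equiv.swap_apply_of_ne_of_ne hxz.symm hyz.symm]

theorem cyc3_other {Ω : Type*} [DecidableEq Ω] {x y z w : Ω} (hx : w ≠ x) (hy : w ≠ y) (hz : w ≠ z) :
    cyc3 x y z w = w := by
  simp [cyc3, Equiv.swap_apply_of_ne_of_ne hy hz, Equiv.swap_apply_of_ne_of_ne hx hy]

/-- Maximality inside a subgroup, in elementwise terms. -/
theorem isCoatom_subgroupOf_iff_aux {G : Type*} [Group G] {H K : Subgroup G} (hHK : H ≤ K) :
    IsCoatom (H.subgroupOf K) ↔ H ≠ K ∧ ∀ T : Subgroup G, H ≤ T → T ≤ K → T = H ∨ T = K := by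
  constructor
  · intro h
    refine ⟨?_, fun T hHT hTK => ?_⟩
    · rintro rfl
      exact h.1 (Subgroup.subgroupOf_self H)
    · by_cases hTH : T = H
      · exact Or.inl hTH
      · right
        have hle : H.subgroupOf K ≤ T.subgroupOf K := Subgroup.comap_mono hHT
        have hne : H.subgroupOf K ≠ T.subgroupOf K := by
          intro he
          rw [Subgroup.subgroupOf_inj, inf_eq_left.mpr hHK, inf_eq_left.mpr hTK] at he
          exact hTH he.symm
        have := h.2 _ (lt_of_le_of_ne hle hne)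
        rw [Subgroup.subgroupOf_eq_top] at this
        exact le_antisymm hTK this
  · rintro ⟨hne, hT⟩
    refine ⟨?_, fun X hX => ?_⟩
    · intro he
      rw [Subgroup.subgroupOf_eq_top] at he
      exact hne (le_antisymm hHK he)
    · have hmap1 : H ≤ X.map K.subtype := by
        intro h hh
        refine ⟨⟨h, hHK hh⟩, ?_, rfl⟩
        exact hX.le (by simpa [Subgroup.mem_subgroupOf] using hh)
      have hmap2 : X.map K.subtype ≤ K := Subgroup.map_subtype_le X
      rcases hT _ hmap1 hmap2 with h | h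
      · exfalso
        apply hX.not_ge
        intro x hx
        rw [Subgroup.mem_subgroupOf, ← h]
        exact ⟨x, hx, rfl⟩
      · rw [eq_top_iff]
        intro x _
        have : (x : G) ∈ X.map K.subtype := by rw [h]; exact x.2
        obtain ⟨y, hy, hyx⟩ := this
        have : y = x := Subtype.ext hyx
        rwa [← this]

open scoped Pointwise in
/-- The main argument. -/
theorem second_maximal_of_giant {G : Type*} [Group G]
    [Finite G] (n : ℕ) (hodd : Odd n)
    (hA : ∀ P : Subgroup (Equiv.Perm (Fin n)), MulAction.IsPreprimitive P (Fin n) → alternatingGroup (Fin n) ≤ P)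
    (M : Subgroup G) (hM : IsCoatom M) (hn : M.index = n) (H : Subgroup G) (hHM : H ≤ M)
    (hmax : IsCoatom (H.subgroupOf M)) (K : Subgroup G) (hK : IsCoatom K) (hHK : H ≤ K) :
    IsCoatom (H.subgroupOf K) := by
  classical
  by_cases hKM : K = M
  · subst hKM; exact hmax
  obtain ⟨hHne, hHmax⟩ := (isCoatom_subgroupOf_iff_aux hHM).mp hmax
  have hKnleM : ¬ K ≤ M := fun h => hKM ((hK.le_iff.mp h).resolve_left hM.1).symm
  have hMnleK : ¬ M ≤ K := fun h => hKM ((hM.le_iff.mp h).resolve_left hK.1)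
  have hinf : K ⊓ M = H := by
    rcases hHmax (K ⊓ M) (le_inf hHK hHM) inf_le_right with h | h
    · exact h
    · exact absurd (inf_eq_right.mp h) hMnleK
  have hHneK : H ≠ K := by
    rintro rfl
    exact hKnleM hHM
  rw [isCoatom_subgroupOf_iff_aux hHK]
  refine ⟨hHneK, fun L hHL hLK => ?_⟩
  by_contra hcon
  push Not at hcon
  obtain ⟨hLH, hLK'⟩ := hcon
  -- notation
  let Ω := G ⧸ M
  let _ : Fintype Ω := Fintype.ofFinite Ω
  let a : Ω := ((1 : G) : G ⧸ M)
  have hsm : ∀ g : G, g • a = ((g : G) : G ⧸ M) := by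
    intro g
    rw [show a = QuotientGroup.mk (1 : G) from rfl, MulAction.Quotient.smul_mk, smul_eq_mul, mul_one]
  have haeq : ∀ g h : G, g • a = h • a ↔ g⁻¹ * h ∈ M := by
    intro g h
    rw [hsm, hsm, QuotientGroup.eq]
  -- the block property
  have hblock : ∀ g ∈ K, ∀ l ∈ L, g • a = l • a → g ∈ L := by
    intro g hg l hl he
    have h1 : g⁻¹ * l ∈ M := (haeq g l).mp he
    have h2 : g⁻¹ * l ∈ K ⊓ M := ⟨K.mul_mem (K.inv_mem hg) (hLK hl), h1⟩
    rw [hinf] at h2
    have h3 : g⁻¹ * l ∈ L := hHL h2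
    have h4 : g = l * (g⁻¹ * l)⁻¹ := by group
    rw [h4]
    exact L.mul_mem hl (L.inv_mem h3)
  obtain ⟨k, hkK, hkL⟩ : ∃ k ∈ K, k ∉ L := by
    by_contra h
    push Not at h
    exact hLK' (le_antisymm hLK h)
  obtain ⟨l₀, hl₀L, hl₀M⟩ : ∃ l ∈ L, l ∉ M := by
    by_contra h
    push Not at h
    apply hLH
    apply le_antisymm _ hHL
    rw [← hinf]
    exact le_inf hLK h
  let B : Set Ω := {ω | ∃ l ∈ L, l • a = ω}
  let B' : Set Ω := (fun ω => k • ω) '' B
  have hl₀a : l₀ • a ≠ a := by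
    intro he
    apply hl₀M
    have : l₀ • a = (1 : G) • a := by rw [he, one_smul]
    have h1 := (haeq l₀ 1).mp this
    have h2 : l₀ = (l₀⁻¹ * 1)⁻¹ := by group
    rw [h2]
    exact M.inv_mem h1
  let x : Ω := k • a
  let y : Ω := (k * l₀) • a
  have hxy : x ≠ y := by
    intro he
    apply hl₀a
    have : k • a = k • (l₀ • a) := by rw [← mul_smul]; exact he
    exact (MulAction.injective k this).symm
  have hxB : x ∉ B := by
    rintro ⟨l, hl, he⟩
    exact hkL (hblock k hkK l hl he.symm)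
  have hyB : y ∉ B := by
    rintro ⟨l, hl, he⟩
    have h1 := hblock (k * l₀) (K.mul_mem hkK (hLK hl₀L)) l hl he.symm
    apply hkL
    have h2 : k = k * l₀ * l₀⁻¹ := by group
    rw [h2]
    exact L.mul_mem h1 (L.inv_mem hl₀L)
  -- the third point
  have hz : ∃ z : Ω, z ∉ B ∧ z ∉ B' := by
    by_contra hcon
    push Not at hcon
    have hdisj : Disjoint B B' := by
      rw [Set.disjoint_left]
      rintro ω ⟨l, hl, he⟩ ⟨ω', ⟨l', hl', he'⟩, hω'⟩
      apply hkL
      have h1 : (k * l') • a = l • a := by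
        rw [he, mul_smul, he']
        exact hω'
      have h2 := hblock (k * l') (K.mul_mem hkK (hLK hl')) l hl h1
      have h3 : k = k * l' * l'⁻¹ := by group
      rw [h3]
      exact L.mul_mem h2 (L.inv_mem hl')
    have hunion : B ∪ B' = Set.univ := by
      ext ω
      simp only [Set.mem_union, Set.mem_univ, iff_true]
      by_cases h : ω ∈ B
      · exact Or.inl h
      · exact Or.inr (hcon ω h)
    have hcard : Nat.card Ω = 2 * B.ncard := by
      have h1 : (B ∪ B').ncard = B.ncard + B'.ncard := Set.ncard_union_eq hdisj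
      have h2 : B'.ncard = B.ncard := Set.ncard_image_of_injective _ (MulAction.injective k)
      rw [hunion, Set.ncard_univ, h2] at h1
      rw [h1]; ring
    have hcardn : Nat.card Ω = n := hn
    rw [hcardn] at hcard
    rw [hcard] at hodd
    exact (Nat.not_even_iff_odd.mpr hodd) (even_two_mul _)
  obtain ⟨z, hzB, hzB'⟩ := hz
  have hxB' : x ∈ B' := ⟨a, ⟨1, L.one_mem, one_smul _ _⟩, rfl⟩
  have hyB' : y ∈ B' := ⟨l₀ • a, ⟨l₀, hl₀L, rfl⟩, (mul_smul k l₀ a).symm⟩
  have hxz : x ≠ z := fun h => hzB' (h ▸ hxB')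
  have hyz : y ≠ z := fun h => hzB' (h ▸ hyB')
  -- realise the 3-cycle
  obtain ⟨g, hg⟩ := exists_realize_even_perm n hA M hM hn (cyc3 x y z) (cyc3_sign hxy hyz)
  have hgx : g • x = y := by rw [hg, cyc3_x hxy hxz]
  have hgy : g • y = z := by rw [hg, cyc3_y hxz hyz]
  have hgB : ∀ ω ∈ B, g • ω = ω := by
    intro ω hω
    rw [hg]
    apply cyc3_other
    · exact fun h => hxB (h ▸ hω)
    · exact fun h => hyB (h ▸ hω)
    · exact fun h => hzB (h ▸ hω)
  have haB : a ∈ B := ⟨1, L.one_mem, one_smul _ _⟩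
  have hgM : g ∈ M := by
    have h1 : g • a = (1 : G) • a := by rw [hgB a haB, one_smul]
    have h2 := (haeq g 1).mp h1
    have h3 : g = (g⁻¹ * 1)⁻¹ := by group
    rw [h3]
    exact M.inv_mem h2
  -- the stabiliser of B in M
  let T₀ : Subgroup G := M ⊓ MulAction.stabilizer G B
  have hHT₀ : H ≤ T₀ := by
    intro h hh
    refine ⟨hHM hh, ?_⟩
    show h • B = B
    ext ω
    rw [Set.mem_smul_set]
    constructor
    · rintro ⟨ω', ⟨l, hl, rfl⟩, rfl⟩
      exact ⟨h * l, L.mul_mem (hHL hh) hl, mul_smul h l a⟩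
    · rintro ⟨l, hl, rfl⟩
      exact ⟨h⁻¹ • (l • a), ⟨h⁻¹ * l, L.mul_mem (L.inv_mem (hHL hh)) hl, mul_smul _ _ _⟩, smul_inv_smul _ _⟩
  have hT₀M : T₀ ≠ M := by
    intro he
    let b : Ω := l₀ • a
    have hbB : b ∈ B := ⟨l₀, hl₀L, rfl⟩
    have hbx : b ≠ x := fun h => hxB (h ▸ hbB)
    have hby : b ≠ y := fun h => hyB (h ▸ hbB)
    obtain ⟨g₂, hg₂⟩ := exists_realize_even_perm n hA M hM hn (cyc3 b x y) (cyc3_sign hbx hxy)
    have hg₂b : g₂ • b = x := by rw [hg₂, cyc3_x hbx hby]
    have hg₂a : g₂ • a = a := by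
      rw [hg₂]
      apply cyc3_other
      · exact fun h => hl₀a h.symm
      · exact fun h => hxB (h ▸ haB)
      · exact fun h => hyB (h ▸ haB)
    have hg₂M : g₂ ∈ M := by
      have h1 : g₂ • a = (1 : G) • a := by rw [hg₂a, one_smul]
      have h2 := (haeq g₂ 1).mp h1
      have h3 : g₂ = (g₂⁻¹ * 1)⁻¹ := by group
      rw [h3]
      exact M.inv_mem h2
    have : g₂ ∈ T₀ := by rw [he]; exact hg₂M
    have hst : g₂ • B = B := this.2
    apply hxB
    rw [← hst, ← hg₂b]
    exact Set.smul_mem_smul_set hbB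
  have hT₀H : T₀ = H := (hHmax T₀ hHT₀ inf_le_left).resolve_right hT₀M
  have hgT₀ : g ∈ T₀ := by
    refine ⟨hgM, ?_⟩
    show g • B = B
    ext ω
    rw [Set.mem_smul_set]
    constructor
    · rintro ⟨ω', hω', rfl⟩
      rw [hgB ω' hω']
      exact hω'
    · intro hω
      exact ⟨ω, hω, hgB ω hω⟩
  have hgK : g ∈ K := hHK (hT₀H ▸ hgT₀)
  -- the contradiction
  have h1 : (g * k) • a = (k * l₀) • a := by
    rw [mul_smul]
    exact hgx
  have h2 : (k * l₀)⁻¹ * (g * k) ∈ M := (haeq (k * l₀) (g * k)).mp h1.symm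
  have h3 : (k * l₀)⁻¹ * (g * k) ∈ K ⊓ M :=
    ⟨K.mul_mem (K.inv_mem (K.mul_mem hkK (hLK hl₀L))) (K.mul_mem hgK hkK), h2⟩
  rw [hinf] at h3
  have h4 : (k * l₀)⁻¹ * (g * k) ∈ L := hHL h3
  have h5 : k⁻¹ * g * k ∈ L := by
    have h6 : k⁻¹ * g * k = l₀ * ((k * l₀)⁻¹ * (g * k)) := by group
    rw [h6]
    exact L.mul_mem hl₀L h4
  apply hzB'
  refine ⟨(k⁻¹ * g * k * l₀) • a, ⟨k⁻¹ * g * k * l₀, L.mul_mem h5 hl₀L, rfl⟩, ?_⟩
  show k • ((k⁻¹ * g * k * l₀) • a) = z
  rw [← hgy]
  show k • ((k⁻¹ * g * k * l₀) • a) = g • ((k * l₀) • a)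
  simp only [← mul_smul]
  congr 1
  group

end Cfsg.Agent.H97

namespace Cfsg.Agent.S5885

/-- Let n be an odd positive integer such that every primitive permutation group of degree n contains the alternating group (so the symmetric and alternating groups are the only primitive groups of degree n). Let G be a finite group, M a maximal subgroup of G of index n, and H a maximal subgroup of M. Then H is a second maximal subgroup of G: H is maximal in every maximal subgroup K of G containing H. -/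
theorem result {G : Type*} [Group G]
    [Finite G] (n : ℕ) (hodd : Odd n)
    (hA : ∀ P : Subgroup (Equiv.Perm (Fin n)), MulAction.IsPreprimitive P (Fin n) → alternatingGroup (Fin n) ≤ P)
    (M : Subgroup G) (hM : IsCoatom M) (hn : M.index = n) (H : Subgroup G) (hHM : H ≤ M)
    (hmax : IsCoatom (H.subgroupOf M)) (K : Subgroup G) (hK : IsCoatom K) (hHK : H ≤ K) :
    IsCoatom (H.subgroupOf K) :=
  Cfsg.Agent.H97.second_maximal_of_giant n hodd hA M hM hn H hHM hmax K hK hHK

end Cfsg.Agent.S5885
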