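import Mathlib
import Cfsg.Statements.S5887

set_option autoImplicit false
set_option linter.all false
open Cfsg

namespace Cfsg.Agent.S5887

open Matrix

section core
variable {F : Type*} [Field F] {n : ℕ}

theorem det_one_add_of_sq {A : Matrix (Fin n) (Fin n) F} (hA : A * A = 0) :
    Matrix.det (1 + A) = 1 := by
  have hnil : IsNilpotent (-A) := ⟨2, by rw [pow_two]; simp [hA]⟩
  have h1 := Matrix.isNilpotent_charpoly_sub_pow_of_isNilpotent hnil
  have h2 : (-A).charpoly = Polynomial.X ^ Fintype.card (Fin n) := by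
    have := h1.eq_zero
    exact sub_eq_zero.mp this
  have h3 := Matrix.eval_charpoly (-A) (1 : F)
  rw [h2] at h3
  simp at h3
  have h4 : (1 : Matrix (Fin n) (Fin n) F) + A = Matrix.scalar (Fin n) (1 : F) - (-A) := by
    simp
  exact h3.symm

theorem core {d₀ d₁ : ℕ} {E : Type*} [Field E] [Algebra F E]
    (ρ : E →ₐ[F] Matrix (Fin n) (Fin n) F)
    (hfin : Module.finrank F E = d₀) (hd₀ : 0 < d₀)
    (E₁ : Subalgebra F (Matrix (Fin n) (Fin n) F)) (h₁ : Cfsg.Geo.IsFieldSubalgebra d₁ E₁)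
    (hle : ∀ e, ρ e ∈ E₁) (hne : ∃ e₁ ∈ E₁, ∀ e, ρ e ≠ e₁) (hn : d₀ + d₁ < n) (hle01 : d₀ ≤ d₁) :
    ∃ g : GL (Fin n) F, Matrix.det (g : Matrix (Fin n) (Fin n) F) = 1 ∧
      (∀ e, (g : Matrix (Fin n) (Fin n) F) * ρ e = ρ e * g) ∧
      g ∉ Cfsg.Geo.subalgebraNormalizer E₁ := by
  classical
  let V := Fin n → F
  letI modE : Module E V :=
    { smul := fun e v => (ρ e) *ᵥ v
      one_smul := fun v => by change (ρ 1) *ᵥ v = v; simp
      mul_smul := fun a b v => by
        change (ρ (a * b)) *ᵥ v = (ρ a) *ᵥ ((ρ b) *ᵥ v)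
        simp [Matrix.mulVec_mulVec]
      smul_zero := fun a => Matrix.mulVec_zero _
      smul_add := fun a v w => Matrix.mulVec_add _ _ _
      add_smul := fun a b v => by
        change (ρ (a + b)) *ᵥ v = (ρ a) *ᵥ v + (ρ b) *ᵥ v
        simp [Matrix.add_mulVec]
      zero_smul := fun v => by
        change (ρ 0) *ᵥ v = 0
        simp }
  have smul_def : ∀ (e : E) (v : V), e • v = (ρ e) *ᵥ v := fun _ _ => rfl
  haveI tower : IsScalarTower F E V := ⟨fun c e v => by
    rw [smul_def, smul_def, map_smul, Matrix.smul_mulVec]⟩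
  haveI : FiniteDimensional F E := by
    apply Module.finite_of_finrank_pos
    omega
  haveI : Module.Finite E V := Module.Finite.of_restrictScalars_finite F E V
  have hmul : Module.finrank F E * Module.finrank E V = n := by
    have := Module.finrank_mul_finrank F E V
    simpa [V] using this
  rw [hfin] at hmul
  have hm : 2 ≤ Module.finrank E V := by
    by_contra hlt
    have : Module.finrank E V ≤ 1 := by omega
    have : d₀ * Module.finrank E V ≤ d₀ * 1 := Nat.mul_le_mul_left _ this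
    omega
  let b := Module.finBasis E V
  let i : Fin (Module.finrank E V) := ⟨0, by omega⟩
  let j : Fin (Module.finrank E V) := ⟨1, by omega⟩
  have hij : i ≠ j := by
    intro h
    have := congrArg Fin.val h
    simp [i, j] at this
  let φ : V →ₗ[E] E := b.coord i
  let w : V := b j
  have hφw : φ w = 0 := by simp [φ, w, Module.Basis.coord_apply, Finsupp.single_apply, hij.symm]
  have hx1 : φ (b i) = 1 := by simp [φ]
  have hw : w ≠ 0 := b.ne_zero j
  let N : V →ₗ[F] V := ((LinearMap.toSpanSingleton E V w).restrictScalars F) ∘ₗ (φ.restrictScalars F)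
  have hN : ∀ x, N x = (φ x) • w := fun x => rfl
  let A : Matrix (Fin n) (Fin n) F := LinearMap.toMatrix' N
  have hA : ∀ x : V, A *ᵥ x = (φ x) • w := fun x => by
    simp only [A]
    rw [LinearMap.toMatrix'_mulVec]
    rfl
  have hAA : A * A = 0 := by
    apply Matrix.mulVec_injective
    funext x
    rw [← Matrix.mulVec_mulVec, hA, hA]
    simp [hφw]
  let g : GL (Fin n) F := ⟨1 + A, 1 - A, by
    simp [add_mul, mul_sub, hAA], by simp [sub_mul, mul_add, hAA]⟩
  have hg : ∀ x : V, (g : Matrix (Fin n) (Fin n) F) *ᵥ x = x + (φ x) • w := fun x => by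
    change (1 + A) *ᵥ x = _
    rw [Matrix.add_mulVec, Matrix.one_mulVec, hA]
  refine ⟨g, det_one_add_of_sq hAA, ?_, ?_⟩
  · intro e
    apply Matrix.mulVec_injective
    funext x
    rw [← Matrix.mulVec_mulVec, ← Matrix.mulVec_mulVec, hg]
    have h1 : ρ e *ᵥ x = e • x := rfl
    rw [h1, hg, map_smul, smul_eq_mul]
    rw [Matrix.mulVec_add]
    have h2 : ρ e *ᵥ ((φ x) • w) = (e * φ x) • w := by
      rw [mul_smul]; rfl
    rw [h2]
    rfl
  · intro hgN
    let ψ : V →ₗ[F] E := φ.restrictScalars F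
    let τ : E₁ →ₗ[F] V :=
      { toFun := fun e => e.1 *ᵥ w
        map_add' := fun a b => by simp [Matrix.add_mulVec]
        map_smul' := fun c a => by simp [Matrix.smul_mulVec] }
    have hexists : ∃ x : V, φ x = 0 ∧ x ∉ LinearMap.range τ := by
      by_contra hcon
      push Not at hcon
      have hker : LinearMap.ker ψ ≤ LinearMap.range τ := fun x hx => hcon x hx
      have h1 := LinearMap.finrank_range_add_finrank_ker ψ
      haveI : FiniteDimensional F E₁ := by
        apply Module.finite_of_finrank_pos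
        rw [h₁.finrank_eq]
        omega
      have h2 : Module.finrank F (LinearMap.range ψ) ≤ d₀ := (Submodule.finrank_le _).trans_eq hfin
      have h3 : Module.finrank F (LinearMap.ker ψ) ≤ Module.finrank F (LinearMap.range τ) :=
        Submodule.finrank_mono hker
      have h4 : Module.finrank F (LinearMap.range τ) ≤ d₁ :=
        (LinearMap.finrank_range_le τ).trans_eq h₁.finrank_eq
      have h5 : Module.finrank F V = n := by simp [V]
      omega
    obtain ⟨x, hφx, hxr⟩ := hexists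
    have hginv : ((g⁻¹ : GL (Fin n) F) : Matrix (Fin n) (Fin n) F) * g = 1 := by
      rw [← Units.val_mul]; simp
    have hcomm : ∀ e ∈ E₁, (g : Matrix (Fin n) (Fin n) F) * e = e * g := by
      intro e he
      have he' := (hgN e).1 he
      set e' : Matrix (Fin n) (Fin n) F :=
        (g : Matrix (Fin n) (Fin n) F) * e * ((g⁻¹ : GL (Fin n) F) : Matrix (Fin n) (Fin n) F) with he'def
      have h : (g : Matrix (Fin n) (Fin n) F) * e = e' * g := by
        rw [he'def, mul_assoc _ _ (g : Matrix (Fin n) (Fin n) F), hginv, mul_one]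
      by_cases hee : e = e'
      · rw [h, ← hee]
      · exfalso
        obtain ⟨y, hy, hy2⟩ := h₁.inv (e - e') (sub_mem he he') (sub_ne_zero.2 hee)
        have hy3 : y * (e - e') = 1 := by
          rw [h₁.comm y hy _ (sub_mem he he')]; exact hy2
        have h5 : (g : Matrix (Fin n) (Fin n) F) *ᵥ (e *ᵥ x) = e' *ᵥ ((g : Matrix (Fin n) (Fin n) F) *ᵥ x) := by
          rw [Matrix.mulVec_mulVec, Matrix.mulVec_mulVec, h]
        rw [hg, hg, hφx, zero_smul, add_zero] at h5
        have h6 : (e - e') *ᵥ x = -((φ (e *ᵥ x)) • w) := by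
          rw [Matrix.sub_mulVec, ← h5]
          abel
        apply hxr
        refine ⟨⟨y * (-(ρ (φ (e *ᵥ x)))), mul_mem hy (neg_mem (hle _))⟩, ?_⟩
        change (y * (-(ρ (φ (e *ᵥ x))))) *ᵥ w = x
        calc (y * (-(ρ (φ (e *ᵥ x))))) *ᵥ w = y *ᵥ (-((φ (e *ᵥ x)) • w)) := by
              rw [← Matrix.mulVec_mulVec, Matrix.neg_mulVec]; rfl
          _ = y *ᵥ ((e - e') *ᵥ x) := by rw [h6]
          _ = x := by rw [Matrix.mulVec_mulVec, hy3, Matrix.one_mulVec]
    obtain ⟨e₁, he₁, hne₁⟩ := hne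
    have h8 : (g : Matrix (Fin n) (Fin n) F) *ᵥ (e₁ *ᵥ (b i)) = e₁ *ᵥ ((g : Matrix (Fin n) (Fin n) F) *ᵥ (b i)) := by
      rw [Matrix.mulVec_mulVec, Matrix.mulVec_mulVec, hcomm e₁ he₁]
    rw [hg, hg, hx1, one_smul, Matrix.mulVec_add, add_right_inj] at h8
    have h9 : (e₁ - ρ (φ (e₁ *ᵥ (b i)))) *ᵥ w = 0 := by
      rw [Matrix.sub_mulVec, sub_eq_zero]
      exact h8.symm
    have hne2 : e₁ - ρ (φ (e₁ *ᵥ (b i))) ≠ 0 := fun h0 =>
      hne₁ _ (sub_eq_zero.1 h0).symm
    obtain ⟨y, hy, hy2⟩ := h₁.inv _ (sub_mem he₁ (hle _)) hne2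
    have hy3 : y * (e₁ - ρ (φ (e₁ *ᵥ (b i)))) = 1 := by
      rw [h₁.comm y hy _ (sub_mem he₁ (hle _))]; exact hy2
    apply hw
    have : w = y *ᵥ ((e₁ - ρ (φ (e₁ *ᵥ (b i)))) *ᵥ w) := by
      rw [Matrix.mulVec_mulVec, hy3, Matrix.one_mulVec]
    rw [this, h9, Matrix.mulVec_zero]

end core

section main

variable {F : Type*} [Field F] [Fintype F] {n : ℕ}

/-- field instance from `IsFieldSubalgebra`. -/
@[reducible] noncomputable def fieldOf {d : ℕ} (E : Subalgebra F (Matrix (Fin n) (Fin n) F))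
    (h : Cfsg.Geo.IsFieldSubalgebra d E) (hd : 0 < d) : Field E := by
  classical
  have hne : Nontrivial E := Module.nontrivial_of_finrank_pos (R := F) (h.finrank_eq ▸ hd)
  letI : CommRing E := { (inferInstance : Ring E) with
    mul_comm := fun a b => Subtype.ext (h.comm a a.2 b b.2) }
  exact Field.ofIsUnitOrEqZero (fun a => by
    by_cases ha : a = 0
    · exact Or.inr ha
    · left
      have ha' : (a : Matrix (Fin n) (Fin n) F) ≠ 0 := fun h0 => ha (Subtype.ext h0)
      obtain ⟨y, hy, hy2⟩ := h.inv a a.2 ha'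
      exact IsUnit.of_mul_eq_one ⟨y, hy⟩ (Subtype.ext hy2))

theorem exists_transvection {d₀ d₁ : ℕ} (E₀ E₁ : Subalgebra F (Matrix (Fin n) (Fin n) F))
    (h₀ : Cfsg.Geo.IsFieldSubalgebra d₀ E₀) (h₁ : Cfsg.Geo.IsFieldSubalgebra d₁ E₁)
    (hd₀ : 0 < d₀) (hle : E₀ ≤ E₁) (hne : E₀ ≠ E₁) (hn : d₀ + d₁ < n) (hle01 : d₀ ≤ d₁) :
    ∃ g : GL (Fin n) F, Matrix.det (g : Matrix (Fin n) (Fin n) F) = 1 ∧
      (∀ e ∈ E₀, (g : Matrix (Fin n) (Fin n) F) * e = e * g) ∧
      g ∉ Cfsg.Geo.subalgebraNormalizer E₁ := by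
  classical
  letI fE : Field E₀ := fieldOf E₀ h₀ hd₀
  letI algE : Algebra F E₀ := inferInstanceAs (Algebra F E₀)
  have hfin : Module.finrank F E₀ = d₀ := h₀.finrank_eq
  let ρ : E₀ →ₐ[F] Matrix (Fin n) (Fin n) F := E₀.val
  obtain ⟨e₁, he₁, he₁'⟩ := SetLike.exists_of_lt (lt_of_le_of_ne hle hne)
  obtain ⟨g, hg1, hg2, hg3⟩ := core (E := E₀) ρ hfin hd₀ E₁ h₁ (fun e => hle e.2)
    ⟨e₁, he₁, fun e h => he₁' (h ▸ e.2)⟩ hn hle01
  exact ⟨g, hg1, fun e he => hg2 ⟨e, he⟩, hg3⟩

theorem field_facts {K₀ : Type*} [Field K₀] [Algebra F K₀] [Fintype K₀] {r s : ℕ}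
    (hr : Module.finrank F K₀ = r) (hs : s ∣ r) (h1 : 1 < s) (h2 : s < r) :
    (∃ u : K₀, u ^ (Fintype.card F ^ s) = u ∧ ∀ c : F, algebraMap F K₀ c ≠ u) ∧
      ∃ θ : K₀, θ ^ (Fintype.card F ^ s) ≠ θ := by
  classical
  set q := Fintype.card F with hq
  have hq2 : 1 < q := Fintype.one_lt_card
  have hcard : Fintype.card K₀ = q ^ r := by
    rw [Module.card_eq_pow_finrank (K := F) (V := K₀), hr]
  obtain ⟨θ, hθ⟩ := IsCyclic.exists_generator (α := K₀ˣ)
  have hord : orderOf θ = q ^ r - 1 := by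
    rw [orderOf_eq_card_of_forall_mem_zpowers hθ, Nat.card_eq_fintype_card, Fintype.card_units, hcard]
  have hqs : q < q ^ s := by
    calc q = q ^ 1 := (pow_one q).symm
      _ < q ^ s := Nat.pow_lt_pow_right hq2 h1
  have hqr : q ^ s < q ^ r := Nat.pow_lt_pow_right hq2 h2
  obtain ⟨k, hk⟩ := hs
  have hdvd : q ^ s - 1 ∣ q ^ r - 1 := by
    have := Nat.sub_dvd_pow_sub_pow (q ^ s) 1 k
    rw [one_pow, ← pow_mul, ← hk] at this
    exact this
  obtain ⟨m, hm⟩ := hdvd
  have hmpos : 0 < m := by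
    rcases Nat.eq_zero_or_pos m with h0 | h0
    · subst h0
      have : 2 ≤ q ^ r := by omega
      omega
    · exact h0
  constructor
  · refine ⟨((θ ^ m : K₀ˣ) : K₀), ?_, ?_⟩
    · have h3 : (θ ^ m) ^ (q ^ s - 1) = 1 := by
        rw [← pow_mul, mul_comm, ← hm, ← hord, pow_orderOf_eq_one]
      have h4 : q ^ s = (q ^ s - 1) + 1 := by omega
      rw [h4, pow_succ]
      have h5 : ((θ ^ m : K₀ˣ) : K₀) ^ (q ^ s - 1) = 1 := by
        rw [← Units.val_pow_eq_pow_val, h3, Units.val_one]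
      rw [h5, one_mul]
    · intro c hc
      have hc0 : c ≠ 0 := by
        rintro rfl
        rw [map_zero] at hc
        exact (Units.ne_zero (θ ^ m)) hc.symm
      have h3 : c ^ (q - 1) = 1 := FiniteField.pow_card_sub_one_eq_one c hc0
      have h4 : ((θ ^ m : K₀ˣ) : K₀) ^ (q - 1) = 1 := by
        rw [← hc, ← map_pow, h3, map_one]
      have h5 : (θ ^ m) ^ (q - 1) = 1 := by
        apply Units.ext
        rw [Units.val_pow_eq_pow_val, h4, Units.val_one]
      rw [← pow_mul] at h5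
      have h6 : orderOf θ ∣ m * (q - 1) := orderOf_dvd_of_pow_eq_one h5
      rw [hord, hm] at h6
      have hpos : 0 < m * (q - 1) := Nat.mul_pos hmpos (by omega)
      have h7 := Nat.le_of_dvd hpos h6
      have h8 : q - 1 < q ^ s - 1 := by omega
      have h9 : (q ^ s - 1) * m = m * (q ^ s - 1) := Nat.mul_comm _ _
      have h10 : m * (q - 1) < m * (q ^ s - 1) := Nat.mul_lt_mul_of_pos_left h8 hmpos
      omega
  · refine ⟨(θ : K₀), fun h => ?_⟩
    have h4 : q ^ s = (q ^ s - 1) + 1 := by omega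
    rw [h4, pow_succ] at h
    have h5 : (θ : K₀) ^ (q ^ s - 1) = 1 := by
      exact mul_right_cancel₀ (Units.ne_zero θ) (h.trans (one_mul _).symm)
    have h6 : θ ^ (q ^ s - 1) = 1 := by
      apply Units.ext
      rw [Units.val_pow_eq_pow_val, h5, Units.val_one]
    have h7 := orderOf_dvd_of_pow_eq_one h6
    rw [hord] at h7
    have := Nat.le_of_dvd (by omega) h7
    omega

theorem bot_field (hn : 0 < n) :
    Cfsg.Geo.IsFieldSubalgebra 1 (⊥ : Subalgebra F (Matrix (Fin n) (Fin n) F)) := by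
  haveI : Nonempty (Fin n) := ⟨⟨0, hn⟩⟩
  refine ⟨?_, ?_, Subalgebra.finrank_bot⟩
  · rintro x hx y hy
    obtain ⟨c, rfl⟩ := Algebra.mem_bot.1 hx
    exact Algebra.commutes c y
  · rintro x hx hne
    obtain ⟨c, rfl⟩ := Algebra.mem_bot.1 hx
    have hc : c ≠ 0 := by
      rintro rfl
      exact hne (map_zero _)
    refine ⟨algebraMap F _ c⁻¹, Algebra.mem_bot.2 ⟨_, rfl⟩, ?_⟩
    rw [← map_mul, mul_inv_cancel₀ hc, map_one]

theorem main_thm (r : ℕ) (hr1 : 1 < r) (hrp : ¬ r.Prime) (hrn : r ∣ n) (hlt : r < n)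
    (K : Subalgebra F (Matrix (Fin n) (Fin n) F)) (hK : Cfsg.Geo.IsFieldSubalgebra r K) :
    ¬ IsCoatom (Cfsg.Geo.subalgebraNormalizer K) ∧
      ¬ Cfsg.Geo.IsMaximalIn (Cfsg.Geo.specialLinear (Fin n) F)
        (Cfsg.Geo.subalgebraNormalizer K ⊓ Cfsg.Geo.specialLinear (Fin n) F) := by
  classical
  have hrpos : 0 < r := by omega
  have h2r : 2 * r ≤ n := by
    obtain ⟨k, hk⟩ := hrn
    rcases Nat.lt_or_ge k 2 with h | h
    · have : k ≤ 1 := by omega
      have : r * k ≤ r * 1 := Nat.mul_le_mul_left _ this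
      omega
    · calc 2 * r = r * 2 := Nat.mul_comm _ _
        _ ≤ r * k := Nat.mul_le_mul_left _ h
        _ = n := hk.symm
  have hnpos : 0 < n := by omega
  haveI : Nonempty (Fin n) := ⟨⟨0, hnpos⟩⟩
  letI fK : Field K := fieldOf K hK hrpos
  letI algK : Algebra F K := inferInstanceAs (Algebra F K)
  letI fintK : Fintype K := Fintype.ofFinite K
  have hs_prime : (r.minFac).Prime := Nat.minFac_prime (by omega)
  have hs_dvd : r.minFac ∣ r := Nat.minFac_dvd r
  have hs1 : 1 < r.minFac := hs_prime.one_lt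
  have hs2 : r.minFac < r := by
    have h1 := Nat.minFac_le (n := r) hrpos
    rcases Nat.lt_or_ge r.minFac r with h | h
    · exact h
    · exfalso
      have : r.minFac = r := le_antisymm h1 h
      exact hrp (this ▸ hs_prime)
  set s := r.minFac with hs_def
  obtain ⟨⟨u, hu1, hu2⟩, θ, hθ⟩ := field_facts (F := F) (K₀ := K) hK.finrank_eq hs_dvd hs1 hs2
  set Q := Fintype.card F ^ s with hQ
  let φ : K →ₐ[F] K := (FiniteField.frobeniusAlgHom F K) ^ s
  have hφ : ∀ x : K, φ x = x ^ Q := by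
    intro x
    simp only [φ, AlgHom.coe_pow, FiniteField.coe_frobeniusAlgHom, pow_iterate, hQ]
  let L : Subalgebra F (Matrix (Fin n) (Fin n) F) := (AlgHom.equalizer φ (AlgHom.id F K)).map K.val
  have hLmem : ∀ x : Matrix (Fin n) (Fin n) F, x ∈ L ↔ x ∈ K ∧ x ^ Q = x := by
    intro x
    constructor
    · rintro ⟨y, hy, rfl⟩
      refine ⟨y.2, ?_⟩
      have h1 : φ y = y := hy
      rw [hφ] at h1
      exact congrArg Subtype.val h1
    · rintro ⟨hx, hx2⟩
      refine ⟨⟨x, hx⟩, ?_, rfl⟩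
      have h1 : φ ⟨x, hx⟩ = ⟨x, hx⟩ := by
        rw [hφ]
        exact Subtype.ext hx2
      exact h1
  -- L is a field subalgebra
  have hLK : L ≤ K := fun x hx => ((hLmem x).1 hx).1
  have hnontriv : Nontrivial (Matrix (Fin n) (Fin n) F) := inferInstance
  have hLpos : 0 < Module.finrank F L := by
    haveI : Nontrivial L := ⟨⟨0, 1, fun h => zero_ne_one (congrArg Subtype.val h)⟩⟩
    exact Module.finrank_pos
  have hLfield : Cfsg.Geo.IsFieldSubalgebra (Module.finrank F L) L := by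
    refine ⟨fun x hx y hy => hK.comm x (hLK hx) y (hLK hy), ?_, rfl⟩
    intro x hx hne
    obtain ⟨y, hy, hy2⟩ := hK.inv x (hLK hx) hne
    refine ⟨y, (hLmem y).2 ⟨hy, ?_⟩, hy2⟩
    have hcomm : Commute x y := hK.comm x (hLK hx) y hy
    have h1 : x ^ Q * y ^ Q = 1 := by
      rw [← hcomm.mul_pow, hy2, one_pow]
    rw [((hLmem x).1 hx).2] at h1
    have hyx : y * x = 1 := by rw [← hy2]; exact hcomm.symm.eq
    calc y ^ Q = (y * x) * y ^ Q := by rw [hyx, one_mul]
      _ = y * (x * y ^ Q) := mul_assoc _ _ _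
      _ = y := by rw [h1, mul_one]
  have huL : (u : Matrix (Fin n) (Fin n) F) ∈ L := by
    refine (hLmem _).2 ⟨u.2, ?_⟩
    exact congrArg Subtype.val hu1
  have hLbot : (⊥ : Subalgebra F (Matrix (Fin n) (Fin n) F)) ≠ L := by
    intro h
    rw [← h] at huL
    obtain ⟨c, hc⟩ := Algebra.mem_bot.1 huL
    exact hu2 c (Subtype.ext hc)
  have hLne : L ≠ K := by
    intro h
    have : (θ : Matrix (Fin n) (Fin n) F) ∈ L := (SetLike.ext_iff.1 h _).2 θ.2
    exact hθ (Subtype.ext ((hLmem _).1 this).2)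
  have hdim : Module.finrank F L < r := by
    have h1 : Subalgebra.toSubmodule L < Subalgebra.toSubmodule K := by
      refine lt_of_le_of_ne hLK ?_
      intro h
      exact hLne (Subalgebra.toSubmodule_injective h)
    have := Submodule.finrank_lt_finrank_of_lt h1
    have h2 : Module.finrank F (Subalgebra.toSubmodule K) = r := hK.finrank_eq
    rw [h2] at this
    exact this
  obtain ⟨g₁, hg11, hg12, hg13⟩ := exists_transvection L K hLfield hK hLpos hLK hLne
    (by omega) hdim.le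
  obtain ⟨g₂, hg21, -, hg23⟩ := exists_transvection (⊥ : Subalgebra F (Matrix (Fin n) (Fin n) F)) L
    (bot_field hnpos) hLfield (by omega) bot_le hLbot (by omega) (by omega)
  have hNN : Cfsg.Geo.subalgebraNormalizer K ≤ Cfsg.Geo.subalgebraNormalizer L := by
    intro g hg k
    rw [hLmem, hLmem]
    have hconj : ((g : Matrix (Fin n) (Fin n) F) * k * ((g⁻¹ : GL (Fin n) F) : Matrix (Fin n) (Fin n) F)) ^ Q =
        (g : Matrix (Fin n) (Fin n) F) * k ^ Q * ((g⁻¹ : GL (Fin n) F) : Matrix (Fin n) (Fin n) F) :=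
      Units.conj_pow g k Q
    rw [hconj]
    constructor
    · rintro ⟨h1, h2⟩
      exact ⟨(hg k).1 h1, by rw [h2]⟩
    · rintro ⟨h1, h2⟩
      refine ⟨(hg k).2 h1, ?_⟩
      have h3 := congrArg (fun z => ((g⁻¹ : GL (Fin n) F) : Matrix (Fin n) (Fin n) F) * z * (g : Matrix (Fin n) (Fin n) F)) h2
      simpa [mul_assoc] using h3
  have hg₁L : g₁ ∈ Cfsg.Geo.subalgebraNormalizer L := by
    intro k
    have hginv : ((g₁⁻¹ : GL (Fin n) F) : Matrix (Fin n) (Fin n) F) * g₁ = 1 := by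
      rw [← Units.val_mul]; simp
    have hginv2 : (g₁ : Matrix (Fin n) (Fin n) F) * ((g₁⁻¹ : GL (Fin n) F) : Matrix (Fin n) (Fin n) F) = 1 := by
      rw [← Units.val_mul]; simp
    constructor
    · intro hk
      rw [hg12 k hk, mul_assoc, hginv2, mul_one]
      exact hk
    · intro hk
      have h3 := hg12 _ hk
      have h4 : k = (g₁ : Matrix (Fin n) (Fin n) F) * k * ((g₁⁻¹ : GL (Fin n) F) : Matrix (Fin n) (Fin n) F) := by
        have h5 : (g₁ : Matrix (Fin n) (Fin n) F) * ((g₁ : Matrix (Fin n) (Fin n) F) * k * ((g₁⁻¹ : GL (Fin n) F) : Matrix (Fin n) (Fin n) F)) * ((g₁⁻¹ : GL (Fin n) F) : Matrix (Fin n) (Fin n) F) = 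
            ((g₁ : Matrix (Fin n) (Fin n) F) * k * ((g₁⁻¹ : GL (Fin n) F) : Matrix (Fin n) (Fin n) F)) * (g₁ : Matrix (Fin n) (Fin n) F) * ((g₁⁻¹ : GL (Fin n) F) : Matrix (Fin n) (Fin n) F) := by rw [h3]
        rw [mul_assoc _ (g₁ : Matrix (Fin n) (Fin n) F), hginv2, mul_one] at h5
        -- multiply on the left by the inverse
        have h6 := congrArg (fun z => ((g₁⁻¹ : GL (Fin n) F) : Matrix (Fin n) (Fin n) F) * z * (g₁ : Matrix (Fin n) (Fin n) F)) h5
        simpa [mul_assoc, hginv, hginv2] using h6.symm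
      rw [h4]
      exact hk
  have hSL₁ : g₁ ∈ Cfsg.Geo.specialLinear (Fin n) F := by
    change Matrix.GeneralLinearGroup.det g₁ = 1
    exact Units.ext hg11
  have hSL₂ : g₂ ∈ Cfsg.Geo.specialLinear (Fin n) F := by
    change Matrix.GeneralLinearGroup.det g₂ = 1
    exact Units.ext hg21
  constructor
  · intro hco
    have h1 : Cfsg.Geo.subalgebraNormalizer K < Cfsg.Geo.subalgebraNormalizer L :=
      lt_of_le_of_ne hNN (fun h => hg13 (h ▸ hg₁L))
    have h2 := hco.2 _ h1
    apply hg23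
    rw [h2]
    exact Subgroup.mem_top _
  · rintro ⟨-, hmax⟩
    rcases hmax (Cfsg.Geo.subalgebraNormalizer L ⊓ Cfsg.Geo.specialLinear (Fin n) F)
      (inf_le_inf_right _ hNN) inf_le_right with h | h
    · have : g₁ ∈ Cfsg.Geo.subalgebraNormalizer K ⊓ Cfsg.Geo.specialLinear (Fin n) F := by
        rw [← h]
        exact ⟨hg₁L, hSL₁⟩
      exact hg13 this.1
    · have : g₂ ∈ Cfsg.Geo.subalgebraNormalizer L ⊓ Cfsg.Geo.specialLinear (Fin n) F := by
        rw [h]
        exact hSL₂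
      exact hg23 this.1

end main

/-- Let F be a finite field, n a positive integer and r a composite number (r > 1, not prime) that divides n with r < n. Let K be a subalgebra of the algebra of n × n matrices over F which is a field of degree r over F (commutative, every non-zero element invertible, of dimension r over F). Then the normaliser N of K in GL_n(F) (a group of type ΓL_{n/r}(F_{q^r})) is not a maximal subgroup of GL_n(F), and N ∩ SL_n(F) is not a maximal subgroup of SL_n(F): both lie properly inside the normaliser of an intermediate subfield of prime degree over F. -/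
theorem result {F : Type*} [Field F]
    [Fintype F] (n r : ℕ) (hr1 : 1 < r) (hrp : ¬ r.Prime) (hrn : r ∣ n) (hlt : r < n)
    (K : Subalgebra F (Matrix (Fin n) (Fin n) F)) (hK : Cfsg.Geo.IsFieldSubalgebra r K) :
    ¬ IsCoatom (Cfsg.Geo.subalgebraNormalizer K) ∧
      ¬ Cfsg.Geo.IsMaximalIn (Cfsg.Geo.specialLinear (Fin n) F)
        (Cfsg.Geo.subalgebraNormalizer K ⊓ Cfsg.Geo.specialLinear (Fin n) F) :=
  main_thm r hr1 hrp hrn hlt K hK

end Cfsg.Agent.S5887
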