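import Mathlib
import Cfsg.Agent.Lib.PGLMaxH
import Cfsg.Statements.S5890
-- import your own Cfsg.Agent.* helpers here

set_option autoImplicit false
open Cfsg

namespace Cfsg.Agent.S5890

/-- Let F be a finite field with q ≥ 4 elements, let L ≤ PGL₂(F) be the image of SL₂(F) (a copy of PSL₂(F), of index gcd(2, q − 1)), and let M be a maximal subgroup of PGL₂(F) that does not contain L. Suppose q ∉ {7, 9, 11} and that q is not a prime congruent to ±11 or ±19 modulo 40. Then M ∩ L is a maximal subgroup of L. (For the excluded q there are maximal subgroups of PGL₂(q) — dihedral groups of order 12 and 16 at q = 7, of order 20 and 16 at q = 9, of order 20 at q = 11, and S₄ at the excluded primes — whose intersection with L is not maximal in L.) -/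
theorem result {F : Type*} [Field F]
    [Fintype F] (h4 : 4 ≤ Fintype.card F) (h7 : Fintype.card F ≠ 7) (h9 : Fintype.card F ≠ 9) (h11 : Fintype.card F ≠ 11)
    (h40 : (Fintype.card F).Prime → Fintype.card F % 40 ∉ ({11, 19, 21, 29} : Finset ℕ))
    (M : Subgroup (Matrix.ProjGenLinGroup (Fin 2) F)) (hM : IsCoatom M)
    (hML : ¬ (Matrix.ProjGenLinGroup.mk.comp Matrix.SpecialLinearGroup.toGL).range ≤ M) :
    IsCoatom ((M ⊓ (Matrix.ProjGenLinGroup.mk.comp Matrix.SpecialLinearGroup.toGL).range).subgroupOf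
      (Matrix.ProjGenLinGroup.mk.comp Matrix.SpecialLinearGroup.toGL).range) := by
  classical
  open Cfsg.Agent.Lib.SL2Core Cfsg.Agent.Lib.DicksonMat Cfsg.Agent.Lib.PSL2Coat Cfsg.Agent.Lib.PSL2Cnt Cfsg.Agent.Lib.PSL2Max Cfsg.Agent.Lib.PGLMaxA Cfsg.Agent.Lib.PGLMaxB Cfsg.Agent.Lib.PGLMaxF Cfsg.Agent.Lib.PGLMaxH in
  obtain ⟨p, hch⟩ := CharP.exists F
  haveI hpf : Fact p.Prime := ⟨CharP.char_is_prime F p⟩
  have hR : (Matrix.ProjGenLinGroup.mk.comp Matrix.SpecialLinearGroup.toGL).range = (jj : PSL2 F →* XX F).range := by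
    ext x
    constructor
    · rintro ⟨A, rfl⟩
      exact ⟨proj A, rfl⟩
    · rintro ⟨y, rfl⟩
      obtain ⟨A, rfl⟩ := proj_surjective y
      exact ⟨A, rfl⟩
  rw [hR] at hML ⊢
  suffices hc : IsCoatom (M.comap (jj : PSL2 F →* XX F)) by
    let e : PSL2 F ≃* (jj : PSL2 F →* XX F).range := MonoidHom.ofInjective jj_inj
    have h1 : (M ⊓ (jj : PSL2 F →* XX F).range).subgroupOf (jj : PSL2 F →* XX F).range = (M.comap (jj : PSL2 F →* XX F)).map (e : PSL2 F →* _) := by
      ext ⟨x, y, rfl⟩
      constructor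
      · intro h
        exact ⟨y, (Subgroup.mem_subgroupOf.mp h).1, rfl⟩
      · rintro ⟨z, hz, hze⟩
        have h2 : jj z = jj y := congrArg Subtype.val hze
        rw [Subgroup.mem_subgroupOf]
        have h3 : jj y ∈ M := by
          rw [← h2]
          exact hz
        exact ⟨h3, ⟨y, rfl⟩⟩
    rw [h1]
    exact ((MulEquiv.mapSubgroup e).isCoatom_iff _).mpr hc
  by_cases hev : Even (Fintype.card F)
  · have hg : Nat.gcd 2 (Fintype.card F - 1) = 1 := by
      apply Nat.Coprime.symm
      apply Nat.Coprime.symm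
      rw [Nat.coprime_two_left]
      obtain ⟨y, hy⟩ := hev
      rw [hy]
      exact ⟨y - 1, by omega⟩
    have hcard : Nat.card (PSL2 F) = Nat.card (XX F) := by
      have h1 := card_PSL2_form (K := F)
      rw [hg, one_mul] at h1
      rw [h1, card_PGL2_form]
    have hbij : Function.Bijective (jj : PSL2 F →* XX F) :=
      (Nat.bijective_iff_injective_and_card _).mpr ⟨jj_inj, hcard⟩
    let e : PSL2 F ≃* XX F := MulEquiv.ofBijective jj hbij
    have h1 : M.comap (jj : PSL2 F →* XX F) = MulEquiv.mapSubgroup e.symm M := by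
      ext x
      constructor
      · intro h
        exact ⟨e x, h, e.symm_apply_apply x⟩
      · rintro ⟨y, hy, rfl⟩
        change jj (e.symm y) ∈ M
        have : jj (e.symm y) = y := e.apply_symm_apply y
        rwa [this]
    rw [h1]
    exact ((MulEquiv.mapSubgroup e.symm).isCoatom_iff M).mpr hM
  · have hodd : Odd (Fintype.card F) := Nat.not_even_iff_odd.mp hev
    have h5 : 5 ≤ Fintype.card F := by
      obtain ⟨y, hy⟩ := hodd
      omega
    rcases main p hodd h5 hM hML with ⟨A, hA, ht, h⟩ | ⟨A, hA, ht, h3, h⟩ | ⟨⟨e⟩, hq, hmod, -⟩ | ⟨-, hc⟩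
    · apply borel_coatom p hodd h5 (comap_ne_top hML)
      rw [h]
      have h1 := card_normalizer_parabolic p hA ht
      rwa [gcd_two hodd] at h1
    · rw [h]
      refine Cfsg.Agent.Lib.PSL2TorMax.torus_normalizer_coatom hA ht h4 h7 h9 ?_ (fun _ => h11)
      intro hk
      rw [gcd_two hodd] at hk
      omega
    · refine alt4_coatom p hodd h5 (comap_ne_top hML) e hq hmod ?_
      have h1 := h40 (by rw [hq]; exact hpf.out)
      rw [hq] at h1
      simp only [Finset.mem_insert, Finset.mem_singleton, not_or] at h1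
      omega
    · exact hc

end Cfsg.Agent.S5890
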