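import Mathlib
import Cfsg.Agent.Lib.PGLMaxG
import Cfsg.Statements.S5891
-- import your own Cfsg.Agent.* helpers here

set_option autoImplicit false
open Cfsg

namespace Cfsg.Agent.S5891

/-- Let F be a finite field of odd order q > 3 and characteristic p, and let M be a maximal subgroup of PGL₂(F) not containing the image L of SL₂(F) (a copy of PSL₂(F) of index 2). Then one of the following holds: |M| = q(q − 1) (M is the stabiliser of a point of the projective line); q ≠ 5 and M is dihedral of order 2(q − 1); M is dihedral of order 2(q + 1); q = p ≡ ±3 (mod 8) and M ≅ S₄; or q = q₀^r for an odd prime r and M ≅ PGL₂(F₀) with |F₀| = q₀. -/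
theorem result {F : Type*} [Field F] [Fintype F]
    (hodd : Odd (Fintype.card F)) (h3 : 3 < Fintype.card F) (M : Subgroup (Matrix.ProjGenLinGroup (Fin 2) F)) (hM : IsCoatom M)
    (hML : ¬ (Matrix.ProjGenLinGroup.mk.comp Matrix.SpecialLinearGroup.toGL).range ≤ M) :
    Nat.card M = Fintype.card F * (Fintype.card F - 1) ∨
    (Fintype.card F ≠ 5 ∧ Nonempty (M ≃* DihedralGroup (Fintype.card F - 1))) ∨
    Nonempty (M ≃* DihedralGroup (Fintype.card F + 1)) ∨
    ((Fintype.card F).Prime ∧ (Fintype.card F % 8 = 3 ∨ Fintype.card F % 8 = 5) ∧ Nonempty (M ≃* Equiv.Perm (Fin 4))) ∨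
    (∃ (F₀ : Type) (_ : Field F₀) (_ : Fintype F₀) (r : ℕ), r.Prime ∧ Odd r ∧ Fintype.card F = Fintype.card F₀ ^ r ∧
        Nonempty (M ≃* Matrix.ProjGenLinGroup (Fin 2) F₀)) := by
  classical
  open Cfsg.Agent.Lib.SL2Core Cfsg.Agent.Lib.DicksonMat Cfsg.Agent.Lib.PSL2Coat Cfsg.Agent.Lib.PSL2Cnt Cfsg.Agent.Lib.PGLMaxA Cfsg.Agent.Lib.PGLMaxB Cfsg.Agent.Lib.PGLMaxF Cfsg.Agent.Lib.PGLMaxG in
  obtain ⟨p, hch⟩ := CharP.exists F
  haveI hpf : Fact p.Prime := ⟨CharP.char_is_prime F p⟩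
  have h5 : 5 ≤ Fintype.card F := by
    obtain ⟨y, hy⟩ := hodd
    omega
  have hR : (Matrix.ProjGenLinGroup.mk.comp Matrix.SpecialLinearGroup.toGL).range = (jj : PSL2 F →* XX F).range := by
    ext x
    constructor
    · rintro ⟨A, rfl⟩
      exact ⟨proj A, rfl⟩
    · rintro ⟨y, rfl⟩
      obtain ⟨A, rfl⟩ := proj_surjective y
      exact ⟨A, rfl⟩
  rw [hR] at hML
  have hc := card_coatom hodd hM hML
  have hg := gcd_two hodd
  rcases main p hodd h5 hM hML with ⟨A, hA, ht, h⟩ | ⟨A, hA, ht, h3', h⟩ | ⟨-, hq, hmod, hS⟩ | ⟨⟨F₀, i1, i2, r, h1, h2, h4, he⟩, -⟩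
  · left
    have h1 := card_normalizer_parabolic p hA ht
    rw [hg, ← h, ← hc] at h1
    exact h1
  · right
    obtain ⟨e⟩ := dihedral_M p hodd h5 hM hML hA ht h3' h
    have h1 := card_normalizer_ss p hA ht
    rw [← h] at h1
    rcases card_MM_cases A hA ht with hk | hk
    · left
      rw [hg] at hk
      have h2 : Nat.card ((M.comap (jj : PSL2 F →* XX F))) = Fintype.card F - 1 := by omega
      rw [h2] at e
      exact ⟨by omega, ⟨e⟩⟩
    · right; left
      rw [hg] at hk
      have h2 : Nat.card ((M.comap (jj : PSL2 F →* XX F))) = Fintype.card F + 1 := by omega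
      rw [h2] at e
      exact ⟨e⟩
  · right; right; right; left
    rw [hq]
    exact ⟨hpf.out, hmod, hS⟩
  · right; right; right; right
    exact ⟨F₀, i1, i2, r, h1, h2, h4, he⟩

end Cfsg.Agent.S5891
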