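import Mathlib
import Cfsg.Statements.S5894
import Cfsg.Agent.Lib.SymS6
import Cfsg.Agent.Lib.PartitionStab

set_option autoImplicit false
open Cfsg

namespace Cfsg.Agent.S5894

open Equiv Cfsg.Agent.Lib.SymAut2 Cfsg.Agent.Lib.SymS6 Cfsg.Agent.Lib.PartitionStab
open scoped Pointwise

theorem mem_set_stabilizer {Ω : Type*} (g : Perm Ω) (s : Set Ω) :
    g ∈ MulAction.stabilizer (Perm Ω) s ↔ ∀ y, g y ∈ s ↔ y ∈ s := by
  rw [MulAction.mem_stabilizer_iff]
  constructor
  · intro h y
    constructor
    · intro hy
      have : g y ∈ g • s := by rw [h]; exact hy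
      obtain ⟨z, hz, hzy⟩ := this
      have hzy' : g z = g y := hzy
      rwa [g.injective hzy'] at hz
    · intro hy
      rw [← h]
      exact ⟨y, hy, rfl⟩
  · intro h
    ext y
    constructor
    · rintro ⟨z, hz, rfl⟩
      exact (h z).2 hz
    · intro hy
      refine ⟨g⁻¹ y, ?_, by simp⟩
      rw [← h]
      simpa using hy

/-- The two-block labelling of `Fin (2m)`. -/
def lab (m : ℕ) (i : Fin (2 * m)) : Fin 2 := if i.val < m then 0 else 1

theorem lab_fibres (m : ℕ) (i : Fin 2) : Nat.card {x : Fin (2 * m) // lab m x = i} = m := by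
  fin_cases i
  · have : Nat.card {x : Fin (2 * m) // lab m x = 0} = Nat.card (Fin m) := by
      apply Nat.card_congr
      refine
        { toFun := fun x => ⟨x.1.val, ?_⟩
          invFun := fun y => ⟨⟨y.val, by omega⟩, ?_⟩
          left_inv := ?_
          right_inv := ?_ }
      · have h := x.2
        simp only [lab] at h
        by_contra hc
        rw [if_neg hc] at h
        simp at h
      · simp [lab]
      · intro x; rfl
      · intro y; rfl
    simpa using this
  · have : Nat.card {x : Fin (2 * m) // lab m x = 1} = Nat.card (Fin m) := by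
      apply Nat.card_congr
      refine
        { toFun := fun x => ⟨x.1.val - m, ?_⟩
          invFun := fun y => ⟨⟨y.val + m, by omega⟩, ?_⟩
          left_inv := ?_
          right_inv := ?_ }
      · have h := x.2
        simp only [lab] at h
        have h2 : ¬ x.1.val < m := by
          intro hc
          rw [if_pos hc] at h
          simp at h
        have := x.1.isLt
        omega
      · simp [lab]
      · intro x
        have h := x.2
        simp only [lab] at h
        have h2 : ¬ x.1.val < m := by
          intro hc
          rw [if_pos hc] at h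
          simp at h
        apply Subtype.ext
        apply Fin.ext
        simp
        omega
      · intro y
        apply Fin.ext
        simp
    simpa using this

/-- For every m ≥ 2 the symmetric group on 2m letters has a maximal subgroup M of index 2m together with a maximal subgroup H of M that is not second maximal: some maximal subgroup K of the symmetric group contains H without H being maximal in K. (One may take M the stabiliser of a letter, H ≅ S_m × S_{m−1} inside it, and K ≅ S_m ≀ S₂ the stabiliser of a partition into two m-sets, with H < S_m × S_m < K.) So the prime-index hypothesis in the second-maximality criterion cannot be relaxed to any even index ≥ 4. -/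
theorem result (m : ℕ) (hm : 2 ≤ m) :
    ∃ M H K : Subgroup (Equiv.Perm (Fin (2 * m))), IsCoatom M ∧ M.index = 2 * m ∧ H ≤ M ∧ IsCoatom (H.subgroupOf M) ∧
      IsCoatom K ∧ H ≤ K ∧ ¬ IsCoatom (H.subgroupOf K) := by
  classical
  let Ω := Fin (2 * m)
  let A : Set Ω := {y | y.val < m}
  let x : Ω := ⟨2 * m - 1, by omega⟩
  let y0 : Ω := ⟨2 * m - 2, by omega⟩
  let u0 : Ω := ⟨0, by omega⟩
  have hxA : x ∉ A := by simp only [A, Set.mem_setOf_eq, x]; omega
  have hy0A : y0 ∉ A := by simp only [A, Set.mem_setOf_eq, y0]; omega
  have hu0A : u0 ∈ A := by simp only [A, Set.mem_setOf_eq, u0]; omega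
  have hy0x : y0 ≠ x := by
    intro h
    have := congrArg Fin.val h
    simp only [y0, x] at this
    omega
  have hu0x : u0 ≠ x := fun h => hxA (h ▸ hu0A)
  have hlabA : ∀ y : Ω, lab m y = 0 ↔ y ∈ A := by
    intro y
    simp only [lab, A, Set.mem_setOf_eq]
    split_ifs with h
    · simp [h]
    · simp [h]
  let M : Subgroup (Perm Ω) := MulAction.stabilizer (Perm Ω) x
  let J : Subgroup (Perm Ω) := MulAction.stabilizer (Perm Ω) A
  let H : Subgroup (Perm Ω) := M ⊓ J
  let K : Subgroup (Perm Ω) := W (lab m)
  have hJK : J ≤ K := by
    intro g hg y z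
    have hg' := (mem_set_stabilizer g A).1 hg
    have key : ∀ w : Ω, lab m (g w) = 0 ↔ lab m w = 0 := by
      intro w
      rw [hlabA, hlabA]
      exact hg' w
    have h01 : ∀ a b : Fin 2, a = b ↔ (a = 0 ↔ b = 0) := by decide
    rw [h01, h01 (lab m (g y))]
    rw [key, key]
  refine ⟨M, H, K, ?_, ?_, inf_le_left, ?_, ?_, inf_le_right.trans hJK, ?_⟩
  · -- `M` is maximal
    have h1 : IsCoatom (MulAction.stabilizer (Perm Ω) ({x} : Set Ω)) := by
      apply Equiv.Perm.isCoatom_stabilizer
      · exact Set.singleton_nonempty x
      · exact ⟨u0, by simpa using hu0x⟩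
      · rw [Set.ncard_singleton, Nat.card_eq_fintype_card, Fintype.card_fin]
        omega
    have h2 : MulAction.stabilizer (Perm Ω) ({x} : Set Ω) = M := by
      ext g
      rw [mem_set_stabilizer]
      constructor
      · intro h
        have := (h x).2 rfl
        exact this
      · intro h y
        have hgx : g x = x := h
        simp only [Set.mem_singleton_iff]
        constructor
        · intro hy
          exact g.injective (hy.trans hgx.symm)
        · rintro rfl
          exact hgx
    rw [← h2]
    exact h1
  · rw [index_stabilizer_point]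
    simp [Ω]
  · -- `H` is maximal in `M`
    let e := stabEquiv x
    let A' : Set {y : Ω // y ≠ x} := {y | y.1 ∈ A}
    have h1 : IsCoatom (MulAction.stabilizer (Perm {y : Ω // y ≠ x}) A') := by
      apply Equiv.Perm.isCoatom_stabilizer
      · exact ⟨⟨u0, hu0x⟩, hu0A⟩
      · exact ⟨⟨y0, hy0x⟩, hy0A⟩
      · rw [Nat.card_eq_fintype_card, Fintype.card_subtype_compl, Fintype.card_subtype_eq,
          Fintype.card_fin]
        omega
    have h2 : (MulEquiv.mapSubgroup e) (H.subgroupOf M) =
        MulAction.stabilizer (Perm {y : Ω // y ≠ x}) A' := by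
      ext k
      rw [mem_set_stabilizer]
      constructor
      · rintro ⟨g, hg, rfl⟩ y
        have hg2 : (g : Perm Ω) ∈ J := hg.2
        exact (mem_set_stabilizer (g : Perm Ω) A).1 hg2 y.1
      · intro hk
        refine ⟨e.symm k, ?_, by simp⟩
        refine ⟨(e.symm k).2, ?_⟩
        change ((e.symm k : M) : Perm Ω) ∈ J
        apply (mem_set_stabilizer _ A).2
        intro y
        by_cases hy : y = x
        · rw [hy]
          have : ((e.symm k : M) : Perm Ω) x = x := (e.symm k).2
          rw [this]
        · have h3 := hk ⟨y, hy⟩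
          have h4 : ((e.symm k : M) : Perm Ω) y = (k ⟨y, hy⟩ : {y : Ω // y ≠ x}).1 := by
            change Perm.ofSubtype k y = _
            rw [Perm.ofSubtype_apply_of_mem k hy]
          rw [h4]
          exact h3
    rw [← (MulEquiv.mapSubgroup e).isCoatom_iff, h2]
    exact h1
  · exact isCoatom_W hm (le_refl 2) (lab m) (lab_fibres m)
  · -- `H` is not maximal in `K`
    intro hc
    have hHJ : H.subgroupOf K < J.subgroupOf K := by
      refine lt_of_le_of_ne (fun g hg => hg.2) ?_
      intro heq
      have hs : Equiv.swap x y0 ∈ J := by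
        apply (mem_set_stabilizer _ A).2
        intro y
        by_cases h1 : y = x
        · subst h1; simp [hxA, hy0A]
        by_cases h2 : y = y0
        · subst h2; simp [hxA, hy0A]
        rw [Equiv.swap_apply_of_ne_of_ne h1 h2]
      have hs2 : (⟨Equiv.swap x y0, hJK hs⟩ : K) ∈ J.subgroupOf K := hs
      rw [← heq] at hs2
      have hs3 : Equiv.swap x y0 ∈ M := hs2.1
      have hs4 : Equiv.swap x y0 x = x := hs3
      rw [Equiv.swap_apply_left] at hs4
      exact hy0x hs4
    have htop := hc.2 _ hHJ
    have hKJ : K ≤ J := Subgroup.subgroupOf_eq_top.1 htop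
    have hlab0 : lab m u0 ≠ lab m x := by
      intro h
      have h1 : lab m u0 = 0 := (hlabA u0).2 hu0A
      rw [h1] at h
      exact hxA ((hlabA x).1 h.symm)
    obtain ⟨h, hh, h1, -⟩ := exists_W_map (lab m) (lab_fibres m) hlab0 hlab0.symm
    have h2 := (mem_set_stabilizer h A).1 (hKJ hh) u0
    rw [h1] at h2
    exact hxA (h2.2 hu0A)

end Cfsg.Agent.S5894
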