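import Mathlib
import Cfsg.Statements.S5895

set_option autoImplicit false
open Cfsg

namespace Cfsg.Agent.S5895


open SemidirectProduct MulAction
open scoped LinearAlgebra.Projectivization

section affine

variable {F : Type} [Field F] {V : Type} [AddCommGroup V] [Module F V]

/-- The action of the linear group on the translations. -/
def act : (V ≃ₗ[F] V) →* MulAut (Multiplicative V) :=
  { toFun := fun g => AddEquiv.toMultiplicative g.toAddEquiv
    map_one' := by
      ext
      rfl
    map_mul' := by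
      intro g h
      ext
      rfl }

theorem act_apply (g : V ≃ₗ[F] V) (v : V) :
    act g (Multiplicative.ofAdd v) = Multiplicative.ofAdd (g v) := rfl

abbrev Aff (F V : Type) [Field F] [AddCommGroup V] [Module F V] : Type :=
  Multiplicative V ⋊[(act : (V ≃ₗ[F] V) →* MulAut (Multiplicative V))] (V ≃ₗ[F] V)

theorem exists_map_eq (v u : V) (hv : v ≠ 0) (hu : u ≠ 0) : ∃ g : V ≃ₗ[F] V, g v = u := by
  have h2 := Projectivization.linearEquiv_is_two_pretransitive F V
  have h1 : IsPretransitive (V ≃ₗ[F] V) (ℙ F V) := isPretransitive_of_is_two_pretransitive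
  obtain ⟨g, hg⟩ := h1.exists_smul_eq (Projectivization.mk F v hv) (Projectivization.mk F u hu)
  rw [Projectivization.smul_mk, Projectivization.mk_eq_mk_iff] at hg
  obtain ⟨a, ha⟩ := hg
  have ha' : (a : F) ≠ 0 := a.ne_zero
  refine ⟨g.trans (LinearEquiv.smulOfNeZero F V (a : F)⁻¹ (inv_ne_zero ha')), ?_⟩
  change (a : F)⁻¹ • (g • v) = u
  rw [← ha]
  simp [Units.smul_def]

theorem isCoatom_range_inr [Nontrivial V] :
    IsCoatom (inr : (V ≃ₗ[F] V) →* Aff F V).range := by
  obtain ⟨v₀, hv₀⟩ := exists_ne (0 : V)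
  have hinl : ∀ v : V, (inl (Multiplicative.ofAdd v) : Aff F V) ∈
      (inr : (V ≃ₗ[F] V) →* Aff F V).range → v = 0 := by
    rintro v ⟨g, hg⟩
    have := congrArg SemidirectProduct.left hg
    simp only [left_inr, left_inl] at this
    exact Multiplicative.ofAdd.injective this.symm
  refine ⟨fun h => hv₀ (hinl v₀ (by rw [h]; trivial)), ?_⟩
  intro L hL
  rw [eq_top_iff]
  obtain ⟨y, hyL, hyM⟩ := SetLike.exists_of_lt hL
  have hinrL : ∀ g : V ≃ₗ[F] V, (inr g : Aff F V) ∈ L := fun g => hL.le ⟨g, rfl⟩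
  have hleft : (inl y.left : Aff F V) ∈ L := by
    have h1 : (inl y.left : Aff F V) = y * (inr y.right)⁻¹ := by
      rw [eq_mul_inv_iff_mul_eq]
      exact inl_left_mul_inr_right y
    rw [h1]
    exact L.mul_mem hyL (L.inv_mem (hinrL _))
  have hyne : Multiplicative.toAdd y.left ≠ 0 := by
    intro h0
    apply hyM
    refine ⟨y.right, ?_⟩
    have h1 : y.left = 1 := h0
    ext
    · simp [h1]
    · simp
  have hall : ∀ u : V, (inl (Multiplicative.ofAdd u) : Aff F V) ∈ L := by
    intro u
    by_cases hu : u = 0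
    · subst hu
      have : (inl (Multiplicative.ofAdd (0 : V)) : Aff F V) = 1 := by
        rw [ofAdd_zero, map_one]
      rw [this]
      exact L.one_mem
    · obtain ⟨g, hg⟩ := exists_map_eq (F := F) (Multiplicative.toAdd y.left) u hyne hu
      have h1 : (inl (Multiplicative.ofAdd u) : Aff F V) = inr g * inl y.left * inr g⁻¹ := by
        rw [← inl_aut, ← hg]
        rfl
      rw [h1]
      exact L.mul_mem (L.mul_mem (hinrL _) hleft) (hinrL _)
  intro x _
  rw [← inl_left_mul_inr_right x]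
  exact L.mul_mem (hall (Multiplicative.toAdd x.left)) (hinrL _)

variable (L₀ : ℙ F V)

theorem isCoatom_stab [Nontrivial (ℙ F V)] : IsCoatom (stabilizer (V ≃ₗ[F] V) L₀) := by
  have h2 := Projectivization.linearEquiv_is_two_pretransitive F V
  have h1 : IsPretransitive (V ≃ₗ[F] V) (ℙ F V) := isPretransitive_of_is_two_pretransitive
  rw [isCoatom_stabilizer_iff_preprimitive]
  exact isPreprimitive_of_is_two_pretransitive h2

theorem isCoatom_comap_right {T : Subgroup (V ≃ₗ[F] V)} (hT : IsCoatom T) :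
    IsCoatom (T.comap (rightHom : Aff F V →* (V ≃ₗ[F] V))) := by
  obtain ⟨hT1, hT2⟩ := hT
  refine ⟨fun h => hT1 ?_, ?_⟩
  · rw [eq_top_iff]
    intro g _
    have : (inr g : Aff F V) ∈ T.comap (rightHom : Aff F V →* (V ≃ₗ[F] V)) := by rw [h]; trivial
    simpa using this
  · intro L hL
    have hmap : T < L.map (rightHom : Aff F V →* (V ≃ₗ[F] V)) := by
      obtain ⟨y, hyL, hyK⟩ := SetLike.exists_of_lt hL
      refine lt_of_le_of_ne ?_ ?_
      · intro t ht
        refine ⟨inr t, hL.le (by simpa using ht), by simp⟩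
      · intro h
        apply hyK
        change rightHom y ∈ T
        rw [h]
        exact ⟨y, hyL, rfl⟩
    have htop := hT2 _ hmap
    rw [eq_top_iff]
    intro x _
    have : rightHom x ∈ L.map (rightHom : Aff F V →* (V ≃ₗ[F] V)) := by rw [htop]; trivial
    obtain ⟨y, hy, hyx⟩ := this
    have h1 : x * y⁻¹ ∈ T.comap (rightHom : Aff F V →* (V ≃ₗ[F] V)) := by
      change rightHom (x * y⁻¹) ∈ T
      rw [map_mul, map_inv, hyx, mul_inv_cancel]
      exact T.one_mem
    have h2 := L.mul_mem (hL.le h1) hy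
    simpa using h2

theorem isCoatom_subgroupOf_map {T : Subgroup (V ≃ₗ[F] V)} (hT : IsCoatom T) :
    IsCoatom ((T.map (inr : (V ≃ₗ[F] V) →* Aff F V)).subgroupOf
      (inr : (V ≃ₗ[F] V) →* Aff F V).range) := by
  let e : (V ≃ₗ[F] V) ≃* (inr : (V ≃ₗ[F] V) →* Aff F V).range :=
    MonoidHom.ofInjective inr_injective
  have h := (OrderIso.isCoatom_iff (e.mapSubgroup) T).2 hT
  convert h using 1
  ext ⟨m, hm⟩
  constructor
  · rintro ⟨t, ht, htm⟩
    refine ⟨t, ht, Subtype.ext htm⟩
  · rintro ⟨t, ht, htm⟩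
    exact ⟨t, ht, congrArg Subtype.val htm⟩

end affine

theorem main_generic {F V : Type} [Field F] [Finite F] [AddCommGroup V] [Module F V] [Finite V]
    (e₁ e₂ : V) (he₁ : e₁ ≠ 0) (he₁₂ : ∀ c : F, e₂ ≠ c • e₁) :
    ∃ (G : Type) (_ : Group G) (_ : Finite G) (M H K : Subgroup G), IsCoatom M ∧
      M.index = Nat.card V ∧ H ≤ M ∧
      IsCoatom (H.subgroupOf M) ∧ IsCoatom K ∧ H ≤ K ∧ ¬ IsCoatom (H.subgroupOf K) := by
  classical
  have he₂ : e₂ ≠ 0 := by
    have := he₁₂ 0
    simpa using this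
  haveI : Nontrivial V := ⟨⟨e₁, 0, he₁⟩⟩
  let L₀ : ℙ F V := Projectivization.mk F e₁ he₁
  have hne : L₀ ≠ Projectivization.mk F e₂ he₂ := by
    intro h
    rw [Projectivization.mk_eq_mk_iff] at h
    obtain ⟨a, ha⟩ := h
    apply he₁₂ ((a⁻¹ : Fˣ) : F)
    rw [← Units.smul_def, ← ha, smul_smul]
    simp
  haveI : Nontrivial (ℙ F V) := ⟨⟨_, _, hne⟩⟩
  let T : Subgroup (V ≃ₗ[F] V) := stabilizer (V ≃ₗ[F] V) L₀
  have hT : IsCoatom T := isCoatom_stab L₀
  have hTline : ∀ g ∈ T, ∃ c : F, g e₁ = c • e₁ := by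
    intro g hg
    have h1 : g • L₀ = L₀ := hg
    simp only [L₀] at h1
    rw [Projectivization.smul_mk, Projectivization.mk_eq_mk_iff] at h1
    obtain ⟨a, ha⟩ := h1
    refine ⟨(a : F), ?_⟩
    rw [← Units.smul_def]
    exact ha.symm
  let W : Submodule F V := Submodule.span F {e₁}
  have hTW : ∀ g ∈ T, ∀ x ∈ W, g x ∈ W := by
    intro g hg x hx
    obtain ⟨s, rfl⟩ := Submodule.mem_span_singleton.1 hx
    obtain ⟨c, hc⟩ := hTline g hg
    rw [map_smul, hc, smul_smul]
    exact Submodule.mem_span_singleton.2 ⟨_, rfl⟩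
  have he₂W : e₂ ∉ W := by
    intro h
    obtain ⟨s, hs⟩ := Submodule.mem_span_singleton.1 h
    exact he₁₂ s hs.symm
  haveI : Finite (V ≃ₗ[F] V) :=
    Finite.of_injective (fun g : V ≃ₗ[F] V => (g : V → V)) DFunLike.coe_injective
  -- the subgroups
  let M : Subgroup (Aff F V) := (inr : (V ≃ₗ[F] V) →* Aff F V).range
  let H : Subgroup (Aff F V) := T.map (inr : (V ≃ₗ[F] V) →* Aff F V)
  let K : Subgroup (Aff F V) := T.comap (rightHom : Aff F V →* (V ≃ₗ[F] V))
  let J : Subgroup (Aff F V) :=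
    { carrier := {x | Multiplicative.toAdd x.left ∈ W ∧ x.right ∈ T}
      mul_mem' := by
        rintro x y ⟨hx1, hx2⟩ ⟨hy1, hy2⟩
        refine ⟨?_, T.mul_mem hx2 hy2⟩
        change Multiplicative.toAdd x.left + x.right (Multiplicative.toAdd y.left) ∈ W
        exact W.add_mem hx1 (hTW _ hx2 _ hy1)
      one_mem' := ⟨W.zero_mem, T.one_mem⟩
      inv_mem' := by
        rintro x ⟨hx1, hx2⟩
        refine ⟨?_, T.inv_mem hx2⟩
        change (x.right⁻¹) (- Multiplicative.toAdd x.left) ∈ W
        exact hTW _ (T.inv_mem hx2) _ (W.neg_mem hx1) }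
  have hfin : Finite (Aff F V) := Finite.of_equiv _ SemidirectProduct.equivProd.symm
  refine ⟨Aff F V, inferInstance, hfin, M, H, K, isCoatom_range_inr, ?_, ?_, isCoatom_subgroupOf_map hT,
    isCoatom_comap_right hT, ?_, ?_⟩
  · have h1 : Nat.card (Aff F V) = Nat.card (Multiplicative V) * Nat.card (V ≃ₗ[F] V) :=
      SemidirectProduct.card
    have h2 : Nat.card M = Nat.card (V ≃ₗ[F] V) :=
      (Nat.card_congr (MonoidHom.ofInjective (f := (inr : (V ≃ₗ[F] V) →* Aff F V))
        inr_injective).toEquiv).symm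
    have h3 := M.card_mul_index
    have h4 : Nat.card (Multiplicative V) = Nat.card V :=
      Nat.card_congr Multiplicative.toAdd
    have h5 : 0 < Nat.card (V ≃ₗ[F] V) := Nat.card_pos
    rw [h1, h2, h4] at h3
    rw [mul_comm (Nat.card V)] at h3
    exact Nat.eq_of_mul_eq_mul_left h5 h3
  · exact Subgroup.map_le_range _ _
  · rintro _ ⟨t, ht, rfl⟩
    simpa [K] using ht
  · intro hco
    have hHJ : H.subgroupOf K ≤ J.subgroupOf K := by
      rintro ⟨x, hx⟩ hxH
      obtain ⟨t, ht, htx⟩ := hxH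
      change x ∈ J
      have htx' : inr t = x := htx
      rw [← htx']
      refine ⟨W.zero_mem, ?_⟩
      simpa using ht
    rcases (hco.le_iff.1 hHJ) with h | h
    · have h1 : (inl (Multiplicative.ofAdd e₂) : Aff F V) ∈ K := by
        change rightHom _ ∈ T
        rw [rightHom_inl]
        exact T.one_mem
      have h2 : (⟨_, h1⟩ : K) ∈ J.subgroupOf K := by rw [h]; trivial
      exact he₂W h2.1
    · have h1 : (inl (Multiplicative.ofAdd e₁) : Aff F V) ∈ K := by
        change rightHom _ ∈ T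
        rw [rightHom_inl]
        exact T.one_mem
      have h2 : (⟨_, h1⟩ : K) ∈ J.subgroupOf K := by
        refine ⟨Submodule.mem_span_singleton_self e₁, ?_⟩
        exact T.one_mem
      rw [h] at h2
      obtain ⟨t, ht, htx⟩ := h2
      have h3 := congrArg SemidirectProduct.left htx
      simp only [left_inr, left_inl] at h3
      exact he₁ (Multiplicative.ofAdd.injective h3.symm)

/-- For every prime p and every d ≥ 2 there is a finite group G with a maximal subgroup M of index p^d and a maximal subgroup H of M that is not second maximal in G: some maximal subgroup K of G contains H without H being maximal in K. (One may take G the affine group V ⋊ GL(V) of V = 𝔽_p^d, M = GL(V), H the stabiliser in M of a line W of V, and K = V ⋊ H, with H < W ⋊ H < K.) So the prime-index hypothesis in the second-maximality criterion cannot be relaxed to prime-power index. -/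
theorem result (p d : ℕ) (hp : p.Prime)
    (hd : 2 ≤ d) :
    ∃ (G : Type) (_ : Group G) (_ : Finite G) (M H K : Subgroup G), IsCoatom M ∧ M.index = p ^ d ∧ H ≤ M ∧
      IsCoatom (H.subgroupOf M) ∧ IsCoatom K ∧ H ≤ K ∧ ¬ IsCoatom (H.subgroupOf K) := by
  classical
  haveI : Fact p.Prime := ⟨hp⟩
  let i₀ : Fin d := ⟨0, by omega⟩
  let i₁ : Fin d := ⟨1, by omega⟩
  have hi : i₀ ≠ i₁ := by simp [i₀, i₁, Fin.ext_iff]
  have h := main_generic (F := ZMod p) (V := Fin d → ZMod p) (Pi.single i₀ 1) (Pi.single i₁ 1)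
    (by
      intro h
      have := congrFun h i₀
      simp at this)
    (by
      intro c h
      have := congrFun h i₁
      simp [Pi.single_apply, hi.symm] at this)
  have hc : Nat.card (Fin d → ZMod p) = p ^ d := by simp
  rwa [hc] at h

end Cfsg.Agent.S5895
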