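import Mathlib
import Cfsg.Statements.S5896

set_option autoImplicit false
open Cfsg

namespace Cfsg.Agent.S5896


section levels

variable {R A : Type*} [CommRing R] [Ring A] [Algebra R A] (t : R)

/-- Elements divisible by `t ^ m`. -/
def Lev (m : ℕ) (x : A) : Prop := ∃ B : A, x = t ^ m • B

theorem Lev.add {m : ℕ} {x y : A} (hx : Lev t m x) (hy : Lev t m y) : Lev t m (x + y) := by
  obtain ⟨B, rfl⟩ := hx
  obtain ⟨C, rfl⟩ := hy
  exact ⟨B + C, (smul_add _ _ _).symm⟩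

theorem Lev.neg {m : ℕ} {x : A} (hx : Lev t m x) : Lev t m (-x) := by
  obtain ⟨B, rfl⟩ := hx
  exact ⟨-B, (smul_neg _ _).symm⟩

theorem Lev.sub {m : ℕ} {x y : A} (hx : Lev t m x) (hy : Lev t m y) : Lev t m (x - y) := by
  rw [sub_eq_add_neg]
  exact hx.add t (hy.neg t)

theorem Lev.mul {m n : ℕ} {x y : A} (hx : Lev t m x) (hy : Lev t n y) :
    Lev t (m + n) (x * y) := by
  obtain ⟨B, rfl⟩ := hx
  obtain ⟨C, rfl⟩ := hy
  exact ⟨B * C, by rw [smul_mul_smul_comm, pow_add]⟩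

theorem Lev.mono {m n : ℕ} (h : m ≤ n) {x : A} (hx : Lev t n x) : Lev t m x := by
  obtain ⟨B, rfl⟩ := hx
  refine ⟨t ^ (n - m) • B, ?_⟩
  rw [smul_smul, ← pow_add, Nat.add_sub_cancel' h]

theorem Lev.of_eq {m : ℕ} (x : A) : Lev t m (t ^ m • x) := ⟨x, rfl⟩

theorem Lev.zero {m : ℕ} : Lev t m (0 : A) := ⟨0, (smul_zero _).symm⟩

theorem Lev.mul_left {m : ℕ} {y : A} (x : A) (hy : Lev t m y) : Lev t m (x * y) := by
  obtain ⟨C, rfl⟩ := hy
  exact ⟨x * C, (mul_smul_comm _ _ _)⟩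

theorem Lev.mul_right {m : ℕ} {x : A} (y : A) (hx : Lev t m x) : Lev t m (x * y) := by
  obtain ⟨C, rfl⟩ := hx
  exact ⟨C * y, (smul_mul_assoc _ _ _)⟩

theorem Lev.mul_of_le {m n k : ℕ} (h : k ≤ m + n) {x y : A} (hx : Lev t m x) (hy : Lev t n y) :
    Lev t k (x * y) :=
  Lev.mono t h (hx.mul t hy)

/-- The basic commutator estimate. -/
theorem comm_step {l : ℕ} (hl : 1 ≤ l) {U V U' V' X Y : A}
    (hU1 : U * U' = 1) (hU2 : U' * U = 1) (hV1 : V * V' = 1) (hV2 : V' * V = 1)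
    (hU : Lev t (l + 1) (U - 1 - t ^ l • X)) (hV : Lev t (l + 1) (V - 1 - t ^ l • Y)) :
    Lev t (2 * l + 1) (U * V * U' * V' - 1 - t ^ (2 * l) • (X * Y - Y * X)) := by
  have h2 : t ^ (2 * l) • (X * Y - Y * X) =
      (t ^ l • X) * (t ^ l • Y) - (t ^ l • Y) * (t ^ l • X) := by
    rw [smul_mul_smul_comm, smul_mul_smul_comm, ← pow_add, two_mul, smul_sub]
  rw [h2]
  have hx : Lev t l (t ^ l • X) := Lev.of_eq t X
  have hy : Lev t l (t ^ l • Y) := Lev.of_eq t Y
  generalize t ^ l • X = x at *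
  generalize t ^ l • Y = y at *
  obtain ⟨r, hr⟩ : ∃ r, r = U - 1 - x := ⟨_, rfl⟩
  obtain ⟨r', hr'⟩ : ∃ r', r' = V - 1 - y := ⟨_, rfl⟩
  rw [← hr] at hU
  rw [← hr'] at hV
  have hU' : U = 1 + (x + r) := by rw [hr]; abel
  have hV' : V = 1 + (y + r') := by rw [hr']; abel
  have hrl : Lev t l r := Lev.mono t (Nat.le_succ l) hU
  have hrl' : Lev t l r' := Lev.mono t (Nat.le_succ l) hV
  have hal : Lev t l (x + r) := hx.add t hrl
  have hbl : Lev t l (y + r') := hy.add t hrl'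
  have hcomm : U * V - V * U = (x + r) * (y + r') - (y + r') * (x + r) := by
    rw [hU', hV']
    noncomm_ring
  have h1 : (x + r) * (y + r') - (y + r') * (x + r) - (x * y - y * x) =
      x * r' + r * y + r * r' - (y * r + r' * x + r' * r) := by
    noncomm_ring
  have hmain : Lev t (2 * l + 1) ((x + r) * (y + r') - (y + r') * (x + r) - (x * y - y * x)) := by
    rw [h1]
    refine Lev.sub t (Lev.add t (Lev.add t ?_ ?_) ?_) (Lev.add t (Lev.add t ?_ ?_) ?_)
    · exact Lev.mul_of_le t (by omega) hx hV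
    · exact Lev.mul_of_le t (by omega) hU hy
    · exact Lev.mul_of_le t (by omega) hU hV
    · exact Lev.mul_of_le t (by omega) hy hU
    · exact Lev.mul_of_le t (by omega) hV hx
    · exact Lev.mul_of_le t (by omega) hV hU
  -- the inverses are close to one
  have hU'l : Lev t l (U' - 1) := by
    have : U' - 1 = -(U' * (x + r)) := by
      have h3 := hU2
      rw [hU', mul_add, mul_one] at h3
      rw [← h3]
      abel
    rw [this]
    exact (Lev.mul_left t _ hal).neg t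
  have hV'l : Lev t l (V' - 1) := by
    have : V' - 1 = -(V' * (y + r')) := by
      have h3 := hV2
      rw [hV', mul_add, mul_one] at h3
      rw [← h3]
      abel
    rw [this]
    exact (Lev.mul_left t _ hbl).neg t
  have hw : Lev t l (U' * V' - 1) := by
    have : U' * V' - 1 = (U' - 1) * V' + (V' - 1) := by noncomm_ring
    rw [this]
    exact (Lev.mul_right t _ hU'l).add t hV'l
  have hkey : U * V * U' * V' - 1 = (U * V - V * U) * (U' * V') := by
    have h4 : V * U * (U' * V') = 1 := by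
      calc V * U * (U' * V') = V * (U * U') * V' := by noncomm_ring
        _ = 1 := by rw [hU1, mul_one, hV1]
    rw [sub_mul, h4, mul_assoc (U * V) U' V']
  have hfinal : U * V * U' * V' - 1 - (x * y - y * x) =
      ((x + r) * (y + r') - (y + r') * (x + r)) * (U' * V' - 1) +
        ((x + r) * (y + r') - (y + r') * (x + r) - (x * y - y * x)) := by
    rw [hkey, hcomm]
    noncomm_ring
  rw [hfinal]
  refine Lev.add t ?_ hmain
  have hc : Lev t (l + l) ((x + r) * (y + r') - (y + r') * (x + r)) :=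
    (hal.mul t hbl).sub t (hbl.mul t hal)
  exact Lev.mul_of_le t (by omega) hc hw

theorem pow_two_step {m : ℕ} (hm : 1 ≤ m) {W Z : A}
    (hW : Lev t (m + 1) (W - 1 - t ^ m • Z)) :
    Lev t (m + 1) (W ^ 2 - 1 - t ^ m • (2 • Z)) := by
  have hz : Lev t m (t ^ m • Z) := Lev.of_eq t Z
  rw [smul_comm]
  generalize t ^ m • Z = z at *
  obtain ⟨r, hr⟩ : ∃ r, r = W - 1 - z := ⟨_, rfl⟩
  rw [← hr] at hW
  have hW' : W = 1 + (z + r) := by rw [hr]; abel
  have hrm : Lev t m r := Lev.mono t (Nat.le_succ m) hW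
  have ha : Lev t m (z + r) := hz.add t hrm
  have h1 : W ^ 2 - 1 - 2 • z = 2 • r + (z + r) * (z + r) := by
    rw [hW']
    noncomm_ring
  rw [h1]
  refine Lev.add t ?_ (Lev.mul_of_le t (by omega) ha ha)
  rw [two_nsmul]
  exact hW.add t hW

theorem pow_three_step {m : ℕ} (hm : 1 ≤ m) {W Z : A}
    (hW : Lev t (m + 1) (W - 1 - t ^ m • Z)) :
    Lev t (m + 1) (W ^ 3 - 1 - t ^ m • (3 • Z)) := by
  have hz : Lev t m (t ^ m • Z) := Lev.of_eq t Z
  rw [smul_comm]
  generalize t ^ m • Z = z at *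
  obtain ⟨r, hr⟩ : ∃ r, r = W - 1 - z := ⟨_, rfl⟩
  rw [← hr] at hW
  have hW' : W = 1 + (z + r) := by rw [hr]; abel
  have hrm : Lev t m r := Lev.mono t (Nat.le_succ m) hW
  have ha : Lev t m (z + r) := hz.add t hrm
  have h1 : W ^ 3 - 1 - 3 • z = 3 • r + (3 • ((z + r) * (z + r)) + (z + r) * (z + r) * (z + r)) := by
    rw [hW']
    noncomm_ring
  rw [h1]
  have haa : Lev t (m + 1) ((z + r) * (z + r)) := Lev.mul_of_le t (by omega) ha ha
  refine Lev.add t ?_ (Lev.add t ?_ (Lev.mul_right t _ haa))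
  · rw [show (3 : ℕ) = 2 + 1 from rfl, add_nsmul, two_nsmul, one_nsmul]
    exact (hW.add t hW).add t hW
  · rw [show (3 : ℕ) = 2 + 1 from rfl, add_nsmul, two_nsmul, one_nsmul]
    exact (haa.add t haa).add t haa

end levels

section elementary

open Matrix
open scoped commutatorElement

variable {R : Type*} [CommRing R]

/-- Upper elementary matrices. -/
def T (x : R) : SpecialLinearGroup (Fin 2) R := ⟨!![1, x; 0, 1], by simp [det_fin_two]⟩
/-- Lower elementary matrices. -/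
def L (x : R) : SpecialLinearGroup (Fin 2) R := ⟨!![1, 0; x, 1], by simp [det_fin_two]⟩
/-- Diagonal matrices. -/
def D (u : Rˣ) : SpecialLinearGroup (Fin 2) R :=
  ⟨!![(u : R), 0; 0, ((u⁻¹ : Rˣ) : R)], by simp [det_fin_two]⟩

theorem mat_ext {g h : SpecialLinearGroup (Fin 2) R} (h00 : g.1 0 0 = h.1 0 0)
    (h01 : g.1 0 1 = h.1 0 1) (h10 : g.1 1 0 = h.1 1 0) (h11 : g.1 1 1 = h.1 1 1) : g = h := by
  apply Subtype.ext
  ext i j
  fin_cases i <;> fin_cases j <;> assumption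

theorem det_rel (g : SpecialLinearGroup (Fin 2) R) :
    g.1 0 0 * g.1 1 1 - g.1 0 1 * g.1 1 0 = 1 := by
  have := g.2
  rwa [det_fin_two] at this

theorem sl_mul_apply (g h : SpecialLinearGroup (Fin 2) R) (i j : Fin 2) :
    (g * h).1 i j = g.1 i 0 * h.1 0 j + g.1 i 1 * h.1 1 j := by
  have : (g * h).1 = g.1 * h.1 := rfl
  rw [this, mul_apply, Fin.sum_univ_two]

theorem T_neg (x : R) : (T x)⁻¹ = T (-x) := by
  rw [inv_eq_iff_mul_eq_one]
  apply mat_ext <;> simp only [sl_mul_apply] <;> simp [T]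

theorem L_neg (x : R) : (L x)⁻¹ = L (-x) := by
  rw [inv_eq_iff_mul_eq_one]
  apply mat_ext <;> simp only [sl_mul_apply] <;> simp [L]

theorem D_inv (u : Rˣ) : (D u)⁻¹ = D u⁻¹ := by
  rw [inv_eq_iff_mul_eq_one]
  apply mat_ext <;> simp only [sl_mul_apply] <;> simp [D]

theorem comm_D_T (u : Rˣ) (y : R) : ⁅D u, T y⁆ = T (((u : R) ^ 2 - 1) * y) := by
  rw [commutatorElement_def, T_neg, D_inv]
  have h : (u : R) * ((u⁻¹ : Rˣ) : R) = 1 := u.mul_inv
  apply mat_ext <;> simp only [sl_mul_apply] <;> simp [T, D]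
  ring

theorem comm_D_L (u : Rˣ) (y : R) : ⁅D u, L y⁆ = L ((((u⁻¹ : Rˣ) : R) ^ 2 - 1) * y) := by
  rw [commutatorElement_def, L_neg, D_inv]
  have h : (u : R) * ((u⁻¹ : Rˣ) : R) = 1 := u.mul_inv
  apply mat_ext <;> simp only [sl_mul_apply] <;> simp [L, D]
  ring

theorem D_eq (u : Rˣ) : D u = T (u : R) * L (-((u⁻¹ : Rˣ) : R)) * T (u : R) * T (-1) * L 1 * T (-1) := by
  have h : (u : R) * ((u⁻¹ : Rˣ) : R) = 1 := u.mul_inv
  apply mat_ext <;> simp only [sl_mul_apply] <;> simp [L, D, T]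

/-- The Weyl element. -/
def W₀ : SpecialLinearGroup (Fin 2) R := ⟨!![0, -1; 1, 0], by simp [det_fin_two]⟩

theorem L_eq (y : R) : L y = W₀ * T (-y) * W₀⁻¹ := by
  rw [eq_mul_inv_iff_mul_eq]
  apply mat_ext <;> simp only [sl_mul_apply] <;> simp [L, T, W₀]

theorem top_of_T_L (hloc : ∀ g : SpecialLinearGroup (Fin 2) R, IsUnit (g.1 0 0) ∨ IsUnit (g.1 1 0))
    (N : Subgroup (SpecialLinearGroup (Fin 2) R)) (hT : ∀ x, T x ∈ N) (hL : ∀ x, L x ∈ N) :
    N = ⊤ := by
  have hD : ∀ u : Rˣ, D u ∈ N := by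
    intro u
    rw [D_eq]
    exact N.mul_mem (N.mul_mem (N.mul_mem (N.mul_mem (N.mul_mem (hT _) (hL _)) (hT _)) (hT _))
      (hL _)) (hT _)
  have h1 : ∀ g : SpecialLinearGroup (Fin 2) R, IsUnit (g.1 0 0) → g ∈ N := by
    intro g hg
    obtain ⟨u, hu⟩ := hg
    have hinv : (u : R) * ((u⁻¹ : Rˣ) : R) = 1 := u.mul_inv
    have hdet := det_rel g
    have : g = L (g.1 1 0 * ((u⁻¹ : Rˣ) : R)) * D u * T (g.1 0 1 * ((u⁻¹ : Rˣ) : R)) := by
      rw [← hu] at hdet
      apply mat_ext <;> simp only [sl_mul_apply] <;> simp [L, D, T, ← hu]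
      · linear_combination (- g.1 0 1) * hinv
      · linear_combination (((u⁻¹ : Rˣ) : R)) * hdet - (g.1 1 1) * hinv
    rw [this]
    exact N.mul_mem (N.mul_mem (hL _) (hD _)) (hT _)
  rw [eq_top_iff]
  intro g _
  rcases hloc g with h | h
  · exact h1 g h
  · obtain ⟨u, hu⟩ := h
    have hinv : (u : R) * ((u⁻¹ : Rˣ) : R) = 1 := u.mul_inv
    have h2 : T ((1 - g.1 0 0) * ((u⁻¹ : Rˣ) : R)) * g ∈ N := by
      apply h1
      have : (T ((1 - g.1 0 0) * ((u⁻¹ : Rˣ) : R)) * g).1 0 0 = 1 := by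
        rw [sl_mul_apply]
        rw [← hu]
        simp [T]
      rw [this]
      exact isUnit_one
    have h3 := N.mul_mem (N.inv_mem (hT ((1 - g.1 0 0) * ((u⁻¹ : Rˣ) : R)))) h2
    simpa using h3

end elementary

section concrete

open Matrix
open scoped commutatorElement

/-- The reduction modulo five. -/
def rho (k : ℕ) (hk : 1 ≤ k) : ZMod (5 ^ k) →+* ZMod 5 :=
  ZMod.castHom (dvd_pow_self 5 (by omega)) (ZMod 5)

variable {k : ℕ} (hk : 1 ≤ k)

include hk in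
theorem eq_five_mul_of_rho (a : ZMod (5 ^ k)) (h : rho k hk a = 0) : ∃ b, a = 5 * b := by
  haveI : NeZero (5 ^ k) := ⟨by positivity⟩
  have h1 : (a.val : ZMod (5 ^ k)) = a := ZMod.natCast_zmod_val a
  rw [← h1, map_natCast] at h
  have h2 : 5 ∣ a.val := (ZMod.natCast_eq_zero_iff _ _).1 h
  obtain ⟨m, hm⟩ := h2
  refine ⟨(m : ZMod (5 ^ k)), ?_⟩
  rw [← h1, hm]
  push_cast
  rfl

include hk in
theorem isUnit_of_rho (a : ZMod (5 ^ k)) (h : rho k hk a ≠ 0) : IsUnit a := by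
  haveI : NeZero (5 ^ k) := ⟨by positivity⟩
  have h1 : (a.val : ZMod (5 ^ k)) = a := ZMod.natCast_zmod_val a
  rw [← h1]
  rw [ZMod.isUnit_iff_coprime]
  apply Nat.Coprime.pow_right
  rw [Nat.coprime_comm, Nat.Prime.coprime_iff_not_dvd (by norm_num)]
  intro hd
  apply h
  rw [← h1, map_natCast]
  exact (ZMod.natCast_eq_zero_iff _ _).2 hd

theorem five_pow_eq_zero : (5 : ZMod (5 ^ k)) ^ k = 0 := by
  have := ZMod.natCast_self (5 ^ k)
  push_cast at this
  exact this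

theorem five_pow_ne_zero {l : ℕ} (hl : l < k) : (5 : ZMod (5 ^ k)) ^ l ≠ 0 := by
  intro h
  have h1 : ((5 ^ l : ℕ) : ZMod (5 ^ k)) = 0 := by
    push_cast
    exact h
  rw [ZMod.natCast_eq_zero_iff] at h1
  have := (Nat.pow_dvd_pow_iff_le_right (by norm_num : 1 < 5)).1 h1
  omega

include hk in
theorem hloc (g : SpecialLinearGroup (Fin 2) (ZMod (5 ^ k))) :
    IsUnit (g.1 0 0) ∨ IsUnit (g.1 1 0) := by
  by_contra hcon
  push Not at hcon
  obtain ⟨h1, h2⟩ := hcon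
  have h3 : rho k hk (g.1 0 0) = 0 := by
    by_contra h
    exact h1 (isUnit_of_rho hk _ h)
  have h4 : rho k hk (g.1 1 0) = 0 := by
    by_contra h
    exact h2 (isUnit_of_rho hk _ h)
  have h5 := congrArg (rho k hk) (det_rel g)
  rw [map_sub, map_mul, map_mul, h3, h4, map_one] at h5
  simp only [zero_mul, mul_zero, sub_self] at h5
  exact absurd h5 (by decide)

/-- Units of the ring. -/
theorem exists_unit (n : ℕ) (hn : ¬ 5 ∣ n) : ∃ u : (ZMod (5 ^ k))ˣ, (u : ZMod (5 ^ k)) = n := by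
  have : IsUnit ((n : ℕ) : ZMod (5 ^ k)) := by
    rw [ZMod.isUnit_iff_coprime]
    apply Nat.Coprime.pow_right
    rw [Nat.coprime_comm, Nat.Prime.coprime_iff_not_dvd (by norm_num)]
    exact hn
  exact this

include hk in
theorem perfect : commutator (SpecialLinearGroup (Fin 2) (ZMod (5 ^ k))) = ⊤ := by
  obtain ⟨u2, hu2⟩ := exists_unit (k := k) 2 (by norm_num)
  obtain ⟨u3, hu3⟩ := exists_unit (k := k) 3 (by norm_num)
  have hi : (u3 : ZMod (5 ^ k)) * ((u3⁻¹ : (ZMod (5 ^ k))ˣ) : ZMod (5 ^ k)) = 1 := u3.mul_inv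
  refine top_of_T_L (hloc hk) _ ?_ ?_
  · intro x
    have h1 := comm_D_T u2 (((u3⁻¹ : (ZMod (5 ^ k))ˣ) : ZMod (5 ^ k)) * x)
    have h2 : (((u2 : ZMod (5 ^ k)) ^ 2 - 1) * (((u3⁻¹ : (ZMod (5 ^ k))ˣ) : ZMod (5 ^ k)) * x)) = x := by
      rw [hu2]
      rw [hu3] at hi
      push_cast at hi ⊢
      linear_combination x * hi
    rw [h2] at h1
    rw [← h1, commutator_def]
    exact Subgroup.commutator_mem_commutator trivial trivial
  · intro x
    have h1 := comm_D_L u2⁻¹ (((u3⁻¹ : (ZMod (5 ^ k))ˣ) : ZMod (5 ^ k)) * x)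
    have h2 : ((((u2⁻¹⁻¹ : (ZMod (5 ^ k))ˣ) : ZMod (5 ^ k)) ^ 2 - 1) * (((u3⁻¹ : (ZMod (5 ^ k))ˣ) : ZMod (5 ^ k)) * x)) = x := by
      rw [inv_inv, hu2]
      rw [hu3] at hi
      push_cast at hi ⊢
      linear_combination x * hi
    rw [h2] at h1
    rw [← h1, commutator_def]
    exact Subgroup.commutator_mem_commutator trivial trivial

/-- The preimage of the Borel subgroup. -/
def HH (k : ℕ) (hk : 1 ≤ k) : Subgroup (SpecialLinearGroup (Fin 2) (ZMod (5 ^ k))) where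
  carrier := {g | rho k hk (g.1 1 0) = 0}
  mul_mem' := by
    intro a b ha hb
    change rho k hk ((a * b).1 1 0) = 0
    rw [sl_mul_apply, map_add, map_mul, map_mul, ha, hb]
    simp
  one_mem' := by
    change rho k hk ((1 : SpecialLinearGroup (Fin 2) (ZMod (5 ^ k))).1 1 0) = 0
    simp
  inv_mem' := by
    intro a ha
    change rho k hk ((a⁻¹).1 1 0) = 0
    have : a⁻¹.1 1 0 = - a.1 1 0 := by
      rw [show a⁻¹.1 = adjugate a.1 from rfl, adjugate_fin_two]
      simp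
    rw [this, map_neg, ha, neg_zero]

theorem mem_HH (g : SpecialLinearGroup (Fin 2) (ZMod (5 ^ k))) :
    g ∈ HH k hk ↔ rho k hk (g.1 1 0) = 0 := Iff.rfl

theorem isCoatom_HH : IsCoatom (HH k hk) := by
  refine ⟨fun h => ?_, ?_⟩
  · have h1 : L (1 : ZMod (5 ^ k)) ∈ HH k hk := by rw [h]; trivial
    rw [mem_HH] at h1
    simp only [L, of_apply, cons_val', cons_val_zero, cons_val_fin_one, cons_val_one, map_one] at h1
    exact absurd h1 (by decide)
  · intro N hN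
    obtain ⟨g, hgN, hg⟩ := SetLike.exists_of_lt hN
    have hc : IsUnit (g.1 1 0) := isUnit_of_rho hk _ hg
    obtain ⟨u, hu⟩ := hc
    have hinv : (u : ZMod (5 ^ k)) * ((u⁻¹ : (ZMod (5 ^ k))ˣ) : ZMod (5 ^ k)) = 1 := u.mul_inv
    have hTN : ∀ x, T x ∈ N := fun x => hN.le (by
      rw [mem_HH]
      simp [T])
    have hDN : ∀ v, D v ∈ N := fun v => hN.le (by
      rw [mem_HH]
      simp [D])
    -- the Weyl element
    let w : SpecialLinearGroup (Fin 2) (ZMod (5 ^ k)) :=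
      D u * T (- g.1 0 0 * ((u⁻¹ : (ZMod (5 ^ k))ˣ) : ZMod (5 ^ k))) * g *
        T (- g.1 1 1 * ((u⁻¹ : (ZMod (5 ^ k))ˣ) : ZMod (5 ^ k)))
    have hwN : w ∈ N := N.mul_mem (N.mul_mem (N.mul_mem (hDN _) (hTN _)) hgN) (hTN _)
    have hdet := det_rel g
    rw [← hu] at hdet
    have hw : w = W₀ := by
      apply mat_ext
      · simp only [w, sl_mul_apply]
        simp [D, T, W₀, ← hu]
        linear_combination (-((u : ZMod (5 ^ k)) * g.1 0 0)) * hinv
      · simp only [w, sl_mul_apply]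
        simp [D, T, W₀, ← hu]
        linear_combination (-1) * hdet + (g.1 0 0 * g.1 1 1 * ((u : ZMod (5 ^ k)) * ((u⁻¹ : (ZMod (5 ^ k))ˣ) : ZMod (5 ^ k)) - 1)) * hinv
      · simp only [w, sl_mul_apply]
        simp [D, T, W₀, ← hu]
      · simp only [w, sl_mul_apply]
        simp [D, T, W₀, ← hu]
        ring
    rw [hw] at hwN
    refine top_of_T_L (hloc hk) N hTN ?_
    intro y
    rw [L_eq]
    exact N.mul_mem (N.mul_mem hwN (hTN _)) (N.inv_mem hwN)

end concrete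

section derived

open Matrix
open scoped commutatorElement

variable {k : ℕ} (hk : 1 ≤ k)

/-- The matrix of an element of `HH`. -/
abbrev mat (u : HH k hk) : Matrix (Fin 2) (Fin 2) (ZMod (5 ^ k)) := u.1.1

theorem mat_mul (u v : HH k hk) : mat hk (u * v) = mat hk u * mat hk v := rfl
theorem mat_one : mat hk (1 : HH k hk) = 1 := rfl
theorem mat_pow (u : HH k hk) (n : ℕ) : mat hk (u ^ n) = mat hk u ^ n := by
  induction n with
  | zero => rfl
  | succ n ih => rw [pow_succ, pow_succ, mat_mul, ih]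

def EE (k : ℕ) : Matrix (Fin 2) (Fin 2) (ZMod (5 ^ k)) := !![0, 1; 0, 0]
def FF (k : ℕ) : Matrix (Fin 2) (Fin 2) (ZMod (5 ^ k)) := !![0, 0; 1, 0]
def DD (k : ℕ) : Matrix (Fin 2) (Fin 2) (ZMod (5 ^ k)) := !![1, 0; 0, -1]

theorem rel_EF : EE k * FF k - FF k * EE k = DD k := by
  simp only [EE, FF, DD, mul_fin_two]
  ext i j
  fin_cases i <;> fin_cases j <;> simp

theorem rel_DE : DD k * EE k - EE k * DD k = 2 • EE k := by
  simp only [EE, DD, mul_fin_two]
  ext i j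
  fin_cases i <;> fin_cases j <;> simp
  ring

theorem rel_DF : DD k * FF k - FF k * DD k = (-2 : ℤ) • FF k := by
  simp only [FF, DD, mul_fin_two]
  ext i j
  fin_cases i <;> fin_cases j <;> simp
  ring

/-- The key property of the derived series. -/
def PP (i : ℕ) : Prop :=
  (∃ u ∈ derivedSeries (HH k hk) i, Lev (5 : ZMod (5 ^ k)) (2 ^ i + 1)
      (mat hk u - 1 - (5 : ZMod (5 ^ k)) ^ (2 ^ i) • EE k)) ∧
  (∃ u ∈ derivedSeries (HH k hk) i, Lev (5 : ZMod (5 ^ k)) (2 ^ i + 1)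
      (mat hk u - 1 - (5 : ZMod (5 ^ k)) ^ (2 ^ i) • FF k)) ∧
  (∃ u ∈ derivedSeries (HH k hk) i, Lev (5 : ZMod (5 ^ k)) (2 ^ i + 1)
      (mat hk u - 1 - (5 : ZMod (5 ^ k)) ^ (2 ^ i) • DD k))

theorem comm_step_HH {l : ℕ} (hl : 1 ≤ l) (u v : HH k hk) {X Y : Matrix (Fin 2) (Fin 2) (ZMod (5 ^ k))}
    (hu : Lev (5 : ZMod (5 ^ k)) (l + 1) (mat hk u - 1 - (5 : ZMod (5 ^ k)) ^ l • X))
    (hv : Lev (5 : ZMod (5 ^ k)) (l + 1) (mat hk v - 1 - (5 : ZMod (5 ^ k)) ^ l • Y)) :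
    Lev (5 : ZMod (5 ^ k)) (2 * l + 1)
      (mat hk ⁅u, v⁆ - 1 - (5 : ZMod (5 ^ k)) ^ (2 * l) • (X * Y - Y * X)) := by
  rw [commutatorElement_def, mat_mul, mat_mul, mat_mul]
  refine comm_step _ hl ?_ ?_ ?_ ?_ hu hv
  · rw [← mat_mul, mul_inv_cancel, mat_one]
  · rw [← mat_mul, inv_mul_cancel, mat_one]
  · rw [← mat_mul, mul_inv_cancel, mat_one]
  · rw [← mat_mul, inv_mul_cancel, mat_one]

theorem PP_zero : PP hk 0 := by
  have h5 : (5 : ZMod 5) = 0 := by decide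
  have hr5 : rho k hk 5 = 0 := by
    rw [map_ofNat]
    exact h5
  refine ⟨⟨⟨T 5, ?_⟩, by simp, ?_⟩, ⟨⟨L 5, ?_⟩, by simp, ?_⟩, ?_⟩
  · rw [mem_HH]
    simp [T]
  · refine ⟨0, ?_⟩
    simp only [mat, T, EE, pow_zero, zero_add, pow_one, smul_zero]
    ext i j
    fin_cases i <;> fin_cases j <;> simp
  · rw [mem_HH]
    simpa [L] using hr5
  · refine ⟨0, ?_⟩
    simp only [mat, L, FF, pow_zero, zero_add, pow_one, smul_zero]
    ext i j
    fin_cases i <;> fin_cases j <;> simp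
  · obtain ⟨u6, hu6⟩ := exists_unit (k := k) 6 (by norm_num)
    have hinv : (u6 : ZMod (5 ^ k)) * ((u6⁻¹ : (ZMod (5 ^ k))ˣ) : ZMod (5 ^ k)) = 1 := u6.mul_inv
    rw [hu6] at hinv
    refine ⟨⟨D u6, ?_⟩, by simp, ?_⟩
    · rw [mem_HH]
      simp [D]
    · refine ⟨!![0, 0; 0, ((u6⁻¹ : (ZMod (5 ^ k))ˣ) : ZMod (5 ^ k))], ?_⟩
      simp only [mat, D, DD, pow_zero, zero_add, pow_one]
      ext i j
      fin_cases i <;> fin_cases j <;> simp [hu6]
      · norm_num
      · push_cast at hinv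
        linear_combination (-4 : ZMod (5 ^ k)) * hinv

theorem PP_succ (i : ℕ) (h : PP hk i) : PP hk (i + 1) := by
  obtain ⟨⟨uE, huE, hE⟩, ⟨uF, huF, hF⟩, ⟨uD, huD, hD⟩⟩ := h
  have hl : 1 ≤ 2 ^ i := Nat.one_le_two_pow
  have hexp : 2 ^ (i + 1) = 2 * 2 ^ i := by rw [pow_succ]; ring
  rw [PP, hexp, derivedSeries_succ]
  refine ⟨⟨⁅uD, uE⁆ ^ 3, Subgroup.pow_mem _ (Subgroup.commutator_mem_commutator huD huE) _, ?_⟩,
    ⟨⁅uD, uF⁆ ^ 2, Subgroup.pow_mem _ (Subgroup.commutator_mem_commutator huD huF) _, ?_⟩,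
    ⟨⁅uE, uF⁆, Subgroup.commutator_mem_commutator huE huF, ?_⟩⟩
  · have h1 := comm_step_HH hk hl uD uE hD hE
    have h2 := pow_three_step _ (by omega) h1
    rw [mat_pow]
    have h3 : ∀ W : Matrix (Fin 2) (Fin 2) (ZMod (5 ^ k)),
        W - 1 - (5 : ZMod (5 ^ k)) ^ (2 * 2 ^ i) • EE k =
          (W - 1 - (5 : ZMod (5 ^ k)) ^ (2 * 2 ^ i) • 3 • (DD k * EE k - EE k * DD k)) +
            (5 : ZMod (5 ^ k)) ^ (2 * 2 ^ i + 1) • EE k := by
      intro W
      have h4 : (3 : ℕ) • (2 : ℕ) • EE k = EE k + (5 : ZMod (5 ^ k)) • EE k := by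
        ext a b
        fin_cases a <;> fin_cases b <;> simp [EE]
        norm_num
      rw [rel_DE, pow_succ, mul_smul, h4, smul_add]
      abel
    rw [h3]
    exact h2.add _ (Lev.of_eq _ _)
  · have h1 := comm_step_HH hk hl uD uF hD hF
    have h2 := pow_two_step _ (by omega) h1
    rw [mat_pow]
    have h3 : ∀ W : Matrix (Fin 2) (Fin 2) (ZMod (5 ^ k)),
        W - 1 - (5 : ZMod (5 ^ k)) ^ (2 * 2 ^ i) • FF k =
          (W - 1 - (5 : ZMod (5 ^ k)) ^ (2 * 2 ^ i) • 2 • (DD k * FF k - FF k * DD k)) -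
            (5 : ZMod (5 ^ k)) ^ (2 * 2 ^ i + 1) • FF k := by
      intro W
      have h4 : (2 : ℕ) • ((-2 : ℤ) • FF k) = FF k - (5 : ZMod (5 ^ k)) • FF k := by
        ext a b
        fin_cases a <;> fin_cases b <;> simp [FF]
        norm_num
      rw [rel_DF, pow_succ, mul_smul, h4, smul_sub]
      abel
    rw [h3]
    exact h2.sub _ (Lev.of_eq _ _)
  · have h1 := comm_step_HH hk hl uE uF hE hF
    rwa [rel_EF] at h1

theorem PP_all (i : ℕ) : PP hk i := by
  induction i with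
  | zero => exact PP_zero hk
  | succ i ih => exact PP_succ hk i ih

theorem derived_ne_bot (d : ℕ) (hd : 2 ^ d < k) : derivedSeries (HH k hk) d ≠ ⊥ := by
  intro hbot
  obtain ⟨⟨u, hu, hE⟩, -⟩ := PP_all hk d
  rw [hbot, Subgroup.mem_bot] at hu
  subst hu
  obtain ⟨B, hB⟩ := hE
  have h1 := congrFun (congrFun hB 0) 1
  simp only [mat_one, EE] at h1
  simp at h1
  have h2 : (5 : ZMod (5 ^ k)) ^ 2 ^ d * (1 + 5 * B 0 1) = 0 := by
    rw [pow_succ] at h1
    linear_combination (-1 : ZMod (5 ^ k)) * h1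
  have hunit : IsUnit (1 + 5 * B 0 1 : ZMod (5 ^ k)) := by
    apply isUnit_of_rho hk
    have h5 : (5 : ZMod 5) = 0 := by decide
    rw [map_add, map_mul, map_one, map_ofNat]
    rw [show ((OfNat.ofNat 5 : ZMod 5)) = 0 from h5]
    simp only [zero_mul, add_zero]
    decide
  have := (hunit.mul_left_eq_zero).1 h2
  exact five_pow_ne_zero hd this

end derived

section solvable

open Matrix

variable {k : ℕ} (hk : 1 ≤ k)

theorem lev_pow_five {m : ℕ} (hm : 1 ≤ m) {Z : Matrix (Fin 2) (Fin 2) (ZMod (5 ^ k))}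
    (hZ : Lev (5 : ZMod (5 ^ k)) m (Z - 1)) : Lev (5 : ZMod (5 ^ k)) (m + 1) (Z ^ 5 - 1) := by
  obtain ⟨z, hz⟩ : ∃ z, z = Z - 1 := ⟨_, rfl⟩
  rw [← hz] at hZ
  have hZ' : Z = 1 + z := by rw [hz]; abel
  have h1 : Z ^ 5 - 1 = 5 • z + (10 • (z * z) + 10 • (z * z * z) + 5 • (z * z * z * z) + z * z * z * z * z) := by
    rw [hZ']
    noncomm_ring
  have hzz : Lev (5 : ZMod (5 ^ k)) (m + 1) (z * z) := Lev.mul_of_le _ (by omega) hZ hZ
  have hnsmul : ∀ (n : ℕ) {x : Matrix (Fin 2) (Fin 2) (ZMod (5 ^ k))},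
      Lev (5 : ZMod (5 ^ k)) (m + 1) x → Lev (5 : ZMod (5 ^ k)) (m + 1) (n • x) := by
    intro n x hx
    induction n with
    | zero => simpa using Lev.zero _
    | succ n ih =>
      rw [succ_nsmul]
      exact ih.add _ hx
  rw [h1]
  refine Lev.add _ ?_ (Lev.add _ (Lev.add _ (Lev.add _ (hnsmul _ hzz) (hnsmul _ (Lev.mul_right _ _ hzz)))
    (hnsmul _ (Lev.mul_right _ _ (Lev.mul_right _ _ hzz)))) (Lev.mul_right _ _ (Lev.mul_right _ _ (Lev.mul_right _ _ hzz))))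
  obtain ⟨B, hB⟩ := hZ
  refine ⟨B, ?_⟩
  rw [hB, pow_succ', mul_smul, ← Nat.cast_smul_eq_nsmul (ZMod (5 ^ k)) 5]
  norm_num

theorem isPGroup_aux (y : SpecialLinearGroup (Fin 2) (ZMod (5 ^ k)))
    (h0 : rho k hk (y.1 0 0) = 1) (h1 : rho k hk (y.1 1 0) = 0) : y ^ (5 ^ k) = 1 := by
  have h3 : rho k hk (y.1 1 1) = 1 := by
    have := congrArg (rho k hk) (det_rel y)
    rw [map_sub, map_mul, map_mul, h0, h1, map_one] at this
    simpa using this
  -- the fifth power is one modulo five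
  have hbase : Lev (5 : ZMod (5 ^ k)) 1 (y.1 ^ 5 - 1) := by
    have hmap : (rho k hk).mapMatrix y.1 = !![1, rho k hk (y.1 0 1); 0, 1] := by
      ext i j
      fin_cases i <;> fin_cases j <;> simp [h0, h1, h3]
    have hdec : ∀ b : ZMod 5, (!![1, b; 0, 1] : Matrix (Fin 2) (Fin 2) (ZMod 5)) ^ 5 = 1 := by
      decide
    have hp5 : (rho k hk).mapMatrix (y.1 ^ 5) = 1 := by
      rw [map_pow, hmap, hdec]
    have hent : ∀ i j, ∃ b, (y.1 ^ 5 - 1 : Matrix (Fin 2) (Fin 2) (ZMod (5 ^ k))) i j = 5 * b := by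
      intro i j
      apply eq_five_mul_of_rho hk
      have h4 := congrFun (congrFun hp5 i) j
      simp only [RingHom.mapMatrix_apply, Matrix.map_apply] at h4
      rw [Matrix.sub_apply, map_sub, h4]
      by_cases hij : i = j
      · subst hij
        simp
      · simp [Matrix.one_apply, hij]
    choose B hB using hent
    refine ⟨Matrix.of B, ?_⟩
    ext i j
    rw [hB]
    simp
  have hstep : ∀ n : ℕ, Lev (5 : ZMod (5 ^ k)) (n + 1) (y.1 ^ (5 ^ (n + 1)) - 1) := by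
    intro n
    induction n with
    | zero => simpa using hbase
    | succ n ih =>
      have := lev_pow_five (m := n + 1) (by omega) ih
      rwa [← pow_mul, ← pow_succ] at this
  obtain ⟨n, rfl⟩ : ∃ n, k = n + 1 := ⟨k - 1, by omega⟩
  obtain ⟨B, hB⟩ := hstep n
  rw [five_pow_eq_zero, zero_smul, sub_eq_zero] at hB
  have hpow : ∀ m : ℕ, (y ^ m).1 = y.1 ^ m := fun m => Matrix.SpecialLinearGroup.coe_pow y m
  apply Subtype.ext
  rw [hpow, hB]
  rfl

theorem solvable_HH : Group.IsSolvable (HH k hk) := by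
  haveI : NeZero (5 ^ k) := ⟨by positivity⟩
  haveI : Fact (Nat.Prime 5) := ⟨by norm_num⟩
  haveI : Finite (SpecialLinearGroup (Fin 2) (ZMod (5 ^ k))) :=
    Finite.of_injective (fun g => g.1) Subtype.val_injective
  let ψ₀ : HH k hk →* ZMod 5 :=
    { toFun := fun u => rho k hk (u.1.1 0 0)
      map_one' := by
        simp
      map_mul' := by
        intro u v
        have h1 : (u * v).1.1 0 0 = u.1.1 0 0 * v.1.1 0 0 + u.1.1 0 1 * v.1.1 1 0 :=
          sl_mul_apply u.1 v.1 0 0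
        rw [h1, map_add, map_mul, map_mul]
        have h2 : rho k hk (v.1.1 1 0) = 0 := v.2
        rw [h2, mul_zero, add_zero] }
  let ψ := ψ₀.toHomUnits
  have hp : IsPGroup 5 ψ.ker := by
    intro g
    refine ⟨k, ?_⟩
    apply Subtype.ext
    apply Subtype.ext
    have hg : ψ g.1 = 1 := g.2
    have hg0 : rho k hk (g.1.1.1 0 0) = 1 := by
      have := congrArg (Units.val) hg
      rw [MonoidHom.coe_toHomUnits, Units.val_one] at this
      exact this
    exact isPGroup_aux hk g.1.1 hg0 g.1.2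
  haveI : Group.IsNilpotent ψ.ker := hp.isNilpotent
  exact Group.isSolvable_of_ker_le_range ψ.ker.subtype ψ (by simp)

end solvable

/-- Finite perfect groups have solvable maximal subgroups of unbounded derived length: for every d there is a finite perfect group G (equal to its commutator subgroup) with a solvable maximal subgroup H whose derived length exceeds d, i.e. the d-th term of the derived series of H is non-trivial. (Take the derived subgroup of a wreath product S ≀ A₅ with S solvable of large derived length, and H the preimage of a maximal subgroup of A₅.) -/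
theorem result (d : ℕ) :
    ∃ (G : Type) (_ : Group G) (_ : Finite G) (H : Subgroup G), commutator G = ⊤ ∧ IsCoatom H ∧ Group.IsSolvable H ∧
      derivedSeries H d ≠ ⊥ := by
  have hk : 1 ≤ 2 ^ d + 1 := Nat.le_add_left 1 _
  haveI : NeZero (5 ^ (2 ^ d + 1)) := ⟨by positivity⟩
  refine ⟨Matrix.SpecialLinearGroup (Fin 2) (ZMod (5 ^ (2 ^ d + 1))), inferInstance,
    Finite.of_injective (fun g => g.1) Subtype.val_injective, HH _ hk, perfect hk, isCoatom_HH hk,
    solvable_HH hk, derived_ne_bot hk d (Nat.lt_succ_self _)⟩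

end Cfsg.Agent.S5896
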