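import Mathlib
import Cfsg.Statements.S5902

set_option autoImplicit false
open Cfsg

namespace Cfsg.Agent.S5902

/-- A subgroup not contained in the unique maximal overgroup of `X` has a complement inside `X`. -/
theorem exists_compl_of_not_le {G : Type*} [Group G] [Finite G] (X M : Subgroup G)
    (hK : ComplementedLattice (Subgroup X))
    (huniq : ∀ M' : Subgroup G, IsCoatom M' → X ≤ M' → M' = M)
    (H : Subgroup G) (hH : ¬ H ≤ M) :
    ∃ C : Subgroup G, H ⊔ C = ⊤ ∧ H ⊓ C = ⊥ := by
  obtain ⟨C', hC'⟩ := hK.exists_isCompl (H.subgroupOf X)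
  have hsup := hC'.sup_eq_top
  have hinf := hC'.inf_eq_bot
  refine ⟨C'.map X.subtype, ?_, ?_⟩
  · have hX' : X ≤ H ⊔ C'.map X.subtype := by
      intro x hx
      have h1 : (⟨x, hx⟩ : X) ∈ H.subgroupOf X ⊔ C' := by rw [hsup]; trivial
      have h2 := Subgroup.mem_map_of_mem X.subtype h1
      rw [Subgroup.map_sup] at h2
      have h3 : (H.subgroupOf X).map X.subtype ≤ H := by
        rintro _ ⟨y, hy, rfl⟩
        exact hy
      exact (sup_le_sup_right h3 _) h2
    by_contra hne
    obtain ⟨M', hM', hle⟩ := (eq_top_or_exists_le_coatom _).resolve_left hne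
    have := huniq M' hM' (hX'.trans hle)
    subst this
    exact hH (le_sup_left.trans hle)
  · rw [eq_bot_iff]
    rintro g ⟨hgH, ⟨c, hc, rfl⟩⟩
    have : c ∈ H.subgroupOf X ⊓ C' := ⟨hgH, hc⟩
    rw [hinf] at this
    have : c = 1 := this
    simp [this]

/-- Moving a subgroup off the core by conjugation. -/
theorem exists_conj_not_le {G : Type*} [Group G] (M H : Subgroup G)
    (hH : ¬ H ≤ M.normalCore) :
    ∃ g : G, ¬ H.map (MulAut.conj g).toMonoidHom ≤ M := by
  by_contra hcon
  apply hH
  intro h hh g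
  by_contra hng
  exact hcon ⟨g, fun hle => hng (hle ⟨h, hh, rfl⟩)⟩

/-- Complements transport along conjugation. -/
theorem exists_compl_of_conj {G : Type*} [Group G] (H : Subgroup G) (g : G)
    (h : ∃ C : Subgroup G, H.map (MulAut.conj g).toMonoidHom ⊔ C = ⊤ ∧
      H.map (MulAut.conj g).toMonoidHom ⊓ C = ⊥) :
    ∃ C : Subgroup G, H ⊔ C = ⊤ ∧ H ⊓ C = ⊥ := by
  obtain ⟨C, h1, h2⟩ := h
  refine ⟨C.map (MulAut.conj g)⁻¹.toMonoidHom, ?_, ?_⟩
  · have := congrArg (Subgroup.map (MulAut.conj g)⁻¹.toMonoidHom) h1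
    rw [Subgroup.map_sup, Subgroup.map_map] at this
    have hid : ((MulAut.conj g)⁻¹.toMonoidHom.comp (MulAut.conj g).toMonoidHom) = MonoidHom.id G := by
      ext x; simp [MulAut.conj_apply]; group
    rw [hid, Subgroup.map_id] at this
    rw [this]
    apply Subgroup.map_top_of_surjective
    exact (MulAut.conj g)⁻¹.surjective
  · have := congrArg (Subgroup.map (MulAut.conj g)⁻¹.toMonoidHom) h2
    rw [Subgroup.map_inf _ _ _ ((MulAut.conj g)⁻¹.injective), Subgroup.map_map] at this
    have hid : ((MulAut.conj g)⁻¹.toMonoidHom.comp (MulAut.conj g).toMonoidHom) = MonoidHom.id G := by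
      ext x; simp [MulAut.conj_apply]; group
    rw [hid, Subgroup.map_id] at this
    rw [this]
    simp

/-- Let G be a finite group, X a subgroup whose own subgroup lattice is complemented, and suppose X lies in exactly one maximal subgroup M of G. Then every subgroup H of G not contained in the normal core of M has a complement in the subgroup lattice of G (some C with H ⊔ C = G and H ⊓ C = 1); in particular the subgroup lattice of G modulo the normal core of M is complemented. -/
theorem result {G : Type*} [Group G] [Finite G] (X M : Subgroup G)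
    (hK : ComplementedLattice (Subgroup X))
    (hM : IsCoatom M) (hXM : X ≤ M) (huniq : ∀ M' : Subgroup G, IsCoatom M' → X ≤ M' → M' = M) :
    (∀ H : Subgroup G, ¬ H ≤ M.normalCore → ∃ C : Subgroup G, H ⊔ C = ⊤ ∧ H ⊓ C = ⊥) ∧
    ComplementedLattice (Subgroup (G ⧸ M.normalCore)) := by
  have part1 : ∀ H : Subgroup G, ¬ H ≤ M.normalCore → ∃ C : Subgroup G, H ⊔ C = ⊤ ∧ H ⊓ C = ⊥ := by
    intro H hH
    obtain ⟨g, hg⟩ := exists_conj_not_le M H hH
    exact exists_compl_of_conj H g (exists_compl_of_not_le X M hK huniq _ hg)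
  refine ⟨part1, ⟨?_⟩⟩
  intro Hbar
  by_cases hbot : Hbar = ⊥
  · subst hbot
    exact ⟨⊤, isCompl_bot_top⟩
  set N := M.normalCore with hN
  set H := Hbar.comap (QuotientGroup.mk' N) with hHdef
  have hNH : N ≤ H := by
    intro n hn
    have : (QuotientGroup.mk' N) n = 1 := by
      simpa using hn
    simp only [hHdef, Subgroup.mem_comap, this]
    exact Hbar.one_mem
  have hmapH : H.map (QuotientGroup.mk' N) = Hbar :=
    Subgroup.map_comap_eq_self_of_surjective (QuotientGroup.mk'_surjective N) Hbar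
  have hH : ¬ H ≤ N := by
    intro hle
    apply hbot
    rw [← hmapH, eq_bot_iff]
    rintro _ ⟨h, hh, rfl⟩
    have := hle hh
    simpa using this
  obtain ⟨C, h1, h2⟩ := part1 H hH
  refine ⟨C.map (QuotientGroup.mk' N), ?_⟩
  rw [isCompl_iff, disjoint_iff, codisjoint_iff]
  constructor
  · rw [eq_bot_iff]
    rintro x ⟨hx, ⟨c, hc, rfl⟩⟩
    have hcH : c ∈ H := hx
    have : c ∈ H ⊓ C := ⟨hcH, hc⟩
    rw [h2] at this
    have : c = 1 := this
    simp [this]
  · rw [← hmapH, ← Subgroup.map_sup, h1]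
    exact Subgroup.map_top_of_surjective _ (QuotientGroup.mk'_surjective N)

end Cfsg.Agent.S5902
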