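import Mathlib
import Cfsg.Statements.S5903
import Cfsg.Agent.S5901
import Cfsg.Agent.S5902

set_option autoImplicit false
open Cfsg

namespace Cfsg.Agent.S5903

/-- The interval `[N, X]` inherits complements from `X / N`. -/
theorem interval_compl {G : Type*} [Group G] (X N : Subgroup G) (hNX : N ≤ X)
    [(N.subgroupOf X).Normal] (hK : ComplementedLattice (Subgroup (X ⧸ N.subgroupOf X)))
    (Y : Subgroup G) (hNY : N ≤ Y) (hYX : Y ≤ X) :
    ∃ C : Subgroup G, N ≤ C ∧ C ≤ X ∧ Y ⊔ C = X ∧ Y ⊓ C = N := by
  set π := QuotientGroup.mk' (N.subgroupOf X) with hπ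
  have hsurj : Function.Surjective π := QuotientGroup.mk'_surjective _
  have hker : π.ker = N.subgroupOf X := QuotientGroup.ker_mk' _
  obtain ⟨Cb, hCb⟩ := hK.exists_isCompl ((Y.subgroupOf X).map π)
  have hsup := hCb.sup_eq_top
  have hinf := hCb.inf_eq_bot
  have hNY' : N.subgroupOf X ≤ Y.subgroupOf X := fun z hz => hNY hz
  have hkerC : N.subgroupOf X ≤ Cb.comap π := by
    intro z hz
    have : π z = 1 := by
      have : z ∈ π.ker := by rw [hker]; exact hz
      exact this
    simp only [Subgroup.mem_comap, this]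
    exact Cb.one_mem
  have hcomapY : ((Y.subgroupOf X).map π).comap π = Y.subgroupOf X := by
    rw [Subgroup.comap_map_eq]
    apply sup_eq_left.mpr
    intro z hz
    apply hNY'
    have : z ∈ N.subgroupOf X := by rw [← hker]; exact hz
    exact this
  have h1 : Y.subgroupOf X ⊔ Cb.comap π = ⊤ := by
    have := congrArg (Subgroup.comap π) hsup
    rwa [← Subgroup.comap_sup_eq π _ _ hsurj, hcomapY, Subgroup.comap_top] at this
  have h2 : Y.subgroupOf X ⊓ Cb.comap π = N.subgroupOf X := by
    have := congrArg (Subgroup.comap π) hinf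
    rw [Subgroup.comap_inf, hcomapY] at this
    rw [this]
    ext z
    change π z = 1 ↔ _
    have : z ∈ π.ker ↔ z ∈ N.subgroupOf X := by rw [hker]
    exact this
  refine ⟨(Cb.comap π).map X.subtype, ?_, ?_, ?_, ?_⟩
  · intro n hn
    exact ⟨⟨n, hNX hn⟩, hkerC hn, rfl⟩
  · rintro _ ⟨c, _, rfl⟩
    exact c.2
  · apply le_antisymm
    · refine sup_le hYX ?_
      rintro _ ⟨c, _, rfl⟩
      exact c.2
    · intro x hx
      have h3 : (⟨x, hx⟩ : X) ∈ Y.subgroupOf X ⊔ Cb.comap π := by rw [h1]; trivial
      have h4 := Subgroup.mem_map_of_mem X.subtype h3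
      rw [Subgroup.map_sup] at h4
      have h5 : (Y.subgroupOf X).map X.subtype ≤ Y := by
        rintro _ ⟨y, hy, rfl⟩
        exact hy
      exact (sup_le_sup_right h5 _) h4
  · apply le_antisymm
    · rintro g ⟨hgY, ⟨c, hc, rfl⟩⟩
      have : c ∈ Y.subgroupOf X ⊓ Cb.comap π := ⟨hgY, hc⟩
      rw [h2] at this
      exact this
    · intro n hn
      exact ⟨hNY hn, ⟨⟨n, hNX hn⟩, hkerC hn, rfl⟩⟩

/-- Let G be a finite simple group, X a subgroup lying in exactly one maximal subgroup M of G, and N a subgroup of prime order with N ≤ X that is central in M. If the subgroup lattice of X/N is complemented, then the subgroup lattice of G is complemented. -/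
theorem result {G : Type*} [Group G] [Finite G] [IsSimpleGroup G] (X M N : Subgroup G)
    (hM : IsCoatom M) (hXM : X ≤ M) (huniq : ∀ M' : Subgroup G, IsCoatom M' → X ≤ M' → M' = M)
    (hNX : N ≤ X) (hN : (Nat.card N).Prime) (hcen : ∀ n ∈ N, ∀ m ∈ M, m * n = n * m)
    [(N.subgroupOf X).Normal] (hK : ComplementedLattice (Subgroup (X ⧸ N.subgroupOf X))) :
    ComplementedLattice (Subgroup G) := by
  have hNbot : N ≠ ⊥ := by
    rintro rfl
    simp at hN
    exact Nat.not_prime_one hN
  have hXtop : X ≠ ⊤ := by
    rintro rfl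
    exact hM.1 (top_le_iff.mp hXM)
  refine ⟨fun H => ?_⟩
  by_cases hHbot : H = ⊥
  · subst hHbot; exact ⟨⊤, isCompl_bot_top⟩
  by_cases hHtop : H = ⊤
  · subst hHtop; exact ⟨⊥, isCompl_top_bot⟩
  -- a conjugate of `H` avoiding both `M` and `N`
  have key : ∃ g : G, ¬ H.map (MulAut.conj g).toMonoidHom ≤ M ∧
      ¬ N ≤ H.map (MulAut.conj g).toMonoidHom := by
    by_contra hcon
    have hcon' : ∀ g : G, H.map (MulAut.conj g).toMonoidHom ≤ M ∨
        N ≤ H.map (MulAut.conj g).toMonoidHom := by
      intro g
      by_contra h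
      rw [not_or] at h
      exact hcon ⟨g, h.1, h.2⟩
    -- all conjugates of `N` lie in `H ⊔ C(H)`
    have hle : Subgroup.normalClosure (N : Set G) ≤ H ⊔ Subgroup.centralizer (H : Set G) := by
      rw [Subgroup.normalClosure, Subgroup.closure_le]
      intro x hx
      obtain ⟨a, ha, hconj⟩ := Group.mem_conjugatesOfSet_iff.1 hx
      obtain ⟨c, rfl⟩ := isConj_iff.1 hconj
      rcases hcon' c⁻¹ with h | h
      · apply (le_sup_right : Subgroup.centralizer (H : Set G) ≤ _)
        rw [Subgroup.mem_centralizer_iff]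
        intro h' hh'
        have h1 : c⁻¹ * h' * c ∈ M := by
          apply h
          refine ⟨h', hh', ?_⟩
          simp [MulAut.conj_apply]
        have h2 := hcen a ha _ h1
        calc h' * (c * a * c⁻¹) = c * ((c⁻¹ * h' * c) * a) * c⁻¹ := by group
          _ = c * (a * (c⁻¹ * h' * c)) * c⁻¹ := by rw [h2]
          _ = (c * a * c⁻¹) * h' := by group
      · apply (le_sup_left : H ≤ _)
        obtain ⟨h', hh', hh'2⟩ := h ha
        have : c * a * c⁻¹ = h' := by
          rw [← hh'2]
          simp [MulAut.conj_apply]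
          group
        rw [this]
        exact hh'
    have htop : Subgroup.normalClosure (N : Set G) = ⊤ := by
      rcases (Subgroup.normalClosure_normal (s := (N : Set G))).eq_bot_or_eq_top with h | h
      · exfalso
        apply hNbot
        rw [eq_bot_iff, ← h]
        exact Subgroup.le_normalClosure
      · exact h
    have hnorm : Subgroup.normalizer (H : Set G) = ⊤ := by
      rw [eq_top_iff, ← htop]
      refine hle.trans (sup_le ?_ ?_)
      · intro h' hh' g'
        constructor
        · intro hg'
          exact H.mul_mem (H.mul_mem hh' hg') (H.inv_mem hh')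
        · intro hg'
          have := H.mul_mem (H.mul_mem (H.inv_mem hh') hg') hh'
          simpa [mul_assoc] using this
      · intro h' hh' g'
        have hcomm : ∀ y ∈ H, y * h' = h' * y := fun y hy =>
          (Subgroup.mem_centralizer_iff.1 hh') y hy
        constructor
        · intro hg'
          have : h' * g' * h'⁻¹ = g' := by
            rw [← hcomm g' hg']; group
          rwa [this]
        · intro hg'
          have h3 := hcomm _ hg'
          have h4 : g' = h' * g' * h'⁻¹ := by
            calc g' = h'⁻¹ * ((h' * g' * h'⁻¹) * h') := by group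
              _ = h'⁻¹ * (h' * (h' * g' * h'⁻¹)) := by rw [h3]
              _ = h' * g' * h'⁻¹ := by group
          rw [h4]
          exact hg'
    have hHn : H.Normal := Subgroup.normalizer_eq_top_iff.1 hnorm
    rcases hHn.eq_bot_or_eq_top with h | h
    · exact hHbot h
    · exact hHtop h
  obtain ⟨g, hg1, hg2⟩ := key
  have hinf : H.map (MulAut.conj g).toMonoidHom ⊓ N = ⊥ := by
    haveI : Fact (Nat.card N).Prime := ⟨hN⟩
    have := Subgroup.eq_bot_or_eq_top_of_prime_card ((H.map (MulAut.conj g).toMonoidHom).subgroupOf N)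
    rcases this with h | h
    · rw [Subgroup.subgroupOf_eq_bot] at h
      exact disjoint_iff.mp h
    · rw [Subgroup.subgroupOf_eq_top] at h
      exact absurd h hg2
  obtain ⟨C, hC1, hC2⟩ := Cfsg.Agent.S5902.exists_compl_of_conj H g
    (Cfsg.Agent.S5901.result N X M hNX hXtop
      (fun Y hNY hYX => interval_compl X N hNX hK Y hNY hYX) hM hXM huniq _ hg1 hinf)
  exact ⟨C, by rw [isCompl_iff, disjoint_iff, codisjoint_iff]; exact ⟨hC2, hC1⟩⟩

end Cfsg.Agent.S5903
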