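import Mathlib
import Cfsg.Statements.S5904

set_option autoImplicit false
open Cfsg
open scoped Pointwise

namespace Cfsg.Agent.S5904

/-- The stabilizer of the partition `{O, Oᶜ}` as a subgroup. -/
def partStab {Ω : Type*} (O : Set Ω) : Subgroup (Equiv.Perm Ω) where
  carrier := {g | g • O = O ∨ g • O = Oᶜ}
  one_mem' := by simp
  mul_mem' := by
    rintro a b (ha | ha) (hb | hb)
    · left; simp only [mul_smul, hb, ha]
    · right; simp only [mul_smul, hb, Set.smul_set_compl, ha]
    · right; simp only [mul_smul, hb, ha]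
    · left; simp only [mul_smul, hb, Set.smul_set_compl, ha, compl_compl]
  inv_mem' := by
    rintro a (ha | ha)
    · left
      conv_lhs => rw [← ha]
      simp
    · right
      have h1 : a⁻¹ • Oᶜ = O := by rw [← ha]; simp
      have h2 : a⁻¹ • O = (a⁻¹ • Oᶜ)ᶜ := by
        rw [Set.smul_set_compl, compl_compl]
      rw [h2, h1]

/-- Let Ω be a finite set with more than two elements and O ⊆ Ω a subset with exactly as many elements as its complement. Then the setwise stabilizer of O in the symmetric group on Ω is not a maximal subgroup (it is properly contained in the stabilizer of the partition {O, Ω ∖ O}, which is proper). -/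
theorem result {Ω : Type*} [Fintype Ω] [DecidableEq Ω] (hΩ : 2 < Fintype.card Ω)
    (O : Set Ω) (hO : Nat.card O = Nat.card ↥Oᶜ) :
    ¬ IsCoatom (MulAction.stabilizer (Equiv.Perm Ω) O) := by
  classical
  intro hco
  have hle : MulAction.stabilizer (Equiv.Perm Ω) O ≤ partStab O := by
    intro g hg
    exact Or.inl hg
  have hsum := Set.ncard_add_ncard_compl O
  have hO' : O.ncard = Oᶜ.ncard := hO
  rw [Nat.card_eq_fintype_card] at hsum
  have h1 : 1 < O.ncard := by omega
  have h2 : 0 < Oᶜ.ncard := by omega
  obtain ⟨a, b, ha, hb, hab⟩ := (Set.one_lt_ncard_iff O.toFinite).1 h1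
  obtain ⟨c, hc⟩ := (Set.ncard_pos Oᶜ.toFinite).1 h2
  -- a permutation exchanging `O` and its complement
  let e : {x // x ∈ O} ≃ {x // x ∈ Oᶜ} := (Finite.equivFin _).trans (finCongr hO |>.trans (Finite.equivFin _).symm)
  let σ : Equiv.Perm Ω := e.extendSubtype
  have hσ : σ • O = Oᶜ := by
    ext y
    constructor
    · rintro ⟨x, hx, rfl⟩
      exact e.extendSubtype_mem x hx
    · intro hy
      refine ⟨(e.symm ⟨y, hy⟩ : Ω), (e.symm ⟨y, hy⟩).2, ?_⟩
      change e.extendSubtype _ = y
      rw [e.extendSubtype_apply_of_mem _ (e.symm ⟨y, hy⟩).2]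
      simp
  have hne : MulAction.stabilizer (Equiv.Perm Ω) O < partStab O := by
    refine lt_of_le_of_ne hle ?_
    intro heq
    have h3 : σ ∈ partStab O := Or.inr hσ
    rw [← heq, MulAction.mem_stabilizer_iff, hσ] at h3
    have h4 : a ∈ Oᶜ := by rw [h3]; exact ha
    exact h4 ha
  have htop := hco.2 _ hne
  -- but a suitable transposition does not preserve the partition
  have hmem : Equiv.swap b c ∈ partStab O := by rw [htop]; trivial
  have hcO : c ∉ O := hc
  have hac : a ≠ c := fun h => hcO (h ▸ ha)
  have hbc : b ≠ c := fun h => hcO (h ▸ hb)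
  rcases hmem with h | h
  · have : c ∈ Equiv.swap b c • O := ⟨b, hb, by simp⟩
    rw [h] at this
    exact hcO this
  · have : a ∈ Equiv.swap b c • O := ⟨a, ha, by simp [Equiv.swap_apply_of_ne_of_ne hab hac]⟩
    rw [h] at this
    exact this ha

end Cfsg.Agent.S5904
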