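import Mathlib
import Cfsg.Statements.S5910
import Cfsg.Agent.Lib.PartitionStab

set_option autoImplicit false
open Cfsg

namespace Cfsg.Agent.S5910

open Equiv Cfsg.Agent.Lib.PartitionStab

/-- The model of eight points. -/
abbrev M8 := Fin 4 × Fin 2

/-- Coordinates. -/
def code (p : M8) : ℕ := p.1.val * 2 + p.2.val

/-- Decoding. -/
def dec (n : ℕ) : M8 := (⟨(n / 2) % 4, by omega⟩, ⟨n % 2, by omega⟩)

/-- The affine ternary operation `p + q + r` of `F₂³`. -/
def tri (p q r : M8) : M8 := dec ((code p).xor ((code q).xor (code r)))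

/-- The automorphisms of the ternary operation: a copy of `AGL₃(2)`. -/
def L : Subgroup (Perm M8) where
  carrier := {g | ∀ p q r, g (tri p q r) = tri (g p) (g q) (g r)}
  one_mem' := by intro p q r; rfl
  mul_mem' := by
    intro a b ha hb p q r
    simp only [Perm.mul_apply]
    rw [hb, ha]
  inv_mem' := by
    intro a ha p q r
    have h := ha (a⁻¹ p) (a⁻¹ q) (a⁻¹ r)
    simp only [← Perm.mul_apply, mul_inv_cancel, Perm.one_apply] at h
    rw [← h]
    simp

set_option maxRecDepth 100000 in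
theorem shear_mem : ∀ (σ : Perm (Fin 4)) (g0 g1 g2 g3 : Perm (Fin 2)),
    Perm.sign (Equiv.prodShear σ ![g0, g1, g2, g3]) = 1 →
    ∀ p q r, (Equiv.prodShear σ ![g0, g1, g2, g3]) (tri p q r) =
      tri ((Equiv.prodShear σ ![g0, g1, g2, g3]) p) ((Equiv.prodShear σ ![g0, g1, g2, g3]) q)
        ((Equiv.prodShear σ ![g0, g1, g2, g3]) r) := by
  decide +kernel

theorem exists_shear (g : Perm M8) (hg : ∀ x y : M8, x.1 = y.1 ↔ (g x).1 = (g y).1) :
    ∃ (σ : Perm (Fin 4)) (g0 g1 g2 g3 : Perm (Fin 2)), g = Equiv.prodShear σ ![g0, g1, g2, g3] := by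
  have hinj1 : Function.Injective (fun i : Fin 4 => (g (i, 0)).1) := by
    intro i j h
    exact (hg (i, 0) (j, 0)).2 h
  let σ : Perm (Fin 4) := Equiv.ofBijective _ (Finite.injective_iff_bijective.1 hinj1)
  have hinj2 : ∀ i : Fin 4, Function.Injective (fun e : Fin 2 => (g (i, e)).2) := by
    intro i e e' h
    have h1 : (g (i, e)).1 = (g (i, e')).1 := (hg (i, e) (i, e')).1 rfl
    have h2 : g (i, e) = g (i, e') := Prod.ext h1 h
    have := g.injective h2
    exact (Prod.ext_iff.1 this).2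
  let γ : Fin 4 → Perm (Fin 2) := fun i =>
    Equiv.ofBijective _ (Finite.injective_iff_bijective.1 (hinj2 i))
  refine ⟨σ, γ 0, γ 1, γ 2, γ 3, ?_⟩
  have hγ : ∀ i, (![γ 0, γ 1, γ 2, γ 3] : Fin 4 → Perm (Fin 2)) i = γ i := by
    intro i; fin_cases i <;> rfl
  apply Equiv.ext
  intro x
  apply Prod.ext
  · have h1 : (g x).1 = (g (x.1, 0)).1 := (hg x (x.1, 0)).1 rfl
    rw [h1]
    rfl
  · change (g x).2 = (![γ 0, γ 1, γ 2, γ 3] x.1) x.2
    rw [hγ]
    rfl

/-- Let Ω be a set with 8 elements and f : Ω → Fin 4 a labelling whose four fibres all have size 2 (a partition of the 8 points into 4 pairs). Then the group of even permutations preserving this partition, (S₂ ≀ S₄) ∩ A₈, is not a maximal subgroup of the alternating group A₈ (it lies in a subgroup isomorphic to the affine group AGL₃(2)). -/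
theorem result {Ω : Type*} [Fintype Ω] [DecidableEq Ω] (h8 : Fintype.card Ω = 8)
    (f : Ω → Fin 4) (hf : ∀ i : Fin 4, Nat.card {x : Ω // f x = i} = 2) :
    ¬ IsCoatom ((Subgroup.closure {g : Equiv.Perm Ω | ∀ x y : Ω, f x = f y ↔ f (g x) = f (g y)} ⊓ alternatingGroup Ω).subgroupOf (alternatingGroup Ω)) := by
  rw [closure_eq]
  obtain ⟨φ, hφ⟩ := exists_equiv_prod f hf
  let conjP : Perm Ω ≃* Perm M8 := φ.permCongrHom
  have hconj : ∀ k x, conjP k (φ x) = φ (k x) := by
    intro k x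
    change φ (k (φ.symm (φ x))) = φ (k x)
    simp
  have hsign : ∀ k, Perm.sign (conjP k) = Perm.sign k := fun k => Perm.sign_permCongr φ k
  have hWmodel : ∀ k, k ∈ W f → ∀ x y : M8, x.1 = y.1 ↔ (conjP k x).1 = (conjP k y).1 := by
    intro k hk x y
    obtain ⟨x, rfl⟩ := φ.surjective x
    obtain ⟨y, rfl⟩ := φ.surjective y
    rw [hconj, hconj, hφ, hφ, hφ, hφ]
    exact hk x y
  let LΩ : Subgroup (Perm Ω) := L.comap conjP.toMonoidHom
  have hle : W f ⊓ alternatingGroup Ω ≤ LΩ := by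
    intro g hg
    obtain ⟨σ, g0, g1, g2, g3, hshear⟩ := exists_shear (conjP g) (hWmodel g hg.1)
    have hs : Perm.sign (conjP g) = 1 := by
      rw [hsign]; exact hg.2
    change conjP g ∈ L
    rw [hshear] at hs ⊢
    exact shear_mem σ g0 g1 g2 g3 hs
  -- an even element of `L` outside `W`
  let t0 : Perm M8 := Equiv.swap ((0 : Fin 4), (1 : Fin 2)) ((1 : Fin 4), (0 : Fin 2)) *
    Equiv.swap ((2 : Fin 4), (1 : Fin 2)) ((3 : Fin 4), (0 : Fin 2))
  have ht0L : t0 ∈ L := by
    change ∀ p q r, t0 (tri p q r) = tri (t0 p) (t0 q) (t0 r)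
    decide +kernel
  have ht0s : Perm.sign t0 = 1 := by decide +kernel
  have ht0W : (t0 ((0 : Fin 4), (0 : Fin 2))).1 ≠ (t0 ((0 : Fin 4), (1 : Fin 2))).1 := by decide +kernel
  -- an even element outside `L`
  let s0 : Perm M8 := Equiv.swap ((0 : Fin 4), (0 : Fin 2)) ((0 : Fin 4), (1 : Fin 2)) *
    Equiv.swap ((0 : Fin 4), (0 : Fin 2)) ((1 : Fin 4), (0 : Fin 2))
  have hs0L : s0 ∉ L := by
    intro h
    have h1 : ∀ p q r, s0 (tri p q r) = tri (s0 p) (s0 q) (s0 r) := h
    revert h1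
    decide +kernel
  have hs0s : Perm.sign s0 = 1 := by decide +kernel
  intro hco
  have hlt : (W f ⊓ alternatingGroup Ω).subgroupOf (alternatingGroup Ω) <
      (LΩ ⊓ alternatingGroup Ω).subgroupOf (alternatingGroup Ω) := by
    refine lt_of_le_of_ne ?_ ?_
    · intro g hg
      exact ⟨hle hg, hg.2⟩
    · intro heq
      have ht0A : conjP.symm t0 ∈ alternatingGroup Ω := by
        rw [Perm.mem_alternatingGroup, ← hsign, conjP.apply_symm_apply]
        exact ht0s
      have hmem : (⟨conjP.symm t0, ht0A⟩ : alternatingGroup Ω) ∈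
          (LΩ ⊓ alternatingGroup Ω).subgroupOf (alternatingGroup Ω) := by
        rw [Subgroup.mem_subgroupOf]
        refine ⟨?_, ht0A⟩
        change conjP (conjP.symm t0) ∈ L
        rw [conjP.apply_symm_apply]
        exact ht0L
      rw [← heq] at hmem
      have hmem2 : conjP.symm t0 ∈ W f ⊓ alternatingGroup Ω := hmem
      have h1 := hWmodel _ hmem2.1 ((0 : Fin 4), (0 : Fin 2)) ((0 : Fin 4), (1 : Fin 2))
      rw [conjP.apply_symm_apply] at h1
      exact ht0W (h1.1 rfl)
  have htop := hco.2 _ hlt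
  have hA : alternatingGroup Ω ≤ LΩ ⊓ alternatingGroup Ω := Subgroup.subgroupOf_eq_top.1 htop
  have h1 : conjP.symm s0 ∈ alternatingGroup Ω := by
    rw [Perm.mem_alternatingGroup, ← hsign, conjP.apply_symm_apply]
    exact hs0s
  have h2 := (hA h1).1
  have h3 : conjP (conjP.symm s0) ∈ L := h2
  rw [conjP.apply_symm_apply] at h3
  exact hs0L h3

end Cfsg.Agent.S5910
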