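import Mathlib
import Cfsg.Statements.S5911
import Cfsg.Agent.Lib.SymAut2

set_option autoImplicit false
open Cfsg

namespace Cfsg.Agent.S5911

/-- Let Ω be a finite set whose size n is not 6. Then every subgroup of the symmetric group on Ω of index n is the stabilizer of a point. -/
theorem result {Ω : Type*} [Fintype Ω] [DecidableEq Ω] (h6 : Fintype.card Ω ≠ 6)
    (H : Subgroup (Equiv.Perm Ω)) (hH : H.index = Fintype.card Ω) :
    ∃ x : Ω, H = MulAction.stabilizer (Equiv.Perm Ω) x :=
  Cfsg.Agent.Lib.SymAut2.eq_stabilizer_all h6 H hH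

end Cfsg.Agent.S5911
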