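import Mathlib
import Cfsg.Statements.S5912
import Cfsg.Agent.Lib.SymS6

set_option autoImplicit false
open Cfsg

namespace Cfsg.Agent.S5912

open Equiv Cfsg.Agent.Lib.SymAut2 Cfsg.Agent.Lib.SymS6

/-- The symmetric group on a 6-element set Ω has exactly two conjugacy classes of subgroups of index 6: there are two non-conjugate subgroups of index 6 (a point stabilizer and a transitive subgroup isomorphic to S₅), and every subgroup of index 6 is conjugate to one of them. -/
theorem result {Ω : Type*} [Fintype Ω] [DecidableEq Ω] (h6 : Fintype.card Ω = 6) :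
    ∃ H₁ H₂ : Subgroup (Equiv.Perm Ω), H₁.index = 6 ∧ H₂.index = 6 ∧
      (¬ ∃ g : Equiv.Perm Ω, Subgroup.map (MulAut.conj g).toMonoidHom H₁ = H₂) ∧
      ∀ H : Subgroup (Equiv.Perm Ω), H.index = 6 →
        ∃ g : Equiv.Perm Ω, Subgroup.map (MulAut.conj g).toMonoidHom H₁ = H ∨ Subgroup.map (MulAut.conj g).toMonoidHom H₂ = H := by
  classical
  obtain ⟨H₂, hidx₂, hno⟩ := exists_H2 h6
  have hne : Nonempty Ω := Fintype.card_pos_iff.1 (by omega)
  obtain ⟨x0⟩ := hne
  refine ⟨MulAction.stabilizer (Perm Ω) x0, H₂, by rw [index_stabilizer_point, h6], hidx₂, ?_, ?_⟩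
  · rintro ⟨g, hg⟩
    obtain ⟨u, v, hu, hv, huv⟩ := exists_two_other h6 x0
    have h2 := swap_mem_stabilizer hu hv
    have h3 : g * Equiv.swap u v * g⁻¹ ∈ H₂ := by
      rw [← hg]
      exact ⟨_, h2, by simp [MulAut.conj_apply]⟩
    rw [← Equiv.swap_apply_apply] at h3
    exact hno _ _ (fun h => huv (g.injective h)) h3
  · intro H hH
    rcases classify h6 H₂ hidx₂ hno H hH with ⟨x, hx⟩ | ⟨d, hd⟩
    · obtain ⟨g, hg⟩ := MulAction.exists_smul_eq (Perm Ω) x0 x
      refine ⟨g, Or.inl ?_⟩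
      rw [hx, ← hg, MulAction.stabilizer_smul_eq_stabilizer_map_conj]
    · obtain ⟨g, rfl⟩ := QuotientGroup.mk_surjective d
      refine ⟨g, Or.inr ?_⟩
      rw [hd, comap_eq_stabilizer h6 H₂ hidx₂, stabilizer_coset_eq_conj]

end Cfsg.Agent.S5912
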