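import Mathlib
import Cfsg.Statements.S5913

set_option autoImplicit false
open Cfsg

namespace Cfsg.Agent.S5913

theorem mulSingle_mem {S : Type*} [Group S] [IsSimpleGroup S] (hS : ¬ IsMulCommutative S) (n : ℕ)
    (N : Subgroup (Fin n → S)) [hN : N.Normal] (i : Fin n) (y : Fin n → S) (hy : y ∈ N)
    (hyi : y i ≠ 1) (s : S) : Pi.mulSingle i s ∈ N := by
  classical
  let L : Subgroup S := N.comap (MonoidHom.mulSingle (fun _ : Fin n => S) i)
  have hL : L.Normal := by
    constructor
    intro a ha g
    have h1 := hN.conj_mem _ ha (Pi.mulSingle i g)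
    have h2 : (MonoidHom.mulSingle (fun _ : Fin n => S) i) (g * a * g⁻¹) =
        Pi.mulSingle i g * (MonoidHom.mulSingle (fun _ : Fin n => S) i) a * (Pi.mulSingle i g)⁻¹ := by
      simp [Pi.mulSingle_mul, Pi.mulSingle_inv]
    change (MonoidHom.mulSingle (fun _ : Fin n => S) i) (g * a * g⁻¹) ∈ N
    rw [h2]
    exact h1
  have hcomm : ∀ t : S, y i * t * (y i)⁻¹ * t⁻¹ ∈ L := by
    intro t
    have h1 : y * (Pi.mulSingle i t * y⁻¹ * (Pi.mulSingle i t)⁻¹) ∈ N :=
      N.mul_mem hy (hN.conj_mem _ (N.inv_mem hy) _)
    change (MonoidHom.mulSingle (fun _ : Fin n => S) i) (y i * t * (y i)⁻¹ * t⁻¹) ∈ N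
    convert h1 using 1
    ext j
    by_cases hj : j = i
    · subst hj
      simp [Pi.mulSingle_apply, mul_assoc]
    · simp [Pi.mulSingle_apply, hj]
  rcases hL.eq_bot_or_eq_top with hbot | htop
  · exfalso
    have hcen : y i ∈ Subgroup.center S := by
      rw [Subgroup.mem_center_iff]
      intro t
      have := hcomm t
      rw [hbot, Subgroup.mem_bot] at this
      have h3 : y i * t * (y i)⁻¹ = t := by
        have := congrArg (· * t) this
        simpa using this
      calc t * y i = (y i * t * (y i)⁻¹) * y i := by rw [h3]
        _ = y i * t := by group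
    rcases (inferInstance : (Subgroup.center S).Normal).eq_bot_or_eq_top with h | h
    · rw [h, Subgroup.mem_bot] at hcen
      exact hyi hcen
    · apply hS
      refine ⟨⟨fun a b => ?_⟩⟩
      have ha : a ∈ Subgroup.center S := by rw [h]; trivial
      exact ((Subgroup.mem_center_iff.1 ha) b).symm
  · have : s ∈ L := by rw [htop]; trivial
    exact this

/-- Let S be a non-abelian simple group and n a natural number. Every normal subgroup N of the direct power S^n (functions Fin n → S) is a subproduct: there is a set T of coordinates such that N consists exactly of the elements whose coordinates outside T are trivial. In particular the minimal normal subgroups of S^n are its n factors. -/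
theorem result {S : Type*} [Group S] [IsSimpleGroup S] (hS : ¬ IsMulCommutative S) (n : ℕ)
    (N : Subgroup (Fin n → S)) [N.Normal] :
    ∃ T : Finset (Fin n), ∀ x : Fin n → S, x ∈ N ↔ ∀ i, i ∉ T → x i = 1 := by
  classical
  refine ⟨Finset.univ.filter (fun i => ∃ y ∈ N, y i ≠ 1), ?_⟩
  intro x
  constructor
  · intro hx i hi
    by_contra hne
    apply hi
    simp only [Finset.mem_filter, Finset.mem_univ, true_and]
    exact ⟨x, hx, hne⟩
  · intro hx
    have key : ∀ A : Finset (Fin n), (fun i => if i ∈ A then x i else 1) ∈ N := by
      intro A
      induction A using Finset.induction_on with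
      | empty => exact (by simpa using N.one_mem : (1 : Fin n → S) ∈ N)
      | insert i A hi ih =>
        by_cases hxi : x i = 1
        · convert ih using 1
          ext j
          by_cases hj : j = i
          · subst hj; simp [hxi, hi]
          · simp [hj]
        · have hiT : ∃ y ∈ N, y i ≠ 1 := by
            by_contra hcon
            exact hxi (hx i (by simpa using hcon))
          obtain ⟨y, hy, hyi⟩ := hiT
          have h1 := mulSingle_mem hS n N i y hy hyi (x i)
          convert N.mul_mem h1 ih using 1
          ext j
          by_cases hj : j = i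
          · subst hj; simp [hi]
          · simp [hj, Pi.mulSingle_apply]
    convert key Finset.univ using 1
    ext j
    simp

end Cfsg.Agent.S5913
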