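import Mathlib
import Cfsg.Statements.S5914
import Cfsg.Agent.S5913

set_option autoImplicit false
open Cfsg

namespace Cfsg.Agent.S5914

/-- The `Minimal` predicate on normal non-trivial subgroups is preserved by automorphisms. -/
theorem minimal_map {G : Type*} [Group G] {N : Subgroup G}
    (hN : Minimal (fun K : Subgroup G => K.Normal ∧ K ≠ ⊥) N) (ψ : G ≃* G) :
    Minimal (fun K : Subgroup G => K.Normal ∧ K ≠ ⊥) (N.map ψ.toMonoidHom) := by
  refine ⟨⟨hN.1.1.map _ ψ.surjective, ?_⟩, ?_⟩
  · intro h
    apply hN.1.2
    rwa [Subgroup.map_eq_bot_iff_of_injective _ ψ.injective] at h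
  · rintro Q ⟨hQ, hQ0⟩ hle
    have h1 : Q.map ψ.symm.toMonoidHom ≤ N := by
      rintro _ ⟨x, hx, rfl⟩
      obtain ⟨y, hy, rfl⟩ := hle hx
      simpa using hy
    have h2 := hN.2 ⟨hQ.map _ ψ.symm.surjective, fun h => hQ0 ?_⟩ h1
    · rintro _ ⟨y, hy, rfl⟩
      obtain ⟨x, hx, hxy⟩ := h2 hy
      have : x = ψ y := by
        have := congrArg ψ hxy
        simpa using this
      subst this
      simpa using hx
    · rwa [Subgroup.map_eq_bot_iff_of_injective _ ψ.symm.injective] at h

/-- An instance-free copy of `Fin n`. -/
def Carrier (n : ℕ) : Type := Fin n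

theorem supIndep_insert_of_normal {G : Type*} [Group G] [DecidableEq (Subgroup G)]
    {s : Finset (Subgroup G)} (hnor : ∀ M ∈ s, M.Normal) (hs : s.SupIndep id) {M₀ : Subgroup G}
    (h0 : M₀.Normal) (hM₀ : M₀ ∉ s) (hd : Disjoint M₀ (s.sup id)) : (insert M₀ s).SupIndep id := by
  classical
  rw [Finset.supIndep_iff_disjoint_erase]
  intro M hM
  rw [Finset.mem_insert] at hM
  rcases hM with rfl | hM
  · simpa [Finset.erase_insert hM₀] using hd
  · have hne : M ≠ M₀ := fun h => hM₀ (h ▸ hM)
    rw [Finset.erase_insert_of_ne (Ne.symm hne), Finset.sup_insert]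
    have hsd := (Finset.supIndep_iff_disjoint_erase.1 hs) M hM
    simp only [id] at hsd ⊢
    have hAnor : ∀ t : Finset (Subgroup G), (∀ M ∈ t, M.Normal) → (t.sup id).Normal := by
      intro t
      induction t using Finset.induction_on with
      | empty =>
        intro _
        simpa using (inferInstance : (⊥ : Subgroup G).Normal)
      | insert a t ha ih =>
        intro ht
        rw [Finset.sup_insert]
        have h1 := ih (fun x hx => ht x (by simp [hx]))
        have h2 := ht a (by simp)
        simpa using Subgroup.sup_normal a (t.sup id)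
    have hAn := hAnor (s.erase M) (fun x hx => hnor x (Finset.mem_of_mem_erase hx))
    rw [Subgroup.disjoint_def]
    intro x hxM hx
    rw [Subgroup.mem_sup_of_normal_right] at hx
    obtain ⟨m, hm, a, ha, hma⟩ := hx
    have hmT : m ∈ s.sup id := by
      have hm' : m = x * a⁻¹ := by rw [← hma]; group
      rw [hm']
      refine Subgroup.mul_mem _ ?_ (Subgroup.inv_mem _ ?_)
      · exact (Finset.le_sup (f := id) hM) hxM
      · have h := Finset.sup_mono (f := id) (Finset.erase_subset M s)
        exact h ha
    have hm1 : m = 1 := (Subgroup.disjoint_def.1 hd) hm hmT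
    subst hm1
    rw [one_mul] at hma
    subst hma
    exact (Subgroup.disjoint_def.1 hsd) hxM ha

theorem forward {G : Type*} [Group G] [Finite G] [Nontrivial G]
    (hchar : ∀ H : Subgroup G, H.Characteristic → H = ⊥ ∨ H = ⊤) :
    ∃ (S : Type) (_ : Group S) (_ : IsSimpleGroup S) (n : ℕ), 1 ≤ n ∧
      Nonempty (G ≃* (Fin n → S)) := by
  classical
  obtain ⟨N, hNmin⟩ : ∃ N : Subgroup G, Minimal (fun K : Subgroup G => K.Normal ∧ K ≠ ⊥) N := by
    obtain ⟨N, hN⟩ := (Set.toFinite {K : Subgroup G | K.Normal ∧ K ≠ ⊥}).exists_minimal
      ⟨⊤, inferInstance, top_ne_bot⟩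
    exact ⟨N, hN⟩
  let orb : Set (Subgroup G) := Set.range (fun ψ : G ≃* G => N.map ψ.toMonoidHom)
  have hmin : ∀ M ∈ orb, Minimal (fun K : Subgroup G => K.Normal ∧ K ≠ ⊥) M := by
    rintro _ ⟨ψ, rfl⟩
    exact minimal_map hNmin ψ
  obtain ⟨s, hs⟩ := (Set.toFinite {s : Finset (Subgroup G) | (↑s : Set _) ⊆ orb ∧ s.SupIndep id}).exists_maximal
    ⟨∅, by simp⟩
  have hsorb : (↑s : Set _) ⊆ orb := hs.1.1
  have hsind : s.SupIndep id := hs.1.2
  have hle : ∀ M ∈ orb, M ≤ s.sup id := by
    intro M hM
    by_contra hnle
    have hM' := hmin M hM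
    have hT : (s.sup id).Normal := by
      have : ∀ t : Finset (Subgroup G), (↑t : Set _) ⊆ orb → (t.sup id).Normal := by
        intro t
        induction t using Finset.induction_on with
        | empty =>
          intro _
          simpa using (inferInstance : (⊥ : Subgroup G).Normal)
        | insert a t ha ih =>
          intro ht
          rw [Finset.sup_insert]
          have h1 := ih (fun x hx => ht (by simp [Finset.mem_coe.1 hx]))
          have h2 := (hmin a (ht (by simp))).1.1
          simpa using Subgroup.sup_normal a (t.sup id)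
      exact this s hsorb
    have hdisj : Disjoint M (s.sup id) := by
      rw [disjoint_iff]
      by_contra hne
      have hinf : (M ⊓ s.sup id).Normal := by
        have := hM'.1.1
        exact Subgroup.normal_inf_normal _ _
      have := hM'.2 ⟨hinf, hne⟩ inf_le_left
      exact hnle (this.trans inf_le_right)
    have hMs : M ∉ s := fun h => hnle (Finset.le_sup (f := id) h)
    have hins : (insert M s) ∈ {s : Finset (Subgroup G) | (↑s : Set _) ⊆ orb ∧ s.SupIndep id} := by
      refine ⟨?_, supIndep_insert_of_normal (fun x hx => (hmin x (hsorb hx)).1.1) hsind hM'.1.1 hMs hdisj⟩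
      intro x hx
      simp only [Finset.coe_insert, Set.mem_insert_iff, Finset.mem_coe] at hx
      rcases hx with rfl | hx
      · exact hM
      · exact hsorb hx
    have := hs.2 hins (Finset.subset_insert M s)
    exact hMs (this (Finset.mem_insert_self M s))
  -- the characteristic closure of `N`
  let C : Subgroup G := ⨆ ψ : G ≃* G, N.map ψ.toMonoidHom
  have hCchar : C.Characteristic := by
    rw [Subgroup.characteristic_iff_map_le]
    intro ϕ
    simp only [C]
    rw [Subgroup.map_iSup]
    refine iSup_le fun ψ => ?_
    have : Subgroup.map ϕ.toMonoidHom (Subgroup.map ψ.toMonoidHom N) =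
        N.map (ψ.trans ϕ).toMonoidHom := by
      rw [Subgroup.map_map]
      rfl
    rw [this]
    exact le_iSup (fun ψ : G ≃* G => N.map ψ.toMonoidHom) (ψ.trans ϕ)
  have hNC : N ≤ C := by
    have : N.map (MulEquiv.refl G).toMonoidHom ≤ C :=
      le_iSup (fun ψ : G ≃* G => N.map ψ.toMonoidHom) (MulEquiv.refl G)
    intro x hx
    exact this ⟨x, hx, rfl⟩
  have hCtop : C = ⊤ := by
    rcases hchar C hCchar with h | h
    · exfalso
      rw [h, le_bot_iff] at hNC
      exact hNmin.1.2 hNC
    · exact h
  have hTtop : s.sup id = ⊤ := by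
    rw [eq_top_iff, ← hCtop]
    exact iSup_le fun ψ => hle _ ⟨ψ, rfl⟩
  -- the direct product decomposition
  let ι := ↥s
  let f : ι → Subgroup G := fun i => i.1
  have hfmin : ∀ i, Minimal (fun K : Subgroup G => K.Normal ∧ K ≠ ⊥) (f i) :=
    fun i => hmin _ (hsorb i.2)
  have hfind : iSupIndep f := by
    have := hsind.independent
    exact this
  have hcomm : Pairwise fun i j : ι => ∀ (x y : G), x ∈ f i → y ∈ f j → Commute x y := by
    intro i j hij x y hx hy
    exact Subgroup.commute_of_normal_of_disjoint _ _ (hfmin i).1.1 (hfmin j).1.1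
      (hfind.pairwiseDisjoint hij) x y hx hy
  have hfsup : ⨆ i, f i = ⊤ := by
    rw [eq_top_iff, ← hTtop]
    refine Finset.sup_le fun M hM => ?_
    exact le_iSup f ⟨M, hM⟩
  have hbij : Function.Bijective (Subgroup.noncommPiCoprod hcomm) := by
    refine ⟨Subgroup.injective_noncommPiCoprod_of_iSupIndep hfind, ?_⟩
    rw [← MonoidHom.range_eq_top, Subgroup.noncommPiCoprod_range, hfsup]
  let e : (∀ i : ι, f i) ≃* G := MulEquiv.ofBijective _ hbij
  -- each factor is isomorphic to `N`
  have hiso : ∀ i, Nonempty (f i ≃* N) := by
    intro i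
    obtain ⟨ψ, hψ⟩ := hsorb i.2
    refine ⟨(MulEquiv.subgroupCongr hψ.symm).trans (ψ.subgroupMap N).symm⟩
  let e₁ : ∀ i, f i ≃* N := fun i => (hiso i).some
  -- the index set is non-empty
  obtain ⟨i₀⟩ : Nonempty ι := by
    by_contra hemp
    rw [not_nonempty_iff] at hemp
    have : ⨆ i, f i = ⊥ := by
      rw [iSup_of_empty]
    rw [this] at hfsup
    exact bot_ne_top hfsup
  -- simplicity of the factor
  have hsimple : IsSimpleGroup (f i₀) := by
    have hnt : Nontrivial (f i₀) := (Subgroup.nontrivial_iff_ne_bot _).2 (hfmin i₀).1.2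
    refine ⟨fun K hK => ?_⟩
    let K' : Subgroup G := K.map (f i₀).subtype
    have hK'le : K' ≤ f i₀ := by
      rintro _ ⟨x, -, rfl⟩
      exact x.2
    have hK'nor : K'.Normal := by
      have htop : Subgroup.normalizer (K' : Set G) = ⊤ := by
        rw [eq_top_iff, ← hfsup]
        refine iSup_le fun j g hg => ?_
        rw [Subgroup.mem_normalizer_iff]
        by_cases hj : j = i₀
        · rw [hj] at hg
          intro h
          constructor
          · rintro ⟨k, hk, rfl⟩
            exact ⟨(⟨g, hg⟩ : f i₀) * k * (⟨g, hg⟩ : f i₀)⁻¹, hK.conj_mem _ hk _, rfl⟩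
          · rintro ⟨k, hk, hkh⟩
            have hh : h = g⁻¹ * (g * h * g⁻¹) * g := by group
            rw [hh, ← hkh]
            refine ⟨(⟨g, hg⟩ : f i₀)⁻¹ * k * ((⟨g, hg⟩ : f i₀)⁻¹)⁻¹, hK.conj_mem _ hk _, ?_⟩
            simp
        · intro h
          constructor
          · intro hh
            have hc : Commute h g := hcomm (Ne.symm hj) h g (hK'le hh) hg
            have : g * h * g⁻¹ = h := by
              rw [← hc.eq]
              group
            rwa [this]
          · intro hh
            have hc : Commute (g * h * g⁻¹) g := hcomm (Ne.symm hj) _ g (hK'le hh) hg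
            have h3 : (g * h * g⁻¹) * g = g * (g * h * g⁻¹) := hc.eq
            have h4 : g * h * g⁻¹ = h := by
              have h5 : g * h = g * (g * h * g⁻¹) := by
                rw [← h3]
                group
              exact (mul_left_cancel h5).symm
            rwa [h4] at hh
      constructor
      intro n hn g
      have hg : g ∈ Subgroup.normalizer (K' : Set G) := by rw [htop]; trivial
      exact (Subgroup.mem_normalizer_iff.1 hg n).1 hn
    by_cases hKbot : K' = ⊥
    · left
      rwa [Subgroup.map_eq_bot_iff_of_injective _ (Subgroup.subtype_injective _)] at hKbot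
    · right
      have := (hfmin i₀).2 ⟨hK'nor, hKbot⟩ hK'le
      rw [eq_top_iff]
      intro x _
      obtain ⟨y, hy, hyx⟩ := this x.2
      have : y = x := Subtype.ext hyx
      rwa [← this]
  have hNsimple : IsSimpleGroup N := (e₁ i₀).symm.isSimpleGroup
  -- transport to `Type`
  let eN : N ≃ Carrier (Nat.card N) := Finite.equivFin N
  let grp : Group (Carrier (Nat.card N)) := eN.symm.group
  let eM : Carrier (Nat.card N) ≃* N := eN.symm.mulEquiv
  have hS : IsSimpleGroup (Carrier (Nat.card N)) := eM.isSimpleGroup
  haveI : Fintype ι := inferInstance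
  refine ⟨Carrier (Nat.card N), grp, hS, Fintype.card ι, Fintype.card_pos_iff.2 ⟨i₀⟩, ⟨?_⟩⟩
  refine e.symm.trans ((MulEquiv.piCongrRight e₁).trans ?_)
  exact MulEquiv.arrowCongr (Fintype.equivFin ι) eM.symm

/-- characteristic subgroups of direct powers are trivial. -/
theorem backward_aux {S : Type*} [Group S] [IsSimpleGroup S] (n : ℕ)
    (K : Subgroup (Fin n → S)) (hK : ∀ ψ : (Fin n → S) ≃* (Fin n → S), ∀ x ∈ K, ψ x ∈ K) :
    K = ⊥ ∨ K = ⊤ := by
  classical
  by_cases hbot : K = ⊥
  · exact Or.inl hbot
  right
  have hnor : K.Normal := by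
    constructor
    intro x hx g
    exact hK (MulAut.conj g) x hx
  obtain ⟨⟨x, hx⟩, hx0⟩ := Subgroup.ne_bot_iff_exists_ne_one.1 hbot
  have hx1 : x ≠ 1 := fun h => hx0 (Subtype.ext h)
  obtain ⟨i, hi⟩ : ∃ i, x i ≠ 1 := by
    by_contra hcon
    push Not at hcon
    exact hx1 (funext hcon)
  let L : Fin n → Subgroup S := fun j => K.comap (MonoidHom.mulSingle (fun _ : Fin n => S) j)
  have hLnor : ∀ j, (L j).Normal := by
    intro j
    constructor
    intro a ha g
    have h1 := hnor.conj_mem _ ha (Pi.mulSingle j g)
    have h2 : (MonoidHom.mulSingle (fun _ : Fin n => S) j) (g * a * g⁻¹) =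
        Pi.mulSingle j g * (MonoidHom.mulSingle (fun _ : Fin n => S) j) a * (Pi.mulSingle j g)⁻¹ := by
      simp [Pi.mulSingle_mul, Pi.mulSingle_inv]
    change (MonoidHom.mulSingle (fun _ : Fin n => S) j) (g * a * g⁻¹) ∈ K
    rw [h2]
    exact h1
  -- some `L j` is non-trivial
  have hex : ∃ j, L j ≠ ⊥ := by
    by_cases hS : IsMulCommutative S
    · have hc : ∀ a b : S, a * b = b * a := fun a b => hS.is_comm.comm a b
      by_cases hj : ∃ j, j ≠ i
      · obtain ⟨j, hj⟩ := hj
        let T : (Fin n → S) ≃* (Fin n → S) :=
          { toFun := fun y => Function.update y j (y j * y i)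
            invFun := fun y => Function.update y j (y j * (y i)⁻¹)
            left_inv := by
              intro y
              ext l
              by_cases hl : l = j
              · subst hl
                simp [Function.update_of_ne (Ne.symm hj)]
              · simp [Function.update_of_ne hl]
            right_inv := by
              intro y
              ext l
              by_cases hl : l = j
              · subst hl
                simp [Function.update_of_ne (Ne.symm hj)]
              · simp [Function.update_of_ne hl]
            map_mul' := by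
              intro y z
              ext l
              by_cases hl : l = j
              · subst hl
                simp only [Function.update_self, Pi.mul_apply,
                  Function.update_of_ne (Ne.symm hj)]
                rw [mul_assoc, mul_assoc, ← mul_assoc (z l), hc (z l) (y i)]
                simp only [mul_assoc]
              · simp [Function.update_of_ne hl] }
        have h1 : T x * x⁻¹ ∈ K := K.mul_mem (hK T x hx) (K.inv_mem hx)
        have h2 : T x * x⁻¹ = Pi.mulSingle j (x i) := by
          ext l
          by_cases hl : l = j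
          · subst hl
            simp only [T, Pi.mul_apply, Pi.inv_apply, Pi.mulSingle_eq_same]
            change Function.update x l (x l * x i) l * (x l)⁻¹ = x i
            rw [Function.update_self, hc (x l), mul_inv_cancel_right]
          · simp only [T, Pi.mul_apply, Pi.inv_apply, Pi.mulSingle_eq_of_ne hl]
            change Function.update x j (x j * x i) l * (x l)⁻¹ = 1
            rw [Function.update_of_ne hl, mul_inv_cancel]
        rw [h2] at h1
        refine ⟨j, fun h => hi ?_⟩
        have : x i ∈ L j := h1
        rw [h] at this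
        exact this
      · push Not at hj
        have h2 : x = Pi.mulSingle i (x i) := by
          ext l
          rw [hj l]
          simp
        refine ⟨i, fun h => hi ?_⟩
        have : x i ∈ L i := by
          change Pi.mulSingle i (x i) ∈ K
          rw [← h2]
          exact hx
        rw [h] at this
        exact this
    · refine ⟨i, fun h => hi ?_⟩
      have : x i ∈ L i := Cfsg.Agent.S5913.mulSingle_mem hS n K i x hx hi (x i)
      rw [h] at this
      exact this
  obtain ⟨j₀, hj₀⟩ := hex
  have htop : L j₀ = ⊤ := ((hLnor j₀).eq_bot_or_eq_top).resolve_left hj₀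
  have hall : ∀ j (s : S), (Pi.mulSingle j s : Fin n → S) ∈ K := by
    intro j s
    let σ : Equiv.Perm (Fin n) := Equiv.swap j j₀
    let T : (Fin n → S) ≃* (Fin n → S) :=
      { toFun := fun y => y ∘ σ
        invFun := fun y => y ∘ σ
        left_inv := by
          intro y
          ext l
          simp [σ]
        right_inv := by
          intro y
          ext l
          simp [σ]
        map_mul' := by
          intro y z
          rfl }
    have h0 : (Pi.mulSingle j₀ s : Fin n → S) ∈ K := by
      have : s ∈ L j₀ := by rw [htop]; trivial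
      exact this
    have h1 := hK T _ h0
    convert h1 using 1
    ext l
    change (Pi.mulSingle j s : Fin n → S) l = (Pi.mulSingle j₀ s : Fin n → S) (σ l)
    by_cases hl : l = j
    · subst hl
      simp [σ]
    · have : σ l ≠ j₀ := by
        intro h
        apply hl
        have : l = σ j₀ := by
          rw [← h]
          simp [σ]
        rw [this]
        simp [σ]
      simp [Pi.mulSingle_eq_of_ne hl, Pi.mulSingle_eq_of_ne this]
  rw [eq_top_iff]
  intro y _
  have key : ∀ A : Finset (Fin n), (fun i => if i ∈ A then y i else 1) ∈ K := by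
    intro A
    induction A using Finset.induction_on with
    | empty => exact (by simpa using K.one_mem : (1 : Fin n → S) ∈ K)
    | insert i A hi ih =>
      have h1 := hall i (y i)
      convert K.mul_mem h1 ih using 1
      ext j
      by_cases hj : j = i
      · subst hj; simp [hi]
      · simp [hj, Pi.mulSingle_apply]
  convert key Finset.univ using 1
  ext j
  simp

/-- A non-trivial finite group G is characteristically simple (its only characteristic subgroups are 1 and G) if and only if G is isomorphic to a direct power S^n (n ≥ 1) of some simple group S (possibly cyclic of prime order). -/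
theorem result {G : Type*} [Group G] [Finite G] [Nontrivial G] :
    (∀ H : Subgroup G, H.Characteristic → H = ⊥ ∨ H = ⊤) ↔
    ∃ (S : Type) (_ : Group S) (_ : IsSimpleGroup S) (n : ℕ), 1 ≤ n ∧ Nonempty (G ≃* (Fin n → S)) := by
  constructor
  · exact forward
  · rintro ⟨S, _, _, n, -, ⟨e⟩⟩ H hH
    have key := backward_aux n (H.map e.toMonoidHom) (by
      rintro ψ _ ⟨y, hy, rfl⟩
      let ϕ : G ≃* G := e.trans (ψ.trans e.symm)
      have h1 : ϕ y ∈ H := by
        have h2 : y ∈ H.comap ϕ.toMonoidHom := by
          rw [hH.fixed ϕ]
          exact hy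
        exact h2
      exact ⟨ϕ y, h1, by simp [ϕ]⟩)
    rcases key with h | h
    · left
      rwa [Subgroup.map_eq_bot_iff_of_injective _ e.injective] at h
    · right
      rw [eq_top_iff]
      intro x _
      have : e x ∈ H.map e.toMonoidHom := by rw [h]; trivial
      obtain ⟨y, hy, hyx⟩ := this
      have : y = x := e.injective hyx
      rwa [← this]

end Cfsg.Agent.S5914
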