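import Mathlib
import Cfsg.Statements.S5946

set_option autoImplicit false
open Cfsg

namespace Cfsg.Agent.S5946

/-- Let F ⊆ K be finite fields with [K : F] = n ≥ 2 and regard K as an n-dimensional F-vector space. The Singer group M ≤ GL_F(K) of multiplications by the non-zero elements of K is self-centralizing: every F-linear automorphism of K commuting with all of M lies in M. -/
theorem result {F K : Type*} [Field F] [Fintype F] [Field K] [Fintype K] [Algebra F K] (n : ℕ) (hn : 2 ≤ n) (hdim : Module.finrank F K = n) :
    Subgroup.centralizer (((Units.map ((Algebra.lmul F K : K →ₐ[F] Module.End F K) : K →* Module.End F K)).range : Subgroup (Module.End F K)ˣ) : Set (Module.End F K)ˣ) = (Units.map ((Algebra.lmul F K : K →ₐ[F] Module.End F K) : K →* Module.End F K)).range := by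
  apply le_antisymm
  · intro φ hφ
    rw [Subgroup.mem_centralizer_iff] at hφ
    have hcomm : ∀ c : Kˣ, ∀ x : K, (φ : Module.End F K) ((c : K) * x) = (c : K) * (φ : Module.End F K) x := by
      intro c x
      have h := hφ (Units.map ((Algebra.lmul F K : K →ₐ[F] Module.End F K) : K →* Module.End F K) c) ⟨c, rfl⟩
      have h2 := congrArg (fun g : (Module.End F K)ˣ => (g : Module.End F K) x) h
      simpa [Module.End.mul_apply] using h2.symm
    have hone : (φ : Module.End F K) 1 ≠ 0 := by
      intro h0
      have h1 : (φ⁻¹ : (Module.End F K)ˣ).val ((φ : Module.End F K) 1) = 1 := by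
        have := congrArg (fun g : (Module.End F K)ˣ => (g : Module.End F K) 1) (inv_mul_cancel φ)
        exact this
      rw [h0, map_zero] at h1
      exact zero_ne_one h1
    refine ⟨Units.mk0 _ hone, ?_⟩
    apply Units.ext
    apply LinearMap.ext
    intro x
    by_cases hx : x = 0
    · simp [hx]
    · have := hcomm (Units.mk0 x hx) 1
      simp only [Units.val_mk0, mul_one] at this
      simp [this, mul_comm]
  · rintro _ ⟨c, rfl⟩
    rw [Subgroup.mem_centralizer_iff]
    rintro _ ⟨d, rfl⟩
    apply Units.ext
    apply LinearMap.ext
    intro x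
    simp [Module.End.mul_apply, mul_left_comm]

end Cfsg.Agent.S5946
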