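import Mathlib
import Cfsg.Statements.S5947

set_option autoImplicit false
open Cfsg

namespace Cfsg.Agent.S5947


universe u v w

section aux
variable {F : Type u} [Field F] [Finite F]

theorem eq_zero_of_comm {V : Type v} [AddCommGroup V] [Module F V] {G : Type w} [CommGroup G]
    (ρ : G →* Module.End F V)
    (hno : ∀ W : Submodule F V, (∀ g, ∀ x ∈ W, ρ g x ∈ W) → W = ⊥ ∨ W = ⊤)
    (a : Module.End F V) (ha : ∀ g, a * ρ g = ρ g * a) (v : V) (hv : v ≠ 0) (hav : a v = 0) :
    a = 0 := by
  have h := hno (LinearMap.ker a) (by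
    intro g x hx
    rw [LinearMap.mem_ker] at hx ⊢
    have := congrArg (fun T : Module.End F V => T x) (ha g)
    simp only [Module.End.mul_apply] at this
    rw [this, hx, map_zero])
  rcases h with h | h
  · exfalso
    have : v ∈ LinearMap.ker a := hav
    rw [h, Submodule.mem_bot] at this
    exact hv this
  · exact LinearMap.ker_eq_top.1 h

theorem comm_range {V : Type v} [AddCommGroup V] [Module F V] {G : Type w} [CommGroup G]
    (ρ : G →* Module.End F V) (g h : G) : ρ g * ρ h = ρ h * ρ g := by
  rw [← map_mul, ← map_mul, mul_comm]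

theorem range_ne_zero {V : Type v} [AddCommGroup V] [Module F V] {G : Type w} [CommGroup G]
    (ρ : G →* Module.End F V)
    (hno : ∀ W : Submodule F V, (∀ g, ∀ x ∈ W, ρ g x ∈ W) → W = ⊥ ∨ W = ⊤)
    (g : G) (v : V) (hv : v ≠ 0) : ρ g v ≠ 0 := by
  intro h
  have h0 := eq_zero_of_comm ρ hno (ρ g) (fun k => comm_range ρ g k) v hv h
  have h1 : ρ g * ρ g⁻¹ = 1 := by rw [← map_mul, mul_inv_cancel, map_one]
  rw [h0, zero_mul] at h1
  apply hv
  have := congrArg (fun T : Module.End F V => T v) h1
  simpa using this.symm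

theorem range_inj {V : Type v} [AddCommGroup V] [Module F V] {G : Type w} [CommGroup G]
    (ρ : G →* Module.End F V)
    (hno : ∀ W : Submodule F V, (∀ g, ∀ x ∈ W, ρ g x ∈ W) → W = ⊥ ∨ W = ⊤)
    (g h : G) (v : V) (hv : v ≠ 0) (hgh : ρ g v = ρ h v) : ρ g = ρ h := by
  have h0 := eq_zero_of_comm ρ hno (ρ g - ρ h) (fun k => by
    rw [sub_mul, mul_sub, comm_range ρ g k, comm_range ρ h k]) v hv (by simp [hgh])
  exact sub_eq_zero.1 h0

theorem card_range_le (p : ℕ) [Fact p.Prime] [CharP F p] (d : ℕ) :
    ∀ (V : Type v) [AddCommGroup V] [Module F V] [Module.Finite F V], Module.finrank F V = d →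
    0 < d →
    ∀ (G : Type w) [CommGroup G] [Finite G] (ρ : G →* Module.End F V), ¬ p ∣ Nat.card G →
    Nat.card (Set.range ρ) + 1 ≤ (Nat.card F) ^ d ∧
    (Nat.card (Set.range ρ) + 1 = (Nat.card F) ^ d →
      ∀ W : Submodule F V, (∀ g, ∀ x ∈ W, ρ g x ∈ W) → W = ⊥ ∨ W = ⊤) := by
  induction d using Nat.strong_induction_on with
  | _ d ih =>
  intro V _ _ _ hd hd0 G _ _ ρ hp
  by_cases hW : ∃ W : Submodule F V, (∀ g, ∀ x ∈ W, ρ g x ∈ W) ∧ W ≠ ⊥ ∧ W ≠ ⊤
  · obtain ⟨W, hinv, hbot, htop⟩ := hW
    let ρ₁ : G →* Module.End F W :=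
      { toFun := fun g => (ρ g).restrict (hinv g)
        map_one' := by
          ext x
          simp
        map_mul' := by
          intro g h
          ext x
          simp }
    let ρ₂ : G →* Module.End F (V ⧸ W) :=
      { toFun := fun g => W.mapQ W (ρ g) (fun x hx => hinv g x hx)
        map_one' := by
          ext x
          simp
        map_mul' := by
          intro g h
          ext x
          simp }
    have ha : 0 < Module.finrank F W := Module.finrank_pos_iff.2
      ((Submodule.nontrivial_iff_ne_bot).2 hbot)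
    have hb : 0 < Module.finrank F (V ⧸ W) := by
      haveI : Nontrivial (V ⧸ W) := Submodule.Quotient.nontrivial_iff.2 htop
      exact Module.finrank_pos
    have hab : Module.finrank F (V ⧸ W) + Module.finrank F W = d := by
      rw [← hd]
      exact Submodule.finrank_quotient_add_finrank W
    have h1 := (ih (Module.finrank F W) (by omega) W rfl ha G ρ₁ hp).1
    have h2 := (ih (Module.finrank F (V ⧸ W)) (by omega) (V ⧸ W) rfl hb G ρ₂ hp).1
    have hinj : ∀ g h, ρ₁ g = ρ₁ h → ρ₂ g = ρ₂ h → ρ g = ρ h := by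
      intro g h hg1 hg2
      set x := g * h⁻¹ with hx
      have hx1 : ρ₁ x = 1 := by
        rw [hx, map_mul, hg1, ← map_mul, mul_inv_cancel, map_one]
      have hx2 : ρ₂ x = 1 := by
        rw [hx, map_mul, hg2, ← map_mul, mul_inv_cancel, map_one]
      set T : Module.End F V := ρ x - 1 with hT
      have hTW : ∀ v ∈ W, T v = 0 := by
        intro v hv
        have := congrArg (fun S : Module.End F W => ((S ⟨v, hv⟩ : W) : V)) hx1
        simp only [ρ₁, MonoidHom.mk'_apply, Module.End.one_apply] at this
        simpa [hT, sub_eq_zero] using this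
      have hTV : ∀ v, T v ∈ W := by
        intro v
        have := congrArg (fun S : Module.End F (V ⧸ W) => S (Submodule.Quotient.mk v)) hx2
        simp only [ρ₂, MonoidHom.mk'_apply, Module.End.one_apply, Submodule.mapQ_apply] at this
        have h3 := (Submodule.Quotient.eq W).1 this
        simpa [hT] using h3
      have hTT : T * T = 0 := by
        ext v
        exact hTW _ (hTV v)
      have hpow : ∀ m : ℕ, (ρ x) ^ m = 1 + (m : F) • T := by
        intro m
        have hxT : ρ x = 1 + T := by rw [hT]; abel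
        induction m with
        | zero => simp
        | succ m ihm =>
          rw [pow_succ, ihm, hxT, mul_add, add_mul, add_mul, mul_one, one_mul, mul_one,
            smul_mul_assoc, hTT, smul_zero, add_zero, Nat.cast_succ, add_smul, one_smul, add_assoc]
      have hm := hpow (Nat.card G)
      rw [← map_pow, pow_card_eq_one', map_one] at hm
      have hm0 : ((Nat.card G : ℕ) : F) ≠ 0 := by
        rwa [Ne, CharP.cast_eq_zero_iff F p]
      have hT0 : T = 0 := by
        have h4 : ((Nat.card G : ℕ) : F) • T = 0 := by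
          have := hm.symm
          simpa using this
        exact (smul_eq_zero.1 h4).resolve_left hm0
      have hx3 : ρ x = 1 := by
        rw [hT] at hT0
        exact sub_eq_zero.1 hT0
      calc ρ g = ρ (x * h) := by rw [hx]; group
        _ = ρ h := by rw [map_mul, hx3, one_mul]
    have hcard : Nat.card (Set.range ρ) ≤ Nat.card (Set.range ρ₁) * Nat.card (Set.range ρ₂) := by
      rw [← Nat.card_prod]
      refine Nat.card_le_card_of_injective
        (fun y => ((⟨ρ₁ y.2.choose, ⟨_, rfl⟩⟩ : Set.range ρ₁), (⟨ρ₂ y.2.choose, ⟨_, rfl⟩⟩ : Set.range ρ₂))) ?_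
      rintro ⟨y, hy⟩ ⟨z, hz⟩ hyz
      simp only [Prod.mk.injEq, Subtype.mk.injEq] at hyz
      have := hinj _ _ (congrArg Subtype.val hyz.1) (congrArg Subtype.val hyz.2)
      rw [hy.choose_spec, hz.choose_spec] at this
      exact Subtype.ext this
    have hq : 2 ≤ Nat.card F := Finite.one_lt_card
    have hA : 2 ≤ (Nat.card F) ^ Module.finrank F W :=
      le_trans hq (Nat.le_self_pow ha.ne' _)
    have hB : 2 ≤ (Nat.card F) ^ Module.finrank F (V ⧸ W) :=
      le_trans hq (Nat.le_self_pow hb.ne' _)
    have hprod : (Nat.card F) ^ d = (Nat.card F) ^ Module.finrank F W *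
        (Nat.card F) ^ Module.finrank F (V ⧸ W) := by
      rw [← pow_add, ← hab, add_comm]
    have hlt : Nat.card (Set.range ρ) + 1 < (Nat.card F) ^ d := by
      rw [hprod]
      obtain ⟨A, hA'⟩ : ∃ A, (Nat.card F) ^ Module.finrank F W = A + 1 :=
        ⟨_, (Nat.sub_add_cancel (by omega)).symm⟩
      obtain ⟨B, hB'⟩ : ∃ B, (Nat.card F) ^ Module.finrank F (V ⧸ W) = B + 1 :=
        ⟨_, (Nat.sub_add_cancel (by omega)).symm⟩
      rw [hA'] at h1 hA ⊢
      rw [hB'] at h2 hB ⊢
      have h5 : Nat.card (Set.range ρ₁) * Nat.card (Set.range ρ₂) ≤ A * B :=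
        Nat.mul_le_mul (by omega) (by omega)
      nlinarith
    refine ⟨hlt.le, fun h => ?_⟩
    omega
  · have hno : ∀ W : Submodule F V, (∀ g, ∀ x ∈ W, ρ g x ∈ W) → W = ⊥ ∨ W = ⊤ := by
      intro W hinv
      by_contra hcon
      push Not at hcon
      exact hW ⟨W, hinv, hcon.1, hcon.2⟩
    refine ⟨?_, fun _ => hno⟩
    haveI : Nontrivial V := Module.nontrivial_of_finrank_pos (R := F) (by omega)
    obtain ⟨v, hv⟩ := exists_ne (0 : V)
    have hF : Finite V := Module.finite_of_finite F
    have hcardV : Nat.card V = (Nat.card F) ^ d := by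
      rw [← hd]
      exact Module.natCard_eq_pow_finrank
    rw [← hcardV, ← Finite.card_option]
    refine Nat.card_le_card_of_injective
      (fun o => match o with
        | none => (0 : V)
        | some y => (y : Module.End F V) v) ?_
    rintro (_ | ⟨y, g, rfl⟩) (_ | ⟨z, h, rfl⟩) hyz
    · rfl
    · exact absurd hyz.symm (range_ne_zero ρ hno h v hv)
    · exact absurd hyz (range_ne_zero ρ hno g v hv)
    · have := range_inj ρ hno g h v hv hyz
      simp only [this]

theorem algEquiv_of_card {F' K R : Type*} [Field F'] [Field K] [Fintype K] [Algebra F' K] [Field R]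
    [Fintype R] [Algebra F' R] (h : Fintype.card K = Fintype.card R) : Nonempty (K ≃ₐ[F'] R) := by
  have h1 := FiniteField.isSplittingField_sub K F'
  have h2 := FiniteField.isSplittingField_sub R F'
  rw [← h] at h2
  exact ⟨(Polynomial.IsSplittingField.algEquiv K (Polynomial.X ^ Fintype.card K - Polynomial.X)).trans
    (Polynomial.IsSplittingField.algEquiv R (Polynomial.X ^ Fintype.card K - Polynomial.X)).symm⟩

end aux

/-- Let F ⊆ K be finite fields with |F| = q and [K : F] = n ≥ 2, regard K as an n-dimensional F-vector space, and let M ≤ GL_F(K) be the Singer group of multiplications by non-zero elements of K (cyclic of order q^n − 1). Assume (n, q) ≠ (6, 2), and that it is not the case that n = 2 with q a prime such that q + 1 is a power of 2. Then every abelian subgroup of GL_F(K) of order q^n − 1 is conjugate to M. -/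
theorem result {F K : Type*} [Field F] [Fintype F] [Field K] [Fintype K] [Algebra F K] (n : ℕ) (hn : 2 ≤ n) (hdim : Module.finrank F K = n)
    (hex1 : ¬ (n = 6 ∧ Fintype.card F = 2))
    (hex2 : ¬ (n = 2 ∧ (Fintype.card F).Prime ∧ ∃ a : ℕ, Fintype.card F + 1 = 2 ^ a))
    (U : Subgroup (Module.End F K)ˣ) (hU : IsMulCommutative U) (hcard : Nat.card U = Fintype.card K - 1) :
    ∃ g : (Module.End F K)ˣ, U.map (MulAut.conj g).toMonoidHom = (Units.map ((Algebra.lmul F K : K →ₐ[F] Module.End F K) : K →* Module.End F K)).range := by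
  classical
  obtain ⟨p, hp⟩ := CharP.exists F
  haveI hpf : Fact p.Prime := ⟨by
    rcases CharP.char_is_prime_or_zero F p with h | h
    · exact h
    · exfalso
      subst h
      have := CharP.charP_to_charZero F
      exact not_finite F⟩
  have hd0 : 0 < n := by omega
  have hcardK : Fintype.card K = (Fintype.card F) ^ n := by
    rw [← hdim]
    exact Module.card_eq_pow_finrank
  have hq2 : 2 ≤ Fintype.card F := Fintype.one_lt_card
  have hK2 : 2 ≤ Fintype.card K := Fintype.one_lt_card
  have hpq : p ∣ Fintype.card F := by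
    obtain ⟨f, hf⟩ := FiniteField.card F p
    rw [hf.2]
    exact dvd_pow_self p f.ne_zero
  have hpK : p ∣ Fintype.card K := by
    rw [hcardK]
    exact dvd_pow hpq hd0.ne'
  have hpU : ¬ p ∣ Nat.card U := by
    intro h
    rw [hcard] at h
    have h1 := (Nat.dvd_sub_iff_right (by omega) hpK).1 h
    exact hpf.out.one_lt.ne' (Nat.dvd_one.1 h1)
  let ρ : U →* Module.End F K := (Units.coeHom _).comp U.subtype
  have hρinj : Function.Injective ρ := by
    intro a b hab
    exact Subtype.ext (Units.ext hab)
  haveI : Finite U := Nat.finite_of_card_ne_zero (by rw [hcard]; omega)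
  letI cg : CommGroup U := { (inferInstance : Group U) with mul_comm := hU.is_comm.comm }
  have hρcard : Nat.card (Set.range ρ) = Fintype.card K - 1 := by
    rw [Nat.card_range_of_injective hρinj, hcard]
  have hcrit := card_range_le (F := F) p n K hdim hd0 U ρ hpU
  have hno := hcrit.2 (by
    rw [hρcard, Nat.card_eq_fintype_card, ← hcardK]
    omega)
  -- the base vector
  have hv₀ : (1 : K) ≠ 0 := one_ne_zero
  let C : Subalgebra F (Module.End F K) := Subalgebra.centralizer F (Set.range ρ)
  have hmemC : ∀ a : Module.End F K, a ∈ C ↔ ∀ g : U, a * ρ g = ρ g * a := by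
    intro a
    rw [Subalgebra.mem_centralizer_iff]
    constructor
    · intro h g
      exact (h _ ⟨g, rfl⟩).symm
    · rintro h _ ⟨g, rfl⟩
      exact (h g).symm
  have hρC : ∀ g : U, ρ g ∈ C := fun g => (hmemC _).2 fun k => comm_range ρ g k
  have hCzero : ∀ a ∈ C, a (1 : K) = 0 → a = 0 := fun a ha h =>
    eq_zero_of_comm ρ hno a ((hmemC a).1 ha) 1 hv₀ h
  -- the orbit of the base vector is everything
  have horbit : ∀ w : K, w ≠ 0 → ∃ g : U, ρ g (1 : K) = w := by
    let o : Option (Set.range ρ) → K := fun o => match o with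
      | none => (0 : K)
      | some y => (y : Module.End F K) 1
    have hoinj : Function.Injective o := by
      rintro (_ | ⟨y, g, rfl⟩) (_ | ⟨z, h, rfl⟩) hyz
      · rfl
      · exact absurd hyz.symm (range_ne_zero ρ hno h 1 hv₀)
      · exact absurd hyz (range_ne_zero ρ hno g 1 hv₀)
      · have := range_inj ρ hno g h 1 hv₀ hyz
        simp only [this]
    have hosurj : Function.Surjective o := by
      refine (Function.Injective.bijective_of_nat_card_le hoinj ?_).2
      rw [Finite.card_option, hρcard, Nat.card_eq_fintype_card]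
      omega
    intro w hw
    obtain ⟨o', ho'⟩ := hosurj w
    rcases o' with _ | ⟨y, g, rfl⟩
    · exact absurd ho'.symm hw
    · exact ⟨g, ho'⟩
  have hCform : ∀ a ∈ C, a ≠ 0 → ∃ g : U, a = ρ g := by
    intro a ha ha0
    have hw : a (1 : K) ≠ 0 := fun h => ha0 (hCzero a ha h)
    obtain ⟨g, hg⟩ := horbit _ hw
    refine ⟨g, ?_⟩
    have := hCzero (a - ρ g) (C.sub_mem ha (hρC g)) (by simp [hg])
    exact sub_eq_zero.1 this
  have hCcomm : ∀ a ∈ C, ∀ b ∈ C, a * b = b * a := by
    intro a ha b hb
    by_cases hb0 : b = 0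
    · simp [hb0]
    · obtain ⟨g, rfl⟩ := hCform b hb hb0
      exact (hmemC a).1 ha g
  -- `C` is a field
  letI crC : CommRing C := { (inferInstance : Ring C) with
    mul_comm := fun a b => Subtype.ext (hCcomm a.1 a.2 b.1 b.2) }
  have hCfield : IsField C := by
    refine ⟨⟨0, 1, ?_⟩, fun a b => mul_comm a b, ?_⟩
    · intro h
      have h1 : (0 : Module.End F K) = 1 := congrArg Subtype.val h
      have h2 := congrArg (fun T : Module.End F K => T (1 : K)) h1
      simp at h2
    · intro a ha
      have ha' : a.1 ≠ 0 := fun h => ha (Subtype.ext h)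
      obtain ⟨g, hg⟩ := hCform a.1 a.2 ha'
      refine ⟨⟨ρ g⁻¹, hρC _⟩, Subtype.ext ?_⟩
      change a.1 * ρ g⁻¹ = 1
      rw [hg, ← map_mul, mul_inv_cancel, map_one]
  letI fC : Field C := hCfield.toField
  haveI : Finite (Module.End F K) :=
    Finite.of_injective (fun f => (f : K → K)) DFunLike.coe_injective
  letI : Fintype C := Fintype.ofFinite C
  have hcardC : Fintype.card K = Fintype.card C := by
    rw [← Nat.card_eq_fintype_card, ← Nat.card_eq_fintype_card]
    refine (Nat.card_congr (Equiv.ofBijective (fun a : C => (a.1 : Module.End F K) (1 : K)) ⟨?_, ?_⟩)).symm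
    · intro a b hab
      have := hCzero (a.1 - b.1) (C.sub_mem a.2 b.2) (by
        simp only [LinearMap.sub_apply]
        exact sub_eq_zero.2 hab)
      exact Subtype.ext (sub_eq_zero.1 this)
    · intro w
      by_cases hw : w = 0
      · exact ⟨0, by simp [hw]⟩
      · obtain ⟨g, hg⟩ := horbit w hw
        exact ⟨⟨ρ g, hρC g⟩, hg⟩
  obtain ⟨φ⟩ := algEquiv_of_card (F' := F) (K := K) (R := C) hcardC
  let gL : Module.End F K :=
    { toFun := fun x => ((φ x : C) : Module.End F K) (1 : K)
      map_add' := by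
        intro x y
        rw [map_add]
        rfl
      map_smul' := by
        intro c x
        rw [map_smul]
        rfl }
  have hgL : ∀ x, gL x = ((φ x : C) : Module.End F K) (1 : K) := fun _ => rfl
  have hgmul : ∀ c x : K, gL (c * x) = ((φ c : C) : Module.End F K) (gL x) := by
    intro c x
    rw [hgL, hgL, map_mul]
    rfl
  have hgbij : Function.Bijective gL := by
    constructor
    · intro x y hxy
      rw [hgL, hgL] at hxy
      have := hCzero ((φ x : C).1 - (φ y : C).1) (C.sub_mem (φ x).2 (φ y).2) (by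
        simp only [LinearMap.sub_apply]
        exact sub_eq_zero.2 hxy)
      exact φ.injective (Subtype.ext (sub_eq_zero.1 this))
    · intro w
      by_cases hw : w = 0
      · refine ⟨0, ?_⟩
        rw [hw, map_zero]
      · obtain ⟨g, hg⟩ := horbit w hw
        refine ⟨φ.symm ⟨ρ g, hρC g⟩, ?_⟩
        rw [hgL]
        simpa using hg
  obtain ⟨g, hg⟩ := (Module.End.isUnit_iff gL).2 hgbij
  have hkey : ∀ (c : Kˣ) (u : (Module.End F K)ˣ), ((φ (c : K) : C) : Module.End F K) = u.val →
      (MulAut.conj g⁻¹).toMonoidHom u =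
        Units.map ((Algebra.lmul F K : K →ₐ[F] Module.End F K) : K →* Module.End F K) c := by
    intro c u hcu
    have h1 : u * g = g * Units.map ((Algebra.lmul F K : K →ₐ[F] Module.End F K) : K →* Module.End F K) c := by
      apply Units.ext
      ext x
      simp only [Units.val_mul, hg, Module.End.mul_apply, Units.coe_map]
      change u.val (gL x) = gL ((c : K) * x)
      rw [hgmul, hcu]
    simp only [MulEquiv.toMonoidHom_eq_coe, MonoidHom.coe_coe, MulAut.conj_apply, inv_inv]
    rw [mul_assoc, h1]
    group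
  refine ⟨g⁻¹, ?_⟩
  ext y
  constructor
  · rintro ⟨u, hu, rfl⟩
    have hu0 : ((⟨ρ ⟨u, hu⟩, hρC _⟩ : C)) ≠ 0 := by
      intro h
      have h1 : (ρ ⟨u, hu⟩) = 0 := congrArg Subtype.val h
      have h2 := congrArg (fun T : Module.End F K => T (1 : K)) h1
      exact range_ne_zero ρ hno _ 1 hv₀ h2
    set c := φ.symm ⟨ρ ⟨u, hu⟩, hρC _⟩ with hc
    have hc0 : c ≠ 0 := by
      intro h
      apply hu0
      have := congrArg φ h
      rw [hc, map_zero] at this
      simpa using this
    refine ⟨Units.mk0 c hc0, (hkey _ u ?_).symm⟩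
    simp only [Units.val_mk0, hc, AlgEquiv.apply_symm_apply]
    rfl
  · rintro ⟨c, rfl⟩
    have hc0 : (φ (c : K) : C) ≠ 0 := by
      intro h
      apply c.ne_zero
      exact φ.injective (by rw [h, map_zero])
    have hc0' : (φ (c : K) : C).1 ≠ 0 := fun h => hc0 (Subtype.ext h)
    obtain ⟨u, hu⟩ := hCform _ (φ (c : K) : C).2 hc0'
    exact ⟨u.1, u.2, hkey c u.1 hu⟩

end Cfsg.Agent.S5947
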